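import Cfsg.Statements.S0942
import Cfsg.Agent.Lib.BlockLocal.PrincipalColumns
-- import your own Cfsg.Agent.* helpers here

set_option autoImplicit false
open Cfsg

namespace Cfsg.Agent.S0942

/-- Let u be a p-element of the finite group G, let v lie in the largest normal subgroup of C_G(u) of order prime to p, and let χ belong to the principal block (relative to a maximal ideal M of the algebraic integers containing p). Then χ (u * v) = χ u. -/
theorem result {G : Type*} [Group G] [Finite G] (p : ℕ) [Fact p.Prime] (M : Ideal Cfsg.AlgInt) (hM : Cfsg.IsPModular p M) (u : G) (hu : ∃ k : ℕ, orderOf u = p ^ k) (v : G) (hv : v ∈ Cfsg.centralizerPPrimeCore p u) (χ : Cfsg.IrrCharacter G) (hχ : χ ∈ Cfsg.principalBlock M G) : (χ : G → ℂ) (u * v) = (χ : G → ℂ) u := by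
  classical
  haveI := CfsgLib.Blocks.isPrime_of_isPModular hM
  haveI := Fintype.ofFinite G
  haveI := Fintype.ofFinite (Subgroup.centralizer ({u} : Set G))
  haveI := Fintype.ofFinite (Cfsg.IrrCharacter (Subgroup.centralizer ({u} : Set G)))
  obtain ⟨w, hw, rfl⟩ := Subgroup.mem_map.1 hv
  haveI : (Cfsg.pPrimeCore p (Subgroup.centralizer ({u} : Set G))).Normal :=
    Subgroup.sSup_normal _ (fun _ h => h.1)
  have hN : ¬ p ∣ Nat.card (Cfsg.pPrimeCore p (Subgroup.centralizer ({u} : Set G))) :=
    CfsgLib.Cores.not_dvd_card_pPrimeCore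
  have hwr : ¬ p ∣ orderOf w := fun h =>
    hN (h.trans (Subgroup.orderOf_dvd_natCard _ hw))
  have h1r : ¬ p ∣ orderOf (1 : Subgroup.centralizer ({u} : Set G)) := by
    rw [orderOf_one]
    exact (Fact.out : p.Prime).not_dvd_one
  have h1 := CfsgLib.BlockLocal.apply_mul_eq_sectionPart hM hu hχ hwr
  have h2 := CfsgLib.BlockLocal.apply_mul_eq_sectionPart hM hu hχ h1r
  rw [OneMemClass.coe_one, mul_one] at h2
  rw [Subgroup.coe_subtype, h1, h2, CfsgLib.BlockLocal.sectionPart,
    CfsgLib.BlockLocal.sectionPart]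
  refine Finset.sum_congr rfl fun ξ _ => ?_
  split_ifs with hξ
  · rw [CfsgLib.BlockLocal.apply_eq_one_of_sameBlock hM _ hN
      (CfsgLib.Blocks.sameBlock_of_mem (CfsgLib.BlockLocal.principalBlock_isPBlock M _)
        (CfsgLib.BlockLocal.trivIrr_mem_principalBlock _) hξ) (fun _ _ => rfl) w hw]
  · rfl

end Cfsg.Agent.S0942
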