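import Cfsg.Statements.S0948
import Cfsg.Agent.Lib.BlockLocal.KleinFour
import Cfsg.Agent.S0942
import Cfsg.Agent.S0947
-- import your own Cfsg.Agent.* helpers here

set_option autoImplicit false
open Cfsg

namespace Cfsg.Agent.S0948

/-- Let the finite group G have a Sylow 2-subgroup P that is a Klein four-group, suppose all involutions of G are conjugate, and fix a maximal ideal M of the algebraic integers containing 2. Then the principal block consists of exactly four irreducible characters, the principal character and ζ₂, ζ₃, ζ₄, and there is a sign ε such that for every involution z: ζ₂ z = 1, ζ₃ z = ε, ζ₄ z = -1; moreover ζ₂ 1 ≡ 1, ζ₃ 1 ≡ ε, ζ₄ 1 ≡ -1 (mod 4), and 1 + ζ₂ y + ε ζ₃ y - ζ₄ y = 0 for every y of odd order. -/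
theorem result {G : Type*} [Group G] [Finite G] (M : Ideal Cfsg.AlgInt) (hM : Cfsg.IsPModular 2 M) (P : Sylow 2 G) (hP : IsKleinFour (P : Subgroup G)) (hone : ∀ s t : G, orderOf s = 2 → orderOf t = 2 → IsConj s t) : ∃ ζ₂ ζ₃ ζ₄ : Cfsg.IrrCharacter G, ∃ ε : ℤ, (ε = 1 ∨ ε = -1) ∧ (ζ₂ : G → ℂ) ≠ (fun _ => 1) ∧ (ζ₃ : G → ℂ) ≠ (fun _ => 1) ∧ ζ₂ ≠ ζ₃ ∧ ζ₂ ≠ ζ₄ ∧ ζ₃ ≠ ζ₄ ∧ Cfsg.principalBlock M G = {χ : Cfsg.IrrCharacter G | (χ : G → ℂ) = (fun _ => 1) ∨ χ = ζ₂ ∨ χ = ζ₃ ∨ χ = ζ₄} ∧ (∀ z : G, orderOf z = 2 → (ζ₂ : G → ℂ) z = 1 ∧ (ζ₃ : G → ℂ) z = (ε : ℂ) ∧ (ζ₄ : G → ℂ) z = -1) ∧ (4 : ℤ) ∣ (Cfsg.charDegree (ζ₂ : G → ℂ) : ℤ) - 1 ∧ (4 : ℤ) ∣ (Cfsg.charDegree (ζ₃ : G → ℂ) : ℤ) - ε ∧ (4 : ℤ) ∣ (Cfsg.charDegree (ζ₄ : G → ℂ) : ℤ) + 1 ∧ ∀ y : G, Odd (orderOf y) → 1 + (ζ₂ : G → ℂ) y + (ε : ℂ) * (ζ₃ : G → ℂ) y - (ζ₄ : G → ℂ) y = 0 := by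
  classical
  haveI := CfsgLib.Blocks.isPrime_of_isPModular hM
  haveI := Fintype.ofFinite G
  haveI := Fintype.ofFinite (Cfsg.IrrCharacter G)
  obtain ⟨z, hzP, hz2⟩ := CfsgLib.BlockLocal.exists_involution_mem P hP
  have hz' : ∃ k : ℕ, orderOf z = 2 ^ k := ⟨1, by rw [hz2, pow_one]⟩
  have hzne : z ≠ 1 := fun h => by simp [h] at hz2
  obtain ⟨hnc, hfac⟩ := CfsgLib.BlockLocal.centralizer_complement P hP z hz2 hzP
  set B0 := Cfsg.principalBlock M G with hB0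
  have hBB : Cfsg.IsPBlock M B0 := CfsgLib.BlockLocal.principalBlock_isPBlock M G
  set S : Finset (Cfsg.IrrCharacter G) := Finset.univ.filter (· ∈ B0) with hS
  have hmemS : ∀ χ, χ ∈ S ↔ χ ∈ B0 := fun χ => by simp [hS]
  choose a ha using fun χ : Cfsg.IrrCharacter G =>
    CfsgLib.BlockLocal.exists_int_apply_involution χ hz2
  set t := CfsgLib.CharTheory.trivIrr G with ht
  have htS : t ∈ S := (hmemS t).2 (CfsgLib.BlockLocal.trivIrr_mem_principalBlock G)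
  have hat : a t = 1 := by
    have h1 : ((a t : ℤ) : ℂ) = ((1 : ℤ) : ℂ) := by rw [← ha t, Int.cast_one]; rfl
    exact_mod_cast h1
  -- values on the singular elements
  have hsing : ∀ χ ∈ S, ∀ g : G, 2 ∣ orderOf g → (χ : G → ℂ) g = (a χ : ℂ) := by
    intro χ hχ g hg
    obtain ⟨c, y, hy, hyc⟩ := CfsgLib.BlockLocal.exists_conj_section P hP z hz2 hone hg
    rw [← CfsgLib.CharTheory.IsIrrCharacter.isClassFunction χ.2 g c, hyc, ← ha χ]
    refine Cfsg.Agent.S0942.result 2 M hM z hz' (y : G) ?_ χ ((hmemS χ).1 hχ)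
    exact Subgroup.mem_map.2 ⟨y, CfsgLib.BlockLocal.mem_of_p_regular hnc hy, rfl⟩
  have hinv : ∀ χ ∈ S, ∀ w : G, orderOf w = 2 → (χ : G → ℂ) w = (a χ : ℂ) := fun χ hχ w hw =>
    hsing χ hχ w (dvd_of_eq hw.symm)
  -- sum of squares
  have hsum : ∑ χ ∈ S, a χ ^ 2 = 4 := by
    have h := (Cfsg.Agent.S0947.result 2 M hM z hz' hzne 1
      (by rw [orderOf_one]; decide)).2 hnc
    rw [hfac, OneMemClass.coe_one, mul_one] at h
    rw [finsum_mem_eq_finite_toFinset_sum _ B0.toFinite] at h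
    have h2 : ((∑ χ ∈ S, a χ ^ 2 : ℤ) : ℝ) = ((4 : ℤ) : ℝ) := by
      rw [Int.cast_sum]
      refine Eq.trans (Finset.sum_congr (Finset.ext fun χ => ?_) fun χ _ => ?_) (h.trans ?_)
      · simp [hS]
      · rw [ha χ, Complex.norm_intCast, sq_abs, Int.cast_pow]
      · norm_num
    exact_mod_cast h2
  -- nonvanishing
  have hne : ∀ χ ∈ S, a χ ≠ 0 := by
    intro χ hχ h0
    have hχt : χ ≠ t := fun h => by rw [h, hat] at h0; exact one_ne_zero h0
    have hpair : CfsgLib.BlockLocal.pairReg 2 (χ : G → ℂ) (t : G → ℂ) = 0 := by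
      have h := CfsgLib.CharTheory.classInner_irrCharacter χ t
      rw [if_neg hχt, Cfsg.classInner, mul_eq_zero] at h
      have h' := h.resolve_left (inv_ne_zero (Nat.cast_ne_zero.2 Nat.card_pos.ne'))
      refine Eq.trans (Finset.sum_congr rfl fun x _ => ?_) h'
      have ht1 : ∀ x : G, (t : G → ℂ) x = 1 := fun x => rfl
      rw [CfsgLib.BlockLocal.regInv, ht1, ht1, map_one]
      split_ifs with hx
      · rw [hsing χ hχ x hx, h0]; simp
      · ring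
    have h1 := CfsgLib.BlockLocal.memLocalIdeal_pairReg_div_sub (M := M) 2
      (CfsgLib.Blocks.sameBlock_of_mem hBB ((hmemS χ).1 hχ) ((hmemS t).1 htS)) t
    rw [hpair, zero_div, zero_sub] at h1
    have h2 := CfsgLib.Blocks.memLocalIdeal_neg h1
    rw [neg_neg] at h2
    exact CfsgLib.BlockLocal.not_memLocalIdeal_pairReg' hM hBB ((hmemS t).1 htS)
      (CfsgLib.BlockLocal.blockHeight_trivIrr B0) h2
  have hsq : ∀ χ ∈ S, 1 ≤ a χ ^ 2 := fun χ hχ => by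
    have := hne χ hχ
    have h : 0 < a χ ^ 2 := by positivity
    omega
  have hpm : ∀ χ ∈ S, a χ = 1 ∨ a χ = -1 := by
    intro χ hχ
    by_cases hχt : χ = t
    · exact Or.inl (hχt ▸ hat)
    have h1 : a t ^ 2 + a χ ^ 2 ≤ 4 := by
      rw [← hsum, ← Finset.sum_pair (f := fun χ => a χ ^ 2) (Ne.symm hχt)]
      refine Finset.sum_le_sum_of_subset_of_nonneg ?_ fun _ _ _ => sq_nonneg _
      simp [Finset.insert_subset_iff, htS, hχ]
    rw [hat] at h1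
    have h2 := hne χ hχ
    have h3 : a χ < 2 := by nlinarith
    have h4 : -2 < a χ := by nlinarith
    omega
  have hcard : S.card = 4 := by
    have h : ∑ χ ∈ S, a χ ^ 2 = (S.card : ℤ) := by
      rw [Finset.sum_congr rfl (g := fun _ => (1 : ℤ)) fun χ hχ => by
        rcases hpm χ hχ with h | h <;> simp [h]]
      simp
    omega
  -- orthogonality to the column of `z`
  have hrel : ∀ y : G, ¬ 2 ∣ orderOf y → ∑ χ ∈ S, (a χ : ℂ) * (χ : G → ℂ) y = 0 := by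
    intro y hy
    have h := CfsgLib.BlockLocal.weakOrth_mul hM B0 hBB y z hy (dvd_of_eq hz2.symm)
    rw [CfsgLib.Blocks.finsum_mem_irr_eq_sum, ← Finset.sum_filter] at h
    refine Eq.trans (Finset.sum_congr rfl fun χ _ => ?_) h
    rw [ha χ, mul_comm]
  set d : Cfsg.IrrCharacter G → ℤ := fun χ => (Cfsg.charDegree (χ : G → ℂ) : ℤ) with hd
  have hdpos : ∀ χ, 0 < d χ := fun χ => by
    have := CfsgLib.BlockLocal.charDegree_irr_ne_zero χ
    simp only [hd]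
    omega
  have hreld : ∑ χ ∈ S, a χ * d χ = 0 := by
    have h := hrel 1 (by rw [orderOf_one]; decide)
    have h2 : ((∑ χ ∈ S, a χ * d χ : ℤ) : ℂ) = 0 := by
      rw [Int.cast_sum]
      refine Eq.trans (Finset.sum_congr rfl fun χ _ => ?_) h
      rw [Int.cast_mul, hd, Int.cast_natCast, CfsgLib.BlockLocal.coe_charDegree]
    exact_mod_cast h2
  have hmod : ∀ χ ∈ S, (4 : ℤ) ∣ d χ - a χ := fun χ hχ =>
    CfsgLib.BlockLocal.four_dvd_degree_sub P hP χ (a χ) (hinv χ hχ)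
  set S' := S.erase t with hS'
  have hS'card : S'.card = 3 := by rw [hS', Finset.card_erase_of_mem htS, hcard]
  have hreld' : d t + ∑ χ ∈ S', a χ * d χ = 0 := by
    rw [← hreld, ← Finset.add_sum_erase S _ htS, hat, one_mul]
  have hS'S : ∀ χ ∈ S', χ ∈ S := fun χ hχ => Finset.mem_of_mem_erase hχ
  obtain ⟨ζ₂, h2S, h2a⟩ : ∃ χ ∈ S', a χ = 1 := by
    by_contra hcon
    push Not at hcon
    have hm : ∀ χ ∈ S', a χ = -1 := fun χ hχ => (hpm χ (hS'S χ hχ)).resolve_left (hcon χ hχ)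
    have h1 : (3 : ℤ) ≤ ∑ χ ∈ S', d χ := by
      have := Finset.card_nsmul_le_sum S' d 1 (fun χ _ => hdpos χ)
      simpa [hS'card] using this
    have h2 : ∑ χ ∈ S', a χ * d χ = -∑ χ ∈ S', d χ := by
      rw [← Finset.sum_neg_distrib]
      exact Finset.sum_congr rfl fun χ hχ => by rw [hm χ hχ, neg_one_mul]
    have h3 : d t = 1 := by simp [hd, ht, Cfsg.charDegree, CfsgLib.CharTheory.trivIrr]
    omega
  obtain ⟨ζ₄, h4S, h4a⟩ : ∃ χ ∈ S', a χ = -1 := by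
    by_contra hcon
    push Not at hcon
    have hm : ∀ χ ∈ S', 0 < a χ * d χ := fun χ hχ => by
      rw [(hpm χ (hS'S χ hχ)).resolve_right (hcon χ hχ), one_mul]
      exact hdpos χ
    have h1 : 0 ≤ ∑ χ ∈ S', a χ * d χ := Finset.sum_nonneg fun χ hχ => (hm χ hχ).le
    have := hdpos t
    omega
  have h24 : ζ₂ ≠ ζ₄ := fun h => by rw [h, h4a] at h2a; omega
  have h4S' : ζ₄ ∈ S'.erase ζ₂ := Finset.mem_erase.2 ⟨Ne.symm h24, h4S⟩
  obtain ⟨ζ₃, h3⟩ := Finset.card_eq_one.1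
    (show ((S'.erase ζ₂).erase ζ₄).card = 1 by
      rw [Finset.card_erase_of_mem h4S', Finset.card_erase_of_mem h2S, hS'card])
  have h3mem : ζ₃ ∈ (S'.erase ζ₂).erase ζ₄ := h3 ▸ Finset.mem_singleton_self ζ₃
  have h34 : ζ₃ ≠ ζ₄ := (Finset.mem_erase.1 h3mem).1
  have h32 : ζ₃ ≠ ζ₂ := (Finset.mem_erase.1 (Finset.mem_erase.1 h3mem).2).1
  have h3S : ζ₃ ∈ S' := Finset.mem_of_mem_erase (Finset.mem_of_mem_erase h3mem)
  have hnt : ∀ χ ∈ S', (χ : G → ℂ) ≠ fun _ => 1 := fun χ hχ h =>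
    (Finset.mem_erase.1 hχ).1 (Subtype.ext h)
  refine ⟨ζ₂, ζ₃, ζ₄, a ζ₃, hpm ζ₃ (hS'S _ h3S), hnt _ h2S, hnt _ h3S, Ne.symm h32, h24, h34,
    ?_, fun w hw => ⟨?_, hinv _ (hS'S _ h3S) w hw, ?_⟩, ?_, hmod _ (hS'S _ h3S), ?_, ?_⟩
  · ext χ
    rw [Set.mem_setOf_eq, ← hmemS]
    constructor
    · intro hχ
      by_cases hχt : χ = t
      · exact Or.inl (hχt ▸ rfl)
      refine Or.inr ?_
      by_contra hcon
      push Not at hcon
      have : χ ∈ (S'.erase ζ₂).erase ζ₄ :=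
        Finset.mem_erase.2 ⟨hcon.2.2, Finset.mem_erase.2 ⟨hcon.1, Finset.mem_erase.2 ⟨hχt, hχ⟩⟩⟩
      rw [h3, Finset.mem_singleton] at this
      exact hcon.2.1 this
    · rintro (h | rfl | rfl | rfl)
      · rwa [show χ = t from Subtype.ext h]
      · exact hS'S _ h2S
      · exact hS'S _ h3S
      · exact hS'S _ h4S
  · rw [hinv _ (hS'S _ h2S) w hw, h2a, Int.cast_one]
  · rw [hinv _ (hS'S _ h4S) w hw, h4a, Int.cast_neg, Int.cast_one]
  · have := hmod _ (hS'S _ h2S)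
    rwa [h2a] at this
  · have := hmod _ (hS'S _ h4S)
    rwa [h4a, sub_neg_eq_add] at this
  · intro y hy
    have h := hrel y (by rw [← even_iff_two_dvd, Nat.not_even_iff_odd]; exact hy)
    rw [← Finset.add_sum_erase S _ htS, ← hS', ← Finset.add_sum_erase S' _ h2S,
      ← Finset.add_sum_erase (S'.erase ζ₂) _ h4S', h3, Finset.sum_singleton, hat, h2a, h4a] at h
    push_cast at h
    rw [show (t : G → ℂ) y = 1 from rfl] at h
    linear_combination h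

end Cfsg.Agent.S0948
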