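import Cfsg.Statements.S0200
import Cfsg.Agent.Lib.Subnormal.BaerSuzuki
import Cfsg.Agent.Lib.Involutions.Basic

set_option autoImplicit false
open Cfsg

namespace Cfsg.Agent.S0200

/-- An involution lying in no normal 2-subgroup of a finite group inverts a nontrivial element of odd order (a consequence of the Baer–Suzuki Theorem). -/
theorem result {G : Type*} [Group G] [Finite G] (t : G) (ht : orderOf t = 2) (hO : ∀ N : Subgroup G, N.Normal → IsPGroup 2 N → t ∉ N) : ∃ h : G, h ≠ 1 ∧ Odd (orderOf h) ∧ t * h * t⁻¹ = h⁻¹ := by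
  by_contra hcon
  refine hO (Cfsg.pCore 2 G) inferInstance (CfsgLib.Cores.isPGroup_pCore 2 G)
    (CfsgLib.Subnormal.mem_pCore_of_forall_closure_pair fun g => ?_)
  have hs : orderOf (g * t * g⁻¹) = 2 := (CfsgLib.Involutions.orderOf_conj g t).trans ht
  obtain ⟨k, m, hm, hn⟩ := Nat.exists_eq_two_pow_mul_odd (orderOf_pos (t * (g * t * g⁻¹))).ne'
  have hm1 : m = 1 := by
    by_contra hm1
    apply hcon
    refine ⟨(t * (g * t * g⁻¹)) ^ 2 ^ k, ?_, ?_, ?_⟩
    · intro h1
      have hdvd := orderOf_dvd_of_pow_eq_one h1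
      rw [hn] at hdvd
      have := Nat.le_of_dvd (Nat.two_pow_pos k) hdvd
      have hm0 : 2 ≤ m := by
        obtain ⟨j, rfl⟩ := hm; omega
      nlinarith [Nat.two_pow_pos k]
    · rw [orderOf_pow' _ (Nat.two_pow_pos k).ne', hn, Nat.gcd_eq_right (dvd_mul_right _ _),
        Nat.mul_div_cancel_left _ (Nat.two_pow_pos k)]
      exact hm
    · have h := CfsgLib.Involutions.conj_zpow_mul_eq ht hs (((2 ^ k : ℕ) : ℤ))
      rw [zpow_neg, zpow_natCast] at h
      exact h
  subst hm1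
  intro a
  obtain ⟨d, hd⟩ := a
  obtain ⟨j, h | h⟩ := CfsgLib.Involutions.mem_closure_pair ht hs hd
  · refine ⟨k, Subtype.ext ?_⟩
    show d ^ 2 ^ k = 1
    rw [h, ← zpow_natCast, ← zpow_mul, mul_comm, zpow_mul, zpow_natCast]
    rw [show 2 ^ k = orderOf (t * (g * t * g⁻¹)) by rw [hn, mul_one], pow_orderOf_eq_one, one_zpow]
  · refine ⟨1, Subtype.ext ?_⟩
    show d ^ 2 ^ 1 = 1
    rw [h, pow_one, pow_two, CfsgLib.Involutions.zpow_mul_mul_zpow_mul ht hs, sub_self, zpow_zero]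

end Cfsg.Agent.S0200
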