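import Cfsg.Statements.S1098
import Cfsg.Agent.Lib.Twisted.ExceptionalData
-- import your own Cfsg.Agent.* helpers here

set_option autoImplicit false
open Cfsg

namespace Cfsg.Agent.S1098

/-- the tables agree with the graph symmetry on the fundamental roots and their negatives -/
def checkGraph (D : Cfsg.Lie.ChevalleyDatum) (T : CfsgLib.Twisted.IsoTab) (l : List (ℕ × ℕ)) : Bool :=
  (List.range D.rank).all fun i =>
    Nat.beq (T.rho (D.simple i)) (D.simple (l.getD i (0, 1)).1) && Nat.beq (T.lam (D.simple i)) (l.getD i (0, 1)).2 &&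
    Nat.beq (T.rho (D.neg (D.simple i))) (D.neg (D.simple (l.getD i (0, 1)).1)) &&
    Nat.beq (T.lam (D.neg (D.simple i))) (l.getD i (0, 1)).2 &&
    decide (D.simple i < D.nroots) && decide (D.neg (D.simple i) < D.nroots)

theorem checkGraph_ok : (checkGraph Cfsg.Lie.chevB2 CfsgLib.Twisted.isoB2 [(1, 2), (0, 1)] &&
    checkGraph Cfsg.Lie.chevF4 CfsgLib.Twisted.isoF4 [(3, 2), (2, 2), (1, 1), (0, 1)]) = true := by
  decide +kernel

theorem aux {K : Type*} [Field K] {D : Cfsg.Lie.ChevalleyDatum} {A : CfsgLib.Chevalley.Aux}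
    (hC : CfsgLib.Chevalley.Cert D A) (T : CfsgLib.Twisted.IsoTab) (hT : T.check D A = true) [CharP K T.p]
    [Fact T.p.Prime] (hperf : ∀ x : K, ∃ y : K, y ^ T.p = x) (l : List (ℕ × ℕ)) (hl : checkGraph D T l = true) :
    ∃ α : ↥(D.group K) ≃* ↥(D.group K), ∀ (g : ↥(D.group K)) (i : ℕ) (t : K), i < D.rank →
      (((g : GL D.Idx K) : Matrix D.Idx D.Idx K) = D.x K (D.simple i) t →
        ((α g : GL D.Idx K) : Matrix D.Idx D.Idx K) = D.x K (D.simple (l.getD i (0, 1)).1) (t ^ (l.getD i (0, 1)).2)) ∧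
      (((g : GL D.Idx K) : Matrix D.Idx D.Idx K) = D.x K (D.neg (D.simple i)) t →
        ((α g : GL D.Idx K) : Matrix D.Idx D.Idx K) =
          D.x K (D.neg (D.simple (l.getD i (0, 1)).1)) (t ^ (l.getD i (0, 1)).2)) := by
  obtain ⟨α, -, hx, -, hinj, hsurj⟩ := CfsgLib.Twisted.exists_isogeny (F := K) hC hT
  simp only [checkGraph, List.all_eq_true, List.mem_range, Bool.and_eq_true, decide_eq_true_eq] at hl
  refine ⟨MulEquiv.ofBijective α ⟨hinj, hsurj hperf⟩, fun g i t hi => ?_⟩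
  obtain ⟨⟨⟨⟨⟨a1, a2⟩, a3⟩, a4⟩, a5⟩, a6⟩ := hl i hi
  refine ⟨fun hg => ?_, fun hg => ?_⟩
  · rw [← Nat.eq_of_beq_eq_true a1, ← Nat.eq_of_beq_eq_true a2]
    exact hx g _ t a5 hg
  · rw [← Nat.eq_of_beq_eq_true a3, ← Nat.eq_of_beq_eq_true a4]
    exact hx g _ t a6 hg

/-- Graph automorphisms in characteristic 2 (K perfect): for B₂ (a short, b long) `x_a(t) ↦ x_b(t²)`, `x_b(t) ↦ x_a(t)`, and for F₄ (p₁, p₂ short, p₃, p₄ long) `x_{p₁}(t) ↦ x_{p₄}(t²)`, `x_{p₂}(t) ↦ x_{p₃}(t²)`, `x_{p₃}(t) ↦ x_{p₂}(t)`, `x_{p₄}(t) ↦ x_{p₁}(t)`, likewise on the negatives, extend to an automorphism of the group. -/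
theorem result {K : Type*} [Field K] [CharP K 2] (hperf : ∀ x : K, ∃ y : K, y ^ 2 = x)
    (p : Cfsg.Lie.ChevalleyDatum × List (ℕ × ℕ))
    (hp : p ∈ [(Cfsg.Lie.chevB2, [(1, 2), (0, 1)]), (Cfsg.Lie.chevF4, [(3, 2), (2, 2), (1, 1), (0, 1)])]) :
    ∃ α : ↥(p.1.group K) ≃* ↥(p.1.group K), ∀ (g : ↥(p.1.group K)) (i : ℕ) (t : K), i < p.1.rank →
      (((g : GL p.1.Idx K) : Matrix p.1.Idx p.1.Idx K) = p.1.x K (p.1.simple i) t →
        ((α g : GL p.1.Idx K) : Matrix p.1.Idx p.1.Idx K) = p.1.x K (p.1.simple (p.2.getD i (0, 1)).1) (t ^ (p.2.getD i (0, 1)).2)) ∧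
      (((g : GL p.1.Idx K) : Matrix p.1.Idx p.1.Idx K) = p.1.x K (p.1.neg (p.1.simple i)) t →
        ((α g : GL p.1.Idx K) : Matrix p.1.Idx p.1.Idx K) = p.1.x K (p.1.neg (p.1.simple (p.2.getD i (0, 1)).1)) (t ^ (p.2.getD i (0, 1)).2)) := by
  have h := checkGraph_ok
  simp only [Bool.and_eq_true] at h
  simp only [List.mem_cons, List.not_mem_nil, or_false] at hp
  have : Fact (Nat.Prime 2) := ⟨Nat.prime_two⟩
  rcases hp with rfl | rfl
  · have : CharP K CfsgLib.Twisted.isoB2.p := ‹CharP K 2›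
    have : Fact CfsgLib.Twisted.isoB2.p.Prime := ⟨Nat.prime_two⟩
    exact aux CfsgLib.Chevalley.cert_B2 _ CfsgLib.Twisted.isoB2_ok hperf _ h.1
  · have : CharP K CfsgLib.Twisted.isoF4.p := ‹CharP K 2›
    have : Fact CfsgLib.Twisted.isoF4.p.Prime := ⟨Nat.prime_two⟩
    exact aux CfsgLib.Chevalley.cert_F4 _ CfsgLib.Twisted.isoF4_ok hperf _ h.2

end Cfsg.Agent.S1098
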