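import Cfsg.Statements.S1099
import Cfsg.Agent.Lib.Twisted.ExceptionalData
-- import your own Cfsg.Agent.* helpers here

set_option autoImplicit false
open Cfsg

namespace Cfsg.Agent.S1099

open Cfsg.Lie CfsgLib.Twisted in
theorem tables_ok : (Nat.beq (isoG2.rho g2a) g2b && Nat.beq (isoG2.rho g2b) g2a && Nat.beq (isoG2.rho g2ma) g2mb &&
    Nat.beq (isoG2.rho g2mb) g2ma && Nat.beq (isoG2.lam g2a) 3 && Nat.beq (isoG2.lam g2b) 1 &&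
    Nat.beq (isoG2.lam g2ma) 3 && Nat.beq (isoG2.lam g2mb) 1) = true := by
  decide +kernel

/-- Graph automorphism of G₂ in characteristic 3 (K perfect): `x_a(t) ↦ x_b(t³)`, `x_b(t) ↦ x_a(t)`, `x_{-a}(t) ↦ x_{-b}(t³)`, `x_{-b}(t) ↦ x_{-a}(t)` extend to an automorphism of the group. -/
theorem result {K : Type*} [Field K] [CharP K 3] (hperf : ∀ x : K, ∃ y : K, y ^ 3 = x) :
    ∃ α : ↥(Cfsg.Lie.chevG2.group K) ≃* ↥(Cfsg.Lie.chevG2.group K), ∀ (g : ↥(Cfsg.Lie.chevG2.group K)) (t : K),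
      (((g : GL Cfsg.Lie.chevG2.Idx K) : Matrix _ _ K) = Cfsg.Lie.chevG2.x K Cfsg.Lie.g2a t →
        ((α g : GL Cfsg.Lie.chevG2.Idx K) : Matrix _ _ K) = Cfsg.Lie.chevG2.x K Cfsg.Lie.g2b (t ^ 3)) ∧
      (((g : GL Cfsg.Lie.chevG2.Idx K) : Matrix _ _ K) = Cfsg.Lie.chevG2.x K Cfsg.Lie.g2b t →
        ((α g : GL Cfsg.Lie.chevG2.Idx K) : Matrix _ _ K) = Cfsg.Lie.chevG2.x K Cfsg.Lie.g2a t) ∧
      (((g : GL Cfsg.Lie.chevG2.Idx K) : Matrix _ _ K) = Cfsg.Lie.chevG2.x K Cfsg.Lie.g2ma t →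
        ((α g : GL Cfsg.Lie.chevG2.Idx K) : Matrix _ _ K) = Cfsg.Lie.chevG2.x K Cfsg.Lie.g2mb (t ^ 3)) ∧
      (((g : GL Cfsg.Lie.chevG2.Idx K) : Matrix _ _ K) = Cfsg.Lie.chevG2.x K Cfsg.Lie.g2mb t →
        ((α g : GL Cfsg.Lie.chevG2.Idx K) : Matrix _ _ K) = Cfsg.Lie.chevG2.x K Cfsg.Lie.g2ma t) := by
  have : CharP K CfsgLib.Twisted.isoG2.p := ‹CharP K 3›
  have : Fact CfsgLib.Twisted.isoG2.p.Prime := ⟨Nat.prime_three⟩
  obtain ⟨α, -, hx, -, hinj, hsurj⟩ :=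
    CfsgLib.Twisted.exists_isogeny (F := K) CfsgLib.Chevalley.cert_G2 CfsgLib.Twisted.isoG2_ok
  have h := tables_ok
  simp only [Bool.and_eq_true] at h
  obtain ⟨⟨⟨⟨⟨⟨⟨r1, r2⟩, r3⟩, r4⟩, l1⟩, l2⟩, l3⟩, l4⟩ := h
  refine ⟨MulEquiv.ofBijective α ⟨hinj, hsurj hperf⟩, fun g t => ⟨fun hg => ?_, fun hg => ?_, fun hg => ?_, fun hg => ?_⟩⟩
  · rw [← Nat.eq_of_beq_eq_true r1, ← Nat.eq_of_beq_eq_true l1]
    exact hx g _ t (by decide) hg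
  · rw [← Nat.eq_of_beq_eq_true r2]
    have e := hx g _ t (by decide) hg
    rw [Nat.eq_of_beq_eq_true l2, pow_one] at e
    exact e
  · rw [← Nat.eq_of_beq_eq_true r3, ← Nat.eq_of_beq_eq_true l3]
    exact hx g _ t (by decide) hg
  · rw [← Nat.eq_of_beq_eq_true r4]
    have e := hx g _ t (by decide) hg
    rw [Nat.eq_of_beq_eq_true l4, pow_one] at e
    exact e

end Cfsg.Agent.S1099
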