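import Cfsg.Statements.S4216
import Mathlib

set_option autoImplicit false
open Cfsg
open scoped commutatorElement

namespace Cfsg.Agent.S4216

/-- Grün's first Theorem: if `P` is a Sylow `p`-subgroup of the finite group `G`, then `P ∩ G'` is the subgroup generated by `P ∩ N_G(P)'` together with the subgroups `P ∩ z P' z⁻¹` for all `z ∈ G`, where `'` denotes the derived subgroup and `N_G(P)` the normalizer of `P`. -/
theorem result {G : Type*} [Group G] [Finite G] {p : ℕ} [Fact p.Prime] (P : Sylow p G) : (P : Subgroup G) ⊓ commutator G = ((P : Subgroup G) ⊓ ⁅Subgroup.normalizer ((P : Subgroup G) : Set G), Subgroup.normalizer ((P : Subgroup G) : Set G)⁆) ⊔ ⨆ z : G, (P : Subgroup G) ⊓ (⁅(P : Subgroup G), (P : Subgroup G)⁆).map (MulAut.conj z).toMonoidHom := by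
  classical
  set T := ((P : Subgroup G) ⊓ ⁅Subgroup.normalizer ((P : Subgroup G) : Set G), Subgroup.normalizer ((P : Subgroup G) : Set G)⁆) ⊔ ⨆ z : G, (P : Subgroup G) ⊓ (⁅(P : Subgroup G), (P : Subgroup G)⁆).map (MulAut.conj z).toMonoidHom with hT
  have hTP : T ≤ (P : Subgroup G) := sup_le inf_le_left (iSup_le fun z => inf_le_left)
  have hTG : T ≤ (P : Subgroup G) ⊓ commutator G := by
    refine le_inf hTP (sup_le (inf_le_right.trans (Subgroup.commutator_mono le_top le_top)) (iSup_le fun z => inf_le_right.trans ?_))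
    rintro _ ⟨c, hc, rfl⟩
    have h1 : c ∈ commutator G := Subgroup.commutator_mono le_top le_top hc
    exact (inferInstance : (commutator G).Normal).conj_mem c h1 z
  have hP' : ⁅(P : Subgroup G), (P : Subgroup G)⁆ ≤ T := fun c hc =>
    Subgroup.mem_sup_right (Subgroup.mem_iSup_of_mem 1 ⟨(Subgroup.commutator_le_self _) hc, c, hc, by simp⟩)
  have hTn : ∀ z : G, ∀ c ∈ ⁅(P : Subgroup G), (P : Subgroup G)⁆, z⁻¹ * c * z ∈ (P : Subgroup G) →
      z⁻¹ * c * z ∈ T := fun z c hc hz =>
    Subgroup.mem_sup_right (Subgroup.mem_iSup_of_mem z⁻¹ ⟨hz, c, hc, by simp⟩)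
  set T' : Subgroup (P : Subgroup G) := T.subgroupOf P with hT'
  haveI : T'.Normal := by
    refine ⟨fun t ht y => ?_⟩
    rw [hT', Subgroup.mem_subgroupOf] at ht ⊢
    have h1 : ⁅(y : G), (t : G)⁆ ∈ T := hP' (Subgroup.commutator_mem_commutator y.2 t.2)
    have : ((y * t * y⁻¹ : (P : Subgroup G)) : G) = ⁅(y : G), (t : G)⁆ * t := by
      rw [commutatorElement_def]; push_cast; group
    rw [this]; exact T.mul_mem h1 ht
  letI : CommGroup ((P : Subgroup G) ⧸ T') :=
    { (inferInstance : Group ((P : Subgroup G) ⧸ T')) with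
      mul_comm := fun a b => by
        induction a using QuotientGroup.induction_on with | H a => ?_
        induction b using QuotientGroup.induction_on with | H b => ?_
        refine commutatorElement_eq_one_iff_mul_comm.mp ?_
        rw [← QuotientGroup.mk'_apply, ← QuotientGroup.mk'_apply, ← map_commutatorElement, QuotientGroup.mk'_apply,
          QuotientGroup.eq_one_iff, hT', Subgroup.mem_subgroupOf]
        exact hP' (Subgroup.commutator_mem_commutator a.2 b.2) }
  let ϕ : (P : Subgroup G) →* (P : Subgroup G) ⧸ T' := QuotientGroup.mk' T'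
  have hϕ : ∀ x : (P : Subgroup G), ϕ x = 1 ↔ (x : G) ∈ T := fun x => QuotientGroup.eq_one_iff x
  refine le_antisymm ?_ hTG
  rintro u ⟨huP, huG⟩
  induction hn : orderOf u using Nat.strong_induction_on generalizing u with
  | _ n ih =>
    have smaller : ∀ w, w ∈ (P : Subgroup G) → w ∈ commutator G → orderOf w < n → w ∈ T :=
      fun w h1 h2 h3 => ih _ h3 h1 h2 rfl
    obtain ⟨e, he⟩ : ∃ e, orderOf u = p ^ e := by
      obtain ⟨k, hk⟩ := IsPGroup.iff_orderOf.mp P.isPGroup' ⟨u, huP⟩
      exact ⟨k, by rw [← hk, ← Subgroup.orderOf_coe]⟩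
    have hp : p.Prime := Fact.out
    rcases eq_or_ne u 1 with rfl | hu1
    · exact T.one_mem
    have he0 : e ≠ 0 := fun h => hu1 (orderOf_eq_one_iff.mp (by rw [he, h, pow_zero]))
    -- powers of conjugates of `u` with exponent divisible by `p`
    have hpow : ∀ (x : G) (r : ℕ), p ∣ r → ∀ hx : x⁻¹ * u ^ r * x ∈ (P : Subgroup G),
        ϕ ⟨x⁻¹ * u ^ r * x, hx⟩ = 1 := by
      intro x r hr hx
      rw [hϕ]
      refine smaller _ hx ?_ ?_
      · simpa using (inferInstance : (commutator G).Normal).conj_mem _ ((commutator G).pow_mem huG r) x⁻¹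
      · show orderOf (x⁻¹ * u ^ r * x) < n
        have h1 : orderOf (x⁻¹ * u ^ r * x) = orderOf (u ^ r) := by
          have := orderOf_injective (MulAut.conj x⁻¹).toMonoidHom (MulAut.conj x⁻¹).injective (u ^ r)
          simpa using this
        rw [h1, ← hn, he]
        obtain ⟨s, rfl⟩ := hr
        have h3 : orderOf (u ^ (p * s)) ∣ p ^ (e - 1) := by
          apply orderOf_dvd_of_pow_eq_one
          rw [← pow_mul, show p * s * p ^ (e - 1) = p ^ e * s by
            obtain ⟨d, rfl⟩ : ∃ d, e = d + 1 := ⟨e - 1, by omega⟩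
            rw [Nat.add_sub_cancel, pow_succ]; ring, pow_mul, ← he, pow_orderOf_eq_one, one_pow]
        exact lt_of_le_of_lt (Nat.le_of_dvd (pow_pos hp.pos _) h3) (Nat.pow_lt_pow_right hp.one_lt (by omega))
    haveI : Fintype (G ⧸ (P : Subgroup G)) := Fintype.ofFinite _
    set Z := Subgroup.zpowers u with hZ
    haveI : Fintype (Quotient (MulAction.orbitRel Z (G ⧸ (P : Subgroup G)))) := Fintype.ofFinite _
    haveI : Fintype (Quotient (MulAction.orbitRel (P : Subgroup G) (G ⧸ (P : Subgroup G)))) := Fintype.ofFinite _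
    let per : G ⧸ (P : Subgroup G) → ℕ := fun q => Function.minimalPeriod (u • ·) q
    have hper : ∀ q, ∃ k, per q = p ^ k := fun q => by
      have : Function.minimalPeriod (u • ·) q ∣ orderOf u := by
        apply Function.IsPeriodicPt.minimalPeriod_dvd
        show (u • ·)^[orderOf u] q = q
        rw [smul_iterate, pow_orderOf_eq_one]
        exact one_smul G q
      obtain ⟨k, -, hk⟩ := (Nat.dvd_prime_pow hp).mp (he ▸ this)
      exact ⟨k, hk⟩
    let term : Quotient (MulAction.orbitRel Z (G ⧸ (P : Subgroup G))) → (P : Subgroup G) ⧸ T' := fun ω =>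
      ϕ ⟨ω.out.out⁻¹ * u ^ per ω.out * ω.out.out, QuotientGroup.out_conj_pow_minimalPeriod_mem _ u ω.out⟩
    let proj : Quotient (MulAction.orbitRel Z (G ⧸ (P : Subgroup G))) →
        Quotient (MulAction.orbitRel (P : Subgroup G) (G ⧸ (P : Subgroup G))) := fun ω => ⟦ω.out⟧
    let sing : Quotient (MulAction.orbitRel (P : Subgroup G) (G ⧸ (P : Subgroup G))) → Prop := fun O =>
      O.out ∈ MulAction.fixedPoints (P : Subgroup G) (G ⧸ (P : Subgroup G))
    have hu' : ⟨u, huP⟩ = (⟨u, huP⟩ : (P : Subgroup G)) := rfl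
    have hstep : ∀ O, ∏ ω ∈ Finset.univ.filter (fun ω => proj ω = O), term ω =
        if sing O then ϕ ⟨u, huP⟩ else 1 := by
      intro O
      obtain ⟨q0, hq0, hmin⟩ := Finset.exists_min_image
        (Finset.univ.filter (fun q : G ⧸ (P : Subgroup G) => (⟦q⟧ : Quotient (MulAction.orbitRel (P : Subgroup G) (G ⧸ (P : Subgroup G)))) = O)) per
        ⟨O.out, by simp⟩
      rw [Finset.mem_filter] at hq0
      set x := q0.out with hx
      have hx0 := QuotientGroup.out_conj_pow_minimalPeriod_mem (P : Subgroup G) u q0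
      have hdvd : ∀ q : G ⧸ (P : Subgroup G), (⟦q⟧ : Quotient (MulAction.orbitRel (P : Subgroup G) (G ⧸ (P : Subgroup G)))) = O → per q0 ∣ per q := by
        intro q hq
        obtain ⟨k0, hk0⟩ := hper q0
        obtain ⟨k, hk⟩ := hper q
        have := hmin q (Finset.mem_filter.mpr ⟨Finset.mem_univ _, hq⟩)
        rw [hk0, hk] at this ⊢
        exact pow_dvd_pow p ((Nat.pow_le_pow_iff_right hp.one_lt).mp this)
      have hterm : ∀ ω, proj ω = O → term ω = ϕ ⟨x⁻¹ * u ^ per q0 * x, hx0⟩ ^ (per ω.out / per q0) := by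
        intro ω hω
        obtain ⟨a, ha⟩ : ∃ a : (P : Subgroup G), a • q0 = ω.out := by
          have : (⟦ω.out⟧ : Quotient (MulAction.orbitRel (P : Subgroup G) (G ⧸ (P : Subgroup G)))) = ⟦q0⟧ := hω.trans hq0.2.symm
          exact MulAction.mem_orbit_iff.mp (Quotient.exact this)
        obtain ⟨b, hb, hyb⟩ : ∃ b ∈ (P : Subgroup G), ω.out.out = (a : G) * x * b := by
          refine ⟨((a : G) * x)⁻¹ * ω.out.out, QuotientGroup.eq.mp ?_, by group⟩
          rw [QuotientGroup.out_eq', ← ha, hx]
          show ((((a : G) * q0.out : G)) : G ⧸ (P : Subgroup G)) = (a : G) • q0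
          conv_rhs => rw [← QuotientGroup.out_eq' q0]
          rfl
        set r := per ω.out with hr
        obtain ⟨j, hj⟩ := hdvd ω.out hω
        have hw : x⁻¹ * u ^ r * x = (x⁻¹ * u ^ per q0 * x) ^ j := by
          have := conj_pow (a := x⁻¹) (b := u ^ per q0) (i := j)
          rw [inv_inv] at this
          rw [this, ← pow_mul, ← hj]
        have hwP : x⁻¹ * u ^ r * x ∈ (P : Subgroup G) := hw ▸ (P : Subgroup G).pow_mem hx0 j
        have hmem := QuotientGroup.out_conj_pow_minimalPeriod_mem (P : Subgroup G) u ω.out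
        have hurP : u ^ r ∈ (P : Subgroup G) := (P : Subgroup G).pow_mem huP r
        set c : G := ⁅(u ^ r)⁻¹, (a : G)⁻¹⁆ with hc
        have hcP : c ∈ ⁅(P : Subgroup G), (P : Subgroup G)⁆ :=
          Subgroup.commutator_mem_commutator ((P : Subgroup G).inv_mem hurP) ((P : Subgroup G).inv_mem a.2)
        have hcx : x⁻¹ * c * x = (x⁻¹ * u ^ r * x)⁻¹ * (b * (ω.out.out⁻¹ * u ^ r * ω.out.out) * b⁻¹) := by
          rw [hc, commutatorElement_def, hyb]; group
        have hcT : x⁻¹ * c * x ∈ T := hTn x c hcP (by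
          rw [hcx]
          exact (P : Subgroup G).mul_mem ((P : Subgroup G).inv_mem hwP)
            ((P : Subgroup G).mul_mem ((P : Subgroup G).mul_mem hb hmem) ((P : Subgroup G).inv_mem hb)))
        have e1 : ϕ ⟨x⁻¹ * c * x, hTP hcT⟩ = 1 := (hϕ _).mpr hcT
        have e2 : (⟨x⁻¹ * c * x, hTP hcT⟩ : (P : Subgroup G)) =
            ⟨_, hwP⟩⁻¹ * (⟨b, hb⟩ * ⟨_, hmem⟩ * ⟨b, hb⟩⁻¹) := Subtype.ext hcx
        rw [e2, map_mul, map_inv, map_mul, map_mul, map_inv, inv_mul_eq_one, mul_comm (ϕ ⟨b, hb⟩), mul_inv_cancel_right] at e1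
        show ϕ _ = _
        rw [← e1, ← map_pow]
        refine congrArg ϕ (Subtype.ext ?_)
        show x⁻¹ * u ^ r * x = (x⁻¹ * u ^ per q0 * x) ^ (r / per q0)
        rw [hw]
        congr 1
        rw [show r = per q0 * j from hj, Nat.mul_div_cancel_left _ (by obtain ⟨k, hk⟩ := hper q0; rw [hk]; exact pow_pos hp.pos k)]
      rw [Finset.prod_congr rfl fun ω hω => hterm ω (Finset.mem_filter.mp hω).2, Finset.prod_pow_eq_pow_sum]
      obtain ⟨k0, hk0⟩ := hper q0
      rcases Nat.eq_zero_or_pos k0 with rfl | hk0'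
      · rw [pow_zero] at hk0
        simp only [hk0, Nat.div_one, pow_one]
        have hS : ∑ ω ∈ Finset.univ.filter (fun ω => proj ω = O), per ω.out =
            (Finset.univ.filter (fun q : G ⧸ (P : Subgroup G) => (⟦q⟧ : Quotient (MulAction.orbitRel (P : Subgroup G) (G ⧸ (P : Subgroup G)))) = O)).card := by
          have hz : ∀ ω : Quotient (MulAction.orbitRel Z (G ⧸ (P : Subgroup G))),
              Nat.card {q : G ⧸ (P : Subgroup G) // (⟦q⟧ : Quotient (MulAction.orbitRel Z (G ⧸ (P : Subgroup G)))) = ω} = per ω.out := by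
            intro ω
            rw [show per ω.out = Nat.card (MulAction.orbit Z ω.out) from by
              rw [Nat.card_eq_fintype_card]; exact MulAction.minimalPeriod_eq_card u ω.out]
            refine Nat.card_congr (Equiv.subtypeEquivRight fun q => ?_)
            conv_lhs => rw [← Quotient.out_eq ω]
            exact ⟨fun h => Quotient.exact h, fun h => Quotient.sound h⟩
          rw [Finset.card_eq_sum_card_fiberwise (f := fun q : G ⧸ (P : Subgroup G) =>
            (⟦q⟧ : Quotient (MulAction.orbitRel Z (G ⧸ (P : Subgroup G))))) (t := Finset.univ.filter (fun ω => proj ω = O))]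
          · refine Finset.sum_congr rfl fun ω hω => ?_
            rw [← hz ω, Nat.card_eq_fintype_card, Fintype.card_subtype, Finset.filter_filter]
            congr 1
            ext q
            simp only [Finset.mem_filter, Finset.mem_univ, true_and]
            refine ⟨fun h => ⟨?_, h⟩, fun h => h.2⟩
            rw [← (Finset.mem_filter.mp hω).2]
            obtain ⟨⟨g, hg⟩, hgq⟩ := MulAction.mem_orbit_iff.mp (Quotient.exact (h.trans (Quotient.out_eq ω).symm))
            exact Quotient.sound (MulAction.mem_orbit_iff.mpr ⟨⟨g, (Subgroup.zpowers_le.mpr huP) hg⟩, hgq⟩)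
          · intro q hq
            simp only [Finset.coe_filter, Set.mem_setOf_eq, Finset.mem_univ, true_and] at hq ⊢
            rw [← hq]
            obtain ⟨⟨g, hg⟩, hgq⟩ := MulAction.mem_orbit_iff.mp (Quotient.exact (Quotient.out_eq (⟦q⟧ : Quotient (MulAction.orbitRel Z (G ⧸ (P : Subgroup G))))))
            exact Quotient.sound (MulAction.mem_orbit_iff.mpr ⟨⟨g, (Subgroup.zpowers_le.mpr huP) hg⟩, hgq⟩)
        rw [hS]
        have hO : (Finset.univ.filter (fun q : G ⧸ (P : Subgroup G) => (⟦q⟧ : Quotient (MulAction.orbitRel (P : Subgroup G) (G ⧸ (P : Subgroup G)))) = O)).card = Nat.card (MulAction.orbit (P : Subgroup G) O.out) := by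
          rw [← Fintype.card_subtype, ← Nat.card_eq_fintype_card]
          refine Nat.card_congr (Equiv.subtypeEquivRight fun q => ?_)
          conv_lhs => rw [← Quotient.out_eq O]
          exact ⟨fun h => Quotient.exact h, fun h => Quotient.sound h⟩
        rw [hO]
        by_cases hs : sing O
        · rw [if_pos hs]
          have h1 : Nat.card (MulAction.orbit (P : Subgroup G) O.out) = 1 := by
            rw [Nat.card_eq_fintype_card]
            exact MulAction.mem_fixedPoints_iff_card_orbit_eq_one.mp hs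
          rw [h1, pow_one]
          obtain ⟨g, hgq⟩ := MulAction.mem_orbit_iff.mp (Quotient.exact (hq0.2.trans (Quotient.out_eq O).symm))
          rw [hs g] at hgq
          have hxN : x ∈ Subgroup.normalizer ((P : Subgroup G) : Set G) := by
            have hle : (P : Subgroup G).map (MulAut.conj x⁻¹).toMonoidHom ≤ (P : Subgroup G) := by
              rintro _ ⟨y, hy, rfl⟩
              have hf : (⟨y, hy⟩ : (P : Subgroup G)) • q0 = q0 := hgq ▸ hs _
              conv_lhs at hf => rw [← QuotientGroup.out_eq' q0]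
              conv_rhs at hf => rw [← QuotientGroup.out_eq' q0]
              have h2 := QuotientGroup.eq.mp hf
              have h3 := (P : Subgroup G).inv_mem h2
              simpa [mul_assoc, hx] using h3
            have heq := Subgroup.eq_of_le_of_card_ge hle (by
              rw [Subgroup.card_map_of_injective (MulAut.conj x⁻¹).injective])
            rw [Subgroup.mem_normalizer_iff]
            intro y
            conv_rhs => rw [← heq]
            constructor
            · exact fun hy => by
                have hy' : y ∈ (P : Subgroup G).map (MulAut.conj x⁻¹).toMonoidHom := by rw [heq]; exact hy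
                obtain ⟨z, hz, hzy⟩ := hy'
                rw [heq, ← hzy]
                simp [mul_assoc]
                exact hz
            · rintro ⟨z, hz, hzy⟩
              simp only [MulEquiv.coe_toMonoidHom, MulAut.conj_apply, inv_inv] at hzy
              have hy2 : y = (x⁻¹ * (x⁻¹ * z * x) * x) := by rw [hzy]; group
              have hz2 : x⁻¹ * z * x ∈ (P : Subgroup G) := hle ⟨z, hz, by simp⟩
              rw [hy2]
              exact hle ⟨_, hz2, by simp⟩
          refine eq_comm.mp ?_
          rw [← inv_mul_eq_one]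
          rw [← map_inv, ← map_mul, hϕ]
          refine Subgroup.mem_sup_left ⟨Subtype.prop _, ?_⟩
          show u⁻¹ * (x⁻¹ * u * x) ∈ _
          rw [show u⁻¹ * (x⁻¹ * u * x) = ⁅u⁻¹, x⁻¹⁆ by rw [commutatorElement_def]; group]
          exact Subgroup.commutator_mem_commutator (Subgroup.inv_mem _ (Subgroup.le_normalizer huP)) (Subgroup.inv_mem _ hxN)
        · rw [if_neg hs]
          have hd : p ∣ Nat.card (MulAction.orbit (P : Subgroup G) O.out) := by
            obtain ⟨k, hk⟩ := P.isPGroup'.card_orbit O.out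
            rw [hk]
            refine dvd_pow_self p fun h => hs ?_
            show O.out ∈ MulAction.fixedPoints _ _
            rw [MulAction.mem_fixedPoints_iff_card_orbit_eq_one, ← Nat.card_eq_fintype_card, hk, h, pow_zero]
          obtain ⟨s, hs'⟩ := hd
          rw [hs', pow_mul, ← map_pow]
          have hmem1 : x⁻¹ * u ^ p * x ∈ (P : Subgroup G) := by
            have h0 : x⁻¹ * u ^ per q0 * x ∈ (P : Subgroup G) := hx0
            rw [hk0, pow_one] at h0
            have h1 := (P : Subgroup G).pow_mem h0 p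
            rw [show (x⁻¹ * u * x) ^ p = x⁻¹ * u ^ p * x by
              simpa using conj_pow (a := x⁻¹) (b := u) (i := p)] at h1
            exact h1
          rw [show ϕ _ = ϕ ⟨x⁻¹ * u ^ p * x, hmem1⟩ from congrArg ϕ (Subtype.ext (by
            simpa using conj_pow (a := x⁻¹) (b := u) (i := p))), hpow x p dvd_rfl hmem1, one_pow]
      · have hdp : p ∣ per q0 := hk0 ▸ dvd_pow_self p (by omega)
        rw [hpow x _ hdp hx0, one_pow, if_neg]
        intro hs
        obtain ⟨g, hgq⟩ := MulAction.mem_orbit_iff.mp (Quotient.exact (hq0.2.trans (Quotient.out_eq O).symm))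
        rw [hs g] at hgq
        have h1 : per q0 = 1 := by
          refine Function.minimalPeriod_eq_one_iff_isFixedPt.mpr ?_
          rw [← hgq]
          exact hs ⟨u, huP⟩
        rw [h1] at hdp
        exact hp.not_dvd_one hdp
    have hV : MonoidHom.transfer ϕ u = 1 := (Abelianization.commutator_subset_ker (MonoidHom.transfer ϕ)) huG
    rw [MonoidHom.transfer_eq_prod_quotient_orbitRel_zpowers_quot, ← Finset.prod_fiberwise Finset.univ proj,
      Finset.prod_congr rfl fun O _ => hstep O, Finset.prod_ite, Finset.prod_const_one, mul_one, Finset.prod_const] at hV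
    set m := (Finset.univ.filter sing).card with hm
    have hmf : m = Nat.card (MulAction.fixedPoints (P : Subgroup G) (G ⧸ (P : Subgroup G))) := by
      rw [hm, ← Fintype.card_subtype, ← Nat.card_eq_fintype_card]
      refine Nat.card_congr (Equiv.ofBijective (fun O => ⟨O.1.out, O.2⟩) ⟨fun A B h => ?_, fun q => ?_⟩)
      · have h' : A.1.out = B.1.out := congrArg Subtype.val h
        exact Subtype.ext (by rw [← Quotient.out_eq A.1, ← Quotient.out_eq B.1, h'])
      · obtain ⟨g, hg⟩ := MulAction.mem_orbit_iff.mp (Quotient.exact (Quotient.out_eq (⟦q.1⟧ : Quotient (MulAction.orbitRel (P : Subgroup G) (G ⧸ (P : Subgroup G))))))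
        rw [q.2 g] at hg
        exact ⟨⟨⟦q.1⟧, show _ ∈ MulAction.fixedPoints _ _ by rw [← hg]; exact q.2⟩, Subtype.ext hg.symm⟩
    have hmod : m.Coprime p := by
      refine (hp.coprime_iff_not_dvd.mpr fun hd => P.not_dvd_index ?_).symm
      have h1 := P.isPGroup'.card_modEq_card_fixedPoints (G ⧸ (P : Subgroup G))
      rw [← hmf] at h1
      exact Nat.modEq_zero_iff_dvd.mp (h1.trans (Nat.modEq_zero_iff_dvd.mpr hd))
    have hord : orderOf (ϕ ⟨u, huP⟩) ∣ m := orderOf_dvd_of_pow_eq_one hV
    have hord2 : orderOf (ϕ ⟨u, huP⟩) ∣ p ^ e := by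
      refine (orderOf_map_dvd ϕ _).trans ?_
      rw [← Subgroup.orderOf_coe, he]
    exact (hϕ ⟨u, huP⟩).mp (orderOf_eq_one_iff.mp (Nat.eq_one_of_dvd_coprimes (hmod.pow_right e) hord hord2))

end Cfsg.Agent.S4216
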