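import Cfsg.Statements.S4436
import Cfsg.Agent.Lib.CharDegreesTheory.BlockStabilizer

set_option autoImplicit false
open Cfsg

namespace Cfsg.Agent.S4436

open CfsgLib CfsgLib.CharDegreesTheory

/-- Let N be a normal subgroup of the finite group G, b a block of N (relative to a maximal ideal M of the algebraic integers containing p), T the stabilizer of b in G, N ≤ T, and B′ a block of T covering b (some member of B′ has a constituent in b on restriction to N) that induces the block B of G. Then every defect group of B′ is a defect group of B, and for every ψ ∈ B′ the induced character ψ^G is an irreducible character of G lying in B with the same height as ψ. -/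
theorem result {G : Type*} [Group G] [Fintype G] (p : ℕ) [Fact p.Prime] (M : Ideal Cfsg.AlgInt) (hM : Cfsg.IsPModular p M) (N : Subgroup G) [hN : N.Normal] [Fintype N] (b : Set (Cfsg.IrrCharacter N)) (hb : Cfsg.IsPBlock M b) (T : Subgroup G) [Fintype T] (hT : ∀ g : G, g ∈ T ↔ ∀ θ ∈ b, ∀ θ' : Cfsg.IrrCharacter N, (∀ n : N, (θ' : N → ℂ) n = (θ : N → ℂ) ⟨g * n * g⁻¹, hN.conj_mem n n.2 g⟩) → θ' ∈ b) (hNT : N ≤ T) (B' : Set (Cfsg.IrrCharacter T)) (hB' : Cfsg.IsPBlock M B') (hcov : (∃ ψ ∈ B', ∃ θ ∈ b, Cfsg.classInner (fun n : N => (ψ : T → ℂ) ⟨(n : G), hNT n.2⟩) (θ : N → ℂ) ≠ 0)) (B : Set (Cfsg.IrrCharacter G)) (hind : Cfsg.IsInducedBlock M T B' B) : (∀ D : Subgroup T, Cfsg.IsDefectGroup p M B' D → Cfsg.IsDefectGroup p M B (D.map T.subtype)) ∧ ∀ ψ ∈ B', ∃ χ ∈ B, (χ : G → ℂ) = Cfsg.indFun T (ψ : T → ℂ) ∧ Cfsg.blockHeight p B (χ : G → ℂ) = Cfsg.blockHeight p B' (ψ : T → ℂ) := by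
  have : M.IsPrime := Blocks.isPrime_of_isPModular hM
  have hT' : ∀ g : G, g ∈ T ↔ ∀ θ ∈ b, BlockLocal.conjIrr N g θ ∈ b := by
    intro g
    rw [← inv_mem_iff, hT]
    refine forall₂_congr fun θ _ => ⟨fun h => h _ fun n => ?_, fun h θ' hθ' => ?_⟩
    · rw [BlockLocal.conjIrr_apply]
      exact congrArg _ (Subtype.ext (MulAut.conjNormal_apply g⁻¹ n))
    · have he : θ' = BlockLocal.conjIrr N g θ := by
        refine Subtype.ext (funext fun n => ?_)
        rw [BlockLocal.conjIrr_apply, hθ']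
        exact congrArg _ (Subtype.ext (MulAut.conjNormal_apply g⁻¹ n).symm)
      exact he ▸ h
  have : Fact p.Prime := Blocks.fact_of_isPModular hM
  obtain ⟨B₂, hind₂, -, hmem⟩ := exists_induced_block hb hT' hNT hB' hcov
  obtain ⟨ψ₀, h₀, ho₀⟩ := hcov
  have hirr : ∀ ψ ∈ B', ∃ χ : IrrCharacter G, χ ∈ B ∧ (χ : G → ℂ) = indFun T (ψ : T → ℂ) := by
    intro ψ hψ
    obtain ⟨χ, hχ, -⟩ :=
      exists_induced_over hb hT' hNT ψ (overBlock_of_mem hb hNT hB' h₀ ho₀ hψ)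
    exact ⟨χ, induced_mem hind hψ hχ, hχ⟩
  have hBeq : B = B₂ := by
    obtain ⟨χ, hχ, hχe⟩ := hirr ψ₀ h₀
    exact Blocks.isPBlock_eq_of_mem hind.2.1 hind₂.2.1 hχ (induced_mem hind₂ h₀ hχe)
  subst hBeq
  refine ⟨fun D hD => isDefectGroup_map_of_induced hM hb hT' hNT hB' ⟨ψ₀, h₀, ho₀⟩ hind.2.1
    (blockCoeff_eq_indFun hb hT' hNT hB' ⟨ψ₀, h₀, ho₀⟩ hmem) hD, fun ψ hψ => ?_⟩
  have hdeg : ∀ (φ : IrrCharacter T) (χ : IrrCharacter G), (χ : G → ℂ) = indFun T (φ : T → ℂ) →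
      (charDegree (χ : G → ℂ)).factorization p =
        T.index.factorization p + (charDegree (φ : T → ℂ)).factorization p := by
    intro φ χ h
    have h1 : charDegree (χ : G → ℂ) = T.index * charDegree (φ : T → ℂ) := by
      have : (charDegree (χ : G → ℂ) : ℂ) = ((T.index * charDegree (φ : T → ℂ) : ℕ) : ℂ) := by
        rw [Nat.cast_mul, Blocks.charDegree_cast, Blocks.charDegree_cast, h, Frobenius.indFun_one]
      exact_mod_cast this
    rw [h1, Nat.factorization_mul Subgroup.index_ne_zero_of_finite (Blocks.charDegree_ne_zero' φ)]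
    rfl
  obtain ⟨χ, hχ, hχe⟩ := hirr ψ hψ
  refine ⟨χ, hχ, hχe, ?_⟩
  set A := (fun φ : IrrCharacter T => (charDegree (φ : T → ℂ)).factorization p) '' B' with hA
  have hne : A.Nonempty := ⟨_, ψ₀, h₀, rfl⟩
  obtain ⟨φ₀, hφ₀, hφmin⟩ := Nat.sInf_mem hne
  have hmin : sInf ((fun η : IrrCharacter G => (charDegree (η : G → ℂ)).factorization p) '' B) =
      T.index.factorization p + sInf A := by
    refine le_antisymm ?_ (le_csInf ?_ ?_)
    · obtain ⟨χ₀, hχ₀, hχ₀e⟩ := hirr φ₀ hφ₀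
      exact Nat.sInf_le ⟨χ₀, hχ₀, (hdeg _ _ hχ₀e).trans (by rw [← hφmin])⟩
    · exact ⟨_, χ, hχ, rfl⟩
    · rintro _ ⟨η, hη, rfl⟩
      obtain ⟨φ, hφ, he⟩ := (hmem η).1 hη
      show _ ≤ (charDegree (η : G → ℂ)).factorization p
      rw [hdeg φ η he]
      exact Nat.add_le_add_left (show sInf A ≤ (charDegree (φ : T → ℂ)).factorization p from
        Nat.sInf_le ⟨φ, hφ, rfl⟩) _
  show _ - _ = _ - sInf A
  rw [hmin, hdeg ψ χ hχe]
  omega

end Cfsg.Agent.S4436
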