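import Cfsg.Statements.S0168
import Cfsg.Agent.Lib.CharTheory.Orthogonality

set_option autoImplicit false
open Cfsg

namespace Cfsg.Agent.S0168

/-- The Burnside–Brauer Theorem. Let χ be the character of a faithful complex representation of a finite group, taking m distinct values. Then every irreducible character has nonzero inner product with χ ^ i for some i < m. -/
theorem result {G : Type*} [Group G] [Fintype G] {V : Type*} [AddCommGroup V] [Module ℂ V] [FiniteDimensional ℂ V] (ρ : Representation ℂ G V) (hfaithful : Function.Injective ρ) (ψ : G → ℂ) (hψ : Cfsg.IsIrrCharacter G ψ) : ∃ i : ℕ, i < Nat.card (Set.range ρ.character) ∧ Cfsg.classInner (fun g => ρ.character g ^ i) ψ ≠ 0 := by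
  classical
  open Polynomial in
  by_contra hnone
  push Not at hnone
  let s : Finset ℂ := Finset.univ.image ρ.character
  have hcard : Nat.card (Set.range ρ.character) = s.card := by
    rw [← Nat.card_eq_finsetCard s]
    exact Nat.card_congr (Equiv.setCongr (by simp [s]))
  let c := ρ.character 1
  have hc : c ∈ s := Finset.mem_image.2 ⟨1, Finset.mem_univ _, rfl⟩
  let q : Polynomial ℂ := ∏ v ∈ s.erase c, (Polynomial.X - Polynomial.C v)
  have hqdeg : q.natDegree < s.card := by
    rw [Polynomial.natDegree_finsetProd_X_sub_C_eq_card, Finset.card_erase_of_mem hc]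
    have := Finset.card_pos.2 ⟨c, hc⟩
    omega
  have hq : ∀ g : G, g ≠ 1 → q.eval (ρ.character g) = 0 := by
    intro g hg
    rw [Polynomial.eval_prod]
    refine Finset.prod_eq_zero (i := ρ.character g)
      (Finset.mem_erase.2 ⟨fun e => hg ?_, Finset.mem_image.2 ⟨g, Finset.mem_univ _, rfl⟩⟩) (by simp)
    have e' : ρ.character g = (Module.finrank ℂ V : ℂ) := e.trans ρ.char_one
    apply hfaithful
    rw [(CfsgLib.CharTheory.character_eq_finrank_iff ρ g).1 e', map_one]
    rfl
  have hq1 : q.eval c ≠ 0 := by
    rw [Polynomial.eval_prod]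
    exact Finset.prod_ne_zero_iff.2 fun v hv => by
      simp [sub_eq_zero, Ne.symm (Finset.ne_of_mem_erase hv)]
  have hzero : ∑ g : G, q.eval (ρ.character g) * (starRingEnd ℂ) (ψ g) = 0 := by
    simp only [Polynomial.eval_eq_sum_range, Finset.sum_mul]
    rw [Finset.sum_comm]
    refine Finset.sum_eq_zero fun i hi => ?_
    have hi' := hnone i (by rw [hcard]; rw [Finset.mem_range] at hi; omega)
    simp only [Cfsg.classInner, mul_eq_zero, inv_eq_zero, Nat.cast_eq_zero, Nat.card_pos.ne',
      false_or] at hi'
    simp only [mul_assoc, ← Finset.mul_sum, hi', mul_zero]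
  rw [Finset.sum_eq_single (1 : G) (fun g _ hg => by rw [hq g hg, zero_mul]) (by simp)] at hzero
  rcases mul_eq_zero.1 hzero with h | h
  · exact hq1 h
  · exact CfsgLib.CharTheory.apply_one_ne_zero_of_isIrr hψ (by simpa using h)

end Cfsg.Agent.S0168
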