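import Cfsg.Statements.S4127
import Cfsg.Agent.Lib.NormalPComplement.Basic
import Cfsg.Agent.Lib.ClassGraph.Basic
import Cfsg.Agent.Lib.CoprimeAction.Basic
import Cfsg.Agent.Lib.Cores.PCore

set_option autoImplicit false
open Cfsg

namespace Cfsg.Agent.S4127

variable {G : Type*} [Group G] [Finite G] {p : ℕ} [hp : Fact p.Prime]

theorem coprime_pow_orderOf {x y : G} {k : ℕ} (hx : orderOf x = p ^ k) (hy : (orderOf y).Coprime p) :
    (orderOf x).Coprime (orderOf y) := hx ▸ (hy.pow_right k).symm

theorem centralizer_mul_le {x y : G} (hxy : Commute x y) (hco : (orderOf x).Coprime (orderOf y)) :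
    Subgroup.centralizer ({x * y} : Set G) ≤
      Subgroup.centralizer ({x} : Set G) ⊓ Subgroup.centralizer ({y} : Set G) := by
  intro z hz
  rw [Subgroup.mem_centralizer_singleton_iff] at hz
  have hzc : Commute z (x * y) := hz
  obtain ⟨a, ha1, ha2⟩ := Nat.chineseRemainder hco 1 0
  have e : (x * y) ^ a = x := by
    rw [hxy.mul_pow, (pow_eq_pow_iff_modEq.mpr ha1 : x ^ a = x ^ 1), pow_one,
      (pow_eq_pow_iff_modEq.mpr ha2 : y ^ a = y ^ 0), pow_zero, mul_one]
  have hzx : Commute z x := e ▸ hzc.pow_right a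
  refine ⟨Subgroup.mem_centralizer_singleton_iff.mpr hzx, Subgroup.mem_centralizer_singleton_iff.mpr ?_⟩
  have := (hzx.inv_right).mul_right hzc
  rwa [inv_mul_cancel_left] at this

/-- If all `p'`-elements have class sizes prime to `p`, they centralise the Sylow subgroup. -/
theorem le_centralizer_of_forall (h : ∀ y : G, (orderOf y).Coprime p → ¬ p ∣ (Subgroup.centralizer ({y} : Set G)).index)
    (P : Sylow p G) : Subgroup.normalizer ((P : Subgroup G) : Set G) = ⊤ ∧
    ∀ y : G, (orderOf y).Coprime p → y ∈ Subgroup.centralizer ((P : Subgroup G) : Set G) := by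
  classical
  set C := Subgroup.centralizer ((P : Subgroup G) : Set G) with hC
  have hPN : C ≤ Subgroup.normalizer ((P : Subgroup G) : Set G) := Subgroup.centralizer_le_normalizer _
  have htop : (P : Subgroup G) ⊔ C = ⊤ := by
    by_contra hne
    obtain ⟨g, hg⟩ := CfsgLib.ClassGraph.exists_forall_conj_notMem hne
    obtain ⟨a, b, hab, ⟨k, hk⟩, hb⟩ := CfsgLib.NormalPComplement.exists_pParts (p := p) (isOfFinOrder_of_finite g)
    set z := g ^ a
    set y := g ^ b
    obtain ⟨u, hu⟩ := CfsgLib.ClassGraph.exists_conj_mem_centralizer P (h y hb)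
    set D := Subgroup.centralizer ({u * y * u⁻¹} : Set G) with hD
    have hPD : (P : Subgroup G) ≤ D := fun w hw =>
      Subgroup.mem_centralizer_singleton_iff.2 (Subgroup.mem_centralizer_iff.1 hu w hw)
    have hzD : u * z * u⁻¹ ∈ D := Subgroup.mem_centralizer_singleton_iff.2 (by
      have : Commute z y := Commute.pow_pow_self g a b
      calc u * z * u⁻¹ * (u * y * u⁻¹) = u * (z * y) * u⁻¹ := by group
        _ = _ := by rw [this.eq]; group)
    obtain ⟨j, -, hj⟩ := (Nat.dvd_prime_pow hp.out).1 hk
    obtain ⟨S, hS⟩ := (IsPGroup.of_card (p := p) (n := j)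
      (show Nat.card (Subgroup.zpowers (⟨_, hzD⟩ : D)) = p ^ j by
        rw [Nat.card_zpowers, Subgroup.orderOf_mk, ← hj]
        exact orderOf_injective (MulAut.conj u).toMonoidHom (MulAut.conj u).injective z)).exists_le_sylow
    obtain ⟨d, hd⟩ := MulAction.exists_smul_eq D S (P.subtype hPD)
    have hmem : d * ⟨_, hzD⟩ * d⁻¹ ∈ (d • S : Sylow p D).1 := ⟨_, hS (Subgroup.mem_zpowers _), rfl⟩
    rw [hd] at hmem
    apply hg ((d : G) * u)
    have hy' : (d : G) * (u * y * u⁻¹) * (d : G)⁻¹ = u * y * u⁻¹ := by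
      rw [Subgroup.mem_centralizer_singleton_iff.1 d.2, mul_inv_cancel_right]
    have e : (d : G) * u * g * ((d : G) * u)⁻¹ =
        ((d : G) * (u * z * u⁻¹) * (d : G)⁻¹) * ((d : G) * (u * y * u⁻¹) * (d : G)⁻¹) := by
      rw [← hab]; group
    rw [e, hy']
    exact Subgroup.mul_mem_sup hmem hu
  have hnP : Subgroup.normalizer ((P : Subgroup G) : Set G) = ⊤ :=
    top_le_iff.1 (htop ▸ sup_le Subgroup.le_normalizer hPN)
  refine ⟨hnP, fun y hy => ?_⟩
  have hCn : C.Normal := by
    rw [← Subgroup.normalizer_eq_top_iff, ← top_le_iff, ← hnP]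
    intro n hn
    refine Subgroup.mem_normalizer_fintype fun c hc => Subgroup.mem_centralizer_iff.2 fun w hw => ?_
    have hw' : n⁻¹ * w * n ∈ (P : Subgroup G) := by
      have := (Subgroup.mem_normalizer_iff.1 (inv_mem hn) w).1 hw
      rwa [inv_inv] at this
    calc w * (n * c * n⁻¹) = n * ((n⁻¹ * w * n) * c) * n⁻¹ := by group
      _ = _ := by rw [Subgroup.mem_centralizer_iff.1 hc _ hw']; group
  have hq : IsPGroup p (G ⧸ C) := by
    intro q
    obtain ⟨g, rfl⟩ := QuotientGroup.mk_surjective q
    obtain ⟨w, hw, c, hc, rfl⟩ := Subgroup.mem_sup_of_normal_right.1 (htop ▸ Subgroup.mem_top g)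
    obtain ⟨k, hk⟩ := P.2 ⟨w, hw⟩
    refine ⟨k, ?_⟩
    rw [QuotientGroup.mk_mul, (QuotientGroup.eq_one_iff c).2 hc, mul_one, ← QuotientGroup.mk_pow,
      show w ^ p ^ k = 1 from congrArg Subtype.val hk, QuotientGroup.mk_one]
  exact (QuotientGroup.eq_one_iff y).1
    (CfsgLib.NormalPComplement.map_eq_one_of_coprime_orderOf hq (QuotientGroup.mk' C) hy)

theorem main (a : ℕ) (hmax : ∀ y : G, ¬ p ^ (a + 1) ∣ (Subgroup.centralizer ({y} : Set G)).index)
    (x : G) (k : ℕ) (hxk : orderOf x = p ^ k) (hxi : (Subgroup.centralizer ({x} : Set G)).index = p ^ a) :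
    Cfsg.HasNormalPComplement p G := by
  classical
  set C := Subgroup.centralizer ({x} : Set G) with hC
  have hCp : ∀ y : C, (orderOf y).Coprime p → ¬ p ∣ (Subgroup.centralizer ({y} : Set C)).index := by
    intro y hy hd
    have hxy : Commute x (y : G) := (Subgroup.mem_centralizer_singleton_iff.1 y.2).symm
    have hy' : (orderOf (y : G)).Coprime p := by rwa [Subgroup.orderOf_coe]
    have hle := centralizer_mul_le hxy (coprime_pow_orderOf hxk hy')
    apply hmax (x * y)
    refine dvd_trans ?_ (Subgroup.index_dvd_of_le hle)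
    have e : (Subgroup.centralizer ({y} : Set C)) = (Subgroup.centralizer ({(y : G)} : Set G)).subgroupOf C := by
      ext z
      rw [Subgroup.mem_subgroupOf, Subgroup.mem_centralizer_singleton_iff, Subgroup.mem_centralizer_singleton_iff]
      exact ⟨fun h => congrArg Subtype.val h, fun h => Subtype.ext h⟩
    rw [← Subgroup.relIndex_mul_index (inf_le_left (a := C) (b := Subgroup.centralizer ({(y : G)} : Set G))),
      Subgroup.inf_relIndex_left, hxi, pow_succ, mul_comm]
    refine Nat.mul_dvd_mul ?_ dvd_rfl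
    rw [e] at hd
    exact hd
  obtain ⟨P1⟩ := (inferInstance : Nonempty (Sylow p C))
  obtain ⟨hP1n, hcen⟩ := le_centralizer_of_forall hCp P1
  -- `x` lies in the `p`-core
  set P1' := (P1 : Subgroup C).map C.subtype with hP1'
  obtain ⟨P, hP⟩ := (show IsPGroup p P1' from P1.2.map _).exists_le_sylow
  have hinf : (P : Subgroup G) ⊓ C = P1' := by
    refine le_antisymm ?_ (le_inf hP (Subgroup.map_subtype_le _))
    have h : (P : Subgroup G).subgroupOf C = (P1 : Subgroup C) :=
      P1.is_maximal' (P.2.comap_of_injective _ C.subtype_injective) fun w hw => hP (Subgroup.mem_map_of_mem _ hw)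
    intro w hw
    exact ⟨⟨w, hw.2⟩, h ▸ (show (⟨w, hw.2⟩ : C) ∈ (P : Subgroup G).subgroupOf C from hw.1), rfl⟩
  have hrel : C.relIndex (P : Subgroup G) = C.index := by
    have h1 := Subgroup.relIndex_mul_index (hinf ▸ inf_le_left : P1' ≤ (P : Subgroup G))
    have h2 : P1'.index = (P1 : Subgroup C).index * C.index := Subgroup.index_map_subtype _
    have e : C.relIndex (P : Subgroup G) = P1'.relIndex (P : Subgroup G) := by
      rw [← hinf, Subgroup.inf_relIndex_left]
    rw [e]
    obtain ⟨n, hn⟩ := P.2.index (P1'.subgroupOf (P : Subgroup G))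
    change P1'.relIndex (P : Subgroup G) = p ^ n at hn
    rw [h2, hn, hxi] at h1
    -- compare the powers of `p`
    have h3 := congrArg (fun m => m.factorization p) h1
    rw [Nat.factorization_mul (pow_ne_zero _ hp.out.ne_zero) Subgroup.index_ne_zero_of_finite,
      Nat.factorization_mul Subgroup.index_ne_zero_of_finite (pow_ne_zero _ hp.out.ne_zero),
      Finsupp.add_apply, Finsupp.add_apply, Nat.factorization_eq_zero_of_not_dvd P.not_dvd_index,
      Nat.factorization_eq_zero_of_not_dvd P1.not_dvd_index, hp.out.factorization_pow, hp.out.factorization_pow,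
      Finsupp.single_eq_same, Finsupp.single_eq_same] at h3
    rw [hn, hxi]
    congr 1
    omega
  have hCP : ∀ g : G, ∃ u ∈ (P : Subgroup G), ∃ c ∈ C, g = u * c := by
    intro g
    let f : (P : Subgroup G) ⧸ C.subgroupOf (P : Subgroup G) → G ⧸ C :=
      Quotient.lift (fun u : (P : Subgroup G) => ((u : G) : G ⧸ C)) fun u v huv => by
        replace huv : QuotientGroup.leftRel (C.subgroupOf (P : Subgroup G)) u v := huv
        rw [QuotientGroup.leftRel_apply] at huv
        exact QuotientGroup.eq.2 huv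
    have hf : Function.Injective f := by
      intro q q' h
      induction q using QuotientGroup.induction_on with | _ u => ?_
      induction q' using QuotientGroup.induction_on with | _ v => ?_
      have h' : (u : G)⁻¹ * (v : G) ∈ C := QuotientGroup.eq.1 (show ((u : G) : G ⧸ C) = ((v : G) : G ⧸ C) from h)
      exact QuotientGroup.eq.2 h'
    obtain ⟨q, hq⟩ := (hf.bijective_of_nat_card_le hrel.ge).2 (g : G ⧸ C)
    induction q using QuotientGroup.induction_on with | _ u => ?_
    exact ⟨u, u.2, (u : G)⁻¹ * g, QuotientGroup.eq.1 hq, by group⟩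
  have hxP : x ∈ (P : Subgroup G) := by
    have hxc : (⟨x, Subgroup.mem_centralizer_singleton_iff.2 rfl⟩ : C) ∈ (P1 : Subgroup C) := by
      obtain ⟨S, hS⟩ := (IsPGroup.of_card (p := p) (n := k)
        (show Nat.card (Subgroup.zpowers (⟨x, Subgroup.mem_centralizer_singleton_iff.2 rfl⟩ : C)) = p ^ k by
          rw [Nat.card_zpowers, Subgroup.orderOf_mk, hxk])).exists_le_sylow
      obtain ⟨d, hd⟩ := MulAction.exists_smul_eq C S P1
      rw [← hd]
      refine ⟨_, hS (Subgroup.mem_zpowers _), Subtype.ext ?_⟩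
      show (d : G) * x * (d : G)⁻¹ = x
      rw [Subgroup.mem_centralizer_singleton_iff.1 d.2, mul_inv_cancel_right]
    exact hP (Subgroup.mem_map_of_mem _ hxc)
  set U := Cfsg.pCore p G with hU
  have hxU : x ∈ U := by
    have hle : Subgroup.normalClosure ({x} : Set G) ≤ (P : Subgroup G) := by
      refine (Subgroup.closure_le _).2 fun w hw => ?_
      obtain ⟨v, hv, hvw⟩ := Group.mem_conjugatesOfSet_iff.1 hw
      rw [Set.mem_singleton_iff] at hv
      obtain ⟨g, rfl⟩ := isConj_iff.1 hvw
      obtain ⟨u, hu, c, hc, rfl⟩ := hCP g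
      subst hv
      show u * c * v * (u * c)⁻¹ ∈ (P : Subgroup G)
      rw [show u * c * v * (u * c)⁻¹ = u * (c * v) * c⁻¹ * u⁻¹ by group,
        Subgroup.mem_centralizer_singleton_iff.1 hc, ← mul_assoc, mul_inv_cancel_right]
      exact (P : Subgroup G).mul_mem ((P : Subgroup G).mul_mem hu hxP) ((P : Subgroup G).inv_mem hu)
    exact CfsgLib.Cores.le_pCore (hN := Subgroup.normalClosure_normal) (P.2.to_le hle) (Subgroup.subset_normalClosure rfl)
  have hUn : U.Normal := by rw [hU]; infer_instance
  set D := Subgroup.centralizer (U : Set G) with hD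
  have hDn : D.Normal := by rw [hD]; infer_instance
  -- `p'`-elements of `C` centralise the core
  have hyU : ∀ y : C, (orderOf y).Coprime p → (y : G) ∈ D := by
    intro y hy
    refine Subgroup.zpowers_le.1 ?_
    have hxy : Commute x (y : G) := (Subgroup.mem_centralizer_singleton_iff.1 y.2).symm
    refine CfsgLib.CoprimeAction.pxq (P := Subgroup.zpowers x) ?_ ?_ (CfsgLib.Cores.isPGroup_pCore p G) ?_ ?_ ?_ ?_
    · exact IsPGroup.of_card (n := k) (by rw [Nat.card_zpowers, hxk])
    · rw [Nat.card_zpowers, Subgroup.orderOf_coe]; exact hy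
    · refine Subgroup.zpowers_le.2 (Subgroup.mem_centralizer_iff.2 ?_)
      rintro _ ⟨i, rfl⟩
      exact ((hxy.symm.zpow_left i)).eq
    · rw [Subgroup.normalizer_eq_top]; exact le_top
    · rw [Subgroup.normalizer_eq_top]; exact le_top
    · rintro w ⟨hwU, hwx⟩
      have hwC : w ∈ C := Subgroup.mem_centralizer_singleton_iff.2
        (Subgroup.mem_centralizer_iff.1 hwx x (Subgroup.mem_zpowers x)).symm
      have hUC : (U.subgroupOf C).Normal := Subgroup.Normal.comap hUn _
      have hw1 : (⟨w, hwC⟩ : C) ∈ (P1 : Subgroup C) := by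
        obtain ⟨S, hS⟩ := (show IsPGroup p (U.subgroupOf C) from
          (CfsgLib.Cores.isPGroup_pCore p G).comap_of_injective _ C.subtype_injective).exists_le_sylow
        obtain ⟨d, hd⟩ := MulAction.exists_smul_eq C S P1
        rw [← hd]
        refine ⟨d⁻¹ * ⟨w, hwC⟩ * d, hS ?_, by simp [mul_assoc]⟩
        have := hUC.conj_mem ⟨w, hwC⟩ (show (⟨w, hwC⟩ : C) ∈ U.subgroupOf C from hwU) d⁻¹
        rwa [inv_inv] at this
      rw [Subgroup.mem_centralizer_iff]
      rintro _ ⟨i, rfl⟩
      have h1 := Subgroup.mem_centralizer_iff.1 (hcen y hy) _ hw1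
      exact ((show Commute w (y : G) from congrArg Subtype.val h1).symm.zpow_left i).eq
  -- the quotient by `D` is a `p`-group
  have hq : IsPGroup p (G ⧸ D) := by
    intro q
    obtain ⟨g, rfl⟩ := QuotientGroup.mk_surjective q
    obtain ⟨u, hu, c, hc, rfl⟩ := hCP g
    have hdvd : D.index ∣ p ^ ((Nat.card (P : Subgroup G)).factorization p + a + (Nat.card G).factorization p) := by
      by_contra hnd
      obtain ⟨r, hr, hrp, hrd⟩ : ∃ r : ℕ, r.Prime ∧ r ≠ p ∧ r ∣ D.index := by
        by_contra hno
        push Not at hno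
        apply hnd
        have h1 : D.index = p ^ D.index.primeFactorsList.length := Nat.eq_prime_pow_of_unique_prime_dvd
          Subgroup.index_ne_zero_of_finite fun {d} hd hdd => by_contra fun h => hno d hd h hdd
        have h2 := D.index_dvd_card
        rw [h1] at h2 ⊢
        exact pow_dvd_pow p (le_add_left ((hp.out.pow_dvd_iff_le_factorization Nat.card_pos.ne').1 h2))
      have : Fact r.Prime := ⟨hr⟩
      obtain ⟨R⟩ := (inferInstance : Nonempty (Sylow r C))
      have hRD : (R : Subgroup C).map C.subtype ≤ D := by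
        rintro _ ⟨y, hy, rfl⟩
        refine hyU y ?_
        obtain ⟨i, hi⟩ := IsPGroup.iff_orderOf.1 R.2 ⟨y, hy⟩
        rw [Subgroup.orderOf_mk] at hi
        rw [hi]
        exact ((Nat.coprime_primes hr hp.out).2 hrp).pow_left i
      have h2 := hrd.trans (Subgroup.index_dvd_of_le hRD)
      rw [Subgroup.index_map_subtype, hxi] at h2
      rcases hr.dvd_mul.1 h2 with h3 | h3
      · exact R.not_dvd_index h3
      · exact hrp ((Nat.prime_dvd_prime_iff_eq hr hp.out).1 (hr.dvd_of_dvd_pow h3))
    refine ⟨(Nat.card (P : Subgroup G)).factorization p + a + (Nat.card G).factorization p, ?_⟩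
    obtain ⟨m, hm⟩ := hdvd
    rw [hm, pow_mul, Subgroup.index_eq_card, pow_card_eq_one', one_pow]
  have hKC : ∀ y : G, (orderOf y).Coprime p → y ∈ C := fun y hy =>
    Subgroup.mem_centralizer_singleton_iff.2 (Subgroup.mem_centralizer_iff.1
      ((QuotientGroup.eq_one_iff y).1 (CfsgLib.NormalPComplement.map_eq_one_of_coprime_orderOf hq (QuotientGroup.mk' D) hy)) x hxU).symm
  -- the `p'`-elements form a subgroup
  have hab : ∀ y z : C, (orderOf y).Coprime p → (orderOf z).Coprime p → (orderOf (y * z)).Coprime p := by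
    have hC' : Cfsg.HasNormalPComplement p C := by
      have : (P1 : Subgroup C).Normal := Subgroup.normalizer_eq_top_iff.1 hP1n
      have hcop : (Nat.card (P1 : Subgroup C)).Coprime (P1 : Subgroup C).index := by
        obtain ⟨e, he⟩ := IsPGroup.iff_card.1 P1.2
        rw [he]
        exact (hp.out.coprime_iff_not_dvd.2 P1.not_dvd_index).pow_left e
      obtain ⟨K0, hK0⟩ := Subgroup.exists_right_complement'_of_coprime hcop
      have hK0c : K0 ≤ Subgroup.centralizer ((P1 : Subgroup C) : Set C) := fun w hw => by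
        refine hcen w (Nat.Coprime.coprime_dvd_left ?_ (hp.out.coprime_iff_not_dvd.2 P1.not_dvd_index).symm)
        rw [hK0.symm.index_eq_card]
        exact Subgroup.orderOf_dvd_natCard K0 hw
      have hn : K0.Normal := by
        rw [← Subgroup.normalizer_eq_top_iff, ← top_le_iff, ← hK0.sup_eq_top]
        refine sup_le ((Subgroup.le_centralizer_iff.1 hK0c).trans (Subgroup.centralizer_le_normalizer _)) Subgroup.le_normalizer
      exact ⟨P1, K0, hn, hK0.symm⟩
    intro y z hy hz
    have h := (Cfsg.pPrimeCore p C).mul_mem (CfsgLib.NormalPComplement.mem_pPrimeCore_of_coprime hC' hy)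
      (CfsgLib.NormalPComplement.mem_pPrimeCore_of_coprime hC' hz)
    exact (CfsgLib.Cores.card_pPrimeCore_coprime p).coprime_dvd_left (Subgroup.orderOf_dvd_natCard _ h)
  let K : Subgroup G :=
    { carrier := {y | (orderOf y).Coprime p}
      one_mem' := by simp
      mul_mem' := fun {y z} hy hz => by
        have := hab ⟨y, hKC y hy⟩ ⟨z, hKC z hz⟩ (by rwa [Subgroup.orderOf_mk]) (by rwa [Subgroup.orderOf_mk])
        rwa [← Subgroup.orderOf_coe] at this
      inv_mem' := fun {y} hy => by simpa using hy }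
  have hKn : K.Normal := ⟨fun y hy g => by
    show (orderOf (g * y * g⁻¹)).Coprime p
    rwa [show orderOf (g * y * g⁻¹) = orderOf y from orderOf_injective (MulAut.conj g).toMonoidHom (MulAut.conj g).injective y]⟩
  have hKc : (Nat.card K).Coprime p := by
    rw [Nat.coprime_comm, hp.out.coprime_iff_not_dvd]
    intro hd
    obtain ⟨w, hw⟩ := exists_prime_orderOf_dvd_card' p hd
    have h := w.2
    change (orderOf (w : G)).Coprime p at h
    rw [Subgroup.orderOf_coe, hw, Nat.coprime_self] at h
    exact hp.out.ne_one h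
  exact CfsgLib.NormalPComplement.hasNormalPComplement_of_forall_mem fun y hy =>
    CfsgLib.Cores.le_pPrimeCore (hN := hKn) hKc (show y ∈ K from hy)

/-- Let G be a finite group, p a prime and p^a the largest power of p dividing the size of any conjugacy class of G. If some element of p-power order has a conjugacy class of size exactly p^a, then G has a normal p-complement. -/
theorem result {G : Type*} [Group G] [Finite G] (p : ℕ) [Fact p.Prime]
    (a : ℕ) (hmax : ∀ y : G, ¬ p ^ (a + 1) ∣ (Subgroup.centralizer ({y} : Set G)).index)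
    (hx : ∃ x : G, (∃ k : ℕ, orderOf x = p ^ k) ∧ (Subgroup.centralizer ({x} : Set G)).index = p ^ a) :
    Cfsg.HasNormalPComplement p G := by
  obtain ⟨x, ⟨k, hk⟩, hx⟩ := hx
  exact main a hmax x k hk hx

end Cfsg.Agent.S4127
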