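import Cfsg.Statements.S0680
import Cfsg.Agent.Lib.PermGroups.SharplyKernel

set_option autoImplicit false
open Cfsg

namespace Cfsg.Agent.S0680

/-- A finite sharply doubly transitive permutation group has degree a prime power `p ^ j`; a Sylow `p`-subgroup is normal, elementary abelian and regular, and consists of the identity together with the elements without fixed points. (Frobenius' Theorem is not needed.) -/
theorem result {α : Type*} [Fintype α] [DecidableEq α] (G : Subgroup (Equiv.Perm α)) [MulAction.IsMultiplyPretransitive G α 2] (hsharp : ∀ x : Fin 2 ↪ α, MulAction.stabilizer G x = ⊥) (h2 : 2 ≤ Fintype.card α) : ∃ p j : ℕ, p.Prime ∧ 1 ≤ j ∧ Fintype.card α = p ^ j ∧ ∀ (hp : Fact p.Prime) (P : Sylow p G), (P : Subgroup G).Normal ∧ IsMulCommutative (P : Subgroup G) ∧ (∀ x ∈ (P : Subgroup G), x ^ p = 1) ∧ MulAction.IsPretransitive (P : Subgroup G) α ∧ (∀ a : α, MulAction.stabilizer (P : Subgroup G) a = ⊥) ∧ ∀ g : G, g ∈ (P : Subgroup G) ↔ g = 1 ∨ ∀ a : α, g • a ≠ a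 := by
  obtain ⟨p, j, hp, hj1, hj, K, hKn, hKc, hKp, hKt, hKsem, hKmem, hP⟩ :=
    CfsgLib.PermGroups.sharply_two_transitive_kernel hsharp (by rwa [Nat.card_eq_fintype_card])
  refine ⟨p, j, hp, hj1, by rw [← Nat.card_eq_fintype_card, hj], fun hfact P => ?_⟩
  rw [hP hfact P]
  exact ⟨hKn, hKc, hKp, hKt, hKsem, hKmem⟩

end Cfsg.Agent.S0680
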