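import Cfsg.Statements.S3209
import Cfsg.Agent.Lib.InvChar.Basic
import Cfsg.Agent.Lib.CoreFree.SL2Pairs
import Cfsg.Agent.Lib.SL2.Torus

set_option autoImplicit false
open Cfsg

namespace Cfsg.Agent.S3209

open scoped MatrixGroups

theorem square_roots {G : Type*} [Group G] {F : Type*} [Field F] [Finite F] (h2 : (2 : F) ≠ 0) (L : Subgroup G)
    (e : ↥L ≃* SL(2, F)) (j : L) (hj : j * j = 1) (hj1 : j ≠ 1) :
    ∃ a : L, a * a = j ∧ ∀ b : L, b * b = j → ∃ g : L, g * a * g⁻¹ = b := by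
  have hej : e j = -1 := CfsgLib.SL2.eq_neg_one_of_sq_eq_one h2 (by rw [pow_two, ← map_mul, hj, map_one])
    (fun h => hj1 (e.injective (h.trans (map_one e).symm)))
  let g0 : SL(2, F) := ⟨!![0, -1; 1, 0], by simp [Matrix.det_fin_two]⟩
  have hg0 : g0 * g0 = -1 := by
    apply Subtype.ext
    rw [Matrix.SpecialLinearGroup.coe_mul, Matrix.SpecialLinearGroup.coe_neg]
    ext i k
    fin_cases i <;> fin_cases k <;> simp [g0, Matrix.mul_apply]
  have htr : ∀ u : SL(2, F), u * u = -1 → CfsgLib.SL2.tr u = 0 := by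
    intro u hu
    have h := CfsgLib.SL2.mul_self_eq u
    rw [← Matrix.SpecialLinearGroup.coe_mul, hu] at h
    have hd := u.det_coe
    rw [Matrix.det_fin_two] at hd
    by_contra ht
    have h00 := congrFun (congrFun h 0) 0
    have h01 := congrFun (congrFun h 0) 1
    simp at h00 h01
    rcases h01 with h01 | h01
    · exact ht h01
    · have h00' := (mul_eq_zero.1 (show CfsgLib.SL2.tr u * (u : Matrix (Fin 2) (Fin 2) F) 0 0 = 0 by linear_combination -h00)).resolve_left ht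
      rw [h00', h01] at hd
      simp at hd
  refine ⟨e.symm g0, e.injective (by rw [map_mul, MulEquiv.apply_symm_apply, hg0, hej]), fun b hb => ?_⟩
  have hb' : e b * e b = -1 := by rw [← map_mul, hb, hej]
  have h4 : CfsgLib.SL2.tr g0 ^ 2 ≠ 4 := by
    rw [htr g0 hg0]
    intro h
    exact mul_ne_zero h2 h2 (by linear_combination -h)
  obtain ⟨g, hg⟩ := isConj_iff.1 (CfsgLib.SL2.isConj_of_tr_eq h4 (by rw [htr g0 hg0, htr _ hb']) : IsConj g0 (e b))
  exact ⟨e.symm g, e.injective (by rw [map_mul, map_mul, map_inv, MulEquiv.apply_symm_apply, MulEquiv.apply_symm_apply]; exact hg)⟩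

theorem involution_unique {G : Type*} [Group G] {F : Type*} [Field F] (h2 : (2 : F) ≠ 0) (L : Subgroup G)
    (e : ↥L ≃* SL(2, F)) (j : G) (hj2 : j * j = 1) (hj1 : j ≠ 1) (hjl : j ∈ L) (w : G) (hw : w ∈ L)
    (hww : w * w = 1) : w = 1 ∨ w = j := by
  rw [or_iff_not_imp_left]
  intro hw1
  have e1 := CfsgLib.SL2.eq_neg_one_of_sq_eq_one h2 (g := e ⟨w, hw⟩)
    (by rw [pow_two, ← map_mul, ← map_one e]; exact congrArg e (Subtype.ext hww))
    (fun hh => hw1 (congrArg Subtype.val (e.injective (hh.trans (map_one e).symm))))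
  have e2 := CfsgLib.SL2.eq_neg_one_of_sq_eq_one h2 (g := e ⟨j, hjl⟩)
    (by rw [pow_two, ← map_mul, ← map_one e]; exact congrArg e (Subtype.ext hj2))
    (fun hh => hj1 (congrArg Subtype.val (e.injective (hh.trans (map_one e).symm))))
  exact congrArg Subtype.val (e.injective (e1.trans e2.symm))

/-- Let L₁ ≅ SL₂(q₁) and L₂ ≅ SL₂(q₂), q₁ and q₂ odd, be elementwise-commuting subgroups of a finite group meeting in ⟨j⟩ for an involution j. Then L₁L₂ has exactly two conjugacy classes of involutions: the central involution j, and one further class (there is an involution x ≠ j in L₁L₂, and every involution of L₁L₂ other than j is conjugate to x by an element of L₁L₂). -/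
theorem result {G : Type*} [Group G] [Finite G]
    {F₁ : Type*} [Field F₁] [Fintype F₁] {F₂ : Type*} [Field F₂] [Fintype F₂]
    (hF₁ : Odd (Fintype.card F₁)) (hF₂ : Odd (Fintype.card F₂)) (L₁ L₂ : Subgroup G)
    (e₁ : ↥L₁ ≃* Matrix.SpecialLinearGroup (Fin 2) F₁) (e₂ : ↥L₂ ≃* Matrix.SpecialLinearGroup (Fin 2) F₂)
    (hc : ∀ x ∈ L₁, ∀ y ∈ L₂, x * y = y * x) (j : G) (hj : orderOf j = 2) (hm : L₁ ⊓ L₂ = Subgroup.zpowers j) :
    ∃ x ∈ L₁ ⊔ L₂, orderOf x = 2 ∧ x ≠ j ∧
      ∀ y ∈ L₁ ⊔ L₂, orderOf y = 2 → y = j ∨ ∃ g ∈ L₁ ⊔ L₂, g * x * g⁻¹ = y := by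
  have h21 := CfsgLib.CoreFree.two_ne_zero_of_odd_card hF₁
  have h22 := CfsgLib.CoreFree.two_ne_zero_of_odd_card hF₂
  have hj2 : j * j = 1 := by
    have := pow_orderOf_eq_one j
    rwa [hj, pow_two] at this
  have hj1 : j ≠ 1 := fun e => by rw [e, orderOf_one] at hj; omega
  have hjL : j ∈ L₁ ⊓ L₂ := hm.ge (Subgroup.mem_zpowers j)
  have hjz : ∀ z ∈ L₁ ⊓ L₂, z = 1 ∨ z = j := by
    intro z hz
    rw [hm] at hz
    obtain ⟨i, rfl⟩ := Subgroup.mem_zpowers_iff.1 hz
    rw [← zpow_mod_orderOf, hj]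
    rcases Int.emod_two_eq i with h | h <;> simp [h]
  obtain ⟨a, ha, ha'⟩ := square_roots h21 L₁ e₁ ⟨j, hjL.1⟩ (Subtype.ext hj2) (fun h => hj1 (congrArg Subtype.val h))
  obtain ⟨b, hb, hb'⟩ := square_roots h22 L₂ e₂ ⟨j, hjL.2⟩ (Subtype.ext hj2) (fun h => hj1 (congrArg Subtype.val h))
  have haa : (a : G) * a = j := congrArg Subtype.val ha
  have hbb : (b : G) * b = j := congrArg Subtype.val hb
  have hx : ((a : G) * b) * (a * b) = 1 := by
    rw [mul_assoc, ← mul_assoc (b : G), ← hc a a.2 b b.2, mul_assoc (a : G), ← mul_assoc (a : G) a, haa, hbb, hj2]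
  have hnot : ∀ z ∈ L₁ ⊓ L₂, (a : G) * b ≠ z := by
    intro z hz h
    have h1 : (a : G) ∈ L₁ ⊓ L₂ := ⟨a.2, by
      rw [show (a : G) = z * (b : G)⁻¹ by rw [← h]; group]
      exact L₂.mul_mem hz.2 (L₂.inv_mem b.2)⟩
    rcases hjz _ h1 with h2 | h2 <;> rw [h2] at haa
    · exact hj1 (by simpa using haa.symm)
    · exact hj1 (haa.symm.trans hj2)
  refine ⟨a * b, Subgroup.mul_mem_sup a.2 b.2,
    orderOf_eq_prime (by rw [pow_two]; exact hx) (hnot 1 (Subgroup.one_mem _)), hnot j hjL, ?_⟩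
  intro y hy hy2
  have hle : L₂ ≤ Subgroup.normalizer (L₁ : Set G) := by
    intro c hc'
    rw [Subgroup.mem_normalizer_iff]
    intro h
    constructor
    · intro hh; rwa [← hc h hh c hc', mul_inv_cancel_right]
    · intro hh
      have e := hc _ hh c hc'
      rw [inv_mul_cancel_right] at e
      have e2 : h = c * h * c⁻¹ := by
        apply mul_left_cancel (a := c)
        calc c * h = c * h * c⁻¹ * c := by group
          _ = c * (c * h * c⁻¹) := by rw [inv_mul_cancel_right]; exact e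
      rwa [e2]
  rw [← SetLike.mem_coe, Subgroup.coe_mul_of_right_le_normalizer_left _ _ hle] at hy
  obtain ⟨u, hu, v, hv, rfl⟩ := hy
  have hy1 : (u * v) * (u * v) = 1 := by
    have := pow_orderOf_eq_one (u * v)
    rwa [hy2, pow_two] at this
  have h3 : u * u * (v * v) = 1 := by
    rw [← hy1]
    calc u * u * (v * v) = u * (u * v) * v := by group
      _ = u * (v * u) * v := by rw [hc u hu v hv]
      _ = u * v * (u * v) := by group
  have huu : u * u ∈ L₁ ⊓ L₂ := ⟨L₁.mul_mem hu hu, by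
    rw [eq_inv_of_mul_eq_one_left h3]; exact L₂.inv_mem (L₂.mul_mem hv hv)⟩
  have hvv : v * v = (u * u)⁻¹ := eq_inv_of_mul_eq_one_right h3
  rcases hjz _ huu with h | h <;> rw [h] at hvv
  · left
    rw [inv_one] at hvv
    rcases involution_unique h22 L₂ e₂ j hj2 hj1 hjL.2 v hv hvv with e' | e' <;>
      rcases involution_unique h21 L₁ e₁ j hj2 hj1 hjL.1 u hu h with e | e <;>
      simp only [e, e', one_mul, mul_one] at hy2 ⊢
    · simp at hy2
    · rw [hj2, orderOf_one] at hy2; omega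
  · right
    rw [inv_eq_of_mul_eq_one_right hj2] at hvv
    obtain ⟨g, hg⟩ := ha' ⟨u, hu⟩ (Subtype.ext h)
    obtain ⟨k, hk⟩ := hb' ⟨v, hv⟩ (Subtype.ext hvv)
    refine ⟨g * k, Subgroup.mul_mem_sup g.2 k.2, ?_⟩
    have hg' : (g : G) * a * (g : G)⁻¹ = u := congrArg Subtype.val hg
    have hk' : (k : G) * b * (k : G)⁻¹ = v := congrArg Subtype.val hk
    rw [← hg', ← hk']
    have c1 : (k : G) * a = a * k := (hc a a.2 k k.2).symm
    have c2 : (g : G)⁻¹ * (k * b * (k : G)⁻¹) = (k * b * (k : G)⁻¹) * (g : G)⁻¹ :=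
      hc _ (L₁.inv_mem g.2) _ (L₂.mul_mem (L₂.mul_mem k.2 b.2) (L₂.inv_mem k.2))
    calc (g : G) * k * (a * b) * ((g : G) * k)⁻¹ = g * (k * a) * b * (k : G)⁻¹ * (g : G)⁻¹ := by group
      _ = g * a * ((k * b * (k : G)⁻¹) * (g : G)⁻¹) := by rw [c1]; group
      _ = g * a * (g : G)⁻¹ * (k * b * (k : G)⁻¹) := by rw [← c2]; group

end Cfsg.Agent.S3209
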