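import Cfsg.Statements.S4025
import Cfsg.Agent.Lib.SchurExt.SylowSemiaffine
-- import your own Cfsg.Agent.* helpers here

set_option autoImplicit false
open Cfsg

namespace Cfsg.Agent.S4025


/-- Let p be a prime and G a finite group in which any two p-subgroups of the same order are conjugate, and suppose a Sylow p-subgroup P of G is elementary abelian of order pⁿ with n ≥ 3. Let N be the normalizer of P and K the largest normal subgroup of N of order prime to p, and assume N/K is solvable. Then either n = 3 and N/K embeds in the one-dimensional semi-affine group over the field with p³ elements (and for p = 2 it is isomorphic to the affine or the semi-affine group over the field with 8 elements), or n = 5, p = 2 and N/K is isomorphic to the one-dimensional semi-affine group over the field with 32 elements. -/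
theorem result {G : Type*} [Group G] [Finite G]
    {p : ℕ} [Fact p.Prime] (hC : ∀ H K : Subgroup G, IsPGroup p H → IsPGroup p K → Nat.card H = Nat.card K →
      ∃ g : G, K = H.map (MulAut.conj g).toMonoidHom) (P : Sylow p G) (n : ℕ) (hn : 3 ≤ n)
    (hel : Cfsg.IsElementaryAbelian p (P : Subgroup G)) (hcard : Nat.card P = p ^ n)
    (N : Subgroup G) (hN : N = Subgroup.normalizer ((P : Subgroup G) : Set G))
    (hsolv : Group.IsSolvable (↥N ⧸ Cfsg.pPrimeCore p ↥N)) :
    (n = 3 ∧ (∃ f : ↥N ⧸ Cfsg.pPrimeCore p ↥N →* ↥(Cfsg.semiaffineGroup (GaloisField p 3)), Function.Injective f) ∧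
      (p = 2 → Nonempty (↥N ⧸ Cfsg.pPrimeCore p ↥N ≃* Cfsg.semiaffineGroup (GaloisField 2 3)) ∨
               Nonempty (↥N ⧸ Cfsg.pPrimeCore p ↥N ≃* Cfsg.affineGroup (GaloisField 2 3)))) ∨
    (n = 5 ∧ p = 2 ∧ Nonempty (↥N ⧸ Cfsg.pPrimeCore p ↥N ≃* Cfsg.semiaffineGroup (GaloisField 2 5))) := by
  classical
  subst hN
  set N := Subgroup.normalizer ((P : Subgroup G) : Set G) with hNdef
  have hp : p.Prime := Fact.out
  have hPN : (P : Subgroup G) ≤ N := Subgroup.le_normalizer
  set P' : Subgroup N := (P : Subgroup G).subgroupOf N with hP'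
  haveI hP'n : P'.Normal := Subgroup.normal_in_normalizer
  set K := Cfsg.pPrimeCore p N with hK
  haveI : K.Normal := by
    haveI : K.Characteristic := CfsgLib.Cores.pPrimeCore_characteristic p _
    infer_instance
  set π := QuotientGroup.mk' K with hπ
  have hP'card : Nat.card P' = p ^ n := by
    rw [Nat.card_congr (Subgroup.subgroupOfEquivOfLe hPN).toEquiv, hcard]
  have hKcop : (Nat.card K).Coprime p := CfsgLib.Cores.card_pPrimeCore_coprime p
  have hdisj : P' ⊓ K = ⊥ := Subgroup.inf_eq_bot_of_coprime (by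
    rw [hP'card]; exact Nat.Coprime.pow_left n hKcop.symm)
  have hPcomm : ∀ a b : N, a ∈ P' → b ∈ P' → a * b = b * a := fun a b ha hb =>
    Subtype.ext (by
      have h := hel.1.is_comm.comm (⟨(a : G), ha⟩ : (P : Subgroup G)) ⟨(b : G), hb⟩
      exact congrArg ((P : Subgroup G).subtype) h)
  set A : Subgroup (N ⧸ K) := P'.map π with hA
  haveI : A.Normal := hP'n.map π (QuotientGroup.mk'_surjective K)
  have hinj : ∀ a b : N, a ∈ P' → b ∈ P' → π a = π b → a = b := fun a b ha hb h => by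
    have h' : a⁻¹ * b ∈ P' ⊓ K :=
      ⟨P'.mul_mem (P'.inv_mem ha) hb, QuotientGroup.eq.1 h⟩
    rw [hdisj, Subgroup.mem_bot, inv_mul_eq_one] at h'
    exact h'
  have hAcard : Nat.card A = p ^ n := by
    rw [← hP'card]
    refine (Nat.card_eq_of_bijective (fun a : P' => (⟨π a, _, a.2, rfl⟩ : A)) ⟨fun a b h =>
      Subtype.ext (hinj a b a.2 b.2 (congrArg Subtype.val h)), ?_⟩).symm
    rintro ⟨_, a, ha, rfl⟩
    exact ⟨⟨a, ha⟩, rfl⟩
  have hAel : Cfsg.IsElementaryAbelian p A := by
    refine ⟨⟨⟨?_⟩⟩, ?_⟩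
    · rintro ⟨_, a, ha, rfl⟩ ⟨_, b, hb, rfl⟩
      exact Subtype.ext (by
        show π a * π b = π b * π a
        rw [← map_mul, ← map_mul, hPcomm a b ha hb])
    · rintro _ ⟨a, ha, rfl⟩
      have : a ^ p = 1 := Subtype.ext (by rw [Subgroup.coe_pow]; exact hel.2 _ ha)
      rw [← map_pow, this, map_one]
  have hP'idx : ¬ p ∣ P'.index := fun h =>
    P.not_dvd_index (h.trans (by
      rw [hP', ← Subgroup.relIndex, ← Subgroup.relIndex_mul_index hPN]
      exact dvd_mul_right _ _))
  have hAidx : ¬ p ∣ A.index := fun h =>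
    hP'idx (h.trans (Subgroup.index_map_dvd _ (QuotientGroup.mk'_surjective K)))
  -- the centralizer
  set C := Subgroup.centralizer (P' : Set N) with hCdef
  haveI hCn : C.Normal := Subgroup.normal_centralizer
  have hP'C : P' ≤ C := fun a ha => Subgroup.mem_centralizer_iff.2 fun b hb => hPcomm b a hb ha
  have hCle : C ≤ P' ⊔ K := by
    set PC := P'.subgroupOf C with hPC
    haveI : PC.Normal := Subgroup.normal_subgroupOf
    have hPCcard : Nat.card PC = p ^ n := by
      rw [Nat.card_congr (Subgroup.subgroupOfEquivOfLe hP'C).toEquiv, hP'card]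
    have hcop : (Nat.card PC).Coprime PC.index := by
      rw [hPCcard]
      refine Nat.Coprime.pow_left n ((hp.coprime_iff_not_dvd).2 fun h => hP'idx (h.trans ?_))
      rw [hPC, ← Subgroup.relIndex, ← Subgroup.relIndex_mul_index hP'C]
      exact dvd_mul_right _ _
    obtain ⟨D, hD⟩ := Subgroup.exists_right_complement'_of_coprime hcop
    have hDcard : Nat.card D = PC.index := by
      have h1 := hD.card_mul
      rw [← PC.card_mul_index] at h1
      exact Nat.eq_of_mul_eq_mul_left Nat.card_pos h1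
    haveI : D.Normal := ⟨fun d hd c => by
      obtain ⟨⟨a, d'⟩, hc⟩ := hD.2 c
      have hcen : ∀ z : C, (a : C) * z = z * (a : C) := fun z =>
        Subtype.ext (Subgroup.mem_centralizer_iff.1 z.2 _ a.2)
      rw [← hc]
      have he : (a : C) * d' * d * ((a : C) * d')⁻¹ = (d' : C) * d * (d' : C)⁻¹ := by
        rw [show (a : C) * d' * d * ((a : C) * d')⁻¹
          = (a : C) * ((d' : C) * d * (d' : C)⁻¹) * (a : C)⁻¹ by group, hcen, mul_inv_cancel_right]
      show (a : C) * d' * d * ((a : C) * d')⁻¹ ∈ D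
      rw [he]
      exact D.mul_mem (D.mul_mem d'.2 hd) (D.inv_mem d'.2)⟩
    have hDK : D.map C.subtype ≤ K :=
      le_trans (Subgroup.map_mono (CfsgLib.Cores.le_pPrimeCore (p := p) (N := D) (by
        rw [hDcard]
        rw [hPCcard] at hcop
        exact (Nat.coprime_pow_left_iff (by omega) _ _).1 hcop |>.symm)))
        (CfsgLib.Cores.map_subtype_pPrimeCore_le (hCn.isSubnormal))
    intro c hc
    obtain ⟨⟨a, d⟩, had⟩ := hD.2 ⟨c, hc⟩
    have : c = ((a : C) : N) * ((d : C) : N) := by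
      have := congrArg Subtype.val had
      exact this.symm
    rw [this]
    exact Subgroup.mul_mem_sup a.2 (hDK ⟨_, d.2, rfl⟩)
  have hCA : Subgroup.centralizer (A : Set (N ⧸ K)) ≤ A := by
    intro q hq
    obtain ⟨x, rfl⟩ := QuotientGroup.mk'_surjective K q
    have hx : x ∈ C := Subgroup.mem_centralizer_iff.2 fun a ha => by
      have h1 : π (x * a * x⁻¹) = π a := by
        rw [map_mul, map_mul, map_inv, ← Subgroup.mem_centralizer_iff.1 hq _ ⟨a, ha, rfl⟩,
          mul_inv_cancel_right]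
      have h2 := hinj _ _ (hP'n.conj_mem a ha x) ha h1
      exact (mul_inv_eq_iff_eq_mul.1 h2).symm
    have : π x ∈ (P' ⊔ K).map π := ⟨x, hCle hx, rfl⟩
    rwa [Subgroup.map_sup, (Subgroup.map_eq_bot_iff K).2 (by rw [hπ, QuotientGroup.ker_mk']),
      sup_bot_eq] at this
  -- fusion
  have hconj : ∀ H₁ K₁ : Subgroup (N ⧸ K), H₁ ≤ A → K₁ ≤ A → Nat.card H₁ = Nat.card K₁ →
      ∃ q : N ⧸ K, H₁.map (MulAut.conj q).toMonoidHom = K₁ := by
    intro H₁ K₁ hH₁ hK₁ hc
    have hpre : ∀ H₂ : Subgroup (N ⧸ K), H₂ ≤ A →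
        (H₂.comap π ⊓ P').map π = H₂ ∧ Nat.card (H₂.comap π ⊓ P' : Subgroup N) = Nat.card H₂ := by
      intro H₂ h
      have hm : (H₂.comap π ⊓ P').map π = H₂ := by
        apply le_antisymm
        · rintro _ ⟨a, ha, rfl⟩; exact ha.1
        · intro q hq
          obtain ⟨a, ha, rfl⟩ := h hq
          exact ⟨a, ⟨hq, ha⟩, rfl⟩
      refine ⟨hm, ?_⟩
      refine Nat.card_eq_of_bijective (fun a : (H₂.comap π ⊓ P' : Subgroup N) => (⟨π a, a.2.1⟩ : H₂))
        ⟨fun a b h' => Subtype.ext (hinj a b a.2.2 b.2.2 (congrArg Subtype.val h')), ?_⟩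
      rintro ⟨q, hq⟩
      obtain ⟨a, ha, rfl⟩ := hm.symm ▸ hq
      exact ⟨⟨a, ha⟩, rfl⟩
    obtain ⟨h1, h1c⟩ := hpre H₁ hH₁
    obtain ⟨h2, h2c⟩ := hpre K₁ hK₁
    set A₁ := ((H₁.comap π ⊓ P' : Subgroup N)).map N.subtype with hA₁
    set A₂ := ((K₁.comap π ⊓ P' : Subgroup N)).map N.subtype with hA₂
    have hA₁P : A₁ ≤ (P : Subgroup G) := by rintro _ ⟨a, ha, rfl⟩; exact ha.2
    have hA₂P : A₂ ≤ (P : Subgroup G) := by rintro _ ⟨a, ha, rfl⟩; exact ha.2
    obtain ⟨g, hg⟩ := hC A₁ A₂ (P.2.to_le hA₁P) (P.2.to_le hA₂P) (by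
      rw [hA₁, hA₂, Subgroup.card_map_of_injective N.subtype_injective,
        Subgroup.card_map_of_injective N.subtype_injective, h1c, h2c, hc])
    obtain ⟨m, hm, hmA⟩ := CfsgLib.SchurExt.normalizer_controls_fusion_abelian P hel.1 hA₁P hA₂P g hg
    refine ⟨π ⟨m, hm⟩, ?_⟩
    rw [← h1, ← h2, Subgroup.map_map]
    have hcomp : (MulAut.conj (π ⟨m, hm⟩)).toMonoidHom.comp π =
        π.comp (MulAut.conj (⟨m, hm⟩ : N)).toMonoidHom := by
      ext y; simp [MulAut.conj_apply]
    rw [hcomp, ← Subgroup.map_map]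
    congr 1
    apply Subgroup.map_injective N.subtype_injective
    rw [Subgroup.map_map, ← hA₂, hmA, hA₁, Subgroup.map_map]
    congr 1
  haveI : Group.IsSolvable (↥N ⧸ K) := hsolv
  exact CfsgLib.SchurExt.semiaffine_of_transitive A hAel n hn hAcard hAidx hCA hconj

end Cfsg.Agent.S4025
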