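import Cfsg.Statements.S2986
import Cfsg.Agent.Lib.Replacement.Block.Pair

set_option autoImplicit false
open Cfsg

namespace Cfsg.Agent.S2986

/-- Let G be a finite group of characteristic p (C_G(O_p(G)) ≤ O_p(G)). If E and F are subnormal subgroups of G each of which is a B(T)-block of G for some Sylow p-subgroup T of G (possibly different ones), then E = F or [E, F] = 1. -/
theorem result {G : Type*} [Group G] [Finite G] {p : ℕ} [Fact p.Prime] (hG : Subgroup.centralizer (Cfsg.pCore p G : Set G) ≤ Cfsg.pCore p G) (E F : Subgroup G) (hE : ∃ T : Sylow p G, Cfsg.IsBaumannBlock p (T : Subgroup G) E) (hF : ∃ T : Sylow p G, Cfsg.IsBaumannBlock p (T : Subgroup G) F) (hEs : E.IsSubnormal) (hFs : F.IsSubnormal) : E = F ∨ ⁅E, F⁆ = ⊥ := by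
  obtain ⟨T, hT⟩ := hE
  obtain ⟨T', hT'⟩ := hF
  exact CfsgLib.Replacement.Block.eq_or_commute_blocks hG
    (CfsgLib.Replacement.Block.facts_of_block hG T hT hEs) (CfsgLib.Replacement.Block.facts_of_block hG T' hT' hFs)

end Cfsg.Agent.S2986
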