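import Cfsg.Statements.S0812
import Cfsg.Agent.Lib.SL2.Dickson.Maximal

set_option autoImplicit false
open Cfsg

namespace Cfsg.Agent.S0812

/-- For q ∉ {2, 3, 5, 7, 9, 11}, PSL_2(q) has a maximal subgroup isomorphic to the dihedral group of order 2(q − 1)/d, d = gcd(2, q − 1). -/
theorem result {F : Type*} [Field F] [Fintype F] {q : ℕ} (hF : Fintype.card F = q) (hq : q ∉ ({2, 3, 5, 7, 9, 11} : Finset ℕ)) : ∃ H : Subgroup (Matrix.ProjectiveSpecialLinearGroup (Fin 2) F), IsCoatom H ∧ Nonempty (H ≃* DihedralGroup ((q - 1) / Nat.gcd 2 (q - 1))) := by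
  classical
  rw [← Nat.card_eq_fintype_card] at hF
  subst hF
  set q := Nat.card F with hqdef
  have h1 : 1 < q := Finite.one_lt_card
  simp only [Finset.mem_insert, Finset.mem_singleton, not_or] at hq
  obtain ⟨g, ht, hord, hC⟩ := CfsgLib.SL2.exists_torus_generator (F := F) (e := q - 1) (Or.inl rfl) (by omega)
  have hdvd : Nat.card (Subgroup.center (Matrix.SpecialLinearGroup (Fin 2) F)) ∣ q - 1 :=
    hC ▸ Subgroup.card_dvd_of_le (CfsgLib.SL2.center_le_centralizer g)
  have hε := CfsgLib.SL2.center_card_eq_gcd (F := F)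
  rw [← hqdef] at hε
  rw [← hε]
  set a := (q - 1) / Nat.card (Subgroup.center (Matrix.SpecialLinearGroup (Fin 2) F))
  have hca : Nat.card (Subgroup.centralizer ({g} : Set (Matrix.SpecialLinearGroup (Fin 2) F))) =
      Nat.card (Subgroup.center (Matrix.SpecialLinearGroup (Fin 2) F)) * a := by
    rw [hC, Nat.mul_div_cancel' hdvd]
  refine ⟨CfsgLib.SL2.Dickson.torusNormalizer g, ?_,
    CfsgLib.SL2.Dickson.torusNormalizer_dihedral ht hca⟩
  have hmem := CfsgLib.SL2.Dickson.center_card_mem (F := F)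
  have h6 : q ≠ 6 := by
    intro h6
    have := Fintype.ofFinite F
    have hpp : IsPrimePow q := by rw [hqdef, Nat.card_eq_fintype_card]; exact FiniteField.isPrimePow_card F
    rw [h6, isPrimePow_nat_iff_bounded] at hpp
    revert hpp
    decide
  have hsmall : a ≤ 5 → Nat.card F = 4 ∨ Nat.card F = 5 := by
    intro ha
    rw [hC] at hca
    rcases hmem with e | ⟨e, hodd⟩ <;> rw [e] at hca
    · have hq2 : Nat.gcd 2 (q - 1) = 1 := hε.symm.trans e
      have hev : q % 2 = 0 := by
        by_contra h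
        have : Nat.gcd 2 (q - 1) = 2 := Nat.gcd_eq_left (by omega)
        omega
      omega
    · rw [← hqdef, Nat.odd_iff] at hodd
      omega
  refine CfsgLib.SL2.Dickson.torusNormalizer_isCoatom ht (hord.trans hC.symm) hca ?_ hsmall
  rw [hC]
  intro h
  have := Nat.le_of_dvd (by norm_num) h
  interval_cases hq1 : q - 1 <;> omega

end Cfsg.Agent.S0812
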