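import Cfsg.Statements.S0633
import Cfsg.Agent.Lib.HallHigmanB.Minimal

set_option autoImplicit false
open Cfsg CfsgLib.HallHigmanB

namespace Cfsg.Agent.S0633

/-- Theorem B of Hall and Higman on the minimal polynomial of a p-element of order p^n in a p-solvable linear group on a nonzero vector space in characteristic p with no nontrivial normal p-subgroup: its degree is p^n, except when some p^n₀ - 1 (n₀ ≤ n) is a power of a prime q for which the Sylow q-subgroups are non-abelian, in which case the degree is at least p^(n-n₀)(p^n₀ - 1). -/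
theorem result {F : Type*} [Field F] {p : ℕ} [Fact p.Prime] [CharP F p] {V : Type*} [AddCommGroup V] [Module F V] [FiniteDimensional F V] [Nontrivial V] (H : Subgroup (V ≃ₗ[F] V)) [Finite H] (hsol : Cfsg.IsPSolvable p H) (hOp : Cfsg.pCore p H = ⊥) (x : V ≃ₗ[F] V) (hx : x ∈ H) (n : ℕ) (hn : orderOf x = p ^ n) (r : ℕ) (hr : minpoly F (x : Module.End F V) = (Polynomial.X - 1) ^ r) : r = p ^ n ∨ ∃ n₀ q m : ℕ, 1 ≤ n₀ ∧ n₀ ≤ n ∧ q.Prime ∧ 1 ≤ m ∧ p ^ n₀ - 1 = q ^ m ∧ (∀ Q : Sylow q H, ¬ IsMulCommutative Q) ∧ p ^ (n - n₀) * (p ^ n₀ - 1) ≤ r := by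
  classical
  have hp : p.Prime := Fact.out
  set e : Module.End F V := (x : Module.End F V) with he
  have hxe : ∀ k : ℕ, ((x ^ k : V ≃ₗ[F] V) : Module.End F V) = e ^ k := fun k =>
    map_pow (LinearEquiv.automorphismGroup.toLinearMapMonoidHom) x k
  have hxN : e ^ p ^ n = 1 := by rw [← hxe, ← hn, pow_orderOf_eq_one]; rfl
  haveI : Nontrivial (Module.End F V) := inferInstance
  haveI : CharP (Module.End F V) p :=
    charP_of_injective_algebraMap (FaithfulSMul.algebraMap_injective F _) p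
  have he0 : (e - 1) ^ r = 0 := by
    have h := minpoly.aeval F e
    rw [hr] at h
    simpa using h
  have hrle : r ≤ p ^ n := by
    have h1 : minpoly F e ∣ (Polynomial.X - 1) ^ (p ^ n) := by
      refine minpoly.dvd F e ?_
      rw [sub_pow_char_pow, one_pow]
      simp [hxN]
    rw [hr] at h1
    have h2 := Polynomial.natDegree_le_of_dvd h1 (pow_ne_zero _ (Polynomial.X_sub_C_ne_zero (1 : F)))
    rw [Polynomial.natDegree_pow, Polynomial.natDegree_pow, ← map_one Polynomial.C,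
      Polynomial.natDegree_X_sub_C, mul_one, mul_one] at h2
    exact h2
  rcases Nat.eq_zero_or_pos n with rfl | hn1
  · left
    rw [pow_zero] at hrle ⊢
    rcases Nat.eq_zero_or_pos r with rfl | h
    · rw [pow_zero] at he0
      exact absurd he0 one_ne_zero
    · omega
  set x₁ : H := ⟨x, hx⟩ with hx₁
  have hx₁o : orderOf x₁ = p ^ n := by rw [← hn, ← Subgroup.orderOf_coe]
  obtain ⟨q, hq, hpq, Q, hQ, hxQ, ⟨g₁, hg₁, hg₁'⟩, hminQ⟩ :=
    exists_minimal_config hsol hOp hn1 hx₁o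
  haveI : Fact q.Prime := ⟨hq⟩
  let φ : MulAut Q := Subgroup.normalizerMonoidHom Q ⟨x₁, hxQ⟩
  have hφk : ∀ (k : ℕ) (g : Q), ((φ ^ k) g : H) = x₁ ^ k * g * (x₁ ^ k)⁻¹ := by
    intro k g
    simp only [φ, ← map_pow]
    rfl
  have hφn : φ ^ p ^ n = 1 := by
    ext g
    rw [hφk, ← hx₁o, pow_orderOf_eq_one]
    simp
  have hfix : ∀ g : Q, (φ ^ p ^ (n - 1)) g = g ↔ x₁ ^ p ^ (n - 1) * (g : H) = (g : H) * x₁ ^ p ^ (n - 1) :=
    fun g => by rw [Subtype.ext_iff, hφk, mul_inv_eq_iff_eq_mul]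
  haveI : Nontrivial Q := ⟨⟨⟨g₁, hg₁⟩, 1, fun h => hg₁' (by
    rw [show g₁ = 1 from congrArg Subtype.val h, mul_one, one_mul])⟩⟩
  have hne : φ ^ p ^ (n - 1) ≠ 1 := fun h => hg₁' ((hfix ⟨g₁, hg₁⟩).1 (by rw [h]; rfl))
  have hmin : MinInv φ n p := by
    intro R hR hRtop g hg
    rw [hfix]
    refine hminQ (R.map Q.subtype) ?_ ?_ _ ⟨g, hg, rfl⟩
    · refine lt_of_le_of_ne (Subgroup.map_subtype_le _) fun h => hRtop ?_
      refine Subgroup.map_injective Q.subtype_injective (h.trans ?_)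
      rw [← MonoidHom.range_eq_map, Subgroup.range_subtype]
    · rw [Subgroup.mem_normalizer_iff]
      have hpos : 0 < p ^ n := pow_pos hp.pos _
      intro a
      constructor
      · rintro ⟨b, hb, rfl⟩
        refine ⟨φ b, hR b hb, ?_⟩
        simpa using hφk 1 b
      · rintro ⟨b, hb, hab⟩
        have hb' : ∀ k : ℕ, (φ ^ k) b ∈ R := by
          intro k
          induction k with
          | zero => exact hb
          | succ k ih => rw [pow_succ']; exact hR _ ih
        refine ⟨(φ ^ (p ^ n - 1)) b, hb' _, ?_⟩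
        show (((φ ^ (p ^ n - 1)) b : Q) : H) = a
        have h1 : x₁ ^ (p ^ n - 1) = x₁⁻¹ := by
          rw [eq_inv_iff_mul_eq_one, ← pow_succ, Nat.sub_add_cancel hpos, ← hx₁o, pow_orderOf_eq_one]
        rw [hφk, h1, show (b : H) = x₁ * a * x₁⁻¹ from hab]
        group
  let K := AlgebraicClosure F
  haveI : CharP K p := charP_of_injective_algebraMap (algebraMap F K).injective p
  obtain ⟨Φ, hΦ⟩ := exists_baseChange (F := F) (V := V) K
  let ι : H →* Module.End F V :=
    (LinearEquiv.automorphismGroup.toLinearMapMonoidHom).comp H.subtype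
  let ρ : Q →* Module.End K (Fin (Module.finrank F V) → K) :=
    Φ.toMonoidHom.comp (ι.comp Q.subtype)
  have hρ : Function.Injective ρ := fun a b h =>
    Subtype.ext (Subtype.ext (LinearEquiv.toLinearMap_injective (hΦ h)))
  have hX : ∀ g, Φ e * ρ g = ρ (φ g) * Φ e := by
    intro g
    have h1 : ι x₁ * ι (g : H) = ι ((φ g : Q) : H) * ι x₁ := by
      rw [← map_mul, ← map_mul]
      congr 1
      have := hφk 1 g
      rw [pow_one, pow_one] at this
      rw [this, inv_mul_cancel_right]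
    show Φ (ι x₁) * Φ (ι (g : H)) = Φ (ι ((φ g : Q) : H)) * Φ (ι x₁)
    rw [← map_mul Φ, ← map_mul Φ, h1]
  have hconv : ∀ k, (Φ e - 1) ^ k ≠ 0 → k < r := by
    intro k hk
    by_contra! hle
    refine hk ?_
    rw [← map_one Φ, ← map_sub, ← map_pow, ← Nat.add_sub_cancel' hle, pow_add, he0, zero_mul, map_zero]
  rcases main_alg_closed hQ hpq φ hn1 hφn hne hmin ρ hρ (Φ e) hX (by rw [← map_pow, hxN, map_one]) with
    h | ⟨n₀, m, h1, h2, h3, h4, ⟨a, b, hab⟩, h5⟩
  · left
    have := hconv _ h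
    omega
  · right
    refine ⟨n₀, q, m, h1, h2, hq, h3, h4, fun S hS => hab ?_, by have := hconv _ h5; omega⟩
    obtain ⟨S', hS'⟩ := hQ.exists_le_sylow
    obtain ⟨c, hc⟩ := MulAction.exists_smul_eq H S S'
    have hconj : ∀ u ∈ (S' : Subgroup H), c⁻¹ * u * c ∈ (S : Subgroup H) := by
      intro u hu
      rw [← hc, Sylow.coe_subgroup_smul, Subgroup.mem_pointwise_smul_iff_inv_smul_mem] at hu
      simpa [MulAut.smul_def, mul_assoc] using hu
    have h6 := congrArg (Subtype.val) (hS.is_comm.comm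
      (⟨_, hconj _ (hS' a.2)⟩ : (S : Subgroup H)) ⟨_, hconj _ (hS' b.2)⟩)
    refine Subtype.ext (mul_left_cancel (a := c⁻¹) (mul_right_cancel (b := c) ?_))
    simpa [mul_assoc] using h6

end Cfsg.Agent.S0633
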