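import Cfsg.Statements.S3949
import Mathlib
-- import your own Cfsg.Agent.* helpers here

set_option autoImplicit false
open Cfsg

namespace Cfsg.Agent.S3949

/-- Let G be a finite group and α an automorphism of G of order 2 such that the elements g·α(g)⁻¹ generate G. Let j be a positive integer such that 2^j divides the order of no element inverted by α. Then the set of values of the j-th iterate of the map c ↦ c·α(c)⁻¹ is exactly the set of elements of odd order inverted by α. -/
theorem result {G : Type*} [Group G] [Finite G] (α : MulAut G) (hα : orderOf α = 2) (hG : Subgroup.closure (Set.range (fun c : G => c * (α c)⁻¹)) = ⊤)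
    (j : ℕ) (hj : ∀ g : G, α g = g⁻¹ → ¬ 2 ^ j ∣ orderOf g) :
    Set.range ((fun c : G => c * (α c)⁻¹)^[j]) = {g : G | Odd (orderOf g) ∧ α g = g⁻¹} := by
  have hinv : ∀ g : G, α (α g) = g := fun g => by
    have h1 : α * α = 1 := by rw [← sq, ← hα]; exact pow_orderOf_eq_one α
    exact DFunLike.congr_fun h1 g
  set f := fun c : G => c * (α c)⁻¹ with hf
  have hfi : ∀ c, α (f c) = (f c)⁻¹ := fun c => by simp [f, hinv]
  have hsq : ∀ g, α g = g⁻¹ → f g = g ^ 2 := fun g hg => by simp [f, hg, sq]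
  have hpowinv : ∀ g, α g = g⁻¹ → ∀ i : ℕ, α (g ^ i) = (g ^ i)⁻¹ := fun g hg i => by
    rw [map_pow, hg, inv_pow]
  have hit : ∀ (i : ℕ) (g : G), α g = g⁻¹ → f^[i] g = g ^ 2 ^ i := by
    intro i
    induction i with
    | zero => intro g _; simp
    | succ i ih =>
      intro g hg
      rw [Function.iterate_succ_apply', ih g hg, hsq _ (hpowinv g hg _), ← pow_mul, ← pow_succ]
  obtain ⟨j', rfl⟩ : ∃ j', j = j' + 1 := by
    rcases j with _ | j'
    · exact absurd (by rw [pow_zero]; exact one_dvd _) (hj (1 : G) (by rw [map_one, inv_one]))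
    · exact ⟨j', rfl⟩
  ext y
  constructor
  · rintro ⟨c, rfl⟩
    rw [Set.mem_setOf_eq, Function.iterate_succ_apply, hit j' _ (hfi c)]
    refine ⟨?_, hpowinv _ (hfi c) _⟩
    set g := f c
    obtain ⟨v, q, hq, hcard⟩ :=
      Nat.exists_eq_pow_mul_and_not_dvd (orderOf_pos g).ne' 2 (by norm_num)
    have hv : v ≤ j' := by
      by_contra h
      exact hj g (hfi c) (hcard ▸ (pow_dvd_pow 2 (by omega)).mul_right q)
    have hodd : Odd q := Nat.odd_iff.2 (by omega)
    refine hodd.of_dvd_nat ?_
    apply orderOf_dvd_of_pow_eq_one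
    rw [← pow_mul, ← orderOf_dvd_iff_pow_eq_one, hcard]
    exact Nat.mul_dvd_mul_right (pow_dvd_pow 2 hv) q
  · rintro ⟨hodd, hy⟩
    have hc : Nat.Coprime (2 ^ (j' + 1)) (orderOf y) := (Nat.coprime_two_left.2 hodd).pow_left _
    obtain ⟨u, hu⟩ := exists_pow_eq_self_of_coprime hc
    exact ⟨y ^ u, by rw [hit _ _ (hpowinv y hy u), ← pow_mul, mul_comm, pow_mul, hu]⟩

end Cfsg.Agent.S3949
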