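import Cfsg.Statements.S4633
import Cfsg.Agent.Lib.BrauerPairs.AbelianDefect
-- import your own Cfsg.Agent.* helpers here

set_option autoImplicit false
open Cfsg

namespace Cfsg.Agent.S4633

open Cfsg CfsgLib.BrauerPairs

/-- Let B be a block of the finite group G relative to a maximal ideal M of the algebraic integers containing the prime p, with a nontrivial cyclic defect group P. Let c be a block of C_G(P) inducing B and T the stabilizer of c in N_G(P) (the elements of N_G(P) conjugating c to itself); T contains C_G(P). Then T/C_G(P) is cyclic of order dividing p − 1, and it acts freely on the non-identity elements of P: an element of T fixing some non-identity element of P under conjugation lies in C_G(P). -/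
theorem result {G : Type*} [Group G] [Finite G] (p : ℕ) [Fact p.Prime] (M : Ideal Cfsg.AlgInt) (hM : Cfsg.IsPModular p M) (B : Set (Cfsg.IrrCharacter G)) (hB : Cfsg.IsPBlock M B) (P : Subgroup G) (hPD : Cfsg.IsDefectGroup p M B P) (hP1 : P ≠ ⊥) (hcyc : IsCyclic P) (c : Set (Cfsg.IrrCharacter (Subgroup.centralizer (P : Set G)))) (hc : Cfsg.IsInducedBlock M (Subgroup.centralizer (P : Set G)) c B) (T : Subgroup G) (hT : ∀ g : G, g ∈ T ↔ (g ∈ Subgroup.normalizer (P : Set G) ∧ Cfsg.StabilizesBlock (Subgroup.centralizer (P : Set G)) c g)) [hn : ((Subgroup.centralizer (P : Set G)).subgroupOf T).Normal] : IsCyclic (T ⧸ (Subgroup.centralizer (P : Set G)).subgroupOf T) ∧ (Subgroup.centralizer (P : Set G)).relIndex T ∣ p - 1 ∧ ∀ g ∈ T, ∀ x ∈ P, x ≠ 1 → g * x * g⁻¹ = x → g ∈ Subgroup.centralizer (P : Set G) := by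
  haveI : M.IsPrime := CfsgLib.Blocks.isPrime_of_isPModular hM
  haveI : M.IsMaximal := hM.2.1
  haveI : CharP (CfsgLib.Blocks.Res M) p := CfsgLib.Blocks.charP_res hM
  haveI : IsAlgClosed (CfsgLib.Blocks.Res M) := CfsgLib.Blocks.isAlgClosed_res
  haveI := hcyc
  have hab : ∀ x ∈ P, ∀ y ∈ P, x * y = y * x := fun x hx y hy => by
    have := IsCyclic.commGroup (α := P) |>.mul_comm ⟨x, hx⟩ ⟨y, hy⟩
    exact congrArg Subtype.val this
  have hb := isBlockIdem_redElem_blockCoeff (M := M) hB
  have hmax := isMaxPair_of_induced hM hB hPD hab hc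
  have hT' : pairStab (⊤ : Subgroup G) P (subIdem M _ c) = T := by
    ext y
    rw [mem_pairStab_top_iff hc.1, hT]
  have hPC : P ≤ Subgroup.centralizer (P : Set G) := fun u hu =>
    Subgroup.mem_centralizer_iff.2 fun v hv => hab v hv u hu
  have hP : IsPGroup p P := hmax.1.1.1
  have hidx : ¬ p ∣ (Subgroup.centralizer (P : Set G)).relIndex T := by
    have := hmax.not_dvd_relIndex hb
    rwa [cenIn_top, sup_eq_right.2 hPC, hT'] at this
  obtain ⟨gen, hgen⟩ := IsCyclic.exists_generator (α := P)
  have hgen1 : (gen : G) ≠ 1 := by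
    intro h
    refine hP1 ((Subgroup.eq_bot_iff_forall P).2 fun x hx => ?_)
    obtain ⟨i, hi⟩ := Subgroup.mem_zpowers_iff.1 (hgen ⟨x, hx⟩)
    have := congrArg Subtype.val hi
    simpa [h] using this.symm
  have hexp : ∀ x : T, ∃ a : ℤ, ∀ y ∈ P, (x : G) * y * (x : G)⁻¹ = y ^ a := by
    intro x
    have hmem := (Subgroup.mem_normalizer_iff.1 ((hT x).1 x.2).1 gen).1 gen.2
    obtain ⟨a, ha⟩ := Subgroup.mem_zpowers_iff.1 (hgen ⟨_, hmem⟩)
    refine ⟨a, fun y hy => ?_⟩
    obtain ⟨i, hi⟩ := Subgroup.mem_zpowers_iff.1 (hgen ⟨y, hy⟩)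
    have hi' : ((gen : G)) ^ i = y := by simpa using congrArg Subtype.val hi
    have ha' : ((gen : G)) ^ a = (x : G) * (gen : G) * (x : G)⁻¹ := by
      simpa using congrArg Subtype.val ha
    rw [← hi', ← conj_zpow, ← ha', ← zpow_mul, ← zpow_mul, mul_comm]
  choose a ha using hexp
  -- an element of `P` of nontrivial order detects the exponent modulo `p`
  have hdet : ∀ y ∈ P, y ≠ 1 → ∀ m n : ℤ, y ^ m = y ^ n → ((m : ZMod p) = (n : ZMod p)) := by
    intro y hy hy1 m n hmn
    rw [ZMod.intCast_eq_intCast_iff_dvd_sub]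
    have h1 : y ^ (n - m) = 1 := by rw [zpow_sub, hmn, mul_inv_cancel]
    refine dvd_trans ?_ (orderOf_dvd_iff_zpow_eq_one.2 h1)
    obtain ⟨k, hk⟩ := (hP ⟨y, hy⟩)
    have hk' : y ^ p ^ k = 1 := by simpa using congrArg Subtype.val hk
    obtain ⟨i, -, hi⟩ := (Nat.dvd_prime_pow (Fact.out : p.Prime)).1 (orderOf_dvd_of_pow_eq_one hk')
    have hi0 : i ≠ 0 := fun h => hy1 (orderOf_eq_one_iff.1 (by rw [hi, h, pow_zero]))
    exact Int.natCast_dvd_natCast.2 (hi ▸ dvd_pow_self p hi0)
  let f : T →* ZMod p :=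
    { toFun := fun x => (a x : ZMod p)
      map_one' := by
        have := ha 1 gen gen.2
        simpa using (hdet gen gen.2 hgen1 1 (a 1) (by simpa using this)).symm
      map_mul' := fun x y => by
        have h1 : ((gen : G)) ^ a (x * y) = (gen : G) ^ (a x * a y) := by
          rw [← ha (x * y) gen gen.2, mul_comm (a x), zpow_mul, ← ha y gen gen.2,
            ← ha x _ ((Subgroup.mem_normalizer_iff.1 ((hT y).1 y.2).1 gen).1 gen.2),
            Subgroup.coe_mul]
          group
        simpa using hdet gen gen.2 hgen1 _ _ h1 }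
  set ψ : T →* (ZMod p)ˣ := f.toHomUnits
  have hψ : ∀ x : T, (x : G) ∈ Subgroup.centralizer (P : Set G) ↔ ψ x = 1 := by
    intro x
    constructor
    · intro hx
      refine Units.ext ?_
      show (a x : ZMod p) = 1
      have h1 := ha x gen gen.2
      rw [← Subgroup.mem_centralizer_iff.1 hx gen gen.2, mul_inv_cancel_right] at h1
      simpa using (hdet gen gen.2 hgen1 1 (a x) (by simpa using h1)).symm
    · intro hx
      have h1 : ((p : ℤ)) ∣ a x - 1 := by
        have h2 : ((a x : ℤ) : ZMod p) = ((1 : ℤ) : ZMod p) := by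
          simpa [ψ, f] using congrArg Units.val hx
        exact (ZMod.intCast_eq_intCast_iff_dvd_sub _ _ p).1 h2.symm
      obtain ⟨n, hn⟩ := (IsPGroup.iff_card.1 hP)
      have hpow : ∀ j : ℕ, ∀ y ∈ P, ((x : G) ^ j) * y * ((x : G) ^ j)⁻¹ = y ^ (a x ^ j) := by
        intro j
        induction j with
        | zero => intro y _; simp
        | succ j ih =>
          intro y hy
          calc (x : G) ^ (j + 1) * y * ((x : G) ^ (j + 1))⁻¹
              = (x : G) ^ j * ((x : G) * y * (x : G)⁻¹) * ((x : G) ^ j)⁻¹ := by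
                rw [pow_succ]; group
            _ = _ := by
                rw [ha x y hy, ih _ (P.zpow_mem hy _), ← zpow_mul, pow_succ, mul_comm]
      have hcen : (x : G) ^ p ^ n ∈ Subgroup.centralizer (P : Set G) := by
        rw [Subgroup.mem_centralizer_iff]
        intro y hy
        have h2 := dvd_sub_pow_of_dvd_sub (a := a x) (b := 1) h1 n
        rw [one_pow] at h2
        have h3 : y ^ (a x ^ p ^ n) = y := by
          have h4 : y ^ (a x ^ p ^ n - 1) = 1 := by
            refine orderOf_dvd_iff_zpow_eq_one.1 (dvd_trans ?_ h2)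
            have h5 : orderOf y ∣ p ^ n := by
              rw [← hn, ← Subgroup.orderOf_mk y hy]
              exact orderOf_dvd_natCard _
            exact (Int.natCast_dvd_natCast.2 (h5.trans (pow_dvd_pow p n.le_succ))).trans
              (by push_cast; rfl)
          rwa [zpow_sub, zpow_one, mul_inv_eq_one] at h4
        have h6 := hpow (p ^ n) y hy
        rw [h3] at h6
        exact (mul_inv_eq_iff_eq_mul.1 h6).symm
      set N := (Subgroup.centralizer (P : Set G)).subgroupOf T
      have h7 : (QuotientGroup.mk x : T ⧸ N) ^ p ^ n = 1 := by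
        rw [← QuotientGroup.mk_pow, QuotientGroup.eq_one_iff]
        exact Subgroup.mem_subgroupOf.2 (by simpa using hcen)
      have h9 : orderOf (QuotientGroup.mk x : T ⧸ N) = 1 := by
        refine Nat.eq_one_of_dvd_coprimes
          (Nat.Coprime.pow_left n (((Fact.out : p.Prime).coprime_iff_not_dvd).2 hidx))
          (orderOf_dvd_of_pow_eq_one h7) ?_
        rw [show (Subgroup.centralizer (P : Set G)).relIndex T = Nat.card (T ⧸ N) from rfl]
        exact orderOf_dvd_natCard _
      exact Subgroup.mem_subgroupOf.1 ((QuotientGroup.eq_one_iff x).1 (orderOf_eq_one_iff.1 h9))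
  have hker : ψ.ker = (Subgroup.centralizer (P : Set G)).subgroupOf T := by
    ext x
    rw [MonoidHom.mem_ker, Subgroup.mem_subgroupOf, hψ]
  let e : T ⧸ (Subgroup.centralizer (P : Set G)).subgroupOf T ≃* ψ.range :=
    (QuotientGroup.quotientMulEquivOfEq hker.symm).trans (QuotientGroup.quotientKerEquivRange ψ)
  refine ⟨e.symm.isCyclic.1 inferInstance, ?_, ?_⟩
  · have h := ψ.range.card_subgroup_dvd_card
    rw [← Nat.card_congr e.toEquiv, Nat.card_eq_fintype_card (α := (ZMod p)ˣ),
      ZMod.card_units] at h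
    exact h
  · intro g hg y hy hy1 hfix
    refine (hψ ⟨g, hg⟩).2 (Units.ext ?_)
    show (a ⟨g, hg⟩ : ZMod p) = 1
    have h1 := ha ⟨g, hg⟩ y hy
    rw [hfix] at h1
    simpa [ψ, f] using (hdet y hy hy1 1 _ (by simpa using h1)).symm

end Cfsg.Agent.S4633
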