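import Cfsg.Statements.S0282
import Cfsg.Agent.Lib.ClassicalForms.Unitary.Center
import Cfsg.Agent.Lib.CharTheory.Burnside

set_option autoImplicit false
open Cfsg

namespace Cfsg.Agent.S0282

/-- PSU_3(2) is a solvable group of order 72. -/
theorem result {F : Type*} [Field F] [Fintype F] (hF : Fintype.card F = 4) : Nat.card (Cfsg.PSU 3 F 2) = 72 ∧ Group.IsSolvable (Cfsg.PSU 3 F 2) := by
  have hF' : Nat.card F = 2 ^ 2 := by rw [Nat.card_eq_fintype_card, hF]; norm_num
  have h := CfsgLib.ClassicalForms.card_psu_mul hF' (n := 3) (by norm_num)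
  rw [CfsgLib.ClassicalForms.card_gu hF' 3] at h
  norm_num [Finset.prod_range_succ, Nat.even_iff] at h
  have hc : Nat.card (Cfsg.PSU 3 F 2) = 72 := by omega
  refine ⟨hc, ?_⟩
  have : Fact (Nat.Prime 2) := ⟨Nat.prime_two⟩
  exact CfsgLib.CharTheory.isSolvable_of_card_dvd_pow_mul_pow 2 3 3 2 Nat.prime_two Nat.prime_three
    (by rw [hc]; norm_num)

end Cfsg.Agent.S0282
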