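import Cfsg.Statements.S0018
import Cfsg.Agent.Lib.SectRank.SylowInter
import Cfsg.Agent.Lib.Cores.PCore

set_option autoImplicit false
open Cfsg

namespace Cfsg.Agent.S0018

/-- A finite solvable group whose Sylow p-subgroups are abelian has p-length one: a Sylow p-subgroup together with the largest normal subgroup of order prime to p generates a normal subgroup. -/
theorem result {G : Type*} [Group G] [Finite G] [Group.IsSolvable G]
    (p : ℕ) [Fact p.Prime] (P : Sylow p G) (hP : IsMulCommutative P) :
    ((P : Subgroup G) ⊔ Cfsg.pPrimeCore p G).Normal := by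
  let q : G →* G ⧸ Cfsg.pPrimeCore p G := QuotientGroup.mk' _
  have hq : Function.Surjective q := QuotientGroup.mk'_surjective _
  let P' : Sylow p (G ⧸ Cfsg.pPrimeCore p G) := P.mapSurjective hq
  have hle : Cfsg.pCore p (G ⧸ Cfsg.pPrimeCore p G) ≤ (P' : Subgroup _) := CfsgLib.Cores.pCore_le_sylow P'
  have hcore := CfsgLib.Cores.pPrimeCore_quotient_pPrimeCore (G := G) p
  have hge : (P' : Subgroup (G ⧸ Cfsg.pPrimeCore p G)) ≤ Cfsg.pCore p (G ⧸ Cfsg.pPrimeCore p G) := by
    refine le_trans ?_ (CfsgLib.SectRank.centralizer_pCore_le_of_solvable hcore)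
    haveI : IsMulCommutative ((P : Subgroup G).map q) := Subgroup.map_isMulCommutative _ q
    intro x hx
    exact Subgroup.mem_centralizer_iff.mpr fun y hy => congrArg Subtype.val
      (mul_comm' (⟨y, hle hy⟩ : (P : Subgroup G).map q) ⟨x, hx⟩)
  have heq : (P : Subgroup G) ⊔ Cfsg.pPrimeCore p G =
      (Cfsg.pCore p (G ⧸ Cfsg.pPrimeCore p G)).comap q := by
    rw [le_antisymm hle hge]
    change _ = ((P : Subgroup G).map q).comap q
    rw [Subgroup.comap_map_eq, QuotientGroup.ker_mk']
  rw [heq]
  infer_instance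

end Cfsg.Agent.S0018
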