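import Cfsg.Statements.S2990
import Cfsg.Agent.Lib.TwoGroupTricks.PushingUpCL

set_option autoImplicit false
open Cfsg

namespace Cfsg.Agent.S2990

open CfsgLib.TwoGroupTricks
open scoped commutatorElement

/-- Let G be a finite group and S a Sylow p-subgroup of G in the basic pushing-up situation (G ≠ 1, C_G(O_p(G)) ≤ O_p(G), S lies in a unique maximal subgroup of G, and some quotient of G is isomorphic to PSL₂ over a field of order a power of p), and suppose that S centralizes Z(J(S)), where J(S) is generated by the abelian subgroups of S of largest order (that is, J̃(S) = C_S(Z(J(S))) = S). Call a subgroup R of S centrally large if |R|·|Z(R)| is as large as possible among subgroups of S, let Q be a minimal centrally large subgroup of S and let S_MCL be the subgroup generated by all minimal centrally large subgroups of S. Then the derived subgroup [Q, Q] is characteristic in S; Z(S) ∩ [Q, Q] or S_MCL is normal in G; and if [Q, Q] = 1, the minimal centrally large subgroups of S are exactly the abelian subgroups of S of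 largest order. -/
theorem result {G : Type*} [Group G] [Finite G] {p : ℕ} [Fact p.Prime] (S : Subgroup G) (hE : Cfsg.IsPushingUpSituation p S) (hJ : S ≤ Subgroup.centralizer (Cfsg.centerThompsonAOf S : Set G)) (Q : Subgroup ↥S) (hQ : Cfsg.IsMinimalCentrallyLarge Q) : (⁅Q, Q⁆).Characteristic ∧ (((S ⊓ Subgroup.centralizer (S : Set G)) ⊓ (⁅Q, Q⁆).map S.subtype).Normal ∨ ((Cfsg.minimalCentrallyLargeJoin ↥S).map S.subtype).Normal) ∧ (⁅Q, Q⁆ = ⊥ → ∀ R : Subgroup ↥S, Cfsg.IsMinimalCentrallyLarge R ↔ R ∈ Cfsg.maxAbelianSubgroups ↥S) := by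

  classical
  refine ⟨?_, ?_, fun hab R => minimal_iff_maxAbelian hQ ((isMulCommutative_iff_le_centralizer Q).2
    (Subgroup.commutator_eq_bot_iff_le_centralizer.1 hab)) R⟩
  · refine Subgroup.characteristic_iff_map_eq.2 fun e => ?_
    rw [Subgroup.map_commutator]
    exact minimal_commutator_eq (isMinimalCentrallyLarge_map e hQ) hQ
  set P0 := Cfsg.pCore p G with hP0
  obtain ⟨P, hP⟩ := hE.2.1
  have hP0S : P0 ≤ S := hP ▸ CfsgLib.Cores.pCore_le_sylow P
  set Z₀ := (S ⊓ Subgroup.centralizer (S : Set G)) ⊓ (⁅Q, Q⁆).map S.subtype with hZ₀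
  -- once all minimal centrally large subgroups are in `O_p(G)` their join is normal
  have hjoin : (∀ R : Subgroup S, Cfsg.IsMinimalCentrallyLarge R → R ≤ P0.subgroupOf S) →
      ((Cfsg.minimalCentrallyLargeJoin S).map S.subtype).Normal := by
    intro hall
    refine ⟨fun z hz g => ?_⟩
    have hle : (Cfsg.minimalCentrallyLargeJoin S).map S.subtype ≤
        ((Cfsg.minimalCentrallyLargeJoin S).map S.subtype).comap (MulAut.conj g).toMonoidHom := by
      rw [Subgroup.map_le_iff_le_comap]
      refine sSup_le fun R hR => ?_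
      obtain ⟨R', hR', -, hmap⟩ := PushingUp.exists_conj_minimal S hP0S hR (hall R hR) g
      rw [← Subgroup.map_le_iff_le_comap, ← Subgroup.map_le_iff_le_comap, ← hmap]
      exact Subgroup.map_mono (le_sSup hR')
    exact hle hz
  rcases PushingUp.normal_or_pCore_centrallyLarge S hE hJ Z₀ inf_le_left with h | h | ⟨hCL, hC⟩
  · exact Or.inl h
  · refine Or.inr (hjoin fun R _ x _ => ?_)
    haveI := h
    have hSp : IsPGroup p S := hP ▸ P.2
    exact CfsgLib.Cores.le_pCore hSp x.2
  refine Or.inr (hjoin ?_)
  obtain ⟨Q₁, hQ₁P, hQ₁⟩ := exists_minimalCentrallyLarge_le hCL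
  have hnorm : ((⁅Q, Q⁆).map S.subtype).Normal := by
    refine ⟨fun z hz g => ?_⟩
    obtain ⟨R', hR', -, hmap⟩ := PushingUp.exists_conj_minimal S hP0S hQ₁ hQ₁P g
    rw [minimal_commutator_eq hQ hQ₁, Subgroup.map_commutator] at hz
    rw [minimal_commutator_eq hQ hR', Subgroup.map_commutator, hmap, ← Subgroup.map_commutator]
    exact ⟨z, hz, rfl⟩
  haveI := hnorm
  set V := Subgroup.normalClosure (Z₀ : Set G) with hV
  have hVQ : V ≤ (⁅Q, Q⁆).map S.subtype :=
    Subgroup.normalClosure_le_normal (SetLike.coe_subset_coe.2 inf_le_right)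
  have hVP : V ≤ Subgroup.centralizer (P0 : Set G) := by
    haveI : (Subgroup.centralizer (P0 : Set G)).Normal := inferInstance
    exact Subgroup.normalClosure_le_normal fun z hz =>
      Subgroup.centralizer_le (SetLike.coe_subset_coe.2 hP0S) hz.1.2
  intro R hR
  set T := (Subgroup.centralizer (V : Set G)).subgroupOf S
  have hle : R ≤ T := by
    refine (minimal_inf_sup hR hQ₁.1).symm.le.trans (sup_le (fun x hx => ?_) fun x hx => ?_)
    · exact Subgroup.mem_centralizer_iff.2 fun v hv => ((hVP hv) (x : G) (hQ₁P hx.2)).symm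
    · refine Subgroup.mem_centralizer_iff.2 fun v hv => ?_
      obtain ⟨w, hw, rfl⟩ := hVQ hv
      rw [minimal_commutator_eq hQ hR] at hw
      exact congrArg S.subtype (hx w (Subgroup.commutator_le.2 (fun a ha b hb => by
        rw [commutatorElement_def]
        exact R.mul_mem (R.mul_mem (R.mul_mem ha hb) (R.inv_mem ha)) (R.inv_mem hb)) hw))
  exact fun x hx => hC ⟨x.2, hle hx⟩

end Cfsg.Agent.S2990
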