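import Cfsg.Statements.S2402
import Cfsg.Agent.Lib.KnownSimple.CycleGen
-- import your own Cfsg.Agent.* helpers here

set_option autoImplicit false
open Cfsg

namespace Cfsg.Agent.S2402

/-- Explicit two-element generation of `PSL_{n+1}(K)` for a finite field `K` with more than three elements: let `k` generate the multiplicative group of `K`, `h = diag(k, k⁻¹, 1, …, 1)`, `x = 1 + E₁₂` (the elementary transvection) and `w` the monomial matrix with entries `1` in positions `(i, i+1)` and `(−1)^n` in position `(n+1, 1)`. Then `h` and `x·w` generate `SL_{n+1}(K)` modulo its centre: the subgroup they generate together with the centre is everything. -/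
theorem result {K : Type*} [Field K] [Fintype K] (hK : 3 < Fintype.card K) (n : ℕ) (hn : 1 ≤ n)
    (k : Kˣ) (hk : ∀ u : Kˣ, u ∈ Subgroup.zpowers k)
    (h x w : Matrix.SpecialLinearGroup (Fin (n + 1)) K)
    (hh : (h : Matrix (Fin (n + 1)) (Fin (n + 1)) K) =
      Matrix.diagonal (fun i => if i.val = 0 then (k : K) else if i.val = 1 then ((k⁻¹ : Kˣ) : K) else 1))
    (hx : (x : Matrix (Fin (n + 1)) (Fin (n + 1)) K) = Matrix.transvection (0 : Fin (n + 1)) (1 : Fin (n + 1)) 1)
    (hw : (w : Matrix (Fin (n + 1)) (Fin (n + 1)) K) =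
      Matrix.of (fun i j => if j.val = i.val + 1 then 1 else if i.val = n ∧ j.val = 0 then (-1) ^ n else 0)) :
    Subgroup.closure ({h, x * w} : Set (Matrix.SpecialLinearGroup (Fin (n + 1)) K)) ⊔
      Subgroup.center (Matrix.SpecialLinearGroup (Fin (n + 1)) K) = ⊤ := by
  classical
  have hv1 : (1 : Fin (n + 1)).val = 1 := by
    rw [Fin.val_one']; exact Nat.mod_eq_of_lt (by omega)
  have h01 : (0 : Fin (n + 1)) ≠ 1 := by
    intro h
    have := congrArg Fin.val h
    rw [Fin.val_zero, hv1] at this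
    omega
  let T : K → Matrix.SpecialLinearGroup (Fin (n + 1)) K := fun t =>
    Matrix.SpecialLinearGroup.transvection h01 t
  have hTadd : ∀ a b, T a * T b = T (a + b) := fun a b =>
    (Matrix.SpecialLinearGroup.transvection_add h01 a b).symm
  have hTinv : ∀ a, (T a)⁻¹ = T (-a) := fun a => Matrix.SpecialLinearGroup.transvection_inv h01 a
  have hxT : x = T 1 := Subtype.ext hx
  set S := Subgroup.closure ({h, x * w} : Set (Matrix.SpecialLinearGroup (Fin (n + 1)) K)) with hS
  have hhS : h ∈ S := Subgroup.subset_closure (by simp)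
  have hgS : x * w ∈ S := Subgroup.subset_closure (by simp)
  let d : Fin (n + 1) → K := fun i =>
    if i.val = 0 then (k : K) else if i.val = 1 then ((k⁻¹ : Kˣ) : K) else 1
  have hk0 := k.ne_zero
  have hd : ∀ i, d i ≠ 0 := fun i => by simp only [d]; split_ifs <;> simp
  have hd0 : d 0 = k := by simp [d]
  have hd1 : d 1 = (k : K)⁻¹ := by
    simp only [d, hv1]
    simp
  have hhinv : (h⁻¹).1 = Matrix.diagonal (fun i => (d i)⁻¹) := by
    have e : h.1 * Matrix.diagonal (fun i => (d i)⁻¹) = 1 := by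
      rw [hh, Matrix.diagonal_mul_diagonal, ← Matrix.diagonal_one]
      exact congrArg _ (funext fun i => mul_inv_cancel₀ (hd i))
    calc (h⁻¹).1 = (h⁻¹).1 * (h.1 * Matrix.diagonal (fun i => (d i)⁻¹)) := by rw [e, mul_one]
      _ = ((h⁻¹).1 * h.1) * Matrix.diagonal (fun i => (d i)⁻¹) := (mul_assoc _ _ _).symm
      _ = _ := by
        rw [show (h⁻¹).1 * h.1 = 1 from congrArg Subtype.val (inv_mul_cancel h), one_mul]
  let e : Fin (n + 1) → K := fun i => d i * (d (i + 1))⁻¹
  set D := h * (w * h⁻¹ * w⁻¹) with hD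
  have hDm : D.1 = Matrix.diagonal e := by
    show h.1 * (w.1 * (h⁻¹).1 * (w⁻¹).1) = _
    rw [hhinv, CfsgLib.KnownSimple.CycleGen.cycle_mul_diagonal w hw, mul_assoc,
      show w.1 * (w⁻¹).1 = 1 from congrArg Subtype.val (mul_inv_cancel w), mul_one, hh,
      Matrix.diagonal_mul_diagonal]
  have he : ∀ i, e i ≠ 0 := fun i => mul_ne_zero (hd i) (inv_ne_zero (hd _))
  have hhT : ∀ t, h * T t = T ((k : K) ^ 2 * t) * h := fun t => Subtype.ext (by
    show h.1 * Matrix.transvection 0 1 t = Matrix.transvection 0 1 ((k : K) ^ 2 * t) * h.1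
    rw [show h.1 = Matrix.diagonal d from hh]
    exact CfsgLib.ClassicalLinear.diagonal_mul_transvection d t _ (by rw [hd0, hd1]; field_simp))
  have hDT : ∀ t, D * T t = T (e 0 / e 1 * t) * D := fun t => Subtype.ext (by
    show D.1 * Matrix.transvection 0 1 t = Matrix.transvection 0 1 (e 0 / e 1 * t) * D.1
    rw [hDm]
    exact CfsgLib.ClassicalLinear.diagonal_mul_transvection e t _ (by
      have := he 1; field_simp))
  have hhD : h * D = D * h := Subtype.ext (by
    show h.1 * D.1 = D.1 * h.1
    rw [hDm, show h.1 = Matrix.diagonal d from hh, Matrix.diagonal_mul_diagonal,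
      Matrix.diagonal_mul_diagonal]
    exact congrArg _ (funext fun i => mul_comm _ _))
  have hk1 : (k : K) ^ 2 ≠ 1 := by
    intro hk1
    have hu : k ^ 2 = 1 := Units.ext (by simpa using hk1)
    have hle : Fintype.card Kˣ ≤ 2 := by
      rw [← Nat.card_eq_fintype_card, ← orderOf_eq_card_of_forall_mem_zpowers hk]
      exact orderOf_le_of_pow_eq_one two_pos hu
    rw [Fintype.card_units] at hle
    omega
  set c := (k : K) ^ 2 - e 0 / e 1 with hc
  have hc0 : c ≠ 0 := by
    have he0 : e 0 = (k : K) ^ 2 := by simp only [e, zero_add, hd0, hd1, inv_inv, sq]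
    rw [hc, he0, sub_ne_zero]
    intro hcon
    have h1 : e 1 = 1 := by
      have h' := hcon
      field_simp [he 1] at h'
      exact h'
    rcases Nat.lt_or_ge n 2 with hn2 | hn2
    · obtain rfl : n = 1 := by omega
      have : d (1 + 1) = (k : K) := by
        have : (1 + 1 : Fin 2) = 0 := rfl
        rw [this, hd0]
      simp only [e, hd1, this] at h1
      apply hk1
      field_simp at h1
      exact h1.symm
    · have : d (1 + 1) = 1 := by
        have h2 : (1 + 1 : Fin (n + 1)).val = 2 := by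
          simp only [Fin.val_add, hv1, Nat.mod_eq_of_lt (show 2 < n + 1 by omega)]
        simp only [d, h2]; norm_num
      simp only [e, hd1, this, inv_one, mul_one, inv_eq_one] at h1
      exact hk1 (by rw [h1]; simp)
  -- the first root element in the subgroup
  have ha : T c * D ∈ S := by
    have : h * (x * w) * h⁻¹ * (x * w)⁻¹ = T c * D := by
      calc h * (x * w) * h⁻¹ * (x * w)⁻¹ = (h * T 1) * (w * h⁻¹ * w⁻¹) * (T 1)⁻¹ := by
            rw [hxT]; group
        _ = T ((k : K) ^ 2) * (D * T (-1)) := by rw [hhT, hTinv, mul_one, hD]; group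
        _ = T c * D := by rw [hDT, ← mul_assoc, hTadd, hc, mul_neg, mul_one, sub_eq_add_neg]
    rw [← this]
    exact S.mul_mem (S.mul_mem (S.mul_mem hhS hgS) (S.inv_mem hhS)) (S.inv_mem hgS)
  have hb : T (((k : K) ^ 2 - 1) * c) ∈ S := by
    have : h * (T c * D) * h⁻¹ * (T c * D)⁻¹ = T (((k : K) ^ 2 - 1) * c) := by
      rw [← mul_assoc h, hhT, mul_assoc _ h D, hhD, ← mul_assoc, mul_inv_rev, hTinv,
        show T ((k : K) ^ 2 * c) * D * h * h⁻¹ * (D⁻¹ * T (-c)) =
          T ((k : K) ^ 2 * c) * T (-c) by group, hTadd]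
      congr 1
      ring
    rw [← this]
    exact S.mul_mem (S.mul_mem (S.mul_mem hhS ha) (S.inv_mem hhS)) (S.inv_mem ha)
  set c' := ((k : K) ^ 2 - 1) * c with hc'
  have hc'0 : c' ≠ 0 := mul_ne_zero (sub_ne_zero.2 hk1) hc0
  have hsq : ∀ s : K, T (s ^ 2 * c') ∈ S := by
    intro s
    rcases eq_or_ne s 0 with rfl | hs
    · have : T ((0 : K) ^ 2 * c') = 1 := by simp [T]
      rw [this]; exact S.one_mem
    obtain ⟨i, hi⟩ := (Submonoid.mem_powers_iff _ _).1
      (mem_powers_iff_mem_zpowers.2 (hk (Units.mk0 s hs)))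
    obtain rfl : (k : K) ^ i = s := by simpa using congrArg Units.val hi
    clear hi hs
    induction i with
    | zero => simpa using hb
    | succ i ih =>
      have e' : h * T (((k : K) ^ i) ^ 2 * c') * h⁻¹ = T (((k : K) ^ (i + 1)) ^ 2 * c') := by
        rw [hhT, mul_inv_cancel_right]; congr 1; ring
      rw [← e']
      exact S.mul_mem (S.mul_mem hhS ih) (S.inv_mem hhS)
  have hall : ∀ t : K, T t ∈ S := by
    intro t
    have hsum : ∃ a b : K, t / c' = a ^ 2 + b ^ 2 := by
      by_cases h2 : ringChar K = 2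
      · obtain ⟨a, ha⟩ := FiniteField.isSquare_of_char_two h2 (t / c')
        exact ⟨a, 0, by rw [ha]; ring⟩
      · obtain ⟨a, b, hab⟩ := FiniteField.exists_root_sum_quadratic (R := K) (f := Polynomial.X ^ 2)
          (g := Polynomial.X ^ 2 - Polynomial.C (t / c')) (Polynomial.degree_X_pow 2)
          (Polynomial.degree_X_pow_sub_C two_pos _) (FiniteField.odd_card_of_char_ne_two h2)
        simp only [Polynomial.eval_pow, Polynomial.eval_X, Polynomial.eval_sub, Polynomial.eval_C]
          at hab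
        exact ⟨a, b, by linear_combination -hab⟩
    obtain ⟨a, b, hab⟩ := hsum
    rw [show t = a ^ 2 * c' + b ^ 2 * c' by rw [← add_mul, ← hab, div_mul_cancel₀ _ hc'0], ← hTadd]
    exact S.mul_mem (hsq a) (hsq b)
  have hwS : w ∈ S := by
    have : w = x⁻¹ * (x * w) := by group
    rw [this]
    exact S.mul_mem (S.inv_mem (by rw [hxT]; exact hall 1)) hgS
  exact eq_top_iff.2 (le_trans (le_of_eq (CfsgLib.KnownSimple.CycleGen.eq_top w hw S hwS h01
    hall).symm) le_sup_left)

end Cfsg.Agent.S2402
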