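import Cfsg.Statements.S2403
import Cfsg.Agent.Lib.KnownSimple.CycleGen
-- import your own Cfsg.Agent.* helpers here

set_option autoImplicit false
open Cfsg

namespace Cfsg.Agent.S2403

/-- Explicit two-element generation of `PSL_{n+1}(K)` over the fields with two or three elements: with `x = 1 + E₁₂` and `w` the monomial matrix with entries `1` in positions `(i, i+1)` and `(−1)^n` in position `(n+1, 1)`, the elements `x` and `w` generate `SL_{n+1}(K)` modulo its centre. -/
theorem result {K : Type*} [Field K] [Fintype K] (hK : Fintype.card K ≤ 3) (n : ℕ) (hn : 1 ≤ n)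
    (x w : Matrix.SpecialLinearGroup (Fin (n + 1)) K)
    (hx : (x : Matrix (Fin (n + 1)) (Fin (n + 1)) K) = Matrix.transvection (0 : Fin (n + 1)) (1 : Fin (n + 1)) 1)
    (hw : (w : Matrix (Fin (n + 1)) (Fin (n + 1)) K) =
      Matrix.of (fun i j => if j.val = i.val + 1 then 1 else if i.val = n ∧ j.val = 0 then (-1) ^ n else 0)) :
    Subgroup.closure ({x, w} : Set (Matrix.SpecialLinearGroup (Fin (n + 1)) K)) ⊔
      Subgroup.center (Matrix.SpecialLinearGroup (Fin (n + 1)) K) = ⊤ := by
  classical
  have hv1 : (1 : Fin (n + 1)).val = 1 := by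
    rw [Fin.val_one']; exact Nat.mod_eq_of_lt (by omega)
  have h01 : (0 : Fin (n + 1)) ≠ 1 := by
    intro h
    have := congrArg Fin.val h
    rw [Fin.val_zero, hv1] at this
    omega
  have hxT : x = Matrix.SpecialLinearGroup.transvection h01 (1 : K) := Subtype.ext hx
  refine eq_top_iff.2 (le_trans (le_of_eq (CfsgLib.KnownSimple.CycleGen.eq_top w hw _
    (Subgroup.subset_closure (by simp)) h01 ?_).symm) le_sup_left)
  intro t
  -- the field is its prime field
  obtain ⟨m, hm⟩ : ∃ m : ℕ, (m : K) = t := by
    obtain ⟨p, hp⟩ := CharP.exists K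
    have hp' : p.Prime := (CharP.char_is_prime_or_zero K p).resolve_right (CharP.ringChar_ne_zero_of_finite K |> fun h => by rwa [ringChar.eq K p] at h)
    obtain ⟨k, -, hk⟩ := FiniteField.card K p
    have hcard : Fintype.card K = p := by
      rcases Nat.lt_or_ge (k : ℕ) 2 with hlt | hge
      · rw [hk, show (k : ℕ) = 1 by have := k.pos; omega, pow_one]
      · have := Nat.pow_le_pow_right hp'.pos hge
        have := Nat.pow_le_pow_left hp'.two_le 2
        omega
    have : Fact p.Prime := ⟨hp'⟩
    obtain ⟨z, rfl⟩ := ((ZMod.castHom (dvd_refl p) K).injective.bijective_of_nat_card_le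
      (by rw [Nat.card_eq_fintype_card, hcard, Nat.card_zmod])).2 t
    exact ⟨z.val, by rw [← ZMod.cast_eq_val]; rfl⟩
  subst hm
  induction m with
  | zero => simp
  | succ m ih =>
    rw [Nat.cast_succ, Matrix.SpecialLinearGroup.transvection_add h01, ← hxT]
    exact Subgroup.mul_mem _ ih (Subgroup.subset_closure (by simp))

end Cfsg.Agent.S2403
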