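import Cfsg.Statements.S4434
import Cfsg.Agent.Lib.CharDegreesTheory.InflationBlocks

set_option autoImplicit false
open Cfsg

namespace Cfsg.Agent.S4434

open CfsgLib CfsgLib.BrauerPairs CfsgLib.CharDegreesTheory MonoidAlgebra

/-- Let N be a normal p-subgroup of the finite group G and write Ḡ = G/N; fix a maximal ideal M of the algebraic integers containing p. Then every block B of G contains a block B̄ of Ḡ (the inflation of every member of B̄ lies in B) whose defect groups are exactly the images in Ḡ of the defect groups of B. -/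
theorem result {G : Type*} [Group G] [Finite G] (p : ℕ) [Fact p.Prime] (M : Ideal Cfsg.AlgInt) (hM : Cfsg.IsPModular p M) (N : Subgroup G) [N.Normal] (hN : IsPGroup p N) (B : Set (Cfsg.IrrCharacter G)) (hB : Cfsg.IsPBlock M B) : ∃ Bbar : Set (Cfsg.IrrCharacter (G ⧸ N)), Cfsg.IsPBlock M Bbar ∧ (∀ χ ∈ Bbar, ∀ ψ : Cfsg.IrrCharacter G, (ψ : G → ℂ) = (χ : G ⧸ N → ℂ) ∘ QuotientGroup.mk → ψ ∈ B) ∧ ∀ Dbar : Subgroup (G ⧸ N), Cfsg.IsDefectGroup p M Bbar Dbar ↔ ∃ P : Subgroup G, Cfsg.IsDefectGroup p M B P ∧ Dbar = P.map (QuotientGroup.mk' N) := by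
  classical
  have : M.IsPrime := Blocks.isPrime_of_isPModular hM
  have : CharP (Blocks.Res M) p := Blocks.charP_res hM
  set φ := QuotientGroup.mk' N with hφdef
  have hφ : Function.Surjective φ := QuotientGroup.mk'_surjective N
  have hker : φ.ker = N := QuotientGroup.ker_mk' N
  set e := redElem M (blockCoeff B) with he
  have heb : IsBlockIdem (⊤ : Subgroup G) e := isBlockIdem_redElem_blockCoeff hB
  have hNN : (⊤ : Subgroup G) ≤ Subgroup.normalizer (N : Set G) := by
    rw [Subgroup.normalizer_eq_top]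
  have heC : e ∈ supp (Blocks.Res M) (Subgroup.centralizer (N : Set G)) :=
    supp_mono inf_le_right (mem_supp_cenIn_of_idem hN le_top hNN heb.mem heb.mul_self)
  obtain ⟨P, hP⟩ := exists_isDefectGroup hM hB
  have hPin := (isDefectGroup_iff hM hB).1 hP
  have hbrP : brau P e ≠ 0 := hPin.2.2.1
  have hNP : N ≤ P := by
    have hsupp : brau (P ⊔ N) e = brau P e := by
      ext g
      by_cases hg : g ∈ Subgroup.centralizer (P : Set G)
      · rw [coeff_trunc_of_mem hg]
        by_cases hgN : g ∈ Subgroup.centralizer (N : Set G)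
        · rw [coeff_trunc_of_mem]
          rw [Subgroup.mem_centralizer_iff] at hg hgN ⊢
          intro u hu
          have : P ⊔ N ≤ Subgroup.centralizer ({g} : Set G) := sup_le
            (fun v hv => Subgroup.mem_centralizer_singleton_iff.2 (hg v hv))
            (fun v hv => Subgroup.mem_centralizer_singleton_iff.2 (hgN v hv))
          exact Subgroup.mem_centralizer_singleton_iff.1 (this hu)
        · rw [coeff_trunc_of_not_mem, heC g hgN]
          exact fun h => hgN (Subgroup.centralizer_le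
            (SetLike.coe_subset_coe.2 (le_sup_right : N ≤ P ⊔ N)) h)
      · rw [coeff_trunc_of_not_mem hg, coeff_trunc_of_not_mem]
        exact fun h => hg (Subgroup.centralizer_le
          (SetLike.coe_subset_coe.2 (le_sup_left : P ≤ P ⊔ N)) h)
    obtain ⟨c, -, hc⟩ := hPin.exists_conj_le (hPin.2.1.to_sup_of_normal_right hN) le_top
      (hsupp ▸ hbrP)
    have hle : Nat.card (P ⊔ N : Subgroup G) ≤ Nat.card P :=
      Nat.card_le_card_of_injective
        (fun u : (P ⊔ N : Subgroup G) => (⟨c⁻¹ * u * c, hc u u.2⟩ : P))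
        fun u v huv => Subtype.ext (by simpa using congrArg Subtype.val huv)
    rw [Subgroup.eq_of_le_of_card_ge le_sup_left hle]
    exact le_sup_right
  obtain ⟨a, -, haP, htr⟩ := hPin.2.2.2
  have heP : e ∈ fixedBy (Blocks.Res M) P := heb.fixed_of_le le_top
  have hbrπ : brau (P.map φ) (mapG φ e) ≠ 0 := by
    rw [brau_map_mapG φ hPin.2.1 heP]
    refine mapG_ne_zero_of_idem hφ (hker.symm ▸ hN)
      (brau_idem hPin.2.1 heP heb.mul_self) hbrP fun u hu => ?_
    refine commute_of_fixedBy_of_supp (H := Subgroup.centralizer (N : Set G))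
      (single_mem_fixedBy (fun x hx => Subgroup.mem_centralizer_singleton_iff.2 ?_) 1)
      (supp_mono (Subgroup.centralizer_le (SetLike.coe_subset_coe.2 hNP)) (trunc_mem_supp _ e))
    exact (Subgroup.mem_centralizer_iff.1 hx u (hker ▸ hu)).symm
  have hsum : mapG φ e = ∑ f ∈ blockIdems (Blocks.Res M) (⊤ : Subgroup (G ⧸ N)),
      mapG φ e * f := by
    rw [← Finset.mul_sum, sum_blockIdems, mul_one]
  rw [hsum, map_sum] at hbrπ
  obtain ⟨f, hf, hne⟩ := Finset.exists_ne_zero_of_sum_ne_zero hbrπ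
  have hfb : IsBlockIdem (⊤ : Subgroup (G ⧸ N)) f := mem_blockIdems.1 hf
  have hπctr : mapG φ e ∈ ctr (Blocks.Res M) (⊤ : Subgroup (G ⧸ N)) :=
    mapG_mem_ctr_top hφ (mem_ctr.1 heb.mem).2
  have hef : mapG φ e * f = f := by
    rcases hfb.2.2.2 _ hπctr (by rw [← map_mul, heb.mul_self]) with h0 | h1
    · exact absurd (by rw [← ctr_commute hfb.mem hπctr, h0, map_zero]) hne
    · rw [← ctr_commute hfb.mem hπctr]
      exact h1
  obtain ⟨Bbar, hBbar, hBf⟩ := exists_isPBlock_of_isBlockIdem hfb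
  have hfix : f ∈ fixedBy (Blocks.Res M) (⊤ : Subgroup (G ⧸ N)) := (mem_ctr.1 hfb.mem).2
  have hD : IsDefectIn p (⊤ : Subgroup (G ⧸ N)) ⊤ f (P.map φ) := by
    refine ⟨le_top, hPin.2.1.map _, by rwa [hef] at hne,
      ((P.relIndex (P ⊔ φ.ker) : ℕ) : Blocks.Res M) • mapG φ a * f,
      fun g hg => absurd (Subgroup.mem_top g) hg,
      mul_mem ((fixedBy (Blocks.Res M) (P.map φ)).smul_mem (mapG_mem_fixedBy_map φ haP) _)
        (fixedBy_anti le_top hfix), ?_⟩
    rw [← relTr_mul _ _ hfix, ← mapG_relTr_eq hφ P haP, htr]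
    exact hef
  refine ⟨Bbar, hBbar, (inflate_mem_iff hφ hB hBbar).2 (by rw [hBf]; exact hef), fun Dbar => ?_⟩
  rw [isDefectGroup_iff hM hBbar, hBf]
  constructor
  · intro h
    obtain ⟨c, -, hc⟩ := hD.exists_conj h
    obtain ⟨g, rfl⟩ := hφ c
    refine ⟨cj g P, (isDefectGroup_iff hM hB).2 ?_, ?_⟩
    · have h' := hPin.conj_cj g
      rwa [cj_of_mem (Subgroup.mem_top g) (H := ⊤), (mem_ctr.1 heb.mem).2 g
        (Subgroup.mem_top g)] at h'
    · rw [hc, Subgroup.map_map, Subgroup.map_map]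
      congr 1
  · rintro ⟨P', hP', rfl⟩
    obtain ⟨c, -, hc⟩ := hPin.exists_conj ((isDefectGroup_iff hM hB).1 hP')
    have h' := hD.conj_cj (φ c)
    rw [cj_of_mem (Subgroup.mem_top (φ c)) (H := ⊤), hfix _ (Subgroup.mem_top _)] at h'
    have he' : P'.map φ = cj (φ c) (P.map φ) := by
      rw [hc, cj, Subgroup.map_map, Subgroup.map_map]
      congr 1
    rwa [he']

end Cfsg.Agent.S4434
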