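import Cfsg.Statements.S2984
import Cfsg.Agent.Lib.TwoGroupTricks.BlockFacts

set_option autoImplicit false
open Cfsg

namespace Cfsg.Agent.S2984

/-- Let G be a finite group of characteristic p (C_G(O_p(G)) ≤ O_p(G)), T a Sylow p-subgroup and E a B(T)-block of G, with W_E = [Ω₁(Z(O_p(E))), E]. Then E = O^p(E·O_p(G)), W_E ≤ Ω₁(Z(O_p(G))), and [W_E, J(T)] ≠ 1, where J(T) is generated by the elementary abelian p-subgroups of T of largest order. -/
theorem result {G : Type*} [Group G] [Finite G] {p : ℕ} [Fact p.Prime] (hG : Subgroup.centralizer (Cfsg.pCore p G : Set G) ≤ Cfsg.pCore p G) (T : Sylow p G) (E : Subgroup G) (hE : Cfsg.IsBaumannBlock p (T : Subgroup G) E) : Cfsg.pResidualOf p (E ⊔ Cfsg.pCore p G) = E ∧ ⁅Cfsg.omegaOneCenter p (Cfsg.pCoreOf p E), E⁆ ≤ Cfsg.omegaOneCenter p (Cfsg.pCore p G) ∧ ⁅⁅Cfsg.omegaOneCenter p (Cfsg.pCoreOf p E), E⁆, Cfsg.thompsonSubgroupOf p (T : Subgroup G)⁆ ≠ ⊥ := by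

  refine ⟨le_antisymm ?_ ?_, CfsgLib.TwoGroupTricks.commutator_le_omegaOneCenter_pCore hG T hE,
    CfsgLib.TwoGroupTricks.commutator_thompson_ne_bot hG T hE⟩
  · have hPE := CfsgLib.TwoGroupTricks.pCore_le_normalizer_block T hE
    set K := E ⊔ Cfsg.pCore p G with hK
    haveI : (E.subgroupOf K).Normal :=
      (Subgroup.normal_subgroupOf_iff_le_normalizer le_sup_left).2 (sup_le Subgroup.le_normalizer hPE)
    have hp : IsPGroup p (↥K ⧸ E.subgroupOf K) := by
      intro q
      induction q using QuotientGroup.induction_on with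
      | _ k =>
        have hk : (k : G) ∈ ((Cfsg.pCore p G ⊔ E : Subgroup G) : Set G) := by
          rw [sup_comm]; exact k.2
        rw [Subgroup.coe_mul_of_left_le_normalizer_right _ _ hPE] at hk
        obtain ⟨q, hq, e, he, hke⟩ := hk
        obtain ⟨j, hj⟩ := CfsgLib.Cores.isPGroup_pCore p G ⟨q, hq⟩
        refine ⟨j, ?_⟩
        have hq' : (⟨q, Subgroup.mem_sup_right hq⟩ : K) ^ p ^ j = 1 :=
          Subtype.ext (by simpa using congrArg Subtype.val hj)
        have : (QuotientGroup.mk k : ↥K ⧸ E.subgroupOf K) =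
            QuotientGroup.mk (⟨q, Subgroup.mem_sup_right hq⟩ : K) := by
          refine QuotientGroup.eq.2 ?_
          show (k : G)⁻¹ * q ∈ E
          rw [← hke]
          simpa using E.inv_mem he
        rw [this, ← QuotientGroup.mk_pow, hq']
        rfl
    rintro _ ⟨x, hx, rfl⟩
    exact CfsgLib.Transfer.pResidual_le_of_isPGroup hp hx
  · nth_rewrite 1 [← hE.1]
    rw [Cfsg.pResidualOf, Cfsg.pResidualOf, Cfsg.pResidual, Cfsg.pResidual, MonoidHom.map_closure,
      MonoidHom.map_closure]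
    refine Subgroup.closure_mono ?_
    rintro _ ⟨x, hx, rfl⟩
    refine ⟨⟨x, Subgroup.mem_sup_left x.2⟩, ?_, rfl⟩
    show Nat.Coprime (orderOf _) p
    rw [Subgroup.orderOf_mk, Subgroup.orderOf_coe]
    exact hx

end Cfsg.Agent.S2984
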