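import Cfsg.Statements.S3056
import Cfsg.Agent.Lib.StronglyPEmbedded.Basic

set_option autoImplicit false
open Cfsg

namespace Cfsg.Agent.S3056

variable {G : Type*} [Group G] [Finite G] {p : ℕ} [Fact p.Prime]

/-- Adjacency in the Sylow graph. -/
def Meets (S T : Sylow p G) : Prop := (S : Subgroup G) ⊓ (T : Subgroup G) ≠ ⊥

/-- Connectedness by chains of meeting members. -/
abbrev Linked (S T : Sylow p G) : Prop := Relation.ReflTransGen Meets S T

omit [Finite G] [Fact p.Prime] in
theorem linked_symm {S T : Sylow p G} (h : Linked S T) : Linked T S := by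
  induction h with
  | refl => exact Relation.ReflTransGen.refl
  | tail _ h ih =>
    refine Relation.ReflTransGen.head ?_ ih
    exact fun h0 => h ((inf_comm _ _).trans h0)

omit [Finite G] [Fact p.Prime] in
theorem linked_smul (g : G) {S T : Sylow p G} (h : Linked S T) : Linked (g • S) (g • T) := by
  induction h with
  | refl => exact Relation.ReflTransGen.refl
  | @tail U V _ h ih =>
    refine ih.tail fun hb => h ?_
    rw [Subgroup.eq_bot_iff_forall] at hb ⊢
    intro x hx
    obtain ⟨hxU, hxV⟩ := Subgroup.mem_inf.mp hx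
    have := hb (g * x * g⁻¹) (Subgroup.mem_inf.mpr ⟨⟨x, hxU, rfl⟩, ⟨x, hxV, rfl⟩⟩)
    exact conj_eq_one_iff.mp this

omit [Finite G] [Fact p.Prime] in
theorem exists_simple_chain {S T : Sylow p G} (h : Linked S T) :
    ∃ (n : ℕ) (c : Fin (n + 1) → Sylow p G), c 0 = S ∧ c (Fin.last n) = T ∧
      ∀ i : Fin n, c i.castSucc ≠ c i.succ ∧
        (c i.castSucc : Subgroup G) ⊓ (c i.succ : Subgroup G) ≠ ⊥ := by
  induction h with
  | refl => exact ⟨0, fun _ => S, rfl, rfl, fun i => i.elim0⟩
  | @tail U V _ h ih =>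
    obtain ⟨n, c, h0, hn, hc⟩ := ih
    by_cases hUV : U = V
    · exact ⟨n, c, h0, hn.trans hUV, hc⟩
    refine ⟨n + 1, Fin.snoc c V, ?_, Fin.snoc_last _ _, fun i => ?_⟩
    · rw [← Fin.castSucc_zero, Fin.snoc_castSucc, h0]
    · induction i using Fin.lastCases with
      | last =>
        rw [Fin.snoc_castSucc, Fin.succ_last, Fin.snoc_last, hn]
        exact ⟨hUV, h⟩
      | cast j =>
        rw [Fin.snoc_castSucc, Fin.succ_castSucc, Fin.snoc_castSucc]
        exact hc j

omit [Finite G] [Fact p.Prime] in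
theorem linked_of_chain {n : ℕ} (c : Fin (n + 1) → Sylow p G)
    (hc : ∀ i : Fin n, (c i.castSucc : Subgroup G) ⊓ (c i.succ : Subgroup G) ≠ ⊥) :
    ∀ i, Linked (c 0) (c i) := by
  intro i
  induction i using Fin.induction with
  | zero => exact Relation.ReflTransGen.refl
  | succ j ih => exact ih.tail (hc j)

omit [Finite G] [Fact p.Prime] in
theorem chainConnected_iff :
    Cfsg.IsSylowChainConnected p G ↔ ∀ S T : Sylow p G, Linked S T := by
  constructor
  · intro h S T
    obtain ⟨n, c, h0, hn, -, hc⟩ := h S T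
    rw [← h0, ← hn]
    exact linked_of_chain c (fun i => (hc i).2) _
  · intro h S T
    by_cases hST : (S : Subgroup G) ⊓ (T : Subgroup G) = ⊥
    · obtain ⟨n, c, h0, hn, hc⟩ := exists_simple_chain (h S T)
      exact ⟨n, c, h0, hn, fun i => by rw [hST]; exact bot_le, hc⟩
    by_cases he : S = T
    · exact ⟨0, fun _ => S, rfl, he, fun _ => inf_le_left, fun i => i.elim0⟩
    · refine ⟨1, ![S, T], rfl, rfl, fun i => ?_, fun i => ?_⟩
      · fin_cases i
        · exact inf_le_left
        · exact inf_le_right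
      · obtain rfl : i = 0 := Subsingleton.elim _ _
        exact ⟨he, hST⟩

/-- Let G be a finite group and p a prime. Join two Sylow p-subgroups when they are distinct and meet nontrivially. This graph on the Sylow p-subgroups is disconnected (the Sylow p-subgroups are not chain-connected through nontrivial intersections) if and only if G has a strongly p-embedded subgroup in the classical sense: a proper subgroup H of order divisible by p such that H ∩ gHg⁻¹ has order prime to p for every g outside H. -/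
theorem result {G : Type*} [Group G] [Finite G]
    (p : ℕ) [Fact p.Prime] :
    ¬ Cfsg.IsSylowChainConnected p G ↔
      ∃ H : Subgroup G, H ≠ ⊤ ∧ p ∣ Nat.card H ∧
        ∀ g : G, g ∉ H → ¬ p ∣ Nat.card ↥(H ⊓ H.map (MulAut.conj g).toMonoidHom) := by
  rw [chainConnected_iff]
  constructor
  · intro hnc
    push Not at hnc
    obtain ⟨S₀, T₀, hT₀⟩ := hnc
    let H : Subgroup G :=
      { carrier := {g | Linked S₀ (g • S₀)}
        one_mem' := by
          show Linked S₀ ((1 : G) • S₀)
          rw [one_smul]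
        mul_mem' := fun {a b} ha hb => by
          show Linked S₀ ((a * b) • S₀)
          rw [mul_smul]
          exact Relation.ReflTransGen.trans ha (linked_smul a hb)
        inv_mem' := fun {a} ha => by
          have h := linked_smul a⁻¹ (linked_symm ha)
          rw [inv_smul_smul] at h
          exact h }
    have hSH : (S₀ : Subgroup G) ≤ H := fun s hs => by
      show Linked S₀ (s • S₀)
      rw [Sylow.smul_eq_iff_mem_normalizer.mpr (Subgroup.le_normalizer hs)]
    have hH : H ≠ ⊤ := fun h => hT₀ (by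
      obtain ⟨g, hg⟩ := MulAction.exists_smul_eq G S₀ T₀
      rw [← hg]
      exact (h ▸ Subgroup.mem_top g : g ∈ H))
    have hpG : p ∣ Nat.card G := by
      by_contra hd
      have hb : ∀ U : Sylow p G, (U : Subgroup G) = ⊥ := fun U => by
        obtain ⟨k, hk⟩ := U.2.exists_card_eq
        rcases Nat.eq_zero_or_pos k with rfl | hk0
        · exact Subgroup.card_eq_one.mp (by simpa using hk)
        · exact absurd ((hk ▸ dvd_pow_self p hk0.ne').trans (U : Subgroup G).card_subgroup_dvd_card) hd
      exact hT₀ (Sylow.ext ((hb S₀).trans (hb T₀).symm) ▸ Relation.ReflTransGen.refl)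
    refine ⟨H, hH, (S₀.dvd_card_of_dvd_card hpG).trans (Subgroup.card_dvd_of_le hSH),
      fun g hg hdvd => hg ?_⟩
    obtain ⟨⟨x, hx⟩, hxo⟩ := exists_prime_orderOf_dvd_card' p hdvd
    obtain ⟨hxH, hxg⟩ := Subgroup.mem_inf.mp hx
    have key : ∀ y ∈ H, orderOf y = p → ∃ a ∈ H, y ∈ a • S₀ := by
      intro y hy hyo
      have hyp : IsPGroup p (Subgroup.zpowers (⟨y, hy⟩ : H)) := IsPGroup.of_card (n := 1) (by
        rw [Nat.card_zpowers, Subgroup.orderOf_mk, hyo, pow_one])
      obtain ⟨U, hU⟩ := hyp.exists_le_sylow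
      obtain ⟨a, ha⟩ := MulAction.exists_smul_eq H (S₀.subtype hSH) U
      refine ⟨a, a.2, ?_⟩
      have h1 : (⟨y, hy⟩ : H) ∈ (a • S₀.subtype hSH : Sylow p H) :=
        ha ▸ hU (Subgroup.mem_zpowers _)
      obtain ⟨w, hw, hwy⟩ := h1
      exact ⟨(w : G), hw, congrArg Subtype.val hwy⟩
    rw [Subgroup.orderOf_mk] at hxo
    obtain ⟨a, ha, hxa⟩ := key x hxH hxo
    obtain ⟨y, hy, hyx⟩ := hxg
    have hyo : orderOf y = p := by
      rw [← hxo, ← hyx]
      exact (MulEquiv.orderOf_eq (MulAut.conj g) y).symm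
    obtain ⟨b, hb, hyb⟩ := key y hy hyo
    have hxgb : x ∈ g • (b • S₀) := ⟨y, hyb, hyx⟩
    have hmeet : Meets (a • S₀) (g • (b • S₀)) := fun h0 => by
      have : x ∈ ((a • S₀ : Sylow p G) : Subgroup G) ⊓ (g • (b • S₀) : Sylow p G) :=
        Subgroup.mem_inf.mpr ⟨hxa, hxgb⟩
      rw [h0, Subgroup.mem_bot] at this
      rw [this, orderOf_one] at hxo
      exact (Fact.out : p.Prime).ne_one hxo.symm
    have h1 : Linked S₀ (g • (b • S₀)) := Relation.ReflTransGen.tail ha hmeet
    show Linked S₀ (g • S₀)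
    exact h1.trans (linked_smul g (linked_symm hb))
  · rintro ⟨H, hH, hpH, hse⟩ hc
    have hspe := CfsgLib.StronglyPEmbedded.spe_of_forall_not_dvd hH hpH hse
    obtain ⟨S, hSH, -⟩ := CfsgLib.StronglyPEmbedded.exists_sylow_le hspe
    have hall : ∀ T : Sylow p G, (T : Subgroup G) ≤ H := by
      intro T
      induction hc S T with
      | refl => exact hSH
      | @tail U V _ h ih =>
        refine CfsgLib.StronglyPEmbedded.sylow_le_of_inf_ne_bot hspe V fun hb => h ?_
        exact le_bot_iff.mp (hb ▸ le_inf inf_le_right (inf_le_left.trans ih))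
    apply hH
    rw [eq_top_iff]
    intro g _
    by_contra hg
    apply hse g hg
    refine (S.dvd_card_of_dvd_card (hpH.trans H.card_subgroup_dvd_card)).trans
      (Subgroup.card_dvd_of_le (le_inf hSH ?_))
    intro s hs
    refine ⟨g⁻¹ * s * g, hall (g⁻¹ • S) ⟨s, hs, ?_⟩, ?_⟩
    · simp
    · simp [mul_assoc]

end Cfsg.Agent.S3056
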