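import Cfsg.Statements.S3057
import Cfsg.Agent.S3056
import Cfsg.Agent.Lib.CoprimeAction.Abelian
import Cfsg.Agent.Lib.TwoGroups.RankOne
import Cfsg.Agent.Lib.PSolvable.Basic
import Cfsg.Agent.Lib.PushUp.PPrimeP

set_option autoImplicit false
set_option linter.style.haveILetI false
open Cfsg

namespace Cfsg.Agent.S3057

open CfsgLib.TwoGroups (UniqueOrderP)

theorem pPrime_normal_le {G : Type*} [Group G] [Finite G] {p : ℕ} [Fact p.Prime] {H : Subgroup G}
    (hspe : Cfsg.IsStronglyPEmbedded p H) {P : Sylow p G} (hPH : (P : Subgroup G) ≤ H) {K : Subgroup G}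
    [K.Normal] (hK : (Nat.card K).Coprime p) {x y : G} (hxP : x ∈ (P : Subgroup G))
    (hyP : y ∈ (P : Subgroup G)) (hxo : orderOf x = p) (hyo : orderOf y = p) (hxy : x * y = y * x)
    (hne : y ∉ Subgroup.zpowers x) : K ≤ H := by
  set A := Subgroup.closure ({x, y} : Set G) with hA
  haveI : IsMulCommutative A := Subgroup.isMulCommutative_closure (by
    rintro a (rfl | rfl) b (rfl | rfl) <;> first | rfl | exact hxy | exact hxy.symm)
  have hAP : A ≤ (P : Subgroup G) := (Subgroup.closure_le _).2 (by rintro a (rfl | rfl) <;> assumption)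
  have hxp : x ^ p = 1 := hxo ▸ pow_orderOf_eq_one x
  have hyp : y ^ p = 1 := hyo ▸ pow_orderOf_eq_one y
  have hAexp : ∀ a ∈ A, a ^ p = 1 := by
    intro a ha
    induction ha using Subgroup.closure_induction with
    | mem a ha => rcases ha with rfl | rfl <;> assumption
    | one => exact one_pow p
    | mul a b ha hb iha ihb =>
      rw [(show Commute a b from congrArg Subtype.val (mul_comm' (⟨a, ha⟩ : A) ⟨b, hb⟩)).mul_pow,
        iha, ihb, one_mul]
    | inv a _ iha => rw [inv_pow, iha, inv_one]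
  have hxA : x ∈ A := Subgroup.subset_closure (Or.inl rfl)
  have hyA : y ∈ A := Subgroup.subset_closure (Or.inr rfl)
  have hAnc : ¬ IsCyclic A := by
    intro hc
    obtain ⟨⟨g, hg⟩, hgen⟩ := hc.exists_generator
    have hA' : A = Subgroup.zpowers g := by
      refine le_antisymm (fun a ha => ?_) (Subgroup.zpowers_le.2 hg)
      obtain ⟨i, hi⟩ := hgen ⟨a, ha⟩
      exact ⟨i, congrArg Subtype.val hi⟩
    have hle : Subgroup.zpowers x = A :=
      Subgroup.eq_of_le_of_card_ge (Subgroup.zpowers_le.2 hxA) (by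
        rw [hA', Nat.card_zpowers, Nat.card_zpowers, hxo]
        exact Nat.le_of_dvd (Fact.out : p.Prime).pos (orderOf_dvd_of_pow_eq_one (hAexp g hg)))
    exact hne (by rw [hle]; exact hyA)
  refine CfsgLib.CoprimeAction.le_of_centralizers hAnc
    (le_top.trans (Subgroup.normalizer_eq_top (H := K)).ge) ?_ ?_
  · obtain ⟨k, hk⟩ := IsPGroup.iff_card.1 (P.2.to_le hAP)
    rw [hk]
    exact (hK.pow_right k).symm
  · exact fun a ha ha1 => inf_le_right.trans
      (CfsgLib.StronglyPEmbedded.centralizer_le_of_spe hspe (k := 1)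
        (by rw [pow_one]; exact hAexp a ha) ha1 (hPH (hAP ha)))

theorem uniqueOrderP_quaternion (N : ℕ) [NeZero N] : UniqueOrderP 2 (QuaternionGroup N) := by
  rw [CfsgLib.TwoGroups.uniqueOrderP_iff_unique_involution]
  suffices h : ∀ a : QuaternionGroup N, orderOf a = 2 → a = QuaternionGroup.a (N : ZMod (2 * N)) from
    fun a b ha hb => (h a ha).trans (h b hb).symm
  intro g hg
  cases g with
  | xa i => rw [QuaternionGroup.orderOf_xa] at hg; omega
  | a i =>
    have h2 := pow_orderOf_eq_one (QuaternionGroup.a i)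
    rw [hg, pow_two, QuaternionGroup.a_mul_a, ← QuaternionGroup.a_zero] at h2
    injection h2 with h2'
    have hi : i ≠ 0 := fun h => by
      rw [h, QuaternionGroup.a_zero, orderOf_one] at hg
      omega
    have hv : (2 * N) ∣ i.val + i.val := by
      rw [← CharP.cast_eq_zero_iff (ZMod (2 * N)) (2 * N)]
      push_cast
      rw [ZMod.natCast_zmod_val]
      exact h2'
    obtain ⟨c, hc⟩ := hv
    have hlt := ZMod.val_lt i
    have hpos : 0 < i.val := Nat.pos_of_ne_zero fun h => hi ((ZMod.val_eq_zero i).1 h)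
    have hc1 : c = 1 := by
      rcases c with _ | _ | c
      · omega
      · rfl
      · exfalso
        have h3 : 2 * N * 2 ≤ 2 * N * (c + 1 + 1) := Nat.mul_le_mul_left _ (by omega)
        omega
    subst hc1
    congr 1
    rw [← ZMod.natCast_zmod_val i]
    congr 1
    omega
/-- Let p be a prime and G a finite p-solvable group of order divisible by p, with Sylow p-subgroup P. Then the Sylow p-subgroups of G fail to be chain-connected through nontrivial intersections (equivalently, G has a strongly p-embedded subgroup) if and only if O_p(G) = 1 and P is cyclic or, for p = 2, generalized quaternion. -/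
theorem result {G : Type*} [Group G] [Finite G]
    (p : ℕ) [Fact p.Prime] (hdiv : p ∣ Nat.card G) (hsol : Cfsg.IsPSolvable p G) (P : Sylow p G) :
    ¬ Cfsg.IsSylowChainConnected p G ↔
      Cfsg.pCore p G = ⊥ ∧ (IsCyclic ↥P ∨ (p = 2 ∧ ∃ n : ℕ, Nonempty (↥P ≃* QuaternionGroup (2 ^ n)))) := by
  rw [Cfsg.Agent.S3056.result p]
  constructor
  · rintro ⟨H, hH, hpH, hse⟩
    have hspe := CfsgLib.StronglyPEmbedded.spe_of_forall_not_dvd hH hpH hse
    obtain ⟨S, hSH, -⟩ := CfsgLib.StronglyPEmbedded.exists_sylow_le hspe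
    have hnorm : ∀ X : Subgroup G, X.Normal → p ∣ Nat.card X → ¬ X ≤ H := by
      intro X hX hpX hXH
      refine hH (eq_top_iff.2 fun g _ => ?_)
      by_contra hg
      refine hse g hg (hpX.trans (Subgroup.card_dvd_of_le (le_inf hXH fun x hx => ?_)))
      exact ⟨g⁻¹ * x * g, hXH (by simpa using hX.conj_mem x hx g⁻¹), by simp [mul_assoc]⟩
    have hQ : Cfsg.pCore p G = ⊥ := by
      by_contra hne
      refine hnorm _ inferInstance ?_ ((CfsgLib.Cores.pCore_le_sylow S).trans hSH)
      exact ((CfsgLib.Cores.isPGroup_pCore p G).card_eq_or_dvd).resolve_left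
        fun h => hne (Subgroup.card_eq_one.1 h)
    refine ⟨hQ, ?_⟩
    set K := Cfsg.pPrimeCore p G with hK
    have hKc : (Nat.card K).Coprime p := CfsgLib.Cores.card_pPrimeCore_coprime p
    have hKtop : K ≠ ⊤ := fun h => by
      have h1 : Nat.card K = Nat.card G := by rw [h, Subgroup.card_top]
      exact (Fact.out : p.Prime).coprime_iff_not_dvd.1 hKc.symm (h1 ▸ hdiv)
    have hO : Cfsg.pCore p (G ⧸ K) ≠ ⊥ := by
      refine (CfsgLib.PSolvable.core_quotient_ne_bot hsol K hKtop).resolve_right fun h => h ?_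
      refine eq_bot_iff.2 fun y hy => ?_
      obtain ⟨g, rfl⟩ := QuotientGroup.mk'_surjective K y
      refine (QuotientGroup.eq_one_iff g).2 ?_
      have h' : g ∈ (Cfsg.pPrimeCore p (G ⧸ K)).comap (QuotientGroup.mk' K) := hy
      rwa [CfsgLib.Cores.comap_pPrimeCore_quotient K hKc] at h'
    have hPS : (S : Subgroup G) ⊓ Cfsg.pPrimePCore p G ≠ ⊥ := by
      intro h
      refine hO (eq_bot_iff.2 fun y hy => ?_)
      obtain ⟨g, rfl⟩ := QuotientGroup.mk'_surjective K y
      have hg : g ∈ Cfsg.pPrimePCore p G := hy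
      rw [CfsgLib.PushUp.pPrimePCore_eq_sup S, h, sup_bot_eq] at hg
      exact (QuotientGroup.eq_one_iff g).2 hg
    have hpX : p ∣ Nat.card ↥(Cfsg.pPrimePCore p G) := by
      refine ((CfsgLib.PushUp.isPGroup_inf_pPrimePCore S).card_eq_or_dvd.resolve_left
        fun h => hPS (Subgroup.card_eq_one.1 h)).trans (Subgroup.card_dvd_of_le inf_le_right)
    have hu : UniqueOrderP p ↥(S : Subgroup G) := by
      by_contra hu
      simp only [UniqueOrderP, not_forall] at hu
      obtain ⟨a, b, ha, hb, hab⟩ := hu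
      haveI : Nontrivial ↥(S : Subgroup G) := ⟨⟨a, 1, fun h => by
        rw [h, orderOf_one] at ha; exact (Fact.out : p.Prime).ne_one ha.symm⟩⟩
      haveI := S.2.center_nontrivial
      obtain ⟨⟨z, hz⟩, hzo⟩ := exists_prime_orderOf_dvd_card' (G := Subgroup.center ↥(S : Subgroup G)) p
        ((S.2.to_subgroup _).card_eq_or_dvd.resolve_left Finite.one_lt_card.ne')
      rw [Subgroup.orderOf_mk] at hzo
      obtain ⟨c, hc, hcz⟩ : ∃ c : ↥(S : Subgroup G), orderOf c = p ∧ c ∉ Subgroup.zpowers z := by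
        by_contra hall
        push Not at hall
        have heq : Subgroup.zpowers a = Subgroup.zpowers z :=
          Subgroup.eq_of_le_of_card_ge (Subgroup.zpowers_le.2 (hall a ha))
            (by rw [Nat.card_zpowers, Nat.card_zpowers, ha, hzo])
        exact hab (heq ▸ hall b hb)
      have hKH : K ≤ H := pPrime_normal_le hspe hSH hKc z.2 c.2
        ((Subgroup.orderOf_coe z).trans hzo) ((Subgroup.orderOf_coe c).trans hc)
        (congrArg Subtype.val (Subgroup.mem_center_iff.1 hz c).symm) (fun h => hcz (by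
          obtain ⟨i, hi⟩ := h
          exact ⟨i, Subtype.ext (by simpa using hi)⟩))
      refine hnorm _ CfsgLib.PushUp.pPrimePCore_normal' hpX ?_
      rw [CfsgLib.PushUp.pPrimePCore_eq_sup S]
      exact sup_le hKH (inf_le_left.trans hSH)
    obtain ⟨g, hg⟩ := MulAction.exists_smul_eq G P S
    have e : ↥(P : Subgroup G) ≃* ↥(S : Subgroup G) :=
      ((Subgroup.equivSMul (MulAut.conj g) (P : Subgroup G)).trans (MulEquiv.subgroupCongr (by
        rw [← hg, Sylow.coe_subgroup_smul])))
    rcases CfsgLib.TwoGroups.isCyclic_or_quaternion P.2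
      (CfsgLib.TwoGroups.UniqueOrderP.of_injective e.toMonoidHom e.injective hu) with h | ⟨h2, m, -, h⟩
    · exact Or.inl h
    · exact Or.inr ⟨h2, m, h⟩
  · rintro ⟨hQ, hP⟩
    have hu : UniqueOrderP p ↥(P : Subgroup G) := by
      rcases hP with hc | ⟨h2, n, ⟨e⟩⟩
      · haveI : IsCyclic ↥(P : Subgroup G) := hc
        refine CfsgLib.TwoGroups.uniqueOrderP_of_subgroup fun A B hA hB => ?_
        letI : CommGroup ↥(P : Subgroup G) := IsCyclic.commGroup
        obtain ⟨⟨c, hcAB⟩, hgen⟩ := (inferInstance : IsCyclic ↥(A ⊔ B)).exists_generator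
        have hcp : c ^ p = 1 := by
          obtain ⟨a, ha, b, hb, rfl⟩ := Subgroup.mem_sup.1 hcAB
          rw [mul_pow, orderOf_dvd_iff_pow_eq_one.1 ((Subgroup.orderOf_dvd_natCard _ ha).trans (dvd_of_eq hA)),
            orderOf_dvd_iff_pow_eq_one.1 ((Subgroup.orderOf_dvd_natCard _ hb).trans (dvd_of_eq hB)), mul_one]
        have hle : A ⊔ B ≤ Subgroup.zpowers c := fun y hy => by
          obtain ⟨i, hi⟩ := hgen ⟨y, hy⟩
          exact ⟨i, congrArg Subtype.val hi⟩
        have hcard : Nat.card ↥(A ⊔ B) ≤ p := (Subgroup.card_le_of_le hle).trans (by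
          rw [Nat.card_zpowers]
          exact Nat.le_of_dvd (Fact.out : p.Prime).pos (orderOf_dvd_of_pow_eq_one hcp))
        exact (Subgroup.eq_of_le_of_card_ge (le_sup_left : A ≤ A ⊔ B) (hcard.trans hA.ge)).trans
          (Subgroup.eq_of_le_of_card_ge (le_sup_right : B ≤ A ⊔ B) (hcard.trans hB.ge)).symm
      · haveI : NeZero (2 ^ n) := ⟨pow_ne_zero _ two_ne_zero⟩
        subst h2
        exact CfsgLib.TwoGroups.UniqueOrderP.of_injective e.toMonoidHom e.injective
          (uniqueOrderP_quaternion _)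
    obtain ⟨⟨z, hzP⟩, hzo⟩ := exists_prime_orderOf_dvd_card' (G := ↥(P : Subgroup G)) p
      (P.dvd_card_of_dvd_card hdiv)
    rw [Subgroup.orderOf_mk] at hzo
    have hz1 : z ≠ 1 := fun h => by
      rw [h, orderOf_one] at hzo; exact (Fact.out : p.Prime).ne_one hzo.symm
    set Z := Subgroup.zpowers z with hZ
    set H := Subgroup.normalizer (Z : Set G) with hH
    have hZp : IsPGroup p Z := IsPGroup.of_card (n := 1) (by rw [Nat.card_zpowers, hzo, pow_one])
    have hzH : z ∈ H := Subgroup.le_normalizer (Subgroup.mem_zpowers z)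
    refine ⟨H, fun h => hz1 ?_, hzo ▸ Subgroup.orderOf_dvd_natCard _ hzH, ?_⟩
    · haveI : Z.Normal := Subgroup.normalizer_eq_top_iff.1 h
      have := CfsgLib.Cores.le_pCore hZp (Subgroup.mem_zpowers z)
      rwa [hQ, Subgroup.mem_bot] at this
    intro g hg hd
    obtain ⟨⟨w, hw⟩, hwo⟩ := exists_prime_orderOf_dvd_card' p hd
    rw [Subgroup.orderOf_mk] at hwo
    obtain ⟨hwH, hwg⟩ := Subgroup.mem_inf.1 hw
    have key : ∀ w ∈ H, orderOf w = p → Subgroup.zpowers w = Z := by
      intro w hwH hwo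
      have hWp : IsPGroup p (Subgroup.zpowers w) :=
        IsPGroup.of_card (n := 1) (by rw [Nat.card_zpowers, hwo, pow_one])
      have hsup : IsPGroup p ↥(Subgroup.zpowers w ⊔ Z) :=
        hWp.to_sup_of_normal_right' hZp (Subgroup.zpowers_le.2 hwH)
      obtain ⟨T, hT⟩ := hsup.exists_le_sylow
      obtain ⟨s, hs⟩ := MulAction.exists_smul_eq G T P
      have hmem : ∀ v ∈ Subgroup.zpowers w ⊔ Z, s * v * s⁻¹ ∈ (P : Subgroup G) := fun v hv => by
        rw [← hs, Sylow.coe_subgroup_smul]
        exact Subgroup.smul_mem_pointwise_smul _ (MulAut.conj s) _ (hT hv)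
      have h1 := hu ⟨_, hmem w (Subgroup.mem_sup_left (Subgroup.mem_zpowers w))⟩
        ⟨_, hmem z (Subgroup.mem_sup_right (Subgroup.mem_zpowers z))⟩
        (by rw [Subgroup.orderOf_mk]; exact ((MulAut.conj s).orderOf_eq w).trans hwo)
        (by rw [Subgroup.orderOf_mk]; exact ((MulAut.conj s).orderOf_eq z).trans hzo)
      obtain ⟨i, hi⟩ := h1
      have hi' : (s * w * s⁻¹) ^ i = s * z * s⁻¹ := congrArg Subtype.val hi
      rw [conj_zpow, mul_left_inj, mul_right_inj] at hi'
      exact (Subgroup.eq_of_le_of_card_ge (Subgroup.zpowers_le.2 (Subgroup.mem_zpowers_iff.2 ⟨i, hi'⟩))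
        (by rw [Nat.card_zpowers, Nat.card_zpowers, hwo, hzo])).symm
    obtain ⟨v, hv, hvw⟩ := hwg
    have hvo : orderOf v = p := by
      rw [← hwo, ← hvw]
      exact ((MulAut.conj g).orderOf_eq v).symm
    refine hg (CfsgLib.PushUp.mem_normalizer_of_cmap_eq ?_)
    calc CfsgLib.PushUp.cmap g Z = CfsgLib.PushUp.cmap g (Subgroup.zpowers v) := by rw [key v hv hvo]
      _ = Subgroup.zpowers w := by rw [← hvw, CfsgLib.PushUp.cmap, MonoidHom.map_zpowers]
      _ = Z := key w hwH hwo
end Cfsg.Agent.S3057
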