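import Cfsg.Statements.S2289
import Cfsg.Agent.Lib.SU3Pres.Main

set_option autoImplicit false
open Cfsg

namespace Cfsg.Agent.S2289

/-- Let F be a field with q² elements, q ∉ {2, 3, 5}, and SU_3(q), PSU_3(q) the special unitary group of the standard Hermitian form and its central quotient. Then SU_3(q) has a presentation with 3 generators and at most 23 relations, and PSU_3(q) one with 3 generators and at most 24 relations. -/
theorem result {F : Type*} [Field F] [Fintype F] (q : ℕ) (hF : Fintype.card F = q ^ 2) (h2 : q ≠ 2) (h3 : q ≠ 3) (h5 : q ≠ 5) :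
    (∃ rels : Finset (FreeGroup (Fin 3)), rels.card ≤ 23 ∧ Nonempty (PresentedGroup (↑rels : Set (FreeGroup (Fin 3))) ≃* ↥(Cfsg.SU 3 F q))) ∧ (∃ rels : Finset (FreeGroup (Fin 3)), rels.card ≤ 24 ∧ Nonempty (PresentedGroup (↑rels : Set (FreeGroup (Fin 3))) ≃* Cfsg.PSU 3 F q)) := by
  obtain ⟨σ, h⟩ := CfsgLib.Amalgams.exists_uniField (F := F) (q := q) (by rw [Nat.card_eq_fintype_card, hF])
  obtain ⟨ψ⟩ := CfsgLib.Amalgams.exists_suAnti_equiv h
  have h1 := h.one_lt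
  obtain ⟨⟨R, hR, ⟨e⟩⟩, R', hR', ⟨e'⟩⟩ := CfsgLib.SU3Pres.presentation h (by omega) h5
  refine ⟨⟨R, hR, ⟨e.trans ψ⟩⟩, R', hR', ⟨e'.trans (QuotientGroup.congr _ _ ψ ?_)⟩⟩
  ext x
  simp only [Subgroup.mem_map, Subgroup.mem_center_iff]
  constructor
  · rintro ⟨y, hy, rfl⟩ z
    obtain ⟨z, rfl⟩ := ψ.surjective z
    show ψ z * ψ y = ψ y * ψ z
    rw [← map_mul, ← map_mul, hy z]
  · intro hx
    refine ⟨ψ.symm x, fun z => ψ.injective ?_, ψ.apply_symm_apply x⟩
    rw [map_mul, map_mul, ψ.apply_symm_apply, hx]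

end Cfsg.Agent.S2289
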