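import Cfsg.Statements.S0925
import Cfsg.Agent.Lib.Blocks.Orth

set_option autoImplicit false
open Cfsg

namespace Cfsg.Agent.S0925

/-- (i) Let ϑ be a class function on the finite group G and x a p-element, and suppose ϑ vanishes at every element whose p-part is conjugate to x. Then for every block B (relative to a maximal ideal M of the algebraic integers containing p) the B-part of ϑ — the sum over χ ∈ B of the inner product of ϑ with χ, times χ — also vanishes at every such element. (ii) Block orthogonality, its corollary: if the p-parts of g and h are not conjugate, then the sum over χ ∈ B of χ g * χ h⁻¹ is zero for every block B. -/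
theorem result {G : Type*} [Group G] [Finite G] (p : ℕ) [Fact p.Prime] (M : Ideal Cfsg.AlgInt) (hM : Cfsg.IsPModular p M) : (∀ (ϑ : G → ℂ), Cfsg.IsClassFunction G ϑ → ∀ x : G, (∃ k : ℕ, orderOf x = p ^ k) → (∀ u z : G, Cfsg.IsPPart p u z → IsConj x z → ϑ u = 0) → ∀ B : Set (Cfsg.IrrCharacter G), Cfsg.IsPBlock M B → ∀ u z : G, Cfsg.IsPPart p u z → IsConj x z → Cfsg.blockPart B ϑ u = 0) ∧ (∀ g h x y : G, Cfsg.IsPPart p g x → Cfsg.IsPPart p h y → ¬ IsConj x y → ∀ B : Set (Cfsg.IrrCharacter G), Cfsg.IsPBlock M B → ∑ᶠ χ ∈ B, (χ : G → ℂ) g * (χ : G → ℂ) h⁻¹ = 0) := by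
  classical
  haveI := CfsgLib.Blocks.isPrime_of_isPModular hM
  haveI := Fintype.ofFinite G
  refine ⟨?_, fun g h x y hg hh hne B hB =>
    CfsgLib.Blocks.finsum_mul_eq_zero_of_isPBlock hM hB hg hh hne⟩
  intro ϑ _ x _ hϑ B hB u z huz hxz
  haveI := Fintype.ofFinite (Cfsg.IrrCharacter G)
  unfold Cfsg.blockPart
  simp only [Cfsg.classInner]
  rw [CfsgLib.Blocks.finsum_mem_irr_eq_sum]
  simp only [Finset.mul_sum, Finset.sum_mul, Finset.ite_sum_zero]
  rw [Finset.sum_comm]
  refine Finset.sum_eq_zero fun v _ => ?_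
  obtain ⟨z', hv⟩ := CfsgLib.Blocks.exists_isPPart p v
  by_cases hc : IsConj x z'
  · refine Finset.sum_eq_zero fun χ _ => ?_
    rw [hϑ v z' hv hc]
    simp
  · have key := CfsgLib.Blocks.sum_mul_eq_zero_of_isPBlock hM hB huz hv
      fun h => hc (hxz.trans h)
    have h2 : ∀ χ : Cfsg.IrrCharacter G, (if χ ∈ B then
        (Nat.card G : ℂ)⁻¹ * (ϑ v * (starRingEnd ℂ) ((χ : G → ℂ) v)) * (χ : G → ℂ) u else 0) =
        (Nat.card G : ℂ)⁻¹ * ϑ v *
          (if χ ∈ B then (χ : G → ℂ) u * (χ : G → ℂ) v⁻¹ else 0) := fun χ => by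
      rw [CfsgLib.CharTheory.IsIrrCharacter.inv χ.2]
      split_ifs <;> ring
    rw [Finset.sum_congr rfl fun χ _ => h2 χ, ← Finset.mul_sum, key, mul_zero]

end Cfsg.Agent.S0925
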