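import Cfsg.Statements.S4676
import Cfsg.Agent.Lib.BrauerCharacters.Consequences
import Cfsg.Agent.S0908

set_option autoImplicit false
open Cfsg

namespace Cfsg.Agent.S4676

/-- Fix a prime p and a maximal ideal M of the algebraic integers containing p. Let B be a p-block of the finite group G with defect group P. For χ in B, let the height of χ be the exponent of p in the degree of χ minus the least such exponent over the members of B. Then the sum over χ in B of p raised to twice the height of χ is at most the integer part of (order of P)²/4, plus 1; in particular B has at most that many irreducible characters. -/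
theorem result {G : Type*} [Group G] [Fintype G] (p : ℕ) [Fact p.Prime] (M : Ideal Cfsg.AlgInt) (hM : Cfsg.IsPModular p M) (B : Set (Cfsg.IrrCharacter G)) (hB : Cfsg.IsPBlock M B) (P : Subgroup G) (hP : Cfsg.IsDefectGroup p M B P) : ∑ᶠ χ ∈ B, p ^ (2 * Cfsg.blockHeight p B (χ : G → ℂ)) ≤ Nat.card P ^ 2 / 4 + 1 := by
  classical
  haveI := CfsgLib.Blocks.isPrime_of_isPModular hM
  have hw := CfsgLib.BrauerCharacters.weakOrth (p := p) hM hB
  obtain ⟨j, hj, hj0⟩ := CfsgLib.BrauerCharacters.exists_height_eq_zero (p := p) (B := B)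
    (CfsgLib.Blocks.isPBlock_nonempty hB)
  set d := Cfsg.blockDefect p B with hd
  have hcard : Nat.card P = p ^ d := Cfsg.Agent.S0908.result p M hM B hB P hP
  set F := CfsgLib.BrauerCharacters.blockFinset B
  set e := CfsgLib.BrauerCharacters.regEntry p B
  have hjF : j ∈ F := CfsgLib.BrauerCharacters.mem_blockFinset.2 hj
  have h1 := CfsgLib.BrauerCharacters.sum_regEntry_sq hw hj
  rw [← Finset.add_sum_erase _ _ hjF] at h1
  have hrow : ∀ ψ ∈ F.erase j,
      ((p : ℤ) ^ (2 * Cfsg.blockHeight p B (ψ : G → ℂ))) ≤ e j ψ ^ 2 := by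
    intro ψ hψ
    have hψB := CfsgLib.BrauerCharacters.mem_blockFinset.1 (Finset.mem_of_mem_erase hψ)
    have h2 := CfsgLib.BrauerCharacters.pow_height_dvd (p := p) hψB j
    have h3 := CfsgLib.BrauerCharacters.regEntry_ne_zero hw hM hB hψB hj hj0
    simp only [e]
    rw [CfsgLib.BrauerCharacters.regEntry_comm j ψ, mul_comm 2, pow_mul]
    refine sq_le_sq.2 ?_
    rw [abs_of_nonneg (pow_nonneg (Int.natCast_nonneg p) _)]
    exact Int.le_of_dvd (abs_pos.2 h3) ((dvd_abs _ _).2 h2)
  have h4 : 4 * ∑ ψ ∈ F.erase j, (p : ℤ) ^ (2 * Cfsg.blockHeight p B (ψ : G → ℂ)) ≤ ((p : ℤ) ^ d) ^ 2 := by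
    refine le_trans (mul_le_mul_of_nonneg_left (Finset.sum_le_sum hrow) (by norm_num)) ?_
    rw [show ∑ ψ ∈ F.erase j, e j ψ ^ 2 = (p : ℤ) ^ d * e j j - e j j ^ 2 by
      simp only [e, hd]; rw [← h1]; ring]
    exact CfsgLib.BrauerCharacters.four_mul_mul_sub_le _ _
  rw [CfsgLib.BrauerCharacters.finsum_mem_eq_sum_blockFinset, ← Finset.add_sum_erase _ _ hjF, hj0,
    hcard, mul_zero, pow_zero, add_comm]
  refine Nat.add_le_add_right ?_ 1
  rw [Nat.le_div_iff_mul_le (by norm_num), mul_comm]
  exact_mod_cast h4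

end Cfsg.Agent.S4676
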