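import Cfsg.Statements.S4607
import Cfsg.Agent.Lib.BrauerCharacters.BlockAlgebra
import Cfsg.Agent.Lib.BrauerCharacters.Rank
import Cfsg.Agent.S0908
import Cfsg.Agent.S4676

set_option autoImplicit false
open Cfsg

namespace Cfsg.Agent.S4607

/-- Let G be a finite group, p a prime, M a maximal ideal of the algebraic integers containing p, and B a p-block of G with defect group D. Then B contains exactly two irreducible characters if and only if D has order 2. -/
theorem result {G : Type*} [Group G] [Finite G] (p : ℕ) [Fact p.Prime] (M : Ideal Cfsg.AlgInt) (hM : Cfsg.IsPModular p M) (B : Set (Cfsg.IrrCharacter G)) (hB : Cfsg.IsPBlock M B) (D : Subgroup G) (hD : Cfsg.IsDefectGroup p M B D) : Nat.card B = 2 ↔ Nat.card D = 2 := by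
  classical
  haveI := CfsgLib.Blocks.isPrime_of_isPModular hM
  haveI := Fintype.ofFinite G
  have hw := CfsgLib.BrauerCharacters.weakOrth (p := p) hM hB
  have hne := CfsgLib.Blocks.isPBlock_nonempty hB
  set d := Cfsg.blockDefect p B with hd
  have hcard : Nat.card D = p ^ d := Cfsg.Agent.S0908.result p M hM B hB D hD
  constructor
  · intro hk
    obtain ⟨n, hn⟩ := CfsgLib.BrauerCharacters.exists_sum_degree_sq_eq_two_mul_sq hM hB hk
    obtain ⟨j, hj, hj0⟩ := CfsgLib.BrauerCharacters.exists_height_eq_zero (p := p) hne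
    -- the defect is positive and the rank is one
    have hdpos : 0 < d := by
      by_contra h
      have hsing := CfsgLib.BrauerCharacters.eq_singleton_of_defect_zero hw hM hB
        (Nat.eq_zero_of_not_pos h)
      omega
    have hl : Cfsg.blockRank p B = 1 := by
      have h1 := CfsgLib.BrauerCharacters.blockRank_pos (p := p) hne
      have h2 : Cfsg.blockRank p B ≤ Nat.card B := CfsgLib.BrauerCharacters.blockRank_le_card
      rcases Nat.lt_or_ge (Cfsg.blockRank p B) 2 with h | h
      · omega
      · have := CfsgLib.BrauerCharacters.defect_zero_of_card_eq_rank hw hM hB (by omega)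
        omega
    set F := CfsgLib.BrauerCharacters.blockFinset B with hF
    have hFc : F.card = 2 := by rw [hF, CfsgLib.BrauerCharacters.card_blockFinset, hk]
    have hjF : j ∈ F := CfsgLib.BrauerCharacters.mem_blockFinset.2 hj
    obtain ⟨χ, hχ⟩ := Finset.card_eq_one.1
      (by rw [Finset.card_erase_of_mem hjF, hFc] : (F.erase j).card = 1)
    have hχF : χ ∈ F ∧ χ ≠ j := by
      have : χ ∈ F.erase j := by rw [hχ]; exact Finset.mem_singleton_self χ
      exact ⟨Finset.mem_of_mem_erase this, Finset.ne_of_mem_erase this⟩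
    have hχB := CfsgLib.BrauerCharacters.mem_blockFinset.1 hχF.1
    have hFeq : F = {χ, j} := by
      rw [← Finset.insert_erase hjF, hχ, Finset.pair_comm]
    -- the entries
    set a := CfsgLib.BrauerCharacters.regEntry p B χ χ with ha
    set b := CfsgLib.BrauerCharacters.regEntry p B χ j with hb
    set c := CfsgLib.BrauerCharacters.regEntry p B j j with hc
    have hsum : a + c = (p : ℤ) ^ d := by
      have h := CfsgLib.BrauerCharacters.sum_regInner_self_eq_blockRank (p := p) hw
      rw [← hF, hFeq, Finset.sum_pair hχF.2, hl] at h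
      have h1 : ((a + c : ℤ) : ℂ) = (((p : ℤ) ^ d : ℤ) : ℂ) := by
        push_cast [ha, hc]
        rw [CfsgLib.BrauerCharacters.coe_regEntry hχB, CfsgLib.BrauerCharacters.coe_regEntry hj,
          ← mul_add, h, ← hd]
        simp
      exact_mod_cast h1
    have hsq := CfsgLib.BrauerCharacters.sum_regEntry_sq (p := p) hw hχB
    rw [← hF, hFeq, Finset.sum_pair hχF.2, ← ha, ← hb, ← hd] at hsq
    have hac : a * c = b ^ 2 := by linear_combination a * hsum - hsq
    have hpc : ¬ (p : ℤ) ∣ c := by
      have := CfsgLib.BrauerCharacters.not_pow_succ_height_dvd hw hM hB hj hj hj0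
      rwa [hj0, zero_add, pow_one] at this
    have hpd : (p : ℤ) ∣ (p : ℤ) ^ d := dvd_pow_self _ hdpos.ne'
    have hpa : ¬ (p : ℤ) ∣ a := fun h => hpc ((dvd_add_right h).1 (hsum ▸ hpd))
    have hcop : IsCoprime a c := by
      have h1 : IsCoprime a ((p : ℤ) ^ d) :=
        ((Nat.prime_iff_prime_int.1 (Fact.out : p.Prime)).coprime_iff_not_dvd.2 hpa).symm.pow_right
      rw [← hsum] at h1
      simpa using h1.add_mul_left_right (-1)
    have hapos : 0 < a := CfsgLib.BrauerCharacters.regEntry_self_pos hw hM hB hχB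
    have hcpos : 0 < c := CfsgLib.BrauerCharacters.regEntry_self_pos hw hM hB hj
    obtain ⟨x, hx⟩ : IsSquare a := by
      obtain ⟨x, hx⟩ := Int.sq_of_isCoprime hcop hac
      rcases hx with hx | hx
      · exact ⟨x, by rw [hx, sq]⟩
      · have := sq_nonneg x; omega
    obtain ⟨z, hz⟩ : IsSquare c := by
      obtain ⟨z, hz⟩ := Int.sq_of_isCoprime hcop.symm (show c * a = b ^ 2 by rw [mul_comm, hac])
      rcases hz with hz | hz
      · exact ⟨z, by rw [hz, sq]⟩
      · have := sq_nonneg z; omega
    -- the degrees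
    obtain ⟨-, hu0, -⟩ := CfsgLib.BrauerCharacters.charDegree_spec χ
    set u := Cfsg.charDegree (χ : G → ℂ) with hu
    set v := Cfsg.charDegree (j : G → ℂ) with hv
    have hdeg : (p : ℤ) ^ d * u = a * u + b * v := by
      have h := congrFun (CfsgLib.BrauerCharacters.pRegularPart_eq_sum_block (p := p) hw hχB) 1
      simp only [Finset.sum_apply, Pi.smul_apply, smul_eq_mul] at h
      rw [← hF, hFeq, Finset.sum_pair hχF.2,
        CfsgLib.BrauerCharacters.pRegularPart_apply, orderOf_one,
        if_neg (Fact.out : p.Prime).not_dvd_one,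
        (CfsgLib.BrauerCharacters.charDegree_spec χ).1, (CfsgLib.BrauerCharacters.charDegree_spec j).1] at h
      have h1 : (((p : ℤ) ^ d * u : ℤ) : ℂ) = ((a * u + b * v : ℤ) : ℂ) := by
        push_cast [ha, hb]
        rw [CfsgLib.BrauerCharacters.coe_regEntry hχB, CfsgLib.BrauerCharacters.coe_regEntry hχB,
          ← hd, hu, hv]
        linear_combination (p : ℂ) ^ d * h
      exact_mod_cast h1
    have hcu : c * (u : ℤ) = b * v := by linear_combination hdeg + (u : ℤ) * hsum
    have hrel : c * (u : ℤ) ^ 2 = a * (v : ℤ) ^ 2 := by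
      have h1 : c * (c * (u : ℤ) ^ 2) = c * (a * (v : ℤ) ^ 2) := by
        linear_combination (c * u + b * v) * hcu - (v : ℤ) ^ 2 * hac
      exact mul_left_cancel₀ hcpos.ne' h1
    have hS : (u : ℤ) ^ 2 + (v : ℤ) ^ 2 = 2 * (n : ℤ) ^ 2 := by
      rw [CfsgLib.BrauerCharacters.finsum_mem_eq_sum_blockFinset, ← hF, hFeq,
        Finset.sum_pair hχF.2, ← hu, ← hv] at hn
      exact_mod_cast hn
    have hkey : (p : ℤ) ^ d * (u : ℤ) ^ 2 = 2 * x ^ 2 * (n : ℤ) ^ 2 := by
      linear_combination hrel + a * hS - (u : ℤ) ^ 2 * hsum + 2 * (n : ℤ) ^ 2 * hx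
    have hp2 : p = 2 := by
      by_contra hp
      have hodd : ¬ 2 ∣ p := fun h =>
        hp ((Nat.prime_dvd_prime_iff_eq Nat.prime_two Fact.out).1 h).symm
      have hx0 : x.natAbs ≠ 0 := fun h => by
        rw [Int.natAbs_eq_zero.1 h, mul_zero] at hx; omega
      have hn0 : n ≠ 0 := fun h => by
        subst h; push_cast at hS; nlinarith [sq_nonneg (v : ℤ), (Nat.cast_pos (α := ℤ)).2 hu0]
      have h1 := congrArg Int.natAbs hkey
      simp only [Int.natAbs_mul, Int.natAbs_pow, Int.natAbs_natCast,
        show Int.natAbs 2 = 2 from rfl] at h1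
      have h2 := congrArg (fun m : ℕ => m.factorization 2) h1
      have e1 : (p ^ d * u ^ 2).factorization 2 = 2 * u.factorization 2 := by
        rw [Nat.factorization_mul (pow_ne_zero _ (Fact.out : p.Prime).ne_zero)
          (pow_ne_zero _ hu0.ne'), Finsupp.add_apply, Nat.factorization_pow, Nat.factorization_pow,
          Finsupp.smul_apply, Finsupp.smul_apply, Nat.factorization_eq_zero_of_not_dvd hodd,
          smul_eq_mul, smul_eq_mul, mul_zero, zero_add]
      have e2 : (2 * x.natAbs ^ 2 * n ^ 2).factorization 2 =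
          1 + 2 * x.natAbs.factorization 2 + 2 * n.factorization 2 := by
        rw [Nat.factorization_mul (mul_ne_zero two_ne_zero (pow_ne_zero _ hx0)) (pow_ne_zero _ hn0),
          Nat.factorization_mul two_ne_zero (pow_ne_zero _ hx0), Finsupp.add_apply,
          Finsupp.add_apply, Nat.factorization_pow, Nat.factorization_pow, Finsupp.smul_apply,
          Finsupp.smul_apply, Nat.prime_two.factorization_self, smul_eq_mul, smul_eq_mul]
      simp only [e1, e2] at h2
      omega
    subst hp2
    rw [hcard]
    have hxo : Odd x := by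
      rcases Int.even_or_odd x with h | h
      · exact absurd (hx ▸ (even_iff_two_dvd.1 h).mul_right x) (by simpa using hpa)
      · exact h
    have hzo : Odd z := by
      rcases Int.even_or_odd z with h | h
      · exact absurd (hz ▸ (even_iff_two_dvd.1 h).mul_right z) (by simpa using hpc)
      · exact h
    have hd1 : d = 1 := by
      by_contra hne1
      have h4 : (4 : ℤ) ∣ 2 ^ d := by
        rw [show (4 : ℤ) = 2 ^ 2 by norm_num]; exact pow_dvd_pow _ (by omega)
      obtain ⟨i, rfl⟩ := hxo
      obtain ⟨l, rfl⟩ := hzo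
      obtain ⟨w, hw'⟩ := h4
      have h5 : (4 : ℤ) * w = 4 * (i * i + i + l * l + l) + 2 := by
        rw [← hw']; push_cast at hsum; rw [← hsum, hx, hz]; ring
      omega
    rw [hd1, pow_one]
  · intro h2
    rw [hcard] at h2
    obtain ⟨hd1, hp2⟩ : d = 1 ∧ p = 2 := by
      have hp : p ∣ 2 := by
        rw [← h2]
        refine dvd_pow_self p fun h => ?_
        rw [h] at h2; norm_num at h2
      have hp2 := (Nat.prime_dvd_prime_iff_eq Fact.out Nat.prime_two).1 hp
      refine ⟨Nat.pow_right_injective le_rfl ?_, hp2⟩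
      rw [hp2] at h2
      simpa using h2
    have hle : Nat.card B ≤ 2 := by
      have h := Cfsg.Agent.S4676.result p M hM B hB D hD
      rw [hcard, hd1, hp2, CfsgLib.BrauerCharacters.finsum_mem_eq_sum_blockFinset] at h
      have h1 : (CfsgLib.BrauerCharacters.blockFinset B).card ≤
          ∑ χ ∈ CfsgLib.BrauerCharacters.blockFinset B,
            2 ^ (2 * Cfsg.blockHeight p B (χ : G → ℂ)) := by
        rw [Finset.card_eq_sum_ones]
        exact Finset.sum_le_sum fun χ _ => Nat.one_le_two_pow
      rw [CfsgLib.BrauerCharacters.card_blockFinset, hp2] at h1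
      norm_num at h
      omega
    rcases Nat.lt_or_ge (Nat.card B) 2 with h | h
    · exfalso
      have h1 := CfsgLib.BrauerCharacters.blockRank_pos (p := p) hne
      have h3 : Cfsg.blockRank p B ≤ Nat.card B := CfsgLib.BrauerCharacters.blockRank_le_card
      have := CfsgLib.BrauerCharacters.defect_zero_of_card_eq_rank hw hM hB (by omega)
      omega
    · omega

end Cfsg.Agent.S4607
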