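import Cfsg.Statements.S4201
import Mathlib

set_option autoImplicit false
open Cfsg

namespace Cfsg.Agent.S4201
/-- number of elements of `s` commuting with `a` -/
private noncomputable def cnt {X : Type*} [Group X] [Fintype X] [DecidableEq X] (s : Finset X) (a : X) : ℕ :=
  {b ∈ s | a * b = b * a}.card

private theorem sum_cnt {X : Type*} [Group X] [Fintype X] [DecidableEq X] :
    ∑ a : X, cnt Finset.univ a = Nat.card (ConjClasses X) * Nat.card X := by
  rw [← card_comm_eq_card_conjClasses_mul_card,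
    Nat.card_congr (β := (a : X) × {b : X // a * b = b * a})
      { toFun := fun p => ⟨p.1.1, p.1.2, p.2⟩, invFun := fun p => ⟨(p.1, p.2.1), p.2.2⟩,
        left_inv := fun _ => rfl, right_inv := fun _ => rfl }, Nat.card_eq_fintype_card, Fintype.card_sigma]
  refine Finset.sum_congr rfl fun a _ => ?_
  rw [Fintype.card_subtype]
  rfl

private theorem sum_cnt_subgroup {X : Type*} [Group X] [Fintype X] [DecidableEq X] (Y : Subgroup X) [Fintype Y]
    (s : Finset X) (hs : ∀ x, x ∈ s ↔ x ∈ Y) :
    ∑ a ∈ s, cnt s a = Nat.card (ConjClasses Y) * Nat.card Y := by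
  rw [← sum_cnt]
  refine (Finset.sum_bij (fun (a : Y) _ => (a : X)) (fun a _ => (hs _).mpr a.2)
    (fun a _ b _ h => Subtype.ext h) (fun b hb => ⟨⟨b, (hs b).mp hb⟩, Finset.mem_univ _, rfl⟩)
    fun a _ => ?_).symm
  refine Finset.card_bij (fun (b : Y) _ => (b : X)) (fun b hb => ?_) (fun a _ b _ h => Subtype.ext h)
    fun b hb => ?_
  · rw [Finset.mem_filter] at hb ⊢
    exact ⟨(hs _).mpr b.2, congrArg Subtype.val hb.2⟩
  · rw [Finset.mem_filter] at hb
    exact ⟨⟨b, (hs b).mp hb.1⟩, Finset.mem_filter.mpr ⟨Finset.mem_univ _, Subtype.ext hb.2⟩, rfl⟩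

private theorem sum_cnt_swap {X : Type*} [Group X] [Fintype X] [DecidableEq X] (s t : Finset X) :
    ∑ a ∈ s, cnt t a = ∑ b ∈ t, cnt s b := by
  simp only [cnt, Finset.card_filter]
  rw [Finset.sum_comm]
  exact Finset.sum_congr rfl fun b _ => Finset.sum_congr rfl fun a _ => by
    simp only [eq_comm (a := a * b)]


/-- If N is a normal subgroup of the finite group X then k(X) ≤ k(N)·k(X ⧸ N), where k denotes the number of conjugacy classes. -/
theorem result {X : Type*} [Group X] [Finite X] (N : Subgroup X) [N.Normal] : Nat.card (ConjClasses X) ≤ Nat.card (ConjClasses N) * Nat.card (ConjClasses (X ⧸ N)) := by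
  classical
  cases nonempty_fintype X
  haveI : Fintype (X ⧸ N) := Fintype.ofFinite _
  set π : X → X ⧸ N := QuotientGroup.mk with hπ
  set Ns : Finset X := Finset.univ.filter (· ∈ N) with hNs
  have hNs' : ∀ x, x ∈ Ns ↔ x ∈ N := fun x => by simp [hNs]
  set co : X ⧸ N → Finset X := fun q => Finset.univ.filter (fun x => π x = q) with hco
  -- commuting elements of a coset correspond to commuting elements of `N`
  have step1 : ∀ (a : X) (q : X ⧸ N), cnt (co q) a ≤ cnt Ns a := by
    intro a q
    rcases Finset.eq_empty_or_nonempty ((co q).filter fun b => a * b = b * a) with h | ⟨b0, hb0⟩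
    · simp [cnt, h]
    refine Finset.card_le_card_of_injOn (fun b => b0⁻¹ * b) (fun b hb => ?_)
      (fun x _ y _ h => mul_left_cancel h)
    simp only [Finset.coe_filter, Set.mem_setOf_eq, hco, Finset.mem_filter, Finset.mem_univ, true_and] at hb hb0
    simp only [Finset.coe_filter, Set.mem_setOf_eq, hNs']
    refine ⟨QuotientGroup.eq.mp (hb0.1.trans hb.1.symm), ?_⟩
    have h1 : a * b0⁻¹ = b0⁻¹ * a := (Commute.inv_right (show Commute a b0 from hb0.2)).eq
    rw [← mul_assoc, h1, mul_assoc, hb.2, mul_assoc]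
  have step2 : ∀ p q : X ⧸ N, ∑ a ∈ co p, cnt (co q) a ≤
      (if p * q = q * p then 1 else 0) * (Nat.card (ConjClasses N) * Nat.card N) := by
    intro p q
    split_ifs with hpq
    · rw [one_mul, ← sum_cnt_subgroup N Ns hNs']
      calc ∑ a ∈ co p, cnt (co q) a ≤ ∑ a ∈ co p, cnt Ns a := Finset.sum_le_sum fun a _ => step1 a q
        _ = ∑ n ∈ Ns, cnt (co p) n := sum_cnt_swap _ _
        _ ≤ ∑ n ∈ Ns, cnt Ns n := Finset.sum_le_sum fun n _ => step1 n p
    · rw [zero_mul, nonpos_iff_eq_zero]
      refine Finset.sum_eq_zero fun a ha => ?_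
      rw [cnt, Finset.card_eq_zero, Finset.filter_eq_empty_iff]
      intro b hb hab
      simp only [hco, Finset.mem_filter] at ha hb
      apply hpq
      rw [← ha.2, ← hb.2, hπ]
      exact congrArg (QuotientGroup.mk : X → X ⧸ N) hab
  have main : Nat.card (ConjClasses X) * Nat.card X ≤
      Nat.card (ConjClasses N) * Nat.card (ConjClasses (X ⧸ N)) * Nat.card X := by
    rw [← sum_cnt]
    have hsplit : ∀ a : X, cnt Finset.univ a = ∑ q : X ⧸ N, cnt (co q) a := fun a => by
      simp only [cnt, hco, Finset.filter_filter]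
      rw [Finset.card_eq_sum_card_fiberwise (f := π) (t := Finset.univ) (fun _ _ => Finset.mem_univ _)]
      refine Finset.sum_congr rfl fun q _ => ?_
      congr 1; ext x; simp [and_comm]
    rw [Finset.sum_congr rfl fun a _ => hsplit a, ← Finset.sum_fiberwise Finset.univ π]
    calc ∑ p : X ⧸ N, ∑ a ∈ co p, ∑ q : X ⧸ N, cnt (co q) a
        = ∑ p : X ⧸ N, ∑ q : X ⧸ N, ∑ a ∈ co p, cnt (co q) a :=
          Finset.sum_congr rfl fun p _ => Finset.sum_comm
      _ ≤ ∑ p : X ⧸ N, ∑ q : X ⧸ N,
          (if p * q = q * p then 1 else 0) * (Nat.card (ConjClasses N) * Nat.card N) :=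
          Finset.sum_le_sum fun p _ => Finset.sum_le_sum fun q _ => step2 p q
      _ = (∑ p : X ⧸ N, cnt Finset.univ p) * (Nat.card (ConjClasses N) * Nat.card N) := by
          simp only [cnt, Finset.card_filter, Finset.sum_mul]
      _ = _ := by
          rw [sum_cnt, Subgroup.card_eq_card_quotient_mul_card_subgroup N]; ring
  exact Nat.le_of_mul_le_mul_right main Nat.card_pos

end Cfsg.Agent.S4201
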