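import Cfsg.Statements.S4958
import Cfsg.Agent.Lib.Jordan.KnorrForm
import Cfsg.Agent.Lib.Jordan.AbelianNormal
import Cfsg.Agent.Lib.CharTheory.Linear

set_option autoImplicit false
set_option linter.style.haveILetI false
open Cfsg

namespace Cfsg.Agent.S4958

/-- The projection onto the `l`-eigenspace of a finite abelian subgroup, followed by a commuting
element, has integral trace. -/
theorem isIntegral_trace_proj {X : Type*} [Group X] [Finite X] (A : Subgroup X) [Fintype A]
    (hA : ∀ a b : A, a * b = b * a) (l : A →* ℂˣ) (v : X) (hv : ∀ a : A, Commute v a) {χ : X → ℂ}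
    (hχ : IsCharacter X χ) :
    IsIntegral ℤ ((Nat.card A : ℂ)⁻¹ * ∑ a : A, χ (v * a) * (l a⁻¹ : ℂ)) := by
  obtain ⟨n, ρ, rfl⟩ := hχ
  set e := CfsgLib.Clifford.eig ρ A l with he
  have hee : e * e = e := by
    conv_lhs => arg 1; rw [he, CfsgLib.Clifford.eig]
    rw [smul_mul_assoc, Finset.sum_mul]
    simp only [smul_mul_assoc, he, CfsgLib.Clifford.mul_eig, smul_smul, Units.inv_mul, one_smul,
      Finset.sum_const, Finset.card_univ, ← Nat.card_eq_fintype_card]
    rw [← Nat.cast_smul_eq_nsmul ℂ, smul_smul, inv_mul_cancel₀ (Nat.cast_ne_zero.2 Nat.card_pos.ne'),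
      one_smul]
  have hc : Commute (ρ v) e := by
    rw [he, CfsgLib.Clifford.eig]
    refine Commute.smul_right (Commute.sum_right _ _ _ fun a _ => Commute.smul_right ?_ _) _
    exact (hv a).map ρ
  have hpow : (ρ v * e) ^ (orderOf v + 1) = ρ v * e := by
    rw [hc.mul_pow, ← map_pow, pow_succ, pow_orderOf_eq_one, one_mul, IsIdempotentElem.pow_succ_eq]
    exact hee
  have := CfsgLib.BlockLocal.isIntegral_trace_of_pow_succ_eq _ (orderOf_pos v) hpow
  convert this using 1
  conv_rhs => rw [he, CfsgLib.Clifford.eig, mul_smul_comm, Finset.mul_sum, map_smul, map_sum, smul_eq_mul]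
  congr 1
  refine Finset.sum_congr rfl fun a _ => ?_
  rw [mul_smul_comm, map_smul, smul_eq_mul, mul_comm, map_inv, ← map_mul]
  rfl

/-- Kernels of a composition series for an abelian group of automorphisms of coprime order, with the
bound on fixed points. -/
theorem exists_kernels {X : Type*} [Group X] [Finite X] (V H : Subgroup X)
    (hVab : ∀ a ∈ V, ∀ b ∈ V, a * b = b * a) {p : ℕ} [hp : Fact p.Prime]
    (hVexp : ∀ v ∈ V, v ^ p = 1) (hHab : ∀ a ∈ H, ∀ b ∈ H, a * b = b * a) (hH : ¬ p ∣ Nat.card H) :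
    ∀ U : Subgroup X, U ≤ V → (∀ h ∈ H, ∀ u ∈ U, h * u * h⁻¹ ∈ U) →
      ∃ (r : ℕ) (K : Fin r → Subgroup H),
        (∀ h : H, (∀ i, h ∈ K i) → ∀ u ∈ U, (h : X) * u * (h : X)⁻¹ = u) ∧
        ∀ h : H, ∀ [∀ i, Decidable (h ∈ K i)], (∏ i, if h ∈ K i then 1 else (K i).index + 1) *
          Nat.card ↥(U ⊓ Subgroup.centralizer ({(h : X)} : Set X)) ≤ Nat.card U := by
  classical
  suffices hsuff : ∀ N (U : Subgroup X), Nat.card U = N → U ≤ V →
      (∀ h ∈ H, ∀ u ∈ U, h * u * h⁻¹ ∈ U) →
      ∃ (r : ℕ) (K : Fin r → Subgroup H),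
        (∀ h : H, (∀ i, h ∈ K i) → ∀ u ∈ U, (h : X) * u * (h : X)⁻¹ = u) ∧
        ∀ h : H, ∀ [∀ i, Decidable (h ∈ K i)], (∏ i, if h ∈ K i then 1 else (K i).index + 1) *
          Nat.card ↥(U ⊓ Subgroup.centralizer ({(h : X)} : Set X)) ≤ Nat.card U from
    fun U => hsuff _ U rfl
  intro N
  induction N using Nat.strong_induction_on with
  | _ N ih =>
  intro U hN hUV hU
  rcases eq_or_ne U ⊥ with rfl | hbot
  · refine ⟨0, Fin.elim0, fun h _ u hu => by simp [Subgroup.mem_bot.1 hu], fun h _ => ?_⟩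
    simp only [Fin.prod_univ_zero, one_mul]
    exact Subgroup.card_le_of_le inf_le_left
  -- a maximal invariant proper subgroup
  obtain ⟨W, ⟨hWlt, hW⟩, hmax⟩ :=
    Set.Finite.exists_maximal (Set.toFinite {W : Subgroup X | W < U ∧ ∀ h ∈ H, ∀ u ∈ W, h * u * h⁻¹ ∈ W})
      ⟨⊥, bot_lt_iff_ne_bot.2 hbot, fun h _ u hu => by simp [Subgroup.mem_bot.1 hu]⟩
  have hWU : W ≤ U := hWlt.le
  haveI hWn : (W.subgroupOf U).Normal := ⟨fun w hw u => by
    rw [Subgroup.mem_subgroupOf] at hw ⊢
    simp only [Subgroup.coe_mul, Subgroup.coe_inv]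
    rw [hVab u (hUV u.2) w (hUV (hWU hw)), mul_inv_cancel_right]
    exact hw⟩
  -- the kernel on the top factor
  let K0 : Subgroup H :=
    { carrier := {h | ∀ u ∈ U, (h : X) * u * (h : X)⁻¹ * u⁻¹ ∈ W}
      one_mem' := fun u _ => by simp
      mul_mem' := fun {a b} ha hb u hu => by
        have h1 := ha _ (hU b b.2 u hu)
        have h2 := hb u hu
        have := W.mul_mem h1 h2
        simpa [mul_assoc] using this
      inv_mem' := fun {a} ha u hu => by
        have h1 := ha _ (hU (a : X)⁻¹ (H.inv_mem a.2) u hu)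
        have := W.inv_mem h1
        simpa [mul_assoc] using this }
  have hK0 : ∀ h : H, h ∉ K0 → ∀ u ∈ U, (h : X) * u * (h : X)⁻¹ * u⁻¹ ∈ W → u ∈ W := by
    intro h hh u hu hmem
    let W' : Subgroup X :=
      { carrier := {u | u ∈ U ∧ (h : X) * u * (h : X)⁻¹ * u⁻¹ ∈ W}
        one_mem' := ⟨U.one_mem, by simp⟩
        mul_mem' := fun {a b} ha hb => ⟨U.mul_mem ha.1 hb.1, by
          have e : (h : X) * (a * b) * (h : X)⁻¹ * (a * b)⁻¹ =
              ((h : X) * a * (h : X)⁻¹) * ((h : X) * b * (h : X)⁻¹ * b⁻¹) * a⁻¹ := by group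
          rw [e, hVab _ (hUV (hU h h.2 a ha.1)) _ (hUV (hWU hb.2)), mul_assoc]
          exact W.mul_mem hb.2 ha.2⟩
        inv_mem' := fun {a} ha => ⟨U.inv_mem ha.1, by
          have e : (h : X) * a⁻¹ * (h : X)⁻¹ * a⁻¹⁻¹ = ((h : X) * a * (h : X)⁻¹)⁻¹ * a := by group
          rw [e, hVab _ (hUV (U.inv_mem (hU h h.2 a ha.1))) _ (hUV ha.1)]
          have := W.inv_mem ha.2
          simpa [mul_assoc] using this⟩ }
    have hW'U : W' ≤ U := fun x hx => hx.1
    have hWW' : W ≤ W' := fun w hw => ⟨hWU hw, W.mul_mem (hW h h.2 w hw) (W.inv_mem hw)⟩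
    rcases hW'U.lt_or_eq with hlt | heq
    · refine hmax ⟨hlt, fun k hk a ha => ⟨hU k hk a ha.1, ?_⟩⟩ hWW' ⟨hu, hmem⟩
      have e : (h : X) * (k * a * k⁻¹) * (h : X)⁻¹ * (k * a * k⁻¹)⁻¹ =
          k * ((h : X) * a * (h : X)⁻¹ * a⁻¹) * k⁻¹ := by
        have hkh := hHab k hk h h.2
        calc (h : X) * (k * a * k⁻¹) * (h : X)⁻¹ * (k * a * k⁻¹)⁻¹
            = ((h : X) * k) * a * (((h : X) * k)⁻¹) * (k * a⁻¹ * k⁻¹) := by group
          _ = (k * h) * a * (k * h)⁻¹ * (k * a⁻¹ * k⁻¹) := by rw [hkh]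
          _ = _ := by group
      rw [e]
      exact hW k hk _ ha.2
    · exact absurd (fun x hx => (show x ∈ W' from heq.symm ▸ hx).2) hh
  -- the index of the kernel
  have hidx : ∀ h : H, h ∉ K0 → K0.index + 1 ≤ W.relIndex U := by
    intro h hh
    obtain ⟨u, hu, huW⟩ := SetLike.exists_of_lt hWlt
    let g : H → ↥U ⧸ W.subgroupOf U := fun k => QuotientGroup.mk ⟨_, hU k k.2 u hu⟩
    have hg : ∀ a b : H, a⁻¹ * b ∈ K0 ↔ g a = g b := by
      intro a b
      rw [QuotientGroup.eq, Subgroup.mem_subgroupOf]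
      simp only [Subgroup.coe_mul, Subgroup.coe_inv]
      constructor
      · intro hab
        have h1 := hab u hu
        have h2 := hW a a.2 _ h1
        simp only [Subgroup.coe_mul, Subgroup.coe_inv] at h2
        rw [← hVab _ (hUV (hU b b.2 u hu)) _ (hUV (U.inv_mem (hU a a.2 u hu)))]
        simpa [mul_assoc] using h2
      · intro hab
        by_contra hn
        refine huW (hK0 _ hn u hu ?_)
        have h2 := hW (a : X)⁻¹ (H.inv_mem a.2) _ hab
        simp only [Subgroup.coe_mul, Subgroup.coe_inv]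
        rw [hVab _ (hUV (U.inv_mem (hU a a.2 u hu))) _ (hUV (hU b b.2 u hu))] at h2
        simpa [mul_assoc] using h2
    let f : H ⧸ K0 → ↥U ⧸ W.subgroupOf U := fun q => g q.out
    have hinj : Function.Injective f := fun q q' hqq' => by
      rw [← QuotientGroup.out_eq' q, ← QuotientGroup.out_eq' q', QuotientGroup.eq]
      exact (hg _ _).2 hqq'
    have hne : ∀ q, f q ≠ 1 := by
      intro q hq
      rw [QuotientGroup.eq_one_iff, Subgroup.mem_subgroupOf] at hq
      have h2 := hW ((q.out : H) : X)⁻¹ (H.inv_mem (q.out).2) _ hq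
      exact huW (by simpa [mul_assoc] using h2)
    have hcard := Nat.card_le_card_of_injective
      (fun o : Option (H ⧸ K0) => o.elim 1 f) (fun a b hab => by
        rcases a with _ | a <;> rcases b with _ | b
        · rfl
        · exact absurd hab.symm (hne b)
        · exact absurd hab (hne a)
        · exact congrArg some (hinj hab))
    rwa [Finite.card_option] at hcard
  obtain ⟨r, K, hK1, hK2⟩ := ih (Nat.card W) (hN ▸ Set.Finite.card_lt_card (Set.toFinite _)
    (SetLike.coe_ssubset_coe.2 hWlt)) W rfl (hWU.trans hUV) hW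
  refine ⟨r + 1, Fin.cons K0 K, fun h hh u hu => ?_, fun h inst => ?_⟩
  · have hc : (h : X) * u * (h : X)⁻¹ * u⁻¹ ∈ W := by
      have := hh 0
      rw [Fin.cons_zero] at this
      exact this u hu
    set c := (h : X) * u * (h : X)⁻¹ * u⁻¹ with hcdef
    have hfix : (h : X) * c * (h : X)⁻¹ = c :=
      hK1 h (fun i => by simpa using hh i.succ) c hc
    have hstep : ∀ k : ℕ, (h : X) ^ k * u * ((h : X) ^ k)⁻¹ = c ^ k * u := by
      intro k
      induction k with
      | zero => simp
      | succ k ihk =>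
        calc (h : X) ^ (k + 1) * u * ((h : X) ^ (k + 1))⁻¹
            = (h : X) * ((h : X) ^ k * u * ((h : X) ^ k)⁻¹) * (h : X)⁻¹ := by rw [pow_succ']; group
          _ = ((h : X) * c * (h : X)⁻¹) ^ k * ((h : X) * u * (h : X)⁻¹) := by
            rw [ihk, conj_pow]; group
          _ = c ^ k * (c * u) := by
            rw [hfix]; congr 1; rw [hcdef, inv_mul_cancel_right]
          _ = c ^ (k + 1) * u := by rw [pow_succ]; exact (mul_assoc _ _ _).symm
    have h1 := hstep (orderOf h)
    rw [← Subgroup.orderOf_coe, pow_orderOf_eq_one, one_mul, inv_one, mul_one] at h1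
    have hc1 : c ^ orderOf (h : X) = 1 := mul_eq_right.1 h1.symm
    have hcp : orderOf c ∣ p := orderOf_dvd_of_pow_eq_one (hVexp c (hUV (hWU hc)))
    rcases (Nat.dvd_prime hp.out).1 hcp with h2 | h2
    · exact mul_inv_eq_one.1 (orderOf_eq_one_iff.1 h2)
    · refine absurd ?_ hH
      rw [← h2]
      refine (orderOf_dvd_of_pow_eq_one hc1).trans ?_
      rw [Subgroup.orderOf_coe]
      exact orderOf_dvd_natCard h
  · rw [Fin.prod_univ_succ]
    simp only [Fin.cons_zero, Fin.cons_succ]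
    have hrest := hK2 h
    have hUW : Nat.card U = W.relIndex U * Nat.card W := by
      rw [mul_comm, ← Nat.card_congr (Subgroup.subgroupOfEquivOfLe hWU).toEquiv]
      exact (Subgroup.card_mul_index _).symm
    rw [hUW]
    by_cases h0 : h ∈ K0
    · rw [if_pos h0, one_mul]
      refine (Nat.mul_le_mul_left _ ?_).trans
        (le_of_eq_of_le (mul_left_comm _ (W.relIndex U) _) (Nat.mul_le_mul_left _ hrest))
      set C := Subgroup.centralizer ({(h : X)} : Set X) with hC
      rw [← Nat.card_congr (Subgroup.subgroupOfEquivOfLe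
        (inf_le_inf_right C hWU : W ⊓ C ≤ U ⊓ C)).toEquiv,
        ← Subgroup.card_mul_index ((W ⊓ C).subgroupOf (U ⊓ C)), mul_comm]
      refine Nat.mul_le_mul_right _ ?_
      rw [← Subgroup.relIndex, ← Subgroup.inf_relIndex_right,
        show W ⊓ C ⊓ (U ⊓ C) = W ⊓ (U ⊓ C) by ext x; simp only [Subgroup.mem_inf]; tauto,
        Subgroup.inf_relIndex_right]
      exact Subgroup.relIndex_le_of_le_right inf_le_left Subgroup.index_ne_zero_of_finite
    · rw [if_neg h0, mul_assoc]
      refine Nat.mul_le_mul (hidx h h0) ((Nat.mul_le_mul_left _ (Subgroup.card_le_of_le ?_)).trans hrest)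
      refine le_inf (fun u hu => hK0 h h0 u hu.1 ?_) inf_le_right
      have h3 : u * (h : X) = h * u := Subgroup.mem_centralizer_singleton_iff.1 hu.2
      rw [← h3, mul_inv_cancel_right, mul_inv_cancel]
      exact W.one_mem

/-- Let X be a finite group and V a normal subgroup of X in which every element has order dividing the prime p, whose index in X is prime to p and which is its own centralizer in X; so V is an elementary abelian normal Sylow p-subgroup, and any complement G to V in X is a group of order prime to p acting faithfully on the vector space V by conjugation (the coprime linear setting of the k(GV) problem). Let G be a complement to V in X and suppose that for some v in V the centralizer of v in G is abelian. Then the number of conjugacy classes of X is at most the order of V (the abelian-stabilizer criterion for the k(GV) problem). -/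
theorem result {X : Type*} [Group X] [Finite X] (p : ℕ) [Fact p.Prime] (V : Subgroup X) [V.Normal] (hVexp : ∀ v ∈ V, v ^ p = 1) (hidx : ¬ p ∣ V.index) (hself : Subgroup.centralizer (V : Set X) = V) (G : Subgroup X) (hGV : Subgroup.IsComplement' V G) (v : X) (hv : v ∈ V) (hab : ∀ a ∈ G ⊓ Subgroup.centralizer ({v} : Set X), ∀ b ∈ G ⊓ Subgroup.centralizer ({v} : Set X), a * b = b * a) : Nat.card (ConjClasses X) ≤ Nat.card V := by
  classical
  haveI := Fintype.ofFinite X
  haveI := Fintype.ofFinite (IrrCharacter X)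
  set n := Nat.card X with hn
  haveI : NeZero n := ⟨Nat.card_pos.ne'⟩
  haveI := CfsgLib.Jordan.cycField_isCyclotomic n
  haveI : FiniteDimensional ℚ (CfsgLib.Jordan.cycField n) := IsCyclotomicExtension.finite {n} ℚ _
  haveI : IsGalois ℚ (CfsgLib.Jordan.cycField n) := IsCyclotomicExtension.isGalois {n} ℚ _
  set H := G ⊓ Subgroup.centralizer ({v} : Set X) with hH
  letI : CommGroup H := { (inferInstance : Group H) with
    mul_comm := fun a b => Subtype.ext (hab a a.2 b b.2) }
  haveI := Fintype.ofFinite H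
  have hVab : ∀ a ∈ V, ∀ b ∈ V, a * b = b * a := by
    intro a ha b hb
    have : b ∈ Subgroup.centralizer (V : Set X) := by rw [hself]; exact hb
    exact Subgroup.mem_centralizer_iff.1 this a ha
  have hVp : IsPGroup p V := fun a => ⟨1, Subtype.ext (by simpa using hVexp a a.2)⟩
  have hGidx : Nat.card G = V.index := hGV.symm.index_eq_card.symm
  have hHp : ¬ p ∣ Nat.card H := fun h =>
    hidx (hGidx ▸ h.trans (Subgroup.card_dvd_of_le inf_le_left))
  have hpH : (Nat.card V).Coprime (Nat.card H) := by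
    obtain ⟨e, he⟩ := IsPGroup.iff_card.1 hVp
    rw [he]
    exact Nat.Coprime.pow_left e (((Fact.out : p.Prime).coprime_iff_not_dvd).2 hHp)
  obtain ⟨r, K, hK1, hK2⟩ := exists_kernels V H hVab hVexp hab hHp V le_rfl
    (fun h _ u hu => (inferInstance : V.Normal).conj_mem u hu h)
  have hK : ∀ h : H, (∀ i, h ∈ K i) → h = 1 := by
    intro h hh
    have hc : (h : X) ∈ Subgroup.centralizer (V : Set X) :=
      Subgroup.mem_centralizer_iff.2 fun u hu => (mul_inv_eq_iff_eq_mul.1 (hK1 h hh u hu)).symm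
    rw [hself] at hc
    exact Subtype.ext (Subgroup.disjoint_def.mp hGV.disjoint hc h.2.1)
  let W : H → ℝ := fun h => ∏ i, if h ∈ K i then (1 : ℝ) else ((K i).index : ℝ) + 1
  have hW : ∀ h : H, W h = ((∏ i, if h ∈ K i then 1 else (K i).index + 1 : ℕ) : ℝ) := by
    intro h
    push_cast
    rfl
  -- the column bound
  have hcol : ∀ (t : ℕ), t.Coprime n → ∀ h : H,
      W h * ∑ χ : IrrCharacter X, ‖(χ : X → ℂ) (v ^ t * h)‖ ^ 2 ≤ (Nat.card V * Nat.card H : ℕ) := by
    intro t ht h
    have horth := CfsgLib.CharTheory.sum_mul_conj (v ^ t * (h : X)) (v ^ t * h)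
    rw [if_pos (IsConj.refl _)] at horth
    simp only [Complex.mul_conj'] at horth
    have horth' : ∑ χ : IrrCharacter X, ‖(χ : X → ℂ) (v ^ t * h)‖ ^ 2 =
        (Nat.card (Subgroup.centralizer ({v ^ t * (h : X)} : Set X)) : ℝ) := by exact_mod_cast horth
    rw [horth', hW, ← Nat.cast_mul, Nat.cast_le]
    have hle : Nat.card (Subgroup.centralizer ({v ^ t * (h : X)} : Set X)) ≤
        Nat.card ↥(V ⊓ Subgroup.centralizer ({(h : X)} : Set X)) * Nat.card H := by
      have hcomm : Commute (v ^ t) (h : X) :=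
        ((show Commute (h : X) v from Subgroup.mem_centralizer_singleton_iff.1 h.2.2).symm).pow_left t
      have hq : (v ^ t * (h : X)) ^ Nat.card V = (h : X) ^ Nat.card V := by
        rw [hcomm.mul_pow]
        have h1 : (⟨v ^ t, V.pow_mem hv t⟩ : V) ^ Nat.card V = 1 := pow_card_eq_one'
        have h2 := congrArg Subtype.val h1
        simp only [Subgroup.coe_pow, Subgroup.coe_one] at h2
        rw [h2, one_mul]
      obtain ⟨j, hj⟩ := exists_pow_eq_self_of_coprime
        (show (Nat.card V).Coprime (orderOf (h : X)) by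
          rw [Subgroup.orderOf_coe]; exact hpH.coprime_dvd_right (orderOf_dvd_natCard h))
      obtain ⟨m, hm⟩ := exists_pow_eq_self_of_coprime
        (show t.Coprime (orderOf v) from ht.coprime_dvd_right (hn ▸ orderOf_dvd_natCard v))
      have hsplit : ∀ x : X, Commute x (v ^ t * (h : X)) → Commute x (h : X) ∧ Commute x v := by
        intro x hx
        have h1 : Commute x (h : X) := by
          rw [← hj, ← hq]
          exact (hx.pow_right _).pow_right _
        refine ⟨h1, ?_⟩
        have h2 : Commute x (v ^ t) := by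
          have := hx.mul_right h1.inv_right
          rwa [mul_inv_cancel_right] at this
        rw [← hm]
        exact h2.pow_right m
      have hpair : ∀ x : Subgroup.centralizer ({v ^ t * (h : X)} : Set X), ∃ q :
          ↥(V ⊓ Subgroup.centralizer ({(h : X)} : Set X)) × H, (q.1 : X) * q.2 = x := by
        intro x
        obtain ⟨⟨a, b⟩, hab' : (a : X) * b = x⟩ := hGV.2 (x : X)
        obtain ⟨hxh, hxv⟩ := hsplit x (Subgroup.mem_centralizer_singleton_iff.1 x.2)
        have hb : (b : X) = (a : X)⁻¹ * x := by rw [← hab', inv_mul_cancel_left]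
        have hbv : Commute (b : X) v := by
          rw [hb]
          exact ((show Commute (a : X) v from hVab a a.2 v hv).inv_left).mul_left hxv
        have hbH : (b : X) ∈ H := ⟨b.2, Subgroup.mem_centralizer_singleton_iff.2 hbv⟩
        have hbh : Commute (b : X) (h : X) := hab b hbH h h.2
        have hah : Commute (a : X) (h : X) := by
          have : (a : X) = (x : X) * (b : X)⁻¹ := by rw [← hab', mul_inv_cancel_right]
          rw [this]
          exact hxh.mul_left hbh.inv_left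
        exact ⟨(⟨a, a.2, Subgroup.mem_centralizer_singleton_iff.2 hah⟩, ⟨b, hbH⟩), hab'⟩
      choose q hq' using hpair
      rw [← Nat.card_prod]
      exact Nat.card_le_card_of_injective q fun x y hxy =>
        Subtype.ext (by rw [← hq' x, ← hq' y, hxy])
    calc _ ≤ (∏ i, if h ∈ K i then 1 else (K i).index + 1) *
          (Nat.card ↥(V ⊓ Subgroup.centralizer ({(h : X)} : Set X)) * Nat.card H) :=
          Nat.mul_le_mul_left _ hle
      _ ≤ _ := by rw [← mul_assoc]; exact Nat.mul_le_mul_right _ (hK2 h)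
  -- Galois conjugates
  choose τ hτc hτ using fun σ : CfsgLib.Jordan.cycField n ≃ₐ[ℚ] CfsgLib.Jordan.cycField n =>
    CfsgLib.Jordan.exists_galois_apply n σ
  let L : AddSubgroup ((CfsgLib.Jordan.cycField n ≃ₐ[ℚ] CfsgLib.Jordan.cycField n) → ℂ) :=
    { carrier := {z | ∃ w : CfsgLib.Jordan.cycField n, IsIntegral ℤ (w : ℂ) ∧ ∀ σ, z σ = (σ w : ℂ)}
      zero_mem' := ⟨0, by simp [isIntegral_zero], fun σ => by simp⟩
      add_mem' := fun ⟨a, ha, ha'⟩ ⟨b, hb, hb'⟩ => ⟨a + b, by simpa using ha.add hb, fun σ => by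
        simp [ha' σ, hb' σ]⟩
      neg_mem' := fun ⟨a, ha, ha'⟩ => ⟨-a, by simpa using ha.neg, fun σ => by simp [ha' σ]⟩ }
  have hL : ∀ z ∈ L, z ≠ 0 →
      (Fintype.card (CfsgLib.Jordan.cycField n ≃ₐ[ℚ] CfsgLib.Jordan.cycField n) : ℝ) ≤
        ∑ σ, ‖z σ‖ ^ 2 := by
    rintro z ⟨w, hw, hz⟩ hz0
    have hw0 : w ≠ 0 := fun h0 => hz0 (funext fun σ => by simp [hz σ, h0])
    have hfix : ∀ τ' : CfsgLib.Jordan.cycField n ≃ₐ[ℚ] CfsgLib.Jordan.cycField n,
        τ' (∏ σ : CfsgLib.Jordan.cycField n ≃ₐ[ℚ] CfsgLib.Jordan.cycField n, σ w) = ∏ σ : CfsgLib.Jordan.cycField n ≃ₐ[ℚ] CfsgLib.Jordan.cycField n, σ w := by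
      intro τ'
      rw [map_prod]
      exact Fintype.prod_equiv (Equiv.mulLeft τ') _ _ fun σ => rfl
    have hw' : IsIntegral ℤ w :=
      (isIntegral_algHom_iff (IsScalarTower.toAlgHom ℤ (CfsgLib.Jordan.cycField n) ℂ)
        Subtype.val_injective).1 hw
    have hint : IsIntegral ℤ ((∏ σ : CfsgLib.Jordan.cycField n ≃ₐ[ℚ] CfsgLib.Jordan.cycField n, σ w :
        CfsgLib.Jordan.cycField n) : ℂ) :=
      (IsIntegral.prod _ fun σ _ => hw'.map (σ.toAlgHom.restrictScalars ℤ)).map
        (IsScalarTower.toAlgHom ℤ (CfsgLib.Jordan.cycField n) ℂ)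
    have hge := CfsgLib.Jordan.one_le_norm_of_fixed hfix hint
      (Finset.prod_ne_zero_iff.2 fun σ _ h0 => hw0 (σ.injective (by rw [h0, map_zero])))
    have hprod : 1 ≤ ∏ σ : CfsgLib.Jordan.cycField n ≃ₐ[ℚ] CfsgLib.Jordan.cycField n, ‖z σ‖ ^ 2 := by
      rw [Finset.prod_pow]
      refine one_le_pow₀ (hge.trans_eq ?_)
      rw [SubmonoidClass.coe_finsetProd, norm_prod]
      simp [hz]
    simpa using CfsgLib.Jordan.card_le_sum_of_one_le_prod Finset.univ _
      (fun σ _ => by positivity) hprod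
  -- the bound for one character
  have hrow : ∀ χ : IrrCharacter X,
      (Fintype.card (CfsgLib.Jordan.cycField n ≃ₐ[ℚ] CfsgLib.Jordan.cycField n) : ℝ) *
        (Nat.card H : ℝ) ^ 2 ≤ ∑ σ, ∑ h : H, W h * ‖(χ : X → ℂ) (v ^ τ σ * h)‖ ^ 2 := by
    intro χ
    have hχ := CfsgLib.CharTheory.IsIrrCharacter.isCharacter χ.2
    haveI : ∀ i, Fintype ((H ⧸ K i) →* ℂˣ) := fun i => Fintype.ofFinite _
    let f : (CfsgLib.Jordan.cycField n ≃ₐ[ℚ] CfsgLib.Jordan.cycField n) → H → ℂ :=
      fun σ h => (χ : X → ℂ) (v ^ τ σ * h)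
    let d : (∀ i, (H ⧸ K i) →* ℂˣ) → (CfsgLib.Jordan.cycField n ≃ₐ[ℚ] CfsgLib.Jordan.cycField n) → ℂ :=
      fun a σ => (Nat.card H : ℂ)⁻¹ * ∑ h, f σ h * ∏ i, (a i (h⁻¹ : H) : ℂ)
    have hd : ∀ a, d a ∈ L := by
      intro a
      let l : H →* ℂˣ := ∏ i, (a i).comp (QuotientGroup.mk' (K i))
      have hl : ∀ h : H, (l h : ℂ) = ∏ i, (a i (h : H ⧸ K i) : ℂ) := fun h => by
        simp [l, MonoidHom.finsetProd_apply]
      have hcv : ∀ h : H, Commute v (h : X) := fun h =>
        (Subgroup.mem_centralizer_singleton_iff.1 h.2.2).symm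
      have hint := isIntegral_trace_proj H (fun a b => Subtype.ext (hab a a.2 b b.2)) l v hcv hχ
      have hpown : ∀ g : X, g ^ n = 1 := fun g => pow_card_eq_one'
      have hl1 : ∀ h : H, (l h : ℂ) ^ n = 1 := fun h => by
        rw [← Units.val_pow_eq_pow_val, ← map_pow, show h ^ n = 1 from Subtype.ext (hpown h),
          map_one, Units.val_one]
      have hmem : ∀ h : H, (χ : X → ℂ) (v * h) * (l h⁻¹ : ℂ) ∈ CfsgLib.Jordan.cycField n := fun h =>
        mul_mem (CfsgLib.Jordan.mem_cycField hχ (hpown _))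
          (CfsgLib.Jordan.mem_cycField_of_pow_eq_one (hl1 _))
      let w : CfsgLib.Jordan.cycField n :=
        (Nat.card H : CfsgLib.Jordan.cycField n)⁻¹ * ∑ h : H, ⟨_, hmem h⟩
      have hwv : (w : ℂ) = (Nat.card H : ℂ)⁻¹ * ∑ h : H, (χ : X → ℂ) (v * h) * (l h⁻¹ : ℂ) := by
        simp only [w]
        push_cast [AddSubmonoidClass.coe_finsetSum]
        rfl
      refine ⟨w, hwv ▸ hint, fun σ => ?_⟩
      simp only [d, f, w, map_mul, map_inv₀, map_natCast, map_sum]
      push_cast [AddSubmonoidClass.coe_finsetSum]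
      congr 1
      have hinj : Function.Injective fun h : H => h ^ τ σ := by
        intro x y hxy
        exact (powCoprime ((hτc σ).symm.coprime_dvd_left
          (hn ▸ Subgroup.card_subgroup_dvd_card H))).injective hxy
      rw [← (Equiv.ofBijective _ (Finite.injective_iff_bijective.1 hinj)).sum_comp]
      refine Finset.sum_congr rfl fun h _ => ?_
      have e1 : (⟨_, hmem h⟩ : CfsgLib.Jordan.cycField n) =
          ⟨_, CfsgLib.Jordan.mem_cycField hχ (hpown (v * h))⟩ *
            ⟨_, CfsgLib.Jordan.mem_cycField_of_pow_eq_one (hl1 h⁻¹)⟩ := rfl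
      rw [e1, map_mul, MulMemClass.coe_mul, hτ σ _ hχ (v * h) _ (hpown _) rfl]
      have e2 := hτ σ (fun x : H => (l x : ℂ)) (CfsgLib.CharTheory.IsIrrCharacter.isCharacter
        (CfsgLib.CharTheory.isIrrCharacter_linear l)) h⁻¹ ⟨_, CfsgLib.Jordan.mem_cycField_of_pow_eq_one (hl1 h⁻¹)⟩
        (Subtype.ext (hpown _)) rfl
      rw [e2, hl, Equiv.ofBijective_apply, inv_pow, (hcv h).mul_pow, Subgroup.coe_pow]
    have hf0 : ∀ σ, f σ 1 ≠ 0 := fun σ => by
      simp only [f, Subgroup.coe_one, mul_one]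
      exact CfsgLib.Jordan.apply_ne_zero_of_abelian_sylow V hVp hidx hVab χ.2 (V.pow_mem hv _)
    have hform : ∀ σ, (CfsgLib.Jordan.knorrForm fun a => d a σ).re =
        (∏ i, ((K i).index : ℝ)) / (Nat.card H : ℝ) ^ 2 * ∑ h, W h * ‖f σ h‖ ^ 2 :=
      fun σ => CfsgLib.Jordan.knorrForm_fourier K hK (f σ)
    have hb := CfsgLib.Jordan.knorrForm_bound L hL d hd
    have hWpos : ∀ h, 0 < W h := fun h => Finset.prod_pos fun i _ => by split_ifs <;> positivity
    have hHpos : (0 : ℝ) < Nat.card H := by exact_mod_cast Nat.card_pos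
    have hm : 0 < ∏ i, ((K i).index : ℝ) := Finset.prod_pos fun i _ => by
      exact_mod_cast Nat.pos_of_ne_zero Subgroup.index_ne_zero_of_finite
    have hd0 : ∃ a, d a ≠ 0 := by
      by_contra hall
      push Not at hall
      have h1 := hform (1 : CfsgLib.Jordan.cycField n ≃ₐ[ℚ] CfsgLib.Jordan.cycField n)
      simp only [hall, Pi.zero_apply, CfsgLib.Jordan.knorrForm, zero_mul, Finset.sum_const_zero,
        Complex.zero_re] at h1
      have hpos : 0 < ∑ h, W h * ‖f 1 h‖ ^ 2 :=
        lt_of_lt_of_le (mul_pos (hWpos 1) (pow_pos (norm_pos_iff.2 (hf0 1)) 2))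
          (Finset.single_le_sum (f := fun h => W h * ‖f 1 h‖ ^ 2)
            (fun h _ => mul_nonneg (hWpos h).le (by positivity)) (Finset.mem_univ (1 : H)))
      have := mul_pos (div_pos hm (pow_pos hHpos 2)) hpos
      linarith
    have h2 := hb.2 hd0
    simp only [hform, ← Finset.mul_sum] at h2
    have hcardA : ∀ i, (Fintype.card ((H ⧸ K i) →* ℂˣ) : ℝ) = ((K i).index : ℝ) := fun i => by
      rw [← Nat.card_eq_fintype_card, CommGroup.card_monoidHom_of_hasEnoughRootsOfUnity]
      rfl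
    simp only [hcardA] at h2
    rw [div_mul_eq_mul_div, le_div_iff₀ (pow_pos hHpos 2)] at h2
    refine le_of_mul_le_mul_left ?_ hm
    calc _ = _ := by ring
      _ ≤ _ := h2
  -- the total
  have htot : (Fintype.card (IrrCharacter X) : ℝ) *
      ((Fintype.card (CfsgLib.Jordan.cycField n ≃ₐ[ℚ] CfsgLib.Jordan.cycField n) : ℝ) *
        (Nat.card H : ℝ) ^ 2) ≤ (Nat.card V : ℝ) *
      ((Fintype.card (CfsgLib.Jordan.cycField n ≃ₐ[ℚ] CfsgLib.Jordan.cycField n) : ℝ) *
        (Nat.card H : ℝ) ^ 2) := by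
    calc _ = ∑ _χ : IrrCharacter X, (Fintype.card (CfsgLib.Jordan.cycField n ≃ₐ[ℚ]
          CfsgLib.Jordan.cycField n) : ℝ) * (Nat.card H : ℝ) ^ 2 := by simp
      _ ≤ ∑ χ : IrrCharacter X, ∑ σ, ∑ h : H, W h * ‖(χ : X → ℂ) (v ^ τ σ * h)‖ ^ 2 :=
        Finset.sum_le_sum fun χ _ => hrow χ
      _ = ∑ σ, ∑ h : H, W h * ∑ χ : IrrCharacter X, ‖(χ : X → ℂ) (v ^ τ σ * h)‖ ^ 2 := by
        rw [Finset.sum_comm]
        refine Finset.sum_congr rfl fun σ _ => ?_
        rw [Finset.sum_comm]
        simp only [Finset.mul_sum]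
      _ ≤ ∑ _σ : CfsgLib.Jordan.cycField n ≃ₐ[ℚ] CfsgLib.Jordan.cycField n, ∑ _h : H,
          ((Nat.card V * Nat.card H : ℕ) : ℝ) :=
        Finset.sum_le_sum fun σ _ => Finset.sum_le_sum fun h _ => hcol _ (hτc σ) h
      _ = _ := by
        simp only [Finset.sum_const, Finset.card_univ, nsmul_eq_mul, ← Nat.card_eq_fintype_card]
        push_cast
        ring
  have hfin := le_of_mul_le_mul_right htot (mul_pos (by exact_mod_cast Fintype.card_pos)
    (pow_pos (by exact_mod_cast Nat.card_pos) 2))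
  rw [← CfsgLib.CharTheory.card_irrCharacter, Nat.card_eq_fintype_card]
  exact_mod_cast hfin

end Cfsg.Agent.S4958
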