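import Cfsg.Statements.S4965
import Mathlib

set_option autoImplicit false
open Cfsg

namespace Cfsg.Agent.S4965

/-- Let X be a finite group with an abelian normal subgroup V (any two elements of V commute), and let φ be the action of X ⧸ V on V induced by conjugation (well defined because V is abelian; the hypothesis hφ says that the class of x acts as conjugation by x). Then X has at most as many conjugacy classes as the semidirect product of V by X ⧸ V formed with this action: the split extension has the largest class number among extensions with the given action. -/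
theorem result {X : Type*} [Group X] [Finite X] (V : Subgroup X) [V.Normal] (hab : ∀ a ∈ V, ∀ b ∈ V, a * b = b * a) (φ : X ⧸ V →* MulAut ↥V) (hφ : ∀ (x : X) (v : ↥V), ((φ (QuotientGroup.mk x) v : ↥V) : X) = x * v * x⁻¹) : Nat.card (ConjClasses X) ≤ Nat.card (ConjClasses (SemidirectProduct ↥V (X ⧸ V) φ)) := by
  classical
  let Q := X ⧸ V
  let π : {p : X × X // Commute p.1 p.2} → Q × Q :=
    fun p => (QuotientGroup.mk p.1.1, QuotientGroup.mk p.1.2)
  have : Nonempty {p : X × X // Commute p.1 p.2} := ⟨⟨(1, 1), Commute.refl _⟩⟩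
  let base : Q × Q → {p : X × X // Commute p.1 p.2} := Function.invFun π
  have hbase : ∀ p, π (base (π p)) = π p := fun p => Function.invFun_eq ⟨p, rfl⟩
  have hmem : ∀ p : {p : X × X // Commute p.1 p.2},
      p.1.1 * (base (π p)).1.1⁻¹ ∈ V ∧ p.1.2 * (base (π p)).1.2⁻¹ ∈ V := by
    intro p
    have h := hbase p
    constructor
    · rw [← QuotientGroup.eq_one_iff, QuotientGroup.mk_mul, QuotientGroup.mk_inv, mul_inv_eq_one]
      exact (congrArg Prod.fst h).symm
    · rw [← QuotientGroup.eq_one_iff, QuotientGroup.mk_mul, QuotientGroup.mk_inv, mul_inv_eq_one]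
      exact (congrArg Prod.snd h).symm
  have key : ∀ x y a b : X, x * y = y * x → a * b = b * a →
      x * a⁻¹ * (a * (y * b⁻¹) * a⁻¹) = y * b⁻¹ * (b * (x * a⁻¹) * b⁻¹) := by
    intro x y a b hp hb
    apply mul_right_cancel (b := a * b)
    calc x * a⁻¹ * (a * (y * b⁻¹) * a⁻¹) * (a * b) = x * y := by group
      _ = y * x := hp
      _ = y * b⁻¹ * (b * (x * a⁻¹) * b⁻¹) * (b * a) := by group
      _ = _ := by rw [hb]
  let f : {p : X × X // Commute p.1 p.2} →
      {q : SemidirectProduct ↥V Q φ × SemidirectProduct ↥V Q φ // Commute q.1 q.2} := fun p =>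
    ⟨(⟨⟨_, (hmem p).1⟩, (π p).1⟩, ⟨⟨_, (hmem p).2⟩, (π p).2⟩), by
      have hq : Commute (π p).1 (π p).2 := p.2.map (QuotientGroup.mk' V)
      refine SemidirectProduct.ext ?_ hq
      apply Subtype.ext
      have h1 : (π p).1 = QuotientGroup.mk (base (π p)).1.1 := (congrArg Prod.fst (hbase p)).symm
      have h2 : (π p).2 = QuotientGroup.mk (base (π p)).1.2 := (congrArg Prod.snd (hbase p)).symm
      simp only [SemidirectProduct.mul_left, Subgroup.coe_mul]
      rw [h1, h2, hφ, hφ]
      have hp : p.1.1 * p.1.2 = p.1.2 * p.1.1 := p.2.eq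
      have hb : (base (π p)).1.1 * (base (π p)).1.2 = (base (π p)).1.2 * (base (π p)).1.1 :=
        (base (π p)).2.eq
      exact key p.1.1 p.1.2 (base (π p)).1.1 (base (π p)).1.2 hp hb⟩
  have hf : Function.Injective f := by
    intro p q hpq
    have h := congrArg Subtype.val hpq
    simp only [f, Prod.mk.injEq, SemidirectProduct.ext_iff, Subtype.mk.injEq] at h
    obtain ⟨⟨h1, h2⟩, h3, h4⟩ := h
    have hπ : π p = π q := Prod.ext h2 h4
    rw [hπ] at h1 h3
    exact Subtype.ext (Prod.ext (mul_right_cancel h1) (mul_right_cancel h3))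
  have hfin : Finite (SemidirectProduct ↥V Q φ) := .of_equiv _ SemidirectProduct.equivProd.symm
  have hle := Nat.card_le_card_of_injective f hf
  rw [card_comm_eq_card_conjClasses_mul_card, card_comm_eq_card_conjClasses_mul_card,
    SemidirectProduct.card, mul_comm (Nat.card ↥V), ← Subgroup.card_eq_card_quotient_mul_card_subgroup] at hle
  exact Nat.le_of_mul_le_mul_right hle Nat.card_pos

end Cfsg.Agent.S4965
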