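import Cfsg.Statements.S0204
import Cfsg.Agent.S0205
import Cfsg.Agent.Lib.OddOrderApps.KleinFour

set_option autoImplicit false
open Cfsg

namespace Cfsg.Agent.S0204

/-- A non-cyclic finite simple group contains a subgroup which is a Klein four-group; this combines the Odd Order Theorem, Burnside's transfer argument for cyclic Sylow 2-subgroups and the Brauer–Suzuki Theorem. -/
theorem result {G : Type*} [Group G] [Finite G] [IsSimpleGroup G] (hG : ¬ IsCyclic G) : ∃ E : Subgroup G, IsKleinFour E := by
  exact CfsgLib.OddOrderApps.exists_isKleinFour (fun H _ _ h => Cfsg.Agent.S0205.result h) hG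

end Cfsg.Agent.S0204
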