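import Cfsg.Statements.S0501
import Cfsg.Agent.Lib.KGroups.FourGenerator

set_option autoImplicit false
open Cfsg

namespace Cfsg.Agent.S0501

/-- A finite 2-group in which every normal elementary abelian subgroup has order at most 4 has sectional rank at most
4: every quotient of every subgroup has no elementary abelian subgroup of order exceeding 16. -/
theorem result {P : Type*} [Group P] [Finite P] (hP : IsPGroup 2 P)
    (h : ∀ A : Subgroup P, A.Normal → IsMulCommutative A → (∀ a ∈ A, a ^ 2 = 1) → Nat.card A ≤ 4) :
    Cfsg.SectionalPRankLE 2 4 P := by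
  intro H N _ A hA hA2
  set U := A.comap (QuotientGroup.mk' N) with hU
  have h1 := CfsgLib.KGroups.FourGenerator.card_le_sixteen_mul_sqG hP h (U.map H.subtype)
  rw [← CfsgLib.KGroups.TwoCentral.map_sqG, Subgroup.card_map_of_injective H.subtype_injective,
    Subgroup.card_map_of_injective H.subtype_injective] at h1
  have h2 : CfsgLib.KGroups.TwoCentral.sqG U ≤ N := by
    refine (Subgroup.closure_le _).2 ?_
    rintro _ ⟨u, hu, rfl⟩
    show u * u ∈ N
    rw [← QuotientGroup.eq_one_iff, QuotientGroup.mk_mul, ← pow_two]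
    exact hA2 _ hu
  have hNU : N ≤ U := fun x hx => by
    show QuotientGroup.mk' N x ∈ A
    rw [show QuotientGroup.mk' N x = 1 from (QuotientGroup.eq_one_iff x).2 hx]
    exact A.one_mem
  have h3 : Nat.card A * Nat.card N ≤ Nat.card U := by
    have h := ((QuotientGroup.mk' N).comp U.subtype).ker.index_mul_card
    rw [Subgroup.index_ker, MonoidHom.range_comp, Subgroup.range_subtype,
      Subgroup.map_comap_eq_self_of_surjective (QuotientGroup.mk'_surjective N)] at h
    rw [← h]
    refine Nat.mul_le_mul_left _ (Nat.card_le_card_of_injective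
      (fun x : N => (⟨⟨x, hNU x.2⟩, (QuotientGroup.eq_one_iff _).2 x.2⟩ :
        ((QuotientGroup.mk' N).comp U.subtype).ker)) ?_)
    intro x y hxy
    exact Subtype.ext (congrArg (fun z : ((QuotientGroup.mk' N).comp U.subtype).ker =>
      ((z : U) : H)) hxy)
  have h4 := Subgroup.card_le_of_le h2
  refine Nat.le_of_mul_le_mul_right (?_ : Nat.card A * Nat.card N ≤ 2 ^ 4 * Nat.card N) Nat.card_pos
  calc Nat.card A * Nat.card N ≤ Nat.card U := h3
    _ ≤ _ := h1
    _ ≤ _ := by norm_num; omega

end Cfsg.Agent.S0501
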