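import Cfsg.Statements.S0638
import Cfsg.Agent.Lib.PGroups.Omega
import Cfsg.Agent.Lib.PSolvable.Basic

set_option autoImplicit false
open Cfsg

namespace Cfsg.Agent.S0638

/-- For odd p, in a non-cyclic metacyclic p-group the elements of order dividing p generate an elementary abelian subgroup of order p². -/
theorem result {R : Type*} [Group R] [Finite R] {p : ℕ} [Fact p.Prime] (hp : p ≠ 2) (hR : IsPGroup p R) (hm : Cfsg.IsMetacyclic R) (hnc : ¬ IsCyclic R) : Cfsg.IsElementaryAbelian p (Cfsg.omegaOne p (⊤ : Subgroup R)) ∧ Nat.card ↥(Cfsg.omegaOne p (⊤ : Subgroup R)) = p ^ 2 := by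
  obtain ⟨N, hNn, hNc, hQc⟩ := hm
  haveI := hNn
  have hp' : p.Prime := Fact.out
  set π := QuotientGroup.mk' N with hπ
  set M : Subgroup R :=
    { carrier := {x | π x ^ p = 1}
      one_mem' := by simp
      mul_mem' := fun {a b} ha hb => by
        obtain ⟨g, hg⟩ := hQc.exists_generator
        obtain ⟨i, hi⟩ := Subgroup.mem_zpowers_iff.1 (hg (π a))
        obtain ⟨j, hj⟩ := Subgroup.mem_zpowers_iff.1 (hg (π b))
        have hc : Commute (π a) (π b) := by
          rw [← hi, ← hj]; exact (Commute.refl g).zpow_zpow i j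
        show π (a * b) ^ p = 1
        rw [map_mul, hc.mul_pow, (ha : π a ^ p = 1), (hb : π b ^ p = 1), one_mul]
      inv_mem' := fun {a} ha => by
        show π a⁻¹ ^ p = 1
        rw [map_inv, inv_pow, (ha : π a ^ p = 1), inv_one] } with hM
  have hMx : ∀ x : R, x ^ p = 1 → x ∈ M := fun x hx => by
    show π x ^ p = 1
    rw [← map_pow, hx, map_one]
  have hMnc : ¬ IsCyclic M := by
    intro hc
    obtain ⟨a, b, ha, hb, hab⟩ := CfsgLib.PGroups.exists_orderOf_eq_notMem hp hR hnc
    have haM := hMx a (ha ▸ pow_orderOf_eq_one a)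
    have hbM := hMx b (hb ▸ pow_orderOf_eq_one b)
    apply hab
    classical
    haveI := Fintype.ofFinite M
    have hsub : (Finset.univ.filter fun z : M => z ∈ Subgroup.zpowers (⟨a, haM⟩ : M)) ⊆
        Finset.univ.filter fun z : M => z ^ p = 1 := by
      intro z hz
      rw [Finset.mem_filter] at hz ⊢
      obtain ⟨i, rfl⟩ := Subgroup.mem_zpowers_iff.1 hz.2
      refine ⟨hz.1, ?_⟩
      have h1 : (⟨a, haM⟩ : M) ^ p = 1 := Subtype.ext (by simpa using ha ▸ pow_orderOf_eq_one a)
      rw [← zpow_natCast, ← zpow_mul, mul_comm, zpow_mul, zpow_natCast, h1, one_zpow]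
    have hcard : (Finset.univ.filter fun z : M => z ∈ Subgroup.zpowers (⟨a, haM⟩ : M)).card = p := by
      rw [← Fintype.card_subtype, ← Nat.card_eq_fintype_card, Nat.card_zpowers, Subgroup.orderOf_mk, ha]
    have hall := Finset.eq_of_subset_of_card_le hsub
      ((IsCyclic.card_pow_eq_one_le (α := M) hp'.pos).trans_eq hcard.symm)
    have hbz : (⟨b, hbM⟩ : M) ∈ Finset.univ.filter fun z : M => z ^ p = 1 :=
      Finset.mem_filter.2 ⟨Finset.mem_univ _, Subtype.ext (by simpa using hb ▸ pow_orderOf_eq_one b)⟩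
    rw [← hall, Finset.mem_filter] at hbz
    obtain ⟨i, hi⟩ := Subgroup.mem_zpowers_iff.1 hbz.2
    exact ⟨i, by simpa using congrArg Subtype.val hi⟩
  have hNM : N ≤ M := fun x hx => by
    show π x ^ p = 1
    rw [hπ, QuotientGroup.mk'_apply, (QuotientGroup.eq_one_iff x).2 hx, one_pow]
  have hCc : IsCyclic (N.subgroupOf M) :=
    isCyclic_of_surjective (Subgroup.subgroupOfEquivOfLe hNM).symm.toMonoidHom
      (Subgroup.subgroupOfEquivOfLe hNM).symm.surjective
  have hCi : (N.subgroupOf M).index = p := by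
    obtain ⟨k, hk⟩ := IsPGroup.iff_card.1 ((hR.to_subgroup M).to_quotient (N.subgroupOf M))
    rw [← Subgroup.index_eq_card] at hk
    have hle : (N.subgroupOf M).index ≤ p := by
      classical
      haveI := Fintype.ofFinite (R ⧸ N)
      rw [← Subgroup.relIndex, CfsgLib.PSolvable.relIndex_eq_card_map, Nat.card_eq_fintype_card,
        Fintype.card_subtype]
      refine le_trans (Finset.card_le_card fun q hq => ?_) (IsCyclic.card_pow_eq_one_le hp'.pos)
      rw [Finset.mem_filter] at hq ⊢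
      obtain ⟨x, hx, rfl⟩ := hq.2
      exact ⟨hq.1, hx⟩
    have hk0 : k ≠ 0 := by
      rintro rfl
      rw [pow_zero, Subgroup.index_eq_one] at hk
      apply hMnc
      rw [hk] at hCc
      exact Subgroup.topEquiv.isCyclic.1 hCc
    have hk1 : k ≤ 1 := by
      rw [hk] at hle
      exact (Nat.pow_le_pow_iff_right hp'.one_lt).1 (hle.trans_eq (pow_one p).symm)
    rw [hk, show k = 1 by omega, pow_one]
  obtain ⟨E, -, hEe, hEc, hEall⟩ :=
    CfsgLib.PGroups.omega_of_cyclic_maximal hp (hR.to_subgroup M) hMnc _ hCc hCi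
  have heq : Cfsg.omegaOne p (⊤ : Subgroup R) = E.map M.subtype := by
    refine le_antisymm ?_ ?_
    · rw [Cfsg.omegaOne, Subgroup.closure_le]
      rintro x ⟨-, hx⟩
      exact ⟨⟨x, hMx x hx⟩, hEall _ (Subtype.ext (by simpa using hx)), rfl⟩
    · rintro _ ⟨e, he, rfl⟩
      exact Subgroup.subset_closure ⟨Subgroup.mem_top _, by
        rw [← map_pow, hEe.2 e he, map_one]⟩
  rw [heq]
  refine ⟨⟨⟨⟨fun x y => ?_⟩⟩, ?_⟩, by rw [Subgroup.card_subtype, hEc]⟩
  · obtain ⟨u, hu, hux⟩ := x.2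
    obtain ⟨v, hv, hvy⟩ := y.2
    apply Subtype.ext
    show (x : R) * y = y * x
    rw [← hux, ← hvy, ← map_mul, ← map_mul]
    exact congrArg M.subtype (congrArg Subtype.val (hEe.1.is_comm.comm ⟨u, hu⟩ ⟨v, hv⟩))
  · rintro _ ⟨e, he, rfl⟩
    rw [← map_pow, hEe.2 e he, map_one]

end Cfsg.Agent.S0638
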