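import Cfsg.Statements.S4343
-- import your own Cfsg.Agent.* helpers here

set_option autoImplicit false
open Cfsg

namespace Cfsg.Agent.S4343

open scoped Pointwise

theorem core {G : Type*} [Group G] [Finite G] [IsSimpleGroup G] (hS : ¬ IsMulCommutative G) (p : ℕ)
    [hp : Fact p.Prime] (hdvd : p ∣ Nat.card G) (hn : Nat.card (Sylow p G) < p ^ 2) (P : Sylow p G) :
    Nat.card P = p := by
  classical
  have hpp : 1 < p := hp.out.one_lt
  have hnotp : ¬ IsPGroup p G := by
    intro h
    haveI : Nontrivial G := IsSimpleGroup.toNontrivial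
    haveI := h.center_nontrivial
    have hz := (IsSimpleGroup.eq_bot_or_eq_top_of_normal (Subgroup.center G) inferInstance).resolve_left
      ((Subgroup.nontrivial_iff_ne_bot _).1 inferInstance)
    exact hS ⟨⟨fun a b => (Subgroup.mem_center_iff.1 (hz ▸ Subgroup.mem_top a) b).symm⟩⟩
  have hbot : ∀ (N : Subgroup G) (R : Sylow p G), N.Normal → N ≤ R → N = ⊥ := by
    intro N R hN hle
    rcases IsSimpleGroup.eq_bot_or_eq_top_of_normal N hN with h | h
    · exact h
    · exfalso
      rw [h, top_le_iff] at hle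
      have := R.isPGroup'
      rw [hle] at this
      exact hnotp (this.of_equiv Subgroup.topEquiv)
  set M := Nat.card P with hM
  have hcard : ∀ R : Sylow p G, Nat.card R = M := fun R => by
    rw [hM, R.card_eq_multiplicity, P.card_eq_multiplicity]
  have hPne : 1 < M := by
    rw [hM, P.card_eq_multiplicity]
    exact Nat.one_lt_pow (hp.out.factorization_pos_of_dvd Nat.card_pos.ne' hdvd).ne' hpp
  -- orbits of a Sylow subgroup on the others have length `p`
  have horb : ∀ x R : Sylow p G, x ≠ R →
      Nat.card ((x : Subgroup G) ⊓ R : Subgroup G) * p = M ∧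
      (MulAction.orbit (x : Subgroup G) R).ncard = p := by
    intro x R hne
    have hstab : MulAction.stabilizer (x : Subgroup G) R =
        ((x : Subgroup G) ⊓ R).subgroupOf x := by
      ext g
      rw [MulAction.mem_stabilizer_iff, Subgroup.mem_subgroupOf, Subgroup.smul_def,
        Sylow.smul_eq_iff_mem_normalizer]
      constructor
      · intro h
        exact (x.isPGroup'.inf_normalizer_sylow R).le ⟨g.2, h⟩
      · exact fun h => Subgroup.le_normalizer h.2
    have h1 := Subgroup.card_mul_index (MulAction.stabilizer (x : Subgroup G) R)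
    rw [MulAction.index_stabilizer, hstab,
      Nat.card_congr (Subgroup.subgroupOfEquivOfLe inf_le_left).toEquiv] at h1
    have hlt : (MulAction.orbit (x : Subgroup G) R).ncard < p ^ 2 := by
      refine lt_of_le_of_lt ?_ hn
      rw [← Set.ncard_univ]
      exact Set.ncard_le_ncard (Set.subset_univ _)
    obtain ⟨i, hi⟩ := IsPGroup.iff_card.1 x.isPGroup'
    obtain ⟨j, -, hj⟩ := (Nat.dvd_prime_pow hp.out).1 (hi ▸ h1 ▸ dvd_mul_left _ _ :
      (MulAction.orbit (x : Subgroup G) R).ncard ∣ p ^ i)
    rw [hcard] at h1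
    have hj1 : j < 2 := (Nat.pow_lt_pow_iff_right hpp).1 (hj ▸ hlt)
    interval_cases j
    · exfalso
      rw [hj, pow_zero, mul_one, ← hcard x] at h1
      have h2 : (x : Subgroup G) ≤ R :=
        inf_eq_left.1 (Subgroup.eq_of_le_of_card_ge inf_le_left h1.ge)
      exact hne (Sylow.ext (Subgroup.eq_of_le_of_card_ge h2 (by rw [hcard, hcard])))
    · rw [pow_one] at hj
      rw [hj] at h1
      exact ⟨h1, hj⟩
  have hinf : ∀ {x R T U : Sylow p G}, x ≠ R → T ≠ U → (x : Subgroup G) ⊓ R ≤ T →
      (x : Subgroup G) ⊓ R ≤ U → (T : Subgroup G) ⊓ U = (x : Subgroup G) ⊓ R := by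
    intro x R T U h1 h2 h3 h4
    refine (Subgroup.eq_of_le_of_card_ge (le_inf h3 h4) ?_).symm
    exact (Nat.eq_of_mul_eq_mul_right hp.out.pos ((horb T U h2).1.trans (horb x R h1).1.symm)).le
  -- the orbit stays in the block
  have hblock : ∀ x R : Sylow p G, x ≠ R → ∀ T ∈ MulAction.orbit (x : Subgroup G) R,
      T ≠ x ∧ (x : Subgroup G) ⊓ R ≤ T := by
    intro x R hne T hT
    obtain ⟨g, rfl⟩ := hT
    refine ⟨fun he => hne ?_, ?_⟩
    · have h2 : ((g : G) • x : Sylow p G) = x :=
        Sylow.smul_eq_iff_mem_normalizer.2 (Subgroup.le_normalizer g.2)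
      have he' : ((g : G) • R : Sylow p G) = x := he
      exact MulAction.injective (g : G) (h2.trans he'.symm)
    · have hidx : (((x : Subgroup G) ⊓ R).subgroupOf (x : Subgroup G)).index = p := by
        have h1 := Subgroup.card_mul_index (((x : Subgroup G) ⊓ R).subgroupOf (x : Subgroup G))
        rw [Nat.card_congr (Subgroup.subgroupOfEquivOfLe inf_le_left).toEquiv, hcard x,
          ← (horb x R hne).1] at h1
        exact Nat.eq_of_mul_eq_mul_left Nat.card_pos h1
      have hnorm : (((x : Subgroup G) ⊓ R).subgroupOf (x : Subgroup G)).Normal := by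
        refine Subgroup.normal_of_index_eq_minFac_card ?_
        obtain ⟨i, hi⟩ := IsPGroup.iff_card.1 x.isPGroup'
        have : i ≠ 0 := fun h => by
          have := hcard x
          rw [hi, h, pow_zero] at this
          omega
        rw [hidx, hi, Nat.Prime.pow_minFac hp.out this]
      have hle := (Subgroup.normal_subgroupOf_iff_le_normalizer inf_le_left).1 hnorm g.2
      intro d hd
      show d ∈ MulAut.conj (g : G) • (R : Subgroup G)
      rw [Subgroup.mem_pointwise_smul_iff_inv_smul_mem, MulAut.smul_def, ← map_inv, MulAut.conj_apply]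
      exact ((Subgroup.mem_normalizer_iff.1 (inv_mem hle) d).1 hd).2
  obtain ⟨Q, hQ⟩ : ∃ Q : Sylow p G, Q ≠ P := by
    by_contra hc
    push Not at hc
    have hN : (P : Subgroup G).Normal := by
      haveI : Subsingleton (Sylow p G) := ⟨fun a b => (hc a).trans (hc b).symm⟩
      exact Sylow.normal_of_subsingleton P
    rw [hM, show Nat.card P = Nat.card (P : Subgroup G) from rfl, hbot _ P hN le_rfl,
      Subgroup.card_bot] at hPne
    omega
  set D := (P : Subgroup G) ⊓ Q with hD
  by_cases hall : ∀ x : Sylow p G, D ≤ x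
  · have hle : Subgroup.normalClosure (D : Set G) ≤ P := by
      refine (Subgroup.closure_le _).2 fun y hy => ?_
      obtain ⟨d, hd, hdy⟩ := Group.mem_conjugatesOfSet_iff.mp hy
      obtain ⟨c, rfl⟩ := isConj_iff.mp hdy
      have h := hall (c⁻¹ • P) hd
      change d ∈ MulAut.conj c⁻¹ • (P : Subgroup G) at h
      rw [Subgroup.mem_pointwise_smul_iff_inv_smul_mem, map_inv, inv_inv] at h
      exact h
    have hDbot : D = ⊥ := le_bot_iff.1 (Subgroup.le_normalClosure.trans
      (hbot _ P inferInstance hle).le)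
    have h1 := (horb P Q hQ.symm).1
    rw [← hD, hDbot, Subgroup.card_bot, one_mul] at h1
    exact h1.symm
  push Not at hall
  obtain ⟨x, hx⟩ := hall
  exfalso
  let B : Finset (Sylow p G) := insert P (MulAction.orbit (P : Subgroup G) Q).toFinite.toFinset
  have hBc : B.card = p + 1 := by
    rw [Finset.card_insert_of_notMem, ← Set.ncard_eq_toFinset_card _ _, (horb P Q hQ.symm).2]
    rw [Set.Finite.mem_toFinset]
    exact fun h => (hblock P Q hQ.symm P h).1 rfl
  have hB : ∀ R ∈ B, D ≤ R := by
    intro R hR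
    rcases Finset.mem_insert.1 hR with rfl | hR
    · exact inf_le_left
    · exact (hblock P Q hQ.symm R ((Set.Finite.mem_toFinset _).1 hR)).2
  have hxB : ∀ R ∈ B, x ≠ R := fun R hR he => hx (he ▸ hB R hR)
  letI : Fintype (Sylow p G) := Fintype.ofFinite _
  let f : Sylow p G → Finset (Sylow p G) := fun R =>
    (MulAction.orbit (x : Subgroup G) R).toFinite.toFinset
  have hdisj : ∀ R ∈ B, ∀ R' ∈ B, R ≠ R' → Disjoint (f R) (f R') := by
    intro R hR R' hR' hne
    rw [Finset.disjoint_left]
    intro T hT hT'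
    obtain ⟨hTx, hT1⟩ := hblock x R (hxB R hR) T ((Set.Finite.mem_toFinset _).1 hT)
    obtain ⟨-, hT2⟩ := hblock x R' (hxB R' hR') T ((Set.Finite.mem_toFinset _).1 hT')
    have e1 := hinf (hxB R hR) hTx.symm inf_le_left hT1
    have e2 := hinf (hxB R' hR') hTx.symm inf_le_left hT2
    have e : (x : Subgroup G) ⊓ R ≤ R' := by rw [← e1, e2]; exact inf_le_right
    have e3 := hinf (hxB R hR) hne inf_le_right e
    have e4 := hinf hQ.symm hne (hB R hR) (hB R' hR')
    exact hx ((e4.symm.trans e3).le.trans inf_le_left)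
  have hsub : (B.biUnion f) ⊆ Finset.univ.erase x := by
    intro T hT
    obtain ⟨R, hR, hT⟩ := Finset.mem_biUnion.1 hT
    exact Finset.mem_erase.2
      ⟨(hblock x R (hxB R hR) T ((Set.Finite.mem_toFinset _).1 hT)).1, Finset.mem_univ _⟩
  have h := Finset.card_le_card hsub
  rw [Finset.card_biUnion hdisj, Finset.sum_congr rfl (fun R hR => by
    rw [← Set.ncard_eq_toFinset_card _ _, (horb x R (hxB R hR)).2] : ∀ R ∈ B, (f R).card = p),
    Finset.sum_const, hBc, smul_eq_mul, Finset.card_erase_of_mem (Finset.mem_univ x),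
    Finset.card_univ, ← Nat.card_eq_fintype_card] at h
  have : (p + 1) * p = p ^ 2 + p := by ring
  omega

/-- Let S be a finite non-abelian simple group and p a prime dividing its order. If S has fewer than p² Sylow p-subgroups, then its Sylow p-subgroups have order p. -/
theorem result {S : Type*} [Group S] [Finite S]
    [IsSimpleGroup S] (hS : ¬ IsMulCommutative S) (p : ℕ) [Fact p.Prime] (hp : p ∣ Nat.card S)
    (hn : Nat.card (Sylow p S) < p ^ 2) (P : Sylow p S) : Nat.card P = p := by
  exact core hS p hp hn P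

end Cfsg.Agent.S4343
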