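import Cfsg.Statements.S4460
import Cfsg.Agent.Lib.CharDegreesTheory.ThreeDegreesLength

set_option autoImplicit false
open Cfsg

namespace Cfsg.Agent.S4460

/-- A finite group with exactly three distinct irreducible character degrees is solvable of derived length at most 3: its third derived subgroup is trivial. -/
theorem result {G : Type*} [Group G] [Finite G] (hcd : Nat.card {n : ℕ // ∃ χ : Cfsg.IrrCharacter G, Cfsg.charDegree (χ : G → ℂ) = n} = 3) : derivedSeries G 3 = ⊥ := by
  classical
  haveI := Fintype.ofFinite G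
  haveI : Finite {n : ℕ // ∃ χ : Cfsg.IrrCharacter G, Cfsg.charDegree (χ : G → ℂ) = n} :=
    Nat.finite_of_card_ne_zero (by omega)
  haveI := Fintype.ofFinite {n : ℕ // ∃ χ : Cfsg.IrrCharacter G, Cfsg.charDegree (χ : G → ℂ) = n}
  rw [Nat.card_eq_fintype_card] at hcd
  obtain ⟨x, y, z, -, -, -, hxyz⟩ := Finset.card_eq_three.1 ((Finset.card_univ).trans hcd)
  have h1 : ∀ χ : Cfsg.IrrCharacter G, Cfsg.charDegree (χ : G → ℂ) = x.1 ∨
      Cfsg.charDegree (χ : G → ℂ) = y.1 ∨ Cfsg.charDegree (χ : G → ℂ) = z.1 := fun χ => by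
    have h := Finset.mem_univ (⟨_, χ, rfl⟩ :
      {n : ℕ // ∃ χ : Cfsg.IrrCharacter G, Cfsg.charDegree (χ : G → ℂ) = n})
    rw [hxyz] at h
    simp only [Finset.mem_insert, Finset.mem_singleton] at h
    exact h.imp (congrArg Subtype.val) (Or.imp (congrArg Subtype.val) (congrArg Subtype.val))
  have ht : Cfsg.charDegree (CfsgLib.CharTheory.trivIrr G : G → ℂ) = 1 := by
    simp [Cfsg.charDegree, CfsgLib.CharTheory.trivIrr_apply]
  rcases h1 (CfsgLib.CharTheory.trivIrr G) with e | e | e <;> rw [ht] at e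
  · exact CfsgLib.CharDegreesTheory.ThreeDegrees.derivedSeries_three
      (a := y.1) (b := z.1) fun χ => by rcases h1 χ with f | f | f <;> omega
  · exact CfsgLib.CharDegreesTheory.ThreeDegrees.derivedSeries_three
      (a := x.1) (b := z.1) fun χ => by rcases h1 χ with f | f | f <;> omega
  · exact CfsgLib.CharDegreesTheory.ThreeDegrees.derivedSeries_three
      (a := x.1) (b := y.1) fun χ => by rcases h1 χ with f | f | f <;> omega

end Cfsg.Agent.S4460
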