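import Cfsg.Statements.S0054
import Mathlib.GroupTheory.PGroup
import Mathlib.GroupTheory.GroupAction.MultipleTransitivity
-- import your own Cfsg.Agent.* helpers here

set_option autoImplicit false
open Cfsg

namespace Cfsg.Agent.S0054

/-- A regular normal subgroup of a finite 2-transitive group is elementary abelian: it is commutative and all its elements have order dividing one prime. -/
theorem result {G : Type*} [Group G] [Finite G]
    {X : Type*} [Nonempty X] [MulAction G X] (h2 : MulAction.IsMultiplyPretransitive G X 2)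
    (N : Subgroup G) [N.Normal] (htrans : MulAction.IsPretransitive N X) (hreg : ∀ x : X, MulAction.stabilizer N x = ⊥) :
    IsMulCommutative N ∧ ∃ p : ℕ, p.Prime ∧ ∀ n ∈ N, n ^ p = 1 := by
  classical
  have hconj : ∀ n ∈ N, ∀ m ∈ N, n ≠ 1 → m ≠ 1 → ∃ g : G, g * n * g⁻¹ = m := by
    intro n hn m hm hn1 hm1
    obtain ⟨x⟩ := ‹Nonempty X›
    have hfix : ∀ k ∈ N, k ≠ 1 → k • x ≠ x := fun k hk hk1 he => hk1 (by
      have h1 : (⟨k, hk⟩ : N) ∈ MulAction.stabilizer N x := he
      rw [hreg x, Subgroup.mem_bot] at h1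
      exact congrArg Subtype.val h1)
    obtain ⟨g, hgx, hgn⟩ := MulAction.is_two_pretransitive_iff.1 h2 (hfix n hn hn1).symm
      (hfix m hm hm1).symm
    refine ⟨g, ?_⟩
    have h1 : (g * n * g⁻¹) • x = m • x := by
      rw [mul_smul, mul_smul, show g⁻¹ • x = x by rw [inv_smul_eq_iff, hgx]]
      exact hgn
    have h3 : (m⁻¹ * (g * n * g⁻¹)) • x = x := by rw [mul_smul, h1, inv_smul_smul]
    by_contra hne
    exact hfix _ (N.mul_mem (N.inv_mem hm) (Subgroup.Normal.conj_mem ‹_› _ hn g))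
      (fun h => hne ((inv_mul_eq_one.1 h).symm)) h3
  rcases eq_or_ne N ⊥ with rfl | hN
  · exact ⟨inferInstance, 2, Nat.prime_two, fun n hn => by simp [Subgroup.mem_bot.1 hn]⟩
  have hc : Nat.card N ≠ 1 := fun h => hN (Subgroup.card_eq_one.1 h)
  obtain ⟨p, hp, hdvd⟩ := Nat.exists_prime_and_dvd hc
  haveI := Fact.mk hp
  obtain ⟨a, ha⟩ := exists_prime_orderOf_dvd_card' (G := N) p hdvd
  have ha1 : (a : G) ≠ 1 := fun h => by
    rw [OneMemClass.coe_eq_one] at h
    rw [h, orderOf_one] at ha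
    exact hp.one_lt.ne ha
  have hexp : ∀ n ∈ N, n ^ p = 1 := by
    intro n hn
    rcases eq_or_ne n 1 with rfl | hn1
    · simp
    obtain ⟨g, rfl⟩ := hconj a a.2 n hn ha1 hn1
    rw [conj_pow, ← ha, ← Subgroup.orderOf_coe, pow_orderOf_eq_one, mul_one, mul_inv_cancel]
  refine ⟨?_, p, hp, hexp⟩
  have hP : IsPGroup p N := fun x => ⟨1, Subtype.ext (by simpa using hexp x x.2)⟩
  haveI : Nontrivial N := (Subgroup.nontrivial_iff_ne_bot N).2 hN
  haveI : Nontrivial (Subgroup.center N) := hP.center_nontrivial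
  obtain ⟨z, hz⟩ := exists_ne (1 : Subgroup.center N)
  have hz1 : ((z : N) : G) ≠ 1 := fun h => hz (Subtype.ext (Subtype.ext h))
  rw [← Subgroup.le_centralizer_iff_isMulCommutative]
  intro n hn
  rcases eq_or_ne n 1 with rfl | hn1
  · exact one_mem _
  obtain ⟨g, rfl⟩ := hconj _ (z : N).2 n hn hz1 hn1
  rw [Subgroup.mem_centralizer_iff]
  intro m hm
  have h1 : g⁻¹ * m * g ∈ N := by simpa using Subgroup.Normal.conj_mem ‹N.Normal› _ hm g⁻¹
  have h2 : g⁻¹ * m * g * ((z : N) : G) = ((z : N) : G) * (g⁻¹ * m * g) :=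
    congrArg Subtype.val (Subgroup.mem_center_iff.1 z.2 ⟨_, h1⟩)
  calc m * (g * ((z : N) : G) * g⁻¹) = g * (g⁻¹ * m * g * ((z : N) : G)) * g⁻¹ := by group
    _ = g * (((z : N) : G) * (g⁻¹ * m * g)) * g⁻¹ := by rw [h2]
    _ = g * ((z : N) : G) * g⁻¹ * m := by group

end Cfsg.Agent.S0054
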