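import Cfsg.Statements.S0077
import Cfsg.Agent.Lib.Transfer.Fusion

set_option autoImplicit false
open Cfsg

namespace Cfsg.Agent.S0077

open CfsgLib.Transfer Subgroup
open scoped commutatorElement
/-- If a subgroup Z of the centre of a Sylow p-subgroup P is weakly closed in P, then P meets the derived subgroup of G exactly where it meets the derived subgroup of the normalizer of Z. -/
theorem result {G : Type*} [Group G] [Finite G] {p : ℕ} [Fact p.Prime] (P : Sylow p G) (Z : Subgroup G) (hZ : Z ≤ Subgroup.centralizer (P : Set G)) (hW : Cfsg.IsWeaklyClosed Z P) : commutator G ⊓ (P : Subgroup G) = ⁅Subgroup.normalizer (Z : Set G), Subgroup.normalizer (Z : Set G)⁆ ⊓ (P : Subgroup G) := by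
  refine commutator_inf_eq_of_control P (fun x hx => ?_) (weaklyClosed_control P hZ hW)
  refine mem_normalizer_iff.mpr fun z => ?_
  constructor
  · intro hz
    have : x * z = z * x := hZ hz x hx
    rwa [this, mul_inv_cancel_right]
  · intro hz
    have h1 : x * (x * z * x⁻¹) = x * z * x⁻¹ * x := hZ hz x hx
    rw [inv_mul_cancel_right, mul_right_inj] at h1
    exact h1 ▸ hz

end Cfsg.Agent.S0077
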