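import Cfsg.Statements.S0081
import Cfsg.Agent.Lib.Transfer.Tate

set_option autoImplicit false
open Cfsg

namespace Cfsg.Agent.S0081

open CfsgLib.Transfer Subgroup
open scoped commutatorElement
theorem map_frattini_le_frattini_equiv {A B : Type*} [Group A] [Group B] (e : A ≃* B) :
    (frattini A).map e.toMonoidHom ≤ frattini B := by
  rw [map_le_iff_le_comap]
  exact frattini_le_comap_frattini_of_surjective e.surjective

/-- If a normal subgroup meets a Sylow p-subgroup P inside the Frattini subgroup of P, then it has a normal p-complement. -/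
theorem result {G : Type*} [Group G] [Finite G] {p : ℕ} [Fact p.Prime] (P : Sylow p G) (N : Subgroup G) [N.Normal] (h : N ⊓ (P : Subgroup G) ≤ (frattini P).map (P : Subgroup G).subtype) : Cfsg.HasNormalPComplement p N := by
  set K : Subgroup G := N ⊔ (P : Subgroup G) with hK
  have hPK : (P : Subgroup G) ≤ K := le_sup_right
  set P' := P.subtype hPK with hP'
  set N' := N.subgroupOf K with hN'
  have hNn : N'.Normal := inferInstance
  have hq : IsPGroup p (K ⧸ N') :=
    IsPGroup.of_surjective P'.2 ((QuotientGroup.mk' N').comp (P' : Subgroup K).subtype) fun x => by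
      obtain ⟨⟨g, hg⟩, rfl⟩ := QuotientGroup.mk'_surjective N' x
      obtain ⟨n, hn, y, hy, hny⟩ := mem_sup_of_normal_left.mp hg
      refine ⟨⟨⟨y, hPK hy⟩, hy⟩, ?_⟩
      refine (QuotientGroup.eq_iff_div_mem).mpr ?_
      change y / g ∈ N
      rw [← hny, div_eq_mul_inv, mul_inv_rev, mul_inv_cancel_left]
      exact inv_mem hn
  have hle : pResidual p K ≤ N' := pResidual_le_of_isPGroup hq
  have hKn : (pResidual p K).Normal := pResidual_normal
  have hfr : (P' : Subgroup K) ⊓ pResidual p K ≤ (frattini P').map (P' : Subgroup K).subtype := by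
    intro x hx
    obtain ⟨y, hy, hxy⟩ := h ⟨hle hx.2, hx.1⟩
    let e := subgroupOfEquivOfLe hPK
    refine ⟨e.symm y, map_frattini_le_frattini_equiv e.symm ⟨y, hy, rfl⟩, Subtype.ext ?_⟩
    exact hxy
  obtain ⟨R, C, hCn, hC⟩ := hasNormalPComplement_of_inf_le_frattini P' hfr
  have hnd : ¬ p ∣ Nat.card (pResidual p K) := fun hd =>
    not_dvd_card_normalComplement R hC (hd.trans (card_dvd_of_le (pResidual_le_normalComplement R hC)))
  refine hasNormalPComplement_of_not_dvd fun hd => hnd (hd.trans ?_)
  let i : N →* K := Subgroup.inclusion le_sup_left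
  rw [← card_map_of_injective (f := i) (Subgroup.inclusion_injective _)]
  exact card_dvd_of_le (map_pResidual_le i)

end Cfsg.Agent.S0081
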