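import Cfsg.Statements.S0188
import Cfsg.Agent.Lib.CharTheory.Orthogonality
import Cfsg.Agent.Lib.Brauer.CharRing

set_option autoImplicit false
open Cfsg

namespace Cfsg.Agent.S0188

/-- The irreducible complex characters of G × H are precisely the functions (g, h) ↦ φ g * ψ h with φ, ψ irreducible characters of G and H. -/
theorem result {G : Type*} [Group G] [Finite G] {H : Type*} [Group H] [Finite H] (θ : G × H → ℂ) : Cfsg.IsIrrCharacter (G × H) θ ↔ ∃ (φ : G → ℂ) (ψ : H → ℂ), Cfsg.IsIrrCharacter G φ ∧ Cfsg.IsIrrCharacter H ψ ∧ θ = fun x => φ x.1 * ψ x.2 := by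
  classical
  open CfsgLib.CharTheory in
  have := Fintype.ofFinite G
  have := Fintype.ofFinite H
  have hirr : ∀ (φ : Cfsg.IrrCharacter G) (ψ : Cfsg.IrrCharacter H),
      Cfsg.IsIrrCharacter (G × H) (fun x => (φ : G → ℂ) x.1 * (ψ : H → ℂ) x.2) := by
    intro φ ψ
    refine (CfsgLib.CharTheory.isIrrCharacter_iff_norm_one
      (CfsgLib.Brauer.isCharacter_mul
        (CfsgLib.Coherence.isCharacter_comp
          (CfsgLib.CharTheory.IsIrrCharacter.isCharacter φ.2) (MonoidHom.fst G H))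
        (CfsgLib.Coherence.isCharacter_comp
          (CfsgLib.CharTheory.IsIrrCharacter.isCharacter ψ.2) (MonoidHom.snd G H)))).2 ?_
    have h : Cfsg.classInner (fun x : G × H => (φ : G → ℂ) x.1 * (ψ : H → ℂ) x.2)
        (fun x => (φ : G → ℂ) x.1 * (ψ : H → ℂ) x.2)
        = Cfsg.classInner (φ : G → ℂ) φ * Cfsg.classInner (ψ : H → ℂ) ψ := by
      simp only [Cfsg.classInner, Nat.card_prod, Nat.cast_mul, mul_inv, map_mul,
        Fintype.sum_prod_type, Finset.mul_sum, Finset.sum_mul]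
      rw [Finset.sum_comm]
      exact Finset.sum_congr rfl fun _ _ => Finset.sum_congr rfl fun _ _ => by ring
    change Cfsg.classInner (fun x : G × H => (φ : G → ℂ) x.1 * (ψ : H → ℂ) x.2)
        (fun x => (φ : G → ℂ) x.1 * (ψ : H → ℂ) x.2) = 1
    rw [h, CfsgLib.CharTheory.classInner_self_of_isIrr φ.2,
      CfsgLib.CharTheory.classInner_self_of_isIrr ψ.2, one_mul]
  constructor
  swap
  · rintro ⟨φ, ψ, hφ, hψ, rfl⟩
    exact hirr ⟨φ, hφ⟩ ⟨ψ, hψ⟩
  intro hθ
  let Φ : Cfsg.IrrCharacter G × Cfsg.IrrCharacter H → Cfsg.IrrCharacter (G × H) :=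
    fun p => ⟨_, hirr p.1 p.2⟩
  have hinj : Function.Injective Φ := by
    rintro ⟨φ, ψ⟩ ⟨φ', ψ'⟩ e
    have e' : ∀ (g : G) (h : H), (φ : G → ℂ) g * (ψ : H → ℂ) h = (φ' : G → ℂ) g * (ψ' : H → ℂ) h :=
      fun g h => congrFun (congrArg Subtype.val e) (g, h)
    have n1 := CfsgLib.CharTheory.apply_one_ne_zero_of_isIrr φ.2
    have n2 := CfsgLib.CharTheory.apply_one_ne_zero_of_isIrr ψ.2
    obtain ⟨a, ha, ha1⟩ := CfsgLib.CharTheory.exists_degree_of_isIrr φ'.2
    obtain ⟨b, hb, hb1⟩ := CfsgLib.CharTheory.exists_degree_of_isIrr ψ'.2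
    have hφ : (φ : G → ℂ) = ((ψ' : H → ℂ) 1 / (ψ : H → ℂ) 1) • (φ' : G → ℂ) := funext fun g => by
      simp only [Pi.smul_apply, smul_eq_mul]
      field_simp
      linear_combination e' g 1
    have hs : ((ψ' : H → ℂ) 1 / (ψ : H → ℂ) 1) = 1 := by
      have hφe : φ = φ' := by
        by_contra hne
        have h0 := CfsgLib.CharTheory.classInner_eq_zero_of_ne φ.2 φ'.2 (fun q => hne (Subtype.ext q))
        rw [hφ, CfsgLib.CharTheory.classInner_smul_left,
          CfsgLib.CharTheory.classInner_self_of_isIrr φ'.2, mul_one, div_eq_zero_iff] at h0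
        exact h0.elim (CfsgLib.CharTheory.apply_one_ne_zero_of_isIrr ψ'.2) n2
      have h1 := congrFun hφ 1
      rw [hφe] at h1
      simp only [Pi.smul_apply, smul_eq_mul] at h1
      exact (mul_eq_right₀ (CfsgLib.CharTheory.apply_one_ne_zero_of_isIrr φ'.2)).1 h1.symm
    rw [hs, one_smul] at hφ
    refine Prod.ext (Subtype.ext hφ) (Subtype.ext (funext fun h => ?_))
    have := e' 1 h
    rw [hφ] at this
    exact mul_left_cancel₀ (CfsgLib.CharTheory.apply_one_ne_zero_of_isIrr φ'.2) this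
  have hcls : Nat.card (ConjClasses (G × H)) = Nat.card (ConjClasses G) * Nat.card (ConjClasses H) := by
    rw [← Nat.card_prod]
    refine Nat.card_congr (Equiv.ofBijective
      (fun C => (ConjClasses.map (MonoidHom.fst G H) C, ConjClasses.map (MonoidHom.snd G H) C))
      ⟨fun C D e => ?_, fun C => ?_⟩)
    · obtain ⟨c, rfl⟩ := ConjClasses.exists_rep C
      obtain ⟨d, rfl⟩ := ConjClasses.exists_rep D
      obtain ⟨x, hx⟩ := isConj_iff.1 (ConjClasses.mk_eq_mk_iff_isConj.1 (congrArg Prod.fst e))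
      obtain ⟨y, hy⟩ := isConj_iff.1 (ConjClasses.mk_eq_mk_iff_isConj.1 (congrArg Prod.snd e))
      exact ConjClasses.mk_eq_mk_iff_isConj.2 (isConj_iff.2 ⟨(x, y), Prod.ext hx hy⟩)
    · obtain ⟨c, hc⟩ := ConjClasses.exists_rep C.1
      obtain ⟨d, hd⟩ := ConjClasses.exists_rep C.2
      exact ⟨ConjClasses.mk (c, d), Prod.ext hc hd⟩
  have hbij := (Nat.bijective_iff_injective_and_card Φ).2 ⟨hinj, by
    rw [Nat.card_prod, CfsgLib.CharTheory.card_irrCharacter, CfsgLib.CharTheory.card_irrCharacter,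
      CfsgLib.CharTheory.card_irrCharacter, hcls]⟩
  obtain ⟨⟨φ, ψ⟩, he⟩ := hbij.2 ⟨θ, hθ⟩
  exact ⟨φ, ψ, φ.2, ψ.2, (congrArg Subtype.val he).symm⟩

end Cfsg.Agent.S0188
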