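import Cfsg.Statements.S0191
import Cfsg.Agent.Lib.Jordan.GaloisNorm
import Cfsg.Agent.Lib.CharTheory.Degree

set_option autoImplicit false
open Cfsg

namespace Cfsg.Agent.S0191

/-- An irreducible complex representation of a finite group of degree greater than 1 has a character that vanishes somewhere. -/
theorem result {G : Type*} [Group G] [Finite G] {V : Type*} [AddCommGroup V] [Module ℂ V] [FiniteDimensional ℂ V] (ρ : Representation ℂ G V) [ρ.IsIrreducible] (hdeg : 1 < Module.finrank ℂ V) : ∃ g : G, ρ.character g = 0 := by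
  classical
  haveI := Fintype.ofFinite G
  by_contra h
  push Not at h
  have hchi : Cfsg.IsCharacter G ρ.character := CfsgLib.CharTheory.isCharacter_character ρ
  have hstab : ∀ g ∈ (Finset.univ.erase (1 : G)), ∀ t : ℕ, t.Coprime (Nat.card G) →
      g ^ t ∈ Finset.univ.erase (1 : G) := by
    intro g hg t ht
    refine Finset.mem_erase.2 ⟨fun e => (Finset.mem_erase.1 hg).1 ?_, Finset.mem_univ _⟩
    exact orderOf_eq_one_iff.1
      (Nat.eq_one_of_dvd_coprimes ht (orderOf_dvd_of_pow_eq_one e) (orderOf_dvd_natCard g))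
  have h1 := CfsgLib.Jordan.card_le_sum_norm_sq_of_stable hchi _ hstab (fun g _ => h g)
  have h2 := CfsgLib.CharTheory.classInner_self_of_isIrr
    (CfsgLib.CharTheory.isIrrCharacter_character ρ)
  rw [Cfsg.classInner, inv_mul_eq_one₀ (by exact_mod_cast Nat.card_pos.ne')] at h2
  have h3 : ∑ g : G, ‖ρ.character g‖ ^ 2 = (Nat.card G : ℝ) := by
    have : ((∑ g : G, ‖ρ.character g‖ ^ 2 : ℝ) : ℂ) = (Nat.card G : ℂ) := by
      rw [h2]
      push_cast
      exact Finset.sum_congr rfl fun g _ => (Complex.mul_conj' _).symm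
    exact_mod_cast this
  rw [← Finset.add_sum_erase _ _ (Finset.mem_univ (1 : G)), ρ.char_one, Complex.norm_natCast] at h3
  have h4 : (2 : ℝ) ≤ Module.finrank ℂ V := by exact_mod_cast hdeg
  have h5 : ((Finset.univ.erase (1 : G)).card : ℝ) + 1 = Nat.card G := by
    rw [← Nat.cast_add_one, Finset.card_erase_add_one (Finset.mem_univ _), Finset.card_univ,
      Nat.card_eq_fintype_card]
  nlinarith

end Cfsg.Agent.S0191
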