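import Cfsg.Statements.S0247
import Cfsg.Agent.Lib.ClassicalLinear.BlockHom
import Cfsg.Agent.Lib.ClassicalLinear.SympCard

set_option autoImplicit false
open Cfsg

namespace Cfsg.Agent.S0247

open Matrix

abbrev Z := ZMod 2
abbrev I4 := Fin 2 ⊕ Fin 2

/-- The even-weight vectors spanning the natural module. -/
def emb : Matrix (Fin 6) I4 Z := fun a i =>
  match i with
  | .inl i => (![![1, 0], ![1, 0], ![0, 0], ![0, 1], ![0, 1], ![0, 0]] : Fin 6 → Fin 2 → Z) a i
  | .inr i => (![![0, 0], ![1, 0], ![1, 0], ![0, 0], ![0, 1], ![0, 1]] : Fin 6 → Fin 2 → Z) a i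

def prj : Matrix I4 (Fin 6) Z := Matrix.J (Fin 2) Z * embᵀ

theorem prj_emb : prj * emb = 1 := by decide

theorem prj_one : prj *ᵥ (fun _ => 1) = 0 := by decide

def swapMat (i j : Fin 6) : Matrix I4 I4 Z := prj * emb.submatrix (Equiv.swap i j) id

theorem swap_spec : ∀ i j : Fin 6, ∀ a k, emb (Equiv.swap i j a) k =
    (emb * swapMat i j) a k + (emb (Equiv.swap i j 0) k - (emb * swapMat i j) 0 k) := by
  decide +kernel

theorem swap_symp : ∀ i j : Fin 6,
    (swapMat i j)ᵀ * Matrix.J (Fin 2) Z * swapMat i j = Matrix.J (Fin 2) Z := by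
  decide +kernel

theorem translation_eq_zero : ∀ c : I4 → Z,
    ¬ (∀ a, ∃ b, ((fun i => emb b i) = fun i => emb a i + c i)) ∨ c = 0 := by
  decide +kernel

theorem emb_injective : ∀ a b : Fin 6, ¬ ((fun i => emb a i) = fun i => emb b i) ∨ a = b := by
  decide +kernel

theorem exists_hom : ∃ φ : Equiv.Perm (Fin 6) →* Matrix.symplecticGroup (Fin 2) Z,
    Function.Injective φ := by
  obtain ⟨ρ, hρ⟩ := CfsgLib.ClassicalLinear.exists_linear_hom
    (MonoidHom.id (Equiv.Perm (Fin 6))) emb prj prj_emb prj_one Equiv.Perm.mclosure_isSwap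
    (by
      rintro g ⟨i, j, -, rfl⟩
      exact ⟨_, _, swap_spec i j⟩)
  have hmem : ∀ g, (ρ g : Matrix I4 I4 Z) ∈ Matrix.symplecticGroup (Fin 2) Z := by
    intro g
    have hg : g ∈ Submonoid.closure {σ : Equiv.Perm (Fin 6) | σ.IsSwap} := by
      rw [Equiv.Perm.mclosure_isSwap]; trivial
    induction hg
      using Submonoid.closure_induction with
    | mem g hg =>
      obtain ⟨i, j, -, rfl⟩ := hg
      obtain ⟨c, hc⟩ := hρ (Equiv.swap i j)
      have hcol : (fun a => emb (Equiv.swap i j a)) = fun a k => (emb * (ρ (Equiv.swap i j) :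
          Matrix I4 I4 Z)) a k + c k := by
        funext a k
        exact hc a k
      have hmat : emb.submatrix (Equiv.swap i j) id = emb * (ρ (Equiv.swap i j) : Matrix I4 I4 Z) +
          Matrix.vecMulVec (fun _ => 1) c := by
        ext a k
        simp only [Matrix.submatrix_apply, id, Matrix.add_apply, Matrix.vecMulVec_apply, one_mul]
        exact congrFun (congrFun hcol a) k
      have hM : (ρ (Equiv.swap i j) : Matrix I4 I4 Z) = swapMat i j := by
        rw [swapMat, hmat, Matrix.mul_add, ← Matrix.mul_assoc, prj_emb, Matrix.one_mul,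
          Matrix.mul_vecMulVec, prj_one, Matrix.zero_vecMulVec, add_zero]
      rw [hM, SymplecticGroup.mem_iff']
      exact swap_symp i j
    | one => rw [map_one, Units.val_one]; exact one_mem _
    | mul g h _ _ hg hh => rw [map_mul, Units.val_mul]; exact mul_mem hg hh
  refine ⟨{ toFun := fun g => ⟨_, hmem g⟩
            map_one' := Subtype.ext (by simp)
            map_mul' := fun g h => Subtype.ext (by simp) }, ?_⟩
  refine (injective_iff_map_eq_one _).2 fun g hg => ?_
  obtain ⟨c, hc⟩ := hρ g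
  have h1 : (ρ g : Matrix I4 I4 Z) = 1 := congrArg Subtype.val hg
  rw [h1, Matrix.mul_one] at hc
  have hc0 : c = 0 := (translation_eq_zero c).resolve_left
    (not_not.2 fun a => ⟨g.symm a, funext fun i => hc a i⟩)
  refine Equiv.ext fun b => ?_
  have h := hc (g b)
  simp only [MonoidHom.id_apply, Equiv.symm_apply_apply, hc0, Pi.zero_apply, add_zero] at h
  exact ((emb_injective _ _).resolve_left (not_not.2 (funext h))).symm

theorem exists_equiv : Nonempty (Equiv.Perm (Fin 6) ≃* Matrix.symplecticGroup (Fin 2) Z) := by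
  obtain ⟨φ, hφ⟩ := exists_hom
  refine ⟨MulEquiv.ofBijective φ ((Nat.bijective_iff_injective_and_card φ).2 ⟨hφ, ?_⟩)⟩
  rw [CfsgLib.ClassicalLinear.card_sp, Nat.card_perm, Nat.card_fin, ZMod.card]
  rfl

/-- Change of coefficient ring for symplectic groups. -/
def spMap {R S : Type*} [CommRing R] [CommRing S] (e : R ≃+* S) :
    Matrix.symplecticGroup (Fin 2) R ≃* Matrix.symplecticGroup (Fin 2) S where
  toFun A := ⟨A.1.map e, SymplecticGroup.map_mem A.2 e⟩
  invFun A := ⟨A.1.map e.symm, SymplecticGroup.map_mem A.2 e.symm⟩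
  left_inv A := Subtype.ext (by ext i j; simp)
  right_inv A := Subtype.ext (by ext i j; simp)
  map_mul' A B := Subtype.ext (by simp [Matrix.map_mul])

/-- Sp_4(2) is isomorphic to the symmetric group S_6. -/
theorem result {F : Type*} [Field F] [Fintype F] (hF : Fintype.card F = 2) : Nonempty (Matrix.symplecticGroup (Fin 2) F ≃* Equiv.Perm (Fin 6)) := by
  obtain ⟨f⟩ := exists_equiv
  exact ⟨(spMap (ZMod.ringEquivOfPrime F Nat.prime_two hF).symm).trans f.symm⟩

end Cfsg.Agent.S0247
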