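import Cfsg.Statements.S0436


set_option autoImplicit false
open Cfsg

namespace Cfsg.Agent.S0436


theorem inv_self {G : Type*} [Group G] {E : Set G} (hE : Cfsg.IsThreeTranspositionSet E) {d : G} (hd : d ∈ E) :
    d * d = 1 := by
  have := pow_orderOf_eq_one d
  rw [hE.1 d hd, pow_two] at this
  exact this

theorem braid {G : Type*} [Group G] {E : Set G} (hE : Cfsg.IsThreeTranspositionSet E) {d e : G} (hd : d ∈ E)
    (he : e ∈ E) (h : ¬ Commute d e) : d * e * d = e * d * e := by
  have h1 := inv_self hE hd
  have h2 := inv_self hE he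
  have i1 : d⁻¹ = d := inv_eq_of_mul_eq_one_right h1
  have i2 : e⁻¹ = e := inv_eq_of_mul_eq_one_right h2
  rcases hE.2 d hd e he with h3 | h3
  · refine absurd ?_ h
    have : d * e = (d * e)⁻¹ := by
      rw [eq_inv_iff_mul_eq_one, ← pow_two]; exact h3
    rw [mul_inv_rev, i1, i2] at this
    exact this
  · have : d * e * d = (e * (d * e))⁻¹ := by
      rw [eq_inv_iff_mul_eq_one]
      rw [pow_succ, pow_two] at h3
      simpa [mul_assoc] using h3
    rw [this, mul_inv_rev, mul_inv_rev, i1, i2]

theorem two_comm {G : Type*} [Group G] {E : Set G} (hE : Cfsg.IsThreeTranspositionSet E) {a b e : G}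
    (ha : a ∈ E) (hb : b ∈ E) (he : e ∈ E) (hab : a ≠ b) (hx : Commute e (a * b)) :
    Commute e a ∧ Commute e b := by
  have h1 := inv_self hE ha
  have h2 := inv_self hE hb
  have h3 := inv_self hE he
  by_cases hea : Commute e a
  · refine ⟨hea, ?_⟩
    have : b = a * (a * b) := by rw [← mul_assoc, h1, one_mul]
    rw [this]; exact hea.mul_right hx
  by_cases heb : Commute e b
  · refine ⟨?_, heb⟩
    have : a = (a * b) * b := by rw [mul_assoc, h2, mul_one]
    rw [this]; exact hx.mul_right heb
  exfalso
  have b1 := braid hE he ha hea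
  have b2 := braid hE he hb heb
  have hc : e * (a * b) * e = a * b := by
    rw [hx.eq, mul_assoc, h3, mul_one]
  have hc' : (e * a * e) * (e * b * e) = a * b := by
    calc (e * a * e) * (e * b * e) = e * a * (e * e) * b * e := by group
      _ = e * (a * b) * e := by rw [h3]; group
      _ = a * b := hc
  rw [b1, b2] at hc'
  have h4 : e * (a * b) * e = 1 := by
    have h5 : a * (e * (a * b) * e) * b = a * 1 * b := by
      rw [mul_one]
      calc a * (e * (a * b) * e) * b = (a * e * a) * (b * e * b) := by group
        _ = a * b := hc'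
    exact mul_left_cancel (mul_right_cancel h5)
  rw [hc] at h4
  exact hab (by calc a = a * (b * b) := by rw [h2, mul_one]
                     _ = a * b * b := by group
                     _ = b := by rw [h4, one_mul])

/-- For distinct commuting members a, b of a set of 3-transpositions E, a member e of E centralises the product a * b if and only if it centralises both a and b. -/
theorem result {G : Type*} [Group G] {E : Set G} (hE : Cfsg.IsThreeTranspositionSet E) {a b e : G} (ha : a ∈ E) (hb : b ∈ E) (he : e ∈ E) (hab : a ≠ b) (hcomm : Commute a b) : Commute e (a * b) ↔ (Commute e a ∧ Commute e b) := by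
  refine ⟨two_comm hE ha hb he hab, ?_⟩
  rintro ⟨h1, h2⟩
  exact h1.mul_right h2

end Cfsg.Agent.S0436
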