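import Cfsg.Statements.S0437
import Cfsg.Agent.S0436

set_option autoImplicit false
open Cfsg

namespace Cfsg.Agent.S0437

/-- For three distinct, pairwise commuting members a, b, c of a set of 3-transpositions E, a member e of E centralises a * b * c if and only if it centralises each of a, b and c. -/
theorem result {G : Type*} [Group G] {E : Set G} (hE : Cfsg.IsThreeTranspositionSet E) {a b c e : G} (ha : a ∈ E) (hb : b ∈ E) (hc : c ∈ E) (he : e ∈ E) (hab : a ≠ b) (hac : a ≠ c) (hbc : b ≠ c) (h₁ : Commute a b) (h₂ : Commute a c) (h₃ : Commute b c) : Commute e (a * b * c) ↔ (Commute e a ∧ Commute e b ∧ Commute e c) := by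
  refine ⟨?_, fun ⟨x, y, z⟩ => (x.mul_right y).mul_right z⟩
  intro hx
  have hA := S0436.inv_self hE ha
  have hB := S0436.inv_self hE hb
  have hC := S0436.inv_self hE hc
  have hEe := S0436.inv_self hE he
  by_cases hea : Commute e a
  · have h : b * c = a * (a * b * c) := by rw [mul_assoc a b c, ← mul_assoc a a, hA, one_mul]
    have h' : Commute e (b * c) := by rw [h]; exact hea.mul_right hx
    exact ⟨hea, S0436.two_comm hE hb hc he hbc h'⟩
  by_cases hec : Commute e c
  · have h : a * b = (a * b * c) * c := by rw [mul_assoc, hC, mul_one]
    have h' : Commute e (a * b) := by rw [h]; exact hx.mul_right hec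
    obtain ⟨p, q⟩ := S0436.two_comm hE ha hb he hab h'
    exact ⟨p, q, hec⟩
  by_cases heb : Commute e b
  · have h : a * c = (a * b * c) * b := by
      rw [mul_assoc (a * b) c b, ← h₃.eq, ← mul_assoc, mul_assoc a b b, hB, mul_one]
    have h' : Commute e (a * c) := by rw [h]; exact hx.mul_right heb
    obtain ⟨p, q⟩ := S0436.two_comm hE ha hc he hac h'
    exact ⟨p, heb, q⟩
  exfalso
  have b1 := S0436.braid hE he ha hea
  have b2 := S0436.braid hE he hb heb
  have b3 := S0436.braid hE he hc hec
  have key : a * e * a = b * c * e * c * b := by
    have h : e * (a * b * c) = (a * b * c) * e := hx.eq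
    calc a * e * a = a * (e * (a * b * c)) * (c * b) := by
          symm
          calc a * (e * (a * b * c)) * (c * b) = a * e * a * b * (c * c) * b := by group
            _ = a * e * a * (b * b) := by rw [hC]; group
            _ = a * e * a := by rw [hB, mul_one]
      _ = a * ((a * b * c) * e) * (c * b) := by rw [h]
      _ = (a * a) * b * c * e * c * b := by group
      _ = b * c * e * c * b := by rw [hA, one_mul]
  have key2 : a * e * a = b * e * c * e * b := by
    rw [key]
    calc b * c * e * c * b = b * (c * e * c) * b := by group
      _ = b * (e * c * e) * b := by rw [b3]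
      _ = b * e * c * e * b := by group
  have hcb : b * c * b = c := by rw [h₃.eq, mul_assoc, hB, mul_one]
  have : a = a * e * a := by
    calc a = e * (e * a * e) * e := by
          symm
          calc e * (e * a * e) * e = (e * e) * a * (e * e) := by group
            _ = a := by rw [hEe, one_mul, mul_one]
      _ = e * (b * e * c * e * b) * e := by rw [b1, key2]
      _ = (e * b * e) * c * (e * b * e) := by group
      _ = (b * e * b) * c * (b * e * b) := by rw [b2]
      _ = b * e * (b * c * b) * e * b := by group
      _ = a * e * a := by rw [hcb, key2]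
  have h1 : e * a = 1 := by
    have : a * (e * a) = a * 1 := by rw [mul_one, ← mul_assoc]; exact this.symm
    exact mul_left_cancel this
  apply hea
  have : a = e⁻¹ := eq_inv_of_mul_eq_one_right h1
  rw [this]; exact (Commute.refl e).inv_right

end Cfsg.Agent.S0437
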