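import Cfsg.Statements.S0444
import Cfsg.Agent.S0436

set_option autoImplicit false
open Cfsg

namespace Cfsg.Agent.S0444


theorem dihedral_three_equiv : Nonempty (DihedralGroup 3 ≃* Equiv.Perm (Fin 3)) := by
  let r : Equiv.Perm (Fin 3) := finRotate 3
  let s : Equiv.Perm (Fin 3) := Equiv.swap 0 1
  let f : DihedralGroup 3 → Equiv.Perm (Fin 3) := fun
    | .r i => r ^ i.val
    | .sr i => s * r ^ i.val
  refine ⟨MulEquiv.ofBijective (MonoidHom.mk' f (by decide)) ?_⟩
  rw [Fintype.bijective_iff_injective_and_card]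
  exact ⟨by decide, by simp [DihedralGroup.card, Fintype.card_perm]; decide⟩

/-- Two members of a set of 3-transpositions which do not commute generate a subgroup isomorphic to the symmetric group on three letters. -/
theorem result {G : Type*} [Group G] {E : Set G} (hE : Cfsg.IsThreeTranspositionSet E) {d e : G} (hd : d ∈ E) (he : e ∈ E) (h : ¬ Commute d e) : Nonempty (Subgroup.closure ({d, e} : Set G) ≃* Equiv.Perm (Fin 3)) := by
  obtain ⟨φ⟩ := dihedral_three_equiv
  have hd2 := S0436.inv_self hE hd
  have he2 := S0436.inv_self hE he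
  have hbr := S0436.braid hE hd he h
  have hu : (d * e) ^ 3 = 1 := by
    calc (d * e) ^ 3 = (d * e * d) * (e * d * e) := by simp only [pow_succ, pow_zero, one_mul, mul_assoc]
      _ = (d * e * d) * (d * e * d) := by rw [hbr]
      _ = d * e * (d * d) * e * d := by simp only [mul_assoc]
      _ = 1 := by rw [hd2, mul_one, mul_assoc d e e, he2, mul_one, hd2]
  have hu1 : d * e ≠ 1 := by
    intro h'
    apply h
    have : e = d⁻¹ := eq_inv_of_mul_eq_one_right h'
    rw [this]; exact (Commute.refl d).inv_right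
  have hde : d ≠ e := fun h' => h (h' ▸ Commute.refl d)
  have hinv : ∀ u : G, u = d * e → d * u * d = u⁻¹ := by
    rintro u rfl
    rw [mul_inv_rev, inv_eq_of_mul_eq_one_right he2, inv_eq_of_mul_eq_one_right hd2, ← mul_assoc d d, hd2, one_mul]
  set u := d * e with hudef
  have hord : orderOf u = 3 := orderOf_eq_prime hu hu1
  have hpow : ∀ n : ℕ, d * u ^ n = (u ^ n)⁻¹ * d := by
    intro n
    have hdi : d⁻¹ = d := inv_eq_of_mul_eq_one_right hd2
    have := hinv u rfl
    have h1 : (d * u * d⁻¹) ^ n = (u ^ n)⁻¹ := by rw [hdi, this, inv_pow]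
    rw [conj_pow, mul_inv_eq_iff_eq_mul] at h1
    exact h1
  have hpow' : ∀ n : ℕ, u ^ n * d = d * (u ^ n)⁻¹ := by
    intro n
    have := hpow n
    calc u ^ n * d = u ^ n * (d * u ^ n) * (u ^ n)⁻¹ := by simp [mul_assoc]
      _ = d * (u ^ n)⁻¹ := by rw [this]; simp [mul_assoc]
  have hadd : ∀ i j : ZMod 3, u ^ (i + j).val = u ^ i.val * u ^ j.val := by
    intro i j
    rw [← pow_add, ← pow_mod_orderOf u (i.val + j.val), hord, ← ZMod.val_add]
  have hneg : ∀ i : ZMod 3, (u ^ i.val)⁻¹ = u ^ (-i).val := by
    intro i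
    apply inv_eq_of_mul_eq_one_right
    rw [← hadd, add_neg_cancel, ZMod.val_zero, pow_zero]
  let f : DihedralGroup 3 → G := fun
    | .r i => u ^ i.val
    | .sr i => d * u ^ i.val
  have hf : ∀ a b, f (a * b) = f a * f b := by
    rintro (i | i) (j | j)
    · exact hadd i j
    · show d * u ^ (j - i).val = u ^ i.val * (d * u ^ j.val)
      rw [← mul_assoc, hpow', hneg, mul_assoc, ← hadd, neg_add_eq_sub]
    · show d * u ^ (i + j).val = d * u ^ i.val * u ^ j.val
      rw [hadd, mul_assoc]
    · show u ^ (j - i).val = d * u ^ i.val * (d * u ^ j.val)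
      rw [mul_assoc, ← mul_assoc (u ^ i.val), hpow', hneg, ← mul_assoc, ← mul_assoc, hd2, one_mul, ← hadd,
        neg_add_eq_sub]
  have hnotpow : ∀ n : ℕ, d ≠ u ^ n := by
    intro n h'
    have hc : Commute d u := by rw [h']; exact Commute.pow_self u n
    apply h
    have : e = d * u := by rw [hudef, ← mul_assoc, hd2, one_mul]
    rw [this]; exact (Commute.refl d).mul_right hc
  have hinj : Function.Injective (MonoidHom.mk' f hf) := by
    rw [injective_iff_map_eq_one]
    rintro (i | i) hi
    · have : orderOf u ∣ i.val := orderOf_dvd_of_pow_eq_one hi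
      rw [hord] at this
      have := Nat.eq_zero_of_dvd_of_lt this (ZMod.val_lt i)
      rw [ZMod.val_eq_zero] at this
      rw [this]; rfl
    · exfalso
      apply hnotpow (-i).val
      rw [← hneg]
      exact eq_inv_of_mul_eq_one_left hi
  have hrange : Subgroup.closure ({d, e} : Set G) = (MonoidHom.mk' f hf).range := by
    apply le_antisymm
    · rw [Subgroup.closure_le]
      rintro x (rfl | rfl)
      · exact ⟨DihedralGroup.sr 0, by simp [f]⟩
      · refine ⟨DihedralGroup.sr 1, ?_⟩
        show d * u ^ (1 : ZMod 3).val = _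
        rw [ZMod.val_one, pow_one, hudef, ← mul_assoc, hd2, one_mul]
    · rintro x ⟨y, rfl⟩
      have hdm : d ∈ Subgroup.closure ({d, e} : Set G) := Subgroup.subset_closure (Or.inl rfl)
      have hum : u ∈ Subgroup.closure ({d, e} : Set G) :=
        mul_mem hdm (Subgroup.subset_closure (Or.inr rfl))
      rcases y with i | i
      · exact pow_mem hum _
      · exact mul_mem hdm (pow_mem hum _)
  exact ⟨(MulEquiv.subgroupCongr hrange).trans ((MonoidHom.ofInjective hinj).symm.trans φ)⟩

end Cfsg.Agent.S0444
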