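import Cfsg.Statements.S0447
import Cfsg.Agent.Lib.SporadicB.DoubleCover

set_option autoImplicit false
open Cfsg

namespace Cfsg.Agent.S0447

open Equiv

theorem isConj_of_involution {n : ℕ} (hn : n ≤ 7) (π σ : alternatingGroup (Fin n))
    (h1 : orderOf π = 2) (h2 : orderOf σ = 2) : IsConj π σ := by
  classical
  have ct : ∀ τ : alternatingGroup (Fin n), orderOf τ = 2 → (τ : Perm (Fin n)).cycleType = Multiset.replicate 2 2 := by
    intro τ hτ
    have ho : orderOf (τ : Perm (Fin n)) = 2 := by rw [Subgroup.orderOf_coe]; exact hτ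
    obtain ⟨k, hk⟩ := Perm.cycleType_prime_order (σ := (τ : Perm (Fin n))) (by rw [ho]; exact Nat.prime_two)
    rw [ho] at hk
    have hle := Perm.sum_cycleType_le (τ : Perm (Fin n))
    rw [hk, Multiset.sum_replicate, Fintype.card_fin, smul_eq_mul] at hle
    have hsign := Perm.mem_alternatingGroup.mp τ.2
    rw [Perm.sign_of_cycleType, hk, Multiset.sum_replicate, Multiset.card_replicate, smul_eq_mul] at hsign
    have heven : Even ((k + 1) * 2 + (k + 1)) := (neg_one_pow_eq_one_iff_even (by decide)).mp hsign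
    obtain ⟨r, hr⟩ := heven
    have : k = 1 := by omega
    rw [hk, this]
  have hc : IsConj (π : Perm (Fin n)) (σ : Perm (Fin n)) := by
    rw [Perm.isConj_iff_cycleType_eq, ct π h1, ct σ h2]
  obtain ⟨g, hg⟩ := isConj_iff.mp hc
  rcases Int.units_eq_one_or (Perm.sign g) with hs | hs
  · exact isConj_iff.mpr ⟨⟨g, Perm.mem_alternatingGroup.mpr hs⟩, Subtype.ext hg⟩
  · obtain ⟨p, hp⟩ : ∃ p, (π : Perm (Fin n)) p ≠ p := by
      by_contra h
      push Not at h
      have : π = 1 := Subtype.ext (Equiv.ext h)
      rw [this, orderOf_one] at h1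
      omega
    let s := Equiv.swap p ((π : Perm (Fin n)) p)
    have hcomm : s * (π : Perm (Fin n)) = (π : Perm (Fin n)) * s := by
      rw [Equiv.mul_swap_eq_swap_mul]
      have h22 : (π : Perm (Fin n)) ((π : Perm (Fin n)) p) = p := by
        have := pow_orderOf_eq_one π
        rw [h1, pow_two] at this
        exact Equiv.ext_iff.mp (congrArg Subtype.val this) p
      rw [h22, Equiv.swap_comm]
    refine isConj_iff.mpr ⟨⟨g * s, Perm.mem_alternatingGroup.mpr (by simp [s, hs, Perm.sign_swap (Ne.symm hp)])⟩,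
      Subtype.ext ?_⟩
    show g * s * (π : Perm (Fin n)) * (g * s)⁻¹ = σ
    rw [← hg, mul_assoc g s _, hcomm]
    group

theorem complement_of_good {n : ℕ} {H : Type} [Group H] [Finite H] (hZ : Nat.card (Subgroup.center H) = 2)
    (π : H →* alternatingGroup (Fin n)) (hπ : Function.Surjective π) (hker : π.ker = Subgroup.center H)
    (hinv : ∀ g : H, orderOf (π g) = 2 → g * g = 1)
    (m : ℕ) [NeZero m] (a b : alternatingGroup (Fin n)) (ha : orderOf a = 2) (hb : orderOf b = 2)
    (k : ℕ) (hk : k + k = m) (hab : orderOf ((a * b) ^ k) = 2)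
    (hnp : ∀ i : Fin m, (a * b) ^ (i : ℕ) * a ≠ 1) (hord : ∀ i : Fin m, (a * b) ^ (i : ℕ) = 1 → i = 0)
    (hodd : ¬ 2 ∣ Nat.card (alternatingGroup (Fin n)) / (2 * m)) :
    ∃ L : Subgroup H, (Subgroup.center H).IsComplement' L := by
  classical
  obtain ⟨A, rfl⟩ := hπ a
  obtain ⟨B, rfl⟩ := hπ b
  have hA := hinv A ha
  have hB := hinv B hb
  set U := A * B with hU
  have hUm : U ^ m = 1 := by
    rw [← hk, pow_add]
    exact hinv _ (by rw [map_pow, hU, map_mul]; exact hab)
  have hflip : ∀ i : ℕ, A * U ^ i = (U ^ i)⁻¹ * A := by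
    intro i
    have hAi : A⁻¹ = A := inv_eq_of_mul_eq_one_right hA
    have hBi : B⁻¹ = B := inv_eq_of_mul_eq_one_right hB
    have h1 : A * U * A⁻¹ = U⁻¹ := by
      rw [hU, hAi, mul_inv_rev, hAi, hBi, ← mul_assoc A A, hA, one_mul]
    have h2 : (A * U * A⁻¹) ^ i = (U ^ i)⁻¹ := by rw [h1, inv_pow]
    rw [conj_pow, mul_inv_eq_iff_eq_mul] at h2
    exact h2
  let e : Fin m × Bool → H := fun x => U ^ (x.1 : ℕ) * if x.2 then A else 1
  have hmod : ∀ (i : ℕ) (s : Bool), U ^ i * (if s then A else 1) ∈ Set.range e := fun i s =>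
    ⟨(⟨i % m, Nat.mod_lt _ (Nat.pos_of_neZero m)⟩, s), by simp only [e]; rw [← pow_eq_pow_mod i hUm]⟩
  have hinv' : ∀ i : ℕ, (U ^ i)⁻¹ = U ^ (m * i - i) := by
    intro i
    apply inv_eq_of_mul_eq_one_right
    rw [← pow_add, Nat.add_sub_cancel' (Nat.le_mul_of_pos_left i (Nat.pos_of_neZero m)), pow_mul, hUm, one_pow]
  let L : Subgroup H :=
    { carrier := Set.range e
      one_mem' := by simpa using hmod 0 false
      mul_mem' := by
        rintro _ _ ⟨⟨i, s⟩, rfl⟩ ⟨⟨j, t⟩, rfl⟩
        cases s
        · simp only [e, Bool.false_eq_true, if_false, mul_one]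
          rw [← mul_assoc, ← pow_add]
          exact hmod _ t
        · simp only [e, if_true]
          rw [mul_assoc (U ^ (i : ℕ)) A, ← mul_assoc A, hflip, hinv', mul_assoc, ← mul_assoc (U ^ (i : ℕ)),
            ← pow_add]
          cases t
          · simp only [Bool.false_eq_true, if_false, mul_one]; exact hmod _ true
          · simp only [if_true, hA]; exact hmod _ false
      inv_mem' := by
        rintro _ ⟨⟨i, s⟩, rfl⟩
        cases s
        · simp only [e, Bool.false_eq_true, if_false, mul_one, hinv']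
          have := hmod (m * (i : ℕ) - i) false
          simp only [Bool.false_eq_true, if_false, mul_one] at this
          exact this
        · simp only [e, if_true, mul_inv_rev, inv_eq_of_mul_eq_one_right hA]
          rw [hinv', hflip, hinv']
          exact hmod _ true }
  have hsep : ∀ x : Fin m × Bool, π (e x) = 1 → x = (0, false) := by
    rintro ⟨i, s⟩ hx
    cases s
    · simp only [e, Bool.false_eq_true, if_false, mul_one, map_pow, hU, map_mul] at hx
      rw [hord i hx]
    · simp only [e, if_true, map_pow, map_mul, hU] at hx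
      exact absurd hx (hnp i)
  have hLZ : ∀ x ∈ L, x ∈ Subgroup.center H → x = 1 := by
    rintro _ ⟨x, rfl⟩ hx
    rw [← hker, MonoidHom.mem_ker] at hx
    rw [hsep x hx]
    simp [e]
  have hinj : Function.Injective e := by
    rintro ⟨i, s⟩ ⟨j, t⟩ h
    have h1 : π (e (i, s)) = π (e (j, t)) := congrArg π h
    have hfin : ∀ i j : Fin m, U ^ (i : ℕ) = U ^ (j : ℕ) → i = j := by
      intro i j hij
      have hj := hinv' j
      have e1 : U ^ ((i : ℕ) + (m * j - j)) = 1 := by rw [pow_add, ← hj, hij, mul_inv_cancel]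
      rw [pow_eq_pow_mod _ hUm] at e1
      have h2 := hord ⟨_, Nat.mod_lt ((i : ℕ) + (m * j - j)) (Nat.pos_of_neZero m)⟩ (by
        rw [← map_mul, ← map_pow, ← hU]; exact (congrArg π e1).trans (map_one π))
      have h3 : ((i : ℕ) + (m * j - j)) % m = 0 := congrArg Fin.val h2
      have hle : (j : ℕ) ≤ m * j := Nat.le_mul_of_pos_left _ (Nat.pos_of_neZero m)
      obtain ⟨c, hc⟩ := Nat.dvd_of_mod_eq_zero h3
      have h4 : (i : ℕ) + m * j = m * c + j := by omega
      have h5 := congrArg (· % m) h4
      simp only [Nat.add_mul_mod_self_left, Nat.mul_add_mod, Nat.mod_eq_of_lt i.2, Nat.mod_eq_of_lt j.2] at h5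
      exact Fin.ext h5
    have hne : ∀ i j : Fin m, U ^ (i : ℕ) * A ≠ U ^ (j : ℕ) := by
      intro i j hij
      have e1 : U ^ ((i : ℕ) + (m * j - j)) * A = 1 := by
        have h1 : U ^ (m * j - j) * U ^ (j : ℕ) = 1 := by rw [← hinv', inv_mul_cancel]
        rw [add_comm, pow_add, mul_assoc, hij, h1]
      rw [pow_eq_pow_mod _ hUm] at e1
      apply hnp ⟨_, Nat.mod_lt ((i : ℕ) + (m * j - j)) (Nat.pos_of_neZero m)⟩
      show (π A * π B) ^ _ * π A = 1
      rw [← map_mul, ← map_pow, ← map_mul, ← hU]
      exact (congrArg π e1).trans (map_one π)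
    cases s <;> cases t <;> simp only [e, Bool.false_eq_true, if_false, if_true, mul_one] at h
    · rw [hfin i j h]
    · exact absurd h.symm (hne j i)
    · exact absurd h (hne i j)
    · rw [hfin i j (mul_right_cancel h)]
  have hLcard : Nat.card L = 2 * m := by
    show Nat.card (Set.range e) = 2 * m
    rw [Nat.card_range_of_injective hinj, Nat.card_prod, Nat.card_eq_fintype_card, Fintype.card_fin,
      Nat.card_eq_fintype_card, Fintype.card_bool, mul_comm]
  -- projection of `center × L`
  let μ : Subgroup.center H × L →* H :=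
    { toFun := fun x => (x.1 : H) * x.2
      map_one' := by simp
      map_mul' := fun x y => by
        simp only [Prod.fst_mul, Prod.snd_mul, Subgroup.coe_mul]
        rw [mul_assoc, mul_assoc]
        congr 1
        rw [← mul_assoc, ← mul_assoc, Subgroup.mem_center_iff.mp y.1.2] }
  have hμ : Function.Injective μ := by
    rw [injective_iff_map_eq_one]
    rintro ⟨z, l⟩ h
    have : (l : H) = (z : H)⁻¹ := eq_inv_of_mul_eq_one_right h
    have hl := hLZ l l.2 (this ▸ inv_mem z.2)
    have hl' : l = 1 := Subtype.ext hl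
    subst hl'
    have hz : (z : H) = 1 := by simpa [μ] using h
    exact Prod.ext (Subtype.ext hz) rfl
  set K := μ.range
  have hK : Nat.card K = 2 * (2 * m) := by
    rw [← Nat.card_congr (MonoidHom.ofInjective hμ).toEquiv, Nat.card_prod, hZ, hLcard]
  have hH : Nat.card H = 2 * Nat.card (alternatingGroup (Fin n)) := by
    rw [Subgroup.card_eq_card_quotient_mul_card_subgroup π.ker,
      Nat.card_congr (QuotientGroup.quotientKerEquivOfSurjective π hπ).toEquiv, hker, hZ, mul_comm]
  have hidx : ¬ 2 ∣ K.index := by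
    have h1 := K.card_mul_index
    rw [hK, hH] at h1
    have h2 : 2 * m * K.index = Nat.card (alternatingGroup (Fin n)) := by
      have := h1; rw [mul_assoc] at this; omega
    rw [← h2, Nat.mul_div_cancel_left _ (Nat.pos_of_neZero (2 * m))] at hodd
    exact hodd
  letI : CommGroup (Subgroup.center H) :=
    { (inferInstance : Group (Subgroup.center H)) with
      mul_comm := fun a b => Subtype.ext (Subgroup.mem_center_iff.mp b.2 a) }
  let φ : K →* Subgroup.center H :=
    (MonoidHom.fst (Subgroup.center H) L).comp (MonoidHom.ofInjective hμ).symm.toMonoidHom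
  let τ := φ.transfer
  have hτ : ∀ z : Subgroup.center H, τ (z : H) = z ^ K.index := by
    intro z
    have key : ∀ (i : ℕ) (g₀ : H), g₀⁻¹ * (z : H) ^ i * g₀ ∈ K → g₀⁻¹ * (z : H) ^ i * g₀ = (z : H) ^ i := by
      intro i g₀ _
      rw [mul_assoc, ← Subgroup.mem_center_iff.mp (pow_mem z.2 i) g₀, inv_mul_cancel_left]
    rw [MonoidHom.transfer_eq_pow φ (z : H) key]
    have : (MonoidHom.ofInjective hμ).symm ⟨(z : H) ^ K.index, MonoidHom.transfer_eq_pow_aux (z : H) key⟩
        = (z ^ K.index, 1) := by
      rw [MulEquiv.symm_apply_eq]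
      apply Subtype.ext
      simp [μ, MonoidHom.ofInjective_apply]
    simp [φ, this]
  have hz2 : ∀ z : Subgroup.center H, τ (z : H) = z := by
    intro z
    rw [hτ, ← pow_mod_natCard, hZ, Nat.two_dvd_ne_zero.mp hidx, pow_one]
  refine ⟨τ.ker, Subgroup.isComplement'_of_disjoint_and_mul_eq_univ ?_ ?_⟩
  · rw [Subgroup.disjoint_def]
    intro x hx hx'
    have := hz2 ⟨x, hx⟩
    rw [MonoidHom.mem_ker.mp hx'] at this
    exact congrArg Subtype.val this.symm
  · refine Set.eq_univ_of_forall fun g => ⟨(τ g : H), (τ g).2, (τ g : H)⁻¹ * g, ?_, by simp⟩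
    rw [SetLike.mem_coe, MonoidHom.mem_ker, map_mul, map_inv, hz2, inv_mul_cancel]

set_option maxRecDepth 100000 in
theorem no_involutions {n : ℕ} {H : Type} [Group H] [Finite H] (hn : n ≤ 7)
    (h : Cfsg.IsNonsplitDoubleCover H (alternatingGroup (Fin n))) {x : H} (hx : orderOf x = 2) :
    x ∈ Subgroup.center H := by
  obtain ⟨hZ, ⟨e⟩, hsplit⟩ := h
  by_contra hxc
  let π : H →* alternatingGroup (Fin n) := e.toMonoidHom.comp (QuotientGroup.mk' (Subgroup.center H))
  have hπ : Function.Surjective π := e.surjective.comp (QuotientGroup.mk'_surjective _)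
  have hker : π.ker = Subgroup.center H := by
    ext g; simp [π, MonoidHom.mem_ker, QuotientGroup.eq_one_iff]
  have hx1 : π x ≠ 1 := fun h' => hxc (hker ▸ MonoidHom.mem_ker.mpr h')
  have hxx : x * x = 1 := by rw [← pow_two, ← hx, pow_orderOf_eq_one]
  have hπx : orderOf (π x) = 2 := orderOf_eq_prime (by rw [pow_two, ← map_mul, hxx, map_one]) hx1
  have hz2 : ∀ z ∈ Subgroup.center H, z * z = 1 := by
    intro z hz
    have := pow_card_eq_one' (x := (⟨z, hz⟩ : Subgroup.center H))
    rw [hZ, pow_two] at this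
    exact congrArg Subtype.val this
  have hinv : ∀ g : H, orderOf (π g) = 2 → g * g = 1 := by
    intro g hg
    obtain ⟨c, hc⟩ := isConj_iff.mp (isConj_of_involution hn _ _ hπx hg)
    obtain ⟨C, rfl⟩ := hπ c
    have hzmem : (C * x * C⁻¹)⁻¹ * g ∈ Subgroup.center H := by
      rw [← hker, MonoidHom.mem_ker, map_mul, map_inv, map_mul, map_mul, map_inv, hc, inv_mul_cancel]
    have hcx : (C * x * C⁻¹) * (C * x * C⁻¹) = 1 := by
      calc (C * x * C⁻¹) * (C * x * C⁻¹) = C * (x * x) * C⁻¹ := by group
        _ = 1 := by rw [hxx, mul_one, mul_inv_cancel]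
    set y := C * x * C⁻¹ with hy
    set z := y⁻¹ * g with hzdef
    have hg' : g = y * z := by rw [hzdef, mul_inv_cancel_left]
    rw [hg']
    have := Subgroup.mem_center_iff.mp hzmem
    calc y * z * (y * z) = y * (z * y) * z := by group
      _ = (y * y) * (z * z) := by rw [← this y]; group
      _ = 1 := by rw [hcx, hz2 z hzmem, one_mul]
  obtain ⟨L, hL⟩ : ∃ L : Subgroup H, (Subgroup.center H).IsComplement' L := by
    interval_cases n
    all_goals first
      | (exfalso
         have h2 := orderOf_dvd_natCard (π x)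
         rw [hπx, Nat.card_eq_fintype_card] at h2
         revert h2; decide)
      | exact complement_of_good hZ π hπ hker hinv 2
          ⟨Equiv.swap 0 1 * Equiv.swap 2 3, Perm.mem_alternatingGroup.mpr (by decide)⟩ ⟨Equiv.swap 0 2 * Equiv.swap 1 3, Perm.mem_alternatingGroup.mpr (by decide)⟩
          (orderOf_eq_prime (by decide) (by decide)) (orderOf_eq_prime (by decide) (by decide)) 1 rfl
          (orderOf_eq_prime (by decide) (by decide)) (by decide) (by decide)
          (by rw [nat_card_alternatingGroup, Nat.card_fin]; decide)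
      | exact complement_of_good hZ π hπ hker hinv 4
          ⟨Equiv.swap 0 1 * Equiv.swap 4 5, Perm.mem_alternatingGroup.mpr (by decide)⟩ ⟨Equiv.swap 0 2 * Equiv.swap 1 3, Perm.mem_alternatingGroup.mpr (by decide)⟩
          (orderOf_eq_prime (by decide) (by decide)) (orderOf_eq_prime (by decide) (by decide)) 2 rfl
          (orderOf_eq_prime (by decide) (by decide)) (by decide) (by decide)
          (by rw [nat_card_alternatingGroup, Nat.card_fin]; decide)
  exact hsplit L hL

open CfsgLib.SporadicB.DoubleCover in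
theorem eight_order : orderOf (lift2 (show (0 : Fin 8) ≠ 1 by decide) (show (2 : Fin 8) ≠ 3 by decide) *
    lift2 (show (4 : Fin 8) ≠ 5 by decide) (show (6 : Fin 8) ≠ 7 by decide)) = 2 := by
  have anti : ∀ {a b c d : Fin 8}, a ≠ c → a ≠ d → b ≠ c → b ≠ d →
      (gam a - gam b) * (gam c - gam d) = -((gam c - gam d) * (gam a - gam b)) := fun {a b c d} h1 h2 h3 h4 => by
    simp only [sub_mul, mul_sub, gam_anti h1, gam_anti h2, gam_anti h3, gam_anti h4]
    abel
  refine orderOf_eq_prime ?_ fun h => ?_
  · apply Subtype.ext; apply Units.ext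
    rw [pow_two]
    show (((gam (0 : Fin 8) - gam 1) * (gam 2 - gam 3)) * ((gam 4 - gam 5) * (gam 6 - gam 7))) *
      (((gam (0 : Fin 8) - gam 1) * (gam 2 - gam 3)) * ((gam 4 - gam 5) * (gam 6 - gam 7))) = 1
    set p := gam (0 : Fin 8) - gam 1
    set q := gam (2 : Fin 8) - gam 3
    set r := gam (4 : Fin 8) - gam 5
    set s := gam (6 : Fin 8) - gam 7
    have hp : p * p = -1 := sub_sq (by decide)
    have hq : q * q = -1 := sub_sq (by decide)
    have hr : r * r = -1 := sub_sq (by decide)
    have hs : s * s = -1 := sub_sq (by decide)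
    have qp : q * p = -(p * q) := anti (by decide) (by decide) (by decide) (by decide)
    have rp : r * p = -(p * r) := anti (by decide) (by decide) (by decide) (by decide)
    have rq : r * q = -(q * r) := anti (by decide) (by decide) (by decide) (by decide)
    have sp : s * p = -(p * s) := anti (by decide) (by decide) (by decide) (by decide)
    have sq' : s * q = -(q * s) := anti (by decide) (by decide) (by decide) (by decide)
    have sr : s * r = -(r * s) := anti (by decide) (by decide) (by decide) (by decide)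
    have e1 : ∀ {u v : Module.End (ZMod 3) (Mod 8)}, u * u = -1 → v * v = -1 → v * u = -(u * v) →
        (u * v) * (u * v) = -1 := by
      intro u v hu hv h
      rw [mul_assoc, ← mul_assoc v, h, eneg_mul, emul_neg, mul_assoc u v v, hv, ← mul_assoc, hu, eneg_one_mul,
        neg_neg]
    have e2 : (r * s) * (p * q) = (p * q) * (r * s) := by
      rw [mul_assoc r s, ← mul_assoc s, sp, eneg_mul, emul_neg, mul_assoc p s q, sq', emul_neg, emul_neg,
        neg_neg, ← mul_assoc r p, rp, eneg_mul, mul_assoc p r, ← mul_assoc r q, rq, eneg_mul, emul_neg, neg_neg]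
      simp only [mul_assoc]
    rw [mul_assoc, ← mul_assoc (r * s), e2, mul_assoc (p * q) (r * s), e1 hr hs sr, ← mul_assoc, e1 hp hq qp,
      eneg_one_mul, neg_neg]
  · have := congrArg (fun g => ((proj 8 g : alternatingGroup (Fin 8)) : Equiv.Perm (Fin 8))) h
    simp only [map_mul, map_one, Subgroup.coe_mul, proj_lift2, OneMemClass.coe_one] at this
    exact absurd this (by decide)

/-- Involutions in double covers of alternating groups: for n ≤ 7, a finite non-split double cover of the alternating group of degree n has exactly one element of order 2 (the central one); for degree 8 there is a non-split double cover with two distinct involutions. -/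
theorem result : (∀ (n : ℕ) (H : Type) (_ : Group H) (_ : Finite H), n ≤ 7 → Cfsg.IsNonsplitDoubleCover H (alternatingGroup (Fin n)) → ∀ x y : H, orderOf x = 2 → orderOf y = 2 → x = y) ∧ ∃ (H : Type) (_ : Group H) (_ : Finite H), Cfsg.IsNonsplitDoubleCover H (alternatingGroup (Fin 8)) ∧ ∃ x y : H, x ≠ y ∧ orderOf x = 2 ∧ orderOf y = 2 := by
  refine ⟨fun n H _ _ hn h x y hx hy => ?_, ?_⟩
  · have hxc := no_involutions hn h hx
    have hyc := no_involutions hn h hy
    have h1 := h.1
    rw [Nat.card_eq_two_iff' (1 : Subgroup.center H)] at h1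
    obtain ⟨z, -, hu⟩ := h1
    have e1 := hu ⟨x, hxc⟩ (fun e => by
      rw [show x = 1 from congrArg Subtype.val e, orderOf_one] at hx; omega)
    have e2 := hu ⟨y, hyc⟩ (fun e => by
      rw [show y = 1 from congrArg Subtype.val e, orderOf_one] at hy; omega)
    exact congrArg Subtype.val (e1.trans e2.symm)
  · open CfsgLib.SporadicB.DoubleCover in
    refine ⟨cover 8, inferInstance, inferInstance,
      ⟨card_center (by norm_num), ⟨quotientEquiv (by norm_num)⟩, no_complement (by norm_num)⟩, negOne 8,
      lift2 (show (0 : Fin 8) ≠ 1 by decide) (show (2 : Fin 8) ≠ 3 by decide) *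
        lift2 (show (4 : Fin 8) ≠ 5 by decide) (show (6 : Fin 8) ≠ 7 by decide), ?_, orderOf_negOne 8, ?_⟩
    · intro h
      have := congrArg (fun g => ((proj 8 g : alternatingGroup (Fin 8)) : Equiv.Perm (Fin 8))) h
      simp only [map_mul, Subgroup.coe_mul, proj_lift2, (ker_proj (negOne 8)).mpr (Or.inr rfl)] at this
      exact absurd this (by decide)
    · exact eight_order

end Cfsg.Agent.S0447
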