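import Cfsg.Statements.S0489
import Cfsg.Agent.Lib.MetacyclicP.TwoGen.Lines
import Cfsg.Agent.Lib.CharTheory.Burnside
-- import your own Cfsg.Agent.* helpers here

set_option autoImplicit false
open Cfsg

namespace Cfsg.Agent.S0489

universe u

theorem aux : ∀ (n : ℕ) (G : Type u) [Group G] [Finite G], Nat.card G = n →
    (∀ a b : G, Group.IsSolvable (Subgroup.closure ({a, b} : Set G))) → Group.IsSolvable G := by
  intro n
  induction n using Nat.strong_induction_on with
  | _ n ih =>
  intro G _ _ hn h
  subst hn
  by_contra hns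
  have proper : ∀ H : Subgroup G, H ≠ ⊤ → Group.IsSolvable H := by
    intro H hH
    refine ih _ (lt_of_le_of_ne (Subgroup.card_le_card_group H)
      fun he => hH (Subgroup.eq_top_of_card_eq H he)) H rfl fun a b => ?_
    haveI := h (a : G) (b : G)
    have hle : (Subgroup.closure ({a, b} : Set H)).map H.subtype
        ≤ Subgroup.closure ({(a : G), (b : G)} : Set G) := by
      rw [MonoidHom.map_closure, Set.image_pair]
      exact le_rfl
    haveI := CfsgLib.CoprimeAction.isSolvable_of_le hle
    exact Group.isSolvable_of_isSolvable_injective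
      (f := ((Subgroup.closure ({a, b} : Set H)).equivMapOfInjective _ H.subtype_injective).toMonoidHom)
      (MulEquiv.injective _)
  have simple : ∀ N : Subgroup G, N.Normal → N = ⊥ ∨ N = ⊤ := by
    intro N hN
    by_contra hne
    push Not at hne
    obtain ⟨h1, h2⟩ := hne
    haveI := proper N h2
    have hq : Group.IsSolvable (G ⧸ N) := by
      refine ih _ (CfsgLib.FixedPointFree.card_quot_lt h1) (G ⧸ N) rfl fun x y => ?_
      obtain ⟨a, rfl⟩ := QuotientGroup.mk'_surjective N x
      obtain ⟨b, rfl⟩ := QuotientGroup.mk'_surjective N y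
      haveI := h a b
      rw [show ({QuotientGroup.mk' N a, QuotientGroup.mk' N b} : Set (G ⧸ N))
        = QuotientGroup.mk' N '' {a, b} from (Set.image_pair _ _ _).symm, ← MonoidHom.map_closure]
      exact Group.isSolvable_of_surjective
        ((QuotientGroup.mk' N).subgroupMap_surjective (Subgroup.closure {a, b}))
    haveI := hq
    exact hns (Group.isSolvable_of_ker_le_range N.subtype (QuotientGroup.mk' N)
      (by rw [QuotientGroup.ker_mk', Subgroup.range_subtype]))
  have pair : ∀ a b : G, Subgroup.closure ({a, b} : Set G) ≠ ⊤ := by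
    intro a b htop
    haveI := h a b
    refine hns (Group.isSolvable_of_surjective
      (f := (Subgroup.closure ({a, b} : Set G)).subtype) fun g => ⟨⟨g, htop ▸ Subgroup.mem_top g⟩, rfl⟩)
  obtain ⟨p, hp, hpd, hp5⟩ : ∃ p, p.Prime ∧ p ∣ Nat.card G ∧ 5 ≤ p := by
    by_contra hcon
    push Not at hcon
    refine hns (CfsgLib.CharTheory.isSolvable_of_card_dvd_pow_mul_pow 2 3 (Nat.card G) (Nat.card G)
      Nat.prime_two Nat.prime_three ?_)
    conv_lhs => rw [← Nat.prod_factorization_pow_eq_self (Nat.card_pos (α := G)).ne']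
    rw [Finsupp.prod, ← Finset.prod_pair (show (2 : ℕ) ≠ 3 by norm_num)
      (f := fun q => q ^ Nat.card G)]
    refine (Finset.prod_dvd_prod_of_dvd _ _ fun q _ => pow_dvd_pow q
      (Nat.factorization_lt q (Nat.card_pos (α := G)).ne').le).trans
      (Finset.prod_dvd_prod_of_subset _ _ _ fun q hq => ?_)
    rw [Nat.support_factorization] at hq
    have hq1 := Nat.prime_of_mem_primeFactors hq
    have hq5 := hcon q hq1 (Nat.dvd_of_mem_primeFactors hq)
    have h2 := hq1.two_le
    have h4 : q ≠ 4 := fun h => absurd (h ▸ hq1) (by norm_num)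
    simp only [Finset.mem_insert, Finset.mem_singleton]
    omega
  haveI : Fact p.Prime := ⟨hp⟩
  exact CfsgLib.MetacyclicP.TwoGen.Crit.false_of_dvd ⟨hp5, proper, pair, simple, hns⟩ hpd

/-- A finite group in which every two elements generate a solvable subgroup is solvable. -/
theorem result {G : Type*} [Group G] [Finite G]
    (h : ∀ a b : G, Group.IsSolvable (Subgroup.closure ({a, b} : Set G))) : Group.IsSolvable G := by
  exact aux _ G rfl h

end Cfsg.Agent.S0489
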