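import Cfsg.Statements.S0498
import Cfsg.Agent.Lib.SmallGroups.PSLTwoPrime

set_option autoImplicit false
open Cfsg

namespace Cfsg.Agent.S0498

theorem ord11 : orderOf ((2 : ℕ) : ZMod 11) = 11 - 1 := by
  rw [orderOf_eq_iff (by norm_num)]
  decide

theorem ord13 : orderOf ((2 : ℕ) : ZMod 13) = 13 - 1 := by
  rw [orderOf_eq_iff (by norm_num)]
  decide

theorem chk11 : CfsgLib.SmallGroups.PSLTwo.oddCheck 11 2 = true := by decide +kernel

theorem chk13 : CfsgLib.SmallGroups.PSLTwo.oddCheck 13 2 = true := by decide +kernel

/-- A simple group of order 660, respectively 1092, is isomorphic to the projective special linear group of dimension 2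
over the field with 11, respectively 13, elements. -/
theorem result {G : Type*} [Group G] [Finite G] [IsSimpleGroup G] (p : ℕ)
    (hp : p = 11 ∨ p = 13) (h : 2 * Nat.card G = p * (p ^ 2 - 1)) {F : Type*} [Field F] [Fintype F]
    (hF : Fintype.card F = p) : Nonempty (G ≃* Matrix.ProjectiveSpecialLinearGroup (Fin 2) F) := by
  rcases hp with rfl | rfl
  · have h' : Nat.card G = 660 := by norm_num at h; omega
    have : Fact (Nat.Prime 11) := ⟨by norm_num⟩
    have hG := CfsgLib.SmallGroups.not_isMulCommutative_of_card_eq h' (by norm_num)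
    have hn := CfsgLib.SmallGroups.card_sylow_mem (p := 11) (a := 1) (m := 60)
      (by rw [h']; norm_num) (by norm_num)
    rw [show (Nat.divisors 60).filter (fun d => d % 11 = 1) = {1, 12} by decide +kernel] at hn
    simp only [Finset.mem_insert, Finset.mem_singleton] at hn
    have h1 := CfsgLib.SmallGroups.one_lt_card_sylow hG (p := 11) (h' ▸ by norm_num)
    exact CfsgLib.SmallGroups.PSLTwo.nonempty_mulEquiv_prime' hG 2 (by norm_num) ord11 chk11
      (by rw [h']) (by omega) hF
  · have h' : Nat.card G = 1092 := by norm_num at h; omega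
    have : Fact (Nat.Prime 13) := ⟨by norm_num⟩
    have hG := CfsgLib.SmallGroups.not_isMulCommutative_of_card_eq h' (by norm_num)
    have hn := CfsgLib.SmallGroups.card_sylow_mem (p := 13) (a := 1) (m := 84)
      (by rw [h']; norm_num) (by norm_num)
    rw [show (Nat.divisors 84).filter (fun d => d % 13 = 1) = {1, 14} by decide +kernel] at hn
    simp only [Finset.mem_insert, Finset.mem_singleton] at hn
    have h1 := CfsgLib.SmallGroups.one_lt_card_sylow hG (p := 13) (h' ▸ by norm_num)
    exact CfsgLib.SmallGroups.PSLTwo.nonempty_mulEquiv_prime' hG 2 (by norm_num) ord13 chk13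
      (by rw [h']) (by omega) hF

end Cfsg.Agent.S0498
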