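import Cfsg.Statements.S0804
import Cfsg.Agent.Lib.SL2.Dickson.Minimal

set_option autoImplicit false
open Cfsg

namespace Cfsg.Agent.S0804

/-- PSL_2(q) has a subgroup isomorphic to A_5 iff 5 ∣ q(q² − 1). -/
theorem result {F : Type*} [Field F] [Fintype F] {q : ℕ} (hF : Fintype.card F = q) : (∃ H : Subgroup (Matrix.ProjectiveSpecialLinearGroup (Fin 2) F), Nonempty (H ≃* alternatingGroup (Fin 5))) ↔ 5 ∣ q * (q ^ 2 - 1) := by
  rw [← Nat.card_eq_fintype_card] at hF
  subst hF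
  rw [← CfsgLib.SL2.card_SL]
  refine ⟨fun ⟨H, ⟨e⟩⟩ => ?_, CfsgLib.SL2.Dickson.exists_alternating_five_subgroup⟩
  have h1 : Nat.card H = 60 := by
    rw [Nat.card_congr e.toEquiv, nat_card_alternatingGroup, Nat.card_fin]; rfl
  have h2 := Subgroup.card_subgroup_dvd_card (CfsgLib.SL2.Dickson.lift H)
  rw [CfsgLib.SL2.Dickson.card_lift, h1] at h2
  exact dvd_trans (Dvd.dvd.mul_left (by norm_num) _) h2

end Cfsg.Agent.S0804
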