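import Cfsg.Statements.S0809
import Cfsg.Agent.Lib.SL2.Normalizer

set_option autoImplicit false
open Cfsg

namespace Cfsg.Agent.S0809

open CfsgLib.SL2 in
lemma sq_eq_neg_one_iff {F : Type*} [Field F] (a : Matrix.SpecialLinearGroup (Fin 2) F)
    (h : a * a = -1) : tr a = 0 ∧ a⁻¹ = -a := by
  have h1 := mul_self_eq a
  rw [← Matrix.SpecialLinearGroup.coe_mul, h] at h1
  have h2 : tr a • (a : Matrix (Fin 2) (Fin 2) F) = 0 := by
    rw [Matrix.SpecialLinearGroup.coe_neg, Matrix.SpecialLinearGroup.coe_one] at h1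
    calc tr a • (a : Matrix (Fin 2) (Fin 2) F)
        = (tr a • (a : Matrix (Fin 2) (Fin 2) F) - 1) + 1 := (sub_add_cancel _ _).symm
      _ = -1 + 1 := by rw [← h1]
      _ = 0 := neg_add_cancel _
  refine ⟨(smul_eq_zero.mp h2).resolve_right ?_, ?_⟩
  · intro h0
    have := Matrix.SpecialLinearGroup.det_coe a
    rw [h0] at this; simp at this
  · refine inv_eq_of_mul_eq_one_right (Subtype.ext ?_)
    rw [Matrix.SpecialLinearGroup.coe_mul, Matrix.SpecialLinearGroup.coe_neg, mul_neg,
      ← Matrix.SpecialLinearGroup.coe_mul, h]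
    simp

open CfsgLib.SL2 in
lemma exists_gen {F : Type*} [Field F] [Finite F] (h2 : (2 : F) ≠ 0)
    (A : Subgroup (Matrix.SpecialLinearGroup (Fin 2) F)) (hA : Nat.card A = 4) :
    ∃ a, a * a = -1 ∧ A = Subgroup.zpowers a := by
  haveI : Finite A := inferInstance
  by_cases hall : ∀ a ∈ A, a * a = 1
  · exfalso
    classical
    let f : A → Bool := fun a => decide (a = 1)
    have hf : Function.Injective f := fun a b hab => by
      simp only [f, decide_eq_decide] at hab
      by_cases ha : a = 1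
      · rw [ha, hab.mp ha]
      · have hb : b ≠ 1 := fun hb => ha (hab.mpr hb)
        apply Subtype.ext
        rw [eq_neg_one_of_sq_eq_one h2 (g := (a : Matrix.SpecialLinearGroup (Fin 2) F))
            (by rw [pow_two]; exact hall _ a.2) (by simpa using ha),
          eq_neg_one_of_sq_eq_one h2 (g := (b : Matrix.SpecialLinearGroup (Fin 2) F))
            (by rw [pow_two]; exact hall _ b.2) (by simpa using hb)]
    have := Nat.card_le_card_of_injective f hf
    simp [hA] at this
  · push_neg at hall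
    obtain ⟨a, ha, hne⟩ := hall
    have h4 : a ^ 4 = 1 := by
      have h := pow_card_eq_one' (x := (⟨a, ha⟩ : A))
      rw [hA] at h
      simpa using congrArg Subtype.val h
    have hsq : a * a = -1 := by
      refine eq_neg_one_of_sq_eq_one h2 ?_ hne
      rw [← h4]; simp [pow_succ, mul_assoc]
    refine ⟨a, hsq, ((Subgroup.eq_of_le_of_card_ge (Subgroup.zpowers_le.mpr ha) ?_)).symm⟩
    rw [hA, Nat.card_zpowers]
    have ho : orderOf a = 2 ^ (1 + 1) := by
      refine orderOf_eq_prime_pow ?_ (by simpa using h4)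
      rw [pow_one, pow_two]; exact hne
    rw [ho]; norm_num

/-- In SL_2(q), q odd: any two subgroups of order 4 are conjugate, and the normaliser of a subgroup of order 4 has order 2(q − 1) if q ≡ 1 (mod 4) and 2(q + 1) if q ≡ 3 (mod 4); consequently all involutions of PSL_2(q) are conjugate. -/
theorem result {F : Type*} [Field F] [Fintype F] {q : ℕ} (hF : Fintype.card F = q) (hodd : Odd q) (A : Subgroup (Matrix.SpecialLinearGroup (Fin 2) F)) (hA : Nat.card A = 4) : (∀ B : Subgroup (Matrix.SpecialLinearGroup (Fin 2) F), Nat.card B = 4 → ∃ g : Matrix.SpecialLinearGroup (Fin 2) F, B = A.map (MulAut.conj g).toMonoidHom) ∧ (q % 4 = 1 → Nat.card ↥(Subgroup.normalizer (A : Set (Matrix.SpecialLinearGroup (Fin 2) F))) = 2 * (q - 1)) ∧ (q % 4 = 3 → Nat.card ↥(Subgroup.normalizer (A : Set (Matrix.SpecialLinearGroup (Fin 2) F))) = 2 * (q + 1)) ∧ (∀ x y : Matrix.ProjectiveSpecialLinearGroup (Fin 2) F, orderOf x = 2 → orderOf y = 2 → IsConj x y) := by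
  have h2 : (2 : F) ≠ 0 := CfsgLib.SL2.two_ne_zero_of_odd (hF ▸ hodd)
  obtain ⟨a, ha, rfl⟩ := exists_gen h2 A hA
  obtain ⟨hta, hinv⟩ := sq_eq_neg_one_iff a ha
  have ht4 : CfsgLib.SL2.tr a ^ 2 ≠ 4 := by
    rw [hta, show (4 : F) = 2 * 2 by norm_num, zero_pow two_ne_zero]
    exact (mul_ne_zero h2 h2).symm
  have horda : orderOf a = 4 := by rw [← Nat.card_zpowers, hA]
  have hN : Nat.card ↥(Subgroup.normalizer
      (Subgroup.zpowers a : Set (Matrix.SpecialLinearGroup (Fin 2) F))) =
      2 * Nat.card (Subgroup.centralizer ({a} : Set (Matrix.SpecialLinearGroup (Fin 2) F))) := by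
    rw [← CfsgLib.SL2.card_normalizer ht4]
    refine Nat.card_congr (Equiv.subtypeEquivRight fun k => ?_)
    rw [CfsgLib.SL2.mem_normalizer_iff ht4]
    constructor
    · intro hk
      have hmem : k * a * k⁻¹ ∈ Subgroup.zpowers a :=
        (Subgroup.mem_normalizer_iff.mp hk a).mp (Subgroup.mem_zpowers a)
      obtain ⟨i, hi⟩ := Subgroup.mem_zpowers_iff.mp hmem
      rw [← zpow_mod_orderOf, horda] at hi
      have hord : orderOf (k * a * k⁻¹) = 4 := by
        rw [← horda]; exact (MulAut.conj k).orderOf_eq a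
      rcases (show i % 4 = 0 ∨ i % 4 = 1 ∨ i % 4 = 2 ∨ i % 4 = 3 by omega) with h | h | h | h <;>
        rw [show ((4 : ℕ) : ℤ) = 4 from rfl, h] at hi
      · rw [← hi, zpow_zero, orderOf_one] at hord; exact absurd hord (by norm_num)
      · exact Or.inl (by rw [← hi, zpow_one])
      · rw [← hi, zpow_two, ha] at hord
        have : orderOf (-1 : Matrix.SpecialLinearGroup (Fin 2) F) ∣ 2 :=
          orderOf_dvd_of_pow_eq_one (by simp)
        rw [hord] at this; exact absurd this (by norm_num)
      · refine Or.inr ?_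
        rw [← hi]
        have h4 : a ^ (4 : ℤ) = 1 := by
          rw [show (4 : ℤ) = ((4 : ℕ) : ℤ) from rfl, zpow_natCast, ← horda]; exact pow_orderOf_eq_one a
        rw [show (3 : ℤ) = 4 + -1 from rfl, zpow_add, h4, one_mul, zpow_neg_one]
    · intro hk
      rw [Subgroup.mem_normalizer_iff]
      have hmap : (Subgroup.zpowers a).map (MulAut.conj k).toMonoidHom = Subgroup.zpowers a := by
        rw [MonoidHom.map_zpowers]
        rcases hk with h | h
        · rw [show (MulAut.conj k).toMonoidHom a = a from h]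
        · rw [show (MulAut.conj k).toMonoidHom a = a⁻¹ from h, Subgroup.zpowers_inv]
      intro x
      conv_rhs => rw [← hmap]
      exact (Subgroup.mem_map_iff_mem (f := (MulAut.conj k).toMonoidHom)
        (MulAut.conj k).injective).symm
  refine ⟨fun B hB => ?_, fun hq => ?_, fun hq => ?_, fun x y hx hy => ?_⟩
  · obtain ⟨b, hb, rfl⟩ := exists_gen h2 B hB
    obtain ⟨g, hg⟩ := isConj_iff.1 (CfsgLib.SL2.isConj_of_tr_eq ht4
      (by rw [(sq_eq_neg_one_iff b hb).1, hta]))
    exact ⟨g, by rw [MonoidHom.map_zpowers]; exact congrArg Subgroup.zpowers hg.symm⟩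
  · rw [hN, CfsgLib.SL2.card_centralizer ht4, if_pos, Nat.card_eq_fintype_card, hF]
    obtain ⟨l, hl⟩ := FiniteField.isSquare_neg_one_iff.mpr (by rw [hF, hq]; norm_num : Fintype.card F % 4 ≠ 3)
    exact ⟨l, by rw [hta, ← hl]; ring⟩
  · rw [hN, CfsgLib.SL2.card_centralizer ht4, if_neg, Nat.card_eq_fintype_card, hF]
    rintro ⟨l, hl⟩
    exact FiniteField.isSquare_neg_one_iff.mp ⟨l, by rw [hl, hta]; ring⟩ (by rw [hF, hq])
  · obtain ⟨X, rfl⟩ := QuotientGroup.mk'_surjective _ x
    obtain ⟨Y, rfl⟩ := QuotientGroup.mk'_surjective _ y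
    have key : ∀ X : Matrix.SpecialLinearGroup (Fin 2) F,
        orderOf (QuotientGroup.mk' (Subgroup.center (Matrix.SpecialLinearGroup (Fin 2) F)) X) = 2 →
          X * X = -1 := by
      intro X hX
      have hsq := pow_orderOf_eq_one
        (QuotientGroup.mk' (Subgroup.center (Matrix.SpecialLinearGroup (Fin 2) F)) X)
      rw [hX, ← map_pow, QuotientGroup.mk'_apply, QuotientGroup.eq_one_iff, pow_two,
        CfsgLib.SL2.mem_center_iff] at hsq
      rcases hsq with h | h
      · exfalso
        have hX1 : X ∈ Subgroup.center (Matrix.SpecialLinearGroup (Fin 2) F) := by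
          rw [CfsgLib.SL2.mem_center_iff]
          by_cases h1 : X = 1
          · exact Or.inl h1
          · exact Or.inr (CfsgLib.SL2.eq_neg_one_of_sq_eq_one h2 (by rw [pow_two]; exact h) h1)
        rw [QuotientGroup.mk'_apply, (QuotientGroup.eq_one_iff X).mpr hX1, orderOf_one] at hX
        exact absurd hX (by norm_num)
      · exact h
    have hX := sq_eq_neg_one_iff X (key X hx)
    have hY := sq_eq_neg_one_iff Y (key Y hy)
    refine MonoidHom.map_isConj _ (CfsgLib.SL2.isConj_of_tr_eq ?_ (by rw [hX.1, hY.1]))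
    rw [hX.1, ← hta]; exact ht4

end Cfsg.Agent.S0809
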