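import Cfsg.Statements.S5908
-- import your own Cfsg.Agent.* helpers here

set_option autoImplicit false
open Cfsg

namespace Cfsg.Agent.S5908

open Matrix

/-- Codes for the field with four elements. -/
abbrev C4 : Type := Fin 4

/-- Addition of codes. -/
def cadd (a b : C4) : C4 :=
  match a.val, b.val with
  | 0, _ => b
  | _, 0 => a
  | 1, 1 => 0
  | 1, 2 => 3
  | 1, 3 => 2
  | 2, 1 => 3
  | 2, 2 => 0
  | 2, 3 => 1
  | 3, 1 => 2
  | 3, 2 => 1
  | _, _ => 0

/-- Multiplication of codes. -/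
def cmul (a b : C4) : C4 :=
  match a.val, b.val with
  | 0, _ => 0
  | _, 0 => 0
  | 1, _ => b
  | _, 1 => a
  | 2, 2 => 3
  | 2, 3 => 1
  | 3, 2 => 1
  | _, _ => 2

/-- A column of three codes. -/
abbrev Col : Type := C4 × C4 × C4

/-- The hermitian product of two columns. -/
def cdot (u v : Col) : C4 :=
  cadd (cadd (cmul u.1 (cmul v.1 v.1)) (cmul u.2.1 (cmul v.2.1 v.2.1))) (cmul u.2.2 (cmul v.2.2 v.2.2))

/-- The image of a column under the matrix with columns `a b c`. -/
def capply (a b c v : Col) : Col :=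
  (cadd (cadd (cmul a.1 v.1) (cmul b.1 v.2.1)) (cmul c.1 v.2.2),
    cadd (cadd (cmul a.2.1 v.1) (cmul b.2.1 v.2.1)) (cmul c.2.1 v.2.2),
    cadd (cadd (cmul a.2.2 v.1) (cmul b.2.2 v.2.1)) (cmul c.2.2 v.2.2))

/-- The determinant of three columns. -/
def cdet (a b c : Col) : C4 :=
  cadd (cadd (cadd (cmul a.1 (cmul b.2.1 c.2.2)) (cmul a.1 (cmul b.2.2 c.2.1)))
    (cadd (cmul a.2.1 (cmul b.1 c.2.2)) (cmul a.2.1 (cmul b.2.2 c.1))))
    (cadd (cmul a.2.2 (cmul b.1 c.2.1)) (cmul a.2.2 (cmul b.2.1 c.1)))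

/-- One nonzero entry. -/
def cmono (v : Col) : Bool :=
  (v.1 == 0 && v.2.1 == 0) || (v.1 == 0 && v.2.2 == 0) || (v.2.1 == 0 && v.2.2 == 0)

/-- All columns. -/
def allCols : List Col :=
  ([0, 1, 2, 3] : List C4).flatMap fun x => ([0, 1, 2, 3] : List C4).flatMap fun y =>
    ([0, 1, 2, 3] : List C4).map fun z => (x, y, z)

/-- The finite check. -/
def check : Bool :=
  allCols.all fun a => !(cdot a a == 1) || allCols.all fun b => !(cdot b b == 1) || !(cdot a b == 0) ||
    allCols.all fun c => !(cdot c c == 1) || !(cdot a c == 0) || !(cdot b c == 0) || !(cdet a b c == 1) ||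
      (cmono (capply a b c a) && cmono (capply a b c b) && cmono (capply a b c c) &&
        (!((capply a b c a).2.1 == 0 && (capply a b c a).2.2 == 0 && (capply a b c b).1 == 0 &&
          (capply a b c b).2.2 == 0 && (capply a b c c).1 == 0 && (capply a b c c).2.1 == 0) ||
          (cmono a && cmono b && cmono c)))

theorem check_true : check = true := by decide +kernel

theorem mem_allCols : ∀ v : Col, v ∈ allCols := by decide +kernel

section

variable {F : Type*} [Field F] [Fintype F]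

/-- Decoding. -/
def dec (ω : F) : C4 → F := ![0, 1, ω, ω * ω]

theorem exists_omega (hF : Fintype.card F = 4) : ∃ ω : F, ω * ω = ω + 1 ∧ (2 : F) = 0 := by
  classical
  have h2 : (2 : F) = 0 := by
    have h4 : ((4 : ℕ) : F) = 0 := by rw [← hF]; exact Nat.cast_card_eq_zero F
    have : (2 : F) * 2 = 0 := by rw [← h4]; norm_num
    simpa using this
  obtain ⟨ω, hω⟩ : ∃ ω : F, ω ∉ ({0, 1} : Finset F) := by
    by_contra h
    push Not at h
    have := (Finset.card_le_card (fun x (_ : x ∈ Finset.univ) => h x)).trans Finset.card_le_two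
    rw [Finset.card_univ, hF] at this; omega
  simp only [Finset.mem_insert, Finset.mem_singleton, not_or] at hω
  have h3 : ω ^ 3 = 1 := by
    have := FiniteField.pow_card_sub_one_eq_one ω hω.1
    rwa [hF] at this
  refine ⟨ω, ?_, h2⟩
  have hfac : (ω - 1) * (ω * ω + ω + 1) = 0 := by linear_combination h3
  rcases mul_eq_zero.mp hfac with h | h
  · exact absurd (sub_eq_zero.mp h) hω.2
  · linear_combination h - (ω + 1) * h2

variable {ω : F}

theorem dec_add (hω : ω * ω = ω + 1) (h2 : (2 : F) = 0) (a b : C4) : dec ω (cadd a b) = dec ω a + dec ω b := by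
  fin_cases a <;> fin_cases b <;> simp [dec, cadd, hω] <;> grind

theorem dec_mul (hω : ω * ω = ω + 1) (h2 : (2 : F) = 0) (a b : C4) : dec ω (cmul a b) = dec ω a * dec ω b := by
  fin_cases a <;> fin_cases b <;> simp [dec, cmul, hω]
  all_goals first
    | linear_combination (-1 : F) * hω - ω * h2
    | linear_combination (-1 : F) * hω - (ω + 1) * h2
    | linear_combination (-1 : F) * hω
    | linear_combination (-2 : F) * hω - ω * h2

theorem dec_bij (hF : Fintype.card F = 4) (hω : ω * ω = ω + 1) : Function.Bijective (dec ω) := by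
  have n0 : ω ≠ 0 := fun h => by simp [h] at hω
  have n1 : ω ≠ 1 := fun h => by simp [h] at hω
  have n2 : ω + 1 ≠ 0 := fun h => n0 (mul_self_eq_zero.mp (hω.trans h))
  rw [Fintype.bijective_iff_injective_and_card]
  refine ⟨?_, by simp [hF]⟩
  intro a b hab
  fin_cases a <;> fin_cases b <;> simp [dec, hω, n0, n1, n2, Ne.symm n0, Ne.symm n1, Ne.symm n2] at hab ⊢

end

/-- Exactly one nonzero entry in each column. -/
def IsMono {F : Type*} [Field F] (M : Matrix (Fin 3) (Fin 3) F) : Prop :=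
  ∀ j, ∃ i, ∀ k, k ≠ i → M k j = 0

theorem key {F : Type*} [Field F] [Fintype F] (hF : Fintype.card F = 4) (g : Cfsg.SU 3 F 2) :
    IsMono ((g : Matrix.SpecialLinearGroup (Fin 3) F) * g : Matrix.SpecialLinearGroup (Fin 3) F).1 ∧
      ((∀ i j : Fin 3, i ≠ j → ((g : Matrix.SpecialLinearGroup (Fin 3) F) * g : Matrix.SpecialLinearGroup (Fin 3) F).1 i j = 0) →
        IsMono (g : Matrix.SpecialLinearGroup (Fin 3) F).1) := by
  obtain ⟨ω, hω, h2⟩ := exists_omega hF
  obtain ⟨hinj, hsurj⟩ := dec_bij hF hω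
  choose enc henc using hsurj
  set M := (g : Matrix.SpecialLinearGroup (Fin 3) F).1 with hM
  let col : Fin 3 → Col := fun j => (enc (M 0 j), enc (M 1 j), enc (M 2 j))
  have d0 : dec ω 0 = 0 := rfl
  have d1 : dec ω 1 = 1 := rfl
  have hdot : ∀ i j, cdot (col i) (col j) = if i = j then 1 else 0 := by
    intro i j
    apply hinj
    have hg := g.2 (Pi.single i 1) (Pi.single j 1)
    simp only [Cfsg.hermForm, Cfsg.slToMat, Fin.sum_univ_three] at hg
    simp only [cdot, dec_add hω h2, dec_mul hω h2, col, henc, apply_ite (dec ω), d0, d1, ← pow_two]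
    simp only [Matrix.mulVec_single, MulOpposite.op_one, one_smul, Matrix.col_apply, ← hM] at hg
    refine Eq.trans ?_ (hg.trans ?_)
    · simp [hM]
    · fin_cases i <;> fin_cases j <;> simp
  have hdet : cdet (col 0) (col 1) (col 2) = 1 := by
    apply hinj
    have hd := (g : Matrix.SpecialLinearGroup (Fin 3) F).2
    rw [← hM, Matrix.det_fin_three] at hd
    simp only [cdet, dec_add hω h2, dec_mul hω h2, col, henc, d1]
    linear_combination hd + (M 0 0 * M 2 1 * M 1 2 + M 1 0 * M 0 1 * M 2 2 + M 2 0 * M 1 1 * M 0 2) * h2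
  have h := check_true
  simp only [check, List.all_eq_true, Bool.or_eq_true, Bool.not_eq_true', beq_eq_false_iff_ne] at h
  have h' := (((h (col 0) (mem_allCols _)).resolve_left (fun e => e (by rw [hdot]; rfl))
    (col 1) (mem_allCols _)).resolve_left (fun e => e.elim (fun e => e (by rw [hdot]; rfl)) (fun e => e (by rw [hdot]; rfl)))
    (col 2) (mem_allCols _)).resolve_left (fun e => e.elim (fun e => e.elim (fun e => e.elim (fun e => e (by rw [hdot]; rfl))
      (fun e => e (by rw [hdot]; rfl))) (fun e => e (by rw [hdot]; rfl))) (fun e => e hdet))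
  simp only [Bool.and_eq_true, Bool.or_eq_true, Bool.not_eq_true', beq_iff_eq, Bool.and_eq_false_iff,
    beq_eq_false_iff_ne] at h'
  set S := ((g : Matrix.SpecialLinearGroup (Fin 3) F) * g : Matrix.SpecialLinearGroup (Fin 3) F).1 with hS
  have happ : ∀ j, capply (col 0) (col 1) (col 2) (col j) = (enc (S 0 j), enc (S 1 j), enc (S 2 j)) := by
    intro j
    have hsq : ∀ i, S i j = M i 0 * M 0 j + M i 1 * M 1 j + M i 2 * M 2 j := fun i => by
      rw [hS, Matrix.SpecialLinearGroup.coe_mul, Matrix.mul_apply, Fin.sum_univ_three]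
    refine Prod.ext ?_ (Prod.ext ?_ ?_) <;> apply hinj <;>
      simp only [capply, dec_add hω h2, dec_mul hω h2, col, henc, hsq]
  have mono : ∀ (N : Matrix (Fin 3) (Fin 3) F) (j : Fin 3), cmono (enc (N 0 j), enc (N 1 j), enc (N 2 j)) = true →
      ∃ i, ∀ k, k ≠ i → N k j = 0 := by
    intro N j hc
    simp only [cmono, Bool.or_eq_true, Bool.and_eq_true, beq_iff_eq] at hc
    have hz : ∀ x, enc x = 0 → x = 0 := fun x hx => by rw [← henc x, hx, d0]
    clear h h' hdot hdet
    rcases hc with (⟨a, b⟩ | ⟨a, b⟩) | ⟨a, b⟩ <;> have a' := hz _ a <;> have b' := hz _ b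
    · exact ⟨2, fun k hk => by fin_cases k <;> simp_all⟩
    · exact ⟨1, fun k hk => by fin_cases k <;> simp_all⟩
    · exact ⟨0, fun k hk => by fin_cases k <;> simp_all⟩
  simp only [happ] at h'
  obtain ⟨⟨⟨m0, m1⟩, m2⟩, hscal⟩ := h'
  refine ⟨fun j => ?_, fun hoff => ?_⟩
  · fin_cases j
    · exact mono S 0 m0
    · exact mono S 1 m1
    · exact mono S 2 m2
  · have hz : ∀ i j : Fin 3, i ≠ j → enc (S i j) = 0 := fun i j hij => hinj (by rw [henc, hoff i j hij, d0])
    rcases hscal with hs | ⟨⟨n0, n1⟩, n2⟩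
    · exfalso
      rcases hs with ((((e | e) | e) | e) | e) | e <;> exact e (hz _ _ (by decide))
    · intro j
      fin_cases j
      · exact mono M 0 n0
      · exact mono M 1 n1
      · exact mono M 2 n2

/-- The monomial elements. -/
def monoSub {F : Type*} [Field F] [Finite F] : Subgroup (Cfsg.SU 3 F 2) :=
  Subgroup.closure {g | IsMono (g : Matrix.SpecialLinearGroup (Fin 3) F).1}

theorem mem_monoSub {F : Type*} [Field F] [Fintype F] (g : Cfsg.SU 3 F 2) (hg : g ∈ monoSub) :
    IsMono (g : Matrix.SpecialLinearGroup (Fin 3) F).1 := by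
  have : Finite (Cfsg.SU 3 F 2) := inferInstance
  have hm : g ∈ Submonoid.closure {g : Cfsg.SU 3 F 2 | IsMono (g : Matrix.SpecialLinearGroup (Fin 3) F).1} := by
    rwa [← Subgroup.closure_toSubmonoid_of_finite]
  clear hg
  induction hm using Submonoid.closure_induction with
  | mem x hx => exact hx
  | one => exact fun j => ⟨j, fun k hk => by simp [hk]⟩
  | mul a b _ _ ha hb =>
    intro j
    obtain ⟨i, hi⟩ := hb j
    obtain ⟨l, hl⟩ := ha i
    refine ⟨l, fun k hk => ?_⟩
    rw [Subgroup.coe_mul, Matrix.SpecialLinearGroup.coe_mul, Matrix.mul_apply, Finset.sum_eq_single i]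
    · rw [hl k hk, zero_mul]
    · intro m _ hm; rw [hi m hm, mul_zero]
    · simp

section

variable {F : Type*} [Field F] [Fintype F] {ω : F}

/-- A diagonal element. -/
def dmat (hω : ω * ω = ω + 1) (h2 : (2 : F) = 0) : Cfsg.SU 3 F 2 :=
  ⟨⟨Matrix.diagonal ![ω, ω + 1, 1], by
      rw [Matrix.det_diagonal, Fin.prod_univ_three]; simp
      linear_combination hω + ω * h2⟩, by
    intro u v
    change Cfsg.hermForm 3 F 2 (Matrix.diagonal ![ω, ω + 1, 1] *ᵥ u) (Matrix.diagonal ![ω, ω + 1, 1] *ᵥ v) = _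
    simp only [Cfsg.hermForm, Fin.sum_univ_three]
    simp [Matrix.mulVec_diagonal]
    grind⟩

theorem dmat_val (hω : ω * ω = ω + 1) (h2 : (2 : F) = 0) :
    ((dmat hω h2 : Cfsg.SU 3 F 2) : Matrix.SpecialLinearGroup (Fin 3) F).1 = Matrix.diagonal ![ω, ω + 1, 1] := rfl

/-- An element which is not monomial. -/
def wmat (hω : ω * ω = ω + 1) (h2 : (2 : F) = 0) : Cfsg.SU 3 F 2 :=
  ⟨⟨!![1, 1, 1; 1, ω, ω + 1; 1, ω + 1, ω], by
      rw [Matrix.det_fin_three]; simp; grind⟩, by
    intro u v
    change Cfsg.hermForm 3 F 2 (!![1, 1, 1; 1, ω, ω + 1; 1, ω + 1, ω] *ᵥ u) (!![1, 1, 1; 1, ω, ω + 1; 1, ω + 1, ω] *ᵥ v) = _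
    simp only [Cfsg.hermForm, Fin.sum_univ_three]
    simp [Matrix.mulVec, dotProduct, Fin.sum_univ_three]
    grind⟩

theorem wmat_val (hω : ω * ω = ω + 1) (h2 : (2 : F) = 0) :
    ((wmat hω h2 : Cfsg.SU 3 F 2) : Matrix.SpecialLinearGroup (Fin 3) F).1 = !![1, 1, 1; 1, ω, ω + 1; 1, ω + 1, ω] :=
  rfl

theorem d_inj (hω : ω * ω = ω + 1) (h2 : (2 : F) = 0) (i j : Fin 3) (h : i ≠ j) :
    (![ω, ω + 1, 1] : Fin 3 → F) i ≠ ![ω, ω + 1, 1] j := by
  have n0 : ω ≠ 0 := fun h => by simp [h] at hω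
  intro e
  fin_cases i <;> fin_cases j <;> simp at h e <;> grind

end

theorem main {F : Type*} [Field F] [Fintype F] (hF : Fintype.card F = 4) :
    ¬ ComplementedLattice (Subgroup (Cfsg.PSU 3 F 2)) := by
  intro hcl
  obtain ⟨ω, hω, h2⟩ := exists_omega hF
  have hω3 : ω * (ω + 1) = 1 := by linear_combination hω + ω * h2
  have hωne : ω ≠ 1 := fun h => by simp [h] at hω
  let Z := Subgroup.center (Cfsg.SU 3 F 2)
  let π := QuotientGroup.mk' Z
  have hπ : Function.Surjective π := QuotientGroup.mk'_surjective _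
  let D : Cfsg.SU 3 F 2 := dmat hω h2
  have hZ : Z ≤ monoSub := by
    intro z hz
    refine Subgroup.subset_closure fun j => ⟨j, fun k hk => ?_⟩
    have hc := congrArg (fun g : Cfsg.SU 3 F 2 => (g : Matrix.SpecialLinearGroup (Fin 3) F).1 k j)
      (Subgroup.mem_center_iff.mp hz D)
    simp only [D, dmat_val, Subgroup.coe_mul, Matrix.SpecialLinearGroup.coe_mul, Matrix.diagonal_mul, Matrix.mul_diagonal] at hc
    have hd := d_inj hω h2 k j hk
    by_contra h
    exact hd (mul_right_cancel₀ h (hc.trans (mul_comm _ _)))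
  let W : Cfsg.SU 3 F 2 := wmat hω h2
  have hW : W ∉ monoSub := by
    intro hW
    obtain ⟨i, hi⟩ := mem_monoSub W hW 0
    rcases eq_or_ne i 0 with rfl | h0
    · simpa [W, wmat_val] using hi 1 (by decide)
    · simpa [W, wmat_val] using hi 0 (Ne.symm h0)
  obtain ⟨X, hX⟩ := hcl.exists_isCompl (monoSub.map π)
  have hne : X ≠ ⊥ := by
    intro h
    have htop : monoSub.map π = ⊤ := by simpa [h] using hX.sup_eq_top
    refine hW ?_
    have h1 : (monoSub.map π).comap π = monoSub := Subgroup.comap_map_eq_self (by rw [QuotientGroup.ker_mk']; exact hZ)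
    rw [← h1, htop]
    exact Subgroup.mem_top _
  obtain ⟨x, hx, hx1⟩ := (Subgroup.bot_or_exists_ne_one X).resolve_left hne
  obtain ⟨p, hp, hpd⟩ := Nat.exists_prime_and_dvd (fun h : orderOf x = 1 => hx1 (orderOf_eq_one_iff.mp h))
  have hy1 : x ^ (orderOf x / p) ≠ 1 := fun h => by
    have hpos := orderOf_pos x
    have := Nat.le_of_dvd (Nat.div_pos (Nat.le_of_dvd hpos hpd) hp.pos) (orderOf_dvd_of_pow_eq_one h)
    exact absurd this (not_le.mpr (Nat.div_lt_self hpos hp.one_lt))
  have hyp : (x ^ (orderOf x / p)) ^ p = 1 := by rw [← pow_mul, Nat.div_mul_cancel hpd, pow_orderOf_eq_one]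
  obtain ⟨g, hg⟩ := hπ (x ^ (orderOf x / p))
  have hgp : g ^ p ∈ Z := by
    rw [← QuotientGroup.eq_one_iff, QuotientGroup.mk_pow]
    exact (congrArg (· ^ p) hg).trans hyp
  have hgg : g * g ∈ monoSub := Subgroup.subset_closure (key hF g).1
  have hgmem : g ∈ monoSub := by
    rcases hp.eq_two_or_odd' with rfl | ⟨k, rfl⟩
    · refine Subgroup.subset_closure ((key hF g).2 fun i j hij => ?_)
      have hz := Subgroup.mem_center_iff.mp (show g * g ∈ Z by rw [← pow_two]; exact hgp) D
      have hc := congrArg (fun g : Cfsg.SU 3 F 2 => (g : Matrix.SpecialLinearGroup (Fin 3) F).1 i j) hz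
      simp only [D, dmat_val, Subgroup.coe_mul, Matrix.SpecialLinearGroup.coe_mul, Matrix.diagonal_mul, Matrix.mul_diagonal] at hc
      have hd := d_inj hω h2 i j hij
      by_contra h
      rw [Matrix.SpecialLinearGroup.coe_mul] at h
      exact hd (mul_right_cancel₀ h (hc.trans (mul_comm _ _)))
    · have h1 := hZ hgp
      rw [pow_succ, pow_mul, pow_two] at h1
      simpa using mul_mem (inv_mem (pow_mem hgg k)) h1
  have hmem : x ^ (orderOf x / p) ∈ monoSub.map π ⊓ X := ⟨⟨g, hgmem, hg⟩, pow_mem hx _⟩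
  rw [hX.inf_eq_bot, Subgroup.mem_bot] at hmem
  exact hy1 hmem

/-- The subgroup lattice of PSU₃(2) (the solvable group of order 72, realised over the field with 4 elements) is not complemented: some subgroup H has no subgroup X with H ⊔ X = ⊤ and H ⊓ X = ⊥. -/
theorem result {F : Type*} [Field F] [Fintype F] (hF : Fintype.card F = 4) :
    ¬ ComplementedLattice (Subgroup (Cfsg.PSU 3 F 2)) := by
  exact main hF

end Cfsg.Agent.S5908
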