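import Cfsg.Statements.S0827
import Cfsg.Agent.S5908
import Cfsg.Agent.Lib.ClassicalForms.Unitary.Center
-- import your own Cfsg.Agent.* helpers here

set_option autoImplicit false
open Cfsg

namespace Cfsg.Agent.S0827

open Cfsg.Agent.S5908 (C4 Col cadd cmul cdot capply cdet allCols mem_allCols dec dec_add dec_mul dec_bij exists_omega)
open Matrix

/-- Three columns of codes. -/
abbrev Code : Type := Col × Col × Col

/-- The product of two coded matrices. -/
def mc (x y : Code) : Code :=
  (capply x.1 x.2.1 x.2.2 y.1, capply x.1 x.2.1 x.2.2 y.2.1, capply x.1 x.2.1 x.2.2 y.2.2)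

/-- The coded identity. -/
def idc : Code := ((1, 0, 0), (0, 1, 0), (0, 0, 1))

/-- The cube. -/
def cube (x : Code) : Code := mc (mc x x) x

/-- Vectors of norm one. -/
def normOne : List Col := allCols.filter fun v => cdot v v == 1

/-- All coded elements of `SU₃(2)`. -/
def units : List Code :=
  normOne.flatMap fun a => (normOne.filter fun b => cdot a b == 0).flatMap fun b =>
    (normOne.filter fun c => cdot a c == 0 && cdot b c == 0 && cdet a b c == 1).map fun c => (a, b, c)

def xc : Code := ((1, 1, 1), (1, 2, 3), (1, 3, 2))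
def yc : Code := ((1, 1, 2), (1, 2, 1), (3, 2, 2))

/-- Coset representatives. -/
def reps : List Code :=
  [idc, xc, mc xc xc, mc (mc xc xc) xc, yc, mc yc xc, mc yc (mc xc xc), mc yc (mc (mc xc xc) xc)]

def threes : List Code := units.filter fun x => cube x == idc

theorem threes_closed : (threes.all fun x => threes.all fun y => cube (mc x y) == idc) = true := by
  decide +kernel

theorem reps_cover : (units.all fun x => reps.any fun r => cube (mc r x) == idc) = true := by
  decide +kernel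

theorem rel_x : mc (mc xc xc) (mc xc xc) = idc := by decide +kernel
theorem rel_y : mc (mc yc yc) (mc yc yc) = idc := by decide +kernel
theorem rel_sq : cube (mc (mc yc yc) (mc xc xc)) = idc := by decide +kernel
theorem rel_conj : cube (mc (mc (mc yc xc) (mc (mc yc yc) yc)) xc) = idc := by decide +kernel
theorem x_sq_ne : cube (mc xc xc) ≠ idc := by decide +kernel

section

variable {F : Type*} [Field F] [Fintype F]

theorem exists_code (hF : Fintype.card F = 4) :
    ∃ code : Cfsg.SU 3 F 2 → Code, Function.Injective code ∧ code 1 = idc ∧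
      (∀ g h, code (g * h) = mc (code g) (code h)) ∧ (∀ g, code g ∈ units) ∧
      (∃ x, code x = xc) ∧ ∃ y, code y = yc := by
  obtain ⟨ω, hω, h2⟩ := exists_omega hF
  obtain ⟨hinj, hsurj⟩ := dec_bij hF hω
  choose enc henc using hsurj
  have d0 : dec ω 0 = 0 := rfl
  have d1 : dec ω 1 = 1 := rfl
  have d2 : dec ω 2 = ω := rfl
  have d3 : dec ω 3 = ω * ω := rfl
  have e0 : enc 0 = 0 := hinj (by rw [henc, d0])
  have e1 : enc 1 = 1 := hinj (by rw [henc, d1])
  have e2 : enc ω = 2 := hinj (by rw [henc, d2])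
  have e3 : enc (ω * ω) = 3 := hinj (by rw [henc, d3])
  let M : Cfsg.SU 3 F 2 → Matrix (Fin 3) (Fin 3) F :=
    fun g => ((g : Matrix.SpecialLinearGroup (Fin 3) F) : Matrix (Fin 3) (Fin 3) F)
  let col : Cfsg.SU 3 F 2 → Fin 3 → Col :=
    fun g j => (enc (M g 0 j), enc (M g 1 j), enc (M g 2 j))
  refine ⟨fun g => (col g 0, col g 1, col g 2), fun g h e => ?_, ?_, fun g h => ?_, fun g => ?_, ?_, ?_⟩
  · refine Subtype.ext (Subtype.ext ?_)
    simp only [col, Prod.mk.injEq] at e
    obtain ⟨⟨a, b, c⟩, ⟨d, f, i⟩, j, k, l⟩ := e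
    have inj : ∀ {x y : F}, enc x = enc y → x = y := fun {x y} e => by rw [← henc x, e, henc]
    ext r s
    fin_cases r <;> fin_cases s
    exacts [inj a, inj d, inj j, inj b, inj f, inj k, inj c, inj i, inj l]
  · simp [col, M, idc, e0, e1]
  · have hm : ∀ i j, M (g * h) i j = M g i 0 * M h 0 j + M g i 1 * M h 1 j + M g i 2 * M h 2 j :=
      fun i j => by
        simp only [M]
        rw [Subgroup.coe_mul, Matrix.SpecialLinearGroup.coe_mul, Matrix.mul_apply, Fin.sum_univ_three]
    simp only [mc, col, Prod.mk.injEq]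
    refine ⟨?_, ?_, ?_⟩ <;> refine Prod.ext ?_ (Prod.ext ?_ ?_) <;> apply hinj <;>
      simp only [capply, dec_add hω h2, dec_mul hω h2, henc, hm]
  · have hdot : ∀ i j, cdot (col g i) (col g j) = if i = j then 1 else 0 := by
      intro i j
      apply hinj
      have hg := g.2 (Pi.single i 1) (Pi.single j 1)
      simp only [Cfsg.hermForm, Cfsg.slToMat, Fin.sum_univ_three] at hg
      simp only [cdot, dec_add hω h2, dec_mul hω h2, col, henc, apply_ite (dec ω), d0, d1, ← pow_two]
      simp only [Matrix.mulVec_single, MulOpposite.op_one, one_smul, Matrix.col_apply] at hg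
      refine Eq.trans ?_ (hg.trans ?_)
      · simp [M]
      · fin_cases i <;> fin_cases j <;> simp
    have hdet : cdet (col g 0) (col g 1) (col g 2) = 1 := by
      apply hinj
      have hd := (g : Matrix.SpecialLinearGroup (Fin 3) F).2
      rw [Matrix.det_fin_three] at hd
      simp only [cdet, dec_add hω h2, dec_mul hω h2, col, henc, d1]
      linear_combination hd + (M g 0 0 * M g 2 1 * M g 1 2 + M g 1 0 * M g 0 1 * M g 2 2
        + M g 2 0 * M g 1 1 * M g 0 2) * h2
    simp only [units, normOne, List.mem_flatMap, List.mem_filter, List.mem_map, beq_iff_eq,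
      Bool.and_eq_true]
    exact ⟨col g 0, ⟨mem_allCols _, by rw [hdot]; rfl⟩, col g 1,
      ⟨⟨mem_allCols _, by rw [hdot]; rfl⟩, by rw [hdot]; rfl⟩, col g 2,
      ⟨⟨mem_allCols _, by rw [hdot]; rfl⟩, ⟨by rw [hdot]; rfl, by rw [hdot]; rfl⟩, hdet⟩, rfl⟩
  · refine ⟨⟨⟨!![1, 1, 1; 1, ω, ω * ω; 1, ω * ω, ω], by rw [Matrix.det_fin_three]; simp; grind⟩, ?_⟩, ?_⟩
    · intro u v
      change Cfsg.hermForm 3 F 2 (!![1, 1, 1; 1, ω, ω * ω; 1, ω * ω, ω] *ᵥ u)
        (!![1, 1, 1; 1, ω, ω * ω; 1, ω * ω, ω] *ᵥ v) = _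
      simp only [Cfsg.hermForm, Fin.sum_univ_three]
      simp [Matrix.mulVec, dotProduct, Fin.sum_univ_three]
      grind
    · simp [col, M, xc, e1, e2, e3]
  · refine ⟨⟨⟨!![1, 1, ω * ω; 1, ω, ω; ω, 1, ω], by rw [Matrix.det_fin_three]; simp; grind⟩, ?_⟩, ?_⟩
    · intro u v
      change Cfsg.hermForm 3 F 2 (!![1, 1, ω * ω; 1, ω, ω; ω, 1, ω] *ᵥ u)
        (!![1, 1, ω * ω; 1, ω, ω; ω, 1, ω] *ᵥ v) = _
      simp only [Cfsg.hermForm, Fin.sum_univ_three]
      simp [Matrix.mulVec, dotProduct, Fin.sum_univ_three]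
      grind
    · simp [col, M, yc, e1, e2, e3]

end

/-- A homomorphism out of the quaternion group from the defining relations. -/
theorem exists_quaternion_hom {H : Type*} [Group H] (x y : H) (hx : x ^ 4 = 1) (hy : y * y = x * x)
    (hc : y * x * y⁻¹ = x⁻¹) :
    ∃ f : QuaternionGroup 2 →* H, f (QuaternionGroup.a 1) = x ∧ f (QuaternionGroup.xa 0) = y := by
  let P : ZMod (2 * 2) → H := fun i => x ^ i.val
  have hP : ∀ i j, P (i + j) = P i * P j := fun i j => by
    simp only [P]
    rw [← pow_add, ZMod.val_add, ← pow_eq_pow_mod _ hx]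
  have hP0 : P 0 = 1 := by simp [P]
  have hPsub : ∀ i j, P (j - i) = (P i)⁻¹ * P j := fun i j => by
    rw [eq_inv_mul_iff_mul_eq, ← hP, add_sub_cancel]
  have hyP : ∀ i, P i * y = y * (P i)⁻¹ := fun i => by
    have h1 : y * (P i) * y⁻¹ = (P i)⁻¹ := by
      simp only [P]
      rw [← conj_pow, hc, inv_pow]
    calc P i * y = (y * P i * y⁻¹)⁻¹ * y := by rw [h1, inv_inv]
      _ = y * (P i)⁻¹ := by group
  refine ⟨MonoidHom.mk' (fun g => match g with | .a i => P i | .xa i => y * P i) ?_, ?_, ?_⟩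
  · rintro (i | i) (j | j)
    · simp only [QuaternionGroup.a_mul_a]; exact hP i j
    · simp only [QuaternionGroup.a_mul_xa]; rw [hPsub, ← mul_assoc (P i), hyP, mul_assoc]
    · simp only [QuaternionGroup.xa_mul_a]; rw [hP, mul_assoc]
    · simp only [QuaternionGroup.xa_mul_xa]
      rw [show ((2 : ℕ) : ZMod (2 * 2)) + j - i = ((2 : ℕ) : ZMod (2 * 2)) + (j - i) from
        add_sub_assoc _ _ _, hP, hPsub, mul_assoc y (P i), ← mul_assoc (P i) y, hyP,
        mul_assoc y ((P i)⁻¹), ← mul_assoc y y, hy]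
      congr 1
      simp only [P]
      rw [show (((2 : ℕ) : ZMod (2 * 2))).val = 2 from rfl, pow_two]
  · show x ^ (1 : ZMod (2 * 2)).val = x
    rw [show (1 : ZMod (2 * 2)).val = 1 from rfl, pow_one]
  · show y * x ^ (0 : ZMod (2 * 2)).val = y
    simp

/-- U_3(2) ≅ 3².Q_8: PSU_3(2) (form over the field with 4 elements) has a normal subgroup N which is elementary abelian of order 9 such that the quotient by N is isomorphic to the quaternion group of order 8. -/
theorem result {F : Type*} [Field F] [Fintype F] (hF : Fintype.card F = 4) : ∃ (N : Subgroup (Cfsg.PSU 3 F 2)) (_ : N.Normal), Nat.card N = 9 ∧ (∀ x ∈ N, x ^ 3 = 1) ∧ Nonempty (Cfsg.PSU 3 F 2 ⧸ N ≃* QuaternionGroup 2) := by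
  classical
  obtain ⟨code, hinj, hone, hmul, hunit, ⟨X, hX⟩, ⟨Y, hY⟩⟩ := exists_code hF
  have hFn : Nat.card F = 2 ^ 2 := by rw [Nat.card_eq_fintype_card, hF]; norm_num
  have hpow3 : ∀ g : Cfsg.SU 3 F 2, g ^ 3 = 1 ↔ cube (code g) = idc := fun g => by
    rw [cube, ← hmul, ← hmul, ← hone, pow_succ, pow_two]
    exact ⟨fun h => by rw [h], fun h => hinj h⟩
  have hmem : ∀ g : Cfsg.SU 3 F 2, g ^ 3 = 1 → code g ∈ threes := fun g hg => by
    rw [threes, List.mem_filter, beq_iff_eq]; exact ⟨hunit g, (hpow3 g).1 hg⟩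
  let T : Subgroup (Cfsg.SU 3 F 2) :=
    { carrier := {g | g ^ 3 = 1}
      one_mem' := one_pow _
      mul_mem' := fun {a b} ha hb => by
        show (a * b) ^ 3 = 1
        rw [hpow3, hmul]
        have h := threes_closed
        simp only [List.all_eq_true, beq_iff_eq] at h
        exact h _ (hmem a ha) _ (hmem b hb)
      inv_mem' := fun {a} ha => by
        show a⁻¹ ^ 3 = 1
        rw [inv_pow, ha, inv_one] }
  have hT : T.Normal := ⟨fun n hn g => by
    show (g * n * g⁻¹) ^ 3 = 1
    rw [conj_pow, show n ^ 3 = 1 from hn, mul_one, mul_inv_cancel]⟩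
  have hZ : Subgroup.center (Cfsg.SU 3 F 2) ≤ T := fun z hz => by
    have h3 : Nat.card (Subgroup.center (Cfsg.SU 3 F 2)) = 3 := by
      rw [CfsgLib.ClassicalForms.card_center_su hFn (by norm_num)]; norm_num
    have := pow_card_eq_one' (x := (⟨z, hz⟩ : Subgroup.center (Cfsg.SU 3 F 2)))
    rw [h3] at this
    exact congrArg Subtype.val this
  -- the quotient
  set π := QuotientGroup.mk' T
  have hπ : ∀ g, π g = 1 ↔ cube (code g) = idc := fun g => by
    rw [← hpow3]; exact QuotientGroup.eq_one_iff g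
  have h4 : ∀ g : Cfsg.SU 3 F 2, g ^ 4 = g * g * (g * g) := fun g => by simp [pow_succ, mul_assoc]
  have hX4 : X ^ 4 = 1 := hinj (by rw [h4, hmul, hmul, hX, rel_x, hone])
  have hY4 : Y ^ 4 = 1 := hinj (by rw [h4, hmul, hmul, hY, rel_y, hone])
  have hxy2 : π Y * π Y * (π X * π X) = 1 := by
    rw [← map_mul, ← map_mul, ← map_mul, hπ, hmul, hmul, hmul, hX, hY, rel_sq]
  obtain ⟨f, fx, fy⟩ := exists_quaternion_hom (π X) (π Y) (by rw [← map_pow, hX4, map_one])
    (by
      have h : π X * π X * (π X * π X) = 1 := by rw [← map_mul, ← map_mul, ← h4, hX4, map_one]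
      exact mul_right_cancel (hxy2.trans h.symm))
    (by
      have hYinv : Y⁻¹ = Y * Y * Y := inv_eq_of_mul_eq_one_right (by
        rw [← hY4]; simp [pow_succ, mul_assoc])
      refine eq_inv_of_mul_eq_one_left ?_
      rw [← map_inv, hYinv, ← map_mul, ← map_mul, ← map_mul, hπ, hmul, hmul, hmul, hmul, hmul, hX, hY,
        rel_conj])
  have hfinj : Function.Injective f := by
    refine (injective_iff_map_eq_one f).2 fun g hg => ?_
    by_contra hne
    have key : ∀ g : QuaternionGroup 2, g ≠ 1 → g = QuaternionGroup.a 2 ∨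
        g * g = QuaternionGroup.a 2 := by decide
    have h2 : f (QuaternionGroup.a 1 * QuaternionGroup.a 1) = 1 := by
      rw [show QuaternionGroup.a 1 * QuaternionGroup.a 1 = (QuaternionGroup.a 2 : QuaternionGroup 2)
        from by decide]
      rcases key g hne with e | e
      · rw [← e, hg]
      · rw [← e, map_mul, hg, one_mul]
    rw [map_mul, fx, ← map_mul, hπ, hmul, hX] at h2
    exact x_sq_ne h2
  have hfsurj : Function.Surjective f := by
    intro z
    obtain ⟨g, rfl⟩ := QuotientGroup.mk'_surjective T z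
    have h := reps_cover
    simp only [List.all_eq_true, List.any_eq_true, beq_iff_eq] at h
    obtain ⟨r, hr, hc⟩ := h _ (hunit g)
    obtain ⟨w, q, hw, hq⟩ : ∃ w q, code w = r ∧ f q = π w := by
      simp only [reps, List.mem_cons, List.not_mem_nil, or_false] at hr
      rcases hr with rfl | rfl | rfl | rfl | rfl | rfl | rfl | rfl
      · exact ⟨1, 1, hone, by simp⟩
      · exact ⟨X, _, hX, fx⟩
      · exact ⟨X * X, .a 1 * .a 1, by rw [hmul, hX], by rw [map_mul, fx, map_mul]⟩
      · exact ⟨X * X * X, .a 1 * .a 1 * .a 1, by rw [hmul, hmul, hX],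
          by simp only [map_mul, fx]⟩
      · exact ⟨Y, _, hY, fy⟩
      · exact ⟨Y * X, .xa 0 * .a 1, by rw [hmul, hX, hY], by simp only [map_mul, fx, fy]⟩
      · exact ⟨Y * (X * X), .xa 0 * (.a 1 * .a 1), by rw [hmul, hmul, hX, hY],
          by simp only [map_mul, fx, fy]⟩
      · exact ⟨Y * (X * X * X), .xa 0 * (.a 1 * .a 1 * .a 1), by rw [hmul, hmul, hmul, hX, hY],
          by simp only [map_mul, fx, fy]⟩
    refine ⟨q⁻¹, ?_⟩
    have hwg : π (w * g) = 1 := by rw [hπ, hmul, hw, hc]
    rw [map_inv, hq]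
    exact inv_eq_of_mul_eq_one_right (by rw [← map_mul, hwg])
  have hcardT : Nat.card T = 27 := by
    have hgu : Nat.card (Cfsg.GU 3 F 2) = 648 := by
      rw [CfsgLib.ClassicalForms.card_gu hFn]; decide
    have hsu : Nat.card (Cfsg.SU 3 F 2) = 216 := by
      have := CfsgLib.ClassicalForms.card_gu_eq_mul_su (n := 3) hFn (by norm_num)
      omega
    have h8 : Nat.card (Cfsg.SU 3 F 2 ⧸ T) = 8 := by
      rw [← Nat.card_congr (Equiv.ofBijective f ⟨hfinj, hfsurj⟩), Nat.card_eq_fintype_card, QuaternionGroup.card]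
    have := T.card_eq_card_quotient_mul_card_subgroup
    rw [hsu, h8] at this
    omega
  refine ⟨T.map (QuotientGroup.mk' (Subgroup.center (Cfsg.SU 3 F 2))),
    hT.map _ (QuotientGroup.mk'_surjective _), ?_, ?_,
    ⟨(QuotientGroup.quotientQuotientEquivQuotient _ T hZ).trans
      (MulEquiv.ofBijective f ⟨hfinj, hfsurj⟩).symm⟩⟩
  · set φ := (QuotientGroup.mk' (Subgroup.center (Cfsg.SU 3 F 2))).subgroupMap T with hφ
    have hsurj : Function.Surjective φ := MonoidHom.subgroupMap_surjective _ _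
    have h := Subgroup.card_eq_card_quotient_mul_card_subgroup φ.ker
    rw [Nat.card_congr (QuotientGroup.quotientKerEquivOfSurjective φ hsurj).toEquiv] at h
    have hk : Nat.card φ.ker = 3 := by
      have hker : φ.ker = (Subgroup.center (Cfsg.SU 3 F 2)).subgroupOf T := by
        ext z
        rw [MonoidHom.mem_ker, Subgroup.mem_subgroupOf, Subtype.ext_iff]
        exact QuotientGroup.eq_one_iff _
      rw [hker, Nat.card_congr (Subgroup.subgroupOfEquivOfLe hZ).toEquiv,
        CfsgLib.ClassicalForms.card_center_su hFn (by norm_num)]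
      norm_num
    rw [hk, hcardT] at h
    exact Nat.eq_of_mul_eq_mul_right three_pos (h.symm.trans rfl)
  · rintro _ ⟨g, hg, rfl⟩
    rw [← map_pow, show g ^ 3 = 1 from hg, map_one]

end Cfsg.Agent.S0827
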