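import Cfsg.Statements.S0982
import Cfsg.Agent.Lib.SmallGroups.PSLTwoPrime
-- import your own Cfsg.Agent.* helpers here

set_option autoImplicit false
open Cfsg

namespace Cfsg.Agent.S0982

theorem ord : orderOf ((5 : ℕ) : ZMod 23) = 23 - 1 := by
  rw [orderOf_eq_iff (by norm_num)]
  decide

open CfsgLib.SmallGroups CfsgLib.SmallGroups.PSLTwo in
theorem main {G : Type*} [Group G] [Finite G] [IsSimpleGroup G] (h : Nat.card G = 6072)
    {F : Type*} [Field F] [Fintype F] (hF : Fintype.card F = 23) :
    Nonempty (G ≃* Matrix.ProjectiveSpecialLinearGroup (Fin 2) F) := by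
  have : Fact (Nat.Prime 23) := ⟨by norm_num⟩
  have hG := not_isMulCommutative_of_card_eq h (by norm_num)
  have hn := card_sylow_mem (p := 23) (a := 1) (m := 264) (by rw [h]; norm_num) (by norm_num)
  rw [show (Nat.divisors 264).filter (fun d => d % 23 = 1) = {1, 24} by decide +kernel] at hn
  simp only [Finset.mem_insert, Finset.mem_singleton] at hn
  have h1 := one_lt_card_sylow hG (p := 23) (h ▸ by norm_num)
  refine nonempty_mulEquiv_prime' hG 5 (by norm_num) ord oddCheck_twentythree (by rw [h]) (by omega) hF

/-- A simple group of order 6072 is isomorphic to the projective special linear group of dimension 2 over the field with 23 elements. -/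
theorem result {G : Type*} [Group G] [Finite G] [IsSimpleGroup G] (h : Nat.card G = 6072) {F : Type*} [Field F] [Fintype F] (hF : Fintype.card F = 23) : Nonempty (G ≃* Matrix.ProjectiveSpecialLinearGroup (Fin 2) F) := by
  exact main h hF

end Cfsg.Agent.S0982
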