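import Cfsg.Statements.S1008
import Cfsg.Agent.Lib.SmallGroups.Order168Classes
-- import your own Cfsg.Agent.* helpers here

set_option autoImplicit false
open Cfsg

namespace Cfsg.Agent.S1008

open CfsgLib.SmallGroups CfsgLib.SmallGroups.Order168 Subgroup in
theorem maximal {G : Type*} [Group G] [Finite G] [IsSimpleGroup G] (h : Nat.card G = 168) :
    (∀ M : Subgroup G, IsCoatom M → Nonempty (↥M ≃* Equiv.Perm (Fin 4)) ∨
      (Nat.card ↥M = 21 ∧ ¬ IsMulCommutative ↥M)) ∧
    (∀ M M' : Subgroup G, IsCoatom M → IsCoatom M' → Nat.card ↥M = 21 → Nat.card ↥M' = 21 →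
      ∃ g : G, M' = M.map (MulAut.conj g).toMonoidHom) ∧
    ∃ M₁ M₂ : Subgroup G, IsCoatom M₁ ∧ IsCoatom M₂ ∧ Nonempty (↥M₁ ≃* Equiv.Perm (Fin 4)) ∧
      Nonempty (↥M₂ ≃* Equiv.Perm (Fin 4)) ∧ (∀ g : G, M₂ ≠ M₁.map (MulAut.conj g).toMonoidHom) ∧
      ∀ M : Subgroup G, IsCoatom M → Nonempty (↥M ≃* Equiv.Perm (Fin 4)) →
        ∃ g : G, M = M₁.map (MulAut.conj g).toMonoidHom ∨ M = M₂.map (MulAut.conj g).toMonoidHom := by
  classical
  have : Fact (Nat.Prime 2) := ⟨Nat.prime_two⟩
  have : Fact (Nat.Prime 7) := ⟨by norm_num⟩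
  have hG := noncomm h
  refine ⟨fun M hM => ?_, fun M M' hM hM' h21 h21' => ?_, ?_⟩
  · rcases coatom_cases h hM with ⟨P, rfl⟩ | h24
    · refine Or.inr ⟨((sylow_seven h).2 P).2, fun hc => ?_⟩
      refine not_normalizer_le_centralizer hG (h ▸ by norm_num) P fun g hg => ?_
      rw [mem_centralizer_iff]
      intro y hy
      exact congrArg Subtype.val (mul_comm' (⟨y, le_normalizer hy⟩ :
        ↥(normalizer ((P : Subgroup G) : Set G))) ⟨g, hg⟩)
    · exact Or.inl (nonempty_mulEquiv_perm_four h24 fun g => by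
        rw [← Subgroup.orderOf_coe]; exact orderOf_ne_six h _)
  · rcases coatom_cases h hM with ⟨P, rfl⟩ | h24
    · rcases coatom_cases h hM' with ⟨P', rfl⟩ | h24'
      · obtain ⟨g, rfl⟩ := MulAction.exists_smul_eq G P P'
        exact ⟨g, by rw [map_conj_normalizer, Sylow.coe_subgroup_smul]; rfl⟩
      · omega
    · omega
  · obtain ⟨T⟩ := (inferInstance : Nonempty (Sylow 2 G))
    obtain ⟨⟨U, hU, hkU⟩, ⟨W, hW, hkW⟩, hne, huniv⟩ := Nat.card_eq_two_iff.mp (card_klein_le h T)
    have hne' : U ≠ W := fun he => hne (Subtype.ext he)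
    have hkmap : ∀ (g : G) (V : Subgroup G), IsKleinFour ↥V →
        IsKleinFour ↥(V.map (MulAut.conj g).toMonoidHom) := fun g V hV =>
      isKleinFour_of_mulEquiv (equivMapOfInjective V _ (MulAut.conj g).injective)
    refine ⟨_, _, isCoatom_of_card_24 h (card_normalizer_klein h hkU),
      isCoatom_of_card_24 h (card_normalizer_klein h hkW), normalizer_klein_iso h hkU,
      normalizer_klein_iso h hkW, fun g hg => ?_, fun M _ hM => ?_⟩
    · rw [map_conj_normalizer] at hg
      exact klein_not_conj h hU hW hkU hkW hne' g (klein_unique h hkW (hkmap g U hkU) hg).symm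
    · have h24 : Nat.card ↥M = 24 := by
        obtain ⟨e⟩ := hM
        rw [Nat.card_congr e.toEquiv, Nat.card_perm, Nat.card_fin]
        rfl
      obtain ⟨V, hkV, rfl⟩ := exists_klein_normal h h24
      obtain ⟨S, -, -, hS, -⟩ := exists_two_sylows_klein h hkV
      obtain ⟨g, hg⟩ := MulAction.exists_smul_eq G T S
      have hV' : V.map (MulAut.conj g⁻¹).toMonoidHom ≤ (T : Subgroup G) := by
        rintro _ ⟨v, hv, rfl⟩
        have h1 := hS hv
        rw [← hg, Sylow.coe_subgroup_smul, mem_pointwise_smul_iff_inv_smul_mem] at h1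
        simpa [MulAut.smul_def] using h1
      have hback : V = (V.map (MulAut.conj g⁻¹).toMonoidHom).map (MulAut.conj g).toMonoidHom := by
        rw [Subgroup.map_map]
        ext x
        rw [mem_map]
        refine ⟨fun hx => ⟨x, hx, by simp [mul_assoc]⟩, ?_⟩
        rintro ⟨y, hy, rfl⟩
        simpa [mul_assoc] using hy
      have hmem : (⟨_, hV', hkmap g⁻¹ V hkV⟩ : {U : Subgroup G // U ≤ (T : Subgroup G) ∧ IsKleinFour ↥U}) ∈
          ({⟨U, hU, hkU⟩, ⟨W, hW, hkW⟩} : Set {U : Subgroup G // U ≤ (T : Subgroup G) ∧ IsKleinFour ↥U}) :=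
        huniv ▸ Set.mem_univ _
      refine ⟨g, ?_⟩
      rcases hmem with h' | h'
      · have h'' : V.map (MulAut.conj g⁻¹).toMonoidHom = U := congrArg Subtype.val h'
        left
        rw [map_conj_normalizer, ← h'', ← hback]
      · have h'' : V.map (MulAut.conj g⁻¹).toMonoidHom = W := congrArg Subtype.val (h' : _ = _)
        right
        rw [map_conj_normalizer, ← h'', ← hback]

/-- In a simple group of order 168 every maximal subgroup is either isomorphic to the symmetric group of degree 4 or non-abelian of order 21; the maximal subgroups of order 21 form one conjugacy class and those isomorphic to the symmetric group of degree 4 form exactly two conjugacy classes. -/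
theorem result {G : Type*} [Group G] [Finite G] [IsSimpleGroup G] (h : Nat.card G = 168) : (∀ M : Subgroup G, IsCoatom M → Nonempty (↥M ≃* Equiv.Perm (Fin 4)) ∨ (Nat.card ↥M = 21 ∧ ¬ IsMulCommutative ↥M)) ∧ (∀ M M' : Subgroup G, IsCoatom M → IsCoatom M' → Nat.card ↥M = 21 → Nat.card ↥M' = 21 → ∃ g : G, M' = M.map (MulAut.conj g).toMonoidHom) ∧ ∃ M₁ M₂ : Subgroup G, IsCoatom M₁ ∧ IsCoatom M₂ ∧ Nonempty (↥M₁ ≃* Equiv.Perm (Fin 4)) ∧ Nonempty (↥M₂ ≃* Equiv.Perm (Fin 4)) ∧ (∀ g : G, M₂ ≠ M₁.map (MulAut.conj g).toMonoidHom) ∧ ∀ M : Subgroup G, IsCoatom M → Nonempty (↥M ≃* Equiv.Perm (Fin 4)) → ∃ g : G, M = M₁.map (MulAut.conj g).toMonoidHom ∨ M = M₂.map (MulAut.conj g).toMonoidHom := by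
  exact maximal h

end Cfsg.Agent.S1008
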