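import Cfsg.Statements.S1015
import Cfsg.Agent.Lib.SmallGroups.Action
-- import your own Cfsg.Agent.* helpers here

set_option autoImplicit false
open Cfsg

namespace Cfsg.Agent.S1015

open CfsgLib.SmallGroups Subgroup in
theorem key {G : Type*} [Group G] [Finite G] [IsSimpleGroup G] (h : Nat.card G = 1200) : False := by
  have hG := not_isMulCommutative_of_card_eq h (by norm_num)
  have : Fact (Nat.Prime 5) := ⟨by norm_num⟩
  have hn := card_sylow_mem (p := 5) (a := 2) (m := 48) (by rw [h]; norm_num) (by norm_num)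
  rw [show (Nat.divisors 48).filter (fun d => d % 5 = 1) = {1, 6, 16} by decide] at hn
  simp only [Finset.mem_insert, Finset.mem_singleton] at hn
  have h1 := one_lt_card_sylow hG (p := 5) (h ▸ by norm_num)
  have h6 := two_mul_card_dvd_factorial_card_sylow hG (p := 5) (h ▸ by norm_num)
  rw [h] at h6
  obtain ⟨P, R, hPR, hidx⟩ := exists_sylow_inter (G := G) 5 2 (by
    intro hmod
    rcases hn with hh | hh | hh <;> rw [hh] at hmod h1 h6
    · omega
    · exact absurd h6 (by decide)
    · exact absurd hmod (by decide))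
  have hP : ∀ Q : Sylow 5 G, Nat.card ↥(Q : Subgroup G) = 25 := fun Q =>
    card_sylow_eq (a := 2) (m := 48) (by rw [h]; norm_num) (by norm_num) Q
  set D := (P : Subgroup G) ⊓ (R : Subgroup G) with hD
  have hD1 : D ≠ ⊥ := fun hb => by
    have : ((R : Subgroup G).subgroupOf (P : Subgroup G)) = ⊥ := by
      rw [← inf_subgroupOf_left, ← hD, hb, bot_subgroupOf]
    rw [this, index_bot, hP] at hidx
    omega
  set C := centralizer (D : Set G) with hC
  have hle : ∀ Q : Sylow 5 G, D ≤ (Q : Subgroup G) → (Q : Subgroup G) ≤ C := fun Q hQ x hx => by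
    rw [hC, mem_centralizer_iff]
    intro y hy
    have : IsMulCommutative ↥(Q : Subgroup G) :=
      IsPGroup.isMulCommutative_of_card_eq_prime_sq (p := 5) ((hP Q).trans (by norm_num))
    exact congrArg Subtype.val (mul_comm' (⟨y, hQ hy⟩ : ↥(Q : Subgroup G)) ⟨x, hx⟩)
  have hC1 : C ≠ ⊤ := fun ht => by
    have hcen : D ≤ center G := fun x hx => mem_center_iff.mpr fun y => by
      have hy : y ∈ centralizer (D : Set G) := by rw [← hC, ht]; exact mem_top y
      exact (mem_centralizer_iff.mp hy x hx).symm
    have hz : center G = ⊥ := by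
      rcases (inferInstance : (center G).Normal).eq_bot_or_eq_top with hc | hc
      · exact hc
      · exact absurd (IsMulCommutative.of_comm fun a b => (mem_center_iff.mp (hc ▸ mem_top a) b).symm) hG
    exact hD1 (le_bot_iff.mp (hz ▸ hcen))
  have hPC := hle P inf_le_left
  have hRC := hle R inf_le_right
  let P' : Sylow 5 C := P.subtype hPC
  have hP' : Nat.card ↥(P' : Subgroup C) = 25 := by
    rw [Sylow.coe_subtype, Nat.card_congr (subgroupOfEquivOfLe hPC).toEquiv, hP]
  have hn' : 1 < Nat.card (Sylow 5 C) :=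
    Finite.one_lt_card_iff_nontrivial.mpr ⟨P', R.subtype hRC, fun he => hPR (Sylow.subtype_injective he)⟩
  have hmod : Nat.card (Sylow 5 C) % 5 = 1 := card_sylow_modEq_one 5 C
  have hNC := card_sylow_mul_card_normalizer P'
  have h25 : 25 ≤ Nat.card ↥(normalizer ((P' : Subgroup C) : Set C)) :=
    hP' ▸ card_le_of_le (le_normalizer)
  have hC150 : 150 ≤ Nat.card C := by
    rw [← hNC]
    exact le_trans (by norm_num) (Nat.mul_le_mul (by omega : 6 ≤ Nat.card (Sylow 5 C)) h25)
  have hidx' : C.index ≤ 8 := by
    have := C.card_mul_index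
    rw [h] at this
    nlinarith
  have := index_gt hG hC1 (k := 8) (by rw [h]; decide)
  omega

/-- No finite simple group has order 1200 = 2^4 * 3 * 5^2. -/
theorem result {G : Type*} [Group G] [Finite G] [IsSimpleGroup G] : Nat.card G ≠ 1200 := by
  exact fun h => key h

end Cfsg.Agent.S1015
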