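import Cfsg.Statements.S1017
import Cfsg.Agent.Lib.SmallGroups.CentralInvolution
import Cfsg.Agent.Lib.SmallGroups.InvolutionCentralizer
-- import your own Cfsg.Agent.* helpers here

set_option autoImplicit false
open Cfsg

namespace Cfsg.Agent.S1017

open Subgroup MulAction CfsgLib.SmallGroups
open scoped Pointwise

universe u

variable {G : Type u} [Group G] [Finite G] [IsSimpleGroup G]

theorem centralizer_le (h : Nat.card G = 2016) [Fact (Nat.Prime 7)] (P : Sylow 7 G)
    (h36 : Nat.card (Sylow 7 G) = 36) (hN : Nat.card ↥(normalizer ((P : Subgroup G) : Set G)) = 2 ^ 3 * 7)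
    {t : G} (ht : orderOf t = 2) (hPt : (P : Subgroup G) ≤ centralizer ({t} : Set G))
    (hW : 2 ^ 3 ∣ Nat.card ↥(normalizer ((P : Subgroup G) : Set G) ⊓ centralizer ({t} : Set G) : Subgroup G)) :
    centralizer ({t} : Set G) ≤ normalizer ((P : Subgroup G) : Set G) := by
  have hG := not_isMulCommutative_of_card_eq h (by norm_num)
  obtain ⟨hmod, hdvd, hle, hmul⟩ := relIndex_normalizer_centralizer P hPt
  have htop := centralizer_ne_top hG (t := t) (fun h1 => by rw [h1, orderOf_one] at ht; exact absurd ht (by norm_num))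
  set N := normalizer ((P : Subgroup G) : Set G) with hNdef
  set C := centralizer ({t} : Set G) with hCdef
  have h7 : 7 ∣ Nat.card ↥(N ⊓ C : Subgroup G) := by
    have := card_dvd_of_le (le_inf le_normalizer hPt : (P : Subgroup G) ≤ N ⊓ C)
    rwa [card_sylow_eq (p := 7) (a := 1) (m := 288) (by rw [h]; norm_num) (by norm_num) P, pow_one] at this
  have h56 : Nat.card ↥(N ⊓ C : Subgroup G) = 56 :=
    Nat.dvd_antisymm ((card_dvd_of_le inf_le_left).trans (dvd_of_eq (hN.trans (by norm_num))))
      (Nat.Coprime.mul_dvd_of_dvd_of_dvd (show Nat.Coprime 8 7 by norm_num) (by simpa using hW) h7)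
  rw [h56] at hmul
  rw [h36] at hle
  have hCd : N.relIndex C * 56 ∣ 2016 := by rw [hmul, ← h]; exact card_subgroup_dvd_card C
  have hmem : N.relIndex C = 1 ∨ N.relIndex C = 36 := by
    have hd : N.relIndex C ∣ 36 := (Nat.mul_dvd_mul_iff_right (show 0 < 56 by norm_num)).mp (by simpa using hCd)
    have hall : ∀ i ∈ Finset.range 37, i ∣ 36 → i % 7 = 1 → i = 1 ∨ i = 36 := by decide
    exact hall _ (Finset.mem_range.mpr (by omega)) hd (by omega)
  rcases hmem with h1 | h1
  · exact relIndex_eq_one.mp h1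
  · exact absurd (eq_top_of_card_eq C (by rw [← hmul, h1, h])) htop

theorem key (h : Nat.card G = 2016) : False := by
  classical
  have hG := not_isMulCommutative_of_card_eq h (by norm_num)
  have : Fact (Nat.Prime 7) := ⟨by norm_num⟩
  have hn := card_sylow_mem (p := 7) (a := 1) (m := 288) (by rw [h]; norm_num) (by norm_num)
  rw [show (Nat.divisors 288).filter (fun d => d % 7 = 1) = {1, 8, 36, 288} by decide] at hn
  simp only [Finset.mem_insert, Finset.mem_singleton] at hn
  have h1 := one_lt_card_sylow hG (p := 7) (h ▸ by norm_num)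
  obtain ⟨P⟩ := (inferInstance : Nonempty (Sylow 7 G))
  obtain ⟨c, e, hC, hN, he, hed, hprod⟩ := sylow_prime_data hG (m := 288) (by rw [h]) (by norm_num) P
  have he6 : e = 2 ∨ e = 3 ∨ e = 6 := by
    have := Nat.le_of_dvd (by norm_num) hed
    interval_cases e <;> omega
  rcases hn with hn | hn | hn | hn
  · omega
  · rw [hn] at hprod
    obtain ⟨g₀, hg₀⟩ := exists_smul_sylow_ne hG (p := 7) (h ▸ by norm_num) P
    obtain ⟨q, hq, hqc⟩ : ∃ q, (q = 2 ∨ q = 3) ∧ q ∣ c := by
      rcases he6 with rfl | rfl | rfl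
      · exact ⟨2, Or.inl rfl, by omega⟩
      · exact ⟨2, Or.inl rfl, by omega⟩
      · exact ⟨3, Or.inr rfl, by omega⟩
    have : Fact q.Prime := ⟨by rcases hq with rfl | rfl <;> norm_num⟩
    obtain ⟨⟨x, hxC⟩, hx⟩ := exists_prime_orderOf_dvd_card' (G := ↥(centralizer ((P : Subgroup G) : Set G))) q
      (hC ▸ hqc.mul_left 7)
    have hxq : orderOf x = q := (Subgroup.orderOf_coe _).trans hx
    have hx1 : x ≠ 1 := fun h' => by rw [h', orderOf_one] at hxq; rcases hq with rfl | rfl <;> omega
    have hlt : Nat.card (fixedBy (Sylow 7 G) x) < 8 := hn ▸ card_fixedBy_lt hg₀ hx1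
    have h7 : Nat.card (fixedBy (Sylow 7 G) x) % 7 = 1 := card_fixedBy_sylow_modEq_one P hxC
    have hq' : 8 % q = Nat.card (fixedBy (Sylow 7 G) x) % q :=
      hn ▸ card_modEq_card_fixedBy (IsPGroup.of_card (n := 1) (by rw [Nat.card_zpowers, hxq, pow_one]))
    rcases hq with rfl | rfl <;> omega
  · rw [hn] at hprod
    obtain ⟨rfl, rfl⟩ : c = 4 ∧ e = 2 := by rcases he6 with rfl | rfl | rfl <;> omega
    exact false_of_central_involutions P (s := 2) (w := 3) (v := 5) (m := 63) (r := 7) (by rw [h]; norm_num)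
      (by norm_num) (hN.trans (by norm_num)) (by norm_num) (by rw [hC]; norm_num) (by norm_num) (by norm_num)
      fun t ht hPt hW => centralizer_le h P hn (hN.trans (by norm_num)) ht hPt hW
  · rw [hn] at hprod
    rcases he6 with rfl | rfl | rfl <;> omega

/-- No finite simple group has order 2016 = 2^5 * 3^2 * 7. -/
theorem result {G : Type*} [Group G] [Finite G] [IsSimpleGroup G] : Nat.card G ≠ 2016 := by
  exact fun h => key h

end Cfsg.Agent.S1017
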