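import Cfsg.Statements.S1254
import Cfsg.Agent.Lib.TwoFusion.DihedralClasses

set_option autoImplicit false
open Cfsg

namespace Cfsg.Agent.S1254

open DihedralGroup CfsgLib.TwoFusion in
/-- A dihedral Sylow subgroup whose four-groups have no fusing automizers gives a complement. -/
theorem complement_of_fix {X : Type*} [Group X] [Finite X] {k : ℕ} {S : Sylow 2 X}
    (δ : DihedralSylow k S)
    (hfix : ∀ i, ∀ n ∈ Subgroup.normalizer (δ.shape (k - 1) i : Set X),
      n * δ.centre * n⁻¹ = δ.centre) : Cfsg.HasNormalPComplement 2 X := by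
  classical
  haveI : Fact (Nat.Prime 2) := ⟨Nat.prime_two⟩
  rcases Nat.lt_or_ge 1 k with hk | hk
  swap
  · have hk1 : k = 1 := le_antisymm hk δ.pos
    have hP : Subgroup.normalizer ((S : Subgroup X) : Set X) ≤
        Subgroup.centralizer ((S : Subgroup X) : Set X) := by
      intro n hn
      refine δ.mem_centralizer_of_fix hk1 hn (hfix 0 n ?_)
      rw [show k - 1 = 0 by omega, δ.shape_zero]
      exact hn
    exact ⟨S, _, inferInstance, MonoidHom.ker_transferSylow_isComplement' S hP⟩
  have hnc : ∀ b, ¬ IsConj (δ.φ (sr b)) δ.centre := by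
    intro b hb
    obtain ⟨g, hg⟩ := isConj_iff.mp hb
    obtain ⟨n, hn, hn'⟩ := δ.exists_normalizer_conj hg
    exact δ.sr_ne_centre b ((MulAut.conj n).injective
      (show (MulAut.conj n) (δ.φ (sr b)) = (MulAut.conj n) δ.centre from hn'.trans (hfix b n hn).symm))
  set χ := fun i : ZMod (2 ^ k) => δ.parityTransfer i with hχ
  have hval : ∀ i d, δ.parityTransfer i (δ.φ d) = parityHom δ.pos i d := by
    intro i d
    have h : ((δ.parityTransfer i).comp δ.φ).eqLocus (parityHom δ.pos i) = ⊤ :=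
      sr_zero_one_generate (δ.parityTransfer_reflection hk i (hnc 0))
        (δ.parityTransfer_reflection hk i (hnc 1))
    exact (h ▸ Subgroup.mem_top d : d ∈ ((δ.parityTransfer i).comp δ.φ).eqLocus (parityHom δ.pos i))
  let θ : X →* Multiplicative (ZMod 2) × Multiplicative (ZMod 2) :=
    (δ.parityTransfer 0).prod (δ.parityTransfer 1)
  have hKS : ∀ s ∈ θ.ker, s ∈ (S : Subgroup X) → s ∈ Subgroup.zpowers (δ.φ (r (2 : ZMod (2 ^ k)))) := by
    intro s hs hsS
    obtain ⟨d, rfl⟩ := δ.exists_eq hsS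
    have h0 : parityHom δ.pos 0 d = 1 := by rw [← hval]; exact congrArg Prod.fst hs
    have h1 : parityHom δ.pos 1 d = 1 := by rw [← hval]; exact congrArg Prod.snd hs
    rcases d with a | a
    · have h2 : (2 : ZMod (2 ^ k)) ∣ a := by
        rw [← sub_zero a, ← parityHom_sr_eq_one_iff δ.pos]
        rw [← h0]
        show Multiplicative.ofAdd _ = Multiplicative.ofAdd _
        rw [sub_zero]
      obtain ⟨c, rfl⟩ := h2
      refine ⟨(c.val : ℤ), ?_⟩
      show δ.φ (r 2) ^ (c.val : ℤ) = _
      rw [zpow_natCast, ← map_pow, r_pow, ZMod.natCast_zmod_val]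
    · exfalso
      have e0 := (parityHom_sr_eq_one_iff δ.pos 0 a).mp h0
      have e1 := (parityHom_sr_eq_one_iff δ.pos 1 a).mp h1
      have := dvd_sub e0 e1
      rw [show a - 0 - (a - 1) = 1 by ring] at this
      exact not_two_dvd_one δ.pos this
  -- a Sylow subgroup of the kernel is cyclic
  obtain ⟨Q⟩ := (inferInstance : Nonempty (Sylow 2 θ.ker))
  have hQ : IsCyclic (Q : Subgroup θ.ker) := by
    obtain ⟨x, hx⟩ := δ.exists_conj_mem _ (Q.2.map θ.ker.subtype)
    let f : (Q : Subgroup θ.ker) →* Subgroup.zpowers (δ.φ (r (2 : ZMod (2 ^ k)))) :=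
      ((MulAut.conj x).toMonoidHom.comp (θ.ker.subtype.comp (Q : Subgroup θ.ker).subtype)).codRestrict _
        (fun q => hKS _ ((inferInstance : θ.ker.Normal).conj_mem _ q.1.2 x) (hx _ ⟨q, q.2, rfl⟩))
    exact isCyclic_of_injective f (fun q q' h => Subtype.ext (Subtype.ext
      ((MulAut.conj x).injective (congrArg Subtype.val h))))
  obtain ⟨M, hMn, hModd, a, ha⟩ : ∃ M : Subgroup θ.ker, M.Normal ∧ ¬ 2 ∣ Nat.card M ∧
      ∃ a, M.index = 2 ^ a := by
    by_cases h2 : 2 ∣ Nat.card θ.ker
    · have hmin : (Nat.card θ.ker).minFac = 2 := (Nat.minFac_eq_two_iff _).mpr h2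
      have hc := IsCyclic.isComplement' hmin hQ
      refine ⟨_, inferInstance,
        MonoidHom.not_dvd_card_ker_transferSylow Q (hQ.normalizer_le_centralizer hmin), ?_⟩
      obtain ⟨a, ha⟩ := Q.2.exists_card_eq
      exact ⟨a, hc.symm.index_eq_card.trans ha⟩
    · exact ⟨⊤, inferInstance, by rwa [Subgroup.card_top], 0, by rw [Subgroup.index_top, pow_zero]⟩
  have hMmem : ∀ m : θ.ker, ¬ 2 ∣ orderOf m → m ∈ M := by
    intro m hm
    haveI := hMn
    rw [← QuotientGroup.eq_one_iff, ← orderOf_eq_one_iff]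
    have h1 : orderOf (m : θ.ker ⧸ M) ∣ 2 ^ a :=
      ha ▸ (M.index_eq_card ▸ orderOf_dvd_natCard _)
    exact Nat.eq_one_of_dvd_coprimes
      ((Nat.prime_two.coprime_iff_not_dvd.mpr hm).pow_left a) h1 (orderOf_map_dvd (QuotientGroup.mk' M) m)
  set MX := M.map θ.ker.subtype with hMX
  have hnorm : MX.Normal := by
    constructor
    rintro _ ⟨m, hm, rfl⟩ g
    refine ⟨⟨g * m * g⁻¹, (inferInstance : θ.ker.Normal).conj_mem _ m.2 g⟩, hMmem _ ?_, rfl⟩
    rw [← Subgroup.orderOf_coe]
    show ¬ 2 ∣ orderOf ((MulAut.conj g) (m : X))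
    rw [MulEquiv.orderOf_eq]
    intro h2
    rw [Subgroup.orderOf_coe] at h2
    exact hModd (h2.trans (Subgroup.orderOf_dvd_natCard _ hm))
  have hcM : Nat.card MX = Nat.card M := Subgroup.card_map_of_injective θ.ker.subtype_injective
  obtain ⟨b, hb⟩ : ∃ b, θ.ker.index = 2 ^ b := by
    have hd : θ.ker.index ∣ 2 ^ 2 := by
      rw [Subgroup.index_ker]
      refine (Subgroup.card_subgroup_dvd_card _).trans (dvd_of_eq ?_)
      rw [Nat.card_prod, Nat.card_congr Multiplicative.toAdd, Nat.card_zmod]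
      norm_num
    obtain ⟨b, -, hb⟩ := (Nat.dvd_prime_pow Nat.prime_two).mp hd
    exact ⟨b, hb⟩
  have htot : Nat.card MX * 2 ^ (a + b) = Nat.card X := by
    rw [pow_add, ← ha, ← hb, hcM, ← mul_assoc, M.card_mul_index, θ.ker.card_mul_index]
  have hcopM : Nat.Coprime 2 (Nat.card MX) := Nat.prime_two.coprime_iff_not_dvd.mpr (hcM ▸ hModd)
  obtain ⟨n, hn⟩ := IsPGroup.exists_card_eq S.2
  have hSi : Nat.card (S : Subgroup X) * (S : Subgroup X).index = Nat.card X :=
    Subgroup.card_mul_index _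
  have hco : Nat.Coprime 2 (S : Subgroup X).index :=
    Nat.prime_two.coprime_iff_not_dvd.mpr S.not_dvd_index
  rw [hn] at hSi
  have e : 2 ^ (a + b) = 2 ^ n := by
    apply Nat.dvd_antisymm
    · exact (hco.pow_left _).dvd_of_dvd_mul_right (hSi.symm ▸ Dvd.intro_left _ htot)
    · exact (hcopM.pow_left _).dvd_of_dvd_mul_left (htot.symm ▸ Dvd.intro _ hSi)
  refine ⟨S, MX, hnorm, Subgroup.isComplement'_of_coprime ?_ ?_⟩
  · rw [hn, ← e, htot]
  · rw [hn]; exact (hcopM.pow_left n).symm

/-- Let X be a finite group whose Sylow 2-subgroup S is dihedral (of order at least 4). Then X has a normal 2-complement if and only if, for every Klein four-subgroup U ≤ S, the normalizer N_X(U) is generated by C_X(U) and N_S(U). -/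
theorem result {X : Type*} [Group X] [Finite X] (S : Sylow 2 X) (m : ℕ) (hm : 2 ≤ m) (eS : (S : Subgroup X) ≃* DihedralGroup m) : Cfsg.HasNormalPComplement 2 X ↔ ∀ U : Subgroup X, U ≤ S → IsKleinFour U → Subgroup.normalizer (U : Set X) = Subgroup.centralizer (U : Set X) ⊔ ((S : Subgroup X) ⊓ Subgroup.normalizer (U : Set X)) := by
  classical
  haveI : Fact (Nat.Prime 2) := ⟨Nat.prime_two⟩
  obtain ⟨k, rfl, ⟨δ⟩⟩ := CfsgLib.TwoFusion.exists_dihedralSylow S hm eS
  constructor
  · rintro ⟨P, K, hKn, hKP⟩ U hUS hU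
    have hKS : Subgroup.IsComplement' K (S : Subgroup X) := by
      refine Subgroup.isComplement'_of_coprime ?_ ?_
      · rw [← hKP.card_mul, P.card_eq_multiplicity, S.card_eq_multiplicity]
      · have h1 : Nat.card K = (P : Subgroup X).index := hKP.index_eq_card.symm
        obtain ⟨n, hn⟩ := IsPGroup.exists_card_eq S.2
        rw [hn]
        exact ((Nat.prime_two.coprime_iff_not_dvd.mpr (h1 ▸ P.not_dvd_index)).pow_left n).symm
    apply le_antisymm
    · intro n hn
      obtain ⟨⟨⟨x, hx⟩, ⟨s, hs⟩⟩, rfl⟩ := hKS.2 n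
      change x * s ∈ Subgroup.normalizer (U : Set X) at hn
      have key : ∀ u ∈ U, x * s * u * (x * s)⁻¹ = s * u * s⁻¹ ∧
          x * (s * u * s⁻¹) = s * u * s⁻¹ * x := by
        intro u hu
        have hv : s * u * s⁻¹ ∈ (S : Subgroup X) := mul_mem (mul_mem hs (hUS hu)) (inv_mem hs)
        have hw := hUS ((Subgroup.mem_normalizer_iff.mp hn u).mp hu)
        have e : x * s * u * (x * s)⁻¹ = x * (s * u * s⁻¹) * x⁻¹ := by group
        rw [e] at hw ⊢
        have h1 : x * (s * u * s⁻¹) * x⁻¹ * (s * u * s⁻¹)⁻¹ = 1 :=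
          Subgroup.disjoint_def.mp hKS.disjoint
            (by
              rw [mul_assoc x, mul_assoc x]
              exact mul_mem hx (hKn.conj_mem _ (inv_mem hx) _))
            (mul_mem hw (inv_mem hv))
        have h2 := mul_inv_eq_one.mp h1
        exact ⟨h2, mul_inv_eq_iff_eq_mul.mp h2⟩
      have hsU : s ∈ Subgroup.normalizer (U : Set X) := by
        rw [Subgroup.mem_normalizer_iff]
        intro u
        have hfwd : ∀ u ∈ U, s * u * s⁻¹ ∈ U := fun u hu =>
          (key u hu).1 ▸ (Subgroup.mem_normalizer_iff.mp hn u).mp hu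
        refine ⟨hfwd u, fun hu => ?_⟩
        have hle : U.map (MulAut.conj s).toMonoidHom ≤ U := by
          rintro _ ⟨v, hv, rfl⟩; exact hfwd v hv
        rw [← Subgroup.eq_of_le_of_card_ge hle
          (Subgroup.card_map_of_injective (MulAut.conj s).injective).ge] at hu
        obtain ⟨v, hv, hv'⟩ := hu
        obtain rfl : v = u := (MulAut.conj s).injective hv'
        exact hv
      refine Subgroup.mul_mem_sup ?_ ⟨hs, hsU⟩
      rw [Subgroup.mem_centralizer_iff]
      intro u hu
      have hu' : s⁻¹ * u * s ∈ U := (Subgroup.mem_normalizer_iff''.mp hsU u).mp hu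
      have := (key _ hu').2
      rw [show s * (s⁻¹ * u * s) * s⁻¹ = u by group] at this
      exact this.symm
    · exact sup_le (Subgroup.centralizer_le_normalizer _) inf_le_right
  · intro h
    refine complement_of_fix δ fun i n hn => ?_
    rw [h _ (δ.shape_le _ i) (δ.shape_isKleinFour i)] at hn
    have hle : Subgroup.centralizer (δ.shape (k - 1) i : Set X) ⊔
        ((S : Subgroup X) ⊓ Subgroup.normalizer (δ.shape (k - 1) i : Set X)) ≤
        Subgroup.centralizer ({δ.centre} : Set X) := by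
      refine sup_le (Subgroup.centralizer_le (Set.singleton_subset_iff.mpr (δ.centre_mem i))) ?_
      intro s hs
      exact Subgroup.mem_centralizer_singleton_iff.mpr (δ.centre_commute hs.1).symm
    rw [mul_inv_eq_iff_eq_mul]
    exact Subgroup.mem_centralizer_singleton_iff.mp (hle hn)

end Cfsg.Agent.S1254
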