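import Cfsg.Statements.S1255
import Cfsg.Agent.Lib.TwoFusion.DihedralClasses

set_option autoImplicit false
open Cfsg

namespace Cfsg.Agent.S1255

open CfsgLib.TwoFusion in
/-- Automizers of a standard four-group. -/
theorem automizer_facts {X : Type*} [Group X] [Finite X] {k : ℕ} {S : Sylow 2 X}
    (δ : DihedralSylow k S) (i : ZMod (2 ^ k)) :
    ((Subgroup.centralizer (δ.shape (k - 1) i : Set X)).relIndex
        (Subgroup.normalizer (δ.shape (k - 1) i : Set X)) = (if Nat.card S = 4 then 3 else 6) ↔
      ∃ n ∈ Subgroup.normalizer (δ.shape (k - 1) i : Set X), n * δ.centre * n⁻¹ ≠ δ.centre) ∧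
    ((∃ n ∈ Subgroup.normalizer (δ.shape (k - 1) i : Set X), n * δ.centre * n⁻¹ ≠ δ.centre) →
      ∀ u ∈ δ.shape (k - 1) i, u ≠ 1 → IsConj δ.centre u) := by
  classical
  haveI : Fact (Nat.Prime 2) := ⟨Nat.prime_two⟩
  set U := δ.shape (k - 1) i with hU
  have hc1 : δ.centre ≠ 1 := fun h => by
    have := δ.orderOf_centre; rw [h, orderOf_one] at this; omega
  set N := Subgroup.normalizer (U : Set X) with hN
  let T := {u : X // u ∈ U ∧ u ≠ 1}
  letI act : MulAction N T :=
    { smul := fun n u => ⟨n * u * (n : X)⁻¹,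
        (Subgroup.mem_normalizer_iff.mp n.2 u).mp u.2.1, fun h => u.2.2 (conj_eq_one_iff.mp h)⟩
      one_smul := fun u => Subtype.ext (show ((1 : N) : X) * u * ((1 : N) : X)⁻¹ = u by simp)
      mul_smul := fun m n u => Subtype.ext (show ((m * n : N) : X) * u * ((m * n : N) : X)⁻¹ =
          m * (n * u * (n : X)⁻¹) * (m : X)⁻¹ by simp [mul_assoc]) }
  have hT : Nat.card T = 3 := by
    have h : (({u | u ∈ U ∧ u ≠ 1} : Set X)).ncard = 3 := by
      rw [show ({u | u ∈ U ∧ u ≠ 1} : Set X) = (U : Set X) \ {1} from Set.ext fun u => Iff.rfl,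
        Set.ncard_sdiff_singleton_of_mem (one_mem U), ← Nat.card_coe_set_eq,
        SetLike.coe_sort_coe, (δ.shape_isKleinFour i).card_four]
    rwa [← Nat.card_coe_set_eq] at h
  let f := MulAction.toPermHom N T
  have hker : f.ker = (Subgroup.centralizer (U : Set X)).subgroupOf N := by
    ext n
    rw [MonoidHom.mem_ker, Subgroup.mem_subgroupOf, Subgroup.mem_centralizer_iff]
    constructor
    · intro h u hu
      by_cases hu1 : u = 1
      · simp [hu1]
      · have h1 : (n : X) * u * (n : X)⁻¹ = u :=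
          congrArg Subtype.val (Equiv.ext_iff.mp h ⟨u, hu, hu1⟩)
        exact (mul_inv_eq_iff_eq_mul.mp h1).symm
    · intro h
      refine Equiv.ext fun u => Subtype.ext ?_
      show (n : X) * u * (n : X)⁻¹ = u
      rw [← h u u.2.1, mul_inv_cancel_right]
  have hrel : (Subgroup.centralizer (U : Set X)).relIndex N = Nat.card f.range := by
    rw [← Subgroup.index_ker, hker]; rfl
  have hperm : Nat.card (Equiv.Perm T) = 6 := by rw [Nat.card_perm, hT]; rfl
  have hdvd6 : Nat.card f.range ∣ 6 := hperm ▸ Subgroup.card_subgroup_dvd_card _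
  set c₀ : T := ⟨δ.centre, δ.centre_mem i, hc1⟩
  have hstab : Nat.card (MulAction.stabilizer (Equiv.Perm T) c₀) = 2 := by
    have h := MulAction.index_stabilizer_of_transitive (Equiv.Perm T) c₀
    have h2 := (MulAction.stabilizer (Equiv.Perm T) c₀).card_mul_index
    rw [h, hT, hperm] at h2
    omega
  have hle : (∀ n : N, (n : X) * δ.centre * (n : X)⁻¹ = δ.centre) → Nat.card f.range ≤ 2 := by
    intro h
    refine (Subgroup.card_le_of_le ?_).trans_eq hstab
    rintro _ ⟨n, rfl⟩
    exact Subtype.ext (h n)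
  have hS4 : Nat.card S = 4 ↔ k = 1 := by
    have h := δ.card_sylow
    constructor
    · intro h4
      rcases Nat.lt_or_ge 1 k with h1 | h1
      · have : 2 ^ 2 ≤ 2 ^ k := Nat.pow_le_pow_right (by norm_num) h1
        omega
      · have := δ.pos; omega
    · rintro rfl
      exact h.trans (by norm_num)
  -- for a Sylow subgroup of order at least eight, an involution of the automizer fixes the centre
  have hswap : 2 ≤ k → ∃ n : N, (n : X) * δ.centre * (n : X)⁻¹ = δ.centre ∧ f n ≠ 1 := by
    intro hk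
    have hc := DihedralGroup.sr_mul_sr (n := 2 ^ k) 0 0
    set q : ZMod (2 ^ k) := (2 : ZMod (2 ^ k)) ^ (k - 2) with hq
    have hq2 : 2 * q = halfTurn k := by
      rw [hq, halfTurn, ← pow_succ']; congr 1; omega
    have hmem : δ.φ (DihedralGroup.r q) ∈ N := by
      have h1 : DihedralGroup.r q ∈ dihedralShape k (k - 2) i := dvd_rfl
      have h2 := δ.le_normalizer (j := k - 2) (by omega) i ((δ.mem_shape_iff _).mpr h1)
      rwa [show k - 2 + 1 = k - 1 by omega] at h2
    refine ⟨⟨_, hmem⟩, ?_, fun h => ?_⟩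
    · show δ.φ _ * δ.centre * (δ.φ _)⁻¹ = δ.centre
      rw [← δ.centre_commute (δ.mem _), mul_inv_cancel_right]
    · have h1 : δ.φ (DihedralGroup.r q) * δ.φ (DihedralGroup.sr i) * (δ.φ (DihedralGroup.r q))⁻¹ =
          δ.φ (DihedralGroup.sr i) :=
        congrArg Subtype.val (Equiv.ext_iff.mp h ⟨δ.φ (DihedralGroup.sr i), δ.sr_mem _ _, fun h' => by
          have := δ.orderOf_reflection i; rw [h', orderOf_one] at this; omega⟩)
      rw [← map_inv, ← map_mul, ← map_mul, conj_r_sr] at h1
      have h2 := δ.injective h1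
      rw [DihedralGroup.sr.injEq, hq2] at h2
      exact halfTurn_ne_zero δ.pos (by linear_combination (-1 : ZMod (2 ^ k)) * h2)
  have hmoves : (∃ n ∈ N, n * δ.centre * n⁻¹ ≠ δ.centre) →
      Nat.card f.range = (if Nat.card S = 4 then 3 else 6) := by
    rintro ⟨n, hn, hne⟩
    have hfn : f ⟨n, hn⟩ ≠ 1 := fun h => hne (congrArg Subtype.val (Equiv.ext_iff.mp h c₀))
    have h1 : Nat.card f.range ≠ 1 := fun h =>
      hfn (Subgroup.mem_bot.mp (Subgroup.card_eq_one.mp h ▸ ⟨_, rfl⟩))
    rcases Nat.lt_or_ge 1 k with hk | hk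
    · rw [if_neg (fun h => by have := hS4.mp h; omega)]
      obtain ⟨s, hs, hs1⟩ := hswap hk
      -- the point stabilizer is nontrivial and proper
      let st := (MulAction.stabilizer (Equiv.Perm T) c₀) ⊓ f.range
      have hs_mem : f s ∈ st := ⟨Subtype.ext hs, ⟨s, rfl⟩⟩
      have hst1 : Nat.card st ≠ 1 := fun h =>
        hs1 (Subgroup.mem_bot.mp (Subgroup.card_eq_one.mp h ▸ hs_mem))
      have hst2 : Nat.card st ∣ 2 := hstab ▸ Subgroup.card_dvd_of_le inf_le_left
      have hst : Nat.card st = 2 := ((Nat.dvd_prime Nat.prime_two).mp hst2).resolve_left hst1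
      have hne' : Nat.card f.range ≠ 2 := fun h => by
        have heq : st = f.range := Subgroup.eq_of_le_of_card_ge inf_le_right (by rw [h, hst])
        have : f ⟨n, hn⟩ ∈ st := heq ▸ ⟨_, rfl⟩
        exact hne (congrArg Subtype.val this.1)
      have h2 : 2 ∣ Nat.card f.range := hst ▸ Subgroup.card_dvd_of_le inf_le_right
      have := Nat.le_of_dvd (by norm_num) hdvd6
      interval_cases h : Nat.card f.range <;> omega
    · rw [if_pos (hS4.mpr (le_antisymm hk δ.pos))]
      have hSU : U = (S : Subgroup X) := by rw [hU, show k - 1 = 0 by omega, δ.shape_zero]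
      have hodd : ¬ 2 ∣ Nat.card f.range := by
        intro h2
        apply S.not_dvd_index
        rw [← hrel] at h2
        refine h2.trans ((Subgroup.relIndex_dvd_of_le_left N ?_).trans
          (Subgroup.relIndex_dvd_index_of_le ?_))
        · rw [← hSU]
          intro u hu
          exact Subgroup.mem_centralizer_iff.mpr fun v hv => δ.shape_commute hv hu
        · rw [← hSU]; exact Subgroup.le_normalizer
      have := Nat.le_of_dvd (by norm_num) hdvd6
      interval_cases h : Nat.card f.range <;> omega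
  refine ⟨⟨fun h => ?_, fun h => hrel.trans (hmoves h)⟩, fun h u hu hu1 => ?_⟩
  · by_contra! hfix
    have := hle (fun n => hfix n n.2)
    rw [hrel] at h
    split_ifs at h <;> omega
  · have h3 : 3 ∣ Nat.card f.range := by rw [hmoves h]; split_ifs <;> norm_num
    obtain ⟨σ, hσ⟩ := exists_prime_orderOf_dvd_card' (hp := ⟨Nat.prime_three⟩) 3 h3
    obtain ⟨g, hg⟩ := σ.2
    haveI : Fintype T := Fintype.ofFinite T
    have hord : orderOf (σ : Equiv.Perm T) = 3 := by rw [Subgroup.orderOf_coe, hσ]
    have hcyc : (σ : Equiv.Perm T).IsCycle :=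
      Equiv.Perm.isCycle_of_prime_order' (by rw [hord]; exact Nat.prime_three)
        (by rw [← Nat.card_eq_fintype_card, hT, hord]; norm_num)
    have hsupp : (σ : Equiv.Perm T).support = Finset.univ := Finset.eq_univ_of_card _ (by
      rw [← hcyc.orderOf, hord, ← Nat.card_eq_fintype_card, hT])
    obtain ⟨j, hj⟩ := hcyc.exists_zpow_eq (x := c₀) (y := ⟨u, hu, hu1⟩)
      (Equiv.Perm.mem_support.mp (hsupp ▸ Finset.mem_univ _))
      (Equiv.Perm.mem_support.mp (hsupp ▸ Finset.mem_univ _))
    rw [← hg, ← map_zpow] at hj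
    exact isConj_iff.mpr ⟨((g ^ j : N) : X), congrArg Subtype.val hj⟩

/-- Let X be a finite group whose Sylow 2-subgroup S is dihedral of order 2m ≥ 4. Then X has no subgroup of index 2 and no isolated involution if and only if either all involutions of X are conjugate, or for every Klein four-subgroup U ≤ S the index |N_X(U) : C_X(U)| equals 3 when |S| = 4 and equals 6 when |S| > 4. -/
theorem result {X : Type*} [Group X] [Finite X] (S : Sylow 2 X) (m : ℕ) (hm : 2 ≤ m) (eS : (S : Subgroup X) ≃* DihedralGroup m) : ((∀ H : Subgroup X, H.index ≠ 2) ∧ (∀ z : X, ¬ Cfsg.IsIsolatedInvolution z)) ↔ ((∀ a b : X, orderOf a = 2 → orderOf b = 2 → IsConj a b) ∨ (∀ U : Subgroup X, U ≤ S → IsKleinFour U → (Subgroup.centralizer (U : Set X)).relIndex (Subgroup.normalizer (U : Set X)) = (if Nat.card S = 4 then 3 else 6))) := by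
  classical
  haveI : Fact (Nat.Prime 2) := ⟨Nat.prime_two⟩
  obtain ⟨k, rfl, ⟨δ⟩⟩ := CfsgLib.TwoFusion.exists_dihedralSylow S hm eS
  have hmove_all : (∀ U : Subgroup X, U ≤ S → IsKleinFour U →
      (Subgroup.centralizer (U : Set X)).relIndex (Subgroup.normalizer (U : Set X)) =
        (if Nat.card S = 4 then 3 else 6)) → ∀ t : X, orderOf t = 2 → IsConj δ.centre t := by
    intro h t ht
    obtain ⟨x, d, hd⟩ := δ.exists_conj_into ht
    have hdt : IsConj (δ.φ d) t := (isConj_iff.mpr ⟨x, hd⟩).symm
    have ho : orderOf (δ.φ d) = 2 := by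
      rw [← hd, show x * t * x⁻¹ = (MulAut.conj x) t from rfl, MulEquiv.orderOf_eq, ht]
    rcases δ.conj_involution_cases ho rfl with rfl | ⟨i, rfl⟩
    · exact hdt
    · refine IsConj.trans ?_ hdt
      obtain ⟨h1, h2⟩ := automizer_facts δ i
      refine h2 (h1.mp (h _ (δ.shape_le _ _) (δ.shape_isKleinFour i))) _ (δ.sr_mem _ _) ?_
      intro h'
      rw [h', orderOf_one] at ho
      omega
  constructor
  · rintro ⟨hidx, -⟩
    right
    intro U hUS hU
    obtain ⟨i, rfl⟩ := δ.klein_eq_shape' hU hUS
    rw [(automizer_facts δ i).1]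
    by_contra! hfix
    rcases Nat.lt_or_ge 1 k with hk | hk
    · have hnc : ¬ IsConj (δ.φ (DihedralGroup.sr i)) δ.centre := by
        intro hb
        obtain ⟨g, hg⟩ := isConj_iff.mp hb
        obtain ⟨n, hn, hn'⟩ := δ.exists_normalizer_conj hg
        exact δ.sr_ne_centre i ((MulAut.conj n).injective
          (show (MulAut.conj n) (δ.φ (DihedralGroup.sr i)) = (MulAut.conj n) δ.centre from
            hn'.trans (hfix n hn).symm))
      have hp : IsPGroup 2 (Multiplicative (ZMod 2)) := IsPGroup.of_card (n := 1) (by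
        rw [Nat.card_congr Multiplicative.toAdd, Nat.card_zmod, pow_one])
      obtain ⟨K, hK⟩ := CfsgLib.TwoFusion.exists_index_two hp (δ.parityTransfer (i + 1))
        (g := δ.φ (DihedralGroup.sr i)) (by
          rw [δ.parityTransfer_reflection hk (i + 1) hnc, Ne,
            CfsgLib.TwoFusion.parityHom_sr_eq_one_iff δ.pos, show i - (i + 1) = -1 by ring, dvd_neg]
          exact CfsgLib.TwoFusion.not_two_dvd_one δ.pos)
      exact hidx K hK
    · have hk1 : k = 1 := le_antisymm hk δ.pos
      have hP : Subgroup.normalizer ((S : Subgroup X) : Set X) ≤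
          Subgroup.centralizer ((S : Subgroup X) : Set X) := by
        intro n hn
        refine δ.mem_centralizer_of_fix hk1 hn (hfix n ?_)
        rw [show k - 1 = 0 by omega, δ.shape_zero]
        exact hn
      haveI : IsMulCommutative (S : Subgroup X) :=
        ⟨⟨fun a b => Subtype.ext (hP (Subgroup.le_normalizer b.2) a a.2)⟩⟩
      let _ : CommGroup (S : Subgroup X) :=
        { (inferInstance : Group (S : Subgroup X)) with mul_comm := mul_comm' }
      have hcS : δ.centre ∈ (S : Subgroup X) := δ.mem _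
      obtain ⟨K, hK⟩ := CfsgLib.TwoFusion.exists_index_two S.2 (MonoidHom.transferSylow S hP)
        (g := δ.centre) (by
          rw [MonoidHom.transferSylow_eq_pow S hP δ.centre hcS]
          intro h
          have h' : δ.centre ^ (S : Subgroup X).index = 1 := congrArg Subtype.val h
          have := orderOf_dvd_of_pow_eq_one h'
          rw [δ.orderOf_centre] at this
          exact S.not_dvd_index this)
      exact hidx K hK
  · intro h
    have hconj : ∀ a b : X, orderOf a = 2 → orderOf b = 2 → IsConj a b :=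
      h.elim id (fun h a b ha hb => (hmove_all h a ha).symm.trans (hmove_all h b hb))
    refine ⟨fun H hH => ?_, ?_⟩
    · haveI : H.Normal := Subgroup.normal_of_index_eq_two hH
      have hiff : ∀ a b : X, orderOf a = 2 → orderOf b = 2 → (a ∈ H ↔ b ∈ H) := by
        intro a b ha hb
        obtain ⟨g, rfl⟩ := isConj_iff.mp (hconj a b ha hb)
        refine ⟨fun h => Subgroup.Normal.conj_mem inferInstance a h g, fun h => ?_⟩
        have := Subgroup.Normal.conj_mem (inferInstance : H.Normal) _ h g⁻¹
        simpa [mul_assoc] using this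
      have hcH : δ.centre ∈ H := by
        have he : δ.centre = δ.φ (DihedralGroup.sr 0) *
            δ.φ (DihedralGroup.sr (CfsgLib.TwoFusion.halfTurn k)) := by
          rw [← map_mul, DihedralGroup.sr_mul_sr, sub_zero]; rfl
        rw [he, Subgroup.mul_mem_iff_of_index_two hH]
        exact hiff _ _ (δ.orderOf_reflection _) (δ.orderOf_reflection _)
      have hall : ∀ i, δ.φ (DihedralGroup.sr i) ∈ H := fun i =>
        (hiff _ _ δ.orderOf_centre (δ.orderOf_reflection i)).mp hcH
      have htop : H.comap δ.φ = ⊤ := CfsgLib.TwoFusion.sr_zero_one_generate (hall 0) (hall 1)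
      have hSH : (S : Subgroup X) ≤ H := by
        intro s hs
        obtain ⟨d, rfl⟩ := δ.exists_eq hs
        exact (htop ▸ Subgroup.mem_top d : d ∈ H.comap δ.φ)
      have := Subgroup.index_dvd_of_le hSH
      rw [hH] at this
      exact S.not_dvd_index this
    · intro z hz
      obtain ⟨hz2, hz'⟩ := hz
      obtain ⟨p, hp⟩ := isConj_iff.mp (hconj z δ.centre hz2 δ.orderOf_centre)
      obtain ⟨q, hq⟩ := isConj_iff.mp (hconj z _ hz2 (δ.orderOf_reflection 0))
      have hcomm : Commute (p * z * p⁻¹) (q * z * q⁻¹) := by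
        rw [hp, hq]; exact δ.centre_commute (δ.mem _)
      have hne : p * z * p⁻¹ ≠ q * z * q⁻¹ := by
        rw [hp, hq]; exact Ne.symm (δ.sr_ne_centre 0)
      apply hne
      have hc' : Commute z ((p⁻¹ * q) * z * (p⁻¹ * q)⁻¹) := by
        have := hcomm.map (MulAut.conj p⁻¹).toMonoidHom
        simpa [mul_assoc] using this
      have := hz' (p⁻¹ * q) hc'
      calc p * z * p⁻¹ = p * (p⁻¹ * q * z * (p⁻¹ * q)⁻¹) * p⁻¹ := by rw [this]
        _ = _ := by group

end Cfsg.Agent.S1255
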