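import Cfsg.Statements.S1313
import Cfsg.Agent.Lib.Cores.GenFitting

set_option autoImplicit false
set_option linter.style.haveILetI false
open Cfsg

namespace Cfsg.Agent.S1313

/-- For a finite group H, |H| ≤ |F*(H)|!. -/
theorem result {H : Type*} [Group H] [Finite H] : Nat.card H ≤ Nat.factorial (Nat.card ↥(Cfsg.generalizedFittingSubgroup H)) := by
  classical
  set F := Cfsg.generalizedFittingSubgroup H
  haveI : F.Normal := inferInstance
  let φ : H →* MulAut ↥F := MulAut.conjNormal
  have hker : Nat.card φ.ker ≤ Nat.card ↥F := by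
    refine Nat.le_of_dvd Nat.card_pos (Subgroup.card_dvd_of_le (K := F) ?_)
    intro h hh
    refine CfsgLib.Cores.centralizer_generalizedFittingSubgroup_le ?_
    rw [Subgroup.mem_centralizer_iff]
    intro y hy
    have h2 : ((φ h) ⟨y, hy⟩ : ↥F) = ⟨y, hy⟩ := by rw [MonoidHom.mem_ker.mp hh]; rfl
    have h3 : h * y * h⁻¹ = y := by
      have := congrArg Subtype.val h2
      simpa [φ, MulAut.conjNormal_apply] using this
    calc y * h = (h * y * h⁻¹) * h := by rw [h3]
      _ = h * y := by group
  have haut : Nat.card (MulAut ↥F) ≤ Nat.factorial (Nat.card ↥F - 1) := by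
    let f : MulAut ↥F → Equiv.Perm {x : ↥F // x ≠ 1} := fun e =>
      e.toEquiv.subtypeEquiv fun a => by simp
    have hf : Function.Injective f := by
      intro a b hab
      refine MulEquiv.ext fun x => ?_
      by_cases hx : x = 1
      · simp [hx]
      · exact congrArg Subtype.val (Equiv.congr_fun hab ⟨x, hx⟩)
    refine (Nat.card_le_card_of_injective f hf).trans (le_of_eq ?_)
    rw [Nat.card_perm]
    congr 1
    haveI := Fintype.ofFinite ↥F
    simp [Nat.card_eq_fintype_card, Fintype.card_subtype_compl, Fintype.card_subtype_eq]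
  have hrange : Nat.card φ.range ≤ Nat.factorial (Nat.card ↥F - 1) :=
    (Subgroup.card_le_card_group _).trans haut
  have hmul : Nat.card H = Nat.card φ.ker * Nat.card φ.range := by
    rw [← Subgroup.index_ker, Subgroup.card_mul_index]
  rw [hmul]
  calc Nat.card φ.ker * Nat.card φ.range ≤ Nat.card ↥F * Nat.factorial (Nat.card ↥F - 1) :=
        Nat.mul_le_mul hker hrange
    _ = Nat.factorial (Nat.card ↥F) := Nat.mul_factorial_pred Nat.card_pos.ne'

end Cfsg.Agent.S1313
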