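import Cfsg.Statements.S1349
import Cfsg.Agent.Lib.Signalizer.Generation
import Cfsg.Agent.Lib.Cores.Fitting
import Cfsg.Agent.Lib.Cores.Basic
import Mathlib.GroupTheory.SpecificGroups.Dihedral

set_option autoImplicit false
set_option linter.style.haveILetI false
open Cfsg

namespace Cfsg.Agent.S1349

variable {G : Type*} [Group G]

theorem inv_eq_self_of_elem {A : Subgroup G} (hA : IsElementaryAbelian 2 A) {a : G} (ha : a ∈ A) :
    a⁻¹ = a := by
  have := hA.2 a ha
  rw [pow_two] at this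
  exact inv_eq_of_mul_eq_one_right this

theorem mul_mem_hyperplane [Finite G] {A B : Subgroup G} (hBA : B ≤ A)
    (hB : 2 * Nat.card B = Nat.card A) {a b : G} (ha : a ∈ A) (hb : b ∈ A) :
    a * b ∈ B ↔ (a ∈ B ↔ b ∈ B) := by
  have h2 : (B.subgroupOf A).index = 2 := by
    have h := Subgroup.card_mul_index (B.subgroupOf A)
    rw [Nat.card_congr (Subgroup.subgroupOfEquivOfLe hBA).toEquiv, ← hB, mul_comm 2] at h
    exact Nat.eq_of_mul_eq_mul_left Nat.card_pos h
  exact Subgroup.mul_mem_iff_of_index_two h2 (a := (⟨a, ha⟩ : A)) (b := ⟨b, hb⟩)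

/-- A non-trivially acting element misses a hyperplane whose fixed points it moves. -/
theorem exists_weight [Finite G] {A K : Subgroup G} (hA : IsElementaryAbelian 2 A)
    (hAK : A ≤ Subgroup.normalizer (K : Set G)) (hK : Odd (Nat.card K)) {c : G} (hc : c ∈ A)
    (hmove : ∃ k ∈ K, c * k ≠ k * c) :
    ∃ H : Subgroup G, H ≤ A ∧ 2 * Nat.card H = Nat.card A ∧ c ∉ H ∧
      ∃ k ∈ K ⊓ Subgroup.centralizer (H : Set G), c * k ≠ k * c := by
  haveI : Fact (Nat.Prime 2) := ⟨Nat.prime_two⟩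
  by_contra hcon
  push Not at hcon
  obtain ⟨k, hk, hck⟩ := hmove
  have hc1 : c ≠ 1 := by rintro rfl; simp at hck
  have hall : ∀ H : Subgroup G, H ≤ A → 2 * Nat.card H = Nat.card A →
      ∀ y ∈ K ⊓ Subgroup.centralizer (H : Set G), c * y = y * c := by
    intro H hH hH2 y hy
    by_cases hcH : c ∈ H
    · exact Subgroup.mem_centralizer_iff.mp hy.2 c hcH
    · exact hcon H hH hH2 hcH y hy
  obtain ⟨n, hn⟩ := IsPGroup.iff_card.mp (CfsgLib.Signalizer.isPGroup_of_isElementaryAbelian hA)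
  have hdvd : 2 ∣ Nat.card A :=
    (CfsgLib.Signalizer.orderOf_eq_of_mem hA hc hc1) ▸ Subgroup.orderOf_dvd_natCard _ hc
  by_cases h2 : Nat.card A = 2
  · exact hck (hall ⊥ bot_le (by rw [Subgroup.card_bot, h2]) k
      ⟨hk, Subgroup.mem_centralizer_iff.mpr fun h hh => by
        rw [SetLike.mem_coe, Subgroup.mem_bot] at hh; subst hh; simp⟩)
  · have h4 : 2 ^ 2 ≤ Nat.card A := by
      rw [hn] at h2 hdvd ⊢
      rcases n with _ | _ | n
      · simp at hdvd
      · exact absurd (by simp) h2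
      · exact Nat.pow_le_pow_right (by norm_num) (by omega)
    have hle := CfsgLib.Signalizer.le_of_hyperplanes hA h4 hAK
      (fun h => (Nat.not_even_iff_odd.mpr hK) (even_iff_two_dvd.mpr h))
      (H := Subgroup.centralizer ({c} : Set G)) fun H hH hH2 y hy =>
        Subgroup.mem_centralizer_singleton_iff.mpr (hall H hH hH2 y hy).symm
    exact hck (Subgroup.mem_centralizer_singleton_iff.mp (hle hk)).symm

theorem eq_one_of_eq_inv {x : G} {n : ℕ} (hn : Odd n) (hxn : x ^ n = 1) (h : x = x⁻¹) : x = 1 := by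
  have h2 : x ^ 2 = 1 := by rw [pow_two]; nth_rw 2 [h]; exact mul_inv_cancel x
  exact orderOf_eq_one_iff.mp (Nat.eq_one_of_dvd_coprimes (Nat.coprime_two_left.mpr hn)
    (orderOf_dvd_of_pow_eq_one h2) (orderOf_dvd_of_pow_eq_one hxn))

theorem eq_one_of_eq_inv_mem [Finite G] {K : Subgroup G} (hK : Odd (Nat.card K)) {x : G}
    (hx : x ∈ K) (h : x = x⁻¹) : x = 1 :=
  eq_one_of_eq_inv hK
    (orderOf_dvd_iff_pow_eq_one.mp (Subgroup.orderOf_dvd_natCard _ hx)) h

/-- The family of commuting dihedral pairs, for a nilpotent subgroup. -/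
theorem exists_pairs [Finite G] : ∀ (d : ℕ) (A F : Subgroup G), Group.IsNilpotent F →
    Odd (Nat.card F) → IsElementaryAbelian 2 A → Nat.card A = 2 ^ d →
    A ≤ Subgroup.normalizer (F : Set G) → (∀ c ∈ A, (∀ f ∈ F, c * f = f * c) → c = 1) →
    ∃ a l : Fin d → G, (∀ i, a i ∈ A ∧ a i ≠ 1 ∧ l i ∈ F ∧ l i ≠ 1 ∧
        a i * l i * (a i)⁻¹ = (l i)⁻¹) ∧ A ≤ ⨆ i, Subgroup.zpowers (a i) ∧
      ∀ i j, i ≠ j → a i * l j = l j * a i ∧ l i * l j = l j * l i := by
  intro d
  induction d with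
  | zero =>
    intro A F _ _ _ hcard _ _
    refine ⟨Fin.elim0, Fin.elim0, fun i => i.elim0, ?_, fun i => i.elim0⟩
    rw [Subgroup.eq_bot_of_card_eq A (by simpa using hcard)]
    exact bot_le
  | succ d ih =>
    intro A F hFn hFodd hA hcard hAF hfaith
    haveI : Fact (Nat.Prime 2) := ⟨Nat.prime_two⟩
    haveI := hFn
    set Z : ℕ → Subgroup G := fun m => (Subgroup.upperCentralSeries ↥F m).map F.subtype with hZ
    obtain ⟨c₀, hc₀A, hc₀⟩ : ∃ c ∈ A, c ≠ 1 := by
      haveI : Nontrivial ↥A := Finite.one_lt_card_iff_nontrivial.mp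
        (hcard ▸ Nat.one_lt_two_pow (Nat.succ_ne_zero d))
      obtain ⟨⟨c, hc⟩, hc1⟩ := exists_ne (1 : ↥A)
      exact ⟨c, hc, fun h => hc1 (Subtype.ext h)⟩
    obtain ⟨n, hn⟩ := Group.IsNilpotent.nilpotent ↥F
    classical
    have hex : ∃ m, ∃ k ∈ Z m, ∃ c ∈ A, c * k ≠ k * c := by
      by_contra h
      push Not at h
      refine hc₀ (hfaith c₀ hc₀A fun f hf => h n f ?_ c₀ hc₀A)
      exact ⟨⟨f, hf⟩, by rw [hn]; trivial, rfl⟩
    obtain ⟨k, hk, c, hc, hck⟩ := Nat.find_spec hex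
    obtain ⟨m, hm⟩ : ∃ m, Nat.find hex = m + 1 := by
      refine ⟨Nat.find hex - 1, ?_⟩
      have : Nat.find hex ≠ 0 := fun h0 => by
        rw [h0] at hk
        simp [hZ] at hk
        subst hk
        simp at hck
      omega
    rw [hm] at hk
    have hcent : ∀ z ∈ Z m, ∀ e ∈ A, e * z = z * e := by
      intro z hz e he
      by_contra h
      have := Nat.find_le (h := hex) ⟨z, hz, e, he, h⟩
      omega
    have hZF : ∀ j, Z j ≤ F := fun j => Subgroup.map_subtype_le _
    have hAZ : A ≤ Subgroup.normalizer (Z (m + 1) : Set G) :=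
      hAF.trans (CfsgLib.Cores.normalizer_le_normalizer_map_subtype F _)
    obtain ⟨B, hBA, hB, hcB, x', ⟨hx'Z, hx'B⟩, hcx'⟩ := exists_weight hA hAZ
      (Odd.of_dvd_nat hFodd (Subgroup.card_dvd_of_le (hZF _))) hc ⟨k, hk, hck⟩
    have hinv : ∀ e ∈ A, e⁻¹ = e := fun e he => inv_eq_self_of_elem hA he
    set x := x'⁻¹ * (c * x' * c⁻¹) with hx
    have hxZ : x ∈ Z (m + 1) :=
      mul_mem (inv_mem hx'Z) ((Subgroup.mem_normalizer_iff.mp (hAZ hc) x').mp hx'Z)
    have hxB : ∀ b ∈ B, b * x = x * b := by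
      intro b hb
      have h1 : Commute b x' := Subgroup.mem_centralizer_iff.mp hx'B b hb
      have h2 : Commute b c := CfsgLib.Signalizer.mul_comm_of_isElementaryAbelian hA (hBA hb) hc
      exact (h1.inv_right.mul_right ((h2.mul_right h1).mul_right h2.inv_right)).eq
    have hx1 : x ≠ 1 := by
      intro h
      rw [hx, inv_mul_eq_one] at h
      exact hcx' (mul_inv_eq_iff_eq_mul.mp h.symm)
    have hcx : c * x * c⁻¹ = x⁻¹ := by
      have hcc : c * c = 1 := by rw [← pow_two]; exact hA.2 c hc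
      rw [hx, hinv c hc]
      calc c * (x'⁻¹ * (c * x' * c)) * c = c * x'⁻¹ * c * x' * (c * c) := by group
        _ = c * x'⁻¹ * c * x' := by rw [hcc, mul_one]
        _ = (x'⁻¹ * (c⁻¹ * x' * c⁻¹))⁻¹ := by group
        _ = _ := by rw [hinv c hc]
    have hxinv : ∀ e ∈ A, e ∉ B → e * x * e⁻¹ = x⁻¹ := by
      intro e he heB
      have hb : e * c ∈ B := (mul_mem_hyperplane hBA hB he hc).mpr (iff_of_false heB hcB)
      have heq : e = (e * c) * c := by
        rw [mul_assoc, ← pow_two, hA.2 c hc, mul_one]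
      rw [heq]
      calc (e * c) * c * x * ((e * c) * c)⁻¹ = (e * c) * (c * x * c⁻¹) * (e * c)⁻¹ := by group
        _ = (e * c) * x⁻¹ * (e * c)⁻¹ := by rw [hcx]
        _ = x⁻¹ := by
          rw [((Commute.inv_right (hxB _ hb : Commute (e * c) x))).eq, mul_inv_cancel_right]
    -- the subgroup whose fixed points detect it
    let P : Subgroup G → Prop := fun J => ∀ e ∈ A,
      (∀ f ∈ F ⊓ Subgroup.centralizer (J : Set G), e * f = f * e) → e ∈ J
    obtain ⟨J, ⟨hJA, hJB, hJP⟩, hmin⟩ := Set.Finite.exists_minimal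
      (s := {J : Subgroup G | J ≤ A ∧ ¬ J ≤ B ∧ P J}) (Set.toFinite _)
      ⟨A, le_rfl, fun h => hcB (h hc), fun e he _ => he⟩
    have hJB1 : J ⊓ B = ⊥ := by
      refine (Subgroup.eq_bot_iff_forall _).mpr fun e ⟨heJ, heB⟩ => ?_
      by_contra he1
      have heA := hJA heJ
      have hmove : ∃ f ∈ F, e * f ≠ f * e := by
        by_contra h
        push Not at h
        exact he1 (hfaith e heA h)
      obtain ⟨H, hHA, hH, heH, hmv⟩ := exists_weight hA hAF hFodd heA hmove
      have hHP : ∀ e' ∈ A, (∀ f ∈ F ⊓ Subgroup.centralizer (H : Set G), e' * f = f * e') →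
          e' ∈ H := by
        intro e' he' h
        by_contra he'H
        obtain ⟨f, hf, hne⟩ := hmv
        apply hne
        have hb : e' * e ∈ H := (mul_mem_hyperplane hHA hH he' heA).mpr (iff_of_false he'H heH)
        have h1 : Commute e' f := h f hf
        have h2 : Commute (e' * e) f := Subgroup.mem_centralizer_iff.mp hf.2 _ hb
        have heq : e = e'⁻¹ * (e' * e) := by group
        rw [heq]
        exact (h1.inv_left.mul_left h2).eq
      have hle : J ≤ J ⊓ H := by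
        refine hmin ⟨inf_le_left.trans hJA, fun hJH => ?_, fun e' he' h => ?_⟩ inf_le_left
        · obtain ⟨j, hj, hjB⟩ := SetLike.not_le_iff_exists.mp hJB
          by_cases hjH : j ∈ H
          · exact hjB (hJH ⟨hj, hjH⟩)
          · have h1 : j * e ∈ H :=
              (mul_mem_hyperplane hHA hH (hJA hj) heA).mpr (iff_of_false hjH heH)
            have h2 : j * e ∈ B := hJH ⟨mul_mem hj heJ, h1⟩
            exact hjB (by simpa using mul_mem h2 (inv_mem heB))
        · refine ⟨hJP e' he' fun f hf => h f ⟨hf.1, ?_⟩, hHP e' he' fun f hf => h f ⟨hf.1, ?_⟩⟩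
          · exact Subgroup.centralizer_le inf_le_left hf.2
          · exact Subgroup.centralizer_le inf_le_right hf.2
      exact heH (hle heJ).2
    obtain ⟨a₁, ha₁J, ha₁B⟩ := SetLike.not_le_iff_exists.mp hJB
    have ha₁A := hJA ha₁J
    have hcomA : ∀ e ∈ A, ∀ e' ∈ A, e * e' = e' * e := fun e he e' he' =>
      CfsgLib.Signalizer.mul_comm_of_isElementaryAbelian hA he he'
    set F' := F ⊓ Subgroup.centralizer ({a₁} : Set G) with hF'
    have hF'n : Group.IsNilpotent ↥F' := CfsgLib.Cores.isNilpotent_of_le hFn inf_le_left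
    have hBF' : B ≤ Subgroup.normalizer (F' : Set G) := by
      intro b hb
      rw [Subgroup.mem_normalizer_iff]
      intro y
      refine and_congr (Subgroup.mem_normalizer_iff.mp (hAF (hBA hb)) y) ?_
      show y ∈ Subgroup.centralizer ({a₁} : Set G) ↔ b * y * b⁻¹ ∈ Subgroup.centralizer ({a₁} : Set G)
      have hba : b ∈ Subgroup.centralizer ({a₁} : Set G) :=
        Subgroup.mem_centralizer_singleton_iff.mpr (hcomA _ (hBA hb) _ ha₁A)
      exact ⟨fun h => mul_mem (mul_mem hba h) (inv_mem hba), fun h => by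
        simpa [mul_assoc] using mul_mem (mul_mem (inv_mem hba) h) hba⟩
    have hB2 : Nat.card B = 2 ^ d := by
      rw [hcard, pow_succ'] at hB
      omega
    have hfaith' : ∀ e ∈ B, (∀ f ∈ F', e * f = f * e) → e = 1 := by
      intro e he h
      have : e ∈ J ⊓ B := ⟨hJP e (hBA he) fun f hf => h f ⟨hf.1,
        Subgroup.mem_centralizer_singleton_iff.mpr
          (Subgroup.mem_centralizer_iff.mp hf.2 a₁ ha₁J).symm⟩, he⟩
      rwa [hJB1, Subgroup.mem_bot] at this
    obtain ⟨a, l, hal, hgen, hcomm⟩ := ih B F' hF'n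
      (Odd.of_dvd_nat hFodd (Subgroup.card_dvd_of_le inf_le_left))
      (CfsgLib.Signalizer.isElementaryAbelian_of_le hA hBA) hB2 hBF' hfaith'
    have ha₁x := hxinv a₁ ha₁A ha₁B
    -- `x` commutes with the fixed points of `a₁`
    have hxF' : ∀ y ∈ F', x * y = y * x := by
      rintro y ⟨hyF, hy⟩
      obtain ⟨⟨x0, hx0⟩, hx0Z, hxeq⟩ := hxZ
      change x0 = x at hxeq
      subst hxeq
      have hz := Subgroup.mem_upperCentralSeries_succ_iff.mp hx0Z ⟨y, hyF⟩
      have hza : Commute a₁ (x * y * x⁻¹ * y⁻¹) := by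
        refine hcent _ ⟨_, hz, ?_⟩ a₁ ha₁A
        simp [commutatorElement_def]
      have hay : Commute a₁ y := (Subgroup.mem_centralizer_singleton_iff.mp hy).symm
      have h1 : a₁ * (x * y * x⁻¹) * a₁⁻¹ = x * y * x⁻¹ := by
        have h2 : Commute a₁ (x * y * x⁻¹) := by
          have := hza.mul_right hay
          simpa using this
        rw [h2.eq, mul_inv_cancel_right]
      have h3 : x⁻¹ * y * x = x * y * x⁻¹ := by
        calc x⁻¹ * y * x = (a₁ * x * a₁⁻¹) * y * (a₁ * x * a₁⁻¹)⁻¹ := by rw [ha₁x, inv_inv]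
          _ = a₁ * (x * (a₁⁻¹ * y * a₁) * x⁻¹) * a₁⁻¹ := by group
          _ = a₁ * (x * y * x⁻¹) * a₁⁻¹ := by rw [mul_assoc a₁⁻¹, ← hay.eq, inv_mul_cancel_left]
          _ = _ := h1
      have h4 : Commute (x ^ 2) y := by
        show x ^ 2 * y = y * x ^ 2
        calc x ^ 2 * y = x * (x * y * x⁻¹) * x := by rw [pow_two]; group
          _ = x * (x⁻¹ * y * x) * x := by rw [h3]
          _ = _ := by rw [pow_two]; group
      obtain ⟨j, hj⟩ := Odd.of_dvd_nat hFodd (Subgroup.orderOf_dvd_natCard _ hx0)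
      have hxpow : (x ^ 2) ^ (j + 1) = x := by
        rw [← pow_mul, show 2 * (j + 1) = orderOf x + 1 by omega, pow_succ, pow_orderOf_eq_one,
          one_mul]
      exact hxpow ▸ (h4.pow_left (j + 1)).eq
    refine ⟨Fin.cons a₁ a, Fin.cons x l, fun i => ?_, fun e he => ?_, ?_⟩
    · refine Fin.cases ?_ (fun i => ?_) i
      · simp only [Fin.cons_zero]
        exact ⟨ha₁A, fun h => ha₁B (h ▸ one_mem B), hZF _ hxZ, hx1, ha₁x⟩
      · simp only [Fin.cons_succ]
        obtain ⟨h1, h2, h3, h4, h5⟩ := hal i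
        exact ⟨hBA h1, h2, h3.1, h4, h5⟩
    · by_cases heB : e ∈ B
      · refine (hgen.trans (iSup_le fun i => le_iSup_of_le i.succ ?_)) heB
        simp
      · have hb : a₁ * e ∈ B := (mul_mem_hyperplane hBA hB ha₁A he).mpr (iff_of_false ha₁B heB)
        have h1 : a₁ ∈ ⨆ i : Fin (d + 1), Subgroup.zpowers ((Fin.cons a₁ a : Fin (d + 1) → G) i) :=
          Subgroup.mem_iSup_of_mem 0 (by simp)
        have h2 : a₁ * e ∈ ⨆ i : Fin (d + 1), Subgroup.zpowers ((Fin.cons a₁ a : Fin (d + 1) → G) i) := by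
          refine (hgen.trans (iSup_le fun i => le_iSup_of_le i.succ ?_)) hb
          simp
        simpa using mul_mem (inv_mem h1) h2
    · have ha₁F' : ∀ y ∈ F', a₁ * y = y * a₁ := fun y hy =>
        (Subgroup.mem_centralizer_singleton_iff.mp hy.2).symm
      intro i j hij
      induction i using Fin.cases with
      | zero =>
        induction j using Fin.cases with
        | zero => exact absurd rfl hij
        | succ j =>
          simp only [Fin.cons_zero, Fin.cons_succ]
          exact ⟨ha₁F' _ (hal j).2.2.1, hxF' _ (hal j).2.2.1⟩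
      | succ i =>
        induction j using Fin.cases with
        | zero =>
          simp only [Fin.cons_zero, Fin.cons_succ]
          exact ⟨hxB _ (hal i).1, (hxF' _ (hal i).2.2.1).symm⟩
        | succ j =>
          simp only [Fin.cons_succ]
          exact hcomm i j fun h => hij (congrArg Fin.succ h)

/-- The dihedral group generated by an involution inverting an element of odd order. -/
theorem dihedral_equiv {a x : G} (ha : a ^ 2 = 1) (hax : a * x * a⁻¹ = x⁻¹)
    (hodd : Odd (orderOf x)) (hx : x ≠ 1) :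
    Nonempty (↥(Subgroup.zpowers a ⊔ Subgroup.zpowers x) ≃* DihedralGroup (orderOf x)) := by
  haveI : NeZero (orderOf x) := ⟨(Nat.pos_of_ne_zero fun h => by simp [h] at hodd).ne'⟩
  set n := orderOf x with hn
  let e : ZMod n → G := fun i => x ^ i.val
  have he : ∀ i j, e (i + j) = e i * e j := fun i j => by
    simp only [e, ZMod.val_add, ← pow_add]
    exact pow_mod_orderOf x _
  have he0 : e 0 = 1 := by simp [e]
  have heneg : ∀ i, e (-i) = (e i)⁻¹ := fun i =>
    eq_inv_of_mul_eq_one_right (by rw [← he, add_neg_cancel, he0])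
  have haa : a * a = 1 := by rw [← pow_two, ha]
  have hai : a⁻¹ = a := inv_eq_of_mul_eq_one_right haa
  have hconj : ∀ i, a * e i = (e i)⁻¹ * a := fun i => by
    have h : a * x ^ i.val * a⁻¹ = (x ^ i.val)⁻¹ := by rw [← conj_pow, hax, inv_pow]
    exact mul_inv_eq_iff_eq_mul.mp h
  let g : DihedralGroup n → G := fun d => match d with
    | .r i => e i
    | .sr i => a * e i
  have hg : ∀ u v, g (u * v) = g u * g v := by
    rintro (i | i) (j | j)
    · rw [DihedralGroup.r_mul_r]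
      exact he i j
    · rw [DihedralGroup.r_mul_sr]
      show a * e (j - i) = e i * (a * e j)
      rw [show j - i = -i + j by ring, he, heneg, ← mul_assoc, ← mul_assoc]
      congr 1
      have := hconj (-i)
      rw [heneg, inv_inv] at this
      exact this
    · rw [DihedralGroup.sr_mul_r]
      show a * e (i + j) = a * e i * e j
      rw [he, mul_assoc]
    · rw [DihedralGroup.sr_mul_sr]
      show e (j - i) = a * e i * (a * e j)
      rw [show j - i = -i + j by ring, he, heneg, hconj i, mul_assoc (e i)⁻¹, ← mul_assoc a a,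
        haa, one_mul]
  let f : DihedralGroup n →* G := MonoidHom.mk' g hg
  have hne : ∀ i, a ≠ e i := by
    intro i h
    apply hx
    refine eq_one_of_eq_inv hodd (pow_orderOf_eq_one x) ?_
    rw [← hax, h]
    simp only [e]
    rw [← pow_succ, pow_succ', mul_inv_cancel_right]
  have hinj : Function.Injective f := by
    refine (injective_iff_map_eq_one f).mpr ?_
    rintro (i | i) hi
    · change e i = 1 at hi
      have hdvd : n ∣ i.val := orderOf_dvd_of_pow_eq_one hi
      have h0 : i.val = 0 := Nat.eq_zero_of_dvd_of_lt hdvd (ZMod.val_lt i)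
      rw [(ZMod.val_eq_zero i).mp h0]
      rfl
    · exact absurd ((eq_inv_of_mul_eq_one_left hi).trans (heneg i).symm) (hne _)
  have hrange : f.range = Subgroup.zpowers a ⊔ Subgroup.zpowers x := by
    refine le_antisymm ?_ (sup_le (Subgroup.zpowers_le.mpr ⟨.sr 0, ?_⟩)
      (Subgroup.zpowers_le.mpr ⟨.r 1, ?_⟩))
    · rintro _ ⟨(i | i), rfl⟩
      · exact Subgroup.mem_sup_right (pow_mem (Subgroup.mem_zpowers x) _)
      · exact mul_mem (Subgroup.mem_sup_left (Subgroup.mem_zpowers a))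
          (Subgroup.mem_sup_right (pow_mem (Subgroup.mem_zpowers x) _))
    · show a * e 0 = a
      rw [he0, mul_one]
    · show x ^ (1 : ZMod n).val = x
      rw [ZMod.val_one_eq_one_mod, hn, pow_mod_orderOf, pow_one]
  rw [← hrange]
  exact ⟨(MonoidHom.ofInjective hinj).symm⟩

/-- Faithfulness descends to the Fitting subgroup. -/
theorem exists_faithful_nilpotent [Finite G] {L A : Subgroup G} (hLs : Group.IsSolvable ↥L)
    (hLodd : Odd (Nat.card ↥L)) (hA : IsElementaryAbelian 2 A)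
    (hAL : A ≤ Subgroup.normalizer (L : Set G))
    (hfaith : A ⊓ Subgroup.centralizer (L : Set G) = ⊥) :
    ∃ F : Subgroup G, F ≤ L ∧ Group.IsNilpotent F ∧ A ≤ Subgroup.normalizer (F : Set G) ∧
      ∀ c ∈ A, (∀ f ∈ F, c * f = f * c) → c = 1 := by
  haveI := hLs
  refine ⟨(fittingSubgroup ↥L).map L.subtype, Subgroup.map_subtype_le _, ?_,
    hAL.trans (CfsgLib.Cores.normalizer_le_normalizer_map_subtype L _), fun c hc hcF => ?_⟩
  · exact (Group.isNilpotent_congr
      ((fittingSubgroup ↥L).equivMapOfInjective L.subtype L.subtype_injective)).mp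
      CfsgLib.Cores.isNilpotent_fittingSubgroup
  suffices hcL : c ∈ Subgroup.centralizer (L : Set G) from by
    have : c ∈ A ⊓ Subgroup.centralizer (L : Set G) := ⟨hc, hcL⟩
    rwa [hfaith, Subgroup.mem_bot] at this
  rw [Subgroup.mem_centralizer_iff]
  intro l hl
  have hl' : c * l * c⁻¹ ∈ L := (Subgroup.mem_normalizer_iff.mp (hAL hc) l).mp hl
  set z : ↥L := (⟨l, hl⟩ : ↥L)⁻¹ * ⟨c * l * c⁻¹, hl'⟩ with hz
  have hzF : z ∈ fittingSubgroup ↥L := by
    refine CfsgLib.Cores.centralizer_fittingSubgroup_le (Subgroup.mem_centralizer_iff.mpr ?_)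
    intro f hf
    apply Subtype.ext
    have h1 : Commute c (f : G) := hcF _ ⟨f, hf, rfl⟩
    have h2 : Commute c (l * f * l⁻¹) := hcF _
      ⟨⟨l, hl⟩ * f * ⟨l, hl⟩⁻¹,
        (inferInstance : (fittingSubgroup ↥L).Normal).conj_mem f hf ⟨l, hl⟩, rfl⟩
    have h3 : c * l * c⁻¹ * f * (c * l * c⁻¹)⁻¹ = l * f * l⁻¹ := by
      calc c * l * c⁻¹ * f * (c * l * c⁻¹)⁻¹ = c * (l * (c⁻¹ * (f : G) * c) * l⁻¹) * c⁻¹ := by group
        _ = c * (l * f * l⁻¹) * c⁻¹ := by rw [mul_assoc c⁻¹, ← h1.eq, inv_mul_cancel_left]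
        _ = _ := by rw [h2.eq, mul_inv_cancel_right]
    show (f : G) * (l⁻¹ * (c * l * c⁻¹)) = l⁻¹ * (c * l * c⁻¹) * f
    calc (f : G) * (l⁻¹ * (c * l * c⁻¹))
        = l⁻¹ * (l * f * l⁻¹) * (c * l * c⁻¹) := by group
      _ = l⁻¹ * (c * l * c⁻¹ * f * (c * l * c⁻¹)⁻¹) * (c * l * c⁻¹) := by rw [h3]
      _ = _ := by group
  have hcz : Commute c (l⁻¹ * (c * l * c⁻¹)) := hcF _ ⟨z, hzF, rfl⟩
  have hci : c⁻¹ = c := inv_eq_self_of_elem hA hc
  have hzi : l⁻¹ * (c * l * c⁻¹) = (l⁻¹ * (c * l * c⁻¹))⁻¹ := by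
    calc l⁻¹ * (c * l * c⁻¹) = c * (l⁻¹ * (c * l * c⁻¹)) * c⁻¹ := by
          rw [hcz.eq, mul_inv_cancel_right]
      _ = (c * l⁻¹ * c⁻¹) * ((c * c) * l * (c⁻¹ * c⁻¹)) := by group
      _ = (c * l⁻¹ * c⁻¹) * l := by
          rw [show c * c = 1 by rw [← pow_two]; exact hA.2 c hc, hci,
            show c * c = 1 by rw [← pow_two]; exact hA.2 c hc, one_mul, mul_one]
      _ = _ := by group
  have hz1 : l⁻¹ * (c * l * c⁻¹) = 1 :=
    eq_one_of_eq_inv_mem hLodd (mul_mem (inv_mem hl) hl') hzi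
  exact (mul_inv_eq_iff_eq_mul.mp (inv_mul_eq_one.mp hz1).symm).symm

/-- Let G be finite, L ≤ G solvable of odd order, and A an elementary abelian 2-subgroup of order 2^d (d ≥ 1) normalizing L with C_A(L) = 1. Then there are subgroups A_1, …, A_d of A of order 2 generating A and subgroups L_1, …, L_d of L such that each A_i ⊔ L_i is dihedral of order 2 n_i with n_i odd and at least 3, and A_i ⊔ L_i commutes elementwise with A_j ⊔ L_j for i ≠ j. -/
theorem result {G : Type*} [Group G] [Finite G] (L A : Subgroup G) (hLs : Group.IsSolvable ↥L) (hLodd : Odd (Nat.card ↥L)) (hA : Cfsg.IsElementaryAbelian 2 A) (d : ℕ) (hd : 1 ≤ d) (hAd : Nat.card ↥A = 2 ^ d) (hAL : A ≤ Subgroup.normalizer (L : Set G)) (hfaith : A ⊓ Subgroup.centralizer (L : Set G) = ⊥) : ∃ (Ai : Fin d → Subgroup G) (Li : Fin d → Subgroup G) (n : Fin d → ℕ), (∀ i, Ai i ≤ A ∧ Nat.card ↥(Ai i) = 2 ∧ Li i ≤ L ∧ Odd (n i) ∧ 3 ≤ n i ∧ Nonempty (↥(Ai i ⊔ Li i) ≃* DihedralGroup (n i))) ∧ (⨆ i, Ai i) =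 A ∧ ∀ i j, i ≠ j → ∀ x ∈ Ai i ⊔ Li i, ∀ y ∈ Ai j ⊔ Li j, x * y = y * x := by
  obtain ⟨F, hFL, hFn, hAF, hFf⟩ := exists_faithful_nilpotent hLs hLodd hA hAL hfaith
  obtain ⟨a, l, hal, hgen, hcomm⟩ := exists_pairs d A F hFn
    (Odd.of_dvd_nat hLodd (Subgroup.card_dvd_of_le hFL)) hA hAd hAF hFf
  refine ⟨fun i => Subgroup.zpowers (a i), fun i => Subgroup.zpowers (l i),
    fun i => orderOf (l i), fun i => ?_, ?_, ?_⟩
  · obtain ⟨h1, h2, h3, h4, h5⟩ := hal i
    haveI : Fact (Nat.Prime 2) := ⟨Nat.prime_two⟩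
    have hodd : Odd (orderOf (l i)) :=
      Odd.of_dvd_nat hLodd (Subgroup.orderOf_dvd_natCard _ (hFL h3))
    refine ⟨Subgroup.zpowers_le.mpr h1, ?_, Subgroup.zpowers_le.mpr (hFL h3), hodd, ?_,
      dihedral_equiv (hA.2 _ h1) h5 hodd h4⟩
    · rw [Nat.card_zpowers, CfsgLib.Signalizer.orderOf_eq_of_mem hA h1 h2]
    · obtain ⟨j, hj⟩ := hodd
      have : orderOf (l i) ≠ 1 := fun h => h4 (orderOf_eq_one_iff.mp h)
      show 3 ≤ orderOf (l i)
      omega
  · exact le_antisymm (iSup_le fun i => Subgroup.zpowers_le.mpr (hal i).1) hgen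
  · intro i j hij x hx y hy
    have key : Subgroup.zpowers (a i) ⊔ Subgroup.zpowers (l i) ≤
        Subgroup.centralizer ((Subgroup.zpowers (a j) ⊔ Subgroup.zpowers (l j) : Subgroup G) : Set G) := by
      rw [Subgroup.le_centralizer_iff]
      refine sup_le (Subgroup.zpowers_le.mpr ?_) (Subgroup.zpowers_le.mpr ?_) <;>
        rw [Subgroup.mem_centralizer_iff] <;> intro w hw <;>
        refine (Subgroup.mem_centralizer_singleton_iff.mp
          ((sup_le (Subgroup.zpowers_le.mpr (Subgroup.mem_centralizer_singleton_iff.mpr ?_))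
            (Subgroup.zpowers_le.mpr (Subgroup.mem_centralizer_singleton_iff.mpr ?_))) hw))
      · exact CfsgLib.Signalizer.mul_comm_of_isElementaryAbelian hA (hal i).1 (hal j).1
      · exact (hcomm j i hij.symm).1.symm
      · exact (hcomm i j hij).1
      · exact (hcomm i j hij).2
    exact (Subgroup.mem_centralizer_iff.mp (key hx) y hy).symm

end Cfsg.Agent.S1349
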