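import Cfsg.Statements.S1447
import Cfsg.Agent.Lib.BGAppendix.RankTwoStructure
import Cfsg.Agent.Lib.CoprimeAction.Abelian

set_option autoImplicit false
open Cfsg

open scoped commutatorElement

namespace Cfsg.Agent.S1447

/-- Let G be a finite group, p an odd prime, R a metacyclic p-subgroup and A a subgroup of order coprime to p normalizing R. Then [R, A] is abelian; R is generated by [R, A] and R ∩ C_G(A), which meet trivially; and if R is non-abelian and A does not centralize R, then [R, A] and R ∩ C_G(A) are nontrivial cyclic groups and [R, R] ≤ [R, A]. -/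
theorem result {G : Type*} [Group G] [Finite G] (p : ℕ) [Fact p.Prime] (hp : p ≠ 2) (R A : Subgroup G) (hR : IsPGroup p R) (hRm : Cfsg.IsMetacyclic R)
    (hA : (A ≤ Subgroup.normalizer (R : Set G))) (hcop : (Nat.card A).Coprime p) :
    IsMulCommutative ↥⁅R, A⁆ ∧ ⁅R, A⁆ ⊔ (R ⊓ Subgroup.centralizer (A : Set G)) = R ∧ ⁅R, A⁆ ⊓ (R ⊓ Subgroup.centralizer (A : Set G)) = ⊥ ∧
      (¬ IsMulCommutative R → ¬ A ≤ Subgroup.centralizer (R : Set G) →
        ⁅R, A⁆ ≠ ⊥ ∧ IsCyclic ↥⁅R, A⁆ ∧ (R ⊓ Subgroup.centralizer (A : Set G)) ≠ ⊥ ∧ IsCyclic ↥(R ⊓ Subgroup.centralizer (A : Set G)) ∧ ⁅R, R⁆ ≤ ⁅R, A⁆) := by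
  haveI : Group.IsNilpotent R := hR.isNilpotent
  have hsR : Group.IsSolvable R := inferInstance
  have hc := CfsgLib.BGAppendix.coprime_card_of_coprime_prime hR hcop
  set R₁ := ⁅R, A⁆ with hR₁
  set R₂ := R ⊓ Subgroup.centralizer (A : Set G) with hR₂
  have hle : R₁ ≤ R := CfsgLib.CoprimeAction.commutator_le_left hA
  have hA₁ : A ≤ Subgroup.normalizer (R₁ : Set G) :=
    le_sup_right.trans (CfsgLib.CoprimeAction.sup_le_normalizer_commutator A R)
  have hRn : R ≤ Subgroup.normalizer (R₁ : Set G) :=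
    le_sup_left.trans (CfsgLib.CoprimeAction.sup_le_normalizer_commutator A R)
  have hR₁p : IsPGroup p R₁ := hR.to_le hle
  have hR₁A : ⁅R₁, A⁆ = R₁ := CfsgLib.CoprimeAction.commutator_commutator_eq hA hc (Or.inr hsR)
  have hm₁ : Cfsg.IsMetacyclic R₁ := CfsgLib.BGAppendix.isMetacyclic_of_mulEquiv
    (Subgroup.subgroupOfEquivOfLe hle) (CfsgLib.BGAppendix.isMetacyclic_subgroup hRm _)
  have hab : IsMulCommutative R₁ := CfsgLib.BGAppendix.isMulCommutative_of_fpf hp hR₁p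
    (CfsgLib.BGAppendix.conjAction hA₁)
    (CfsgLib.BGAppendix.coprime_card_of_coprime_prime hR₁p hcop)
    (CfsgLib.BGAppendix.fpf_of_commutator_eq hA₁ hR₁A)
    fun N _ => CfsgLib.BGAppendix.smallOmega_of_isMetacyclic hp (hR₁p.to_quotient N)
      (CfsgLib.BGAppendix.isMetacyclic_quotient hm₁ N)
  have hsup : R₁ ⊔ R₂ = R := CfsgLib.CoprimeAction.commutator_sup_centralizer hA hc (Or.inr hsR)
  have hinf : R₁ ⊓ R₂ = ⊥ := by
    rw [eq_bot_iff, ← CfsgLib.CoprimeAction.inf_commutator_eq_bot hA₁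
      (CfsgLib.BGAppendix.coprime_card_of_coprime_prime hR₁p hcop), hR₁A]
    exact fun x hx => ⟨⟨hx.1, hx.2.2⟩, hx.1⟩
  refine ⟨hab, hsup, hinf, fun hnab hncen => ?_⟩
  have h1 : R₁ ≠ ⊥ := fun h => hncen (Subgroup.le_centralizer_iff.1
    ((Subgroup.commutator_eq_bot_iff_le_centralizer).1 (hR₁ ▸ h : ⁅R, A⁆ = ⊥)))
  have h2 : R₂ ≠ ⊥ := fun h => by
    rw [h, sup_bot_eq] at hsup
    rw [hsup] at hab
    exact hnab hab
  have hs := CfsgLib.BGAppendix.smallOmega_of_isMetacyclic hp hR hRm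
  have hinf' : ∀ U V : Subgroup G, U ≤ R → U ⊓ V = ⊥ →
      U.subgroupOf R ⊓ V.subgroupOf R = ⊥ := fun U V hU h => by
    rw [eq_bot_iff]
    intro x hx
    have : (x : G) ∈ U ⊓ V := hx
    rw [h, Subgroup.mem_bot] at this
    exact Subgroup.mem_bot.2 (Subtype.ext this)
  have hne : ∀ V : Subgroup G, V ≤ R → V ≠ ⊥ → V.subgroupOf R ≠ ⊥ := fun V hV h h' => h (by
    rw [← Subgroup.map_subgroupOf_eq_of_le hV, h', Subgroup.map_bot])
  have hc1 : IsCyclic R₁ := (Subgroup.subgroupOfEquivOfLe hle).isCyclic.1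
    (CfsgLib.BGAppendix.isCyclic_of_inf_eq_bot hp hR hs (hinf' R₁ R₂ hle hinf)
      (hne R₂ inf_le_left h2))
  have hc2 : IsCyclic R₂ := (Subgroup.subgroupOfEquivOfLe (inf_le_left : R₂ ≤ R)).isCyclic.1
    (CfsgLib.BGAppendix.isCyclic_of_inf_eq_bot hp hR hs
      (hinf' R₂ R₁ inf_le_left (by rw [inf_comm]; exact hinf)) (hne R₁ hle h1))
  refine ⟨h1, hc1, h2, hc2, Subgroup.commutator_le.2 fun a ha b hb => ?_⟩
  have hn : R₂ ≤ Subgroup.normalizer (R₁ : Set G) := inf_le_left.trans hRn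
  rw [← hsup, ← SetLike.mem_coe, Subgroup.coe_mul_of_right_le_normalizer_left R₁ R₂ hn] at ha hb
  obtain ⟨m, hm, c, hc', rfl⟩ := ha
  obtain ⟨m', hm', c', hc'', rfl⟩ := hb
  letI : CommGroup R₂ := IsCyclic.commGroup
  have hcc : Commute c c' := (Commute.all (⟨c, hc'⟩ : R₂) ⟨c', hc''⟩).map R₂.subtype
  have : ⁅m * c, m' * c'⁆ = m * (c * m' * c⁻¹) * (c' * m⁻¹ * c'⁻¹) * m'⁻¹ := by
    have h3 : c' * c⁻¹ = c⁻¹ * c' := (hcc.inv_left.eq).symm
    calc ⁅m * c, m' * c'⁆ = m * c * m' * (c' * c⁻¹) * m⁻¹ * c'⁻¹ * m'⁻¹ := by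
          rw [commutatorElement_def]; group
      _ = _ := by rw [h3]; group
  rw [this]
  exact mul_mem (mul_mem (mul_mem hm (CfsgLib.CoprimeAction.conj_mem (hn hc') hm'))
    (CfsgLib.CoprimeAction.conj_mem (hn hc'') (inv_mem hm))) (inv_mem hm')

end Cfsg.Agent.S1447
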