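import Cfsg.Statements.S1645
import Cfsg.Agent.Lib.AltDoubleCent.Large
import Cfsg.Agent.Lib.AltDoubleCent.Small
import Cfsg.Agent.Lib.AltDoubleCent.ThreeCycle
import Cfsg.Agent.Lib.AltDoubleCent.BigCase

set_option autoImplicit false
open Cfsg CfsgLib.AltDoubleCent

namespace Cfsg.Agent.S1645

/-- If some involution of a finite simple group has centraliser a non-split double cover of the alternating group of degree n ≥ 5, then n is 8 or 11 (the McLaughlin and Lyons cases). -/
theorem result {G : Type*} [Group G] [Finite G] [IsSimpleGroup G] (n : ℕ) (hn : 5 ≤ n) (z : G) (hz : orderOf z = 2) (hcov : Cfsg.IsNonsplitDoubleCover (Subgroup.centralizer ({z} : Set G)) (alternatingGroup (Fin n))) : n = 8 ∨ n = 11 := by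
  obtain ⟨S⟩ := Setting.nonempty hn hz hcov
  by_contra hne
  push Not at hne
  rcases lt_or_ge n 12 with h12 | h12
  · obtain ⟨g, hg, hgz⟩ := S.exists_conj_ne hn
    have ht2 : g * z * g⁻¹ * (g * z * g⁻¹) = 1 := by
      rw [show g * z * g⁻¹ * (g * z * g⁻¹) = g * (z * z) * g⁻¹ by group, S.z_sq]; group
    have ht1 : g * z * g⁻¹ ≠ 1 := fun h => S.z_ne_one (conj_eq_one_iff.mp h)
    have h8 : 8 ≤ n := by
      by_contra h
      have := (S.cycleType_involution (by omega) hg ht2 ht1 hgz).1
      omega
    have h9 : 9 ≤ n := by omega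
    have h10 : n ≤ 10 := by omega
    obtain ⟨F⟩ := S.exists_frame h9 h10
    rcases F.threeCycle_dichotomy h10 with
      h | ⟨h9', Q, q1, q2, q3, q4, q5, q6, q7, q8, q9, -⟩
    · exact F.small_false h10 h
    · exact F.big_false h9' q1 q2 q3 q4 q5 q6 q7 q8 q9
  · exact S.large_false h12

end Cfsg.Agent.S1645
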