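import Cfsg.Statements.S1892
import Cfsg.Agent.Lib.CoprimeAction.Basic
import Cfsg.Agent.Lib.StronglyPEmbedded.Helpers
import Cfsg.Agent.Lib.PSolvable.HallHigman
import Cfsg.Agent.Lib.Cores.PCore
-- import your own Cfsg.Agent.* helpers here

set_option autoImplicit false
open Cfsg

namespace Cfsg.Agent.S1892

/-- Let S be a finite p-solvable group with no nontrivial normal subgroup of order prime to p, A a p-subgroup of S, and Q a nontrivial A-invariant subgroup of order prime to p with [A, Q] = Q. Then the commutator [O_p(S), A, Q] is nontrivial. -/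
theorem result {S : Type*} [Group S] [Finite S] {p : ℕ} [Fact p.Prime]
    (hS : Cfsg.IsPSolvable p S) (hred : Cfsg.pPrimeCore p S = ⊥)
    (A Q : Subgroup S) (hA : IsPGroup p A) (hQ : ¬ p ∣ Nat.card Q) (hQ1 : Q ≠ ⊥)
    (hinv : ∀ a ∈ A, ∀ x ∈ Q, a * x * a⁻¹ ∈ Q) (hAQ : ⁅A, Q⁆ = Q) :
    ⁅⁅Cfsg.pCore p S, A⁆, Q⁆ ≠ ⊥ := by
  intro h
  have hp : p.Prime := Fact.out
  set R := Cfsg.pCore p S with hR
  haveI : R.Normal := Subgroup.sSup_normal _ fun _ h => h.1
  have hRn : ∀ H : Subgroup S, H ≤ Subgroup.normalizer (R : Set S) := fun H => by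
    rw [Subgroup.normalizer_eq_top]; exact le_top
  set W := ⁅R, A⁆ with hW
  have hWR : W ≤ R := CfsgLib.CoprimeAction.commutator_le_left (hRn A)
  have hn := CfsgLib.CoprimeAction.sup_le_normalizer_commutator A R
  have hQW : Q ≤ Subgroup.centralizer (W : Set S) := by
    rw [← Subgroup.commutator_eq_bot_iff_le_centralizer, Subgroup.commutator_comm]; exact h
  have h1 : ⁅⁅A, Q⁆, R⁆ ≤ W := by
    refine CfsgLib.StronglyPEmbedded.commutator_commutator_le_of_rotate (le_sup_right.trans hn)
      (hQW.trans (Subgroup.centralizer_le_normalizer _)) (le_sup_left.trans hn) ?_ ?_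
    · refine Subgroup.commutator_mono ?_ le_rfl
      rw [Subgroup.commutator_comm]
      exact CfsgLib.CoprimeAction.commutator_le_left (hRn Q)
    · rw [h]; exact bot_le
  rw [hAQ, Subgroup.commutator_comm] at h1
  haveI : Group.IsSolvable R := by
    haveI := (CfsgLib.Cores.isPGroup_pCore p S).isNilpotent
    infer_instance
  have hcop : (Nat.card Q).Coprime (Nat.card R) := by
    obtain ⟨e, he⟩ := IsPGroup.iff_card.1 (CfsgLib.Cores.isPGroup_pCore p S)
    rw [he]
    exact (hp.coprime_iff_not_dvd.2 hQ).symm.pow_right e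
  have h2 : ⁅R, Q⁆ = ⊥ := by
    rw [← CfsgLib.CoprimeAction.commutator_commutator_eq (hRn Q) hcop (Or.inr inferInstance), eq_bot_iff]
    exact (Subgroup.commutator_mono h1 le_rfl).trans h.le
  have hQR : Q ≤ R := by
    refine le_trans ?_ (CfsgLib.PSolvable.centralizer_pCore_le hS hred)
    rwa [← Subgroup.commutator_eq_bot_iff_le_centralizer, Subgroup.commutator_comm]
  refine hQ1 (le_bot_iff.1 ?_)
  rw [← Subgroup.inf_eq_bot_of_coprime hcop]
  exact le_inf le_rfl hQR

end Cfsg.Agent.S1892
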