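import Cfsg.Statements.S1893
import Cfsg.Agent.Lib.Hall.SCNFitting
import Cfsg.Agent.Lib.Hall.Basic
import Cfsg.Agent.Lib.BGAppendix.PiCore
import Cfsg.Agent.Lib.BenderUnique.Basic
-- import your own Cfsg.Agent.* helpers here

set_option autoImplicit false
open Cfsg
open scoped commutatorElement

namespace Cfsg.Agent.S1893

/-- Let S be a finite solvable group, π a set of primes containing neither 2 nor 3, H a Hall π-subgroup of S, and A a self-centralizing normal subgroup of the Fitting subgroup F(H). Then C_S(A) = A × D for a normal subgroup D of C_S(A) whose order has no prime divisor in π. -/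
theorem result {S : Type*} [Group S] [Finite S] [Group.IsSolvable S]
    (π : Set ℕ) (h2 : 2 ∉ π) (h3 : 3 ∉ π) (H : Subgroup S) (hH : Cfsg.IsPiHall π H)
    (A : Subgroup S) (hA : Cfsg.IsSCN ((Cfsg.fittingSubgroup H).map H.subtype) A) :
    ∃ D : Subgroup S, D ≤ Subgroup.centralizer (A : Set S) ∧
      (∀ c ∈ Subgroup.centralizer (A : Set S), ∀ d ∈ D, c * d * c⁻¹ ∈ D) ∧
      A ⊓ D = ⊥ ∧ A ⊔ D = Subgroup.centralizer (A : Set S) ∧
      ∀ q : ℕ, q.Prime → q ∣ Nat.card D → q ∉ π := by
  obtain ⟨hAF, hFA, hFC⟩ := hA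
  set W := (Cfsg.fittingSubgroup H).map H.subtype with hW
  have hWH : W ≤ H := Subgroup.map_subtype_le _
  set O := Cfsg.piCore πᶜ S with hO
  set q := QuotientGroup.mk' O with hq
  have hHO : ∀ h ∈ H, h ∈ O → h = 1 := by
    intro h hh ho
    rw [← orderOf_eq_one_iff]
    exact Nat.eq_one_of_dvd_coprimes
      (CfsgLib.Hall.IsPiNum.coprime (π := π) hH.1 (CfsgLib.BGAppendix.piSubgroup_piCore (π := πᶜ)))
      (Subgroup.orderOf_dvd_natCard _ hh) (Subgroup.orderOf_dvd_natCard _ ho)
  have hπ5 : ∀ r : ℕ, r.Prime → r ∈ π → 5 ≤ r := fun r hr hrπ => by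
    have h4 : r ≠ 4 := fun h => by rw [h] at hr; exact absurd hr (by norm_num)
    have := hr.two_le
    rcases eq_or_ne r 2 with rfl | e2
    · exact absurd hrπ h2
    rcases eq_or_ne r 3 with rfl | e3
    · exact absurd hrπ h3
    omega
  have hcore : ∀ r : ℕ, r.Prime → r ∉ π → Cfsg.pCore r (S ⧸ O) = ⊥ := by
    intro r hr hrπ
    haveI := Fact.mk hr
    set P := Cfsg.pCore r (S ⧸ O) with hP
    haveI : P.Normal := Cfsg.pCore_normal r _
    have hle : P.comap q ≤ O := by
      refine CfsgLib.BGAppendix.le_piCore (Subgroup.Normal.comap inferInstance q) fun l hl hd => ?_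
      obtain ⟨e, he⟩ := IsPGroup.iff_card.1 (CfsgLib.Cores.isPGroup_pCore r (S ⧸ O))
      have h1 : Nat.card (P.comap q) = Nat.card O * Nat.card P := by
        have h := Subgroup.card_mul_index ((O.subgroupOf (P.comap q)))
        have hOle : O ≤ P.comap q := (QuotientGroup.ker_mk' O).ge.trans (Subgroup.comap_mono bot_le)
        rw [Nat.card_congr (Subgroup.subgroupOfEquivOfLe hOle).toEquiv] at h
        have h' : O.relIndex (P.comap q) = Nat.card P := by
          have := Subgroup.relIndex_comap (⊥ : Subgroup (S ⧸ O)) q (P.comap q)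
          rw [Subgroup.map_comap_eq_self_of_surjective (QuotientGroup.mk'_surjective O),
            Subgroup.relIndex_bot_left, MonoidHom.comap_bot, QuotientGroup.ker_mk'] at this
          exact this
        rw [← h', ← h]; rfl
      rw [h1] at hd
      rcases hl.dvd_mul.1 hd with h | h
      · exact CfsgLib.BGAppendix.piSubgroup_piCore l hl h
      · rw [hP, he] at h
        rw [Nat.prime_dvd_prime_iff_eq hl hr |>.1 (hl.dvd_of_dvd_pow h)]
        exact hrπ
    rw [← le_bot_iff]
    intro z hz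
    obtain ⟨y, rfl⟩ := QuotientGroup.mk'_surjective O z
    exact Subgroup.mem_bot.2 ((QuotientGroup.eq_one_iff y).2 (hle hz))
  set Hq := H.map q with hHq
  have hHqHall : Cfsg.IsPiHall π Hq :=
    CfsgLib.Hall.isPiHall_map (QuotientGroup.mk'_surjective O) hH
  set F := Cfsg.fittingSubgroup (S ⧸ O) with hF
  haveI : F.Normal := CfsgLib.Cores.fittingSubgroup_normal _
  haveI := CfsgLib.Cores.isNilpotent_fittingSubgroup (G := S ⧸ O)
  have hFπ : Cfsg.IsPiSubgroup π F := by
    intro l hl hd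
    haveI := Fact.mk hl
    by_contra hlπ
    exact CfsgLib.BenderUnique.pCore_ne_bot_of_dvd hd (hcore l hl hlπ)
  have hFH : F ≤ Hq := by
    have h1 : Cfsg.IsPiSubgroup π (Hq ⊔ F) := CfsgLib.BGAppendix.piSubgroup_sup_of_le_normalizer
      hHqHall.1 hFπ (by rw [Subgroup.normalizer_eq_top]; exact le_top)
    rw [CfsgLib.Hall.eq_of_isPiHall_le hHqHall h1 le_sup_left]
    exact le_sup_right
  let e : ↥H →* ↥Hq := q.subgroupMap H
  have he : Function.Surjective e := q.subgroupMap_surjective H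
  have hWq : F ≤ W.map q := by
    have h1 : (F.subgroupOf Hq).comap e ≤ Cfsg.fittingSubgroup H := by
      haveI : ((F.subgroupOf Hq).comap e).Normal := Subgroup.Normal.comap inferInstance e
      refine CfsgLib.Cores.le_fittingSubgroup ?_
      let f : ↥((F.subgroupOf Hq).comap e) →* ↥F :=
        (q.comp (H.subtype.comp ((F.subgroupOf Hq).comap e).subtype)).codRestrict F fun z => z.2
      have hf : Function.Injective f := by
        refine (injective_iff_map_eq_one f).2 fun z hz => ?_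
        have h1 : q ((z : H) : S) = 1 := congrArg Subtype.val hz
        exact Subtype.ext (Subtype.ext (hHO _ z.1.2 ((QuotientGroup.eq_one_iff _).1 h1)))
      exact isNilpotent_of_ker_le_center f
        (((MonoidHom.ker_eq_bot_iff f).2 hf).le.trans bot_le)
    intro z hz
    obtain ⟨h, hh, rfl⟩ := hFH hz
    exact ⟨h, ⟨⟨h, hh⟩, h1 hz, rfl⟩, rfl⟩
  haveI hWnil : Group.IsNilpotent ↥(W.map q) := by
    haveI := CfsgLib.Cores.isNilpotent_fittingSubgroup (G := ↥H)
    let f : ↥(Cfsg.fittingSubgroup H) →* ↥(W.map q) :=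
      (q.comp (H.subtype.comp (Cfsg.fittingSubgroup H).subtype)).codRestrict (W.map q)
        fun z => ⟨_, ⟨z, z.2, rfl⟩, rfl⟩
    have hf : Function.Surjective f := by
      rintro ⟨_, _, ⟨z, hz, rfl⟩, rfl⟩
      exact ⟨⟨z, hz⟩, rfl⟩
    exact Group.nilpotent_of_surjective f hf
  have hscn : Cfsg.IsSCN (W.map q) (A.map q) := by
    refine ⟨Subgroup.map_mono hAF, (Subgroup.map_mono hFA).trans (Subgroup.le_normalizer_map q),
      le_antisymm ?_ (le_inf (Subgroup.map_mono hAF) ?_)⟩
    · rintro _ ⟨⟨w, hw, rfl⟩, hwc⟩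
      refine ⟨w, hFC.le ⟨hw, Subgroup.mem_centralizer_iff.2 fun a ha => ?_⟩, rfl⟩
      refine commutatorElement_eq_one_iff_mul_comm.1 (hHO _ ?_ ?_)
      · have haH := hWH (hAF ha)
        have hwH := hWH hw
        rw [commutatorElement_def]
        exact mul_mem (mul_mem (mul_mem haH hwH) (inv_mem haH)) (inv_mem hwH)
      · rw [← QuotientGroup.eq_one_iff]
        show q ⁅a, w⁆ = 1
        rw [map_commutatorElement, commutatorElement_eq_one_iff_mul_comm]
        exact Subgroup.mem_centralizer_iff.1 hwc _ ⟨a, ha, rfl⟩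
    · rintro _ ⟨a, ha, rfl⟩
      refine Subgroup.mem_centralizer_iff.2 ?_
      rintro _ ⟨b, hb, rfl⟩
      rw [← map_mul, ← map_mul, Subgroup.mem_centralizer_iff.1 (hFC.ge ha).2 b hb]
  have hCle : Subgroup.centralizer (A.map q : Set (S ⧸ O)) ≤ A.map q := by
    exact CfsgLib.Hall.centralizer_le_of_scn π hπ5 hcore (A.map q) (W.map q) hWq hscn
  set C := Subgroup.centralizer (A : Set S) with hC
  have hAC : A ≤ C := fun a ha => (hFC.ge ha).2
  refine ⟨O ⊓ C, inf_le_right, fun c hc d hd => ⟨(Cfsg.piCore_normal πᶜ S).conj_mem d hd.1 c,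
    C.mul_mem (C.mul_mem hc hd.2) (C.inv_mem hc)⟩, ?_, le_antisymm (sup_le hAC inf_le_right) ?_, ?_⟩
  · rw [eq_bot_iff]
    exact fun x hx => Subgroup.mem_bot.2 (hHO x (hWH (hAF hx.1)) hx.2.1)
  · intro c hc
    obtain ⟨a, ha, hac⟩ := hCle (show q c ∈ Subgroup.centralizer (A.map q : Set (S ⧸ O)) from by
      refine Subgroup.mem_centralizer_iff.2 ?_
      rintro _ ⟨b, hb, rfl⟩
      rw [← map_mul, ← map_mul, Subgroup.mem_centralizer_iff.1 hc b hb])
    rw [show c = a * (a⁻¹ * c) by group]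
    refine Subgroup.mul_mem_sup ha ⟨(QuotientGroup.eq_one_iff _).1 ?_,
      C.mul_mem (C.inv_mem (hAC ha)) hc⟩
    show q (a⁻¹ * c) = 1
    rw [map_mul, map_inv, hac, inv_mul_cancel]
  · intro l hl hd
    exact CfsgLib.BGAppendix.piSubgroup_piCore (π := πᶜ) l hl
      (hd.trans (Subgroup.card_dvd_of_le inf_le_left))

end Cfsg.Agent.S1893
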