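import Cfsg.Statements.S1894
import Cfsg.Agent.Lib.TwoGroups.NormalAbelian
-- import your own Cfsg.Agent.* helpers here

set_option autoImplicit false
open Cfsg

namespace Cfsg.Agent.S1894

/-- Let P be a finite p-group, A a normal subgroup of P and B an abelian subgroup of A that is normal in P. Then some subgroup C of A containing B is normal in P and is self-centralizing and normal in A (C ∈ SCN(A)). -/
theorem result {P : Type*} [Group P] [Finite P] {p : ℕ} [Fact p.Prime] (hP : IsPGroup p P)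
    (A : Subgroup P) [A.Normal] (B : Subgroup P) [B.Normal] (hBA : B ≤ A) (hB : IsMulCommutative B) :
    ∃ C : Subgroup P, C.Normal ∧ B ≤ C ∧ Cfsg.IsSCN A C := by
  obtain ⟨C, hC⟩ := Set.Finite.exists_maximal
    (s := {C : Subgroup P | B ≤ C ∧ C ≤ A ∧ C.Normal ∧ IsMulCommutative C}) (Set.toFinite _)
    ⟨B, le_rfl, hBA, inferInstance, hB⟩
  obtain ⟨hBC, hCA, hCn, hCc⟩ := hC.1
  refine ⟨C, hCn, hBC, hCA, by rw [Subgroup.normalizer_eq_top]; exact le_top, ?_⟩
  have hle : C ≤ A ⊓ Subgroup.centralizer (C : Set P) := le_inf hCA fun g hg t ht =>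
    congrArg Subtype.val (hCc.is_comm.comm ⟨t, ht⟩ ⟨g, hg⟩)
  by_contra hne
  have hMn : (A ⊓ Subgroup.centralizer (C : Set P)).Normal := inferInstance
  have hmap : (A ⊓ Subgroup.centralizer (C : Set P)).map (QuotientGroup.mk' C) ≠ ⊥ := by
    rw [Ne, Subgroup.map_eq_bot_iff, QuotientGroup.ker_mk']
    exact fun h => hne (le_antisymm h hle)
  haveI := Subgroup.Normal.map hMn (QuotientGroup.mk' C) (QuotientGroup.mk'_surjective C)
  obtain ⟨z, ⟨c, ⟨hcA, hc⟩, rfl⟩, hz1, hzZ⟩ :=
    CfsgLib.TwoGroups.exists_mem_center_of_normal (hP.to_quotient C) hmap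
  let D : Subgroup P := (Subgroup.zpowers (QuotientGroup.mk' C c)).comap (QuotientGroup.mk' C)
  have hDn : D.Normal := by
    have : (Subgroup.zpowers (QuotientGroup.mk' C c)).Normal := by
      refine ⟨fun n hn g => ?_⟩
      have : n ∈ Subgroup.center (P ⧸ C) := (Subgroup.zpowers_le.2 hzZ) hn
      rwa [(Subgroup.mem_center_iff.1 this g), mul_inv_cancel_right]
    exact this.comap _
  have hCD : C ≤ D := fun a ha => by
    simp [D, (QuotientGroup.eq_one_iff (N := C) a).2 ha]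
  have hcD : c ∈ D := Subgroup.mem_zpowers _
  have hdec : ∀ d ∈ D, ∃ (i : ℤ) (a : P), a ∈ C ∧ d = c ^ i * a := fun d hd => by
    obtain ⟨i, hi⟩ := Subgroup.mem_zpowers_iff.1 (Subgroup.mem_comap.1 hd)
    rw [← map_zpow, QuotientGroup.mk'_eq_mk'] at hi
    obtain ⟨a, ha, he⟩ := hi
    exact ⟨i, a, ha, he.symm⟩
  have hDA : D ≤ A := fun d hd => by
    obtain ⟨i, a, ha, rfl⟩ := hdec d hd
    exact mul_mem (A.zpow_mem hcA i) (hCA ha)
  have hDc : IsMulCommutative D := by
    refine isMulCommutative_iff.2 fun u v => Subtype.ext ?_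
    obtain ⟨i, a, ha, hu⟩ := hdec u u.2
    obtain ⟨j, b, hb, hv⟩ := hdec v v.2
    have hca : ∀ t ∈ C, Commute c t := fun t ht => ((Subgroup.mem_centralizer_iff.1 hc) t ht).symm
    have hab : Commute a b := congrArg Subtype.val (hCc.is_comm.comm ⟨a, ha⟩ ⟨b, hb⟩)
    change (u : P) * v = v * u
    rw [hu, hv]
    exact (((Commute.refl c).zpow_zpow i j).mul_right ((hca b hb).zpow_left i) |>.mul_left
      (((hca a ha).zpow_left j).symm.mul_right hab)).eq
  have hCeq : C = D := le_antisymm hCD (hC.2 ⟨hBC.trans hCD, hDA, hDn, hDc⟩ hCD)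
  exact hz1 ((QuotientGroup.eq_one_iff c).2 (hCeq ▸ hcD))

end Cfsg.Agent.S1894
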