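import Cfsg.Statements.S1897
import Cfsg.Agent.Lib.ClassicalForms.Unitary.Center
-- import your own Cfsg.Agent.* helpers here

set_option autoImplicit false
set_option Elab.async false
open Cfsg

namespace Cfsg.Agent.S1897

open Matrix

/-- Codes for the field with nine elements: `(a, b)` stands for `a + b i`, `i² = -1`. -/
abbrev C9 : Type := ZMod 3 × ZMod 3

def cm (x y : C9) : C9 := (x.1 * y.1 - x.2 * y.2, x.1 * y.2 + x.2 * y.1)
def cc (x : C9) : C9 := (x.1, -x.2)

abbrev Vec : Type := C9 × C9 × C9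
/-- A coded 3 × 3 matrix, by rows. -/
abbrev M3 : Type := Vec × Vec × Vec

def rm (r : Vec) (y : M3) : Vec :=
  (cm r.1 y.1.1 + cm r.2.1 y.2.1.1 + cm r.2.2 y.2.2.1,
   cm r.1 y.1.2.1 + cm r.2.1 y.2.1.2.1 + cm r.2.2 y.2.2.2.1,
   cm r.1 y.1.2.2 + cm r.2.1 y.2.1.2.2 + cm r.2.2 y.2.2.2.2)

def mm (x y : M3) : M3 := (rm x.1 y, rm x.2.1 y, rm x.2.2 y)

/-- The transpose of the conjugate. -/
def star3 (x : M3) : M3 :=
  ((cc x.1.1, cc x.2.1.1, cc x.2.2.1), (cc x.1.2.1, cc x.2.1.2.1, cc x.2.2.2.1),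
   (cc x.1.2.2, cc x.2.1.2.2, cc x.2.2.2.2))

def idm : M3 :=
  (((1, 0), (0, 0), (0, 0)), ((0, 0), (1, 0), (0, 0)), ((0, 0), (0, 0), (1, 0)))

def cdet (x : M3) : C9 :=
  cm x.1.1 (cm x.2.1.2.1 x.2.2.2.2) - cm x.1.1 (cm x.2.1.2.2 x.2.2.2.1)
    - cm x.1.2.1 (cm x.2.1.1 x.2.2.2.2) + cm x.1.2.1 (cm x.2.1.2.2 x.2.2.1)
    + cm x.1.2.2 (cm x.2.1.1 x.2.2.2.1) - cm x.1.2.2 (cm x.2.1.2.1 x.2.2.1)

def gU : M3 :=
  (((0, 0), (0, 0), (1, 0)), ((1, 1), (1, 1), (0, 0)), ((2, 1), (1, 2), (0, 0)))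

def gW : M3 :=
  (((0, 0), (1, 1), (2, 2)), ((1, 2), (1, 0), (1, 0)), ((2, 1), (1, 0), (1, 0)))

def pw : M3 → ℕ → M3
  | _, 0 => idm
  | x, n + 1 => mm (pw x n) x

def T (a : ZMod 7) : M3 := pw gU a.val

/-- The image of `diag(u, u⁻¹)`. -/
def D (u : ZMod 7) : M3 := mm (mm (mm (T u) gW) (mm (T (u ^ 5)) gW)) (mm (T u) gW)

abbrev S7 : Type := ZMod 7 × ZMod 7 × ZMod 7 × ZMod 7

def sm (x y : S7) : S7 :=
  (x.1 * y.1 + x.2.1 * y.2.2.1, x.1 * y.2.1 + x.2.1 * y.2.2.2,
   x.2.2.1 * y.1 + x.2.2.2 * y.2.2.1, x.2.2.1 * y.2.1 + x.2.2.2 * y.2.2.2)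

def st (a : ZMod 7) : S7 := (1, a, 0, 1)
def sw : S7 := (0, -1, 1, 0)

/-- The representation, by the Bruhat decomposition. -/
def phi : S7 → M3
  | (a, b, c, d) =>
    if c = 0 then mm (D a) (T (b * d))
    else mm (mm (mm (T (a * c ^ 5)) gW) (D c)) (T (d * c ^ 5))

def sdiag (u : ZMod 7) : S7 :=
  sm (sm sw sw) (sm (sm (sm (st u) sw) (sm (st (u ^ 5)) sw)) (sm (st u) sw))

def word : S7 → S7
  | (a, b, c, d) =>
    if c = 0 then sm (sdiag a) (st (b * d))
    else sm (sm (sm (st (a * c ^ 5)) sw) (sdiag c)) (st (d * c ^ 5))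

set_option synthInstance.maxSize 4000 in
set_option synthInstance.maxHeartbeats 400000 in
private theorem main_check_0 : let a : ZMod 7 := 0; ∀ b c d : ZMod 7, a * d - b * c = 1 →
    mm (star3 (phi (a, b, c, d))) (phi (a, b, c, d)) = idm ∧ cdet (phi (a, b, c, d)) = (1, 0) ∧
      word (a, b, c, d) = (a, b, c, d) ∧
      phi (sm (a, b, c, d) (st 1)) = mm (phi (a, b, c, d)) gU ∧
      phi (sm (a, b, c, d) sw) = mm (phi (a, b, c, d)) gW ∧
      (phi (a, b, c, d) = idm ↔ b = 0 ∧ c = 0 ∧ a * a = 1) := by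
  decide +kernel

set_option synthInstance.maxSize 4000 in
set_option synthInstance.maxHeartbeats 400000 in
private theorem main_check_1 : let a : ZMod 7 := 1; ∀ b c d : ZMod 7, a * d - b * c = 1 →
    mm (star3 (phi (a, b, c, d))) (phi (a, b, c, d)) = idm ∧ cdet (phi (a, b, c, d)) = (1, 0) ∧
      word (a, b, c, d) = (a, b, c, d) ∧
      phi (sm (a, b, c, d) (st 1)) = mm (phi (a, b, c, d)) gU ∧
      phi (sm (a, b, c, d) sw) = mm (phi (a, b, c, d)) gW ∧
      (phi (a, b, c, d) = idm ↔ b = 0 ∧ c = 0 ∧ a * a = 1) := by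
  decide +kernel

set_option synthInstance.maxSize 4000 in
set_option synthInstance.maxHeartbeats 400000 in
private theorem main_check_2 : let a : ZMod 7 := 2; ∀ b c d : ZMod 7, a * d - b * c = 1 →
    mm (star3 (phi (a, b, c, d))) (phi (a, b, c, d)) = idm ∧ cdet (phi (a, b, c, d)) = (1, 0) ∧
      word (a, b, c, d) = (a, b, c, d) ∧
      phi (sm (a, b, c, d) (st 1)) = mm (phi (a, b, c, d)) gU ∧
      phi (sm (a, b, c, d) sw) = mm (phi (a, b, c, d)) gW ∧
      (phi (a, b, c, d) = idm ↔ b = 0 ∧ c = 0 ∧ a * a = 1) := by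
  decide +kernel

set_option synthInstance.maxSize 4000 in
set_option synthInstance.maxHeartbeats 400000 in
private theorem main_check_3 : let a : ZMod 7 := 3; ∀ b c d : ZMod 7, a * d - b * c = 1 →
    mm (star3 (phi (a, b, c, d))) (phi (a, b, c, d)) = idm ∧ cdet (phi (a, b, c, d)) = (1, 0) ∧
      word (a, b, c, d) = (a, b, c, d) ∧
      phi (sm (a, b, c, d) (st 1)) = mm (phi (a, b, c, d)) gU ∧
      phi (sm (a, b, c, d) sw) = mm (phi (a, b, c, d)) gW ∧
      (phi (a, b, c, d) = idm ↔ b = 0 ∧ c = 0 ∧ a * a = 1) := by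
  decide +kernel

set_option synthInstance.maxSize 4000 in
set_option synthInstance.maxHeartbeats 400000 in
private theorem main_check_4 : let a : ZMod 7 := 4; ∀ b c d : ZMod 7, a * d - b * c = 1 →
    mm (star3 (phi (a, b, c, d))) (phi (a, b, c, d)) = idm ∧ cdet (phi (a, b, c, d)) = (1, 0) ∧
      word (a, b, c, d) = (a, b, c, d) ∧
      phi (sm (a, b, c, d) (st 1)) = mm (phi (a, b, c, d)) gU ∧
      phi (sm (a, b, c, d) sw) = mm (phi (a, b, c, d)) gW ∧
      (phi (a, b, c, d) = idm ↔ b = 0 ∧ c = 0 ∧ a * a = 1) := by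
  decide +kernel

set_option synthInstance.maxSize 4000 in
set_option synthInstance.maxHeartbeats 400000 in
private theorem main_check_5 : let a : ZMod 7 := 5; ∀ b c d : ZMod 7, a * d - b * c = 1 →
    mm (star3 (phi (a, b, c, d))) (phi (a, b, c, d)) = idm ∧ cdet (phi (a, b, c, d)) = (1, 0) ∧
      word (a, b, c, d) = (a, b, c, d) ∧
      phi (sm (a, b, c, d) (st 1)) = mm (phi (a, b, c, d)) gU ∧
      phi (sm (a, b, c, d) sw) = mm (phi (a, b, c, d)) gW ∧
      (phi (a, b, c, d) = idm ↔ b = 0 ∧ c = 0 ∧ a * a = 1) := by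
  decide +kernel

set_option synthInstance.maxSize 4000 in
set_option synthInstance.maxHeartbeats 400000 in
private theorem main_check_6 : let a : ZMod 7 := 6; ∀ b c d : ZMod 7, a * d - b * c = 1 →
    mm (star3 (phi (a, b, c, d))) (phi (a, b, c, d)) = idm ∧ cdet (phi (a, b, c, d)) = (1, 0) ∧
      word (a, b, c, d) = (a, b, c, d) ∧
      phi (sm (a, b, c, d) (st 1)) = mm (phi (a, b, c, d)) gU ∧
      phi (sm (a, b, c, d) sw) = mm (phi (a, b, c, d)) gW ∧
      (phi (a, b, c, d) = idm ↔ b = 0 ∧ c = 0 ∧ a * a = 1) := by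
  decide +kernel

theorem main_check : ∀ a b c d : ZMod 7, a * d - b * c = 1 →
    mm (star3 (phi (a, b, c, d))) (phi (a, b, c, d)) = idm ∧ cdet (phi (a, b, c, d)) = (1, 0) ∧
      word (a, b, c, d) = (a, b, c, d) ∧
      phi (sm (a, b, c, d) (st 1)) = mm (phi (a, b, c, d)) gU ∧
      phi (sm (a, b, c, d) sw) = mm (phi (a, b, c, d)) gW ∧
      (phi (a, b, c, d) = idm ↔ b = 0 ∧ c = 0 ∧ a * a = 1) := by
  intro a
  fin_cases a
  · exact main_check_0
  · exact main_check_1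
  · exact main_check_2
  · exact main_check_3
  · exact main_check_4
  · exact main_check_5
  · exact main_check_6

theorem phi_one : phi (1, 0, 0, 1) = idm := by decide +kernel
theorem phi_t : phi (st 1) = gU := by decide +kernel
theorem phi_w : phi sw = gW := by decide +kernel

/-- The underlying code of an element of `SL₂(7)`. -/
def sc (g : SpecialLinearGroup (Fin 2) (ZMod 7)) : S7 := (g.1 0 0, g.1 0 1, g.1 1 0, g.1 1 1)

theorem sc_mul (g h : SpecialLinearGroup (Fin 2) (ZMod 7)) : sc (g * h) = sm (sc g) (sc h) := by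
  simp [sc, sm, Matrix.mul_apply, Fin.sum_univ_two]

theorem sc_det (g : SpecialLinearGroup (Fin 2) (ZMod 7)) :
    g.1 0 0 * g.1 1 1 - g.1 0 1 * g.1 1 0 = 1 := by
  rw [← Matrix.det_fin_two]; exact g.2

theorem sc_inj : Function.Injective sc := by
  intro g h e
  simp only [sc, Prod.mk.injEq] at e
  obtain ⟨a, b, c, d⟩ := e
  ext i j
  fin_cases i <;> fin_cases j <;> assumption

section

variable {F : Type*} [Field F] [CharP F 3] {ι : F}

def dec (ι : F) (x : C9) : F :=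
  ZMod.castHom (dvd_refl 3) F x.1 + ZMod.castHom (dvd_refl 3) F x.2 * ι

theorem dec_add (x y : C9) : dec ι (x + y) = dec ι x + dec ι y := by
  simp only [dec, Prod.fst_add, Prod.snd_add, map_add]; ring

theorem dec_sub (x y : C9) : dec ι (x - y) = dec ι x - dec ι y := by
  simp only [dec, Prod.fst_sub, Prod.snd_sub, map_sub]; ring

theorem dec_mul (hi : ι * ι = -1) (x y : C9) : dec ι (cm x y) = dec ι x * dec ι y := by
  simp only [dec, cm, map_add, map_sub, map_mul]
  linear_combination (-(ZMod.castHom (dvd_refl 3) F x.2 * ZMod.castHom (dvd_refl 3) F y.2)) * hi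

theorem dec_cc (hi : ι * ι = -1) (x : C9) : dec ι (cc x) = dec ι x ^ 3 := by
  simp only [dec, cc, map_neg]
  have h : ∀ z : ZMod 3, z ^ 3 = z := by decide
  rw [add_pow_char, mul_pow, ← map_pow, ← map_pow, h, h]
  linear_combination (-(ZMod.castHom (dvd_refl 3) F x.2) * ι) * hi

theorem dec_inj (hi : ι * ι = -1) : Function.Injective (dec ι) := by
  intro x y e
  by_contra hne
  have key : ∀ z : C9, z ≠ 0 → z.1 * z.1 + z.2 * z.2 ≠ 0 := by decide
  have h0 : dec ι (x - y) = 0 := by rw [dec_sub, e, sub_self]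
  have hm : dec ι (cm (x - y) (cc (x - y))) = 0 := by rw [dec_mul hi, h0, zero_mul]
  have hn : cm (x - y) (cc (x - y)) =
      ((x - y).1 * (x - y).1 + (x - y).2 * (x - y).2, 0) := by
    refine Prod.ext ?_ ?_ <;> simp only [cm, cc] <;> ring
  rw [hn, dec] at hm
  simp only [map_zero, zero_mul, add_zero] at hm
  exact key _ (sub_ne_zero.2 hne) ((ZMod.castHom (dvd_refl 3) F).injective (hm.trans (map_zero _).symm))

def toM (ι : F) (x : M3) : Matrix (Fin 3) (Fin 3) F :=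
  !![dec ι x.1.1, dec ι x.1.2.1, dec ι x.1.2.2;
     dec ι x.2.1.1, dec ι x.2.1.2.1, dec ι x.2.1.2.2;
     dec ι x.2.2.1, dec ι x.2.2.2.1, dec ι x.2.2.2.2]

theorem toM_mul (hi : ι * ι = -1) (x y : M3) : toM ι (mm x y) = toM ι x * toM ι y := by
  ext i j
  fin_cases i <;> fin_cases j <;>
    simp [toM, mm, rm, dec_add, dec_mul hi, Matrix.mul_apply, Fin.sum_univ_three]

theorem toM_id : toM ι idm = (1 : Matrix (Fin 3) (Fin 3) F) := by
  ext i j
  fin_cases i <;> fin_cases j <;> simp [toM, idm, dec]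

theorem toM_star (hi : ι * ι = -1) (x : M3) :
    toM ι (star3 x) = ((toM ι x).map (· ^ 3))ᵀ := by
  ext i j
  fin_cases i <;> fin_cases j <;> simp [toM, star3, dec_cc hi]

theorem toM_det (hi : ι * ι = -1) (x : M3) : (toM ι x).det = dec ι (cdet x) := by
  simp [toM, cdet, dec_add, dec_sub, dec_mul hi, Matrix.det_fin_three]
  ring

theorem toM_inj (hi : ι * ι = -1) : Function.Injective (toM ι) := by
  intro x y e
  have k := fun i j => congrFun (congrFun e i) j
  obtain ⟨⟨a, b, c⟩, ⟨d, f, g⟩, p, q, r⟩ := x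
  obtain ⟨⟨a', b', c'⟩, ⟨d', f', g'⟩, p', q', r'⟩ := y
  simp only [Prod.mk.injEq]
  refine ⟨⟨?_, ?_, ?_⟩, ⟨?_, ?_, ?_⟩, ?_, ?_, ?_⟩ <;> apply dec_inj hi
  exacts [k 0 0, k 0 1, k 0 2, k 1 0, k 1 1, k 1 2, k 2 0, k 2 1, k 2 2]

/-- A matrix with `(A^σ)ᵀ A = 1` preserves the Hermitian form. -/
theorem preserves_of_star {A : Matrix (Fin 3) (Fin 3) F} (h : (A.map (· ^ 3))ᵀ * A = 1)
    (u v : Fin 3 → F) : Cfsg.hermForm 3 F 3 (A *ᵥ u) (A *ᵥ v) = Cfsg.hermForm 3 F 3 u v := by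
  have hf : ∀ w : Fin 3 → F, Cfsg.hermForm 3 F 3 w v = (fun i => v i ^ 3) ⬝ᵥ w := fun w => by
    simp [Cfsg.hermForm, dotProduct, mul_comm]
  have hA : (fun i => (A *ᵥ v) i ^ 3) = A.map (· ^ 3) *ᵥ fun i => v i ^ 3 := by
    funext i
    simp only [Matrix.mulVec, dotProduct, sum_pow_char, mul_pow, Matrix.map_apply]
  have : Cfsg.hermForm 3 F 3 (A *ᵥ u) (A *ᵥ v) = (fun i => (A *ᵥ v) i ^ 3) ⬝ᵥ (A *ᵥ u) := by
    simp [Cfsg.hermForm, dotProduct, mul_comm]
  rw [this, hA, ← Matrix.vecMul_transpose, ← Matrix.dotProduct_mulVec, Matrix.mulVec_mulVec, h,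
    Matrix.one_mulVec, hf]

end

/-- The projective special unitary group PSU₃(3) (realised over the field with 9 elements) has a subgroup isomorphic to PSL₂(7). -/
theorem result {F : Type*} [Field F] [Fintype F] (hF : Fintype.card F = 9)
    {K : Type*} [Field K] [Fintype K] (hK : Fintype.card K = 7) :
    ∃ H : Subgroup (Cfsg.PSU 3 F 3), Nonempty (H ≃* Matrix.ProjectiveSpecialLinearGroup (Fin 2) K) := by
  classical
  have : Fact (Nat.Prime 3) := ⟨Nat.prime_three⟩
  have : Fact (Nat.Prime 7) := ⟨by norm_num⟩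
  have hc3 : CharP F 3 := by
    obtain ⟨c, hc⟩ := CharP.exists F
    obtain ⟨m, hcp, hm⟩ := FiniteField.card F c
    have h : c ∣ 3 ^ 2 := by
      rw [show (3 : ℕ) ^ 2 = 9 by norm_num, ← hF, hm]; exact dvd_pow_self c m.pos.ne'
    rwa [← (Nat.prime_dvd_prime_iff_eq hcp Nat.prime_three).1 (hcp.dvd_of_dvd_pow h)]
  obtain ⟨ι, hi⟩ : ∃ ι : F, ι * ι = -1 := by
    obtain ⟨r, hr⟩ := FiniteField.isSquare_neg_one_iff.2 (show Fintype.card F % 4 ≠ 3 by omega)
    exact ⟨r, hr.symm⟩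
  have chk := fun g : SpecialLinearGroup (Fin 2) (ZMod 7) =>
    main_check (g.1 0 0) (g.1 0 1) (g.1 1 0) (g.1 1 1) (sc_det g)
  let f : SpecialLinearGroup (Fin 2) (ZMod 7) → Cfsg.SU 3 F 3 := fun g =>
    ⟨⟨toM ι (phi (sc g)), by
        rw [toM_det hi, show cdet (phi (sc g)) = (1, 0) from (chk g).2.1]
        simp [dec]⟩,
      fun u v => preserves_of_star (by
        show ((toM ι (phi (sc g))).map (· ^ 3))ᵀ * toM ι (phi (sc g)) = 1
        rw [← toM_star hi, ← toM_mul hi, show mm (star3 (phi (sc g))) (phi (sc g)) = idm from (chk g).1,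
          toM_id]) u v⟩
  have fM : ∀ g, (((f g : Cfsg.SU 3 F 3) : SpecialLinearGroup (Fin 3) F) : Matrix (Fin 3) (Fin 3) F) =
      toM ι (phi (sc g)) := fun g => rfl
  have fext : ∀ x y : Cfsg.SU 3 F 3,
      ((x : SpecialLinearGroup (Fin 3) F) : Matrix (Fin 3) (Fin 3) F) =
        ((y : SpecialLinearGroup (Fin 3) F) : Matrix (Fin 3) (Fin 3) F) → x = y :=
    fun x y e => Subtype.ext (Subtype.ext e)
  have sc_one : sc 1 = (1, 0, 0, 1) := by simp [sc]
  let Sm : Submonoid (SpecialLinearGroup (Fin 2) (ZMod 7)) :=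
    { carrier := {h | ∀ g, f (g * h) = f g * f h}
      one_mem' := fun g => fext _ _ (by
        show toM ι (phi (sc (g * 1))) = toM ι (phi (sc g)) * toM ι (phi (sc 1))
        rw [mul_one, sc_one, phi_one, toM_id, mul_one])
      mul_mem' := fun {x y} hx hy g => by
        rw [← mul_assoc, hy, hx, hy, mul_assoc] }
  let tg : SpecialLinearGroup (Fin 2) (ZMod 7) := ⟨!![1, 1; 0, 1], by simp [det_fin_two]⟩
  let wg : SpecialLinearGroup (Fin 2) (ZMod 7) := ⟨!![0, -1; 1, 0], by simp [det_fin_two]⟩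
  have sct : sc tg = st 1 := by simp [sc, tg, st]
  have scw : sc wg = sw := by simp [sc, wg, sw]
  have ht : tg ∈ Sm := fun g => fext _ _ (by
    show toM ι (phi (sc (g * tg))) = toM ι (phi (sc g)) * toM ι (phi (sc tg))
    rw [sc_mul, sct, phi_t, ← toM_mul hi]
    exact congrArg (toM ι) (chk g).2.2.2.1)
  have hw : wg ∈ Sm := fun g => fext _ _ (by
    show toM ι (phi (sc (g * wg))) = toM ι (phi (sc g)) * toM ι (phi (sc wg))
    rw [sc_mul, scw, phi_w, ← toM_mul hi]
    exact congrArg (toM ι) (chk g).2.2.2.2.1)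
  -- codes of elements of `Sm`
  let inS : S7 → Prop := fun x => ∃ g ∈ Sm, sc g = x
  have sS_mul : ∀ {x y}, inS x → inS y → inS (sm x y) := by
    rintro _ _ ⟨g, hg, rfl⟩ ⟨h, hh, rfl⟩
    exact ⟨g * h, mul_mem hg hh, sc_mul g h⟩
  have sS_w : inS sw := ⟨wg, hw, scw⟩
  have sS_t : ∀ a, inS (st a) := fun a => by
    have hn : ∀ n : ℕ, sc (tg ^ n) = st (n : ZMod 7) := fun n => by
      induction n with
      | zero => simp [sc_one, st]
      | succ n ih => rw [pow_succ, sc_mul, ih, sct]; simp [sm, st, add_comm]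
    exact ⟨tg ^ a.val, pow_mem ht _, by rw [hn, ZMod.natCast_zmod_val]⟩
  have sS_d : ∀ u, inS (sdiag u) := fun u =>
    sS_mul (sS_mul sS_w sS_w)
      (sS_mul (sS_mul (sS_mul (sS_t _) sS_w) (sS_mul (sS_t _) sS_w)) (sS_mul (sS_t _) sS_w))
  have htop : ∀ h, h ∈ Sm := fun h => by
    have hwd : word (sc h) = sc h := (chk h).2.2.1
    obtain ⟨g, hg, e⟩ : inS (sc h) := by
      rw [← hwd]
      generalize sc h = x
      obtain ⟨a, b, c, d⟩ := x
      unfold word
      by_cases hc : c = 0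
      · simp only [hc, if_true]; exact sS_mul (sS_d _) (sS_t _)
      · simp only [hc, if_false]; exact sS_mul (sS_mul (sS_mul (sS_t _) sS_w) (sS_d _)) (sS_t _)
    rwa [← sc_inj e]
  let φ : SpecialLinearGroup (Fin 2) (ZMod 7) →* Cfsg.SU 3 F 3 :=
    MonoidHom.mk' f fun g h => htop h g
  let e : K ≃+* ZMod 7 := (ZMod.ringEquivOfPrime K (by norm_num) hK).symm
  let ψ : SpecialLinearGroup (Fin 2) K →* Cfsg.PSU 3 F 3 :=
    ((QuotientGroup.mk' _).comp φ).comp (SpecialLinearGroup.map e.toRingHom)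
  have hZ : Subgroup.center (Cfsg.SU 3 F 3) = ⊥ := by
    apply Subgroup.eq_bot_of_card_eq
    rw [CfsgLib.ClassicalForms.card_center_su (q := 3) (by rw [Nat.card_eq_fintype_card, hF]; norm_num)
      (by norm_num)]
    norm_num
  have hker : ψ.ker = Subgroup.center (SpecialLinearGroup (Fin 2) K) := by
    ext g
    have key : φ (SpecialLinearGroup.map e.toRingHom g) = 1 ↔
        g.1 0 1 = 0 ∧ g.1 1 0 = 0 ∧ g.1 0 0 * g.1 0 0 = 1 := by
      have h6 := (chk (SpecialLinearGroup.map e.toRingHom g)).2.2.2.2.2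
      have hentry : ∀ i j, (SpecialLinearGroup.map e.toRingHom g).1 i j = e (g.1 i j) := fun i j => rfl
      simp only [hentry, ← map_mul, map_eq_zero_iff e e.injective, map_eq_one_iff e e.injective] at h6
      rw [← h6]
      constructor
      · intro h1
        apply toM_inj hi
        have := congrArg (fun z : Cfsg.SU 3 F 3 => ((z : SpecialLinearGroup (Fin 3) F) :
          Matrix (Fin 3) (Fin 3) F)) h1
        simp only [OneMemClass.coe_one] at this
        rw [toM_id]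
        exact this
      · intro h1
        refine fext _ _ ?_
        show toM ι (phi (sc _)) = _
        simp only [sc, hentry]
        rw [h1, toM_id]
        simp
    rw [MonoidHom.mem_ker, Matrix.SpecialLinearGroup.mem_center_iff]
    simp only [ψ, MonoidHom.comp_apply, QuotientGroup.mk'_apply, QuotientGroup.eq_one_iff, hZ,
      Subgroup.mem_bot]
    rw [key, Fintype.card_fin]
    have hd := g.2
    rw [det_fin_two] at hd
    constructor
    · rintro ⟨h01, h10, h00⟩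
      refine ⟨g.1 0 0, by rw [pow_two]; exact h00, ?_⟩
      rw [h01, zero_mul, sub_zero] at hd
      have h11 : g.1 1 1 = g.1 0 0 := by linear_combination g.1 0 0 * hd - g.1 1 1 * h00
      ext i j
      fin_cases i <;> fin_cases j <;> simp [h01, h10, h11]
    · rintro ⟨r, hr, hg⟩
      have k : ∀ i j, Matrix.scalar (Fin 2) r i j = g.1 i j := fun i j => by rw [hg]
      rw [← k 0 1, ← k 1 0, ← k 0 0]
      rw [pow_two] at hr
      simp [hr]
  exact ⟨ψ.range,
    ⟨((QuotientGroup.quotientMulEquivOfEq hker).symm.trans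
      (QuotientGroup.quotientKerEquivRange ψ)).symm⟩⟩

end Cfsg.Agent.S1897
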