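import Cfsg.Statements.S1898
-- import your own Cfsg.Agent.* helpers here

set_option autoImplicit false
open Cfsg

namespace Cfsg.Agent.S1898

/-- Let X be a finite 2-group whose derived subgroup is elementary abelian and central. Then the subgroup generated by the elements of order dividing 4 has exponent dividing 4, and every automorphism of X fixing each element of order dividing 4 has 2-power order. -/
theorem result {X : Type*} [Group X] [Finite X] (hX : IsPGroup 2 X)
    (hel : Cfsg.IsElementaryAbelian 2 (commutator X)) (hcen : commutator X ≤ Subgroup.center X) :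
    (∀ x ∈ Subgroup.closure {g : X | g ^ 4 = 1}, x ^ 4 = 1) ∧
      ∀ φ : MulAut X, (∀ g : X, g ^ 4 = 1 → φ g = g) → ∃ k : ℕ, φ ^ (2 ^ k) = 1 := by
  have hc2 : ∀ a b : X, ∃ c ∈ commutator X, b * a = a * b * c ∧ c ^ 2 = 1 := by
    intro a b
    have hc : b⁻¹ * a⁻¹ * b * a ∈ commutator X := by
      have := Subgroup.commutator_mem_commutator (Subgroup.mem_top b⁻¹) (Subgroup.mem_top a⁻¹)
      simpa [commutatorElement_def, commutator_def] using this
    exact ⟨_, hc, by group, hel.2 _ hc⟩
  have hcc : ∀ c ∈ commutator X, ∀ w : X, w * c = c * w := fun c hc =>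
    Subgroup.mem_center_iff.1 (hcen hc)
  have hsq : ∀ a w : X, w * a ^ 2 = a ^ 2 * w := by
    intro a w
    obtain ⟨c, hc, hba, hc1⟩ := hc2 a w
    calc w * a ^ 2 = w * a * a := by rw [pow_two, mul_assoc]
      _ = a * w * c * a := by rw [hba]
      _ = a * w * (a * c) := by rw [mul_assoc (a * w), ← hcc c hc a]
      _ = a * (w * a) * c := by group
      _ = a * (a * w * c) * c := by rw [hba]
      _ = a ^ 2 * w * c ^ 2 := by rw [pow_two, pow_two]; group
      _ = a ^ 2 * w := by rw [hc1, mul_one]
  have hmul2 : ∀ a b : X, ∃ c ∈ commutator X, (a * b) ^ 2 = a ^ 2 * b ^ 2 * c ∧ c ^ 2 = 1 := by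
    intro a b
    obtain ⟨c, hc, hba, hc1⟩ := hc2 a b
    refine ⟨c, hc, ?_, hc1⟩
    calc (a * b) ^ 2 = a * (b * a) * b := by rw [pow_two]; group
      _ = a * (a * b * c) * b := by rw [hba]
      _ = a * a * b * (c * b) := by group
      _ = a * a * b * (b * c) := by rw [hcc c hc b]
      _ = a ^ 2 * b ^ 2 * c := by rw [pow_two, pow_two]; group
  have hhom : ∀ a b : X, (a * b) ^ 4 = a ^ 4 * b ^ 4 := by
    intro a b
    obtain ⟨c, hc, h2, hc1⟩ := hmul2 a b
    have h1 : Commute (a ^ 2) (b ^ 2) := (hsq a (b ^ 2)).symm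
    have h3 : Commute (a ^ 2 * b ^ 2) c := hcc c hc _
    rw [show 4 = 2 * 2 from rfl, pow_mul, h2, h3.mul_pow, h1.mul_pow, hc1, mul_one, pow_mul, pow_mul]
  refine ⟨fun x hx => ?_, ?_⟩
  · induction hx using Subgroup.closure_induction with
    | mem y hy => exact hy
    | one => exact one_pow 4
    | mul a b _ _ ha hb => rw [hhom, ha, hb, one_mul]
    | inv a _ ha => rw [inv_pow, ha, inv_one]
  have key : ∀ φ : MulAut X, (∀ g : X, g ^ 4 = 1 → φ g = g) → ∀ m : ℕ, Odd m → φ ^ m = 1 → φ = 1 := by
    intro φ hφ m hm hφm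
    have hx : ∀ (n : ℕ) (x : X), x ^ (2 ^ (n + 2)) = 1 → φ x = x := by
      intro n
      induction n with
      | zero => exact hφ
      | succ n ih =>
        intro x hx
        have h2 : φ (x ^ 2) = x ^ 2 := ih _ (by rw [← pow_mul, ← hx]; congr 1; ring)
        set z := x⁻¹ * φ x with hzdef
        have hxz : φ x = x * z := by rw [hzdef]; group
        obtain ⟨c, hc, he, hc1⟩ := hmul2 x z
        have hz2 : z ^ 2 * c = 1 := by
          have : x ^ 2 * (z ^ 2 * c) = x ^ 2 * 1 := by
            rw [← mul_assoc, ← he, ← hxz, ← map_pow, h2, mul_one]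
          exact mul_left_cancel this
        have hz4 : z ^ 4 = 1 := by
          rw [show 4 = 2 * 2 from rfl, pow_mul, eq_inv_of_mul_eq_one_left hz2, inv_pow, hc1, inv_one]
        have hz : φ z = z := hφ z hz4
        have hit : ∀ i : ℕ, (φ ^ i) x = x * z ^ i := by
          intro i
          induction i with
          | zero => simp
          | succ i ihi =>
            rw [pow_succ', MulAut.mul_apply, ihi, map_mul, map_pow, hz, hxz, mul_assoc, ← pow_succ']
        have hzm : z ^ m = 1 := by
          have := hit m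
          rw [hφm, MulAut.one_apply] at this
          exact mul_left_cancel (this.symm.trans (mul_one x).symm)
        have : z = 1 := by
          have h1 := pow_gcd_eq_one.2 ⟨hz4, hzm⟩
          have hco : Nat.Coprime 4 m := by
            rw [show 4 = 2 ^ 2 from rfl]
            exact Nat.Coprime.pow_left 2 (Nat.coprime_two_left.2 hm)
          rw [hco.gcd_eq_one, pow_one] at h1
          exact h1
        rw [hxz, this, mul_one]
    ext x
    obtain ⟨k, hk⟩ := hX x
    exact hx k x (by rw [pow_add, pow_mul, hk, one_pow])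
  intro φ hφ
  obtain ⟨k, m, hm, hkm⟩ := Nat.exists_eq_two_pow_mul_odd (orderOf_pos φ).ne'
  refine ⟨k, key _ (fun g hg => ?_) m hm (by rw [← pow_mul, ← hkm, pow_orderOf_eq_one])⟩
  generalize 2 ^ k = i
  induction i with
  | zero => simp
  | succ i ih => rw [pow_succ', MulAut.mul_apply, ih, hφ g hg]

end Cfsg.Agent.S1898
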