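import Cfsg.Statements.S1899
-- import your own Cfsg.Agent.* helpers here

set_option autoImplicit false
open Cfsg

namespace Cfsg.Agent.S1899

/-- Let a dihedral group of order 2n, n odd and n > 1, act on a finite abelian 2-group A through automorphisms d and t with d^n = 1, t² = 1 and t d t⁻¹ = d⁻¹, and suppose that d fixes only the identity. Then A is the internal direct product of C_A(t) and its image under d. -/
theorem result {A : Type*} [CommGroup A] [Finite A] (hA : IsPGroup 2 A)
    {n : ℕ} (hn : Odd n) (hn1 : 1 < n) (d t : MulAut A) (hd : d ^ n = 1) (ht : t ^ 2 = 1) (hdt : t * d * t⁻¹ = d⁻¹)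
    (hfix : ∀ a : A, d a = a → a = 1) :
    (MulEquiv.toMonoidHom t).eqLocus (MonoidHom.id A) ⊓ ((MulEquiv.toMonoidHom t).eqLocus (MonoidHom.id A)).map d.toMonoidHom = ⊥ ∧
      (MulEquiv.toMonoidHom t).eqLocus (MonoidHom.id A) ⊔ ((MulEquiv.toMonoidHom t).eqLocus (MonoidHom.id A)).map d.toMonoidHom = ⊤ := by
  have ht2 : ∀ a, t (t a) = a := fun a => by
    rw [← MulAut.mul_apply, ← pow_two, ht, MulAut.one_apply]
  have hcomm : ∀ a, t (d a) = d⁻¹ (t a) := fun a => by
    have h : t * d = d⁻¹ * t := by rw [← hdt]; group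
    rw [← MulAut.mul_apply, h, MulAut.mul_apply]
  have hodd : ∀ a, d (d a) = a → a = 1 := fun a ha => by
    obtain ⟨m, hm⟩ := hn
    refine hfix a ?_
    have h2 : ∀ i : ℕ, (d ^ (2 * i)) a = a := by
      intro i
      induction i with
      | zero => simp
      | succ i ih =>
        rw [show 2 * (i + 1) = 2 * i + 1 + 1 from by ring, pow_succ', MulAut.mul_apply, pow_succ',
          MulAut.mul_apply, ih, ha]
    have h3 : (d ^ n) (d a) = d a := by rw [hd, MulAut.one_apply]
    rw [← MulAut.mul_apply, ← pow_succ, hm, show 2 * m + 1 + 1 = 2 * (m + 1) from by ring, h2] at h3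
    exact h3.symm
  set C := (MulEquiv.toMonoidHom t).eqLocus (MonoidHom.id A) with hCdef
  have hC : ∀ a, a ∈ C ↔ t a = a := fun a => Iff.rfl
  have hC' : ∀ c ∈ C, d c ∈ C → c = 1 := fun c hc hdc => by
    rw [hC] at hc hdc
    rw [hcomm, hc] at hdc
    refine hodd c ?_
    conv_lhs => rw [← hdc]
    exact MulEquiv.apply_symm_apply d c
  let I : Subgroup A :=
    { carrier := {a | t a = a⁻¹}
      one_mem' := by simp
      mul_mem' := fun {a b} ha hb => by simp only [Set.mem_setOf_eq] at *; rw [map_mul, ha, hb, mul_inv]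
      inv_mem' := fun {a} ha => by simp only [Set.mem_setOf_eq] at *; rw [map_inv, ha] }
  have hI : ∀ a, a ∈ I ↔ t a = a⁻¹ := fun a => Iff.rfl
  have hI' : ∀ c ∈ I, d c ∈ I → c = 1 := fun c hc hdc => by
    rw [hI] at hc hdc
    rw [hcomm, hc, map_inv, inv_inj] at hdc
    refine hodd c ?_
    conv_lhs => rw [← hdc]
    exact MulEquiv.apply_symm_apply d c
  have hinj : ∀ S : Subgroup A, (∀ c ∈ S, d c ∈ S → c = 1) →
      Function.Injective (fun q : S × S => (q.1 : A) * d (q.2 : A)) := by
    intro S hS q r hqr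
    simp only at hqr
    have h1 : (q.1 : A) * (r.1 : A)⁻¹ = d ((r.2 : A) * (q.2 : A)⁻¹) := by
      rw [map_mul, map_inv, mul_inv_eq_iff_eq_mul, mul_right_comm, eq_mul_inv_iff_mul_eq, hqr,
        mul_comm]
    have h2 := hS _ (mul_mem r.2.2 (inv_mem q.2.2)) (h1 ▸ mul_mem q.1.2 (inv_mem r.1.2))
    rw [h2, map_one] at h1
    exact Prod.ext (Subtype.ext (mul_inv_eq_one.1 h1)) (Subtype.ext (mul_inv_eq_one.1 h2).symm)
  have hcC := Nat.card_le_card_of_injective _ (hinj C hC')
  have hcI := Nat.card_le_card_of_injective _ (hinj I hI')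
  rw [Nat.card_prod] at hcC hcI
  have hA' : Nat.card A ≤ Nat.card C * Nat.card I := by
    let ψ : A →* A := MonoidHom.id A * t.toMonoidHom
    have h := Subgroup.card_mul_index ψ.ker
    rw [Subgroup.index_ker] at h
    have hk : ψ.ker ≤ I := fun a (ha : a * t a = 1) => (hI a).2 (eq_inv_of_mul_eq_one_right ha)
    have hr : ψ.range ≤ C := by
      rintro _ ⟨a, rfl⟩
      show t (a * t a) = a * t a
      rw [map_mul, ht2, mul_comm]
    rw [← h, mul_comm (Nat.card C)]
    exact Nat.mul_le_mul (Subgroup.card_le_of_le hk) (Subgroup.card_le_of_le hr)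
  have hpos : 0 < Nat.card A := Nat.card_pos
  have hge : Nat.card A ≤ Nat.card C * Nat.card C := by
    refine Nat.le_of_mul_le_mul_right ?_ hpos
    calc Nat.card A * Nat.card A ≤ (Nat.card C * Nat.card I) * (Nat.card C * Nat.card I) :=
          Nat.mul_le_mul hA' hA'
      _ = Nat.card C * Nat.card C * (Nat.card I * Nat.card I) := by ring
      _ ≤ Nat.card C * Nat.card C * Nat.card A := Nat.mul_le_mul_left _ hcI
  refine ⟨?_, ?_⟩
  · refine eq_bot_iff.2 ?_
    rintro a ⟨ha, c, hc, rfl⟩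
    rw [Subgroup.mem_bot, hC' c hc ha, map_one]
  · have hb := (Nat.bijective_iff_injective_and_card _).2
      ⟨hinj C hC', le_antisymm (by rwa [Nat.card_prod]) (by rwa [Nat.card_prod])⟩
    refine eq_top_iff.2 fun a _ => ?_
    obtain ⟨q, rfl⟩ := hb.2 a
    exact Subgroup.mul_mem_sup q.1.2 ⟨q.2, q.2.2, rfl⟩

end Cfsg.Agent.S1899
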