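import Cfsg.Statements.S1900
import Cfsg.Agent.Lib.Balance.ElemAb
import Cfsg.Agent.Lib.CoprimeAction.Abelian
-- import your own Cfsg.Agent.* helpers here

set_option autoImplicit false
open Cfsg

namespace Cfsg.Agent.S1900

/-- Let S = PQ be a finite group with P a normal Sylow p-subgroup and Q elementary abelian of order q², q a prime different from p. If exactly two subgroups X₁, X₂ of order q in Q have a nontrivial centralizer in P, then P is the internal direct product of C_P(X₁) and C_P(X₂): they commute elementwise, meet trivially and generate P. -/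
theorem result {S : Type*} [Group S] [Finite S] {p q : ℕ} [Fact p.Prime] [Fact q.Prime] (hpq : p ≠ q)
    (P : Sylow p S) [(P : Subgroup S).Normal] (Q : Subgroup S) (hQ : Cfsg.IsElementaryAbelian q Q) (hQc : Nat.card Q = q ^ 2)
    (hS : (P : Subgroup S) ⊔ Q = ⊤)
    (X₁ X₂ : Subgroup S) (h₁ : X₁ ≤ Q) (h₂ : X₂ ≤ Q) (h₁₂ : X₁ ≠ X₂) (hc₁ : Nat.card X₁ = q) (hc₂ : Nat.card X₂ = q)
    (hf₁ : (P : Subgroup S) ⊓ Subgroup.centralizer (X₁ : Set S) ≠ ⊥)
    (hf₂ : (P : Subgroup S) ⊓ Subgroup.centralizer (X₂ : Set S) ≠ ⊥)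
    (honly : ∀ X : Subgroup S, X ≤ Q → Nat.card X = q →
      (P : Subgroup S) ⊓ Subgroup.centralizer (X : Set S) ≠ ⊥ → X = X₁ ∨ X = X₂) :
    ⁅(P : Subgroup S) ⊓ Subgroup.centralizer (X₁ : Set S), (P : Subgroup S) ⊓ Subgroup.centralizer (X₂ : Set S)⁆ = ⊥ ∧
      ((P : Subgroup S) ⊓ Subgroup.centralizer (X₁ : Set S)) ⊓ ((P : Subgroup S) ⊓ Subgroup.centralizer (X₂ : Set S)) = ⊥ ∧
      ((P : Subgroup S) ⊓ Subgroup.centralizer (X₁ : Set S)) ⊔ ((P : Subgroup S) ⊓ Subgroup.centralizer (X₂ : Set S)) = P := by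
  open scoped commutatorElement in
  classical
  have hp : p.Prime := Fact.out
  have hq : q.Prime := Fact.out
  haveI := hQ.1
  have hQc' : ∀ a ∈ Q, ∀ b ∈ Q, a * b = b * a := fun a ha b hb =>
    congrArg Subtype.val (hQ.1.is_comm.comm ⟨a, ha⟩ ⟨b, hb⟩)
  have hcyc : ¬ IsCyclic Q :=
    CfsgLib.Balance.elemAb_not_isCyclic hQ (by rw [hQc])
  have hqP : ¬ q ∣ Nat.card (P : Subgroup S) := by
    obtain ⟨e, he⟩ := P.2.exists_card_eq
    rw [he]
    exact fun h => hpq ((Nat.prime_dvd_prime_iff_eq hq hp).1 (hq.dvd_of_dvd_pow h)).symm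
  have hcop : ∀ N : Subgroup S, N ≤ (P : Subgroup S) → (Nat.card Q).Coprime (Nat.card N) := fun N hN =>
    (CfsgLib.Balance.elemAb_coprime hQ hqP).coprime_dvd_right (Subgroup.card_dvd_of_le hN)
  have hgen : ∀ X : Subgroup S, X ≤ Q → Nat.card X = q → ∀ x ∈ X, x ≠ 1 → Subgroup.zpowers x = X := by
    intro X hX hc x hx hx1
    refine Subgroup.eq_of_le_of_card_ge (Subgroup.zpowers_le.2 hx) ?_
    rw [hc, Nat.card_zpowers, orderOf_eq_prime (hQ.2 x (hX hx)) hx1]
  obtain ⟨x₁, hx₁, hx₁1⟩ : ∃ x ∈ X₁, x ≠ 1 := by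
    by_contra h
    push Not at h
    rw [(Subgroup.eq_bot_iff_forall X₁).2 h, Subgroup.card_bot] at hc₁
    exact hq.ne_one hc₁.symm
  obtain ⟨x₂, hx₂, hx₂1⟩ : ∃ x ∈ X₂, x ≠ 1 := by
    by_contra h
    push Not at h
    rw [(Subgroup.eq_bot_iff_forall X₂).2 h, Subgroup.card_bot] at hc₂
    exact hq.ne_one hc₂.symm
  have hg₁ := hgen X₁ h₁ hc₁ x₁ hx₁ hx₁1
  have hg₂ := hgen X₂ h₂ hc₂ x₂ hx₂ hx₂1
  set C₁ := (P : Subgroup S) ⊓ Subgroup.centralizer (X₁ : Set S) with hC₁
  set C₂ := (P : Subgroup S) ⊓ Subgroup.centralizer (X₂ : Set S) with hC₂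
  -- trivial intersection
  have hint : C₁ ⊓ C₂ = ⊥ := by
    rw [eq_bot_iff]
    rintro z ⟨⟨hzP, hz1⟩, -, hz2⟩
    by_contra hz
    have hxx : x₁ * x₂ ≠ 1 := by
      intro h
      refine h₁₂ (Subgroup.eq_of_le_of_card_ge ?_ (by rw [hc₁, hc₂]))
      rw [← hg₁, Subgroup.zpowers_le, eq_inv_of_mul_eq_one_left h]
      exact inv_mem hx₂
    have hmem : x₁ * x₂ ∈ Q := mul_mem (h₁ hx₁) (h₂ hx₂)
    have hcX : Nat.card (Subgroup.zpowers (x₁ * x₂)) = q := by
      rw [Nat.card_zpowers, orderOf_eq_prime (hQ.2 _ hmem) hxx]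
    have hzc : z ∈ (P : Subgroup S) ⊓ Subgroup.centralizer (Subgroup.zpowers (x₁ * x₂) : Set S) := by
      refine ⟨hzP, ?_⟩
      rintro _ ⟨i, rfl⟩
      have hcm : Commute (x₁ * x₂) z :=
        (show Commute x₁ z from hz1 x₁ hx₁).mul_left (show Commute x₂ z from hz2 x₂ hx₂)
      exact hcm.zpow_left i
    rcases honly _ (Subgroup.zpowers_le.2 hmem) hcX
      (fun h => hz (by rwa [h] at hzc)) with h | h
    · have : x₁ * x₂ ∈ X₁ := h ▸ Subgroup.mem_zpowers _
      have := (mul_mem_cancel_left hx₁).1 this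
      exact h₁₂ (Subgroup.eq_of_le_of_card_ge
        (hg₂ ▸ Subgroup.zpowers_le.2 this : X₂ ≤ X₁) (by rw [hc₁, hc₂])).symm
    · have : x₁ * x₂ ∈ X₂ := h ▸ Subgroup.mem_zpowers _
      have := (mul_mem_cancel_right hx₂).1 this
      exact h₁₂ (Subgroup.eq_of_le_of_card_ge
        (hg₁ ▸ Subgroup.zpowers_le.2 this : X₁ ≤ X₂) (by rw [hc₁, hc₂]))
  -- generation, for every `Q`-invariant subgroup of `P`
  have hsup : ∀ N : Subgroup S, N ≤ (P : Subgroup S) → Q ≤ Subgroup.normalizer (N : Set S) →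
      N ≤ (N ⊓ C₁) ⊔ (N ⊓ C₂) := by
    intro N hN hQN
    refine CfsgLib.CoprimeAction.le_of_centralizers hcyc hQN (hcop N hN) fun a ha ha1 => ?_
    by_cases hb : (P : Subgroup S) ⊓ Subgroup.centralizer (Subgroup.zpowers a : Set S) = ⊥
    · refine le_trans ?_ bot_le
      rw [← hb]
      refine inf_le_inf hN ?_
      intro z hz
      rintro _ ⟨i, rfl⟩
      exact (show Commute a z from hz a rfl).zpow_left i
    have hza : Nat.card (Subgroup.zpowers a) = q := by
      rw [Nat.card_zpowers, orderOf_eq_prime (hQ.2 a ha) ha1]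
    have hz' : ∀ X : Subgroup S, Subgroup.zpowers a = X →
        N ⊓ Subgroup.centralizer {a} ≤ N ⊓ ((P : Subgroup S) ⊓ Subgroup.centralizer (X : Set S)) := by
      rintro X rfl z ⟨hz1, hz2⟩
      refine ⟨hz1, hN hz1, ?_⟩
      rintro _ ⟨i, rfl⟩
      exact (show Commute a z from hz2 a rfl).zpow_left i
    rcases honly _ (Subgroup.zpowers_le.2 ha) hza hb with h | h
    · exact (hz' _ h).trans le_sup_left
    · exact (hz' _ h).trans le_sup_right
  have hQP : Q ≤ Subgroup.normalizer ((P : Subgroup S) : Set S) := by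
    rw [Subgroup.normalizer_eq_top]; exact le_top
  refine ⟨?_, hint, le_antisymm (sup_le inf_le_left inf_le_left) ((hsup _ le_rfl hQP).trans
    (sup_le_sup inf_le_right inf_le_right))⟩
  -- `Q` normalizes each fixed point group
  have hQC : ∀ X : Subgroup S, X ≤ Q → ∀ a ∈ Q, ∀ c ∈ (P : Subgroup S) ⊓ Subgroup.centralizer (X : Set S),
      a * c * a⁻¹ ∈ (P : Subgroup S) ⊓ Subgroup.centralizer (X : Set S) := by
    rintro X hX a ha c ⟨hcP, hcX⟩
    refine ⟨(Subgroup.Normal.conj_mem inferInstance c hcP a), fun x hx => ?_⟩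
    have h1 : x * a = a * x := hQc' x (hX hx) a ha
    have h2 : x * c = c * x := hcX x hx
    exact ((show Commute x a from h1).mul_right (show Commute x c from h2)).mul_right
      (show Commute x a from h1).inv_right
  -- descent along the lower central series
  have hL : ∀ k, (((P : Subgroup S)).lowerCentralSeries k).Normal := by
    intro k
    induction k with
    | zero => simpa using (inferInstance : (P : Subgroup S).Normal)
    | succ k ih => rw [Subgroup.lowerCentralSeries_succ]; infer_instance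
  have hdesc : ∀ k, ⁅C₁, C₂⁆ ≤ ((P : Subgroup S)).lowerCentralSeries k := by
    intro k
    induction k with
    | zero =>
      exact (Subgroup.commutator_mono inf_le_left inf_le_left).trans (Subgroup.commutator_le_self _)
    | succ k ih =>
      set L := ((P : Subgroup S)).lowerCentralSeries k with hLdef
      set L' := ((P : Subgroup S)).lowerCentralSeries (k + 1) with hL'def
      haveI := hL (k + 1)
      haveI := hL k
      have hLP : L ≤ (P : Subgroup S) := Subgroup.lowerCentralSeries_antitone _ (Nat.zero_le k)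
      have hL'P : L' ≤ (P : Subgroup S) := Subgroup.lowerCentralSeries_antitone _ (Nat.zero_le _)
      set f := QuotientGroup.mk' L'
      have hf1 : ∀ z, f z = 1 ↔ z ∈ L' := fun z => QuotientGroup.eq_one_iff z
      have hcen : ∀ a ∈ L, ∀ b ∈ (P : Subgroup S), f a * f b = f b * f a := by
        intro a ha b hb
        rw [← commutatorElement_eq_one_iff_mul_comm, ← map_commutatorElement, hf1]
        exact Subgroup.commutator_mem_commutator ha hb
      have hQn : ∀ M : Subgroup S, M.Normal → Q ≤ Subgroup.normalizer (M : Set S) := fun M hM => by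
        rw [Subgroup.normalizer_eq_top_iff.2 hM]; exact le_top
      have key : ∀ (XA XB : Subgroup S) (x : S), XA ≤ Q → XB ≤ Q → x ∈ XA →
          Subgroup.zpowers x = XA →
          ((P : Subgroup S) ⊓ Subgroup.centralizer (XA : Set S)) ⊓
            ((P : Subgroup S) ⊓ Subgroup.centralizer (XB : Set S)) = ⊥ →
          L ≤ (L ⊓ ((P : Subgroup S) ⊓ Subgroup.centralizer (XA : Set S))) ⊔
            (L ⊓ ((P : Subgroup S) ⊓ Subgroup.centralizer (XB : Set S))) →
          ⁅(P : Subgroup S) ⊓ Subgroup.centralizer (XA : Set S),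
            (P : Subgroup S) ⊓ Subgroup.centralizer (XB : Set S)⁆ ≤ L →
          ∀ c ∈ (P : Subgroup S) ⊓ Subgroup.centralizer (XA : Set S),
            ∀ e ∈ (P : Subgroup S) ⊓ Subgroup.centralizer (XB : Set S),
              f ⁅c, e⁆ ∈ (L ⊓ ((P : Subgroup S) ⊓ Subgroup.centralizer (XB : Set S))).map f := by
        intro XA XB x hA hB hx hgx hAB hgenL hle c hc e he
        set A := (P : Subgroup S) ⊓ Subgroup.centralizer (XA : Set S) with hAdef
        set B := (P : Subgroup S) ⊓ Subgroup.centralizer (XB : Set S) with hBdef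
        have hxc : ∀ a ∈ A, x * a * x⁻¹ = a := fun a ha => by
          rw [mul_inv_eq_iff_eq_mul]; exact ha.2 x hx
        have hfe : ∀ u ∈ L, ∀ w ∈ (P : Subgroup S), f (w * u * w⁻¹) = f u := by
          intro u hu w hw
          rw [map_mul, map_mul, map_inv, ← hcen u hu w hw, mul_inv_cancel_right]
        have hxP : ∀ u ∈ L, x * u * x⁻¹ * u⁻¹ ∈ L := fun u hu =>
          mul_mem (Subgroup.Normal.conj_mem inferInstance u hu x) (inv_mem hu)
        -- `x` moves `L` into the part centralized by `XB`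
        let M : Subgroup S :=
          { carrier := {u | u ∈ L ∧ f (x * u * x⁻¹ * u⁻¹) ∈ (L ⊓ B).map f}
            one_mem' := ⟨one_mem _, by simp⟩
            mul_mem' := fun {u v} hu hv => ⟨mul_mem hu.1 hv.1, by
              rw [show x * (u * v) * x⁻¹ * (u * v)⁻¹ =
                (x * u * x⁻¹ * u⁻¹) * (u * (x * v * x⁻¹ * v⁻¹) * u⁻¹) by group, map_mul,
                hfe _ (hxP v hv.1) u (hLP hu.1)]
              exact mul_mem hu.2 hv.2⟩
            inv_mem' := fun {u} hu => ⟨inv_mem hu.1, by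
              rw [show x * u⁻¹ * x⁻¹ * u⁻¹⁻¹ = u⁻¹ * (x * u * x⁻¹ * u⁻¹)⁻¹ * u⁻¹⁻¹ by group,
                hfe _ (inv_mem (hxP u hu.1)) u⁻¹ (hLP (inv_mem hu.1)), map_inv]
              exact inv_mem hu.2⟩ }
        have hLM : L ≤ M := by
          refine hgenL.trans (sup_le (fun u hu => ⟨hu.1, ?_⟩) fun u hu => ⟨hu.1, ?_⟩)
          · rw [hxc u hu.2, mul_inv_cancel, map_one]; exact one_mem _
          · exact Subgroup.mem_map_of_mem f (mul_mem
              ⟨Subgroup.Normal.conj_mem inferInstance u hu.1 x, hQC XB hB x (hA hx) u hu.2⟩ (inv_mem hu))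
        -- every element of `B` is a commutator with `x`
        have hBinv : ∀ b ∈ B, b⁻¹ * (x * b * x⁻¹) ∈ B := fun b hb =>
          mul_mem (inv_mem hb) (hQC XB hB x (hA hx) b hb)
        have hinj : Function.Injective (fun b : B => (⟨_, hBinv b b.2⟩ : B)) := by
          intro b d hbd
          have h : (b : S)⁻¹ * (x * b * x⁻¹) = (d : S)⁻¹ * (x * d * x⁻¹) := congrArg Subtype.val hbd
          have hfix : x * ((d : S) * (b : S)⁻¹) = (d : S) * (b : S)⁻¹ * x := by
            calc x * ((d : S) * (b : S)⁻¹) = (d : S) * ((d : S)⁻¹ * (x * d * x⁻¹)) * (x * (b : S)⁻¹) := by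
                  group
              _ = (d : S) * ((b : S)⁻¹ * (x * b * x⁻¹)) * (x * (b : S)⁻¹) := by rw [h]
              _ = (d : S) * (b : S)⁻¹ * x := by group
          have hmemA : (d : S) * (b : S)⁻¹ ∈ A := by
            refine ⟨(P : Subgroup S).mul_mem d.2.1 ((P : Subgroup S).inv_mem b.2.1), ?_⟩
            rw [← hgx]
            rintro _ ⟨i, rfl⟩
            exact (show Commute x _ from hfix).zpow_left i
          have : (d : S) * (b : S)⁻¹ ∈ A ⊓ B := ⟨hmemA, B.mul_mem d.2 (B.inv_mem b.2)⟩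
          rw [hAB, Subgroup.mem_bot, mul_inv_eq_one] at this
          exact (Subtype.ext this).symm
        obtain ⟨b, hb⟩ := (Finite.injective_iff_surjective.1 hinj) ⟨e, he⟩
        have hbe : (b : S)⁻¹ * (x * b * x⁻¹) = e := congrArg Subtype.val hb
        have hu : ⁅c, (b : S)⁆ ∈ L := hle (Subgroup.commutator_mem_commutator hc b.2)
        have hid : ⁅c, e⁆ = (b : S)⁻¹ * (⁅c, (b : S)⁆⁻¹ * (x * ⁅c, (b : S)⁆ * x⁻¹)) * (b : S) := by
          have hxi : x * c⁻¹ * x⁻¹ = c⁻¹ := hxc _ (inv_mem hc)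
          have hxbc : x * ⁅c, (b : S)⁆ * x⁻¹ = ⁅c, x * (b : S) * x⁻¹⁆ := by
            rw [commutatorElement_def, commutatorElement_def]
            calc x * (c * b * c⁻¹ * (b : S)⁻¹) * x⁻¹ =
                  (x * c * x⁻¹) * (x * b * x⁻¹) * (x * c⁻¹ * x⁻¹) * (x * b * x⁻¹)⁻¹ := by group
              _ = c * (x * b * x⁻¹) * c⁻¹ * (x * b * x⁻¹)⁻¹ := by rw [hxc c hc, hxi]
          rw [hxbc, ← hbe]
          simp only [commutatorElement_def]
          group
        have hw : ⁅c, (b : S)⁆⁻¹ * (x * ⁅c, (b : S)⁆ * x⁻¹) ∈ L :=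
          mul_mem (inv_mem hu) (Subgroup.Normal.conj_mem inferInstance _ hu x)
        have h1 : f ⁅c, e⁆ = f (x * ⁅c, (b : S)⁆ * x⁻¹ * ⁅c, (b : S)⁆⁻¹) := by
          have := hfe _ hw ((b : S)⁻¹) ((P : Subgroup S).inv_mem b.2.1)
          rw [inv_inv] at this
          rw [hid, this]
          have h2 := hfe _ hw ⁅c, (b : S)⁆ (hLP hu)
          rw [← h2]
          congr 1
          group
        rw [h1]
        exact (hLM hu).2
      have hQL : Q ≤ Subgroup.normalizer (L : Set S) := hQn L inferInstance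
      refine Subgroup.commutator_le.2 fun c hc e he => ?_
      rw [← hf1]
      obtain ⟨b, hb, hbe⟩ := key X₁ X₂ x₁ h₁ h₂ hx₁ hg₁ hint (hsup L hLP hQL) ih c hc e he
      obtain ⟨a, ha, hae⟩ := key X₂ X₁ x₂ h₂ h₁ hx₂ hg₂ (by rw [inf_comm]; exact hint)
        (by rw [sup_comm]; exact hsup L hLP hQL) (by rw [Subgroup.commutator_comm]; exact ih) e he c hc
      have ha' : f a⁻¹ = f b := by
        rw [map_inv, hae, hbe, ← map_inv, commutatorElement_inv]
      set R := X₁ ⊔ X₂ with hR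
      have hRQ : R ≤ Q := sup_le h₁ h₂
      have hRfix : R ≤ (Subgroup.centralizer ({f a⁻¹} : Set (S ⧸ L'))).comap f := by
        refine sup_le (fun x hx => ?_) (fun x hx => ?_)
        · rw [Subgroup.mem_comap, Subgroup.mem_centralizer_singleton_iff, ← map_mul, ← map_mul]
          exact congrArg f ((C₁.inv_mem ha.2).2 x hx)
        · rw [Subgroup.mem_comap, Subgroup.mem_centralizer_singleton_iff, ha', ← map_mul, ← map_mul]
          exact congrArg f (hb.2.2 x hx)
      haveI : Group.IsSolvable Q := CfsgLib.CoprimeAction.isSolvable_of_isMulCommutative Q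
      obtain ⟨z, ⟨hzP, hzc⟩, hzN⟩ := CfsgLib.CoprimeAction.exists_centralizer_mem_coset_of_le
        (A := R) (K := (P : Subgroup S)) (N := L') (hRQ.trans (hQn L' inferInstance)) hL'P
        ((hcop L' hL'P).coprime_dvd_left (Subgroup.card_dvd_of_le hRQ))
        (Or.inl (CfsgLib.CoprimeAction.isSolvable_of_le hRQ)) (k := a⁻¹) (inv_mem (hLP ha.1))
        (fun x hx => by
          have h := Subgroup.mem_centralizer_singleton_iff.1 (Subgroup.mem_comap.1 (hRfix hx))
          rw [← hf1, map_mul, map_mul, map_mul, map_inv f x, map_inv f a⁻¹, h]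
          group)
      have hz : z ∈ C₁ ⊓ C₂ :=
        ⟨⟨hzP, fun x hx => hzc x (le_sup_left (b := X₂) hx)⟩,
          ⟨hzP, fun x hx => hzc x (le_sup_right (a := X₁) hx)⟩⟩
      rw [hint, Subgroup.mem_bot] at hz
      rw [hz, mul_one, inv_inv, ← hf1] at hzN
      rw [← hbe, ← ha', map_inv, hzN, inv_one]
  obtain ⟨n, hn⟩ := (Subgroup.isNilpotent_iff_lowerCentralSeries (P : Subgroup S)).1 P.2.isNilpotent
  exact le_bot_iff.1 (hn ▸ hdesc n)

end Cfsg.Agent.S1900
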