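import Cfsg.Statements.S1901
import Cfsg.Agent.Lib.PSolvableInv.Basic
-- import your own Cfsg.Agent.* helpers here

set_option autoImplicit false
open Cfsg

namespace Cfsg.Agent.S1901

/-- Let G be a finite p-solvable group and Q a subgroup of order prime to p such that p divides the index of C_G(Q) in N_G(Q). Then Q normalizes no Sylow p-subgroup of G. -/
theorem result {G : Type*} [Group G] [Finite G] {p : ℕ} [Fact p.Prime]
    (hG : Cfsg.IsPSolvable p G) (Q : Subgroup G) (hQ : ¬ p ∣ Nat.card Q)
    (hA : p ∣ (Subgroup.centralizer (Q : Set G)).relIndex (Subgroup.normalizer (Q : Set G)))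
    (P : Sylow p G) : ¬ Q ≤ Subgroup.normalizer ((P : Subgroup G) : Set G) := by
  intro hQP
  have hp : p.Prime := Fact.out
  set N := Subgroup.normalizer (Q : Set G)
  set C := Subgroup.centralizer (Q : Set G)
  haveI : (C.subgroupOf N).Normal := Subgroup.normalizerMonoidHom_ker Q ▸ MonoidHom.normal_ker _
  obtain ⟨c, hc⟩ := exists_prime_orderOf_dvd_card' (G := ↥N ⧸ C.subgroupOf N) p
    (by rw [← Subgroup.index_eq_card]; exact hA)
  obtain ⟨y, rfl⟩ := QuotientGroup.mk'_surjective (C.subgroupOf N) c
  obtain ⟨j, m, hm, hj⟩ := CfsgLib.LBalance.exists_pElement_mul (p := p) y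
  have h1 := CfsgLib.PSolvableInv.mem_centralizer_of_invariant_sylow hG hQ P hQP
    (x := ((y ^ m : N) : G)) (k := j) (by simpa using congrArg Subtype.val hj) (y ^ m).2
  have h2 : (QuotientGroup.mk' (C.subgroupOf N) y) ^ m = 1 := by
    rw [← map_pow]
    exact (QuotientGroup.eq_one_iff _).2 (Subgroup.mem_subgroupOf.2 h1)
  have := orderOf_dvd_of_pow_eq_one h2
  rw [hc] at this
  exact hp.coprime_iff_not_dvd.1 hm.symm this

end Cfsg.Agent.S1901
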