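import Cfsg.Statements.S1902
import Cfsg.Agent.Lib.Balance.InvariantPPrimeOrderP
import Cfsg.Agent.Lib.PSolvable.HallHigman
-- import your own Cfsg.Agent.* helpers here

set_option autoImplicit false
open Cfsg

namespace Cfsg.Agent.S1902

/-- Let p be an odd prime, G a finite p-solvable group, and B an elementary abelian subgroup of order p² such that B is the subgroup generated by the elements of order p of some Sylow p-subgroup of C_G(b₀), for some nontrivial b₀ ∈ B. Then every B-invariant subgroup of G of order prime to p lies in O_{p'}(G). -/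
theorem result {G : Type*} [Group G] [Finite G] {p : ℕ} [Fact p.Prime] (hp : p ≠ 2)
    (hG : Cfsg.IsPSolvable p G) (B : Subgroup G) (hB : Cfsg.IsElementaryAbelian p B) (hBc : Nat.card B = p ^ 2)
    (b₀ : G) (hb₀ : b₀ ∈ B) (hb₁ : b₀ ≠ 1) (P : Sylow p ↥(Subgroup.centralizer ({b₀} : Set G)))
    (hBP : B = Subgroup.closure {x : G | x ∈ ((P : Subgroup ↥(Subgroup.centralizer ({b₀} : Set G))).map
      (Subgroup.centralizer ({b₀} : Set G)).subtype : Subgroup G) ∧ orderOf x = p})
    (Q : Subgroup G) (hQ : ¬ p ∣ Nat.card Q) (hinv : ∀ b ∈ B, ∀ x ∈ Q, b * x * b⁻¹ ∈ Q) :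
    Q ≤ Cfsg.pPrimeCore p G := by
  have hp' : p.Prime := Fact.out
  let C := Subgroup.centralizer ({b₀} : Set G)
  let P' := (P : Subgroup ↥C).map C.subtype
  have hPB : ∀ x ∈ P', orderOf x = p → x ∈ B := fun x hx hxp => by
    rw [hBP]
    exact Subgroup.subset_closure ⟨hx, hxp⟩
  haveI : IsMulCommutative B := hB.1
  have hBpow : ∀ x ∈ B, x ^ p = 1 := hB.2
  refine CfsgLib.Balance.le_pPrimeCore_of_invariant_order_p hp
    (CfsgLib.PSolvable.isPConstrained_of_isPSolvable hG) (A := B)
    (IsPGroup.of_card (n := 2) hBc) ?_ (hp'.coprime_iff_not_dvd.2 hQ).symm ?_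
  · intro x hx hxp
    have hxC : x ∈ C := Subgroup.mem_centralizer_singleton_iff.2
      (Subgroup.mem_centralizer_iff.1 hx b₀ hb₀).symm
    have hBC : B ≤ C := fun y hy => Subgroup.mem_centralizer_singleton_iff.2
      (congrArg Subtype.val ((isMulCommutative_iff.1 hB.1) ⟨y, hy⟩ ⟨b₀, hb₀⟩))
    have hS : IsPGroup p ↥((B ⊔ Subgroup.zpowers x).subgroupOf C) := by
      have h1 : IsPGroup p ↥(B ⊔ Subgroup.zpowers x) := by
        refine IsPGroup.to_sup_of_normal_left' (IsPGroup.of_card (n := 2) hBc)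
          (IsPGroup.of_card (n := 1) (by rw [Nat.card_zpowers, hxp, pow_one])) ?_
        refine Subgroup.zpowers_le.2 (Subgroup.centralizer_le_normalizer _ hx)
      exact h1.comap_of_injective _ C.subtype_injective
    obtain ⟨S, hS⟩ := hS.exists_le_sylow
    obtain ⟨g, rfl⟩ := MulAction.exists_smul_eq (↥C) P S
    set φ : G →* G := (MulAut.conj (g : G)).toMonoidHom
    have hmap : ∀ y : G, y ∈ B ⊔ Subgroup.zpowers x → orderOf y = p → y ∈ B.map φ := by
      intro y hy hyp
      have hyC : y ∈ C := (sup_le hBC (Subgroup.zpowers_le.2 hxC)) hy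
      have h2 := hS (show (⟨y, hyC⟩ : C) ∈ (B ⊔ Subgroup.zpowers x).subgroupOf C from hy)
      rw [Sylow.smul_def, Sylow.pointwise_smul_def] at h2
      obtain ⟨w, hw, hwy⟩ := h2
      have hwy' : φ w = y := congrArg Subtype.val hwy
      refine ⟨w, hPB w ⟨w, hw, rfl⟩ ?_, hwy'⟩
      rw [← orderOf_injective φ (MulAut.conj (g : G)).injective w, hwy', hyp]
    have hBeq : B ≤ B.map φ := by
      intro y hy
      rcases eq_or_ne y 1 with rfl | h
      · exact one_mem _
      · exact hmap y (Subgroup.mem_sup_left hy) (orderOf_eq_prime (hBpow y hy) h)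
    have heq : B = B.map φ := Subgroup.eq_of_le_of_card_ge hBeq
      (Subgroup.card_map_of_injective (MulAut.conj (g : G)).injective).le
    rw [heq]
    exact hmap x (Subgroup.mem_sup_right (Subgroup.mem_zpowers x)) hxp
  · intro b hb
    rw [Subgroup.mem_normalizer_iff]
    intro y
    refine ⟨hinv b hb y, fun hy => ?_⟩
    have := hinv b⁻¹ (inv_mem hb) _ hy
    simpa [mul_assoc] using this

end Cfsg.Agent.S1902
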