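import Cfsg.Statements.S1903
import Cfsg.Agent.Lib.ClassTech.Order320
import Cfsg.Agent.Lib.InvChar.UnitaryFour
-- import your own Cfsg.Agent.* helpers here

set_option autoImplicit false
open Cfsg
open scoped commutatorElement

namespace Cfsg.Agent.S1903

open CfsgLib.InvChar.UnitaryFour CfsgLib.ClassTech.Order320 Matrix

variable {F : Type*} [Field F] [Fintype F]

/-- A parameter as an element of `SU₃(4)`. -/
def emb (hF : Fintype.card F = 16) (p : Param F) : Cfsg.SU 3 F 4 :=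
  ⟨slMat hF p.1, slMat_mem hF p.2⟩

theorem emb_mat (hF : Fintype.card F = 16) (p : Param F) :
    ((emb hF p : Matrix.SpecialLinearGroup (Fin 3) F) : Matrix (Fin 3) (Fin 3) F) = mat p.1 := rfl

theorem su_ext (g h : Cfsg.SU 3 F 4)
    (e : ((g : Matrix.SpecialLinearGroup (Fin 3) F) : Matrix (Fin 3) (Fin 3) F) =
      ((h : Matrix.SpecialLinearGroup (Fin 3) F) : Matrix (Fin 3) (Fin 3) F)) : g = h :=
  Subtype.ext (Subtype.ext e)

theorem emb_mul (hF : Fintype.card F = 16) (p q : Param F) :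
    emb hF p * emb hF q = emb hF ⟨op p.1 q.1, op_mem hF p.2 q.2⟩ :=
  su_ext _ _ (mat_op hF p.1 q.1)

theorem emb_congr (hF : Fintype.card F = 16) (p q : Param F) (h : p.1 = q.1) : emb hF p = emb hF q :=
  congrArg (emb hF) (Subtype.ext h)

theorem emb_one (hF : Fintype.card F = 16) (h : ((0 : F), (0 : F)) ∈ Param F) :
    emb hF ⟨(0, 0), h⟩ = 1 :=
  su_ext _ _ (by
    show mat ((0 : F), (0 : F)) = 1
    ext i j; fin_cases i <;> fin_cases j <;> simp [mat])

theorem emb_ne_one (hF : Fintype.card F = 16) (p : Param F) (h : p.1.2 ≠ 0) : emb hF p ≠ 1 := by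
  intro e
  have := congrArg (fun g : Cfsg.SU 3 F 4 =>
    ((g : Matrix.SpecialLinearGroup (Fin 3) F) : Matrix (Fin 3) (Fin 3) F) 0 1) e
  simp [emb_mat, mat] at this
  exact h this

/-- Entries of a member of `SU₃(4)` are orthonormal columns. -/
theorem col_eq (g : Cfsg.SU 3 F 4) (i j : Fin 3) :
    let M : Matrix (Fin 3) (Fin 3) F := ((g : Matrix.SpecialLinearGroup (Fin 3) F) : Matrix (Fin 3) (Fin 3) F)
    M 0 i * M 0 j ^ 4 + M 1 i * M 1 j ^ 4 + M 2 i * M 2 j ^ 4 = if i = j then 1 else 0 := by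
  intro M
  have hg := g.2 (Pi.single i 1) (Pi.single j 1)
  simp only [Cfsg.hermForm, Cfsg.slToMat, Fin.sum_univ_three] at hg
  simp only [Matrix.mulVec_single, MulOpposite.op_one, one_smul, Matrix.col_apply] at hg
  refine Eq.trans ?_ (hg.trans ?_)
  · simp [M]
  · fin_cases i <;> fin_cases j <;> simp

/-- A finite group of order 320 whose derived subgroup has order 64 and has centre a Klein four-group is isomorphic to the centralizer of an involution in PSU₃(4). -/
theorem result {G : Type*} [Group G] [Finite G] (hG : Nat.card G = 320) (hD : Nat.card (commutator G) = 64)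
    (hZ : IsKleinFour (Subgroup.center (commutator G)))
    {F : Type*} [Field F] [Fintype F] (hF : Fintype.card F = 16) :
    ∃ t : Cfsg.PSU 3 F 4, orderOf t = 2 ∧ Nonempty (G ≃* Subgroup.centralizer ({t} : Set (Cfsg.PSU 3 F 4))) := by
  classical
  have : Fact (Nat.Prime 5) := ⟨by norm_num⟩
  have h2 : (2 : F) = 0 := two_eq_zero hF
  have a4 := add_pow_four hF
  obtain ⟨ζ, hζ⟩ : ∃ ζ : Fˣ, orderOf ζ = 5 :=
    exists_prime_orderOf_dvd_card' 5 (by rw [Nat.card_units, Nat.card_eq_fintype_card, hF]; norm_num)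
  have hz5 : (ζ : F) ^ 5 = 1 := by
    rw [← Units.val_pow_eq_pow_val, ← hζ, pow_orderOf_eq_one, Units.val_one]
  obtain ⟨η, hη⟩ : ∃ η : F, η = (ζ : F) ^ 2 := ⟨_, rfl⟩
  have he5 : η ^ 5 = 1 := by rw [hη, ← pow_mul, mul_comm, pow_mul, hz5, one_pow]
  have hne : ∀ k, 1 ≤ k → k ≤ 4 → η ^ k ≠ 1 := by
    intro k h1 h4 e
    rw [hη, ← pow_mul, ← Units.val_pow_eq_pow_val, Units.val_eq_one] at e
    have := orderOf_dvd_of_pow_eq_one e
    rw [hζ] at this
    omega
  have he0 : η ≠ 0 := fun h => by rw [h] at he5; simp at he5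
  have hsum : 1 + η + η ^ 2 + η ^ 3 + η ^ 4 = 0 := by
    have : (η - 1) * (1 + η + η ^ 2 + η ^ 3 + η ^ 4) = 0 := by linear_combination he5
    exact (mul_eq_zero.1 this).resolve_left (sub_ne_zero.2 (by simpa using hne 1 le_rfl (by norm_num)))
  obtain ⟨b, hb⟩ : ∃ b : F, b = η + η ^ 3 := ⟨_, rfl⟩
  have hb4 : b + b ^ 4 = 1 := by
    rw [hb, a4]
    linear_combination (η ^ 7 + η ^ 2) * he5 + hsum + (-1 : F) * h2
  let X : Cfsg.SU 3 F 4 := ⟨⟨Matrix.diagonal ![(ζ : F), (ζ : F), (ζ : F) ^ 3], by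
      simp [Matrix.det_diagonal, Fin.prod_univ_three]
      linear_combination hz5⟩, by
    intro u v
    show Cfsg.hermForm 3 F 4 (Matrix.diagonal ![(ζ : F), (ζ : F), (ζ : F) ^ 3] *ᵥ u)
      (Matrix.diagonal ![(ζ : F), (ζ : F), (ζ : F) ^ 3] *ᵥ v) = _
    simp only [Cfsg.hermForm, Fin.sum_univ_three, Matrix.mulVec_diagonal]
    simp
    linear_combination (u 0 * v 0 ^ 4 + u 1 * v 1 ^ 4 +
      u 2 * v 2 ^ 4 * ((ζ : F) ^ 10 + (ζ : F) ^ 5 + 1)) * hz5⟩
  have hXc : ∀ (p q : Param F), q.1 = (η * p.1.1, p.1.2) → X * emb hF p = emb hF q * X := by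
    intro p q hq
    apply su_ext
    show Matrix.diagonal ![(ζ : F), (ζ : F), (ζ : F) ^ 3] * mat p.1 =
      mat q.1 * Matrix.diagonal ![(ζ : F), (ζ : F), (ζ : F) ^ 3]
    rw [hq]
    ext i j
    fin_cases i <;> fin_cases j <;> simp [mat, Matrix.diagonal_mul, Matrix.mul_diagonal, hη] <;>
      first
        | ring1
        | linear_combination (-((ζ : F) * p.1.1 ^ 4 * ((ζ : F) ^ 5 + 1))) * hz5
        | linear_combination ((ζ : F) * p.1.1 ^ 4 * ((ζ : F) ^ 5 + 1)) * hz5
  let Δ : Cfsg.SU 3 F 4 := emb hF ⟨(1, b), by show b + b ^ 4 = (1 : F) ^ 5; rw [one_pow, hb4]⟩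
  have hpm : ∀ i, (η ^ i, b) ∈ Param F := fun i => by
    show b + b ^ 4 = (η ^ i) ^ 5
    rw [hb4, ← pow_mul, mul_comm, pow_mul, he5, one_pow]
  have hdd : ∀ i, dd X Δ i = emb hF ⟨(η ^ i, b), hpm i⟩ := by
    intro i
    induction i with
    | zero => simpa [dd, Δ] using emb_congr hF _ _ (by simp)
    | succ i ih =>
      have h := hXc ⟨(η ^ i, b), hpm i⟩ ⟨(η ^ (i + 1), b), hpm (i + 1)⟩ (by simp [pow_succ'])
      rw [← ih] at h
      rw [eq_mul_inv_of_mul_eq h.symm, dd, dd, pow_succ']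
      group
  have hkmem : ∀ k : ℕ, ((0 : F), η ^ k + η ^ (4 * k)) ∈ Param F := fun k => by
    show _ = (0 : F) ^ 5
    rw [a4, ← pow_mul η (4 * k) 4, show 4 * k * 4 = k + 5 * (3 * k) by ring, pow_add, pow_mul η 5, he5,
      one_pow, mul_one, ← pow_mul, show k * 4 = 4 * k by ring]
    linear_combination (η ^ k + η ^ (4 * k)) * h2
  let E : ℕ → Cfsg.SU 3 F 4 := fun k => emb hF ⟨_, hkmem k⟩
  have hcomm : ∀ k, ⁅Δ, dd X Δ k⁆ = E k := by
    intro k
    rw [commutatorElement_def, mul_inv_eq_iff_eq_mul, mul_inv_eq_iff_eq_mul, hdd]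
    simp only [E, Δ, emb_mul, mul_assoc]
    refine emb_congr hF _ _ ?_
    simp only [op, one_pow, mul_one, one_mul, ← pow_mul, show k * 4 = 4 * k by ring]
    refine Prod.ext ?_ ?_
    · simp only; ring
    · simp only; linear_combination (-(η ^ (4 * k))) * h2
  have hEcomm : ∀ k (p : Param F), Commute (E k) (emb hF p) := fun k p => by
    show E k * emb hF p = emb hF p * E k
    simp only [E, emb_mul]
    exact emb_congr hF _ _ (by simp [op]; ring)
  have hEX : ∀ k, Commute (E k) X := fun k =>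
    (hXc ⟨_, hkmem k⟩ ⟨_, hkmem k⟩ (by simp)).symm
  have hEE : ∀ k, E k * E k = 1 := fun k => by
    simp only [E, emb_mul]
    rw [← emb_one hF (by show (0 : F) + 0 ^ 4 = 0 ^ 5; simp)]
    refine emb_congr hF _ _ ?_
    simp only [op]
    refine Prod.ext ?_ ?_
    · simp
    · simp only; linear_combination (η ^ k + η ^ (4 * k)) * h2
  have e8 : η ^ 8 = η ^ 3 := by linear_combination η ^ 3 * he5
  have e12 : η ^ 12 = η ^ 2 := by linear_combination (η ^ 7 + η ^ 2) * he5
  have hrel : Rel X Δ :=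
    { x5 := su_ext _ _ (by
        show (Matrix.diagonal ![(ζ : F), (ζ : F), (ζ : F) ^ 3]) ^ 5 = 1
        rw [Matrix.diagonal_pow, ← Matrix.diagonal_one]
        congr 1
        funext i
        fin_cases i <;> simp [hz5] <;> linear_combination ((ζ : F) ^ 10 + (ζ : F) ^ 5 + 1) * hz5)
      cx1 := by rw [hcomm]; exact hEX 1
      cx2 := by rw [hcomm]; exact hEX 2
      cd1 := by rw [hcomm]; exact hEcomm 1 _
      cd2 := by rw [hcomm]; exact hEcomm 2 _
      s1 := by rw [hcomm]; exact hEE 1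
      s2 := by rw [hcomm]; exact hEE 2
      sq := by
        rw [hcomm, hcomm]
        simp only [E, Δ, emb_mul]
        refine emb_congr hF _ _ ?_
        simp [op]
        refine ⟨?_, ?_⟩
        · linear_combination h2
        · linear_combination hsum + (b - η - η ^ 2 - η ^ 3 - η ^ 4) * h2 +
            (-(η ^ 8) + η ^ 3) * 0 + (-1 : F) * e8
      e3 := by
        rw [hcomm, hcomm]
        refine emb_congr hF _ _ (Prod.ext rfl ?_)
        show η ^ 3 + η ^ 12 = η ^ 2 + η ^ 8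
        rw [e8, e12]; ring
      e4 := by
        rw [hdd 4, hdd 1, hdd 2, hdd 3]
        simp only [Δ, emb_mul]
        refine emb_congr hF _ _ ?_
        simp [op, a4]
        refine ⟨?_, ?_⟩
        · linear_combination hsum + (-(1 : F) - η - η ^ 2 - η ^ 3) * h2
        · simp only [hb, ← pow_mul]
          linear_combination (-(η ^ 6) - η ^ 2) * he5 +
            (-2 * η - 2 * η ^ 3 - η ^ 2 - η ^ 6) * h2 }
  obtain ⟨x, d, hx, hgen, hd, hDD, hcen⟩ := exists_rel hG hD hZ
  have hfin : Finite (Cfsg.SU 3 F 4) := inferInstance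
  obtain ⟨f, hfx, hfd⟩ := hx.exists_hom hG hgen hrel
  have hE : ∀ k, f ⁅d, dd x d k⁆ = E k := fun k => by
    rw [map_commutatorElement, map_dd, hfx, hfd, hcomm]
  have hfinj : Function.Injective f := by
    refine hom_injective hG hD hx hgen hd hDD hcen f ?_ ?_ ?_
    · rw [hE]; refine emb_ne_one hF _ ?_
      show η ^ 1 + η ^ (4 * 1) ≠ 0
      intro h
      exact hne 3 (by norm_num) (by norm_num) (mul_left_cancel₀ he0 (by linear_combination h - η * h2))
    · rw [hE]; refine emb_ne_one hF _ ?_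
      show η ^ 2 + η ^ (4 * 2) ≠ 0
      intro h
      exact hne 1 le_rfl (by norm_num) (mul_left_cancel₀ (pow_ne_zero 2 he0)
        (by linear_combination h - e8 - η ^ 2 * h2))
    · rw [map_mul, hE, hE]
      simp only [E, emb_mul]
      refine emb_ne_one hF _ ?_
      simp only [op]
      intro h
      refine one_ne_zero (α := F) ?_
      linear_combination hsum - h + e8
  let T : Cfsg.SU 3 F 4 := emb hF ⟨(0, 1), by show (1 : F) + 1 ^ 4 = 0 ^ 5; linear_combination h2⟩
  have hTm : ((T : Matrix.SpecialLinearGroup (Fin 3) F) : Matrix (Fin 3) (Fin 3) F) =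
      !![0, 1, 0; 1, 0, 0; 0, 0, 1] := by
    show mat ((0 : F), (1 : F)) = _
    ext i j
    fin_cases i <;> fin_cases j <;> simp [mat] <;> linear_combination h2
  have hTd : Commute T Δ := by
    show T * Δ = Δ * T
    simp only [T, Δ, emb_mul]
    exact emb_congr hF _ _ (by simp [op]; ring)
  have hTX : Commute T X := (hXc _ _ (by simp)).symm
  have hrange : ∀ g, f g ∈ Subgroup.centralizer ({T} : Set (Cfsg.SU 3 F 4)) := fun g => by
    have : g ∈ (Subgroup.centralizer ({T} : Set (Cfsg.SU 3 F 4))).comap f := by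
      refine (?_ : Subgroup.closure {x, d} ≤ _) (hgen ▸ Subgroup.mem_top g)
      refine (Subgroup.closure_le _).2 ?_
      rintro g (rfl | rfl)
      · rw [SetLike.mem_coe, Subgroup.mem_comap, hfx]
        exact Subgroup.mem_centralizer_singleton_iff.2 hTX.eq.symm
      · rw [SetLike.mem_coe, Subgroup.mem_comap, hfd]
        exact Subgroup.mem_centralizer_singleton_iff.2 hTd.eq.symm
    exact this
  -- the centraliser has at most 320 elements
  have hXpow : ∀ i : ℕ, (((X ^ i : Cfsg.SU 3 F 4) : Matrix.SpecialLinearGroup (Fin 3) F) :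
      Matrix (Fin 3) (Fin 3) F) = Matrix.diagonal ![(ζ : F) ^ i, (ζ : F) ^ i, ((ζ : F) ^ i) ^ 3] := by
    intro i
    show (Matrix.diagonal ![(ζ : F), (ζ : F), (ζ : F) ^ 3]) ^ i = _
    rw [Matrix.diagonal_pow]
    congr 1
    funext j
    fin_cases j <;> simp [← pow_mul, mul_comm]
  let Φ : Param F × Fin 5 → Cfsg.SU 3 F 4 := fun p => X ^ (p.2 : ℕ) * emb hF p.1
  have hsub : (Subgroup.centralizer ({T} : Set (Cfsg.SU 3 F 4)) : Set (Cfsg.SU 3 F 4)) ⊆ Set.range Φ := by
    intro g hg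
    set M : Matrix (Fin 3) (Fin 3) F :=
      ((g : Matrix.SpecialLinearGroup (Fin 3) F) : Matrix (Fin 3) (Fin 3) F) with hM
    have hc : M * !![0, 1, 0; 1, 0, 0; 0, 0, 1] = !![0, 1, 0; 1, 0, 0; 0, 0, 1] * M := by
      rw [← hTm, hM]
      exact congrArg (fun g : Cfsg.SU 3 F 4 =>
        ((g : Matrix.SpecialLinearGroup (Fin 3) F) : Matrix (Fin 3) (Fin 3) F))
        (Subgroup.mem_centralizer_singleton_iff.1 hg)
    have k := fun i j => congrFun (congrFun hc i) j
    have m11 : M 1 1 = M 0 0 := by simpa [Matrix.mul_apply, Fin.sum_univ_three] using k 1 0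
    have m10 : M 1 0 = M 0 1 := by simpa [Matrix.mul_apply, Fin.sum_univ_three] using (k 0 0).symm
    have m12 : M 1 2 = M 0 2 := by simpa [Matrix.mul_apply, Fin.sum_univ_three] using (k 0 2).symm
    have m21 : M 2 1 = M 2 0 := by simpa [Matrix.mul_apply, Fin.sum_univ_three] using k 2 0
    obtain ⟨σ, hσ⟩ : ∃ σ, σ = M 0 0 + M 0 1 := ⟨_, rfl⟩
    have f00 := col_eq g 0 0
    have f01 := col_eq g 0 1
    have f02 := col_eq g 0 2
    have f22 := col_eq g 2 2
    simp only [← hM, m10, m11, m12, m21] at f00 f01 f02 f22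
    simp only [if_true, show ((0 : Fin 3) = 1) = False by simp, show ((0 : Fin 3) = 2) = False by simp,
      if_false] at f00 f01 f02 f22
    have hdet : M.det = 1 := (g : Matrix.SpecialLinearGroup (Fin 3) F).2
    rw [Matrix.det_fin_three, m10, m11, m12, m21] at hdet
    have hdet' : M 2 2 * σ ^ 2 = 1 := by
      rw [hσ]
      linear_combination hdet + (M 2 2 * M 0 1 ^ 2 + M 2 2 * M 0 0 * M 0 1 + M 0 0 * M 0 2 * M 2 0
        - M 0 1 * M 0 2 * M 2 0) * h2
    have hε5 : M 2 2 ^ 5 = 1 := by linear_combination f22 - M 0 2 ^ 5 * h2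
    have hσ5 : σ ^ 5 = 1 := by
      rw [hσ, pow_succ', a4]
      linear_combination f00 + f01 - M 2 0 ^ 5 * h2
    have hεσ : M 2 2 = σ ^ 3 := by linear_combination (-(M 2 2)) * hσ5 + σ ^ 3 * hdet'
    have hδ : M 2 0 = σ ^ 4 * M 0 2 ^ 4 := by
      rw [hεσ] at f02
      have e15 : (σ ^ 3) ^ 4 * σ ^ 3 = 1 := by
        rw [← pow_mul, ← pow_add, show 3 * 4 + 3 = 5 * 3 by norm_num, pow_mul, hσ5, one_pow]
      linear_combination σ ^ 3 * f02 - M 2 0 * e15 - (σ ^ 3 * (M 0 0 + M 0 1) - σ ^ 3 * σ) * 0 +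
        (-(σ ^ 4 * M 0 2 ^ 4)) * h2 + (σ ^ 3 * M 0 2 ^ 4) * hσ
    obtain ⟨i, hi, hiσ⟩ : ∃ i < 5, (ζ : F) ^ i = σ := by
      have hprim : IsPrimitiveRoot (ζ : F) 5 := by
        rw [← hζ, IsPrimitiveRoot.coe_units_iff]; exact IsPrimitiveRoot.orderOf ζ
      exact hprim.eq_pow_of_pow_eq_one hσ5
    have hσ0 : σ ≠ 0 := fun h => by rw [h] at hσ5; simp at hσ5
    -- the parameter
    have hM20 : M 2 0 * σ ^ 2 = σ * M 0 2 ^ 4 := by rw [hδ]; linear_combination σ * M 0 2 ^ 4 * hσ5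
    have hp : (M 2 0 * σ ^ 2, M 0 1 * σ ^ 4) ∈ Param F := by
      show M 0 1 * σ ^ 4 + (M 0 1 * σ ^ 4) ^ 4 = (M 2 0 * σ ^ 2) ^ 5
      have h05 : M 2 0 ^ 5 = (M 2 0 * σ ^ 2) ^ 5 := by
        rw [mul_pow, ← pow_mul, show 2 * 5 = 5 * 2 by norm_num, pow_mul, hσ5, one_pow, mul_one]
      have e16 : (σ ^ 4) ^ 4 = σ := by linear_combination (σ ^ 11 + σ ^ 6 + σ) * hσ5
      rw [← h05, mul_pow, e16]
      have hα : M 0 0 = σ + M 0 1 := by linear_combination -hσ - M 0 1 * h2
      rw [hα, a4] at f01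
      linear_combination f01 - (M 0 1 ^ 5 + M 2 0 ^ 5) * h2
    refine ⟨(⟨_, hp⟩, ⟨i, hi⟩), ?_⟩
    apply su_ext
    show ((X ^ i : Cfsg.SU 3 F 4) : Matrix.SpecialLinearGroup (Fin 3) F).1 * mat _ = M
    rw [hXpow, hiσ]
    have hα : M 0 0 = σ + M 0 1 := by linear_combination -hσ - M 0 1 * h2
    have h164 : (M 0 2 ^ 4) ^ 4 = M 0 2 := by rw [← pow_mul]; exact pow_sixteen hF _
    ext r c
    fin_cases r <;> fin_cases c <;>
      simp [mat, Matrix.diagonal_mul, m10, m11, m12, m21, hα, hεσ] <;>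
      first
        | linear_combination M 0 1 * hσ5
        | linear_combination M 2 0 * hσ5
        | (rw [hM20, mul_pow, h164]; linear_combination M 0 2 * hσ5)
  have hcle : Nat.card (Subgroup.centralizer ({T} : Set (Cfsg.SU 3 F 4))) ≤ 320 :=
    calc Nat.card (Subgroup.centralizer ({T} : Set (Cfsg.SU 3 F 4)))
        ≤ Nat.card (Set.range Φ) := Nat.card_mono (Set.toFinite _) hsub
      _ ≤ Nat.card (Param F × Fin 5) := Finite.card_range_le _
      _ = 320 := by rw [Nat.card_prod, card_param hF, Nat.card_fin]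
  let f' : G →* Subgroup.centralizer ({T} : Set (Cfsg.SU 3 F 4)) := f.codRestrict _ hrange
  have hf' : Function.Injective f' := fun a b h => hfinj (congrArg Subtype.val h)
  have hbij : Function.Bijective f' := hf'.bijective_of_nat_card_le (by rw [hG]; exact hcle)
  -- pass to the projective group
  have hbot : Subgroup.center (Cfsg.SU 3 F 4) = ⊥ :=
    Subgroup.card_eq_one.mp (by
      rw [CfsgLib.ClassicalForms.card_center_su (by rw [Nat.card_eq_fintype_card, hF]; norm_num)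
        (by norm_num)]; rfl)
  let e : Cfsg.SU 3 F 4 ≃* Cfsg.PSU 3 F 4 :=
    ((QuotientGroup.quotientMulEquivOfEq hbot).trans QuotientGroup.quotientBot).symm
  refine ⟨e T, ?_, ⟨(MulEquiv.ofBijective f' hbij).trans ((e.subgroupMap _).trans
    (MulEquiv.subgroupCongr ?_))⟩⟩
  · rw [MulEquiv.orderOf_eq]
    refine orderOf_eq_prime ?_ (emb_ne_one hF _ one_ne_zero)
    rw [pow_two]
    simp only [T, emb_mul]
    rw [← emb_one hF (by show (0 : F) + 0 ^ 4 = 0 ^ 5; simp)]
    refine emb_congr hF _ _ ?_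
    simp [op]
    linear_combination h2
  · ext y
    rw [Subgroup.mem_map, Subgroup.mem_centralizer_singleton_iff]
    constructor
    · rintro ⟨g, hg, rfl⟩
      show e g * e T = e T * e g
      rw [← map_mul, ← map_mul, Subgroup.mem_centralizer_singleton_iff.1 hg]
    · intro h
      refine ⟨e.symm y, Subgroup.mem_centralizer_singleton_iff.2 (e.injective ?_), e.apply_symm_apply y⟩
      rw [map_mul, map_mul, e.apply_symm_apply]
      exact h

end Cfsg.Agent.S1903
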