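import Cfsg.Statements.S1904
import Cfsg.Agent.Lib.ClassTech.NoScnThreeMain
-- import your own Cfsg.Agent.* helpers here

set_option autoImplicit false
open Cfsg

namespace Cfsg.Agent.S1904

/-- Let X be a finite nonabelian 2-group with no normal abelian subgroup that is self-centralizing and contains an elementary abelian subgroup of order 8. Suppose a group A of automorphisms of X of odd order satisfies [X, A] = X. Then X is the quaternion group of order 8, or X is special of order 64 with exactly three involutions, all central, or X is extraspecial of order 32 with exactly eleven involutions (the central product of a quaternion group and a dihedral group of order 8). -/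
theorem result {X : Type*} [Group X] [Finite X] (hX : IsPGroup 2 X) (hna : ¬ IsMulCommutative X)
    (hscn : ¬ ∃ A : Subgroup X, A.Normal ∧ Subgroup.centralizer (A : Set X) = A ∧
      ∃ E : Subgroup X, E ≤ A ∧ Cfsg.IsElementaryAbelian 2 E ∧ Nat.card E = 8)
    (A : Subgroup (MulAut X)) (hA : Odd (Nat.card A))
    (hXA : Subgroup.closure {g : X | ∃ φ ∈ A, ∃ x : X, g = x⁻¹ * φ x} = ⊤) :
    Nonempty (X ≃* QuaternionGroup 2) ∨
      (Cfsg.IsSpecial 2 X ∧ Nat.card X = 64 ∧ Nat.card {x : X // orderOf x = 2} = 3 ∧
        ∀ x : X, orderOf x = 2 → x ∈ Subgroup.center X) ∨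
      (Cfsg.IsExtraspecial 2 X ∧ Nat.card X = 32 ∧ Nat.card {x : X // orderOf x = 2} = 11) := by
  classical
  haveI : Fact (Nat.Prime 2) := ⟨Nat.prime_two⟩
  have h : CfsgLib.ClassTech.NoScn.Hyp A :=
    { pgrp := hX
      nonab := by
        by_contra hc
        push Not at hc
        exact hna (isMulCommutative_iff.2 hc)
      small := fun E hEn hE => by
        by_contra hgt
        have hEc : ∀ a ∈ E, ∀ b ∈ E, a * b = b * a := fun a ha b hb => by
          have e : ∀ g ∈ E, g⁻¹ = g := fun g hg => inv_eq_of_mul_eq_one_right (hE g hg)
          rw [← e (a * b) (mul_mem ha hb), mul_inv_rev, e a ha, e b hb]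
        have hEab : IsMulCommutative E :=
          isMulCommutative_iff.2 fun a b => Subtype.ext (hEc a a.2 b b.2)
        obtain ⟨B, hEB, hBn, -, hCB⟩ :=
          CfsgLib.TwoGroups.exists_normal_abelian_centralizer_eq hX hEn hEab
        obtain ⟨k, hk⟩ := IsPGroup.iff_card.1 (hX.to_subgroup E)
        have h3 : 3 ≤ k := by
          by_contra hlt
          have := Nat.pow_le_pow_right (n := 2) two_pos (show k ≤ 2 by omega)
          omega
        obtain ⟨D, hD⟩ := Sylow.exists_subgroup_card_pow_prime (G := E) 2 (n := 3)
          (by rw [hk]; exact pow_dvd_pow 2 h3)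
        refine hscn ⟨B, hBn, hCB, D.map E.subtype, (Subgroup.map_subtype_le D).trans hEB,
          ⟨isMulCommutative_iff.2 fun a b => Subtype.ext
            (hEc a (Subgroup.map_subtype_le D a.2) b (Subgroup.map_subtype_le D b.2)),
          fun a ha => by rw [pow_two]; exact hE a (Subgroup.map_subtype_le D ha)⟩, ?_⟩
        rw [Subgroup.card_map_of_injective E.subtype_injective, hD]
        norm_num
      odd := hA
      gen := hXA }
  exact h.classify

end Cfsg.Agent.S1904
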