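import Cfsg.Statements.S1905
import Cfsg.Agent.Lib.BenderCount.Basic
-- import your own Cfsg.Agent.* helpers here

set_option autoImplicit false
open Cfsg

namespace Cfsg.Agent.S1905

/-- Let M be a subgroup of even order of a finite group S such that M contains the centralizer in S of each of its involutions and the normal core of M in S has odd order. Then all involutions of S are conjugate. If moreover N_S(X) ≤ M for a Sylow 2-subgroup X of M and I is an involution in the centre of X, then all involutions of M are conjugate in M and M = M₀ C_M(I) for some subgroup M₀ of M of odd order. -/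
theorem result {S : Type*} [Group S] [Finite S] (M : Subgroup S) (hM : Even (Nat.card M))
    (hC : ∀ i ∈ M, orderOf i = 2 → Subgroup.centralizer ({i} : Set S) ≤ M) (hcore : Odd (Nat.card M.normalCore)) :
    (∀ x y : S, orderOf x = 2 → orderOf y = 2 → IsConj x y) ∧
      ∀ (X : Sylow 2 M) (I : M), I ∈ (Subgroup.center ↥(X : Subgroup ↥M)).map (X : Subgroup ↥M).subtype → orderOf I = 2 →
        Subgroup.normalizer (((X : Subgroup M).map M.subtype : Subgroup S) : Set S) ≤ M →
        (∀ x y : M, orderOf x = 2 → orderOf y = 2 → IsConj x y) ∧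
          ∃ M₀ : Subgroup M, Odd (Nat.card M₀) ∧
            ∀ m : M, ∃ a ∈ M₀, ∃ c ∈ Subgroup.centralizer ({I} : Set M), m = a * c := by
  classical
  have h2 : ∀ g a : S, orderOf a = 2 → orderOf (g * a * g⁻¹) = 2 := fun g a ha =>
    (MulEquiv.orderOf_eq (MulAut.conj g) a).trans ha
  have hpair : ∀ x y : S, orderOf x = 2 → orderOf y = 2 → x ∈ M → y ∉ M →
      ∃ h ∈ Subgroup.closure ({x, y} : Set S), h * x * h⁻¹ = y := by
    intro x y hx hy hxM hyM
    refine (CfsgLib.BenderCount.exists_comm_or_conj hx hy).resolve_left ?_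
    rintro ⟨z, hz, hzx, hzy⟩
    exact hyM (hC z (hC x hxM hx (Subgroup.mem_centralizer_singleton_iff.2 hzx)) hz
      (Subgroup.mem_centralizer_singleton_iff.2 hzy.symm))
  obtain ⟨x₀, hx₀M, hx₀⟩ : ∃ x ∈ M, orderOf x = 2 := by
    haveI := Fact.mk Nat.prime_two
    obtain ⟨x, hx⟩ := exists_prime_orderOf_dvd_card' (G := M) 2 (even_iff_two_dvd.1 hM)
    exact ⟨x, x.2, by rwa [Subgroup.orderOf_coe]⟩
  obtain ⟨y₀, hy₀M, hy₀⟩ : ∃ y, y ∉ M ∧ orderOf y = 2 := by
    by_contra h
    push Not at h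
    set T := Subgroup.normalClosure {t : S | orderOf t = 2}
    have hTn : T.Normal := Subgroup.normalClosure_normal
    have hTM : T ≤ M := (Subgroup.closure_le M).2 fun t ht => by
      by_contra htM
      obtain ⟨a, ha, hat⟩ := Group.mem_conjugatesOfSet_iff.1 ht
      obtain ⟨g, rfl⟩ := isConj_iff.1 hat
      exact h _ htM (h2 g a ha)
    have hxc : x₀ ∈ M.normalCore :=
      Subgroup.normal_le_normalCore.2 hTM (Subgroup.subset_normalClosure hx₀)
    have h3 := Subgroup.orderOf_dvd_natCard M.normalCore hxc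
    rw [hx₀] at h3
    exact (Nat.not_even_iff_odd.2 hcore) (even_iff_two_dvd.2 h3)
  have hall : ∀ x : S, orderOf x = 2 → IsConj x y₀ := by
    intro x hx
    by_cases hxM : x ∈ M
    · obtain ⟨h, -, hh⟩ := hpair x y₀ hx hy₀ hxM hy₀M
      exact isConj_iff.2 ⟨h, hh⟩
    · obtain ⟨h, -, hh⟩ := hpair x₀ x hx₀ hx hx₀M hxM
      obtain ⟨h', -, hh'⟩ := hpair x₀ y₀ hx₀ hy₀ hx₀M hy₀M
      exact (isConj_iff.2 ⟨h, hh⟩).symm.trans (isConj_iff.2 ⟨h', hh'⟩)
  refine ⟨fun x y hx hy => (hall x hx).trans (hall y hy).symm, ?_⟩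
  intro X I hI hIo hNX
  set XS : Subgroup S := (X : Subgroup M).map M.subtype with hXS
  have hXM : XS ≤ M := Subgroup.map_subtype_le _
  have hIo' : orderOf (I : S) = 2 := by rwa [Subgroup.orderOf_coe]
  obtain ⟨⟨i, hiX⟩, hic, rfl⟩ := hI
  have hIX : (i : S) ∈ XS := ⟨i, hiX, rfl⟩
  have hXc : XS ≤ Subgroup.centralizer {(i : S)} := by
    rintro _ ⟨x, hx, rfl⟩
    have := congrArg (fun z : ↥(X : Subgroup M) => ((z : M) : S))
      (Subgroup.mem_center_iff.1 hic ⟨x, hx⟩)
    exact Subgroup.mem_centralizer_singleton_iff.2 this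
  -- a conjugate of `I` lies in `M` only if the conjugating element does
  have key : ∀ g : S, g⁻¹ * (i : S) * g ∈ M → g ∈ M := by
    intro g hg
    haveI := Fact.mk Nat.prime_two
    have hord : orderOf (g⁻¹ * (i : S) * g) = 2 := by
      simpa using h2 g⁻¹ _ hIo'
    have hQ : IsPGroup 2 (Subgroup.zpowers (⟨_, hg⟩ : M)) := by
      refine IsPGroup.of_card (n := 1) ?_
      rw [Nat.card_zpowers, ← Subgroup.orderOf_coe, pow_one]
      exact hord
    obtain ⟨R, hR⟩ := hQ.exists_le_sylow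
    obtain ⟨m, hm⟩ := MulAction.exists_smul_eq M R X
    have hmem : m * ⟨_, hg⟩ * m⁻¹ ∈ (X : Subgroup M) := by
      rw [← hm]
      exact Subgroup.smul_mem_pointwise_smul _ (MulAut.conj m) _ (hR (Subgroup.mem_zpowers _))
    set g' := g * (m : S)⁻¹ with hg'
    have hI' : g'⁻¹ * (i : S) * g' ∈ XS := by
      refine ⟨_, hmem, ?_⟩
      simp [hg', mul_assoc]
    have hI'o : orderOf (g'⁻¹ * (i : S) * g') = 2 := by simpa using h2 g'⁻¹ _ hIo'
    have hle : XS.map (MulAut.conj g'⁻¹).toMonoidHom ≤ M := by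
      rintro _ ⟨x, hx, rfl⟩
      refine hC _ (hXM hI') hI'o (Subgroup.mem_centralizer_singleton_iff.2 ?_)
      have := Subgroup.mem_centralizer_singleton_iff.1 (hXc hx)
      simp only [MulEquiv.toMonoidHom_eq_coe, MonoidHom.coe_coe, MulAut.conj_apply, inv_inv]
      calc g'⁻¹ * x * g' * (g'⁻¹ * (i : S) * g') = g'⁻¹ * (x * i) * g' := by group
        _ = g'⁻¹ * ((i : S) * x) * g' := by rw [this]
        _ = g'⁻¹ * (i : S) * g' * (g'⁻¹ * x * g') := by group
    have hY : IsPGroup 2 ((XS.map (MulAut.conj g'⁻¹).toMonoidHom).subgroupOf M) :=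
      (((X.2.map M.subtype).map (MulAut.conj g'⁻¹).toMonoidHom)).of_equiv
        (Subgroup.subgroupOfEquivOfLe hle).symm
    obtain ⟨R', hR'⟩ := hY.exists_le_sylow
    obtain ⟨n, hn⟩ := MulAction.exists_smul_eq M R' X
    have hnX : ∀ x ∈ XS, ((n : S) * g'⁻¹) * x * ((n : S) * g'⁻¹)⁻¹ ∈ XS := by
      intro x hx
      have h1 : (⟨_, hle ⟨x, hx, rfl⟩⟩ : M) ∈ (R' : Subgroup M) := hR' ⟨x, hx, rfl⟩
      have h3 : n * ⟨_, hle ⟨x, hx, rfl⟩⟩ * n⁻¹ ∈ (X : Subgroup M) := by
        rw [← hn]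
        exact Subgroup.smul_mem_pointwise_smul _ (MulAut.conj n) _ h1
      refine ⟨_, h3, ?_⟩
      simp [mul_assoc]
    have hN : (n : S) * g'⁻¹ ∈ M := by
      refine hNX (Subgroup.mem_normalizer_iff_map_conj_eq.2 (Subgroup.eq_of_le_of_card_ge ?_
        (Subgroup.card_map_of_injective (MulAut.conj _).injective).ge))
      rintro _ ⟨x, hx, rfl⟩
      exact hnX x hx
    have hg'M : g' ∈ M := by
      have := mul_mem (inv_mem n.2) hN
      simpa using inv_mem this
    simpa [hg'] using mul_mem hg'M m.2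
  -- all involutions of `M` are conjugate in `M`
  have hMconj : ∀ x : M, orderOf x = 2 → IsConj i x := by
    intro x hx
    have hxo : orderOf (x : S) = 2 := by rwa [Subgroup.orderOf_coe]
    obtain ⟨g, hg⟩ := isConj_iff.1 ((hall _ hIo').trans (hall _ hxo).symm)
    have hgM : g⁻¹ ∈ M := key g⁻¹ (by rw [inv_inv]; exact (congrArg (· ∈ M) hg).mpr x.2)
    exact isConj_iff.2 ⟨⟨g, inv_mem_iff.1 hgM⟩, Subtype.ext hg⟩
  refine ⟨fun x y hx hy => (hMconj x hx).symm.trans (hMconj y hy), ?_⟩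
  -- an outside involution with many involutions in its coset
  letI := Fintype.ofFinite S
  set Inv : Finset S := Finset.univ.filter fun t => orderOf t = 2 with hInv
  set mI := (Inv.filter fun t => t ∈ M).card with hmI
  have hcount : Inv.card = mI * M.index := by
    have hS' : Inv.card = (Subgroup.centralizer ({(i : S)} : Set S)).index := by
      rw [← CfsgLib.BenderCount.card_class, ← Nat.card_eq_finsetCard]
      refine Nat.card_congr (Equiv.subtypeEquivRight fun t => ?_)
      simp only [hInv, Finset.mem_filter, Finset.mem_univ, true_and]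
      refine ⟨fun ht => (hall _ hIo').trans (hall _ ht).symm, fun ht => ?_⟩
      obtain ⟨g, rfl⟩ := isConj_iff.1 ht
      exact h2 g _ hIo'
    have hM' : mI = (Subgroup.centralizer ({(i : S)} : Set S)).relIndex M := by
      have hcsub : (Subgroup.centralizer ({(i : S)} : Set S)).subgroupOf M =
          Subgroup.centralizer ({i} : Set M) := by
        ext z
        simp [Subgroup.mem_subgroupOf, Subgroup.mem_centralizer_singleton_iff, Subtype.ext_iff]
      rw [Subgroup.relIndex, hcsub, ← CfsgLib.BenderCount.card_class, hmI, ← Nat.card_eq_finsetCard]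
      refine Nat.card_congr
        { toFun := fun t => ⟨⟨t.1, (Finset.mem_filter.1 t.2).2⟩, hMconj _ ?_⟩
          invFun := fun t => ⟨(t.1 : S), ?_⟩
          left_inv := fun t => rfl
          right_inv := fun t => rfl }
      · rw [← Subgroup.orderOf_coe]
        exact (Finset.mem_filter.1 (Finset.mem_filter.1 t.2).1).2
      · obtain ⟨g, hg⟩ := isConj_iff.1 t.2
        simp only [hInv, Finset.mem_filter, Finset.mem_univ, true_and]
        refine ⟨?_, t.1.2⟩
        rw [← hg]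
        exact h2 (g : S) _ hIo'
    have hle : Subgroup.centralizer ({(i : S)} : Set S) ≤ M := hC _ i.2 hIo'
    rw [hS', hM', Subgroup.relIndex_mul_index hle]
  set cs : Finset (S ⧸ M) := Finset.univ.erase ((1 : S) : S ⧸ M) with hcs
  have hM0 : ∀ t : S, (t : S ⧸ M) = ((1 : S) : S ⧸ M) ↔ t ∈ M := fun t => by
    rw [QuotientGroup.eq, mul_one, inv_mem_iff]
  have hsum : ∑ c ∈ cs, (Inv.filter fun t : S => (t : S ⧸ M) = c).card = mI * cs.card := by
    have h1 := Finset.card_eq_sum_card_fiberwise (s := Inv) (t := (Finset.univ : Finset (S ⧸ M)))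
      (f := fun t : S => (t : S ⧸ M)) (fun _ _ => Finset.mem_univ _)
    rw [hcount, ← Finset.add_sum_erase _ _ (Finset.mem_univ ((1 : S) : S ⧸ M)), ← hcs] at h1
    simp only [hM0] at h1
    rw [← hmI] at h1
    rw [hcs, Finset.card_erase_of_mem (Finset.mem_univ _), Finset.card_univ,
      ← Nat.card_eq_fintype_card, ← Subgroup.index, Nat.mul_sub, mul_one, h1, Nat.add_sub_cancel_left,
      ← hcs]
  obtain ⟨c, hc, hcm⟩ : ∃ c ∈ cs, mI ≤ (Inv.filter fun t : S => (t : S ⧸ M) = c).card := by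
    refine Finset.exists_le_of_sum_le ⟨(y₀ : S ⧸ M), ?_⟩ ?_
    · exact Finset.mem_erase.2 ⟨fun h => hy₀M ((hM0 y₀).1 h), Finset.mem_univ _⟩
    · rw [Finset.sum_const, smul_eq_mul, hsum, mul_comm]
  have hmIpos : 0 < mI := by
    exact Finset.card_pos.2
      ⟨_, Finset.mem_filter.2 ⟨Finset.mem_filter.2 ⟨Finset.mem_univ _, hIo'⟩, i.2⟩⟩
  obtain ⟨y, hy⟩ := Finset.card_pos.1 (hmIpos.trans_le hcm)
  simp only [hInv, Finset.mem_filter, Finset.mem_univ, true_and] at hy
  obtain ⟨hyo, hyc⟩ := hy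
  have hyM : y ∉ M := fun h => (Finset.mem_erase.1 hc).1 (hyc ▸ (hM0 y).2 h)
  have hyy : y * y = 1 := CfsgLib.BenderCount.mul_self_of_orderOf hyo
  set D : Subgroup M := (M.comap (MulAut.conj y).toMonoidHom).subgroupOf M with hD
  have hDmem : ∀ z : M, z ∈ D ↔ y * (z : S) * y⁻¹ ∈ M := fun z => Iff.rfl
  have hDodd : Odd (Nat.card D) := by
    rw [← Nat.not_even_iff_odd]
    intro he
    haveI := Fact.mk Nat.prime_two
    obtain ⟨z, hz⟩ := exists_prime_orderOf_dvd_card' (G := D) 2 (even_iff_two_dvd.1 he)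
    obtain ⟨h, hh⟩ := isConj_iff.1 (hMconj (z : M) (by rwa [Subgroup.orderOf_coe]))
    have hh' : (h : S) * (i : S) * (h : S)⁻¹ = ((z : M) : S) := congrArg Subtype.val hh
    have h1 : (h : S)⁻¹ * y⁻¹ ∈ M := by
      refine key _ ?_
      have h3 := (hDmem (z : M)).1 z.2
      rw [← hh'] at h3
      simpa [mul_assoc] using h3
    have := mul_mem h.2 h1
    rw [mul_inv_cancel_left] at this
    exact hyM (inv_mem_iff.1 this)
  -- nothing inverted by an outside involution centralizes `I`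
  have hinv1 : ∀ (w : S) (d : S), orderOf w = 2 → w ∉ M → d ∈ M → (i : S) * d = d * i →
      w * d * w⁻¹ = d⁻¹ → d ∈ Subgroup.centralizer {w} := by
    intro w d hw hwM hd hcomm hwd
    obtain ⟨h, hh, hhw⟩ := hpair (i : S) w hIo' hw i.2 hwM
    have hzn : ∀ u ∈ Subgroup.closure ({(i : S), w} : Set S),
        u * d * u⁻¹ ∈ Subgroup.zpowers d ∧ u⁻¹ * d * u ∈ Subgroup.zpowers d := by
      intro u hu
      induction hu using Subgroup.closure_induction with
      | mem u hu =>
        rcases hu with rfl | rfl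
        · exact ⟨by rw [hcomm, mul_inv_cancel_right]; exact Subgroup.mem_zpowers d,
            by rw [mul_assoc, ← hcomm, inv_mul_cancel_left]; exact Subgroup.mem_zpowers d⟩
        · refine ⟨by rw [hwd]; exact inv_mem (Subgroup.mem_zpowers d), ?_⟩
          rw [CfsgLib.BenderCount.inv_of_orderOf hw]
          rw [CfsgLib.BenderCount.inv_of_orderOf hw] at hwd
          rw [hwd]; exact inv_mem (Subgroup.mem_zpowers d)
      | one => simpa using Subgroup.mem_zpowers d
      | mul a b _ _ iha ihb =>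
        obtain ⟨j, hj⟩ := ihb.1
        obtain ⟨k, hk⟩ := iha.2
        simp only at hj hk
        constructor
        · rw [show a * b * d * (a * b)⁻¹ = MulAut.conj a (b * d * b⁻¹) by simp [mul_assoc], ← hj,
            map_zpow]
          exact zpow_mem (by simpa using iha.1) j
        · rw [show (a * b)⁻¹ * d * (a * b) = MulAut.conj b⁻¹ (a⁻¹ * d * a) by simp [mul_assoc], ← hk,
            map_zpow]
          exact zpow_mem (by simpa using ihb.2) k
      | inv a _ iha => simpa using iha.symm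
    obtain ⟨j, hj⟩ := (hzn h hh).2
    simp only at hj
    have hic : (i : S) * (h⁻¹ * d * h) = h⁻¹ * d * h * i := by
      rw [← hj]
      exact ((show Commute (i : S) d from hcomm).zpow_right j).eq
    rw [Subgroup.mem_centralizer_singleton_iff, ← hhw]
    calc d * (h * i * h⁻¹) = h * ((h⁻¹ * d * h) * i) * h⁻¹ := by group
      _ = h * ((i : S) * (h⁻¹ * d * h)) * h⁻¹ := by rw [hic]
      _ = h * i * h⁻¹ * d := by group
  -- the inverted elements give distinct conjugates of `I` under `D`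
  set F : Finset S := Inv.filter fun t : S => (t : S ⧸ M) = c with hF
  have hk : ∀ t ∈ F, y⁻¹ * t ∈ M ∧ t * t = 1 ∧ orderOf t = 2 ∧ t ∉ M := by
    intro t ht
    simp only [hF, hInv, Finset.mem_filter, Finset.mem_univ, true_and] at ht
    exact ⟨QuotientGroup.eq.1 (hyc.trans ht.2.symm), CfsgLib.BenderCount.mul_self_of_orderOf ht.1,
      ht.1, fun h => (Finset.mem_erase.1 hc).1 (ht.2 ▸ (hM0 t).2 h)⟩
  have hy' : y⁻¹ = y := CfsgLib.BenderCount.inv_of_orderOf hyo
  have hkD : ∀ t (ht : t ∈ F), (⟨_, (hk t ht).1⟩ : M) ∈ D := by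
    intro t ht
    rw [hDmem]
    have : y * (y⁻¹ * t) * y⁻¹ = (y⁻¹ * t)⁻¹ := by
      rw [mul_inv_cancel_left, mul_inv_rev, inv_inv, hy',
        CfsgLib.BenderCount.inv_of_orderOf (hk t ht).2.2.1]
    rw [this]
    exact inv_mem (hk t ht).1
  set φ : {t // t ∈ F} → {t : M // IsConj i t} := fun t =>
    ⟨⟨_, (hk t.1 t.2).1⟩ * i * (⟨_, (hk t.1 t.2).1⟩ : M)⁻¹, isConj_iff.2 ⟨_, rfl⟩⟩ with hφ
  have hinj : Function.Injective φ := by
    rintro ⟨t, ht⟩ ⟨s, hs⟩ heq
    obtain ⟨htM, ht2, hto, htM'⟩ := hk t ht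
    obtain ⟨hsM, hs2, hso, hsM'⟩ := hk s hs
    have he : (y⁻¹ * t) * i * (y⁻¹ * t)⁻¹ = (y⁻¹ * s) * i * (y⁻¹ * s)⁻¹ :=
      congrArg (fun z : {t : M // IsConj i t} => ((z.1 : M) : S)) heq
    have hdM : t * s ∈ M := by
      have : t * s = (y⁻¹ * t)⁻¹ * (y⁻¹ * s) := by
        rw [mul_inv_rev, inv_inv, CfsgLib.BenderCount.inv_of_orderOf hto]; group
      rw [this]; exact mul_mem (inv_mem htM) hsM
    have hts : t⁻¹ * s = t * s := by rw [CfsgLib.BenderCount.inv_of_orderOf hto]
    have hcomm : (i : S) * (t * s) = t * s * i := by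
      rw [← hts]
      calc (i : S) * (t⁻¹ * s) = (y⁻¹ * t)⁻¹ * ((y⁻¹ * t) * i * (y⁻¹ * t)⁻¹) * (y⁻¹ * s) := by group
        _ = (y⁻¹ * t)⁻¹ * ((y⁻¹ * s) * i * (y⁻¹ * s)⁻¹) * (y⁻¹ * s) := by rw [he]
        _ = t⁻¹ * s * i := by group
    have hts' : t * (t * s) * t⁻¹ = (t * s)⁻¹ := by
      rw [← mul_assoc t t s, ht2, one_mul, mul_inv_rev, CfsgLib.BenderCount.inv_of_orderOf hso]
    have h1 := Subgroup.mem_centralizer_singleton_iff.1 (hinv1 t (t * s) hto htM' hdM hcomm hts')
    rw [← h1, mul_inv_cancel_right] at hts'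
    have hsq : (t * s) * (t * s) = 1 := by
      conv_lhs => arg 1; rw [hts']
      exact inv_mul_cancel _
    have hone : t * s = 1 := by
      by_contra hne
      have ho : orderOf (t * s) = 2 := orderOf_eq_prime (by rw [pow_two, hsq]) hne
      exact htM' (hC _ hdM ho (Subgroup.mem_centralizer_singleton_iff.2 h1.symm))
    exact Subtype.ext ((eq_inv_of_mul_eq_one_left hone).trans
      (CfsgLib.BenderCount.inv_of_orderOf hso))
  have hcardφ : Nat.card {t : M // IsConj i t} ≤ Nat.card {t // t ∈ F} := by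
    rw [Nat.card_eq_finsetCard]
    refine le_trans ?_ hcm
    rw [hmI, ← Nat.card_eq_finsetCard]
    refine Nat.card_le_card_of_injective (fun t => ⟨((t.1 : M) : S), ?_⟩) ?_
    · obtain ⟨g, hg⟩ := isConj_iff.1 t.2
      simp only [hInv, Finset.mem_filter, Finset.mem_univ, true_and]
      refine ⟨?_, t.1.2⟩
      rw [← hg]; exact h2 (g : S) _ hIo'
    · intro a b hab
      exact Subtype.ext (Subtype.ext (congrArg Subtype.val hab :))
  have hsurj : Function.Surjective φ := (hinj.bijective_of_nat_card_le hcardφ).2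
  refine ⟨D, hDodd, fun z => ?_⟩
  obtain ⟨⟨t, ht⟩, hzt⟩ := hsurj ⟨z * i * z⁻¹, isConj_iff.2 ⟨z, rfl⟩⟩
  have hzt' : (⟨_, (hk t ht).1⟩ : M) * i * (⟨_, (hk t ht).1⟩ : M)⁻¹ = z * i * z⁻¹ :=
    congrArg Subtype.val hzt
  refine ⟨_, hkD t ht, (⟨_, (hk t ht).1⟩ : M)⁻¹ * z, ?_, by group⟩
  rw [Subgroup.mem_centralizer_singleton_iff]
  show _ * i = i * _
  set a : M := ⟨_, (hk t ht).1⟩
  calc a⁻¹ * z * i = a⁻¹ * (z * i * z⁻¹) * z := by group
    _ = a⁻¹ * (a * i * a⁻¹) * z := by rw [hzt']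
    _ = i * (a⁻¹ * z) := by group

end Cfsg.Agent.S1905
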