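import Cfsg.Statements.S1906
import Mathlib
import Cfsg.Agent.Lib.TwoGroups.NormalAbelian

set_option autoImplicit false
open Cfsg

namespace Cfsg.Agent.S1906

open Subgroup Matrix

section transfer

variable {G : Type*} [Group G] [Finite G]

/-- An element of a 2-group, central in a Sylow 2-subgroup and congruent to its normalizer conjugates
modulo the derived group, lies in the derived group, if there is no subgroup of index two. -/
theorem mem_commutator_of_central_involution (hG : ∀ H : Subgroup G, H.index ≠ 2) (S : Sylow 2 G)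
    (e : (S : Subgroup G)) (he : e * e = 1) (hc : ∀ x : (S : Subgroup G), x * e = e * x)
    (hN : ∀ n ∈ Subgroup.normalizer ((S : Subgroup G) : Set G), ∀ h : n⁻¹ * (e : G) * n ∈ (S : Subgroup G),
      (⟨_, h⟩ : (S : Subgroup G)) * e⁻¹ ∈ commutator (S : Subgroup G)) :
    e ∈ commutator (S : Subgroup G) := by
  classical
  haveI : Fact (Nat.Prime 2) := ⟨Nat.prime_two⟩
  let φ : (S : Subgroup G) →* Abelianization (S : Subgroup G) := Abelianization.of
  let V : G →* Abelianization (S : Subgroup G) := MonoidHom.transfer φ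
  have hV : V (e : G) = 1 := by
    by_contra hne
    have hA : IsPGroup 2 (Abelianization (S : Subgroup G)) :=
      S.2.of_surjective φ (QuotientGroup.mk'_surjective _)
    have hR : IsPGroup 2 V.range := hA.to_subgroup _
    obtain ⟨n, hn⟩ := IsPGroup.iff_card.1 hR
    obtain ⟨m, rfl⟩ : ∃ m, n = m + 1 := Nat.exists_eq_succ_of_ne_zero (by
      rintro rfl
      rw [pow_zero, Nat.card_eq_one_iff_unique] at hn
      exact hne (congrArg Subtype.val (hn.1.elim ⟨V e, e, rfl⟩ 1)))
    obtain ⟨K, hK⟩ := Sylow.exists_subgroup_card_pow_prime (G := V.range) 2 (n := m)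
      (by rw [hn]; exact pow_dvd_pow 2 m.le_succ)
    refine hG (K.comap V.rangeRestrict) ?_
    rw [Subgroup.index_comap_of_surjective _ V.rangeRestrict_surjective]
    have := K.card_mul_index
    rw [hK, hn, pow_succ] at this
    exact Nat.eq_of_mul_eq_mul_left (by positivity) this
  haveI : Fintype (G ⧸ (S : Subgroup G)) := Fintype.ofFinite _
  haveI : Fintype (Quotient (MulAction.orbitRel (zpowers (e : G)) (G ⧸ (S : Subgroup G)))) := Fintype.ofFinite _
  have he' : (e : G) * e = 1 := congrArg Subtype.val he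
  let val : G ⧸ (S : Subgroup G) → Abelianization (S : Subgroup G) := fun c =>
    if h : c.out⁻¹ * (e : G) * c.out ∈ (S : Subgroup G) then φ ⟨_, h⟩ else 1
  have hval1 : ∀ (g : G) (h : g⁻¹ * (e : G) * g ∈ (S : Subgroup G)),
      val (QuotientGroup.mk g) = φ ⟨_, h⟩ := by
    intro g h
    obtain ⟨s, hs⟩ := QuotientGroup.mk_out_eq_mul (S : Subgroup G) g
    have e1 : (QuotientGroup.mk g : G ⧸ (S : Subgroup G)).out⁻¹ * (e : G) * (QuotientGroup.mk g : G ⧸ (S : Subgroup G)).out
        = ((s⁻¹ * ⟨_, h⟩ * s : (S : Subgroup G)) : G) := by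
      rw [hs]; push_cast; group
    simp only [val]
    rw [dif_pos (by rw [e1]; exact Subtype.coe_prop _)]
    rw [show (⟨_, _⟩ : (S : Subgroup G)) = s⁻¹ * ⟨_, h⟩ * s from Subtype.ext e1, map_mul, map_mul, map_inv,
      mul_comm (φ s)⁻¹, inv_mul_cancel_right]
  have hval0 : ∀ (g : G), g⁻¹ * (e : G) * g ∉ (S : Subgroup G) → val (QuotientGroup.mk g) = 1 := by
    intro g h
    obtain ⟨s, hs⟩ := QuotientGroup.mk_out_eq_mul (S : Subgroup G) g
    simp only [val]
    refine dif_neg fun h' => h ?_
    rw [hs] at h'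
    have := mul_mem (mul_mem s.2 h') (inv_mem s.2)
    simpa [mul_assoc] using this
  have hfix : ∀ g : G, (e : G) • (QuotientGroup.mk g : G ⧸ (S : Subgroup G)) = QuotientGroup.mk g ↔
      g⁻¹ * (e : G) * g ∈ (S : Subgroup G) := by
    intro g
    constructor
    · intro h
      have := QuotientGroup.eq.1 h.symm
      simpa [mul_assoc] using this
    · intro h
      exact (QuotientGroup.eq.2 (by simpa [mul_assoc] using h)).symm
  -- the transfer is the product of the values
  have hVval : V (e : G) = ∏ c, val c := by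
    rw [MonoidHom.transfer_eq_prod_quotient_orbitRel_zpowers_quot,
      ← (MulAction.selfEquivSigmaOrbits (zpowers (e : G)) (G ⧸ (S : Subgroup G))).symm.prod_comp,
      Fintype.prod_sigma]
    refine Finset.prod_congr rfl fun q _ => ?_
    have he2 : ∀ y, (MulAction.selfEquivSigmaOrbits (zpowers (e : G)) (G ⧸ (S : Subgroup G))).symm ⟨q, y⟩ = y.1 :=
      fun y => rfl
    simp only [he2]
    have hmkout : (QuotientGroup.mk q.out.out : G ⧸ (S : Subgroup G)) = q.out := QuotientGroup.out_eq' _
    by_cases hf : (e : G) • q.out = q.out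
    · have hper : Function.minimalPeriod ((e : G) • ·) q.out = 1 :=
        Function.minimalPeriod_eq_one_iff_isFixedPt.2 hf
      have huniq : ∀ c : MulAction.orbit (zpowers (e : G)) q.out, c = ⟨q.out, MulAction.mem_orbit_self _⟩ := by
        rintro ⟨_, ⟨⟨x, k, rfl⟩, rfl⟩⟩
        exact Subtype.ext (MulAction.mem_stabilizer_iff.1 (zpow_mem (MulAction.mem_stabilizer_iff.2 hf : (e : G) ∈ MulAction.stabilizer G q.out) k))
      rw [Fintype.prod_eq_single ⟨q.out, MulAction.mem_orbit_self _⟩ fun c hc => absurd (huniq c) hc]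
      have h' := (hfix q.out.out).1 (by rw [hmkout]; exact hf)
      show _ = val q.out
      conv_rhs => rw [← hmkout, hval1 _ h']
      congr 1
      exact Subtype.ext (by simp [hper])
    · have h2 : (e : G) • (e : G) • q.out = q.out := by rw [← mul_smul, he', one_smul]
      have hper : Function.minimalPeriod ((e : G) • ·) q.out = 2 := by
        exact Function.minimalPeriod_eq_prime h2 hf
      rw [Finset.prod_eq_one fun c _ => ?_]
      · rw [show (⟨_, _⟩ : (S : Subgroup G)) = 1 from Subtype.ext (by simp [hper, pow_two, he']), map_one]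
      · obtain ⟨_, ⟨⟨x, k, rfl⟩, rfl⟩⟩ := c
        obtain ⟨g, hg⟩ := QuotientGroup.mk_surjective (((e : G) ^ k) • q.out)
        show val (((e : G) ^ k) • q.out) = 1
        rw [← hg]
        refine hval0 g fun h => hf ?_
        have := (hfix g).2 h
        rw [hg, ← mul_smul, (Commute.self_zpow (e : G) k).eq, mul_smul] at this
        exact smul_left_cancel _ this
  -- split by the action of `S`
  haveI : Fintype (MulAction.fixedPoints (S : Subgroup G) (G ⧸ (S : Subgroup G))) := Fintype.ofFinite _
  have hinv : ∀ (x : (S : Subgroup G)) (c : G ⧸ (S : Subgroup G)), val (x • c) = val c := by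
    intro x c
    induction c using QuotientGroup.induction_on with
    | _ g =>
      have hxe : (x : G)⁻¹ * e * x = e := by
        rw [mul_assoc, show (e : G) * x = x * e from congrArg Subtype.val (hc x).symm, inv_mul_cancel_left]
      have e1 : ((x : G) * g)⁻¹ * e * ((x : G) * g) = g⁻¹ * e * g := by
        calc ((x : G) * g)⁻¹ * e * ((x : G) * g) = g⁻¹ * ((x : G)⁻¹ * e * x) * g := by group
          _ = _ := by rw [hxe]
      show val (QuotientGroup.mk ((x : G) * g)) = val (QuotientGroup.mk g)
      by_cases h : g⁻¹ * (e : G) * g ∈ (S : Subgroup G)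
      · rw [hval1 g h, hval1 _ (e1.symm ▸ h)]
        exact congrArg φ (Subtype.ext e1)
      · rw [hval0 g h, hval0 _ (e1.symm ▸ h)]
  have hsq : ∀ c, val c * val c = 1 := by
    intro c
    induction c using QuotientGroup.induction_on with
    | _ g =>
      by_cases h : g⁻¹ * (e : G) * g ∈ (S : Subgroup G)
      · rw [hval1 g h, ← map_mul, show (⟨_, h⟩ : (S : Subgroup G)) * ⟨_, h⟩ = 1 from Subtype.ext (by
          show g⁻¹ * (e : G) * g * (g⁻¹ * (e : G) * g) = 1
          calc g⁻¹ * (e : G) * g * (g⁻¹ * (e : G) * g) = g⁻¹ * ((e : G) * e) * g := by group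
            _ = 1 := by rw [he']; group), map_one]
      · rw [hval0 g h, one_mul]
  set F := MulAction.fixedPoints (S : Subgroup G) (G ⧸ (S : Subgroup G)) with hF
  have hrest : ∏ c ∈ Finset.univ.filter (fun c => c ∉ F), val c = 1 := by
    show ∏ c ∈ Finset.univ.filter (fun c => c ∉ F), id (val c) = 1
    rw [Finset.prod_comp (f := id) (g := val)]
    simp only [id]
    refine Finset.prod_eq_one fun a ha => ?_
    simp only [Finset.mem_image, Finset.mem_filter, Finset.mem_univ, true_and] at ha
    obtain ⟨c0, -, rfl⟩ := ha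
    let T : SubMulAction (S : Subgroup G) (G ⧸ (S : Subgroup G)) :=
      { carrier := {c | c ∉ F ∧ val c = val c0}
        smul_mem' := fun x c hc' => ⟨fun hx => hc'.1 (fun y => by
            have h1 : ∀ z : (S : Subgroup G), z • c = x • c := fun z => by
              have := hx (z * x⁻¹)
              rwa [← mul_smul, inv_mul_cancel_right] at this
            rw [h1 y, ← h1 1, one_smul]), (hinv x c).trans hc'.2⟩ }
    haveI : Finite T := Subtype.finite
    have hmod := S.2.card_modEq_card_fixedPoints T
    have h0 : Nat.card (MulAction.fixedPoints (S : Subgroup G) T) = 0 := by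
      rw [Nat.card_eq_zero]
      exact Or.inl ⟨fun ⟨c, hc'⟩ => c.2.1 fun y => congrArg Subtype.val (hc' y)⟩
    rw [h0] at hmod
    obtain ⟨k, hk⟩ := Nat.modEq_zero_iff_dvd.1 hmod
    have hcard : (Finset.filter (fun c => val c = val c0) (Finset.univ.filter fun c => c ∉ F)).card = Nat.card T := by
      rw [Finset.filter_filter]
      exact (Nat.subtype_card _ fun c => by simp; rfl).symm
    rw [hcard, hk, pow_mul, pow_two, hsq, one_pow]
  have hFval : ∀ c ∈ F, val c = φ e := by
    intro c hcF
    induction c using QuotientGroup.induction_on with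
    | _ g =>
      have hg : g ∈ Subgroup.normalizer ((S : Subgroup G) : Set G) :=
        Sylow.mem_fixedPoints_mul_left_cosets_iff_mem_normalizer.1 hcF
      have h : g⁻¹ * (e : G) * g ∈ (S : Subgroup G) := by
        have := (Subgroup.mem_normalizer_iff.1 (inv_mem hg) e).1 e.2
        simpa using this
      rw [hval1 g h]
      have := hN g hg h
      rw [← Abelianization.ker_of, MonoidHom.mem_ker, map_mul, map_inv, mul_inv_eq_one] at this
      exact this
  have hFodd : Odd (Nat.card F) := by
    have := S.2.card_modEq_card_fixedPoints (G ⧸ (S : Subgroup G))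
    have hodd : ¬ 2 ∣ (S : Subgroup G).index := S.not_dvd_index
    rw [← Subgroup.index_eq_card, ← hF] at this
    rw [Nat.odd_iff]
    unfold Nat.ModEq at this
    omega
  rw [hVval, ← Finset.prod_filter_mul_prod_filter_not Finset.univ (fun c => c ∈ F), hrest, mul_one,
    Finset.prod_congr rfl (fun c hc' => hFval c (Finset.mem_filter.1 hc').2), Finset.prod_const] at hV
  rw [show (Finset.univ.filter fun c => c ∈ F).card = Nat.card F from
    (Nat.subtype_card _ fun c => by simp).symm] at hV
  obtain ⟨k, hk⟩ := hFodd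
  rw [hk, pow_succ, pow_mul, pow_two, ← map_mul, he, map_one, one_pow, one_mul] at hV
  rw [← Abelianization.ker_of]
  exact hV

end transfer

section diag

variable {F : Type*} [Field F]

/-- Commuting matrices squaring to one have a basis of common eigenvectors with eigenvalues `±1`. -/
theorem span_eigen (h2 : (2 : F) ≠ 0) {n : ℕ} (l : List (Matrix (Fin n) (Fin n) F))
    (hsq : ∀ a ∈ l, a * a = 1) (hcm : ∀ a ∈ l, ∀ b ∈ l, a * b = b * a) :
    Submodule.span F {v : Fin n → F | ∀ a ∈ l, a *ᵥ v = v ∨ a *ᵥ v = -v} = ⊤ := by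
  induction l with
  | nil => simp
  | cons a l ih =>
    have h := ih (fun x hx => hsq x (List.mem_cons_of_mem _ hx))
      fun x hx y hy => hcm x (List.mem_cons_of_mem _ hx) y (List.mem_cons_of_mem _ hy)
    rw [← top_le_iff, ← h, Submodule.span_le]
    intro v hv
    have hdec : v = (2 : F)⁻¹ • (v + a *ᵥ v) + (2 : F)⁻¹ • (v - a *ᵥ v) := by
      rw [← smul_add, show v + a *ᵥ v + (v - a *ᵥ v) = (2 : F) • v by rw [two_smul]; abel, smul_smul,
        inv_mul_cancel₀ h2, one_smul]
    have haa : a *ᵥ (a *ᵥ v) = v := by rw [Matrix.mulVec_mulVec, hsq a (List.mem_cons_self ..), Matrix.one_mulVec]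
    rw [hdec]
    refine add_mem (Submodule.smul_mem _ _ (Submodule.subset_span fun b hb => ?_))
      (Submodule.smul_mem _ _ (Submodule.subset_span fun b hb => ?_))
    all_goals
      rcases List.mem_cons.1 hb with rfl | hbl
      · first
        | exact Or.inl (by rw [Matrix.mulVec_add, haa, add_comm])
        | exact Or.inr (by rw [Matrix.mulVec_sub, haa]; abel)
      · have hba : b *ᵥ (a *ᵥ v) = a *ᵥ (b *ᵥ v) := by
          rw [Matrix.mulVec_mulVec, Matrix.mulVec_mulVec, hcm b hb a (List.mem_cons_self ..)]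
        rcases hv b hbl with h' | h'
        · left; simp [Matrix.mulVec_add, Matrix.mulVec_sub, hba, h']
        · right; simp [Matrix.mulVec_add, Matrix.mulVec_sub, Matrix.mulVec_neg, hba, h']; abel

end diag


/-- Let G be a finite group with no subgroup of index 2 whose Sylow 2-subgroup X embeds in GL₃(F) for a finite field F of odd order. If X contains an elementary abelian subgroup of order 8, then X is abelian. -/
theorem result {G : Type*} [Group G] [Finite G] (hG : ∀ H : Subgroup G, H.index ≠ 2) (X : Sylow 2 G)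
    {F : Type*} [Field F] [Fintype F] (hF : Odd (Fintype.card F))
    (f : ↥(X : Subgroup G) →* GL (Fin 3) F) (hf : Function.Injective f)
    (E : Subgroup G) (hE : E ≤ (X : Subgroup G)) (hEa : Cfsg.IsElementaryAbelian 2 E) (hE8 : Nat.card E = 8) :
    IsMulCommutative (X : Subgroup G) := by
  classical
  haveI : Fact (Nat.Prime 2) := ⟨Nat.prime_two⟩
  by_contra hna
  have h2 : (2 : F) ≠ 0 := Ring.two_ne_zero fun h => by
    have := FiniteField.even_card_iff_char_two.1 h
    rw [Nat.odd_iff] at hF
    omega
  -- a basis of common eigenvectors of `E`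
  let E' : Subgroup (X : Subgroup G) := E.subgroupOf (X : Subgroup G)
  have hE'8 : Nat.card E' = 8 := by
    rw [← hE8]; exact Nat.card_congr (Subgroup.subgroupOfEquivOfLe hE).toEquiv
  have hEcomm : ∀ a b : E', (a : (X : Subgroup G)) * b = b * a := fun a b => Subtype.ext (by
    have := hEa.1.is_comm.comm (⟨((a : (X : Subgroup G)) : G), a.2⟩ : E) ⟨((b : (X : Subgroup G)) : G), b.2⟩
    exact (congrArg Subtype.val this :))
  have hEsq : ∀ a : E', (a : (X : Subgroup G)) * a = 1 := fun a => Subtype.ext (by
    have := hEa.2 _ a.2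
    rwa [pow_two] at this)
  let M : ↥(X : Subgroup G) → Matrix (Fin 3) (Fin 3) F := fun x => (f x : GL (Fin 3) F)
  have hMmul : ∀ x y, M (x * y) = M x * M y := fun x y => by simp [M]
  have hMone : M 1 = 1 := by simp [M]
  have hMinj : Function.Injective M := fun x y h => hf (Units.ext h)
  haveI : Fintype E' := Fintype.ofFinite _
  let l : List (Matrix (Fin 3) (Fin 3) F) := (Finset.univ : Finset E').toList.map fun a => M a.1
  have hspan := span_eigen h2 l
    (by
      intro a ha
      obtain ⟨x, -, rfl⟩ := List.mem_map.1 ha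
      rw [← hMmul, hEsq, hMone])
    (by
      intro a ha b hb
      obtain ⟨x, -, rfl⟩ := List.mem_map.1 ha
      obtain ⟨y, -, rfl⟩ := List.mem_map.1 hb
      rw [← hMmul, ← hMmul, hEcomm])
  obtain ⟨b, hb, hbspan, hbli⟩ := exists_linearIndependent F
    {v : Fin 3 → F | ∀ a ∈ l, a *ᵥ v = v ∨ a *ᵥ v = -v}
  rw [hspan] at hbspan
  let B0 := Module.Basis.mk hbli (by rw [Subtype.range_coe_subtype, Set.setOf_mem_eq, hbspan])
  haveI : Fintype b := FiniteDimensional.fintypeBasisIndex B0
  have hcard : Fintype.card b = 3 := by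
    rw [← Module.finrank_eq_card_basis B0, Module.finrank_fin_fun]
  let B := B0.reindex (Fintype.equivFinOfCardEq hcard)
  have hB : ∀ (a : E') (i : Fin 3), M a.1 *ᵥ B i = B i ∨ M a.1 *ᵥ B i = -B i := by
    intro a i
    have : B i ∈ b := by simp [B, B0]
    exact hb this (M a.1) (List.mem_map.2 ⟨a, Finset.mem_toList.2 (Finset.mem_univ a), rfl⟩)
  have hne0 : ∀ i, B i ≠ -B i := fun i h => B.ne_zero i (by
    have h' : (2 : F) • B i = 0 := by
      rw [two_smul]; exact (congrArg (B i + ·) h).trans (add_neg_cancel _)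
    exact (smul_eq_zero.1 h').resolve_left h2)
  have hext : ∀ x y : (X : Subgroup G), (∀ i, M x *ᵥ B i = M y *ᵥ B i) → x = y := fun x y h =>
    hMinj (Matrix.toLin'.injective (B.ext fun i => by simpa [Matrix.toLin'_apply] using h i))
  let σ : E' → Fin 3 → Bool := fun a i => decide (M a.1 *ᵥ B i = B i)
  have hσ : Function.Injective σ := by
    intro a c hac
    refine Subtype.ext (hext _ _ fun i => ?_)
    have h1 : M a.1 *ᵥ B i = B i ↔ M c.1 *ᵥ B i = B i := by simpa [σ] using congrFun hac i
    rcases hB a i with ha | ha <;> rcases hB c i with hc | hc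
    · rw [ha, hc]
    · rw [ha, h1.1 ha]
    · rw [hc, h1.2 hc]
    · rw [ha, hc]
  have hσs : Function.Surjective σ := ((Fintype.bijective_iff_injective_and_card σ).2 ⟨hσ, by
    rw [← Nat.card_eq_fintype_card, hE'8]; rfl⟩).2
  have hsign : ∀ s : Fin 3 → Bool, ∃ a : E', ∀ i, M a.1 *ᵥ B i = if s i then B i else -B i := by
    intro s
    obtain ⟨a, ha⟩ := hσs s
    refine ⟨a, fun i => ?_⟩
    have h1 := congrFun ha i
    rcases hB a i with h | h
    · rw [← h1, if_pos (by simp [σ, h])]; exact h
    · rw [← h1, if_neg (by simp [σ, h, (hne0 i).symm])]; exact h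
  -- centralizers of `E` are diagonal
  have hdiag : ∀ x : (X : Subgroup G), (∀ a : E', x * a = a * x) → ∀ i, ∃ c : F, M x *ᵥ B i = c • B i := by
    intro x hx i
    obtain ⟨a, ha⟩ := hsign fun j => decide (j = i)
    set w := M x *ᵥ B i with hw
    refine ⟨B.repr w i, ?_⟩
    have haw : M a.1 *ᵥ w = w := by
      have hai : M a.1 *ᵥ B i = B i := by rw [ha i]; simp
      rw [hw, Matrix.mulVec_mulVec, ← hMmul, ← hx, hMmul, ← Matrix.mulVec_mulVec, hai]
    have hrepr : ∀ j, B.repr (M a.1 *ᵥ w) j = (if j = i then 1 else -1) * B.repr w j := by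
      intro j
      have hlin : (B.coord j).comp (Matrix.toLin' (M a.1)) = (if j = i then (1 : F) else -1) • B.coord j := by
        refine B.ext fun k => ?_
        simp only [LinearMap.comp_apply, Matrix.toLin'_apply, ha k, LinearMap.smul_apply,
          Module.Basis.coord_apply]
        by_cases hki : k = i <;> by_cases hkj : k = j <;> simp_all [Finsupp.single_apply]
      have h9 := congrArg (fun g => g w) hlin
      simpa only [LinearMap.comp_apply, Matrix.toLin'_apply, LinearMap.smul_apply, Module.Basis.coord_apply,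
        smul_eq_mul] using h9
    apply B.repr.injective
    ext j
    by_cases hj : j = i
    · subst hj; simp
    · have := hrepr j
      rw [haw, if_neg hj, neg_one_mul] at this
      have h0 : (2 : F) * B.repr w j = 0 := by linear_combination this
      simp [(mul_eq_zero.1 h0).resolve_left h2, Ne.symm hj]
  have hcentcomm : ∀ x y : (X : Subgroup G), (∀ a : E', x * a = a * x) → (∀ a : E', y * a = a * y) →
      x * y = y * x := by
    intro x y hx hy
    refine hext _ _ fun i => ?_
    obtain ⟨c, hc⟩ := hdiag x hx i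
    obtain ⟨d, hd⟩ := hdiag y hy i
    rw [hMmul, hMmul, ← Matrix.mulVec_mulVec, ← Matrix.mulVec_mulVec, hd, hc, Matrix.mulVec_smul,
      Matrix.mulVec_smul, hc, hd, smul_smul, smul_smul, mul_comm]
  have hinvE : ∀ x : (X : Subgroup G), x * x = 1 → (∀ a : E', x * a = a * x) → x ∈ E' := by
    intro x hx2 hx
    have hpm : ∀ i, M x *ᵥ B i = B i ∨ M x *ᵥ B i = -B i := by
      intro i
      obtain ⟨c, hc⟩ := hdiag x hx i
      have h1 : (c * c) • B i = (1 : F) • B i := by
        rw [← smul_smul, ← hc, ← Matrix.mulVec_smul, ← hc, Matrix.mulVec_mulVec, ← hMmul, hx2, hMone,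
          Matrix.one_mulVec, one_smul]
      rcases mul_self_eq_one_iff.1 (smul_left_injective F (B.ne_zero i) h1) with rfl | rfl
      · exact Or.inl (by rw [hc, one_smul])
      · exact Or.inr (by rw [hc, neg_one_smul])
    obtain ⟨a, ha⟩ := hsign fun i => decide (M x *ᵥ B i = B i)
    have : x = a.1 := hext _ _ fun i => by
      rw [ha i]
      rcases hpm i with h | h
      · rw [if_pos (by simp [h]), h]
      · rw [if_neg (by simp [h, (hne0 i).symm]), h]
    rw [this]; exact a.2
  -- the element acting as minus one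
  obtain ⟨z, hz⟩ := hsign fun _ => false
  have hMz : M z.1 = -1 := Matrix.toLin'.injective (B.ext fun i => by
    simp only [Matrix.toLin'_apply, Matrix.neg_mulVec, Matrix.one_mulVec]
    simpa using hz i)
  have hzc : ∀ x : (X : Subgroup G), x * z.1 = z.1 * x := fun x => hMinj (by
    rw [hMmul, hMmul, hMz, mul_neg, mul_one, neg_mul, one_mul])
  have hdet : ∀ x ∈ commutator (X : Subgroup G), (M x).det = 1 := by
    intro x hx
    have h : commutator (X : Subgroup G) ≤ (Matrix.GeneralLinearGroup.det.comp f).ker :=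
      Abelianization.commutator_subset_ker _
    have := congrArg Units.val (MonoidHom.mem_ker.1 (h hx))
    simpa [M] using this
  have hzder : z.1 ∉ commutator (X : Subgroup G) := fun h => by
    have := hdet _ h
    rw [hMz, Matrix.det_neg, Matrix.det_one, mul_one, Fintype.card_fin] at this
    exact h2 (by linear_combination (-1 : F) * this)
  refine hzder (mem_commutator_of_central_involution hG X z.1 (hEsq z) hzc fun n hn hmem => ?_)
  set w : (X : Subgroup G) := ⟨_, hmem⟩ with hw
  -- conjugation by `n`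
  let cn : (X : Subgroup G) →* (X : Subgroup G) :=
    MonoidHom.codRestrict ((MulAut.conj n).toMonoidHom.comp (X : Subgroup G).subtype) _ fun x =>
      (Subgroup.mem_normalizer_iff.1 hn x).1 x.2
  have hcnw : cn w = z.1 := Subtype.ext (by show n * (n⁻¹ * (z.1 : G) * n) * n⁻¹ = _; group)
  have hwc : ∀ x : (X : Subgroup G), x * w = w * x := by
    intro x
    have := hzc (cn x)
    rw [← hcnw, ← map_mul, ← map_mul] at this
    refine Subtype.ext ?_
    have h' : n * ((x * w : (X : Subgroup G)) : G) * n⁻¹ = n * ((w * x : (X : Subgroup G)) : G) * n⁻¹ :=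
      congrArg Subtype.val this
    simpa using h'
  have hw2 : w * w = 1 := Subtype.ext (by
    show n⁻¹ * (z.1 : G) * n * (n⁻¹ * (z.1 : G) * n) = 1
    have : (z.1 : G) * z.1 = 1 := congrArg Subtype.val (hEsq z)
    calc n⁻¹ * (z.1 : G) * n * (n⁻¹ * (z.1 : G) * n) = n⁻¹ * ((z.1 : G) * z.1) * n := by group
      _ = 1 := by rw [this]; group)
  have hwE : w ∈ E' := hinvE w hw2 fun a => (hwc a).symm
  have hwder : w ∉ commutator (X : Subgroup G) := fun h => hzder (by
    rw [← hcnw]
    exact (Subgroup.map_commutator _ _ cn).trans_le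
      (Subgroup.commutator_mono le_top le_top) (Subgroup.mem_map_of_mem cn h))
  -- a central involution of the derived group
  have hder : commutator (X : Subgroup G) ≠ ⊥ := fun h => hna ⟨⟨fun a b =>
    commutatorElement_eq_one_iff_mul_comm.1 (Subgroup.mem_bot.1 (h ▸
      Subgroup.commutator_mem_commutator (Subgroup.mem_top a) (Subgroup.mem_top b)))⟩⟩
  obtain ⟨c, hcder, hc1, hcZ⟩ := CfsgLib.TwoGroups.exists_mem_center_of_normal X.2 hder
  obtain ⟨k, hk⟩ := IsPGroup.iff_orderOf.mp X.2 c
  have hk0 : k ≠ 0 := fun h0 => hc1 (orderOf_eq_one_iff.mp (by rw [hk, h0, pow_zero]))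
  set v := c ^ 2 ^ (k - 1) with hv
  have hv2 : v * v = 1 := by
    rw [hv, ← pow_add, ← two_mul, ← pow_succ', show k - 1 + 1 = k by omega, ← hk, pow_orderOf_eq_one]
  have hv1 : v ≠ 1 := pow_ne_one_of_lt_orderOf (by positivity) (by
    rw [hk]; exact Nat.pow_lt_pow_right (by norm_num) (by omega))
  have hvder : v ∈ commutator (X : Subgroup G) := pow_mem hcder _
  have hvc : ∀ x : (X : Subgroup G), x * v = v * x := fun x => Subgroup.mem_center_iff.1 (pow_mem hcZ _) x
  have hvE : v ∈ E' := hinvE v hv2 fun a => (hvc a).symm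
  -- the central part of `E` has order at most four
  set Z := Subgroup.center (X : Subgroup G) ⊓ E' with hZ
  have hZlt : Z < E' := lt_of_le_of_ne inf_le_right fun h => hna ⟨⟨fun x y => hcentcomm x y
    (fun a => Subgroup.mem_center_iff.1 (inf_eq_right.1 h a.2) x)
    (fun a => Subgroup.mem_center_iff.1 (inf_eq_right.1 h a.2) y)⟩⟩
  have hZ4 : Nat.card Z ≤ 4 := by
    have h1 := Subgroup.card_dvd_of_le hZlt.le
    have h2' : Nat.card Z ≠ 8 := fun h => hZlt.ne (Subgroup.eq_of_le_of_card_ge hZlt.le (by omega))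
    rw [hE'8] at h1
    have := Nat.le_of_dvd (by norm_num) h1
    rcases h1 with ⟨m, hm⟩
    rcases m with _ | _ | m
    · omega
    · omega
    · nlinarith
  by_contra hout
  have hzi : z.1⁻¹ = z.1 := inv_eq_of_mul_eq_one_right (hEsq z)
  rw [hzi] at hout
  have mZ : ∀ x : (X : Subgroup G), (∀ y, y * x = x * y) → x ∈ E' → x ∈ Z := fun x h1 h2 =>
    ⟨Subgroup.mem_center_iff.2 h1, h2⟩
  let S5 : Finset (X : Subgroup G) := {1, z.1, v, z.1 * v, w}
  have hsub : ∀ x ∈ S5, x ∈ Z := by
    intro x hx
    simp only [S5, Finset.mem_insert, Finset.mem_singleton] at hx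
    rcases hx with rfl | rfl | rfl | rfl | rfl
    · exact one_mem _
    · exact mZ _ hzc z.2
    · exact mZ _ hvc hvE
    · exact Subgroup.mul_mem _ (mZ _ hzc z.2) (mZ _ hvc hvE)
    · exact mZ _ hwc hwE
  have h5 : S5.card = 5 := by
    have a1 : z.1 ≠ 1 := fun h => hzder (h ▸ one_mem _)
    have a2 : z.1 * v ∉ commutator (X : Subgroup G) := fun h =>
      hzder (by simpa using Subgroup.mul_mem _ h (Subgroup.inv_mem _ hvder))
    have a3 : z.1 ≠ v := fun h => hzder (h ▸ hvder)
    have a4 : z.1 ≠ z.1 * v := fun h => hv1 (by simpa using h.symm)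
    have a5 : w ≠ 1 := fun h => hwder (h ▸ one_mem _)
    have a6 : w ≠ v := fun h => hwder (h ▸ hvder)
    have a7 : w ≠ z.1 := fun h => hout (by rw [h, hEsq z]; exact one_mem _)
    have a8 : w ≠ z.1 * v := fun h => hout (by
      rw [h, mul_assoc, hvc z.1 |>.symm, ← mul_assoc, hEsq z, one_mul]; exact hvder)
    have a9 : (1 : (X : Subgroup G)) ≠ z.1 * v := fun h => a2 (h ▸ one_mem _)
    have a10 : v ≠ z.1 * v := fun h => a1 (by simpa using h.symm)
    simp [S5, Ne.symm a1, Ne.symm hv1, a3, a4, Ne.symm a5, Ne.symm a6, Ne.symm a7, Ne.symm a8, a9, a10]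
  have : S5.card ≤ Nat.card Z := by
    haveI : Fintype Z := Fintype.ofFinite _
    rw [Nat.card_eq_fintype_card, ← Finset.card_univ]
    refine Finset.card_le_card_of_injOn (fun x => if h : x ∈ Z then (⟨x, h⟩ : Z) else 1)
      (fun _ _ => Finset.mem_univ _) fun x hx y hy h => ?_
    simp only [dif_pos (hsub x hx), dif_pos (hsub y hy)] at h
    exact congrArg Subtype.val h
  omega

end Cfsg.Agent.S1906
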