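import Cfsg.Statements.S1907
import Cfsg.Agent.Lib.PushUp.PPrimeP

set_option autoImplicit false
open Cfsg

namespace Cfsg.Agent.S1907

/-- Let P be a Sylow p-subgroup of a finite group G, H = P ∩ O_{p',p}(G), N = N_G(H) and D = O_{p'}(G). (a) If y is an element of p-power order of N and d ∈ D with d⁻¹ y d ∈ N, then d = d₁ d₂ with d₁ ∈ C_D(y) and d₂ ∈ C_D(H). (b) Two elements of P that are conjugate in G are conjugate in N. -/
theorem result {G : Type*} [Group G] [Finite G] {p : ℕ} [Fact p.Prime] (P : Sylow p G) :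
    (∀ y ∈ Subgroup.normalizer (((P : Subgroup G) ⊓ Cfsg.pPrimePCore p G : Subgroup G) : Set G), (∃ k : ℕ, orderOf y = p ^ k) →
      ∀ d ∈ Cfsg.pPrimeCore p G, d⁻¹ * y * d ∈ Subgroup.normalizer (((P : Subgroup G) ⊓ Cfsg.pPrimePCore p G : Subgroup G) : Set G) →
        ∃ d₁ ∈ Cfsg.pPrimeCore p G ⊓ Subgroup.centralizer ({y} : Set G),
          ∃ d₂ ∈ Cfsg.pPrimeCore p G ⊓ Subgroup.centralizer (((P : Subgroup G) ⊓ Cfsg.pPrimePCore p G : Subgroup G) : Set G), d = d₁ * d₂) ∧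
    ∀ x y : G, x ∈ (P : Subgroup G) → y ∈ (P : Subgroup G) → IsConj x y →
      ∃ n ∈ Subgroup.normalizer (((P : Subgroup G) ⊓ Cfsg.pPrimePCore p G : Subgroup G) : Set G), n * x * n⁻¹ = y := by
  set N := Subgroup.normalizer (((P : Subgroup G) ⊓ Cfsg.pPrimePCore p G : Subgroup G) : Set G)
  constructor
  · intro y hy hyp d hd hyd
    have hQ : IsPGroup p (Subgroup.zpowers y) := by
      obtain ⟨k, hk⟩ := hyp
      exact IsPGroup.of_card (by rw [Nat.card_zpowers, hk])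
    have hdQ : CfsgLib.PushUp.cmap d⁻¹ (Subgroup.zpowers y) ≤ N := by
      rw [CfsgLib.PushUp.cmap, MonoidHom.map_zpowers, Subgroup.zpowers_le]
      simpa using hyd
    obtain ⟨e, ⟨heD, heN⟩, he⟩ := CfsgLib.PushUp.exists_pPrimeCore_inf_conj_eq hQ
      (Subgroup.zpowers_le.mpr hy) (inv_mem hd) hdQ
    have he' := he y (Subgroup.mem_zpowers y)
    refine ⟨d * e, ⟨Subgroup.mul_mem _ hd heD, ?_⟩, e⁻¹,
      ⟨Subgroup.inv_mem _ heD, Subgroup.inv_mem _ ?_⟩, by group⟩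
    · refine Subgroup.mem_centralizer_singleton_iff.mpr ?_
      calc d * e * y = d * (e * y * e⁻¹) * e := by group
        _ = y * (d * e) := by rw [he']; group
    · exact CfsgLib.PushUp.pPrimeCore_inf_normalizer_le (CfsgLib.PushUp.isPGroup_inf_pPrimePCore P) ⟨heD, heN⟩
  · intro x y hx hy hxy
    obtain ⟨g, hg⟩ := isConj_iff.mp hxy
    obtain ⟨n, hn, he⟩ := CfsgLib.PushUp.exists_normalizer_conj_eq P (Q := Subgroup.zpowers x)
      (Subgroup.zpowers_le.mpr hx) (g := g) (by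
        rw [CfsgLib.PushUp.cmap, MonoidHom.map_zpowers, Subgroup.zpowers_le]
        simpa [hg] using hy)
    exact ⟨n, hn, (he x (Subgroup.mem_zpowers x)).trans hg⟩

end Cfsg.Agent.S1907
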