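import Cfsg.Statements.S1924
import Cfsg.Agent.Lib.Involutions.ThompsonTransfer
import Cfsg.Agent.Lib.InvChar.Transfer
import Cfsg.Agent.Lib.Transfer.Residual

set_option autoImplicit false
open Cfsg

namespace Cfsg.Agent.S1924

open Subgroup

/-- A permutation of a set of size `n * odd` (`n` a power of two, not one) all whose cycles have
length `n` is odd. -/
theorem sign_eq_neg_one_of_semiregular {X : Type*} [Fintype X] [DecidableEq X] (σ : Equiv.Perm X)
    {n : ℕ} (hn : Even n) (hn0 : 0 < n) (hpow : σ ^ n = 1)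
    (hfree : ∀ j, 0 < j → j < n → ∀ x, (σ ^ j) x ≠ x) (k : ℕ) (hk : Fintype.card X = n * k)
    (hodd : Odd k) : Equiv.Perm.sign σ = -1 := by
  have hall : ∀ l ∈ σ.cycleType, l = n := by
    intro l hl
    have hle : l ≤ n := Nat.le_of_dvd hn0 ((Equiv.Perm.dvd_of_mem_cycleType hl).trans
      (orderOf_dvd_of_pow_eq_one hpow))
    rw [Equiv.Perm.cycleType_def, Multiset.mem_map] at hl
    obtain ⟨c, hc, hlc⟩ := hl
    obtain ⟨hcyc, hagree⟩ := Equiv.Perm.mem_cycleFactorsFinset_iff.1 hc
    obtain ⟨a, ha⟩ := hcyc.nonempty_support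
    have hpw : ∀ i, (σ ^ i) a = (c ^ i) a := by
      intro i
      induction i with
      | zero => simp
      | succ i ih =>
        rw [pow_succ', pow_succ', Equiv.Perm.mul_apply, Equiv.Perm.mul_apply, ih]
        exact (hagree _ (Equiv.Perm.pow_apply_mem_support.2 ha)).symm
    by_contra hne
    have hl0 : 0 < l := hlc ▸ Finset.card_pos.2 ⟨a, ha⟩
    refine hfree l hl0 (lt_of_le_of_ne hle hne) a ?_
    rw [hpw, show l = orderOf c by rw [hcyc.orderOf]; exact hlc.symm, pow_orderOf_eq_one]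
    rfl
  have hrep := Multiset.eq_replicate_card.2 hall
  by_cases h1 : n = 1
  · rw [h1] at hn; exact absurd hn (by decide)
  have hsupp : σ.support = Finset.univ := by
    refine Finset.eq_univ_iff_forall.2 fun x => Equiv.Perm.mem_support.2 ?_
    have := hfree 1 one_pos (by omega) x
    rwa [pow_one] at this
  have hsum := σ.sum_cycleType
  rw [hsupp, Finset.card_univ, hk, hrep, Multiset.sum_replicate, smul_eq_mul, mul_comm] at hsum
  have hm : Multiset.card σ.cycleType = k := Nat.eq_of_mul_eq_mul_left hn0 hsum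
  rw [Equiv.Perm.sign_of_cycleType, hrep, Multiset.sum_replicate, Multiset.card_replicate, hm,
    smul_eq_mul, pow_add, (hn.mul_left k).neg_one_pow, hodd.neg_one_pow, one_mul]

theorem orderOf_two_of_mem_dihedral {n : ℕ} [NeZero n] {C : Subgroup (DihedralGroup n)}
    (hC : IsCyclic C) (hi : C.index = 2) {x : DihedralGroup n} (hx : x ∉ C) (hn2 : 2 ≤ n) :
    orderOf x = 2 := by
  obtain ⟨u, rfl⟩ := (Subgroup.isCyclic_iff_exists_zpowers_eq_top C).1 hC
  have hcard := (Subgroup.zpowers u).card_mul_index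
  rw [Nat.card_zpowers, hi, DihedralGroup.nat_card] at hcard
  cases x with
  | sr i => exact DihedralGroup.orderOf_sr i
  | r i =>
    cases u with
    | sr j =>
      rw [DihedralGroup.orderOf_sr] at hcard
      have hn : n = 2 := by omega
      subst hn
      refine orderOf_eq_prime ?_ fun h => hx (h ▸ one_mem _)
      rw [pow_two, DihedralGroup.r_mul_r, DihedralGroup.one_def]
      congr 1
      clear hx
      revert i
      decide
    | r j =>
      refine absurd ?_ hx
      have hle : Subgroup.zpowers (DihedralGroup.r j) ≤ Subgroup.zpowers (DihedralGroup.r (1 : ZMod n)) := by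
        rw [Subgroup.zpowers_le]
        exact ⟨(j.val : ℤ), by simp⟩
      have he := Subgroup.eq_of_le_of_card_ge hle (by
        rw [Nat.card_zpowers, Nat.card_zpowers, DihedralGroup.orderOf_r_one]; omega)
      rw [he]
      exact ⟨(i.val : ℤ), by simp⟩


/-- A consequence of Thompson's transfer lemma. Let G be a finite group, L a subgroup with O²(L) = L, T a Sylow 2-subgroup of L and S a Sylow 2-subgroup of G containing T. Suppose D ≤ S is a dihedral subgroup of order at least 4 (the four-group counts) with D ∩ T = 1 and S = TD as a set of products (so |S| = |T|·|D|), and C ≤ D is cyclic of index 2 in D. If no involution of D outside C is G-conjugate to an involution of the subgroup generated by T and C, and the involution of C is not G-conjugate to any involution of T, then G has a normal subgroup K, containing every Sylow 2-subgroup of L as a Sylow 2-subgroup, with G = KD. -/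
theorem result {G : Type*} [Group G] [Finite G] (L T S D C : Subgroup G) (hL : Cfsg.pResidual 2 ↥L = ⊤)
    (hTL : T ≤ L) (hT2 : IsPGroup 2 T) (hTsyl : ¬ 2 ∣ T.relIndex L)
    (hS2 : IsPGroup 2 S) (hSsyl : ¬ 2 ∣ S.index) (hTS : T ≤ S)
    (hDS : D ≤ S) (hDih : ∃ n : ℕ, 2 ≤ n ∧ Nonempty (↥D ≃* DihedralGroup n)) (hDT : D ⊓ T = ⊥) (hTD : T ⊔ D = S) (hTDc : Nat.card T * Nat.card D = Nat.card S)
    (hCD : C ≤ D) (hC : IsCyclic ↥C) (hCi : C.relIndex D = 2)
    (h1 : ∀ x ∈ D, x ∉ C → orderOf x = 2 → ∀ g : G, g * x * g⁻¹ ∈ T ⊔ C → False)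
    (h2 : ∀ c ∈ C, orderOf c = 2 → ∀ g : G, g * c * g⁻¹ ∈ T → False) :
    ∃ K : Subgroup G, K.Normal ∧ K ⊔ D = ⊤ ∧
      ∀ T' : Subgroup G, T' ≤ L → IsPGroup 2 T' → ¬ 2 ∣ T'.relIndex L → T' ≤ K ∧ ¬ 2 ∣ T'.relIndex K := by
  classical
  obtain ⟨n, hn2, ⟨e⟩⟩ := hDih
  haveI : NeZero n := ⟨by omega⟩
  haveI : Fact (Nat.Prime 2) := ⟨Nat.prime_two⟩
  have hinvol : ∀ x ∈ D, x ∉ C → orderOf x = 2 := by
    intro x hxD hxC
    have hcyc : IsCyclic ((C.subgroupOf D).map e.toMonoidHom) :=
      isCyclic_of_surjective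
        ((e.toMonoidHom.subgroupMap (C.subgroupOf D)).comp (Subgroup.subgroupOfEquivOfLe hCD).symm.toMonoidHom)
        ((e.toMonoidHom.subgroupMap_surjective _).comp (Subgroup.subgroupOfEquivOfLe hCD).symm.surjective)
    have hidx : ((C.subgroupOf D).map e.toMonoidHom).index = 2 :=
      (Subgroup.index_map_equiv _ e).trans hCi
    have hnot : e ⟨x, hxD⟩ ∉ (C.subgroupOf D).map e.toMonoidHom := by
      rintro ⟨y, hy, hy'⟩
      rw [e.injective hy'] at hy
      exact hxC hy
    have := orderOf_two_of_mem_dihedral hcyc hidx hnot hn2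
    rwa [MulEquiv.orderOf_eq, ← Subgroup.orderOf_coe] at this
  have hprod : ∀ s ∈ S, ∃ t ∈ T, ∃ d ∈ D, t * d = s := by
    intro s hs
    let m : T × D → S := fun q => ⟨(q.1 : G) * q.2, mul_mem (hTS q.1.2) (hDS q.2.2)⟩
    have hinj : Function.Injective m := by
      intro a b hab
      have h : (a.1 : G) * a.2 = b.1 * b.2 := congrArg Subtype.val hab
      have h' : (b.1 : G)⁻¹ * a.1 = b.2 * (a.2 : G)⁻¹ := by
        rw [inv_mul_eq_iff_eq_mul, ← mul_assoc, ← h, mul_inv_cancel_right]
      have hmem : (b.1 : G)⁻¹ * a.1 ∈ D ⊓ T :=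
        ⟨(by rw [h']; exact D.mul_mem b.2.2 (D.inv_mem a.2.2)), T.mul_mem (T.inv_mem b.1.2) a.1.2⟩
      rw [hDT, Subgroup.mem_bot, inv_mul_eq_one] at hmem
      refine Prod.ext (Subtype.ext hmem.symm) (Subtype.ext ?_)
      rw [hmem] at h
      exact mul_left_cancel h
    obtain ⟨q, hq⟩ := (hinj.bijective_of_nat_card_le (by rw [Nat.card_prod, hTDc])).2 ⟨s, hs⟩
    exact ⟨q.1, q.1.2, q.2, q.2.2, congrArg Subtype.val hq⟩
  set Sy : Sylow 2 G := hS2.toSylow hSsyl with hSy
  have hSy' : (Sy : Subgroup G) = S := rfl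
  set K := Cfsg.pResidual 2 G with hK
  haveI hKn : K.Normal := CfsgLib.Transfer.pResidual_normal
  have hLK : L ≤ K := by
    have := CfsgLib.Transfer.map_subtype_pResidual_le (p := 2) L
    rw [hL, ← MonoidHom.range_eq_map, Subgroup.range_subtype] at this
    exact this
  -- `T ⊔ C` is a subgroup of index two
  have hKC : K ⊓ D ≤ C := by
    intro x hx
    by_contra hxC
    have hx2 := hinvol x hx.2 hxC
    have hne : T ⊔ C < S := lt_of_le_of_ne (sup_le hTS (hCD.trans hDS)) fun h =>
      h1 x hx.2 hxC hx2 1 (by simpa [h] using hDS hx.2)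
    obtain ⟨M, hM, hMi⟩ : ∃ M : Subgroup G, T ⊔ C ≤ M ∧ M.relIndex S = 2 ∧ ∀ g : G, g * x * g⁻¹ ∉ M := by
      refine ⟨T ⊔ C, le_rfl, ?_, h1 x hx.2 hxC hx2⟩
      have hd : (T ⊔ C).relIndex S ∣ T.relIndex S := Subgroup.relIndex_dvd_of_le_left S le_sup_left
      have h1' : (T ⊔ C).relIndex S ≠ 1 := fun h => hne.not_ge (Subgroup.relIndex_eq_one.1 h)
      have hle : (T ⊔ C).relIndex S ≤ 2 := by
        have hsur : Function.Surjective
            (fun d : D ⧸ C.subgroupOf D => Quotient.liftOn' d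
              (fun d => (QuotientGroup.mk (⟨(d : G)⁻¹, inv_mem (hDS d.2)⟩ : S)⁻¹ : S ⧸ (T ⊔ C).subgroupOf S))
              (by
                intro a b hab
                rw [QuotientGroup.leftRel_apply] at hab
                refine QuotientGroup.eq.2 ?_
                simpa [Subgroup.mem_subgroupOf] using
                  Subgroup.mem_sup_right (S := T) (Subgroup.mem_subgroupOf.1 hab))) := by
          intro q
          induction q using QuotientGroup.induction_on with
          | _ s =>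
            obtain ⟨t, ht, d, hd, he⟩ := hprod _ (inv_mem s.2)
            refine ⟨QuotientGroup.mk ⟨d⁻¹, inv_mem hd⟩, QuotientGroup.eq.2 ?_⟩
            have hs : (s : G) = d⁻¹ * t⁻¹ := by rw [← mul_inv_rev, he, inv_inv]
            simp only [Subgroup.mem_subgroupOf, Subgroup.coe_mul, Subgroup.coe_inv, inv_inv, hs]
            simpa using Subgroup.mem_sup_left (T := C) (inv_mem ht)
        exact (Nat.card_le_card_of_surjective _ hsur).trans hCi.le
      have : (T ⊔ C).relIndex S ≠ 0 := Subgroup.index_ne_zero_of_finite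
      omega
    obtain ⟨hM2, hMc⟩ := hMi
    obtain ⟨H, hHn, hHi, hxH⟩ := CfsgLib.InvChar.exists_index_two_not_mem Sy M hM2 1 le_rfl
      (fun y _ hy => by
        have : orderOf y ≠ 1 := fun h => hy (by rw [orderOf_eq_one_iff.1 h]; exact one_mem _)
        have := orderOf_pos y
        simp; omega) x (hDS hx.2) (by simpa using hx2) hMc
    refine hxH (CfsgLib.Transfer.pResidual_le_of_isPGroup (p := 2) (N := H) ?_ hx.1)
    exact IsPGroup.of_card (n := 1) (by rw [← Subgroup.index_eq_card, hHi, pow_one])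
  have hsupK : S ⊔ K = ⊤ := CfsgLib.Transfer.sylow_sup_pResidual_eq_top Sy
  have hcardK : Nat.card K = Nat.card ↥(S ⊓ K) * S.index := by
    have hr : K.relIndex S = K.index := by
      rw [← Subgroup.relIndex_sup_right, hsupK, Subgroup.relIndex_top_right]
    have e2 : Nat.card ↥(S ⊓ K) * K.index = Nat.card S := by
      rw [← hr, ← Subgroup.inf_relIndex_right, inf_comm, ← Subgroup.relIndex_bot_left,
        ← Subgroup.relIndex_bot_left S]
      exact Subgroup.relIndex_mul_relIndex _ _ _ bot_le inf_le_right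
    have e3 := S.card_mul_index
    have e4 := K.card_mul_index
    refine Nat.eq_of_mul_eq_mul_right (Nat.pos_of_ne_zero (Subgroup.index_ne_zero_of_finite (H := K))) ?_
    rw [e4, mul_right_comm, e2, e3]
  have hsplit : ∀ s, s ∈ S ⊓ K → ∃ t ∈ T, ∃ d ∈ K ⊓ D, t * d = s := by
    intro s hs
    obtain ⟨t, ht, d, hd, rfl⟩ := hprod s hs.1
    refine ⟨t, ht, d, ⟨?_, hd⟩, rfl⟩
    have := mul_mem (inv_mem (hLK (hTL ht))) hs.2
    simpa using this
  have hbot : K ⊓ D = ⊥ := by
    by_contra hne
    have hcP : Nat.card T * Nat.card ↥(K ⊓ D) = Nat.card ↥(S ⊓ K) := by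
      rw [← Nat.card_prod]
      refine Nat.card_congr (Equiv.ofBijective
        (fun q : T × ↥(K ⊓ D) => (⟨(q.1 : G) * q.2, mul_mem (hTS q.1.2) (hDS q.2.2.2),
          mul_mem (hLK (hTL q.1.2)) q.2.2.1⟩ : ↥(S ⊓ K))) ⟨?_, ?_⟩)
      · intro a b hab
        have h : (a.1 : G) * a.2 = b.1 * b.2 := congrArg Subtype.val hab
        have h' : (b.1 : G)⁻¹ * a.1 = b.2 * (a.2 : G)⁻¹ := by
          rw [inv_mul_eq_iff_eq_mul, ← mul_assoc, ← h, mul_inv_cancel_right]
        have hmem : (b.1 : G)⁻¹ * a.1 ∈ D ⊓ T :=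
          ⟨(by rw [h']; exact D.mul_mem b.2.2.2 (D.inv_mem a.2.2.2)), T.mul_mem (T.inv_mem b.1.2) a.1.2⟩
        rw [hDT, Subgroup.mem_bot, inv_mul_eq_one] at hmem
        refine Prod.ext (Subtype.ext hmem.symm) (Subtype.ext ?_)
        rw [hmem] at h
        exact mul_left_cancel h
      · intro s
        obtain ⟨t, ht, d, hd, he⟩ := hsplit s s.2
        exact ⟨(⟨t, ht⟩, ⟨d, hd⟩), Subtype.ext he⟩
    haveI : IsCyclic ↥(K ⊓ D) :=
      isCyclic_of_injective (Subgroup.inclusion hKC) (Subgroup.inclusion_injective hKC)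
    obtain ⟨u, hu⟩ := (Subgroup.isCyclic_iff_exists_zpowers_eq_top (K ⊓ D)).1 inferInstance
    have huKD : u ∈ K ⊓ D := hu ▸ Subgroup.mem_zpowers u
    set m := orderOf u with hm
    have hcKD : Nat.card ↥(K ⊓ D) = m := by rw [← hu, Nat.card_zpowers]
    obtain ⟨a, ha⟩ := (Nat.dvd_prime_pow Nat.prime_two).1
      (show m ∣ 2 ^ (IsPGroup.iff_card.1 hS2).choose by
        rw [← (IsPGroup.iff_card.1 hS2).choose_spec, hm]
        exact Subgroup.orderOf_dvd_natCard _ (hDS huKD.2))
    obtain ⟨-, ha⟩ := ha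
    have hm1 : m ≠ 1 := fun h => hne (by rw [← hu, orderOf_eq_one_iff.1 h, Subgroup.zpowers_one_eq_bot])
    have hmev : Even m := by
      rw [ha]; exact (Nat.even_pow' (fun h => hm1 (by rw [ha, h, pow_zero]))).2 even_two
    let u' : K := ⟨u, huKD.1⟩
    let T' : Subgroup K := T.subgroupOf K
    haveI : Fintype (K ⧸ T') := Fintype.ofFinite _
    let ρ := MulAction.toPermHom K (K ⧸ T')
    have hsign : Equiv.Perm.sign (ρ u') = -1 := by
      refine sign_eq_neg_one_of_semiregular (ρ u') hmev (orderOf_pos u) ?_ ?_ S.index ?_ ?_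
      · rw [← map_pow, hm, ← Subgroup.orderOf_mk u huKD.1, pow_orderOf_eq_one, map_one]
      · intro j hj hjm q
        rw [← map_pow]
        induction q using QuotientGroup.induction_on with
        | _ b =>
          intro hfix
          have hfix' : (QuotientGroup.mk (u' ^ j * b) : K ⧸ T') = QuotientGroup.mk b := hfix
          have hbT : (b : G)⁻¹ * u ^ j * b ∈ T := by
            have := QuotientGroup.eq.1 hfix'.symm
            simpa [T', Subgroup.mem_subgroupOf, mul_assoc, u'] using this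
          have hj1 : u ^ j ≠ 1 := pow_ne_one_of_lt_orderOf hj.ne' hjm
          obtain ⟨i, -, hi⟩ := (Nat.dvd_prime_pow Nat.prime_two).1
            (show orderOf (u ^ j) ∣ 2 ^ a by rw [← ha, hm]; exact orderOf_pow_dvd j)
          have hi0 : i ≠ 0 := fun h => hj1 (orderOf_eq_one_iff.1 (by rw [hi, h, pow_zero]))
          set c := (u ^ j) ^ 2 ^ (i - 1) with hc
          have hc2 : orderOf c = 2 := by
            rw [hc, orderOf_pow_of_dvd (by positivity) (hi ▸ pow_dvd_pow 2 (Nat.sub_le i 1)), hi,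
              Nat.pow_div (Nat.sub_le i 1) two_pos, show i - (i - 1) = 1 by omega, pow_one]
          refine h2 c (pow_mem (pow_mem (hKC huKD) j) _) hc2 (b : G)⁻¹ ?_
          rw [inv_inv, hc]
          have e : (b : G)⁻¹ * (u ^ j) ^ 2 ^ (i - 1) * b = ((b : G)⁻¹ * u ^ j * b) ^ 2 ^ (i - 1) := by
            simpa using (conj_pow (a := (b : G)⁻¹) (b := u ^ j) (i := 2 ^ (i - 1))).symm
          rw [e]
          exact pow_mem hbT _
      · rw [← Nat.card_eq_fintype_card, ← Subgroup.index_eq_card]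
        have hcT : Nat.card T' = Nat.card T :=
          Nat.card_congr (Subgroup.subgroupOfEquivOfLe (hTL.trans hLK)).toEquiv
        have := T'.card_mul_index
        rw [hcardK, ← hcP, hcKD, hcT, mul_assoc] at this
        exact Nat.eq_of_mul_eq_mul_left Nat.card_pos this
      · exact Nat.odd_iff.2 (by omega)
    obtain ⟨N, hN⟩ := CfsgLib.Involutions.exists_index_two_of_hom (Equiv.Perm.sign.comp ρ) (x := u')
      (by rw [MonoidHom.comp_apply, hsign]; decide)
    haveI : N.Normal := Subgroup.normal_of_index_eq_two hN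
    have := CfsgLib.Transfer.pResidual_le_of_isPGroup (p := 2) (N := N)
      (IsPGroup.of_card (n := 1) (by rw [← Subgroup.index_eq_card, hN, pow_one]))
    have ht : Cfsg.pResidual 2 ↥K = ⊤ := CfsgLib.Transfer.pResidual_pResidual
    rw [ht, top_le_iff] at this
    rw [this, Subgroup.index_top] at hN
    omega
  have hPT : S ⊓ K = T := by
    refine le_antisymm (fun s hs => ?_) (le_inf hTS (hTL.trans hLK))
    obtain ⟨t, ht, d, hd, rfl⟩ := hsplit s hs
    rw [hbot, Subgroup.mem_bot] at hd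
    rwa [hd, mul_one]
  refine ⟨K, hKn, top_le_iff.1 (hsupK.ge.trans (sup_le (hTD.ge.trans (sup_le ?_ le_sup_right)) le_sup_left)),
    fun T' hT'L hT'2 hT'i => ⟨hT'L.trans hLK, ?_⟩⟩
  · exact (hTL.trans hLK).trans le_sup_left
  · have hcT : Nat.card T' = Nat.card T := by
      have hA : ∀ U : Subgroup G, U ≤ L → IsPGroup 2 U → ¬ 2 ∣ U.relIndex L →
          Nat.card U = 2 ^ (Nat.card L).factorization 2 := by
        intro U hUL hU2 hUi
        let Q : Sylow 2 L :=
          (hU2.of_equiv (Subgroup.subgroupOfEquivOfLe hUL).symm).toSylow hUi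
        rw [← Q.card_eq_multiplicity]
        exact (Nat.card_congr (Subgroup.subgroupOfEquivOfLe hUL).toEquiv).symm
      rw [hA T' hT'L hT'2 hT'i, hA T hTL hT2 hTsyl]
    have e := Subgroup.relIndex_mul_relIndex ⊥ T' K bot_le (hT'L.trans hLK)
    rw [Subgroup.relIndex_bot_left, Subgroup.relIndex_bot_left, hcardK, hPT, hcT] at e
    rw [Nat.eq_of_mul_eq_mul_left Nat.card_pos e]
    exact hSsyl

end Cfsg.Agent.S1924
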