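import Cfsg.Statements.S1932
import Cfsg.Agent.Lib.QdFree.AbelianTwoFF
import Cfsg.Agent.Lib.SFourFree.Basic
import Cfsg.Agent.Lib.ThompsonJ.Basic
import Cfsg.Agent.Lib.SectRank.Constrained

set_option autoImplicit false
set_option linter.style.haveILetI false
open Cfsg

namespace Cfsg.Agent.S1932

open CfsgLib.FFModules.SL2Pair CfsgLib.QdFree

/-- The case of a self-centralising 2-core. -/
theorem thompson_normal {G : Type*} [Group G] [Finite G]
    (hS4 : ¬ Cfsg.Involves (Equiv.Perm (Fin 4)) G)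
    (hc : Subgroup.centralizer (pCore 2 G : Set G) ≤ pCore 2 G) (S : Sylow 2 G)
    (hcl : ∀ a ∈ (S : Subgroup G), ∀ b ∈ (S : Subgroup G), ∀ c ∈ (S : Subgroup G),
      Commute (a * b * a⁻¹ * b⁻¹) c) :
    (thompsonSubgroupOf 2 (S : Subgroup G)).Normal := by
  classical
  haveI : Fact (Nat.Prime 2) := ⟨Nat.prime_two⟩
  set Q := pCore 2 G with hQ
  have hQS : Q ≤ (S : Subgroup G) := CfsgLib.Cores.pCore_le_sylow S
  suffices hJQ : thompsonSubgroupOf 2 (S : Subgroup G) ≤ Q by
    rw [← CfsgLib.ThompsonJ.thompsonSubgroupOf_eq_of_le hQS hJQ]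
    refine Subgroup.normalizer_eq_top_iff.1 (top_le_iff.1 ?_)
    exact (Subgroup.normalizer_eq_top (H := Q)).ge.trans
      (CfsgLib.ThompsonJ.normalizer_le_normalizer_thompsonSubgroupOf 2 Q)
  refine CfsgLib.ThompsonJ.thompsonSubgroupOf_le_iff.2 fun A hA => ?_
  by_contra hAQ
  set ZQ := Q ⊓ Subgroup.centralizer (Q : Set G) with hZQ
  set V := omegaOne 2 ZQ with hV
  have hVe : IsElementaryAbelian 2 V :=
    CfsgLib.ThompsonJ.isElementaryAbelian_omegaOne
      (CfsgLib.ThompsonJ.inf_centralizer_le_centralizer_self Q)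
  have hVZ : V ≤ ZQ := CfsgLib.ThompsonJ.omegaOne_le 2 ZQ
  have hVQ : V ≤ Q := hVZ.trans inf_le_left
  haveI : V.Normal := by
    refine ⟨fun v hv g => ?_⟩
    have h1 : ZQ.map (MulAut.conj g).toMonoidHom ≤ ZQ := by
      rintro _ ⟨z, hz, rfl⟩
      exact (inferInstance : ZQ.Normal).conj_mem z hz g
    exact CfsgLib.ThompsonJ.omegaOne_mono h1
      (CfsgLib.ThompsonJ.map_omegaOne_le _ ZQ ⟨v, hv, rfl⟩)
  set CV := Subgroup.centralizer (V : Set G) with hCV
  set G1 := Subgroup.normalClosure ((S : Subgroup G) : Set G) with hG1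
  have hSG1 : (S : Subgroup G) ≤ G1 := Subgroup.subset_normalClosure
  -- `G1` is trivial on `Q / Z(Q)`
  have hR : ∀ g ∈ G1, ∀ q ∈ Q, g * q * g⁻¹ * q⁻¹ ∈ ZQ := by
    let π := QuotientGroup.mk' ZQ
    haveI : (Q.map π).Normal := Subgroup.Normal.map inferInstance π (QuotientGroup.mk'_surjective _)
    have hle : G1 ≤ (Subgroup.centralizer (Q.map π : Set (G ⧸ ZQ))).comap π := by
      refine Subgroup.normalClosure_le_normal fun s hs => Subgroup.mem_centralizer_iff.2 ?_
      rintro _ ⟨q, hq, rfl⟩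
      refine (?_ : π s * π q = π q * π s).symm
      rw [← mul_inv_eq_one, ← map_mul, ← map_mul, ← map_inv, ← map_mul, mul_inv_rev, ← mul_assoc]
      refine (QuotientGroup.eq_one_iff _).2 ⟨Q.mul_mem ((inferInstance : Q.Normal).conj_mem q hq s)
        (Q.inv_mem hq), Subgroup.mem_centralizer_iff.2 fun r hr => ?_⟩
      exact (hcl s hs q (hQS hq) r (hQS hr)).eq.symm
    intro g hg q hq
    have := Subgroup.mem_centralizer_iff.1 (hle hg) (π q) ⟨q, hq, rfl⟩
    rw [← QuotientGroup.eq_one_iff (N := ZQ)]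
    show π (g * q * g⁻¹ * q⁻¹) = 1
    rw [map_mul, map_mul, map_mul, map_inv, map_inv, ← this]
    group
  -- the kernel of the action is a 2-group
  have hK : G1 ⊓ CV ≤ Q := by
    refine CfsgLib.Cores.le_pCore (N := G1 ⊓ CV) ?_
    rintro ⟨x, hx1, hx2⟩
    obtain ⟨e, he⟩ :=
      CfsgLib.NormalPComplement.exists_pow_coprime_orderOf (p := 2) (isOfFinOrder_of_finite x)
    refine ⟨e, Subtype.ext ?_⟩
    show x ^ 2 ^ e = 1
    set y := x ^ 2 ^ e with hy
    have hm : Odd (orderOf y) := Nat.coprime_two_right.1 he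
    have hy1 : y ∈ G1 := pow_mem hx1 _
    have hy2 : y ∈ CV := pow_mem hx2 _
    have hstep : ∀ z : G, ∀ w : G, y * w * y⁻¹ = w → y * z * y⁻¹ = w * z →
        w ^ orderOf y = 1 := by
      intro z w hw hz
      have hk : ∀ k : ℕ, y ^ k * z * (y ^ k)⁻¹ = w ^ k * z := by
        intro k
        induction k with
        | zero => simp
        | succ k ih =>
          calc y ^ (k + 1) * z * (y ^ (k + 1))⁻¹ = y * (y ^ k * z * (y ^ k)⁻¹) * y⁻¹ := by
                rw [pow_succ' y k]; group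
            _ = (y * w ^ k * y⁻¹) * (y * z * y⁻¹) := by rw [ih]; group
            _ = w ^ k * (w * z) := by rw [← conj_pow, hw, hz]
            _ = w ^ (k + 1) * z := by rw [pow_succ, mul_assoc]
      have := hk (orderOf y)
      rw [pow_orderOf_eq_one, one_mul, inv_one, mul_one] at this
      exact mul_eq_right.1 this.symm
    have hone : ∀ w ∈ Q, w ^ orderOf y = 1 → w = 1 := by
      intro w hw h1
      obtain ⟨k, hk⟩ := CfsgLib.Cores.isPGroup_pCore 2 G ⟨w, hw⟩
      exact CfsgLib.SFourFree.pow_eq_one_of_coprime_pow h1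
        (congrArg Subtype.val hk : w ^ 2 ^ k = 1) ((Nat.coprime_two_right.2 hm).pow_right k)
    have hcZ : ∀ k : ℕ, ∀ z ∈ ZQ, z ^ 2 ^ k = 1 → y * z * y⁻¹ = z := by
      intro k
      induction k with
      | zero => intro z _ h; rw [pow_zero, pow_one] at h; subst h; simp
      | succ k ih =>
        intro z hz h
        have hzy : y * z * y⁻¹ ∈ ZQ := (inferInstance : ZQ.Normal).conj_mem z hz y
        set w := y * z * y⁻¹ * z⁻¹ with hw
        have hwZ : w ∈ ZQ := ZQ.mul_mem hzy (ZQ.inv_mem hz)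
        have hwc : Commute (y * z * y⁻¹) z⁻¹ :=
          (Commute.inv_right (Subgroup.mem_centralizer_iff.1 hz.2 _ hzy.1))
        have hz2 : y * z ^ 2 * y⁻¹ = z ^ 2 :=
          ih _ (ZQ.pow_mem hz 2) (by rw [← pow_mul, ← pow_succ']; exact h)
        have hw2 : w ^ 2 = 1 := by
          rw [hw, hwc.mul_pow, conj_pow, hz2, inv_pow, mul_inv_cancel]
        have hwV : w ∈ V := CfsgLib.ThompsonJ.mem_omegaOne hwZ hw2
        have hwy : y * w * y⁻¹ = w := CfsgLib.SFourFree.conj_eq_of_mem_centralizer hy2 hwV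
        have := hone w hwZ.1 (hstep z w hwy (by rw [hw]; group))
        rw [hw] at this
        exact mul_inv_eq_one.1 this
    have hyQ : y ∈ Q := hc (Subgroup.mem_centralizer_iff.2 fun q hq => by
      have hd := hR y hy1 q hq
      obtain ⟨k, hk⟩ := CfsgLib.Cores.isPGroup_pCore 2 G ⟨_, hd.1⟩
      have hdy := hcZ k _ hd (congrArg Subtype.val hk :)
      have := hone _ hd.1 (hstep q _ hdy (by group))
      exact (mul_inv_eq_iff_eq_mul.1 (mul_inv_eq_one.1 this)).symm)
    exact hone y hyQ (pow_orderOf_eq_one y)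
  -- the action on `V`
  letI : CommGroup V :=
    { (inferInstance : Group V) with
      mul_comm := fun a b =>
        Subtype.ext (CfsgLib.ThompsonJ.isElementaryAbelian_comm hVe a.2 b.2) }
  let φ : G →* MulAut V := MulAut.conjNormal
  have hker : ∀ g, φ g = 1 ↔ g ∈ CV := by
    intro g
    refine ⟨fun h => CfsgLib.SFourFree.mem_centralizer_of_conj_eq fun w hw => ?_, fun h => ?_⟩
    · exact congrArg Subtype.val (DFunLike.congr_fun h ⟨w, hw⟩)
    · exact MulEquiv.ext fun w => Subtype.ext (CfsgLib.SFourFree.conj_eq_of_mem_centralizer h w.2)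
  let L := G1.map φ
  let ψ : G1 →* L := φ.subgroupMap G1
  have hψs : Function.Surjective ψ := φ.subgroupMap_surjective G1
  have hψ : ∀ g : G1, (ψ g : MulAut V) = φ g := fun g => rfl
  have hψ1 : ∀ g : G1, ψ g = 1 ↔ (g : G) ∈ CV := fun g => by
    rw [← hker, ← hψ, OneMemClass.coe_eq_one]
  letI : DistribMulAction L (Additive V) :=
    { smul := fun l v => Additive.ofMul ((l : MulAut V) v.toMul)
      one_smul := fun v => rfl
      mul_smul := fun a b v => rfl
      smul_zero := fun a => congrArg Additive.ofMul (map_one (a : MulAut V))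
      smul_add := fun a v w => congrArg Additive.ofMul (map_mul (a : MulAut V) v.toMul w.toMul) }
  have hsm : ∀ (g : G1) (v : Additive V),
      ((ψ g • v).toMul : G) = (g : G) * (v.toMul : G) * (g : G)⁻¹ := fun g v => rfl
  have hpre : ∀ T : Subgroup L, IsPGroup 2 T → IsPGroup 2 ((T.comap ψ).map G1.subtype) := by
    intro T hT
    refine (hT.comap_of_ker_isPGroup ψ ?_).map _
    intro x
    obtain ⟨k, hk⟩ := CfsgLib.Cores.isPGroup_pCore 2 G
      ⟨((x : G1) : G), hK ⟨(x : G1).2, (hψ1 _).1 x.2⟩⟩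
    exact ⟨k, Subtype.ext (Subtype.ext (congrArg Subtype.val hk :))⟩
  have hcomm : ∀ P : Subgroup G, IsPGroup 2 P → ∀ a ∈ P, ∀ b ∈ P, a * b * a⁻¹ * b⁻¹ ∈ CV := by
    intro P hP a ha b hb
    obtain ⟨T, hT⟩ := hP.exists_le_sylow
    obtain ⟨g, hg⟩ := MulAction.exists_smul_eq G S T
    have hmem : ∀ x ∈ P, g⁻¹ * x * g ∈ (S : Subgroup G) := by
      intro x hx
      have hx' := hT hx
      rw [← hg] at hx'
      obtain ⟨s, hs, rfl⟩ := hx'
      simpa [mul_assoc] using (show s ∈ (S : Subgroup G) from hs)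
    have h := hcl _ (hmem a ha) _ (hmem b hb)
    refine CfsgLib.SFourFree.mem_centralizer_of_conj_eq fun v hv => ?_
    have hc' := (h (g⁻¹ * v * g) (hQS (hVQ (by
      simpa using (inferInstance : V.Normal).conj_mem v hv g⁻¹)))).eq
    calc (a * b * a⁻¹ * b⁻¹) * v * (a * b * a⁻¹ * b⁻¹)⁻¹
        = g * (((g⁻¹ * a * g) * (g⁻¹ * b * g) * (g⁻¹ * a * g)⁻¹ * (g⁻¹ * b * g)⁻¹) * (g⁻¹ * v * g)) *
            g⁻¹ * (a * b * a⁻¹ * b⁻¹)⁻¹ := by group
      _ = v := by rw [hc']; group
  have hAS : A ≤ (S : Subgroup G) := hA.le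
  set Ab := (A.subgroupOf G1).map ψ with hAb
  have hab : IsTwoOffender Ab (Additive V) := by
    refine ⟨fun h => hAQ fun a ha => hK ⟨hSG1 (hAS ha), (hψ1 ⟨a, hSG1 (hAS ha)⟩).1 ?_⟩, ?_, ?_, ?_⟩
    · exact Subgroup.mem_bot.1 (h ▸ (Subgroup.mem_map_of_mem ψ ha : ψ ⟨a, _⟩ ∈ Ab))
    · rintro _ ⟨a, ha, rfl⟩
      rw [← map_mul, show a * a = 1 from Subtype.ext (by
        rw [Subgroup.coe_mul, ← pow_two]; exact hA.elem.2 _ ha), map_one]
    · rintro _ ⟨a, ha, rfl⟩ v
      rintro _ ⟨b, hb, rfl⟩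
      refine Additive.toMul.injective (Subtype.ext ?_)
      rw [hsm, toMul_sub, div_eq_mul_inv, Subgroup.coe_mul, Subgroup.coe_inv, hsm]
      exact mul_inv_eq_iff_eq_mul.2 (hcl _ (hAS ha) _ (hQS (hVQ v.toMul.2)) _ (hAS hb)).eq.symm
    · let C : AddSubgroup (Additive V) := fixedSub Ab
      set D := A ⊓ CV with hD
      have hVC : V ≤ CV := CfsgLib.ThompsonJ.isElementaryAbelian_le_centralizer hVe
      have hcA : Nat.card Ab * Nat.card D = Nat.card A := by
        have hk : (A.subgroupOf G1 ⊓ ψ.ker).map G1.subtype = D := by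
          ext x
          constructor
          · rintro ⟨x, ⟨hx1, hx2⟩, rfl⟩
            exact ⟨hx1, (hψ1 x).1 hx2⟩
          · rintro ⟨hx1, hx2⟩
            exact ⟨⟨x, hSG1 (hAS hx1)⟩, ⟨hx1, (hψ1 _).2 hx2⟩, rfl⟩
        rw [hAb, ← Subgroup.relIndex_ker, ← Subgroup.inf_relIndex_left,
          ← Subgroup.relIndex_map_map_of_injective _ _ G1.subtype_injective,
          Subgroup.map_subgroupOf_eq_of_le (hAS.trans hSG1), hk, mul_comm, ← Subgroup.relIndex_bot_left,
          Subgroup.relIndex_mul_relIndex _ _ _ bot_le inf_le_left, Subgroup.relIndex_bot_left]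
      have hB : IsElementaryAbelian 2 (D ⊔ V) :=
        CfsgLib.ThompsonJ.isElementaryAbelian_sup
          (CfsgLib.ThompsonJ.isElementaryAbelian_mono hA.elem inf_le_left) hVe inf_le_right
      have hle := hA.card_le _ (sup_le (inf_le_left.trans hAS) (hVQ.trans hQS)) hB
      have hfix : Nat.card ↥(D ⊓ V) ≤ Nat.card C := by
        refine Nat.card_le_card_of_injective
          (fun x => ⟨Additive.ofMul (⟨(x : G), x.2.2⟩ : V), ?_⟩) ?_
        · rintro _ ⟨a, ha, rfl⟩
          refine Additive.toMul.injective (Subtype.ext ?_)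
          rw [hsm]
          show (a : G) * (x : G) * (a : G)⁻¹ = x
          exact mul_inv_eq_iff_eq_mul.2 (CfsgLib.ThompsonJ.isElementaryAbelian_comm hA.elem ha x.2.1.1)
        · intro x y h
          exact Subtype.ext (congrArg
            (fun c : C => ((Additive.toMul (c : Additive V) : V) : G)) h :)
      have h1 : Nat.card ↥(D ⊔ V) * Nat.card ↥(D ⊓ V) = Nat.card D * Nat.card V := by
        haveI : V.Normal := inferInstance
        have e1 : Nat.card ↥(D ⊔ V) = Nat.card V * V.relIndex (D ⊔ V) := by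
          rw [← Subgroup.relIndex_bot_left, ← Subgroup.relIndex_bot_left,
            Subgroup.relIndex_mul_relIndex _ _ _ bot_le le_sup_right]
        have e2 : Nat.card D = Nat.card ↥(D ⊓ V) * V.relIndex D := by
          rw [← Subgroup.inf_relIndex_left, ← Subgroup.relIndex_bot_left, ← Subgroup.relIndex_bot_left,
            Subgroup.relIndex_mul_relIndex _ _ _ bot_le inf_le_left]
        rw [e1, e2, Subgroup.relIndex_sup_right]
        ring
      show Nat.card (Additive V) ≤ _
      rw [Nat.card_congr (Additive.toMul (α := V))]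
      refine Nat.le_of_mul_le_mul_left ?_ (Nat.card_pos (α := D))
      rw [← h1]
      refine (Nat.mul_le_mul hle hfix).trans (le_of_eq ?_)
      rw [← hcA]; ring
  refine false_of_isTwoOffender (L := L) (W := Additive V) ?_ ?_ ?_ ?_
    (Inv := fun l => l * l = 1) ?_ ?_ hab fun a ha _ => hab.sq a ha
  · intro v
    exact Additive.toMul.injective (Subtype.ext (by
      rw [toMul_add, Subgroup.coe_mul, ← pow_two]; exact hVe.2 _ v.toMul.2))
  · intro l hl
    exact Subtype.ext (MulEquiv.ext fun v => congrArg Additive.toMul (hl (Additive.ofMul v)))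
  · refine (Subgroup.eq_bot_iff_forall _).2 fun l hl => ?_
    obtain ⟨g, rfl⟩ := hψs l
    haveI : ((pCore 2 L).comap ψ).Normal := Subgroup.Normal.comap inferInstance ψ
    have h2 : IsPGroup 2 ((pCore 2 L).comap ψ) := by
      refine (hpre _ (CfsgLib.Cores.isPGroup_pCore 2 L)).of_equiv
        (Subgroup.equivMapOfInjective _ _ G1.subtype_injective).symm
    have hgQ : (g : G) ∈ Q := CfsgLib.Cores.map_subtype_pCore_le
      (Subgroup.Normal.isSubnormal inferInstance) ⟨g, CfsgLib.Cores.le_pCore h2 hl, rfl⟩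
    refine (hψ1 g).2 (Subgroup.mem_centralizer_iff.2 fun v hv => ?_)
    exact (Subgroup.mem_centralizer_iff.1 (hVZ hv).2 g hgQ).symm
  · intro T hT a ha b hb
    obtain ⟨a, rfl⟩ := hψs a
    obtain ⟨b, rfl⟩ := hψs b
    have h := (hψ1 (a * b * a⁻¹ * b⁻¹)).2 (hcomm _ (hpre T hT) a ⟨a, ha, rfl⟩ b ⟨b, hb, rfl⟩)
    rw [map_mul, map_mul, map_mul, map_inv, map_inv, mul_inv_eq_one, mul_inv_eq_iff_eq_mul] at h
    exact h
  · intro g a h
    rw [show g * a * g⁻¹ * (g * a * g⁻¹) = g * (a * a) * g⁻¹ by group, h, mul_one, mul_inv_cancel]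
  · intro a b ha hb h3
    obtain ⟨a, rfl⟩ := hψs a
    obtain ⟨b, rfl⟩ := hψs b
    set m := orderOf (ψ a * ψ b) / 3 with hm
    have hpos := orderOf_pos (ψ a * ψ b)
    set u := (a * b) ^ m with hu
    have hu' : ψ u = (ψ a * ψ b) ^ m := by rw [hu, map_pow, map_mul]
    refine CfsgLib.SFourFree.false_of_inverted_three hS4 (T := V)
      (CfsgLib.ThompsonJ.isPGroup_of_isElementaryAbelian hVe) (a := (a : G)) (u := (u : G))
      ?_ ?_ ?_ ?_
    · rw [← Subgroup.coe_pow, ← hψ1, map_pow, pow_two, ha]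
    · rw [← hψ1, hu']
      intro h
      have := Nat.le_of_dvd (Nat.div_pos (Nat.le_of_dvd hpos h3) (by norm_num))
        (orderOf_dvd_of_pow_eq_one h)
      omega
    · rw [← Subgroup.coe_pow, ← hψ1, map_pow, hu', ← pow_mul, Nat.div_mul_cancel h3,
        pow_orderOf_eq_one]
    · rw [← Subgroup.coe_inv, ← Subgroup.coe_mul, ← Subgroup.coe_mul, ← Subgroup.coe_mul, ← hψ1,
        map_mul, map_mul, map_mul, map_inv, hu', ← conj_pow, ← eq_inv_iff_mul_eq_one, ← inv_pow]
      congr 1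
      rw [mul_inv_rev, inv_eq_of_mul_eq_one_right hb, inv_eq_of_mul_eq_one_right ha, ← mul_assoc,
        ha, one_mul]


/-- Let G be a finite group that is 2-constrained and has no section isomorphic to the symmetric group of degree 4, and let S be a Sylow 2-subgroup of G of nilpotency class at most 2. Then G = N_G(J(S))·O_{2'}(G), where J(S) is the Thompson subgroup generated by the elementary abelian subgroups of S of largest order. -/
theorem result {G : Type*} [Group G] [Finite G] (hcon : Cfsg.IsPConstrained 2 G) (hS4 : ¬ Cfsg.Involves (Equiv.Perm (Fin 4)) G) (S : Sylow 2 G) (hcl : Subgroup.lowerCentralSeries (S : Subgroup G) 2 = ⊥) : Subgroup.normalizer ((Cfsg.thompsonSubgroupOf 2 (S : Subgroup G)) : Set G) ⊔ Cfsg.pPrimeCore 2 G = ⊤ := by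
  haveI : Fact (Nat.Prime 2) := ⟨Nat.prime_two⟩
  set O := pPrimeCore 2 G with hO
  set π := QuotientGroup.mk' O with hπ
  have hOc : (Nat.card O).Coprime 2 := CfsgLib.Cores.card_pPrimeCore_coprime 2
  set T : Sylow 2 (G ⧸ O) := S.mapSurjective (QuotientGroup.mk'_surjective O) with hT
  have hcoe : (T : Subgroup (G ⧸ O)) = (S : Subgroup G).map π := rfl
  have hcl1 : ⁅(S : Subgroup G), (S : Subgroup G)⁆ ≤ Subgroup.centralizer ((S : Subgroup G) : Set G) := by
    rw [← Subgroup.commutator_eq_bot_iff_le_centralizer]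
    exact hcl
  have hN : (thompsonSubgroupOf 2 (T : Subgroup (G ⧸ O))).Normal := by
    refine thompson_normal (CfsgLib.SFourFree.not_involves_quotient hS4 O)
      (CfsgLib.SectRank.isPConstrained_iff.1 hcon) T ?_
    rw [hcoe]
    rintro _ ⟨a, ha, rfl⟩ _ ⟨b, hb, rfl⟩ _ ⟨c, hc, rfl⟩
    rw [← map_inv, ← map_inv, ← map_mul, ← map_mul, ← map_mul]
    exact Commute.map
      (Subgroup.mem_centralizer_iff.1 (hcl1 (Subgroup.commutator_mem_commutator ha hb)) c hc).symm π
  set J := thompsonSubgroupOf 2 (S : Subgroup G) with hJ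
  have hinj : Function.Injective (π.comp (S : Subgroup G).subtype) := by
    refine (injective_iff_map_eq_one _).2 fun x hx => Subtype.ext ?_
    have hxO : (x : G) ∈ O := (QuotientGroup.eq_one_iff _).1 hx
    obtain ⟨k, hk⟩ := IsPGroup.iff_card.1 S.2
    exact orderOf_eq_one_iff.1 (Nat.eq_one_of_dvd_coprimes (hOc.pow_right k)
      (Subgroup.orderOf_dvd_natCard O hxO) (hk ▸ Subgroup.orderOf_dvd_natCard _ x.2))
  have hJT : J.map π = thompsonSubgroupOf 2 (T : Subgroup (G ⧸ O)) := by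
    have e := CfsgLib.ThompsonJ.map_thompsonSubgroupOf (p := 2) hinj ⊤
    rw [CfsgLib.ThompsonJ.thompsonSubgroupOf_top, ← MonoidHom.range_eq_map,
      MonoidHom.range_comp, Subgroup.range_subtype] at e
    rw [hJ, thompsonSubgroupOf, Subgroup.map_map, e, hcoe]
  rw [eq_top_iff]
  intro g _
  have hJ2 : IsPGroup 2 J := S.2.to_le (CfsgLib.ThompsonJ.thompsonSubgroupOf_le 2 _)
  obtain ⟨o, ho, hn⟩ := CfsgLib.SectRank.exists_mul_mem_normalizer (P := J) (O := O) hJ2 hOc (h := g)
    fun x hx => by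
      have h1 : π (g * x * g⁻¹) ∈ J.map π := by
        rw [hJT, map_mul, map_mul, map_inv]
        exact hN.conj_mem _ (hJT ▸ Subgroup.mem_map_of_mem π hx) _
      rw [← Subgroup.mem_comap, Subgroup.comap_map_eq, hπ, QuotientGroup.ker_mk'] at h1
      rwa [sup_comm] at h1
  rw [show g = o⁻¹ * (o * g) by group]
  exact mul_mem (Subgroup.mem_sup_right (inv_mem ho)) (Subgroup.mem_sup_left hn)

end Cfsg.Agent.S1932
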