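import Cfsg.Statements.S1935
import Mathlib
import Cfsg.Agent.Lib.PushUp.LimitOffender
import Cfsg.Agent.Lib.ThompsonJ.Replacement

set_option autoImplicit false
open Cfsg

namespace Cfsg.Agent.S1935

open Subgroup CfsgLib.PushUp
open scoped commutatorElement

section

variable {p : ℕ} [Fact p.Prime] {M : Type*} [AddCommGroup M] [Module (ZMod p) M]
variable {K : Type*} [Group K] (ρ : K →* Module.End (ZMod p) M)

theorem map_pow_one_add {g : K} {x : Module.End (ZMod p) M} (hg : ρ g = 1 + x) (hx : x * x = 0) (m : ℕ) :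
    ρ (g ^ m) = 1 + (m : ZMod p) • x := by
  induction m with
  | zero => simp
  | succ m ih =>
    rw [pow_succ, map_mul, ih, hg, Nat.cast_succ, add_smul, one_smul]
    simp only [mul_add, add_mul, smul_mul_assoc, hx, smul_zero, one_mul, mul_one]
    abel

/-- The subgroup belonging to a square-zero space. -/
def subgroupOfSpace (W : Submodule (ZMod p) (Module.End (ZMod p) M)) (hW : ∀ x ∈ W, ∀ y ∈ W, x * y = 0) :
    Subgroup K where
  carrier := {g | ρ g - 1 ∈ W}
  one_mem' := by show ρ 1 - 1 ∈ W; rw [map_one, sub_self]; exact zero_mem _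
  mul_mem' := by
    intro a b ha hb
    show ρ (a * b) - 1 ∈ W
    have h := hW _ ha _ hb
    have : ρ (a * b) - 1 = (ρ a - 1) + (ρ b - 1) + (ρ a - 1) * (ρ b - 1) := by rw [map_mul]; noncomm_ring
    rw [this, h, add_zero]
    exact add_mem ha hb
  inv_mem' := by
    intro a ha
    show ρ a⁻¹ - 1 ∈ W
    rw [exists_map_eq_one_sub (z := ρ a - 1) (by abel) (hW _ ha _ ha), sub_sub, show (1 : Module.End (ZMod p) M) - ((ρ a - 1) + 1) = -(ρ a - 1) by abel]
    exact neg_mem ha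

theorem mem_subgroupOfSpace {W : Submodule (ZMod p) (Module.End (ZMod p) M)}
    {hW : ∀ x ∈ W, ∀ y ∈ W, x * y = 0} {g : K} : g ∈ subgroupOfSpace ρ W hW ↔ ρ g - 1 ∈ W := Iff.rfl

/-- An element of a nilpotent group generated set normalising the part inside a subgroup. -/
theorem exists_mem_normalizer_not_mem {K : Type*} [Group K] [Finite K] (hK : Group.IsNilpotent K)
    (A : Subgroup K) (X : Set K) (hX : ∀ g : K, ∀ x ∈ X, g * x * g⁻¹ ∈ X)
    (hne : ¬ X ⊆ (Subgroup.normalizer (A : Set K) : Set K)) :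
    ∃ b ∈ X, b ∈ Subgroup.normalizer ((Subgroup.closure (X ∩ Subgroup.normalizer (A : Set K))) : Set K) ∧
      b ∉ Subgroup.normalizer (A : Set K) := by
  set M := Subgroup.closure (X ∩ Subgroup.normalizer (A : Set K)) with hM
  set N := Subgroup.closure X with hN
  have hMN : M ≤ N := Subgroup.closure_mono Set.inter_subset_left
  have hMA : M ≤ Subgroup.normalizer (A : Set K) := (Subgroup.closure_le _).2 Set.inter_subset_right
  by_contra hcon
  push Not at hcon
  set Q := Subgroup.normalizer (M : Set K) ⊓ N with hQ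
  have hQM : ∀ x ∈ X, x ∈ Q → x ∈ X ∩ Subgroup.normalizer (A : Set K) := fun x hx hxQ => ⟨hx, hcon x hx hxQ.1⟩
  have hMQ : M ≤ Q := le_inf Subgroup.le_normalizer hMN
  have hQN : Q.subgroupOf N = ⊤ := by
    by_contra hlt
    have hnil : Group.IsNilpotent N := inferInstance
    obtain ⟨⟨y, hyN⟩, hy, hyQ⟩ := SetLike.exists_of_lt
      (Group.normalizerCondition_of_isNilpotent (G := N) _ (lt_top_iff_ne_top.2 hlt))
    rw [Subgroup.mem_normalizer_iff] at hy
    refine hyQ (Subgroup.mem_subgroupOf.2 ⟨?_, hyN⟩)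
    refine Subgroup.mem_normalizer_fintype fun m hm => ?_
    have hcl : M ≤ M.comap (MulAut.conj y).toMonoidHom := by
      rw [hM, Subgroup.closure_le]
      intro x hx
      have hxQ : x ∈ Q := hMQ (Subgroup.subset_closure hx)
      have h1 := (hy ⟨x, hxQ.2⟩).1 (Subgroup.mem_subgroupOf.2 hxQ)
      rw [Subgroup.mem_subgroupOf] at h1
      exact Subgroup.subset_closure (hQM _ (hX y x hx.1) h1)
    exact hcl hm
  refine hne fun x hx => ?_
  have hxQ : x ∈ Q := by
    have h := hQN ▸ Subgroup.mem_top (⟨x, Subgroup.subset_closure hx⟩ : N)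
    exact Subgroup.mem_subgroupOf.1 h
  exact (hQM x hx hxQ).2

end


/-- Let p ≥ 5 be a prime and, inside an ambient finite group, let G be a p-subgroup acting faithfully by conjugation on an elementary abelian p-subgroup V that it normalizes (only the identity of G centralizes V). Suppose V is an F-module for G: some nontrivial elementary abelian subgroup E of G satisfies #E · #C_V(E) ≥ #V. Then G contains such an offender A that moreover acts quadratically on V ([V, A, A] = 1) and is normal in its normal closure in G. -/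
theorem result {Ω : Type*} [Group Ω] [Finite Ω] (p : ℕ) [Fact p.Prime] (hp : 5 ≤ p) (V G : Subgroup Ω) (hV : Cfsg.IsElementaryAbelian p V) (hG : IsPGroup p ↥G) (hGV : G ≤ Subgroup.normalizer (V : Set Ω)) (hfaith : G ⊓ Subgroup.centralizer (V : Set Ω) = ⊥) (hF : ∃ E : Subgroup Ω, E ≤ G ∧ E ≠ ⊥ ∧ Cfsg.IsElementaryAbelian p E ∧ Nat.card ↥V ≤ Nat.card ↥E * Nat.card ↥(V ⊓ Subgroup.centralizer (E : Set Ω))) : ∃ A : Subgroup Ω, A ≤ G ∧ A ≠ ⊥ ∧ Cfsg.IsElementaryAbelian p A ∧ Nat.card ↥V ≤ Nat.card ↥A * Nat.card ↥(V ⊓ Subgroup.centralizer (A : Set Ω)) ∧ ⁅⁅V, A⁆, A⁆ = ⊥ ∧ ∀ g ∈ Subgroup.closure {x : Ω | ∃ h ∈ G, ∃ a ∈ A, x = h * a * h⁻¹}, ∀ a ∈ A, g * a * g⁻¹ ∈ A := by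
  classical
  obtain ⟨hVab, hVexp⟩ := hV
  letI : CommGroup ↥V := { (inferInstance : Group ↥V) with mul_comm := fun a b => hVab.is_comm.comm a b }
  have instM : Module (ZMod p) (Additive ↥V) := AddCommGroup.zmodModule (fun m =>
    Additive.toMul.injective (Subtype.ext (by simpa using hVexp _ (Additive.toMul m).2)))
  have hconjV : ∀ (g : ↥G) (v : ↥V), (g : Ω) * v * (g : Ω)⁻¹ ∈ V := fun g v =>
    (Subgroup.mem_normalizer_iff.1 (hGV g.2) v).1 v.2
  let act : ↥G → Additive ↥V →+ Additive ↥V := fun g =>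
    AddMonoidHom.mk' (fun m => Additive.ofMul (⟨(g : Ω) * (Additive.toMul m : ↥V) * (g : Ω)⁻¹, hconjV g _⟩ : ↥V))
      fun a b => Additive.toMul.injective (Subtype.ext (by simp [mul_assoc]))
  let ρ : ↥G →* Module.End (ZMod p) (Additive ↥V) :=
    { toFun := fun g => (act g).toZModLinearMap p
      map_one' := LinearMap.ext fun m => Additive.toMul.injective (Subtype.ext (by
        show ((1 : ↥G) : Ω) * _ * ((1 : ↥G) : Ω)⁻¹ = _
        simp))
      map_mul' := fun g h => LinearMap.ext fun m => Additive.toMul.injective (Subtype.ext (by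
        show ((g * h : ↥G) : Ω) * _ * ((g * h : ↥G) : Ω)⁻¹ = (g : Ω) * ((h : Ω) * _ * (h : Ω)⁻¹) * (g : Ω)⁻¹
        push_cast
        group)) }
  have hρapp : ∀ (g : ↥G) (m : Additive ↥V), ((Additive.toMul (ρ g m) : ↥V) : Ω) =
      (g : Ω) * (Additive.toMul m : ↥V) * (g : Ω)⁻¹ := fun _ _ => rfl
  have hfix : ∀ (g : ↥G) (m : Additive ↥V), (ρ g - 1) m = 0 ↔
      ((Additive.toMul m : ↥V) : Ω) * g = (g : Ω) * (Additive.toMul m : ↥V) := by
    intro g m
    rw [LinearMap.sub_apply, Module.End.one_apply, sub_eq_zero]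
    constructor
    · intro h
      have h' := hρapp g m
      rw [h] at h'
      exact eq_mul_inv_iff_mul_eq.1 h'
    · intro h
      exact Additive.toMul.injective (Subtype.ext ((hρapp g m).trans (mul_inv_eq_iff_eq_mul.2 h.symm)))
  have hinj : Function.Injective ρ := by
    rw [injective_iff_map_eq_one]
    intro g hg
    refine Subtype.ext (Subgroup.mem_bot.1 (hfaith ▸ ⟨g.2, Subgroup.mem_centralizer_iff.2 fun v hv => ?_⟩))
    exact (hfix g (Additive.ofMul (⟨v, hv⟩ : ↥V))).1 (by rw [hg]; simp)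
  have hker : ∀ (B : Subgroup ↥G) (W : Submodule (ZMod p) (Module.End (ZMod p) (Additive ↥V))),
      (∀ x, x ∈ W ↔ ∃ b ∈ B, ρ b = 1 + x) →
      Nat.card W = Nat.card B ∧ Nat.card {m : Additive ↥V // ∀ x ∈ W, x m = 0} =
        Nat.card ↥(V ⊓ Subgroup.centralizer ((B.map G.subtype : Subgroup Ω) : Set Ω)) := by
    intro B W hW
    constructor
    · refine (Nat.card_congr (Equiv.ofBijective
        (fun b : B => (⟨ρ b.1 - 1, (hW _).2 ⟨b.1, b.2, (add_sub_cancel 1 _).symm⟩⟩ : W)) ⟨?_, ?_⟩)).symm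
      · intro a b hab
        exact Subtype.ext (hinj (by simpa using congrArg Subtype.val hab))
      · rintro ⟨x, hx⟩
        obtain ⟨b, hb, hbx⟩ := (hW x).1 hx
        exact ⟨⟨b, hb⟩, Subtype.ext (by show ρ b - 1 = x; rw [hbx]; abel)⟩
    · refine Nat.card_congr (Equiv.ofBijective (fun m => ⟨((Additive.toMul m.1 : ↥V) : Ω),
        (Additive.toMul m.1).2, ?_⟩) ⟨?_, ?_⟩)
      · rintro _ ⟨b, hb, rfl⟩
        have := m.2 (ρ b - 1) ((hW _).2 ⟨b, hb, (add_sub_cancel 1 _).symm⟩)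
        exact ((hfix b m.1).1 this).symm
      · intro a b hab
        exact Subtype.ext (Additive.toMul.injective (Subtype.ext (congrArg (fun q => (q.1 : Ω)) hab)))
      · rintro ⟨v, hvV, hvc⟩
        refine ⟨⟨Additive.ofMul (⟨v, hvV⟩ : ↥V), fun x hx => ?_⟩, rfl⟩
        obtain ⟨b, hb, hbx⟩ := (hW x).1 hx
        rw [show x = ρ b - 1 by rw [hbx]; abel]
        exact (hfix b _).2 (hvc _ (Subgroup.mem_map_of_mem _ hb)).symm
  have hcardV : Nat.card (Additive ↥V) = Nat.card ↥V := rfl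
  -- the filtration
  have hXp : IsPGroup p ↥(V ⊔ G) :=
    IsPGroup.to_sup_of_normal_left' (fun v => ⟨1, Subtype.ext (by simpa using hVexp _ v.2)⟩) hG hGV
  haveI := hXp.isNilpotent
  let Fil : ℕ → Submodule (ZMod p) (Additive ↥V) := fun i => AddSubgroup.toZModSubmodule p
    (Subgroup.toAddSubgroup (((V ⊔ G).lowerCentralSeries i).subgroupOf V))
  have hFilmem : ∀ i (m : Additive ↥V), m ∈ Fil i ↔
      ((Additive.toMul m : ↥V) : Ω) ∈ (V ⊔ G).lowerCentralSeries i :=
    fun i m => Iff.rfl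
  have hFil0 : Fil 0 = ⊤ := by
    refine top_le_iff.1 fun m _ => (hFilmem 0 m).2 ?_
    rw [Subgroup.lowerCentralSeries_zero]
    exact Subgroup.mem_sup_left (Additive.toMul m).2
  obtain ⟨n, hn⟩ : ∃ n, ∀ i, n ≤ i → Fil i = ⊥ := by
    obtain ⟨n, hn⟩ := (Subgroup.isNilpotent_iff_lowerCentralSeries (V ⊔ G)).1 inferInstance
    refine ⟨n, fun i hi => le_bot_iff.1 fun m hm => ?_⟩
    have h1 := Subgroup.lowerCentralSeries_antitone (S := V ⊔ G) hi ((hFilmem i m).1 hm)
    rw [hn, Subgroup.mem_bot] at h1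
    rw [Submodule.mem_bot]
    exact Additive.toMul.injective (Subtype.ext h1)
  have hanti : ∀ i, Fil (i + 1) ≤ Fil i := fun i m hm =>
    (hFilmem i m).2 (Subgroup.lowerCentralSeries_antitone (S := V ⊔ G) (Nat.le_succ i) ((hFilmem _ m).1 hm))
  have hstep : ∀ (g : ↥G) i, ∀ m ∈ Fil i, ρ g m - m ∈ Fil (i + 1) := by
    intro g i m hm
    refine (hFilmem _ _).2 ?_
    rw [toMul_sub, Subgroup.coe_div, hρapp, div_eq_mul_inv, ← commutatorElement_def,
      Subgroup.lowerCentralSeries_succ, Subgroup.commutator_comm]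
    exact Subgroup.commutator_mem_commutator (Subgroup.mem_sup_right g.2) ((hFilmem i m).1 hm)
  -- an initial quadratic offender
  obtain ⟨E, hEG, hE1, ⟨hEab, hEexp⟩, hEoff⟩ := hF
  let μ : Subgroup Ω → ℕ := fun C => Nat.card C * Nat.card ↥(V ⊓ Subgroup.centralizer (C : Set Ω))
  have hμbot : μ ⊥ = Nat.card ↥V := by
    show Nat.card (⊥ : Subgroup Ω) * _ = _
    rw [Subgroup.card_bot, one_mul, Subgroup.coe_bot, inf_eq_left.2 fun v _ =>
      Subgroup.mem_centralizer_iff.2 fun h hh => by rw [Set.mem_singleton_iff.1 hh]; simp]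
  obtain ⟨C, hCE, hC1, hCbest⟩ : ∃ C ≤ E, C ≠ ⊥ ∧ ∀ B ≤ E, μ B ≤ μ C := by
    obtain ⟨C, hCE, hmax⟩ := Set.Finite.exists_maximalFor μ {B | B ≤ E} (Set.toFinite _)
      ⟨⊥, show (⊥ : Subgroup Ω) ≤ E from bot_le⟩
    have hall : ∀ B ≤ E, μ B ≤ μ C := fun B hB => by
      by_contra hlt; push Not at hlt
      exact absurd (hmax hB hlt.le) (not_le.2 hlt)
    by_cases hC1 : C = ⊥
    · refine ⟨E, le_rfl, hE1, fun B hB => (hall B hB).trans ?_⟩
      rw [hC1, hμbot]; exact hEoff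
    · exact ⟨C, hCE, hC1, hall⟩
  have hCG : C ≤ G := hCE.trans hEG
  have hCV : C ≤ Subgroup.normalizer (V : Set Ω) := hCG.trans hGV
  have hbest : Cfsg.IsBestOffenderOn p V C := by
    refine ⟨fun B hB => hCbest B (hB.trans hCE), ?_, fun a ha => by rw [hEexp a (hCE ha)]; exact one_mem _⟩
    rw [Subgroup.commutator_le]
    intro a ha b hb
    have : a * b = b * a := congrArg Subtype.val (hEab.is_comm.comm ⟨a, hCE ha⟩ ⟨b, hCE hb⟩)
    rw [commutatorElement_eq_one_iff_mul_comm.2 this]; exact one_mem _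
  have hVC : ⁅V, C⁆ ≠ ⊥ := fun hbot => hC1 <| le_bot_iff.1 <| hfaith ▸ le_inf hCG
    (Subgroup.le_centralizer_iff.1 (Subgroup.commutator_eq_bot_iff_le_centralizer.1 hbot))
  obtain ⟨hB1, -, hB3⟩ := CfsgLib.ThompsonJ.timmesfeld_replacement ⟨hVab, hVexp⟩ hCV hbest (le_refl V)
  set B := C ⊓ Subgroup.centralizer ((⁅V, C⁆ : Subgroup Ω) : Set Ω) with hBdef
  have hBG : B ≤ G := inf_le_left.trans hCG
  set B0 := B.subgroupOf G with hB0
  have hB0map : B0.map G.subtype = B := Subgroup.map_subgroupOf_eq_of_le hBG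
  have hquad : ∀ a ∈ B0, ∀ b ∈ B0, (ρ a - 1) * (ρ b - 1) = 0 := by
    intro a ha b hb
    refine LinearMap.ext fun m => (hfix a _).2 ?_
    rw [LinearMap.sub_apply, Module.End.one_apply, toMul_sub, Subgroup.coe_div, hρapp, div_eq_mul_inv]
    have hmem : (b : Ω) * ((Additive.toMul m : ↥V) : Ω) * (b : Ω)⁻¹ * ((Additive.toMul m : ↥V) : Ω)⁻¹ ∈ ⁅V, C⁆ := by
      rw [Subgroup.commutator_comm, ← commutatorElement_def]
      exact Subgroup.commutator_mem_commutator (Subgroup.mem_subgroupOf.1 hb).1 (Additive.toMul m).2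
    exact Subgroup.mem_centralizer_iff.1 (Subgroup.mem_subgroupOf.1 ha).2 _ hmem
  let W0 : Submodule (ZMod p) (Module.End (ZMod p) (Additive ↥V)) :=
    { carrier := {x | ∃ b ∈ B0, ρ b = 1 + x}
      zero_mem' := ⟨1, one_mem _, by rw [map_one, add_zero]⟩
      add_mem' := by
        rintro x y ⟨a, ha, hax⟩ ⟨b, hb, hby⟩
        refine ⟨a * b, mul_mem ha hb, ?_⟩
        have h := hquad a ha b hb
        rw [hax, hby, add_sub_cancel_left, add_sub_cancel_left] at h
        rw [map_mul, hax, hby]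
        simp only [mul_add, add_mul, h, one_mul, mul_one]
        abel
      smul_mem' := by
        rintro c x ⟨a, ha, hax⟩
        refine ⟨a ^ c.val, pow_mem ha _, ?_⟩
        have h := hquad a ha a ha
        rw [hax, add_sub_cancel_left] at h
        rw [map_pow_one_add ρ hax h, ZMod.natCast_zmod_val] }
  have hW0iff : ∀ x, x ∈ W0 ↔ ∃ b ∈ B0, ρ b = 1 + x := fun x => Iff.rfl
  have hGood0 : IsQuadOffenderSpace ρ W0 := by
    refine ⟨fun hbot => ?_, ?_, ?_, ?_⟩
    · refine hB3 hVC (Subgroup.commutator_eq_bot_iff_le_centralizer.2 fun v hv => ?_)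
      refine Subgroup.mem_centralizer_iff.2 fun b hb => ?_
      have hx : ρ ⟨b, hBG hb⟩ - 1 ∈ W0 := ⟨⟨b, hBG hb⟩, Subgroup.mem_subgroupOf.2 hb, (add_sub_cancel 1 _).symm⟩
      rw [hbot, Submodule.mem_bot] at hx
      exact ((hfix ⟨b, hBG hb⟩ (Additive.ofMul (⟨v, hv⟩ : ↥V))).1 (by rw [hx]; rfl)).symm
    · rintro x ⟨a, ha, hax⟩ y ⟨b, hb, hby⟩
      have h := hquad a ha b hb
      rwa [hax, hby, add_sub_cancel_left, add_sub_cancel_left] at h
    · rintro x ⟨b, -, hb⟩
      exact ⟨b, hb⟩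
    · obtain ⟨e1, e2⟩ := hker B0 W0 hW0iff
      have e3 : Nat.card B0 = Nat.card B := Nat.card_congr (Subgroup.subgroupOfEquivOfLe hBG).toEquiv
      rw [e1, e2, hB0map, e3, hcardV]
      have h := hB1.1 ⊥ bot_le
      calc Nat.card ↥V = μ ⊥ := hμbot.symm
        _ ≤ _ := h
  haveI : Finite (Module.End (ZMod p) (Additive ↥V)) :=
    Finite.of_injective (fun f => (f : Additive ↥V → Additive ↥V)) DFunLike.coe_injective
  obtain ⟨W, hW, hmaxW⟩ := Set.Finite.exists_maximalFor (potential Fil n) {W | IsQuadOffenderSpace ρ W}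
    (Set.toFinite _) ⟨W0, hGood0⟩
  set A0 := subgroupOfSpace ρ W hW.mul_zero with hA0
  have hWiff : ∀ x, x ∈ W ↔ ∃ b ∈ A0, ρ b = 1 + x := by
    intro x
    constructor
    · intro hx
      obtain ⟨g, hg⟩ := hW.mem_group x hx
      exact ⟨g, by rw [hA0, mem_subgroupOfSpace, hg, add_sub_cancel_left]; exact hx, hg⟩
    · rintro ⟨b, hb, hbx⟩
      rw [hA0, mem_subgroupOfSpace, hbx, add_sub_cancel_left] at hb
      exact hb
  obtain ⟨eA, eF⟩ := hker A0 W hWiff
  have hA0card : Nat.card (A0.map G.subtype) = Nat.card A0 := Subgroup.card_map_of_injective G.subtype_injective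
  refine ⟨A0.map G.subtype, Subgroup.map_subtype_le _, fun hbot => hW.ne_bot ?_, ⟨⟨⟨?_⟩⟩, ?_⟩, ?_, ?_, ?_⟩
  · rw [Subgroup.map_eq_bot_iff_of_injective _ G.subtype_injective] at hbot
    refine (Submodule.eq_bot_iff W).2 fun x hx => ?_
    obtain ⟨b, hb, hbx⟩ := (hWiff x).1 hx
    rw [hbot, Subgroup.mem_bot] at hb
    rw [hb, map_one] at hbx
    exact add_eq_left.1 hbx.symm
  · rintro ⟨_, a, ha, rfl⟩ ⟨_, b, hb, rfl⟩
    refine Subtype.ext ?_
    show ((a * b : ↥G) : Ω) = ((b * a : ↥G) : Ω)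
    refine congrArg Subtype.val (hinj ?_)
    have h1 := hW.mul_zero _ ha _ hb
    have h2 := hW.mul_zero _ hb _ ha
    rw [map_mul, map_mul]
    rw [← sub_eq_zero, show ρ a * ρ b - ρ b * ρ a = (ρ a - 1) * (ρ b - 1) - (ρ b - 1) * (ρ a - 1) by
      simp only [mul_sub, sub_mul, one_mul, mul_one]; abel, h1, h2, sub_zero]
  · rintro _ ⟨a, ha, rfl⟩
    show ((a ^ p : ↥G) : Ω) = ((1 : ↥G) : Ω)
    refine congrArg Subtype.val (hinj ?_)
    rw [map_pow_one_add ρ (x := ρ a - 1) (by abel) (hW.mul_zero _ ha _ ha), ZMod.natCast_self, zero_smul,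
      add_zero, map_one]
  · rw [hA0card, ← eA, ← eF, ← hcardV]
    exact hW.offender
  · rw [Subgroup.commutator_eq_bot_iff_le_centralizer, Subgroup.commutator_le]
    rintro v hv _ ⟨a, ha, rfl⟩
    refine Subgroup.mem_centralizer_iff.2 ?_
    rintro _ ⟨c, hc, rfl⟩
    have h := congrArg (fun f : Module.End (ZMod p) (Additive ↥V) => f (Additive.ofMul (⟨v, hv⟩ : ↥V)⁻¹))
      (hW.mul_zero _ hc _ ha)
    simp only [Module.End.mul_apply, LinearMap.zero_apply] at h
    have h' := (hfix c _).1 h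
    rw [LinearMap.sub_apply, Module.End.one_apply, toMul_sub, Subgroup.coe_div, hρapp, div_eq_mul_inv] at h'
    simp only [toMul_ofMul, InvMemClass.coe_inv, inv_inv] at h'
    -- `h'` speaks about `[a, v⁻¹]`
    have hcomm : Commute ((a : Ω) * v⁻¹ * (a : Ω)⁻¹ * v) (c : Ω) := h'
    have hv' : Commute (v⁻¹) (v * ((a : Ω) * v⁻¹ * (a : Ω)⁻¹)) := by
      have hVc : ∀ u ∈ V, ∀ w ∈ V, u * w = w * u := fun u hu w hw =>
        congrArg Subtype.val (hVab.is_comm.comm (⟨u, hu⟩ : ↥V) ⟨w, hw⟩)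
      exact hVc _ (inv_mem hv) _ (mul_mem hv (hconjV a ⟨v⁻¹, inv_mem hv⟩))
    have e : ⁅v, (a : Ω)⁆ = (a : Ω) * v⁻¹ * (a : Ω)⁻¹ * v := by
      rw [commutatorElement_def]
      calc v * (a : Ω) * v⁻¹ * (a : Ω)⁻¹ = (v * ((a : Ω) * v⁻¹ * (a : Ω)⁻¹)) * v⁻¹ * v := by group
        _ = v⁻¹ * (v * ((a : Ω) * v⁻¹ * (a : Ω)⁻¹)) * v := by rw [hv'.eq]
        _ = _ := by group
    show (c : Ω) * ⁅v, (a : Ω)⁆ = ⁅v, (a : Ω)⁆ * c
    rw [e]
    exact hcomm.eq.symm
  -- normal in the normal closure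
  have hnilG : Group.IsNilpotent ↥G := hG.isNilpotent
  set X : Set ↥G := {x | ∃ h : ↥G, ∃ a ∈ A0, x = h * a * h⁻¹} with hX
  have hXconj : ∀ g : ↥G, ∀ x ∈ X, g * x * g⁻¹ ∈ X := by
    rintro g _ ⟨h, a, ha, rfl⟩
    exact ⟨g * h, a, ha, by group⟩
  have hsub : X ⊆ (Subgroup.normalizer (A0 : Set ↥G) : Set ↥G) := by
    by_contra hne
    obtain ⟨b, hbX, hbM, hbA⟩ := exists_mem_normalizer_not_mem hnilG A0 X hXconj hne
    obtain ⟨h0, a0, ha0, hb0⟩ := id hbX
    have hA0M : ∀ a ∈ A0, a ∈ Subgroup.closure (X ∩ Subgroup.normalizer (A0 : Set ↥G)) := fun a ha =>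
      Subgroup.subset_closure ⟨⟨1, a, ha, by group⟩, Subgroup.le_normalizer ha⟩
    have hMA : Subgroup.closure (X ∩ Subgroup.normalizer (A0 : Set ↥G)) ≤ Subgroup.normalizer (A0 : Set ↥G) :=
      (Subgroup.closure_le _).2 Set.inter_subset_right
    set β := ρ b - 1 with hβd
    have hb : ρ b = 1 + β := by rw [hβd]; abel
    have hβ : β * β = 0 := by
      have e : β = ρ h0 * (ρ a0 - 1) * ρ h0⁻¹ := by
        rw [mul_sub, sub_mul, mul_one, ← map_mul, ← map_mul, ← map_mul, mul_inv_cancel, map_one, ← hb0]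
      calc β * β = ρ h0 * (ρ a0 - 1) * (ρ h0⁻¹ * ρ h0) * (ρ a0 - 1) * ρ h0⁻¹ := by rw [e]; simp only [mul_assoc]
        _ = 0 := by
          rw [← map_mul, inv_mul_cancel, map_one, mul_one, mul_assoc (ρ h0), hW.mul_zero _ ha0 _ ha0, mul_zero,
            zero_mul]
    have hbt : ∀ t : ZMod p, ρ (b ^ t.val) = 1 + t • β := fun t => by
      rw [map_pow_one_add ρ hb hβ, ZMod.natCast_zmod_val]
    have hbt' : ∀ t : ZMod p, ρ (b ^ t.val)⁻¹ = 1 - t • β := fun t =>
      exists_map_eq_one_sub (hbt t) (by rw [smul_mul_assoc, mul_smul_comm, hβ, smul_zero, smul_zero])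
    have hconj : ∀ (t : ZMod p) (g : ↥G) (x : Module.End (ZMod p) (Additive ↥V)), ρ g = 1 + x →
        ρ (b ^ t.val * g * (b ^ t.val)⁻¹) = 1 + (1 + t • β) * x * (1 - t • β) := by
      intro t g x hg
      rw [map_mul, map_mul, hg, hbt, hbt', mul_add, add_mul, mul_one]
      congr 1
      rw [← hbt, ← hbt', ← map_mul, mul_inv_cancel, map_one]
    obtain ⟨W', hW', hlt⟩ := exists_larger_offender hp hFil0 hanti hn hstep hW b hb hβ
      (fun s t x hx y hy => by
        obtain ⟨a, ha, hax⟩ := (hWiff x).1 hx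
        obtain ⟨c, hc, hcy⟩ := (hWiff y).1 hy
        have hq : (b ^ s.val)⁻¹ * b ^ t.val ∈ Subgroup.normalizer
            ((Subgroup.closure (X ∩ Subgroup.normalizer (A0 : Set ↥G))) : Set ↥G) :=
          mul_mem (inv_mem (pow_mem hbM _)) (pow_mem hbM _)
        set q := (b ^ s.val)⁻¹ * b ^ t.val with hqd
        have he : q * c * q⁻¹ ∈ Subgroup.normalizer (A0 : Set ↥G) :=
          hMA ((Subgroup.mem_normalizer_iff.1 hq c).1 (hA0M c hc))
        have hea := (Subgroup.mem_normalizer_iff.1 he a).1 ha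
        refine ⟨_, hea, ?_⟩
        have h1 := hconj s _ _ (show ρ (q * c * q⁻¹ * a * (q * c * q⁻¹)⁻¹) =
          1 + (ρ (q * c * q⁻¹ * a * (q * c * q⁻¹)⁻¹) - 1) by abel)
        have hA := hconj s a x hax
        have hC := hconj t c y hcy
        have hz : ((1 + t • β) * y * (1 - t • β)) * ((1 + t • β) * y * (1 - t • β)) = 0 := by
          calc _ = (1 + t • β) * y * ((1 - t • β) * (1 + t • β)) * y * (1 - t • β) := by simp only [mul_assoc]
            _ = 0 := by
              rw [← hbt, ← hbt', ← map_mul, inv_mul_cancel, map_one, mul_one, mul_assoc _ y y,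
                hW.mul_zero y hy y hy, mul_zero, zero_mul]
        have hC' := exists_map_eq_one_sub hC hz
        have e : b ^ s.val * (q * c * q⁻¹ * a * (q * c * q⁻¹)⁻¹) * (b ^ s.val)⁻¹ =
            (b ^ t.val * c * (b ^ t.val)⁻¹) * (b ^ s.val * a * (b ^ s.val)⁻¹) *
              (b ^ t.val * c * (b ^ t.val)⁻¹)⁻¹ := by rw [hqd]; group
        rw [e, map_mul, map_mul, hC, hC', hA] at h1
        set Y := (1 + t • β) * y * (1 - t • β)
        set Z := (1 + s • β) * x * (1 - s • β)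
        have e2 : (1 + Y) * (1 + Z) * (1 - Y) = 1 + (1 + Y) * Z * (1 - Y) := by
          have e3 : (1 + Y) * (1 - Y) = 1 := by
            simp only [mul_sub, add_mul, one_mul, mul_one, hz]; abel
          rw [mul_add, add_mul, mul_one, e3]
        rw [e2] at h1
        exact add_left_cancel h1)
      (by
        by_contra hstay
        push Not at hstay
        refine hbA (Subgroup.mem_normalizer_fintype fun a ha => ?_)
        have hWmem := (hWiff (ρ a - 1)).2 ⟨a, ha, (add_sub_cancel 1 _).symm⟩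
        set x := ρ a - 1 with hxd
        have hd : β * x - x * β ∈ W := hstay x hWmem
        have hdd := hstay _ hd
        have h2 : (2 : ZMod p) ≠ 0 := by
          simpa using natCast_ne_zero_of_lt_lim (p := p) (m := 2) (by omega) (by omega)
        have hb' : ρ b⁻¹ = 1 - β := exists_map_eq_one_sub hb hβ
        show ρ (b * a * b⁻¹) - 1 ∈ W
        have hbb : ∀ z, β * (β * z) = 0 := fun z => by rw [← mul_assoc, hβ, zero_mul]
        have e : ρ (b * a * b⁻¹) - 1 = x + (β * x - x * β) +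
            (2 : ZMod p)⁻¹ • (β * (β * x - x * β) - (β * x - x * β) * β) := by
          rw [map_mul, map_mul, hb, hb', show ρ a = 1 + x by rw [hxd]; abel]
          simp only [mul_add, add_mul, mul_sub, sub_mul, mul_one, one_mul, mul_assoc, hβ, hbb, mul_zero,
            smul_sub]
          match_scalars <;> field_simp <;> ring
        rw [e]
        exact add_mem (add_mem hWmem hd) (Submodule.smul_mem _ _ hdd))
    exact absurd (hmaxW hW' hlt.le) (not_le.2 hlt)
  intro g hg a ha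
  obtain ⟨a', ha', rfl⟩ := ha
  have hgG : ∃ g' : ↥G, (g' : Ω) = g ∧ g' ∈ Subgroup.normalizer (A0 : Set ↥G) := by
    have hle : Subgroup.closure {x : Ω | ∃ h ∈ G, ∃ a ∈ A0.map G.subtype, x = h * a * h⁻¹} ≤
        (Subgroup.normalizer (A0 : Set ↥G)).map G.subtype := by
      rw [Subgroup.closure_le]
      rintro _ ⟨h, hh, _, ⟨c, hc, rfl⟩, rfl⟩
      exact ⟨⟨h, hh⟩ * c * ⟨h, hh⟩⁻¹, hsub ⟨⟨h, hh⟩, c, hc, rfl⟩, rfl⟩
    obtain ⟨g', hg', he⟩ := hle hg
    exact ⟨g', he, hg'⟩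
  obtain ⟨g', rfl, hg'⟩ := hgG
  exact ⟨g' * a' * g'⁻¹, (Subgroup.mem_normalizer_iff.1 hg' a').1 ha', rfl⟩

end Cfsg.Agent.S1935
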