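import Cfsg.Statements.S1936
import Cfsg.Agent.Lib.Cores.AbelianHall
import Cfsg.Agent.Lib.Cores.Schmidt
import Cfsg.Agent.Lib.Balance.SigFamily
import Cfsg.Agent.Lib.CoprimeAction.Abelian
import Cfsg.Agent.Lib.Transfer.Abelian
import Cfsg.Agent.Lib.Replacement.ZJFusion
import Cfsg.Agent.Lib.PSolvable.HallHigman
import Cfsg.Agent.Lib.PSolvable.Products
import Cfsg.Agent.Lib.CharTheory.Burnside

set_option autoImplicit false
set_option linter.style.haveILetI false
set_option linter.unusedSectionVars false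
open Cfsg

namespace Cfsg.Agent.S1936


open scoped commutatorElement IsMulCommutative Pointwise

variable {G : Type*} [Group G] [Finite G] {p : ℕ}

/-- The hypothesis on the `p'`-subgroups. -/
def Hyp (p : ℕ) (G : Type*) [Group G] : Prop :=
  ∀ H : Subgroup G, (Nat.card H).Coprime p → IsMulCommutative H ∧ ∀ x ∈ H, x ^ (p - 1) = 1

theorem hyp_subgroup (h : Hyp p G) (K : Subgroup G) : Hyp p K := by
  intro H hH
  obtain ⟨hc, hx⟩ := h (H.map K.subtype)
    (by rwa [Subgroup.card_map_of_injective K.subtype_injective])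
  refine ⟨⟨⟨fun a b => Subtype.ext (Subtype.ext ?_)⟩⟩,
    fun x hxH => Subtype.ext (by simpa using hx _ ⟨x, hxH, rfl⟩)⟩
  simpa using congrArg Subtype.val
    (hc.is_comm.comm (⟨_, ⟨a, a.2, rfl⟩⟩ : H.map K.subtype) ⟨_, ⟨b, b.2, rfl⟩⟩)

theorem comm_of_hyp (h : Hyp p G) {H : Subgroup G} (hH : (Nat.card H).Coprime p) {x y : G}
    (hx : x ∈ H) (hy : y ∈ H) : x * y = y * x :=
  congrArg Subtype.val ((h H hH).1.is_comm.comm (⟨x, hx⟩ : H) ⟨y, hy⟩)

theorem le_centralizer_of_hyp (h : Hyp p G) {H : Subgroup G} (hH : (Nat.card H).Coprime p) :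
    H ≤ Subgroup.centralizer (H : Set G) := fun _ hx =>
  Subgroup.mem_centralizer_iff.2 fun _ hy => comm_of_hyp h hH hy hx

/-- A proper quotient is solvable or inherits the hypothesis. -/
theorem hyp_quotient [hp : Fact p.Prime] (h : Hyp p G)
    (hs : ∀ H : Subgroup G, H ≠ ⊤ → Group.IsSolvable H) (N : Subgroup G) [N.Normal] :
    Group.IsSolvable (G ⧸ N) ∨ Hyp p (G ⧸ N) := by
  set π := QuotientGroup.mk' N with hπ
  have hπs : Function.Surjective π := QuotientGroup.mk'_surjective N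
  by_cases hcop : (Nat.card (G ⧸ N)).Coprime p
  · left
    obtain ⟨P⟩ : Nonempty (Sylow p G) := inferInstance
    have hPN : (P : Subgroup G) ≤ N := by
      have h1 : (P : Subgroup G).map π = ⊥ :=
        CfsgLib.Cores.eq_bot_of_isPGroup_of_coprime (P.2.map π)
          (hcop.coprime_dvd_left (Subgroup.card_subgroup_dvd_card _))
      rwa [Subgroup.map_eq_bot_iff, QuotientGroup.ker_mk'] at h1
    have hfr : Subgroup.normalizer (((P : Subgroup G).subgroupOf N).map N.subtype : Set G) ⊔ N = ⊤ := by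
      have := Sylow.normalizer_sup_eq_top (P.subtype hPN)
      rwa [Sylow.coe_subtype] at this
    rw [Subgroup.map_subgroupOf_eq_of_le hPN] at hfr
    by_cases hnt : Subgroup.normalizer ((P : Subgroup G) : Set G) = ⊤
    · haveI : (P : Subgroup G).Normal := Subgroup.normalizer_eq_top_iff.1 hnt
      obtain ⟨K, hK⟩ := Subgroup.exists_right_complement'_of_coprime (N := (P : Subgroup G))
        (Sylow.card_coprime_index P)
      have hKc : (Nat.card K).Coprime p := by
        rw [← hK.symm.index_eq_card]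
        exact ((hp.out.coprime_iff_not_dvd).2 P.not_dvd_index).symm
      refine Group.isSolvable_of_comm fun a b => ?_
      have hgen : ∀ q : G ⧸ N, ∃ k ∈ K, π k = q := by
        intro q
        obtain ⟨x, rfl⟩ := hπs q
        obtain ⟨y, hy, k, hk, rfl⟩ :=
          Subgroup.mem_sup_of_normal_left.1 (hK.sup_eq_top ▸ Subgroup.mem_top x)
        exact ⟨k, hk, by rw [map_mul, show π y = 1 from (QuotientGroup.eq_one_iff y).2 (hPN hy), one_mul]⟩
      obtain ⟨x, hx, rfl⟩ := hgen a
      obtain ⟨y, hy, rfl⟩ := hgen b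
      rw [← map_mul, ← map_mul, comm_of_hyp h hKc hx hy]
    · haveI := hs _ hnt
      refine Group.isSolvable_of_surjective
        (f := π.comp (Subgroup.normalizer ((P : Subgroup G) : Set G)).subtype) fun q => ?_
      obtain ⟨x, rfl⟩ := hπs q
      obtain ⟨y, hy, k, hk, rfl⟩ := Subgroup.mem_sup_of_normal_right.1 (hfr ▸ Subgroup.mem_top x)
      refine ⟨⟨y, hy⟩, ?_⟩
      show π y = π (y * k)
      rw [map_mul, show π k = 1 from (QuotientGroup.eq_one_iff k).2 hk, mul_one]
  · right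
    intro H hH
    set K := H.comap π with hK
    have hKtop : K ≠ ⊤ := fun e => by
      apply hcop
      have : H = ⊤ := by
        rw [← Subgroup.map_comap_eq_self_of_surjective hπs H, ← hK, e, Subgroup.map_top_of_surjective _ hπs]
      rwa [this, Subgroup.card_top] at hH
    haveI := hs K hKtop
    obtain ⟨A, hA⟩ := CfsgLib.Hall.exists_isPiHall (G := K) ({p}ᶜ : Set ℕ)
    have hAh := CfsgLib.Hall.isPiHall_map
      (π.subgroupComap_surjective_of_surjective H hπs) hA
    have htop : A.map (π.subgroupComap H) = ⊤ := by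
      obtain ⟨e, he⟩ := CfsgLib.Cores.exists_pow_card_of_isPiHall_compl hAh
      exact Subgroup.index_eq_one.1 (Nat.Coprime.eq_one_of_dvd
        ((hH.pow_right e).coprime_dvd_left (Subgroup.index_dvd_card _)) (he ▸ dvd_refl _))
    obtain ⟨hc, hx⟩ := hyp_subgroup h K A (CfsgLib.Cores.coprime_card_of_isPiHall_compl hA)
    have hgen : ∀ y : H, ∃ a ∈ A, π.subgroupComap H a = y := fun y =>
      Subgroup.mem_map.1 (htop ▸ Subgroup.mem_top y)
    refine ⟨⟨⟨fun a b => ?_⟩⟩, fun y hy => ?_⟩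
    · obtain ⟨x, hxA, rfl⟩ := hgen a
      obtain ⟨y, hyA, rfl⟩ := hgen b
      rw [← map_mul, ← map_mul]
      exact congrArg _ (congrArg Subtype.val (hc.is_comm.comm (⟨x, hxA⟩ : A) ⟨y, hyA⟩))
    · obtain ⟨x, hxA, hxy⟩ := hgen ⟨y, hy⟩
      have := congrArg Subtype.val (congrArg (π.subgroupComap H) (hx x hxA))
      simpa [hxy] using this

theorem mod_eq_one_of_ordProj {n : ℕ} [hp : Fact p.Prime] (hn : n ≠ 0)
    (h : ∀ q : ℕ, q.Prime → q ∣ n → q ^ n.factorization q ≡ 1 [MOD p]) : n ≡ 1 [MOD p] := by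
  conv_lhs => rw [← Nat.prod_factorization_pow_eq_self hn]
  refine Finset.prod_induction _ (fun m => m ≡ 1 [MOD p]) (fun a b ha hb => ha.mul hb) rfl ?_
  intro q hq
  rw [Nat.support_factorization, Nat.mem_primeFactors] at hq
  exact h q hq.1 hq.2.1

section Simple

variable [IsSimpleGroup G] [hp : Fact p.Prime] (hna : ¬ Group.IsSolvable G)
  (hs : ∀ H : Subgroup G, H ≠ ⊤ → Group.IsSolvable H) (h : Hyp p G) (hp5 : 5 ≤ p)

include hna in
theorem normalizer_ne_top {H : Subgroup G} (hb : H ≠ ⊥) (ht : H ≠ ⊤) :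
    Subgroup.normalizer (H : Set G) ≠ ⊤ := fun e =>
  (Subgroup.normalizer_eq_top_iff.1 e).eq_bot_or_eq_top.elim hb ht

include hna in
theorem center_eq_bot : Subgroup.center G = ⊥ :=
  (inferInstance : (Subgroup.center G).Normal).eq_bot_or_eq_top.resolve_right fun e =>
    hna (Group.isSolvable_of_comm fun a b =>
      (Subgroup.mem_center_iff.1 (e ▸ Subgroup.mem_top b) a))

include hna in
theorem centralizer_ne_top {H : Subgroup G} (hb : H ≠ ⊥) :
    Subgroup.centralizer (H : Set G) ≠ ⊤ := fun e => hb <| le_bot_iff.1 <| by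
  rw [← center_eq_bot hna]
  intro x hx
  exact Subgroup.mem_center_iff.2 fun g =>
    (Subgroup.mem_centralizer_iff.1 (e ▸ Subgroup.mem_top g) x hx).symm

include hna in
theorem ne_top_of_isPGroup {q : ℕ} [Fact q.Prime] {H : Subgroup G} (hH : IsPGroup q H) : H ≠ ⊤ := by
  intro e
  subst e
  haveI := hH.isNilpotent
  exact hna (Group.isSolvable_of_surjective (f := (⊤ : Subgroup G).subtype) fun x => ⟨⟨x, trivial⟩, rfl⟩)

include hna h in
theorem ne_top_of_coprime {H : Subgroup G} (hH : (Nat.card H).Coprime p) : H ≠ ⊤ := fun e =>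
  hna (Group.isSolvable_of_comm fun a b =>
    comm_of_hyp h hH (e ▸ Subgroup.mem_top a) (e ▸ Subgroup.mem_top b))

include hna h in
theorem dvd_card : p ∣ Nat.card G := by
  by_contra hd
  exact ne_top_of_coprime hna h (H := ⊤)
    (by rw [Subgroup.card_top]; exact (hp.out.coprime_iff_not_dvd.2 hd).symm) rfl

include h in
theorem dvd_sub_one {q : ℕ} (hq : q.Prime) (hqp : q ≠ p) (hd : q ∣ Nat.card G) : q ∣ p - 1 := by
  have := Fact.mk hq
  obtain ⟨x, hx⟩ := exists_prime_orderOf_dvd_card' q hd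
  rw [← hx]
  refine orderOf_dvd_of_pow_eq_one ((h (Subgroup.zpowers x) ?_).2 x (Subgroup.mem_zpowers x))
  rw [Nat.card_zpowers, hx]
  exact (Nat.coprime_primes hq hp.out).2 hqp

include h in
theorem mem_centralizer_of_normalizes {Q : Subgroup G} (hQ : (Nat.card Q).Coprime p) {x : G}
    (hx : x ∈ Subgroup.normalizer (Q : Set G)) (hxc : (orderOf x).Coprime p) :
    x ∈ Subgroup.centralizer (Q : Set G) := by
  have hH : (Nat.card ↥(Q ⊔ Subgroup.zpowers x)).Coprime p := by
    refine Nat.Coprime.coprime_dvd_left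
      (CfsgLib.Balance.card_sup_dvd_of_normalized (Subgroup.zpowers_le.2 hx)) ?_
    rw [Nat.card_zpowers]
    exact hQ.mul_left hxc
  exact Subgroup.mem_centralizer_iff.2 fun y hy =>
    comm_of_hyp h hH (Subgroup.mem_sup_left hy) (Subgroup.mem_sup_right (Subgroup.mem_zpowers x))

omit [IsSimpleGroup G] in
theorem coprime_of_sylow {q : ℕ} (hq : q.Prime) (hqp : q ≠ p) {Q : Subgroup G} (hQ : IsPGroup q Q) :
    (Nat.card Q).Coprime p := by
  have := Fact.mk hq
  obtain ⟨k, hk⟩ := IsPGroup.iff_card.1 hQ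
  exact hk ▸ ((Nat.coprime_primes hq hp.out).2 hqp).pow_left k

include hna h in
theorem sylow_fixed_trivial {q : ℕ} [Fact q.Prime] (hqp : q ≠ p) (Q : Sylow q G) :
    (Q : Subgroup G) ⊓ Subgroup.centralizer (Subgroup.normalizer ((Q : Subgroup G) : Set G) : Set G) = ⊥ := by
  have hQc : IsMulCommutative (Q : Subgroup G) := (h _ (coprime_of_sylow Fact.out hqp Q.2)).1
  haveI := CfsgLib.Transfer.pResidual_normal (G := G) (p := q)
  have htop : pResidual q G = ⊤ := by
    refine (inferInstance : (pResidual q G).Normal).eq_bot_or_eq_top.resolve_left fun hb => ?_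
    have hq := CfsgLib.Transfer.isPGroup_quotient_pResidual (G := G) (p := q)
    refine ne_top_of_isPGroup hna (q := q) (H := (⊤ : Subgroup G)) (fun x => ?_) rfl
    obtain ⟨k, hk⟩ := hq (QuotientGroup.mk' _ (x : G))
    refine ⟨k, Subtype.ext ?_⟩
    have h1 : (x : G) ^ q ^ k ∈ pResidual q G := (QuotientGroup.eq_one_iff _).1 (by simpa using hk)
    rw [hb, Subgroup.mem_bot] at h1
    simpa using h1
  have h1 := CfsgLib.Transfer.abelian_inf_pResidual Q hQc
  rw [htop, inf_top_eq] at h1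
  have h2 := (CfsgLib.Transfer.abelian_decomp Q hQc).1
  rw [← h1, inf_assoc, inf_comm _ (Q : Subgroup G), ← inf_assoc, inf_idem] at h2
  exact h2

include hna h in
theorem card_modEq_one {q : ℕ} [Fact q.Prime] (hqp : q ≠ p) (Q : Sylow q G) {X : Subgroup G}
    (hXQ : X ≤ (Q : Subgroup G))
    (hN : Subgroup.normalizer ((Q : Subgroup G) : Set G) ≤ Subgroup.normalizer (X : Set G)) :
    Nat.card X ≡ 1 [MOD p] := by
  set N := Subgroup.normalizer ((Q : Subgroup G) : Set G) with hNdef
  obtain ⟨S⟩ : Nonempty (Sylow p N) := inferInstance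
  let f : (S : Subgroup N) →* MulAut X :=
    (X.normalizerMonoidHom.comp (Subgroup.inclusion hN)).comp (S : Subgroup N).subtype
  let _ : MulAction (S : Subgroup N) X := MulAction.compHom X f
  have hmod := S.2.card_modEq_card_fixedPoints X
  have hfix : MulAction.fixedPoints (S : Subgroup N) X = {1} := by
    ext v
    rw [Set.mem_singleton_iff]
    refine ⟨fun hv => ?_, fun hv a => by subst hv; exact map_one (f a)⟩
    have hvS : ∀ s ∈ (S : Subgroup N), (s : G) * v * (s : G)⁻¹ = v := fun s hs =>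
      congrArg Subtype.val (hv ⟨s, hs⟩)
    let C : Subgroup N := (Subgroup.centralizer ({(v : G)} : Set G)).subgroupOf N
    have hC : C = ⊤ := by
      have := CfsgLib.Transfer.pResidual_normal (G := N) (p := p)
      refine top_le_iff.1 ((CfsgLib.Transfer.sylow_sup_pResidual_eq_top S).ge.trans (sup_le ?_ ?_))
      · intro s hs
        rw [Subgroup.mem_subgroupOf, Subgroup.mem_centralizer_singleton_iff]
        exact (mul_inv_eq_iff_eq_mul.1 (hvS s hs))
      · haveI : ((Subgroup.centralizer ((Q : Subgroup G) : Set G)).subgroupOf N).Normal := inferInstance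
        refine (CfsgLib.Transfer.pResidual_le_of_isPGroup
          (N := (Subgroup.centralizer ((Q : Subgroup G) : Set G)).subgroupOf N) fun y => ?_).trans ?_
        · obtain ⟨x, rfl⟩ := QuotientGroup.mk_surjective y
          obtain ⟨e, he⟩ := CfsgLib.NormalPComplement.exists_pow_coprime_orderOf (p := p)
            (isOfFinOrder_of_finite x)
          refine ⟨e, (QuotientGroup.eq_one_iff _).2 ?_⟩
          rw [Subgroup.mem_subgroupOf]
          exact mem_centralizer_of_normalizes h (coprime_of_sylow Fact.out hqp Q.2) (x ^ p ^ e : N).2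
            (by rwa [Subgroup.orderOf_coe])
        · exact Subgroup.comap_mono
            (Subgroup.centralizer_le (Set.singleton_subset_iff.2 (hXQ v.2)))
    have hmem : (v : G) ∈ (Q : Subgroup G) ⊓ Subgroup.centralizer (N : Set G) := by
      refine ⟨hXQ v.2, Subgroup.mem_centralizer_iff.2 fun n hn => ?_⟩
      have : (⟨n, hn⟩ : N) ∈ C := hC ▸ Subgroup.mem_top _
      exact Subgroup.mem_centralizer_singleton_iff.1 (Subgroup.mem_subgroupOf.1 this)
    rw [sylow_fixed_trivial hna h hqp Q, Subgroup.mem_bot] at hmem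
    exact Subtype.ext hmem
  rw [hfix] at hmod
  exact hmod.trans (by simp; rfl)

include hna h hp5 in
theorem exists_elementary {q : ℕ} [hq : Fact q.Prime] (hqp : q ≠ p) (hd : q ∣ Nat.card G)
    (Q : Sylow q G) : ∃ E : Subgroup G, E ≤ (Q : Subgroup G) ∧ Nat.card E = q ^ 3 ∧ ∀ x ∈ E, x ^ q = 1 := by
  have hQc := fun {x y : G} (hx : x ∈ (Q : Subgroup G)) (hy : y ∈ (Q : Subgroup G)) =>
    comm_of_hyp h (coprime_of_sylow hq.out hqp Q.2) hx hy
  let E : Subgroup G :=
    { carrier := {x | x ∈ (Q : Subgroup G) ∧ x ^ q = 1}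
      one_mem' := ⟨one_mem _, one_pow q⟩
      mul_mem' := fun {a b} ha hb => ⟨mul_mem ha.1 hb.1, by
        rw [(show Commute a b from hQc ha.1 hb.1).mul_pow, ha.2, hb.2, one_mul]⟩
      inv_mem' := fun {a} ha => ⟨inv_mem ha.1, by rw [inv_pow, ha.2, inv_one]⟩ }
  have hEQ : E ≤ (Q : Subgroup G) := fun x hx => hx.1
  have hmod := card_modEq_one hna h hqp Q hEQ fun n hn => by
    refine Subgroup.mem_normalizer_iff.2 fun x => ?_
    show (x ∈ (Q : Subgroup G) ∧ x ^ q = 1) ↔ (n * x * n⁻¹ ∈ (Q : Subgroup G) ∧ (n * x * n⁻¹) ^ q = 1)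
    rw [conj_pow, conj_eq_one_iff]
    exact and_congr_left' (Subgroup.mem_normalizer_iff.1 hn x)
  obtain ⟨k, hk⟩ := IsPGroup.iff_card.1 (Q.2.to_le hEQ)
  have hk0 : k ≠ 0 := by
    rintro rfl
    obtain ⟨x, hx⟩ := exists_prime_orderOf_dvd_card' (G := (Q : Subgroup G)) q
      (Q.dvd_card_of_dvd_card hd)
    have hxE : (x : G) ∈ E := ⟨x.2, orderOf_dvd_iff_pow_eq_one.1 (by rw [Subgroup.orderOf_coe, hx])⟩
    rw [pow_zero, Subgroup.card_eq_one] at hk
    rw [hk, Subgroup.mem_bot] at hxE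
    have : x = 1 := Subtype.ext hxE
    rw [this, orderOf_one] at hx
    exact hq.out.ne_one hx.symm
  have hqlt : q ≤ p - 1 := Nat.le_of_dvd (by omega) (dvd_sub_one h hq.out hqp hd)
  have hk3 : 3 ≤ k := by
    rw [hk] at hmod
    have hpz : ((q : ZMod p)) ^ k = 1 := by
      have := (ZMod.natCast_eq_natCast_iff _ _ _).2 hmod
      simpa using this
    by_contra hlt
    have hk12 : k = 1 ∨ k = 2 := by omega
    rcases hk12 with rfl | rfl
    · rw [pow_one, ← Nat.cast_one, ZMod.natCast_eq_natCast_iff] at hpz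
      have := Nat.ModEq.eq_of_lt_of_lt hpz (by omega) (by omega)
      exact hq.out.ne_one this
    · rcases sq_eq_one_iff.1 hpz with h1 | h1
      · rw [← Nat.cast_one, ZMod.natCast_eq_natCast_iff] at h1
        exact hq.out.ne_one (Nat.ModEq.eq_of_lt_of_lt h1 (by omega) (by omega))
      · rw [eq_neg_iff_add_eq_zero, ← Nat.cast_one, ← Nat.cast_add, ZMod.natCast_eq_zero_iff] at h1
        have hpq : p = q + 1 := Nat.le_antisymm (Nat.le_of_dvd (by omega) h1) (by omega)
        rcases hq.out.eq_two_or_odd' with rfl | hodd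
        · omega
        · rcases hp.out.eq_two_or_odd' with hp2 | hpodd
          · omega
          · exact Nat.not_even_iff_odd.2 hpodd (hpq ▸ hodd.add_odd odd_one)
  obtain ⟨E', hE'⟩ := Sylow.exists_subgroup_card_pow_prime (G := E) q
    (n := 3) (hk ▸ pow_dvd_pow q hk3)
  refine ⟨E'.map E.subtype, (Subgroup.map_subtype_le _).trans hEQ,
    (Subgroup.card_map_of_injective E.subtype_injective).trans hE', ?_⟩
  rintro _ ⟨x, -, rfl⟩
  exact x.2.2

include hna h in
theorem index_modEq_one (P : Sylow p G) : (P : Subgroup G).index ≡ 1 [MOD p] := by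
  refine mod_eq_one_of_ordProj Subgroup.index_ne_zero_of_finite fun q hq hqd => ?_
  have := Fact.mk hq
  have hqp : q ≠ p := fun e => P.not_dvd_index (e ▸ hqd)
  obtain ⟨Q⟩ : Nonempty (Sylow q G) := inferInstance
  have h1 := card_modEq_one hna h hqp Q le_rfl le_rfl
  have h2 : (Nat.card (P : Subgroup G)).factorization q = 0 := by
    refine Nat.factorization_eq_zero_of_not_dvd fun hd => ?_
    obtain ⟨k, hk⟩ := IsPGroup.iff_card.1 P.2
    rw [hk] at hd
    exact hqp ((Nat.prime_dvd_prime_iff_eq hq hp.out).1 (hq.dvd_of_dvd_pow hd))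
  rw [Sylow.card_eq_multiplicity, ← Subgroup.card_mul_index (P : Subgroup G),
    Nat.factorization_mul Nat.card_pos.ne' Subgroup.index_ne_zero_of_finite, Finsupp.add_apply, h2,
    zero_add] at h1
  exact h1

theorem card_zpowers_sup (h : Hyp p G) {q : ℕ} (hq : q.Prime) {a : G} (ha : orderOf a = q)
    {F : Subgroup G} (hF : a ∉ F) {B : Subgroup G} (hB : (Nat.card B).Coprime p) (haB : a ∈ B)
    (hFB : F ≤ B) : Nat.card ↥(Subgroup.zpowers a ⊔ F) = q * Nat.card F := by
  have hinf : Subgroup.zpowers a ⊓ F = ⊥ := by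
    rw [← Subgroup.card_eq_one]
    rcases (Nat.dvd_prime hq).1 (ha ▸ (Nat.card_zpowers a) ▸ Subgroup.card_dvd_of_le (inf_le_left :
      Subgroup.zpowers a ⊓ F ≤ Subgroup.zpowers a)) with h1 | h1
    · exact h1
    · refine absurd ?_ hF
      have := Subgroup.eq_of_le_of_card_ge (inf_le_left :
        Subgroup.zpowers a ⊓ F ≤ Subgroup.zpowers a) (by rw [Nat.card_zpowers, ha, h1])
      exact (this.ge (Subgroup.mem_zpowers a)).2
  have h3 := CfsgLib.PSolvable.card_mul_mul_card_inf (Subgroup.zpowers a) F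
  rw [hinf, Subgroup.card_bot, mul_one, Nat.card_zpowers, ha,
    ← Subgroup.coe_mul_of_left_le_normalizer_right] at h3
  · exact h3
  · refine Subgroup.zpowers_le.2 (Subgroup.centralizer_le_normalizer _ ?_)
    exact Subgroup.mem_centralizer_iff.2 fun y hy => comm_of_hyp h hB (hFB hy) haB

include hna hs h hp5 in
/-- A `p`-subgroup structure around a maximal `p'`-subgroup. -/
theorem exists_uniqueness_subgroup {A : Subgroup G} (hA : A ≠ ⊥) (hAc : (Nat.card A).Coprime p)
    (hmax : ∀ B : Subgroup G, (Nat.card B).Coprime p → A ≤ B → A = B) :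
    ∃ M N₀ : Subgroup G, M ≠ ⊤ ∧ A ≤ M ∧ N₀ ≤ M ∧ (N₀.subgroupOf M).Normal ∧ ¬ M ≤ N₀ ∧
      (∀ x ∈ M, ∃ e : ℕ, x ^ p ^ e ∈ N₀) ∧
      ∀ a ∈ A, a ≠ 1 → Subgroup.centralizer ({a} : Set G) ≤ M := by
  have hhall : ∀ {H : Subgroup G}, A ≤ H → IsPiHall ({p}ᶜ : Set ℕ) (A.subgroupOf H) ∨ H = ⊤ := by
    intro H hAH
    refine or_iff_not_imp_right.2 fun hH => ?_
    haveI := hs H hH
    obtain ⟨B, hB, hAB⟩ := CfsgLib.Hall.exists_isPiHall_ge (G := H) (π := ({p}ᶜ : Set ℕ))
      (U := A.subgroupOf H) fun q hq hqd hqp => by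
        rw [Set.mem_singleton_iff] at hqp
        subst hqp
        rw [Nat.card_congr (Subgroup.subgroupOfEquivOfLe hAH).toEquiv] at hqd
        exact hq.not_dvd_one (hAc ▸ Nat.dvd_gcd hqd (dvd_refl _))
    have he := hmax (B.map H.subtype)
      (by rw [Subgroup.card_map_of_injective H.subtype_injective]
          exact CfsgLib.Cores.coprime_card_of_isPiHall_compl hB)
      fun a ha => ⟨⟨a, hAH ha⟩, hAB ha, rfl⟩
    have : A.subgroupOf H = B := by
      rw [Subgroup.subgroupOf, he, Subgroup.comap_map_eq_self_of_injective H.subtype_injective]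
    rwa [this]
  have hAtop : A ≠ ⊤ := ne_top_of_coprime hna h hAc
  have hAcomm : ∀ (H : Subgroup G), IsMulCommutative (A.subgroupOf H) := fun H =>
    (hyp_subgroup h H _ (hAc.coprime_dvd_left (Subgroup.card_comap_dvd_of_injective _ _ H.subtype_injective))).1
  -- elementary abelian subgroup of rank 3
  obtain ⟨q, hq, hqd⟩ : ∃ q, q.Prime ∧ q ∣ Nat.card A :=
    Nat.exists_prime_and_dvd fun e => hA (Subgroup.card_eq_one.1 e)
  have := Fact.mk hq
  have hqp : q ≠ p := fun e => hq.not_dvd_one (hAc ▸ Nat.dvd_gcd hqd (e ▸ dvd_refl _))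
  obtain ⟨E, hEA, hEc, hEq⟩ : ∃ E : Subgroup G, E ≤ A ∧ Nat.card E = q ^ 3 ∧ ∀ x ∈ E, x ^ q = 1 := by
    obtain ⟨a, ha⟩ := exists_prime_orderOf_dvd_card' (G := A) q hqd
    have hab : Subgroup.zpowers (a : G) ≠ ⊥ := by
      rw [Ne, Subgroup.zpowers_eq_bot]
      intro e
      rw [← Subgroup.orderOf_coe, e, orderOf_one] at ha
      exact hq.ne_one ha.symm
    set H := Subgroup.centralizer (Subgroup.zpowers (a : G) : Set G) with hHdef
    have hAH : A ≤ H := (le_centralizer_of_hyp h hAc).trans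
      (Subgroup.centralizer_le (SetLike.coe_subset_coe.2 (Subgroup.zpowers_le.2 a.2)))
    have hH := (hhall hAH).resolve_right (centralizer_ne_top hna hab)
    have haq : IsPGroup q (Subgroup.zpowers (a : G)) :=
      IsPGroup.iff_card.2 ⟨1, by rw [Nat.card_zpowers, Subgroup.orderOf_coe, ha, pow_one]⟩
    obtain ⟨Q, hQ⟩ := haq.exists_le_sylow
    have hQH : (Q : Subgroup G) ≤ H := (le_centralizer_of_hyp h (coprime_of_sylow hq hqp Q.2)).trans
      (Subgroup.centralizer_le (SetLike.coe_subset_coe.2 hQ))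
    have hdvd : Nat.card Q ∣ Nat.card A := by
      rw [← Nat.card_congr (Subgroup.subgroupOfEquivOfLe hAH).toEquiv]
      refine Nat.Coprime.dvd_of_dvd_mul_right ?_ ((Subgroup.card_mul_index (A.subgroupOf H)).symm ▸
        Subgroup.card_dvd_of_le hQH)
      obtain ⟨e, he⟩ := CfsgLib.Cores.exists_pow_card_of_isPiHall_compl hH
      rw [he]
      exact (coprime_of_sylow hq hqp Q.2).pow_right e
    obtain ⟨k, hk⟩ := IsPGroup.iff_card.1 Q.2
    obtain ⟨Q', hQ'⟩ := Sylow.exists_subgroup_card_pow_prime (G := A) q (n := k) (hk ▸ hdvd)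
    let Q'' : Sylow q G := Sylow.ofCard (Q'.map A.subtype)
      (by rw [Subgroup.card_map_of_injective A.subtype_injective, hQ', ← hk, Sylow.card_eq_multiplicity])
    obtain ⟨E, hE, hEc, hEq⟩ := exists_elementary hna h hp5 hqp
      (hqd.trans (Subgroup.card_subgroup_dvd_card A)) Q''
    exact ⟨E, hE.trans (Subgroup.map_subtype_le Q'), hEc, hEq⟩
  have hAne : A.subgroupOf A = ⊤ := Subgroup.subgroupOf_self A
  have hEc' : (Nat.card E).Coprime p := hAc.coprime_dvd_left (Subgroup.card_dvd_of_le hEA)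
  haveI : IsMulCommutative E := (h E hEc').1
  -- the family of `A`-invariant `p`-subgroups
  let 𝒳 : Set (Subgroup G) := {X | IsPGroup p X ∧ A ≤ Subgroup.normalizer (X : Set G)}
  have hext : ∀ X ∈ 𝒳, ∃ Z ∈ 𝒳, X ≤ Z ∧ ∀ Y ∈ 𝒳, Z ≤ Y → Z = Y := by
    intro X hX
    obtain ⟨Z, ⟨hZ, hXZ⟩, hmaxZ⟩ := Set.Finite.exists_maximalFor (fun Y : Subgroup G => Y)
      {Y | Y ∈ 𝒳 ∧ X ≤ Y} (Set.toFinite _) ⟨X, hX, le_rfl⟩
    exact ⟨Z, hZ, hXZ, fun Y hY hZY => le_antisymm hZY (hmaxZ ⟨hY, hXZ.trans hZY⟩ hZY)⟩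
  -- `p`-subgroups invariant under `A` inside a proper subgroup containing `A`
  have hcore : ∀ {H : Subgroup G}, A ≤ H → H ≠ ⊤ →
      (pCore p H).map H.subtype ∈ 𝒳 ∧ ∀ X ∈ 𝒳, X ≤ H → X ≤ (pCore p H).map H.subtype := by
    intro H hAH hH
    haveI := hs H hH
    have hHall := (hhall hAH).resolve_right hH
    refine ⟨⟨(CfsgLib.Cores.isPGroup_pCore p H).map _, ?_⟩, fun X hX hXH => ?_⟩
    · refine (hAH.trans ?_).trans le_rfl
      intro x hx
      exact Subgroup.le_normalizer_map H.subtype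
        ⟨⟨x, hx⟩, by rw [Subgroup.normalizer_eq_top]; trivial, rfl⟩
    · have h1 := CfsgLib.Cores.le_pCore_of_abelianHall hHall (hAcomm H)
        (R := X.subgroupOf H) hX.1.comap_subtype ?_
      · intro x hx
        exact ⟨⟨x, hXH hx⟩, h1 hx, rfl⟩
      · intro a ha
        rw [Subgroup.mem_normalizer_iff]
        intro x
        exact Subgroup.mem_normalizer_iff.1 (hX.2 ha) (x : G)
  have hnorm : ∀ {X : Subgroup G}, A ≤ Subgroup.normalizer (X : Set G) → ∀ {Y : Subgroup G},
      A ≤ Subgroup.normalizer (Y : Set G) → A ≤ Subgroup.normalizer ((X ⊓ Y : Subgroup G) : Set G) := by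
    intro X hX Y hY a ha
    rw [Subgroup.mem_normalizer_iff]
    intro x
    exact and_congr (Subgroup.mem_normalizer_iff.1 (hX ha) x) (Subgroup.mem_normalizer_iff.1 (hY ha) x)
  have hAcent : ∀ a ∈ A, A ≤ Subgroup.normalizer (Subgroup.centralizer ({a} : Set G) : Set G) := by
    intro a ha b hb
    refine Subgroup.le_normalizer ?_
    exact Subgroup.mem_centralizer_singleton_iff.2 (comm_of_hyp h hAc hb ha)
  -- centralizer points
  have hlink : ∀ X ∈ 𝒳, X ≠ ⊥ → ∃ B : Subgroup G, B ≤ E ∧ q ^ 2 ∣ Nat.card B ∧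
      X ⊓ Subgroup.centralizer (B : Set G) ≠ ⊥ := by
    intro X hX hXb
    obtain ⟨k, hk⟩ := IsPGroup.iff_card.1 hX.1
    have hgen : ∀ F : Subgroup G, F ≤ E → ¬ IsCyclic F → ∀ Y ∈ 𝒳, Y ≠ ⊥ →
        ∃ a ∈ F, a ≠ 1 ∧ Y ⊓ Subgroup.centralizer ({a} : Set G) ≠ ⊥ := by
      intro F hF hFc Y hY hYb
      by_contra hcon
      push Not at hcon
      haveI : IsMulCommutative F := (h F (hEc'.coprime_dvd_left (Subgroup.card_dvd_of_le hF))).1
      refine hYb (le_bot_iff.1 (CfsgLib.CoprimeAction.le_of_centralizers hFc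
        ((hF.trans hEA).trans hY.2) ?_ fun a ha ha1 => (hcon a ha ha1).le))
      obtain ⟨j, hj⟩ := IsPGroup.iff_card.1 hY.1
      rw [hj]
      exact (hEc'.coprime_dvd_left (Subgroup.card_dvd_of_le hF)).pow_right j
    have hcyc : ∀ F : Subgroup G, F ≤ E → IsCyclic F → Nat.card F ∣ q := by
      intro F hF hc
      obtain ⟨x, hx⟩ := hc.exists_generator
      rw [← orderOf_eq_card_of_forall_mem_zpowers hx, ← Subgroup.orderOf_coe]
      exact orderOf_dvd_of_pow_eq_one (hEq _ (hF x.2))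
    obtain ⟨a, haE, ha1, haX⟩ := hgen E le_rfl (fun hc => by
      have h1 := Nat.le_of_dvd hq.pos (hEc ▸ hcyc E le_rfl hc)
      have h2 : q ^ 1 < q ^ 3 := Nat.pow_lt_pow_right hq.one_lt (by norm_num)
      rw [pow_one] at h2
      omega) X hX hXb
    have hao := orderOf_eq_prime (hEq a haE) ha1
    have hca : Nat.card (Subgroup.zpowers a) = q := by rw [Nat.card_zpowers, hao]
    have hpow : ∀ {i j : ℕ}, i < j → q ^ i < q ^ j := fun hij => Nat.pow_lt_pow_right hq.one_lt hij
    obtain ⟨y, hyE, hya⟩ := SetLike.not_le_iff_exists.1 (fun hle : E ≤ Subgroup.zpowers a => by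
      have h1 := Subgroup.card_le_of_le hle
      rw [hEc, hca] at h1
      exact absurd (hpow (show 1 < 3 by norm_num)) (by rw [pow_one]; omega))
    have hyo : orderOf y = q := orderOf_eq_prime (hEq y hyE) fun e => hya (e ▸ one_mem _)
    have hc1 : Nat.card ↥(Subgroup.zpowers y ⊔ Subgroup.zpowers a) = q ^ 2 := by
      rw [card_zpowers_sup h hq hyo hya hEc' hyE (Subgroup.zpowers_le.2 haE), hca, pow_two]
    obtain ⟨z, hzE, hz⟩ := SetLike.not_le_iff_exists.1
      (fun hle : E ≤ Subgroup.zpowers y ⊔ Subgroup.zpowers a => by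
        have h1 := Subgroup.card_le_of_le hle
        rw [hEc, hc1] at h1
        exact absurd (hpow (show 2 < 3 by norm_num)) (by omega))
    have hzo : orderOf z = q := orderOf_eq_prime (hEq z hzE) fun e => hz (e ▸ one_mem _)
    set F := Subgroup.zpowers z ⊔ Subgroup.zpowers y with hFdef
    have hFE : F ≤ E := sup_le (Subgroup.zpowers_le.2 hzE) (Subgroup.zpowers_le.2 hyE)
    have hFc : Nat.card F = q ^ 2 := by
      rw [hFdef, card_zpowers_sup h hq hzo (fun hm => hz (Subgroup.mem_sup_left hm)) hEc' hzE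
        (Subgroup.zpowers_le.2 hyE), Nat.card_zpowers, hyo, pow_two]
    have haF : a ∉ F := fun hm => hz (by
      have heq := Subgroup.eq_of_le_of_card_ge (show Subgroup.zpowers y ⊔ Subgroup.zpowers a ≤ F from
        sup_le le_sup_right (Subgroup.zpowers_le.2 hm)) (by rw [hc1, hFc])
      exact heq.ge (Subgroup.mem_sup_left (Subgroup.mem_zpowers z)))
    obtain ⟨b, hb, hb1, hbX⟩ := hgen F hFE (fun hc => by
        have h1 := Nat.le_of_dvd hq.pos (hFc ▸ hcyc F hFE hc)
        exact absurd (hpow (show 1 < 2 by norm_num)) (by rw [pow_one]; omega))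
      (X ⊓ Subgroup.centralizer ({a} : Set G))
        ⟨hX.1.to_le inf_le_left, hnorm hX.2 (hAcent a (hEA haE))⟩ haX
    refine ⟨Subgroup.zpowers a ⊔ Subgroup.zpowers b,
      sup_le (Subgroup.zpowers_le.2 haE) (Subgroup.zpowers_le.2 (hFE hb)), dvd_of_eq ?_, ?_⟩
    · rw [card_zpowers_sup h hq hao (fun hm => haF (Subgroup.zpowers_le.2 hb hm)) hEc' haE
        (Subgroup.zpowers_le.2 (hFE hb)), Nat.card_zpowers, orderOf_eq_prime (hEq b (hFE hb)) hb1,
        pow_two]
    · refine ne_bot_of_le_ne_bot hbX (le_inf (inf_le_left.trans inf_le_left) ?_)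
      rw [Subgroup.le_centralizer_iff, sup_le_iff]
      constructor <;> rw [Subgroup.zpowers_le, Subgroup.mem_centralizer_iff] <;> intro x hx
      · exact (Subgroup.mem_centralizer_singleton_iff.1 hx.1.2)
      · exact (Subgroup.mem_centralizer_singleton_iff.1 hx.2)
  -- any two maximal members coincide
  have huniq : ∀ X ∈ 𝒳, ∀ Y ∈ 𝒳, (∀ Z ∈ 𝒳, X ≤ Z → X = Z) → (∀ Z ∈ 𝒳, Y ≤ Z → Y = Z) → X = Y := by
    intro X₀ hX₀ Y₀ hY₀ hmX₀ hmY₀
    by_contra hne₀
    let 𝒬 : Set (Subgroup G × Subgroup G) := {P | P.1 ∈ 𝒳 ∧ P.2 ∈ 𝒳 ∧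
      (∀ Z ∈ 𝒳, P.1 ≤ Z → P.1 = Z) ∧ (∀ Z ∈ 𝒳, P.2 ≤ Z → P.2 = Z) ∧ P.1 ≠ P.2}
    obtain ⟨⟨X, Y⟩, ⟨hX, hY, hmX, hmY, hne⟩, hmaxI⟩ := Set.Finite.exists_maximalFor
      (fun P : Subgroup G × Subgroup G => Nat.card ↥(P.1 ⊓ P.2)) 𝒬 (Set.toFinite _)
      ⟨(X₀, Y₀), hX₀, hY₀, hmX₀, hmY₀, hne₀⟩
    set I := X ⊓ Y with hI
    have hIX : I < X := lt_of_le_of_ne inf_le_left fun e => hne (hmX Y hY (e ▸ inf_le_right))
    have hIY : I < Y := lt_of_le_of_ne inf_le_right fun e => hne (hmY X hX (e ▸ inf_le_left)).symm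
    have hIbig : ∀ Z ∈ 𝒳, (∀ Z' ∈ 𝒳, Z ≤ Z' → Z = Z') → ∀ V, (V = X ∨ V = Y) → ∀ D ≤ V, D ≤ Z →
        Nat.card I < Nat.card D → Z = V := by
      intro Z hZ hmZ V hV D hDV hDZ hlt
      by_contra hne'
      have h1 : (Z, V) ∈ 𝒬 := by
        rcases hV with rfl | rfl
        · exact ⟨hZ, hX, hmZ, hmX, hne'⟩
        · exact ⟨hZ, hY, hmZ, hmY, hne'⟩
      have h2 : Nat.card D ≤ Nat.card ↥(Z ⊓ V) := Subgroup.card_le_of_le (le_inf hDZ hDV)
      have h3 := hmaxI h1 (show Nat.card I ≤ Nat.card ↥(Z ⊓ V) by omega)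
      change Nat.card ↥(Z ⊓ V) ≤ Nat.card I at h3
      omega
    by_cases hIb : I = ⊥
    · have hXb : X ≠ ⊥ := fun e => hIX.ne (le_antisymm inf_le_left (e ▸ bot_le))
      have hYb : Y ≠ ⊥ := fun e => hIY.ne (le_antisymm inf_le_right (e ▸ bot_le))
      obtain ⟨B, hBE, hBc, hBX⟩ := hlink X hX hXb
      obtain ⟨B', hB'E, hB'c, hB'Y⟩ := hlink Y hY hYb
      obtain ⟨c, ⟨hcB, hcB'⟩, hc1⟩ : ∃ c ∈ B ⊓ B', c ≠ 1 := by
        refine (Subgroup.bot_or_exists_ne_one _).resolve_left fun hb => ?_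
        have h3 := CfsgLib.PSolvable.card_mul_mul_card_inf B B'
        rw [hb, Subgroup.card_bot, mul_one] at h3
        have h4 : Nat.card ((B : Set G) * (B' : Set G) : Set G) ≤ q ^ 3 := by
          rw [← hEc]
          refine Nat.card_mono (Set.toFinite _) ?_
          rintro _ ⟨u, hu, v, hv, rfl⟩
          exact mul_mem (hBE hu) (hB'E hv)
        have h5 : q ^ 4 ≤ Nat.card B * Nat.card B' :=
          Nat.le_of_dvd (Nat.mul_pos Nat.card_pos Nat.card_pos)
            ((dvd_of_eq (pow_add q 2 2)).trans (Nat.mul_dvd_mul hBc hB'c))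
        have h6 : q ^ 3 < q ^ 4 := Nat.pow_lt_pow_right hq.one_lt (by norm_num)
        omega
      set H := Subgroup.centralizer ({c} : Set G) with hH
      have hAH : A ≤ H := fun x hx => Subgroup.mem_centralizer_singleton_iff.2
        (comm_of_hyp h hAc hx (hEA (hBE hcB)))
      have hHtop : H ≠ ⊤ := by
        rw [hH, ← Subgroup.centralizer_closure, ← Subgroup.zpowers_eq_closure]
        exact centralizer_ne_top hna (by rw [Ne, Subgroup.zpowers_eq_bot]; exact hc1)
      obtain ⟨hW, hWle⟩ := hcore hAH hHtop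
      obtain ⟨Z, hZ, hWZ, hmZ⟩ := hext _ hW
      have key : ∀ V, (V = X ∨ V = Y) → ∀ B, c ∈ B → V ⊓ Subgroup.centralizer (B : Set G) ≠ ⊥ →
          Z = V := by
        intro V hV B hcB hVB
        have hVmem : V ∈ 𝒳 := by rcases hV with rfl | rfl <;> assumption
        refine hIbig Z hZ hmZ V hV (V ⊓ H) inf_le_left ((hWle _ ⟨hVmem.1.to_le inf_le_left,
          hnorm hVmem.2 (hAcent c (hEA (hBE ‹c ∈ _›)))⟩ inf_le_right).trans hWZ) ?_
        rw [hIb, Subgroup.card_bot, Subgroup.one_lt_card_iff_ne_bot]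
        exact ne_bot_of_le_ne_bot hVB (inf_le_inf_left _
          (Subgroup.centralizer_le (Set.singleton_subset_iff.2 hcB)))
      exact hne ((key X (Or.inl rfl) B hcB hBX).symm.trans (key Y (Or.inr rfl) B' hcB' hB'Y))
    · have hAI : A ≤ Subgroup.normalizer (I : Set G) := hnorm hX.2 hY.2
      have hItop : Subgroup.normalizer (I : Set G) ≠ ⊤ := normalizer_ne_top hna hIb
        (ne_top_of_isPGroup hna (hX.1.to_le inf_le_left))
      obtain ⟨hW, hWle⟩ := hcore hAI hItop
      obtain ⟨Z, hZ, hWZ, hmZ⟩ := hext _ hW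
      have key : ∀ V, (V = X ∨ V = Y) → I < V → Z = V := by
        intro V hV hlt
        have hVmem : V ∈ 𝒳 := by rcases hV with rfl | rfl <;> assumption
        have hgrow := CfsgLib.Cores.lt_normalizer_inf_of_isNilpotent hVmem.1.isNilpotent hlt
        refine hIbig Z hZ hmZ V hV _ inf_le_left ((hWle _ ⟨hVmem.1.to_le inf_le_left,
          hnorm hVmem.2 (hAI.trans Subgroup.le_normalizer)⟩ inf_le_right).trans hWZ) ?_
        exact Set.Finite.card_lt_card (Set.toFinite _) hgrow
      exact hne ((key X (Or.inl rfl) hIX).symm.trans (key Y (Or.inr rfl) hIY))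
  have hbot : (⊥ : Subgroup G) ∈ 𝒳 := ⟨IsPGroup.of_bot, by
    rw [Subgroup.normalizer_eq_top]; exact le_top⟩
  obtain ⟨W, hW, -, hmW⟩ := hext ⊥ hbot
  have hWtop : ∀ X ∈ 𝒳, X ≤ W := by
    intro X hX
    obtain ⟨Z, hZ, hXZ, hmZ⟩ := hext X hX
    exact hXZ.trans (huniq Z hZ W hW hmZ hmW).le
  set NA := Subgroup.normalizer (A : Set G) with hNA
  have hWN : NA ≤ Subgroup.normalizer (W : Set G) := by
    intro n hn
    have h1 : W.map (MulAut.conj n).toMonoidHom ∈ 𝒳 := by
      refine ⟨hW.1.map _, fun a ha => ?_⟩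
      refine Subgroup.mem_normalizer_fintype fun x hx => ?_
      obtain ⟨w, hw, rfl⟩ := hx
      have hna' : n⁻¹ * a * n ∈ A := by
        simpa using (Subgroup.mem_normalizer_iff.1 (inv_mem hn) a).1 ha
      refine ⟨(n⁻¹ * a * n) * w * (n⁻¹ * a * n)⁻¹,
        (Subgroup.mem_normalizer_iff.1 (hW.2 hna') w).1 hw, ?_⟩
      simp [mul_assoc]
    exact Subgroup.mem_normalizer_fintype fun w hw => hWtop _ h1 ⟨w, hw, rfl⟩
  set CA := Subgroup.centralizer (A : Set G) with hCA
  have hCN : CA ≤ NA := Subgroup.centralizer_le_normalizer _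
  have hAN : A ≤ NA := Subgroup.le_normalizer
  have hmem : ∀ x ∈ W ⊔ NA, ∃ w ∈ W, ∃ n ∈ NA, x = w * n := by
    intro x hx
    have hx' : x ∈ ((W ⊔ NA : Subgroup G) : Set G) := hx
    rw [Subgroup.coe_mul_of_right_le_normalizer_left W NA hWN] at hx'
    obtain ⟨w, hw, n, hn, rfl⟩ := hx'
    exact ⟨w, hw, n, hn, rfl⟩
  have hM0 : (W ⊔ CA) ≤ (W ⊔ NA) := sup_le_sup_left hCN W
  refine ⟨W ⊔ NA, W ⊔ CA, ?_, hAN.trans le_sup_right, hM0, ?_, ?_, ?_, ?_⟩
  · intro e
    have hWnorm : Subgroup.normalizer (W : Set G) = ⊤ :=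
      top_le_iff.1 (e.ge.trans (sup_le Subgroup.le_normalizer hWN))
    rcases eq_or_ne W ⊥ with hWb | hWb
    · rw [hWb, bot_sup_eq] at e
      exact normalizer_ne_top hna hA hAtop e
    · exact normalizer_ne_top hna hWb (ne_top_of_isPGroup hna hW.1) hWnorm
  · refine (Subgroup.normal_subgroupOf_iff_le_normalizer hM0).2 (sup_le ?_ ?_)
    · exact le_sup_left.trans Subgroup.le_normalizer
    · refine fun n hn => Subgroup.mem_normalizer_fintype fun x hx => ?_
      have h1 : W ⊔ CA ≤ (W ⊔ CA).comap (MulAut.conj n).toMonoidHom := by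
        refine sup_le (fun w hw => Subgroup.mem_sup_left ?_) fun c hc => Subgroup.mem_sup_right ?_
        · exact (Subgroup.mem_normalizer_iff.1 (hWN hn) w).1 hw
        · show n * c * n⁻¹ ∈ CA
          refine Subgroup.mem_centralizer_iff.2 fun a ha => ?_
          have ha' : n⁻¹ * a * n ∈ A := by
            simpa using (Subgroup.mem_normalizer_iff.1 (inv_mem hn) a).1 ha
          have := Subgroup.mem_centralizer_iff.1 hc _ ha'
          calc a * (n * c * n⁻¹) = n * ((n⁻¹ * a * n) * c) * n⁻¹ := by group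
            _ = n * (c * (n⁻¹ * a * n)) * n⁻¹ := by rw [this]
            _ = n * c * n⁻¹ * a := by group
      exact h1 hx
  · -- some element of `N(A)` does not centralise `A`
    intro hle
    have hNC : NA ≤ CA := by
      intro n hn
      have hn' : n ∈ ((W ⊔ CA : Subgroup G) : Set G) := hle (Subgroup.mem_sup_right hn)
      rw [Subgroup.coe_mul_of_right_le_normalizer_left W CA (hCN.trans hWN)] at hn'
      obtain ⟨w, hw, c, hc, rfl⟩ := hn'
      have hwN : w ∈ NA := by
        simpa using mul_mem hn (inv_mem (hCN hc))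
      refine mul_mem (Subgroup.mem_centralizer_iff.2 fun a ha => ?_) hc
      have h1 : ⁅w, a⁆ ∈ W ⊓ A := by
        refine ⟨?_, ?_⟩
        · show ⁅w, a⁆ ∈ W
          rw [commutatorElement_def, mul_assoc w a, mul_assoc w (a * w⁻¹)]
          exact mul_mem hw ((Subgroup.mem_normalizer_iff.1 (hW.2 ha) _).1 (inv_mem hw))
        · show ⁅w, a⁆ ∈ A
          rw [commutatorElement_def]
          exact mul_mem ((Subgroup.mem_normalizer_iff.1 hwN a).1 ha) (inv_mem ha)
      rw [CfsgLib.Cores.eq_bot_of_isPGroup_of_coprime (hW.1.to_le inf_le_left)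
        (hAc.coprime_dvd_left (Subgroup.card_dvd_of_le inf_le_right)), Subgroup.mem_bot,
        commutatorElement_eq_one_iff_mul_comm] at h1
      exact h1.symm
    -- then a Sylow subgroup inside `A` would be central in its normalizer
    have hEb : E ≠ ⊥ := fun e => by
      rw [e, Subgroup.card_bot] at hEc
      exact absurd hEc (Nat.one_lt_pow (by norm_num) hq.one_lt).ne
    obtain ⟨e0, he0, he1⟩ := (Subgroup.bot_or_exists_ne_one E).resolve_left hEb
    obtain ⟨Q, hQ⟩ : ∃ Q : Sylow q G, E ≤ (Q : Subgroup G) :=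
      (IsPGroup.iff_card.2 ⟨3, hEc⟩ : IsPGroup q E).exists_le_sylow
    set CQ := Subgroup.centralizer (E : Set G) with hCQ
    have hACQ : A ≤ CQ := (le_centralizer_of_hyp h hAc).trans
      (Subgroup.centralizer_le (SetLike.coe_subset_coe.2 hEA))
    have hQCQ : (Q : Subgroup G) ≤ CQ := (le_centralizer_of_hyp h (coprime_of_sylow hq hqp Q.2)).trans
      (Subgroup.centralizer_le (SetLike.coe_subset_coe.2 hQ))
    have hH := (hhall hACQ).resolve_right (centralizer_ne_top hna hEb)
    haveI := hs CQ (centralizer_ne_top hna hEb)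
    obtain ⟨g, hg⟩ := CfsgLib.Hall.exists_le_conj_isPiHall hH (U := (Q : Subgroup G).subgroupOf CQ)
      fun r hr hrd hrp => by
        rw [Nat.card_congr (Subgroup.subgroupOfEquivOfLe hQCQ).toEquiv] at hrd
        rw [Set.mem_singleton_iff] at hrp
        subst hrp
        exact hr.not_dvd_one ((coprime_of_sylow hq hqp Q.2) ▸ Nat.dvd_gcd hrd (dvd_refl _))
    -- the conjugate Sylow subgroup lies in `A`
    set Q' : Sylow q G := ((g : G)⁻¹) • Q with hQ'
    have hQ'A : (Q' : Subgroup G) ≤ A := by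
      intro x hx
      rw [hQ', Sylow.coe_subgroup_smul, CfsgLib.CoprimeAction.mem_conj_iff, inv_inv] at hx
      have hxC : (g : G) * x * (g : G)⁻¹ ∈ CQ := hQCQ hx
      have h1 := hg (show (⟨_, hxC⟩ : CQ) ∈ (Q : Subgroup G).subgroupOf CQ from hx)
      rw [CfsgLib.CoprimeAction.mem_conj_iff, Subgroup.mem_subgroupOf] at h1
      simpa [mul_assoc] using h1
    set C' := Subgroup.centralizer ((Q' : Subgroup G) : Set G) with hC'
    have hAC' : A ≤ C' := (le_centralizer_of_hyp h hAc).trans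
      (Subgroup.centralizer_le (SetLike.coe_subset_coe.2 hQ'A))
    have hQ'b : (Q' : Subgroup G) ≠ ⊥ :=
      Q'.ne_bot_of_dvd_card (hqd.trans (Subgroup.card_subgroup_dvd_card A))
    have hH' := (hhall hAC').resolve_right (centralizer_ne_top hna hQ'b)
    haveI := hs C' (centralizer_ne_top hna hQ'b)
    have hfix : (Q' : Subgroup G) ≤ (Q' : Subgroup G) ⊓
        Subgroup.centralizer (Subgroup.normalizer ((Q' : Subgroup G) : Set G) : Set G) := by
      refine le_inf le_rfl (Subgroup.le_centralizer_iff.1 fun n hn => ?_)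
      -- conjugate `A` back by an element of `C'`
      have hnC : ∀ x ∈ C', n * x * n⁻¹ ∈ C' := fun x hx => by
        refine Subgroup.mem_centralizer_iff.2 fun y hy => ?_
        have hy' : n⁻¹ * y * n ∈ (Q' : Subgroup G) := by
          simpa using (Subgroup.mem_normalizer_iff.1 (inv_mem hn) y).1 hy
        have := Subgroup.mem_centralizer_iff.1 hx _ hy'
        calc y * (n * x * n⁻¹) = n * ((n⁻¹ * y * n) * x) * n⁻¹ := by group
          _ = n * (x * (n⁻¹ * y * n)) * n⁻¹ := by rw [this]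
          _ = n * x * n⁻¹ * y := by group
      have hcard : Nat.card A = Nat.card ((A.map (MulAut.conj n).toMonoidHom : Subgroup G)) :=
        (Subgroup.card_map_of_injective (MulAut.conj n).injective).symm
      have hsub : A.map (MulAut.conj n).toMonoidHom ≤ C' := by
        rintro _ ⟨x, hx, rfl⟩
        exact hnC x (hAC' hx)
      obtain ⟨c, hc⟩ := CfsgLib.Hall.exists_le_conj_isPiHall hH'
        (U := (A.map (MulAut.conj n).toMonoidHom).subgroupOf C') fun r hr hrd hrp => by
          rw [Nat.card_congr (Subgroup.subgroupOfEquivOfLe hsub).toEquiv, ← hcard] at hrd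
          rw [Set.mem_singleton_iff] at hrp
          subst hrp
          exact hr.not_dvd_one (hAc ▸ Nat.dvd_gcd hrd (dvd_refl _))
      have hcn : (c : G)⁻¹ * n ∈ NA := by
        refine Subgroup.mem_normalizer_fintype fun x hx => ?_
        have hxC : n * x * n⁻¹ ∈ C' := hnC x (hAC' hx)
        have h1 := hc (show (⟨_, hxC⟩ : C') ∈
          (A.map (MulAut.conj n).toMonoidHom).subgroupOf C' from ⟨x, hx, rfl⟩)
        rw [CfsgLib.CoprimeAction.mem_conj_iff, Subgroup.mem_subgroupOf] at h1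
        simpa [mul_assoc] using h1
      have h2 := mul_mem c.2 (Subgroup.centralizer_le (SetLike.coe_subset_coe.2 hQ'A) (hNC hcn))
      rw [mul_inv_cancel_left] at h2
      exact h2
    rw [sylow_fixed_trivial hna h hqp Q', le_bot_iff] at hfix
    exact hQ'b hfix
  · intro x hx
    obtain ⟨w, hw, n, hn, rfl⟩ := hmem x hx
    obtain ⟨e, he⟩ := CfsgLib.NormalPComplement.exists_pow_coprime_orderOf (p := p)
      (isOfFinOrder_of_finite n)
    have hnc : n ^ p ^ e ∈ CA := mem_centralizer_of_normalizes h hAc (pow_mem hn _) he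
    refine ⟨e, ?_⟩
    have hMn : W ⊔ NA ≤ Subgroup.normalizer (W : Set G) := sup_le Subgroup.le_normalizer hWN
    have : ∀ i : ℕ, ∃ w' ∈ W, (w * n) ^ i = w' * n ^ i := by
      intro i
      induction i with
      | zero => exact ⟨1, one_mem _, by simp⟩
      | succ i ih =>
        obtain ⟨w', hw', hi⟩ := ih
        refine ⟨w' * (n ^ i * w * (n ^ i)⁻¹), mul_mem hw'
          ((Subgroup.mem_normalizer_iff.1 (pow_mem (hWN hn) i) w).1 hw), ?_⟩
        rw [pow_succ, hi, pow_succ]
        group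
    obtain ⟨w', hw', hi⟩ := this (p ^ e)
    rw [hi]
    exact Subgroup.mul_mem_sup hw' hnc
  · intro a ha ha1
    set H := Subgroup.centralizer ({a} : Set G) with hH
    have hAH : A ≤ H := fun x hx => Subgroup.mem_centralizer_singleton_iff.2
      (comm_of_hyp h hAc hx ha)
    have hHtop : H ≠ ⊤ := by
      rw [hH, ← Subgroup.centralizer_closure, ← Subgroup.zpowers_eq_closure]
      exact centralizer_ne_top hna (by rw [Ne, Subgroup.zpowers_eq_bot]; exact ha1)
    haveI := hs H hHtop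
    have htop := CfsgLib.Cores.pCore_sup_normalizer_eq_top
      ((hhall hAH).resolve_right hHtop) (hAcomm H)
    intro x hx
    have hx' : (⟨x, hx⟩ : H) ∈ pCore p H ⊔ Subgroup.normalizer ((A.subgroupOf H : Subgroup H) : Set H) :=
      htop ▸ Subgroup.mem_top _
    obtain ⟨u, hu, n, hn, hun⟩ := Subgroup.mem_sup_of_normal_left.1 hx'
    rw [← show (u : G) * n = x from congrArg Subtype.val hun]
    refine Subgroup.mul_mem_sup (hWtop _ (hcore hAH hHtop).1 ⟨u, hu, rfl⟩) ?_
    refine Subgroup.mem_normalizer_fintype fun y hy => ?_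
    exact (Subgroup.mem_normalizer_iff.1 hn ⟨y, hAH hy⟩).1 hy

include hna hs h hp5 in
/-- All local subgroups being solvable with abelian `p'`-subgroups, the group is `p`-stable. -/
theorem isNormalizerPStable : IsNormalizerPStable p G := by
  intro V hV g hg hq
  set K := Subgroup.normalizer (V : Set G) with hKdef
  by_cases hVb : V = ⊥
  · have hone : (QuotientGroup.mk (s := (Subgroup.centralizer (V : Set G)).subgroupOf K)
        (⟨g, hg⟩ : K)) = 1 := (QuotientGroup.eq_one_iff _).2 (Subgroup.mem_subgroupOf.2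
      (Subgroup.mem_centralizer_iff.2 fun v hv => by
        rw [hVb, SetLike.mem_coe, Subgroup.mem_bot] at hv
        rw [hv]; simp))
    rw [hone]
    exact one_mem _
  haveI := hs K (normalizer_ne_top hna hVb (ne_top_of_isPGroup hna hV))
  have hVK : V ≤ K := Subgroup.le_normalizer
  haveI : (V.subgroupOf K).Normal := Subgroup.normal_in_normalizer
  have hle : Subgroup.centralizer ((V.subgroupOf K : Subgroup K) : Set K) ≤
      (Subgroup.centralizer (V : Set G)).subgroupOf K := fun x hx =>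
    Subgroup.mem_centralizer_iff.2 fun v hv =>
      congrArg Subtype.val (Subgroup.mem_centralizer_iff.1 hx ⟨v, hVK hv⟩ hv)
  have key := CfsgLib.Cores.mk_mem_pCore_of_quadratic_of_abelian (p := p) (by omega)
    (fun H hH => (hyp_subgroup h K H hH).1) (V := V.subgroupOf K) hV.comap_subtype
    (g := (⟨g, hg⟩ : K)) fun v hv => Subtype.ext (by
      show ⁅⁅(v : G), g⁆, g⁆ = 1
      exact CfsgLib.ThompsonJ.quadratic_zpowers_iff.1 hq v hv)
  let φ := QuotientGroup.map (Subgroup.centralizer ((V.subgroupOf K : Subgroup K) : Set K))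
    ((Subgroup.centralizer (V : Set G)).subgroupOf K) (MonoidHom.id K) hle
  have hsurj : Function.Surjective φ := fun y => by
    obtain ⟨x, rfl⟩ := QuotientGroup.mk_surjective y
    exact ⟨QuotientGroup.mk x, rfl⟩
  exact CfsgLib.Cores.map_pCore_le_of_surjective hsurj ⟨_, key, rfl⟩

/-- A normal subgroup of `p`-power index is everything when a Sylow subgroup lies in the derived
group. -/
theorem eq_top_of_sylow_le_commutator {X : Type*} [Group X] [Finite X] (L : Subgroup X) [L.Normal]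
    (hL : IsPGroup p (X ⧸ L)) (S : Sylow p X) (hS : (S : Subgroup X) ≤ commutator X) : L = ⊤ := by
  set π := QuotientGroup.mk' L with hπ
  set T := S.mapSurjective (QuotientGroup.mk'_surjective L) with hT
  have hTtop : (T : Subgroup (X ⧸ L)) = ⊤ := (T.3 (hL.to_subgroup ⊤) le_top).symm
  have hperf : (⊤ : Subgroup (X ⧸ L)) ≤ commutator (X ⧸ L) := by
    rw [← hTtop, hT, Sylow.coe_mapSurjective]
    refine (Subgroup.map_mono hS).trans ?_
    rw [commutator_def, Subgroup.map_commutator]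
    exact Subgroup.commutator_mono le_top le_top
  haveI := hL.isNilpotent
  have : Subsingleton (X ⧸ L) := by
    by_contra hns
    rw [not_subsingleton_iff_nontrivial] at hns
    exact (Group.IsSolvable.commutator_lt_top_of_nontrivial (G := X ⧸ L)).ne (top_le_iff.1 hperf)
  exact top_le_iff.1 fun x _ => (QuotientGroup.eq_one_iff x).1 (Subsingleton.elim _ _)

include hna hs h hp5 in
/-- No such simple group exists. -/
theorem no_simple : False := by
  obtain ⟨P⟩ : Nonempty (Sylow p G) := inferInstance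
  have hPb : (P : Subgroup G) ≠ ⊥ := P.ne_bot_of_dvd_card (dvd_card hna h)
  set Z := CfsgLib.Replacement.zcore 0 (P : Subgroup G) with hZ
  set M₀ := Subgroup.normalizer (Z : Set G) with hM₀
  have hM₀top : M₀ ≠ ⊤ := normalizer_ne_top hna
    (CfsgLib.Replacement.zcore_ne_bot (dvd_zero p) P.2 hPb)
    (ne_top_of_isPGroup hna (P.2.to_le (CfsgLib.Replacement.zcore_le 0 _)))
  have hNM₀ : Subgroup.normalizer ((P : Subgroup G) : Set G) ≤ M₀ :=
    CfsgLib.Replacement.normalizer_le_normalizer_zcore 0 _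
  have hPM₀ : (P : Subgroup G) ≤ M₀ := Subgroup.le_normalizer.trans hNM₀
  have hctl : ∀ x ∈ (P : Subgroup G), ∀ u : G, u * x * u⁻¹ ∈ (P : Subgroup G) →
      ∃ w ∈ M₀, w * x * w⁻¹ = u * x * u⁻¹ := by
    intro x hx u hu
    have hc := CfsgLib.Replacement.controlsStrongFusionOf_zcore (by omega : p ≠ 2) (e := 0)
      (Or.inl rfl) P (D := (P : Subgroup G)) ⟨le_rfl, fun _ _ _ h => h⟩
      (isNormalizerPStable hna hs h hp5)
      (fun U hU hUb => by
        haveI := hs _ (normalizer_ne_top hna hUb (ne_top_of_isPGroup hna (P.2.to_le hU)))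
        exact CfsgLib.PSolvable.isPConstrained_of_isPSolvable
          CfsgLib.PSolvable.isPSolvable_of_isSolvable)
      {x} (Set.singleton_subset_iff.2 hx)
    obtain ⟨w, hw, hwe⟩ := hc.2 u (by
      rintro _ ⟨a, rfl, rfl⟩
      exact hu)
    exact ⟨w, hw, (hwe x rfl).symm⟩
  have hPder : (P : Subgroup G) ≤ ⁅M₀, M₀⁆ := by
    have hperf : commutator G = ⊤ := (Subgroup.Normal.eq_bot_or_eq_top
      (inferInstance : (commutator G).Normal)).resolve_left fun e =>
        hna (Group.isSolvable_of_comm fun a b => commutatorElement_eq_one_iff_mul_comm.1 (by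
          rw [← Subgroup.mem_bot, ← e, commutator_def]
          exact Subgroup.commutator_mem_commutator trivial trivial))
    have h1 := CfsgLib.Transfer.commutator_inf_eq_of_control P hPM₀ hctl
    rw [hperf, top_inf_eq] at h1
    exact h1.le.trans inf_le_left
  haveI := hs M₀ hM₀top
  set S := P.subtype hPM₀ with hS
  have hSder : (S : Subgroup M₀) ≤ commutator M₀ := by
    intro x hx
    rw [hS, Sylow.coe_subtype, Subgroup.mem_subgroupOf] at hx
    have h1 := hPder hx
    rw [← Subgroup.map_subtype_commutator] at h1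
    obtain ⟨y, hy, hyx⟩ := h1
    exact (Subtype.ext hyx : y = x) ▸ hy
  obtain ⟨A₀, hA₀N, hA₀P, hA₀split⟩ := CfsgLib.Transfer.exists_complement_in_normalizer P
  have hA₀c : (Nat.card A₀).Coprime p := hA₀P.coprime_dvd_right (by
    obtain ⟨k, hk⟩ := IsPGroup.iff_card.1 P.2
    have : k ≠ 0 := fun e => hPb (Subgroup.card_eq_one.1 (by rw [hk, e, pow_zero]))
    exact hk ▸ dvd_pow_self p this)
  obtain ⟨hA₀comm, hA₀exp⟩ := h A₀ hA₀c
  haveI := hA₀comm
  by_cases hcyc : IsCyclic A₀
  · -- then `N(P) = P`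
    set N := Subgroup.normalizer ((P : Subgroup G) : Set G) with hN
    have hcardN : Nat.card N = Nat.card (P : Subgroup G) * Nat.card A₀ := by
      have h1 := CfsgLib.PSolvable.card_mul_mul_card_inf (P : Subgroup G) A₀
      have h2 : ((P : Subgroup G) : Set G) * (A₀ : Set G) = (N : Set G) := by
        ext x
        constructor
        · rintro ⟨u, hu, v, hv, rfl⟩
          exact mul_mem (Subgroup.le_normalizer hu) (hA₀N hv)
        · intro hx
          obtain ⟨u, hu, v, hv, rfl⟩ := hA₀split x hx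
          exact ⟨u, hu, v, hv, rfl⟩
      rw [h2, show (P : Subgroup G) ⊓ A₀ = ⊥ from CfsgLib.Cores.eq_bot_of_isPGroup_of_coprime
        (P.2.to_le inf_le_left) (hA₀c.coprime_dvd_left (Subgroup.card_dvd_of_le inf_le_right)),
        Subgroup.card_bot, mul_one] at h1
      exact h1
    have hindex : (P : Subgroup G).index = Nat.card A₀ * N.index := by
      refine Nat.eq_of_mul_eq_mul_left (Nat.card_pos (α := (P : Subgroup G))) ?_
      rw [Subgroup.card_mul_index, ← mul_assoc, ← hcardN, Subgroup.card_mul_index]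
    have hA1 : Nat.card A₀ = 1 := by
      have h1 := index_modEq_one hna h P
      have h2 : N.index ≡ 1 [MOD p] := by
        have h3 := Sylow.card_eq_index_normalizer P
        have h4 := card_sylow_modEq_one p G
        rw [h3] at h4
        exact h4
      rw [hindex] at h1
      have h3 : Nat.card A₀ ≡ 1 [MOD p] := by
        simpa using ((Nat.ModEq.refl (Nat.card A₀)).mul h2).symm.trans h1
      obtain ⟨x, hx⟩ := hcyc.exists_generator
      have h4 : Nat.card A₀ ∣ p - 1 := by
        rw [← orderOf_eq_card_of_forall_mem_zpowers hx, ← Subgroup.orderOf_coe]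
        exact orderOf_dvd_of_pow_eq_one (hA₀exp _ x.2)
      have h5 := Nat.le_of_dvd (by omega) h4
      exact Nat.ModEq.eq_of_lt_of_lt h3 (by omega) (by omega)
    have hNP : N ≤ (P : Subgroup G) := by
      intro x hx
      obtain ⟨u, hu, v, hv, rfl⟩ := hA₀split x hx
      rw [Subgroup.card_eq_one.1 hA1, Subgroup.mem_bot] at hv
      simpa [hv] using hu
    obtain ⟨A₁, hA₁⟩ := CfsgLib.Hall.exists_isPiHall (G := M₀) ({p}ᶜ : Set ℕ)
    have hA₁c := CfsgLib.Cores.coprime_card_of_isPiHall_compl hA₁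
    have hA₁comm := (hyp_subgroup h M₀ A₁ hA₁c).1
    haveI := CfsgLib.Cores.abelianHall_sup_normal hA₁ hA₁comm
    have hLtop : A₁ ⊔ pCore p M₀ = ⊤ := by
      refine eq_top_of_sylow_le_commutator _ ?_ S hSder
      obtain ⟨e, he⟩ := CfsgLib.Cores.exists_pow_card_of_isPiHall_compl hA₁
      obtain ⟨i, -, hi⟩ := (Nat.dvd_prime_pow hp.out).1
        (he ▸ Subgroup.index_dvd_of_le (le_sup_left : A₁ ≤ A₁ ⊔ pCore p M₀))
      exact IsPGroup.of_card (n := i) (by rw [← Subgroup.index_eq_card]; exact hi)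
    have hSn : (S : Subgroup M₀) = pCore p M₀ := by
      refine (Subgroup.eq_of_le_of_card_ge (CfsgLib.Cores.pCore_le_sylow S) ?_).symm
      refine Nat.le_of_dvd Nat.card_pos (Nat.Coprime.dvd_of_dvd_mul_left (m := Nat.card A₁) ?_ ?_)
      · obtain ⟨k, hk⟩ := IsPGroup.iff_card.1 S.2
        exact hk ▸ (hA₁c.pow_right k).symm
      · exact (Subgroup.card_subgroup_dvd_card _).trans
          ((Subgroup.card_top (G := M₀)) ▸ hLtop ▸ CfsgLib.Cores.card_sup_dvd A₁ (pCore p M₀))
    have hM₀P : M₀ ≤ (P : Subgroup G) := by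
      refine fun x hx => hNP (Subgroup.mem_normalizer_fintype fun y hy => ?_)
      have hy' : (⟨y, hPM₀ hy⟩ : M₀) ∈ pCore p M₀ := by
        rw [← hSn, hS, Sylow.coe_subtype]; exact hy
      have h1 := (inferInstance : (pCore p M₀).Normal).conj_mem _ hy' ⟨x, hx⟩
      rw [← hSn, hS, Sylow.coe_subtype] at h1
      exact h1
    have hbot : (⊥ : Subgroup M₀) = ⊤ := by
      have hq : IsPGroup p (M₀ ⧸ (⊥ : Subgroup M₀)) :=
        ((P.2.to_le hM₀P).to_quotient _)
      exact eq_top_of_sylow_le_commutator ⊥ hq S hSder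
    refine hPb (le_bot_iff.1 fun x hx => ?_)
    have hx1 : (⟨x, hPM₀ hx⟩ : M₀) ∈ (⊥ : Subgroup M₀) := hbot ▸ Subgroup.mem_top _
    exact Subgroup.mem_bot.2 (congrArg Subtype.val (Subgroup.mem_bot.1 hx1))
  · -- `N(P)` has a noncyclic abelian `p'`-subgroup
    obtain ⟨e₀, he₀, he₀1⟩ := (Subgroup.bot_or_exists_ne_one A₀).resolve_left
      (fun e => hcyc (by subst e; infer_instance))
    obtain ⟨A, ⟨hAc, hA₀A⟩, hmax⟩ := Set.Finite.exists_maximalFor (fun B : Subgroup G => B)
      {B | (Nat.card B).Coprime p ∧ A₀ ≤ B} (Set.toFinite _) ⟨A₀, hA₀c, le_rfl⟩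
    have hAb : A ≠ ⊥ := fun e => he₀1 (Subgroup.mem_bot.1 (e ▸ hA₀A he₀))
    obtain ⟨M, N₀, hMtop, -, hN₀M, hN₀n, hne, hpow, hcent⟩ := exists_uniqueness_subgroup hna hs h hp5
      hAb hAc fun B hB hAB => le_antisymm hAB (hmax ⟨hB, hA₀A.trans hAB⟩ hAB)
    have hPM : (P : Subgroup G) ≤ M := CfsgLib.CoprimeAction.le_of_centralizers hcyc hA₀N hA₀P
      fun a ha ha1 => inf_le_right.trans (hcent a (hA₀A ha) ha1)
    have hA₀M₀ : A₀ ≤ M₀ := hA₀N.trans hNM₀
    obtain ⟨A₁, hA₁, hA₀A₁⟩ := CfsgLib.Hall.exists_isPiHall_ge (G := M₀) (π := ({p}ᶜ : Set ℕ))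
      (U := A₀.subgroupOf M₀) fun q hq hqd hqp => by
        rw [Nat.card_congr (Subgroup.subgroupOfEquivOfLe hA₀M₀).toEquiv] at hqd
        rw [Set.mem_singleton_iff] at hqp
        subst hqp
        exact hq.not_dvd_one (hA₀c ▸ Nat.dvd_gcd hqd (dvd_refl _))
    have hA₁M : A₁.map M₀.subtype ≤ M := by
      intro x hx
      refine hcent e₀ (hA₀A he₀) he₀1 (Subgroup.mem_centralizer_singleton_iff.2 ?_)
      exact comm_of_hyp h
        (by rw [Subgroup.card_map_of_injective M₀.subtype_injective]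
            exact CfsgLib.Cores.coprime_card_of_isPiHall_compl hA₁)
        hx ⟨⟨e₀, hA₀M₀ he₀⟩, hA₀A₁ he₀, rfl⟩
    have hM₀M : M₀ ≤ M := by
      have htop : (S : Subgroup M₀) ⊔ A₁ = ⊤ := by
        refine Subgroup.index_eq_one.1 ?_
        obtain ⟨e, he⟩ := CfsgLib.Cores.exists_pow_card_of_isPiHall_compl hA₁
        exact Nat.Coprime.eq_one_of_dvd
          ((((hp.out.coprime_iff_not_dvd).2 S.not_dvd_index).symm.pow_right e).coprime_dvd_left
            (Subgroup.index_dvd_of_le le_sup_left)) (he ▸ Subgroup.index_dvd_of_le le_sup_right)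
      intro x hx
      have h1 : (⟨x, hx⟩ : M₀) ∈ (S : Subgroup M₀) ⊔ A₁ := htop ▸ Subgroup.mem_top _
      have h2 : ((S : Subgroup M₀) ⊔ A₁).map M₀.subtype ≤ M := by
        rw [Subgroup.map_sup]
        refine sup_le ?_ hA₁M
        rw [hS, Sylow.coe_subtype, Subgroup.map_subgroupOf_eq_of_le hPM₀]
        exact hPM
      exact h2 ⟨_, h1, rfl⟩
    haveI := hN₀n
    refine hne (Subgroup.subgroupOf_eq_top.1 (eq_top_of_sylow_le_commutator (N₀.subgroupOf M)
      (fun y => ?_) (P.subtype hPM) fun x hx => ?_))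
    · obtain ⟨x, rfl⟩ := QuotientGroup.mk_surjective y
      obtain ⟨e, he⟩ := hpow x x.2
      exact ⟨e, (QuotientGroup.eq_one_iff _).2 (Subgroup.mem_subgroupOf.2 (by simpa using he))⟩
    · rw [Sylow.coe_subtype, Subgroup.mem_subgroupOf] at hx
      have h1 : (x : G) ∈ ⁅M, M⁆ := Subgroup.commutator_mono hM₀M hM₀M (hPder hx)
      rw [← Subgroup.map_subtype_commutator] at h1
      obtain ⟨y, hy, hyx⟩ := h1
      exact (Subtype.ext hyx : y = x) ▸ hy

end Simple

theorem isSolvable_of_hyp (n : ℕ) : ∀ (G : Type*) [Group G] [Finite G], Nat.card G = n →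
    ∀ (p : ℕ) [Fact p.Prime], Hyp p G → Group.IsSolvable G := by
  induction n using Nat.strong_induction_on with
  | _ n ih =>
    intro G _ _ hcard p hp h
    have hs : ∀ H : Subgroup G, H ≠ ⊤ → Group.IsSolvable H := fun H hH => by
      have hlt : Nat.card H < n := hcard ▸ lt_of_le_of_ne (Subgroup.card_le_card_group H)
        fun e => hH (Subgroup.eq_top_of_card_eq H e)
      exact ih _ hlt H rfl p (hyp_subgroup h H)
    by_contra hna
    haveI : Nontrivial G := by
      by_contra hnt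
      rw [not_nontrivial_iff_subsingleton] at hnt
      exact hna inferInstance
    by_cases hsimp : ∀ N : Subgroup G, N.Normal → N = ⊥ ∨ N = ⊤
    swap
    · push Not at hsimp
      obtain ⟨N, hNn, hNb, hNt⟩ := hsimp
      haveI := hNn
      haveI := hs N hNt
      have hq : Group.IsSolvable (G ⧸ N) := by
        rcases hyp_quotient h hs N with h1 | h1
        · exact h1
        · refine ih _ ?_ (G ⧸ N) rfl p h1
          rw [← hcard, Subgroup.card_eq_card_quotient_mul_card_subgroup N]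
          exact lt_mul_of_one_lt_right Nat.card_pos ((Subgroup.one_lt_card_iff_ne_bot N).2 hNb)
      exact hna ((Group.isSolvable_iff_subgroup_quotient N).2 ⟨inferInstance, hq⟩)
    haveI : IsSimpleGroup G := ⟨hsimp⟩
    have hdd : ∀ q : ℕ, q.Prime → q ≠ p → q ∣ Nat.card G → q ∣ p - 1 := fun q hq hqp hd =>
      dvd_sub_one h hq hqp hd
    by_cases hp5 : 5 ≤ p
    · exact no_simple hna hs h hp5
    refine hna ?_
    have hG : Nat.card G ∣ p ^ (Nat.card G) * 2 ^ (Nat.card G) := by
      refine (Nat.dvd_iff_prime_pow_dvd_dvd _ _).mpr fun q k hq hqk => ?_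
      rcases Nat.eq_zero_or_pos k with rfl | hk
      · simp
      have hkle : k ≤ Nat.card G := (Nat.lt_pow_self hq.one_lt).le.trans
        (Nat.le_of_dvd Nat.card_pos hqk)
      rcases eq_or_ne q p with rfl | hqp
      · exact (pow_dvd_pow _ hkle).trans (dvd_mul_right _ _)
      · have h1 := hdd q hq hqp ((dvd_pow_self q hk.ne').trans hqk)
        have h2 : q ≤ p - 1 := Nat.le_of_dvd (by have := hp.out.two_le; omega) h1
        have hp4 : p ≠ 4 := fun e => by
          subst e; exact absurd hp.out (by norm_num)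
        have : q = 2 := by have := hq.two_le; omega
        subst this
        exact (pow_dvd_pow _ hkle).trans (dvd_mul_left _ _)
    exact CfsgLib.CharTheory.isSolvable_of_card_dvd_pow_mul_pow p 2 _ _ hp.out Nat.prime_two hG


/-- Let p be a prime and G a finite group in which every subgroup of order prime to p is abelian of exponent dividing p − 1. Then G is solvable. -/
theorem result {G : Type*} [Group G] [Finite G] (p : ℕ) [Fact p.Prime] (h : ∀ H : Subgroup G, (Nat.card ↥H).Coprime p → IsMulCommutative ↥H ∧ ∀ x ∈ H, x ^ (p - 1) = 1) : Group.IsSolvable G := by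
  exact isSolvable_of_hyp _ G rfl p h

end Cfsg.Agent.S1936
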