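import Cfsg.Statements.S1939

set_option autoImplicit false
open Cfsg

namespace Cfsg.Agent.S1939

/-- Let S be a Sylow p-subgroup of the finite group G and a an element of S that is the only G-conjugate of a lying in S. Then every power of a has the same property: for every n, the only G-conjugate of a^n lying in S is a^n. -/
theorem result {G : Type*} [Group G] [Finite G] {p : ℕ} [Fact p.Prime] (S : Sylow p G) (a : G)
    (haS : a ∈ (S : Subgroup G)) (hwc : ∀ g : G, g * a * g⁻¹ ∈ (S : Subgroup G) → g * a * g⁻¹ = a) (n : ℕ) :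
    ∀ g : G, g * a ^ n * g⁻¹ ∈ (S : Subgroup G) → g * a ^ n * g⁻¹ = a ^ n := by
  intro g hg
  set b : G := g * a * g⁻¹ with hbdef
  set C : Subgroup G := Subgroup.centralizer {g * a ^ n * g⁻¹}
  have hS : ∀ s ∈ (S : Subgroup G), s * a = a * s := by
    intro s hs
    have := hwc s ((S : Subgroup G).mul_mem ((S : Subgroup G).mul_mem hs haS) ((S : Subgroup G).inv_mem hs))
    exact mul_inv_eq_iff_eq_mul.mp this
  have hpa : IsPGroup p (Subgroup.zpowers a) := S.2.to_le (Subgroup.zpowers_le.mpr haS)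
  have hpb : IsPGroup p (Subgroup.zpowers b) := by
    have := hpa.map (MulAut.conj g).toMonoidHom
    rwa [MonoidHom.map_zpowers] at this
  have haC : a ∈ C := Subgroup.mem_centralizer_singleton_iff.mpr (hS _ hg).symm
  have hbC : b ∈ C := Subgroup.mem_centralizer_singleton_iff.mpr (by
    rw [hbdef, ← conj_pow]; exact ((Commute.refl _).pow_right n).eq)
  have hAp : IsPGroup p ((Subgroup.zpowers a).subgroupOf C) := hpa.comap_subtype
  have hBp : IsPGroup p ((Subgroup.zpowers b).subgroupOf C) := hpb.comap_subtype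
  obtain ⟨R, hR⟩ := hAp.exists_le_sylow
  obtain ⟨R', hR'⟩ := hBp.exists_le_sylow
  obtain ⟨c, hc⟩ := MulAction.exists_smul_eq C R' R
  have hca : (⟨a, haC⟩ : C) ∈ R := hR (by simp [Subgroup.mem_subgroupOf])
  have hcb : c * ⟨b, hbC⟩ * c⁻¹ ∈ R := by
    rw [← hc]
    show _ ∈ ((c • R' : Sylow p C) : Subgroup C)
    rw [Sylow.coe_subgroup_smul]
    exact Subgroup.smul_mem_pointwise_smul _ (MulAut.conj c) _ (hR' (by simp [Subgroup.mem_subgroupOf]))
  obtain ⟨S', hS'⟩ := (R.2.map C.subtype).exists_le_sylow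
  obtain ⟨t, ht⟩ := MulAction.exists_smul_eq G S' S
  have hmove : ∀ r ∈ R, t * (r : G) * t⁻¹ ∈ (S : Subgroup G) := by
    intro r hr
    rw [← ht, Sylow.coe_subgroup_smul]
    exact Subgroup.smul_mem_pointwise_smul _ (MulAut.conj t) _ (hS' ⟨r, hr, rfl⟩)
  have h1 : t * a * t⁻¹ = a := hwc t (hmove _ hca)
  have h2 : t * ((c : G) * b * (c : G)⁻¹) * t⁻¹ ∈ (S : Subgroup G) := hmove _ hcb
  have h3 := hwc (t * c * g) (by rw [hbdef] at h2; convert h2 using 1; group)
  have h4 : (c : G) * b * (c : G)⁻¹ = a := by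
    calc (c : G) * b * (c : G)⁻¹ = t⁻¹ * (t * c * g * a * (t * c * g)⁻¹) * t := by rw [hbdef]; group
      _ = t⁻¹ * (t * a * t⁻¹) * t := by rw [h3, h1]
      _ = a := by group
  have h5 : (c : G) * (g * a ^ n * g⁻¹) = (g * a ^ n * g⁻¹) * c := Subgroup.mem_centralizer_singleton_iff.mp c.2
  calc g * a ^ n * g⁻¹ = (c : G) * (g * a ^ n * g⁻¹) * (c : G)⁻¹ := by rw [h5]; group
    _ = ((c : G) * b * (c : G)⁻¹) ^ n := by rw [hbdef, ← conj_pow, ← conj_pow]
    _ = a ^ n := by rw [h4]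

end Cfsg.Agent.S1939
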