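import Cfsg.Statements.S1940

set_option autoImplicit false
open Cfsg

namespace Cfsg.Agent.S1940

/-- Let the finite group L act by automorphisms on the finite abelian group M, and let N be an L-invariant subgroup of M such that M/N is a p-group on which L acts trivially (every l • m lies in the coset mN). If every element of M is a product of an element of N and an element fixed by a Sylow p-subgroup T of L, then every element of M is a product of an element of N and an element fixed by all of L. -/
theorem result {L : Type*} [Group L] [Finite L] {M : Type*} [CommGroup M] [Finite M] [MulDistribMulAction L M]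
    {p : ℕ} [Fact p.Prime] (N : Subgroup M) (hN : ∀ (l : L) (m : M), m ∈ N → l • m ∈ N)
    (hquot : IsPGroup p (M ⧸ N)) (htriv : ∀ (l : L) (m : M), (l • m) * m⁻¹ ∈ N) (T : Sylow p L)
    (hT : ∀ m : M, ∃ n ∈ N, ∃ c : M, (∀ t ∈ (T : Subgroup L), t • c = c) ∧ m = n * c) :
    ∀ m : M, ∃ n ∈ N, ∃ c : M, (∀ l : L, l • c = c) ∧ m = n * c := by
  classical
  intro m
  obtain ⟨a, hqc⟩ : ∃ k : ℕ, ((m : M ⧸ N)) ^ p ^ k = 1 := hquot _
  set d := (T : Subgroup L).index with hd
  have hcop : d.Coprime (p ^ a) :=
    Nat.Coprime.pow_right _ ((Fact.out (p := p.Prime)).coprime_iff_not_dvd.mpr T.not_dvd_index).symm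
  have hcop' : d.Coprime (orderOf (m : M ⧸ N)) := hcop.coprime_dvd_right (orderOf_dvd_of_pow_eq_one hqc)
  obtain ⟨e, he⟩ := exists_pow_eq_self_of_coprime hcop'
  obtain ⟨n0, hn0, c, hcT, hm⟩ := hT (m ^ e)
  let f : L ⧸ (T : Subgroup L) → M := fun q => Quotient.liftOn' q (fun l => l • c) (by
    intro x y hxy
    rw [QuotientGroup.leftRel_apply] at hxy
    have := hcT _ hxy
    calc x • c = x • ((x⁻¹ * y) • c) := by rw [this]
      _ = y • c := by rw [smul_smul, mul_inv_cancel_left])
  haveI : Fintype (L ⧸ (T : Subgroup L)) := Fintype.ofFinite _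
  set c' := ∏ q, f q with hc'
  have hfix : ∀ l : L, l • c' = c' := by
    intro l
    rw [hc', Finset.smul_prod']
    refine (Finset.prod_congr rfl (fun q _ => ?_)).trans (Equiv.prod_comp (MulAction.toPerm l) f)
    induction q using QuotientGroup.induction_on with
    | H z => show l • (z • c) = (l * z) • c; rw [smul_smul]
  have hf : ∀ q, ((f q : M) : M ⧸ N) = (c : M ⧸ N) := by
    intro q
    induction q using QuotientGroup.induction_on with
    | H z =>
      show ((z • c : M) : M ⧸ N) = _
      rw [QuotientGroup.eq]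
      have := N.inv_mem (htriv z c)
      simpa [mul_comm] using this
  have hc'c : ((c' : M) : M ⧸ N) = (m : M ⧸ N) := by
    have : ((c' : M) : M ⧸ N) = ∏ q, ((f q : M) : M ⧸ N) := map_prod (QuotientGroup.mk' N) f Finset.univ
    rw [this, Finset.prod_congr rfl (fun q _ => hf q), Finset.prod_const, Finset.card_univ, ← Nat.card_eq_fintype_card]
    have hmc : (c : M ⧸ N) = (m : M ⧸ N) ^ e := by
      rw [← QuotientGroup.mk_pow, hm]
      simp [(QuotientGroup.eq_one_iff n0).mpr hn0]
    rw [hmc, ← pow_mul, mul_comm, pow_mul]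
    exact he
  refine ⟨m * c'⁻¹, ?_, c', hfix, by group⟩
  rw [← QuotientGroup.eq_one_iff]
  simp [hc'c]

end Cfsg.Agent.S1940
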