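import Cfsg.Statements.S1941
import Cfsg.Agent.Lib.Cores.GenFitting

set_option autoImplicit false
open Cfsg

namespace Cfsg.Agent.S1941

/-- Let G be a finite group with no nontrivial normal subgroup of order prime to p, T a Sylow p-subgroup of G and E(G) the layer of G (the subgroup generated by its components). An automorphism of G of p-power order that fixes T and E(G) elementwise is inner. -/
theorem result {G : Type*} [Group G] [Finite G] {p : ℕ} [Fact p.Prime] (hcore : Cfsg.pPrimeCore p G = ⊥)
    (T : Sylow p G) (α : MulAut G) (hα : ∃ j : ℕ, orderOf α = p ^ j) (hfixT : ∀ x ∈ (T : Subgroup G), α x = x)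
    (hfixE : ∀ x ∈ Cfsg.layer G, α x = x) : ∃ g : G, ∀ x : G, α x = g * x * g⁻¹ := by
  classical
  haveI := CfsgLib.Cores.fittingSubgroup_normal (G := G)
  set Fs := Cfsg.generalizedFittingSubgroup G with hFs
  have hFT : Cfsg.fittingSubgroup G ≤ (T : Subgroup G) := by
    rw [CfsgLib.Cores.fittingSubgroup_eq_iSup_pCore]
    refine iSup_le fun q => ?_
    haveI : Fact (q : ℕ).Prime := ⟨Nat.prime_of_mem_primeFactors q.2⟩
    by_cases hq : (q : ℕ) = p
    · rw [hq]; exact CfsgLib.Cores.pCore_le_sylow T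
    · refine le_trans ?_ (bot_le : (⊥ : Subgroup G) ≤ _)
      rw [← hcore]
      obtain ⟨k, hk⟩ := IsPGroup.iff_card.mp (CfsgLib.Cores.isPGroup_pCore (q : ℕ) G)
      refine CfsgLib.Cores.le_pPrimeCore ?_
      rw [hk]
      exact ((Nat.coprime_primes (Fact.out (p := (q : ℕ).Prime)) (Fact.out (p := p.Prime))).mpr hq).pow_left k
  have hFsfix : ∀ x ∈ Fs, α x = x := by
    intro x hx
    have hle : Fs ≤ (MonoidHom.eqLocus α.toMonoidHom (MonoidHom.id G)) :=
      sup_le (fun y hy => hfixE y hy) (fun y hy => hfixT y (hFT hy))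
    exact hle hx
  haveI hFn : Fs.Normal := by
    haveI : (Cfsg.layer G).Normal := inferInstance
    rw [hFs, Cfsg.generalizedFittingSubgroup]
    infer_instance
  set Z := Subgroup.centralizer (Fs : Set G) with hZ
  have hZF : Z ≤ Cfsg.fittingSubgroup G := by
    rw [hZ, hFs, CfsgLib.Cores.centralizer_generalizedFittingSubgroup_eq]
    exact Subgroup.map_subtype_le _
  haveI : IsMulCommutative Z := ⟨⟨fun a b => Subtype.ext
    ((Subgroup.mem_centralizer_iff.mp b.2) a
      (CfsgLib.Cores.fittingSubgroup_le_generalizedFittingSubgroup G (hZF a.2)))⟩⟩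
  letI : CommGroup Z := { (inferInstance : Group Z) with mul_comm := fun a b => Std.Commutative.comm a b }
  have hu : ∀ g : G, α g * g⁻¹ ∈ Z := by
    intro g
    refine Subgroup.mem_centralizer_iff.mpr fun f hf => ?_
    have hfn : g⁻¹ * f * g ∈ Fs := by simpa using hFn.conj_mem f hf g⁻¹
    have h1 := hFsfix _ hfn
    rw [map_mul, map_mul, map_inv, hFsfix f hf] at h1
    calc f * (α g * g⁻¹) = α g * ((α g)⁻¹ * f * α g) * g⁻¹ := by group
      _ = α g * g⁻¹ * f := by rw [h1]; group
  let u : G → Z := fun g => ⟨α g * g⁻¹, hu g⟩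
  haveI : Fintype (G ⧸ (T : Subgroup G)) := Fintype.ofFinite _
  set d := (T : Subgroup G).index with hd
  set P : Z := ∏ q : G ⧸ (T : Subgroup G), u q.out with hP
  haveI : Z.Normal := by rw [hZ]; infer_instance
  have key : ∀ x : G, P = u x ^ d * MulAut.conjNormal x P := by
    intro x
    have h1 : ∀ q : G ⧸ (T : Subgroup G), u (x • q).out = u x * MulAut.conjNormal x (u q.out) := by
      intro q
      obtain ⟨t, ht⟩ := QuotientGroup.mk_out_eq_mul (T : Subgroup G) (x * q.out)
      have e : x • q = ((x * q.out : G) : G ⧸ (T : Subgroup G)) := by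
        conv_lhs => rw [← QuotientGroup.out_eq' q]
        rfl
      rw [e, ht]
      apply Subtype.ext
      simp only [u, Subgroup.coe_mul, MulAut.conjNormal_apply, map_mul, hfixT _ t.2]
      group
    calc P = ∏ q : G ⧸ (T : Subgroup G), u (x • q).out :=
          (Equiv.prod_comp (MulAction.toPerm x) (fun q : G ⧸ (T : Subgroup G) => u q.out)).symm
      _ = _ := by
        rw [Finset.prod_congr rfl fun q _ => h1 q, Finset.prod_mul_distrib, Finset.prod_const,
          Finset.card_univ, ← Nat.card_eq_fintype_card, hP, map_prod]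
        rfl
  obtain ⟨k, hk⟩ := IsPGroup.iff_card.mp (T.2.to_le (hZF.trans hFT) : IsPGroup p Z)
  have hcop : (Nat.card Z).Coprime d := by
    rw [hk]
    exact ((Fact.out (p := p.Prime)).coprime_iff_not_dvd.mpr T.not_dvd_index).pow_left k
  set z₀ := (powCoprime hcop).symm P with hz₀
  have hz₀d : z₀ ^ d = P := (powCoprime hcop).apply_symm_apply P
  refine ⟨(z₀ : G), fun x => ?_⟩
  have h : z₀ = u x * MulAut.conjNormal x z₀ := by
    apply (powCoprime hcop).injective
    show z₀ ^ d = (u x * MulAut.conjNormal x z₀) ^ d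
    rw [mul_pow, ← map_pow (MulAut.conjNormal x), hz₀d]
    exact key x
  have h' : (z₀ : G) = α x * x⁻¹ * (x * z₀ * x⁻¹) := by
    have := congrArg Subtype.val h
    simpa [u] using this
  calc α x = α x * x⁻¹ * (x * z₀ * x⁻¹) * x * (z₀ : G)⁻¹ := by group
    _ = z₀ * x * (z₀ : G)⁻¹ := by rw [← h']

end Cfsg.Agent.S1941
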