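import Cfsg.Statements.S1944
import Cfsg.Agent.Lib.PushUp.PPrimeP

set_option autoImplicit false
open Cfsg

namespace Cfsg.Agent.S1944

/-- Let S be a Sylow p-subgroup of the finite group G and suppose that the centre Z(S) lies in O_{p',p}(G). The elements of S each of which is its only G-conjugate in S form a subgroup W of Z(S); W is then a direct factor of Z(S): there is a subgroup K of Z(S) with W ∩ K = 1 and WK = Z(S). -/
theorem result {G : Type*} [Group G] [Finite G] {p : ℕ} [Fact p.Prime] (S : Sylow p G)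
    (hZ : ((S : Subgroup G) ⊓ Subgroup.centralizer ((S : Subgroup G) : Set G)) ≤ Cfsg.pPrimePCore p G) :
    ∃ W K : Subgroup G, (∀ x : G, x ∈ W ↔ (x ∈ (S : Subgroup G) ∧ ∀ g : G, g * x * g⁻¹ ∈ (S : Subgroup G) → g * x * g⁻¹ = x)) ∧
      K ≤ ((S : Subgroup G) ⊓ Subgroup.centralizer ((S : Subgroup G) : Set G)) ∧ W ⊓ K = ⊥ ∧ W ⊔ K = ((S : Subgroup G) ⊓ Subgroup.centralizer ((S : Subgroup G) : Set G)) := by
  classical
  set H := (S : Subgroup G) ⊓ Cfsg.pPrimePCore p G with hH
  set N := Subgroup.normalizer (H : Set G) with hN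
  set Z := (S : Subgroup G) ⊓ Subgroup.centralizer ((S : Subgroup G) : Set G) with hZdef
  have hZH : Z ≤ H := le_inf inf_le_left hZ
  have hSN : (S : Subgroup G) ≤ N := CfsgLib.PushUp.sylow_le_normalizer_inf S
  set M := H ⊓ Subgroup.centralizer (H : Set G) with hM
  have hZM : Z ≤ M := le_inf hZH (inf_le_right.trans (Subgroup.centralizer_le inf_le_left))
  haveI : IsMulCommutative M := ⟨⟨fun a b => Subtype.ext ((Subgroup.mem_centralizer_iff.mp b.2.2) a a.2.1)⟩⟩
  letI : CommGroup M := { (inferInstance : Group M) with mul_comm := fun a b => Std.Commutative.comm a b }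
  have hNM : ∀ n ∈ N, ∀ m ∈ M, n * m * n⁻¹ ∈ M := by
    intro n hn m hm
    have hH' : ∀ h ∈ H, n⁻¹ * h * n ∈ H := fun h hh => by
      have := (CfsgLib.PushUp.cmap_eq_of_mem_normalizer (inv_mem hn : n⁻¹ ∈ N)).le (CfsgLib.PushUp.conj_mem_cmap hh)
      simpa using this
    refine ⟨(CfsgLib.PushUp.cmap_eq_of_mem_normalizer hn).le (CfsgLib.PushUp.conj_mem_cmap hm.1), ?_⟩
    refine Subgroup.mem_centralizer_iff.mpr fun h hh => ?_
    calc h * (n * m * n⁻¹) = n * ((n⁻¹ * h * n) * m) * n⁻¹ := by group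
      _ = n * (m * (n⁻¹ * h * n)) * n⁻¹ := by rw [(Subgroup.mem_centralizer_iff.mp hm.2) _ (hH' h hh)]
      _ = n * m * n⁻¹ * h := by group
  let c : N → (M →* M) := fun n =>
    { toFun := fun m => ⟨(n : G) * m * (n : G)⁻¹, hNM n n.2 m m.2⟩
      map_one' := Subtype.ext (by simp)
      map_mul' := fun a b => Subtype.ext (by simp) }
  have hcmul : ∀ (a b : N) (m : M), c (a * b) m = c a (c b m) := fun a b m =>
    Subtype.ext (by simp [c, mul_assoc])
  have hcS : ∀ (t : N), (t : G) ∈ (S : Subgroup G) → ∀ z : Z, c t (Subgroup.inclusion hZM z) = Subgroup.inclusion hZM z := by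
    intro t ht z
    apply Subtype.ext
    show (t : G) * z * (t : G)⁻¹ = z
    rw [(Subgroup.mem_centralizer_iff.mp z.2.2) t ht]
    group
  let T : Subgroup N := (S : Subgroup G).subgroupOf N
  haveI : Fintype (N ⧸ T) := Fintype.ofFinite _
  let ψ : Z →* M := ∏ q : N ⧸ T, (c q.out).comp (Subgroup.inclusion hZM)
  have hψ : ∀ z : Z, ψ z = ∏ q : N ⧸ T, c q.out (Subgroup.inclusion hZM z) := fun z => by
    simp [ψ, MonoidHom.finset_prod_apply]
  have hψfix : ∀ (z : Z) (n : G), n ∈ N → n * (ψ z : G) * n⁻¹ = ψ z := by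
    intro z n hn
    have : c ⟨n, hn⟩ (ψ z) = ψ z := by
      rw [hψ, map_prod]
      refine (Finset.prod_congr rfl (fun q _ => ?_)).trans
        (Equiv.prod_comp (MulAction.toPerm (⟨n, hn⟩ : N)) (fun q : N ⧸ T => c q.out (Subgroup.inclusion hZM z)))
      set n' : N := ⟨n, hn⟩
      show c n' (c q.out _) = c (n' • q).out _
      obtain ⟨t, ht⟩ : ∃ t : T, (n' • q).out = n' * q.out * t := by
        obtain ⟨t, ht⟩ := QuotientGroup.mk_out_eq_mul T (n' * q.out)
        have e : n' • q = ((n' * q.out : N) : N ⧸ T) := by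
          conv_lhs => rw [← QuotientGroup.out_eq' q]
          rfl
        exact ⟨t, by rw [e, ht]⟩
      rw [ht, hcmul, hcS _ t.2, hcmul]
    exact congrArg Subtype.val this
  have hψZ : ∀ z, (ψ z : G) ∈ Z := fun z => by
    refine ⟨(ψ z).2.1.1, Subgroup.mem_centralizer_iff.mpr fun s hs => ?_⟩
    exact mul_inv_eq_iff_eq_mul.mp (hψfix z s (hSN hs))
  set W := Z ⊓ Subgroup.centralizer (N : Set G) with hW
  set d := T.index with hd
  have hdp : d.Coprime p := by
    refine Nat.Coprime.symm ((Fact.out (p := p.Prime)).coprime_iff_not_dvd.mpr fun h => ?_)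
    apply S.not_dvd_index
    exact h.trans (Subgroup.relIndex_dvd_index_of_le hSN)
  have hZp : ∀ z : Z, d.Coprime (orderOf z) := fun z => by
    obtain ⟨k, hk⟩ := IsPGroup.iff_orderOf.mp (S.2.to_le (inf_le_left : Z ≤ _)) z
    rw [hk]; exact hdp.pow_right k
  have hψW : ∀ z : Z, (z : G) ∈ W → (ψ z : G) = (z : G) ^ d := by
    intro z hz
    have : ψ z = (Subgroup.inclusion hZM z) ^ d := by
      rw [hψ, Finset.prod_congr rfl (g := fun _ => Subgroup.inclusion hZM z) fun q _ => ?_,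
        Finset.prod_const, Finset.card_univ, ← Nat.card_eq_fintype_card]
      · rfl
      · apply Subtype.ext
        show (q.out : G) * z * (q.out : G)⁻¹ = z
        rw [(Subgroup.mem_centralizer_iff.mp hz.2) _ q.out.2]; group
    rw [this]; simp
  refine ⟨W, ψ.ker.map Z.subtype, fun x => ⟨fun hx => ⟨hx.1.1, fun g hg => ?_⟩, fun hx => ?_⟩,
    Subgroup.map_subtype_le _, ?_, ?_⟩
  · obtain ⟨n, hn, he⟩ := CfsgLib.PushUp.exists_normalizer_conj_eq S (Q := Subgroup.zpowers x)
      (Subgroup.zpowers_le.mpr hx.1.1) (g := g) (by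
        rw [CfsgLib.PushUp.cmap, MonoidHom.map_zpowers, Subgroup.zpowers_le]
        exact hg)
    rw [← he x (Subgroup.mem_zpowers x), (Subgroup.mem_centralizer_iff.mp hx.2) n hn]
    group
  · have hxZ : x ∈ Z := ⟨hx.1, Subgroup.mem_centralizer_iff.mpr fun s hs =>
      mul_inv_eq_iff_eq_mul.mp (hx.2 s ((S : Subgroup G).mul_mem ((S : Subgroup G).mul_mem hs hx.1) ((S : Subgroup G).inv_mem hs)))⟩
    exact ⟨hxZ, Subgroup.mem_centralizer_iff.mpr fun n hn =>
      mul_inv_eq_iff_eq_mul.mp (hx.2 n (hNM n hn x (hZM hxZ)).1.1)⟩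
  · rw [eq_bot_iff]
    rintro _ ⟨hxW, z, hz, rfl⟩
    have h0 := hψW z hxW
    rw [show ψ z = 1 from hz] at h0
    have h2 : z ^ d = 1 := Subtype.ext (by simpa using h0.symm)
    have h3 : z = 1 := orderOf_eq_one_iff.mp
      (Nat.eq_one_of_dvd_coprimes (hZp z) (orderOf_dvd_of_pow_eq_one h2) dvd_rfl)
    rw [h3]; exact one_mem _
  · refine le_antisymm (sup_le inf_le_left (Subgroup.map_subtype_le _)) fun x hx => ?_
    set z : Z := ⟨x, hx⟩
    have hzW : (ψ z : G) ∈ W := ⟨hψZ z, Subgroup.mem_centralizer_iff.mpr fun n hn =>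
      mul_inv_eq_iff_eq_mul.mp (hψfix z n hn)⟩
    set y : Z := ⟨ψ z, hψZ z⟩
    obtain ⟨e, he⟩ := exists_pow_eq_self_of_coprime (hZp y)
    set w : Z := y ^ e with hwdef
    have hwW : (w : G) ∈ W := by rw [hwdef]; simpa using W.pow_mem hzW e
    have hψw : ψ w = ψ z := by
      apply Subtype.ext
      rw [hψW w hwW, hwdef, ← SubmonoidClass.coe_pow, ← pow_mul, mul_comm, pow_mul, he]
    have hk : w⁻¹ * z ∈ ψ.ker := by rw [MonoidHom.mem_ker, map_mul, map_inv, hψw]; group
    have := Subgroup.mul_mem_sup hwW (Subgroup.mem_map_of_mem Z.subtype hk)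
    simpa [z] using this

end Cfsg.Agent.S1944
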