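import Cfsg.Statements.S1947
import Cfsg.Agent.Lib.PushUp.SmallFusion

set_option autoImplicit false
open Cfsg

namespace Cfsg.Agent.S1947

/-- Let G be a finite group and p a prime. If every element of G of order dividing p (dividing 4 when p = 2) lies in some fixed term Z_n(G) of the upper central series, then G has a normal p-complement. -/
theorem result {G : Type*} [Group G] [Finite G] {p : ℕ} [Fact p.Prime] (n : ℕ)
    (h : ∀ a : G, (a ^ p = 1 ∨ (p = 2 ∧ a ^ 4 = 1)) → a ∈ Subgroup.upperCentralSeries G n) : Cfsg.HasNormalPComplement p G := by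
  refine CfsgLib.NormalPComplement.hasNormalPComplement_of_frobeniusCondition (fun Q hQ g hg hgp => ?_)
  refine CfsgLib.PushUp.mem_centralizer_of_chain hQ hg hgp (Subgroup.upperCentralSeries G) n
    (Subgroup.upperCentralSeries_zero G) (fun a _ hs => h a hs) (fun i a _ _ hi => ?_)
  have h1 := Subgroup.mem_upperCentralSeries_succ_iff.mp ((Subgroup.upperCentralSeries G (i + 1)).inv_mem hi) g
  simpa [commutatorElement_def, mul_assoc] using h1

end Cfsg.Agent.S1947
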