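import Cfsg.Statements.S1948
import Cfsg.Agent.Lib.PushUp.PPrimeP

set_option autoImplicit false
open Cfsg

namespace Cfsg.Agent.S1948

/-- Let S be a Sylow p-subgroup of the finite group G. Then G = N_G(S)·O_{p'}(G) if and only if G is p-constrained and N_G(S) controls fusion in S, in the sense that whenever a subgroup Q of S has a conjugate g Q g⁻¹ inside S, the element g is a product n c with n normalizing S and c centralizing Q. -/
theorem result {G : Type*} [Group G] [Finite G] {p : ℕ} [Fact p.Prime] (S : Sylow p G) :
    Subgroup.normalizer ((S : Subgroup G) : Set G) ⊔ Cfsg.pPrimeCore p G = ⊤ ↔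
      (Cfsg.IsPConstrained p G ∧
        ∀ Q : Subgroup G, Q ≤ (S : Subgroup G) → ∀ g : G, Q.map (MulAut.conj g).toMonoidHom ≤ (S : Subgroup G) →
          ∃ n ∈ Subgroup.normalizer ((S : Subgroup G) : Set G), ∃ c ∈ Subgroup.centralizer (Q : Set G), g = n * c) := by
  set D := Cfsg.pPrimeCore p G with hD
  set O := Cfsg.pPrimePCore p G with hO
  have hOn : O.Normal := CfsgLib.PushUp.pPrimePCore_normal'
  constructor
  · intro htop
    have hSO : (S : Subgroup G) ≤ O := by
      refine CfsgLib.PushUp.le_pPrimePCore ?_ S.2
      rw [← Subgroup.normalizer_eq_top_iff, eq_top_iff, ← htop]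
      refine sup_le (fun n hn => ?_) (le_sup_right.trans Subgroup.le_normalizer)
      apply CfsgLib.PushUp.mem_normalizer_of_cmap_eq
      rw [CfsgLib.PushUp.cmap, Subgroup.map_sup]
      congr 1
      · exact CfsgLib.PushUp.cmap_eq_of_mem_normalizer hn
      · exact CfsgLib.PushUp.cmap_eq_of_mem_normalizer (by rw [Subgroup.normalizer_eq_top]; trivial)
    have hH : (S : Subgroup G) ⊓ O = S := inf_eq_left.mpr hSO
    have hC : Subgroup.centralizer ((S : Subgroup G) : Set G) ≤ O := by
      set C := Subgroup.centralizer ((S : Subgroup G) : Set G) with hCdef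
      set F := (Cfsg.pPrimeCore p C).map C.subtype with hF
      have hFn : (F ⊔ D).Normal := by
        rw [← Subgroup.normalizer_eq_top_iff, eq_top_iff, ← htop]
        refine sup_le (fun n hn => ?_) (le_sup_right.trans Subgroup.le_normalizer)
        apply CfsgLib.PushUp.mem_normalizer_of_cmap_eq
        rw [CfsgLib.PushUp.cmap, Subgroup.map_sup]
        congr 1
        · refine CfsgLib.PushUp.cmap_eq_of_mem_normalizer
            (CfsgLib.Cores.normalizer_le_normalizer_map_subtype C (Cfsg.pPrimeCore p C) ?_)
          have h1 := CfsgLib.PushUp.cmap_eq_of_mem_normalizer hn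
          rw [Subgroup.mem_set_normalizer_iff]
          intro x
          simp only [SetLike.mem_coe, hCdef, Subgroup.mem_centralizer_iff]
          constructor
          · intro hx s hs
            have h2 := hx (n⁻¹ * s * n) (by show n⁻¹ * s * n ∈ (S : Subgroup G); rw [← CfsgLib.PushUp.mem_cmap, h1]; exact hs)
            calc s * (n * x * n⁻¹) = n * ((n⁻¹ * s * n) * x) * n⁻¹ := by group
              _ = n * x * n⁻¹ * s := by rw [h2]; group
          · intro hx s hs
            have h2 := hx (n * s * n⁻¹) (h1.le (CfsgLib.PushUp.conj_mem_cmap hs))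
            calc s * x = n⁻¹ * ((n * s * n⁻¹) * (n * x * n⁻¹)) * n := by group
              _ = x * s := by rw [h2]; group
        · exact CfsgLib.PushUp.cmap_eq_of_mem_normalizer (by rw [Subgroup.normalizer_eq_top]; trivial)
      have hFD : F ≤ D := by
        refine le_sup_left.trans ((CfsgLib.Cores.le_pPrimeCore (hN := hFn) ?_) : F ⊔ D ≤ D)
        refine Nat.Coprime.coprime_dvd_left (CfsgLib.Cores.card_sup_dvd F D) (Nat.Coprime.mul_left ?_ ?_)
        · rw [hF, Subgroup.card_map_of_injective C.subtype_injective]
          exact CfsgLib.Cores.card_pPrimeCore_coprime p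
        · exact CfsgLib.Cores.card_pPrimeCore_coprime p
      obtain ⟨R⟩ : Nonempty (Sylow p C) := inferInstance
      have hR : ∀ r ∈ R, ((r : C) : G) ∈ (S : Subgroup G) := by
        intro r hr
        have hp : IsPGroup p ↥((R : Subgroup C).map C.subtype) := R.2.map _
        have hle : ((R : Subgroup C).map C.subtype) ≤ Subgroup.normalizer ((S : Subgroup G) : Set G) :=
          (Subgroup.map_subtype_le _).trans (fun c hc => by
            rw [Subgroup.mem_set_normalizer_iff]
            intro x
            simp only [SetLike.mem_coe]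
            constructor
            · intro h
              have h2 := (Subgroup.mem_centralizer_iff.mp hc) x h
              rwa [← h2, mul_inv_cancel_right]
            · intro h
              have h2 := (Subgroup.mem_centralizer_iff.mp hc) _ h
              have e : x = c * x * c⁻¹ := by
                calc x = c⁻¹ * (c * x * c⁻¹ * c) := by group
                  _ = c⁻¹ * (c * (c * x * c⁻¹)) := by rw [h2]
                  _ = c * x * c⁻¹ := by group
              exact e ▸ h)
        have hsup : IsPGroup p ↥(((R : Subgroup C).map C.subtype) ⊔ (S : Subgroup G)) :=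
          hp.to_sup_of_normal_right' S.2 hle
        have := S.3 hsup le_sup_right
        exact this ▸ Subgroup.mem_sup_left ⟨r, hr, rfl⟩
      have hRN : Subgroup.normalizer ((R : Subgroup C) : Set C) ≤ Subgroup.centralizer ((R : Subgroup C) : Set C) :=
        fun c _ => Subgroup.mem_centralizer_iff.mpr fun r hr =>
          Subtype.ext ((Subgroup.mem_centralizer_iff.mp c.2) r (hR r hr))
      have hcompl := MonoidHom.ker_transferSylow_isComplement' R hRN
      intro c hc
      obtain ⟨⟨k, r⟩, hkr, -⟩ := hcompl.existsUnique ⟨c, hc⟩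
      have hk : (k : C) ∈ Cfsg.pPrimeCore p C :=
        CfsgLib.Cores.le_pPrimeCore ((Fact.out (p := p.Prime)).coprime_iff_not_dvd.mpr
          (MonoidHom.not_dvd_card_ker_transferSylow R hRN)).symm k.2
      have : c = ((k : C) : G) * ((r : C) : G) := by
        rw [← Subgroup.coe_mul]; exact congrArg Subtype.val hkr.symm
      rw [this]
      exact mul_mem (CfsgLib.PushUp.pPrimeCore_le_pPrimePCore (hFD ⟨_, hk, rfl⟩)) (hSO (hR _ r.2))
    refine ⟨fun P => ?_, fun Q hQ g hg => ?_⟩
    · set P' := (P : Subgroup O).map O.subtype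
      have hPi : ¬ p ∣ P'.relIndex O := by
        rw [Subgroup.relIndex, Subgroup.subgroupOf,
          Subgroup.comap_map_eq_self_of_injective O.subtype_injective]
        exact P.not_dvd_index
      have hSi : ¬ p ∣ (S : Subgroup G).relIndex O := by
        have := CfsgLib.PushUp.not_dvd_relIndex_inf_pPrimePCore S
        rwa [← hO, hH] at this
      obtain ⟨o, -, ho⟩ := CfsgLib.PushUp.exists_cmap_eq hSO S.2 hSi (Subgroup.map_subtype_le _)
        (P.2.map _) hPi
      intro c hc
      have h1 : o⁻¹ * c * o ∈ Subgroup.centralizer ((S : Subgroup G) : Set G) := by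
        refine Subgroup.mem_centralizer_iff.mpr fun s hs => ?_
        have h2 := (Subgroup.mem_centralizer_iff.mp hc) (o * s * o⁻¹)
          (ho.le (CfsgLib.PushUp.conj_mem_cmap hs))
        calc s * (o⁻¹ * c * o) = o⁻¹ * ((o * s * o⁻¹) * c) * o := by group
          _ = o⁻¹ * c * o * s := by rw [h2]; group
      have := hOn.conj_mem _ (hC h1) o
      simpa [mul_assoc] using this
    · obtain ⟨n, hn, he⟩ := CfsgLib.PushUp.exists_normalizer_conj_eq S hQ (g := g) hg
      rw [← hO, hH] at hn
      refine ⟨n, hn, n⁻¹ * g, Subgroup.mem_centralizer_iff.mpr fun q hq => ?_, by group⟩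
      have := he q hq
      calc q * (n⁻¹ * g) = n⁻¹ * (n * q * n⁻¹) * g := by group
        _ = n⁻¹ * g * q := by rw [this]; group
  · rintro ⟨hcon, hctrl⟩
    set H := (S : Subgroup G) ⊓ O with hH
    have hNS : Subgroup.normalizer (H : Set G) ≤ Subgroup.normalizer ((S : Subgroup G) : Set G) ⊔ D := by
      intro g hg
      obtain ⟨n, hn, c, hc, rfl⟩ := hctrl H inf_le_left g
        ((CfsgLib.PushUp.cmap_eq_of_mem_normalizer hg).le.trans inf_le_left)
      refine mul_mem (Subgroup.mem_sup_left hn) ?_
      have hcO : c ∈ O := by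
        let P : Sylow p ↥O := ((S.2.to_le inf_le_left : IsPGroup p H).of_equiv
          (Subgroup.subgroupOfEquivOfLe (inf_le_right : H ≤ O)).symm).toSylow
          (CfsgLib.PushUp.not_dvd_relIndex_inf_pPrimePCore S)
        have := hcon P
        apply this
        rw [show ((P : Subgroup ↥O).map O.subtype) = H from
          Subgroup.map_subgroupOf_eq_of_le inf_le_right]
        exact hc
      have h2 : O ≤ Subgroup.normalizer ((S : Subgroup G) : Set G) ⊔ D := by
        rw [hO, CfsgLib.PushUp.pPrimePCore_eq_sup S]
        exact sup_le le_sup_right ((inf_le_left.trans Subgroup.le_normalizer).trans le_sup_left)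
      exact h2 hcO
    rw [eq_top_iff, ← CfsgLib.PushUp.normalizer_sup_pPrimeCore_eq_top S]
    exact sup_le hNS le_sup_right

end Cfsg.Agent.S1948
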