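import Cfsg.Statements.S1949
import Cfsg.Agent.Lib.Transfer.Critical
import Cfsg.Agent.Lib.FusionExamples.SmallElements
import Cfsg.Agent.Lib.NormalPComplement.Basic

set_option autoImplicit false
open Cfsg

namespace Cfsg.Agent.S1949

open scoped commutatorElement
open CfsgLib.FusionExamples (eq_of_stable eq_one_of_fixes_small)

section Restr

variable {P : Type*} [Group P] [Finite P]

/-- Restriction of an automorphism to an invariant subgroup. -/
noncomputable def restr (a : MulAut P) (H : Subgroup P) (ha : ∀ x ∈ H, a x ∈ H) : MulAut H :=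
  MulEquiv.ofBijective ((a.toMonoidHom.comp H.subtype).codRestrict H fun x => ha x x.2)
    (Finite.injective_iff_bijective.1 fun _ _ h => Subtype.ext (a.injective (congrArg Subtype.val h)))

theorem restr_apply (a : MulAut P) (H : Subgroup P) (ha : ∀ x ∈ H, a x ∈ H) (x : H) :
    ((restr a H ha x : H) : P) = a x := rfl

theorem restr_pow (a : MulAut P) (H : Subgroup P) (ha : ∀ x ∈ H, a x ∈ H) {m : ℕ} (hm : a ^ m = 1) :
    restr a H ha ^ m = 1 := by
  have h : ∀ (k : ℕ) (x : H), (((restr a H ha ^ k) x : H) : P) = (a ^ k) x := by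
    intro k
    induction k with
    | zero => intro x; rfl
    | succ k ih => intro x; rw [pow_succ', pow_succ', MulAut.mul_apply, MulAut.mul_apply, restr_apply, ih]
  refine MulEquiv.ext fun x => Subtype.ext ?_
  rw [h, hm]
  rfl

end Restr

/-- An element of `D` commuting with a maximal abelian subgroup of `D` lies in it. -/
theorem mem_of_maximal_abelian {P : Type*} [Group P] {D A : Subgroup P} (hAD : A ≤ D)
    (hA : IsMulCommutative A)
    (hmax : ∀ B : Subgroup P, A ≤ B → B ≤ D → IsMulCommutative ↥B → B = A)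
    {z : P} (hz : z ∈ D) (hc : ∀ a ∈ A, Commute z a) : z ∈ A := by
  have hpair : ∀ x ∈ (A : Set P) ∪ {z}, ∀ y ∈ (A : Set P) ∪ {z}, y * x = x * y := by
    rintro x (hx | rfl) y (hy | rfl)
    · exact congrArg Subtype.val (hA.is_comm.comm (⟨y, hy⟩ : A) ⟨x, hx⟩)
    · exact (hc x hx).eq
    · exact (hc y hy).eq.symm
    · rfl
  have h1 : Subgroup.closure ((A : Set P) ∪ {z}) ≤ Subgroup.centralizer ((A : Set P) ∪ {z}) :=
    (Subgroup.closure_le _).2 fun x hx => Subgroup.mem_centralizer_iff.2 fun y hy => hpair x hx y hy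
  have h2 : Subgroup.closure ((A : Set P) ∪ {z}) ≤
      Subgroup.centralizer (Subgroup.closure ((A : Set P) ∪ {z}) : Set P) :=
    (Subgroup.closure_le _).2 fun x hx => Subgroup.mem_centralizer_iff.2 fun y hy =>
      (Subgroup.mem_centralizer_iff.1 (h1 hy) x hx).symm
  have h3 := hmax _ (fun x hx => Subgroup.subset_closure (Or.inl hx))
    ((Subgroup.closure_le _).2 (Set.union_subset hAD (Set.singleton_subset_iff.2 hz)))
    ⟨⟨fun x y => Subtype.ext (Subgroup.mem_centralizer_iff.1 (h2 y.2) x x.2)⟩⟩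
  exact h3 ▸ Subgroup.subset_closure (Or.inr rfl)

set_option maxHeartbeats 1000000 in
theorem main {P : Type*} [Group P] [Finite P] {p : ℕ} [hp : Fact p.Prime] (hP : IsPGroup p P)
    (G : Subgroup (MulAut P)) (hG : Cfsg.Inn P ≤ G) :
    ∃ D : Subgroup P,
      (∀ α ∈ G, D.map α.toMonoidHom = D) ∧
      D ≤ Subgroup.closure {y : P | ∃ α ∈ Cfsg.pResidual p ↥G, ∃ x : P, y = x⁻¹ * (α : MulAut P) x} ∧
      (∀ d ∈ D, d ^ p = 1 ∨ (p = 2 ∧ d ^ 4 = 1)) ∧
      ⁅D, (⊤ : Subgroup P)⁆ ≤ D ⊓ Subgroup.centralizer (D : Set P) ∧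
      (∀ α ∈ G, (orderOf α).Coprime p → (∀ d ∈ D, α d = d) → α = 1) ∧
      ∀ A : Subgroup P, A ≤ D → IsMulCommutative ↥A →
        (∀ B : Subgroup P, A ≤ B → B ≤ D → IsMulCommutative ↥B → B = A) →
        A.Normal ∧ ∀ α ∈ G, (∀ a ∈ A, α a = a) → ∃ k : ℕ, orderOf α = p ^ k := by
  classical
  haveI := CfsgLib.Transfer.pResidual_normal (G := ↥G) (p := p)
  set Q : Subgroup P :=
    Subgroup.closure {y : P | ∃ α ∈ Cfsg.pResidual p ↥G, ∃ x : P, y = x⁻¹ * (α : MulAut P) x}
  let Inv : Subgroup P → Prop := fun K => ∀ α ∈ G, ∀ x ∈ K, α x ∈ K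
  have hnorm : ∀ K : Subgroup P, Inv K → K.Normal := fun K hK =>
    ⟨fun x hx g => hK (MulAut.conj g) (hG ⟨g, rfl⟩) x hx⟩
  have hsymm : ∀ K : Subgroup P, Inv K → ∀ α ∈ G, ∀ x ∈ K, α.symm x ∈ K := fun K hK α hα x hx =>
    hK α⁻¹ (inv_mem hα) x hx
  have hQinv : Inv Q := by
    intro β hβ x hx
    have hle : Q ≤ Q.comap β.toMonoidHom := by
      refine (Subgroup.closure_le _).2 ?_
      rintro _ ⟨α, hα, z, rfl⟩
      refine Subgroup.subset_closure ⟨⟨β, hβ⟩ * α * ⟨β, hβ⟩⁻¹,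
        Subgroup.Normal.conj_mem ‹_› α hα _, β z, ?_⟩
      show β (z⁻¹ * (α : MulAut P) z) = (β z)⁻¹ * (β * (α : MulAut P) * β⁻¹) (β z)
      simp
    exact hle hx
  obtain ⟨A, ⟨hAQ, hAinv, hAab⟩, hAmax⟩ := Set.Finite.exists_maximal
    (s := {K : Subgroup P | K ≤ Q ∧ Inv K ∧ ∀ x ∈ K, ∀ y ∈ K, Commute x y}) (Set.toFinite _)
    ⟨⊥, bot_le, fun α _ x hx => by rw [Subgroup.mem_bot.1 hx, map_one]; exact one_mem _,
      fun x hx y _ => by rw [Subgroup.mem_bot.1 hx]; exact Commute.one_left y⟩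
  haveI hAn := hnorm A hAinv
  set π := QuotientGroup.mk' A with hπ
  have hπ1 : ∀ x, π x = 1 ↔ x ∈ A := fun x => QuotientGroup.eq_one_iff x
  let H : Subgroup P :=
    { carrier := {x | x ∈ Q ∧ (∀ y ∈ A, Commute x y) ∧ x ^ p ∈ A ∧ ∀ g : P, ⁅x, g⁆ ∈ A}
      one_mem' := ⟨one_mem _, fun y _ => Commute.one_left y, by simp, fun g => by simp⟩
      mul_mem' := fun {x y} hx hy => ⟨mul_mem hx.1 hy.1,
        fun z hz => (hx.2.1 z hz).mul_left (hy.2.1 z hz), by
          rw [← hπ1]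
          have hc : Commute (π x) (π y) := commutatorElement_eq_one_iff_mul_comm.mp (by
            rw [← map_commutatorElement]; exact (hπ1 _).2 (hx.2.2.2 y))
          rw [map_pow, map_mul, hc.mul_pow, ← map_pow, ← map_pow, (hπ1 _).2 hx.2.2.1,
            (hπ1 _).2 hy.2.2.1, mul_one],
        fun g => CfsgLib.Transfer.commutator_mul_left_mem (hx.2.2.2 g) (hy.2.2.2 g)⟩
      inv_mem' := fun {x} hx => ⟨inv_mem hx.1, fun y hy => (hx.2.1 y hy).inv_left,
        by rw [inv_pow]; exact inv_mem hx.2.2.1, fun g => by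
        rw [show ⁅x⁻¹, g⁆ = x⁻¹ * ⁅x, g⁆⁻¹ * x⁻¹⁻¹ by simp only [commutatorElement_def]; group]
        exact hAn.conj_mem _ (inv_mem (hx.2.2.2 g)) _⟩ }
  have hHinv : Inv H := by
    intro α hα x hx
    refine ⟨hQinv α hα x hx.1, fun y hy => ?_, by rw [← map_pow]; exact hAinv α hα _ hx.2.2.1,
      fun g => ?_⟩
    · have := (hx.2.1 _ (hsymm A hAinv α hα y hy)).map α.toMonoidHom
      simpa using this
    · have := hAinv α hα _ (hx.2.2.2 (α.symm g))
      rwa [map_commutatorElement, MulEquiv.apply_symm_apply] at this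
  haveI hHn := hnorm H hHinv
  have hAH : A ≤ H := fun a ha => ⟨hAQ ha, fun y hy => hAab a ha y hy, pow_mem ha p, fun g => by
    rw [commutatorElement_def, mul_assoc a g, mul_assoc a]
    exact mul_mem ha (hAn.conj_mem _ (inv_mem ha) g)⟩
  -- the centre of `H` is `A`
  have hZA : ∀ x ∈ H, (∀ h ∈ H, Commute x h) → x ∈ A := by
    let Z : Subgroup P :=
      { carrier := {x | x ∈ H ∧ ∀ h ∈ H, Commute x h}
        one_mem' := ⟨one_mem _, fun h _ => Commute.one_left h⟩
        mul_mem' := fun {x y} hx hy => ⟨mul_mem hx.1 hy.1,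
          fun h hh => (hx.2 h hh).mul_left (hy.2 h hh)⟩
        inv_mem' := fun {x} hx => ⟨inv_mem hx.1, fun h hh => (hx.2 h hh).inv_left⟩ }
    have hAZ : A ≤ Z := fun a ha => ⟨hAH ha, fun h hh => (hh.2.1 a ha).symm⟩
    have hle : Z ≤ A := by
      refine hAmax ⟨fun x hx => hx.1.1, fun α hα x hx => ⟨hHinv α hα x hx.1, fun h hh => ?_⟩,
        fun x hx y hy => hx.2 y hy.1⟩ hAZ
      have := (hx.2 _ (hsymm H hHinv α hα h hh)).map α.toMonoidHom
      simpa using this
    exact fun x hx hc => hle ⟨hx, hc⟩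
  -- the centralizer of `H` in `Q` lies in `H`
  have hCH : ∀ x ∈ Q, (∀ h ∈ H, Commute x h) → x ∈ H := by
    haveI hQn := hnorm Q hQinv
    let C : Subgroup P := Q ⊓ Subgroup.centralizer (H : Set P)
    intro x hxQ hxH
    by_contra hxnH
    have hxC : x ∈ C := ⟨hxQ, Subgroup.mem_centralizer_iff.2 fun h hh => (hxH h hh).symm.eq⟩
    have hCn : C.Normal := inferInstance
    haveI := hCn.map π (QuotientGroup.mk'_surjective A)
    have hne : C.map π ≠ ⊥ := fun h => hxnH (hAH ((hπ1 x).1 (by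
      have := Subgroup.mem_map_of_mem π hxC
      rwa [h, Subgroup.mem_bot] at this)))
    obtain ⟨c, ⟨hcC, hcZ⟩, hc1⟩ :=
      CfsgLib.Transfer.exists_mem_inf_center_ne_one (hP.to_quotient A) hne
    obtain ⟨k, hk⟩ := IsPGroup.iff_orderOf.1 (hP.to_quotient A) c
    have hk0 : k ≠ 0 := fun h => hc1 (orderOf_eq_one_iff.1 (by rw [hk, h, pow_zero]))
    obtain ⟨j, rfl⟩ := Nat.exists_eq_succ_of_ne_zero hk0
    set d := c ^ p ^ j with hd
    have hd1 : d ≠ 1 := fun h => by
      have := orderOf_dvd_of_pow_eq_one h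
      rw [hk, Nat.pow_dvd_pow_iff_le_right hp.out.one_lt] at this
      omega
    have hdp : d ^ p = 1 := by rw [hd, ← pow_mul, ← pow_succ, ← hk, pow_orderOf_eq_one]
    obtain ⟨q, hq, hqd⟩ := pow_mem hcC (p ^ j)
    change π q = d at hqd
    have hqH : q ∈ H := by
      refine ⟨hq.1, fun y hy => ((Subgroup.mem_centralizer_iff.1 hq.2 y (hAH hy)).symm),
        (hπ1 _).1 (by rw [map_pow, hqd, hdp]), fun g => (hπ1 _).1 ?_⟩
      rw [map_commutatorElement, commutatorElement_eq_one_iff_mul_comm, hqd]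
      exact (Subgroup.mem_center_iff.1 (pow_mem hcZ _) (π g)).symm
    refine hd1 (hqd ▸ (hπ1 q).2 (hZA q hqH fun h hh => ?_))
    exact (Subgroup.mem_centralizer_iff.1 hq.2 h hh).symm
  -- the small elements of `H`
  set n := if p = 2 then 4 else p with hn
  have hchoose : p ∣ n.choose 2 := by
    rw [hn]
    split_ifs with h2
    · subst h2; decide
    · exact hp.out.dvd_choose_self (by norm_num) (lt_of_le_of_ne hp.out.two_le (Ne.symm h2))
  have hmulH : ∀ x ∈ H, ∀ y ∈ H, x ^ n = 1 → y ^ n = 1 → (x * y) ^ n = 1 := by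
    intro x hx y hy hxn hyn
    have hcA : ⁅y, x⁆ ∈ A := hy.2.2.2 x
    have hcx : Commute ⁅y, x⁆ x := (hx.2.1 _ hcA).symm
    have hcy : Commute ⁅y, x⁆ y := (hy.2.1 _ hcA).symm
    have hcp : ⁅y, x⁆ ^ p = 1 := by
      have h1 : (y * x * y⁻¹) ^ p = ⁅y, x⁆ ^ p * x ^ p := by
        rw [show y * x * y⁻¹ = ⁅y, x⁆ * x by rw [commutatorElement_def]; group, hcx.mul_pow]
      rw [conj_pow, (hy.2.1 _ hx.2.2.1).eq, mul_inv_cancel_right] at h1
      exact right_eq_mul.1 h1
    obtain ⟨k, hk⟩ := hchoose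
    rw [CfsgLib.PGroups.mul_pow_of_commute hcx hcy, hxn, hyn, hk, pow_mul, hcp, one_pow, mul_one,
      mul_one]
  let D : Subgroup P :=
    { carrier := {x | x ∈ H ∧ x ^ n = 1}
      one_mem' := ⟨one_mem _, one_pow _⟩
      mul_mem' := fun {x y} hx hy => ⟨mul_mem hx.1 hy.1, hmulH x hx.1 y hy.1 hx.2 hy.2⟩
      inv_mem' := fun {x} hx => ⟨inv_mem hx.1, by rw [inv_pow, hx.2, inv_one]⟩ }
  have hDinv : Inv D := fun α hα x hx => ⟨hHinv α hα x hx.1, by rw [← map_pow, hx.2, map_one]⟩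
  haveI hDn := hnorm D hDinv
  have hDP : ∀ d ∈ D, ∀ g : P, ⁅d, g⁆ ∈ D ⊓ Subgroup.centralizer (D : Set P) := fun d hd g => by
    refine ⟨?_, Subgroup.mem_centralizer_iff.2 fun e he =>
      (he.1.2.1 _ (hd.1.2.2.2 g)).eq⟩
    rw [commutatorElement_def, mul_assoc d g, mul_assoc d]
    exact mul_mem hd (hDn.conj_mem _ (inv_mem hd) g)
  have hdet : ∀ α ∈ G, (orderOf α).Coprime p → (∀ d ∈ D, α d = d) → α = 1 := by
    intro α hα hcop hfix
    have hfH : ∀ h ∈ H, α h = h := by
      have h1 : restr α H (hHinv α hα) = 1 := by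
        refine eq_one_of_fixes_small (hP.to_subgroup H) _ (orderOf α)
          (restr_pow α H _ (pow_orderOf_eq_one α)) hcop ?_
        rintro ⟨x, hx⟩ hxs
        refine Subtype.ext (hfix x ⟨hx, ?_⟩)
        rw [hn]
        rcases hxs with h | ⟨h2, h⟩
        · have h' : x ^ p = 1 := congrArg Subtype.val h
          split_ifs with h2
          · subst h2; rw [show 4 = 2 * 2 from rfl, pow_mul, h', one_pow]
          · exact h'
        · rw [if_pos h2]; exact congrArg Subtype.val h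
      intro h hh
      have := congrArg (fun f : MulAut H => ((f ⟨h, hh⟩ : H) : P)) h1
      exact this
    have hfQ : ∀ x ∈ Q, α x = x := by
      intro x hx
      refine eq_of_stable hP α (pow_orderOf_eq_one α) hcop (hfH _ (hCH _
        (mul_mem (inv_mem hx) (hQinv α hα x hx)) fun h hh => ?_))
      have h1 := hfH _ (hHn.conj_mem h hh x)
      rw [map_mul, map_mul, map_inv, hfH h hh] at h1
      show x⁻¹ * α x * h = h * (x⁻¹ * α x)
      calc x⁻¹ * α x * h = x⁻¹ * (α x * h * (α x)⁻¹) * α x := by group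
        _ = h * (x⁻¹ * α x) := by rw [h1]; group
    refine MulEquiv.ext fun x => eq_of_stable hP α (pow_orderOf_eq_one α) hcop (hfQ _ ?_)
    refine Subgroup.subset_closure ⟨⟨α, hα⟩, CfsgLib.Transfer.mem_pResidual_of_coprime ?_, x, rfl⟩
    rwa [Subgroup.orderOf_mk]
  refine ⟨D, fun α hα => ?_, fun x hx => hx.1.1, fun d hd => ?_,
    Subgroup.commutator_le.2 fun d hd g _ => hDP d hd g, hdet, fun A' hA'D hA'c hA'max => ?_⟩
  · refine le_antisymm (fun y hy => ?_) fun y hy =>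
      ⟨α.symm y, hsymm D hDinv α hα y hy, α.apply_symm_apply y⟩
    obtain ⟨x, hx, rfl⟩ := hy
    exact hDinv α hα x hx
  · by_cases h2 : p = 2
    · exact Or.inr ⟨h2, by have := hd.2; rwa [hn, if_pos h2] at this⟩
    · exact Or.inl (by have := hd.2; rwa [hn, if_neg h2] at this)
  have hmem : ∀ a ∈ A', ∀ g : P, ⁅a, g⁆ ∈ A' := fun a ha g =>
    mem_of_maximal_abelian hA'D hA'c hA'max (hDP a (hA'D ha) g).1 fun b hb =>
      (Subgroup.mem_centralizer_iff.1 (hDP a (hA'D ha) g).2 b (hA'D hb)).symm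
  refine ⟨⟨fun a ha g => ?_⟩, fun α hα hfix => ?_⟩
  · have := mul_mem (inv_mem (hmem a ha g)) ha
    rwa [show ⁅a, g⁆⁻¹ * a = g * a * g⁻¹ by rw [commutatorElement_def]; group] at this
  obtain ⟨i, j, hij, ⟨e, he⟩, hj⟩ :=
    CfsgLib.NormalPComplement.exists_pParts (p := p) (isOfFinOrder_of_finite α)
  have hfixj : ∀ (k : ℕ), ∀ a ∈ A', (α ^ k) a = a := by
    intro k
    induction k with
    | zero => intro a _; rfl
    | succ k ih => intro a ha; rw [pow_succ, MulAut.mul_apply, hfix a ha, ih a ha]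
  have hone : α ^ j = 1 := by
    set β := α ^ j with hβ
    have hβG : β ∈ G := pow_mem hα j
    refine hdet β hβG hj fun d hd => eq_of_stable hP β (pow_orderOf_eq_one β) hj (hfixj j _ ?_)
    refine mem_of_maximal_abelian hA'D hA'c hA'max (mul_mem (inv_mem hd) (hDinv β hβG d hd))
      fun a ha => ?_
    have he' : ⁅d, a⁆ ∈ A' := mem_of_maximal_abelian hA'D hA'c hA'max (hDP d hd a).1 fun b hb =>
      (Subgroup.mem_centralizer_iff.1 (hDP d hd a).2 b (hA'D hb)).symm
    have h1 := hfixj j _ he'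
    rw [← hβ, map_commutatorElement, show β a = a from hfixj j a ha, commutatorElement_def,
      commutatorElement_def] at h1
    have h2 : β d * a * (β d)⁻¹ = d * a * d⁻¹ := mul_right_cancel h1
    show d⁻¹ * β d * a = a * (d⁻¹ * β d)
    calc d⁻¹ * β d * a = d⁻¹ * (β d * a * (β d)⁻¹) * β d := by group
      _ = a * (d⁻¹ * β d) := by rw [h2]; group
  rw [hone, mul_one] at hij
  rw [hij] at he
  obtain ⟨k, -, hk⟩ := (Nat.dvd_prime_pow hp.out).1 he
  exact ⟨k, hk⟩

/-- Let P be a finite p-group and G a group of automorphisms of P containing the inner automorphisms. Then there is a G-invariant subgroup D of P, contained in the subgroup generated by the elements x⁻¹α(x) with x in P and α in O^p(G), of exponent dividing p when p is odd and dividing 4 when p = 2, with [D, P] ≤ Z(D), such that every automorphism in G of order prime to p that fixes D elementwise is the identity; moreover every maximal abelian subgroup A of D is normal in P and every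 automorphism in G fixing A elementwise has p-power order. -/
theorem result {P : Type*} [Group P] [Finite P] {p : ℕ} [Fact p.Prime] (hP : IsPGroup p P)
    (G : Subgroup (MulAut P)) (hG : Cfsg.Inn P ≤ G) :
    ∃ D : Subgroup P,
      (∀ α ∈ G, D.map α.toMonoidHom = D) ∧
      D ≤ Subgroup.closure {y : P | ∃ α ∈ Cfsg.pResidual p ↥G, ∃ x : P, y = x⁻¹ * (α : MulAut P) x} ∧
      (∀ d ∈ D, d ^ p = 1 ∨ (p = 2 ∧ d ^ 4 = 1)) ∧
      ⁅D, (⊤ : Subgroup P)⁆ ≤ D ⊓ Subgroup.centralizer (D : Set P) ∧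
      (∀ α ∈ G, (orderOf α).Coprime p → (∀ d ∈ D, α d = d) → α = 1) ∧
      ∀ A : Subgroup P, A ≤ D → IsMulCommutative ↥A →
        (∀ B : Subgroup P, A ≤ B → B ≤ D → IsMulCommutative ↥B → B = A) →
        A.Normal ∧ ∀ α ∈ G, (∀ a ∈ A, α a = a) → ∃ k : ℕ, orderOf α = p ^ k := by
  exact main hP G hG

end Cfsg.Agent.S1949
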