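import Cfsg.Statements.S1951
import Cfsg.Agent.Lib.PSolvablePairs.Cyclic

set_option autoImplicit false
open Cfsg

namespace Cfsg.Agent.S1951

/-- Let p be a prime and P a nontrivial elementary abelian Sylow p-subgroup of a finite nonabelian simple group G whose nonidentity elements are all conjugate in G. Suppose that two elements of P are conjugate in G only if they are conjugate in N_G(P), that the centralizer of every element of order p of P has a normal p-complement, and that every two elements of order p of G generate a p-solvable subgroup. Then p = 2. -/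
theorem result {G : Type*} [Group G] [Finite G] [IsSimpleGroup G] (hG : ¬ IsMulCommutative G) {p : ℕ} [Fact p.Prime] (P : Sylow p G)
    (hP1 : (P : Subgroup G) ≠ ⊥) (hPe : Cfsg.IsElementaryAbelian p (P : Subgroup G))
    (hconj : ∀ x ∈ (P : Subgroup G), ∀ y ∈ (P : Subgroup G), x ≠ 1 → y ≠ 1 → ∃ g : G, g * x * g⁻¹ = y)
    (ha : ∀ x ∈ (P : Subgroup G), ∀ y ∈ (P : Subgroup G), (∃ g : G, g * x * g⁻¹ = y) →
      ∃ n ∈ Subgroup.normalizer ((P : Subgroup G) : Set G), n * x * n⁻¹ = y)
    (hb : ∀ x ∈ (P : Subgroup G), orderOf x = p → Cfsg.HasNormalPComplement p ↥(Subgroup.centralizer ({x} : Set G)))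
    (hc : ∀ x y : G, orderOf x = p → orderOf y = p → Cfsg.IsPSolvable p ↥(Subgroup.closure ({x, y} : Set G))) :
    p = 2 := by
  classical
  by_contra hp2
  haveI := Fintype.ofFinite G
  have hp : p.Prime := Fact.out
  have hord : ∀ y : G, y ∈ (P : Subgroup G) → y ≠ 1 → orderOf y = p := fun y hy hy1 =>
    orderOf_eq_prime (hPe.2 y hy) hy1
  set m := (Subgroup.centralizer ((P : Subgroup G) : Set G)).relIndex
    (Subgroup.normalizer ((P : Subgroup G) : Set G)) with hm
  have hF : CfsgLib.BlockSections.Exceptional.IsFrobSylow P m :=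
    CfsgLib.PSolvablePairs.isFrobSylow_of_free P hPe.1 fun y hy hy1 n hn hny =>
      CfsgLib.PSolvablePairs.mem_centralizer_of_pnilpotent P hPe.1 hy (hb y hy (hord y hy hy1)) hn hny
  haveI : Nontrivial ↥(P : Subgroup G) := (Subgroup.nontrivial_iff_ne_bot _).2 hP1
  obtain ⟨⟨y₀, hy₀P⟩, hy₀⟩ := exists_ne (1 : ↥(P : Subgroup G))
  have hy₀1 : y₀ ≠ 1 := fun h => hy₀ (Subtype.ext h)
  have hsurj : ∀ z : (P : Subgroup G), z ≠ 1 →
      ∃ α ∈ CfsgLib.BlockSections.Exceptional.autP P, α ⟨y₀, hy₀P⟩ = z := fun z hz =>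
    (CfsgLib.BlockSections.Exceptional.isConj_iff_autP hF).1
      (isConj_iff.2 (hconj y₀ hy₀P z z.2 hy₀1 fun h => hz (Subtype.ext h)))
  have hmq : m + 1 = Nat.card (P : Subgroup G) := by
    haveI := Fintype.ofFinite (P : Subgroup G)
    let e : ↥(CfsgLib.BlockSections.Exceptional.autP P) → {z : (P : Subgroup G) // z ≠ 1} := fun α =>
      ⟨(α : MulAut (P : Subgroup G)) ⟨y₀, hy₀P⟩, fun h => hy₀ ((MulEquiv.map_eq_one_iff _).1 h)⟩
    have he : Function.Bijective e := by
      refine ⟨fun α β h => Subtype.ext (CfsgLib.BlockSections.Exceptional.eq_of_autP_apply hF α.2 β.2 hy₀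
        (congrArg Subtype.val h)), fun z => ?_⟩
      obtain ⟨α, hα, h⟩ := hsurj z.1 z.2
      exact ⟨⟨α, hα⟩, Subtype.ext h⟩
    have h1 := Nat.card_eq_of_bijective e he
    rw [CfsgLib.BlockSections.Exceptional.card_autP hF, Nat.card_eq_fintype_card (α := {z : (P : Subgroup G) // z ≠ 1}),
      Fintype.card_subtype_compl, Fintype.card_subtype_eq, ← Nat.card_eq_fintype_card] at h1
    have h2 : 0 < Nat.card (P : Subgroup G) := Nat.card_pos
    omega
  obtain ⟨M, hM⟩ := CfsgLib.Blocks.exists_isPModular_of_prime hp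
  haveI : M.IsPrime := CfsgLib.Blocks.isPrime_of_isPModular hM
  have hm1 : 1 ≤ m := by
    have := CfsgLib.PSolvablePairs.two_le_index hG P hPe.1 hP1
    omega
  refine CfsgLib.PSolvablePairs.false_rational hG hF hM hp2 hmq hm1
    (D := Nat.card (Subgroup.centralizer ({y₀} : Set G))) ?_ hc
  intro u hu
  obtain ⟨g, hg⟩ := CfsgLib.PSolvablePairs.exists_conj_mem P hu
  have hne : g⁻¹ * u * g ≠ 1 := by
    intro h
    have hu1 : u = 1 := by simpa [mul_assoc, inv_mul_eq_one, mul_eq_one_iff_eq_inv] using h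
    rw [hu1, orderOf_one] at hu
    exact hp.one_lt.ne hu
  obtain ⟨a, ha'⟩ := hconj y₀ hy₀P _ hg hy₀1 hne
  rw [← CfsgLib.PSolvablePairs.card_centralizer_conj_inv g u, ← ha',
    CfsgLib.PSolvablePairs.card_centralizer_conj]

end Cfsg.Agent.S1951
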