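import Cfsg.Statements.S1952
import Mathlib

set_option autoImplicit false
open Cfsg

namespace Cfsg.Agent.S1952

open Polynomial in
/-- A vector over `ZMod p` with nonzero coordinate sum generates everything under the cyclic shifts. -/
theorem shift_generates {p : ℕ} [Fact p.Prime] (W : Submodule (ZMod p) (ZMod p → ZMod p))
    (v : ZMod p → ZMod p) (hW : ∀ k : ZMod p, (fun i => v (i + k)) ∈ W) (hv : ∑ i, v i ≠ 0) :
    W = ⊤ := by
  set S : Module.End (ZMod p) (ZMod p → ZMod p) :=
    LinearMap.funLeft (ZMod p) (ZMod p) (fun i => i + 1) with hS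
  have hSn : ∀ (n : ℕ) (w : ZMod p → ZMod p) (i : ZMod p), (S ^ n) w i = w (i + n) := by
    intro n
    induction n with
    | zero => simp
    | succ n ih =>
      intro w i
      rw [pow_succ, Module.End.mul_apply, ih]
      show w (i + (n : ZMod p) + 1) = _
      rw [Nat.cast_succ, add_assoc]
  set q : (ZMod p)[X] := ∑ k : ZMod p, C (v (-k)) * X ^ k.val with hq
  set T := aeval S q with hT
  have hTw : ∀ (w : ZMod p → ZMod p) (i : ZMod p), T w i = ∑ k : ZMod p, v (-k) * w (i + k) := by
    intro w i
    simp only [hT, hq, map_sum, map_mul, aeval_C, map_pow, aeval_X]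
    rw [LinearMap.sum_apply, Finset.sum_apply]
    refine Finset.sum_congr rfl fun k _ => ?_
    rw [Module.End.mul_apply, Module.algebraMap_end_apply, Pi.smul_apply, hSn, ZMod.natCast_zmod_val]
    rfl
  have hTW : ∀ w, T w ∈ W := by
    intro w
    have : T w = ∑ j : ZMod p, w j • fun i => v (i + -j) := by
      funext i
      rw [hTw, Finset.sum_apply]
      simp only [Pi.smul_apply, smul_eq_mul]
      refine Fintype.sum_equiv (Equiv.addLeft i) _ _ fun k => ?_
      simp [mul_comm, neg_add_rev]
    rw [this]
    exact sum_mem fun j _ => W.smul_mem _ (hW _)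
  have hSp : S ^ p = 1 := by
    refine LinearMap.ext fun w => funext fun i => ?_
    rw [hSn]; simp
  have hTp : T ^ p = algebraMap (ZMod p) (Module.End (ZMod p) (ZMod p → ZMod p)) (∑ i, v i) := by
    rw [hT, ← map_pow, hq, sum_pow_char, map_sum, map_sum]
    refine Fintype.sum_equiv (Equiv.neg _) _ _ fun k => ?_
    rw [mul_pow, ← C_pow, ZMod.pow_card, ← pow_mul, mul_comm k.val p, pow_mul, map_mul, aeval_C,
      map_pow, map_pow, aeval_X, hSp, one_pow, mul_one]
    rfl
  rw [eq_top_iff]
  intro u _
  have hu : u = T ((T ^ (p - 1)) ((∑ i, v i)⁻¹ • u)) := by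
    rw [← Module.End.mul_apply, ← pow_succ', Nat.sub_add_cancel (Fact.out : p.Prime).one_le, hTp,
      Module.algebraMap_end_apply, smul_smul, mul_inv_cancel₀ hv, one_smul]
  rw [hu]
  exact hTW _


/-- Let P be a finite p-group with a normal elementary abelian subgroup A of index p, and let x ∈ A and y ∈ P with y outside A. If the product of the p conjugates y^(-i) x y^i (i = 0, …, p−1) is not the identity, then the wreath product Z_p ≀ Z_p, realised as a Sylow p-subgroup of the symmetric group of degree p², is a homomorphic image of P. -/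
theorem result {P : Type*} [Group P] [Finite P] {p : ℕ} [Fact p.Prime] (hP : IsPGroup p P) (A : Subgroup P) [A.Normal]
    (hA : Cfsg.IsElementaryAbelian p A) (hidx : A.index = p) (x y : P) (hx : x ∈ A) (hy : y ∉ A)
    (hprod : ((List.range p).map (fun i => (y ^ i)⁻¹ * x * y ^ i)).prod ≠ 1) :
    ∃ (Q : Sylow p (Equiv.Perm (Fin (p ^ 2)))) (f : P →* ↥(Q : Subgroup (Equiv.Perm (Fin (p ^ 2))))), Function.Surjective f := by
  classical
  have hp : p.Prime := Fact.out
  haveI := hA.1
  letI : CommGroup A := { (inferInstance : Group A) with mul_comm := fun a b => Std.Commutative.comm a b }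
  letI : Module (ZMod p) (Additive A) := AddCommGroup.zmodModule (fun a => by
    apply Additive.toMul.injective
    rw [toMul_nsmul, toMul_zero]
    exact Subtype.ext (hA.2 _ (Additive.toMul a).2))
  have hcA : ∀ (n : ℕ) (a : P), a ∈ A → (y ^ n)⁻¹ * a * y ^ n ∈ A := fun n a ha => by
    simpa using ‹A.Normal›.conj_mem a ha (y ^ n)⁻¹
  have hypA : y ^ p ∈ A := by
    rw [← QuotientGroup.eq_one_iff, QuotientGroup.mk_pow, ← hidx, Subgroup.index]
    exact pow_card_eq_one'
  let cj : ℕ → (A →* A) := fun n =>
    { toFun := fun a => ⟨(y ^ n)⁻¹ * a * y ^ n, hcA n a a.2⟩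
      map_one' := Subtype.ext (by simp)
      map_mul' := fun a b => Subtype.ext (by simp [mul_assoc]) }
  have hcj_add : ∀ (m n : ℕ) (a : A), cj (m + n) a = cj n (cj m a) := fun m n a =>
    Subtype.ext (by simp [cj, pow_add, mul_assoc])
  have hcj_p : ∀ a : A, cj p a = a := by
    intro a
    apply Subtype.ext
    show (y ^ p)⁻¹ * a * y ^ p = a
    have := congrArg Subtype.val (mul_comm (a : A) ⟨y ^ p, hypA⟩)
    simp only [Subgroup.coe_mul] at this
    rw [mul_assoc, this, inv_mul_cancel_left]
  have hcj_mod : ∀ (n : ℕ) (a : A), cj n a = cj (n % p) a := by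
    intro n
    induction n using Nat.strong_induction_on with
    | _ n ih =>
      intro a
      by_cases h : n < p
      · rw [Nat.mod_eq_of_lt h]
      · have hn : n = p + (n - p) := by omega
        nth_rewrite 1 [hn]
        rw [hcj_add, hcj_p, ih (n - p) (by have := hp.pos; omega), ← Nat.mod_eq_sub_mod (by omega)]
  -- the product of the conjugates and a functional on it
  set N : A := ((List.range p).map (fun i => cj i ⟨x, hx⟩)).prod with hN
  have hNval : (N : P) = ((List.range p).map (fun i => (y ^ i)⁻¹ * x * y ^ i)).prod := by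
    rw [hN, ← Subgroup.coe_subtype, map_list_prod, List.map_map]
    rfl
  have hN1 : Additive.ofMul N ≠ 0 := fun h => hprod (by
    rw [← hNval, show N = 1 from h]; rfl)
  obtain ⟨f, hf⟩ : ∃ f : Additive A →+ ZMod p, f (Additive.ofMul N) ≠ 0 := by
    by_contra hcon
    push Not at hcon
    exact hN1 ((Module.forall_dual_apply_eq_zero_iff (ZMod p) _).mp fun φ => hcon (LinearMap.toAddMonoidHom φ))
  let ψ : Additive A →+ (ZMod p → ZMod p) :=
    { toFun := fun a i => f (Additive.ofMul (cj i.val (Additive.toMul a)))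
      map_zero' := by funext i; simp
      map_add' := fun a b => by funext i; simp }
  have hψeq : ∀ (a : A) (i : ZMod p), ψ (Additive.ofMul a) i = f (Additive.ofMul (cj i.val a)) :=
    fun _ _ => rfl
  have hshift : ∀ (a : A) (k : ZMod p),
      (fun i => ψ (Additive.ofMul a) (i + k)) = ψ (Additive.ofMul (cj k.val a)) := by
    intro a k
    funext i
    rw [hψeq, hψeq, ← hcj_add, hcj_mod (k.val + i.val), add_comm i k, ZMod.val_add]
  set v := ψ (Additive.ofMul (⟨x, hx⟩ : A)) with hv
  have hsum : ∑ i, v i ≠ 0 := by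
    have e : ∑ i, v i = f (Additive.ofMul N) := by
      rw [hN, ofMul_list_prod, map_list_sum, List.map_map, List.map_map]
      have h1 : ∑ i : ZMod p, v i =
          ∑ n ∈ Finset.range p, f (Additive.ofMul (cj n ⟨x, hx⟩)) := by
        refine Finset.sum_bij (fun i _ => i.val) (fun i _ => Finset.mem_range.mpr (ZMod.val_lt i))
          (fun a _ b _ h => ZMod.val_injective p h)
          (fun n hn => ⟨(n : ZMod p), Finset.mem_univ _,
            ZMod.val_cast_of_lt (Finset.mem_range.mp hn)⟩) (fun i _ => rfl)
      rw [h1, ← List.toFinset_range, List.sum_toFinset _ List.nodup_range]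
      rfl
    rw [e]; exact hf
  have hψsurj : Function.Surjective ψ := by
    have := shift_generates (AddSubgroup.toZModSubmodule p ψ.range) v
      (fun k => ⟨Additive.ofMul (cj k.val ⟨x, hx⟩), (hshift _ k).symm⟩) hsum
    intro u
    have hu : u ∈ AddSubgroup.toZModSubmodule p ψ.range := this ▸ Submodule.mem_top
    exact hu
  -- the monomial representation
  let g : A →* Multiplicative (ZMod p) :=
    { toFun := fun a => Multiplicative.ofAdd (f (Additive.ofMul a))
      map_one' := by simp
      map_mul' := fun a b => by simp }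
  have hfsurj : Function.Surjective f := by
    intro c
    refine ⟨(c * (f (Additive.ofMul N))⁻¹).val • Additive.ofMul N, ?_⟩
    rw [map_nsmul, nsmul_eq_mul, ZMod.natCast_zmod_val, mul_assoc, inv_mul_cancel₀ hf, mul_one]
  have hgsurj : Function.Surjective g := fun c => by
    obtain ⟨a, ha⟩ := hfsurj (Multiplicative.toAdd c)
    exact ⟨Additive.toMul a, congrArg Multiplicative.ofAdd ha⟩
  set B : Subgroup P := g.ker.map A.subtype with hB
  have hgi : g.ker.index = p := by
    rw [Subgroup.index_ker, MonoidHom.range_eq_top.mpr hgsurj, Subgroup.card_top]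
    simp
  have hBidx : B.index = p ^ 2 := by
    rw [hB, Subgroup.index_map_subtype, hgi, hidx, sq]
  let φ := MulAction.toPermHom P (P ⧸ B)
  -- the kernel is small
  have hker : φ.ker ≤ ((AddSubgroup.toSubgroup' ψ.ker).map A.subtype) := by
    intro k hk
    rw [← Subgroup.normalCore_eq_ker] at hk
    have hkA : k ∈ A := Subgroup.map_subtype_le _ (Subgroup.normalCore_le B hk)
    refine ⟨⟨k, hkA⟩, ?_, rfl⟩
    show ψ (Additive.ofMul (⟨k, hkA⟩ : A)) = 0
    funext i
    have h1 : (y ^ i.val)⁻¹ * k * y ^ i.val ∈ B := Subgroup.normalCore_le B (by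
      simpa using (Subgroup.normalCore_normal B).conj_mem k hk (y ^ i.val)⁻¹)
    obtain ⟨b, hb, hbe⟩ := h1
    have : b = cj i.val ⟨k, hkA⟩ := Subtype.ext hbe
    rw [this] at hb
    exact Multiplicative.ofAdd.injective hb
  have hKidx : ((AddSubgroup.toSubgroup' ψ.ker).map A.subtype).index = p ^ (p + 1) := by
    rw [Subgroup.index_map_subtype, hidx]
    have : (AddSubgroup.toSubgroup' ψ.ker).index = p ^ p := by
      have h1 : ψ.ker.index = p ^ p := by
        rw [AddSubgroup.index_ker, AddMonoidHom.range_eq_top.mpr hψsurj, AddSubgroup.card_top,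
          Nat.card_fun, Nat.card_zmod]
      exact h1
    rw [this, pow_succ]
  let e : Equiv.Perm (P ⧸ B) →* Equiv.Perm (Fin (p ^ 2)) :=
    ((Finite.equivFinOfCardEq (α := P ⧸ B) hBidx).permCongrHom).toMonoidHom
  let F := e.comp φ
  obtain ⟨Q, hQ⟩ := (hP.to_subgroup ⊤).map F |>.exists_le_sylow
  refine ⟨Q, (Subgroup.inclusion hQ).comp ((F.subgroupMap ⊤).comp Subgroup.topEquiv.symm.toMonoidHom), ?_⟩
  have hFker : F.ker = φ.ker := by
    ext z
    simp only [F, MonoidHom.mem_ker, MonoidHom.comp_apply]
    exact map_eq_one_iff _ ((Finite.equivFinOfCardEq (α := P ⧸ B) hBidx).permCongrHom).injective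
  have hcard : Nat.card ↥(Q : Subgroup (Equiv.Perm (Fin (p ^ 2)))) ≤ Nat.card ↥((⊤ : Subgroup P).map F) := by
    have h1 : Nat.card ↥((⊤ : Subgroup P).map F) = F.ker.index := by
      rw [← MonoidHom.range_eq_map, Subgroup.index_ker]
    rw [h1, hFker, Q.card_eq_multiplicity]
    have h2 : p ^ (p + 1) ≤ φ.ker.index := hKidx ▸ Subgroup.index_antitone hker
    refine le_trans (le_of_eq ?_) h2
    congr 1
    rw [Nat.card_perm, Nat.card_fin, sq, Nat.factorization_factorial_mul hp]
    have : (p.factorial).factorization p = 1 := by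
      have := Nat.factorization_factorial_mul hp (n := 1)
      simpa using this
    omega
  have hsur : Function.Surjective (Subgroup.inclusion hQ) := by
    intro z
    have : (z : Equiv.Perm (Fin (p ^ 2))) ∈ (⊤ : Subgroup P).map F := by
      rw [Subgroup.eq_of_le_of_card_ge hQ hcard]; exact z.2
    exact ⟨⟨_, this⟩, rfl⟩
  exact hsur.comp ((F.subgroupMap_surjective ⊤).comp Subgroup.topEquiv.symm.surjective)

end Cfsg.Agent.S1952
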