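import Cfsg.Statements.S1953
import Cfsg.Agent.Lib.QdFree.AutFree
import Cfsg.Agent.Lib.QdFree.Ascend

set_option autoImplicit false
open Cfsg

namespace Cfsg.Agent.S1953

universe u

open CfsgLib.PushUp (cmap conj_mem_cmap cmap_eq_of_mem_normalizer mem_normalizer_of_cmap_eq)

/-- The hypothesis says that no automizer of a `p`-subgroup involves `SL₂(p)`. -/
theorem isSLAutFree_of_hfree {G : Type u} [Group G] [Finite G] {p : ℕ}
    (hfree : ∀ Q : Subgroup G, IsPGroup p ↥Q → ¬ ∃ (H K : Subgroup G) (_ : (K.subgroupOf H).Normal),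
      Subgroup.centralizer (Q : Set G) ≤ K ∧ K ≤ H ∧ H ≤ Subgroup.normalizer (Q : Set G) ∧
      Nonempty ((↥H ⧸ K.subgroupOf H) ≃* Matrix.SpecialLinearGroup (Fin 2) (ZMod p))) :
    CfsgLib.QdFree.IsSLAutFree p G := by
  intro Q hQ hinv
  refine hfree Q hQ ?_
  obtain ⟨K, f, hf⟩ := CfsgLib.Amalgams.exists_surjective_of_involves hinv
  set N := Subgroup.normalizer (Q : Set G) with hN
  set ρ := (Subgroup.normalizerMonoidHom Q).rangeRestrict with hρ
  let K' : Subgroup N := K.comap ρ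
  let f' : K' →* Matrix.SpecialLinearGroup (Fin 2) (ZMod p) := f.comp (ρ.subgroupComap K)
  have hf' : Function.Surjective f' := fun y => by
    obtain ⟨k, rfl⟩ := hf y
    obtain ⟨n, hn⟩ := MonoidHom.rangeRestrict_surjective (Subgroup.normalizerMonoidHom Q) k
    exact ⟨⟨n, show ρ n ∈ K by rw [hρ, hn]; exact k.2⟩, congrArg f (Subtype.ext hn)⟩
  let H : Subgroup G := K'.map N.subtype
  let e : K' ≃* H := Subgroup.equivMapOfInjective K' N.subtype N.subtype_injective
  let φ : H →* _ := f'.comp e.symm.toMonoidHom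
  have hφ : Function.Surjective φ := hf'.comp e.symm.surjective
  have hK : (φ.ker.map H.subtype).subgroupOf H = φ.ker := by
    rw [Subgroup.subgroupOf, Subgroup.comap_map_eq_self_of_injective H.subtype_injective]
  have hnK : ((φ.ker.map H.subtype).subgroupOf H).Normal := hK.symm ▸ MonoidHom.normal_ker φ
  refine ⟨H, φ.ker.map H.subtype, hnK, ?_, Subgroup.map_subtype_le _,
    Subgroup.map_subtype_le _, ⟨(QuotientGroup.quotientMulEquivOfEq hK).trans
      (QuotientGroup.quotientKerEquivOfSurjective φ hφ)⟩⟩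
  intro c hc
  have hcN : c ∈ N := Subgroup.centralizer_le_normalizer _ hc
  have h1 : ρ ⟨c, hcN⟩ = 1 := by
    rw [hρ, ← MonoidHom.mem_ker, MonoidHom.ker_rangeRestrict, CfsgLib.QdFree.mem_ker_normalizerMonoidHom]
    exact fun q hq => Subgroup.mem_centralizer_iff.1 hc q hq
  have hcK : (⟨c, hcN⟩ : N) ∈ K' := show ρ ⟨c, hcN⟩ ∈ K by rw [h1]; exact one_mem _
  refine ⟨⟨c, ⟨⟨c, hcN⟩, hcK, rfl⟩⟩, ?_, rfl⟩
  rw [SetLike.mem_coe, MonoidHom.mem_ker]
  show f' (e.symm _) = 1
  rw [show (⟨c, ⟨⟨c, hcN⟩, hcK, rfl⟩⟩ : H) = e ⟨⟨c, hcN⟩, hcK⟩ from rfl, MulEquiv.symm_apply_apply]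
  show f (ρ.subgroupComap K ⟨⟨c, hcN⟩, hcK⟩) = 1
  rw [show ρ.subgroupComap K ⟨⟨c, hcN⟩, hcK⟩ = 1 from Subtype.ext h1, map_one]

/-- Conjugation inside a subgroup. -/
theorem cmap_subgroupOf_le {G : Type u} [Group G] {H A B : Subgroup G} {h : H}
    (hle : cmap (h : G) A ≤ B) : cmap h (A.subgroupOf H) ≤ B.subgroupOf H := by
  rintro _ ⟨a, ha, rfl⟩
  exact hle (conj_mem_cmap (g := (h : G)) ha)

/-- Let p be an odd prime and P a Sylow p-subgroup of the finite group G, and suppose that for no p-subgroup Q of G does N_G(Q)/C_G(Q) have a section isomorphic to SL₂(p). Call a subgroup Q of P centric-radical when Z(Q) is a Sylow p-subgroup of C_G(Q) and the only normal subgroup X of N_G(Q) containing Q·C_G(Q) such that the index of Q·C_G(Q) in X is a power of p is Q·C_G(Q) itself (that is, N_G(Q)/Q·C_G(Q) has no nontrivial normal p-subgroup). Then there is a centric-radical subgroup Q of P contained in every centric-radical subgroup of P; it is normal in P, and N_G(Q)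 controls strong fusion in P: whenever a subgroup A of P has g A g⁻¹ ≤ P, the element g is a product h c with h in N_G(Q) and c centralizing A. -/
theorem result {G : Type*} [Group G] [Finite G] {p : ℕ} [Fact p.Prime] (hp : p ≠ 2) (P : Sylow p G)
    (hfree : ∀ Q : Subgroup G, IsPGroup p ↥Q → ¬ ∃ (H K : Subgroup G) (_ : (K.subgroupOf H).Normal),
      Subgroup.centralizer (Q : Set G) ≤ K ∧ K ≤ H ∧ H ≤ Subgroup.normalizer (Q : Set G) ∧
      Nonempty ((↥H ⧸ K.subgroupOf H) ≃* Matrix.SpecialLinearGroup (Fin 2) (ZMod p)))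
    (cr : Subgroup G → Prop)
    (hcr : ∀ Q : Subgroup G, cr Q ↔ (Q ≤ (P : Subgroup G) ∧
      (∃ R : Sylow p ↥(Subgroup.centralizer (Q : Set G)),
        (R : Subgroup ↥(Subgroup.centralizer (Q : Set G))).map (Subgroup.centralizer (Q : Set G)).subtype = Q ⊓ Subgroup.centralizer (Q : Set G)) ∧
      ∀ X : Subgroup G, X ≤ Subgroup.normalizer (Q : Set G) →
        (∀ n ∈ Subgroup.normalizer (Q : Set G), X.map (MulAut.conj n).toMonoidHom = X) →
        Q ⊔ Subgroup.centralizer (Q : Set G) ≤ X → (∃ k : ℕ, (Q ⊔ Subgroup.centralizer (Q : Set G)).relIndex X = p ^ k) →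
        X = Q ⊔ Subgroup.centralizer (Q : Set G))) :
    ∃ Q : Subgroup G, cr Q ∧ (∀ R : Subgroup G, cr R → Q ≤ R) ∧ (∀ x ∈ (P : Subgroup G), Q.map (MulAut.conj x).toMonoidHom = Q) ∧
      ∀ A : Subgroup G, A ≤ (P : Subgroup G) → ∀ g : G, A.map (MulAut.conj g).toMonoidHom ≤ (P : Subgroup G) →
        ∃ h ∈ Subgroup.normalizer (Q : Set G), ∃ c ∈ Subgroup.centralizer (A : Set G), g = h * c := by
  classical
  set Ctrl : Subgroup G → Prop := fun Q => Q ≤ (P : Subgroup G) ∧
    (P : Subgroup G) ≤ Subgroup.normalizer (Q : Set G) ∧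
    ∀ A : Subgroup G, A ≤ (P : Subgroup G) → ∀ g : G, cmap g A ≤ (P : Subgroup G) →
      ∃ h ∈ Subgroup.normalizer (Q : Set G), ∀ a ∈ A, h * a * h⁻¹ = g * a * g⁻¹ with hCtrl
  obtain ⟨Q, ⟨hQP, hPQ, hctl⟩, hmax⟩ := (Set.toFinite {Q : Subgroup G | Ctrl Q}).exists_maximal
    ⟨⊥, bot_le, by rw [Subgroup.normalizer_eq_top]; exact le_top,
      fun A _ g _ => ⟨g, by rw [Subgroup.normalizer_eq_top]; trivial, fun _ _ => rfl⟩⟩
  set N := Subgroup.normalizer (Q : Set G) with hN
  let PN : Sylow p N := P.subtype hPQ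
  have hQN : Q ≤ N := Subgroup.le_normalizer
  haveI : (Q.subgroupOf N).Normal := Subgroup.normal_in_normalizer
  have hQp : IsPGroup p (Q.subgroupOf N) :=
    (P.2.to_le hQP).of_equiv (Subgroup.subgroupOfEquivOfLe hQN).symm
  -- enlarging `Q` through a subgroup of `N`
  have hlift : ∀ R : Subgroup N, R ≤ (PN : Subgroup N) → Q.subgroupOf N ≤ R →
      (PN : Subgroup N) ≤ Subgroup.normalizer (R : Set N) →
      (∀ T : Subgroup N, T ≤ (PN : Subgroup N) → ∀ g : N, cmap g T ≤ (PN : Subgroup N) →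
        ∃ x ∈ Subgroup.normalizer (R : Set N), ∀ t ∈ T, x * t * x⁻¹ = g * t * g⁻¹) →
      R = Q.subgroupOf N := by
    intro R hRP hQR hPR hR
    refine le_antisymm ?_ hQR
    have hC : Ctrl (R.map N.subtype) := by
      refine ⟨?_, fun s hs => Subgroup.le_normalizer_map N.subtype
        ⟨⟨s, hPQ hs⟩, hPR (show (⟨s, hPQ hs⟩ : N) ∈ (PN : Subgroup N) by
          rw [Sylow.coe_subtype]; exact hs), rfl⟩, fun A hA g hg => ?_⟩
      · rintro _ ⟨r, hr, rfl⟩
        have := hRP hr
        rwa [Sylow.coe_subtype] at this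
      · obtain ⟨h, hh, hhe⟩ := hctl A hA g hg
        obtain ⟨x, hx, hxe⟩ := hR (A.subgroupOf N) (by
            rw [Sylow.coe_subtype]; exact fun a ha => hA ha) ⟨h, hh⟩ (by
            rw [Sylow.coe_subtype]
            refine cmap_subgroupOf_le ?_
            rintro _ ⟨a, ha, rfl⟩
            show h * a * h⁻¹ ∈ (P : Subgroup G)
            rw [hhe a ha]
            exact hg (conj_mem_cmap ha))
        refine ⟨x, Subgroup.le_normalizer_map N.subtype ⟨x, hx, rfl⟩, fun a ha => ?_⟩
        exact (congrArg Subtype.val (hxe ⟨a, hPQ (hA ha)⟩ ha)).trans (hhe a ha)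
    intro r hr
    exact hmax hC (fun q hq => ⟨⟨q, hQN hq⟩, hQR hq, rfl⟩) ⟨r, hr, rfl⟩
  -- `Q` contains its centralizer in `P`
  set C := Subgroup.centralizer (Q : Set G) with hC
  have hCN : C ≤ N := Subgroup.centralizer_le_normalizer _
  have hCeq : Subgroup.centralizer ((Q.subgroupOf N : Subgroup N) : Set N) = C.subgroupOf N := by
    ext x
    rw [Subgroup.mem_centralizer_iff, Subgroup.mem_subgroupOf, hC, Subgroup.mem_centralizer_iff]
    exact ⟨fun h q hq => congrArg Subtype.val (h ⟨q, hQN hq⟩ hq), fun h q hq => Subtype.ext (h q hq)⟩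
  have hcenN : (PN : Subgroup N) ⊓ Subgroup.centralizer ((Q.subgroupOf N : Subgroup N) : Set N) ≤
      Q.subgroupOf N := by
    by_contra hne
    obtain ⟨R, hQR, hRP, hPR, hR⟩ := CfsgLib.QdFree.exists_larger_control hp
      (CfsgLib.QdFree.isStableClass_isSLAutFree hp)
      ((isSLAutFree_of_hfree hfree).subgroup N) PN hQp hne
    exact hQR.ne (hlift R hRP hQR.le hPR hR).symm
  have hcen : (P : Subgroup G) ⊓ C ≤ Q := fun z hz => by
    refine hcenN (x := ⟨z, hCN hz.2⟩) ⟨?_, ?_⟩
    · show (⟨z, hCN hz.2⟩ : N) ∈ (PN : Subgroup N)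
      rw [Sylow.coe_subtype]; exact hz.1
    · show (⟨z, hCN hz.2⟩ : N) ∈ Subgroup.centralizer _
      rw [hCeq]; exact hz.2
  haveI : (C.subgroupOf N).Normal := hCeq ▸ inferInstance
  have hQC : IsPGroup p (Q ⊓ C : Subgroup G) := P.2.to_le (inf_le_left.trans hQP)
  -- `Q` is the Sylow subgroup of `O_{p',p}(N)`
  have hQcore : Q.subgroupOf N ≤ Cfsg.pCore p N := CfsgLib.Cores.le_pCore hQp
  have hcon : Cfsg.IsPConstrained p N := CfsgLib.Replacement.isPConstrained_of_inf_centralizer_le PN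
    ((inf_le_inf_left _ (Subgroup.centralizer_le (SetLike.coe_subset_coe.2 hQcore))).trans
      (hcenN.trans hQcore))
  set O := Cfsg.pPrimePCore p N with hO
  have hQO : Q.subgroupOf N ≤ O := fun q hq =>
    CfsgLib.Cores.map_pCore_le_of_surjective (QuotientGroup.mk'_surjective (Cfsg.pPrimeCore p N))
      ⟨q, hQcore hq, rfl⟩
  have hPO : (PN : Subgroup N) ⊓ O = Q.subgroupOf N := by
    refine hlift _ inf_le_left (le_inf ?_ hQO) (CfsgLib.PushUp.sylow_le_normalizer_inf PN)
      fun T hT g hg => CfsgLib.PushUp.exists_normalizer_conj_eq PN hT hg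
    rw [Sylow.coe_subtype]; exact fun q hq => hQP hq
  have hCO : C.subgroupOf N ≤ O := by
    intro c hc
    set π := QuotientGroup.mk' (Cfsg.pPrimeCore p N) with hπ
    refine (CfsgLib.SectRank.isPConstrained_iff.1 hcon) (Subgroup.mem_centralizer_iff.2 fun v hv => ?_)
    have hvS : v ∈ (PN.mapSurjective (QuotientGroup.mk'_surjective (Cfsg.pPrimeCore p N)) : Subgroup _) :=
      (CfsgLib.Cores.isPGroup_pCore p _).le_sylow_of_normal _ hv
    obtain ⟨s, hs, rfl⟩ := hvS
    have hsQ : s ∈ Q.subgroupOf N := hPO.le ⟨hs, hv⟩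
    have hc' : c ∈ Subgroup.centralizer ((Q.subgroupOf N : Subgroup N) : Set N) := by rw [hCeq]; exact hc
    rw [← map_mul, ← map_mul, Subgroup.mem_centralizer_iff.1 hc' s hsQ]
  refine ⟨Q, (hcr Q).2 ⟨hQP, ?_, ?_⟩, ?_, fun x hx => cmap_eq_of_mem_normalizer (hPQ hx), fun A hA g hg => ?_⟩
  · -- centric
    have hle : Q ⊓ C ≤ C := inf_le_right
    have hp1 : IsPGroup p ((Q ⊓ C).subgroupOf C) := hQC.of_equiv (Subgroup.subgroupOfEquivOfLe hle).symm
    have hi : ¬ p ∣ ((Q ⊓ C).subgroupOf C).index := by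
      have h1 := CfsgLib.Replacement.not_dvd_relIndex_inf_normal PN (C.subgroupOf N)
      have h2 : ((PN : Subgroup N) ⊓ C.subgroupOf N).map N.subtype = Q ⊓ C := by
        rw [Sylow.coe_subtype, Subgroup.map_inf _ _ _ N.subtype_injective,
          Subgroup.map_subgroupOf_eq_of_le hPQ, Subgroup.map_subgroupOf_eq_of_le hCN]
        exact le_antisymm (le_inf hcen inf_le_right) (inf_le_inf_right C hQP)
      rwa [← Subgroup.relIndex_map_map_of_injective _ _ N.subtype_injective, h2,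
        Subgroup.map_subgroupOf_eq_of_le hCN] at h1
    exact ⟨hp1.toSylow hi, Subgroup.map_subgroupOf_eq_of_le hle⟩
  · -- radical
    intro X hXN hXn hQX hk
    obtain ⟨k, hk⟩ := hk
    refine le_antisymm ?_ hQX
    haveI : (X.subgroupOf N).Normal := ⟨fun x hx n => by
      show (n : G) * x * (n : G)⁻¹ ∈ X
      rw [← hXn n n.2]
      exact conj_mem_cmap (g := (n : G)) hx⟩
    set QC := (Q ⊔ C).subgroupOf N with hQCdef
    haveI : QC.Normal := by
      rw [hQCdef, Subgroup.subgroupOf_sup hQN hCN]; infer_instance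
    have hQCO : QC ≤ O := by rw [hQCdef, Subgroup.subgroupOf_sup hQN hCN]; exact sup_le hQO hCO
    have hki : QC.relIndex (X.subgroupOf N) = p ^ k := by
      rw [← Subgroup.relIndex_map_map_of_injective _ _ N.subtype_injective,
        Subgroup.map_subgroupOf_eq_of_le (sup_le hQN hCN), Subgroup.map_subgroupOf_eq_of_le hXN, hk]
    have hXO : X.subgroupOf N ≤ O := by
      refine (Subgroup.map_le_iff_le_comap (f := QuotientGroup.mk' (Cfsg.pPrimeCore p N))).1 ?_
      haveI : ((X.subgroupOf N).map (QuotientGroup.mk' (Cfsg.pPrimeCore p N))).Normal :=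
        Subgroup.Normal.map inferInstance _ (QuotientGroup.mk'_surjective _)
      refine CfsgLib.Cores.le_pCore ?_
      rintro ⟨_, x, hx, rfl⟩
      have h1 : x ^ p ^ k ∈ QC := by
        have := Subgroup.pow_index_mem (QC.subgroupOf (X.subgroupOf N)) ⟨x, hx⟩
        rw [← Subgroup.relIndex, hki] at this
        exact this
      obtain ⟨i, hi⟩ := CfsgLib.Cores.isPGroup_pCore p (N ⧸ Cfsg.pPrimeCore p N) ⟨_, hQCO h1⟩
      refine ⟨k + i, Subtype.ext ?_⟩
      have h2 := congrArg Subtype.val hi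
      show (QuotientGroup.mk' (Cfsg.pPrimeCore p N) x) ^ p ^ (k + i) = 1
      rw [pow_add, pow_mul, ← map_pow]
      exact h2
    have hsup : QC ⊔ ((PN : Subgroup N) ⊓ X.subgroupOf N) = X.subgroupOf N := by
      have hle1 : QC ≤ X.subgroupOf N := fun z hz => hQX hz
      refine le_antisymm (sup_le hle1 inf_le_right) ?_
      rw [← Subgroup.relIndex_eq_one]
      refine Nat.eq_one_of_dvd_coprimes ?_ ((Subgroup.relIndex_dvd_of_le_left _ le_sup_left).trans hki.dvd) dvd_rfl
      refine Nat.Coprime.pow_left k ((Nat.Prime.coprime_iff_not_dvd Fact.out).2 fun hd => ?_)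
      exact CfsgLib.Replacement.not_dvd_relIndex_inf_normal PN (X.subgroupOf N)
        (hd.trans (Subgroup.relIndex_dvd_of_le_left _ le_sup_right))
    have hX2 : X.subgroupOf N ≤ QC := by
      rw [← hsup]
      refine sup_le le_rfl ((inf_le_inf_left _ hXO).trans (hPO.le.trans ?_))
      exact fun z hz => Subgroup.mem_sup_left hz
    intro x hx
    exact hX2 (x := ⟨x, hXN hx⟩) hx
  · -- contained in every centric radical subgroup
    intro R hR
    set CR := Subgroup.centralizer (R : Set G) with hCR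
    set NR := Subgroup.normalizer (R : Set G) with hNR
    have hCRN : CR ≤ NR := Subgroup.centralizer_le_normalizer _
    obtain ⟨hRP, ⟨RS, hRS⟩, hRrad⟩ := (hcr R).1 hR
    set Y := NR ⊓ (Q ⊔ R) with hY
    have hYP : Y ≤ (P : Subgroup G) := inf_le_right.trans (sup_le hQP hRP)
    have hRY : R ≤ Y := le_inf Subgroup.le_normalizer le_sup_right
    set X := Y ⊔ CR with hX
    have hXN : X ≤ NR := sup_le inf_le_left hCRN
    have hCn' : ∀ n ∈ NR, ∀ z ∈ CR, n * z * n⁻¹ ∈ CR := fun n hn z hz =>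
      Subgroup.mem_centralizer_iff.2 fun r hr => by
        have h1 := Subgroup.mem_centralizer_iff.1 hz _ ((Subgroup.mem_normalizer_iff''.1 hn r).1 hr)
        calc r * (n * z * n⁻¹) = n * ((n⁻¹ * r * n) * z) * n⁻¹ := by group
          _ = n * (z * (n⁻¹ * r * n)) * n⁻¹ := by rw [h1]
          _ = n * z * n⁻¹ * r := by group
    have hXn : ∀ n ∈ NR, cmap n X = X := by
      have key : ∀ n ∈ NR, cmap n X ≤ X := by
        intro n hn
        have hCn : cmap n CR ≤ CR := by
          rintro _ ⟨z, hz, rfl⟩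
          exact hCn' n hn z hz
        obtain ⟨h, hh, hhe⟩ := hctl R hRP n (by rw [cmap_eq_of_mem_normalizer hn]; exact hRP)
        have hhR : h ∈ NR := Subgroup.mem_normalizer_fintype fun r hr => by
          rw [hhe r hr]; exact (Subgroup.mem_normalizer_iff.1 hn r).1 hr
        have hcC : h⁻¹ * n ∈ CR := Subgroup.mem_centralizer_iff.2 fun r hr => by
          have h1 := hhe r hr
          calc r * (h⁻¹ * n) = h⁻¹ * (h * r * h⁻¹) * n := by group
            _ = h⁻¹ * (n * r * n⁻¹) * n := by rw [h1]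
            _ = h⁻¹ * n * r := by group
        rw [hX, cmap, Subgroup.map_sup]
        refine sup_le ?_ (hCn.trans le_sup_right)
        rintro _ ⟨y, hy, rfl⟩
        set c := h⁻¹ * n
        have hyy : h * (c * y * c⁻¹) * h⁻¹ = n * y * n⁻¹ := by simp only [c]; group
        have hcy : c * y * c⁻¹ * y⁻¹ ∈ CR := by
          have : y * c⁻¹ * y⁻¹ ∈ CR := hCn' y hy.1 c⁻¹ (inv_mem hcC)
          simpa [mul_assoc] using mul_mem hcC this
        have hhy : h * y * h⁻¹ ∈ Y := ⟨NR.mul_mem (NR.mul_mem hhR hy.1) (NR.inv_mem hhR), by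
          have h2 : cmap h (Q ⊔ R) = Q ⊔ R := by
            rw [cmap, Subgroup.map_sup]
            exact congrArg₂ (· ⊔ ·) (cmap_eq_of_mem_normalizer hh) (cmap_eq_of_mem_normalizer hhR)
          exact h2.le (conj_mem_cmap hy.2)⟩
        have hhc : h * (c * y * c⁻¹ * y⁻¹) * h⁻¹ ∈ CR := hCn' h hhR _ hcy
        show n * y * n⁻¹ ∈ X
        rw [← hyy, show h * (c * y * c⁻¹) * h⁻¹ = h * (c * y * c⁻¹ * y⁻¹) * h⁻¹ * (h * y * h⁻¹) by group]
        exact mul_mem (Subgroup.mem_sup_right hhc) (Subgroup.mem_sup_left hhy)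
      intro n hn
      exact Subgroup.eq_of_le_of_card_ge (key n hn) (CfsgLib.PushUp.card_cmap n X).ge
    have hidx : ∃ k : ℕ, (R ⊔ CR).relIndex X = p ^ k := by
      let S0 : Subgroup NR := (R ⊔ CR).subgroupOf NR
      haveI : (R.subgroupOf NR).Normal := Subgroup.normal_in_normalizer
      haveI : (CR.subgroupOf NR).Normal := ⟨fun z hz n => hCn' n n.2 _ hz⟩
      haveI : S0.Normal := by
        simp only [S0]
        rw [Subgroup.subgroupOf_sup Subgroup.le_normalizer hCRN]; infer_instance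
      have e1 : (R ⊔ CR).relIndex X = S0.relIndex (X.subgroupOf NR) := by
        rw [← Subgroup.relIndex_map_map_of_injective S0 _ NR.subtype_injective,
          Subgroup.map_subgroupOf_eq_of_le (sup_le Subgroup.le_normalizer hCRN),
          Subgroup.map_subgroupOf_eq_of_le hXN]
      have e2 : (X.subgroupOf NR).map (QuotientGroup.mk' S0) = (Y.subgroupOf NR).map (QuotientGroup.mk' S0) := by
        rw [hX, Subgroup.subgroupOf_sup inf_le_left hCRN, Subgroup.map_sup, sup_eq_left]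
        refine le_trans ?_ bot_le
        rw [Subgroup.map_le_iff_le_comap, MonoidHom.comap_bot, QuotientGroup.ker_mk']
        exact fun z hz => Subgroup.mem_sup_right hz
      have e3 : IsPGroup p ((Y.subgroupOf NR).map (QuotientGroup.mk' S0)) :=
        ((P.2.to_le hYP).of_equiv (Subgroup.subgroupOfEquivOfLe inf_le_left).symm).map _
      obtain ⟨k, hk⟩ := IsPGroup.iff_card.1 e3
      refine ⟨k, ?_⟩
      rw [e1, ← hk, ← e2, ← Subgroup.relIndex_ker, QuotientGroup.ker_mk']
    have hXeq := hRrad X hXN (fun n hn => hXn n hn) (sup_le_sup_right hRY _) hidx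
    have hYR : Y ≤ R := by
      intro y hy
      have hy' : y ∈ R ⊔ CR := by rw [← hXeq]; exact Subgroup.mem_sup_left hy
      rw [← SetLike.mem_coe, Subgroup.coe_mul_of_right_le_normalizer_left R CR hCRN] at hy'
      obtain ⟨r, hr, c, hc, rfl⟩ := Set.mem_mul.1 hy'
      have hcP : c ∈ (P : Subgroup G) := by
        have := mul_mem (inv_mem (hRP hr)) (hYP hy)
        rwa [inv_mul_cancel_left] at this
      have hb : IsPGroup p (((P : Subgroup G) ⊓ CR).subgroupOf CR) :=
        (P.2.to_le inf_le_left).of_equiv (Subgroup.subgroupOfEquivOfLe inf_le_right).symm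
      have hle : (RS : Subgroup CR) ≤ ((P : Subgroup G) ⊓ CR).subgroupOf CR := fun z hz =>
        ⟨hRP (hRS.le ⟨z, hz, rfl⟩).1, z.2⟩
      have heq := RS.3 hb hle
      have hcR : (⟨c, hc⟩ : CR) ∈ (RS : Subgroup CR) := by rw [← heq]; exact ⟨hcP, hc⟩
      exact mul_mem hr (hRS.le ⟨_, hcR, rfl⟩).1
    have hRQR : R = Q ⊔ R := by
      by_contra hne
      set J := Q ⊔ R with hJ
      haveI := (P.2.to_le (sup_le hQP hRP : J ≤ (P : Subgroup G))).isNilpotent
      have hRlt : R.subgroupOf J < ⊤ := lt_top_iff_ne_top.2 fun h => hne (le_antisymm le_sup_right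
        (Subgroup.subgroupOf_eq_top.1 h))
      have := normalizerCondition_of_isNilpotent (R.subgroupOf J) hRlt
      obtain ⟨z, hzN, hzR⟩ := SetLike.exists_of_lt this
      refine hzR (hYR ⟨?_, z.2⟩)
      refine Subgroup.mem_normalizer_fintype fun r hr => ?_
      exact (Subgroup.mem_normalizer_iff.1 hzN ⟨r, (le_sup_right : R ≤ J) hr⟩).1 hr
    rw [hRQR]
    exact le_sup_left
  · obtain ⟨h, hh, hhe⟩ := hctl A hA g hg
    refine ⟨h, hh, h⁻¹ * g, Subgroup.mem_centralizer_iff.2 fun a ha => ?_, by group⟩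
    calc a * (h⁻¹ * g) = h⁻¹ * (h * a * h⁻¹) * g := by group
      _ = h⁻¹ * (g * a * g⁻¹) * g := by rw [hhe a ha]
      _ = h⁻¹ * g * a := by group


end Cfsg.Agent.S1953
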