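import Cfsg.Statements.S1954
import Mathlib
import Cfsg.Agent.Lib.PushUp.ConjFunctor
import Cfsg.Agent.Lib.FFModules.PLocalBasic
import Cfsg.Agent.Lib.NormalPComplement.Basic

set_option autoImplicit false
open Cfsg

namespace Cfsg.Agent.S1954

open Subgroup CfsgLib.PushUp

section

variable {G : Type*} [Group G] [Finite G] {p : ℕ} [Fact p.Prime]

omit [Finite G] [Fact p.Prime] in
theorem cmap_of_normal (g : G) {N : Subgroup G} [N.Normal] : cmap g N = N :=
  cmap_eq_of_mem_normalizer (by rw [normalizer_eq_top]; trivial)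

omit [Finite G] [Fact p.Prime] in
theorem le_normalizer_centralizer {A : Subgroup G} {g : G} (hg : g ∈ normalizer (A : Set G)) :
    g ∈ normalizer ((centralizer (A : Set G) : Subgroup G) : Set G) := by
  have key : ∀ g ∈ normalizer (A : Set G), cmap g (centralizer (A : Set G)) ≤ centralizer (A : Set G) := by
    intro g hg
    rintro _ ⟨c, hc, rfl⟩
    refine mem_centralizer_iff.mpr fun a ha => ?_
    have h1 : g⁻¹ * a * g ∈ A := by
      rw [← mem_cmap, cmap_eq_of_mem_normalizer hg]; exact ha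
    show a * (g * c * g⁻¹) = g * c * g⁻¹ * a
    calc a * (g * c * g⁻¹) = g * ((g⁻¹ * a * g) * c) * g⁻¹ := by group
      _ = g * c * g⁻¹ * a := by rw [(mem_centralizer_iff.mp hc) _ h1]; group
  exact mem_normalizer_of_cmap_eq (le_antisymm (key g hg)
    (by simpa [cmap_cmap_inv] using cmap_mono g (key g⁻¹ (inv_mem hg))))

omit [Finite G] [Fact p.Prime] in
theorem conj_eq_of_centralizer {A : Subgroup G} {c a : G} (hc : c ∈ centralizer (A : Set G))
    (ha : a ∈ A) : c * a * c⁻¹ = a := by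
  rw [← (mem_centralizer_iff.mp hc) a ha, mul_inv_cancel_right]

omit [Finite G] [Fact p.Prime] in
theorem centralizer_le_normalizer (A : Subgroup G) : centralizer (A : Set G) ≤ normalizer (A : Set G) := by
  intro c hc
  apply mem_normalizer_of_cmap_eq
  have key : ∀ c ∈ centralizer (A : Set G), cmap c A ≤ A := by
    rintro c hc _ ⟨a, ha, rfl⟩
    show c * a * c⁻¹ ∈ A
    rw [conj_eq_of_centralizer hc ha]; exact ha
  exact le_antisymm (key c hc) (by simpa [cmap_cmap_inv] using cmap_mono c (key c⁻¹ (inv_mem hc)))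

/-- The relation: realised by an element of `N(W)`. -/
def WRel (W : Subgroup G) (T : Subgroup G) (g : G) : Prop :=
  ∃ h ∈ normalizer (W : Set G), ∀ a ∈ T, h * a * h⁻¹ = g * a * g⁻¹

omit [Finite G] [Fact p.Prime] in
theorem wRel_of_mem {W T : Subgroup G} {g : G} (hg : g ∈ normalizer (W : Set G)) : WRel W T g :=
  ⟨g, hg, fun _ _ => rfl⟩

omit [Finite G] [Fact p.Prime] in
theorem isFusionRel_wRel (S W : Subgroup G) : IsFusionRel S (WRel W) where
  mono := fun hle ⟨h, hh, e⟩ => ⟨h, hh, fun a ha => e a (hle ha)⟩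
  comp := by
    rintro T g k - - ⟨h1, hh1, e1⟩ ⟨h2, hh2, e2⟩
    refine ⟨h2 * h1, mul_mem hh2 hh1, fun a ha => ?_⟩
    calc h2 * h1 * a * (h2 * h1)⁻¹ = h2 * (h1 * a * h1⁻¹) * h2⁻¹ := by group
      _ = k * g * a * (k * g)⁻¹ := by rw [e1 a ha, e2 _ (conj_mem_cmap ha)]; group
  inv := by
    rintro T g - - ⟨h, hh, e⟩
    refine ⟨h⁻¹, inv_mem hh, ?_⟩
    rintro _ ⟨a, ha, rfl⟩
    show h⁻¹ * (g * a * g⁻¹) * h⁻¹⁻¹ = g⁻¹ * (g * a * g⁻¹) * g⁻¹⁻¹
    rw [← e a ha]
    nth_rewrite 2 [e a ha]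
    group

theorem exists_normalizer_not_mem {R Y : Subgroup G} (hY : IsPGroup p Y) (hRY : R < Y) :
    ∃ y ∈ Y, y ∈ normalizer (R : Set G) ∧ y ∉ R := by
  obtain ⟨S, hS⟩ := hY.exists_le_sylow
  obtain ⟨y, hyY, hyR⟩ : ∃ y ∈ Y ⊓ normalizer (R : Set G), y ∉ R := by
    haveI : Group.IsNilpotent Y := hY.isNilpotent
    have hlt : R.subgroupOf Y < ⊤ := by
      rw [lt_top_iff_ne_top, Ne, subgroupOf_eq_top]; exact fun h => hRY.not_ge h
    have hn := Group.normalizerCondition_of_isNilpotent _ hlt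
    obtain ⟨z, hz, hz'⟩ := SetLike.exists_of_lt hn
    refine ⟨z, ⟨z.2, ?_⟩, fun h => hz' (mem_subgroupOf.mpr h)⟩
    apply mem_normalizer_of_cmap_eq
    have h1 : cmap z (R.subgroupOf Y) = R.subgroupOf Y := cmap_eq_of_mem_normalizer hz
    ext w
    rw [mem_cmap]
    by_cases hw : w ∈ Y
    · have := SetLike.ext_iff.mp h1 ⟨w, hw⟩
      rw [mem_cmap] at this
      exact this
    · refine iff_of_false (fun h => hw ?_) (fun h => hw (hRY.le h))
      have := Y.mul_mem (Y.mul_mem z.2 (hRY.le h)) (Y.inv_mem z.2)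
      simpa [mul_assoc] using this
  exact ⟨y, hyY.1, hyY.2, hyR⟩

/-- A Sylow subgroup of the normal subgroup `K` of `M` cut out by a Sylow subgroup of `M`. -/
theorem not_dvd_relIndex_inf {R M K : Subgroup G} (hRM : R ≤ M) (hR : IsPGroup p R)
    (hi : ¬ p ∣ R.relIndex M) (hKM : K ≤ M) (hn : M ≤ normalizer (K : Set G)) :
    ¬ p ∣ (R ⊓ K).relIndex K := by
  have hKp : IsPGroup p (K.subgroupOf M ⊓ R.subgroupOf M : Subgroup M) :=
    ((hR.of_equiv (subgroupOfEquivOfLe hRM).symm)).to_le inf_le_right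
  haveI : (K.subgroupOf M).Normal := (normal_subgroupOf_iff_le_normalizer hKM).mpr hn
  intro hd
  apply hi
  set K' := K.subgroupOf M
  set R' := R.subgroupOf M
  have e1 : (R ⊓ K).relIndex K = R'.relIndex K' := by
    rw [inf_relIndex_right]
    exact (relIndex_subgroupOf hKM).symm
  have a1 := relIndex_mul_relIndex (R' ⊓ K') R' (R' ⊔ K') inf_le_left le_sup_left
  have a2 := relIndex_mul_relIndex (R' ⊓ K') K' (R' ⊔ K') inf_le_right le_sup_right
  rw [inf_relIndex_left] at a1
  rw [inf_relIndex_right, relIndex_sup_right, ← a1, mul_comm] at a2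
  have := Nat.eq_of_mul_eq_mul_left (Nat.pos_of_ne_zero index_ne_zero_of_finite) a2
  show p ∣ R'.index
  exact (e1 ▸ hd).trans (this ▸ relIndex_dvd_index_of_le le_sup_left)

variable (P : Sylow p G) {N W : Subgroup G} [N.Normal]

/-- Everything of larger order than `m` is realised. -/
def Big (W : Subgroup G) (m : ℕ) : Prop :=
  ∀ (A : Subgroup G) (g : G), m < Nat.card A → A ≤ (P : Subgroup G) → cmap g A ≤ (P : Subgroup G) → WRel W A g

omit [Fact p.Prime] in
theorem control_in_normal {T V : Subgroup G} (hV : V ≤ T)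
    (hW : W = closure (⋃ x ∈ normalizer (T : Set G), ((cmap x V : Subgroup G) : Set G)))
    (hctrl' : ∀ x ∈ normalizer (T : Set G), ∀ A : Subgroup G, A ≤ T → ∀ n ∈ N, cmap n A ≤ T →
      ∃ h ∈ N ⊓ normalizer ((cmap x V : Subgroup G) : Set G), ∃ c ∈ N ⊓ centralizer (A : Set G), n = h * c)
    {A : Subgroup G} (hA : A ≤ T) {n : G} (hn : n ∈ N) (hnA : cmap n A ≤ T) :
    ∃ h ∈ N ⊓ normalizer (W : Set G), ∃ c ∈ N ⊓ centralizer (A : Set G), n = h * c := by
  classical
  haveI : Fintype G := Fintype.ofFinite G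
  have key : ∀ s : Finset G, (∀ x ∈ s, x ∈ normalizer (T : Set G)) →
      ∃ h ∈ N, (∀ x ∈ s, h ∈ normalizer ((cmap x V : Subgroup G) : Set G)) ∧
        ∃ c ∈ N ⊓ centralizer (A : Set G), n = h * c := by
    intro s
    induction s using Finset.induction with
    | empty => exact fun _ => ⟨n, hn, by simp, 1, one_mem _, by simp⟩
    | @insert x s _ ih =>
      intro hs
      obtain ⟨h, hhN, hhs, c, hc, e⟩ := ih (fun y hy => hs y (Finset.mem_insert_of_mem hy))
      set B := A ⊔ s.sup (fun y => cmap y V) with hB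
      have hBT : B ≤ T := sup_le hA (Finset.sup_le fun y hy =>
        (cmap_mono y hV).trans (cmap_eq_of_mem_normalizer (hs y (Finset.mem_insert_of_mem hy))).le)
      have hhA : cmap h A ≤ T := by
        have : cmap n A = cmap h A := by
          rw [e, cmap_mul, cmap_eq_of_mem_normalizer (centralizer_le_normalizer A hc.2)]
        exact this ▸ hnA
      have hhB : cmap h B ≤ T := by
        rw [hB, cmap, Subgroup.map_sup]
        refine sup_le hhA ?_
        rw [← Subgroup.gc_map_comap _ |>.le_iff_le.symm]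
        refine Finset.sup_le fun y hy => ?_
        rw [← map_le_iff_le_comap]
        exact (cmap_eq_of_mem_normalizer (hhs y hy)).le.trans
          ((cmap_mono y hV).trans (cmap_eq_of_mem_normalizer (hs y (Finset.mem_insert_of_mem hy))).le)
      obtain ⟨h2, ⟨h2N, h2x⟩, c2, ⟨hc2N, hc2⟩, e2⟩ := hctrl' x (hs x (Finset.mem_insert_self x s)) B hBT h hhN hhB
      refine ⟨h2, h2N, ?_, c2 * c, ⟨mul_mem hc2N hc.1, mul_mem (centralizer_le (SetLike.coe_subset_coe.mpr le_sup_left) hc2) hc.2⟩, by rw [e, e2, mul_assoc]⟩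
      intro y hy
      rcases Finset.mem_insert.mp hy with rfl | hy
      · exact h2x
      · have : c2 ∈ normalizer ((cmap y V : Subgroup G) : Set G) := centralizer_le_normalizer _
          (centralizer_le (SetLike.coe_subset_coe.mpr
            ((Finset.le_sup (f := fun y => cmap y V) hy).trans le_sup_right)) hc2)
        have h3 := mul_mem (hhs y hy) (inv_mem this)
        rwa [e2, mul_inv_cancel_right] at h3
  obtain ⟨h, hhN, hhs, c, hc, e⟩ := key (Finset.univ.filter (· ∈ normalizer (T : Set G))) (fun x hx => (Finset.mem_filter.mp hx).2)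
  refine ⟨h, ⟨hhN, mem_normalizer_of_cmap_eq ?_⟩, c, hc, e⟩
  have key2 : ∀ k : G, (∀ x ∈ normalizer (T : Set G), k ∈ normalizer ((cmap x V : Subgroup G) : Set G)) →
      cmap k W ≤ W := by
    intro k hk
    rw [hW, cmap, MonoidHom.map_closure, closure_le]
    rintro _ ⟨y, hy, rfl⟩
    obtain ⟨x, hx, hy⟩ := Set.mem_iUnion₂.mp hy
    exact subset_closure (Set.mem_iUnion₂.mpr ⟨x, hx,
      (cmap_eq_of_mem_normalizer (hk x hx)).le (mem_map_of_mem _ hy)⟩)
  have hh' : ∀ x ∈ normalizer (T : Set G), h ∈ normalizer ((cmap x V : Subgroup G) : Set G) :=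
    fun x hx => hhs x (Finset.mem_filter.mpr ⟨Finset.mem_univ _, hx⟩)
  exact le_antisymm (key2 h hh')
    (by simpa [cmap_cmap_inv] using cmap_mono h (key2 h⁻¹ fun x hx => inv_mem (hh' x hx)))

theorem step_zero (hPW : (P : Subgroup G) ≤ normalizer (W : Set G)) {V' : Subgroup G}
    (hV' : IsFullyNormalized p (P : Subgroup G) V') {k : G} (hkN : k ∈ N)
    (hkC : k ∈ centralizer ((V' ⊓ N : Subgroup G) : Set G)) (hkn : k ∈ normalizer (V' : Set G)) :
    WRel W V' k := by
  set K := N ⊓ centralizer ((V' ⊓ N : Subgroup G) : Set G) ⊓ normalizer (V' : Set G) with hK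
  set CK := K ⊓ centralizer (V' : Set G)
  set SK := ((P : Subgroup G) ⊓ normalizer (V' : Set G)) ⊓ K
  have hKM : normalizer (V' : Set G) ≤ normalizer (K : Set G) := by
    intro g hg
    apply mem_normalizer_of_cmap_eq
    rw [hK, cmap, Subgroup.map_inf _ _ _ (MulAut.conj g).injective,
      Subgroup.map_inf _ _ _ (MulAut.conj g).injective]
    congr 1
    · congr 1
      · exact cmap_of_normal g
      · refine cmap_eq_of_mem_normalizer (le_normalizer_centralizer (mem_normalizer_of_cmap_eq ?_))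
        rw [cmap, Subgroup.map_inf _ _ _ (MulAut.conj g).injective]
        exact congrArg₂ (· ⊓ ·) (cmap_eq_of_mem_normalizer hg) (cmap_of_normal g)
    · exact cmap_eq_of_mem_normalizer (le_normalizer hg)
  have hSKi : ¬ p ∣ SK.relIndex K :=
    not_dvd_relIndex_inf inf_le_right (P.2.to_le inf_le_left) hV'.2 inf_le_right hKM
  have hCKn : K ≤ normalizer (CK : Set G) := by
    intro g hg
    apply mem_normalizer_of_cmap_eq
    rw [cmap, Subgroup.map_inf _ _ _ (MulAut.conj g).injective]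
    exact congrArg₂ (· ⊓ ·) (cmap_eq_of_mem_normalizer (le_normalizer hg))
      (cmap_eq_of_mem_normalizer (le_normalizer_centralizer hg.2))
  haveI : (CK.subgroupOf K).Normal := (normal_subgroupOf_iff_le_normalizer inf_le_left).mpr hCKn
  have hqp : IsPGroup p (K ⧸ CK.subgroupOf K) := by
    intro q
    obtain ⟨z, rfl⟩ := QuotientGroup.mk_surjective q
    obtain ⟨e, he⟩ := CfsgLib.NormalPComplement.exists_pow_coprime_orderOf (p := p) (isOfFinOrder_of_finite (z : G))
    refine ⟨e, (QuotientGroup.eq_one_iff _).mpr (mem_subgroupOf.mpr ⟨(z ^ p ^ e).2, ?_⟩)⟩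
    have hz : ((z ^ p ^ e : K) : G) ∈ K := (z ^ p ^ e).2
    refine mem_centralizer_iff.mpr fun a ha => ?_
    set q := ((z ^ p ^ e : K) : G) with hq
    have hq' : (orderOf q).Coprime p := by rw [hq, SubmonoidClass.coe_pow]; exact he
    have hc1 : a⁻¹ * (q * a * q⁻¹) ∈ V' ⊓ N := by
      refine ⟨V'.mul_mem (V'.inv_mem ha) ((cmap_eq_of_mem_normalizer hz.2).le (conj_mem_cmap ha)), ?_⟩
      have := mul_mem ((inferInstance : N.Normal).conj_mem q hz.1.1 a⁻¹) (inv_mem hz.1.1)
      simpa [mul_assoc] using this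
    obtain ⟨j, hj⟩ := IsPGroup.to_le (P.2.to_le hV'.1) (inf_le_left : V' ⊓ N ≤ V') ⟨_, hc1⟩
    exact (CfsgLib.FFModules.commute_of_conj_eq_mul hq' (congrArg Subtype.val hj)
      ((mem_centralizer_iff.mp hz.1.2) _ hc1).symm (by group)).symm.eq
  have hsup : CK ⊔ SK = K := by
    refine le_antisymm (sup_le inf_le_left inf_le_right) ?_
    rw [← Subgroup.relIndex_eq_one]
    obtain ⟨j, hj⟩ := IsPGroup.iff_card.mp hqp
    have h1 : (CK ⊔ SK).relIndex K ∣ p ^ j := hj ▸ Subgroup.relIndex_dvd_of_le_left _ le_sup_left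
    exact Nat.eq_one_of_dvd_coprimes
      ((((Fact.out (p := p.Prime)).coprime_iff_not_dvd.mpr
        (fun h => hSKi (h.trans (Subgroup.relIndex_dvd_of_le_left _ le_sup_right)))).symm).pow_right j)
      dvd_rfl h1
  have hkK : k ∈ ((CK ⊔ SK : Subgroup G) : Set G) := by rw [hsup]; exact ⟨⟨hkN, hkC⟩, hkn⟩
  rw [Subgroup.coe_mul_of_right_le_normalizer_left CK SK (inf_le_right.trans hCKn)] at hkK
  obtain ⟨c, hc, s, hs, rfl⟩ := hkK
  refine ⟨s, hPW hs.1.1, fun a ha => ?_⟩
  have h1 : s * a * s⁻¹ ∈ V' := (cmap_eq_of_mem_normalizer hs.1.2).le (conj_mem_cmap ha)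
  calc s * a * s⁻¹ = c * (s * a * s⁻¹) * c⁻¹ := (conj_eq_of_centralizer hc.2 h1).symm
    _ = c * s * a * (c * s)⁻¹ := by group

theorem step_one (hPW : (P : Subgroup G) ≤ normalizer (W : Set G))
    (hNTW : normalizer (((P : Subgroup G) ⊓ N : Subgroup G) : Set G) ≤ normalizer (W : Set G))
    {R : Subgroup G} (big : Big P W (Nat.card R)) (R' : Subgroup G) (hR' : R' ≤ (P : Subgroup G))
    (hcard : Nat.card R' = Nat.card R) (k : G) (hkN : k ∈ N)
    (hkC : k ∈ centralizer ((R' ⊓ N : Subgroup G) : Set G)) (hkn : k ∈ normalizer (R' : Set G)) :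
    WRel W R' k := by
  have hF := isFusionRel_wRel (P : Subgroup G) W
  obtain ⟨y, hy, hyle⟩ := exists_fullyNormalized_conj P hR'
  by_cases hRP : R' = (P : Subgroup G)
  · refine wRel_of_mem ?_
    apply hNTW
    apply mem_normalizer_of_cmap_eq
    rw [cmap, Subgroup.map_inf _ _ _ (MulAut.conj k).injective]
    congr 1
    · exact cmap_eq_of_mem_normalizer (hRP ▸ hkn)
    · exact cmap_of_normal k
  have hlt := lt_inf_normalizer P hR' hRP
  have hyR : WRel W ((P : Subgroup G) ⊓ normalizer (R' : Set G)) y := by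
    refine big _ y ?_ inf_le_left (hyle.trans inf_le_left)
    rw [← hcard]
    exact lt_of_le_of_ne (card_le_of_le hlt.le) fun h => hlt.ne (eq_of_le_of_card_ge hlt.le h.ge)
  have hyR' := hF.mono hlt.le hyR
  have hk' : y * k * y⁻¹ ∈ centralizer ((cmap y R' ⊓ N : Subgroup G) : Set G) := by
    refine mem_centralizer_iff.mpr ?_
    rintro a ⟨ha1, ha2⟩
    obtain ⟨b, hb, rfl⟩ := ha1
    have hbN : b ∈ N := by simpa [mul_assoc] using (inferInstance : N.Normal).conj_mem _ ha2 y⁻¹
    show y * b * y⁻¹ * (y * k * y⁻¹) = y * k * y⁻¹ * (y * b * y⁻¹)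
    calc y * b * y⁻¹ * (y * k * y⁻¹) = y * (b * k) * y⁻¹ := by group
      _ = _ := by rw [(mem_centralizer_iff.mp hkC) b ⟨hb, hbN⟩]; group
  have h0 := step_zero P hPW hy ((inferInstance : N.Normal).conj_mem k hkN y) hk'
    (by rw [← cmap_normalizer]; exact conj_mem_cmap hkn)
  have hkR : cmap k R' = R' := cmap_eq_of_mem_normalizer hkn
  have h1 := hF.comp hR' hy.1 hyR' h0
  have e2 : cmap (y * k * y⁻¹ * y) R' = cmap y R' := by
    rw [show y * k * y⁻¹ * y = y * k by group, cmap_mul, hkR]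
  have h2 := hF.comp hR' (e2 ▸ hy.1) h1 (e2 ▸ hF.inv hR' hy.1 hyR')
  simpa [mul_assoc] using h2

theorem inner_step (hPW : (P : Subgroup G) ≤ normalizer (W : Set G))
    {R R0 : Subgroup G} (hcard : Nat.card R0 = Nat.card R) (big : Big P W (Nat.card R))
    (step1 : ∀ R' : Subgroup G, R' ≤ (P : Subgroup G) → Nat.card R' = Nat.card R → ∀ k ∈ N,
      k ∈ centralizer ((R' ⊓ N : Subgroup G) : Set G) → k ∈ normalizer (R' : Set G) → WRel W R' k)
    {C : Subgroup G} (hCN : C ≤ N ⊓ centralizer ((R0 ⊓ N : Subgroup G) : Set G))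
    (hR0n : R0 ≤ normalizer (C : Set G))
    {SY : Sylow p ↥(C ⊔ R0)} {z : G}
    (hz : cmap z ((SY : Subgroup ↥(C ⊔ R0)).map (C ⊔ R0).subtype) ≤ (P : Subgroup G))
    {V' : Subgroup ↥(C ⊔ R0)} (hV' : IsFullyNormalized p (SY : Subgroup ↥(C ⊔ R0)) V') {k : ↥(C ⊔ R0)}
    (hk : k ∈ normalizer (V' : Set ↥(C ⊔ R0))) :
    (Nat.card R ≤ Nat.card V' ∧
      (Nat.card V' = Nat.card R → ∃ w : ↥(C ⊔ R0), V' = cmap w (R0.subgroupOf (C ⊔ R0)))) →
      WRel W (cmap z (V'.map (C ⊔ R0).subtype)) (z * (k : G) * z⁻¹) := by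
  have hF := isFusionRel_wRel (P : Subgroup G) W
  set T0 := R0 ⊓ N with hT0
  set R0' := R0.subgroupOf (C ⊔ R0) with hR0'
  have hmap : ∀ (k : ↥(C ⊔ R0)) (A : Subgroup ↥(C ⊔ R0)),
      (cmap k A).map (C ⊔ R0).subtype = cmap (k : G) (A.map (C ⊔ R0).subtype) := by
    intro k A
    ext w
    constructor
    · rintro ⟨_, ⟨a, ha, rfl⟩, rfl⟩; exact ⟨a, ⟨a, ha, rfl⟩, rfl⟩
    · rintro ⟨_, ⟨a, ha, rfl⟩, rfl⟩; exact ⟨_, ⟨a, ha, rfl⟩, rfl⟩
  have hAP : ∀ A : Subgroup ↥(C ⊔ R0), A ≤ (SY : Subgroup ↥(C ⊔ R0)) →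
      cmap z (A.map (C ⊔ R0).subtype) ≤ (P : Subgroup G) :=
    fun A hA => (cmap_mono z (map_mono hA)).trans hz
  intro ⟨hc1, hc2⟩
  have hcardV : Nat.card ↥(cmap z (V'.map (C ⊔ R0).subtype)) = Nat.card V' := by
    rw [card_cmap, card_map_of_injective (C ⊔ R0).subtype_injective]
  rcases hc1.eq_or_lt with hceq | hclt
  · obtain ⟨w, hw⟩ := hc2 hceq.symm
    -- k = c₁ v
    have hkV : (k : G) ∈ ((C ⊔ V'.map (C ⊔ R0).subtype : Subgroup G) : Set G) := by
      have hw' : V'.map (C ⊔ R0).subtype = cmap (w : G) R0 := by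
        rw [hw, hmap, hR0', map_subgroupOf_eq_of_le le_sup_right]
      have hwY : (w : G) ∈ normalizer (C : Set G) :=
        (sup_le le_normalizer hR0n : C ⊔ R0 ≤ _) w.2
      have : C ⊔ V'.map (C ⊔ R0).subtype = C ⊔ R0 := by
        rw [hw']
        nth_rewrite 1 [← cmap_eq_of_mem_normalizer hwY]
        rw [cmap, cmap, ← Subgroup.map_sup]
        exact cmap_eq_of_mem_normalizer (le_normalizer w.2)
      rw [this]; exact k.2
    have hVn : V'.map (C ⊔ R0).subtype ≤ normalizer (C : Set G) :=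
      (map_subtype_le _).trans (sup_le le_normalizer hR0n)
    rw [coe_mul_of_right_le_normalizer_left C (V'.map (C ⊔ R0).subtype) hVn] at hkV
    obtain ⟨c1, hc1', v, hv, hkv⟩ := hkV
    set R'' := cmap z (V'.map (C ⊔ R0).subtype) with hR''
    have hvn : cmap v (V'.map (C ⊔ R0).subtype) = V'.map (C ⊔ R0).subtype := cmap_eq_of_mem_normalizer (le_normalizer hv)
    have hkn : cmap (k : G) (V'.map (C ⊔ R0).subtype) = V'.map (C ⊔ R0).subtype := by
      rw [← hmap, cmap_eq_of_mem_normalizer hk]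
    have hc1n : cmap c1 (V'.map (C ⊔ R0).subtype) = V'.map (C ⊔ R0).subtype := by
      have : cmap (c1 * v) (V'.map (C ⊔ R0).subtype) = V'.map (C ⊔ R0).subtype := by
        show cmap (c1 * v) _ = _
        rw [show c1 * v = (k : G) from hkv]; exact hkn
      rwa [cmap_mul, hvn] at this
    have hc1C : c1 ∈ centralizer ((V'.map (C ⊔ R0).subtype ⊓ N : Subgroup G) : Set G) := by
      have hw' : V'.map (C ⊔ R0).subtype = cmap (w : G) R0 := by
        rw [hw, hmap, hR0', map_subgroupOf_eq_of_le le_sup_right]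
      have hwT : cmap (w : G) T0 = T0 := by
        refine cmap_eq_of_mem_normalizer ((sup_le ?_ ?_ : C ⊔ R0 ≤ normalizer (T0 : Set G)) w.2)
        · exact (hCN.trans inf_le_right).trans (centralizer_le_normalizer T0)
        · intro r hr
          apply mem_normalizer_of_cmap_eq
          rw [hT0, cmap, Subgroup.map_inf _ _ _ (MulAut.conj r).injective]
          exact congrArg₂ (· ⊓ ·) (cmap_eq_of_mem_normalizer (le_normalizer hr)) (cmap_of_normal r)
      have : V'.map (C ⊔ R0).subtype ⊓ N = T0 := by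
        rw [hw', ← hwT, hT0, cmap, cmap, Subgroup.map_inf _ _ _ (MulAut.conj (w : G)).injective]
        exact congrArg₂ (· ⊓ ·) rfl (cmap_of_normal (w : G)).symm
      rw [this]; exact (hCN hc1').2
    have h1 : WRel W R'' (z * c1 * z⁻¹) := by
      refine step1 R'' (hAP V' hV'.1) (hcardV.trans hceq.symm) _
        ((inferInstance : N.Normal).conj_mem c1 (hCN hc1').1 z) ?_ ?_
      · refine mem_centralizer_iff.mpr ?_
        rintro a ⟨⟨b, hb, rfl⟩, ha2⟩
        have hbN : b ∈ N := by simpa [mul_assoc] using (inferInstance : N.Normal).conj_mem _ ha2 z⁻¹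
        show z * b * z⁻¹ * (z * c1 * z⁻¹) = z * c1 * z⁻¹ * (z * b * z⁻¹)
        calc z * b * z⁻¹ * (z * c1 * z⁻¹) = z * (b * c1) * z⁻¹ := by group
          _ = _ := by rw [(mem_centralizer_iff.mp hc1C) b ⟨hb, hbN⟩]; group
      · rw [hR'', ← cmap_normalizer]; exact conj_mem_cmap (mem_normalizer_of_cmap_eq hc1n)
    have h2 : WRel W R'' (z * v * z⁻¹) :=
      wRel_of_mem (hPW (hAP V' hV'.1 (conj_mem_cmap hv)))
    have e3 : cmap (z * v * z⁻¹) R'' = R'' := by
      rw [hR'', ← cmap_mul, show z * v * z⁻¹ * z = z * v by group, cmap_mul, hvn]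
    have h3 := hF.comp (hAP V' hV'.1) (e3.le.trans (hAP V' hV'.1)) h2 (by rw [e3]; exact h1)
    rw [show z * c1 * z⁻¹ * (z * v * z⁻¹) = z * (k : G) * z⁻¹ by rw [← hkv]; group] at h3
    exact h3
  · refine big _ _ (by rw [hcardV]; exact hclt) (hAP V' hV'.1) ?_
    rw [← cmap_mul, show z * (k : G) * z⁻¹ * z = z * (k : G) by group, cmap_mul, ← hmap,
      cmap_eq_of_mem_normalizer hk]
    exact hAP V' hV'.1

theorem step_two (hPW : (P : Subgroup G) ≤ normalizer (W : Set G))
    (hNTW : normalizer (((P : Subgroup G) ⊓ N : Subgroup G) : Set G) ≤ normalizer (W : Set G))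
    {R : Subgroup G} (big : Big P W (Nat.card R)) (R0 : Subgroup G) (hR0 : R0 ≤ (P : Subgroup G))
    (hcard : Nat.card R0 = Nat.card R) (c : G) (hcN : c ∈ N)
    (hcC : c ∈ centralizer ((R0 ⊓ N : Subgroup G) : Set G)) (hcR : cmap c R0 ≤ (P : Subgroup G)) :
    WRel W R0 c := by
  have hF := isFusionRel_wRel (P : Subgroup G) W
  have step1 := step_one P (N := N) hPW hNTW big
  by_cases hcfix : cmap c R0 = R0
  · exact step1 R0 hR0 hcard c hcN hcC (mem_normalizer_of_cmap_eq hcfix)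
  set T0 := R0 ⊓ N with hT0
  set C := N ⊓ centralizer (T0 : Set G) with hC
  let Y := C ⊔ R0
  have hR0n : R0 ≤ normalizer (C : Set G) := by
    intro r hr
    apply mem_normalizer_of_cmap_eq
    rw [hC, cmap, Subgroup.map_inf _ _ _ (MulAut.conj r).injective]
    refine congrArg₂ (· ⊓ ·) (cmap_of_normal r) (cmap_eq_of_mem_normalizer
      (le_normalizer_centralizer (mem_normalizer_of_cmap_eq ?_)))
    rw [hT0, cmap, Subgroup.map_inf _ _ _ (MulAut.conj r).injective]
    exact congrArg₂ (· ⊓ ·) (cmap_eq_of_mem_normalizer (le_normalizer hr)) (cmap_of_normal r)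
  set R2 := R0 ⊔ cmap c R0 with hR2
  have hR2P : R2 ≤ (P : Subgroup G) := sup_le hR0 hcR
  have hR2card : Nat.card R < Nat.card R2 := by
    rw [← hcard]
    refine lt_of_le_of_ne (card_le_of_le le_sup_left) fun h => hcfix ?_
    have h1 : R0 = R2 := eq_of_le_of_card_ge le_sup_left h.ge
    exact eq_of_le_of_card_ge ((le_sup_right : cmap c R0 ≤ R2).trans h1.ge) (card_cmap c R0).ge
  have hcY : c ∈ Y := mem_sup_left ⟨hcN, hcC⟩
  have hR2Y : R2 ≤ Y := sup_le le_sup_right (by
    rintro _ ⟨r, hr, rfl⟩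
    exact Y.mul_mem (Y.mul_mem hcY (mem_sup_right hr)) (Y.inv_mem hcY))
  obtain ⟨SY, hSY⟩ := ((P.2.to_le hR2P).of_equiv (subgroupOfEquivOfLe hR2Y).symm).exists_le_sylow
  set SY' := (SY : Subgroup Y).map Y.subtype with hSY'
  have hR2S : R2 ≤ SY' := fun r hr => ⟨⟨r, hR2Y hr⟩, hSY (mem_subgroupOf.mpr hr), rfl⟩
  obtain ⟨z, -, hz⟩ := exists_cmap_le (H := ⊤) (Q := SY') le_top (SY.2.map _) le_top P.2
    (by rw [relIndex_top_right]; exact P.not_dvd_index)
  have hzR2 : cmap z R2 ≤ (P : Subgroup G) := (cmap_mono z hR2S).trans hz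
  have hzRel : WRel W R2 z := big R2 z hR2card hR2P hzR2
  -- the induction inside Y
  set R0' := R0.subgroupOf Y with hR0'
  set Rel' : Subgroup Y → Y → Prop := fun A k => (Nat.card R ≤ Nat.card A ∧
      (Nat.card A = Nat.card R → ∃ w : Y, A = cmap w R0')) →
    WRel W (cmap z (A.map Y.subtype)) (z * (k : G) * z⁻¹) with hRel'
  have hmap : ∀ (k : Y) (A : Subgroup Y), (cmap k A).map Y.subtype = cmap (k : G) (A.map Y.subtype) := by
    intro k A
    ext w
    constructor
    · rintro ⟨_, ⟨a, ha, rfl⟩, rfl⟩; exact ⟨a, ⟨a, ha, rfl⟩, rfl⟩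
    · rintro ⟨_, ⟨a, ha, rfl⟩, rfl⟩; exact ⟨_, ⟨a, ha, rfl⟩, rfl⟩
  have hzk : ∀ (k : Y) (A : Subgroup Y),
      cmap (z * (k : G) * z⁻¹) (cmap z (A.map Y.subtype)) = cmap z ((cmap k A).map Y.subtype) := by
    intro k A
    rw [hmap, ← cmap_mul, ← cmap_mul]; congr 1; group
  have hAP : ∀ A : Subgroup Y, A ≤ (SY : Subgroup Y) → cmap z (A.map Y.subtype) ≤ (P : Subgroup G) :=
    fun A hA => (cmap_mono z (map_mono hA)).trans hz
  have hF' : IsFusionRel (SY : Subgroup Y) Rel' :=
    { mono := by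
        intro A A' k hle h ⟨hc1, hc2⟩
        refine hF.mono (cmap_mono z (map_mono hle)) (h ⟨hc1.trans (card_le_of_le hle), fun hA => ?_⟩)
        have he : A' = A := eq_of_le_of_card_ge hle (by omega)
        exact he ▸ hc2 (he ▸ hA)
      comp := by
        intro A g k hA hgA h1 h2 hcond
        have h2' := h2 ⟨by rw [card_cmap]; exact hcond.1, fun hcA => by
          obtain ⟨w, hw⟩ := hcond.2 (by rwa [card_cmap] at hcA)
          exact ⟨g * w, by rw [cmap_mul, ← hw]⟩⟩
        rw [← hzk] at h2'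
        have := hF.comp (hAP A hA) (by rw [hzk]; exact hAP _ hgA) (h1 hcond) h2'
        simpa [mul_assoc] using this
      inv := by
        intro A g hA hgA h1 hcond
        have hcond' : Nat.card R ≤ Nat.card A ∧ (Nat.card A = Nat.card R → ∃ w : Y, A = cmap w R0') := by
          refine ⟨by rw [← card_cmap g A]; exact hcond.1, fun hcA => ?_⟩
          obtain ⟨w, hw⟩ := hcond.2 (by rw [card_cmap]; exact hcA)
          exact ⟨g⁻¹ * w, by rw [cmap_mul, ← hw, cmap_inv_cmap]⟩
        have := hF.inv (hAP A hA) (by rw [hzk]; exact hAP _ hgA) (h1 hcond')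
        rw [hzk] at this
        simpa [mul_assoc] using this }
  have hzn : ∀ (V' : Subgroup Y), V' ≤ (SY : Subgroup Y) → ∀ k ∈ normalizer (V' : Set Y),
      cmap (z * (k : G) * z⁻¹) (cmap z (V'.map Y.subtype)) = cmap z (V'.map Y.subtype) := by
    intro V' _ k hk
    rw [hzk, cmap_eq_of_mem_normalizer hk]
  have main' := fusion_induction SY hF' (IsFullyNormalized p (SY : Subgroup Y)) (fun _ h => h)
    (fun A hA => (exists_fullyNormalized_conj SY hA).imp fun _ h => h.1) (fun V' hV' _ k hk =>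
      inner_step P hPW hcard big step1 le_rfl hR0n (SY := SY) hz hV' hk)
  have hR0S : R0' ≤ (SY : Subgroup Y) := fun a ha =>
    hSY (mem_subgroupOf.mpr ((le_sup_left : R0 ≤ R2) (mem_subgroupOf.mp ha)))
  have hcS : cmap (⟨c, hcY⟩ : Y) R0' ≤ (SY : Subgroup Y) := by
    intro a ha
    apply hSY
    have : (a : G) ∈ cmap c R0 := by
      have h1 := mem_map_of_mem Y.subtype ha
      rwa [hmap, hR0', map_subgroupOf_eq_of_le le_sup_right] at h1
    exact mem_subgroupOf.mpr ((le_sup_right : cmap c R0 ≤ R2) this)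
  have hfin := main' R0' ⟨c, hcY⟩ hR0S hcS ⟨(by
      rw [← hcard, Nat.card_congr (subgroupOfEquivOfLe (le_sup_right : R0 ≤ Y)).toEquiv]),
    fun _ => ⟨1, (cmap_one _).symm⟩⟩
  rw [hR0', map_subgroupOf_eq_of_le le_sup_right] at hfin
  have hzR0 : WRel W R0 z := hF.mono le_sup_left hzRel
  have h1 := hF.comp hR0 ((cmap_mono z le_sup_left).trans hzR2) hzR0 hfin
  have e4 : cmap (z * c * z⁻¹ * z) R0 = cmap z (cmap c R0) := by
    rw [show z * c * z⁻¹ * z = z * c by group, cmap_mul]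
  have h2 : WRel W (cmap z (cmap c R0)) z⁻¹ :=
    hF.inv hcR ((cmap_mono z le_sup_right).trans hzR2) (hF.mono le_sup_right hzRel)
  have h3 := hF.comp hR0 (e4 ▸ (cmap_mono z le_sup_right).trans hzR2) h1 (e4 ▸ h2)
  simpa [mul_assoc] using h3

theorem main_step (hPW : (P : Subgroup G) ≤ normalizer (W : Set G))
    (hNTW : normalizer (((P : Subgroup G) ⊓ N : Subgroup G) : Set G) ≤ normalizer (W : Set G))
    (hL : ∀ A : Subgroup G, A ≤ (P : Subgroup G) ⊓ N → ∀ n ∈ N, cmap n A ≤ (P : Subgroup G) ⊓ N →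
      ∃ h ∈ N ⊓ normalizer (W : Set G), ∃ c ∈ N ⊓ centralizer (A : Set G), n = h * c)
    {R : Subgroup G} (hR : IsFullyNormalized p (P : Subgroup G) R) (big : Big P W (Nat.card R))
    {n : G} (hn : n ∈ normalizer (R : Set G)) : WRel W R n := by
  have hF := isFusionRel_wRel (P : Subgroup G) W
  set T := (P : Subgroup G) ⊓ N with hT
  have hPT : (P : Subgroup G) ≤ normalizer (T : Set G) := fun x hx => mem_normalizer_of_cmap_eq (by
    rw [hT, cmap, Subgroup.map_inf _ _ _ (MulAut.conj x).injective]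
    congr 1
    · exact cmap_eq_of_mem_normalizer (le_normalizer hx)
    · exact cmap_of_normal x)
  have step2 := step_two P (N := N) hPW hNTW big
  -- the element n
  set M := normalizer (R : Set G) with hM
  set T1 := (P : Subgroup G) ⊓ M ⊓ (N ⊓ M) with hT1
  have hNM : M ≤ normalizer ((N ⊓ M : Subgroup G) : Set G) := by
    intro g hg
    apply mem_normalizer_of_cmap_eq
    rw [cmap, Subgroup.map_inf _ _ _ (MulAut.conj g).injective]
    exact congrArg₂ (· ⊓ ·) (cmap_of_normal g) (cmap_eq_of_mem_normalizer (le_normalizer hg))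
  have hT1i : ¬ p ∣ T1.relIndex (N ⊓ M) :=
    not_dvd_relIndex_inf inf_le_right (P.2.to_le inf_le_left) hR.2 inf_le_right hNM
  have hT1p : IsPGroup p T1 := P.2.to_le (inf_le_left.trans inf_le_left)
  have hnT1 : cmap n T1 ≤ N ⊓ M := (cmap_mono n inf_le_right).trans (cmap_eq_of_mem_normalizer (hNM hn)).le
  obtain ⟨k, ⟨hkN, hkM⟩, hke⟩ := exists_cmap_eq hnT1 (hT1p.map _)
    (by nth_rewrite 1 [← cmap_eq_of_mem_normalizer (hNM hn)]
        rw [relIndex_map_map_of_injective _ _ (MulAut.conj n).injective]; exact hT1i)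
    inf_le_right hT1p hT1i
  rw [← cmap_mul] at hke
  set m := k * n with hm
  have hmR : cmap m R = R := cmap_eq_of_mem_normalizer (mul_mem hkM hn)
  have hRP := hR.1
  have hmRel : WRel W R m := by
    by_cases hle : T1 ≤ R
    · apply wRel_of_mem
      apply hNTW
      have hTR : T ≤ R := by
        by_contra hcon
        have hlt : R < R ⊔ T := lt_of_le_of_ne le_sup_left fun h => hcon (le_sup_right.trans h.ge)
        obtain ⟨y, hy, hyn, hyR⟩ := exists_normalizer_not_mem (P.2.to_le (sup_le hRP inf_le_left)) hlt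
        have hset := coe_mul_of_left_le_normalizer_right R T (hRP.trans hPT)
        have hy' : y ∈ ((R ⊔ T : Subgroup G) : Set G) := hy
        rw [hset] at hy'
        obtain ⟨r, hr, t, ht, rfl⟩ := hy'
        refine hyR (R.mul_mem hr (hle ⟨⟨ht.1, ?_⟩, ht.2, ?_⟩)) <;>
        · have := mul_mem (inv_mem (le_normalizer hr : r ∈ M)) hyn
          simpa [mul_assoc] using this
      have hT1T : T1 = T := le_antisymm (le_inf (inf_le_left.trans inf_le_left) (inf_le_right.trans inf_le_left))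
        (le_inf (le_inf inf_le_left (hTR.trans le_normalizer)) (le_inf inf_le_right (hTR.trans le_normalizer)))
      rw [← hT1T]
      exact mem_normalizer_of_cmap_eq hke
    · refine hF.mono (le_sup_left : R ≤ R ⊔ T1) (big _ m ?_ (sup_le hRP (inf_le_left.trans inf_le_left)) ?_)
      · refine lt_of_le_of_ne (card_le_of_le le_sup_left) fun h => hle ?_
        exact le_sup_right.trans (eq_of_le_of_card_ge le_sup_left h.ge).ge
      · rw [cmap, Subgroup.map_sup]
        exact sup_le (hmR.le.trans hRP) (hke.le.trans (inf_le_left.trans inf_le_left))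
  have hkRel : WRel W R k⁻¹ := by
    set T0 := R ⊓ N with hT0
    have hkn : k⁻¹ ∈ normalizer (R : Set G) := inv_mem hkM
    have hT0k : cmap k⁻¹ T0 = T0 := by
      rw [hT0, cmap, Subgroup.map_inf _ _ _ (MulAut.conj k⁻¹).injective]
      exact congrArg₂ (· ⊓ ·) (cmap_eq_of_mem_normalizer hkn) (cmap_of_normal _)
    have hT0T : T0 ≤ T := inf_le_inf hRP le_rfl
    obtain ⟨h, ⟨hhN, hhW⟩, c, ⟨hcN, hcC⟩, e⟩ := hL T0 hT0T k⁻¹ (inv_mem hkN) (hT0k.le.trans hT0T)
    have hhT0 : h ∈ normalizer (T0 : Set G) := by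
      have : h = k⁻¹ * c⁻¹ := by rw [e]; group
      rw [this]
      exact mul_mem (mem_normalizer_of_cmap_eq hT0k) (inv_mem (centralizer_le_normalizer T0 hcC))
    set CH := N ⊓ centralizer (T0 : Set G) ⊓ normalizer (W : Set G) with hCH
    have hRn : R ≤ normalizer (CH : Set G) := by
      intro r hr
      apply mem_normalizer_of_cmap_eq
      rw [hCH, cmap, Subgroup.map_inf _ _ _ (MulAut.conj r).injective,
        Subgroup.map_inf _ _ _ (MulAut.conj r).injective]
      congr 1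
      · refine congrArg₂ (· ⊓ ·) (cmap_of_normal r) (cmap_eq_of_mem_normalizer
          (le_normalizer_centralizer (mem_normalizer_of_cmap_eq ?_)))
        rw [hT0, cmap, Subgroup.map_inf _ _ _ (MulAut.conj r).injective]
        exact congrArg₂ (· ⊓ ·) (cmap_eq_of_mem_normalizer (le_normalizer hr)) (cmap_of_normal r)
      · exact cmap_eq_of_mem_normalizer (le_normalizer (hPW (hRP hr)))
    have hcR : cmap c R = cmap h⁻¹ R := by
      have : c = h⁻¹ * k⁻¹ := by rw [e]; group
      rw [this, cmap_mul, cmap_eq_of_mem_normalizer hkn]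
    have hcRle : cmap c R ≤ CH ⊔ R := by
      rintro _ ⟨r, hr, rfl⟩
      show c * r * c⁻¹ ∈ CH ⊔ R
      have hd : c * r * c⁻¹ * r⁻¹ ∈ CH := by
        refine ⟨⟨?_, ?_⟩, ?_⟩
        · have := mul_mem hcN ((inferInstance : N.Normal).conj_mem _ (inv_mem hcN) r)
          simpa [mul_assoc] using this
        · have hr' : r ∈ normalizer ((centralizer (T0 : Set G) : Subgroup G) : Set G) := by
            refine le_normalizer_centralizer (mem_normalizer_of_cmap_eq ?_)
            rw [hT0, cmap, Subgroup.map_inf _ _ _ (MulAut.conj r).injective]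
            exact congrArg₂ (· ⊓ ·) (cmap_eq_of_mem_normalizer (le_normalizer hr)) (cmap_of_normal r)
          have h2 := mul_mem hcC ((cmap_eq_of_mem_normalizer hr').le (conj_mem_cmap (inv_mem hcC)))
          simpa [mul_assoc] using h2
        · refine Subgroup.mul_mem _ ?_ (Subgroup.inv_mem _ (hPW (hRP hr)))
          have h2 : c * r * c⁻¹ ∈ cmap h⁻¹ R := hcR ▸ conj_mem_cmap hr
          obtain ⟨r', hr', hre⟩ := h2
          rw [← hre]
          exact Subgroup.mul_mem _ (Subgroup.mul_mem _ (Subgroup.inv_mem _ hhW) (hPW (hRP hr'))) (Subgroup.inv_mem _ (Subgroup.inv_mem _ hhW))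
      have := (CH ⊔ R).mul_mem (mem_sup_left hd) (mem_sup_right hr)
      simpa using this
    obtain ⟨S2, hS2⟩ := ((P.2.to_le hRP).of_equiv (subgroupOfEquivOfLe (le_sup_right : R ≤ CH ⊔ R)).symm).exists_le_sylow
    set S2' := (S2 : Subgroup ↥(CH ⊔ R)).map (CH ⊔ R).subtype with hS2'
    have hS2i : ¬ p ∣ S2'.relIndex (CH ⊔ R) := by
      rw [relIndex, subgroupOf, comap_map_eq_self_of_injective (CH ⊔ R).subtype_injective]
      exact S2.not_dvd_index
    have hRS2 : R ≤ S2' := fun r hr => ⟨⟨r, mem_sup_right hr⟩, hS2 (mem_subgroupOf.mpr hr), rfl⟩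
    obtain ⟨dr, hdr, hdre⟩ := exists_cmap_le hcRle ((P.2.to_le hRP).map _) (map_subtype_le _) (S2.2.map _) hS2i
    have hdr' : dr ∈ ((R ⊔ CH : Subgroup G) : Set G) := by rw [sup_comm]; exact hdr
    rw [coe_mul_of_left_le_normalizer_right R CH hRn] at hdr'
    obtain ⟨r₀, hr₀, d, hd, rfl⟩ := hdr'
    have hd' : cmap (d * c) R ≤ S2' := by
      have h1 := cmap_mono r₀⁻¹ hdre
      rw [← cmap_mul, ← cmap_mul, show r₀⁻¹ * (r₀ * d) * c = d * c by group] at h1
      exact h1.trans (cmap_eq_of_mem_normalizer (le_normalizer (inv_mem (hRS2 hr₀)))).le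
    have hS2W : S2' ≤ normalizer (W : Set G) :=
      (map_subtype_le _).trans (sup_le inf_le_right (hRP.trans hPW))
    obtain ⟨zz, hzz, hzzle⟩ := exists_cmap_le hS2W (S2.2.map _) hPW P.2
      (fun hd'' => P.not_dvd_index (hd''.trans (relIndex_dvd_index_of_le hPW)))
    set R0 := cmap zz R with hR0
    set c0 := zz * (d * c) * zz⁻¹ with hc0
    have hR0P : R0 ≤ (P : Subgroup G) := (cmap_mono zz hRS2).trans hzzle
    have hc0C : c0 ∈ centralizer ((R0 ⊓ N : Subgroup G) : Set G) := by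
      refine mem_centralizer_iff.mpr ?_
      rintro a ⟨⟨b, hb, rfl⟩, ha2⟩
      have hbN : b ∈ N := by simpa [mul_assoc] using (inferInstance : N.Normal).conj_mem _ ha2 zz⁻¹
      show zz * b * zz⁻¹ * c0 = c0 * (zz * b * zz⁻¹)
      have := (mem_centralizer_iff.mp (mul_mem hd.1.2 hcC)) b ⟨hb, hbN⟩
      calc zz * b * zz⁻¹ * c0 = zz * (b * (d * c)) * zz⁻¹ := by rw [hc0]; group
        _ = _ := by rw [this, hc0]; group
    have hc0R : cmap c0 R0 ≤ (P : Subgroup G) := by
      rw [hR0, ← cmap_mul, show c0 * zz = zz * (d * c) by rw [hc0]; group, cmap_mul]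
      exact (cmap_mono zz hd').trans hzzle
    obtain ⟨w, hw, hwe⟩ := step2 R0 hR0P (card_cmap zz R) c0
      ((inferInstance : N.Normal).conj_mem _ (mul_mem hd.1.1 hcN) zz) hc0C hc0R
    refine ⟨h * d⁻¹ * zz⁻¹ * w * zz,
      mul_mem (mul_mem (mul_mem (mul_mem hhW (inv_mem hd.2)) (inv_mem hzz)) hw) hzz, fun a ha => ?_⟩
    have h1 := hwe (zz * a * zz⁻¹) (conj_mem_cmap ha)
    calc h * d⁻¹ * zz⁻¹ * w * zz * a * (h * d⁻¹ * zz⁻¹ * w * zz)⁻¹
        = h * d⁻¹ * zz⁻¹ * (w * (zz * a * zz⁻¹) * w⁻¹) * zz * d * h⁻¹ := by group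
      _ = h * c * a * (h * c)⁻¹ := by rw [h1, hc0]; group
      _ = k⁻¹ * a * k⁻¹⁻¹ := by rw [← e]
  have hres := hF.comp hRP (hmR.le.trans hRP) hmRel (by rw [hmR]; exact hkRel)
  rwa [hm, inv_mul_cancel_left] at hres

end


/-- Let N be a normal subgroup of the finite group G, P a Sylow p-subgroup of G, and V a subgroup of P ∩ N normal in P ∩ N such that N_N(V) controls strong fusion in P ∩ N with respect to N (whenever a subgroup A of P ∩ N has n A n⁻¹ ≤ P ∩ N for some n in N, then n = h c with h in N_N(V) and c in C_N(A)). Let W be the subgroup generated by the conjugates of V under N_G(P ∩ N). Then N_G(W) controls strong fusion in P with respect to G. -/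
theorem result {G : Type*} [Group G] [Finite G] {p : ℕ} [Fact p.Prime] (N : Subgroup G) [N.Normal] (P : Sylow p G) (V : Subgroup G)
    (hV : V ≤ (P : Subgroup G) ⊓ N) (hVn : ∀ x ∈ (P : Subgroup G) ⊓ N, V.map (MulAut.conj x).toMonoidHom = V)
    (hctrl : ∀ A : Subgroup G, A ≤ (P : Subgroup G) ⊓ N → ∀ n ∈ N, A.map (MulAut.conj n).toMonoidHom ≤ (P : Subgroup G) ⊓ N →
      ∃ h ∈ N ⊓ Subgroup.normalizer (V : Set G), ∃ c ∈ N ⊓ Subgroup.centralizer (A : Set G), n = h * c)
    (W : Subgroup G) (hW : W = Subgroup.closure (⋃ x ∈ Subgroup.normalizer (((P : Subgroup G) ⊓ N : Subgroup G) : Set G),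
      ((V.map (MulAut.conj x).toMonoidHom : Subgroup G) : Set G))) :
    ∀ A : Subgroup G, A ≤ (P : Subgroup G) → ∀ g : G, A.map (MulAut.conj g).toMonoidHom ≤ (P : Subgroup G) →
        ∃ h ∈ Subgroup.normalizer (W : Set G), ∃ c ∈ Subgroup.centralizer (A : Set G), g = h * c := by
  classical
  set T := (P : Subgroup G) ⊓ N with hT
  have hTp : IsPGroup p T := P.2.to_le inf_le_left
  have hPT : (P : Subgroup G) ≤ normalizer (T : Set G) := fun x hx => mem_normalizer_of_cmap_eq (by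
    rw [hT, cmap, Subgroup.map_inf _ _ _ (MulAut.conj x).injective]
    congr 1
    · exact cmap_eq_of_mem_normalizer (le_normalizer hx)
    · exact cmap_of_normal x)
  -- W
  have hWT : W ≤ T := by
    rw [hW, closure_le, Set.iUnion₂_subset_iff]
    intro x hx
    exact (cmap_mono x hV).trans (cmap_eq_of_mem_normalizer hx).le
  have hNTW : normalizer (T : Set G) ≤ normalizer (W : Set G) := by
    have key : ∀ g ∈ normalizer (T : Set G), cmap g W ≤ W := by
      intro g hg
      rw [hW, cmap, MonoidHom.map_closure, closure_le]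
      rintro _ ⟨y, hy, rfl⟩
      obtain ⟨x, hx, hy⟩ := Set.mem_iUnion₂.mp hy
      refine subset_closure (Set.mem_iUnion₂.mpr ⟨g * x, mul_mem hg hx, ?_⟩)
      show (MulAut.conj g).toMonoidHom y ∈ cmap (g * x) V
      rw [cmap_mul]
      exact mem_map_of_mem _ hy
    intro g hg
    exact mem_normalizer_of_cmap_eq (le_antisymm (key g hg)
      (by simpa [cmap_cmap_inv] using cmap_mono g (key g⁻¹ (inv_mem hg))))
  have hPW : (P : Subgroup G) ≤ normalizer (W : Set G) := hPT.trans hNTW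
  -- control inside N, simultaneously for all conjugates of V
  have hctrl' : ∀ x ∈ normalizer (T : Set G), ∀ A : Subgroup G, A ≤ T → ∀ n ∈ N, cmap n A ≤ T →
      ∃ h ∈ N ⊓ normalizer ((cmap x V : Subgroup G) : Set G), ∃ c ∈ N ⊓ centralizer (A : Set G), n = h * c := by
    intro x hx A hA n hn hnA
    have hxT : cmap x⁻¹ T = T := cmap_eq_of_mem_normalizer (inv_mem hx)
    obtain ⟨h, ⟨hhN, hhV⟩, c, ⟨hcN, hcA⟩, e⟩ := hctrl (cmap x⁻¹ A) (hxT ▸ cmap_mono x⁻¹ hA) (x⁻¹ * n * x)
      (by simpa using (inferInstance : N.Normal).conj_mem n hn x⁻¹) (by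
        change cmap (x⁻¹ * n * x) (cmap x⁻¹ A) ≤ T
        rw [← cmap_mul, show x⁻¹ * n * x * x⁻¹ = x⁻¹ * n by group, cmap_mul]
        exact hxT ▸ cmap_mono x⁻¹ hnA)
    refine ⟨x * h * x⁻¹, ⟨(inferInstance : N.Normal).conj_mem h hhN x, ?_⟩, x * c * x⁻¹,
      ⟨(inferInstance : N.Normal).conj_mem c hcN x, ?_⟩, ?_⟩
    · rw [← cmap_normalizer]; exact conj_mem_cmap hhV
    · refine mem_centralizer_iff.mpr fun a ha => ?_
      have h1 : x⁻¹ * a * x ∈ cmap x⁻¹ A := by simpa [mem_cmap, mul_assoc] using ha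
      calc a * (x * c * x⁻¹) = x * ((x⁻¹ * a * x) * c) * x⁻¹ := by group
        _ = x * c * x⁻¹ * a := by rw [(mem_centralizer_iff.mp hcA) _ h1]; group
    · calc n = x * (x⁻¹ * n * x) * x⁻¹ := by group
        _ = _ := by rw [e]; group
  have hL : ∀ A : Subgroup G, A ≤ T → ∀ n ∈ N, cmap n A ≤ T →
      ∃ h ∈ N ⊓ normalizer (W : Set G), ∃ c ∈ N ⊓ centralizer (A : Set G), n = h * c :=
    fun A hA n hn hnA => control_in_normal hV hW hctrl' hA hn hnA
  have main : ∀ (A : Subgroup G) (g : G), A ≤ (P : Subgroup G) → cmap g A ≤ (P : Subgroup G) → WRel W A g :=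
    fusion_induction P (isFusionRel_wRel (P : Subgroup G) W) (IsFullyNormalized p (P : Subgroup G)) (fun _ h => h)
      (fun A hA => (exists_fullyNormalized_conj P hA).imp fun _ h => h.1)
      (fun R hR big n hn => main_step P hPW hNTW hL hR big hn)
  intro A hA g hg
  obtain ⟨h, hh, he⟩ := main A g hA hg
  refine ⟨h, hh, h⁻¹ * g, mem_centralizer_iff.mpr fun a ha => ?_, by group⟩
  calc a * (h⁻¹ * g) = h⁻¹ * (h * a * h⁻¹) * g := by group
    _ = h⁻¹ * g * a := by rw [he a ha]; group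

end Cfsg.Agent.S1954
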