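import Cfsg.Statements.S1956

set_option autoImplicit false
open Cfsg

namespace Cfsg.Agent.S1956

/-- Let P be a Sylow p-subgroup of the finite group G such that every element of P of order dividing p (dividing 4 when p = 2) is central in P. Then the fusion of these elements is controlled by N_G(P): if such an element a of P has g a g⁻¹ in P, then g = n c with n normalizing P and c commuting with a. -/
theorem result {G : Type*} [Group G] [Finite G] {p : ℕ} [Fact p.Prime] (P : Sylow p G)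
    (hcen : ∀ a ∈ (P : Subgroup G), (a ^ p = 1 ∨ (p = 2 ∧ a ^ 4 = 1)) → ∀ y ∈ (P : Subgroup G), a * y = y * a) :
    ∀ a ∈ (P : Subgroup G), (a ^ p = 1 ∨ (p = 2 ∧ a ^ 4 = 1)) → ∀ g : G, g * a * g⁻¹ ∈ (P : Subgroup G) →
      ∃ n ∈ Subgroup.normalizer ((P : Subgroup G) : Set G), ∃ c : G, c * a = a * c ∧ g = n * c := by
  intro a haP hao g hga
  set C : Subgroup G := Subgroup.centralizer {a}
  have hmem : ∀ y ∈ (P : Subgroup G), y ∈ C := fun y hy =>
    Subgroup.mem_centralizer_singleton_iff.mpr (hcen a haP hao y hy).symm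
  have hb : (g * a * g⁻¹) ^ p = 1 ∨ (p = 2 ∧ (g * a * g⁻¹) ^ 4 = 1) := by
    rcases hao with h | ⟨h, h4⟩
    · left; simp [conj_pow, h]
    · right; exact ⟨h, by simp [conj_pow, h4]⟩
  have hPg : ((g⁻¹ • P : Sylow p G) : Subgroup G) ≤ C := by
    intro y hy
    rw [Sylow.coe_subgroup_smul] at hy
    obtain ⟨z, hz, rfl⟩ := Subgroup.mem_smul_pointwise_iff_exists _ _ _ |>.mp hy
    have := hcen _ hga hb z hz
    apply Subgroup.mem_centralizer_singleton_iff.mpr
    simp only [MulAut.smul_def, MulAut.conj_apply]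
    calc g⁻¹ * z * g⁻¹⁻¹ * a = g⁻¹ * (z * (g * a * g⁻¹)) * g := by group
      _ = g⁻¹ * ((g * a * g⁻¹) * z) * g := by rw [this]
      _ = a * (g⁻¹ * z * g⁻¹⁻¹) := by group
  obtain ⟨c, hc⟩ := MulAction.exists_smul_eq C (P.subtype hmem) ((g⁻¹ • P).subtype hPg)
  rw [Sylow.smul_subtype] at hc
  have heq : (c : G) • P = g⁻¹ • P := Sylow.subtype_injective hc
  refine ⟨g * c, ?_, (c : G)⁻¹, ?_, by group⟩
  · have : (g * c) • P = P := by rw [mul_smul, heq, smul_inv_smul]
    exact Sylow.smul_eq_iff_mem_normalizer.mp this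
  · have h1 : (c : G) * a = a * c := Subgroup.mem_centralizer_singleton_iff.mp c.2
    calc (c : G)⁻¹ * a = (c : G)⁻¹ * (a * c) * (c : G)⁻¹ := by group
      _ = (c : G)⁻¹ * ((c : G) * a) * (c : G)⁻¹ := by rw [h1]
      _ = a * (c : G)⁻¹ := by group

end Cfsg.Agent.S1956
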