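import Cfsg.Statements.S2001
import Cfsg.Agent.Lib.ConjFunctor.CentralPairControl

set_option autoImplicit false
open Cfsg
open CfsgLib.ConjFunctor

namespace Cfsg.Agent.S2001

/-- Let p be a prime dividing the order of the finite group G, P a Sylow p-subgroup, W a conjugacy functor for p on G with Z(H) ≤ W(H) for every nontrivial p-subgroup H, and V a central functor: a conjugacy functor with V(H) ≤ Z(H), and V(H) ≤ V(K) whenever Z(H) ≤ Z(K), for nontrivial p-subgroups H, K. Say that W with V controls transfer in a subgroup L when some Sylow p-subgroup Q of L satisfies Q ∩ L' = (Q ∩ (N_L(W(Q)))')·(Q ∩ (C_L(V(Q)))') as a product of two subgroups. If W with V controls transfer in N_G(H) for every subgroup H with Z(P) ≤ H ≤ P, then W with V controls transfer in G. -/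
theorem result {G : Type*} [Group G] [Finite G] {p : ℕ} [Fact p.Prime] (hdiv : p ∣ Nat.card G) (P : Sylow p G) (W V : Subgroup G → Subgroup G) (hW : Cfsg.IsConjugacyFunctor p W) (hV : Cfsg.IsConjugacyFunctor p V) (hWZ : ∀ H : Subgroup G, IsPGroup p ↥H → H ⊓ Subgroup.centralizer ((H : Subgroup G) : Set G) ≤ W H) (hVZ : ∀ H : Subgroup G, IsPGroup p ↥H → V H ≤ H ⊓ Subgroup.centralizer ((H : Subgroup G) : Set G)) (hVmono : ∀ H K : Subgroup G, IsPGroup p ↥H → IsPGroup p ↥K → H ≠ ⊥ → K ≠ ⊥ → H ⊓ Subgroup.centralizer ((H : Subgroup G) : Set G) ≤ K ⊓ Subgroup.centralizer ((K : Subgroup G) : Set G) → V H ≤ V K) (hloc : ∀ H : Subgroup G, (P : Subgroup G) ⊓ Subgroup.centralizer (((P : Subgroup G) : Subgroup G) : Set G) ≤ H → H ≤ (P : Subgroup G) → ∃ Q : Subgroup G, Q ≤ Subgroup.normalizer ((H : Subgroup G) : Set G) ∧ IsPGroup p ↥Q ∧ ¬ p ∣ (Q).relIndex (Subgroup.normalizer ((H : Subgroup G) : Set G)) ∧ ∀ x : G, x ∈ Q ⊓ ⁅Subgroup.normalizer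 ((H : Subgroup G) : Set G), Subgroup.normalizer ((H : Subgroup G) : Set G)⁆ ↔ ∃ a ∈ Q ⊓ ⁅Subgroup.normalizer ((H : Subgroup G) : Set G) ⊓ Subgroup.normalizer ((W Q : Subgroup G) : Set G), Subgroup.normalizer ((H : Subgroup G) : Set G) ⊓ Subgroup.normalizer ((W Q : Subgroup G) : Set G)⁆, ∃ b ∈ Q ⊓ ⁅Subgroup.normalizer ((H : Subgroup G) : Set G) ⊓ Subgroup.centralizer ((V Q : Subgroup G) : Set G), Subgroup.normalizer ((H : Subgroup G) : Set G) ⊓ Subgroup.centralizer ((V Q : Subgroup G) : Set G)⁆, x = a * b) : ∃ Q : Subgroup G, IsPGroup p ↥Q ∧ ¬ p ∣ Q.index ∧ ∀ x : G, x ∈ Q ⊓ commutator G ↔ ∃ a ∈ Q ⊓ ⁅Subgroup.normalizer ((W Q : Subgroup G) : Set G), Subgroup.normalizer ((W Q : Subgroup G) : Set G)⁆, ∃ b ∈ Q ⊓ ⁅Subgroup.centralizer ((V Q : Subgroup G) : Set G), Subgroup.centralizer ((V Q : Subgroup G) : Set G)⁆, x = a * b := by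
  set S := (P : Subgroup G) with hSdef
  set NW := Subgroup.normalizer (W S : Set G) with hNW
  set CV := Subgroup.centralizer (V S : Set G) with hCV
  set A := S ⊓ ⁅NW, NW⁆ with hA
  set Bv := S ⊓ ⁅CV, CV⁆ with hBv
  have hSN : S ≤ NW := Subgroup.le_normalizer.trans (normalizer_le_normalizer_functor hW P.2)
  have hSC : S ≤ CV := Subgroup.le_centralizer_iff.1 ((hVZ S P.2).trans inf_le_right)
  have hnA : ∀ r ∈ S, cj r A = A := fun r hr => by
    rw [hA, cj_inf, cj_commutator, cj_eq_self_of_mem hr, cj_eq_self_of_mem (hSN hr)]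
  have hnB : ∀ r ∈ S, cj r Bv = Bv := fun r hr => by
    rw [hBv, cj_inf, cj_commutator, cj_eq_self_of_mem hr, cj_eq_self_of_mem (hSC hr)]
  set D := A ⊔ Bv with hDdef
  have hD : ∀ r ∈ S, cj r D ≤ D := fun r hr => by
    show Subgroup.map _ _ ≤ _
    rw [hDdef, Subgroup.map_sup]
    exact sup_le_sup (hnA r hr).le (hnB r hr).le
  have key := pair_local_to_global P hdiv (Rel := TRel D) (isFusionRel_tRel _ D) hW hWZ hVmono
    (fun B h _ he b hb => by rw [he b hb, mul_inv_cancel]; exact D.one_mem)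
    (fun y hy X hX hle b hb => Subgroup.mem_sup_left ⟨S.mul_mem (hle (conj_mem_cj hb)) (S.inv_mem (hX hb)),
      Subgroup.commutator_mem_commutator hy (hSN (hX hb))⟩)
    (fun y hy X hX hle b hb => Subgroup.mem_sup_right ⟨S.mul_mem (hle (conj_mem_cj hb)) (S.inv_mem (hX hb)),
      Subgroup.commutator_mem_commutator hy (hSC (hX hb))⟩) ?_
  · refine ⟨S, P.2, P.not_dvd_index, fun x => ⟨fun hx => ?_, ?_⟩⟩
    · have h1 := inf_commutator_le_of_tRel P hD key hx
      rw [← SetLike.mem_coe, hDdef, Subgroup.coe_mul_of_right_le_normalizer_left _ _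
        (fun b (hb : b ∈ Bv) => cj_eq_self_iff.1 (hnA b hb.1))] at h1
      obtain ⟨a, ha, b, hb, rfl⟩ := h1
      exact ⟨a, ha, b, hb, rfl⟩
    · rintro ⟨a, ha, b, hb, rfl⟩
      refine ⟨S.mul_mem ha.1 hb.1, ?_⟩
      rw [commutator_def]
      exact mul_mem (Subgroup.commutator_mono le_top le_top ha.2) (Subgroup.commutator_mono le_top le_top hb.2)
  intro U hUP hZ hext hsW hsV B hB h hh hle b hb
  obtain ⟨g, hgZ, hgP⟩ := hZ
  obtain ⟨Q, hQN, hQ, hQi, hQc⟩ := hloc (cj g U) hgZ hgP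
  obtain ⟨k, hkN, hkR, hkW, hkV⟩ := exists_transport hW hV P rfl hext hQN hQ hQi
  set NU := Subgroup.normalizer (U : Set G) with hNU
  set R := S ⊓ NU with hR
  have hRp : IsPGroup p R := P.2.to_inf_left
  have hmem : h * b * h⁻¹ * b⁻¹ ∈ R ⊓ ⁅NU, NU⁆ :=
    ⟨R.mul_mem (hle (conj_mem_cj hb)) (R.inv_mem (hB hb)),
      Subgroup.commutator_mem_commutator hh (hB hb).2⟩
  have hmem' := conj_mem_cj (g := k) hmem
  rw [cj_inf, cj_commutator, hkR, hkN] at hmem'
  obtain ⟨a, ha, c, hc, hac⟩ := (hQc _).1 hmem'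
  rw [← hkW, ← hkR, ← cj_commutator, ← cj_inf] at ha
  rw [← hkV, ← hkR, ← cj_commutator, ← cj_inf] at hc
  obtain ⟨a', ha', rfl⟩ := ha
  obtain ⟨c', hc', rfl⟩ := hc
  have hac' : h * b * h⁻¹ * b⁻¹ = a' * c' := by
    refine (MulAut.conj k).injective ?_
    rw [map_mul (MulAut.conj k) a' c']
    exact hac
  rw [hac']
  have hloc' : ∀ M : Subgroup G, R ≤ M → M ≤ NU →
      (∀ y ∈ M, ∀ X ≤ R, cj y X ≤ R → TRel D X y) → R ⊓ ⁅M, M⁆ ≤ D := by
    intro M hRM hMN hst
    refine inf_commutator_le hRp hRM (fun hd => hext (hd.trans ?_)) (fun r hr => hD r hr.1) fun x hx u hu hxu => ?_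
    · exact Dvd.intro _ (Subgroup.relIndex_mul_relIndex _ _ _ hRM hMN)
    · refine hst u hu (Subgroup.zpowers x) (Subgroup.zpowers_le.mpr hx) ?_ x (Subgroup.mem_zpowers x)
      rw [show cj u (Subgroup.zpowers x) = Subgroup.zpowers (u * x * u⁻¹) from MonoidHom.map_zpowers _ x]
      exact Subgroup.zpowers_le.mpr hxu
  refine D.mul_mem (hloc' _ ?_ inf_le_left hsW ha') (hloc' _ ?_ inf_le_left hsV hc')
  · exact le_inf inf_le_right (Subgroup.le_normalizer.trans (normalizer_le_normalizer_functor hW hRp))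
  · exact le_inf inf_le_right (Subgroup.le_centralizer_iff.1 ((hVZ R hRp).trans inf_le_right))

end Cfsg.Agent.S2001
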