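import Cfsg.Statements.S2002
import Cfsg.Agent.Lib.ConjFunctor.CentralPairControl

set_option autoImplicit false
open Cfsg
open CfsgLib.ConjFunctor

namespace Cfsg.Agent.S2002

/-- Let p be a prime dividing the order of the finite group G, P a Sylow p-subgroup, W a conjugacy functor for p on G with Z(H) ≤ W(H) for every nontrivial p-subgroup H, and V a central functor (a conjugacy functor with V(H) ≤ Z(H), and V(H) ≤ V(K) whenever Z(H) ≤ Z(K)). Say that W with V controls strong fusion in a subgroup L when some Sylow p-subgroup Q of L has the property: whenever X ⊆ Q and a ∈ L with a⁻¹Xa ⊆ Q, then a = c b with c ∈ C_L(X) and b = b₁ ⋯ bₙ a product of elements each in N_L(W(Q)) or in C_L(V(Q)) such that every partial conjugate (b₁ ⋯ bₖ)⁻¹ X (b₁ ⋯ bₖ) lies in Q. If W with V controls strong fusion in N_G(H) for every subgroup H with Z(P) ≤ H ≤ P, then W with V controls strong fusion in G. -/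
theorem result {G : Type*} [Group G] [Finite G] {p : ℕ} [Fact p.Prime] (hdiv : p ∣ Nat.card G) (P : Sylow p G) (W V : Subgroup G → Subgroup G) (hW : Cfsg.IsConjugacyFunctor p W) (hV : Cfsg.IsConjugacyFunctor p V) (hWZ : ∀ H : Subgroup G, IsPGroup p ↥H → H ⊓ Subgroup.centralizer ((H : Subgroup G) : Set G) ≤ W H) (hVZ : ∀ H : Subgroup G, IsPGroup p ↥H → V H ≤ H ⊓ Subgroup.centralizer ((H : Subgroup G) : Set G)) (hVmono : ∀ H K : Subgroup G, IsPGroup p ↥H → IsPGroup p ↥K → H ≠ ⊥ → K ≠ ⊥ → H ⊓ Subgroup.centralizer ((H : Subgroup G) : Set G) ≤ K ⊓ Subgroup.centralizer ((K : Subgroup G) : Set G) → V H ≤ V K) (hloc : ∀ H : Subgroup G, (P : Subgroup G) ⊓ Subgroup.centralizer (((P : Subgroup G) : Subgroup G) : Set G) ≤ H → H ≤ (P : Subgroup G) → ∃ Q : Subgroup G, Q ≤ Subgroup.normalizer ((H : Subgroup G) : Set G) ∧ IsPGroup p ↥Q ∧ ¬ p ∣ (Q).relIndex (Subgroup.normalizer ((H : Subgroup G) : Set G)) ∧ ∀ (X : Set G) (a : G), X ⊆ Q →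 a ∈ Subgroup.normalizer ((H : Subgroup G) : Set G) → (fun x => a⁻¹ * x * a) '' X ⊆ Q → ∃ c ∈ Subgroup.normalizer ((H : Subgroup G) : Set G) ⊓ Subgroup.centralizer X, ∃ (n : ℕ) (b : Fin n → G), (∀ i, b i ∈ Subgroup.normalizer ((H : Subgroup G) : Set G) ⊓ Subgroup.normalizer ((W Q : Subgroup G) : Set G) ∨ b i ∈ Subgroup.normalizer ((H : Subgroup G) : Set G) ⊓ Subgroup.centralizer ((V Q : Subgroup G) : Set G)) ∧ a = c * (List.ofFn b).prod ∧ ∀ k : ℕ, k ≤ n → (fun x => (((List.ofFn b).take k).prod)⁻¹ * x * ((List.ofFn b).take k).prod) '' ((fun x => c⁻¹ * x * c) '' X) ⊆ Q) : ∃ Q : Subgroup G, IsPGroup p ↥Q ∧ ¬ p ∣ Q.index ∧ ∀ (X : Set G) (a : G), X ⊆ Q → (fun x => a⁻¹ * x * a) '' X ⊆ Q → ∃ c ∈ Subgroup.centralizer X, ∃ (n : ℕ) (b : Fin n → G), (∀ i, b i ∈ ⊤ ⊓ Subgroup.normalizer ((W Q : Subgroup G) : Set G) ∨ b i ∈ ⊤ ⊓ Subgroup.centralizer ((V Q : Subgroup G) : Set G)) ∧ a = c * (List.ofFn b).prod ∧ ∀ k : ℕ, k ≤ n → (fun x =>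 (((List.ofFn b).take k).prod)⁻¹ * x * ((List.ofFn b).take k).prod) '' ((fun x => c⁻¹ * x * c) '' X) ⊆ Q := by
  set 𝒩 : Set (Subgroup G) :=
    {Subgroup.normalizer (W (P : Subgroup G) : Set G), Subgroup.centralizer (V (P : Subgroup G) : Set G)} with h𝒩
  have key := pair_local_to_global P hdiv (Rel := Reach 𝒩 (P : Subgroup G)) isFusionRel_reach hW hWZ hVmono
    (fun B h _ he => .refl he) (fun y hy X _ hle => Reach.single (Or.inl rfl) hy hle)
    (fun y hy X _ hle => Reach.single (Or.inr rfl) hy hle) ?_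
  · refine ⟨P, P.2, P.not_dvd_index, fun X a hX ha => ?_⟩
    have hB : Subgroup.closure X ≤ (P : Subgroup G) := (Subgroup.closure_le _).2 hX
    obtain ⟨n, c, h0, hs, hi, he⟩ := (key (Subgroup.closure X) a⁻¹ hB (cj_closure_le_iff.2 (by
      rintro _ ⟨x, hx, rfl⟩
      simpa using ha ⟨x, hx, rfl⟩))).exists_chain hB
    have hc : a * c (Fin.last n) ∈ Subgroup.centralizer X := by
      refine Subgroup.mem_centralizer_iff.2 fun x hx => ?_
      have h1 := he x (Subgroup.subset_closure hx)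
      rw [inv_inv, mul_inv_eq_iff_eq_mul] at h1
      calc x * (a * c (Fin.last n)) = a * (a⁻¹ * x * a * c (Fin.last n)) := by group
        _ = a * c (Fin.last n) * x := by rw [← h1]; group
    refine ⟨_, hc, n, fun i => c i.castSucc * (c i.succ)⁻¹, fun i => ?_, ?_, fun k hk => ?_⟩
    · obtain ⟨N, hN, hx⟩ := hs i
      have hx' := N.inv_mem hx
      rw [mul_inv_rev, inv_inv] at hx'
      rcases hN with rfl | rfl
      · exact Or.inl ⟨Subgroup.mem_top _, hx'⟩
      · exact Or.inr ⟨Subgroup.mem_top _, hx'⟩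
    · have h1 := prod_take_chain c h0 n le_rfl
      rw [List.take_of_length_le (by simp)] at h1
      rw [h1]
      exact (mul_inv_cancel_right a (c (Fin.last n))).symm
    · rintro _ ⟨_, ⟨x, hx, rfl⟩, rfl⟩
      have h1 : (a * c (Fin.last n))⁻¹ * x * (a * c (Fin.last n)) = x := by
        rw [mul_assoc, Subgroup.mem_centralizer_iff.1 hc x hx, inv_mul_cancel_left]
      simp only [h1, prod_take_chain c h0 k hk, inv_inv]
      exact hi _ (conj_mem_cj (Subgroup.subset_closure hx))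
  intro U hUP hZ hext hsW hsV B hB h hh hle
  obtain ⟨g, hgZ, hgP⟩ := hZ
  obtain ⟨Q, hQN, hQ, hQi, hQc⟩ := hloc (cj g U) hgZ hgP
  obtain ⟨k, hkN, hkR, hkW, hkV⟩ := exists_transport hW hV P rfl hext hQN hQ hQi
  have hN : k * h * k⁻¹ ∈ Subgroup.normalizer ((cj g U : Subgroup G) : Set G) := hkN ▸ conj_mem_cj hh
  obtain ⟨c, hc, n, b, hb, hprod, himg⟩ := hQc ((cj k B : Subgroup G) : Set G) (k * h * k⁻¹)⁻¹
    ((cj_mono k hB).trans_eq hkR) (Subgroup.inv_mem _ hN) (by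
      rintro _ ⟨_, ⟨x, hx, rfl⟩, rfl⟩
      have h1 : k * (h * x * h⁻¹) * k⁻¹ ∈ Q := hkR ▸ conj_mem_cj (hle (conj_mem_cj hx))
      show (k * h * k⁻¹)⁻¹⁻¹ * (k * x * k⁻¹) * (k * h * k⁻¹)⁻¹ ∈ Q
      convert h1 using 1
      group)
  have hcx : ∀ x ∈ cj k B, c⁻¹ * x * c = x := fun x hx => by
    rw [mul_assoc, Subgroup.mem_centralizer_iff.1 hc.2 x hx, inv_mul_cancel_left]
  have r : Reach {Subgroup.normalizer ((cj g U : Subgroup G) : Set G) ⊓ Subgroup.normalizer (W Q : Set G),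
      Subgroup.normalizer ((cj g U : Subgroup G) : Set G) ⊓ Subgroup.centralizer (V Q : Set G)}
      Q (cj k B) (k * h * k⁻¹) := by
    refine reach_of_word b (fun i => ?_) (fun i hi x hx => himg i hi ⟨_, ⟨x, hx, rfl⟩, by simp only [hcx x hx]⟩)
      fun x hx => ?_
    · rcases hb i with h' | h'
      · exact ⟨_, Or.inl rfl, h'⟩
      · exact ⟨_, Or.inr rfl, h'⟩
    · have h1 := congrArg (fun a => a⁻¹ * x * a) hprod
      simp only [inv_inv] at h1
      rw [h1]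
      conv_lhs => rw [← hcx x hx]
      group
  have r' := r.mapConj k⁻¹
  rw [cj_inv_cj, ← hkW, ← hkV, Set.image_pair, cj_inv_cj, cj_inv_cj, ← hkR, cj_inv_cj] at r'
  rw [show k⁻¹ * (k * h * k⁻¹) * k⁻¹⁻¹ = h by group] at r'
  refine r'.rel isFusionRel_reach (fun B h _ he => .refl he) inf_le_left ?_ hB
  rintro N (rfl | rfl) y hy X hX hyX
  · exact hsW y hy X hX hyX
  · exact hsV y hy X hX hyX

end Cfsg.Agent.S2002
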