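import Cfsg.Statements.S2010
import Cfsg.Agent.Lib.SFourFree.Basic
import Cfsg.Agent.Lib.PSolvable.HallHigman
import Cfsg.Agent.Lib.ThompsonJ.CoprimeQuotient
import Cfsg.Agent.Lib.ThompsonJ.Quadratic

set_option autoImplicit false
open Cfsg

namespace Cfsg.Agent.S2010

open scoped commutatorElement
/-- The core case: trivial `O_{2'}`, every elementary abelian subgroup of largest order of `S` lies in `O_2`. -/
theorem elem_le_pCore {G : Type*} [Group G] [Finite G] [Group.IsSolvable G]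
    (hS4 : ¬ Cfsg.Involves (Equiv.Perm (Fin 4)) G) (hO : Cfsg.pPrimeCore 2 G = ⊥) (S : Sylow 2 G)
    (hcl : ∀ x ∈ (S : Subgroup G), ∀ y ∈ (S : Subgroup G), ∀ z ∈ (S : Subgroup G), Commute ⁅x, y⁆ z)
    {A : Subgroup G} (hAS : A ≤ (S : Subgroup G)) (hA : Cfsg.IsElementaryAbelian 2 A)
    (hmax : ∀ B : Subgroup G, B ≤ (S : Subgroup G) → Cfsg.IsElementaryAbelian 2 B →
      Nat.card B ≤ Nat.card A) : A ≤ Cfsg.pCore 2 G := by
  classical
  haveI : Fact (Nat.Prime 2) := ⟨Nat.prime_two⟩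
  set Q := Cfsg.pCore 2 G
  haveI hQn : Q.Normal := inferInstance
  have hQp : IsPGroup 2 Q := CfsgLib.Cores.isPGroup_pCore 2 G
  have hQS : Q ≤ (S : Subgroup G) := CfsgLib.Cores.pCore_le_sylow S
  have hCQ : Subgroup.centralizer (Q : Set G) ≤ Q :=
    CfsgLib.PSolvable.centralizer_pCore_le (CfsgLib.PSolvable.isPSolvable_of_isSolvable (p := 2)) hO
  set ZQ := Q ⊓ Subgroup.centralizer (Q : Set G)
  let U : Subgroup G :=
    { carrier := {u | u ∈ ZQ ∧ u ^ 2 = 1}
      one_mem' := ⟨one_mem _, one_pow _⟩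
      mul_mem' := fun {x y} hx hy => ⟨mul_mem hx.1 hy.1, by
        rw [(show Commute x y from (hy.1.2 x hx.1.1)).mul_pow, hx.2, hy.2, one_mul]⟩
      inv_mem' := fun {x} hx => ⟨inv_mem hx.1, by rw [inv_pow, hx.2, inv_one]⟩ }
  haveI hUn : U.Normal := ⟨fun u hu g => ⟨(inferInstance : ZQ.Normal).conj_mem u hu.1 g, by
    rw [conj_pow, hu.2, mul_one, mul_inv_cancel]⟩⟩
  have hUe : Cfsg.IsElementaryAbelian 2 U :=
    ⟨⟨⟨fun x y => Subtype.ext (y.2.1.2 x x.2.1.1)⟩⟩, fun u hu => hu.2⟩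
  -- the kernel of the action on `Q/Z(Q)`
  let C1 : Subgroup G := (Subgroup.centralizer ((Q.map (QuotientGroup.mk' ZQ) : Subgroup (G ⧸ ZQ)) :
    Set (G ⧸ ZQ))).comap (QuotientGroup.mk' ZQ)
  haveI : (Q.map (QuotientGroup.mk' ZQ)).Normal :=
    Subgroup.Normal.map inferInstance _ (QuotientGroup.mk'_surjective _)
  haveI : C1.Normal := Subgroup.Normal.comap inferInstance _
  have hC1 : ∀ g, g ∈ C1 → ∀ q ∈ Q, g * q * g⁻¹ * q⁻¹ ∈ ZQ := by
    intro g hg q hq
    have h := Subgroup.mem_centralizer_iff.1 (Subgroup.mem_comap.1 hg) _ ⟨q, hq, rfl⟩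
    refine (QuotientGroup.eq_one_iff _).1 ?_
    show QuotientGroup.mk' ZQ _ = 1
    rw [map_mul, map_mul, map_mul, map_inv, map_inv, ← h, mul_inv_cancel_right, mul_inv_cancel]
  have hSC1 : (S : Subgroup G) ≤ C1 := by
    intro s hs
    refine Subgroup.mem_comap.2 (Subgroup.mem_centralizer_iff.2 ?_)
    rintro _ ⟨q, hq, rfl⟩
    rw [← map_mul, ← map_mul, ← mul_inv_eq_one, ← map_inv, ← map_mul]
    refine (QuotientGroup.eq_one_iff _).2 ?_
    rw [show q * s * (s * q)⁻¹ = ⁅q, s⁆ by rw [commutatorElement_def]; group]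
    refine ⟨?_, fun z hz => (hcl q (hQS hq) s hs z (hQS hz)).symm.eq⟩
    rw [commutatorElement_def, mul_assoc, mul_assoc, ← mul_assoc s]
    exact mul_mem hq (hQn.conj_mem _ (inv_mem hq) s)
  -- `rad2 U` meets it inside `Q`
  have hrad : CfsgLib.SFourFree.rad2 U ⊓ C1 ≤ Q := by
    refine CfsgLib.Cores.le_pCore (IsPGroup.iff_orderOf.2 fun x => ?_)
    obtain ⟨k, m, hm, hkm⟩ := Nat.exists_eq_two_pow_mul_odd (orderOf_pos x).ne'
    refine ⟨k, ?_⟩
    set g : G := ((x ^ 2 ^ k : ↥(CfsgLib.SFourFree.rad2 U ⊓ C1)) : G) with hg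
    have hgm : g ^ m = 1 := by
      rw [hg, ← SubgroupClass.coe_pow, ← pow_mul, ← hkm, pow_orderOf_eq_one]
      rfl
    have hgmem := (x ^ 2 ^ k).2
    have hgU : g ∈ Subgroup.centralizer (U : Set G) :=
      CfsgLib.SFourFree.mem_centralizer_of_mem_rad2 hgmem.1 hm (by rw [hgm]; exact one_mem _)
    -- `g` fixes `q` as soon as it fixes the commutator
    have hstep : ∀ d q : G, g * d * g⁻¹ = d → g * q * g⁻¹ = d * q → d ∈ Q → g * q * g⁻¹ = q := by
      intro d q hd hq hdQ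
      have hm' := CfsgLib.ThompsonJ.conj_zpow_of_fix hq (mul_inv_eq_iff_eq_mul.1 hd) (m : ℤ)
      rw [zpow_natCast, zpow_natCast, hgm, one_mul, inv_one, mul_one, eq_comm, mul_eq_right] at hm'
      obtain ⟨j, hj⟩ := hQp ⟨d, hdQ⟩
      have hd1 : d = 1 := CfsgLib.SFourFree.pow_eq_one_of_coprime_pow hm'
        (show d ^ 2 ^ j = 1 from congrArg Subtype.val hj) ((Nat.coprime_two_right.2 hm).pow_right j)
      rw [hq, hd1, one_mul]
    have hgZ : ∀ (j : ℕ) (z : G), z ∈ ZQ → z ^ 2 ^ j = 1 → g * z * g⁻¹ = z := by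
      intro j
      induction j with
      | zero =>
        intro z _ hz
        rw [pow_zero, pow_one] at hz
        simp [hz]
      | succ j ihj =>
        intro z hz hzj
        have hz2 : g * z ^ 2 * g⁻¹ = z ^ 2 := ihj _ (pow_mem hz 2) (by rw [← pow_mul, ← pow_succ', hzj])
        have hzc : g * z * g⁻¹ ∈ ZQ := (inferInstance : ZQ.Normal).conj_mem z hz g
        refine hstep (g * z * g⁻¹ * z⁻¹) z ?_ (by group) (mul_mem hzc (inv_mem hz)).1
        refine CfsgLib.SFourFree.conj_eq_of_mem_centralizer hgU ⟨mul_mem hzc (inv_mem hz), ?_⟩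
        have hc : Commute (g * z * g⁻¹) z⁻¹ := ((inv_mem hz).2 _ hzc.1)
        rw [hc.mul_pow, conj_pow, hz2, inv_pow, mul_inv_cancel]
    have hgQ : g ∈ Subgroup.centralizer (Q : Set G) :=
      CfsgLib.SFourFree.mem_centralizer_of_conj_eq fun q hq => by
        have hd := hC1 g hgmem.2 q hq
        obtain ⟨j, hj⟩ := hQp ⟨_, hd.1⟩
        exact hstep _ q (hgZ j _ hd (congrArg Subtype.val hj)) (by group) hd.1
    obtain ⟨j, hj⟩ := hQp ⟨g, hCQ hgQ⟩
    have h1 : g = 1 := CfsgLib.SFourFree.pow_eq_one_of_coprime_pow hgm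
      (show g ^ 2 ^ j = 1 from congrArg Subtype.val hj) ((Nat.coprime_two_right.2 hm).pow_right j)
    have h2 : orderOf x ∣ 2 ^ k := orderOf_dvd_of_pow_eq_one (Subtype.ext h1)
    exact Nat.dvd_antisymm h2 (hkm ▸ dvd_mul_right _ _)
  have hAC : A ⊓ Subgroup.centralizer (U : Set G) = A ⊓ Q := by
    refine le_antisymm (fun a ha => ⟨ha.1, hrad ⟨CfsgLib.SFourFree.centralizer_le_rad2 U ha.2,
      hSC1 (hAS ha.1)⟩⟩) fun a ha => ⟨ha.1, fun u hu => (hu.1.2 a ha.2).symm⟩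
  have hAR : A ⊓ CfsgLib.SFourFree.rad2 U ≤ A ⊓ Subgroup.centralizer (U : Set G) := by
    rw [hAC]
    exact fun a ha => ⟨ha.1, hrad ⟨ha.2, hSC1 (hAS ha.1)⟩⟩
  -- the bound
  have hsq := CfsgLib.SFourFree.sq_relIndex_rad2_le (Nat.card U) G hS4 U le_rfl hUe A
    (CfsgLib.SFourFree.elemMod_of_isElementaryAbelian hA U)
  have hrel : (A ⊓ CfsgLib.SFourFree.rad2 U).relIndex A = CfsgLib.SFourFree.actCard A U := by
    unfold CfsgLib.SFourFree.actCard
    rw [le_antisymm hAR (le_inf inf_le_left (inf_le_right.trans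
      (CfsgLib.SFourFree.centralizer_le_rad2 U)))]
  rw [hrel] at hsq
  -- maximality
  have hUQ : U ≤ Q := fun u hu => hu.1.1
  set D := A ⊓ Q
  have hDU : D ≤ Subgroup.centralizer (U : Set G) := fun a ha u hu => (hu.1.2 a ha.2).symm
  have hB : Cfsg.IsElementaryAbelian 2 (D ⊔ U : Subgroup G) :=
    CfsgLib.ThompsonJ.isElementaryAbelian_sup (CfsgLib.ThompsonJ.isElementaryAbelian_mono hA inf_le_left)
      hUe hDU
  have hcard := hmax _ (sup_le (inf_le_left.trans hAS) (hUQ.trans hQS)) hB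
  have h1 : D.relIndex (D ⊔ U) * Nat.card D = Nat.card ↥(D ⊔ U) := by
    rw [mul_comm, Subgroup.relIndex, ← Nat.card_congr
      (Subgroup.subgroupOfEquivOfLe (le_sup_left : D ≤ D ⊔ U)).toEquiv]
    exact Subgroup.card_mul_index _
  have h2 : CfsgLib.SFourFree.actCard A U * Nat.card D = Nat.card A := by
    unfold CfsgLib.SFourFree.actCard
    rw [hAC, mul_comm, Subgroup.relIndex, ← Nat.card_congr
      (Subgroup.subgroupOfEquivOfLe (inf_le_left : D ≤ A)).toEquiv]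
    exact Subgroup.card_mul_index _
  rw [CfsgLib.SFourFree.relIndex_sup_eq (H := D) (K := U) ((Subgroup.le_centralizer_iff.1 hDU).trans
    (Subgroup.centralizer_le_normalizer _))] at h1
  have hDrel : D.relIndex U ≤ CfsgLib.SFourFree.actCard A U := by
    refine Nat.le_of_mul_le_mul_right ?_ (Nat.card_pos (α := D))
    rw [h1, h2]; exact hcard
  have hfix : CfsgLib.SFourFree.fixIdx A U ≤ D.relIndex U := by
    have h : (U ⊓ Subgroup.centralizer (A : Set G)).relIndex U ≤ (U ⊓ D).relIndex U :=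
      CfsgLib.SFourFree.relIndex_le_of_le_left
        (inf_le_inf_left U (inf_le_left.trans (CfsgLib.ThompsonJ.isElementaryAbelian_le_centralizer hA))) U
    rwa [Subgroup.inf_relIndex_left U D] at h
  have hle : CfsgLib.SFourFree.actCard A U ^ 2 ≤ CfsgLib.SFourFree.actCard A U :=
    hsq.trans (hfix.trans hDrel)
  have h1' : CfsgLib.SFourFree.actCard A U = 1 := by
    have hpos : 0 < CfsgLib.SFourFree.actCard A U := CfsgLib.SFourFree.relIndex_pos _ _
    nlinarith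
  have hAD : A ≤ D := by
    unfold CfsgLib.SFourFree.actCard at h1'
    rw [hAC, Subgroup.relIndex_eq_one] at h1'
    exact h1'
  exact hAD.trans inf_le_right

/-- Let G be a finite solvable group with no section isomorphic to the symmetric group of degree 4, whose Sylow 2-subgroup S has nilpotency class at most 2. Then G = N_G(J_e(S)) · O_{2'}(G), where J_e(S) is the subgroup generated by the elementary abelian subgroups of S of largest order. -/
theorem result {G : Type*} [Group G] [Finite G]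
    [Group.IsSolvable G] (hS4 : ¬ Cfsg.Involves (Equiv.Perm (Fin 4)) G) (S : Sylow 2 G)
    (hcl : Subgroup.lowerCentralSeries (S : Subgroup G) 2 = ⊥) :
    Subgroup.normalizer ((Cfsg.thompsonSubgroupOf 2 (S : Subgroup G)) : Set G) ⊔ Cfsg.pPrimeCore 2 G = ⊤ := by
  haveI : Fact (Nat.Prime 2) := ⟨Nat.prime_two⟩
  set O := Cfsg.pPrimeCore 2 G
  set π := QuotientGroup.mk' O
  have hπ : Function.Surjective π := QuotientGroup.mk'_surjective O
  have hcop : (Nat.card O).Coprime 2 := CfsgLib.Cores.card_pPrimeCore_coprime 2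
  let Sb : Sylow 2 (G ⧸ O) := S.mapSurjective hπ
  have hSb : (Sb : Subgroup (G ⧸ O)) = (S : Subgroup G).map π := Sylow.coe_mapSurjective hπ S
  have hclG : ∀ x ∈ (S : Subgroup G), ∀ y ∈ (S : Subgroup G), ∀ z ∈ (S : Subgroup G), Commute ⁅x, y⁆ z := by
    intro x hx y hy z hz
    rw [Subgroup.lowerCentralSeries_succ, Subgroup.lowerCentralSeries_succ,
      Subgroup.lowerCentralSeries_zero] at hcl
    exact commutatorElement_eq_one_iff_commute.1 (Subgroup.mem_bot.1 (hcl ▸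
      Subgroup.commutator_mem_commutator (Subgroup.commutator_mem_commutator hx hy) hz))
  have hclb : ∀ x ∈ (Sb : Subgroup (G ⧸ O)), ∀ y ∈ (Sb : Subgroup (G ⧸ O)),
      ∀ z ∈ (Sb : Subgroup (G ⧸ O)), Commute ⁅x, y⁆ z := by
    rw [hSb]
    rintro _ ⟨x, hx, rfl⟩ _ ⟨y, hy, rfl⟩ _ ⟨z, hz, rfl⟩
    rw [← map_commutatorElement]
    exact (hclG x hx y hy z hz).map π
  have hle : Cfsg.thompsonSubgroupOf 2 (Sb : Subgroup (G ⧸ O)) ≤ Cfsg.pCore 2 (G ⧸ O) := by
    rw [Cfsg.thompsonSubgroupOf, Subgroup.map_le_iff_le_comap]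
    refine sSup_le ?_
    rintro A' ⟨hA', hmax⟩
    rw [← Subgroup.map_le_iff_le_comap]
    refine elem_le_pCore (CfsgLib.SFourFree.not_involves_quotient hS4 O)
      (CfsgLib.Cores.pPrimeCore_quotient_pPrimeCore 2) Sb hclb (Subgroup.map_subtype_le A')
      (CfsgLib.ThompsonJ.isElementaryAbelian_map hA' _) fun B hB hBe => ?_
    rw [Subgroup.card_map_of_injective (Sb : Subgroup (G ⧸ O)).subtype_injective]
    refine le_of_eq_of_le (Nat.card_congr (Subgroup.subgroupOfEquivOfLe hB).toEquiv).symm (hmax _ ?_)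
    exact CfsgLib.ThompsonJ.isElementaryAbelian_subgroupOf hBe
  have hJn : Subgroup.normalizer ((Cfsg.thompsonSubgroupOf 2 (Sb : Subgroup (G ⧸ O))) : Set (G ⧸ O)) = ⊤ := by
    refine Subgroup.normalizer_eq_top_iff.2 ?_
    rw [show Cfsg.thompsonSubgroupOf 2 (Sb : Subgroup (G ⧸ O)) = Cfsg.thompsonSubgroupOf 2 (Cfsg.pCore 2 (G ⧸ O)) from
      (CfsgLib.ThompsonJ.thompsonSubgroupOf_eq_of_le (CfsgLib.Cores.pCore_le_sylow Sb) hle).symm]
    haveI : ((Cfsg.thompsonSubgroup 2 ↥(Cfsg.pCore 2 (G ⧸ O)))).Characteristic :=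
      CfsgLib.ThompsonJ.thompsonSubgroup_characteristic 2 _
    exact (inferInstance : ((Cfsg.thompsonSubgroup 2 ↥(Cfsg.pCore 2 (G ⧸ O))).map (Cfsg.pCore 2 (G ⧸ O)).subtype).Normal)
  have hJmap : (Cfsg.thompsonSubgroupOf 2 (S : Subgroup G)).map π =
      Cfsg.thompsonSubgroupOf 2 (Sb : Subgroup (G ⧸ O)) := by
    rw [hSb]
    exact CfsgLib.ThompsonJ.map_thompsonSubgroupOf_of_injective π
      (CfsgLib.ThompsonJ.injective_mk'_comp_subtype hcop S.2)
  rw [eq_top_iff]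
  intro x _
  obtain ⟨m, hm, k, hk, rfl⟩ := CfsgLib.ThompsonJ.exists_mul_normalizer hcop
    (Q := Cfsg.thompsonSubgroupOf 2 (S : Subgroup G)) (S.2.to_le (Subgroup.map_subtype_le _)) (x := x)
    (by rw [hJmap, hJn]; exact Subgroup.mem_top _)
  exact mul_mem (Subgroup.mem_sup_right hm) (Subgroup.mem_sup_left hk)

end Cfsg.Agent.S2010
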