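import Cfsg.Statements.S2015
import Cfsg.Agent.Lib.KInf.Control

set_option autoImplicit false
universe u
open Cfsg

namespace Cfsg.Agent.S2015

/-- For p ≥ 5, every finite p-group P has a characteristic subgroup K containing Z(P), depending only on P, whose normalizer controls transfer wherever P is a Sylow subgroup: for every finite group G and every embedding ι of P onto a Sylow p-subgroup of G, the intersection of ι(P) with the derived subgroup of G equals its intersection with the derived subgroup of N_G(ι(K)). -/
theorem result (p : ℕ) [Fact p.Prime] (hp : 5 ≤ p) (P : Type u) [Group P] [Finite P] (hP : IsPGroup p P) : ∃ K : Subgroup P, K.Characteristic ∧ Subgroup.center P ≤ K ∧ ∀ (G : Type u) [Group G] [Finite G] (ι : P →* G), Function.Injective ι → (∃ T : Sylow p G, (T : Subgroup G) = ι.range) → ι.range ⊓ commutator G = ι.range ⊓ (commutator ↥(Subgroup.normalizer ((K.map ι : Subgroup G) : Set G))).map (Subgroup.normalizer ((K.map ι : Subgroup G) : Set G)).subtype := by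
  refine ⟨Cfsg.kInfLower P, ?_, CfsgLib.KInf.isKInf_lower.center_le hP, fun G _ _ ι hι hT => ?_⟩
  · rw [Subgroup.characteristic_iff_map_eq]
    exact fun e => (CfsgLib.KInf.kInf_map_equiv e).1
  obtain ⟨T, hT⟩ := hT
  have hmap : Cfsg.inducedFunctor Cfsg.kInfLower (T : Subgroup G) = (Cfsg.kInfLower P).map ι := by
    rw [hT]
    have h := CfsgLib.ConjFunctor.inducedFunctor_map (W := fun Q _ => Cfsg.kInfLower Q)
      CfsgLib.KInf.isKInf_lower.isCharPFunctor ι (hP.to_subgroup ⊤) fun x _ hx => hι (hx.trans ι.map_one.symm)
    rw [← MonoidHom.range_eq_map] at h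
    rw [h]
    congr 1
    unfold Cfsg.inducedFunctor
    exact (CfsgLib.KInf.kInf_map_equiv (Subgroup.topEquiv : (⊤ : Subgroup P) ≃* P)).1
  rw [Subgroup.map_subtype_commutator, ← hmap, ← hT]
  exact CfsgLib.KInf.inf_commutator_eq_of_transferOK (CfsgLib.KInf.isKInf_lower.transferOK hp) T

end Cfsg.Agent.S2015
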