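import Cfsg.Statements.S2162
import Cfsg.Agent.Lib.InvolutionClasses.NormalForm

set_option autoImplicit false
open Cfsg

namespace Cfsg.Agent.S2162

open Matrix

theorem sq_zero {F : Type*} [Field F] [CharP F 2] {n : ℕ} {a : Matrix.SpecialLinearGroup (Fin n) F}
    (ha : orderOf a = 2) :
    ((a : Matrix (Fin n) (Fin n) F) - 1) * ((a : Matrix (Fin n) (Fin n) F) - 1) = 0 := by
  have h1 : a * a = 1 := by rw [← pow_two, ← ha]; exact pow_orderOf_eq_one a
  have h2 : (a : Matrix (Fin n) (Fin n) F) * a = 1 := by
    rw [← Matrix.SpecialLinearGroup.coe_mul, h1]; simp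
  rw [mul_sub, sub_mul, h2, one_mul, mul_one]
  have hz : ∀ x : F, x + x = 0 := CharTwo.add_self_eq_zero
  ext i j
  simp only [Matrix.sub_apply, Matrix.zero_apply]
  linear_combination hz ((1 : Matrix (Fin n) (Fin n) F) i j) - hz ((a : Matrix (Fin n) (Fin n) F) i j)

/-- Conjugacy of involutions in the special linear group over a finite field of characteristic two, in dimension at least 3: two elements of order 2 of SL_n(F) are conjugate in SL_n(F) exactly when the matrices a − 1 and b − 1 have the same rank (the rank of a − 1 is the dimension of the commutator space [V, a]). -/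
theorem result {F : Type*} [Field F] [Fintype F] [CharP F 2] {n : ℕ} (hn : 3 ≤ n) (a b : Matrix.SpecialLinearGroup (Fin n) F) (ha : orderOf a = 2) (hb : orderOf b = 2) :
    IsConj a b ↔ ((a : Matrix (Fin n) (Fin n) F) - 1).rank = ((b : Matrix (Fin n) (Fin n) F) - 1).rank := by
  set N := (a : Matrix (Fin n) (Fin n) F) - 1 with hN
  set N' := (b : Matrix (Fin n) (Fin n) F) - 1 with hN'
  constructor
  · intro h
    obtain ⟨g, hg⟩ := isConj_iff.1 h
    have e : (g : Matrix (Fin n) (Fin n) F) * N = N' * g := by
      rw [hN, hN', ← hg, mul_sub, sub_mul, mul_one, one_mul, ← Matrix.SpecialLinearGroup.coe_mul,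
        ← Matrix.SpecialLinearGroup.coe_mul, inv_mul_cancel_right]
    have hu : IsUnit (g : Matrix (Fin n) (Fin n) F).det := by rw [g.2]; exact isUnit_one
    rw [← Matrix.rank_mul_eq_right_of_isUnit_det _ N hu, e,
      Matrix.rank_mul_eq_left_of_isUnit_det _ N' hu]
  · intro h
    have hNne : N ≠ 0 := fun h0 => by
      have : a = 1 := Subtype.ext (by simpa using sub_eq_zero.1 h0)
      simp [this] at ha
    have hsq : ∀ x : F, IsSquare x := fun x =>
      FiniteField.isSquare_of_char_two (ringChar.eq F 2) x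
    obtain ⟨g, hg1, hg2⟩ := CfsgLib.InvolutionClasses.exists_det_one_comm
      (N := N.toLin') (N' := N'.toLin')
      (fun v => by rw [← LinearMap.comp_apply, ← Matrix.toLin'_mul, sq_zero ha]; simp)
      (fun v => by rw [← LinearMap.comp_apply, ← Matrix.toLin'_mul, sq_zero hb]; simp)
      h
      (Nat.pos_of_ne_zero fun h0 => hNne (by
        have h1 := Submodule.finrank_eq_zero.1 h0
        rw [LinearMap.range_eq_bot] at h1
        exact Matrix.toLin'.injective (h1.trans (map_zero _).symm))) hsq
    obtain ⟨G, hG⟩ : ∃ G : Matrix.SpecialLinearGroup (Fin n) F,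
        (G : Matrix (Fin n) (Fin n) F) = LinearMap.toMatrix' g :=
      ⟨⟨LinearMap.toMatrix' g, by rw [LinearMap.det_toMatrix', hg1]⟩, rfl⟩
    refine isConj_iff.2 ⟨G, ?_⟩
    rw [mul_inv_eq_iff_eq_mul]
    refine Subtype.ext ?_
    have e : LinearMap.toMatrix' g * N = N' * LinearMap.toMatrix' g := by
      apply Matrix.toLin'.injective
      rw [Matrix.toLin'_mul, Matrix.toLin'_mul, Matrix.toLin'_toMatrix', hg2]
    rw [hN, hN', mul_sub, sub_mul, mul_one, one_mul, sub_left_inj] at e
    rw [Matrix.SpecialLinearGroup.coe_mul, Matrix.SpecialLinearGroup.coe_mul, hG]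
    exact e

end Cfsg.Agent.S2162
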