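import Cfsg.Statements.S2163
import Cfsg.Agent.Lib.SchurMult.FactorRank
import Mathlib.Algebra.CharP.Two
import Mathlib.LinearAlgebra.Matrix.Block

set_option autoImplicit false
open Cfsg

namespace Cfsg.Agent.S2163

/-- Over a finite field of characteristic two and for n ≥ 3: for every ℓ with 1 ≤ ℓ and 2ℓ ≤ n, the matrix j_ℓ that is the identity plus the entries 1 in positions (n − ℓ + i, i) for i < ℓ (an identity block of size ℓ in the lower left corner) lies in SL_n(F), has order 2, and j_ℓ − 1 has rank ℓ. Together with the conjugacy criterion by rank, these matrices represent the conjugacy classes of involutions of SL_n(F). -/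
theorem result {F : Type*} [Field F] [Fintype F] [CharP F 2] {n : ℕ} (hn : 3 ≤ n) (ℓ : ℕ) (h1 : 1 ≤ ℓ) (h2 : 2 * ℓ ≤ n) :
    ∃ a : Matrix.SpecialLinearGroup (Fin n) F, (a : Matrix (Fin n) (Fin n) F) = 1 + Matrix.of (fun i j : Fin n => if j.val < ℓ ∧ i.val = j.val + (n - ℓ) then (1 : F) else 0) ∧ orderOf a = 2 ∧ ((a : Matrix (Fin n) (Fin n) F) - 1).rank = ℓ := by
  classical
  set N : Matrix (Fin n) (Fin n) F :=
    Matrix.of (fun i j : Fin n => if j.val < ℓ ∧ i.val = j.val + (n - ℓ) then (1 : F) else 0) with hN
  have hdet : (1 + N).det = 1 := by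
    rw [Matrix.det_of_lowerTriangular]
    · refine Finset.prod_eq_one fun i _ => ?_
      simp only [hN, Matrix.add_apply, Matrix.one_apply_eq, Matrix.of_apply]
      rw [if_neg (by omega), add_zero]
    · intro i j hij
      have hij' : (i : ℕ) < (j : ℕ) := hij
      have : i ≠ j := fun e => by rw [e] at hij'; omega
      simp only [hN, Matrix.add_apply, Matrix.one_apply_ne this, Matrix.of_apply]
      rw [if_neg (by omega), add_zero]
  let a : Matrix.SpecialLinearGroup (Fin n) F := ⟨1 + N, hdet⟩
  have hNN : N * N = 0 := by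
    ext i j
    rw [Matrix.mul_apply]
    refine Finset.sum_eq_zero fun k _ => ?_
    simp only [hN, Matrix.of_apply]
    split_ifs <;> first | omega | simp
  have hrank : N.rank = ℓ := by
    refine CfsgLib.SchurMult.rank_eq_of_factor N
      (Matrix.of fun (i : Fin n) (k : Fin ℓ) => if i.val = k.val + (n - ℓ) then (1 : F) else 0)
      (Matrix.of fun (k : Fin ℓ) (j : Fin n) => if j.val = k.val then (1 : F) else 0) ?_
      (fun k => ⟨k.val + (n - ℓ), by omega⟩) (fun k => ⟨k.val, by omega⟩) ?_
    · ext i j
      rw [Matrix.mul_apply]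
      simp only [hN, Matrix.of_apply]
      by_cases hj : j.val < ℓ
      · rw [Finset.sum_eq_single ⟨j.val, hj⟩]
        · simp [hj]
        · intro k _ hk
          rw [if_neg (c := j.val = k.val) (fun e => hk (Fin.ext e.symm)), mul_zero]
        · simp
      · rw [if_neg (fun e => hj e.1)]
        refine (Finset.sum_eq_zero fun k _ => ?_).symm
        rw [if_neg (c := j.val = k.val) (by omega), mul_zero]
    · ext k k'
      simp only [hN, Matrix.submatrix_apply, Matrix.of_apply, Matrix.one_apply, Fin.ext_iff]
      split_ifs <;> first | omega | rfl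
  refine ⟨a, rfl, ?_, ?_⟩
  · refine orderOf_eq_prime ?_ ?_
    · apply Subtype.ext
      rw [Matrix.SpecialLinearGroup.coe_pow, Matrix.SpecialLinearGroup.coe_one, pow_two]
      change (1 + N) * (1 + N) = 1
      rw [add_mul, mul_add, mul_add, one_mul, mul_one, one_mul, hNN, add_zero, add_assoc, ← two_smul F N,
        CharTwo.two_eq_zero, zero_smul, add_zero]
    · intro h
      have h' : (1 + N) = 1 := congrArg Subtype.val h
      rw [add_eq_left] at h'
      rw [h', Matrix.rank_zero] at hrank
      omega
  · change (1 + N - 1).rank = ℓ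
    rw [add_sub_cancel_left, hrank]

end Cfsg.Agent.S2163
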