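import Cfsg.Statements.S2164
import Cfsg.Agent.Lib.InvolutionClasses.Unitary
import Cfsg.Agent.Lib.Omega.UnitaryEigen

set_option autoImplicit false
open Cfsg

namespace Cfsg.Agent.S2164

open Matrix Module CfsgLib

variable {F : Type*} [Field F] {n q : ℕ} {σ : F →+* F}

theorem toLin'_sub_one (A : Matrix (Fin n) (Fin n) F) (v : Fin n → F) :
    Matrix.toLin' (A - 1) v = A *ᵥ v - v := by
  rw [Matrix.toLin'_apply, Matrix.sub_mulVec, Matrix.one_mulVec]

theorem preserves (hσ : ∀ x, σ x = x ^ q) (a : ↥(Cfsg.SU n F q)) (v u : Fin n → F) :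
    Forms.hermBundled n σ (((a : Matrix.SpecialLinearGroup (Fin n) F) : Matrix (Fin n) (Fin n) F) *ᵥ v)
      (((a : Matrix.SpecialLinearGroup (Fin n) F) : Matrix (Fin n) (Fin n) F) *ᵥ u) =
      Forms.hermBundled n σ v u := by
  rw [Forms.hermBundled_apply hσ, Forms.hermBundled_apply hσ]
  exact a.2 u v

/-- The nilpotent part of an involution of the special unitary group. -/
theorem nilPart [CharP F 2] (hσ : ∀ x, σ x = x ^ q) (a : ↥(Cfsg.SU n F q)) (ha : orderOf a = 2) :
    (∀ v, Matrix.toLin' (((a : Matrix.SpecialLinearGroup (Fin n) F) : Matrix (Fin n) (Fin n) F) - 1)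
      (Matrix.toLin' (((a : Matrix.SpecialLinearGroup (Fin n) F) : Matrix (Fin n) (Fin n) F) - 1) v) = 0) ∧
    (∀ u v, Forms.hermBundled n σ
      (Matrix.toLin' (((a : Matrix.SpecialLinearGroup (Fin n) F) : Matrix (Fin n) (Fin n) F) - 1) u) v =
      Forms.hermBundled n σ u
      (Matrix.toLin' (((a : Matrix.SpecialLinearGroup (Fin n) F) : Matrix (Fin n) (Fin n) F) - 1) v)) ∧
    Matrix.toLin' (((a : Matrix.SpecialLinearGroup (Fin n) F) : Matrix (Fin n) (Fin n) F) - 1) ≠ 0 := by
  have h1 : a * a = 1 := by rw [← pow_two, ← ha]; exact pow_orderOf_eq_one a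
  set A := ((a : Matrix.SpecialLinearGroup (Fin n) F) : Matrix (Fin n) (Fin n) F) with hA
  have h2 : A * A = 1 := by
    rw [hA, ← Matrix.SpecialLinearGroup.coe_mul, ← Subgroup.coe_mul, h1, OneMemClass.coe_one,
      Matrix.SpecialLinearGroup.coe_one]
  have haa : ∀ v, A *ᵥ (A *ᵥ v) = v := fun v => by rw [Matrix.mulVec_mulVec, h2, Matrix.one_mulVec]
  refine ⟨fun v => ?_, fun u v => ?_, fun h0 => ?_⟩
  · rw [toLin'_sub_one, toLin'_sub_one, Matrix.mulVec_sub, haa]
    ext i
    simp only [Pi.sub_apply, Pi.zero_apply]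
    linear_combination CharTwo.add_self_eq_zero (v i) - CharTwo.add_self_eq_zero ((A *ᵥ v) i)
  · rw [toLin'_sub_one, toLin'_sub_one]
    simp only [map_sub, LinearMap.sub_apply]
    congr 1
    have := preserves hσ a (A *ᵥ u) v
    rw [← hA, haa] at this
    exact this.symm
  · have hA1 : A = 1 := sub_eq_zero.1 (Matrix.toLin'.injective (h0.trans (map_zero _).symm))
    have : a = 1 := Subtype.ext (Subtype.ext hA1)
    simp [this] at ha

/-- Conjugacy of involutions in the special unitary group SU_n(q), q even, n ≥ 3, realised over the field F with q² elements as the matrices of determinant 1 preserving the form Σ u_i v_i^q: for two elements of order 2 of SU_n(q) the following are equivalent — they are conjugate in SU_n(q); they are conjugate in SL_n(F); the matrices a − 1 and b − 1 have the same rank. -/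
theorem result {F : Type*} [Field F] [Fintype F] [CharP F 2] {n q : ℕ} (hF : Fintype.card F = q ^ 2) (hn : 3 ≤ n) (a b : ↥(Cfsg.SU n F q)) (ha : orderOf a = 2) (hb : orderOf b = 2) :
    (IsConj a b ↔ IsConj (a : Matrix.SpecialLinearGroup (Fin n) F) (b : Matrix.SpecialLinearGroup (Fin n) F)) ∧
    (IsConj a b ↔ (((a : Matrix.SpecialLinearGroup (Fin n) F) : Matrix (Fin n) (Fin n) F) - 1).rank = (((b : Matrix.SpecialLinearGroup (Fin n) F) : Matrix (Fin n) (Fin n) F) - 1).rank) := by
  classical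
  obtain ⟨σ, hσ, hσid, hσ2⟩ := Forms.exists_conj_of_card_sq hF
  set A := ((a : Matrix.SpecialLinearGroup (Fin n) F) : Matrix (Fin n) (Fin n) F) with hA
  set B := ((b : Matrix.SpecialLinearGroup (Fin n) F) : Matrix (Fin n) (Fin n) F) with hB
  have fwd : IsConj (a : Matrix.SpecialLinearGroup (Fin n) F) (b : Matrix.SpecialLinearGroup (Fin n) F) →
      (A - 1).rank = (B - 1).rank := by
    intro h
    obtain ⟨g, hg⟩ := isConj_iff.1 h
    have e : (g : Matrix (Fin n) (Fin n) F) * (A - 1) = (B - 1) * g := by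
      rw [hA, hB, ← hg, mul_sub, sub_mul, mul_one, one_mul, ← Matrix.SpecialLinearGroup.coe_mul,
        ← Matrix.SpecialLinearGroup.coe_mul, inv_mul_cancel_right]
    have hu : IsUnit (g : Matrix (Fin n) (Fin n) F).det := by rw [g.2]; exact isUnit_one
    rw [← Matrix.rank_mul_eq_right_of_isUnit_det _ _ hu, e,
      Matrix.rank_mul_eq_left_of_isUnit_det _ _ hu]
  have fwd' : IsConj a b →
      IsConj (a : Matrix.SpecialLinearGroup (Fin n) F) (b : Matrix.SpecialLinearGroup (Fin n) F) :=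
    fun h => (Cfsg.SU n F q).subtype.map_isConj h
  have bwd : (A - 1).rank = (B - 1).rank → IsConj a b := by
    intro hrk
    obtain ⟨hN, hadj, hN0⟩ := nilPart hσ a ha
    obtain ⟨hN', hadj', -⟩ := nilPart hσ b hb
    rw [Matrix.rank, Matrix.rank, ← Matrix.toLin'_apply', ← Matrix.toLin'_apply'] at hrk
    obtain ⟨g, hg, hgN, e, he, heN⟩ := InvolutionClasses.exists_unitary_comm hσid hσ2
      (Forms.hermBundled_isSymm hσ2) (Forms.hermBundled_nondegenerate hσ2) hN hN' hadj hadj'
      hrk hN0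
    set M := LinearMap.toMatrix' g.toLinearMap with hM
    have hMv : ∀ v, M *ᵥ v = g v := fun v => by
      rw [← Matrix.toLin'_apply, hM, Matrix.toLin'_toMatrix']; rfl
    have hMdet : M.det ≠ 0 := by
      rw [hM, LinearMap.det_toMatrix']; exact (LinearEquiv.isUnit_det' g).ne_zero
    have hδ : M.det * σ M.det = 1 :=
      Omega.det_mul_conj_det (g := Matrix.GeneralLinearGroup.mkOfDetNeZero M hMdet) hσ
        ((Omega.mem_GU_iff_bundled hσ).2 fun v u => by
          show Forms.hermBundled n σ (M *ᵥ v) (M *ᵥ u) = _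
          rw [hMv, hMv, hg])
    obtain ⟨l, hl⟩ := FiniteField.isSquare_of_char_two (ringChar.eq F 2) (M.det)⁻¹
    have hl1 : σ l * l = 1 := by
      apply CharTwo.sq_injective
      show (σ l * l) ^ 2 = 1 ^ 2
      rw [mul_pow, ← map_pow, sq l, ← hl, map_inv₀, ← mul_inv, mul_comm, hδ, inv_one, one_pow]
    obtain ⟨h, hh, hhN, hhdet⟩ := InvolutionClasses.exists_scale
      (Forms.hermBundled_isSymm hσ2) hN hadj he heN hl1
    set K := LinearMap.toMatrix' (g.toLinearMap ∘ₗ h) with hK
    have hKv : ∀ v, K *ᵥ v = g (h v) := fun v => by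
      rw [← Matrix.toLin'_apply, hK, Matrix.toLin'_toMatrix']; rfl
    have hKdet : K.det = 1 := by
      rw [hK, LinearMap.det_toMatrix', LinearMap.det_comp, hhdet, ← hl,
        ← LinearMap.det_toMatrix', ← hM, mul_inv_cancel₀ hMdet]
    let G : ↥(Cfsg.SU n F q) := ⟨⟨K, hKdet⟩, fun u v => by
      show Cfsg.hermForm n F q (K *ᵥ u) (K *ᵥ v) = _
      rw [← Forms.hermBundled_apply hσ, ← Forms.hermBundled_apply hσ, hKv, hKv, hg, hh]⟩
    refine isConj_iff.2 ⟨G, ?_⟩
    rw [mul_inv_eq_iff_eq_mul]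
    refine Subtype.ext (Subtype.ext (Matrix.ext_of_mulVec_single fun i => ?_))
    show (K * A) *ᵥ Pi.single i 1 = (B * K) *ᵥ Pi.single i 1
    rw [← Matrix.mulVec_mulVec, ← Matrix.mulVec_mulVec, hKv, hKv]
    have h1 := hgN (h (Pi.single i 1))
    rw [← hhN, toLin'_sub_one, toLin'_sub_one, map_sub, map_sub, sub_left_inj] at h1
    exact h1
  exact ⟨⟨fwd', fun h => bwd (fwd h)⟩, fun h => fwd (fwd' h), bwd⟩

end Cfsg.Agent.S2164
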