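import Cfsg.Statements.S2165
import Cfsg.Agent.Lib.SchurMult.FactorRank
import Mathlib.Algebra.CharP.Two
import Mathlib.LinearAlgebra.Matrix.Permutation

set_option autoImplicit false
open Cfsg

namespace Cfsg.Agent.S2165

/-- In SU_n(q), q even, n ≥ 3 (matrices of determinant 1 over the field with q² elements preserving Σ u_i v_i^q): for every ℓ with 1 ≤ ℓ and 2ℓ ≤ n, the permutation matrix of the involution of {0, …, n−1} exchanging i and n − ℓ + i for each i < ℓ lies in SU_n(q), has order 2, and differs from the identity by a matrix of rank ℓ. So every rank between 1 and n/2 occurs for involutions of SU_n(q). -/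
theorem result {F : Type*} [Field F] [Fintype F] [CharP F 2] {n q : ℕ} (hF : Fintype.card F = q ^ 2) (hn : 3 ≤ n) (ℓ : ℕ) (h1 : 1 ≤ ℓ) (h2 : 2 * ℓ ≤ n) :
    ∃ a : ↥(Cfsg.SU n F q), (((a : Matrix.SpecialLinearGroup (Fin n) F) : Matrix (Fin n) (Fin n) F) = Matrix.of (fun i j : Fin n => if (j.val < ℓ ∧ i.val = j.val + (n - ℓ)) ∨ (i.val < ℓ ∧ j.val = i.val + (n - ℓ)) ∨ (i = j ∧ ℓ ≤ i.val ∧ i.val < n - ℓ) then (1 : F) else 0)) ∧ orderOf a = 2 ∧ ((((a : Matrix.SpecialLinearGroup (Fin n) F) : Matrix (Fin n) (Fin n) F)) - 1).rank = ℓ := by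
  classical
  let f : Fin n → Fin n := fun i =>
    if hi : i.val < ℓ then ⟨i.val + (n - ℓ), by omega⟩
    else if n - ℓ ≤ i.val then ⟨i.val - (n - ℓ), by omega⟩ else i
  have hfv : ∀ i : Fin n, (f i).val =
      if i.val < ℓ then i.val + (n - ℓ) else if n - ℓ ≤ i.val then i.val - (n - ℓ) else i.val := fun i => by
    simp only [f]; split_ifs <;> rfl
  have hinv : Function.Involutive f := fun i => by
    apply Fin.ext
    rw [hfv, hfv]
    split_ifs <;> omega
  let π : Equiv.Perm (Fin n) := hinv.toPerm f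
  set P : Matrix (Fin n) (Fin n) F := π.permMatrix F with hP
  have hdet : P.det = 1 := by
    rw [hP, Matrix.det_permutation]
    rcases Int.units_eq_one_or (Equiv.Perm.sign π) with h | h <;> simp [h, CharTwo.neg_eq]
  let s : Matrix.SpecialLinearGroup (Fin n) F := ⟨P, hdet⟩
  have hmem : s ∈ Cfsg.SU n F q := by
    intro u v
    change Cfsg.hermForm n F q (P.mulVec u) (P.mulVec v) = Cfsg.hermForm n F q u v
    rw [hP, Matrix.permMatrix_mulVec, Matrix.permMatrix_mulVec]
    exact Equiv.sum_comp π fun i => u i * v i ^ q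
  have hentry : P = Matrix.of (fun i j : Fin n => if (j.val < ℓ ∧ i.val = j.val + (n - ℓ)) ∨ (i.val < ℓ ∧ j.val = i.val + (n - ℓ)) ∨ (i = j ∧ ℓ ≤ i.val ∧ i.val < n - ℓ) then (1 : F) else 0) := by
    ext i j
    simp only [hP, Equiv.Perm.permMatrix, PEquiv.toMatrix_apply, Equiv.toPEquiv_apply, Option.mem_def,
      Option.some.injEq, Matrix.of_apply, Fin.ext_iff]
    have : (π i).val = (f i).val := rfl
    rw [this, hfv]
    split_ifs <;> first | omega | rfl
  have hrank : (P - 1).rank = ℓ := by
    refine CfsgLib.SchurMult.rank_eq_of_factor (P - 1)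
      (Matrix.of fun (i : Fin n) (k : Fin ℓ) => if i.val = k.val ∨ i.val = k.val + (n - ℓ) then (1 : F) else 0)
      (Matrix.of fun (k : Fin ℓ) (j : Fin n) => if j.val = k.val ∨ j.val = k.val + (n - ℓ) then (1 : F) else 0) ?_
      (fun k => ⟨k.val + (n - ℓ), by omega⟩) (fun k => ⟨k.val, by omega⟩) ?_
    · rw [hentry]
      ext i j
      rw [Matrix.mul_apply]
      simp only [Matrix.sub_apply, Matrix.of_apply, Matrix.one_apply, Fin.ext_iff]
      by_cases hj : j.val < ℓ ∨ n - ℓ ≤ j.val
      · rw [Finset.sum_eq_single ⟨if j.val < ℓ then j.val else j.val - (n - ℓ), by split_ifs <;> omega⟩]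
        · simp only
          split_ifs <;> first | omega | simp [CharTwo.neg_eq]
        · intro k _ hk
          rw [ne_eq, Fin.ext_iff] at hk
          simp only at hk
          rw [if_neg (c := j.val = k.val ∨ j.val = k.val + (n - ℓ)) (by split_ifs at hk <;> omega), mul_zero]
        · simp
      · rw [Finset.sum_eq_zero fun k _ => by
          rw [if_neg (c := j.val = k.val ∨ j.val = k.val + (n - ℓ)) (by omega), mul_zero]]
        split_ifs <;> first | omega | simp
    · rw [hentry]
      ext k k'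
      simp only [Matrix.submatrix_apply, Matrix.sub_apply, Matrix.of_apply, Matrix.one_apply, Fin.ext_iff]
      split_ifs <;> first | omega | simp
  refine ⟨⟨s, hmem⟩, hentry, ?_, hrank⟩
  refine orderOf_eq_prime ?_ ?_
  · apply Subtype.ext
    apply Subtype.ext
    rw [SubmonoidClass.coe_pow, Matrix.SpecialLinearGroup.coe_pow, pow_two]
    change P * P = 1
    rw [hP, ← Matrix.permMatrix_mul]
    rw [show π * π = 1 from Equiv.ext fun i => hinv i, Matrix.permMatrix_one]
  · intro h
    have h' : P = 1 := congrArg (fun x : ↥(Cfsg.SU n F q) => ((x : Matrix.SpecialLinearGroup (Fin n) F) : Matrix (Fin n) (Fin n) F)) h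
    rw [h', sub_self, Matrix.rank_zero] at hrank
    omega

end Cfsg.Agent.S2165
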