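import Cfsg.Statements.S2166
import Cfsg.Agent.Lib.InvolutionClasses.Isometry
import Cfsg.Agent.Lib.InvolutionClasses.SymmetricFamily
import Cfsg.Agent.Lib.Forms.SympBridge
import Cfsg.Agent.Lib.Forms.Symplectic

set_option autoImplicit false
open Cfsg

namespace Cfsg.Agent.S2166

open Matrix Module CfsgLib

variable {F : Type*} [Field F] [Fintype F] [CharP F 2] {m : ℕ}

/-- What is needed of the nilpotent part of an involution. -/
structure IsNilPart (m : ℕ) (N : (Fin m ⊕ Fin m → F) →ₗ[F] (Fin m ⊕ Fin m → F)) : Prop where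
  sq : ∀ v, N (N v) = 0
  adj : ∀ u v, Omega.sympBilin m F (N u) v = Omega.sympBilin m F u (N v)

omit [Fintype F] [CharP F 2] in
theorem toLin'_sub_one (A : Matrix (Fin m ⊕ Fin m) (Fin m ⊕ Fin m) F) (v : Fin m ⊕ Fin m → F) :
    Matrix.toLin' (A - 1) v = A *ᵥ v - v := by
  rw [Matrix.toLin'_apply, Matrix.sub_mulVec, Matrix.one_mulVec]

omit [Fintype F] in
theorem sympBilin_comm (u v : Fin m ⊕ Fin m → F) :
    Omega.sympBilin m F u v = Omega.sympBilin m F v u := by
  rw [← LinearMap.IsAlt.neg (Forms.sympBilin_isAlt m F), CharTwo.neg_eq]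

omit [Fintype F] in
theorem isNilPart_of_involution (a : ↥(Matrix.symplecticGroup (Fin m) F)) (ha : orderOf a = 2) :
    IsNilPart m (Matrix.toLin' ((a : Matrix (Fin m ⊕ Fin m) (Fin m ⊕ Fin m) F) - 1)) := by
  have h1 : a * a = 1 := by rw [← pow_two, ← ha]; exact pow_orderOf_eq_one a
  have h2 : (a : Matrix (Fin m ⊕ Fin m) (Fin m ⊕ Fin m) F) * a = 1 := congrArg Subtype.val h1
  have haa : ∀ v, (a : Matrix (Fin m ⊕ Fin m) (Fin m ⊕ Fin m) F) *ᵥ
      ((a : Matrix (Fin m ⊕ Fin m) (Fin m ⊕ Fin m) F) *ᵥ v) = v := fun v => by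
    rw [Matrix.mulVec_mulVec, h2, Matrix.one_mulVec]
  constructor
  · intro v
    simp only [toLin'_sub_one, Matrix.mulVec_sub, haa]
    rw [sub_sub, ← add_sub_assoc]
    ext i
    simp only [Pi.sub_apply, Pi.add_apply, Pi.zero_apply]
    linear_combination CharTwo.add_self_eq_zero (v i) -
      CharTwo.add_self_eq_zero (((a : Matrix (Fin m ⊕ Fin m) (Fin m ⊕ Fin m) F) *ᵥ v) i)
  · intro u v
    rw [toLin'_sub_one, toLin'_sub_one]
    simp only [map_sub, LinearMap.sub_apply]
    congr 1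
    simp only [Omega.sympBilin_apply]
    have := Forms.mem_symplecticGroup_iff_form.1 a.2
      ((a : Matrix (Fin m ⊕ Fin m) (Fin m ⊕ Fin m) F) *ᵥ u) v
    rw [haa] at this
    exact this.symm

omit [Fintype F] [CharP F 2] in
theorem form_eq (a : ↥(Matrix.symplecticGroup (Fin m) F)) (v : Fin m ⊕ Fin m → F) :
    Cfsg.sympForm m F v ((a : Matrix (Fin m ⊕ Fin m) (Fin m ⊕ Fin m) F) *ᵥ v) =
      Omega.sympBilin m F v
        (Matrix.toLin' ((a : Matrix (Fin m ⊕ Fin m) (Fin m ⊕ Fin m) F) - 1) v) := by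
  rw [toLin'_sub_one, map_sub, Omega.sympBilin_self, sub_zero, Omega.sympBilin_apply]

omit [Fintype F] [CharP F 2] in
theorem rank_eq_finrank (A : Matrix (Fin m ⊕ Fin m) (Fin m ⊕ Fin m) F) :
    A.rank = finrank F (LinearMap.range (Matrix.toLin' A)) := by
  rw [Matrix.rank, ← Matrix.toLin'_apply']

omit [Fintype F] in
/-- In the alternating case there is a symplectic family. -/
theorem exists_family_alt {N : (Fin m ⊕ Fin m → F) →ₗ[F] (Fin m ⊕ Fin m → F)}
    (hN : IsNilPart m N) (halt : ∀ v, Omega.sympBilin m F v (N v) = 0) :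
    ∃ (k : ℕ) (e : Fin k ⊕ Fin k → (Fin m ⊕ Fin m → F)),
      finrank F (LinearMap.range N) = k + k ∧ ∀ i j, Omega.sympBilin m F (e i) (N (e j)) =
        Sum.elim (fun i => Sum.elim (fun _ => 0) (fun j => if i = j then 1 else 0) j)
          (fun i => Sum.elim (fun j => if i = j then 1 else 0) (fun _ => 0) j) i := by
  set P := (Omega.sympBilin m F).compl₂ N with hP
  have hA : P.IsAlt := fun v => halt v
  have hsymm : ∀ x y, P x y = P y x := fun x y => by
    rw [← LinearMap.IsAlt.neg hA, CharTwo.neg_eq]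
  obtain ⟨W, hW, -, hnd⟩ := InvolutionClasses.exists_gram_complement
    (Forms.sympBilin_nondeg m F).1 hN.adj
  obtain ⟨k, l, e, f, r, -, -, hr, hspan, hcard, hef, hee, hff, hrad⟩ :=
    Forms.exists_symplectic_family P hA _ W le_rfl
  refine ⟨k, Sum.elim e f, ?_, ?_⟩
  · have hr0 : Set.range r ⊆ {0} := by
      rintro _ ⟨j, rfl⟩
      exact hnd _ (hr j) fun w hw => hrad j w hw
    have hle : W ≤ Submodule.span F (Set.range (Sum.elim e f)) := by
      refine hspan.trans ?_
      rw [Submodule.span_union, Set.Sum.elim_range]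
      exact sup_le le_rfl ((Submodule.span_mono hr0).trans (by simp))
    have h1 := (Submodule.finrank_mono hle).trans (finrank_range_le_card (Sum.elim e f))
    simp only [Fintype.card_sum, Fintype.card_fin] at h1
    omega
  · rintro (i | i) (j | j)
    · exact hee i j
    · exact hef i j
    · show P (f i) (e j) = _
      rw [hsymm, hef]; simp [eq_comm]
    · exact hff i j


omit [Fintype F] in
/-- In the other case there is an orthonormal family. -/
theorem exists_family_orth (hsq : ∀ x : F, IsSquare x)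
    {N : (Fin m ⊕ Fin m → F) →ₗ[F] (Fin m ⊕ Fin m → F)}
    (hN : IsNilPart m N) (halt : ¬ ∀ v, Omega.sympBilin m F v (N v) = 0) {r : ℕ}
    (hr : finrank F (LinearMap.range N) = r) :
    ∃ e : Fin r → (Fin m ⊕ Fin m → F), ∀ i j,
      Omega.sympBilin m F (e i) (N (e j)) = if i = j then 1 else 0 := by
  set P := (Omega.sympBilin m F).compl₂ N with hP
  have hsymm : ∀ x y, P x y = P y x := fun x y => by
    show Omega.sympBilin m F x (N y) = Omega.sympBilin m F y (N x)
    rw [← hN.adj, sympBilin_comm]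
  obtain ⟨W, hW, hdec, hnd⟩ := InvolutionClasses.exists_gram_complement
    (Forms.sympBilin_nondeg m F).1 hN.adj
  push Not at halt
  obtain ⟨v, hv⟩ := halt
  obtain ⟨w, hw, hwv⟩ := hdec v
  have hw0 : P w w ≠ 0 := fun h => by
    apply hv
    rw [← hwv, ← hN.adj, sympBilin_comm, ← hwv, ← h]
    rfl
  obtain ⟨e, -, he⟩ := InvolutionClasses.exists_orthonormal_family_two P hsymm hsq r W
    (hW.trans hr) hnd (Or.inr ⟨w, hw, hw0⟩)
  exact ⟨e, he⟩

omit [Fintype F] in
/-- Families with the same Gram matrix give an intertwining isometry. -/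
theorem exists_isometry_of_families {N N' : (Fin m ⊕ Fin m → F) →ₗ[F] (Fin m ⊕ Fin m → F)}
    (hN : IsNilPart m N) (hN' : IsNilPart m N') {ι : Type*} [Fintype ι]
    {e e' : ι → (Fin m ⊕ Fin m → F)} {Γ : ι → ι → F}
    (he : ∀ i j, Omega.sympBilin m F (e i) (N (e j)) = Γ i j)
    (he' : ∀ i j, Omega.sympBilin m F (e' i) (N' (e' j)) = Γ i j)
    (hnd : ∀ c : ι → F, (∀ i, ∑ j, c j * Γ i j = 0) → c = 0)
    (hr : finrank F (LinearMap.range N) = Fintype.card ι)
    (hr' : finrank F (LinearMap.range N') = Fintype.card ι) :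
    ∃ g : (Fin m ⊕ Fin m → F) ≃ₗ[F] (Fin m ⊕ Fin m → F),
        (∀ u v, Omega.sympBilin m F (g u) (g v) = Omega.sympBilin m F u v) ∧
          ∀ v, g (N v) = N' (g v) := by
  obtain ⟨g, hg, hgN, -⟩ := InvolutionClasses.exists_isometry_comm
    (σ := RingHom.id F) (fun _ => rfl) ⟨fun x y => sympBilin_comm x y⟩
    (Forms.sympBilin_nondeg m F).2
    (fun x => ⟨0, by simp [Omega.sympBilin_self]⟩)
    (Forms.witt_extension_alt _ (Forms.sympBilin_nondeg m F) (Forms.sympBilin_isAlt m F))
    hN.sq hN'.sq hN.adj hN'.adj he he' hnd hr hr'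
  exact ⟨g, hg, hgN⟩

/-- Conjugacy of involutions in the symplectic group Sp_{2m}(F), F a finite field of characteristic two, m ≥ 2 (Sp taken as the matrices A with A J Aᵀ = J, acting on column vectors, with the alternating form f(u, v) = u ⬝ (J v)). For an involution t write V(t) for the set of vectors v with f(v, t v) = 0 (a subspace). Two involutions a, b are conjugate in Sp_{2m}(F) exactly when a − 1 and b − 1 have the same rank and, in case that rank is even, V(a) and V(b) have the same number of elements. -/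
theorem result {F : Type*} [Field F] [Fintype F] [CharP F 2] {m : ℕ} (hm : 2 ≤ m) (a b : ↥(Matrix.symplecticGroup (Fin m) F)) (ha : orderOf a = 2) (hb : orderOf b = 2) :
    IsConj a b ↔ ((((a : ↥(Matrix.symplecticGroup (Fin m) F)) : Matrix (Fin m ⊕ Fin m) (Fin m ⊕ Fin m) F) - 1).rank = (((b : ↥(Matrix.symplecticGroup (Fin m) F)) : Matrix (Fin m ⊕ Fin m) (Fin m ⊕ Fin m) F) - 1).rank ∧
      (Even (((a : ↥(Matrix.symplecticGroup (Fin m) F)) : Matrix (Fin m ⊕ Fin m) (Fin m ⊕ Fin m) F) - 1).rank → Nat.card {v : Fin m ⊕ Fin m → F // Cfsg.sympForm m F v (Matrix.mulVec ((a : ↥(Matrix.symplecticGroup (Fin m) F)) : Matrix (Fin m ⊕ Fin m) (Fin m ⊕ Fin m) F) v) = 0} = Nat.card {v : Fin m ⊕ Fin m → F // Cfsg.sympForm m F v (Matrix.mulVec ((b : ↥(Matrix.symplecticGroup (Fin m) F)) : Matrix (Fin m ⊕ Fin m) (Fin m ⊕ Fin m) F) v) = 0})) := by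
  classical
  have hsq : ∀ x : F, IsSquare x := fun x => FiniteField.isSquare_of_char_two (ringChar.eq F 2) x
  set N := Matrix.toLin' ((a : Matrix (Fin m ⊕ Fin m) (Fin m ⊕ Fin m) F) - 1) with hNdef
  set N' := Matrix.toLin' ((b : Matrix (Fin m ⊕ Fin m) (Fin m ⊕ Fin m) F) - 1) with hN'def
  have hN : IsNilPart m N := isNilPart_of_involution a ha
  have hN' : IsNilPart m N' := isNilPart_of_involution b hb
  constructor
  · intro h
    obtain ⟨g, hg⟩ := isConj_iff.1 h
    set G := (g : Matrix (Fin m ⊕ Fin m) (Fin m ⊕ Fin m) F)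
    have e0 : G * (a : Matrix (Fin m ⊕ Fin m) (Fin m ⊕ Fin m) F) =
        (b : Matrix (Fin m ⊕ Fin m) (Fin m ⊕ Fin m) F) * G := by
      have := congrArg Subtype.val (mul_inv_eq_iff_eq_mul.1 hg)
      exact this
    have hu : IsUnit G.det := SymplecticGroup.symplectic_det g.2
    refine ⟨?_, fun _ => Nat.card_congr ((Equiv.subtypeEquiv
      (Forms.spToGL m F g).toLin.toLinearEquiv.toEquiv) fun v => ?_)⟩
    · have e : G * ((a : Matrix (Fin m ⊕ Fin m) (Fin m ⊕ Fin m) F) - 1) =
          ((b : Matrix (Fin m ⊕ Fin m) (Fin m ⊕ Fin m) F) - 1) * G := by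
        rw [mul_sub, sub_mul, mul_one, one_mul, e0]
      rw [← Matrix.rank_mul_eq_right_of_isUnit_det _ _ hu, e,
        Matrix.rank_mul_eq_left_of_isUnit_det _ _ hu]
    · show _ ↔ Cfsg.sympForm m F (G *ᵥ v)
        ((b : Matrix (Fin m ⊕ Fin m) (Fin m ⊕ Fin m) F) *ᵥ (G *ᵥ v)) = 0
      rw [show (b : Matrix (Fin m ⊕ Fin m) (Fin m ⊕ Fin m) F) *ᵥ (G *ᵥ v) =
          G *ᵥ ((a : Matrix (Fin m ⊕ Fin m) (Fin m ⊕ Fin m) F) *ᵥ v) by
        rw [Matrix.mulVec_mulVec, Matrix.mulVec_mulVec, e0]]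
      rw [Forms.mem_symplecticGroup_iff_form.1 g.2]
  · rintro ⟨hrk, hcard⟩
    rw [rank_eq_finrank, rank_eq_finrank] at hrk
    simp only [rank_eq_finrank, form_eq] at hcard
    rw [← hNdef, ← hN'def] at hrk hcard
    suffices hiso : ∃ g : (Fin m ⊕ Fin m → F) ≃ₗ[F] (Fin m ⊕ Fin m → F),
        (∀ u v, Omega.sympBilin m F (g u) (g v) = Omega.sympBilin m F u v) ∧
          ∀ v, g (N v) = N' (g v) by
      obtain ⟨g, hg, hgN⟩ := hiso
      refine isConj_iff.2 ⟨Forms.spOfEquiv g fun u v => by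
        rw [← Omega.sympBilin_apply, ← Omega.sympBilin_apply]; exact hg u v, ?_⟩
      rw [mul_inv_eq_iff_eq_mul]
      refine Subtype.ext (Matrix.ext_of_mulVec_single fun i => ?_)
      rw [Submonoid.coe_mul, Submonoid.coe_mul, ← Matrix.mulVec_mulVec, ← Matrix.mulVec_mulVec,
        Forms.spOfEquiv_mulVec, Forms.spOfEquiv_mulVec]
      have h1 := hgN (Pi.single i 1)
      rw [hNdef, hN'def, toLin'_sub_one, toLin'_sub_one, map_sub, sub_left_inj] at h1
      exact h1
    by_cases halt : ∀ v, Omega.sympBilin m F v (N v) = 0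
    · obtain ⟨k, e, hk, he⟩ := exists_family_alt hN halt
      have halt' : ∀ v, Omega.sympBilin m F v (N' v) = 0 := by
        have hc := hcard ⟨k, hk⟩
        rw [Nat.card_congr (Equiv.subtypeUnivEquiv halt)] at hc
        intro v
        by_contra hv
        exact absurd hc (ne_of_gt (Finite.card_subtype_lt hv))
      obtain ⟨k', e', hk', he'⟩ := exists_family_alt hN' halt'
      obtain rfl : k' = k := by omega
      exact exists_isometry_of_families hN hN' he he'
        (fun c hc => funext fun x => by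
          rcases x with i | i
          · simpa [Fintype.sum_sum_type] using hc (Sum.inr i)
          · simpa [Fintype.sum_sum_type] using hc (Sum.inl i))
        (by simpa using hk) (by simpa using hk')
    · have halt' : ¬ ∀ v, Omega.sympBilin m F v (N' v) = 0 := fun halt' => halt fun v => by
        obtain ⟨k, e, hk, -⟩ := exists_family_alt hN' halt'
        have hc := hcard ⟨k, hrk.trans hk⟩
        rw [Nat.card_congr (Equiv.subtypeUnivEquiv halt')] at hc
        by_contra hv
        exact absurd hc (ne_of_lt (Finite.card_subtype_lt hv))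
      obtain ⟨e, he⟩ := exists_family_orth hsq hN halt rfl
      obtain ⟨e', he'⟩ := exists_family_orth hsq hN' halt' hrk.symm
      exact exists_isometry_of_families hN hN' he he'
        (fun c hc => funext fun i => by simpa using hc i) (by simp) (by simp [hrk])

end Cfsg.Agent.S2166
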