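import Cfsg.Statements.S2167
import Cfsg.Agent.Lib.Forms.Symplectic


set_option autoImplicit false
open Cfsg

namespace Cfsg.Agent.S2167

/-- For an involution t of the symplectic group Sp_{2m}(F), m ≥ 2, F a finite field of characteristic two (matrices A with A J Aᵀ = J acting on column vectors, alternating form f(u, v) = u ⬝ (J v)): the set V(t) of vectors v with f(v, t v) = 0 has either q^{2m} or q^{2m−1} elements, q the order of F (it is a subspace of codimension at most 1), and if it is the whole space then t − 1 has even rank. -/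
theorem result {F : Type*} [Field F] [Fintype F] [CharP F 2] {m : ℕ} (hm : 2 ≤ m) (a : ↥(Matrix.symplecticGroup (Fin m) F)) (ha : orderOf a = 2) :
    (Nat.card {v : Fin m ⊕ Fin m → F // Cfsg.sympForm m F v (Matrix.mulVec ((a : ↥(Matrix.symplecticGroup (Fin m) F)) : Matrix (Fin m ⊕ Fin m) (Fin m ⊕ Fin m) F) v) = 0} = Fintype.card F ^ (2 * m) ∨ Nat.card {v : Fin m ⊕ Fin m → F // Cfsg.sympForm m F v (Matrix.mulVec ((a : ↥(Matrix.symplecticGroup (Fin m) F)) : Matrix (Fin m ⊕ Fin m) (Fin m ⊕ Fin m) F) v) = 0} * Fintype.card F = Fintype.card F ^ (2 * m)) ∧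
    ((∀ v : Fin m ⊕ Fin m → F, Cfsg.sympForm m F v (Matrix.mulVec ((a : ↥(Matrix.symplecticGroup (Fin m) F)) : Matrix (Fin m ⊕ Fin m) (Fin m ⊕ Fin m) F) v) = 0) → Even (((a : ↥(Matrix.symplecticGroup (Fin m) F)) : Matrix (Fin m ⊕ Fin m) (Fin m ⊕ Fin m) F) - 1).rank) := by
  classical
  set A : Matrix (Fin m ⊕ Fin m) (Fin m ⊕ Fin m) F := (a : Matrix (Fin m ⊕ Fin m) (Fin m ⊕ Fin m) F) with hA
  set f := Cfsg.sympForm m F with hf
  have addl : ∀ u v w, f (u + v) w = f u w + f v w := fun u v w => by
    simp [hf, Cfsg.sympForm, add_dotProduct]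
  have addr : ∀ u v w, f u (v + w) = f u v + f u w := fun u v w => by
    simp [hf, Cfsg.sympForm, Matrix.mulVec_add, dotProduct_add]
  have smull : ∀ (c : F) u v, f (c • u) v = c * f u v := fun c u v => by
    simp [hf, Cfsg.sympForm, smul_dotProduct]
  have smulr : ∀ (c : F) u v, f u (c • v) = c * f u v := fun c u v => by
    simp [hf, Cfsg.sympForm, Matrix.mulVec_smul, dotProduct_smul]
  have hsymm : ∀ u v, f u v = f v u := by
    intro u v
    simp only [hf, Cfsg.sympForm, Matrix.J, Matrix.mulVec, dotProduct, Matrix.fromBlocks,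
      Fintype.sum_sum_type, Matrix.of_apply, Sum.elim_inl, Sum.elim_inr]
    simp [Matrix.one_apply, CharTwo.neg_eq, mul_comm, add_comm]
  have hpres : ∀ u v, f (A.mulVec u) (A.mulVec v) = f u v := by
    intro u v
    have h : A.transpose * Matrix.J (Fin m) F * A = Matrix.J (Fin m) F := by
      have := SymplecticGroup.transpose_mem a.2
      rw [SymplecticGroup.mem_iff, Matrix.transpose_transpose] at this
      exact this
    simp only [hf, Cfsg.sympForm]
    rw [Matrix.mulVec_mulVec, Matrix.dotProduct_mulVec, ← Matrix.vecMul_transpose,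
      Matrix.vecMul_vecMul, ← Matrix.mul_assoc, h, ← Matrix.dotProduct_mulVec]
  have hAA : ∀ v, A.mulVec (A.mulVec v) = v := by
    intro v
    have h1 : a * a = 1 := by rw [← pow_two, ← ha, pow_orderOf_eq_one]
    rw [Matrix.mulVec_mulVec, hA, ← Submonoid.coe_mul, h1, Submonoid.coe_one, Matrix.one_mulVec]
  have hAsymm : ∀ u v, f u (A.mulVec v) = f v (A.mulVec u) := by
    intro u v
    rw [← hpres u (A.mulVec v), hAA, hsymm]
  let Q : (Fin m ⊕ Fin m → F) →+ F :=
    { toFun := fun v => f v (A.mulVec v)
      map_zero' := by simp [hf, Cfsg.sympForm]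
      map_add' := fun u v => by
        simp only [Matrix.mulVec_add, addl, addr, hAsymm v u]
        rw [add_assoc, ← add_assoc (f u (A.mulVec v)), CharTwo.add_self_eq_zero, zero_add] }
  have hcardV : Nat.card (Fin m ⊕ Fin m → F) = Fintype.card F ^ (2 * m) := by
    simp [Nat.card_eq_fintype_card, two_mul]
  have hker : Nat.card {v : Fin m ⊕ Fin m → F // f v (A.mulVec v) = 0} = Nat.card Q.ker :=
    Nat.card_congr (Equiv.subtypeEquivRight fun v => Iff.rfl)
  refine ⟨?_, fun hall => ?_⟩
  · by_cases h : ∀ v, f v (A.mulVec v) = 0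
    · left
      rw [← hcardV]
      exact Nat.card_congr (Equiv.subtypeUnivEquiv h)
    · right
      push Not at h
      obtain ⟨v, hv⟩ := h
      have hsurj : Function.Surjective Q := by
        intro x
        obtain ⟨s, hs⟩ := (FiniteField.isSquare_of_char_two (ringChar.eq F 2) (x / f v (A.mulVec v)))
        refine ⟨s • v, ?_⟩
        show f (s • v) (A.mulVec (s • v)) = x
        rw [Matrix.mulVec_smul, smull, smulr, ← mul_assoc, ← hs, div_mul_cancel₀ _ hv]
      have h1 := Q.ker.card_mul_index
      rw [AddSubgroup.index_ker, AddMonoidHom.range_eq_top.2 hsurj, AddSubgroup.card_top,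
        Nat.card_eq_fintype_card (α := F), hcardV] at h1
      rw [← h1, hker]
  · let B : LinearMap.BilinForm F (Fin m ⊕ Fin m → F) :=
      LinearMap.mk₂ F (fun u v => f u (A.mulVec v - v))
        (fun u v w => addl u v _) (fun c u v => by rw [smull]; rfl)
        (fun u v w => by
          rw [Matrix.mulVec_add, ← addr]; congr 1; abel)
        (fun c u v => by rw [Matrix.mulVec_smul, ← smul_sub, smulr]; rfl)
    have hB : ∀ u v, B u v = f u (A.mulVec v) + f u v := fun u v => by
      show f u (A.mulVec v - v) = _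
      have : A.mulVec v - v = A.mulVec v + v := by
        ext i; simp [CharTwo.sub_eq_add]
      rw [this, addr]
    have halt : B.IsAlt := fun u => by
      rw [hB, hall u, zero_add]
      simp only [hf, Cfsg.sympForm, Matrix.J, Matrix.mulVec, dotProduct, Matrix.fromBlocks,
        Fintype.sum_sum_type, Matrix.of_apply, Sum.elim_inl, Sum.elim_inr]
      simp [Matrix.one_apply, CharTwo.neg_eq, mul_comm, CharTwo.add_self_eq_zero]
    have hker' : LinearMap.ker B = LinearMap.ker (Matrix.mulVecLin (A - 1)) := by
      ext v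
      rw [LinearMap.mem_ker, LinearMap.mem_ker, Matrix.mulVecLin_apply, Matrix.sub_mulVec,
        Matrix.one_mulVec]
      constructor
      · intro h
        ext i
        have hz : ∀ u, f u (A.mulVec v - v) = 0 := fun u => by
          show B u v = 0
          rw [hB, hAsymm, hsymm u v, ← hB, h]; rfl
        have := hz (Pi.single (Sum.swap i) 1)
        rcases i with i | i <;>
          simpa [CharTwo.sub_eq_add, CharTwo.neg_eq, add_comm, hf, Cfsg.sympForm, Matrix.J, Matrix.mulVec, dotProduct, Fintype.sum_sum_type,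
            Matrix.one_apply, Pi.single_apply] using this
      · intro h
        apply LinearMap.ext
        intro u
        rw [hB, hAsymm, hsymm v u, ← hB]
        show f u (A.mulVec v - v) = 0
        rw [h]
        simp [hf, Cfsg.sympForm]
    obtain ⟨W, hW⟩ := (LinearMap.ker B).exists_isCompl
    have hdim := Submodule.finrank_add_eq_of_isCompl hW
    have hrk := LinearMap.finrank_range_add_finrank_ker (Matrix.mulVecLin (A - 1))
    rw [← hker', ← Matrix.rank] at hrk
    have hWr : (A - 1).rank = Module.finrank F W := by omega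
    rw [hWr]
    have hnd : (B.restrict W).Nondegenerate := by
      have hl : (B.restrict W).SeparatingLeft := by
        intro x hx
        have hxk : (x : Fin m ⊕ Fin m → F) ∈ LinearMap.ker B := by
          rw [LinearMap.mem_ker]
          apply LinearMap.ext
          intro u
          obtain ⟨k, hk, w, hw, rfl⟩ : ∃ k ∈ LinearMap.ker B, ∃ w ∈ W, k + w = u :=
            Submodule.mem_sup.1 (hW.sup_eq_top ▸ Submodule.mem_top)
          rw [map_add, halt.isRefl.eq_zero (by rw [LinearMap.mem_ker.1 hk]; rfl), zero_add]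
          exact hx ⟨w, hw⟩
        exact Subtype.ext ((Submodule.disjoint_def.1 hW.disjoint) _ hxk x.2)
      have hr : LinearMap.IsRefl (B.restrict W) := fun x y h => halt.isRefl _ _ h
      exact hr.nondegenerate_iff_separatingLeft.2 hl
    obtain ⟨k, b, -⟩ := CfsgLib.Forms.exists_symplectic_basis (B.restrict W) hnd (fun x => halt x)
    rw [Module.finrank_eq_card_basis b, Fintype.card_sum, Fintype.card_fin]
    exact ⟨k, rfl⟩

end Cfsg.Agent.S2167
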