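import Cfsg.Statements.S2172
import Cfsg.Agent.Lib.OutAut.InvolutionSplit

set_option autoImplicit false
open Cfsg

namespace Cfsg.Agent.S2172

/-- Splitting of involution classes from O to Ω for the hyperbolic quadratic form Q = Σ x_i y_i in dimension 2m over a finite field F of characteristic two, m ≥ 4. Let t, s be involutions of the commutator subgroup Ω that are conjugate in the full isometry group O. If it is not the case that t − 1 has rank m and Q(v + t v) = 0 for every vector v, then t and s are conjugate by an element of Ω. If t − 1 has rank m and Q(v + t v) = 0 for all v, then t and s are conjugate by an element of Ω exactly when the intersection of the images of t − 1 and s − 1 has even dimension (so the class of t in O meets at most two classes of Ω). -/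
theorem result {F : Type*} [Field F] [Fintype F] [CharP F 2] {m : ℕ} (hm : 4 ≤ m) (t s : ↥(Cfsg.isometryGroup F (Cfsg.quadFormPlus m F))) (ht : orderOf t = 2) (hs : orderOf s = 2) (htO : t ∈ Cfsg.Omega F (Cfsg.quadFormPlus m F)) (hsO : s ∈ Cfsg.Omega F (Cfsg.quadFormPlus m F)) (hconj : IsConj t s) :
    (¬ (((((t : ↥(Cfsg.isometryGroup F (Cfsg.quadFormPlus m F))) : GL (Fin m ⊕ Fin m) F) : Matrix (Fin m ⊕ Fin m) (Fin m ⊕ Fin m) F) - 1).rank = m ∧ ∀ v : Fin m ⊕ Fin m → F, Cfsg.quadFormPlus m F (v + Matrix.mulVec (((t : ↥(Cfsg.isometryGroup F (Cfsg.quadFormPlus m F))) : GL (Fin m ⊕ Fin m) F) : Matrix (Fin m ⊕ Fin m) (Fin m ⊕ Fin m) F) v) = 0) →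
      ∃ g ∈ Cfsg.Omega F (Cfsg.quadFormPlus m F), g * t * g⁻¹ = s) ∧
    ((((((t : ↥(Cfsg.isometryGroup F (Cfsg.quadFormPlus m F))) : GL (Fin m ⊕ Fin m) F) : Matrix (Fin m ⊕ Fin m) (Fin m ⊕ Fin m) F) - 1).rank = m ∧ ∀ v : Fin m ⊕ Fin m → F, Cfsg.quadFormPlus m F (v + Matrix.mulVec (((t : ↥(Cfsg.isometryGroup F (Cfsg.quadFormPlus m F))) : GL (Fin m ⊕ Fin m) F) : Matrix (Fin m ⊕ Fin m) (Fin m ⊕ Fin m) F) v) = 0) →
      ((∃ g ∈ Cfsg.Omega F (Cfsg.quadFormPlus m F), g * t * g⁻¹ = s) ↔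
        Even (Module.finrank F ↥(LinearMap.range (Matrix.toLin' ((((t : ↥(Cfsg.isometryGroup F (Cfsg.quadFormPlus m F))) : GL (Fin m ⊕ Fin m) F) : Matrix (Fin m ⊕ Fin m) (Fin m ⊕ Fin m) F) - 1)) ⊓ LinearMap.range (Matrix.toLin' ((((s : ↥(Cfsg.isometryGroup F (Cfsg.quadFormPlus m F))) : GL (Fin m ⊕ Fin m) F) : Matrix (Fin m ⊕ Fin m) (Fin m ⊕ Fin m) F) - 1)))))) := by
  classical
  have key : ∀ (f : (Fin m ⊕ Fin m → F) → F) (hf : ⇑(CfsgLib.ClassicalForms.qPlus m F) = f)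
      (t s : ↥(Cfsg.isometryGroup F f)), orderOf t = 2 → t ∈ Cfsg.Omega F f → IsConj t s →
      (¬ ((((t : GL (Fin m ⊕ Fin m) F) : Matrix (Fin m ⊕ Fin m) (Fin m ⊕ Fin m) F) - 1).rank = m ∧
        ∀ v, f (v + Matrix.mulVec ((t : GL (Fin m ⊕ Fin m) F) : Matrix (Fin m ⊕ Fin m) (Fin m ⊕ Fin m) F) v) = 0) →
        ∃ g ∈ Cfsg.Omega F f, g * t * g⁻¹ = s) ∧
      (((((t : GL (Fin m ⊕ Fin m) F) : Matrix (Fin m ⊕ Fin m) (Fin m ⊕ Fin m) F) - 1).rank = m ∧
        ∀ v, f (v + Matrix.mulVec ((t : GL (Fin m ⊕ Fin m) F) : Matrix (Fin m ⊕ Fin m) (Fin m ⊕ Fin m) F) v) = 0) →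
        ((∃ g ∈ Cfsg.Omega F f, g * t * g⁻¹ = s) ↔
        Even (Module.finrank F ↥(LinearMap.range (Matrix.toLin' (((t : GL (Fin m ⊕ Fin m) F) : Matrix (Fin m ⊕ Fin m) (Fin m ⊕ Fin m) F) - 1)) ⊓
          LinearMap.range (Matrix.toLin' (((s : GL (Fin m ⊕ Fin m) F) : Matrix (Fin m ⊕ Fin m) (Fin m ⊕ Fin m) F) - 1)))))) := by
    intro f hf t s ht htO hconj
    subst hf
    have hQ := CfsgLib.Classes.hypQ_nondegenerate F m
    have hgen := CfsgLib.Classes.hypQ_gen F m (Or.inr (by omega))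
    have hsub : ∀ u : ↥(Cfsg.isometryGroup F (⇑(CfsgLib.ClassicalForms.qPlus m F))),
        Matrix.toLin' (((u : GL (Fin m ⊕ Fin m) F) : Matrix (Fin m ⊕ Fin m) (Fin m ⊕ Fin m) F) - 1) =
          CfsgLib.Forms.subOne u := fun u => by
      rw [map_sub, Matrix.toLin'_one]; rfl
    have hcard : Fintype.card (Fin m ⊕ Fin m) = 2 * m := by simp; omega
    have hrk : (((t : GL (Fin m ⊕ Fin m) F) : Matrix (Fin m ⊕ Fin m) (Fin m ⊕ Fin m) F) - 1).rank =
        Module.finrank F (LinearMap.range (CfsgLib.Forms.subOne t)) := by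
      rw [← hsub t, Matrix.rank, Matrix.toLin'_apply']
    have hiff := CfsgLib.OutAut.isAltType_iff ht
    refine ⟨fun h => CfsgLib.OutAut.conj_omega_of_not_full hQ hgen ht hconj
      fun hh => h ⟨by rw [hrk]; rw [hcard] at hh; omega, hiff.1 hh.1⟩, fun h => ?_⟩
    rw [hsub, hsub]
    exact CfsgLib.OutAut.conj_omega_iff_of_full hQ hgen ht htO hconj (hiff.2 h.2)
      (by rw [← hrk, h.1, hcard])
  exact key _ (funext (CfsgLib.ClassicalForms.qPlus_apply m)) t s ht htO hconj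

end Cfsg.Agent.S2172
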