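import Cfsg.Statements.S2173
import Cfsg.Agent.Lib.OutAut.InvolutionSplit

set_option autoImplicit false
open Cfsg

namespace Cfsg.Agent.S2173

/-- For the quadratic form Σ x_i y_i + (z₁² + c z₁ z₂ + d z₂²) in dimension 2m with anisotropic binary part over a finite field F of characteristic two, m ≥ 4 (minus type): two involutions of the commutator subgroup Ω that are conjugate in the full isometry group O are conjugate by an element of Ω (no class of involutions of O inside Ω splits). -/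
theorem result {F : Type*} [Field F] [Fintype F] [CharP F 2] {m : ℕ} (hm : 4 ≤ m) (c d : F) (hcd : ∀ z₁ z₂ : F, z₁ ^ 2 + c * z₁ * z₂ + d * z₂ ^ 2 = 0 → z₁ = 0 ∧ z₂ = 0) (t s : ↥(Cfsg.isometryGroup F (Cfsg.quadFormMinus (m - 1) F c d))) (ht : orderOf t = 2) (hs : orderOf s = 2) (htO : t ∈ Cfsg.Omega F (Cfsg.quadFormMinus (m - 1) F c d)) (hsO : s ∈ Cfsg.Omega F (Cfsg.quadFormMinus (m - 1) F c d)) (hconj : IsConj t s) :
    ∃ g ∈ Cfsg.Omega F (Cfsg.quadFormMinus (m - 1) F c d), g * t * g⁻¹ = s := by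
  classical
  have key : ∀ (f : ((Fin (m - 1) ⊕ Fin (m - 1)) ⊕ Fin 2 → F) → F)
      (hf : ⇑(CfsgLib.ClassicalForms.qMinus (m - 1) F c d) = f)
      (t s : ↥(Cfsg.isometryGroup F f)), orderOf t = 2 → IsConj t s →
      ∃ g ∈ Cfsg.Omega F f, g * t * g⁻¹ = s := by
    intro f hf t s ht hconj
    subst hf
    refine CfsgLib.OutAut.conj_omega_of_not_full (CfsgLib.Classes.InvTwo.minusQ_nondegenerate (m - 1) hcd)
      (CfsgLib.Classes.InvTwo.minusQ_gen (m - 1) hcd) ht hconj fun hh => ?_
    refine CfsgLib.Classes.InvTwo.minusQ_no_half (m - 1) hcd _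
      ((CfsgLib.Classes.InvTwo.orderOf_two_spec ht).1.singular_range hh.1) ?_
    have h2 := hh.2
    simp only [Fintype.card_sum, Fintype.card_fin] at h2
    omega
  exact key _ (funext (CfsgLib.ClassicalForms.qMinus_apply (m - 1) c d)) t s ht hconj

end Cfsg.Agent.S2173
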