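import Cfsg.Statements.S2174
import Cfsg.Agent.Lib.OutAut.F4PairInv
import Cfsg.Agent.Lib.OutAut.InvCheck.Classes
import Cfsg.Agent.Lib.OutAut.InvCheck.CertF4
import Cfsg.Agent.Lib.OutAut.InvCheck.RankF4

set_option autoImplicit false
open Cfsg

namespace Cfsg.Agent.S2174

open Cfsg.Lie CfsgLib.Chevalley CfsgLib.OutAut CfsgLib.OutAut.InvCheck

local instance neZeroRootsS : NeZero Cfsg.Lie.chevF4.nroots := ⟨by decide⟩

/-- The four representatives. -/
def reps : List (List ℕ) := [[47], [44], [44, 47], [39, 45]]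

theorem classes_ok : classesOK InvCheck.F4.tab InvCheck.F4.simples 11 reps InvCheck.F4.terminals
    InvCheck.F4.entries InvCheck.F4.scales InvCheck.F4.links = true := by decide +kernel

variable {F : Type*} [Field F] [CharP F 2]

theorem long_short (x : GL chevF4.Idx F) (hx : x ∈ chevF4.group F)
    (e : x * F4Pair.X 47 1 * x⁻¹ = F4Pair.X 44 1) : False := by
  have hc : CentralInU chevF4 F [(47 : Fin chevF4.nroots), (44 : Fin chevF4.nroots)] := by
    refine centralInU_of_even fun r hr s hs hp c hcm => Int.dvd_of_emod_eq_zero ?_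
    have hall : ∀ r ∈ [47, 44], ∀ s ∈ List.range 48, 24 ≤ s →
        (chevF4.commTerms r s).all (fun c => c.2.1 % 2 == 0) = true := by decide +kernel
    simp only [List.mem_cons, List.not_mem_nil, or_false] at hr
    have hr' : (r : ℕ) ∈ [47, 44] := by rcases hr with rfl | rfl <;> decide
    obtain ⟨p1, p2⟩ := F4Pair.isPos_iff.1 hp
    exact beq_iff_eq.1 (List.all_eq_true.1 (hall r hr' s (List.mem_range.2 p2) p1) c hcm)
  have hpos : ∀ k : ℕ, k = 47 ∨ k = 44 → chevF4.IsPosRoot k := fun k hk => F4Pair.isPos_iff.2 (by omega)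
  obtain ⟨u, hu, n, hn, v, hv, rfl⟩ := exists_bnu F4Pair.full hx
  obtain ⟨σ, η, hA⟩ := exists_acts F4Pair.full hn
  have hvc := commute_pos F4Pair.full hc (r := (47 : Fin chevF4.nroots)) (by simp) (hpos _ (Or.inl rfl)) 1 hv
  have huc := commute_pos F4Pair.full hc (r := (44 : Fin chevF4.nroots)) (by simp) (hpos _ (Or.inr rfl)) 1
    (inv_mem hu)
  have h1 : n * xG F4Pair.full.cert ((47 : Fin chevF4.nroots) : ℕ) (1 : F) * n⁻¹ =
      xG F4Pair.full.cert ((44 : Fin chevF4.nroots) : ℕ) 1 := by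
    calc n * xG F4Pair.full.cert ((47 : Fin chevF4.nroots) : ℕ) (1 : F) * n⁻¹
        = n * (v * xG F4Pair.full.cert ((47 : Fin chevF4.nroots) : ℕ) (1 : F) * v⁻¹) * n⁻¹ := by
          rw [hvc.eq, mul_inv_cancel_right]
      _ = u⁻¹ * (u * n * v * F4Pair.X 47 1 * (u * n * v)⁻¹) * u := by
          show _ = u⁻¹ * (u * n * v * xG F4Pair.full.cert ((47 : Fin chevF4.nroots) : ℕ) (1 : F) * (u * n * v)⁻¹) * u
          group
      _ = _ := by
          rw [e]
          show u⁻¹ * xG F4Pair.full.cert ((44 : Fin chevF4.nroots) : ℕ) (1 : F) * u = _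
          rw [huc.eq, inv_mul_cancel_right]
  rw [hA.conj, mul_one] at h1
  have hp : chevF4.IsPosRoot (σ 47) := by
    refine (F4Pair.full.pos.pos_or_neg (σ 47).isLt).resolve_right fun hneg => ?_
    refine xG_notMem_posUnipotent F4Pair.full hneg (hA.ne_zero (47 : Fin chevF4.nroots)) ?_
    rw [h1]
    exact xG_mem_rootsU (S := {r | chevF4.IsPosRoot r}) F4Pair.full.cert (hpos 44 (Or.inr rfl)) 1
  have h2 := root_eq_of_xG_eq F4Pair.full (r := (44 : Fin chevF4.nroots)) (hpos _ (Or.inr rfl)) hp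
    (hA.ne_zero _) one_ne_zero h1
  have h3 := F4Pair.long_iff hn hA 47
  rw [h2] at h3
  revert h3
  decide +kernel


/-- Conjugacy classes of involutions in the Chevalley group of type F₄ over a finite field F of characteristic two (the matrix group generated by the root elements x_r(t)). In this problem's root numbering for type F₄ (the Chevalley data module; fundamental roots p₁, p₂ short and p₃, p₄ long; roots indexed by their coefficient vectors in increasing order) let r = 47 be the highest root (2,4,3,2), s = 44 the highest short root (2,3,2,1), and α = 39 = (1,2,2,1), β = 45 = (2,4,2,1), an orthogonal short/long pair; consider the four elements x_r(1), x_s(1), x_r(1)x_s(1), x_α(1)x_β(1). Then: each invertible matrix equal to one of these four products lies in the group and has order 2; every element of order 2 of the group is conjugate in the group to one of them; and no two of them are conjugate in the group (so, the four matrices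 being distinct, the group has exactly four conjugacy classes of involutions). -/
theorem result {F : Type*} [Field F] [Fintype F] [CharP F 2] :
    (∀ y : GL Cfsg.Lie.chevF4.Idx F, ((y : GL Cfsg.Lie.chevF4.Idx F) : Matrix Cfsg.Lie.chevF4.Idx Cfsg.Lie.chevF4.Idx F) ∈ [Cfsg.Lie.chevF4.x F 47 1, Cfsg.Lie.chevF4.x F 44 1, Cfsg.Lie.chevF4.x F 47 1 * Cfsg.Lie.chevF4.x F 44 1, Cfsg.Lie.chevF4.x F 39 1 * Cfsg.Lie.chevF4.x F 45 1] → y ∈ Cfsg.Lie.chevF4.group F ∧ orderOf y = 2) ∧
    (∀ g ∈ Cfsg.Lie.chevF4.group F, orderOf g = 2 → ∃ y ∈ Cfsg.Lie.chevF4.group F, ((y : GL Cfsg.Lie.chevF4.Idx F) : Matrix Cfsg.Lie.chevF4.Idx Cfsg.Lie.chevF4.Idx F) ∈ [Cfsg.Lie.chevF4.x F 47 1, Cfsg.Lie.chevF4.x F 44 1, Cfsg.Lie.chevF4.x F 47 1 * Cfsg.Lie.chevF4.x F 44 1, Cfsg.Lie.chevF4.x F 39 1 * Cfsg.Lie.chevF4.x F 45 1] ∧ ∃ h ∈ Cfsg.Lie.chevF4.group F, h * g * h⁻¹ = y) ∧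
    (∀ y₁ ∈ Cfsg.Lie.chevF4.group F, ∀ y₂ ∈ Cfsg.Lie.chevF4.group F, ((y₁ : GL Cfsg.Lie.chevF4.Idx F) : Matrix Cfsg.Lie.chevF4.Idx Cfsg.Lie.chevF4.Idx F) ∈ [Cfsg.Lie.chevF4.x F 47 1, Cfsg.Lie.chevF4.x F 44 1, Cfsg.Lie.chevF4.x F 47 1 * Cfsg.Lie.chevF4.x F 44 1, Cfsg.Lie.chevF4.x F 39 1 * Cfsg.Lie.chevF4.x F 45 1] → ((y₂ : GL Cfsg.Lie.chevF4.Idx F) : Matrix Cfsg.Lie.chevF4.Idx Cfsg.Lie.chevF4.Idx F) ∈ [Cfsg.Lie.chevF4.x F 47 1, Cfsg.Lie.chevF4.x F 44 1, Cfsg.Lie.chevF4.x F 47 1 * Cfsg.Lie.chevF4.x F 44 1, Cfsg.Lie.chevF4.x F 39 1 * Cfsg.Lie.chevF4.x F 45 1] →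
      (∃ h ∈ Cfsg.Lie.chevF4.group F, h * y₁ * h⁻¹ = y₂) → ((y₁ : GL Cfsg.Lie.chevF4.Idx F) : Matrix Cfsg.Lie.chevF4.Idx Cfsg.Lie.chevF4.Idx F) = ((y₂ : GL Cfsg.Lie.chevF4.Idx F) : Matrix Cfsg.Lie.chevF4.Idx Cfsg.Lie.chevF4.Idx F)) := by
  let W : List ℕ → GL chevF4.Idx F := fun w => wordU InvCheck.F4.full w
  have h47 : (W [47] : GL chevF4.Idx F) = F4Pair.X 47 1 := by simp [W, wordU, prodU]
  have h44 : (W [44] : GL chevF4.Idx F) = F4Pair.X 44 1 := by simp [W, wordU, prodU]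
  have hswap : (W [47, 44] : GL chevF4.Idx F) = W [44, 47] := by
    have hc := (collect_spec (F := F) InvCheck.F4.full InvCheck.F4.valid 3 [47, 44] (by decide)).2
    rw [show collect InvCheck.F4.tab 3 [47, 44] = [44, 47] by decide +kernel] at hc
    exact hc.symm
  have key : ∀ y : GL chevF4.Idx F, ((y : GL chevF4.Idx F) : Matrix chevF4.Idx chevF4.Idx F) ∈
      [chevF4.x F 47 1, chevF4.x F 44 1, chevF4.x F 47 1 * chevF4.x F 44 1,
        chevF4.x F 39 1 * chevF4.x F 45 1] ↔ ∃ w ∈ reps, y = W w := by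
    intro y
    have e1 : chevF4.x F 47 1 = ((W [47] : GL chevF4.Idx F) : Matrix chevF4.Idx chevF4.Idx F) := by
      simp [W, wordU, prodU]
    have e2 : chevF4.x F 44 1 = ((W [44] : GL chevF4.Idx F) : Matrix chevF4.Idx chevF4.Idx F) := by
      simp [W, wordU, prodU]
    have e3 : chevF4.x F 47 1 * chevF4.x F 44 1 = ((W [44, 47] : GL chevF4.Idx F) : Matrix chevF4.Idx chevF4.Idx F) := by
      rw [← hswap]; simp [W, wordU, prodU]
    have e4 : chevF4.x F 39 1 * chevF4.x F 45 1 = ((W [39, 45] : GL chevF4.Idx F) : Matrix chevF4.Idx chevF4.Idx F) := by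
      simp [W, wordU, prodU]
    rw [e3, e4, e1, e2]
    simp only [List.mem_cons, List.not_mem_nil, or_false, Units.val_inj, reps, exists_eq_or_imp,
      exists_eq_left]
  have hrank : ∀ w ∈ reps, ∃ k, (((W w : GL chevF4.Idx F) : Matrix chevF4.Idx chevF4.Idx F) - 1).rank = k ∧
      k ≠ 0 := by
    intro w hw
    simp only [reps, List.mem_cons, List.not_mem_nil, or_false] at hw
    rcases hw with rfl | rfl | rfl | rfl
    exacts [⟨_, InvCheck.F4.rank_47, by norm_num⟩, ⟨_, InvCheck.F4.rank_44, by norm_num⟩,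
      ⟨_, InvCheck.F4.rank_44_47, by norm_num⟩, ⟨_, InvCheck.F4.rank_39_45, by norm_num⟩]
  have hsq : ∀ w ∈ reps, ((w ++ w).all InvCheck.F4.tab.pos.contains &&
      collect InvCheck.F4.tab 6 (w ++ w) == []) = true := by decide +kernel
  refine ⟨fun y hy => ?_, fun g hg ho => ?_, fun y₁ _ y₂ _ hy₁ hy₂ hc => ?_⟩
  · obtain ⟨w, hw, rfl⟩ := (key y).1 hy
    obtain ⟨k, hk, hk0⟩ := hrank w hw
    exact ⟨wordU_mem_group _ w, orderOf_word InvCheck.F4.full InvCheck.F4.valid (hsq w hw) hk hk0⟩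
  · obtain ⟨w, hw, x, hx, e⟩ := exists_rep (F := F) InvCheck.F4.full InvCheck.F4.valid (reps := reps)
      (simples := InvCheck.F4.simples) (by decide +kernel) InvCheck.F4.chain InvCheck.F4.scales_ok
      classes_ok hg (by rw [← sq, ← ho, pow_orderOf_eq_one]) (fun h1 => by simp [h1] at ho)
    exact ⟨W w, wordU_mem_group _ w, (key _).2 ⟨w, hw, rfl⟩, x, hx, e⟩
  · obtain ⟨w₁, hw₁, rfl⟩ := (key y₁).1 hy₁
    obtain ⟨w₂, hw₂, rfl⟩ := (key y₂).1 hy₂
    obtain ⟨x, hx, e⟩ := hc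
    refine congrArg Units.val (congrArg W ?_)
    simp only [reps, List.mem_cons, List.not_mem_nil, or_false] at hw₁ hw₂
    have contra : ∀ {k k' : ℕ}, ((((W w₁ : GL chevF4.Idx F)) : Matrix chevF4.Idx chevF4.Idx F) - 1).rank = k →
        ((((W w₂ : GL chevF4.Idx F)) : Matrix chevF4.Idx chevF4.Idx F) - 1).rank = k' → k = k' :=
      fun a b => rank_eq_of_conj _ a b e
    rcases hw₁ with rfl | rfl | rfl | rfl <;> rcases hw₂ with rfl | rfl | rfl | rfl <;> try rfl
    all_goals exfalso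
    · exact long_short x hx (by rw [← h47, ← h44]; exact e)
    · exact absurd (contra InvCheck.F4.rank_47 InvCheck.F4.rank_44_47) (by norm_num)
    · exact absurd (contra InvCheck.F4.rank_47 InvCheck.F4.rank_39_45) (by norm_num)
    · refine long_short x⁻¹ (inv_mem hx) ?_
      rw [← h47, ← h44, ← e]
      group
    · exact absurd (contra InvCheck.F4.rank_44 InvCheck.F4.rank_44_47) (by norm_num)
    · exact absurd (contra InvCheck.F4.rank_44 InvCheck.F4.rank_39_45) (by norm_num)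
    · exact absurd (contra InvCheck.F4.rank_44_47 InvCheck.F4.rank_47) (by norm_num)
    · exact absurd (contra InvCheck.F4.rank_44_47 InvCheck.F4.rank_44) (by norm_num)
    · exact absurd (contra InvCheck.F4.rank_44_47 InvCheck.F4.rank_39_45) (by norm_num)
    · exact absurd (contra InvCheck.F4.rank_39_45 InvCheck.F4.rank_47) (by norm_num)
    · exact absurd (contra InvCheck.F4.rank_39_45 InvCheck.F4.rank_44) (by norm_num)
    · exact absurd (contra InvCheck.F4.rank_39_45 InvCheck.F4.rank_44_47) (by norm_num)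

end Cfsg.Agent.S2174
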