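import Cfsg.Statements.S2175
import Cfsg.Agent.Lib.OutAut.InvCheck.Classes
import Cfsg.Agent.Lib.OutAut.InvCheck.CertE6
import Cfsg.Agent.Lib.OutAut.InvCheck.RankE6

set_option autoImplicit false
open Cfsg

namespace Cfsg.Agent.S2175

open Cfsg.Lie CfsgLib.Chevalley CfsgLib.OutAut CfsgLib.OutAut.InvCheck

local instance neZeroRootsS : NeZero Cfsg.Lie.chevE6.nroots := ⟨by decide⟩

/-- The three representatives. -/
def reps : List (List ℕ) := [[71], [66, 68], [55, 65, 67]]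

theorem classes_ok : classesOK InvCheck.E6.tab InvCheck.E6.simples 16 reps InvCheck.E6.terminals
    InvCheck.E6.entries InvCheck.E6.scales InvCheck.E6.links = true := by decide +kernel

theorem squares_ok : ∀ w ∈ reps, ((w ++ w).all InvCheck.E6.tab.pos.contains &&
    collect InvCheck.E6.tab 16 (w ++ w) == []) = true := by decide +kernel

/-- Conjugacy classes of involutions in the Chevalley group of type E₆ over a finite field F of characteristic two (the matrix group generated by the root elements x_r(t)). In this problem's root numbering for type E₆ (the Chevalley data module; fundamental roots numbered so that p₁–p₃–p₄–p₅–p₆ is the long chain of the diagram and p₂ is joined to p₄; roots indexed by their coefficient vectors in increasing order) let r = 71 be the highest root (1,2,2,3,2,1), α = 68 = (1,1,2,2,1,1), β = 66 = (1,1,1,2,2,1), γ = 55 = (0,1,1,2,2,1), δ = 65 = (1,1,1,2,1,1), ε = 67 = (1,1,2,2,1,0) (α ⊥ β and γ, δ,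 ε pairwise orthogonal); consider x_r(1), x_α(1)x_β(1) and x_γ(1)x_δ(1)x_ε(1). Then: each invertible matrix equal to one of these three products lies in the group and has order 2; every element of order 2 of the group is conjugate in the group to one of them; and no two of them are conjugate in the group (so, the three matrices being distinct, the group has exactly three conjugacy classes of involutions). -/
theorem result {F : Type*} [Field F] [Fintype F] [CharP F 2] :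
    (∀ y : GL Cfsg.Lie.chevE6.Idx F, ((y : GL Cfsg.Lie.chevE6.Idx F) : Matrix Cfsg.Lie.chevE6.Idx Cfsg.Lie.chevE6.Idx F) ∈ [Cfsg.Lie.chevE6.x F 71 1, Cfsg.Lie.chevE6.x F 68 1 * Cfsg.Lie.chevE6.x F 66 1, Cfsg.Lie.chevE6.x F 55 1 * Cfsg.Lie.chevE6.x F 65 1 * Cfsg.Lie.chevE6.x F 67 1] → y ∈ Cfsg.Lie.chevE6.group F ∧ orderOf y = 2) ∧
    (∀ g ∈ Cfsg.Lie.chevE6.group F, orderOf g = 2 → ∃ y ∈ Cfsg.Lie.chevE6.group F, ((y : GL Cfsg.Lie.chevE6.Idx F) : Matrix Cfsg.Lie.chevE6.Idx Cfsg.Lie.chevE6.Idx F) ∈ [Cfsg.Lie.chevE6.x F 71 1, Cfsg.Lie.chevE6.x F 68 1 * Cfsg.Lie.chevE6.x F 66 1, Cfsg.Lie.chevE6.x F 55 1 * Cfsg.Lie.chevE6.x F 65 1 * Cfsg.Lie.chevE6.x F 67 1] ∧ ∃ h ∈ Cfsg.Lie.chevE6.group F, h * g * h⁻¹ = y) ∧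
    (∀ y₁ ∈ Cfsg.Lie.chevE6.group F, ∀ y₂ ∈ Cfsg.Lie.chevE6.group F, ((y₁ : GL Cfsg.Lie.chevE6.Idx F) : Matrix Cfsg.Lie.chevE6.Idx Cfsg.Lie.chevE6.Idx F) ∈ [Cfsg.Lie.chevE6.x F 71 1, Cfsg.Lie.chevE6.x F 68 1 * Cfsg.Lie.chevE6.x F 66 1, Cfsg.Lie.chevE6.x F 55 1 * Cfsg.Lie.chevE6.x F 65 1 * Cfsg.Lie.chevE6.x F 67 1] → ((y₂ : GL Cfsg.Lie.chevE6.Idx F) : Matrix Cfsg.Lie.chevE6.Idx Cfsg.Lie.chevE6.Idx F) ∈ [Cfsg.Lie.chevE6.x F 71 1, Cfsg.Lie.chevE6.x F 68 1 * Cfsg.Lie.chevE6.x F 66 1, Cfsg.Lie.chevE6.x F 55 1 * Cfsg.Lie.chevE6.x F 65 1 * Cfsg.Lie.chevE6.x F 67 1] →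
      (∃ h ∈ Cfsg.Lie.chevE6.group F, h * y₁ * h⁻¹ = y₂) → ((y₁ : GL Cfsg.Lie.chevE6.Idx F) : Matrix Cfsg.Lie.chevE6.Idx Cfsg.Lie.chevE6.Idx F) = ((y₂ : GL Cfsg.Lie.chevE6.Idx F) : Matrix Cfsg.Lie.chevE6.Idx Cfsg.Lie.chevE6.Idx F)) := by
  let W : List ℕ → GL chevE6.Idx F := fun w => wordU InvCheck.E6.full w
  have hswap : (W [68, 66] : GL chevE6.Idx F) = W [66, 68] := by
    have hc := (collect_spec (F := F) InvCheck.E6.full InvCheck.E6.valid 4 [68, 66] (by decide +kernel)).2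
    rw [show collect InvCheck.E6.tab 4 [68, 66] = [66, 68] by decide +kernel] at hc
    exact hc.symm
  have key : ∀ y : GL chevE6.Idx F, ((y : GL chevE6.Idx F) : Matrix chevE6.Idx chevE6.Idx F) ∈
      [chevE6.x F 71 1, chevE6.x F 68 1 * chevE6.x F 66 1,
        chevE6.x F 55 1 * chevE6.x F 65 1 * chevE6.x F 67 1] ↔ ∃ w ∈ reps, y = W w := by
    intro y
    have e1 : chevE6.x F 71 1 = ((W [71] : GL chevE6.Idx F) : Matrix chevE6.Idx chevE6.Idx F) := by
      simp [W, wordU, prodU]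
    have e2 : chevE6.x F 68 1 * chevE6.x F 66 1 =
        ((W [66, 68] : GL chevE6.Idx F) : Matrix chevE6.Idx chevE6.Idx F) := by
      rw [← hswap]; simp [W, wordU, prodU]
    have e3 : chevE6.x F 55 1 * chevE6.x F 65 1 * chevE6.x F 67 1 =
        ((W [55, 65, 67] : GL chevE6.Idx F) : Matrix chevE6.Idx chevE6.Idx F) := by
      simp [W, wordU, prodU, mul_assoc]
    rw [e3, e2, e1]
    simp only [List.mem_cons, List.not_mem_nil, or_false, Units.val_inj, reps, exists_eq_or_imp,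
      exists_eq_left]
  have hrank : ∀ w ∈ reps, ∃ k, (((W w : GL chevE6.Idx F) : Matrix chevE6.Idx chevE6.Idx F) - 1).rank = k ∧
      k ≠ 0 := by
    intro w hw
    simp only [reps, List.mem_cons, List.not_mem_nil, or_false] at hw
    rcases hw with rfl | rfl | rfl
    exacts [⟨_, InvCheck.E6.rank_71, by norm_num⟩, ⟨_, InvCheck.E6.rank_66_68, by norm_num⟩,
      ⟨_, InvCheck.E6.rank_55_65_67, by norm_num⟩]
  refine ⟨fun y hy => ?_, fun g hg ho => ?_, fun y₁ _ y₂ _ hy₁ hy₂ hc => ?_⟩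
  · obtain ⟨w, hw, rfl⟩ := (key y).1 hy
    obtain ⟨k, hk, hk0⟩ := hrank w hw
    exact ⟨wordU_mem_group _ w, orderOf_word InvCheck.E6.full InvCheck.E6.valid (squares_ok w hw) hk hk0⟩
  · obtain ⟨w, hw, x, hx, e⟩ := exists_rep (F := F) InvCheck.E6.full InvCheck.E6.valid (reps := reps)
      (simples := InvCheck.E6.simples) (by decide +kernel) InvCheck.E6.chain InvCheck.E6.scales_ok
      classes_ok hg (by rw [← sq, ← ho, pow_orderOf_eq_one]) (fun h1 => by simp [h1] at ho)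
    exact ⟨W w, wordU_mem_group _ w, (key _).2 ⟨w, hw, rfl⟩, x, hx, e⟩
  · obtain ⟨w₁, hw₁, rfl⟩ := (key y₁).1 hy₁
    obtain ⟨w₂, hw₂, rfl⟩ := (key y₂).1 hy₂
    obtain ⟨x, hx, e⟩ := hc
    refine congrArg Units.val (congrArg W ?_)
    simp only [reps, List.mem_cons, List.not_mem_nil, or_false] at hw₁ hw₂
    have contra : ∀ {k k' : ℕ}, ((((W w₁ : GL chevE6.Idx F)) : Matrix chevE6.Idx chevE6.Idx F) - 1).rank = k →
        ((((W w₂ : GL chevE6.Idx F)) : Matrix chevE6.Idx chevE6.Idx F) - 1).rank = k' → k = k' :=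
      fun a b => rank_eq_of_conj _ a b e
    rcases hw₁ with rfl | rfl | rfl <;> rcases hw₂ with rfl | rfl | rfl <;> try rfl
    all_goals exfalso
    · exact absurd (contra InvCheck.E6.rank_71 InvCheck.E6.rank_66_68) (by norm_num)
    · exact absurd (contra InvCheck.E6.rank_71 InvCheck.E6.rank_55_65_67) (by norm_num)
    · exact absurd (contra InvCheck.E6.rank_66_68 InvCheck.E6.rank_71) (by norm_num)
    · exact absurd (contra InvCheck.E6.rank_66_68 InvCheck.E6.rank_55_65_67) (by norm_num)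
    · exact absurd (contra InvCheck.E6.rank_55_65_67 InvCheck.E6.rank_71) (by norm_num)
    · exact absurd (contra InvCheck.E6.rank_55_65_67 InvCheck.E6.rank_66_68) (by norm_num)

end Cfsg.Agent.S2175
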