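import Cfsg.Statements.S2177
import Cfsg.Agent.Lib.OutAut.G2Centralizer

set_option autoImplicit false
set_option maxRecDepth 100000
open Cfsg

namespace Cfsg.Agent.S2177

/-- Conjugacy classes of involutions in the Chevalley group of type G₂ over a finite field F of characteristic two with at least four elements (the matrix group generated by the root elements x_r(t)). In this problem's root numbering for type G₂ (the Chevalley data module; p₁ = a short, p₂ = b long; roots indexed by coefficient vectors in increasing order) let 11 be the highest root 3a + 2b (long) and 9 the short root 2a + b; consider x_{3a+2b}(1) and x_{2a+b}(1). Then: each invertible matrix equal to one of these two products lies in the group and has order 2; every element of order 2 of the group is conjugate in the group to one of them; and no two of them are conjugate in the group (so, the two matrices being distinct, the group has exactly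 two conjugacy classes of involutions). -/
theorem result {F : Type*} [Field F] [Fintype F] [CharP F 2] (hF : 4 ≤ Fintype.card F) :
    (∀ y : GL Cfsg.Lie.chevG2.Idx F, ((y : GL Cfsg.Lie.chevG2.Idx F) : Matrix Cfsg.Lie.chevG2.Idx Cfsg.Lie.chevG2.Idx F) ∈ [Cfsg.Lie.chevG2.x F 11 1, Cfsg.Lie.chevG2.x F 9 1] → y ∈ Cfsg.Lie.chevG2.group F ∧ orderOf y = 2) ∧
    (∀ g ∈ Cfsg.Lie.chevG2.group F, orderOf g = 2 → ∃ y ∈ Cfsg.Lie.chevG2.group F, ((y : GL Cfsg.Lie.chevG2.Idx F) : Matrix Cfsg.Lie.chevG2.Idx Cfsg.Lie.chevG2.Idx F) ∈ [Cfsg.Lie.chevG2.x F 11 1, Cfsg.Lie.chevG2.x F 9 1] ∧ ∃ h ∈ Cfsg.Lie.chevG2.group F, h * g * h⁻¹ = y) ∧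
    (∀ y₁ ∈ Cfsg.Lie.chevG2.group F, ∀ y₂ ∈ Cfsg.Lie.chevG2.group F, ((y₁ : GL Cfsg.Lie.chevG2.Idx F) : Matrix Cfsg.Lie.chevG2.Idx Cfsg.Lie.chevG2.Idx F) ∈ [Cfsg.Lie.chevG2.x F 11 1, Cfsg.Lie.chevG2.x F 9 1] → ((y₂ : GL Cfsg.Lie.chevG2.Idx F) : Matrix Cfsg.Lie.chevG2.Idx Cfsg.Lie.chevG2.Idx F) ∈ [Cfsg.Lie.chevG2.x F 11 1, Cfsg.Lie.chevG2.x F 9 1] →
      (∃ h ∈ Cfsg.Lie.chevG2.group F, h * y₁ * h⁻¹ = y₂) → ((y₁ : GL Cfsg.Lie.chevG2.Idx F) : Matrix Cfsg.Lie.chevG2.Idx Cfsg.Lie.chevG2.Idx F) = ((y₂ : GL Cfsg.Lie.chevG2.Idx F) : Matrix Cfsg.Lie.chevG2.Idx Cfsg.Lie.chevG2.Idx F)) := by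
  classical
  have h11 : CfsgLib.Chevalley.xG CfsgLib.OutAut.G2Two.full.cert 11 (1 : F) ∈ Cfsg.Lie.chevG2.group F ∧
      orderOf (CfsgLib.Chevalley.xG CfsgLib.OutAut.G2Two.full.cert 11 (1 : F)) = 2 := by
    refine ⟨CfsgLib.Chevalley.xG_mem_group _ _ _, orderOf_eq_prime ?_ ?_⟩
    · rw [pow_two, CfsgLib.Chevalley.xG_mul, CharTwo.add_self_eq_zero, CfsgLib.Chevalley.xG_zero]
    · intro h
      exact one_ne_zero (CfsgLib.Chevalley.xG_injective _ (by decide)
        (h.trans (CfsgLib.Chevalley.xG_zero _ _).symm))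
  have h9 : CfsgLib.Chevalley.xG CfsgLib.OutAut.G2Two.full.cert 9 (1 : F) ∈ Cfsg.Lie.chevG2.group F ∧
      orderOf (CfsgLib.Chevalley.xG CfsgLib.OutAut.G2Two.full.cert 9 (1 : F)) = 2 := by
    refine ⟨CfsgLib.Chevalley.xG_mem_group _ _ _, orderOf_eq_prime ?_ ?_⟩
    · rw [pow_two, CfsgLib.Chevalley.xG_mul, CharTwo.add_self_eq_zero, CfsgLib.Chevalley.xG_zero]
    · intro h
      exact one_ne_zero (CfsgLib.Chevalley.xG_injective _ (by decide)
        (h.trans (CfsgLib.Chevalley.xG_zero _ _).symm))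
  refine ⟨?_, ?_, ?_⟩
  · intro y hy
    simp only [List.mem_cons, List.not_mem_nil, or_false] at hy
    rcases hy with hy | hy <;> rw [(CfsgLib.Chevalley.eq_xG_iff CfsgLib.OutAut.G2Two.full.cert).1 hy]
    exacts [h11, h9]
  · intro g hg ho
    haveI : ExpChar F 2 := ExpChar.prime Nat.prime_two
    haveI : PerfectRing F 2 := PerfectRing.ofSurjective F 2 (Finite.injective_iff_surjective.1 (frobenius_inj F 2))
    have hg2 : g ^ 2 ^ 1 = 1 := by rw [pow_one, ← ho, pow_orderOf_eq_one]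
    obtain ⟨x, hx, hxU⟩ := CfsgLib.OutAut.exists_conj_mem_posUnipotent CfsgLib.OutAut.G2Two.full hg hg2
    rw [pow_one, pow_two] at hg2
    have hsq := CfsgLib.OutAut.G2Two.sq_conj hg2 (rfl : x * g * x⁻¹ = x * g * x⁻¹)
    have hne : x * g * x⁻¹ ≠ 1 := fun h => by
      rw [conj_eq_one_iff] at h
      rw [h, orderOf_one] at ho
      exact absurd ho (by norm_num)
    rcases CfsgLib.OutAut.G2Two.rel_of_involution hxU hsq hne with h | h
    · exact ⟨_, h11.1, by simp, CfsgLib.OutAut.G2Two.Rel.trans ⟨x, hx, rfl⟩ h⟩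
    · exact ⟨_, h9.1, by simp, CfsgLib.OutAut.G2Two.Rel.trans ⟨x, hx, rfl⟩ h⟩
  · intro y₁ _ y₂ _ h₁ h₂ hc
    simp only [List.mem_cons, List.not_mem_nil, or_false] at h₁ h₂
    have e := fun (y : GL Cfsg.Lie.chevG2.Idx F) (k : ℕ)
      (h : (y : Matrix Cfsg.Lie.chevG2.Idx Cfsg.Lie.chevG2.Idx F) = Cfsg.Lie.chevG2.x F k 1) =>
        (CfsgLib.Chevalley.eq_xG_iff CfsgLib.OutAut.G2Two.full.cert).1 h
    obtain ⟨k, hk, hc⟩ := hc
    rcases h₁ with h₁ | h₁ <;> rcases h₂ with h₂ | h₂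
    · rw [h₁, h₂]
    · refine absurd ⟨k⁻¹, inv_mem hk, ?_⟩ (CfsgLib.OutAut.G2Two.not_rel_eleven_nine (F := F))
      rw [e _ _ h₁, e _ _ h₂] at hc
      show k⁻¹ * CfsgLib.Chevalley.xG CfsgLib.OutAut.G2Two.full.cert 9 (1 : F) * k⁻¹⁻¹ = _
      rw [← hc]; group
    · refine absurd ⟨k, hk, ?_⟩ (CfsgLib.OutAut.G2Two.not_rel_eleven_nine (F := F))
      rw [e _ _ h₁, e _ _ h₂] at hc
      exact hc
    · rw [h₁, h₂]

end Cfsg.Agent.S2177
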