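import Cfsg.Statements.S2179
import Cfsg.Agent.Lib.OutAut.F4PairInv

set_option autoImplicit false
open Cfsg Cfsg.Lie CfsgLib.Chevalley CfsgLib.OutAut CfsgLib.OutAut.F4Pair

namespace Cfsg.Agent.S2179

local instance neZeroRootsS : NeZero Cfsg.Lie.chevF4.nroots := ⟨by decide⟩

/-- Centralizers of the two remaining classes of involutions in the Chevalley group G of type F₄ over a finite field F of characteristic two (this problem's root numbering for type F₄, from the Chevalley data module: p₁, p₂ short, p₃, p₄ long with indices 33, 27, 25, 24 and negatives 14, 20, 22, 23; U generated by the positive root subgroups). For an element of G with matrix x_47(1)x_44(1) (highest root times highest short root): its centralizer in G is generated by U, X_{−p₂} and X_{−p₃}. For an element of G with matrix x_39(1)x_45(1) (roots (1,2,2,1) and (2,4,2,1), an orthogonal short/long pair): its centralizer in G is generated by X_{p₁}, X_{−p₁}, X_{p₄}, X_{−p₄} and the root subgroups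 of all positive roots other than p₂ (27), p₃ (25), p₁ + p₂ (34) and p₃ + p₄ (26). -/
theorem result {F : Type*} [Field F] [Fintype F] [CharP F 2] (w v : GL Cfsg.Lie.chevF4.Idx F) (hw : (w : Matrix Cfsg.Lie.chevF4.Idx Cfsg.Lie.chevF4.Idx F) = Cfsg.Lie.chevF4.x F 47 1 * Cfsg.Lie.chevF4.x F 44 1) (hv : (v : Matrix Cfsg.Lie.chevF4.Idx Cfsg.Lie.chevF4.Idx F) = Cfsg.Lie.chevF4.x F 39 1 * Cfsg.Lie.chevF4.x F 45 1) :
    Cfsg.Lie.chevF4.group F ⊓ Subgroup.centralizer {w} = Cfsg.Lie.chevF4.posUnipotent F ⊔ Cfsg.Lie.chevF4.rootSubgroup F 20 ⊔ Cfsg.Lie.chevF4.rootSubgroup F 22 ∧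
    Cfsg.Lie.chevF4.group F ⊓ Subgroup.centralizer {v} = Cfsg.Lie.chevF4.rootSubgroup F 33 ⊔ Cfsg.Lie.chevF4.rootSubgroup F 14 ⊔ Cfsg.Lie.chevF4.rootSubgroup F 24 ⊔ Cfsg.Lie.chevF4.rootSubgroup F 23 ⊔
      Subgroup.closure {g : GL Cfsg.Lie.chevF4.Idx F | ∃ (r : ℕ) (c : F), Cfsg.Lie.chevF4.IsPosRoot r ∧ r ∉ [27, 25, 34, 26] ∧ (g : Matrix Cfsg.Lie.chevF4.Idx Cfsg.Lie.chevF4.Idx F) = Cfsg.Lie.chevF4.x F r c} := by
  have hval : ∀ (r s : ℕ), ((X r (1 : F) * X s 1 : GL Cfsg.Lie.chevF4.Idx F) : Matrix Cfsg.Lie.chevF4.Idx Cfsg.Lie.chevF4.Idx F) =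
      Cfsg.Lie.chevF4.x F r 1 * Cfsg.Lie.chevF4.x F s 1 := fun r s => by simp [coe_xG]
  obtain rfl : w = X 47 1 * X 44 1 := Units.ext (hw.trans (hval 47 44).symm)
  obtain rfl : v = X 39 1 * X 45 1 := Units.ext (hv.trans (hval 39 45).symm)
  constructor
  · rw [centralizer_central]
    have hset : {s | ∃ i, i < Cfsg.Lie.chevF4.rank ∧
        i ∈ orthSimple Cfsg.Lie.chevF4 [(47 : Fin Cfsg.Lie.chevF4.nroots), (44 : Fin Cfsg.Lie.chevF4.nroots)] ∧
        s = Cfsg.Lie.chevF4.neg (Cfsg.Lie.chevF4.simple i)} = ({20, 22} : Set ℕ) := by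
      ext s
      have key : ∀ i ∈ List.range Cfsg.Lie.chevF4.rank,
          ((Cfsg.Lie.chevF4.cartan i 47 = 0 ∧ Cfsg.Lie.chevF4.cartan i 44 = 0) ↔ (i = 1 ∨ i = 2)) := by
        decide +kernel
      have e1 : Cfsg.Lie.chevF4.neg (Cfsg.Lie.chevF4.simple 1) = 20 := by decide +kernel
      have e2 : Cfsg.Lie.chevF4.neg (Cfsg.Lie.chevF4.simple 2) = 22 := by decide +kernel
      simp only [orthSimple, Set.mem_ofPred_eq, List.mem_cons, List.not_mem_nil, or_false, forall_eq_or_imp,
        forall_eq, Set.mem_insert_iff, Set.mem_singleton_iff]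
      constructor
      · rintro ⟨i, hi, h, rfl⟩
        rcases (key i (List.mem_range.2 hi)).1 h with rfl | rfl
        exacts [Or.inl e1, Or.inr e2]
      · rintro (rfl | rfl)
        exacts [⟨1, by decide, (key 1 (by decide)).2 (Or.inl rfl), e1.symm⟩,
          ⟨2, by decide, (key 2 (by decide)).2 (Or.inr rfl), e2.symm⟩]
    rw [orthGroup, hset, sup_assoc]
    congr 1
    refine le_antisymm ((rootsU_le_iff full.cert).2 fun r hr t => ?_) (sup_le ?_ ?_)
    · rcases hr with rfl | rfl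
      · exact Subgroup.mem_sup_left (xG_mem_rootSubgroup full.cert _ t)
      · exact Subgroup.mem_sup_right (xG_mem_rootSubgroup full.cert _ t)
    all_goals
      intro g hg
      obtain ⟨t, rfl⟩ := (mem_rootSubgroup_iff full.cert).1 hg
      exact xG_mem_rootsU full.cert (by simp) t
  · show Cfsg.Lie.chevF4.group F ⊓ Subgroup.centralizer {(pairElt : GL Cfsg.Lie.chevF4.Idx F)} = _
    rw [centralizer_pair]
    refine le_antisymm ((rootsU_le_iff full.cert).2 fun r hr t => ?_) ?_
    · rcases hr with rfl | rfl | rfl | rfl | ⟨hr, hne⟩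
      · exact Subgroup.mem_sup_left (Subgroup.mem_sup_left (Subgroup.mem_sup_left (Subgroup.mem_sup_left (xG_mem_rootSubgroup full.cert _ t))))
      · exact Subgroup.mem_sup_left (Subgroup.mem_sup_left (Subgroup.mem_sup_left (Subgroup.mem_sup_right (xG_mem_rootSubgroup full.cert _ t))))
      · exact Subgroup.mem_sup_left (Subgroup.mem_sup_left (Subgroup.mem_sup_right (xG_mem_rootSubgroup full.cert _ t)))
      · exact Subgroup.mem_sup_left (Subgroup.mem_sup_right (xG_mem_rootSubgroup full.cert _ t))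
      · exact Subgroup.mem_sup_right (Subgroup.subset_closure ⟨r, t, hr, hne, coe_xG full.cert r t⟩)
    · have hs : ∀ r ∈ centSet, Cfsg.Lie.chevF4.rootSubgroup F r ≤ rootsU Cfsg.Lie.chevF4 F centSet :=
        fun r hr g hg => by
          obtain ⟨t, rfl⟩ := (mem_rootSubgroup_iff full.cert).1 hg
          exact xG_mem_rootsU full.cert hr t
      refine sup_le (sup_le (sup_le (sup_le (hs 33 (Or.inl rfl)) (hs 14 (Or.inr (Or.inl rfl))))
        (hs 24 (Or.inr (Or.inr (Or.inl rfl))))) (hs 23 (Or.inr (Or.inr (Or.inr (Or.inl rfl)))))) ?_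
      rw [Subgroup.closure_le]
      rintro g ⟨r, c, hr, hne, hg⟩
      rw [show g = X r c from Units.ext (hg.trans (coe_xG full.cert r c).symm)]
      exact xG_mem_rootsU full.cert (pos_mem_centSet hr hne) c

end Cfsg.Agent.S2179
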