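import Cfsg.Statements.S2181
import Cfsg.Agent.Lib.OutAut.InvCheck.Classes
import Cfsg.Agent.Lib.OutAut.InvCheck.CertE7
import Cfsg.Agent.Lib.OutAut.InvCheck.RankE7

set_option autoImplicit false
open Cfsg

namespace Cfsg.Agent.S2181

open Cfsg.Lie CfsgLib.Chevalley CfsgLib.OutAut CfsgLib.OutAut.InvCheck

local instance neZeroRootsS : NeZero Cfsg.Lie.chevE7.nroots := ⟨by decide⟩

/-- The five representatives. -/
def reps : List (List ℕ) := [[63], [63, 66], [63, 66, 73], [63, 66, 78], [63, 66, 73, 78]]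

theorem classes_ok : classesOK InvCheck.E7.tab InvCheck.E7.simples 19 reps InvCheck.E7.terminals
    InvCheck.E7.entries InvCheck.E7.scales InvCheck.E7.links = true := by decide +kernel

/-- The rank of `y - 1` on the representatives. -/
def kOf (w : List ℕ) : ℕ :=
  if w = [63] then 34 else if w = [63, 66] then 52 else if w = [63, 66, 73] then 62 else
    if w = [63, 66, 78] then 53 else 63

theorem kOf_ne : ∀ w ∈ reps, kOf w ≠ 0 := by decide

theorem kOf_inj : ∀ w₁ ∈ reps, ∀ w₂ ∈ reps, kOf w₁ = kOf w₂ → w₁ = w₂ := by decide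

theorem squares_ok : ∀ w ∈ reps, ((w ++ w).all InvCheck.E7.tab.pos.contains &&
    collect InvCheck.E7.tab 19 (w ++ w) == []) = true := by decide +kernel

/-- The Chevalley group of type E₇ over a finite field of characteristic two (the matrix group generated by the root elements) has exactly five conjugacy classes of elements of order 2. -/
theorem result {F : Type*} [Field F] [Fintype F] [CharP F 2] :
    (ConjClasses.mk '' {g : ↥(Cfsg.Lie.chevE7.group F) | orderOf g = 2}).ncard = 5 := by
  classical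
  let W : List ℕ → ↥(chevE7.group F) := fun w =>
    ⟨wordU InvCheck.E7.full w, wordU_mem_group _ w⟩
  have hrank : ∀ w ∈ reps,
      ((((W w : GL chevE7.Idx F)) : Matrix chevE7.Idx chevE7.Idx F) - 1).rank = kOf w := by
    intro w hw
    simp only [reps, List.mem_cons, List.not_mem_nil, or_false] at hw
    rcases hw with rfl | rfl | rfl | rfl | rfl
    exacts [InvCheck.E7.rank_63, InvCheck.E7.rank_63_66, InvCheck.E7.rank_63_66_73,
      InvCheck.E7.rank_63_66_78, InvCheck.E7.rank_63_66_73_78]
  have himg : ConjClasses.mk '' {g : ↥(chevE7.group F) | orderOf g = 2} =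
      ↑(reps.toFinset.image fun w => ConjClasses.mk (W w)) := by
    ext c
    simp only [Set.mem_image, Set.mem_ofPred_eq, Finset.coe_image, List.coe_toFinset]
    constructor
    · rintro ⟨g, ho, rfl⟩
      rw [← Subgroup.orderOf_coe] at ho
      obtain ⟨w, hw, x, hx, e⟩ := exists_rep (F := F) InvCheck.E7.full InvCheck.E7.valid (reps := reps)
        (simples := InvCheck.E7.simples) (by decide +kernel) InvCheck.E7.chain InvCheck.E7.scales_ok
        classes_ok g.2 (by rw [← sq, ← ho, pow_orderOf_eq_one]) (fun h1 => by simp [h1] at ho)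
      exact ⟨w, hw, (ConjClasses.mk_eq_mk_iff_isConj.2 (isConj_iff.2 ⟨⟨x, hx⟩, Subtype.ext e⟩)).symm⟩
    · rintro ⟨w, hw, rfl⟩
      refine ⟨W w, ?_, rfl⟩
      rw [← Subgroup.orderOf_coe]
      exact orderOf_word InvCheck.E7.full InvCheck.E7.valid (squares_ok w hw) (hrank w hw) (kOf_ne w hw)
  rw [himg, Set.ncard_coe_finset, Finset.card_image_of_injOn, List.toFinset_card_of_nodup (by decide)]
  · rfl
  intro w₁ hw₁ w₂ hw₂ e
  obtain ⟨x, hx⟩ := isConj_iff.1 (ConjClasses.mk_eq_mk_iff_isConj.1 e)
  have hx' : (x : GL chevE7.Idx F) * wordU InvCheck.E7.full w₁ * (x : GL chevE7.Idx F)⁻¹ =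
      wordU InvCheck.E7.full w₂ := congrArg Subtype.val hx
  simp only [List.coe_toFinset, Set.mem_ofPred_eq] at hw₁ hw₂
  exact kOf_inj w₁ hw₁ w₂ hw₂ (rank_eq_of_conj _ (hrank w₁ hw₁) (hrank w₂ hw₂) hx')

end Cfsg.Agent.S2181
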