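import Cfsg.Statements.S2183
import Cfsg.Agent.Lib.TrialityInvolutions.Classes
-- import your own Cfsg.Agent.* helpers here

set_option autoImplicit false
open Cfsg

namespace Cfsg.Agent.S2183

/-- The twisted group ³D₄(q), q even, realised inside the Chevalley group of type D₄ over the field K with q³ elements, has exactly two conjugacy classes of elements of order 2. -/
theorem result {K : Type*} [Field K] [Fintype K] [CharP K 2] (q : ℕ) (hK : Fintype.card K = q ^ 3) :
    (ConjClasses.mk '' {g : ↥(Cfsg.Lie.twistedD4 K q) | orderOf g = 2}).ncard = 2 := by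
  classical
  obtain ⟨n, -, hn⟩ := FiniteField.card K 2
  obtain ⟨m, -, rfl⟩ := (Nat.dvd_prime_pow Nat.prime_two).1
    (show q ∣ 2 ^ (n : ℕ) from hn ▸ hK ▸ dvd_pow_self q three_ne_zero)
  have hm : 0 < m := by
    refine Nat.pos_of_ne_zero fun h => ?_
    subst h
    simp only [pow_zero, one_pow] at hK
    exact absurd hK (Fintype.one_lt_card (α := K)).ne'
  exact CfsgLib.TrialityInvolutions.ncard_involution_classes (σ := iterateFrobenius K 2 m)
    ⟨⟨2, m, Nat.prime_two.prime, hm, rfl⟩, by rw [Nat.card_eq_fintype_card, hK], fun x => rfl⟩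

end Cfsg.Agent.S2183
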