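import Cfsg.Statements.S2189
import Cfsg.Agent.Lib.ClassK.Subfield.Specialize

set_option autoImplicit false
open Cfsg

namespace Cfsg.Agent.S2189

/-- Finite subgroups of an adjoint Chevalley group over an algebraically closed field that contain the group over a finite subfield. Let k be an algebraically closed field of prime characteristic p, G the Chevalley group of type G₂, B₂, D₄, F₄, E₆, E₇ or E₈ over k (the matrix group generated by the root elements x_s(t), t ∈ k), and q = p^a with a ≥ 1. Let L be the subgroup generated by the root elements x_s(t) with t^q = t (the Chevalley group over the field of q elements inside G), and let M be a finite subgroup of G containing L. Then for some r ≥ 1, M contains every root element x_s(t) with t^(q^r) = t and every element of M is a matrix all of whose entries c satisfy c^(q^r) = c (so M lies between the Chevalley group over the field with q^r elements and the group of points of G fixed by the q^r-th power map). -/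
theorem result {k : Type*} [Field k] [IsAlgClosed k] (p : ℕ) [Fact p.Prime] [CharP k p] (D : Cfsg.Lie.ChevalleyDatum) (hD : D ∈ [Cfsg.Lie.chevG2, Cfsg.Lie.chevB2, Cfsg.Lie.chevD4, Cfsg.Lie.chevF4, Cfsg.Lie.chevE6, Cfsg.Lie.chevE7, Cfsg.Lie.chevE8]) (a : ℕ) (ha : 1 ≤ a) (M : Subgroup (GL D.Idx k)) (hMfin : Finite ↥M) (hMG : M ≤ D.group k)
    (hLM : Subgroup.closure {g : GL D.Idx k | ∃ (s : ℕ) (t : k), t ^ (p ^ a) = t ∧ (g : Matrix D.Idx D.Idx k) = D.x k s t} ≤ M) :
    ∃ r : ℕ, 1 ≤ r ∧ Subgroup.closure {g : GL D.Idx k | ∃ (s : ℕ) (t : k), t ^ ((p ^ a) ^ r) = t ∧ (g : Matrix D.Idx D.Idx k) = D.x k s t} ≤ M ∧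
      ∀ g ∈ M, ∀ i j : D.Idx, ((g : Matrix D.Idx D.Idx k) i j) ^ ((p ^ a) ^ r) = (g : Matrix D.Idx D.Idx k) i j := by
  haveI := hMfin
  obtain ⟨r, hr, hall, hent⟩ := CfsgLib.ClassK.Subfield.exists_sandwich (p := p) hD ha hMG
    (fun s t ht g hg => hLM (Subgroup.subset_closure ⟨s, t, ht, hg⟩))
  refine ⟨r, hr, (Subgroup.closure_le M).2 ?_, fun g hg i j => ?_⟩
  · rintro g ⟨s, t, ht, hg⟩
    exact hall s t (by rw [pow_mul]; exact ht) g hg
  · rw [← pow_mul]
    exact hent g hg i j

end Cfsg.Agent.S2189
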