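import Cfsg.Statements.S2205
import Cfsg.Agent.Lib.InvChar.Basic
import Cfsg.Agent.Lib.DegreePSquare.Main

set_option autoImplicit false
open Cfsg
open CfsgLib.InvChar

namespace Cfsg.Agent.S2205

/-- A finite group acting faithfully and 2-transitively on a set with p² + 1 points, p a prime, is doubly primitive — a point stabilizer acts primitively on the remaining p² points — unless p = 2 and the group is the Frobenius group of order 20. -/
theorem result {G Ω : Type*} [Group G] [Finite G] [Fintype Ω] [MulAction G Ω] [FaithfulSMul G Ω] (p : ℕ) (hp : p.Prime) (hΩ : Fintype.card Ω = p ^ 2 + 1) (h2 : MulAction.IsMultiplyPretransitive G Ω 2) (a : Ω) :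
    MulAction.IsPreprimitive ↥(MulAction.stabilizer G a) ↥(SubMulAction.ofStabilizer G a) ∨ (p = 2 ∧ Nat.card G = 20) := by
  classical
  have hn : Nat.card Ω = p ^ 2 + 1 := by rw [Nat.card_eq_fintype_card, hΩ]
  by_contra hcon
  rw [not_or] at hcon
  obtain ⟨hprim, hexc⟩ := hcon
  obtain ⟨S⟩ := CfsgLib.DegreePSquare.exists_sys h2 hp hn hprim
  rcases hp.eq_two_or_odd with rfl | hodd
  · exact hexc ⟨rfl, CfsgLib.DegreePSquare.card_of_degree_five h2 (by rw [hn]; norm_num) S⟩
  · obtain ⟨d, -⟩ := CfsgLib.DegreePSquare.Setup.exists_data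
      ({ prime := hp, three_le := by have := hp.two_le; omega, card := hn, two := h2, a := a, S := S } :
        CfsgLib.DegreePSquare.Setup G Ω p)
    exact d.impossible

end Cfsg.Agent.S2205
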