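import Cfsg.Statements.S2214
import Cfsg.Agent.Lib.OutAut.ChevFixed

set_option autoImplicit false
open Cfsg

namespace Cfsg.Agent.S2214

/-- Let k be an algebraically closed field of prime characteristic p, G the adjoint Chevalley group of type G₂, B₂, D₄, F₄, E₆, E₇ or E₈ over k (the matrix group generated by the root elements x_s(t), t ∈ k, acting on the Lie algebra), q = p^a with a ≥ 1, and K a subgroup of G containing every root element x_s(t) with t^q = t and consisting of matrices all of whose entries c satisfy c^q = c. Then the centralizer of K in G is trivial, and the normalizer of K in G is exactly the set of elements of G all of whose entries c satisfy c^q = c. -/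
theorem result {k : Type*} [Field k] [IsAlgClosed k] (p : ℕ) [Fact p.Prime] [CharP k p] (D : Cfsg.Lie.ChevalleyDatum) (hD : D ∈ [Cfsg.Lie.chevG2, Cfsg.Lie.chevB2, Cfsg.Lie.chevD4, Cfsg.Lie.chevF4, Cfsg.Lie.chevE6, Cfsg.Lie.chevE7, Cfsg.Lie.chevE8]) (a : ℕ) (ha : 1 ≤ a) (K : Subgroup (GL D.Idx k)) (hKG : K ≤ D.group k)
    (hLK : Subgroup.closure {g : GL D.Idx k | ∃ (s : ℕ) (t : k), t ^ (p ^ a) = t ∧ (g : Matrix D.Idx D.Idx k) = D.x k s t} ≤ K)
    (hKfix : ∀ g ∈ K, ∀ i j : D.Idx, ((g : Matrix D.Idx D.Idx k) i j) ^ (p ^ a) = (g : Matrix D.Idx D.Idx k) i j) :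
    D.group k ⊓ Subgroup.centralizer (K : Set (GL D.Idx k)) = ⊥ ∧
    ∀ g : GL D.Idx k, g ∈ D.group k → (g ∈ Subgroup.normalizer (K : Set (GL D.Idx k)) ↔ ∀ i j : D.Idx, ((g : Matrix D.Idx D.Idx k) i j) ^ (p ^ a) = (g : Matrix D.Idx D.Idx k) i j) := by
  obtain ⟨A, h⟩ := CfsgLib.Chevalley.exists_full hD
  set φ : k →+* k := iterateFrobenius k p a
  have hφ : ∀ x : k, φ x = x ^ (p ^ a) := fun x => iterateFrobenius_def ..
  have hL : CfsgLib.OutAut.fixedRoots D φ ≤ K := by
    refine le_trans (le_of_eq ?_) hLK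
    simp only [CfsgLib.OutAut.fixedRoots, hφ]
  have hfix : ∀ g : GL D.Idx k, CfsgLib.ReflectionsSpinor.ChevField.push D φ g = g ↔
      ∀ i j : D.Idx, ((g : Matrix D.Idx D.Idx k) i j) ^ (p ^ a) = (g : Matrix D.Idx D.Idx k) i j := by
    intro g
    constructor
    · intro e i j
      rw [← hφ]
      have e' : (CfsgLib.ReflectionsSpinor.ChevField.push D φ g : Matrix D.Idx D.Idx k) i j =
          (g : Matrix D.Idx D.Idx k) i j := by rw [e]
      exact e'
    · intro e
      refine Units.ext (Matrix.ext fun i j => ?_)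
      show φ _ = _
      rw [hφ]
      exact e i j
  refine ⟨?_, fun g hg => ?_⟩
  · rw [eq_bot_iff, ← CfsgLib.OutAut.centralizer_fixedRoots h φ]
    exact inf_le_inf_left _ (Subgroup.centralizer_le hL)
  · rw [← hfix]
    exact CfsgLib.OutAut.normalizer_fixed h hKG hL (fun x hx => (hfix x).2 (hKfix x hx)) hg

end Cfsg.Agent.S2214
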