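import Cfsg.Statements.S2221
import Cfsg.Agent.Lib.OutAut.SylowDecomp

set_option autoImplicit false
open Cfsg CfsgLib.OutAut

namespace Cfsg.Agent.S2221

/-- Direct decomposability of the Sylow 2-subgroups of the alternating groups. Let n ≥ 4 and let P be a Sylow 2-subgroup of the alternating group of degree n. Then P is the internal direct product of two nontrivial subgroups if and only if n = 4, n = 5, or n ≡ 2, 3 (mod 4) with 4⌊n/4⌋ not a power of 2. In the remaining cases (n ≡ 0, 1 (mod 4) with n ≥ 8, or n ≡ 2, 3 (mod 4) with 4⌊n/4⌋ a power of 2) P is directly indecomposable. -/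
theorem result (n : ℕ) (hn : 4 ≤ n)
    (P : Sylow 2 (alternatingGroup (Fin n))) :
    (∃ S₁ S₂ : Subgroup (alternatingGroup (Fin n)), S₁ ≠ ⊥ ∧ S₂ ≠ ⊥ ∧
        Cfsg.IsInternalDirectProduct S₁ S₂ (P : Subgroup (alternatingGroup (Fin n)))) ↔
      (n = 4 ∨ n = 5 ∨ ((n % 4 = 2 ∨ n % 4 = 3) ∧ ∀ r : ℕ, 4 * (n / 4) ≠ 2 ^ r)) := by
  rw [← alt_decomposable_iff hn P]
  set i := (P : Subgroup (alternatingGroup (Fin n))).subtype with hi
  have hinj : Function.Injective i := Subtype.val_injective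
  constructor
  · rintro ⟨S₁, S₂, h₁, h₂, l₁, l₂, hc, hinf, hsup⟩
    refine ⟨S₁.subgroupOf P, S₂.subgroupOf P, ?_, ?_, fun u hu v hv => Subtype.ext (hc _ hu _ hv), ?_, ?_⟩
    · exact fun h => h₁ (by simpa [inf_eq_left.2 l₁] using (Subgroup.subgroupOf_eq_bot.1 h).eq_bot)
    · exact fun h => h₂ (by simpa [inf_eq_left.2 l₂] using (Subgroup.subgroupOf_eq_bot.1 h).eq_bot)
    · rw [eq_bot_iff]
      rintro x ⟨hx₁, hx₂⟩
      have : (x : alternatingGroup (Fin n)) ∈ S₁ ⊓ S₂ := ⟨hx₁, hx₂⟩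
      rw [hinf] at this
      exact Subgroup.mem_bot.2 (Subtype.ext (Subgroup.mem_bot.1 this))
    · apply Subgroup.map_injective hinj
      rw [Subgroup.map_sup, Subgroup.map_subgroupOf_eq_of_le l₁, Subgroup.map_subgroupOf_eq_of_le l₂,
        hsup, ← MonoidHom.range_eq_map, Subgroup.range_subtype]
  · rintro ⟨U, V, hU, hV, hc, hinf, hsup⟩
    refine ⟨U.map i, V.map i, ?_, ?_, Subgroup.map_subtype_le U, Subgroup.map_subtype_le V, ?_, ?_, ?_⟩
    · exact fun h => hU ((Subgroup.map_eq_bot_iff_of_injective U hinj).1 h)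
    · exact fun h => hV ((Subgroup.map_eq_bot_iff_of_injective V hinj).1 h)
    · rintro _ ⟨u, hu, rfl⟩ _ ⟨v, hv, rfl⟩
      rw [← map_mul, ← map_mul, hc u hu v hv]
    · rw [← Subgroup.map_inf _ _ _ hinj, hinf, Subgroup.map_bot]
    · rw [← Subgroup.map_sup, hsup, ← MonoidHom.range_eq_map, Subgroup.range_subtype]

end Cfsg.Agent.S2221
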