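import Cfsg.Statements.S2222
import Cfsg.Agent.Lib.OutAut.SymSylow
import Cfsg.Agent.Lib.OutAut.Pronormal

set_option autoImplicit false
open Cfsg

namespace Cfsg.Agent.S2222

/-- In the alternating group of degree n ≥ 5 every subgroup H of odd index is pronormal: for every element g, the subgroups H and gHg⁻¹ are conjugate by an element of the subgroup they generate. -/
theorem result (n : ℕ) (hn : 5 ≤ n)
    (H : Subgroup (alternatingGroup (Fin n))) (hH : Odd H.index) : Cfsg.IsPronormal H := by
  haveI : Fact (Nat.Prime 2) := ⟨Nat.prime_two⟩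
  obtain ⟨Q⟩ := (Sylow.nonempty : Nonempty (Sylow 2 H))
  have h2 : ¬ 2 ∣ H.index := fun h => (Nat.not_even_iff_odd.2 hH) (even_iff_two_dvd.2 h)
  have hQ : ¬ 2 ∣ ((Q : Subgroup H).map H.subtype).index := by
    rw [Subgroup.index_map_subtype, Nat.prime_two.dvd_mul]
    exact fun h => h.elim (Q.not_dvd_index) h2
  let P : Sylow 2 (alternatingGroup (Fin n)) := (Q.isPGroup'.map H.subtype).toSylow hQ
  have hPH : (P : Subgroup _) ≤ H := Subgroup.map_subtype_le _
  rcases Nat.lt_or_ge n 6 with h6 | h6
  · obtain rfl : n = 5 := by omega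
    have hcard : Nat.card (alternatingGroup (Fin 5)) = 60 := by
      rw [nat_card_alternatingGroup, Nat.card_fin]; rfl
    have hdvd : H.index ∣ 60 := hcard ▸ H.index_dvd_card
    have hi : H.index = 1 ∨ H.index = 3 ∨ H.index = 5 ∨ H.index = 15 := by
      have hle : H.index ≤ 60 := Nat.le_of_dvd (by norm_num) hdvd
      generalize hk : H.index = k at *
      interval_cases k <;> omega
    rcases hi with h | h | h | h
    · intro g
      refine ⟨g, ?_, rfl⟩
      rw [Subgroup.index_eq_one.1 h, top_sup_eq]; trivial
    · exact CfsgLib.OutAut.isPronormal_of_prime_index H (by rw [h]; norm_num)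
    · exact CfsgLib.OutAut.isPronormal_of_prime_index H (by rw [h]; norm_num)
    · have hc : Nat.card H = 4 := by
        have := H.card_mul_index
        rw [hcard, h] at this; omega
      intro g
      let P' : Sylow 2 (alternatingGroup (Fin 5)) :=
        (IsPGroup.of_card (n := 2) (by rw [hc]; norm_num)).toSylow h2
      have h1 : (P' : Subgroup _) ≤ H ⊔ H.map (MulAut.conj g).toMonoidHom := le_sup_left
      have h3 : ((g • P' : Sylow 2 _) : Subgroup _) ≤ H ⊔ H.map (MulAut.conj g).toMonoidHom :=
        le_sup_right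
      obtain ⟨k, hk⟩ := MulAction.exists_smul_eq ↥(H ⊔ H.map (MulAut.conj g).toMonoidHom)
        (P'.subtype h1) ((g • P').subtype h3)
      rw [Sylow.smul_subtype] at hk
      refine ⟨k, k.2, ?_⟩
      exact congrArg Sylow.toSubgroup (Sylow.subtype_injective hk).symm
  · refine CfsgLib.OutAut.isPronormal_of_normalizer_sylow_le P H hPH ?_
    rw [CfsgLib.OutAut.sylowTwo_alternating_normalizer (by simpa using h6) P]
    exact hPH

end Cfsg.Agent.S2222
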