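import Cfsg.Statements.S2225
import Cfsg.Agent.Lib.InvChar.WreathTower
import Cfsg.Agent.Lib.InvChar.PronormalLinearEven
import Cfsg.Agent.Lib.InvChar.PronormalTwoDim

set_option autoImplicit false
open Cfsg

namespace Cfsg.Agent.S2225

/-- Let F be a finite field and d = 2^w ≥ 2 a power of 2 such that PSL_d(F) is simple. Then every subgroup H of PSL_d(F) of odd index is pronormal: for every g, H and gHg⁻¹ are conjugate by an element of the subgroup they generate. -/
theorem result {F : Type*} [Field F] [Fintype F]
    (w : ℕ) (hw : 1 ≤ w) (hs : IsSimpleGroup (Matrix.ProjectiveSpecialLinearGroup (Fin (2 ^ w)) F))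
    (H : Subgroup (Matrix.ProjectiveSpecialLinearGroup (Fin (2 ^ w)) F)) (hH : Odd H.index) : Cfsg.IsPronormal H := by
  classical
  have hidx : Odd (H.comap (QuotientGroup.mk'
      (Subgroup.center (Matrix.SpecialLinearGroup (Fin (2 ^ w)) F)))).index := by
    rwa [Subgroup.index_comap_of_surjective _ (QuotientGroup.mk'_surjective _)]
  rcases Nat.even_or_odd (Fintype.card F) with he | ho
  · have hchar : ringChar F = 2 :=
      FiniteField.even_card_iff_char_two.2 (Nat.even_iff.1 he)
    have : CharP F 2 := hchar ▸ ringChar.charP F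
    have : Fact (Nat.Prime 2) := ⟨Nat.prime_two⟩
    exact CfsgLib.InvChar.Pronormal.isPronormal_of_comap (QuotientGroup.mk' _)
      (QuotientGroup.mk'_surjective _) H
      (CfsgLib.InvChar.Pronormal.isPronormal_sl_of_index 2 _
        (fun h => by rw [Nat.odd_iff] at hidx; omega))
  · have ho' : Odd (Nat.card F) := by rwa [Nat.card_eq_fintype_card]
    rcases (by omega : w = 1 ∨ 2 ≤ w) with rfl | hw2
    · exact CfsgLib.InvChar.Pronormal.isPronormal_psl_two (Nat.odd_iff.1 ho') H hH
    · exact CfsgLib.InvChar.Pronormal.isPronormal_of_comap (QuotientGroup.mk' _)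
        (QuotientGroup.mk'_surjective _) H
        (CfsgLib.InvChar.Wreath.isPronormal_sl_two_pow ho' hw2 _ hidx)

end Cfsg.Agent.S2225
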