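import Cfsg.Statements.S2226
import Cfsg.Agent.Lib.InvChar.WreathTower
import Cfsg.Agent.Lib.InvChar.PronormalPolar

set_option autoImplicit false
open Cfsg

namespace Cfsg.Agent.S2226

/-- Let F be a finite field with q² elements and d = 2^w ≥ 4 a power of 2 such that the unitary group PSU_d(q) (realised over F) is simple. Then every subgroup H of PSU_d(q) of odd index is pronormal: for every g, H and gHg⁻¹ are conjugate by an element of the subgroup they generate. -/
theorem result {F : Type*} [Field F] [Fintype F] (q : ℕ)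
    (hF : Fintype.card F = q ^ 2) (w : ℕ) (hw : 2 ≤ w) (hs : IsSimpleGroup (Cfsg.PSU (2 ^ w) F q))
    (H : Subgroup (Cfsg.PSU (2 ^ w) F q)) (hH : Odd H.index) : Cfsg.IsPronormal H := by
  classical
  have hF' : Nat.card F = q ^ 2 := by rw [Nat.card_eq_fintype_card, hF]
  refine CfsgLib.InvChar.Pronormal.isPronormal_of_comap (QuotientGroup.mk' _)
    (QuotientGroup.mk'_surjective _) H ?_
  have hH' : Odd (H.comap (QuotientGroup.mk' (Subgroup.center (Cfsg.SU (2 ^ w) F q)))).index := by
    rwa [Subgroup.index_comap_of_surjective _ (QuotientGroup.mk'_surjective _)]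
  rcases Nat.even_or_odd q with he | ho
  · obtain ⟨c⟩ := CfsgLib.ClassicalForms.exists_conj hF'
    have hcard : Fintype.card F % 2 = 0 := by
      rw [hF]
      exact Nat.even_iff.1 (he.pow_of_ne_zero two_ne_zero)
    have hchar : ringChar F = 2 := FiniteField.even_card_iff_char_two.2 hcard
    have : CharP F 2 := hchar ▸ ringChar.charP F
    have : Fact (Nat.Prime 2) := ⟨Nat.prime_two⟩
    have hn : 2 ^ w % 2 = 0 := Nat.even_iff.1 ((Nat.even_pow' (by omega)).2 even_two)
    refine CfsgLib.InvChar.Pronormal.isPronormal_of_polar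
      (CfsgLib.Generators.Steinberg.hermAct (n := 2 ^ w) c) ?_ 2
      (CfsgLib.Generators.Steinberg.good_herm c 2) _
      (fun h => by rw [Nat.odd_iff] at hH'; omega)
    intro v hv
    funext j
    by_cases h1 : (j : ℕ) < 2 ^ w / 2
    · exact (CfsgLib.Generators.Steinberg.coord_zero c v ⟨j, h1⟩ (hv _)).1
    · have h2 : (j : ℕ) - 2 ^ w / 2 < 2 ^ w / 2 := by omega
      have := (CfsgLib.Generators.Steinberg.coord_zero c v ⟨(j : ℕ) - 2 ^ w / 2, h2⟩ (hv _)).2
      rwa [show CfsgLib.Generators.Steinberg.ib ⟨(j : ℕ) - 2 ^ w / 2, h2⟩ = j from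
        Fin.ext (by simp [CfsgLib.Generators.Steinberg.ib]; omega)] at this
  · exact CfsgLib.InvChar.Wreath.isPronormal_su_two_pow hF' ho hw _ hH'

end Cfsg.Agent.S2226
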