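import Cfsg.Statements.S2227
import Cfsg.Agent.Lib.TwistedE6Five.Main
import Mathlib.FieldTheory.Finite.Extension
-- import your own Cfsg.Agent.* helpers here

set_option autoImplicit false
open Cfsg

namespace Cfsg.Agent.S2227

/-- In the twisted group ²E₆(2) all elements of order 5 are conjugate, and the centralizer of an element of order 5 is isomorphic to the direct product of a cyclic group of order 5 with the alternating group of degree 8. -/
theorem result {K : Type*} [Field K] [Fintype K] (hK : Fintype.card K = 4) :
    (∀ x y : ↥(Cfsg.Lie.twistedE6 K 2), orderOf x = 5 → orderOf y = 5 → IsConj x y) ∧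
      ∀ x : ↥(Cfsg.Lie.twistedE6 K 2), orderOf x = 5 →
        Nonempty (↥(Subgroup.centralizer ({x} : Set ↥(Cfsg.Lie.twistedE6 K 2))) ≃* (Multiplicative (ZMod 5) × ↥(alternatingGroup (Fin 8)))) := by
  classical
  haveI : Fact (Nat.Prime 2) := ⟨Nat.prime_two⟩
  haveI : CharP K 2 :=
    charP_of_card_eq_prime_pow (f := 2) (by simpa using hK)
  let F := FiniteField.Extension K 2 2
  letI : Fintype F := Fintype.ofFinite F
  haveI : CharP F 2 := charP_of_injective_algebraMap (algebraMap K F).injective 2
  have hF : Fintype.card F = 16 := by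
    rw [← Nat.card_eq_fintype_card, Module.natCard_eq_pow_finrank (K := K), Nat.card_eq_fintype_card, hK,
      FiniteField.finrank_extension]
    norm_num
  refine CfsgLib.TwistedE6Five.main hK hF (algebraMap K F) fun y hy => ?_
  have h4 : Nat.card {x : F | x ^ 4 = x} = 4 :=
    CfsgLib.Twisted.card_pow_eq_self (n := 2) (by norm_num) (by rw [hF]; norm_num)
  have hsub : Set.range (algebraMap K F) ⊆ {x : F | x ^ 4 = x} := by
    rintro _ ⟨a, rfl⟩
    show algebraMap K F a ^ 4 = algebraMap K F a
    rw [← map_pow, show a ^ 4 = a by rw [← hK]; exact FiniteField.pow_card a]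
  have heq : Set.range (algebraMap K F) = {x : F | x ^ 4 = x} := by
    refine Set.eq_of_subset_of_ncard_le hsub ?_ (Set.toFinite _)
    rw [← Nat.card_coe_set_eq, ← Nat.card_coe_set_eq, h4,
      Nat.card_range_of_injective (algebraMap K F).injective, Nat.card_eq_fintype_card, hK]
  have hm : y ∈ Set.range (algebraMap K F) := by rw [heq]; exact hy
  exact hm

end Cfsg.Agent.S2227
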