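import Cfsg.Statements.S2231
import Cfsg.Agent.Lib.SL2.Card

set_option autoImplicit false
open Cfsg

namespace Cfsg.Agent.S2231

/-- The upper unitriangular subgroup of `SL₂`. -/
def upperHom (K : Type*) [Field K] : Multiplicative K →* Matrix.SpecialLinearGroup (Fin 2) K where
  toFun a := ⟨!![1, a.toAdd; 0, 1], by simp [Matrix.det_fin_two_of]⟩
  map_one' := by ext i j; fin_cases i <;> fin_cases j <;> simp
  map_mul' a b := by
    apply Subtype.ext
    show !![1, (a * b).toAdd; 0, 1] = !![1, a.toAdd; 0, 1] * !![1, b.toAdd; 0, 1]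
    simp [add_comm]

theorem commute_of_pGroup {p : ℕ} [Fact p.Prime] {K : Type*} [Field K] [Fintype K] [CharP K p]
    (X : Subgroup (Matrix.ProjectiveSpecialLinearGroup (Fin 2) K)) (hX : IsPGroup p X)
    {x y : Matrix.ProjectiveSpecialLinearGroup (Fin 2) K} (hx : x ∈ X) (hy : y ∈ X) :
    Commute x y := by
  classical
  have hinj : Function.Injective (upperHom K) := fun a b h => by
    have := congrArg (fun g : Matrix.SpecialLinearGroup (Fin 2) K =>
      (g : Matrix (Fin 2) (Fin 2) K) 0 1) h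
    exact Multiplicative.toAdd.injective this
  have hU : IsPGroup p (upperHom K).range := by
    rw [MonoidHom.range_eq_map]
    refine IsPGroup.map (fun g => ?_) _
    refine ⟨1, ?_⟩
    apply Subtype.ext
    apply Multiplicative.toAdd.injective
    simp [CharP.cast_eq_zero]
  have hcard : Nat.card (upperHom K).range = Nat.card K := by
    rw [← Nat.card_congr (MonoidHom.ofInjective hinj).toEquiv]
    rfl
  have hidx : ¬ p ∣ (upperHom K).range.index := by
    intro h
    have h1 := (upperHom K).range.card_mul_index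
    rw [hcard, CfsgLib.SL2.card_SL] at h1
    have h2 := Nat.eq_of_mul_eq_mul_left Nat.card_pos h1
    rw [h2] at h
    have hpK : p ∣ Nat.card K ^ 2 := by
      obtain ⟨n, hp, hn⟩ := FiniteField.card K p
      exact dvd_pow (by rw [Nat.card_eq_fintype_card, hn]; exact dvd_pow_self _ n.ne_zero) two_ne_zero
    have h3 : 1 ≤ Nat.card K ^ 2 := Nat.one_le_pow _ _ Nat.card_pos
    have := Nat.dvd_sub hpK h
    rw [show Nat.card K ^ 2 - (Nat.card K ^ 2 - 1) = 1 by omega] at this
    exact (Fact.out : p.Prime).not_dvd_one this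
  let T : Sylow p (Matrix.ProjectiveSpecialLinearGroup (Fin 2) K) :=
    (hU.toSylow hidx).mapSurjective (QuotientGroup.mk'_surjective _)
  obtain ⟨S, hS⟩ := hX.exists_le_sylow
  obtain ⟨c, rfl⟩ := MulAction.exists_smul_eq (Matrix.ProjectiveSpecialLinearGroup (Fin 2) K) T S
  have hmem : ∀ z ∈ ((c • T : Sylow p _) : Subgroup _), ∃ a : Multiplicative K,
      z = c * QuotientGroup.mk' _ (upperHom K a) * c⁻¹ := by
    intro z hz
    obtain ⟨w, hw, rfl⟩ := hz
    obtain ⟨_, ⟨a, rfl⟩, rfl⟩ := hw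
    exact ⟨a, rfl⟩
  obtain ⟨a, ha⟩ := hmem x (hS hx)
  obtain ⟨b, hb⟩ := hmem y (hS hy)
  rw [ha, hb, Commute, SemiconjBy]
  have hab : QuotientGroup.mk' (Subgroup.center (Matrix.SpecialLinearGroup (Fin 2) K)) (upperHom K a) *
      QuotientGroup.mk' _ (upperHom K b) = QuotientGroup.mk' _ (upperHom K b) *
      QuotientGroup.mk' _ (upperHom K a) := by
    rw [← map_mul, ← map_mul, ← map_mul, ← map_mul, mul_comm a b]
  calc _ = c * (QuotientGroup.mk' _ (upperHom K a) * QuotientGroup.mk' _ (upperHom K b)) * c⁻¹ := by group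
    _ = c * (QuotientGroup.mk' _ (upperHom K b) * QuotientGroup.mk' _ (upperHom K a)) * c⁻¹ := by rw [hab]
    _ = _ := by group

/-- The upper unitriangular subgroup of `Qd(p)`. -/
def uniTri (p : ℕ) [Fact p.Prime] : Submonoid (Matrix.SpecialLinearGroup (Fin 3) (ZMod p)) where
  carrier := {M | M.1 1 0 = 0 ∧ M.1 2 0 = 0 ∧ M.1 2 1 = 0 ∧ M.1 0 0 = 1 ∧ M.1 1 1 = 1 ∧ M.1 2 2 = 1}
  one_mem' := by simp
  mul_mem' := by
    intro M N hM hN
    obtain ⟨a, b, c, d, e, f⟩ := hM
    obtain ⟨a', b', c', d', e', f'⟩ := hN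
    simp [Matrix.mul_apply, Fin.sum_univ_three, a, b, c, d, e, f, a', b', c', d', e', f']

theorem uniTri_pow {p : ℕ} [Fact p.Prime] (hp : p ≠ 2)
    {M : Matrix.SpecialLinearGroup (Fin 3) (ZMod p)} (hM : M ∈ uniTri p) : M ^ p = 1 := by
  obtain ⟨a, b, c, d, e, f⟩ := hM
  have h3 : (M.1 - 1) ^ 3 = 0 := by
    ext i j
    fin_cases i <;> fin_cases j <;>
      simp [pow_succ, Matrix.mul_apply, Fin.sum_univ_three, a, b, c, d, e, f]
  have hp3 : 3 ≤ p := by have := (Fact.out : p.Prime).two_le; omega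
  apply Subtype.ext
  show ((M ^ p : Matrix.SpecialLinearGroup (Fin 3) (ZMod p)) : Matrix (Fin 3) (Fin 3) (ZMod p)) = 1
  rw [Matrix.SpecialLinearGroup.coe_pow,
    show (M : Matrix (Fin 3) (Fin 3) (ZMod p)) = 1 + (M.1 - 1) by rw [add_sub_cancel],
    add_pow_char_of_commute p (Commute.one_left _), one_pow,
    pow_eq_zero_of_le hp3 h3, add_zero]

/-- Let p be an odd prime and K a finite field of characteristic p. Then Qd(p) (the natural semidirect product of an elementary abelian group of order p² by SL₂(p)) is not involved in the projective special linear group PSL₂(K). -/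
theorem result {p : ℕ} [Fact p.Prime] (hp : p ≠ 2) {K : Type*} [Field K] [Fintype K] [CharP K p] : ¬ Cfsg.Involves ↥(Cfsg.qd p) (Matrix.ProjectiveSpecialLinearGroup (Fin 2) K) := by
  intro h
  obtain ⟨H, R, hR, ⟨e⟩⟩ := h
  classical
  have hp' : p.Prime := Fact.out
  let U : Subgroup (Matrix.SpecialLinearGroup (Fin 3) (ZMod p)) :=
    { uniTri p with
      inv_mem' := fun {M} hM => by
        have h1 : M⁻¹ = M ^ (p - 1) := by
          apply inv_eq_of_mul_eq_one_right
          rw [← pow_succ', Nat.sub_add_cancel hp'.one_le, uniTri_pow hp hM]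
        show M⁻¹ ∈ uniTri p
        rw [h1]; exact pow_mem hM _ }
  have hUq : U ≤ Cfsg.qd p := fun M hM => Subgroup.subset_closure ⟨hM.2.1, hM.2.2.1, hM.2.2.2.2.2⟩
  have hUp : IsPGroup p (U.subgroupOf (Cfsg.qd p)) := fun g =>
    ⟨1, Subtype.ext (Subtype.ext (by rw [pow_one]; exact uniTri_pow hp g.2))⟩
  let φ : H →* Cfsg.qd p := e.toMonoidHom.comp (QuotientGroup.mk' (R.subgroupOf H))
  have hφ : Function.Surjective φ := e.surjective.comp (QuotientGroup.mk'_surjective _)
  obtain ⟨Q0⟩ := (Sylow.nonempty : Nonempty (Sylow p H))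
  obtain ⟨S, hS⟩ := hUp.exists_le_sylow
  obtain ⟨c, hc⟩ := MulAction.exists_smul_eq (Cfsg.qd p) (Q0.mapSurjective hφ) S
  obtain ⟨k, rfl⟩ := hφ c
  have hcomm : ∀ x ∈ U.subgroupOf (Cfsg.qd p), ∀ y ∈ U.subgroupOf (Cfsg.qd p), x * y = y * x := by
    intro x hx y hy
    have hmem : ∀ z ∈ S, ∃ z0 ∈ Q0, z = φ (k * z0 * k⁻¹) := by
      intro z hz
      rw [← hc] at hz
      obtain ⟨w, ⟨z0, hz0, rfl⟩, rfl⟩ := hz
      exact ⟨z0, hz0, by simp⟩
    obtain ⟨a, ha, rfl⟩ := hmem x (hS hx)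
    obtain ⟨b, hb, rfl⟩ := hmem y (hS hy)
    have h1 : Commute (a : Matrix.ProjectiveSpecialLinearGroup (Fin 2) K) (b : _) :=
      commute_of_pGroup _ (Q0.isPGroup'.map H.subtype) ⟨a, ha, rfl⟩ ⟨b, hb, rfl⟩
    have h2 : a * b = b * a := Subtype.ext h1.eq
    rw [← map_mul, ← map_mul]
    congr 1
    calc _ = k * (a * b) * k⁻¹ := by group
      _ = k * (b * a) * k⁻¹ := by rw [h2]
      _ = _ := by group
  let A : Matrix.SpecialLinearGroup (Fin 3) (ZMod p) :=
    ⟨!![1, 1, 0; 0, 1, 0; 0, 0, 1], by simp [Matrix.det_fin_three]⟩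
  let B : Matrix.SpecialLinearGroup (Fin 3) (ZMod p) :=
    ⟨!![1, 0, 0; 0, 1, 1; 0, 0, 1], by simp [Matrix.det_fin_three]⟩
  have hA : A ∈ U := ⟨by simp [A], by simp [A], by simp [A], by simp [A], by simp [A], by simp [A]⟩
  have hB : B ∈ U := ⟨by simp [B], by simp [B], by simp [B], by simp [B], by simp [B], by simp [B]⟩
  have := hcomm ⟨A, hUq hA⟩ hA ⟨B, hUq hB⟩ hB
  have h02 := congrArg (fun g : Cfsg.qd p => g.1.1 0 2) this
  simp only [Subgroup.coe_mul, Matrix.SpecialLinearGroup.coe_mul] at h02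
  simp [A, B, Matrix.mul_apply, Fin.sum_univ_three] at h02

end Cfsg.Agent.S2231
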