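import Cfsg.Statements.S2232
-- import your own Cfsg.Agent.* helpers here

set_option autoImplicit false
open Cfsg

namespace Cfsg.Agent.S2232

open Matrix

section Unitary

variable {p : ℕ} [Fact p.Prime] {K : Type*} [Field K] [Fintype K] [CharP K p] {n : ℕ}

/-- The matrix of an element of `SU₃`. -/
def mat (g : Cfsg.SU 3 K (p ^ n)) : Matrix (Fin 3) (Fin 3) K :=
  ((g : Matrix.SpecialLinearGroup (Fin 3) K) : Matrix (Fin 3) (Fin 3) K)

omit [Fact p.Prime] [Fintype K] [CharP K p] in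
theorem mat_mul (g g' : Cfsg.SU 3 K (p ^ n)) : mat (g * g') = mat g * mat g' := rfl

omit [Fact p.Prime] [Fintype K] [CharP K p] in
theorem mat_one : mat (1 : Cfsg.SU 3 K (p ^ n)) = 1 := rfl

omit [Fact p.Prime] [Fintype K] [CharP K p] in
theorem herm_mat (g : Cfsg.SU 3 K (p ^ n)) (u v : Fin 3 → K) :
    Cfsg.hermForm 3 K (p ^ n) (mat g *ᵥ u) (mat g *ᵥ v) = Cfsg.hermForm 3 K (p ^ n) u v :=
  g.2 u v

theorem herm_symm (hK : Fintype.card K = (p ^ n) ^ 2) {u v : Fin 3 → K}
    (h : Cfsg.hermForm 3 K (p ^ n) u v = 0) : Cfsg.hermForm 3 K (p ^ n) v u = 0 := by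
  have h2 : Cfsg.hermForm 3 K (p ^ n) u v ^ p ^ n = Cfsg.hermForm 3 K (p ^ n) v u := by
    rw [Cfsg.hermForm, sum_pow_char_pow]
    refine Finset.sum_congr rfl fun i _ => ?_
    rw [mul_pow, ← pow_mul, ← pow_two, ← hK, FiniteField.pow_card, mul_comm]
  rw [← h2, h, zero_pow (pow_ne_zero _ (Fact.out : p.Prime).ne_zero)]

/-- The orthogonal complement. -/
def perp (W : Submodule K (Fin 3 → K)) : Submodule K (Fin 3 → K) where
  carrier := {v | ∀ w ∈ W, Cfsg.hermForm 3 K (p ^ n) v w = 0}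
  zero_mem' := fun w _ => by simp [Cfsg.hermForm]
  add_mem' := fun {a b} ha hb w hw => by
    have : Cfsg.hermForm 3 K (p ^ n) (a + b) w =
        Cfsg.hermForm 3 K (p ^ n) a w + Cfsg.hermForm 3 K (p ^ n) b w := by
      simp [Cfsg.hermForm, add_mul, Finset.sum_add_distrib]
    rw [this, ha w hw, hb w hw, add_zero]
  smul_mem' := fun c a ha w hw => by
    have : Cfsg.hermForm 3 K (p ^ n) (c • a) w = c * Cfsg.hermForm 3 K (p ^ n) a w := by
      simp [Cfsg.hermForm, Finset.mul_sum, mul_assoc]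
    rw [this, ha w hw, mul_zero]

theorem finrank_perp (hK : Fintype.card K = (p ^ n) ^ 2) (W : Submodule K (Fin 3 → K)) :
    Module.finrank K (perp (p := p) (n := n) W) + Module.finrank K W = 3 := by
  classical
  let b := Module.finBasis K W
  let Ψ : (Fin 3 → K) →ₗ[K] (Fin (Module.finrank K W) → K) :=
    { toFun := fun v i => Cfsg.hermForm 3 K (p ^ n) v (b i : Fin 3 → K)
      map_add' := fun u v => by
        funext i; simp [Cfsg.hermForm, add_mul, Finset.sum_add_distrib]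
      map_smul' := fun c u => by
        funext i; simp [Cfsg.hermForm, Finset.mul_sum, mul_assoc] }
  have hsum : ∀ (c : Fin (Module.finrank K W) → K) (v : Fin 3 → K),
      Cfsg.hermForm 3 K (p ^ n) v (∑ i, c i • (b i : Fin 3 → K)) =
        ∑ i, c i ^ p ^ n * Cfsg.hermForm 3 K (p ^ n) v (b i) := by
    intro c v
    simp only [Cfsg.hermForm, Finset.sum_apply, Pi.smul_apply, smul_eq_mul, sum_pow_char_pow,
      Finset.mul_sum, mul_pow]
    rw [Finset.sum_comm]
    exact Finset.sum_congr rfl fun i _ => Finset.sum_congr rfl fun j _ => by ring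
  have hker : LinearMap.ker Ψ = perp (p := p) (n := n) W := by
    ext v
    constructor
    · intro h w hw
      have h0 : ∀ i, Cfsg.hermForm 3 K (p ^ n) v (b i) = 0 := fun i =>
        congrFun (LinearMap.mem_ker.1 h) i
      have hw' := congrArg Subtype.val (b.sum_repr ⟨w, hw⟩)
      simp only [AddSubmonoidClass.coe_finsetSum, Submodule.coe_smul] at hw'
      rw [← hw', hsum]
      simp [h0]
    · intro h
      exact LinearMap.mem_ker.2 (funext fun i => h _ (b i).2)
  have hrange : LinearMap.range Ψ = ⊤ := by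
    by_contra hne
    obtain ⟨φ, hφ, hφΨ⟩ := Submodule.exists_dual_map_eq_bot_of_lt_top (lt_top_iff_ne_top.2 hne) inferInstance
    apply hφ
    have hφ' : ∀ v, φ (Ψ v) = 0 := fun v => by
      have : φ (Ψ v) ∈ (LinearMap.range Ψ).map φ := Submodule.mem_map_of_mem (LinearMap.mem_range_self Ψ v)
      rwa [hφΨ, Submodule.mem_bot] at this
    set c : Fin (Module.finrank K W) → K := fun i => φ (Pi.single i 1) with hc
    have hφc : ∀ x, φ x = ∑ i, x i * c i := by
      intro x
      conv_lhs => rw [pi_eq_sum_univ' x]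
      simp [map_sum, hc]
    have hzero : (∑ i, (c i ^ p ^ n) • (b i : Fin 3 → K)) = 0 := by
      funext j
      have h1 := hφ' (Pi.single j 1)
      rw [hφc] at h1
      have h2 : Cfsg.hermForm 3 K (p ^ n) (Pi.single j 1) (∑ i, (c i ^ p ^ n) • (b i : Fin 3 → K)) = 0 := by
        rw [hsum]
        rw [← h1]
        refine Finset.sum_congr rfl fun i _ => ?_
        rw [← pow_mul, ← pow_two, ← hK, FiniteField.pow_card, mul_comm]
        rfl
      simp only [Cfsg.hermForm] at h2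
      rw [Finset.sum_eq_single j (fun i _ hi => by simp [hi]) (by simp), Pi.single_eq_same,
        one_mul] at h2
      exact eq_zero_of_pow_eq_zero h2
    have hli := b.linearIndependent.map' W.subtype W.ker_subtype
    have hall := Fintype.linearIndependent_iff.1 hli _ hzero
    refine LinearMap.ext fun x => ?_
    rw [hφc]
    refine Finset.sum_eq_zero fun i _ => ?_
    rw [eq_zero_of_pow_eq_zero (hall i), mul_zero]
  have h := LinearMap.finrank_range_add_finrank_ker Ψ
  rw [hker, hrange, finrank_top, Module.finrank_fintype_fun_eq_card,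
    Module.finrank_fintype_fun_eq_card, Fintype.card_fin, Fintype.card_fin] at h
  omega

/-- A `p`-local subgroup of `SU₃` has `p`-groups as commutators. -/
theorem pow_commutator_eq_one (hp : p ≠ 2) (hK : Fintype.card K = (p ^ n) ^ 2)
    (R : Subgroup (Cfsg.SU 3 K (p ^ n))) (hR : IsPGroup p R) (hR1 : R ≠ ⊥)
    {x y : Cfsg.SU 3 K (p ^ n)} (hx : x ∈ Subgroup.normalizer (R : Set (Cfsg.SU 3 K (p ^ n))))
    (hy : y ∈ Subgroup.normalizer (R : Set (Cfsg.SU 3 K (p ^ n)))) :
    (x * y * x⁻¹ * y⁻¹) ^ p ^ 2 = 1 := by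
  classical
  set N := Subgroup.normalizer (R : Set (Cfsg.SU 3 K (p ^ n))) with hN
  let W : Submodule K (Fin 3 → K) :=
    { carrier := {v | ∀ r ∈ R, mat r *ᵥ v = v}
      zero_mem' := fun r _ => Matrix.mulVec_zero _
      add_mem' := fun {a b} ha hb r hr => by rw [Matrix.mulVec_add, ha r hr, hb r hr]
      smul_mem' := fun c a ha r hr => by rw [Matrix.mulVec_smul, ha r hr] }
  have hmm : ∀ (g g' : Cfsg.SU 3 K (p ^ n)) (v : Fin 3 → K),
      mat g *ᵥ (mat g' *ᵥ v) = mat (g * g') *ᵥ v := fun g g' v => by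
    rw [mat_mul, Matrix.mulVec_mulVec]
  have hWN : ∀ g ∈ N, ∀ v ∈ W, mat g *ᵥ v ∈ W := by
    intro g hg v hv r hr
    have h1 : g⁻¹ * r * g ∈ R := by
      have := (Subgroup.mem_normalizer_iff.1 (inv_mem hg) r).1 hr
      simpa using this
    rw [hmm, show r * g = g * (g⁻¹ * r * g) by group, ← hmm, hv _ h1]
  have hperpN : ∀ (g : Cfsg.SU 3 K (p ^ n)) (U : Submodule K (Fin 3 → K)),
      (∀ v ∈ U, mat g⁻¹ *ᵥ v ∈ U) → ∀ v ∈ perp (p := p) (n := n) U,
        mat g *ᵥ v ∈ perp (p := p) (n := n) U := by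
    intro g U hU v hv w hw
    rw [← herm_mat g⁻¹, hmm, inv_mul_cancel, mat_one, Matrix.one_mulVec]
    exact hv _ (hU w hw)
  have hWtop : W ≠ ⊤ := by
    intro htop
    apply hR1
    rw [Subgroup.eq_bot_iff_forall]
    intro r hr
    apply Subtype.ext
    apply Subtype.ext
    apply Matrix.toLin'.injective
    refine LinearMap.ext fun v => ?_
    have hv : v ∈ W := htop ▸ Submodule.mem_top
    show Matrix.toLin' (mat r) v = Matrix.toLin' (1 : Matrix (Fin 3) (Fin 3) K) v
    rw [Matrix.toLin'_apply, Matrix.toLin'_apply, hv r hr, Matrix.one_mulVec]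
  have hWrank : Module.finrank K W < 3 := by
    have := Submodule.finrank_lt hWtop
    simpa using this
  have hP := finrank_perp (n := n) hK W
  -- a non-zero fixed isotropic vector
  obtain ⟨e, heW, heP, he⟩ : ∃ e, e ∈ W ∧ e ∈ perp (p := p) (n := n) W ∧ e ≠ 0 := by
    letI : MulAction R (perp (p := p) (n := n) W) :=
      { smul := fun r v => ⟨mat (r : Cfsg.SU 3 K (p ^ n)) *ᵥ (v : Fin 3 → K),
          hperpN r W (fun w hw => hWN _ (inv_mem (Subgroup.le_normalizer r.2)) w hw) v v.2⟩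
        one_smul := fun v => Subtype.ext (by
          show mat (1 : Cfsg.SU 3 K (p ^ n)) *ᵥ (v : Fin 3 → K) = v
          rw [mat_one, Matrix.one_mulVec])
        mul_smul := fun r r' v => Subtype.ext (hmm _ _ _).symm }
    have hdvd : p ∣ Nat.card (perp (p := p) (n := n) W) := by
      rw [Module.natCard_eq_pow_finrank (K := K)]
      refine dvd_pow ?_ (by omega)
      obtain ⟨j, -, hj⟩ := FiniteField.card K p
      rw [Nat.card_eq_fintype_card, hj]
      exact dvd_pow_self _ j.ne_zero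
    obtain ⟨v, hv, hv0⟩ := hR.exists_fixed_point_of_prime_dvd_card_of_fixed_point _ hdvd
      (a := 0) (fun r => Subtype.ext (Matrix.mulVec_zero (mat (r : Cfsg.SU 3 K (p ^ n)))))
    exact ⟨v, fun r hr => congrArg Subtype.val (hv ⟨r, hr⟩), v.2,
      fun h => hv0 (Subtype.ext h.symm)⟩
  set I := W ⊓ perp (p := p) (n := n) W with hI
  have hIiso : I ≤ perp (p := p) (n := n) I := fun v hv w hw => hv.2 w hw.1
  have hI1 : Module.finrank K I = 1 := by
    have h1 := finrank_perp (n := n) hK I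
    have h2 := Submodule.finrank_mono hIiso
    have h3 : Module.finrank K I ≠ 0 := by
      rw [Ne, Submodule.finrank_eq_zero]
      intro h
      exact he ((Submodule.mem_bot K).1 (h ▸ ⟨heW, heP⟩))
    omega
  have hP2 : Module.finrank K (perp (p := p) (n := n) I) = 2 := by
    have := finrank_perp (n := n) hK I
    omega
  have hspan : ∀ v ∈ I, ∃ a : K, a • e = v := by
    intro v hv
    obtain ⟨a, ha⟩ := (finrank_eq_one_iff_of_nonzero' (⟨e, heW, heP⟩ : I)
      (fun h => he (congrArg Subtype.val h))).1 hI1 ⟨v, hv⟩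
    exact ⟨a, congrArg Subtype.val ha⟩
  obtain ⟨f, hf, hfI⟩ : ∃ f, f ∈ perp (p := p) (n := n) I ∧ f ∉ I := by
    refine SetLike.not_le_iff_exists.1 fun h => ?_
    have := Submodule.finrank_mono h
    omega
  have hspan2 : ∀ v ∈ perp (p := p) (n := n) I, ∃ b : K, v - b • f ∈ I := by
    have hsup : perp (p := p) (n := n) I ≤ I ⊔ Submodule.span K {f} := by
      have hle : I ⊔ Submodule.span K {f} ≤ perp (p := p) (n := n) I :=
        sup_le hIiso ((Submodule.span_singleton_le_iff_mem _ _).2 hf)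
      have hlt : I < I ⊔ Submodule.span K {f} := lt_of_le_of_ne le_sup_left fun h =>
        hfI (h ▸ Submodule.mem_sup_right (Submodule.mem_span_singleton_self f))
      have := Submodule.finrank_lt_finrank_of_lt hlt
      rw [Submodule.eq_of_le_of_finrank_le hle (by omega)]
    intro v hv
    obtain ⟨w, hw, z, hz, rfl⟩ := Submodule.mem_sup.1 (hsup hv)
    obtain ⟨b, rfl⟩ := Submodule.mem_span_singleton.1 hz
    exact ⟨b, by simpa using hw⟩
  have hIN : ∀ g ∈ N, ∀ v ∈ I, mat g *ᵥ v ∈ I := fun g hg v hv =>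
    ⟨hWN g hg v hv.1, hperpN g W (fun w hw => hWN _ (inv_mem hg) w hw) v hv.2⟩
  have hPN : ∀ g ∈ N, ∀ v ∈ perp (p := p) (n := n) I, mat g *ᵥ v ∈ perp (p := p) (n := n) I :=
    fun g hg v hv => hperpN g I (fun w hw => hIN _ (inv_mem hg) w hw) v hv
  set c := x * y * x⁻¹ * y⁻¹ with hc
  have hcN : c ∈ N := mul_mem (mul_mem (mul_mem hx hy) (inv_mem hx)) (inv_mem hy)
  -- commutators act trivially on the one-dimensional sections
  have hce : mat c *ᵥ e = e := by
    obtain ⟨a, ha⟩ := hspan _ (hIN x hx e ⟨heW, heP⟩)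
    obtain ⟨b, hb⟩ := hspan _ (hIN y hy e ⟨heW, heP⟩)
    have hxy : mat (x * y) *ᵥ e = mat (y * x) *ᵥ e := by
      rw [← hmm, ← hmm, ← hb, ← ha, Matrix.mulVec_smul, Matrix.mulVec_smul, ← ha, ← hb,
        smul_comm]
    have he' : e = mat (y * x) *ᵥ (mat (x⁻¹ * y⁻¹) *ᵥ e) := by
      rw [hmm, show y * x * (x⁻¹ * y⁻¹) = 1 by group, mat_one, Matrix.one_mulVec]
    have hback : ∀ z ∈ I, mat (x * y) *ᵥ z = mat (y * x) *ᵥ z := by
      intro z hz
      obtain ⟨t, rfl⟩ := hspan z hz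
      rw [Matrix.mulVec_smul, Matrix.mulVec_smul, hxy]
    calc mat c *ᵥ e = mat (x * y) *ᵥ (mat (x⁻¹ * y⁻¹) *ᵥ e) := by
          rw [hmm, hc]; congr 2; group
      _ = mat (y * x) *ᵥ (mat (x⁻¹ * y⁻¹) *ᵥ e) :=
          hback _ (hIN _ (mul_mem (inv_mem hx) (inv_mem hy)) e ⟨heW, heP⟩)
      _ = e := he'.symm
  have hcf : ∀ v ∈ perp (p := p) (n := n) I, mat c *ᵥ v - v ∈ I := by
    intro v hv
    obtain ⟨a, ha⟩ := hspan2 _ (hPN x hx f hf)
    obtain ⟨b, hb⟩ := hspan2 _ (hPN y hy f hf)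
    have hxy : ∀ w ∈ perp (p := p) (n := n) I, mat (x * y) *ᵥ w - mat (y * x) *ᵥ w ∈ I := by
      intro w hw
      obtain ⟨t, ht⟩ := hspan2 w hw
      have e1 : ∀ g, g ∈ N → mat g *ᵥ w - t • (mat g *ᵥ f) ∈ I := fun g hg => by
        rw [← Matrix.mulVec_smul, ← Matrix.mulVec_sub]; exact hIN g hg _ ht
      have e2 : mat (x * y) *ᵥ f - (b * a) • f ∈ I := by
        rw [← hmm, show mat x *ᵥ (mat y *ᵥ f) - (b * a) • f =
          mat x *ᵥ (mat y *ᵥ f - b • f) + b • (mat x *ᵥ f - a • f) by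
          rw [Matrix.mulVec_sub, Matrix.mulVec_smul, smul_sub, smul_smul]; abel]
        exact add_mem (hIN x hx _ hb) (I.smul_mem _ ha)
      have e3 : mat (y * x) *ᵥ f - (b * a) • f ∈ I := by
        rw [← hmm, show mat y *ᵥ (mat x *ᵥ f) - (b * a) • f =
          mat y *ᵥ (mat x *ᵥ f - a • f) + a • (mat y *ᵥ f - b • f) by
          rw [Matrix.mulVec_sub, Matrix.mulVec_smul, smul_sub, smul_smul, mul_comm b a]; abel]
        exact add_mem (hIN y hy _ ha) (I.smul_mem _ hb)
      have e4 := I.add_mem (I.sub_mem (e1 _ (mul_mem hx hy)) (e1 _ (mul_mem hy hx)))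
        (I.smul_mem t (I.sub_mem e2 e3))
      convert e4 using 1
      simp only [smul_sub]; abel
    have hw := hPN _ (mul_mem (inv_mem hx) (inv_mem hy)) v hv
    have := hxy _ hw
    rw [hmm, hmm, show x * y * (x⁻¹ * y⁻¹) = c by rw [hc]; group,
      show y * x * (x⁻¹ * y⁻¹) = 1 by group, mat_one, Matrix.one_mulVec] at this
    exact this
  have hcV : ∀ v, mat c *ᵥ v - v ∈ perp (p := p) (n := n) I := by
    intro v w hw
    obtain ⟨t, rfl⟩ := hspan w hw
    have hsub : Cfsg.hermForm 3 K (p ^ n) (mat c *ᵥ v - v) (t • e) =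
        Cfsg.hermForm 3 K (p ^ n) (mat c *ᵥ v) (t • e) - Cfsg.hermForm 3 K (p ^ n) v (t • e) := by
      simp [Cfsg.hermForm, sub_mul, Finset.sum_sub_distrib]
    have hce' : mat c *ᵥ (t • e) = t • e := by rw [Matrix.mulVec_smul, hce]
    rw [hsub]
    conv_lhs => arg 1; rw [← hce']
    rw [herm_mat, sub_self]
  have hnil : (mat c - 1) ^ 3 = 0 := by
    apply Matrix.toLin'.injective
    refine LinearMap.ext fun v => ?_
    have h1 := hcV v
    have h2 := hcf _ h1
    obtain ⟨t, ht⟩ := hspan _ h2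
    have h3 : mat c *ᵥ (t • e) - t • e = 0 := by rw [Matrix.mulVec_smul, hce, sub_self]
    rw [ht] at h3
    simp only [Matrix.toLin'_apply, map_zero, LinearMap.zero_apply, pow_succ, pow_zero, one_mul,
      ← Matrix.mulVec_mulVec, Matrix.sub_mulVec, Matrix.one_mulVec]
    exact h3
  have hp3 : 3 ≤ p ^ 2 := by
    have := (Fact.out : p.Prime).two_le
    nlinarith
  apply Subtype.ext
  apply Subtype.ext
  show ((((c ^ p ^ 2 : Cfsg.SU 3 K (p ^ n)) : Matrix.SpecialLinearGroup (Fin 3) K)) :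
    Matrix (Fin 3) (Fin 3) K) = 1
  rw [SubgroupClass.coe_pow, Matrix.SpecialLinearGroup.coe_pow]
  show mat c ^ p ^ 2 = 1
  rw [show mat c = 1 + (mat c - 1) by abel, add_pow_char_pow_of_commute p 2 (Commute.one_left _),
    one_pow, pow_eq_zero_of_le hp3 hnil, add_zero]

end Unitary

/-- The translation elements of `Qd(p)`. -/
def transl (p : ℕ) [Fact p.Prime] (a b : ZMod p) : Matrix.SpecialLinearGroup (Fin 3) (ZMod p) :=
  ⟨!![1, 0, a; 0, 1, b; 0, 0, 1], by simp [Matrix.det_fin_three]⟩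

theorem trace_comm_eq_four {R : Type*} [CommRing R] :
    ((!![1, 1, 0; 0, 1, 0; 0, 0, 1] : Matrix (Fin 3) (Fin 3) R) * !![1, 0, 0; 1, 1, 0; 0, 0, 1] *
      !![1, -1, 0; 0, 1, 0; 0, 0, 1] * !![1, 0, 0; -1, 1, 0; 0, 0, 1]).trace = 4 := by
  simp [Matrix.trace_fin_three, Matrix.cons_mul, Matrix.vecMul, dotProduct, Fin.sum_univ_three]
  ring

theorem qd_row {p : ℕ} [Fact p.Prime] {M : Matrix.SpecialLinearGroup (Fin 3) (ZMod p)}
    (hM : M ∈ Cfsg.qd p) : M.1 2 0 = 0 ∧ M.1 2 1 = 0 ∧ M.1 2 2 = 1 := by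
  induction hM using Subgroup.closure_induction with
  | mem x hx => exact hx
  | one => simp
  | mul x y _ _ hx hy =>
    obtain ⟨a, b, c⟩ := hx
    obtain ⟨a', b', c'⟩ := hy
    simp [Matrix.mul_apply, Fin.sum_univ_three, a, b, c, a', b', c']
  | inv x _ hx =>
    obtain ⟨a, b, c⟩ := hx
    have h : (x * x⁻¹ : Matrix.SpecialLinearGroup (Fin 3) (ZMod p)).1 = 1 := by
      rw [mul_inv_cancel]; rfl
    rw [Matrix.SpecialLinearGroup.coe_mul] at h
    refine ⟨?_, ?_, ?_⟩
    · simpa [Matrix.mul_apply, Fin.sum_univ_three, a, b, c] using congrFun (congrFun h 2) 0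
    · simpa [Matrix.mul_apply, Fin.sum_univ_three, a, b, c] using congrFun (congrFun h 2) 1
    · simpa [Matrix.mul_apply, Fin.sum_univ_three, a, b, c] using congrFun (congrFun h 2) 2

set_option maxHeartbeats 1000000 in
/-- Let p be an odd prime, q a power of p and K a finite field with q² elements. Then Qd(p) (the natural semidirect product of an elementary abelian group of order p² by SL₂(p)) is not involved in the projective special unitary group PSU₃(q) realised over K. -/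
theorem result {p : ℕ} [Fact p.Prime] (hp : p ≠ 2) {K : Type*} [Field K] [Fintype K] [CharP K p] (n : ℕ) (hn : 1 ≤ n) (hK : Fintype.card K = (p ^ n) ^ 2) : ¬ Cfsg.Involves ↥(Cfsg.qd p) (Cfsg.PSU 3 K (p ^ n)) := by
  classical
  rintro ⟨H, R, hR, ⟨iso⟩⟩
  have hp' : p.Prime := Fact.out
  let π := QuotientGroup.mk' (Subgroup.center (Cfsg.SU 3 K (p ^ n)))
  let φ : H.comap π →* Cfsg.qd p :=
    iso.toMonoidHom.comp ((QuotientGroup.mk' (R.subgroupOf H)).comp (π.subgroupComap H))
  have hφ : Function.Surjective φ :=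
    iso.surjective.comp ((QuotientGroup.mk'_surjective _).comp
      (fun ⟨x, hx⟩ => by
        obtain ⟨g, rfl⟩ := QuotientGroup.mk'_surjective (Subgroup.center (Cfsg.SU 3 K (p ^ n))) x
        exact ⟨⟨g, hx⟩, rfl⟩))
  -- the translations form a normal p-subgroup
  let T : Subgroup (Cfsg.qd p) :=
    { carrier := {M | ∃ a b, (M : Matrix.SpecialLinearGroup (Fin 3) (ZMod p)) = transl p a b}
      one_mem' := ⟨0, 0, by ext i j; fin_cases i <;> fin_cases j <;> simp [transl]⟩
      mul_mem' := by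
        rintro M N ⟨a, b, hM⟩ ⟨a', b', hN⟩
        refine ⟨a + a', b + b', ?_⟩
        rw [Subgroup.coe_mul, hM, hN]
        ext i j
        rw [Matrix.SpecialLinearGroup.coe_mul]
        fin_cases i <;> fin_cases j <;>
          simp [transl, Matrix.mul_apply, Fin.sum_univ_three, add_comm]
      inv_mem' := by
        rintro M ⟨a, b, hM⟩
        refine ⟨-a, -b, ?_⟩
        rw [Subgroup.coe_inv, hM]
        apply inv_eq_of_mul_eq_one_right
        ext i j
        rw [Matrix.SpecialLinearGroup.coe_mul]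
        fin_cases i <;> fin_cases j <;> simp [transl, Matrix.mul_apply, Fin.sum_univ_three] }
  have hTn : T.Normal := ⟨fun M hM g => by
    obtain ⟨a, b, hM⟩ := hM
    have hg := qd_row g.2
    refine ⟨(g : Matrix.SpecialLinearGroup (Fin 3) (ZMod p)).1 0 0 * a +
      (g : Matrix.SpecialLinearGroup (Fin 3) (ZMod p)).1 0 1 * b,
      (g : Matrix.SpecialLinearGroup (Fin 3) (ZMod p)).1 1 0 * a +
      (g : Matrix.SpecialLinearGroup (Fin 3) (ZMod p)).1 1 1 * b, ?_⟩
    rw [Subgroup.coe_mul, Subgroup.coe_mul, hM, Subgroup.coe_inv, mul_inv_eq_iff_eq_mul]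
    obtain ⟨g20, g21, g22⟩ := hg
    ext i j
    rw [Matrix.SpecialLinearGroup.coe_mul, Matrix.SpecialLinearGroup.coe_mul]
    fin_cases i <;> fin_cases j <;>
      simp [transl, Matrix.mul_apply, Fin.sum_univ_three, g20, g21, g22, mul_comm, add_comm,
        add_left_comm]⟩
  have hTp : IsPGroup p T := fun M => ⟨1, by
    obtain ⟨a, b, hM⟩ := M.2
    apply Subtype.ext
    apply Subtype.ext
    rw [pow_one, SubgroupClass.coe_pow, SubgroupClass.coe_pow, hM, Subgroup.coe_one, Subgroup.coe_one]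
    have hpow : ∀ k : ℕ, transl p a b ^ k = transl p (k * a) (k * b) := by
      intro k
      induction k with
      | zero => rw [pow_zero]; ext i j; fin_cases i <;> fin_cases j <;> simp [transl]
      | succ k ih =>
        rw [pow_succ, ih]
        ext i j
        rw [Matrix.SpecialLinearGroup.coe_mul]
        fin_cases i <;> fin_cases j <;>
          simp [transl, Matrix.mul_apply, Fin.sum_univ_three, add_mul, add_comm]
    rw [hpow]
    ext i j
    fin_cases i <;> fin_cases j <;> simp [transl]⟩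
  -- Frattini argument
  let M := T.comap φ
  have hMn : M.Normal := hTn.comap φ
  obtain ⟨Q⟩ := (Sylow.nonempty : Nonempty (Sylow p M))
  have hsup := Q.normalizer_sup_eq_top (N := M)
  set R₀ : Subgroup (H.comap π) := (Q : Subgroup M).map M.subtype with hR₀
  -- `φ (N(R₀))` is everything
  have hTimg : T ≤ R₀.map φ := by
    let ψ : M →* T := (φ.comp M.subtype).codRestrict T fun x => x.2
    have hψ : Function.Surjective ψ := by
      rintro ⟨t, ht⟩
      obtain ⟨x, rfl⟩ := hφ t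
      exact ⟨⟨x, ht⟩, Subtype.ext rfl⟩
    have htop : ((Q.mapSurjective hψ : Sylow p T) : Subgroup T) = ⊤ :=
      ((Q.mapSurjective hψ).is_maximal' (hTp.of_equiv Subgroup.topEquiv.symm) le_top).symm
    intro t ht
    have hmem : (⟨t, ht⟩ : T) ∈ (Q : Subgroup M).map ψ := by
      rw [← Sylow.coe_mapSurjective hψ, htop]; exact Subgroup.mem_top _
    obtain ⟨x, hx, hxt⟩ := hmem
    exact ⟨x, ⟨x, hx, rfl⟩, congrArg Subtype.val hxt⟩
  have hN : (Subgroup.normalizer (R₀ : Set (H.comap π))).map φ = ⊤ := by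
    rw [eq_top_iff]
    calc (⊤ : Subgroup (Cfsg.qd p)) = (⊤ : Subgroup (H.comap π)).map φ :=
          (Subgroup.map_top_of_surjective φ hφ).symm
      _ = (Subgroup.normalizer (R₀ : Set (H.comap π)) ⊔ M).map φ := by rw [← hsup]
      _ = (Subgroup.normalizer (R₀ : Set (H.comap π))).map φ ⊔ M.map φ := Subgroup.map_sup _ _ _
      _ ≤ _ := sup_le le_rfl ((Subgroup.map_comap_le φ T).trans
          (hTimg.trans (Subgroup.map_mono Subgroup.le_normalizer)))
  -- the commutator of two opposite transvections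
  let u : Matrix.SpecialLinearGroup (Fin 3) (ZMod p) :=
    ⟨!![1, 1, 0; 0, 1, 0; 0, 0, 1], by simp [Matrix.det_fin_three]⟩
  let l : Matrix.SpecialLinearGroup (Fin 3) (ZMod p) :=
    ⟨!![1, 0, 0; 1, 1, 0; 0, 0, 1], by simp [Matrix.det_fin_three]⟩
  have hu : u ∈ Cfsg.qd p := Subgroup.subset_closure ⟨by simp [u], by simp [u], by simp [u]⟩
  have hl : l ∈ Cfsg.qd p := Subgroup.subset_closure ⟨by simp [l], by simp [l], by simp [l]⟩
  obtain ⟨x, hxN, hxu⟩ := (hN ▸ Subgroup.mem_top _ :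
    (⟨u, hu⟩ : Cfsg.qd p) ∈ (Subgroup.normalizer (R₀ : Set (H.comap π))).map φ)
  obtain ⟨y, hyN, hyl⟩ := (hN ▸ Subgroup.mem_top _ :
    (⟨l, hl⟩ : Cfsg.qd p) ∈ (Subgroup.normalizer (R₀ : Set (H.comap π))).map φ)
  set R₁ : Subgroup (Cfsg.SU 3 K (p ^ n)) := R₀.map (H.comap π).subtype with hR₁
  have hnorm : ∀ z ∈ Subgroup.normalizer (R₀ : Set (H.comap π)),
      (z : Cfsg.SU 3 K (p ^ n)) ∈ Subgroup.normalizer (R₁ : Set (Cfsg.SU 3 K (p ^ n))) := by
    intro z hz
    exact Subgroup.le_normalizer_map (H.comap π).subtype ⟨z, hz, rfl⟩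
  have hR₁p : IsPGroup p R₁ := (Q.isPGroup'.map _).map _
  have hR₁1 : R₁ ≠ ⊥ := by
    intro h
    rw [hR₁, Subgroup.map_eq_bot_iff_of_injective _ (Subgroup.subtype_injective _)] at h
    have ht : (⟨transl p 1 0, Subgroup.subset_closure ⟨by simp [transl], by simp [transl],
        by simp [transl]⟩⟩ : Cfsg.qd p) ∈ T := ⟨1, 0, rfl⟩
    have h1 := hTimg ht
    rw [h, Subgroup.map_bot, Subgroup.mem_bot] at h1
    have h2 := congrArg (fun g : Cfsg.qd p => g.1.1 0 2) h1
    simp [transl] at h2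
  have hpow := pow_commutator_eq_one hp hK R₁ hR₁p hR₁1 (hnorm x hxN) (hnorm y hyN)
  have hpow' : (x * y * x⁻¹ * y⁻¹) ^ p ^ 2 = 1 := by
    apply (Subgroup.subtype_injective (H.comap π))
    rw [map_pow, map_mul, map_mul, map_mul, map_inv, map_inv, map_one, Subgroup.subtype_apply,
      Subgroup.subtype_apply]
    exact hpow
  have h3 := congrArg φ hpow'
  rw [map_one, map_pow, map_mul, map_mul, map_mul, map_inv, map_inv, hxu, hyl] at h3
  have h4 := congrArg (fun g : Cfsg.qd p => g.1.1) h3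
  simp only [SubgroupClass.coe_pow, Matrix.SpecialLinearGroup.coe_pow, Subgroup.coe_one,
    Matrix.SpecialLinearGroup.coe_one] at h4
  set c : Matrix (Fin 3) (Fin 3) (ZMod p) :=
    ((((⟨u, hu⟩ : Cfsg.qd p) * ⟨l, hl⟩ * ⟨u, hu⟩⁻¹ * ⟨l, hl⟩⁻¹ : Cfsg.qd p) :
      Matrix.SpecialLinearGroup (Fin 3) (ZMod p)) : Matrix (Fin 3) (Fin 3) (ZMod p)) with hc
  have hnil : IsNilpotent (c - 1) := ⟨p ^ 2, by
    rw [sub_pow_char_pow_of_commute p 2 (Commute.one_right c), one_pow]
    rw [h4, sub_self]⟩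
  have htr := (Matrix.isNilpotent_trace_of_isNilpotent hnil).eq_zero
  let u' : Matrix.SpecialLinearGroup (Fin 3) (ZMod p) :=
    ⟨!![1, -1, 0; 0, 1, 0; 0, 0, 1], by simp [Matrix.det_fin_three]⟩
  let l' : Matrix.SpecialLinearGroup (Fin 3) (ZMod p) :=
    ⟨!![1, 0, 0; -1, 1, 0; 0, 0, 1], by simp [Matrix.det_fin_three]⟩
  have hu' : u⁻¹ = u' := by
    apply inv_eq_of_mul_eq_one_right
    ext i j
    rw [Matrix.SpecialLinearGroup.coe_mul]
    fin_cases i <;> fin_cases j <;> simp [u, u', Matrix.mul_apply, Fin.sum_univ_three]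
  have hl' : l⁻¹ = l' := by
    apply inv_eq_of_mul_eq_one_right
    ext i j
    rw [Matrix.SpecialLinearGroup.coe_mul]
    fin_cases i <;> fin_cases j <;> simp [l, l', Matrix.mul_apply, Fin.sum_univ_three]
  rw [hc] at htr
  simp only [Subgroup.coe_mul, Subgroup.coe_inv, hu', hl', Matrix.SpecialLinearGroup.coe_mul] at htr
  rw [Matrix.trace_sub, Matrix.trace_one, Fintype.card_fin, sub_eq_zero] at htr
  have h43 : (4 : ZMod p) = ((3 : ℕ) : ZMod p) := trace_comm_eq_four.symm.trans htr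
  exact one_ne_zero (α := ZMod p) (by linear_combination h43)

end Cfsg.Agent.S2232
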