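import Cfsg.Statements.S2240
import Cfsg.Agent.Lib.OutAut.SuzukiExtra
-- import your own Cfsg.Agent.* helpers here

set_option autoImplicit false
open Cfsg

namespace Cfsg.Agent.S2240

open scoped Pointwise

/-- Elementary abelian TI-subgroups of the Suzuki group: let q = 2^(2m+1) with m ≥ 1, the group realised as the stabiliser in SL₄ of the Suzuki–Tits ovoid, and n ≥ 2. There is an elementary abelian 2-subgroup E of order 2^n that is a TI-subgroup (every conjugate of E meeting E nontrivially is E itself) if and only if n divides 2m + 1. -/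
theorem result {F : Type*} [Field F] [Fintype F] {m : ℕ} (hm : 1 ≤ m) (hF : Fintype.card F = 2 ^ (2 * m + 1)) (n : ℕ) (hn : 2 ≤ n) :
    (∃ E : Subgroup ↥(Cfsg.Sz F m), Cfsg.IsElementaryAbelian 2 E ∧ Nat.card ↥E = 2 ^ n ∧
      ∀ x : ↥(Cfsg.Sz F m), E ⊓ E.map (MulAut.conj x).toMonoidHom ≠ ⊥ → x ∈ Subgroup.normalizer (E : Set ↥(Cfsg.Sz F m))) ↔ n ∣ 2 * m + 1 := by
  classical
  have h := CfsgLib.Suzuki.Hyp.of_fintype hm hF
  have hmul : ∀ lam : F, lam ≠ 0 → ∃ t : Fˣ,
      CfsgLib.Suzuki.th m (CfsgLib.Suzuki.kap m t) * CfsgLib.Suzuki.kap m t = lam := by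
    intro lam hlam
    obtain ⟨x, hx⟩ := h.th_mul_self_bijective.2 lam
    have hx0 : x ≠ 0 := fun h0 => hlam (by rw [← hx, h0]; simp)
    obtain ⟨t, ht⟩ := h.exists_kap hx0
    exact ⟨t, by rw [ht]; exact hx⟩
  have hconj : ∀ (c e : F) (t : Fˣ) (b : F),
      (h.u c e * h.d t) * h.u 0 b * (h.u c e * h.d t)⁻¹ =
        h.u 0 (CfsgLib.Suzuki.th m (CfsgLib.Suzuki.kap m t) * CfsgLib.Suzuki.kap m t * b) := by
    intro c e t b
    have hd := h.d_u t 0 b
    rw [mul_zero] at hd
    calc (h.u c e * h.d t) * h.u 0 b * (h.u c e * h.d t)⁻¹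
        = h.u c e * (h.d t * h.u 0 b * (h.d t)⁻¹) * (h.u c e)⁻¹ := by group
      _ = _ := by
        rw [hd, mul_inv_eq_iff_eq_mul]
        exact (h.u_comm_iff _ _ _ _).2 (by simp)
  constructor
  · rintro ⟨E, ⟨hEc, hE2⟩, hEcard, hTI⟩
    have hEp : IsPGroup 2 E := IsPGroup.of_card hEcard
    obtain ⟨P, hP⟩ := hEp.exists_le_sylow
    obtain ⟨k, hk⟩ := h.exists_sylow_eq P
    have hEU : ∀ v ∈ E, ∃ b, k⁻¹ * v * k = h.u 0 b := by
      intro v hv
      have hv' : v ∈ MulAut.conj k • h.U := hk ▸ hP hv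
      obtain ⟨a, b, hab⟩ := (CfsgLib.OutAut.mem_conjU_iff h).1 hv'
      refine ⟨b, ?_⟩
      have hsq : h.u a b * h.u a b = 1 := by
        rw [← hab]
        calc k⁻¹ * v * k * (k⁻¹ * v * k) = k⁻¹ * (v ^ 2) * k := by rw [pow_two]; group
          _ = 1 := by rw [hE2 v hv]; group
      rw [h.u_sq, ← h.u_zero] at hsq
      have h0 := (h.u_injective hsq).2
      have ha : a = 0 := by
        rcases mul_eq_zero.1 h0 with h0 | h0
        · exact CfsgLib.Suzuki.th_eq_zero_iff.1 h0
        · exact h0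
      rw [hab, ha]
    let A : AddSubgroup F :=
      { carrier := {b | k * h.u 0 b * k⁻¹ ∈ E}
        zero_mem' := by
          show k * h.u 0 0 * k⁻¹ ∈ E
          rw [h.u_zero, mul_one, mul_inv_cancel]; exact one_mem E
        add_mem' := fun {x y} hx hy => by
          show k * h.u 0 (x + y) * k⁻¹ ∈ E
          have := mul_mem (show k * h.u 0 x * k⁻¹ ∈ E from hx) (show k * h.u 0 y * k⁻¹ ∈ E from hy)
          rw [show k * h.u 0 x * k⁻¹ * (k * h.u 0 y * k⁻¹) = k * (h.u 0 x * h.u 0 y) * k⁻¹ by group,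
            h.u_mul] at this
          simpa using this
        neg_mem' := fun {x} hx => by rwa [h.neg_eq] }
    have hcardA : Nat.card A = 2 ^ n := by
      rw [← hEcard]
      refine Nat.card_congr (Equiv.ofBijective (fun b => (⟨_, b.2⟩ : E)) ⟨?_, ?_⟩)
      · intro x y hxy
        have := congrArg Subtype.val hxy
        exact Subtype.ext (h.u_injective (mul_left_cancel (mul_right_cancel this))).2
      · rintro ⟨v, hv⟩
        obtain ⟨b, hb⟩ := hEU v hv
        exact ⟨⟨b, by show k * h.u 0 b * k⁻¹ ∈ E; rw [← hb]; simpa [mul_assoc] using hv⟩,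
          Subtype.ext (by show k * h.u 0 b * k⁻¹ = v; rw [← hb]; group)⟩
    have hscale : ∀ lam b : F, b ∈ A → b ≠ 0 → lam * b ∈ A → lam ≠ 0 → ∀ c ∈ A, lam * c ∈ A := by
      intro lam b hb hb0 hlb hlam c hc
      obtain ⟨t, ht⟩ := hmul lam hlam
      have hd : ∀ b, h.d t * h.u 0 b * (h.d t)⁻¹ = h.u 0 (lam * b) := by
        intro b
        rw [h.d_u, mul_zero, ht]
      have hx : ∀ b, (k * h.d t * k⁻¹) * (k * h.u 0 b * k⁻¹) * (k * h.d t * k⁻¹)⁻¹ =
          k * h.u 0 (lam * b) * k⁻¹ := by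
        intro b
        rw [← hd]; group
      have hn := hTI (k * h.d t * k⁻¹) (fun hbot => by
        have hmem : k * h.u 0 (lam * b) * k⁻¹ ∈
            E ⊓ E.map (MulAut.conj (k * h.d t * k⁻¹)).toMonoidHom :=
          ⟨hlb, ⟨_, hb, hx b⟩⟩
        rw [hbot, Subgroup.mem_bot, mul_inv_eq_one, mul_eq_left, ← h.u_zero] at hmem
        exact mul_ne_zero hlam hb0 (h.u_injective hmem).2)
      show k * h.u 0 (lam * c) * k⁻¹ ∈ E
      rw [← hx c]
      exact (Subgroup.mem_normalizer_iff.1 hn _).1 hc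
    obtain ⟨b₀, hb₀, hb₀0⟩ : ∃ b ∈ A, b ≠ 0 := by
      by_contra hcon
      push Not at hcon
      haveI : Subsingleton A := ⟨fun x y => Subtype.ext ((hcon x x.2).trans (hcon y y.2).symm)⟩
      have : Nat.card A = 1 := Nat.card_unique
      rw [hcardA] at this
      exact absurd this (Nat.one_lt_two_pow (by omega)).ne'
    let K : Subring F :=
      { carrier := {lam | ∀ c ∈ A, lam * c ∈ A}
        one_mem' := fun c hc => by rwa [one_mul]
        zero_mem' := fun c _ => by rw [zero_mul]; exact zero_mem A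
        mul_mem' := fun {x y} hx hy c hc => by rw [mul_assoc]; exact hx _ (hy c hc)
        add_mem' := fun {x y} hx hy c hc => by rw [add_mul]; exact add_mem (hx c hc) (hy c hc)
        neg_mem' := fun {x} hx c hc => by rw [neg_mul]; exact neg_mem (hx c hc) }
    have hcardK : Nat.card K = 2 ^ n := by
      rw [← hcardA]
      refine Nat.card_congr (Equiv.ofBijective (fun l => (⟨_, l.2 b₀ hb₀⟩ : A)) ⟨?_, ?_⟩)
      · intro x y hxy
        exact Subtype.ext (mul_right_cancel₀ hb₀0 (congrArg Subtype.val hxy))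
      · rintro ⟨b, hb⟩
        refine ⟨⟨b / b₀, fun c hc => ?_⟩, Subtype.ext (div_mul_cancel₀ b hb₀0)⟩
        rcases eq_or_ne b 0 with rfl | hb0
        · rw [zero_div, zero_mul]; exact zero_mem A
        · exact hscale (b / b₀) b₀ hb₀ hb₀0 (by rwa [div_mul_cancel₀ b hb₀0])
            (div_ne_zero hb0 hb₀0) c hc
    letI : Field K := Fintype.fieldOfDomain K
    have hcard := Module.natCard_eq_pow_finrank (K := K) (V := F)
    rw [hcardK, Nat.card_eq_fintype_card, hF, ← pow_mul] at hcard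
    exact ⟨_, Nat.pow_right_injective (le_refl 2) hcard⟩
  · intro hdvd
    haveI := h.charP
    haveI : Fact (Nat.Prime 2) := ⟨Nat.prime_two⟩
    let A : Subfield F :=
      { carrier := {b | b ^ 2 ^ n = b}
        one_mem' := one_pow _
        zero_mem' := zero_pow (by positivity)
        mul_mem' := fun {x y} hx hy => by simp only [Set.mem_setOf_eq, mul_pow] at *; rw [hx, hy]
        add_mem' := fun {x y} hx hy => by
          simp only [Set.mem_setOf_eq, add_pow_char_pow] at *; rw [hx, hy]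
        neg_mem' := fun {x} hx => by rwa [h.neg_eq]
        inv_mem' := fun x hx => by simp only [Set.mem_setOf_eq, inv_pow] at *; rw [hx] }
    have hcardA : Nat.card A = 2 ^ n := by
      have h1 : 1 ≤ 2 ^ n := Nat.one_le_two_pow
      have hker : Nat.card {x : Fˣ // x ^ (2 ^ n - 1) = 1} = 2 ^ n - 1 := by
        have hd : 2 ^ n - 1 ∣ Nat.card Fˣ := by
          rw [h.card_units]; exact Nat.pow_sub_one_dvd_pow_sub_one 2 hdvd
        have := IsCyclic.card_powMonoidHom_ker (G := Fˣ) (2 ^ n - 1)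
        rw [Nat.gcd_eq_right hd] at this
        exact this
      have e : Option {x : Fˣ // x ^ (2 ^ n - 1) = 1} ≃ A :=
        Equiv.ofBijective
          (fun o => o.elim (0 : A) fun x => ⟨(x.1 : F), by
            show (x.1 : F) ^ 2 ^ n = x.1
            have key : ∀ (N : ℕ), 1 ≤ N → ∀ z : F, z ^ (N - 1) = 1 → z ^ N = z := fun N hN z hz => by
              obtain ⟨k, rfl⟩ : ∃ k, N = k + 1 := ⟨N - 1, by omega⟩
              rw [pow_succ, show z ^ k = 1 from hz, one_mul]
            exact key _ h1 _ (by rw [← Units.val_pow_eq_pow_val, x.2, Units.val_one])⟩)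
          ⟨by
            rintro (_ | x) (_ | y) hxy
            · rfl
            · exact absurd (congrArg Subtype.val hxy).symm y.1.ne_zero
            · exact absurd (congrArg Subtype.val hxy) x.1.ne_zero
            · exact congrArg some (Subtype.ext (Units.ext (congrArg Subtype.val hxy))),
          by
            rintro ⟨b, hb⟩
            rcases eq_or_ne b 0 with rfl | hb0
            · exact ⟨none, rfl⟩
            · refine ⟨some ⟨Units.mk0 b hb0, Units.ext ?_⟩, rfl⟩
              rw [Units.val_pow_eq_pow_val, Units.val_mk0, Units.val_one]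
              have hb' : b ^ 2 ^ n = b := hb
              rw [← Nat.sub_add_cancel h1, pow_succ] at hb'
              exact mul_right_cancel₀ hb0 (hb'.trans (one_mul b).symm)⟩
      rw [← Nat.card_congr e, Finite.card_option, hker, Nat.sub_add_cancel h1]
    let E : Subgroup ↥(Cfsg.Sz F m) :=
      { carrier := {v | ∃ b ∈ A, v = h.u 0 b}
        one_mem' := ⟨0, zero_mem A, h.u_zero.symm⟩
        mul_mem' := by
          rintro _ _ ⟨x, hx, rfl⟩ ⟨y, hy, rfl⟩
          exact ⟨x + y, add_mem hx hy, by rw [h.u_mul]; simp⟩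
        inv_mem' := by
          rintro _ ⟨x, hx, rfl⟩
          exact ⟨x, hx, by rw [h.u_inv]; simp⟩ }
    refine ⟨E, ⟨⟨⟨?_⟩⟩, ?_⟩, ?_, ?_⟩
    · rintro ⟨_, x, hx, rfl⟩ ⟨_, y, hy, rfl⟩
      exact Subtype.ext ((h.u_comm_iff _ _ _ _).2 (by simp))
    · rintro _ ⟨x, hx, rfl⟩
      rw [pow_two, h.u_sq]; simp [h.u_zero]
    · rw [← hcardA]
      refine (Nat.card_congr (Equiv.ofBijective (fun b : A => (⟨h.u 0 b, b, b.2, rfl⟩ : E)) ⟨?_, ?_⟩)).symm
      · intro x y hxy
        exact Subtype.ext (h.u_injective (congrArg Subtype.val hxy)).2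
      · rintro ⟨_, b, hb, rfl⟩
        exact ⟨⟨b, hb⟩, rfl⟩
    · intro x hx
      obtain ⟨v, hv, hv1⟩ := (Subgroup.ne_bot_iff_exists_ne_one.1 hx) |> fun ⟨v, hv⟩ =>
        (⟨v.1, v.2, fun e => hv (Subtype.ext e)⟩ : ∃ v, v ∈ E ⊓ E.map (MulAut.conj x).toMonoidHom ∧ v ≠ 1)
      obtain ⟨⟨b, hb, hvb⟩, w, ⟨b', hb', hw⟩, hwv⟩ := hv
      subst hvb hw
      have hxw : x * h.u 0 b' * x⁻¹ = h.u 0 b := hwv
      have hfix : x • CfsgLib.Suzuki.oInf F m = CfsgLib.Suzuki.oInf F m := h.u_fix hv1 (by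
        rw [← hxw, mul_smul, mul_smul, inv_smul_smul, h.u_smul_inf])
      obtain ⟨c, e, t, rfl⟩ := h.eq_u_mul_d hfix
      rw [hconj] at hxw
      set lam := CfsgLib.Suzuki.th m (CfsgLib.Suzuki.kap m t) * CfsgLib.Suzuki.kap m t with hlam
      have hlb := (h.u_injective hxw).2
      have hb'0 : b' ≠ 0 := fun h0 => hv1 (by rw [← hlb, h0, mul_zero, h.u_zero])
      have hlamA : lam ∈ A := by
        rw [show lam = b / b' by rw [← hlb, mul_div_assoc, div_self hb'0, mul_one]]
        exact div_mem hb hb'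
      rw [Subgroup.mem_normalizer_iff]
      intro v
      constructor
      · rintro ⟨y, hy, rfl⟩
        exact ⟨lam * y, mul_mem hlamA hy, hconj c e t y⟩
      · rintro ⟨y, hy, hv⟩
        have hlam0 : lam ≠ 0 := mul_ne_zero
          (CfsgLib.Suzuki.th_ne_zero (CfsgLib.Suzuki.kap_ne_zero m t)) (CfsgLib.Suzuki.kap_ne_zero m t)
        refine ⟨y / lam, div_mem hy hlamA, ?_⟩
        have := hconj c e t (y / lam)
        rw [← hlam, mul_div_cancel₀ _ hlam0, ← hv] at this
        exact (mul_left_cancel (mul_right_cancel this)).symm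

end Cfsg.Agent.S2240
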