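import Cfsg.Statements.S2244
import Cfsg.Agent.Lib.InvCentralizers.WeakClosure.Main
import Cfsg.Agent.Lib.Chevalley.ExtraData
-- import your own Cfsg.Agent.* helpers here

set_option autoImplicit false
open Cfsg

namespace Cfsg.Agent.S2244

/-- Weakly closed unipotent subgroups of Chevalley groups: let G be the Chevalley group of type G₂, B₂, D₄, F₄, E₆, E₇ or E₈ over a finite field F (the matrix group generated by the root elements), with |F| ≠ 2, and |F| ≠ 3 as well for the types G₂, B₂, D₄, F₄. Let U be the subgroup generated by the positive root subgroups. If X ≤ U is weakly closed in U with respect to G (every G-conjugate of X lying in U equals X), then X is the unipotent radical U_J of a standard parabolic subgroup for some set J of fundamental roots. -/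
theorem result {F : Type*} [Field F] [Fintype F] (D : Cfsg.Lie.ChevalleyDatum) (hD : D ∈ [Cfsg.Lie.chevG2, Cfsg.Lie.chevB2, Cfsg.Lie.chevD4, Cfsg.Lie.chevF4, Cfsg.Lie.chevE6, Cfsg.Lie.chevE7, Cfsg.Lie.chevE8])
    (h2 : Fintype.card F ≠ 2) (h3 : D ∈ [Cfsg.Lie.chevG2, Cfsg.Lie.chevB2, Cfsg.Lie.chevD4, Cfsg.Lie.chevF4] → Fintype.card F ≠ 3)
    (X : Subgroup (GL D.Idx F)) (hXU : X ≤ D.posUnipotent F)
    (hwc : ∀ g ∈ D.group F, X.map (MulAut.conj g).toMonoidHom ≤ D.posUnipotent F → X.map (MulAut.conj g).toMonoidHom = X) :
    ∃ J : Set ℕ, (∀ j ∈ J, j < D.rank) ∧ X = D.unipotentRadical F J := by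
  classical
  obtain ⟨A, h⟩ := CfsgLib.Chevalley.exists_full hD
  obtain ⟨big, steps, hsteps, hsep, hbig⟩ := CfsgLib.InvCentralizers.WeakClosure.exists_cert hD
  have hlam : Nonempty (CfsgLib.InvCentralizers.WeakClosure.Lam F big) := by
    have h1 : 1 < Fintype.card Fˣ := by
      rw [Fintype.card_units]
      have := Fintype.one_lt_card (α := F)
      omega
    cases big
    · obtain ⟨c, hc⟩ := Fintype.exists_ne_of_one_lt_card h1 1
      exact ⟨⟨c, hc, fun e => absurd e Bool.false_ne_true⟩⟩
    · have h3' := h3 (hbig rfl)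
      have hex : ∃ c : F, c ≠ 0 ∧ c ≠ 1 ∧ c ≠ -1 := by
        by_contra hcon
        simp only [not_exists, not_and, not_not] at hcon
        have hle : (Finset.univ : Finset F).card ≤ ({0, 1, -1} : Finset F).card :=
          Finset.card_le_card fun c _ => by
            simp only [Finset.mem_insert, Finset.mem_singleton]
            by_cases e0 : c = 0
            · exact Or.inl e0
            · by_cases e1 : c = 1
              · exact Or.inr (Or.inl e1)
              · exact Or.inr (Or.inr (hcon c e0 e1))
        have : ({0, 1, -1} : Finset F).card ≤ 3 := Finset.card_le_three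
        rw [Finset.card_univ] at hle
        have := Fintype.one_lt_card (α := F)
        omega
      obtain ⟨c, hc0, hc1, hc2⟩ := hex
      refine ⟨⟨Units.mk0 c hc0, fun e => hc1 (congrArg Units.val e), fun _ e => ?_⟩⟩
      have e' : c * c = 1 := by simpa [pow_two] using congrArg Units.val e
      exact (mul_self_eq_one_iff.1 e').elim hc1 hc2
  obtain ⟨lam⟩ := hlam
  exact CfsgLib.InvCentralizers.WeakClosure.weakly_closed h lam hsteps hsep X hXU hwc

end Cfsg.Agent.S2244
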