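import Cfsg.Statements.S2245
import Cfsg.Agent.Lib.OutAut.SymSylowStructure

set_option autoImplicit false
open Cfsg

namespace Cfsg.Agent.S2245

open Equiv CfsgLib.OutAut
open scoped Pointwise

variable {α : Type*} [Fintype α] [DecidableEq α]

theorem mem_alt_swap_mul_swap {a b c d : α} (h1 : a ≠ b) (h2 : c ≠ d) :
    Equiv.swap a b * Equiv.swap c d ∈ alternatingGroup α := by
  rw [Perm.mem_alternatingGroup, map_mul, Perm.sign_swap h1, Perm.sign_swap h2]; simp

theorem exists_avoid (s : Finset α) (h : s.card < Fintype.card α) : ∃ x, x ∉ s := by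
  obtain ⟨x, _, hx⟩ := Finset.exists_mem_notMem_of_card_lt_card
    (t := (Finset.univ : Finset α)) (s := s) (by rwa [Finset.card_univ])
  exact ⟨x, hx⟩

/-- Two overgroups that together generate the alternating group. -/
def HasTwo (T : Subgroup (Perm α)) : Prop :=
  ∃ X Y : Subgroup (Perm α), T ≤ X ∧ T ≤ Y ∧ ¬ alternatingGroup α ≤ X ∧ ¬ alternatingGroup α ≤ Y ∧
    ∀ Z : Subgroup (Perm α), X ⊓ alternatingGroup α ≤ Z → Y ⊓ alternatingGroup α ≤ Z →
      alternatingGroup α ≤ Z

theorem le_of_stabilizer_le {O : Set α} (hO : O.Nonempty) (hO' : Oᶜ.Nonempty)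
    (hc : Nat.card α ≠ 2 * O.ncard) {Z : Subgroup (Perm α)}
    (h : MulAction.stabilizer (Perm α) O ⊓ alternatingGroup α ≤ Z)
    (hg : ∃ g ∈ Z ⊓ alternatingGroup α, ∃ x ∈ O, g x ∉ O) : alternatingGroup α ≤ Z := by
  have hco := alternatingGroup.isCoatom_stabilizer hO hO' hc
  have hle : MulAction.stabilizer (alternatingGroup α) O ≤ Z.subgroupOf (alternatingGroup α) :=
    fun g hg' => h ⟨hg', g.2⟩
  intro x hx
  by_contra hxZ
  rcases lt_or_eq_of_le hle with hlt | heq
  · have := hco.2 _ hlt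
    exact hxZ (Subgroup.mem_subgroupOf.1 (this ▸ Subgroup.mem_top (⟨x, hx⟩ : alternatingGroup α)))
  · obtain ⟨g, hg, y, hy, hgy⟩ := hg
    have hmem : (⟨g, hg.2⟩ : alternatingGroup α) ∈ MulAction.stabilizer (alternatingGroup α) O :=
      heq.symm ▸ hg.1
    exact hgy (((MulAction.mem_stabilizer_set.1 hmem) y).2 hy)

theorem not_le_stabilizer {O : Set α} (hO : O.Nonempty) (hO' : Oᶜ.Nonempty)
    (hc : Nat.card α ≠ 2 * O.ncard) :
    ¬ alternatingGroup α ≤ MulAction.stabilizer (Perm α) O := fun h =>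
  (alternatingGroup.isCoatom_stabilizer hO hO' hc).1 (by
    ext g; simp only [Subgroup.mem_top, iff_true]; exact h g.2)

theorem exists_comm_even (hn : 5 ≤ Fintype.card α) (z : Perm α) (hz : ∀ x, z (z x) = x)
    (hfree : ∀ x, z x ≠ x) (x y : α) :
    ∃ g : Perm α, g ∈ Subgroup.centralizer ({z} : Set (Perm α)) ⊓ alternatingGroup α ∧ g x = y := by
  rcases eq_or_ne x y with rfl | hxy
  · exact ⟨1, one_mem _, rfl⟩
  have hz' : z.symm = z := by
    ext a; rw [Equiv.symm_apply_eq, hz]
  have key : ∀ a b, z * Equiv.swap a b = Equiv.swap (z a) (z b) * z := fun a b => by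
    rw [Equiv.mul_swap_eq_swap_mul]
  by_cases hy : y = z x
  · obtain ⟨w, hw⟩ := exists_avoid ({x, y} : Finset α) (lt_of_le_of_lt Finset.card_le_two (by omega))
    simp only [Finset.mem_insert, Finset.mem_singleton, not_or] at hw
    refine ⟨Equiv.swap x y * Equiv.swap w (z w), ⟨Subgroup.mem_centralizer_singleton_iff.2 ?_,
      mem_alt_swap_mul_swap hxy (hfree w).symm⟩, ?_⟩
    · rw [← mul_assoc, key, mul_assoc, mul_assoc, key, hy, hz, hz, Equiv.swap_comm (z x) x,
        Equiv.swap_comm (z w) w]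
    · rw [Perm.mul_apply, Equiv.swap_apply_of_ne_of_ne (Ne.symm hw.1), Equiv.swap_apply_left]
      intro h; apply hw.2; rw [hy, h, hz]
  · refine ⟨Equiv.swap x y * Equiv.swap (z x) (z y), ⟨Subgroup.mem_centralizer_singleton_iff.2 ?_,
      mem_alt_swap_mul_swap hxy (fun h => hxy (z.injective h))⟩, ?_⟩
    · rw [← mul_assoc, key, mul_assoc, mul_assoc, key, hz, hz]
      have hcomm : Equiv.swap x y * Equiv.swap (z x) (z y) = Equiv.swap (z x) (z y) * Equiv.swap x y := by
        apply (Perm.disjoint_iff_disjoint_support.2 ?_).commute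
        rw [Perm.support_swap hxy, Perm.support_swap (fun h => hxy (z.injective h))]
        simp only [Finset.disjoint_insert_left, Finset.disjoint_singleton_left, Finset.mem_insert,
          Finset.mem_singleton, not_or]
        refine ⟨⟨(hfree x).symm, fun h => hy (by rw [h, hz])⟩, ⟨hy, (hfree y).symm⟩⟩
      rw [← mul_assoc (Equiv.swap x y), hcomm, mul_assoc]
    · rw [Perm.mul_apply, Equiv.swap_apply_of_ne_of_ne (hfree x).symm, Equiv.swap_apply_left]
      intro h; exact hy (by rw [h, hz])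

theorem not_le_centralizer (hn : 5 ≤ Fintype.card α) (z : Perm α) (hz : ∀ x, z (z x) = x)
    (hfree : ∀ x, z x ≠ x) :
    ¬ alternatingGroup α ≤ Subgroup.centralizer ({z} : Set (Perm α)) := by
  intro h
  obtain ⟨a⟩ : Nonempty α := Fintype.card_pos_iff.1 (by omega)
  obtain ⟨b, hb⟩ := exists_avoid ({a, z a} : Finset α) (lt_of_le_of_lt Finset.card_le_two (by omega))
  obtain ⟨c, hc⟩ := exists_avoid ({a, z a, b} : Finset α)
    (lt_of_le_of_lt Finset.card_le_three (by omega))
  simp only [Finset.mem_insert, Finset.mem_singleton, not_or] at hb hc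
  have h1 := Subgroup.mem_centralizer_singleton_iff.1
    (h (mem_alt_swap_mul_swap (Ne.symm hc.1) (Ne.symm hb.1) :
      Equiv.swap a c * Equiv.swap a b ∈ alternatingGroup α))
  have h2 := Equiv.ext_iff.1 h1 a
  simp only [Perm.mul_apply] at h2
  rw [Equiv.swap_apply_of_ne_of_ne (hfree a) (Ne.symm hb.2),
    Equiv.swap_apply_of_ne_of_ne (hfree a) (Ne.symm hc.2.1), Equiv.swap_apply_left,
    Equiv.swap_apply_of_ne_of_ne hb.1 (Ne.symm hc.2.2)] at h2
  exact hb.1 (z.injective h2).symm

theorem hasTwo_orbit (hn : 5 ≤ Fintype.card α) (T : Sylow 2 (Perm α))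
    (hne : ∀ k : ℕ, Fintype.card α ≠ 2 ^ k) (hne1 : ∀ k : ℕ, Fintype.card α ≠ 2 ^ k + 1) :
    HasTwo (T : Subgroup (Perm α)) := by
  haveI : Fact (Nat.Prime 2) := ⟨Nat.prime_two⟩
  obtain ⟨z, hz, hzT, hsw, hfix⟩ := hasFlip_sylow T
  have horb : ∀ x : α, ∃ O : Set α, x ∈ O ∧ (∀ t ∈ T, ∀ y, t y ∈ O ↔ y ∈ O) ∧
      (∃ k, O.ncard = 2 ^ k) ∧ (∀ y ∈ O, ∃ t ∈ T, t x = y) := by
    intro x
    refine ⟨MulAction.orbit T x, MulAction.mem_orbit_self x, fun t ht y => ?_, ?_, ?_⟩
    · show (⟨t, ht⟩ : T) • y ∈ MulAction.orbit T x ↔ _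
      rw [← MulAction.orbit_eq_iff, ← MulAction.orbit_eq_iff, MulAction.orbit_smul]
    · rw [← Nat.card_coe_set_eq]; exact T.isPGroup'.card_orbit x
    · rintro y ⟨t, rfl⟩; exact ⟨t, t.2, rfl⟩
  have hTX : ∀ O : Set α, (∀ t ∈ T, ∀ y, t y ∈ O ↔ y ∈ O) →
      (T : Subgroup (Perm α)) ≤ MulAction.stabilizer (Perm α) O :=
    fun O h t ht => MulAction.mem_stabilizer_set.2 (h t ht)
  have hTC : (T : Subgroup (Perm α)) ≤ Subgroup.centralizer ({z} : Set (Perm α)) := fun t ht =>
    Subgroup.mem_centralizer_singleton_iff.2 (Equiv.ext fun x => hzT t ht x)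
  rcases hfix with hfree | ⟨p, hp, hpT⟩
  · obtain ⟨x⟩ : Nonempty α := Fintype.card_pos_iff.1 (by omega)
    obtain ⟨O, hxO, hinv, ⟨j, hj⟩, -⟩ := horb x
    have hO' : Oᶜ.Nonempty := by
      rw [Set.nonempty_compl]
      intro h
      rw [h, Set.ncard_univ, Nat.card_eq_fintype_card] at hj
      exact hne j hj
    have hc : Nat.card α ≠ 2 * O.ncard := by
      rw [Nat.card_eq_fintype_card, hj, ← pow_succ']; exact hne _
    refine ⟨_, _, hTX O hinv, hTC, not_le_stabilizer ⟨x, hxO⟩ hO' hc,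
      not_le_centralizer hn z hz hfree, fun Z h1 h2 => le_of_stabilizer_le ⟨x, hxO⟩ hO' hc h1 ?_⟩
    obtain ⟨y, hy⟩ := hO'
    obtain ⟨g, hg, hgxy⟩ := exists_comm_even hn z hz hfree x y
    exact ⟨g, ⟨h2 hg, hg.2⟩, x, hxO, by rw [hgxy]; exact hy⟩
  · obtain ⟨x, hx⟩ := exists_avoid ({p} : Finset α) (by rw [Finset.card_singleton]; omega)
    rw [Finset.mem_singleton] at hx
    obtain ⟨O, hxO, hinv, ⟨j, hj⟩, htr⟩ := horb x
    have hpO : p ∉ O := fun h => by
      obtain ⟨t, ht, htx⟩ := htr p h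
      exact hx (t.injective (htx.trans (hpT t ht).symm))
    have hodd : Odd (Nat.card α) := by
      have hzinv : Function.Involutive z := hz
      have h2 : z ^ 2 = 1 := by ext a; simp [pow_two, hz]
      have hs : 2 ∣ z.support.card := by
        apply Equiv.Perm.two_dvd_card_support h2
      have hsupp : z.support = Finset.univ.erase p := by
        ext a; simp [Equiv.Perm.mem_support, hp a]
      rw [hsupp, Finset.card_erase_of_mem (Finset.mem_univ p), Finset.card_univ] at hs
      rw [Nat.card_eq_fintype_card, Nat.odd_iff]; omega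
    have hc : ∀ S : Set α, Nat.card α ≠ 2 * S.ncard := fun S h => by
      rw [h] at hodd; exact (Nat.not_odd_iff_even.2 ⟨_, two_mul _⟩) hodd
    have hpTinv : ∀ t ∈ T, ∀ y, t y ∈ ({p} : Set α) ↔ y ∈ ({p} : Set α) := fun t ht y => by
      simp only [Set.mem_singleton_iff]
      exact ⟨fun h => t.injective (h.trans (hpT t ht).symm), fun h => h ▸ hpT t ht⟩
    have hp1 : ({p} : Set α)ᶜ.Nonempty := ⟨x, by simpa using hx⟩
    refine ⟨_, _, hTX O hinv, hTX {p} hpTinv, not_le_stabilizer ⟨x, hxO⟩ ⟨p, hpO⟩ (hc O),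
      not_le_stabilizer ⟨p, rfl⟩ hp1 (hc _),
      fun Z h1 h2 => le_of_stabilizer_le ⟨x, hxO⟩ ⟨p, hpO⟩ (hc O) h1 ?_⟩
    obtain ⟨y, hy⟩ : ∃ y, y ∉ insert p O := by
      by_contra hcon
      push Not at hcon
      have : (insert p O).ncard = Nat.card α := by
        rw [Set.eq_univ_iff_forall.2 hcon, Set.ncard_univ]
      rw [Set.ncard_insert_of_notMem hpO, hj, Nat.card_eq_fintype_card] at this
      exact hne1 j this.symm
    rw [Set.mem_insert_iff, not_or] at hy
    have hzx : z x ∈ O := by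
      have := (hinv _ (hsw x) x).2 hxO
      rwa [Equiv.swap_apply_left] at this
    have hzxx : z x ≠ x := fun h => hx ((hp x).1 h)
    have hxy : x ≠ y := fun h => hy.2 (h ▸ hxO)
    have hzy : z x ≠ y := fun h => hy.2 (h ▸ hzx)
    refine ⟨Equiv.swap x y * Equiv.swap x (z x), ?_, z x, hzx, ?_⟩
    · have hA := mem_alt_swap_mul_swap hxy hzxx.symm
      refine ⟨h2 ⟨MulAction.mem_stabilizer_set.2 fun b => ?_, hA⟩, hA⟩
      simp only [Set.mem_singleton_iff, Perm.smul_def]
      have hfix : (Equiv.swap x y * Equiv.swap x (z x)) p = p := by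
        rw [Perm.mul_apply, Equiv.swap_apply_of_ne_of_ne (Ne.symm hx)
          (fun h => hpO (h ▸ hzx)), Equiv.swap_apply_of_ne_of_ne (Ne.symm hx) (Ne.symm hy.1)]
      exact ⟨fun h => (Equiv.swap x y * Equiv.swap x (z x)).injective (h.trans hfix.symm),
        fun h => h ▸ hfix⟩
    · rw [Perm.mul_apply, Equiv.swap_apply_right, Equiv.swap_apply_left]; exact hy.2

/-- The stabiliser of the partition `B`, `Bᶜ`. -/
def halvesStab (B : Set α) : Subgroup (Perm α) where
  carrier := {g | (∀ x, g x ∈ B ↔ x ∈ B) ∨ (∀ x, g x ∈ B ↔ x ∉ B)}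
  one_mem' := Or.inl fun _ => Iff.rfl
  mul_mem' := by
    intro g h hg hh
    rcases hg with hg | hg <;> rcases hh with hh | hh
    · exact Or.inl fun x => by rw [Perm.mul_apply, hg, hh]
    · exact Or.inr fun x => by rw [Perm.mul_apply, hg, hh]
    · exact Or.inr fun x => by rw [Perm.mul_apply, hg, hh]
    · exact Or.inl fun x => by rw [Perm.mul_apply, hg, hh, not_not]
  inv_mem' := by
    intro g hg
    rcases hg with hg | hg
    · refine Or.inl fun x => ?_
      have := hg (g⁻¹ x); rw [← Perm.mul_apply, mul_inv_cancel, Perm.one_apply] at this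
      exact this.symm
    · refine Or.inr fun x => ?_
      have := hg (g⁻¹ x); rw [← Perm.mul_apply, mul_inv_cancel, Perm.one_apply] at this
      tauto

theorem three_cycle_mem_halves {B : Set α} {a b c : α} (h : a ∈ B ↔ b ∈ B) (h' : a ∈ B ↔ c ∈ B) :
    Equiv.swap a c * Equiv.swap a b ∈ halvesStab B := by
  refine Or.inl fun x => ?_
  rw [Perm.mul_apply, Equiv.swap_apply_def, Equiv.swap_apply_def]
  split_ifs <;> simp_all

theorem hasTwo_pow {k : ℕ} (hk : 3 ≤ k) (hn : Fintype.card α = 2 ^ k) (T : Sylow 2 (Perm α)) :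
    HasTwo (T : Subgroup (Perm α)) := by
  have h8 : 8 ≤ Fintype.card α := hn ▸ le_trans (by norm_num) (Nat.pow_le_pow_right (by norm_num) hk)
  obtain ⟨z, hz, hzT, hsw, hfix⟩ := hasFlip_sylow T
  obtain ⟨htr, hB⟩ := hasHalves_sylow hn T
  obtain ⟨B, hBc, hBT⟩ := hB (by rw [Nat.card_eq_fintype_card]; omega)
  rw [Nat.card_eq_fintype_card] at hBc
  have hfree : ∀ x, z x ≠ x := by
    rcases hfix with h | ⟨p, hp, hpT⟩
    · exact h
    · intro x hx
      obtain ⟨y, hy⟩ := exists_avoid ({p} : Finset α) (by rw [Finset.card_singleton]; omega)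
      obtain ⟨t, ht, htp⟩ := htr p y
      exact absurd (htp.symm.trans (hpT t ht)) (by simpa using hy)
  have hTC : (T : Subgroup (Perm α)) ≤ Subgroup.centralizer ({z} : Set (Perm α)) := fun t ht =>
    Subgroup.mem_centralizer_singleton_iff.2 (Equiv.ext fun x => hzT t ht x)
  have hcomp := Set.ncard_add_ncard_compl B
  rw [Nat.card_eq_fintype_card] at hcomp
  have avoid : ∀ (S : Set α) (s : Finset α), 4 ≤ S.ncard → s.card < 4 → ∃ x ∈ S, x ∉ s := by
    intro S s h1 h2
    obtain ⟨x, hx, hx'⟩ := Set.exists_mem_notMem_of_ncard_lt_ncard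
      (s := (s : Set α)) (t := S) (by rw [Set.ncard_coe_finset]; omega)
    exact ⟨x, hx, hx'⟩
  refine ⟨halvesStab B, _, hBT, hTC, ?_, not_le_centralizer (by omega) z hz hfree, ?_⟩
  · intro h
    obtain ⟨a, ha, -⟩ := avoid B ∅ (by omega) (by simp)
    obtain ⟨b, hb, hba⟩ := avoid B {a} (by omega) (by simp)
    obtain ⟨c, hc, -⟩ := avoid Bᶜ ∅ (by omega) (by simp)
    rw [Finset.mem_singleton] at hba
    have hca : c ≠ a := fun e => hc (e ▸ ha)
    have hcb : c ≠ b := fun e => hc (e ▸ hb)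
    have hg := h (mem_alt_swap_mul_swap (Ne.symm hca) (Ne.symm hba) :
      Equiv.swap a c * Equiv.swap a b ∈ alternatingGroup α)
    rcases hg with hg | hg
    · have := (hg b).2 hb
      rw [Perm.mul_apply, Equiv.swap_apply_right, Equiv.swap_apply_left] at this
      exact hc this
    · have := (hg a).1
      rw [Perm.mul_apply, Equiv.swap_apply_left, Equiv.swap_apply_of_ne_of_ne hba hcb.symm] at this
      exact this hb ha
  · intro Z h1 h2
    obtain ⟨a, ha, -⟩ := avoid B ∅ (by omega) (by simp)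
    have hC : ∀ x y, ∃ g ∈ Z, g x = y := fun x y => by
      obtain ⟨g, hg, hgxy⟩ := exists_comm_even (by omega) z hz hfree x y
      exact ⟨g, h2 hg, hgxy⟩
    -- the stabiliser of `a` moves any point to any other
    have hin : ∀ b c : α, b ≠ a → c ≠ a → (b ∈ B ↔ c ∈ B) → ∃ g ∈ Z, g a = a ∧ g b = c := by
      intro b c hb hc hbc
      rcases eq_or_ne b c with rfl | hne
      · exact ⟨1, one_mem _, rfl, rfl⟩
      obtain ⟨d, hdS, hd⟩ : ∃ d, (d ∈ B ↔ b ∈ B) ∧ d ∉ ({a, b, c} : Finset α) := by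
        by_cases hbB : b ∈ B
        · obtain ⟨d, hd, hd'⟩ := avoid B {a, b, c} (by omega)
            (lt_of_le_of_lt Finset.card_le_three (by norm_num))
          exact ⟨d, iff_of_true hd hbB, hd'⟩
        · obtain ⟨d, hd, hd'⟩ := avoid Bᶜ {a, b, c} (by omega)
            (lt_of_le_of_lt Finset.card_le_three (by norm_num))
          exact ⟨d, iff_of_false hd hbB, hd'⟩
      simp only [Finset.mem_insert, Finset.mem_singleton, not_or] at hd
      refine ⟨Equiv.swap b d * Equiv.swap b c, h1 ⟨three_cycle_mem_halves hbc hdS.symm,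
        mem_alt_swap_mul_swap (Ne.symm hd.2.1) hne⟩, ?_, ?_⟩
      · rw [Perm.mul_apply, Equiv.swap_apply_of_ne_of_ne hb.symm hc.symm,
          Equiv.swap_apply_of_ne_of_ne hb.symm (Ne.symm hd.1)]
      · rw [Perm.mul_apply, Equiv.swap_apply_left, Equiv.swap_apply_of_ne_of_ne hne.symm (Ne.symm hd.2.2)]
    obtain ⟨g₀, hg₀, hg₀a, b₀, hb₀, hb₀a, hgb₀⟩ :
        ∃ g ∈ Z, g a = a ∧ ∃ b ∈ B, b ≠ a ∧ g b ∉ B := by
      obtain ⟨b, hb, hb'⟩ := avoid B {a, z a} (by omega)
        (lt_of_le_of_lt Finset.card_le_two (by norm_num))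
      simp only [Finset.mem_insert, Finset.mem_singleton, not_or] at hb'
      obtain ⟨y, hy, hy'⟩ := avoid Bᶜ {z a, z b} (by omega)
        (lt_of_le_of_lt Finset.card_le_two (by norm_num))
      simp only [Finset.mem_insert, Finset.mem_singleton, not_or] at hy'
      have hby : b ≠ y := fun e => hy (e ▸ hb)
      have hay : a ≠ y := fun e => hy (e ▸ ha)
      have hzbzy : z b ≠ z y := fun e => hby (z.injective e)
      refine ⟨Equiv.swap b y * Equiv.swap (z b) (z y), h2 ⟨Subgroup.mem_centralizer_singleton_iff.2 ?_,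
        mem_alt_swap_mul_swap hby hzbzy⟩, ?_, b, hb, hb'.1, ?_⟩
      · have key : ∀ a b, z * Equiv.swap a b = Equiv.swap (z a) (z b) * z := fun a b => by
          rw [Equiv.mul_swap_eq_swap_mul]
        have hcomm : Equiv.swap b y * Equiv.swap (z b) (z y) =
            Equiv.swap (z b) (z y) * Equiv.swap b y := by
          apply (Perm.disjoint_iff_disjoint_support.2 ?_).commute
          rw [Perm.support_swap hby, Perm.support_swap hzbzy]
          simp only [Finset.disjoint_insert_left, Finset.disjoint_singleton_left, Finset.mem_insert,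
            Finset.mem_singleton, not_or]
          exact ⟨⟨(hfree b).symm, fun h => hy'.2 (by rw [h, hz])⟩, ⟨hy'.2, (hfree y).symm⟩⟩
        rw [← mul_assoc, key, mul_assoc, mul_assoc, key, hz, hz,
          ← mul_assoc (Equiv.swap b y), hcomm, mul_assoc]
      · have hab : a ≠ z b := fun e => hb'.2 (by rw [e, hz])
        have hazy : a ≠ z y := fun e => hy'.1 (by rw [e, hz])
        rw [Perm.mul_apply, Equiv.swap_apply_of_ne_of_ne hab hazy,
          Equiv.swap_apply_of_ne_of_ne (Ne.symm hb'.1) hay]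
      · rw [Perm.mul_apply, Equiv.swap_apply_of_ne_of_ne (hfree b).symm (fun e => hy'.2 (by rw [e, hz])),
          Equiv.swap_apply_left]
        exact hy
    have hg₀ne : g₀ b₀ ≠ a := fun e => hgb₀ (e ▸ ha)
    have hall : ∀ b, b ≠ a → ∃ g ∈ Z, g a = a ∧ g b₀ = b := by
      intro b hb
      by_cases hbB : b ∈ B
      · exact hin b₀ b hb₀a hb (iff_of_true hb₀ hbB)
      · obtain ⟨g, hg, hga, hgb⟩ := hin (g₀ b₀) b hg₀ne hb (iff_of_false hgb₀ hbB)
        exact ⟨g * g₀, mul_mem hg hg₀, by rw [Perm.mul_apply, hg₀a, hga],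
          by rw [Perm.mul_apply, hgb]⟩
    have h2t : MulAction.IsMultiplyPretransitive Z α 2 := by
      rw [MulAction.is_two_pretransitive_iff]
      intro p q r s hpq hrs
      obtain ⟨u, hu, hup⟩ := hC p a
      obtain ⟨v, hv, hvr⟩ := hC r a
      have hne1 : u q ≠ a := fun e => hpq (u.injective (hup.trans e.symm))
      have hne2 : v s ≠ a := fun e => hrs (v.injective (hvr.trans e.symm))
      obtain ⟨i, hi, hia, hib⟩ := hall _ hne1
      obtain ⟨j, hj, hja, hjb⟩ := hall _ hne2
      refine ⟨⟨v⁻¹ * (j * i⁻¹) * u, mul_mem (mul_mem (inv_mem hv) (mul_mem hj (inv_mem hi))) hu⟩, ?_, ?_⟩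
      · show (v⁻¹ * (j * i⁻¹) * u) p = r
        simp only [Perm.mul_apply, hup]
        rw [Perm.inv_eq_iff_eq.2 hia.symm, hja]
        exact Perm.inv_eq_iff_eq.2 hvr.symm
      · show (v⁻¹ * (j * i⁻¹) * u) q = s
        simp only [Perm.mul_apply]
        rw [Perm.inv_eq_iff_eq.2 hib.symm, hjb]
        exact Perm.inv_eq_iff_eq.2 rfl
    have hpr : MulAction.IsPreprimitive Z α := MulAction.isPreprimitive_of_is_two_pretransitive h2t
    obtain ⟨b, hb, hb'⟩ := avoid B {a} (by omega) (by simp)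
    obtain ⟨c, hc, hc'⟩ := avoid B {a, b} (by omega)
      (lt_of_le_of_lt Finset.card_le_two (by norm_num))
    simp only [Finset.mem_insert, Finset.mem_singleton, not_or] at hb' hc'
    exact Perm.alternatingGroup_le_of_isPreprimitive_of_isThreeCycle_mem hpr
      (Perm.isThreeCycle_swap_mul_swap_same (Ne.symm hc'.1) (Ne.symm hb') hc'.2)
      (h1 ⟨three_cycle_mem_halves (iff_of_true ha hb) (iff_of_true ha hc),
        mem_alt_swap_mul_swap (Ne.symm hc'.1) (Ne.symm hb')⟩)

/-- In degree `2 ^ k + 1` an overgroup of the even part of a Sylow 2-subgroup fixes the point or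
contains the alternating group (at least nine points). -/
theorem overgroup_nine (hn : 9 ≤ Fintype.card α) (z : Perm α) (p : α) (hz : ∀ x, z (z x) = x)
    (hp : ∀ x, z x = x ↔ x = p) (M : Subgroup (Perm α))
    (hsw : ∀ x y, z x ≠ x → z y ≠ y → Equiv.swap x (z x) * Equiv.swap y (z y) ∈ M)
    (htr : ∀ x y, x ≠ p → y ≠ p → ∃ g ∈ M, g p = p ∧ g x = y)
    (hmove : ∃ g ∈ M, g p ≠ p) : alternatingGroup α ≤ M := by
  obtain ⟨g₁, hg₁, hg₁p⟩ := hmove
  have hC : ∀ x, ∃ g ∈ M, g p = x := by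
    intro x
    rcases eq_or_ne x p with rfl | hx
    · exact ⟨1, one_mem _, rfl⟩
    · obtain ⟨r, hr, -, hrx⟩ := htr (g₁ p) x hg₁p hx
      exact ⟨r * g₁, mul_mem hr hg₁, by rw [Perm.mul_apply, hrx]⟩
  have h2t : MulAction.IsMultiplyPretransitive M α 2 := by
    rw [MulAction.is_two_pretransitive_iff]
    intro a b c d hab hcd
    obtain ⟨u, hu, hua⟩ := hC a
    obtain ⟨v, hv, hvc⟩ := hC c
    have hne1 : u⁻¹ b ≠ p := fun e => hab (by rw [← hua, ← e]; simp)
    have hne2 : v⁻¹ d ≠ p := fun e => hcd (by rw [← hvc, ← e]; simp)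
    obtain ⟨r, hr, hrp, hrb⟩ := htr _ _ hne1 hne2
    refine ⟨⟨v * r * u⁻¹, mul_mem (mul_mem hv hr) (inv_mem hu)⟩, ?_, ?_⟩
    · show (v * r * u⁻¹) a = c
      simp only [Perm.mul_apply]
      rw [Perm.inv_eq_iff_eq.2 hua.symm, hrp, hvc]
    · show (v * r * u⁻¹) b = d
      simp only [Perm.mul_apply]
      rw [hrb]; simp
  obtain ⟨a, ha⟩ := exists_avoid ({p} : Finset α) (by rw [Finset.card_singleton]; omega)
  rw [Finset.mem_singleton] at ha
  set b := z a with hb_def
  have hfree : ∀ x, x ≠ p → z x ≠ x := fun x hx h => hx ((hp x).1 h)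
  have hba : b ≠ a := hfree a ha
  have hbp : b ≠ p := fun h => ha (by
    have h' := congrArg z h
    rw [hb_def, hz, (hp p).2 rfl] at h'
    exact h')
  obtain ⟨g, hga, hgb⟩ := (MulAction.is_two_pretransitive_iff.1 h2t) hba.symm ha
  change (g : Perm α) a = a at hga
  change (g : Perm α) b = p at hgb
  -- a pair `y` whose image under `g` avoids `b`
  set y₀ := (g : Perm α)⁻¹ b with hy₀
  obtain ⟨y, hy⟩ := exists_avoid ({p, a, b, y₀, z y₀} : Finset α)
    (lt_of_le_of_lt Finset.card_le_five (by omega))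
  simp only [Finset.mem_insert, Finset.mem_singleton, not_or] at hy
  have hzy : z y ≠ y := hfree y hy.1
  set d1 := (g : Perm α) y with hd1
  set d2 := (g : Perm α) (z y) with hd2
  have h1a : d1 ≠ a := fun h => hy.2.1 ((g : Perm α).injective (h.trans hga.symm))
  have h2a : d2 ≠ a := fun h => hy.2.2.1 (by
    have := (g : Perm α).injective (h.trans hga.symm); rw [hb_def, ← this, hz])
  have h1p : d1 ≠ p := fun h => hy.2.2.1 ((g : Perm α).injective (h.trans hgb.symm))
  have h2p : d2 ≠ p := fun h => hy.2.1 (by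
    have := (g : Perm α).injective (h.trans hgb.symm)
    rw [← hz y, this, hb_def, hz])
  have h1b : d1 ≠ b := fun h => hy.2.2.2.1 (by
    rw [hy₀, ← h, hd1]; simp)
  have h2b : d2 ≠ b := fun h => hy.2.2.2.2 (by
    rw [hy₀, ← h, hd2]; simp [hz])
  have h12 : d1 ≠ d2 := fun h => hzy ((g : Perm α).injective h).symm
  obtain ⟨w, hw⟩ := exists_avoid ({p, a, b, d1, z d1, d2, z d2} : Finset α)
    (lt_of_le_of_lt (le_trans (Finset.card_insert_le _ _) (Nat.add_le_add_right (le_trans
      (Finset.card_insert_le _ _) (Nat.add_le_add_right Finset.card_le_five 1)) 1)) (by omega))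
  simp only [Finset.mem_insert, Finset.mem_singleton, not_or] at hw
  obtain ⟨hwp, hwa, hwb, hw1, hwz1, hw2, hwz2⟩ := hw
  have hzw : z w ≠ w := hfree w hwp
  have hzwp : z w ≠ p := fun h => hwp (by
    have h' := congrArg z h
    rwa [hz, (hp p).2 rfl] at h')
  have hzwa : z w ≠ a := fun h => hwb (by rw [hb_def, ← h, hz])
  have hzwb : z w ≠ b := fun h => hwa (z.injective h)
  have hzw1 : z w ≠ d1 := fun h => hwz1 (by rw [← h, hz])
  have hzw2 : z w ≠ d2 := fun h => hwz2 (by rw [← h, hz])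
  set u := Equiv.swap w (z w) with hu
  set v := Equiv.swap d1 d2 with hv
  set s := Equiv.swap a b with hs
  set t := Equiv.swap a p with ht
  have ht1 : s * u ∈ M := hsw a w (hfree a ha) hzw
  have ht2 : t * v ∈ M := by
    have h := mul_mem (mul_mem g.2 (hsw a y (hfree a ha) hzy)) (inv_mem g.2)
    have heq : (g : Perm α) * (Equiv.swap a (z a) * Equiv.swap y (z y)) * (g : Perm α)⁻¹ = t * v := by
      have e1 : ∀ x y, (g : Perm α) * Equiv.swap x y * (g : Perm α)⁻¹ =
          Equiv.swap ((g : Perm α) x) ((g : Perm α) y) := fun x y => by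
        rw [Equiv.mul_swap_eq_swap_mul, mul_inv_cancel_right]
      rw [ht, hv, hd1, hd2, show Equiv.swap a p = Equiv.swap ((g : Perm α) a) ((g : Perm α) b) by
        rw [hga, hgb], ← hb_def, ← e1, ← e1]
      group
    rw [← heq]; exact h
  have dis : ∀ {x x' y y' : α}, x ≠ x' → y ≠ y' → x ≠ y → x ≠ y' → x' ≠ y → x' ≠ y' →
      Equiv.swap x x' * Equiv.swap y y' = Equiv.swap y y' * Equiv.swap x x' := by
    intro x x' y y' h h' a1 a2 a3 a4
    apply (Perm.disjoint_iff_disjoint_support.2 ?_).commute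
    rw [Perm.support_swap h, Perm.support_swap h']
    simp [a1, a2, a3, a4, Ne.symm a1, Ne.symm a2, Ne.symm a3, Ne.symm a4]
  have hut : u * t = t * u := dis hzw.symm (Ne.symm (Ne.symm ha)) hwa hwp hzwa hzwp
  have huv : u * v = v * u := dis hzw.symm h12 hw1 hw2 hzw1 hzw2
  have hsu : s * u = u * s := dis hba.symm hzw.symm (Ne.symm hwa) hzwa.symm (Ne.symm hwb) hzwb.symm
  have hsv : s * v = v * s := dis hba.symm h12 h1a.symm h2a.symm h1b.symm h2b.symm
  have htv : t * v = v * t := dis (Ne.symm (Ne.symm ha)) h12 h1a.symm h2a.symm h1p.symm h2p.symm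
  have cu : Commute (s * t) u := (Commute.mul_left hsu hut.symm)
  have cv : Commute (s * t) v := (Commute.mul_left hsv htv)
  have hsq : (s * u * (t * v)) ^ 2 = (s * t) ^ 2 := by
    have e1 : s * u * (t * v) = s * t * (u * v) := by
      rw [mul_assoc s u, ← mul_assoc u t, hut, mul_assoc t u, ← mul_assoc]
    rw [e1, (cu.mul_right cv).mul_pow, Commute.mul_pow huv, pow_two u, pow_two v,
      hu, hv, Equiv.swap_mul_self, Equiv.swap_mul_self, mul_one, mul_one]
  have h3 : Perm.IsThreeCycle (s * t) := Perm.isThreeCycle_swap_mul_swap_same hba.symm ha hbp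
  refine Perm.alternatingGroup_le_of_isPreprimitive_of_isThreeCycle_mem
    (MulAction.isPreprimitive_of_is_two_pretransitive h2t) (g := (s * t) * (s * t)) ?_ ?_
  · exact h3.isThreeCycle_sq
  · rw [← pow_two, ← hsq]
    exact pow_mem (mul_mem ht1 ht2) 2

/-- Transfer of the two overgroups into the alternating group and into the symmetric group. -/
theorem not_unique_of_hasTwo (T : Sylow 2 (Perm α)) (h : HasTwo (T : Subgroup (Perm α)))
    (hodd : ∃ s ∈ T, Perm.sign s = -1) :
    (∀ P : Sylow 2 (alternatingGroup α),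
      (∀ x : alternatingGroup α, x ∈ P ↔ (x : Perm α) ∈ T) →
      ¬ ∃! M : Subgroup (alternatingGroup α), IsCoatom M ∧ (P : Subgroup _) ≤ M) ∧
    ¬ ∃! M : Subgroup (Perm α), IsCoatom M ∧ (T : Subgroup (Perm α)) ≤ M := by
  obtain ⟨X, Y, hX, hY, hXA, hYA, hZ⟩ := h
  constructor
  · rintro P hP ⟨M, ⟨hM, hPM⟩, huniq⟩
    have key : ∀ W : Subgroup (Perm α), (T : Subgroup (Perm α)) ≤ W → ¬ alternatingGroup α ≤ W →
        W ⊓ alternatingGroup α ≤ M.map (alternatingGroup α).subtype := by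
      intro W hW hWA
      have hne : W.subgroupOf (alternatingGroup α) ≠ ⊤ := fun h => hWA fun x hx =>
        Subgroup.mem_subgroupOf.1 (h ▸ Subgroup.mem_top (⟨x, hx⟩ : alternatingGroup α))
      obtain ⟨M', hM', hle⟩ := (eq_top_or_exists_le_coatom _).resolve_left hne
      have := huniq M' ⟨hM', fun x hx => hle (Subgroup.mem_subgroupOf.2 (hW ((hP x).1 hx)))⟩
      rintro x ⟨hxW, hxA⟩
      exact ⟨⟨x, hxA⟩, this ▸ hle (Subgroup.mem_subgroupOf.2 hxW), rfl⟩
    have := hZ _ (key X hX hXA) (key Y hY hYA)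
    exact hM.1 (eq_top_iff.2 fun x _ => by
      obtain ⟨y, hy, hxy⟩ := this x.2
      exact Subtype.ext hxy ▸ hy)
  · rintro ⟨M, ⟨hM, hTM⟩, huniq⟩
    have key : ∀ W : Subgroup (Perm α), (T : Subgroup (Perm α)) ≤ W → ¬ alternatingGroup α ≤ W →
        W ⊓ alternatingGroup α ≤ M := by
      intro W hW hWA
      obtain ⟨M', hM', hle⟩ := (eq_top_or_exists_le_coatom W).resolve_left
        (fun h => hWA (h ▸ le_top))
      exact inf_le_left.trans (huniq M' ⟨hM', hW.trans hle⟩ ▸ hle)
    have hA := hZ M (key X hX hXA) (key Y hY hYA)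
    obtain ⟨s, hsT, hs⟩ := hodd
    apply hM.1
    refine eq_top_iff.2 fun g _ => ?_
    rcases Int.units_eq_one_or (Perm.sign g) with hg | hg
    · exact hA (Perm.mem_alternatingGroup.2 hg)
    · have hmem : g * s⁻¹ ∈ alternatingGroup α := Perm.mem_alternatingGroup.2 (by
        rw [map_mul, map_inv, hg, hs]; simp)
      have := mul_mem (hA hmem) (hTM hsT)
      rwa [inv_mul_cancel_right] at this

theorem eq_top_index_dvd_three (h5 : Fintype.card α = 5) (M : Subgroup (alternatingGroup α))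
    (h20 : 20 ∣ Nat.card M) : M = ⊤ := by
  haveI : IsSimpleGroup (alternatingGroup α) :=
    alternatingGroup.isSimpleGroup (by rw [Nat.card_eq_fintype_card]; omega)
  haveI : Nontrivial α := Fintype.one_lt_card_iff_nontrivial.1 (by omega)
  have hcard : Nat.card (alternatingGroup α) = 60 := by
    rw [nat_card_alternatingGroup, Nat.card_eq_fintype_card, h5]; rfl
  have hmul := M.card_mul_index
  rw [hcard] at hmul
  have hidx : M.index ∣ 3 := by
    obtain ⟨c, hc⟩ := h20
    rw [hc] at hmul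
    exact ⟨c, by nlinarith⟩
  by_contra hM
  have h3 : M.index = 3 := ((Nat.dvd_prime Nat.prime_three).1 hidx).resolve_left
    (fun h => hM (Subgroup.index_eq_one.1 h))
  rcases (M.normalCore_normal).eq_bot_or_eq_top with h | h
  · have h6 : M.normalCore.index ∣ (M.index).factorial := by
      rw [Subgroup.normalCore_eq_ker, Subgroup.index_ker]
      refine dvd_trans (Subgroup.card_subgroup_dvd_card _) ?_
      rw [Nat.card_perm]; rfl
    rw [h, Subgroup.index_bot, hcard, h3] at h6
    norm_num [Nat.factorial] at h6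
  · exact hM (eq_top_iff.2 (h ▸ M.normalCore_le))

/-- The unique maximal overgroup in degree `2 ^ k + 1`. -/
theorem unique_case (hn5 : 5 ≤ Fintype.card α) {k : ℕ} (hk : 2 ≤ k)
    (hn : Fintype.card α = 2 ^ k + 1) (T : Sylow 2 (Perm α)) (P : Sylow 2 (alternatingGroup α))
    (hP : ∀ x : alternatingGroup α, x ∈ P ↔ (x : Perm α) ∈ T) :
    ∃ p : α, (∀ t ∈ T, t p = p) ∧
      (∀ M : Subgroup (alternatingGroup α), (P : Subgroup _) ≤ M →
        (∃ g ∈ M, (g : Perm α) p ≠ p) → M = ⊤) ∧
      (∀ M : Subgroup (Perm α), (T : Subgroup (Perm α)) ≤ M → (∃ g ∈ M, g p ≠ p) → M = ⊤) := by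
  obtain ⟨j, rfl⟩ : ∃ j, k = j + 1 := ⟨k - 1, by omega⟩
  obtain ⟨p, hpT, htrT⟩ := hasPointTrans_sylow hn T
  obtain ⟨z, hz, hzT, hsw, hfix⟩ := hasFlip_sylow T
  have hzp : z p = p := by
    by_contra h
    have := hpT _ (hsw p)
    rw [Equiv.swap_apply_left] at this
    exact h this
  have hp : ∀ x, z x = x ↔ x = p := by
    rcases hfix with h | ⟨p', hp', -⟩
    · exact absurd hzp (h p)
    · intro x
      rw [hp', (hp' p).1 hzp]
  have hfree : ∀ x, x ≠ p → z x ≠ x := fun x hx h => hx ((hp x).1 h)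
  obtain ⟨a, ha⟩ := exists_avoid ({p} : Finset α) (by rw [Finset.card_singleton]; omega)
  rw [Finset.mem_singleton] at ha
  -- transitivity of the even part
  have htrP : ∀ x y, x ≠ p → y ≠ p → ∃ g : alternatingGroup α, g ∈ P ∧ (g : Perm α) p = p ∧
      (g : Perm α) x = y := by
    intro x y hx hy
    obtain ⟨t, ht, htxy⟩ := htrT x y hx hy
    rcases Int.units_eq_one_or (Perm.sign t) with hs | hs
    · exact ⟨⟨t, Perm.mem_alternatingGroup.2 hs⟩, (hP _).2 ht, hpT t ht, htxy⟩
    · obtain ⟨w, hw⟩ := exists_avoid ({p, y, z y} : Finset α)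
        (lt_of_le_of_lt Finset.card_le_three (by omega))
      simp only [Finset.mem_insert, Finset.mem_singleton, not_or] at hw
      refine ⟨⟨Equiv.swap w (z w) * t, Perm.mem_alternatingGroup.2 ?_⟩,
        (hP _).2 (mul_mem (hsw w) ht), hpT _ (mul_mem (hsw w) ht), ?_⟩
      · rw [map_mul, Perm.sign_swap (hfree w hw.1).symm, hs]; simp
      · show (Equiv.swap w (z w) * t) x = y
        rw [Perm.mul_apply, htxy, Equiv.swap_apply_of_ne_of_ne (Ne.symm hw.2.1)]
        intro h; exact hw.2.2 (by rw [h, hz])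
  have hAlt : ∀ M : Subgroup (alternatingGroup α), (P : Subgroup _) ≤ M →
      (∃ g ∈ M, (g : Perm α) p ≠ p) → M = ⊤ := by
    intro M hPM ⟨g, hg, hgp⟩
    rcases Nat.lt_or_ge (Fintype.card α) 9 with h9 | h9
    · have hj : j = 1 := by
        by_contra hj
        have := Nat.pow_le_pow_right (show 1 ≤ 2 by norm_num) (show 3 ≤ j + 1 by omega)
        omega
      subst hj
      have h5 : Fintype.card α = 5 := by rw [hn]; norm_num
      haveI : Nontrivial α := Fintype.one_lt_card_iff_nontrivial.1 (by omega)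
      haveI : Fact (Nat.Prime 2) := ⟨Nat.prime_two⟩
      refine eq_top_index_dvd_three h5 M (Nat.Coprime.mul_dvd_of_dvd_of_dvd
        (by norm_num : Nat.Coprime 4 5) ?_ ?_)
      · have hc : Nat.card (P : Subgroup (alternatingGroup α)) = 4 := by
          rw [P.card_eq_multiplicity, nat_card_alternatingGroup, Nat.card_eq_fintype_card, h5,
            Nat.factorization_def _ Nat.prime_two]
          have : padicValNat 2 ((5 : ℕ).factorial / 2) = 2 := by
            rw [show (5 : ℕ).factorial / 2 = 2 ^ 2 * 15 by rfl,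
              padicValNat.mul (by norm_num) (by norm_num), padicValNat.prime_pow,
              padicValNat.eq_zero_of_not_dvd (by norm_num)]
          rw [this]; norm_num
        exact hc ▸ Subgroup.card_dvd_of_le hPM
      · have horb : MulAction.orbit M p = Set.univ := by
          refine Set.eq_univ_iff_forall.2 fun x => ?_
          rcases eq_or_ne x p with rfl | hx
          · exact MulAction.mem_orbit_self _
          · obtain ⟨r, hr, -, hrx⟩ := htrP _ x hgp hx
            exact ⟨⟨r * g, mul_mem (hPM hr) hg⟩, by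
              show ((r * g : alternatingGroup α) : Perm α) p = x
              rw [Subgroup.coe_mul, Perm.mul_apply, hrx]⟩
        have := MulAction.index_stabilizer M p
        rw [horb, Set.ncard_univ, Nat.card_eq_fintype_card (α := α), h5] at this
        exact this ▸ Subgroup.index_dvd_card _
    · have := overgroup_nine h9 z p hz hp (M.map (alternatingGroup α).subtype)
        (fun x y hx hy => ⟨⟨_, mem_alt_swap_mul_swap hx.symm hy.symm⟩,
          hPM ((hP _).2 (mul_mem (hsw x) (hsw y))), rfl⟩)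
        (fun x y hx hy => by
          obtain ⟨r, hr, hrp, hrx⟩ := htrP x y hx hy
          exact ⟨r, ⟨r, hPM hr, rfl⟩, hrp, hrx⟩)
        ⟨g, ⟨g, hg, rfl⟩, hgp⟩
      refine eq_top_iff.2 fun x _ => ?_
      obtain ⟨y, hy, hxy⟩ := this x.2
      exact Subtype.ext hxy ▸ hy
  refine ⟨p, hpT, hAlt, fun M hTM ⟨g, hg, hgp⟩ => ?_⟩
  have hsa : Equiv.swap a (z a) ∈ M := hTM (hsw a)
  have hsign : Perm.sign (Equiv.swap a (z a)) = -1 := Perm.sign_swap (hfree a ha).symm
  have hM := hAlt (M.subgroupOf (alternatingGroup α))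
    (fun x hx => Subgroup.mem_subgroupOf.2 (hTM ((hP x).1 hx))) (by
      rcases Int.units_eq_one_or (Perm.sign g) with hs | hs
      · exact ⟨⟨g, Perm.mem_alternatingGroup.2 hs⟩, Subgroup.mem_subgroupOf.2 hg, hgp⟩
      · refine ⟨⟨g * Equiv.swap a (z a), Perm.mem_alternatingGroup.2 (by
          rw [map_mul, hs, hsign]; simp)⟩, Subgroup.mem_subgroupOf.2 (mul_mem hg hsa), ?_⟩
        show (g * Equiv.swap a (z a)) p ≠ p
        rw [Perm.mul_apply, hpT _ (hsw a)]
        exact hgp)
  refine eq_top_iff.2 fun x _ => ?_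
  have hA : ∀ y ∈ alternatingGroup α, y ∈ M := fun y hy =>
    Subgroup.mem_subgroupOf.1 (hM ▸ Subgroup.mem_top (⟨y, hy⟩ : alternatingGroup α))
  rcases Int.units_eq_one_or (Perm.sign x) with hs | hs
  · exact hA x (Perm.mem_alternatingGroup.2 hs)
  · have := mul_mem (hA (x * Equiv.swap a (z a)) (Perm.mem_alternatingGroup.2 (by
      rw [map_mul, hs, hsign]; simp))) hsa
    rwa [mul_assoc, Equiv.swap_mul_self, mul_one] at this

theorem unique_of_fix {G : Type*} [Group G] [Finite G] (R M₀ : Subgroup G) (hR : R ≤ M₀)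
    (hM₀ : M₀ ≠ ⊤) (h : ∀ M : Subgroup G, R ≤ M → ¬ M ≤ M₀ → M = ⊤) :
    ∃! M : Subgroup G, IsCoatom M ∧ R ≤ M := by
  have hco : IsCoatom M₀ := ⟨hM₀, fun b hb => h b (hR.trans hb.le) hb.not_ge⟩
  refine ⟨M₀, ⟨hco, hR⟩, fun M ⟨hM, hRM⟩ => ?_⟩
  have hle : M ≤ M₀ := by
    by_contra hcon
    exact hM.1 (h M hRM hcon)
  rcases lt_or_eq_of_le hle with hlt | heq
  · exact absurd (hM.2 _ hlt) hM₀
  · exact heq

/-- For n ≥ 5 with n ≠ 6, a Sylow 2-subgroup of the alternating group A_n lies in exactly one maximal subgroup of A_n if and only if n = 2^k + 1 for some k ≥ 2; the same holds for the symmetric group S_n. -/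
theorem result (n : ℕ) (hn : 5 ≤ n) (h6 : n ≠ 6) :
    ((∀ R : Sylow 2 ↥(alternatingGroup (Fin n)), (∃! M : Subgroup ↥(alternatingGroup (Fin n)), IsCoatom M ∧ (R : Subgroup ↥(alternatingGroup (Fin n))) ≤ M) ↔ ∃ k : ℕ, 2 ≤ k ∧ n = 2 ^ k + 1) ∧
    (∀ R : Sylow 2 (Equiv.Perm (Fin n)), (∃! M : Subgroup (Equiv.Perm (Fin n)), IsCoatom M ∧ (R : Subgroup (Equiv.Perm (Fin n))) ≤ M) ↔ ∃ k : ℕ, 2 ≤ k ∧ n = 2 ^ k + 1)) := by
  have hcard : Fintype.card (Fin n) = n := Fintype.card_fin n
  haveI : Fact (Nat.Prime 2) := ⟨Nat.prime_two⟩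
  haveI : Finite (alternatingGroup (Fin n)) := inferInstance
  have hdich : (∃ k, 2 ≤ k ∧ n = 2 ^ k + 1) ∨
      ((∀ T : Sylow 2 (Perm (Fin n)), HasTwo (T : Subgroup (Perm (Fin n)))) ∧
        ¬ ∃ k, 2 ≤ k ∧ n = 2 ^ k + 1) := by
    by_cases hu : ∃ k, 2 ≤ k ∧ n = 2 ^ k + 1
    · exact Or.inl hu
    · refine Or.inr ⟨fun T => ?_, hu⟩
      by_cases hp : ∃ k, n = 2 ^ k
      · obtain ⟨k, hk⟩ := hp
        have : 3 ≤ k := by
          by_contra hlt
          have := Nat.pow_le_pow_right (show 1 ≤ 2 by norm_num) (show k ≤ 2 by omega)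
          omega
        exact hasTwo_pow this (hcard.trans hk) T
      · refine hasTwo_orbit (by omega) T (fun k hk => hp ⟨k, hcard.symm.trans hk⟩) (fun k hk => hu ?_)
        rw [hcard] at hk
        refine ⟨k, ?_, hk⟩
        by_contra hlt
        have := Nat.pow_le_pow_right (show 1 ≤ 2 by norm_num) (show k ≤ 1 by omega)
        omega
  have hodd : ∀ T : Sylow 2 (Perm (Fin n)), ∃ s ∈ T, Perm.sign s = -1 := by
    intro T
    obtain ⟨z, -, -, hsw, hfix⟩ := hasFlip_sylow T
    obtain ⟨x, hx⟩ : ∃ x, z x ≠ x := by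
      rcases hfix with h | ⟨p, hp, -⟩
      · exact ⟨⟨0, by omega⟩, h _⟩
      · obtain ⟨x, hx⟩ := exists_avoid ({p} : Finset (Fin n))
          (by rw [Finset.card_singleton, hcard]; omega)
        exact ⟨x, fun h => hx (Finset.mem_singleton.2 ((hp x).1 h))⟩
    exact ⟨_, hsw x, Perm.sign_swap hx.symm⟩
  haveI : Nontrivial (Fin n) := Fin.nontrivial_iff_two_le.2 (by omega)
  rcases hdich with ⟨k, hk, hnk⟩ | ⟨htwo, hu⟩
  · refine ⟨fun R => iff_of_true ?_ ⟨k, hk, hnk⟩, fun R => iff_of_true ?_ ⟨k, hk, hnk⟩⟩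
    · obtain ⟨T, hT⟩ := exists_sylowTwo_perm R
      obtain ⟨p, hp, hA, -⟩ := unique_case (by omega) hk (hcard.trans hnk) T R hT
      refine unique_of_fix _ (MulAction.stabilizer (alternatingGroup (Fin n)) p)
        (fun x hx => hp _ ((hT x).1 hx)) ?_ fun M hM hnle => hA M hM ?_
      · intro h
        obtain ⟨b, hb⟩ := exists_avoid ({p} : Finset (Fin n))
          (by rw [Finset.card_singleton, hcard]; omega)
        obtain ⟨c, hc⟩ := exists_avoid ({p, b} : Finset (Fin n))
          (lt_of_le_of_lt Finset.card_le_two (by omega))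
        simp only [Finset.mem_insert, Finset.mem_singleton, not_or] at hb hc
        have : (Equiv.swap p c * Equiv.swap p b) p = p :=
          (h ▸ Subgroup.mem_top (⟨_, mem_alt_swap_mul_swap (Ne.symm hc.1) (Ne.symm hb)⟩ :
            alternatingGroup (Fin n)) : _ ∈ MulAction.stabilizer _ p)
        rw [Perm.mul_apply, Equiv.swap_apply_left,
          Equiv.swap_apply_of_ne_of_ne hb (Ne.symm hc.2)] at this
        exact hb this
      · obtain ⟨g, hg, hg'⟩ := SetLike.not_le_iff_exists.1 hnle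
        exact ⟨g, hg, hg'⟩
    · obtain ⟨P, hP⟩ : ∃ P : Sylow 2 (alternatingGroup (Fin n)),
          ∀ x : alternatingGroup (Fin n), x ∈ P ↔ (x : Perm (Fin n)) ∈ R := by
        obtain ⟨P, hP⟩ := (R.isPGroup'.comap_of_injective (alternatingGroup (Fin n)).subtype
          (alternatingGroup (Fin n)).subtype_injective).exists_le_sylow
        obtain ⟨T, hT⟩ := exists_sylowTwo_perm P
        refine ⟨P, fun x => ⟨fun hx => ?_, fun hx => hP hx⟩⟩
        obtain ⟨c, hc⟩ := MulAction.exists_smul_eq (Perm (Fin n)) R T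
        have e1 : Nat.card ((R : Subgroup (Perm (Fin n))).comap (alternatingGroup (Fin n)).subtype) =
            Nat.card ((T : Subgroup (Perm (Fin n))).comap (alternatingGroup (Fin n)).subtype) := by
          refine Nat.card_congr
            { toFun := fun y => ⟨⟨c * (y.1 : Perm (Fin n)) * c⁻¹, Perm.mem_alternatingGroup.2 (by
                simp [Perm.mem_alternatingGroup.1 y.1.2])⟩, by
                show c * (y.1 : Perm (Fin n)) * c⁻¹ ∈ T
                exact (SetLike.ext_iff.1 hc _).1 ⟨y.1, y.2, rfl⟩⟩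
              invFun := fun y => ⟨⟨c⁻¹ * (y.1 : Perm (Fin n)) * c, Perm.mem_alternatingGroup.2 (by
                simp [Perm.mem_alternatingGroup.1 y.1.2])⟩, by
                show c⁻¹ * (y.1 : Perm (Fin n)) * c ∈ R
                have hy : (y.1 : Perm (Fin n)) ∈ T := y.2
                obtain ⟨r, hr, hry⟩ := (SetLike.ext_iff.1 hc _).2 hy
                have : c * r * c⁻¹ = (y.1 : Perm (Fin n)) := hry
                rw [← this]
                simpa [mul_assoc] using hr⟩
              left_inv := fun y => by ext1; ext1; simp [mul_assoc]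
              right_inv := fun y => by ext1; ext1; simp [mul_assoc] }
        have e2 : (T : Subgroup (Perm (Fin n))).comap (alternatingGroup (Fin n)).subtype = P := by
          ext y; exact (hT y).symm
        have e3 := Subgroup.eq_of_le_of_card_ge hP (by rw [e1, e2])
        exact (SetLike.ext_iff.1 e3 x).2 hx
      obtain ⟨p, hp, -, hS⟩ := unique_case (by omega) hk (hcard.trans hnk) R P hP
      refine unique_of_fix _ (MulAction.stabilizer (Perm (Fin n)) p) (fun x hx => hp x hx) ?_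
        fun M hM hnle => hS M hM ?_
      · intro h
        obtain ⟨b, hb⟩ := exists_avoid ({p} : Finset (Fin n))
          (by rw [Finset.card_singleton, hcard]; omega)
        rw [Finset.mem_singleton] at hb
        have : Equiv.swap p b p = p :=
          (h ▸ Subgroup.mem_top (Equiv.swap p b) : _ ∈ MulAction.stabilizer _ p)
        rw [Equiv.swap_apply_left] at this
        exact hb this
      · obtain ⟨g, hg, hg'⟩ := SetLike.not_le_iff_exists.1 hnle
        exact ⟨g, hg, hg'⟩
  · refine ⟨fun R => iff_of_false ?_ hu, fun R => iff_of_false ?_ hu⟩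
    · obtain ⟨T, hT⟩ := exists_sylowTwo_perm R
      exact (not_unique_of_hasTwo T (htwo T) (hodd T)).1 R hT
    · exact (not_unique_of_hasTwo R (htwo R) (hodd R)).2

end Cfsg.Agent.S2245
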