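import Cfsg.Statements.S2249
import Cfsg.Agent.Lib.FFModules.NormalRank.Quaternion
import Cfsg.Agent.Lib.FFModules.NormalRank.Parity

set_option autoImplicit false
set_option linter.style.haveILetI false
open Cfsg

namespace Cfsg.Agent.S2249

/-- The normal 2-rank of the general linear group over a finite field of odd order q: for n ≥ 1 and S a Sylow 2-subgroup of GL_n(F), the largest rank of an elementary abelian subgroup of S that is normal in S equals n when q ≡ 1 (mod 4) and ⌊(n + 1)/2⌋ when q ≡ 3 (mod 4). -/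
theorem result {F : Type*} [Field F] [Fintype F] {q : ℕ} (hF : Fintype.card F = q) (hodd : Odd q) (n : ℕ) (hn : 1 ≤ n) (S : Sylow 2 (Matrix.GeneralLinearGroup (Fin n) F)) :
    (q % 4 = 1 → ((∃ E : Subgroup ↥(S : Subgroup (Matrix.GeneralLinearGroup (Fin n) F)), E.Normal ∧ Cfsg.IsElementaryAbelian 2 E ∧ 2 ^ (n) ≤ Nat.card ↥E) ∧
      ∀ E : Subgroup ↥(S : Subgroup (Matrix.GeneralLinearGroup (Fin n) F)), E.Normal → Cfsg.IsElementaryAbelian 2 E → Nat.card ↥E ≤ 2 ^ (n))) ∧
    (q % 4 = 3 → ((∃ E : Subgroup ↥(S : Subgroup (Matrix.GeneralLinearGroup (Fin n) F)), E.Normal ∧ Cfsg.IsElementaryAbelian 2 E ∧ 2 ^ ((n + 1) / 2) ≤ Nat.card ↥E) ∧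
      ∀ E : Subgroup ↥(S : Subgroup (Matrix.GeneralLinearGroup (Fin n) F)), E.Normal → Cfsg.IsElementaryAbelian 2 E → Nat.card ↥E ≤ 2 ^ ((n + 1) / 2))) := by
  classical
  subst hF
  have h2 : (2 : F) ≠ 0 := by
    intro h
    have h1 : ringChar F = 2 := CharP.ringChar_of_prime_eq_zero Nat.prime_two (by exact_mod_cast h)
    exact Nat.not_even_iff_odd.2 hodd (Nat.even_iff.2 (FiniteField.even_card_of_char_two h1))
  -- existence, for blocks of size `d`
  have hex : ∀ d m δ : ℕ, 0 < d → δ ≤ 1 → n = d * m + δ →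
      ((Nat.card (GL (Fin n) F)).factorization 2 = m * (Nat.card (GL (Fin d) F)).factorization 2 +
        m.factorial.factorization 2 + (Nat.card (GL (Fin δ) F)).factorization 2) →
      ∃ E : Subgroup ↥(S : Subgroup (Matrix.GeneralLinearGroup (Fin n) F)), E.Normal ∧
        Cfsg.IsElementaryAbelian 2 E ∧ 2 ^ (m + δ) ≤ Nat.card ↥E := by
    intro d m δ hd hδ hdn hv
    haveI : Nonempty (Fin d) := ⟨⟨0, hd⟩⟩
    haveI : Subsingleton (Fin δ) := Fin.subsingleton_iff_le_one.2 hδ
    let e : (Fin d × Fin m) ⊕ Fin δ ≃ Fin n := Fintype.equivOfCardEq (by simp [hdn])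
    let ψ : GL ((Fin d × Fin m) ⊕ Fin δ) F ≃* GL (Fin n) F :=
      Units.mapEquiv (Matrix.reindexAlgEquiv F F e).toMulEquiv
    obtain ⟨he, hle, hn', hc⟩ := CfsgLib.FFModules.NormalRank.sign_range (κ := Fin d) (ι := Fin m) (D := Fin δ) h2
    set W₀ := (CfsgLib.FFModules.NormalRank.blockHom (F := F) (κ := Fin d) (ι := Fin m) (D := Fin δ)).range with hW₀
    set E₀ := (CfsgLib.FFModules.NormalRank.signHom (F := F) (κ := Fin d) (ι := Fin m) (D := Fin δ)).range with hE₀
    obtain ⟨E, hEn, hEe, hEc⟩ := CfsgLib.FFModules.NormalRank.exists_normal_of_odd_index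
      (W₀.map ψ.toMonoidHom) (E₀.map ψ.toMonoidHom)
      (by
        refine CfsgLib.FFModules.NormalRank.not_dvd_index_of_factorization _ ?_
        rw [← Nat.card_congr (W₀.equivMapOfInjective ψ.toMonoidHom ψ.injective).toEquiv, hW₀,
          CfsgLib.FFModules.NormalRank.card_blockHom_range, Fintype.card_fin, hv,
          Nat.factorization_mul (mul_ne_zero (pow_ne_zero _ Nat.card_pos.ne') m.factorial_ne_zero) Nat.card_pos.ne',
          Nat.factorization_mul (pow_ne_zero _ Nat.card_pos.ne') m.factorial_ne_zero, Nat.factorization_pow]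
        simp)
      ⟨⟨⟨fun a b => by
        obtain ⟨x, hx, ea⟩ := a.2
        obtain ⟨y, hy, eb⟩ := b.2
        refine Subtype.ext ?_
        show a.1 * b.1 = b.1 * a.1
        rw [← ea, ← eb, ← map_mul, ← map_mul]
        exact congrArg _ (congrArg Subtype.val (he.1.1.1 ⟨x, hx⟩ ⟨y, hy⟩))⟩⟩,
        fun a ha => by
        obtain ⟨x, hx, rfl⟩ := ha
        rw [← map_pow, he.2 x hx, map_one]⟩
      (Subgroup.map_mono hle)
      ((Subgroup.map_mono hn').trans (Subgroup.le_normalizer_map _)) S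
    refine ⟨E, hEn, hEe, ?_⟩
    rw [hEc, ← Nat.card_congr (E₀.equivMapOfInjective ψ.toMonoidHom ψ.injective).toEquiv, hc, Fintype.card_fin,
      Fintype.card_fin]
  refine ⟨fun h4 => ⟨?_, fun E _ hE => ?_⟩, fun h4 => ⟨?_, fun E hEn hE => ?_⟩⟩
  · have := hex 1 n 0 one_pos zero_le_one (by omega) (by
      rw [CfsgLib.FFModules.NormalRank.factorization_card_GL_split rfl h4,
        CfsgLib.FFModules.NormalRank.factorization_card_GL_one rfl hodd,
        CfsgLib.FFModules.NormalRank.factorization_card_GL_zero, add_zero])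
    simpa using this
  · have := CfsgLib.FFModules.NormalRank.card_le_of_elementary
      ((Subgroup.subtype _).comp E.subtype) ((Subgroup.subtype_injective _).comp (Subgroup.subtype_injective _)) h2
      ⟨⟨⟨fun a b => Subtype.ext (hE.1.1.1 a.1 b.1)⟩⟩, fun a _ => Subtype.ext (hE.2 _ a.2)⟩
    rwa [Fintype.card_fin] at this
  · rw [show (n + 1) / 2 = n / 2 + n % 2 by omega]
    exact hex 2 (n / 2) (n % 2) two_pos (by omega) (by omega)
      (CfsgLib.FFModules.NormalRank.factorization_card_GL_twos rfl h4 n)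
  · haveI := hEn
    let e : Fin n ≃ (Fin 2 × Fin (n / 2)) ⊕ Fin (n % 2) :=
      Fintype.equivOfCardEq (by simp; omega)
    have := CfsgLib.FFModules.NormalRank.card_le_of_blocks_two
      (Units.mapEquiv (Matrix.reindexAlgEquiv F F e).toMulEquiv) h2
      (fun c hc => by
        have hsq : IsSquare (-1 : F) := ⟨c, by linear_combination -hc⟩
        exact FiniteField.isSquare_neg_one_iff.1 hsq h4) S E hE
    rw [show (n + 1) / 2 = n / 2 + n % 2 by omega]
    simpa using this

end Cfsg.Agent.S2249
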