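import Cfsg.Statements.S2250
import Cfsg.Agent.Lib.FFModules.NormalRank.Basic
import Cfsg.Agent.Lib.Classes.SympWreath
import Cfsg.Agent.Lib.ClassicalLinear.SympBasic

set_option autoImplicit false
open Cfsg

namespace Cfsg.Agent.S2250

/-- The normal 2-rank of the symplectic group over a finite field of odd order: for n ≥ 1 and S a Sylow 2-subgroup of Sp_{2n}(F), the largest rank of an elementary abelian subgroup of S that is normal in S equals n. -/
theorem result {F : Type*} [Field F] [Fintype F] (hF : Odd (Fintype.card F)) (n : ℕ) (hn : 1 ≤ n) (S : Sylow 2 ↥(Matrix.symplecticGroup (Fin n) F)) :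
    ((∃ E : Subgroup ↥(S : Subgroup ↥(Matrix.symplecticGroup (Fin n) F)), E.Normal ∧ Cfsg.IsElementaryAbelian 2 E ∧ 2 ^ (n) ≤ Nat.card ↥E) ∧
      ∀ E : Subgroup ↥(S : Subgroup ↥(Matrix.symplecticGroup (Fin n) F)), E.Normal → Cfsg.IsElementaryAbelian 2 E → Nat.card ↥E ≤ 2 ^ (n)) := by
  classical
  have h2 : (2 : F) ≠ 0 := by
    intro h
    have h1 : ringChar F = 2 := CharP.ringChar_of_prime_eq_zero Nat.prime_two (by exact_mod_cast h)
    exact Nat.not_even_iff_odd.2 hF (Nat.even_iff.2 (FiniteField.even_card_of_char_two h1))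
  have hq : Odd (Fintype.card F) := hF
  refine ⟨?_, fun E _ hE => ?_⟩
  · -- the diagonal sign matrices in the base of the wreath product
    let neg : Matrix.SpecialLinearGroup (Fin 2) F :=
      ⟨-1, by simp [Matrix.det_fin_two]⟩
    have hneg2 : neg * neg = 1 := Subtype.ext (by
      show (-1 : Matrix (Fin 2) (Fin 2) F) * -1 = 1
      simp)
    have hneg1 : neg ≠ 1 := fun e => by
      have h1 := congrArg (fun g : Matrix.SpecialLinearGroup (Fin 2) F =>
        (g : Matrix (Fin 2) (Fin 2) F) 0 0) e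
      simp only [neg, Matrix.neg_apply, Matrix.one_apply_eq,
        Matrix.SpecialLinearGroup.coe_one] at h1
      exact h2 (by linear_combination -h1)
    have hnegc : ∀ g : Matrix.SpecialLinearGroup (Fin 2) F, g * neg = neg * g := fun g =>
      Subtype.ext (by
        show (g : Matrix (Fin 2) (Fin 2) F) * -1 = -1 * (g : Matrix (Fin 2) (Fin 2) F)
        simp)
    let Z : Subgroup (Matrix.SpecialLinearGroup (Fin 2) F) :=
      { carrier := {1, neg}
        one_mem' := Or.inl rfl
        mul_mem' := by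
          rintro a b (rfl | rfl) (rfl | rfl)
          · exact Or.inl (mul_one _)
          · exact Or.inr (one_mul _)
          · exact Or.inr (mul_one _)
          · exact Or.inl hneg2
        inv_mem' := by
          rintro a (rfl | rfl)
          · exact Or.inl inv_one
          · exact Or.inr (inv_eq_of_mul_eq_one_right hneg2) }
    have hZ : ∀ z ∈ Z, ∀ g : Matrix.SpecialLinearGroup (Fin 2) F, g * z = z * g := by
      rintro z (rfl | rfl) g
      · rw [mul_one, one_mul]
      · exact hnegc g
    have hZsq : ∀ z ∈ Z, z * z = 1 := by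
      rintro z (rfl | rfl)
      · exact one_mul 1
      · exact hneg2
    let E₁ : Subgroup (CfsgLib.Classes.DerivedWreath.Wr (Matrix.SpecialLinearGroup (Fin 2) F) (Fin n)) :=
      (Subgroup.pi Set.univ fun _ : Fin n => Z).map SemidirectProduct.inl
    have hmem : ∀ x ∈ E₁, x.right = 1 ∧ ∀ i, x.left i ∈ Z := by
      rintro _ ⟨f, hf, rfl⟩
      exact ⟨rfl, fun i => hf i (Set.mem_univ i)⟩
    have hnorm : E₁.Normal := ⟨fun x hx g => by
      obtain ⟨f, hf, rfl⟩ := hx
      refine ⟨fun i => f (g.right.symm i), fun i _ => hf _ (Set.mem_univ _), ?_⟩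
      refine SemidirectProduct.ext (funext fun i => ?_) ?_
      · simp only [SemidirectProduct.mul_left, SemidirectProduct.left_inl, SemidirectProduct.mul_right,
          SemidirectProduct.right_inl, mul_one, SemidirectProduct.inv_left, Pi.mul_apply,
          CfsgLib.Classes.DerivedWreath.permCoord_apply]
        rw [hZ _ (hf _ (Set.mem_univ _)) (g.left i), mul_assoc]
        simp [Equiv.Perm.inv_def]
      · simp⟩
    have hEab : Cfsg.IsElementaryAbelian 2 E₁ := by
      refine ⟨⟨⟨fun a b => ?_⟩⟩, fun a ha => ?_⟩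
      · obtain ⟨f, hf, ea⟩ := a.2
        obtain ⟨f', hf', eb⟩ := b.2
        refine Subtype.ext ?_
        show a.1 * b.1 = b.1 * a.1
        rw [← ea, ← eb, ← map_mul, ← map_mul]
        exact congrArg _ (funext fun i => hZ _ (hf' i (Set.mem_univ i)) _)
      · obtain ⟨f, hf, rfl⟩ := ha
        rw [← map_pow, sq, show f * f = 1 from funext fun i => hZsq _ (hf i (Set.mem_univ i)), map_one]
    have hcard : Nat.card E₁ = 2 ^ n := by
      rw [← Nat.card_congr ((Subgroup.pi Set.univ fun _ : Fin n => Z).equivMapOfInjective _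
        SemidirectProduct.inl_injective).toEquiv]
      have e : (Subgroup.pi Set.univ fun _ : Fin n => Z) ≃ (Fin n → Z) :=
        { toFun := fun f i => ⟨(f : Fin n → _) i, f.2 i (Set.mem_univ i)⟩
          invFun := fun f => ⟨fun i => f i, fun i _ => (f i).2⟩
          left_inv := fun f => rfl
          right_inv := fun f => rfl }
      rw [Nat.card_congr e, Nat.card_fun, Nat.card_fin]
      congr 1
      show Nat.card ↥({1, neg} : Set (Matrix.SpecialLinearGroup (Fin 2) F)) = 2
      rw [Nat.card_coe_set_eq, Set.ncard_pair hneg1.symm]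
    set φ := CfsgLib.Classes.SympWreath.toSp n F with hφ
    obtain ⟨E, hEn, hEe, hEc⟩ := CfsgLib.FFModules.NormalRank.exists_normal_of_odd_index φ.range
      (E₁.map φ) (CfsgLib.Classes.SympWreath.toSp_index hq)
      ⟨⟨⟨fun a b => by
        obtain ⟨x, hx, ea⟩ := a.2
        obtain ⟨y, hy, eb⟩ := b.2
        refine Subtype.ext ?_
        show a.1 * b.1 = b.1 * a.1
        rw [← ea, ← eb, ← map_mul, ← map_mul]
        exact congrArg φ (congrArg Subtype.val (hEab.1.1.1 ⟨x, hx⟩ ⟨y, hy⟩))⟩⟩,
        fun a ha => by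
        obtain ⟨x, hx, rfl⟩ := ha
        rw [← map_pow, hEab.2 x hx, map_one]⟩
      (Subgroup.map_le_range _ _)
      (by
        rintro _ ⟨g, rfl⟩
        rw [Subgroup.mem_normalizer_iff]
        intro y
        constructor
        · rintro ⟨x, hx, rfl⟩
          exact ⟨g * x * g⁻¹, hnorm.conj_mem x hx g, by simp⟩
        · rintro ⟨x, hx, e⟩
          refine ⟨g⁻¹ * x * g, by simpa using hnorm.conj_mem x hx g⁻¹, ?_⟩
          simp [e, mul_assoc]) S
    refine ⟨E, hEn, hEe, ?_⟩
    rw [hEc, ← Nat.card_congr (E₁.equivMapOfInjective φ CfsgLib.Classes.SympWreath.toSp_injective).toEquiv,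
      hcard]
  · -- the rank bound
    let ι : E →* Matrix (Fin n ⊕ Fin n) (Fin n ⊕ Fin n) F :=
      (Cfsg.spToMat n F).comp ((Subgroup.subtype _).comp E.subtype)
    let ρ : E →* Module.End F (Fin n ⊕ Fin n → F) :=
      (Matrix.toLinAlgEquiv' (R := F) (n := Fin n ⊕ Fin n)).toRingEquiv.toMonoidHom.comp ι
    have hρ : ∀ (a : E) (v : Fin n ⊕ Fin n → F),
        ρ a v = ((a : ↥(S : Subgroup ↥(Matrix.symplecticGroup (Fin n) F))) : ↥(Matrix.symplecticGroup (Fin n) F)) • v :=
      fun a v => Matrix.toLin'_apply _ v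
    set P : Submodule F (Fin n ⊕ Fin n → F) → Prop := fun U =>
      ∀ u ∈ U, (∀ v ∈ U, Cfsg.sympForm n F u v = 0) → u = 0 with hP
    have key := CfsgLib.FFModules.NormalRank.index_kerOn_le ρ h2
      (fun a b => hE.1.1.1 a b) (fun a => Subtype.ext (by simpa [sq] using hE.2 _ a.2)) 2 two_pos P
      ?_ ?_ ⊤ ?_ (fun a u _ => Submodule.mem_top)
    · rw [finrank_top, Module.finrank_fintype_fun_eq_card, Fintype.card_sum, Fintype.card_fin,
        show (n + n) / 2 = n by omega] at key
      have hbot : CfsgLib.FFModules.NormalRank.kerOn ρ (⊤ : Submodule F (Fin n ⊕ Fin n → F)) = ⊥ := by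
        refine (Subgroup.eq_bot_iff_forall _).2 fun a ha => Subtype.ext (Subtype.ext ?_)
        refine CfsgLib.ClassicalLinear.sp_ext fun v => ?_
        rw [← hρ, ha v Submodule.mem_top]
        exact (one_smul _ v).symm
      rwa [hbot, Subgroup.index_bot] at key
    · intro U hU hinv a
      have haa : ∀ u, ρ a (ρ a u) = u := fun u => by
        rw [← Module.End.mul_apply, ← map_mul,
          show a * a = 1 from Subtype.ext (by simpa [sq] using hE.2 _ a.2), map_one, Module.End.one_apply]
      have hform : ∀ u v, Cfsg.sympForm n F (ρ a u) (ρ a v) = Cfsg.sympForm n F u v := fun u v => by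
        rw [hρ, hρ, CfsgLib.ClassicalLinear.sympForm_smul]
      have hsplit : ∀ v ∈ U, ∃ x y, x ∈ U ∧ y ∈ U ∧ ρ a x = x ∧ ρ a y = -y ∧ x + y = v := fun v hv => by
        refine ⟨(2 : F)⁻¹ • (v + ρ a v), (2 : F)⁻¹ • (v - ρ a v),
          U.smul_mem _ (U.add_mem hv (hinv a v hv)), U.smul_mem _ (U.sub_mem hv (hinv a v hv)),
          ?_, ?_, ?_⟩
        · rw [map_smul, map_add, haa, add_comm]
        · rw [map_smul, map_sub, haa, ← smul_neg, neg_sub]
        · rw [← smul_add, add_add_sub_cancel, ← two_smul F, smul_smul, inv_mul_cancel₀ h2, one_smul]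
      have horth : ∀ x y, ρ a x = x → ρ a y = -y →
          Cfsg.sympForm n F x y = 0 ∧ Cfsg.sympForm n F y x = 0 := fun x y hx hy => by
        have e := hform x y
        rw [hx, hy, ← neg_one_smul F, CfsgLib.ClassicalLinear.sympForm_smul_right] at e
        have h0 : Cfsg.sympForm n F x y = 0 := by
          have : (2 : F) * Cfsg.sympForm n F x y = 0 := by linear_combination -e
          exact (mul_eq_zero.1 this).resolve_left h2
        exact ⟨h0, by rw [CfsgLib.ClassicalLinear.sympForm_skew, h0, neg_zero]⟩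
      have hmp : ∀ u, u ∈ LinearMap.ker (ρ a - 1) ↔ ρ a u = u := fun u => by
        rw [LinearMap.mem_ker, LinearMap.sub_apply, sub_eq_zero, Module.End.one_apply]
      have hmm : ∀ u, u ∈ LinearMap.ker (ρ a + 1) ↔ ρ a u = -u := fun u => by
        rw [LinearMap.mem_ker, LinearMap.add_apply, Module.End.one_apply, add_eq_zero_iff_eq_neg]
      refine ⟨fun u hu h0 => hU u hu.1 fun v hv => ?_, fun u hu h0 => hU u hu.1 fun v hv => ?_⟩
      all_goals obtain ⟨x, y, hx, hy, hax, hay, rfl⟩ := hsplit v hv
      all_goals rw [CfsgLib.ClassicalLinear.sympForm_add_right]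
      · rw [h0 x ⟨hx, (hmp x).2 hax⟩, (horth u y ((hmp u).1 hu.2) hay).1, add_zero]
      · rw [h0 y ⟨hy, (hmm y).2 hay⟩, (horth x u hax ((hmm u).1 hu.2)).2, zero_add]
    · intro U hU hne
      obtain ⟨u, hu, hu0⟩ := Submodule.exists_mem_ne_zero_of_ne_bot hne
      obtain ⟨v, hv, hv0⟩ : ∃ v ∈ U, Cfsg.sympForm n F u v ≠ 0 := by
        by_contra hc
        push Not at hc
        exact hu0 (hU u hu hc)
      have hli : LinearIndependent F ![(⟨u, hu⟩ : U), ⟨v, hv⟩] := by
        refine (LinearIndependent.pair_iff' fun e => hu0 (congrArg Subtype.val e)).2 fun c e => hv0 ?_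
        rw [← show c • u = v from congrArg Subtype.val e, CfsgLib.ClassicalLinear.sympForm_smul_right,
          CfsgLib.ClassicalLinear.sympForm_self, mul_zero]
      simpa using hli.fintype_card_le_finrank
    · intro u _ hu
      by_contra hu0
      obtain ⟨w, hw⟩ := CfsgLib.ClassicalLinear.exists_sympForm_eq_one hu0
      exact one_ne_zero (hw.symm.trans (hu w Submodule.mem_top))

end Cfsg.Agent.S2250
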