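import Cfsg.Statements.S2251
import Cfsg.Agent.Lib.Suzuki.SubApp

set_option autoImplicit false
open Cfsg

namespace Cfsg.Agent.S2251

/-- The subgroups of the Suzuki group: with q = 2^(2m+1), m ≥ 1, r = 2^m and the group realised as the stabiliser in SL₄ of the Suzuki–Tits ovoid, every proper subgroup is contained in the normalizer of a Sylow 2-subgroup, or in the normalizer of a cyclic subgroup of order q − 1, q + 2r + 1 or q − 2r + 1, or in a subgroup isomorphic to a smaller Suzuki group Sz(s) with s = 2^(2k+1) ≥ 8 and 2k+1 a proper divisor of 2m+1. -/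
theorem result {F : Type*} [Field F] [Fintype F] {m : ℕ} (hm : 1 ≤ m) (hF : Fintype.card F = 2 ^ (2 * m + 1)) (M : Subgroup ↥(Cfsg.Sz F m)) (hM : M ≠ ⊤) :
    (∃ P : Sylow 2 ↥(Cfsg.Sz F m), M ≤ Subgroup.normalizer ((P : Subgroup ↥(Cfsg.Sz F m)) : Set ↥(Cfsg.Sz F m))) ∨
    (∃ U : Subgroup ↥(Cfsg.Sz F m), IsCyclic ↥U ∧ Nat.card ↥U ∈ ({2 ^ (2 * m + 1) - 1, 2 ^ (2 * m + 1) + 2 ^ (m + 1) + 1, 2 ^ (2 * m + 1) - 2 ^ (m + 1) + 1} : Set ℕ) ∧
      M ≤ Subgroup.normalizer (U : Set ↥(Cfsg.Sz F m))) ∨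
    (∃ (K : Type) (_ : Field K) (_ : Fintype K) (k : ℕ), 1 ≤ k ∧ k < m ∧ Fintype.card K = 2 ^ (2 * k + 1) ∧ 2 * k + 1 ∣ 2 * m + 1 ∧
      ∃ S : Subgroup ↥(Cfsg.Sz F m), Nonempty (↥S ≃* ↥(Cfsg.Sz K k)) ∧ M ≤ S) := by
  have h : CfsgLib.Suzuki.Hyp F m := .of_fintype hm hF
  rcases h.sub_classify M with ⟨p, hp⟩ | ⟨g, hg, hgo, hle⟩ | ⟨k, c, hk, hdiv, hor, he⟩
  · obtain ⟨P, hP⟩ := h.exists_sylow_normalizer p
    exact Or.inl ⟨P, hP ▸ hp⟩
  · exact Or.inr (Or.inl ⟨_, h.isCyclic_centralizer_of_odd hg hgo, h.centralizer_card_mem hg hgo, hle⟩)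
  · have : Fact (Nat.Prime 2) := ⟨Nat.prime_two⟩
    have hkm : k < m := hor.resolve_right hM
    have hK : CfsgLib.Suzuki.Hyp (GaloisField 2 (2 * k + 1)) k := ⟨hk, GaloisField.card 2 (2 * k + 1) (by omega)⟩
    have := hK.finite
    have : Fintype (GaloisField 2 (2 * k + 1)) := Fintype.ofFinite _
    refine Or.inr (Or.inr ⟨GaloisField 2 (2 * k + 1), inferInstance, this, k, hk, hkm,
      by rw [← Nat.card_eq_fintype_card, hK.card], hdiv, M, ?_, le_rfl⟩)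
    obtain ⟨e⟩ := CfsgLib.Suzuki.Hyp.exists_equiv hK h hdiv
    exact ⟨((M.equivMapOfInjective (MulAut.conj c).toMonoidHom (MulAut.conj c).injective).trans
      (MulEquiv.subgroupCongr he)).trans e.symm⟩

end Cfsg.Agent.S2251
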