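import Cfsg.Statements.S2254
import Cfsg.Agent.Lib.OutAut.NilpotentPermMax

set_option autoImplicit false
open Cfsg CfsgLib.OutAut CfsgLib.OutAut.NilArith

namespace Cfsg.Agent.S2254

/-- Let n ≡ 3 (mod 4). Then every nilpotent subgroup of the symmetric group on n letters has order at most 3 times the order of a Sylow 2-subgroup of the symmetric group on n − 3 letters; the bound is attained by a nilpotent subgroup isomorphic to the direct product of such a Sylow 2-subgroup with a cyclic group of order 3; and any two nilpotent subgroups attaining the bound are conjugate. -/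
theorem result  (n : ℕ) (hn : n % 4 = 3)
    (P : Sylow 2 (Equiv.Perm (Fin (n - 3)))) :
    (∀ N : Subgroup (Equiv.Perm (Fin n)), Group.IsNilpotent N → Nat.card N ≤ 3 * Nat.card P) ∧
    (∃ M : Subgroup (Equiv.Perm (Fin n)), Group.IsNilpotent M ∧ Nat.card M = 3 * Nat.card P ∧
      Nonempty (M ≃* (↥(P : Subgroup (Equiv.Perm (Fin (n - 3)))) × Multiplicative (ZMod 3)))) ∧
    (∀ N₁ N₂ : Subgroup (Equiv.Perm (Fin n)), Group.IsNilpotent N₁ → Group.IsNilpotent N₂ →
      Nat.card N₁ = 3 * Nat.card P → Nat.card N₂ = 3 * Nat.card P →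
      ∃ g : Equiv.Perm (Fin n), N₂ = N₁.map (MulAut.conj g).toMonoidHom) := by
  have hP := sylowTwo_perm_card (n - 3) P
  refine ⟨fun N hN => ?_, ?_, fun N₁ N₂ h₁ h₂ c₁ c₂ => ?_⟩
  · have h := (nilpotent_bound N hN).1.le
    rw [Fintype.card_fin, H_of_three hn] at h
    omega
  · exact exists_three_image ((threeEmbed (by omega : 3 ≤ n)).comp
      ((alternatingGroup (Fin 3)).subtype.prodMap (MonoidHom.id _)))
      ((threeEmbed_injective (by omega : 3 ≤ n)).comp (Function.Injective.prodMap Subtype.val_injective Function.injective_id))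
      card_altThree P
  · have ht : ∀ N : Subgroup (Equiv.Perm (Fin n)), Group.IsNilpotent N →
        Nat.card N = 3 * Nat.card P → HasThree N := fun N hN hc =>
      (nilpotent_bound N hN).1.three (by rw [Fintype.card_fin, H_of_three hn, hc, hP])
        (by rw [Fintype.card_fin]; exact hn)
    rw [hP] at c₁ c₂
    obtain ⟨g, -, -, -, hg, -⟩ := conj_of_three (⊤ : Subgroup (Equiv.Perm (Fin n)))
      (fun c hc T => by rw [inf_top_eq, centSylow_card hc, Fintype.card_fin]) h₁ h₂ le_top le_top
      (ht N₁ h₁ (by rw [hP, c₁])) (ht N₂ h₂ (by rw [hP, c₂])) c₁ c₂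
    exact ⟨g, hg⟩

end Cfsg.Agent.S2254
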