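import Cfsg.Statements.S2255
import Cfsg.Agent.Lib.OutAut.NilpotentPermMax

set_option autoImplicit false
open Cfsg CfsgLib.OutAut CfsgLib.OutAut.NilArith

namespace Cfsg.Agent.S2255

/-- Let n be a natural number not congruent to 3 modulo 4, with n ∉ {5, 6, 9}. Then every nilpotent subgroup of the alternating group on n letters has order at most the order of a Sylow 2-subgroup of the alternating group (so the nilpotent subgroups of largest order are exactly the Sylow 2-subgroups). -/
theorem result  (n : ℕ) (hn : n % 4 ≠ 3)
    (h5 : n ≠ 5) (h6 : n ≠ 6) (h9 : n ≠ 9)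
    (N : Subgroup (alternatingGroup (Fin n))) (hN : Group.IsNilpotent N)
    (P : Sylow 2 (alternatingGroup (Fin n))) :
    Nat.card N ≤ Nat.card P := by
  rcases Nat.lt_or_ge n 2 with h2 | h2
  · haveI : Subsingleton (Equiv.Perm (Fin n)) := by
      have : Subsingleton (Fin n) := Fin.subsingleton_iff_le_one.2 (by omega)
      infer_instance
    rw [Nat.card_unique (α := N)]
    exact Nat.card_pos
  set N' := N.map (alternatingGroup (Fin n)).subtype with hN'
  have e := N.equivMapOfInjective (alternatingGroup (Fin n)).subtype Subtype.val_injective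
  have hnil : Group.IsNilpotent N' :=
    Group.nilpotent_of_surjective (h := hN) e.toMonoidHom e.surjective
  have hcard : Nat.card N' = Nat.card N := Subgroup.card_subtype _ N
  have h := (nilpotent_bound N' hnil).2 (Subgroup.map_subtype_le N)
  rw [AltBound, Fintype.card_fin, H_of_ne hn, hcard, ← two_mul_sylowTwo_alt_card h2 P] at h
  rcases h with h | ⟨h, -⟩ | h
  · omega
  · omega
  · rcases h with h | h | h | h | h <;> omega

end Cfsg.Agent.S2255
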