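import Cfsg.Statements.S2256
import Cfsg.Agent.Lib.OutAut.NilpotentPermMax

set_option autoImplicit false
open Cfsg CfsgLib.OutAut CfsgLib.OutAut.NilArith

namespace Cfsg.Agent.S2256

/-- Let n ≡ 3 (mod 4) with n ≥ 7. Then every nilpotent subgroup of the alternating group on n letters has order at most 3 times the order of a Sylow 2-subgroup of the alternating group on n − 3 letters; the bound is attained by a nilpotent subgroup isomorphic to the direct product of such a Sylow 2-subgroup with a cyclic group of order 3; and any two nilpotent subgroups of the alternating group attaining the bound are conjugate in it. -/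
theorem result  (n : ℕ) (hn : n % 4 = 3) (h7 : 7 ≤ n)
    (P : Sylow 2 (alternatingGroup (Fin (n - 3)))) :
    (∀ N : Subgroup (alternatingGroup (Fin n)), Group.IsNilpotent N → Nat.card N ≤ 3 * Nat.card P) ∧
    (∃ M : Subgroup (alternatingGroup (Fin n)), Group.IsNilpotent M ∧ Nat.card M = 3 * Nat.card P ∧
      Nonempty (M ≃* (↥(P : Subgroup (alternatingGroup (Fin (n - 3)))) × Multiplicative (ZMod 3)))) ∧
    (∀ N₁ N₂ : Subgroup (alternatingGroup (Fin n)), Group.IsNilpotent N₁ → Group.IsNilpotent N₂ →
      Nat.card N₁ = 3 * Nat.card P → Nat.card N₂ = 3 * Nat.card P →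
      ∃ g : alternatingGroup (Fin n), N₂ = N₁.map (MulAut.conj g).toMonoidHom) := by
  have hP := two_mul_sylowTwo_alt_card (show 2 ≤ n - 3 by omega) P
  obtain ⟨i, hi⟩ : ∃ i, Nat.card P = 2 ^ i := IsPGroup.iff_card.1 P.isPGroup'
  have hn5 : 5 ≤ Fintype.card (Fin n) := by rw [Fintype.card_fin]; omega
  have conv : ∀ N : Subgroup (alternatingGroup (Fin n)), Group.IsNilpotent N →
      Group.IsNilpotent (N.map (alternatingGroup (Fin n)).subtype) ∧
      Nat.card (N.map (alternatingGroup (Fin n)).subtype) = Nat.card N := fun N hN =>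
    ⟨Group.nilpotent_of_surjective (h := hN)
      (N.equivMapOfInjective (alternatingGroup (Fin n)).subtype Subtype.val_injective).toMonoidHom
      (N.equivMapOfInjective (alternatingGroup (Fin n)).subtype Subtype.val_injective).surjective, Subgroup.card_subtype _ N⟩
  have bound : ∀ N : Subgroup (alternatingGroup (Fin n)), Group.IsNilpotent N →
      Nat.card N ≤ 3 * Nat.card P ∧
      (Nat.card N = 3 * Nat.card P → HasThree (N.map (alternatingGroup (Fin n)).subtype)) := by
    intro N hN
    have h := (nilpotent_bound _ (conv N hN).1).2 (Subgroup.map_subtype_le N)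
    rw [AltBound, Fintype.card_fin, H_of_three hn, (conv N hN).2, ← hP] at h
    rcases h with h | ⟨h, h'⟩ | h
    · exact ⟨by omega, fun e => by omega⟩
    · exact ⟨by omega, fun _ => h' hn⟩
    · rcases h with h | h | h | h | h <;> omega
  refine ⟨fun N hN => (bound N hN).1, ?_, fun N₁ N₂ h₁ h₂ c₁ c₂ => ?_⟩
  · refine exists_three_image (((threeEmbed (by omega : 3 ≤ n)).comp
      ((alternatingGroup (Fin 3)).subtype.prodMap (alternatingGroup (Fin (n - 3))).subtype)).codRestrict
        (alternatingGroup (Fin n)) fun x => ?_) ?_ card_altThree P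
    · rw [Equiv.Perm.mem_alternatingGroup, MonoidHom.comp_apply, sign_threeEmbed]
      show Equiv.Perm.sign (x.1 : Equiv.Perm (Fin 3)) * Equiv.Perm.sign (x.2 : Equiv.Perm (Fin (n - 3))) = 1
      rw [Equiv.Perm.mem_alternatingGroup.1 x.1.2, Equiv.Perm.mem_alternatingGroup.1 x.2.2, mul_one]
    · intro x y he
      exact (Function.Injective.prodMap Subtype.val_injective Subtype.val_injective)
        (threeEmbed_injective (by omega : 3 ≤ n) (congrArg Subtype.val he))
  · obtain ⟨g, c, T, hc, hg, hT⟩ := conj_of_three (alternatingGroup (Fin n)) (i := i)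
      (fun c hc T => by
        have := centSylow_inf_alt_card hc hn5 T
        rw [Fintype.card_fin, ← hP, hi] at this
        omega)
      (conv N₁ h₁).1 (conv N₂ h₂).1 (Subgroup.map_subtype_le N₁) (Subgroup.map_subtype_le N₂)
      ((bound N₁ h₁).2 c₁) ((bound N₂ h₂).2 c₂) (by rw [(conv N₁ h₁).2, c₁, hi])
      (by rw [(conv N₂ h₂).2, c₂, hi])
    obtain ⟨g', hg', hmap⟩ : ∃ g' ∈ alternatingGroup (Fin n),
        N₂.map (alternatingGroup (Fin n)).subtype =
          (N₁.map (alternatingGroup (Fin n)).subtype).map (MulAut.conj g').toMonoidHom := by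
      rcases Int.units_eq_one_or (Equiv.Perm.sign g) with h | h
      · exact ⟨g, Equiv.Perm.mem_alternatingGroup.2 h, hg⟩
      obtain ⟨t, ht, hts⟩ := exists_odd_centSylow hc hn5 T
      refine ⟨t * g, Equiv.Perm.mem_alternatingGroup.2 (by rw [map_mul, hts, h]; rfl), ?_⟩
      calc N₂.map (alternatingGroup (Fin n)).subtype
          = (N₂.map (alternatingGroup (Fin n)).subtype).map (MulAut.conj t).toMonoidHom := (hT t ht).symm
        _ = _ := by rw [hg, Subgroup.map_map, map_mul]; rfl
    refine ⟨⟨g', hg'⟩, ?_⟩
    apply Subgroup.map_injective (f := (alternatingGroup (Fin n)).subtype) Subtype.val_injective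
    rw [hmap, Subgroup.map_map, Subgroup.map_map]
    rfl

end Cfsg.Agent.S2256
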