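import Cfsg.Statements.S2257
import Cfsg.Agent.Lib.OutAut.PSL2SolFinal

set_option autoImplicit false
open Cfsg CfsgLib.OutAut CfsgLib.SL2 CfsgLib.SL2.Dickson
open CfsgLib.ClassicalLinear (upS upS_coe upS_add)

namespace Cfsg.Agent.S2257

/-- Let G = PSL_2(F) with F a field of order q = 2^p, p prime, and for x ∈ G call the solubilizer of x the set of y ∈ G such that x and y generate a solvable subgroup. Then the solubilizer of an involution has 3q(q − 1) elements; that of a non-identity element of order dividing q − 1 has 2q(q − 1) elements; and that of a non-identity element of order dividing q + 1 has 2(q + 1) elements. -/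
theorem result (p : ℕ) (hp : p.Prime) {F : Type*} [Field F] [Fintype F]
    (hF : Fintype.card F = 2 ^ p) (x : Matrix.ProjectiveSpecialLinearGroup (Fin 2) F) :
    (orderOf x = 2 → Nat.card {y : Matrix.ProjectiveSpecialLinearGroup (Fin 2) F // Group.IsSolvable ↥(Subgroup.closure ({x, y} : Set (Matrix.ProjectiveSpecialLinearGroup (Fin 2) F)))} = 3 * 2 ^ p * (2 ^ p - 1)) ∧
    (x ≠ 1 → orderOf x ∣ 2 ^ p - 1 → Nat.card {y : Matrix.ProjectiveSpecialLinearGroup (Fin 2) F // Group.IsSolvable ↥(Subgroup.closure ({x, y} : Set (Matrix.ProjectiveSpecialLinearGroup (Fin 2) F)))} = 2 * 2 ^ p * (2 ^ p - 1)) ∧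
    (x ≠ 1 → orderOf x ∣ 2 ^ p + 1 → Nat.card {y : Matrix.ProjectiveSpecialLinearGroup (Fin 2) F // Group.IsSolvable ↥(Subgroup.closure ({x, y} : Set (Matrix.ProjectiveSpecialLinearGroup (Fin 2) F)))} = 2 * (2 ^ p + 1)) := by
  classical
  haveI : Fact p.Prime := ⟨hp⟩
  haveI : Fact (Nat.Prime 2) := ⟨Nat.prime_two⟩
  haveI : CharP F 2 := charP_of_card_eq_prime_pow (f := p) hF
  have h2 : (2 : F) = 0 := by simpa using CharP.cast_eq_zero F 2
  have hq : Nat.card F = 2 ^ p := by rw [Nat.card_eq_fintype_card, hF]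
  obtain ⟨X, rfl⟩ := proj_surjective x
  have hN := solCard_eq X
  have hε : Nat.card (Subgroup.center (Matrix.SpecialLinearGroup (Fin 2) F)) = 1 := by
    rw [center_eq_bot_of_two h2, Subgroup.card_bot]
  rw [hε, one_mul] at hN
  rw [← hN]
  have hA : (2 : F) ≠ 0 → ∀ t s : F, (s = 0 ∨ s = 2 ∨ s = -2) →
      (t = s ∨ t ^ 2 - 2 = s ∨ t ^ 3 - 3 * t = s) → t = 0 ∨ t ^ 2 = 4 := fun h => absurd h2 h
  have key : tr X ^ 2 = 4 → orderOf (proj X) ∣ 2 := fun h =>
    orderOf_dvd_of_pow_eq_one (tr_sq_eq_four_iff_pow (p := 2) h)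
  have hss : ∀ m : ℕ, ¬ 2 ∣ m → proj X ≠ 1 → orderOf (proj X) ∣ m →
      tr X ^ 2 ≠ 4 ∧ tr X ≠ 0 ∧ orderOf (proj X) ≠ 1 ∧ orderOf (proj X) ≠ 2 := by
    intro m hm hx hd
    have hx1 : orderOf (proj X) ≠ 1 := fun h => hx (orderOf_eq_one_iff.1 h)
    have hx2 : orderOf (proj X) ≠ 2 := fun h => hm (h ▸ hd)
    have h4 : tr X ^ 2 ≠ 4 := by
      intro h
      rcases (Nat.dvd_prime Nat.prime_two).1 (key h) with e | e
      · exact hx1 e
      · exact hx2 e
    refine ⟨h4, ?_, hx1, hx2⟩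
    intro h
    exact h4 (by rw [h]; linear_combination -(2 : F) * h2)
  have heven : 2 ∣ 2 ^ p := dvd_pow_self 2 hp.ne_zero
  have hpos : 0 < 2 ^ p := by positivity
  refine ⟨?_, ?_, ?_⟩
  · intro ho
    have hne : proj X ≠ 1 := fun h => by simp [h] at ho
    have hsq : X * X = 1 := by
      have h := pow_orderOf_eq_one (proj X)
      rw [ho, ← map_pow, proj_eq_one_iff, center_eq_bot_of_two h2, Subgroup.mem_bot, sq] at h
      exact h
    have ht : tr X = 0 := by
      have h := coe_congr hsq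
      rw [Matrix.SpecialLinearGroup.coe_mul, mul_self_eq X, Matrix.SpecialLinearGroup.coe_one] at h
      by_contra hne0
      have h' : tr X • (X : Matrix (Fin 2) (Fin 2) F) = 0 := by
        rw [sub_eq_iff_eq_add] at h
        rw [h, ← two_smul F (1 : Matrix (Fin 2) (Fin 2) F), h2, zero_smul]
      have hd := X.det_coe
      rw [(smul_eq_zero.1 h').resolve_left hne0] at hd
      simp at hd
    obtain ⟨k, ε, y, hε, hk⟩ := trichotomy (g := X) (by rw [ht]; linear_combination -(2 : F) * h2)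
    have hp' : proj (k * X * k⁻¹) = proj (upS y) := by rw [hk, map_mul, proj_eq_one_iff.2 hε, one_mul]
    have hy : y ≠ 0 := by
      rintro rfl
      rw [upS_zero, map_one, map_mul, map_mul, map_inv, conj_eq_one_iff] at hp'
      exact hne hp'
    rw [← solCard_conj k X, solCard_congr hp', solCard_upS_even h2 hy, hq]
  · intro hx hd
    obtain ⟨h4, h0, hx1, hx2⟩ := hss _ (by omega) hx hd
    obtain ⟨k, l, hk⟩ := exists_conj_diag h4 (exists_root_of_split (by rwa [hq]) h4 hx1 hx2)
    have ht : tr (diag l) = tr X := by rw [← hk, tr_conj]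
    rw [← solCard_conj k X, hk, solCard_diag hA l (by rw [ht]; exact h4) (by rw [ht]; exact h0), hq]
  · intro hx hd
    obtain ⟨h4, h0, hx1, hx2⟩ := hss _ (by omega) hx hd
    rw [solCard_nonsplit hA h4 h0 (not_root_of_nonsplit (by rwa [hq]) h4 hx1 hx2), hq]

end Cfsg.Agent.S2257
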