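import Cfsg.Statements.S2258
import Cfsg.Agent.Lib.OutAut.PSL2SolFinal

set_option autoImplicit false
open Cfsg CfsgLib.OutAut CfsgLib.SL2 CfsgLib.SL2.Dickson
open CfsgLib.ClassicalLinear (upS upS_coe upS_add)

namespace Cfsg.Agent.S2258

/-- Let G = PSL_2(F) with F a field of order q = 3^p, p an odd prime, and for x ∈ G call the solubilizer of x the set of y ∈ G such that x and y generate a solvable subgroup. Then the solubilizer of an involution has q(q + 1) elements; that of an element of order 3 has q(q + 5)/2 elements; that of an element of order neither 1 nor 2 dividing q − 1 has q(q − 1) elements; and that of an element of order neither 1 nor 2 dividing q + 1 has q + 1 elements. -/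
theorem result (p : ℕ) (hp : p.Prime) (hodd : Odd p) {F : Type*} [Field F] [Fintype F]
    (hF : Fintype.card F = 3 ^ p) (x : Matrix.ProjectiveSpecialLinearGroup (Fin 2) F) :
    (orderOf x = 2 → Nat.card {y : Matrix.ProjectiveSpecialLinearGroup (Fin 2) F // Group.IsSolvable ↥(Subgroup.closure ({x, y} : Set (Matrix.ProjectiveSpecialLinearGroup (Fin 2) F)))} = 3 ^ p * (3 ^ p + 1)) ∧
    (orderOf x = 3 → 2 * Nat.card {y : Matrix.ProjectiveSpecialLinearGroup (Fin 2) F // Group.IsSolvable ↥(Subgroup.closure ({x, y} : Set (Matrix.ProjectiveSpecialLinearGroup (Fin 2) F)))} = 3 ^ p * (3 ^ p + 5)) ∧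
    (x ≠ 1 → orderOf x ≠ 2 → orderOf x ∣ 3 ^ p - 1 → Nat.card {y : Matrix.ProjectiveSpecialLinearGroup (Fin 2) F // Group.IsSolvable ↥(Subgroup.closure ({x, y} : Set (Matrix.ProjectiveSpecialLinearGroup (Fin 2) F)))} = 3 ^ p * (3 ^ p - 1)) ∧
    (x ≠ 1 → orderOf x ≠ 2 → orderOf x ∣ 3 ^ p + 1 → Nat.card {y : Matrix.ProjectiveSpecialLinearGroup (Fin 2) F // Group.IsSolvable ↥(Subgroup.closure ({x, y} : Set (Matrix.ProjectiveSpecialLinearGroup (Fin 2) F)))} = 3 ^ p + 1) := by
  classical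
  haveI : Fact p.Prime := ⟨hp⟩
  haveI : Fact (Nat.Prime 3) := ⟨Nat.prime_three⟩
  haveI : CharP F 3 := charP_of_card_eq_prime_pow (f := p) hF
  have h3 : (3 : F) = 0 := by simpa using CharP.cast_eq_zero F 3
  have h2 : (2 : F) ≠ 0 := fun h => one_ne_zero (show (1 : F) = 0 by linear_combination h3 - h)
  have hq : Nat.card F = 3 ^ p := by rw [Nat.card_eq_fintype_card, hF]
  have hsq : ∀ s : F, s ^ 2 ≠ -1 := by
    intro s hs
    have h := (FiniteField.isSquare_neg_one_iff (F := F)).1 ⟨s, by rw [← hs, sq]⟩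
    rw [hF] at h
    obtain ⟨j, rfl⟩ := hodd
    apply h
    rw [pow_succ, pow_mul, Nat.mul_mod, Nat.pow_mod]
    norm_num
  have hA : (2 : F) ≠ 0 → ∀ t s : F, (s = 0 ∨ s = 2 ∨ s = -2) →
      (t = s ∨ t ^ 2 - 2 = s ∨ t ^ 3 - 3 * t = s) → t = 0 ∨ t ^ 2 = 4 := by
    intro _ t s hs h
    rcases tr_small h3 hsq hs h with rfl | rfl | rfl
    · exact Or.inl rfl
    · exact Or.inr (by linear_combination -h3)
    · exact Or.inr (by linear_combination -h3)
  obtain ⟨X, rfl⟩ := proj_surjective x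
  have hN := solCard_eq X
  rw [center_card_of_odd h2] at hN
  have key : tr X ^ 2 = 4 → orderOf (proj X) ∣ 3 := fun h =>
    orderOf_dvd_of_pow_eq_one (tr_sq_eq_four_iff_pow (p := 3) h)
  have hscalar : ∀ a b c : F, proj X ≠ 1 →
      a • (X : Matrix (Fin 2) (Fin 2) F) - b • (1 : Matrix (Fin 2) (Fin 2) F) = c • 1 → a = 0 := by
    intro a b c hne e
    by_contra ha
    apply hne
    rw [proj_eq_one_iff, mem_center_iff_isScalarMat, isScalarMat_iff]
    refine ⟨(b + c) / a, ?_⟩
    rw [sub_eq_iff_eq_add, ← add_smul] at e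
    rw [div_eq_inv_mul, ← smul_smul, add_comm b c, ← e, smul_smul, inv_mul_cancel₀ ha, one_smul]
  have hss : ∀ m : ℕ, ¬ 3 ∣ m → proj X ≠ 1 → orderOf (proj X) ≠ 2 → orderOf (proj X) ∣ m →
      tr X ^ 2 ≠ 4 ∧ tr X ≠ 0 ∧ orderOf (proj X) ≠ 1 := by
    intro m hm hx hx2 hd
    have hx1 : orderOf (proj X) ≠ 1 := fun h => hx (orderOf_eq_one_iff.1 h)
    refine ⟨fun h => ?_, fun h => ?_, hx1⟩
    · rcases (Nat.dvd_prime Nat.prime_three).1 (key h) with e | e
      · exact hx1 e
      · exact hm (e ▸ hd)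
    · rcases (Nat.dvd_prime Nat.prime_two).1 (orderOf_dvd_of_pow_eq_one (proj_sq_of_tr_zero h))
        with e | e
      · exact hx1 e
      · exact hx2 e
  have h3q : 3 ∣ 3 ^ p := dvd_pow_self 3 hp.ne_zero
  have hpos : 0 < 3 ^ p := by positivity
  refine ⟨?_, ?_, ?_, ?_⟩
  · intro ho
    have hne : proj X ≠ 1 := fun h => by simp [h] at ho
    have h4 : tr X ^ 2 ≠ 4 := by
      intro h
      have := key h
      rw [ho] at this
      norm_num at this
    have hc := pow_orderOf_eq_one (proj X)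
    rw [ho, ← map_pow, proj_eq_one_iff, mem_center_iff_isScalarMat, sq, isScalarMat_iff,
      Matrix.SpecialLinearGroup.coe_mul, mul_self_eq X] at hc
    obtain ⟨c, hc⟩ := hc
    have ht : tr X = 0 := hscalar (tr X) 1 c hne (by rw [one_smul]; exact hc)
    obtain ⟨k, hk⟩ := isConj_iff.1 (isConj_companion h4)
    have hcard : solCard X = solCard (companion (0 : F)) := by
      rw [← hk, ht, solCard_conj]
    rw [hcard, solCard_involution hsq h3, hq, mul_assoc] at hN
    exact (Nat.eq_of_mul_eq_mul_left two_pos hN).symm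
  · intro ho
    have hne : proj X ≠ 1 := fun h => by simp [h] at ho
    have h4 : tr X ^ 2 = 4 := by
      by_contra h4
      have hc := pow_orderOf_eq_one (proj X)
      rw [ho, ← map_pow, proj_eq_one_iff, mem_center_iff_isScalarMat, isScalarMat_iff,
        Matrix.SpecialLinearGroup.coe_pow, pow_succ, pow_two, mul_self_eq X, sub_mul, one_mul,
        smul_mul_assoc, mul_self_eq X, smul_sub, smul_smul, ← sq] at hc
      obtain ⟨c, hc⟩ := hc
      have hrw : (tr X ^ 2 - 1) • (X : Matrix (Fin 2) (Fin 2) F) - tr X • 1 = c • 1 := by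
        rw [← hc, sub_smul, one_smul]; abel
      have ht : tr X ^ 2 - 1 = 0 := hscalar _ (tr X) c hne hrw
      exact h4 (by linear_combination ht - h3)
    obtain ⟨k, ε, y, hε, hk⟩ := trichotomy h4
    have hp' : proj (k * X * k⁻¹) = proj (upS y) := by rw [hk, map_mul, proj_eq_one_iff.2 hε, one_mul]
    have hy : y ≠ 0 := by
      rintro rfl
      rw [upS_zero, map_one, map_mul, map_mul, map_inv, conj_eq_one_iff] at hp'
      exact hne hp'
    rw [← hN, ← solCard_conj k X, solCard_congr hp', solCard_upS_three h3 hsq hy, hq]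
  · intro hx hx2 hd
    obtain ⟨h4, h0, hx1⟩ := hss _ (by omega) hx hx2 hd
    obtain ⟨k, l, hk⟩ := exists_conj_diag h4 (exists_root_of_split (by rwa [hq]) h4 hx1 hx2)
    have ht : tr (diag l) = tr X := by rw [← hk, tr_conj]
    rw [← solCard_conj k X, hk, solCard_diag hA l (by rw [ht]; exact h4) (by rw [ht]; exact h0), hq,
      mul_assoc] at hN
    exact (Nat.eq_of_mul_eq_mul_left two_pos hN).symm
  · intro hx hx2 hd
    obtain ⟨h4, h0, hx1⟩ := hss _ (by omega) hx hx2 hd
    rw [solCard_nonsplit hA h4 h0 (not_root_of_nonsplit (by rwa [hq]) h4 hx1 hx2), hq] at hN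
    exact (Nat.eq_of_mul_eq_mul_left two_pos hN).symm

end Cfsg.Agent.S2258
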