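import Cfsg.Statements.S2259
import Cfsg.Agent.Lib.Suzuki.SolCounts
import Cfsg.Agent.Lib.Suzuki.LieBridge

set_option autoImplicit false
open Cfsg

namespace Cfsg.Agent.S2259

/-- Let G be the Suzuki group Sz(q), q = 2^(2m+1) with 2m + 1 prime and m ≥ 1, realised inside Sp_4(F) for F the field of order q, write r = 2^(m+1) (so r² = 2q), and for x ∈ G call the solubilizer of x the set of y ∈ G such that x and y generate a solvable subgroup. Then the solubilizer of an involution has q²(4q − 3) elements; that of an element of order 4 has q²(q + 3) elements; that of a non-identity element of order dividing q − 1 has 2q²(q − 1) elements; that of a non-identity element of order dividing q + r + 1 has 4(q + r + 1) elements; and that of a non-identity element of order dividing q − r + 1 has 4(q − r + 1) elements. -/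
theorem result {F : Type*} [Field F] [Fintype F] {m : ℕ} (hm : 1 ≤ m)
    (hp : (2 * m + 1).Prime) (hF : Fintype.card F = 2 ^ (2 * m + 1)) (x : ↥(Cfsg.Lie.Sz F (2 ^ (m + 1)))) :
    (orderOf x = 2 → Nat.card {y : ↥(Cfsg.Lie.Sz F (2 ^ (m + 1))) // Group.IsSolvable ↥(Subgroup.closure ({x, y} : Set (↥(Cfsg.Lie.Sz F (2 ^ (m + 1))))))} = (2 ^ (2 * m + 1)) ^ 2 * (4 * 2 ^ (2 * m + 1) - 3)) ∧
    (orderOf x = 4 → Nat.card {y : ↥(Cfsg.Lie.Sz F (2 ^ (m + 1))) // Group.IsSolvable ↥(Subgroup.closure ({x, y} : Set (↥(Cfsg.Lie.Sz F (2 ^ (m + 1))))))} = (2 ^ (2 * m + 1)) ^ 2 * (2 ^ (2 * m + 1) + 3)) ∧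
    (x ≠ 1 → orderOf x ∣ 2 ^ (2 * m + 1) - 1 →
      Nat.card {y : ↥(Cfsg.Lie.Sz F (2 ^ (m + 1))) // Group.IsSolvable ↥(Subgroup.closure ({x, y} : Set (↥(Cfsg.Lie.Sz F (2 ^ (m + 1))))))} = 2 * (2 ^ (2 * m + 1)) ^ 2 * (2 ^ (2 * m + 1) - 1)) ∧
    (x ≠ 1 → orderOf x ∣ 2 ^ (2 * m + 1) + 2 ^ (m + 1) + 1 → Nat.card {y : ↥(Cfsg.Lie.Sz F (2 ^ (m + 1))) // Group.IsSolvable ↥(Subgroup.closure ({x, y} : Set (↥(Cfsg.Lie.Sz F (2 ^ (m + 1))))))} = 4 * (2 ^ (2 * m + 1) + 2 ^ (m + 1) + 1)) ∧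
    (x ≠ 1 → orderOf x ∣ 2 ^ (2 * m + 1) - 2 ^ (m + 1) + 1 → Nat.card {y : ↥(Cfsg.Lie.Sz F (2 ^ (m + 1))) // Group.IsSolvable ↥(Subgroup.closure ({x, y} : Set (↥(Cfsg.Lie.Sz F (2 ^ (m + 1))))))} = 4 * (2 ^ (2 * m + 1) - 2 ^ (m + 1) + 1)) := by
  have h : CfsgLib.Suzuki.Hyp F m := .of_fintype hm hF
  obtain ⟨x, rfl⟩ := h.lieEquiv.surjective x
  have hc : Nat.card {y : ↥(Cfsg.Lie.Sz F (2 ^ (m + 1))) // Group.IsSolvable ↥(Subgroup.closure ({h.lieEquiv x, y} : Set (↥(Cfsg.Lie.Sz F (2 ^ (m + 1))))))} =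
      (CfsgLib.Suzuki.sol x).ncard :=
    (Nat.card_coe_set_eq (CfsgLib.Suzuki.sol (h.lieEquiv x))).trans (CfsgLib.Suzuki.ncard_sol_map h.lieEquiv x)
  simp only [hc, MulEquiv.orderOf_eq, ne_eq, EmbeddingLike.map_eq_one_iff]
  refine ⟨h.sol_count_involution hp, h.sol_count_four hp, fun hx hd => ?_, fun hx hd => ?_, fun hx hd => ?_⟩
  · obtain ⟨k, t, ht, rfl⟩ := h.exists_conj_d_of_dvd hx hd
    rw [show k * h.d t * k⁻¹ = MulAut.conj k (h.d t) by simp, CfsgLib.Suzuki.ncard_sol_map, h.sol_count_split hp ht]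
  · obtain ⟨hf, hcard⟩ := h.free_of_dvd_torus hx (Or.inl rfl) hd
    rw [h.sol_count_free hp hf, hcard]
  · obtain ⟨hf, hcard⟩ := h.free_of_dvd_torus hx (Or.inr rfl) hd
    rw [h.sol_count_free hp hf, hcard]

end Cfsg.Agent.S2259
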