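import Cfsg.Statements.S2268


set_option autoImplicit false
open Cfsg

namespace Cfsg.Agent.S2268

/-- Let G be a finite group with an abelian Sylow p-subgroup P and let Q ≤ P. Then N_G(Q) = (N_G(Q) ∩ N_G(P))·C_G(Q), so that N_G(Q)/C_G(Q) is a homomorphic image of the subgroup (N_G(Q) ∩ N_G(P))/C_G(P) of N_G(P)/C_G(P); in particular the order of N_G(Q)/C_G(Q) divides the order of N_G(P)/C_G(P). -/
theorem result {G : Type*} [Group G] [Finite G] {p : ℕ} [Fact p.Prime]
    (P : Sylow p G) (hP : IsMulCommutative (P : Subgroup G)) (Q : Subgroup G) (hQ : Q ≤ (P : Subgroup G)) :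
    Subgroup.normalizer (Q : Set G) =
      (Subgroup.normalizer (Q : Set G) ⊓ Subgroup.normalizer ((P : Subgroup G) : Set G)) ⊔ Subgroup.centralizer (Q : Set G) ∧
    ((Subgroup.centralizer (Q : Set G)).subgroupOf (Subgroup.normalizer (Q : Set G))).index ∣ ((Subgroup.centralizer ((P : Subgroup G) : Set G)).subgroupOf (Subgroup.normalizer ((P : Subgroup G) : Set G))).index := by
  classical
  set C := Subgroup.centralizer (Q : Set G) with hC
  set N := Subgroup.normalizer (Q : Set G) with hN
  set M := Subgroup.normalizer ((P : Subgroup G) : Set G) with hM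
  have hPC : (P : Subgroup G) ≤ C := fun x hx => Subgroup.mem_centralizer_iff.2 fun y hy => by
    have := hP.is_comm.comm (⟨y, hQ hy⟩ : (P : Subgroup G)) ⟨x, hx⟩
    exact congrArg Subtype.val this
  have hCN : C ≤ N := Subgroup.centralizer_le_normalizer _
  have key : ∀ g ∈ N, ∃ c ∈ C, ∃ m ∈ N ⊓ M, g = c * m := by
    intro g hg
    have hgP : ((g • P : Sylow p G) : Subgroup G) ≤ C := by
      intro x hx
      rw [Sylow.coe_subgroup_smul, Subgroup.mem_pointwise_smul_iff_inv_smul_mem] at hx
      simp only [MulAut.smul_def, MulAut.inv_apply, MulAut.conj_symm_apply] at hx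
      refine Subgroup.mem_centralizer_iff.2 fun y hy => ?_
      have hy' : g⁻¹ * y * g ∈ Q := by
        have := (Subgroup.mem_normalizer_iff.1 (inv_mem hg) y).1 hy
        simpa using this
      have := Subgroup.mem_centralizer_iff.1 (hPC hx) _ hy'
      have h2 := congrArg (fun z => g * z * g⁻¹) this
      simpa [mul_assoc] using h2
    obtain ⟨c, hc⟩ := MulAction.exists_smul_eq C ((g • P).subtype hgP) (P.subtype hPC)
    rw [Sylow.smul_subtype] at hc
    have hc' : (c : G) • g • P = P := Sylow.subtype_injective hc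
    refine ⟨(c : G)⁻¹, inv_mem c.2, (c : G) * g, ⟨mul_mem (hCN c.2) hg, ?_⟩, by group⟩
    exact Sylow.smul_eq_iff_mem_normalizer.1 (by rw [mul_smul]; exact hc')
  refine ⟨le_antisymm (fun g hg => ?_) (sup_le inf_le_left hCN), ?_⟩
  · obtain ⟨c, hc, m, hm, rfl⟩ := key g hg
    exact mul_mem (Subgroup.mem_sup_right hc) (Subgroup.mem_sup_left hm)
  · haveI : (C.subgroupOf N).Normal :=
      Subgroup.normal_subgroupOf_iff hCN |>.2 fun h g hh hg =>
        Subgroup.mem_centralizer_iff.2 fun y hy => by
          have hy' : g⁻¹ * y * g ∈ Q := by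
            have := (Subgroup.mem_normalizer_iff.1 (inv_mem hg) y).1 hy
            simpa using this
          have := Subgroup.mem_centralizer_iff.1 hh _ hy'
          have h2 := congrArg (fun z => g * z * g⁻¹) this
          simpa [mul_assoc] using h2
    let φ : ↥(N ⊓ M) →* ↥N ⧸ C.subgroupOf N :=
      (QuotientGroup.mk' _).comp (Subgroup.inclusion inf_le_left)
    have hsurj : Function.Surjective φ := by
      intro q
      obtain ⟨⟨g, hg⟩, rfl⟩ := QuotientGroup.mk'_surjective _ q
      obtain ⟨c, hc, m, hm, rfl⟩ := key g hg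
      refine ⟨⟨m, hm⟩, (QuotientGroup.eq).2 ?_⟩
      show m⁻¹ * (c * m) ∈ C
      refine Subgroup.mem_centralizer_iff.2 fun y hy => ?_
      have hy' : m * y * m⁻¹ ∈ Q := (Subgroup.mem_normalizer_iff.1 hm.1 y).1 hy
      have := Subgroup.mem_centralizer_iff.1 hc _ hy'
      have h2 := congrArg (fun z => m⁻¹ * z * m) this
      simpa [mul_assoc] using h2
    have hker : φ.ker = C.subgroupOf (N ⊓ M) := by
      ext x
      simp [φ, MonoidHom.mem_ker, QuotientGroup.eq_one_iff, Subgroup.mem_subgroupOf]
    have h1 : (C.subgroupOf N).index = C.relIndex (N ⊓ M) := by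
      rw [Subgroup.relIndex, ← hker, Subgroup.index_ker, MonoidHom.range_eq_top.2 hsurj,
        Subgroup.card_top]
      rfl
    rw [h1]
    have hle : Subgroup.centralizer ((P : Subgroup G) : Set G) ≤ C :=
      Subgroup.centralizer_le (fun x hx => hQ hx)
    have hPN : Subgroup.centralizer ((P : Subgroup G) : Set G) ≤ N ⊓ M :=
      le_inf (hle.trans hCN) (Subgroup.centralizer_le_normalizer _)
    refine dvd_trans (Subgroup.relIndex_dvd_of_le_left _ hle) ?_
    show _ ∣ (Subgroup.centralizer ((P : Subgroup G) : Set G)).relIndex M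
    exact ⟨_, (Subgroup.relIndex_mul_relIndex _ (N ⊓ M) M hPN inf_le_right).symm⟩

end Cfsg.Agent.S2268
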