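import Cfsg.Statements.S2269
import Cfsg.Agent.Lib.OutAut.SymSylow
-- import your own Cfsg.Agent.* helpers here

set_option autoImplicit false
set_option linter.style.haveILetI false
open Cfsg

namespace Cfsg.Agent.S2269

open Equiv

/-- An abelian Sylow subgroup of odd prime order inverted on one orbit. -/
theorem exists_inverting {α : Type*} [Fintype α] [DecidableEq α] {p : ℕ} [Fact p.Prime] (hp : p ≠ 2)
    (T : Subgroup (Perm α)) (hT : IsPGroup p T)
    (hcard : Nat.card T = p ^ padicValNat p (Fintype.card α).factorial)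
    (hcomm : ∀ x ∈ T, ∀ y ∈ T, Commute x y) (hcyc : ¬ IsCyclic T) :
    ∃ σ : Perm α, Perm.sign σ = 1 ∧ (∀ x ∈ T, σ * x * σ⁻¹ ∈ T) ∧
      (∃ x ∈ T, σ * x ≠ x * σ) ∧ σ * σ = 1 := by
  classical
  have hp' : p.Prime := Fact.out
  have hodd : Odd p := hp'.odd_of_ne_two hp
  have hsq : ∀ x ∈ T, ∀ a : α, x (x a) = a → x a = a := by
    intro x hx a ha
    obtain ⟨k, hk⟩ := hT ⟨x, hx⟩
    have hk' : x ^ p ^ k = 1 := congrArg Subtype.val hk
    obtain ⟨j, hj⟩ := hodd.pow (n := k)
    have h2 : ∀ j : ℕ, (x ^ (2 * j)) a = a := by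
      intro j
      induction j with
      | zero => simp
      | succ j ih =>
        rw [show 2 * (j + 1) = 2 * j + 1 + 1 by ring, pow_succ, pow_succ, Perm.mul_apply,
          Perm.mul_apply, ha, ih]
    have := Equiv.ext_iff.1 hk' (x a)
    rw [hj, pow_succ, Perm.mul_apply, ha, h2, Perm.one_apply] at this
    exact this.symm
  let orb : α → Set α := fun a => {b | ∃ x ∈ T, x a = b}
  have horb : ∀ a, ∀ x ∈ T, ∀ b, x b ∈ orb a ↔ b ∈ orb a := by
    intro a x hx b
    constructor
    · rintro ⟨y, hy, hyb⟩
      exact ⟨x⁻¹ * y, mul_mem (inv_mem hx) hy, by simp [hyb]⟩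
    · rintro ⟨y, hy, rfl⟩
      exact ⟨x * y, mul_mem hx hy, rfl⟩
  have key : ∀ a, ∃ σ : Perm α, (∀ x ∈ T, σ * x * σ⁻¹ ∈ T) ∧ σ * σ = 1 ∧
      (∀ b, b ∉ orb a → σ b = b) ∧ (∀ x ∈ T, σ (x a) = x⁻¹ a) := by
    intro a
    have hwell : ∀ x ∈ T, ∀ y ∈ T, x a = y a → x⁻¹ a = y⁻¹ a := by
      intro x hx y hy h
      apply y.injective
      apply x.injective
      have h1 := Equiv.ext_iff.1 (hcomm x hx y hy).eq (x⁻¹ a)
      simp only [Perm.mul_apply] at h1
      rw [h1]; simp [h]
    let f : α → α := fun b => if hb : b ∈ orb a then (Classical.choose hb)⁻¹ a else b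
    have hf : ∀ x ∈ T, f (x a) = x⁻¹ a := by
      intro x hx
      have hmem : x a ∈ orb a := ⟨x, hx, rfl⟩
      show dite _ _ _ = _
      rw [dif_pos hmem]
      exact hwell _ (Classical.choose_spec hmem).1 x hx (Classical.choose_spec hmem).2
    have hf' : ∀ b, b ∉ orb a → f b = b := fun b hb => dif_neg hb
    have hinv : Function.Involutive f := by
      intro b
      by_cases hb : b ∈ orb a
      · obtain ⟨x, hx, rfl⟩ := hb
        rw [hf x hx, hf x⁻¹ (inv_mem hx), inv_inv]
      · rw [hf' b hb, hf' b hb]
    let σ : Perm α := hinv.toPerm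
    have hσσ : σ * σ = 1 := Equiv.ext hinv
    refine ⟨σ, fun x hx => ?_, hσσ, hf', hf⟩
    -- restriction of `x` to the orbit
    set r : Perm α := Perm.ofSubtype (x.subtypePerm (p := fun b => b ∈ orb a)
      (fun b => horb a x hx b)) with hr
    have hr1 : ∀ b ∈ orb a, r b = x b := fun b hb => by
      rw [hr, Perm.ofSubtype_apply_of_mem _ hb]; rfl
    have hr2 : ∀ b, b ∉ orb a → r b = b := fun b hb => by
      rw [hr, Perm.ofSubtype_apply_of_not_mem _ hb]
    have hrmem : r ∈ T := by
      have hrc : ∀ y ∈ T, Commute r y := by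
        intro y hy
        apply Equiv.ext
        intro b
        simp only [Perm.mul_apply]
        by_cases hb : b ∈ orb a
        · rw [hr1 b hb, hr1 _ ((horb a y hy b).2 hb)]
          exact Equiv.ext_iff.1 (hcomm x hx y hy).eq b
        · rw [hr2 b hb, hr2 _ (fun h => hb ((horb a y hy b).1 h))]
      have hrpow : ∃ k, r ^ p ^ k = 1 := by
        obtain ⟨k, hk⟩ := hT ⟨x, hx⟩
        refine ⟨k, ?_⟩
        have hk' : x ^ p ^ k = 1 := congrArg Subtype.val hk
        apply Equiv.ext
        intro b
        have hrn : ∀ j : ℕ, (b ∈ orb a → (r ^ j) b = (x ^ j) b) ∧ (b ∉ orb a → (r ^ j) b = b) := by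
          intro j
          induction j with
          | zero => simp
          | succ j ih =>
            constructor
            · intro hb
              have hmem : (x ^ j) b ∈ orb a := (horb a _ (pow_mem hx j) b).2 hb
              rw [pow_succ', pow_succ', Perm.mul_apply, Perm.mul_apply, ih.1 hb, hr1 _ hmem]
            · intro hb
              rw [pow_succ', Perm.mul_apply, ih.2 hb, hr2 _ hb]
        by_cases hb : b ∈ orb a
        · rw [(hrn _).1 hb, hk']
        · rw [(hrn _).2 hb, Perm.one_apply]
      by_contra hnot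
      have hsup : IsPGroup p (T ⊔ Subgroup.zpowers r : Subgroup (Perm α)) := by
        refine IsPGroup.to_sup_of_normal_left' hT ?_ ?_
        · intro g
          obtain ⟨j, hj⟩ := Subgroup.mem_zpowers_iff.1 g.2
          obtain ⟨k, hk⟩ := hrpow
          refine ⟨k, Subtype.ext ?_⟩
          rw [SubgroupClass.coe_pow, ← hj, ← zpow_natCast, ← zpow_mul, mul_comm, zpow_mul,
            zpow_natCast, hk, one_zpow, Subgroup.coe_one]
        · rw [Subgroup.zpowers_le]
          exact Subgroup.mem_normalizer_iff.2 fun y => ⟨fun hy => by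
            rwa [(hrc y hy).eq, mul_inv_cancel_right], fun hy => by
            have h2 := hrc _ hy
            have h3 : r * y * r⁻¹ = y := by
              have e : r * (r * y * r⁻¹) = r * y := by rw [h2.eq]; group
              exact mul_left_cancel e
            rwa [h3] at hy⟩
      obtain ⟨k, hk⟩ := IsPGroup.iff_card.1 hsup
      have hdvd : Nat.card (T ⊔ Subgroup.zpowers r : Subgroup (Perm α)) ∣ Nat.card T := by
        rw [hk, hcard]
        refine pow_dvd_pow p ?_
        have h1 := Subgroup.card_subgroup_dvd_card (T ⊔ Subgroup.zpowers r)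
        rw [hk, Nat.card_perm, Nat.card_eq_fintype_card] at h1
        exact (padicValNat_dvd_iff_le (Nat.factorial_ne_zero _)).1 h1
      have := Subgroup.eq_of_le_of_card_ge (le_sup_left : T ≤ T ⊔ Subgroup.zpowers r)
        (Nat.le_of_dvd Nat.card_pos hdvd)
      exact hnot (this ▸ Subgroup.mem_sup_right (Subgroup.mem_zpowers r))
    have hconj : σ * x * σ⁻¹ = x * r⁻¹ * r⁻¹ := by
      rw [mul_inv_eq_iff_eq_mul]
      apply Equiv.ext
      intro b
      simp only [Perm.mul_apply]
      by_cases hb : b ∈ orb a
      · obtain ⟨y, hy, rfl⟩ := hb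
        have e1 : σ (x (y a)) = (x * y)⁻¹ a := hf _ (mul_mem hx hy)
        have e2 : σ (y a) = y⁻¹ a := hf y hy
        rw [e1, e2]
        have hrx : ∀ c ∈ orb a, r⁻¹ c = x⁻¹ c := fun c hc => by
          rw [Perm.inv_eq_iff_eq, hr1 _ ((horb a x⁻¹ (inv_mem hx) c).2 hc)]; simp
        have hy' : y⁻¹ a ∈ orb a := ⟨_, inv_mem hy, rfl⟩
        rw [hrx _ hy', hrx _ ((horb a x⁻¹ (inv_mem hx) _).2 hy'), ← Perm.mul_apply x x⁻¹, mul_inv_cancel,
          Perm.one_apply, _root_.mul_inv_rev, (hcomm y⁻¹ (inv_mem hy) x⁻¹ (inv_mem hx)).eq, Perm.mul_apply]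
      · have hbx : x b ∉ orb a := fun h => hb ((horb a x hx b).1 h)
        have hrb : r⁻¹ b = b := by rw [Perm.inv_eq_iff_eq, hr2 b hb]
        rw [show σ (x b) = x b from hf' _ hbx, show σ b = b from hf' _ hb, hrb, hrb]
    rw [hconj]
    exact mul_mem (mul_mem hx (inv_mem hrmem)) (inv_mem hrmem)
  -- two non-trivial orbits
  obtain ⟨a₁, x₁, hx₁, ha₁⟩ : ∃ a, ∃ x ∈ T, x a ≠ a := by
    by_contra hcon
    push Not at hcon
    haveI : Subsingleton T := ⟨fun x y => Subtype.ext (Equiv.ext fun a => by
      rw [hcon a x x.2, hcon a y y.2])⟩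
    exact hcyc inferInstance
  obtain ⟨a₂, ⟨x₂, hx₂, ha₂⟩, ha₂'⟩ : ∃ a, (∃ x ∈ T, x a ≠ a) ∧ a ∉ orb a₁ := by
    by_contra hcon
    push Not at hcon
    apply hcyc
    -- `T` is faithful on the single orbit
    have hinj : Function.Injective fun x : T => (x : Perm α) a₁ := by
      intro x y h
      apply Subtype.ext
      apply Equiv.ext
      intro b
      by_cases hb : ∃ z ∈ T, z b ≠ b
      · obtain ⟨z, hz, rfl⟩ := hcon b hb
        have e1 := Equiv.ext_iff.1 (hcomm x x.2 z hz).eq a₁
        have e2 := Equiv.ext_iff.1 (hcomm y y.2 z hz).eq a₁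
        simp only [Perm.mul_apply] at e1 e2
        rw [e1, e2]
        exact congrArg z h
      · push Not at hb
        rw [hb x x.2, hb y y.2]
    have hle : Nat.card T ≤ Fintype.card α := by
      rw [← Nat.card_eq_fintype_card]; exact Nat.card_le_card_of_injective _ hinj
    set v := padicValNat p (Fintype.card α).factorial with hv
    by_contra hnc
    have h2 : 2 ≤ v := by
      by_contra hlt
      rcases Nat.lt_or_ge v 1 with h0 | h1
      · haveI : Subsingleton T := Finite.card_le_one_iff_subsingleton.1 (by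
          rw [hcard, show v = 0 by omega, pow_zero])
        exact hnc inferInstance
      · haveI := isCyclic_of_prime_card (p := p) (α := T) (by rw [hcard, show v = 1 by omega, pow_one])
        exact hnc inferInstance
    rw [hcard] at hle
    have hdvd : (p ^ v).factorial ∣ (Fintype.card α).factorial := Nat.factorial_dvd_factorial hle
    have hv1 : p ^ (v - 1) ≤ v := by
      have h1 : padicValNat p (p * p ^ (v - 1)).factorial ≤ v := by
        rw [← pow_succ', Nat.sub_add_cancel (by omega : 1 ≤ v)]
        exact (padicValNat_dvd_iff_le (Nat.factorial_ne_zero _)).1 (pow_padicValNat_dvd.trans hdvd)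
      rw [padicValNat_factorial_mul] at h1
      omega
    have h3 : 3 ^ (v - 1) ≤ p ^ (v - 1) := Nat.pow_le_pow_left (by have := hp'.two_le; omega) _
    have h4 : ∀ j, 1 ≤ j → j + 1 < 3 ^ j := by
      intro j hj
      induction j, hj using Nat.le_induction with
      | base => norm_num
      | succ j _ ih => rw [pow_succ]; omega
    have := h4 (v - 1) (by omega)
    omega
  obtain ⟨σ₁, hn₁, hσ₁, hfix₁, hinv₁⟩ := key a₁
  obtain ⟨σ₂, hn₂, hσ₂, hfix₂, hinv₂⟩ := key a₂
  have ha₁' : a₁ ∉ orb a₂ := by
    rintro ⟨y, hy, hya⟩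
    exact ha₂' ⟨y⁻¹, inv_mem hy, by rw [← hya]; simp⟩
  have hmove₁ : σ₁ * x₁ ≠ x₁ * σ₁ := by
    intro h
    have := Equiv.ext_iff.1 h a₁
    have e : σ₁ a₁ = a₁ := by simpa using hinv₁ 1 (one_mem T)
    rw [Perm.mul_apply, Perm.mul_apply, hinv₁ x₁ hx₁, e] at this
    exact ha₁ (hsq x₁ hx₁ a₁ (by rw [← this]; simp))
  have hmove₂ : σ₂ * x₂ ≠ x₂ * σ₂ := by
    intro h
    have := Equiv.ext_iff.1 h a₂
    have e : σ₂ a₂ = a₂ := by simpa using hinv₂ 1 (one_mem T)
    rw [Perm.mul_apply, Perm.mul_apply, hinv₂ x₂ hx₂, e] at this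
    exact ha₂ (hsq x₂ hx₂ a₂ (by rw [← this]; simp))
  rcases Int.units_eq_one_or (Perm.sign σ₁) with h1 | h1
  · exact ⟨σ₁, h1, hn₁, ⟨x₁, hx₁, hmove₁⟩, hσ₁⟩
  rcases Int.units_eq_one_or (Perm.sign σ₂) with h2 | h2
  · exact ⟨σ₂, h2, hn₂, ⟨x₂, hx₂, hmove₂⟩, hσ₂⟩
  have hc : σ₁ * σ₂ = σ₂ * σ₁ := by
    apply Equiv.ext
    intro b
    simp only [Perm.mul_apply]
    have hd : ∀ b ∈ orb a₁, b ∉ orb a₂ := by
      rintro _ ⟨y, hy, rfl⟩ h
      exact ha₁' ((horb a₂ y hy a₁).1 h)
    by_cases hb : b ∈ orb a₁
    · have hσb : σ₁ b ∈ orb a₁ := by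
        obtain ⟨y, hy, rfl⟩ := hb
        rw [hinv₁ y hy]; exact ⟨_, inv_mem hy, rfl⟩
      rw [hfix₂ b (hd b hb), hfix₂ _ (hd _ hσb)]
    · by_cases hb2 : b ∈ orb a₂
      · have hσb : σ₂ b ∈ orb a₂ := by
          obtain ⟨y, hy, rfl⟩ := hb2
          rw [hinv₂ y hy]; exact ⟨_, inv_mem hy, rfl⟩
        rw [hfix₁ b hb, hfix₁ _ (fun h => hd _ h hσb)]
      · rw [hfix₁ b hb, hfix₂ b hb2, hfix₁ b hb]
  refine ⟨σ₁ * σ₂, by rw [map_mul, h1, h2]; decide, fun x hx => ?_, ⟨x₁, hx₁, fun h => ?_⟩, ?_⟩
  · have := hn₁ _ (hn₂ x hx)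
    simpa [mul_assoc] using this
  · have := Equiv.ext_iff.1 h a₁
    have e : σ₁ a₁ = a₁ := by simpa using hinv₁ 1 (one_mem T)
    have hxa : x₁ a₁ ∉ orb a₂ := fun h => ha₁' ((horb a₂ x₁ hx₁ a₁).1 h)
    rw [Perm.mul_apply, Perm.mul_apply, Perm.mul_apply, Perm.mul_apply, hfix₂ _ hxa,
      hfix₂ _ ha₁', hinv₁ x₁ hx₁, e] at this
    exact ha₁ (hsq x₁ hx₁ a₁ (by rw [← this]; simp))
  · calc σ₁ * σ₂ * (σ₁ * σ₂) = σ₁ * σ₂ * (σ₂ * σ₁) := by rw [hc]
      _ = σ₁ * (σ₂ * σ₂) * σ₁ := by group
      _ = 1 := by rw [hσ₂, mul_one, hσ₁]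

/-- Let n ≥ 5 and let P be an abelian Sylow p-subgroup of the alternating group A_n. Then N(P)/C(P) (taken in A_n) has even order, or P is cyclic, except when n = 5 and p = 2, where P is a four-group and N(P)/C(P) has order 3. -/
theorem result (n : ℕ) (hn : 5 ≤ n) {p : ℕ} [Fact p.Prime]
    (P : Sylow p (alternatingGroup (Fin n))) (hP : IsMulCommutative (P : Subgroup (alternatingGroup (Fin n)))) :
    (¬ (n = 5 ∧ p = 2) → 2 ∣ ((Subgroup.centralizer ((P : Subgroup (alternatingGroup (Fin n))) : Set (alternatingGroup (Fin n)))).subgroupOf (Subgroup.normalizer ((P : Subgroup (alternatingGroup (Fin n))) : Set (alternatingGroup (Fin n))))).index ∨ IsCyclic (P : Subgroup (alternatingGroup (Fin n)))) ∧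
    ((n = 5 ∧ p = 2) → ((Subgroup.centralizer ((P : Subgroup (alternatingGroup (Fin n))) : Set (alternatingGroup (Fin n)))).subgroupOf (Subgroup.normalizer ((P : Subgroup (alternatingGroup (Fin n))) : Set (alternatingGroup (Fin n))))).index = 3 ∧ IsKleinFour (P : Subgroup (alternatingGroup (Fin n)))) := by
  classical
  haveI : Nontrivial (Fin n) := Fin.nontrivial_iff_two_le.2 (by omega)
  set N := Subgroup.normalizer ((P : Subgroup (alternatingGroup (Fin n))) : Set (alternatingGroup (Fin n))) with hN
  set C := Subgroup.centralizer ((P : Subgroup (alternatingGroup (Fin n))) : Set (alternatingGroup (Fin n))) with hC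
  have hcard : Nat.card (P : Subgroup (alternatingGroup (Fin n))) = p ^ padicValNat p (n.factorial / 2) := by
    rw [P.card_eq_multiplicity, nat_card_alternatingGroup, Nat.card_fin,
      Nat.factorization_def _ Fact.out]
  constructor
  · intro hne
    by_cases hcyc : IsCyclic (P : Subgroup (alternatingGroup (Fin n)))
    · exact Or.inr hcyc
    left
    rcases eq_or_ne p 2 with hp2 | hp2
    · exfalso
      subst hp2
      have h6 : 6 ≤ n := by
        by_contra hlt
        exact hne ⟨by omega, rfl⟩
      have hPn := CfsgLib.OutAut.sylowTwo_alternating_normalizer (by simpa using h6) P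
      have hle : Subgroup.normalizer ((P : Subgroup (alternatingGroup (Fin n))) : Set (alternatingGroup (Fin n))) ≤
          Subgroup.centralizer ((P : Subgroup (alternatingGroup (Fin n))) : Set (alternatingGroup (Fin n))) := by
        rw [hPn]
        intro x hx
        exact Subgroup.mem_centralizer_iff.2 fun y hy =>
          congrArg Subtype.val (hP.is_comm.comm (⟨y, hy⟩ : (P : Subgroup (alternatingGroup (Fin n)))) ⟨x, hx⟩)
      haveI : IsSimpleGroup (alternatingGroup (Fin n)) := alternatingGroup.isSimpleGroup (by rw [Nat.card_fin]; omega)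
      have hcompl := MonoidHom.ker_transferSylow_isComplement' P hle
      rcases (MonoidHom.normal_ker (MonoidHom.transferSylow P hle)).eq_bot_or_eq_top with h | h
      · rw [h] at hcompl
        have htop := Subgroup.isComplement'_bot_left.1 hcompl
        have hnc : IsMulCommutative (alternatingGroup (Fin n)) := ⟨⟨fun x y => congrArg Subtype.val
          (hP.is_comm.comm (⟨x, htop ▸ Subgroup.mem_top x⟩ : (P : Subgroup (alternatingGroup (Fin n))))
            ⟨y, htop ▸ Subgroup.mem_top y⟩)⟩⟩
        have hp : (Nat.card (alternatingGroup (Fin n))).Prime := by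
          letI : CommGroup (alternatingGroup (Fin n)) := { (inferInstance : Group (alternatingGroup (Fin n))) with mul_comm := hnc.is_comm.comm }
          exact IsSimpleGroup.prime_card
        rw [nat_card_alternatingGroup, Nat.card_fin] at hp
        have h360 : 360 ∣ n.factorial / 2 := by
          obtain ⟨c, hc⟩ := Nat.factorial_dvd_factorial h6
          refine ⟨c, ?_⟩
          rw [hc, show Nat.factorial 6 = 720 by rfl]
          omega
        rcases (Nat.dvd_prime hp).1 h360 with h1 | h1
        · norm_num at h1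
        · rw [← h1] at hp; norm_num at hp
      · rw [h] at hcompl
        have hbot := Subgroup.isComplement'_top_left.1 hcompl
        apply hcyc
        rw [hbot]
        infer_instance
    · set T := (P : Subgroup (alternatingGroup (Fin n))).map (alternatingGroup (Fin n)).subtype with hT
      have hp' : p.Prime := Fact.out
      have hTcard : Nat.card T = p ^ padicValNat p (Fintype.card (Fin n)).factorial := by
        rw [hT, Nat.card_congr ((P : Subgroup (alternatingGroup (Fin n))).equivMapOfInjective _ (alternatingGroup (Fin n)).subtype_injective).symm.toEquiv,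
          hcard, Fintype.card_fin]
        congr 1
        have h2 : n.factorial / 2 * 2 = n.factorial :=
          Nat.div_mul_cancel (Nat.dvd_factorial (by norm_num) (by omega))
        conv_rhs => rw [← h2, padicValNat.mul (by have := n.factorial_pos; omega) (by norm_num)]
        rw [padicValNat.eq_zero_of_not_dvd
          (fun h => hp2 ((Nat.prime_dvd_prime_iff_eq hp' Nat.prime_two).1 h)), add_zero]
      have hTc : ∀ x ∈ T, ∀ y ∈ T, Commute x y := by
        rintro _ ⟨x, hx, rfl⟩ _ ⟨y, hy, rfl⟩
        exact congrArg (fun z : (P : Subgroup (alternatingGroup (Fin n))) => (z.1 : Equiv.Perm (Fin n)))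
          (hP.is_comm.comm ⟨x, hx⟩ ⟨y, hy⟩)
      have hTcyc : ¬ IsCyclic T := fun h =>
        hcyc ((MulEquiv.isCyclic ((P : Subgroup (alternatingGroup (Fin n))).equivMapOfInjective _ (alternatingGroup (Fin n)).subtype_injective)).2 h)
      obtain ⟨σ, hσs, hσn, ⟨x, hx, hσx⟩, hσ2⟩ := exists_inverting hp2 T (P.isPGroup'.map _) hTcard hTc hTcyc
      let g : (alternatingGroup (Fin n)) := ⟨σ, Equiv.Perm.mem_alternatingGroup.2 hσs⟩
      have hg2 : g * g = 1 := Subtype.ext hσ2
      have hgN : g ∈ N := by
        rw [hN, Subgroup.mem_normalizer_iff]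
        have h1 : ∀ y ∈ (P : Subgroup (alternatingGroup (Fin n))), g * y * g⁻¹ ∈ (P : Subgroup (alternatingGroup (Fin n))) := by
          intro y hy
          obtain ⟨z, hz, hzy⟩ := hσn _ ⟨y, hy, rfl⟩
          have : z = g * y * g⁻¹ := Subtype.ext hzy
          exact this ▸ hz
        intro y
        refine ⟨h1 y, fun h => ?_⟩
        have h3 := h1 _ h
        have hgi : g⁻¹ = g := inv_eq_of_mul_eq_one_right hg2
        have e : g * (g * y * g⁻¹) * g⁻¹ = y := by
          rw [hgi, show g * (g * y * g) * g = (g * g) * y * (g * g) by group, hg2, one_mul, mul_one]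
        rwa [e] at h3
      have hgC : g ∉ C := by
        intro h
        obtain ⟨y, hy, rfl⟩ := hx
        exact hσx (congrArg Subtype.val ((Subgroup.mem_centralizer_iff.1 h) y hy)).symm
      haveI : (C.subgroupOf N).Normal := by
        refine (Subgroup.normal_subgroupOf_iff (Subgroup.centralizer_le_normalizer _)).2 ?_
        intro h z hh hz
        refine Subgroup.mem_centralizer_iff.2 fun y hy => ?_
        have hy' : z⁻¹ * y * z ∈ (P : Subgroup (alternatingGroup (Fin n))) := by
          have := (Subgroup.mem_normalizer_iff.1 (inv_mem hz) y).1 hy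
          simpa using this
        have := Subgroup.mem_centralizer_iff.1 hh _ hy'
        have h2 := congrArg (fun w => z * w * z⁻¹) this
        simpa [mul_assoc] using h2
      have hord : orderOf (QuotientGroup.mk' (C.subgroupOf N) ⟨g, hgN⟩) = 2 := by
        refine orderOf_eq_prime ?_ ?_
        · rw [← map_pow, show (⟨g, hgN⟩ : N) ^ 2 = 1 from Subtype.ext (by
            rw [SubgroupClass.coe_pow, pow_two, hg2, Subgroup.coe_one]), map_one]
        · intro h
          exact hgC (Subgroup.mem_subgroupOf.1 ((QuotientGroup.eq_one_iff _).1 h))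
      rw [Subgroup.index_eq_card, ← hord]
      exact orderOf_dvd_natCard _
  · rintro ⟨rfl, rfl⟩
    have h4 : Nat.card (P : Subgroup (alternatingGroup (Fin 5))) = 4 := by
      rw [hcard]
      have : padicValNat 2 ((5 : ℕ).factorial / 2) = 2 := by
        rw [show (5 : ℕ).factorial / 2 = 2 ^ 2 * 15 by rfl,
          padicValNat.mul (by norm_num) (by norm_num), padicValNat.prime_pow,
          padicValNat.eq_zero_of_not_dvd (by norm_num)]
      rw [this]; norm_num
    have hnp : ∀ Q : Sylow 2 (alternatingGroup (Fin 5)), ∀ x ∈ (Q : Subgroup (alternatingGroup (Fin 5))), x ^ 2 = 1 := by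
      intro Q x hx
      have hc : Nat.card (Q : Subgroup (alternatingGroup (Fin 5))) = 4 := by
        rw [← h4]; exact Nat.card_congr (Q.equiv P).toEquiv
      have hord : orderOf x ∣ 4 := by
        rw [← hc]; exact Subgroup.orderOf_dvd_natCard _ hx
      have key : ∀ z : alternatingGroup (Fin 5), z ^ 4 = 1 → z ^ 2 = 1 := by decide +kernel
      exact key x (orderOf_dvd_iff_pow_eq_one.1 hord)
    have hK : IsKleinFour (P : Subgroup (alternatingGroup (Fin 5))) := by
      refine ⟨h4, ?_⟩
      refine Nat.dvd_antisymm (Monoid.exponent_dvd_of_forall_pow_eq_one fun x =>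
        Subtype.ext (hnp P x x.2)) ?_
      haveI : Nontrivial (P : Subgroup (alternatingGroup (Fin 5))) := Finite.one_lt_card_iff_nontrivial.1 (by omega)
      obtain ⟨x, hx⟩ := exists_ne (1 : (P : Subgroup (alternatingGroup (Fin 5))))
      have hx2 : orderOf x = 2 := orderOf_eq_prime (Subtype.ext (hnp P x x.2)) hx
      exact hx2.symm.dvd.trans (Monoid.order_dvd_exponent x)
    refine ⟨?_, hK⟩
    -- `N = A₄`, `C = P`
    have hCP : C = (P : Subgroup (alternatingGroup (Fin 5))) := by
      refine le_antisymm ?_ (fun x hx => Subgroup.mem_centralizer_iff.2 fun y hy =>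
        congrArg Subtype.val (hP.is_comm.comm (⟨y, hy⟩ : (P : Subgroup (alternatingGroup (Fin 5)))) ⟨x, hx⟩))
      intro x hx
      haveI : Nontrivial (P : Subgroup (alternatingGroup (Fin 5))) := Finite.one_lt_card_iff_nontrivial.1 (by omega)
      obtain ⟨u, hu⟩ := exists_ne (1 : (P : Subgroup (alternatingGroup (Fin 5))))
      have hxu : u.1 * x = x * u.1 := Subgroup.mem_centralizer_iff.1 hx u.1 u.2
      have key : ∀ u : alternatingGroup (Fin 5), u ≠ 1 → u ^ 2 = 1 →
          (Finset.univ.filter fun x => u * x = x * u).card ≤ 4 := by decide +kernel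
      by_contra hxP
      have hle : (Finset.univ.filter fun y => y ∈ (P : Subgroup (alternatingGroup (Fin 5)))).card + 1 ≤
          (Finset.univ.filter fun y : (alternatingGroup (Fin 5)) => u.1 * y = y * u.1).card := by
        rw [← Finset.card_insert_of_notMem (a := x) (by simp [hxP])]
        refine Finset.card_le_card fun y hy => ?_
        rcases Finset.mem_insert.1 hy with rfl | hy
        · simpa using hxu
        · simp only [Finset.mem_filter, Finset.mem_univ, true_and] at hy ⊢
          exact congrArg Subtype.val (hP.is_comm.comm u ⟨y, hy⟩)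
      have hPc : (Finset.univ.filter fun y => y ∈ (P : Subgroup (alternatingGroup (Fin 5)))).card = 4 := by
        rw [← h4, Nat.card_eq_fintype_card, Fintype.card_subtype]
      have := key u.1 (fun h => hu (Subtype.ext h)) (hnp P u.1 u.2)
      omega
    have hN12 : Nat.card N = 12 := by
      have hmul := N.card_mul_index
      rw [nat_card_alternatingGroup, Nat.card_fin, show (5 : ℕ).factorial / 2 = 60 by rfl] at hmul
      have hidx : N.index = Nat.card (Sylow 2 (alternatingGroup (Fin 5))) := (Sylow.card_eq_index_normalizer P).symm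
      have hmod : Nat.card (Sylow 2 (alternatingGroup (Fin 5))) ≡ 1 [MOD 2] := card_sylow_modEq_one 2 (alternatingGroup (Fin 5))
      have h4d : Nat.card (P : Subgroup (alternatingGroup (Fin 5))) ∣ Nat.card N := Subgroup.card_dvd_of_le Subgroup.le_normalizer
      rw [h4] at h4d
      obtain ⟨c, hc⟩ := h4d
      have hc15 : c * N.index = 15 := by rw [hc] at hmul; nlinarith
      have hne1 : N.index ≠ 1 := by
        intro h
        haveI : IsSimpleGroup (alternatingGroup (Fin 5)) := alternatingGroup.isSimpleGroup (by rw [Nat.card_fin])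
        have htop : N = ⊤ := Subgroup.index_eq_one.1 h
        haveI : (P : Subgroup (alternatingGroup (Fin 5))).Normal := Subgroup.normalizer_eq_top_iff.1 htop
        rcases (inferInstance : (P : Subgroup (alternatingGroup (Fin 5))).Normal).eq_bot_or_eq_top with h0 | h0
        · rw [h0, Subgroup.card_bot] at h4; omega
        · rw [h0, Subgroup.card_top, nat_card_alternatingGroup, Nat.card_fin] at h4
          norm_num [Nat.factorial] at h4
      -- an element of order three normalises `P`
      have hdiv : N.index ∣ 15 := ⟨c, by rw [← hc15]; ring⟩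
      have : N.index = 5 := by
        have hle := Nat.le_of_dvd (by norm_num) hdiv
        by_contra h5
        have hcases : N.index = 3 ∨ N.index = 15 := by
          revert hdiv h5 hne1
          generalize N.index = k at hle ⊢
          intro hdiv h5 hne1
          interval_cases k <;> omega
        rcases hcases with h3 | h15
        · haveI : IsSimpleGroup (alternatingGroup (Fin 5)) := alternatingGroup.isSimpleGroup (by rw [Nat.card_fin])
          rcases (N.normalCore_normal).eq_bot_or_eq_top with h0 | h0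
          · have h6 : N.normalCore.index ∣ (N.index).factorial := by
              rw [Subgroup.normalCore_eq_ker, Subgroup.index_ker]
              refine dvd_trans (Subgroup.card_subgroup_dvd_card _) ?_
              rw [Nat.card_perm]; rfl
            rw [h0, Subgroup.index_bot, h3, nat_card_alternatingGroup, Nat.card_fin] at h6
            norm_num [Nat.factorial] at h6
          · have := Subgroup.index_eq_one.2 (eq_top_iff.2 (h0 ▸ N.normalCore_le))
            omega
        · -- then `P` is self-normalising and abelian: Burnside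
          haveI : IsSimpleGroup (alternatingGroup (Fin 5)) := alternatingGroup.isSimpleGroup (by rw [Nat.card_fin])
          have hc1 : c = 1 := by rw [h15] at hc15; omega
          have hNP : (P : Subgroup (alternatingGroup (Fin 5))) = N := Subgroup.eq_of_le_of_card_ge Subgroup.le_normalizer
            (by rw [h4, hc, hc1])
          have hle : N ≤ C := hNP ▸ hCP.ge
          have hcompl := MonoidHom.ker_transferSylow_isComplement' P hle
          rcases (MonoidHom.normal_ker (MonoidHom.transferSylow P hle)).eq_bot_or_eq_top with h | h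
          · rw [h] at hcompl
            have htop := Subgroup.isComplement'_bot_left.1 hcompl
            rw [htop, Subgroup.card_top, nat_card_alternatingGroup, Nat.card_fin] at h4
            norm_num [Nat.factorial] at h4
          · rw [h] at hcompl
            rw [Subgroup.isComplement'_top_left.1 hcompl, Subgroup.card_bot] at h4
            omega
      rw [this] at hmul; omega
    have hci : Nat.card (C.subgroupOf N) = 4 := by
      rw [Nat.card_congr (Subgroup.subgroupOfEquivOfLe (hCP.symm ▸ Subgroup.le_normalizer :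
        C ≤ N)).toEquiv, hCP, h4]
    have := (C.subgroupOf N).card_mul_index
    rw [hci, hN12] at this
    omega

end Cfsg.Agent.S2269
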