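import Cfsg.Statements.S2270
-- import your own Cfsg.Agent.* helpers here

set_option autoImplicit false
open Cfsg

namespace Cfsg.Agent.S2270

/-- Let n ≥ 3, p an odd prime, and P an abelian Sylow p-subgroup of the symmetric group S_n (with p dividing n!, so that P ≠ 1). Then N(P)/C(P) has even order. -/
theorem result (n : ℕ) (hn : 3 ≤ n) {p : ℕ} [Fact p.Prime] (hp : p ≠ 2) (hpn : p ≤ n)
    (P : Sylow p (Equiv.Perm (Fin n))) (hP : IsMulCommutative (P : Subgroup (Equiv.Perm (Fin n)))) :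
    2 ∣ ((Subgroup.centralizer ((P : Subgroup (Equiv.Perm (Fin n))) : Set (Equiv.Perm (Fin n)))).subgroupOf (Subgroup.normalizer ((P : Subgroup (Equiv.Perm (Fin n))) : Set (Equiv.Perm (Fin n))))).index := by
  classical
  set N := Subgroup.normalizer ((P : Subgroup (Equiv.Perm (Fin n))) : Set (Equiv.Perm (Fin n))) with hN
  set C := (Subgroup.centralizer ((P : Subgroup (Equiv.Perm (Fin n))) : Set (Equiv.Perm (Fin n)))).subgroupOf N with hC
  have hnormal : C.Normal := by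
    have hk : C = (P : Subgroup (Equiv.Perm (Fin n))).normalizerMonoidHom.ker :=
      (Subgroup.normalizerMonoidHom_ker _).symm
    rw [hk]; infer_instance
  have hdvd : p ∣ Nat.card (Equiv.Perm (Fin n)) := by
    rw [Nat.card_perm, Nat.card_fin]
    exact Nat.dvd_factorial (Fact.out : p.Prime).pos hpn
  have hne : (P : Subgroup (Equiv.Perm (Fin n))) ≠ ⊥ := P.ne_bot_of_dvd_card hdvd
  obtain ⟨x, hxP, hx1⟩ := (Subgroup.ne_bot_iff_exists_ne_one.1 hne).elim
    (fun x hx => ⟨(x : (Equiv.Perm (Fin n))), x.2, fun h => hx (Subtype.ext h)⟩ : ∀ x : (P : Subgroup (Equiv.Perm (Fin n))), x ≠ 1 →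
      ∃ y : (Equiv.Perm (Fin n)), y ∈ (P : Subgroup (Equiv.Perm (Fin n))) ∧ y ≠ 1)
  have hcent : ∀ y ∈ (P : Subgroup (Equiv.Perm (Fin n))), y ∈ Subgroup.centralizer ((P : Subgroup (Equiv.Perm (Fin n))) : Set (Equiv.Perm (Fin n))) := by
    intro y hy z hz
    exact congrArg Subtype.val (hP.is_comm.comm ⟨z, hz⟩ ⟨y, hy⟩)
  obtain ⟨g, hg⟩ : ∃ g : (Equiv.Perm (Fin n)), g⁻¹ * x * g = x⁻¹ := by
    obtain ⟨c, hc⟩ := isConj_iff.1 ((Equiv.Perm.isConj_iff_cycleType_eq (σ := x) (τ := x⁻¹)).2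
      (Equiv.Perm.cycleType_inv x).symm)
    exact ⟨c⁻¹, by simpa using hc⟩
  obtain ⟨m, hm, hmx⟩ := Sylow.conj_eq_normalizer_conj_of_mem_centralizer P x g (hcent x hxP)
    (by rw [hg]; exact hcent _ (inv_mem hxP))
  rw [hg] at hmx
  by_contra hodd
  obtain ⟨k, hk⟩ := Nat.not_even_iff_odd.1 (fun h => hodd (even_iff_two_dvd.1 h))
  have h1 : (⟨m, hm⟩ : N) ^ C.index ∈ C := C.pow_index_mem _
  generalize hK : C.index = K at h1 hk
  rw [hC, Subgroup.mem_subgroupOf] at h1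
  push_cast at h1
  have hmm : m⁻¹ * x * m = x⁻¹ := hmx.symm
  have hsq : Commute (m ^ 2) x := by
    have h2 : m⁻¹ * x⁻¹ * m = x := by
      have := congrArg (·⁻¹) hmm
      simpa [mul_assoc] using this
    have h3 : (m ^ 2)⁻¹ * x * m ^ 2 = x := by
      calc (m ^ 2)⁻¹ * x * m ^ 2 = m⁻¹ * (m⁻¹ * x * m) * m := by
            simp only [pow_two, mul_inv_rev, mul_assoc]
        _ = x := by rw [hmm, h2]
    calc m ^ 2 * x = m ^ 2 * ((m ^ 2)⁻¹ * x * m ^ 2) := by rw [h3]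
      _ = x * m ^ 2 := by group
  have hcomm : Commute m x := by
    have h4 : Commute (m ^ K) x := (h1 x hxP).symm
    rw [hk, pow_succ, pow_mul] at h4
    have h6 := ((hsq.pow_left k).inv_left).mul_left h4
    rwa [← mul_assoc, inv_mul_cancel, one_mul] at h6
  have hinv : x = x⁻¹ := by
    rw [mul_assoc, ← hcomm.eq, inv_mul_cancel_left] at hmm
    exact hmm
  have ho : orderOf x ∣ 2 := orderOf_dvd_of_pow_eq_one (by
    rw [sq]; nth_rewrite 2 [hinv]; exact mul_inv_cancel x)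
  obtain ⟨j, hj⟩ := IsPGroup.iff_orderOf.1 P.2 ⟨x, hxP⟩
  rw [Subgroup.orderOf_mk] at hj
  rw [hj] at ho
  rcases j with _ | j
  · exact hx1 (orderOf_eq_one_iff.1 (by simpa using hj))
  · exact hp ((Nat.prime_dvd_prime_iff_eq (Fact.out : p.Prime) Nat.prime_two).1
      (dvd_trans (dvd_pow_self p j.succ_ne_zero) ho))

end Cfsg.Agent.S2270
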