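import Cfsg.Statements.S2278
import Cfsg.Agent.Lib.Generators.RegularPairThreeGeneric
import Cfsg.Agent.Lib.Generators.RegularPairThreeSmall

set_option autoImplicit false
open Cfsg

namespace Cfsg.Agent.S2278

/-- Let F be a finite field. Then SL_3(F) is generated by two conjugate regular unipotent elements: there are u with u − 1 nilpotent and (u − 1)² ≠ 0, and g, such that u and g u g⁻¹ generate SL_3(F). -/
theorem result {F : Type*} [Field F] [Fintype F] :
    ∃ u g : Matrix.SpecialLinearGroup (Fin 3) F, IsNilpotent ((u : Matrix (Fin 3) (Fin 3) F) - 1) ∧ ((u : Matrix (Fin 3) (Fin 3) F) - 1) ^ (3 - 1) ≠ 0 ∧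
      Subgroup.closure ({u, g * u * g⁻¹} : Set (Matrix.SpecialLinearGroup (Fin 3) F)) = ⊤ := by
  classical
  by_cases hq : Fintype.card F ∈ ({2, 3, 4, 7, 16} : Finset ℕ)
  · simp only [Finset.mem_insert, Finset.mem_singleton] at hq
    have : Fact (Nat.Prime 2) := ⟨Nat.prime_two⟩
    have : Fact (Nat.Prime 3) := ⟨Nat.prime_three⟩
    have : Fact (Nat.Prime 7) := ⟨by norm_num⟩
    rcases hq with h | h | h | h | h
    · exact CfsgLib.Generators.RegularPairThree.exists_pair_prime 2 h _
        CfsgLib.Generators.RegularPairThree.valid2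
    · exact CfsgLib.Generators.RegularPairThree.exists_pair_prime 3 h _
        CfsgLib.Generators.RegularPairThree.valid3
    · exact CfsgLib.Generators.RegularPairThree.exists_pair_four h
    · exact CfsgLib.Generators.RegularPairThree.exists_pair_prime 7 h _
        CfsgLib.Generators.RegularPairThree.valid7
    · exact CfsgLib.Generators.RegularPairThree.exists_pair_sixteen h
  · exact CfsgLib.Generators.RegularPairThree.exists_pair_generic hq

end Cfsg.Agent.S2278
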