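import Cfsg.Statements.S2281
import Cfsg.Agent.Lib.RegularGenForms.SpMain

set_option autoImplicit false
open Cfsg

namespace Cfsg.Agent.S2281

/-- Let F be a finite field and n ≥ 2, excluding the case n = 2 with F of two elements (where the group is not quasisimple). Then the symplectic group Sp_2n(F) is generated by three conjugate regular unipotent elements: there are u ∈ Sp_2n(F) with u − 1 nilpotent and (u − 1)^(2n−1) ≠ 0, and g, h ∈ Sp_2n(F), such that u, g u g⁻¹ and h u h⁻¹ generate Sp_2n(F). -/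
theorem result {F : Type*} [Field F] [Fintype F] (n : ℕ) (hn : 2 ≤ n) (h22 : ¬ (n = 2 ∧ Fintype.card F = 2)) :
    ∃ u g h : Matrix.symplecticGroup (Fin n) F,
      IsNilpotent ((u : Matrix (Fin n ⊕ Fin n) (Fin n ⊕ Fin n) F) - 1) ∧
      ((u : Matrix (Fin n ⊕ Fin n) (Fin n ⊕ Fin n) F) - 1) ^ (2 * n - 1) ≠ 0 ∧
      Subgroup.closure ({u, g * u * g⁻¹, h * u * h⁻¹} : Set (Matrix.symplecticGroup (Fin n) F)) = ⊤ := by
  exact CfsgLib.RegularGenForms.sp_generated hn h22

end Cfsg.Agent.S2281
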