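import Cfsg.Statements.S2283
import Cfsg.Agent.Lib.SectRank.UnitaryUnipotentGen

set_option autoImplicit false
open Cfsg

namespace Cfsg.Agent.S2283

/-- Let F be a field with q² elements, q ≥ 3, and SU_3(q) the special unitary group of the standard Hermitian form. Then SU_3(q) is generated by two conjugate regular unipotent elements: there are u ∈ SU_3(q) with u − 1 nilpotent and (u − 1)² ≠ 0, and g ∈ SU_3(q), such that u and g u g⁻¹ generate SU_3(q). -/
theorem result {F : Type*} [Field F] [Fintype F] (q : ℕ) (hq : 3 ≤ q) (hF : Fintype.card F = q ^ 2) :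
    ∃ u g : ↥(Cfsg.SU 3 F q), (IsNilpotent (((u : Matrix.SpecialLinearGroup (Fin 3) F) : Matrix (Fin 3) (Fin 3) F) - 1) ∧ (((u : Matrix.SpecialLinearGroup (Fin 3) F) : Matrix (Fin 3) (Fin 3) F) - 1) ^ (3 - 1) ≠ 0) ∧
      Subgroup.closure ({u, g * u * g⁻¹} : Set ↥(Cfsg.SU 3 F q)) = ⊤ := by
  exact CfsgLib.SectRank.SUPair.exists_regular_pair hq hF

end Cfsg.Agent.S2283
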