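import Cfsg.Statements.S2286
import Cfsg.Agent.Lib.SL2Pres.Rels

set_option autoImplicit false
open Cfsg

namespace Cfsg.Agent.S2286

open CfsgLib.SL2Pres
open scoped MatrixGroups

/-- In characteristic two the centre of `SL₂` is trivial. -/
theorem center_eq_bot {F : Type*} [Field F] [Finite F] [CharP F 2] :
    Subgroup.center (SL(2, F)) = ⊥ := by
  refine eq_bot_iff.2 fun A hA => ?_
  obtain ⟨r, hr, hrA⟩ := Matrix.SpecialLinearGroup.mem_center_iff.1 hA
  rw [Fintype.card_fin, sq, mul_self_eq_one_iff, CharTwo.neg_eq, or_self] at hr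
  subst hr
  rw [Subgroup.mem_bot]
  exact Subtype.ext (hrA.symm.trans (map_one _))

/-- For every finite field F, SL_2(F) and PSL_2(F) have presentations with 3 generators and at most 9 relations; when F has characteristic 2, PSL_2(F) has a presentation with 3 generators and at most 5 relations. -/
theorem result {F : Type*} [Field F] [Fintype F] :
    (∃ rels : Finset (FreeGroup (Fin 3)), rels.card ≤ 9 ∧ Nonempty (PresentedGroup (↑rels : Set (FreeGroup (Fin 3))) ≃* Matrix.SpecialLinearGroup (Fin 2) F)) ∧ (∃ rels : Finset (FreeGroup (Fin 3)), rels.card ≤ 9 ∧ Nonempty (PresentedGroup (↑rels : Set (FreeGroup (Fin 3))) ≃* Matrix.ProjectiveSpecialLinearGroup (Fin 2) F)) ∧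
    (CharP F 2 → ∃ rels : Finset (FreeGroup (Fin 3)), rels.card ≤ 5 ∧ Nonempty (PresentedGroup (↑rels : Set (FreeGroup (Fin 3))) ≃* Matrix.ProjectiveSpecialLinearGroup (Fin 2) F)) := by
  obtain ⟨p, hcp⟩ := CharP.exists F
  haveI : Fact p.Prime := ⟨CharP.char_is_prime F p⟩
  letI := ZMod.algebra F p
  by_cases hp : p = 2
  · subst hp
    obtain ⟨R, hR, ⟨e⟩⟩ := presentation_even (F := F)
    let e' : SL(2, F) ≃* PSL(2, F) :=
      MulEquiv.ofBijective (QuotientGroup.mk' (Subgroup.center (SL(2, F))))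
        ⟨(MonoidHom.ker_eq_bot_iff _).1 (by rw [QuotientGroup.ker_mk', center_eq_bot]), QuotientGroup.mk'_surjective _⟩
    exact ⟨⟨R, hR.trans (by norm_num), ⟨e⟩⟩, ⟨R, hR.trans (by norm_num), ⟨e.trans e'⟩⟩,
      fun _ => ⟨R, hR, ⟨e.trans e'⟩⟩⟩
  · obtain ⟨h1, h2⟩ := presentation_odd (F := F) hp
    exact ⟨h1, h2, fun h => absurd (CharP.eq F hcp h) hp⟩

end Cfsg.Agent.S2286
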