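import Cfsg.Statements.S2288
import Cfsg.Agent.Lib.SLnPres.Proj
-- import your own Cfsg.Agent.* helpers here

set_option autoImplicit false
open Cfsg

namespace Cfsg.Agent.S2288

/-- For every finite field F and n ≥ 4: SL_n(F) has a presentation with 7 generators and at most 25 relations, and PSL_n(F) one with 7 generators and at most 26 relations; moreover SL_4(F) has one with 6 generators and at most 21 relations and SL_5(F) one with 6 generators and at most 22 relations. -/
theorem result {F : Type*} [Field F] [Fintype F] (n : ℕ) (hn : 4 ≤ n) :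
    (∃ rels : Finset (FreeGroup (Fin 7)), rels.card ≤ 25 ∧ Nonempty (PresentedGroup (↑rels : Set (FreeGroup (Fin 7))) ≃* Matrix.SpecialLinearGroup (Fin n) F)) ∧ (∃ rels : Finset (FreeGroup (Fin 7)), rels.card ≤ 26 ∧ Nonempty (PresentedGroup (↑rels : Set (FreeGroup (Fin 7))) ≃* Matrix.ProjectiveSpecialLinearGroup (Fin n) F)) ∧
    (∃ rels : Finset (FreeGroup (Fin 6)), rels.card ≤ 21 ∧ Nonempty (PresentedGroup (↑rels : Set (FreeGroup (Fin 6))) ≃* Matrix.SpecialLinearGroup (Fin 4) F)) ∧ (∃ rels : Finset (FreeGroup (Fin 6)), rels.card ≤ 22 ∧ Nonempty (PresentedGroup (↑rels : Set (FreeGroup (Fin 6))) ≃* Matrix.SpecialLinearGroup (Fin 5) F)) := by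
  exact ⟨CfsgLib.SLnPres.hasPres_succ (CfsgLib.SLnPres.hasPres_succ (CfsgLib.SLnPres.hasPres_five hn)),
    CfsgLib.SLnPres.hasPres_psl
      (CfsgLib.SLnPres.hasPres_succ (CfsgLib.SLnPres.hasPres_succ (CfsgLib.SLnPres.hasPres_five hn))),
    (CfsgLib.SLnPres.hasPres_succ CfsgLib.SLnPres.hasPres_four).mono (by norm_num),
    CfsgLib.SLnPres.hasPres_succ CfsgLib.SLnPres.hasPres_fifth⟩

end Cfsg.Agent.S2288
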