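import Cfsg.Statements.S2290
import Cfsg.Agent.Lib.SLnPres.Proj
import Cfsg.Agent.Lib.SL3Pres.Main
import Cfsg.Agent.S2286
import Cfsg.Agent.S2402
import Cfsg.Agent.S2403

set_option autoImplicit false
open Cfsg

namespace Cfsg.Agent.S2290

open CfsgLib.ShortPres (HasPres)

universe u

theorem hasPres_pair {Γ : Type u} [Group Γ] {a r : ℕ} (h : HasPres Γ a r) {g₁ g₂ : Γ}
    (hg : Subgroup.closure ({g₁, g₂} : Set Γ) = ⊤) : HasPres Γ 2 (r + 2) := by
  obtain ⟨R, hR, ⟨e⟩⟩ := h
  have hab : Subgroup.closure ({e.symm g₁, e.symm g₂} :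
      Set (PresentedGroup (↑R : Set (FreeGroup (Fin a))))) = ⊤ := by
    rw [show ({e.symm g₁, e.symm g₂} : Set _) = e.symm.toMonoidHom '' {g₁, g₂} from
        (Set.image_pair _ g₁ g₂).symm, ← MonoidHom.map_closure, hg,
      Subgroup.map_top_of_surjective _ e.symm.surjective]
  obtain ⟨R', hR', e', -, -⟩ :=
    CfsgLib.ShortPres.HasPres.pair (⟨R, hR, ⟨MulEquiv.refl _⟩⟩ :
      HasPres (PresentedGroup (↑R : Set (FreeGroup (Fin a)))) a r) hab
  exact ⟨R', hR', ⟨e'.trans e⟩⟩

theorem two_generated {F : Type*} [Field F] [Fintype F] (m : ℕ) (hm : 1 ≤ m) :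
    ∃ g₁ g₂ : Matrix.ProjectiveSpecialLinearGroup (Fin (m + 1)) F,
      Subgroup.closure ({g₁, g₂} : Set (Matrix.ProjectiveSpecialLinearGroup (Fin (m + 1)) F)) = ⊤ := by
  let G := Matrix.SpecialLinearGroup (Fin (m + 1)) F
  suffices h : ∃ g₁ g₂ : G, Subgroup.closure ({g₁, g₂} : Set G) ⊔ Subgroup.center G = ⊤ by
    obtain ⟨g₁, g₂, hg⟩ := h
    refine ⟨QuotientGroup.mk' _ g₁, QuotientGroup.mk' _ g₂, ?_⟩
    have hs := QuotientGroup.mk'_surjective (Subgroup.center G)
    rw [← Set.image_pair, ← MonoidHom.map_closure, ← Subgroup.map_top_of_surjective _ hs, ← hg,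
      Subgroup.map_sup, QuotientGroup.map_mk'_self, sup_bot_eq]
  have h01 : (0 : Fin (m + 1)) ≠ 1 := by
    obtain ⟨j, rfl⟩ : ∃ j, m = j + 1 := ⟨m - 1, by omega⟩
    simp
  let x : G := Matrix.SpecialLinearGroup.transvection h01 1
  have hw : ∃ w : G, (w : Matrix (Fin (m + 1)) (Fin (m + 1)) F) =
      Matrix.of (fun i j => if j.val = i.val + 1 then 1 else if i.val = m ∧ j.val = 0 then (-1) ^ m else 0) := by
    set M : Matrix (Fin (m + 1)) (Fin (m + 1)) F :=
      Matrix.of (fun i j => if j.val = i.val + 1 then 1 else if i.val = m ∧ j.val = 0 then (-1) ^ m else 0)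
    have hM : M = (finRotate (m + 1)).permMatrix F *
        Matrix.diagonal (fun j => if j.val = 0 then (-1 : F) ^ m else 1) := by
      ext i j
      rw [Matrix.mul_diagonal]
      simp only [M, Matrix.of_apply, Equiv.Perm.permMatrix, PEquiv.toMatrix_apply, Equiv.toPEquiv_apply,
        Option.mem_some_iff, finRotate_apply, Fin.ext_iff, Fin.val_add_one]
      by_cases hi : (i : ℕ) = m
      · have hj := j.isLt
        simp only [hi, Fin.val_last, if_true, true_and]
        by_cases hj0 : (j : ℕ) = 0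
        · simp [hj0]
        · rw [if_neg (by omega), if_neg hj0, if_neg (Ne.symm hj0), zero_mul]
      · simp only [hi, Fin.val_last, if_false, false_and]
        by_cases hj0 : (j : ℕ) = i.val + 1
        · rw [if_pos hj0, if_pos hj0.symm, if_neg (by omega), one_mul]
        · rw [if_neg hj0, if_neg (Ne.symm hj0), zero_mul]
    refine ⟨⟨M, ?_⟩, rfl⟩
    rw [hM, Matrix.det_mul, Matrix.det_permutation, Matrix.det_diagonal, sign_finRotate,
      Fin.prod_univ_succ]
    simp [← mul_pow]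
  obtain ⟨w, hw⟩ := hw
  by_cases hF : 3 < Fintype.card F
  · obtain ⟨k, hk⟩ := IsCyclic.exists_generator (α := Fˣ)
    have hd : ∃ h : G, (h : Matrix (Fin (m + 1)) (Fin (m + 1)) F) = Matrix.diagonal
        (fun i => if i.val = 0 then (k : F) else if i.val = 1 then ((k⁻¹ : Fˣ) : F) else 1) := by
      refine ⟨Matrix.SpecialLinearGroup.diag2n h01 (k : F) k.ne_zero, ?_⟩
      rw [Matrix.SpecialLinearGroup.diag2n_coe]
      congr 1
      funext i
      have h1 : ((1 : Fin (m + 1)) : ℕ) = 1 := Nat.mod_eq_of_lt (a := 1) (b := m + 1) (by omega)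
      simp only [Fin.ext_iff, h1, Fin.val_zero, Units.val_inv_eq_inv_val]
    obtain ⟨h, hh⟩ := hd
    exact ⟨h, x * w, Cfsg.Agent.S2402.result hF m hm k hk h x w hh rfl hw⟩
  · exact ⟨x, w, Cfsg.Agent.S2403.result (by omega) m hm x w rfl hw⟩

/-- For every finite field F with q elements and n ≥ 2, with q ≥ 4 when n = 2, the simple group PSL_n(F) has a presentation with 2 generators and at most 80 relations. -/
theorem result {F : Type*} [Field F] [Fintype F] (n : ℕ) (hn : 2 ≤ n) (h2 : n = 2 → 4 ≤ Fintype.card F) :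
    ∃ rels : Finset (FreeGroup (Fin 2)), rels.card ≤ 80 ∧ Nonempty (PresentedGroup (↑rels : Set (FreeGroup (Fin 2))) ≃* Matrix.ProjectiveSpecialLinearGroup (Fin n) F) := by
  obtain ⟨a, r, hr, hP⟩ : ∃ a r, r ≤ 78 ∧ HasPres (Matrix.ProjectiveSpecialLinearGroup (Fin n) F) a r := by
    rcases (show n = 2 ∨ n = 3 ∨ 4 ≤ n by omega) with rfl | rfl | h
    · exact ⟨3, 9, by norm_num, (Cfsg.Agent.S2286.result (F := F)).2.1⟩
    · exact ⟨4, 15, by norm_num, CfsgLib.SLnPres.hasPres_psl (r := 14) CfsgLib.SL3Pres.presentation⟩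
    · exact ⟨5, 24, by norm_num, CfsgLib.SLnPres.hasPres_psl (CfsgLib.SLnPres.hasPres_five h)⟩
  obtain ⟨m, rfl⟩ : ∃ m, n = m + 1 := ⟨n - 1, by omega⟩
  obtain ⟨g₁, g₂, hg⟩ := two_generated (F := F) m (by omega)
  exact (hasPres_pair hP hg).mono (by omega)

end Cfsg.Agent.S2290
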