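import Cfsg.Statements.S2291
import Cfsg.Agent.Lib.SUPres.All
import Cfsg.Agent.Lib.KnownSimple.TwoGen.UnitaryTransfer
import Cfsg.Agent.S2290

set_option autoImplicit false
open Cfsg

namespace Cfsg.Agent.S2291

/-- Let F be a field with q² elements and n ≥ 3 with (n, q) ≠ (3, 2). Then the simple group PSU_n(q) (for the standard Hermitian form) has a presentation with 2 generators and at most 80 relations. -/
theorem result {F : Type*} [Field F] [Fintype F] (q n : ℕ) (hF : Fintype.card F = q ^ 2) (hn : 3 ≤ n) (h32 : ¬ (n = 3 ∧ q = 2)) :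
    ∃ rels : Finset (FreeGroup (Fin 2)), rels.card ≤ 80 ∧ Nonempty (PresentedGroup (↑rels : Set (FreeGroup (Fin 2))) ≃* Cfsg.PSU n F q) := by
  obtain ⟨a, h⟩ := CfsgLib.SUPres.psu_any (F := F) (q := q) (by rw [Nat.card_eq_fintype_card, hF]) hn h32
  obtain ⟨g₁, g₂, hg⟩ := CfsgLib.KnownSimple.TwoGen.Unitary.psu_two_generated hF n hn h32
  exact (Cfsg.Agent.S2290.hasPres_pair h hg).mono (by omega)

end Cfsg.Agent.S2291
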