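import Cfsg.Statements.S2411
import Cfsg.Agent.Lib.KnownSimple.TwoGen.Symp
-- import your own Cfsg.Agent.* helpers here

set_option autoImplicit false
open Cfsg

namespace Cfsg.Agent.S2411

/-- The projective symplectic group `PSp_{2m}(q)` with `m ≥ 2` (and `q > 2` if `m = 2`) is generated by two of its elements. -/
theorem result {F : Type*} [Field F] [Fintype F] (m : ℕ) (hm : 2 ≤ m) (hF : m = 2 → 2 < Fintype.card F) :
    ∃ a b : Cfsg.PSp m F, Subgroup.closure ({a, b} : Set (Cfsg.PSp m F)) = ⊤ := by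
  classical
  obtain ⟨n, rfl⟩ : ∃ n, m = n + 1 := ⟨m - 1, by omega⟩
  obtain ⟨a, b, hab⟩ : ∃ a b : Matrix.symplecticGroup (Fin (n + 1)) F,
      Subgroup.closure ({a, b} : Set (Matrix.symplecticGroup (Fin (n + 1)) F)) = ⊤ := by
    by_cases h3 : ∃ y : F, y ≠ 0 ∧ y ≠ 1
    · exact CfsgLib.KnownSimple.TwoGen.Symp.exists_gens_of_three (by omega) h3
    · push Not at h3
      have h2 : ∀ y : F, y = 0 ∨ y = 1 := fun y => or_iff_not_imp_left.2 (h3 y)
      refine CfsgLib.KnownSimple.TwoGen.Symp.exists_gens_of_two ?_ h2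
      by_contra hn
      have h4 := hF (by omega)
      have hle : Fintype.card F ≤ ({0, 1} : Finset F).card :=
        Finset.card_le_card (s := Finset.univ) fun y _ => by rcases h2 y with h | h <;> simp [h]
      rw [Finset.card_pair zero_ne_one] at hle
      omega
  refine ⟨QuotientGroup.mk' _ a, QuotientGroup.mk' _ b, ?_⟩
  rw [← Set.image_pair, ← MonoidHom.map_closure, hab, Subgroup.map_top_of_surjective _ (QuotientGroup.mk'_surjective _)]

end Cfsg.Agent.S2411
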