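import Cfsg.Statements.S2292
import Cfsg.Agent.Lib.SpPres.Proj
import Cfsg.Agent.S2290
import Cfsg.Agent.S2411

set_option autoImplicit false
open Cfsg

namespace Cfsg.Agent.S2292

/-- Let F be a finite field with q elements and m ≥ 2 with (m, q) ≠ (2, 2). Then the simple group PSp_2m(F) has a presentation with 2 generators and at most 80 relations. -/
theorem result {F : Type*} [Field F] [Fintype F] (m : ℕ) (hm : 2 ≤ m) (h22 : ¬ (m = 2 ∧ Fintype.card F = 2)) :
    ∃ rels : Finset (FreeGroup (Fin 2)), rels.card ≤ 80 ∧ Nonempty (PresentedGroup (↑rels : Set (FreeGroup (Fin 2))) ≃* Cfsg.PSp m F) := by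
  obtain ⟨a, r, hr, hP⟩ : ∃ a r, r ≤ 78 ∧ CfsgLib.ShortPres.HasPres (Cfsg.PSp m F) a r := by
    rcases (show m = 2 ∨ m = 3 ∨ 4 ≤ m by omega) with rfl | rfl | h
    · exact ⟨6, 29, by norm_num, CfsgLib.Sp4Pres.presentation.2⟩
    · exact ⟨7, 41, by norm_num, CfsgLib.SpPres.hasPres_psp (r := 40) (by norm_num) CfsgLib.SpPres.hasPres_three⟩
    · exact ⟨8, 54, by norm_num, CfsgLib.SpPres.hasPres_psp (r := 53) (by omega) (CfsgLib.SpPres.hasPres_eight h)⟩
  obtain ⟨g₁, g₂, hg⟩ := Cfsg.Agent.S2411.result (F := F) m hm (fun h => by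
    have h1 : 1 < Fintype.card F := Fintype.one_lt_card
    have h2 : Fintype.card F ≠ 2 := fun e => h22 ⟨h, e⟩
    omega)
  exact (Cfsg.Agent.S2290.hasPres_pair hP hg).mono (by omega)

end Cfsg.Agent.S2292
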