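import Cfsg.Statements.S2295
import Cfsg.Agent.Lib.OmegaPlusPres.Main
import Cfsg.Agent.Lib.SLnPres.Proj
-- import your own Cfsg.Agent.* helpers here

set_option autoImplicit false
open Cfsg

namespace Cfsg.Agent.S2295

open CfsgLib.ShortPres (HasPres)

universe u

theorem bounds {F : Type u} [Field F] [Fintype F] {n : ℕ} (hn : 4 ≤ n) :
    ∃ r, r ≤ 31 ∧ (n ≤ 5 → r ≤ 29) ∧ HasPres ↥(Cfsg.Omega F (Cfsg.quadFormPlus n F)) 8 r ∧
      HasPres (Cfsg.POmega F (Cfsg.quadFormPlus n F)) 8 (r + 1) := by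
  obtain ⟨m, rfl⟩ : ∃ m, n = m + 3 := ⟨n - 3, by omega⟩
  have hm : 1 ≤ m := by omega
  have main : ∀ {r : ℕ}, HasPres (Matrix.SpecialLinearGroup (Fin (m + 3)) F) 5 r →
      HasPres ↥(Cfsg.Omega F (Cfsg.quadFormPlus (m + 3) F)) 8 (r + 5 + if m = 1 then 6 else 3) ∧
        HasPres (Cfsg.POmega F (Cfsg.quadFormPlus (m + 3) F)) 8 ((r + 5 + if m = 1 then 6 else 3) + 1) :=
    fun h => ⟨CfsgLib.OmegaPlusPres.hasPres_eight hm h,
      CfsgLib.OmegaPlusPres.hasPres_pomega hm (CfsgLib.OmegaPlusPres.hasPres_eight hm h)⟩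
  rcases (show m = 1 ∨ m = 2 ∨ 3 ≤ m by omega) with rfl | rfl | h
  · exact ⟨29, by norm_num, fun _ => le_rfl, main CfsgLib.SLnPres.hasPres_four⟩
  · exact ⟨29, by norm_num, fun _ => le_rfl, main CfsgLib.SLnPres.hasPres_fifth⟩
  · have hp := main (CfsgLib.SLnPres.hasPres_five (F := F) hn)
    rw [if_neg (by omega)] at hp
    exact ⟨31, le_rfl, fun h5 => by omega, hp⟩

/-- Let F be a finite field and n ≥ 4, and let Ω⁺_2n(F) be the commutator subgroup of the orthogonal group of the hyperbolic quadratic form Σ x_i y_i, with PΩ⁺_2n(F) its central quotient. Then Ω⁺_2n(F) has a presentation with 8 generators and at most 31 relations (at most 29 if n = 4 or 5), and PΩ⁺_2n(F) one with 8 generators and at most 32 relations (at most 30 if n = 4 or 5). -/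
theorem result {F : Type*} [Field F] [Fintype F] (n : ℕ) (hn : 4 ≤ n) :
    (∃ rels : Finset (FreeGroup (Fin 8)), rels.card ≤ 31 ∧ Nonempty (PresentedGroup (↑rels : Set (FreeGroup (Fin 8))) ≃* ↥(Cfsg.Omega F (Cfsg.quadFormPlus n F)))) ∧ (∃ rels : Finset (FreeGroup (Fin 8)), rels.card ≤ 32 ∧ Nonempty (PresentedGroup (↑rels : Set (FreeGroup (Fin 8))) ≃* Cfsg.POmega F (Cfsg.quadFormPlus n F))) ∧
    (n ≤ 5 → (∃ rels : Finset (FreeGroup (Fin 8)), rels.card ≤ 29 ∧ Nonempty (PresentedGroup (↑rels : Set (FreeGroup (Fin 8))) ≃* ↥(Cfsg.Omega F (Cfsg.quadFormPlus n F)))) ∧ (∃ rels : Finset (FreeGroup (Fin 8)), rels.card ≤ 30 ∧ Nonempty (PresentedGroup (↑rels : Set (FreeGroup (Fin 8))) ≃* Cfsg.POmega F (Cfsg.quadFormPlus n F)))) := by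
  obtain ⟨r, hr, hr5, h1, h2⟩ := bounds (F := F) hn
  exact ⟨h1.mono hr, h2.mono (by omega), fun h => ⟨h1.mono (hr5 h), h2.mono (by have := hr5 h; omega)⟩⟩

end Cfsg.Agent.S2295
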