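import Cfsg.Statements.S2336
import Cfsg.Agent.Lib.InvCentralizers.PermModule
import Cfsg.Agent.Lib.CharTheory.PermChar

set_option autoImplicit false
set_option linter.unusedSectionVars false
set_option linter.style.haveILetI false
open Cfsg

namespace Cfsg.Agent.S2336


open Matrix CfsgLib.InvCentralizers.PermModule CfsgLib.CharTheory

variable {F : Type*} [Field F] [Fintype F] [DecidableEq F] {n : ℕ}

local notation "Ω" => X (Fin n) F
local notation "SLn" => SpecialLinearGroup (Fin n) F

omit [Fintype F] [DecidableEq F] in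
theorem act_inv_fix {g : SLn} {x : Ω} (h : act g x = x) : act g⁻¹ x = x := by
  conv_lhs => rw [← h]
  rw [← act_mul, inv_mul_cancel, act_one]

/-- The action on homogeneous functions. -/
noncomputable def rep (l : Fˣ →* ℂ) : Representation ℂ SLn (homog (ι := Fin n) l) where
  toFun g :=
    { toFun := fun φ => ⟨fun x => φ.1 (act g⁻¹ x), fun c x => by simp only [scale_act]; exact φ.2 c _⟩
      map_add' := fun _ _ => rfl
      map_smul' := fun _ _ => rfl }
  map_one' := by
    ext φ : 1
    apply Subtype.ext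
    funext x
    change φ.1 (act (1 : SLn)⁻¹ x) = φ.1 x
    rw [inv_one, act_one]
  map_mul' g h := by
    ext φ : 1
    apply Subtype.ext
    funext x
    change φ.1 (act (g * h)⁻¹ x) = φ.1 (act h⁻¹ (act g⁻¹ x))
    rw [_root_.mul_inv_rev, act_mul]

theorem rep_apply (l : Fˣ →* ℂ) (g : SLn) (φ : homog (ι := Fin n) l) (x : Ω) :
    (rep l g φ).1 x = φ.1 (act g⁻¹ x) := rfl

theorem sum_eq_sum_reps {M : Type*} [AddCommMonoid M] (f : Ω → M) :
    ∑ x, f x = ∑ r ∈ reps F (Fin n), ∑ c : Fˣ, f (scale c r) := by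
  rw [← Finset.sum_coe_sort (reps F (Fin n)) fun r => ∑ c : Fˣ, f (scale c r)]
  rw [← Fintype.sum_prod_type' (f := fun (r : reps F (Fin n)) c => f (scale c r.1))]
  refine (Fintype.sum_bijective (fun p : reps F (Fin n) × Fˣ => scale p.2 p.1.1) ?_ _ _
    fun _ => rfl).symm
  refine ⟨fun p p' h => ?_, fun x => ?_⟩
  · obtain ⟨r, c⟩ := p
    obtain ⟨r', c'⟩ := p'
    have h' : r'.1 = scale (c'⁻¹ * c) r.1 := by
      rw [← scale_scale, show scale c r.1 = scale c' r'.1 from h, scale_scale, inv_mul_cancel,
        scale_one]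
    have hr : r' = r := Subtype.ext (rep_unique r.2 r'.2 h')
    subst hr
    exact Prod.ext rfl (scale_inj h)
  · obtain ⟨r, hr, c, rfl⟩ := exists_rep x
    exact ⟨(⟨r, hr⟩, c), rfl⟩

theorem sum_act_reps {φ : Ω → ℂ} (hφ : φ ∈ homog (1 : Fˣ →* ℂ)) (g : SLn) :
    ∑ r ∈ reps F (Fin n), φ (act g r) = ∑ r ∈ reps F (Fin n), φ r := by
  have h : ∀ f : Ω → ℂ, f ∈ homog (1 : Fˣ →* ℂ) →
      (Fintype.card Fˣ : ℂ) * ∑ r ∈ reps F (Fin n), f r = ∑ x, f x := by
    intro f hf
    rw [sum_eq_sum_reps, Finset.mul_sum]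
    refine Finset.sum_congr rfl fun r _ => ?_
    simp [hf _ r]
  have hq : (Fintype.card Fˣ : ℂ) ≠ 0 := by exact_mod_cast Fintype.card_ne_zero
  apply mul_left_cancel₀ hq
  rw [h φ hφ, h (fun x => φ (act g x)) (fun c x => by simp only [scale_act]; exact hφ c _)]
  let e : Ω ≃ Ω :=
    { toFun := act g
      invFun := act g⁻¹
      left_inv := fun x => by rw [← act_mul, inv_mul_cancel, act_one]
      right_inv := fun x => by rw [← act_mul, mul_inv_cancel, act_one] }
  exact Equiv.sum_comp e φ

/-- Coordinates on homogeneous functions. -/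
noncomputable def coords (l : Fˣ →* ℂ) : homog (ι := Fin n) l ≃ₗ[ℂ] (reps F (Fin n) → ℂ) where
  toFun φ r := φ.1 r
  map_add' _ _ := rfl
  map_smul' _ _ := rfl
  invFun f := ⟨∑ r : reps F (Fin n), f r • dl l r.1,
    Submodule.sum_mem _ fun r _ => Submodule.smul_mem _ _ (dl_mem_homog l _)⟩
  left_inv φ := Subtype.ext (by
    conv_rhs => rw [eq_sum_dl φ.2]
    exact (Finset.sum_coe_sort (reps F (Fin n)) fun r => φ.1 r • dl l r))
  right_inv f := funext fun r => by
    change (∑ r' : reps F (Fin n), f r' • dl l r'.1) r.1 = f r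
    rw [Finset.sum_apply, Finset.sum_eq_single r]
    · rw [Pi.smul_apply, dl_self, smul_eq_mul, mul_one]
    · intro r' _ hne
      rw [Pi.smul_apply, dl_eq_zero_of_ne l r'.2 r.2 fun e => hne (Subtype.ext e.symm), smul_zero]
    · simp

theorem char_rep (l : Fˣ →* ℂ) (g : SLn) :
    (rep l).character g = ∑ r ∈ reps F (Fin n), dl l r (act g⁻¹ r) := by
  classical
  rw [Representation.character,
    LinearMap.trace_eq_matrix_trace ℂ (Module.Basis.ofEquivFun (coords l)), Matrix.trace,
    ← Finset.sum_coe_sort (reps F (Fin n)) fun r => dl l r (act g⁻¹ r)]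
  refine Finset.sum_congr rfl fun r _ => ?_
  rw [Matrix.diag, LinearMap.toMatrix_apply, Module.Basis.coe_ofEquivFun,
    Module.Basis.ofEquivFun_repr_apply]
  change ((coords l).symm (Pi.single r 1)).1 (act g⁻¹ r) = _
  change (∑ r' : reps F (Fin n), Pi.single (M := fun _ => ℂ) r 1 r' • dl l r'.1) (act g⁻¹ r) = _
  rw [Finset.sum_apply, Finset.sum_eq_single r]
  · simp
  · intro r' _ hne; simp [hne]
  · simp

theorem isIrreducible_rep (hn : 3 ≤ n) {l : Fˣ →* ℂ} (hl : l ≠ 1) :
    (rep (n := n) l).IsIrreducible := by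
  haveI : Nontrivial (homog (ι := Fin n) l) := by
    obtain ⟨x⟩ : Nonempty Ω := ⟨⟨Pi.single ⟨0, by omega⟩ 1, by simp⟩⟩
    refine ⟨⟨⟨dl l x, dl_mem_homog l x⟩, 0, fun h => ?_⟩⟩
    have := congrFun (congrArg Subtype.val h) x
    simp [dl_self] at this
  haveI : Nontrivial (Subrepresentation (rep (n := n) l)) :=
    ⟨⟨⊥, ⊤, fun h => bot_ne_top (α := Submodule ℂ (homog (ι := Fin n) l))
      (congrArg Subrepresentation.toSubmodule h)⟩⟩
  refine ⟨fun p => or_iff_not_imp_left.2 fun hp => Subrepresentation.toSubmodule_injective ?_⟩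
  change p.toSubmodule = ⊤
  have h := eq_homog_of_ne_one (by simpa using hn) hl (p.toSubmodule.map (homog l).subtype) (by
      rintro g _ ⟨φ, hφ, rfl⟩
      exact ⟨rep l g⁻¹ φ, p.apply_mem_toSubmodule g⁻¹ hφ, funext fun x => by
        simp [rep_apply]⟩) (Submodule.map_subtype_le _ _) fun h0 =>
      hp (Subrepresentation.toSubmodule_injective
        (Submodule.map_injective_of_injective (homog l).subtype_injective
          (h0.trans (Submodule.map_bot _).symm)))
  apply Submodule.map_injective_of_injective (homog l).subtype_injective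
  rw [h, Submodule.map_top, Submodule.range_subtype]

/-- The action on homogeneous functions of total zero. -/
noncomputable def rep0 : Representation ℂ SLn (homog0 F (Fin n)) where
  toFun g :=
    { toFun := fun φ => ⟨fun x => φ.1 (act g⁻¹ x), mem_homog0.2
        ⟨fun c x => by simp only [scale_act]; exact (mem_homog0.1 φ.2).1 c _,
          (sum_act_reps (mem_homog0.1 φ.2).1 g⁻¹).trans (mem_homog0.1 φ.2).2⟩⟩
      map_add' := fun _ _ => rfl
      map_smul' := fun _ _ => rfl }
  map_one' := by
    ext φ : 1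
    apply Subtype.ext
    funext x
    change φ.1 (act (1 : SLn)⁻¹ x) = φ.1 x
    rw [inv_one, act_one]
  map_mul' g h := by
    ext φ : 1
    apply Subtype.ext
    funext x
    change φ.1 (act (g * h)⁻¹ x) = φ.1 (act h⁻¹ (act g⁻¹ x))
    rw [_root_.mul_inv_rev, act_mul]

theorem reps_nonempty (hn : 3 ≤ n) : (reps F (Fin n)).Nonempty := by
  obtain ⟨r, hr, -⟩ := exists_rep (⟨Pi.single ⟨0, by omega⟩ 1, by simp⟩ : Ω)
  exact ⟨r, hr⟩

theorem isIrreducible_rep0 (hn : 3 ≤ n) : (rep0 (F := F) (n := n)).IsIrreducible := by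
  haveI : Nontrivial (homog0 F (Fin n)) := by
    apply Module.nontrivial_of_finrank_pos (R := ℂ)
    have h := finrank_homog0 (F := F) (reps_nonempty hn)
    have h2 := card_reps (F := F) (ι := Fin n)
    rw [Fintype.card_fin] at h2
    have hq := Fintype.one_lt_card (α := F)
    have h3 : 2 * Fintype.card F ≤ Fintype.card F ^ n := by
      calc 2 * Fintype.card F ≤ Fintype.card F * Fintype.card F := Nat.mul_le_mul_right _ hq
        _ = Fintype.card F ^ 2 := (sq _).symm
        _ ≤ _ := Nat.pow_le_pow_right (by omega) (by omega)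
    rcases Nat.lt_or_ge (reps F (Fin n)).card 2 with h4 | h4
    · interval_cases h5 : (reps F (Fin n)).card <;> omega
    · omega
  haveI : Nontrivial (Subrepresentation (rep0 (F := F) (n := n))) :=
    ⟨⟨⊥, ⊤, fun h => bot_ne_top (α := Submodule ℂ (homog0 F (Fin n)))
      (congrArg Subrepresentation.toSubmodule h)⟩⟩
  refine ⟨fun p => or_iff_not_imp_left.2 fun hp => Subrepresentation.toSubmodule_injective ?_⟩
  change p.toSubmodule = ⊤
  have h := eq_homog0 (by simpa using hn) (p.toSubmodule.map (homog0 F (Fin n)).subtype) (by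
      rintro g _ ⟨φ, hφ, rfl⟩
      exact ⟨rep0 g⁻¹ φ, p.apply_mem_toSubmodule g⁻¹ hφ, funext fun x => by
        change φ.1 (act g⁻¹⁻¹ x) = _
        rw [inv_inv]
        rfl⟩) (Submodule.map_subtype_le _ _) fun h0 =>
      hp (Subrepresentation.toSubmodule_injective
        (Submodule.map_injective_of_injective (homog0 F (Fin n)).subtype_injective
          (h0.trans (Submodule.map_bot _).symm)))
  apply Submodule.map_injective_of_injective (homog0 F (Fin n)).subtype_injective
  rw [h, Submodule.map_top, Submodule.range_subtype]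

theorem char_rep0 (hn : 3 ≤ n) (g : SLn) :
    (rep0 (F := F) (n := n)).character g = (rep (n := n) (1 : Fˣ →* ℂ)).character g - 1 := by
  have hR : ((reps F (Fin n)).card : ℂ) ≠ 0 := by
    exact_mod_cast (reps_nonempty hn).card_pos.ne'
  let K : homog (ι := Fin n) (1 : Fˣ →* ℂ) := ⟨fun _ => 1, fun c x => by simp⟩
  let j : homog0 F (Fin n) →ₗ[ℂ] homog (ι := Fin n) (1 : Fˣ →* ℂ) :=
    Submodule.inclusion inf_le_left
  let avg : homog (ι := Fin n) (1 : Fˣ →* ℂ) →ₗ[ℂ] ℂ :=
    ((reps F (Fin n)).card : ℂ)⁻¹ •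
      ((∑ r ∈ reps F (Fin n), LinearMap.proj r) ∘ₗ (homog 1).subtype)
  have havg : ∀ φ : homog (ι := Fin n) (1 : Fˣ →* ℂ),
      avg φ = ((reps F (Fin n)).card : ℂ)⁻¹ * ∑ r ∈ reps F (Fin n), φ.1 r := fun φ => by
    simp [avg]
  let e : (homog0 F (Fin n) × ℂ) ≃ₗ[ℂ] homog (ι := Fin n) (1 : Fˣ →* ℂ) :=
    { toFun := fun p => j p.1 + p.2 • K
      map_add' := fun p q => by simp [add_smul, add_add_add_comm]
      map_smul' := fun a p => by simp [smul_smul]
      invFun := fun φ => (⟨φ.1 - avg φ • K.1, mem_homog0.2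
        ⟨Submodule.sub_mem _ φ.2 (Submodule.smul_mem _ _ K.2), by
          simp only [Pi.sub_apply, Pi.smul_apply, smul_eq_mul, K, mul_one, Finset.sum_sub_distrib,
            Finset.sum_const, nsmul_eq_mul, havg]
          field_simp
          ring⟩⟩, avg φ)
      left_inv := fun p => by
        have h : avg (j p.1 + p.2 • K) = p.2 := by
          rw [map_add, map_smul, havg, havg]
          have hz : ∑ r ∈ reps F (Fin n), (j p.1).1 r = 0 := (mem_homog0.1 p.1.2).2
          simp only [hz, K, Finset.sum_const,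
            nsmul_eq_mul, mul_zero, zero_add, smul_eq_mul, mul_one]
          field_simp
        refine Prod.ext (Subtype.ext ?_) h
        change (j p.1).1 + p.2 • K.1 - avg (j p.1 + p.2 • K) • K.1 = p.1.1
        rw [h, add_sub_cancel_right]
        rfl
      right_inv := fun φ => Subtype.ext (sub_add_cancel φ.1 _) }
  have hconj : rep (n := n) (1 : Fˣ →* ℂ) g =
      e.conj (LinearMap.prodMap (rep0 (F := F) (n := n) g) (LinearMap.id : ℂ →ₗ[ℂ] ℂ)) := by
    refine LinearMap.ext fun φ => ?_
    obtain ⟨⟨a, b⟩, rfl⟩ := e.surjective φ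
    rw [LinearEquiv.conj_apply_apply, e.symm_apply_apply]
    apply Subtype.ext
    funext x
    rfl
  rw [Representation.character, Representation.character, hconj, LinearMap.trace_conj',
    LinearMap.trace_prodMap', LinearMap.trace_id, Module.finrank_self, Nat.cast_one,
    add_sub_cancel_right]

/-- A multiplicative character on the units. -/
noncomputable def lh (χ : MulChar F ℂ) : Fˣ →* ℂ where
  toFun c := χ (c : F)
  map_one' := by simp
  map_mul' a b := by simp

theorem lh_one : lh (1 : MulChar F ℂ) = 1 := by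
  ext c; simp [lh]

theorem lh_ne_one {χ : MulChar F ℂ} (h : χ ≠ 1) : lh χ ≠ 1 := fun e => h (by
  refine MulChar.ext fun c => ?_
  have := DFunLike.congr_fun e c
  simpa [lh] using this)

theorem card_fixed (g : SLn) :
    (Nat.card {v : Fin n → F // v ≠ 0 ∧ (g : Matrix (Fin n) (Fin n) F) *ᵥ v = v}) =
      Fintype.card Fˣ * ((reps F (Fin n)).filter fun r => act g r = r).card := by
  classical
  rw [Nat.card_congr ((Equiv.subtypeSubtypeEquivSubtypeInter (fun v : Fin n → F => v ≠ 0)
    fun v => (g : Matrix (Fin n) (Fin n) F) *ᵥ v = v).symm.trans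
    (Equiv.subtypeEquivRight fun x => (Subtype.ext_iff (a1 := act g x) (a2 := x)).symm)),
    Nat.card_eq_fintype_card, Fintype.card_subtype, Finset.card_filter,
    sum_eq_sum_reps (fun x : Ω => if act g x = x then 1 else 0), Finset.card_filter, Finset.mul_sum]
  refine Finset.sum_congr rfl fun r _ => ?_
  have : ∀ c : Fˣ, (act g (scale c r) = scale c r) ↔ act g r = r := fun c =>
    ⟨fun h => by
      have := congrArg (scale c⁻¹) h
      rwa [scale_act, scale_scale, scale_scale, inv_mul_cancel, scale_one, scale_one] at this,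
    fun h => by rw [scale_act, h]⟩
  simp only [this, Finset.sum_const, Finset.card_univ, smul_eq_mul]

theorem sum_char (g : SLn) [Fintype (MulChar F ℂ)] :
    ∑ χ : MulChar F ℂ, (rep (n := n) (lh χ)).character g =
      (Nat.card {v : Fin n → F // v ≠ 0 ∧ (g : Matrix (Fin n) (Fin n) F) *ᵥ v = v} : ℂ) := by
  classical
  have hcard : Fintype.card (MulChar F ℂ) = Fintype.card Fˣ := by
    rw [← Nat.card_eq_fintype_card, MulChar.card_eq_card_units_of_hasEnoughRootsOfUnity,
      Nat.card_eq_fintype_card]
  have horth : ∀ c : Fˣ, c ≠ 1 → ∑ χ : MulChar F ℂ, χ (c : F) = 0 := by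
    intro c hc
    obtain ⟨χ₀, hχ₀⟩ := MulChar.exists_apply_ne_one_of_hasEnoughRootsOfUnity F ℂ
      (a := (c : F)) (fun h => hc (Units.ext h))
    have h1 : χ₀ (c : F) * ∑ χ : MulChar F ℂ, χ (c : F) = ∑ χ : MulChar F ℂ, χ (c : F) := by
      rw [Finset.mul_sum]
      exact Fintype.sum_equiv (Equiv.mulLeft χ₀) _ _ fun χ => by simp
    by_contra h0
    exact hχ₀ (mul_right_cancel₀ h0 (h1.trans (one_mul _).symm))
  simp only [char_rep]
  rw [Finset.sum_comm, card_fixed, Nat.cast_mul, Finset.card_filter, Nat.cast_sum, Finset.mul_sum]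
  refine Finset.sum_congr rfl fun r hr => ?_
  have hiff : act g⁻¹ r = r ↔ act g r = r :=
    ⟨fun h => by simpa using act_inv_fix h, act_inv_fix⟩
  by_cases hc : ∃ c : Fˣ, act g⁻¹ r = scale c r
  · obtain ⟨c, hc⟩ := hc
    simp only [hc, dl_scale, ← hiff]
    change ∑ χ : MulChar F ℂ, χ (c : F) = _
    by_cases h1 : c = 1
    · subst h1
      simp [scale_one, hcard]
    · rw [horth c h1, if_neg fun h => h1 (scale_inj (h.trans (scale_one r).symm))]
      simp
  · push Not at hc
    rw [if_neg fun h => hc 1 ((hiff.2 h).trans (scale_one r).symm),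
      Finset.sum_eq_zero fun χ _ => dl_of_not _ _ _ hc]
    simp

omit [Fintype F] [DecidableEq F] in
theorem li_of_not_scale {x y : Ω} (h : ∀ c : Fˣ, y ≠ scale c x) :
    LinearIndependent F ![x.1, y.1] := by
  rw [LinearIndependent.pair_iff]
  intro s t hst
  by_cases ht : t = 0
  · subst ht
    simp only [zero_smul, add_zero] at hst
    exact ⟨(smul_eq_zero.1 hst).resolve_right x.2, rfl⟩
  · exfalso
    have hs : s ≠ 0 := by
      rintro rfl
      simp only [zero_smul, zero_add] at hst
      exact y.2 ((smul_eq_zero.1 hst).resolve_left ht)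
    refine h (Units.mk0 (-(t⁻¹ * s)) (by simp [hs, ht])) (Subtype.ext ?_)
    change y.1 = (-(t⁻¹ * s)) • x.1
    have := congrArg (t⁻¹ • ·) hst
    simp only [smul_add, smul_smul, inv_mul_cancel₀ ht, one_smul, smul_zero] at this
    rw [neg_smul]
    exact eq_neg_of_add_eq_zero_right this

omit [Fintype F] [DecidableEq F] in
theorem act_injective (g : SLn) : Function.Injective (act (ι := Fin n) (F := F) g) := fun a b h => by
  have := congrArg (act g⁻¹) h
  rwa [← act_mul, ← act_mul, inv_mul_cancel, act_one, act_one] at this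

theorem injective_of (hn : 3 ≤ n) [Fintype (MulChar F ℂ)] (f : MulChar F ℂ → SLn → ℂ)
    (hirr : ∀ χ, IsIrrCharacter SLn (f χ))
    (hsum : ∀ g : SLn,
      (Nat.card {v : Fin n → F // v ≠ 0 ∧ (g : Matrix (Fin n) (Fin n) F).mulVec v = v} : ℂ) =
        1 + ∑ χ, f χ g) : Function.Injective f := by
  classical
  have h3 : 3 ≤ Fintype.card (Fin n) := by simpa using hn
  letI : MulAction SLn Ω := { smul := act, one_smul := act_one, mul_smul := act_mul }
  have hsmul : ∀ (g : SLn) (x : Ω), g • x = act g x := fun _ _ => rfl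
  set π : SLn → ℂ := fun g => (Nat.card (MulAction.fixedBy Ω g) : ℂ) with hπ
  have hπ' : π = (fun _ => (1 : ℂ)) + fun g => ∑ χ, f χ g := by
    funext g
    rw [Pi.add_apply, ← hsum g, hπ]
    change ((Nat.card (MulAction.fixedBy Ω g) : ℕ) : ℂ) = _
    congr 1
    have e1 : ↑(MulAction.fixedBy Ω g) ≃ {x : Ω // (g : Matrix (Fin n) (Fin n) F) *ᵥ x.1 = x.1} :=
      Equiv.subtypeEquivRight fun x => by
        change g • x = x ↔ _
        rw [hsmul, Subtype.ext_iff]; rfl
    exact Nat.card_congr (e1.trans
      (Equiv.subtypeSubtypeEquivSubtypeInter (fun v : Fin n → F => v ≠ 0)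
        fun v => (g : Matrix (Fin n) (Fin n) F) *ᵥ v = v))
  have hf : (fun g => ∑ χ, f χ g) = ∑ χ, f χ := by funext g; simp
  rw [hf] at hπ'
  obtain ⟨x₀⟩ : Nonempty Ω := ⟨⟨Pi.single ⟨0, by omega⟩ 1, by simp⟩⟩
  -- one orbit on vectors
  have h1 : classInner π (fun _ => 1) = 1 := by
    rw [hπ, classInner_card_fixedBy_one, Nat.cast_eq_one, Nat.card_eq_one_iff_exists]
    refine ⟨Quotient.mk'' x₀, fun q => ?_⟩
    induction q using Quotient.inductionOn' with
    | _ y => exact Quotient.eq''.2 (MulAction.orbitRel_apply.2 (exists_act_eq h3 x₀ y))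
  have hone : ∀ χ, f χ ≠ fun _ => 1 := by
    intro χ hχ
    rw [hπ', classInner_add_left, classInner_sum_left, classInner_self_of_isIrr isIrrCharacter_one,
      add_eq_left] at h1
    have h2 : ∀ χ', classInner (f χ') (fun _ => 1) = if f χ' = (fun _ => 1) then (1 : ℂ) else 0 :=
      fun χ' => classInner_irr (hirr χ') isIrrCharacter_one
    simp only [h2, Finset.sum_boole, Nat.cast_eq_zero, Finset.card_eq_zero] at h1
    have : χ ∈ (Finset.univ.filter fun χ' => f χ' = fun _ => 1) := by simp [hχ]
    rw [h1] at this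
    exact Finset.notMem_empty _ this
  -- `q` orbits on pairs
  have h2 : classInner π π = (Fintype.card F : ℂ) := by
    rw [hπ, classInner_card_fixedBy_self, Nat.cast_inj]
    have hopt : Fintype.card (Option Fˣ) = Fintype.card F := by
      rw [Fintype.card_option, Fintype.card_units]
      have := Fintype.card_pos (α := F)
      omega
    rw [← hopt, ← Nat.card_eq_fintype_card]
    let φ : Ω × Ω → Option Fˣ := fun p =>
      if h : ∃ c : Fˣ, p.2 = scale c p.1 then some h.choose else none
    have hφs : ∀ (x : Ω) c, φ (x, scale c x) = some c := fun x c => by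
      have h : ∃ c' : Fˣ, scale c x = scale c' x := ⟨c, rfl⟩
      simp only [φ, dif_pos h, Option.some.injEq]
      exact (scale_inj h.choose_spec).symm
    have hφn : ∀ x y : Ω, (∀ c : Fˣ, y ≠ scale c x) → φ (x, y) = none := fun x y h => by
      exact dif_neg fun ⟨c, hc⟩ => h c hc
    have hinv : ∀ (g : SLn) (p : Ω × Ω), φ (g • p) = φ p := by
      rintro g ⟨x, y⟩
      rw [Prod.smul_mk, hsmul, hsmul]
      by_cases h : ∃ c : Fˣ, y = scale c x
      · obtain ⟨c, rfl⟩ := h; rw [scale_act, hφs, hφs]
      · push Not at h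
        rw [hφn _ _ h, hφn]
        intro c hc
        exact h c (act_injective g (by rw [hc, scale_act]))
    refine Nat.card_congr (Equiv.ofBijective
      (Quotient.lift φ fun p p' h => ?_) ⟨?_, ?_⟩)
    · obtain ⟨g, rfl⟩ := h
      exact hinv g p'
    · intro a b
      induction a using Quotient.inductionOn' with
      | _ p =>
      induction b using Quotient.inductionOn' with
      | _ p' =>
      intro h
      change φ p = φ p' at h
      refine Quotient.eq''.2 (MulAction.orbitRel_apply.2 ?_)
      obtain ⟨x, y⟩ := p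
      obtain ⟨x', y'⟩ := p'
      by_cases hc : ∃ c : Fˣ, y = scale c x
      · obtain ⟨c, rfl⟩ := hc
        by_cases hc' : ∃ c : Fˣ, y' = scale c x'
        · obtain ⟨c', rfl⟩ := hc'
          rw [hφs, hφs, Option.some.injEq] at h
          subst h
          obtain ⟨g, hg⟩ := exists_act_eq h3 x' x
          exact ⟨g, Prod.ext hg (by change act g (scale c x') = scale c x; rw [scale_act, hg])⟩
        · push Not at hc'
          rw [hφs, hφn _ _ hc'] at h
          simp at h
      · push Not at hc
        by_cases hc' : ∃ c : Fˣ, y' = scale c x'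
        · obtain ⟨c', rfl⟩ := hc'
          rw [hφs, hφn _ _ hc] at h
          simp at h
        · push Not at hc'
          obtain ⟨g, hg1, hg2⟩ := exists_sl_pair h3 (li_of_not_scale hc') (li_of_not_scale hc)
          exact ⟨g, Prod.ext (Subtype.ext hg1) (Subtype.ext hg2)⟩
    · intro o
      rcases o with _ | c
      · obtain ⟨z, hz⟩ := exists_linearIndependent_pair_of_one_lt_finrank (R := F)
          (by rw [Module.finrank_fintype_fun_eq_card]; omega) x₀.2
        have hz0 : z ≠ 0 := by
          intro h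
          have := LinearIndependent.pair_iff.1 hz 0 1 (by simp [h])
          exact one_ne_zero this.2
        refine ⟨Quotient.mk'' (x₀, ⟨z, hz0⟩), hφn _ _ fun c hc => ?_⟩
        have := LinearIndependent.pair_iff.1 hz (c : F) (-1) (by
          rw [show z = (c : F) • x₀.1 from congrArg Subtype.val hc]; simp)
        exact one_ne_zero (neg_eq_zero.1 this.2)
      · exact ⟨Quotient.mk'' (x₀, scale c x₀), hφs x₀ c⟩
  -- compare
  have hz : ∀ χ, classInner (fun _ : SLn => (1 : ℂ)) (f χ) = 0 := fun χ =>
    classInner_eq_zero_of_ne isIrrCharacter_one (hirr χ) (Ne.symm (hone χ))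
  have hz' : ∀ χ, classInner (f χ) (fun _ : SLn => (1 : ℂ)) = 0 := fun χ =>
    classInner_eq_zero_of_ne (hirr χ) isIrrCharacter_one (hone χ)
  rw [hπ', classInner_add_left, classInner_add_right, classInner_add_right,
    classInner_self_of_isIrr isIrrCharacter_one, classInner_sum_left, classInner_sum_right] at h2
  simp only [hz, hz', Finset.sum_const_zero, add_zero, classInner_sum_left, classInner_sum_right,
    classInner_irr (hirr _) (hirr _), zero_add, Finset.sum_boole] at h2
  have hcard : Fintype.card (MulChar F ℂ) + 1 = Fintype.card F := by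
    rw [← Nat.card_eq_fintype_card, MulChar.card_eq_card_units_of_hasEnoughRootsOfUnity,
      Nat.card_eq_fintype_card, Fintype.card_units]
    have := Fintype.card_pos (α := F)
    omega
  have h4 : ∑ χ, (Finset.univ.filter fun χ' => f χ' = f χ).card = ∑ _χ : MulChar F ℂ, 1 := by
    rw [Finset.sum_const, Finset.card_univ, smul_eq_mul, mul_one]
    have : (1 : ℂ) + ((∑ χ, (Finset.univ.filter fun χ' => f χ' = f χ).card : ℕ) : ℂ) =
        ((Fintype.card (MulChar F ℂ) + 1 : ℕ) : ℂ) := by
      rw [hcard, ← h2]; push_cast; ring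
    have h6 : 1 + (∑ χ, (Finset.univ.filter fun χ' => f χ' = f χ).card) =
        Fintype.card (MulChar F ℂ) + 1 := by exact_mod_cast this
    omega
  intro a b hab
  have h5 : (Finset.univ.filter fun χ' => f χ' = f a).card = 1 :=
    ((Finset.sum_eq_sum_iff_of_le fun χ _ =>
      Finset.card_pos.2 ⟨χ, by simp⟩).1 h4.symm a (Finset.mem_univ a)).symm
  exact Finset.card_le_one.1 h5.le a (by simp) b (by simp [hab])

/-- Let F be a finite field with q elements and n ≥ 3. The permutation character of SL_n(F) on the non-zero vectors of F^n (the function sending a matrix to the number of non-zero vectors it fixes) is the sum of the principal character and q − 1 pairwise distinct irreducible complex characters. -/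
theorem result {F : Type*} [Field F] [Fintype F] [DecidableEq F] (n : ℕ) (hn : 3 ≤ n) :
    ∃ χ : Fin (Fintype.card F - 1) → (Matrix.SpecialLinearGroup (Fin n) F → ℂ),
      (∀ i, Cfsg.IsIrrCharacter (Matrix.SpecialLinearGroup (Fin n) F) (χ i)) ∧ Function.Injective χ ∧
      ∀ g : Matrix.SpecialLinearGroup (Fin n) F,
        (Nat.card {v : Fin n → F // v ≠ 0 ∧ (g : Matrix (Fin n) (Fin n) F).mulVec v = v} : ℂ) = 1 + ∑ i, χ i g := by

  classical
  let : Fintype (MulChar F ℂ) := Fintype.ofFinite _
  have hcard : Fintype.card (MulChar F ℂ) = Fintype.card F - 1 := by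
    rw [← Nat.card_eq_fintype_card, MulChar.card_eq_card_units_of_hasEnoughRootsOfUnity,
      Nat.card_eq_fintype_card, Fintype.card_units]
  let e : Fin (Fintype.card F - 1) ≃ MulChar F ℂ := (Fintype.equivFinOfCardEq hcard).symm
  let f : MulChar F ℂ → Matrix.SpecialLinearGroup (Fin n) F → ℂ := fun χ g =>
    (rep (lh χ)).character g - if χ = 1 then 1 else 0
  have hirr : ∀ χ, IsIrrCharacter (Matrix.SpecialLinearGroup (Fin n) F) (f χ) := by
    intro χ
    by_cases h : χ = 1
    · haveI := isIrreducible_rep0 (F := F) hn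
      convert isIrrCharacter_character (rep0 (F := F) (n := n)) using 1
      funext g
      have hl : ∀ l : Fˣ →* ℂ, l = 1 → (rep (n := n) l).character g =
          (rep (n := n) (1 : Fˣ →* ℂ)).character g := fun l e => by subst e; rfl
      simp [f, h, char_rep0 hn, hl _ lh_one]
    · haveI := isIrreducible_rep hn (lh_ne_one h)
      convert isIrrCharacter_character (rep (n := n) (lh χ)) using 1
      funext g
      simp [f, h]
  have hsum : ∀ g : Matrix.SpecialLinearGroup (Fin n) F,
      (Nat.card {v : Fin n → F // v ≠ 0 ∧ (g : Matrix (Fin n) (Fin n) F).mulVec v = v} : ℂ) =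
        1 + ∑ χ, f χ g := by
    intro g
    simp only [f, Finset.sum_sub_distrib, sum_char g, Finset.sum_ite_eq', Finset.mem_univ, if_true]
    ring
  refine ⟨fun i => f (e i), fun i => hirr _, ?_, fun g => ?_⟩
  swap
  · rw [hsum g]; congr 1; exact (Equiv.sum_comp e fun χ => f χ g).symm
  suffices Function.Injective f from this.comp e.injective
  exact injective_of hn f hirr hsum

end Cfsg.Agent.S2336
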