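import Cfsg.Statements.S2332
import Cfsg.Agent.Lib.InvCentralizers.LinearDegree
import Cfsg.Agent.S2336

set_option autoImplicit false
open Cfsg

namespace Cfsg.Agent.S2332

/-- Smallest degree of a non-linear irreducible complex representation of SL_n over a finite field with q elements, for n ≥ 3 and (n, q) not one of (3, 2), (3, 4), (4, 2), (4, 3): every irreducible complex representation of SL_n(F) of degree at least 2 has degree at least (q^n − q)/(q − 1), and there is an irreducible complex representation of exactly that degree. -/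
theorem result {F : Type*} [Field F] [Fintype F] [DecidableEq F] (n : ℕ) (hn : 3 ≤ n)
    (hex : (n, Fintype.card F) ≠ (3, 2) ∧ (n, Fintype.card F) ≠ (3, 4) ∧ (n, Fintype.card F) ≠ (4, 2) ∧ (n, Fintype.card F) ≠ (4, 3)) :
    (∀ (k : ℕ) (ρ : Representation ℂ (Matrix.SpecialLinearGroup (Fin n) F) (Fin k → ℂ)), ρ.IsIrreducible → 2 ≤ k → (Fintype.card F ^ n - Fintype.card F) / (Fintype.card F - 1) ≤ k) ∧
    (∃ ρ : Representation ℂ (Matrix.SpecialLinearGroup (Fin n) F) (Fin ((Fintype.card F ^ n - Fintype.card F) / (Fintype.card F - 1)) → ℂ), ρ.IsIrreducible) := by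
  classical
  have hexc : ¬ CfsgLib.InvCentralizers.LinearDegree.Exc n (Fintype.card F) := by
    obtain ⟨e1, e2, e3, e4⟩ := hex
    rintro (⟨rfl, h⟩ | ⟨rfl, h⟩ | ⟨rfl, h⟩ | ⟨rfl, h⟩)
    · exact e1 (by rw [h])
    · exact e2 (by rw [h])
    · exact e3 (by rw [h])
    · exact e4 (by rw [h])
  obtain ⟨m, rfl⟩ : ∃ m, n = m + 1 := ⟨n - 1, by omega⟩
  have hval : (Fintype.card F ^ (m + 1) - Fintype.card F) / (Fintype.card F - 1) + 1 =
      CfsgLib.InvCentralizers.LinearDegree.gs (Fintype.card F) (m + 1) := by
    have hq := Fintype.one_lt_card (α := F)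
    have h1 := CfsgLib.InvCentralizers.LinearDegree.sub_one_mul_gs (q := Fintype.card F) hq.le (m + 1)
    have h2 := CfsgLib.InvCentralizers.LinearDegree.gs_succ' (Fintype.card F) m
    rw [h2] at h1 ⊢
    rw [← h1, mul_add, mul_one, show (Fintype.card F - 1) * (Fintype.card F *
      CfsgLib.InvCentralizers.LinearDegree.gs (Fintype.card F) m) + (Fintype.card F - 1) + 1 -
        Fintype.card F = (Fintype.card F - 1) * (Fintype.card F *
      CfsgLib.InvCentralizers.LinearDegree.gs (Fintype.card F) m) by omega,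
      Nat.mul_div_cancel_left _ (by omega)]
  refine ⟨fun k ρ hρ hk => ?_, ?_⟩
  · have h := CfsgLib.InvCentralizers.LinearDegree.bound hn hexc ρ (by
      by_contra hcon
      push Not at hcon
      have hv : (Pi.single (⟨0, by omega⟩ : Fin k) (1 : ℂ) : Fin k → ℂ) ≠ 0 := by simp
      let p : Subrepresentation ρ :=
        ⟨Submodule.span ℂ {Pi.single (⟨0, by omega⟩ : Fin k) (1 : ℂ)}, fun g w hw => by
          rw [hcon g]; exact hw⟩
      have hfr : Module.finrank ℂ p.toSubmodule = 1 := finrank_span_singleton hv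
      rcases hρ.eq_bot_or_eq_top p with hp | hp
      · rw [hp] at hfr
        rw [show (⊥ : Subrepresentation ρ).toSubmodule = ⊥ from rfl, finrank_bot] at hfr
        omega
      · rw [hp, show (⊤ : Subrepresentation ρ).toSubmodule = ⊤ from rfl, finrank_top,
          Module.finrank_fintype_fun_eq_card, Fintype.card_fin] at hfr
        omega)
    rw [Module.finrank_fintype_fun_eq_card, Fintype.card_fin, ← hval] at h
    omega
  · have hd := CfsgLib.InvCentralizers.PermModule.finrank_homog0 (F := F) (ι := Fin (m + 1))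
      (Cfsg.Agent.S2336.reps_nonempty hn)
    rw [CfsgLib.InvCentralizers.LinearDegree.card_reps_eq, Fintype.card_fin, ← hval] at hd
    have := Cfsg.Agent.S2336.isIrreducible_rep0 (F := F) (n := m + 1) hn
    let e := (Module.finBasisOfFinrankEq ℂ _ (Nat.add_right_cancel hd)).equivFun
    exact ⟨_, CfsgLib.CharTheory.isIrreducible_of_equiv
      (CfsgLib.CharTheory.conjRepEquiv (Cfsg.Agent.S2336.rep0 (F := F) (n := m + 1)) e)⟩

end Cfsg.Agent.S2332
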