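import Cfsg.Statements.S2333
import Cfsg.Agent.Lib.InvCentralizers.QuadOrbit
import Cfsg.Agent.Lib.InvCentralizers.EigenTrace
import Cfsg.Agent.Lib.ClassicalLinear.SympSimple

set_option autoImplicit false
open Cfsg

namespace Cfsg.Agent.S2333


open Matrix CfsgLib.InvCentralizers.AbelianEigen CfsgLib.InvCentralizers.QuadOrbit
open CfsgLib.InvCentralizers.SympBound (symMat congrSym psi psi_prim exists_psi_ne lower lower_zero lower_add lower_mul_glSp)

variable {F : Type*} [Field F] [Fintype F] {n : ℕ}
variable {V : Type*} [AddCommGroup V] [Module ℂ V]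
  (ρ : Representation ℂ (Matrix.symplecticGroup (Fin n) F) V)

/-- The pairing. -/
noncomputable def PQ (a S : symMat n F) : ℂ := psi F (Lam a S)

theorem setup [Fintype (symMat n F)] :
    Setup (PQ (n := n) (F := F)) (fun S => ρ (lower S)) where
  addL a a' S := by simp [PQ, AddChar.map_add_eq_mul]
  addR a S S' := by simp [PQ, AddChar.map_add_eq_mul]
  zeroL S := by simp [PQ]
  zeroR a := by simp [PQ]
  orth a ha := by
    let χ : AddChar (symMat n F) ℂ :=
      { toFun := fun S => psi F (Lam a S)
        map_zero_eq_one' := by simp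
        map_add_eq_mul' := fun S S' => by simp [AddChar.map_add_eq_mul] }
    refine AddChar.sum_eq_zero_of_ne_one (ψ := χ) fun h => ?_
    obtain ⟨S, hS⟩ : ∃ S, Lam a S ≠ 0 := by
      by_contra hcon
      push Not at hcon
      exact ha ((LinearEquiv.map_eq_zero_iff Lam).1 (LinearMap.ext hcon))
    obtain ⟨t, ht⟩ := exists_psi_ne hS
    refine ht ?_
    have := DFunLike.congr_fun h (t • S)
    simpa [χ, mul_comm] using this
  orth' S hS := by
    let χ : AddChar (symMat n F) ℂ :=
      { toFun := fun a => psi F (Lam a S)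
        map_zero_eq_one' := by simp
        map_add_eq_mul' := fun a a' => by simp [AddChar.map_add_eq_mul] }
    refine AddChar.sum_eq_zero_of_ne_one (ψ := χ) fun h => ?_
    obtain ⟨φ, hφ⟩ : ∃ φ : Module.Dual F (symMat n F), φ S ≠ 0 := by
      by_contra hcon
      push Not at hcon
      exact hS ((Module.forall_dual_apply_eq_zero_iff F _).1 hcon)
    obtain ⟨t, ht⟩ := exists_psi_ne hφ
    refine ht ?_
    have := DFunLike.congr_fun h (Lam.symm (t • φ))
    simpa [χ, mul_comm] using this
  map_zero := by simp [lower_zero]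
  map_add S S' := by simp [lower_add]

theorem glSp_mem (A : GL (Fin n) F) {a : symMat n F} {w : V}
    (hw : w ∈ eig (PQ (n := n) (F := F)) (fun S => ρ (lower S)) a) :
    ρ (CfsgLib.Laws.glSp n A) w ∈ eig (PQ (n := n) (F := F)) (fun S => ρ (lower S))
      (tau (A : Matrix (Fin n) (Fin n) F)ᵀ a) := by
  intro S
  change ρ (lower S) (ρ (CfsgLib.Laws.glSp n A) w) = _ • ρ (CfsgLib.Laws.glSp n A) w
  rw [← Module.End.mul_apply, ← map_mul, lower_mul_glSp, map_mul, Module.End.mul_apply]
  have h1 : ρ (lower (congrSym (A : Matrix (Fin n) (Fin n) F)ᵀ S)) w = _ • w := hw _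
  rw [h1, map_smul, PQ, PQ, Lam_tau]

theorem eq_one_or_large [FiniteDimensional ℂ V] (hn : 2 ≤ n) (h2 : (2 : F) = 0)
    (hc : 3 ≤ n ∨ ∃ a : F, a ≠ 0 ∧ a ^ 2 ≠ 1) :
    (∀ g, ρ g = 1) ∨
      (Fintype.card F ^ n - 1) * (Fintype.card F ^ n - Fintype.card F) ≤
        Module.finrank ℂ V * (2 * (Fintype.card F + 1)) := by
  classical
  let : Fintype (symMat n F) := Fintype.ofFinite _
  have hs := setup ρ
  by_cases hall : ∀ a : symMat n F, (∃ w ∈ eig (PQ (n := n) (F := F)) (fun S => ρ (lower S)) a,
      w ≠ 0) → ∀ u v, bf a u v = 0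
  · left
    have hU : ∀ x y : Fin n → F, ρ (lower (sym2 x y)) = 1 := by
      intro x y
      have h1 := U_eq_sum hs (sym2 x y)
      rw [h1, ← sum_eproj hs]
      refine Finset.sum_congr rfl fun a _ => LinearMap.ext fun w => ?_
      rw [LinearMap.smul_apply]
      rcases eq_or_ne (eproj PQ (fun S => ρ (lower S)) a w) 0 with h | h
      · rw [h, smul_zero]
      · have := hall a ⟨_, eproj_mem hs a w, h⟩ x y
        rw [show PQ a (sym2 x y) = 1 by rw [PQ, ← bf, this, AddChar.map_zero_eq_one], one_smul]
    have hsimp : IsSimpleGroup (Cfsg.PSp n F) := CfsgLib.ClassicalLinear.isSimpleGroup_psp hn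
      (hc.imp id Or.inr)
    let K : Subgroup (Matrix.symplecticGroup (Fin n) F) := MonoidHom.ker ρ
    let x : Fin n → F := Pi.single ⟨0, by omega⟩ 1
    let y : Fin n → F := Pi.single ⟨1, by omega⟩ 1
    have hcenter : ∀ g ∈ Subgroup.center (Matrix.symplecticGroup (Fin n) F), g = 1 := by
      intro g hg
      rcases (CfsgLib.ClassicalLinear.mem_center_sp_iff (by omega)).1 hg with h | h
      · exact Subtype.ext h
      · refine Subtype.ext (h.trans ?_)
        ext i j
        have h3 : (-1 : F) = 1 := by linear_combination -h2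
        simp only [OneMemClass.coe_one, Matrix.neg_apply, Matrix.one_apply]
        split_ifs
        · exact h3
        · exact neg_zero
    let q := QuotientGroup.mk' (Subgroup.center (Matrix.symplecticGroup (Fin n) F))
    have hKn : (K.map q).Normal := Subgroup.Normal.map inferInstance _ (QuotientGroup.mk'_surjective _)
    intro g
    rcases hsimp.eq_bot_or_eq_top_of_normal _ hKn with h | h
    · exfalso
      have hmem : q (lower (sym2 x y)) ∈ K.map q :=
        Subgroup.mem_map_of_mem _ (MonoidHom.mem_ker.2 (hU x y))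
      rw [h, Subgroup.mem_bot] at hmem
      have h4 := hcenter _ ((QuotientGroup.eq_one_iff _).1 hmem)
      have h5 := congrFun (congrFun (congrArg Subtype.val h4) (Sum.inr ⟨0, by omega⟩))
        (Sum.inl ⟨1, by omega⟩)
      simp [lower, sym2, x, y, vecMulVec_apply] at h5
    · have hmem : q g ∈ K.map q := by rw [h]; trivial
      obtain ⟨k, hk, hkg⟩ := Subgroup.mem_map.1 hmem
      have h4 := hcenter _ ((QuotientGroup.eq_iff_div_mem).1 hkg)
      rw [div_eq_one] at h4
      rw [← h4]
      exact MonoidHom.mem_ker.1 hk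
  · right
    push Not at hall
    obtain ⟨a, ⟨w, hw, hw0⟩, hne⟩ := hall
    let O : Finset (symMat n F) :=
      Finset.univ.filter fun C => ∃ A : GL (Fin n) F, C = tau A.val a
    have hO : ∀ A : GL (Fin n) F, ∀ b ∈ O, tau A.val b ∈ O := by
      intro A b hb
      obtain ⟨A', rfl⟩ := (Finset.mem_filter.1 hb).2
      exact Finset.mem_filter.2 ⟨Finset.mem_univ _, A' * A, by rw [Units.val_mul, tau_mul]⟩
    have haO : a ∈ O := Finset.mem_filter.2 ⟨Finset.mem_univ _, 1, by rw [Units.val_one, tau_one]⟩
    have h1 := orbit_card a h2 O hO (fun b hb => (Finset.mem_filter.1 hb).2) haO hne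
    have h3 : O.card ≤ Module.finrank ℂ V := card_le_finrank hs O fun C hC => by
      obtain ⟨A, rfl⟩ := (Finset.mem_filter.1 hC).2
      let At : GL (Fin n) F := GeneralLinearGroup.mkOfDetNeZero A.valᵀ (by
        rw [det_transpose]; exact ((Matrix.isUnit_iff_isUnit_det _).1 A.isUnit).ne_zero)
      refine ⟨ρ (CfsgLib.Laws.glSp n At) w, ?_, fun h0 => hw0 ?_⟩
      · have := glSp_mem ρ At hw
        rwa [show ((At : GL (Fin n) F) : Matrix (Fin n) (Fin n) F)ᵀ = A.val from
          transpose_transpose _] at this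
      · have h5 : ρ (CfsgLib.Laws.glSp n At⁻¹) (ρ (CfsgLib.Laws.glSp n At) w) = 0 := by
          rw [h0, LinearMap.map_zero]
        rwa [← Module.End.mul_apply, ← map_mul, ← map_mul, inv_mul_cancel, map_one, map_one,
          Module.End.one_apply] at h5
    exact h1.trans (Nat.mul_le_mul_right _ h3)

/-- For a finite field F of even order q and n ≥ 2 with (n, q) ≠ (2, 2), every irreducible complex representation of the symplectic group Sp_{2n}(F) of degree at least 2 has degree at least (q^n − 1)(q^n − q)/(2(q + 1)). -/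
theorem result {F : Type*} [Field F] [Fintype F] [DecidableEq F] (n : ℕ) (hn : 2 ≤ n) (heven : Even (Fintype.card F)) (hex : (n, Fintype.card F) ≠ (2, 2)) :
    (∀ (k : ℕ) (ρ : Representation ℂ (Matrix.symplecticGroup (Fin n) F) (Fin k → ℂ)), ρ.IsIrreducible → 2 ≤ k → (Fintype.card F ^ n - 1) * (Fintype.card F ^ n - Fintype.card F) / (2 * (Fintype.card F + 1)) ≤ k) := by
  classical
  intro k ρ hρ hk
  have h2 : (2 : F) = 0 := by
    have : ringChar F = 2 := FiniteField.even_card_iff_char_two.2 (Nat.even_iff.1 heven)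
    have h := ringChar.Nat.cast_ringChar (R := F)
    rw [this] at h
    simpa using h
  have hc : 3 ≤ n ∨ ∃ a : F, a ≠ 0 ∧ a ^ 2 ≠ 1 := by
    rcases Nat.lt_or_ge n 3 with h | h
    · obtain rfl : n = 2 := by omega
      have h3 : Fintype.card F ≠ 2 := fun h3 => hex (by rw [h3])
      obtain ⟨t, ht⟩ := heven
      have := Fintype.one_lt_card (α := F)
      exact Or.inr (CfsgLib.ClassicalLinear.exists_sq_ne_one_of_four_le_card
        (by rw [Nat.card_eq_fintype_card]; omega))
    · exact Or.inl h
  rcases eq_one_or_large ρ hn h2 hc with h | h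
  · exfalso
    let S : Subrepresentation ρ :=
      { toSubmodule := Submodule.span ℂ {Pi.single ⟨0, by omega⟩ 1}
        apply_mem_toSubmodule := fun g v hv => by rw [h g]; exact hv }
    rcases hρ.eq_bot_or_eq_top S with h' | h'
    · have h'' : S.toSubmodule = ⊥ := by rw [h']; rfl
      have := congrFun (Submodule.span_singleton_eq_bot.1 h'') ⟨0, by omega⟩
      simp at this
    · have h'' : S.toSubmodule = ⊤ := by rw [h']; rfl
      have hf := congrArg (fun K : Submodule ℂ (Fin k → ℂ) => Module.finrank ℂ K) h''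
      simp only [S, finrank_top, Module.finrank_fin_fun] at hf
      rw [finrank_span_singleton (by simp)] at hf
      omega
  · rw [Module.finrank_fin_fun, mul_comm k] at h
    exact Nat.div_le_of_le_mul h

end Cfsg.Agent.S2333
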