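import Cfsg.Statements.S2334
import Cfsg.Agent.Lib.InvCentralizers.UnitaryTrivial

set_option autoImplicit false
open Cfsg

namespace Cfsg.Agent.S2334

/-- For odd n ≥ 3 and a finite field F with q² elements, (n, q) ≠ (3, 2), every irreducible complex representation of the special unitary group SU_n(q) (the determinant-one isometries of the standard Hermitian form over F) of degree at least 2 has degree at least (q^n − q)/(q + 1). -/
theorem result {F : Type*} [Field F] [Fintype F] [DecidableEq F] (n q : ℕ) (hn : 3 ≤ n) (hodd : Odd n) (hF : Fintype.card F = q ^ 2) (hex : (n, q) ≠ (3, 2)) :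
    (∀ (k : ℕ) (ρ : Representation ℂ (Cfsg.SU n F q) (Fin k → ℂ)), ρ.IsIrreducible → 2 ≤ k → (q ^ n - q) / (q + 1) ≤ k) := by
  classical
  intro k ρ hρ hk
  by_contra hlt
  obtain ⟨m, rfl⟩ := hodd
  obtain ⟨σ, hσq, hne, hσ⟩ := CfsgLib.Forms.exists_conj_of_card_sq hF
  have hq : 2 ≤ q := by
    have h1 := Fintype.one_lt_card (α := F)
    rw [hF] at h1
    exact (Nat.one_lt_pow_iff two_ne_zero).mp h1
  have hb : (q + 1) * (k + 1) ≤ q * (q ^ (2 * m) - 1) := by
    have e : q ^ (2 * m + 1) - q = q * (q ^ (2 * m) - 1) := by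
      rw [pow_succ, Nat.mul_sub, mul_comm, mul_one]
    rw [← e, mul_comm]
    exact (Nat.le_div_iff_mul_le (by omega)).1 (by omega)
  refine CfsgLib.InvCentralizers.UnitaryTrivial.not_isIrreducible_of_trivial hk ρ ?_ hρ
  refine CfsgLib.InvCentralizers.UnitaryTrivial.eq_one_of_small (r := 1) σ hσq hσ hne hF
    (m := m) (by omega) hn (fun h => hex (by rw [h.1, h.2])) ρ (fun Φ => ?_) (by omega)
  exact CfsgLib.InvCentralizers.UnitaryBound.zOp_eq_one_odd σ Φ ρ hσ hne hσq hq hF
    (by simp only [Module.finrank_fin_fun]; rw [Nat.mul_succ] at hb; omega)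

end Cfsg.Agent.S2334
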