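import Cfsg.Statements.S2338
import Cfsg.Agent.Lib.Chevalley.G2Degree.Main
import Cfsg.Agent.Lib.Chevalley.SimpleData

set_option autoImplicit false
open Cfsg

namespace Cfsg.Agent.S2338

/-- Lower bounds for the degrees of non-linear irreducible complex representations of the Chevalley group of type G₂ over a finite field with q elements: the degree is at least q³ + 1 when q ≡ 1 (mod 3) and q > 4, at least q³ − 1 when q ≡ 2 (mod 3) and q > 2, and at least q⁴ + q² + 1 when q ≡ 0 (mod 3) and q > 3. -/
theorem result {F : Type*} [Field F] [Fintype F] (k : ℕ) (ρ : Representation ℂ (Cfsg.Lie.chevG2.group F) (Fin k → ℂ)) (hρ : ρ.IsIrreducible) (hk : 2 ≤ k) :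
    (Fintype.card F % 3 = 1 → 4 < Fintype.card F → Fintype.card F ^ 3 + 1 ≤ k) ∧
    (Fintype.card F % 3 = 2 → 2 < Fintype.card F → Fintype.card F ^ 3 - 1 ≤ k) ∧
    (Fintype.card F % 3 = 0 → 3 < Fintype.card F → Fintype.card F ^ 4 + Fintype.card F ^ 2 + 1 ≤ k) := by
  classical
  have hfd : Module.finrank ℂ (Fin k → ℂ) = k := Module.finrank_fin_fun ℂ
  by_cases hF : Fintype.card F = 2
  · rw [hF]
    norm_num
  have hne : ∃ a : F, a ≠ 0 ∧ a ≠ 1 := by
    by_contra h
    push Not at h
    have hsub : (Finset.univ : Finset F) ⊆ {0, 1} := fun a _ => by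
      by_cases h0 : a = 0
      · simp [h0]
      · simp [h a h0]
    have := (Finset.card_le_card hsub).trans Finset.card_le_two
    rw [Finset.card_univ] at this
    have := Fintype.one_lt_card (α := F)
    omega
  obtain ⟨hsimple, -⟩ := CfsgLib.Chevalley.simpleG2 hne
  have hinj : Function.Injective ρ := by
    have hker : (ρ.toHomUnits).ker = ⊥ := by
      refine (hsimple.eq_bot_or_eq_top_of_normal _ inferInstance).resolve_right fun h => ?_
      have h1 : ∀ g, ρ g = 1 := fun g => by
        have := congrArg Units.val (MonoidHom.mem_ker.1 (h ▸ Subgroup.mem_top g : g ∈ (ρ.toHomUnits).ker))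
        simpa using this
      let e0 : Fin k → ℂ := Pi.single ⟨0, by omega⟩ 1
      have hne0 : e0 ≠ 0 := fun e => by simpa [e0] using congrFun e ⟨0, by omega⟩
      let T : Subrepresentation ρ := ⟨ℂ ∙ e0, fun g v hv => by rw [h1 g]; exact hv⟩
      rcases hρ.eq_bot_or_eq_top T with e | e
      · exact hne0 (Submodule.span_singleton_eq_bot.1 (congrArg Subrepresentation.toSubmodule e))
      · have h2 := finrank_span_singleton (K := ℂ) hne0
        have e' : (ℂ ∙ e0) = ⊤ := congrArg Subrepresentation.toSubmodule e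
        rw [e', finrank_top, hfd] at h2
        omega
    intro x y hxy
    have hxy' : ρ.toHomUnits x = ρ.toHomUnits y := Units.ext hxy
    exact ((MonoidHom.ker_eq_bot_iff _).1 hker) hxy'
  have := CfsgLib.Chevalley.G2Degree.degree_bounds ρ hinj hρ
  rwa [hfd] at this

end Cfsg.Agent.S2338
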