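import Cfsg.Statements.S2339
import Cfsg.Agent.Lib.RootChain.MinDegreeE8

set_option autoImplicit false
open Cfsg

namespace Cfsg.Agent.S2339

/-- For the Chevalley group of type E₈ over a finite field with q elements, every irreducible complex representation of degree at least 2 has degree at least q(q¹² + 1)(q¹⁰ + 1)(q⁶ + 1). -/
theorem result {F : Type*} [Field F] [Fintype F] (k : ℕ) (ρ : Representation ℂ (Cfsg.Lie.chevE8.group F) (Fin k → ℂ)) (hρ : ρ.IsIrreducible) (hk : 2 ≤ k) :
    Fintype.card F * (Fintype.card F ^ 12 + 1) * (Fintype.card F ^ 10 + 1) * (Fintype.card F ^ 6 + 1) ≤ k := by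
  refine le_of_eq_of_le ?_ (CfsgLib.RootChain.E8.min_degree ρ hρ hk)
  simp only [CfsgLib.RootChain.E8.target]
  ring

end Cfsg.Agent.S2339
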