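import Cfsg.Statements.S2341
import Cfsg.Agent.Lib.Twisted.E6MinDegree
import Cfsg.Agent.Lib.Twisted.TwistedSimple
import Cfsg.Agent.Lib.Twisted.TorusCounts
import Cfsg.Agent.Lib.TwistedOrder.Instances
import Cfsg.Agent.Lib.CharTheory.Degree
-- import your own Cfsg.Agent.* helpers here

set_option autoImplicit false
open Cfsg

namespace Cfsg.Agent.S2341

/-- For the twisted group ²E₆(q), realised over the field with q² elements (q a prime power), every irreducible complex representation of degree at least 2 has degree at least q(q⁶ − q³ + 1)(q⁴ + 1). -/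
theorem result {K : Type*} [Field K] [Fintype K] (q : ℕ) (hq : IsPrimePow q) (hK : Fintype.card K = q ^ 2) :
    (∀ (k : ℕ) (ρ : Representation ℂ (Cfsg.Lie.twistedE6 K q) (Fin k → ℂ)), ρ.IsIrreducible → 2 ≤ k → q * (q ^ 6 - q ^ 3 + 1) * (q ^ 4 + 1) ≤ k) := by
  classical
  intro k ρ hirr hk
  obtain ⟨hsimple, -⟩ := CfsgLib.Twisted.twistedE6_simple hq hK
  have hρ : Function.Injective ρ := by
    have hker : (ρ.toHomUnits).ker = ⊥ := by
      refine (hsimple.eq_bot_or_eq_top_of_normal _ inferInstance).resolve_right fun h => ?_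
      have h1 : ∀ g, ρ g = 1 := fun g => by
        have := congrArg Units.val (MonoidHom.mem_ker.1 (h ▸ Subgroup.mem_top g : g ∈ (ρ.toHomUnits).ker))
        simpa using this
      have hsub : ∀ S : Submodule ℂ (Fin k → ℂ), S = ⊥ ∨ S = ⊤ := fun S => by
        let T : Subrepresentation ρ := ⟨S, fun g v hv => by rw [h1 g]; exact hv⟩
        rcases hirr.eq_bot_or_eq_top T with e | e
        · exact Or.inl (congrArg Subrepresentation.toSubmodule e)
        · exact Or.inr (congrArg Subrepresentation.toSubmodule e)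
      let e0 : Fin k → ℂ := Pi.single ⟨0, by omega⟩ 1
      have hne : e0 ≠ 0 := fun e => by simpa [e0] using congrFun e ⟨0, by omega⟩
      rcases hsub (ℂ ∙ e0) with e | e
      · exact hne (Submodule.span_singleton_eq_bot.1 e)
      · have := finrank_span_singleton (K := ℂ) hne
        rw [e, finrank_top, Module.finrank_fin_fun] at this
        omega
    intro g h e
    exact (MonoidHom.ker_eq_bot_iff _).1 hker (Units.ext e)
  have hlow := CfsgLib.Twisted.E6.min_degree_aux hq hK ρ hρ
  have : Fintype ↥(Cfsg.Lie.twistedE6 K q) := Fintype.ofFinite _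
  have hdvd := CfsgLib.CharTheory.finrank_dvd_card ρ
  rw [Module.finrank_fin_fun] at hlow hdvd
  refine CfsgLib.Twisted.E6Min.bound_of_lower hq hlow ?_
  rw [← CfsgLib.TwistedOrder.card_twistedE6 hq hK (CfsgLib.Twisted.card_torusE6 hq hK)]
  exact Dvd.dvd.mul_left hdvd _

end Cfsg.Agent.S2341
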