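import Cfsg.Statements.S2342
import Cfsg.Agent.Lib.Twisted.D4MinDegree
import Cfsg.Agent.Lib.Twisted.TwistedSimple
import Cfsg.Agent.Lib.Twisted.TorusCounts
import Cfsg.Agent.Lib.TwistedOrder.Instances
import Cfsg.Agent.Lib.CharTheory.Degree
-- import your own Cfsg.Agent.* helpers here

set_option autoImplicit false
open Cfsg

namespace Cfsg.Agent.S2342

/-- For the twisted group ³D₄(q), realised over the field with q³ elements (q a prime power), every irreducible complex representation of degree at least 2 has degree at least q(q⁴ − q² + 1). -/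
theorem result {K : Type*} [Field K] [Fintype K] (q : ℕ) (hq : IsPrimePow q) (hK : Fintype.card K = q ^ 3) :
    (∀ (k : ℕ) (ρ : Representation ℂ (Cfsg.Lie.twistedD4 K q) (Fin k → ℂ)), ρ.IsIrreducible → 2 ≤ k → q * (q ^ 4 - q ^ 2 + 1) ≤ k) := by
  classical
  intro k ρ hirr hk
  obtain ⟨hsimple, -⟩ := CfsgLib.Twisted.twistedD4_simple hq hK
  have hρ : Function.Injective ρ := by
    have hker : (ρ.toHomUnits).ker = ⊥ := by
      refine (hsimple.eq_bot_or_eq_top_of_normal _ inferInstance).resolve_right fun h => ?_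
      have h1 : ∀ g, ρ g = 1 := fun g => by
        have := congrArg Units.val (MonoidHom.mem_ker.1 (h ▸ Subgroup.mem_top g : g ∈ (ρ.toHomUnits).ker))
        simpa using this
      have hsub : ∀ S : Submodule ℂ (Fin k → ℂ), S = ⊥ ∨ S = ⊤ := fun S => by
        let T : Subrepresentation ρ := ⟨S, fun g v hv => by rw [h1 g]; exact hv⟩
        rcases hirr.eq_bot_or_eq_top T with e | e
        · exact Or.inl (congrArg Subrepresentation.toSubmodule e)
        · exact Or.inr (congrArg Subrepresentation.toSubmodule e)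
      let e0 : Fin k → ℂ := Pi.single ⟨0, by omega⟩ 1
      have hne : e0 ≠ 0 := fun e => by simpa [e0] using congrFun e ⟨0, by omega⟩
      rcases hsub (ℂ ∙ e0) with e | e
      · exact hne (Submodule.span_singleton_eq_bot.1 e)
      · have := finrank_span_singleton (K := ℂ) hne
        rw [e, finrank_top, Module.finrank_fin_fun] at this
        omega
    intro g h e
    exact (MonoidHom.ker_eq_bot_iff _).1 hker (Units.ext e)
  have hlow := CfsgLib.Twisted.D4.min_degree_aux hq hK ρ hρ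
  have : Fintype ↥(Cfsg.Lie.twistedD4 K q) := Fintype.ofFinite _
  have hdvd := CfsgLib.CharTheory.finrank_dvd_card ρ
  rw [Module.finrank_fin_fun,
    CfsgLib.TwistedOrder.card_twistedD4 hq hK (CfsgLib.Twisted.card_torusD4 hq hK)] at hdvd
  have hq2 := hq.two_le
  -- the bound minus one does not divide the order
  have hne : k ≠ (q - 1) * (q ^ 4 + q ^ 3 + 1) := by
    rintro rfl
    have h2 : q ^ 12 * (q ^ 2 - 1) * (q ^ 6 - 1) * (q ^ 8 + q ^ 4 + 1) =
        (q - 1) * (q ^ 12 * ((q + 1) * (q ^ 6 - 1) * (q ^ 8 + q ^ 4 + 1))) := by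
      rw [show q ^ 2 - 1 = (q + 1) * (q - 1) by rw [← Nat.sq_sub_sq, one_pow]]
      ring
    rw [h2] at hdvd
    have h3 := Nat.dvd_of_mul_dvd_mul_left (by omega) hdvd
    have hcop : Nat.Coprime (q ^ 4 + q ^ 3 + 1) (q ^ 12) := by
      refine Nat.Coprime.pow_right 12 ?_
      rw [show q ^ 4 + q ^ 3 + 1 = 1 + q * (q ^ 3 + q ^ 2) by ring, Nat.coprime_add_mul_left_left]
      exact Nat.coprime_one_left q
    have h4 := Int.natCast_dvd_natCast.2 (hcop.dvd_of_dvd_mul_left h3)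
    have h6 : 1 ≤ q ^ 6 := Nat.one_le_pow _ _ (by omega)
    push_cast [Nat.cast_sub h6] at h4
    have h5 : ((q : ℤ) ^ 4 + (q : ℤ) ^ 3 + 1) ∣ 3 * (q : ℤ) ^ 3 - 2 * q + 2 := by
      have := Int.dvd_sub h4 (Dvd.intro ((q : ℤ) ^ 11 + (q : ℤ) ^ 6 - 2 * (q : ℤ) ^ 5 + (q : ℤ) ^ 4 + q - 3) rfl)
      convert this using 1
      ring
    have hq2' : (2 : ℤ) ≤ q := by exact_mod_cast hq2
    have hpos : 0 < 3 * (q : ℤ) ^ 3 - 2 * q + 2 := by nlinarith [pow_le_pow_left₀ (by norm_num) hq2' 2]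
    have hle := Int.le_of_dvd hpos h5
    nlinarith [mul_le_mul_of_nonneg_right hq2' (by positivity : (0 : ℤ) ≤ (q : ℤ) ^ 3)]
  obtain ⟨p, rfl⟩ : ∃ p, q = p + 1 := ⟨q - 1, by omega⟩
  simp only [Nat.add_sub_cancel] at hlow hne
  have e1 : p * (p + 1) ^ 4 + p * (p + 1) ^ 3 + p = p * ((p + 1) ^ 4 + (p + 1) ^ 3 + 1) := by ring
  have hsq : (p + 1) ^ 2 ≤ (p + 1) ^ 4 := Nat.pow_le_pow_right (by omega) (by omega)
  have e2 : (p + 1) * ((p + 1) ^ 4 - (p + 1) ^ 2 + 1) = p * ((p + 1) ^ 4 + (p + 1) ^ 3 + 1) + 1 := by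
    zify [hsq]; ring
  rw [e2]
  rw [e1] at hlow
  omega

end Cfsg.Agent.S2342
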