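import Cfsg.Statements.S2343
import Cfsg.Agent.Lib.Twisted.ReeBorelCoord
import Cfsg.Agent.Lib.Twisted.RepEigen
import Cfsg.Agent.Lib.Twisted.TwistedSimple
-- import your own Cfsg.Agent.* helpers here

set_option autoImplicit false
open Cfsg

namespace Cfsg.Agent.S2343

open CfsgLib.Twisted Cfsg.Lie

variable {K : Type*} [Field K] [Fintype K] {m : ℕ}

/-- Eigenvectors for `q (q - 1)` characters of the abelian subgroup, on which the involution of
the torus has no fixed line. -/
theorem exists_eigen_family (hK : Fintype.card K = 3 ^ (2 * m + 1)) {k : ℕ}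
    (ρ : Representation ℂ ↥(twistedG2 K (3 ^ m)) (Fin k → ℂ)) (hρ : Function.Injective ρ) :
    3 ^ (2 * m + 1) * (3 ^ (2 * m + 1) - 1) ≤ k ∧
      (k = 3 ^ (2 * m + 1) * (3 ^ (2 * m + 1) - 1) → ∀ A ∈ reeH K m, A ≠ 1 → A * A = 1 →
        LinearMap.trace ℂ (Fin k → ℂ) (ρ A) = 0) := by
  classical
  obtain ⟨y, hy⟩ := exists_reeAbel hK
  have hyi := reeAbel_injective hK hy
  let σ : Representation ℂ (Multiplicative (K × K)) (Fin k → ℂ) := ρ.comp y
  let z₀ : Multiplicative (K × K) := Multiplicative.ofAdd (0, 1)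
  have hz₀ : ρ (y z₀) ≠ 1 := fun e => by
    have h1 : z₀ = 1 := hyi ((hρ (e.trans (map_one ρ).symm)).trans (map_one y).symm)
    have := congrArg (fun a : Multiplicative (K × K) => a.toAdd.2) h1
    simp [z₀] at this
  set W := LinearMap.range (σ z₀ - 1) with hW
  have hcomm : ∀ a b, Commute (σ a) (σ b) := fun a b => (Commute.all a b).map σ
  obtain ⟨v, hvW, hv0, hv⟩ := RepEigen.exists_common_eigen (fun a => σ a) hcomm W
    (fun h => hz₀ (sub_eq_zero.1 (LinearMap.range_eq_bot.1 h)))
    (fun a w ⟨x, hx⟩ => ⟨σ a x, by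
      rw [← hx]
      simp only [LinearMap.sub_apply, Module.End.one_apply, map_sub]
      have h := LinearMap.congr_fun (hcomm z₀ a).eq x
      simp only [Module.End.mul_apply] at h
      rw [h]⟩)
  choose c hc using hv
  have hinj := smul_left_injective ℂ hv0
  let ψ : Multiplicative (K × K) →* ℂ :=
    { toFun := c
      map_one' := hinj (by simp only [← hc, map_one, Module.End.one_apply, one_smul])
      map_mul' := fun a b => hinj (by
        simp only [← hc, map_mul, Module.End.mul_apply]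
        rw [hc b, map_smul, hc a, smul_smul, mul_comm]) }
  have hψ : ∀ a, σ a v = ψ a • v := hc
  have hψz : ψ z₀ ≠ 1 := fun e => by
    obtain ⟨w, hw⟩ := hvW
    have hfix : σ z₀ v = v := by rw [hψ, e, one_smul]
    have hpow : ∀ n : ℕ, σ (z₀ ^ n) w = w + (n : ℂ) • v := by
      intro n
      induction n with
      | zero => simp
      | succ n ih =>
        rw [pow_succ', map_mul, Module.End.mul_apply, ih, map_add, map_smul, hfix,
          show σ z₀ w = w + v by rw [← hw]; simp, Nat.cast_succ, add_smul, one_smul]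
        abel
    have h := hpow (orderOf z₀)
    rw [pow_orderOf_eq_one, map_one, Module.End.one_apply, left_eq_add, smul_eq_zero] at h
    rcases h with h | h
    · exact (orderOf_pos z₀).ne' (Nat.cast_eq_zero.1 h)
    · exact hv0 h
  choose x hx using reeAbel_conj_unipotent hK hy
  choose α β hβ0 hβ1 hβ using fun h : reeH K m => reeAbel_conj_torus hK hy h.2
  let L : K × reeH K m → (K × K →+ K × K) := fun i =>
    AddMonoidHom.mk' (fun p => (α i.2 * p.1, β i.2 * (p.2 + p.1 * i.1)))
      (fun p p' => by simp only [Prod.fst_add, Prod.snd_add, Prod.mk_add_mk, Prod.mk.injEq]; constructor <;> ring)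
  let φ : K × reeH K m → (Multiplicative (K × K) →* ℂ) := fun i =>
    ψ.comp (AddMonoidHom.toMultiplicative (L i))
  have hL : ∀ i E F, ((i.2 : ↥(twistedG2 K (3 ^ m))) * x i.1) * y (Multiplicative.ofAdd (E, F)) *
      ((i.2 : ↥(twistedG2 K (3 ^ m))) * x i.1)⁻¹ = y (Multiplicative.ofAdd (L i (E, F))) := fun i E F => by
    show _ = y (Multiplicative.ofAdd (α i.2 * E, β i.2 * (F + E * i.1)))
    rw [← hβ, ← hx]; group
  let w : K × reeH K m → (Fin k → ℂ) := fun i =>
    ρ ((i.2 : ↥(twistedG2 K (3 ^ m))) * x i.1)⁻¹ v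
  have hw0 : ∀ i, w i ≠ 0 := fun i e => hv0 (by
    have := congrArg (ρ ((i.2 : ↥(twistedG2 K (3 ^ m))) * x i.1)) e
    rwa [map_zero, ← Module.End.mul_apply, ← map_mul, mul_inv_cancel, map_one] at this)
  have hwe : ∀ i a, σ a (w i) = φ i a • w i := by
    intro i a
    show ρ (y a) (w i) = _
    have e := hL i a.toAdd.1 a.toAdd.2
    rw [show Multiplicative.ofAdd (a.toAdd.1, a.toAdd.2) = a from rfl] at e
    rw [← Module.End.mul_apply, ← map_mul]
    rw [show y a * ((i.2 : ↥(twistedG2 K (3 ^ m))) * x i.1)⁻¹ = ((i.2 : ↥(twistedG2 K (3 ^ m))) *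
      x i.1)⁻¹ * y (Multiplicative.ofAdd (L i (a.toAdd.1, a.toAdd.2))) by rw [← e]; group]
    rw [map_mul, Module.End.mul_apply]
    exact (congrArg _ (hψ _)).trans (map_smul _ _ _)
  have hlam : ∀ b b' : K, (∀ F, ψ (Multiplicative.ofAdd (0, b * F)) = ψ (Multiplicative.ofAdd (0, b' * F))) →
      b = b' := fun b b' h => by
    by_contra hne
    have hd : b - b' ≠ 0 := sub_ne_zero.2 hne
    apply hψz
    have hF := h (1 / (b - b'))
    have e : z₀ * Multiplicative.ofAdd ((0 : K), b' * (1 / (b - b'))) =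
        Multiplicative.ofAdd ((0 : K), b * (1 / (b - b'))) := by
      show Multiplicative.ofAdd _ = _
      congr 1
      refine Prod.ext (add_zero 0) ?_
      show 1 + b' * (1 / (b - b')) = b * (1 / (b - b'))
      field_simp; ring
    rw [← e, map_mul] at hF
    have hu : IsUnit (ψ (Multiplicative.ofAdd ((0 : K), b' * (1 / (b - b'))))) := (Group.isUnit _).map ψ
    exact hu.mul_eq_right.1 hF
  have hφ : Function.Injective φ := by
    rintro ⟨t, h⟩ ⟨t', h'⟩ e
    have hb : β h = β h' := hlam _ _ fun F => by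
      simpa [φ, L] using DFunLike.congr_fun e (Multiplicative.ofAdd ((0 : K), F))
    have hh : h = h' := by
      obtain ⟨a1, b1, hb1, hb1', hconj⟩ := reeAbel_conj_torus hK hy (mul_mem (inv_mem h.2) h'.2)
      have e1 : h' = h * ⟨_, mul_mem (inv_mem h.2) h'.2⟩ := Subtype.ext (by
        show (h' : ↥(twistedG2 K (3 ^ m))) = h * ((h : ↥(twistedG2 K (3 ^ m)))⁻¹ * h')
        group)
      have hone : b1 = 1 := by
        have h1 := hconj 0 1
        rw [show (h : ↥(twistedG2 K (3 ^ m)))⁻¹ * h' * y (Multiplicative.ofAdd ((0 : K), (1 : K))) *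
          ((h : ↥(twistedG2 K (3 ^ m)))⁻¹ * h')⁻¹ = (h : ↥(twistedG2 K (3 ^ m)))⁻¹ * ((h' : ↥(twistedG2 K (3 ^ m))) *
          y (Multiplicative.ofAdd ((0 : K), (1 : K))) * (h' : ↥(twistedG2 K (3 ^ m)))⁻¹) * h by group, hβ, ← hb,
          show α h' * (0 : K) = α h * 0 by simp, ← hβ] at h1
        have h2 : y (Multiplicative.ofAdd ((0 : K), (1 : K))) = y (Multiplicative.ofAdd (a1 * 0, b1 * 1)) := by
          rw [← h1]; group
        simpa using (congrArg (fun a : Multiplicative (K × K) => a.toAdd.2) (hyi h2)).symm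
      rw [e1, show (⟨_, mul_mem (inv_mem h.2) h'.2⟩ : reeH K m) = 1 from Subtype.ext (hb1' hone), mul_one]
    subst hh
    have ht : β h * t = β h * t' := hlam _ _ fun E => by
      have e1 := DFunLike.congr_fun e (Multiplicative.ofAdd (E, (0 : K)))
      simp only [φ, L, MonoidHom.comp_apply] at e1
      change ψ (Multiplicative.ofAdd (α h * E, β h * (0 + E * t))) =
        ψ (Multiplicative.ofAdd (α h * E, β h * (0 + E * t'))) at e1
      have split : ∀ s : K, ψ (Multiplicative.ofAdd (α h * E, β h * (0 + E * s))) =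
          ψ (Multiplicative.ofAdd (α h * E, (0 : K))) * ψ (Multiplicative.ofAdd ((0 : K), β h * s * E)) := fun s => by
        rw [← map_mul, ← ofAdd_add, Prod.mk_add_mk]
        congr 3 <;> ring
      rw [split, split] at e1
      exact mul_left_cancel₀ ((Group.isUnit _).map ψ).ne_zero e1
    exact Prod.ext (mul_left_cancel₀ (hβ0 h) ht) rfl
  have hli := RepEigen.linearIndependent_eigen σ φ w hφ hw0 hwe
  have hcard : Fintype.card (K × reeH K m) = 3 ^ (2 * m + 1) * (3 ^ (2 * m + 1) - 1) := by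
    rw [Fintype.card_prod, hK, ← Nat.card_eq_fintype_card (α := reeH K m), card_reeH hK]
  refine ⟨?_, fun hk A hA hA1 hA2 => ?_⟩
  · have := hli.fintype_card_le_finrank
    rwa [hcard, Module.finrank_fin_fun] at this
  have : Nonempty (K × reeH K m) := ⟨(0, 1)⟩
  let bb := basisOfLinearIndependentOfCardEqFinrank hli (by rw [hcard, Module.finrank_fin_fun, hk])
  have hbb : ∀ i, bb i = w i := fun i => by
    simp [bb, coe_basisOfLinearIndependentOfCardEqFinrank]
  refine RepEigen.trace_eq_zero_of_moves σ φ bb (fun i g => by rw [hbb]; exact hwe i g) _ fun i => ?_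
  let Hc : Multiplicative (K × K) →* Multiplicative (K × K) :=
    AddMonoidHom.toMultiplicative (AddMonoidHom.mk' (fun p => (α ⟨A, hA⟩ * p.1, β ⟨A, hA⟩ * p.2))
      (fun p p' => by simp [mul_add]))
  refine ⟨(φ i).comp Hc, fun e => ?_, fun a => ?_⟩
  · have hb : β i.2 * β ⟨A, hA⟩ = β i.2 := hlam _ _ fun F => by
      simpa [φ, L, Hc, mul_assoc] using DFunLike.congr_fun e (Multiplicative.ofAdd ((0 : K), F))
    exact hA1 (hβ1 ⟨A, hA⟩ (mul_right_eq_self₀.1 hb |>.resolve_right (hβ0 _)))
  · rw [hbb]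
    show ρ (y a) (ρ A (w i)) = _
    rw [← Module.End.mul_apply, ← map_mul]
    have e : A * y a * A⁻¹ = y (Hc a) := hβ ⟨A, hA⟩ a.toAdd.1 a.toAdd.2
    rw [inv_eq_of_mul_eq_one_left hA2] at e
    have e2 : y a * A = A * y (Hc a) := by
      rw [← e, ← mul_assoc, ← mul_assoc, hA2, one_mul]
    rw [e2, map_mul, Module.End.mul_apply, MonoidHom.comp_apply]
    exact (congrArg _ (hwe i (Hc a))).trans (map_smul _ _ _)



/-- For the Ree group ²G₂(q), q = 3^(2m+1) with m ≥ 1 (realised over the field with q elements), every irreducible complex representation of degree at least 2 has degree at least q² − q + 1. -/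
theorem result {K : Type*} [Field K] [Fintype K] (m : ℕ) (hm : 1 ≤ m) (hK : Fintype.card K = 3 ^ (2 * m + 1)) :
    (∀ (k : ℕ) (ρ : Representation ℂ (Cfsg.Lie.twistedG2 K (3 ^ m)) (Fin k → ℂ)), ρ.IsIrreducible → 2 ≤ k → (3 ^ (2 * m + 1)) ^ 2 - 3 ^ (2 * m + 1) + 1 ≤ k) := by
  classical
  intro k ρ hirr hk
  obtain ⟨hsimple, -⟩ := CfsgLib.Twisted.twistedG2_simple hm hK
  have hρ : Function.Injective ρ := by
    have hker : (ρ.toHomUnits).ker = ⊥ := by
      refine (hsimple.eq_bot_or_eq_top_of_normal _ inferInstance).resolve_right fun h => ?_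
      have h1 : ∀ g, ρ g = 1 := fun g => by
        have := congrArg Units.val (MonoidHom.mem_ker.1 (h ▸ Subgroup.mem_top g : g ∈ (ρ.toHomUnits).ker))
        simpa using this
      have hsub : ∀ S : Submodule ℂ (Fin k → ℂ), S = ⊥ ∨ S = ⊤ := fun S => by
        let T : Subrepresentation ρ := ⟨S, fun g v hv => by rw [h1 g]; exact hv⟩
        rcases hirr.eq_bot_or_eq_top T with e | e
        · exact Or.inl (congrArg Subrepresentation.toSubmodule e)
        · exact Or.inr (congrArg Subrepresentation.toSubmodule e)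
      let e0 : Fin k → ℂ := Pi.single ⟨0, by omega⟩ 1
      have hne : e0 ≠ 0 := fun e => by simpa [e0] using congrFun e ⟨0, by omega⟩
      rcases hsub (ℂ ∙ e0) with e | e
      · exact hne (Submodule.span_singleton_eq_bot.1 e)
      · have := finrank_span_singleton (K := ℂ) hne
        rw [e, finrank_top, Module.finrank_fin_fun] at this
        omega
    intro g h e
    exact (MonoidHom.ker_eq_bot_iff _).1 hker (Units.ext e)
  obtain ⟨hge, htr⟩ := exists_eigen_family hK ρ hρ
  obtain ⟨h27, h8, -⟩ := ree_q_data hm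
  suffices hne : k ≠ 3 ^ (2 * m + 1) * (3 ^ (2 * m + 1) - 1) by
    rw [Nat.mul_sub, mul_one, ← pow_two] at hge hne
    omega
  intro hkq
  obtain ⟨A, hA, hA1, hA2⟩ := exists_reeH_involution hK
  let S : Sylow 2 ↥(Cfsg.Lie.twistedG2 K (3 ^ m)) := default
  obtain ⟨hS, hsq, -⟩ := ree_sylow_two' hK S
  let τ := ρ.comp (S : Subgroup ↥(Cfsg.Lie.twistedG2 K (3 ^ m))).subtype
  have := Fintype.ofFinite (S : Subgroup ↥(Cfsg.Lie.twistedG2 K (3 ^ m)))
  have : Invertible (Nat.card (S : Subgroup ↥(Cfsg.Lie.twistedG2 K (3 ^ m))) : ℂ) :=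
    invertibleOfNonzero (Nat.cast_ne_zero.2 (by rw [hS]; norm_num))
  have havg := Representation.card_inv_mul_sum_char_eq_finrank τ
  have hsum : ∑ g, Representation.character τ g = (k : ℂ) := by
    rw [Finset.sum_eq_single 1]
    · rw [Representation.char_one, Module.finrank_fin_fun]
    · intro g _ hg
      obtain ⟨c, hc⟩ := exists_conj_involution hK hm hA hA1 hA2 (t := (g : ↥(Cfsg.Lie.twistedG2 K (3 ^ m))))
        (fun e => hg (Subtype.ext e)) (hsq _ g.2)
      show Representation.character ρ (g : ↥(Cfsg.Lie.twistedG2 K (3 ^ m))) = 0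
      rw [← Representation.char_conj ρ _ c, hc]
      exact htr hkq A hA hA1 hA2
    · simp
  rw [hsum, hS, inv_mul_eq_iff_eq_mul₀ (by norm_num)] at havg
  have hdiv : k = 8 * Module.finrank ℂ (Representation.invariants τ) := by exact_mod_cast havg
  obtain ⟨Q, hQ⟩ : ∃ Q, Q = 3 ^ (2 * m + 1) := ⟨_, rfl⟩
  rw [← hQ] at hkq h8 h27
  have h6 : k % 8 = 6 := by
    rw [hkq, Nat.mul_mod, h8, show (Q - 1) % 8 = 2 by omega]
  omega

end Cfsg.Agent.S2343
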