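import Cfsg.Statements.S2344
import Cfsg.Agent.Lib.InvCentralizers.OrthOddDegree
import Cfsg.Agent.Lib.ClassicalForms.Ortho.POmega

set_option autoImplicit false
open Cfsg

namespace Cfsg.Agent.S2344

/-- For a finite field F of odd order q > 3 and n ≥ 3, every irreducible complex representation of degree at least 2 of Ω_{2n+1}(F) (the commutator subgroup of the isometry group of the quadratic form x₀² + x₁y₁ + ⋯ + x_ny_n) has degree at least (q^{2n} − 1)/(q² − 1). -/
theorem result {F : Type*} [Field F] [Fintype F] (n : ℕ) (hn : 3 ≤ n) (hodd : Odd (Fintype.card F)) (h3 : 3 < Fintype.card F) :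
    (∀ (k : ℕ) (ρ : Representation ℂ (Cfsg.Omega F (Cfsg.quadFormOdd n F)) (Fin k → ℂ)), ρ.IsIrreducible → 2 ≤ k → (Fintype.card F ^ (2 * n) - 1) / (Fintype.card F ^ 2 - 1) ≤ k) := by
  classical
  intro k ρ hρ hk
  obtain ⟨j, rfl⟩ : ∃ j, n = j + 3 := ⟨n - 3, by omega⟩
  have h2 : (2 : F) ≠ 0 := Ring.two_ne_zero fun h => by
    have := FiniteField.even_card_of_char_two h
    rw [Nat.odd_iff] at hodd
    omega
  have h4 : 4 < Fintype.card F := by
    obtain ⟨t, ht⟩ := hodd
    omega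
  have hne : ∃ g, ρ g ≠ 1 := by
    by_contra hcon
    push Not at hcon
    have hv : (Pi.single (⟨0, by omega⟩ : Fin k) (1 : ℂ) : Fin k → ℂ) ≠ 0 := by simp
    let p : Subrepresentation ρ :=
      ⟨Submodule.span ℂ {Pi.single (⟨0, by omega⟩ : Fin k) (1 : ℂ)}, fun g w hw => by
        rw [hcon g]; exact hw⟩
    have hfr : Module.finrank ℂ p.toSubmodule = 1 := finrank_span_singleton hv
    rcases hρ.eq_bot_or_eq_top p with hp | hp
    · rw [hp] at hfr
      rw [show (⊥ : Subrepresentation ρ).toSubmodule = ⊥ from rfl, finrank_bot] at hfr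
      omega
    · rw [hp, show (⊤ : Subrepresentation ρ).toSubmodule = ⊤ from rfl, finrank_top,
        Module.finrank_fintype_fun_eq_card, Fintype.card_fin] at hfr
      omega
  let e₁ : Cfsg.Omega F (Cfsg.quadFormOdd (j + 3) F) ≃*
      CfsgLib.ClassicalForms.siegelGroup (CfsgLib.ClassicalForms.qOdd (j + 3) F) :=
    (CfsgLib.ClassicalForms.commutatorCongr
      (CfsgLib.ClassicalForms.isoMat _ (CfsgLib.ClassicalForms.qOdd_apply (j + 3)))).trans
      (MulEquiv.subgroupCongr (CfsgLib.ClassicalForms.commutator_qOdd h2 (by omega)))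
  let e₂ := CfsgLib.InvCentralizers.OrthPlusDegree.siegelCongr
    (Q := (CfsgLib.InvCentralizers.OrthOddTower.otower F (j + 3)).Q)
    (Q' := CfsgLib.ClassicalForms.qOdd (j + 3) F)
    ((CfsgLib.InvCentralizers.OrthOddTower.oEquiv F (j + 3)).trans
      (CfsgLib.ClassicalForms.oddEquiv (j + 3)).symm)
    (fun v => by
      rw [LinearEquiv.trans_apply, ← CfsgLib.ClassicalForms.qH_oddEquiv,
        LinearEquiv.apply_symm_apply, CfsgLib.InvCentralizers.OrthOddTower.qH_oEquiv])
  obtain ⟨g, hg⟩ := hne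
  have h := CfsgLib.InvCentralizers.OrthOddDegree.bound h2 h4 j (Fin k → ℂ)
    (ρ.comp (e₂.trans e₁.symm).toMonoidHom) ⟨e₂.symm (e₁ g), by
      change ρ (e₁.symm (e₂ (e₂.symm (e₁ g)))) ≠ 1
      rw [MulEquiv.apply_symm_apply, MulEquiv.symm_apply_apply]
      exact hg⟩
  rw [Module.finrank_fintype_fun_eq_card, Fintype.card_fin] at h
  have hS := CfsgLib.InvCentralizers.OrthOddSmall.S_mul (F := F) (j + 2)
  refine Nat.div_le_of_le_mul ?_
  have hq : 1 ≤ Fintype.card F ^ 2 := Nat.one_le_pow _ _ (by omega)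
  have hqn : 1 ≤ Fintype.card F ^ (2 * (j + 3)) := Nat.one_le_pow _ _ (by omega)
  zify [hq, hqn]
  rw [mul_comm ((Fintype.card F : ℤ) ^ 2 - 1), show 2 * (j + 3) = 2 * (j + 2) + 2 by ring]
  refine le_trans (le_of_eq hS.symm) ?_
  exact mul_le_mul_of_nonneg_right h (by
    have : (1 : ℤ) ≤ (Fintype.card F : ℤ) ^ 2 := one_le_pow₀ (by exact_mod_cast Fintype.card_pos)
    omega)

end Cfsg.Agent.S2344
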