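import Cfsg.Statements.S2345
import Cfsg.Agent.Lib.InvCentralizers.OrthPlusDegree

set_option autoImplicit false
open Cfsg

namespace Cfsg.Agent.S2345

/-- For a finite field F with q > 3 elements and n ≥ 4, every irreducible complex representation of degree at least 2 of Ω⁺_{2n}(F) (the commutator subgroup of the isometry group of the hyperbolic quadratic form x₁y₁ + ⋯ + x_ny_n) has degree at least (q^n − 1)(q^{n−1} + q)/(q² − 1). -/
theorem result {F : Type*} [Field F] [Fintype F] (n : ℕ) (hn : 4 ≤ n) (h3 : 3 < Fintype.card F) :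
    (∀ (k : ℕ) (ρ : Representation ℂ (Cfsg.Omega F (Cfsg.quadFormPlus n F)) (Fin k → ℂ)), ρ.IsIrreducible → 2 ≤ k → (Fintype.card F ^ n - 1) * (Fintype.card F ^ (n - 1) + Fintype.card F) / (Fintype.card F ^ 2 - 1) ≤ k) := by
  classical
  intro k ρ hρ hk
  obtain ⟨j, rfl⟩ : ∃ j, n = j + 3 := ⟨n - 3, by omega⟩
  have hne : ∃ g, ρ g ≠ 1 := by
    by_contra hcon
    push Not at hcon
    have hv : (Pi.single (⟨0, by omega⟩ : Fin k) (1 : ℂ) : Fin k → ℂ) ≠ 0 := by simp
    let p : Subrepresentation ρ :=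
      ⟨Submodule.span ℂ {Pi.single (⟨0, by omega⟩ : Fin k) (1 : ℂ)}, fun g w hw => by
        rw [hcon g]; exact hw⟩
    have hfr : Module.finrank ℂ p.toSubmodule = 1 := finrank_span_singleton hv
    rcases hρ.eq_bot_or_eq_top p with hp | hp
    · rw [hp] at hfr
      rw [show (⊥ : Subrepresentation ρ).toSubmodule = ⊥ from rfl, finrank_bot] at hfr
      omega
    · rw [hp, show (⊤ : Subrepresentation ρ).toSubmodule = ⊤ from rfl, finrank_top,
        Module.finrank_fintype_fun_eq_card, Fintype.card_fin] at hfr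
      omega
  let e : Cfsg.Omega F (Cfsg.quadFormPlus (j + 3) F) ≃*
      CfsgLib.ClassicalForms.siegelGroup (CfsgLib.ClassicalForms.qPlus (j + 3) F) :=
    (CfsgLib.ClassicalForms.commutatorCongr
      (CfsgLib.ClassicalForms.isoMat _ (CfsgLib.ClassicalForms.qPlus_apply (j + 3)))).trans
      (MulEquiv.subgroupCongr (CfsgLib.ClassicalForms.commutator_qPlus (by omega)))
  obtain ⟨g, hg⟩ := hne
  have h := CfsgLib.InvCentralizers.OrthPlusDegree.bound h3 j (Fin k → ℂ)
    (ρ.comp e.symm.toMonoidHom) ⟨e g, by simpa using hg⟩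
  rw [Module.finrank_fintype_fun_eq_card, Fintype.card_fin] at h
  have hS := CfsgLib.InvCentralizers.OrthPlusDegree.S_mul (F := F) j
  refine Nat.div_le_of_le_mul ?_
  have hq : 1 ≤ Fintype.card F ^ 2 := Nat.one_le_pow _ _ (by omega)
  have hqn : 1 ≤ Fintype.card F ^ (j + 3) := Nat.one_le_pow _ _ (by omega)
  rw [show j + 3 - 1 = j + 2 by omega]
  zify [hq, hqn]
  rw [← hS, mul_comm ((Fintype.card F : ℤ) ^ 2 - 1)]
  exact mul_le_mul_of_nonneg_right h (by
    have : (1 : ℤ) ≤ (Fintype.card F : ℤ) ^ 2 := one_le_pow₀ (by omega)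
    omega)

end Cfsg.Agent.S2345
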