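import Cfsg.Statements.S2346
import Cfsg.Agent.Lib.InvCentralizers.OrthMinusDegree
import Cfsg.Agent.Lib.ClassicalForms.Ortho.POmega

set_option autoImplicit false
open Cfsg

namespace Cfsg.Agent.S2346

/-- For a finite field F with q elements, n ≥ 4, and a, b ∈ F with z₁² + a z₁z₂ + b z₂² anisotropic, every irreducible complex representation of degree at least 2 of Ω⁻_{2n}(F) (the commutator subgroup of the isometry group of x₁y₁ + ⋯ + x_{n−1}y_{n−1} + z₁² + a z₁z₂ + b z₂²) has degree at least (q^n + 1)(q^{n−1} − q)/(q² − 1). -/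
theorem result {F : Type*} [Field F] [Fintype F] (n : ℕ) (hn : 4 ≤ n) (a b : F) (hab : ∀ z₁ z₂ : F, z₁ ^ 2 + a * z₁ * z₂ + b * z₂ ^ 2 = 0 → z₁ = 0 ∧ z₂ = 0) :
    (∀ (k : ℕ) (ρ : Representation ℂ (Cfsg.Omega F (Cfsg.quadFormMinus (n - 1) F a b)) (Fin k → ℂ)), ρ.IsIrreducible → 2 ≤ k → (Fintype.card F ^ n + 1) * (Fintype.card F ^ (n - 1) - Fintype.card F) / (Fintype.card F ^ 2 - 1) ≤ k) := by
  classical
  intro k ρ hρ hk
  obtain ⟨j, rfl⟩ : ∃ j, n = j + 4 := ⟨n - 4, by omega⟩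
  have hA : CfsgLib.ClassicalForms.Aniso a b := hab
  have hne : ∃ g, ρ g ≠ 1 := by
    by_contra hcon
    push Not at hcon
    have hv : (Pi.single (⟨0, by omega⟩ : Fin k) (1 : ℂ) : Fin k → ℂ) ≠ 0 := by simp
    let p : Subrepresentation ρ :=
      ⟨Submodule.span ℂ {Pi.single (⟨0, by omega⟩ : Fin k) (1 : ℂ)}, fun g w hw => by
        rw [hcon g]; exact hw⟩
    have hfr : Module.finrank ℂ p.toSubmodule = 1 := finrank_span_singleton hv
    rcases hρ.eq_bot_or_eq_top p with hp | hp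
    · rw [hp] at hfr
      rw [show (⊥ : Subrepresentation ρ).toSubmodule = ⊥ from rfl, finrank_bot] at hfr
      omega
    · rw [hp, show (⊤ : Subrepresentation ρ).toSubmodule = ⊤ from rfl, finrank_top,
        Module.finrank_fintype_fun_eq_card, Fintype.card_fin] at hfr
      omega
  let e₁ : Cfsg.Omega F (Cfsg.quadFormMinus (j + 4 - 1) F a b) ≃*
      CfsgLib.ClassicalForms.siegelGroup (CfsgLib.ClassicalForms.qMinus (j + 3) F a b) :=
    (CfsgLib.ClassicalForms.commutatorCongr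
      (CfsgLib.ClassicalForms.isoMat _ (CfsgLib.ClassicalForms.qMinus_apply (j + 3) a b))).trans
      (MulEquiv.subgroupCongr (CfsgLib.ClassicalForms.commutator_qMinus hA (by omega)))
  let e₂ := CfsgLib.InvCentralizers.OrthPlusDegree.siegelCongr
    (Q := (CfsgLib.InvCentralizers.OrthMinusTower.tower a b (j + 3)).Q)
    (Q' := CfsgLib.ClassicalForms.qMinus (j + 3) F a b)
    ((CfsgLib.InvCentralizers.OrthMinusTower.tEquiv a b (j + 3)).trans
      (CfsgLib.ClassicalForms.minusEquiv (j + 3)).symm)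
    (fun v => by
      rw [LinearEquiv.trans_apply, ← CfsgLib.ClassicalForms.qH_minusEquiv,
        LinearEquiv.apply_symm_apply, CfsgLib.InvCentralizers.OrthMinusTower.qH_tEquiv])
  obtain ⟨g, hg⟩ := hne
  have h := CfsgLib.InvCentralizers.OrthMinusDegree.bound hA (j + 0) (Fin k → ℂ)
    (ρ.comp (e₂.trans e₁.symm).toMonoidHom) ⟨e₂.symm (e₁ g), by
      change ρ (e₁.symm (e₂ (e₂.symm (e₁ g)))) ≠ 1
      rw [MulEquiv.apply_symm_apply, MulEquiv.symm_apply_apply]
      exact hg⟩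
  rw [Module.finrank_fintype_fun_eq_card, Fintype.card_fin] at h
  have hS := CfsgLib.InvCentralizers.OrthMinusSmall.S_mul (F := F) (j + 2)
  refine Nat.div_le_of_le_mul ?_
  have hq : 1 ≤ Fintype.card F ^ 2 := Nat.one_le_pow _ _ (by exact Fintype.card_pos)
  have hqn : Fintype.card F ≤ Fintype.card F ^ (j + 3) := Nat.le_self_pow (by omega) _
  rw [show j + 4 - 1 = j + 3 by omega]
  zify [hq, hqn]
  rw [mul_comm ((Fintype.card F : ℤ) ^ 2 - 1)]
  refine le_trans (le_of_eq hS.symm) ?_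
  exact mul_le_mul_of_nonneg_right h (by
    have : (1 : ℤ) ≤ (Fintype.card F : ℤ) ^ 2 := one_le_pow₀ (by exact_mod_cast Fintype.card_pos)
    omega)

end Cfsg.Agent.S2346
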