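import Cfsg.Statements.S2347
import Cfsg.Agent.Lib.InvCentralizers.WeilRep

set_option autoImplicit false
open Cfsg

namespace Cfsg.Agent.S2347

/-- Smallest degree of a non-linear irreducible complex representation of the symplectic group Sp_{2n} over a finite field of odd order q, n ≥ 2: every irreducible complex representation of degree at least 2 has degree at least (q^n − 1)/2, and there is an irreducible complex representation of exactly that degree (a Weil representation). -/
theorem result {F : Type*} [Field F] [Fintype F] [DecidableEq F] (n : ℕ) (hn : 2 ≤ n) (hodd : Odd (Fintype.card F)) :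
    (∀ (k : ℕ) (ρ : Representation ℂ (Matrix.symplecticGroup (Fin n) F) (Fin k → ℂ)), ρ.IsIrreducible → 2 ≤ k → (Fintype.card F ^ n - 1) / 2 ≤ k) ∧
    (∃ ρ : Representation ℂ (Matrix.symplecticGroup (Fin n) F) (Fin ((Fintype.card F ^ n - 1) / 2) → ℂ), ρ.IsIrreducible) := by
  classical
  have h2 : (2 : F) ≠ 0 := Ring.two_ne_zero fun h => by
    have : Even (Fintype.card F) := FiniteField.even_card_iff_char_two.1 h |> Nat.even_iff.2
    exact (Nat.not_even_iff_odd.2 hodd) this
  have hq : 3 ≤ Fintype.card F := by
    have h1 : 1 < Fintype.card F := Fintype.one_lt_card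
    obtain ⟨t, ht⟩ := hodd
    omega
  refine ⟨fun k ρ hρ hk => ?_, ?_⟩
  · by_contra hlt
    have htriv := CfsgLib.InvCentralizers.SympBound.eq_one_of_finrank_lt ρ
      (show 0 < n by omega) h2 (by simp only [Module.finrank_fin_fun]; omega)
    let S : Subrepresentation ρ :=
      { toSubmodule := Submodule.span ℂ {Pi.single ⟨0, by omega⟩ 1}
        apply_mem_toSubmodule := fun g v hv => by rw [htriv g]; exact hv }
    rcases hρ.eq_bot_or_eq_top S with h | h
    · have h' : S.toSubmodule = ⊥ := by rw [h]; rfl
      have := congrFun (Submodule.span_singleton_eq_bot.1 h') ⟨0, by omega⟩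
      simp at this
    · have h' : S.toSubmodule = ⊤ := by rw [h]; rfl
      have hf := congrArg (fun K : Submodule ℂ (Fin k → ℂ) => Module.finrank ℂ K) h'
      simp only [S, finrank_top, Module.finrank_fin_fun] at hf
      rw [finrank_span_singleton (by simp)] at hf
      omega
  · let P := CfsgLib.InvCentralizers.WeilRep.par F n (-1)
    have hr : Module.finrank ℂ P = (Fintype.card F ^ n - 1) / 2 := by
      have hh : 2 * Module.finrank ℂ P + 1 = Fintype.card F ^ n :=
        CfsgLib.InvCentralizers.WeilRep.finrank_odd (n := n) h2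
      generalize Fintype.card F ^ n = N at *
      omega
    let e : P ≃ₗ[ℂ] (Fin ((Fintype.card F ^ n - 1) / 2) → ℂ) :=
      LinearEquiv.ofFinrankEq _ _ (hr.trans (Module.finrank_fin_fun (R := ℂ)).symm)
    let ρ : Representation ℂ (Matrix.symplecticGroup (Fin n) F)
        (Fin ((Fintype.card F ^ n - 1) / 2) → ℂ) :=
      { toFun := fun g => e.conj (CfsgLib.InvCentralizers.WeilRep.weil h2 g)
        map_one' := by rw [map_one]; exact LinearMap.ext fun x => e.apply_symm_apply x
        map_mul' := fun a b => by
          rw [map_mul]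
          refine LinearMap.ext fun x => ?_
          simp [LinearEquiv.conj_apply] }
    refine ⟨ρ, ?_⟩
    have hpos : 0 < (Fintype.card F ^ n - 1) / 2 := by
      have : 3 ≤ Fintype.card F ^ n := le_trans hq (Nat.le_self_pow (by omega) _)
      omega
    have : Nontrivial (Subrepresentation ρ) := by
      refine ⟨⊥, ⊤, fun h => ?_⟩
      have h' : (⊥ : Submodule ℂ (Fin ((Fintype.card F ^ n - 1) / 2) → ℂ)) = ⊤ :=
        congrArg Subrepresentation.toSubmodule h
      have h3 : (Pi.single ⟨0, hpos⟩ 1 : Fin ((Fintype.card F ^ n - 1) / 2) → ℂ) ∈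
          (⊥ : Submodule ℂ _) := by rw [h']; trivial
      have := congrFun ((Submodule.mem_bot ℂ).1 h3) ⟨0, hpos⟩
      simp at this
    refine IsSimpleOrder.mk fun S => ?_
    have := CfsgLib.InvCentralizers.WeilRep.weil_irreducible h2 hn hq
      (S.toSubmodule.comap e.toLinearMap) (fun g f hf => by
        have h4 := S.apply_mem_toSubmodule g hf
        simpa [ρ, LinearEquiv.conj_apply, Submodule.mem_comap] using h4)
    refine this.imp (fun h => Subrepresentation.ext (Submodule.ext fun x => ?_))
      (fun h => Subrepresentation.ext (Submodule.ext fun x => ?_))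
    · change x ∈ S.toSubmodule ↔ x ∈ (⊥ : Submodule ℂ _)
      rw [Submodule.mem_bot]
      refine ⟨fun hx => ?_, fun hx => hx ▸ S.toSubmodule.zero_mem⟩
      have h5 : e.symm x ∈ S.toSubmodule.comap e.toLinearMap := by simpa using hx
      rw [h, Submodule.mem_bot, LinearEquiv.map_eq_zero_iff] at h5
      exact h5
    · change x ∈ S.toSubmodule ↔ x ∈ (⊤ : Submodule ℂ _)
      refine ⟨fun _ => trivial, fun _ => ?_⟩
      have h5 : e.symm x ∈ S.toSubmodule.comap e.toLinearMap := by rw [h]; trivial
      simpa using h5

end Cfsg.Agent.S2347
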