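import Cfsg.Statements.S2355
import Cfsg.Agent.Lib.Laws.Classical

set_option autoImplicit false
open Cfsg

namespace Cfsg.Agent.S2355

/-- A non-trivial law is satisfied by only finitely many finite simple groups that are alternating or classical, up to isomorphism: for every non-trivial element w of the free group on countably many generators there is a bound N such that every alternating group of degree ≥ 5 and every simple classical group (linear, symplectic, unitary or orthogonal, in this problem's sense) in which w is a law has order at most N. -/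
theorem result (w : FreeGroup ℕ) (hw : w ≠ 1) :
    ∃ N : ℕ, ∀ (G : Type*) [Group G] [Finite G],
      (Cfsg.IsAlternating G ∨ Cfsg.IsPSL G ∨ Cfsg.IsPSp G ∨ Cfsg.IsPSU G ∨ Cfsg.IsPOmegaOdd G ∨
          Cfsg.IsPOmegaPlus G ∨ Cfsg.IsPOmegaMinus G) →
      (∀ f : ℕ → G, FreeGroup.lift f w = 1) → Nat.card G ≤ N := by
  open CfsgLib.Laws in
  obtain ⟨M, hM⟩ := exists_bracket_ne_one w hw
  obtain ⟨Na, hNa⟩ := notLawC_alternating w hw
  obtain ⟨Nl, hNl3, hNl⟩ := notLawC_sl _ hM
  obtain ⟨Nu, hNu3, hNu⟩ := notLawC_su _ hM
  set B := Nl + Nu ^ 2 + Nu + 2 with hB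
  refine ⟨max (Nat.factorial Na) (B ^ ((2 * B + 2) ^ 2)), fun G _ _ hG hlaw => ?_⟩
  have absurd_of : ∀ {H : Type} [Group H], (G ≃* H) →
      ¬ ∃ f : ℕ → H, FreeGroup.lift f w ≠ 1 := by
    rintro H _ e ⟨f, hf⟩
    refine hf ?_
    have h1 := hlaw (fun i => e.symm (f i))
    have h2 := lift_comp e.symm.toMonoidHom f w
    rw [Function.comp_def] at h2
    change FreeGroup.lift (fun i => e.symm (f i)) w = e.symm (FreeGroup.lift f w) at h2
    rw [h2] at h1
    simpa using h1
  rcases hG with hA | hL | hS | hU | hO | hP | hMn
  · obtain ⟨n, -, ⟨e⟩⟩ := hA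
    by_cases hn : Na ≤ n
    · exact absurd (hNa n hn).exists_lift (absurd_of e)
    · refine le_trans ?_ (le_max_left _ _)
      rw [Nat.card_congr e.toEquiv]
      refine (Nat.card_le_card_of_injective Subtype.val Subtype.val_injective).trans ?_
      rw [Nat.card_perm, Nat.card_fin]
      exact Nat.factorial_le (by omega)
  · obtain ⟨F, _, _, n, hn, -, ⟨e⟩⟩ := hL
    by_cases hb : n ≤ B ∧ Fintype.card F ≤ B
    · exact (card_le_of_matrix _ e _ Subtype.val_injective B hb.2 (by simp; omega)).trans
        (le_max_right _ _)
    · exact absurd (exists_lift_quotient_center (hNl F n hn (by omega)).exists_lift)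
        (absurd_of e)
  · obtain ⟨F, _, _, m, hm, -, ⟨e⟩⟩ := hS
    by_cases hb : m ≤ B ∧ Fintype.card F ≤ B
    · exact (card_le_of_matrix _ e _ Subtype.val_injective B hb.2 (by simp; omega)).trans
        (le_max_right _ _)
    · have h := ((hNl F m hm (by omega)).map _ Matrix.SpecialLinearGroup.toGL_injective).map
        (glSp m) (glSp_injective m)
      exact absurd (exists_lift_quotient_center h.exists_lift) (absurd_of e)
  · obtain ⟨F, _, _, n, q, hF, hn, -, ⟨e⟩⟩ := hU
    by_cases hb : n ≤ B ∧ Fintype.card F ≤ B
    · exact (card_le_of_matrix _ e (fun g => (g.1 : Matrix (Fin n) (Fin n) F))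
        (Subtype.val_injective.comp Subtype.val_injective) B hb.2 (by simp; omega)).trans
        (le_max_right _ _)
    · exact absurd (exists_lift_quotient_center (hNu F q n hF (by omega) (by omega)).exists_lift)
        (absurd_of e)
  · obtain ⟨F, _, _, m, hm, -, ⟨e⟩⟩ := hO
    by_cases hb : m ≤ B ∧ Fintype.card F ≤ B
    · exact (card_le_of_matrix _ e (Units.val ∘ Subtype.val ∘ Subtype.val)
        (Units.val_injective.comp (Subtype.val_injective.comp Subtype.val_injective)) B hb.2
        (by simp; omega)).trans (le_max_right _ _)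
    · have h := (hNl F m (by omega) (by omega)).map _ Matrix.SpecialLinearGroup.toGL_injective
      exact absurd (exists_lift_quotient_center (notLawC_omegaOdd h)) (absurd_of e)
  · obtain ⟨F, _, _, m, hm, ⟨e⟩⟩ := hP
    by_cases hb : m ≤ B ∧ Fintype.card F ≤ B
    · exact (card_le_of_matrix _ e (Units.val ∘ Subtype.val ∘ Subtype.val)
        (Units.val_injective.comp (Subtype.val_injective.comp Subtype.val_injective)) B hb.2
        (by simp; omega)).trans (le_max_right _ _)
    · have h := (hNl F m (by omega) (by omega)).map _ Matrix.SpecialLinearGroup.toGL_injective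
      exact absurd (exists_lift_quotient_center (notLawC_omegaPlus h)) (absurd_of e)
  · obtain ⟨F, _, _, m, a, b, hm, -, ⟨e⟩⟩ := hMn
    by_cases hb : m ≤ B ∧ Fintype.card F ≤ B
    · exact (card_le_of_matrix _ e (Units.val ∘ Subtype.val ∘ Subtype.val)
        (Units.val_injective.comp (Subtype.val_injective.comp Subtype.val_injective)) B hb.2
        (by simp; omega)).trans (le_max_right _ _)
    · have h := (hNl F (m - 1) (by omega) (by omega)).map _
        Matrix.SpecialLinearGroup.toGL_injective
      exact absurd (exists_lift_quotient_center (notLawC_omegaMinus a b h)) (absurd_of e)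

end Cfsg.Agent.S2355
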