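import Cfsg.Statements.S2356
import Cfsg.Agent.Lib.SectRank.UnitaryThreeConj

set_option autoImplicit false
open Cfsg

namespace Cfsg.Agent.S2356

/-- Let q be odd, F the field with q² elements, S = SU_3(F) (determinant-one isometries of the standard Hermitian form) and t an involution of S. Then: exactly q(q−1) involutions other than t commute with t; exactly q(q−2)(q²−1) involutions do not commute with t but commute with some involution commuting with t; exactly (q+1)(q²−1) involutions x do not commute with t and admit no involution commuting with both t and x; and every involution can be reached from t in at most three steps, each step going to an involution that commutes with the previous one (the commuting involution graph is connected of diameter 3). -/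
theorem result {F : Type*} [Field F] [Fintype F] {q : ℕ} (hq : Odd q)
    (hF : Fintype.card F = q ^ 2) (t : ↥(Cfsg.SU 3 F q)) (ht : t ≠ 1) (ht2 : t * t = 1) :
    Nat.card {x : ↥(Cfsg.SU 3 F q) // x ≠ 1 ∧ x * x = 1 ∧ x ≠ t ∧ Commute t x} = q * (q - 1) ∧
    Nat.card {x : ↥(Cfsg.SU 3 F q) // x ≠ 1 ∧ x * x = 1 ∧ ¬ Commute t x ∧
        ∃ y : ↥(Cfsg.SU 3 F q), y ≠ 1 ∧ y * y = 1 ∧ Commute t y ∧ Commute y x} = q * (q - 2) * (q ^ 2 - 1) ∧
    Nat.card {x : ↥(Cfsg.SU 3 F q) // x ≠ 1 ∧ x * x = 1 ∧ ¬ Commute t x ∧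
        ∀ y : ↥(Cfsg.SU 3 F q), y ≠ 1 → y * y = 1 → ¬ (Commute t y ∧ Commute y x)} = (q + 1) * (q ^ 2 - 1) ∧
    ∀ x : ↥(Cfsg.SU 3 F q), x ≠ 1 → x * x = 1 →
      ∃ y z : ↥(Cfsg.SU 3 F q), y ≠ 1 ∧ y * y = 1 ∧ z ≠ 1 ∧ z * z = 1 ∧
        Commute t y ∧ Commute y z ∧ Commute z x := by
  classical
  have hF' : Nat.card F = q ^ 2 := by rw [Nat.card_eq_fintype_card, hF]
  obtain ⟨c⟩ := CfsgLib.ClassicalForms.exists_conj hF'
  have h2 := CfsgLib.SectRank.SUThree.two_ne_zero_of_card hq hF'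
  obtain ⟨e1, e2, e3⟩ := CfsgLib.SectRank.SUThree.card_kinds c h2 hF' t ht ht2
  have hq3 : 2 ≤ q := by have := CfsgLib.ClassicalForms.two_le_q hF'; omega
  have h1 : 1 ≤ q ^ 2 := Nat.one_le_pow _ _ (by omega)
  refine ⟨?_, ?_, ?_, fun x hx1 hx2 =>
    CfsgLib.SectRank.SUThree.exists_path c h2 hF' t x ht ht2 hx1 hx2⟩
  · rw [Nat.card_congr (Equiv.subtypeEquivRight (q := fun x : Cfsg.SU 3 F q =>
      (x ≠ 1 ∧ x * x = 1) ∧ x ≠ t ∧ Commute t x) fun x => and_assoc.symm)]
    zify [show 1 ≤ q by omega]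
    exact e1
  · rw [Nat.card_congr (Equiv.subtypeEquivRight (q := fun x : Cfsg.SU 3 F q =>
      (x ≠ 1 ∧ x * x = 1) ∧ ¬ Commute t x ∧
        ∃ y : Cfsg.SU 3 F q, y ≠ 1 ∧ y * y = 1 ∧ Commute t y ∧ Commute y x) fun x => and_assoc.symm)]
    zify [hq3, h1]
    exact e2
  · rw [Nat.card_congr (Equiv.subtypeEquivRight (q := fun x : Cfsg.SU 3 F q =>
      (x ≠ 1 ∧ x * x = 1) ∧ ¬ Commute t x ∧
        ∀ y : Cfsg.SU 3 F q, y ≠ 1 → y * y = 1 → ¬ (Commute t y ∧ Commute y x))
      fun x => and_assoc.symm)]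
    zify [h1]
    exact e3

end Cfsg.Agent.S2356
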