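import Cfsg.Statements.S2358
import Cfsg.Agent.Lib.ReeTori.Conjugacy

set_option autoImplicit false
open Cfsg

namespace Cfsg.Agent.S2358

/-- Let R be the small Ree group over the field with q = 3^(2m+1) ≥ 27 elements. If d divides one of (q−1)/2, (q+1)/4, q − 3^(m+1) + 1 or q + 3^(m+1) + 1, then any two cyclic subgroups of R of order d are conjugate in R. -/
theorem result {K : Type*} [Field K] [Fintype K] {m : ℕ} (hm : 1 ≤ m)
    (hK : Fintype.card K = 3 ^ (2 * m + 1)) (d : ℕ)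
    (hd : d ∣ (3 ^ (2 * m + 1) - 1) / 2 ∨ d ∣ (3 ^ (2 * m + 1) + 1) / 4 ∨ d ∣ 3 ^ (2 * m + 1) - 3 ^ (m + 1) + 1 ∨ d ∣ 3 ^ (2 * m + 1) + 3 ^ (m + 1) + 1)
    (A B : Subgroup ↥(Cfsg.Lie.twistedG2 K (3 ^ m))) (hA : IsCyclic A) (hB : IsCyclic B)
    (hAd : Nat.card A = d) (hBd : Nat.card B = d) :
    ∃ g : ↥(Cfsg.Lie.twistedG2 K (3 ^ m)), B = A.map (MulAut.conj g).toMonoidHom := by
  exact CfsgLib.ReeTori.cyclic_conjugate hK hm hd A B hA hB hAd hBd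

end Cfsg.Agent.S2358
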