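import Cfsg.Statements.S2360
import Cfsg.Agent.Lib.SectRank.UnitaryThreeConj

set_option autoImplicit false
open Cfsg

namespace Cfsg.Agent.S2360

/-- Let q be odd, F the field with q² elements and S = SU_3(F) (determinant-one isometries of the standard Hermitian form). Then all involutions of S are conjugate; there are exactly q²(q²−q+1) of them; the centralizer of an involution has order q(q+1)(q²−1), the order of the full unitary group of degree 2; and for two distinct commuting involutions t and x there is exactly one further involution commuting with both. -/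
theorem result {F : Type*} [Field F] [Fintype F] {q : ℕ} (hq : Odd q)
    (hF : Fintype.card F = q ^ 2) (t : ↥(Cfsg.SU 3 F q)) (ht : t ≠ 1) (ht2 : t * t = 1) :
    (∀ x : ↥(Cfsg.SU 3 F q), x ≠ 1 → x * x = 1 → ∃ g : ↥(Cfsg.SU 3 F q), g * t * g⁻¹ = x) ∧
    Nat.card {x : ↥(Cfsg.SU 3 F q) // x ≠ 1 ∧ x * x = 1} = q ^ 2 * (q ^ 2 - q + 1) ∧
    Nat.card ↥(Subgroup.centralizer ({t} : Set ↥(Cfsg.SU 3 F q))) = q * (q + 1) * (q ^ 2 - 1) ∧
    ∀ x : ↥(Cfsg.SU 3 F q), x ≠ 1 → x * x = 1 → x ≠ t → Commute t x →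
      Nat.card {y : ↥(Cfsg.SU 3 F q) // y ≠ 1 ∧ y * y = 1 ∧ y ≠ t ∧ y ≠ x ∧ Commute t y ∧ Commute x y} = 1 := by
  classical
  have hF' : Nat.card F = q ^ 2 := by rw [Nat.card_eq_fintype_card, hF]
  obtain ⟨c⟩ := CfsgLib.ClassicalForms.exists_conj hF'
  have h2 := CfsgLib.SectRank.SUThree.two_ne_zero_of_card hq hF'
  have hq2 : 2 ≤ q := CfsgLib.ClassicalForms.two_le_q hF'
  have h1 : 1 ≤ q ^ 2 := Nat.one_le_pow _ _ (by omega)
  have h3 : q ≤ q ^ 2 := Nat.le_self_pow (by norm_num) _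
  refine ⟨fun x hx1 hx2 => CfsgLib.SectRank.SUThree.exists_conj_eq c h2 hF' t x ht ht2 hx1 hx2,
    ?_, ?_, fun x hx1 hx2 hxt hc =>
      CfsgLib.SectRank.SUThree.card_third c h2 hF' t x ht ht2 hx1 hx2 hxt hc⟩
  · zify [h3]
    exact CfsgLib.SectRank.SUThree.card_all c h2 hF'
  · zify [h1]
    exact CfsgLib.SectRank.SUThree.card_centralizer c h2 hF' t ht ht2

end Cfsg.Agent.S2360
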