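import Cfsg.Statements.S2444
import Cfsg.Agent.Lib.CharDegrees.Thompson.Top

set_option autoImplicit false
open Cfsg

namespace Cfsg.Agent.S2444

open CfsgLib.CharDegrees.Thompson in
/-- In the special linear group SL(n,F) over a finite field F, with n ≥ 2 and (n, |F|) not (2,2) or (2,3), every element is a commutator a·b·a⁻¹·b⁻¹ of two elements of SL(n,F). -/
theorem result {F : Type*} [Field F] [Fintype F] (n : ℕ) (hn : 2 ≤ n) (hex : n = 2 → 4 ≤ Fintype.card F) :
    ∀ g : Matrix.SpecialLinearGroup (Fin n) F, ∃ a b : Matrix.SpecialLinearGroup (Fin n) F, g = a * b * a⁻¹ * b⁻¹ := by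
  intro g
  set A : Module.End F (Fin n → F) := Matrix.toLin' (g : Matrix (Fin n) (Fin n) F) with hA
  have hdet : LinearMap.det A = 1 := by rw [hA, LinearMap.det_toLin']; exact g.2
  have hd : Module.finrank F (Fin n → F) = n := Module.finrank_fin_fun F
  obtain ⟨a, b, ha, hb, hab⟩ : IsComm A := by
    rcases (show n = 2 ∨ ∃ k, n = k + 3 by
      rcases n with _ | _ | _ | k
      · omega
      · omega
      · exact Or.inl rfl
      · exact Or.inr ⟨k, rfl⟩) with h2 | ⟨k, hk⟩
    · exact isComm_plane (hex h2) (by omega) hdet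
    · obtain ⟨s, hS⟩ := exists_setting (F := F)
      exact isComm_of_det_one hS k _ A (by omega) hdet
  obtain ⟨a', ha'⟩ : ∃ a' : Matrix.SpecialLinearGroup (Fin n) F, a'.1 = LinearMap.toMatrix' a :=
    ⟨⟨_, by rw [LinearMap.det_toMatrix', ha]⟩, rfl⟩
  obtain ⟨b', hb'⟩ : ∃ b' : Matrix.SpecialLinearGroup (Fin n) F, b'.1 = LinearMap.toMatrix' b :=
    ⟨⟨_, by rw [LinearMap.det_toMatrix', hb]⟩, rfl⟩
  refine ⟨a', b', ?_⟩
  rw [eq_mul_inv_iff_mul_eq, eq_mul_inv_iff_mul_eq, mul_assoc]
  apply Subtype.ext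
  simp only [Matrix.SpecialLinearGroup.coe_mul, ha', hb']
  have := congrArg LinearMap.toMatrix' hab
  simp only [LinearMap.toMatrix'_mul, hA, LinearMap.toMatrix'_toLin'] at this
  exact this

end Cfsg.Agent.S2444
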