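import Cfsg.Statements.S2445
import Cfsg.Agent.Lib.SpOre.Assembly
import Cfsg.Agent.Lib.SpOre.Decomp

set_option autoImplicit false
open Cfsg

namespace Cfsg.Agent.S2445

/-- In the symplectic group Sp(2m,F) over a finite field F (m ≥ 1), other than Sp(2,2), Sp(2,3) and Sp(4,2), every element is a commutator a·b·a⁻¹·b⁻¹ of two elements of Sp(2m,F). -/
theorem result {F : Type*} [Field F] [Fintype F] (m : ℕ) (hm : 1 ≤ m) (h1 : m = 1 → 4 ≤ Fintype.card F)
    (h2 : m = 2 → 3 ≤ Fintype.card F) : ∀ g : Matrix.symplecticGroup (Fin m) F, ∃ a b : Matrix.symplecticGroup (Fin m) F, g = a * b * a⁻¹ * b⁻¹ := by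
  exact CfsgLib.SpOre.symplectic_commutator m h1 h2
    fun β hβ _ hh _ hU => CfsgLib.SpOre.gauss_or_exists_oddPair hβ hh hU

end Cfsg.Agent.S2445
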