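import Cfsg.Statements.S2446
import Cfsg.Agent.Lib.OreSU.Main

set_option autoImplicit false
open Cfsg

namespace Cfsg.Agent.S2446

/-- In the special unitary group SU(n,q), n ≥ 3, realised over the field F with q² elements as the determinant-one isometries of the standard Hermitian form, and with (n,q) ≠ (3,2), every element is a commutator a·b·a⁻¹·b⁻¹ of two elements of SU(n,q). -/
theorem result {F : Type*} [Field F] [Fintype F] (n q : ℕ) (hn : 3 ≤ n) (hF : Fintype.card F = q ^ 2) (hex : ¬ (n = 3 ∧ q = 2)) :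
    ∀ g : Cfsg.SU n F q, ∃ a b : Cfsg.SU n F q, g = a * b * a⁻¹ * b⁻¹ := by
  intro g
  obtain ⟨σ, hσ⟩ := CfsgLib.OreSU.exists_isConj hF
  by_cases hs : ∃ a : F, ((g : Matrix.SpecialLinearGroup (Fin n) F) : Matrix (Fin n) (Fin n) F) = a • 1
  · obtain ⟨a, ha⟩ := hs
    exact CfsgLib.OreSU.isComm_of_scalar hn hσ g a ha
  · obtain ⟨k, m, h, lam, hk, hkm, hl, hh, hN, hback⟩ :=
      CfsgLib.OreSU.exists_normalForm hσ g (fun a ha => hs ⟨a, ha⟩)
    refine hback (CfsgLib.OreSU.isComm_of_normalForm hσ hk (by omega) ?_ hh hl hN)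
    rw [hkm]
    exact hex

end Cfsg.Agent.S2446
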