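import Cfsg.Statements.S2448
import Cfsg.Agent.Lib.OreOrth.GoodAll
import Cfsg.Agent.Lib.OreOrth.Plus

set_option autoImplicit false
open Cfsg

namespace Cfsg.Agent.S2448

/-- Let F be a finite field and n ≥ 4, and let Ω⁺(2n,F) be the commutator subgroup of the orthogonal group of the quadratic form Σ xᵢyᵢ (n hyperbolic planes). Then every element of Ω⁺(2n,F) is a commutator a·b·a⁻¹·b⁻¹ of two elements of Ω⁺(2n,F). -/
theorem result {F : Type*} [Field F] [Fintype F] (n : ℕ) (hn : 4 ≤ n) : ∀ g : Cfsg.Omega F (Cfsg.quadFormPlus n F), ∃ a b : Cfsg.Omega F (Cfsg.quadFormPlus n F), g = a * b * a⁻¹ * b⁻¹ := by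
  intro g
  exact CfsgLib.OreOrth.Plus.exists_comm_plus n hn
    (fun A hdet hA h3 => CfsgLib.OreOrth.good_all (by omega) (Or.inl hn) A hdet hA h3) g

end Cfsg.Agent.S2448
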