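import Cfsg.Statements.S2450
import Cfsg.Agent.Lib.CharDegrees.PSLTwoClasses

set_option autoImplicit false
open Cfsg Matrix
open scoped MatrixGroups

namespace Cfsg.Agent.S2450

open CfsgLib.SL2 CfsgLib.CharDegrees
open CfsgLib.ClassicalLinear (upS upS_coe upS_add)

theorem exists_ne_values {F : Type*} [Field F] [Fintype F] [DecidableEq F] (h4 : 4 ≤ Fintype.card F) (s : Finset F)
    (hs : s.card ≤ 1 ∨ s = {2, -2}) : ∃ c₁ c₂ : F, c₁ ∉ s ∧ c₂ ∉ s ∧ c₁ ^ 2 ≠ c₂ ^ 2 := by
  obtain ⟨c₁, -, h1⟩ := Finset.exists_mem_notMem_of_card_lt_card (s := s) (t := Finset.univ)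
    (lt_of_le_of_lt (show s.card ≤ 2 by
        rcases hs with h | rfl
        · omega
        · exact Finset.card_le_two)
      (by rw [Finset.card_univ]; omega))
  have hcard : (s ∪ {c₁, -c₁}).card < Fintype.card F := by
    refine lt_of_le_of_lt (Finset.card_union_le _ _) ?_
    by_cases h2 : (2 : F) = 0
    · have hn : ∀ x : F, -x = x := fun x => by linear_combination -x * h2
      have h1' : s.card ≤ 1 := by
        rcases hs with h | rfl
        · exact h
        · simp [hn]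
      have : ({c₁, -c₁} : Finset F).card = 1 := by simp [hn]
      omega
    · have hne : Fintype.card F ≠ 4 := by
        intro h
        apply h2
        have h0 : ((4 : ℕ) : F) = 0 := by rw [← h]; exact Nat.cast_card_eq_zero F
        exact mul_self_eq_zero.1 (by push_cast at h0; linear_combination h0)
      have h3 : ({c₁, -c₁} : Finset F).card ≤ 2 := Finset.card_le_two
      rcases hs with h | rfl
      · omega
      · have h5 : ({2, -2} : Finset F).card ≤ 2 := Finset.card_le_two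
        omega
  obtain ⟨c₂, -, h2⟩ := Finset.exists_mem_notMem_of_card_lt_card (s := s ∪ {c₁, -c₁}) (t := (Finset.univ : Finset F))
    (by rwa [Finset.card_univ])
  simp only [Finset.mem_union, Finset.mem_insert, Finset.mem_singleton, not_or] at h2
  refine ⟨c₁, c₂, h1, h2.1, fun h => ?_⟩
  rcases sq_eq_sq_iff_eq_or_eq_neg.1 h with e | e
  · exact h2.2.1 e.symm
  · exact h2.2.2 (by rw [e, neg_neg])

theorem unip_rep {F : Type*} [Field F] [Finite F] {A : SL(2, F)} (hA : proj₂ A ≠ 1) (ht : tr A ^ 2 = 4) :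
    ∃ x : F, x ≠ 0 ∧ IsConj (proj₂ A) (proj₂ (upS x)) := by
  obtain ⟨k, ε, x, hε, hk⟩ := trichotomy ht
  have h1 : proj₂ k * proj₂ A * (proj₂ k)⁻¹ = proj₂ (upS x) := by
    rw [← proj₂_conj_eq, hk, map_mul, (proj₂_eq_one_iff ε).2 ((mem_center_iff ε).1 hε), one_mul]
  refine ⟨x, ?_, isConj_iff.2 ⟨_, h1⟩⟩
  rintro rfl
  rw [upS_zero, map_one, mul_inv_eq_one, mul_eq_left] at h1
  exact hA h1

/-- Two products with different squared traces. -/
theorem exists_two {F : Type*} [Field F] [Fintype F] (h4 : 4 ≤ Fintype.card F) (A B : SL(2, F))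
    (hA : proj₂ A ≠ 1) (hB : proj₂ B ≠ 1) (hor : tr A ^ 2 = 4 → tr B ^ 2 = 4) :
    ∃ P Q : SL(2, F), tr P ^ 2 ≠ tr Q ^ 2 ∧
      (∃ u v, proj₂ P = (u * proj₂ A * u⁻¹) * (v * proj₂ B * v⁻¹)) ∧
      (∃ u v, proj₂ Q = (u * proj₂ A * u⁻¹) * (v * proj₂ B * v⁻¹)) := by
  classical
  by_cases hb : tr B ^ 2 = 4
  swap
  · have ha : tr A ^ 2 ≠ 4 := fun h => hb (hor h)
    obtain ⟨c₁, c₂, h1, h2, hne⟩ := exists_ne_values h4 {2, -2} (Or.inr rfl)
    have key : ∀ c : F, c ∉ ({2, -2} : Finset F) →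
        ∃ u v, proj₂ (companion c) = (u * proj₂ A * u⁻¹) * (v * proj₂ B * v⁻¹) := by
      intro c hc
      have hc4 : tr (companion c) ^ 2 ≠ 4 := by
        rw [tr_companion]
        intro h
        have : (c - 2) * (c + 2) = 0 := by linear_combination h
        rcases mul_eq_zero.1 this with e | e
        · exact hc (by simp [sub_eq_zero.1 e])
        · exact hc (by simp [eq_neg_of_add_eq_zero_left e])
      obtain ⟨X, hX, hY⟩ := exists_trace_solution (notMem_center_of_tr hc4) (tr A) (tr B) (Or.inl hc4)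
      obtain ⟨u, hu⟩ := isConj_iff.1 (isConj_proj₂ ha hX)
      obtain ⟨v, hv⟩ := isConj_iff.1 (isConj_proj₂ hb hY)
      exact ⟨u, v, by rw [hu, hv, ← map_mul, mul_inv_cancel_left]⟩
    exact ⟨_, _, by simpa using hne, key c₁ h1, key c₂ h2⟩
  obtain ⟨x, hx, hBx⟩ := unip_rep hB hb
  obtain ⟨v, hv⟩ := isConj_iff.1 hBx
  by_cases ha : tr A ^ 2 = 4
  · obtain ⟨z, hz, hAz⟩ := unip_rep hA ha
    obtain ⟨u, hu⟩ := isConj_iff.1 hAz
    obtain ⟨a, -, hbad⟩ := Finset.exists_mem_notMem_of_card_lt_card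
      (s := insert 0 (Finset.univ.filter fun a : F => a * a * z * x = 4)) (t := Finset.univ) (by
        refine lt_of_le_of_lt (Finset.card_insert_le _ _) ?_
        rw [Finset.card_univ]
        have : (Finset.univ.filter fun a : F => a * a * z * x = 4).card ≤ 2 := by
          by_cases he : ∃ a : F, a * a * z * x = 4
          · obtain ⟨a₀, ha₀⟩ := he
            refine (Finset.card_le_card (t := {a₀, -a₀}) fun b hb => ?_).trans Finset.card_le_two
            have hb' : b * b = a₀ * a₀ := by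
              apply mul_right_cancel₀ (mul_ne_zero hz hx)
              linear_combination (Finset.mem_filter.1 hb).2 - ha₀
            rcases mul_self_eq_mul_self_iff.1 hb' with e | e <;> simp [e]
          · rw [Finset.filter_eq_empty_iff.2 fun a _ h => he ⟨a, h⟩]
            simp
        omega)
    simp only [Finset.mem_insert, Finset.mem_filter, Finset.mem_univ, true_and, not_or] at hbad
    let k : SL(2, F) := ⟨!![0, -a⁻¹; a, 0], by simp [det_fin_two_of, hbad.1]⟩
    refine ⟨upS z * upS x, k * upS z * k⁻¹ * upS x, ?_, ⟨u, v, by rw [hu, hv, map_mul]⟩,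
      ⟨proj₂ k * u, v, by rw [hv, map_mul, proj₂_conj_eq, ← hu]; group⟩⟩
    rw [← upS_add, tr_upS, mul_upS_tr, tr_conj, tr_upS]
    have hent : ((k * upS z * k⁻¹ : SL(2, F)) : Matrix (Fin 2) (Fin 2) F) 1 0 = -(a * a * z) := by
      rw [Matrix.SpecialLinearGroup.coe_mul, Matrix.SpecialLinearGroup.coe_mul, coe_inv_eq]
      simp [k, tr, Matrix.mul_apply, upS_coe]
      ring
    rw [hent]
    intro h
    have : a * a * z * x * (a * a * z * x - 4) = 0 := by linear_combination -h
    rcases mul_eq_zero.1 this with e | e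
    · simp [hbad.1, hz, hx] at e
    · exact hbad.2 (sub_eq_zero.1 e)
  · obtain ⟨c₁, c₂, h1, h2, hne⟩ := exists_ne_values h4 {tr A} (Or.inl (Finset.card_singleton _).le)
    have key : ∀ c : F, c ∉ ({tr A} : Finset F) →
        ∃ P, tr P = c ∧ ∃ u v, proj₂ P = (u * proj₂ A * u⁻¹) * (v * proj₂ B * v⁻¹) := by
      intro c hc
      rw [Finset.mem_singleton] at hc
      obtain ⟨A', hA', hy⟩ := exists_conj_entry ha (div_ne_zero (sub_ne_zero.2 hc) hx)
      obtain ⟨u, hu⟩ := isConj_iff.1 (proj₂.map_isConj hA')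
      obtain ⟨w, hw⟩ := isConj_iff.1 hA'
      refine ⟨A' * upS x, ?_, u, v, by rw [hu, hv, map_mul]⟩
      rw [mul_upS_tr, hy, ← hw, tr_conj]
      field_simp
      ring
    obtain ⟨P, rfl, hP⟩ := key c₁ h1
    obtain ⟨Q, rfl, hQ⟩ := key c₂ h2
    exact ⟨P, Q, hne, hP, hQ⟩

/-- The Arad–Herzog conjecture for PSL(2,q): let F be a finite field with q ≥ 4 elements. For any two non-identity elements a, b of PSL(2,F), the set of products of a conjugate of a with a conjugate of b is not a single conjugacy class. -/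
theorem result {F : Type*} [Field F] [Fintype F] (h4 : 4 ≤ Fintype.card F)
    (a b : Matrix.ProjectiveSpecialLinearGroup (Fin 2) F) (ha : a ≠ 1) (hb : b ≠ 1) (c : Matrix.ProjectiveSpecialLinearGroup (Fin 2) F) :
    {g : Matrix.ProjectiveSpecialLinearGroup (Fin 2) F | ∃ u v : Matrix.ProjectiveSpecialLinearGroup (Fin 2) F, g = (u * a * u⁻¹) * (v * b * v⁻¹)} ≠ {g | IsConj c g} := by
  intro heq
  obtain ⟨A, rfl⟩ := QuotientGroup.mk'_surjective _ a
  obtain ⟨B, rfl⟩ := QuotientGroup.mk'_surjective _ b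
  obtain ⟨C, rfl⟩ := QuotientGroup.mk'_surjective _ c
  have main : ∀ P : SL(2, F), (∃ u v, proj₂ P = (u * proj₂ A * u⁻¹) * (v * proj₂ B * v⁻¹)) →
      tr P ^ 2 = tr C ^ 2 := by
    intro P hP
    have : proj₂ P ∈ {g | IsConj (proj₂ C) g} := by rw [← heq]; exact hP
    exact (tr_sq_of_isConj this).symm
  by_cases hor : tr A ^ 2 = 4 → tr B ^ 2 = 4
  · obtain ⟨P, Q, hne, hP, hQ⟩ := exists_two h4 A B ha hb hor
    exact hne ((main P hP).trans (main Q hQ).symm)
  · push Not at hor
    obtain ⟨P, Q, hne, ⟨u, v, hP⟩, ⟨u', v', hQ⟩⟩ := exists_two h4 B A hb ha (fun _ => hor.1)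
    refine hne ((main P ⟨(u * proj₂ B * u⁻¹) * v, u, ?_⟩).trans (main Q ⟨(u' * proj₂ B * u'⁻¹) * v', u', ?_⟩).symm)
    · rw [hP]; group
    · rw [hQ]; group

end Cfsg.Agent.S2450
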