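import Cfsg.Statements.S2455
import Cfsg.Agent.Lib.CharDegrees.PSLTwoClasses

set_option autoImplicit false
open Cfsg Matrix
open scoped MatrixGroups

namespace Cfsg.Agent.S2455

open CfsgLib.SL2 CfsgLib.CharDegrees

/-- A strong covering result in the direction of Thompson's conjecture (non-identity elements) for PSL(2,q), q odd: let F be a finite field of odd characteristic p with at least 5 elements and let x ∈ PSL(2,F) have order greater than 2 and not divisible by p (so x is not unipotent). Then every non-identity element of PSL(2,F) is a product of two conjugates of x. -/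
theorem result {F : Type*} [Field F] [Fintype F] (p : ℕ) [Fact p.Prime] [CharP F p] (hp : p ≠ 2) (h5 : 5 ≤ Fintype.card F)
    (x : Matrix.ProjectiveSpecialLinearGroup (Fin 2) F) (hx2 : 2 < orderOf x) (hxp : ¬ p ∣ orderOf x) : ∀ g : Matrix.ProjectiveSpecialLinearGroup (Fin 2) F, g ≠ 1 → ∃ u v : Matrix.ProjectiveSpecialLinearGroup (Fin 2) F, g = (u * x * u⁻¹) * (v * x * v⁻¹) := by
  intro g hg
  have h2 : (2 : F) ≠ 0 := Ring.two_ne_zero (by rwa [ringChar.eq F p])
  obtain ⟨A, rfl⟩ := QuotientGroup.mk'_surjective _ x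
  obtain ⟨C₀, rfl⟩ := QuotientGroup.mk'_surjective _ g
  have ht : tr A ^ 2 ≠ 4 := by
    intro h
    obtain ⟨k, ε, z, hε, hk⟩ := trichotomy h
    have h1 : orderOf (proj₂ A) ∣ p := by
      rw [← orderOf_injective (MulAut.conj (proj₂ k)).toMonoidHom (MulAut.conj (proj₂ k)).injective (proj₂ A)]
      show orderOf (proj₂ k * proj₂ A * (proj₂ k)⁻¹) ∣ p
      rw [← map_inv, ← map_mul, ← map_mul, hk, map_mul,
        (proj₂_eq_one_iff ε).2 ((mem_center_iff ε).1 hε), one_mul]
      refine (orderOf_map_dvd _ _).trans ?_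
      rw [orderOf_dvd_iff_pow_eq_one]
      have hx : ∀ j : ℕ, CfsgLib.ClassicalLinear.upS z ^ j = CfsgLib.ClassicalLinear.upS ((j : F) * z) := by
        intro j
        induction j with
        | zero => simp [upS_zero]
        | succ j ih => rw [pow_succ, ih, ← CfsgLib.ClassicalLinear.upS_add, Nat.cast_succ, add_mul, one_mul]
      rw [hx, CharP.cast_eq_zero, zero_mul, upS_zero]
    rcases (Nat.dvd_prime Fact.out).1 h1 with h' | h'
    · exact absurd (h' ▸ hx2) (by norm_num)
    · exact hxp h'.symm.dvd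
  have ht0 : tr A ≠ 0 := by
    intro h0
    have : A * A = -1 := Subtype.ext (by simp [mul_self_eq, h0])
    have h' : orderOf (proj₂ A) ∣ 2 := by
      rw [orderOf_dvd_iff_pow_eq_one, ← map_pow, sq, this, proj₂_eq_one_iff]
      exact Or.inr rfl
    exact absurd (Nat.le_of_dvd two_pos h') (not_le.2 hx2)
  obtain ⟨C, hC, hCg, hCt⟩ : ∃ C : SL(2, F), C ∉ Subgroup.center (SL(2, F)) ∧ proj₂ C = proj₂ C₀ ∧ tr C ≠ 2 := by
    have hnc : ∀ C : SL(2, F), proj₂ C = proj₂ C₀ → C ∉ Subgroup.center (SL(2, F)) := fun C hC h => by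
      apply hg
      show proj₂ C₀ = 1
      rw [← hC, proj₂_eq_one_iff]
      exact (mem_center_iff C).1 h
    by_cases h : tr C₀ = 2
    · refine ⟨-C₀, hnc _ (proj₂_neg C₀), proj₂_neg C₀, ?_⟩
      rw [tr_neg, h]
      intro h'
      exact mul_self_ne_zero.2 h2 (by linear_combination -h')
    · exact ⟨C₀, hnc _ rfl, rfl, h⟩
  obtain ⟨X, hX, hY⟩ := exists_trace_solution hC (tr A) (tr A) (by
    by_cases hc : tr C ^ 2 = 4
    · refine Or.inr ⟨-1, ?_, by ring, Or.inl ?_⟩
      · have : (tr C - 2) * (tr C + 2) = 0 := by linear_combination hc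
        linear_combination (mul_eq_zero.1 this).resolve_left (sub_ne_zero.2 hCt)
      · intro h
        exact mul_ne_zero h2 ht0 (by linear_combination -h)
    · exact Or.inl hc)
  obtain ⟨u, hu⟩ := isConj_iff.1 (isConj_proj₂ ht hX)
  obtain ⟨v, hv⟩ := isConj_iff.1 (isConj_proj₂ ht hY)
  refine ⟨u, v, ?_⟩
  show proj₂ C₀ = (u * proj₂ A * u⁻¹) * (v * proj₂ A * v⁻¹)
  rw [hu, hv, ← map_mul, mul_inv_cancel_left, hCg]

end Cfsg.Agent.S2455
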