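import Cfsg.Statements.S2456
import Cfsg.Agent.Lib.CharDegrees.PSLTwoClasses

set_option autoImplicit false
open Cfsg Matrix
open scoped MatrixGroups

namespace Cfsg.Agent.S2456

open CfsgLib.SL2 CfsgLib.CharDegrees

/-- A strong covering result in the direction of Thompson's conjecture (non-identity elements) for PSL(2,q), q even: let F be a finite field of characteristic 2 with q ≥ 4 elements and let x ∈ PSL(2,F) have order greater than 2 and not dividing q + 1. Then every non-identity element of PSL(2,F) is a product of two conjugates of x. -/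
theorem result {F : Type*} [Field F] [Fintype F] [CharP F 2] (h4 : 4 ≤ Fintype.card F)
    (x : Matrix.ProjectiveSpecialLinearGroup (Fin 2) F) (hx2 : 2 < orderOf x) (hxq : ¬ orderOf x ∣ Fintype.card F + 1) : ∀ g : Matrix.ProjectiveSpecialLinearGroup (Fin 2) F, g ≠ 1 → ∃ u v : Matrix.ProjectiveSpecialLinearGroup (Fin 2) F, g = (u * x * u⁻¹) * (v * x * v⁻¹) := by
  intro g hg
  haveI : Fact (Nat.Prime 2) := ⟨Nat.prime_two⟩
  have h20 : (2 : F) = 0 := CharTwo.two_eq_zero
  obtain ⟨A, rfl⟩ := QuotientGroup.mk'_surjective _ x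
  obtain ⟨C, rfl⟩ := QuotientGroup.mk'_surjective _ g
  have ht : tr A ^ 2 ≠ 4 := by
    intro h
    have h' : orderOf (proj₂ A) ∣ 2 := by
      rw [orderOf_dvd_iff_pow_eq_one, ← map_pow, sq, proj₂_eq_one_iff]
      refine Or.inl (Subtype.ext ?_)
      have h0 : tr A = 0 := by
        rw [show (4 : F) = 2 * 2 by norm_num, h20, zero_mul] at h
        exact (pow_eq_zero_iff two_ne_zero).1 h
      simp [mul_self_eq, h0, CharTwo.neg_eq]
    exact absurd (Nat.le_of_dvd two_pos h') (not_le.2 hx2)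
  have hroot : ∃ u : F, u * u = tr A * u - 1 := by
    by_contra h
    apply hxq
    refine (orderOf_map_dvd proj₂ A).trans ?_
    have hA : A ∈ Subgroup.centralizer ({A} : Set (SL(2, F))) :=
      Subgroup.mem_centralizer_singleton_iff.mpr rfl
    have h1 := orderOf_dvd_natCard (⟨A, hA⟩ : Subgroup.centralizer ({A} : Set (SL(2, F))))
    rwa [Subgroup.orderOf_mk, card_centralizer ht, if_neg h, Nat.card_eq_fintype_card] at h1
  have hC : C ∉ Subgroup.center (SL(2, F)) := fun h =>
    hg ((proj₂_eq_one_iff C).2 ((mem_center_iff C).1 h))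
  obtain ⟨X, hX, hY⟩ := exists_trace_solution hC (tr A) (tr A) (by
    by_cases hc : tr C ^ 2 = 4
    · refine Or.inr ⟨1, ?_, mul_one 1, Or.inr hroot⟩
      rw [show (4 : F) = 2 * 2 by norm_num, h20, zero_mul] at hc
      rw [(pow_eq_zero_iff two_ne_zero).1 hc, mul_one, h20]
    · exact Or.inl hc)
  obtain ⟨u, hu⟩ := isConj_iff.1 (isConj_proj₂ ht hX)
  obtain ⟨v, hv⟩ := isConj_iff.1 (isConj_proj₂ ht hY)
  refine ⟨u, v, ?_⟩
  show proj₂ C = (u * proj₂ A * u⁻¹) * (v * proj₂ A * v⁻¹)
  rw [hu, hv, ← map_mul, mul_inv_cancel_left]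

end Cfsg.Agent.S2456
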