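import Cfsg.Statements.S2457
import Cfsg.Agent.Lib.Suzuki.ClassProd
import Cfsg.Agent.Lib.Suzuki.LieBridge

set_option autoImplicit false
open Cfsg

namespace Cfsg.Agent.S2457

/-- A strong covering result in the direction of Thompson's conjecture (non-identity elements) for the Suzuki groups: let q = 2^(2m+1) ≥ 8, F the field with q elements and Sz(q) the Suzuki group over F. For every element x of Sz(q) of order greater than 2, every non-identity element of Sz(q) is a product of two conjugates of x. -/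
theorem result {F : Type*} [Field F] [Fintype F] (m : ℕ) (hm : 1 ≤ m) (hF : Fintype.card F = 2 ^ (2 * m + 1))
    (x : Cfsg.Lie.Sz F (2 ^ (m + 1))) (hx2 : 2 < orderOf x) : ∀ g : Cfsg.Lie.Sz F (2 ^ (m + 1)), g ≠ 1 → ∃ u v : Cfsg.Lie.Sz F (2 ^ (m + 1)), g = (u * x * u⁻¹) * (v * x * v⁻¹) := by
  intro g hg
  have h : CfsgLib.Suzuki.Hyp F m := .of_fintype hm hF
  set ε := h.lieEquiv with hε
  obtain ⟨x, rfl⟩ := ε.surjective x
  obtain ⟨g, rfl⟩ := ε.surjective g
  rw [MulEquiv.orderOf_eq] at hx2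
  obtain ⟨a, b, ha, hb, rfl⟩ := h.isProd_all (g := g) hx2 (fun e => hg (by rw [e, map_one]))
  obtain ⟨u, rfl⟩ := isConj_iff.1 ha
  obtain ⟨v, rfl⟩ := isConj_iff.1 hb
  exact ⟨ε u, ε v, by simp [map_mul, map_inv]⟩

end Cfsg.Agent.S2457
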