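import Cfsg.Statements.S2466
import Cfsg.Agent.Lib.Spectrum.AltSpectrum

set_option autoImplicit false
open Cfsg

namespace Cfsg.Agent.S2466

/-- Adjacency of odd primes in the prime graph of the alternating groups: let r ≠ s be odd primes at most n. The alternating group of degree n has an element of order r·s if and only if r + s ≤ n. -/
theorem result (n r s : ℕ) (hr : r.Prime) (hs : s.Prime) (hr2 : r ≠ 2) (hs2 : s ≠ 2) (hrs : r ≠ s) (hrn : r ≤ n) (hsn : s ≤ n) :
    (r * s ∈ Set.range (orderOf : alternatingGroup (Fin n) → ℕ)) ↔ r + s ≤ n := by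
  constructor
  · rintro ⟨g, hg⟩
    by_contra hlt
    exact CfsgLib.Spectrum.orderOf_perm_ne hr hs hrs (by omega) (g : Equiv.Perm (Fin n))
      (by rw [Subgroup.orderOf_coe]; exact hg)
  · intro h
    have h2r := hr.two_le
    have h2s := hs.two_le
    obtain ⟨σ, hσ⟩ := (Equiv.Perm.exists_with_cycleType_iff (α := Fin n) (m := {r, s})).mpr
      ⟨by simpa using h, by simp [h2r, h2s]⟩
    obtain ⟨a, ha⟩ := hr.odd_of_ne_two hr2
    obtain ⟨b, hb⟩ := hs.odd_of_ne_two hs2
    have heven : Even (r + (s + 0) + (1 + 1)) := ⟨a + b + 2, by omega⟩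
    have hmem : σ ∈ alternatingGroup (Fin n) := by
      rw [Equiv.Perm.mem_alternatingGroup, Equiv.Perm.sign_of_cycleType, hσ]
      simpa using heven.neg_one_pow
    refine ⟨⟨σ, hmem⟩, ?_⟩
    rw [Subgroup.orderOf_mk, ← Equiv.Perm.lcm_cycleType, hσ]
    simp only [Multiset.insert_eq_cons, Multiset.lcm_cons, Multiset.lcm_singleton, normalize_eq]
    exact ((Nat.coprime_primes hr hs).mpr hrs).lcm_eq_mul

end Cfsg.Agent.S2466
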