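import Cfsg.Statements.S2467
import Mathlib

set_option autoImplicit false
open Cfsg

namespace Cfsg.Agent.S2467

/-- Adjacency of 2 and an odd prime in the prime graph of the alternating groups: let r be an odd prime at most n, with n ≥ 4. The alternating group of degree n has an element of order 2r if and only if r + 4 ≤ n. -/
theorem result (n r : ℕ) (hn : 4 ≤ n) (hr : r.Prime) (hr2 : r ≠ 2) (hrn : r ≤ n) :
    (2 * r ∈ Set.range (orderOf : alternatingGroup (Fin n) → ℕ)) ↔ r + 4 ≤ n := by
  have h2r := hr.two_le
  obtain ⟨k, hk⟩ := hr.odd_of_ne_two hr2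
  constructor
  · rintro ⟨⟨σ, hσ⟩, hord⟩
    rw [Subgroup.orderOf_mk, ← Equiv.Perm.lcm_cycleType] at hord
    rw [Equiv.Perm.mem_alternatingGroup, Equiv.Perm.sign_of_cycleType] at hσ
    have hev : Even (σ.cycleType.sum + Multiset.card σ.cycleType) := by
      rcases Nat.even_or_odd (σ.cycleType.sum + Multiset.card σ.cycleType) with h | h
      · exact h
      · rw [h.neg_one_pow] at hσ; exact absurd hσ (by decide)
    have hle : σ.cycleType.sum ≤ n := σ.sum_cycleType_le.trans (le_of_eq (Fintype.card_fin n))
    have hmem : ∀ m ∈ σ.cycleType, m = 2 ∨ m = r ∨ m = 2 * r := by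
      intro m hm
      have h1 : m ∣ 2 * r := hord ▸ Multiset.dvd_lcm hm
      have h2 := Equiv.Perm.two_le_of_mem_cycleType hm
      obtain ⟨a, b, ha, hb, rfl⟩ := Nat.dvd_mul.mp h1
      rcases (Nat.dvd_prime Nat.prime_two).mp ha with rfl | rfl <;>
        rcases (Nat.dvd_prime hr).mp hb with rfl | rfl <;> omega
    obtain ⟨m, hm, hm'⟩ : ∃ m ∈ σ.cycleType, r ∣ m := by
      by_contra hc
      push Not at hc
      have h1 : σ.cycleType.lcm ∣ 2 := Multiset.lcm_dvd.mpr fun m hm => by
        rcases hmem m hm with rfl | rfl | rfl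
        · exact dvd_rfl
        · exact absurd dvd_rfl (hc _ hm)
        · exact absurd (dvd_mul_left r 2) (hc _ hm)
      rw [hord] at h1
      have := Nat.le_of_dvd (by norm_num) h1
      omega
    obtain ⟨t, ht⟩ := Multiset.exists_cons_of_mem hm
    rw [ht, Multiset.sum_cons] at hle
    rw [ht, Multiset.sum_cons, Multiset.card_cons, Nat.even_iff] at hev
    rcases hmem m hm with rfl | rfl | rfl
    · have := Nat.le_of_dvd (by norm_num) hm'
      omega
    · obtain ⟨a, hat, ha⟩ : ∃ a ∈ t, 2 ∣ a := by
        by_contra hc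
        push Not at hc
        have h1 : σ.cycleType.lcm ∣ m := Multiset.lcm_dvd.mpr fun a ha => by
          rcases hmem a ha with rfl | rfl | rfl
          · rw [ht, Multiset.mem_cons] at ha
            rcases ha with h | h
            · omega
            · exact absurd dvd_rfl (hc _ h)
          · exact dvd_rfl
          · rw [ht, Multiset.mem_cons] at ha
            rcases ha with h | h
            · omega
            · exact absurd (dvd_mul_right 2 m) (hc _ h)
        rw [hord] at h1
        have := Nat.le_of_dvd (by omega) h1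
        omega
      obtain ⟨t', rfl⟩ := Multiset.exists_cons_of_mem hat
      rw [Multiset.sum_cons] at hle hev
      rw [Multiset.card_cons] at hev
      rcases Multiset.empty_or_exists_mem t' with rfl | ⟨b, hb⟩
      · simp only [Multiset.sum_zero, Multiset.card_zero] at hev
        omega
      · have h1 := Multiset.single_le_sum (fun x _ => Nat.zero_le x) b hb
        have h2 := Equiv.Perm.two_le_of_mem_cycleType (σ := σ) (n := b) (by rw [ht]; simp [hb])
        have h3 := Equiv.Perm.two_le_of_mem_cycleType (σ := σ) (n := a) (by rw [ht]; simp)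
        omega
    · rcases Multiset.empty_or_exists_mem t with rfl | ⟨b, hb⟩
      · simp only [Multiset.sum_zero, Multiset.card_zero] at hev
        omega
      · have h1 := Multiset.single_le_sum (fun x _ => Nat.zero_le x) b hb
        have h2 := Equiv.Perm.two_le_of_mem_cycleType (σ := σ) (n := b) (by rw [ht]; simp [hb])
        omega
  · intro h
    obtain ⟨σ, hσ⟩ := (Equiv.Perm.exists_with_cycleType_iff (α := Fin n) (m := {r, 2, 2})).mpr
      ⟨by simpa using h, by simp [h2r]⟩
    have heven : Even (r + (2 + (2 + 0)) + (1 + 1 + 1)) := ⟨k + 4, by omega⟩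
    have hmem : σ ∈ alternatingGroup (Fin n) := by
      rw [Equiv.Perm.mem_alternatingGroup, Equiv.Perm.sign_of_cycleType, hσ]
      simpa using heven.neg_one_pow
    refine ⟨⟨σ, hmem⟩, ?_⟩
    rw [Subgroup.orderOf_mk, ← Equiv.Perm.lcm_cycleType, hσ]
    simp only [Multiset.insert_eq_cons, Multiset.lcm_cons, Multiset.lcm_singleton, normalize_eq]
    rw [show GCDMonoid.lcm 2 (2 : ℕ) = 2 from Nat.lcm_self 2]
    show Nat.lcm r 2 = _
    rw [((Nat.coprime_primes hr Nat.prime_two).mpr hr2).lcm_eq_mul, mul_comm]

end Cfsg.Agent.S2467
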