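import Cfsg.Statements.S2471
import Cfsg.Agent.Lib.SL2.Unipotent

set_option autoImplicit false
open Cfsg Matrix
open scoped MatrixGroups

namespace Cfsg.Agent.S2471

open CfsgLib.SL2
open CfsgLib.ClassicalLinear (upS upS_coe upS_add)

/-- In PSL(2,q) with q odd, the characteristic p is isolated from 2 in the prime graph: for F a finite field of odd characteristic p with at least 5 elements, PSL(2,F) has no element of order 2p. -/
theorem result {F : Type*} [Field F] [Fintype F] (p : ℕ) [Fact p.Prime] [CharP F p] (hp : p ≠ 2) (h5 : 5 ≤ Fintype.card F) (g : Matrix.ProjectiveSpecialLinearGroup (Fin 2) F) :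
    orderOf g ≠ 2 * p := by
  intro hg
  have hpp : p.Prime := Fact.out
  obtain ⟨A, rfl⟩ := QuotientGroup.mk'_surjective _ g
  set π := QuotientGroup.mk' (Subgroup.center (SL(2, F))) with hπ
  have hker : ∀ B, B ∈ Subgroup.center (SL(2, F)) → π B = 1 := fun B hB => by
    rw [← MonoidHom.mem_ker, hπ, QuotientGroup.ker_mk']; exact hB
  by_cases ht : tr A ^ 2 = 4
  · obtain ⟨k, ε, x, hε, hk⟩ := trichotomy ht
    have h1 : orderOf (π A) ∣ p := by
      rw [← orderOf_injective (MulAut.conj (π k)).toMonoidHom (MulAut.conj (π k)).injective (π A)]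
      show orderOf (π k * π A * (π k)⁻¹) ∣ p
      rw [← map_inv, ← map_mul, ← map_mul, hk, map_mul, hker ε hε, one_mul,
        orderOf_dvd_iff_pow_eq_one, ← map_pow]
      have hx : ∀ j : ℕ, upS x ^ j = upS ((j : F) * x) := by
        intro j
        induction j with
        | zero => simp [upS_zero]
        | succ j ih => rw [pow_succ, ih, ← upS_add, Nat.cast_succ, add_mul, one_mul]
      rw [hx, CharP.cast_eq_zero, zero_mul, upS_zero, map_one]
    rw [hg] at h1
    have h2 := Nat.le_of_dvd hpp.pos h1
    have := hpp.pos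
    omega
  · have h1 : orderOf A ∣ Nat.card (Subgroup.centralizer ({A} : Set (SL(2, F)))) := by
      have hA : A ∈ Subgroup.centralizer ({A} : Set (SL(2, F))) :=
        Subgroup.mem_centralizer_singleton_iff.mpr rfl
      rw [← Subgroup.orderOf_mk A hA]
      exact orderOf_dvd_natCard _
    have h2 : p ∣ Nat.card (Subgroup.centralizer ({A} : Set (SL(2, F)))) :=
      (dvd_mul_left p 2).trans ((hg ▸ orderOf_map_dvd π A).trans h1)
    obtain ⟨e, -, he⟩ := FiniteField.card F p
    have h3 : p ∣ Nat.card F := by rw [Nat.card_eq_fintype_card, he]; exact dvd_pow_self p e.pos.ne'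
    have h4 : p ∣ 1 := by
      have hq : 1 ≤ Nat.card F := Nat.card_pos
      rcases card_centralizer_or ht with h | h <;> rw [h] at h2
      · have := Nat.dvd_sub h3 h2
        rwa [Nat.sub_sub_self hq] at this
      · have := Nat.dvd_sub h2 h3
        rwa [Nat.add_sub_cancel_left] at this
    exact hpp.not_dvd_one h4

end Cfsg.Agent.S2471
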