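import Cfsg.Statements.S2479
import Cfsg.Agent.Lib.CharDegrees.ClassCount.Bounds

set_option autoImplicit false
open Cfsg

namespace Cfsg.Agent.S2479

open CfsgLib.CharDegrees.ClassCount

/-- The number of conjugacy classes of SL(n,q): for F a finite field with q elements, the number k of conjugacy classes of SL(n,F) satisfies q^(n−1) < k and k ≤ (5/2)·q^(n−1) for n ≥ 2, and k ≤ q^(n−1) + 3q^(n−2) for n ≥ 3. -/
theorem result {F : Type*} [Field F] [Fintype F] (n : ℕ) (hn : 2 ≤ n) :
    Fintype.card F ^ (n - 1) < Nat.card (ConjClasses (Matrix.SpecialLinearGroup (Fin n) F)) ∧ 2 * Nat.card (ConjClasses (Matrix.SpecialLinearGroup (Fin n) F)) ≤ 5 * Fintype.card F ^ (n - 1) ∧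
      (3 ≤ n → Nat.card (ConjClasses (Matrix.SpecialLinearGroup (Fin n) F)) ≤ Fintype.card F ^ (n - 1) + 3 * Fintype.card F ^ (n - 2)) := by
  classical
  have hq : 2 ≤ Fintype.card F := Fintype.one_lt_card
  have h : Nat.card (ConjClasses (Matrix.SpecialLinearGroup (Fin n) F)) ≤ slSum (Fintype.card F) n :=
    card_classes_SL_le (by omega)
  refine ⟨pow_lt_card_classes_SL hn, ?_, fun h3 => h.trans (slSum_le hq h3)⟩
  rcases (show n = 2 ∨ 3 ≤ n by omega) with rfl | h3
  · have := two_mul_slSum_two hq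
    simpa using (Nat.mul_le_mul_left 2 h).trans this
  · obtain ⟨m, rfl⟩ : ∃ m, n = m + 2 := ⟨n - 2, by omega⟩
    have h1 := h.trans (slSum_le hq h3)
    rw [show m + 2 - 1 = m + 1 from rfl] at h1 ⊢
    rw [Nat.add_sub_cancel, pow_succ'] at h1
    rw [pow_succ']
    have h2 := Nat.mul_le_mul_right (Fintype.card F ^ m) hq
    omega

end Cfsg.Agent.S2479
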