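import Cfsg.Statements.S2480
import Cfsg.Agent.Lib.CharDegrees.ClassCount.Bounds

set_option autoImplicit false
open Cfsg

namespace Cfsg.Agent.S2480

open CfsgLib.CharDegrees.ClassCount

/-- The number of conjugacy classes of PSL(n,q): for F a finite field with q elements, n ≥ 2 and d = gcd(n, q − 1), the number k of conjugacy classes of PSL(n,F) satisfies q^(n−1) ≤ d·k ≤ q^(n−1) + 5q^(n−2). -/
theorem result {F : Type*} [Field F] [Fintype F] (n : ℕ) (hn : 2 ≤ n) :
    Fintype.card F ^ (n - 1) ≤ Nat.gcd n (Fintype.card F - 1) * Nat.card (ConjClasses (Matrix.ProjectiveSpecialLinearGroup (Fin n) F)) ∧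
      Nat.gcd n (Fintype.card F - 1) * Nat.card (ConjClasses (Matrix.ProjectiveSpecialLinearGroup (Fin n) F)) ≤ Fintype.card F ^ (n - 1) + 5 * Fintype.card F ^ (n - 2) := by
  classical
  refine ⟨?_, card_classes_PSL_le hn⟩
  haveI : Nonempty (Fin n) := ⟨⟨0, by omega⟩⟩
  have h := card_classes_le_center_mul (QuotientGroup.mk' (Subgroup.center (Matrix.SpecialLinearGroup (Fin n) F)))
    (QuotientGroup.mk'_surjective _) (by rw [QuotientGroup.ker_mk'])
  rw [CfsgLib.ClassicalLinear.card_center_SL, Fintype.card_fin] at h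
  exact (pow_lt_card_classes_SL hn).le.trans h

end Cfsg.Agent.S2480
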