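import Cfsg.Statements.S2485
import Cfsg.Agent.Lib.ClassicalLinear.Card

set_option autoImplicit false
set_option linter.style.haveILetI false
open Cfsg Matrix
open scoped Pointwise

namespace Cfsg.Agent.S2485

theorem inf_conj_ne_bot {G : Type*} [Group G] [Finite G] {p : ℕ} [Fact p.Prime] (K₀ : Sylow p G)
    (h₀ : ∀ h : G, (K₀ : Subgroup G) ⊓ MulAut.conj h • (K₀ : Subgroup G) ≠ ⊥) (H : Sylow p G) (x : G) :
    (H : Subgroup G) ⊓ MulAut.conj x • (H : Subgroup G) ≠ ⊥ := by
  obtain ⟨g, hg⟩ := MulAction.exists_smul_eq G K₀ H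
  intro hbot
  apply h₀ (g⁻¹ * x * g)
  rw [eq_bot_iff]
  intro y hy
  obtain ⟨hy1, hy2⟩ := hy
  have hH : (H : Subgroup G) = MulAut.conj g • (K₀ : Subgroup G) := by rw [← hg]; rfl
  have h1 : g * y * g⁻¹ ∈ (H : Subgroup G) ⊓ MulAut.conj x • (H : Subgroup G) := by
    refine ⟨?_, ?_⟩
    · rw [SetLike.mem_coe, hH]
      exact ⟨y, hy1, by simp⟩
    · obtain ⟨k, hk, rfl⟩ := hy2
      refine ⟨g * k * g⁻¹, by rw [SetLike.mem_coe, hH]; exact ⟨k, hk, by simp⟩, ?_⟩
      simp [mul_assoc]
  rw [hbot, Subgroup.mem_bot, mul_inv_eq_one] at h1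
  rw [Subgroup.mem_bot]
  exact mul_left_cancel (h1.trans (mul_one g).symm)

/-- Let q = 2^k − 1 ≥ 7 be a prime and let G = PGL(2,q), the general linear group of degree 2 over the field with q elements modulo its centre. Then any two Sylow 2-subgroups of G have a non-trivial intersection: for a Sylow 2-subgroup H and every x ∈ G, H ∩ H^x ≠ 1. -/
theorem result {q k : ℕ} [Fact q.Prime] (hk : q + 1 = 2 ^ k) (hq : 7 ≤ q)
    (H : Sylow 2 (GL (Fin 2) (ZMod q) ⧸ Subgroup.center (GL (Fin 2) (ZMod q))))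
    (x : GL (Fin 2) (ZMod q) ⧸ Subgroup.center (GL (Fin 2) (ZMod q))) :
    (H : Subgroup (GL (Fin 2) (ZMod q) ⧸ Subgroup.center (GL (Fin 2) (ZMod q)))) ⊓ MulAut.conj x • (H : Subgroup _) ≠ ⊥ := by
  classical
  obtain ⟨j, rfl⟩ : ∃ j, k = j + 2 := ⟨k - 2, by
    rcases k with _ | _ | k
    · rw [pow_zero] at hk; omega
    · rw [pow_one] at hk; omega
    · omega⟩
  haveI : Fact (2 < q) := ⟨by omega⟩
  have hj : q + 1 = 4 * 2 ^ j := by rw [hk]; ring
  have hns : ∀ a b : ZMod q, a * a + b * b = 0 → a = 0 ∧ b = 0 := by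
    intro a b h
    rcases eq_or_ne b 0 with rfl | hb
    · exact ⟨mul_self_eq_zero.1 (by simpa using h), rfl⟩
    · have h1 : IsSquare (-1 : ZMod q) := ⟨a / b, by field_simp; linear_combination -h⟩
      have h2 := ZMod.exists_sq_eq_neg_one_iff.mp h1
      omega
  have h2 : (2 : ZMod q) ≠ 0 := by
    intro h
    have h' : ((2 : ℕ) : ZMod q) = 0 := by exact_mod_cast h
    rw [ZMod.natCast_eq_zero_iff] at h'
    have := Nat.le_of_dvd (by norm_num) h'
    omega
  set π := QuotientGroup.mk' (Subgroup.center (GL (Fin 2) (ZMod q))) with hπ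
  let P : Matrix (Fin 2) (Fin 2) (ZMod q) → Prop := fun M =>
    (M 1 1 = M 0 0 ∧ M 1 0 = -M 0 1) ∨ (M 1 1 = -M 0 0 ∧ M 1 0 = M 0 1)
  let J : GL (Fin 2) (ZMod q) := GeneralLinearGroup.mkOfDetNeZero !![0, -1; 1, 0] (by simp [det_fin_two_of])
  set K₀ := Subgroup.centralizer ({π J} : Set (GL (Fin 2) (ZMod q) ⧸ Subgroup.center (GL (Fin 2) (ZMod q))))
  have hscal : ∀ W : GL (Fin 2) (ZMod q), π W = 1 ↔
      ∃ c : ZMod q, (W : Matrix (Fin 2) (Fin 2) (ZMod q)) = c • 1 := by
    intro W
    rw [← MonoidHom.mem_ker, hπ, QuotientGroup.ker_mk', GeneralLinearGroup.center_eq_range_scalar]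
    constructor
    · rintro ⟨u, rfl⟩; exact ⟨u, by simp [Matrix.smul_one_eq_diagonal]⟩
    · rintro ⟨c, hc⟩
      have hc0 : c ≠ 0 := by
        rintro rfl
        have h3 := W.det_ne_zero
        rw [hc] at h3
        simp at h3
      exact ⟨Units.mk0 c hc0, Units.ext (by rw [hc]; simp [Matrix.smul_one_eq_diagonal])⟩
  have hmem : ∀ W : GL (Fin 2) (ZMod q), π W ∈ K₀ ↔ P W := by
    intro W
    set M := (W : Matrix (Fin 2) (Fin 2) (ZMod q)) with hM
    have hJ : (J : Matrix (Fin 2) (Fin 2) (ZMod q)) = !![0, -1; 1, 0] := rfl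
    rw [Subgroup.mem_centralizer_singleton_iff]
    constructor
    · intro hc
      obtain ⟨c, hc⟩ := (hscal ((J * W)⁻¹ * (W * J))).1 (by
        rw [map_mul, map_inv, map_mul, map_mul, hc, inv_mul_cancel])
      have h1 : M * !![0, -1; 1, 0] = c • (!![0, -1; 1, 0] * M) := by
        have := congrArg (fun X => ((J * W : GL (Fin 2) (ZMod q)) : Matrix (Fin 2) (Fin 2) (ZMod q)) * X) hc
        simp only [← Units.val_mul, mul_inv_cancel_left, Matrix.mul_smul, mul_one] at this
        simpa [hJ, hM] using this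
      have hdet := congrArg Matrix.det h1
      rw [det_smul, det_mul, det_mul, Fintype.card_fin] at hdet
      have hne : M.det ≠ 0 := W.det_ne_zero
      have hJd : (!![0, -1; 1, 0] : Matrix (Fin 2) (Fin 2) (ZMod q)).det = 1 := by simp [det_fin_two_of]
      rw [hJd, mul_one, one_mul] at hdet
      have hc2 : c * c = 1 := by
        apply mul_right_cancel₀ hne
        linear_combination -hdet
      have e00 := congrFun (congrFun h1 0) 0
      have e01 := congrFun (congrFun h1 0) 1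
      simp [Matrix.mul_apply, vecMul, dotProduct, Fin.sum_univ_two] at e00 e01
      rcases mul_self_eq_one_iff.1 hc2 with rfl | rfl
      · exact Or.inl ⟨by linear_combination -e01, by linear_combination e00⟩
      · exact Or.inr ⟨by linear_combination e01, by linear_combination -e00⟩
    · intro hP
      obtain ⟨ε, hε, hε'⟩ : ∃ ε : ZMod q, ε ≠ 0 ∧ M * !![0, -1; 1, 0] = ε • (!![0, -1; 1, 0] * M) := by
        rcases hP with ⟨a, b⟩ | ⟨a, b⟩
        · refine ⟨1, one_ne_zero, ?_⟩
          ext i j; fin_cases i <;> fin_cases j <;> simp [Matrix.mul_apply, vecMul, dotProduct, Fin.sum_univ_two, a, b, ← hM]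
        · refine ⟨-1, by simp, ?_⟩
          ext i j; fin_cases i <;> fin_cases j <;> simp [Matrix.mul_apply, vecMul, dotProduct, Fin.sum_univ_two, a, b, ← hM]
      rw [← map_mul, ← map_mul]
      symm
      rw [← inv_mul_eq_one, ← map_inv, ← map_mul, hscal]
      refine ⟨ε, ?_⟩
      have h1 : ((W * J : GL (Fin 2) (ZMod q)) : Matrix (Fin 2) (Fin 2) (ZMod q)) =
          ((J * W : GL (Fin 2) (ZMod q)) : Matrix (Fin 2) (Fin 2) (ZMod q)) * (ε • 1) := by
        rw [Matrix.mul_smul, mul_one, Units.val_mul, Units.val_mul, hJ, ← hM, hε']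
      rw [Units.val_mul, h1, ← mul_assoc, ← Units.val_mul, inv_mul_cancel, Units.val_one, one_mul]
  -- the order of `K₀`
  let E : Bool × {v : ZMod q × ZMod q // v ≠ 0} → K₀.comap π := fun w =>
    ⟨GeneralLinearGroup.mkOfDetNeZero
      (if w.1 then !![w.2.1.1, w.2.1.2; -w.2.1.2, w.2.1.1] else !![w.2.1.1, w.2.1.2; w.2.1.2, -w.2.1.1])
      (by
        obtain ⟨b, ⟨⟨u, v⟩, hne⟩⟩ := w
        intro h0
        refine hne ?_
        have : u * u + v * v = 0 := by
          cases b <;> simp [det_fin_two_of] at h0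
          · linear_combination -h0
          · linear_combination h0
        obtain ⟨rfl, rfl⟩ := hns u v this
        rfl),
      by
        rw [Subgroup.mem_comap, hmem]
        obtain ⟨b, ⟨⟨u, v⟩, hne⟩⟩ := w
        cases b
        · exact Or.inr ⟨rfl, rfl⟩
        · exact Or.inl ⟨rfl, rfl⟩⟩
  have hEb : Function.Bijective E := by
    constructor
    · rintro ⟨b, ⟨⟨u, v⟩, hne⟩⟩ ⟨b', ⟨⟨u', v'⟩, hne'⟩⟩ h
      have h' := congrArg (fun W : K₀.comap π => ((W : GL (Fin 2) (ZMod q)) : Matrix (Fin 2) (Fin 2) (ZMod q))) h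
      have e00 := congrFun (congrFun h' 0) 0
      have e01 := congrFun (congrFun h' 0) 1
      have e10 := congrFun (congrFun h' 1) 0
      have e11 := congrFun (congrFun h' 1) 1
      cases b <;> cases b' <;> simp [E] at e00 e01 e10 e11 <;> subst e00 e01
      · rfl
      · exfalso; apply hne
        have hv : (2 : ZMod q) * v = 0 := by linear_combination e10
        have hu : (2 : ZMod q) * u = 0 := by linear_combination -e11
        simp [(mul_eq_zero.1 hv).resolve_left h2, (mul_eq_zero.1 hu).resolve_left h2]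
      · exfalso; apply hne
        have hv : (2 : ZMod q) * v = 0 := by linear_combination -e10
        have hu : (2 : ZMod q) * u = 0 := by linear_combination e11
        simp [(mul_eq_zero.1 hv).resolve_left h2, (mul_eq_zero.1 hu).resolve_left h2]
      · rfl
    · rintro ⟨W, hW⟩
      set M := (W : Matrix (Fin 2) (Fin 2) (ZMod q)) with hM
      have hne : ((M 0 0, M 0 1) : ZMod q × ZMod q) ≠ 0 := by
        intro h
        rw [Prod.mk_eq_zero] at h
        refine W.det_ne_zero ?_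
        rw [← hM, det_fin_two, h.1, h.2, zero_mul, zero_mul, sub_zero]
      rcases (hmem W).1 hW with h | h
      · refine ⟨(true, ⟨_, hne⟩), Subtype.ext (Units.ext ?_)⟩
        ext i j; fin_cases i <;> fin_cases j <;> simp [E, ← hM, h.1, h.2]
      · refine ⟨(false, ⟨_, hne⟩), Subtype.ext (Units.ext ?_)⟩
        ext i j; fin_cases i <;> fin_cases j <;> simp [E, ← hM, h.1, h.2]
  have hCom : Nat.card (K₀.comap π) = 2 * (q ^ 2 - 1) := by
    rw [← Nat.card_eq_of_bijective E hEb, Nat.card_prod, Nat.card_eq_fintype_card,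
      Nat.card_eq_fintype_card, Fintype.card_bool, Fintype.card_subtype_compl, Fintype.card_prod,
      ZMod.card, Fintype.card_subtype_eq, sq]
  have hZ : Nat.card (Subgroup.center (GL (Fin 2) (ZMod q))) = q - 1 := by
    rw [CfsgLib.ClassicalLinear.card_center_GL, Nat.card_units, Nat.card_zmod]
  have hidx : (K₀.comap π).index = K₀.index := Subgroup.index_comap_of_surjective K₀ (QuotientGroup.mk'_surjective _)
  have hq1 : q ^ 2 - 1 = (q - 1) * (q + 1) := by rw [mul_comm, ← Nat.sq_sub_sq, one_pow]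
  have hGL : Nat.card (GL (Fin 2) (ZMod q)) = (q ^ 2 - 1) * (q ^ 2 - q) := by
    rw [Matrix.card_GL_field]
    simp [Fin.prod_univ_two, ZMod.card]
  obtain ⟨m, hm⟩ : ∃ m, q = 2 * m + 1 := ⟨2 * 2 ^ j - 1, by omega⟩
  have hqq : q ^ 2 - q = 2 * (q * m) := by
    rw [sq, ← Nat.mul_sub_one, hm, Nat.add_sub_cancel]
    ring
  have hindex : K₀.index = q * m := by
    have h := (K₀.comap π).card_mul_index
    rw [hidx, hCom, hGL, hqq] at h
    have h0 : 0 < q ^ 2 - 1 := by rw [hq1]; exact Nat.mul_pos (by omega) (by omega)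
    apply Nat.eq_of_mul_eq_mul_left (show 0 < 2 * (q ^ 2 - 1) by omega)
    rw [h]; ring
  have hK : Nat.card K₀ = 2 ^ (j + 3) := by
    have h := K₀.card_mul_index
    have hG : Nat.card (GL (Fin 2) (ZMod q) ⧸ Subgroup.center (GL (Fin 2) (ZMod q))) * (q - 1) =
        (q ^ 2 - 1) * (q ^ 2 - q) := by
      rw [← hGL, ← hZ, ← Subgroup.card_eq_card_quotient_mul_card_subgroup]
    rw [← h, hindex, hq1, hqq] at hG
    have hpos : 0 < q * m * (q - 1) := Nat.mul_pos (Nat.mul_pos (by omega) (by omega)) (by omega)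
    apply Nat.eq_of_mul_eq_mul_right hpos
    rw [pow_succ, ← hk]
    linarith [hG]
  have hodd : ¬ 2 ∣ K₀.index := by
    rw [hindex]
    intro hd
    rcases Nat.prime_two.dvd_mul.1 hd with h | h <;> omega
  let S : Sylow 2 (GL (Fin 2) (ZMod q) ⧸ Subgroup.center (GL (Fin 2) (ZMod q))) :=
    (IsPGroup.of_card hK).toSylow hodd
  refine inf_conj_ne_bot S (fun h => ?_) H x
  obtain ⟨g, rfl⟩ := QuotientGroup.mk'_surjective _ h
  set Z' : GL (Fin 2) (ZMod q) := g * J * g⁻¹ with hZ'
  have hJ : (J : Matrix (Fin 2) (Fin 2) (ZMod q)) = !![0, -1; 1, 0] := rfl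
  set A := (Z' : Matrix (Fin 2) (Fin 2) (ZMod q)) with hA
  have htr : A 0 0 + A 1 1 = 0 := by
    have : A.trace = (J : Matrix (Fin 2) (Fin 2) (ZMod q)).trace := by
      rw [hA, hZ', Units.val_mul, Units.val_mul, Matrix.trace_units_conj]
    rw [trace_fin_two, trace_fin_two, hJ] at this
    simpa using this
  obtain ⟨W, hW, hW1, hW2⟩ : ∃ W : GL (Fin 2) (ZMod q), π W ≠ 1 ∧ π W ∈ K₀ ∧ Commute (π W) (π Z') := by
    set Y : Matrix (Fin 2) (Fin 2) (ZMod q) :=
      !![-(A 1 0) - A 0 1, A 0 0 - A 1 1; A 0 0 - A 1 1, A 0 1 + A 1 0] with hY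
    by_cases hd : Y.det = 0
    · refine ⟨J, fun h1 => ?_, (hmem J).2 ?_, ?_⟩
      · obtain ⟨c, hc⟩ := (hscal J).1 h1
        have := congrFun (congrFun hc 1) 0
        simp [hJ] at this
      · exact Or.inl ⟨rfl, by rw [hJ]; simp⟩
      · have hP : P A := by
          rw [hY, det_fin_two_of] at hd
          obtain ⟨h1, h2'⟩ := hns (-(A 1 0) - A 0 1) (A 0 0 - A 1 1) (by linear_combination -hd)
          exact Or.inl ⟨by linear_combination -h2', by linear_combination -h1⟩
        exact (Subgroup.mem_centralizer_singleton_iff.1 ((hmem Z').2 hP)).symm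
    · refine ⟨GeneralLinearGroup.mkOfDetNeZero Y hd, fun h1 => ?_, (hmem _).2 ?_, ?_⟩
      · obtain ⟨c, hc⟩ := (hscal _).1 h1
        have e1 := congrFun (congrFun hc 0) 0
        have e2 := congrFun (congrFun hc 1) 1
        have e3 := congrFun (congrFun hc 0) 1
        simp [hY] at e1 e2 e3
        apply hd
        have hc0 : (2 : ZMod q) * c = 0 := by linear_combination -e1 - e2
        rw [(mul_eq_zero.1 hc0).resolve_left h2] at e1 e2
        rw [hY, det_fin_two_of, e1, e3, zero_mul, zero_mul, sub_zero]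
      · exact Or.inr ⟨by simp [hY] <;> ring, by simp [hY]⟩
      · show π _ * π Z' = π Z' * π _
        rw [← map_mul, ← map_mul]
        symm
        rw [← inv_mul_eq_one, ← map_inv, ← map_mul, hscal]
        refine ⟨-1, ?_⟩
        set Yg := GeneralLinearGroup.mkOfDetNeZero Y hd
        have h1 : ((Yg * Z' : GL (Fin 2) (ZMod q)) : Matrix (Fin 2) (Fin 2) (ZMod q)) =
            ((Z' * Yg : GL (Fin 2) (ZMod q)) : Matrix (Fin 2) (Fin 2) (ZMod q)) * ((-1 : ZMod q) • 1) := by
          rw [Matrix.mul_smul, mul_one, Units.val_mul, Units.val_mul]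
          show Y * A = (-1 : ZMod q) • (A * Y)
          have hd' : A 1 1 = -A 0 0 := by linear_combination htr
          ext i l
          fin_cases i <;> fin_cases l <;> simp [hY, Matrix.mul_apply, hd'] <;> ring
        rw [Units.val_mul, h1, ← mul_assoc, ← Units.val_mul, inv_mul_cancel, Units.val_one, one_mul]
  intro hbot
  have hmemW : π W ∈ (S : Subgroup _) ⊓ MulAut.conj (π g) • (S : Subgroup _) := by
    refine ⟨hW1, ?_⟩
    refine ⟨(π g)⁻¹ * π W * π g, ?_, by simp [mul_assoc]⟩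
    show (π g)⁻¹ * π W * π g ∈ K₀
    rw [Subgroup.mem_centralizer_singleton_iff]
    have h1 := hW2.eq
    rw [hZ', map_mul, map_mul, map_inv] at h1
    calc (π g)⁻¹ * π W * π g * π J = (π g)⁻¹ * (π W * (π g * π J * (π g)⁻¹)) * π g := by group
      _ = (π g)⁻¹ * (π g * π J * (π g)⁻¹ * π W) * π g := by rw [h1]
      _ = π J * ((π g)⁻¹ * π W * π g) := by group
  rw [hbot, Subgroup.mem_bot] at hmemW
  exact hW hmemW

end Cfsg.Agent.S2485
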