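import Cfsg.Statements.S2486
import Cfsg.Agent.Lib.CharDegrees.SLTwoSylow

set_option autoImplicit false
open scoped Pointwise
open Cfsg

namespace Cfsg.Agent.S2486

open CfsgLib.CharDegrees.SLTwoSylow

theorem card_inf_normal_sylow {G : Type*} [Group G] [Finite G] {n : ℕ} (N : Subgroup G) [N.Normal]
    (e : N ≃* Matrix.SpecialLinearGroup (Fin n) (ZMod 2)) (hidx : N.index = 2) (S : Sylow 2 G) :
    Nat.card (((S : Subgroup G).subgroupOf N).map e.toMonoidHom) = sylCard n := by
  obtain ⟨P⟩ := (inferInstance : Nonempty (Sylow 2 (Matrix.SpecialLinearGroup (Fin n) (ZMod 2))))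
  rw [Subgroup.card_map_of_injective e.injective]
  have hrel : (N.relIndex (S : Subgroup G)) ∣ 2 := by
    have := Subgroup.relIndex_dvd_index_of_normal N (S : Subgroup G)
    rwa [hidx] at this
  have hmul : Nat.card ((S : Subgroup G).subgroupOf N) * N.relIndex (S : Subgroup G) =
      Nat.card (S : Subgroup G) := by
    have h1 := Subgroup.card_mul_index (N.subgroupOf (S : Subgroup G))
    have h2 : Nat.card (N.subgroupOf (S : Subgroup G)) = Nat.card ((S : Subgroup G).subgroupOf N) := by
      rw [← Subgroup.inf_subgroupOf_right N S, ← Subgroup.inf_subgroupOf_right (S : Subgroup G) N,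
        Nat.card_congr (Subgroup.subgroupOfEquivOfLe (inf_le_right (a := N) (b := (S : Subgroup G)))).toEquiv,
        Nat.card_congr (Subgroup.subgroupOfEquivOfLe (inf_le_right (a := (S : Subgroup G)) (b := N))).toEquiv,
        inf_comm]
    rw [← h2]; exact h1
  have hS : Nat.card (S : Subgroup G) = 2 * sylCard n := by
    rw [S.card_eq_multiplicity, ← N.card_mul_index, hidx, Nat.card_congr e.toEquiv,
      Nat.factorization_mul Nat.card_pos.ne' two_ne_zero, Finsupp.add_apply,
      Nat.Prime.factorization_self Nat.prime_two, pow_succ, ← card_sylow P, P.card_eq_multiplicity]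
    ring
  have hK : IsPGroup 2 ((S : Subgroup G).subgroupOf N) :=
    S.2.comap_of_injective N.subtype N.subtype_injective
  obtain ⟨P', hP'⟩ := (hK.of_equiv (Subgroup.equivMapOfInjective _ e.toMonoidHom e.injective)).exists_le_sylow
  have hle : Nat.card ((S : Subgroup G).subgroupOf N) ≤ sylCard n := by
    rw [← card_sylow P', ← Subgroup.card_map_of_injective (f := e.toMonoidHom) e.injective]
    exact Nat.le_of_dvd Nat.card_pos (Subgroup.card_dvd_of_le hP')
  rcases (Nat.dvd_prime Nat.prime_two).1 hrel with h | h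
  · have : 0 < sylCard n := pow_pos two_pos _
    rw [h, hS, mul_one] at hmul
    omega
  · rw [h, hS] at hmul
    omega

/-- Let n ≥ 4 and let G be a finite group with a normal subgroup N of index 2 isomorphic to SL(n,2) and with trivial centralizer in G (so G is the extension of the simple group L_n(2) by its inverse-transpose automorphism, its full automorphism group). Then any two Sylow 2-subgroups of G have a non-trivial intersection: for a Sylow 2-subgroup H and every x ∈ G, H ∩ H^x ≠ 1. -/
theorem result {G : Type*} [Group G] [Finite G] {n : ℕ} (hn : 4 ≤ n) (N : Subgroup G) [N.Normal]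
    (e : N ≃* Matrix.SpecialLinearGroup (Fin n) (ZMod 2)) (hidx : N.index = 2)
    (hC : Subgroup.centralizer (N : Set G) = ⊥)
    (H : Sylow 2 G) (x : G) :
    (H : Subgroup G) ⊓ MulAut.conj x • (H : Subgroup G) ≠ ⊥ := by
  classical
  intro hbot
  have hinj : Function.Injective (e.toMonoidHom) := e.injective
  set A := ((H : Subgroup G).subgroupOf N).map e.toMonoidHom with hA
  set B := (((x • H : Sylow 2 G) : Subgroup G).subgroupOf N).map e.toMonoidHom with hB
  have hcA : Nat.card A = sylCard n := card_inf_normal_sylow N e hidx H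
  have hcB : Nat.card B = sylCard n := card_inf_normal_sylow N e hidx (x • H)
  have hAB : A ⊓ B = ⊥ := by
    rw [hA, hB, ← Subgroup.map_inf _ _ _ hinj, Sylow.coe_subgroup_smul, Subgroup.subgroupOf,
      Subgroup.subgroupOf, ← Subgroup.comap_inf, hbot, MonoidHom.comap_bot, Subgroup.ker_subtype,
      Subgroup.map_bot]
  obtain ⟨t, ht⟩ : ∃ t : G, t ∉ N := by
    by_contra h
    simp only [not_exists, not_not] at h
    rw [(Subgroup.eq_top_iff' N).2 h, Subgroup.index_top] at hidx
    omega
  set ψ : MulAut (Matrix.SpecialLinearGroup (Fin n) (ZMod 2)) :=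
    (e.symm.trans (MulAut.conjNormal t)).trans e with hψ
  have hcψ : ∀ C : Subgroup (Matrix.SpecialLinearGroup (Fin n) (ZMod 2)),
      Nat.card C = sylCard n → Nat.card (ψ • C : Subgroup (Matrix.SpecialLinearGroup (Fin n) (ZMod 2))) = sylCard n :=
    fun C hC => by rw [← hC]; exact (Nat.card_congr (Subgroup.equivSMul ψ C).toEquiv).symm
  obtain ⟨g, hgA, hgB⟩ := exists_smul_pair_pair (hcψ A hcA) (hcψ B hcB)
    (by rw [← Subgroup.smul_inf, hAB, Subgroup.smul_bot]) hcA hcB hAB
  set y : G := (e.symm g : G) * t with hy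
  have hyN : y ∉ N := fun h => ht (by
    simpa [hy] using mul_mem (inv_mem (e.symm g).2) h)
  have hy2 : y * y ∈ N := Subgroup.mul_self_mem_of_index_two hidx y
  -- conjugation by `y` on `N` is conjugation by `g` after `ψ`
  have key : ∀ (S : Sylow 2 G), MulAut.conj g • ψ • ((S : Subgroup G).subgroupOf N).map e.toMonoidHom =
      ((S : Subgroup G).subgroupOf N).map e.toMonoidHom →
      ∀ z : N, (z : G) ∈ (S : Subgroup G) → y * z * y⁻¹ ∈ (S : Subgroup G) := by
    intro S hS z hz
    have h1 : MulAut.conj g (ψ (e z)) ∈ MulAut.conj g • ψ • ((S : Subgroup G).subgroupOf N).map e.toMonoidHom :=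
      Subgroup.smul_mem_pointwise_smul _ _ _ (Subgroup.smul_mem_pointwise_smul _ _ _
        (Subgroup.mem_map_of_mem _ (Subgroup.mem_subgroupOf.2 hz)))
    rw [hS] at h1
    obtain ⟨w, hw, hwe⟩ := Subgroup.mem_map.1 h1
    have hw' : w = e.symm g * MulAut.conjNormal t z * (e.symm g)⁻¹ := e.injective (by
      rw [map_mul, map_mul, map_inv, MulEquiv.apply_symm_apply]
      simpa [hψ] using hwe)
    have h2 := Subgroup.mem_subgroupOf.1 hw
    rw [hw'] at h2
    simpa [hy, mul_assoc] using h2
  have keyA := key H (by rw [← hA]; exact hgA)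
  have keyB := key (x • H) (by rw [← hB]; exact hgB)
  have hnorm : ∀ (S : Sylow 2 G),
      (∀ z : N, (z : G) ∈ (S : Subgroup G) → y * z * y⁻¹ ∈ (S : Subgroup G)) →
      y * y ∈ (S : Subgroup G) ∧ y ∈ (S : Subgroup G) := by
    intro S hS
    set K := (S : Subgroup G) ⊓ N with hK
    have hsq : ∀ w : G, w ∈ Subgroup.normalizer (K : Set G) → w * w ∈ K := by
      intro w hw
      have hwN : w * w ∈ N := Subgroup.mul_self_mem_of_index_two hidx w
      refine ⟨?_, hwN⟩
      have hww := mul_mem hw hw
      have hfix : MulAut.conj (e ⟨w * w, hwN⟩) • ((S : Subgroup G).subgroupOf N).map e.toMonoidHom =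
          ((S : Subgroup G).subgroupOf N).map e.toMonoidHom := by
        ext z
        obtain ⟨z, rfl⟩ := e.surjective z
        rw [Subgroup.mem_pointwise_smul_iff_inv_smul_mem, MulAut.smul_def, MulAut.conj_inv_apply,
          ← map_inv, ← map_mul, ← map_mul]
        erw [Subgroup.mem_map_iff_mem e.injective, Subgroup.mem_map_iff_mem e.injective]
        rw [Subgroup.mem_subgroupOf, Subgroup.mem_subgroupOf]
        have := (Subgroup.mem_normalizer_iff.1 (inv_mem hww)) (z : G)
        simp only [inv_inv] at this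
        exact ⟨fun h => (this.2 ⟨h, Subgroup.mul_mem N (Subgroup.mul_mem N (Subgroup.inv_mem N hwN) z.2) hwN⟩).1, fun h => (this.1 ⟨h, z.2⟩).1⟩
      have := mem_of_smul_eq (card_inf_normal_sylow N e hidx S) hfix
      erw [Subgroup.mem_map_iff_mem e.injective] at this
      exact this
    have hM : IsPGroup 2 (Subgroup.normalizer (K : Set G)) := by
      intro w
      obtain ⟨k, hk⟩ := S.2 ⟨(w : G) * w, (hsq w w.2).1⟩
      refine ⟨k + 1, Subtype.ext ?_⟩
      have h2 := congrArg Subtype.val hk
      simp only [SubmonoidClass.coe_pow, OneMemClass.coe_one] at h2 ⊢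
      rw [pow_succ', pow_mul, pow_two]
      exact h2
    have hyM : y ∈ Subgroup.normalizer (K : Set G) := by
      refine Subgroup.mem_normalizer_fintype fun z hz => ?_
      exact ⟨hS ⟨z, hz.2⟩ hz.1, Subgroup.Normal.conj_mem ‹N.Normal› z hz.2 y⟩
    have hle : (S : Subgroup G) ≤ Subgroup.normalizer (K : Set G) := by
      intro s hs
      refine Subgroup.mem_normalizer_fintype fun z hz => ?_
      exact ⟨Subgroup.mul_mem _ (Subgroup.mul_mem _ hs hz.1) (Subgroup.inv_mem _ hs), Subgroup.Normal.conj_mem ‹N.Normal› z hz.2 s⟩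
    exact ⟨(hsq y hyM).1, (S.3 hM hle).le hyM⟩
  have hyH := hnorm H keyA
  have hyH' := hnorm (x • H) keyB
  refine hyN ?_
  have : y ∈ (H : Subgroup G) ⊓ MulAut.conj x • (H : Subgroup G) := ⟨hyH.2, hyH'.2⟩
  rw [hbot, Subgroup.mem_bot] at this
  rw [this]
  exact one_mem N

end Cfsg.Agent.S2486
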