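import Cfsg.Statements.S2487
import Cfsg.Agent.Lib.CharDegrees.OrthSylow

set_option autoImplicit false
open scoped Pointwise
open Cfsg

namespace Cfsg.Agent.S2487

/-- Let m ≥ 4 and let G be the full isometry group of the hyperbolic quadratic form x₁y₁ + ⋯ + x_m y_m on the 2m-dimensional space over the field with 2 elements (the orthogonal group O⁺(2m,2), which contains Ω⁺(2m,2) with index 2). Then any two Sylow 2-subgroups of G have a non-trivial intersection: for a Sylow 2-subgroup H and every x ∈ G, H ∩ H^x ≠ 1. -/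
theorem result {F : Type*} [Field F] [Fintype F] (hF : Fintype.card F = 2) {m : ℕ} (hm : 4 ≤ m)
    (H : Sylow 2 (Cfsg.isometryGroup F (Cfsg.quadFormPlus m F)))
    (x : Cfsg.isometryGroup F (Cfsg.quadFormPlus m F)) :
    (H : Subgroup (Cfsg.isometryGroup F (Cfsg.quadFormPlus m F))) ⊓ MulAut.conj x • (H : Subgroup _) ≠ ⊥ := by
  classical
  let f : Cfsg.isometryGroup F (Cfsg.quadFormPlus m F) →*
      CfsgLib.ClassicalForms.orth (CfsgLib.ClassicalForms.qPlus m F) :=
    (CfsgLib.ClassicalForms.isoMat (CfsgLib.ClassicalForms.qPlus m F)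
      (CfsgLib.ClassicalForms.qPlus_apply m)).toMonoidHom
  have hfb : Function.Bijective f :=
    (CfsgLib.ClassicalForms.isoMat (CfsgLib.ClassicalForms.qPlus m F)
      (CfsgLib.ClassicalForms.qPlus_apply m)).bijective
  have h2 : Nat.card F = 2 := by rw [Nat.card_eq_fintype_card, hF]
  have hbool : ∀ t : F, t = 0 ∨ t = 1 := by
    intro t
    by_contra hcon
    rw [not_or] at hcon
    have h3 : ({0, 1, t} : Finset F).card = 3 :=
      Finset.card_eq_three.2 ⟨0, 1, t, zero_ne_one, Ne.symm hcon.1, Ne.symm hcon.2, rfl⟩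
    have := Finset.card_le_univ ({0, 1, t} : Finset F)
    omega
  let i : (Fin m → F) →ₗ[F] (Fin m ⊕ Fin m → F) :=
    { toFun := fun v => Sum.elim v 0
      map_add' := fun v w => by ext (j | j) <;> simp
      map_smul' := fun c v => by ext (j | j) <;> simp }
  have hi : Function.Injective i := fun v w h => funext fun j => congrFun h (Sum.inl j)
  have hU : CfsgLib.CharDegrees.OrthSylow.TS (CfsgLib.ClassicalForms.qPlus m F) (LinearMap.range i) := by
    rintro _ ⟨v, rfl⟩
    rw [CfsgLib.ClassicalForms.qPlus_apply]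
    simp [Cfsg.quadFormPlus, i]
  have hUd : Module.finrank F (LinearMap.range i) = m := by
    rw [LinearMap.finrank_range_of_inj hi, Module.finrank_fin_fun]
  have hd : Module.finrank F (Fin m ⊕ Fin m → F) = 2 * m := by
    rw [Module.finrank_fintype_fun_eq_card, Fintype.card_sum, Fintype.card_fin, two_mul]
  intro hbot
  refine CfsgLib.CharDegrees.OrthSylow.sylow_inter_ne_bot hbool h2
    (CfsgLib.ClassicalForms.nondeg_qPlus m) hU (by rw [hd, hUd]) (by omega)
    (H.mapSurjective (f := f) hfb.2)
    ((x • H).mapSurjective (f := f) hfb.2) ?_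
  rw [Sylow.coe_mapSurjective, Sylow.coe_mapSurjective, ← Subgroup.map_inf _ _ _ hfb.1,
    Sylow.coe_subgroup_smul, hbot, Subgroup.map_bot]

end Cfsg.Agent.S2487
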