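import Cfsg.Statements.S2488
import Mathlib

set_option autoImplicit false
set_option linter.style.haveILetI false
open scoped Pointwise
open Cfsg Equiv

namespace Cfsg.Agent.S2488

/-- The involution `(0 1)(2 3)`. -/
def z₀ : alternatingGroup (Fin 6) :=
  ⟨swap 0 1 * swap 2 3, by simp [Equiv.Perm.mem_alternatingGroup, Equiv.Perm.sign_swap']⟩

def Inv6 (w : alternatingGroup (Fin 6)) : Prop := w * w = 1 ∧ w ≠ 1

instance (w : alternatingGroup (Fin 6)) : Decidable (Inv6 w) := inferInstanceAs (Decidable (_ ∧ _))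

theorem card_inv : (Finset.univ.filter fun w : alternatingGroup (Fin 6) => Inv6 w).card = 45 := by
  decide +kernel

theorem card_cent : (Finset.univ.filter fun g : alternatingGroup (Fin 6) => g * z₀ = z₀ * g).card = 8 := by
  decide +kernel

theorem fib_cases : ∀ w : alternatingGroup (Fin 6), Inv6 w →
    (z₀ * w) ^ 3 = 1 ∨ (z₀ * w) ^ 4 = 1 ∨ (z₀ * w) ^ 5 = 1 := by
  decide +kernel

theorem fib_three : (Finset.univ.filter fun w : alternatingGroup (Fin 6) => Inv6 w ∧ (z₀ * w) ^ 3 = 1).card < 32 := by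
  decide +kernel

theorem fib_four : (Finset.univ.filter fun w : alternatingGroup (Fin 6) => Inv6 w ∧ (z₀ * w) ^ 4 = 1).card < 32 := by
  decide +kernel

theorem fib_five : (Finset.univ.filter fun w : alternatingGroup (Fin 6) => Inv6 w ∧ (z₀ * w) ^ 5 = 1).card < 32 := by
  decide +kernel

theorem card_a6 : Nat.card (alternatingGroup (Fin 6)) = 360 := by
  rw [nat_card_alternatingGroup, Nat.card_fin]; rfl

theorem exists_conj (w : alternatingGroup (Fin 6)) (hw : Inv6 w) :
    ∃ g : alternatingGroup (Fin 6), g * z₀ * g⁻¹ = w := by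
  classical
  have hsub : (Finset.univ.image fun g : alternatingGroup (Fin 6) => g * z₀ * g⁻¹) ⊆
      Finset.univ.filter fun w => Inv6 w := by
    intro v hv
    obtain ⟨g, -, rfl⟩ := Finset.mem_image.mp hv
    refine Finset.mem_filter.mpr ⟨Finset.mem_univ _, ?_, fun h => ?_⟩
    · have : z₀ * z₀ = 1 := by decide +kernel
      calc g * z₀ * g⁻¹ * (g * z₀ * g⁻¹) = g * (z₀ * z₀) * g⁻¹ := by group
        _ = 1 := by rw [this]; group
    · have : z₀ = 1 := by
        calc z₀ = g⁻¹ * (g * z₀ * g⁻¹) * g := by group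
          _ = 1 := by rw [h]; group
      exact absurd this (by decide +kernel)
  have hfib : ∀ v ∈ Finset.univ.image (fun g : alternatingGroup (Fin 6) => g * z₀ * g⁻¹),
      (Finset.univ.filter fun g => g * z₀ * g⁻¹ = v).card = 8 := by
    intro v hv
    obtain ⟨g₁, -, rfl⟩ := Finset.mem_image.mp hv
    rw [← card_cent]
    refine Finset.card_bij (fun g _ => g₁⁻¹ * g) (fun g hg => ?_) (fun a _ b _ h => mul_left_cancel h)
      (fun b hb => ⟨g₁ * b, ?_, by group⟩)
    · simp only [Finset.mem_filter, Finset.mem_univ, true_and] at hg ⊢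
      calc g₁⁻¹ * g * z₀ = g₁⁻¹ * (g * z₀ * g⁻¹) * g := by group
        _ = z₀ * (g₁⁻¹ * g) := by rw [hg]; group
    · simp only [Finset.mem_filter, Finset.mem_univ, true_and] at hb ⊢
      calc g₁ * b * z₀ * (g₁ * b)⁻¹ = g₁ * (b * z₀) * b⁻¹ * g₁⁻¹ := by group
        _ = g₁ * z₀ * g₁⁻¹ := by rw [hb]; group
  have hcard := Finset.card_eq_sum_card_image (fun g : alternatingGroup (Fin 6) => g * z₀ * g⁻¹) Finset.univ
  rw [Finset.sum_congr rfl hfib, Finset.sum_const, smul_eq_mul, Finset.card_univ,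
    ← Nat.card_eq_fintype_card, card_a6] at hcard
  have heq := Finset.eq_of_subset_of_card_le hsub (by rw [card_inv]; omega)
  have hmem : w ∈ Finset.univ.image fun g : alternatingGroup (Fin 6) => g * z₀ * g⁻¹ := by
    rw [heq]; exact Finset.mem_filter.mpr ⟨Finset.mem_univ _, hw⟩
  obtain ⟨g, -, hg⟩ := Finset.mem_image.mp hmem
  exact ⟨g, hg⟩

/-- Let G be a finite group with a normal subgroup N of index 4 isomorphic to the alternating group of degree 6 and with trivial centralizer in G (so G is the full automorphism group of A₆). Then any two Sylow 2-subgroups of G have a non-trivial intersection: for a Sylow 2-subgroup H and every x ∈ G, H ∩ H^x ≠ 1. -/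
theorem result {G : Type*} [Group G] [Finite G] (N : Subgroup G) [N.Normal]
    (e : N ≃* alternatingGroup (Fin 6)) (hidx : N.index = 4)
    (hC : Subgroup.centralizer (N : Set G) = ⊥)
    (H : Sylow 2 G) (x : G) :
    (H : Subgroup G) ⊓ MulAut.conj x • (H : Subgroup G) ≠ ⊥ := by
  classical
  haveI := Fact.mk Nat.prime_two
  have hN : Nat.card N = 360 := by rw [Nat.card_congr e.toEquiv, card_a6]
  have hG : Nat.card G = 1440 := by rw [← N.card_mul_index, hN, hidx]
  have hH : Nat.card H = 32 := by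
    rw [H.card_eq_multiplicity, hG, show (1440 : ℕ) = 2 ^ 5 * 45 by norm_num]
    rw [Nat.factorization_mul (by norm_num) (by norm_num), Finsupp.add_apply, Nat.Prime.factorization_pow Nat.prime_two,
      Finsupp.single_eq_same, Nat.factorization_eq_zero_of_not_dvd (by norm_num)]
    norm_num
  -- a central involution of `H` in `N`
  have hP : IsPGroup 2 (H : Subgroup G) := H.isPGroup'
  set M : Subgroup (H : Subgroup G) := N.subgroupOf H with hM
  have hMne : M ≠ ⊥ := by
    intro h
    have h1 : Nat.card (H : Subgroup G) ∣ 4 := by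
      have := Subgroup.relIndex_dvd_index_of_normal N (H : Subgroup G)
      rw [hidx] at this
      rwa [Subgroup.relIndex, ← hM, h, Subgroup.index_bot] at this
    rw [hH] at h1
    norm_num at h1
  haveI : Nontrivial M := (Subgroup.nontrivial_iff_ne_bot M).mpr hMne
  haveI : M.Normal := Subgroup.Normal.subgroupOf inferInstance _
  obtain ⟨z, hz⟩ : ∃ z : G, z ∈ (H : Subgroup G) ∧ z ∈ N ∧ orderOf z = 2 ∧ ∀ h ∈ (H : Subgroup G), h * z = z * h := by
    set A : Subgroup (H : Subgroup G) := M ⊓ Subgroup.center (H : Subgroup G)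
    have hA : A ≠ ⊥ := by
      have hdvd : 2 ∣ Nat.card M := by
        obtain ⟨k, hk⟩ := IsPGroup.iff_card.mp (hP.to_subgroup M)
        rcases k with _ | k
        · exact absurd hk (by simp [Finite.one_lt_card.ne'])
        · exact hk ▸ dvd_pow_self 2 (Nat.succ_ne_zero k)
      have hfix : (1 : M) ∈ MulAction.fixedPoints (ConjAct (H : Subgroup G)) M := fun g => smul_one g
      obtain ⟨b, hb, hb1⟩ := (IsPGroup.of_equiv hP ConjAct.toConjAct).exists_fixed_point_of_prime_dvd_card_of_fixed_point M hdvd hfix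
      intro hbot
      have : (b : (H : Subgroup G)) ∈ A := by
        refine ⟨b.2, Subgroup.mem_center_iff.mpr fun g => ?_⟩
        have h2 := congrArg Subtype.val (hb (ConjAct.toConjAct g))
        rw [ConjAct.Subgroup.val_conj_smul, ConjAct.toConjAct_smul] at h2
        exact mul_inv_eq_iff_eq_mul.mp h2
      rw [hbot, Subgroup.mem_bot] at this
      exact hb1 (Subtype.ext this.symm)
    haveI : Nontrivial A := (Subgroup.nontrivial_iff_ne_bot A).mpr hA
    obtain ⟨k, hk⟩ := IsPGroup.iff_card.mp (hP.to_subgroup A)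
    obtain ⟨a, ha⟩ := exists_prime_orderOf_dvd_card' (G := A) 2 (by
      rcases k with _ | k
      · exact absurd hk (by simp [Finite.one_lt_card.ne'])
      · exact hk ▸ dvd_pow_self 2 (Nat.succ_ne_zero k))
    refine ⟨((a : (H : Subgroup G)) : G), (a : (H : Subgroup G)).2, a.2.1, by
      rw [Subgroup.orderOf_coe, Subgroup.orderOf_coe, ha], fun h hh => ?_⟩
    exact congrArg Subtype.val (Subgroup.mem_center_iff.mp a.2.2 ⟨h, hh⟩)
  obtain ⟨hzH, hzN, hz2, hzc⟩ := hz
  have hinv : ∀ w : N, orderOf (w : G) = 2 → Inv6 (e w) := by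
    intro w hw
    refine ⟨?_, fun h => ?_⟩
    · rw [← map_mul, ← map_one e]
      congr 1
      apply Subtype.ext
      rw [Subgroup.coe_mul, ← sq, ← hw, pow_orderOf_eq_one, Subgroup.coe_one]
    · rw [← map_one e] at h
      rw [e.injective h, Subgroup.coe_one, orderOf_one] at hw
      omega
  -- centraliser of `z` is `H`
  let Cz := Subgroup.centralizer ({z} : Set G)
  have hHC : (H : Subgroup G) ≤ Cz := fun h hh => Subgroup.mem_centralizer_singleton_iff.mpr (hzc h hh)
  have hcls : Nat.card {w : G // IsConj z w} = 45 := by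
    rw [← card_inv, ← Nat.card_eq_finsetCard]
    have hmem : ∀ w : G, IsConj z w → ∃ h : w ∈ N, Inv6 (e ⟨w, h⟩) := by
      intro w hw
      obtain ⟨c, rfl⟩ := isConj_iff.mp hw
      refine ⟨‹N.Normal›.conj_mem z hzN c, hinv _ ?_⟩
      show orderOf (c * z * c⁻¹) = 2
      rw [← hz2]
      exact orderOf_injective (MulAut.conj c).toMonoidHom (MulAut.conj c).injective z
    refine Nat.card_eq_of_bijective (fun w : {w : G // IsConj z w} =>
      (⟨e ⟨w.1, (hmem w.1 w.2).1⟩, Finset.mem_filter.mpr ⟨Finset.mem_univ _, (hmem w.1 w.2).2⟩⟩ :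
        {v // v ∈ Finset.univ.filter fun v : alternatingGroup (Fin 6) => Inv6 v})) ⟨?_, ?_⟩
    · intro a b hab
      have h1 := e.injective (congrArg Subtype.val hab)
      exact Subtype.ext (congrArg (fun y : N => (y : G)) h1)
    · rintro ⟨v, hv⟩
      obtain ⟨g, hg⟩ := exists_conj v (Finset.mem_filter.mp hv).2
      obtain ⟨g', hg'⟩ := exists_conj (e ⟨z, hzN⟩) (hinv _ hz2)
      have hconj : IsConj (e ⟨z, hzN⟩) v := (isConj_iff.mpr ⟨g', hg'⟩).symm.trans (isConj_iff.mpr ⟨g, hg⟩)
      obtain ⟨d, hd⟩ := isConj_iff.mp hconj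
      have hw : IsConj z ((e.symm v : N) : G) := by
        refine isConj_iff.mpr ⟨((e.symm d : N) : G), ?_⟩
        rw [← hd, map_mul, map_mul, map_inv, e.symm_apply_apply, Subgroup.coe_mul, Subgroup.coe_mul,
          Subgroup.coe_inv]
      exact ⟨⟨_, hw⟩, Subtype.ext (e.apply_symm_apply v)⟩
  have hCz : Nat.card Cz = 32 := by
    have h1 := Cz.card_mul_index
    have h2 : Cz.index = 45 := by
      have h3 := MulAction.index_stabilizer (G := ConjAct G) z
      rw [← hcls, show Nat.card {w : G // IsConj z w} = (MulAction.orbit (ConjAct G) z).ncard by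
        rw [← Nat.card_coe_set_eq]
        exact Nat.card_congr (Equiv.subtypeEquivRight fun w => by rw [ConjAct.mem_orbit_conjAct]; exact ⟨fun h => h.symm, fun h => h.symm⟩)]
      rw [← h3, ConjAct.stabilizer_eq_centralizer]
      rfl
    rw [h2, hG] at h1
    omega
  have hCH : Cz = (H : Subgroup G) := (Subgroup.eq_of_le_of_card_ge hHC (by rw [hCz]; exact hH.ge)).symm
  -- the conjugate involution
  set z' := x * z * x⁻¹ with hz'
  have hz'N : z' ∈ N := ‹N.Normal›.conj_mem z hzN x
  have hz'2 : orderOf z' = 2 := by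
    rw [hz', ← hz2]
    exact orderOf_injective (MulAut.conj x).toMonoidHom (MulAut.conj x).injective z
  obtain ⟨g₀, hg₀⟩ := exists_conj (e ⟨z, hzN⟩) (hinv _ hz2)
  let φ : N →* alternatingGroup (Fin 6) := (MulAut.conj g₀⁻¹).toMonoidHom.comp e.toMonoidHom
  have hφz : φ ⟨z, hzN⟩ = z₀ := by
    show g₀⁻¹ * e ⟨z, hzN⟩ * g₀⁻¹⁻¹ = z₀
    rw [← hg₀]; group
  have hφ : Function.Injective φ := (MulAut.conj g₀⁻¹).injective.comp e.injective
  have hφi : ∀ w : N, orderOf (w : G) = 2 → Inv6 (φ w) := by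
    intro w hw
    obtain ⟨h1, h2⟩ := hinv w hw
    refine ⟨?_, fun h => h2 ?_⟩
    · show MulAut.conj g₀⁻¹ (e w) * MulAut.conj g₀⁻¹ (e w) = 1
      rw [← map_mul, h1, map_one]
    · exact (MulAut.conj g₀⁻¹).injective (h.trans (map_one _).symm)
  obtain ⟨k, hkk, hk⟩ : ∃ k : ℕ, (z₀ * φ ⟨z', hz'N⟩) ^ k = 1 ∧
      (Finset.univ.filter fun w : alternatingGroup (Fin 6) => Inv6 w ∧ (z₀ * w) ^ k = 1).card < 32 := by
    rcases fib_cases _ (hφi ⟨z', hz'N⟩ hz'2) with h | h | h
    · exact ⟨3, h, fib_three⟩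
    · exact ⟨4, h, fib_four⟩
    · exact ⟨5, h, fib_five⟩
  obtain ⟨h, hh, hh1, hhc⟩ : ∃ h ∈ (H : Subgroup G), h ≠ 1 ∧ h * z' = z' * h := by
    by_contra hcon
    push Not at hcon
    let f : ↥(H : Subgroup G) → {w // w ∈ Finset.univ.filter fun w : alternatingGroup (Fin 6) => Inv6 w ∧ (z₀ * w) ^ k = 1} :=
      fun h => ⟨φ ⟨(h : G) * z' * (h : G)⁻¹, ‹N.Normal›.conj_mem z' hz'N h⟩, by
        refine Finset.mem_filter.mpr ⟨Finset.mem_univ _, hφi _ ?_, ?_⟩
        · show orderOf ((h : G) * z' * (h : G)⁻¹) = 2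
          exact (orderOf_injective (MulAut.conj (h : G)).toMonoidHom (MulAut.conj (h : G)).injective z').trans hz'2
        · rw [← hφz, ← map_mul, ← map_pow, map_eq_one_iff φ hφ]
          apply Subtype.ext
          rw [← hφz, ← map_mul, ← map_pow, map_eq_one_iff φ hφ, ← SetLike.coe_eq_coe, Subgroup.coe_pow,
            Subgroup.coe_mul, Subgroup.coe_one] at hkk
          show (z * ((h : G) * z' * (h : G)⁻¹)) ^ k = 1
          have e1 : z * ((h : G) * z' * (h : G)⁻¹) = (h : G) * (z * z') * (h : G)⁻¹ := by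
            rw [← mul_assoc, ← mul_assoc, ← hzc _ h.2]
            group
          rw [e1, conj_pow, hkk]
          group⟩
    have hfi : Function.Injective f := by
      intro a b hab
      have h1 : (a : G) * z' * (a : G)⁻¹ = (b : G) * z' * (b : G)⁻¹ :=
        congrArg Subtype.val (hφ (congrArg Subtype.val hab))
      by_contra hne
      refine hcon _ (mul_mem (inv_mem b.2) a.2) (fun h0 => hne (Subtype.ext (inv_mul_eq_one.mp h0).symm)) ?_
      calc (b : G)⁻¹ * a * z' = (b : G)⁻¹ * ((a : G) * z' * (a : G)⁻¹) * a := by group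
        _ = z' * ((b : G)⁻¹ * a) := by rw [h1]; group
    have h2 := Nat.card_le_card_of_injective f hfi
    rw [hH, Nat.card_eq_finsetCard] at h2
    omega
  intro hbot
  have hmem : h ∈ (H : Subgroup G) ⊓ MulAut.conj x • (H : Subgroup G) := by
    refine ⟨hh, x⁻¹ * h * x, ?_, by simp [mul_assoc]⟩
    rw [SetLike.mem_coe, ← hCH, Subgroup.mem_centralizer_singleton_iff]
    calc x⁻¹ * h * x * z = x⁻¹ * (h * (x * z * x⁻¹)) * x := by group
      _ = x⁻¹ * ((x * z * x⁻¹) * h) * x := by rw [← hz', hhc]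
      _ = z * (x⁻¹ * h * x) := by group
  rw [hbot, Subgroup.mem_bot] at hmem
  exact hh1 hmem

end Cfsg.Agent.S2488
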