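import Cfsg.Statements.S2490
import Cfsg.Agent.Lib.Mathieu.Order7920.PrimeGraph
-- import your own Cfsg.Agent.* helpers here

set_option autoImplicit false
open Cfsg

namespace Cfsg.Agent.S2490

/-- Let G be a finite group of order 7920 = 2⁴·3²·5·11 (the order of the smallest Mathieu group) and suppose its prime graph (vertices the prime divisors of the order, distinct p, q joined when there is an element of order pq) is disconnected: the prime divisors split into two non-empty parts with no element of order pq for p in one part and q in the other. Then G is simple. -/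
theorem result {G : Type*} [Group G] [Finite G] (hord : Nat.card G = 7920)
    (hdisc : (∃ A : Set ℕ, (∃ a ∈ A, a.Prime ∧ a ∣ Nat.card G) ∧ (∃ b ∉ A, b.Prime ∧ b ∣ Nat.card G) ∧
      ∀ a ∈ A, ∀ b ∉ A, a.Prime → b.Prime → a ∣ Nat.card G → b ∣ Nat.card G → ¬ ∃ g : G, orderOf g = a * b)) :
    IsSimpleGroup G := by
  exact CfsgLib.Mathieu.Order7920.isSimpleGroup_of_disconnected hord hdisc

end Cfsg.Agent.S2490
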