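import Cfsg.Statements.S2493
import Cfsg.Agent.Lib.Classes.AltInvolutions
import Cfsg.Agent.Lib.Classes.AltCoverComm
-- import your own Cfsg.Agent.* helpers here

set_option autoImplicit false
open Cfsg

namespace Cfsg.Agent.S2493

/-- Let n ≥ 5 and let G be a finite perfect group whose centre has order 2 with G/Z(G) isomorphic to the alternating group of degree n (the double cover of the alternating group). Then every element of G is a commutator. -/
theorem result {G : Type*} [Group G] [Finite G] (hperf : commutator G = ⊤) {n : ℕ} (hn : 5 ≤ n)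
    (hZ : Nat.card (Subgroup.center G) = 2) (e : G ⧸ Subgroup.center G ≃* alternatingGroup (Fin n))
    (g : G) :
    ∃ a b : G, a * b * a⁻¹ * b⁻¹ = g := by
  let π : G →* alternatingGroup (Fin n) := e.toMonoidHom.comp (QuotientGroup.mk' (Subgroup.center G))
  have hs : Function.Surjective π := e.surjective.comp (QuotientGroup.mk'_surjective _)
  have hker : π.ker = Subgroup.center G := by
    ext x
    simp [π, QuotientGroup.eq_one_iff]
  have hc : π.ker ≤ Subgroup.center G := hker.le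
  have h2 : Nat.card π.ker = 2 := by rw [hker]; exact hZ
  obtain ⟨z, hz, hz1⟩ : ∃ z, π z = 1 ∧ z ≠ 1 := by
    by_contra hcon
    push Not at hcon
    have : π.ker = ⊥ := (Subgroup.eq_bot_iff_forall _).mpr fun x hx => hcon x (MonoidHom.mem_ker.mp hx)
    rw [this, Subgroup.card_bot] at h2
    omega
  have hz2 : z * z = 1 := CfsgLib.Classes.AltCoverComm.ker_sq h2 hz
  have hzc : ∀ x : G, x * z = z * x := CfsgLib.Classes.AltCoverComm.central hc hz
  by_cases hσ1 : (π g : Equiv.Perm (Fin n)) = 1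
  · rcases CfsgLib.Classes.AltCoverComm.ker_cases h2 hz hz1 (Subtype.ext hσ1 : π g = 1) with h | h
    · exact ⟨1, 1, by simp [h]⟩
    · have h4 : CfsgLib.Classes.AltCoverComm.Four (⟨0, by omega⟩ : Fin n) ⟨1, by omega⟩ ⟨2, by omega⟩ ⟨3, by omega⟩ :=
        ⟨by simp, by simp, by simp, by simp, by simp, by simp⟩
      obtain ⟨A, hA⟩ := CfsgLib.Classes.AltCoverComm.exists_lift hs h4.sign
      obtain ⟨S, hS⟩ := CfsgLib.Classes.AltCoverComm.exists_anticommute hs hc h2 hperf hz hz1 (A := A)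
        (p := (⟨0, by omega⟩ : Fin n)) (r := ⟨2, by omega⟩)
        (by rw [hA]; simp [Equiv.swap_apply_def]) (by rw [hA]; simp [Equiv.swap_apply_def])
        (by rw [hA]; simp [Equiv.swap_apply_def]) (by rw [hA]; simp [Equiv.swap_apply_def])
        (by simp) (by rw [hA]; simp [Equiv.swap_apply_def])
      refine ⟨S, A, ?_⟩
      rw [hS, h, show A * S * z * S⁻¹ * A⁻¹ = A * S * (z * (S⁻¹ * A⁻¹)) by group, ← hzc]
      group
  · obtain ⟨a, b, ha, hb, ⟨p, r, hp, hpp, hr, hrr, hrp, hrp'⟩, hab⟩ :=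
      CfsgLib.Classes.AltInvolutions.exists_commutator (by simpa using hn)
        (σ := (π g : Equiv.Perm (Fin n))) (π g).2 hσ1
    obtain ⟨A, hA⟩ := CfsgLib.Classes.AltCoverComm.exists_lift hs ha
    obtain ⟨B, hB⟩ := CfsgLib.Classes.AltCoverComm.exists_lift hs hb
    obtain ⟨S, hS⟩ := CfsgLib.Classes.AltCoverComm.exists_anticommute hs hc h2 hperf hz hz1 (A := A)
      (by rwa [hA]) (by rwa [hA]) (by rwa [hA]) (by rwa [hA]) hrp (by rwa [hA])
    have hk : π (g⁻¹ * (A * B * A⁻¹ * B⁻¹)) = 1 := Subtype.ext (by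
      simp only [map_mul, map_inv, Subgroup.coe_mul, Subgroup.coe_inv, Subgroup.coe_one, hA, hB]
      rw [← hab]; group)
    rcases CfsgLib.Classes.AltCoverComm.ker_cases h2 hz hz1 hk with h | h
    · exact ⟨A, B, (inv_mul_eq_one.mp h).symm⟩
    · refine ⟨A, B * S, ?_⟩
      rw [inv_mul_eq_iff_eq_mul] at h
      have hzi : z⁻¹ = z := inv_eq_of_mul_eq_one_right hz2
      have h5 : S * A⁻¹ * S⁻¹ = A⁻¹ * z := by
        have : S * A * S⁻¹ = A * z := by
          rw [hS, mul_assoc (A * S) z, ← hzc]; group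
        rw [← conj_inv, this, mul_inv_rev, hzi, ← hzc]
      rw [show A * (B * S) * A⁻¹ * (B * S)⁻¹ = A * B * (S * A⁻¹ * S⁻¹) * B⁻¹ by group, h5,
        show A * B * (A⁻¹ * z) * B⁻¹ = A * B * A⁻¹ * (z * B⁻¹) by group, ← hzc, ← mul_assoc, h,
        mul_assoc, hz2, mul_one]

end Cfsg.Agent.S2493
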