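import Cfsg.Statements.S2495
import Cfsg.Agent.Lib.SingerBound.Basic
import Cfsg.Agent.Lib.SingerBound.Arith
import Cfsg.Agent.Lib.Zsigmondy.Basic

set_option autoImplicit false
open Cfsg

namespace Cfsg.Agent.S2495

/-- Let q be an odd prime power, n ≥ 4 even, and L = PSL(n,q). Then L has an element of order q^(n/2) + 1 if and only if the 2-part of n exceeds the 2-part of q − 1. -/
theorem result {F : Type*} [Field F] [Fintype F] {q : ℕ} (hF : Fintype.card F = q) (hodd : Odd q)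
    {n : ℕ} (hn : 4 ≤ n) (heven : Even n) :
    (∃ g : Matrix.ProjectiveSpecialLinearGroup (Fin n) F, orderOf g = q ^ (n / 2) + 1) ↔
      padicValNat 2 (q - 1) < padicValNat 2 n := by
  obtain ⟨p, hchar⟩ := CharP.exists F
  haveI := Fact.mk (CharP.char_is_prime F p)
  obtain ⟨f, -, hpf⟩ := FiniteField.card F p
  obtain ⟨m, rfl⟩ : ∃ m, n = 2 * m := ⟨n / 2, by rcases heven with ⟨k, hk⟩; omega⟩
  rw [show 2 * m / 2 = m by omega]
  have hq : 2 ≤ q := hF ▸ Fintype.one_lt_card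
  have hq3 : 3 ≤ q := by rcases hodd with ⟨j, hj⟩; omega
  set d := Nat.gcd (2 * m) (q - 1) with hd
  set S := ∑ i ∈ Finset.range (2 * m), q ^ i with hS
  set Mm := ∑ i ∈ Finset.range m, q ^ i with hMm
  have hSM : S = (q ^ m + 1) * Mm := by
    rw [hS, hMm, two_mul, Finset.sum_range_add, add_mul, one_mul, Finset.mul_sum]
    simp only [pow_add]
    ring
  have hgcdM : Nat.gcd Mm (q - 1) = Nat.gcd m (q - 1) :=
    CfsgLib.CharDegrees.gcd_geom_sum_sub_one q m (by omega)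
  have hgS : Nat.gcd S (q - 1) = d :=
    CfsgLib.CharDegrees.gcd_geom_sum_sub_one q (2 * m) (by omega)
  have hdS : d ∣ S := hgS ▸ Nat.gcd_dvd_left _ _
  have hd0 : 0 < d := Nat.gcd_pos_of_pos_left _ (by omega)
  have hiff := CfsgLib.SingerBound.gcd_dvd_iff_of_gcd_eq (m := m) (a := q - 1) (M := Mm)
    (by omega) (by omega) hgcdM
  rw [← hiff, ← hd]
  constructor
  · rintro ⟨g, hg⟩
    obtain ⟨A, rfl⟩ := QuotientGroup.mk_surjective g
    have hord : orderOf (CfsgLib.CharDegrees.toPSL A) = q ^ m + 1 := hg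
    obtain ⟨r, hr⟩ := CfsgLib.Zsigmondy.exists_isPpd (a := q) (n := 2 * m) (by omega) (by omega)
      (by omega) (by omega)
    have hrT : r ∣ q ^ m + 1 := by
      have h1 : q ^ (2 * m) - 1 = (q ^ m + 1) * (q ^ m - 1) := by
        rw [← Nat.sq_sub_sq, one_pow, ← pow_mul, mul_comm m 2]
      exact ((Nat.Prime.dvd_mul hr.1).1 (h1 ▸ hr.2.1)).resolve_right
        (hr.2.2 m (by omega) (by omega))
    have hrq : ¬ r ∣ q := hr.coprime_base (by omega) (by omega)
    have hrp : r ≠ p := by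
      rintro rfl
      exact hrq (by rw [← hF, hpf]; exact dvd_pow_self _ f.ne_zero)
    have hk0 : 0 < S / d := Nat.div_pos (Nat.le_of_dvd (by
      rw [hS]; exact Finset.sum_pos (fun i _ => pow_pos (by omega) i) ⟨0, by simp; omega⟩) hdS) hd0
    rcases CfsgLib.SingerBound.scalar_or_prime_free p (A : Matrix (Fin (2 * m)) (Fin (2 * m)) F)
      A.2 (q : ℤ) hr.1 hrp (by exact_mod_cast hrq)
      (fun i h0 hi h => hr.2.2 i h0 hi (by
        have h1 : ((q ^ i - 1 : ℕ) : ℤ) = (q : ℤ) ^ i - 1 := by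
          rw [Nat.cast_sub (Nat.one_le_pow _ _ (by omega))]; push_cast; ring
        exact Int.natCast_dvd_natCast.1 (h1 ▸ h)))
      (d := d) (k := S / d)
      (by rw [show (q : ℤ) - 1 = ((q - 1 : ℕ) : ℤ) by omega]
          exact Int.natCast_dvd_natCast.2 (Nat.gcd_dvd_right _ _))
      (hF ▸ Nat.gcd_dvd_right _ _)
      (by rw [Nat.div_mul_cancel hdS, hS,
            show (∑ i ∈ Finset.range (2 * m), (q : ℤ) ^ i) =
              ((∑ i ∈ Finset.range (2 * m), q ^ i : ℕ) : ℤ) by push_cast; rfl, Int.natAbs_natCast])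
      hk0
      (fun γ h => hF ▸ CfsgLib.SingerBound.isRoot_pow_card _ γ h) with ⟨c, hc⟩ | ⟨N, hN, hN1⟩
    · have h1 : q ^ m + 1 ∣ S / d :=
        hord ▸ (CfsgLib.CharDegrees.orderOf_toPSL_dvd_iff A _).2 ⟨c, hc⟩
      have h2 := Nat.mul_dvd_mul_right h1 d
      rw [Nat.div_mul_cancel hdS, hSM] at h2
      exact Nat.dvd_of_mul_dvd_mul_left (by positivity) h2
    · exact absurd (hrT.trans (hord ▸ (CfsgLib.CharDegrees.orderOf_toPSL_dvd_iff A _).2
        ⟨1, by rw [hN1, map_one]⟩)) hN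
  · intro h
    obtain ⟨A, hA⟩ := CfsgLib.CharDegrees.exists_psl_orderOf_singer (F := F) (n := 2 * m) (by omega)
    rw [hF, ← hS, ← hd] at hA
    have hT : q ^ m + 1 ∣ orderOf (CfsgLib.CharDegrees.toPSL A) := by
      refine dvd_trans ?_ hA
      rw [hSM, Nat.mul_div_assoc _ h]
      exact dvd_mul_right _ _
    exact ⟨_, orderOf_pow_orderOf_div (orderOf_pos _).ne' hT⟩

end Cfsg.Agent.S2495
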