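import Cfsg.Statements.S2496
import Cfsg.Agent.Lib.SingerBound.Basic
import Cfsg.Agent.Lib.SingerBound.Arith
import Cfsg.Agent.Lib.Zsigmondy.Basic
import Cfsg.Agent.Lib.CharDegrees.SUElements

set_option autoImplicit false
open Cfsg

namespace Cfsg.Agent.S2496

/-- Let q be an odd prime power, n ≥ 4 even, and U = PSU(n,q) (realised over the field with q² elements). Then U has an element of order q^(n/2) + (−1)^(n/2) — that is, q^(n/2) + 1 when n/2 is even and q^(n/2) − 1 when n/2 is odd — if and only if the 2-part of n exceeds the 2-part of q + 1. -/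
theorem result {F : Type*} [Field F] [Fintype F] {q : ℕ} (hF : Fintype.card F = q ^ 2) (hodd : Odd q)
    {n : ℕ} (hn : 4 ≤ n) (heven : Even n) :
    (∃ g : Cfsg.PSU n F q, orderOf g = if Even (n / 2) then q ^ (n / 2) + 1 else q ^ (n / 2) - 1) ↔
      padicValNat 2 (q + 1) < padicValNat 2 n := by
  obtain ⟨p, hchar⟩ := CharP.exists F
  haveI := Fact.mk (CharP.char_is_prime F p)
  obtain ⟨f, hp, hpf⟩ := FiniteField.card F p
  obtain ⟨a, -, hqa⟩ := (Nat.dvd_prime_pow hp).1
    (show q ∣ p ^ (f : ℕ) from ⟨q, by rw [← hpf, hF]; ring⟩)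
  obtain ⟨m, rfl⟩ : ∃ m, n = 2 * m := ⟨n / 2, by rcases heven with ⟨k, hk⟩; omega⟩
  rw [show 2 * m / 2 = m by omega]
  have hq : 1 < q := CfsgLib.Generators.one_lt_of_card_eq_sq hF
  set T := if Even m then q ^ m + 1 else q ^ m - 1 with hT
  set d := Nat.gcd (2 * m) (q + 1) with hd
  set S := (CfsgLib.CharDegrees.altSum q (2 * m)).natAbs with hS
  set Mm := (CfsgLib.CharDegrees.altSum q m).natAbs with hMm
  have hqm : 1 ≤ q ^ m := Nat.one_le_pow _ _ (by omega)
  have hTabs : T = ((1 : ℤ) + (-(q : ℤ)) ^ m).natAbs := by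
    rcases Nat.even_or_odd m with hm | hm
    · rw [hT, if_pos hm, hm.neg_pow, show (1 : ℤ) + (q : ℤ) ^ m = ((q ^ m + 1 : ℕ) : ℤ) by
        push_cast; ring, Int.natAbs_natCast]
    · rw [hT, if_neg (Nat.not_even_iff_odd.2 hm), hm.neg_pow,
        show (1 : ℤ) + -(q : ℤ) ^ m = -((q ^ m - 1 : ℕ) : ℤ) by
          rw [Nat.cast_sub hqm]; push_cast; ring, Int.natAbs_neg, Int.natAbs_natCast]
  have hSM : S = T * Mm := by
    rw [hTabs, hS, hMm, ← Int.natAbs_mul]
    congr 1
    apply mul_right_cancel₀ (show (q : ℤ) + 1 ≠ 0 by omega)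
    rw [mul_assoc, CfsgLib.CharDegrees.altSum_mul, CfsgLib.CharDegrees.altSum_mul, two_mul, pow_add]
    ring
  have hgcdM : Nat.gcd Mm (q + 1) = Nat.gcd m (q + 1) := CfsgLib.CharDegrees.gcd_altSum q m
  have hgS : Nat.gcd S (q + 1) = d := CfsgLib.CharDegrees.gcd_altSum q (2 * m)
  have hdS : d ∣ S := hgS ▸ Nat.gcd_dvd_left _ _
  have hd0 : 0 < d := Nat.gcd_pos_of_pos_right _ (by omega)
  have hqm' : 2 ≤ q ^ m := le_trans hq (Nat.le_self_pow (by omega) q)
  have hT0 : 0 < T := by rw [hT]; split <;> omega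
  have hiff := CfsgLib.SingerBound.gcd_dvd_iff_of_gcd_eq (m := m) (a := q + 1) (M := Mm)
    (by omega) (by omega) hgcdM
  rw [← hiff, ← hd]
  constructor
  · rintro ⟨g, hg⟩
    obtain ⟨A, rfl⟩ := QuotientGroup.mk_surjective g
    have hord : orderOf (CfsgLib.CharDegrees.toPSU A) = T := hg
    -- the prime
    obtain ⟨r, hr, hrT, hrq, hordQ⟩ : ∃ r : ℕ, r.Prime ∧ r ∣ T ∧ ¬ r ∣ q ∧
        ∀ i : ℕ, 0 < i → i < 2 * m → ¬ (r : ℤ) ∣ (-(q : ℤ)) ^ i - 1 := by
      have hsq : ∀ r i : ℕ, (r : ℤ) ∣ (-(q : ℤ)) ^ i - 1 → r ∣ q ^ (2 * i) - 1 := by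
        intro r i h
        have h1 : ((q ^ (2 * i) - 1 : ℕ) : ℤ) =
            ((-(q : ℤ)) ^ i - 1) * ((-(q : ℤ)) ^ i + 1) := by
          rw [Nat.cast_sub (Nat.one_le_pow _ _ (by omega))]
          push_cast
          rw [pow_mul, neg_pow]
          have h2 : ((-1 : ℤ) ^ i) * (-1) ^ i = 1 := by rw [← mul_pow]; norm_num
          linear_combination (-((q : ℤ) ^ i * (q : ℤ) ^ i)) * h2
        exact Int.natCast_dvd_natCast.1 (h1 ▸ h.mul_right _)
      rcases Nat.even_or_odd m with hm | hm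
      · obtain ⟨r, hr⟩ := CfsgLib.Zsigmondy.exists_isPpd (a := q) (n := 2 * m) hq (by omega)
          (by rcases hodd with ⟨j, hj⟩; omega) (by omega)
        have h1 : q ^ (2 * m) - 1 = (q ^ m + 1) * (q ^ m - 1) := by
          rw [← Nat.sq_sub_sq, one_pow, ← pow_mul, mul_comm m 2]
        refine ⟨r, hr.1, ?_, hr.coprime_base hq (by omega), fun i h0 hi h => ?_⟩
        · rw [hT, if_pos hm]
          exact ((Nat.Prime.dvd_mul hr.1).1 (h1 ▸ hr.2.1)).resolve_right
            (hr.2.2 m (by omega) (by omega))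
        · obtain ⟨w, hw⟩ := (hr.dvd_pow_sub_one_iff' hq (by omega) _).1 (hsq r i h)
          rcases w with _ | _ | w
          · omega
          · have him : i = m := by omega
            rw [him, hm.neg_pow, show (q : ℤ) ^ m - 1 = ((q ^ m - 1 : ℕ) : ℤ) by
              rw [Nat.cast_sub hqm]; push_cast; ring] at h
            exact hr.2.2 m (by omega) (by omega) (Int.natCast_dvd_natCast.1 h)
          · have : 2 * m * 2 ≤ 2 * m * (w + 1 + 1) := Nat.mul_le_mul_left _ (by omega)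
            omega
      · have hm3 : 3 ≤ m := by rcases hm with ⟨j, hj⟩; omega
        obtain ⟨r, hr⟩ := CfsgLib.Zsigmondy.exists_isPpd (a := q) (n := m) hq (by omega)
          (by rcases hodd with ⟨j, hj⟩; omega) (by omega)
        refine ⟨r, hr.1, ?_, hr.coprime_base hq (by omega), fun i h0 hi h => ?_⟩
        · rw [hT, if_neg (Nat.not_even_iff_odd.2 hm)]
          exact hr.2.1
        · have h1 := (hr.dvd_pow_sub_one_iff' hq (by omega) _).1 (hsq r i h)
          obtain ⟨w, hw⟩ := ((Nat.coprime_two_right.2 hm).dvd_of_dvd_mul_left h1)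
          rcases w with _ | _ | w
          · omega
          · have him : i = m := by omega
            rw [him, hm.neg_pow, show -(q : ℤ) ^ m - 1 = -((q ^ m + 1 : ℕ) : ℤ) by push_cast; ring,
              dvd_neg, Int.natCast_dvd_natCast] at h
            have h2 : r ∣ (q ^ m + 1) - (q ^ m - 1) := Nat.dvd_sub h hr.2.1
            rw [show q ^ m + 1 - (q ^ m - 1) = 2 by omega] at h2
            have := Nat.le_of_dvd two_pos h2
            have := hr.lt hq (by omega)
            omega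
          · have : m * 2 ≤ m * (w + 1 + 1) := Nat.mul_le_mul_left _ (by omega)
            omega
    have hrp : r ≠ p := by
      rintro rfl
      exact hrq (hqa ▸ dvd_pow_self r (by rintro rfl; simp at hqa; omega))
    have hS0 : 0 < S := by
      rw [hSM]
      refine Nat.mul_pos hT0 (Nat.pos_of_ne_zero fun h => ?_)
      rw [hMm, Int.natAbs_eq_zero] at h
      have h1 := CfsgLib.CharDegrees.altSum_mul q m
      rw [h, zero_mul] at h1
      rcases Nat.even_or_odd m with hm | hm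
      · rw [hm.neg_pow] at h1
        have : (2 : ℤ) ≤ (q : ℤ) ^ m := by exact_mod_cast hqm'
        linarith
      · rw [hm.neg_pow] at h1
        have : (2 : ℤ) ≤ (q : ℤ) ^ m := by exact_mod_cast hqm'
        linarith
    have hk0 : 0 < S / d := Nat.div_pos (Nat.le_of_dvd hS0 hdS) hd0
    have hn3 : 3 ≤ 2 * m := by omega
    rcases CfsgLib.SingerBound.scalar_or_prime_free p (CfsgLib.CharDegrees.suMat A)
      (A : Matrix.SpecialLinearGroup (Fin (2 * m)) F).2 (-(q : ℤ)) hr hrp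
      (by rw [dvd_neg]; exact_mod_cast hrq) hordQ (d := d) (k := S / d)
      (by rw [show -(q : ℤ) - 1 = -((q + 1 : ℕ) : ℤ) by push_cast; ring, dvd_neg]
          exact Int.natCast_dvd_natCast.2 (Nat.gcd_dvd_right _ _))
      (by rw [hF]
          refine (Nat.gcd_dvd_right _ _).trans ⟨q - 1, ?_⟩
          rw [← Nat.sq_sub_sq, one_pow])
      (by rw [Nat.div_mul_cancel hdS, hS, CfsgLib.CharDegrees.altSum]) hk0
      (fun γ h => CfsgLib.SingerBound.isRoot_pow_neg p hqa _
        ((CfsgLib.CharDegrees.mem_SU_iff hF _).1 A.2) γ h) with ⟨c, hc⟩ | ⟨N, hN, hN1⟩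
    · have h1 : T ∣ S / d :=
        hord ▸ (CfsgLib.CharDegrees.orderOf_toPSU_dvd_iff hF hn3 A _).2 ⟨c, hc⟩
      have h2 := Nat.mul_dvd_mul_right h1 d
      rw [Nat.div_mul_cancel hdS, hSM] at h2
      exact Nat.dvd_of_mul_dvd_mul_left hT0 h2
    · exact absurd (hrT.trans (hord ▸ (CfsgLib.CharDegrees.orderOf_toPSU_dvd_iff hF hn3 A _).2
        ⟨1, by rw [hN1, map_one]⟩)) hN
  · intro h
    obtain ⟨A, hA⟩ := CfsgLib.CharDegrees.exists_psu_singer (F := F) (n := 2 * m) hF p a hqa (by omega)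
    rw [← hS, ← hd] at hA
    have hT' : T ∣ orderOf (CfsgLib.CharDegrees.toPSU A) := by
      refine dvd_trans ?_ hA
      rw [hSM, Nat.mul_div_assoc _ h]
      exact dvd_mul_right _ _
    exact ⟨_, orderOf_pow_orderOf_div (orderOf_pos _).ne' hT'⟩

end Cfsg.Agent.S2496
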