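import Cfsg.Statements.S2497
import Cfsg.Agent.Lib.Eppo.Simple
import Cfsg.Agent.S0253
import Cfsg.Agent.S0252
import Cfsg.Agent.S0254

set_option autoImplicit false
open Cfsg

namespace Cfsg.Agent.S2497

/-- Let G be a finite non-abelian simple group in which every non-identity element has prime-power order. Then G is isomorphic to one of: the alternating group of degree 6, PSL(2,q) for q ∈ {4, 7, 8, 17}, PSL(3,4), or the Suzuki group over the field with 8 or with 32 elements. -/
theorem result {G : Type*} [Group G] [Finite G] [IsSimpleGroup G] (hG : ¬ IsMulCommutative G)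
    (h : ∀ g : G, g ≠ 1 → IsPrimePow (orderOf g)) :
    Nonempty (G ≃* alternatingGroup (Fin 6)) ∨
    (∃ (F : Type) (_ : Field F) (_ : Fintype F), Fintype.card F ∈ ({4, 7, 8, 17} : Finset ℕ) ∧
      Nonempty (G ≃* Matrix.ProjectiveSpecialLinearGroup (Fin 2) F)) ∨
    (∃ (F : Type) (_ : Field F) (_ : Fintype F), Fintype.card F = 4 ∧
      Nonempty (G ≃* Matrix.ProjectiveSpecialLinearGroup (Fin 3) F)) ∨
    (∃ (F : Type) (_ : Field F) (_ : Fintype F),
      (Fintype.card F = 8 ∧ Nonempty (G ≃* ↥(Cfsg.Lie.Sz F 4))) ∨ (Fintype.card F = 32 ∧ Nonempty (G ≃* ↥(Cfsg.Lie.Sz F 8)))) := by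
  rcases CfsgLib.Eppo.simple_cases hG h with ⟨F, _, _, hF, ⟨e⟩⟩ | h3 | h4
  · simp only [Finset.mem_insert, Finset.mem_singleton] at hF
    by_cases h9 : Fintype.card F = 9
    · obtain ⟨e'⟩ := Cfsg.Agent.S0254.result (F := F) h9
      exact Or.inl ⟨e.trans e'⟩
    refine Or.inr (Or.inl ?_)
    by_cases h5 : Fintype.card F = 5
    · obtain ⟨e'⟩ := Cfsg.Agent.S0253.result (F := F) h5
      have : Fact (Nat.Prime 2) := ⟨Nat.prime_two⟩
      let _ : Fintype (GaloisField 2 2) := Fintype.ofFinite _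
      have hc : Fintype.card (GaloisField 2 2) = 4 := by
        rw [← Nat.card_eq_fintype_card, GaloisField.card 2 2 (by norm_num)]; norm_num
      obtain ⟨e''⟩ := Cfsg.Agent.S0252.result (F := GaloisField 2 2) hc
      exact ⟨GaloisField 2 2, inferInstance, inferInstance, by simp [hc], ⟨(e.trans e').trans e''.symm⟩⟩
    refine ⟨F, inferInstance, inferInstance, ?_, ⟨e⟩⟩
    simp only [Finset.mem_insert, Finset.mem_singleton]
    omega
  · exact Or.inr (Or.inr (Or.inl h3))
  · exact Or.inr (Or.inr (Or.inr h4))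

end Cfsg.Agent.S2497
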