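import Cfsg.Statements.S2503
import Cfsg.Agent.Lib.SL2.Unipotent

set_option autoImplicit false
open Cfsg Matrix
open scoped MatrixGroups

namespace Cfsg.Agent.S2503

open CfsgLib.SL2
open CfsgLib.ClassicalLinear (upS upS_coe upS_add upS_injective)

/-- Let F be a finite field with q = 2^t ≥ 4 elements and L = PSL(2,F). Then L has a cyclic subgroup A of order q + 1 and an elementary abelian 2-subgroup B of order q such that L = ABA: every element of L is a product a·b·a' with a, a' ∈ A and b ∈ B. -/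
theorem result {F : Type*} [Field F] [Fintype F]
    (h2 : 2 ∣ Fintype.card F) (h4 : 4 ≤ Fintype.card F) :
    ∃ A B : Subgroup (Matrix.ProjectiveSpecialLinearGroup (Fin 2) F),
      IsCyclic A ∧ Nat.card A = Fintype.card F + 1 ∧ IsMulCommutative B ∧ (∀ b ∈ B, b * b = 1) ∧
        Nat.card B = Fintype.card F ∧
        ∀ g : Matrix.ProjectiveSpecialLinearGroup (Fin 2) F, ∃ a ∈ A, ∃ b ∈ B, ∃ c ∈ A, g = a * b * c := by
  classical
  haveI : CharP F 2 := by
    obtain ⟨p, hp⟩ := CharP.exists F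
    obtain ⟨e, hpp, he⟩ := FiniteField.card F p
    have h1 : 2 ∣ p ^ (e : ℕ) := he ▸ h2
    obtain rfl : 2 = p := (Nat.prime_dvd_prime_iff_eq Nat.prime_two hpp).mp (Nat.prime_two.dvd_of_dvd_pow h1)
    exact hp
  have h20 : (2 : F) = 0 := CharTwo.two_eq_zero
  have hneg : ∀ x : F, -x = x := fun x => CharTwo.neg_eq x
  obtain ⟨g, hg, -, hgc⟩ := exists_torus_generator (F := F) (e := Nat.card F + 1) (Or.inr rfl)
    (by rw [Nat.card_eq_fintype_card]; omega)
  set t := tr g
  have hnr : ¬ ∃ l : F, l * l = t * l - 1 := by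
    intro h
    rw [card_centralizer hg, if_pos h] at hgc
    omega
  have ht : tr (companion t) ^ 2 ≠ 4 := by rw [tr_companion]; exact hg
  let T := Subgroup.centralizer ({companion t} : Set (SL(2, F)))
  have hT : Nat.card T = Fintype.card F + 1 := by
    rw [card_centralizer ht, if_neg (by rw [tr_companion]; exact hnr), Nat.card_eq_fintype_card]
  let U : Subgroup (SL(2, F)) :=
    { carrier := Set.range upS
      one_mem' := ⟨0, upS_zero⟩
      mul_mem' := by rintro _ _ ⟨x, rfl⟩ ⟨y, rfl⟩; exact ⟨x + y, upS_add x y⟩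
      inv_mem' := by
        rintro _ ⟨x, rfl⟩
        refine ⟨x, eq_inv_of_mul_eq_one_left ?_⟩
        rw [← upS_add, CharTwo.add_self_eq_zero, upS_zero] }
  set π := QuotientGroup.mk' (Subgroup.center (SL(2, F))) with hπ
  have hinj : Function.Injective π := by
    rw [← MonoidHom.ker_eq_bot_iff, hπ, QuotientGroup.ker_mk', eq_bot_iff]
    intro x hx
    rcases (mem_center_iff x).1 hx with h | h
    · exact h
    · rw [Subgroup.mem_bot, h]
      apply Subtype.ext
      ext i j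
      simp [hneg]
  haveI : IsCyclic T := isCyclic_centralizer ht
  refine ⟨T.map π, U.map π, ?_, ?_, ?_, ?_, ?_, ?_⟩
  · exact isCyclic_of_surjective (T.equivMapOfInjective π hinj).toMonoidHom
      (T.equivMapOfInjective π hinj).surjective
  · rw [Subgroup.card_map_of_injective hinj, hT]
  · refine ⟨⟨?_⟩⟩
    rintro ⟨_, _, ⟨x, rfl⟩, rfl⟩ ⟨_, _, ⟨y, rfl⟩, rfl⟩
    apply Subtype.ext
    show π (upS x) * π (upS y) = π (upS y) * π (upS x)
    rw [← map_mul, ← map_mul, ← upS_add, ← upS_add, add_comm]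
  · rintro _ ⟨_, ⟨x, rfl⟩, rfl⟩
    rw [← map_mul, ← upS_add, CharTwo.add_self_eq_zero, upS_zero, map_one]
  · rw [Subgroup.card_map_of_injective hinj, ← Nat.card_eq_fintype_card]
    exact Nat.card_range_of_injective upS_injective
  set Q : F → F → F := fun a b => a * a + t * a * b + b * b with hQ
  have hQ0 : ∀ a b, Q a b = 0 → a = 0 ∧ b = 0 := by
    intro a b h
    rcases eq_or_ne b 0 with rfl | hb
    · exact ⟨mul_self_eq_zero.1 (by simpa [hQ] using h), rfl⟩
    · refine absurd ⟨a / b, ?_⟩ hnr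
      field_simp
      simp only [hQ] at h
      linear_combination h - (t * a * b) * h20
  have hA : ∀ a b, Q a b = 1 → ∃ k ∈ T, (k : Matrix (Fin 2) (Fin 2) F) = !![a, b; b, a + t * b] := by
    intro a b h
    have hd : (!![a, b; b, a + t * b]).det = 1 := by
      rw [det_fin_two_of]
      simp only [hQ] at h
      linear_combination h - (b * b) * h20
    refine ⟨⟨_, hd⟩, ?_, rfl⟩
    refine Subgroup.mem_centralizer_singleton_iff.mpr ?_
    apply Subtype.ext
    show !![a, b; b, a + t * b] * !![0, -1; 1, t] = !![0, -1; 1, t] * !![a, b; b, a + t * b]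
    ext i j
    fin_cases i <;> fin_cases j <;> simp [Matrix.mul_apply, hneg] <;> ring
  intro x
  obtain ⟨h, rfl⟩ := QuotientGroup.mk'_surjective _ x
  set H : Matrix (Fin 2) (Fin 2) F := (h : Matrix (Fin 2) (Fin 2) F) with hH
  obtain ⟨a, b, hv, hw⟩ : ∃ a b, Q a b = 1 ∧ Q (H 0 0 * a + H 0 1 * b) (H 1 0 * a + H 1 1 * b) = 1 := by
    set α := Q (H 0 0) (H 1 0) + 1
    set γ := Q (H 0 1) (H 1 1) + 1
    have hdet : H 0 0 * H 1 1 + H 0 1 * H 1 0 = 1 := by
      have := det_eq h
      rw [← hH] at this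
      linear_combination this + (H 0 1 * H 1 0) * h20
    have key : ∀ a b, Q (H 0 0 * a + H 0 1 * b) (H 1 0 * a + H 1 1 * b) = Q a b + (α * a * a + γ * b * b) := by
      intro a b
      simp only [α, γ, hQ]
      linear_combination (t * a * b) * hdet +
        ((H 0 0 * H 0 1 + H 1 0 * H 1 1) * a * b - a * a - b * b) * h20
    obtain ⟨r₁, hr₁⟩ := isSquare_of_charTwo' γ
    obtain ⟨r₂, hr₂⟩ := isSquare_of_charTwo' α
    obtain ⟨a, b, hne, hab⟩ : ∃ a b, (a ≠ 0 ∨ b ≠ 0) ∧ α * a * a + γ * b * b = 0 := by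
      by_cases h0 : r₁ = 0 ∧ r₂ = 0
      · exact ⟨1, 0, Or.inl one_ne_zero, by rw [hr₁, hr₂, h0.1, h0.2]; ring⟩
      · refine ⟨r₁, r₂, not_and_or.1 h0, ?_⟩
        rw [hr₁, hr₂]
        linear_combination (r₁ * r₁ * r₂ * r₂) * h20
    obtain ⟨s, hs⟩ := isSquare_of_charTwo' (Q a b)
    have hs0 : s ≠ 0 := by
      rintro rfl
      rw [zero_mul] at hs
      obtain ⟨rfl, rfl⟩ := hQ0 a b hs
      simp at hne
    have h1 : Q (a / s) (b / s) = 1 := by
      simp only [hQ] at hs ⊢
      field_simp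
      linear_combination hs
    refine ⟨a / s, b / s, h1, ?_⟩
    rw [key, h1]
    field_simp
    linear_combination hab
  obtain ⟨kv, hkv, ekv⟩ := hA _ _ hv
  obtain ⟨kw, hkw, ekw⟩ := hA _ _ hw
  set u := kw⁻¹ * (h * kv) with hu
  have e1 : kw * u = h * kv := by rw [hu, mul_inv_cancel_left]
  have e10 := congrArg (fun M : SL(2, F) => (M : Matrix (Fin 2) (Fin 2) F) 1 0) e1
  have e00 := congrArg (fun M : SL(2, F) => (M : Matrix (Fin 2) (Fin 2) F) 0 0) e1
  simp [ekw, ekv, Matrix.mul_apply, ← hH] at e10 e00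
  set w0 := H 0 0 * a + H 0 1 * b
  set w1 := H 1 0 * a + H 1 1 * b
  set x := (u : Matrix (Fin 2) (Fin 2) F) 0 0
  set y := (u : Matrix (Fin 2) (Fin 2) F) 1 0
  have hQw : w0 * w0 + t * w0 * w1 + w1 * w1 = 1 := hw
  have hy : y = 0 := by
    linear_combination w1 * e00 + w0 * e10 - y * hQw - (w0 * w1 * x - w0 * w1) * h20
  have hx : x = 1 := by
    linear_combination (w0 + t * w1) * e00 + w1 * e10 + (1 - x) * hQw -
      (w0 * w1 * y + t * w1 * w1 * y) * h20
  have h11 : (u : Matrix (Fin 2) (Fin 2) F) 1 1 = 1 := by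
    have := det_eq u
    simp only [x, y] at hx hy
    rw [hx, hy] at this
    linear_combination this
  refine ⟨π kw, ⟨kw, hkw, rfl⟩, π u, ⟨u, ⟨(u : Matrix (Fin 2) (Fin 2) F) 0 1, ?_⟩, rfl⟩, π kv⁻¹,
    ⟨kv⁻¹, inv_mem hkv, rfl⟩, ?_⟩
  · apply Subtype.ext
    rw [upS_coe]
    ext i j
    fin_cases i <;> fin_cases j <;> simp [h11] <;> first | exact hx.symm | exact hy.symm
  · rw [← map_mul, ← map_mul, e1, mul_inv_cancel_right]

end Cfsg.Agent.S2503
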