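import Cfsg.Statements.S2506
import Cfsg.Agent.Lib.AbelianPerm.Witness

set_option autoImplicit false
open Cfsg Equiv
open scoped Pointwise
open CfsgLib.AbelianPerm

namespace Cfsg.Agent.S2506

/-- In the alternating group of any degree, any two abelian subgroups of the largest possible order (among abelian subgroups) are conjugate. -/
theorem result (n : ℕ)
    (A B : Subgroup (alternatingGroup (Fin n))) (hA : IsMulCommutative A) (hB : IsMulCommutative B)
    (hAmax : ∀ C : Subgroup (alternatingGroup (Fin n)), IsMulCommutative C → Nat.card C ≤ Nat.card A)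
    (hBmax : ∀ C : Subgroup (alternatingGroup (Fin n)), IsMulCommutative C → Nat.card C ≤ Nat.card B) :
    ∃ g : alternatingGroup (Fin n), B = MulAut.conj g • A := by
  have hmax : ∀ D : Subgroup (alternatingGroup (Fin n)), IsMulCommutative D →
      (∀ C : Subgroup (alternatingGroup (Fin n)), IsMulCommutative C → Nat.card C ≤ Nat.card D) →
      3 ≤ n → Nat.card D = altMax n := fun D hD hDmax h3 => by
    obtain ⟨⟨C, hC, hCc⟩, hub⟩ := isGreatest_alt h3
    exact le_antisymm (hub ⟨D, hD, rfl⟩) (hCc ▸ hDmax C hC)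
  rcases Nat.lt_or_ge n 3 with hn | hn
  · have hsub : Subsingleton (alternatingGroup (Fin n)) := by
      refine Finite.card_le_one_iff_subsingleton.1 ?_
      interval_cases n
      · exact Finite.card_le_one_iff_subsingleton.2 inferInstance
      · exact Finite.card_le_one_iff_subsingleton.2 inferInstance
      · rw [nat_card_alternatingGroup, Nat.card_fin]; rfl
    refine ⟨1, ?_⟩
    rw [map_one, one_smul]
    ext g
    rw [Subsingleton.elim g 1]
    simp [one_mem]
  have hAc := hmax A hA hAmax hn
  have hBc := hmax B hB hBmax hn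
  by_cases h5 : n = 5
  · subst h5
    haveI : Fact (Nat.Prime 5) := ⟨Nat.prime_five⟩
    have hcard : (Nat.card (alternatingGroup (Fin 5))).factorization 5 = 1 := by
      rw [nat_card_alternatingGroup, Nat.card_fin, show Nat.factorial 5 / 2 = 5 * 12 from rfl,
        Nat.factorization_mul (by norm_num) (by norm_num), Finsupp.add_apply,
        Nat.Prime.factorization_self Nat.prime_five, Nat.factorization_eq_zero_of_not_dvd (by norm_num)]
    let SA : Sylow 5 (alternatingGroup (Fin 5)) := Sylow.ofCard A (by rw [hcard, hAc]; rfl)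
    let SB : Sylow 5 (alternatingGroup (Fin 5)) := Sylow.ofCard B (by rw [hcard, hBc]; rfl)
    obtain ⟨g, hg⟩ := MulAction.exists_smul_eq (alternatingGroup (Fin 5)) SA SB
    refine ⟨g, ?_⟩
    have := congrArg (fun S : Sylow 5 (alternatingGroup (Fin 5)) => (S : Subgroup (alternatingGroup (Fin 5)))) hg
    exact this.symm
  have hgood : Good n := by unfold Good; omega
  obtain ⟨hA1, hA2, hA3⟩ := comm_map_alt A hA
  obtain ⟨hB1, hB2, hB3⟩ := comm_map_alt B hB
  obtain ⟨e, he⟩ := exists_equiv n (Fin n) (Fin n) _ _ (Nat.card_fin n) (Nat.card_fin n) hgood hA1 hA2 hB1 hB2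
    (hA3.trans hAc) (hB3.trans hBc)
  obtain ⟨σ, hσ, hσ'⟩ : ∃ σ : Perm (Fin n), Perm.sign σ = 1 ∧ ∀ g : Perm (Fin n),
      g ∈ A.map (alternatingGroup (Fin n)).subtype ↔ σ.permCongr g ∈ B.map (alternatingGroup (Fin n)).subtype := by
    rcases Int.units_eq_one_or (Perm.sign e) with h | h
    · exact ⟨e, h, he⟩
    · obtain ⟨τ, hτ, hτ'⟩ := exists_odd_normalizing (α := Fin n) (by rwa [Nat.card_fin]) (by rwa [Nat.card_fin])
        hB1 hB2 (by rw [Nat.card_fin]; exact hB3.trans hBc)
      refine ⟨Equiv.trans e τ, ?_, fun g => (he g).trans ((hτ' _).trans ?_)⟩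
      · rw [Perm.sign_trans, hτ, h]; rfl
      · rw [show (Equiv.trans e τ).permCongr g = τ.permCongr ((e : Perm (Fin n)).permCongr g) from
          Perm.ext fun z => by simp [Equiv.permCongr_apply]]
  have hmem : ∀ (D : Subgroup (alternatingGroup (Fin n))) (z : alternatingGroup (Fin n)),
      (z : Perm (Fin n)) ∈ D.map (alternatingGroup (Fin n)).subtype ↔ z ∈ D := fun D z =>
    Subgroup.mem_map_iff_mem (alternatingGroup (Fin n)).subtype_injective
  refine ⟨⟨σ, hσ⟩, ?_⟩
  ext z
  rw [Subgroup.mem_pointwise_smul_iff_inv_smul_mem, ← hmem B, ← hmem A, hσ']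
  have : σ.permCongr (((MulAut.conj (⟨σ, hσ⟩ : alternatingGroup (Fin n)))⁻¹ • z : alternatingGroup (Fin n)) : Perm (Fin n)) = z := by
    refine Perm.ext fun y => ?_
    simp [Equiv.permCongr_apply, MulAut.smul_def, MulAut.inv_apply]
  rw [this]

end Cfsg.Agent.S2506
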