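import Cfsg.Statements.S2508
import Cfsg.Agent.Lib.CharDegrees.PSLTwoClasses

set_option autoImplicit false
open Cfsg Matrix
open scoped MatrixGroups

namespace Cfsg.Agent.S2508

open CfsgLib.SL2 CfsgLib.CharDegrees
open CfsgLib.ClassicalLinear (upS upS_coe upS_add upS_injective)

theorem zero_trace_torus {F : Type*} [Field F] [Fintype F] (g : SL(2, F)) (h0 : tr g = 0) (h2 : (2 : F) ≠ 0) :
    (Fintype.card F % 4 = 1 → Nat.card (Subgroup.centralizer ({g} : Set (SL(2, F)))) = Fintype.card F - 1) ∧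
    (Fintype.card F % 4 = 3 → Nat.card (Subgroup.centralizer ({g} : Set (SL(2, F)))) = Fintype.card F + 1) := by
  have ht : tr g ^ 2 ≠ 4 := by
    rw [h0, zero_pow two_ne_zero]
    exact fun h => mul_self_ne_zero.2 h2 (by linear_combination -h)
  rw [card_centralizer ht, Nat.card_eq_fintype_card]
  have hiff : (∃ l : F, l * l = tr g * l - 1) ↔ IsSquare (-1 : F) := by
    rw [h0]
    exact ⟨fun ⟨l, hl⟩ => ⟨l, by linear_combination -hl⟩, fun ⟨l, hl⟩ => ⟨l, by linear_combination -hl⟩⟩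
  refine ⟨fun h => if_pos (hiff.2 (FiniteField.isSquare_neg_one_iff.2 (by omega))), fun h => if_neg fun h' => ?_⟩
  have := FiniteField.isSquare_neg_one_iff.1 (hiff.1 h')
  omega

/-- Let F be a finite field with q elements, q odd and q ≥ 7. If q ≡ 1 (mod 4) the conjugacy class sizes of PSL(2,F) are exactly 1, (q² − 1)/2, q(q + 1)/2, q(q − 1) and q(q + 1); if q ≡ 3 (mod 4) they are exactly 1, (q² − 1)/2, q(q − 1)/2, q(q + 1) and q(q − 1). -/
theorem result {F : Type*} [Field F] [Fintype F]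
    (hodd : ¬ 2 ∣ Fintype.card F) (h7 : 7 ≤ Fintype.card F) :
    (Fintype.card F % 4 = 1 →
      Set.range (fun g : (Matrix.ProjectiveSpecialLinearGroup (Fin 2) F) => (Subgroup.centralizer ({g} : Set (Matrix.ProjectiveSpecialLinearGroup (Fin 2) F))).index) =
        {1, (Fintype.card F ^ 2 - 1) / 2, Fintype.card F * (Fintype.card F + 1) / 2,
          Fintype.card F * (Fintype.card F - 1), Fintype.card F * (Fintype.card F + 1)}) ∧
    (Fintype.card F % 4 = 3 →
      Set.range (fun g : (Matrix.ProjectiveSpecialLinearGroup (Fin 2) F) => (Subgroup.centralizer ({g} : Set (Matrix.ProjectiveSpecialLinearGroup (Fin 2) F))).index) =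
        {1, (Fintype.card F ^ 2 - 1) / 2, Fintype.card F * (Fintype.card F - 1) / 2,
          Fintype.card F * (Fintype.card F + 1), Fintype.card F * (Fintype.card F - 1)}) := by
  have h2 : (2 : F) ≠ 0 := fun h => hodd (char_two_facts h).2.2
  have h4 : 4 ≤ Fintype.card F := by omega
  obtain ⟨hc, -, -⟩ := odd_facts h2
  have hq : Nat.card F = Fintype.card F := Nat.card_eq_fintype_card
  set q := Fintype.card F with hqdef
  let i : Matrix.ProjectiveSpecialLinearGroup (Fin 2) F → ℕ := fun g =>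
    (Subgroup.centralizer ({g} : Set (Matrix.ProjectiveSpecialLinearGroup (Fin 2) F))).index
  have hmid : ∀ j, j * (2 * q) = q * (q - 1) * (q + 1) → j = (q ^ 2 - 1) / 2 := by
    intro j hj
    refine (Nat.div_eq_of_eq_mul_left two_pos ?_).symm
    rw [show q ^ 2 - 1 = (q + 1) * (q - 1) by rw [← Nat.sq_sub_sq, one_pow]]
    apply Nat.eq_of_mul_eq_mul_right (show 0 < q by omega)
    linarith [hj]
  have w1 : ∃ x, i x = 1 := by
    refine ⟨1, ?_⟩
    show Subgroup.index _ = 1
    rw [Subgroup.index_eq_one, eq_top_iff]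
    intro x _
    rw [Subgroup.mem_centralizer_singleton_iff, mul_one, one_mul]
  have w2 : ∃ x, i x = (q ^ 2 - 1) / 2 := by
    refine ⟨proj₂ (upS 1), ?_⟩
    rcases class_size_cases (upS (1 : F)) with ⟨-, h⟩ | ⟨h, -, -⟩ | ⟨h, -⟩ | ⟨h, -⟩
    · exact absurd ((upS_mem_center_iff (1 : F)).1 ((mem_center_iff _).2 ((proj₂_eq_one_iff _).1 h))) one_ne_zero
    · rw [hc] at h; exact hmid _ h
    · exact absurd (by rw [tr_upS]; ring) h
    · rw [tr_upS] at h; exact absurd h h2
  have wt : ∀ e, (e = Nat.card F - 1 ∨ e = Nat.card F + 1) → ∃ g : SL(2, F), tr g ^ 2 ≠ 4 ∧ tr g ≠ 0 ∧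
      Nat.card (Subgroup.centralizer ({g} : Set (SL(2, F)))) = e := by
    intro e he
    obtain ⟨g, ht, ho, hcard, -⟩ := exists_orderOf_proj₂ h4 he
    refine ⟨g, ht, fun h0 => ?_, hcard⟩
    have h1 : g * g = -1 := Subtype.ext (by simp [mul_self_eq, h0])
    have h' : orderOf g ∣ 4 := by
      rw [orderOf_dvd_iff_pow_eq_one, show 4 = 2 * 2 by norm_num, pow_mul, sq g, h1]
      simp
    have := Nat.le_of_dvd (by norm_num) h'
    omega
  have w4 : ∃ x, i x = q * (q + 1) := by
    obtain ⟨g, ht, h0, hcard⟩ := wt _ (Or.inl rfl)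
    refine ⟨proj₂ g, ?_⟩
    rcases class_size_cases g with ⟨-, h⟩ | ⟨-, h, -⟩ | ⟨-, -, ⟨-, h⟩ | ⟨h', -⟩⟩ | ⟨h, -⟩
    · exact absurd (tr_sq_eq_four_of_mem_center ((mem_center_iff g).2 ((proj₂_eq_one_iff g).1 h))) ht
    · exact absurd h ht
    · exact h
    · rw [hcard, hq] at h'; omega
    · exact absurd h h0
  have w5 : ∃ x, i x = q * (q - 1) := by
    obtain ⟨g, ht, h0, hcard⟩ := wt _ (Or.inr rfl)
    refine ⟨proj₂ g, ?_⟩
    rcases class_size_cases g with ⟨-, h⟩ | ⟨-, h, -⟩ | ⟨-, -, ⟨h', -⟩ | ⟨-, h⟩⟩ | ⟨h, -⟩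
    · exact absurd (tr_sq_eq_four_of_mem_center ((mem_center_iff g).2 ((proj₂_eq_one_iff g).1 h))) ht
    · exact absurd h ht
    · rw [hcard, hq] at h'; omega
    · exact h
    · exact absurd h h0
  constructor <;> intro hmod <;> ext m <;>
    simp only [Set.mem_range, Set.mem_insert_iff, Set.mem_singleton_iff]
  · constructor
    · rintro ⟨x, rfl⟩
      obtain ⟨g, rfl⟩ := QuotientGroup.mk'_surjective _ x
      rcases class_size_cases g with ⟨h, -⟩ | ⟨h, -, -⟩ | ⟨-, -, ⟨-, h⟩ | ⟨-, h⟩⟩ | ⟨h0, -, ⟨-, h⟩ | ⟨h', -⟩⟩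
      · exact Or.inl h
      · rw [hc] at h; exact Or.inr (Or.inl (hmid _ h))
      · exact Or.inr (Or.inr (Or.inr (Or.inr h)))
      · exact Or.inr (Or.inr (Or.inr (Or.inl h)))
      · exact Or.inr (Or.inr (Or.inl h))
      · have h1 := (zero_trace_torus g h0 h2).1 hmod
        rw [h'] at h1; omega
    · rintro (rfl | rfl | rfl | rfl | rfl)
      · exact w1
      · exact w2
      · refine ⟨proj₂ (companion 0), ?_⟩
        have h0 : tr (companion (0 : F)) = 0 := tr_companion 0
        have h1 := (zero_trace_torus _ h0 h2).1 hmod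
        rcases class_size_cases (companion (0 : F)) with ⟨-, h⟩ | ⟨-, h, -⟩ | ⟨-, ⟨h, -⟩ | h, -⟩ | ⟨-, -, ⟨-, h⟩ | ⟨h', -⟩⟩
        · have := tr_sq_eq_four_of_mem_center ((mem_center_iff _).2 ((proj₂_eq_one_iff _).1 h))
          rw [h0] at this
          exact absurd (by linear_combination -this : (2 : F) * 2 = 0) (mul_self_ne_zero.2 h2)
        · rw [h0] at h
          exact absurd (by linear_combination -h : (2 : F) * 2 = 0) (mul_self_ne_zero.2 h2)
        · exact absurd h0 h
        · exact absurd h h2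
        · exact h
        · rw [h1] at h'; omega
      · exact w5
      · exact w4
  · constructor
    · rintro ⟨x, rfl⟩
      obtain ⟨g, rfl⟩ := QuotientGroup.mk'_surjective _ x
      rcases class_size_cases g with ⟨h, -⟩ | ⟨h, -, -⟩ | ⟨-, -, ⟨-, h⟩ | ⟨-, h⟩⟩ | ⟨h0, -, ⟨h', -⟩ | ⟨-, h⟩⟩
      · exact Or.inl h
      · rw [hc] at h; exact Or.inr (Or.inl (hmid _ h))
      · exact Or.inr (Or.inr (Or.inr (Or.inl h)))
      · exact Or.inr (Or.inr (Or.inr (Or.inr h)))
      · have h1 := (zero_trace_torus g h0 h2).2 hmod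
        rw [h'] at h1; omega
      · exact Or.inr (Or.inr (Or.inl h))
    · rintro (rfl | rfl | rfl | rfl | rfl)
      · exact w1
      · exact w2
      · refine ⟨proj₂ (companion 0), ?_⟩
        have h0 : tr (companion (0 : F)) = 0 := tr_companion 0
        have h1 := (zero_trace_torus _ h0 h2).2 hmod
        rcases class_size_cases (companion (0 : F)) with ⟨-, h⟩ | ⟨-, h, -⟩ | ⟨-, ⟨h, -⟩ | h, -⟩ | ⟨-, -, ⟨h', -⟩ | ⟨-, h⟩⟩
        · have := tr_sq_eq_four_of_mem_center ((mem_center_iff _).2 ((proj₂_eq_one_iff _).1 h))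
          rw [h0] at this
          exact absurd (by linear_combination -this : (2 : F) * 2 = 0) (mul_self_ne_zero.2 h2)
        · rw [h0] at h
          exact absurd (by linear_combination -h : (2 : F) * 2 = 0) (mul_self_ne_zero.2 h2)
        · exact absurd h0 h
        · exact absurd h h2
        · rw [h1] at h'; omega
        · exact h
      · exact w4
      · exact w5

end Cfsg.Agent.S2508
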