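import Cfsg.Statements.S2510
import Cfsg.Agent.Lib.CharDegrees.PSLOrders

set_option autoImplicit false
set_option linter.style.haveILetI false
open Cfsg

namespace Cfsg.Agent.S2510

open CfsgLib.CharDegrees

theorem range_eq {G H : Type*} [Group G] [Finite G] [Group H] [Finite H]
    (h₁ : ∀ x : G, ∃ y : H, orderOf x ∣ orderOf y) (h₂ : ∀ x : H, ∃ y : G, orderOf x ∣ orderOf y) :
    Set.range (orderOf : G → ℕ) = Set.range (orderOf : H → ℕ) := by
  apply Set.Subset.antisymm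
  · rintro _ ⟨x, rfl⟩
    obtain ⟨y, hy⟩ := h₁ x
    exact ⟨_, orderOf_pow_orderOf_div (orderOf_pos y).ne' hy⟩
  · rintro _ ⟨x, rfl⟩
    obtain ⟨y, hy⟩ := h₂ x
    exact ⟨_, orderOf_pow_orderOf_div (orderOf_pos y).ne' hy⟩

/-- Let F be a finite field with q = p^a elements, n ≥ 2 (with q ≥ 4 when n = 2), L = PSL(n, F), and let r be a prime dividing q − 1 and not dividing n. Then for every m the direct product L × L × L × (ℤ/r)^m has the same set of element orders as L × L × L; and if n − 1 ≠ p^j for every j ≥ 0 (so never when n = 2, since 1 = p^0), then already L × L × (ℤ/r)^m has the same set of element orders as L × L. -/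
theorem result {F : Type*} [Field F] [Fintype F] (p a n r m : ℕ) (hp : p.Prime) (ha : 1 ≤ a) (hF : Fintype.card F = p ^ a)
    (hn : 2 ≤ n) (hn2 : n = 2 → 4 ≤ Fintype.card F) (hr : r.Prime) (hrq : r ∣ Fintype.card F - 1) (hrn : ¬ r ∣ n) :
    Set.range (orderOf : Matrix.ProjectiveSpecialLinearGroup (Fin n) F × Matrix.ProjectiveSpecialLinearGroup (Fin n) F × Matrix.ProjectiveSpecialLinearGroup (Fin n) F × Multiplicative (Fin m → ZMod r) → ℕ) =
      Set.range (orderOf : Matrix.ProjectiveSpecialLinearGroup (Fin n) F × Matrix.ProjectiveSpecialLinearGroup (Fin n) F × Matrix.ProjectiveSpecialLinearGroup (Fin n) F → ℕ) ∧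
    ((¬ ∃ j : ℕ, n - 1 = p ^ j) →
      Set.range (orderOf : Matrix.ProjectiveSpecialLinearGroup (Fin n) F × Matrix.ProjectiveSpecialLinearGroup (Fin n) F × Multiplicative (Fin m → ZMod r) → ℕ) =
        Set.range (orderOf : Matrix.ProjectiveSpecialLinearGroup (Fin n) F × Matrix.ProjectiveSpecialLinearGroup (Fin n) F → ℕ)) := by
  classical
  haveI := Fact.mk hp
  haveI := Fact.mk hr
  obtain ⟨p', hchar⟩ := CharP.exists F
  obtain rfl : p' = p := by
    have h1 := CharP.char_is_prime F p'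
    have h2 : ((p ^ a : ℕ) : F) = 0 := by rw [← hF, Nat.cast_card_eq_zero]
    rw [CharP.cast_eq_zero_iff F p'] at h2
    exact (Nat.prime_dvd_prime_iff_eq h1 hp).mp (h1.dvd_of_dvd_pow h2)
  haveI : Nonempty (Fin n) := ⟨⟨0, by omega⟩⟩
  haveI : Finite (Matrix.ProjectiveSpecialLinearGroup (Fin n) F) :=
    inferInstanceAs (Finite (Matrix.SpecialLinearGroup (Fin n) F ⧸ _))
  haveI : NeZero r := ⟨hr.ne_zero⟩
  haveI : Finite (Multiplicative (Fin m → ZMod r)) := inferInstanceAs (Finite (Fin m → ZMod r))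
  have hrp : r ≠ p' := by
    rintro rfl
    have h1 : r ∣ Fintype.card F := hF ▸ dvd_pow_self r (by omega)
    have h2 : 1 ≤ Fintype.card F := Fintype.card_pos
    have := Nat.dvd_sub h1 hrq
    rw [Nat.sub_sub_self h2] at this
    exact hr.not_dvd_one this
  set t := Nat.clog p' n with ht
  have ht0 : 0 < t := Nat.clog_pos hp.one_lt (by omega)
  have hts : p' ^ (t - 1) < n := by simpa [ht] using Nat.pow_pred_clog_lt_self hp.one_lt (show 1 < n by omega)
  set E := (∑ i ∈ Finset.range n, Fintype.card F ^ i) / Nat.gcd n (Fintype.card F - 1) with hE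
  have hcop : Nat.Coprime E (p' ^ t) := by
    refine Nat.Coprime.pow_right _ (Nat.Coprime.symm ((hp.coprime_iff_not_dvd).mpr fun h => ?_))
    have hG : Nat.gcd n (Fintype.card F - 1) ∣ ∑ i ∈ Finset.range n, Fintype.card F ^ i := by
      have := Nat.gcd_dvd_left (∑ i ∈ Finset.range n, Fintype.card F ^ i) (Fintype.card F - 1)
      rwa [gcd_geom_sum_sub_one _ n Fintype.card_pos] at this
    have h1 : p' ∣ ∑ i ∈ Finset.range n, Fintype.card F ^ i := h.trans (Nat.div_dvd_of_dvd hG)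
    rw [← ZMod.natCast_eq_zero_iff] at h1
    have hq0 : ((Fintype.card F : ℕ) : ZMod p') = 0 := by
      rw [ZMod.natCast_eq_zero_iff, hF]; exact dvd_pow_self p' (by omega)
    obtain ⟨l, hl⟩ : ∃ l, n = l + 1 := ⟨n - 1, by omega⟩
    rw [hl, Nat.cast_sum, Finset.sum_range_succ'] at h1
    simp only [pow_succ, Nat.cast_mul, hq0, mul_zero, Finset.sum_const_zero, pow_zero,
      zero_add, Nat.cast_one] at h1
    exact one_ne_zero h1
  obtain ⟨S, hS⟩ := exists_psl_orderOf_singer (F := F) (n := n) (by omega)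
  obtain ⟨U, hU, -⟩ := exists_psl_unipotent (F := F) p' (m := n) (t := t - 1) hts le_rfl
  rw [show t - 1 + 1 = t by omega] at hU
  let i0 : Fin n := ⟨0, by omega⟩
  let i1 : Fin n := ⟨1, by omega⟩
  obtain ⟨C, hC⟩ := exists_psl_orderOf_mul (F := F) hr hrq hrn (1 : Matrix.SpecialLinearGroup (Fin n) F)
    (e := Matrix.single i0 i0 1) (by simp)
    (fun h => by simpa using congrFun (congrFun h i0) i0)
    (fun h => by simpa [Matrix.single, i0, i1] using congrFun (congrFun h i1) i1)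
    (by rw [Matrix.SpecialLinearGroup.coe_one]; exact Commute.one_left _)
    (by rw [map_one, orderOf_one]; exact hr.not_dvd_one)
  rw [map_one, orderOf_one, one_mul] at hC
  have dich : ∀ x : Matrix.ProjectiveSpecialLinearGroup (Fin n) F,
      (∃ y : Matrix.ProjectiveSpecialLinearGroup (Fin n) F, orderOf x ∣ orderOf y ∧ r ∣ orderOf y) ∨
        orderOf x ∣ E * p' ^ t := by
    intro x
    obtain ⟨A, rfl⟩ := QuotientGroup.mk'_surjective _ x
    by_cases hro : r ∣ orderOf (toPSL A)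
    · exact Or.inl ⟨_, dvd_rfl, hro⟩
    rcases idem_or_one_factor (A : Matrix (Fin n) (Fin n) F) with
      ⟨e, he, he0, he1, hAe⟩ | ⟨g, hg, hgm, N, hN⟩
    · obtain ⟨B, hB⟩ := exists_psl_orderOf_mul hr hrq hrn A he he0 he1 hAe hro
      exact Or.inl ⟨toPSL B, by rw [hB]; exact dvd_mul_right _ _, by rw [hB]; exact dvd_mul_left _ _⟩
    · exact Or.inr (orderOf_dvd_of_one_factor p' A (by omega)
        (Nat.le_pow_clog hp.one_lt n) hg hgm hN)
  have hc : ∀ c : Multiplicative (Fin m → ZMod r), orderOf c ∣ r := by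
    intro c
    rw [orderOf_dvd_iff_pow_eq_one]
    apply Multiplicative.toAdd.injective
    rw [toAdd_pow, toAdd_one]
    funext i
    simp
  constructor
  · refine range_eq ?_ (fun x => ⟨(x.1, x.2.1, x.2.2, 1), by simp [Prod.orderOf]⟩)
    rintro ⟨x1, x2, x3, c⟩
    have key : ∀ z1 z2 z3 : Matrix.ProjectiveSpecialLinearGroup (Fin n) F,
        orderOf x1 ∣ orderOf (z1, z2, z3) → orderOf x2 ∣ orderOf (z1, z2, z3) →
        orderOf x3 ∣ orderOf (z1, z2, z3) → r ∣ orderOf (z1, z2, z3) →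
        orderOf (x1, x2, x3, c) ∣ orderOf (z1, z2, z3) := by
      intro z1 z2 z3 h1 h2 h3 h4
      rw [Prod.orderOf (x1, x2, x3, c), Prod.orderOf (x2, x3, c), Prod.orderOf (x3, c)]
      exact Nat.lcm_dvd h1 (Nat.lcm_dvd h2 (Nat.lcm_dvd h3 ((hc c).trans h4)))
    have hproj : ∀ z1 z2 z3 : Matrix.ProjectiveSpecialLinearGroup (Fin n) F,
        orderOf z1 ∣ orderOf (z1, z2, z3) ∧ orderOf z2 ∣ orderOf (z1, z2, z3) ∧
          orderOf z3 ∣ orderOf (z1, z2, z3) := by
      intro z1 z2 z3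
      rw [Prod.orderOf (z1, z2, z3), Prod.orderOf (z2, z3)]
      exact ⟨Nat.dvd_lcm_left _ _, (Nat.dvd_lcm_left _ _).trans (Nat.dvd_lcm_right _ _),
        (Nat.dvd_lcm_right _ _).trans (Nat.dvd_lcm_right _ _)⟩
    rcases dich x1 with ⟨y, hy, hyr⟩ | d1
    · obtain ⟨a1, a2, a3⟩ := hproj y x2 x3
      exact ⟨_, key y x2 x3 (hy.trans a1) a2 a3 (hyr.trans a1)⟩
    rcases dich x2 with ⟨y, hy, hyr⟩ | d2
    · obtain ⟨a1, a2, a3⟩ := hproj x1 y x3
      exact ⟨_, key x1 y x3 a1 (hy.trans a2) a3 (hyr.trans a2)⟩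
    rcases dich x3 with ⟨y, hy, hyr⟩ | d3
    · obtain ⟨a1, a2, a3⟩ := hproj x1 x2 y
      exact ⟨_, key x1 x2 y a1 a2 (hy.trans a3) (hyr.trans a3)⟩
    obtain ⟨a1, a2, a3⟩ := hproj (toPSL S) (toPSL U) (toPSL C)
    have hEp := hcop.mul_dvd_of_dvd_of_dvd (hS.trans a1) (hU ▸ a2)
    exact ⟨_, key _ _ _ (d1.trans hEp) (d2.trans hEp) (d3.trans hEp) (hC ▸ a3)⟩
  · intro hnj
    refine range_eq ?_ (fun x => ⟨(x.1, x.2, 1), by simp [Prod.orderOf]⟩)
    rintro ⟨x1, x2, c⟩
    have key : ∀ z1 z2 : Matrix.ProjectiveSpecialLinearGroup (Fin n) F,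
        orderOf x1 ∣ orderOf (z1, z2) → orderOf x2 ∣ orderOf (z1, z2) → r ∣ orderOf (z1, z2) →
        orderOf (x1, x2, c) ∣ orderOf (z1, z2) := by
      intro z1 z2 h1 h2 h4
      rw [Prod.orderOf (x1, x2, c), Prod.orderOf (x2, c)]
      exact Nat.lcm_dvd h1 (Nat.lcm_dvd h2 ((hc c).trans h4))
    have hproj : ∀ z1 z2 : Matrix.ProjectiveSpecialLinearGroup (Fin n) F,
        orderOf z1 ∣ orderOf (z1, z2) ∧ orderOf z2 ∣ orderOf (z1, z2) := by
      intro z1 z2
      rw [Prod.orderOf (z1, z2)]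
      exact ⟨Nat.dvd_lcm_left _ _, Nat.dvd_lcm_right _ _⟩
    rcases dich x1 with ⟨y, hy, hyr⟩ | d1
    · obtain ⟨a1, a2⟩ := hproj y x2
      exact ⟨_, key y x2 (hy.trans a1) a2 (hyr.trans a1)⟩
    rcases dich x2 with ⟨y, hy, hyr⟩ | d2
    · obtain ⟨a1, a2⟩ := hproj x1 y
      exact ⟨_, key x1 y a1 (hy.trans a2) (hyr.trans a2)⟩
    have hlt : p' ^ (t - 1) < n - 1 := by
      have h1 : n - 1 ≠ p' ^ (t - 1) := fun h => hnj ⟨_, h⟩
      omega
    obtain ⟨V, hV, hVe⟩ := exists_psl_unipotent (F := F) p' (m := n - 1) (t := t - 1) hlt (Nat.sub_le n 1)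
    obtain ⟨e, he, he0, he1, hVe'⟩ := hVe (by omega)
    rw [show t - 1 + 1 = t by omega] at hV
    obtain ⟨W, hW⟩ := exists_psl_orderOf_mul hr hrq hrn V he he0 he1 hVe' (by
      rw [hV]
      exact fun h => hrp ((Nat.prime_dvd_prime_iff_eq hr hp).mp (hr.dvd_of_dvd_pow h)))
    obtain ⟨a1, a2⟩ := hproj (toPSL S) (toPSL W)
    have hEp := hcop.mul_dvd_of_dvd_of_dvd (hS.trans a1) ((dvd_mul_right _ r).trans ((hV ▸ hW) ▸ a2))
    exact ⟨_, key _ _ (d1.trans hEp) (d2.trans hEp) ((dvd_mul_left r _).trans (hW ▸ a2))⟩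

end Cfsg.Agent.S2510
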