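import Cfsg.Statements.S2512
import Cfsg.Agent.Lib.CharDegrees.SpOrders
import Cfsg.Agent.Lib.CharDegrees.SpElements

set_option autoImplicit false
set_option linter.style.haveILetI false
open Cfsg

namespace Cfsg.Agent.S2512

open CfsgLib.CharDegrees

theorem range_eq {G H : Type*} [Group G] [Finite G] [Group H] [Finite H]
    (h₁ : ∀ x : G, ∃ y : H, orderOf x ∣ orderOf y) (h₂ : ∀ x : H, ∃ y : G, orderOf x ∣ orderOf y) :
    Set.range (orderOf : G → ℕ) = Set.range (orderOf : H → ℕ) := by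
  apply Set.Subset.antisymm
  · rintro _ ⟨x, rfl⟩
    obtain ⟨y, hy⟩ := h₁ x
    exact ⟨_, orderOf_pow_orderOf_div (orderOf_pos y).ne' hy⟩
  · rintro _ ⟨x, rfl⟩
    obtain ⟨y, hy⟩ := h₂ x
    exact ⟨_, orderOf_pow_orderOf_div (orderOf_pos y).ne' hy⟩

variable {F : Type*} [Field F]

abbrev mk {n : ℕ} : Matrix.symplecticGroup (Fin n) F →* Cfsg.PSp n F :=
  QuotientGroup.mk' (Subgroup.center (Matrix.symplecticGroup (Fin n) F))

/-- The element built from a torus block and a negated unipotent block. -/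
theorem exists_mixed [Fintype F] {n j m s M : ℕ} (p : ℕ) [Fact p.Prime] [CharP F p] (hp : p ≠ 2)
    (h2 : (2 : F) ≠ 0) (hn : n = j + m) (hj : 0 < j) (hs : p ^ s < 2 * m) {R : Type*} [CommRing R]
    [Algebra F R] [Module.Finite F R] (hR : Module.finrank F R = 2 * j) {σ : R ≃ₐ[F] R}
    {φ : R →ₗ[F] F} (hd : SkewData σ φ) {x : R} (hx : x * σ x = 1) (hM : Odd M) (hMo : orderOf x = M)
    [Nontrivial R] :
    ∃ A : Matrix.symplecticGroup (Fin n) F,
      2 ∣ orderOf (mk A) ∧ M ∣ orderOf (mk A) ∧ p ^ (s + 1) ∣ orderOf (mk A) := by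
  obtain ⟨τ, ψ, u, hd', hu, hord⟩ := exists_unipotent_data (F := F) p hp hs
  haveI : Module.Finite F (AdjoinRoot ((Polynomial.X - 1 : Polynomial F) ^ (2 * m))) :=
    (AdjoinRoot.powerBasis (pow_ne_zero _ (by
      simpa using Polynomial.X_sub_C_ne_zero (1 : F)))).finite
  have hfu : Module.finrank F (AdjoinRoot ((Polynomial.X - 1 : Polynomial F) ^ (2 * m))) = 2 * m := by
    rw [(AdjoinRoot.powerBasis (pow_ne_zero _ (by
      simpa using Polynomial.X_sub_C_ne_zero (1 : F)))).finrank, AdjoinRoot.powerBasis_dim,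
      Polynomial.natDegree_pow, show (Polynomial.X : Polynomial F) - 1 = Polynomial.X - Polynomial.C 1 by simp,
      Polynomial.natDegree_X_sub_C, mul_one]
  obtain ⟨A, hA⟩ := exists_sp_pow_scalar (n := n) h2 (by omega)
    (R := R × AdjoinRoot ((Polynomial.X - 1 : Polynomial F) ^ (2 * m)))
    (by rw [Module.finrank_prod, hR, hfu, hn]; ring) (hd.prod hd') (x := (x, -u))
    (by
      show (x * σ x, -u * τ (-u)) = (1, 1)
      rw [map_neg, neg_mul_neg, hx, hu])
  obtain ⟨c, -, hc⟩ := hA (orderOf (mk A)) dvd_rfl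
  set k := orderOf (mk A)
  have h1 : x ^ k = algebraMap F R c := congrArg Prod.fst hc
  have h2' : (-u) ^ k = algebraMap F _ c := congrArg Prod.snd hc
  have h3 : u ^ k = algebraMap F _ ((-1) ^ k * c) := by
    rw [map_mul, ← h2', map_pow, map_neg, map_one, ← mul_pow, neg_one_mul, neg_neg]
  obtain ⟨hc1, hps⟩ := hord k _ h3
  have hc' : c = (-1) ^ k := by
    rcases neg_one_pow_eq_or F k with h | h <;> rw [h] at hc1 ⊢ <;> linear_combination (norm := ring_nf) hc1
    linear_combination -2 * hc1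
  have heven : Even k := by
    rcases Nat.even_or_odd k with h | h
    · exact h
    exfalso
    rw [hc', h.neg_one_pow, map_neg, map_one] at h1
    have h4 : (x ^ k) ^ M = 1 := by rw [← pow_mul, mul_comm, pow_mul, ← hMo, pow_orderOf_eq_one, one_pow]
    rw [h1, hM.neg_one_pow] at h4
    have h5 : algebraMap F R 2 = algebraMap F R 0 := by
      rw [map_ofNat, map_zero]
      linear_combination (-1 : R) * h4
    exact h2 ((algebraMap F R).injective h5)
  refine ⟨A, heven.two_dvd, ?_, hps⟩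
  rw [hc', heven.neg_one_pow, map_one, ← orderOf_dvd_iff_pow_eq_one] at h1
  rwa [hMo] at h1

theorem exists_half {n N : ℕ} (h2 : (2 : F) ≠ 0) (hn : 0 < n) {R : Type*} [CommRing R]
    [Algebra F R] [Module.Finite F R] (hR : Module.finrank F R = 2 * n) {σ : R ≃ₐ[F] R}
    {φ : R →ₗ[F] F} (hd : SkewData σ φ) {x : R} (hx : x * σ x = 1) (hN : Even N)
    (hNo : orderOf x = N) :
    ∃ A : Matrix.symplecticGroup (Fin n) F, N / 2 ∣ orderOf (mk A) := by
  obtain ⟨A, hA⟩ := exists_sp_pow_scalar h2 hn hR hd hx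
  refine ⟨A, ?_⟩
  obtain ⟨c, hc, hxk⟩ := hA (orderOf (mk A)) dvd_rfl
  have h1 : x ^ (orderOf (mk A) * 2) = 1 := by
    rw [pow_mul, hxk, ← map_pow, sq, hc, map_one]
  rw [← orderOf_dvd_iff_pow_eq_one, hNo] at h1
  obtain ⟨b, rfl⟩ := hN
  rw [show (b + b) / 2 = b by omega]
  rw [← two_mul, mul_comm _ 2] at h1
  exact (Nat.mul_dvd_mul_iff_left (by norm_num)).mp h1

theorem exists_unip [Fintype F] {n s : ℕ} (p : ℕ) [Fact p.Prime] [CharP F p] (hp : p ≠ 2)
    (h2 : (2 : F) ≠ 0) (hs : p ^ s < 2 * n) :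
    ∃ A : Matrix.symplecticGroup (Fin n) F, p ^ (s + 1) ∣ orderOf (mk A) := by
  obtain ⟨τ, ψ, u, hd', hu, hord⟩ := exists_unipotent_data (F := F) p hp hs
  haveI : Module.Finite F (AdjoinRoot ((Polynomial.X - 1 : Polynomial F) ^ (2 * n))) :=
    (AdjoinRoot.powerBasis (pow_ne_zero _ (by
      simpa using Polynomial.X_sub_C_ne_zero (1 : F)))).finite
  obtain ⟨A, hA⟩ := exists_sp_pow_scalar (n := n) h2
    (Nat.pos_of_ne_zero fun h => by simp [h] at hs)
    (by
      rw [(AdjoinRoot.powerBasis (pow_ne_zero _ (by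
        simpa using Polynomial.X_sub_C_ne_zero (1 : F)))).finrank, AdjoinRoot.powerBasis_dim,
        Polynomial.natDegree_pow, show (Polynomial.X : Polynomial F) - 1 = Polynomial.X - Polynomial.C 1 by simp,
        Polynomial.natDegree_X_sub_C, mul_one]) hd' hu
  obtain ⟨c, -, hc⟩ := hA (orderOf (mk A)) dvd_rfl
  exact ⟨A, (hord _ _ hc).2⟩

/-- Let F be a finite field of odd order q = p^a, n ≥ 2 (with q ≥ 3 automatic), and L = PSp(2n, F). Then for every m the direct product L × L × L × (ℤ/2)^m has the same set of element orders as L × L × L; and if 2n − 1 is not a power of p, then already L × L × (ℤ/2)^m has the same set of element orders as L × L. -/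
theorem result {F : Type*} [Field F] [Fintype F] (p a n m : ℕ) (hp : p.Prime) (ha : 1 ≤ a) (hF : Fintype.card F = p ^ a) (hodd : Odd (Fintype.card F))
    (hn : 2 ≤ n) :
    Set.range (orderOf : Cfsg.PSp n F × Cfsg.PSp n F × Cfsg.PSp n F × Multiplicative (Fin m → ZMod 2) → ℕ) = Set.range (orderOf : Cfsg.PSp n F × Cfsg.PSp n F × Cfsg.PSp n F → ℕ) ∧
    ((¬ ∃ j : ℕ, 2 * n - 1 = p ^ j) →
      Set.range (orderOf : Cfsg.PSp n F × Cfsg.PSp n F × Multiplicative (Fin m → ZMod 2) → ℕ) = Set.range (orderOf : Cfsg.PSp n F × Cfsg.PSp n F → ℕ)) := by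
  classical
  haveI := Fact.mk hp
  obtain ⟨p', hchar⟩ := CharP.exists F
  obtain rfl : p' = p := by
    have h1 := CharP.char_is_prime F p'
    have h2 : ((p ^ a : ℕ) : F) = 0 := by rw [← hF, Nat.cast_card_eq_zero]
    rw [CharP.cast_eq_zero_iff F p'] at h2
    exact (Nat.prime_dvd_prime_iff_eq h1 hp).mp (h1.dvd_of_dvd_pow h2)
  have hpodd : Odd p' := by
    rw [hF] at hodd
    exact (Nat.odd_pow_iff (by omega)).mp hodd
  have hp2 : p' ≠ 2 := fun h => by rw [h] at hpodd; exact absurd hpodd (by decide)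
  have h2F : (2 : F) ≠ 0 := fun h => hp2 ((Nat.prime_dvd_prime_iff_eq hp Nat.prime_two).mp
    ((CharP.cast_eq_zero_iff F p' 2).mp (by exact_mod_cast h)))
  haveI : Finite (Matrix.symplecticGroup (Fin n) F) := Finite.of_injective _ Subtype.val_injective
  haveI : Finite (Cfsg.PSp n F) := inferInstanceAs (Finite (Matrix.symplecticGroup (Fin n) F ⧸ _))
  haveI : Finite (Multiplicative (Fin m → ZMod 2)) := inferInstanceAs (Finite (Fin m → ZMod 2))
  set q := Fintype.card F
  have hqodd : ∀ j : ℕ, Odd (q ^ j) := fun j => hodd.pow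
  set t := Nat.clog p' (2 * n) with ht
  have ht0 : 0 < t := Nat.clog_pos hp.one_lt (by omega)
  have hts : p' ^ (t - 1) < 2 * n := by
    simpa [ht] using Nat.pow_pred_clog_lt_self hp.one_lt (show 1 < 2 * n by omega)
  -- the elements
  obtain ⟨Tp, hTp⟩ : ∃ A : Matrix.symplecticGroup (Fin n) F, (q ^ n + 1) / 2 ∣ orderOf (mk A) := by
    haveI : NeZero (2 * n) := ⟨by omega⟩
    obtain ⟨σ, φ, x, hd, hx, ho⟩ := exists_torus_plus (F := F) p' (j := n) (by omega)
    exact exists_half h2F (by omega) (FiniteField.finrank_extension F p' (2 * n)) hd hx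
      ((hqodd n).add_one) ho
  obtain ⟨Tm, hTm⟩ : ∃ A : Matrix.symplecticGroup (Fin n) F, (q ^ n - 1) / 2 ∣ orderOf (mk A) := by
    haveI : NeZero n := ⟨by omega⟩
    obtain ⟨σ, φ, x, hd, hx, ho⟩ := exists_torus_minus (F := F) p' (j := n)
    refine exists_half h2F (by omega) ?_ hd hx ?_ ho
    · rw [Module.finrank_prod, FiniteField.finrank_extension, two_mul]
    · exact Nat.Odd.sub_odd (hqodd n) odd_one
  obtain ⟨U, hU⟩ := exists_unip (F := F) (n := n) (s := t - 1) p' hp2 h2F hts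
  rw [show t - 1 + 1 = t by omega] at hU
  have hY : ∀ j N s, 0 < j → j < n → (N = q ^ j - 1 ∨ N = q ^ j + 1) → p' ^ s < 2 * (n - j) →
      ∃ A : Matrix.symplecticGroup (Fin n) F, 2 ∣ orderOf (mk A) ∧
        ∀ o, Odd o → o ∣ N * p' ^ (s + 1) → o ∣ orderOf (mk A) := by
    intro j N s hj hjn hN hs
    have hNpos : N ≠ 0 := by
      have h1 : 2 ≤ q ^ j := le_trans (Fintype.one_lt_card (α := F)) (Nat.le_self_pow hj.ne' _)
      rcases hN with rfl | rfl <;> omega
    obtain ⟨v, M, hM, hNM⟩ : ∃ v M, Odd M ∧ N = 2 ^ v * M := by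
      obtain ⟨v, M, hM, h⟩ := Nat.exists_eq_two_pow_mul_odd hNpos
      exact ⟨v, M, hM, h⟩
    have main : ∃ A : Matrix.symplecticGroup (Fin n) F,
        2 ∣ orderOf (mk A) ∧ M ∣ orderOf (mk A) ∧ p' ^ (s + 1) ∣ orderOf (mk A) := by
      rcases hN with hN | hN
      · haveI : NeZero j := ⟨by omega⟩
        obtain ⟨σ, φ, x, hd, hx, ho⟩ := exists_torus_minus (F := F) p' (j := j)
        refine exists_mixed p' hp2 h2F (show n = j + (n - j) by omega) hj hs
          (by rw [Module.finrank_prod, FiniteField.finrank_extension, two_mul]) hd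
          (x := x ^ (2 ^ v)) (by rw [map_pow, ← mul_pow, hx, one_pow]) hM ?_
        rw [orderOf_pow' x (pow_ne_zero _ two_ne_zero), ho, ← hN, hNM, Nat.gcd_mul_right_left,
          Nat.mul_div_cancel_left _ (by positivity)]
      · haveI : NeZero (2 * j) := ⟨by omega⟩
        obtain ⟨σ, φ, x, hd, hx, ho⟩ := exists_torus_plus (F := F) p' (j := j) hj
        refine exists_mixed p' hp2 h2F (show n = j + (n - j) by omega) hj hs
          (FiniteField.finrank_extension F p' (2 * j)) hd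
          (x := x ^ (2 ^ v)) (by rw [map_pow, ← mul_pow, hx, one_pow]) hM ?_
        rw [orderOf_pow' x (pow_ne_zero _ two_ne_zero), ho, ← hN, hNM, Nat.gcd_mul_right_left,
          Nat.mul_div_cancel_left _ (by positivity)]
    obtain ⟨A, hA2, hAM, hAp⟩ := main
    refine ⟨A, hA2, fun o ho hdvd => ?_⟩
    have h1 : o ∣ M * p' ^ (s + 1) := by
      rw [hNM, mul_assoc] at hdvd
      exact (Nat.Coprime.pow_right v (Nat.coprime_two_right.mpr ho)).dvd_of_dvd_mul_left hdvd
    refine h1.trans (Nat.Coprime.mul_dvd_of_dvd_of_dvd ?_ hAM hAp)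
    refine Nat.Coprime.pow_right _ ((hp.coprime_iff_not_dvd).mpr fun h => ?_).symm
    have h3 : p' ∣ q ^ j := by
      rw [hF]; exact dvd_pow (dvd_pow_self p' (by omega)) hj.ne'
    have h4 : p' ∣ N := hNM ▸ h.mul_left _
    rcases hN with rfl | rfl
    · have := Nat.dvd_sub h3 h4
      rw [Nat.sub_sub_self (Nat.one_le_pow _ _ Fintype.card_pos)] at this
      exact hp.not_dvd_one this
    · exact hp.not_dvd_one ((Nat.dvd_add_right h3).mp h4)
  have dich : ∀ x : Cfsg.PSp n F,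
      (∃ y : Cfsg.PSp n F, orderOf x ∣ orderOf y ∧ 2 ∣ orderOf y) ∨
        (Odd (orderOf x) ∧ orderOf x ∣ p' ^ t) ∨
        (Odd (orderOf x) ∧ (orderOf x ∣ (q ^ n + 1) / 2 ∨ orderOf x ∣ (q ^ n - 1) / 2)) := by
    intro x
    rcases Nat.even_or_odd (orderOf x) with he | ho
    · exact Or.inl ⟨x, dvd_rfl, he.two_dvd⟩
    obtain ⟨A, rfl⟩ := QuotientGroup.mk'_surjective _ x
    rcases sp_idem_or_torus A p' (by omega) with
      ⟨e, he, he0, he1, hAe, hadj⟩ | hpure | ⟨j, a', N, hnja, ha', hN, hpow⟩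
    · refine Or.inl ?_
      set c : Matrix (Fin n ⊕ Fin n) (Fin n ⊕ Fin n) F := 1 - (2 : F) • e with hc
      have hcc : c * c = 1 := by
        rw [hc, sub_mul, mul_sub, one_mul, mul_sub, mul_one, one_mul, smul_mul_smul_comm, he]
        module
      have hadjc : spAdj c = c := by rw [hc, spAdj_sub, spAdj_one, spAdj_smul, hadj]
      have hmem : c ∈ Matrix.symplecticGroup (Fin n) F := by
        rw [SymplecticGroup.mem_iff']
        have h1 : spAdj c * c = 1 := by rw [hadjc, hcc]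
        have h2 := congrArg (Matrix.J (Fin n) F * ·) h1
        simp only [spAdj, ← mul_assoc, mul_one, mul_neg, Matrix.J_squared, neg_neg, one_mul,
          neg_mul] at h2
        exact h2
      let C : Matrix.symplecticGroup (Fin n) F := ⟨c, hmem⟩
      have hC : orderOf (mk C) = 2 := by
        refine orderOf_eq_prime ?_ ?_
        · rw [← map_pow, sq, show C * C = 1 from Subtype.ext hcc, map_one]
        · intro h
          rw [← MonoidHom.mem_ker, QuotientGroup.ker_mk'] at h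
          obtain ⟨μ, hμ⟩ := sp_center_scalar h
          have hμ' : c = μ • 1 := by rw [Matrix.smul_one_eq_diagonal]; exact hμ
          have h4 : e = ((1 - μ) / 2) • (1 : Matrix (Fin n ⊕ Fin n) (Fin n ⊕ Fin n) F) := by
            have h5 : (2 : F) • e = (1 - μ) • (1 : Matrix (Fin n ⊕ Fin n) (Fin n ⊕ Fin n) F) := by
              rw [sub_smul, ← hμ', hc, one_smul, sub_sub_cancel]
            rw [div_eq_inv_mul, ← smul_smul, ← h5, smul_smul, inv_mul_cancel₀ h2F, one_smul]
          have h6 := he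
          rw [h4, smul_mul_smul_comm, mul_one] at h6
          haveI : Nonempty (Fin n ⊕ Fin n) := ⟨Sum.inl ⟨0, by omega⟩⟩
          have h7 := smul_left_injective F (one_ne_zero (α := Matrix (Fin n ⊕ Fin n) (Fin n ⊕ Fin n) F)) h6
          rcases mul_left_eq_self₀.mp h7 with h8 | h8
          · exact he1 (by rw [h4, h8, one_smul])
          · exact he0 (by rw [h4, h8, zero_smul])
      have hcomm : Commute A C := Subtype.ext
        ((Commute.one_right _).sub_right (hAe.smul_right (2 : F))).eq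
      refine ⟨mk (A * C), ?_, ?_⟩ <;>
      rw [map_mul, (hcomm.map (mk (F := F))).orderOf_mul_eq_mul_orderOf_of_coprime
        (by rw [hC]; exact Nat.coprime_two_right.mpr ho), hC]
      · exact dvd_mul_right _ _
      · exact dvd_mul_left _ _
    · refine Or.inr (Or.inl ⟨ho, ?_⟩)
      have h1 : orderOf (mk A) ∣ 2 * p' ^ t := by
        rw [orderOf_dvd_iff_pow_eq_one, ← map_pow, hpure t (Nat.le_pow_clog hp.one_lt _), map_one]
      exact (Nat.coprime_two_right.mpr ho).dvd_of_dvd_mul_left h1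
    · have h0 : ∀ s, a' ≤ p' ^ s → orderOf (mk A) ∣ N * p' ^ s := fun s hs => by
        rw [orderOf_dvd_iff_pow_eq_one, ← map_pow, hpow s hs, map_one]
      rcases eq_or_lt_of_le ha' with rfl | ha2
      · rw [mul_one] at hnja
        subst hnja
        have h1 := h0 0 (by simp)
        rw [pow_zero, mul_one] at h1
        have hev : 2 ∣ N := by
          rcases hN with rfl | rfl
          · exact (Nat.Odd.sub_odd (hqodd n) odd_one).two_dvd
          · exact (hqodd n).add_one.two_dvd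
        rw [← Nat.mul_div_cancel' hev] at h1
        have h2 := (Nat.coprime_two_right.mpr ho).dvd_of_dvd_mul_left h1
        refine Or.inr (Or.inr ⟨ho, ?_⟩)
        rcases hN with rfl | rfl
        · exact Or.inr h2
        · exact Or.inl h2
      · have hj : 0 < j := Nat.pos_of_ne_zero fun h => by simp [h] at hnja; omega
        have hjn : 2 * j ≤ n := by rw [hnja, mul_comm 2]; exact Nat.mul_le_mul_left _ ha2
        have hs0 : 0 < Nat.clog p' a' := Nat.clog_pos hp.one_lt ha2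
        have hs1 : p' ^ (Nat.clog p' a' - 1) < 2 * (n - j) := by
          have := Nat.pow_pred_clog_lt_self hp.one_lt ha2
          have h3 : a' ≤ n := by rw [hnja]; exact Nat.le_mul_of_pos_left _ hj
          simp only [Nat.pred_eq_sub_one] at this
          omega
        obtain ⟨Y, hY2, hYo⟩ := hY j N _ hj (by omega) hN hs1
        rw [show Nat.clog p' a' - 1 + 1 = Nat.clog p' a' by omega] at hYo
        exact Or.inl ⟨mk Y, hYo _ ho (h0 _ (Nat.le_pow_clog hp.one_lt _)), hY2⟩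
  have hc : ∀ c : Multiplicative (Fin m → ZMod 2), orderOf c ∣ 2 := by
    intro c
    rw [orderOf_dvd_iff_pow_eq_one]
    apply Multiplicative.toAdd.injective
    rw [toAdd_pow, toAdd_one]
    funext i
    exact (two_nsmul _).trans (CharTwo.add_self_eq_zero _)
  have h4 : 2 ∣ (q ^ n + 1) / 2 ∨ 2 ∣ (q ^ n - 1) / 2 := by
    obtain ⟨b, hb⟩ := hqodd n
    omega
  constructor
  · refine range_eq ?_ (fun x => ⟨(x.1, x.2.1, x.2.2, 1), by simp [Prod.orderOf]⟩)
    rintro ⟨x1, x2, x3, c⟩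
    have key : ∀ z : Cfsg.PSp n F × Cfsg.PSp n F × Cfsg.PSp n F,
        orderOf x1 ∣ orderOf z → orderOf x2 ∣ orderOf z → orderOf x3 ∣ orderOf z → 2 ∣ orderOf z →
        orderOf (x1, x2, x3, c) ∣ orderOf z := by
      intro z h1 h2 h3 h4
      rw [Prod.orderOf (x1, x2, x3, c), Prod.orderOf (x2, x3, c), Prod.orderOf (x3, c)]
      exact Nat.lcm_dvd h1 (Nat.lcm_dvd h2 (Nat.lcm_dvd h3 ((hc c).trans h4)))
    have hproj : ∀ z1 z2 z3 : Cfsg.PSp n F,
        orderOf z1 ∣ orderOf (z1, z2, z3) ∧ orderOf z2 ∣ orderOf (z1, z2, z3) ∧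
          orderOf z3 ∣ orderOf (z1, z2, z3) := by
      intro z1 z2 z3
      rw [Prod.orderOf (z1, z2, z3), Prod.orderOf (z2, z3)]
      exact ⟨Nat.dvd_lcm_left _ _, (Nat.dvd_lcm_left _ _).trans (Nat.dvd_lcm_right _ _),
        (Nat.dvd_lcm_right _ _).trans (Nat.dvd_lcm_right _ _)⟩
    rcases dich x1 with ⟨y, hy, hy2⟩ | d1
    · obtain ⟨a1, a2, a3⟩ := hproj y x2 x3
      exact ⟨_, key _ (hy.trans a1) a2 a3 (hy2.trans a1)⟩
    rcases dich x2 with ⟨y, hy, hy2⟩ | d2
    · obtain ⟨a1, a2, a3⟩ := hproj x1 y x3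
      exact ⟨_, key _ a1 (hy.trans a2) a3 (hy2.trans a2)⟩
    rcases dich x3 with ⟨y, hy, hy2⟩ | d3
    · obtain ⟨a1, a2, a3⟩ := hproj x1 x2 y
      exact ⟨_, key _ a1 a2 (hy.trans a3) (hy2.trans a3)⟩
    obtain ⟨a1, a2, a3⟩ := hproj (mk Tp) (mk Tm) (mk U)
    have hcov : ∀ {x : Cfsg.PSp n F},
        ((Odd (orderOf x) ∧ orderOf x ∣ p' ^ t) ∨
          (Odd (orderOf x) ∧ (orderOf x ∣ (q ^ n + 1) / 2 ∨ orderOf x ∣ (q ^ n - 1) / 2))) →
        orderOf x ∣ orderOf (mk Tp, mk Tm, mk U) := by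
      rintro x (⟨-, h⟩ | ⟨-, h | h⟩)
      · exact h.trans (hU.trans a3)
      · exact h.trans (hTp.trans a1)
      · exact h.trans (hTm.trans a2)
    refine ⟨_, key _ (hcov d1) (hcov d2) (hcov d3) ?_⟩
    rcases h4 with h | h
    · exact h.trans (hTp.trans a1)
    · exact h.trans (hTm.trans a2)
  · intro hnj
    refine range_eq ?_ (fun x => ⟨(x.1, x.2, 1), by simp [Prod.orderOf]⟩)
    rintro ⟨x1, x2, c⟩
    have key : ∀ z : Cfsg.PSp n F × Cfsg.PSp n F,
        orderOf x1 ∣ orderOf z → orderOf x2 ∣ orderOf z → 2 ∣ orderOf z →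
        orderOf (x1, x2, c) ∣ orderOf z := by
      intro z h1 h2 h4
      rw [Prod.orderOf (x1, x2, c), Prod.orderOf (x2, c)]
      exact Nat.lcm_dvd h1 (Nat.lcm_dvd h2 ((hc c).trans h4))
    have hproj : ∀ z1 z2 : Cfsg.PSp n F,
        orderOf z1 ∣ orderOf (z1, z2) ∧ orderOf z2 ∣ orderOf (z1, z2) := by
      intro z1 z2
      rw [Prod.orderOf (z1, z2)]
      exact ⟨Nat.dvd_lcm_left _ _, Nat.dvd_lcm_right _ _⟩
    have hlt : p' ^ (t - 1) < 2 * (n - 1) := by
      have h1 : 2 * n - 1 ≠ p' ^ (t - 1) := fun h => hnj ⟨_, h⟩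
      obtain ⟨b, hb⟩ := hpodd.pow (n := t - 1)
      omega
    obtain ⟨V, hV2, hVo⟩ := hY 1 (q ^ 1 - 1) (t - 1) (by omega) (by omega) (Or.inl rfl) hlt
    rw [show t - 1 + 1 = t by omega] at hVo
    have dich2 : ∀ x : Cfsg.PSp n F,
        (∃ y : Cfsg.PSp n F, orderOf x ∣ orderOf y ∧ 2 ∣ orderOf y) ∨
          (orderOf x ∣ (q ^ n + 1) / 2 ∨ orderOf x ∣ (q ^ n - 1) / 2) := by
      intro x
      rcases dich x with h | ⟨ho, h⟩ | ⟨-, h⟩
      · exact Or.inl h
      · exact Or.inl ⟨mk V, hVo _ ho (h.mul_left _), hV2⟩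
      · exact Or.inr h
    rcases dich2 x1 with ⟨y, hy, hy2⟩ | d1
    · obtain ⟨a1, a2⟩ := hproj y x2
      exact ⟨_, key _ (hy.trans a1) a2 (hy2.trans a1)⟩
    rcases dich2 x2 with ⟨y, hy, hy2⟩ | d2
    · obtain ⟨a1, a2⟩ := hproj x1 y
      exact ⟨_, key _ a1 (hy.trans a2) (hy2.trans a2)⟩
    rcases d1 with d1 | d1 <;> rcases d2 with d2 | d2
    · obtain ⟨a1, a2⟩ := hproj (mk Tp) (mk V)
      exact ⟨_, key _ (d1.trans (hTp.trans a1)) (d2.trans (hTp.trans a1)) (hV2.trans a2)⟩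
    · obtain ⟨a1, a2⟩ := hproj (mk Tp) (mk Tm)
      refine ⟨_, key _ (d1.trans (hTp.trans a1)) (d2.trans (hTm.trans a2)) ?_⟩
      exact h4.elim (fun h => h.trans (hTp.trans a1)) (fun h => h.trans (hTm.trans a2))
    · obtain ⟨a1, a2⟩ := hproj (mk Tp) (mk Tm)
      refine ⟨_, key _ (d1.trans (hTm.trans a2)) (d2.trans (hTp.trans a1)) ?_⟩
      exact h4.elim (fun h => h.trans (hTp.trans a1)) (fun h => h.trans (hTm.trans a2))
    · obtain ⟨a1, a2⟩ := hproj (mk Tm) (mk V)
      exact ⟨_, key _ (d1.trans (hTm.trans a1)) (d2.trans (hTm.trans a1)) (hV2.trans a2)⟩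

end Cfsg.Agent.S2512
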