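import Cfsg.Statements.S2513
import Cfsg.Agent.Lib.CharDegrees.LinearOrders

set_option autoImplicit false
open Cfsg

namespace Cfsg.Agent.S2513

open CfsgLib.CharDegrees

theorem coprime_two_pow_finset_lcm (s : Finset ℕ) (h : ∀ d ∈ s, 1 ≤ d) (t : ℕ) :
    Nat.Coprime (2 ^ t) (s.lcm fun d => 2 ^ d - 1) := by
  apply Nat.Coprime.pow_left
  rw [Nat.coprime_two_left]
  induction s using Finset.induction_on with
  | empty => simp
  | insert a s ha ih =>
    rw [Finset.lcm_insert]
    have h1 : Odd (2 ^ a - 1) := by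
      rw [Nat.odd_iff]
      have : 1 ≤ a := h a (Finset.mem_insert_self a s)
      obtain ⟨b, rfl⟩ : ∃ b, a = b + 1 := ⟨a - 1, by omega⟩
      have := Nat.one_le_two_pow (n := b)
      rw [pow_succ]
      omega
    have h2 := ih (fun d hd => h d (Finset.mem_insert_of_mem hd))
    exact (Nat.Coprime.coprime_dvd_right (lcm_dvd_mul _ _)
      (Nat.Coprime.mul_right (Nat.coprime_two_left.mpr h1) (Nat.coprime_two_left.mpr h2))
      |> Nat.coprime_two_left.mp)

theorem range_pi_eq {G : Type*} [Group G] [Finite G] {k₀ k : ℕ} (hk : k₀ ≤ k) (E : ℕ)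
    (hE : ∀ g : G, orderOf g ∣ E) (hy : ∃ y : Fin k₀ → G, E ∣ orderOf y) :
    Set.range (orderOf : (Fin k → G) → ℕ) = Set.range (orderOf : (Fin k₀ → G) → ℕ) := by
  apply Set.Subset.antisymm
  · rintro _ ⟨x, rfl⟩
    obtain ⟨y, hy⟩ := hy
    have h : orderOf x ∣ orderOf y := by
      refine dvd_trans ?_ hy
      rw [Pi.orderOf, Finset.lcm_dvd_iff]
      exact fun i _ => hE (x i)
    exact ⟨_, orderOf_pow_orderOf_div (orderOf_pos y).ne' h⟩
  · rintro _ ⟨x, rfl⟩
    refine ⟨fun i => if h : (i : ℕ) < k₀ then x ⟨i, h⟩ else 1, ?_⟩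
    rw [Pi.orderOf, Pi.orderOf]
    apply Nat.dvd_antisymm
    · rw [Finset.lcm_dvd_iff]
      intro i _
      by_cases h : (i : ℕ) < k₀
      · rw [dif_pos h]; exact Finset.dvd_lcm (f := fun j => orderOf (x j)) (Finset.mem_univ _)
      · simp [h]
    · rw [Finset.lcm_dvd_iff]
      intro i _
      refine dvd_trans ?_ (Finset.dvd_lcm (Finset.mem_univ (Fin.castLE hk i)))
      simp [i.2]

/-- Let F be the field with two elements, n ≥ 2, L = PSL(n, F) and k₀ = ⌊(n + 3)/2⌋. Then for every k ≥ k₀ the direct product of k copies of L has the same set of element orders as the direct product of k₀ copies of L. -/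
theorem result {F : Type*} [Field F] [Fintype F] (hF : Fintype.card F = 2) (n k : ℕ) (hn : 2 ≤ n) (hk : (n + 3) / 2 ≤ k) :
    Set.range (orderOf : (Fin k → Matrix.ProjectiveSpecialLinearGroup (Fin n) F) → ℕ) = Set.range (orderOf : (Fin ((n + 3) / 2) → Matrix.ProjectiveSpecialLinearGroup (Fin n) F) → ℕ) := by
  classical
  obtain ⟨p, hchar⟩ := CharP.exists F
  haveI := Fact.mk (CharP.char_is_prime F p)
  obtain ⟨a, hp, hpa⟩ := FiniteField.card F p
  obtain rfl : p = 2 := by
    have h1 : p ∣ 2 := ⟨p ^ ((a : ℕ) - 1), by rw [← hF, hpa, ← pow_succ']; congr 1; have := a.pos; omega⟩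
    exact (Nat.prime_dvd_prime_iff_eq hp Nat.prime_two).mp h1
  have hunits : ∀ u : Fˣ, u = 1 := by
    haveI : Subsingleton Fˣ := by
      rw [← Fintype.card_le_one_iff_subsingleton, Fintype.card_units, hF]
    exact fun u => Subsingleton.elim _ _
  have hinj : Function.Injective
      (QuotientGroup.mk' (Subgroup.center (Matrix.SpecialLinearGroup (Fin n) F))) := by
    rw [← MonoidHom.ker_eq_bot_iff, QuotientGroup.ker_mk', Subgroup.eq_bot_iff_forall]
    intro A hA
    obtain ⟨r, hr, hrA⟩ := Matrix.SpecialLinearGroup.mem_center_iff.mp hA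
    have hr0 : r ≠ 0 := by
      intro h
      rw [h, zero_pow (by simp; omega)] at hr
      exact zero_ne_one hr
    have : r = 1 := congrArg Units.val (hunits (Units.mk0 r hr0))
    exact Subtype.ext (by rw [← hrA, this]; simp)
  have hex : ∀ {o : ℕ}, (∃ g : GL (Fin n) F, orderOf g = o) →
      ∃ x : Matrix.ProjectiveSpecialLinearGroup (Fin n) F, orderOf x = o := by
    rintro o ⟨g, rfl⟩
    have hdet : (g : Matrix (Fin n) (Fin n) F).det = 1 :=
      congrArg Units.val (hunits (Matrix.GeneralLinearGroup.det g))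
    let A : Matrix.SpecialLinearGroup (Fin n) F := ⟨g, hdet⟩
    refine ⟨QuotientGroup.mk' _ A, ?_⟩
    refine (orderOf_injective _ hinj A).trans ?_
    refine (orderOf_injective Matrix.SpecialLinearGroup.toGL Matrix.SpecialLinearGroup.toGL_injective A).symm.trans ?_
    congr 1
    exact Units.ext rfl
  set t := Nat.clog 2 n with ht
  set N := (Finset.Icc 1 n).lcm (fun d => 2 ^ d - 1) with hN
  refine range_pi_eq hk (2 ^ t * N) (fun g => ?_) ?_
  · obtain ⟨A, rfl⟩ := QuotientGroup.mk'_surjective _ g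
    refine (orderOf_injective _ hinj A) ▸ ?_
    rw [← orderOf_injective Matrix.SpecialLinearGroup.toGL Matrix.SpecialLinearGroup.toGL_injective,
      orderOf_dvd_iff_pow_eq_one, mul_comm]
    refine gl_pow_eq_one 2 _ ?_ ?_
    · simpa [ht] using Nat.le_pow_clog (by norm_num) n
    · intro d h1 h2
      rw [hF]
      exact Finset.dvd_lcm (f := fun d => 2 ^ d - 1) (Finset.mem_Icc.mpr ⟨h1, by simpa using h2⟩)
  · obtain ⟨h, hh⟩ : ∃ h, (n + 3) / 2 = h + 1 := ⟨(n + 1) / 2, by omega⟩
    have hu : ∃ x : Matrix.ProjectiveSpecialLinearGroup (Fin n) F, orderOf x = 2 ^ t := by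
      have h0 := Nat.clog_pos (b := 2) (by norm_num) (show 1 < n by omega)
      have h1 := Nat.pow_pred_clog_lt_self (b := 2) (by norm_num) (show 1 < n by omega)
      obtain ⟨g, hg⟩ := exists_gl_orderOf_eq_prime_pow (F := F) 2 (n := n) (t := t - 1) (by
        rw [ht]; simpa using h1)
      exact hex ⟨g, by rw [hg]; congr 1; omega⟩
    obtain ⟨u, hu⟩ := hu
    have hs : ∀ i : Fin h, ∃ x : Matrix.ProjectiveSpecialLinearGroup (Fin n) F,
        orderOf x = 2 ^ (n - (i : ℕ)) - 1 := by
      intro i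
      apply hex
      obtain ⟨g, hg⟩ := exists_gl_orderOf_eq_singer (F := F) (d := n - (i : ℕ)) (n := n)
        (by omega) (by omega)
      exact ⟨g, by rw [hg, hF]⟩
    choose s hs using hs
    rw [hh]
    refine ⟨Fin.cons u s, Nat.Coprime.mul_dvd_of_dvd_of_dvd
      (coprime_two_pow_finset_lcm _ (fun d hd => (Finset.mem_Icc.mp hd).1) t) ?_ ?_⟩
    · rw [Pi.orderOf, ← hu]
      refine dvd_trans ?_ (Finset.dvd_lcm (Finset.mem_univ (0 : Fin (h + 1))))
      simp
    · rw [Pi.orderOf, hN, Finset.lcm_dvd_iff]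
      intro d hd
      obtain ⟨hd1, hd2⟩ := Finset.mem_Icc.mp hd
      have h4 : n - d * (n / d) < d := by
        have := Nat.mod_lt n (show d > 0 by omega)
        have := Nat.div_add_mod n d
        omega
      have h5 : d * (n / d) ≤ n := Nat.mul_div_le n d
      have h6 : d ≤ d * (n / d) := Nat.le_mul_of_pos_right d (Nat.div_pos hd2 (by omega))
      refine dvd_trans ?_ (Finset.dvd_lcm (Finset.mem_univ
        (Fin.succ (⟨n - d * (n / d), by omega⟩ : Fin h))))
      rw [Fin.cons_succ, hs]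
      refine dvd_trans (Nat.pow_sub_one_dvd_pow_sub_one 2 ⟨n / d, rfl⟩) (dvd_of_eq ?_)
      show 2 ^ (d * (n / d)) - 1 = 2 ^ (n - (n - d * (n / d))) - 1
      congr 2
      omega

end Cfsg.Agent.S2513
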