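import Cfsg.Statements.S2514
import Mathlib.Data.Set.Finite.Lemmas

set_option autoImplicit false
open Cfsg

namespace Cfsg.Agent.S2514

lemma exists_max_above {G : Type*} [Group G] [Finite G] (x : G) :
    ∃ g : G, orderOf x ∣ orderOf g ∧ ∀ m ∈ Set.range (orderOf : G → ℕ), orderOf g ∣ m → m = orderOf g := by
  classical
  obtain ⟨g, hg, hmax⟩ := Set.exists_max_image {g : G | orderOf x ∣ orderOf g} orderOf
    (Set.toFinite _) ⟨x, dvd_rfl⟩
  refine ⟨g, hg, ?_⟩
  rintro m ⟨y, rfl⟩ hy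
  exact le_antisymm (hmax y (hg.trans hy)) (Nat.le_of_dvd (orderOf_pos y) hy)

lemma range_subset {G H : Type*} [Group G] [Finite G] [Group H] [Finite H]
    (h : ∀ x : G, ∃ y : H, orderOf x ∣ orderOf y) :
    Set.range (orderOf : G → ℕ) ⊆ Set.range (orderOf : H → ℕ) := by
  rintro _ ⟨x, rfl⟩
  obtain ⟨y, hy⟩ := h x
  exact ⟨_, orderOf_pow_orderOf_div (orderOf_pos y).ne' hy⟩

/-- For a finite group X write μ(X) for the set of element orders of X that are maximal under divisibility. Let G and H be finite groups and k ≥ 1 such that μ(H) ⊆ μ(G) and μ(G) has fewer than k elements outside μ(H). Then the direct product of k copies of G has the same set of element orders as the direct product of k − 1 copies of G with H. -/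
theorem result {G H : Type*} [Group G] [Finite G] [Group H] [Finite H] (k : ℕ) (hk : 1 ≤ k)
    (hsub : {n : ℕ | n ∈ Set.range (orderOf : H → ℕ) ∧ ∀ m ∈ Set.range (orderOf : H → ℕ), n ∣ m → m = n} ⊆ {n : ℕ | n ∈ Set.range (orderOf : G → ℕ) ∧ ∀ m ∈ Set.range (orderOf : G → ℕ), n ∣ m → m = n})
    (hfew : ({n : ℕ | n ∈ Set.range (orderOf : G → ℕ) ∧ ∀ m ∈ Set.range (orderOf : G → ℕ), n ∣ m → m = n} \ {n : ℕ | n ∈ Set.range (orderOf : H → ℕ) ∧ ∀ m ∈ Set.range (orderOf : H → ℕ), n ∣ m → m = n}).ncard < k) :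
    Set.range (orderOf : (Fin k → G) → ℕ) = Set.range (orderOf : (Fin (k - 1) → G) × H → ℕ) := by
  classical
  obtain ⟨j, rfl⟩ : ∃ j, k = j + 1 := ⟨k - 1, by omega⟩
  show Set.range (orderOf : (Fin (j + 1) → G) → ℕ) = Set.range (orderOf : (Fin j → G) × H → ℕ)
  refine Set.Subset.antisymm (range_subset fun x => ?_) (range_subset fun x => ?_)
  · choose g hg hmax using fun i => exists_max_above (x i)
    suffices hs : ∃ (i0 : Fin (j + 1)) (h : H),
        orderOf (g i0) ∣ orderOf ((fun i => g (i0.succAbove i)), h) by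
      obtain ⟨i0, h, hh⟩ := hs
      refine ⟨((fun i => g (i0.succAbove i)), h), ?_⟩
      rw [Pi.orderOf, Finset.lcm_dvd_iff]
      intro i _
      refine (hg i).trans ?_
      rcases Fin.eq_self_or_eq_succAbove i0 i with rfl | ⟨l, rfl⟩
      · exact hh
      · rw [Prod.orderOf, Pi.orderOf]
        exact (Finset.dvd_lcm (f := fun i => orderOf (g (i0.succAbove i)))
          (Finset.mem_univ l)).trans (Nat.dvd_lcm_left _ _)
    by_cases hcase : ∃ i, orderOf (g i) ∈ {n : ℕ | n ∈ Set.range (orderOf : H → ℕ) ∧ ∀ m ∈ Set.range (orderOf : H → ℕ), n ∣ m → m = n}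
    · obtain ⟨i0, ⟨h, hh⟩, -⟩ := hcase
      refine ⟨i0, h, ?_⟩
      rw [Prod.orderOf]
      simp only [hh]
      exact Nat.dvd_lcm_right _ _
    · have hlt : (Set.range fun i => orderOf (g i)).ncard < j + 1 := by
        refine lt_of_le_of_lt (Set.ncard_le_ncard ?_ ?_) hfew
        · rintro _ ⟨i, rfl⟩
          exact ⟨⟨⟨g i, rfl⟩, hmax i⟩, fun hc => hcase ⟨i, hc⟩⟩
        · exact (Set.finite_range (orderOf : G → ℕ)).subset fun n hn => hn.1.1
      have hni : ¬ Function.Injective fun i => orderOf (g i) := fun hi => by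
        rw [Set.ncard_range_of_injective hi, Nat.card_fin] at hlt
        omega
      simp only [Function.Injective, not_forall] at hni
      obtain ⟨i0, i1, heq, hne⟩ := hni
      obtain ⟨l, rfl⟩ := Fin.exists_succAbove_eq (x := i1) (y := i0) (Ne.symm hne)
      refine ⟨i0, 1, ?_⟩
      rw [Prod.orderOf, Pi.orderOf, heq]
      exact (Finset.dvd_lcm (f := fun i => orderOf (g (i0.succAbove i)))
        (Finset.mem_univ l)).trans (Nat.dvd_lcm_left _ _)
  · obtain ⟨h, hh, hmax⟩ := exists_max_above x.2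
    obtain ⟨⟨g, hg⟩, -⟩ := hsub ⟨⟨h, rfl⟩, hmax⟩
    refine ⟨Fin.cons g x.1, ?_⟩
    rw [Prod.orderOf, Nat.lcm_dvd_iff, Pi.orderOf, Pi.orderOf, Finset.lcm_dvd_iff]
    refine ⟨fun l _ => ?_, ?_⟩
    · refine dvd_trans ?_ (Finset.dvd_lcm (Finset.mem_univ l.succ))
      simp
    · refine dvd_trans ?_ (Finset.dvd_lcm (Finset.mem_univ (0 : Fin (j + 1))))
      simpa [hg] using hh

end Cfsg.Agent.S2514
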