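import Cfsg.Statements.S2515
import Cfsg.Agent.Lib.SL2.TwistedTensorOrders

set_option autoImplicit false
open Cfsg

namespace Cfsg.Agent.S2515

/-- Let q = 3^α with α ≥ 3 odd. There is a finite group H having a non-trivial normal 3-subgroup and whose element orders maximal under divisibility are exactly 6, 9, q − 1 and (q + 1)/2. -/
theorem result (α : ℕ) (hα : 3 ≤ α) (hodd : Odd α) :
    ∃ (H : Type) (_ : Group H) (_ : Fintype H), (∃ P : Subgroup H, P.Normal ∧ P ≠ ⊥ ∧ IsPGroup 3 ↥P) ∧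
      {n : ℕ | n ∈ Set.range (orderOf : H → ℕ) ∧ ∀ m ∈ Set.range (orderOf : H → ℕ), n ∣ m → m = n} = ({6, 9, 3 ^ α - 1, (3 ^ α + 1) / 2} : Set ℕ) := by
  obtain ⟨k, rfl⟩ := hodd
  have := Fact.mk Nat.prime_three
  let F := GaloisField 3 (2 * k + 1)
  have h9 : ∀ k : ℕ, 3 ^ (2 * k + 1) % 8 = 3 := fun k => by
    rw [pow_succ, pow_mul, Nat.mul_mod, Nat.pow_mod]
    norm_num
  obtain ⟨j, hj⟩ : ∃ j, 3 ^ (2 * k + 1) = 8 * j + 3 := ⟨3 ^ (2 * k + 1) / 8, by
    have := h9 k; omega⟩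
  have h27 : 3 ^ 3 ≤ 3 ^ (2 * k + 1) := Nat.pow_le_pow_right (by norm_num) hα
  have hj2 : 2 ≤ j := by omega
  have hq : Nat.card F = 8 * j + 3 := by rw [← hj]; exact GaloisField.card 3 _ (by omega)
  have hd : 3 ∣ 8 * j + 3 := hj ▸ dvd_pow_self 3 (by omega)
  have : Finite (CfsgLib.SL2.TwistedTensor.H F) := Finite.of_equiv _ SemidirectProduct.equivProd.symm
  refine ⟨CfsgLib.SL2.TwistedTensor.H F, inferInstance, Fintype.ofFinite _,
    CfsgLib.SL2.TwistedTensor.exists_normal_three, ?_⟩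
  rw [CfsgLib.SL2.TwistedTensor.maximalOrders hq hj2 hd, hj,
    show 8 * j + 3 - 1 = 8 * j + 2 by omega, show (8 * j + 3 + 1) / 2 = 4 * j + 2 by omega]

end Cfsg.Agent.S2515
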