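import Cfsg.Statements.S2516

set_option autoImplicit false
open Cfsg

namespace Cfsg.Agent.S2516

/-- Let F be a field of characteristic p > 0, V a non-zero finite-dimensional F-vector space, G a finite group and ρ a representation of G on V; form the semidirect product V ⋊ G. For g ∈ G of order k, the coset Vg contains an element of order pk if and only if the minimal polynomial of ρ(g) does not divide 1 + X + ⋯ + X^(k−1). -/
theorem result {F : Type*} [Field F] (p : ℕ) [Fact p.Prime] [CharP F p] {V : Type*} [AddCommGroup V] [Module F V] [FiniteDimensional F V] [Nontrivial V]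
    {G : Type*} [Group G] [Finite G] (ρ : Representation F G V) (g : G) :
    (∃ x : Multiplicative V ⋊[(MulAutMultiplicative V).symm.toMonoidHom.comp
        ((DistribMulAction.toAddAut ((V →ₗ[F] V)ˣ) V).comp ρ.asGroupHom)] G,
        x.right = g ∧ orderOf x = p * orderOf g) ↔
      ¬ (minpoly F (ρ g) ∣ ∑ i ∈ Finset.range (orderOf g), (Polynomial.X : Polynomial F) ^ i) := by
  set φ := (MulAutMultiplicative V).symm.toMonoidHom.comp
        ((DistribMulAction.toAddAut ((V →ₗ[F] V)ˣ) V).comp ρ.asGroupHom) with hφ
  set S : V →ₗ[F] V := ∑ i ∈ Finset.range (orderOf g), ρ g ^ i with hS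
  have hp : p.Prime := Fact.out
  have hk := orderOf_pos g
  have hdvd : minpoly F (ρ g) ∣ ∑ i ∈ Finset.range (orderOf g), (Polynomial.X : Polynomial F) ^ i ↔ S = 0 := by
    rw [hS, minpoly.dvd_iff]
    simp
  have hact : ∀ (h : G) (w : V), φ h (Multiplicative.ofAdd w) = Multiplicative.ofAdd (ρ h w) :=
    fun h w => rfl
  have hpow : ∀ (v : V) (n : ℕ), (⟨Multiplicative.ofAdd v, g⟩ : Multiplicative V ⋊[φ] G) ^ n =
      ⟨Multiplicative.ofAdd ((∑ i ∈ Finset.range n, ρ g ^ i) v), g ^ n⟩ := by
    intro v n
    induction n with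
    | zero => exact SemidirectProduct.ext (by simp) (by simp)
    | succ n ih =>
      rw [pow_succ', ih]
      refine SemidirectProduct.ext ?_ (pow_succ' g n).symm
      rw [SemidirectProduct.mul_left]
      simp only [hact]
      rw [← ofAdd_add, geom_sum_succ]
      simp [add_comm]
  have key : ∀ v : V, orderOf (⟨Multiplicative.ofAdd v, g⟩ : Multiplicative V ⋊[φ] G)
      = orderOf g * orderOf (Multiplicative.ofAdd (S v)) := by
    intro v
    set x : Multiplicative V ⋊[φ] G := ⟨Multiplicative.ofAdd v, g⟩
    have h1 : orderOf g ∣ orderOf x := by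
      simpa using orderOf_map_dvd SemidirectProduct.rightHom x
    have h2 : x ^ orderOf g = SemidirectProduct.inl (Multiplicative.ofAdd (S v)) := by
      rw [hpow v]
      exact SemidirectProduct.ext rfl (by simp [pow_orderOf_eq_one])
    have h3 : orderOf (x ^ orderOf g) = orderOf x / orderOf g := by
      rw [orderOf_pow' x hk.ne', Nat.gcd_eq_right h1]
    rw [h2, orderOf_injective _ SemidirectProduct.inl_injective] at h3
    rw [h3, Nat.mul_div_cancel' h1]
  rw [hdvd]
  constructor
  · rintro ⟨⟨v, h⟩, hr, ho⟩ h0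
    change h = g at hr
    subst hr
    rw [← ofAdd_toAdd v, key, h0] at ho
    simp only [LinearMap.zero_apply, ofAdd_zero, orderOf_one, mul_one] at ho
    nlinarith [hp.two_le]
  · intro hne
    obtain ⟨v, hv⟩ : ∃ v, S v ≠ 0 := by
      by_contra hc
      push Not at hc
      exact hne (LinearMap.ext hc)
    refine ⟨⟨Multiplicative.ofAdd v, g⟩, rfl, ?_⟩
    have h4 : orderOf (Multiplicative.ofAdd (S v)) = p := by
      rw [orderOf_ofAdd_eq_addOrderOf]
      refine addOrderOf_eq_prime ?_ hv
      rw [← Nat.cast_smul_eq_nsmul F, CharP.cast_eq_zero, zero_smul]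
    rw [key, h4, mul_comm]

end Cfsg.Agent.S2516
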