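import Cfsg.Statements.S2517
import Cfsg.Agent.Lib.CharDegrees.SpectrumO9.Groups

set_option autoImplicit false
open Cfsg

namespace Cfsg.Agent.S2517

/-- Let F be a finite field of odd order q, let Ω₉ be the simple orthogonal group PΩ(9, F), and let Ω₈⁻ be the commutator subgroup of the isometry group of a minus-type non-singular quadratic form on V = F⁸ (the simple group PΩ⁻(8, F), acting on its natural module V). Then Ω₉ and the semidirect product V ⋊ Ω₈⁻ have exactly the same set of element orders. -/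
theorem result {F : Type*} [Field F] [Fintype F] (hF : Odd (Fintype.card F)) (a b : F)
    (hab : ∀ z₁ z₂ : F, z₁ ^ 2 + a * z₁ * z₂ + b * z₂ ^ 2 = 0 → z₁ = 0 ∧ z₂ = 0) :
    Set.range (orderOf : Cfsg.POmega F (Cfsg.quadFormOdd 4 F) → ℕ) =
      Set.range (orderOf :
        (Multiplicative (((Fin 3 ⊕ Fin 3) ⊕ Fin 2) → F)) ⋊[
          (MulAutMultiplicative (((Fin 3 ⊕ Fin 3) ⊕ Fin 2) → F)).symm.toMonoidHom.comp
           ((DistribMulAction.toAddAut (LinearMap.GeneralLinearGroup F (((Fin 3 ⊕ Fin 3) ⊕ Fin 2) → F))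
              (((Fin 3 ⊕ Fin 3) ⊕ Fin 2) → F)).comp
            (Matrix.GeneralLinearGroup.toLin.toMonoidHom.comp
              ((Cfsg.isometryGroup F (Cfsg.quadFormMinus 3 F a b)).subtype.comp
                (Cfsg.Omega F (Cfsg.quadFormMinus 3 F a b)).subtype)))]
          ↥(Cfsg.Omega F (Cfsg.quadFormMinus 3 F a b)) → ℕ) := by
  obtain ⟨p, hp⟩ := CharP.exists F
  have hp2 : p ≠ 2 := by
    rintro rfl
    haveI : Fact (Nat.Prime 2) := ⟨Nat.prime_two⟩
    obtain ⟨n, -, hn⟩ := FiniteField.card F 2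
    rw [hn, Nat.odd_iff] at hF
    have : 2 ∣ 2 ^ (n : ℕ) := dvd_pow_self 2 n.pos.ne'
    omega
  have e : Cfsg.quadFormMinus 3 F a b = ⇑(CfsgLib.ClassicalForms.qMinus 3 F a b) :=
    funext fun v => (CfsgLib.ClassicalForms.qMinus_apply 3 a b v).symm
  refine (CfsgLib.CharDegrees.SpectrumO9.range_omega_nine (p := p) hp2).trans ?_
  revert e
  generalize Cfsg.quadFormMinus 3 F a b = f
  rintro rfl
  exact (CfsgLib.CharDegrees.SpectrumO9.range_semidirect (p := p) hp2 hab).symm

end Cfsg.Agent.S2517
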