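import Cfsg.Statements.S2518
import Cfsg.Agent.Lib.OrderDegrees.G2Three
import Cfsg.Agent.Lib.Fixity.PSLTwoSpectrum
import Cfsg.Agent.Lib.ClassicalLinear.Card

set_option autoImplicit false
open Cfsg

namespace Cfsg.Agent.S2518

/-- Let F₃ be the field with 3 elements and F₁₃ the field with 13 elements. The Chevalley group G₂(F₃) and PSL(2, F₁₃) have the same prime graph: the same prime divisors of their orders, and for distinct primes r, s an element of order rs in one iff in the other. -/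
theorem result {F : Type*} [Field F] [Fintype F] (hF : Fintype.card F = 3) {E : Type*} [Field E] [Fintype E] (hE : Fintype.card E = 13) :
    ((∀ r : ℕ, r.Prime → (r ∣ Nat.card ↥(Cfsg.Lie.chevG2.group F) ↔ r ∣ Nat.card (Matrix.ProjectiveSpecialLinearGroup (Fin 2) E))) ∧
      (∀ r s : ℕ, r.Prime → s.Prime → r ≠ s → ((∃ x : ↥(Cfsg.Lie.chevG2.group F), orderOf x = r * s) ↔ (∃ y : (Matrix.ProjectiveSpecialLinearGroup (Fin 2) E), orderOf y = r * s)))) := by
  haveI : Fact (Nat.Prime 13) := ⟨by norm_num⟩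
  haveI : CharP E 13 := charP_of_card_eq_prime hE
  have hzd : CfsgLib.Fixity.PSLTwoSpectrum.zd E = 2 := by
    rcases CfsgLib.Fixity.PSLTwoSpectrum.zd_two_or_one (F := E) with ⟨-, h⟩ | ⟨h, -⟩
    · exact absurd ((CharP.cast_eq_zero_iff E 13 2).1 (by exact_mod_cast h)) (by norm_num)
    · exact h
  have hP := CfsgLib.ClassicalLinear.card_PSL_two_of_odd hE (by decide)
  have hG := CfsgLib.OrderDegrees.G2Three.card_eq hF
  have hP' : Nat.card (Matrix.ProjectiveSpecialLinearGroup (Fin 2) E) = 1092 := by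
    norm_num at hP
    omega
  have hdiv : ∀ r : ℕ, r.Prime → ((r ∣ 4245696 ↔ r ∣ 1092) ∧
      (r ∣ 1092 → r = 2 ∨ r = 3 ∨ r = 7 ∨ r = 13)) := by
    intro r hr
    have h4 : ∀ n : ℕ, ∀ a b c d : ℕ, n = 2 ^ a * 3 ^ b * 7 ^ c * 13 ^ d → r ∣ n →
        r = 2 ∨ r = 3 ∨ r = 7 ∨ r = 13 := by
      intro n a b c d hn h
      subst hn
      rcases hr.dvd_mul.1 h with h | h
      rcases hr.dvd_mul.1 h with h | h
      rcases hr.dvd_mul.1 h with h | h
      all_goals have h' := hr.dvd_of_dvd_pow h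
      · exact Or.inl ((Nat.prime_dvd_prime_iff_eq hr Nat.prime_two).1 h')
      · exact Or.inr (Or.inl ((Nat.prime_dvd_prime_iff_eq hr Nat.prime_three).1 h'))
      · exact Or.inr (Or.inr (Or.inl ((Nat.prime_dvd_prime_iff_eq hr (by norm_num)).1 h')))
      · exact Or.inr (Or.inr (Or.inr ((Nat.prime_dvd_prime_iff_eq hr (by norm_num)).1 h')))
    have h1 := h4 4245696 6 6 1 1 (by norm_num)
    have h2 := h4 1092 2 1 1 1 (by norm_num)
    refine ⟨⟨fun h => ?_, fun h => ?_⟩, h2⟩
    · rcases h1 h with rfl | rfl | rfl | rfl <;> norm_num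
    · rcases h2 h with rfl | rfl | rfl | rfl <;> norm_num
  refine ⟨fun r hr => by rw [hG, hP']; exact (hdiv r hr).1, fun r s hr hs hrs => ?_⟩
  have key : ∀ (n : ℕ), n = r * s → (n ∣ 6 ∨ n ∣ 7 ∨ n ∣ 13) → n = 6 := by
    intro n hn h
    have h4 : 1 < r ∧ 1 < s := ⟨hr.one_lt, hs.one_lt⟩
    have hnp : ¬ n.Prime := fun hp => by
      rcases Nat.prime_mul_iff.1 (hn ▸ hp) with ⟨-, h⟩ | ⟨-, h⟩ <;> omega
    rcases h with h | h | h
    · have h6 := Nat.le_of_dvd (by norm_num) h
      have : 4 ≤ n := by rw [hn]; exact Nat.mul_le_mul h4.1 h4.2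
      interval_cases n <;> first | rfl | omega
    · rcases (Nat.dvd_prime (by norm_num)).1 h with h | h
      · nlinarith
      · exact absurd (h ▸ (by norm_num : Nat.Prime 7)) hnp
    · rcases (Nat.dvd_prime (by norm_num)).1 h with h | h
      · nlinarith
      · exact absurd (h ▸ (by norm_num : Nat.Prime 13)) hnp
  constructor
  · rintro ⟨x, hx⟩
    have hdx : ∀ t : ℕ, t ∣ r * s → t ∣ 4245696 := fun t ht =>
      ht.trans (hx ▸ hG ▸ orderOf_dvd_natCard x)
    have no7 := fun t ht ht7 => CfsgLib.OrderDegrees.G2Three.not_orderOf_seven_mul hF (s := t) ht ht7 x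
    have no13 := fun t ht ht13 =>
      CfsgLib.OrderDegrees.G2Three.not_orderOf_thirteen_mul hF (s := t) ht ht13 x
    have e : r * s = 6 := by
      have hr' := (hdiv r hr).2 ((hdiv r hr).1.1 (hdx r (Dvd.intro s rfl)))
      have hs' := (hdiv s hs).2 ((hdiv s hs).1.1 (hdx s (Dvd.intro_left r rfl)))
      rcases hr' with rfl | rfl | rfl | rfl <;> rcases hs' with rfl | rfl | rfl | rfl <;>
        first
        | rfl
        | exact absurd rfl hrs
        | exact absurd hx (no7 _ hs hrs.symm)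
        | exact absurd (hx.trans (mul_comm _ _)) (no7 _ hr hrs)
        | exact absurd hx (no13 _ hs hrs.symm)
        | exact absurd (hx.trans (mul_comm _ _)) (no13 _ hr hrs)
    obtain ⟨y, hy⟩ := CfsgLib.Fixity.PSLTwoSpectrum.exists_orderOf_torus (F := E)
      (e := 12) (Or.inl (by rw [Nat.card_eq_fintype_card, hE])) (by norm_num)
    exact ⟨y, by rw [hy, hzd, e]⟩
  · rintro ⟨y, hy⟩
    have h := CfsgLib.Fixity.PSLTwoSpectrum.orderOf_dvd 13 y
    rw [hzd, Nat.card_eq_fintype_card, hE, hy] at h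
    have e : r * s = 6 := key _ rfl (by tauto)
    rw [e]
    exact CfsgLib.OrderDegrees.G2Three.exists_orderOf_six hF

end Cfsg.Agent.S2518
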