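import Cfsg.Statements.S2519
import Cfsg.Agent.Lib.Chevalley.G2SpectrumExistence

set_option autoImplicit false
open Cfsg

namespace Cfsg.Agent.S2519


theorem antichain_members {p q : ℕ} (hp : p.Prime) (hpq : p ∣ q) (hq : 5 ≤ q) {m n : ℕ}
    (hm : m = p * (q + 1) ∨ m = p * (q - 1) ∨ m = q * q - 1 ∨ m = q * q + q + 1 ∨
      m = q * q - q + 1 ∨ m = p * p)
    (hn : n = p * (q + 1) ∨ n = p * (q - 1) ∨ n = q * q - 1 ∨ n = q * q + q + 1 ∨
      n = q * q - q + 1 ∨ n = p * p)
    (h : m ∣ n) : m = n := by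
  have hp2 := hp.two_le
  have hqq : 5 * q ≤ q * q := Nat.mul_le_mul_right q hq
  -- divisibility by `p`
  have hp1 : ¬ p ∣ q + 1 := fun h => hp.not_dvd_one ((Nat.dvd_add_right hpq).1 h)
  have hp1' : ¬ p ∣ q - 1 := fun h => by
    have := Nat.dvd_sub hpq h
    rw [show q - (q - 1) = 1 by omega] at this
    exact hp.not_dvd_one this
  have hpqq : p ∣ q * q := hpq.mul_right q
  have hC : ¬ p ∣ q * q - 1 := fun h => by
    have := Nat.dvd_sub hpqq h
    rw [show q * q - (q * q - 1) = 1 by omega] at this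
    exact hp.not_dvd_one this
  have hD : ¬ p ∣ q * q + q + 1 := fun h =>
    hp.not_dvd_one ((Nat.dvd_add_right (dvd_add hpqq hpq)).1 h)
  have hE : ¬ p ∣ q * q - q + 1 := fun h =>
    hp.not_dvd_one ((Nat.dvd_add_right (Nat.dvd_sub hpqq hpq)).1 h)
  have hin : ∀ {c : ℕ}, ¬ p ∣ c → ∀ k, c ∣ p * k → c ∣ k := fun hc k h =>
    ((Nat.Prime.coprime_iff_not_dvd hp).2 hc).symm.dvd_of_dvd_mul_left h
  have hsmall : ∀ {c : ℕ}, q + 1 < c → ¬ p ∣ c →
      ¬ (c ∣ p * (q + 1) ∨ c ∣ p * (q - 1) ∨ c ∣ p * p) := by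
    intro c hc hpc
    rintro (h | h | h)
    · exact absurd (Nat.le_of_dvd (by omega) (hin hpc _ h)) (by omega)
    · exact absurd (Nat.le_of_dvd (by omega) (hin hpc _ h)) (by omega)
    · have h' : c ∣ 1 := hin hpc 1 (by rw [mul_one]; exact hin hpc p h)
      exact absurd (Nat.le_of_dvd one_pos h') (by omega)
  rcases hm with rfl | rfl | rfl | rfl | rfl | rfl <;>
    rcases hn with rfl | rfl | rfl | rfl | rfl | rfl <;>
    first
    | rfl
    | (exfalso; exact hC ((dvd_mul_right p _).trans h))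
    | (exfalso; exact hD ((dvd_mul_right p _).trans h))
    | (exfalso; exact hE ((dvd_mul_right p _).trans h))
    | (exfalso; exact hsmall (by omega) hC (Or.inl h))
    | (exfalso; exact hsmall (by omega) hC (Or.inr (Or.inl h)))
    | (exfalso; exact hsmall (by omega) hC (Or.inr (Or.inr h)))
    | (exfalso; exact hsmall (by omega) hD (Or.inl h))
    | (exfalso; exact hsmall (by omega) hD (Or.inr (Or.inl h)))
    | (exfalso; exact hsmall (by omega) hD (Or.inr (Or.inr h)))
    | (exfalso; exact hsmall (by omega) hE (Or.inl h))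
    | (exfalso; exact hsmall (by omega) hE (Or.inr (Or.inl h)))
    | (exfalso; exact hsmall (by omega) hE (Or.inr (Or.inr h)))
    | (exfalso; exact hp1 (Nat.dvd_of_mul_dvd_mul_left hp.pos h))
    | (exfalso; exact hp1' (Nat.dvd_of_mul_dvd_mul_left hp.pos h))
    | (exfalso; exact absurd (Nat.le_of_dvd (by omega) (Nat.dvd_of_mul_dvd_mul_left hp.pos h)) (by omega))
    | (exfalso
       have h1 : q - 1 ∣ 2 := by
         have := Nat.dvd_sub (Nat.dvd_of_mul_dvd_mul_left hp.pos h) (dvd_refl (q - 1))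
         rwa [show q + 1 - (q - 1) = 2 by omega] at this
       exact absurd (Nat.le_of_dvd two_pos h1) (by omega))
    | (exfalso
       have h1 : q + 1 ∣ p := Nat.dvd_of_mul_dvd_mul_left hp.pos h
       rcases (Nat.dvd_prime hp).1 h1 with h2 | h2
       · omega
       · exact hp1 (h2 ▸ dvd_refl p))
    | (exfalso
       have h1 : q - 1 ∣ p := Nat.dvd_of_mul_dvd_mul_left hp.pos h
       rcases (Nat.dvd_prime hp).1 h1 with h2 | h2
       · omega
       · exact hp1' (h2 ▸ dvd_refl p))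
    | (exfalso; exact absurd (Nat.le_of_dvd (by omega) h) (by omega))
    | (exfalso
       have h1 := Nat.dvd_sub h (dvd_refl (q * q - 1))
       exact absurd (Nat.le_of_dvd (by omega) h1) (by omega))
    | (exfalso
       have h1 := Nat.dvd_sub h (dvd_refl (q * q - q + 1))
       exact absurd (Nat.le_of_dvd (by omega) h1) (by omega))

/-- Let F be a finite field of odd order q = p^a ≥ 5. The element orders of the Chevalley group G₂(F) that are maximal under divisibility are exactly p(q + 1), p(q − 1), q² − 1, q² + q + 1, q² − q + 1, together with p² when p is 3 or 5. -/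
theorem result {F : Type*} [Field F] [Fintype F] (p a : ℕ) (hp : p.Prime) (hp2 : p ≠ 2) (ha : 1 ≤ a) (hF : Fintype.card F = p ^ a) (hq5 : 5 ≤ Fintype.card F) :
    {n : ℕ | n ∈ Set.range (orderOf : ↥(Cfsg.Lie.chevG2.group F) → ℕ) ∧ ∀ m ∈ Set.range (orderOf : ↥(Cfsg.Lie.chevG2.group F) → ℕ), n ∣ m → m = n} =
      ({p * (p ^ a + 1), p * (p ^ a - 1), p ^ (2 * a) - 1, p ^ (2 * a) + p ^ a + 1, p ^ (2 * a) - p ^ a + 1} : Set ℕ) ∪
        (if p = 3 ∨ p = 5 then ({p ^ 2} : Set ℕ) else ∅) := by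
  classical
  obtain ⟨q, hq⟩ : ∃ q, q = p ^ a := ⟨_, rfl⟩
  rw [← hq] at hF ⊢
  rw [show p ^ (2 * a) = q * q by rw [hq, ← pow_add, two_mul]]
  haveI := Fact.mk hp
  haveI : CharP F p := by
    obtain ⟨r, hr⟩ := CharP.exists F
    haveI := hr
    have hrp : r.Prime := CharP.char_is_prime F r
    obtain ⟨n, -, hn⟩ := FiniteField.card F r
    rw [hF, hq] at hn
    have : r = p := ((Nat.prime_dvd_prime_iff_eq hrp hp).1
      (hrp.dvd_of_dvd_pow (hn ▸ dvd_pow_self r n.ne_zero)))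
    exact this ▸ hr
  have hpq : p ∣ q := CfsgLib.Chevalley.G2Spectrum.char_dvd hF
  rw [hF] at hq5
  have hle : q ≤ q * q := Nat.le_mul_self q
  set S : Set ℕ := ({p * (q + 1), p * (q - 1), q * q - 1, q * q + q + 1, q * q - q + 1} : Set ℕ) ∪
        (if p = 3 ∨ p = 5 then ({p ^ 2} : Set ℕ) else ∅) with hS
  have hmem : ∀ n ∈ S, n = p * (q + 1) ∨ n = p * (q - 1) ∨ n = q * q - 1 ∨ n = q * q + q + 1 ∨
      n = q * q - q + 1 ∨ n = p * p := by
    intro n hn
    rw [hS] at hn
    rcases hn with hn | hn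
    · simp only [Set.mem_insert_iff, Set.mem_singleton_iff] at hn
      tauto
    · split_ifs at hn
      · rw [Set.mem_singleton_iff, sq] at hn
        tauto
      · exact hn.elim
  have hanti : ∀ m ∈ S, ∀ n ∈ S, m ∣ n → m = n := fun m hm n hn h =>
    antichain_members hp hpq hq5 (hmem m hm) (hmem n hn) h
  have htor : ∀ m : Fin 2, CfsgLib.Chevalley.G2Tori.torOrd m q = q * q - q + 1 ∨
      CfsgLib.Chevalley.G2Tori.torOrd m q = q * q + q + 1 := by
    intro m
    fin_cases m <;> simp [CfsgLib.Chevalley.G2Tori.torOrd] <;> omega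
  have hub : ∀ x : ↥(Cfsg.Lie.chevG2.group F), ∃ n ∈ S, orderOf x ∣ n := by
    intro x
    rcases CfsgLib.Chevalley.G2Spectrum.orderOf_dvd_member (p := p) hF hp2 x with
      h | h | h | ⟨m, h⟩ | ⟨h35, h⟩
    · exact ⟨_, Or.inl (by simp), h⟩
    · exact ⟨_, Or.inl (by simp), h⟩
    · exact ⟨q * q - 1, Or.inl (by simp), by rwa [← sq]⟩
    · refine ⟨_, Or.inl ?_, h⟩
      rcases htor m with e | e <;> rw [e] <;> simp
    · exact ⟨p ^ 2, Or.inr (by rw [if_pos h35]; rfl), h⟩
  have hex : ∀ n ∈ S, n ∈ Set.range (orderOf : ↥(Cfsg.Lie.chevG2.group F) → ℕ) := by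
    intro n hn
    rw [hS] at hn
    rcases hn with hn | hn
    · simp only [Set.mem_insert_iff, Set.mem_singleton_iff] at hn
      rcases hn with rfl | rfl | rfl | rfl | rfl
      · exact CfsgLib.Chevalley.G2Spectrum.exists_orderOf_mul (p := p) hF hq5 (Or.inr rfl)
      · exact CfsgLib.Chevalley.G2Spectrum.exists_orderOf_mul (p := p) hF hq5 (Or.inl rfl)
      · obtain ⟨x, hx⟩ := CfsgLib.Chevalley.G2Spectrum.exists_orderOf_sq_sub_one (F := F) hF
        exact ⟨x, by rw [hx, sq]⟩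
      · obtain ⟨x, hx, -⟩ := CfsgLib.Chevalley.G2Tori.exists_cyclic_torus 1 hF
        exact ⟨x, by rw [hx]; simp [CfsgLib.Chevalley.G2Tori.torOrd]⟩
      · obtain ⟨x, hx, -⟩ := CfsgLib.Chevalley.G2Tori.exists_cyclic_torus 0 hF
        exact ⟨x, by rw [hx]; simp [CfsgLib.Chevalley.G2Tori.torOrd]; omega⟩
    · split_ifs at hn with h35
      · rw [Set.mem_singleton_iff] at hn
        subst hn
        exact CfsgLib.Chevalley.G2Spectrum.exists_orderOf_char_sq h35
      · exact hn.elim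
  ext n
  constructor
  · rintro ⟨⟨x, rfl⟩, hmax⟩
    obtain ⟨m, hm, hd⟩ := hub x
    exact hmax m (hex m hm) hd ▸ hm
  · intro hn
    refine ⟨hex n hn, ?_⟩
    rintro _ ⟨y, rfl⟩ hd
    obtain ⟨m, hm, hd'⟩ := hub y
    exact Nat.dvd_antisymm ((hanti n hn m hm (hd.trans hd')).symm ▸ hd') hd

end Cfsg.Agent.S2519
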