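import Cfsg.Statements.S2520
import Cfsg.Agent.Lib.G2Spectrum.Roots
import Cfsg.Agent.Lib.G2Spectrum.Unitary
import Cfsg.Agent.Lib.G2Spectrum.Exist
import Cfsg.Agent.Lib.OrderDegrees.G2Iso
import Cfsg.Agent.S2371

set_option autoImplicit false
open Cfsg

namespace Cfsg.Agent.S2520

/-- Let F be a finite field with q = 2^a ≥ 4 elements and G₂(F) the Chevalley group of type G₂ over it. Every element order of G₂(F) maximal under divisibility lies in the set {8, 12, 2(q + 1), 2(q − 1), q² − 1, q² + q + 1, q² − q + 1}, and every member of that set is an element order of G₂(F). -/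
theorem result {F : Type*} [Field F] [Fintype F] (a : ℕ) (ha : 2 ≤ a) (hF : Fintype.card F = 2 ^ a) :
    {n : ℕ | n ∈ Set.range (orderOf : ↥(Cfsg.Lie.chevG2.group F) → ℕ) ∧ ∀ m ∈ Set.range (orderOf : ↥(Cfsg.Lie.chevG2.group F) → ℕ), n ∣ m → m = n} ⊆ ({8, 12, 2 * (2 ^ a + 1), 2 * (2 ^ a - 1), 2 ^ (2 * a) - 1, 2 ^ (2 * a) + 2 ^ a + 1, 2 ^ (2 * a) - 2 ^ a + 1} : Set ℕ) ∧
    ({8, 12, 2 * (2 ^ a + 1), 2 * (2 ^ a - 1), 2 ^ (2 * a) - 1, 2 ^ (2 * a) + 2 ^ a + 1, 2 ^ (2 * a) - 2 ^ a + 1} : Set ℕ) ⊆ Set.range (orderOf : ↥(Cfsg.Lie.chevG2.group F) → ℕ) := by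
  classical
  haveI : CharP F 2 := charP_of_card_eq_prime_pow (p := 2) (f := a) hF
  obtain ⟨φ⟩ := CfsgLib.OrderDegrees.G2.nonempty_equiv (F := F)
  have hq : (2 ^ (2 * a) : ℕ) = (2 ^ a) ^ 2 := by rw [← pow_mul, mul_comm]
  have hord : ∀ g : CfsgLib.OrderDegrees.G2.G6 F, orderOf (φ g) = orderOf (g : GL (Fin 6) F) := fun g => by
    rw [MulEquiv.orderOf_eq, Subgroup.orderOf_coe]
  rw [hq]
  have hS : ({8, 12, 2 * (2 ^ a + 1), 2 * (2 ^ a - 1), (2 ^ a) ^ 2 - 1, (2 ^ a) ^ 2 + 2 ^ a + 1,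
      (2 ^ a) ^ 2 - 2 ^ a + 1} : Set ℕ) ⊆ Set.range (orderOf : ↥(Cfsg.Lie.chevG2.group F) → ℕ) := by
    have push : ∀ {n : ℕ}, (∃ g ∈ CfsgLib.OrderDegrees.G2.G6 F, orderOf g = n) →
        n ∈ Set.range (orderOf : ↥(Cfsg.Lie.chevG2.group F) → ℕ) :=
      fun ⟨g, hg, hgn⟩ => ⟨φ ⟨g, hg⟩, (hord _).trans hgn⟩
    intro n hn
    simp only [Set.mem_insert_iff, Set.mem_singleton_iff] at hn
    rcases hn with rfl | rfl | rfl | rfl | rfl | rfl | rfl
    · exact push CfsgLib.G2Spectrum.exists_order_eight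
    · exact push CfsgLib.G2Spectrum.exists_order_twelve
    · exact push (CfsgLib.G2Spectrum.exists_order_two_mul_succ (by omega) hF).1
    · exact push (CfsgLib.G2Spectrum.exists_order_two_mul_succ (by omega) hF).2
    · exact hF ▸ push CfsgLib.G2Spectrum.exists_order_sq_sub_one
    · obtain ⟨H, hH, hcard, -⟩ := Cfsg.Agent.S2371.result (F := F) _ hF
        (le_trans (by norm_num : 3 ≤ 2 ^ 2) (Nat.pow_le_pow_right (by norm_num) ha))
      obtain ⟨g, hg⟩ := hH.exists_generator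
      exact ⟨g, by rw [Subgroup.orderOf_coe, orderOf_eq_card_of_forall_mem_zpowers hg, hcard]⟩
    · exact push (CfsgLib.G2Spectrum.exists_order_minus hF)
  refine ⟨fun n hn => ?_, hS⟩
  obtain ⟨⟨g, rfl⟩, hmax⟩ := hn
  obtain ⟨m, hm, hdvd⟩ := CfsgLib.G2Spectrum.exists_orderOf_dvd hF (φ.symm g).2
  rw [← hord, MulEquiv.apply_symm_apply] at hdvd
  rwa [← hmax m (hS hm) hdvd]

end Cfsg.Agent.S2520
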