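import Cfsg.Statements.S2524
import Cfsg.Agent.Lib.Generators.SpWeil.Model

set_option autoImplicit false
open Cfsg

namespace Cfsg.Agent.S2524

open CfsgLib.Generators.SpWeil CfsgLib.InvCentralizers.WeilRep CfsgLib.InvCentralizers.SympBound

variable {F : Type*} [Field F] [Fintype F] {n : ℕ}

local notation "Gp" => Matrix.symplecticGroup (Fin n) F

theorem exists_square_class (h2 : (2 : F) ≠ 0) : ∃ ν : Fˣ, (∀ r : F, r * r ≠ (ν : F)) ∧
    ∀ c : F, c ≠ 0 → ∃ (e : Bool) (b : F), b ≠ 0 ∧ c = (if e then 1 else (ν : F)) * (b * b) := by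
  classical
  have hr := ringChar_ne_two h2
  obtain ⟨a, ha⟩ := FiniteField.exists_nonsquare hr
  have ha0 : a ≠ 0 := fun e => ha ⟨0, by simp [e]⟩
  refine ⟨Units.mk0 a ha0, fun r e => ha ⟨r, e.symm⟩, fun c hc => ?_⟩
  by_cases hsq : IsSquare c
  · obtain ⟨r, rfl⟩ := hsq
    exact ⟨true, r, left_ne_zero_of_mul hc, by simp⟩
  · have h1 : quadraticChar F (c * a) = 1 := by
      rw [map_mul, quadraticChar_neg_one_iff_not_isSquare.2 hsq, quadraticChar_neg_one_iff_not_isSquare.2 ha]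
      norm_num
    obtain ⟨r, hr'⟩ := (quadraticChar_one_iff_isSquare (mul_ne_zero hc ha0)).1 h1
    refine ⟨false, r / a, div_ne_zero (fun e => mul_ne_zero hc ha0 (by rw [hr', e, mul_zero])) ha0, ?_⟩
    simp only [Bool.false_eq_true, if_false, Units.val_mk0]
    field_simp
    linear_combination hr'

/-- The classifying invariant of a character of rank one. -/
def HasKey (ν : Fˣ) (i₀ : Fin n) (χ : Gp → ℂ) (k : Bool × Bool) : Prop :=
  ∃ (m : ℕ) (ρ : Representation ℂ Gp (Fin m → ℂ)), ρ.IsIrreducible ∧ ρ.character = χ ∧ RankOne ρ ∧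
    (∃ u ∈ Wt ρ (if k.1 then (1 : F) else (ν : F)) (Pi.single i₀ (1 : F)), u ≠ 0) ∧
    ∀ x, ρ (CfsgLib.Laws.glSp n (-1 : GL (Fin n) F)) x = (if k.2 then (1 : ℂ) else -1) • x

theorem eq_of_hasKey (h2 : (2 : F) ≠ 0) (hn : 2 ≤ n) {ν : Fˣ} {i₀ : Fin n} {χ χ' : Gp → ℂ} {k : Bool × Bool}
    (h : HasKey ν i₀ χ k) (h' : HasKey ν i₀ χ' k) : χ = χ' := by
  classical
  obtain ⟨m, ρ, hρ, rfl, hR, ⟨u, hu, hu0⟩, hζ⟩ := h
  obtain ⟨m', ρ', hρ', rfl, hR', ⟨u', hu', hu0'⟩, hζ'⟩ := h'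
  exact character_eq ρ ρ' h2 hn hR hR' (by split_ifs <;> simp) i₀ hu hu0 hu' hu0' hζ hζ'

theorem key_of_small (h2 : (2 : F) ≠ 0) (hn : 2 ≤ n) {ν : Fˣ}
    (hν : ∀ c : F, c ≠ 0 → ∃ (e : Bool) (b : F), b ≠ 0 ∧ c = (if e then 1 else (ν : F)) * (b * b))
    (i₀ : Fin n) {m : ℕ} (ρ : Representation ℂ Gp (Fin m → ℂ)) [ρ.IsIrreducible] (hm : m ≠ 1)
    (hsmall : m * (2 * (Fintype.card F + 1)) <
      (Fintype.card F ^ n - 1) * (Fintype.card F ^ n - Fintype.card F)) :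
    (Fintype.card F ^ n - 1 ≤ 2 * m ∧ 2 * m ≤ Fintype.card F ^ n + 1) ∧
      ∃ k, HasKey ν i₀ ρ.character k := by
  classical
  have hfin : Module.finrank ℂ (Fin m → ℂ) = m := Module.finrank_fin_fun ℂ
  have hpos := CfsgLib.CharTheory.finrank_pos_of_isIrreducible ρ
  have hR : RankOne ρ := rankOne_of_finrank_lt ρ h2 hn (by rw [hfin]; exact hsmall)
  obtain ⟨c, hc, u, hu, hu0⟩ := exists_weight ρ h2 (by omega) i₀ hR (by omega)
  obtain ⟨e, b, hb, rfl⟩ := hν c hc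
  have hdeg := degree_bounds ρ h2 hn hR hc i₀ hu hu0
  rw [hfin] at hdeg
  obtain ⟨ζ, hζ1, hζ⟩ := exists_sign ρ
  refine ⟨hdeg, (e, decide (ζ = 1)), m, ρ, inferInstance, rfl, hR, exists_weight_of_square ρ i₀ hb hu hu0, ?_⟩
  intro x
  rw [hζ x]
  rcases hζ1 with rfl | rfl <;> norm_num

theorem card_ge (h2 : (2 : F) ≠ 0) (hn : 2 ≤ n) {ν : Fˣ} (hν : ∀ r : F, r * r ≠ (ν : F))
    {ε : ℂ} (hε : ε = 1 ∨ ε = -1) :
    2 ≤ Nat.card {χ : Cfsg.IrrCharacter Gp //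
      (χ : Gp → ℂ) 1 = (Module.finrank ℂ (par F n ε) : ℂ)} := by
  classical
  haveI : Finite Gp := Finite.of_injective _ Subtype.val_injective
  have hε2 : ε * ε = 1 := by rcases hε with rfl | rfl <;> norm_num
  haveI := weilE_isIrreducible (F := F) (n := n) h2 hn hε hε2
  set ρ := weilE (F := F) (n := n) h2 ε hε2
  let ρ' : Representation ℂ Gp (par F n ε) := ρ.comp (twist ν).toMonoidHom
  haveI : ρ'.IsIrreducible := CfsgLib.CharTheory.isIrreducible_comp ρ (twist ν).surjective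
  let a : {χ : Cfsg.IrrCharacter Gp // (χ : Gp → ℂ) 1 = (Module.finrank ℂ (par F n ε) : ℂ)} :=
    ⟨⟨ρ.character, CfsgLib.CharTheory.isIrrCharacter_character ρ⟩, ρ.char_one⟩
  let b : {χ : Cfsg.IrrCharacter Gp // (χ : Gp → ℂ) 1 = (Module.finrank ℂ (par F n ε) : ℂ)} :=
    ⟨⟨ρ'.character, CfsgLib.CharTheory.isIrrCharacter_character ρ'⟩, ρ'.char_one⟩
  haveI : Nontrivial {χ : Cfsg.IrrCharacter Gp // (χ : Gp → ℂ) 1 = (Module.finrank ℂ (par F n ε) : ℂ)} :=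
    ⟨a, b, fun e => character_ne_twist h2 hn hε hε2 hν (congrArg (fun x => (x.1 : Gp → ℂ)) e)⟩
  exact Finite.one_lt_card

theorem main (hodd : Odd (Fintype.card F)) (hn : 2 ≤ n) :
    Nat.card {χ : Cfsg.IrrCharacter Gp // (χ : Gp → ℂ) 1 = (((Fintype.card F) ^ n + 1 : ℕ) : ℂ) / 2} = 2 ∧
    Nat.card {χ : Cfsg.IrrCharacter Gp // (χ : Gp → ℂ) 1 = (((Fintype.card F) ^ n - 1 : ℕ) : ℂ) / 2} = 2 ∧
    ∀ χ : Cfsg.IrrCharacter Gp, (χ : Gp → ℂ) 1 ≠ 1 →
      (χ : Gp → ℂ) 1 ≠ (((Fintype.card F) ^ n + 1 : ℕ) : ℂ) / 2 →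
      (χ : Gp → ℂ) 1 ≠ (((Fintype.card F) ^ n - 1 : ℕ) : ℂ) / 2 →
      (((Fintype.card F) ^ n - 1 : ℕ) : ℝ) * (((Fintype.card F) ^ n - Fintype.card F : ℕ) : ℝ) /
        (2 * ((Fintype.card F : ℕ) + 1 : ℝ)) ≤ ‖(χ : Gp → ℂ) 1‖ := by
  classical
  have h2 : (2 : F) ≠ 0 := Ring.two_ne_zero fun h => by
    have : Even (Fintype.card F) := FiniteField.even_card_iff_char_two.1 h |> Nat.even_iff.2
    exact (Nat.not_even_iff_odd.2 hodd) this
  haveI : Finite Gp := Finite.of_injective _ Subtype.val_injective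
  obtain ⟨ν, hν, hcls⟩ := exists_square_class h2
  let i₀ : Fin n := ⟨0, by omega⟩
  set q := Fintype.card F with hq
  set Q := q ^ n with hQ
  have hQodd : Odd Q := hodd.pow
  have h9 : 9 ≤ Q := nine_le h2 hn
  have hq3 : 3 ≤ q := by
    have := Fintype.one_lt_card (α := F)
    obtain ⟨t, ht⟩ := hodd
    omega
  have hQq : q * q ≤ Q := by
    rw [hQ, ← pow_two]; exact Nat.pow_le_pow_right (by omega) hn
  obtain ⟨d, hd⟩ := hQodd
  have ep : (((Q + 1 : ℕ)) : ℂ) / 2 = ((d + 1 : ℕ) : ℂ) := by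
    rw [show Q + 1 = 2 * (d + 1) by omega, Nat.cast_mul, Nat.cast_ofNat, mul_div_cancel_left₀ _ two_ne_zero]
  have em : (((Q - 1 : ℕ)) : ℂ) / 2 = (d : ℂ) := by
    rw [show Q - 1 = 2 * d by omega, Nat.cast_mul, Nat.cast_ofNat, mul_div_cancel_left₀ _ two_ne_zero]
  have hbnd : (d + 1) * (2 * (q + 1)) < (Q - 1) * (Q - q) := by
    have h5 : 3 * q ≤ q * q := Nat.mul_le_mul_right q hq3
    obtain ⟨r, hr⟩ : ∃ r, Q = q + r := ⟨Q - q, by omega⟩
    rw [hr, Nat.add_sub_cancel_left, show q + r - 1 = 2 * d by omega]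
    nlinarith [Nat.mul_le_mul_left d (show 2 * q ≤ r by omega)]
  have hdim1 := finrank_odd (F := F) (n := n) h2
  have hdim2 := finrank_even (F := F) (n := n) h2
  -- at most four
  let T := {χ : Cfsg.IrrCharacter Gp // (χ : Gp → ℂ) 1 = ((d + 1 : ℕ) : ℂ) ∨ (χ : Gp → ℂ) 1 = (d : ℂ)}
  have hkey : ∀ x : T, ∃ k, HasKey ν i₀ (x.1 : Gp → ℂ) k := by
    rintro ⟨⟨χ, hχ⟩, hx⟩
    obtain ⟨m, ρ, hρ, rfl⟩ := hχ
    simp only [ρ.char_one, Module.finrank_fin_fun, Nat.cast_inj] at hx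
    refine (key_of_small h2 hn hcls i₀ ρ (by omega) ?_).2
    calc m * (2 * (q + 1)) ≤ (d + 1) * (2 * (q + 1)) := Nat.mul_le_mul_right _ (by omega)
      _ < _ := hbnd
  choose key hkey using hkey
  have hinj : Function.Injective key := fun x y e =>
    Subtype.ext (Subtype.ext (eq_of_hasKey h2 hn (hkey x) (e ▸ hkey y)))
  have h4 : Nat.card T ≤ 4 := by
    have := Nat.card_le_card_of_injective key hinj
    simpa using this
  let Tp := {χ : Cfsg.IrrCharacter Gp // (χ : Gp → ℂ) 1 = ((d + 1 : ℕ) : ℂ)}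
  let Tm := {χ : Cfsg.IrrCharacter Gp // (χ : Gp → ℂ) 1 = (d : ℂ)}
  have hsum : Nat.card Tp + Nat.card Tm ≤ Nat.card T := by
    rw [← Nat.card_sum]
    refine Nat.card_le_card_of_injective
      (Sum.elim (fun x : Tp => (⟨x.1, Or.inl x.2⟩ : T)) fun x : Tm => (⟨x.1, Or.inr x.2⟩ : T)) ?_
    have hne : ∀ (x : Tp) (y : Tm), x.1 ≠ y.1 := fun x y e => by
      have h1 := x.2
      rw [e, y.2, Nat.cast_inj] at h1
      omega
    rintro (x | x) (y | y) e <;> replace e := congrArg Subtype.val e <;> simp only [Sum.elim_inl, Sum.elim_inr] at e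
    · exact congrArg Sum.inl (Subtype.ext e)
    · exact absurd e (hne x y)
    · exact absurd e.symm (hne y x)
    · exact congrArg Sum.inr (Subtype.ext e)
  rw [show Fintype.card F ^ n = Q from rfl] at hdim1
  have hp := card_ge (n := n) h2 hn hν (ε := 1) (Or.inl rfl)
  have hm := card_ge (n := n) h2 hn hν (ε := -1) (Or.inr rfl)
  rw [show Module.finrank ℂ (par F n 1) = d + 1 by omega] at hp
  rw [show Module.finrank ℂ (par F n (-1)) = d by omega] at hm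
  change 2 ≤ Nat.card Tp at hp
  change 2 ≤ Nat.card Tm at hm
  rw [ep, em]
  refine ⟨(by omega : Nat.card Tp = 2), (by omega : Nat.card Tm = 2), ?_⟩
  rintro ⟨χ, m, ρ, hρ, rfl⟩ h1 hp' hm'
  simp only [ρ.char_one, Module.finrank_fin_fun] at h1 hp' hm' ⊢
  rw [Complex.norm_natCast, div_le_iff₀ (by positivity)]
  by_contra hlt
  push Not at hlt
  have hlt' : m * (2 * (q + 1)) < (Q - 1) * (Q - q) := by exact_mod_cast hlt
  obtain ⟨⟨ha, hb⟩, -⟩ := key_of_small h2 hn hcls i₀ ρ (fun e => h1 (by rw [e, Nat.cast_one])) hlt'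
  rw [show Fintype.card F ^ n = Q from rfl] at ha hb
  rcases (show m = d ∨ m = d + 1 by omega) with e | e
  · exact hm' (by rw [e])
  · exact hp' (by rw [e])

/-- Let F be a finite field of odd order q and G = Sp(2n, F) with n ≥ 2. Then G has exactly four irreducible complex characters of degree (q^n + 1)/2 or (q^n − 1)/2 (two of each), and every other non-principal irreducible character has degree at least (q^n − 1)(q^n − q)/(2(q + 1)). -/
theorem result {F : Type*} [Field F] [Fintype F] (hodd : Odd (Fintype.card F)) (n : ℕ) (hn : 2 ≤ n) :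
    Nat.card {χ : Cfsg.IrrCharacter ↥(Matrix.symplecticGroup (Fin n) F) // (χ : ↥(Matrix.symplecticGroup (Fin n) F) → ℂ) 1 = (((Fintype.card F) ^ n + 1 : ℕ) : ℂ) / 2} = 2 ∧
    Nat.card {χ : Cfsg.IrrCharacter ↥(Matrix.symplecticGroup (Fin n) F) // (χ : ↥(Matrix.symplecticGroup (Fin n) F) → ℂ) 1 = (((Fintype.card F) ^ n - 1 : ℕ) : ℂ) / 2} = 2 ∧
    ∀ χ : Cfsg.IrrCharacter ↥(Matrix.symplecticGroup (Fin n) F),
      (χ : ↥(Matrix.symplecticGroup (Fin n) F) → ℂ) 1 ≠ 1 →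
      (χ : ↥(Matrix.symplecticGroup (Fin n) F) → ℂ) 1 ≠ (((Fintype.card F) ^ n + 1 : ℕ) : ℂ) / 2 →
      (χ : ↥(Matrix.symplecticGroup (Fin n) F) → ℂ) 1 ≠ (((Fintype.card F) ^ n - 1 : ℕ) : ℂ) / 2 →
      (((Fintype.card F) ^ n - 1 : ℕ) : ℝ) * (((Fintype.card F) ^ n - Fintype.card F : ℕ) : ℝ) / (2 * ((Fintype.card F : ℕ) + 1 : ℝ)) ≤ ‖(χ : ↥(Matrix.symplecticGroup (Fin n) F) → ℂ) 1‖ := by
  exact main hodd hn

end Cfsg.Agent.S2524
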