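import Cfsg.Statements.S2525
import Cfsg.Agent.Lib.Chevalley.F4Prime.Adjacent
import Cfsg.Agent.Lib.Chevalley.F4Prime.Existence

set_option autoImplicit false
open Cfsg

namespace Cfsg.Agent.S2525

open CfsgLib.Chevalley CfsgLib.Chevalley.F4Prime

theorem no_product {F : Type*} [Field F] [Fintype F] {n : ℕ} (hF : Fintype.card F = 2 ^ n)
    {r s : ℕ} (hr : r.Prime) (hs : s.Prime) (hs2 : s ≠ 2) (hsq : ¬ s ∣ Fintype.card F)
    {x : Cfsg.Lie.chevF4.group F} (hx : orderOf x = r * s)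
    (h : (r = 2 ∧ orderOf ((Fintype.card F : ℕ) : ZMod s) ∈ ({8, 12} : Finset ℕ)) ∨
      (r ≠ 2 ∧ ¬ r ∣ Fintype.card F ∧
        orderOf ((Fintype.card F : ℕ) : ZMod r) < orderOf ((Fintype.card F : ℕ) : ZMod s) ∧
        (orderOf ((Fintype.card F : ℕ) : ZMod s) ∈ ({8, 12} : Finset ℕ) ∨
          (orderOf ((Fintype.card F : ℕ) : ZMod s) = 6 ∧
            orderOf ((Fintype.card F : ℕ) : ZMod r) ∈ ({3, 4} : Finset ℕ)) ∨
          (orderOf ((Fintype.card F : ℕ) : ZMod s) = 4 ∧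
            orderOf ((Fintype.card F : ℕ) : ZMod r) = 3)))) : False := by
  haveI := Fact.mk hr
  haveI := Fact.mk hs
  have h1 : orderOf (x ^ r) = s := by
    rw [orderOf_pow' _ hr.ne_zero, hx, Nat.gcd_mul_right_left, Nat.mul_div_cancel_left _ hr.pos]
  have h2 : orderOf (x ^ s) = r := by
    rw [orderOf_pow' _ hs.ne_zero, hx, Nat.gcd_mul_left_left, Nat.mul_div_cancel _ hs.pos]
  have hc : Commute (x ^ r) (x ^ s) := Commute.pow_pow_self x r s
  rcases h with ⟨hr2, he⟩ | ⟨hr2, hrq, hlt, he⟩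
  · have hs5 : 5 ≤ s := five_le_of_order hsq (by
      simp only [Finset.mem_insert, Finset.mem_singleton] at he; omega)
    exact (exists_common_set hF hr hs hs2 hc h1 h2 hs5 (Or.inl he)).1 hr2
  · have hs5 : 5 ≤ s := five_le_of_order hsq (by
      simp only [Finset.mem_insert, Finset.mem_singleton] at he; omega)
    rcases he with he | he
    · obtain ⟨-, i, hi, hi'⟩ := exists_common_set hF hr hs hs2 hc h1 h2 hs5 (Or.inl he)
      simp only [Finset.mem_insert, Finset.mem_singleton] at he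
      have := (ordSet_top i _ hi _ hi' he).1
      omega
    · have hr5 : 5 ≤ r := five_le_of_order hrq (by
        simp only [Finset.mem_insert, Finset.mem_singleton] at he; omega)
      obtain ⟨-, i, hi, hi'⟩ := exists_common_set hF hr hs hs2 hc h1 h2 hs5 (Or.inr hr5)
      have hp := ordSet_pairs i _ hi _ hi'
      simp only [Finset.mem_insert, Finset.mem_singleton] at he
      omega

theorem certs_two : ∀ e ∈ ({1, 2, 3, 4, 6, 8, 12} : Finset ℕ), e ∉ ({8, 12} : Finset ℕ) →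
    ∃ c ∈ certs, c.2.1 ≠ [] ∧ ∃ v ∈ c.2.2, e = v.1 := by
  decide

theorem certs_pairs : ∀ a ∈ ({1, 2, 3, 4, 6, 8, 12} : Finset ℕ), ∀ b ∈ ({1, 2, 3, 4, 6, 8, 12} : Finset ℕ),
    ¬ ((a < b ∧ (b ∈ ({8, 12} : Finset ℕ) ∨ (b = 6 ∧ a ∈ ({3, 4} : Finset ℕ)) ∨ (b = 4 ∧ a = 3))) ∨
      (b < a ∧ (a ∈ ({8, 12} : Finset ℕ) ∨ (a = 6 ∧ b ∈ ({3, 4} : Finset ℕ)) ∨ (a = 4 ∧ b = 3)))) →
    ∃ c ∈ certs, ∃ v ∈ c.2.2, ∃ v' ∈ c.2.2, a = v.1 ∧ b = v'.1 := by
  decide

/-- Let F be a finite field with q = 2^n elements and G = F₄(F). For an odd prime r let e(r, q) be the multiplicative order of q modulo r. Two distinct primes r, s dividing the order of G are non-adjacent in the prime graph of G (no element of order rs) if and only if, up to swapping r and s, either r = 2 and e(s, q) ∈ {8, 12}, or r, s are both odd with k = e(r, q) < l = e(s, q) and one of: l ∈ {8, 12}; l = 6 and k ∈ {3, 4}; l = 4 and k = 3. -/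
theorem result {F : Type*} [Field F] [Fintype F] (n : ℕ) (hn : 1 ≤ n) (hF : Fintype.card F = 2 ^ n)
    (r s : ℕ) (hr : r.Prime) (hs : s.Prime) (hrs : r ≠ s) (hrG : r ∣ Nat.card ↥(Cfsg.Lie.chevF4.group F)) (hsG : s ∣ Nat.card ↥(Cfsg.Lie.chevF4.group F)) :
    (¬ ∃ x : ↥(Cfsg.Lie.chevF4.group F), orderOf x = r * s) ↔
      ((r = 2 ∧ orderOf ((Fintype.card F : ℕ) : ZMod s) ∈ ({8, 12} : Finset ℕ)) ∨ (s = 2 ∧ orderOf ((Fintype.card F : ℕ) : ZMod r) ∈ ({8, 12} : Finset ℕ)) ∨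
       (r ≠ 2 ∧ s ≠ 2 ∧
         ((orderOf ((Fintype.card F : ℕ) : ZMod r) < orderOf ((Fintype.card F : ℕ) : ZMod s) ∧ (orderOf ((Fintype.card F : ℕ) : ZMod s) ∈ ({8, 12} : Finset ℕ) ∨ (orderOf ((Fintype.card F : ℕ) : ZMod s) = 6 ∧ orderOf ((Fintype.card F : ℕ) : ZMod r) ∈ ({3, 4} : Finset ℕ)) ∨ (orderOf ((Fintype.card F : ℕ) : ZMod s) = 4 ∧ orderOf ((Fintype.card F : ℕ) : ZMod r) = 3))) ∨
          (orderOf ((Fintype.card F : ℕ) : ZMod s) < orderOf ((Fintype.card F : ℕ) : ZMod r) ∧ (orderOf ((Fintype.card F : ℕ) : ZMod r) ∈ ({8, 12} : Finset ℕ) ∨ (orderOf ((Fintype.card F : ℕ) : ZMod r) = 6 ∧ orderOf ((Fintype.card F : ℕ) : ZMod s) ∈ ({3, 4} : Finset ℕ)) ∨ (orderOf ((Fintype.card F : ℕ) : ZMod r) = 4 ∧ orderOf ((Fintype.card F : ℕ) : ZMod s) = 3)))))) := by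
  have hcard : Nat.card (Cfsg.Lie.chevF4.group F) = Fintype.card F ^ 24 *
      (([2, 6, 8, 12] : List ℕ).map fun e => Fintype.card F ^ e - 1).prod := by
    have h := cardF4 (F := F)
    rw [one_mul] at h
    exact h
  have facts : ∀ p : ℕ, p.Prime → p ≠ 2 → p ∣ Nat.card ↥(Cfsg.Lie.chevF4.group F) →
      ¬ p ∣ Fintype.card F ∧
        orderOf ((Fintype.card F : ℕ) : ZMod p) ∈ ({1, 2, 3, 4, 6, 8, 12} : Finset ℕ) :=
    fun p hp hp2 hd => order_facts hF hp hp2 (hcard ▸ hd)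
  constructor
  · intro hno
    by_cases hr2 : r = 2
    · subst hr2
      have hs2 : s ≠ 2 := Ne.symm hrs
      left
      refine ⟨rfl, ?_⟩
      by_contra hne
      exact hno (exists_orderOf_two_mul hF hs hs2 (certs_two _ (facts s hs hs2 hsG).2 hne))
    · by_cases hs2 : s = 2
      · subst hs2
        right; left
        refine ⟨rfl, ?_⟩
        by_contra hne
        obtain ⟨x, hx⟩ := exists_orderOf_two_mul hF hr hr2 (certs_two _ (facts r hr hr2 hrG).2 hne)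
        exact hno ⟨x, by rw [hx, mul_comm]⟩
      · right; right
        refine ⟨hr2, hs2, ?_⟩
        by_contra hne
        exact hno (exists_orderOf_mul hF hr hs hrs hr2 hs2
          (certs_pairs _ (facts r hr hr2 hrG).2 _ (facts s hs hs2 hsG).2 hne))
  · rintro (⟨hr2, h⟩ | ⟨hs2, h⟩ | ⟨hr2, hs2, ⟨hlt, h⟩ | ⟨hlt, h⟩⟩) ⟨x, hx⟩
    · exact no_product hF hr hs (fun e => hrs (hr2.trans e.symm))
        (facts s hs (fun e => hrs (hr2.trans e.symm)) hsG).1 hx (Or.inl ⟨hr2, h⟩)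
    · exact no_product hF hs hr (fun e => hrs (e.trans hs2.symm))
        (facts r hr (fun e => hrs (e.trans hs2.symm)) hrG).1 (hx.trans (mul_comm r s))
        (Or.inl ⟨hs2, h⟩)
    · exact no_product hF hr hs hs2 (facts s hs hs2 hsG).1 hx
        (Or.inr ⟨hr2, (facts r hr hr2 hrG).1, hlt, h⟩)
    · exact no_product hF hs hr hr2 (facts r hr hr2 hrG).1 (hx.trans (mul_comm r s))
        (Or.inr ⟨hs2, (facts s hs hs2 hsG).1, hlt, h⟩)

end Cfsg.Agent.S2525
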