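import Cfsg.Statements.S2556
import Cfsg.Agent.Lib.TwoFusion.SuzukiSylowAut
import Cfsg.Agent.Lib.Suzuki.LieBridge

set_option autoImplicit false
open Cfsg

namespace Cfsg.Agent.S2556

/-- Let S be a Sylow 2-subgroup of the Suzuki group Sz(q), q = 2ⁿ with n = 2m + 1 ≥ 3 (realised as 4 × 4 matrices over the field with q elements). Then the largest normal 2-subgroup of the automorphism group of S is elementary abelian of order 2^(n²), and the automorphism group of S has order 2^(n²) · n · (q − 1). -/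
theorem result {S : Type*} [Group S] [Finite S] (m : ℕ) (hm : 1 ≤ m)
    {F : Type*} [Field F] [Fintype F] (hF : Fintype.card F = 2 ^ (2 * m + 1))
    (P : Sylow 2 ↥(Cfsg.Lie.Sz F (2 ^ (m + 1)))) (hS : Nonempty (S ≃* ↥(P : Subgroup ↥(Cfsg.Lie.Sz F (2 ^ (m + 1)))))) :
    Cfsg.IsElementaryAbelian 2 (Cfsg.pCore 2 (MulAut S)) ∧ Nat.card ↥(Cfsg.pCore 2 (MulAut S)) = 2 ^ ((2 * m + 1) ^ 2) ∧
      Nat.card (MulAut S) = 2 ^ ((2 * m + 1) ^ 2) * ((2 * m + 1) * (2 ^ (2 * m + 1) - 1)) := by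
  have h := CfsgLib.Suzuki.Hyp.of_fintype hm hF
  haveI := h.finite_group
  haveI := h.finite_lieSz
  haveI : Fact (Nat.Prime 2) := ⟨Nat.prime_two⟩
  obtain ⟨e⟩ := hS
  let ι := h.lieEquiv
  let P₁ : Sylow 2 (Cfsg.Lie.Sz F (2 ^ (m + 1))) := h.sylU.mapSurjective (f := ι.toMonoidHom) ι.surjective
  have e₁ : h.sylU ≃* (P₁ : Subgroup (Cfsg.Lie.Sz F (2 ^ (m + 1)))) :=
    (Subgroup.equivMapOfInjective _ ι.toMonoidHom ι.injective)
  let e₂ : S ≃* h.U := (e.trans (Sylow.equiv P P₁)).trans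
    (e₁.symm.trans (MulEquiv.subgroupCongr h.sylU_coe))
  let Φ₂ : MulAut S ≃* MulAut h.U :=
    { toFun := fun a => (e₂.symm.trans a).trans e₂
      invFun := fun a => (e₂.trans a).trans e₂.symm
      left_inv := fun a => MulEquiv.ext fun x => by simp
      right_inv := fun a => MulEquiv.ext fun x => by simp
      map_mul' := fun a b => MulEquiv.ext fun x => by simp [MulAut.mul_apply] }
  have hmap := CfsgLib.Cores.map_pCore_equiv (p := 2) Φ₂
  rw [CfsgLib.TwoFusion.SzAut.pCore_eq_ker h] at hmap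
  have hcard : Nat.card ↥(Cfsg.pCore 2 (MulAut S)) = 2 ^ ((2 * m + 1) ^ 2) := by
    rw [← CfsgLib.TwoFusion.SzAut.card_ker h, ← hmap,
      ← Nat.card_congr (Subgroup.equivMapOfInjective _ _ Φ₂.injective).toEquiv]
  obtain ⟨hc, he⟩ := CfsgLib.TwoFusion.SzAut.ker_elementary h
  refine ⟨⟨⟨⟨fun x y => Subtype.ext (Φ₂.injective ?_)⟩⟩, fun x hx => Φ₂.injective ?_⟩, hcard, ?_⟩
  · have hx' : Φ₂ x ∈ (CfsgLib.TwoFusion.SzAut.Φ h).ker := hmap ▸ ⟨x, x.2, rfl⟩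
    have hy' : Φ₂ y ∈ (CfsgLib.TwoFusion.SzAut.Φ h).ker := hmap ▸ ⟨y, y.2, rfl⟩
    show Φ₂ ((x : MulAut S) * y) = Φ₂ (y * x)
    rw [map_mul, map_mul]
    exact congrArg Subtype.val (hc.is_comm.comm ⟨_, hx'⟩ ⟨_, hy'⟩)
  · rw [map_pow, map_one]
    exact he _ (hmap ▸ ⟨x, hx, rfl⟩)
  · rw [Nat.card_congr Φ₂.toEquiv, CfsgLib.TwoFusion.SzAut.card_aut h]

end Cfsg.Agent.S2556
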