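import Cfsg.Statements.S2558
import Cfsg.Agent.Lib.CharDegrees.ClassCount.OClasses
import Cfsg.Agent.Lib.CharDegrees.ClassCount.OLower
-- import your own Cfsg.Agent.* helpers here

set_option autoImplicit false
open Cfsg

namespace Cfsg.Agent.S2558

/-- The number of conjugacy classes of the full orthogonal groups O⁺(2n,q) and O⁻(2n,q), q odd, 2n ≥ 4: for F a finite field of odd order q and n ≥ 2, the number k of conjugacy classes of the isometry group of the hyperbolic quadratic form Σ xᵢyᵢ on F^{2n}, and likewise of the elliptic form Σ xᵢyᵢ + (z₁² + a z₁z₂ + b z₂²) with anisotropic binary part, satisfies q^n/2 ≤ k ≤ 9.5·q^n. -/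
theorem result {F : Type*} [Field F] [Fintype F] (hodd : Odd (Fintype.card F)) (n : ℕ) (hn : 2 ≤ n) (a b : F) (hab : ∀ z₁ z₂ : F, z₁ ^ 2 + a * z₁ * z₂ + b * z₂ ^ 2 = 0 → z₁ = 0 ∧ z₂ = 0) :
    (Fintype.card F ^ n ≤ 2 * Nat.card (ConjClasses ↥(Cfsg.isometryGroup F (Cfsg.quadFormPlus n F))) ∧
      2 * Nat.card (ConjClasses ↥(Cfsg.isometryGroup F (Cfsg.quadFormPlus n F))) ≤ 19 * Fintype.card F ^ n) ∧
    (Fintype.card F ^ n ≤ 2 * Nat.card (ConjClasses ↥(Cfsg.isometryGroup F (Cfsg.quadFormMinus (n - 1) F a b))) ∧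
      2 * Nat.card (ConjClasses ↥(Cfsg.isometryGroup F (Cfsg.quadFormMinus (n - 1) F a b))) ≤ 19 * Fintype.card F ^ n) := by
  classical
  have hch : ringChar F ≠ 2 := fun h => by
    have := FiniteField.even_card_of_char_two h
    rw [Nat.odd_iff] at hodd
    omega
  have h2 : (2 : F) ≠ 0 := Ring.two_ne_zero hch
  obtain ⟨m, rfl⟩ := Nat.exists_eq_add_of_le' (show 1 ≤ n by omega)
  rw [Nat.add_sub_cancel]
  have hP : ∀ v, 2 * Cfsg.quadFormPlus (m + 1) F v =
      dotProduct v ((CfsgLib.Classes.hypMatrix (m + 1) F).mulVec v) := fun v => by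
    rw [CfsgLib.Classes.dotProduct_hypMatrix, Cfsg.quadFormPlus, Finset.mul_sum]
    exact Finset.sum_congr rfl fun i _ => by ring
  have hM : ∀ v, 2 * Cfsg.quadFormMinus m F a b v =
      dotProduct v ((CfsgLib.Classes.minusMatrix m a b).mulVec v) := fun v => by
    rw [← CfsgLib.Classes.polar_quadFormMinus, QuadraticMap.polar]
    have e : Cfsg.quadFormMinus m F a b (v + v) = 4 * Cfsg.quadFormMinus m F a b v := by
      simp only [Cfsg.quadFormMinus, Pi.add_apply, mul_add, Finset.mul_sum]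
      congr 1
      · exact Finset.sum_congr rfl fun i _ => by ring
      · ring
    rw [e]
    ring
  have hPs : (CfsgLib.Classes.hypMatrix (m + 1) F).transpose = CfsgLib.Classes.hypMatrix (m + 1) F := by
    simp [CfsgLib.Classes.hypMatrix, Matrix.fromBlocks_transpose]
  have hMs : (CfsgLib.Classes.minusMatrix m a b).transpose = CfsgLib.Classes.minusMatrix m a b := by
    have e : Matrix.transpose !![2, a; a, 2 * b] = !![2, a; a, 2 * b] := by
      ext i j; fin_cases i <;> fin_cases j <;> rfl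
    have e2 : (CfsgLib.Classes.hypMatrix m F).transpose = CfsgLib.Classes.hypMatrix m F := by
      simp [CfsgLib.Classes.hypMatrix, Matrix.fromBlocks_transpose]
    simp only [CfsgLib.Classes.minusMatrix, Matrix.fromBlocks_transpose, e, e2, Matrix.transpose_zero]
  have hP0 : (CfsgLib.Classes.hypMatrix (m + 1) F).det ≠ 0 := by
    rw [CfsgLib.Classes.det_hypMatrix]; exact pow_ne_zero _ (neg_ne_zero.2 one_ne_zero)
  have hM0 : (CfsgLib.Classes.minusMatrix m a b).det ≠ 0 := by
    rw [CfsgLib.Classes.det_minusMatrix]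
    refine mul_ne_zero (pow_ne_zero _ (neg_ne_zero.2 one_ne_zero)) fun h0 => ?_
    have := (hab (-a / 2) 1 (by field_simp; linear_combination h0)).2
    exact one_ne_zero this
  exact ⟨⟨CfsgLib.CharDegrees.ClassCount.Orth.pow_le_two_mul_card_classes hodd hn (by simp; omega) _ _ hP0 hPs hP,
      CfsgLib.CharDegrees.ClassCount.Orth.two_mul_card_classes_isometryGroup_le hodd (by omega) (by simp; omega) _ _ hP0 hPs hP⟩,
    ⟨CfsgLib.CharDegrees.ClassCount.Orth.pow_le_two_mul_card_classes hodd hn (by simp; omega) _ _ hM0 hMs hM,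
      CfsgLib.CharDegrees.ClassCount.Orth.two_mul_card_classes_isometryGroup_le hodd (by omega) (by simp; omega) _ _ hM0 hMs hM⟩⟩

end Cfsg.Agent.S2558
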