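import Cfsg.Statements.S2560
import Cfsg.Agent.Lib.CharDegrees.ClassCount.OOddMain
import Cfsg.Agent.Lib.ClassicalForms.Ortho.Standard
-- import your own Cfsg.Agent.* helpers here

set_option autoImplicit false
open Cfsg

namespace Cfsg.Agent.S2560

/-- The number of conjugacy classes of Ω(2n+1,q), q odd, n ≥ 2: for F a finite field of odd order q, the number k of conjugacy classes of the commutator subgroup of the isometry group of the quadratic form x₀² + Σ xᵢyᵢ on F^{2n+1} satisfies q^n/2 ≤ k ≤ 7.3·q^n. -/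
theorem result {F : Type*} [Field F] [Fintype F] (hodd : Odd (Fintype.card F)) (n : ℕ) (hn : 2 ≤ n) :
    Fintype.card F ^ n ≤ 2 * Nat.card (ConjClasses ↥(Cfsg.Omega F (Cfsg.quadFormOdd n F))) ∧
      10 * Nat.card (ConjClasses ↥(Cfsg.Omega F (Cfsg.quadFormOdd n F))) ≤ 73 * Fintype.card F ^ n := by
  have hch : ringChar F ≠ 2 := fun h => by
    have := FiniteField.even_card_of_char_two h
    rw [Nat.odd_iff] at hodd
    omega
  have h2 : (2 : F) ≠ 0 := Ring.two_ne_zero hch
  have hQ := CfsgLib.ClassicalForms.nondeg_iff_polarBilin.2 (CfsgLib.ClassicalForms.nondeg_qOdd (F := F) h2 n)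
  rw [show Cfsg.quadFormOdd n F = ⇑(CfsgLib.ClassicalForms.qOdd n F) from funext fun v => (CfsgLib.ClassicalForms.qOdd_apply n v).symm]
  have hcard : Fintype.card (Unit ⊕ (Fin n ⊕ Fin n)) = 2 * n + 1 := by simp; omega
  obtain ⟨h1, h3⟩ := CfsgLib.CharDegrees.ClassCount.Orth.Odd.omega_card_le hodd hn hcard hQ
  have h4 := CfsgLib.CharDegrees.ClassCount.Orth.Odd.pow_le_card_special hodd hn (CfsgLib.ClassicalForms.qOdd n F) hQ
  exact ⟨h4.trans h3, by omega⟩

end Cfsg.Agent.S2560
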