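import Cfsg.Statements.S2648
import Cfsg.Agent.Lib.Classes.SympWreath
import Cfsg.Agent.Lib.ClassicalForms.SLTwo.SylowTwo
-- import your own Cfsg.Agent.* helpers here

set_option autoImplicit false
open Cfsg

namespace Cfsg.Agent.S2648

open CfsgLib.Classes.DerivedWreath CfsgLib.Classes.SympWreath
open scoped MatrixGroups commutatorElement

/-- Let q be odd, F a field with q elements and n ≥ 1. A Sylow 2-subgroup R of the symplectic group Sp_{2n}(F) has derived length exactly k + 1, where 2^k ≤ 2n < 2^{k+1}: the (k+1)-st term of its derived series is trivial and the k-th is not. -/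
theorem result {F : Type*} [Field F] [Fintype F] [DecidableEq F] (q : ℕ) (hF : Fintype.card F = q) (hq : Odd q) (n : ℕ) (hn : 1 ≤ n) (R : Sylow 2 ↥(Matrix.symplecticGroup (Fin n) F)) : derivedSeries ↥(R : Subgroup ↥(Matrix.symplecticGroup (Fin n) F)) (Nat.log 2 (2 * n) + 1) = ⊥ ∧ derivedSeries ↥(R : Subgroup ↥(Matrix.symplecticGroup (Fin n) F)) (Nat.log 2 (2 * n)) ≠ ⊥ := by
  classical
  haveI : Fact (Nat.Prime 2) := ⟨Nat.prime_two⟩
  have hodd : Nat.card F % 2 = 1 := by rw [Nat.card_eq_fintype_card, hF]; exact Nat.odd_iff.mp hq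
  -- the factor `SL₂`
  have hQ : ∀ T : Subgroup SL(2, F), IsPGroup 2 T → dser T 2 = ⊥ := by
    intro T hT
    obtain ⟨S, hTS⟩ := hT.exists_le_sylow
    obtain ⟨g, ht, -, hSN, -⟩ := CfsgLib.SL2.sylow_two_exists_torus hodd S
    set C := Subgroup.centralizer ({g} : Set SL(2, F)) with hC
    haveI : IsCyclic C := CfsgLib.SL2.isCyclic_centralizer ht
    have h1 : dser T 1 ≤ C := by
      refine (dser_mono hTS 1).trans (Subgroup.commutator_le.mpr fun x hx y hy => ?_)
      rw [Subgroup.mem_centralizer_singleton_iff]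
      refine mul_inv_eq_iff_eq_mul.mp ?_
      have hinv : ∀ k : SL(2, F), k * g * k⁻¹ = g⁻¹ → k * g⁻¹ * k⁻¹ = g := fun k hk => by
        rw [← conj_inv, hk, inv_inv]
      have hx' := (CfsgLib.SL2.mem_normalizer_iff ht x).mp (hSN hx)
      have hy' := (CfsgLib.SL2.mem_normalizer_iff ht y).mp (hSN hy)
      have hxi := (CfsgLib.SL2.mem_normalizer_iff ht x⁻¹).mp (inv_mem (hSN hx))
      have hyi := (CfsgLib.SL2.mem_normalizer_iff ht y⁻¹).mp (inv_mem (hSN hy))
      rw [commutatorElement_def, show x * y * x⁻¹ * y⁻¹ * g * (x * y * x⁻¹ * y⁻¹)⁻¹ =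
        x * (y * (x⁻¹ * (y⁻¹ * g * y) * x) * y⁻¹) * x⁻¹ by group]
      have hxi' : x * g * x⁻¹ = g → x⁻¹ * g * x = g := fun h => by
        conv_lhs => rw [← h]
        group
      have hyi' : y * g * y⁻¹ = g → y⁻¹ * g * y = g := fun h => by
        conv_lhs => rw [← h]
        group
      have hxi'' : x * g * x⁻¹ = g⁻¹ → x⁻¹ * g * x = g⁻¹ := fun h => by
        have := hinv x h
        conv_lhs => rw [← this]
        group
      have hyi'' : y * g * y⁻¹ = g⁻¹ → y⁻¹ * g * y = g⁻¹ := fun h => by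
        have := hinv y h
        conv_lhs => rw [← this]
        group
      rcases hx' with hx' | hx' <;> rcases hy' with hy' | hy'
      · rw [hyi' hy', hxi' hx', hy', hx']
      · rw [hyi'' hy', show x⁻¹ * g⁻¹ * x = (x⁻¹ * g * x)⁻¹ by group, hxi' hx', hinv y hy', hx']
      · rw [hyi' hy', hxi'' hx', show y * g⁻¹ * y⁻¹ = (y * g * y⁻¹)⁻¹ by group, hy', hinv x hx']
      · rw [hyi'' hy', show x⁻¹ * g⁻¹ * x = (x⁻¹ * g * x)⁻¹ by group, hxi'' hx', inv_inv, hy', hinv x hx']
    have h2 : dser C 1 = ⊥ := Subgroup.commutator_eq_bot_iff_le_centralizer.mpr fun a ha =>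
      Subgroup.mem_centralizer_iff.mpr fun b hb => by
        letI := IsCyclic.commGroup (α := C)
        exact congrArg Subtype.val (mul_comm (⟨b, hb⟩ : C) ⟨a, ha⟩)
    rw [eq_bot_iff]
    refine (le_of_eq (dser_add T 1 1)).trans ?_
    exact (dser_mono h1 1).trans h2.le
  obtain ⟨T⟩ : Nonempty (Sylow 2 SL(2, F)) := inferInstance
  have hT1 : dser (T : Subgroup SL(2, F)) 1 ≠ ⊥ := fun h =>
    CfsgLib.ClassicalForms.sylow_sl2_not_comm hodd T fun x hx y hy =>
      (Subgroup.mem_centralizer_iff.mp (Subgroup.commutator_eq_bot_iff_le_centralizer.mp h hy) x hx)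
  -- the wreath product
  have hn0 : n ≠ 0 := by omega
  set l := Nat.log 2 n with hl
  have hlog : Nat.log 2 (2 * n) = 1 + l := by rw [mul_comm, Nat.log_mul_base one_lt_two hn0, add_comm]
  obtain ⟨S, hS, -, hSd⟩ := exists_dser_ne_bot (Q := SL(2, F)) (α := Fin n) (T : Subgroup SL(2, F)) T.isPGroup' hT1 l
    Finset.univ (by rw [Finset.card_univ, Fintype.card_fin]; exact Nat.pow_log_le_self 2 hn0)
  obtain ⟨P, hSP⟩ := hS.exists_le_sylow
  obtain ⟨R₀, hR₀⟩ := (P.isPGroup'.map (toSp n F)).exists_le_sylow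
  have hqF : Odd (Fintype.card F) := hF.symm ▸ hq
  have hR₀e : (P : Subgroup (Wr SL(2, F) (Fin n))).map (toSp n F) = R₀ := by
    refine Subgroup.eq_of_le_of_card_ge hR₀ (le_of_eq ?_)
    rw [Nat.card_congr (Subgroup.equivMapOfInjective _ _ toSp_injective).toEquiv.symm, R₀.card_eq_multiplicity,
      P.card_eq_multiplicity, ← (toSp n F).range.card_mul_index,
      Nat.card_congr (MonoidHom.ofInjective (toSp_injective (n := n) (F := F))).toEquiv,
      Nat.factorization_mul Nat.card_pos.ne' Subgroup.index_ne_zero_of_finite, Finsupp.add_apply,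
      Nat.factorization_eq_zero_of_not_dvd (toSp_index hqF), add_zero]
  have key : ∀ k, derivedSeries (R : Subgroup (Matrix.symplecticGroup (Fin n) F)) k = ⊥ ↔
      dser (P : Subgroup (Wr SL(2, F) (Fin n))) k = ⊥ := fun k => by
    have e : (R₀ : Subgroup (Matrix.symplecticGroup (Fin n) F)) ≃* (R : Subgroup (Matrix.symplecticGroup (Fin n) F)) :=
      Sylow.equiv R₀ R
    rw [← map_derivedSeries_eq (f := e.toMonoidHom) e.surjective, Subgroup.map_eq_bot_iff_of_injective _ e.injective,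
      derivedSeries_eq_bot_iff, ← hR₀e, ← map_dser, Subgroup.map_eq_bot_iff_of_injective _ toSp_injective]
  rw [hlog]
  refine ⟨(key _).mpr ?_, fun h => hSd (le_bot_iff.mp (((dser_mono hSP _).trans ((key _).mp h).le)))⟩
  rw [show 1 + l + 1 = l + 2 by omega]
  exact dser_wr_eq_bot hQ (by rw [Nat.card_eq_fintype_card, Fintype.card_fin]; exact Nat.lt_pow_succ_log_self one_lt_two n) _ P.isPGroup'

end Cfsg.Agent.S2648
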