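import Cfsg.Statements.S3081
import Cfsg.Agent.Lib.Replacement.ZJQdFree
import Cfsg.Agent.Lib.QdFree.Stable

set_option autoImplicit false
open Cfsg

namespace Cfsg.Agent.S3081

/-- Let p be an odd prime, G a finite group in which Qd(p) (the natural semidirect product of an elementary abelian group of order p² by SL₂(p)) is not involved, P a Sylow p-subgroup and D a subgroup of P strongly closed in P with respect to G. Then N_G(Z(J(D))) controls strong G-fusion in P (for every subset A of P and every g ∈ G with gAg⁻¹ ⊆ P, some element of that normalizer acts on A exactly as g does; J(D) is generated by the abelian subgroups of D of largest order), and so does N_G(Ω₁(Z(J_e(D)))) (J_e(D) generated by the elementary abelian subgroups of largest order). -/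
theorem result {G : Type*} [Group G] [Finite G] {p : ℕ} [Fact p.Prime] (hp : p ≠ 2) (P : Sylow p G) (D : Subgroup G) (hD : Cfsg.IsStronglyClosed D (P : Subgroup G)) (hqd : ¬ Cfsg.Involves ↥(Cfsg.qd p) G) : (∀ A : Set G, A ⊆ (P : Subgroup G) → Cfsg.ControlsStrongFusionOf (Subgroup.normalizer ((Cfsg.centerThompsonAOf D) : Set G)) (P : Subgroup G) A) ∧ (∀ A : Set G, A ⊆ (P : Subgroup G) → Cfsg.ControlsStrongFusionOf (Subgroup.normalizer ((Cfsg.omegaOne p (Cfsg.centerThompsonOf p D)) : Set G)) (P : Subgroup G) A) := by
  have key : ∀ e : ℕ, (e = 0 ∨ e = p) → ∀ A : Set G, A ⊆ (P : Subgroup G) →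
      Cfsg.ControlsStrongFusionOf (Subgroup.normalizer (CfsgLib.Replacement.zcore e D : Set G))
        (P : Subgroup G) A := by
    intro e he A hA
    refine ⟨hA, fun g hg => ?_⟩
    obtain ⟨x, hx, hxe⟩ := CfsgLib.Replacement.exists_normalizer_zcore_conj_eq_of_not_involves hp he
      (X := ↥(Cfsg.qd p)) (fun H _ _ h => CfsgLib.QdFree.isNormalizerPStable_of_not_involves_qd hp h)
      hqd P hD (T := Subgroup.closure A) ((Subgroup.closure_le _).2 hA) (g := g) (by
        rw [CfsgLib.PushUp.cmap, MonoidHom.map_closure, Subgroup.closure_le]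
        exact hg)
    exact ⟨x, hx, fun a ha => (hxe a (Subgroup.subset_closure ha)).symm⟩
  refine ⟨?_, ?_⟩
  · rw [CfsgLib.Replacement.centerThompsonAOf_eq_zcore]
    exact key 0 (Or.inl rfl)
  · rw [CfsgLib.Replacement.omegaOne_centerThompsonOf_eq_zcore]
    exact key p (Or.inr rfl)
end Cfsg.Agent.S3081
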