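import Cfsg.Statements.S2794
import Cfsg.Agent.Lib.PGroups.QdObstruction
import Cfsg.Agent.Lib.NormalPComplement.GlaubermanThompson
import Cfsg.Agent.S3081

set_option autoImplicit false
open Cfsg

namespace Cfsg.Agent.S2794

open CfsgLib

universe u

/-- `Q ↦ Z(J(Q))`, abelian `J`. -/
def zjaFunctor : ∀ (Q : Type u) [Group Q], Subgroup Q :=
  fun Q _ => centerThompsonAOf (⊤ : Subgroup Q)

theorem inducedFunctor_zjaFunctor {G : Type u} [Group G] (P : Subgroup G) :
    inducedFunctor zjaFunctor P = centerThompsonAOf P := by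
  show (_ ⊓ _ : Subgroup P).map P.subtype = _ ⊓ _
  rw [ThompsonJ.map_inf_centralizer P.subtype_injective,
    NormalPComplement.map_thompsonSubgroupAOf P.subtype_injective, ← MonoidHom.range_eq_map,
    Subgroup.range_subtype]

theorem isCharPFunctor_zjaFunctor {p : ℕ} [Fact p.Prime] : IsCharPFunctor.{u} p zjaFunctor := by
  refine ⟨fun Q _ _ hQ hne => ?_, fun Q R _ _ _ hQ φ => ?_⟩
  · exact (NormalPComplement.isPFunctor_centerThompsonAOf (p := p)).ne_bot Q ⊤ (hQ.to_subgroup ⊤)
      top_ne_bot
  · show (_ ⊓ _ : Subgroup Q).map φ.toMonoidHom = _ ⊓ _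
    rw [ThompsonJ.map_inf_centralizer (f := φ.toMonoidHom) φ.injective,
      NormalPComplement.map_thompsonSubgroupAOf (f := φ.toMonoidHom) φ.injective,
      Subgroup.map_top_of_surjective _ (show Function.Surjective φ.toMonoidHom from φ.surjective)]


/-- For an odd prime p and a finite group G, the group Qd(p) is not involved in G if and only if in every section K/R of G, for every Sylow p-subgroup S* of K/R, the centre of J(S*) (J generated by the abelian subgroups of largest order) controls strong fusion in K/R. -/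
theorem result {G : Type*} [Group G] [Finite G] {p : ℕ} [Fact p.Prime] (hp : p ≠ 2) : ¬ Cfsg.Involves ↥(Cfsg.qd p) G ↔ ∀ (K R : Subgroup G) [hR : (R.subgroupOf K).Normal], ∀ T : Sylow p (K ⧸ R.subgroupOf K), Cfsg.ControlsStrongFusion p (Cfsg.centerThompsonAOf (T : Subgroup (K ⧸ R.subgroupOf K))) := by
  constructor
  · intro h K R _ T
    have h' := Replacement.not_involves_quotient (Replacement.not_involves_subgroup h K) (R.subgroupOf K)
    exact ⟨T, inf_le_left.trans (NormalPComplement.thompsonSubgroupAOf_le _),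
      (Cfsg.Agent.S3081.result hp T T ⟨le_rfl, fun _ _ _ hh => hh⟩ h').1⟩
  · rintro h ⟨K, R, hR, ⟨e⟩⟩
    obtain ⟨T⟩ := (Sylow.nonempty : Nonempty (Sylow p (K ⧸ R.subgroupOf K)))
    have hc := h K R T
    rw [← inducedFunctor_zjaFunctor] at hc
    exact PGroups.not_controlsStrongFusion_qd isCharPFunctor_zjaFunctor e T hc

end Cfsg.Agent.S2794
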