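import Cfsg.Statements.S5193
import Cfsg.Agent.Lib.FusionSub.FactorApps
import Cfsg.Agent.Lib.FusionSub.CentreTheorem
import Cfsg.Agent.Lib.FusionSub.LocalModelFree
-- import your own Cfsg.Agent.* helpers here

set_option autoImplicit false
open Cfsg

namespace Cfsg.Agent.S5193

open Cfsg Cfsg.FusionSystem CfsgLib.Alperin CfsgLib.FusionModels CfsgLib.FusionSub

/-- Glauberman's Theorem for fusion systems. Let F be a saturated fusion system over a finite p-group S, let J(S) be the subgroup generated by the abelian subgroups of S of largest order, and let N be the normalizer fusion system of J(S) in F (a fusion system over N_S(J(S)) = S). Then every p-th power of an element of Z(S) that lies in the centre of N lies in the centre of F; and if p is odd, or if the symmetric group of degree 4 is not involved in any model of the normalizer system of a fully normalized F-centric subgroup (F is S₄-free), then the centre of N equals the centre of F. -/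
theorem result {Ω : Type*} [Group Ω] {S : Subgroup Ω} [Finite S] (p : ℕ) [Fact p.Prime] (hS : IsPGroup p S) (F : Cfsg.FusionSystem S) (hF : F.IsSaturated p) (N : Cfsg.FusionSystem (Cfsg.FusionSystem.normalizerIn S (Cfsg.thompsonSubgroupAOf S))) (hN : F.IsNormalizerSystem (Cfsg.thompsonSubgroupAOf S) N) : Subgroup.closure ((fun z : Ω => z ^ p) '' ((S ⊓ Subgroup.centralizer (S : Set Ω) : Subgroup Ω) : Set Ω)) ⊓ N.center ≤ F.center ∧ (p ≠ 2 ∨ F.IsSectionFree p (Equiv.Perm (Fin 4)) → N.center = F.center) := by
  have hW := isLocalFunctor_thompson F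
  have hYS : Cfsg.thompsonSubgroupAOf S ≤ S := hW.le le_rfl
  have hNS : normalizerIn S (Cfsg.thompsonSubgroupAOf S) = S :=
    le_antisymm (normalizerIn_le S _) fun x hx => ⟨hx, hW.le_normalizer hx⟩
  haveI : Finite ↥(normalizerIn S (Cfsg.thompsonSubgroupAOf S)) :=
    finite_of_le (normalizerIn_le S _)
  have hZN : N.IsCentral N.center := CfsgLib.FusionExamples.isCentral_center N
  have hZ : N.center ≤ S ⊓ Subgroup.centralizer (S : Set Ω) := fun z hz => by
    have := le_center_of_isCentral hZN hz
    exact ⟨this.1.1, Subgroup.centralizer_le hNS.ge this.2⟩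
  -- a subgroup of `Z(N)` on which all local models act trivially is central in `F`
  have key : ∀ V : Subgroup Ω, V ≤ N.center →
      (∀ (Q : Subgroup Ω), F.IsFullyNormalized Q → F.IsCentric Q →
        ∀ (L : Type _) [Group L] (ι : ↥(normalizerIn S Q) →* L) (ρ : L →* MulAut Q)
          (E : FusionSystem (centralizerIn S V)), F.IsCentralizerSystem V E →
        IsLocalModel F p Q (F.autGroup Q) ι ρ →
        (∀ n ∈ Subgroup.normalizer
          ((((Cfsg.thompsonSubgroupAOf (normalizerIn S Q)).subgroupOf (normalizerIn S Q)).map ι :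
            Subgroup L) : Set L), ConjGood E ι n) → ∀ l : L, ConjGood E ι l) →
      V ≤ F.center := by
    intro V hVN hL
    have hV : V ≤ S ⊓ Subgroup.centralizer (S : Set Ω) := hVN.trans hZ
    have hVS : V ≤ S := fun v hv => (hV hv).1
    obtain ⟨C, hC⟩ := CfsgLib.FusionBasics.exists_centralizerSystem F hVS
    have hfix := fun P φ (hφ : φ ∈ F.Hom P) hVP hv =>
      mem_centralizerSystem_of_fix (F := F) hV hC hφ hVP hv
    have hsub : F.IsSubsystemOf C := by
      refine localGlobal hS hF hW hV hfix (fun P φ hφ hYP hmap => ?_)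
        fun Q hQ hQc L _ ι ρ h hgood => hL Q hQ hQc L ι ρ C hC h hgood
      have hVP : V ≤ P := fun v hv => hYP (hW.centre_le le_rfl (hV hv))
      exact hfix P φ hφ hVP fun v => apply_eq_of_isCentral hZN
        (mem_normalizerSystem_of_map_eq hW.le_normalizer hN hφ hYP hmap) (hVN v.2) (hVP v.2)
    refine le_sSup (s := {Q | F.IsCentral Q}) ⟨hVS, fun P φ hφ => ?_⟩
    have h' := hsub P hφ
    rw [hC P] at h'
    exact h'.2.2.2
  refine ⟨key _ inf_le_right ?_, fun hp => le_antisymm (key _ le_rfl ?_)
    (center_le_center_normalizerSystem hYS hW.le_normalizer hN)⟩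
  · intro Q _ hQc L _ ι ρ E hE h hgood
    refine conjGood_of_factorization hS hQc h ?_ (fun P φ hφ hVP hv =>
      mem_centralizerSystem_of_fix (inf_le_right.trans hZ) hE hφ hVP hv) hgood
    refine inf_le_left.trans ?_
    rw [Subgroup.closure_le]
    rintro _ ⟨x, hx, rfl⟩
    exact Subgroup.subset_closure ⟨x, hx, rfl⟩
  · intro Q hQ hQc L _ ι ρ E hE h hgood l
    haveI := h.finite
    refine conjGood_of_centralizes hQc h hZ (fun P φ hφ hVP hv =>
      mem_centralizerSystem_of_fix hZ hE hφ hVP hv) fun v hv => ?_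
    obtain ⟨T, hT⟩ := h.exists_sylow hS
    have hUS := normalizerIn_le S Q
    haveI := finite_of_le hUS
    have hJ : ((Cfsg.thompsonSubgroupAOf (normalizerIn S Q)).subgroupOf (normalizerIn S Q)).map ι =
        Cfsg.thompsonSubgroupAOf (T : Subgroup L) := thompson_image h.inj hT
    have hcore : (Q.subgroupOf (normalizerIn S Q)).map ι ≤ Cfsg.pCore p L :=
      CfsgLib.Cores.le_pCore (hN := h.map_normal hQ.1)
        (((isPGroup_of_le hS hUS).to_subgroup _).map ι)
    have hCL : Subgroup.centralizer ((Cfsg.pCore p L : Subgroup L) : Set L) ≤ Cfsg.pCore p L :=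
      fun x hx => hcore (h.centralizer_le hQ.1 (Subgroup.centralizer_le hcore hx))
    have hvW : (v : Ω) ∈ Cfsg.thompsonSubgroupAOf (normalizerIn S Q) :=
      hW.centre_le hUS ⟨v.2, Subgroup.centralizer_le hUS (hZ hv).2⟩
    have hcomm : ∀ n ∈ Subgroup.normalizer
        ((((Cfsg.thompsonSubgroupAOf (normalizerIn S Q)).subgroupOf (normalizerIn S Q)).map ι :
          Subgroup L) : Set L), n * ι v = ι v * n := by
      intro n hn
      refine conj_eq_of_conjGood (E := E) h.inj (hW.le hUS) (hgood n hn) (fun x => ?_) hvW ?_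
      · exact Subgroup.map_le_range ι _ (mem_normalizer_conj hn ⟨_, x.2, rfl⟩)
      · intro φ hφ
        rw [hE _] at hφ
        obtain ⟨-, -, -, ψ, -, hψx, hψz⟩ := hφ
        exact (hψx ⟨v, hvW⟩).symm.trans ((congrArg ψ (Subtype.ext rfl)).trans (hψz ⟨v, hv⟩))
    refine Subgroup.mem_center_iff.1 (centre_theorem ?_ hCL T (hT ▸ ⟨v, rfl⟩) ?_ (hJ ▸ hcomm)) l
    · exact hp.imp id fun hfree => not_involves_of_sectionFree hS hfree hQ hQc h
    · rw [hT]
      rintro _ ⟨w, rfl⟩
      rw [← map_mul, ← map_mul]
      exact congrArg ι (Subtype.ext ((hZ hv).2 w (hUS w.2)))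

end Cfsg.Agent.S5193
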