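import Cfsg.Statements.S2799
import Cfsg.Agent.S5193
import Cfsg.Agent.Lib.FusionSub.GroupModel
-- import your own Cfsg.Agent.* helpers here

set_option autoImplicit false
open Cfsg

namespace Cfsg.Agent.S2799

open Cfsg Cfsg.FusionSystem CfsgLib.Alperin CfsgLib.FusionSub

/-- Let S be a Sylow p-subgroup of the finite group G, J(S) the subgroup generated by the abelian subgroups of S of largest order, and x an element of S lying in the centre of N_G(J(S)). Assume that p is odd, or that x is a p-th power of an element of Z(S), or that the symmetric group of degree 4 is not involved in G. Then x is weakly closed in S with respect to G: every G-conjugate of x that lies in S equals x. -/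
theorem result {G : Type*} [Group G] [Finite G] {p : ℕ} [Fact p.Prime] (S : Sylow p G) (x : G) (hxS : x ∈ (S : Subgroup G)) (hxZ : x ∈ (Subgroup.center ↥(Subgroup.normalizer ((Cfsg.thompsonSubgroupAOf (S : Subgroup G)) : Set G))).map (Subgroup.normalizer ((Cfsg.thompsonSubgroupAOf (S : Subgroup G)) : Set G)).subtype) (h : p ≠ 2 ∨ (∃ z ∈ (S : Subgroup G) ⊓ Subgroup.centralizer ((S : Subgroup G) : Set G), z ^ p = x) ∨ ¬ Cfsg.Involves (Equiv.Perm (Fin 4)) G) : ∀ g : G, g * x * g⁻¹ ∈ (S : Subgroup G) → g * x * g⁻¹ = x := by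
  set F := Cfsg.groupFusionSystem (S : Subgroup G) with hFdef
  have hF : F.IsSaturated p := CfsgLib.FusionBasics.group_isSaturated S
  have hW := isLocalFunctor_thompson F
  have hJS : Cfsg.thompsonSubgroupAOf (S : Subgroup G) ≤ (S : Subgroup G) := hW.le le_rfl
  obtain ⟨N, hN⟩ := CfsgLib.FusionBasics.exists_normalizerSystem F hJS
  obtain ⟨⟨xm, hxm⟩, hxc, rfl⟩ := hxZ
  have hcomm : ∀ m ∈ Subgroup.normalizer
      ((Cfsg.thompsonSubgroupAOf (S : Subgroup G)) : Set G), m * xm = xm * m := fun m hm =>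
    congrArg Subtype.val (Subgroup.mem_center_iff.1 hxc ⟨m, hm⟩)
  have hNS : ∀ g ∈ (S : Subgroup G), g ∈ normalizerIn (S : Subgroup G)
      (Cfsg.thompsonSubgroupAOf (S : Subgroup G)) := fun g hg => ⟨hg, hW.le_normalizer hg⟩
  have hxN : xm ∈ N.center := by
    refine le_sSup (s := {Q | N.IsCentral Q}) ?_ (Subgroup.mem_zpowers xm)
    refine ⟨(Subgroup.zpowers_le.2 (hNS _ hxS)), fun P φ hφ => ?_⟩
    rw [hN P] at hφ
    obtain ⟨-, hP, -, ψ, hψ, hψx, hψJ⟩ := hφ
    obtain ⟨hPJ, hψS, g, hg⟩ := hψ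
    have hgJ : g ∈ Subgroup.normalizer
        ((Cfsg.thompsonSubgroupAOf (S : Subgroup G)) : Set G) := by
      rw [Subgroup.mem_normalizer_iff_map_conj_eq]
      refine Eq.trans ?_ hψJ
      ext y
      constructor
      · rintro ⟨j, hj, rfl⟩
        exact ⟨⟨j, Subgroup.mem_sup_right hj⟩, hj, hg _⟩
      · rintro ⟨w, hw, rfl⟩
        exact ⟨w, hw, (hg w).symm⟩
    have hX : (P ⊔ Subgroup.zpowers xm) ⊔ Cfsg.thompsonSubgroupAOf (S : Subgroup G) ≤
        (S : Subgroup G) :=
      sup_le (sup_le (hP.trans (normalizerIn_le _ _)) (Subgroup.zpowers_le.2 hxS)) hJS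
    have hmemS : ∀ y ∈ (P ⊔ Subgroup.zpowers xm) ⊔ Cfsg.thompsonSubgroupAOf (S : Subgroup G),
        g * y * g⁻¹ ∈ (S : Subgroup G) := by
      have hle : (P ⊔ Subgroup.zpowers xm) ⊔ Cfsg.thompsonSubgroupAOf (S : Subgroup G) ≤
          (S : Subgroup G).comap (MulAut.conj g).toMonoidHom := by
        refine sup_le (sup_le (fun y hy => ?_) ?_) (fun y hy => ?_)
        · show g * y * g⁻¹ ∈ (S : Subgroup G)
          have := hψS ⟨y, Subgroup.mem_sup_left hy⟩
          rwa [hg] at this
        · rw [Subgroup.zpowers_le]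
          show g * xm * g⁻¹ ∈ (S : Subgroup G)
          rw [hcomm g hgJ, mul_inv_cancel_right]
          exact hxS
        · exact hJS (mem_normalizer_conj hgJ hy)
      exact fun y hy => hle hy
    have hmap : (((Cfsg.thompsonSubgroupAOf (S : Subgroup G)).subgroupOf
        ((P ⊔ Subgroup.zpowers xm) ⊔ Cfsg.thompsonSubgroupAOf (S : Subgroup G))).map
          (conjHom _ g)) = Cfsg.thompsonSubgroupAOf (S : Subgroup G) := by
      refine Subgroup.eq_of_le_of_card_ge ?_ ?_
      · rintro _ ⟨w, hw, rfl⟩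
        exact mem_normalizer_conj hgJ hw
      · rw [Subgroup.card_map_of_injective
          (F.injective_of_mem (CfsgLib.FusionBasics.conjHom_mem_group g hX hmemS)),
          Nat.card_congr (Subgroup.subgroupOfEquivOfLe (le_sup_right :
            Cfsg.thompsonSubgroupAOf (S : Subgroup G) ≤ _)).toEquiv]
    have hmemN := mem_normalizerSystem_of_map_eq hW.le_normalizer hN
      (CfsgLib.FusionBasics.conjHom_mem_group g hX hmemS) le_sup_right hmap
    refine ⟨_, restrict_mem hmemN le_sup_left, fun y => ?_, fun z => ?_⟩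
    · exact (hg (Subgroup.inclusion le_sup_left y)).symm.trans (hψx y)
    · obtain ⟨k, hk⟩ := Subgroup.mem_zpowers_iff.1 z.2
      show g * (z : G) * g⁻¹ = z
      rw [← hk, ((show Commute g xm from hcomm g hgJ).zpow_right k).eq, mul_inv_cancel_right]
  have hxF : xm ∈ F.center := by
    obtain ⟨h1, h2⟩ := Cfsg.Agent.S5193.result p S.isPGroup' F hF N hN
    rcases h with hp | ⟨z, hz, hzx⟩ | hfree
    · rw [← h2 (Or.inl hp)]; exact hxN
    · exact h1 ⟨Subgroup.subset_closure ⟨z, hz, hzx⟩, hxN⟩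
    · rw [← h2 (Or.inr (group_isSectionFree S hfree))]; exact hxN
  intro g hgS
  have hmem : conjHom (Subgroup.zpowers xm) g ∈ F.Hom (Subgroup.zpowers xm) := by
    refine CfsgLib.FusionBasics.conjHom_mem_group g (Subgroup.zpowers_le.2 hxS) fun y hy => ?_
    obtain ⟨k, rfl⟩ := Subgroup.mem_zpowers_iff.1 hy
    rw [← conj_zpow]
    exact Subgroup.zpow_mem _ hgS k
  exact apply_eq_of_isCentral (CfsgLib.FusionExamples.isCentral_center F) hmem hxF
    (Subgroup.mem_zpowers xm)

end Cfsg.Agent.S2799
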