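import Cfsg.Statements.S2896
import Cfsg.Agent.Lib.LargeSubgroups.ParabolicChar
-- import your own Cfsg.Agent.* helpers here

set_option autoImplicit false
open Cfsg

namespace Cfsg.Agent.S2896

open CfsgLib.LargeSubgroups

/-- Let p be a prime dividing the order of the finite group G, S a Sylow p-subgroup of G and X a subgroup of S. (i) If some nontrivial element z of the centre of X has F*(C_G(z)) = O_p(C_G(z)), then F*(N_G(X)) = O_p(N_G(X)). (ii) G has parabolic characteristic p if and only if F*(C_G(z)) = O_p(C_G(z)) for every nontrivial z ∈ Ω₁(Z(S)). (iii) If F*(C_G(z)) = O_p(C_G(z)) for every element z of S of order p, then G has local characteristic p. -/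
theorem result {G : Type*} [Group G] [Finite G] {p : ℕ} [Fact p.Prime] (hdiv : p ∣ Nat.card G) (S : Sylow p G) (X : Subgroup G) (hX : X ≤ (S : Subgroup G)) : (∀ z : G, z ≠ 1 → z ∈ X → (∀ x ∈ X, x * z = z * x) → Cfsg.generalizedFittingSubgroup ↥(Subgroup.centralizer ({z} : Set G)) = Cfsg.pCore p ↥(Subgroup.centralizer ({z} : Set G)) → Cfsg.generalizedFittingSubgroup ↥(Subgroup.normalizer (X : Set G)) = Cfsg.pCore p ↥(Subgroup.normalizer (X : Set G))) ∧ (Cfsg.IsOfParabolicCharacteristic p G ↔ ∀ z : G, z ≠ 1 → z ∈ Cfsg.omegaOne p ((S : Subgroup G) ⊓ Subgroup.centralizer ((S : Subgroup G) : Set G)) → Cfsg.generalizedFittingSubgroup ↥(Subgroup.centralizer ({z} : Set G)) = Cfsg.pCore p ↥(Subgroup.centralizer ({z} : Set G))) ∧ ((∀ z : G, z ∈ (S : Subgroup G) → orderOf z = p → Cfsg.generalizedFittingSubgroup ↥(Subgroup.centralizer ({z} : Set G)) = Cfsg.pCore p ↥(Subgroup.centralizer ({z} : Set G))) → Cfsg.IsOfLocalCharacteristic p G) := by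
  have hmem : ∀ z : G, z ∈ (S : Subgroup G) → z ^ p = 1 → (∀ x ∈ (S : Subgroup G), x * z = z * x) →
      z ∈ Cfsg.omegaOne p ((S : Subgroup G) ⊓ Subgroup.centralizer ((S : Subgroup G) : Set G)) :=
    fun z hz hzp hc => Subgroup.subset_closure ⟨⟨hz, Subgroup.mem_centralizer_iff.2 hc⟩, hzp⟩
  refine ⟨fun z _ hzX hc h => genFitting_eq_iff_charP.2 (charP_normalizer_of_central (S.2.to_le hX) hzX hc
    (genFitting_eq_iff_charP.1 h)), ⟨fun hpar z hz1 hz => ?_, fun h => ?_⟩, fun h => ⟨hdiv, fun T hT hT1 => ?_⟩⟩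
  · have hz' : z ∈ (S : Subgroup G) ⊓ Subgroup.centralizer ((S : Subgroup G) : Set G) :=
      (Subgroup.closure_le _).2 (fun x hx => hx.1) hz
    exact genFitting_eq_iff_charP.2 (charP_centralizer_of_parabolic hpar S hz1 hz'.1
      (Subgroup.mem_centralizer_iff.1 hz'.2))
  · exact parabolic_of_charP_centralizers S fun z hz1 hzS hzp hc =>
      genFitting_eq_iff_charP.1 (h z hz1 (hmem z hzS hzp hc))
  · obtain ⟨z, hzT, hz1, hzp, hzc⟩ := exists_fixed_of_normalize hT hT hT1 Subgroup.le_normalizer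
    obtain ⟨P, hP⟩ := hT.exists_le_sylow
    obtain ⟨g, hg⟩ := MulAction.exists_smul_eq G S P
    have hz' : g⁻¹ * z * g ∈ (S : Subgroup G) := by
      have := hP hzT
      rw [← hg, Sylow.coe_subgroup_smul, Subgroup.mem_pointwise_smul_iff_inv_smul_mem] at this
      simpa [MulAut.conj_apply, mul_assoc] using this
    have ho : orderOf z = p := orderOf_eq_prime hzp hz1
    have ho' : orderOf (g⁻¹ * z * g) = p := by
      rw [← ho]
      simpa using orderOf_injective (MulAut.conj g⁻¹).toMonoidHom (MulAut.conj g⁻¹).injective z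
    have h2 := charP_centralizer_conj (g := g) (genFitting_eq_iff_charP.1 (h _ hz' ho'))
    rw [show g * (g⁻¹ * z * g) * g⁻¹ = z by group] at h2
    exact charP_normalizer_of_central hT hzT (fun x hx => (hzc x hx).eq) h2

end Cfsg.Agent.S2896
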