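import Cfsg.Statements.S2897
import Cfsg.Agent.Lib.LargeSubgroups.ParabolicChar
-- import your own Cfsg.Agent.* helpers here

set_option autoImplicit false
open Cfsg

namespace Cfsg.Agent.S2897

open CfsgLib.LargeSubgroups

/-- Let p be a prime dividing the order of the finite group G, suppose G has parabolic characteristic p, let S be a Sylow p-subgroup of G and G₁ a normal subgroup of G. If Ω₁(Z(S ∩ G₁)) is nontrivial and contained in Ω₁(Z(S)), then G₁ has parabolic characteristic p. -/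
theorem result {G : Type*} [Group G] [Finite G] {p : ℕ} [Fact p.Prime] (hdiv : p ∣ Nat.card G) (hG : Cfsg.IsOfParabolicCharacteristic p G) (S : Sylow p G) (G₁ : Subgroup G) [G₁.Normal] (hne : Cfsg.omegaOne p (((S : Subgroup G) ⊓ G₁) ⊓ Subgroup.centralizer (((S : Subgroup G) ⊓ G₁ : Subgroup G) : Set G)) ≠ ⊥) (hle : Cfsg.omegaOne p (((S : Subgroup G) ⊓ G₁) ⊓ Subgroup.centralizer (((S : Subgroup G) ⊓ G₁ : Subgroup G) : Set G)) ≤ Cfsg.omegaOne p ((S : Subgroup G) ⊓ Subgroup.centralizer ((S : Subgroup G) : Set G))) : Cfsg.IsOfParabolicCharacteristic p ↥G₁ := by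
  obtain ⟨S₁, hS₁⟩ := CfsgLib.StronglyPEmbedded.exists_sylow_subgroupOf_eq S
    (Subgroup.Normal.isSubnormal (inferInstance : G₁.Normal))
  refine parabolic_of_charP_centralizers S₁ fun z hz1 hzS hzp hc => ?_
  have hzS' : (z : G) ∈ (S : Subgroup G) := by rw [hS₁] at hzS; exact hzS
  have hz0 : (z : G) ∈ Cfsg.omegaOne p (((S : Subgroup G) ⊓ G₁) ⊓
      Subgroup.centralizer (((S : Subgroup G) ⊓ G₁ : Subgroup G) : Set G)) :=
    Subgroup.subset_closure ⟨⟨⟨hzS', z.2⟩, Subgroup.mem_centralizer_iff.2 fun x hx =>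
      congrArg Subtype.val (hc ⟨x, hx.2⟩ (by rw [hS₁]; exact hx.1))⟩, by
        rw [← SubmonoidClass.coe_pow, hzp, OneMemClass.coe_one]⟩
  have hz' : (z : G) ∈ (S : Subgroup G) ⊓ Subgroup.centralizer ((S : Subgroup G) : Set G) :=
    (Subgroup.closure_le _).2 (fun x hx => hx.1) (hle hz0)
  have hC := charP_centralizer_of_parabolic hG S (fun h => hz1 (Subtype.ext h)) hz'.1
    (Subgroup.mem_centralizer_iff.1 hz'.2)
  have e1 : (Subgroup.centralizer ({z} : Set ↥G₁)).map G₁.subtype = G₁ ⊓ Subgroup.centralizer ({(z : G)} : Set G) := by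
    ext x
    constructor
    · rintro ⟨y, hy, rfl⟩
      exact ⟨y.2, Subgroup.mem_centralizer_singleton_iff.2
        (congrArg Subtype.val (Subgroup.mem_centralizer_singleton_iff.1 hy))⟩
    · rintro ⟨hx1, hx2⟩
      exact ⟨⟨x, hx1⟩, Subgroup.mem_centralizer_singleton_iff.2
        (Subtype.ext (Subgroup.mem_centralizer_singleton_iff.1 hx2)), rfl⟩
  haveI : ((G₁ ⊓ Subgroup.centralizer ({(z : G)} : Set G)).subgroupOf (Subgroup.centralizer ({(z : G)} : Set G))).Normal := by
    rw [Subgroup.inf_subgroupOf_right]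
    infer_instance
  have h2 := CfsgLib.Quasithin.charPGroup_of_normal hC
    ((G₁ ⊓ Subgroup.centralizer ({(z : G)} : Set G)).subgroupOf (Subgroup.centralizer ({(z : G)} : Set G)))
  exact h2.of_equiv ((Subgroup.subgroupOfEquivOfLe inf_le_right).trans
    ((MulEquiv.subgroupCongr e1.symm).trans
      (Subgroup.equivMapOfInjective _ G₁.subtype G₁.subtype_injective).symm))

end Cfsg.Agent.S2897
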