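import Cfsg.Statements.S2898
import Cfsg.Agent.Lib.LargeSubgroups.ParabolicChar
import Mathlib.GroupTheory.FixedPointFree
-- import your own Cfsg.Agent.* helpers here

set_option autoImplicit false
open Cfsg

namespace Cfsg.Agent.S2898

open CfsgLib.LargeSubgroups CfsgLib.FFModules

/-- Let G be a finite group of even order with parabolic characteristic 2. If the centre of G ⧸ O(G) is trivial, then O(G) = 1. -/
theorem result {G : Type*} [Group G] [Finite G] (h2 : 2 ∣ Nat.card G) (hG : Cfsg.IsOfParabolicCharacteristic 2 G) [hN : (Cfsg.oddCore G).Normal] (hZ : Subgroup.center (G ⧸ Cfsg.oddCore G) = ⊥) : Cfsg.oddCore G = ⊥ := by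
  haveI : Fact (Nat.Prime 2) := ⟨Nat.prime_two⟩
  set O := Cfsg.oddCore G with hOdef
  by_contra hO1
  have hOodd : Odd (Nat.card O) := CfsgLib.Cores.odd_card_oddCore
  obtain ⟨S⟩ : Nonempty (Sylow 2 G) := inferInstance
  -- central involutions of `S` centralise no element of `O`
  have hfree : ∀ z ∈ (S : Subgroup G), z ≠ 1 → (∀ x ∈ (S : Subgroup G), x * z = z * x) →
      ∀ o ∈ O, o * z = z * o → o = 1 := by
    intro z hzS hz1 hzc o ho hoz
    have h := charP_centralizer_of_parabolic hG S hz1 hzS hzc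
    set C := Subgroup.centralizer ({z} : Set G) with hC
    have hoC : o ∈ C := Subgroup.mem_centralizer_singleton_iff.2 hoz
    set N := O.subgroupOf C with hNdef
    have hNodd : Odd (Nat.card N) :=
      hOodd.of_dvd_nat (Subgroup.card_comap_dvd_of_injective O C.subtype C.subtype_injective)
    have hNP : Disjoint N (Cfsg.pCore 2 C) := by
      rw [Subgroup.disjoint_def]
      intro x hxN hxP
      obtain ⟨k, hk⟩ := CfsgLib.Cores.isPGroup_pCore 2 C ⟨x, hxP⟩
      refine orderOf_eq_one_iff.1 (Nat.eq_one_of_dvd_coprimes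
        (((Nat.coprime_two_left).2 hNodd).pow_left k) ?_ (Subgroup.orderOf_dvd_natCard N hxN))
      exact orderOf_dvd_of_pow_eq_one (congrArg Subtype.val hk)
    have hoP : (⟨o, hoC⟩ : C) ∈ Cfsg.pCore 2 C := h (Subgroup.mem_centralizer_iff.2 fun v hv =>
      (Subgroup.commute_of_normal_of_disjoint _ _ inferInstance inferInstance hNP _ _ ho hv).symm.eq)
    exact congrArg Subtype.val (Subgroup.disjoint_def.1 hNP (show (⟨o, hoC⟩ : C) ∈ N from ho) hoP)
  have hS1 : (S : Subgroup G) ≠ ⊥ := S.ne_bot_of_dvd_card h2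
  obtain ⟨z, hzS, hz1, hz2, hzc⟩ := exists_fixed_of_normalize S.2 S.2 hS1 Subgroup.le_normalizer
  have hff : MonoidHom.FixedPointFree ((MulAut.conjNormal z : MulAut O) : O → O) := fun o ho => by
    refine Subtype.ext (hfree z hzS hz1 (fun x hx => (hzc x hx).eq) o o.2 ?_)
    have := congrArg Subtype.val ho
    rw [MulAut.conjNormal_apply] at this
    exact (mul_inv_eq_iff_eq_mul.1 this).symm
  have hzz : z * z = 1 := by rw [← pow_two]; exact hz2
  have hzi : z⁻¹ = z := inv_eq_of_mul_eq_one_right hzz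
  have hinv : Function.Involutive ((MulAut.conjNormal z : MulAut O) : O → O) := fun o => by
    refine Subtype.ext ?_
    rw [MulAut.conjNormal_apply, MulAut.conjNormal_apply, hzi]
    calc z * (z * (o : G) * z) * z = (z * z) * o * (z * z) := by group
      _ = o := by rw [hzz, one_mul, mul_one]
  have hzinv : ∀ o ∈ O, z * o * z⁻¹ = o⁻¹ := fun o ho => by
    have := congrArg Subtype.val (congrFun (MonoidHom.FixedPointFree.coe_eq_inv_of_involutive
      (φ := (MulAut.conjNormal z : MulAut O).toMonoidHom) hff hinv) ⟨o, ho⟩)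
    simpa using this
  -- `C_G(O)` has odd order
  have hCodd : ¬ 2 ∣ Nat.card (Subgroup.centralizer (O : Set G)) := by
    intro hd
    obtain ⟨⟨y, hyC⟩, hy⟩ := exists_prime_orderOf_dvd_card' 2 hd
    rw [← Subgroup.orderOf_coe] at hy
    change orderOf y = 2 at hy
    have hzp : IsPGroup 2 ↥(Subgroup.zpowers y) := IsPGroup.iff_card.2 ⟨1, by rw [Nat.card_zpowers, hy, pow_one]⟩
    obtain ⟨P, hP⟩ := hzp.exists_le_sylow
    obtain ⟨g, hg⟩ := MulAction.exists_smul_eq G P S
    have hyS : g * y * g⁻¹ ∈ (S : Subgroup G) ⊓ Subgroup.centralizer (O : Set G) := by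
      refine ⟨?_, Subgroup.Normal.conj_mem inferInstance y hyC g⟩
      rw [← hg]
      exact ⟨y, hP (Subgroup.mem_zpowers y), rfl⟩
    have hne : (S : Subgroup G) ⊓ Subgroup.centralizer (O : Set G) ≠ ⊥ := fun e => by
      rw [e, Subgroup.mem_bot, conj_eq_one_iff] at hyS
      rw [hyS, orderOf_one] at hy
      exact absurd hy (by decide)
    obtain ⟨w, hw, hw1, -, hwc⟩ := exists_fixed_of_normalize S.2 (S.2.to_le inf_le_left) hne
      (le_normalizer_inf_of Subgroup.le_normalizer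
        (by rw [Subgroup.normalizer_eq_top]; exact le_top))
    exact hO1 (eq_bot_iff.2 fun o ho => Subgroup.mem_bot.2
      (hfree w hw.1 hw1 (fun x hx => (hwc x hx).eq) o ho (Subgroup.mem_centralizer_iff.1 hw.2 o ho)))
  have hCO : Subgroup.centralizer (O : Set G) ≤ O :=
    CfsgLib.Cores.le_pPrimeCore_of_not_dvd Nat.prime_two hCodd
  -- so `z O` is central
  have hzmem : QuotientGroup.mk' O z ∈ Subgroup.center (G ⧸ O) := by
    rw [Subgroup.mem_center_iff]
    intro gq
    obtain ⟨g, rfl⟩ := QuotientGroup.mk'_surjective O gq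
    have hc : z * (g * z⁻¹ * g⁻¹) ∈ Subgroup.centralizer (O : Set G) := by
      refine Subgroup.mem_centralizer_iff.2 fun o ho => ?_
      have ho' : g⁻¹ * o * g ∈ O := by
        simpa using Subgroup.Normal.conj_mem (inferInstance : O.Normal) o ho g⁻¹
      have h1 := hzinv _ ho'
      have h3 : z⁻¹ * (g⁻¹ * o * g) * z = (g⁻¹ * o * g)⁻¹ := by
        rw [hzi] at h1 ⊢
        exact h1
      have h4 : (g * z⁻¹ * g⁻¹) * o * (g * z⁻¹ * g⁻¹)⁻¹ = o⁻¹ := by
        calc (g * z⁻¹ * g⁻¹) * o * (g * z⁻¹ * g⁻¹)⁻¹ = g * (z⁻¹ * (g⁻¹ * o * g) * z) * g⁻¹ := by group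
          _ = o⁻¹ := by rw [h3]; group
      have h5 := hzinv o⁻¹ (O.inv_mem ho)
      rw [inv_inv] at h5
      have h6 : (z * (g * z⁻¹ * g⁻¹)) * o * (z * (g * z⁻¹ * g⁻¹))⁻¹ = o := by
        calc (z * (g * z⁻¹ * g⁻¹)) * o * (z * (g * z⁻¹ * g⁻¹))⁻¹
            = z * ((g * z⁻¹ * g⁻¹) * o * (g * z⁻¹ * g⁻¹)⁻¹) * z⁻¹ := by group
          _ = o := by rw [h4, h5]
      exact (mul_inv_eq_iff_eq_mul.1 h6).symm
    have hm : (g * z)⁻¹ * (z * g) ∈ O := by
      have := Subgroup.Normal.conj_mem (inferInstance : O.Normal) _ (hCO hc) (g * z)⁻¹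
      have e : (g * z)⁻¹ * (z * (g * z⁻¹ * g⁻¹)) * ((g * z)⁻¹)⁻¹ = (g * z)⁻¹ * (z * g) := by group
      rwa [e] at this
    rw [← map_mul, ← map_mul]
    exact QuotientGroup.eq.2 hm
  rw [hZ, Subgroup.mem_bot] at hzmem
  have hzO : z ∈ O := (QuotientGroup.eq_one_iff z).1 hzmem
  exact hz1 (hfree z hzS hz1 (fun x hx => (hzc x hx).eq) z hzO rfl)

end Cfsg.Agent.S2898
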