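import Cfsg.Statements.S2905
import Cfsg.Agent.Lib.StronglyPEmbedded.PMinimal
-- import your own Cfsg.Agent.* helpers here

set_option autoImplicit false
open Cfsg

namespace Cfsg.Agent.S2905

/-- Let P be a finite p-minimal group (a Sylow p-subgroup S is not normal and lies in a unique maximal subgroup M of P) and let F be the normal core of M. Then: every subnormal subgroup N of P contained in M satisfies N ∩ S ≤ O_p(P); if O^p(P) has a normal Sylow p-subgroup then the order of P has at most two prime divisors; every normal subgroup N of P either contains O^p(P) or is contained in F; and O^p(P)F ⧸ F is a minimal normal subgroup of P ⧸ F. -/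
theorem result {P : Type*} [Group P] [Finite P] {p : ℕ} [Fact p.Prime] (hP : Cfsg.IsPMinimal p P) (S : Sylow p P) (M : Subgroup P) (hM : IsCoatom M) (hSM : (S : Subgroup P) ≤ M) [hF : M.normalCore.Normal] : (∀ N : Subgroup P, N.IsSubnormal → N ≤ M → N ⊓ (S : Subgroup P) ≤ Cfsg.pCore p P) ∧ ((∀ T : Sylow p ↥(Cfsg.pResidual p P), (T : Subgroup ↥(Cfsg.pResidual p P)).Normal) → (Nat.card P).primeFactors.card ≤ 2) ∧ (∀ N : Subgroup P, N.Normal → Cfsg.pResidual p P ≤ N ∨ N ≤ M.normalCore) ∧ (∀ N : Subgroup P, N.Normal → M.normalCore ≤ N → N ≤ Cfsg.pResidual p P ⊔ M.normalCore → N = M.normalCore ∨ N = Cfsg.pResidual p P ⊔ M.normalCore) ∧ M.normalCore < Cfsg.pResidual p P ⊔ M.normalCore := by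
  open CfsgLib.StronglyPEmbedded in
  haveI := normal_pResidual' (P := P) (p := p)
  set X := Cfsg.pResidual p P with hX
  set F := M.normalCore with hFdef
  refine ⟨fun N hN hNM => ?_, fun hT => ?_, fun N hN => ?_, fun N hN h1 h2 => ?_,
    normalCore_lt_pResidual_sup hP hM hSM⟩
  · exact (inf_le_inf_right _ (le_normalCore_of_isSubnormal hP hM hSM hN hNM)).trans
      (inf_sylow_le_pCore_of_normal hP hM hSM M.normalCore_le)
  · obtain ⟨T, hTeq⟩ := exists_sylow_subgroupOf_eq S (A := X) (Subgroup.Normal.isSubnormal inferInstance)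
    haveI := hT T
    haveI : (T : Subgroup ↥X).Characteristic := Sylow.characteristic_of_normal T inferInstance
    set T' : Subgroup P := (T : Subgroup ↥X).map X.subtype with hT'
    haveI : T'.Normal := CfsgLib.Cores.normal_map_subtype X _
    have hT'eq : T' = X ⊓ (S : Subgroup P) := by
      rw [hT', hTeq, Subgroup.subgroupOf_map_subtype, inf_comm]
    have hex : ∀ q : ℕ, q.Prime → ∃ N : Subgroup P, N ≤ X ∧ (S : Subgroup P) ≤ Subgroup.normalizer (N : Set P)
        ∧ q ^ (Nat.card ↥X).factorization q ∣ Nat.card ↥N ∧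
        ∃ a : ℕ, Nat.card ↥N ∣ q ^ a * Nat.card ↥T' := by
      intro q hq
      haveI : Fact q.Prime := ⟨hq⟩
      obtain ⟨Q, hQ⟩ := exists_sylow_conj_normalized S X T' (Subgroup.map_subtype_le _) hT'eq.ge (q := q)
      refine ⟨_, sup_le (Subgroup.map_subtype_le _) (Subgroup.map_subtype_le _), hQ, ?_,
        (Nat.card ↥X).factorization q, ?_⟩
      · rw [← Q.card_eq_multiplicity]
        refine dvd_trans ?_ (Subgroup.card_dvd_of_le le_sup_left)
        exact (Nat.card_congr (Subgroup.equivMapOfInjective _ _ X.subtype_injective).toEquiv).dvd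
      · refine (CfsgLib.Cores.card_sup_dvd _ _).trans (mul_dvd_mul_right ?_ _)
        rw [← Q.card_eq_multiplicity]
        exact (Nat.card_congr (Subgroup.equivMapOfInjective _ _ X.subtype_injective).toEquiv).symm.dvd
    obtain ⟨q, hq, N, hNX, hSN, -, ⟨a, ha⟩, hNM⟩ : ∃ q : ℕ, q.Prime ∧ ∃ N : Subgroup P, N ≤ X ∧
        (S : Subgroup P) ≤ Subgroup.normalizer (N : Set P) ∧
        q ^ (Nat.card ↥X).factorization q ∣ Nat.card ↥N ∧
        (∃ a : ℕ, Nat.card ↥N ∣ q ^ a * Nat.card ↥T') ∧ ¬ N ≤ M := by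
      by_contra! hall
      refine not_pResidual_le hP hM hSM (le_trans ?_ (inf_le_right (a := X)))
      refine (Subgroup.eq_of_le_of_card_ge (inf_le_left (b := M)) (Nat.le_of_dvd Nat.card_pos ?_)).ge
      refine (Nat.dvd_iff_prime_pow_dvd_dvd _ _).2 fun r k hr hrk => ?_
      obtain ⟨N, hNX, hSN, hcard, ha⟩ := hex r hr
      refine (Nat.pow_dvd_pow r ((hr.pow_dvd_iff_le_factorization Nat.card_pos.ne').1 hrk)).trans
        (hcard.trans (Subgroup.card_dvd_of_le (le_inf hNX (hall r hr N hNX hSN hcard ha))))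
    haveI hNn : N.Normal := by
      refine Subgroup.normalizer_eq_top_iff.1 (top_le_iff.1 ?_)
      rw [← sup_sylow_eq_top hP hM hSM hNM]
      exact sup_le Subgroup.le_normalizer hSN
    have hdvd : Nat.card P ∣ Nat.card ↥(S : Subgroup P) * (q ^ a * Nat.card ↥T') := by
      refine dvd_trans ?_ (mul_dvd_mul_left _ ha)
      refine dvd_trans ?_ (CfsgLib.Cores.card_sup_dvd _ _)
      rw [sup_comm, sup_sylow_eq_top hP hM hSM hNM, Subgroup.card_top]
    have hsub : (Nat.card P).primeFactors ⊆ {p, q} := by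
      intro r hr
      obtain ⟨hr, hrd, -⟩ := Nat.mem_primeFactors.1 hr
      obtain ⟨b, hb⟩ := IsPGroup.iff_card.1 S.isPGroup'
      obtain ⟨c, hc⟩ := IsPGroup.iff_card.1 (T.isPGroup'.map X.subtype)
      have := hrd.trans hdvd
      rw [hb, show Nat.card ↥T' = p ^ c from hc] at this
      rcases hr.dvd_mul.1 this with h | h
      · simp [(Nat.prime_dvd_prime_iff_eq hr Fact.out).1 (hr.dvd_of_dvd_pow h)]
      rcases hr.dvd_mul.1 h with h | h
      · simp [(Nat.prime_dvd_prime_iff_eq hr hq).1 (hr.dvd_of_dvd_pow h)]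
      · simp [(Nat.prime_dvd_prime_iff_eq hr Fact.out).1 (hr.dvd_of_dvd_pow h)]
    exact (Finset.card_le_card hsub).trans Finset.card_le_two
  · haveI := hN
    by_cases h : N ≤ M
    · exact Or.inr (Subgroup.normal_le_normalCore.2 h)
    · exact Or.inl (pResidual_le_of_not_le hP hM hSM h)
  · haveI := hN
    by_cases h : N ≤ M
    · exact Or.inl (le_antisymm (Subgroup.normal_le_normalCore.2 h) h1)
    · exact Or.inr (le_antisymm h2 (sup_le (pResidual_le_of_not_le hP hM hSM h) h1))

end Cfsg.Agent.S2905
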