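import Cfsg.Statements.S2906
import Cfsg.Agent.Lib.StronglyPEmbedded.PMinimal
import Cfsg.Agent.Lib.Cores.GenFitting
import Mathlib
-- import your own Cfsg.Agent.* helpers here

set_option autoImplicit false
open Cfsg

namespace Cfsg.Agent.S2906

/-- Let P be a finite p-minimal group with O_p(P) = 1, S a Sylow p-subgroup of P and K a component of P. Then O^p(P) = F*(P) = E(P) is generated by the S-conjugates of K, and the subgroup K·N_S(K) is again p-minimal. -/
theorem result {P : Type*} [Group P] [Finite P] {p : ℕ} [Fact p.Prime] (hP : Cfsg.IsPMinimal p P) (hOp : Cfsg.pCore p P = ⊥) (S : Sylow p P) (K : Subgroup P) (hK : Cfsg.IsComponent K) : Cfsg.pResidual p P = Cfsg.generalizedFittingSubgroup P ∧ Cfsg.generalizedFittingSubgroup P = Cfsg.layer P ∧ Cfsg.layer P = ⨆ s : ↥(S : Subgroup P), K.map (MulAut.conj (s : P)).toMonoidHom ∧ Cfsg.IsPMinimal p ↥(K ⊔ ((S : Subgroup P) ⊓ Subgroup.normalizer (K : Set P))) := by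
  open scoped commutatorElement in
  classical
  open CfsgLib.StronglyPEmbedded in
  haveI := normal_pResidual' (P := P) (p := p)
  set X := Cfsg.pResidual p P with hX
  obtain ⟨M, ⟨hM, hSM⟩, -⟩ := (hP S).2
  set F := M.normalCore with hFdef
  -- `F` is nilpotent
  have hFS : F ⊓ (S : Subgroup P) = ⊥ := by
    rw [eq_bot_iff, ← hOp]
    exact inf_sylow_le_pCore_of_normal hP hM hSM M.normalCore_le
  have hFfit : F ≤ Cfsg.fittingSubgroup P := by
    refine le_trans ?_ (inf_le_right (a := F))
    refine (Subgroup.eq_of_le_of_card_ge (inf_le_left (b := Cfsg.fittingSubgroup P))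
      (Nat.le_of_dvd Nat.card_pos ?_)).ge
    refine (Nat.dvd_iff_prime_pow_dvd_dvd _ _).2 fun r k hr hrk => ?_
    haveI : Fact r.Prime := ⟨hr⟩
    obtain ⟨Q, hQ⟩ := exists_sylow_conj_normalized S F ⊥ bot_le hFS.le (q := r)
    rw [sup_bot_eq] at hQ
    set Q' := (Q : Subgroup ↥F).map F.subtype with hQ'
    have hQn : Q'.Normal :=
      normal_of_frattini hP hM hSM M.normalCore_le hQ (Sylow.normalizer_sup_eq_top Q)
    refine (Nat.pow_dvd_pow r ((hr.pow_dvd_iff_le_factorization Nat.card_pos.ne').1 hrk)).trans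
      (dvd_trans ?_ (Subgroup.card_dvd_of_le (le_inf (Subgroup.map_subtype_le _) ?_ :
        Q' ≤ F ⊓ Cfsg.fittingSubgroup P)))
    · rw [← Q.card_eq_multiplicity]
      exact (Nat.card_congr (Subgroup.equivMapOfInjective _ _ F.subtype_injective).toEquiv).dvd
    · exact (le_pCore' (p := r) hQn (Q.isPGroup'.map _)).trans (CfsgLib.Cores.pCore_le_fittingSubgroup r)
  have hnotF : ∀ K' : Subgroup P, Cfsg.IsComponent K' → ¬ K' ≤ M := by
    intro K' hK' h
    have hfit : Group.IsNilpotent ↥(Cfsg.fittingSubgroup P) := CfsgLib.Cores.isNilpotent_fittingSubgroup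
    exact CfsgLib.Cores.not_le_of_isSolvable hK'
      ((le_normalCore_of_isSubnormal hP hM hSM hK'.1 h).trans hFfit)
  let c : P → Subgroup P := fun s => K.map (MulAut.conj s).toMonoidHom
  have hc : ∀ s, Cfsg.IsComponent (c s) := fun s => CfsgLib.Cores.isComponent_map_equiv hK (MulAut.conj s)
  set L : Subgroup P := ⨆ s : ↥(S : Subgroup P), c s with hL
  have hKL : K ≤ L := by
    refine le_trans ?_ (le_iSup (fun s : ↥(S : Subgroup P) => c s) 1)
    intro x hx
    exact ⟨x, hx, by simp⟩
  have hLlayer : L ≤ Cfsg.layer P := iSup_le fun s => CfsgLib.Cores.le_layer (hc s)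
  have hLn : L.Normal := by
    refine Subgroup.normalizer_eq_top_iff.1 (top_le_iff.1 ?_)
    rw [← sup_sylow_eq_top hP hM hSM (fun h => hnotF K hK (hKL.trans h))]
    refine sup_le Subgroup.le_normalizer fun s hs => mem_normalizer_of_conj_le fun x hx => ?_
    have hmap : L.map (MulAut.conj s).toMonoidHom ≤ L := by
      rw [hL, Subgroup.map_iSup]
      refine iSup_le fun t => ?_
      refine le_trans ?_ (le_iSup (fun s : ↥(S : Subgroup P) => c s) (⟨s, hs⟩ * t))
      rintro _ ⟨_, ⟨y, hy, rfl⟩, rfl⟩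
      exact ⟨y, hy, by simp [mul_assoc]⟩
    exact hmap ⟨x, hx, rfl⟩
  have hlayerX : Cfsg.layer P ≤ X := CfsgLib.Cores.layer_le_iff.2 fun K' hK' =>
    le_pResidual_of_perfect (CfsgLib.Cores.commutator_self_eq_of_isComponent hK')
  have hXL : X ≤ L := pResidual_le_of_not_le hP hM hSM fun h => hnotF K hK (hKL.trans h)
  have hXlayer : X = Cfsg.layer P := le_antisymm (hXL.trans hLlayer) hlayerX
  have hgen : Cfsg.generalizedFittingSubgroup P = Cfsg.layer P := by
    refine sup_eq_left.2 ?_
    rw [← hXlayer, CfsgLib.Cores.fittingSubgroup_eq_iSup_pCore]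
    refine iSup_le fun q => ?_
    haveI : Fact (q : ℕ).Prime := ⟨Nat.prime_of_mem_primeFactors q.2⟩
    rcases eq_or_ne (q : ℕ) p with hq | hq
    · rw [hq, hOp]; exact bot_le
    · intro x hx
      obtain ⟨k, hk⟩ := IsPGroup.iff_orderOf.1 (isPGroup_pCore' (G := P) (p := (q : ℕ))) ⟨x, hx⟩
      rw [Subgroup.orderOf_mk] at hk
      exact mem_pResidual_of_coprime' (hk ▸ ((Nat.coprime_primes (Fact.out : (q : ℕ).Prime)
        (Fact.out : p.Prime)).2 hq).pow_left k)
  have hLlayer' : Cfsg.layer P = L := le_antisymm (hXlayer ▸ hXL) hLlayer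
  refine ⟨hXlayer.trans hgen.symm, hgen, hLlayer', ?_⟩
  set R : Subgroup P := (S : Subgroup P) ⊓ Subgroup.normalizer (K : Set P) with hR
  set H := K ⊔ R with hH
  have hHK : H ≤ Subgroup.normalizer (K : Set P) := sup_le Subgroup.le_normalizer inf_le_right
  set K' := K.subgroupOf H with hK'
  haveI hK'n : K'.Normal := Subgroup.normal_subgroupOf_of_le_normalizer hHK
  set R' := R.subgroupOf H with hR'
  have hsup : R' ⊔ K' = ⊤ := by
    rw [sup_comm, hR', hK', ← Subgroup.subgroupOf_sup le_sup_left le_sup_right, Subgroup.subgroupOf_self]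
  have hSK : ¬ p ∣ (S : Subgroup P).relIndex K := not_dvd_relIndex_of_isSubnormal S hK.1
  have hR'i : ¬ p ∣ R'.index := by
    have e1 := Subgroup.relIndex_mul_relIndex (R' ⊓ K') R' (R' ⊔ K') inf_le_left le_sup_left
    have e2 := Subgroup.relIndex_mul_relIndex (R' ⊓ K') K' (R' ⊔ K') inf_le_right le_sup_right
    rw [Subgroup.inf_relIndex_left] at e1
    rw [Subgroup.inf_relIndex_right, Subgroup.relIndex_sup_right, ← e1, mul_comm] at e2
    have h3 := Nat.eq_of_mul_eq_mul_left (Nat.pos_of_ne_zero Subgroup.index_ne_zero_of_finite) e2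
    rw [hsup, Subgroup.relIndex_top_right, hK', hR', Subgroup.relIndex_subgroupOf le_sup_left] at h3
    rw [hR', ← h3]
    intro hd
    refine hSK (hd.trans (dvd_of_eq ?_))
    rw [hR, ← Subgroup.inf_relIndex_right _ K, inf_assoc, inf_eq_right.2 (Subgroup.le_normalizer (H := K)),
      Subgroup.inf_relIndex_right]
  -- a Sylow subgroup of a component is not central
  have hncentral : ¬ (((S : Subgroup P).subgroupOf K) ≤ Subgroup.center ↥K) := by
    intro hcen
    obtain ⟨Q, hQ⟩ := exists_sylow_subgroupOf_eq S hK.1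
    rw [← hQ] at hcen
    have hnd : ¬ p ∣ Nat.card ↥K := by
      have hQC : Subgroup.normalizer ((Q : Subgroup ↥K) : Set ↥K) ≤
          Subgroup.centralizer ((Q : Subgroup ↥K) : Set ↥K) := fun g _ =>
        Subgroup.mem_centralizer_iff.2 fun x hx => (Subgroup.mem_center_iff.1 (hcen hx) g).symm
      have hker : (MonoidHom.transferSylow Q hQC).ker = ⊤ := by
        refine top_le_iff.1 ?_
        haveI := hK.2.1
        rw [← (Group.isPerfect_def (G := ↥K)).1 hK.2.1]
        refine Subgroup.commutator_le.2 fun a _ b _ => ?_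
        have hcm : ∀ u v : ↥(Q : Subgroup ↥K), u * v = v * u := fun u v =>
          Subtype.ext (Subgroup.mem_center_iff.1 (hcen v.2) u)
        rw [MonoidHom.mem_ker, map_commutatorElement]
        exact commutatorElement_eq_one_iff_mul_comm.2 (hcm _ _)
      have := MonoidHom.not_dvd_card_ker_transferSylow Q hQC
      rwa [hker, Subgroup.card_top] at this
    -- then the layer is a `p'`-group
    have hLp : ¬ p ∣ Nat.card ↥(Cfsg.layer P) := by
      intro hd
      have htop : Cfsg.pPrimeCore p ↥(Cfsg.layer P) = ⊤ := by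
        refine top_le_iff.1 fun x _ => ?_
        have hmem : (x : P) ∈ (Cfsg.pPrimeCore p ↥(Cfsg.layer P)).map (Cfsg.layer P).subtype := by
          have hle : L ≤ (Cfsg.pPrimeCore p ↥(Cfsg.layer P)).map (Cfsg.layer P).subtype := by
            refine iSup_le fun s => ?_
            have hsE := CfsgLib.Cores.le_layer (hc (s : P))
            haveI := CfsgLib.Cores.component_normal_in_layer (hc (s : P))
            rw [← Subgroup.map_subgroupOf_eq_of_le hsE]
            refine Subgroup.map_mono (CfsgLib.Cores.le_pPrimeCore ?_)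
            rw [Nat.card_congr (Subgroup.subgroupOfEquivOfLe hsE).toEquiv,
              ← Nat.card_congr (Subgroup.equivMapOfInjective K (MulAut.conj (s : P)).toMonoidHom
                (MulAut.conj (s : P)).injective).toEquiv]
            exact ((Fact.out : p.Prime).coprime_iff_not_dvd.2 hnd).symm
          exact hle (hLlayer'.le x.2)
        obtain ⟨y, hy, hyx⟩ := hmem
        exact (Subtype.ext hyx) ▸ hy
      exact (Fact.out : p.Prime).coprime_iff_not_dvd.1
        ((CfsgLib.Cores.pPrimeCore_eq_top_iff.1 htop).symm) hd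
    have hXS : X ⊓ (S : Subgroup P) ≤ ⊥ := by
      intro x hx
      have hxL : x ∈ Cfsg.layer P := hXlayer ▸ hx.1
      refine Subgroup.mem_bot.2 (eq_one_of_mem_pGroup_of_coprime S.isPGroup' hx.2 ?_)
      refine Nat.Coprime.coprime_dvd_left ?_ ((Fact.out : p.Prime).coprime_iff_not_dvd.2 hLp).symm
      rw [← Subgroup.orderOf_mk x hxL]
      exact orderOf_dvd_natCard _
    -- so `X` is a `q`-group
    refine not_pResidual_le hP hM hSM (le_trans ?_ (inf_le_right (a := X)))
    refine (Subgroup.eq_of_le_of_card_ge (inf_le_left (b := M)) (Nat.le_of_dvd Nat.card_pos ?_)).ge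
    refine (Nat.dvd_iff_prime_pow_dvd_dvd _ _).2 fun r k hr hrk => ?_
    haveI : Fact r.Prime := ⟨hr⟩
    obtain ⟨T, hT⟩ := exists_sylow_conj_normalized S X ⊥ bot_le hXS (q := r)
    rw [sup_bot_eq] at hT
    refine (Nat.pow_dvd_pow r ((hr.pow_dvd_iff_le_factorization Nat.card_pos.ne').1 hrk)).trans
      (dvd_trans ?_ (Subgroup.card_dvd_of_le (le_inf (Subgroup.map_subtype_le _) ?_ :
        (T : Subgroup ↥X).map X.subtype ≤ X ⊓ M)))
    · rw [← T.card_eq_multiplicity]
      exact (Nat.card_congr (Subgroup.equivMapOfInjective _ _ X.subtype_injective).toEquiv).dvd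
    · by_contra hTM
      haveI hTn : ((T : Subgroup ↥X).map X.subtype).Normal := by
        refine Subgroup.normalizer_eq_top_iff.1 (top_le_iff.1 ?_)
        rw [← sup_sylow_eq_top hP hM hSM hTM]
        exact sup_le Subgroup.le_normalizer hT
      haveI := ((T.isPGroup'.map X.subtype)).isNilpotent
      exact CfsgLib.Cores.not_le_of_isSolvable hK
        ((le_pResidual_of_perfect (CfsgLib.Cores.commutator_self_eq_of_isComponent hK)).trans
          (pResidual_le_of_not_le hP hM hSM hTM))
  -- maximal subgroups over `R`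
  have hprop : ∀ Y : Subgroup P, Y ≤ H → R ≤ Y → Y ≠ H → Y ≤ M := by
    intro Y hYH hRY hne
    set A := Y ⊓ K with hA
    have hAK : ¬ K ≤ Y := fun h => hne (le_antisymm hYH (sup_le h hRY))
    set Abar : Subgroup P := ⨆ s : ↥(S : Subgroup P), A.map (MulAut.conj (s : P)).toMonoidHom with hAbar
    set C : Subgroup P := ⨆ s : {s : P // c s ≠ K}, c s with hC
    have hCK : C ≤ Subgroup.centralizer (K : Set P) := iSup_le fun s =>
      CfsgLib.Cores.le_centralizer_of_isComponent_ne (hc s) hK s.2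
    have hKA : ¬ K ≤ Abar := by
      intro hle
      have hle' : Abar ≤ A ⊔ C := by
        refine iSup_le fun s => ?_
        by_cases hs : c s = K
        · have hsR : (s : P) ∈ R := ⟨s.2, mem_normalizer_of_conj_le fun x hx => hs ▸ ⟨x, hx, rfl⟩⟩
          refine le_trans ?_ le_sup_left
          rintro _ ⟨a, ha, rfl⟩
          refine Subgroup.mem_inf.2 ⟨mul_mem (mul_mem (hRY hsR) ha.1) (inv_mem (hRY hsR)), ?_⟩
          exact (Subgroup.mem_normalizer_iff.1 hsR.2 a).1 ha.2
        · refine le_trans ?_ le_sup_right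
          exact (Subgroup.map_mono inf_le_right).trans
            (le_iSup (fun s : {s : P // c s ≠ K} => c s) ⟨s, hs⟩)
      refine hAK ?_
      rw [← CfsgLib.Cores.commutator_self_eq_of_isComponent hK]
      refine Subgroup.commutator_le.2 fun k hk k' hk' => ?_
      have hAC : A ≤ Subgroup.normalizer (C : Set P) := by
        refine (inf_le_right.trans ?_ : A ≤ _)
        rw [Subgroup.le_centralizer_iff] at hCK
        exact hCK.trans (Subgroup.centralizer_le_normalizer _)
      have hk2 : k ∈ ((A ⊔ C : Subgroup P) : Set P) := hle' (hle hk)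
      have hk2' : k' ∈ ((A ⊔ C : Subgroup P) : Set P) := hle' (hle hk')
      rw [Subgroup.coe_mul_of_left_le_normalizer_right A C hAC] at hk2 hk2'
      obtain ⟨a, ha, u, hu, rfl⟩ := hk2
      obtain ⟨a', ha', u', hu', rfl⟩ := hk2'
      have huK : u ∈ K := by simpa using mul_mem (Subgroup.inv_mem K ha.2) hk
      have hu'K : u' ∈ K := by simpa using mul_mem (Subgroup.inv_mem K ha'.2) hk'
      have hcu : ∀ w ∈ K, w * u = u * w := fun w hw => Subgroup.mem_centralizer_iff.1 (hCK hu) w hw
      have hcu' : ∀ w ∈ K, w * u' = u' * w := fun w hw =>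
        Subgroup.mem_centralizer_iff.1 (hCK hu') w hw
      have e : ⁅a * u, a' * u'⁆ = ⁅a, a'⁆ := by
        have e1 : Commute (a' * u') u := hcu _ hk'
        have e2 : Commute a u' := hcu' a ha.2
        calc ⁅a * u, a' * u'⁆ = a * (u * (a' * u')) * u⁻¹ * a⁻¹ * (a' * u')⁻¹ := by
              simp [commutatorElement_def, mul_assoc]
          _ = a * a' * (u' * a⁻¹) * u'⁻¹ * a'⁻¹ := by rw [← e1.eq]; group
          _ = ⁅a, a'⁆ := by
              rw [← (e2.inv_left).eq]; simp [commutatorElement_def, mul_assoc]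
      show ⁅a * u, a' * u'⁆ ∈ Y
      rw [e, commutatorElement_def]
      exact mul_mem (mul_mem (mul_mem ha.1 ha'.1) (Subgroup.inv_mem Y ha.1)) (Subgroup.inv_mem Y ha'.1)
    have hAbarM : Abar ≤ M := by
      by_contra hnM
      have htop := sup_sylow_eq_top hP hM hSM hnM
      haveI : Abar.Normal := by
        refine Subgroup.normalizer_eq_top_iff.1 (top_le_iff.1 ?_)
        rw [← htop]
        refine sup_le Subgroup.le_normalizer fun s hs => mem_normalizer_of_conj_le fun x hx => ?_
        have hmap : Abar.map (MulAut.conj s).toMonoidHom ≤ Abar := by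
          rw [hAbar, Subgroup.map_iSup]
          refine iSup_le fun t => ?_
          refine le_trans ?_ (le_iSup
            (fun s : ↥(S : Subgroup P) => A.map (MulAut.conj (s : P)).toMonoidHom) (⟨s, hs⟩ * t))
          rintro _ ⟨_, ⟨y, hy, rfl⟩, rfl⟩
          exact ⟨y, hy, by simp [mul_assoc]⟩
        exact hmap ⟨x, hx, rfl⟩
      exact hKA ((hXlayer ▸ CfsgLib.Cores.le_layer hK).trans (pResidual_le_of_not_le hP hM hSM hnM))
    intro y hy
    have hy' : y ∈ ((R ⊔ K : Subgroup P) : Set P) := by rw [sup_comm]; exact hYH hy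
    rw [Subgroup.coe_mul_of_left_le_normalizer_right R K inf_le_right] at hy'
    obtain ⟨r, hr, k, hk, rfl⟩ := hy'
    refine mul_mem (hSM hr.1) (hAbarM ?_)
    refine (le_iSup (fun s : ↥(S : Subgroup P) => A.map (MulAut.conj (s : P)).toMonoidHom) 1) ?_
    exact ⟨k, ⟨by simpa using mul_mem (inv_mem (hRY hr)) hy, hk⟩, by simp⟩
  have hRp : IsPGroup p ↥R := S.isPGroup'.to_le inf_le_left
  set R₀ : Sylow p ↥H := hRp.comap_subtype.toSylow hR'i with hR₀
  have hR₀c : (R₀ : Subgroup ↥H) = R' := IsPGroup.toSylow_coe _ _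
  have hbase : ¬ (R₀ : Subgroup ↥H).Normal ∧
      ∃! N : Subgroup ↥H, IsCoatom N ∧ (R₀ : Subgroup ↥H) ≤ N := by
    rw [hR₀c]
    refine ⟨fun hn => hncentral ?_, ?_⟩
    · haveI := hn
      haveI : ((S : Subgroup P).subgroupOf K).Normal := by
        refine ⟨fun x hx k => ?_⟩
        have hxR : (x : P) ∈ R := ⟨hx, Subgroup.le_normalizer x.2⟩
        exact (hn.conj_mem ⟨x, le_sup_right (a := K) hxR⟩ hxR ⟨k, le_sup_left (b := R) k.2⟩).1
      rcases CfsgLib.Cores.normal_eq_top_or_le_center hK.2 ((S : Subgroup P).subgroupOf K) with h | h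
      · exfalso
        haveI : Group.IsNilpotent ↥(S : Subgroup P) := S.isPGroup'.isNilpotent
        exact CfsgLib.Cores.not_le_of_isSolvable hK (Subgroup.subgroupOf_eq_top.1 h)
      · exact h
    · have hKM : ¬ K ≤ M := hnotF K hK
      have hne : M.subgroupOf H ≠ ⊤ := fun h =>
        hKM (le_sup_left.trans (Subgroup.subgroupOf_eq_top.1 h))
      have hRM : R' ≤ M.subgroupOf H := fun x hx => hSM hx.1
      have hall : ∀ N : Subgroup ↥H, R' ≤ N → N ≠ ⊤ → N ≤ M.subgroupOf H := by
        intro N hN hN'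
        have h := hprop (N.map H.subtype) (Subgroup.map_subtype_le _) ?_ ?_
        · intro x hx; exact h ⟨x, hx, rfl⟩
        · intro x hx; exact ⟨⟨x, le_sup_right (a := K) hx⟩, hN hx, rfl⟩
        · intro h
          refine hN' (top_le_iff.1 fun x _ => ?_)
          obtain ⟨y, hy, hyx⟩ : (x : P) ∈ N.map H.subtype := h.ge x.2
          exact (Subtype.ext hyx) ▸ hy
      refine ⟨M.subgroupOf H, ⟨⟨hne, fun N hN => ?_⟩, hRM⟩, fun N hN => ?_⟩
      · by_contra hN'
        exact hN.not_ge (hall N (hRM.trans hN.le) hN')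
      · have := hall N hN.2 hN.1.1
        exact (hN.1.le_iff.1 this).resolve_left hne |>.symm
  intro S'
  obtain ⟨h, rfl⟩ := MulAction.exists_smul_eq ↥H R₀ S'
  refine ⟨fun hn => hbase.1 ?_, ?_⟩
  · haveI := hn
    haveI : Subsingleton (Sylow p ↥H) := by
      haveI := Sylow.unique_of_normal (h • R₀) hn
      infer_instance
    rwa [Subsingleton.elim R₀ (h • R₀)]
  · obtain ⟨N, ⟨hN, hRN⟩, huniq⟩ := hbase.2
    let e : Subgroup ↥H ≃o Subgroup ↥H := MulEquiv.mapSubgroup (MulAut.conj h)
    have he : ((h • R₀ : Sylow p ↥H) : Subgroup ↥H) = e R₀ := by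
      rw [Sylow.coe_subgroup_smul, Subgroup.pointwise_smul_def]; rfl
    rw [he]
    refine ⟨e N, ⟨(e.isCoatom_iff N).2 hN, e.monotone hRN⟩, fun N' hN' => ?_⟩
    obtain ⟨N'', rfl⟩ := e.surjective N'
    rw [huniq N'' ⟨(e.isCoatom_iff N'').1 hN'.1, e.le_iff_le.1 hN'.2⟩]

end Cfsg.Agent.S2906
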