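import Cfsg.Statements.S2907
import Mathlib
-- import your own Cfsg.Agent.* helpers here

set_option autoImplicit false
open Cfsg

namespace Cfsg.Agent.S2907

/-- Let X be a finite semi-extraspecial p-group and x an element of X outside the centre. Then the index of C_X(x) in X equals the order of Z(X), and the commutators [x, y], y ∈ X, form exactly the centre Z(X). -/
theorem result {X : Type*} [Group X] [Finite X] {p : ℕ} [Fact p.Prime] (hX : Cfsg.IsSemiExtraspecial p X) (x : X) (hx : x ∉ Subgroup.center X) : (Subgroup.centralizer ({x} : Set X)).index = Nat.card ↥(Subgroup.center X) ∧ {z : X | ∃ y : X, z = x * y * x⁻¹ * y⁻¹} = (Subgroup.center X : Set X) := by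
  obtain ⟨⟨hp, hfr, hcomm⟩, hext⟩ := hX
  have hcm : ∀ a b : X, a * b * a⁻¹ * b⁻¹ ∈ Subgroup.center X := fun a b => by
    rw [← hcomm, commutator_def]
    exact Subgroup.commutator_mem_commutator (Subgroup.mem_top a) (Subgroup.mem_top b)
  let φ : X →* ↥(Subgroup.center X) :=
    { toFun := fun y => ⟨x * y * x⁻¹ * y⁻¹, hcm x y⟩
      map_one' := Subtype.ext (by simp)
      map_mul' := fun a b => Subtype.ext (by
        show x * (a * b) * x⁻¹ * (a * b)⁻¹ = (x * a * x⁻¹ * a⁻¹) * (x * b * x⁻¹ * b⁻¹)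
        have hz := Subgroup.mem_center_iff.1 (hcm x b) a⁻¹
        calc x * (a * b) * x⁻¹ * (a * b)⁻¹ = (x * a * x⁻¹) * ((x * b * x⁻¹ * b⁻¹) * a⁻¹) := by group
          _ = (x * a * x⁻¹) * (a⁻¹ * (x * b * x⁻¹ * b⁻¹)) := by rw [hz]
          _ = (x * a * x⁻¹ * a⁻¹) * (x * b * x⁻¹ * b⁻¹) := by group) }
  have hker : φ.ker = Subgroup.centralizer ({x} : Set X) := by
    ext y
    rw [MonoidHom.mem_ker, Subgroup.mem_centralizer_singleton_iff]
    constructor
    · intro h
      have h' : x * y * x⁻¹ * y⁻¹ = 1 := congrArg Subtype.val h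
      rw [mul_inv_eq_one, mul_inv_eq_iff_eq_mul] at h'
      exact h'.symm
    · intro h
      refine Subtype.ext ?_
      show x * y * x⁻¹ * y⁻¹ = 1
      rw [← h]; group
  have htop : φ.range = ⊤ := by
    by_contra hne
    obtain ⟨M, hM, hle⟩ := (eq_top_or_exists_le_coatom φ.range).resolve_left hne
    set Y : Subgroup X := M.map (Subgroup.center X).subtype with hY
    have hYle : Y ≤ Subgroup.center X := Subgroup.map_subtype_le _
    have hYM : Y.subgroupOf (Subgroup.center X) = M :=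
      Subgroup.comap_map_eq_self_of_injective (Subgroup.subtype_injective _) M
    obtain ⟨hYn, hsp, hcard⟩ := hext Y hYle (hYM ▸ hM)
    have : Finite (X ⧸ Y) := inferInstance
    have hxc : (x : X ⧸ Y) ∈ Subgroup.center (X ⧸ Y) := by
      refine Subgroup.mem_center_iff.2 fun z => ?_
      obtain ⟨z, rfl⟩ := QuotientGroup.mk_surjective z
      rw [← QuotientGroup.mk_mul, ← QuotientGroup.mk_mul]
      refine QuotientGroup.eq.2 ?_
      have h1 : φ (x⁻¹ * z⁻¹ * x) ∈ M := hle ⟨_, rfl⟩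
      have h2 : x * (x⁻¹ * z⁻¹ * x) * x⁻¹ * (x⁻¹ * z⁻¹ * x)⁻¹ ∈ Y := ⟨_, h1, rfl⟩
      have h2' := inv_mem h2
      simpa [mul_assoc] using h2'
    obtain ⟨z, hz, hzM⟩ := SetLike.exists_of_lt (lt_top_iff_ne_top.2 hM.1)
    have hz1 : ((z : X) : X ⧸ Y) ≠ 1 := by
      intro h
      have h' := (QuotientGroup.eq_one_iff _).1 h
      exact hzM (hYM ▸ h')
    have hzc : ((z : X) : X ⧸ Y) ∈ Subgroup.center (X ⧸ Y) := by
      refine Subgroup.mem_center_iff.2 fun w => ?_
      obtain ⟨w, rfl⟩ := QuotientGroup.mk_surjective w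
      rw [← QuotientGroup.mk_mul, ← QuotientGroup.mk_mul, Subgroup.mem_center_iff.1 z.2 w]
    haveI := isCyclic_of_prime_card hcard
    have hzne : (⟨_, hzc⟩ : ↥(Subgroup.center (X ⧸ Y))) ≠ 1 := fun h => hz1 (congrArg Subtype.val h)
    obtain ⟨m, hm⟩ := mem_zpowers_of_prime_card hcard hzne (g' := ⟨_, hxc⟩)
    have hm' : (((z : X) ^ m : X) : X ⧸ Y) = (x : X ⧸ Y) := by simpa using congrArg Subtype.val hm
    apply hx
    have h3 := QuotientGroup.eq.1 hm'
    have := mul_mem (zpow_mem z.2 m) (hYle h3)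
    simpa [mul_assoc] using this
  refine ⟨?_, Set.ext fun z => ⟨?_, fun hz => ?_⟩⟩
  · rw [← hker, Subgroup.index_ker, htop]
    exact Nat.card_congr Subgroup.topEquiv.toEquiv
  · rintro ⟨y, rfl⟩; exact hcm x y
  · obtain ⟨y, hy⟩ : (⟨z, hz⟩ : ↥(Subgroup.center X)) ∈ φ.range := htop ▸ Subgroup.mem_top _
    exact ⟨y, (congrArg Subtype.val hy).symm⟩

end Cfsg.Agent.S2907
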