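import Cfsg.Statements.S2908
import Cfsg.Agent.Lib.StronglyPEmbedded.Helpers
import Cfsg.Agent.Lib.CoprimeAction.Basic
-- import your own Cfsg.Agent.* helpers here

set_option autoImplicit false
open Cfsg

namespace Cfsg.Agent.S2908

/-- Let P be a p-subgroup of a finite group, normalized by a p-subgroup A and by a subgroup B of order prime to p that commutes elementwise with A. If [P, B] ≤ [P, A], then B centralizes P. -/
theorem result {G : Type*} [Group G] [Finite G] {p : ℕ} [Fact p.Prime] (P A B : Subgroup G) (hP : IsPGroup p ↥P) (hA : IsPGroup p ↥A) (hB : ¬ p ∣ Nat.card ↥B) (hnA : A ≤ Subgroup.normalizer (P : Set G)) (hnB : B ≤ Subgroup.normalizer (P : Set G)) (hAB : ⁅A, B⁆ = ⊥) (hcomm : ⁅P, B⁆ ≤ ⁅P, A⁆) : ⁅P, B⁆ = ⊥ := by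
  open scoped commutatorElement in
  open CfsgLib.StronglyPEmbedded in
  set H : Subgroup G := P ⊔ A with hH
  have hPA : IsPGroup p ↥H := IsPGroup.to_sup_of_normal_left' hP hA hnA
  have hBA : B ≤ Subgroup.centralizer (A : Set G) :=
    Subgroup.commutator_eq_bot_iff_le_centralizer.1 ((Subgroup.commutator_comm B A).trans hAB)
  have hBnA : B ≤ Subgroup.normalizer (A : Set G) :=
    hBA.trans (Subgroup.centralizer_le_normalizer _)
  have hAnA : A ≤ Subgroup.normalizer (A : Set G) := Subgroup.le_normalizer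
  have hHP : H ≤ Subgroup.normalizer (P : Set G) := sup_le Subgroup.le_normalizer hnA
  obtain ⟨M, hM0, hMsucc⟩ : ∃ M : ℕ → Subgroup G, M 0 = P ∧ ∀ i, M (i + 1) = ⁅M i, H⁆ :=
    ⟨fun i => Nat.rec P (fun _ X => ⁅X, H⁆) i, rfl, fun _ => rfl⟩
  have hBH : B ≤ Subgroup.normalizer (H : Set G) := by
    intro b hb
    refine mem_normalizer_of_conj_le fun x hx => ?_
    have := Subgroup.mem_map_of_mem (MulAut.conj b).toMonoidHom hx
    rwa [hH, Subgroup.map_sup, map_conj_eq_of_mem_normalizer (hnB hb),
      map_conj_eq_of_mem_normalizer (hBnA hb)] at this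
  have hHB : H ⊔ B ≤ Subgroup.normalizer (H : Set G) := sup_le Subgroup.le_normalizer hBH
  have hMn : ∀ i, H ⊔ B ≤ Subgroup.normalizer ((M i : Subgroup G) : Set G) := by
    intro i
    induction i with
    | zero => rw [hM0]; exact sup_le hHP hnB
    | succ i ih => rw [hMsucc]; exact le_normalizer_commutator_of_le ih hHB
  have hHn : ∀ i, H ≤ Subgroup.normalizer ((M i : Subgroup G) : Set G) := fun i => le_sup_left.trans (hMn i)
  have hBn : ∀ i, B ≤ Subgroup.normalizer ((M i : Subgroup G) : Set G) := fun i => le_sup_right.trans (hMn i)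
  have hMP : ∀ i, M i ≤ P := by
    intro i
    induction i with
    | zero => rw [hM0]
    | succ i ih =>
      rw [hMsucc]
      exact (Subgroup.commutator_mono ih le_rfl).trans (CfsgLib.CoprimeAction.commutator_le_left hHP)
  have hMM : ∀ i, M i ≤ H := fun i => (hMP i).trans le_sup_left
  have hPB1 : ⁅P, B⁆ ≤ M 1 := by
    rw [hMsucc, hM0]
    exact hcomm.trans (Subgroup.commutator_mono le_rfl le_sup_right)
  have hHB1 : ⁅H, B⁆ ≤ M 1 := by
    let D : Subgroup G :=
      { carrier := {g | g ∈ H ∧ ∀ b ∈ B, ⁅g, b⁆ ∈ M 1}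
        one_mem' := ⟨one_mem _, fun b _ => by simp⟩
        mul_mem' := by
          rintro a b ⟨ha, ha'⟩ ⟨hb, hb'⟩
          refine ⟨mul_mem ha hb, fun z hz => ?_⟩
          have := mul_mem ((Subgroup.mem_normalizer_iff.1 (hHn 1 ha) _).1 (hb' z hz)) (ha' z hz)
          simpa [commutatorElement_def, mul_assoc] using this
        inv_mem' := by
          rintro a ⟨ha, ha'⟩
          refine ⟨inv_mem ha, fun z hz => ?_⟩
          have := (Subgroup.mem_normalizer_iff.1 (inv_mem (hHn 1 ha)) _).1 (inv_mem (ha' z hz))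
          simpa [commutatorElement_def, mul_assoc] using this }
    have hD : H ≤ D := by
      refine sup_le (fun g hg => ⟨le_sup_left (b := A) hg, fun b hb =>
        hPB1 (Subgroup.commutator_mem_commutator hg hb)⟩) (fun g hg => ⟨le_sup_right (a := P) hg, fun b hb => ?_⟩)
      have : ⁅g, b⁆ ∈ ⁅A, B⁆ := Subgroup.commutator_mem_commutator hg hb
      rw [hAB, Subgroup.mem_bot] at this
      rw [this]
      exact one_mem _
    exact Subgroup.commutator_le.2 fun g hg b hb => (hD hg).2 b hb
  have hstep : ∀ i, ⁅M i, B⁆ ≤ M (i + 1) := by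
    intro i
    induction i with
    | zero => rw [hM0]; exact hPB1
    | succ i ih =>
      -- `[M 1, M i] ≤ M (i+2)`
      have h1M : ⁅M 1, M i⁆ ≤ M (i + 2) := by
        rw [hMsucc 0, hM0]
        refine commutator_commutator_le_of_rotate (H₁ := P) (H₂ := H) (H₃ := M i)
          (le_sup_left.trans (hHn _)) (hHn _) ((hMM i).trans (hHn _)) ?_ ?_
        · rw [Subgroup.commutator_comm H (M i), ← hMsucc i, hMsucc (i + 1)]
          exact Subgroup.commutator_mono le_rfl le_sup_left
        · rw [hMsucc (i + 1), hMsucc i]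
          exact Subgroup.commutator_mono
            (Subgroup.commutator_mono le_rfl le_sup_left) le_rfl
      rw [hMsucc i]
      refine commutator_commutator_le_of_rotate (H₁ := M i) (H₂ := H) (H₃ := B)
        ((hMM i).trans (hHn _)) (hHn _) (hBn _) ?_ ?_
      · exact (Subgroup.commutator_mono hHB1 le_rfl).trans h1M
      · rw [Subgroup.commutator_comm B (M i), hMsucc (i + 1)]
        exact Subgroup.commutator_mono ih le_rfl
  have hcop : (Nat.card B).Coprime (Nat.card P) := by
    obtain ⟨n, hn⟩ := IsPGroup.iff_card.1 hP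
    rw [hn]
    exact (((Fact.out : p.Prime).coprime_iff_not_dvd.2 hB).symm).pow_right n
  have hPs : Group.IsSolvable ↥P := by
    have := hP.isNilpotent
    infer_instance
  have hall : ∀ i, ⁅P, B⁆ ≤ M i := by
    intro i
    induction i with
    | zero => rw [hM0]; exact CfsgLib.CoprimeAction.commutator_le_left hnB
    | succ i ih =>
      rw [← CfsgLib.CoprimeAction.commutator_commutator_eq hnB hcop (Or.inr hPs)]
      exact (Subgroup.commutator_mono ih le_rfl).trans (hstep i)
  have hMl : ∀ i, M i ≤ H.lowerCentralSeries i := by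
    intro i
    induction i with
    | zero => rw [hM0]; exact le_sup_left
    | succ i ih => rw [hMsucc]; exact Subgroup.commutator_mono ih le_rfl
  obtain ⟨n, hn⟩ := (Subgroup.isNilpotent_iff_lowerCentralSeries H).1 hPA.isNilpotent
  exact le_bot_iff.1 (((hall n).trans (hMl n)).trans hn.le)

end Cfsg.Agent.S2908
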