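import Cfsg.Statements.S2909
import Cfsg.Agent.Lib.StronglyPEmbedded.Helpers
import Cfsg.Agent.S2908
import Cfsg.Agent.Lib.CoprimeAction.Abelian
-- import your own Cfsg.Agent.* helpers here

set_option autoImplicit false
open Cfsg

namespace Cfsg.Agent.S2909

/-- Let p be a prime, E a normal p-subgroup of the finite group G, and U a non-cyclic elementary abelian p-subgroup of G such that either C_E(U) = C_E(u) for every nontrivial u ∈ U, or [E, U] = [E, ⟨u⟩] for every nontrivial u ∈ U. If R is a subgroup of order prime to p normalized by U, then [R, U] centralizes E. -/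
theorem result {G : Type*} [Group G] [Finite G] {p : ℕ} [Fact p.Prime] (E : Subgroup G) [E.Normal] (hE : IsPGroup p ↥E) (U : Subgroup G) (hU : Cfsg.IsElementaryAbelian p U) (hnc : ¬ IsCyclic ↥U) (hcond : (∀ u ∈ U, u ≠ 1 → E ⊓ Subgroup.centralizer (U : Set G) = E ⊓ Subgroup.centralizer ({u} : Set G)) ∨ (∀ u ∈ U, u ≠ 1 → ⁅E, U⁆ = ⁅E, Subgroup.zpowers u⁆)) (R : Subgroup G) (hR : ¬ p ∣ Nat.card ↥R) (hRU : U ≤ Subgroup.normalizer (R : Set G)) : ⁅R, U⁆ ≤ Subgroup.centralizer (E : Set G) := by
  open scoped commutatorElement in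
  open CfsgLib.StronglyPEmbedded in
  have hEn : (inferInstance : E.Normal) = (inferInstance : E.Normal) := rfl
  have hnE : ∀ g : G, g ∈ Subgroup.normalizer (E : Set G) := fun g => by
    rw [Subgroup.normalizer_eq_top_iff.2 inferInstance]; exact Subgroup.mem_top g
  have hUab : IsMulCommutative ↥U := hU.1
  have hUc : ∀ a ∈ U, ∀ b ∈ U, a * b = b * a := fun a ha b hb =>
    congrArg Subtype.val (mul_comm' (⟨a, ha⟩ : ↥U) ⟨b, hb⟩)
  have hUp : IsPGroup p ↥U := fun u => ⟨1, Subtype.ext (by simpa using hU.2 u u.2)⟩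
  have hCn : (Subgroup.centralizer (E : Set G)).Normal := inferInstance
  let S : Subgroup G :=
    { carrier := {r | r ∈ R ∧ ∀ v ∈ U, r * v * r⁻¹ * v⁻¹ ∈ Subgroup.centralizer (E : Set G)}
      one_mem' := ⟨one_mem _, fun v _ => by simp⟩
      mul_mem' := by
        rintro a b ⟨ha, ha'⟩ ⟨hb, hb'⟩
        refine ⟨mul_mem ha hb, fun v hv => ?_⟩
        have := mul_mem (hCn.conj_mem _ (hb' v hv) a) (ha' v hv)
        simpa [mul_assoc] using this
      inv_mem' := by
        rintro a ⟨ha, ha'⟩
        refine ⟨inv_mem ha, fun v hv => ?_⟩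
        have := hCn.conj_mem _ (inv_mem (ha' v hv)) a⁻¹
        simpa [mul_assoc] using this }
  have hRc : ∀ r ∈ R, (orderOf r).Coprime p := fun r hr =>
    Nat.Coprime.coprime_dvd_left (by rw [← Subgroup.orderOf_mk r hr]; exact orderOf_dvd_natCard _)
      ((Fact.out : p.Prime).coprime_iff_not_dvd.2 hR).symm
  have hcop : (Nat.card ↥U).Coprime (Nat.card ↥R) := by
    obtain ⟨n, hn⟩ := IsPGroup.iff_card.1 hUp
    rw [hn]
    exact ((Fact.out : p.Prime).coprime_iff_not_dvd.2 hR).pow_left n
  have key : ∀ u ∈ U, u ≠ 1 → ∀ r ∈ R, Commute r u → ∀ v ∈ U,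
      r * v * r⁻¹ * v⁻¹ ∈ Subgroup.centralizer (E : Set G) := by
    intro u hu hu1 r hr hru v hv
    have hvu : Commute v u := hUc v hv u hu
    have hsR : r * v * r⁻¹ * v⁻¹ ∈ R := by
      have := mul_mem hr ((Subgroup.mem_normalizer_iff.1 (hRU hv) _).1 (inv_mem hr))
      simpa [mul_assoc] using this
    have hsu : Commute (r * v * r⁻¹ * v⁻¹) u :=
      ((hru.mul_left hvu).mul_left hru.inv_left).mul_left hvu.inv_left
    set s := r * v * r⁻¹ * v⁻¹ with hs
    have hzu : IsPGroup p ↥(Subgroup.zpowers u) := hUp.to_le (Subgroup.zpowers_le.2 hu)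
    rcases hcond with hc | hc
    · refine Subgroup.mem_centralizer_iff.2 fun e he => (commute_of_axb hzu hE
        (fun g _ => hnE g) (hRc s hsR) ?_ (hnE s) ?_ e he).symm.eq
      · refine Subgroup.mem_centralizer_iff.2 fun x hx => ?_
        obtain ⟨n, rfl⟩ := Subgroup.mem_zpowers_iff.1 hx
        exact (hsu.zpow_right n).symm.eq
      · intro q hq hqu
        have hcu : ∀ q ∈ E, Commute u q → ∀ v ∈ U, v * q * v⁻¹ = q := by
          intro q hq hqu v hv
          have h' : q ∈ E ⊓ Subgroup.centralizer ({u} : Set G) :=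
            ⟨hq, Subgroup.mem_centralizer_singleton_iff.2 hqu.symm⟩
          rw [← hc u hu hu1] at h'
          rw [Subgroup.mem_centralizer_iff.1 h'.2 v hv, mul_inv_cancel_right]
        have hqu' : Commute u q :=
          Subgroup.mem_centralizer_iff.1 hqu u (Subgroup.mem_zpowers u)
        have h2 : Commute u (r⁻¹ * q * r) := (hru.symm.inv_right.mul_right hqu').mul_right hru.symm
        have h3 := hcu _ (by simpa using (inferInstance : E.Normal).conj_mem q hq r⁻¹) h2 v hv
        have h4 := hcu q hq hqu' v⁻¹ (inv_mem hv)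
        show s * q = q * s
        calc s * q = r * v * r⁻¹ * (v⁻¹ * q * v⁻¹⁻¹) * v⁻¹ := by rw [hs]; group
          _ = r * (v * (r⁻¹ * q * r) * v⁻¹) * (v * r⁻¹ * v⁻¹) := by rw [h4]; group
          _ = q * s := by rw [h3, hs]; group
    · set W := ⁅E, U⁆ with hW
      have hWu : W = ⁅E, Subgroup.zpowers u⁆ := hc u hu hu1
      let D : Subgroup G :=
        { carrier := {g | g ∈ Subgroup.normalizer (W : Set G) ∧ ∀ e ∈ E, e⁻¹ * (g * e * g⁻¹) ∈ W}
          one_mem' := ⟨one_mem _, fun e _ => by simp⟩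
          mul_mem' := by
            rintro a b ⟨ha, ha'⟩ ⟨hb, hb'⟩
            refine ⟨mul_mem ha hb, fun e he => ?_⟩
            have := mul_mem (ha' e he) ((Subgroup.mem_normalizer_iff.1 ha _).1 (hb' e he))
            rw [show e⁻¹ * (a * e * a⁻¹) * (a * (e⁻¹ * (b * e * b⁻¹)) * a⁻¹) =
              e⁻¹ * (a * b * e * (a * b)⁻¹) by group] at this
            exact this
          inv_mem' := by
            rintro a ⟨ha, ha'⟩
            refine ⟨inv_mem ha, fun e he => ?_⟩
            have := inv_mem ((Subgroup.mem_normalizer_iff.1 (inv_mem ha) _).1 (ha' e he))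
            rw [show (a⁻¹ * (e⁻¹ * (a * e * a⁻¹)) * a⁻¹⁻¹)⁻¹ = e⁻¹ * (a⁻¹ * e * a⁻¹⁻¹) by group] at this
            exact this }
      have hvD : ∀ v ∈ U, v ∈ D := by
        intro v hv
        refine ⟨le_normalizer_commutator_of_le (L := U) (fun g _ => hnE g) Subgroup.le_normalizer hv,
          fun e he => ?_⟩
        have := Subgroup.commutator_mem_commutator (inv_mem he) hv
        simpa [commutatorElement_def, mul_assoc] using this
      have hrW : r ∈ Subgroup.normalizer (W : Set G) := by
        rw [hWu]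
        refine le_normalizer_commutator_of_le (L := Subgroup.zpowers r) (fun g _ => hnE g) ?_
          (Subgroup.mem_zpowers r)
        refine Subgroup.zpowers_le.2 (mem_normalizer_of_conj_le fun x hx => ?_)
        obtain ⟨n, rfl⟩ := Subgroup.mem_zpowers_iff.1 hx
        rw [(hru.zpow_right n).eq, mul_inv_cancel_right]
        exact zpow_mem (Subgroup.mem_zpowers u) n
      have hrvD : r * v * r⁻¹ ∈ D := by
        refine ⟨mul_mem (mul_mem hrW (hvD v hv).1) (inv_mem hrW), fun e he => ?_⟩
        have := (Subgroup.mem_normalizer_iff.1 hrW _).1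
          ((hvD v hv).2 (r⁻¹ * e * r) (by simpa using (inferInstance : E.Normal).conj_mem e he r⁻¹))
        rw [show r * ((r⁻¹ * e * r)⁻¹ * (v * (r⁻¹ * e * r) * v⁻¹)) * r⁻¹ =
          e⁻¹ * (r * v * r⁻¹ * e * (r * v * r⁻¹)⁻¹) by group] at this
        exact this
      have hsD : s ∈ D := mul_mem hrvD (inv_mem (hvD v hv))
      have h0 : ⁅E, Subgroup.zpowers s⁆ = ⊥ := by
        refine Cfsg.Agent.S2908.result (p := p) E (Subgroup.zpowers u) (Subgroup.zpowers s) hE hzu ?_
          (fun g _ => hnE g) (fun g _ => hnE g) ?_ ?_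
        · rw [Nat.card_zpowers]
          exact (Fact.out : p.Prime).coprime_iff_not_dvd.1 (hRc s hsR).symm
        · rw [Subgroup.commutator_eq_bot_iff_le_centralizer, Subgroup.zpowers_le]
          refine Subgroup.mem_centralizer_iff.2 fun x hx => ?_
          obtain ⟨n, rfl⟩ := Subgroup.mem_zpowers_iff.1 hx
          exact (hsu.zpow_left n).eq
        · rw [← hWu]
          refine Subgroup.commutator_le.2 fun e he g hg => ?_
          have := ((Subgroup.zpowers_le.2 hsD) hg).2 e⁻¹ (inv_mem he)
          simpa [commutatorElement_def, mul_assoc] using this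
      have := Subgroup.commutator_eq_bot_iff_le_centralizer.1 ((Subgroup.commutator_comm _ _).trans h0)
      exact this (Subgroup.mem_zpowers s)
  have hle : R ≤ S := by
    haveI := hUab
    refine CfsgLib.CoprimeAction.le_of_centralizers hnc hRU hcop fun a ha ha1 => ?_
    rintro r ⟨hr, hra⟩
    exact ⟨hr, fun v hv => key a ha ha1 r hr (Subgroup.mem_centralizer_singleton_iff.1 hra) v hv⟩
  exact Subgroup.commutator_le.2 fun r hr v hv => by
    simpa [commutatorElement_def] using (hle hr).2 v hv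

end Cfsg.Agent.S2909
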