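import Cfsg.Statements.S2910
import Cfsg.Agent.Lib.BGTypes.OrderP
import Cfsg.Agent.Lib.NormalPComplement.Frobenius
-- import your own Cfsg.Agent.* helpers here

set_option autoImplicit false
open Cfsg

namespace Cfsg.Agent.S2910

/-- Let p be an odd prime dividing the order of the finite group G and P a Sylow p-subgroup of G. If Ω₁(P) (generated by the elements of order dividing p) is contained in the centre of G, then G has a normal p-complement. In particular, if G is quasisimple then Ω₁(P) is not central in G. -/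
theorem result {G : Type*} [Group G] [Finite G] {p : ℕ} [Fact p.Prime] (hp : p ≠ 2) (hdiv : p ∣ Nat.card G) (P : Sylow p G) (hZ : Cfsg.omegaOne p (P : Subgroup G) ≤ Subgroup.center G) : Cfsg.HasNormalPComplement p G ∧ ¬ Cfsg.IsQuasisimple G := by
  have hcen : ∀ x : G, x ^ p = 1 → x ∈ Subgroup.center G := by
    intro x hx
    have hxp : IsPGroup p ↥(Subgroup.zpowers x) := by
      refine IsPGroup.iff_card.2 ?_
      rw [Nat.card_zpowers]
      obtain ⟨k, -, hk⟩ := (Nat.dvd_prime_pow Fact.out).1
        (show orderOf x ∣ p ^ 1 by rw [pow_one]; exact orderOf_dvd_of_pow_eq_one hx)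
      exact ⟨k, hk⟩
    obtain ⟨Q, hQ⟩ := hxp.exists_le_sylow
    obtain ⟨g, hg⟩ := MulAction.exists_smul_eq G P Q
    have hxQ : x ∈ ((g • P : Sylow p G) : Subgroup G) := hg ▸ hQ (Subgroup.mem_zpowers x)
    rw [Sylow.coe_subgroup_smul, Subgroup.mem_pointwise_smul_iff_inv_smul_mem] at hxQ
    have h1 : g⁻¹ * x * g ∈ (P : Subgroup G) := by simpa [MulAut.smul_def] using hxQ
    have h2 : g⁻¹ * x * g ∈ Subgroup.center G := hZ (Subgroup.subset_closure ⟨h1, by
      have e := conj_pow (a := g⁻¹) (b := x) (i := p)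
      rw [inv_inv, hx, mul_one, inv_mul_cancel] at e
      exact e⟩)
    have h3 := Subgroup.mem_center_iff.1 h2 g
    have h4 : g⁻¹ * x * g = x := by
      calc g⁻¹ * x * g = g⁻¹ * x * g * g * g⁻¹ := by group
        _ = g * (g⁻¹ * x * g) * g⁻¹ := by rw [← h3]
        _ = x := by group
    exact h4 ▸ h2
  have hN : Cfsg.HasNormalPComplement p G :=
    CfsgLib.NormalPComplement.hasNormalPComplement_of_frobeniusCondition fun Q hQ g hg hgp =>
      Subgroup.mem_centralizer_iff.2 fun y hy =>
        (CfsgLib.BGTypes.commute_of_fix_order_p hp hgp Q hQ hg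
          (fun z _ hzp => Subgroup.mem_center_iff.1 (hcen z hzp) g) y hy).eq.symm
  refine ⟨hN, fun hq => ?_⟩
  obtain ⟨S, N, hNn, hc⟩ := hN
  haveI := hNn
  haveI := hq.1
  haveI : Group.IsNilpotent (G ⧸ N) := IsPGroup.isNilpotent
    (S.isPGroup'.of_equiv hc.symm.QuotientMulEquiv.symm)
  have hS1 : (S : Subgroup G) = ⊥ := by
    have h1 : Subsingleton (G ⧸ N) := by
      by_contra h
      haveI := not_subsingleton_iff_nontrivial.1 h
      exact Group.IsPerfect.not_isNilpotent (G := G ⧸ N) inferInstance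
    rw [← Subgroup.card_eq_one, Nat.card_congr hc.symm.QuotientMulEquiv.symm.toEquiv]
    exact Nat.card_of_subsingleton (1 : G ⧸ N)
  exact S.ne_bot_of_dvd_card hdiv hS1

end Cfsg.Agent.S2910
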