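import Cfsg.Statements.S2911
import Cfsg.Agent.Lib.SectRank.Transfer
import Cfsg.Agent.Lib.JComponents.Local
import Mathlib.GroupTheory.SpecificGroups.Dihedral
import Cfsg.Prelude.Def_Transfer
-- import your own Cfsg.Agent.* helpers here

set_option autoImplicit false
open Cfsg

namespace Cfsg.Agent.S2911

set_option synthInstance.maxSize 2048

abbrev Dom := Multiplicative (ZMod 2) × DihedralGroup 4

/-- A generator of the direct factor of order two. -/
abbrev zz : Dom := (Multiplicative.ofAdd 1, 1)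

/-- The square of the rotation. -/
abbrev cc : Dom := (1, DihedralGroup.r 2)

/-- Representatives of the non-central classes of involutions. -/
abbrev inv' (e p : ZMod 2) : Dom := (Multiplicative.ofAdd e, DihedralGroup.sr (p.val : ZMod 4))

/-- A linear map whose kernels are the maximal subgroups without `zz`. -/
def chi (j k : ZMod 2) : Dom → ZMod 2
  | (e, DihedralGroup.r i) => Multiplicative.toAdd e + (i.val : ZMod 2) * (j + k)
  | (e, DihedralGroup.sr i) => Multiplicative.toAdd e + j + (i.val : ZMod 2) * (j + k)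

lemma chi_mul : ∀ (j k : ZMod 2) (x y : Dom), chi j k (x * y) = chi j k x + chi j k y := by decide

lemma chi_outside : ∀ (j k : ZMod 2), chi j k zz = 1 ∧ chi j k (zz * cc) = 1 := by decide

lemma chi_inventory : ∀ (j k : ZMod 2) (x : Dom), x * x = 1 → chi j k x = 0 → x ≠ 1 →
    x = cc ∨ (∃ y, y * x * y⁻¹ = inv' j 0) ∨ ∃ y, y * x * y⁻¹ = inv' k 1 := by decide

lemma central_inventory : ∀ x : Dom, (∀ y, x * y = y * x) → x * x = 1 →
    x = 1 ∨ x = cc ∨ x = zz ∨ x = zz * cc := by decide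

lemma square_inventory : ∀ y : Dom, y * y = 1 ∨ y * y = cc := by decide

lemma elem_inventory : ∀ (p : ZMod 2) (x : Dom), x * inv' 0 p = inv' 0 p * x →
    x * x = 1 ∧ (x = 1 ∨ x = cc ∨ x = zz ∨ x = zz * cc ∨ ∃ e y, y * x * y⁻¹ = inv' e p) := by decide

lemma inventory : ∀ (p : ZMod 2) (x : Dom), x * x = 1 → x = 1 ∨ x = cc ∨ x = zz ∨ x = zz * cc ∨
    (∃ e y, y * x * y⁻¹ = inv' e p) ∨ ∃ e y, y * x * y⁻¹ = inv' e (p + 1) := by decide

lemma elem_closed : ∀ (p : ZMod 2) (x y : Dom), y * y = 1 → x * y = y * x →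
    x * inv' 0 p = inv' 0 p * x → (∃ e z, z * x * z⁻¹ = inv' e p) →
    y * inv' 0 p = inv' 0 p * y := by decide

lemma elem_facts : ∀ (p e : ZMod 2), inv' e p * inv' 0 p = inv' 0 p * inv' e p ∧
    (∀ y : Dom, (∃ e z, z * y * z⁻¹ = inv' e p) → y * inv' 0 p = inv' 0 p * y) ∧
    zz * inv' 0 p = inv' 0 p * zz ∧ cc * inv' 0 p = inv' 0 p * cc ∧ inv' 0 p ≠ inv' 1 p ∧
    inv' e p ≠ zz ∧ inv' e p * inv' e p = 1 := by decide

lemma zz_central : ∀ y : Dom, zz * y = y * zz := by decide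

lemma cc_central : ∀ y : Dom, cc * y = y * cc := by decide

lemma zc_central : ∀ y : Dom, zz * cc * y = y * (zz * cc) := by decide

lemma cc_eq : cc = ((1, DihedralGroup.r 1) : Dom) * (1, DihedralGroup.r 1) := by decide

lemma dist : cc ≠ zz ∧ cc ≠ zz * cc ∧ zz ≠ zz * cc ∧ cc ≠ (1 : Dom) ∧ zz ≠ (1 : Dom) ∧
    zz * cc ≠ (1 : Dom) ∧ zz = zz * cc * cc ∧ ((1, DihedralGroup.r 1) : Dom) * (1, DihedralGroup.r 1) ≠ 1 := by
  decide

lemma elem_comm : ∀ (p : ZMod 2) (x y : Dom), x * inv' 0 p = inv' 0 p * x →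
    y * inv' 0 p = inv' 0 p * y → x * y = y * x := by decide

/-- Weak closure of an abelian subgroup controls the fusion of its elements. -/
lemma weaklyClosed_fusion {G : Type*} [Group G] [Finite G] (P : Sylow 2 G) {Z : Subgroup G}
    (hab : ∀ a ∈ Z, ∀ b ∈ Z, a * b = b * a) (hW : IsWeaklyClosed Z P) {x u : G} (hx : x ∈ Z)
    (hy : u * x * u⁻¹ ∈ Z) :
    ∃ w ∈ Subgroup.normalizer (Z : Set G), w * x * w⁻¹ = u * x * u⁻¹ := by
  haveI : Fact (Nat.Prime 2) := ⟨Nat.prime_two⟩
  set y := u * x * u⁻¹ with hydef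
  have hZy : Z ≤ Subgroup.centralizer ({y} : Set G) := fun z hz =>
    Subgroup.mem_centralizer_singleton_iff.mpr (hab z hz y hy)
  set C := Subgroup.centralizer ({y} : Set G) with hC
  set Z2 := Z.map (MulAut.conj u).toMonoidHom with hZ2
  have hZ2C : Z2 ≤ C := by
    rintro _ ⟨z, hz, rfl⟩
    rw [hC, Subgroup.mem_centralizer_singleton_iff]
    calc u * z * u⁻¹ * (u * x * u⁻¹) = u * (z * x) * u⁻¹ := by group
      _ = u * (x * z) * u⁻¹ := by rw [hab z hz x hx]
      _ = u * x * u⁻¹ * (u * z * u⁻¹) := by group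
  have hZp : IsPGroup 2 Z := P.2.to_le hW.1
  obtain ⟨S1, hS1⟩ := (hZp.of_equiv (Subgroup.subgroupOfEquivOfLe hZy).symm).exists_le_sylow
  obtain ⟨S2, hS2⟩ :=
    ((hZp.map _).of_equiv (Subgroup.subgroupOfEquivOfLe hZ2C).symm).exists_le_sylow
  obtain ⟨c, hc⟩ := MulAction.exists_smul_eq C S2 S1
  obtain ⟨Q, hQ⟩ := (S1.2.map C.subtype).exists_le_sylow
  obtain ⟨g, hg⟩ := MulAction.exists_smul_eq G Q P
  have hmemP : ∀ s ∈ (S1 : Subgroup C), g * (s : G) * g⁻¹ ∈ (P : Subgroup G) := by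
    intro s hs
    have h1 : (s : G) ∈ (Q : Subgroup G) := hQ ⟨s, hs, rfl⟩
    rw [← hg]
    exact ⟨(s : G), h1, rfl⟩
  have e1 : Z.map (MulAut.conj g).toMonoidHom = Z := by
    refine hW.2 g ?_
    rintro _ ⟨z, hz, rfl⟩
    exact hmemP ⟨z, hZy hz⟩ (hS1 hz)
  have e2 : Z.map (MulAut.conj (g * c * u)).toMonoidHom = Z := by
    refine hW.2 _ ?_
    rintro _ ⟨z, hz, rfl⟩
    have hz2 : u * z * u⁻¹ ∈ Z2 := ⟨z, hz, rfl⟩
    have h2 : c * (⟨_, hZ2C hz2⟩ : C) * c⁻¹ ∈ (S1 : Subgroup C) := by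
      rw [← hc]
      exact ⟨_, hS2 (show (⟨_, hZ2C hz2⟩ : C) ∈ Z2.subgroupOf C from hz2), rfl⟩
    convert hmemP _ h2 using 1
    simp only [MulEquiv.coe_toMonoidHom, MulAut.conj_apply, mul_inv_rev, Subgroup.coe_mul,
      Subgroup.coe_inv]
    group
  have hN : ∀ v : G, Z.map (MulAut.conj v).toMonoidHom = Z → v ∈ Subgroup.normalizer (Z : Set G) :=
    fun v hv => Subgroup.mem_normalizer_iff_map_conj_eq.2 hv
  refine ⟨c * u, ?_, ?_⟩
  · have := mul_mem (inv_mem (hN g e1)) (hN _ e2)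
    convert this using 1
    group
  · have hcy := Subgroup.mem_centralizer_singleton_iff.mp c.2
    calc (c : G) * u * x * ((c : G) * u)⁻¹ = c * y * (c : G)⁻¹ := by rw [hydef]; group
      _ = y := by rw [hcy]; group

/-- Conjugation by an element of the normaliser fixes the three central involutions. -/
lemma no_centre_fusion {G : Type*} [Group G] [Finite G] (S : Sylow 2 G) (f : Dom →* G)
    (hinj : Function.Injective f) (hr : f.range = (S : Subgroup G)) :
    ¬ IsConj (f cc) (f zz) ∧ ¬ IsConj (f cc) (f (zz * cc)) ∧ ¬ IsConj (f zz) (f (zz * cc)) := by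
  haveI : Fact (Nat.Prime 2) := ⟨Nat.prime_two⟩
  have hmem : ∀ x, f x ∈ (S : Subgroup G) := fun x => hr ▸ ⟨x, rfl⟩
  have hsurj : ∀ g ∈ (S : Subgroup G), ∃ x, f x = g := fun g hg => by rw [← hr] at hg; exact hg
  have hcent : ∀ x : Dom, (∀ y, x * y = y * x) →
      f x ∈ Subgroup.centralizer ((S : Subgroup G) : Set G) := by
    refine fun x hx => Subgroup.mem_centralizer_iff.2 fun g hg => ?_
    obtain ⟨y, rfl⟩ := hsurj g hg
    rw [← map_mul, ← map_mul, hx y]
  have hz := zz_central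
  have hc := cc_central
  have hzc := zc_central
  have burn : ∀ x y : Dom, (∀ w, x * w = w * x) → (∀ w, y * w = w * y) → IsConj (f x) (f y) →
      ∃ n ∈ Subgroup.normalizer ((S : Subgroup G) : Set G), n * f x * n⁻¹ = f y := by
    intro x y hx hy hxy
    obtain ⟨g, hg⟩ := isConj_iff.1 hxy
    have e : g⁻¹⁻¹ * f x * g⁻¹ = f y := by rw [inv_inv]; exact hg
    obtain ⟨n, hn, hn'⟩ := S.conj_eq_normalizer_conj_of_mem_centralizer (f x) g⁻¹ (hcent x hx)
      (e ▸ hcent y hy)
    exact ⟨n⁻¹, inv_mem hn, by rw [inv_inv, ← hn', e]⟩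
  have hnc : ∀ n ∈ Subgroup.normalizer ((S : Subgroup G) : Set G), n * f cc * n⁻¹ = f cc := by
    intro n hn
    obtain ⟨y, hy⟩ := hsurj _ ((Subgroup.mem_normalizer_iff.1 hn _).1
      (hmem (1, DihedralGroup.r 1)))
    have e : n * f cc * n⁻¹ = f (y * y) := by
      rw [map_mul, hy, cc_eq,
        map_mul]
      group
    rcases square_inventory y with h | h
    · rw [h, map_one, mul_inv_eq_one, mul_eq_left] at e
      exact absurd (hinj (e.trans f.map_one.symm)) dist.2.2.2.1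
    · rwa [h] at e
  refine ⟨fun h => ?_, fun h => ?_, fun h => ?_⟩
  · obtain ⟨n, hn, e⟩ := burn _ _ hc hz h
    exact absurd (hinj ((hnc n hn).symm.trans e)) (by first | exact dist.1 | exact dist.2.1)
  · obtain ⟨n, hn, e⟩ := burn _ _ hc hzc h
    exact absurd (hinj ((hnc n hn).symm.trans e)) (by first | exact dist.1 | exact dist.2.1)
  obtain ⟨n, hn, e⟩ := burn _ _ hz hzc h
  obtain ⟨a, b, hab, ⟨k, hk⟩, hb⟩ := CfsgLib.JComponents.exists_two_parts n
  have haS : n ^ a ∈ (S : Subgroup G) := by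
    have hp := IsPGroup.to_sup_of_normal_right'
      (CfsgLib.JComponents.isPGroup_zpowers_of_dvd hk) S.2 (Subgroup.zpowers_le.2 (pow_mem hn a))
    exact (S.is_maximal' hp le_sup_right).le (Subgroup.mem_sup_left (Subgroup.mem_zpowers _))
  obtain ⟨x, hx⟩ := hsurj _ haS
  have hbn := pow_mem hn b
  set u := n ^ b with hu
  have e' : u * f zz * u⁻¹ = f (zz * cc) := by
    calc u * f zz * u⁻¹ = (n ^ a)⁻¹ * ((n ^ a * u) * f zz * (n ^ a * u)⁻¹) * n ^ a := by group
      _ = f (zz * cc) := by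
        rw [hab, e, ← hx, ← map_inv, ← map_mul, ← map_mul]
        congr 1
        rw [mul_assoc, hzc x, inv_mul_cancel_left]
  have hsq : u * u * f zz * (u * u)⁻¹ = f zz := by
    calc u * u * f zz * (u * u)⁻¹ = u * (u * f zz * u⁻¹) * u⁻¹ := by group
      _ = (u * f zz * u⁻¹) * (u * f cc * u⁻¹) := by
        conv_lhs => rw [e', map_mul]
        group
      _ = f zz := by rw [e', hnc u hbn, ← map_mul, ← dist.2.2.2.2.2.2.1]
  obtain ⟨m, hm⟩ := exists_pow_eq_self_of_coprime (x := u) (n := 2) ((Nat.coprime_two_left).2 hb)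
  have hc' : Commute (u * u) (f zz) := mul_inv_eq_iff_eq_mul.1 hsq
  have h1 := hc'.pow_left m
  rw [← pow_two, hm] at h1
  exact absurd (hinj ((mul_inv_eq_iff_eq_mul.2 h1.eq).symm.trans e')) dist.2.2.1

/-- One class of involutions meeting both cosets leads to a contradiction. -/
lemma no_pattern {G : Type*} [Group G] [Finite G] (S : Sylow 2 G) (f : Dom →* G)
    (hinj : Function.Injective f) (hr : f.range = (S : Subgroup G)) (p : ZMod 2)
    (hu : ∀ e, IsConj (f zz) (f (inv' e p))) (hv : ∀ e, IsConj (f (zz * cc)) (f (inv' e (p + 1)))) :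
    False := by
  obtain ⟨n1, n2, n3⟩ := no_centre_fusion S f hinj hr
  have hcl : ∀ {e q : ZMod 2} {x y : Dom}, y * x * y⁻¹ = inv' e q → IsConj (f x) (f (inv' e q)) :=
    fun {e q x y} h => isConj_iff.2 ⟨f y, by rw [← map_inv, ← map_mul, ← map_mul, h]⟩
  have hsurj : ∀ g ∈ (S : Subgroup G), ∃ x, f x = g := fun g hg => by rw [← hr] at hg; exact hg
  set E := (Subgroup.centralizer ({inv' 0 p} : Set Dom)).map f with hE
  have hmE : ∀ {x : Dom}, x * inv' 0 p = inv' 0 p * x → f x ∈ E := fun h =>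
    Subgroup.mem_map_of_mem f (Subgroup.mem_centralizer_singleton_iff.2 h)
  have hES : E ≤ (S : Subgroup G) := hr ▸ Subgroup.map_le_range f _
  have hEe : ∀ g ∈ E, ∃ x, x * inv' 0 p = inv' 0 p * x ∧ f x = g := by
    rintro _ ⟨x, hx, rfl⟩
    exact ⟨x, Subgroup.mem_centralizer_singleton_iff.1 hx, rfl⟩
  have hab : ∀ a ∈ E, ∀ b ∈ E, a * b = b * a := by
    intro a ha b hb
    obtain ⟨x, hx, rfl⟩ := hEe a ha
    obtain ⟨y, hy, rfl⟩ := hEe b hb
    rw [← map_mul, ← map_mul, elem_comm p x y hx hy]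
  have hW : IsWeaklyClosed E S := by
    refine ⟨hES, fun g hg => ?_⟩
    have himg : ∀ x, x * inv' 0 p = inv' 0 p * x → ∃ y, f y = g * f x * g⁻¹ := fun x hx =>
      hsurj _ (hg ⟨f x, hmE hx, rfl⟩)
    have hclass : ∀ e, ∀ y, f y = g * f (inv' e p) * g⁻¹ → y = zz ∨ ∃ e' z, z * y * z⁻¹ = inv' e' p := by
      intro e y hy
      have hzy : IsConj (f zz) (f y) := hy ▸ (hu e).trans (isConj_iff.2 ⟨g, rfl⟩)
      have hy2 : y * y = 1 := hinj (by
        rw [map_mul, map_one, hy,
          show g * f (inv' e p) * g⁻¹ * (g * f (inv' e p) * g⁻¹) =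
            g * (f (inv' e p) * f (inv' e p)) * g⁻¹ by group,
          ← map_mul, (elem_facts p e).2.2.2.2.2.2, map_one]
        group)
      rcases inventory p y hy2 with rfl | rfl | rfl | rfl | h | ⟨e', z, hz⟩
      · rw [map_one, isConj_one_left] at hzy
        exact absurd (hinj (hzy.trans f.map_one.symm)) dist.2.2.2.2.1
      · exact absurd hzy.symm n1
      · exact .inl rfl
      · exact absurd hzy n3
      · exact .inr h
      · exact absurd (hzy.trans ((hcl hz).trans (hv e').symm)) n3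
    obtain ⟨y₀, hy₀⟩ := himg _ (elem_facts p 0).1
    obtain ⟨y₁, hy₁⟩ := himg _ (elem_facts p 1).1
    obtain ⟨y, hy, hyE⟩ : ∃ y, (∃ e, f y = g * f (inv' e p) * g⁻¹) ∧
        ∃ e' z, z * y * z⁻¹ = inv' e' p := by
      rcases hclass 0 y₀ hy₀ with h0 | h0
      · rcases hclass 1 y₁ hy₁ with h1 | h1
        · subst h0 h1
          exact absurd (hinj (mul_left_cancel (mul_right_cancel (hy₀.symm.trans hy₁))))
            (elem_facts p 0).2.2.2.2.1
        · exact ⟨y₁, ⟨1, hy₁⟩, h1⟩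
      · exact ⟨y₀, ⟨0, hy₀⟩, h0⟩
    have hle : E.map (MulAut.conj g).toMonoidHom ≤ E := by
      rintro _ ⟨_, ⟨x, hx, rfl⟩, rfl⟩
      have hx' := Subgroup.mem_centralizer_singleton_iff.1 hx
      obtain ⟨x', hx''⟩ := himg x hx'
      obtain ⟨e, he⟩ := hy
      show g * f x * g⁻¹ ∈ E
      rw [← hx'']
      refine hmE (elem_closed p y x' ?_ ?_ ((elem_facts p 0).2.1 y hyE) hyE)
      · refine hinj ?_
        rw [map_mul, map_one, hx'', show g * f x * g⁻¹ * (g * f x * g⁻¹) = g * (f x * f x) * g⁻¹ by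
          group, ← map_mul, (elem_inventory p x hx').1, map_one]
        group
      · refine hinj ?_
        have hc := hab _ (hmE (elem_facts p e).1) _ (hmE hx')
        rw [map_mul, map_mul, he, hx'']
        calc g * f (inv' e p) * g⁻¹ * (g * f x * g⁻¹) = g * (f (inv' e p) * f x) * g⁻¹ := by group
          _ = g * (f x * f (inv' e p)) * g⁻¹ := by rw [hc]
          _ = _ := by group
    exact Subgroup.eq_of_le_of_card_ge hle
      (Subgroup.card_map_of_injective (MulAut.conj g).injective).ge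
  obtain ⟨g, hg⟩ := isConj_iff.1 (hu 0)
  obtain ⟨w, hw, he⟩ := weaklyClosed_fusion S hab hW (hmE (elem_facts p 0).2.2.1)
    (u := g) (hg ▸ hmE (elem_facts p 0).1)
  rw [hg] at he
  have hfix : ∀ x, x * inv' 0 p = inv' 0 p * x → x ≠ 1 → ¬ IsConj (f x) (f zz) →
      ∀ y, f y = w * f x * w⁻¹ → (y = cc ∨ y = zz * cc) := by
    intro x hx hx1 hxz y hy
    have hc : IsConj (f x) (f y) := isConj_iff.2 ⟨w, hy.symm⟩
    have hyE : f y ∈ E := hy ▸ (Subgroup.mem_normalizer_iff.1 hw _).1 (hmE hx)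
    obtain ⟨y', hy', e⟩ := hEe _ hyE
    obtain rfl := hinj e
    rcases (elem_inventory p y' hy').2 with rfl | rfl | rfl | rfl | ⟨e', z, hz⟩
    · rw [map_one, isConj_one_left] at hc
      exact absurd (hinj (hc.trans f.map_one.symm)) hx1
    · exact .inl rfl
    · exact absurd hc hxz
    · exact .inr rfl
    · exact absurd (hc.trans ((hcl hz).trans (hu e').symm)) hxz
  obtain ⟨yc, hyc⟩ := hsurj _ (hES ((Subgroup.mem_normalizer_iff.1 hw _).1
    (hmE (elem_facts p 0).2.2.2.1)))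
  have hEcc : zz * cc * inv' 0 p = inv' 0 p * (zz * cc) := by
    rw [mul_assoc, (elem_facts p 0).2.2.2.1, ← mul_assoc, (elem_facts p 0).2.2.1, mul_assoc]
  obtain ⟨yd, hyd⟩ := hsurj _ (hES ((Subgroup.mem_normalizer_iff.1 hw _).1 (hmE hEcc)))
  have h1 : yc = cc := (hfix _ (elem_facts p 0).2.2.2.1 dist.2.2.2.1 n1 _ hyc).resolve_right
    fun h => n2 (isConj_iff.2 ⟨w, by rw [← hyc, h]⟩)
  have h2 : yd = zz * cc := (hfix _ hEcc dist.2.2.2.2.2.1 (fun h => n3 h.symm) _ hyd).resolve_left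
    fun h => n2 (IsConj.symm (isConj_iff.2 ⟨w, by rw [← hyd, h]⟩))
  have hzz := dist.2.2.2.2.2.2.1
  have : f zz = f (inv' 0 p) := by
    rw [← he]
    conv_rhs => rw [hzz, map_mul,
      show w * (f (zz * cc) * f cc) * w⁻¹ = (w * f (zz * cc) * w⁻¹) * (w * f cc * w⁻¹) by group,
      ← hyc, ← hyd, h1, h2, ← map_mul, ← hzz]
  exact (elem_facts p 0).2.2.2.2.2.1 (hinj this).symm

/-- A finite group whose Sylow 2-subgroups are isomorphic to the direct product of a group of order 2 and a dihedral group of order 8 has a subgroup of index two. -/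
theorem result {G : Type*} [Group G] [Finite G] (S : Sylow 2 G) (hS : Nonempty (↥(S : Subgroup G) ≃* Multiplicative (ZMod 2) × DihedralGroup 4)) : ∃ H : Subgroup G, H.index = 2 := by
  by_contra hcon
  push Not at hcon
  obtain ⟨e⟩ := hS
  set f : Dom →* G := (S : Subgroup G).subtype.comp e.symm.toMonoidHom with hf
  have hinj : Function.Injective f := (S : Subgroup G).subtype_injective.comp e.symm.injective
  have hr : f.range = (S : Subgroup G) := by
    ext g
    constructor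
    · rintro ⟨x, rfl⟩; exact (e.symm x).2
    · intro hg; exact ⟨e ⟨g, hg⟩, by simp [hf]⟩
  obtain ⟨n1, n2, n3⟩ := no_centre_fusion S f hinj hr
  have key : ∀ t : Dom, (t = zz ∨ t = zz * cc) → ∀ j k : ZMod 2,
      IsConj (f t) (f (inv' j 0)) ∨ IsConj (f t) (f (inv' k 1)) := by
    intro t ht j k
    have hne : t ≠ 1 := by
      rcases ht with rfl | rfl
      · exact dist.2.2.2.2.1
      · exact dist.2.2.2.2.2.1
    have ht2 : t * t = 1 := by rcases ht with rfl | rfl <;> decide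
    have htc : t = zz ∨ t = zz * cc := ht
    let χ : ↥(S : Subgroup G) →* Multiplicative (ZMod 2) :=
      { toFun := fun s => Multiplicative.ofAdd (chi j k (e s))
        map_one' := by
          have h := chi_mul j k 1 1
          rw [mul_one] at h
          have h0 : chi j k 1 = 0 := left_eq_add.1 h
          rw [map_one, h0, ofAdd_zero]
        map_mul' := fun a b => by rw [map_mul, chi_mul, ofAdd_add] }
    have hval : chi j k t = 1 := by
      rcases htc with rfl | rfl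
      · exact (chi_outside j k).1
      · exact (chi_outside j k).2
    have hχt : χ (e.symm t) = Multiplicative.ofAdd 1 := by simp [χ, hval]
    have hidx : χ.ker.index = 2 := by
      rw [Subgroup.index_ker, MonoidHom.range_eq_top.2 fun y => ?_]
      · simp
      · obtain rfl | rfl : y = 1 ∨ y = Multiplicative.ofAdd 1 := by revert y; decide
        · exact ⟨1, map_one _⟩
        · exact ⟨_, hχt⟩
    have hsq : ((e.symm t : ↥(S : Subgroup G)) : G) ^ 2 = 1 := by
      rw [pow_two, ← Subgroup.coe_mul, ← map_mul, ht2, map_one, Subgroup.coe_one]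
    have hnot : e.symm t ∉ χ.ker := by
      rw [MonoidHom.mem_ker, hχt]; decide
    obtain ⟨a, ha, haM⟩ :=
      CfsgLib.SectRank.exists_conj_mem_of_index_two hcon S χ.ker hidx (e.symm t) hsq hnot
    obtain ⟨x, hx⟩ : ∃ x, x = e ⟨_, ha⟩ := ⟨_, rfl⟩
    have hxt : f x = a * f t * a⁻¹ := by simp [hx, hf]
    have hx0 : chi j k x = 0 := by
      rw [MonoidHom.mem_ker] at haM
      simpa [χ, hx] using haM
    have hx2 : x * x = 1 := hinj (by
      rw [map_mul, map_one, hxt, show a * f t * a⁻¹ * (a * f t * a⁻¹) = a * (f t * f t) * a⁻¹ by group,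
        ← map_mul, ht2, map_one]
      group)
    have hx1 : x ≠ 1 := by
      intro h
      rw [h, map_one, eq_comm, mul_inv_eq_one, mul_eq_left] at hxt
      exact hne (hinj (hxt.trans f.map_one.symm))
    have hc : IsConj (f t) (f x) := isConj_iff.2 ⟨a, hxt.symm⟩
    rcases chi_inventory j k x hx2 hx0 hx1 with rfl | ⟨y, hy⟩ | ⟨y, hy⟩
    · rcases htc with rfl | rfl
      · exact absurd hc.symm n1
      · exact absurd hc.symm n2
    · exact .inl (hc.trans (isConj_iff.2 ⟨f y, by rw [← map_inv, ← map_mul, ← map_mul, hy]⟩))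
    · exact .inr (hc.trans (isConj_iff.2 ⟨f y, by rw [← map_inv, ← map_mul, ← map_mul, hy]⟩))
  have row : ∀ t : Dom, (t = zz ∨ t = zz * cc) →
      (∀ e, IsConj (f t) (f (inv' e 0))) ∨ ∀ e, IsConj (f t) (f (inv' e 1)) := by
    intro t ht
    by_contra! h
    obtain ⟨⟨j, hj⟩, ⟨k, hk⟩⟩ := h
    exact (key t ht j k).elim hj hk
  rcases row zz (.inl rfl) with hz | hz <;> rcases row (zz * cc) (.inr rfl) with hzc | hzc
  · exact n3 ((hz 0).trans (hzc 0).symm)
  · exact no_pattern S f hinj hr 0 hz hzc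
  · exact no_pattern S f hinj hr 1 hz hzc
  · exact n3 ((hz 0).trans (hzc 0).symm)

end Cfsg.Agent.S2911
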