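import Cfsg.Statements.S2912
import Mathlib
-- import your own Cfsg.Agent.* helpers here

set_option autoImplicit false
open Cfsg

namespace Cfsg.Agent.S2912

open scoped commutatorElement
open Polynomial

/-- A faithful module in characteristic `r` for a group with centre of prime order `p ≠ r` whose
commutators are central has dimension at least `n * p ^ w`. -/
lemma dim_bound {p r : ℕ} [hp : Fact p.Prime] [hr : Fact r.Prime] (hpr : p ≠ r)
    {E : Type*} [Group E] [Finite E] {V : Type*} [AddCommGroup V] [Module (ZMod r) V] [Finite V]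
    (ρ : E →* Module.End (ZMod r) V) (hρ : Function.Injective ρ) (z : E) (hz : orderOf z = p)
    (hzc : ∀ e : E, Commute z e) (hE : ∀ e : E, (∀ x : E, Commute e x) → e ∈ Subgroup.zpowers z)
    (hcomm : ∀ a b : E, a * b * a⁻¹ * b⁻¹ ∈ Subgroup.zpowers z) {w : ℕ}
    (hcard : Nat.card E = p ^ (2 * w + 1)) (n : ℕ)
    (hmin : ∀ k : ℕ, 1 ≤ k → p ∣ r ^ k - 1 → n ≤ k) :
    n * p ^ w ≤ Module.finrank (ZMod r) V := by
  classical
  set ζ := ρ z with hζ
  have hζp : ζ ^ p = 1 := by rw [hζ, ← map_pow, ← hz, pow_orderOf_eq_one, map_one]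
  have hz1 : z ≠ 1 := fun h => hp.out.ne_one (by rw [← hz, h, orderOf_one])
  have hζ1 : ζ ≠ 1 := fun h => hz1 (hρ (h.trans (map_one ρ).symm))
  obtain ⟨v₀, hv₀⟩ : ∃ v : V, ζ v - v ≠ 0 := by
    by_contra! h
    exact hζ1 (LinearMap.ext fun v => by simpa [sub_eq_zero] using h v)
  set Φ : (ZMod r)[X] := ∑ i ∈ Finset.range p, X ^ i with hΦ
  have hΦw : aeval ζ Φ (ζ v₀ - v₀) = 0 := by
    have e : Φ * (X - 1) = X ^ p - 1 := geom_sum_mul X p
    have h : aeval ζ (Φ * (X - 1)) = 0 := by rw [e]; simp [hζp]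
    rw [map_mul] at h
    simpa using LinearMap.congr_fun h v₀
  have hΦ1 : Φ.eval 1 = (p : ZMod r) := by simp [hΦ, eval_finsetSum]
  have hp0 : (p : ZMod r) ≠ 0 := by
    rw [Ne, ZMod.natCast_eq_zero_iff]
    exact fun h => hpr ((Nat.prime_dvd_prime_iff_eq hr.out hp.out).1 h).symm
  have hΦ0 : Φ ≠ 0 := fun h => hp0 (by rw [← hΦ1, h]; simp)
  -- an irreducible factor with a kernel on the moved part
  obtain ⟨fs, hfs, u, hu⟩ := UniqueFactorizationMonoid.exists_prime_factors Φ hΦ0
  have hkill : ∀ l : Multiset (ZMod r)[X], (∀ b ∈ l, Prime b) → ∀ v : V, v ≠ 0 →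
      aeval ζ l.prod v = 0 → ∃ b ∈ l, ∃ v' : V, v' ≠ 0 ∧ aeval ζ b v' = 0 ∧
        ∃ q : (ZMod r)[X], v' = aeval ζ q v := by
    intro l
    induction l using Multiset.induction with
    | empty => intro _ v hv h; simp at h; exact absurd h hv
    | cons a l ih =>
      intro hl v hv h
      by_cases hz' : aeval ζ l.prod v = 0
      · obtain ⟨b, hb, h'⟩ := ih (fun b hb => hl b (Multiset.mem_cons_of_mem hb)) v hv hz'
        exact ⟨b, Multiset.mem_cons_of_mem hb, h'⟩
      · refine ⟨a, Multiset.mem_cons_self a l, _, hz', ?_, l.prod, rfl⟩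
        rw [Multiset.prod_cons, map_mul] at h
        simpa using h
  have hprod : aeval ζ fs.prod (ζ v₀ - v₀) = 0 := by
    have h : aeval ζ (fs.prod * (u : (ZMod r)[X])) (ζ v₀ - v₀) = 0 := by rw [hu]; exact hΦw
    have h2 := congrArg (aeval ζ ((↑u⁻¹ : (ZMod r)[X]))) h
    rw [map_zero, ← Module.End.mul_apply, ← map_mul] at h2
    rwa [show (↑u⁻¹ : (ZMod r)[X]) * (fs.prod * ↑u) = fs.prod by
      rw [mul_comm, mul_assoc, Units.mul_inv, mul_one]] at h2
  obtain ⟨f, hf, v₁, hv₁, hfv₁, q, hq⟩ := hkill fs hfs _ hv₀ hprod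
  have hfirr : Irreducible f := (hfs f hf).irreducible
  haveI : Fact (Irreducible f) := ⟨hfirr⟩
  have hfΦ : f ∣ Φ := hu ▸ (Multiset.dvd_prod hf).mul_right _
  have hf1 : f.eval 1 ≠ 0 := by
    intro h
    obtain ⟨g, hg⟩ := hfΦ
    rw [← hΦ1, hg, eval_mul, h, zero_mul] at hp0
    exact hp0 rfl
  let U : Submodule (ZMod r) V := LinearMap.ker (aeval ζ f)
  have hUinv : ∀ e : E, ∀ v ∈ U, ρ e v ∈ U := by
    intro e v hv
    have hc : Commute ζ (ρ e) := (hzc e).map ρ
    have h := LinearMap.congr_fun ((Algebra.commute_of_mem_adjoin_singleton_of_commute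
      (aeval_mem_adjoin_singleton _ ζ (p := f)) hc.symm).eq) v
    rw [LinearMap.mem_ker] at hv ⊢
    simp only [Module.End.mul_apply, hv, map_zero] at h
    first | exact h | exact h.symm
  let T₀ : E →* Module.End (ZMod r) U :=
    { toFun := fun e => (ρ e).restrict (hUinv e)
      map_one' := LinearMap.ext fun v => Subtype.ext (by simp)
      map_mul' := fun a b => LinearMap.ext fun v => Subtype.ext (by simp) }
  set ζU := T₀ z with hζU
  have hsub : ∀ (g : (ZMod r)[X]) (v : U), ((aeval ζU g v : U) : V) = aeval ζ g (v : V) := by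
    intro g
    induction g using Polynomial.induction_on with
    | C a => intro v; simp
    | add a b ha hb => intro v; simp [ha, hb]
    | monomial k a ih =>
      intro v
      have := ih (ζU v)
      simp only [pow_succ, ← mul_assoc, map_mul, aeval_X, Module.End.mul_apply] at this ⊢
      exact this
  have hψ : ∀ a ∈ (Ideal.span {f} : Ideal (ZMod r)[X]), aeval ζU a = 0 := by
    intro a ha
    obtain ⟨b, rfl⟩ := Ideal.mem_span_singleton'.1 ha
    refine LinearMap.ext fun v => Subtype.ext ?_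
    rw [hsub, map_mul, Module.End.mul_apply, LinearMap.mem_ker.1 v.2, map_zero]
    rfl
  let ψ : AdjoinRoot f →+* Module.End (ZMod r) U :=
    Ideal.Quotient.lift (Ideal.span {f}) (aeval ζU).toRingHom hψ
  have hψmk : ∀ g, ψ (AdjoinRoot.mk f g) = aeval ζU g := fun g => Ideal.Quotient.lift_mk _ _ _
  letI : Module (AdjoinRoot f) U := Module.compHom U ψ
  have hsmul : ∀ (a : AdjoinRoot f) (v : U), a • v = ψ a v := fun _ _ => rfl
  haveI : IsScalarTower (ZMod r) (AdjoinRoot f) U := IsScalarTower.of_algebraMap_smul fun c v => by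
    rw [hsmul, AdjoinRoot.algebraMap_eq, ← AdjoinRoot.mk_C, hψmk, aeval_C]
    rfl
  haveI : Finite U := inferInstance
  haveI : Module.Finite (AdjoinRoot f) U := Module.Finite.of_finite
  let T : E →* Module.End (AdjoinRoot f) U :=
    { toFun := fun e =>
        { toFun := T₀ e
          map_add' := map_add _
          map_smul' := fun a v => by
            obtain ⟨g, rfl⟩ := AdjoinRoot.mk_surjective a
            simp only [hsmul, hψmk, RingHom.id_apply]
            have hc : Commute ζU (T₀ e) := (hzc e).map T₀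
            exact LinearMap.congr_fun ((Algebra.commute_of_mem_adjoin_singleton_of_commute
              (aeval_mem_adjoin_singleton _ ζU (p := g)) hc.symm).eq) v }
      map_one' := LinearMap.ext fun v => by simp
      map_mul' := fun a b => LinearMap.ext fun v => by simp }
  set ω := AdjoinRoot.root f with hω
  have hTz : T z = ω • (1 : Module.End (AdjoinRoot f) U) := LinearMap.ext fun v => by
    show ζU v = ω • v
    rw [hsmul, hω, ← AdjoinRoot.mk_X, hψmk, aeval_X]
  have hv₁U : v₁ ∈ U := LinearMap.mem_ker.2 hfv₁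
  set x₁ : U := ⟨v₁, hv₁U⟩ with hx₁
  have hx₁0 : x₁ ≠ 0 := fun h => hv₁ (congrArg Subtype.val h)
  have huniq : ∀ a b : AdjoinRoot f, a • x₁ = b • x₁ → a = b := fun a b h => by
    by_contra hne
    have : (a - b) • x₁ = 0 := by rw [sub_smul, h, sub_self]
    rcases smul_eq_zero.1 this with h' | h'
    · exact hne (sub_eq_zero.1 h')
    · exact hx₁0 h'
  have hscal : ∀ c : ↥(Subgroup.zpowers z), ∃ a : AdjoinRoot f, T c = a • 1 := by
    rintro ⟨c, hc⟩
    obtain ⟨k, rfl⟩ := (mem_powers_iff_mem_zpowers.2 hc)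
    refine ⟨ω ^ k, ?_⟩
    show T (z ^ k) = _
    rw [map_pow, hTz, _root_.smul_pow, one_pow]
  choose μ hμ using hscal
  let μ' : ↥(Subgroup.zpowers z) →* AdjoinRoot f :=
    { toFun := μ
      map_one' := huniq _ _ (by
        have := LinearMap.congr_fun (hμ 1) x₁
        simpa using this.symm)
      map_mul' := fun a b => huniq _ _ (by
        have := LinearMap.congr_fun (hμ (a * b)) x₁
        rw [Subgroup.coe_mul, map_mul, hμ a, hμ b] at this
        simpa [mul_smul, smul_comm (μ a) (μ b)] using this.symm) }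
  -- `z` moves `x₁`
  have hne1 : ω ≠ 1 := by
    intro h
    have h1 : f ∣ X - 1 := by
      rw [← AdjoinRoot.mk_eq_zero, map_sub, AdjoinRoot.mk_X, map_one, ← hω, h, sub_self]
    have hXi : Irreducible (X - 1 : (ZMod r)[X]) := by
      rw [← C_1]; exact irreducible_X_sub_C 1
    exact hf1 (by
      have := Polynomial.eval_dvd (x := (1 : ZMod r)) ((hfirr.associated_of_dvd hXi h1).symm.dvd)
      simpa using this)
  have hωp : ω ^ p = 1 := by
    refine huniq _ _ ?_
    have h1 : T (z ^ p) = ω ^ p • (1 : Module.End (AdjoinRoot f) U) := by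
      rw [map_pow, hTz, _root_.smul_pow, one_pow]
    rw [← hz, pow_orderOf_eq_one, map_one, hz] at h1
    simpa using (LinearMap.congr_fun h1 x₁).symm
  have hωo : orderOf ω = p := orderOf_eq_prime hωp hne1
  have hμinj : Function.Injective μ' := by
    rw [injective_iff_map_eq_one]
    rintro ⟨c, hc⟩ h
    obtain ⟨k, rfl⟩ := (mem_powers_iff_mem_zpowers.2 hc)
    have h1 : T (z ^ k) = ω ^ k • (1 : Module.End (AdjoinRoot f) U) := by
      rw [map_pow, hTz, _root_.smul_pow, one_pow]
    have h2 : μ ⟨z ^ k, hc⟩ = ω ^ k := huniq _ _ (by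
      have := LinearMap.congr_fun ((hμ ⟨z ^ k, hc⟩).symm.trans h1) x₁
      simpa using this)
    have h3 : ω ^ k = 1 := h2.symm.trans h
    refine Subtype.ext ?_
    show z ^ k = 1
    rw [← orderOf_dvd_iff_pow_eq_one, hz, ← hωo]
    exact orderOf_dvd_of_pow_eq_one h3
  -- the characters
  let χ : E → (E →* AdjoinRoot f) := fun e => μ'.comp
    { toFun := fun g => (⟨g * e * g⁻¹ * e⁻¹, hcomm g e⟩ : ↥(Subgroup.zpowers z))
      map_one' := Subtype.ext (by simp)
      map_mul' := fun a b => Subtype.ext (by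
        show a * b * e * (a * b)⁻¹ * e⁻¹ = a * e * a⁻¹ * e⁻¹ * (b * e * b⁻¹ * e⁻¹)
        have hcb : ∀ x : E, Commute (b * e * b⁻¹ * e⁻¹) x := fun x => by
          obtain ⟨m, hm⟩ := Subgroup.mem_zpowers_iff.1 (hcomm b e)
          rw [← hm]
          exact (hzc x).zpow_left m
        calc a * b * e * (a * b)⁻¹ * e⁻¹
            = a * ((b * e * b⁻¹ * e⁻¹) * (e * a⁻¹ * e⁻¹)) := by group
          _ = a * ((e * a⁻¹ * e⁻¹) * (b * e * b⁻¹ * e⁻¹)) := by rw [(hcb _).eq]
          _ = a * e * a⁻¹ * e⁻¹ * (b * e * b⁻¹ * e⁻¹) := by group) }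
  let t : E ⧸ Subgroup.zpowers z → E := Quotient.out
  haveI : Fintype (E ⧸ Subgroup.zpowers z) := Fintype.ofFinite _
  have hχinj : Function.Injective (fun i => χ (t i)) := by
    intro i j hij
    have h : ∀ g : E, g * t i * g⁻¹ * (t i)⁻¹ = g * t j * g⁻¹ * (t j)⁻¹ := fun g =>
      congrArg Subtype.val (hμinj (DFunLike.congr_fun hij g))
    have hmem : (t i)⁻¹ * t j ∈ Subgroup.zpowers z := hE _ fun x => by
      have h1' : ∀ x : E, x * t i * x⁻¹ = x * t j * x⁻¹ * ((t j)⁻¹ * t i) := fun x =>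
        calc x * t i * x⁻¹ = (x * t i * x⁻¹ * (t i)⁻¹) * t i := by group
          _ = (x * t j * x⁻¹ * (t j)⁻¹) * t i := by rw [h x]
          _ = _ := by group
      show (t i)⁻¹ * t j * x = x * ((t i)⁻¹ * t j)
      have h2 : (t j)⁻¹ * t i * x = x * ((t j)⁻¹ * t i) :=
        calc (t j)⁻¹ * t i * x = x * ((x⁻¹ * t j * x⁻¹⁻¹)⁻¹ * (x⁻¹ * t i * x⁻¹⁻¹)) := by group
          _ = x * ((x⁻¹ * t j * x⁻¹⁻¹)⁻¹ * (x⁻¹ * t j * x⁻¹⁻¹ * ((t j)⁻¹ * t i))) := by
            rw [← h1' x⁻¹]
          _ = x * ((t j)⁻¹ * t i) := by group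
      have h4 := (show Commute ((t j)⁻¹ * t i) x from h2).inv_left
      simpa [mul_inv_rev] using h4.eq
    calc i = (QuotientGroup.mk (t i) : E ⧸ Subgroup.zpowers z) := (Quotient.out_eq i).symm
      _ = QuotientGroup.mk (t j) := QuotientGroup.eq.2 hmem
      _ = j := Quotient.out_eq j
  have hindep : LinearIndependent (AdjoinRoot f) (fun i => T (t i)) := by
    rw [Fintype.linearIndependent_iff]
    intro c hc i
    by_contra hci
    have hTi : T (t i) x₁ ≠ 0 := fun h0 => hx₁0 (by
      have := congrArg (T (t i)⁻¹) h0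
      rw [map_zero, ← Module.End.mul_apply, ← map_mul, inv_mul_cancel, map_one] at this
      simpa using this)
    obtain ⟨φ, hφ⟩ : ∃ φ : Module.Dual (AdjoinRoot f) U, φ (T (t i) x₁) ≠ 0 := by
      by_contra! h
      exact hTi ((Module.forall_dual_apply_eq_zero_iff (AdjoinRoot f) _).1 h)
    have hsum : ∀ g : E, ∑ j, (c j * φ (T (t j) x₁)) * χ (t j) g = 0 := by
      intro g
      have h1 : ∀ j, T g * T (t j) * T g⁻¹ = χ (t j) g • T (t j) := fun j => by
        rw [← map_mul, ← map_mul]
        conv_lhs => rw [show g * t j * g⁻¹ = (g * t j * g⁻¹ * (t j)⁻¹) * t j by group]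
        rw [map_mul]
        have := hμ ⟨_, hcomm g (t j)⟩
        rw [show T (g * t j * g⁻¹ * (t j)⁻¹) = _ from this, smul_mul_assoc, one_mul]
        rfl
      have h2 : T g * (∑ j, c j • T (t j)) * T g⁻¹ = 0 := by rw [hc]; simp
      rw [Finset.mul_sum, Finset.sum_mul] at h2
      simp only [mul_smul_comm, smul_mul_assoc, h1, smul_smul] at h2
      have := congrArg φ (LinearMap.congr_fun h2 x₁)
      simp only [LinearMap.sum_apply, LinearMap.smul_apply, map_sum, map_smul, smul_eq_mul,
        LinearMap.zero_apply, map_zero] at this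
      rw [← this]
      exact Finset.sum_congr rfl fun j _ => by ring
    have := Fintype.linearIndependent_iff.1
      ((linearIndependent_monoidHom E (AdjoinRoot f)).comp _ hχinj)
      (fun j => c j * φ (T (t j) x₁)) (funext fun g => by simpa using hsum g) i
    rcases mul_eq_zero.1 this with h | h
    · exact hci h
    · exact hφ h
  have hcount : p ^ (2 * w) ≤ Module.finrank (AdjoinRoot f) U * Module.finrank (AdjoinRoot f) U := by
    have h1 := hindep.fintype_card_le_finrank
    have h2 := Subgroup.card_eq_card_quotient_mul_card_subgroup (Subgroup.zpowers z)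
    rw [hcard, Nat.card_zpowers, hz, pow_succ] at h2
    rw [← Nat.card_eq_fintype_card, ← Nat.eq_of_mul_eq_mul_right hp.out.pos h2] at h1
    change _ ≤ Module.finrank (AdjoinRoot f) (U →ₗ[AdjoinRoot f] U) at h1
    rwa [Module.finrank_linearMap] at h1
  have hdim : p ^ w ≤ Module.finrank (AdjoinRoot f) U := by
    rw [show 2 * w = w * 2 by ring, pow_mul, pow_two] at hcount
    exact Nat.mul_self_le_mul_self_iff.1 hcount
  haveI : Module.Finite (ZMod r) (AdjoinRoot f) := (AdjoinRoot.powerBasis hfirr.ne_zero).finite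
  haveI : Finite (AdjoinRoot f) := Module.finite_of_finite (ZMod r)
  haveI : Fintype (AdjoinRoot f) := Fintype.ofFinite _
  have hdeg : Module.finrank (ZMod r) (AdjoinRoot f) = f.natDegree :=
    (AdjoinRoot.powerBasis hfirr.ne_zero).finrank
  have hn' : n ≤ f.natDegree := by
    refine hmin _ hfirr.natDegree_pos ?_
    have hcF : Nat.card (AdjoinRoot f) = r ^ f.natDegree := by
      rw [Module.natCard_eq_pow_finrank (K := ZMod r), Nat.card_zmod, hdeg]
    have hne : ω ≠ 0 := fun h => by rw [h, zero_pow hp.out.ne_zero] at hωp; exact zero_ne_one hωp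
    have : orderOf (Units.mk0 ω hne) ∣ Fintype.card (AdjoinRoot f)ˣ := orderOf_dvd_card
    rw [Fintype.card_units, ← Nat.card_eq_fintype_card, hcF, ← orderOf_units, Units.val_mk0, hωo] at this
    exact this
  have htower : Module.finrank (ZMod r) (AdjoinRoot f) * Module.finrank (AdjoinRoot f) U =
      Module.finrank (ZMod r) U := Module.finrank_mul_finrank _ _ _
  calc n * p ^ w ≤ f.natDegree * Module.finrank (AdjoinRoot f) U := Nat.mul_le_mul hn' hdim
    _ = Module.finrank (ZMod r) U := by rw [← hdeg, htower]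
    _ ≤ Module.finrank (ZMod r) V := Submodule.finrank_le _

/-- The same bound for a faithful action on a finite abelian group of exponent `r`. -/
lemma card_bound {p r : ℕ} [hp : Fact p.Prime] [hr : Fact r.Prime] (hpr : p ≠ r)
    {E : Type*} [Group E] [Finite E] {A : Type*} [CommGroup A] [Finite A]
    [Module (ZMod r) (Additive A)]
    (cj : E → (A →* A)) (h1 : ∀ a, cj 1 a = a) (hm : ∀ e e' a, cj (e * e') a = cj e (cj e' a))
    (hinj : ∀ e, (∀ a, cj e a = a) → e = 1) (z : E) (hz : orderOf z = p)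
    (hzc : ∀ e : E, Commute z e) (hE : ∀ e : E, (∀ x : E, Commute e x) → e ∈ Subgroup.zpowers z)
    (hcomm : ∀ a b : E, a * b * a⁻¹ * b⁻¹ ∈ Subgroup.zpowers z) {w : ℕ}
    (hcard : Nat.card E = p ^ (2 * w + 1)) (n : ℕ)
    (hmin : ∀ k : ℕ, 1 ≤ k → p ∣ r ^ k - 1 → n ≤ k) : r ^ (n * p ^ w) ≤ Nat.card A := by
  haveI : Finite (Additive A) := Finite.of_equiv A Additive.ofMul
  let ρ : E →* Module.End (ZMod r) (Additive A) :=
    { toFun := fun e => AddMonoidHom.toZModLinearMap r (MonoidHom.toAdditive (cj e))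
      map_one' := LinearMap.ext fun a => congrArg Additive.ofMul (h1 (Additive.toMul a))
      map_mul' := fun e e' => LinearMap.ext fun a =>
        congrArg Additive.ofMul (hm e e' (Additive.toMul a)) }
  have hρ : Function.Injective ρ := by
    rw [injective_iff_map_eq_one]
    exact fun e he => hinj e fun a => congrArg Additive.toMul (LinearMap.congr_fun he (Additive.ofMul a))
  have hb := dim_bound hpr ρ hρ z hz hzc hE hcomm hcard n hmin
  rw [← Nat.card_congr (Additive.ofMul (α := A)).symm,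
    Module.natCard_eq_pow_finrank (K := ZMod r) (V := Additive A), Nat.card_zmod]
  exact Nat.pow_le_pow_right hr.out.pos hb

/-- Let p and r be distinct primes, let E be an extraspecial subgroup of order p^(2w+1) of a finite group, and let A be an elementary abelian r-subgroup normalized by E on which E acts faithfully (C_E(A) = 1). If n ≥ 1 is least with p dividing rⁿ − 1 (the smallest dimension of a faithful representation of a group of order p over the field with r elements), then the order of A is at least r^(n·p^w). -/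
theorem result {G : Type*} [Group G] [Finite G] {p r : ℕ} [Fact p.Prime] [hr : Fact r.Prime] (hpr : p ≠ r) (E A : Subgroup G) (w : ℕ) (hE : Cfsg.IsExtraspecial p ↥E) (hEcard : Nat.card ↥E = p ^ (2 * w + 1)) (hA : Cfsg.IsElementaryAbelian r A) (hnorm : E ≤ Subgroup.normalizer (A : Set G)) (hfaith : E ⊓ Subgroup.centralizer (A : Set G) = ⊥) (n : ℕ) (hn : 1 ≤ n) (hdiv : p ∣ r ^ n - 1) (hmin : ∀ k : ℕ, 1 ≤ k → p ∣ r ^ k - 1 → n ≤ k) : r ^ (n * p ^ w) ≤ Nat.card ↥A := by
  haveI : IsMulCommutative ↥A := hA.1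
  letI : CommGroup ↥A := { (inferInstance : Group ↥A) with mul_comm := mul_comm' }
  letI : Module (ZMod r) (Additive ↥A) := AddCommGroup.zmodModule fun a => by
    show Additive.toMul a ^ r = 1
    exact Subtype.ext (by simpa using hA.2 _ (Additive.toMul a).2)
  let cj : ↥E → (↥A →* ↥A) := fun e =>
    { toFun := fun a => ⟨(e : G) * a * (e : G)⁻¹,
        (Subgroup.mem_normalizer_iff.1 (hnorm e.2) a).1 a.2⟩
      map_one' := Subtype.ext (by simp)
      map_mul' := fun a b => Subtype.ext (by simp [mul_assoc]) }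
  have hcjv : ∀ (e : ↥E) (a : ↥A), ((cj e a : ↥A) : G) = (e : G) * a * (e : G)⁻¹ := fun _ _ => rfl
  obtain ⟨⟨-, -, hcen⟩, hcardZ⟩ := hE
  obtain ⟨z, hz⟩ := exists_prime_orderOf_dvd_card' (G := ↥(Subgroup.center ↥E)) p (dvd_of_eq hcardZ.symm)
  rw [← Subgroup.orderOf_coe] at hz
  have hzeq : Subgroup.zpowers (z : ↥E) = Subgroup.center ↥E :=
    Subgroup.eq_of_le_of_card_ge (Subgroup.zpowers_le.2 z.2) (by rw [Nat.card_zpowers, hz, hcardZ])
  refine card_bound hpr cj (fun a => Subtype.ext (by simp [hcjv]))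
    (fun e e' a => Subtype.ext (by simp [hcjv, mul_assoc])) (fun e he => ?_) (z : ↥E) hz
    (fun e => (Subgroup.mem_center_iff.1 z.2 e).symm)
    (fun e he => hzeq.symm ▸ Subgroup.mem_center_iff.2 fun x => (he x).symm.eq)
    (fun a b => by
      rw [hzeq, ← hcen, commutator_def]
      exact Subgroup.commutator_mem_commutator (Subgroup.mem_top a) (Subgroup.mem_top b))
    hEcard n hmin
  have hmem : (e : G) ∈ E ⊓ Subgroup.centralizer (A : Set G) := by
    refine ⟨e.2, Subgroup.mem_centralizer_iff.2 fun a ha => ?_⟩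
    have h2 : (e : G) * a * (e : G)⁻¹ = a := congrArg Subtype.val (he ⟨a, ha⟩)
    exact (mul_inv_eq_iff_eq_mul.1 h2).symm
  rw [hfaith, Subgroup.mem_bot] at hmem
  exact Subtype.ext hmem

end Cfsg.Agent.S2912
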