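import Cfsg.Statements.S2922
import Cfsg.Agent.Lib.StronglyPEmbedded.Helpers
-- import your own Cfsg.Agent.* helpers here

set_option autoImplicit false
open Cfsg

namespace Cfsg.Agent.S2922

/-- Let p be a prime, X a finite group, B a p-subgroup of X and C a normal subgroup of B. If N_X(C) has characteristic p (its generalized Fitting subgroup is O_p(N_X(C))), then N_X(B) and C_X(B) have characteristic p. -/
theorem result {X : Type*} [Group X] [Finite X] {p : ℕ} [Fact p.Prime] (B C : Subgroup X) (hB : IsPGroup p ↥B) (hCB : C ≤ B) (hCn : (C.subgroupOf B).Normal) (hC : Cfsg.generalizedFittingSubgroup ↥(Subgroup.normalizer (C : Set X)) = Cfsg.pCore p ↥(Subgroup.normalizer (C : Set X))) : Cfsg.generalizedFittingSubgroup ↥(Subgroup.normalizer (B : Set X)) = Cfsg.pCore p ↥(Subgroup.normalizer (B : Set X)) ∧ Cfsg.generalizedFittingSubgroup ↥(Subgroup.centralizer (B : Set X)) = Cfsg.pCore p ↥(Subgroup.centralizer (B : Set X)) := by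
  open CfsgLib.StronglyPEmbedded in
  set N := Subgroup.normalizer (C : Set X) with hNdef
  set M := Subgroup.normalizer (B : Set X) with hMdef
  have hBN : B ≤ N := (Subgroup.normal_subgroupOf_iff_le_normalizer hCB).1 hCn
  have hCB' : Subgroup.centralizer (B : Set X) ≤ N :=
    (Subgroup.centralizer_le (SetLike.coe_subset_coe.2 hCB)).trans
      (Subgroup.centralizer_le_normalizer _)
  have hBM : Subgroup.centralizer (B : Set X) ≤ M := Subgroup.centralizer_le_normalizer _
  set Q : Subgroup X := (Cfsg.pCore p ↥N).map N.subtype with hQdef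
  have hQp : IsPGroup p ↥Q := (isPGroup_pCore' (G := ↥N)).map _
  have hQn : N ≤ Subgroup.normalizer (Q : Set X) := fun n hn =>
    mem_normalizer_of_conj_le fun x hx => by
      obtain ⟨y, hy, rfl⟩ := hx
      exact ⟨_, normal_pCore'.conj_mem y hy ⟨n, hn⟩, rfl⟩
  have hQC : ∀ x ∈ N, x ∈ Subgroup.centralizer (Q : Set X) → x ∈ Q := by
    intro x hx hxc
    refine ⟨⟨x, hx⟩, centralizer_pCore_le_of_eq hC (Subgroup.mem_centralizer_iff.2 fun y hy => ?_), rfl⟩
    exact Subtype.ext (Subgroup.mem_centralizer_iff.1 hxc _ ⟨y, hy, rfl⟩)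
  have hBn : (B.subgroupOf M).Normal :=
    Subgroup.normal_subgroupOf_of_le_normalizer le_rfl
  have hBO : B.subgroupOf M ≤ Cfsg.pCore p ↥M := le_pCore' hBn hB.comap_subtype
  have hM : Subgroup.centralizer (Cfsg.pCore p ↥M : Set ↥M) ≤ Cfsg.pCore p ↥M := by
    refine centralizer_pCore_le_of_forall_coprime fun x hx hxc => ?_
    set D' : Subgroup ↥M := Subgroup.centralizer (Cfsg.pCore p ↥M : Set ↥M) with hD'
    have hD'B : ∀ d ∈ D', (d : X) ∈ Subgroup.centralizer (B : Set X) := fun d hd =>
      Subgroup.mem_centralizer_iff.2 fun b hb => congrArg Subtype.val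
        (Subgroup.mem_centralizer_iff.1 hd ⟨b, Subgroup.le_normalizer hb⟩ (hBO hb))
    haveI : (Cfsg.pCore p ↥M).Normal := normal_pCore'
    have hD'n : D'.Normal := inferInstance
    have hxC := hD'B x hx
    have hxc' : (orderOf (x : X)).Coprime p := by rwa [Subgroup.orderOf_coe]
    -- `D' ⊓ Q` is a `p`-group normal in `D'`, so lies in the `p`-core
    have hpull : D' ⊓ Q.subgroupOf M ≤ Cfsg.pCore p ↥M := by
      refine CfsgLib.Cores.le_pCore_of_subnormal_aux hD'n.isSubnormal _ inf_le_left ?_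
        ((hQp.comap_subtype).to_le inf_le_right)
      intro d hd
      refine mem_normalizer_of_conj_le fun y hy => ?_
      refine Subgroup.mem_inf.2 ⟨mul_mem (mul_mem hd hy.1) (inv_mem hd), ?_⟩
      exact (Subgroup.mem_normalizer_iff.1 (hQn (hCB' (hD'B d hd))) _).1 hy.2
    have hxQ : (x : X) ∈ Subgroup.centralizer (Q : Set X) := by
      refine Subgroup.mem_centralizer_iff.2 fun q hq => (commute_of_axb hB hQp (hBN.trans hQn) hxc'
        hxC (hQn (hCB' hxC)) ?_ q hq).symm.eq
      intro q hq hqB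
      have hq' : q ∈ M := hBM hqB
      set c : ↥M := (⟨q, hq'⟩ : ↥M)⁻¹ * (x * ⟨q, hq'⟩ * x⁻¹) with hc
      have hcO : c ∈ Cfsg.pCore p ↥M := by
        refine hpull (Subgroup.mem_inf.2 ⟨?_, ?_⟩)
        · have := mul_mem (hD'n.conj_mem x hx (⟨q, hq'⟩ : ↥M)⁻¹) (inv_mem hx)
          simpa [hc, mul_assoc] using this
        · exact mul_mem (inv_mem hq) ((Subgroup.mem_normalizer_iff.1 (hQn (hCB' hxC)) q).1 hq)
      have hcomm : Commute x c := (Subgroup.mem_centralizer_iff.1 hx c hcO).symm
      obtain ⟨k, hk⟩ := isPGroup_pCore' ⟨c, hcO⟩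
      have := (commute_of_stable_coprime hxc hcomm ⟨k, by simpa using congrArg Subtype.val hk⟩
        (r := (⟨q, hq'⟩ : ↥M)) (by rw [hc]; group)).2
      exact congrArg Subtype.val this.eq
    exact Subtype.ext (eq_one_of_mem_pGroup_of_coprime hQp (hQC _ (hCB' hxC) hxQ) hxc')
  refine ⟨generalizedFittingSubgroup_eq_pCore hM, generalizedFittingSubgroup_eq_pCore ?_⟩
  refine centralizer_pCore_le_of_injective (Subgroup.inclusion hBM)
    (Subgroup.inclusion_injective _) ?_ hM
  rw [Subgroup.inclusion_range]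
  exact Subgroup.normal_subgroupOf_of_le_normalizer (normalizer_le_normalizer_centralizer B)

end Cfsg.Agent.S2922
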