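import Cfsg.Statements.S2923
import Cfsg.Agent.Lib.StronglyPEmbedded.CharP
-- import your own Cfsg.Agent.* helpers here

set_option autoImplicit false
open Cfsg

namespace Cfsg.Agent.S2923

/-- Let p be a prime and X a finite group of characteristic p, that is C_X(O_p(X)) ≤ O_p(X). Then every subnormal subgroup of X has characteristic p. -/
theorem result {X : Type*} [Group X] [Finite X] {p : ℕ} [Fact p.Prime] (hX : Subgroup.centralizer (Cfsg.pCore p X : Set X) ≤ Cfsg.pCore p X) (Y : Subgroup X) (hY : Y.IsSubnormal) : Subgroup.centralizer (Cfsg.pCore p ↥Y : Set ↥Y) ≤ Cfsg.pCore p ↥Y := by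
  open CfsgLib.StronglyPEmbedded in
  revert hX
  induction hY with
  | top =>
    intro hX
    exact centralizer_pCore_le_of_injective (⊤ : Subgroup X).subtype (Subgroup.subtype_injective _)
      (by rw [Subgroup.range_subtype]; infer_instance) hX
  | step A B hle hB hN ih =>
    intro hX
    exact centralizer_pCore_le_of_injective (Subgroup.inclusion hle) (Subgroup.inclusion_injective hle)
      (by rw [Subgroup.inclusion_range hle]; exact hN) (ih hX)

end Cfsg.Agent.S2923
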