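import Cfsg.Statements.S2924
import Cfsg.Agent.Lib.StronglyPEmbedded.Helpers
import Cfsg.Agent.Lib.CoprimeAction.Abelian
-- import your own Cfsg.Agent.* helpers here

set_option autoImplicit false
open Cfsg

namespace Cfsg.Agent.S2924

/-- Let X be a finite group and Y an elementary abelian 2-subgroup of X of order at least 8 such that C_X(x) has no components (E(C_X(x)) = 1) for every nontrivial x ∈ Y, and F*(C_X(z)) = O₂(C_X(z)) for some nontrivial z ∈ Y. Then the subgroup generated by the cores O(C_X(y)), y ∈ Y nontrivial, has odd order and is normalized by N_X(Y). -/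
theorem result {X : Type*} [Group X] [Finite X] (Y : Subgroup X) (hY : Cfsg.IsElementaryAbelian 2 Y) (h8 : 8 ≤ Nat.card ↥Y) (hE : ∀ x ∈ Y, x ≠ 1 → Cfsg.layer ↥(Subgroup.centralizer ({x} : Set X)) = ⊥) (hz : ∃ z ∈ Y, z ≠ 1 ∧ Cfsg.generalizedFittingSubgroup ↥(Subgroup.centralizer ({z} : Set X)) = Cfsg.pCore 2 ↥(Subgroup.centralizer ({z} : Set X))) : Odd (Nat.card ↥(⨆ y : {y : X // y ∈ Y ∧ y ≠ 1}, (Cfsg.oddCore ↥(Subgroup.centralizer ({(y : X)} : Set X))).map (Subgroup.centralizer ({(y : X)} : Set X)).subtype)) ∧ Subgroup.normalizer (Y : Set X) ≤ Subgroup.normalizer ((⨆ y : {y : X // y ∈ Y ∧ y ≠ 1}, (Cfsg.oddCore ↥(Subgroup.centralizer ({(y : X)} : Set X))).map (Subgroup.centralizer ({(y : X)} : Set X)).subtype : Subgroup X) : Set X) := by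
  classical
  open CfsgLib.StronglyPEmbedded in
  haveI h2 : Fact (Nat.Prime 2) := ⟨Nat.prime_two⟩
  obtain ⟨z, hzY, hz1, hzC⟩ := hz
  obtain ⟨hYab, hY2⟩ := hY
  have hYc : ∀ a ∈ Y, ∀ b ∈ Y, Commute a b := fun a ha b hb =>
    congrArg Subtype.val (mul_comm' (⟨a, ha⟩ : ↥Y) ⟨b, hb⟩)
  have hY2' : ∀ a ∈ Y, a * a = 1 := fun a ha => by simpa [pow_two] using hY2 a ha
  let C : X → Subgroup X := fun x => Subgroup.centralizer ({x} : Set X)
  let θ : X → Subgroup X := fun x => (Cfsg.oddCore ↥(C x)).map (C x).subtype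
  have hYC : ∀ x ∈ Y, Y ≤ C x := fun x hx a ha =>
    Subgroup.mem_centralizer_singleton_iff.2 (hYc a ha x hx)
  have hθC : ∀ x, θ x ≤ C x := fun x => Subgroup.map_subtype_le _
  have hθn : ∀ x, C x ≤ Subgroup.normalizer (θ x : Set X) := fun x n hn =>
    mem_normalizer_of_conj_le fun y hy => by
      obtain ⟨w, hw, rfl⟩ := hy
      exact ⟨_, (inferInstance : (Cfsg.pPrimeCore 2 ↥(C x)).Normal).conj_mem w hw ⟨n, hn⟩, rfl⟩
  have hθodd : ∀ x, ∀ a ∈ θ x, Odd (orderOf a) := by
    rintro x _ ⟨w, hw, rfl⟩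
    have : Odd (Nat.card ↥(Cfsg.oddCore ↥(C x))) := by
      have := CfsgLib.Cores.card_pPrimeCore_coprime (G := ↥(C x)) 2
      exact Nat.coprime_two_right.1 this
    rw [show orderOf ((C x).subtype w) = orderOf w from Subgroup.orderOf_coe w]
    exact odd_orderOf_of_mem this hw
  -- the 2-core of `C z`
  set Qz : Subgroup X := (Cfsg.pCore 2 ↥(C z)).map (C z).subtype with hQz
  have hQzp : IsPGroup 2 ↥Qz := (isPGroup_pCore' (G := ↥(C z))).map _
  have hQzn : C z ≤ Subgroup.normalizer (Qz : Set X) := fun n hn =>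
    mem_normalizer_of_conj_le fun y hy => by
      obtain ⟨w, hw, rfl⟩ := hy
      exact ⟨_, normal_pCore'.conj_mem w hw ⟨n, hn⟩, rfl⟩
  have hYp : IsPGroup 2 ↥Y := fun a => ⟨1, Subtype.ext (by simpa using hY2 a a.2)⟩
  -- no odd order subgroup of `C(⟨x, z⟩)` is normalised by the centraliser
  have hfix : ∀ x ∈ Y, x ≠ 1 → θ x ⊓ C z = ⊥ := by
    intro x hx hx1
    set A : Subgroup X := Subgroup.closure ({x, z} : Set X) with hA
    have hAY : A ≤ Y := (Subgroup.closure_le _).2 (by rintro w (rfl | rfl) <;> assumption)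
    have hxA : x ∈ A := Subgroup.subset_closure (by simp)
    have hzA : z ∈ A := Subgroup.subset_closure (by simp)
    have hcA : θ x ⊓ C z ≤ Subgroup.centralizer (A : Set X) := by
      rw [Subgroup.le_centralizer_iff]
      refine (Subgroup.closure_le _).2 ?_
      rintro w (rfl | rfl)
      · exact Subgroup.mem_centralizer_iff.2 fun a ha =>
          (Subgroup.mem_centralizer_singleton_iff.1 (hθC _ ha.1))
      · exact Subgroup.mem_centralizer_iff.2 fun a ha =>
          (Subgroup.mem_centralizer_singleton_iff.1 ha.2)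
    have hR : θ x ⊓ C z ≤ Subgroup.centralizer (Qz : Set X) := by
      refine le_centralizer_of_axb (hYp.to_le hAY) hQzp ((hAY.trans (hYC z hzY)).trans hQzn)
        (fun r hr => Nat.coprime_two_right.2 (hθodd x r hr.1)) hcA (inf_le_right.trans hQzn) ?_
      intro q hq
      have hqx : q ∈ C x := Subgroup.mem_centralizer_singleton_iff.2
        (Subgroup.mem_centralizer_iff.1 hq.2 x hxA).symm
      have hqz : q ∈ C z := Subgroup.mem_centralizer_singleton_iff.2
        (Subgroup.mem_centralizer_iff.1 hq.2 z hzA).symm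
      refine mem_normalizer_of_conj_le fun a ha => Subgroup.mem_inf.2 ⟨?_, ?_⟩
      · exact (Subgroup.mem_normalizer_iff.1 (hθn x hqx) a).1 ha.1
      · exact mul_mem (mul_mem hqz ha.2) (inv_mem hqz)
    rw [eq_bot_iff]
    intro a ha
    have haQ : a ∈ Qz := by
      refine ⟨⟨a, ha.2⟩, centralizer_pCore_le_of_eq hzC (Subgroup.mem_centralizer_iff.2 fun w hw => ?_), rfl⟩
      exact Subtype.ext (Subgroup.mem_centralizer_iff.1 (hR ha) _ ⟨w, hw, rfl⟩)
    exact Subgroup.mem_bot.2 (eq_one_of_mem_pGroup_of_coprime hQzp haQ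
      (Nat.coprime_two_right.2 (hθodd x a ha.1)))
  have hzinv : z⁻¹ = z := inv_eq_of_mul_eq_one_right (hY2' z hzY)
  -- `z` inverts every `θ x`
  have hinv : ∀ x ∈ Y, x ≠ 1 → ∀ a ∈ θ x, z * a * z⁻¹ = a⁻¹ := by
    intro x hx hx1
    have hzn : ∀ a ∈ θ x, z * a * z⁻¹ ∈ θ x := fun a ha =>
      (Subgroup.mem_normalizer_iff.1 (hθn x (hYC x hx hzY)) a).1 ha
    let f : ↥(θ x) → ↥(θ x) := fun a =>
      ⟨(a : X)⁻¹ * (z * a * z⁻¹), mul_mem (inv_mem a.2) (hzn a a.2)⟩
    have hf : Function.Injective f := by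
      intro a b hab
      have hab' : (a : X)⁻¹ * (z * a * z⁻¹) = (b : X)⁻¹ * (z * b * z⁻¹) := congrArg Subtype.val hab
      have hbot : (b : X) * (a : X)⁻¹ ∈ θ x ⊓ C z := by
        refine Subgroup.mem_inf.2 ⟨mul_mem b.2 (inv_mem a.2),
          Subgroup.mem_centralizer_singleton_iff.2 ?_⟩
        calc (b : X) * (a : X)⁻¹ * z = b * ((a : X)⁻¹ * (z * a * z⁻¹)) * (z * (a : X)⁻¹) := by group
          _ = z * ((b : X) * (a : X)⁻¹) := by rw [hab']; group
      rw [hfix x hx hx1, Subgroup.mem_bot, mul_inv_eq_one] at hbot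
      exact Subtype.ext hbot.symm
    intro w hw
    obtain ⟨a, ha⟩ := (Finite.injective_iff_surjective.1 hf) ⟨w, hw⟩
    have ha' : (a : X)⁻¹ * (z * a * z⁻¹) = w := congrArg Subtype.val ha
    rw [← ha']
    calc z * ((a : X)⁻¹ * (z * a * z⁻¹)) * z⁻¹
        = z * (a : X)⁻¹ * z * a * (z⁻¹ * z⁻¹) := by group
      _ = z * (a : X)⁻¹ * z⁻¹ * a := by rw [hzinv, hY2' z hzY, mul_one]
      _ = ((a : X)⁻¹ * (z * a * z⁻¹))⁻¹ := by group
  have hθab : ∀ x ∈ Y, x ≠ 1 → ∀ a ∈ θ x, ∀ b ∈ θ x, Commute a b := by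
    intro x hx hx1 a ha b hb
    have h1 : z * (a * b) * z⁻¹ = (z * a * z⁻¹) * (z * b * z⁻¹) := by group
    rw [hinv x hx hx1 _ (mul_mem ha hb), hinv x hx hx1 a ha, hinv x hx hx1 b hb, mul_inv_rev] at h1
    have h3 : Commute a⁻¹ b⁻¹ := h1.symm
    exact Commute.inv_inv_iff.1 h3
  -- balance
  have hbal : ∀ x ∈ Y, x ≠ 1 → ∀ y ∈ Y, y ≠ 1 → θ x ⊓ C y ≤ θ y := by
    intro x hx hx1 y hy hy1 d hd
    set L := C y with hL
    have hDfit : ∀ d ∈ θ x ⊓ L, ∀ (hdL : d ∈ L),
        (⟨d, hdL⟩ : ↥L) ∈ Subgroup.centralizer (Cfsg.fittingSubgroup ↥L : Set ↥L) := by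
      intro d hd hdL
      rw [CfsgLib.Cores.fittingSubgroup_eq_iSup_pCore]
      refine Subgroup.mem_centralizer_iff.2 fun w hw => ?_
      suffices h : (⨆ q : (Nat.card ↥L).primeFactors, Cfsg.pCore (q : ℕ) ↥L) ≤
          Subgroup.centralizer ({⟨d, hdL⟩} : Set ↥L) from
        Subgroup.mem_centralizer_singleton_iff.1 (h hw)
      refine iSup_le fun q => ?_
      haveI : Fact (q : ℕ).Prime := ⟨Nat.prime_of_mem_primeFactors q.2⟩
      intro o ho
      refine Subgroup.mem_centralizer_singleton_iff.2 ?_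
      refine Subtype.ext ?_
      show (o : X) * d = d * o
      by_cases hq2 : (q : ℕ) = 2
      · set Q2 : Subgroup X := (Cfsg.pCore 2 ↥L).map L.subtype with hQ2
        have hQ2n : L ≤ Subgroup.normalizer (Q2 : Set X) := fun n hn =>
          mem_normalizer_of_conj_le fun y hy => by
            obtain ⟨w, hw, rfl⟩ := hy
            exact ⟨_, normal_pCore'.conj_mem w hw ⟨n, hn⟩, rfl⟩
        have hxz : IsPGroup 2 ↥(Subgroup.zpowers x) := hYp.to_le (Subgroup.zpowers_le.2 hx)
        have hoQ : (o : X) ∈ Q2 := ⟨o, hq2 ▸ ho, rfl⟩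
        have := le_centralizer_of_axb (R := θ x ⊓ L) hxz ((isPGroup_pCore' (G := ↥L)).map _)
          ((Subgroup.zpowers_le.2 (hYC y hy hx)).trans hQ2n)
          (fun r hr => Nat.coprime_two_right.2 (hθodd x r hr.1)) ?_ (inf_le_right.trans hQ2n) ?_ hd
        · exact Subgroup.mem_centralizer_iff.1 this _ hoQ
        · intro r hr
          refine Subgroup.mem_centralizer_iff.2 fun w hw => ?_
          obtain ⟨n, rfl⟩ := Subgroup.mem_zpowers_iff.1 hw
          have hrx : Commute r x := Subgroup.mem_centralizer_singleton_iff.1 (hθC x hr.1)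
          exact (hrx.zpow_right n).symm.eq
        · intro w hw
          have hwx : w ∈ C x := Subgroup.mem_centralizer_singleton_iff.2
            (Subgroup.mem_centralizer_iff.1 hw.2 x (Subgroup.mem_zpowers x)).symm
          have hwL : w ∈ L := Subgroup.map_subtype_le _ hw.1
          refine mem_normalizer_of_conj_le fun a ha => Subgroup.mem_inf.2 ⟨?_, ?_⟩
          · exact (Subgroup.mem_normalizer_iff.1 (hθn x hwx) a).1 ha.1
          · exact mul_mem (mul_mem hwL ha.2) (inv_mem hwL)
      · have hle : Cfsg.pCore (q : ℕ) ↥L ≤ Cfsg.oddCore ↥L := by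
          haveI : (Cfsg.pCore (q : ℕ) ↥L).Normal := normal_pCore'
          refine CfsgLib.Cores.le_pPrimeCore ?_
          obtain ⟨n, hn⟩ := IsPGroup.iff_card.1 (isPGroup_pCore' (G := ↥L) (p := (q : ℕ)))
          rw [hn]
          exact ((Nat.coprime_primes (Fact.out : (q : ℕ).Prime) Nat.prime_two).2 hq2).pow_left n
        have hoθ : (o : X) ∈ θ y := ⟨o, hle ho, rfl⟩
        have hdo : d * o * d⁻¹ ∈ θ y := (Subgroup.mem_normalizer_iff.1 (hθn y hd.2) _).1 hoθ
        have h1 := hinv y hy hy1 _ hdo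
        have h2 := hinv y hy hy1 _ hoθ
        have h3 := hinv x hx hx1 _ hd.1
        have e : z * (d * o * d⁻¹) * z⁻¹ = (z * d * z⁻¹) * (z * o * z⁻¹) * (z * d * z⁻¹)⁻¹ := by
          group
        rw [h1, h2, h3] at e
        have h4 : d * d * (o : X)⁻¹ = (o : X)⁻¹ * (d * d) :=
          calc d * d * (o : X)⁻¹ = d * (d * o * d⁻¹)⁻¹ * d := by group
            _ = d * (d⁻¹ * (o : X)⁻¹ * d⁻¹⁻¹) * d := by rw [e]
            _ = (o : X)⁻¹ * (d * d) := by group
        have h5 : Commute (d * d) (o : X) := Commute.inv_right_iff.1 h4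
        obtain ⟨k, hk⟩ := hθodd x d hd.1
        have h6 : d = (d * d) ^ (k + 1) := by
          rw [← pow_two, ← pow_mul, show 2 * (k + 1) = orderOf d + 1 by omega, pow_succ,
            pow_orderOf_eq_one, one_mul]
        rw [h6]
        exact (h5.pow_left (k + 1)).symm.eq
    have hgf : Cfsg.generalizedFittingSubgroup ↥L = Cfsg.fittingSubgroup ↥L := by
      rw [Cfsg.generalizedFittingSubgroup, hE y hy hy1, bot_sup_eq]
    let F := Cfsg.fittingSubgroup ↥L
    let CF : Subgroup ↥L := F ⊓ Subgroup.centralizer (F : Set ↥L)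
    have hCFc : ∀ a ∈ CF, ∀ b ∈ CF, Commute a b := fun a ha b hb =>
      Subgroup.mem_centralizer_iff.1 hb.2 a ha.1
    let N := oddOrderPart CF hCFc
    haveI hFn : F.Normal := CfsgLib.Cores.fittingSubgroup_normal _
    have hNn : N.Normal := by
      refine ⟨fun a ha g => ⟨?_, ?_⟩⟩
      · exact (inferInstance : CF.Normal).conj_mem a ha.1 g
      · have : orderOf (g * a * g⁻¹) = orderOf a :=
          orderOf_injective (MulAut.conj g).toMonoidHom (MulAut.conj g).injective a
        rw [this]; exact ha.2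
    have hdN : (⟨d, hd.2⟩ : ↥L) ∈ N := by
      refine ⟨?_, ?_⟩
      · have hc := hDfit d hd hd.2
        have := CfsgLib.Cores.centralizer_generalizedFittingSubgroup_le (G := ↥L)
        rw [hgf] at this
        exact ⟨this hc, hc⟩
      · rw [Subgroup.orderOf_mk]; exact hθodd x d hd.1
    refine ⟨⟨d, hd.2⟩, CfsgLib.Cores.le_pPrimeCore (N := N) ?_ hdN, rfl⟩
    exact Nat.coprime_two_right.2 (odd_card_of_forall_odd fun a ha => ha.2)
  -- generation by fixed points of hyperplanes
  have hgen : ∀ x ∈ Y, x ≠ 1 → ∀ H : Subgroup X,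
      (∀ U : Subgroup X, U ≤ Y → x ∈ U → Nat.card ↥Y ≤ 2 * Nat.card ↥U →
        θ x ⊓ Subgroup.centralizer (U : Set X) ≤ H) → θ x ≤ H := by
    intro x hx hx1 H hH
    suffices h : ∀ n : ℕ, ∀ U : Subgroup X, U ≤ Y → x ∈ U → Nat.card ↥Y ≤ Nat.card ↥U + n →
        θ x ⊓ Subgroup.centralizer (U : Set X) ≤ H by
      refine le_trans (le_inf le_rfl ?_) (h (Nat.card ↥Y) (Subgroup.zpowers x)
        (Subgroup.zpowers_le.2 hx) (Subgroup.mem_zpowers x) (Nat.le_add_left _ _))
      rw [Subgroup.le_centralizer_iff, Subgroup.zpowers_le]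
      exact Subgroup.mem_centralizer_iff.2 fun a ha =>
        Subgroup.mem_centralizer_singleton_iff.1 (hθC x ha)
    intro n
    induction n using Nat.strong_induction_on with
    | _ n ih =>
      intro U hU hxU hn
      by_cases hbig : Nat.card ↥Y ≤ 2 * Nat.card ↥U
      · exact hH U hU hxU hbig
      obtain ⟨y1, hy1, hy1U⟩ : ∃ y ∈ Y, y ∉ U := by
        by_contra! h
        have := Subgroup.card_le_of_le (show Y ≤ U from h)
        omega
      let U1 : Subgroup X :=
        { carrier := {w | w ∈ Y ∧ (w ∈ U ∨ y1 * w ∈ U)}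
          one_mem' := ⟨one_mem _, Or.inl (one_mem _)⟩
          mul_mem' := by
            rintro a b ⟨ha, ha'⟩ ⟨hb, hb'⟩
            refine ⟨mul_mem ha hb, ?_⟩
            rcases ha' with ha' | ha' <;> rcases hb' with hb' | hb'
            · exact Or.inl (mul_mem ha' hb')
            · refine Or.inr ?_
              rw [← mul_assoc, (hYc y1 hy1 a ha).eq, mul_assoc]
              exact mul_mem ha' hb'
            · exact Or.inr (by rw [← mul_assoc]; exact mul_mem ha' hb')
            · refine Or.inl ?_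
              have := mul_mem ha' hb'
              rw [show y1 * a * (y1 * b) = (y1 * y1) * (a * b) by
                simp only [mul_assoc]; rw [← mul_assoc a y1 b, ← (hYc y1 hy1 a ha).eq, mul_assoc],
                hY2' y1 hy1, one_mul] at this
              exact this
          inv_mem' := by
            rintro a ⟨ha, ha'⟩
            rw [inv_eq_of_mul_eq_one_right (hY2' a ha)]
            exact ⟨ha, ha'⟩ }
      obtain ⟨y2, hy2, hy2U⟩ : ∃ y ∈ Y, y ∉ U1 := by
        by_contra! h
        have h2 : Nat.card ↥Y ≤ Nat.card (↥U ⊕ ↥U) := by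
          refine Nat.card_le_card_of_injective
            (fun w : ↥Y => if hw : (w : X) ∈ U then Sum.inl ⟨w, hw⟩
              else Sum.inr ⟨y1 * w, ((h w w.2).2).resolve_left hw⟩) ?_
          intro a b hab
          by_cases ha : (a : X) ∈ U <;> by_cases hb : (b : X) ∈ U <;>
            simp [ha, hb] at hab
          · exact hab
          · exact hab
        rw [Nat.card_sum] at h2
        omega
      have hne : ∀ i : ℕ, ∀ w : X, w ∈ ({y1, y2, y1 * y2} : Set X) → w ∉ U := by
        rintro _ w (rfl | rfl | rfl) hwU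
        · exact hy1U hwU
        · exact hy2U ⟨hy2, Or.inl hwU⟩
        · exact hy2U ⟨hy2, Or.inr hwU⟩
      set K := θ x ⊓ Subgroup.centralizer (U : Set X) with hK
      have hKn : ∀ w ∈ Y, w ∈ Subgroup.normalizer (K : Set X) := by
        intro w hw
        refine mem_normalizer_of_conj_le fun a ha => Subgroup.mem_inf.2 ⟨?_, ?_⟩
        · exact (Subgroup.mem_normalizer_iff.1 (hθn x (hYC x hx hw)) a).1 ha.1
        · refine Subgroup.mem_centralizer_iff.2 fun u hu => ?_
          have h1 : Commute u a := Subgroup.mem_centralizer_iff.1 ha.2 u hu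
          have h2 : Commute u w := hYc u (hU hu) w hw
          exact ((h2.mul_right h1).mul_right h2.inv_right).eq
      have hKc : ∀ a ∈ K, ∀ b ∈ K, Commute a b := fun a ha b hb =>
        hθab x hx hx1 a ha.1 b hb.1
      haveI : IsMulCommutative ↥K := ⟨⟨fun a b => Subtype.ext (hKc a a.2 b b.2).eq⟩⟩
      refine CfsgLib.CoprimeAction.le_of_centralizers_of_isSolvable (H := H) Nat.prime_two
        (hY2 y1 hy1) (hY2 y2 hy2) (hYc y1 hy1 y2 hy2).eq ?_ ?_ (hKn y1 hy1) (hKn y2 hy2) ?_
        (CfsgLib.CoprimeAction.isSolvable_of_isMulCommutative K) ?_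
      · intro i hi
        rcases Nat.even_or_odd i with ⟨j, rfl⟩ | ⟨j, rfl⟩
        · rw [pow_add, ← (Commute.refl y2).mul_pow, hY2' y2 hy2, one_pow, mul_one] at hi
          exact hy1U (hi ▸ one_mem _)
        · rw [pow_succ, pow_mul, hY2 y2 hy2, one_pow, one_mul] at hi
          exact hy2U ⟨hy2, Or.inr (hi ▸ one_mem _)⟩
      · rintro rfl
        exact hy2U (one_mem _)
      · exact Nat.coprime_two_right.2 (odd_card_of_forall_odd fun a ha => hθodd x a ha.1)
      · intro w hw hw1
        have hwY : w ∈ Y := (Subgroup.closure_le _).2 (by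
          rintro v (rfl | rfl) <;> assumption) hw
        have hwU : w ∉ U := by
          let S : Subgroup X :=
            { carrier := {1, y1, y2, y1 * y2}
              one_mem' := by simp
              mul_mem' := by
                have e1 := hY2' y1 hy1
                have e2 := hY2' y2 hy2
                have e3 := (hYc y1 hy1 y2 hy2).eq
                have f1 : y1 * (y1 * y2) = y2 := by rw [← mul_assoc, e1, one_mul]
                have f2 : y1 * y2 * y2 = y1 := by rw [mul_assoc, e2, mul_one]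
                have f3 : y1 * y2 * y1 = y2 := by rw [mul_assoc, ← e3, f1]
                have f4 : y2 * (y1 * y2) = y1 := by rw [← mul_assoc, ← e3, f2]
                have f5 : y1 * y2 * (y1 * y2) = 1 := by rw [mul_assoc, f4, e1]
                rintro a b (rfl | rfl | rfl | rfl) (rfl | rfl | rfl | rfl) <;>
                  simp [e1, e2, ← e3, f1, f2, f3, f4, f5]
              inv_mem' := by
                intro a ha
                have haY : a ∈ Y := by
                  rcases ha with rfl | rfl | rfl | rfl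
                  · exact one_mem _
                  · exact hy1
                  · exact hy2
                  · exact mul_mem hy1 hy2
                rw [inv_eq_of_mul_eq_one_right (hY2' a haY)]
                exact ha }
          have hwS : w ∈ S := (Subgroup.closure_le S).2 (by
            rintro v (rfl | rfl) <;> simp [S]) hw
          rcases hwS with h | h
          · exact absurd h hw1
          · exact hne 0 w h
        refine le_trans ?_ (ih (Nat.card ↥Y - Nat.card ↥(U ⊔ Subgroup.zpowers w)) ?_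
          (U ⊔ Subgroup.zpowers w) (sup_le hU (Subgroup.zpowers_le.2 hwY))
          (le_sup_left (b := Subgroup.zpowers w) hxU) (by omega))
        · refine le_inf (inf_le_left.trans inf_le_left) ?_
          rw [Subgroup.le_centralizer_iff]
          refine sup_le ?_ ?_
          · rw [Subgroup.le_centralizer_iff]; exact inf_le_left.trans inf_le_right
          · rw [Subgroup.zpowers_le]
            exact Subgroup.mem_centralizer_iff.2 fun a ha =>
              Subgroup.mem_centralizer_singleton_iff.1 ha.2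
        · have hlt : Nat.card ↥U < Nat.card ↥(U ⊔ Subgroup.zpowers w) := by
            by_contra! hle
            have := Subgroup.eq_of_le_of_card_ge (le_sup_left (b := Subgroup.zpowers w)) hle
            exact hwU (this ▸ le_sup_right (a := U) (Subgroup.mem_zpowers w))
          omega
  -- the cores commute with each other
  have hcomm : ∀ x ∈ Y, x ≠ 1 → ∀ w ∈ Y, w ≠ 1 → θ x ≤ Subgroup.centralizer (θ w : Set X) := by
    intro x hx hx1 w hw hw1
    refine hgen x hx hx1 _ fun U hU hxU hUc => ?_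
    rw [Subgroup.le_centralizer_iff]
    refine hgen w hw hw1 _ fun U' hU' hwU' hUc' => ?_
    obtain ⟨u, huU, huU', hu1⟩ : ∃ u, u ∈ U ∧ u ∈ U' ∧ u ≠ 1 := by
      by_contra! h
      have h2 : Nat.card (↥U × ↥U') ≤ Nat.card ↥Y := by
        refine Nat.card_le_card_of_injective
          (fun a => (⟨(a.1 : X) * a.2, mul_mem (hU a.1.2) (hU' a.2.2)⟩ : ↥Y)) ?_
        intro a b hab
        have hab' : (a.1 : X) * a.2 = b.1 * b.2 := congrArg Subtype.val hab
        have hmem : (b.1 : X)⁻¹ * a.1 = b.2 * (a.2 : X)⁻¹ := by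
          rw [eq_mul_inv_iff_mul_eq, mul_assoc, hab', inv_mul_cancel_left]
        have h1 := h _ (mul_mem (inv_mem b.1.2) a.1.2) (hmem ▸ mul_mem b.2.2 (inv_mem a.2.2))
        refine Prod.ext (Subtype.ext (inv_mul_eq_one.1 h1).symm) (Subtype.ext ?_)
        rw [hmem] at h1
        exact (mul_inv_eq_one.1 h1).symm
      rw [Nat.card_prod] at h2
      have := Nat.mul_le_mul hUc hUc'
      nlinarith [h8, Nat.card_pos (α := ↥Y)]
    have hsub : ∀ (x : X), x ∈ Y → x ≠ 1 → ∀ U : Subgroup X, u ∈ U →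
        θ x ⊓ Subgroup.centralizer (U : Set X) ≤ θ u := fun x hx hx1 U huU a ha =>
      hbal x hx hx1 u (by first | exact hU ‹_› | exact hU' huU') hu1
        ⟨ha.1, Subgroup.mem_centralizer_singleton_iff.2
          (Subgroup.mem_centralizer_iff.1 ha.2 u huU).symm⟩
    have huY : u ∈ Y := hU huU
    intro b hb
    refine Subgroup.mem_centralizer_iff.2 fun a ha => ?_
    exact (hθab u huY hu1 a (hsub x hx hx1 U huU ha) b (hsub w hw hw1 U' huU' hb)).eq
  set W : Subgroup X := ⨆ y : {y : X // y ∈ Y ∧ y ≠ 1}, θ y with hW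
  have hWc : W ≤ Subgroup.centralizer (W : Set X) := by
    refine iSup_le fun x => ?_
    rw [Subgroup.le_centralizer_iff]
    refine iSup_le fun w => ?_
    exact hcomm w w.2.1 w.2.2 x x.2.1 x.2.2
  let N := oddOrderPart W fun a ha b hb => Subgroup.mem_centralizer_iff.1 (hWc hb) a ha
  have hWN : W ≤ N := iSup_le fun y a ha =>
    ⟨le_iSup (fun y : {y : X // y ∈ Y ∧ y ≠ 1} => θ y) y ha, hθodd y a ha⟩
  refine ⟨odd_card_of_forall_odd fun a ha => (hWN ha).2, fun g hg => mem_normalizer_of_conj_le ?_⟩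
  intro a ha
  have hmap : W.map (MulAut.conj g).toMonoidHom ≤ W := by
    rw [hW, Subgroup.map_iSup]
    refine iSup_le fun y => ?_
    have hy' : g * (y : X) * g⁻¹ ∈ Y := (Subgroup.mem_normalizer_iff.1 hg _).1 y.2.1
    have hy1' : g * (y : X) * g⁻¹ ≠ 1 := fun h => y.2.2 (conj_eq_one_iff.1 h)
    refine le_trans ?_ (le_iSup (fun y : {y : X // y ∈ Y ∧ y ≠ 1} => θ y) ⟨_, hy', hy1'⟩)
    set T := (θ (y : X)).map (MulAut.conj g).toMonoidHom with hT
    set y' : X := g * (y : X) * g⁻¹ with hy'def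
    have hTC : T ≤ C y' := by
      rintro _ ⟨b, hb, rfl⟩
      have hby : Commute b (y : X) := Subgroup.mem_centralizer_singleton_iff.1 (hθC _ hb)
      exact Subgroup.mem_centralizer_singleton_iff.2 (hby.map (MulAut.conj g).toMonoidHom).eq
    have hTn : C y' ≤ Subgroup.normalizer (T : Set X) := by
      intro c hc
      refine mem_normalizer_of_conj_le ?_
      rintro _ ⟨b, hb, rfl⟩
      have hcy : Commute c y' := Subgroup.mem_centralizer_singleton_iff.1 hc
      have hc' : g⁻¹ * c * g ∈ C (y : X) := by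
        refine Subgroup.mem_centralizer_singleton_iff.2 ?_
        have := (hcy.map (MulAut.conj g⁻¹).toMonoidHom).eq
        simpa [hy'def, mul_assoc] using this
      exact ⟨_, (Subgroup.mem_normalizer_iff.1 (hθn _ hc') b).1 hb, by simp [mul_assoc]⟩
    have hTodd : ∀ b ∈ T, Odd (orderOf b) := by
      rintro _ ⟨b, hb, rfl⟩
      rw [orderOf_injective (MulAut.conj g).toMonoidHom (MulAut.conj g).injective]
      exact hθodd _ b hb
    intro b hb
    haveI : (T.subgroupOf (C y')).Normal := Subgroup.normal_subgroupOf_of_le_normalizer hTn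
    refine ⟨⟨b, hTC hb⟩, CfsgLib.Cores.le_pPrimeCore (N := T.subgroupOf (C y'))
      (Nat.coprime_two_right.2 (odd_card_of_forall_odd fun c hc => ?_)) hb, rfl⟩
    rw [← Subgroup.orderOf_coe c]
    exact hTodd _ hc
  exact hmap ⟨a, ha, rfl⟩

end Cfsg.Agent.S2924
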