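import Cfsg.Statements.S2925
import Cfsg.Agent.Lib.StronglyPEmbedded.Helpers
-- import your own Cfsg.Agent.* helpers here

set_option autoImplicit false
open Cfsg

namespace Cfsg.Agent.S2925

/-- Let K be a component of the finite group X and T a Sylow 2-subgroup of X. If some abelian normal subgroup Y of T does not normalize K, then K ⧸ Z(K) has abelian Sylow 2-subgroups. -/
theorem result {X : Type*} [Group X] [Finite X] (K : Subgroup X) (hK : Cfsg.IsComponent K) (T : Sylow 2 X) (Y : Subgroup X) (hYT : Y ≤ (T : Subgroup X)) (hYn : (Y.subgroupOf (T : Subgroup X)).Normal) (hYab : IsMulCommutative ↥Y) (hnot : ¬ Y ≤ Subgroup.normalizer (K : Set X)) (P : Sylow 2 (↥K ⧸ Subgroup.center ↥K)) : IsMulCommutative ↥(P : Subgroup (↥K ⧸ Subgroup.center ↥K)) := by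
  open CfsgLib.StronglyPEmbedded in
  obtain ⟨y, hy, hyK⟩ := SetLike.not_le_iff_exists.1 hnot
  set K' : Subgroup X := K.map (MulAut.conj y).toMonoidHom with hK'
  have hK'c : Cfsg.IsComponent K' := CfsgLib.Cores.isComponent_map_equiv hK (MulAut.conj y)
  have hne : K ≠ K' := by
    intro h
    refine hyK (mem_normalizer_of_conj_le fun x hx => ?_)
    exact h ▸ Subgroup.mem_map_of_mem (MulAut.conj y).toMonoidHom hx
  have hKK' := CfsgLib.Cores.le_centralizer_of_isComponent_ne hK hK'c hne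
  obtain ⟨Q, hQ⟩ := exists_sylow_subgroupOf_eq T hK.1
  let Q' : Sylow 2 (↥K ⧸ Subgroup.center ↥K) :=
    Q.mapSurjective (f := QuotientGroup.mk' (Subgroup.center ↥K)) (QuotientGroup.mk'_surjective _)
  -- commutators of `T ⊓ K` lie in the centre of `K`
  have hcomm : ∀ a b : ↥K, (a : X) ∈ (T : Subgroup X) → (b : X) ∈ (T : Subgroup X) →
      a * b * a⁻¹ * b⁻¹ ∈ Subgroup.center ↥K := by
    intro a b ha hb
    have hmemY : ∀ t : X, t ∈ (T : Subgroup X) → t⁻¹ * (y * t * y⁻¹) ∈ Y := by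
      intro t ht
      have h1 := hYn.conj_mem ⟨y, hYT hy⟩ hy ⟨t⁻¹, inv_mem ht⟩
      have h2 : t⁻¹ * y * t ∈ Y := by simpa [Subgroup.mem_subgroupOf] using h1
      have := mul_mem h2 (inv_mem hy)
      simpa [mul_assoc] using this
    have ha' : y * a * y⁻¹ ∈ K' := Subgroup.mem_map_of_mem (MulAut.conj y).toMonoidHom a.2
    have hb' : y * b * y⁻¹ ∈ K' := Subgroup.mem_map_of_mem (MulAut.conj y).toMonoidHom b.2
    generalize hA : y * (a : X) * y⁻¹ = a' at ha'
    generalize hB : y * (b : X) * y⁻¹ = b' at hb'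
    have hu := hmemY a ha
    have hv := hmemY b hb
    rw [hA] at hu
    rw [hB] at hv
    have huv : ((a : X)⁻¹ * a') * ((b : X)⁻¹ * b') = ((b : X)⁻¹ * b') * ((a : X)⁻¹ * a') :=
      congrArg Subtype.val (mul_comm' (⟨_, hu⟩ : ↥Y) ⟨_, hv⟩)
    have hc : ∀ k ∈ K, ∀ k' ∈ K', k' * k = k * k' := fun k hk k' hk' =>
      Subgroup.mem_centralizer_iff.1 (hKK' hk) k' hk'
    have e1 : (a : X) * b * (a : X)⁻¹ * (b : X)⁻¹ * (a' * b') = b' * a' := by
      calc (a : X) * b * (a : X)⁻¹ * (b : X)⁻¹ * (a' * b')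
          = (a : X) * b * ((a : X)⁻¹ * (((b : X)⁻¹ * a') * b')) := by group
        _ = (a : X) * b * (((a : X)⁻¹ * a') * ((b : X)⁻¹ * b')) := by
            rw [← hc _ (inv_mem b.2) _ ha']; group
        _ = (a : X) * b * (((b : X)⁻¹ * b') * ((a : X)⁻¹ * a')) := by rw [huv]
        _ = (a : X) * (b' * (a : X)⁻¹) * a' := by group
        _ = b' * a' := by rw [hc _ (inv_mem a.2) _ hb']; group
    have hmem : (a : X) * b * (a : X)⁻¹ * (b : X)⁻¹ ∈ K' := by
      rw [eq_mul_inv_of_mul_eq e1]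
      exact mul_mem (mul_mem hb' ha') (inv_mem (mul_mem ha' hb'))
    refine Subgroup.mem_center_iff.2 fun k => Subtype.ext ?_
    exact (hc _ k.2 _ hmem).symm
  have hsur : ∀ x ∈ (Q' : Subgroup (↥K ⧸ Subgroup.center ↥K)),
      ∃ a : ↥K, (a : X) ∈ (T : Subgroup X) ∧ (a : ↥K ⧸ Subgroup.center ↥K) = x := by
    intro x hx
    simp only [Q', Sylow.coe_mapSurjective] at hx
    obtain ⟨a, ha, rfl⟩ := hx
    rw [SetLike.mem_coe, hQ] at ha
    exact ⟨a, ha, rfl⟩
  refine ⟨⟨fun u v => ?_⟩⟩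
  obtain ⟨u₀, rfl⟩ := (Sylow.equiv Q' P).surjective u
  obtain ⟨v₀, rfl⟩ := (Sylow.equiv Q' P).surjective v
  rw [← map_mul, ← map_mul]
  congr 1
  obtain ⟨a, ha, hau⟩ := hsur u₀ u₀.2
  obtain ⟨b, hb, hbv⟩ := hsur v₀ v₀.2
  refine Subtype.ext ?_
  show (u₀ : ↥K ⧸ Subgroup.center ↥K) * v₀ = v₀ * u₀
  rw [← hau, ← hbv, ← QuotientGroup.mk_mul, ← QuotientGroup.mk_mul]
  refine (QuotientGroup.eq.2 ?_).symm
  have := hcomm a⁻¹ b⁻¹ (inv_mem ha) (inv_mem hb)
  simpa [mul_assoc] using this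

end Cfsg.Agent.S2925
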