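import Cfsg.Statements.S2929
import Mathlib
import Cfsg.Agent.Lib.Cores.Components
import Cfsg.Agent.Lib.Cores.GenFitting
import Cfsg.Agent.Lib.CharTheory.Burnside
import Cfsg.Agent.Lib.StronglyPEmbedded.Helpers
-- import your own Cfsg.Agent.* helpers here

set_option autoImplicit false
open Cfsg

namespace Cfsg.Agent.S2929

open Equiv Equiv.Perm Finset
open scoped commutatorElement Pointwise

variable {α : Type*} [Fintype α] [DecidableEq α]

/-- The 3-cycle `a ↦ b ↦ c ↦ a`. -/
def cyc (a b c : α) : Equiv.Perm α := swap a b * swap b c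

omit [Fintype α] in
lemma cyc_apply_left {a b c : α} (ab : a ≠ b) (ac : a ≠ c) : cyc a b c a = b := by
  simp [cyc, swap_apply_of_ne_of_ne ab ac]

omit [Fintype α] in
lemma cyc_apply_other {a b c x : α} (xa : x ≠ a) (xb : x ≠ b) (xc : x ≠ c) : cyc a b c x = x := by
  simp [cyc, swap_apply_of_ne_of_ne xb xc, swap_apply_of_ne_of_ne xa xb]

omit [Fintype α] in
lemma cyc_apply_mid {a b c : α} (ac : a ≠ c) (bc : b ≠ c) : cyc a b c b = c := by
  simp [cyc, swap_apply_of_ne_of_ne ac.symm bc.symm]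

omit [Fintype α] in
lemma cyc_apply_right {a b c : α} : cyc a b c c = a := by simp [cyc]

lemma isThreeCycle_cyc {a b c : α} (ab : a ≠ b) (ac : a ≠ c) (bc : b ≠ c) :
    (cyc a b c).IsThreeCycle := by
  rw [cyc, swap_comm a b]; exact isThreeCycle_swap_mul_swap_same ab.symm bc ac

omit [Fintype α] in
lemma cyc_conj (g : Equiv.Perm α) (a b c : α) :
    g * cyc a b c * g⁻¹ = cyc (g a) (g b) (g c) := by
  simp only [cyc, swap_apply_apply]; group

omit [Fintype α] in
lemma cyc_inv (a b c : α) : (cyc a b c)⁻¹ = cyc c b a := by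
  simp [cyc, swap_comm]

omit [Fintype α] in
lemma cyc_rot {a b c : α} (ab : a ≠ b) (ac : a ≠ c) (bc : b ≠ c) : cyc b c a = cyc a b c := by
  ext x
  by_cases xa : x = a
  · subst xa; rw [cyc_apply_right, cyc_apply_left ab ac]
  by_cases xb : x = b
  · subst xb; rw [cyc_apply_left bc ab.symm, cyc_apply_mid ac bc]
  by_cases xc : x = c
  · subst xc; rw [cyc_apply_mid ab.symm ac.symm, cyc_apply_right]
  rw [cyc_apply_other xb xc xa, cyc_apply_other xa xb xc]

lemma exists_cyc {σ : Equiv.Perm α} (h : σ.IsThreeCycle) {a : α} (ha : a ∈ σ.support) :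
    ∃ b c, a ≠ b ∧ a ≠ c ∧ b ≠ c ∧ σ = cyc a b c ∧ σ.support = {a, b, c} := by
  have h3 : σ (σ (σ a)) = a := by
    have := pow_orderOf_eq_one σ
    rw [h.orderOf] at this
    exact congrArg (fun τ : Equiv.Perm α => τ a) this
  rw [mem_support] at ha
  have ab : a ≠ σ a := ha.symm
  have ac : a ≠ σ (σ a) := fun e => ha (by conv_rhs => rw [← h3, ← e])
  have bc : σ a ≠ σ (σ a) := fun e => ab (σ.injective e)
  have hsupp : ({a, σ a, σ (σ a)} : Finset α) = σ.support := by
    refine eq_of_subset_of_card_le ?_ ?_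
    · intro x hx
      simp only [mem_insert, mem_singleton] at hx
      rw [mem_support]
      rcases hx with rfl | rfl | rfl
      · exact ha
      · exact bc.symm
      · rw [h3]; exact ac
    · rw [h.card_support, card_eq_three.2 ⟨a, σ a, σ (σ a), ab, ac, bc, rfl⟩]
  refine ⟨σ a, σ (σ a), ab, ac, bc, ?_, hsupp.symm⟩
  ext x
  by_cases xa : x = a
  · subst xa; rw [cyc_apply_left ab ac]
  by_cases xb : x = σ a
  · subst xb; rw [cyc_apply_mid ac bc]
  by_cases xc : x = σ (σ a)
  · subst xc; rw [cyc_apply_right, h3]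
  rw [cyc_apply_other xa xb xc, ← notMem_support, ← hsupp]
  simp [xa, xb, xc]

/-- All 3-cycles on `B` lie in `H`. -/
def Full (H : Subgroup (Equiv.Perm α)) (B : Finset α) : Prop :=
  ∀ a ∈ B, ∀ b ∈ B, ∀ c ∈ B, a ≠ b → a ≠ c → b ≠ c → cyc a b c ∈ H

variable {H : Subgroup (Equiv.Perm α)} {B : Finset α}

lemma full_insert (hB : Full H B) {a b x : α} (ha : a ∈ B) (hb : b ∈ B) (hx : x ∉ B) (ab : a ≠ b)
    (hc : cyc a b x ∈ H) : Full H (insert x B) := by
  have hne : ∀ {u}, u ∈ B → u ≠ x := fun hu e => hx (e ▸ hu)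
  have hsym : ∀ {u v}, u ∈ B → v ∈ B → u ≠ v → cyc u v x ∈ H → cyc v u x ∈ H := by
    intro u v hu hv uv h
    have := H.inv_mem h
    rw [cyc_inv] at this
    rwa [cyc_rot (hne hv).symm (hne hu).symm uv.symm]
  have hstep : ∀ {u v w}, u ∈ B → v ∈ B → w ∈ B → u ≠ v → u ≠ w → v ≠ w →
      cyc u v x ∈ H → cyc v w x ∈ H := by
    intro u v w hu hv hw uv uw vw h
    have hg := hB u hu v hv w hw uv uw vw
    have := H.mul_mem (H.mul_mem hg h) (H.inv_mem hg)
    rwa [cyc_conj, cyc_apply_left uv uw, cyc_apply_mid uw vw,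
      cyc_apply_other (hne hu).symm (hne hv).symm (hne hw).symm] at this
  have hall : ∀ u ∈ B, ∀ v ∈ B, u ≠ v → cyc u v x ∈ H := by
    intro u hu v hv uv
    obtain ⟨d, hd, ud, h⟩ : ∃ d ∈ B, u ≠ d ∧ cyc u d x ∈ H := by
      by_cases e1 : u = a
      · subst e1; exact ⟨b, hb, ab, hc⟩
      by_cases e2 : u = b
      · subst e2; exact ⟨a, ha, ab.symm, hsym ha hb ab hc⟩
      exact ⟨b, hb, e2, hsym hb hu (Ne.symm e2) (hstep ha hb hu ab (Ne.symm e1) (Ne.symm e2) hc)⟩
    by_cases e : v = d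
    · subst e; exact h
    have h' := hstep hd hu hv (Ne.symm ud) (Ne.symm e) uv (hsym hu hd ud h)
    exact h'
  intro u hu v hv w hw uv uw vw
  rcases mem_insert.1 hu with rfl | hu'
  · have hv' := mem_of_mem_insert_of_ne hv uv.symm
    have hw' := mem_of_mem_insert_of_ne hw uw.symm
    rw [← cyc_rot uv uw vw]
    exact hall v hv' w hw' vw
  rcases mem_insert.1 hv with rfl | hv'
  · have hw' := mem_of_mem_insert_of_ne hw vw.symm
    rw [← cyc_rot uv uw vw, ← cyc_rot vw uv.symm uw.symm]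
    exact hall w hw' u hu' uw.symm
  rcases mem_insert.1 hw with rfl | hw'
  · exact hall u hu' v hv' uv
  exact hB u hu' v hv' w hw' uv uw vw

lemma full_union (hB : Full H B) (h3 : 3 ≤ B.card) {σ : Equiv.Perm α} (hσ : σ.IsThreeCycle)
    (hσH : σ ∈ H) (hmeet : ¬ _root_.Disjoint σ.support B) : Full H (B ∪ σ.support) := by
  obtain ⟨a, haσ, haB⟩ := Finset.not_disjoint_iff.1 hmeet
  obtain ⟨b, c, ab, ac, bc, rfl, hs⟩ := exists_cyc hσ haσ
  rw [hs]
  have hU : B ∪ {a, b, c} = insert c (insert b B) := by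
    ext x; simp only [mem_union, mem_insert, mem_singleton]
    constructor
    · rintro (h | rfl | rfl | rfl) <;> simp_all
    · rintro (rfl | rfl | h) <;> simp_all
  rw [hU]
  by_cases hb : b ∈ B
  · rw [insert_eq_of_mem hb]
    by_cases hc : c ∈ B
    · rwa [insert_eq_of_mem hc]
    exact full_insert hB haB hb hc ab hσH
  by_cases hc : c ∈ B
  · rw [insert_eq_of_mem (mem_insert_of_mem hc)]
    refine full_insert hB hc haB hb ac.symm ?_
    rwa [← cyc_rot ac.symm bc.symm ab] at *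
  obtain ⟨s, hs', t, ht', st⟩ := one_lt_card.1
    (show 1 < (B.erase a).card by rw [card_erase_of_mem haB]; omega)
  rw [mem_erase] at hs' ht'
  have hd := hB a haB s hs'.2 t ht'.2 hs'.1.symm ht'.1.symm st
  have hne : ∀ {u}, u ∈ B → u ≠ a → cyc a b c u = u := fun {u} hu hua =>
    cyc_apply_other hua (fun e => hb (by rwa [e] at hu)) (fun e => hc (by rwa [e] at hu))
  have h1 := H.mul_mem (H.mul_mem hσH hd) (H.inv_mem hσH)
  rw [cyc_conj, cyc_apply_left ab ac, hne hs'.2 hs'.1, hne ht'.2 ht'.1,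
    ← cyc_rot (fun e => hb (by rw [e]; exact hs'.2)) (fun e => hb (by rw [e]; exact ht'.2)) st] at h1
  have h2 := full_insert hB hs'.2 ht'.2 hb st h1
  exact full_insert h2 (mem_insert_of_mem haB) (mem_insert_self b B)
    (fun h => (mem_insert.1 h).elim (fun e => bc e.symm) hc) ab hσH

/-- Every 3-cycle of `H` lies in a block `B` whose alternating group is `F*(H)`. -/
lemma exists_block (hF : Cfsg.IsQuasisimple ↥(Cfsg.generalizedFittingSubgroup ↥H))
    {σ : Equiv.Perm α} (hσ : σ.IsThreeCycle) (hσH : σ ∈ H) :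
    ∃ B : Finset α, 5 ≤ B.card ∧
      Nonempty (↥(Cfsg.generalizedFittingSubgroup ↥H) ≃* ↥(alternatingGroup ↥B)) ∧
      (∀ k ∈ Cfsg.generalizedFittingSubgroup ↥H, (k : Equiv.Perm α).support ⊆ B) ∧
      (∃ k ∈ Cfsg.generalizedFittingSubgroup ↥H, (k : Equiv.Perm α) = σ) ∧
      (∀ h ∈ H, ∀ x ∈ B, h x ∈ B) := by
  classical
  set K := Cfsg.generalizedFittingSubgroup ↥H with hKdef
  -- a maximal full set
  obtain ⟨a₀, b₀, c₀, -, -, -, -⟩ := card_eq_three.1 hσ.card_support
  have hfull0 : Full H σ.support := by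
    intro a ha b hb c hc ab ac bc
    obtain ⟨b', c', ab', ac', bc', e, hs⟩ := exists_cyc hσ ha
    rw [hs, mem_insert, mem_insert, mem_singleton] at hb hc
    rcases hb with rfl | rfl | rfl
    · exact absurd rfl ab
    · rcases hc with rfl | rfl | rfl
      · exact absurd rfl ac
      · exact absurd rfl bc
      · exact e ▸ hσH
    · rcases hc with rfl | rfl | rfl
      · exact absurd rfl ac
      · have := H.inv_mem (e ▸ hσH : cyc a c b ∈ H)
        rwa [cyc_inv, ← cyc_rot bc ab.symm ac.symm, ← cyc_rot ac.symm bc.symm ab] at this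
      · exact absurd rfl bc
  obtain ⟨B, hBm, hBmax⟩ := exists_max_image
    ((univ : Finset α).powerset.filter fun S => σ.support ⊆ S ∧ Full H S) card
    ⟨σ.support, by simp [hfull0]⟩
  simp only [mem_filter, mem_powerset, subset_univ, true_and] at hBm hBmax
  obtain ⟨hσB, hB⟩ := hBm
  have h3 : 3 ≤ B.card := hσ.card_support ▸ card_le_card hσB
  have hdic : ∀ τ : Equiv.Perm α, τ.IsThreeCycle → τ ∈ H → ¬ _root_.Disjoint τ.support B →
      τ.support ⊆ B := by
    intro τ hτ hτH hm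
    have := hBmax _ ⟨hσB.trans subset_union_left, full_union hB h3 hτ hτH hm⟩
    exact union_eq_left.1 (eq_of_subset_of_card_le subset_union_left this).symm
  have hpres : ∀ τ : Equiv.Perm α, τ.IsThreeCycle → τ ∈ H → ∀ x, τ x ∈ B ↔ x ∈ B := by
    intro τ hτ hτH x
    by_cases hx : x ∈ τ.support
    · have hx' : τ x ∈ τ.support := apply_mem_support.2 hx
      constructor <;> intro h
      · exact hdic τ hτ hτH (Finset.not_disjoint_iff.2 ⟨_, hx', h⟩) hx
      · exact hdic τ hτ hτH (Finset.not_disjoint_iff.2 ⟨_, hx, h⟩) hx'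
    · rw [notMem_support.1 hx]
  let f : ↥(alternatingGroup ↥B) →* Equiv.Perm α :=
    (ofSubtype (p := (· ∈ B))).comp (alternatingGroup ↥B).subtype
  have hfinj : Function.Injective f := ofSubtype_injective.comp Subtype.val_injective
  let T : Set ↥H := {h | (h : Equiv.Perm α).IsThreeCycle}
  set N := Subgroup.closure T with hN
  have hgen : ∀ u : ↥(alternatingGroup ↥B), f u ∈ N.map H.subtype := by
    have hle : alternatingGroup ↥B ≤ (N.map H.subtype).comap (ofSubtype (p := (· ∈ B))) := by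
      rw [← closure_three_cycles_eq_alternating, Subgroup.closure_le]
      intro u hu
      obtain ⟨a, ha⟩ : u.support.Nonempty := card_pos.1 (by rw [IsThreeCycle.card_support hu]; omega)
      obtain ⟨b, c, ab, ac, bc, rfl, -⟩ := exists_cyc hu ha
      have e : ofSubtype (cyc a b c) = cyc (a : α) b c := by
        simp [cyc, ofSubtype_swap_eq]
      show ofSubtype (cyc a b c) ∈ N.map H.subtype
      rw [e]
      exact ⟨⟨_, hB a a.2 b b.2 c c.2 (Subtype.coe_ne_coe.2 ab) (Subtype.coe_ne_coe.2 ac)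
        (Subtype.coe_ne_coe.2 bc)⟩, Subgroup.subset_closure (isThreeCycle_cyc
          (Subtype.coe_ne_coe.2 ab) (Subtype.coe_ne_coe.2 ac) (Subtype.coe_ne_coe.2 bc)), rfl⟩
    exact fun u => hle u.2
  have hfH : ∀ u, f u ∈ H := fun u => by
    obtain ⟨h, -, e⟩ := hgen u; exact e ▸ h.2
  let g : ↥(alternatingGroup ↥B) →* ↥H := f.codRestrict H hfH
  have hginj : Function.Injective g := fun u v h => hfinj (congrArg Subtype.val h)
  set A := g.range with hA
  have hAN : A ≤ N := by
    rintro _ ⟨u, rfl⟩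
    obtain ⟨h, hh, e⟩ := hgen u
    rwa [show g u = h from Subtype.ext e.symm]
  have hmemA : ∀ h : ↥H, Equiv.Perm.sign (h : Equiv.Perm α) = 1 →
      (h : Equiv.Perm α).support ⊆ B → h ∈ A := by
    intro h hs hsupp
    have hinv : ∀ x, (h : Equiv.Perm α) x ∈ B ↔ x ∈ B := by
      intro x
      by_cases hx : x ∈ (h : Equiv.Perm α).support
      · exact iff_of_true (hsupp (apply_mem_support.2 hx)) (hsupp hx)
      · rw [notMem_support.1 hx]
    have e : ofSubtype (subtypePerm (h : Equiv.Perm α) hinv) = (h : Equiv.Perm α) :=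
      ofSubtype_subtypePerm hinv fun x hx => hsupp (mem_support.2 hx)
    refine ⟨⟨subtypePerm (h : Equiv.Perm α) hinv, mem_alternatingGroup.2 ?_⟩, Subtype.ext e⟩
    rw [← sign_ofSubtype, e, hs]
  have hsuppA : ∀ h ∈ A, (h : Equiv.Perm α).support ⊆ B := by
    rintro _ ⟨u, rfl⟩ x hx
    by_contra hxB
    exact mem_support.1 hx (ofSubtype_apply_of_not_mem _ hxB)
  have hsignA : ∀ h ∈ A, Equiv.Perm.sign (h : Equiv.Perm α) = 1 := by
    rintro _ ⟨u, rfl⟩
    exact (sign_ofSubtype _).trans (mem_alternatingGroup.1 u.2)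
  have hnormA : N ≤ Subgroup.normalizer (A : Set ↥H) := by
    rw [hN, Subgroup.closure_le]
    intro t ht
    refine CfsgLib.StronglyPEmbedded.mem_normalizer_of_conj_le fun a ha => hmemA _ ?_ ?_
    · simp [hsignA a ha]
    · intro x hx
      simp only [Subgroup.coe_mul, Subgroup.coe_inv, support_conj, mem_map] at hx
      obtain ⟨y, hy, rfl⟩ := hx
      exact (hpres _ ht t.2 y).2 (hsuppA a ha hy)
  have hNn : N.Normal := by
    refine Subgroup.normalizer_eq_top_iff.1 (eq_top_iff.2 fun h _ => ?_)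
    refine CfsgLib.StronglyPEmbedded.mem_normalizer_of_conj_le fun x hx => ?_
    rw [hN] at hx ⊢
    induction hx using Subgroup.closure_induction with
    | mem t ht =>
      refine Subgroup.subset_closure ?_
      show ((h : Equiv.Perm α) * t * (h : Equiv.Perm α)⁻¹).IsThreeCycle
      rw [IsThreeCycle, cycleType_conj]; exact ht
    | one => simp
    | mul x y _ _ hx hy =>
      have : h * (x * y) * h⁻¹ = (h * x * h⁻¹) * (h * y * h⁻¹) := by group
      rw [this]; exact mul_mem hx hy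
    | inv x _ hx =>
      have : h * x⁻¹ * h⁻¹ = (h * x * h⁻¹)⁻¹ := by group
      rw [this]; exact inv_mem hx
  have hAs : A.IsSubnormal := Subgroup.IsSubnormal.step A N hAN hNn.isSubnormal
    ((Subgroup.normal_subgroupOf_iff_le_normalizer hAN).2 hnormA)
  haveI hKn : K.Normal := by rw [hKdef]; infer_instance
  have hKc : Cfsg.IsComponent K := ⟨hKn.isSubnormal, hF⟩
  have hσmem : ∃ k ∈ A, (k : Equiv.Perm α) = σ := ⟨⟨σ, hσH⟩, hmemA _ hσ.sign hσB, rfl⟩
  have hKA : K ≤ A := by
    by_contra hcon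
    have hAC : A ≤ Subgroup.centralizer (K : Set ↥H) :=
      Subgroup.le_centralizer_iff.1 (CfsgLib.Cores.le_centralizer_of_not_le hKc hAs hcon)
    obtain ⟨s, hsA, hsσ⟩ := hσmem
    have hsC := hAC hsA
    have hsK : s ∈ K := CfsgLib.Cores.centralizer_generalizedFittingSubgroup_le hsC
    obtain ⟨a, ha⟩ : σ.support.Nonempty := card_pos.1 (by rw [hσ.card_support]; omega)
    obtain ⟨b, c, ab, ac, bc, e, hs⟩ := exists_cyc hσ ha
    have hcomm : ∀ k ∈ K, ∀ x, (k : Equiv.Perm α) (σ x) = σ ((k : Equiv.Perm α) x) := fun k hk x => by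
      have := congrArg Subtype.val (Subgroup.mem_centralizer_iff.1 hsC k hk)
      simp only [Subgroup.coe_mul, hsσ] at this
      exact congrArg (fun τ : Equiv.Perm α => τ x) this
    have hpow : ∀ k ∈ K, ∃ i : ℕ, (k : Equiv.Perm α) a = (σ ^ i) a := by
      intro k hk
      have hka : (k : Equiv.Perm α) a ∈ σ.support := by
        rw [mem_support, ← hcomm k hk]
        exact fun h' => mem_support.1 ha ((k : Equiv.Perm α).injective h')
      rw [hs, mem_insert, mem_insert, mem_singleton] at hka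
      rcases hka with h' | h' | h'
      · exact ⟨0, h'⟩
      · exact ⟨1, by rw [h', e, pow_one, cyc_apply_left ab ac]⟩
      · exact ⟨2, by rw [h', e, pow_two, Perm.mul_apply, cyc_apply_left ab ac, cyc_apply_mid ac bc]⟩
    have hcp : ∀ k ∈ K, ∀ (i : ℕ) x, (k : Equiv.Perm α) ((σ ^ i) x) = (σ ^ i) ((k : Equiv.Perm α) x) := by
      intro k hk i
      induction i with
      | zero => simp
      | succ i ih =>
        intro x
        simp only [pow_succ', Perm.mul_apply]
        rw [hcomm k hk, ih]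
    have hfix : ∀ k ∈ ⁅K, K⁆, (k : Equiv.Perm α) a = a := by
      intro k hk
      have : ⁅K, K⁆ ≤ Subgroup.comap H.subtype (MulAction.stabilizer (Equiv.Perm α) a) := by
        rw [Subgroup.commutator_le]
        intro x hx y hy
        obtain ⟨i, hi⟩ := hpow _ (K.inv_mem hx)
        obtain ⟨j, hj⟩ := hpow _ (K.inv_mem hy)
        have hh : ((x⁻¹ * y⁻¹ : ↥H) : Equiv.Perm α) a = ((y⁻¹ * x⁻¹ : ↥H) : Equiv.Perm α) a := by
          simp only [Subgroup.coe_mul, Perm.mul_apply, hi, hj]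
          rw [hcp _ (K.inv_mem hx), hcp _ (K.inv_mem hy), hi, hj, ← Perm.mul_apply,
            ← Perm.mul_apply, ← pow_add, ← pow_add, add_comm]
        show ((⁅x, y⁆ : ↥H) : Equiv.Perm α) a = a
        have h' : ⁅x, y⁆ = (x * y) * (x⁻¹ * y⁻¹) := by rw [commutatorElement_def]; group
        rw [h', Subgroup.coe_mul, Perm.mul_apply, hh, ← Perm.mul_apply, ← Subgroup.coe_mul,
          show (x * y) * (y⁻¹ * x⁻¹) = (1 : ↥H) by group]
        rfl
      exact this hk
    haveI := hF.1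
    have h1 := hfix s (by rw [Subgroup.commutator_eq_self]; exact hsK)
    rw [hsσ] at h1
    exact mem_support.1 ha h1
  have h5 : 5 ≤ B.card := by
    by_contra h4
    refine CfsgLib.Cores.not_isSolvable_of_isQuasisimple hF ?_
    refine CfsgLib.CharTheory.isSolvable_of_card_dvd_pow_mul_pow 2 3 2 1 Nat.prime_two
      Nat.prime_three ?_
    refine (Subgroup.card_dvd_of_le hKA).trans ?_
    rw [hA, ← Nat.card_congr (MonoidHom.ofInjective hginj).toEquiv]
    haveI : Nontrivial ↥B := Fintype.one_lt_card_iff_nontrivial.1 (by rw [Fintype.card_coe]; omega)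
    rw [nat_card_alternatingGroup, Nat.card_eq_fintype_card, Fintype.card_coe]
    interval_cases B.card <;> decide
  haveI hsimp : IsSimpleGroup ↥(alternatingGroup ↥B) :=
    alternatingGroup.isSimpleGroup (by rw [Nat.card_eq_fintype_card, Fintype.card_coe]; exact h5)
  have hKeq : K = A := by
    have hn : (K.comap g).Normal := hKn.comap g
    rcases hn.eq_bot_or_eq_top with h | h
    · exfalso
      haveI := CfsgLib.Cores.nontrivial_of_isQuasisimple hF
      obtain ⟨k, hk, hk1⟩ := (Subgroup.nontrivial_iff_exists_ne_one K).1 inferInstance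
      obtain ⟨u, rfl⟩ := hKA hk
      have : u ∈ K.comap g := hk
      rw [h, Subgroup.mem_bot] at this
      exact hk1 (by rw [this, map_one])
    · refine le_antisymm hKA ?_
      rintro _ ⟨u, rfl⟩
      exact (h ▸ Subgroup.mem_top u : u ∈ K.comap g)
  refine ⟨B, h5, ⟨(MulEquiv.subgroupCongr hKeq).trans (MonoidHom.ofInjective hginj).symm⟩,
    fun k hk => hsuppA k (hKeq ▸ hk), hKeq.symm ▸ hσmem, ?_⟩
  intro h hh x hx
  obtain ⟨y, hy, z, hz, yz⟩ := one_lt_card.1
    (show 1 < (B.erase x).card by rw [card_erase_of_mem hx]; omega)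
  rw [mem_erase] at hy hz
  have hc := hB x hx y hy.2 z hz.2 hy.1.symm hz.1.symm yz
  have hcA : (⟨_, hc⟩ : ↥H) ∈ A := hmemA _ (isThreeCycle_cyc hy.1.symm hz.1.symm yz).sign (by
    intro w hw
    by_contra hwB
    exact mem_support.1 hw (cyc_apply_other (fun e => hwB (e ▸ hx)) (fun e => hwB (e ▸ hy.2))
      (fun e => hwB (e ▸ hz.2))))
  have hc' : (⟨h, hh⟩ : ↥H) * ⟨_, hc⟩ * (⟨h, hh⟩ : ↥H)⁻¹ ∈ A :=
    hKeq ▸ hKn.conj_mem _ (hKeq.symm ▸ hcA) _
  refine hsuppA _ hc' ?_
  simp only [Subgroup.coe_mul, Subgroup.coe_inv, support_conj, mem_map, Equiv.coe_toEmbedding]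
  exact ⟨x, mem_support.2 (by rw [cyc_apply_left hy.1.symm hz.1.symm]; exact hy.1), rfl⟩

/-- If a subgroup containing a Sylow 3-subgroup preserves `B` and at least three points lie
outside `B`, it contains a 3-cycle outside `B`. -/
lemma exists_cyc_outside (P : Sylow 3 (Equiv.Perm α)) (hP : (P : Subgroup (Equiv.Perm α)) ≤ H)
    (hpres : ∀ h ∈ H, ∀ x ∈ B, h x ∈ B) (hR : 3 ≤ Bᶜ.card) :
    ∃ τ ∈ H, τ.IsThreeCycle ∧ _root_.Disjoint τ.support B := by
  classical
  haveI : Fact (Nat.Prime 3) := ⟨Nat.prime_three⟩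
  obtain ⟨S, hS, hS3⟩ := exists_subset_card_eq hR
  obtain ⟨a, b, c, ab, ac, bc, rfl⟩ := card_eq_three.1 hS3
  simp only [insert_subset_iff, singleton_subset_iff, mem_compl] at hS
  let M : Subgroup (Equiv.Perm α) := MulAction.stabilizer (Equiv.Perm α) (B : Set α)
  have hM : ∀ g ∈ M, ∀ x, g x ∈ B ↔ x ∈ B := by
    intro g hg x
    have h1 : g • (B : Set α) = (B : Set α) := hg
    have : g • x ∈ g • (B : Set α) ↔ x ∈ (B : Set α) := Set.smul_mem_smul_set_iff
    rw [h1] at this
    simpa using this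
  have hPM : (P : Subgroup (Equiv.Perm α)) ≤ M := by
    intro g hg
    refine MulAction.mem_stabilizer_set.2 fun x => ?_
    simp only [Perm.smul_def, Finset.mem_coe]
    refine ⟨fun h => ?_, hpres g (hP hg) x⟩
    have := hpres g⁻¹ (H.inv_mem (hP hg)) _ h
    simpa using this
  have hcM : cyc a b c ∈ M := by
    refine MulAction.mem_stabilizer_set.2 fun x => ?_
    simp only [Perm.smul_def, Finset.mem_coe]
    by_cases xa : x = a
    · subst xa; rw [cyc_apply_left ab ac]; exact iff_of_false hS.2.1 hS.1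
    by_cases xb : x = b
    · subst xb; rw [cyc_apply_mid ac bc]; exact iff_of_false hS.2.2 hS.2.1
    by_cases xc : x = c
    · subst xc; rw [cyc_apply_right]; exact iff_of_false hS.1 hS.2.2
    rw [cyc_apply_other xa xb xc]
  let P' : Sylow 3 ↥M := P.subtype hPM
  have hp : IsPGroup 3 ↥(Subgroup.zpowers (⟨cyc a b c, hcM⟩ : ↥M)) := by
    refine IsPGroup.iff_card.2 ⟨1, ?_⟩
    rw [Nat.card_zpowers, ← Subgroup.orderOf_coe, (isThreeCycle_cyc ab ac bc).orderOf, pow_one]
  obtain ⟨Q, hQ⟩ := hp.exists_le_sylow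
  obtain ⟨m, hm⟩ := MulAction.exists_smul_eq ↥M P' Q
  have hcQ : (⟨cyc a b c, hcM⟩ : ↥M) ∈ ((m • P' : Sylow 3 ↥M) : Subgroup ↥M) :=
    hm ▸ hQ (Subgroup.mem_zpowers _)
  rw [Sylow.coe_subgroup_smul, Subgroup.mem_pointwise_smul_iff_inv_smul_mem] at hcQ
  have h1 : (m : Equiv.Perm α)⁻¹ * cyc a b c * (m : Equiv.Perm α) ∈ H := hP (by
    simpa [P', MulAut.smul_def, Subgroup.mem_subgroupOf] using hcQ)
  have h2 := cyc_conj (m : Equiv.Perm α)⁻¹ a b c
  rw [inv_inv] at h2
  rw [h2] at h1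
  have hinv : ∀ u, u ∉ B → (m : Equiv.Perm α)⁻¹ u ∉ B := fun u hu h =>
    hu ((hM _ (M.inv_mem m.2) u).1 h)
  refine ⟨_, h1, isThreeCycle_cyc ((Equiv.injective _).ne ab) ((Equiv.injective _).ne ac)
    ((Equiv.injective _).ne bc), Finset.disjoint_left.2 fun x hx hxB => mem_support.1 hx ?_⟩
  exact cyc_apply_other (fun e => hinv a hS.1 (by rwa [e] at hxB))
    (fun e => hinv b hS.2.1 (by rwa [e] at hxB)) (fun e => hinv c hS.2.2 (by rwa [e] at hxB))

/-- Let n ≥ 5 and let H be a subgroup of the symmetric group of degree n whose generalized Fitting subgroup F*(H) is quasisimple. If H contains a Sylow 3-subgroup of the symmetric group, then F*(H) is isomorphic to an alternating group of degree m for some m ∈ {n − 2, n − 1, n}. -/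
theorem result (n : ℕ) (hn : 5 ≤ n) (H : Subgroup (Equiv.Perm (Fin n))) (hF : Cfsg.IsQuasisimple ↥(Cfsg.generalizedFittingSubgroup ↥H)) (hS : ∃ P : Sylow 3 (Equiv.Perm (Fin n)), (P : Subgroup (Equiv.Perm (Fin n))) ≤ H) : ∃ m : ℕ, (m = n - 2 ∨ m = n - 1 ∨ m = n) ∧ Nonempty (↥(Cfsg.generalizedFittingSubgroup ↥H) ≃* ↥(alternatingGroup (Fin m))) := by
  classical
  obtain ⟨P, hP⟩ := hS
  obtain ⟨σ, hσH, hσ, -⟩ := exists_cyc_outside (B := (∅ : Finset (Fin n))) P hP
    (fun _ _ x hx => absurd hx (Finset.notMem_empty x)) (by simp; omega)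
  obtain ⟨B, h5, ⟨e⟩, hsupp, hσK, hpres⟩ := exists_block hF hσ hσH
  have hR : Bᶜ.card ≤ 2 := by
    by_contra hcon
    obtain ⟨τ, hτH, hτ, hdis⟩ := exists_cyc_outside P hP hpres (by omega)
    obtain ⟨B', -, -, -, ⟨k, hk, rfl⟩, -⟩ := exists_block hF hτ hτH
    have h := hsupp k hk
    obtain ⟨x, hx⟩ : (k : Equiv.Perm (Fin n)).support.Nonempty :=
      Finset.card_pos.1 (by rw [hτ.card_support]; omega)
    exact Finset.disjoint_left.1 hdis hx (h hx)
  rw [Finset.card_compl, Fintype.card_fin] at hR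
  have hBn : B.card ≤ n := by simpa using B.card_le_univ
  refine ⟨B.card, by omega, ⟨e.trans (Equiv.altCongrHom ?_)⟩⟩
  exact Fintype.equivFinOfCardEq (Fintype.card_coe B)

end Cfsg.Agent.S2929
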