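import Cfsg.Statements.S2931
import Cfsg.Agent.Lib.TwoGroups.WreathModels
import Cfsg.Agent.Lib.ClassicalLinear.SympBasic
import Cfsg.Agent.Lib.ClassicalLinear.SympCard
import Cfsg.Agent.Lib.Parabolic.POmegaSimilar
import Cfsg.Agent.Lib.ClassicalForms.Ortho.Standard

set_option autoImplicit false
open Cfsg

namespace Cfsg.Agent.S2931

open CfsgLib.TwoGroups CfsgLib.TwoGroups.WreathModels CfsgLib.TwoGroups.WreathPair Matrix

local notation "Q8" => QuaternionGroup 2
local notation "D8" => DihedralGroup 4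

/-- Change of scalars in the symplectic group. -/
def mapSp {R S : Type*} [CommRing R] [CommRing S] (φ : R →+* S) :
    symplecticGroup (Fin 2) R →* symplecticGroup (Fin 2) S where
  toFun g := ⟨(g : Matrix (Fin 2 ⊕ Fin 2) (Fin 2 ⊕ Fin 2) R).map φ, by
    have hJ : (J (Fin 2) R).map φ = J (Fin 2) S := by
      unfold J
      rw [fromBlocks_map]
      simp [Matrix.map_neg]
    have h := congrArg (fun A => A.map φ) (SymplecticGroup.mem_iff.1 g.2)
    simp only [Matrix.map_mul] at h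
    rw [Matrix.transpose_map, hJ] at h
    exact SymplecticGroup.mem_iff.2 h⟩
  map_one' := Subtype.ext (Matrix.map_one φ φ.map_zero φ.map_one)
  map_mul' a b := Subtype.ext (Matrix.map_mul (f := φ))

theorem zmod_two_cases : ∀ u : ZMod 2, u = 0 ∨ u = 1 := by decide

theorem zmod_two_add : (1 : ZMod 2) + 1 = 0 := by decide

theorem oMat_r (i : ZMod 4) : oMat (.r i) = (ofMap siegel * ofMap transp) ^ i.val := rfl

theorem oMat_sr (i : ZMod 4) :
    oMat (.sr i) = ofMap transp * (ofMap siegel * ofMap transp) ^ i.val := rfl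

theorem ofAdd_one_ne : Multiplicative.ofAdd (1 : ZMod 2) ≠ 1 := by decide

theorem inKer_count : Nat.card {w : Wr Q8 // InKer w} = 2 := by
  rw [Nat.card_eq_two_iff]
  refine ⟨⟨1, rfl, rfl, Or.inl rfl⟩,
    ⟨⟨(QuaternionGroup.a 2, QuaternionGroup.a 2), 1⟩, rfl, rfl, Or.inr rfl⟩, ?_, ?_⟩
  · intro e
    have e' := congrArg (fun w : {w : Wr Q8 // InKer w} => w.1.left.1) e
    exact absurd e' (by decide : (1 : Q8) ≠ QuaternionGroup.a 2)
  · refine Set.eq_univ_of_forall ?_
    rintro ⟨⟨⟨x, y⟩, c⟩, hc, hxy, hx⟩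
    simp only at hc hxy hx
    subst hc hxy
    rcases hx with rfl | rfl
    · exact Or.inl rfl
    · exact Or.inr rfl

theorem card_Q8 : Nat.card Q8 = 8 := by
  rw [Nat.card_eq_fintype_card, QuaternionGroup.card]

theorem alt_psp (F : Type) [Field F] [Fintype F] (hF : Fintype.card F = 3)
    (P : Sylow 2 ↥(alternatingGroup (Fin 8))) (Q : Sylow 2 (Cfsg.PSp 2 F)) :
    Nonempty (↥(P : Subgroup ↥(alternatingGroup (Fin 8))) ≃* ↥(Q : Subgroup (Cfsg.PSp 2 F))) := by
  classical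
  have hp : Fact (Nat.Prime 2) := ⟨Nat.prime_two⟩
  let φ : ZMod 3 ≃+* F := ZMod.ringEquivOfPrime F Nat.prime_three hF
  let α : Wr Q8 →* ↥(alternatingGroup (Fin 8)) :=
    permQ.codRestrict _ fun w => Equiv.Perm.mem_alternatingGroup.2 (permQ_even w)
  let β : Wr Q8 →* Cfsg.PSp 2 F :=
    (QuotientGroup.mk' (Subgroup.center (symplecticGroup (Fin 2) F))).comp
      ((mapSp (φ : ZMod 3 →+* F)).comp spQ)
  have hα : ∀ w, w ∈ α.ker ↔ InKer w := fun w => by
    rw [MonoidHom.mem_ker, Subtype.ext_iff]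
    exact permQ_eq_one_iff w
  have hmapinj : Function.Injective (fun A : Matrix (Fin 2 ⊕ Fin 2) (Fin 2 ⊕ Fin 2) (ZMod 3) =>
      A.map (φ : ZMod 3 →+* F)) := Matrix.map_injective φ.injective
  have hβ : ∀ w, w ∈ β.ker ↔ InKer w := fun w => by
    rw [MonoidHom.mem_ker]
    show (QuotientGroup.mk (mapSp (φ : ZMod 3 →+* F) (spQ w)) : Cfsg.PSp 2 F) = 1 ↔ _
    rw [QuotientGroup.eq_one_iff, CfsgLib.ClassicalLinear.mem_center_sp_iff (by norm_num),
      ← spQ_scalar_iff]
    refine or_congr ?_ ?_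
    · rw [← hmapinj.eq_iff, Matrix.map_one _ (map_zero _) (map_one _)]
      rfl
    · rw [← hmapinj.eq_iff]
      have e : (-1 : Matrix (Fin 2 ⊕ Fin 2) (Fin 2 ⊕ Fin 2) (ZMod 3)).map (φ : ZMod 3 →+* F) = -1 := by
        rw [Matrix.map_neg _ (map_neg _), Matrix.map_one _ (map_zero _) (map_one _)]
      simp only [e]
      rfl
  have hker : α.ker = β.ker := Subgroup.ext fun w => (hα w).trans (hβ w).symm
  have hk : Nat.card α.ker = 2 := by rw [Nat.card_congr (Equiv.subtypeEquivRight hα), inKer_count]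
  have hW : Nat.card (Wr Q8) = 128 := by rw [card_wr, card_Q8]
  have ra := card_range α
  have rb := card_range β
  rw [← hker] at rb
  rw [hk, hW] at ra rb
  have hA : Nat.card ↥(alternatingGroup (Fin 8)) = 2 ^ 6 * 315 := by
    rw [nat_card_alternatingGroup, Nat.card_eq_fintype_card, Fintype.card_fin]
    rfl
  have hB : Nat.card (Cfsg.PSp 2 F) = 2 ^ 6 * 405 := by
    have h := Subgroup.card_eq_card_quotient_mul_card_subgroup
      (Subgroup.center (symplecticGroup (Fin 2) F))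
    rw [CfsgLib.ClassicalLinear.card_sp, CfsgLib.ClassicalLinear.card_center_sp (by norm_num), hF] at h
    simp [Finset.prod_range_succ] at h
    show Nat.card (symplecticGroup (Fin 2) F ⧸ Subgroup.center _) = _
    rw [Nat.card_eq_fintype_card]
    omega
  have hfac : ∀ m : ℕ, ¬ 2 ∣ m → 0 < m → (2 ^ 6 * m).factorization 2 = 6 := fun m hm h0 => by
    rw [Nat.factorization_mul (by norm_num) h0.ne', Nat.Prime.factorization_pow Nat.prime_two,
      Finsupp.add_apply, Finsupp.single_eq_same, Nat.factorization_eq_zero_of_not_dvd hm]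
  refine nonempty_sylow_equiv α β hker ?_ ?_ P Q
  · rw [hA, hfac 315 (by norm_num) (by norm_num)]; omega
  · rw [hB, hfac 405 (by norm_num) (by norm_num)]; omega

theorem sym_orth (K : Type) [Field K] [Fintype K] (hK : Fintype.card K = 2) (a b : K)
    (hab : ∀ z₁ z₂ : K, z₁ ^ 2 + a * z₁ * z₂ + b * z₂ ^ 2 = 0 → z₁ = 0 ∧ z₂ = 0)
    (P' : Sylow 2 (Equiv.Perm (Fin 8)))
    (Q' : Sylow 2 ↥(Cfsg.isometryGroup K (Cfsg.quadFormMinus 2 K a b))) :
    Nonempty (↥(P' : Subgroup (Equiv.Perm (Fin 8))) ≃*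
      ↥(Q' : Subgroup ↥(Cfsg.isometryGroup K (Cfsg.quadFormMinus 2 K a b)))) := by
  classical
  have hp : Fact (Nat.Prime 2) := ⟨Nat.prime_two⟩
  let φ : ZMod 2 ≃+* K := ZMod.ringEquivOfPrime K Nat.prime_two hK
  have hcases : ∀ z : K, z = 0 ∨ z = 1 := fun z => by
    have hd := zmod_two_cases
    rcases hd (φ.symm z) with e | e
    · left; rw [← φ.apply_symm_apply z, e, map_zero]
    · right; rw [← φ.apply_symm_apply z, e, map_one]
  have hb : b = 1 := (hcases b).resolve_left fun e => one_ne_zero (hab 0 1 (by rw [e]; ring)).2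
  have ha : a = 1 := (hcases a).resolve_left fun e => one_ne_zero (hab 1 1 (by
    rw [e, hb]
    have h2 := zmod_two_add
    have := congrArg φ h2
    rw [map_add, map_one, map_zero] at this
    linear_combination this)).1
  let f₀ : D8 →* GL ((Fin 2 ⊕ Fin 2) ⊕ Fin 2) (ZMod 2) :=
    ({ toFun := oMat, map_one' := oMat_one, map_mul' := oMat_mul } :
      D8 →* Matrix ((Fin 2 ⊕ Fin 2) ⊕ Fin 2) ((Fin 2 ⊕ Fin 2) ⊕ Fin 2) (ZMod 2)).toHomUnits
  let s₀ : GL ((Fin 2 ⊕ Fin 2) ⊕ Fin 2) (ZMod 2) := ⟨oSwap, oSwap, oSwap_sq, oSwap_sq⟩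
  let g : Wr D8 →* GL ((Fin 2 ⊕ Fin 2) ⊕ Fin 2) (ZMod 2) :=
    wrHom f₀ s₀ (Units.ext oSwap_sq) fun x y => Units.ext (oMat_commute x y)
  let gK : Wr D8 →* GL ((Fin 2 ⊕ Fin 2) ⊕ Fin 2) K :=
    (Matrix.GeneralLinearGroup.map (φ : ZMod 2 →+* K)).comp g
  -- the generators preserve the form
  have hvec : ∀ v : (Fin 2 ⊕ Fin 2) ⊕ Fin 2 → ZMod 2,
      v = vec (v (.inl (.inl 0))) (v (.inl (.inl 1))) (v (.inl (.inr 0))) (v (.inl (.inr 1)))
        (v (.inr 0)) (v (.inr 1)) := by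
    intro v; funext i
    rcases i with (i | i) | i <;> fin_cases i <;> rfl
  have hisoS : ∀ v, form (oSwap.mulVec v) = form v := fun v => by
    rw [hvec v]; exact oSwap_isom _ _ _ _ _ _
  have hisoG : ∀ v, form ((ofMap siegel).mulVec v) = form v := fun v => by
    rw [hvec v]; exact siegel_isom _ _ _ _ _ _
  have hisoT : ∀ v, form ((ofMap transp).mulVec v) = form v := fun v => by
    rw [hvec v]; exact transp_isom _ _ _ _ _ _
  have hpow : ∀ (n : ℕ) v, form (((ofMap siegel * ofMap transp) ^ n).mulVec v) = form v := by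
    intro n
    induction n with
    | zero => intro v; rw [pow_zero, Matrix.one_mulVec]
    | succ n ih => intro v; rw [pow_succ, ← Matrix.mulVec_mulVec, ih, ← Matrix.mulVec_mulVec, hisoG, hisoT]
  have hisoM : ∀ (x : D8) v, form ((oMat x).mulVec v) = form v := by
    intro x v
    cases x with
    | r i => rw [oMat_r]; exact hpow _ v
    | sr i =>
      rw [oMat_sr, ← Matrix.mulVec_mulVec, hisoT, hpow]
  have hiso : ∀ w v, form (((g w : GL ((Fin 2 ⊕ Fin 2) ⊕ Fin 2) (ZMod 2)) :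
      Matrix ((Fin 2 ⊕ Fin 2) ⊕ Fin 2) ((Fin 2 ⊕ Fin 2) ⊕ Fin 2) (ZMod 2)).mulVec v) = form v := by
    intro w
    refine (wrHom_mem_ker_iff (P := fun h : GL ((Fin 2 ⊕ Fin 2) ⊕ Fin 2) (ZMod 2) =>
      ∀ v, form ((h : Matrix ((Fin 2 ⊕ Fin 2) ⊕ Fin 2) ((Fin 2 ⊕ Fin 2) ⊕ Fin 2) (ZMod 2)).mulVec v) =
        form v) (Q := fun _ => True) _ _ _ _ (fun x y => iff_of_true ?_ trivial)
      (fun x y => iff_of_true ?_ trivial) w).2 trivial <;>
      · intro v
        simp only [Units.val_mul, ← Matrix.mulVec_mulVec]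
        simp only [f₀, s₀, MonoidHom.coe_toHomUnits, MonoidHom.coe_mk, OneHom.coe_mk, hisoM, hisoS]
  have hmem : ∀ w, gK w ∈ Cfsg.isometryGroup K (Cfsg.quadFormMinus 2 K a b) := by
    intro w u v
    show Cfsg.quadFormMinus 2 K a b _ = Cfsg.quadFormMinus 2 K a b u
    have hform : ∀ v₀ : (Fin 2 ⊕ Fin 2) ⊕ Fin 2 → ZMod 2,
        Cfsg.quadFormMinus 2 K a b (fun i => φ (v₀ i)) = φ (form v₀) := by
      intro v₀
      have hsq : ∀ z : K, z ^ 2 = z := fun z => by rcases hcases z with rfl | rfl <;> simp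
      simp [Cfsg.quadFormMinus, form, ha, hb, Fin.sum_univ_two, hsq]
    have hu : u = fun i => φ (φ.symm (u i)) := funext fun i => (φ.apply_symm_apply _).symm
    rw [hu, hform, ← hiso w, ← hform]
    congr 1
    funext i
    exact (RingHom.map_mulVec (φ : ZMod 2 →+* K) _ _ i).symm
  let β : Wr D8 →* ↥(Cfsg.isometryGroup K (Cfsg.quadFormMinus 2 K a b)) := gK.codRestrict _ hmem
  have hginj : Function.Injective g := by
    refine (injective_iff_map_eq_one g).2 fun w => (wrHom_mem_ker_iff (P := fun h => h = 1)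
      (Q := fun w => w = 1) _ _ _ _ (fun x y => ?_) (fun x y => ?_) w).1
    · refine Units.ext_iff.trans ((oMat_ker₀ x y).trans ⟨?_, fun h => ?_⟩)
      · rintro ⟨rfl, rfl⟩; rfl
      · exact ⟨congrArg (fun v : Wr D8 => v.left.1) h, congrArg (fun v : Wr D8 => v.left.2) h⟩
    · exact iff_of_false (fun e => oMat_ker₁ x y (Units.ext_iff.1 e))
        (fun h => absurd (congrArg (fun v : Wr D8 => v.right) h) ofAdd_one_ne)
  have hβinj : Function.Injective β := by
    intro x y e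
    refine hginj (Units.ext ?_)
    have e' := congrArg (fun h : GL ((Fin 2 ⊕ Fin 2) ⊕ Fin 2) K =>
      (h : Matrix ((Fin 2 ⊕ Fin 2) ⊕ Fin 2) ((Fin 2 ⊕ Fin 2) ⊕ Fin 2) K)) (congrArg Subtype.val e)
    exact Matrix.map_injective φ.injective e'
  have hW : Nat.card (Wr D8) = 128 := by rw [card_wr, DihedralGroup.nat_card]
  have hker : permD.ker = β.ker := by
    rw [(MonoidHom.ker_eq_bot_iff _).2 permD_injective, (MonoidHom.ker_eq_bot_iff _).2 hβinj]
  have hA : Nat.card (Equiv.Perm (Fin 8)) = 2 ^ 7 * 315 := by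
    rw [Nat.card_perm, Nat.card_eq_fintype_card, Fintype.card_fin]
    rfl
  have hB : Nat.card ↥(Cfsg.isometryGroup K (Cfsg.quadFormMinus 2 K a b)) = 2 ^ 7 * 405 := by
    rw [CfsgLib.Parabolic.POmegaAut.card_orth_eq (CfsgLib.ClassicalForms.qMinus 2 K a b)
      (CfsgLib.ClassicalForms.qMinus_apply 2 a b)]
    have h := CfsgLib.ClassicalForms.card_orth_qMinus (F := K) (a := a) (b := b) hab 2
    rw [Nat.card_eq_fintype_card (α := K), hK] at h
    norm_num [Finset.prod_range_succ] at h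
    exact_mod_cast h
  have hfac : ∀ m : ℕ, ¬ 2 ∣ m → 0 < m → (2 ^ 7 * m).factorization 2 = 7 := fun m hm h0 => by
    rw [Nat.factorization_mul (by norm_num) h0.ne', Nat.Prime.factorization_pow Nat.prime_two,
      Finsupp.add_apply, Finsupp.single_eq_same, Nat.factorization_eq_zero_of_not_dvd hm]
  refine nonempty_sylow_equiv permD β hker ?_ ?_ P' Q'
  · rw [hA, hfac 315 (by norm_num) (by norm_num),
      ← Nat.card_congr (MonoidHom.ofInjective permD_injective).toEquiv, hW]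
    rfl
  · rw [hB, hfac 405 (by norm_num) (by norm_num),
      ← Nat.card_congr (MonoidHom.ofInjective hβinj).toEquiv, hW]
    rfl

/-- The Sylow 2-subgroups of the alternating group of degree 8 and of PSp₄(3) are isomorphic, and so are the Sylow 2-subgroups of the symmetric group of degree 8 and of the full isometry group of a non-degenerate quadratic form of minus type in dimension 6 over the field with 2 elements. -/
theorem result (F : Type) [Field F] [Fintype F] (hF : Fintype.card F = 3) (K : Type) [Field K] [Fintype K] (hK : Fintype.card K = 2) (a b : K) (hab : ∀ z₁ z₂ : K, z₁ ^ 2 + a * z₁ * z₂ + b * z₂ ^ 2 = 0 → z₁ = 0 ∧ z₂ = 0) (P : Sylow 2 ↥(alternatingGroup (Fin 8))) (Q : Sylow 2 (Cfsg.PSp 2 F)) (P' : Sylow 2 (Equiv.Perm (Fin 8))) (Q' : Sylow 2 ↥(Cfsg.isometryGroup K (Cfsg.quadFormMinus 2 K a b))) : Nonempty (↥(P : Subgroup ↥(alternatingGroup (Fin 8))) ≃* ↥(Q : Subgroup (Cfsg.PSp 2 F))) ∧ Nonempty (↥(P' : Subgroup (Equiv.Perm (Fin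 8))) ≃* ↥(Q' : Subgroup ↥(Cfsg.isometryGroup K (Cfsg.quadFormMinus 2 K a b)))) := by
  exact ⟨alt_psp F hF P Q, sym_orth K hK a b hab P' Q'⟩

end Cfsg.Agent.S2931
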