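import Cfsg.Statements.S2932
import Cfsg.Agent.Lib.BrauerPairs.NaturalOvergroupFour

set_option autoImplicit false
open Cfsg

namespace Cfsg.Agent.S2932

/-- Let p be a prime. Inside a finite ambient group let V be an elementary abelian p-subgroup and G a subgroup normalizing V and acting faithfully on it (G ∩ C(V) = 1), and let L ≤ G act on V as SL₂(F) on its natural module, F a finite field of characteristic p, with L ≅ SL₂(F). If every Sylow p-subgroup of N_G(L) is a Sylow p-subgroup of G, then either L is normal in G, or F has 4 elements and G is isomorphic to the alternating group of degree 7. -/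
theorem result {X : Type*} [Group X] [Finite X] {p : ℕ} [Fact p.Prime] (F : Type) [Field F] [Fintype F] [CharP F p] (V G L : Subgroup X) (hV : Cfsg.IsElementaryAbelian p V) (hGV : G ≤ Subgroup.normalizer (V : Set X)) (hfaith : G ⊓ Subgroup.centralizer (V : Set X) = ⊥) (hLG : L ≤ G) (hnat : Cfsg.IsNaturalSL2Module F V L) (hLiso : Nonempty (↥L ≃* Matrix.SpecialLinearGroup (Fin 2) F)) (hSyl : ∀ S : Sylow p ↥(G ⊓ Subgroup.normalizer (L : Set X)), ∀ P : Sylow p ↥G, Nat.card S = Nat.card P) : (L.subgroupOf G).Normal ∨ (Fintype.card F = 4 ∧ Nonempty (↥G ≃* ↥(alternatingGroup (Fin 7)))) := by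
  classical
  obtain ⟨-, ρ, ψ, hρ, hker, hact⟩ := hnat
  have hmem : ∀ (g : ↥G) (v : ↥V), (g : X) * v * (g : X)⁻¹ ∈ V := fun g v =>
    (Subgroup.mem_normalizer_iff.1 (hGV g.2) _).1 v.2
  let c : ↥G → ↥V → ↥V := fun g v => ⟨_, hmem g v⟩
  have hc1 : ∀ v, c 1 v = v := fun v => Subtype.ext (by simp [c])
  have hcm : ∀ g h v, c (g * h) v = c g (c h v) := fun g h v => Subtype.ext (by simp [c]; group)
  have hcv : ∀ g v w, c g (v * w) = c g v * c g w := fun g v w => Subtype.ext (by simp [c])
  letI act : DistribMulAction ↥G (Fin 2 → F) :=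
    { smul := fun g m => ψ (Additive.ofMul (c g (Additive.toMul (ψ.symm m))))
      one_smul := fun m => by
        show ψ (Additive.ofMul (c 1 (Additive.toMul (ψ.symm m)))) = m
        rw [hc1, ofMul_toMul, AddEquiv.apply_symm_apply]
      mul_smul := fun g h m => by
        show ψ (Additive.ofMul (c (g * h) (Additive.toMul (ψ.symm m)))) =
          ψ (Additive.ofMul (c g (Additive.toMul (ψ.symm (ψ (Additive.ofMul (c h (Additive.toMul (ψ.symm m)))))))))
        rw [AddEquiv.symm_apply_apply, toMul_ofMul, hcm]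
      smul_zero := fun g => by
        show ψ (Additive.ofMul (c g (Additive.toMul (ψ.symm 0)))) = 0
        rw [map_zero, toMul_zero, show c g 1 = 1 from Subtype.ext (by simp [c]), ofMul_one, map_zero]
      smul_add := fun g m n => by
        show ψ (Additive.ofMul (c g (Additive.toMul (ψ.symm (m + n))))) =
          ψ (Additive.ofMul (c g (Additive.toMul (ψ.symm m)))) +
            ψ (Additive.ofMul (c g (Additive.toMul (ψ.symm n))))
        rw [map_add, toMul_add, hcv, ofMul_mul, map_add] }
  haveI : FaithfulSMul ↥G (Fin 2 → F) := by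
    constructor
    intro g h hgh
    have hk : ∀ v : ↥V, c (h⁻¹ * g) v = v := fun v => by
      have e := hgh (ψ (Additive.ofMul v))
      change ψ (Additive.ofMul (c g (Additive.toMul (ψ.symm (ψ (Additive.ofMul v)))))) =
        ψ (Additive.ofMul (c h (Additive.toMul (ψ.symm (ψ (Additive.ofMul v)))))) at e
      rw [AddEquiv.symm_apply_apply, toMul_ofMul] at e
      have e2 : c g v = c h v := Additive.ofMul.injective (ψ.injective e)
      rw [hcm, e2, ← hcm, inv_mul_cancel, hc1]
    have hcen : ((h⁻¹ * g : ↥G) : X) ∈ G ⊓ Subgroup.centralizer (V : Set X) :=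
      ⟨(h⁻¹ * g).2, fun v hv => by
        have e := congrArg Subtype.val (hk ⟨v, hv⟩)
        simp only [c] at e
        exact (mul_inv_eq_iff_eq_mul.1 e).symm⟩
    rw [hfaith, Subgroup.mem_bot] at hcen
    exact (inv_mul_eq_one.1 (Subtype.ext hcen : h⁻¹ * g = 1)).symm
  have hρinj : Function.Injective ρ := by
    rw [← MonoidHom.ker_eq_bot_iff, hker, Subgroup.eq_bot_iff_forall]
    intro l hl
    have : (l : X) ∈ G ⊓ Subgroup.centralizer (V : Set X) := ⟨hLG l.2, hl⟩
    rw [hfaith, Subgroup.mem_bot] at this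
    exact Subtype.ext this
  let e := MulEquiv.ofBijective ρ ⟨hρinj, hρ⟩
  let j : Matrix.SpecialLinearGroup (Fin 2) F →* ↥G :=
    (Subgroup.inclusion hLG).comp e.symm.toMonoidHom
  have hjr : j.range = L.subgroupOf G := by
    ext g
    constructor
    · rintro ⟨A, rfl⟩; exact (e.symm A).2
    · intro hg
      exact ⟨ρ ⟨g, hg⟩, Subtype.ext (congrArg (fun l : ↥L => (l : X)) (e.symm_apply_apply ⟨(g : X), hg⟩))⟩
  have hsyl : ∃ P : Sylow p ↥G, (P : Subgroup ↥G) ≤ Subgroup.normalizer (j.range : Set ↥G) := by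
    obtain ⟨S⟩ : Nonempty (Sylow p ↥(G ⊓ Subgroup.normalizer (L : Set X))) := inferInstance
    set N := G ⊓ Subgroup.normalizer (L : Set X) with hN
    let ι : ↥N →* ↥G := Subgroup.inclusion inf_le_left
    obtain ⟨P, hP⟩ := (S.isPGroup'.map ι).exists_le_sylow
    refine ⟨P, ?_⟩
    have hinj : Function.Injective ι := Subgroup.inclusion_injective inf_le_left
    have heq : (S : Subgroup ↥N).map ι = (P : Subgroup ↥G) := by
      refine Subgroup.eq_of_le_of_card_ge hP ?_
      rw [Subgroup.card_map_of_injective hinj]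
      exact (hSyl S P).ge
    rw [← heq, hjr]
    rintro _ ⟨s, -, rfl⟩
    rw [Subgroup.mem_normalizer_iff]
    intro x
    show (x : X) ∈ L ↔ ((ι s * x * (ι s)⁻¹ : ↥G) : X) ∈ L
    exact Subgroup.mem_normalizer_iff.1 s.2.2 _
  let D : CfsgLib.BrauerPairs.NatOvergroup.Setting p F ↥G :=
    { j := j
      smul_eq := fun A v => by
        obtain ⟨w, hw1, hw2⟩ := hact (e.symm A) (Additive.toMul (ψ.symm v))
        show ψ (Additive.ofMul (c (j A) (Additive.toMul (ψ.symm v)))) = _
        have hw : c (j A) (Additive.toMul (ψ.symm v)) = w := Subtype.ext hw1.symm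
        rw [hw, hw2, ofMul_toMul, AddEquiv.apply_symm_apply,
          show ρ (e.symm A) = A from e.apply_symm_apply A]
      sylow := hsyl }
  rcases D.normal_or_alt with h | ⟨h4, h7⟩
  · left
    rw [← hjr]
    exact h
  · right
    exact ⟨by rw [← Nat.card_eq_fintype_card]; exact h4, h7⟩

end Cfsg.Agent.S2932
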