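import Cfsg.Statements.S2939
import Cfsg.Agent.Lib.StronglyPEmbedded.SylowControl
import Mathlib
-- import your own Cfsg.Agent.* helpers here

set_option autoImplicit false
open Cfsg

namespace Cfsg.Agent.S2939

/-- Let p be a prime dividing the order of the finite group G and 𝓕 a family of subgroups of G closed under conjugation, with conjugates taken as X^g = g⁻¹Xg. Then 𝓕 controls Sylow p-intersections in G (any two distinct Sylow p-subgroups S and T with S ∩ T ≠ 1 are joined by a chain S = S₀, S₁, …, Sₙ = T of Sylow p-subgroups where, for each i, some member Xᵢ of 𝓕 meets both S_{i-1} and Sᵢ in Sylow p-subgroups of Xᵢ, satisfies S ∩ T ≤ Sᵢ ∩ Xᵢ, and contains an element xᵢ with Sᵢ^{xᵢ} = S_{i-1}) if and only if 𝓕 strongly controls p-fusion in G (whenever A is a subset of a Sylow p-subgroup S, A contains an element other than 1, and A^g ⊆ S, the element g factorises as g = y₁⋯yₙy with y ∈ N_G(S) and each yᵢ in a member Yᵢ of 𝓕 that meets S in a Sylow p-subgroup of Yᵢ, with A^{y₁⋯yᵢ} ⊆ S ∩ Yᵢ for each i). -/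
theorem result {G : Type*} [Group G] [Finite G] {p : ℕ} [Fact p.Prime] (hdiv : p ∣ Nat.card G) (𝓕 : Set (Subgroup G)) (h𝓕 : Cfsg.IsNormalSet 𝓕) : Cfsg.ControlsSylowIntersections p 𝓕 ↔ Cfsg.FamilyStronglyControlsFusion p 𝓕 := by
  open CfsgLib.StronglyPEmbedded in
  rw [controls_iff]
  constructor
  · intro h S A g hA ⟨a₀, ha₀, ha₀1⟩ hAg
    set T : Sylow p G := g • S with hT
    have hAT : A ⊆ (T : Set G) := fun a ha => mem_smul_sylow.2 (hAg ⟨a, ha, rfl⟩)
    have hAD : ∀ a ∈ A, a ∈ (S : Subgroup G) ⊓ (T : Subgroup G) := fun a ha => ⟨hA ha, hAT ha⟩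
    have hD : (S : Subgroup G) ⊓ (T : Subgroup G) ≠ ⊥ := fun h0 =>
      ha₀1 (by simpa [h0] using hAD a₀ ha₀)
    have hrefl : Relation.ReflTransGen
        (CtrlStep p 𝓕 ((S : Subgroup G) ⊓ (T : Subgroup G))) S T := by
      by_cases hne : S = T
      · rw [← hne]
      · exact h S T hne hD
    have key : ∀ B, Relation.ReflTransGen (CtrlStep p 𝓕 ((S : Subgroup G) ⊓ (T : Subgroup G))) S B →
        ∃ (n : ℕ) (Y : Fin n → Subgroup G) (y : Fin n → G),
          (∀ i : Fin n, Y i ∈ Cfsg.sylowMembers p 𝓕 (S : Subgroup G) ∧ y i ∈ Y i) ∧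
          (∀ i : Fin n, Cfsg.conjRight (((List.ofFn y).take (i.val + 1)).prod) A ⊆
            (S : Set G) ∩ (Y i : Set G)) ∧ B = (List.ofFn y).prod • S := by
      intro B hB
      induction hB with
      | refl => exact ⟨0, Fin.elim0, Fin.elim0, fun i => i.elim0, fun i => i.elim0, by simp⟩
      | @tail P B _ hs ih =>
        obtain ⟨n, Y, y, hY, hpre, hP⟩ := ih
        obtain ⟨X, x, h1, -, h3, h4, h5⟩ := hs
        set w := (List.ofFn y).prod with hw
        have hofn : List.ofFn (Fin.snoc y (w⁻¹ * x * w) : Fin (n + 1) → G) =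
            List.ofFn y ++ [w⁻¹ * x * w] := by
          rw [List.ofFn_succ', List.concat_eq_append]
          simp
        refine ⟨n + 1, Fin.snoc Y (X.map (MulAut.conj w⁻¹).toMonoidHom), Fin.snoc y (w⁻¹ * x * w),
          fun i => ?_, fun i => ?_, ?_⟩
        · induction i using Fin.lastCases with
          | last =>
            simp only [Fin.snoc_last]
            refine ⟨?_, ⟨x, h3, by simp [mul_assoc]⟩⟩
            have := sylowMembers_conj h𝓕 h1 w⁻¹
            rwa [hP, inv_smul_smul] at this
          | cast i => simp only [Fin.snoc_castSucc]; exact hY i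
        · induction i using Fin.lastCases with
          | last =>
            rw [hofn, List.take_of_length_le (by simp), List.prod_append, List.prod_singleton,
              ← hw, show w * (w⁻¹ * x * w) = x * w by group]
            rintro _ ⟨a, ha, rfl⟩
            have haB := h5 (hAD a ha)
            refine ⟨?_, ?_⟩
            · have h6 := haB.1
              rw [h4, hP, ← mul_smul] at h6
              exact mem_smul_sylow.1 h6
            · simp only [Fin.snoc_last]
              refine ⟨x⁻¹ * a * x, mul_mem (mul_mem (inv_mem h3) haB.2) h3, ?_⟩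
              simp [mul_assoc]
          | cast i =>
            rw [hofn, List.take_append_of_le_length (by simp)]
            simp only [Fin.snoc_castSucc]
            exact hpre i
        · rw [hofn, List.prod_append, List.prod_singleton, ← hw,
            show w * (w⁻¹ * x * w) = x * w by group, mul_smul, ← hP]
          exact h4
    obtain ⟨n, Y, y, hY, hpre, hTy⟩ := key T hrefl
    refine ⟨n, Y, y, (List.ofFn y).prod⁻¹ * g, ?_, hY, by rw [mul_inv_cancel_left], hpre⟩
    exact Sylow.smul_eq_iff_mem_normalizer.1 (by rw [mul_smul, ← hT, hTy, inv_smul_smul])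
  · intro h S T hne hD
    obtain ⟨g, hg⟩ := MulAction.exists_smul_eq G S T
    set A : Set G := (((S : Subgroup G) ⊓ (T : Subgroup G) : Subgroup G) : Set G) with hA
    obtain ⟨a, ha, ha1⟩ := ((S : Subgroup G) ⊓ (T : Subgroup G)).ne_bot_iff_exists_ne_one.1 hD |>
      fun ⟨⟨a, ha⟩, ha1⟩ => (⟨a, ha, fun h => ha1 (Subtype.ext h)⟩ : ∃ a, a ∈ A ∧ a ≠ 1)
    obtain ⟨n, Y, y, y₀, hy₀, hY, hgy, hpre⟩ := h S A g (fun x hx => hx.1) ⟨a, ha, ha1⟩ (by
      rintro _ ⟨x, hx, rfl⟩
      have := hx.2
      rw [← hg] at this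
      exact mem_smul_sylow.1 this)
    have key : ∀ i : ℕ, i ≤ n → Relation.ReflTransGen
        (CtrlStep p 𝓕 ((S : Subgroup G) ⊓ (T : Subgroup G))) S
        (((List.ofFn y).take i).prod • S) := by
      intro i
      induction i with
      | zero => intro; simp; exact .refl
      | succ i ih =>
        intro hi
        have hlen : i < (List.ofFn y).length := by simpa using hi
        have hpre' := hpre ⟨i, hi⟩
        rw [List.prod_take_succ _ i hlen] at hpre' ⊢
        set w := ((List.ofFn y).take i).prod with hw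
        rw [List.getElem_ofFn] at hpre' ⊢
        set j : Fin n := ⟨i, hi⟩ with hj
        obtain ⟨hY1, hy1⟩ := hY j
        refine (ih (by omega)).tail ⟨(Y j).map (MulAut.conj w).toMonoidHom, w * y j * w⁻¹,
          sylowMembers_conj h𝓕 hY1 w, ?_, ⟨_, hy1, rfl⟩, ?_, ?_⟩
        · have h2 := sylowMembers_conj h𝓕 (sylowMembers_conj h𝓕 hY1 (y j)) w
          rw [← mul_smul] at h2
          rwa [CfsgLib.StronglyPEmbedded.map_conj_eq_of_mem_normalizer
            (Subgroup.le_normalizer hy1)] at h2
        · rw [← mul_smul]; congr 1; group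
        · intro x hx
          obtain ⟨hxS, hxY⟩ := hpre' ⟨x, hx, rfl⟩
          refine ⟨mem_smul_sylow.2 hxS, ⟨y j * ((w * y j)⁻¹ * x * (w * y j)) * (y j)⁻¹,
            mul_mem (mul_mem hy1 hxY) (inv_mem hy1), ?_⟩⟩
          simp [mul_assoc]
    have := key n le_rfl
    rw [List.take_of_length_le (by simp)] at this
    have hT : T = (List.ofFn y).prod • S := by
      rw [← hg, hgy, mul_smul, Sylow.smul_eq_iff_mem_normalizer.2 hy₀]
    rw [← hT] at this
    exact this

end Cfsg.Agent.S2939
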