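import Cfsg.Statements.S2940
import Mathlib
-- import your own Cfsg.Agent.* helpers here

set_option autoImplicit false
open Cfsg

namespace Cfsg.Agent.S2940

/-- Let S be a Sylow p-subgroup of the finite group G and G₁, G₂ subgroups containing S with G = G₁G₂. Then for every g ∈ G there is a Sylow p-subgroup U of G with S ∩ S^g ≤ U ≤ G₁ ∩ G₂^g (conjugates taken as X^g = g⁻¹Xg). -/
theorem result {G : Type*} [Group G] [Finite G] {p : ℕ} [Fact p.Prime] (S : Sylow p G) (G₁ G₂ : Subgroup G) (h1 : (S : Subgroup G) ≤ G₁) (h2 : (S : Subgroup G) ≤ G₂) (hfact : ∀ g : G, ∃ g₁ ∈ G₁, ∃ g₂ ∈ G₂, g = g₁ * g₂) (g : G) : ∃ U : Sylow p G, (S : Subgroup G) ⊓ Cfsg.subgroupConjRight g (S : Subgroup G) ≤ (U : Subgroup G) ∧ (U : Subgroup G) ≤ G₁ ⊓ Cfsg.subgroupConjRight g G₂ := by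
  set G₂' := Cfsg.subgroupConjRight g G₂ with hG2
  set H := G₁ ⊓ G₂' with hH
  have hconj : ∀ K : Subgroup G, Nat.card ↥(Cfsg.subgroupConjRight g K) = Nat.card ↥K := fun K =>
    (Nat.card_congr (Subgroup.equivMapOfInjective K _ (MulAut.conj g⁻¹).injective).toEquiv).symm
  have hg2 : ∀ x : G, g * x * g⁻¹ ∈ G₂ → x ∈ G₂' := fun x hx =>
    ⟨_, hx, by simp [mul_assoc]⟩
  have hsurj : ∀ y : G, ∃ a ∈ G₁, ∃ b ∈ G₂', y = a * b := by
    intro y
    obtain ⟨g₁, hg₁, g₂, hg₂, hy⟩ := hfact g⁻¹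
    obtain ⟨a, ha, b, hb, hab⟩ := hfact (y * g₁)
    refine ⟨a * g₁⁻¹, mul_mem ha (inv_mem hg₁), g₁ * b * g₁⁻¹, hg2 _ ?_, ?_⟩
    · rw [show g = g₂⁻¹ * g₁⁻¹ by rw [← mul_inv_rev, ← hy, inv_inv]]
      rw [show g₂⁻¹ * g₁⁻¹ * (g₁ * b * g₁⁻¹) * (g₂⁻¹ * g₁⁻¹)⁻¹ = g₂⁻¹ * b * g₂ by group]
      exact mul_mem (mul_mem (inv_mem hg₂) hb) hg₂
    · rw [show y = a * b * g₁⁻¹ by rw [← hab, mul_inv_cancel_right]]
      group
  have hrel : G₂'.relIndex G₁ = G₂'.index := by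
    haveI : MulAction.IsPretransitive ↥G₁ (G ⧸ G₂') := by
      refine ⟨fun u v => ?_⟩
      obtain ⟨y, rfl⟩ := QuotientGroup.mk_surjective u
      obtain ⟨z, rfl⟩ := QuotientGroup.mk_surjective v
      obtain ⟨a, ha, b, hb, rfl⟩ := hsurj y
      obtain ⟨a', ha', b', hb', rfl⟩ := hsurj z
      refine ⟨⟨a' * a⁻¹, mul_mem ha' (inv_mem ha)⟩, QuotientGroup.eq.2 ?_⟩
      show ((a' * a⁻¹) * (a * b))⁻¹ * (a' * b') ∈ G₂'
      rw [show ((a' * a⁻¹) * (a * b))⁻¹ * (a' * b') = b⁻¹ * b' by group]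
      exact mul_mem (inv_mem hb) hb'
    have hst : MulAction.stabilizer ↥G₁ ((1 : G) : G ⧸ G₂') = G₂'.subgroupOf G₁ := by
      ext a
      rw [MulAction.mem_stabilizer_iff, Subgroup.mem_subgroupOf]
      constructor
      · intro h
        have := QuotientGroup.eq.1 h
        simpa using inv_mem this
      · intro h
        refine QuotientGroup.eq.2 ?_
        simpa using inv_mem h
    unfold Subgroup.relIndex
    rw [← hst, MulAction.index_stabilizer_of_transitive, Subgroup.index_eq_card]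
  have hS2 : Cfsg.subgroupConjRight g (S : Subgroup G) ≤ G₂' := Subgroup.map_mono h2
  have hnd : ∀ K : Subgroup G, Nat.card ↥K = Nat.card ↥(S : Subgroup G) → ∀ L, K ≤ L → ¬ p ∣ L.index := by
    intro K hK L hKL hdvd
    have : K.index = (S : Subgroup G).index := by
      have h1 := K.card_mul_index
      have h2 := (S : Subgroup G).card_mul_index
      rw [hK, ← h2] at h1
      exact Nat.eq_of_mul_eq_mul_left Nat.card_pos h1
    exact S.not_dvd_index (this ▸ hdvd.trans (Subgroup.index_dvd_of_le hKL))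
  have hHidx : ¬ p ∣ H.index := by
    have : H.relIndex G₁ * G₁.index = H.index := Subgroup.relIndex_mul_index inf_le_left
    rw [← this, hH, Subgroup.inf_relIndex_left, hrel]
    exact (Fact.out : p.Prime).not_dvd_mul (hnd _ (hconj _) _ hS2) (hnd _ rfl _ h1)
  have hle : (S : Subgroup G) ⊓ Cfsg.subgroupConjRight g (S : Subgroup G) ≤ H :=
    le_inf (inf_le_left.trans h1) (inf_le_right.trans hS2)
  obtain ⟨U₀, hU₀⟩ := ((S.isPGroup'.to_le inf_le_left :
    IsPGroup p ↥((S : Subgroup G) ⊓ Cfsg.subgroupConjRight g (S : Subgroup G))).comap_subtype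
    (K := H)).exists_le_sylow
  have hUidx : ¬ p ∣ ((U₀ : Subgroup ↥H).map H.subtype).index := by
    rw [Subgroup.index_map_subtype]
    exact (Fact.out : p.Prime).not_dvd_mul U₀.not_dvd_index hHidx
  refine ⟨(U₀.isPGroup'.map H.subtype).toSylow hUidx, ?_, ?_⟩
  · intro x hx
    exact ⟨⟨x, hle hx⟩, hU₀ hx, rfl⟩
  · exact Subgroup.map_subtype_le _

end Cfsg.Agent.S2940
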