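import Cfsg.Statements.S2955
import Cfsg.Agent.Lib.StronglyPEmbedded.SylowControl
import Mathlib
-- import your own Cfsg.Agent.* helpers here

set_option autoImplicit false
open Cfsg

namespace Cfsg.Agent.S2955

/-- Let p be a prime dividing the order of the finite group G and 𝓕 a conjugation-closed family of subgroups that controls Sylow p-intersections in G. Suppose the Sylow p-subgroups of G are chain-connected: any two of them are joined by a chain of Sylow p-subgroups, consecutive ones distinct with nontrivial intersection, all containing the intersection of the two ends (equivalently, the graph on the Sylow p-subgroups whose edges are the distinct pairs meeting nontrivially is connected). Then for every Sylow p-subgroup S, G is generated by N_G(S) together with the members of 𝓕 that meet S in a Sylow p-subgroup of themselves. -/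
theorem result {G : Type*} [Group G] [Finite G] (p : ℕ) [Fact p.Prime] (hdiv : p ∣ Nat.card G)
    (𝓕 : Set (Subgroup G)) (h𝓕 : Cfsg.IsNormalSet 𝓕) (hc : Cfsg.ControlsSylowIntersections p 𝓕)
    (hconn : Cfsg.IsSylowChainConnected p G) (S : Sylow p G) :
    (⨆ X ∈ Cfsg.sylowMembers p 𝓕 (S : Subgroup G), X) ⊔ Subgroup.normalizer ((S : Subgroup G) : Set G) = ⊤ := by
  open CfsgLib.StronglyPEmbedded in
  classical
  set U : Subgroup G := (⨆ X ∈ Cfsg.sylowMembers p 𝓕 (S : Subgroup G), X) ⊔
    Subgroup.normalizer ((S : Subgroup G) : Set G) with hU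
  rw [controls_iff] at hc
  have hstep : ∀ (D : Subgroup G) (A B : Sylow p G), (∃ u ∈ U, A = u • S) →
      Relation.ReflTransGen (CtrlStep p 𝓕 D) A B → ∃ u ∈ U, B = u • S := by
    intro D A B hA hAB
    induction hAB with
    | refl => exact hA
    | @tail P B _ hs ih =>
      obtain ⟨u, hu, hP⟩ := ih
      obtain ⟨X, x, h1, -, h3, h4, -⟩ := hs
      have h6 := sylowMembers_conj h𝓕 h1 u⁻¹
      rw [hP, inv_smul_smul] at h6
      have hxU : u⁻¹ * x * u ∈ U :=
        Subgroup.mem_sup_left (le_iSup₂ (f := fun X (_ : X ∈ Cfsg.sylowMembers p 𝓕 (S : Subgroup G)) => X)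
          (X.map (MulAut.conj u⁻¹).toMonoidHom) h6 ⟨x, h3, by simp [mul_assoc]⟩)
      refine ⟨x * u, ?_, by rw [h4, hP, mul_smul]⟩
      have := mul_mem hu hxU
      simpa [mul_assoc] using this
  have hall : ∀ T : Sylow p G, ∃ u ∈ U, T = u • S := by
    intro T
    obtain ⟨n, c, h0, hn, -, hadj⟩ := hconn S T
    suffices ∀ i : Fin (n + 1), ∃ u ∈ U, c i = u • S by simpa [hn] using this (Fin.last n)
    intro i
    induction i using Fin.induction with
    | zero => exact ⟨1, one_mem _, by simp [h0]⟩
    | succ i ih => exact hstep _ _ _ ih (hc _ _ (hadj i).1 (hadj i).2)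
  refine top_le_iff.1 fun g _ => ?_
  obtain ⟨u, hu, hgu⟩ := hall (g • S)
  have hmem : u⁻¹ * g ∈ Subgroup.normalizer ((S : Subgroup G) : Set G) := by
    exact Sylow.smul_eq_iff_mem_normalizer.1 (by rw [mul_smul, hgu, inv_smul_smul])
  have := mul_mem hu (Subgroup.mem_sup_right (S := ⨆ X ∈ Cfsg.sylowMembers p 𝓕 (S : Subgroup G), X) hmem)
  simpa using this

end Cfsg.Agent.S2955
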