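import Cfsg.Statements.S2956
import Cfsg.Agent.Lib.StronglyPEmbedded.SylowControl
import Mathlib
-- import your own Cfsg.Agent.* helpers here

set_option autoImplicit false
open Cfsg

namespace Cfsg.Agent.S2956

open CfsgLib.StronglyPEmbedded in
/-- A `p`-subgroup properly contained in a Sylow subgroup is properly contained in the intersection
with its normalizer. -/
lemma lt_inf_normalizer {G : Type*} [Group G] [Finite G] {p : ℕ} [Fact p.Prime] (S : Sylow p G)
    {D : Subgroup G} (h : D < (S : Subgroup G)) :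
    D < (S : Subgroup G) ⊓ Subgroup.normalizer (D : Set G) := by
  refine lt_of_le_of_ne (le_inf h.le Subgroup.le_normalizer) fun heq => ?_
  have hlt : D.subgroupOf (S : Subgroup G) < ⊤ :=
    lt_top_iff_ne_top.2 fun h0 => h.not_ge (Subgroup.subgroupOf_eq_top.1 h0)
  haveI : Group.IsNilpotent ↥(S : Subgroup G) := S.isPGroup'.isNilpotent
  obtain ⟨t, ht, htD⟩ := SetLike.exists_of_lt (Group.normalizerCondition_of_isNilpotent _ hlt)
  refine htD ?_
  show (t : G) ∈ D
  rw [heq]
  exact Subgroup.mem_inf.2 ⟨t.2, mem_normalizer_of_conj_le fun d hd =>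
    (Subgroup.mem_normalizer_iff.1 ht ⟨d, h.le hd⟩).1 hd⟩

open CfsgLib.StronglyPEmbedded in
/-- A Sylow subgroup of `G` containing a Sylow subgroup `U` of `M` meets `M` in `U`. -/
lemma subgroupOf_eq_of_le {G : Type*} [Group G] {p : ℕ} (S : Sylow p G) {M : Subgroup G}
    (U : Sylow p ↥M) (h : (U : Subgroup ↥M).map M.subtype ≤ S) :
    (S : Subgroup G).subgroupOf M = U :=
  U.is_maximal' S.isPGroup'.comap_subtype fun x hx => h ⟨x, hx, rfl⟩

/-- Let p be a prime dividing the order of the finite group G, and f an assignment to every p-subgroup P of a set f(P) of subgroups of P, each normalized by N_G(P), compatible with conjugation, such that for P ≠ 1 the members of f(P) are nontrivial. Let 𝓕 be the family of the normalizers N_G(F) of the members F of f(S) over the Sylow p-subgroups S of G, and 𝓕' the family of the maximal p-local subgroups M of G that are singular for f (the corresponding family of normalizers inside M does not control Sylow p-intersections in M). Then 𝓕 ∪ 𝓕' controls Sylow p-intersections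 in G. -/
theorem result {G : Type*} [Group G] [Finite G] (p : ℕ) [Fact p.Prime] (hdiv : p ∣ Nat.card G)
    (f : Subgroup G → Set (Subgroup G)) (hf : Cfsg.IsNormalizerFunctor p f)
    (hf1 : ∀ P : Subgroup G, IsPGroup p ↥P → P ≠ ⊥ → ∀ F ∈ f P, F ≠ ⊥)
    (𝓕 𝓕' : Set (Subgroup G)) (h𝓕 : 𝓕 = Cfsg.functorFamily p f ⊤)
    (h𝓕' : 𝓕' = {M | Cfsg.IsMaximalPLocal p M ∧ ¬ Cfsg.IsFunctorRegular p f M}) :
    Cfsg.ControlsSylowIntersections p (𝓕 ∪ 𝓕') := by
  classical
  open CfsgLib.StronglyPEmbedded in
  rw [controls_iff]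
  have hp : p.Prime := Fact.out
  intro S T hne hbot
  suffices H : ∀ m : ℕ, ∀ A B : Sylow p G,
      Nat.card G ≤ Nat.card ↥((A : Subgroup G) ⊓ (B : Subgroup G)) + m →
      (A : Subgroup G) ⊓ (B : Subgroup G) ≠ ⊥ →
      Relation.ReflTransGen (CtrlStep p (𝓕 ∪ 𝓕') ((A : Subgroup G) ⊓ (B : Subgroup G))) A B from
    H (Nat.card G) S T (Nat.le_add_left _ _) hbot
  intro m
  induction m using Nat.strong_induction_on with
  | _ m ih =>
  intro A B hm hD0
  by_cases hAB : A = B
  · rw [← hAB]
  set D := (A : Subgroup G) ⊓ (B : Subgroup G) with hD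
  have hDp : IsPGroup p ↥D := A.isPGroup'.to_le inf_le_left
  have hstepmono : ∀ (E : Subgroup G), D ≤ E → ∀ a b : Sylow p G,
      CtrlStep p (𝓕 ∪ 𝓕') E a b → CtrlStep p (𝓕 ∪ 𝓕') D a b :=
    fun E hE a b => ctrlStep_mono hE
  have big : ∀ (a b : Sylow p G) (E : Subgroup G), D < E → E ≤ (a : Subgroup G) → E ≤ (b : Subgroup G) →
      Relation.ReflTransGen (CtrlStep p (𝓕 ∪ 𝓕') D) a b := by
    intro a b E hDE hEa hEb
    have hcard : Nat.card ↥D < Nat.card ↥E := by
      by_contra! hle
      exact hDE.ne (Subgroup.eq_of_le_of_card_ge hDE.le hle)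
    have hle := Subgroup.card_le_of_le (show E ≤ (a : Subgroup G) ⊓ (b : Subgroup G) from le_inf hEa hEb)
    have hG : Nat.card ↥E ≤ Nat.card G := Nat.le_of_dvd Nat.card_pos E.card_subgroup_dvd_card
    have hne0 : (a : Subgroup G) ⊓ (b : Subgroup G) ≠ ⊥ := fun h0 =>
      hD0 (le_bot_iff.1 (hDE.le.trans ((le_inf hEa hEb).trans h0.le)))
    exact Relation.ReflTransGen.mono (hstepmono _ (hDE.le.trans (le_inf hEa hEb))) _ _
      (ih (Nat.card G - Nat.card ↥((a : Subgroup G) ⊓ (b : Subgroup G))) (by omega) a b (by omega) hne0)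
  -- `p`-locals meeting both ends above `D`
  have claim : ∀ n : ℕ, ∀ K : Subgroup G, Cfsg.IsPLocal p K →
      Nat.card G ≤ p ^ (Nat.card ↥K).factorization p + n →
      ∀ a b : Sylow p G, D < (a : Subgroup G) ⊓ K → D < (b : Subgroup G) ⊓ K →
        Relation.ReflTransGen (CtrlStep p (𝓕 ∪ 𝓕') D) a b := by
    intro n
    induction n using Nat.strong_induction_on with
    | _ n ihn =>
    intro K hK hn a b ha hb
    obtain ⟨M, hKM, hMmax⟩ := Finite.exists_le_maximal (p := fun L : Subgroup G => Cfsg.IsPLocal p L) hK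
    have hMm : Cfsg.IsMaximalPLocal p M :=
      ⟨hMmax.1, fun N hN hle => le_antisymm (hMmax.2 hN hle) hle⟩
    have hext : ∀ c : Sylow p G, ∃ (U : Sylow p ↥M) (c' : Sylow p G),
        (c : Subgroup G) ⊓ K ≤ (U : Subgroup ↥M).map M.subtype ∧
        (U : Subgroup ↥M).map M.subtype ≤ (c' : Subgroup G) := by
      intro c
      have hp' : IsPGroup p ↥(((c : Subgroup G) ⊓ K).subgroupOf M) :=
        (c.isPGroup'.to_le inf_le_left).comap_subtype
      obtain ⟨U, hU⟩ := hp'.exists_le_sylow
      obtain ⟨c', hc'⟩ := (U.isPGroup'.map M.subtype).exists_le_sylow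
      exact ⟨U, c', fun x hx => ⟨⟨x, hKM hx.2⟩, hU hx, rfl⟩, hc'⟩
    obtain ⟨Ua, a', haU, hUa'⟩ := hext a
    obtain ⟨Ub, b', hbU, hUb'⟩ := hext b
    have hDa : D < (Ua : Subgroup ↥M).map M.subtype := ha.trans_le haU
    have hDb : D < (Ub : Subgroup ↥M).map M.subtype := hb.trans_le hbU
    refine ((big a a' _ ha inf_le_left (haU.trans hUa')).trans ?_).trans
      (big b' b _ hb (hbU.trans hUb') inf_le_left)
    by_cases hreg : Cfsg.IsFunctorRegular p f M
    · -- regular maximal local
      by_cases hU : Ua = Ub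
      · exact big a' b' _ hDa hUa' (hU ▸ hUb')
      unfold Cfsg.IsFunctorRegular at hreg
      rw [controls_iff] at hreg
      have hbotM : (Ua : Subgroup ↥M) ⊓ (Ub : Subgroup ↥M) ≠ ⊥ := by
        intro h0
        have hle : D ≤ ((Ua : Subgroup ↥M) ⊓ (Ub : Subgroup ↥M)).map M.subtype := by
          rw [Subgroup.map_inf _ _ _ M.subtype_injective]
          exact le_inf hDa.le hDb.le
        rw [h0, Subgroup.map_bot] at hle
        exact hD0 (le_bot_iff.1 hle)
      have hc := hreg Ua Ub hU hbotM
      suffices H2 : ∀ C : Sylow p ↥M, Relation.ReflTransGen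
          (CtrlStep p ((fun X : Subgroup G => X.subgroupOf M) '' Cfsg.functorFamily p f M)
            ((Ua : Subgroup ↥M) ⊓ (Ub : Subgroup ↥M))) Ua C →
          D < (C : Subgroup ↥M).map M.subtype ∧ ∀ c : Sylow p G,
            (C : Subgroup ↥M).map M.subtype ≤ (c : Subgroup G) →
            Relation.ReflTransGen (CtrlStep p (𝓕 ∪ 𝓕') D) a' c from
        (H2 Ub hc).2 b' hUb'
      intro C hC
      induction hC with
      | refl => exact ⟨hDa, fun c hc => big a' c _ hDa hUa' hc⟩
      | @tail C C' _ hs ihC =>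
        obtain ⟨hDC, hCl⟩ := ihC
        obtain ⟨X', x, h1, h2, h3, h4, h5⟩ := hs
        obtain ⟨⟨X, ⟨P, F, hF, rfl⟩, rfl⟩, h1'⟩ := mem_sylowMembers_iff.1 h1
        have hPp : IsPGroup p ↥((P : Subgroup ↥M).map M.subtype) := P.isPGroup'.map _
        obtain ⟨hFP, hNP⟩ := (hf _ hPp).1 F hF
        have hPn : (P : Subgroup ↥M) ≤ (M ⊓ Subgroup.normalizer (F : Set G)).subgroupOf M :=
          fun q hq => ⟨q.2, hNP (Subgroup.le_normalizer ⟨q, hq, rfl⟩)⟩
        have hCX := sylow_le_of_not_dvd_relIndex hPn h1'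
        have hC'X := sylow_le_of_not_dvd_relIndex hPn (mem_sylowMembers_iff.1 h2).2
        have hcardC : ∀ E : Sylow p ↥M, Nat.card ↥((E : Subgroup ↥M).map M.subtype) =
            p ^ (Nat.card ↥M).factorization p := fun E => by
          rw [← E.card_eq_multiplicity]
          exact (Nat.card_congr (Subgroup.equivMapOfInjective _ _ M.subtype_injective).toEquiv).symm
        have hDC' : D < (C' : Subgroup ↥M).map M.subtype := by
          refine lt_of_le_of_ne ?_ fun h0 => ?_
          · refine le_trans ?_ (Subgroup.map_mono (h5.trans inf_le_left))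
            rw [Subgroup.map_inf _ _ _ M.subtype_injective]
            exact le_inf hDa.le hDb.le
          · have := hcardC C'
            rw [← h0, ← hcardC C] at this
            exact hDC.ne (Subgroup.eq_of_le_of_card_ge hDC.le this.ge)
        refine ⟨hDC', fun c' hc' => ?_⟩
        by_cases hMi : p ∣ M.index
        · -- go to a bigger local
          obtain ⟨c, hcC⟩ := (C.isPGroup'.map M.subtype).exists_le_sylow
          obtain ⟨e, he⟩ := hPp.exists_le_sylow
          have hPlt : (P : Subgroup ↥M).map M.subtype < (e : Subgroup G) := by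
            refine lt_of_le_of_ne he fun h0 => e.not_dvd_index (h0 ▸ ?_)
            rw [Subgroup.index_map_subtype]
            exact dvd_mul_of_dvd_right hMi _
          have hPne : (P : Subgroup ↥M).map M.subtype ≠ ⊥ := by
            intro h0
            have h1c := hcardC C
            have h2c := hcardC P
            rw [h0, Subgroup.card_bot, ← h1c] at h2c
            rw [(Subgroup.card_eq_one).1 h2c.symm] at hDC
            exact hD0 (le_bot_iff.1 hDC.le)
          have hK' : Cfsg.IsPLocal p (Subgroup.normalizer (F : Set G)) :=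
            ⟨F, hPp.to_le hFP, hf1 _ hPp hPne F hF, rfl⟩
          have hlt : p ^ (Nat.card ↥K).factorization p <
              p ^ (Nat.card ↥(Subgroup.normalizer (F : Set G))).factorization p := by
            have h7 := lt_inf_normalizer e hPlt
            have h8 : Nat.card ↥((P : Subgroup ↥M).map M.subtype) <
                Nat.card ↥((e : Subgroup G) ⊓ Subgroup.normalizer (((P : Subgroup ↥M).map M.subtype : Subgroup G) : Set G)) := by
              by_contra! hle
              exact h7.ne (Subgroup.eq_of_le_of_card_ge h7.le hle)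
            rw [hcardC P] at h8
            refine lt_of_le_of_lt ?_ (lt_of_lt_of_le h8 ?_)
            · refine Nat.pow_le_pow_right hp.pos ?_
              exact (hp.pow_dvd_iff_le_factorization Nat.card_pos.ne').1
                ((Nat.ordProj_dvd (Nat.card ↥K) p).trans (Subgroup.card_dvd_of_le hKM))
            · obtain ⟨k, hk⟩ := IsPGroup.iff_card.1 (e.isPGroup'.to_le inf_le_left :
                IsPGroup p ↥((e : Subgroup G) ⊓ Subgroup.normalizer (((P : Subgroup ↥M).map M.subtype : Subgroup G) : Set G)))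
              rw [hk]
              refine Nat.pow_le_pow_right hp.pos ((hp.pow_dvd_iff_le_factorization Nat.card_pos.ne').1 ?_)
              rw [← hk]
              exact Subgroup.card_dvd_of_le (inf_le_right.trans hNP)
          have hNle : p ^ (Nat.card ↥(Subgroup.normalizer (F : Set G))).factorization p ≤ Nat.card G :=
            (Nat.le_of_dvd Nat.card_pos (Nat.ordProj_dvd _ _)).trans
              (Nat.le_of_dvd Nat.card_pos (Subgroup.card_subgroup_dvd_card _))
          refine (hCl c hcC).trans (ihn (Nat.card G - p ^ (Nat.card ↥(Subgroup.normalizer (F : Set G))).factorization p)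
            (by omega) _ hK' (by omega) c c' ?_ ?_)
          · exact hDC.trans_le (le_inf hcC (by rintro _ ⟨q, hq, rfl⟩; exact (hCX hq).2))
          · exact hDC'.trans_le (le_inf hc' (by rintro _ ⟨q, hq, rfl⟩; exact (hC'X hq).2))
        · -- full Sylow subgroups
          have hup : c' = upSylow hMi C' := by
            refine Sylow.ext ((upSylow hMi C').is_maximal' c'.isPGroup' ?_)
            rw [coe_upSylow]; exact hc'
          have hsl : ∀ E : Sylow p ↥M, (E : Subgroup ↥M) ≤ (M ⊓ Subgroup.normalizer (F : Set G)).subgroupOf M →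
              (⊤ : Subgroup G) ⊓ Subgroup.normalizer (F : Set G) ∈
                Cfsg.sylowMembers p (𝓕 ∪ 𝓕') ((upSylow hMi E : Sylow p G) : Subgroup G) := by
            intro E hE
            refine mem_sylowMembers_iff.2 ⟨Or.inl ?_, fun hd => (upSylow hMi E).not_dvd_index
              (hd.trans (Subgroup.relIndex_dvd_index_of_le ?_))⟩
            · rw [h𝓕]
              refine ⟨(upSylow hMi P).subtype le_top, F, ?_, rfl⟩
              rwa [Sylow.coe_subtype, Subgroup.map_subgroupOf_eq_of_le le_top, coe_upSylow]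
            · rw [coe_upSylow]
              rintro _ ⟨q, hq, rfl⟩
              exact ⟨Subgroup.mem_top _, (hE hq).2⟩
          refine (hCl (upSylow hMi C) (coe_upSylow hMi C).ge).tail
            ⟨_, (x : G), hsl C hCX, hup ▸ hsl C' hC'X, ⟨Subgroup.mem_top _, h3.2⟩, ?_, ?_⟩
          · rw [hup, h4, upSylow_smul]
          · refine le_inf (hDC'.le.trans hc') (hDC'.le.trans ?_)
            rintro _ ⟨q, hq, rfl⟩
            exact ⟨Subgroup.mem_top _, (hC'X hq).2⟩
    · -- singular maximal local
      obtain ⟨x, hx⟩ := MulAction.exists_smul_eq ↥M Ua Ub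
      have hxb : (Ub : Subgroup ↥M).map M.subtype ≤ (((x : G) • a' : Sylow p G) : Subgroup G) := by
        rw [← hx, coe_smul_sylow, coe_smul_sylow, Subgroup.map_map]
        rintro _ ⟨q, hq, rfl⟩
        exact ⟨(q : G), hUa' ⟨q, hq, rfl⟩, rfl⟩
      have hM' : M ∈ 𝓕 ∪ 𝓕' := Or.inr (by rw [h𝓕']; exact ⟨hMm, hreg⟩)
      refine Relation.ReflTransGen.head ⟨M, (x : G), ?_, ?_, x.2, rfl, ?_⟩
        (big _ b' _ hDb hxb hUb')
      · refine mem_sylowMembers_iff.2 ⟨hM', ?_⟩
        rw [Subgroup.relIndex, subgroupOf_eq_of_le a' Ua hUa']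
        exact Ua.not_dvd_index
      · refine mem_sylowMembers_iff.2 ⟨hM', ?_⟩
        rw [Subgroup.relIndex, subgroupOf_eq_of_le _ Ub hxb]
        exact Ub.not_dvd_index
      · exact le_inf (hDb.le.trans hxb) (hDb.le.trans (Subgroup.map_subtype_le _))
  have hDA : D < (A : Subgroup G) := lt_of_le_of_ne inf_le_left fun h0 =>
    hAB (Sylow.ext (A.is_maximal' B.isPGroup' (h0 ▸ inf_le_right)).symm)
  have hDB : D < (B : Subgroup G) := lt_of_le_of_ne inf_le_right fun h0 =>
    hAB (Sylow.ext (B.is_maximal' A.isPGroup' (h0 ▸ inf_le_left)))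
  exact claim (Nat.card G) (Subgroup.normalizer (D : Set G)) ⟨D, hDp, hD0, rfl⟩ (Nat.le_add_left _ _)
    A B (lt_inf_normalizer A hDA) (lt_inf_normalizer B hDB)

end Cfsg.Agent.S2956
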