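import Cfsg.Statements.S2957
import Cfsg.Agent.Lib.StronglyPEmbedded.SylowControl
import Cfsg.Agent.S2940
import Mathlib
-- import your own Cfsg.Agent.* helpers here

set_option autoImplicit false
open Cfsg

namespace Cfsg.Agent.S2957

open CfsgLib.StronglyPEmbedded in
/-- One step inside the family of normalizers of members of `f`. -/
def FStep {G : Type*} [Group G] (p : ℕ) (f : Subgroup G → Set (Subgroup G)) (D : Subgroup G)
    (A B : Sylow p G) : Prop :=
  ∃ P : Sylow p G, ∃ F ∈ f (P : Subgroup G), ∃ x ∈ Subgroup.normalizer (F : Set G),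
    (A : Subgroup G) ≤ Subgroup.normalizer (F : Set G) ∧
    (B : Subgroup G) ≤ Subgroup.normalizer (F : Set G) ∧ B = x • A ∧
    D ≤ (B : Subgroup G) ⊓ Subgroup.normalizer (F : Set G)

open CfsgLib.StronglyPEmbedded in
/-- Regularity of a subgroup containing a Sylow subgroup, read in the whole group. -/
lemma link_of_regular {G : Type*} [Group G] [Finite G] {p : ℕ} [Fact p.Prime]
    {f : Subgroup G → Set (Subgroup G)} (hf : Cfsg.IsNormalizerFunctor p f) {M : Subgroup G}
    (hM : ¬ p ∣ M.index) (hreg : Cfsg.IsFunctorRegular p f M) (A B : Sylow p G)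
    (hA : (A : Subgroup G) ≤ M) (hB : (B : Subgroup G) ≤ M)
    (hAB : (A : Subgroup G) ⊓ (B : Subgroup G) ≠ ⊥) :
    Relation.ReflTransGen (FStep p f ((A : Subgroup G) ⊓ (B : Subgroup G))) A B := by
  by_cases hne : A = B
  · rw [← hne]
  unfold Cfsg.IsFunctorRegular at hreg
  rw [controls_iff] at hreg
  have hD : (((A.subtype hA : Sylow p ↥M) : Subgroup ↥M) ⊓
      ((B.subtype hB : Sylow p ↥M) : Subgroup ↥M)).map M.subtype = (A : Subgroup G) ⊓ (B : Subgroup G) := by
    rw [Subgroup.map_inf _ _ _ M.subtype_injective, Sylow.coe_subtype, Sylow.coe_subtype,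
      Subgroup.map_subgroupOf_eq_of_le hA, Subgroup.map_subgroupOf_eq_of_le hB]
  have h := hreg (A.subtype hA) (B.subtype hB) (fun h => hne (Sylow.subtype_injective h))
    (fun h => hAB (by rw [← hD, h, Subgroup.map_bot]))
  have h' := h.lift (upSylow hM) (p := FStep p f ((A : Subgroup G) ⊓ (B : Subgroup G))) ?_
  · simpa only [Function.onFun, upSylow_subtype] using h'
  intro C C' hs
  obtain ⟨X', x, h1, h2, h3, h4, h5⟩ := hs
  obtain ⟨⟨X, ⟨P, F, hF, rfl⟩, rfl⟩, h1'⟩ := mem_sylowMembers_iff.1 h1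
  have hPn : (P : Subgroup ↥M) ≤ (M ⊓ Subgroup.normalizer (F : Set G)).subgroupOf M := fun q hq =>
    ⟨q.2, ((hf _ (P.isPGroup'.map M.subtype)).1 F hF).2 (Subgroup.le_normalizer ⟨q, hq, rfl⟩)⟩
  have hC := sylow_le_of_not_dvd_relIndex hPn h1'
  have hC' := sylow_le_of_not_dvd_relIndex hPn (mem_sylowMembers_iff.1 h2).2
  refine ⟨upSylow hM P, F, by rwa [coe_upSylow], (x : G), h3.2, ?_, ?_, ?_, ?_⟩
  · rw [coe_upSylow]; rintro _ ⟨q, hq, rfl⟩; exact (hC hq).2
  · rw [coe_upSylow]; rintro _ ⟨q, hq, rfl⟩; exact (hC' hq).2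
  · rw [h4, upSylow_smul]
  · rw [← hD, coe_upSylow]
    rintro _ ⟨q, hq, rfl⟩
    exact ⟨⟨q, (h5 hq).1, rfl⟩, (h5 hq).2.2⟩

open CfsgLib.StronglyPEmbedded in
lemma fStep_conj {G : Type*} [Group G] {p : ℕ} {f : Subgroup G → Set (Subgroup G)}
    (hf : Cfsg.IsNormalizerFunctor p f) {D : Subgroup G} {A B : Sylow p G} (g : G)
    (h : FStep p f D A B) : FStep p f (D.map (MulAut.conj g).toMonoidHom) (g • A) (g • B) := by
  obtain ⟨P, F, hF, x, hx, hA, hB, hBA, hD⟩ := h
  refine ⟨g • P, F.map (MulAut.conj g).toMonoidHom, ?_, g * x * g⁻¹, ?_, ?_, ?_, ?_, ?_⟩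
  · rw [coe_smul_sylow, (hf _ P.isPGroup').2 g]
    exact ⟨F, hF, rfl⟩
  all_goals try rw [← Subgroup.map_equiv_normalizer_eq]
  · exact ⟨x, hx, rfl⟩
  · rw [coe_smul_sylow]; exact Subgroup.map_mono hA
  · rw [coe_smul_sylow]; exact Subgroup.map_mono hB
  · rw [hBA, ← mul_smul, ← mul_smul]; congr 1; group
  · rw [coe_smul_sylow]
    exact (Subgroup.map_mono hD).trans (Subgroup.map_inf_le _ _ _)

/-- Let p be a prime dividing the order of the finite group G, f an equivariant assignment of a set of subgroups f(P) of P to every p-subgroup P, each normalized by N_G(P), and S a Sylow p-subgroup. If G = G₁G₂ for subgroups G₁, G₂ both containing S and both regular for f (in each Gᵢ, the family of normalizers in Gᵢ of the members of f(P), P a Sylow p-subgroup of Gᵢ, controls Sylow p-intersections), then G itself is regular for f. -/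
theorem result {G : Type*} [Group G] [Finite G] (p : ℕ) [Fact p.Prime] (hdiv : p ∣ Nat.card G)
    (f : Subgroup G → Set (Subgroup G)) (hf : Cfsg.IsNormalizerFunctor p f) (S : Sylow p G)
    (G₁ G₂ : Subgroup G) (h₁ : (S : Subgroup G) ≤ G₁) (h₂ : (S : Subgroup G) ≤ G₂)
    (hprod : ∀ g : G, ∃ g₁ ∈ G₁, ∃ g₂ ∈ G₂, g = g₁ * g₂)
    (hr₁ : Cfsg.IsFunctorRegular p f G₁) (hr₂ : Cfsg.IsFunctorRegular p f G₂) :
    Cfsg.IsFunctorRegular p f ⊤ := by
  open CfsgLib.StronglyPEmbedded in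
  have hidx : ∀ K : Subgroup G, (S : Subgroup G) ≤ K → ¬ p ∣ K.index := fun K hK hd =>
    S.not_dvd_index (hd.trans (Subgroup.index_dvd_of_le hK))
  have hmono : ∀ (D D' : Subgroup G), D' ≤ D → ∀ A B : Sylow p G, FStep p f D A B → FStep p f D' A B :=
    fun D D' h A B ⟨P, F, hF, x, hx, hA, hB, hBA, hD⟩ => ⟨P, F, hF, x, hx, hA, hB, hBA, h.trans hD⟩
  -- chains from `S`
  have hbase : ∀ g : G, (S : Subgroup G) ⊓ ((g • S : Sylow p G) : Subgroup G) ≠ ⊥ →
      Relation.ReflTransGen (FStep p f ((S : Subgroup G) ⊓ ((g • S : Sylow p G) : Subgroup G)))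
        S (g • S) := by
    intro g hD
    set D := (S : Subgroup G) ⊓ ((g • S : Sylow p G) : Subgroup G) with hDdef
    obtain ⟨U, hU1, hU2⟩ := Cfsg.Agent.S2940.result S G₁ G₂ h₁ h₂ hprod g⁻¹
    have hconj : Cfsg.subgroupConjRight g⁻¹ (S : Subgroup G) = ((g • S : Sylow p G) : Subgroup G) := by
      rw [← coe_inv_smul_sylow, inv_inv]
    rw [hconj] at hU1
    have hne1 : (S : Subgroup G) ⊓ (U : Subgroup G) ≠ ⊥ := fun h =>
      hD (le_bot_iff.1 ((le_inf inf_le_left hU1).trans h.le))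
    have c1 : Relation.ReflTransGen (FStep p f D) S U :=
      Relation.ReflTransGen.mono (hmono _ D (le_inf inf_le_left hU1)) _ _
        (link_of_regular hf (hidx G₁ h₁) hr₁ S U h₁ (hU2.trans inf_le_left) hne1)
    set U' : Sylow p G := g⁻¹ • U with hU'
    have hU'2 : (U' : Subgroup G) ≤ G₂ := by
      intro x hx
      rw [hU', mem_smul_sylow, inv_inv] at hx
      have := mem_subgroupConjRight_iff.1 (hU2 hx).2
      simpa [mul_assoc] using this
    have hD2 : D ≤ ((U' : Subgroup G) ⊓ (S : Subgroup G)).map (MulAut.conj g).toMonoidHom := by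
      intro x hx
      refine ⟨g⁻¹ * x * g, ⟨?_, mem_smul_sylow.1 hx.2⟩, by simp [mul_assoc]⟩
      show g⁻¹ * x * g ∈ ((g⁻¹ • U : Sylow p G) : Subgroup G)
      rw [mem_smul_sylow, inv_inv]
      simpa [mul_assoc] using hU1 hx
    have hne2 : (U' : Subgroup G) ⊓ (S : Subgroup G) ≠ ⊥ := fun h =>
      hD (le_bot_iff.1 (hD2.trans (by rw [h, Subgroup.map_bot])))
    have c2 := (link_of_regular hf (hidx G₂ h₂) hr₂ U' S hU'2 h₂ hne2).lift (g • ·)
      (p := FStep p f D) (fun A B h => hmono _ D hD2 _ _ (fStep_conj hf g h))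
    have hgU : g • U' = U := by rw [hU', smul_inv_smul]
    simp only [Function.onFun, hgU] at c2
    exact c1.trans c2
  have hall : ∀ A B : Sylow p G, (A : Subgroup G) ⊓ (B : Subgroup G) ≠ ⊥ →
      Relation.ReflTransGen (FStep p f ((A : Subgroup G) ⊓ (B : Subgroup G))) A B := by
    intro A B hne
    obtain ⟨a, rfl⟩ := MulAction.exists_smul_eq G S A
    obtain ⟨b, rfl⟩ := MulAction.exists_smul_eq G S B
    have hmap : ((S : Subgroup G) ⊓ (((a⁻¹ * b) • S : Sylow p G) : Subgroup G)).map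
        (MulAut.conj a).toMonoidHom =
        ((a • S : Sylow p G) : Subgroup G) ⊓ ((b • S : Sylow p G) : Subgroup G) := by
      rw [Subgroup.map_inf _ _ _ (MulAut.conj a).injective, ← coe_smul_sylow, ← coe_smul_sylow,
        ← mul_smul, mul_inv_cancel_left]
    have hne' : (S : Subgroup G) ⊓ (((a⁻¹ * b) • S : Sylow p G) : Subgroup G) ≠ ⊥ := fun h =>
      hne (by rw [← hmap, h, Subgroup.map_bot])
    have c := (hbase _ hne').lift (a • ·)
      (p := FStep p f (((a • S : Sylow p G) : Subgroup G) ⊓ ((b • S : Sylow p G) : Subgroup G)))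
      (fun A B h => hmap ▸ fStep_conj hf a h)
    simp only [Function.onFun, ← mul_smul, mul_inv_cancel_left] at c
    exact c
  unfold Cfsg.IsFunctorRegular
  rw [controls_iff]
  intro A B hne hbot
  have htop : ¬ p ∣ (⊤ : Subgroup G).index := by simpa using (Fact.out : p.Prime).not_dvd_one
  have hinj : ∀ C : Sylow p ↥(⊤ : Subgroup G), (upSylow htop C).subtype le_top = C := fun C => by
    refine Sylow.ext ?_
    rw [Sylow.coe_subtype, coe_upSylow, Subgroup.subgroupOf,
      Subgroup.comap_map_eq_self_of_injective (Subgroup.subtype_injective _)]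
  have hD : ((A : Subgroup ↥(⊤ : Subgroup G)) ⊓ (B : Subgroup ↥(⊤ : Subgroup G))).map
      (⊤ : Subgroup G).subtype =
      (upSylow htop A : Subgroup G) ⊓ (upSylow htop B : Subgroup G) := by
    rw [Subgroup.map_inf _ _ _ (Subgroup.subtype_injective _), coe_upSylow, coe_upSylow]
  have c := hall (upSylow htop A) (upSylow htop B) (fun h => hbot
    ((Subgroup.map_eq_bot_iff_of_injective _ (Subgroup.subtype_injective _)).1 (hD.trans h)))
  have c' := c.lift (fun C : Sylow p G => C.subtype (le_top (a := (C : Subgroup G))))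
    (p := CtrlStep p ((fun X : Subgroup G => X.subgroupOf ⊤) '' Cfsg.functorFamily p f ⊤)
      ((A : Subgroup ↥(⊤ : Subgroup G)) ⊓ (B : Subgroup ↥(⊤ : Subgroup G)))) ?_
  · simpa only [Function.onFun, hinj] using c'
  intro C C' hs
  obtain ⟨P, F, hF, x, hx, hC, hC', hCC', hDX⟩ := hs
  have hmem : ((⊤ : Subgroup G) ⊓ Subgroup.normalizer (F : Set G)).subgroupOf ⊤ ∈
      (fun X : Subgroup G => X.subgroupOf ⊤) '' Cfsg.functorFamily p f ⊤ := by
    refine ⟨_, ⟨P.subtype le_top, F, ?_, rfl⟩, rfl⟩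
    rwa [Sylow.coe_subtype, Subgroup.map_subgroupOf_eq_of_le le_top]
  have hmemS : ∀ E : Sylow p G, (E : Subgroup G) ≤ Subgroup.normalizer (F : Set G) →
      ((⊤ : Subgroup G) ⊓ Subgroup.normalizer (F : Set G)).subgroupOf ⊤ ∈
        Cfsg.sylowMembers p ((fun X : Subgroup G => X.subgroupOf ⊤) '' Cfsg.functorFamily p f ⊤)
          ((E.subtype (le_top (a := (E : Subgroup G))) : Sylow p ↥(⊤ : Subgroup G)) : Subgroup ↥(⊤ : Subgroup G)) := by
    intro E hE
    refine mem_sylowMembers_iff.2 ⟨hmem, fun hd => (E.subtype le_top).not_dvd_index (hd.trans ?_)⟩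
    refine Subgroup.relIndex_dvd_index_of_le fun q hq => ?_
    exact ⟨q.2, hE hq⟩
  refine ⟨_, ⟨x, Subgroup.mem_top x⟩, hmemS C hC, hmemS C' hC', ⟨Subgroup.mem_top x, hx⟩, ?_, ?_⟩
  · subst hCC'
    exact ((Sylow.smul_subtype (le_top (a := (C : Subgroup G))) (⟨x, Subgroup.mem_top x⟩ : ↥(⊤ : Subgroup G))).symm.trans rfl)
  · intro q hq
    have h6 := hDX (hD ▸ Subgroup.mem_map_of_mem _ hq)
    exact ⟨h6.1, ⟨q.2, h6.2⟩⟩

end Cfsg.Agent.S2957
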