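import Cfsg.Statements.S2958
import Mathlib
-- import your own Cfsg.Agent.* helpers here

set_option autoImplicit false
open Cfsg

namespace Cfsg.Agent.S2958

/-- Let X, A, B be subgroups of a group G such that G is generated by the conjugates of X and every conjugate of X is contained in A or in B. Then A = G or B = G. -/
theorem result {G : Type*} [Group G] (X A B : Subgroup G) (hgen : (⨆ g : G, X.map (MulAut.conj g).toMonoidHom) = ⊤) (hcover : ∀ g : G, X.map (MulAut.conj g).toMonoidHom ≤ A ∨ X.map (MulAut.conj g).toMonoidHom ≤ B) : A = ⊤ ∨ B = ⊤ := by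
  classical
  by_cases hA : ∀ g : G, X.map (MulAut.conj g).toMonoidHom ≤ A
  · exact Or.inl (top_le_iff.1 (hgen ▸ iSup_le hA))
  refine Or.inr (top_le_iff.1 ?_)
  set c : G → Subgroup G := fun g => X.map (MulAut.conj g).toMonoidHom with hc
  have hcc : ∀ g h : G, (c g).map (MulAut.conj h).toMonoidHom = c (h * g) := by
    intro g h
    simp only [hc, Subgroup.map_map]
    congr 1
    ext x
    simp [mul_assoc]
  -- the conjugates outside `A`
  set B' : Subgroup G := ⨆ g : {g : G // ¬ c g ≤ A}, c g with hB'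
  have hB'B : B' ≤ B := iSup_le fun g => ((hcover g).resolve_left g.2)
  push Not at hA
  obtain ⟨g₀, hg₀⟩ := hA
  -- elements of `A` permute the conjugates outside `A`
  have hAperm : ∀ a ∈ A, ∀ g, ¬ c g ≤ A → ¬ c (a * g) ≤ A := by
    intro a ha g hg hle
    refine hg fun x hx => ?_
    have : a * x * a⁻¹ ∈ A := hle (by rw [← hcc]; exact ⟨x, hx, rfl⟩)
    have := mul_mem (mul_mem (inv_mem ha) this) ha
    simpa [mul_assoc] using this
  have hAnorm : A ≤ Subgroup.normalizer (B' : Set G) := by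
    intro a ha
    have key : ∀ a ∈ A, B'.map (MulAut.conj a).toMonoidHom ≤ B' := by
      intro a ha
      rw [hB', Subgroup.map_iSup]
      refine iSup_le fun g => ?_
      rw [hcc]
      exact le_iSup (fun g : {g : G // ¬ c g ≤ A} => c g) ⟨a * g, hAperm a ha g g.2⟩
    refine Subgroup.mem_normalizer_iff.2 fun x => ⟨fun hx => ?_, fun hx => ?_⟩
    · exact key a ha ⟨x, hx, rfl⟩
    · simpa [mul_assoc] using key a⁻¹ (inv_mem ha) ⟨_, hx, rfl⟩
  have hnorm : (⊤ : Subgroup G) ≤ Subgroup.normalizer (B' : Set G) := by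
    rw [← hgen]
    refine iSup_le fun g => ?_
    by_cases hg : c g ≤ A
    · exact le_trans hg hAnorm
    · exact (le_iSup (fun g : {g : G // ¬ c g ≤ A} => c g) ⟨g, hg⟩).trans Subgroup.le_normalizer
  have hn : B'.Normal := Subgroup.normalizer_eq_top_iff.1 (top_le_iff.1 hnorm)
  refine le_trans ?_ hB'B
  rw [← hgen]
  refine iSup_le fun g => ?_
  have h0 : c g₀ ≤ B' := le_iSup (fun g : {g : G // ¬ c g ≤ A} => c g) ⟨g₀, hg₀⟩
  have h1 := Subgroup.map_mono (f := (MulAut.conj (g * g₀⁻¹)).toMonoidHom) h0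
  rw [hcc, inv_mul_cancel_right] at h1
  refine h1.trans ?_
  rintro _ ⟨x, hx, rfl⟩
  exact hn.conj_mem x hx _

end Cfsg.Agent.S2958
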