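import Cfsg.Statements.S2960
import Cfsg.Agent.Lib.StronglyPEmbedded.CharP
-- import your own Cfsg.Agent.* helpers here

set_option autoImplicit false
open Cfsg

namespace Cfsg.Agent.S2960

/-- Let G be a finite group of characteristic p (C_G(O_p(G)) ≤ O_p(G)), p prime, T a Sylow p-subgroup of G and Q a normal subgroup of T with C_T(Q) ≤ Q. Then C_G(Q) ≤ Q. -/
theorem result {G : Type*} [Group G] [Finite G] {p : ℕ} [Fact p.Prime] (hG : Subgroup.centralizer (Cfsg.pCore p G : Set G) ≤ Cfsg.pCore p G) (T : Sylow p G) (Q : Subgroup G) (hQT : Q ≤ (T : Subgroup G)) (hQn : (T : Subgroup G) ≤ Subgroup.normalizer (Q : Set G)) (hC : (T : Subgroup G) ⊓ Subgroup.centralizer (Q : Set G) ≤ Q) : Subgroup.centralizer (Q : Set G) ≤ Q := by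
  open CfsgLib.StronglyPEmbedded in
  set R := Cfsg.pCore p G with hR
  have hRn : R.Normal := normal_pCore'
  have hRT : R ≤ (T : Subgroup G) := (isPGroup_pCore' (G := G)).le_sylow_of_normal T
  have hQp : IsPGroup p ↥Q := T.isPGroup'.to_le hQT
  have hTC : (T : Subgroup G) ≤ Subgroup.normalizer (Subgroup.centralizer (Q : Set G) : Set G) := by
    have key : ∀ t ∈ (T : Subgroup G), ∀ y ∈ Subgroup.centralizer (Q : Set G),
        t * y * t⁻¹ ∈ Subgroup.centralizer (Q : Set G) := by
      intro t ht y hy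
      refine Subgroup.mem_centralizer_iff.2 fun q hq => ?_
      have hq' : t⁻¹ * q * t ∈ Q := by
        simpa using (Subgroup.mem_normalizer_iff.1 (hQn (inv_mem ht)) q).1 hq
      have hc : (t⁻¹ * q * t) * y = y * (t⁻¹ * q * t) := Subgroup.mem_centralizer_iff.1 hy _ hq'
      calc q * (t * y * t⁻¹) = t * ((t⁻¹ * q * t) * y) * t⁻¹ := by group
        _ = t * (y * (t⁻¹ * q * t)) * t⁻¹ := by rw [hc]
        _ = t * y * t⁻¹ * q := by group
    intro t ht
    refine Subgroup.mem_normalizer_iff.2 fun y => ⟨key t ht y, fun hy => ?_⟩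
    simpa [mul_assoc] using key t⁻¹ (inv_mem ht) _ hy
  have hCp : IsPGroup p ↥(Subgroup.centralizer (Q : Set G)) := by
    refine isPGroup_of_forall_coprime fun x hx hxc => ?_
    have hxR : x ∈ Subgroup.centralizer (R : Set G) := by
      refine Subgroup.mem_centralizer_iff.2 fun r hr => (commute_of_axb hQp isPGroup_pCore' ?_ hxc hx
        ?_ ?_ r hr).symm.eq
      · exact (Subgroup.normalizer_eq_top_iff.2 hRn).symm ▸ le_top
      · rw [Subgroup.normalizer_eq_top_iff.2 hRn]; trivial
      · intro q hq hqQ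
        exact ((Subgroup.mem_centralizer_iff.1 hx) q (hC ⟨hRT hq, hqQ⟩)).symm
    exact eq_one_of_mem_pGroup_of_coprime isPGroup_pCore' (hG hxR) hxc
  have hsup : IsPGroup p ↥((T : Subgroup G) ⊔ Subgroup.centralizer (Q : Set G)) :=
    IsPGroup.to_sup_of_normal_right' T.isPGroup' hCp hTC
  have heq := T.is_maximal' hsup le_sup_left
  intro x hx
  exact hC ⟨heq ▸ le_sup_right (a := (T : Subgroup G)) hx, hx⟩

end Cfsg.Agent.S2960
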