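import Cfsg.Statements.S2961
import Cfsg.Agent.Lib.StronglyPEmbedded.CharP
import Cfsg.Agent.S2960
-- import your own Cfsg.Agent.* helpers here

set_option autoImplicit false
open Cfsg

namespace Cfsg.Agent.S2961

/-- Let G be a finite group of characteristic p (C_G(O_p(G)) ≤ O_p(G)), p prime, T a Sylow p-subgroup of G and Q a normal subgroup of T with C_T(Q) ≤ Q. Then every subgroup L of G containing Q has characteristic p: C_L(O_p(L)) ≤ O_p(L). -/
theorem result {G : Type*} [Group G] [Finite G] {p : ℕ} [Fact p.Prime] (hG : Subgroup.centralizer (Cfsg.pCore p G : Set G) ≤ Cfsg.pCore p G) (T : Sylow p G) (Q : Subgroup G) (hQT : Q ≤ (T : Subgroup G)) (hQn : (T : Subgroup G) ≤ Subgroup.normalizer (Q : Set G)) (hC : (T : Subgroup G) ⊓ Subgroup.centralizer (Q : Set G) ≤ Q) (L : Subgroup G) (hQL : Q ≤ L) : Subgroup.centralizer (Cfsg.pCore p ↥L : Set ↥L) ≤ Cfsg.pCore p ↥L := by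
  open CfsgLib.StronglyPEmbedded in
  set R := Cfsg.pCore p G with hR
  have hRn : R.Normal := normal_pCore'
  have hRp : IsPGroup p ↥R := isPGroup_pCore'
  have hRT : R ≤ (T : Subgroup G) := hRp.le_sylow_of_normal T
  have hQp : IsPGroup p ↥Q := T.isPGroup'.to_le hQT
  have hCG : Subgroup.centralizer (Q : Set G) ≤ Q := Cfsg.Agent.S2960.result hG T Q hQT hQn hC
  set Z : Subgroup G := (Cfsg.pCore p ↥L).map L.subtype with hZ
  have hZp : IsPGroup p ↥Z := (isPGroup_pCore' (G := ↥L)).map _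
  set D : Subgroup G := L ⊓ Subgroup.centralizer (Z : Set G) with hD
  have hRL : R ⊓ L ≤ Z := by
    intro r hr
    refine ⟨⟨r, hr.2⟩, le_pCore' (hRn.subgroupOf L) hRp.comap_subtype ?_, rfl⟩
    exact hr.1
  have hZn : L ≤ Subgroup.normalizer (Z : Set G) := by
    intro l hl
    have key : ∀ l : G, l ∈ L → ∀ z ∈ Z, l * z * l⁻¹ ∈ Z := by
      rintro l hl _ ⟨z, hz, rfl⟩
      exact ⟨_, normal_pCore'.conj_mem z hz ⟨l, hl⟩, rfl⟩
    exact Subgroup.mem_normalizer_iff.2 fun z => ⟨key l hl z, fun hz => by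
      simpa [mul_assoc] using key l⁻¹ (inv_mem hl) _ hz⟩
  have hDn : ∀ l ∈ L, ∀ x ∈ D, l * x * l⁻¹ ∈ D := by
    intro l hl x hx
    refine Subgroup.mem_inf.2 ⟨mul_mem (mul_mem hl hx.1) (inv_mem hl), Subgroup.mem_centralizer_iff.2 fun z hz => ?_⟩
    have hz' : l⁻¹ * z * l ∈ Z := by
      simpa using (Subgroup.mem_normalizer_iff.1 (hZn (inv_mem hl)) z).1 hz
    have hc : (l⁻¹ * z * l) * x = x * (l⁻¹ * z * l) := Subgroup.mem_centralizer_iff.1 hx.2 _ hz'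
    calc z * (l * x * l⁻¹) = l * ((l⁻¹ * z * l) * x) * l⁻¹ := by group
      _ = l * (x * (l⁻¹ * z * l)) * l⁻¹ := by rw [hc]
      _ = l * x * l⁻¹ * z := by group
  -- the elements of `L` acting trivially on `R` modulo `R ⊓ L`
  have hQR : ∀ q ∈ Q, ∀ r ∈ R, r⁻¹ * (q * r * q⁻¹) ∈ R ⊓ L := by
    intro q hq r hr
    refine Subgroup.mem_inf.2 ⟨mul_mem (inv_mem hr) (hRn.conj_mem r hr q), ?_⟩
    have : r⁻¹ * q * r ∈ Q := by
      simpa using (Subgroup.mem_normalizer_iff.1 (hQn (inv_mem (hRT hr))) q).1 hq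
    have := hQL (mul_mem this (inv_mem hq))
    simpa [mul_assoc] using this
  have hconjRL : ∀ l ∈ L, ∀ r ∈ R ⊓ L, l * r * l⁻¹ ∈ R ⊓ L := fun l hl r hr =>
    Subgroup.mem_inf.2 ⟨hRn.conj_mem r hr.1 l, mul_mem (mul_mem hl hr.2) (inv_mem hl)⟩
  let A : Subgroup G :=
    { carrier := {l | l ∈ L ∧ ∀ r ∈ R, r⁻¹ * (l * r * l⁻¹) ∈ R ⊓ L}
      one_mem' := ⟨one_mem _, fun r hr => by simp⟩
      mul_mem' := by
        rintro a b ⟨ha, ha'⟩ ⟨hb, hb'⟩
        refine ⟨mul_mem ha hb, fun r hr => ?_⟩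
        have h1 := ha' r hr
        have h2 := hconjRL a ha _ (hb' r hr)
        have := mul_mem h1 h2
        rw [show r⁻¹ * (a * r * a⁻¹) * (a * (r⁻¹ * (b * r * b⁻¹)) * a⁻¹) =
          r⁻¹ * (a * b * r * (a * b)⁻¹) by group] at this
        exact this
      inv_mem' := by
        rintro a ⟨ha, ha'⟩
        refine ⟨inv_mem ha, fun r hr => ?_⟩
        have := inv_mem (hconjRL a⁻¹ (inv_mem ha) _ (ha' r hr))
        rw [show (a⁻¹ * (r⁻¹ * (a * r * a⁻¹)) * a⁻¹⁻¹)⁻¹ = r⁻¹ * (a⁻¹ * r * a⁻¹⁻¹) by group] at this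
        exact this }
  have hAn : ∀ l ∈ L, ∀ a ∈ A, l * a * l⁻¹ ∈ A := by
    rintro l hl a ⟨ha, ha'⟩
    refine ⟨mul_mem (mul_mem hl ha) (inv_mem hl), fun r hr => ?_⟩
    have := hconjRL l hl _ (ha' (l⁻¹ * r * l) (by simpa using hRn.conj_mem r hr l⁻¹))
    rw [show l * ((l⁻¹ * r * l)⁻¹ * (a * (l⁻¹ * r * l) * a⁻¹)) * l⁻¹ =
      r⁻¹ * (l * a * l⁻¹ * r * (l * a * l⁻¹)⁻¹) by group] at this
    exact this
  have hQA : Q ≤ A := fun q hq => ⟨hQL hq, hQR q hq⟩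
  have hAD : IsPGroup p ↥(A ⊓ D) := by
    refine isPGroup_of_forall_coprime fun x hx hxc => ?_
    have hxR : x ∈ Subgroup.centralizer (R : Set G) := by
      refine Subgroup.mem_centralizer_iff.2 fun r hr => ?_
      have hc := hx.1.2 r hr
      have hcomm : Commute x (r⁻¹ * (x * r * x⁻¹)) :=
        ((Subgroup.mem_centralizer_iff.1 hx.2.2) _ (hRL hc)).symm
      obtain ⟨k, hk⟩ := hRp ⟨_, hc.1⟩
      exact (commute_of_stable_coprime hxc hcomm ⟨k, by simpa using congrArg Subtype.val hk⟩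
        (r := r) (by group)).2.symm.eq
    exact eq_one_of_mem_pGroup_of_coprime hRp (hG hxR) hxc
  have hADZ : A ⊓ D ≤ Z := by
    intro a ha
    refine ⟨⟨a, ha.2.1⟩, ?_, rfl⟩
    refine le_pCore' (N := (A ⊓ D).subgroupOf L) ⟨fun n hn g => ?_⟩ hAD.comap_subtype ha
    exact Subgroup.mem_inf.2 ⟨hAn _ g.2 _ hn.1, hDn _ g.2 _ hn.2⟩
  refine centralizer_pCore_le_of_forall_coprime fun x hx hxc => ?_
  have hxD : (x : G) ∈ D := ⟨x.2, Subgroup.mem_centralizer_iff.2 fun z hz => by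
    obtain ⟨z, hz, rfl⟩ := hz
    exact congrArg Subtype.val (Subgroup.mem_centralizer_iff.1 hx z hz)⟩
  have hxc' : (orderOf (x : G)).Coprime p := by rwa [Subgroup.orderOf_coe]
  have hxQ : (x : G) ∈ Subgroup.centralizer (Q : Set G) := by
    refine Subgroup.mem_centralizer_iff.2 fun q hq => ?_
    have hcA : q⁻¹ * (x * q * (x : G)⁻¹) ∈ A ⊓ D := by
      refine Subgroup.mem_inf.2 ⟨mul_mem (inv_mem (hQA hq)) (hAn _ x.2 _ (hQA hq)), ?_⟩
      have := mul_mem (hDn q⁻¹ (inv_mem (hQL hq)) _ hxD) (inv_mem hxD)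
      simpa [mul_assoc] using this
    have hcZ := hADZ hcA
    have hcomm : Commute (x : G) (q⁻¹ * (x * q * (x : G)⁻¹)) :=
      ((Subgroup.mem_centralizer_iff.1 hxD.2) _ hcZ).symm
    obtain ⟨k, hk⟩ := hZp ⟨_, hcZ⟩
    exact (commute_of_stable_coprime hxc' hcomm ⟨k, by simpa using congrArg Subtype.val hk⟩
      (r := q) (by group)).2.symm.eq
  exact Subtype.ext (eq_one_of_mem_pGroup_of_coprime hQp (hCG hxQ) hxc')

end Cfsg.Agent.S2961
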