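import Cfsg.Statements.S2963

set_option autoImplicit false
open Cfsg

namespace Cfsg.Agent.S2963

open scoped Pointwise

/-- Let n be odd. If the symmetric group of degree n is a minimal parabolic group for the prime 2, that is, a Sylow 2-subgroup is not normal and lies in exactly one maximal subgroup, then n = 2^m + 1 for some natural number m. -/
theorem result (n : ℕ) (hn : Odd n) (h : Cfsg.IsPMinimal 2 (Equiv.Perm (Fin n))) : ∃ m : ℕ, n = 2 ^ m + 1 := by
  obtain ⟨S⟩ : Nonempty (Sylow 2 (Equiv.Perm (Fin n))) := inferInstance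
  obtain ⟨hnn, M, ⟨hM, hSM⟩, huniq⟩ := h S
  have : Fact (Nat.Prime 2) := ⟨Nat.prime_two⟩
  -- a fixed point
  obtain ⟨pt, hpt⟩ : (MulAction.fixedPoints (S : Subgroup (Equiv.Perm (Fin n))) (Fin n)).Nonempty := by
    refine S.2.nonempty_fixed_point_of_prime_not_dvd_card _ ?_
    rw [Nat.card_fin]
    exact fun hd => (Nat.not_even_iff_odd.2 hn) (even_iff_two_dvd.2 hd)
  have hfix : ∀ s ∈ (S : Subgroup (Equiv.Perm (Fin n))), s pt = pt := fun s hs => hpt ⟨s, hs⟩
  by_cases htr : ∃ o : Fin n, o ≠ pt ∧ ∀ q : Fin n, q ≠ pt → q ∈ MulAction.orbit (S : Subgroup (Equiv.Perm (Fin n))) o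
  · obtain ⟨o, ho, horb⟩ := htr
    obtain ⟨m, hm⟩ := S.2.card_orbit o
    refine ⟨m, ?_⟩
    have heq : MulAction.orbit (S : Subgroup (Equiv.Perm (Fin n))) o = {pt}ᶜ := by
      ext q
      refine ⟨?_, horb q⟩
      rintro ⟨⟨s, hs⟩, rfl⟩ hq
      exact ho (s.injective (by rw [hfix s hs]; exact hq))
    rw [Nat.card_coe_set_eq, heq, Set.ncard_compl, Set.ncard_singleton, Nat.card_fin] at hm
    have : 0 < n := hn.pos
    omega
  · exfalso
    push Not at htr
    -- a second point
    have hnt : ∃ o : Fin n, o ≠ pt := by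
      by_contra! hall
      apply hnn
      have : Subsingleton (Fin n) := ⟨fun a b => by rw [hall a, hall b]⟩
      have : (S : Subgroup (Equiv.Perm (Fin n))) = ⊤ := Subsingleton.elim _ _
      rw [this]; infer_instance
    obtain ⟨o, ho⟩ := hnt
    obtain ⟨q, hq, hqo⟩ := htr o ho
    set B : Set (Fin n) := insert pt (MulAction.orbit (S : Subgroup (Equiv.Perm (Fin n))) o)
    have hqB : q ∉ B := by rintro (h | h) <;> [exact hq h; exact hqo h]
    have hpB : pt ∈ B := Set.mem_insert _ _
    have hoB : o ∈ B := Set.mem_insert_of_mem _ (MulAction.mem_orbit_self o)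
    set St : Subgroup (Equiv.Perm (Fin n)) := MulAction.stabilizer (Equiv.Perm (Fin n)) B
    have mem_St : ∀ σ : Equiv.Perm (Fin n), (∀ b ∈ B, σ b ∈ B) → σ ∈ St := by
      intro σ hσ
      refine MulAction.mem_stabilizer_iff.2 (Set.eq_of_subset_of_ncard_le ?_ ?_ (Set.toFinite _))
      · rintro _ ⟨b, hb, rfl⟩; exact hσ b hb
      · exact (Set.ncard_image_of_injective B σ.injective).ge
    have hSt : (S : Subgroup (Equiv.Perm (Fin n))) ≤ St := by
      intro s hs
      refine mem_St s ?_
      rintro b (rfl | hb)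
      · rw [hfix s hs]; exact hpB
      · exact Set.mem_insert_of_mem _ (MulAction.mem_orbit_of_mem_orbit (⟨s, hs⟩ : (S : Subgroup _)) hb)
    have hS1 : (S : Subgroup (Equiv.Perm (Fin n))) ≤ MulAction.stabilizer (Equiv.Perm (Fin n)) pt :=
      fun s hs => hfix s hs
    have key : ∀ X : Subgroup (Equiv.Perm (Fin n)), (S : Subgroup _) ≤ X → X ≠ ⊤ → X ≤ M := by
      intro X hSX hX
      obtain ⟨M', hM', hle⟩ := (IsCoatomic.eq_top_or_exists_le_coatom X).resolve_left hX
      exact hle.trans (huniq M' ⟨hM', hSX.trans hle⟩).le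
    have h1 : MulAction.stabilizer (Equiv.Perm (Fin n)) pt ≤ M := key _ hS1 fun h =>
      ho (by
        have : Equiv.swap pt o ∈ MulAction.stabilizer (Equiv.Perm (Fin n)) pt := h ▸ Subgroup.mem_top _
        simpa using this)
    have h2 : St ≤ M := key _ hSt fun h => hqB (by
      have : Equiv.swap pt q ∈ St := h ▸ Subgroup.mem_top _
      rw [MulAction.mem_stabilizer_iff] at this
      have h3 : Equiv.swap pt q • pt ∈ Equiv.swap pt q • B := Set.smul_mem_smul_set hpB
      rw [this] at h3
      simpa using h3)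
    have hsw : Equiv.swap pt o ∈ M := h2 (mem_St _ fun b hb => by
      rcases eq_or_ne b pt with rfl | h
      · simpa using hoB
      rcases eq_or_ne b o with rfl | h'
      · simpa using hpB
      rwa [Equiv.swap_apply_of_ne_of_ne h h'])
    apply hM.1
    rw [Subgroup.eq_top_iff']
    intro σ
    -- move `σ pt` back to `pt`
    by_cases hσ : σ pt = pt
    · exact h1 hσ
    have hτ : Equiv.swap o (σ pt) ∈ M := h1 (Equiv.swap_apply_of_ne_of_ne (Ne.symm ho) (Ne.symm hσ))
    have h3 : Equiv.swap pt o * Equiv.swap o (σ pt) * σ ∈ M := h1 (by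
      show (Equiv.swap pt o * Equiv.swap o (σ pt) * σ) pt = pt
      simp)
    have := mul_mem (inv_mem (mul_mem hsw hτ)) h3
    simpa [mul_assoc] using this

end Cfsg.Agent.S2963
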