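import Cfsg.Statements.S2981
import Cfsg.Agent.Lib.FFModules.MinimalParabolic.LocalFacts

set_option autoImplicit false
open Cfsg

namespace Cfsg.Agent.S2981

/-- The local C**(G,T)-Theorem for minimal parabolic groups. Let G be a finite p-minimal group (a Sylow p-subgroup T is not normal and lies in exactly one maximal subgroup) of characteristic p (C_G(O_p(G)) ≤ O_p(G)), and suppose G ≠ C**(G,T), the subgroup generated by C_G(Ω₁(Z(T))) and N_G(J(T)) (J(T) generated by the elementary abelian p-subgroups of T of largest order). Put V = Ω₁(Z(O_p(G))) and C = C_G(V). Then there are subgroups E₁, …, E_r of G containing C such that: J(G)TC = G and the E_i C/C form an internal direct product equal to J(G)C/C; any two of the E_i are conjugate by an element of T; V = C_V(⟨E_i⟩)·∏[V, E_i] with [V, E_i, E_j] = 1 for i ≠ j; for some n ≥ 1, each E_i/C is isomorphic to SL₂(pⁿ), or p = 2 and to the symmetric group of degree 2ⁿ + 1; and E_i acts on [V, E_i]/C_{[V,E_i]}(E_i)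 as the natural two-dimensional SL₂(pⁿ)-module, respectively as the symmetric group of degree 2ⁿ+1 on its even-weight permutation module. -/
theorem result {G : Type*} [Group G] [Finite G] {p : ℕ} [Fact p.Prime] (hmin : Cfsg.IsPMinimal p G) (hG : Subgroup.centralizer (Cfsg.pCore p G : Set G) ≤ Cfsg.pCore p G) (T : Sylow p G) (hne : Cfsg.cStarStarOf p (T : Subgroup G) ≠ ⊤) : ∃ (r : ℕ) (E : Fin r → Subgroup G), (∀ i, Subgroup.centralizer (Cfsg.omegaOneCenter p (Cfsg.pCore p G) : Set G) ≤ E i) ∧ Cfsg.thompsonSubgroup p G ⊔ (T : Subgroup G) ⊔ Subgroup.centralizer (Cfsg.omegaOneCenter p (Cfsg.pCore p G) : Set G) = ⊤ ∧ (⨆ i, E i) = Cfsg.thompsonSubgroup p G ⊔ Subgroup.centralizer (Cfsg.omegaOneCenter p (Cfsg.pCore p G) : Set G) ∧ (∀ i j, i ≠ j → ⁅E i, E j⁆ ≤ Subgroup.centralizer (Cfsg.omegaOneCenter p (Cfsg.pCore p G) : Set G)) ∧ (∀ i, E i ⊓ (⨆ j ∈ {j | j ≠ i}, E j) ≤ Subgroup.centralizer (Cfsg.omegaOneCenter p (Cfsg.pCore p G) : Set G)) ∧ (∀ i j, ∃ t ∈ (T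 : Subgroup G), (E i).map (MulAut.conj t).toMonoidHom = E j) ∧ (Cfsg.omegaOneCenter p (Cfsg.pCore p G) ⊓ Subgroup.centralizer ((⨆ i, E i : Subgroup G) : Set G)) ⊔ (⨆ i, ⁅Cfsg.omegaOneCenter p (Cfsg.pCore p G), E i⁆) = Cfsg.omegaOneCenter p (Cfsg.pCore p G) ∧ (∀ i j, i ≠ j → ⁅⁅Cfsg.omegaOneCenter p (Cfsg.pCore p G), E i⁆, E j⁆ = ⊥) ∧ ∀ i, ∃ n : ℕ, 1 ≤ n ∧ ((∃ (F : Type) (_ : Field F) (_ : Fintype F), Fintype.card F = p ^ n ∧ (∃ _ : ((Subgroup.centralizer (Cfsg.omegaOneCenter p (Cfsg.pCore p G) : Set G)).subgroupOf (E i)).Normal, Nonempty (↥(E i) ⧸ (Subgroup.centralizer (Cfsg.omegaOneCenter p (Cfsg.pCore p G) : Set G)).subgroupOf (E i) ≃* Matrix.SpecialLinearGroup (Fin 2) F)) ∧ Cfsg.ActsAsSL2OnSection F ⊤ (E i) ⁅Cfsg.omegaOneCenter p (Cfsg.pCore p G), E i⁆ (⁅Cfsg.omegaOneCenter p (Cfsg.pCore p G), E i⁆ ⊓ Subgroup.centralizer ((E i : Subgroup G) : Set G))) ∨ (p = 2 ∧ (∃ _ : ((Subgroup.centralizer (Cfsg.omegaOneCenter p (Cfsg.pCore p G) : Set G)).subgroupOf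 (E i)).Normal, Nonempty (↥(E i) ⧸ (Subgroup.centralizer (Cfsg.omegaOneCenter p (Cfsg.pCore p G) : Set G)).subgroupOf (E i) ≃* Equiv.Perm (Fin (2 ^ n + 1)))) ∧ Cfsg.ActsAsOddPermModuleOnSection (2 ^ n + 1) ⊤ (E i) ⁅Cfsg.omegaOneCenter p (Cfsg.pCore p G), E i⁆ (⁅Cfsg.omegaOneCenter p (Cfsg.pCore p G), E i⁆ ⊓ Subgroup.centralizer ((E i : Subgroup G) : Set G)))) := by
  classical
  open scoped IsMulCommutative commutatorElement Pointwise in
  haveI hQn : (Cfsg.pCore p G).Normal := CfsgLib.FFModules.normal_pCore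
  set Q := Cfsg.pCore p G with hQdef
  set V := Cfsg.omegaOneCenter p Q with hVdef
  haveI hVn : V.Normal := CfsgLib.FFModules.MinimalParabolic.omegaOneCenter_normal Q
  have hVel : Cfsg.IsElementaryAbelian p V :=
    CfsgLib.FFModules.MinimalParabolic.isElementaryAbelian_omegaOneCenter Q
  haveI : IsMulCommutative ↥V := hVel.1
  set C := Subgroup.centralizer (V : Set G) with hCdef
  have hQT : Q ≤ (T : Subgroup G) := CfsgLib.FFModules.pCore_le_sylow T
  have hVQ : V ≤ Q ⊓ Subgroup.centralizer (Q : Set G) := CfsgLib.ThompsonJ.omegaOne_le p _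
  have hQC : Q ≤ C := fun x hx => Subgroup.mem_centralizer_iff.2 fun v hv =>
    (Subgroup.mem_centralizer_iff.1 (hVQ hv).2 x hx).symm
  set ZT := Cfsg.omegaOneCenter p (T : Subgroup G) with hZT
  have hZV : ZT ≤ V := by
    refine CfsgLib.ThompsonJ.omegaOne_mono fun x hx => ?_
    have hxQ : x ∈ Subgroup.centralizer (Q : Set G) := Subgroup.centralizer_le hQT hx.2
    exact ⟨hG hxQ, hxQ⟩
  -- the maximal subgroup
  obtain ⟨hTn, M, ⟨hM, hTM⟩, huniq⟩ := hmin T
  have hle_M : ∀ X : Subgroup G, (T : Subgroup G) ≤ X → X ≠ ⊤ → X ≤ M := fun X hX hXne => by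
    obtain ⟨N, hN, hle⟩ := (eq_top_or_exists_le_coatom X).resolve_left hXne
    exact (huniq N ⟨hN, hX.trans hle⟩) ▸ hle
  have hCZ : Subgroup.centralizer (ZT : Set G) ≤ M := by
    refine hle_M _ (fun t ht => Subgroup.mem_centralizer_iff.2 fun z hz => ?_) fun e => hne ?_
    · exact (Subgroup.mem_centralizer_iff.1 (CfsgLib.ThompsonJ.omegaOne_le p _ hz).2 t ht).symm
    · exact top_le_iff.1 (e.symm.le.trans le_sup_left)
  have hJM : Subgroup.normalizer (Cfsg.thompsonSubgroupOf p (T : Subgroup G) : Set G) ≠ ⊤ := fun e =>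
    hne (top_le_iff.1 (e.symm.le.trans le_sup_right))
  have hCM : C ≤ M := (Subgroup.centralizer_le hZV).trans hCZ
  have hnormT : ∀ N : Subgroup G, N.Normal →
      (T : Subgroup G) ≤ Subgroup.normalizer (((T : Subgroup G) ⊓ N : Subgroup G) : Set G) :=
    fun N hN t ht => CfsgLib.FFModules.LLemma.mem_normalizer_of_conj_le <| by
      rintro _ hy
      obtain ⟨x, hx, rfl⟩ := (Subgroup.mem_smul_pointwise_iff_exists _ _ _).1 hy
      exact ⟨Subgroup.mul_mem _ (Subgroup.mul_mem _ ht hx.1) (Subgroup.inv_mem _ ht),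
        hN.conj_mem x hx.2 t⟩
  have hcoreC : ∀ N : Subgroup G, N.Normal →
      C ⊔ Subgroup.normalizer (((T : Subgroup G) ⊓ N : Subgroup G) : Set G) = ⊤ →
      (T : Subgroup G) ⊓ N ≤ Q := by
    intro N hN htop
    have e : Subgroup.normalizer (((T : Subgroup G) ⊓ N : Subgroup G) : Set G) = ⊤ := by
      by_contra h
      exact hM.1 (top_le_iff.1 (htop ▸ sup_le hCM (hle_M _ (hnormT N hN) h)))
    exact le_sSup ⟨Subgroup.normalizer_eq_top_iff.1 e, T.2.to_le inf_le_left⟩
  -- a maximal elementary abelian subgroup outside `C`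
  obtain ⟨A, hA, hAC⟩ : ∃ A, CfsgLib.ThompsonJ.IsMaxEA p ⊤ A ∧ ¬ A ≤ C := by
    by_contra hno
    push Not at hno
    have hJC : Cfsg.thompsonSubgroupOf p (T : Subgroup G) ≤ (T : Subgroup G) ⊓ C :=
      CfsgLib.ThompsonJ.thompsonSubgroupOf_le_iff.2 fun A hA =>
        le_inf hA.le (hno A ((CfsgLib.ThompsonJ.isMaxEA_sylow_iff T).1 hA).2)
    have hTC : (T : Subgroup G) ⊓ C ≤ Q := hcoreC C inferInstance <| by
      rw [sup_comm]; exact CfsgLib.FFModules.MinimalParabolic.normalizer_inf_sup_eq_top T C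
    have hJ := CfsgLib.ThompsonJ.thompsonSubgroupOf_eq_of_le hQT (hJC.trans hTC)
    refine hJM (top_le_iff.1 ?_)
    rw [← hJ, ← Subgroup.normalizer_eq_top_iff.2 hQn]
    exact CfsgLib.ThompsonJ.normalizer_le_normalizer_thompsonSubgroupOf p Q
  -- the quotient
  let π : G →* G ⧸ C := QuotientGroup.mk' C
  have hπ : Function.Surjective π := QuotientGroup.mk'_surjective C
  have hker : π.ker = C := QuotientGroup.ker_mk' C
  let T' : Sylow p (G ⧸ C) := T.mapSurjective hπ
  have hT' : (T' : Subgroup (G ⧸ C)) = (T : Subgroup G).map π := rfl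
  set M' := M.map π with hM'
  have hcM : M'.comap π = M := by rw [hM', Subgroup.comap_map_eq, hker, sup_eq_left.2 hCM]
  have hsub : ∀ X : Subgroup (G ⧸ C), (T' : Subgroup (G ⧸ C)) ≤ X → X ≠ ⊤ → X ≤ M' := by
    intro X hX hXne
    have h1 : X.comap π ≠ ⊤ := fun e => hXne (Subgroup.comap_injective hπ (e.trans (Subgroup.comap_top π).symm))
    have h2 := hle_M _ (Subgroup.map_le_iff_le_comap.1 (hT' ▸ hX)) h1
    rw [← Subgroup.map_comap_eq_self_of_surjective hπ X]
    exact Subgroup.map_mono h2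
  letI : DistribMulAction (G ⧸ C) (Additive ↥V) := CfsgLib.FFModules.MinimalParabolic.quotAction V
  have hfix : ∀ (X : Subgroup G) (v : Additive ↥V), v ∈ CfsgLib.FFModules.SL2Pair.fixedSub (X.map π) ↔
      (v.toMul : G) ∈ Subgroup.centralizer (X : Set G) := fun X v =>
    CfsgLib.FFModules.MinimalParabolic.quotAction_fixedSub X v
  have hsmul : ∀ (g : G) (v : Additive ↥V), ((π g • v).toMul : G) = g * (v.toMul : G) * g⁻¹ :=
    fun g v => CfsgLib.FFModules.MinimalParabolic.quotAction_smul g v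
  have hTop : ∀ Y : Subgroup (G ⧸ C), Y ≠ ⊤ → (T' : Subgroup (G ⧸ C)) ≤ Y → Y ≤ M' := fun Y a b => hsub Y b a
  have hM'top : M' ≠ ⊤ := fun e => hM.1 (by rw [← hcM, e, Subgroup.comap_top])
  have hcore : Cfsg.pCore p (G ⧸ C) = ⊥ := by
    haveI : (Cfsg.pCore p (G ⧸ C)).Normal := CfsgLib.FFModules.normal_pCore
    set N := (Cfsg.pCore p (G ⧸ C)).comap π with hN
    haveI : N.Normal := Subgroup.Normal.comap inferInstance π
    have hCN : C ≤ N := hker ▸ Subgroup.ker_le_comap π _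
    have hNT : N ≤ C ⊔ ((T : Subgroup G) ⊓ N) := by
      intro n hn
      have h1 : π n ∈ (T' : Subgroup (G ⧸ C)) :=
        CfsgLib.FFModules.pCore_le_sylow T' (Subgroup.mem_comap.1 hn)
      obtain ⟨t, ht, e⟩ := h1
      have hc : n * t⁻¹ ∈ C := hker ▸ MonoidHom.mem_ker.2 (by rw [map_mul, map_inv, e, mul_inv_cancel])
      have htN : t ∈ N := Subgroup.mem_comap.2 (e ▸ Subgroup.mem_comap.1 hn)
      simpa using Subgroup.mul_mem_sup hc (show t ∈ (T : Subgroup G) ⊓ N from ⟨ht, htN⟩)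
    have h2 : (T : Subgroup G) ⊓ N ≤ Q := hcoreC N inferInstance <| top_le_iff.1 <| by
      rw [← CfsgLib.FFModules.MinimalParabolic.normalizer_inf_sup_eq_top T N]
      exact sup_le le_sup_right (hNT.trans (sup_le le_sup_left
        (Subgroup.le_normalizer.trans le_sup_right)))
    have h3 : N ≤ C := hNT.trans (sup_le le_rfl (h2.trans hQC))
    refine (Subgroup.eq_bot_iff_forall _).2 fun q hq => ?_
    obtain ⟨g, rfl⟩ := hπ q
    exact MonoidHom.mem_ker.1 (hker.symm ▸ h3 (Subgroup.mem_comap.2 hq))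
  have hSet : CfsgLib.FFModules.MinimalParabolic.Setting p T' M' (Additive ↥V) :=
    { faithful := fun q hq => by
        obtain ⟨g, rfl⟩ := hπ q
        refine MonoidHom.mem_ker.1 (hker.symm ▸ Subgroup.mem_centralizer_iff.2 fun v hv => ?_)
        have h1 := congrArg (fun w : Additive ↥V => (w.toMul : G)) (hq (Additive.ofMul ⟨v, hv⟩))
        simp only [hsmul] at h1
        exact (mul_inv_eq_iff_eq_mul.1 h1).symm
      exponent := fun v => Additive.toMul.injective (Subtype.ext (by simpa using hVel.2 _ v.toMul.2))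
      coatom := ⟨hM'top, fun X hX => by_contra fun hXne =>
        hX.not_ge (hsub X ((Subgroup.map_mono hTM).trans hX.le) hXne)⟩
      sylow_le := Subgroup.map_mono hTM
      unique := fun N hN hTN => (hN.le_iff.1 (hsub N hTN hN.1)).elim (fun e => absurd e hM'top) Eq.symm
      not_normal := fun hn => hAC <| by
        have hbot : (T' : Subgroup (G ⧸ C)) = ⊥ := le_bot_iff.1 (hcore ▸ le_sSup ⟨hn, T'.2⟩)
        have hTC : (T : Subgroup G) ≤ C := hker ▸ (Subgroup.map_eq_bot_iff _).1 (hT' ▸ hbot)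
        obtain ⟨S, hS⟩ := CfsgLib.ThompsonJ.exists_le_sylow_of_isMaxEA hA
        obtain ⟨g, rfl⟩ := MulAction.exists_smul_eq G T S
        intro a ha
        obtain ⟨t, ht, rfl⟩ := (Subgroup.mem_smul_pointwise_iff_exists _ _ _).1
          (Sylow.coe_subgroup_smul (g := g) (P := T) ▸ hS ha :)
        exact (inferInstance : C.Normal).conj_mem t (hTC ht) g
      core := hcore
      moved := fun q hq => by
        obtain ⟨g, rfl⟩ := hπ q
        by_contra hno
        push Not at hno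
        refine hq (Subgroup.mem_map_of_mem π (hCZ (Subgroup.mem_centralizer_iff.2 fun z hz => ?_)))
        have h1 := hno (Additive.ofMul ⟨z, hZV hz⟩)
          ((hfix _ _).2 (CfsgLib.ThompsonJ.omegaOne_le p _ hz).2)
        have h2 := congrArg (fun w : Additive ↥V => (w.toMul : G)) h1
        simp only [hsmul] at h2
        exact (mul_inv_eq_iff_eq_mul.1 h2).symm }
  -- offenders
  have hcardfix : ∀ X : Subgroup G,
      Nat.card (CfsgLib.FFModules.SL2Pair.fixedSub (X.map π) : AddSubgroup (Additive ↥V)) =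
        Nat.card ↥(V ⊓ Subgroup.centralizer (X : Set G)) := fun X => Nat.card_congr
    { toFun := fun v => ⟨((v : Additive ↥V).toMul : G), (v : Additive ↥V).toMul.2, (hfix X _).1 v.2⟩
      invFun := fun x => ⟨Additive.ofMul ⟨x, x.2.1⟩, (hfix X _).2 x.2.2⟩
      left_inv := fun v => rfl
      right_inv := fun x => rfl }
  have hbest : ∀ X : Subgroup G, CfsgLib.ThompsonJ.IsMaxEA p ⊤ X → ∀ B : Subgroup G, B ≤ X →
      Nat.card B * Nat.card ↥(V ⊓ Subgroup.centralizer (B : Set G)) ≤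
        Nat.card X * Nat.card ↥(V ⊓ Subgroup.centralizer (X : Set G)) := by
    intro X hX B hB
    set D := V ⊓ Subgroup.centralizer (B : Set G) with hD
    have hDel := CfsgLib.ThompsonJ.isElementaryAbelian_mono hVel (inf_le_left : D ≤ V)
    have hBel := CfsgLib.ThompsonJ.isElementaryAbelian_mono hX.elem hB
    have hBD : B ≤ Subgroup.centralizer (D : Set G) :=
      Subgroup.le_centralizer_iff.1 (inf_le_right : D ≤ _)
    have hsup := hX.card_le (B ⊔ D) le_top (CfsgLib.ThompsonJ.isElementaryAbelian_sup hBel hDel hBD)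
    have h1 : Nat.card B * Nat.card D = Nat.card ↥(B ⊔ D) * Nat.card ↥(B ⊓ D) :=
      CfsgLib.FFModules.MinimalParabolic.card_mul_card_eq B D hBD
    have h2 : Nat.card ↥(B ⊓ D) ≤ Nat.card ↥(V ⊓ Subgroup.centralizer (X : Set G)) :=
      Subgroup.card_le_of_le fun x hx => ⟨hx.2.1,
        CfsgLib.ThompsonJ.isElementaryAbelian_le_centralizer hX.elem (hB hx.1)⟩
    rw [h1]
    exact Nat.mul_le_mul hsup h2
  have hcardmap : ∀ X : Subgroup G, Nat.card X = Nat.card (X.map π) * Nat.card ↥(X ⊓ C) := by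
    intro X
    rw [← Subgroup.relIndex_ker, hker, ← Subgroup.inf_relIndex_right C X]
    rw [mul_comm, inf_comm C X, Subgroup.relIndex, Nat.card_congr (Subgroup.subgroupOfEquivOfLe
      (inf_le_left : X ⊓ C ≤ X)).symm.toEquiv, Subgroup.card_mul_index]
  have hmu : ∀ X : Subgroup G, CfsgLib.ThompsonJ.IsMaxEA p ⊤ X → Nat.card (Additive ↥V) ≤
      CfsgLib.FFModules.MinimalParabolic.mu (X.map π) (Additive ↥V) := by
    intro X hX
    have h1 := hbest X hX (X ⊓ C) inf_le_left
    rw [show V ⊓ Subgroup.centralizer ((X ⊓ C : Subgroup G) : Set G) = V from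
      inf_eq_left.2 (Subgroup.le_centralizer_iff.1 inf_le_right), hcardmap X, mul_comm (Nat.card (X.map π)),
      mul_assoc] at h1
    rw [CfsgLib.FFModules.MinimalParabolic.mu, hcardfix, Nat.card_congr Additive.toMul]
    exact Nat.le_of_mul_le_mul_left h1 Nat.card_pos
  obtain ⟨B, hBA, hBne, hBquad, hBμ⟩ := CfsgLib.FFModules.SL2Pair.exists_quadratic hVel
    (fun g _ => by rw [Subgroup.normalizer_eq_top_iff.2 hVn]; exact Subgroup.mem_top g)
    (show Cfsg.IsBestOffenderOn p V A from ⟨hbest A hA, by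
      rw [(Subgroup.commutator_eq_bot_iff_le_centralizer.2
        (CfsgLib.ThompsonJ.isElementaryAbelian_le_centralizer hA.elem))]
      exact bot_le, fun a ha => by rw [hA.elem.2 a ha]; exact one_mem _⟩) hAC
  have hquad : CfsgLib.FFModules.MinimalParabolic.IsQuad p (B.map π) (Additive ↥V) := by
    refine ⟨(CfsgLib.ThompsonJ.isPGroup_of_isElementaryAbelian
      (CfsgLib.ThompsonJ.isElementaryAbelian_map
        (CfsgLib.ThompsonJ.isElementaryAbelian_mono hA.elem hBA) π)), ?_⟩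
    rintro _ ⟨a, ha, rfl⟩ v
    refine (hfix _ _).2 (Subgroup.mem_centralizer_iff.2 fun b hb => ?_)
    have h1 : (((π a • v - v : Additive ↥V)).toMul : G) = ⁅(v.toMul : G), a⁆⁻¹ := by
      show ((π a • v).toMul : G) / (v.toMul : G) = _
      rw [hsmul, div_eq_mul_inv, commutatorElement_inv, commutatorElement_def]
    rw [h1]
    exact (Commute.inv_right (hBquad _ v.toMul.2 _ ha _ hb)).eq
  have hB'ne : B.map π ≠ ⊥ := fun e => hBne (((Subgroup.map_eq_bot_iff _).1 e).trans hker.le)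
  have hoff : Nat.card (Additive ↥V) ≤ CfsgLib.FFModules.MinimalParabolic.mu (B.map π) (Additive ↥V) := by
    have h1 := hbest A hA (B ⊓ C) (inf_le_left.trans hBA)
    rw [show V ⊓ Subgroup.centralizer ((B ⊓ C : Subgroup G) : Set G) = V from
      inf_eq_left.2 (Subgroup.le_centralizer_iff.1 inf_le_right), ← hBμ, hcardmap B,
      mul_comm (Nat.card (B.map π)), mul_assoc] at h1
    rw [CfsgLib.FFModules.MinimalParabolic.mu, hcardfix, Nat.card_congr Additive.toMul]
    exact Nat.le_of_mul_le_mul_left h1 Nat.card_pos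
  obtain ⟨B₀, hB₀B, hB₀⟩ := CfsgLib.FFModules.MinimalParabolic.exists_min hquad hB'ne
    (le_antisymm (CfsgLib.FFModules.MinimalParabolic.noOver hSet _ hquad) hoff)
  obtain ⟨r, E, hr, hE, htop, hconj, htype, hncl, hperm⟩ := hSet.hasStructure hB₀
  -- `J(G)` maps onto the product
  set J := Cfsg.thompsonSubgroup p G with hJ
  haveI : J.Characteristic := CfsgLib.ThompsonJ.thompsonSubgroup_characteristic p G
  haveI : (J.map π).Normal := Subgroup.Normal.map inferInstance π hπ
  have hJP : J.map π = ⨆ i, E i := by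
    refine le_antisymm ?_ (iSup_le fun i => (hncl i).trans (Subgroup.normalClosure_le_normal fun b hb => ?_))
    · rw [Subgroup.map_le_iff_le_comap]
      refine sSup_le fun X hX => Subgroup.map_le_iff_le_comap.1 ?_
      have hX' := CfsgLib.ThompsonJ.mem_max_iff.1 hX
      have hel := CfsgLib.ThompsonJ.isElementaryAbelian_map hX'.elem π
      exact hSet.toBase.le_iSup_of_mu hr hE htop htype hperm
        (fun a ha b hb => CfsgLib.ThompsonJ.isElementaryAbelian_comm hel ha hb) hel.2 (hmu X hX')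
    · exact Subgroup.map_mono (hBA.trans (le_sSup (CfsgLib.ThompsonJ.mem_max_iff.2 hA))) (hB₀B hb)
  have hCE : ∀ i, C ≤ (E i).comap π := fun i => hker.ge.trans (Subgroup.ker_le_comap π (E i))
  have hsupE : (⨆ i, (E i).comap π) = J ⊔ C := by
    have h1 : (⨆ i, (E i).comap π).map π = J.map π := by
      rw [Subgroup.map_iSup, hJP]
      exact iSup_congr fun i => Subgroup.map_comap_eq_self_of_surjective hπ (E i)
    have h2 := congrArg (Subgroup.comap π) h1
    rw [Subgroup.comap_map_eq, Subgroup.comap_map_eq, hker] at h2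
    rwa [sup_eq_left.2 ((hCE ⟨0, hr⟩).trans (le_iSup (fun i => (E i).comap π) ⟨0, hr⟩))] at h2
  refine ⟨r, fun i => (E i).comap π, hCE, ?_, hsupE, fun i j hij => ?_, fun i => ?_, fun i j => ?_, ?_,
    fun i j hij => ?_, fun i => ?_⟩
  · have h1 : (J ⊔ (T : Subgroup G)).map π = ⊤ := by rw [Subgroup.map_sup, hJP, ← hT', htop]
    have h2 := congrArg (Subgroup.comap π) h1
    rwa [Subgroup.comap_map_eq, hker, Subgroup.comap_top] at h2
  · refine Subgroup.commutator_le.2 fun x hx y hy => hker.le (MonoidHom.mem_ker.2 ?_)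
    rw [map_commutatorElement, commutatorElement_eq_one_iff_mul_comm]
    exact hE.comm i j hij _ hx _ hy
  · rintro x ⟨hx, hx'⟩
    refine hker ▸ MonoidHom.mem_ker.2 ?_
    have h1 : π x ∈ E i ⊓ ⨆ j ∈ {j | j ≠ i}, E j := by
      refine ⟨hx, ?_⟩
      have h2 : (⨆ j ∈ {j | j ≠ i}, (E j).comap π) ≤ (⨆ j ∈ {j | j ≠ i}, E j).comap π :=
        iSup₂_le fun j hj => Subgroup.comap_mono (le_iSup₂ (f := fun j (_ : j ∈ {j | j ≠ i}) => E j) j hj)
      exact h2 hx'
    rwa [hE.inf_iSup_eq_bot hSet.faithful i, Subgroup.mem_bot] at h1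
  · obtain ⟨_, ⟨t, ht, rfl⟩, e⟩ := hconj i j
    refine ⟨t, ht, ?_⟩
    beta_reduce
    refine SetLike.ext fun y => ?_
    rw [← e, Subgroup.mem_comap]
    constructor
    · rintro ⟨x, hx, rfl⟩
      show π (t * x * t⁻¹) ∈ _
      rw [map_mul, map_mul, map_inv]
      exact CfsgLib.FFModules.LLemma.conj_mem_conj hx
    · intro hy
      obtain ⟨x, hx, e'⟩ := (Subgroup.mem_smul_pointwise_iff_exists _ _ _).1 hy
      refine ⟨t⁻¹ * y * t, ?_, ?_⟩
      · show π (t⁻¹ * y * t) ∈ E i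
        rw [map_mul, map_mul, map_inv, ← e', MulAut.smul_def, MulAut.conj_apply,
          show (π t)⁻¹ * (π t * x * (π t)⁻¹) * π t = x by group]
        exact hx
      · show t * (t⁻¹ * y * t) * t⁻¹ = y
        group
  · refine le_antisymm (sup_le inf_le_left (iSup_le fun i x hx =>
      ((CfsgLib.FFModules.MinimalParabolic.quotAction_moves (E i) x).1 hx).1)) ?_
    intro x hx
    have h1 : Additive.ofMul (⟨x, hx⟩ : ↥V) ∈ CfsgLib.FFModules.SL2Pair.fixedSub (⨆ i, E i) ⊔
        ⨆ i, CfsgLib.FFModules.MinimalParabolic.moves (E i) (Additive ↥V) := by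
      rw [hE.fix_sup_moves]; exact AddSubgroup.mem_top _
    obtain ⟨c, hc, m, hm, e⟩ := AddSubgroup.mem_sup.1 h1
    have ex : x = (c.toMul : G) * (m.toMul : G) :=
      (congrArg (fun z : Additive ↥V => (z.toMul : G)) e).symm
    rw [ex]
    refine Subgroup.mul_mem_sup ⟨c.toMul.2, (hfix _ c).1 ?_⟩ ?_
    · rw [Subgroup.map_iSup, iSup_congr fun i => Subgroup.map_comap_eq_self_of_surjective hπ (E i)]
      exact hc
    · clear e ex
      induction hm using AddSubgroup.iSup_induction' with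
      | hp i z hz =>
          refine Subgroup.mem_iSup_of_mem i ?_
          exact ((CfsgLib.FFModules.MinimalParabolic.quotAction_moves (E i) _).2 ⟨z.toMul.2, hz⟩)
      | h1 => exact one_mem _
      | hadd a b _ _ ha hb => exact mul_mem ha hb
  · rw [Subgroup.commutator_eq_bot_iff_le_centralizer]
    intro x hx
    obtain ⟨hxV, hm⟩ := (CfsgLib.FFModules.MinimalParabolic.quotAction_moves (E i) x).1 hx
    refine (hfix _ (Additive.ofMul ⟨x, hxV⟩)).1 ?_
    rw [Subgroup.map_comap_eq_self_of_surjective hπ]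
    exact hE.cross i j hij hm
  · let f : ↥((E i).comap π) →* ↥(E i) := (π.comp ((E i).comap π).subtype).codRestrict (E i) fun x => x.2
    have hfs : Function.Surjective f := fun ⟨q, hq⟩ => by
      obtain ⟨g, rfl⟩ := hπ q
      exact ⟨⟨g, hq⟩, rfl⟩
    have hkerf : f.ker = C.subgroupOf ((E i).comap π) := Subgroup.ext fun x => by
      rw [MonoidHom.mem_ker, Subgroup.mem_subgroupOf]
      exact ⟨fun h => hker.le (MonoidHom.mem_ker.2 (congrArg Subtype.val h)),
        fun h => Subtype.ext (MonoidHom.mem_ker.1 (hker.ge h))⟩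
    haveI hnC : (C.subgroupOf ((E i).comap π)).Normal := hkerf ▸ MonoidHom.normal_ker f
    have hquot : Nonempty (↥((E i).comap π) ⧸ C.subgroupOf ((E i).comap π) ≃* ↥(E i)) :=
      ⟨(QuotientGroup.quotientMulEquivOfEq hkerf.symm).trans
        (QuotientGroup.quotientKerEquivOfSurjective f hfs)⟩
    obtain ⟨eq⟩ := hquot
    rcases htype i with ⟨F, hF, hF', n, ρ, ψ, hn, hcard, hsurj, hkerψ, hequ⟩ |
        ⟨hp2, n, ρ, ψ, hn, hsum, hon, hkerψ, hequ⟩
    · obtain ⟨hnorm, ψ', honto, hker', hequiv⟩ :=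
        CfsgLib.FFModules.MinimalParabolic.quotAction_section (E i) ψ (hE.split i) hkerψ _ rfl
      refine ⟨n, hn, Or.inl ⟨F, hF, hF', hcard, ⟨hnC, ⟨eq.trans ρ⟩⟩, hnorm, inf_le_left,
        ρ.toMonoidHom.comp f, ψ', MonoidHom.range_eq_top.2 (ρ.surjective.comp hfs), fun w => ?_,
        hker', fun e u => ?_⟩⟩
      · obtain ⟨v, hv⟩ := hsurj (Multiplicative.toAdd w)
        obtain ⟨u, hu⟩ := honto v
        exact ⟨u, Multiplicative.toAdd.injective (hu.trans hv)⟩
      · obtain ⟨v, hv, hall⟩ := hequiv u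
        obtain ⟨w, hw, hw'⟩ := hall e e.2
        refine ⟨w, hw, ?_⟩
        rw [hw', hv]
        exact hequ (f e) v
    · obtain ⟨hnorm, ψ', honto, hker', hequiv⟩ :=
        CfsgLib.FFModules.MinimalParabolic.quotAction_section (E i) ψ (hE.split i) hkerψ _ rfl
      refine ⟨n, hn, Or.inr ⟨hp2, ⟨hnC, ⟨eq.trans ρ⟩⟩, hnorm, inf_le_left,
        ρ.toMonoidHom.comp f, ψ', MonoidHom.range_eq_top.2 (ρ.surjective.comp hfs), fun u => ?_,
        fun x hx => ?_, hker', fun e u => ?_⟩⟩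
      · obtain ⟨v, hv, -⟩ := hequiv u
        rw [hv]; exact hsum v
      · obtain ⟨v, hv⟩ := hon x hx
        obtain ⟨u, hu⟩ := honto v
        exact ⟨u, hu.trans hv⟩
      · obtain ⟨v, hv, hall⟩ := hequiv u
        obtain ⟨w, hw, hw'⟩ := hall e e.2
        refine ⟨w, hw, fun k => ?_⟩
        rw [hw', hv]
        exact hequ (f e) v k

end Cfsg.Agent.S2981
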