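import Cfsg.Statements.S2985
import Cfsg.Agent.Lib.FFModules.BlockCentralizer.Normalizes
-- import your own Cfsg.Agent.* helpers here

set_option autoImplicit false
open Cfsg

namespace Cfsg.Agent.S2985

/-- Let G be a finite group of characteristic p (C_G(O_p(G)) ≤ O_p(G)), T a Sylow p-subgroup and E a B(T)-block of G, with W_E = [Ω₁(Z(O_p(E))), E]. Then E is normalized by C_G(W_E); that is, E is a normal subgroup of E·C_G(W_E). -/
theorem result {G : Type*} [Group G] [Finite G] {p : ℕ} [Fact p.Prime] (hG : Subgroup.centralizer (Cfsg.pCore p G : Set G) ≤ Cfsg.pCore p G) (T : Sylow p G) (E : Subgroup G) (hE : Cfsg.IsBaumannBlock p (T : Subgroup G) E) : Subgroup.centralizer ((⁅Cfsg.omegaOneCenter p (Cfsg.pCoreOf p E), E⁆ : Subgroup G) : Set G) ≤ Subgroup.normalizer (E : Set G) := by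
  exact CfsgLib.FFModules.BlockCentralizer.centralizer_le_normalizer hG T hE

end Cfsg.Agent.S2985
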