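import Cfsg.Statements.S2989
import Cfsg.Agent.Lib.TwoGroupTricks.PushingUpOmega

set_option autoImplicit false
open Cfsg

namespace Cfsg.Agent.S2989

open CfsgLib.TwoGroupTricks

/-- Let G be a finite group and S a Sylow p-subgroup of G in the basic pushing-up situation (G ≠ 1, C_G(O_p(G)) ≤ O_p(G), S lies in a unique maximal subgroup of G, and some quotient of G is isomorphic to PSL₂ over a field of order a power of p), and suppose that S centralizes Z(J(S)), where J(S) is generated by the abelian subgroups of S of largest order (that is, J̃(S) = C_S(Z(J(S))) = S). Call a subgroup R of S centrally large if |R|·|Z(R)| is as large as possible among subgroups of S, and let S_Φ be the subgroup generated by the Frattini subgroups Φ(Q) of those minimal centrally large subgroups Q of S whose Ω₁(Z(Q)) has the largest order among minimal centrally large subgroups. Then Z(S) or S_Φ is normal in G; and if S_Φ = 1, the minimal centrally large subgroups of S are exactly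 the abelian subgroups of S of largest order, and at least one of them is elementary abelian. -/
theorem result {G : Type*} [Group G] [Finite G] {p : ℕ} [Fact p.Prime] (S : Subgroup G) (hE : Cfsg.IsPushingUpSituation p S) (hJ : S ≤ Subgroup.centralizer (Cfsg.centerThompsonAOf S : Set G)) : ((S ⊓ Subgroup.centralizer (S : Set G)).Normal ∨ ((Cfsg.frattiniOfMinimalCLJoin p ↥S).map S.subtype).Normal) ∧ (Cfsg.frattiniOfMinimalCLJoin p ↥S = ⊥ → (∀ Q : Subgroup ↥S, Cfsg.IsMinimalCentrallyLarge Q ↔ Q ∈ Cfsg.maxAbelianSubgroups ↥S) ∧ ∃ A ∈ Cfsg.maxAbelianSubgroups ↥S, Cfsg.IsElementaryAbelian p A) := by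

  classical
  obtain ⟨P, hP⟩ := hE.2.1
  have hSp : IsPGroup p S := hP ▸ P.2
  set P0 := Cfsg.pCore p G with hP0
  have hP0S : P0 ≤ S := hP ▸ CfsgLib.Cores.pCore_le_sylow P
  have hbdd : BddAbove {k : ℕ | ∃ Q : Subgroup S, Cfsg.IsMinimalCentrallyLarge Q ∧
      Nat.card ↥(Cfsg.omegaOneCenter p Q) = k} :=
    ⟨Nat.card S, by rintro k ⟨Q, -, rfl⟩; exact Subgroup.card_le_card_group _⟩
  have hle : ∀ Q : Subgroup S, Cfsg.IsMinimalCentrallyLarge Q →
      Nat.card ↥(Cfsg.omegaOneCenter p Q) ≤ Cfsg.maxOmegaCenterOfMinimalCL p S :=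
    fun Q hQ => le_csSup hbdd ⟨Q, hQ, rfl⟩
  obtain ⟨Qm, hQm, hQmΩ⟩ : ∃ Q : Subgroup S, Cfsg.IsMinimalCentrallyLarge Q ∧
      Nat.card ↥(Cfsg.omegaOneCenter p Q) = Cfsg.maxOmegaCenterOfMinimalCL p S := by
    obtain ⟨Q, hQ⟩ := exists_minimalCentrallyLarge S
    exact Nat.sSup_mem (s := {k : ℕ | ∃ Q : Subgroup S, Cfsg.IsMinimalCentrallyLarge Q ∧
      Nat.card ↥(Cfsg.omegaOneCenter p Q) = k}) ⟨_, Q, hQ, rfl⟩ hbdd
  refine ⟨?_, fun hΦ => ?_⟩
  swap
  · have hQΦ : frattini ↥Qm = ⊥ := by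
      have h1 : (frattini ↥Qm).map Qm.subtype ≤ Cfsg.frattiniOfMinimalCLJoin p S :=
        le_iSup_of_le ⟨Qm, hQm, hQmΩ⟩ le_rfl
      rw [hΦ, le_bot_iff] at h1
      exact (Subgroup.map_eq_bot_iff_of_injective _ Qm.subtype_injective).1 h1
    obtain ⟨hc, he⟩ := (CfsgLib.PGroups.frattini_eq_bot_iff (hSp.to_subgroup Qm)).1 hQΦ
    have hab : IsMulCommutative Qm := ⟨⟨hc⟩⟩
    have hiff := fun Q => minimal_iff_maxAbelian hQm hab Q
    exact ⟨hiff, Qm, (hiff Qm).1 hQm, hab, fun a ha => congrArg Subtype.val (he ⟨a, ha⟩)⟩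
  by_cases hnZ : (S ⊓ Subgroup.centralizer (S : Set G)).Normal
  · exact Or.inl hnZ
  refine Or.inr ?_
  -- every relevant Frattini subgroup is covered by one inside `O_p(G)`
  have hcover : ∀ Q : Subgroup S, Cfsg.IsMinimalCentrallyLarge Q →
      Nat.card ↥(Cfsg.omegaOneCenter p Q) = Cfsg.maxOmegaCenterOfMinimalCL p S →
      ∃ R : Subgroup S, Cfsg.IsMinimalCentrallyLarge R ∧ R ≤ P0.subgroupOf S ∧
        Nat.card ↥(Cfsg.omegaOneCenter p R) = Cfsg.maxOmegaCenterOfMinimalCL p S ∧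
        (frattini ↥Q).map Q.subtype ≤ (frattini ↥R).map R.subtype := by
    intro Q hQ hQΩ
    by_cases hnS : S.Normal
    · haveI := hnS
      exact ⟨Q, hQ, fun x _ => CfsgLib.Cores.le_pCore hSp x.2, hQΩ, le_rfl⟩
    obtain ⟨V₁, hV₁n, hV₁P, hexp, hCL, hdec⟩ := PushingUp.exists_omega_decomp S hE hJ hnZ hnS
    haveI := hV₁n
    have hV₁S : V₁ ≤ S := hV₁P.trans (inf_le_left.trans hP0S)
    obtain ⟨R, hR, hRP, hRΩ, hRΦ⟩ := PushingUp.exists_omega_replacement hSp (P0.subgroupOf S)
      (V₁.subgroupOf S) hCL (fun v hv => ⟨(hV₁P hv).1, Subgroup.mem_centralizer_iff.2 fun w hw =>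
        Subtype.ext ((hV₁P hv).2 (w : G) hw)⟩)
      (fun v hv => Subtype.ext (by simpa using hexp v hv))
      (fun z hz => by
        have h1 : (z : G) ∈ P0 ⊓ Subgroup.centralizer (P0 : Set G) := ⟨hz.1,
          Subgroup.mem_centralizer_iff.2 fun w hw => congrArg S.subtype (hz.2 ⟨w, hP0S hw⟩ hw)⟩
        have h2 := hdec h1
        rw [← SetLike.mem_coe, Subgroup.coe_mul_of_left_le_normalizer_right _ _
          (by rw [Subgroup.normalizer_eq_top]; exact le_top)] at h2
        obtain ⟨a, ha, v, hv, hav⟩ := h2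
        have : z = ⟨a, ha.1⟩ * ⟨v, hV₁S hv⟩ := Subtype.ext hav.symm
        rw [this]
        exact Subgroup.mul_mem_sup (Subgroup.mem_center_iff.2 fun s => Subtype.ext (ha.2 s s.2)) hv)
      hQ (fun R hR => hQΩ ▸ hle R hR)
    exact ⟨R, hR, hRP, hRΩ.trans hQΩ, hRΦ⟩
  have hle' : ∀ g : G, (Cfsg.frattiniOfMinimalCLJoin p S).map S.subtype ≤
      ((Cfsg.frattiniOfMinimalCLJoin p S).map S.subtype).comap (MulAut.conj g).toMonoidHom := by
    intro g
    rw [← Subgroup.map_le_iff_le_comap, Cfsg.frattiniOfMinimalCLJoin, Subgroup.map_iSup,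
      Subgroup.map_iSup]
    refine iSup_le fun ⟨Q, hQ, hQΩ⟩ => ?_
    obtain ⟨R, hR, hRP, hRΩ, hΦ⟩ := hcover Q hQ hQΩ
    obtain ⟨R', hR', hR'P, hmap⟩ := PushingUp.exists_conj_minimal S hP0S hR hRP g
    have hcinj := (MulAut.conj g).injective
    have hR'Ω : Nat.card ↥(Cfsg.omegaOneCenter p R') = Cfsg.maxOmegaCenterOfMinimalCL p S := by
      rw [← Subgroup.card_map_of_injective (f := S.subtype) S.subtype_injective,
        PushingUp.map_omegaOneCenter S.subtype_injective, hmap,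
        ← PushingUp.map_omegaOneCenter hcinj, Subgroup.card_map_of_injective hcinj,
        ← PushingUp.map_omegaOneCenter S.subtype_injective,
        Subgroup.card_map_of_injective S.subtype_injective]
      exact hRΩ
    refine le_trans (Subgroup.map_mono (Subgroup.map_mono hΦ)) (le_iSup_of_le ⟨R', hR', hR'Ω⟩ (le_of_eq ?_))
    rw [PushingUp.map_frattini_map S.subtype_injective R (hSp.to_subgroup R),
      PushingUp.map_frattini_map (p := p) hcinj _ ((hSp.to_subgroup R).map _),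
      PushingUp.map_frattini_map S.subtype_injective R' (hSp.to_subgroup R'), hmap]
  exact ⟨fun z hz g => hle' g hz⟩

end Cfsg.Agent.S2989
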