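import Cfsg.Statements.S2998

set_option autoImplicit false
open Cfsg

namespace Cfsg.Agent.S2998

/-- Let G be a finite group, p a prime, P a Sylow p-subgroup of G and x ∈ P an element such that N_G(R) ≤ C_G(x) for every nontrivial subgroup R of P. Then P ≤ C_G(x); every G-conjugate of x lying in P equals x (so g ∈ C_G(x) whenever g x g⁻¹ ∈ P); and for every normal subgroup N of G, the image of x in G ⧸ N has the same property with respect to the image of P: the normalizer of every nontrivial subgroup of the image of P centralizes the image of x. -/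
theorem result {G : Type*} [Group G] [Finite G] {p : ℕ} [Fact p.Prime] (P : Sylow p G) (x : G) (hxP : x ∈ (P : Subgroup G)) (hlc : ∀ R : Subgroup G, R ≤ (P : Subgroup G) → R ≠ ⊥ → Subgroup.normalizer (R : Set G) ≤ Subgroup.centralizer ({x} : Set G)) : (P : Subgroup G) ≤ Subgroup.centralizer ({x} : Set G) ∧ (∀ g : G, g * x * g⁻¹ ∈ (P : Subgroup G) → g * x * g⁻¹ = x) ∧ ∀ (N : Subgroup G) [N.Normal], ∀ R : Subgroup (G ⧸ N), R ≤ (P : Subgroup G).map (QuotientGroup.mk' N) → R ≠ ⊥ → Subgroup.normalizer (R : Set (G ⧸ N)) ≤ Subgroup.centralizer ({(QuotientGroup.mk x : G ⧸ N)} : Set (G ⧸ N)) := by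
  have hPc : (P : Subgroup G) ≤ Subgroup.centralizer ({x} : Set G) := by
    by_cases hP : (P : Subgroup G) = ⊥
    · rw [hP]; exact bot_le
    · exact Subgroup.le_normalizer.trans (hlc P le_rfl hP)
  have hPn : Subgroup.normalizer ((P : Subgroup G) : Set G) ≤ Subgroup.centralizer ({x} : Set G) := by
    by_cases hP : (P : Subgroup G) = ⊥
    · have : x = 1 := by rwa [hP, Subgroup.mem_bot] at hxP
      intro g _
      simp [this, Subgroup.mem_centralizer_singleton_iff]
    · exact hlc P le_rfl hP
  refine ⟨hPc, fun g hg => ?_, fun N _ R hR hRne => ?_⟩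
  · rcases eq_or_ne x 1 with rfl | hx1
    · simp
    set y := g * x * g⁻¹ with hy
    have hy1 : y ≠ 1 := by simpa [hy] using hx1
    have hgP : ∀ a ∈ (P : Subgroup G), g * a * g⁻¹ ∈ Subgroup.centralizer ({x} : Set G) := by
      intro a ha
      refine hlc (Subgroup.zpowers y) ((Subgroup.zpowers_le).2 hg)
        (by simpa [Subgroup.zpowers_ne_bot] using hy1) ?_
      refine Subgroup.centralizer_le_normalizer _ ?_
      rw [Subgroup.mem_centralizer_iff]
      rintro z ⟨i, rfl⟩
      have h0 : Commute x a := (Subgroup.mem_centralizer_singleton_iff.1 (hPc ha)).symm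
      have : Commute y (g * a * g⁻¹) := by
        simpa [MulAut.conj_apply, hy] using h0.map (MulAut.conj g).toMonoidHom
      exact (this.zpow_left i).eq
    -- `x` lies in `g P g⁻¹`
    have hxgP : x ∈ ((g • P : Sylow p G) : Subgroup G) := by
      have hA : IsPGroup p (Subgroup.zpowers x) := P.2.to_le ((Subgroup.zpowers_le).2 hxP)
      have hn : Subgroup.zpowers x ≤
          Subgroup.normalizer (((g • P : Sylow p G) : Subgroup G) : Set G) := by
        refine le_trans ?_ (Subgroup.centralizer_le_normalizer _)
        rw [Subgroup.zpowers_le, Subgroup.mem_centralizer_iff]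
        intro z hz
        rw [SetLike.mem_coe, Sylow.coe_subgroup_smul, Subgroup.mem_pointwise_smul_iff_inv_smul_mem] at hz
        have := hgP _ hz
        simp only [MulAut.smul_def, MulAut.conj_inv_apply, Subgroup.mem_centralizer_singleton_iff,
          mul_assoc, mul_inv_cancel_left, mul_inv_cancel, mul_one] at this
        exact this
      have h1 := (IsPGroup.sylow_mem_fixedPoints_iff hA).1 ((Subgroup.sylow_mem_fixedPoints_iff _).2 hn)
      exact h1 (Subgroup.mem_zpowers x)
    have hle1 : ((g • P : Sylow p G) : Subgroup G) ≤ Subgroup.centralizer ({x} : Set G) := by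
      intro z hz
      rw [Sylow.coe_subgroup_smul, Subgroup.mem_pointwise_smul_iff_inv_smul_mem] at hz
      have := hgP _ hz
      simpa [MulAut.smul_def, mul_assoc] using this
    obtain ⟨c, hc⟩ := MulAction.exists_smul_eq (Subgroup.centralizer ({x} : Set G))
      ((g • P : Sylow p G).subtype hle1) (P.subtype hPc)
    have hc2 : ((c : G) * g) • P = P := by
      rw [Sylow.smul_subtype] at hc
      have := Sylow.subtype_injective hc
      rw [mul_smul]
      exact this
    have h3 : (c : G) * g ∈ Subgroup.centralizer ({x} : Set G) :=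
      hPn (Sylow.smul_eq_iff_mem_normalizer.1 hc2)
    have h4 := mul_mem (inv_mem c.2) h3
    rw [inv_mul_cancel_left, Subgroup.mem_centralizer_singleton_iff] at h4
    exact mul_inv_eq_iff_eq_mul.2 h4
  · intro q hq
    induction q using QuotientGroup.induction_on with
    | H g =>
      set f := QuotientGroup.mk' N with hf
      set K : Subgroup G := R.comap f with hK
      set R0 : Subgroup G := (P : Subgroup G) ⊓ K with hR0
      have hNK : N ≤ K := fun n hn => by
        have : f n = 1 := (QuotientGroup.eq_one_iff n).2 hn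
        simp [hK, this]
      have hR0K : ∀ r ∈ K, ∃ a ∈ R0, r * a⁻¹ ∈ N := by
        intro r hr
        obtain ⟨a, haP, hae⟩ := hR hr
        refine ⟨a, ⟨haP, ?_⟩, ?_⟩
        · show f a ∈ R
          rw [hae]; exact hr
        · rw [← QuotientGroup.eq_one_iff]
          change f (r * a⁻¹) = 1
          rw [map_mul, map_inv, hae, mul_inv_cancel]
      have hR0ne : R0 ≠ ⊥ := by
        intro h0
        apply hRne
        refine (Subgroup.eq_bot_iff_forall _).2 fun r hr => ?_
        obtain ⟨a, haP, hae⟩ := hR hr
        have : a ∈ R0 := ⟨haP, by show f a ∈ R; rw [hae]; exact hr⟩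
        rw [h0, Subgroup.mem_bot] at this
        rw [← hae, this, map_one]
      -- `R0` is a Sylow subgroup of `K`
      have hmax : ∀ T : Subgroup G, IsPGroup p T → T ≤ K → R0 ≤ T → Nat.card T ≤ Nat.card R0 := by
        intro T hT hTK hle
        obtain ⟨Q, hQ⟩ := hT.exists_le_sylow
        -- compare inside `N` and modulo `N`
        have h1 : Nat.card T = Nat.card (T.map f) * Nat.card ↥(T ⊓ N) := by
          have := Subgroup.relIndex_mul_relIndex (H := ⊥) (K := T ⊓ N) (L := T) bot_le inf_le_left
          simp only [Subgroup.relIndex_bot_left, Subgroup.inf_relIndex_left] at this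
          rw [← this, mul_comm, ← Subgroup.relIndex_ker, hf, QuotientGroup.ker_mk']
        have h2 : Nat.card R0 = Nat.card (R0.map f) * Nat.card ↥(R0 ⊓ N) := by
          have := Subgroup.relIndex_mul_relIndex (H := ⊥) (K := R0 ⊓ N) (L := R0) bot_le inf_le_left
          simp only [Subgroup.relIndex_bot_left, Subgroup.inf_relIndex_left] at this
          rw [← this, mul_comm, ← Subgroup.relIndex_ker, hf, QuotientGroup.ker_mk']
        have h3 : T.map f ≤ R0.map f := by
          rintro _ ⟨t, ht, rfl⟩
          obtain ⟨a, ha, hae⟩ := hR0K t (hTK ht)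
          refine ⟨a, ha, ?_⟩
          rw [← QuotientGroup.eq_one_iff] at hae
          change f (t * a⁻¹) = 1 at hae
          rwa [map_mul, map_inv, mul_inv_eq_one, eq_comm] at hae
        have hPN : IsPGroup p (T ⊓ N : Subgroup G) := hT.to_le inf_le_left
        have hPN0 : R0 ⊓ N = (P : Subgroup G) ⊓ N := by
          rw [hR0, inf_assoc, inf_eq_right.2 hNK]
        have h4 : Nat.card ↥(T ⊓ N) ≤ Nat.card ↥(R0 ⊓ N) := by
          rw [hPN0]
          obtain ⟨j, hj⟩ := IsPGroup.iff_card.1 hPN
          have hd1 : p ^ j ∣ Nat.card N := hj ▸ Subgroup.card_dvd_of_le inf_le_right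
          have hd2 : ¬ p ∣ ((P : Subgroup G) ⊓ N).relIndex N := by
            rw [Subgroup.inf_relIndex_right]
            intro hd
            have c1 := Subgroup.card_mul_index ((P : Subgroup G) ⊔ N)
            have c2 := Subgroup.relIndex_mul_relIndex (H := ⊥) (K := (P : Subgroup G))
              (L := (P : Subgroup G) ⊔ N) bot_le le_sup_left
            have c3 := Subgroup.relIndex_mul_relIndex (H := ⊥) (K := N)
              (L := (P : Subgroup G) ⊔ N) bot_le le_sup_right
            have c4 := Subgroup.relIndex_mul_relIndex (H := ⊥) (K := (P : Subgroup G) ⊓ N)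
              (L := (P : Subgroup G)) bot_le inf_le_left
            have c5 := Subgroup.relIndex_mul_relIndex (H := ⊥) (K := (P : Subgroup G) ⊓ N)
              (L := N) bot_le inf_le_right
            simp only [Subgroup.relIndex_bot_left, Subgroup.inf_relIndex_left, Subgroup.inf_relIndex_right,
              Subgroup.relIndex_sup_right] at c2 c3 c4 c5
            have e : (P : Subgroup G).relIndex ((P : Subgroup G) ⊔ N) = (P : Subgroup G).relIndex N := by
              refine Nat.eq_of_mul_eq_mul_left (Nat.card_pos (α := P)) ?_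
              rw [c2, ← c3, ← c4, ← c5]
              ring
            exact P.not_dvd_index (hd.trans (e ▸ Subgroup.relIndex_dvd_index_of_le le_sup_left))
          have hd3 : Nat.card ↥((P : Subgroup G) ⊓ N) * ((P : Subgroup G) ⊓ N).relIndex N = Nat.card N := by
            have := Subgroup.relIndex_mul_relIndex (H := ⊥) (K := (P : Subgroup G) ⊓ N) (L := N)
              bot_le inf_le_right
            simpa only [Subgroup.relIndex_bot_left] using this
          rw [← hd3] at hd1
          rw [hj]
          exact Nat.le_of_dvd Nat.card_pos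
            ((Nat.Coprime.pow_left j ((Fact.out : p.Prime).coprime_iff_not_dvd.2 hd2)).dvd_of_dvd_mul_right hd1)
        rw [h1, h2]
        exact Nat.mul_le_mul (Nat.le_of_dvd Nat.card_pos (Subgroup.card_dvd_of_le h3)) h4
      have hR0p : IsPGroup p R0 := P.2.to_le inf_le_left
      obtain ⟨S, hS⟩ := (hR0p.comap_subtype (K := K)).exists_le_sylow
      have hSeq : (S : Subgroup K).map K.subtype = R0 := by
        have hle : R0 ≤ (S : Subgroup K).map K.subtype := fun r hr =>
          ⟨⟨r, hr.2⟩, hS hr, rfl⟩
        exact (Subgroup.eq_of_le_of_card_ge hle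
          (hmax _ (S.2.map _) (Subgroup.map_subtype_le _) hle)).symm
      have hgK : ∀ r, r ∈ K ↔ g * r * g⁻¹ ∈ K := fun r => by
        have := Subgroup.mem_normalizer_iff.1 hq (f r)
        change f r ∈ R ↔ f (g * r * g⁻¹) ∈ R
        rw [map_mul, map_mul, map_inv]
        exact this
      -- Frattini
      have hgn : g ∈ Subgroup.normalizer (K : Set G) := Subgroup.mem_normalizer_iff.2 hgK
      set L := Subgroup.normalizer (K : Set G)
      have : (K.subgroupOf L).Normal := Subgroup.normal_subgroupOf_of_le_normalizer le_rfl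
      let e : ↥(K.subgroupOf L) ≃* K := Subgroup.subgroupOfEquivOfLe Subgroup.le_normalizer
      let S' : Sylow p ↥(K.subgroupOf L) := S.comapOfInjective e.toMonoidHom e.injective
        (fun z _ => ⟨e.symm z, e.apply_symm_apply z⟩)
      have hfr := S'.normalizer_sup_eq_top
      have hmap : (S'.map (K.subgroupOf L).subtype).map L.subtype = R0 := by
        rw [← hSeq]
        ext z
        constructor
        · rintro ⟨_, ⟨a, ha, rfl⟩, rfl⟩
          exact ⟨e a, ha, rfl⟩
        · rintro ⟨b, hb, rfl⟩
          refine ⟨_, ⟨e.symm b, ?_, rfl⟩, rfl⟩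
          show e (e.symm b) ∈ (S : Subgroup K)
          rwa [e.apply_symm_apply]
      obtain ⟨a, ha, b, hb, hab⟩ := (Subgroup.mem_sup_of_normal_right (t := K.subgroupOf L)).1
        (hfr.symm ▸ Subgroup.mem_top (⟨g, hgn⟩ : L))
      have haR : (a : G) ∈ Subgroup.normalizer (R0 : Set G) := by
        have := Subgroup.le_normalizer_map L.subtype
          (Subgroup.mem_map_of_mem L.subtype ha)
        rwa [hmap] at this
      have hac : (a : G) ∈ Subgroup.centralizer ({x} : Set G) := hlc R0 inf_le_left hR0ne haR
      obtain ⟨r, hr, hre⟩ := hR0K (b : G) hb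
      have hrc : r ∈ Subgroup.centralizer ({x} : Set G) := hPc hr.1
      have hge : f g = f ((a : G) * r) := by
        rw [← QuotientGroup.eq_one_iff] at hre
        change f ((b : G) * r⁻¹) = 1 at hre
        rw [map_mul, map_inv, mul_inv_eq_one] at hre
        have hab' : (a : G) * (b : G) = g := congrArg (Subtype.val : L → G) hab
        rw [← hab', map_mul, map_mul, hre]
      refine Subgroup.mem_centralizer_singleton_iff.2 ?_
      change f g * f x = f x * f g
      rw [hge, ← map_mul, ← map_mul]
      exact congrArg f (Subgroup.mem_centralizer_singleton_iff.1 (mul_mem hac hrc))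

end Cfsg.Agent.S2998
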