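import Cfsg.Statements.S2999
import Cfsg.Agent.Lib.FFModules.SL2Pair.MinimalOffender
import Cfsg.Agent.Lib.FFModules.SL2Pair.StronglyEmbedded

set_option autoImplicit false
open Cfsg

namespace Cfsg.Agent.S2999

/-- Let p be a prime and let P and V be subgroups of a finite group with V elementary abelian, P normalizing V and acting faithfully on it (P ∩ C(V) = 1). Suppose P is p-minimal (a Sylow p-subgroup T of P is not normal and lies in a unique maximal subgroup M of P) and A ≤ T is an elementary abelian subgroup such that: |V/C_V(A)| ≤ |A| while |A₀|·|C_V(A₀)| < |A|·|C_V(A)| for every nontrivial proper subgroup A₀ of A; [C_V(T), P] ≠ 1; and P = ⟨A, xAx⁻¹⟩ for every x ∈ P outside M. Then, with q = |A|, there is a field F with q elements such that P ≅ SL₂(F), C_V(A) = [V, A]·C_V(P), and P acts on V/C_V(P) as SL₂(F) on its natural two-dimensional module. -/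
theorem result {G : Type*} [Group G] [Finite G] {p : ℕ} [Fact p.Prime] (V P : Subgroup G) (hV : Cfsg.IsElementaryAbelian p V) (hPV : P ≤ Subgroup.normalizer (V : Set G)) (hfaith : P ⊓ Subgroup.centralizer (V : Set G) = ⊥) (hmin : Cfsg.IsPMinimal p ↥P) (T : Sylow p ↥P) (M : Subgroup ↥P) (hM : IsCoatom M) (hTM : (T : Subgroup ↥P) ≤ M) (A : Subgroup G) (hAT : A ≤ ((T : Subgroup ↥P).map P.subtype)) (hAel : Cfsg.IsElementaryAbelian p A) (hi : Nat.card ↥V ≤ Nat.card ↥A * Nat.card ↥(V ⊓ Subgroup.centralizer ((A : Subgroup G) : Set G)) ∧ ∀ A₀ : Subgroup G, A₀ ≤ A → A₀ ≠ ⊥ → A₀ ≠ A → Nat.card ↥A₀ * Nat.card ↥(V ⊓ Subgroup.centralizer ((A₀ : Subgroup G) : Set G)) < Nat.card ↥A * Nat.card ↥(V ⊓ Subgroup.centralizer ((A : Subgroup G) : Set G))) (hii : ⁅(V ⊓ Subgroup.centralizer ((((T : Subgroup ↥P).map P.subtype) : Subgroup G) : Set G)), P⁆ ≠ ⊥) (hiii : ∀ x : ↥P, x ∉ M → A ⊔ A.map (MulAut.conj (x : G)).toMonoidHom = P) : ∃ (F : Type) (_ : Field F) (_ : Fintype F), Fintype.card F = Nat.card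 ↥A ∧ Nonempty (↥P ≃* Matrix.SpecialLinearGroup (Fin 2) F) ∧ (V ⊓ Subgroup.centralizer ((A : Subgroup G) : Set G)) = ⁅V, A⁆ ⊔ (V ⊓ Subgroup.centralizer ((P : Subgroup G) : Set G)) ∧ Cfsg.ActsAsSL2OnSection F ⊤ P V (V ⊓ Subgroup.centralizer ((P : Subgroup G) : Set G)) := by
  classical
  open scoped IsMulCommutative commutatorElement in
  haveI : IsMulCommutative ↥V := hV.1
  have hPC : ∀ g ∈ P, g ∈ Subgroup.centralizer (V : Set G) → g = 1 := fun g hg hgC => by
    have : g ∈ P ⊓ Subgroup.centralizer (V : Set G) := ⟨hg, hgC⟩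
    rwa [hfaith, Subgroup.mem_bot] at this
  have hAP : A ≤ P := hAT.trans (Subgroup.map_subtype_le _)
  have hMmem : ∃ x : ↥P, x ∉ M := by
    by_contra hc
    push Not at hc
    exact hM.1 ((Subgroup.eq_top_iff' M).2 hc)
  obtain ⟨x₀, hx₀⟩ := hMmem
  have hA0 : A ≠ ⊥ := by
    rintro rfl
    have h := hiii x₀ hx₀
    rw [Subgroup.map_bot, sup_idem] at h
    subst h
    exact hii (Subgroup.commutator_bot_right _)
  have hAV : A ≤ Subgroup.normalizer (V : Set G) := hAP.trans hPV
  have hbest : Cfsg.IsBestOffenderOn p V A := by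
    refine ⟨fun B hB => ?_, ?_, fun a ha => ?_⟩
    · by_cases hB0 : B = ⊥
      · subst hB0
        rw [Subgroup.card_bot, one_mul]
        exact (Subgroup.card_le_of_le inf_le_left).trans hi.1
      · by_cases hBA : B = A
        · rw [hBA]
        · exact (hi.2 B hB hB0 hBA).le
    · rw [Subgroup.commutator_le]
      intro a ha b hb
      have e := congrArg Subtype.val (hAel.1.1.1 ⟨a, ha⟩ ⟨b, hb⟩)
      rw [commutatorElement_eq_one_iff_mul_comm.2 e]
      exact one_mem _
    · rw [hAel.2 a ha]; exact one_mem _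
  have hAne : ¬ A ≤ Subgroup.centralizer (V : Set G) := fun hle =>
    hA0 ((Subgroup.eq_bot_iff_forall _).2 fun g hg => hPC g (hAP hg) (hle hg))
  obtain ⟨B, hBA, hBne, hBquad, hBμ⟩ :=
    CfsgLib.FFModules.SL2Pair.exists_quadratic hV hAV hbest hAne
  obtain rfl : B = A := by
    by_contra hne
    refine (hi.2 B hBA (fun h0 => hBne ?_) hne).ne hBμ
    rw [h0]; exact bot_le
  letI : DistribMulAction ↥P (Additive ↥V) := CfsgLib.FFModules.SL2Pair.conjAction V P hPV
  have hsmul : ∀ (g : P) (v : Additive ↥V),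
      ((g • v : Additive ↥V).toMul : G) = (g : G) * (v.toMul : G) * (g : G)⁻¹ := fun g v => rfl
  have hcfix : ∀ (g : P) (v : Additive ↥V), g • v = v ↔ (g : G) * (v.toMul : G) = (v.toMul : G) * g :=
    fun g v => CfsgLib.FFModules.SL2Pair.conjAction_smul_eq_iff (V := V) (H := P) (hHV := hPV)
  set A : Subgroup ↥P := B.subgroupOf P with hA
  have hAmap : A.map P.subtype = B := Subgroup.map_subgroupOf_eq_of_le hAP
  have hquad : ∀ a ∈ A, ∀ v : Additive ↥V, a • v - v ∈ CfsgLib.FFModules.SL2Pair.fixedSub A := by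
    intro a ha v b hb
    rw [hcfix]
    have h1 : ((a • v - v : Additive ↥V).toMul : G) = ⁅(v.toMul : G), (a : G)⁆⁻¹ := by
      show ((a • v : Additive ↥V).toMul : G) / (v.toMul : G) = _
      rw [hsmul, div_eq_mul_inv, commutatorElement_inv, commutatorElement_def]
    rw [h1]
    exact (Commute.inv_right (hBquad _ v.toMul.2 _ ha _ hb)).eq
  have hE : CfsgLib.FFModules.SL2Pair.IsMinimalOffender p T M A (Additive ↥V) :=
    { faithful := fun g hg => Subtype.ext (hPC g g.2 (Subgroup.mem_centralizer_iff.2 fun v hv =>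
        ((hcfix g (Additive.ofMul ⟨v, hv⟩)).1 (hg _)).symm))
      exponent := fun v => Additive.toMul.injective (Subtype.ext (by simpa using hV.2 _ v.toMul.2))
      coatom := hM
      sylow_le := hTM
      unique := fun N hN hTN => (hmin T).2.unique ⟨hN, hTN⟩ ⟨hM, hTM⟩
      le_T := fun a ha => by
        obtain ⟨t, ht, e⟩ := hAT (show (a : G) ∈ B from ha)
        exact (Subtype.ext e : t = a) ▸ ht
      quad := hquad
      offender := by
        rw [CfsgLib.FFModules.SL2Pair.card_conjAction_fixedSub (hHV := hPV), hAmap,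
          Nat.card_congr (Subgroup.subgroupOfEquivOfLe hAP).toEquiv]
        exact hi.1
      minimal := fun A₀ hA₀ hA₀0 hA₀A => by
        rw [CfsgLib.FFModules.SL2Pair.card_conjAction_fixedSub (hHV := hPV),
          CfsgLib.FFModules.SL2Pair.card_conjAction_fixedSub (hHV := hPV), hAmap,
          Nat.card_congr (Subgroup.subgroupOfEquivOfLe hAP).toEquiv,
          Nat.card_congr (A₀.equivMapOfInjective P.subtype P.subtype_injective).toEquiv]
        refine hi.2 _ ?_ (fun e => hA₀0 ((Subgroup.map_eq_bot_iff_of_injective _ P.subtype_injective).1 e))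
          fun e => hA₀A (Subgroup.map_injective P.subtype_injective (e.trans hAmap.symm))
        exact (Subgroup.map_mono hA₀).trans hAmap.le
      moved := by
        by_contra hc
        push Not at hc
        refine hii (Subgroup.commutator_eq_bot_iff_le_centralizer.2 fun v hv =>
          Subgroup.mem_centralizer_iff.2 fun g hg => ?_)
        exact (hcfix ⟨g, hg⟩ (Additive.ofMul ⟨v, hv.1⟩)).1 (hc (Additive.ofMul ⟨v, hv.1⟩)
          ((CfsgLib.FFModules.SL2Pair.conjAction_fixedSub (hHV := hPV)).2 hv.2) _)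
      gen := fun x hx => by
        apply Subgroup.map_injective P.subtype_injective
        have he : (A.map (MulAut.conj x).toMonoidHom).map P.subtype =
            B.map (MulAut.conj (x : G)).toMonoidHom := by
          rw [← hAmap, Subgroup.map_map, Subgroup.map_map]
          congr 1
        rw [Subgroup.map_sup, he, hAmap, hiii x hx, ← MonoidHom.range_eq_map, Subgroup.range_subtype] }
  obtain ⟨F, hF, hF', ρ, ψ, hcard, hψ, hψ0, hρ, hspan⟩ := hE.exists_sl2
  refine ⟨F, hF, hF', ?_, ⟨ρ⟩, ?_, hPV, inf_le_left, ρ.toMonoidHom,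
    MonoidHom.mk' (fun u => Multiplicative.ofAdd (ψ (Additive.ofMul u))) (fun u w => by
      rw [ofMul_mul, map_add, ofAdd_add]), ?_, ?_, ?_, ?_⟩
  · rw [hcard, Nat.card_congr (Subgroup.subgroupOfEquivOfLe hAP).toEquiv]
  · set R : Subgroup G := ⁅V, B⁆ ⊔ V ⊓ Subgroup.centralizer ((P : Subgroup G) : Set G)
    apply le_antisymm
    · intro c hc
      let S : AddSubgroup (Additive ↥V) :=
        { carrier := {u | (u.toMul : G) ∈ R}
          zero_mem' := R.one_mem
          add_mem' := fun {u w} hu hw => R.mul_mem hu hw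
          neg_mem' := fun {u} hu => R.inv_mem hu }
      have h1 := hspan S (fun u hu => Subgroup.mem_sup_right ⟨u.toMul.2,
          Subgroup.mem_centralizer_iff.2 fun g hg => (hcfix ⟨g, hg⟩ u).1 (hu _)⟩)
        (fun a ha u => ?_)
      · exact h1 (show Additive.ofMul (⟨c, hc.1⟩ : ↥V) ∈ CfsgLib.FFModules.SL2Pair.fixedSub A from
          (CfsgLib.FFModules.SL2Pair.conjAction_fixedSub (hHV := hPV)).2 (by rw [hAmap]; exact hc.2))
      · show ((a • u : Additive ↥V).toMul : G) / (u.toMul : G) ∈ R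
        have h2 : ⁅(u.toMul : G), (a : G)⁆⁻¹ ∈ R :=
          R.inv_mem (Subgroup.mem_sup_left (Subgroup.commutator_mem_commutator u.toMul.2 ha))
        rwa [commutatorElement_inv, commutatorElement_def, ← hsmul, ← div_eq_mul_inv] at h2
    · refine sup_le (Subgroup.commutator_le.2 fun v hv a ha => ⟨?_, ?_⟩)
        (inf_le_inf_left _ (Subgroup.centralizer_le hAP))
      · exact Subgroup.le_normalizer_iff_commutator_le_left.1 hAV
          (Subgroup.commutator_mem_commutator hv ha)
      · exact Subgroup.mem_centralizer_iff.2 fun b hb => hBquad v hv a ha b hb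
  · exact MonoidHom.range_eq_top.2 ρ.surjective
  · intro y
    obtain ⟨v, hv⟩ := hψ y.toAdd
    exact ⟨v.toMul, congrArg Multiplicative.ofAdd hv⟩
  · intro u
    show Multiplicative.ofAdd (ψ (Additive.ofMul u)) = 1 ↔ _
    rw [ofAdd_eq_one, hψ0]
    exact ⟨fun h => ⟨u.2, Subgroup.mem_centralizer_iff.2 fun g hg => (hcfix ⟨g, hg⟩ _).1 (h _)⟩,
      fun h g => (hcfix g _).2 (Subgroup.mem_centralizer_iff.1 h.2 g g.2)⟩
  · intro e u
    exact ⟨(e • (Additive.ofMul u : Additive ↥V)).toMul, rfl, hρ e (Additive.ofMul u)⟩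

end Cfsg.Agent.S2999
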