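import Cfsg.Statements.S3000
import Cfsg.Agent.Lib.FFModules.MinimalParabolic.Bridge
import Cfsg.Agent.Lib.FFModules.MinimalParabolic.Moved

set_option autoImplicit false
open Cfsg

namespace Cfsg.Agent.S3000

/-- Let p be a prime and let P and V be subgroups of a finite group with V elementary abelian, P normalizing V and acting faithfully on it (P ∩ C(V) = 1). Suppose P is p-minimal (a Sylow p-subgroup T of P is not normal and lies in a unique maximal subgroup M of P), O_p(P) = 1, C_P(C_V(T)) ≤ M, and P has a best offender on V: a subgroup A not centralizing V, with A/C_A(V) elementary abelian, such that |B|·|C_V(B)| ≤ |A|·|C_V(A)| for every subgroup B of A. Then there are subgroups E₁, …, E_r of P (r ≥ 1), pairwise commuting and forming with T a product P = (E₁ × ⋯ × E_r)T (internal direct product of the E_i), any two of which are conjugate by an element of T, such that V = C_V(E₁⋯E_r)·∏[V, E_i] with [V, E_i, E_j] = 1 for i ≠ j, and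 for each i there is n ≥ 1 with either E_i ≅ SL₂(pⁿ) acting on [V, E_i]/C_{[V,E_i]}(E_i) as on its natural two-dimensional module, or p = 2 and E_i isomorphic to the symmetric group of degree 2ⁿ + 1 acting on [V, E_i]/C_{[V,E_i]}(E_i) as on its even-weight permutation module. -/
theorem result {G : Type*} [Group G] [Finite G] {p : ℕ} [Fact p.Prime] (V P : Subgroup G) (hV : Cfsg.IsElementaryAbelian p V) (hPV : P ≤ Subgroup.normalizer (V : Set G)) (hfaith : P ⊓ Subgroup.centralizer (V : Set G) = ⊥) (hmin : Cfsg.IsPMinimal p ↥P) (T : Sylow p ↥P) (M : Subgroup ↥P) (hM : IsCoatom M) (hTM : (T : Subgroup ↥P) ≤ M) (hOp : Cfsg.pCore p ↥P = ⊥) (hoff : ∃ A : Subgroup G, A ≤ P ∧ ¬ A ≤ Subgroup.centralizer (V : Set G) ∧ Cfsg.IsBestOffenderOn p V A) (hCT : P ⊓ Subgroup.centralizer ((V ⊓ Subgroup.centralizer ((((T : Subgroup ↥P).map P.subtype) : Subgroup G) : Set G)) : Set G) ≤ M.map P.subtype) : ∃ (r : ℕ) (E : Fin r → Subgroup G), 1 ≤ r ∧ (∀ i, E i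 ≤ P) ∧ (∀ i j, i ≠ j → ⁅E i, E j⁆ = ⊥) ∧ (∀ i, E i ⊓ (⨆ j ∈ {j | j ≠ i}, E j) = ⊥) ∧ (⨆ i, E i) ⊔ ((T : Subgroup ↥P).map P.subtype) = P ∧ (∀ i j, ∃ t ∈ ((T : Subgroup ↥P).map P.subtype), (E i).map (MulAut.conj t).toMonoidHom = E j) ∧ (V ⊓ Subgroup.centralizer (((⨆ i, E i) : Subgroup G) : Set G)) ⊔ (⨆ i, ⁅V, E i⁆) = V ∧ (∀ i j, i ≠ j → ⁅⁅V, E i⁆, E j⁆ = ⊥) ∧ ∀ i, ∃ n : ℕ, 1 ≤ n ∧ ((∃ (F : Type) (_ : Field F) (_ : Fintype F), Fintype.card F = p ^ n ∧ Nonempty (↥(E i) ≃* Matrix.SpecialLinearGroup (Fin 2) F) ∧ Cfsg.ActsAsSL2OnSection F ⊤ (E i) ⁅V, E i⁆ (⁅V, E i⁆ ⊓ Subgroup.centralizer ((E i : Subgroup G) : Set G))) ∨ (p = 2 ∧ Nonempty (↥(E i) ≃* Equiv.Perm (Fin (2 ^ n + 1))) ∧ Cfsg.ActsAsOddPermModuleOnSection (2 ^ n + 1) ⊤ (E i) ⁅V, E i⁆ (⁅V, E i⁆ ⊓ Subgroup.centralizer ((E i : Subgroup G) : Set G)))) := by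
  classical
  open scoped IsMulCommutative commutatorElement Pointwise in
  haveI : IsMulCommutative ↥V := hV.1
  obtain ⟨A, hAP, hAne, hbest⟩ := hoff
  obtain ⟨B, hBA, hBne, hBquad, hBμ⟩ :=
    CfsgLib.FFModules.SL2Pair.exists_quadratic hV (hAP.trans hPV) hbest hAne
  have hPC : ∀ g ∈ P, g ∈ Subgroup.centralizer (V : Set G) → g = 1 := fun g hg hgC => by
    have : g ∈ P ⊓ Subgroup.centralizer (V : Set G) := ⟨hg, hgC⟩
    rwa [hfaith, Subgroup.mem_bot] at this
  have hBP : B ≤ P := hBA.trans hAP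
  letI : DistribMulAction ↥P (Additive ↥V) := CfsgLib.FFModules.SL2Pair.conjAction V P hPV
  have hcfix : ∀ (g : P) (v : Additive ↥V), g • v = v ↔ (g : G) * (v.toMul : G) = (v.toMul : G) * g :=
    fun g v => CfsgLib.FFModules.SL2Pair.conjAction_smul_eq_iff (V := V) (H := P) (hHV := hPV)
  obtain ⟨M₀, ⟨-, -⟩, huniq⟩ := (hmin T).2
  have hSet : CfsgLib.FFModules.MinimalParabolic.Setting p T M (Additive ↥V) :=
    { faithful := fun g hg => Subtype.ext (hPC g g.2 (Subgroup.mem_centralizer_iff.2 fun v hv =>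
        ((hcfix g (Additive.ofMul ⟨v, hv⟩)).1 (hg _)).symm))
      exponent := fun v => Additive.toMul.injective (Subtype.ext (by simpa using hV.2 _ v.toMul.2))
      coatom := hM
      sylow_le := hTM
      unique := fun N hN hTN => (huniq N ⟨hN, hTN⟩).trans (huniq M ⟨hM, hTM⟩).symm
      not_normal := (hmin T).1
      core := hOp
      moved := fun g hg => by
        by_contra hno
        push Not at hno
        refine hg ?_
        have : (g : G) ∈ M.map P.subtype := hCT ⟨g.2, Subgroup.mem_centralizer_iff.2 fun x hx => ?_⟩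
        · obtain ⟨y, hy, e⟩ := this
          exact Subtype.ext e ▸ hy
        · exact ((hcfix g (Additive.ofMul ⟨x, hx.1⟩)).1
            (hno _ ((CfsgLib.FFModules.SL2Pair.conjAction_fixedSub (hHV := hPV)).2 hx.2))).symm }
  have hBase := hSet.toBase
  set B' : Subgroup ↥P := B.subgroupOf P with hB'
  have hBmap : B'.map P.subtype = B := Subgroup.map_subgroupOf_eq_of_le hBP
  have hquad : ∀ a ∈ B', ∀ v : Additive ↥V, a • v - v ∈ CfsgLib.FFModules.SL2Pair.fixedSub B' := by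
    intro a ha v b hb
    rw [hcfix]
    have h1 : ((a • v - v : Additive ↥V).toMul : G) = ⁅(v.toMul : G), (a : G)⁆⁻¹ := by
      show ((a : G) * (v.toMul : G) * (a : G)⁻¹) / (v.toMul : G) = _
      rw [div_eq_mul_inv, commutatorElement_inv, commutatorElement_def]
    rw [h1]
    exact (Commute.inv_right (hBquad _ v.toMul.2 _ ha _ hb)).eq
  have hBp : IsPGroup p B' := by
    rintro ⟨a, ha⟩
    refine ⟨1, Subtype.ext ?_⟩
    exact hBase.faithful _ fun v => by
      show (a ^ p ^ 1) • v = v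
      rw [CfsgLib.FFModules.SL2Pair.pow_smul_of_mem_seriesStab
        (C := CfsgLib.FFModules.SL2Pair.fixedSub B') (CfsgLib.FFModules.SL2Pair.mem_seriesStab.2
          ⟨fun _ hu => hu a ha, hquad a ha⟩), pow_one, hBase.exponent, add_zero]
  have hne : B' ≠ ⊥ := fun e => hBne (by
    rw [← hBmap, e, Subgroup.map_bot]; exact bot_le)
  have hoff : Nat.card (Additive ↥V) ≤ CfsgLib.FFModules.MinimalParabolic.mu B' (Additive ↥V) := by
    rw [CfsgLib.FFModules.MinimalParabolic.mu,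
      CfsgLib.FFModules.SL2Pair.card_conjAction_fixedSub (hHV := hPV), hBmap,
      Nat.card_congr (Subgroup.subgroupOfEquivOfLe hBP).toEquiv, hBμ,
      Nat.card_congr Additive.toMul]
    have h1 := hbest.1 ⊥ bot_le
    rw [Subgroup.card_bot, one_mul, Subgroup.coe_bot] at h1
    refine le_trans (Subgroup.card_le_of_le ?_) h1
    intro x hx
    refine ⟨hx, Subgroup.mem_centralizer_iff.2 ?_⟩
    rintro y rfl
    rw [one_mul, mul_one]
  obtain ⟨B₀, -, hB₀⟩ := CfsgLib.FFModules.MinimalParabolic.exists_min ⟨hBp, hquad⟩ hne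
    (le_antisymm (CfsgLib.FFModules.MinimalParabolic.noOver hSet _ ⟨hBp, hquad⟩) hoff)
  obtain ⟨r, E, hr, hE, htop, hconj, htype, -⟩ := hSet.hasStructure hB₀
  have hfix : ∀ (X : Subgroup ↥P) (x : G) (hx : x ∈ V),
      Additive.ofMul (⟨x, hx⟩ : ↥V) ∈ CfsgLib.FFModules.SL2Pair.fixedSub X ↔
        x ∈ Subgroup.centralizer ((X.map P.subtype : Subgroup G) : Set G) := fun X x hx =>
    CfsgLib.FFModules.SL2Pair.conjAction_fixedSub (hHV := hPV)
  have hcommsub : ∀ i x, x ∈ ⁅V, (E i).map P.subtype⁆ ↔ _ := fun i =>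
    CfsgLib.FFModules.MinimalParabolic.commutator_eq_moves hPV (E i)
  refine ⟨r, fun i => (E i).map P.subtype, hr, fun i => Subgroup.map_subtype_le _, fun i j hij => ?_,
    fun i => ?_, ?_, fun i j => ?_, ?_, fun i j hij => ?_, fun i => ?_⟩
  · rw [Subgroup.commutator_eq_bot_iff_le_centralizer]
    rintro _ ⟨x, hx, rfl⟩
    refine Subgroup.mem_centralizer_iff.2 ?_
    rintro _ ⟨y, hy, rfl⟩
    exact congrArg Subtype.val (hE.comm i j hij x hx y hy).symm
  · have h1 : (⨆ j ∈ {j | j ≠ i}, (E j).map P.subtype) = (⨆ j ∈ {j | j ≠ i}, E j).map P.subtype := by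
      simp only [Subgroup.map_iSup]
    rw [h1, ← Subgroup.map_inf _ _ _ P.subtype_injective,
      hE.inf_iSup_eq_bot hSet.faithful i, Subgroup.map_bot]
  · rw [← Subgroup.map_iSup, ← Subgroup.map_sup, htop, ← MonoidHom.range_eq_map, Subgroup.range_subtype]
  · obtain ⟨t, ht, e⟩ := hconj i j
    refine ⟨(t : G), ⟨t, ht, rfl⟩, ?_⟩
    beta_reduce
    rw [← e, Subgroup.map_map]
    exact ((Subgroup.map_map (E i) P.subtype (MulAut.conj t).toMonoidHom).trans rfl).symm
  · refine le_antisymm (sup_le inf_le_left (iSup_le fun i => fun x hx => ((hcommsub i x).1 hx).1)) ?_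
    intro x hx
    have h1 : Additive.ofMul (⟨x, hx⟩ : ↥V) ∈ CfsgLib.FFModules.SL2Pair.fixedSub (⨆ i, E i) ⊔
        ⨆ i, CfsgLib.FFModules.MinimalParabolic.moves (E i) (Additive ↥V) := by
      rw [hE.fix_sup_moves]; exact AddSubgroup.mem_top _
    obtain ⟨c, hc, m, hm, e⟩ := AddSubgroup.mem_sup.1 h1
    have ex : x = (c.toMul : G) * (m.toMul : G) :=
      (congrArg (fun z : Additive ↥V => (z.toMul : G)) e).symm
    rw [ex]
    refine Subgroup.mul_mem_sup ⟨c.toMul.2, ?_⟩ ?_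
    · rw [← Subgroup.map_iSup]
      exact (hfix _ _ c.toMul.2).1 hc
    · clear e ex
      induction hm using AddSubgroup.iSup_induction' with
      | hp i z hz => exact Subgroup.mem_iSup_of_mem i ((hcommsub i _).2 ⟨z.toMul.2, hz⟩)
      | h1 => exact one_mem _
      | hadd a b _ _ ha hb => exact mul_mem ha hb
  · rw [Subgroup.commutator_eq_bot_iff_le_centralizer]
    intro x hx
    obtain ⟨hxV, hm⟩ := (hcommsub i x).1 hx
    exact (hfix _ _ hxV).1 (hE.cross i j hij hm)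
  · rcases htype i with ⟨F, hF, hF', n, ρ, ψ, hn, hcard, hsurj, hker, heq⟩ |
        ⟨hp, n, ρ, ψ, hn, hsum, hon, hker, heq⟩
    · exact ⟨n, hn, Or.inl ⟨F, hF, hF', hcard,
        CfsgLib.FFModules.MinimalParabolic.actsAsSL2 hPV (E i) ρ ψ (hE.split i) hsurj hker heq⟩⟩
    · exact ⟨n, hn, Or.inr ⟨hp,
        CfsgLib.FFModules.MinimalParabolic.actsAsOddPerm hPV (E i) ρ ψ (hE.split i) hsum hon hker heq⟩⟩

end Cfsg.Agent.S3000
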