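import Cfsg.Statements.S3001
import Cfsg.Agent.Lib.FFModules.MinimalParabolic.Moved
import Cfsg.Agent.Lib.FFModules.SL2Pair.StronglyEmbedded

set_option autoImplicit false
open Cfsg

namespace Cfsg.Agent.S3001

/-- Let p be a prime and let P and V be subgroups of a finite group with V elementary abelian, P normalizing V and acting faithfully on it (P ∩ C(V) = 1). Suppose P is p-minimal (a Sylow p-subgroup is not normal and lies in a unique maximal subgroup), O_p(P) = 1, and P has a best offender on V (a subgroup A not centralizing V, with A/C_A(V) elementary abelian and |B|·|C_V(B)| ≤ |A|·|C_V(A)| for every B ≤ A). Then [C_V(T), P] ≠ 1 for every Sylow p-subgroup T of P. -/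
theorem result {G : Type*} [Group G] [Finite G] {p : ℕ} [Fact p.Prime] (V P : Subgroup G) (hV : Cfsg.IsElementaryAbelian p V) (hPV : P ≤ Subgroup.normalizer (V : Set G)) (hfaith : P ⊓ Subgroup.centralizer (V : Set G) = ⊥) (hmin : Cfsg.IsPMinimal p ↥P) (hOp : Cfsg.pCore p ↥P = ⊥) (hoff : ∃ A : Subgroup G, A ≤ P ∧ ¬ A ≤ Subgroup.centralizer (V : Set G) ∧ Cfsg.IsBestOffenderOn p V A) (T : Sylow p ↥P) : ⁅(V ⊓ Subgroup.centralizer ((((T : Subgroup ↥P).map P.subtype) : Subgroup G) : Set G)), P⁆ ≠ ⊥ := by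
  classical
  open scoped IsMulCommutative commutatorElement in
  haveI : IsMulCommutative ↥V := hV.1
  obtain ⟨A, hAP, hAne, hbest⟩ := hoff
  obtain ⟨B, hBA, hBne, hBquad, hBμ⟩ :=
    CfsgLib.FFModules.SL2Pair.exists_quadratic hV (hAP.trans hPV) hbest hAne
  have hPC : ∀ g ∈ P, g ∈ Subgroup.centralizer (V : Set G) → g = 1 := fun g hg hgC => by
    have : g ∈ P ⊓ Subgroup.centralizer (V : Set G) := ⟨hg, hgC⟩
    rwa [hfaith, Subgroup.mem_bot] at this
  have hBP : B ≤ P := hBA.trans hAP
  letI : DistribMulAction ↥P (Additive ↥V) := CfsgLib.FFModules.SL2Pair.conjAction V P hPV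
  have hcfix : ∀ (g : P) (v : Additive ↥V), g • v = v ↔ (g : G) * (v.toMul : G) = (v.toMul : G) * g :=
    fun g v => CfsgLib.FFModules.SL2Pair.conjAction_smul_eq_iff (V := V) (H := P) (hHV := hPV)
  obtain ⟨M, ⟨hM, hTM⟩, huniq⟩ := (hmin T).2
  have hBase : CfsgLib.FFModules.MinimalParabolic.Base p T M (Additive ↥V) :=
    { faithful := fun g hg => Subtype.ext (hPC g g.2 (Subgroup.mem_centralizer_iff.2 fun v hv =>
        ((hcfix g (Additive.ofMul ⟨v, hv⟩)).1 (hg _)).symm))
      exponent := fun v => Additive.toMul.injective (Subtype.ext (by simpa using hV.2 _ v.toMul.2))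
      coatom := hM
      sylow_le := hTM
      unique := fun N hN hTN => huniq N ⟨hN, hTN⟩
      not_normal := (hmin T).1
      core := hOp }
  set B' : Subgroup ↥P := B.subgroupOf P with hB'
  have hBmap : B'.map P.subtype = B := Subgroup.map_subgroupOf_eq_of_le hBP
  have hquad : ∀ a ∈ B', ∀ v : Additive ↥V, a • v - v ∈ CfsgLib.FFModules.SL2Pair.fixedSub B' := by
    intro a ha v b hb
    rw [hcfix]
    have h1 : ((a • v - v : Additive ↥V).toMul : G) = ⁅(v.toMul : G), (a : G)⁆⁻¹ := by
      show ((a : G) * (v.toMul : G) * (a : G)⁻¹) / (v.toMul : G) = _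
      rw [div_eq_mul_inv, commutatorElement_inv, commutatorElement_def]
    rw [h1]
    exact (Commute.inv_right (hBquad _ v.toMul.2 _ ha _ hb)).eq
  have hBp : IsPGroup p B' := by
    rintro ⟨a, ha⟩
    refine ⟨1, Subtype.ext ?_⟩
    exact hBase.faithful _ fun v => by
      show (a ^ p ^ 1) • v = v
      rw [CfsgLib.FFModules.SL2Pair.pow_smul_of_mem_seriesStab
        (C := CfsgLib.FFModules.SL2Pair.fixedSub B') (CfsgLib.FFModules.SL2Pair.mem_seriesStab.2
          ⟨fun _ hu => hu a ha, hquad a ha⟩), pow_one, hBase.exponent, add_zero]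
  have hne : B' ≠ ⊥ := fun e => hBne (by
    rw [← hBmap, e, Subgroup.map_bot]; exact bot_le)
  have hoff : Nat.card (Additive ↥V) ≤ CfsgLib.FFModules.MinimalParabolic.mu B' (Additive ↥V) := by
    rw [CfsgLib.FFModules.MinimalParabolic.mu,
      CfsgLib.FFModules.SL2Pair.card_conjAction_fixedSub (hHV := hPV), hBmap,
      Nat.card_congr (Subgroup.subgroupOfEquivOfLe hBP).toEquiv, hBμ,
      Nat.card_congr Additive.toMul]
    have h1 := hbest.1 ⊥ bot_le
    rw [Subgroup.card_bot, one_mul, Subgroup.coe_bot] at h1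
    refine le_trans (Subgroup.card_le_of_le ?_) h1
    intro x hx
    refine ⟨hx, Subgroup.mem_centralizer_iff.2 ?_⟩
    rintro y rfl
    rw [one_mul, mul_one]
  obtain ⟨v, hv, g, hg⟩ :=
    CfsgLib.FFModules.MinimalParabolic.exists_moved hBase ⟨hBp, hquad⟩ hne hoff
  intro hbot
  refine hg ((hcfix g v).2 ?_)
  exact Subgroup.mem_centralizer_iff.1 (Subgroup.commutator_eq_bot_iff_le_centralizer.1 hbot
    ⟨v.toMul.2, CfsgLib.FFModules.SL2Pair.conjAction_fixedSub.1 hv⟩) g g.2

end Cfsg.Agent.S3001
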