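import Cfsg.Statements.S3003
import Cfsg.Agent.Lib.CoprimeAction.Abelian

set_option autoImplicit false
open Cfsg

namespace Cfsg.Agent.S3003

/-- Let G be a finite group, p a prime and Q a large p-subgroup of G: C_G(Q) ≤ Q and N_G(U) ≤ N_G(Q) for every nontrivial subgroup U of C_G(Q). Let Q ≤ G₁ ≤ G, let R be a subgroup of order prime to p normalized by G₁, and let U ≤ G₁ be a p-subgroup. If U contains a nontrivial element which is G₁-conjugate to an element of Z(Q), then C_R(U) = 1. In particular, if U is elementary abelian of order at least p² and every maximal subgroup of U contains a nontrivial element G₁-conjugate into Z(Q), then R = 1. -/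
theorem result {G : Type*} [Group G] [Finite G] {p : ℕ} [Fact p.Prime] (Q : Subgroup G) (hQp : IsPGroup p ↥Q) (hlarge : Cfsg.IsLarge Q) (G₁ : Subgroup G) (hQG : Q ≤ G₁) (R : Subgroup G) (hR : (Nat.card ↥R).Coprime p) (hGR : G₁ ≤ Subgroup.normalizer (R : Set G)) (U : Subgroup G) (hUG : U ≤ G₁) (hUp : IsPGroup p ↥U) : ((∃ x ∈ U, x ≠ 1 ∧ ∃ g ∈ G₁, g * x * g⁻¹ ∈ Q ⊓ Subgroup.centralizer (Q : Set G)) → R ⊓ Subgroup.centralizer (U : Set G) = ⊥) ∧ (Cfsg.IsElementaryAbelian p U → p ^ 2 ≤ Nat.card ↥U → (∀ U₀ : Subgroup G, U₀ ≤ U → IsCoatom (U₀.subgroupOf U) → ∃ x ∈ U₀, x ≠ 1 ∧ ∃ g ∈ G₁, g * x * g⁻¹ ∈ Q ⊓ Subgroup.centralizer (Q : Set G)) → R = ⊥) := by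
  have hone : ∀ V : Subgroup G, (∃ x ∈ V, x ≠ 1 ∧ ∃ g ∈ G₁, g * x * g⁻¹ ∈ Q ⊓ Subgroup.centralizer (Q : Set G)) →
      R ⊓ Subgroup.centralizer (V : Set G) = ⊥ := by
    rintro V ⟨x, hxV, hx1, g, hg, hz⟩
    refine (Subgroup.eq_bot_iff_forall _).2 fun r ⟨hrR, hrc⟩ => ?_
    set z := g * x * g⁻¹ with hzdef
    have hz1 : z ≠ 1 := by simpa [hzdef] using hx1
    have hrz : g * r * g⁻¹ ∈ Subgroup.centralizer ({z} : Set G) := by
      refine Subgroup.mem_centralizer_singleton_iff.2 ?_
      have : Commute r x := (Subgroup.mem_centralizer_iff.1 hrc x hxV).symm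
      simpa [MulAut.conj_apply, hzdef] using (this.map (MulAut.conj g).toMonoidHom).eq
    set s := g * r * g⁻¹ with hs
    have hsR : s ∈ R := (Subgroup.mem_normalizer_iff.1 (hGR hg) r).1 hrR
    have hsN : s ∈ Subgroup.normalizer (Q : Set G) := by
      refine hlarge.2 (Subgroup.zpowers z) ((Subgroup.zpowers_le).2 hz.2)
        (by simpa [Subgroup.zpowers_ne_bot] using hz1) (Subgroup.centralizer_le_normalizer _ ?_)
      rw [Subgroup.mem_centralizer_iff]
      rintro w ⟨i, rfl⟩
      exact (Commute.zpow_left (Subgroup.mem_centralizer_singleton_iff.1 hrz : Commute s z).symm i).eq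
    have hRQ : R ⊓ Q = ⊥ := by
      obtain ⟨n, hn⟩ := IsPGroup.iff_card.1 hQp
      exact disjoint_iff.1 (Subgroup.disjoint_of_coprime_natCard (hn ▸ hR.pow_right n))
    have hsQ : s ∈ Q := hlarge.1 (Subgroup.mem_centralizer_iff.2 fun q hq => by
      have hcomm : q * s * q⁻¹ * s⁻¹ ∈ R ⊓ Q := by
        refine ⟨R.mul_mem ((Subgroup.mem_normalizer_iff.1 (hGR (hQG hq)) s).1 hsR) (R.inv_mem hsR), ?_⟩
        rw [show q * s * q⁻¹ * s⁻¹ = q * (s * q⁻¹ * s⁻¹) by group]
        exact mul_mem hq ((Subgroup.mem_normalizer_iff.1 hsN q⁻¹).1 (inv_mem hq))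
      rw [hRQ, Subgroup.mem_bot] at hcomm
      exact mul_inv_eq_iff_eq_mul.1 (mul_inv_eq_one.1 hcomm))
    have : s ∈ R ⊓ Q := ⟨hsR, hsQ⟩
    rw [hRQ, Subgroup.mem_bot] at this
    simpa [hs] using this
  refine ⟨hone U, fun hel hcard hmax => ?_⟩
  have hp : p.Prime := Fact.out
  have hcop : (Nat.card U).Coprime (Nat.card R) := by
    obtain ⟨n, hn⟩ := IsPGroup.iff_card.1 hUp
    rw [hn]
    exact (hR.symm).pow_left n
  refine le_bot_iff.1 ?_
  have hcomm := hel.1
  have key : ∀ W : Subgroup G, W ≤ U → R ⊓ Subgroup.centralizer (W : Set G) = ⊥ := by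
    intro W
    induction h : Nat.card U - Nat.card W using Nat.strong_induction_on generalizing W with
    | _ d ih =>
      intro hW
      have hup : ∀ c ∈ U, c ∉ W → R ⊓ Subgroup.centralizer ((W ⊔ Subgroup.zpowers c : Subgroup G) : Set G) = ⊥ := by
        intro c hc hcW
        have hle : W ⊔ Subgroup.zpowers c ≤ U := sup_le hW ((Subgroup.zpowers_le).2 hc)
        have hlt : Nat.card W < Nat.card (W ⊔ Subgroup.zpowers c : Subgroup G) := by
          by_contra hge
          exact hcW ((Subgroup.eq_of_le_of_card_ge le_sup_left (not_lt.1 hge)) ▸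
            Subgroup.mem_sup_right (Subgroup.mem_zpowers c))
        have hle' : Nat.card (W ⊔ Subgroup.zpowers c : Subgroup G) ≤ Nat.card U :=
          Subgroup.card_le_of_le hle
        exact ih _ (by omega) _ rfl hle
      by_cases hWU : W = U
      · -- any maximal subgroup
        have hne : (⊥ : Subgroup U) ≠ ⊤ := by
          intro h0
          have h1 : Nat.card U ≤ 1 := by
            rw [← Subgroup.card_top (G := U), ← h0]; simp
          nlinarith [hp.two_le]
        obtain ⟨M, hM, -⟩ := (IsCoatomic.eq_top_or_exists_le_coatom (⊥ : Subgroup U)).resolve_left hne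
        refine le_bot_iff.1 (le_of_le_of_eq (inf_le_inf_left R (Subgroup.centralizer_le ?_))
          (hone (M.map U.subtype) (hmax _ (Subgroup.map_subtype_le _) ?_)))
        · exact SetLike.coe_subset_coe.2 (le_of_le_of_eq (Subgroup.map_subtype_le _) hWU.symm)
        · rwa [show (M.map U.subtype).subgroupOf U = M from
            Subgroup.comap_map_eq_self_of_injective U.subtype_injective M]
      by_cases hcoat : IsCoatom (W.subgroupOf U)
      · exact hone W (hmax W hW hcoat)
      obtain ⟨a, ha, haW⟩ := SetLike.exists_of_lt (lt_of_le_of_ne hW hWU)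
      have hne : W ⊔ Subgroup.zpowers a ≠ U := by
        intro he
        apply hcoat
        refine ⟨fun ht => hWU (le_antisymm hW (Subgroup.subgroupOf_eq_top.1 ht)), fun X hX => ?_⟩
        obtain ⟨⟨x, hxU⟩, hxX, hxW⟩ := SetLike.exists_of_lt hX
        rw [Subgroup.mem_subgroupOf] at hxW
        have hWa : W ⊔ Subgroup.zpowers x = U := by
          refine le_antisymm (sup_le hW ((Subgroup.zpowers_le).2 hxU)) (he ▸ sup_le le_sup_left ?_)
          rw [Subgroup.zpowers_le]
          have hxm : x ∈ W ⊔ Subgroup.zpowers a := he.symm ▸ hxU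
          have hWa : Subgroup.zpowers a ≤ Subgroup.normalizer (W : Set G) := by
            rw [Subgroup.zpowers_le, Subgroup.mem_normalizer_iff]
            intro w
            have hcm : ∀ v ∈ U, a * v = v * a := fun v hv => congrArg Subtype.val (hcomm.is_comm.comm ⟨a, ha⟩ ⟨v, hv⟩)
            refine ⟨fun hw => by rwa [hcm w (hW hw), mul_inv_cancel_right], fun hw => ?_⟩
            have hwU : w ∈ U := by
              have := mul_mem (mul_mem (inv_mem ha) (hW hw)) ha
              simpa [mul_assoc] using this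
            rwa [hcm w hwU, mul_inv_cancel_right] at hw
          rw [← SetLike.mem_coe, Subgroup.coe_mul_of_right_le_normalizer_left W _ hWa] at hxm
          obtain ⟨w, hw, _, ⟨i, rfl⟩, hwi⟩ := hxm
          have hai : a ^ i ∈ W ⊔ Subgroup.zpowers x := by
            have : w⁻¹ * x = a ^ i := by rw [← hwi]; group
            rw [← this]
            exact mul_mem (Subgroup.mem_sup_left (inv_mem hw)) (Subgroup.mem_sup_right (Subgroup.mem_zpowers x))
          have hpi : IsCoprime i (p : ℤ) := by
            refine IsCoprime.symm ((Prime.coprime_iff_not_dvd (Nat.prime_iff_prime_int.1 hp)).2 ?_)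
            rintro ⟨d, rfl⟩
            apply hxW
            show x ∈ W
            rw [← hwi]
            simp only [zpow_mul, zpow_natCast, hel.2 a ha, one_zpow, mul_one]
            exact hw
          obtain ⟨u, v, huv⟩ := hpi
          have : a = (a ^ i) ^ u := by
            rw [← zpow_mul]
            conv_lhs => rw [← zpow_one a, ← huv, zpow_add, mul_comm v, zpow_mul, zpow_mul, zpow_natCast,
              hel.2 a ha, one_zpow, mul_one, ← zpow_mul, mul_comm u i]
          rw [this]
          exact Subgroup.zpow_mem _ hai u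
        refine (Subgroup.eq_top_iff' _).2 fun b => ?_
        have hsub : W ⊔ Subgroup.zpowers x ≤ X.map U.subtype := sup_le
          (fun w hw => ⟨⟨w, hW hw⟩, hX.le (Subgroup.mem_subgroupOf.2 hw), rfl⟩)
          ((Subgroup.zpowers_le).2 ⟨⟨x, hxU⟩, hxX, rfl⟩)
        obtain ⟨c, hc, hcb⟩ := hsub (le_of_eq hWa.symm b.2)
        rwa [← Subtype.ext (a1 := c) (a2 := b) hcb]
      obtain ⟨b, hb, hbW⟩ := SetLike.exists_of_lt
        (lt_of_le_of_ne (sup_le hW ((Subgroup.zpowers_le).2 ha)) hne)
      set B : Subgroup G := Subgroup.closure {a, b}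
      have hBU : B ≤ U := (Subgroup.closure_le U).2 (Set.insert_subset ha (Set.singleton_subset_iff.2 hb))
      have hBc : IsMulCommutative B := ⟨⟨fun u v => Subtype.ext (by
        have := congrArg Subtype.val (hcomm.is_comm.comm ⟨u, hBU u.2⟩ ⟨v, hBU v.2⟩)
        simpa using this)⟩⟩
      have hBnc : ¬ IsCyclic B := by
        intro hc
        obtain ⟨⟨z, hz⟩, hgen⟩ := hc.exists_generator
        have hz' : ∀ v ∈ B, v ∈ Subgroup.zpowers z := fun v hv => by
          obtain ⟨i, hi⟩ := Subgroup.mem_zpowers_iff.1 (hgen ⟨v, hv⟩)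
          exact ⟨i, by have := congrArg Subtype.val hi; simpa using this⟩
        have haB : a ∈ B := Subgroup.subset_closure (Or.inl rfl)
        have hbB : b ∈ B := Subgroup.subset_closure (Or.inr rfl)
        have hzp : orderOf z ≤ p := Nat.le_of_dvd hp.pos (orderOf_dvd_iff_pow_eq_one.2 (hel.2 z (hBU hz)))
        have ha1 : a ≠ 1 := fun h => haW (h ▸ one_mem W)
        have hzeq : Subgroup.zpowers a = Subgroup.zpowers z := Subgroup.eq_of_le_of_card_ge
          ((Subgroup.zpowers_le).2 (hz' a haB)) (by
            rw [Nat.card_zpowers, Nat.card_zpowers, orderOf_eq_prime (hel.2 a ha) ha1]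
            exact hzp)
        exact hbW (Subgroup.mem_sup_right (hzeq ▸ hz' b hbB))
      have hBK : B ≤ Subgroup.normalizer ((R ⊓ Subgroup.centralizer (W : Set G) : Subgroup G) : Set G) := by
        intro u hu
        refine Subgroup.mem_normalizer_iff.2 fun r => ?_
        have huW : u ∈ Subgroup.centralizer (W : Set G) := Subgroup.mem_centralizer_iff.2 fun w hw =>
          congrArg Subtype.val (hcomm.is_comm.comm ⟨w, hW hw⟩ ⟨u, hBU hu⟩)
        have h1 := Subgroup.mem_normalizer_iff.1 (hGR (hUG (hBU hu))) r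
        constructor
        · exact fun h => ⟨h1.1 h.1, Subgroup.mul_mem _ (Subgroup.mul_mem _ huW h.2) (Subgroup.inv_mem _ huW)⟩
        · intro h
          refine ⟨h1.2 h.1, ?_⟩
          have := Subgroup.mul_mem _ (Subgroup.mul_mem _ (Subgroup.inv_mem _ huW) h.2) huW
          simpa [mul_assoc] using this
      refine le_bot_iff.1 (CfsgLib.CoprimeAction.le_of_centralizers hBnc hBK ?_ fun c hc hc1 => ?_)
      · exact (hcop.coprime_dvd_left (Subgroup.card_dvd_of_le hBU)).coprime_dvd_right
          (Subgroup.card_dvd_of_le inf_le_left)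
      · have hcW : c ∉ W := by
          intro hcW
          obtain ⟨i, j, rfl⟩ : ∃ i j : ℤ, a ^ i * b ^ j = c := by
            clear hcW hc1
            have hab : a * b = b * a := congrArg Subtype.val (hcomm.is_comm.comm ⟨a, ha⟩ ⟨b, hb⟩)
            induction hc using Subgroup.closure_induction with
            | mem v hv =>
              rcases hv with rfl | rfl
              exacts [⟨1, 0, by simp⟩, ⟨0, 1, by simp⟩]
            | one => exact ⟨0, 0, by simp⟩
            | mul v w hv hw h2 h3 =>
              obtain ⟨i, j, rfl⟩ := h2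
              obtain ⟨k, l, rfl⟩ := h3
              refine ⟨i + k, j + l, ?_⟩
              rw [mul_assoc (a ^ i) (b ^ j), ← mul_assoc (b ^ j) (a ^ k),
                ((Commute.zpow_zpow (hab : Commute a b) k j).symm).eq, zpow_add, zpow_add]
              group
            | inv v _ h2 =>
              obtain ⟨i, j, rfl⟩ := h2
              refine ⟨-i, -j, ?_⟩
              rw [mul_inv_rev, zpow_neg, zpow_neg, ((Commute.zpow_zpow (hab : Commute a b) i j).inv_inv).eq]
          have hbj : b ^ j ∈ W ⊔ Subgroup.zpowers a := by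
            have : (a ^ i)⁻¹ * (a ^ i * b ^ j) = b ^ j := by group
            rw [← this]
            exact mul_mem (Subgroup.mem_sup_right (inv_mem (Subgroup.zpow_mem _ (Subgroup.mem_zpowers a) i)))
              (Subgroup.mem_sup_left hcW)
          have hpr := Nat.prime_iff_prime_int.1 hp
          have hj : (p : ℤ) ∣ j := by
            by_contra hcon
            obtain ⟨u, v, huv⟩ := (Prime.coprime_iff_not_dvd hpr).2 hcon
            apply hbW
            have : b = (b ^ j) ^ v := by
              rw [← zpow_mul]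
              conv_lhs => rw [← zpow_one b, ← huv, zpow_add, mul_comm u, zpow_mul, zpow_natCast,
                hel.2 b hb, one_zpow, one_mul, mul_comm v j]
            rw [this]
            exact Subgroup.zpow_mem _ hbj v
          obtain ⟨d, rfl⟩ := hj
          rw [show b ^ ((p : ℤ) * d) = 1 by rw [zpow_mul, zpow_natCast, hel.2 b hb, one_zpow], mul_one] at hcW hc1
          have hi : (p : ℤ) ∣ i := by
            by_contra hcon
            obtain ⟨u, v, huv⟩ := (Prime.coprime_iff_not_dvd hpr).2 hcon
            apply haW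
            have : a = (a ^ i) ^ v := by
              rw [← zpow_mul]
              conv_lhs => rw [← zpow_one a, ← huv, zpow_add, mul_comm u, zpow_mul, zpow_natCast,
                hel.2 a ha, one_zpow, one_mul, mul_comm v i]
            rw [this]
            exact Subgroup.zpow_mem _ hcW v
          obtain ⟨e, rfl⟩ := hi
          exact hc1 (by rw [zpow_mul, zpow_natCast, hel.2 a ha, one_zpow])
        refine le_of_le_of_eq ?_ (hup c (hBU hc) hcW)
        rintro r ⟨⟨hrR, hrW⟩, hrc⟩
        refine ⟨hrR, Subgroup.le_centralizer_iff.1 (sup_le ?_ ?_) (Subgroup.mem_zpowers r)⟩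
        · intro w hw
          refine Subgroup.mem_centralizer_iff.2 ?_
          rintro y ⟨k, rfl⟩
          exact (Commute.zpow_left ((Subgroup.mem_centralizer_iff.1 hrW w hw).symm : Commute r w) k).eq
        · rw [Subgroup.zpowers_le, Subgroup.mem_centralizer_iff]
          rintro y ⟨k, rfl⟩
          exact (Commute.zpow_left (Subgroup.mem_centralizer_singleton_iff.1 hrc : Commute r c) k).eq
  intro r hr
  exact Subgroup.mem_bot.2 ((Subgroup.eq_bot_iff_forall _).1 (key ⊥ bot_le) r
    ⟨hr, by simp [Subgroup.mem_centralizer_iff]⟩)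

end Cfsg.Agent.S3003
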