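import Cfsg.Statements.S3008
import Mathlib
import Cfsg.Agent.Lib.TwoGroupTricks.CentrallyLargeReplace

set_option autoImplicit false
open Cfsg
open scoped Pointwise

namespace Cfsg.Agent.S3008

/-- Let P be a finite p-group, with J(P) generated by its abelian subgroups of largest order and J̃(P) = C_P(Z(J(P))); call R ≤ P centrally large if |R|·|Z(R)| is as large as possible, and let P_MCL be generated by the minimal centrally large subgroups. Then: for every centrally large Q, Q·J(P) ⊇ J̃(P); some minimal centrally large subgroup of P is normalized by both J(P) and P_MCL; if P = J(P) and d(P)² = |P|·|Z(P)|, where d(P) is the largest order of an abelian subgroup, then every minimal centrally large subgroup of P is abelian; and if every minimal centrally large subgroup is abelian then J̃(P) = J(P). -/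
theorem result {p : ℕ} [Fact p.Prime] (P : Type*) [Group P] [Finite P] (hP : IsPGroup p P) : (∀ Q : Subgroup P, Cfsg.IsCentrallyLarge Q → Subgroup.centralizer ((Cfsg.thompsonSubgroupA P ⊓ Subgroup.centralizer (Cfsg.thompsonSubgroupA P : Set P) : Subgroup P) : Set P) ≤ Q ⊔ Cfsg.thompsonSubgroupA P) ∧ (∃ Q : Subgroup P, Cfsg.IsMinimalCentrallyLarge Q ∧ Cfsg.thompsonSubgroupA P ≤ Subgroup.normalizer (Q : Set P) ∧ Cfsg.minimalCentrallyLargeJoin P ≤ Subgroup.normalizer (Q : Set P)) ∧ (Cfsg.thompsonSubgroupA P = ⊤ → (∀ A ∈ Cfsg.maxAbelianSubgroups P, Nat.card ↥A ^ 2 = Nat.card P * Nat.card ↥(Subgroup.center P)) → ∀ Q : Subgroup P, Cfsg.IsMinimalCentrallyLarge Q → IsMulCommutative ↥Q) ∧ ((∀ Q : Subgroup P, Cfsg.IsMinimalCentrallyLarge Q → IsMulCommutative ↥Q) → Subgroup.centralizer ((Cfsg.thompsonSubgroupA P ⊓ Subgroup.centralizer (Cfsg.thompsonSubgroupA P : Set P) : Subgroup P) : Set P) = Cfsg.thompsonSubgroupA P) := by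
  have hjoin : ∀ Q : Subgroup P, Cfsg.IsCentrallyLarge Q → Cfsg.IsCentrallyLarge (Q ⊔ Cfsg.thompsonSubgroupA P) :=
    fun Q hQ => CfsgLib.TwoGroupTricks.isCentrallyLarge_sup_sSup hQ _ fun A hA Y hY => (CfsgLib.TwoGroupTricks.centrallyLarge_sup_maxAbelian hY hA).1
  have part1 : ∀ Q : Subgroup P, Cfsg.IsCentrallyLarge Q → Subgroup.centralizer ((Cfsg.thompsonSubgroupA P ⊓
      Subgroup.centralizer (Cfsg.thompsonSubgroupA P : Set P) : Subgroup P) : Set P) ≤
      Q ⊔ Cfsg.thompsonSubgroupA P := fun Q hQ => CfsgLib.TwoGroupTricks.centralizer_centerJ_le (hjoin Q hQ) le_sup_right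
  refine ⟨part1, ?_, ?_, ?_⟩
  · have : Group.IsNilpotent P := IsPGroup.isNilpotent (p := p) hP
    obtain ⟨Q, hQ, huniv⟩ := CfsgLib.TwoGroupTricks.exists_universal P
    obtain ⟨hQl, hQc⟩ := (CfsgLib.TwoGroupTricks.isCentrallyLarge_iff Q).1 hQ.1
    refine ⟨Q, hQ, sSup_le fun A hA => ?_, sSup_le fun R hR => ?_⟩
    · refine huniv A ((CfsgLib.TwoGroupTricks.isMulCommutative_iff_le_centralizer A).1 hA.1) ?_
      obtain ⟨-, hset, hW, -⟩ := CfsgLib.TwoGroupTricks.centrallyLarge_sup_maxAbelian hQ.1 hA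
      set C := Subgroup.centralizer (Q : Set P) with hC
      have hAA := (CfsgLib.TwoGroupTricks.isMulCommutative_iff_le_centralizer A).1 hA.1
      refine Set.Subset.antisymm ?_ ?_
      · intro x hx
        have hxc : x ∈ Subgroup.centralizer ((Q ⊓ A : Subgroup P) : Set P) :=
          (sup_le (Subgroup.centralizer_le inf_le_left)
            (hAA.trans (Subgroup.centralizer_le inf_le_right))) hx
        have hx' : x ∈ (Q : Set P) * (A : Set P) :=
          hset ▸ (SetLike.coe_subset_coe.2 (sup_le_sup_right hQc A)) hx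
        obtain ⟨q, hq, a, ha, rfl⟩ := hx'
        have hqW : q ∈ Q ⊓ Subgroup.centralizer ((Q ⊓ A : Subgroup P) : Set P) := by
          refine ⟨hq, ?_⟩
          have := Subgroup.mul_mem _ hxc (Subgroup.inv_mem _ (Subgroup.centralizer_le inf_le_right (hAA ha)))
          simpa using this
        rw [hW] at hqW
        have hn : Q ⊓ A ≤ Subgroup.normalizer (C : Set P) :=
          (Subgroup.le_centralizer_iff.1 (Subgroup.centralizer_le inf_le_left)).trans
            (Subgroup.centralizer_le_normalizer _)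
        rw [← SetLike.mem_coe, Subgroup.coe_mul_of_right_le_normalizer_left _ _ hn] at hqW
        obtain ⟨c, hc, y, hy, rfl⟩ := hqW
        exact ⟨c, hc, y * a, A.mul_mem hy.2 ha, (mul_assoc c y a).symm⟩
      · rintro _ ⟨c, hc, a, ha, rfl⟩
        exact mul_mem (Subgroup.mem_sup_left hc) (Subgroup.mem_sup_right ha)
    · obtain ⟨hRl, hRc⟩ := (CfsgLib.TwoGroupTricks.isCentrallyLarge_iff R).1 hR.1
      rw [← CfsgLib.TwoGroupTricks.minimal_inf_sup hR hQ.1]
      refine sup_le (inf_le_right.trans Subgroup.le_normalizer) (huniv _ ?_ ?_)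
      · exact hRc.trans (CfsgLib.TwoGroupTricks.le_centralizer_centralizer R)
      · exact CfsgLib.TwoGroupTricks.coe_sup_eq_mul (CfsgLib.TwoGroupTricks.isCentralizerLarge_centralizer hQl) (CfsgLib.TwoGroupTricks.isCentralizerLarge_centralizer hRl)
  · intro htop hd Q hQ
    obtain ⟨A, hA⟩ := CfsgLib.TwoGroupTricks.exists_maxAbelian P
    have hfull := hjoin Q hQ.1
    rw [htop, sup_top_eq] at hfull
    have hAc : Subgroup.center A = ⊤ := by
      rw [Subgroup.eq_top_iff']
      exact fun a => Subgroup.mem_center_iff.2 fun b => (hA.1.is_comm.comm b a)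
    have hACL : Cfsg.IsCentrallyLarge A := by
      unfold Cfsg.IsCentrallyLarge
      rw [← hfull, hAc, Subgroup.card_top, ← pow_two, hd A hA]
      have e : ↥(⊤ : Subgroup P) ≃* P := Subgroup.topEquiv
      rw [Nat.card_congr e.toEquiv, Nat.card_congr (Subgroup.centerCongr e).toEquiv]
    obtain ⟨R, hRA, hR⟩ := CfsgLib.TwoGroupTricks.exists_minimalCentrallyLarge_le hACL
    rw [CfsgLib.TwoGroupTricks.isMulCommutative_iff_le_centralizer, ← Subgroup.commutator_eq_bot_iff_le_centralizer,
      CfsgLib.TwoGroupTricks.minimal_commutator_eq hQ hR, Subgroup.commutator_eq_bot_iff_le_centralizer]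
    exact hRA.trans (((CfsgLib.TwoGroupTricks.isMulCommutative_iff_le_centralizer A).1 hA.1).trans (Subgroup.centralizer_le hRA))
  · intro hall
    obtain ⟨Q, hQ⟩ := CfsgLib.TwoGroupTricks.exists_minimalCentrallyLarge P
    have hQA : Q ∈ Cfsg.maxAbelianSubgroups P := (CfsgLib.TwoGroupTricks.minimal_iff_maxAbelian hQ (hall Q hQ) Q).1 hQ
    refine le_antisymm ((part1 Q hQ.1).trans (sup_le (le_sSup hQA) le_rfl)) ?_
    exact Subgroup.le_centralizer_iff.1 inf_le_right

end Cfsg.Agent.S3008
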