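import Cfsg.Statements.S3009
import Cfsg.Agent.Lib.TwoGroupTricks.SL2Natural

set_option autoImplicit false
open Cfsg

namespace Cfsg.Agent.S3009

open CfsgLib.TwoGroupTricks.SL2Natural
open scoped Pointwise

/-- Let p be a prime and let G and V be subgroups of a finite group with V elementary abelian and normalized by G, and G isomorphic to SL₂(F) for a finite field F with pⁿ elements. Suppose G acts irreducibly and nontrivially on V by conjugation (no G-invariant subgroups of V other than 1 and V, and [V, G] ≠ 1), and let S be a Sylow p-subgroup of G and V₀ = C_V(S). If [V, S, S] = 1 or |V| ≤ |V₀|², then G acts on V as SL₂(F) on its natural two-dimensional module; in particular |V| = |F|². -/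
theorem result {X : Type*} [Group X] [Finite X] {p : ℕ} [Fact p.Prime] (G V : Subgroup X) (hV : Cfsg.IsElementaryAbelian p V) (hGV : G ≤ Subgroup.normalizer (V : Set X)) (F : Type) [Field F] [Fintype F] (n : ℕ) (hF : Fintype.card F = p ^ n) (hG : Nonempty (↥G ≃* Matrix.SpecialLinearGroup (Fin 2) F)) (hirr : ∀ U : Subgroup X, U ≤ V → G ≤ Subgroup.normalizer (U : Set X) → U = ⊥ ∨ U = V) (hnt : ⁅V, G⁆ ≠ ⊥) (S : Sylow p ↥G) (hyp : ⁅⁅V, (S : Subgroup ↥G).map G.subtype⁆, (S : Subgroup ↥G).map G.subtype⁆ = ⊥ ∨ Nat.card ↥V ≤ Nat.card ↥(V ⊓ Subgroup.centralizer (((S : Subgroup ↥G).map G.subtype : Subgroup X) : Set X)) ^ 2) : Cfsg.ActsAsSL2OnSection F ⊤ G V ⊥ := by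

  classical
  obtain ⟨e0⟩ := hG
  let U : Subgroup (Matrix.SpecialLinearGroup (Fin 2) F) :=
    { carrier := Set.range xM
      one_mem' := ⟨0, xM_zero⟩
      mul_mem' := by rintro _ _ ⟨a, rfl⟩ ⟨b, rfl⟩; exact ⟨a + b, xM_add a b⟩
      inv_mem' := by
        rintro _ ⟨a, rfl⟩
        exact ⟨-a, eq_inv_of_mul_eq_one_left (by rw [← xM_add, neg_add_cancel, xM_zero])⟩ }
  let f : Multiplicative F → U := fun u => ⟨xM u.toAdd, _, rfl⟩
  have hU : IsPGroup p U := IsPGroup.of_card (n := n) <| by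
    rw [← hF, ← Nat.card_eq_fintype_card]
    refine (Nat.card_congr (Equiv.ofBijective (fun u : F => (⟨xM u, u, rfl⟩ : U))
      ⟨fun a b h => ?_, fun x => ?_⟩)).symm
    · simpa [xM] using congrArg (fun z : U => ((z : Matrix.SpecialLinearGroup (Fin 2) F) :
        Matrix (Fin 2) (Fin 2) F) 0 1) h
    · obtain ⟨u, hu⟩ := x.2
      exact ⟨u, Subtype.ext hu⟩
  obtain ⟨T', hT'⟩ := hU.exists_le_sylow
  obtain ⟨g, hg⟩ := MulAction.exists_smul_eq (Matrix.SpecialLinearGroup (Fin 2) F) (S.mapSurjective (f := e0.toMonoidHom) e0.surjective) T'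
  let e : G ≃* Matrix.SpecialLinearGroup (Fin 2) F := e0.trans (MulAut.conj g)
  set S' := (S : Subgroup G).map G.subtype with hS'
  have hxS : ∀ u : F, (e.symm (xM u) : X) ∈ S' := by
    intro u
    have h1 : xM u ∈ (T' : Subgroup (Matrix.SpecialLinearGroup (Fin 2) F)) := hT' ⟨u, rfl⟩
    rw [← hg, Sylow.coe_subgroup_smul] at h1
    change xM u ∈ MulAut.conj g • (S : Subgroup G).map e0.toMonoidHom at h1
    obtain ⟨_, ⟨s, hs, rfl⟩, hsu⟩ := h1
    refine ⟨s, hs, congrArg G.subtype ?_⟩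
    rw [MulEquiv.eq_symm_apply]
    exact hsu
  haveI := hV.1
  letI : CommGroup V := { (inferInstance : Group V) with mul_comm := mul_comm' }
  let Φ : Matrix.SpecialLinearGroup (Fin 2) F →* MulAut V :=
    (Subgroup.normalizerMonoidHom V).comp ((Subgroup.inclusion hGV).comp e.symm.toMonoidHom)
  have hΦ : ∀ a (v : V), ((Φ a v : V) : X) = (e.symm a : X) * v * (e.symm a : X)⁻¹ := fun a v => rfl
  have hirr' : ∀ H : Subgroup V, (∀ a, ∀ v ∈ H, Φ a v ∈ H) → H = ⊥ ∨ H = ⊤ := by
    intro H hH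
    rcases hirr (H.map V.subtype) (Subgroup.map_subtype_le _) (fun x hx => by
      refine Subgroup.mem_normalizer_fintype ?_
      rintro _ ⟨v, hv, rfl⟩
      exact ⟨_, hH (e ⟨x, hx⟩) v hv, by
        show ((Φ (e ⟨x, hx⟩) v : V) : X) = _
        rw [hΦ, MulEquiv.symm_apply_apply]; rfl⟩) with h | h
    · exact Or.inl ((Subgroup.map_eq_bot_iff_of_injective _ V.subtype_injective).1 h)
    · exact Or.inr (Subgroup.map_injective V.subtype_injective (by
        rw [h, ← MonoidHom.range_eq_map, Subgroup.range_subtype]))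
  have hnt' : ∃ a v, Φ a v ≠ v := by
    by_contra! h
    refine hnt (Subgroup.commutator_eq_bot_iff_le_centralizer.2 fun v hv x hx => ?_)
    have := congrArg V.subtype (h (e ⟨x, hx⟩) ⟨v, hv⟩)
    simp only [Subgroup.subtype_apply, hΦ, MulEquiv.symm_apply_apply] at this
    exact mul_inv_eq_iff_eq_mul.1 this
  have hVp : IsPGroup p V := fun v => ⟨1, Subtype.ext (by simpa using hV.2 v v.2)⟩
  have hyp' : (∀ s t v, Φ (xM s) (Φ (xM t) v * v⁻¹) = Φ (xM t) v * v⁻¹) ∨
      Nat.card V ≤ Nat.card (fixX Φ) ^ 2 := by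
    rcases hyp with hq | hc
    · refine Or.inl fun s t v => Subtype.ext ?_
      have hmem : ((Φ (xM t) v * v⁻¹ : V) : X) ∈ ⁅V, S'⁆ := by
        rw [Subgroup.commutator_comm]
        exact Subgroup.commutator_mem_commutator (hxS t) v.2
      have := Subgroup.commutator_eq_bot_iff_le_centralizer.1 hq hmem _ (hxS s)
      rw [hΦ]
      exact mul_inv_eq_iff_eq_mul.2 this
    · refine Or.inr (hc.trans (Nat.pow_le_pow_left (Nat.card_le_card_of_injective
        (fun z : (V ⊓ Subgroup.centralizer (S' : Set X) : Subgroup X) =>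
          (⟨⟨z, z.2.1⟩, fun u => Subtype.ext ?_⟩ : fixX Φ)) fun a b h => ?_) 2))
      · rw [hΦ]
        exact mul_inv_eq_iff_eq_mul.2 (z.2.2 _ (hxS u))
      · exact Subtype.ext (congrArg (fun w : fixX Φ => ((w : V) : X)) h)
  haveI : Finite F := Finite.of_fintype F
  obtain ⟨E, hEb, hEadd, hEeq⟩ := exists_coords Φ hirr' hnt'
    (by rw [Nat.card_eq_fintype_card, hF]) hVp hyp'
  let E' := Equiv.ofBijective E hEb
  let ψ : V →* Multiplicative (Fin 2 → F) := MonoidHom.mk' (fun v => Multiplicative.ofAdd (E'.symm v))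
    (fun a b => by
      obtain ⟨x, rfl⟩ := E'.surjective a
      obtain ⟨y, rfl⟩ := E'.surjective b
      rw [show E' x * E' y = E' (x + y) from (hEadd x y).symm]
      simp only [Equiv.symm_apply_apply, ofAdd_add])
  refine ⟨hGV, bot_le, e.toMonoidHom, ψ, MonoidHom.range_eq_top.2 e.surjective, fun z => ?_,
    fun u => ?_, fun x u => ⟨Φ (e x) u, by rw [hΦ, MulEquiv.symm_apply_apply], ?_⟩⟩
  · exact ⟨E' z.toAdd, by simp [ψ]⟩
  · rw [Subgroup.mem_bot, OneMemClass.coe_eq_one]
    refine ⟨fun h => ?_, fun h => by rw [h, map_one]⟩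
    have hψ : Function.Injective ψ := fun a b hab => E'.symm.injective (Multiplicative.ofAdd.injective hab)
    exact hψ (h.trans (map_one ψ).symm)
  · obtain ⟨y, rfl⟩ := E'.surjective u
    show E'.symm (Φ (e x) (E y)) = Matrix.mulVec _ (E'.symm (E' y))
    rw [hEeq, Equiv.symm_apply_apply]
    exact E'.symm_apply_apply _

end Cfsg.Agent.S3009
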