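import Cfsg.Statements.S3011
import Cfsg.Agent.Lib.InvChar.BaerSuzuki
import Cfsg.Agent.Lib.Subnormal.Cover

set_option autoImplicit false
open Cfsg

namespace Cfsg.Agent.S3011

/-- Let G be a finite group and V a nontrivial elementary abelian 2-subgroup of G of order at most 4 such that, whenever an element of V inverts an element h of G of odd order, some nontrivial element of V commutes with h. Then V meets O₂(G) nontrivially. (The case of order at most 4 has a short argument from the Baer–Suzuki theorem.) -/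
theorem result {G : Type*} [Group G] [Finite G] (V : Subgroup G) (hV : Cfsg.IsElementaryAbelian 2 V) (hV1 : V ≠ ⊥) (hS : Cfsg.IsSidkiPair V) (h4 : Nat.card V ≤ 4) : V ⊓ Cfsg.pCore 2 G ≠ ⊥ := by

  classical
  haveI : Fintype G := Fintype.ofFinite G
  by_contra hbot
  haveI : IsMulCommutative V := hV.1
  have hcomm : ∀ a ∈ V, ∀ b ∈ V, a * b = b * a := fun a ha b hb =>
    congrArg V.subtype (mul_comm' (⟨a, ha⟩ : V) ⟨b, hb⟩)
  have hsq : ∀ a ∈ V, a * a = 1 := fun a ha => by rw [← sq]; exact hV.2 a ha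
  have hinv : ∀ a ∈ V, a⁻¹ = a := fun a ha => inv_eq_of_mul_eq_one_right (hsq a ha)
  -- every involution of `V` inverts a nontrivial element of odd order
  have hget : ∀ v ∈ V, v ≠ 1 → ∃ h : G, h ≠ 1 ∧ Odd (orderOf h) ∧ v * h * v = h⁻¹ := by
    intro v hv hv1
    have hn : v ∉ Cfsg.pCore 2 G := fun h => hv1 (Subgroup.mem_bot.1 (hbot ▸ ⟨hv, h⟩))
    obtain ⟨y, hy, hodd, hne⟩ := CfsgLib.InvChar.exists_conj_odd_orderOf_mul v
      (orderOf_eq_prime (hV.2 v hv) hv1) hn
    refine ⟨v * y, hne, hodd, ?_⟩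
    obtain ⟨c, hc⟩ := isConj_iff.1 hy
    have hy2 : y⁻¹ = y := by rw [← hc, mul_inv_rev, mul_inv_rev, inv_inv, hinv v hv, mul_assoc]
    rw [mul_inv_rev, hy2, hinv v hv, ← mul_assoc v v, hsq v hv, one_mul]
  -- for every `a` some other element of `V` centralizes what `a` inverts
  have hcent : ∀ v ∈ V, v ≠ 1 → ∀ h : G, h ≠ 1 → Odd (orderOf h) → v * h * v = h⁻¹ →
      ∃ w ∈ V, w ≠ 1 ∧ w ≠ v ∧ w * h * w = h := by
    intro v hv hv1 h h1 hodd hvh
    obtain ⟨w, hw, hw1, hwh⟩ := hS h v hv hodd (by rw [hinv v hv]; exact hvh)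
    have hwh' : w * h * w = h := by rw [hwh, mul_assoc, hsq w hw, mul_one]
    exact ⟨w, hw, hw1, fun e => h1 (CfsgLib.Subnormal.eq_one_of_eq_inv_of_odd
      (hwh'.symm.trans (e ▸ hvh)) hodd), hwh'⟩
  obtain ⟨⟨a, ha⟩, ha1⟩ := Subgroup.ne_bot_iff_exists_ne_one.1 hV1
  have ha1 : a ≠ 1 := fun h => ha1 (Subtype.ext h)
  obtain ⟨h, h1, hho, hah⟩ := hget a ha ha1
  obtain ⟨p, hp, hp1, hpa, hph⟩ := hcent a ha ha1 h h1 hho hah
  obtain ⟨k, k1, hko, hpk⟩ := hget p hp hp1
  obtain ⟨q, hq, hq1, hqp, hqk⟩ := hcent p hp hp1 k k1 hko hpk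
  have hpq : p * q ≠ 1 := fun e => hqp (by rw [← mul_eq_one_iff_inv_eq.1 e, hinv p hp])
  -- `V` has exactly these four elements
  have hall : ∀ w ∈ V, w = 1 ∨ w = p ∨ w = q ∨ w = p * q := by
    intro w hw
    by_contra! hne
    obtain ⟨h0, hwp, hwq, hwpq⟩ := hne
    have hsub : ({1, p, q, p * q, w} : Finset G) ⊆ (V : Set G).toFinset := by
      intro x hx
      simp only [Finset.mem_insert, Finset.mem_singleton] at hx
      rcases hx with rfl | rfl | rfl | rfl | rfl <;>
        simp [one_mem, hp, hq, hw, V.mul_mem hp hq]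
    have := Finset.card_le_card hsub
    rw [Set.toFinset_card, ← Nat.card_eq_fintype_card,
      Finset.card_insert_of_notMem (by simp [hp1.symm, hq1.symm, hpq.symm, h0.symm]),
      Finset.card_insert_of_notMem (by simp [hqp.symm, hwp.symm, hq1]),
      Finset.card_insert_of_notMem (by simp [hp1, hwq.symm]),
      Finset.card_insert_of_notMem (by simp [hwpq.symm]), Finset.card_singleton] at this
    simp only [SetLike.coe_sort_coe] at this
    omega
  -- `q` inverts `h`
  have hqh : q * h * q = h⁻¹ := by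
    rcases hall a ha with e | e | e | e
    · exact absurd e ha1
    · exact absurd e.symm hpa
    · exact e ▸ hah
    · calc q * h * q = q * (p * h * p) * q := by rw [hph]
        _ = (p * q) * h * (p * q) := by rw [hcomm p hp q hq]; simp only [mul_assoc]; rw [← hcomm p hp q hq]
        _ = h⁻¹ := e ▸ hah
  have cj : ∀ v ∈ V, ∀ x y : G, v * (x * y) * v = (v * x * v) * (v * y * v) := fun v hv x y => by
    calc v * (x * y) * v = v * x * 1 * y * v := by simp [mul_assoc]
      _ = _ := by rw [← hsq v hv]; simp [mul_assoc]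
  have cjinv : ∀ v ∈ V, ∀ x : G, v * x⁻¹ * v = (v * x * v)⁻¹ := fun v hv x => by
    simp [hinv v hv, mul_assoc]
  have hpqc : ∀ x : G, p * q * x * (p * q) = p * (q * x * q) * p := fun x => by
    conv_lhs => arg 2; rw [hcomm p hp q hq]
    simp only [mul_assoc]
  -- the element `h k h⁻¹`, inverted by `p`
  set x := h * k * h⁻¹ with hx
  have hpx : p * x * p = x⁻¹ := by
    rw [hx, cj p hp, cj p hp, cjinv p hp, hph, hpk]; simp [mul_assoc]
  have hxo : Odd (orderOf x) := by
    rw [show x = (MulAut.conj h) k from rfl, MulEquiv.orderOf_eq]; exact hko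
  obtain ⟨w, hw, hw1, hwp, hwx⟩ := hcent p hp hp1 x (by simpa [hx] using k1) hxo hpx
  have hqx : q * x * q = h⁻¹ * k * h := by
    rw [hx, cj q hq, cj q hq, cjinv q hq, hqh, hqk, inv_inv]
  have sqrt : ∀ {g y : G}, Odd (orderOf g) → g * g * y = y * (g * g) → g * y = y * g := by
    intro g y hg hc
    obtain ⟨m, hm⟩ := hg
    have hgy : Commute (g * g) y := hc
    have : g = (g * g) ^ (m + 1) := by
      rw [← sq, ← pow_mul, show 2 * (m + 1) = orderOf g + 1 by omega, pow_succ, pow_orderOf_eq_one,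
        one_mul]
    rw [this]
    exact (hgy.pow_left _).eq
  rcases hall w hw with e | e | e | e
  · exact hw1 e
  · exact hwp e
  · -- `q` centralizes `x`: then `h` and `k` commute
    rw [e, hqx, hx] at hwx
    have hcomm2 : h * k = k * h := sqrt hho (by
      calc h * h * k = h * (h * k * h⁻¹) * h := by group
        _ = h * (h⁻¹ * k * h) * h := by rw [hwx]
        _ = k * (h * h) := by group)
    -- now `p * q` inverts `h * k`
    have hpqh : p * q * h * (p * q) = h⁻¹ := by rw [hpqc, hqh, cjinv p hp, hph]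
    have hpqk : p * q * k * (p * q) = k⁻¹ := by rw [hpqc, hqk, hpk]
    have hpqV := V.mul_mem hp hq
    have hinvhk : p * q * (h * k) * (p * q) = (h * k)⁻¹ := by
      rw [cj _ hpqV, hpqh, hpqk, ← mul_inv_rev, hcomm2]
    have hodd : Odd (orderOf (h * k)) :=
      (hho.mul hko).of_dvd_nat (Commute.orderOf_mul_dvd_mul_orderOf hcomm2)
    have hne : h * k ≠ 1 := by
      intro e1
      have e2 : h⁻¹ * k = 1 := by rw [← hqh, ← hqk, ← cj q hq, e1, mul_one, hsq q hq]
      rw [← inv_mul_eq_one.1 e2, mul_eq_one_iff_eq_inv] at e1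
      exact h1 (CfsgLib.Subnormal.eq_one_of_eq_inv_of_odd e1 hho)
    obtain ⟨u, hu, hu1, hupq, hux⟩ := hcent _ hpqV hpq _ hne hodd hinvhk
    rcases hall u hu with e | e | e | e
    · exact hu1 e
    · rw [e, cj p hp, hph, hpk, mul_right_inj] at hux
      exact k1 (CfsgLib.Subnormal.eq_one_of_eq_inv_of_odd hux.symm hko)
    · rw [e, cj q hq, hqh, hqk, mul_left_inj] at hux
      exact h1 (CfsgLib.Subnormal.eq_one_of_eq_inv_of_odd hux.symm hho)
    · exact hupq e
  · -- `p * q` centralizes `x`: then `h²` inverts `k`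
    rw [e, hpqc, hqx, cj p hp, cj p hp, cjinv p hp, hph, hpk, hx] at hwx
    have h2 : h * h * k * (h * h)⁻¹ = k⁻¹ := by
      calc h * h * k * (h * h)⁻¹ = h * (h * k * h⁻¹) * h⁻¹ := by group
        _ = h * (h⁻¹ * k⁻¹ * h) * h⁻¹ := by rw [hwx]
        _ = k⁻¹ := by group
    have h4 : h * h * (h * h) * k = k * (h * h * (h * h)) := by
      have : h * h * (h * h * k * (h * h)⁻¹) * (h * h)⁻¹ = k := by
        rw [h2, ← conj_inv, h2, inv_inv]
      calc h * h * (h * h) * k = (h * h * (h * h * k * (h * h)⁻¹) * (h * h)⁻¹) * (h * h * (h * h)) := by group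
        _ = _ := by rw [this]
    have hhh : Odd (orderOf (h * h)) := hho.of_dvd_nat (by rw [← sq]; exact orderOf_pow_dvd 2)
    have h3 := sqrt hhh h4
    rw [h3, mul_inv_cancel_right] at h2
    exact k1 (CfsgLib.Subnormal.eq_one_of_eq_inv_of_odd h2 hko)

end Cfsg.Agent.S3011
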