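import Cfsg.Statements.S3012

set_option autoImplicit false
open Cfsg

namespace Cfsg.Agent.S3012

/-- Let G be a finite group, V a nontrivial elementary abelian 2-subgroup of G satisfying the Sidki pair condition (every odd-order element inverted by an element of V commutes with a nontrivial element of V), and K a normal subgroup of G with V ∩ K = 1. Then the image of V in G/K satisfies the Sidki pair condition in G/K. -/
theorem result {G : Type*} [Group G] [Finite G] (V K : Subgroup G) [K.Normal] (hV : Cfsg.IsElementaryAbelian 2 V) (hV1 : V ≠ ⊥) (hS : Cfsg.IsSidkiPair V) (hVK : V ⊓ K = ⊥) : Cfsg.IsSidkiPair (V.map (QuotientGroup.mk' K)) := by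
  rintro q vq ⟨v, hv, rfl⟩ hodd hinv
  induction q using QuotientGroup.induction_on with
  | H g =>
    set f := QuotientGroup.mk' K with hf
    have hvc : v⁻¹ = v := inv_eq_of_mul_eq_one_right (by rw [← pow_two]; exact hV.2 v hv)
    obtain ⟨k, hk⟩ := hodd
    change f v * f g * (f v)⁻¹ = (f g)⁻¹ at hinv
    set n := orderOf (f g) with hn
    have hk' : n = 2 * k + 1 := hk
    -- a product of two conjugates of `v`
    set s := g ^ (k + 1)
    set y := v * (s⁻¹ * v * s) with hy
    have hsq : f s * f s = f g := by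
      rw [← map_mul, ← pow_add, map_pow, show k + 1 + (k + 1) = n + 1 by omega, pow_succ, hn,
        pow_orderOf_eq_one, one_mul]
    have hvinv : f v = (f v)⁻¹ := by rw [← map_inv, hvc]
    have hfy : f y = f g := by
      have h1 : f v * (f s)⁻¹ * f v = f s := by
        have : f v * f s * (f v)⁻¹ = (f s)⁻¹ := by
          rw [map_pow, ← conj_pow, hinv, inv_pow]
        rw [← hvinv] at this
        calc f v * (f s)⁻¹ * f v = f v * (f v * f s * f v) * f v := by rw [this]
          _ = (f v * f v) * f s * (f v * f v) := by group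
          _ = f s := by rw [← map_mul, show v * v = 1 by rw [← pow_two]; exact hV.2 v hv, map_one, one_mul, mul_one]
      rw [hy, map_mul, map_mul, map_mul, map_inv, ← mul_assoc, ← mul_assoc, h1, hsq]
    have hyinv : v * y * v⁻¹ = y⁻¹ := by
      rw [hy, mul_inv_rev, mul_inv_rev, mul_inv_rev, inv_inv, hvc]
      have : v * (v * (s⁻¹ * v * s)) = s⁻¹ * v * s := by
        rw [← mul_assoc, show v * v = 1 by rw [← pow_two]; exact hV.2 v hv, one_mul]
      rw [this]
      group
    -- odd part
    obtain ⟨a, m, hm, ho⟩ := Nat.exists_eq_pow_mul_and_not_dvd (orderOf_pos y).ne' 2 (by norm_num)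
    have hcop : Nat.Coprime (2 ^ a) n := Nat.Coprime.pow_left a (Nat.coprime_two_left.2 ⟨k, hk⟩)
    set t : ℕ := ((2 ^ a : ℕ) : ℤ).natAbs
    obtain ⟨e, he⟩ : ∃ e : ℤ, ((n : ℤ)) ∣ (2 ^ a : ℕ) * e - 1 :=
      ⟨Nat.gcdA (2 ^ a) n, ⟨-Nat.gcdB (2 ^ a) n, by
        have := Nat.gcd_eq_gcd_ab (2 ^ a) n
        rw [hcop.gcd_eq_one, Nat.cast_one] at this
        linarith⟩⟩
    set h0 := y ^ (((2 ^ a : ℕ) : ℤ) * e) with hh0
    have hf0 : f h0 = f g := by
      rw [hh0, map_zpow, hfy]
      obtain ⟨d, hd⟩ := he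
      rw [show ((2 ^ a : ℕ) : ℤ) * e = n * d + 1 by linarith, zpow_add, zpow_mul, zpow_natCast, hn,
        pow_orderOf_eq_one, one_zpow, one_mul, zpow_one]
    have hodd0 : Odd (orderOf h0) := by
      have hm' : Odd m := Nat.not_even_iff_odd.1 fun h => hm h.two_dvd
      refine Odd.of_dvd_nat hm' (orderOf_dvd_iff_pow_eq_one.2 ?_)
      rw [hh0, ← zpow_natCast, ← zpow_mul, ← orderOf_dvd_iff_zpow_eq_one]
      exact ⟨e, by rw [ho]; push_cast; ring⟩
    obtain ⟨w, hw, hw1, hwc⟩ := hS h0 v hv hodd0 (by rw [hh0, ← conj_zpow, hyinv, inv_zpow])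
    refine ⟨f w, Subgroup.mem_map_of_mem f hw, fun h1 => hw1 ?_, ?_⟩
    · have : w ∈ V ⊓ K := ⟨hw, (QuotientGroup.eq_one_iff w).1 h1⟩
      rwa [hVK, Subgroup.mem_bot] at this
    · change f w * f g = f g * f w
      rw [← hf0, ← map_mul, ← map_mul, hwc]

end Cfsg.Agent.S3012
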