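import Cfsg.Statements.S3013

set_option autoImplicit false
open Cfsg

namespace Cfsg.Agent.S3013

/-- Let G be a finite group and V a nontrivial elementary abelian 2-subgroup of G satisfying the Sidki pair condition. Let v ∈ V and let x be an element of odd order inverted by v, and put C = C_G(v) ∩ C_G(x), the centralizer of the dihedral subgroup generated by v and x. Then C ∩ V is nontrivial and satisfies the Sidki pair condition inside C: every odd-order element of C inverted by an element of C ∩ V commutes with a nontrivial element of C ∩ V. -/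
theorem result {G : Type*} [Group G] [Finite G] (V : Subgroup G) (hV : Cfsg.IsElementaryAbelian 2 V) (hV1 : V ≠ ⊥) (hS : Cfsg.IsSidkiPair V) (v x : G) (hv : v ∈ V) (hx : Odd (orderOf x)) (hinv : v * x * v⁻¹ = x⁻¹) (C : Subgroup G) (hC : C = Subgroup.centralizer ({v} : Set G) ⊓ Subgroup.centralizer ({x} : Set G)) : C ⊓ V ≠ ⊥ ∧ Cfsg.IsSidkiPair ((C ⊓ V).subgroupOf C) := by
  subst hC
  have hcv : ∀ w ∈ V, Commute w v := fun w hw => congrArg Subtype.val (hV.1.is_comm.comm ⟨w, hw⟩ ⟨v, hv⟩)
  refine ⟨fun h0 => ?_, ?_⟩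
  · obtain ⟨w, hw, hw1, hwx⟩ := hS x v hv hx hinv
    apply hw1
    have : w ∈ (⊥ : Subgroup G) := h0 ▸ ⟨⟨Subgroup.mem_centralizer_singleton_iff.2 (hcv w hw).eq,
      Subgroup.mem_centralizer_singleton_iff.2 hwx⟩, hw⟩
    exact Subgroup.mem_bot.1 this
  · rintro ⟨c, hc⟩ ⟨u, hu⟩ hu' hodd he
    simp only [Subgroup.mem_subgroupOf, Subgroup.mem_inf] at hu'
    have hcv' : Commute c v := Subgroup.mem_centralizer_singleton_iff.1 hc.1
    have hcx : Commute c x := Subgroup.mem_centralizer_singleton_iff.1 hc.2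
    have hux : Commute u x := Subgroup.mem_centralizer_singleton_iff.1 hu.2
    have hceq : u * c * u⁻¹ = c⁻¹ := congrArg Subtype.val he
    rw [Subgroup.orderOf_mk] at hodd
    -- apply the condition to `x * c`
    have hodd2 : Odd (orderOf (x * c)) :=
      Odd.of_dvd_nat (hx.mul hodd) hcx.symm.orderOf_mul_dvd_mul_orderOf
    have hinv2 : (u * v) * (x * c) * (u * v)⁻¹ = (x * c)⁻¹ := by
      have h1 : v * c * v⁻¹ = c := by rw [← hcv'.eq, mul_inv_cancel_right]
      have h2 : u * x * u⁻¹ = x := by rw [hux.eq, mul_inv_cancel_right]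
      calc (u * v) * (x * c) * (u * v)⁻¹ = u * ((v * x * v⁻¹) * (v * c * v⁻¹)) * u⁻¹ := by group
        _ = (u * x * u⁻¹)⁻¹ * (u * c * u⁻¹) := by rw [hinv, h1]; group
        _ = (x * c)⁻¹ := by rw [h2, hceq, mul_inv_rev, (hcx.inv_inv).eq]
    obtain ⟨w, hw, hw1, hwc⟩ := hS (x * c) (u * v) (mul_mem hu'.2 hv) hodd2 hinv2
    have hwv : Commute w v := hcv w hw
    -- conjugate by `v`
    have h3 : Commute w (x⁻¹ * c) := by
      have := Commute.map (hwc : Commute w (x * c)) (MulAut.conj v).toMonoidHom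
      simp only [MulEquiv.coe_toMonoidHom, MulAut.conj_apply] at this
      rwa [← hwv.eq, mul_inv_cancel_right, show v * (x * c) * v⁻¹ = (v * x * v⁻¹) * (v * c * v⁻¹) by group,
        hinv, ← hcv'.eq, mul_inv_cancel_right] at this
    have hc2 : Commute w (c ^ 2) := by
      have h4 := Commute.mul_right (hwc : Commute w (x * c)) h3
      rwa [show (x * c) * (x⁻¹ * c) = c ^ 2 by
        rw [pow_two, mul_assoc x c, ← mul_assoc c x⁻¹, (hcx.inv_right).eq, mul_assoc x⁻¹,
          mul_inv_cancel_left]] at h4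
    have hwc1 : Commute w c := by
      obtain ⟨k, hk⟩ := hodd
      have hck : (c ^ 2) ^ (k + 1) = c := by
        rw [← pow_mul, show 2 * (k + 1) = (2 * k + 1) + 1 by ring, ← hk, pow_succ, pow_orderOf_eq_one,
          one_mul]
      exact hck ▸ hc2.pow_right (k + 1)
    have hwx : Commute w x := by
      have := Commute.mul_right (hwc : Commute w (x * c)) hwc1.inv_right
      rwa [mul_inv_cancel_right] at this
    have hwC : w ∈ Subgroup.centralizer ({v} : Set G) ⊓ Subgroup.centralizer ({x} : Set G) :=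
      ⟨Subgroup.mem_centralizer_singleton_iff.2 hwv.eq, Subgroup.mem_centralizer_singleton_iff.2 hwx.eq⟩
    exact ⟨⟨w, hwC⟩, by simp [Subgroup.mem_subgroupOf, hw, Subgroup.mem_inf.1 hwC],
      fun h => hw1 (congrArg Subtype.val h), Subtype.ext hwc1.eq⟩

end Cfsg.Agent.S3013
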