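import Cfsg.Statements.S3014
import Mathlib
import Cfsg.Agent.Lib.TwoGroupTricks.MaximalChain

set_option autoImplicit false
open Cfsg

namespace Cfsg.Agent.S3014

/-- Let G be a finite group and H ≤ M ≤ G subgroups such that for every g ∈ G the subgroup generated by H and g H g⁻¹ meets M exactly in H. If H is a maximal subgroup of M and M is a maximal subgroup of G, then the normal closure of H in G meets M exactly in H. -/
theorem result {G : Type*} [Group G] [Finite G] (H M : Subgroup G) (hHM : H ≤ M) (hcl : ∀ g : G, (H ⊔ H.map (MulAut.conj g).toMonoidHom) ⊓ M = H) (hmaxH : IsCoatom (H.subgroupOf M)) (hmaxM : IsCoatom M) : Subgroup.normalClosure (H : Set G) ⊓ M = H := by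
  set N := Subgroup.normalClosure (H : Set G) with hN
  have hHN : H ≤ N := fun h hh => Subgroup.subset_normalClosure hh
  have hconjN : ∀ g : G, H.map (MulAut.conj g).toMonoidHom ≤ N := by
    rintro g _ ⟨h, hh, rfl⟩
    exact Subgroup.normalClosure_normal.conj_mem h (hHN hh) g
  by_contra hne
  -- `N` contains `M` and is the whole group
  have hMN : M ≤ N := by
    have hle : H ≤ N ⊓ M := le_inf hHN hHM
    have hlt : H.subgroupOf M < (N ⊓ M).subgroupOf M := by
      refine lt_of_le_of_ne (Subgroup.comap_mono hle) fun he => hne ?_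
      have := congrArg (Subgroup.map M.subtype) he
      rw [Subgroup.map_subgroupOf_eq_of_le hHM, Subgroup.map_subgroupOf_eq_of_le inf_le_right] at this
      exact this.symm
    exact (Subgroup.subgroupOf_eq_top.1 (hmaxH.2 _ hlt)).trans inf_le_left
  have hNM : ¬ N ≤ M := by
    intro hle
    have hconj : ∀ g : G, H.map (MulAut.conj g).toMonoidHom ≤ H := fun g => by
      calc H.map (MulAut.conj g).toMonoidHom
          ≤ (H ⊔ H.map (MulAut.conj g).toMonoidHom) ⊓ M := le_inf le_sup_right ((hconjN g).trans hle)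
        _ = H := hcl g
    have : H.Normal := ⟨fun h hh g => hconj g ⟨h, hh, rfl⟩⟩
    apply hne
    rw [hN, Subgroup.normalClosure_eq_self]
    exact inf_eq_left.2 hHM
  have hNtop : N = ⊤ := hmaxM.2 _ (lt_of_le_not_ge hMN hNM)
  have hn : M ≤ Subgroup.normalizer (H : Set G) := by
    intro g hg
    rw [Subgroup.mem_normalizer_iff_map_conj_eq]
    refine Subgroup.eq_of_le_of_card_ge ?_
      (Subgroup.card_map_of_injective (f := (MulAut.conj g).toMonoidHom) (MulAut.conj g).injective).ge
    calc H.map (MulAut.conj g).toMonoidHom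
        ≤ (H ⊔ H.map (MulAut.conj g).toMonoidHom) ⊓ M := le_inf le_sup_right (by
          rintro _ ⟨h, hh, rfl⟩
          exact mul_mem (mul_mem hg (hHM hh)) (inv_mem hg))
      _ = H := hcl g
  have hMn : Subgroup.normalizer (M : Set G) = M := by
    rcases eq_or_lt_of_le (Subgroup.le_normalizer : M ≤ Subgroup.normalizer (M : Set G)) with h | h
    · exact h.symm
    · have : M.Normal := Subgroup.normalizer_eq_top_iff.1 (hmaxM.2 _ h)
      exact absurd (Subgroup.normalClosure_le_normal (SetLike.coe_subset_coe.2 hHM)) hNM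
  have hHn : (H.subgroupOf M).Normal := Subgroup.normal_subgroupOf_of_le_normalizer hn
  -- the quotient has prime order
  have hidx : (H.relIndex M).Prime := by
    show (H.subgroupOf M).index.Prime
    have h1 : (H.subgroupOf M).index ≠ 1 := fun h => hmaxH.1 (Subgroup.index_eq_one.1 h)
    obtain ⟨r, hr, hrd⟩ := Nat.exists_prime_and_dvd h1
    have : Fact r.Prime := ⟨hr⟩
    obtain ⟨x, hx⟩ := exists_prime_orderOf_dvd_card' r (G := ↥M ⧸ H.subgroupOf M) hrd
    have htop : (Subgroup.zpowers x).comap (QuotientGroup.mk' (H.subgroupOf M)) = ⊤ := by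
      refine hmaxH.2 _ (lt_of_le_of_ne ?_ fun he => ?_)
      · intro y hy
        rw [Subgroup.mem_comap, QuotientGroup.mk'_apply, (QuotientGroup.eq_one_iff y).2 hy]
        exact one_mem _
      · obtain ⟨y, rfl⟩ := QuotientGroup.mk'_surjective _ x
        have hy : y ∈ H.subgroupOf M := by rw [he]; exact Subgroup.mem_zpowers _
        rw [QuotientGroup.mk'_apply, (QuotientGroup.eq_one_iff y).2 hy, orderOf_one] at hx
        exact hr.ne_one hx.symm
    have : Subgroup.zpowers x = ⊤ :=
      Subgroup.comap_injective (QuotientGroup.mk'_surjective _) (by rw [htop, Subgroup.comap_top])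
    rw [Subgroup.index, ← Subgroup.card_top (G := ↥M ⧸ H.subgroupOf M), ← this, Nat.card_zpowers, hx]
    exact hr
  have : Fact (H.relIndex M).Prime := ⟨hidx⟩
  have hK : ∀ g : G, (H ⊔ H.map (MulAut.conj g).toMonoidHom).Normal →
      H ⊔ H.map (MulAut.conj g).toMonoidHom ≤ M := by
    intro g hg
    exfalso
    have hle := Subgroup.normalClosure_le_normal (N := H ⊔ H.map (MulAut.conj g).toMonoidHom)
      (s := (H : Set G)) (SetLike.coe_subset_coe.2 le_sup_left)
    have h0 := hcl g
    rw [← hN, hNtop, top_le_iff] at hle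
    rw [hle, top_inf_eq] at h0
    exact hmaxH.1 (Subgroup.subgroupOf_eq_top.2 h0.le)
  have hcard : Nat.card (↥M ⧸ H.subgroupOf M) = H.relIndex M := rfl
  have : IsCyclic (↥M ⧸ H.subgroupOf M) := isCyclic_of_prime_card hcard
  letI : CommGroup (↥M ⧸ H.subgroupOf M) := IsCyclic.commGroup
  set ψ := QuotientGroup.mk' (H.subgroupOf M)
  obtain ⟨m, hm⟩ := CfsgLib.TwoGroupTricks.exists_transfer_eq hmaxM hMn hHM hn hidx hK ψ
    (fun x => QuotientGroup.eq_one_iff x)
  apply hm
  have hker : N ≤ (MonoidHom.transfer ψ).ker := Subgroup.normalClosure_le_normal fun h hh =>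
    CfsgLib.TwoGroupTricks.transfer_eq_one_of_mem hcl ψ (fun x => QuotientGroup.eq_one_iff x) hh
  exact hker (hNtop.symm ▸ Subgroup.mem_top m)

end Cfsg.Agent.S3014
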