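import Cfsg.Statements.S3015
import Mathlib
import Cfsg.Agent.Lib.TwoGroupTricks.MaximalChain

set_option autoImplicit false
open Cfsg

namespace Cfsg.Agent.S3015

/-- Let G be a finite non-abelian simple group, M a maximal subgroup of G and H a normal subgroup of M of prime index in M. Then G is generated by H together with one of its conjugates. -/
theorem result {G : Type*} [Group G] [Finite G] [IsSimpleGroup G] (hG : ¬ IsMulCommutative G) (M H : Subgroup G) (hmaxM : IsCoatom M) (hHM : H ≤ M) (hHn : (H.subgroupOf M).Normal) (hidx : (H.relIndex M).Prime) : ∃ g : G, H ⊔ H.map (MulAut.conj g).toMonoidHom = ⊤ := by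
  have : Fact (H.relIndex M).Prime := ⟨hidx⟩
  have hn : M ≤ Subgroup.normalizer (H : Set G) :=
    (Subgroup.normal_subgroupOf_iff_le_normalizer hHM).1 hHn
  have hMn : Subgroup.normalizer (M : Set G) = M := by
    rcases eq_or_lt_of_le (Subgroup.le_normalizer : M ≤ Subgroup.normalizer (M : Set G)) with h | h
    · exact h.symm
    · have hN : M.Normal := Subgroup.normalizer_eq_top_iff.1 (hmaxM.2 _ h)
      rcases IsSimpleGroup.eq_bot_or_eq_top_of_normal M hN with h0 | h0
      · exact absurd hidx (by
          have : H = M := le_antisymm hHM (h0 ▸ bot_le)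
          rw [this, Subgroup.relIndex_self]; exact Nat.not_prime_one)
      · exact absurd h0 hmaxM.1
  by_contra! hno
  have hK : ∀ g : G, (H ⊔ H.map (MulAut.conj g).toMonoidHom).Normal →
      H ⊔ H.map (MulAut.conj g).toMonoidHom ≤ M := fun g hg => by
    rcases IsSimpleGroup.eq_bot_or_eq_top_of_normal _ hg with h0 | h0
    · exact h0 ▸ bot_le
    · exact absurd h0 (hno g)
  have hcard : Nat.card (↥M ⧸ H.subgroupOf M) = H.relIndex M := rfl
  have : IsCyclic (↥M ⧸ H.subgroupOf M) := isCyclic_of_prime_card hcard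
  letI : CommGroup (↥M ⧸ H.subgroupOf M) := IsCyclic.commGroup
  set ψ := QuotientGroup.mk' (H.subgroupOf M)
  obtain ⟨m, hm⟩ := CfsgLib.TwoGroupTricks.exists_transfer_eq hmaxM hMn hHM hn hidx hK ψ
    (fun x => QuotientGroup.eq_one_iff x)
  rcases IsSimpleGroup.eq_bot_or_eq_top_of_normal _ (MonoidHom.normal_ker (MonoidHom.transfer ψ)) with h0 | h0
  · apply hG
    have hinj := (MonoidHom.ker_eq_bot_iff _).1 h0
    exact ⟨⟨fun a b => hinj (by rw [map_mul, map_mul, mul_comm])⟩⟩
  · exact hm (h0.symm ▸ Subgroup.mem_top m : m ∈ (MonoidHom.transfer ψ).ker)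

end Cfsg.Agent.S3015
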