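import Cfsg.Statements.S3017
import Cfsg.Agent.Lib.Involutions.BrauerSuzuki
import Cfsg.Agent.Lib.Cores.PCore

set_option autoImplicit false
set_option linter.unusedSectionVars false
set_option linter.style.haveILetI false

/-!
Extremely closed abelian 2-subgroups. For involutions `v` of `H` conjugate to `t`, the conjugates
`u` of `t` with `u * v` of odd order form a partition of the class of `t`; it is stable under
the cores of the centralisers of the involutions of `H`, and Glauberman's `Z*`-theorem settles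
the case of a single part.
-/

open Cfsg

namespace Cfsg.Agent.S3017

open CfsgLib.Involutions (orderOf_eq_two_iff mul_self_eq_one ne_one inv_eq_self orderOf_conj)

universe u

variable {G : Type u} [Group G]

theorem eq_one_of_odd {x : G} (h2 : x * x = 1) (ho : Odd (orderOf x)) : x = 1 := by
  have h : orderOf x ∣ 2 := orderOf_dvd_of_pow_eq_one (by rw [pow_two, h2])
  rcases (Nat.dvd_prime Nat.prime_two).1 h with e | e
  · exact orderOf_eq_one_iff.1 e
  · rw [e] at ho
    exact absurd ho (by decide)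

theorem eq_one_of_two_group {H : Subgroup G} (hH : IsPGroup 2 H) {x : G} (hx : x ∈ H)
    (ho : Odd (orderOf x)) : x = 1 := by
  obtain ⟨k, hk⟩ := hH ⟨x, hx⟩
  have h1 : orderOf x ∣ 2 ^ k := orderOf_dvd_of_pow_eq_one (congrArg Subtype.val hk)
  have h2 : (orderOf x).Coprime (2 ^ k) :=
    Nat.Coprime.pow_right k (Nat.coprime_two_right.2 ho)
  exact orderOf_eq_one_iff.1 (Nat.eq_one_of_dvd_coprimes h2 dvd_rfl h1)

theorem odd_orderOf_mem {N : Subgroup G} (hN : Odd (Nat.card N)) {x : G} (hx : x ∈ N) :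
    Odd (orderOf x) := by
  have h : orderOf x ∣ Nat.card N := by
    rw [← Subgroup.orderOf_mk x hx]; exact orderOf_dvd_natCard _
  exact hN.of_dvd_nat h

theorem odd_orderOf_conj {x : G} (h : Odd (orderOf x)) (g : G) :
    Odd (orderOf (g * x * g⁻¹)) := by
  rwa [orderOf_conj]

/-- An involution inverting an element of odd order is conjugate to the product. -/
theorem exists_conj_eq_mul {v r : G} (hv : v * v = 1) (hr : v * r * v = r⁻¹)
    (hodd : Odd (orderOf r)) {N : Subgroup G} (hrN : r ∈ N) :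
    ∃ p ∈ N, p * v * p⁻¹ = v * r := by
  obtain ⟨k, hk⟩ := hodd
  refine ⟨r ^ k, pow_mem hrN k, ?_⟩
  have h1 : v * r ^ k * v = (r ^ k)⁻¹ := by
    have hvi : v⁻¹ = v := inv_eq_of_mul_eq_one_left hv
    rw [← inv_pow, ← hr]
    have := conj_pow (i := k) (a := v) (b := r)
    rw [hvi] at this
    exact this.symm
  have h2 : (r ^ k)⁻¹ * (r ^ k)⁻¹ = r := by
    rw [← mul_inv_rev, ← pow_add, inv_eq_iff_mul_eq_one, ← pow_succ, ← two_mul, ← hk,
      pow_orderOf_eq_one]
  calc r ^ k * v * (r ^ k)⁻¹ = v * (v * r ^ k * v) * (r ^ k)⁻¹ := by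
          simp only [← mul_assoc, hv, one_mul]
    _ = v * ((r ^ k)⁻¹ * (r ^ k)⁻¹) := by rw [h1, mul_assoc]
    _ = v * r := by rw [h2]

variable [Finite G]

/-- The retraction up to an injective map of the join of two conjugates onto the subgroup. -/
theorem exists_hom {H : Subgroup G} (hH : IsPGroup 2 H) (hc : IsExtremelyClosed H)
    (hab : ∀ a ∈ H, ∀ b ∈ H, a * b = b * a) (g : G) :
    ∃ (K : Subgroup G) (P : Subgroup K) (ψ : K →* P), H ≤ K ∧
      (∀ h ∈ H, g * h * g⁻¹ ∈ K) ∧ K ≤ H ⊔ H.map (MulAut.conj g).toMonoidHom ∧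
      (∀ x : K, ψ x = 1 → Odd (orderOf (x : G))) ∧
      (∀ x : K, Odd (orderOf (x : G)) → ψ x = 1) ∧
      (∀ x : K, (x : G) ∈ H → ψ x = 1 → (x : G) = 1) ∧
      (∀ x y : K, ψ (x * y) = ψ (y * x)) ∧
      ∃ k ∈ K, k⁻¹ * g ∈ Subgroup.normalizer (H : Set G) := by
  haveI : Fact (Nat.Prime 2) := ⟨Nat.prime_two⟩
  set K := H ⊔ H.map (MulAut.conj g).toMonoidHom with hK
  have hHK : H ≤ K := le_sup_left
  have hgK : ∀ h ∈ H, g * h * g⁻¹ ∈ K := fun h hh =>
    Subgroup.mem_sup_right ⟨h, hh, rfl⟩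
  obtain ⟨P, hP⟩ := (hH.comap_subtype (K := K)).exists_le_sylow
  have hPeq : (P : Subgroup K) = H.subgroupOf K := by
    refine le_antisymm ?_ hP
    by_contra hle
    set B := (H.subgroupOf K).subgroupOf (P : Subgroup K) with hB
    have hlt : B < ⊤ := lt_top_iff_ne_top.2 fun e => hle (Subgroup.subgroupOf_eq_top.1 e)
    haveI : Group.IsNilpotent (P : Subgroup K) := P.isPGroup'.isNilpotent
    obtain ⟨y, hyN, hyB⟩ := SetLike.exists_of_lt (Group.normalizerCondition_of_isNilpotent B hlt)
    apply hyB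
    have hyH : ((y : K) : G) ∈ Subgroup.normalizer (H : Set G) := by
      rw [Subgroup.mem_normalizer_iff]
      intro h
      rw [Subgroup.mem_normalizer_iff] at hyN
      constructor
      · intro hh
        exact (hyN ⟨⟨h, hHK hh⟩, hP hh⟩).1 hh
      · intro hh
        have hhK : h ∈ K := by
          have h1 := mul_mem (mul_mem (inv_mem (y : K).2) (hHK hh)) (y : K).2
          rwa [← mul_assoc, ← mul_assoc, inv_mul_cancel, one_mul,
            inv_mul_cancel_right] at h1
        have hhP : (⟨h, hhK⟩ : K) ∈ (P : Subgroup K) := by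
          have h1 : (y : K) * ⟨h, hhK⟩ * (y : K)⁻¹ ∈ (P : Subgroup K) := hP hh
          have h2 := mul_mem (mul_mem (inv_mem y.2) h1) y.2
          rwa [← mul_assoc, ← mul_assoc, inv_mul_cancel, one_mul,
            inv_mul_cancel_right] at h2
        exact (hyN ⟨⟨h, hhK⟩, hhP⟩).2 hh
    have h1 : ((y : K) : G) ∈ K ⊓ Subgroup.normalizer (H : Set G) := ⟨(y : K).2, hyH⟩
    rw [hc g] at h1
    exact h1
  have hmem : ∀ {x : K}, x ∈ (P : Subgroup K) → (x : G) ∈ H := fun hx => by
    rw [hPeq] at hx; exact hx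
  have hPc : Subgroup.normalizer ((P : Subgroup K) : Set K) ≤
      Subgroup.centralizer ((P : Subgroup K) : Set K) := by
    intro k hk
    have hkH : (k : G) ∈ H := by
      have h1 : (k : G) ∈ K ⊓ Subgroup.normalizer (H : Set G) := by
        refine ⟨k.2, ?_⟩
        show (k : G) ∈ Subgroup.normalizer (H : Set G)
        rw [Subgroup.mem_normalizer_iff]
        intro h
        rw [Subgroup.mem_normalizer_iff, hPeq] at hk
        constructor
        · intro hh
          exact (hk ⟨h, hHK hh⟩).1 hh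
        · intro hh
          have hhK : h ∈ K := by
            have h2 := mul_mem (mul_mem (inv_mem k.2) (hHK hh)) k.2
            rwa [← mul_assoc, ← mul_assoc, inv_mul_cancel, one_mul,
              inv_mul_cancel_right] at h2
          exact (hk ⟨h, hhK⟩).2 hh
      rw [hc g] at h1
      exact h1
    rw [Subgroup.mem_centralizer_iff]
    intro h hh
    exact Subtype.ext (hab _ (hmem hh) _ hkH)
  have hcompl := MonoidHom.ker_transferSylow_isComplement' P hPc
  refine ⟨K, P, MonoidHom.transferSylow P hPc, hHK, hgK, le_rfl, ?_, ?_, ?_, ?_, ?_⟩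
  · intro x hx
    have hnd := MonoidHom.not_dvd_card_ker_transferSylow P hPc
    refine (Nat.odd_iff.2 (Nat.two_dvd_ne_zero.1 fun h2 => hnd ?_))
    refine h2.trans ?_
    rw [Subgroup.orderOf_coe, ← Subgroup.orderOf_mk x (MonoidHom.mem_ker.2 hx)]
    exact orderOf_dvd_natCard _
  · intro x hx
    set y := MonoidHom.transferSylow P hPc x
    have h1 : orderOf y ∣ orderOf x := orderOf_map_dvd _ x
    rw [← Subgroup.orderOf_coe x] at h1
    have h2 : Odd (orderOf y) := hx.of_dvd_nat h1
    exact Subtype.ext (eq_one_of_two_group P.isPGroup' y.2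
      (by rw [Subgroup.orderOf_coe]; exact h2))
  · intro x hxH hx
    have hxP : x ∈ (P : Subgroup K) := hP hxH
    have h1 : x ∈ ((MonoidHom.transferSylow P hPc).ker ⊓ (P : Subgroup K)) :=
      ⟨MonoidHom.mem_ker.2 hx, hxP⟩
    rw [hcompl.disjoint.eq_bot, Subgroup.mem_bot] at h1
    rw [h1]; rfl
  · intro x y
    rw [map_mul, map_mul]
    exact Subtype.ext (Subtype.ext (hab _ (hmem (MonoidHom.transferSylow P hPc x).2) _
      (hmem (MonoidHom.transferSylow P hPc y).2)))
  · have hQ : IsPGroup 2 ((H.map (MulAut.conj g).toMonoidHom).subgroupOf K) :=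
      (hH.map _).comap_subtype
    obtain ⟨Q, hQle⟩ := hQ.exists_le_sylow
    obtain ⟨k, hk⟩ := MulAction.exists_smul_eq K Q P
    refine ⟨(k⁻¹ : K), SetLike.coe_mem _, ?_⟩
    have hsub : ∀ h ∈ H, (k : G) * (g * h * g⁻¹) * (k : G)⁻¹ ∈ H := by
      intro h hh
      have h1 : k * (⟨_, hgK h hh⟩ : K) * k⁻¹ ∈ ((k • Q : Sylow 2 K) : Subgroup K) :=
        ⟨⟨_, hgK h hh⟩, hQle ⟨h, hh, rfl⟩, rfl⟩
      rw [hk] at h1
      exact hmem h1
    rw [Subgroup.mem_normalizer_iff]
    have hgen : ((k⁻¹ : K) : G)⁻¹ * g = (k : G) * g := by simp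
    rw [hgen]
    have hmap : H.map (MulAut.conj ((k : G) * g)).toMonoidHom = H := by
      refine Subgroup.eq_of_le_of_card_ge ?_ ?_
      · rintro _ ⟨h, hh, rfl⟩
        have h1 := hsub h hh
        simp only [MulEquiv.coe_toMonoidHom, MulAut.conj_apply]
        rwa [show (k : G) * g * h * ((k : G) * g)⁻¹ = (k : G) * (g * h * g⁻¹) * (k : G)⁻¹ by
          group]
      · rw [Subgroup.card_map_of_injective (MulAut.conj _).injective]
    intro h
    constructor
    · intro hh
      rw [← hmap]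
      exact ⟨h, hh, rfl⟩
    · intro hh
      rw [← hmap] at hh
      obtain ⟨h', hh', he⟩ := hh
      have := (MulAut.conj ((k : G) * g)).injective (he : MulAut.conj ((k : G) * g) h' = _)
      exact this ▸ hh'

/-- The core of the centraliser of an element. -/
def coreC (s : G) : Subgroup G :=
  (oddCore ↥(Subgroup.centralizer ({s} : Set G))).map
    (Subgroup.centralizer ({s} : Set G)).subtype

theorem coreC_le (s : G) : coreC s ≤ Subgroup.centralizer ({s} : Set G) :=
  Subgroup.map_subtype_le _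

theorem odd_card_coreC (s : G) : Odd (Nat.card (coreC s)) := by
  rw [coreC, Subgroup.card_map_of_injective (Subgroup.subtype_injective _)]
  exact CfsgLib.Cores.odd_card_oddCore

theorem conj_coreC {s c o : G} (hc : c ∈ Subgroup.centralizer ({s} : Set G)) (ho : o ∈ coreC s) :
    c * o * c⁻¹ ∈ coreC s := by
  obtain ⟨o', ho', rfl⟩ := ho
  exact ⟨⟨c, hc⟩ * o' * ⟨c, hc⟩⁻¹, Subgroup.Normal.conj_mem inferInstance o' ho' ⟨c, hc⟩, rfl⟩

theorem conj_mem_coreC_of_conj {s o : G} (x : G) (ho : o ∈ coreC s) :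
    x * o * x⁻¹ ∈ coreC (x * s * x⁻¹) := by
  set C := Subgroup.centralizer ({x * s * x⁻¹} : Set G) with hC
  set A := (coreC s).map (MulAut.conj x).toMonoidHom with hA
  have hAC : A ≤ C := by
    rintro _ ⟨a, ha, rfl⟩
    have h := Subgroup.mem_centralizer_singleton_iff.1 (coreC_le s ha)
    refine Subgroup.mem_centralizer_singleton_iff.2 ?_
    simp only [MulEquiv.coe_toMonoidHom, MulAut.conj_apply]
    rw [show x * a * x⁻¹ * (x * s * x⁻¹) = x * (a * s) * x⁻¹ by group, h]
    group
  haveI : (A.subgroupOf C).Normal := ⟨fun a ha c => by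
    obtain ⟨b, hb, he⟩ := ha
    have he' : x * b * x⁻¹ = (a : G) := he
    refine ⟨(x⁻¹ * (c : G) * x) * b * (x⁻¹ * (c : G) * x)⁻¹, conj_coreC ?_ hb, ?_⟩
    · have h := Subgroup.mem_centralizer_singleton_iff.1 c.2
      refine Subgroup.mem_centralizer_singleton_iff.2 ?_
      calc x⁻¹ * (c : G) * x * s = x⁻¹ * ((c : G) * (x * s * x⁻¹)) * x := by group
        _ = x⁻¹ * (x * s * x⁻¹ * (c : G)) * x := by rw [h]
        _ = s * (x⁻¹ * (c : G) * x) := by group
    · show x * (x⁻¹ * (c : G) * x * b * (x⁻¹ * (c : G) * x)⁻¹) * x⁻¹ = (c : G) * (a : G) * (c : G)⁻¹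
      rw [← he']
      group⟩
  have hodd : Odd (Nat.card (A.subgroupOf C)) := by
    rw [Nat.card_congr (Subgroup.subgroupOfEquivOfLe hAC).toEquiv, hA,
      Subgroup.card_map_of_injective (MulAut.conj x).injective]
    exact odd_card_coreC s
  have hm : x * o * x⁻¹ ∈ A := ⟨o, ho, rfl⟩
  exact ⟨⟨_, hAC hm⟩, CfsgLib.Cores.le_oddCore hodd hm, rfl⟩

/-- `C(s)` has the factorisation wanted. -/
def Fact' (H : Subgroup G) (s : G) : Prop :=
  ∀ y ∈ Subgroup.centralizer ({s} : Set G), ∃ x ∈ Subgroup.normalizer (H : Set G),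
    x ∈ Subgroup.centralizer ({s} : Set G) ∧ ∃ o ∈ coreC s, y = x * o

section Lemmas

variable {H : Subgroup G} (hH : IsPGroup 2 H) (hab : ∀ a ∈ H, ∀ b ∈ H, a * b = b * a)

include hab in
theorem mem_centralizer_of_mem {a b : G} (ha : a ∈ H) (hb : b ∈ H) :
    a ∈ Subgroup.centralizer ({b} : Set G) :=
  Subgroup.mem_centralizer_singleton_iff.2 (hab a ha b hb)

include hH in
theorem eq_one_of_mem_coreC {s h : G} (hh : h ∈ H) (hs : h ∈ coreC s) : h = 1 :=
  eq_one_of_two_group hH hh (odd_orderOf_mem (odd_card_coreC s) hs)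

include hH hab in
/-- An element of odd order in `H O(C(s))` lies in `O(C(s))`. -/
theorem mem_coreC_of_odd {s h y : G} (hs : s ∈ H) (hh : h ∈ H) (hy : Odd (orderOf y))
    (hhy : h⁻¹ * y ∈ coreC s) : y ∈ coreC s := by
  have hhC := mem_centralizer_of_mem hab hh hs
  have hpow : ∀ k : ℕ, (h ^ k)⁻¹ * y ^ k ∈ coreC s := by
    intro k
    induction k with
    | zero => simp
    | succ k ih =>
      have h1 := conj_coreC (inv_mem hhC) ih
      rw [inv_inv] at h1
      have h2 : (h ^ (k + 1))⁻¹ * y ^ (k + 1) = (h⁻¹ * ((h ^ k)⁻¹ * y ^ k) * h) * (h⁻¹ * y) := by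
        rw [pow_succ y, pow_succ h]; group
      rw [h2]
      exact mul_mem h1 hhy
  have h1 := hpow (orderOf y)
  rw [pow_orderOf_eq_one, mul_one, inv_mem_iff] at h1
  have h2 := eq_one_of_mem_coreC hH (pow_mem hh _) h1
  obtain ⟨k, hk⟩ := hy
  obtain ⟨j, hj⟩ := hH ⟨h, hh⟩
  have hoh : Odd (orderOf h) :=
    (show Odd (orderOf y) from ⟨k, hk⟩).of_dvd_nat (orderOf_dvd_of_pow_eq_one h2)
  rw [eq_one_of_two_group hH hh hoh, inv_one, one_mul] at hhy
  exact hhy

include hH hab in
/-- An element of odd order of `C(s)` inverted by an element of `H` lies in `O(C(s))`. -/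
theorem mem_coreC_of_inverted {s v r : G} (hF : Fact' H s) (hs : s ∈ H) (hv : v ∈ H)
    (hr : r ∈ Subgroup.centralizer ({s} : Set G)) (hodd : Odd (orderOf r))
    (hinv : v * r * v⁻¹ = r⁻¹) : r ∈ coreC s := by
  obtain ⟨x, hx, hxC, o, ho, hxo⟩ := hF r hr
  have hvC := mem_centralizer_of_mem hab hv hs
  -- the commutator lies in `H O(C(s))`
  set h := v * (x * v⁻¹ * x⁻¹) with hh
  have hhH : h ∈ H := mul_mem hv ((Subgroup.mem_normalizer_iff.1 hx v⁻¹).1 (inv_mem hv))
  have hoo : x * (v * o * v⁻¹ * o⁻¹) * x⁻¹ ∈ coreC s :=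
    conj_coreC hxC (mul_mem (conj_coreC hvC ho) (inv_mem ho))
  have e : v * r * v⁻¹ * r⁻¹ = h * (x * (v * o * v⁻¹ * o⁻¹) * x⁻¹) := by
    rw [hh, hxo]; group
  have hodd2 : Odd (orderOf (r⁻¹ * r⁻¹)) := by
    have : orderOf (r⁻¹ * r⁻¹) ∣ orderOf r := by
      rw [← orderOf_inv r]
      exact orderOf_dvd_of_pow_eq_one (by
        rw [← pow_two, ← pow_mul, mul_comm, pow_mul, pow_orderOf_eq_one, one_pow])
    exact hodd.of_dvd_nat this
  have h2 : r⁻¹ * r⁻¹ ∈ coreC s :=
    mem_coreC_of_odd hH hab hs hhH hodd2 (by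
      rw [← hinv] at *
      nth_rewrite 2 [hinv]
      rw [e, ← mul_assoc, inv_mul_cancel, one_mul]
      exact hoo)
  obtain ⟨k, hk⟩ := hodd
  have : r = ((r⁻¹ * r⁻¹) ^ (k + 1))⁻¹ := by
    rw [← pow_two, ← pow_mul, inv_pow, inv_inv, mul_add, mul_one, pow_add, ← pow_one r,
      ← pow_mul, pow_one]
    have : r ^ (2 * k + 1) = 1 := by rw [← hk, pow_orderOf_eq_one]
    calc r = r ^ (2 * k + 1) * r := by rw [this, one_mul]
      _ = _ := by rw [pow_succ, mul_assoc, ← pow_two, one_mul]
  rw [this]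
  exact inv_mem (pow_mem h2 _)

end Lemmas

theorem main : ∀ (n : ℕ) (G : Type u) [Group G] [Finite G], Nat.card G = n →
    ∀ H : Subgroup G, IsPGroup 2 H → (∀ a ∈ H, ∀ b ∈ H, a * b = b * a) →
      IsExtremelyClosed H → Subgroup.normalizer (H : Set G) ⊔ oddCore G = ⊤ := by
  intro n
  induction n using Nat.strong_induction_on with
  | _ n IH => ?_
  intro G _ _ hn H hH hab hc
  subst hn
  haveI : Fact (Nat.Prime 2) := ⟨Nat.prime_two⟩
  set X := Subgroup.normalizer (H : Set G) with hX
  have hHX : H ≤ X := Subgroup.le_normalizer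
  -- trivial case
  by_cases hbot : H = ⊥
  · refine eq_top_iff.2 fun g _ => Subgroup.mem_sup_left ?_
    rw [hX, hbot, Subgroup.mem_normalizer_iff]
    intro h
    simp [Subgroup.mem_bot, mul_inv_eq_one]
  obtain ⟨t, htH, ht⟩ : ∃ t ∈ H, orderOf t = 2 := by
    obtain ⟨k, hk⟩ := IsPGroup.iff_card.1 hH
    have hk0 : k ≠ 0 := fun h0 => hbot (Subgroup.card_eq_one.1 (by rw [hk, h0, pow_zero]))
    obtain ⟨x, hx⟩ := exists_prime_orderOf_dvd_card' (G := H) 2 (hk ▸ dvd_pow_self 2 hk0)
    exact ⟨x, x.2, (Subgroup.orderOf_coe x).trans hx⟩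
  -- a central involution
  by_cases hcent : ∃ s ∈ H, orderOf s = 2 ∧ s ∈ Subgroup.center G
  · obtain ⟨s, hsH, hs, hsc⟩ := hcent
    set Z := Subgroup.zpowers s with hZ
    have hZc : Z ≤ Subgroup.center G := Subgroup.zpowers_le.2 hsc
    have hZH : Z ≤ H := Subgroup.zpowers_le.2 hsH
    haveI : Z.Normal := ⟨fun n hn g => by
      rw [Subgroup.mem_center_iff.1 (hZc hn) g, mul_inv_cancel_right]; exact hn⟩
    set π := QuotientGroup.mk' Z with hπ
    have hπs : Function.Surjective π := QuotientGroup.mk'_surjective Z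
    have hlt : Nat.card (G ⧸ Z) < Nat.card G := by
      rw [← Subgroup.card_mul_index Z, ← Subgroup.index_eq_card, Nat.card_zpowers, hs]
      have := Subgroup.index_ne_zero_of_finite (H := Z)
      omega
    have hcomap : (H.map π).comap π = H := by
      rw [Subgroup.comap_map_eq, QuotientGroup.ker_mk', sup_eq_left.2 hZH]
    have hN : ∀ g : G, π g ∈ Subgroup.normalizer ((H.map π : Subgroup (G ⧸ Z)) : Set (G ⧸ Z)) →
        g ∈ X := by
      intro g hg
      rw [Subgroup.mem_normalizer_iff] at hg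
      rw [hX, Subgroup.mem_normalizer_iff]
      intro h
      conv_lhs => rw [← hcomap]
      conv_rhs => rw [← hcomap]
      rw [Subgroup.mem_comap, Subgroup.mem_comap, map_mul, map_mul, map_inv]
      exact hg (π h)
    have hq := IH _ hlt (G ⧸ Z) rfl (H.map π) (hH.map π) (by
        rintro _ ⟨a, ha, rfl⟩ _ ⟨b, hb, rfl⟩
        rw [← map_mul, hab a ha b hb, map_mul]) (by
        intro g'
        obtain ⟨g, rfl⟩ := hπs g'
        refine le_antisymm ?_ (le_inf le_sup_left Subgroup.le_normalizer)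
        intro y hy
        have e : H.map π ⊔ (H.map π).map (MulAut.conj (π g)).toMonoidHom =
            (H ⊔ H.map (MulAut.conj g).toMonoidHom).map π := by
          rw [Subgroup.map_sup, Subgroup.map_map, Subgroup.map_map]
          congr 2
        rw [e] at hy
        obtain ⟨⟨k, hk, rfl⟩, hyN⟩ := hy
        have h1 : k ∈ (H ⊔ H.map (MulAut.conj g).toMonoidHom) ⊓ X := ⟨hk, hN k hyN⟩
        rw [hX, hc g] at h1
        exact ⟨k, h1, rfl⟩)
    -- lift the core
    set R := (oddCore (G ⧸ Z)).comap π with hR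
    have hRO : R ≤ Z ⊔ oddCore G := by
      have hZR : Z ≤ R := fun z hz => by
        rw [hR, Subgroup.mem_comap, hπ, QuotientGroup.mk'_apply, (QuotientGroup.eq_one_iff z).2 hz]
        exact one_mem _
      have hZcard : Nat.card (Z.subgroupOf R) = 2 := by
        rw [Nat.card_congr (Subgroup.subgroupOfEquivOfLe hZR).toEquiv, Nat.card_zpowers, hs]
      have hRcard : Nat.card R = 2 * Nat.card (oddCore (G ⧸ Z)) := by
        rw [hR, CfsgLib.Cores.card_comap_mk', Nat.card_zpowers, hs]
      have hidx : (Z.subgroupOf R).index = Nat.card (oddCore (G ⧸ Z)) := by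
        have h := Subgroup.card_mul_index (Z.subgroupOf R)
        rw [hZcard, hRcard] at h
        omega
      have hcop : (Nat.card (Z.subgroupOf R)).Coprime (Z.subgroupOf R).index := by
        rw [hZcard, hidx]
        exact Nat.coprime_two_left.2 CfsgLib.Cores.odd_card_oddCore
      obtain ⟨W, hW⟩ := Subgroup.exists_left_complement'_of_coprime hcop
      have hWodd : Odd (Nat.card W) := by
        have h := hW.card_mul_card
        rw [hZcard, hRcard] at h
        have : Nat.card W = Nat.card (oddCore (G ⧸ Z)) := by omega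
        rw [this]
        exact CfsgLib.Cores.odd_card_oddCore
      -- the elements of odd order of `R` are those of the complement
      have hodd : ∀ y : R, Odd (orderOf y) → y ∈ W := by
        intro y hy
        obtain ⟨⟨a, z⟩, he⟩ := hW.2 y
        have haz : Commute (a : R) (z : R) :=
          Subtype.ext (Subgroup.mem_center_iff.1 (hZc z.2) _)
        have hzo : Odd (orderOf (z : R)) := by
          have h1 : (z : R) ^ (orderOf y * Nat.card W) = 1 := by
            have hy1 : ((a : R) * z) ^ (orderOf y * Nat.card W) = 1 := by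
              have he' : (a : R) * z = y := he
              rw [he', pow_mul, pow_orderOf_eq_one, one_pow]
            rw [haz.mul_pow, mul_comm (orderOf y), pow_mul (a : R),
              show (a : R) ^ Nat.card W = 1 from congrArg Subtype.val (pow_card_eq_one' (x := a)),
              one_pow, one_mul] at hy1
            rw [mul_comm]
            exact hy1
          exact (hy.mul hWodd).of_dvd_nat (orderOf_dvd_of_pow_eq_one h1)
        have hz1 : (z : R) = 1 :=
          Subtype.ext (eq_one_of_two_group (H := Z)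
            ((IsPGroup.of_card (n := 1) (by rw [Nat.card_zpowers, hs, pow_one]))) z.2
            (by rw [Subgroup.orderOf_coe]; exact hzo))
        have he' : (a : R) * z = y := he
        rw [hz1, mul_one] at he'
        exact he' ▸ a.2
      haveI : (W.map R.subtype).Normal := ⟨by
        rintro _ ⟨w, hw, rfl⟩ g
        haveI : R.Normal := by rw [hR]; infer_instance
        have hm : g * (w : G) * g⁻¹ ∈ R := Subgroup.Normal.conj_mem ‹R.Normal› _ w.2 g
        refine ⟨⟨_, hm⟩, hodd _ ?_, rfl⟩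
        rw [← Subgroup.orderOf_coe]
        exact odd_orderOf_conj (odd_orderOf_mem (N := W.map R.subtype)
          (by rwa [Subgroup.card_map_of_injective R.subtype_injective]) ⟨w, hw, rfl⟩) g⟩
      have hWO : W.map R.subtype ≤ oddCore G :=
        CfsgLib.Cores.le_oddCore (by rwa [Subgroup.card_map_of_injective R.subtype_injective])
      intro r hr
      obtain ⟨⟨a, z⟩, he⟩ := hW.2 ⟨r, hr⟩
      have he' : ((a : R) : G) * ((z : R) : G) = r := congrArg Subtype.val he
      rw [← he']
      exact mul_mem (Subgroup.mem_sup_right (hWO ⟨_, a.2, rfl⟩)) (Subgroup.mem_sup_left z.2)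
    refine eq_top_iff.2 fun g _ => ?_
    have hg : π g ∈ Subgroup.normalizer ((H.map π : Subgroup (G ⧸ Z)) : Set (G ⧸ Z)) ⊔
        oddCore (G ⧸ Z) := by rw [hq]; exact Subgroup.mem_top _
    obtain ⟨a, ha, b, hb, hab'⟩ := Subgroup.mem_sup_of_normal_right.1 hg
    obtain ⟨x, rfl⟩ := hπs a
    have hr : x⁻¹ * g ∈ R := by
      rw [hR, Subgroup.mem_comap, map_mul, map_inv, ← hab', inv_mul_cancel_left]
      exact hb
    have h1 : x ∈ X ⊔ oddCore G := Subgroup.mem_sup_left (hN x ha)
    have h2 : x⁻¹ * g ∈ X ⊔ oddCore G :=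
      (sup_le_sup_right (hZH.trans hHX) _) (hRO hr)
    simpa using mul_mem h1 h2
  -- the centralisers of involutions of `H` factorise
  push Not at hcent
  have hF : ∀ s ∈ H, orderOf s = 2 → Fact' H s := by
    intro s hsH hs y hy
    set C := Subgroup.centralizer ({s} : Set G) with hC
    have hHC : H ≤ C := fun a ha => mem_centralizer_of_mem hab ha hsH
    have hlt : Nat.card C < Nat.card G := by
      refine lt_of_le_of_ne (Subgroup.card_le_card_group _) fun e => hcent s hsH hs ?_
      rw [Subgroup.card_eq_iff_eq_top, hC, Subgroup.centralizer_eq_top_iff_subset] at e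
      exact e rfl
    have hN : ∀ c : C, c ∈ Subgroup.normalizer ((H.subgroupOf C : Subgroup C) : Set C) →
        (c : G) ∈ X := by
      intro c hc'
      rw [Subgroup.mem_normalizer_iff] at hc'
      rw [hX, Subgroup.mem_normalizer_iff]
      intro h
      constructor
      · intro hh
        exact (hc' ⟨h, hHC hh⟩).1 hh
      · intro hh
        have hhC : h ∈ C := by
          have h1 := mul_mem (mul_mem (inv_mem c.2) (hHC hh)) c.2
          rwa [← mul_assoc, ← mul_assoc, inv_mul_cancel, one_mul, inv_mul_cancel_right] at h1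
        exact (hc' ⟨h, hhC⟩).2 hh
    have hq := IH _ hlt C rfl (H.subgroupOf C) hH.comap_subtype
      (fun a ha b hb => Subtype.ext (hab _ ha _ hb)) (by
        intro c
        refine le_antisymm ?_ (le_inf le_sup_left Subgroup.le_normalizer)
        rintro k ⟨hk, hkN⟩
        have h1 : (k : G) ∈ (H ⊔ H.map (MulAut.conj (c : G)).toMonoidHom) ⊓ X := by
          refine ⟨?_, hN k hkN⟩
          have h2 : (k : G) ∈ (H.subgroupOf C ⊔
              (H.subgroupOf C).map (MulAut.conj c).toMonoidHom).map C.subtype := ⟨k, hk, rfl⟩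
          rw [Subgroup.map_sup] at h2
          refine SetLike.le_def.1 (sup_le_sup ?_ ?_) h2
          · rintro _ ⟨a, ha, rfl⟩; exact ha
          · rintro _ ⟨_, ⟨a, ha, rfl⟩, rfl⟩
            exact ⟨(a : G), ha, rfl⟩
        rw [hX, hc] at h1
        exact h1)
    have hy' : (⟨y, hy⟩ : C) ∈ Subgroup.normalizer ((H.subgroupOf C : Subgroup C) : Set C) ⊔
        oddCore C := by rw [hq]; exact Subgroup.mem_top _
    obtain ⟨a, ha, b, hb, he⟩ := Subgroup.mem_sup_of_normal_right.1 hy'
    exact ⟨a, hN a ha, a.2, b, ⟨b, hb, rfl⟩, (congrArg Subtype.val he).symm⟩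
  -- existence and uniqueness of the part of a conjugate
  have hexist : ∀ g : G, ∃ x ∈ X, Odd (orderOf ((g * t * g⁻¹) * (x * t * x⁻¹))) := by
    intro g
    obtain ⟨K, P, ψ, hHK, hgK, -, hker, -, -, hcomm, k, hk, hkx⟩ := exists_hom hH hc hab g
    refine ⟨k⁻¹ * g, hkx, ?_⟩
    set v := k⁻¹ * g * t * (k⁻¹ * g)⁻¹ with hv
    have hvH : v ∈ H := (Subgroup.mem_normalizer_iff.1 hkx t).1 htH
    have hvv : v * v = 1 := by
      have := mul_self_eq_one ((orderOf_conj (k⁻¹ * g) t).trans ht)
      exact this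
    have hu : g * t * g⁻¹ = k * v * k⁻¹ := by rw [hv]; group
    have := hker (⟨k, hk⟩ * ⟨v, hHK hvH⟩ * ⟨k, hk⟩⁻¹ * ⟨v, hHK hvH⟩) (by
      rw [map_mul, hcomm (⟨k, hk⟩ * ⟨v, hHK hvH⟩), ← mul_assoc, inv_mul_cancel, one_mul,
        ← map_mul, show (⟨v, hHK hvH⟩ : K) * ⟨v, hHK hvH⟩ = 1 from Subtype.ext hvv, map_one])
    rw [hu]
    exact this
  -- the involution in the dihedral group of `u` and `s`
  have hpower : ∀ (g s v : G), s ∈ H → v ∈ H → s * s = 1 → v * v = 1 →
      Odd (orderOf (g * t * g⁻¹ * v)) → ∃ m : ℕ, Odd m ∧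
        (s * (g * t * g⁻¹)) ^ m * (s * (g * t * g⁻¹)) ^ m = 1 ∧
        Odd (orderOf ((s * (g * t * g⁻¹)) ^ m * (s * v))) := by
    intro g s v hs hv hss hvv h1
    obtain ⟨K, P, ψ, hHK, hgK, -, hker, hodd, -, hcomm, -⟩ := exists_hom hH hc hab g
    set u : K := ⟨_, hgK t htH⟩ with hu
    set s' : K := ⟨s, hHK hs⟩ with hs'
    set v' : K := ⟨v, hHK hv⟩ with hv'
    have hv1 : ψ v' * ψ v' = 1 := by
      rw [← map_mul, show v' * v' = 1 from Subtype.ext hvv, map_one]
    have huv : ψ u = ψ v' := by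
      have e1 := hodd (u * v') h1
      rw [map_mul] at e1
      calc ψ u = ψ u * (ψ v' * ψ v') := by rw [hv1, mul_one]
        _ = ψ v' := by rw [← mul_assoc, e1, one_mul]
    have hsu : ψ (s' * u) = ψ (s' * v') := by rw [map_mul, map_mul, huv]
    have hcs : ψ s' * ψ v' = ψ v' * ψ s' := by
      rw [← map_mul, hcomm, map_mul]
    have hs1 : ψ s' * ψ s' = 1 := by
      rw [← map_mul, show s' * s' = 1 from Subtype.ext hss, map_one]
    have hsq : ψ ((s' * u) * (s' * u)) = 1 := by
      rw [map_mul, hsu, map_mul]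
      calc ψ s' * ψ v' * (ψ s' * ψ v') = ψ s' * (ψ v' * ψ s') * ψ v' := by
            simp only [mul_assoc]
        _ = (ψ s' * ψ s') * (ψ v' * ψ v') := by rw [← hcs]; simp only [mul_assoc]
        _ = 1 := by rw [hs1, hv1, one_mul]
    set m := orderOf ((s * (g * t * g⁻¹)) * (s * (g * t * g⁻¹))) with hm
    have hmodd : Odd m := hker _ hsq
    refine ⟨m, hmodd, ?_, ?_⟩
    · rw [← (Commute.refl (s * (g * t * g⁻¹))).mul_pow, hm, pow_orderOf_eq_one]
    · refine hker ((s' * u) ^ m * (s' * v')) ?_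
      obtain ⟨j, hj⟩ := hmodd
      rw [map_mul, map_pow, hj, pow_succ, pow_mul, pow_two, ← map_mul ψ (s' * u) (s' * u), hsq,
        one_pow, one_mul, ← hsu, ← map_mul, hsq]
  -- the parts
  let Part : G → G → Prop := fun v u => IsConj t u ∧ Odd (orderOf (u * v))
  let V : Set G := {v | v ∈ H ∧ IsConj t v}
  have hV2 : ∀ v ∈ V, orderOf v = 2 := fun v hv =>
    (CfsgLib.Involutions.orderOf_eq_of_isConj hv.2).symm.trans ht
  have hshape : ∀ v ∈ V, ∀ s ∈ H, orderOf s = 2 → s ≠ v → ∀ u : G,
      Part v u ↔ ∃ q ∈ coreC s, ∃ p ∈ coreC (s * v), u = (q * p) * v * (q * p)⁻¹ := by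
    intro v hv s hsH hs hsv u
    have hvv := mul_self_eq_one (hV2 v hv)
    have hss := mul_self_eq_one hs
    obtain ⟨w, hw⟩ : ∃ w : G, w = s * v := ⟨_, rfl⟩
    rw [← hw]
    have hwH : w ∈ H := hw ▸ mul_mem hsH hv.1
    have hsv' : s * v = v * s := hab s hsH v hv.1
    have hww : w * w = 1 := by
      calc w * w = s * (v * s) * v := by rw [hw]; simp only [mul_assoc]
        _ = (s * s) * (v * v) := by rw [← hsv']; simp only [mul_assoc]
        _ = 1 := by rw [hss, hvv, one_mul]
    have hw1 : w ≠ 1 := fun e => hsv (mul_right_cancel (b := v) ((hw.symm.trans e).trans hvv.symm))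
    have hw2 : orderOf w = 2 := orderOf_eq_two_iff.2 ⟨hww, hw1⟩
    have hsw : s * w = v := by rw [hw, ← mul_assoc, hss, one_mul]
    have hwv : w * v = s := by rw [hw, mul_assoc, hvv, mul_one]
    constructor
    · rintro ⟨hcu, hodd⟩
      obtain ⟨g, rfl⟩ := isConj_iff.1 hcu
      set u := g * t * g⁻¹ with hu
      have huu : u * u = 1 := mul_self_eq_one ((orderOf_conj g t).trans ht)
      obtain ⟨m, hm, hzz, hzw⟩ := hpower g s v hsH hv.1 hss hvv hodd
      rw [← hu, ← hw] at hzw
      rw [← hu] at hzz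
      set z := (s * u) ^ m with hz
      have hzinv : z⁻¹ = z := inv_eq_of_mul_eq_one_left hzz
      have hsuinv : s * (s * u) * s⁻¹ = (s * u)⁻¹ := by
        rw [mul_inv_rev, inv_eq_of_mul_eq_one_left huu, inv_eq_of_mul_eq_one_left hss,
          ← mul_assoc, hss, one_mul]
      have hzs : s * z * s⁻¹ = z := by
        rw [hz, ← conj_pow, hsuinv, inv_pow, ← hz, hzinv]
      have hzC : z * w ∈ Subgroup.centralizer ({s} : Set G) :=
        mul_mem (Subgroup.mem_centralizer_singleton_iff.2 (mul_inv_eq_iff_eq_mul.1 hzs).symm)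
          (mem_centralizer_of_mem hab hwH hsH)
      have hinvw : w * (z * w) * w⁻¹ = (z * w)⁻¹ := by
        rw [mul_inv_rev, hzinv, inv_eq_of_mul_eq_one_left hww, mul_assoc, mul_assoc, hww, mul_one]
      have hzwO := mem_coreC_of_inverted hH hab (hF s hsH hs) hsH hwH hzC hzw hinvw
      have hwz : w * z = (z * w)⁻¹ := by
        rw [mul_inv_rev, hzinv, inv_eq_of_mul_eq_one_left hww]
      obtain ⟨q, hq, hqw⟩ := exists_conj_eq_mul hww (r := w * z) (by
          calc w * (w * z) * w = z * w := by rw [← mul_assoc w w, hww, one_mul]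
            _ = _ := by rw [hwz, inv_inv])
        (by rw [hwz, orderOf_inv]; exact hzw) (by rw [hwz]; exact inv_mem hzwO)
      rw [← mul_assoc, hww, one_mul] at hqw
      have hqs := Subgroup.mem_centralizer_singleton_iff.1 (coreC_le s hq)
      set u1 := q⁻¹ * u * q with hu1
      set a := s * u1 with ha
      have haq : a = q⁻¹ * (s * u) * (q⁻¹)⁻¹ := by
        rw [ha, hu1, inv_inv]
        calc s * (q⁻¹ * u * q) = (s * q⁻¹) * u * q := by simp only [mul_assoc]
          _ = q⁻¹ * (s * u) * q := by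
            rw [show s * q⁻¹ = q⁻¹ * s from (eq_inv_mul_iff_mul_eq.2 (by
              rw [← mul_assoc, hqs, mul_inv_cancel_right]))]
            simp only [mul_assoc]
      have ham : a ^ m = w := by
        rw [haq, conj_pow, ← hz, ← hqw, inv_inv]; group
      set r := v * u1 with hr
      have hra : r = w * a := by
        have h1 : w * s = v := by
          rw [hw, mul_assoc, ← hsv', ← mul_assoc, hss, one_mul]
        rw [hr, ha, ← mul_assoc w, h1]
      have hwa : Commute w a := by rw [← ham]; exact (Commute.refl a).pow_left m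
      have hrm : r ^ m = 1 := by
        obtain ⟨j, hj⟩ := hm
        rw [hra, hwa.mul_pow, ham, hj, pow_succ, pow_mul, pow_two, hww, one_pow, one_mul, hww]
      have hrodd : Odd (orderOf r) := hm.of_dvd_nat (orderOf_dvd_of_pow_eq_one hrm)
      have hu11 : u1 * u1 = 1 := by
        rw [hu1, show q⁻¹ * u * q * (q⁻¹ * u * q) = q⁻¹ * (u * u) * q by group, huu, mul_one,
          inv_mul_cancel]
      have hinvv : v * r * v⁻¹ = r⁻¹ := by
        rw [hr, mul_inv_rev, inv_eq_of_mul_eq_one_left hu11, ← mul_assoc, hvv, one_mul]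
      have hrC : r ∈ Subgroup.centralizer ({w} : Set G) := by
        refine Subgroup.mem_centralizer_singleton_iff.2 ?_
        rw [hra]
        exact ((Commute.refl w).mul_left hwa.symm).eq
      have hrO := mem_coreC_of_inverted hH hab (hF w hwH hw2) hwH hv.1 hrC hrodd hinvv
      rw [inv_eq_of_mul_eq_one_left hvv] at hinvv
      obtain ⟨p, hp, hpv⟩ := exists_conj_eq_mul hvv hinvv hrodd hrO
      refine ⟨q, hq, p, hp, ?_⟩
      rw [hr, ← mul_assoc, hvv, one_mul, hu1] at hpv
      calc u = q * (q⁻¹ * u * q) * q⁻¹ := by group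
        _ = _ := by rw [← hpv]; group
    · rintro ⟨q, hq, p, hp, rfl⟩
      obtain ⟨g, hg⟩ := isConj_iff.1 (show IsConj t ((q * p) * v * (q * p)⁻¹) from
        hv.2.trans (isConj_iff.2 ⟨q * p, rfl⟩))
      refine ⟨isConj_iff.2 ⟨g, hg⟩, ?_⟩
      obtain ⟨x, hx, hodd⟩ := hexist g
      set v' := x * t * x⁻¹ with hv'
      have hv'H : v' ∈ H := (Subgroup.mem_normalizer_iff.1 hx t).1 htH
      have hv'' : v' * v' = 1 := mul_self_eq_one ((orderOf_conj x t).trans ht)
      obtain ⟨m, hm, hzz, hzw⟩ := hpower g s v' hsH hv'H hss hv'' hodd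
      rw [hg] at hodd hzz hzw
      suffices e : v' = v by rwa [e] at hodd
      set r := v * (p * v * p⁻¹) with hr
      have hvC := mem_centralizer_of_mem hab hv.1 hwH
      have hrO : r ∈ coreC w := by
        have h1 := mul_mem (conj_coreC hvC hp) (inv_mem hp)
        rw [inv_eq_of_mul_eq_one_left hvv] at h1
        rwa [hr, ← mul_assoc, ← mul_assoc]
      have hrodd := odd_orderOf_mem (odd_card_coreC w) hrO
      have hrw : Commute w r :=
        (Subgroup.mem_centralizer_singleton_iff.1 (coreC_le w hrO)).symm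
      have hqs := Subgroup.mem_centralizer_singleton_iff.1 (coreC_le s hq)
      have hsu : s * ((q * p) * v * (q * p)⁻¹) = q * (w * r) * q⁻¹ := by
        rw [hr, ← mul_assoc w, hwv]
        calc s * ((q * p) * v * (q * p)⁻¹) = (s * q) * (p * v * p⁻¹) * q⁻¹ := by group
          _ = _ := by rw [← hqs]; group
      have hz : (s * ((q * p) * v * (q * p)⁻¹)) ^ m = q * w * q⁻¹ := by
        rw [hsu, conj_pow] at hzz ⊢
        obtain ⟨j, hj⟩ := hm
        have hwm : w ^ m = w := by rw [hj, pow_succ, pow_mul, pow_two, hww, one_pow, one_mul]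
        rw [hrw.mul_pow, hwm] at hzz ⊢
        have h1 : w * r ^ m * (w * r ^ m) = 1 := by
          have h2 : q * (w * r ^ m * (w * r ^ m)) * q⁻¹ = 1 := by rwa [conj_mul] at hzz
          rwa [mul_inv_eq_one, mul_eq_left] at h2
        have h3 : r ^ m = 1 := by
          refine eq_one_of_odd ?_ (hrodd.of_dvd_nat ?_)
          · calc r ^ m * r ^ m = w * w * (r ^ m * r ^ m) := by rw [hww, one_mul]
              _ = w * r ^ m * (w * r ^ m) :=
                  ((hrw.pow_right m).symm.mul_mul_mul_comm w (r ^ m)).symm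
              _ = 1 := h1
          · exact orderOf_dvd_of_pow_eq_one (by
              rw [← pow_mul, mul_comm, pow_mul, pow_orderOf_eq_one, one_pow])
        rw [h3, mul_one]
      rw [hz] at hzw
      set h := w * (s * v') with hh
      have hhH : h ∈ H := mul_mem hwH (mul_mem hsH hv'H)
      have ho : q * w * q⁻¹ * w⁻¹ ∈ coreC s := by
        have := mul_mem hq (conj_coreC (mem_centralizer_of_mem hab hwH hsH) (inv_mem hq))
        simpa [mul_assoc] using this
      have hy : q * w * q⁻¹ * (s * v') = q * w * q⁻¹ * w⁻¹ * h := by rw [hh]; group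
      have hyO : q * w * q⁻¹ * (s * v') ∈ coreC s := by
        refine mem_coreC_of_odd hH hab hsH hhH hzw ?_
        rw [hy]
        have := conj_coreC (inv_mem (mem_centralizer_of_mem hab hhH hsH)) ho
        rwa [inv_inv, mul_assoc] at this
      rw [hy] at hyO
      have h1 : h = 1 := eq_one_of_mem_coreC hH hhH ((Subgroup.mul_mem_cancel_left _ ho).1 hyO)
      have h2 : w = s * v' := by
        rw [hh] at h1
        exact mul_left_cancel (hww.trans h1.symm)
      exact (mul_left_cancel (hw.symm.trans h2)).symm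
  by_cases hone : ∀ v ∈ V, v = t
  · -- Glauberman's theorem
    have hOC : CfsgLib.Involutions.OddComm t := by
      intro g
      obtain ⟨x, hx, hodd⟩ := hexist g
      rw [hone _ ⟨(Subgroup.mem_normalizer_iff.1 hx t).1 htH, isConj_iff.2 ⟨x, rfl⟩⟩] at hodd
      rw [inv_eq_self ht]
      have e : t * g * t * g⁻¹ = t * (g * t * g⁻¹ * t) * t⁻¹ := by group
      rw [e]
      exact odd_orderOf_conj hodd t
    have hz := CfsgLib.Involutions.zstar_theorem ht hOC
    have hfac : ∀ g : G, ∃ p ∈ oddCore G, p⁻¹ * g ∈ Subgroup.centralizer ({t} : Set G) := by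
      intro g
      have hrO : t * (g * t * g⁻¹) ∈ oddCore G := by
        have h := hz g
        rw [inv_eq_self ht] at h
        simpa only [mul_assoc] using h
      have huu : (g * t * g⁻¹) * (g * t * g⁻¹) = 1 := mul_self_eq_one ((orderOf_conj g t).trans ht)
      have htt := mul_self_eq_one ht
      obtain ⟨p, hp, hpt⟩ := exists_conj_eq_mul htt (r := t * (g * t * g⁻¹)) (by
          rw [mul_inv_rev, inv_eq_of_mul_eq_one_left huu, inv_eq_self ht, ← mul_assoc t t, htt,
            one_mul])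
        (odd_orderOf_mem CfsgLib.Cores.odd_card_oddCore hrO) hrO
      rw [← mul_assoc, htt, one_mul] at hpt
      refine ⟨p, hp, Subgroup.mem_centralizer_singleton_iff.2 ?_⟩
      calc p⁻¹ * g * t = p⁻¹ * (g * t * g⁻¹) * g := by group
        _ = _ := by rw [← hpt]; group
    have hOt : coreC t ≤ oddCore G := by
      have hN : Subgroup.centralizer ({t} : Set G) ≤
          Subgroup.normalizer (((coreC t ⊔ oddCore G : Subgroup G)) : Set G) := by
        refine Subgroup.le_normalizer_iff.2 fun c hc' k hk => ?_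
        have h1 : c * k * c⁻¹ ∈ (coreC t ⊔ oddCore G).map (MulAut.conj c).toMonoidHom :=
          ⟨k, hk, rfl⟩
        rw [Subgroup.map_sup] at h1
        refine SetLike.le_def.1 (sup_le_sup ?_ ?_) h1
        · rintro _ ⟨o, ho, rfl⟩
          exact conj_coreC hc' ho
        · rintro _ ⟨o, ho, rfl⟩
          exact Subgroup.Normal.conj_mem inferInstance o ho c
      haveI : (coreC t ⊔ oddCore G).Normal := by
        rw [← Subgroup.normalizer_eq_top_iff, eq_top_iff]
        intro g _
        obtain ⟨p, hp, hpg⟩ := hfac g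
        have h1 : p ∈ Subgroup.normalizer (((coreC t ⊔ oddCore G : Subgroup G)) : Set G) :=
          Subgroup.le_normalizer (Subgroup.mem_sup_right hp)
        simpa using mul_mem h1 (hN hpg)
      refine (le_sup_left : coreC t ≤ coreC t ⊔ oddCore G).trans
        (CfsgLib.Cores.le_oddCore (?_ : Odd _))
      exact ((odd_card_coreC t).mul CfsgLib.Cores.odd_card_oddCore).of_dvd_nat
        (CfsgLib.Cores.card_sup_dvd (coreC t) (oddCore G))
    refine eq_top_iff.2 fun g _ => ?_
    obtain ⟨p, hp, hpg⟩ := hfac g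
    obtain ⟨x, hx, -, o, ho, he⟩ := hF t htH ht _ hpg
    have : p * (x * o) ∈ X ⊔ oddCore G :=
      mul_mem (Subgroup.mem_sup_right hp)
        (mul_mem (Subgroup.mem_sup_left hx) (Subgroup.mem_sup_right (hOt ho)))
    rw [← he, mul_inv_cancel_left] at this
    exact this
  -- several parts
  push Not at hone
  obtain ⟨v0, hv0, hv0t⟩ := hone
  have hsecond : ∀ v ∈ V, ∃ s ∈ V, s ≠ v := by
    intro v _
    by_cases e : v = t
    · exact ⟨v0, hv0, e ▸ hv0t⟩
    · exact ⟨t, ⟨htH, IsConj.refl t⟩, fun h => e h.symm⟩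
  let S : Set G := {o | ∃ s ∈ H, orderOf s = 2 ∧ o ∈ coreC s}
  set L := Subgroup.closure S with hL
  have hmemL : ∀ {s o : G}, s ∈ H → orderOf s = 2 → o ∈ coreC s → o ∈ L :=
    fun hs hs2 ho => Subgroup.subset_closure ⟨_, hs, hs2, ho⟩
  let Fix : Subgroup G :=
    { carrier := {g | ∀ v ∈ V, ∀ u, Part v u ↔ Part v (g * u * g⁻¹)}
      one_mem' := fun v _ u => by simp
      mul_mem' := fun {a b} ha hb v hv u => by
        rw [hb v hv u, ha v hv (b * u * b⁻¹)]
        rw [show a * (b * u * b⁻¹) * a⁻¹ = a * b * u * (a * b)⁻¹ by group]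
      inv_mem' := fun {a} ha v hv u => by
        rw [ha v hv (a⁻¹ * u * a⁻¹⁻¹)]
        rw [show a * (a⁻¹ * u * a⁻¹⁻¹) * a⁻¹ = u by group] }
  have hfix : ∀ (g : G), (∀ v ∈ V, g * v = v * g) → g ∈ Fix := by
    intro g hg v hv u
    have h1 : IsConj u (g * u * g⁻¹) := isConj_iff.2 ⟨g, rfl⟩
    have h2 : g * u * g⁻¹ * v = g * (u * v) * g⁻¹ := by
      rw [show g * (u * v) * g⁻¹ = g * u * g⁻¹ * (g * v * g⁻¹) by group,
        show g * v * g⁻¹ = v by rw [hg v hv, mul_inv_cancel_right]]
    show (IsConj t u ∧ _) ↔ (IsConj t _ ∧ _)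
    rw [h2, orderOf_conj]
    exact ⟨fun h => ⟨h.1.trans h1, h.2⟩, fun h => ⟨h.1.trans h1.symm, h.2⟩⟩
  have hLFix : L ≤ Fix := by
    rw [hL, Subgroup.closure_le]
    rintro o ⟨s, hsH, hs, ho⟩ v hv u
    by_cases e : s = v
    · subst e
      have hg := Subgroup.mem_centralizer_singleton_iff.1 (coreC_le s ho)
      have h1 : IsConj u (o * u * o⁻¹) := isConj_iff.2 ⟨o, rfl⟩
      have h2 : o * u * o⁻¹ * s = o * (u * s) * o⁻¹ := by
        rw [show o * (u * s) * o⁻¹ = o * u * o⁻¹ * (o * s * o⁻¹) by group,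
          show o * s * o⁻¹ = s by rw [hg, mul_inv_cancel_right]]
      show (IsConj t u ∧ _) ↔ (IsConj t _ ∧ _)
      rw [h2, orderOf_conj]
      exact ⟨fun h => ⟨h.1.trans h1, h.2⟩, fun h => ⟨h.1.trans h1.symm, h.2⟩⟩
    · rw [hshape v hv s hsH hs e, hshape v hv s hsH hs e]
      constructor
      · rintro ⟨q, hq, p, hp, rfl⟩
        exact ⟨o * q, mul_mem ho hq, p, hp, by group⟩
      · rintro ⟨q, hq, p, hp, he⟩
        refine ⟨o⁻¹ * q, mul_mem (inv_mem ho) hq, p, hp, ?_⟩
        calc u = o⁻¹ * (o * u * o⁻¹) * o := by group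
          _ = _ := by rw [he]; group
  have hHFix : H ≤ Fix := fun h hh => hfix h fun v hv => hab h hh v hv.1
  have hXL : X ≤ Subgroup.normalizer (L : Set G) := by
    refine Subgroup.le_normalizer_iff.2 fun x hx k hk => ?_
    have h1 : x * k * x⁻¹ ∈ L.map (MulAut.conj x).toMonoidHom := ⟨k, hk, rfl⟩
    rw [hL, MonoidHom.map_closure] at h1
    refine Subgroup.closure_mono ?_ h1
    rintro _ ⟨o, ⟨s, hsH, hs, ho⟩, rfl⟩
    exact ⟨_, (Subgroup.mem_normalizer_iff.1 hx s).1 hsH, (orderOf_conj x s).trans hs,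
      conj_mem_coreC_of_conj x ho⟩
  have htop : X ⊔ L = ⊤ := by
    refine eq_top_iff.2 fun g _ => ?_
    obtain ⟨x, hx, hodd⟩ := hexist g
    set v := x * t * x⁻¹ with hv
    have hvV : v ∈ V := ⟨(Subgroup.mem_normalizer_iff.1 hx t).1 htH, isConj_iff.2 ⟨x, rfl⟩⟩
    obtain ⟨s, hsV, hsv⟩ := hsecond v hvV
    obtain ⟨q, hq, p, hp, he⟩ := (hshape v hvV s hsV.1 (hV2 s hsV) hsv _).1
      ⟨isConj_iff.2 ⟨g, rfl⟩, hodd⟩
    have hw2 : orderOf (s * v) = 2 := by
      have hsv' : s * v = v * s := hab s hsV.1 v hvV.1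
      refine orderOf_eq_two_iff.2 ⟨?_, fun e => hsv ?_⟩
      · calc s * v * (s * v) = s * (v * s) * v := by simp only [mul_assoc]
          _ = (s * s) * (v * v) := by rw [← hsv']; simp only [mul_assoc]
          _ = 1 := by rw [mul_self_eq_one (hV2 s hsV), mul_self_eq_one (hV2 v hvV), one_mul]
      · exact mul_right_cancel (b := v) (e.trans (mul_self_eq_one (hV2 v hvV)).symm)
    have hl : q * p ∈ X ⊔ L := Subgroup.mem_sup_right
      (mul_mem (hmemL hsV.1 (hV2 s hsV) hq) (hmemL (mul_mem hsV.1 hvV.1) hw2 hp))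
    have hc' : (q * p * x)⁻¹ * g ∈ Subgroup.centralizer ({t} : Set G) := by
      refine Subgroup.mem_centralizer_singleton_iff.2 ?_
      calc (q * p * x)⁻¹ * g * t = (q * p * x)⁻¹ * (g * t * g⁻¹) * g := by group
        _ = _ := by rw [he, hv]; group
    obtain ⟨y, hy, -, o, ho, hyo⟩ := hF t htH ht _ hc'
    have h1 : (q * p * x)⁻¹ * g ∈ X ⊔ L :=
      hyo ▸ mul_mem (Subgroup.mem_sup_left hy) (Subgroup.mem_sup_right (hmemL htH ht ho))
    have h2 := mul_mem (mul_mem hl (Subgroup.mem_sup_left hx)) h1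
    rwa [mul_inv_cancel_left] at h2
  haveI hLn : L.Normal := by
    rw [← Subgroup.normalizer_eq_top_iff, eq_top_iff, ← htop]
    exact sup_le hXL Subgroup.le_normalizer
  by_cases hM : H ⊔ L = ⊤
  · exfalso
    have hall : Fix = ⊤ := eq_top_iff.2 (hM ▸ sup_le hHFix hLFix)
    obtain ⟨g, hg⟩ := isConj_iff.1 hv0.2
    have htt : Part t t := ⟨IsConj.refl t, by rw [mul_self_eq_one ht, orderOf_one]; exact odd_one⟩
    have hgF : g ∈ Fix := hall ▸ Subgroup.mem_top g
    have h1 := ((hgF t ⟨htH, IsConj.refl t⟩ t).1 htt).2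
    rw [hg] at h1
    exact hv0t (mul_right_cancel
      ((eq_one_of_two_group hH (mul_mem hv0.1 htH) h1).trans (mul_self_eq_one ht).symm))
  haveI hMn : (H ⊔ L).Normal := by
    rw [← Subgroup.normalizer_eq_top_iff, eq_top_iff, ← htop]
    refine sup_le ?_ ?_
    · refine Subgroup.le_normalizer_iff.2 fun x hx k hk => ?_
      have h1 : x * k * x⁻¹ ∈ (H ⊔ L).map (MulAut.conj x).toMonoidHom := ⟨k, hk, rfl⟩
      rw [Subgroup.map_sup] at h1
      refine SetLike.le_def.1 (sup_le_sup ?_ ?_) h1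
      · rintro _ ⟨h, hh, rfl⟩
        exact (Subgroup.mem_normalizer_iff.1 hx h).1 hh
      · rintro _ ⟨l, hl, rfl⟩
        exact Subgroup.le_normalizer_iff.1 hXL x hx l hl
    · exact le_sup_right.trans Subgroup.le_normalizer
  set M := H ⊔ L with hMdef
  have hHM : H ≤ M := le_sup_left
  have hlt : Nat.card M < Nat.card G :=
    lt_of_le_of_ne (Subgroup.card_le_card_group _) fun e => hM (Subgroup.eq_top_of_card_eq M e)
  have hN : ∀ c : M, c ∈ Subgroup.normalizer ((H.subgroupOf M : Subgroup M) : Set M) →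
      (c : G) ∈ X := by
    intro c hc'
    rw [Subgroup.mem_normalizer_iff] at hc'
    rw [hX, Subgroup.mem_normalizer_iff]
    intro h
    constructor
    · intro hh
      exact (hc' ⟨h, hHM hh⟩).1 hh
    · intro hh
      have hhC : h ∈ M := by
        have h1 := mul_mem (mul_mem (inv_mem c.2) (hHM hh)) c.2
        rwa [← mul_assoc, ← mul_assoc, inv_mul_cancel, one_mul, inv_mul_cancel_right] at h1
      exact (hc' ⟨h, hhC⟩).2 hh
  have hq := IH _ hlt M rfl (H.subgroupOf M) hH.comap_subtype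
    (fun a ha b hb => Subtype.ext (hab _ ha _ hb)) (by
      intro c
      refine le_antisymm ?_ (le_inf le_sup_left Subgroup.le_normalizer)
      rintro k ⟨hk, hkN⟩
      have h1 : (k : G) ∈ (H ⊔ H.map (MulAut.conj (c : G)).toMonoidHom) ⊓ X := by
        refine ⟨?_, hN k hkN⟩
        have h2 : (k : G) ∈ (H.subgroupOf M ⊔
            (H.subgroupOf M).map (MulAut.conj c).toMonoidHom).map M.subtype := ⟨k, hk, rfl⟩
        rw [Subgroup.map_sup] at h2
        refine SetLike.le_def.1 (sup_le_sup ?_ ?_) h2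
        · rintro _ ⟨a, ha, rfl⟩; exact ha
        · rintro _ ⟨_, ⟨a, ha, rfl⟩, rfl⟩
          exact ⟨(a : G), ha, rfl⟩
      rw [hX, hc] at h1
      exact h1)
  have hOM : (oddCore M).map M.subtype ≤ oddCore G :=
    CfsgLib.Cores.map_subtype_pPrimeCore_le (Subgroup.Normal.isSubnormal hMn)
  refine eq_top_iff.2 fun g _ => ?_
  obtain ⟨K, P, ψ, -, -, hKle, -, -, -, -, k, hk, hkx⟩ := exists_hom hH hc hab g
  have hKM : k ∈ M := by
    refine sup_le hHM ?_ (hKle hk)
    rintro _ ⟨h, hh, rfl⟩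
    exact Subgroup.Normal.conj_mem hMn h (hHM hh) g
  have hkm : (⟨k, hKM⟩ : M) ∈ Subgroup.normalizer ((H.subgroupOf M : Subgroup M) : Set M) ⊔
      oddCore M := by rw [hq]; exact Subgroup.mem_top _
  obtain ⟨a, ha, b, hb, he⟩ := Subgroup.mem_sup_of_normal_right.1 hkm
  have he' : (a : G) * (b : G) = k := congrArg Subtype.val he
  have h1 : k ∈ X ⊔ oddCore G := he' ▸
    mul_mem (Subgroup.mem_sup_left (hN a ha)) (Subgroup.mem_sup_right (hOM ⟨b, hb, rfl⟩))
  simpa using mul_mem h1 (Subgroup.mem_sup_left hkx)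

/-- Let G be a finite group and H an abelian 2-subgroup of G that is extremely closed (for every g, the subgroup generated by H and g H g⁻¹ meets N_G(H) exactly in H). Then G = N_G(H) O(G), where O(G) is the largest normal subgroup of odd order. For H of order 2 this is Glauberman's Z*-statement. -/
theorem result {G : Type*} [Group G] [Finite G] (H : Subgroup G) (hH2 : IsPGroup 2 H) (hHab : IsMulCommutative H) (hcl : Cfsg.IsExtremelyClosed H) : Subgroup.normalizer (H : Set G) ⊔ Cfsg.oddCore G = ⊤ :=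
  main _ G rfl H hH2 (fun a ha b hb =>
    congrArg Subtype.val (hHab.is_comm.comm (⟨a, ha⟩ : H) ⟨b, hb⟩)) hcl

end Cfsg.Agent.S3017
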