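import Cfsg.Statements.S3020
import Cfsg.Agent.Lib.Cores.PCore

set_option autoImplicit false
open Cfsg

namespace Cfsg.Agent.S3020

/-- Let G be a finite group, p a prime and H an abelian p-subgroup of G that is extremely closed (for every g, the subgroup generated by H and g H g⁻¹ meets N_G(H) exactly in H). Then for every g ∈ G, the subgroup T generated by H and g H g⁻¹ is the product of H with O_{p'}(T), and H meets O_{p'}(T) trivially; that is, O_{p'}(T) is a normal p-complement of H in T. -/
theorem result {G : Type*} [Group G] [Finite G] {p : ℕ} [Fact p.Prime] (H : Subgroup G) (hHp : IsPGroup p H) (hHab : IsMulCommutative H) (hcl : Cfsg.IsExtremelyClosed H) (g : G) (T : Subgroup G) (hT : T = H ⊔ H.map (MulAut.conj g).toMonoidHom) : H ⊔ (Cfsg.pPrimeCore p ↥T).map T.subtype = T ∧ H ⊓ (Cfsg.pPrimeCore p ↥T).map T.subtype = ⊥ := by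
  subst hT
  set T := H ⊔ H.map (MulAut.conj g).toMonoidHom with hT
  have hle : H ≤ T := le_sup_left
  set H' := H.subgroupOf T with hH'
  have hH'p : IsPGroup p H' := hHp.of_equiv (Subgroup.subgroupOfEquivOfLe hle).symm
  have hnorm : Subgroup.normalizer (H' : Set T) = H' := by
    refine le_antisymm (fun a ha => ?_) Subgroup.le_normalizer
    have h1 := Subgroup.le_normalizer_map T.subtype (Subgroup.mem_map_of_mem T.subtype ha)
    rw [Subgroup.map_subgroupOf_eq_of_le hle] at h1
    have h2 : (a : G) ∈ T ⊓ Subgroup.normalizer (H : Set G) := ⟨a.2, h1⟩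
    rwa [hcl g] at h2
  -- `H` is a Sylow subgroup of `T`
  obtain ⟨S, hS⟩ := hH'p.exists_le_sylow
  have hSeq : (S : Subgroup T) = H' := by
    by_contra hne
    have := S.2.isNilpotent
    have hne' : H'.subgroupOf S ≠ ⊤ := fun h => hne (le_antisymm (Subgroup.subgroupOf_eq_top.1 h) hS)
    obtain ⟨a, haN, haH⟩ := SetLike.exists_of_lt ((Group.normalizerCondition_of_isNilpotent) _ hne'.lt_top)
    apply haH
    have h1 := Subgroup.le_normalizer_map (S : Subgroup T).subtype (Subgroup.mem_map_of_mem (S : Subgroup T).subtype haN)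
    rw [Subgroup.map_subgroupOf_eq_of_le hS, hnorm] at h1
    exact h1
  have hab : Subgroup.normalizer ((S : Subgroup T) : Set T) ≤ Subgroup.centralizer ((S : Subgroup T) : Set T) := by
    rw [hSeq, hnorm]
    intro a ha
    refine Subgroup.mem_centralizer_iff.2 fun b hb => Subtype.ext ?_
    have := congrArg Subtype.val (hHab.is_comm.comm ⟨(b : G), hb⟩ ⟨(a : G), ha⟩)
    simpa using this
  have hK := MonoidHom.ker_transferSylow_isComplement' S hab
  set K := (MonoidHom.transferSylow S hab).ker
  have hcop : (Nat.card K).Coprime p := by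
    rw [Nat.coprime_comm, (Fact.out : p.Prime).coprime_iff_not_dvd]
    intro hd
    exact S.not_dvd_index (by rwa [Subgroup.IsComplement'.index_eq_card hK])
  have hKle : K ≤ Cfsg.pPrimeCore p T :=
    le_sSup (show K ∈ {N : Subgroup T | N.Normal ∧ (Nat.card N).Coprime p} from ⟨inferInstance, hcop⟩)
  have hcop2 : (Nat.card (Cfsg.pPrimeCore p T)).Coprime p := CfsgLib.Cores.card_pPrimeCore_coprime p
  constructor
  · apply le_antisymm (sup_le hle (Subgroup.map_subtype_le _))
    intro t ht
    obtain ⟨a, ha, b, hb, hab'⟩ := (Subgroup.mem_sup_of_normal_left (s := K)).1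
      (hK.sup_eq_top.symm ▸ Subgroup.mem_top (⟨t, ht⟩ : T))
    rw [hSeq] at hb
    have hab'' : (a : G) * (b : G) = t := congrArg Subtype.val hab'
    rw [← hab'']
    exact mul_mem (Subgroup.mem_sup_right ⟨a, hKle ha, rfl⟩) (Subgroup.mem_sup_left hb)
  · obtain ⟨n, hn⟩ := IsPGroup.iff_card.1 hHp
    refine disjoint_iff.1 (Subgroup.disjoint_of_coprime_natCard ?_)
    rw [Subgroup.card_subtype, hn]
    exact (hcop2.symm).pow_left n

end Cfsg.Agent.S3020
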