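import Mathlib
import Cfsg.Statements.S3021

set_option autoImplicit false
open Cfsg

namespace Cfsg.Agent.S3021

/-- Let G be a finite group, p a prime and H a p-subgroup of G that is extremely closed (for every g, the subgroup generated by H and g H g⁻¹ meets N_G(H) exactly in H). Then every p-subgroup Q of G containing H has N_G(Q) ≤ N_G(H); in particular every Sylow p-subgroup P of G containing H normalizes H, and H is strongly closed in P with respect to G. -/
theorem result {G : Type*} [Group G] [Finite G] {p : ℕ} [Fact p.Prime] (H : Subgroup G) (hHp : IsPGroup p H) (hcl : Cfsg.IsExtremelyClosed H) : (∀ Q : Subgroup G, IsPGroup p Q → H ≤ Q → Subgroup.normalizer (Q : Set G) ≤ Subgroup.normalizer (H : Set G)) ∧ ∀ P : Sylow p G, H ≤ (P : Subgroup G) → (P : Subgroup G) ≤ Subgroup.normalizer (H : Set G) ∧ Cfsg.IsStronglyClosed H (P : Subgroup G) := by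
  have key : ∀ a, (∀ b ∈ H, a * b * a⁻¹ ∈ Subgroup.normalizer (H : Set G)) → ∀ b ∈ H, a * b * a⁻¹ ∈ H := by
    intro a ha b hb
    rw [← hcl a]
    exact ⟨Subgroup.mem_sup_right ⟨b, hb, by simp [MulAut.conj_apply]⟩, ha b hb⟩
  have mem_nrm : ∀ a, (∀ b ∈ H, a * b * a⁻¹ ∈ H) → a ∈ Subgroup.normalizer (H : Set G) := by
    intro a ha
    refine Subgroup.mem_normalizer_iff.2 fun b => ⟨ha b, fun hb => ?_⟩
    have hle : H.map (MulAut.conj a).toMonoidHom ≤ H := by
      rintro _ ⟨c, hc, rfl⟩
      simpa [MulAut.conj_apply] using ha c hc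
    have heq := Subgroup.eq_of_le_of_card_ge hle
      (Subgroup.card_map_of_injective (f := (MulAut.conj a).toMonoidHom) (MulAut.conj a).injective).ge
    rw [← heq] at hb
    obtain ⟨c, hc, hce⟩ := hb
    simp only [MulEquiv.coe_toMonoidHom, MulAut.conj_apply, mul_left_inj, mul_right_inj] at hce
    rwa [← hce]
  have hQN : ∀ Q : Subgroup G, IsPGroup p Q → H ≤ Q → Q ≤ Subgroup.normalizer (H : Set G) := by
    intro Q hQ hHQ
    by_contra hcon
    have := IsPGroup.isNilpotent (p := p) hQ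
    have hne : (Subgroup.normalizer (H : Set G)).subgroupOf Q ≠ ⊤ := fun h => hcon (Subgroup.subgroupOf_eq_top.1 h)
    obtain ⟨a, haN, haC⟩ :=
      SetLike.exists_of_lt ((Group.normalizerCondition_of_isNilpotent) _ hne.lt_top)
    apply haC
    refine Subgroup.mem_subgroupOf.2 (mem_nrm a (key a fun b hb => ?_))
    exact Subgroup.mem_subgroupOf.1
      ((Subgroup.mem_normalizer_iff.1 haN ⟨b, hHQ hb⟩).1
        (Subgroup.mem_subgroupOf.2 (Subgroup.le_normalizer hb)))
  refine ⟨fun Q hQ hHQ a ha => mem_nrm a (key a fun b hb => hQN Q hQ hHQ ?_),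
    fun P hP => ⟨hQN P P.2 hP, hP, fun b hb a ha => ?_⟩⟩
  · exact (Subgroup.mem_normalizer_iff.1 ha b).1 (hHQ hb)
  · rw [← hcl a]
    exact ⟨Subgroup.mem_sup_right ⟨b, hb, by simp [MulAut.conj_apply]⟩, hQN P P.2 hP ha⟩

end Cfsg.Agent.S3021
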