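import Cfsg.Statements.S3023
import Cfsg.Agent.Lib.Quasithin.CharP
import Cfsg.Agent.Lib.StronglyPEmbedded.Helpers
import Cfsg.Agent.Lib.PSolvable.FrattiniFacts

set_option autoImplicit false
open Cfsg

namespace Cfsg.Agent.S3023

open CfsgLib.Quasithin CfsgLib.Cores

variable {G : Type*} [Group G] [Finite G] {p : ℕ} [Fact p.Prime]

/-- The normalizer of `R` has characteristic `p` if the centralizer of some nontrivial element of `R`
does, and a Sylow subgroup lies in both. -/
theorem charPGroup_normalizer_of_centralizer (Q : Sylow p G) {R : Subgroup G} (hRp : IsPGroup p R)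
    (hQR : (Q : Subgroup G) ≤ Subgroup.normalizer (R : Set G)) {z : G} (hz : z ∈ R)
    (hQz : (Q : Subgroup G) ≤ Subgroup.centralizer ({z} : Set G))
    (hM : CharPGroup p (Subgroup.centralizer ({z} : Set G))) :
    CharPGroup p (Subgroup.normalizer (R : Set G)) := by
  set L := Subgroup.normalizer (R : Set G) with hL
  set M := Subgroup.centralizer ({z} : Set G) with hMdef
  set D := Subgroup.centralizer (pCore p L : Set L) with hD
  suffices hDp : IsPGroup p D by
    haveI : D.Normal := inferInstance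
    exact le_pCore hDp
  haveI : (R.subgroupOf L).Normal := Subgroup.normal_in_normalizer
  have hDz : ∀ d ∈ D, (d : G) ∈ M := by
    intro d hd
    refine Subgroup.mem_centralizer_iff.2 fun y hy => ?_
    rw [Set.mem_singleton_iff.1 hy]
    have h1 : (⟨z, Subgroup.le_normalizer hz⟩ : L) ∈ pCore p L :=
      le_pCore (N := R.subgroupOf L) hRp.comap_subtype hz
    exact congrArg L.subtype (Subgroup.mem_centralizer_iff.1 hd _ h1)
  set P := (pCore p M).map M.subtype with hP
  have hPp : IsPGroup p P := (isPGroup_pCore p M).map _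
  have hPQ : P ≤ (Q : Subgroup G) := by
    rintro _ ⟨y, hy, rfl⟩
    have := pCore_le_sylow (Q.subtype hQz) hy
    rw [Sylow.coe_subtype, Subgroup.mem_subgroupOf] at this
    exact this
  have hPconj : ∀ m ∈ M, ∀ y ∈ P, m * y * m⁻¹ ∈ P := by
    rintro m hm _ ⟨y, hy, rfl⟩
    exact ⟨⟨m, hm⟩ * y * ⟨m, hm⟩⁻¹,
      (inferInstance : (pCore p M).Normal).conj_mem y hy ⟨m, hm⟩, rfl⟩
  set E := P.subgroupOf L ⊓ D with hE
  have hEcore : E ≤ pCore p L := by
    haveI : (E.subgroupOf D).Normal := by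
      refine ⟨fun y hy d => ⟨?_, ?_⟩⟩
      · exact hPconj _ (hDz _ d.2) _ hy.1
      · exact (d * y * d⁻¹ : D).2
    have hEp : IsPGroup p (P.subgroupOf L) := hPp.comap_of_injective L.subtype L.subtype_injective
    have hDn : D.IsSubnormal := Subgroup.Normal.isSubnormal inferInstance
    intro y hy
    exact map_subtype_pCore_le (p := p) (N := D) hDn
      ⟨⟨y, hy.2⟩, le_pCore (N := E.subgroupOf D) ((hEp.to_le inf_le_left).comap_subtype) hy, rfl⟩
  refine isPGroup_of_forall_coprime_eq_one fun x hxD hxo => ?_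
  have hxo' : (orderOf (x : G)).Coprime p := by rwa [Subgroup.orderOf_coe]
  have hxM : (x : G) ∈ M := hDz x hxD
  have hxc : (⟨(x : G), hxM⟩ : M) ∈ Subgroup.centralizer (pCore p M : Set M) := by
    refine Subgroup.mem_centralizer_iff.2 fun v hv => ?_
    have hvP : (v : G) ∈ P := ⟨v, hv, rfl⟩
    have hvL : (v : G) ∈ L := hQR (hPQ hvP)
    set v' : L := ⟨v, hvL⟩
    have hc : v'⁻¹ * (x * v' * x⁻¹) ∈ E := by
      refine ⟨?_, ?_⟩
      · exact P.mul_mem (P.inv_mem hvP) (hPconj _ hxM _ hvP)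
      · rw [show v'⁻¹ * (x * v' * x⁻¹) = (v'⁻¹ * x * v') * x⁻¹ by simp [mul_assoc]]
        refine D.mul_mem ?_ (D.inv_mem hxD)
        simpa using (inferInstance : D.Normal).conj_mem x hxD v'⁻¹
    obtain ⟨k, hk⟩ := isPGroup_pCore p L ⟨_, hEcore hc⟩
    have hfix : x * (v'⁻¹ * (x * v' * x⁻¹)) * x⁻¹ = v'⁻¹ * (x * v' * x⁻¹) :=
      mul_inv_eq_iff_eq_mul.2 (Subgroup.mem_centralizer_iff.1 hxD _ (hEcore hc)).symm
    have := commute_of_fixed_commutator hxo (v := v') (by simp [mul_assoc]) hfix
      ⟨k, by simpa using congrArg Subtype.val hk⟩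
    exact Subtype.ext (congrArg L.subtype this).symm
  obtain ⟨k, hk⟩ := isPGroup_pCore p M ⟨_, hM hxc⟩
  have hk' : (x : G) ^ p ^ k = 1 := by simpa using congrArg (fun y : pCore p M => ((y : M) : G)) hk
  have := Nat.eq_one_of_dvd_coprimes (hxo'.pow_right k) dvd_rfl (orderOf_dvd_of_pow_eq_one hk')
  exact Subtype.ext (orderOf_eq_one_iff.1 this)

/-- Let p be a prime, G a finite group of parabolic characteristic p (every p-local subgroup containing a Sylow p-subgroup of G has characteristic p), S a Sylow p-subgroup of G and G₁ a subnormal subgroup of G. If the centre of S ∩ G₁ is nontrivial and contained in the centre of S, then G₁ has parabolic characteristic p. -/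
theorem result {G : Type*} [Group G] [Finite G] {p : ℕ} [Fact p.Prime] (hG : Cfsg.IsOfParabolicCharacteristic p G) (S : Sylow p G) (G₁ : Subgroup G) (hsn : G₁.IsSubnormal) (hne : ((S : Subgroup G) ⊓ G₁) ⊓ Subgroup.centralizer (((S : Subgroup G) ⊓ G₁ : Subgroup G) : Set G) ≠ ⊥) (hle : ((S : Subgroup G) ⊓ G₁) ⊓ Subgroup.centralizer (((S : Subgroup G) ⊓ G₁ : Subgroup G) : Set G) ≤ (S : Subgroup G) ⊓ Subgroup.centralizer ((S : Subgroup G) : Set G)) : Cfsg.IsOfParabolicCharacteristic p ↥G₁ := by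
  obtain ⟨Q, hQ⟩ := CfsgLib.StronglyPEmbedded.exists_sylow_subgroupOf_eq S hsn
  -- the claim for `p`-subgroups normalised by `Q`
  have key : ∀ R : Subgroup G₁, IsPGroup p R → R ≠ ⊥ →
      (Q : Subgroup G₁) ≤ Subgroup.normalizer (R : Set G₁) →
      CharPGroup p (Subgroup.normalizer (R : Set G₁)) := by
    intro R hRp hR hQR
    have hRQ : R ≤ (Q : Subgroup G₁) :=
      le_sup_left.trans (Q.3 (IsPGroup.to_sup_of_normal_left' hRp Q.2 hQR) le_sup_right).le
    haveI : (R.subgroupOf (Q : Subgroup G₁)).Normal :=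
      (Subgroup.normal_subgroupOf_iff_le_normalizer hRQ).2 hQR
    haveI : Group.IsNilpotent (Q : Subgroup G₁) := Q.2.isNilpotent
    obtain ⟨z, hzc, hz1⟩ : ∃ z : (Q : Subgroup G₁),
        z ∈ Subgroup.center _ ⊓ R.subgroupOf (Q : Subgroup G₁) ∧ z ≠ 1 := by
      have hne1 : R.subgroupOf (Q : Subgroup G₁) ≠ ⊥ := by
        rwa [Ne, Subgroup.subgroupOf_eq_bot, disjoint_iff, inf_eq_left.2 hRQ]
      obtain ⟨z, hz⟩ := Subgroup.ne_bot_iff_exists_ne_one.1 (CfsgLib.PSolvable.inf_center_ne_bot hne1)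
      exact ⟨z, ⟨z.2.2, z.2.1⟩, fun h => hz (Subtype.ext h)⟩
    set w : G₁ := (z : G₁) with hw
    have hQw : (Q : Subgroup G₁) ≤ Subgroup.centralizer ({w} : Set G₁) := by
      intro q hq
      refine Subgroup.mem_centralizer_iff.2 fun y hy => ?_
      rw [Set.mem_singleton_iff.1 hy]
      exact (congrArg (Subgroup.subtype _) (Subgroup.mem_center_iff.1 hzc.1 ⟨q, hq⟩)).symm
    have hwS : (w : G) ∈ (S : Subgroup G) ⊓ Subgroup.centralizer ((S : Subgroup G) : Set G) := by
      refine hle ⟨⟨?_, w.2⟩, Subgroup.mem_centralizer_iff.2 fun s hs => ?_⟩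
      · have : w ∈ (S : Subgroup G).subgroupOf G₁ := hQ ▸ z.2
        exact this
      · exact (congrArg G₁.subtype (Subgroup.mem_centralizer_iff.1
          (hQw (show (⟨s, hs.2⟩ : G₁) ∈ (Q : Subgroup G₁) by rw [hQ]; exact hs.1)) w rfl)).symm
    set Z := Subgroup.zpowers (w : G) with hZ
    have hZS : Z ≤ (S : Subgroup G) := Subgroup.zpowers_le.2 hwS.1
    have hSC : (S : Subgroup G) ≤ Subgroup.centralizer (Z : Set G) := by
      intro s hs
      refine Subgroup.mem_centralizer_iff.2 ?_
      rintro _ ⟨k, rfl⟩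
      exact (((show Commute s (w : G) from Subgroup.mem_centralizer_iff.1 hwS.2 s hs)).zpow_right k).symm.eq
    have hw1 : (w : G) ≠ 1 := fun h => hz1 (Subtype.ext (Subtype.ext h))
    have hN : CharPGroup p (Subgroup.normalizer (Z : Set G)) :=
      hG Z (S.2.to_le hZS) (Subgroup.zpowers_ne_bot.2 hw1)
        ⟨S, hSC.trans (Subgroup.centralizer_le_normalizer _)⟩
    have hC : CharPGroup p (Subgroup.centralizer (Z : Set G)) := by
      haveI : ((Subgroup.centralizer (Z : Set G)).subgroupOf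
          (Subgroup.normalizer (Z : Set G))).Normal := inferInstance
      exact (charPGroup_of_normal hN _).of_equiv
        (Subgroup.subgroupOfEquivOfLe (Subgroup.centralizer_le_normalizer _))
    have hmem : ∀ x : G₁, (x : G) ∈ Subgroup.centralizer (Z : Set G) ↔
        x ∈ Subgroup.centralizer ({w} : Set G₁) := by
      intro x
      rw [Subgroup.mem_centralizer_singleton_iff]
      refine ⟨fun h => Subtype.ext ?_, fun h => Subgroup.mem_centralizer_iff.2 ?_⟩
      · simpa using (Subgroup.mem_centralizer_iff.1 h _ (Subgroup.mem_zpowers _)).symm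
      · rintro _ ⟨k, rfl⟩
        exact ((show Commute (x : G) (w : G) from congrArg G₁.subtype h).zpow_right k).symm.eq
    let e : ↥(G₁.subgroupOf (Subgroup.centralizer (Z : Set G))) ≃* ↥(Subgroup.centralizer ({w} : Set G₁)) :=
      { toFun := fun x => ⟨⟨((x : Subgroup.centralizer (Z : Set G)) : G), x.2⟩,
          (hmem _).1 (x : Subgroup.centralizer (Z : Set G)).2⟩
        invFun := fun y => ⟨⟨((y : G₁) : G), (hmem _).2 y.2⟩, (y : G₁).2⟩
        left_inv := fun _ => rfl
        right_inv := fun _ => rfl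
        map_mul' := fun _ _ => rfl }
    have hM : CharPGroup p (Subgroup.centralizer ({w} : Set G₁)) :=
      (charPGroup_of_subnormal hC hsn.subgroupOf).of_equiv e
    exact charPGroup_normalizer_of_centralizer Q hRp hQR hzc.2 hQw hM
  -- move an arbitrary Sylow subgroup to `Q`
  intro R hRp hR hpar
  obtain ⟨T, hT⟩ := hpar
  obtain ⟨g, hg⟩ := MulAction.exists_smul_eq G₁ T Q
  set c : G₁ ≃* G₁ := MulAut.conj g
  have hR' : (Subgroup.normalizer (R : Set G₁)).map c.toMonoidHom =
      Subgroup.normalizer ((R.map c.toMonoidHom : Subgroup G₁) : Set G₁) :=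
    Subgroup.map_equiv_normalizer_eq R c
  have hQR : (Q : Subgroup G₁) ≤ Subgroup.normalizer ((R.map c.toMonoidHom : Subgroup G₁) : Set G₁) := by
    rw [← hR', ← hg, Sylow.coe_subgroup_smul]
    exact Subgroup.map_mono hT
  have := key (R.map c.toMonoidHom) (hRp.map _) (by
    rwa [Ne, Subgroup.map_eq_bot_iff_of_injective _ c.injective]) hQR
  rw [← hR'] at this
  exact this.of_equiv (((Subgroup.normalizer (R : Set G₁)).equivMapOfInjective _ c.injective).symm)

end Cfsg.Agent.S3023
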