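import Cfsg.Statements.S3025
import Mathlib
import Cfsg.Agent.Lib.TwoGroups.RankOne

set_option autoImplicit false
open Cfsg

namespace Cfsg.Agent.S3025

/-- Let F be a finite group and H a nontrivial subgroup of F that is contained in every nontrivial subgroup of F which H normalizes. Then F has a nontrivial normal subgroup N contained in every nontrivial normal subgroup of F (a unique minimal normal subgroup), N is simple, and one of the following holds: C_F(N) = 1; or H = N has prime order p, C_F(N) is cyclic of order a power of p, and F/C_F(N) is cyclic of order dividing p − 1; or H = N has order 2, N is central in F, and F is a generalized quaternion group. -/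
theorem result {F : Type*} [Group F] [Finite F] (H : Subgroup F) (hH : H ≠ ⊥)
    (hmin : ∀ R : Subgroup F, R ≠ ⊥ → H ≤ Subgroup.normalizer (R : Set F) → H ≤ R) :
    ∃ N : Subgroup F, N.Normal ∧ N ≠ ⊥ ∧ (∀ M : Subgroup F, M.Normal → M ≠ ⊥ → N ≤ M) ∧ IsSimpleGroup ↥N ∧
      (Subgroup.centralizer (N : Set F) = ⊥ ∨
       (H = N ∧ (Nat.card N).Prime ∧ IsCyclic ↥(Subgroup.centralizer (N : Set F)) ∧
          (∃ k : ℕ, 1 ≤ k ∧ Nat.card ↥(Subgroup.centralizer (N : Set F)) = Nat.card N ^ k) ∧
          (∃ g : F, Subgroup.centralizer (N : Set F) ⊔ Subgroup.zpowers g = ⊤) ∧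
          (Subgroup.centralizer (N : Set F)).index ∣ Nat.card N - 1) ∨
       (H = N ∧ Nat.card N = 2 ∧ Subgroup.centralizer (N : Set F) = ⊤ ∧
          ∃ k : ℕ, 1 ≤ k ∧ Nonempty (F ≃* QuaternionGroup (2 ^ k)))) := by
  -- a minimal normal subgroup
  obtain ⟨x, hxH, hx1⟩ := (Subgroup.bot_or_exists_ne_one H).resolve_left hH
  have hne : Nontrivial F := ⟨x, 1, hx1⟩
  obtain ⟨N, ⟨hNn, hNne⟩, hNmin⟩ := Set.exists_min_image {M : Subgroup F | M.Normal ∧ M ≠ ⊥}
    (fun M => Nat.card M) (Set.toFinite _) ⟨⊤, inferInstance, top_ne_bot⟩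
  have hnorm : ∀ M : Subgroup F, M.Normal → M ≠ ⊥ → H ≤ M := fun M hM hM1 =>
    hmin M hM1 (by have := hM; rw [Subgroup.normalizer_eq_top]; exact le_top)
  have hHN : H ≤ N := hnorm N hNn hNne
  have huniq : ∀ M : Subgroup F, M.Normal → M ≠ ⊥ → N ≤ M := by
    intro M hM hM1
    have hi : (N ⊓ M).Normal := Subgroup.normal_inf_normal N M
    have hi1 : N ⊓ M ≠ ⊥ := fun h => hH (le_bot_iff.1 (h ▸ le_inf hHN (hnorm M hM hM1)))
    exact inf_eq_left.1 (Subgroup.eq_of_le_of_card_ge inf_le_left (hNmin _ ⟨hi, hi1⟩))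
  have hNnt : Nontrivial N := (Subgroup.nontrivial_iff_ne_bot N).2 hNne
  -- simplicity
  obtain ⟨T, ⟨hTn, hTne⟩, hTmin⟩ := Set.exists_min_image {M : Subgroup N | M.Normal ∧ M ≠ ⊥}
    (fun M => Nat.card M) (Set.toFinite _) ⟨⊤, inferInstance, top_ne_bot⟩
  have hsimple : IsSimpleGroup N := by
    have hT'ne : T.map N.subtype ≠ ⊥ := fun h => hTne ((Subgroup.map_eq_bot_iff_of_injective _ N.subtype_injective).1 h)
    have hmem : ∀ M : Subgroup N, M.Normal → M ≠ ⊥ → H ≤ M.map N.subtype := by
      intro M hM hM1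
      refine hmin _ (fun h => hM1 ((Subgroup.map_eq_bot_iff_of_injective _ N.subtype_injective).1 h))
        (hHN.trans ?_)
      have := Subgroup.le_normalizer_map N.subtype (H := M)
      rw [Subgroup.normalizer_eq_top, ← MonoidHom.range_eq_map, Subgroup.range_subtype] at this
      exact this
    have hT'n : (T.map N.subtype).Normal := by
      constructor
      intro y hy g
      -- a conjugate of `T`
      set T2 : Subgroup N := T.map (MulAut.conjNormal g : N ≃* N).toMonoidHom
      have hT2n : T2.Normal := hTn.map _ (MulEquiv.surjective _)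
      have hT2ne : T2 ≠ ⊥ := fun h => hTne
        ((Subgroup.map_eq_bot_iff_of_injective _ (MulEquiv.injective _)).1 h)
      have hi : T ⊓ T2 ≠ ⊥ := by
        intro h
        apply hH
        refine le_bot_iff.1 ?_
        rw [← Subgroup.map_bot N.subtype, ← h, Subgroup.map_inf _ _ _ N.subtype_injective]
        exact le_inf (hmem T hTn hTne) (hmem T2 hT2n hT2ne)
      have heq : T ⊓ T2 = T :=
        Subgroup.eq_of_le_of_card_ge inf_le_left (hTmin _ ⟨Subgroup.normal_inf_normal T T2, hi⟩)
      have hT12 : T = T2 := Subgroup.eq_of_le_of_card_ge (inf_eq_left.1 heq)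
        (Subgroup.card_map_of_injective (f := (MulAut.conjNormal g : N ≃* N).toMonoidHom) (MulEquiv.injective _)).le
      obtain ⟨z, hz, rfl⟩ := hy
      refine ⟨MulAut.conjNormal g z, hT12.symm ▸ Subgroup.mem_map_of_mem _ hz, ?_⟩
      exact MulAut.conjNormal_apply g z
    have hTtop : T = ⊤ := by
      rw [Subgroup.eq_top_iff']
      intro z
      obtain ⟨w, hw, hwz⟩ := huniq _ hT'n hT'ne z.2
      rwa [Subtype.ext hwz] at hw
    refine ⟨fun M hM => ?_⟩
    rcases eq_or_ne M ⊥ with h | h
    · exact Or.inl h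
    · exact Or.inr (Subgroup.eq_top_of_card_eq M (le_antisymm (Subgroup.card_le_card_group M)
        (by rw [← Subgroup.card_top (G := N), ← hTtop]; exact hTmin M ⟨hM, h⟩)))
  refine ⟨N, hNn, hNne, huniq, hsimple, ?_⟩
  set C := Subgroup.centralizer (N : Set F) with hC
  by_cases hC1 : C = ⊥
  · exact Or.inl hC1
  right
  have hCn : C.Normal := Subgroup.normal_centralizer
  have hNC : N ≤ C := huniq C hCn hC1
  have hNab : IsMulCommutative N := ⟨⟨fun a b => Subtype.ext (by simpa using ((hNC a.2) b b.2).symm)⟩⟩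
  letI : CommGroup N := IsMulCommutative.instCommGroup
  have := hsimple
  have hpN : (Nat.card N).Prime := IsSimpleGroup.prime_card
  set p := Nat.card N with hp
  have : Fact p.Prime := ⟨hpN⟩
  have hHeq : H = N := by
    rcases (H.subgroupOf N).eq_bot_or_eq_top_of_prime_card with h | h
    · have h2 := congrArg (Subgroup.map N.subtype) h
      rw [Subgroup.map_subgroupOf_eq_of_le hHN, Subgroup.map_bot] at h2
      exact absurd h2 hH
    · exact le_antisymm hHN (Subgroup.subgroupOf_eq_top.1 h)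
  -- cyclic subgroups of `C` contain `N`
  have hcyc : ∀ c ∈ C, c ≠ 1 → N ≤ Subgroup.zpowers c := by
    intro c hc hc1
    rw [← hHeq]
    refine hmin _ (by simpa [Subgroup.zpowers_ne_bot] using hc1) ?_
    rw [hHeq]
    refine le_trans ?_ (Subgroup.centralizer_le_normalizer _)
    intro n hn
    rw [Subgroup.mem_centralizer_iff]
    rintro _ ⟨i, rfl⟩
    exact (Commute.zpow_left ((Subgroup.mem_centralizer_iff.1 hc n hn).symm : Commute c n) i).eq
  have hzp : ∀ c : F, c ∈ C → orderOf c = p → Subgroup.zpowers c = N := fun c hc ho =>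
    (Subgroup.eq_of_le_of_card_ge (hcyc c hc (fun h => hpN.ne_one (by rw [← ho, h, orderOf_one])))
      (by rw [Nat.card_zpowers, ho])).symm
  have hCp : IsPGroup p C := by
    obtain ⟨k, hk⟩ : ∃ k : ℕ, Nat.card C = p ^ k :=
      ⟨(Nat.card C).primeFactorsList.length, Nat.eq_prime_pow_of_unique_prime_dvd Nat.card_pos.ne' fun {q} hq hqd => by
        have : Fact q.Prime := ⟨hq⟩
        obtain ⟨⟨c, hc⟩, ho⟩ := exists_prime_orderOf_dvd_card' q hqd
        rw [Subgroup.orderOf_mk] at ho
        have hd : p ∣ q := by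
          rw [← ho, ← Nat.card_zpowers]
          exact Subgroup.card_dvd_of_le (hcyc c hc fun h => hq.ne_one (by rw [← ho, h, orderOf_one]))
        exact ((Nat.prime_dvd_prime_iff_eq hpN hq).1 hd).symm⟩
    exact IsPGroup.of_card hk
  have hu : CfsgLib.TwoGroups.UniqueOrderP p C := by
    intro a b ha hb
    rw [← Subgroup.orderOf_coe] at ha hb
    have : (b : F) ∈ Subgroup.zpowers (a : F) := by
      rw [hzp a a.2 ha, ← hzp b b.2 hb]; exact Subgroup.mem_zpowers _
    obtain ⟨i, hi⟩ := Subgroup.mem_zpowers_iff.1 this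
    exact ⟨i, Subtype.ext (by simpa using hi)⟩
  obtain ⟨k, hk⟩ := IsPGroup.iff_card.1 hCp
  have hk1 : 1 ≤ k := by
    rcases k with _ | k
    · exact absurd (Subgroup.eq_bot_of_card_eq C (by simpa using hk)) hC1
    · omega
  -- the action on `N`
  have hcycN : IsCyclic N := isCyclic_of_prime_card hp.symm
  set φ : F →* MulAut N := MulAut.conjNormal
  have hker : φ.ker = C := by
    ext g
    simp only [MonoidHom.mem_ker, MulEquiv.ext_iff, φ, hC, Subgroup.mem_centralizer_iff, Subtype.ext_iff,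
      MulAut.conjNormal_apply, MulAut.one_apply, SetLike.mem_coe, Subtype.forall, mul_inv_eq_iff_eq_mul]
    exact forall₂_congr fun a _ => eq_comm
  have hpp : (Nat.card N).Prime := hpN
  have : Fact (Nat.card N).Prime := ⟨hpN⟩
  have hAcard : Nat.card (MulAut N) = p - 1 := by
    rw [Nat.card_congr (IsCyclic.mulAutMulEquiv N).toEquiv, Nat.card_eq_fintype_card, ZMod.card_units]
  have hAcyc : IsCyclic (MulAut N) :=
    isCyclic_of_surjective _ (IsCyclic.mulAutMulEquiv N).symm.surjective
  rcases CfsgLib.TwoGroups.isCyclic_or_quaternion hCp hu with hc | ⟨hp2, m, hm, ⟨e⟩⟩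
  · refine Or.inl ⟨hHeq, hpN, hc, ⟨k, hk1, hk⟩, ?_, ?_⟩
    · have : IsCyclic φ.range := Subgroup.isCyclic φ.range
      obtain ⟨⟨r, g, rfl⟩, hgen⟩ := this.exists_generator
      refine ⟨g, (Subgroup.eq_top_iff' _).2 fun y => ?_⟩
      obtain ⟨i, hi⟩ := Subgroup.mem_zpowers_iff.1 (hgen ⟨φ y, y, rfl⟩)
      have hi' : φ g ^ i = φ y := congrArg Subtype.val hi
      have hyi : y * (g ^ i)⁻¹ ∈ C := by
        rw [← hker, MonoidHom.mem_ker, map_mul, map_inv, map_zpow, hi', mul_inv_cancel]
      have := mul_mem (Subgroup.mem_sup_left (T := Subgroup.zpowers g) hyi)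
        (Subgroup.mem_sup_right (S := C) (Subgroup.zpow_mem _ (Subgroup.mem_zpowers g) i))
      rwa [inv_mul_cancel_right] at this
    · rw [← hAcard, ← hker, Subgroup.index_ker]
      exact Subgroup.card_subgroup_dvd_card _
  · have htop : C = ⊤ := by
      rw [← hker, MonoidHom.ker_eq_top_iff]
      have : Subsingleton (MulAut N) := (Nat.card_eq_one_iff_unique.1 (by rw [hAcard, hp2])).1
      exact MonoidHom.ext fun g => Subsingleton.elim _ _
    exact Or.inr ⟨hHeq, hp2, htop, m, hm, ⟨Subgroup.topEquiv.symm.trans ((MulEquiv.subgroupCongr htop.symm).trans e)⟩⟩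

end Cfsg.Agent.S3025
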