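import Cfsg.Statements.S3027
import Mathlib

set_option autoImplicit false
open Cfsg

namespace Cfsg.Agent.S3027

/-- Let G be a finite group and D a normal subgroup of G such that G/D is perfect (that is, G = G′D). Then among the subnormal subgroups B of G with BD = G there is a least one, and it is normal in G. -/
theorem result {G : Type*} [Group G] [Finite G] (D : Subgroup G) [D.Normal] (hperf : ⁅(⊤ : Subgroup G), (⊤ : Subgroup G)⁆ ⊔ D = ⊤) :
    ∃ B : Subgroup G, B.Normal ∧ B ⊔ D = ⊤ ∧ ∀ B' : Subgroup G, B'.IsSubnormal → B' ⊔ D = ⊤ → B ≤ B' := by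
  induction hk : Nat.card G using Nat.strong_induction_on generalizing G with
  | _ n ih =>
    subst hk
    -- least normal supplement
    set S : Set (Subgroup G) := {B | B.Normal ∧ B ⊔ D = ⊤}
    have hSmeet : ∀ B ∈ S, ∀ B' ∈ S, B ⊓ B' ∈ S := by
      rintro B ⟨hB, hBD⟩ B' ⟨hB', hB'D⟩
      haveI := hB; haveI := hB'
      refine ⟨inferInstance, top_le_iff.1 ?_⟩
      rw [← hperf]
      refine sup_le ?_ le_sup_right
      have hcomm : ∀ X Y : Subgroup G, X.Normal → Y.Normal → ⁅X, Y⁆ ≤ X ⊓ Y := fun X Y hX hY =>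
        le_inf (Subgroup.commutator_le_left X Y) (Subgroup.commutator_le_right X Y)
      rw [Subgroup.commutator_le]
      intro a _ b _
      obtain ⟨x, hx, d, hd, rfl⟩ := (Subgroup.mem_sup_of_normal_right (t := D)).1
        (hBD.symm ▸ Subgroup.mem_top a)
      obtain ⟨y, hy, e, he, rfl⟩ := (Subgroup.mem_sup_of_normal_right (t := D)).1
        (hB'D.symm ▸ Subgroup.mem_top b)
      have hDle : D ≤ (B ⊓ B') ⊔ D := le_sup_right
      rw [← QuotientGroup.ker_mk' ((B ⊓ B') ⊔ D), MonoidHom.mem_ker, map_commutatorElement, map_mul, map_mul]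
      have hd1 : QuotientGroup.mk' ((B ⊓ B') ⊔ D) d = 1 := (QuotientGroup.eq_one_iff d).2 (hDle hd)
      have he1 : QuotientGroup.mk' ((B ⊓ B') ⊔ D) e = 1 := (QuotientGroup.eq_one_iff e).2 (hDle he)
      rw [hd1, he1, mul_one, mul_one, ← map_commutatorElement]
      exact (QuotientGroup.eq_one_iff _).2
        (Subgroup.mem_sup_left (hcomm B B' hB hB' (Subgroup.commutator_mem_commutator hx hy)))
    have hne : (⊤ : Subgroup G) ∈ S := ⟨inferInstance, top_sup_eq _⟩
    obtain ⟨B, hBS, hBmin⟩ := Set.exists_min_image S (fun X => Nat.card X) (Set.toFinite _) ⟨⊤, hne⟩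
    have hleast : ∀ X ∈ S, B ≤ X := fun X hX => inf_eq_left.1
      (Subgroup.eq_of_le_of_card_ge inf_le_left (hBmin _ (hSmeet B hBS X hX)))
    refine ⟨B, hBS.1, hBS.2, fun B' hB' hB'D => ?_⟩
    by_cases htop : B' = ⊤
    · exact htop ▸ le_top
    -- a proper normal subgroup containing `B'`
    obtain ⟨M, hM, hMne, hB'M⟩ : ∃ M : Subgroup G, M.Normal ∧ M ≠ ⊤ ∧ B' ≤ M := by
      clear hB'D
      induction hB' with
      | top => exact absurd rfl htop
      | step X Y hXY hY hN ih2 =>
        by_cases hYtop : Y = ⊤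
        · subst hYtop
          refine ⟨X, ?_, htop, le_rfl⟩
          rw [← Subgroup.normalizer_eq_top_iff, eq_top_iff]
          exact (Subgroup.normal_subgroupOf_iff_le_normalizer le_top).1 hN
        · obtain ⟨M, hM, hMne, hle⟩ := ih2 hYtop
          exact ⟨M, hM, hMne, hXY.trans hle⟩
    haveI := hM
    have hlt : Nat.card M < Nat.card G := lt_of_le_of_ne (Subgroup.card_le_card_group M)
      fun h => hMne (Subgroup.eq_top_of_card_eq M h)
    have hMD : M ⊔ D = ⊤ := top_le_iff.1 (hB'D ▸ sup_le_sup_right hB'M D)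
    -- the hypothesis in `M`
    haveI : (D.subgroupOf M).Normal := inferInstance
    have hperfM : ⁅(⊤ : Subgroup M), (⊤ : Subgroup M)⁆ ⊔ D.subgroupOf M = ⊤ := by
      refine (Subgroup.eq_top_iff' _).2 fun m => ?_
      have hmem : (m : G) ∈ ⁅M, M⁆ ⊔ D := by
        have hle : ⁅(⊤ : Subgroup G), (⊤ : Subgroup G)⁆ ≤ ⁅M, M⁆ ⊔ D := by
          haveI : (⁅M, M⁆ ⊔ D).Normal := inferInstance
          rw [Subgroup.commutator_le]
          intro a _ b _
          obtain ⟨x, hx, d, hd, rfl⟩ := (Subgroup.mem_sup_of_normal_right (t := D)).1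
            (hMD.symm ▸ Subgroup.mem_top a)
          obtain ⟨y, hy, e, he, rfl⟩ := (Subgroup.mem_sup_of_normal_right (t := D)).1
            (hMD.symm ▸ Subgroup.mem_top b)
          rw [← QuotientGroup.ker_mk' (⁅M, M⁆ ⊔ D), MonoidHom.mem_ker, map_commutatorElement, map_mul, map_mul]
          have hd1 : QuotientGroup.mk' (⁅M, M⁆ ⊔ D) d = 1 := (QuotientGroup.eq_one_iff d).2 (Subgroup.mem_sup_right hd)
          have he1 : QuotientGroup.mk' (⁅M, M⁆ ⊔ D) e = 1 := (QuotientGroup.eq_one_iff e).2 (Subgroup.mem_sup_right he)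
          rw [hd1, he1, mul_one, mul_one, ← map_commutatorElement]
          exact (QuotientGroup.eq_one_iff _).2 (Subgroup.mem_sup_left (Subgroup.commutator_mem_commutator hx hy))
        exact sup_le hle le_sup_right (hperf.symm ▸ Subgroup.mem_top _)
      obtain ⟨c, hc, d, hd, hcd⟩ := (Subgroup.mem_sup_of_normal_right (t := D)).1 hmem
      have hcM : c ∈ M := (Subgroup.commutator_le.2 fun a ha b hb => by
        rw [commutatorElement_def]
        exact mul_mem (mul_mem (mul_mem ha hb) (inv_mem ha)) (inv_mem hb)) hc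
      have hdM : d ∈ M := by
        have : d = c⁻¹ * m := by rw [← hcd]; group
        rw [this]
        exact mul_mem (inv_mem hcM) m.2
      have hm : m = ⟨c, hcM⟩ * ⟨d, hdM⟩ := Subtype.ext hcd.symm
      rw [hm]
      refine mul_mem (Subgroup.mem_sup_left ?_) (Subgroup.mem_sup_right hd)
      have h2 : (⁅(⊤ : Subgroup M), (⊤ : Subgroup M)⁆).map M.subtype = ⁅M, M⁆ := by
        rw [Subgroup.map_commutator, ← MonoidHom.range_eq_map, Subgroup.range_subtype]
      rw [← h2] at hc
      obtain ⟨c', hc', hce⟩ := hc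
      have : c' = ⟨c, hcM⟩ := Subtype.ext hce
      exact this ▸ hc'
    obtain ⟨BM, hBMn, hBMD, hBMmin⟩ := ih (Nat.card M) hlt (D.subgroupOf M) hperfM rfl
    -- subnormal supplements of `M` from those of `G`
    have hsupp : ∀ X : Subgroup G, X.IsSubnormal → X ⊔ D = ⊤ → X ≤ M → BM.map M.subtype ≤ X := by
      intro X hX hXD hXM
      rw [Subgroup.map_le_iff_le_comap]
      refine hBMmin _ hX.subgroupOf ((Subgroup.eq_top_iff' _).2 fun m => ?_)
      obtain ⟨x, hx, d, hd, hxd⟩ := (Subgroup.mem_sup_of_normal_right (t := D)).1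
        (hXD.symm ▸ Subgroup.mem_top (m : G))
      have hdM : d ∈ M := by
        have : d = x⁻¹ * m := by rw [← hxd]; group
        rw [this]
        exact mul_mem (inv_mem (hXM hx)) m.2
      have hm : m = ⟨x, hXM hx⟩ * ⟨d, hdM⟩ := Subtype.ext hxd.symm
      rw [hm]
      exact mul_mem (Subgroup.mem_sup_left hx) (Subgroup.mem_sup_right hd)
    have hB0D : BM.map M.subtype ⊔ D = ⊤ := by
      refine top_le_iff.1 (hMD ▸ sup_le (fun m hm => ?_) le_sup_right)
      obtain ⟨x, hx, d, hd, hxd⟩ := (Subgroup.mem_sup_of_normal_right (t := D.subgroupOf M)).1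
        (hBMD.symm ▸ Subgroup.mem_top (⟨m, hm⟩ : M))
      have : (x : G) * (d : G) = m := congrArg Subtype.val hxd
      rw [← this]
      exact mul_mem (Subgroup.mem_sup_left ⟨x, hx, rfl⟩) (Subgroup.mem_sup_right hd)
    have hn0 : (BM.map M.subtype).Normal := by
      constructor
      rintro _ ⟨x, hx, rfl⟩ g
      -- pull back a conjugate
      haveI := hBMn
      let e : M ≃* M := MulAut.conjNormal g
      have hX : (BM.comap e.toMonoidHom).IsSubnormal := Subgroup.Normal.isSubnormal inferInstance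
      have hXD : BM.comap e.toMonoidHom ⊔ D.subgroupOf M = ⊤ := by
        refine (Subgroup.eq_top_iff' _).2 fun m => ?_
        obtain ⟨a, ha, d, hd, had⟩ := (Subgroup.mem_sup_of_normal_right (t := D.subgroupOf M)).1
          (hBMD.symm ▸ Subgroup.mem_top (e m))
        have hm : m = e.symm a * e.symm d := by rw [← map_mul, had, e.symm_apply_apply]
        rw [hm]
        refine mul_mem (Subgroup.mem_sup_left ?_) (Subgroup.mem_sup_right ?_)
        · show e (e.symm a) ∈ BM
          rwa [e.apply_symm_apply]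
        · show ((e.symm d : M) : G) ∈ D
          rw [MulAut.conjNormal_symm_apply]
          simpa using (inferInstance : D.Normal).conj_mem _ hd g⁻¹
      refine ⟨e x, hBMmin _ hX hXD hx, ?_⟩
      show ((MulAut.conjNormal g x : M) : G) = g * (x : G) * g⁻¹
      exact MulAut.conjNormal_apply g x
    exact (hleast _ ⟨hn0, hB0D⟩).trans (hsupp B' hB' hB'D hB'M)

end Cfsg.Agent.S3027
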