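import Cfsg.Statements.S3043
import Cfsg.Agent.Lib.TIInverted.Large
import Cfsg.Agent.Lib.TIInverted.Small
-- import your own Cfsg.Agent.* helpers here

set_option autoImplicit false
open Cfsg

namespace Cfsg.Agent.S3043

/-- Let M be a nontrivial subgroup of a finite group G meeting each of its other conjugates trivially, with N_G(M) = M · C_{N_G(M)}(z) for some involution z ∈ N_G(M), and with C_G(x) of odd order for every nontrivial x ∈ M. Then one of the following holds: M is normal in G; the number of involutions of G is at most |G : M|; G is isomorphic to PGL₂(F) or to PSL₂(F) for a finite field F with |F| = |M|, M is an elementary abelian p-group for the characteristic p of F, and |F| ≡ 1 (mod 4) in the PSL₂ case; G is isomorphic to PSL₂(F) with |F| = 2^e, e > 1, and M is cyclic of order 2^e + 1; or for some d ≥ 1, G has an elementary abelian normal subgroup of order 2^{2d} complemented by N_G(M), and N_G(M) is dihedral of order 2(2^d + 1). -/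
theorem result {G : Type*} [Group G] [Finite G] (M : Subgroup G) (hM1 : M ≠ ⊥)
    (hTI : ∀ g : G, M ⊓ M.map (MulAut.conj g).toMonoidHom ≠ ⊥ → M.map (MulAut.conj g).toMonoidHom = M)
    (z : G) (hz : orderOf z = 2) (hzN : z ∈ Subgroup.normalizer (M : Set G))
    (hfac : M ⊔ (Subgroup.normalizer (M : Set G) ⊓ Subgroup.centralizer ({z} : Set G)) = Subgroup.normalizer (M : Set G))
    (hodd : ∀ x ∈ M, x ≠ 1 → Odd (Nat.card ↥(Subgroup.centralizer ({x} : Set G)))) :
    M.Normal ∨
    Nat.card {g : G // orderOf g = 2} ≤ M.index ∨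
    (∃ (F : Type) (_ : Field F) (_ : Fintype F) (p : ℕ) (_ : Fact p.Prime) (_ : CharP F p), Fintype.card F = Nat.card M ∧ Cfsg.IsElementaryAbelian p M ∧
        (Nonempty (G ≃* (GL (Fin 2) F ⧸ Subgroup.center (GL (Fin 2) F))) ∨
         (Fintype.card F % 4 = 1 ∧ Nonempty (G ≃* Matrix.ProjectiveSpecialLinearGroup (Fin 2) F)))) ∨
    (∃ (F : Type) (_ : Field F) (_ : Fintype F) (e : ℕ), 1 < e ∧ Fintype.card F = 2 ^ e ∧ IsCyclic ↥M ∧ Nat.card M = 2 ^ e + 1 ∧
        Nonempty (G ≃* Matrix.ProjectiveSpecialLinearGroup (Fin 2) F)) ∨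
    (∃ (d : ℕ) (E : Subgroup G), 1 ≤ d ∧ E.Normal ∧ Cfsg.IsElementaryAbelian 2 E ∧ Nat.card E = 2 ^ (2 * d) ∧
        E ⊓ Subgroup.normalizer (M : Set G) = ⊥ ∧ E ⊔ Subgroup.normalizer (M : Set G) = ⊤ ∧
        Nonempty (↥(Subgroup.normalizer (M : Set G)) ≃* DihedralGroup (2 ^ d + 1))) := by
  classical
  by_cases hn : M.Normal
  · exact Or.inl hn
  have h : CfsgLib.TIInverted.Ctx M z := ⟨hM1, hTI, hz, hzN, hfac, hodd⟩
  rcases h.full_or_few with hf | hfew
  · by_cases hC : ∀ c ∈ CfsgLib.TIInverted.CC M z, c * c = 1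
    · rcases h.small hf hn hC with hs | hs
      · exact Or.inr (Or.inr (Or.inr (Or.inl hs)))
      · exact Or.inr (Or.inr (Or.inr (Or.inr hs)))
    · push Not at hC
      obtain ⟨c, hc, hcc⟩ := hC
      exact Or.inr (Or.inr (Or.inl (h.large hf hn hc hcc)))
  · exact Or.inr (Or.inl hfew)

end Cfsg.Agent.S3043
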