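import Cfsg.Statements.S3044
import Cfsg.Agent.Lib.IsolatedPMin.Quotient
-- import your own Cfsg.Agent.* helpers here

set_option autoImplicit false
open Cfsg

namespace Cfsg.Agent.S3044

/-- Let G be a finite group, p a prime, S a Sylow p-subgroup of G and P a p-minimal subgroup of G containing S (S is not normal in P and lies in exactly one maximal subgroup of P). Let L be the subgroup generated by N_G(S) and all p-minimal subgroups of G containing S other than P, and suppose P is isolated: O_p(L) is not contained in O_p(P). Put Y for the normal closure of O^p(P) in G. Then G = YL; P is again isolated in the subgroup YS (the subgroup L₀ generated by N_{YS}(S) and the p-minimal subgroups of YS containing S other than P has O_p(L₀) not contained in O_p(P)); and either Y = O^p(P), or p divides |Y/O_p(Y)|, Y/O_p(Y) is generated by its components (a central product of quasisimple groups), and S permutes these components transitively by conjugation. -/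
theorem result {G : Type*} [Group G] [Finite G] {p : ℕ} [Fact p.Prime] (S : Sylow p G) (P : Subgroup G) (hSP : (S : Subgroup G) ≤ P) (hPmin : Cfsg.IsPMinimal p ↥P)
    (L Y : Subgroup G)
    (hL : L = Subgroup.normalizer ((S : Subgroup G) : Set G) ⊔ ⨆ P' : {P' : Subgroup G // (S : Subgroup G) ≤ P' ∧ Cfsg.IsPMinimal p ↥P' ∧ P' ≠ P}, (P' : Subgroup G))
    (hiso : ¬ (Cfsg.pCore p ↥L).map L.subtype ≤ (Cfsg.pCore p ↥P).map P.subtype)
    (hY : Y = Subgroup.normalClosure (((Cfsg.pResidual p ↥P).map P.subtype : Subgroup G) : Set G)) :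
    Y ⊔ L = ⊤ ∧
    ¬ (Cfsg.pCore p ↥((Subgroup.normalizer ((S : Subgroup G) : Set G) ⊓ (Y ⊔ (S : Subgroup G))) ⊔
          ⨆ P' : {P' : Subgroup G // (S : Subgroup G) ≤ P' ∧ P' ≤ Y ⊔ (S : Subgroup G) ∧ Cfsg.IsPMinimal p ↥P' ∧ P' ≠ P}, (P' : Subgroup G))).map
        (Subgroup.subtype _) ≤ (Cfsg.pCore p ↥P).map P.subtype ∧
    ((Cfsg.pResidual p ↥P).map P.subtype = Y ∨
     ∃ _ : (Cfsg.pCore p ↥Y).Normal,
       p ∣ Nat.card (↥Y ⧸ Cfsg.pCore p ↥Y) ∧ Cfsg.layer (↥Y ⧸ Cfsg.pCore p ↥Y) = ⊤ ∧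
       ∀ K₁ K₂ : Subgroup (↥Y ⧸ Cfsg.pCore p ↥Y), Cfsg.IsComponent K₁ → Cfsg.IsComponent K₂ →
         ∃ s ∈ (S : Subgroup G), ((K₂.comap (QuotientGroup.mk' (Cfsg.pCore p ↥Y))).map Y.subtype) = (((K₁.comap (QuotientGroup.mk' (Cfsg.pCore p ↥Y))).map Y.subtype)).map (MulAut.conj s).toMonoidHom) := by
  classical
  have hYn : Y.Normal := hY ▸ Subgroup.normalClosure_normal
  have hAY : (Cfsg.pResidual p ↥P).map P.subtype ≤ Y := hY ▸ Subgroup.le_normalClosure
  have hSL := CfsgLib.IsolatedPMin.le_L' S P L hSP hPmin hL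
  refine ⟨?_, ?_, ?_⟩
  · rcases CfsgLib.IsolatedPMin.gen_aux S P L hSP hPmin hL (H := ⊤) le_top with h | ⟨-, h⟩
    · exact top_le_iff.1 (h.trans le_sup_right)
    · exact top_le_iff.1 (h.trans (sup_le (sup_le (hAY.trans le_sup_left)
        (hSL.trans le_sup_right)) (inf_le_left.trans le_sup_right)))
  · intro hle
    apply hiso
    set L₀ := (Subgroup.normalizer ((S : Subgroup G) : Set G) ⊓ (Y ⊔ (S : Subgroup G))) ⊔
      ⨆ P' : {P' : Subgroup G // (S : Subgroup G) ≤ P' ∧ P' ≤ Y ⊔ (S : Subgroup G) ∧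
        Cfsg.IsPMinimal p ↥P' ∧ P' ≠ P}, (P' : Subgroup G) with hL₀
    have hL₀L : L₀ ≤ L := by
      rw [hL₀, hL]
      refine sup_le (inf_le_left.trans le_sup_left) (iSup_le fun P' => le_sup_of_le_right ?_)
      exact le_iSup (fun P' : {P' : Subgroup G // (S : Subgroup G) ≤ P' ∧
        Cfsg.IsPMinimal p ↥P' ∧ P' ≠ P} => (P' : Subgroup G)) ⟨P', P'.2.1, P'.2.2.2.1, P'.2.2.2.2⟩
    have hSL₀ : (S : Subgroup G) ≤ L₀ :=
      le_sup_of_le_left (le_inf Subgroup.le_normalizer le_sup_right)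
    set Q := (Cfsg.pCore p ↥L).map L.subtype
    have hQL₀ : Q ≤ L₀ := (CfsgLib.IsolatedPMin.pCore_L_le_sylow S P L hSP hPmin hL).trans hSL₀
    have hn : (Q.subgroupOf L₀).Normal := Subgroup.normal_subgroupOf_of_le_normalizer
      (hL₀L.trans (CfsgLib.IsolatedPMin.le_normalizer_map_of_normal _))
    refine le_trans ?_ hle
    rw [← Subgroup.map_subgroupOf_eq_of_le hQL₀]
    exact Subgroup.map_mono (CfsgLib.Cores.le_pCore
      (((CfsgLib.Cores.isPGroup_pCore p ↥L).map L.subtype).comap_subtype))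
  · have hmap := CfsgLib.IsolatedPMin.map_Y S P L hSP hPmin hL hiso Y hY
    have hset := CfsgLib.IsolatedPMin.setting S P L hSP hPmin hL hiso
    by_cases hcop : Nat.Coprime
        (Nat.card (Y.map (QuotientGroup.mk' (Cfsg.pCore p G)))) p
    · exact Or.inl (CfsgLib.IsolatedPMin.eq_residual S P L hSP hPmin hL hiso Y hY hcop)
    refine Or.inr ⟨inferInstance, ?_, ?_, ?_⟩
    · rw [Nat.card_congr (CfsgLib.IsolatedPMin.quotEquiv hYn).toEquiv]
      rwa [Nat.coprime_comm, (Fact.out : p.Prime).coprime_iff_not_dvd, not_not] at hcop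
    all_goals
      let e := (CfsgLib.IsolatedPMin.quotEquiv (p := p) hYn).trans (MulEquiv.subgroupCongr hmap)
      rw [hmap] at hcop
      obtain ⟨hlay, htrans⟩ := hset.semisimple_case hcop
    · refine Subgroup.map_injective (f := e.toMonoidHom) e.injective ?_
      rw [CfsgLib.Cores.map_layer_equiv, hlay,
        Subgroup.map_top_of_surjective e.toMonoidHom e.surjective]
    · intro K₁ K₂ h₁ h₂
      obtain ⟨sb, hsb, he⟩ := htrans _ _ (CfsgLib.Cores.isComponent_map_equiv h₁ e)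
        (CfsgLib.Cores.isComponent_map_equiv h₂ e)
      obtain ⟨s, hs, rfl⟩ := hsb
      refine ⟨s, hs, ?_⟩
      have hK : ∀ K : Subgroup (↥Y ⧸ Cfsg.pCore p ↥Y), (K.map e.toMonoidHom).map (Subgroup.subtype _)
          = (K.map (CfsgLib.IsolatedPMin.quotEquiv hYn).toMonoidHom).map (Subgroup.subtype _) := by
        intro K
        ext z
        simp only [Subgroup.mem_map]
        constructor <;> rintro ⟨_, ⟨k, hk, rfl⟩, rfl⟩ <;> exact ⟨_, ⟨k, hk, rfl⟩, rfl⟩
      rw [hK, hK] at he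
      rw [CfsgLib.IsolatedPMin.map_comap_eq hYn, CfsgLib.IsolatedPMin.map_comap_eq hYn]
      exact CfsgLib.IsolatedPMin.map_conj_eq hYn he

end Cfsg.Agent.S3044
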