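import Cfsg.Statements.S3045
import Cfsg.Agent.Lib.IsolatedPMin.Quotient
-- import your own Cfsg.Agent.* helpers here

set_option autoImplicit false
open Cfsg

namespace Cfsg.Agent.S3045

/-- Let G be a finite group, p a prime, S a Sylow p-subgroup of G and P a p-minimal subgroup of G containing S. Let L be the subgroup generated by N_G(S) and all p-minimal subgroups of G containing S other than P, and suppose O_p(L) is not contained in O_p(P). Put Y for the normal closure of O^p(P) in G. Then O^p(P) is contained in the preimage in G of F*(G/O_p(G)); and if Y is solvable, then Y = O^p(P) and Y/O_p(Y) is a t-group of nilpotency class at most 2 for some prime t ≠ p. -/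
theorem result {G : Type*} [Group G] [Finite G] {p : ℕ} [Fact p.Prime] (S : Sylow p G) (P : Subgroup G) (hSP : (S : Subgroup G) ≤ P) (hPmin : Cfsg.IsPMinimal p ↥P)
    (L Y : Subgroup G)
    (hL : L = Subgroup.normalizer ((S : Subgroup G) : Set G) ⊔ ⨆ P' : {P' : Subgroup G // (S : Subgroup G) ≤ P' ∧ Cfsg.IsPMinimal p ↥P' ∧ P' ≠ P}, (P' : Subgroup G))
    (hiso : ¬ (Cfsg.pCore p ↥L).map L.subtype ≤ (Cfsg.pCore p ↥P).map P.subtype)
    (hY : Y = Subgroup.normalClosure (((Cfsg.pResidual p ↥P).map P.subtype : Subgroup G) : Set G)) [hn : (Cfsg.pCore p G).Normal] :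
    (Cfsg.pResidual p ↥P).map P.subtype ≤ (Cfsg.generalizedFittingSubgroup (G ⧸ Cfsg.pCore p G)).comap (QuotientGroup.mk' (Cfsg.pCore p G)) ∧
    (Group.IsSolvable ↥Y → (Cfsg.pResidual p ↥P).map P.subtype = Y ∧
       ∃ _ : (Cfsg.pCore p ↥Y).Normal, ∃ t : ℕ, t.Prime ∧ t ≠ p ∧ IsPGroup t (↥Y ⧸ Cfsg.pCore p ↥Y) ∧
         ∃ _ : Group.IsNilpotent (↥Y ⧸ Cfsg.pCore p ↥Y), Group.nilpotencyClass (↥Y ⧸ Cfsg.pCore p ↥Y) ≤ 2) := by
  classical
  have hYn : Y.Normal := hY ▸ Subgroup.normalClosure_normal
  have hAY : (Cfsg.pResidual p ↥P).map P.subtype ≤ Y := hY ▸ Subgroup.le_normalClosure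
  set π := QuotientGroup.mk' (Cfsg.pCore p G)
  have hmap := CfsgLib.IsolatedPMin.map_Y S P L hSP hPmin hL hiso Y hY
  have hset := CfsgLib.IsolatedPMin.setting S P L hSP hPmin hL hiso
  haveI hYbn : (Y.map π).Normal := hYn.map π (QuotientGroup.mk'_surjective _)
  refine ⟨?_, fun hsol => ?_⟩
  · refine hAY.trans (Subgroup.map_le_iff_le_comap.1 ?_)
    by_cases hcop : Nat.Coprime (Nat.card (Y.map π)) p
    · rw [hmap] at hcop
      obtain ⟨-, t, ht, -, htY, -⟩ := hset.coprime_case hcop
      haveI := Fact.mk ht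
      rw [← hmap] at htY
      exact (CfsgLib.Cores.le_fittingSubgroup htY.isNilpotent).trans
        (CfsgLib.Cores.fittingSubgroup_le_generalizedFittingSubgroup _)
    · rw [hmap] at hcop
      have hlay := (hset.semisimple_case hcop).1
      rw [hmap]
      rw [hmap] at hYbn
      refine le_trans ?_ (CfsgLib.Cores.layer_le_generalizedFittingSubgroup _)
      refine le_of_eq_of_le ?_ (CfsgLib.Cores.map_subtype_layer_le hYbn.isSubnormal)
      rw [hlay, ← MonoidHom.range_eq_map, Subgroup.range_subtype]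
  · haveI := hsol
    have hsolb : Group.IsSolvable ↥(Y.map π) :=
      Group.isSolvable_of_surjective (π.subgroupMap_surjective Y)
    rw [hmap] at hsolb
    have hcop := hset.coprime_of_solvable hsolb
    obtain ⟨heq, t, ht, htp, htY, hcl⟩ := hset.coprime_case hcop
    rw [← hmap] at hcop heq htY
    rw [← heq] at hcl
    haveI := Fact.mk ht
    refine ⟨CfsgLib.IsolatedPMin.eq_residual S P L hSP hPmin hL hiso Y hY hcop, inferInstance,
      t, ht, htp, ?_, ?_⟩
    · exact htY.of_equiv (CfsgLib.IsolatedPMin.quotEquiv hYn).symm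
    haveI hnil : Group.IsNilpotent ↥(Y.map π) := htY.isNilpotent
    have hnq : Group.IsNilpotent (↥Y ⧸ Cfsg.pCore p ↥Y) :=
      Group.nilpotent_of_mulEquiv (CfsgLib.IsolatedPMin.quotEquiv hYn).symm
    refine ⟨hnq, ?_⟩
    refine (Group.nilpotencyClass_le_of_surjective
      (CfsgLib.IsolatedPMin.quotEquiv (p := p) hYn).symm.toMonoidHom
      (CfsgLib.IsolatedPMin.quotEquiv (p := p) hYn).symm.surjective).trans ?_
    rw [← Subgroup.lowerCentralSeries_eq_bot_iff_nilpotencyClass_le]
    refine Subgroup.map_injective (Y.map π).subtype_injective ?_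
    rw [show (2 : ℕ) = 0 + 1 + 1 from rfl, Subgroup.lowerCentralSeries_succ,
      Subgroup.lowerCentralSeries_succ, Subgroup.lowerCentralSeries_zero, Subgroup.map_commutator,
      Subgroup.map_commutator, ← MonoidHom.range_eq_map, Subgroup.range_subtype, Subgroup.map_bot]
    exact hcl

end Cfsg.Agent.S3045
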