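import Cfsg.Statements.S3047
import Cfsg.Agent.Lib.BrauerPairs.RankOneModels
import Cfsg.Agent.Lib.PushUp.OddTransfer.Component

set_option autoImplicit false
open Cfsg

namespace Cfsg.Agent.S3047

/-- Let p ≥ 5 be a prime, G a finite group all of whose composition factors are known simple groups, S a Sylow p-subgroup and P a p-minimal subgroup of G containing S such that O^p(P/O_p(P)) is isomorphic to SL₂(pᵃ), PSL₂(pᵃ), SU₃(pᵃ) or PSU₃(pᵃ) for some a ≥ 1. Let L be the subgroup generated by N_G(S) and the p-minimal subgroups of G containing S other than P. Then either O^p(P) is normal in G, or every p-element of the centre of L lies in O_p(P). -/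
theorem result {G : Type*} [Group G] [Finite G] {p : ℕ} [Fact p.Prime] (hp : 5 ≤ p) (hK : Cfsg.IsCompositionKGroup G)
    (S : Sylow p G) (P : Subgroup G) (hSP : (S : Subgroup G) ≤ P) (hPmin : Cfsg.IsPMinimal p ↥P) [hn : (Cfsg.pCore p ↥P).Normal]
    (hrk1 : ∃ (F : Type) (_ : Field F) (_ : Fintype F) (a : ℕ), 1 ≤ a ∧
      ((Fintype.card F = p ^ a ∧ (Nonempty (↥(Cfsg.pResidual p (↥P ⧸ Cfsg.pCore p ↥P)) ≃* Matrix.SpecialLinearGroup (Fin 2) F) ∨
                                  Nonempty (↥(Cfsg.pResidual p (↥P ⧸ Cfsg.pCore p ↥P)) ≃* Matrix.ProjectiveSpecialLinearGroup (Fin 2) F))) ∨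
       (Fintype.card F = p ^ (2 * a) ∧ (Nonempty (↥(Cfsg.pResidual p (↥P ⧸ Cfsg.pCore p ↥P)) ≃* ↥(Cfsg.SU 3 F (p ^ a))) ∨
                                        Nonempty (↥(Cfsg.pResidual p (↥P ⧸ Cfsg.pCore p ↥P)) ≃* Cfsg.PSU 3 F (p ^ a))))))
    (L : Subgroup G)
    (hL : L = Subgroup.normalizer ((S : Subgroup G) : Set G) ⊔ ⨆ P' : {P' : Subgroup G // (S : Subgroup G) ≤ P' ∧ Cfsg.IsPMinimal p ↥P' ∧ P' ≠ P}, (P' : Subgroup G)) :
    ((Cfsg.pResidual p ↥P).map P.subtype).Normal ∨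
    ∀ z ∈ L ⊓ Subgroup.centralizer (L : Set G), (∃ k : ℕ, orderOf z = p ^ k) → z ∈ (Cfsg.pCore p ↥P).map P.subtype := by
  refine Or.inr fun z hz hord => ?_
  obtain ⟨-, hzC⟩ := hz
  obtain ⟨k, hk⟩ := hord
  have hNL : Subgroup.normalizer ((S : Subgroup G) : Set G) ≤ L := hL ▸ le_sup_left
  have hcomm : ∀ x ∈ Subgroup.normalizer ((S : Subgroup G) : Set G), z * x = x * z :=
    fun x hx => (Subgroup.mem_centralizer_iff.1 hzC x (hNL hx)).symm
  have hzS : z ∈ (S : Subgroup G) := by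
    have hzn : Subgroup.zpowers z ≤ Subgroup.normalizer ((S : Subgroup G) : Set G) := by
      rw [Subgroup.zpowers_le]
      refine Subgroup.mem_normalizer_fintype fun s hs => ?_
      rw [hcomm s (Subgroup.le_normalizer hs), mul_inv_cancel_right]
      exact hs
    have hzp : IsPGroup p ↥(Subgroup.zpowers z) := IsPGroup.of_card (n := k) (by rw [Nat.card_zpowers, hk])
    have hp' : IsPGroup p ↥(Subgroup.zpowers z ⊔ (S : Subgroup G)) :=
      IsPGroup.to_sup_of_normal_right' hzp S.isPGroup' hzn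
    rw [← S.3 hp' le_sup_right]
    exact Subgroup.mem_sup_left (Subgroup.mem_zpowers z)
  let SP : Sylow p P := S.subtype hSP
  let π : P →* P ⧸ Cfsg.pCore p P := QuotientGroup.mk' _
  have hπ : Function.Surjective π := QuotientGroup.mk'_surjective _
  let SX : Sylow p (P ⧸ Cfsg.pCore p P) := SP.mapSurjective hπ
  have hzX : π ⟨z, hSP hzS⟩ ∈ (SX : Subgroup (P ⧸ Cfsg.pCore p P)) :=
    Subgroup.mem_map_of_mem π (show (⟨z, hSP hzS⟩ : P) ∈ (SP : Subgroup P) from hzS)
  have hzcomm : ∀ x ∈ Subgroup.normalizer ((SX : Subgroup (P ⧸ Cfsg.pCore p P)) : Set (P ⧸ Cfsg.pCore p P)),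
      π ⟨z, hSP hzS⟩ * x = x * π ⟨z, hSP hzS⟩ := by
    intro x hx
    obtain ⟨y, rfl⟩ := hπ x
    have hy : (y : G) ∈ Subgroup.normalizer ((S : Subgroup G) : Set G) := by
      refine Subgroup.mem_normalizer_fintype fun s hs => ?_
      obtain ⟨b, hb, e⟩ := (Subgroup.mem_normalizer_iff.1 hx (π ⟨s, hSP hs⟩)).1
        (Subgroup.mem_map_of_mem π (show (⟨s, hSP hs⟩ : P) ∈ (SP : Subgroup P) from hs))
      rw [← map_inv, ← map_mul, ← map_mul] at e
      have hk' : b⁻¹ * (y * ⟨s, hSP hs⟩ * y⁻¹) ∈ Cfsg.pCore p P := QuotientGroup.eq.1 e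
      have hmem := mul_mem hb (CfsgLib.Cores.pCore_le_sylow SP hk')
      rw [mul_inv_cancel_left] at hmem
      exact hmem
    rw [← map_mul, ← map_mul]
    exact congrArg π (Subtype.ext (hcomm _ hy))
  suffices h1 : π ⟨z, hSP hzS⟩ = 1 from ⟨⟨z, hSP hzS⟩, (QuotientGroup.eq_one_iff _).1 h1, rfl⟩
  have hXb : Cfsg.pCore p (P ⧸ Cfsg.pCore p P) = ⊥ := CfsgLib.Cores.pCore_quotient_pCore p P
  have hquot : ∀ x : P ⧸ Cfsg.pCore p P, ∃ j : ℕ, x ^ p ^ j ∈ Cfsg.pResidual p (P ⧸ Cfsg.pCore p P) := by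
    intro x
    obtain ⟨e, m, hm, he⟩ := Nat.exists_eq_pow_mul_and_not_dvd (orderOf_pos x).ne' p (Fact.out : p.Prime).ne_one
    refine ⟨e, Subgroup.subset_closure ?_⟩
    show Nat.Coprime (orderOf (x ^ p ^ e)) p
    rw [orderOf_pow, he, Nat.gcd_mul_right_left, Nat.mul_div_cancel_left _ (pow_pos (Fact.out : p.Prime).pos e)]
    exact ((Fact.out : p.Prime).coprime_iff_not_dvd.2 hm).symm
  haveI : (Cfsg.pResidual p (P ⧸ Cfsg.pCore p P)).Normal := by
    constructor
    intro n hn' g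
    have hle : (Cfsg.pResidual p (P ⧸ Cfsg.pCore p P)).map (MulAut.conj g).toMonoidHom ≤
        Cfsg.pResidual p (P ⧸ Cfsg.pCore p P) := by
      rw [Cfsg.pResidual, MonoidHom.map_closure, Subgroup.closure_le]
      rintro _ ⟨a, ha, rfl⟩
      refine Subgroup.subset_closure ?_
      show Nat.Coprime (orderOf ((MulAut.conj g) a)) p
      rw [MulEquiv.orderOf_eq]
      exact ha
    exact hle ⟨n, hn', rfl⟩
  obtain ⟨F, hF, hFf, a, ha, hcase⟩ := hrk1
  have hdata : ∃ (M : Type) (_ : Group M) (_ : Finite M) (_ : CfsgLib.BrauerPairs.RankOneData p M),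
      Nonempty (↥(Cfsg.pResidual p (P ⧸ Cfsg.pCore p P)) ≃* M) ∨
        Nonempty (↥(Cfsg.pResidual p (P ⧸ Cfsg.pCore p P)) ≃* M ⧸ Subgroup.center M) := by
    rcases hcase with ⟨hcard, hiso⟩ | ⟨hcard, hiso⟩
    · haveI := CfsgLib.PushUp.OddTransfer.charP_of_card (p := p) hcard
      obtain ⟨D⟩ := CfsgLib.BrauerPairs.exists_data_SL (F := F) (p := p) hp
      exact ⟨_, inferInstance, inferInstance, D, hiso⟩
    · haveI := CfsgLib.PushUp.OddTransfer.charP_of_card (p := p) hcard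
      have hq : Nat.card F = (p ^ a) ^ 2 := by rw [Nat.card_eq_fintype_card, hcard, ← pow_mul, mul_comm]
      obtain ⟨σ, hσ⟩ := CfsgLib.Amalgams.exists_uniField hq
      obtain ⟨D⟩ := CfsgLib.BrauerPairs.exists_data_SU hσ (p := p) hp
      obtain ⟨e⟩ := CfsgLib.Amalgams.exists_suAnti_equiv hσ
      refine ⟨_, inferInstance, inferInstance, D, hiso.imp (fun ⟨i⟩ => ⟨i.trans e.symm⟩) fun ⟨i⟩ =>
        ⟨i.trans (QuotientGroup.congr _ _ e.symm ?_)⟩⟩
      ext x
      rw [Subgroup.map_equiv_eq_comap_symm, Subgroup.mem_comap, MulEquiv.symm_symm,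
        Subgroup.mem_center_iff, Subgroup.mem_center_iff]
      constructor
      · intro h g
        apply e.injective
        simpa using h (e g)
      · intro h g
        simpa using congrArg e (h (e.symm g))
  obtain ⟨M, _, _, D, hiso⟩ := hdata
  obtain ⟨φ, hφ, hker⟩ : ∃ φ : M →* ↥(Cfsg.pResidual p (P ⧸ Cfsg.pCore p P)),
      Function.Surjective φ ∧ φ.ker ≤ Subgroup.center M := by
    rcases hiso with ⟨⟨i⟩⟩ | ⟨⟨i⟩⟩
    · exact ⟨i.symm.toMonoidHom, i.symm.surjective, by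
        intro m hm
        rw [show m = 1 from i.symm.injective (hm.trans (map_one _).symm)]
        exact one_mem _⟩
    · refine ⟨i.symm.toMonoidHom.comp (QuotientGroup.mk' _), i.symm.surjective.comp
        (QuotientGroup.mk'_surjective _), fun m hm => ?_⟩
      exact (QuotientGroup.eq_one_iff m).1 (i.symm.injective (hm.trans (map_one _).symm))
  exact D.eq_one_of_central hXb _ hquot φ hφ hker SX hzX hzcomm

end Cfsg.Agent.S3047
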