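import Cfsg.Statements.S3048
import Cfsg.Agent.Lib.Cores.GenFitting
import Cfsg.Agent.Lib.SolvableStructure.MinimalNormal
import Cfsg.Agent.S3012
import Cfsg.Agent.S3013

set_option autoImplicit false
universe u
open Cfsg

namespace Cfsg.Agent.S3048

open CfsgLib.Cores

/-- A power with odd nontrivial order. -/
theorem exists_odd_of_not_isPGroup {G : Type*} [Group G] [Finite G] (T : Subgroup G)
    (hT : ¬ IsPGroup 2 T) : ∃ t ∈ T, t ≠ 1 ∧ Odd (orderOf t) := by
  simp only [IsPGroup] at hT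
  push Not at hT
  obtain ⟨x, hx⟩ := hT
  obtain ⟨k, m, hm, hkm⟩ := Nat.exists_eq_two_pow_mul_odd (orderOf_pos x).ne'
  refine ⟨((x ^ 2 ^ k : T) : G), (x ^ 2 ^ k).2, fun h => hx k (Subtype.ext h), ?_⟩
  rw [Subgroup.orderOf_coe]
  refine Odd.of_dvd_nat hm (orderOf_dvd_of_pow_eq_one ?_)
  rw [← pow_mul, ← hkm, pow_orderOf_eq_one]

/-- Minimal counterexample reduction for the Sidki pair problem. Let G be a finite group and V a nontrivial elementary abelian 2-subgroup satisfying the Sidki pair condition with V ∩ O₂(G) = 1. Suppose that for every finite group H of smaller order, every nontrivial elementary abelian 2-subgroup W of H satisfying the Sidki pair condition meets O₂(H) nontrivially, and that the same holds in G for every such subgroup W of order smaller than that of V. Then the generalized Fitting subgroup F*(G) is a non-abelian simple group and G = V F*(G). -/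
theorem result {G : Type u} [Group G] [Finite G] (V : Subgroup G) (hV : Cfsg.IsElementaryAbelian 2 V) (hV1 : V ≠ ⊥) (hS : Cfsg.IsSidkiPair V) (hVO : V ⊓ Cfsg.pCore 2 G = ⊥) (hminG : ∀ (H : Type u) [Group H] [Finite H] (W : Subgroup H), Nat.card H < Nat.card G → Cfsg.IsElementaryAbelian 2 W → W ≠ ⊥ → Cfsg.IsSidkiPair W → W ⊓ Cfsg.pCore 2 H ≠ ⊥) (hminV : ∀ W : Subgroup G, Nat.card W < Nat.card V → Cfsg.IsElementaryAbelian 2 W → W ≠ ⊥ → Cfsg.IsSidkiPair W → W ⊓ Cfsg.pCore 2 G ≠ ⊥) : IsSimpleGroup ↥(Cfsg.generalizedFittingSubgroup G) ∧ ¬ IsMulCommutative ↥(Cfsg.generalizedFittingSubgroup G) ∧ V ⊔ Cfsg.generalizedFittingSubgroup G = ⊤ := by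
  classical
  have h2 : ∀ v ∈ V, v * v = 1 := fun v hv => by rw [← pow_two]; exact hV.2 v hv
  have hcomm : ∀ v ∈ V, ∀ w ∈ V, v * w = w * v := fun v hv w hw =>
    congrArg Subtype.val (hV.1.is_comm.comm ⟨v, hv⟩ ⟨w, hw⟩)
  -- `O₂(G) = 1`
  have hO2 : Cfsg.pCore 2 G = ⊥ := by
    by_contra hne
    have hVN : V ⊓ Cfsg.pCore 2 G = ⊥ := hVO
    have hlt : Nat.card (G ⧸ Cfsg.pCore 2 G) < Nat.card G := by
      rw [Subgroup.card_eq_card_quotient_mul_card_subgroup (Cfsg.pCore 2 G)]
      exact lt_mul_of_one_lt_right Nat.card_pos (Subgroup.one_lt_card_iff_ne_bot _ |>.2 hne)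
    have hVb : Cfsg.IsElementaryAbelian 2 (V.map (QuotientGroup.mk' (Cfsg.pCore 2 G))) := by
      refine ⟨⟨⟨?_⟩⟩, ?_⟩
      · rintro ⟨_, a, ha, rfl⟩ ⟨_, b, hb, rfl⟩
        exact Subtype.ext (by
          show QuotientGroup.mk' _ a * QuotientGroup.mk' _ b = QuotientGroup.mk' _ b * QuotientGroup.mk' _ a
          rw [← map_mul, ← map_mul, hcomm a ha b hb])
      · rintro _ ⟨a, ha, rfl⟩
        rw [← map_pow, hV.2 a ha, map_one]
    have hVb1 : V.map (QuotientGroup.mk' (Cfsg.pCore 2 G)) ≠ ⊥ := fun h => hV1 (by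
      rw [Subgroup.map_eq_bot_iff, QuotientGroup.ker_mk'] at h
      rw [← inf_eq_left.2 h]; exact hVN)
    refine hminG _ _ hlt hVb hVb1 (Cfsg.Agent.S3012.result V _ hV hV1 hS hVN) ?_
    rw [pCore_quotient_pCore, inf_bot_eq]
  -- subnormal 2-subgroups are trivial
  have hsub2 : ∀ P : Subgroup G, P.IsSubnormal → IsPGroup 2 P → P = ⊥ := fun P hs hP =>
    le_bot_iff.1 (hO2 ▸ le_pCore_of_subnormal hs hP)
  -- `V` does not meet the centre of a normal subgroup
  have hcent : ∀ N : Subgroup G, N.Normal → ∀ v ∈ V, v ∈ N → (∀ n ∈ N, v * n = n * v) → v = 1 := by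
    intro N hN v hv hvN hc
    have hs : (Subgroup.zpowers v).IsSubnormal :=
      Subgroup.IsSubnormal.step _ N (Subgroup.zpowers_le.2 hvN) hN.isSubnormal ⟨fun x hx n => by
        rw [Subgroup.mem_subgroupOf] at hx ⊢
        obtain ⟨j, hj⟩ := Subgroup.mem_zpowers_iff.1 hx
        have hcn : Commute v (n : G) := hc n n.2
        simp only [Subgroup.coe_mul, Subgroup.coe_inv]
        rw [← hj, ← (hcn.zpow_left j).eq, mul_inv_cancel_right]
        exact zpow_mem (Subgroup.mem_zpowers v) j⟩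
    refine Subgroup.zpowers_eq_bot.1 (hsub2 _ hs ?_)
    rintro ⟨x, hx⟩
    obtain ⟨j, rfl⟩ := Subgroup.mem_zpowers_iff.1 hx
    exact ⟨1, Subtype.ext (by
      show (v ^ j) ^ (2 ^ 1) = 1
      rw [← zpow_natCast, ← zpow_mul, mul_comm, zpow_mul, zpow_natCast, pow_one, hV.2 v hv, one_zpow])⟩
  -- induction: a nontrivial element of `W` centralizes `K`
  have hcore : ∀ K H W : Subgroup G, K.IsSubnormal → K ≤ H → H ≤ Subgroup.normalizer (K : Set G) →
      H ≠ ⊤ → W ≤ V → W ≤ H → W ≠ ⊥ → Cfsg.IsSidkiPair (W.subgroupOf H) →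
      ∃ w ∈ W, w ≠ 1 ∧ ∀ k ∈ K, w * k = k * w := by
    intro K H W hK hKH hHn hH hWV hWH hW1 hWS
    have hel : Cfsg.IsElementaryAbelian 2 (W.subgroupOf H) := by
      refine ⟨⟨⟨?_⟩⟩, ?_⟩
      · rintro ⟨a, ha⟩ ⟨b, hb⟩
        exact Subtype.ext (Subtype.ext (hcomm _ (hWV ha) _ (hWV hb)))
      · intro a ha
        exact Subtype.ext (hV.2 _ (hWV ha))
    have hne : W.subgroupOf H ≠ ⊥ := by
      rw [Ne, Subgroup.subgroupOf_eq_bot]
      exact fun h => hW1 (le_bot_iff.1 (by simpa [disjoint_iff, inf_eq_left.2 hWH] using h))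
    have hlt : Nat.card H < Nat.card G := by
      refine lt_of_le_of_ne (Subgroup.card_le_card_group H) fun h => hH ?_
      exact Subgroup.eq_top_of_card_eq H h
    have h := hminG H (W.subgroupOf H) hlt hel hne hWS
    haveI := (Subgroup.nontrivial_iff_ne_bot _).2 h
    obtain ⟨⟨w, hw⟩, hw1⟩ := exists_ne (1 : ↥(W.subgroupOf H ⊓ Cfsg.pCore 2 H))
    obtain ⟨hwW, hwP⟩ := Subgroup.mem_inf.1 hw
    refine ⟨w, hwW, fun e => hw1 (Subtype.ext (Subtype.ext e)), fun k hk => ?_⟩
    set P := (Cfsg.pCore 2 H).map H.subtype with hP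
    have hwP' : (w : G) ∈ P := ⟨w, hwP, rfl⟩
    have hPn : ∀ g ∈ H, ∀ x ∈ P, g * x * g⁻¹ ∈ P := by
      rintro g hg _ ⟨x, hx, rfl⟩
      exact ⟨⟨g, hg⟩ * x * ⟨g, hg⟩⁻¹, (inferInstance : (Cfsg.pCore 2 H).Normal).conj_mem x hx _, rfl⟩
    have hs : (P ⊓ K).IsSubnormal := Subgroup.IsSubnormal.step _ K inf_le_right hK ⟨fun x hx g => by
      rw [Subgroup.mem_subgroupOf] at hx ⊢
      exact ⟨hPn g (hKH g.2) x hx.1, K.mul_mem (K.mul_mem g.2 hx.2) (K.inv_mem g.2)⟩⟩
    have hPK : P ⊓ K = ⊥ := hsub2 _ hs (((isPGroup_pCore 2 H).map H.subtype).to_le inf_le_left)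
    have hmem : (w : G) * k * (w : G)⁻¹ * k⁻¹ ∈ P ⊓ K := by
      refine Subgroup.mem_inf.2 ⟨?_, mul_mem ((Subgroup.mem_normalizer_iff.1 (hHn w.2) k).1 hk) (inv_mem hk)⟩
      rw [show (w : G) * k * (w : G)⁻¹ * k⁻¹ = (w : G) * (k * (w : G)⁻¹ * k⁻¹) by group]
      exact mul_mem hwP' (hPn k (hKH hk) _ (inv_mem hwP'))
    rw [hPK, Subgroup.mem_bot, mul_inv_eq_one, mul_inv_eq_iff_eq_mul] at hmem
    exact hmem
  have hsidkiV : ∀ H : Subgroup G, V ≤ H → Cfsg.IsSidkiPair (V.subgroupOf H) := by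
    intro H hVH h v hv hodd hinv
    obtain ⟨w, hw, hw1, hwh⟩ := hS h v hv (by rwa [Subgroup.orderOf_coe]) (congrArg Subtype.val hinv)
    exact ⟨⟨w, hVH hw⟩, hw, fun e => hw1 (congrArg Subtype.val e), Subtype.ext hwh⟩
  -- a normal subgroup is supplemented or centralized by `V`
  have hdich : ∀ K : Subgroup G, K.Normal → K ⊔ V ≠ ⊤ → V ≤ Subgroup.centralizer (K : Set G) := by
    intro K hK hKV
    by_contra hnot
    haveI := hK
    set X := V ⊓ Subgroup.centralizer (K : Set G) with hX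
    have hn : ∀ L : Subgroup G, L ≤ Subgroup.normalizer (K : Set G) := fun L => by
      rw [Subgroup.normalizer_eq_top_iff.2 hK]; exact le_top
    have hX1 : X ≠ ⊥ := by
      obtain ⟨w, hw, hw1, hwc⟩ := hcore K (K ⊔ V) V hK.isSubnormal le_sup_left (hn _) hKV le_rfl
        le_sup_right hV1 (hsidkiV _ le_sup_right)
      intro h
      exact hw1 (Subgroup.mem_bot.1 (h ▸ Subgroup.mem_inf.2
        ⟨hw, Subgroup.mem_centralizer_iff.2 fun k hk => (hwc k hk).symm⟩))
    have hXel : Cfsg.IsElementaryAbelian 2 X := by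
      refine ⟨⟨⟨fun a b => Subtype.ext (hcomm _ a.2.1 _ b.2.1)⟩⟩, fun a ha => hV.2 a ha.1⟩
    have hXS : Cfsg.IsSidkiPair X := by
      intro h w hw hodd hinv
      have hhK : h ∈ Subgroup.centralizer (K : Set G) := by
        obtain ⟨j, hj⟩ := hodd
        have hcn : (Subgroup.centralizer (K : Set G)).Normal := inferInstance
        have h1 : h * h ∈ Subgroup.centralizer (K : Set G) := by
          have e : h * h = h * w * h⁻¹ * w⁻¹ := by
            calc h * h = h * (h⁻¹)⁻¹ := by rw [inv_inv]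
              _ = h * (w * h * w⁻¹)⁻¹ := by rw [hinv]
              _ = _ := by group
          rw [e]
          exact mul_mem (hcn.conj_mem w hw.2 h) (inv_mem hw.2)
        have e : h = (h * h) ^ (j + 1) := by
          rw [← pow_two, ← pow_mul, show 2 * (j + 1) = 2 * j + 1 + 1 by ring, ← hj, pow_succ,
            pow_orderOf_eq_one, one_mul]
        rw [e]
        exact pow_mem h1 _
      set C := Subgroup.centralizer ({w} : Set G) ⊓ Subgroup.centralizer ({h} : Set G) with hC
      obtain ⟨hU1, hUS⟩ := Cfsg.Agent.S3013.result V hV hV1 hS w h hw.1 hodd hinv C hC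
      have hKC : K ≤ C := fun k hk => Subgroup.mem_inf.2
        ⟨Subgroup.mem_centralizer_singleton_iff.2 (Subgroup.mem_centralizer_iff.1 hw.2 k hk),
          Subgroup.mem_centralizer_singleton_iff.2 (Subgroup.mem_centralizer_iff.1 hhK k hk)⟩
      have hHC : K ⊔ (C ⊓ V) ≤ C := sup_le hKC inf_le_left
      have hne : K ⊔ (C ⊓ V) ≠ ⊤ := fun e =>
        hKV (eq_top_iff.2 (e ▸ sup_le_sup_left inf_le_right K))
      obtain ⟨u, hu, hu1, huc⟩ := hcore K (K ⊔ (C ⊓ V)) (C ⊓ V) hK.isSubnormal le_sup_left (hn _) hne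
        inf_le_right le_sup_right hU1 (by
          intro y x hx hyodd hyx
          obtain ⟨u, hu, hu1, huy⟩ := hUS ⟨y, hHC y.2⟩ ⟨x, hHC x.2⟩ hx
            (by rw [Subgroup.orderOf_mk]; rwa [Subgroup.orderOf_coe])
            (Subtype.ext (by simpa using congrArg Subtype.val hyx))
          exact ⟨⟨u, Subgroup.mem_sup_right hu⟩, hu, fun e => hu1 (Subtype.ext (congrArg Subtype.val e :)),
            Subtype.ext (congrArg Subtype.val huy :)⟩)
      exact ⟨u, Subgroup.mem_inf.2 ⟨hu.2, Subgroup.mem_centralizer_iff.2 fun k hk => (huc k hk).symm⟩,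
        hu1, Subgroup.mem_centralizer_singleton_iff.1 hu.1.2⟩
    refine hminV X (lt_of_le_of_ne (Subgroup.card_le_of_le inf_le_left) fun e => hnot ?_) hXel hX1 hXS
      (le_bot_iff.1 ((inf_le_inf_right _ inf_le_left).trans hVO.le))
    rw [← inf_eq_left]
    exact Subgroup.eq_of_le_of_card_ge inf_le_left e.ge
  -- consequently every minimal normal subgroup is supplemented by `V`, and nonabelian
  have hsupp : ∀ N : Subgroup G, N.Normal → (∃ a ∈ N, ∃ b ∈ N, a * b ≠ b * a) → N ⊔ V = ⊤ := by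
    intro N hN ⟨a, ha, b, hb, hab⟩
    by_contra hne
    haveI := hN
    have hVR := hdich N hN hne
    have hR : Subgroup.centralizer (N : Set G) ⊔ V ≠ ⊤ := by
      rw [sup_eq_left.2 hVR]
      intro h
      exact hab (Subgroup.mem_centralizer_iff.1 (h ▸ Subgroup.mem_top a : a ∈ Subgroup.centralizer (N : Set G)) b hb).symm
    have hVc := hdich _ inferInstance hR
    refine hV1 ((Subgroup.eq_bot_iff_forall _).2 fun v hv => hcent _ inferInstance v hv (hVR hv)
      fun n hn => ((Subgroup.mem_centralizer_iff.1 (hVc hv) n hn)).symm)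
  have hnab : ∀ N : Subgroup G, N.Normal → N ≠ ⊥ →
      (∀ M : Subgroup G, M.Normal → M ≤ N → M = ⊥ ∨ M = N) → ∃ a ∈ N, ∃ b ∈ N, a * b ≠ b * a := by
    intro N hN hN1 hmin
    by_contra hab
    push Not at hab
    haveI := hN
    have hodd : Odd (Nat.card N) := by
      rw [← Nat.not_even_iff_odd, even_iff_two_dvd]
      intro h
      haveI : Fact (Nat.Prime 2) := ⟨Nat.prime_two⟩
      obtain ⟨x, hx⟩ := exists_prime_orderOf_dvd_card' (G := N) 2 h
      have hs : (Subgroup.zpowers (x : G)).IsSubnormal :=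
        Subgroup.IsSubnormal.step _ N (Subgroup.zpowers_le.2 x.2) hN.isSubnormal ⟨fun y hy g => by
          rw [Subgroup.mem_subgroupOf] at hy ⊢
          simp only [Subgroup.coe_mul, Subgroup.coe_inv]
          rw [hab _ g.2 _ y.2, mul_inv_cancel_right]
          exact hy⟩
      have hx1 : (x : G) = 1 := Subgroup.zpowers_eq_bot.1 (hsub2 _ hs (IsPGroup.of_card (n := 1) (by
        rw [Nat.card_zpowers, Subgroup.orderOf_coe, hx, pow_one])))
      rw [show x = 1 from Subtype.ext hx1, orderOf_one] at hx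
      omega
    have hodd' : ∀ n ∈ N, Odd (orderOf n) := fun n hn =>
      Odd.of_dvd_nat hodd (Subgroup.orderOf_dvd_natCard N hn)
    by_cases hNV : N ⊔ V = ⊤
    · -- every nontrivial element of `V` inverts `N`
      have hfix : ∀ v ∈ V, v ≠ 1 → N ⊓ Subgroup.centralizer ({v} : Set G) = ⊥ := by
        intro v hv hv1
        have hnrm : (N ⊓ Subgroup.centralizer ({v} : Set G)).Normal := by
          rw [← Subgroup.normalizer_eq_top_iff, eq_top_iff, ← hNV]
          refine sup_le (fun n hn => ?_) (fun u hu => ?_)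
          · rw [Subgroup.mem_normalizer_iff]
            intro x
            constructor
            · intro hx
              rwa [hab n hn x hx.1, mul_inv_cancel_right]
            · intro hx
              have hxN : x ∈ N := by
                have := hN.conj_mem _ hx.1 n⁻¹
                simpa [mul_assoc] using this
              rwa [hab n hn x hxN, mul_inv_cancel_right] at hx
          · rw [Subgroup.mem_normalizer_iff]
            intro x
            simp only [Subgroup.mem_inf, Subgroup.mem_centralizer_singleton_iff]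
            have hc : Commute u v := hcomm u hu v hv
            constructor
            · exact fun hx => ⟨hN.conj_mem x hx.1 u,
                ((hc.mul_left hx.2).mul_left hc.inv_left).eq⟩
            · intro hx
              refine ⟨?_, ?_⟩
              · have := hN.conj_mem _ hx.1 u⁻¹
                simpa [mul_assoc] using this
              · have := ((hc.inv_left.mul_left hx.2).mul_left hc).eq
                simpa [mul_assoc] using this
        refine (hmin _ hnrm inf_le_left).resolve_right fun e => hv1 ?_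
        have hNc : N ≤ Subgroup.centralizer ({v} : Set G) := inf_eq_left.1 e
        have hall : ⊤ ≤ Subgroup.centralizer ({v} : Set G) := by
          rw [← hNV]
          exact sup_le hNc fun u hu => Subgroup.mem_centralizer_singleton_iff.2 (hcomm u hu v hv)
        exact hcent ⊤ inferInstance v hv (Subgroup.mem_top v) fun g _ =>
          (Subgroup.mem_centralizer_singleton_iff.1 (hall (Subgroup.mem_top g))).symm
      obtain ⟨v, hv, hv1⟩ : ∃ v ∈ V, v ≠ 1 := by
        by_contra h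
        push Not at h
        exact hV1 ((Subgroup.eq_bot_iff_forall _).2 h)
      obtain ⟨n, hn, hn1⟩ : ∃ n ∈ N, n ≠ 1 := by
        by_contra h
        push Not at h
        exact hN1 ((Subgroup.eq_bot_iff_forall _).2 h)
      have hinv : v * n * v⁻¹ = n⁻¹ := by
        have hvi : v⁻¹ = v := inv_eq_of_mul_eq_one_right (h2 v hv)
        have hm : n * (v * n * v⁻¹) ∈ N ⊓ Subgroup.centralizer ({v} : Set G) := by
          refine Subgroup.mem_inf.2 ⟨mul_mem hn (hN.conj_mem n hn v),
            Subgroup.mem_centralizer_singleton_iff.2 ?_⟩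
          calc n * (v * n * v⁻¹) * v = v * n * v⁻¹ * n * v := by rw [hab _ hn _ (hN.conj_mem n hn v)]
            _ = v * (n * (v * n * v⁻¹)) := by rw [hvi]; group
        rw [hfix v hv hv1, Subgroup.mem_bot] at hm
        exact (inv_eq_of_mul_eq_one_right hm).symm
      obtain ⟨u, hu, hu1, hun⟩ := hS n v hv (hodd' n hn) hinv
      exact hn1 (Subgroup.mem_bot.1 (hfix u hu hu1 ▸ Subgroup.mem_inf.2
        ⟨hn, Subgroup.mem_centralizer_singleton_iff.2 hun.symm⟩))
    · have hVR := hdich N hN hNV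
      by_cases hR : Subgroup.centralizer (N : Set G) ⊔ V = ⊤
      · -- `N` is central: pass to the quotient
        rw [sup_eq_left.2 hVR] at hR
        have hVN : V ⊓ N = ⊥ := (Subgroup.eq_bot_iff_forall _).2 fun v hv =>
          hcent N hN v hv.1 hv.2 fun n hn => ((Subgroup.mem_centralizer_iff.1 (hVR hv.1) n hn)).symm
        have hlt : Nat.card (G ⧸ N) < Nat.card G := by
          rw [Subgroup.card_eq_card_quotient_mul_card_subgroup N]
          exact lt_mul_of_one_lt_right Nat.card_pos (Subgroup.one_lt_card_iff_ne_bot _ |>.2 hN1)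
        have hVb : Cfsg.IsElementaryAbelian 2 (V.map (QuotientGroup.mk' N)) := by
          refine ⟨⟨⟨?_⟩⟩, ?_⟩
          · rintro ⟨_, a, ha, rfl⟩ ⟨_, b, hb, rfl⟩
            exact Subtype.ext (by
              show QuotientGroup.mk' _ a * QuotientGroup.mk' _ b = QuotientGroup.mk' _ b * QuotientGroup.mk' _ a
              rw [← map_mul, ← map_mul, hcomm a ha b hb])
          · rintro _ ⟨a, ha, rfl⟩
            rw [← map_pow, hV.2 a ha, map_one]
        have hVb1 : V.map (QuotientGroup.mk' N) ≠ ⊥ := fun h => hV1 (by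
          rw [Subgroup.map_eq_bot_iff, QuotientGroup.ker_mk'] at h
          rw [← inf_eq_left.2 h]; exact hVN)
        refine hminG _ _ hlt hVb hVb1 (Cfsg.Agent.S3012.result V N hV hV1 hS hVN)
          ((Subgroup.eq_bot_iff_forall _).2 ?_)
        rintro x ⟨⟨v, hv, rfl⟩, hvP⟩
        -- the preimage of `O₂(G/N)` is nilpotent
        set M := (Cfsg.pCore 2 (G ⧸ N)).comap (QuotientGroup.mk' N) with hM
        haveI : M.Normal := Subgroup.Normal.comap inferInstance _
        let g : M →* Cfsg.pCore 2 (G ⧸ N) :=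
          ((QuotientGroup.mk' N).comp M.subtype).codRestrict _ fun x => x.2
        haveI : Fact (Nat.Prime 2) := ⟨Nat.prime_two⟩
        haveI : Group.IsNilpotent (Cfsg.pCore 2 (G ⧸ N)) :=
          (isPGroup_pCore 2 (G ⧸ N)).isNilpotent
        have hMn : Group.IsNilpotent M := Subgroup.isNilpotent_of_ker_le_center g (fun x hx => by
          rw [Subgroup.mem_center_iff]
          intro y
          have hxN : (x : G) ∈ N := (QuotientGroup.eq_one_iff _).1 (congrArg Subtype.val hx)
          exact Subtype.ext (Subgroup.mem_centralizer_iff.1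
            (hR ▸ Subgroup.mem_top (y : G) : (y : G) ∈ Subgroup.centralizer (N : Set G)) x hxN).symm)
        obtain ⟨P⟩ := (inferInstance : Nonempty (Sylow 2 M))
        have hall : ∀ (p : ℕ) (_ : Fact p.Prime) (Q : Sylow p M), (Q : Subgroup M).Normal :=
          ((Group.isNilpotent_of_finite_tfae (G := M)).out 0 3).1 hMn
        have hPn : (P : Subgroup M).Normal := hall 2 inferInstance P
        have hPs : ((P : Subgroup M).map M.subtype) = ⊥ := by
          rw [← pCore_eq_sylow_of_normal P]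
          exact le_bot_iff.1 (hO2 ▸ map_subtype_pCore_le (Subgroup.Normal.isSubnormal inferInstance))
        have hvZ : IsPGroup 2 (Subgroup.zpowers (⟨v, hvP⟩ : M)) := by
          obtain ⟨i, -, hi⟩ := (Nat.dvd_prime_pow Nat.prime_two).1
            (orderOf_dvd_of_pow_eq_one (x := (⟨v, hvP⟩ : M)) (n := 2 ^ 1) (Subtype.ext (by
              show v ^ 2 ^ 1 = 1
              rw [pow_one, hV.2 v hv])))
          exact IsPGroup.of_card (n := i) (by rw [Nat.card_zpowers, hi])
        have hle : Subgroup.zpowers (⟨v, hvP⟩ : M) ≤ (P : Subgroup M) := by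
          haveI := hPn
          exact le_sup_left.trans (P.3 (hvZ.to_sup_of_normal_right P.2) le_sup_right).le
        have : v = 1 := Subgroup.mem_bot.1
          (hPs ▸ ⟨_, hle (Subgroup.mem_zpowers _), rfl⟩)
        rw [this, map_one]
      · have hVc := hdich _ inferInstance hR
        exact hV1 ((Subgroup.eq_bot_iff_forall _).2 fun v hv => hcent _ inferInstance v hv (hVR hv)
          fun n hn => ((Subgroup.mem_centralizer_iff.1 (hVc hv) n hn)).symm)
  -- the Fitting subgroup is trivial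
  have hF : Cfsg.fittingSubgroup G = ⊥ := by
    by_contra hne
    obtain ⟨N, hNF, hN, hN1, hmin⟩ :=
      CfsgLib.SolvableStructure.exists_minimal_normal (fittingSubgroup_normal G) hne
    obtain ⟨a, ha, b, hb, hab⟩ := hnab N hN hN1 hmin
    haveI := hN
    haveI := isNilpotent_fittingSubgroup (G := G)
    haveI : Group.IsNilpotent N :=
      Subgroup.isNilpotent_of_ker_le_center (Subgroup.inclusion hNF)
        (by rw [Subgroup.ker_inclusion]; exact bot_le)
    haveI : Nontrivial N := (Subgroup.nontrivial_iff_ne_bot _).2 hN1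
    have hz : (Subgroup.center N).map N.subtype = N := by
      refine (hmin _ inferInstance (Subgroup.map_subtype_le _)).resolve_left ?_
      rw [Subgroup.map_eq_bot_iff_of_injective _ N.subtype_injective]
      exact Group.IsNilpotent.center_ne_bot _
    obtain ⟨⟨a', ha'⟩, hac, rfl⟩ : a ∈ (Subgroup.center N).map N.subtype := hz.symm ▸ ha
    exact hab (congrArg Subtype.val (Subgroup.mem_center_iff.1 hac ⟨b, hb⟩)).symm
  obtain ⟨v₀, hv₀, hv₀1⟩ : ∃ v ∈ V, v ≠ 1 := by
    by_contra h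
    push Not at h
    exact hV1 ((Subgroup.eq_bot_iff_forall _).2 h)
  haveI : Nontrivial G := ⟨⟨v₀, 1, hv₀1⟩⟩
  set L := Cfsg.generalizedFittingSubgroup G with hL
  haveI : L.Characteristic := generalizedFittingSubgroup_characteristic G
  have hL1 : L ≠ ⊥ := generalizedFittingSubgroup_ne_bot
  have hLlayer : L = Cfsg.layer G := by
    rw [hL, Cfsg.generalizedFittingSubgroup, hF, sup_bot_eq]
  obtain ⟨N, hNL, hN, hN1, hmin⟩ :=
    CfsgLib.SolvableStructure.exists_minimal_normal (inferInstance : L.Normal) hL1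
  have hNna := hnab N hN hN1 hmin
  have hNV : N ⊔ V = ⊤ := hsupp N hN hNna
  haveI := hN
  have hNL' : N = L := by
    refine le_antisymm hNL ?_
    rw [hLlayer, ← commutator_layer_self G]
    refine (Subgroup.commutator_mono le_top le_top).trans ?_
    rw [Subgroup.commutator_le]
    intro g _ k _
    have hg : g ∈ (V ⊔ N : Subgroup G) := by rw [sup_comm, hNV]; exact Subgroup.mem_top g
    have hk : k ∈ (V ⊔ N : Subgroup G) := by rw [sup_comm, hNV]; exact Subgroup.mem_top k
    rw [← SetLike.mem_coe, Subgroup.mul_normal] at hg hk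
    obtain ⟨v, hv, n, hn, rfl⟩ := hg
    obtain ⟨w, hw, m, hm, rfl⟩ := hk
    rw [← QuotientGroup.eq_one_iff, commutatorElement_def]
    simp only [QuotientGroup.mk_mul, QuotientGroup.mk_inv, (QuotientGroup.eq_one_iff n).2 hn,
      (QuotientGroup.eq_one_iff m).2 hm, mul_one]
    rw [← QuotientGroup.mk_mul, hcomm v hv w hw, QuotientGroup.mk_mul]
    group
  rw [← hNL']
  obtain ⟨a₀, ha₀, b₀, hb₀, hab₀⟩ := hNna
  refine ⟨?_, fun h => hab₀ (congrArg Subtype.val (h.is_comm.comm ⟨a₀, ha₀⟩ ⟨b₀, hb₀⟩)),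
    by rw [sup_comm]; exact hNV⟩
  have hLc : ∀ v ∈ V, (∀ x ∈ N, v * x = x * v) → v = 1 := fun v hv hc =>
    hcent N hN v hv (hNL'.symm ▸ centralizer_generalizedFittingSubgroup_le
      (Subgroup.mem_centralizer_iff.2 fun x hx => (hc x (hNL'.symm ▸ hx)).symm)) hc
  haveI : Nontrivial N := (Subgroup.nontrivial_iff_ne_bot _).2 hN1
  refine { eq_bot_or_eq_top_of_normal := fun T₁ hT₁ => ?_ }
  by_contra hT₁'
  push Not at hT₁'
  obtain ⟨T₀, hT₀le, hT₀n, hT₀1, hT₀min⟩ := CfsgLib.SolvableStructure.exists_minimal_normal hT₁ hT₁'.1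
  set T := T₀.map N.subtype with hT
  have hTN : T ≤ N := Subgroup.map_subtype_le _
  have hTne : T ≠ N := fun e => hT₁'.2 (eq_top_iff.2 (le_trans (fun x _ => by
    obtain ⟨y, hy, hyx⟩ : (x : G) ∈ T := e.symm ▸ x.2
    exact (Subtype.ext hyx : y = x) ▸ hy) hT₀le))
  have hT1 : T ≠ ⊥ := by
    rw [hT, Ne, Subgroup.map_eq_bot_iff_of_injective _ N.subtype_injective]; exact hT₀1
  have hTn : ∀ n ∈ N, ∀ x ∈ T, n * x * n⁻¹ ∈ T := by
    rintro n hn _ ⟨x, hx, rfl⟩
    exact ⟨⟨n, hn⟩ * x * ⟨n, hn⟩⁻¹, hT₀n.conj_mem x hx _, rfl⟩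
  have hTmin : ∀ U : Subgroup G, U ≤ T → (∀ n ∈ N, ∀ x ∈ U, n * x * n⁻¹ ∈ U) → U = ⊥ ∨ U = T := by
    intro U hU hUn
    have hU' : (U.subgroupOf N).Normal := ⟨fun x hx n => hUn n n.2 x hx⟩
    rcases hT₀min _ hU' (fun x hx => by
      obtain ⟨y, hy, hyx⟩ := hU hx
      exact (Subtype.ext hyx : y = x) ▸ hy) with e | e
    · left
      rw [← inf_eq_left.2 (hU.trans hTN), ← disjoint_iff, ← Subgroup.subgroupOf_eq_bot]
      exact e
    · right
      rw [hT, ← e, Subgroup.subgroupOf_map_subtype, inf_eq_left.2 (hU.trans hTN)]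
  have hTsub : T.IsSubnormal :=
    Subgroup.IsSubnormal.step _ N hTN hN.isSubnormal ⟨fun x hx n => hTn n n.2 x hx⟩
  have hTna : ∃ a ∈ T, ∃ b ∈ T, a * b ≠ b * a := by
    by_contra hab
    push Not at hab
    refine hT1 (le_bot_iff.1 (hF ▸ le_fittingSubgroup_of_subnormal hTsub ?_))
    exact Subgroup.isNilpotent_of_ker_le_center (1 : T →* Unit) fun x _ =>
      Subgroup.mem_center_iff.2 fun y => Subtype.ext (hab y y.2 x x.2)
  obtain ⟨t, ht, ht1, htodd⟩ := exists_odd_of_not_isPGroup T fun h => hT1 (hsub2 _ hTsub h)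
  have hgen : ∀ g : G, ∃ v ∈ V, ∃ n ∈ N, g = v * n := fun g => by
    have hg : g ∈ (V ⊔ N : Subgroup G) := by rw [sup_comm, hNV]; exact Subgroup.mem_top g
    rw [← SetLike.mem_coe, Subgroup.mul_normal] at hg
    obtain ⟨v, hv, n, hn, e⟩ := hg
    exact ⟨v, hv, n, hn, e.symm⟩
  have hconjT : ∀ v ∈ V, ∀ n ∈ N, ∀ x, (∃ s ∈ T, x = v * s * v⁻¹) →
      ∃ s ∈ T, n * x * n⁻¹ = v * s * v⁻¹ := by
    rintro v hv n hn x ⟨s, hs, rfl⟩
    refine ⟨(v⁻¹ * n * v) * s * (v⁻¹ * n * v)⁻¹, hTn _ ?_ s hs, by group⟩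
    have := hN.conj_mem n hn v⁻¹
    rwa [inv_inv] at this
  set V0 := V ⊓ Subgroup.normalizer (T : Set G) with hV0
  by_cases hV01 : V0 = ⊥
  · -- `V` permutes the factors regularly
    have hvT : v₀ ∉ Subgroup.normalizer (T : Set G) := fun h =>
      hv₀1 ((Subgroup.eq_bot_iff_forall _).1 hV01 _ (Subgroup.mem_inf.2 ⟨hv₀, h⟩))
    have hdisj : ∀ v ∈ V, v ∉ Subgroup.normalizer (T : Set G) →
        ∀ x ∈ T, ∀ y ∈ T, x = v * y * v⁻¹ → x = 1 := by
      intro v hv hvn x hx y hy e
      set U := T ⊓ T.map (MulAut.conj v).toMonoidHom with hU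
      have hUm : ∀ z, z ∈ U ↔ z ∈ T ∧ ∃ s ∈ T, z = v * s * v⁻¹ := fun z => by
        simp [hU, Subgroup.mem_map, eq_comm]
      rcases hTmin U inf_le_left (fun n hn z hz => by
        obtain ⟨h1, h2⟩ := (hUm z).1 hz
        exact (hUm _).2 ⟨hTn n hn z h1, hconjT v hv n hn z h2⟩) with hb | hb
      · exact Subgroup.mem_bot.1 (hb ▸ (hUm x).2 ⟨hx, y, hy, e⟩)
      · exfalso
        apply hvn
        have hle : ∀ z ∈ T, v * z * v⁻¹ ∈ T := by
          intro z hz
          obtain ⟨s, hs, he⟩ := ((hUm z).1 (hb.symm ▸ hz)).2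
          have hvi : v⁻¹ = v := inv_eq_of_mul_eq_one_right (h2 v hv)
          have e' : v * z * v⁻¹ = s := by
            rw [he, hvi, show v * (v * s * v) * v = (v * v) * s * (v * v) by group, h2 v hv, one_mul,
              mul_one]
          rw [e']; exact hs
        rw [Subgroup.mem_normalizer_iff]
        refine fun z => ⟨hle z, fun hz => ?_⟩
        have := hle _ hz
        have hvi : v⁻¹ = v := inv_eq_of_mul_eq_one_right (h2 v hv)
        rwa [hvi, show v * (v * z * v) * v = (v * v) * z * (v * v) by group, h2 v hv, one_mul,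
          mul_one] at this
    have hcom : ∀ v ∈ V, v ∉ Subgroup.normalizer (T : Set G) →
        ∀ x ∈ T, ∀ y ∈ T, x * (v * y * v⁻¹) = (v * y * v⁻¹) * x := by
      intro v hv hvn x hx y hy
      have hyN : v * y * v⁻¹ ∈ N := hN.conj_mem y (hTN hy) v
      have h1 : x * (v * y * v⁻¹) * x⁻¹ * (v * y * v⁻¹)⁻¹ ∈ T := by
        rw [show x * (v * y * v⁻¹) * x⁻¹ * (v * y * v⁻¹)⁻¹
          = x * ((v * y * v⁻¹) * x⁻¹ * (v * y * v⁻¹)⁻¹) by group]
        exact mul_mem hx (hTn _ hyN _ (inv_mem hx))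
      obtain ⟨s, hs, hs'⟩ := hconjT v hv x (hTN hx) _ ⟨y, hy, rfl⟩
      have e : x * (v * y * v⁻¹) * x⁻¹ * (v * y * v⁻¹)⁻¹ = v * (s * y⁻¹) * v⁻¹ := by rw [hs']; group
      exact mul_inv_eq_iff_eq_mul.1 (mul_inv_eq_one.1
        (hdisj v hv hvn _ h1 _ (mul_mem hs (inv_mem hy)) e))
    set h := t * (v₀ * t⁻¹ * v₀⁻¹) with hh
    have hct : Commute t (v₀ * t⁻¹ * v₀⁻¹) := hcom v₀ hv₀ hvT t ht _ (inv_mem ht)
    have hvi : v₀⁻¹ = v₀ := inv_eq_of_mul_eq_one_right (h2 v₀ hv₀)
    have hodd : Odd (orderOf h) :=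
      Odd.of_dvd_nat (htodd.mul (by rw [← MulAut.conj_apply v₀ t⁻¹, MulEquiv.orderOf_eq, orderOf_inv]; exact htodd))
        hct.orderOf_mul_dvd_mul_orderOf
    have hinv : v₀ * h * v₀⁻¹ = h⁻¹ := by
      have hsq := h2 v₀ hv₀
      rw [hh, mul_inv_rev, hvi]
      calc v₀ * (t * (v₀ * t⁻¹ * v₀)) * v₀ = v₀ * t * v₀ * t⁻¹ * (v₀ * v₀) := by group
        _ = _ := by rw [hsq, mul_one, mul_inv_rev, mul_inv_rev, inv_inv, hvi]; group
    obtain ⟨u, hu, hu1, huh⟩ := hS h v₀ hv₀ hodd hinv
    have huT : u ∉ Subgroup.normalizer (T : Set G) := fun h' =>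
      hu1 ((Subgroup.eq_bot_iff_forall _).1 hV01 _ (Subgroup.mem_inf.2 ⟨hu, h'⟩))
    by_cases hw : u * v₀ ∈ Subgroup.normalizer (T : Set G)
    · have he : u = v₀ := by
        have := (Subgroup.eq_bot_iff_forall _).1 hV01 _ (Subgroup.mem_inf.2 ⟨mul_mem hu hv₀, hw⟩)
        rw [eq_inv_of_mul_eq_one_left this, hvi]
      rw [he] at huh
      have hh1 : h = 1 := by
        have h3 : h = h⁻¹ := by
          rw [← hinv, huh, mul_inv_cancel_right]
        obtain ⟨j, hj⟩ := hodd
        have h4 : h * h = 1 := eq_inv_iff_mul_eq_one.1 h3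
        have h5 := pow_orderOf_eq_one h
        rwa [hj, pow_succ, pow_mul, pow_two, h4, one_pow, one_mul] at h5
      refine ht1 (hdisj _ hv₀ hvT t ht t ht ?_)
      exact (eq_inv_of_mul_eq_one_left (hh ▸ hh1 : t * (v₀ * t⁻¹ * v₀⁻¹) = 1)).trans (by group)
    · -- `T^u` centralizes `h`, so `T` centralizes `h`
      have hcz : ∀ s ∈ T, Commute (u * s * u⁻¹) h := by
        intro s hs
        refine Commute.mul_right ?_ ?_
        · exact (hcom u hu huT t ht s hs).symm
        · have hui : u⁻¹ = u := inv_eq_of_mul_eq_one_right (h2 u hu)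
          have e := hcom (u * v₀) (mul_mem hu hv₀) hw s hs t⁻¹ (inv_mem ht)
          have hc : (u * v₀) * t⁻¹ * (u * v₀)⁻¹ = u * (v₀ * t⁻¹ * v₀⁻¹) * u⁻¹ := by group
          rw [hc] at e
          have := (Commute.conj_iff u).2 (show Commute s _ from e)
          rwa [show u * (u * (v₀ * t⁻¹ * v₀⁻¹) * u⁻¹) * u⁻¹
            = (u * u) * (v₀ * t⁻¹ * v₀⁻¹) * (u * u)⁻¹ by group, h2 u hu, one_mul, inv_one, mul_one] at this
      have htc : ∀ s ∈ T, s * t = t * s := by
        intro s hs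
        have h1 := (Commute.conj_iff u⁻¹).2 (hcz s hs)
        have hc : Commute u h := huh
        rw [show u⁻¹ * (u * s * u⁻¹) * u⁻¹⁻¹ = s by group,
          show u⁻¹ * h * u⁻¹⁻¹ = h by rw [hc.inv_left.eq]; group] at h1
        have h2' : Commute s (v₀ * t⁻¹ * v₀⁻¹) := hcom v₀ hv₀ hvT s hs _ (inv_mem ht)
        have h3 := h1.mul_right h2'.inv_right
        rwa [hh, mul_inv_cancel_right] at h3
      obtain ⟨a, ha, b, hb, hab⟩ := hTna
      rcases hTmin (T ⊓ Subgroup.centralizer (T : Set G)) inf_le_left (fun n hn x hx => by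
        refine Subgroup.mem_inf.2 ⟨hTn n hn x hx.1, Subgroup.mem_centralizer_iff.2 fun s hs => ?_⟩
        have h1 := Subgroup.mem_centralizer_iff.1 hx.2 _ (hTn n⁻¹ (inv_mem hn) s hs)
        rw [inv_inv] at h1
        calc s * (n * x * n⁻¹) = n * ((n⁻¹ * s * n) * x) * n⁻¹ := by group
          _ = n * (x * (n⁻¹ * s * n)) * n⁻¹ := by rw [h1]
          _ = _ := by group) with e | e
      · exact ht1 (Subgroup.mem_bot.1 (e ▸ Subgroup.mem_inf.2
          ⟨ht, Subgroup.mem_centralizer_iff.2 fun s hs => htc s hs⟩))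
      · exact hab (Subgroup.mem_centralizer_iff.1 ((inf_eq_left.1 e) hb) a ha)
  · -- induction in `T V0`
    have hTV0 : T ⊔ V0 ≤ Subgroup.normalizer (T : Set G) := sup_le Subgroup.le_normalizer inf_le_right
    have hH : T ⊔ V0 ≠ ⊤ := fun e => by
      have hTG : T.Normal := Subgroup.normalizer_eq_top_iff.1 (eq_top_iff.2 (e ▸ hTV0))
      rcases hmin T hTG hTN with e' | e'
      · exact hT1 e'
      · exact hTne e'
    have hsid : Cfsg.IsSidkiPair (V0.subgroupOf (T ⊔ V0)) := by
      intro y x hx hyodd hyx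
      by_cases hy1 : (y : G) = 1
      · obtain ⟨w, hw, hw1⟩ : ∃ w ∈ V0, w ≠ 1 := by
          by_contra h
          push Not at h
          exact hV01 ((Subgroup.eq_bot_iff_forall _).2 h)
        exact ⟨⟨w, Subgroup.mem_sup_right hw⟩, hw, fun e => hw1 (congrArg Subtype.val e),
          Subtype.ext (by simp [hy1])⟩
      obtain ⟨u, hu, hu1, huy⟩ := hS y x hx.1 (by rwa [Subgroup.orderOf_coe]) (congrArg Subtype.val hyx)
      have hyT : (y : G) ∈ T := by
        have hy : (y : G) ∈ (V0 ⊔ T : Subgroup G) := by rw [sup_comm]; exact y.2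
        rw [← SetLike.mem_coe, Subgroup.coe_mul_of_left_le_normalizer_right _ _ inf_le_right] at hy
        obtain ⟨w, hw, s, hs, he⟩ := hy
        have he' : w * s = (y : G) := he
        have hy2 : (y : G) * y ∈ T := by
          have hsq := h2 w hw.1
          rw [← he', show w * s * (w * s) = (w * s * w⁻¹) * (w * w) * s by group, hsq, mul_one]
          exact mul_mem ((Subgroup.mem_normalizer_iff.1 hw.2 s).1 hs) hs
        obtain ⟨j, hj⟩ := hyodd
        rw [← Subgroup.orderOf_coe] at hj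
        have e : (y : G) = ((y : G) * y) ^ (j + 1) := by
          rw [← pow_two, ← pow_mul, show 2 * (j + 1) = 2 * j + 1 + 1 by ring, ← hj, pow_succ,
            pow_orderOf_eq_one, one_mul]
        rw [e]; exact pow_mem hy2 _
      have hufix : u * (y : G) * u⁻¹ = y := by rw [huy, mul_inv_cancel_right]
      have huN : u ∈ Subgroup.normalizer (T : Set G) := by
        set U := T ⊓ T.map (MulAut.conj u).toMonoidHom with hU
        have hUm : ∀ z, z ∈ U ↔ z ∈ T ∧ ∃ s ∈ T, z = u * s * u⁻¹ := fun z => by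
          simp [hU, Subgroup.mem_map, eq_comm]
        rcases hTmin U inf_le_left (fun n hn z hz => by
          obtain ⟨h1, h2⟩ := (hUm z).1 hz
          exact (hUm _).2 ⟨hTn n hn z h1, hconjT u hu n hn z h2⟩) with hb | hb
        · exact absurd (Subgroup.mem_bot.1 (hb ▸ (hUm _).2 ⟨hyT, _, hyT, hufix.symm⟩)) hy1
        · have hui : u⁻¹ = u := inv_eq_of_mul_eq_one_right (h2 u hu)
          have hle : ∀ z ∈ T, u * z * u⁻¹ ∈ T := by
            intro z hz
            obtain ⟨s, hs, he⟩ := ((hUm z).1 (hb.symm ▸ hz)).2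
            have e' : u * z * u⁻¹ = s := by
              rw [he, hui, show u * (u * s * u) * u = (u * u) * s * (u * u) by group, h2 u hu, one_mul,
                mul_one]
            rw [e']; exact hs
          rw [Subgroup.mem_normalizer_iff]
          refine fun z => ⟨hle z, fun hz => ?_⟩
          have := hle _ hz
          rwa [hui, show u * (u * z * u) * u = (u * u) * z * (u * u) by group, h2 u hu, one_mul,
            mul_one] at this
      exact ⟨⟨u, Subgroup.mem_sup_right ⟨hu, huN⟩⟩, ⟨hu, huN⟩, fun e => hu1 (congrArg Subtype.val e),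
        Subtype.ext huy⟩
    obtain ⟨w, hw, hw1, hwc⟩ := hcore T (T ⊔ V0) V0 hTsub le_sup_left hTV0 hH inf_le_left
      le_sup_right hV01 hsid
    refine hw1 (hLc w hw.1 fun x hx => ?_)
    have hnc : Subgroup.normalClosure (T : Set G) ≤ N ⊓ Subgroup.centralizer ({w} : Set G) := by
      rw [Subgroup.normalClosure, Subgroup.closure_le]
      intro y hy
      obtain ⟨s, hs, hconj⟩ := Group.mem_conjugatesOfSet_iff.1 hy
      obtain ⟨g, rfl⟩ := isConj_iff.1 hconj
      refine Subgroup.mem_inf.2 ⟨hN.conj_mem s (hTN hs) g, Subgroup.mem_centralizer_singleton_iff.2 ?_⟩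
      obtain ⟨v, hv, n, hn, rfl⟩ := hgen g
      have hcw : Commute (n * s * n⁻¹) w := (hwc _ (hTn n hn s hs)).symm
      have hvw : Commute v w := hcomm v hv w hw.1
      rw [show v * n * s * (v * n)⁻¹ = v * (n * s * n⁻¹) * v⁻¹ by group]
      exact ((hvw.mul_left hcw).mul_left hvw.inv_left).eq
    have heq : Subgroup.normalClosure (T : Set G) = N := by
      refine (hmin _ inferInstance (hnc.trans inf_le_left)).resolve_left fun e => hT1 ?_
      exact le_bot_iff.1 (e ▸ Subgroup.subset_normalClosure)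
    exact (Subgroup.mem_centralizer_singleton_iff.1 (hnc (heq.symm ▸ hx)).2).symm

end Cfsg.Agent.S3048
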