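import Cfsg.Statements.S3049
import Cfsg.Agent.Lib.TwoGroupTricks.Isolated
import Cfsg.Agent.Lib.PGroups.Aut
import Cfsg.Agent.Lib.NormalPComplement.Frobenius
import Cfsg.Agent.Lib.Cores.GenFitting
import Cfsg.Agent.Lib.LBalance.LBalance

set_option autoImplicit false
open Cfsg

namespace Cfsg.Agent.S3049

variable {G : Type*} [Group G] [Finite G] {p : ℕ} [hpf : Fact p.Prime]

theorem orderOf_conj (x g : G) : orderOf (g * x * g⁻¹) = orderOf x :=
  orderOf_injective (MulAut.conj g).toMonoidHom (MulAut.conj g).injective x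

theorem isPGroup_of_core {H : Type*} [Group H] [Finite H] (hO : Cfsg.pPrimeCore p H = ⊥)
    (h : Cfsg.HasNormalPComplement p H) : IsPGroup p H := by
  obtain ⟨P, N, hN, hc⟩ := h
  have hidx : N.index = Nat.card P := hc.symm.index_eq_card
  have hcard := hc.card_mul
  have hcop : (Nat.card N).Coprime p := by
    refine (hpf.out.coprime_iff_not_dvd.2 ?_).symm
    have h1 : Nat.card N = (P : Subgroup H).index := (hc.index_eq_card).symm
    rw [h1]
    exact P.not_dvd_index
  have hN1 : N ≤ Cfsg.pPrimeCore p H := CfsgLib.Cores.le_pPrimeCore hcop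
  rw [hO, le_bot_iff] at hN1
  rw [hN1, Subgroup.card_bot, one_mul] at hcard
  obtain ⟨k, hk⟩ := IsPGroup.iff_card.1 P.2
  exact IsPGroup.of_card (n := k) (hcard.symm.trans hk)

/-- No element of order `p` is fused: there is a normal complement. -/
theorem hasNormalPComplement_of_unfused (hp : p ≠ 2)
    (h : ∀ P : Sylow p G, ∀ u ∈ (P : Subgroup G), u ^ p = 1 → ∀ g : G,
      g * u * g⁻¹ ∈ (P : Subgroup G) → g * u * g⁻¹ = u) : Cfsg.HasNormalPComplement p G := by
  refine CfsgLib.NormalPComplement.hasNormalPComplement_of_frobeniusCondition fun Q hQ g hg hcop => ?_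
  obtain ⟨P, hP⟩ := hQ.exists_le_sylow
  set a := (Q.normalizerMonoidHom) ⟨g, hg⟩ with ha
  have ha1 : a = 1 := CfsgLib.PGroups.eq_one_of_fixed_omega hp hQ a
    (Nat.Coprime.coprime_dvd_left (orderOf_map_dvd _ _) (by rwa [Subgroup.orderOf_mk]))
    fun u hu => Subtype.ext (h P u (hP u.2) (congrArg Subtype.val hu) g (hP (a u).2))
  refine Subgroup.mem_centralizer_iff.2 fun u hu => ?_
  have h1 : g * u * g⁻¹ = u := congrArg (fun b : MulAut Q => ((b ⟨u, hu⟩ : Q) : G)) ha1
  calc u * g = (g * u * g⁻¹) * g := by rw [h1]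
    _ = g * u := by group

/-- In rank at most two, three commuting elements of order `p` are dependent. -/
theorem exists_eq_pow (hrank : Cfsg.PRankLE p 2 G) {x z u : G} (hx : x ^ p = 1) (hx1 : x ≠ 1)
    (hz : z ^ p = 1) (hzx : z ∉ Subgroup.zpowers x) (hu : u ^ p = 1)
    (hxz : Commute x z) (hxu : Commute x u) (hzu : Commute z u) :
    ∃ i j : ℕ, u = x ^ i * z ^ j := by
  set E := Subgroup.closure ({x, z, u} : Set G) with hE
  haveI hcE : IsMulCommutative E := Subgroup.isMulCommutative_closure (by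
    rintro a (rfl | rfl | rfl) b (rfl | rfl | rfl)
    all_goals first | rfl | exact hxz | exact hxz.symm | exact hxu | exact hxu.symm | exact hzu | exact hzu.symm)
  have hexpE : ∀ a ∈ E, a ^ p = 1 := by
    intro a ha
    induction ha using Subgroup.closure_induction with
    | mem a ha => rcases ha with rfl | rfl | rfl <;> assumption
    | one => exact one_pow p
    | mul a b ha hb iha ihb =>
      have hab : Commute a b := congrArg Subtype.val (hcE.is_comm.comm ⟨a, ha⟩ ⟨b, hb⟩)
      rw [hab.mul_pow, iha, ihb, one_mul]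
    | inv a _ iha => rw [inv_pow, iha, inv_one]
  have hle : Nat.card E ≤ p ^ 2 := hrank E hcE hexpE
  let f : Fin p × Fin p → E := fun ij =>
    ⟨x ^ (ij.1 : ℕ) * z ^ (ij.2 : ℕ), mul_mem (pow_mem (Subgroup.subset_closure (by simp)) _)
      (pow_mem (Subgroup.subset_closure (by simp)) _)⟩
  have hox : orderOf x = p := orderOf_eq_prime hx hx1
  have hoz : orderOf z = p := orderOf_eq_prime hz fun h => hzx (h ▸ one_mem _)
  have hinf : ∀ a b : ℤ, x ^ a = z ^ b → z ^ b = 1 := by
    intro a b h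
    by_contra hne
    have h1 : z ∈ Subgroup.zpowers (z ^ b) := by
      have hz' : Subgroup.zpowers (z ^ b) = Subgroup.zpowers z := by
        refine Subgroup.eq_of_le_of_card_ge (Subgroup.zpowers_le.2 (Subgroup.zpow_mem _ (Subgroup.mem_zpowers z) b)) ?_
        rw [Nat.card_zpowers, Nat.card_zpowers, hoz, orderOf_eq_prime (by
          rw [← zpow_natCast, ← zpow_mul, mul_comm, zpow_mul, zpow_natCast, hz, one_zpow]) hne]
      rw [hz']; exact Subgroup.mem_zpowers z
    rw [← h] at h1
    exact hzx (Subgroup.zpowers_le.2 (Subgroup.zpow_mem _ (Subgroup.mem_zpowers x) a) h1)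
  have hf : Function.Injective f := by
    rintro ⟨i, j⟩ ⟨i', j'⟩ h
    have h' : x ^ (i : ℕ) * z ^ (j : ℕ) = x ^ (i' : ℕ) * z ^ (j' : ℕ) := congrArg Subtype.val h
    have h1 : x ^ ((i : ℤ) - i') = z ^ ((j' : ℤ) - j) := by
      rw [zpow_sub, zpow_sub, zpow_natCast, zpow_natCast, zpow_natCast, zpow_natCast]
      calc x ^ (i : ℕ) * (x ^ (i' : ℕ))⁻¹ = (x ^ (i' : ℕ))⁻¹ * (x ^ (i : ℕ) * z ^ (j : ℕ)) * (z ^ (j : ℕ))⁻¹ := by
            rw [mul_assoc, mul_inv_cancel_right]
            exact ((Commute.pow_pow_self x _ _).inv_right).eq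
        _ = z ^ (j' : ℕ) * (z ^ (j : ℕ))⁻¹ := by rw [h', inv_mul_cancel_left]
    have h2 := hinf _ _ h1
    have h3 : x ^ ((i : ℤ) - i') = 1 := h1.trans h2
    rw [← orderOf_dvd_iff_zpow_eq_one] at h2 h3
    rw [hox] at h3
    rw [hoz] at h2
    have e1 : ((i : ℤ) - i') = 0 := Int.eq_zero_of_abs_lt_dvd h3 (by rw [abs_lt]; omega)
    have e2 : ((j' : ℤ) - j) = 0 := Int.eq_zero_of_abs_lt_dvd h2 (by rw [abs_lt]; omega)
    exact Prod.ext (Fin.ext (show (i : ℕ) = i' by omega)) (Fin.ext (show (j : ℕ) = j' by omega))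
  have hbij : Function.Bijective f := by
    refine (Nat.bijective_iff_injective_and_card f).2 ⟨hf, le_antisymm (Nat.card_le_card_of_injective f hf) ?_⟩
    rw [Nat.card_prod, Nat.card_fin, ← sq]
    exact hle
  obtain ⟨⟨i, j⟩, hij⟩ := hbij.2 ⟨u, Subgroup.subset_closure (by simp)⟩
  exact ⟨i, j, (congrArg Subtype.val hij).symm⟩

theorem pow_mem_gen {u : G} (hu : orderOf u = p) {i : ℕ} (hi : ¬ p ∣ i) : ∃ k : ℕ, (u ^ i) ^ k = u := by
  obtain ⟨m, hm⟩ := Nat.exists_mul_mod_eq_one_of_coprime ((hpf.out.coprime_iff_not_dvd.2 hi).symm) hpf.out.one_lt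
  exact ⟨m, by rw [← pow_mul, ← pow_mod_orderOf, hu, hm.2, pow_one]⟩

/-- A non-central isolated element kills `O_p`. -/
theorem pCore_eq_bot_of_isolated (hp : p ≠ 2) (hcore : Cfsg.pPrimeCore p G = ⊥) (hrank : Cfsg.PRankLE p 2 G)
    {x : G} (hx : orderOf x = p) (hiso : Cfsg.IsIsolated x) (hnc : x ∉ Subgroup.center G) :
    Cfsg.pCore p G = ⊥ := by
  by_contra hne
  have hxp : x ^ p = 1 := hx ▸ pow_orderOf_eq_one x
  have hx1 : x ≠ 1 := fun h => hpf.out.ne_one (by rw [← hx, h, orderOf_one])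
  set R := Cfsg.pCore p G with hR
  have hRp : IsPGroup p R := CfsgLib.Cores.isPGroup_pCore p G
  have hxR : x ∉ R := fun hxR => hnc (Subgroup.mem_center_iff.2 fun g => by
    have hn : R.Normal := by rw [hR]; infer_instance
    have := CfsgLib.TwoGroupTricks.conj_eq_of_mem hiso hRp hxR (hn.conj_mem x hxR g)
    calc g * x = g * x * g⁻¹ * g := by group
      _ = x * g := by rw [this])
  haveI hRn : R.Normal := by rw [hR]; infer_instance
  obtain ⟨P, hP⟩ := (CfsgLib.TwoGroupTricks.isPGroup_zpowers (p := p) (x := x) ⟨1, by rw [hx, pow_one]⟩).exists_le_sylow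
  have hxP : x ∈ (P : Subgroup G) := hP (Subgroup.mem_zpowers x)
  have hRP : R ≤ (P : Subgroup G) := CfsgLib.Cores.pCore_le_sylow P
  -- a central element of `P` in `R`
  obtain ⟨z0, hz0R, hz01, hz0Z⟩ := CfsgLib.TwoGroups.exists_mem_center_of_normal P.2
    (N := R.subgroupOf (P : Subgroup G)) (by
      rw [Ne, Subgroup.subgroupOf_eq_bot, disjoint_iff, inf_eq_left.2 hRP]; exact hne)
  obtain ⟨k, hk⟩ : ∃ k, orderOf z0 = p ^ k := IsPGroup.iff_orderOf.1 P.2 z0
  obtain ⟨k, rfl⟩ : ∃ m, k = m + 1 := Nat.exists_eq_succ_of_ne_zero fun h0 => hz01 (by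
    rw [h0, pow_zero, orderOf_eq_one_iff] at hk; exact hk)
  set zP := z0 ^ p ^ k
  have hzc : zP ∈ Subgroup.center ↥P := pow_mem hz0Z _
  set z : G := (zP : G)
  have hzR : z ∈ R := pow_mem hz0R (p ^ k)
  have hzo : orderOf zP = p := by
    rw [orderOf_pow' _ (pow_ne_zero _ hpf.out.ne_zero), hk,
      Nat.gcd_eq_right (pow_dvd_pow p (Nat.le_succ k)), pow_succ,
      Nat.mul_div_cancel_left _ (pow_pos hpf.out.pos k)]
  have hzP' : zP ^ p = 1 := orderOf_dvd_iff_pow_eq_one.1 (dvd_of_eq hzo)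
  have hzp : z ^ p = 1 := congrArg Subtype.val hzP'
  have hz1 : z ≠ 1 := fun h => hpf.out.ne_one (by rw [← hzo]; exact orderOf_eq_one_iff.2 (Subtype.ext h))
  have hzo' : orderOf z = p := orderOf_eq_prime hzp hz1
  have hzx : z ∉ Subgroup.zpowers x := fun h => by
    rw [← mem_powers_iff_mem_zpowers] at h
    obtain ⟨i, hi : x ^ i = z⟩ := h
    have hi' : ¬ p ∣ i := fun hd => hz1 (by
      obtain ⟨t, rfl⟩ := hd; rw [← hi, pow_mul, hxp, one_pow])
    obtain ⟨m, hm⟩ := pow_mem_gen hx hi'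
    exact hxR (by rw [← hm, hi]; exact pow_mem hzR m)
  have hgen : ∀ u ∈ (P : Subgroup G), u ^ p = 1 → ∃ i j : ℕ, u = x ^ i * z ^ j := fun u hu hup => by
    have h1 : Commute x z := CfsgLib.TwoGroupTricks.commute_of_mem hiso P.2 hxP zP.2
    exact exists_eq_pow hrank hxp hx1 hzp hzx hup h1
      (CfsgLib.TwoGroupTricks.commute_of_mem hiso P.2 hxP hu)
      (congrArg Subtype.val (Subgroup.mem_center_iff.1 hzc ⟨u, hu⟩)).symm
  -- `⟨z⟩` is normal
  have hZn : (Subgroup.zpowers z).Normal := ⟨fun w hw g => by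
    obtain ⟨e, rfl⟩ := Subgroup.mem_zpowers_iff.1 hw
    rw [← conj_zpow]
    refine Subgroup.zpow_mem _ ?_ e
    have hu : g * z * g⁻¹ ∈ R := hRn.conj_mem z hzR g
    obtain ⟨i, j, hij⟩ := hgen _ (hRP hu) (by rw [conj_pow, hzp, mul_one, mul_inv_cancel])
    by_cases hi : p ∣ i
    · obtain ⟨t, rfl⟩ := hi
      rw [hij, pow_mul, hxp, one_pow, one_mul]
      exact Subgroup.pow_mem _ (Subgroup.mem_zpowers z) j
    · exfalso
      obtain ⟨m, hm⟩ := pow_mem_gen hx hi
      refine hxR (hm ▸ pow_mem ?_ m)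
      have e : x ^ i = g * z * g⁻¹ * (z ^ j)⁻¹ := by rw [hij, mul_inv_cancel_right]
      rw [e]
      exact mul_mem hu (inv_mem (pow_mem hzR j))⟩
  set C := Subgroup.centralizer (Subgroup.zpowers z : Set G)
  haveI : C.Normal := Subgroup.normal_centralizer
  have hmemC : ∀ g : G, g ∈ C ↔ g * z = z * g := fun g => by
    show g ∈ Subgroup.centralizer _ ↔ _
    rw [Subgroup.zpowers_eq_closure, Subgroup.centralizer_closure, Subgroup.mem_centralizer_singleton_iff]
  have hxC : x ∈ C := (hmemC x).2 (CfsgLib.TwoGroupTricks.commute_of_mem hiso P.2 hxP zP.2)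
  have hPC : (P : Subgroup G) ≤ C := fun u hu => (hmemC u).2
    (congrArg Subtype.val (Subgroup.mem_center_iff.1 hzc ⟨u, hu⟩))
  have hC : Cfsg.HasNormalPComplement p C := by
    refine hasNormalPComplement_of_unfused hp fun Q u hu hup h hconj => ?_
    obtain ⟨c, hc⟩ := MulAction.exists_smul_eq C Q (P.subtype hPC)
    have hin : ∀ w : C, w ∈ (Q : Subgroup C) → ((c * w * c⁻¹ : C) : G) ∈ (P : Subgroup G) := fun w hw => by
      have h1 : c * w * c⁻¹ ∈ ((c • Q : Sylow p C) : Subgroup C) := ⟨w, hw, rfl⟩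
      rw [hc] at h1
      exact h1
    set v := c * u * c⁻¹ with hv
    set k := c * h * c⁻¹ with hk'
    have hv1 : (v : G) ∈ (P : Subgroup G) := hin u hu
    have hv2 : ((k * v * k⁻¹ : C) : G) ∈ (P : Subgroup G) := by
      rw [show k * v * k⁻¹ = c * (h * u * h⁻¹) * c⁻¹ by rw [hv, hk']; group]
      exact hin _ hconj
    suffices hs : k * v * k⁻¹ = v by
      calc h * u * h⁻¹ = c⁻¹ * (k * v * k⁻¹) * c := by rw [hv, hk']; group
        _ = u := by rw [hs, hv]; group
    obtain ⟨i, j, hij⟩ := hgen _ hv1 (by rw [← SubgroupClass.coe_pow, hv, conj_pow, hup]; simp)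
    refine Subtype.ext ?_
    push_cast at hv2 ⊢
    rw [hij] at hv2 ⊢
    have hkz : (k : G) * z * (k : G)⁻¹ = z := by rw [(hmemC _).1 k.2, mul_inv_cancel_right]
    have e : (k : G) * (x ^ i * z ^ j) * (k : G)⁻¹ = ((k : G) * x * (k : G)⁻¹) ^ i * z ^ j := by
      conv_rhs => rw [← hkz, conj_pow, conj_pow]
      group
    rw [e] at hv2 ⊢
    by_cases hi : p ∣ i
    · obtain ⟨t, rfl⟩ := hi
      rw [pow_mul, pow_mul, hxp, conj_pow, hxp]; simp
    · have h1 : ((k : G) * x * (k : G)⁻¹) ^ i ∈ (P : Subgroup G) :=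
        (Subgroup.mul_mem_cancel_right _ (pow_mem zP.2 j)).1 hv2
      obtain ⟨m, hm⟩ := pow_mem_gen (u := (k : G) * x * (k : G)⁻¹) ((orderOf_conj x k).trans hx) hi
      have h2 : (k : G) * x * (k : G)⁻¹ ∈ (P : Subgroup G) := hm ▸ pow_mem h1 m
      rw [CfsgLib.TwoGroupTricks.conj_eq_of_mem hiso P.2 hxP h2]
  have hCO : Cfsg.pPrimeCore p C = ⊥ := (Subgroup.map_eq_bot_iff_of_injective _ C.subtype_injective).1
    (le_bot_iff.1 (hcore ▸ CfsgLib.Cores.map_subtype_pPrimeCore_le (Subgroup.Normal.isSubnormal inferInstance)))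
  exact hxR (CfsgLib.Cores.le_pCore (isPGroup_of_core hCO hC) hxC)

/-- Two commuting subnormal subgroups meeting trivially: one of them is trivial. -/
theorem eq_bot_or_of_commute (hp : p ≠ 2) (hcore : Cfsg.pPrimeCore p G = ⊥) (hrank : Cfsg.PRankLE p 2 G)
    (hR : Cfsg.pCore p G = ⊥) {x : G} (hx : orderOf x = p) (hiso : Cfsg.IsIsolated x)
    {A B : Subgroup G} (hA : A.IsSubnormal) (hB : B.IsSubnormal) (hAB : A ≤ Subgroup.centralizer (B : Set G))
    (hinf : A ⊓ B = ⊥) : A = ⊥ ∨ B = ⊥ := by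
  by_contra hne
  push Not at hne
  have hex : ∀ {W : Subgroup G}, W.IsSubnormal → W ≠ ⊥ → ∃ w ∈ W, orderOf w = p := by
    intro W hW hW0
    by_contra hno
    push Not at hno
    refine hW0 (le_bot_iff.1 (hcore ▸ CfsgLib.Cores.le_pPrimeCore_of_subnormal hW ?_))
    rw [Nat.coprime_comm, hpf.out.coprime_iff_not_dvd]
    intro hd
    obtain ⟨⟨w, hw⟩, ho⟩ := exists_prime_orderOf_dvd_card' p hd
    rw [Subgroup.orderOf_mk] at ho
    exact hno w hw ho
  obtain ⟨a, haA, hao⟩ := hex hA hne.1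
  obtain ⟨b, hbB, hbo⟩ := hex hB hne.2
  have hap : a ^ p = 1 := hao ▸ pow_orderOf_eq_one a
  have hbp : b ^ p = 1 := hbo ▸ pow_orderOf_eq_one b
  have ha1 : a ≠ 1 := fun h => hpf.out.ne_one (by rw [← hao, h, orderOf_one])
  have hb1 : b ≠ 1 := fun h => hpf.out.ne_one (by rw [← hbo, h, orderOf_one])
  have hab : Commute a b := (Subgroup.mem_centralizer_iff.1 (hAB haA) b hbB).symm
  have hba : b ∉ Subgroup.zpowers a := fun h => hb1 (Subgroup.mem_bot.1 (hinf ▸
    ⟨Subgroup.zpowers_le.2 haA h, hbB⟩))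
  -- a Sylow subgroup containing both, and a conjugate of `x` in it
  have hEp : IsPGroup p (Subgroup.closure ({a, b} : Set G)) := by
    haveI hcE : IsMulCommutative (Subgroup.closure ({a, b} : Set G)) := Subgroup.isMulCommutative_closure (by
      rintro u (rfl | rfl) v (rfl | rfl)
      all_goals first | rfl | exact hab | exact hab.symm)
    intro w
    refine ⟨1, Subtype.ext ?_⟩
    obtain ⟨w, hw⟩ := w
    show w ^ p ^ 1 = 1
    rw [pow_one]
    induction hw using Subgroup.closure_induction with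
    | mem u hu => rcases hu with rfl | rfl <;> assumption
    | one => exact one_pow p
    | mul u v hu hv ihu ihv =>
      have huv : Commute u v := congrArg Subtype.val (hcE.is_comm.comm ⟨u, hu⟩ ⟨v, hv⟩)
      rw [huv.mul_pow, ihu, ihv, one_mul]
    | inv u _ ihu => rw [inv_pow, ihu, inv_one]
  obtain ⟨P, hP⟩ := hEp.exists_le_sylow
  obtain ⟨P', hP'⟩ := (CfsgLib.TwoGroupTricks.isPGroup_zpowers (p := p) (x := x) ⟨1, by rw [hx, pow_one]⟩).exists_le_sylow
  obtain ⟨g, hg⟩ := MulAction.exists_smul_eq G P' P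
  set y := g * x * g⁻¹ with hy
  have hyP : y ∈ (P : Subgroup G) := by
    rw [← hg]; exact ⟨x, hP' (Subgroup.mem_zpowers x), rfl⟩
  have hyiso : Cfsg.IsIsolated y := CfsgLib.TwoGroupTricks.conj_isolated hiso g
  have hyo : orderOf y = p := (orderOf_conj x g).trans hx
  have haP : a ∈ (P : Subgroup G) := hP (Subgroup.subset_closure (by simp))
  have hbP : b ∈ (P : Subgroup G) := hP (Subgroup.subset_closure (by simp))
  have hya := CfsgLib.TwoGroupTricks.commute_of_mem hyiso P.2 hyP haP
  have hyb := CfsgLib.TwoGroupTricks.commute_of_mem hyiso P.2 hyP hbP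
  obtain ⟨i, j, hij⟩ := exists_eq_pow hrank hap ha1 hbp hba (hyo ▸ pow_orderOf_eq_one y) hab hya.symm hyb.symm
  -- an isolated element inside a factor of rank one
  have key : ∀ (A B : Subgroup G), A.IsSubnormal → A ≤ Subgroup.centralizer (B : Set G) → A ⊓ B = ⊥ →
      ∀ a ∈ A, ∀ b ∈ B, a ^ p = 1 → a ≠ 1 → b ^ p = 1 → b ≠ 1 → ∀ i j : ℕ, ¬ p ∣ i → y = a ^ i * b ^ j →
      A = ⊥ := by
    intro A B hA hAB hinf a haA b hbB hap ha1 hbp hb1 i j hi hij
    have hcB : ∀ u ∈ A, Commute u b := fun u hu => (Subgroup.mem_centralizer_iff.1 (hAB hu) b hbB).symm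
    have hba : b ∉ Subgroup.zpowers a := fun h => hb1 (Subgroup.mem_bot.1 (hinf ▸
      ⟨Subgroup.zpowers_le.2 haA h, hbB⟩))
    have hisoA : Cfsg.IsIsolated (⟨a, haA⟩ : A) := by
      intro u hc
      have hc' : Commute a ((u : G) * a * (u : G)⁻¹) := congrArg Subtype.val hc.eq
      set a' := (u : G) * a * (u : G)⁻¹ with ha'
      have hmem : a' ∈ A := mul_mem (mul_mem u.2 haA) (inv_mem u.2)
      have e : (u : G) * y * (u : G)⁻¹ = a' ^ i * b ^ j := by
        rw [hij, ha', conj_pow]
        calc (u : G) * (a ^ i * b ^ j) * (u : G)⁻¹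
            = (u : G) * a ^ i * (b ^ j * (u : G)⁻¹) := by group
          _ = _ := by rw [(((hcB _ u.2).pow_right j).inv_left.symm).eq]; group
      have hcy : Commute y ((u : G) * y * (u : G)⁻¹) := by
        rw [e, hij]
        exact (((hc'.pow_pow i i)).mul_right ((hcB a haA).pow_pow i j)).mul_left
          ((((hcB a' hmem).pow_pow i j).symm).mul_right (Commute.refl _))
      have h1 := hyiso _ hcy
      rw [e, hij] at h1
      have h2 : a' ^ i = a ^ i := mul_right_cancel h1
      refine Subtype.ext ?_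
      show a' = a
      obtain ⟨m, hm⟩ := pow_mem_gen (p := p) (orderOf_eq_prime hap ha1) hi
      obtain ⟨m', hm'⟩ := Nat.exists_mul_mod_eq_one_of_coprime ((hpf.out.coprime_iff_not_dvd.2 hi).symm) hpf.out.one_lt
      have hoa' : orderOf a' = p := (orderOf_conj a u).trans (orderOf_eq_prime hap ha1)
      calc a' = a' ^ (i * m') := by rw [← pow_mod_orderOf, hoa', hm'.2, pow_one]
        _ = a ^ (i * m') := by rw [pow_mul, h2, ← pow_mul]
        _ = a := by rw [← pow_mod_orderOf, orderOf_eq_prime hap ha1, hm'.2, pow_one]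
    have hA' : Cfsg.HasNormalPComplement p A := by
      refine hasNormalPComplement_of_unfused hp fun Q u hu hup h hconj => ?_
      obtain ⟨Q', hQ'⟩ := (CfsgLib.TwoGroupTricks.isPGroup_zpowers (p := p) (x := (⟨a, haA⟩ : A))
        ⟨1, by rw [Subgroup.orderOf_mk, orderOf_eq_prime hap ha1, pow_one]⟩).exists_le_sylow
      obtain ⟨c, hc⟩ := MulAction.exists_smul_eq A Q Q'
      set t := c⁻¹ * ⟨a, haA⟩ * c with ht
      have htQ : t ∈ (Q : Subgroup A) := by
        have h1 : (⟨a, haA⟩ : A) ∈ ((c • Q : Sylow p A) : Subgroup A) := hc ▸ hQ' (Subgroup.mem_zpowers _)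
        obtain ⟨w, hw, hwe⟩ := h1
        have : t = w := by rw [ht, ← hwe]; show c⁻¹ * (c * w * c⁻¹) * c = w; group
        rw [this]; exact hw
      have htiso : Cfsg.IsIsolated t := by
        have := CfsgLib.TwoGroupTricks.conj_isolated hisoA c⁻¹
        rwa [inv_inv] at this
      have htp : ((t : A) : G) ^ p = 1 := by
        rw [ht]; push_cast
        rw [show (c : G)⁻¹ * a * (c : G) = (c : G)⁻¹ * a * ((c : G)⁻¹)⁻¹ by rw [inv_inv], conj_pow, hap,
          mul_one, mul_inv_cancel]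
      have ht1 : ((t : A) : G) ≠ 1 := fun h0 => ha1 (by
        rw [ht] at h0; push_cast at h0
        calc a = (c : G) * ((c : G)⁻¹ * a * c) * (c : G)⁻¹ := by group
          _ = 1 := by rw [h0]; group)
      have hbt : b ∉ Subgroup.zpowers (t : G) := fun h => hb1 (Subgroup.mem_bot.1 (hinf ▸
        ⟨Subgroup.zpowers_le.2 t.2 h, hbB⟩))
      have hgen : ∀ w : A, w ∈ (Q : Subgroup A) → w ^ p = 1 → ∃ k : ℕ, w = t ^ k := by
        intro w hw hwp
        obtain ⟨k, l, hkl⟩ := exists_eq_pow hrank htp ht1 hbp hbt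
          (show (w : G) ^ p = 1 from congrArg Subtype.val hwp) (hcB _ t.2)
          (show Commute (t : G) (w : G) from congrArg Subtype.val
            (CfsgLib.TwoGroupTricks.commute_of_mem htiso Q.2 htQ hw).eq) (hcB _ w.2).symm
        refine ⟨k, Subtype.ext ?_⟩
        have hl : b ^ l ∈ A ⊓ B := ⟨by
          have e : b ^ l = ((t : G) ^ k)⁻¹ * (w : G) := by rw [hkl, inv_mul_cancel_left]
          show b ^ l ∈ A
          rw [e]; exact mul_mem (inv_mem (pow_mem t.2 k)) w.2, pow_mem hbB l⟩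
        rw [hinf, Subgroup.mem_bot] at hl
        rw [hkl, hl, mul_one, SubgroupClass.coe_pow]
      obtain ⟨k, rfl⟩ := hgen u hu hup
      rw [← conj_pow] at hconj ⊢
      by_cases hk : p ∣ k
      · obtain ⟨s, rfl⟩ := hk
        have htp' : t ^ p = 1 := Subtype.ext htp
        rw [pow_mul, pow_mul, conj_pow, htp']; simp
      · have htp' : t ^ p = 1 := Subtype.ext htp
        have hto : orderOf t = p := orderOf_eq_prime htp' fun h0 => ht1 (congrArg Subtype.val h0)
        obtain ⟨m, hm⟩ := pow_mem_gen ((orderOf_conj t h).trans hto) hk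
        rw [CfsgLib.TwoGroupTricks.conj_eq_of_mem htiso Q.2 htQ (hm ▸ pow_mem hconj m)]
    have hAO : Cfsg.pPrimeCore p A = ⊥ := (Subgroup.map_eq_bot_iff_of_injective _ A.subtype_injective).1
      (le_bot_iff.1 (hcore ▸ CfsgLib.Cores.map_subtype_pPrimeCore_le hA))
    exact le_bot_iff.1 (hR ▸ CfsgLib.Cores.le_pCore_of_subnormal hA (isPGroup_of_core hAO hA'))
  by_cases hi : p ∣ i
  · refine hne.2 (key B A hB (Subgroup.le_centralizer_iff.1 hAB) (by rw [inf_comm, hinf]) b hbB a haA hbp hb1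
      hap ha1 j i ?_ ?_)
    · intro hj
      obtain ⟨s, rfl⟩ := hi
      obtain ⟨s', rfl⟩ := hj
      rw [pow_mul, pow_mul, hap, hbp, one_pow, one_pow, one_mul] at hij
      exact hpf.out.ne_one (by rw [← hyo, hij, orderOf_one])
    · rw [hij]; exact (hab.pow_pow i j).eq
  · exact hne.1 (key A B hA hAB hinf a haA b hbB hap ha1 hbp hb1 i j hi hij)

/-- Let G be a finite group and p an odd prime with O_{p'}(G) = 1. Suppose that G has p-rank at most 2 (no elementary abelian subgroup of order p³) and that some element x of order p is isolated in G (no G-conjugate of x other than x commutes with x) and not central. Then the generalized Fitting subgroup F*(G) is a non-abelian simple group. Since O_{p'}(G) = 1, such an x is not central modulo O_{p'}(G): the hypotheses describe a counterexample to the Z*_p statement in p-rank at most 2. -/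
theorem result {G : Type*} [Group G] [Finite G] {p : ℕ} [Fact p.Prime] (hp : p ≠ 2) (hcore : Cfsg.pPrimeCore p G = ⊥)
    (hrank : Cfsg.PRankLE p 2 G) (x : G) (hx : orderOf x = p) (hiso : Cfsg.IsIsolated x) (hnc : x ∉ Subgroup.center G) :
    IsSimpleGroup ↥(Cfsg.generalizedFittingSubgroup G) ∧ ¬ IsMulCommutative ↥(Cfsg.generalizedFittingSubgroup G) := by
  classical
  have hR := pCore_eq_bot_of_isolated hp hcore hrank hx hiso hnc
  have hsolo : ∀ N : Subgroup G, N.Normal → N ≠ ⊥ → Subgroup.centralizer (N : Set G) = ⊥ := by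
    intro N hN hN0
    haveI := hN
    set Z := N ⊓ Subgroup.centralizer (N : Set G) with hZ
    haveI : Z.Normal := Subgroup.normal_inf_normal _ _
    have hZ0 : Z = ⊥ := by
      by_contra hne
      have hZab : ∀ u ∈ Z, ∀ v ∈ Z, u * v = v * u := fun u hu v hv =>
        (Subgroup.mem_centralizer_iff.1 hu.2 v hv.1).symm
      have hd : p ∣ Nat.card Z := by
        by_contra hd
        exact hne (le_bot_iff.1 (hcore ▸ CfsgLib.Cores.le_pPrimeCore
          (((Fact.out : p.Prime).coprime_iff_not_dvd.2 hd).symm)))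
      obtain ⟨w, hw⟩ := exists_prime_orderOf_dvd_card' p hd
      have hwn : (Subgroup.zpowers w).Normal := ⟨fun u hu v => by
        have e : v * u = u * v := Subtype.ext (hZab _ v.2 _ u.2)
        rwa [e, mul_inv_cancel_right]⟩
      have hsub : ((Subgroup.zpowers w).map Z.subtype).IsSubnormal :=
        Subgroup.IsSubnormal.step _ Z (Subgroup.map_subtype_le _) (Subgroup.Normal.isSubnormal inferInstance)
          (by rw [Subgroup.subgroupOf, Subgroup.comap_map_eq_self_of_injective Z.subtype_injective]; exact hwn)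
      have h1 := CfsgLib.Cores.le_pCore_of_subnormal (p := p) hsub
        ((CfsgLib.TwoGroupTricks.isPGroup_zpowers ⟨1, by rw [hw, pow_one]⟩).map _)
      rw [hR, le_bot_iff, Subgroup.map_eq_bot_iff_of_injective _ Z.subtype_injective, Subgroup.zpowers_eq_bot] at h1
      rw [h1, orderOf_one] at hw
      exact (Fact.out : p.Prime).ne_one hw.symm
    exact (eq_bot_or_of_commute hp hcore hrank hR hx hiso (Subgroup.Normal.isSubnormal hN)
      (Subgroup.Normal.isSubnormal inferInstance) (Subgroup.le_centralizer_iff.1 le_rfl) hZ0).resolve_left hN0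
  haveI : Nontrivial G := ⟨⟨x, 1, fun h => hnc (h ▸ one_mem _)⟩⟩
  obtain ⟨N, ⟨hN, hN0⟩, hmin⟩ := Set.exists_min_image {M : Subgroup G | M.Normal ∧ M ≠ ⊥}
    (fun M => Nat.card M) (Set.toFinite _) ⟨⊤, inferInstance, top_ne_bot⟩
  haveI := hN
  have hCN := hsolo N hN hN0
  have hsimple : IsSimpleGroup N := by
    haveI : Nontrivial N := (Subgroup.nontrivial_iff_ne_bot N).2 hN0
    obtain ⟨T, ⟨hT, hT0⟩, hTmin⟩ := Set.exists_min_image {M : Subgroup N | M.Normal ∧ M ≠ ⊥}
      (fun M => Nat.card M) (Set.toFinite _) ⟨⊤, inferInstance, top_ne_bot⟩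
    haveI := hT
    have hTsub : (T.map N.subtype).IsSubnormal :=
      Subgroup.IsSubnormal.step _ N (Subgroup.map_subtype_le _) (Subgroup.Normal.isSubnormal hN)
        (by rw [Subgroup.subgroupOf, Subgroup.comap_map_eq_self_of_injective N.subtype_injective]; exact hT)
    have hinvar : ∀ g : G, T.map (MulAut.conjNormal g).toMonoidHom = T := by
      intro g
      set e : N ≃* N := MulAut.conjNormal g
      set T2 := T.map e.toMonoidHom with hT2
      haveI hT2n : T2.Normal := hT.map _ e.surjective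
      have hT2c : Nat.card T2 = Nat.card T := Subgroup.card_map_of_injective e.injective
      by_contra hne
      have hi : T ⊓ T2 = ⊥ := by
        by_contra h0
        have h1 := Subgroup.eq_of_le_of_card_ge inf_le_left (hTmin _ ⟨Subgroup.normal_inf_normal T T2, h0⟩)
        exact hne (Subgroup.eq_of_le_of_card_ge (inf_eq_left.1 h1) hT2c.le).symm
      have hT2sub : (T2.map N.subtype).IsSubnormal :=
        Subgroup.IsSubnormal.step _ N (Subgroup.map_subtype_le _) (Subgroup.Normal.isSubnormal hN)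
          (by rw [Subgroup.subgroupOf, Subgroup.comap_map_eq_self_of_injective N.subtype_injective]; exact hT2n)
      have hcomm : T.map N.subtype ≤ Subgroup.centralizer (T2.map N.subtype : Set G) := by
        rintro _ ⟨u, hu, rfl⟩
        refine Subgroup.mem_centralizer_iff.2 ?_
        rintro _ ⟨v, hv, rfl⟩
        exact congrArg Subtype.val (Subgroup.commute_of_normal_of_disjoint T T2 hT hT2n (disjoint_iff.2 hi) u v hu hv).symm.eq
      have hinf : T.map N.subtype ⊓ T2.map N.subtype = ⊥ := by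
        rw [← Subgroup.map_inf _ _ _ N.subtype_injective, hi, Subgroup.map_bot]
      rcases eq_bot_or_of_commute hp hcore hrank hR hx hiso hTsub hT2sub hcomm hinf with h | h
      · exact hT0 ((Subgroup.map_eq_bot_iff_of_injective _ N.subtype_injective).1 h)
      · exact hT0 (Subgroup.eq_bot_of_card_eq T (by
          rw [← hT2c, (Subgroup.map_eq_bot_iff_of_injective _ N.subtype_injective).1 h, Subgroup.card_bot]))
    have hTn : (T.map N.subtype).Normal := ⟨fun u hu g => by
      obtain ⟨w, hw, rfl⟩ := hu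
      refine ⟨MulAut.conjNormal g w, ?_, MulAut.conjNormal_apply g w⟩
      have := Subgroup.mem_map_of_mem (MulAut.conjNormal g).toMonoidHom hw
      rwa [hinvar g] at this⟩
    have hTtop : T = ⊤ := by
      refine Subgroup.eq_top_of_card_eq T (le_antisymm (Subgroup.card_le_card_group T) ?_)
      have := hmin _ ⟨hTn, fun h => hT0 ((Subgroup.map_eq_bot_iff_of_injective _ N.subtype_injective).1 h)⟩
      rwa [Subgroup.card_map_of_injective N.subtype_injective] at this
    exact ⟨fun M hM => or_iff_not_imp_left.2 fun hM0 => Subgroup.eq_top_of_card_eq M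
      (le_antisymm (Subgroup.card_le_card_group M) (by
        have := hTmin M ⟨hM, hM0⟩
        simpa [hTtop] using this))⟩
  have hnab : ¬ IsMulCommutative N := fun h => hN0 (by
    rw [← inf_eq_left.2 (show N ≤ Subgroup.centralizer (N : Set G) from fun u hu =>
      Subgroup.mem_centralizer_iff.2 fun v hv => congrArg Subtype.val (h.is_comm.comm ⟨v, hv⟩ ⟨u, hu⟩)), hCN,
      inf_bot_eq])
  have hF : Cfsg.generalizedFittingSubgroup G = N := by
    refine le_antisymm (sup_le (CfsgLib.Cores.layer_le_iff.2 fun K hK => ?_) ?_) ?_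
    · by_contra hKN
      have h1 := CfsgLib.Cores.le_centralizer_of_not_le hK (Subgroup.Normal.isSubnormal hN) hKN
      rw [hCN, le_bot_iff] at h1
      exact CfsgLib.Cores.ne_bot_of_isComponent hK h1
    · rw [CfsgLib.LBalance.fittingSubgroup_eq_pCore hcore, hR]
      exact bot_le
    · haveI := hsimple
      have hcomp : Cfsg.IsComponent N :=
        ⟨Subgroup.Normal.isSubnormal hN, CfsgLib.Cores.isQuasisimple_of_isSimpleGroup hnab⟩
      exact (CfsgLib.Cores.le_layer hcomp).trans (CfsgLib.Cores.layer_le_generalizedFittingSubgroup G)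
  rw [hF]
  exact ⟨hsimple, hnab⟩

end Cfsg.Agent.S3049
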