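import Cfsg.Statements.S3053
import Cfsg.Agent.Lib.PGroups.Extraspecial
import Cfsg.Agent.Lib.PushUp.ConjFunctor

set_option autoImplicit false
set_option linter.style.haveILetI false
open Cfsg

namespace Cfsg.Agent.S3053

open scoped commutatorElement
open CfsgLib.PGroups

theorem exists_zpow_eq {Q : Type*} [Group Q] [Finite Q] {p : ℕ} [hp : Fact p.Prime] {Z : Subgroup Q}
    (hZ : Nat.card Z = p) {a b : Q} (ha : a ∈ Z) (ha1 : a ≠ 1) (hb : b ∈ Z) : ∃ i : ℕ, a ^ i = b := by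
  have hord : orderOf a = p :=
    (hp.out.eq_one_or_self_of_dvd _ (hZ ▸ Subgroup.orderOf_dvd_natCard Z ha)).resolve_left
      fun h => ha1 (orderOf_eq_one_iff.1 h)
  have h : Z = Subgroup.zpowers a := (Subgroup.eq_of_le_of_card_ge (Subgroup.zpowers_le.2 ha)
    (by rw [Nat.card_zpowers, hord, hZ])).symm
  rw [h, ← mem_powers_iff_mem_zpowers] at hb
  exact hb

/-- In a group with a Sylow subgroup as in the statement no element can invert a noncentral pair. -/
theorem no_conj {G : Type*} [Group G] [Finite G] {p : ℕ} [hpf : Fact p.Prime] (hp : p ≠ 2)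
    (P : Sylow p G) (hE : Cfsg.IsExtraspecial p ↥P) (hcard : Nat.card P = p ^ 3)
    (hexp : Monoid.exponent ↥P = p ^ 2) {z : G} (hzP : z ∈ (P : Subgroup G))
    (hz : (⟨z, hzP⟩ : ↥P) ∈ Subgroup.center ↥P) (hz1 : z ≠ 1) {g : G}
    (hy : g * z * g⁻¹ ∈ (P : Subgroup G))
    (hyc : (⟨_, hy⟩ : ↥P) ∉ Subgroup.center ↥P) : False := by
  set zp : ↥P := ⟨z, hzP⟩ with hzp
  set y := g * z * g⁻¹ with hydef
  set yp : ↥P := ⟨y, hy⟩ with hyp
  have hP : IsPGroup p ↥P := P.2
  have hZc : Nat.card (Subgroup.center ↥P) = p := hE.2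
  have hzp1 : zp ≠ 1 := fun h => hz1 (congrArg Subtype.val h)
  have hcl := fun a b : ↥P => IsExtraspecial.commutator_mem_center hE a b
  have hzo : zp ^ p = 1 := by
    have h := Subgroup.orderOf_dvd_natCard _ hz
    rw [hZc] at h
    exact orderOf_dvd_iff_pow_eq_one.1 h
  have hzG : z ^ p = 1 := congrArg Subtype.val hzo
  have hypp : yp ^ p = 1 := Subtype.ext (by
    show (g * z * g⁻¹) ^ p = 1
    rw [conj_pow, hzG, mul_one, mul_inv_cancel])
  -- the centralizer of `y` in `P`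
  set Cy := Subgroup.centralizer ({yp} : Set ↥P) with hCy
  have hCi : Cy.index = p := IsExtraspecial.index_centralizer hE hyc
  have hCc : Nat.card Cy = p ^ 2 := by
    have h := Cy.card_mul_index
    rw [hCi, show Nat.card ↥P = p ^ 3 from hcard, show p ^ 3 = p ^ 2 * p from pow_succ p 2] at h
    exact Nat.eq_of_mul_eq_mul_right hpf.out.pos h
  have hyord : orderOf yp = p :=
    (hpf.out.eq_one_or_self_of_dvd _ (orderOf_dvd_of_pow_eq_one hypp)).resolve_left fun h =>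
      hyc (by rw [orderOf_eq_one_iff.1 h]; exact one_mem _)
  set E := Subgroup.closure ({zp, yp} : Set ↥P) with hEdef
  have hEC : E ≤ Cy := by
    rw [hEdef, Subgroup.closure_le]
    rintro a (rfl | rfl)
    · exact Subgroup.mem_centralizer_singleton_iff.2 (Subgroup.mem_center_iff.1 hz yp).symm
    · exact Subgroup.mem_centralizer_singleton_iff.2 rfl
  have hEeq : E = Cy := by
    refine Subgroup.eq_of_le_of_card_ge hEC ?_
    obtain ⟨k, -, hk⟩ := (Nat.dvd_prime_pow hpf.out).1 (hCc ▸ Subgroup.card_dvd_of_le hEC)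
    rw [hCc, hk]
    refine Nat.pow_le_pow_right hpf.out.pos ?_
    have hle : Subgroup.zpowers yp ≤ E := Subgroup.zpowers_le.2 (Subgroup.subset_closure (Or.inr rfl))
    have h1 : p ∣ Nat.card E := by
      have := Subgroup.card_dvd_of_le hle
      rwa [Nat.card_zpowers, hyord] at this
    rcases k with _ | _ | k
    · rw [hk, pow_zero] at h1
      exact absurd (Nat.dvd_one.1 h1) hpf.out.ne_one
    · exfalso
      have h2 := Subgroup.eq_of_le_of_card_ge hle (by rw [hk, Nat.card_zpowers, hyord, zero_add, pow_one])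
      have hzE : zp ∈ E := Subgroup.subset_closure (Or.inl rfl)
      rw [← h2, ← mem_powers_iff_mem_zpowers] at hzE
      obtain ⟨i, hi : yp ^ i = zp⟩ := hzE
      have hi0 : ¬ p ∣ i := fun hd => hzp1 (by
        obtain ⟨j, rfl⟩ := hd
        rw [← hi, pow_mul, hypp, one_pow])
      obtain ⟨j, hj⟩ := exists_pow_eq_self_of_coprime (x := yp) (n := i)
        (by rw [hyord]; exact (hpf.out.coprime_iff_not_dvd.2 hi0).symm)
      refine hyc ?_
      have : yp = zp ^ j := by rw [← hi, hj]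
      rw [this]
      exact pow_mem hz j
    · omega
  have hpowC : ∀ a ∈ Cy, a ^ p = 1 := by
    intro a ha
    rw [← hEeq] at ha
    have hcomm : ∀ u ∈ ({zp, yp} : Set ↥P), ∀ v ∈ ({zp, yp} : Set ↥P), u * v = v * u := by
      rintro u (rfl | rfl) v (rfl | rfl) <;>
        first | rfl | exact (Subgroup.mem_center_iff.1 hz _).symm | exact Subgroup.mem_center_iff.1 hz _
    haveI hc := Subgroup.isMulCommutative_closure hcomm
    induction ha using Subgroup.closure_induction with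
    | mem a ha =>
      rcases ha with rfl | rfl
      · exact hzo
      · exact hypp
    | one => exact one_pow p
    | mul a b ha hb iha ihb =>
      rw [(show Commute a b from congrArg Subtype.val (mul_comm' (⟨a, ha⟩ : E) ⟨b, hb⟩)).mul_pow,
        iha, ihb, one_mul]
    | inv a _ iha => rw [inv_pow, iha, inv_one]
  -- `u`
  obtain ⟨x, hx⟩ : ∃ x : ↥P, ⁅x, yp⁆ ≠ 1 := by
    by_contra h
    push Not at h
    exact hyc (Subgroup.mem_center_iff.2 fun a => commutatorElement_eq_one_iff_mul_comm.1 (h a))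
  obtain ⟨i, hi⟩ := exists_zpow_eq hZc (hcl x yp) hx hz
  set up := x ^ i with hup
  have hu : ⁅up, yp⁆ = zp := by rw [hup, commutatorElement_pow_left (hcl x yp), hi]
  have huC : up ∉ Cy := fun h => hzp1 (by
    rw [← hu]
    exact commutatorElement_eq_one_iff_mul_comm.2 (Subgroup.mem_centralizer_singleton_iff.1 h))
  have hupp : up ^ p ≠ 1 := by
    intro h
    have hcl' : ∀ a b : ↥P, (a * b) ^ p = a ^ p * b ^ p := fun a b =>
      mul_pow_of_central_odd (hcl b a) (hpf.out.odd_of_ne_two hp) (IsExtraspecial.commutator_pow_eq_one hE _ _)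
    have hmax : Cy ⊔ Subgroup.zpowers up = ⊤ := by
      have h1 := Subgroup.relIndex_mul_index (le_sup_left : Cy ≤ Cy ⊔ Subgroup.zpowers up)
      rw [hCi] at h1
      rcases (Nat.dvd_prime hpf.out).1 (Dvd.intro_left _ h1) with h2 | h2
      · exact Subgroup.index_eq_one.1 h2
      · exfalso
        rw [h2, Nat.mul_eq_right hpf.out.pos.ne', Subgroup.relIndex_eq_one] at h1
        exact huC (h1 (Subgroup.mem_sup_right (Subgroup.mem_zpowers up)))
    let K : Subgroup ↥P :=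
      { carrier := {a | a ^ p = 1}
        one_mem' := one_pow p
        mul_mem' := fun {a b} ha hb => by
          simp only [Set.mem_ofPred_eq] at ha hb ⊢
          rw [hcl', ha, hb, one_mul]
        inv_mem' := fun {a} ha => by
          simp only [Set.mem_ofPred_eq] at ha ⊢
          rw [inv_pow, ha, inv_one] }
    have hK : (⊤ : Subgroup ↥P) ≤ K :=
      hmax ▸ sup_le (fun a ha => hpowC a ha) (Subgroup.zpowers_le.2 h)
    have hdvd := Monoid.exponent_dvd_of_forall_pow_eq_one (G := ↥P) fun a => hK (Subgroup.mem_top a)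
    rw [hexp] at hdvd
    exact absurd (Nat.le_of_dvd hpf.out.pos hdvd) (not_le.2 (lt_self_pow₀ hpf.out.one_lt (by norm_num)))
  set u : G := (up : G) with hudef
  have huz : u * z * u⁻¹ = z := by
    have h := Subgroup.mem_center_iff.1 hz up
    have h' : up * zp * up⁻¹ = zp := by rw [h]; group
    exact congrArg Subtype.val h'
  have huy : u * y * u⁻¹ = z * y := by
    have h' : up * yp * up⁻¹ = zp * yp := by rw [← hu, commutatorElement_def]; group
    exact congrArg Subtype.val h'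
  -- `T`
  have hzy : z * y = y * z := congrArg Subtype.val (Subgroup.mem_center_iff.1 hz yp).symm
  set T := g • P with hT
  have hTm : ∀ a : G, a ∈ (T : Subgroup G) ↔ g⁻¹ * a * g ∈ (P : Subgroup G) := by
    intro a
    rw [hT, Sylow.coe_subgroup_smul, Subgroup.mem_pointwise_smul_iff_inv_smul_mem]
    simp [MulAut.smul_def, MulAut.conj_symm_apply]
  have hTy : ∀ a ∈ (T : Subgroup G), a * y = y * a := by
    intro a ha
    have h := congrArg Subtype.val (Subgroup.mem_center_iff.1 hz ⟨_, (hTm a).1 ha⟩)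
    change g⁻¹ * a * g * z = z * (g⁻¹ * a * g) at h
    calc a * y = g * (g⁻¹ * a * g * z) * g⁻¹ := by rw [hydef]; group
      _ = y * a := by rw [h, hydef]; group
  -- a Sylow subgroup of the centralizer of `y` containing `z`
  obtain ⟨c0, hc0, hc0T⟩ := CfsgLib.PushUp.exists_cmap_le (p := p)
    (Q := Subgroup.zpowers z) (R := (T : Subgroup G)) (H := Subgroup.centralizer ({y} : Set G))
    (Subgroup.zpowers_le.2 (Subgroup.mem_centralizer_singleton_iff.2 hzy))
    (P.2.to_le (Subgroup.zpowers_le.2 hzP)) (fun a ha => Subgroup.mem_centralizer_singleton_iff.2 (hTy a ha))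
    T.2 (fun hd => T.not_dvd_index (hd.trans (Subgroup.relIndex_dvd_index_of_le
      fun a ha => Subgroup.mem_centralizer_singleton_iff.2 (hTy a ha))))
  set z' := c0 * z * c0⁻¹ with hz'
  have hz'T : z' ∈ (T : Subgroup G) := hc0T (CfsgLib.PushUp.conj_mem_cmap (Subgroup.mem_zpowers z))
  have hc0y : c0 * y * c0⁻¹ = y := by rw [Subgroup.mem_centralizer_singleton_iff.1 hc0]; group
  set wp : ↥P := ⟨g⁻¹ * z' * g, (hTm z').1 hz'T⟩ with hwp
  obtain ⟨x', hx'⟩ : ∃ x' : ↥P, ⁅x', wp⁆ ≠ 1 := by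
    by_contra h
    push Not at h
    have hw : wp ∈ Subgroup.center ↥P :=
      Subgroup.mem_center_iff.2 fun a => commutatorElement_eq_one_iff_mul_comm.1 (h a)
    obtain ⟨j, hj⟩ := exists_zpow_eq hZc hz hzp1 hw
    have hj' : z ^ j = g⁻¹ * z' * g := congrArg Subtype.val hj
    refine hyc ?_
    -- `z' = y ^ j` forces `z = y ^ j`
    have h1 : z = y ^ j := by
      have h2 : z' = y ^ j := by rw [hydef, conj_pow, hj']; group
      have h3 : z = c0⁻¹ * z' * c0 := by rw [hz']; group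
      rw [h3, h2]
      have h4 : c0 * y ^ j * c0⁻¹ = y ^ j := by rw [← conj_pow, hc0y]
      conv_lhs => rw [← h4]
      group
    have h1' : zp = yp ^ j := Subtype.ext h1
    have hj0 : ¬ p ∣ j := fun hd => hzp1 (by
      obtain ⟨q, rfl⟩ := hd
      rw [h1', pow_mul, hypp, one_pow])
    obtain ⟨q, hq⟩ := exists_pow_eq_self_of_coprime (x := yp) (n := j)
      (by rw [hyord]; exact (hpf.out.coprime_iff_not_dvd.2 hj0).symm)
    have : yp = zp ^ q := by rw [h1', hq]
    rw [this]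
    exact pow_mem hz q
  obtain ⟨i', hi'⟩ := exists_zpow_eq hZc (hcl x' wp) hx' hz
  have hv0 : ⁅x' ^ i', wp⁆ = zp := by rw [commutatorElement_pow_left (hcl x' wp), hi']
  set v := c0⁻¹ * (g * (x' ^ i' : ↥P) * g⁻¹) * c0 with hv
  have hvT : g * (x' ^ i' : ↥P) * g⁻¹ ∈ (T : Subgroup G) := by
    rw [hTm, show g⁻¹ * (g * ((x' ^ i' : ↥P) : G) * g⁻¹) * g = ((x' ^ i' : ↥P) : G) by group]
    exact (x' ^ i' : ↥P).2
  have hvy : v * y * v⁻¹ = y := by
    have h1 : (g * (x' ^ i' : ↥P) * g⁻¹) * y * (g * (x' ^ i' : ↥P) * g⁻¹)⁻¹ = y := by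
      rw [hTy _ hvT]; group
    calc v * y * v⁻¹ = c0⁻¹ * ((g * (x' ^ i' : ↥P) * g⁻¹) * (c0 * y * c0⁻¹) *
          (g * (x' ^ i' : ↥P) * g⁻¹)⁻¹) * c0 := by rw [hv]; group
      _ = c0⁻¹ * (c0 * y * c0⁻¹) * c0 := by rw [hc0y, h1]
      _ = y := by group
  have hvz : v * z * v⁻¹ = y * z := by
    have h1 := congrArg Subtype.val hv0
    simp only [commutatorElement_def, hwp, hzp] at h1
    change ((x' ^ i' : ↥P) : G) * (g⁻¹ * z' * g) * ((x' ^ i' : ↥P) : G)⁻¹ * (g⁻¹ * z' * g)⁻¹ = z at h1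
    set X : G := ((x' ^ i' : ↥P) : G)
    calc v * z * v⁻¹ = c0⁻¹ * (g * (X * (g⁻¹ * z' * g) * X⁻¹ * (g⁻¹ * z' * g)⁻¹) * g⁻¹) * z' * c0 := by
          rw [hv, hz']; group
      _ = c0⁻¹ * (c0 * y * c0⁻¹) * z' * c0 := by rw [h1, hc0y]
      _ = y * z := by rw [hz']; group
  -- the inverting element
  set w := u * v⁻¹ * u with hw
  have hvz' : v⁻¹ * z * v = y⁻¹ * z := by
    calc v⁻¹ * z * v = v⁻¹ * (y⁻¹ * (y * z)) * v := by group
      _ = v⁻¹ * (v * y⁻¹ * v⁻¹ * (v * z * v⁻¹)) * v := by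
          rw [hvz, show v * y⁻¹ * v⁻¹ = (v * y * v⁻¹)⁻¹ by group, hvy]
      _ = y⁻¹ * z := by group
  have hvy' : v⁻¹ * y * v = y := by
    conv_lhs => rw [← hvy]
    group
  have hwz : w * z * w⁻¹ = y⁻¹ := by
    calc w * z * w⁻¹ = u * (v⁻¹ * (u * z * u⁻¹) * v) * u⁻¹ := by rw [hw]; group
      _ = u * (y⁻¹ * z) * u⁻¹ := by rw [huz, hvz']
      _ = (u * y * u⁻¹)⁻¹ * (u * z * u⁻¹) := by group
      _ = (z * y)⁻¹ * z := by rw [huy, huz]
      _ = y⁻¹ := by group
  have hwy : w * y * w⁻¹ = z := by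
    calc w * y * w⁻¹ = u * (v⁻¹ * (u * y * u⁻¹) * v) * u⁻¹ := by rw [hw]; group
      _ = u * ((v⁻¹ * z * v) * (v⁻¹ * y * v)) * u⁻¹ := by rw [huy]; group
      _ = u * z * u⁻¹ := by rw [hvz', hvy', mul_assoc y⁻¹ z y, hzy, inv_mul_cancel_left]
      _ = z := huz
  set n0 := w * w with hn0
  have hnz : n0 * z * n0⁻¹ = z⁻¹ := by
    calc n0 * z * n0⁻¹ = w * (w * z * w⁻¹) * w⁻¹ := by rw [hn0]; group
      _ = (w * y * w⁻¹)⁻¹ := by rw [hwz]; group
      _ = z⁻¹ := by rw [hwy]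
  have hny : n0 * y * n0⁻¹ = y⁻¹ := by
    calc n0 * y * n0⁻¹ = w * (w * y * w⁻¹) * w⁻¹ := by rw [hn0]; group
      _ = y⁻¹ := by rw [hwy, hwz]
  -- correct it to normalise `P`
  set C := Subgroup.centralizer ({z, y} : Set G) with hC
  have hPz : ∀ s : ↥P, (s : G) * z * (s : G)⁻¹ = z := fun s => by
    have h : (s : G) * z = z * s := congrArg Subtype.val (Subgroup.mem_center_iff.1 hz s)
    rw [h]; group
  have hPy : ∀ s : ↥P, ∃ a : ℕ, (s : G) * y * (s : G)⁻¹ = z ^ a * y := fun s => by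
    obtain ⟨a, ha⟩ := exists_zpow_eq hZc hz hzp1 (hcl s yp)
    refine ⟨a, ?_⟩
    have h' : s * yp * s⁻¹ = zp ^ a * yp := by rw [ha, commutatorElement_def]; group
    exact congrArg Subtype.val h'
  have hmemC : ∀ a : G, a ∈ C ↔ a * z * a⁻¹ = z ∧ a * y * a⁻¹ = y := fun a => by
    rw [hC, Subgroup.mem_centralizer_iff]
    constructor
    · exact fun h => ⟨by rw [← h z (Or.inl rfl)]; group, by rw [← h y (Or.inr rfl)]; group⟩
    · rintro ⟨h1, h2⟩ h (rfl | rfl)
      · exact (mul_inv_eq_iff_eq_mul.1 h1).symm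
      · exact (mul_inv_eq_iff_eq_mul.1 h2).symm
  have hPC : (P : Subgroup G) ≤ Subgroup.normalizer (C : Set G) := fun s hs =>
    Subgroup.mem_normalizer_fintype fun a ha => by
      obtain ⟨haz, hay⟩ := (hmemC a).1 ha
      obtain ⟨j, hj⟩ := hPy ⟨s, hs⟩⁻¹
      have hsz : s⁻¹ * z * s = z := by simpa using hPz ⟨s, hs⟩⁻¹
      have hsy : s⁻¹ * y * s = z ^ j * y := by simpa using hj
      refine (hmemC _).2 ⟨?_, ?_⟩
      · calc s * a * s⁻¹ * z * (s * a * s⁻¹)⁻¹ = s * (a * (s⁻¹ * z * s) * a⁻¹) * s⁻¹ := by group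
          _ = _ := by rw [hsz, haz]; exact hPz ⟨s, hs⟩
      · calc s * a * s⁻¹ * y * (s * a * s⁻¹)⁻¹ = s * (a * (s⁻¹ * y * s) * a⁻¹) * s⁻¹ := by group
          _ = s * ((a * z * a⁻¹) ^ j * (a * y * a⁻¹)) * s⁻¹ := by rw [hsy, conj_pow]; group
          _ = s * (s⁻¹ * y * s) * s⁻¹ := by rw [haz, hay, hsy]
          _ = y := by group
  have hnP : CfsgLib.PushUp.cmap n0 (P : Subgroup G) ≤ (P : Subgroup G) ⊔ C := by
    rintro _ ⟨s, hs, rfl⟩
    obtain ⟨a, ha⟩ := hPy ⟨s, hs⟩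
    change (s : G) * y * s⁻¹ = z ^ a * y at ha
    have hsz : s * z * s⁻¹ = z := hPz ⟨s, hs⟩
    set s' := n0 * s * n0⁻¹ with hs'
    have h1 : s' * z * s'⁻¹ = z := by
      calc s' * z * s'⁻¹ = n0 * (s * (n0⁻¹ * (n0 * z * n0⁻¹)⁻¹ * n0) * s⁻¹) * n0⁻¹ := by
            rw [hnz, inv_inv, hs']; group
        _ = n0 * (s * z * s⁻¹)⁻¹ * n0⁻¹ := by group
        _ = z := by rw [hsz, show n0 * z⁻¹ * n0⁻¹ = (n0 * z * n0⁻¹)⁻¹ by group, hnz, inv_inv]
    have hny' : n0⁻¹ * y * n0 = y⁻¹ := by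
      calc n0⁻¹ * y * n0 = n0⁻¹ * (n0 * y * n0⁻¹)⁻¹ * n0 := by rw [hny, inv_inv]
        _ = y⁻¹ := by group
    have h2 : s' * y * s'⁻¹ = z ^ a * y := by
      calc s' * y * s'⁻¹ = n0 * (s * (n0⁻¹ * y * n0) * s⁻¹) * n0⁻¹ := by rw [hs']; group
        _ = n0 * (s * y * s⁻¹)⁻¹ * n0⁻¹ := by rw [hny']; group
        _ = (n0 * y * n0⁻¹)⁻¹ * ((n0 * z * n0⁻¹) ^ a)⁻¹⁻¹⁻¹ := by rw [ha, conj_pow]; group
        _ = z ^ a * y := by
            rw [hny, hnz, inv_inv, inv_inv, inv_pow, inv_inv]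
            exact ((show Commute z y from hzy).pow_left a).eq.symm
    have hc : s⁻¹ * s' ∈ C := by
      refine (hmemC _).2 ⟨?_, ?_⟩
      · calc s⁻¹ * s' * z * (s⁻¹ * s')⁻¹ = s⁻¹ * (s' * z * s'⁻¹) * s := by group
          _ = s⁻¹ * (s * z * s⁻¹) * s := by rw [h1, hsz]
          _ = z := by group
      · calc s⁻¹ * s' * y * (s⁻¹ * s')⁻¹ = s⁻¹ * (s' * y * s'⁻¹) * s := by group
          _ = s⁻¹ * (s * y * s⁻¹) * s := by rw [h2, ha]
          _ = y := by group
    have := mul_mem (Subgroup.mem_sup_left (T := C) hs) (Subgroup.mem_sup_right (S := (P : Subgroup G)) hc)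
    rwa [mul_inv_cancel_left] at this
  obtain ⟨k, hk, hke⟩ := CfsgLib.PushUp.exists_cmap_eq (p := p) hnP (P.2.map _)
    (fun hd => (n0 • P).not_dvd_index (by
      refine hd.trans ?_
      rw [Sylow.coe_subgroup_smul]
      exact Subgroup.relIndex_dvd_index_of_le hnP))
    le_sup_left P.2 (fun hd => P.not_dvd_index (hd.trans (Subgroup.relIndex_dvd_index_of_le le_sup_left)))
  rw [← CfsgLib.PushUp.cmap_mul] at hke
  obtain ⟨s, hs, c, hc, rfl⟩ : ∃ s ∈ (P : Subgroup G), ∃ c ∈ C, s * c = k := by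
    rw [← SetLike.mem_coe, Subgroup.coe_mul_of_left_le_normalizer_right _ _ hPC] at hk
    exact Set.mem_mul.1 hk
  have hn : CfsgLib.PushUp.cmap (c * n0) (P : Subgroup G) = (P : Subgroup G) := by
    have h1 := congrArg (CfsgLib.PushUp.cmap s⁻¹) hke
    rwa [← CfsgLib.PushUp.cmap_mul, CfsgLib.PushUp.cmap_eq_of_mem_normalizer
      (Subgroup.le_normalizer (inv_mem hs)), mul_assoc, inv_mul_cancel_left] at h1
  set n := c * n0 with hndef
  obtain ⟨hcz, hcy⟩ := (hmemC c).1 hc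
  have hnz' : n * z * n⁻¹ = z⁻¹ := by
    calc n * z * n⁻¹ = c * (n0 * z * n0⁻¹) * c⁻¹ := by rw [hndef]; group
      _ = (c * z * c⁻¹)⁻¹ := by rw [hnz]; group
      _ = z⁻¹ := by rw [hcz]
  have hny' : n * y * n⁻¹ = y⁻¹ := by
    calc n * y * n⁻¹ = c * (n0 * y * n0⁻¹) * c⁻¹ := by rw [hndef]; group
      _ = (c * y * c⁻¹)⁻¹ := by rw [hny]; group
      _ = y⁻¹ := by rw [hcy]
  have hmemP : n * u * n⁻¹ ∈ (P : Subgroup G) := by
    have h := CfsgLib.PushUp.conj_mem_cmap (g := n) (T := (P : Subgroup G)) up.2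
    rwa [hn] at h
  set u'p : ↥P := ⟨n * u * n⁻¹, hmemP⟩ with hu'
  have hu'y : u'p * yp * u'p⁻¹ = zp * yp := by
    refine Subtype.ext ?_
    show n * u * n⁻¹ * y * (n * u * n⁻¹)⁻¹ = z * y
    have hny'' : n⁻¹ * y * n = y⁻¹ := by
      calc n⁻¹ * y * n = n⁻¹ * (n * y * n⁻¹)⁻¹ * n := by rw [hny', inv_inv]
        _ = y⁻¹ := by group
    calc n * u * n⁻¹ * y * (n * u * n⁻¹)⁻¹ = n * (u * (n⁻¹ * y * n) * u⁻¹) * n⁻¹ := by group
      _ = (n * (u * y * u⁻¹) * n⁻¹)⁻¹ := by rw [hny'']; group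
      _ = ((n * z * n⁻¹) * (n * y * n⁻¹))⁻¹ := by rw [huy]; group
      _ = z * y := by rw [hnz', hny', mul_inv_rev, inv_inv, inv_inv, hzy]
  have hd : up⁻¹ * u'p ∈ Cy := by
    refine Subgroup.mem_centralizer_singleton_iff.2 ?_
    have h' : up * yp * up⁻¹ = zp * yp := by rw [← hu, commutatorElement_def]; group
    calc up⁻¹ * u'p * yp = up⁻¹ * (u'p * yp * u'p⁻¹) * u'p := by group
      _ = yp * (up⁻¹ * u'p) := by rw [hu'y, ← h']; group
  have hodd : Odd p := hpf.out.odd_of_ne_two hp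
  have h1 := hpowC _ hd
  rw [mul_pow_of_central_odd (hcl _ _) hodd (IsExtraspecial.commutator_pow_eq_one hE _ _), inv_pow,
    inv_mul_eq_one] at h1
  obtain ⟨a, ha⟩ := exists_zpow_eq hZc hz hzp1 (IsExtraspecial.pow_mem_center hE up)
  have h2 : (u'p ^ p : ↥P) = (up ^ p)⁻¹ := by
    refine Subtype.ext ?_
    have ha' : z ^ a = u ^ p := congrArg Subtype.val ha
    show (n * u * n⁻¹) ^ p = (u ^ p)⁻¹
    rw [conj_pow, ← ha', ← conj_pow, hnz', inv_pow]
  rw [h2] at h1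
  have h3 : (up ^ p) ^ 2 = 1 := by rw [pow_two]; nth_rewrite 1 [h1]; exact inv_mul_cancel _
  refine hupp (orderOf_eq_one_iff.1 (Nat.eq_one_of_dvd_coprimes
    ((Nat.coprime_primes hpf.out Nat.prime_two).2 hp) ?_ (orderOf_dvd_of_pow_eq_one h3)))
  refine orderOf_dvd_of_pow_eq_one ?_
  rw [← ha, ← pow_mul, mul_comm, pow_mul, hzo, one_pow]
/-- Let p be an odd prime and G a finite group with a Sylow p-subgroup P that is extraspecial of order p³ and exponent p². Then the centre of P is strongly closed in P with respect to G: a G-conjugate of an element of Z(P) that lies in P already lies in Z(P). In particular a nontrivial central element of P is conjugate in G to no noncentral element of P. -/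
theorem result {G : Type*} [Group G] [Finite G]
    {p : ℕ} [Fact p.Prime] (hp : p ≠ 2) (P : Sylow p G) (hE : Cfsg.IsExtraspecial p ↥P)
    (hcard : Nat.card P = p ^ 3) (hexp : Monoid.exponent ↥P = p ^ 2) :
    Cfsg.IsStronglyClosed ((Subgroup.center ↥P).map (P : Subgroup G).subtype) (P : Subgroup G) := by
  refine ⟨Subgroup.map_subtype_le _, ?_⟩
  rintro _ ⟨⟨z, hzP⟩, hz, rfl⟩ g hg
  change g * z * g⁻¹ ∈ (P : Subgroup G) at hg
  by_cases hyc : (⟨_, hg⟩ : ↥P) ∈ Subgroup.center ↥P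
  · exact ⟨⟨_, hg⟩, hyc, rfl⟩
  exfalso
  by_cases hz1 : z = 1
  · subst hz1
    refine hyc ?_
    rw [show (⟨g * 1 * g⁻¹, hg⟩ : ↥P) = 1 from Subtype.ext (by simp)]
    exact one_mem _
  exact no_conj hp P hE hcard hexp hzP hz hz1 hg hyc
end Cfsg.Agent.S3053
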