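import Cfsg.Statements.S3054
import Cfsg.Agent.Lib.Replacement.ExtraspecialPlanes

set_option autoImplicit false
open Cfsg

namespace Cfsg.Agent.S3054

open CfsgLib.Replacement.ExtraspecialPlanes

/-- The transvection of a plane realised in `G`. -/
theorem exists_transvection {G : Type*} [Group G] [Finite G] {p : ℕ} [Fact p.Prime] (P : Sylow p G)
    (hexp : Monoid.exponent ↥P = p) {A : Subgroup G} (hAP : A ≤ (P : Subgroup G))
    (hAcard : Nat.card A = p ^ 2)
    (hSL : ∀ φ : MulAut A, orderOf φ = p → ∃ g : G, ∀ a : A, (φ a : G) = g * (a : G) * g⁻¹)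
    {z a : ↥P} (hz : z ∈ Subgroup.center ↥P) (hz1 : z ≠ 1) (ha : a ∉ Subgroup.center ↥P)
    (hzA : (z : G) ∈ A) (haA : (a : G) ∈ A) :
    ∃ Y : G, Y * a * Y⁻¹ = (a : G) ∧ Y * z * Y⁻¹ = (z : G) * a := by
  have hpr : p.Prime := Fact.out
  set a' : A := ⟨a, haA⟩
  set z' : A := ⟨z, hzA⟩
  have hcA : Commute a' z' :=
    Subtype.ext (congrArg (fun w : ↥P => (w : G)) (Subgroup.mem_center_iff.1 hz a) :)
  have hexpA : ∀ w : A, w ^ p = 1 := fun w =>
    Subtype.ext (congrArg (fun u : ↥P => (u : G)) (pow_prime_eq_one P hexp ⟨w, hAP w.2⟩) :)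
  let ψ : Multiplicative (ZMod p × ZMod p) →* A :=
    MonoidHom.mk' (fun u => a' ^ (Multiplicative.toAdd u).1.val * z' ^ (Multiplicative.toAdd u).2.val)
      fun u v => by
        rw [(hcA.pow_pow _ _).symm.mul_mul_mul_comm, ← pow_add, ← pow_add]
        congr 1 <;> refine zmod_pow_eq (hexpA _) ?_ <;> push_cast <;>
          simp only [ZMod.natCast_zmod_val, toAdd_mul, Prod.fst_add, Prod.snd_add]
  have hψinj : Function.Injective ψ := by
    rw [injective_iff_map_eq_one]
    intro u hu
    obtain ⟨⟨i, j⟩, rfl⟩ := Multiplicative.ofAdd.surjective u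
    have hu' : (a : G) ^ i.val * (z : G) ^ j.val = 1 := congrArg Subtype.val hu
    have h1 : a ^ i.val * z ^ j.val = 1 := Subtype.ext hu'
    have hi : i = 0 := by
      by_contra hi
      refine ha ?_
      have h2 : a ^ i.val ∈ Subgroup.center ↥P := by
        rw [mul_eq_one_iff_eq_inv.1 h1]
        exact inv_mem (pow_mem hz _)
      have h3 : a = (a ^ i.val) ^ (i⁻¹).val := by
        rw [← pow_mul]
        refine (pow_one a).symm.trans (zmod_pow_eq (pow_prime_eq_one P hexp a) ?_)
        push_cast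
        rw [ZMod.natCast_zmod_val, ZMod.natCast_zmod_val, mul_inv_cancel₀ hi]
      rw [h3]
      exact pow_mem h2 _
    subst hi
    rw [ZMod.val_zero, pow_zero, one_mul] at h1
    have hd : p ∣ j.val := (orderOf_eq_prime (pow_prime_eq_one P hexp z) hz1).symm.dvd.trans (orderOf_dvd_of_pow_eq_one h1)
    have hj : j = 0 := by
      rw [← ZMod.natCast_zmod_val j, ZMod.natCast_eq_zero_iff]
      exact hd
    subst hj
    rfl
  have hψbij : Function.Bijective ψ := by
    refine (Nat.bijective_iff_injective_and_card ψ).2 ⟨hψinj, ?_⟩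
    rw [hAcard, sq]
    show Nat.card (ZMod p × ZMod p) = _
    rw [Nat.card_prod, Nat.card_zmod]
  let α : Multiplicative (ZMod p × ZMod p) ≃* Multiplicative (ZMod p × ZMod p) :=
    AddEquiv.toMultiplicative
      { toFun := fun u => (u.1 + u.2, u.2)
        invFun := fun u => (u.1 - u.2, u.2)
        left_inv := fun u => by simp
        right_inv := fun u => by simp
        map_add' := fun u v => by ext <;> simp only [Prod.fst_add, Prod.snd_add] <;> ring }
  let e := MulEquiv.ofBijective ψ hψbij
  let φ : MulAut A := e.symm.trans (α.trans e)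
  have hφ : ∀ u, φ (e u) = e (α u) := fun u => by
    show e (α (e.symm (e u))) = _
    rw [MulEquiv.symm_apply_apply]
  have hφpow : ∀ m : ℕ, ∀ u : ZMod p × ZMod p,
      (φ ^ m) (e (Multiplicative.ofAdd u)) = e (Multiplicative.ofAdd (u.1 + m * u.2, u.2)) := by
    intro m
    induction m with
    | zero => intro u; simp
    | succ m ih =>
      intro u
      rw [pow_succ', MulAut.mul_apply, ih, hφ]
      show e (Multiplicative.ofAdd (u.1 + (m : ZMod p) * u.2 + u.2, u.2)) = _
      push_cast
      congr 3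
      ring
  have hφp : φ ^ p = 1 := MulEquiv.ext fun w => by
    obtain ⟨u, rfl⟩ := e.surjective w
    obtain ⟨u, rfl⟩ := Multiplicative.ofAdd.surjective u
    rw [hφpow, ZMod.natCast_self, zero_mul, add_zero, MulAut.one_apply]
  have ev : ∀ i j : ZMod p, (e (Multiplicative.ofAdd (i, j)) : G) = (a : G) ^ i.val * (z : G) ^ j.val :=
    fun _ _ => rfl
  haveI : Fact (1 < p) := ⟨hpr.one_lt⟩
  have hφ1 : φ ≠ 1 := fun h => by
    have h1 := hφpow 1 (0, 1)
    rw [pow_one, h, MulAut.one_apply, Nat.cast_one, one_mul, zero_add] at h1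
    exact zero_ne_one (congrArg (fun u => (Multiplicative.toAdd u).1) (e.injective h1))
  obtain ⟨g, hg⟩ := hSL φ (orderOf_eq_prime hφp hφ1)
  refine ⟨g, ?_, ?_⟩
  · have h := (hg (e (Multiplicative.ofAdd (1, 0)))).symm
    rw [hφ, show α (Multiplicative.ofAdd ((1 : ZMod p), (0 : ZMod p))) = Multiplicative.ofAdd (1 + 0, 0) from rfl,
      add_zero, ev, ZMod.val_one, ZMod.val_zero, pow_zero, mul_one, pow_one] at h
    exact h
  · have h := (hg (e (Multiplicative.ofAdd (0, 1)))).symm
    rw [hφ, show α (Multiplicative.ofAdd ((0 : ZMod p), (1 : ZMod p))) = Multiplicative.ofAdd (0 + 1, 1) from rfl,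
      zero_add, ev, ev, ZMod.val_one, ZMod.val_zero, pow_zero, one_mul, pow_one, pow_one] at h
    rw [h]
    exact congrArg (fun w : ↥P => (w : G)) (Subgroup.mem_center_iff.1 hz a)

/-- Let p be an odd prime and G a finite group with a Sylow p-subgroup P that is extraspecial of order p³ and exponent p. Suppose P contains three distinct subgroups A of order p² (each is elementary abelian of rank 2) such that every automorphism of A of order p is induced by conjugation by an element of G; equivalently the automorphism group induced on A by its normalizer contains the special linear group of A. Then p ≤ 13. -/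
theorem result {G : Type*} [Group G] [Finite G]
    {p : ℕ} [Fact p.Prime] (hp : p ≠ 2) (P : Sylow p G) (hE : Cfsg.IsExtraspecial p ↥P)
    (hcard : Nat.card P = p ^ 3) (hexp : Monoid.exponent ↥P = p)
    (A : Fin 3 → Subgroup G) (hA : Function.Injective A) (hAP : ∀ i, A i ≤ (P : Subgroup G))
    (hAcard : ∀ i, Nat.card ↥(A i) = p ^ 2)
    (hSL : ∀ i, ∀ φ : MulAut ↥(A i), orderOf φ = p → ∃ g : G, ∀ a : ↥(A i), (φ a : G) = g * (a : G) * g⁻¹) :
    p ≤ 13 := by
  classical
  have hpr : p.Prime := Fact.out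
  set B : Fin 3 → Subgroup ↥P := fun i => (A i).subgroupOf (P : Subgroup G) with hB
  have hBcard : ∀ i, Nat.card (B i) = p ^ 2 := fun i =>
    (Nat.card_congr (Subgroup.subgroupOfEquivOfLe (hAP i)).toEquiv).trans (hAcard i)
  have hBindex : ∀ i, (B i).index = p := fun i => by
    have h := (B i).card_mul_index
    rw [hBcard, show Nat.card ↥P = p ^ 3 from hcard, pow_succ p 2] at h
    exact Nat.eq_of_mul_eq_mul_left (pow_pos hpr.pos 2) h
  have hZB : ∀ i, Subgroup.center ↥P ≤ B i := fun i => by
    haveI : (B i).Normal := Subgroup.normal_of_index_eq_minFac_card (by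
      rw [hBindex, show Nat.card ↥P = p ^ 3 from hcard, Nat.pow_minFac (by norm_num), hpr.minFac_eq])
    refine CfsgLib.PGroups.IsExtraspecial.center_le_of_normal hE fun h => ?_
    have := hBcard i
    rw [h, Subgroup.card_bot] at this
    have := Nat.one_lt_pow two_ne_zero hpr.one_lt
    omega
  haveI : Nontrivial (Subgroup.center ↥P) :=
    Finite.one_lt_card_iff_nontrivial.1 (by rw [hE.2]; exact hpr.one_lt)
  obtain ⟨⟨z, hz⟩, hz1⟩ := exists_ne (1 : Subgroup.center ↥P)
  have hz1' : z ≠ 1 := fun h => hz1 (Subtype.ext h)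
  have hex : ∀ i, ∃ b : ↥P, b ∈ B i ∧ b ∉ Subgroup.center ↥P := fun i => by
    by_contra hc
    push Not at hc
    have := Subgroup.card_le_of_le hc
    rw [hBcard, hE.2] at this
    nlinarith [hpr.one_lt]
  choose a haB ha using hex
  have hcomm : ∀ i, ∀ x ∈ B i, ∀ y ∈ B i, x * y = y * x := fun i x hx y hy =>
    congrArg Subtype.val (IsPGroup.commutative_of_card_eq_prime_sq (hBcard i) ⟨x, hx⟩ ⟨y, hy⟩ :)
  have hcent : ∀ i, Subgroup.centralizer {a i} = B i := fun i => by
    symm
    refine Subgroup.eq_of_le_of_card_ge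
      (fun x hx => Subgroup.mem_centralizer_singleton_iff.2 (hcomm i x hx _ (haB i))) ?_
    have h := (Subgroup.centralizer {a i}).card_mul_index
    rw [CfsgLib.PGroups.IsExtraspecial.index_centralizer hE (ha i), show Nat.card ↥P = p ^ 3 from hcard,
      pow_succ p 2] at h
    rw [hBcard, Nat.eq_of_mul_eq_mul_right hpr.pos h]
  have hne : ∀ i j, i ≠ j → a i * a j ≠ a j * a i := by
    intro i j hij h
    refine hij (hA ?_)
    have h1 : a j ∈ B i := hcent i ▸ Subgroup.mem_centralizer_singleton_iff.2 h.symm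
    have h2 : B i = B j := by
      refine Subgroup.eq_of_le_of_card_ge ?_ (by rw [hBcard, hBcard])
      rw [← hcent j]
      exact fun x hx => Subgroup.mem_centralizer_singleton_iff.2 (hcomm i x hx _ h1)
    exact Subgroup.subgroupOf_inj.1 h2 |> fun h3 => by
      rwa [inf_eq_left.2 (hAP i), inf_eq_left.2 (hAP j)] at h3
  have hY : ∀ i, ∃ Y : G, Y * a i * Y⁻¹ = (a i : G) ∧ Y * z * Y⁻¹ = (z : G) * a i := fun i =>
    exists_transvection P hexp (hAP i) (hAcard i) (hSL i) hz hz1' (ha i) (hZB i hz) (haB i)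
  obtain ⟨h1, -⟩ := card_planes_le P hp hE hcard hexp hz hz1' a ha hne hY
  rw [Fintype.card_fin] at h1
  by_contra hc
  refine absurd (h1 (Or.inl ?_)) (by norm_num)
  by_contra h17
  interval_cases p <;> first | omega | exact absurd hpr (by norm_num)

end Cfsg.Agent.S3054
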