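import Cfsg.Statements.S3055
import Cfsg.Agent.Lib.Replacement.ExtraspecialPlanes

set_option autoImplicit false
open Cfsg

namespace Cfsg.Agent.S3055

open CfsgLib.Replacement.ExtraspecialPlanes

/-- A plane through an element conjugate to a central one carries a second transvection. -/
theorem exists_transvection {G : Type*} [Group G] [Finite G] {p : ℕ} [Fact p.Prime] (P : Sylow p G)
    (hE : Cfsg.IsExtraspecial p ↥P) (hexp : Monoid.exponent ↥P = p) {z a : ↥P}
    (hz : z ∈ Subgroup.center ↥P) (hz1 : z ≠ 1) (ha : a ∉ Subgroup.center ↥P)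
    {g : G} (hg : g * a * g⁻¹ = (z : G)) :
    ∃ Y : G, Y * a * Y⁻¹ = (a : G) ∧ Y * z * Y⁻¹ = (z : G) * a := by
  have hc : ∀ q : ↥P, (q : G) * z = z * q := fun q =>
    congrArg Subtype.val (Subgroup.mem_center_iff.1 hz q)
  have hzp : (z : G) ^ p = 1 := by rw [← SubgroupClass.coe_pow, pow_prime_eq_one P hexp]; rfl
  have hap : (a : G) ^ p = 1 := by rw [← SubgroupClass.coe_pow, pow_prime_eq_one P hexp]; rfl
  set Cz := Subgroup.centralizer ({(z : G)} : Set G)
  have hPC : (P : Subgroup G) ≤ Cz := fun q hq => Subgroup.mem_centralizer_singleton_iff.2 (hc ⟨q, hq⟩)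
  have hwC : g * z * g⁻¹ ∈ Cz := by
    refine Subgroup.mem_centralizer_singleton_iff.2 ?_
    calc g * z * g⁻¹ * z = g * z * g⁻¹ * (g * a * g⁻¹) := by rw [hg]
      _ = g * ((z : G) * a) * g⁻¹ := by group
      _ = g * ((a : G) * z) * g⁻¹ := by rw [hc a]
      _ = (g * a * g⁻¹) * (g * z * g⁻¹) := by group
      _ = z * (g * z * g⁻¹) := by rw [hg]
  have hwP : IsPGroup p (Subgroup.zpowers (⟨_, hwC⟩ : Cz)) := by
    refine IsPGroup.of_card_dvd_pow (n := 1) ?_
    rw [Nat.card_zpowers, pow_one]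
    refine orderOf_dvd_of_pow_eq_one (Subtype.ext ?_)
    show (g * z * g⁻¹) ^ p = 1
    rw [conj_pow, hzp, mul_one, mul_inv_cancel]
  obtain ⟨Q, hQ⟩ := hwP.exists_le_sylow
  obtain ⟨c, hcQ⟩ := MulAction.exists_smul_eq Cz Q (P.subtype hPC)
  have hbP : (c : G) * (g * z * g⁻¹) * (c : G)⁻¹ ∈ (P : Subgroup G) := by
    have h1 : c * ⟨_, hwC⟩ * c⁻¹ ∈ ((c • Q : Sylow p Cz) : Subgroup Cz) :=
      ⟨_, hQ (Subgroup.mem_zpowers _), rfl⟩
    rw [hcQ] at h1
    exact h1
  set φ : G := (c : G) * g with hφ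
  set b : ↥P := ⟨_, hbP⟩ with hb
  have hφz : φ * z * φ⁻¹ = (b : G) := by rw [hφ, hb]; group
  have hφa : φ * a * φ⁻¹ = (z : G) := by
    have h1 := Subgroup.mem_centralizer_singleton_iff.1 c.2
    calc φ * a * φ⁻¹ = (c : G) * (g * a * g⁻¹) * (c : G)⁻¹ := by rw [hφ]; group
      _ = z := by rw [hg, h1, mul_inv_cancel_right]
  have hbc : b ∉ Subgroup.center ↥P := by
    intro hbc
    have hmem := mem_zpowers_of_prime_card (g := (⟨z, hz⟩ : Subgroup.center ↥P)) (g' := ⟨b, hbc⟩) hE.2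
      (fun h => hz1 (congrArg Subtype.val h))
    rw [← mem_powers_iff_mem_zpowers] at hmem
    obtain ⟨k, hk⟩ := hmem
    have hk' : (z : G) ^ k = (b : G) := congrArg (fun w : Subgroup.center ↥P => ((w : ↥P) : G)) hk
    have h1 : (a : G) ^ k = z := by
      refine mul_left_cancel (a := φ) (mul_right_cancel (b := φ⁻¹) ?_)
      rw [← conj_pow, hφa, hφz, hk']
    have hk0 : ((k : ℕ) : ZMod p) ≠ 0 := fun h0 => hz1 (Subtype.ext (by
      show (z : G) = 1
      rw [← h1, ← pow_zero (a : G)]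
      exact zmod_pow_eq hap (by rw [h0, Nat.cast_zero])))
    refine ha ?_
    have h3 : a = z ^ ((k : ZMod p)⁻¹).val := by
      refine Subtype.ext ?_
      rw [SubgroupClass.coe_pow, ← h1, ← pow_mul]
      refine (pow_one _).symm.trans (zmod_pow_eq hap ?_)
      push_cast
      rw [ZMod.natCast_zmod_val, mul_inv_cancel₀ hk0]
    rw [h3]
    exact pow_mem hz _
  obtain ⟨x, hx⟩ := exists_conj_eq_mul P hE hz hz1 hbc
  have hx' : (x : G) * b * (x : G)⁻¹ = b * z := congrArg Subtype.val hx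
  refine ⟨φ⁻¹ * x * φ, ?_, ?_⟩
  · calc φ⁻¹ * x * φ * a * (φ⁻¹ * x * φ)⁻¹ = φ⁻¹ * (x * (φ * a * φ⁻¹) * (x : G)⁻¹) * φ := by group
      _ = φ⁻¹ * z * φ := by rw [hφa, hc x, mul_inv_cancel_right]
      _ = φ⁻¹ * (φ * a * φ⁻¹) * φ := by rw [hφa]
      _ = a := by group
  · calc φ⁻¹ * x * φ * z * (φ⁻¹ * x * φ)⁻¹ = φ⁻¹ * (x * (φ * z * φ⁻¹) * (x : G)⁻¹) * φ := by group
      _ = φ⁻¹ * ((φ * z * φ⁻¹) * (φ * a * φ⁻¹)) * φ := by rw [hφz, hx', hφa]
      _ = z * a := by group

/-- Let p be an odd prime and G a finite group with a Sylow p-subgroup P that is extraspecial of order p³ and exponent p. If all nonidentity elements of P are conjugate in G, then p ≤ 7. -/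
theorem result {G : Type*} [Group G] [Finite G]
    {p : ℕ} [Fact p.Prime] (hp : p ≠ 2) (P : Sylow p G) (hE : Cfsg.IsExtraspecial p ↥P)
    (hcard : Nat.card P = p ^ 3) (hexp : Monoid.exponent ↥P = p)
    (hconj : ∀ x y : ↥P, x ≠ 1 → y ≠ 1 → ∃ g : G, g * (x : G) * g⁻¹ = (y : G)) :
    p ≤ 7 := by
  classical
  have hpr : p.Prime := Fact.out
  obtain ⟨a0, x0, hax⟩ := CfsgLib.PGroups.IsExtraspecial.exists_not_commute hE
  haveI : Nontrivial (Subgroup.center ↥P) :=
    Finite.one_lt_card_iff_nontrivial.1 (by rw [hE.2]; exact hpr.one_lt)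
  obtain ⟨⟨z, hz⟩, hz1⟩ := exists_ne (1 : Subgroup.center ↥P)
  have hz1' : z ≠ 1 := fun h => hz1 (Subtype.ext h)
  have hap : a0 ^ p = 1 := pow_prime_eq_one P hexp a0
  let a : Option (ZMod p) → ↥P := fun t => t.elim a0 fun t => x0 * a0 ^ t.val
  have hne : ∀ i j, i ≠ j → a i * a j ≠ a j * a i := by
    have h0 : ∀ t : ZMod p, a0 * (x0 * a0 ^ t.val) ≠ x0 * a0 ^ t.val * a0 := fun t h => hax (by
      refine mul_right_cancel (b := a0 ^ t.val) ?_
      rw [mul_assoc, h, mul_assoc, (Commute.self_pow a0 t.val).eq.symm, ← mul_assoc])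
    intro i j hij
    rcases i with _ | s <;> rcases j with _ | t
    · exact absurd rfl hij
    · exact h0 t
    · exact (h0 s).symm
    · intro h
      have hd : t - s ≠ 0 := sub_ne_zero.2 fun e => hij (by rw [e])
      have e1 : a0 ^ t.val = a0 ^ s.val * a0 ^ (t - s).val := by
        rw [← pow_add]
        exact zmod_pow_eq hap (by
          push_cast; rw [ZMod.natCast_zmod_val, ZMod.natCast_zmod_val, ZMod.natCast_zmod_val]; ring)
      change x0 * a0 ^ s.val * (x0 * a0 ^ t.val) = x0 * a0 ^ t.val * (x0 * a0 ^ s.val) at h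
      have h5 : a0 ^ s.val * (x0 * a0 ^ t.val) = a0 ^ t.val * (x0 * a0 ^ s.val) :=
        mul_left_cancel (a := x0) (by rw [← mul_assoc, h, mul_assoc])
      rw [e1] at h5
      have h6 : x0 * (a0 ^ s.val * a0 ^ (t - s).val) = a0 ^ (t - s).val * (x0 * a0 ^ s.val) :=
        mul_left_cancel (a := a0 ^ s.val) (by rw [h5, mul_assoc])
      have e2 : Commute (a0 ^ (t - s).val) x0 := mul_right_cancel (b := a0 ^ s.val) (by
        rw [mul_assoc, ← h6, (Commute.pow_pow_self a0 s.val _).eq, mul_assoc])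
      have e3 := (e2.pow_left ((t - s)⁻¹).val)
      rw [← pow_mul, show a0 ^ ((t - s).val * ((t - s)⁻¹).val) = a0 ^ 1 from zmod_pow_eq hap (by
        push_cast; rw [ZMod.natCast_zmod_val, ZMod.natCast_zmod_val, mul_inv_cancel₀ hd]), pow_one] at e3
      exact hax e3
  have ha : ∀ i, a i ∉ Subgroup.center ↥P := by
    intro i hi
    obtain ⟨j, hj⟩ := exists_ne i
    exact hne i j hj.symm (Subgroup.mem_center_iff.1 hi (a j)).symm
  have hY : ∀ i, ∃ Y : G, Y * a i * Y⁻¹ = (a i : G) ∧ Y * z * Y⁻¹ = (z : G) * a i := by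
    intro i
    obtain ⟨g, hg⟩ := hconj (a i) z (fun h => ha i (h ▸ one_mem _)) hz1'
    exact exists_transvection P hE hexp hz hz1' (ha i) hg
  obtain ⟨h1, h2⟩ := card_planes_le P hp hE hcard hexp hz hz1' a ha hne hY
  rw [Fintype.card_option, ZMod.card] at h1 h2
  by_contra hc
  by_cases h13 : p = 13
  · have := h2 h13; omega
  refine absurd (h1 ?_) (by omega)
  by_cases h11 : p = 11
  · exact Or.inr h11
  left
  by_contra h17
  interval_cases p <;> first | omega | exact absurd hpr (by norm_num)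

end Cfsg.Agent.S3055
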