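import Cfsg.Statements.S3058
import Cfsg.Agent.S3056
import Cfsg.Agent.Lib.CoprimeAction.Abelian

set_option autoImplicit false
open Cfsg

namespace Cfsg.Agent.S3058

/-- Let p be a prime and G a finite group whose Sylow p-subgroups are not chain-connected through nontrivial intersections (so G has a strongly p-embedded subgroup). If N and M are normal subgroups of G whose orders are both divisible by p, then the order of N ∩ M is divisible by p. Consequently, among the normal subgroups of G whose order is divisible by p there is a smallest one (the intersection of all of them). -/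
theorem result {G : Type*} [Group G] [Finite G]
    (p : ℕ) [Fact p.Prime] (hG : ¬ Cfsg.IsSylowChainConnected p G)
    (N M : Subgroup G) [N.Normal] [M.Normal] (hN : p ∣ Nat.card N) (hM : p ∣ Nat.card M) :
    p ∣ Nat.card ↥(N ⊓ M) := by
  by_contra hd
  obtain ⟨H, hH, hpH, hse⟩ := (Cfsg.Agent.S3056.result p).1 hG
  have hspe := CfsgLib.StronglyPEmbedded.spe_of_forall_not_dvd hH hpH hse
  obtain ⟨P, hPH, -⟩ := CfsgLib.StronglyPEmbedded.exists_sylow_le hspe
  have hmem : ∀ L : Subgroup G, L.Normal → p ∣ Nat.card L →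
      ∃ x, x ∈ L ∧ x ∈ (P : Subgroup G) ∧ orderOf x = p := by
    intro L hL hdvd
    obtain ⟨⟨x, hx⟩, hxo⟩ := exists_prime_orderOf_dvd_card' p hdvd
    rw [Subgroup.orderOf_mk] at hxo
    obtain ⟨T, hT⟩ := (IsPGroup.of_card (n := 1) (by rw [Nat.card_zpowers, hxo, pow_one]) :
      IsPGroup p (Subgroup.zpowers x)).exists_le_sylow
    obtain ⟨g, hg⟩ := MulAction.exists_smul_eq G T P
    refine ⟨g * x * g⁻¹, hL.conj_mem x hx g, ?_, ?_⟩
    · rw [← hg, Sylow.coe_subgroup_smul]
      exact Subgroup.smul_mem_pointwise_smul _ (MulAut.conj g) _ (hT (Subgroup.mem_zpowers x))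
    · exact ((MulAut.conj g).orderOf_eq x).trans hxo
  obtain ⟨x, hxN, hxP, hxo⟩ := hmem N inferInstance hN
  obtain ⟨y, hyM, hyP, hyo⟩ := hmem M inferInstance hM
  set D := N ⊓ M with hD
  have hnot : ∀ z : G, orderOf z = p → z ∉ D := fun z hz hzD =>
    hd (hz ▸ Subgroup.orderOf_dvd_natCard _ hzD)
  have hcop : (Nat.card D).Coprime p := ((Fact.out : p.Prime).coprime_iff_not_dvd.2 hd).symm
  have hxy : x * y = y * x := by
    have h1 : x * y * x⁻¹ * y⁻¹ ∈ D := by
      refine Subgroup.mem_inf.2 ⟨?_, ?_⟩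
      · have := mul_mem hxN ((inferInstance : N.Normal).conj_mem _ (inv_mem hxN) y)
        simpa [mul_assoc] using this
      · exact mul_mem ((inferInstance : M.Normal).conj_mem y hyM x) (inv_mem hyM)
    have h2 : x * y * x⁻¹ * y⁻¹ ∈ (P : Subgroup G) :=
      (P : Subgroup G).mul_mem ((P : Subgroup G).mul_mem ((P : Subgroup G).mul_mem hxP hyP)
        ((P : Subgroup G).inv_mem hxP)) ((P : Subgroup G).inv_mem hyP)
    obtain ⟨k, hk⟩ := IsPGroup.iff_card.1 P.2
    have h3 : x * y * x⁻¹ * y⁻¹ = 1 := orderOf_eq_one_iff.1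
      (Nat.eq_one_of_dvd_coprimes (hcop.pow_right k) (Subgroup.orderOf_dvd_natCard _ h1)
        (hk ▸ Subgroup.orderOf_dvd_natCard _ h2))
    exact mul_inv_eq_iff_eq_mul.1 (mul_inv_eq_one.1 h3)
  set A := Subgroup.closure ({x, y} : Set G) with hA
  haveI : IsMulCommutative A := Subgroup.isMulCommutative_closure (by
    rintro a (rfl | rfl) b (rfl | rfl) <;> first | rfl | exact hxy | exact hxy.symm)
  have hAP : A ≤ (P : Subgroup G) := (Subgroup.closure_le _).2 (by rintro a (rfl | rfl) <;> assumption)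
  have hxp : x ^ p = 1 := hxo ▸ pow_orderOf_eq_one x
  have hyp : y ^ p = 1 := hyo ▸ pow_orderOf_eq_one y
  have hAexp : ∀ a ∈ A, a ^ p = 1 := by
    intro a ha
    induction ha using Subgroup.closure_induction with
    | mem a ha => rcases ha with rfl | rfl <;> assumption
    | one => exact one_pow p
    | mul a b ha hb iha ihb =>
      rw [(show Commute a b from congrArg Subtype.val (mul_comm' (⟨a, ha⟩ : A) ⟨b, hb⟩)).mul_pow,
        iha, ihb, one_mul]
    | inv a _ iha => rw [inv_pow, iha, inv_one]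
  have hxA : x ∈ A := Subgroup.subset_closure (Or.inl rfl)
  have hyA : y ∈ A := Subgroup.subset_closure (Or.inr rfl)
  have hAnc : ¬ IsCyclic A := by
    intro hc
    obtain ⟨⟨g, hg⟩, hgen⟩ := hc.exists_generator
    have hA' : A = Subgroup.zpowers g := by
      refine le_antisymm (fun a ha => ?_) (Subgroup.zpowers_le.2 hg)
      obtain ⟨i, hi⟩ := hgen ⟨a, ha⟩
      exact ⟨i, congrArg Subtype.val hi⟩
    have hle : ∀ z ∈ A, orderOf z = p → Subgroup.zpowers z = A := fun z hz hzo =>
      Subgroup.eq_of_le_of_card_ge (Subgroup.zpowers_le.2 hz) (by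
        rw [hA', Nat.card_zpowers, Nat.card_zpowers, hzo]
        exact Nat.le_of_dvd (Fact.out : p.Prime).pos (orderOf_dvd_of_pow_eq_one (hAexp g hg)))
    have hyx : y ∈ Subgroup.zpowers x := by rw [hle x hxA hxo]; exact hyA
    exact hnot y hyo ⟨Subgroup.zpowers_le.2 hxN hyx, hyM⟩
  have hDH : D ≤ H := by
    refine CfsgLib.CoprimeAction.le_of_centralizers hAnc
      (le_top.trans (Subgroup.normalizer_eq_top (H := D)).ge) ?_ ?_
    · obtain ⟨k, hk⟩ := IsPGroup.iff_card.1 (P.2.to_le hAP)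
      rw [hk]
      exact (hcop.pow_right k).symm
    · exact fun a ha ha1 => inf_le_right.trans
        (CfsgLib.StronglyPEmbedded.centralizer_le_of_spe hspe (k := 1)
          (by rw [pow_one]; exact hAexp a ha) ha1 (hPH (hAP ha)))
  have hstep : ∀ g : G, g * y * g⁻¹ ∈ H → g⁻¹ ∈ H := by
    intro g hg
    by_contra hgH
    refine hse g⁻¹ hgH (hyo ▸ Subgroup.orderOf_dvd_natCard _ (Subgroup.mem_inf.2 ⟨hPH hyP, ?_⟩))
    exact ⟨g * y * g⁻¹, hg, by simp [mul_assoc]⟩
  have hNH : N ≤ H := by
    intro n hn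
    have h1 : n * y * n⁻¹ * y⁻¹ ∈ D := by
      refine Subgroup.mem_inf.2 ⟨?_, ?_⟩
      · have := mul_mem hn ((inferInstance : N.Normal).conj_mem _ (inv_mem hn) y)
        simpa [mul_assoc] using this
      · exact mul_mem ((inferInstance : M.Normal).conj_mem y hyM n) (inv_mem hyM)
    have h2 : n * y * n⁻¹ ∈ H := by
      have := mul_mem (hDH h1) (hPH hyP)
      rwa [inv_mul_cancel_right] at this
    simpa using inv_mem (hstep n h2)
  refine hH (eq_top_iff.2 fun g _ => ?_)
  by_contra hg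
  refine hse g hg (hxo ▸ Subgroup.orderOf_dvd_natCard _ (Subgroup.mem_inf.2 ⟨hPH hxP, ?_⟩))
  exact ⟨g⁻¹ * x * g, hNH (by simpa using (inferInstance : N.Normal).conj_mem x hxN g⁻¹),
    by simp [mul_assoc]⟩
end Cfsg.Agent.S3058
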