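import Cfsg.Statements.S3059
import Cfsg.Agent.Lib.StronglyPEmbedded.Basic
import Cfsg.Agent.Lib.Transfer.Residual

set_option autoImplicit false
open Cfsg

namespace Cfsg.Agent.S3059

/-- Let p be a prime and H a strongly p-embedded subgroup of the finite group G in the classical sense: H is proper, p divides the order of H, and H ∩ gHg⁻¹ has order prime to p for every g outside H. Then for every normal subgroup N of G of order divisible by p, G = H · O^p(N), where O^p(N) is the subgroup generated by the elements of N of order prime to p. -/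
theorem result {G : Type*} [Group G] [Finite G]
    (p : ℕ) [Fact p.Prime] (H : Subgroup G) (hH : H ≠ ⊤) (hpH : p ∣ Nat.card H)
    (hse : ∀ g : G, g ∉ H → ¬ p ∣ Nat.card ↥(H ⊓ H.map (MulAut.conj g).toMonoidHom))
    (N : Subgroup G) [N.Normal] (hN : p ∣ Nat.card N) :
    H ⊔ Subgroup.closure {g : G | g ∈ N ∧ (orderOf g).Coprime p} = ⊤ := by
  have hspe : Cfsg.IsStronglyPEmbedded p H :=
    CfsgLib.StronglyPEmbedded.spe_of_forall_not_dvd hH hpH hse
  obtain ⟨S, hSH, hSN⟩ := CfsgLib.StronglyPEmbedded.exists_sylow_le hspe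
  let P : Sylow p N := (IsPGroup.comap_subtype (K := N) S.2).exists_le_sylow.choose
  have hP : (S : Subgroup G).comap N.subtype ≤ P :=
    (IsPGroup.comap_subtype (K := N) S.2).exists_le_sylow.choose_spec
  set R := Subgroup.closure {g : G | g ∈ N ∧ (orderOf g).Coprime p}
  have hres : (Cfsg.pResidual p N).map N.subtype ≤ R := by
    rw [Cfsg.pResidual, MonoidHom.map_closure, Subgroup.closure_le]
    rintro _ ⟨g, hg, rfl⟩
    refine Subgroup.subset_closure ⟨g.2, ?_⟩
    rw [Subgroup.coe_subtype, Subgroup.orderOf_coe]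
    exact hg
  -- `P = S ⊓ N` lies in `H`
  have hPS : (P : Subgroup N).map N.subtype ≤ S := by
    obtain ⟨T, hT⟩ := (P.2.map N.subtype).exists_le_sylow
    obtain ⟨g, hg⟩ := MulAction.exists_smul_eq G T S
    have hsmall : Nat.card (P : Subgroup N) ≤ Nat.card ((S : Subgroup G).comap N.subtype) := by
      have hmap : (((P : Subgroup N).map N.subtype).map (MulAut.conj g).toMonoidHom)
          ≤ ((S : Subgroup G).comap N.subtype).map N.subtype := by
        rintro _ ⟨_, ⟨y, hy, rfl⟩, rfl⟩
        have hN' : g * (y : G) * g⁻¹ ∈ N := (inferInstance : N.Normal).conj_mem _ y.2 g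
        refine ⟨⟨_, hN'⟩, ?_, rfl⟩
        show g * (y : G) * g⁻¹ ∈ S
        rw [← hg]
        exact ⟨(y : G), hT ⟨y, hy, rfl⟩, rfl⟩
      have hcard := Nat.card_le_card_of_injective _ (Subgroup.inclusion_injective hmap)
      rwa [← Nat.card_congr (Subgroup.equivMapOfInjective _ _ (MulEquiv.injective _)).toEquiv,
        ← Nat.card_congr (Subgroup.equivMapOfInjective _ _ N.subtype_injective).toEquiv,
        ← Nat.card_congr (Subgroup.equivMapOfInjective _ _ N.subtype_injective).toEquiv] at hcard
    rw [← Subgroup.eq_of_le_of_card_ge hP hsmall]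
    exact Subgroup.map_comap_le _ _
  have hPbot : (P : Subgroup N).map N.subtype ≠ ⊥ := by
    rw [Ne, Subgroup.map_eq_bot_iff_of_injective _ N.subtype_injective]
    exact P.ne_bot_of_dvd_card hN
  have hnorm := hSN _ hPS hPbot
  rw [eq_top_iff, ← Sylow.normalizer_sup_eq_top P]
  refine sup_le (hnorm.trans le_sup_left) ?_
  intro x hx
  have hx' : (⟨x, hx⟩ : N) ∈ (P : Subgroup N) ⊔ Cfsg.pResidual p N := by
    rw [CfsgLib.Transfer.sylow_sup_pResidual_eq_top P]
    trivial
  have h2 := Subgroup.mem_map_of_mem N.subtype hx'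
  rw [Subgroup.map_sup] at h2
  exact (sup_le_sup (hPS.trans hSH) hres) h2

end Cfsg.Agent.S3059
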