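import Cfsg.Statements.S3060
import Cfsg.Agent.Lib.Replacement.DStar
import Cfsg.Agent.Lib.Cores.PCore

set_option autoImplicit false
open Cfsg

namespace Cfsg.Agent.S3060

open CfsgLib.Replacement
open scoped commutatorElement

/-- The D*-Theorem. For a finite p-group S let D*(S) be the subgroup generated by the abelian subgroups A of S such that every x ∈ S with ⟨A, x⟩ of nilpotency class at most two centralizes A. Let p be an odd prime and H a finite p-stable group with Sylow p-subgroup S. Here H is p-stable in the following sense: the largest normal p-subgroup O_p(H) contains its centralizer in H, and for every normal p-subgroup P of H, every element acting quadratically on P has image in O_p(H/C_H(P)). Then D*(S) is a normal subgroup of H. -/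
theorem result {G : Type*} [Group G] [Finite G] {p : ℕ} [Fact p.Prime] (hp : p ≠ 2)
    (hc : Subgroup.centralizer (Cfsg.pCore p G : Set G) ≤ Cfsg.pCore p G)
    (hst : ∀ (P : Subgroup G) [P.Normal], IsPGroup p P → Cfsg.IsPStableOn p P) (S : Sylow p G) :
    (Cfsg.dStarOf (S : Subgroup G)).Normal := by
  set D := Cfsg.dStarOf (S : Subgroup G) with hDdef
  set Q := Cfsg.pCore p G with hQdef
  have hQp : IsPGroup p Q := CfsgLib.Cores.isPGroup_pCore p G
  have hQn : Q.Normal := inferInstance
  have hQS : Q ≤ (S : Subgroup G) := CfsgLib.Cores.pCore_le_sylow S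
  have hDm : IsDMember (S : Subgroup G) D := isDMember_dStarOf S.2
  have hSD : (S : Subgroup G) ≤ Subgroup.normalizer (D : Set G) :=
    Subgroup.le_normalizer.trans (normalizer_le_normalizer_dStarOf _)
  -- `D ≤ O_p(G)`
  have hDQ : D ≤ Q := by
    intro a ha
    have hquad : ⁅⁅Q, Subgroup.zpowers a⁆, Subgroup.zpowers a⁆ = ⊥ := by
      have hz : Subgroup.zpowers a ≤ D := Subgroup.zpowers_le.mpr ha
      have h1 : ⁅Q, Subgroup.zpowers a⁆ ≤ D := by
        rw [Subgroup.commutator_le]
        intro v hv b hb
        exact mul_mem ((Subgroup.mem_normalizer_iff.mp (hSD (hQS hv)) b).mp (hz hb)) (inv_mem (hz hb))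
      rw [Subgroup.commutator_eq_bot_iff_le_centralizer]
      exact fun u hu => Subgroup.mem_centralizer_iff.mpr fun b hb => hDm.comm b (hz hb) u (h1 hu)
    have h := hst Q hQp a hquad
    have : IsPGroup p ((Cfsg.pCore p (G ⧸ Subgroup.centralizer (Q : Set G))).comap
        (QuotientGroup.mk' (Subgroup.centralizer (Q : Set G)))) := by
      refine IsPGroup.comap_of_ker_isPGroup (CfsgLib.Cores.isPGroup_pCore p _) _ ?_
      rw [QuotientGroup.ker_mk']
      exact hQp.to_le hc
    exact CfsgLib.Cores.le_pCore this h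
  -- the normal closure of `D` is abelian
  set W := Subgroup.normalClosure (D : Set G) with hW
  have hWQ : W ≤ Q := Subgroup.normalClosure_le_normal hDQ
  have hWn : W.Normal := Subgroup.normalClosure_normal
  have hcomm1 : ∀ g : G, ∀ d ∈ D, ∀ e ∈ D, (g * d * g⁻¹) * e = e * (g * d * g⁻¹) := by
    intro g d hd e he
    have h1 := (hDm.of_le hQS hDQ).map (f := (MulAut.conj g).toMonoidHom) (MulAut.conj g).injective
    rw [map_conj_eq_self_of_mem_normalizer
      (show g ∈ Subgroup.normalizer (Q : Set G) from Subgroup.normalizer_eq_top (H := Q) ▸ Subgroup.mem_top g)] at h1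
    have := hQp.isNilpotent
    exact h1.centralizes_normal hDQ (hQS.trans hSD) hDm.comm e he _ ⟨d, hd, rfl⟩
  have hWc : IsMulCommutative W := by
    rw [hW, Subgroup.normalClosure]
    refine Subgroup.isMulCommutative_closure ?_
    intro u hu v hv
    obtain ⟨d, hd, hdu⟩ := Group.mem_conjugatesOfSet_iff.mp hu
    obtain ⟨e, he, hev⟩ := Group.mem_conjugatesOfSet_iff.mp hv
    obtain ⟨g, rfl⟩ := isConj_iff.mp hdu
    obtain ⟨k, rfl⟩ := isConj_iff.mp hev
    have := hcomm1 (k⁻¹ * g) d hd e he
    calc g * d * g⁻¹ * (k * e * k⁻¹) = k * (k⁻¹ * g * d * (k⁻¹ * g)⁻¹ * e) * k⁻¹ := by group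
      _ = k * (e * (k⁻¹ * g * d * (k⁻¹ * g)⁻¹)) * k⁻¹ := by rw [this]
      _ = _ := by group
  have hWcomm : ∀ a ∈ W, ∀ b ∈ W, a * b = b * a := fun a ha b hb =>
    congrArg Subtype.val (mul_comm' (⟨a, ha⟩ : W) ⟨b, hb⟩)
  -- the normal closure is a member
  have hWm : IsDMember (S : Subgroup G) W := by
    refine ⟨hWQ.trans hQS, hWcomm, fun x hx hyp => ?_⟩
    have hquad : ⁅⁅W, Subgroup.zpowers x⁆, Subgroup.zpowers x⁆ = ⊥ := by
      refine le_bot_iff.mp (le_of_le_of_eq ?_ (class_two_of_pair hWcomm hyp))
      exact Subgroup.commutator_mono (Subgroup.commutator_mono le_sup_left le_sup_right) le_sup_right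
    have hx' := hst W (hQp.to_le hWQ) x hquad
    let π := QuotientGroup.mk' (Subgroup.centralizer (W : Set G))
    have hgen : W ≤ Subgroup.centralizer ({x} : Set G) := by
      have : (Subgroup.centralizer ({x} : Set G)) ⊓ W = W := by
        refine le_antisymm inf_le_right ?_
        conv_lhs => rw [hW, Subgroup.normalClosure]
        rw [Subgroup.closure_le]
        intro u hu
        have huW : u ∈ W := Subgroup.conjugatesOfSet_subset_normalClosure hu
        obtain ⟨d, hd, hdu⟩ := Group.mem_conjugatesOfSet_iff.mp hu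
        obtain ⟨g, rfl⟩ := isConj_iff.mp hdu
        refine Subgroup.mem_inf.mpr ⟨Subgroup.mem_centralizer_singleton_iff.mpr ?_, huW⟩
        -- find a representative of `x` in the conjugate Sylow subgroup
        have hle := CfsgLib.Cores.pCore_le_sylow ((g • S).mapSurjective
          (QuotientGroup.mk'_surjective (Subgroup.centralizer (W : Set G)))) hx'
        obtain ⟨t, ht, htx⟩ := hle
        obtain ⟨c, hc, htc⟩ : ∃ c ∈ Subgroup.centralizer (W : Set G), t = x * c :=
          ⟨x⁻¹ * t, QuotientGroup.eq.mp htx.symm, (mul_inv_cancel_left x t).symm⟩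
        have hcW : ∀ a ∈ W, a * c = c * a := fun a ha => Subgroup.mem_centralizer_iff.mp hc a ha
        have hm := hDm.map (f := (MulAut.conj g).toMonoidHom) (MulAut.conj g).injective
        have hDW : D.map (MulAut.conj g).toMonoidHom ≤ W := by
          rintro _ ⟨e, he, rfl⟩
          exact hWn.conj_mem e (Subgroup.subset_normalClosure he) g
        have key : ∀ a ∈ W, ⁅a, t⁆ = ⁅a, x⁆ := fun a ha => by
          rw [htc, commutatorElement_def, commutatorElement_def]
          calc a * (x * c) * a⁻¹ * (x * c)⁻¹ = a * x * (c * a⁻¹) * c⁻¹ * x⁻¹ := by group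
            _ = a * x * (a⁻¹ * c) * c⁻¹ * x⁻¹ := by rw [hcW a⁻¹ (inv_mem ha)]
            _ = _ := by group
        have hcomm := hm.rigid t ht (fun a ha => by
          have hz : ⁅a, x⁆ ∈ W := by
            have := hWn.conj_mem a⁻¹ (inv_mem (hDW ha)) x
            rw [commutatorElement_def, mul_assoc a, mul_assoc a]
            exact mul_mem (hDW ha) this
          obtain ⟨h1, h2⟩ := hyp a (hDW ha)
          rw [key a (hDW ha)]
          refine ⟨?_, fun b hb => h2 b (hDW hb)⟩
          rw [htc]
          exact h1.mul_right (hcW _ hz)) (g * d * g⁻¹) ⟨d, hd, rfl⟩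
        rw [htc, ← mul_assoc, mul_assoc x, ← hcW _ huW, ← mul_assoc] at hcomm
        exact mul_right_cancel hcomm
      rw [← this]
      exact inf_le_left
    exact fun a ha => Subgroup.mem_centralizer_singleton_iff.mp (hgen ha)
  have hWD : W = D := le_antisymm (le_dStarOf hWm) Subgroup.subset_normalClosure
  exact hWD ▸ hWn

end Cfsg.Agent.S3060
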