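import Cfsg.Statements.S3061
import Cfsg.Agent.Lib.Replacement.DStar

set_option autoImplicit false
open Cfsg

namespace Cfsg.Agent.S3061

open CfsgLib.Replacement

theorem dStarOf_top (S : Type*) [Group S] : Cfsg.dStarOf (⊤ : Subgroup S) = Cfsg.dStar S := by
  rw [dStarOf_eq_sSup, Cfsg.dStar]
  congr 1
  exact Set.ext fun A => isDMember_top_iff

/-- Let S be a finite p-group. Then D*(S) itself belongs to the family that generates it: D*(S) is abelian, and every x ∈ S with ⟨D*(S), x⟩ of class at most two centralizes D*(S). Hence D*(S) is the unique maximal member of that family. -/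
theorem result {S : Type*} [Group S] [Finite S] {p : ℕ} [Fact p.Prime] (hS : IsPGroup p S) :
    Cfsg.dStar S ∈ Cfsg.dStarFamily S := by
  have h := isDMember_dStarOf (p := p) (hS.to_subgroup (⊤ : Subgroup S))
  rw [dStarOf_top] at h
  exact isDMember_top_iff.mp h

end Cfsg.Agent.S3061
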