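import Cfsg.Statements.S3062
import Cfsg.Agent.Lib.Replacement.DStar

set_option autoImplicit false
open Cfsg

namespace Cfsg.Agent.S3062

open CfsgLib.Replacement

theorem dStarOf_top (S : Type*) [Group S] : Cfsg.dStarOf (⊤ : Subgroup S) = Cfsg.dStar S := by
  rw [dStarOf_eq_sSup, Cfsg.dStar]
  congr 1
  exact Set.ext fun A => isDMember_top_iff

/-- Let S be a finite p-group, J(S) the subgroup generated by the abelian subgroups of S of largest order and Z(J(S)) its centre. Then Z(S) ≤ D*(S) ≤ Z(J(S)), and every maximal normal abelian subgroup of S contains D*(S). -/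
theorem result {S : Type*} [Group S] [Finite S] {p : ℕ} [Fact p.Prime]
    (hS : IsPGroup p S) :
    Subgroup.center S ≤ Cfsg.dStar S ∧
    Cfsg.dStar S ≤ Cfsg.thompsonSubgroupA S ⊓ Subgroup.centralizer (Cfsg.thompsonSubgroupA S : Set S) ∧
    ∀ A : Subgroup S, A.Normal → IsMulCommutative A →
      (∀ B : Subgroup S, B.Normal → IsMulCommutative B → A ≤ B → B = A) → Cfsg.dStar S ≤ A := by
  have hT : IsPGroup p (⊤ : Subgroup S) := hS.to_subgroup _
  have hD := isDMember_dStarOf (p := p) hT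
  rw [dStarOf_top] at hD
  have hmem : ∀ A : Subgroup S, A ∈ Cfsg.maxAbelianSubgroups S → Cfsg.dStar S ≤ A := by
    intro A hA
    have hc : ∀ a ∈ A, ∀ b ∈ A, a * b = b * a := fun a ha b hb => by
      have := hA.1
      exact congrArg Subtype.val (mul_comm' (⟨a, ha⟩ : A) ⟨b, hb⟩)
    have h := dStarOf_le_of_maxAbelian (p := p) hT (le_top : A ≤ ⊤) hc fun B _ hB =>
      hA.2 B ⟨⟨fun a b => Subtype.ext (hB a a.2 b b.2)⟩⟩
    rwa [dStarOf_top] at h
  refine ⟨le_sSup ?_, le_inf ?_ ?_, fun A hAn hAc hAmax => ?_⟩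
  · exact ⟨inferInstance, fun x _ a ha => (Subgroup.mem_center_iff.mp ha x).symm⟩
  · obtain ⟨A, hA, hmax⟩ := Set.Finite.exists_maximalFor (fun B : Subgroup S => Nat.card B)
      {B | IsMulCommutative B} (Set.toFinite _) ⟨⊥, ⟨⟨fun a b => Subsingleton.elim _ _⟩⟩⟩
    have hA' : A ∈ Cfsg.maxAbelianSubgroups S :=
      ⟨hA, fun B hB => (le_total (Nat.card B) (Nat.card A)).elim id (fun h => hmax hB h)⟩
    exact (hmem A hA').trans (le_sSup hA')
  · rw [Subgroup.le_centralizer_iff]
    refine sSup_le fun A hA a ha => Subgroup.mem_centralizer_iff.mpr fun d hd => ?_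
    have := hA.1
    exact congrArg Subtype.val (mul_comm' (⟨d, hmem A hA hd⟩ : A) ⟨a, ha⟩)
  · obtain ⟨M, hAM, hMn, hM, hMc⟩ :=
      CfsgLib.TwoGroups.exists_normal_abelian_centralizer_eq hS hAn hAc
    have hMA : M = A := hAmax M hMn hM hAM
    subst hMA
    refine hD.le_of_self_centralizing hT le_top ?_ ?_ ?_
    · rw [Subgroup.normalizer_eq_top]
    · exact fun a ha b hb => congrArg Subtype.val (mul_comm' (⟨a, ha⟩ : M) ⟨b, hb⟩)
    · exact le_of_le_of_eq inf_le_right hMc

end Cfsg.Agent.S3062
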