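import Cfsg.Statements.S3063
import Cfsg.Agent.Lib.ThompsonJ.Replacement

set_option autoImplicit false
open Cfsg

namespace Cfsg.Agent.S3063

open scoped commutatorElement

theorem isMulComm_sup {S : Type*} [Group S] {U V : Subgroup S}
    (hU : ∀ a ∈ U, ∀ b ∈ U, a * b = b * a) (hV : ∀ a ∈ V, ∀ b ∈ V, a * b = b * a)
    (hUV : ∀ a ∈ U, ∀ b ∈ V, a * b = b * a) : IsMulCommutative ↥(U ⊔ V) := by
  rw [show U ⊔ V = Subgroup.closure ((U : Set S) ∪ V) by
    rw [Subgroup.closure_union, Subgroup.closure_eq, Subgroup.closure_eq]]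
  refine Subgroup.isMulCommutative_closure ?_
  rintro a (ha | ha) b (hb | hb)
  · exact hU a ha b hb
  · exact hUV a ha b hb
  · exact (hUV b hb a ha).symm
  · exact hV a ha b hb

/-- The replacement step for metabelian groups. -/
theorem exists_bigger {S : Type*} [Group S] [Finite S] (hmeta : IsMulCommutative ↥(commutator S))
    {N : Subgroup S} [N.Normal] {A : Subgroup S} (hA : A ∈ Cfsg.maxAbelianSubgroups S) (hAN : A ≤ N)
    {x : S} {a₀ : S} (ha₀ : a₀ ∈ A) (hax : ⁅a₀, x⁆ ∉ A) :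
    ∃ B ∈ Cfsg.maxAbelianSubgroups S, B ≤ N ∧
      Nat.card ↥(A ⊓ commutator S) < Nat.card ↥(B ⊓ commutator S) := by
  classical
  obtain ⟨hAc, hAmax⟩ := hA
  have hAcomm : ∀ a ∈ A, ∀ b ∈ A, a * b = b * a := fun a ha b hb =>
    congrArg Subtype.val (mul_comm' (⟨a, ha⟩ : A) ⟨b, hb⟩)
  set S' := commutator S with hS'
  have hS'c : ∀ a ∈ S', ∀ b ∈ S', a * b = b * a := fun a ha b hb =>
    congrArg Subtype.val (mul_comm' (⟨a, ha⟩ : S') ⟨b, hb⟩)
  have hcm : ∀ a b : S, ⁅a, b⁆ ∈ S' := fun a b =>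
    Subgroup.commutator_mem_commutator (Subgroup.mem_top a) (Subgroup.mem_top b)
  set W := A ⊓ S' with hW
  set U := Subgroup.closure ((fun a => ⁅a, x⁆) '' (A : Set S)) ⊔ W with hU
  have hgen : ∀ a ∈ A, ⁅a, x⁆ ∈ U := fun a ha =>
    Subgroup.mem_sup_left (Subgroup.subset_closure ⟨a, ha, rfl⟩)
  have hUS : U ≤ S' := sup_le ((Subgroup.closure_le _).2 (by rintro _ ⟨a, -, rfl⟩; exact hcm a x))
    inf_le_right
  have hUN : U ≤ N := by
    refine sup_le ((Subgroup.closure_le _).2 ?_) (inf_le_left.trans hAN)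
    rintro _ ⟨a, ha, rfl⟩
    show ⁅a, x⁆ ∈ N
    rw [commutatorElement_def, mul_assoc a, mul_assoc a]
    exact mul_mem (hAN ha) ((inferInstance : N.Normal).conj_mem _ (inv_mem (hAN ha)) x)
  set C := A ⊓ Subgroup.centralizer (U : Set S) with hC
  have hUC : ∀ u ∈ U, ∀ c ∈ C, u * c = c * u := fun u hu c hc =>
    Subgroup.mem_centralizer_iff.1 hc.2 u hu
  have hUc : IsMulCommutative ↥(U ⊔ C) := isMulComm_sup
    (fun a ha b hb => hS'c a (hUS ha) b (hUS hb)) (fun a ha b hb => hAcomm a ha.1 b hb.1) hUC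
  have hinf : U ⊓ C = W := by
    refine le_antisymm (fun z hz => ⟨hz.2.1, hUS hz.1⟩) (le_inf le_sup_right (le_inf inf_le_left ?_))
    exact fun z hz => Subgroup.mem_centralizer_iff.2 fun u hu => hS'c u (hUS hu) z hz.2
  -- the key property
  have hkey : ∀ d ∈ A, ⁅d, x⁆ ∈ A → d ∈ C := by
    intro d hd hdx
    refine ⟨hd, ?_⟩
    show d ∈ Subgroup.centralizer (U : Set S)
    rw [Subgroup.mem_centralizer_iff]
    have hle : U ≤ Subgroup.centralizer ({d} : Set S) := by
      refine sup_le ((Subgroup.closure_le _).2 ?_)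
        (fun w hw => Subgroup.mem_centralizer_singleton_iff.2 (hAcomm w hw.1 d hd))
      rintro _ ⟨a, ha, rfl⟩
      refine Subgroup.mem_centralizer_singleton_iff.2 ?_
      have h1 : ⁅d * a, x⁆ = ⁅a * d, x⁆ := by rw [hAcomm a ha d hd]
      rw [commutatorElement_mul_left_eq_conj_mul, commutatorElement_mul_left_eq_conj_mul,
        hAcomm a ha _ hdx, mul_inv_cancel_right, hS'c _ (hcm d x) _ (hcm a x), mul_left_inj,
        mul_inv_eq_iff_eq_mul] at h1
      exact h1.symm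
    exact fun u hu => Subgroup.mem_centralizer_singleton_iff.1 (hle hu)
  -- the count
  set W' := W.subgroupOf U with hW'
  haveI : W'.Normal := ⟨fun z hz u => by
    have h : u * z * u⁻¹ = z := Subtype.ext (by
      show (u : S) * z * (u : S)⁻¹ = z
      rw [hS'c _ (hUS u.2) _ (hUS z.2), mul_inv_cancel_right])
    rwa [h]⟩
  let g : A → U ⧸ W' := fun a => QuotientGroup.mk ⟨⁅(a : S), x⁆, hgen a a.2⟩
  have hfib : ∀ a b : A, g a = g b → (a : S)⁻¹ * b ∈ C := by
    intro a b h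
    have hm : ⁅(a : S), x⁆⁻¹ * ⁅(b : S), x⁆ ∈ A := (QuotientGroup.eq.1 h).1
    refine hkey _ (mul_mem (inv_mem a.2) b.2) ?_
    have e : ⁅(b : S), x⁆ = (a : S) * ⁅(a : S)⁻¹ * b, x⁆ * (a : S)⁻¹ * ⁅(a : S), x⁆ := by
      conv_lhs => rw [show (b : S) = a * ((a : S)⁻¹ * b) by group, commutatorElement_mul_left_eq_conj_mul]
    have e' : ⁅(a : S)⁻¹ * b, x⁆ = (a : S)⁻¹ * (⁅(b : S), x⁆ * ⁅(a : S), x⁆⁻¹) * a := by
      rw [e]; group
    rw [e', hS'c _ (hcm _ x) _ (inv_mem (hcm _ x))]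
    exact mul_mem (mul_mem (inv_mem a.2) hm) a.2
  let r : U ⧸ W' → A := fun q => if h : ∃ a, g a = q then h.choose else 1
  have hr : ∀ a, g (r (g a)) = g a := fun a => by
    show g (if h : ∃ b, g b = g a then h.choose else 1) = g a
    rw [dif_pos ⟨a, rfl⟩]
    exact (⟨a, rfl⟩ : ∃ b, g b = g a).choose_spec
  let F : A → (U ⧸ W') × C := fun a => (g a, ⟨(r (g a) : S)⁻¹ * a, hfib _ _ (hr a)⟩)
  have hF : Function.Injective F := by
    intro a b h
    have h1 : g a = g b := congrArg Prod.fst h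
    have h2 : (r (g a) : S)⁻¹ * a = (r (g b) : S)⁻¹ * b :=
      congrArg (fun z : (U ⧸ W') × C => (z.2 : S)) h
    rw [h1, mul_right_inj] at h2
    exact Subtype.ext h2
  have hle := Nat.card_le_card_of_injective F hF
  rw [Nat.card_prod] at hle
  have hUW : Nat.card (U ⧸ W') * Nat.card W = Nat.card U := by
    rw [← Nat.card_congr (Subgroup.subgroupOfEquivOfLe (le_sup_right : W ≤ U)).toEquiv]
    exact (Subgroup.card_eq_card_quotient_mul_card_subgroup W').symm
  have hprod := CfsgLib.ThompsonJ.card_sup_mul_card_inf U C (fun u hu =>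
    Subgroup.mem_normalizer_fintype fun c hc => by rwa [hUC u hu c hc, mul_inv_cancel_right])
  rw [hinf] at hprod
  have hge : Nat.card A ≤ Nat.card ↥(U ⊔ C) := by
    refine Nat.le_of_mul_le_mul_right ?_ (Nat.card_pos (α := W))
    calc Nat.card A * Nat.card W ≤ Nat.card (U ⧸ W') * Nat.card C * Nat.card W :=
          Nat.mul_le_mul_right _ hle
      _ = Nat.card ↥(U ⊔ C) * Nat.card W := by rw [hprod, ← hUW]; ring
  refine ⟨U ⊔ C, ⟨hUc, fun B hB => (hAmax B hB).trans hge⟩, sup_le hUN (inf_le_left.trans hAN), ?_⟩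
  have hWU : W < U := lt_of_le_of_ne le_sup_right fun h => hax (h.symm ▸ hgen a₀ ha₀ : ⁅a₀, x⁆ ∈ W).1
  refine lt_of_lt_of_le (lt_of_le_of_ne (Subgroup.card_le_of_le hWU.le) fun h =>
    hWU.ne (Subgroup.eq_of_le_of_card_ge hWU.le h.ge)) (Subgroup.card_le_of_le (le_inf le_sup_left hUS))
/-- A weak replacement Theorem for metabelian p-groups: let S be a finite p-group whose derived subgroup is abelian and A an abelian subgroup of S of largest possible order. Then the normal closure of A in S contains an abelian subgroup B of the same order as A that is normal in S. -/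
theorem result {S : Type*} [Group S] [Finite S] {p : ℕ} [Fact p.Prime]
    (hS : IsPGroup p S) (hmeta : IsMulCommutative ↥(commutator S))
    (A : Subgroup S) (hA : A ∈ Cfsg.maxAbelianSubgroups S) :
    ∃ B ∈ Cfsg.maxAbelianSubgroups S, B.Normal ∧ B ≤ Subgroup.normalClosure (A : Set S) := by
  obtain ⟨B, ⟨hB, hBN⟩, hBmax⟩ := Set.Finite.exists_maximalFor
    (fun B : Subgroup S => Nat.card ↥(B ⊓ commutator S))
    {B | B ∈ Cfsg.maxAbelianSubgroups S ∧ B ≤ Subgroup.normalClosure (A : Set S)} (Set.toFinite _)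
    ⟨A, hA, fun a ha => Subgroup.subset_normalClosure ha⟩
  refine ⟨B, hB, ⟨fun b hb x => ?_⟩, hBN⟩
  by_contra hx
  have hbx : ⁅b, x⁆ ∉ B := fun h => hx (by
    have h1 : x * b * x⁻¹ = ⁅b, x⁆⁻¹ * b := by rw [commutatorElement_def]; group
    rw [h1]
    exact mul_mem (inv_mem h) hb)
  obtain ⟨B', hB', hB'N, hlt⟩ := exists_bigger hmeta hB hBN hb hbx
  have h2 : Nat.card ↥(B' ⊓ commutator S) ≤ Nat.card ↥(B ⊓ commutator S) :=
    hBmax ⟨hB', hB'N⟩ hlt.le
  omega
end Cfsg.Agent.S3063
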