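import Cfsg.Statements.S3064
import Cfsg.Agent.Lib.Frobenius.Kernel
import Mathlib.GroupTheory.SchurZassenhaus

set_option autoImplicit false
open Cfsg

namespace Cfsg.Agent.S3064

universe u

/-- The hereditary form of the statement. -/
theorem central_aux (p : ℕ) [Fact p.Prime] (n : ℕ) :
    ∀ {G : Type u} [Group G] [Finite G], Nat.card G ≤ n → ∀ x : G,
      IsPGroup p (Subgroup.zpowers x) →
      (∀ g : G, ∀ R : Subgroup G, IsPGroup p R → x ∈ R → g⁻¹ * x * g ∈ R → g⁻¹ * x * g = x) →
      (∀ H : Subgroup G, (Nat.card H).Coprime p → (∀ h ∈ H, x * h * x⁻¹ ∈ H) →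
        ∀ h ∈ H, x * h = h * x) →
      x ∈ Subgroup.center G := by
  induction n with
  | zero =>
    intro G _ _ hle
    have := Nat.card_pos (α := G)
    omega
  | succ n ih =>
    intro G _ _ hle x hxp hW hb
    by_contra hxc
    have hx1 : x ≠ 1 := fun h => hxc (h ▸ one_mem _)
    have hsub : ∀ L : Subgroup G, L ≠ ⊤ → x ∈ L → ∀ l ∈ L, l * x = x * l := by
      intro L hL hxL l hl
      have hlt : Nat.card L < Nat.card G :=
        lt_of_le_of_ne (Subgroup.card_le_card_group L)
          (fun h => hL (Subgroup.card_eq_iff_eq_top L |>.mp h))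
      have hmem := ih (G := L) (by omega) ⟨x, hxL⟩ ?_ ?_ ?_
      · exact congrArg Subtype.val (Subgroup.mem_center_iff.mp hmem ⟨l, hl⟩)
      · intro a
        obtain ⟨k, hk⟩ : ∃ k : ℤ, (⟨x, hxL⟩ : L) ^ k = (a : L) := a.2
        obtain ⟨j, hj⟩ := hxp ⟨((a : L) : G), ⟨k, by simp [← hk]⟩⟩
        exact ⟨j, Subtype.ext (Subtype.ext (by simpa using congrArg Subtype.val hj))⟩
      · intro g R hR h1 h2
        exact Subtype.ext (hW (g : G) (R.map L.subtype) (hR.map _) ⟨_, h1, rfl⟩ ⟨_, h2, rfl⟩)
      · intro H hH hinv h hh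
        refine Subtype.ext (hb (H.map L.subtype) ?_ ?_ (h : G) ⟨h, hh, rfl⟩)
        · rwa [← Nat.card_congr (Subgroup.equivMapOfInjective H _
            L.subtype_injective).toEquiv]
        · rintro _ ⟨y, hy, rfl⟩
          exact ⟨_, hinv y hy, rfl⟩
    set M := Subgroup.centralizer ({x} : Set G) with hMdef
    set Z := Subgroup.center G with hZdef
    have hMtop : M ≠ ⊤ := fun h => hxc (Subgroup.mem_center_iff.mpr fun g =>
      Subgroup.mem_centralizer_singleton_iff.mp
        (show g ∈ M by rw [h]; exact Subgroup.mem_top g))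
    have hxM : x ∈ M := Subgroup.mem_centralizer_singleton_iff.mpr rfl
    have hZM : Z ≤ M := Subgroup.center_le_centralizer _
    have hTI : ∀ g : G, g ∉ M → ∀ t ∈ M, g⁻¹ * t * g ∈ M → t ∈ Z := by
      intro g hg t ht ht'
      by_contra htZ
      set C := Subgroup.centralizer ({t} : Set G)
      have hCtop : C ≠ ⊤ := fun h => htZ (Subgroup.mem_center_iff.mpr fun y =>
        Subgroup.mem_centralizer_singleton_iff.mp
          (show y ∈ C by rw [h]; exact Subgroup.mem_top y))
      have ht1 := Subgroup.mem_centralizer_singleton_iff.mp ht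
      have ht2 := Subgroup.mem_centralizer_singleton_iff.mp ht'
      have hxC : x ∈ C := Subgroup.mem_centralizer_singleton_iff.mpr ht1.symm
      have hyC : g * x * g⁻¹ ∈ C := by
        rw [Subgroup.mem_centralizer_singleton_iff]
        calc g * x * g⁻¹ * t = g * (x * (g⁻¹ * t * g)) * g⁻¹ := by group
          _ = g * ((g⁻¹ * t * g) * x) * g⁻¹ := by rw [ht2]
          _ = t * (g * x * g⁻¹) := by group
      have hcomm := hsub C hCtop hxC _ hyC
      have hy : g⁻¹⁻¹ * x * g⁻¹ = x := by
        refine hW g⁻¹ (Subgroup.zpowers x ⊔ Subgroup.zpowers (g * x * g⁻¹)) ?_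
          (Subgroup.mem_sup_left (Subgroup.mem_zpowers x))
          (by rw [inv_inv]; exact Subgroup.mem_sup_right (Subgroup.mem_zpowers _))
        have hyp : IsPGroup p (Subgroup.zpowers (g * x * g⁻¹)) := by
          have := hxp.map (MulAut.conj g).toMonoidHom
          rwa [MonoidHom.map_zpowers] at this
        refine hxp.to_sup_of_normal_right' hyp ?_
        rw [Subgroup.zpowers_le]
        have key : ∀ k : ℤ, (g * x * g⁻¹) ^ k * x = x * (g * x * g⁻¹) ^ k := fun k =>
          (Commute.zpow_left (show Commute (g * x * g⁻¹) x from hcomm) k).eq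
        rw [Subgroup.mem_normalizer_iff]
        intro z
        constructor
        · rintro ⟨k, rfl⟩
          exact ⟨k, eq_mul_inv_of_mul_eq (key k)⟩
        · rintro ⟨k, hk⟩
          refine ⟨k, ?_⟩
          have hk' : (g * x * g⁻¹) ^ k = x * z * x⁻¹ := hk
          calc (g * x * g⁻¹) ^ k = x⁻¹ * (x * (g * x * g⁻¹) ^ k) := by group
            _ = x⁻¹ * ((g * x * g⁻¹) ^ k * x) := by rw [key k]
            _ = z := by rw [hk']; group
      apply hg
      rw [inv_inv] at hy
      exact Subgroup.mem_centralizer_singleton_iff.mpr (mul_inv_eq_iff_eq_mul.mp hy)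
    -- pass to the quotient by the centre
    let π := QuotientGroup.mk' Z
    have hker : π.ker = Z := QuotientGroup.ker_mk' Z
    have hmem : ∀ m, π m ∈ M.map π → m ∈ M := by
      intro m hm
      have : m ∈ (M.map π).comap π := hm
      rwa [Subgroup.comap_map_eq, hker, sup_eq_left.mpr hZM] at this
    have hF : Cfsg.IsFrobeniusComplement (M.map π) := by
      refine ⟨fun h => hxc ?_, fun h => hMtop (eq_top_iff.mpr fun m _ => hmem m (h ▸ trivial)), ?_⟩
      · have : π x ∈ M.map π := ⟨x, hxM, rfl⟩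
        rw [h, Subgroup.mem_bot] at this
        exact (QuotientGroup.eq_one_iff x).mp this
      · intro g hg
        obtain ⟨g, rfl⟩ := QuotientGroup.mk'_surjective Z g
        refine (Subgroup.eq_bot_iff_forall _).2 fun t ht => ?_
        obtain ⟨h1, h2⟩ := Subgroup.mem_inf.mp ht
        rw [CfsgLib.Frobenius.mem_conj_smul] at h2
        obtain ⟨t, rfl⟩ := QuotientGroup.mk'_surjective Z t
        refine (QuotientGroup.eq_one_iff t).mpr (hTI g (fun h => hg ⟨g, h, rfl⟩) t (hmem _ h1) ?_)
        apply hmem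
        rw [map_mul, map_mul, map_inv]
        exact h2
    obtain ⟨N, -, hN, hcompl⟩ := CfsgLib.Frobenius.exists_kernel hF
    set K := N.comap π with hKdef
    have hxH : p ∣ Nat.card (M.map π) := by
      obtain ⟨k, hk⟩ := hxp ⟨x, Subgroup.mem_zpowers x⟩
      have hk' : (π x) ^ p ^ k = 1 := by
        rw [← map_pow, show x ^ p ^ k = 1 from congrArg Subtype.val hk, map_one]
      obtain ⟨j, -, hj⟩ := (Nat.dvd_prime_pow (Fact.out : p.Prime)).mp (orderOf_dvd_of_pow_eq_one hk')
      have hπ : π x ≠ 1 := fun h => hxc ((QuotientGroup.eq_one_iff x).mp h)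
      have hj0 : j ≠ 0 := fun h => hπ (orderOf_eq_one_iff.mp (by rw [hj, h, pow_zero]))
      refine (dvd_pow_self p hj0).trans ?_
      rw [← hj]
      exact Subgroup.orderOf_dvd_natCard (M.map π) ⟨x, hxM, rfl⟩
    have hNp : ¬ p ∣ Nat.card N := fun h => by
      have hcop := CfsgLib.Frobenius.coprime_card_index hF
      rw [hcompl.index_eq_card] at hcop
      exact Nat.not_coprime_of_dvd_of_dvd (Fact.out : p.Prime).one_lt hxH h hcop
    -- `x` centralises `K`
    have hKM : K ≤ M := by
      intro k hk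
      rw [hMdef, Subgroup.mem_centralizer_singleton_iff]
      have hπk : (π k) ^ Nat.card N = 1 := by
        have := pow_card_eq_one' (G := N) (x := ⟨π k, hk⟩)
        exact congrArg Subtype.val this
      let P : Sylow p K := default
      have hPZ : ∀ y : K, y ∈ (P : Subgroup K) → (y : G) ∈ Z := by
        intro y hy
        apply (QuotientGroup.eq_one_iff (y : G)).mp
        obtain ⟨j, hj⟩ := P.2 ⟨y, hy⟩
        have h1 : (π (y : G)) ^ (p ^ j) = 1 := by
          rw [← map_pow, show (y : G) ^ p ^ j = 1 from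
            congrArg (fun a : (P : Subgroup K) => ((a : K) : G)) hj, map_one]
        have h2 : (π (y : G)) ^ Nat.card N = 1 := by
          have := pow_card_eq_one' (G := N) (x := ⟨π (y : G), y.2⟩)
          exact congrArg Subtype.val this
        have h3 : (p ^ j).gcd (Nat.card N) = 1 :=
          Nat.Coprime.pow_left j ((Nat.Prime.coprime_iff_not_dvd (Fact.out : p.Prime)).mpr hNp)
        have := pow_gcd_eq_one.mpr ⟨h1, h2⟩
        rwa [h3, pow_one] at this
      have hPn : (P : Subgroup K).Normal := ⟨fun y hy a => by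
        have : a * y * a⁻¹ = y := Subtype.ext (by
          have := Subgroup.mem_center_iff.mp (hPZ y hy) (a : G)
          simp only [Subgroup.coe_mul, Subgroup.coe_inv, this, mul_inv_cancel_right])
        rwa [this]⟩
      obtain ⟨H, hH⟩ := Subgroup.exists_right_complement'_of_coprime
        (N := (P : Subgroup K)) (Sylow.card_coprime_index P)
      have hHcard : (Nat.card H).Coprime p := by
        rw [← hH.symm.index_eq_card]
        exact ((Nat.Prime.coprime_iff_not_dvd (Fact.out : p.Prime)).mpr P.not_dvd_index).symm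
      have hchar : ∀ a : K, a ^ Nat.card H = 1 → a ∈ H := by
        intro a ha
        obtain ⟨⟨⟨b, hb'⟩, ⟨h, hh⟩⟩, hbh⟩ := hH.2 a
        have hbh' : b * h = a := hbh
        have hcb : Commute b h := Subtype.ext (Subgroup.mem_center_iff.mp (hPZ b hb') (h : G)).symm
        rw [← hbh', hcb.mul_pow, show h ^ Nat.card H = 1 from
          congrArg Subtype.val (pow_card_eq_one' (G := H) (x := ⟨h, hh⟩)), mul_one] at ha
        obtain ⟨j, hj⟩ := P.2 ⟨b, hb'⟩
        have h3 : (p ^ j).gcd (Nat.card H) = 1 := Nat.Coprime.pow_left j hHcard.symm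
        have hb1 := pow_gcd_eq_one.mpr ⟨(congrArg Subtype.val hj : b ^ p ^ j = 1), ha⟩
        rw [h3, pow_one] at hb1
        rw [← hbh', show b = 1 from hb1, one_mul]
        exact hh
      have hxinv : ∀ h ∈ H.map K.subtype, x * h * x⁻¹ ∈ H.map K.subtype := by
        rintro _ ⟨h, hh, rfl⟩
        have hmemK : x * (h : G) * x⁻¹ ∈ K :=
          (inferInstance : K.Normal).conj_mem (h : G) h.2 x
        refine ⟨⟨_, hmemK⟩, hchar _ (Subtype.ext ?_), rfl⟩
        rw [Subgroup.coe_pow, conj_pow, ← Subgroup.coe_pow,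
          show h ^ Nat.card H = 1 from
            congrArg Subtype.val (pow_card_eq_one' (G := H) (x := ⟨h, hh⟩))]
        simp
      obtain ⟨⟨⟨b, hb'⟩, ⟨h, hh⟩⟩, hbh⟩ := hH.2 ⟨k, hk⟩
      have hk' : (b : G) * (h : G) = k := congrArg Subtype.val hbh
      have h1 := hb (H.map K.subtype) (by
        rwa [← Nat.card_congr (Subgroup.equivMapOfInjective H _ K.subtype_injective).toEquiv])
        hxinv (h : G) ⟨h, hh, rfl⟩
      have h2 := Subgroup.mem_center_iff.mp (hPZ b hb') x
      rw [← hk']
      exact ((show Commute x (b : G) from h2).mul_right h1).eq.symm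
    apply hMtop
    rw [eq_top_iff]
    intro g _
    obtain ⟨⟨⟨a, ha⟩, ⟨b, hb'⟩⟩, hab⟩ := hcompl.2 (π g)
    obtain ⟨a', rfl⟩ := QuotientGroup.mk'_surjective Z a
    obtain ⟨b', hb'', rfl⟩ := hb'
    refine hmem g ?_
    rw [← show π a' * π b' = π g from hab]
    exact mul_mem ⟨a', hKM ha, rfl⟩ ⟨b', hb'', rfl⟩

/-- Let S be a Sylow p-subgroup of the finite group G and x an element of S such that (i) x is the only G-conjugate of x lying in S, and (ii) x centralizes every subgroup of order prime to p that it normalizes. Then x lies in the centre of G. -/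
theorem result {G : Type*} [Group G] [Finite G] {p : ℕ} [Fact p.Prime]
    (S : Sylow p G) (x : G) (hx : x ∈ S)
    (hU : ∀ g : G, g⁻¹ * x * g ∈ S → g⁻¹ * x * g = x)
    (hb : ∀ H : Subgroup G, (Nat.card H).Coprime p → (∀ h ∈ H, x * h * x⁻¹ ∈ H) → ∀ h ∈ H, x * h = h * x) :
    x ∈ Subgroup.center G := by
  refine central_aux p (Nat.card G) le_rfl x ?_ ?_ hb
  · exact S.2.to_le (by rwa [Subgroup.zpowers_le])
  · intro g R hR hxR hyR
    obtain ⟨Q, hQ⟩ := hR.exists_le_sylow
    obtain ⟨h, rfl⟩ := MulAction.exists_smul_eq G S Q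
    have h1 : h⁻¹ * x * h ∈ S := CfsgLib.Frobenius.mem_conj_smul.mp (hQ hxR)
    have h2 : h⁻¹ * (g⁻¹ * x * g) * h ∈ S := CfsgLib.Frobenius.mem_conj_smul.mp (hQ hyR)
    have e1 := hU h h1
    have h2' : (g * h)⁻¹ * x * (g * h) ∈ S := by
      rwa [show (g * h)⁻¹ * x * (g * h) = h⁻¹ * (g⁻¹ * x * g) * h by group]
    have e2 := hU (g * h) h2'
    calc g⁻¹ * x * g = h * ((g * h)⁻¹ * x * (g * h)) * h⁻¹ := by group
      _ = h * (h⁻¹ * x * h) * h⁻¹ := by rw [e2, e1]
      _ = x := by group

end Cfsg.Agent.S3064
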