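import Cfsg.Statements.S3066
import Cfsg.Agent.S0205
import Cfsg.Agent.Lib.OutSolvable.Generators
import Cfsg.Agent.Lib.OutSolvableInv.Main

set_option autoImplicit false
open Cfsg

namespace Cfsg.Agent.S3066

/-- Let G be a finite non-abelian simple group with a nontrivial Sylow 2-subgroup S (that is, G has even order). Then Out(G) = Aut(G)/Inn(G) is solvable provided one of the following holds: (a) S is generated by two elements; (b) S is generated by three elements and N_G(S)/C_G(S) is not a 2-group (some element of N_G(S) of odd order does not centralize S); (c) the involutions of S commute pairwise and are all conjugate in G. -/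
theorem result {G : Type*} [Group G] [Finite G] [IsSimpleGroup G]
    (hG : ¬ IsMulCommutative G) (S : Sylow 2 G) (hS1 : (S : Subgroup G) ≠ ⊥)
    (h : (∃ a b : ↥S, Subgroup.closure ({a, b} : Set ↥S) = ⊤) ∨
      ((∃ a b c : ↥S, Subgroup.closure ({a, b, c} : Set ↥S) = ⊤) ∧
        ∃ g ∈ Subgroup.normalizer ((S : Subgroup G) : Set G), Odd (orderOf g) ∧ g ∉ Subgroup.centralizer ((S : Subgroup G) : Set G)) ∨
      ((∀ s ∈ S, ∀ t ∈ S, orderOf s = 2 → orderOf t = 2 → s * t = t * s) ∧
        (∀ s ∈ S, ∀ t ∈ S, orderOf s = 2 → orderOf t = 2 → ∃ g : G, g * s * g⁻¹ = t))) :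
    Group.IsSolvable (Cfsg.Out G) := by
  haveI : Fact (Nat.Prime 2) := ⟨Nat.prime_two⟩
  refine CfsgLib.OutSolvable.isSolvable_out (fun H _ _ hH => Cfsg.Agent.S0205.result hH) hG S hS1 ?_
  rcases h with ⟨a, b, hab⟩ | ⟨⟨a, b, c, habc⟩, g, hg, hodd, hgC⟩ | ⟨hc, hconj⟩
  · haveI := CfsgLib.OutSolvable.isSolvable_mulAut_of_two S.2 a b hab
    infer_instance
  · exact CfsgLib.OutSolvable.isSolvable_range_of_three (fun H _ _ hH => Cfsg.Agent.S0205.result hH)
      S a b c habc hg hodd hgC
  · have h2 : ∀ s : G, s * s = 1 → s ≠ 1 → orderOf s = 2 := fun s hs hs1 =>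
      orderOf_eq_prime (by rw [pow_two]; exact hs) hs1
    haveI := CfsgLib.OutSolvableInv.isSolvable_stabAut (fun H _ _ hH => Cfsg.Agent.S0205.result hH) hG S hS1
      (fun s hs t ht hss htt => by
        rcases eq_or_ne s 1 with rfl | hs1
        · rw [one_mul, mul_one]
        rcases eq_or_ne t 1 with rfl | ht1
        · rw [one_mul, mul_one]
        exact hc s hs t ht (h2 s hss hs1) (h2 t htt ht1))
      (fun s hs t ht hss hs1 htt ht1 => hconj s hs t ht (h2 s hss hs1) (h2 t htt ht1))
    exact Group.isSolvable_of_surjective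
      (MonoidHom.rangeRestrict_surjective (CfsgLib.OutSolvable.resAut (S : Subgroup G)))

end Cfsg.Agent.S3066
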