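import Cfsg.Statements.S3067
import Cfsg.Agent.Lib.CoprimeInvCent.Main
import Cfsg.Agent.Lib.GWApps.RankTwoSimple

set_option autoImplicit false
open Cfsg

namespace Cfsg.Agent.S3067

/-- Let G be a finite non-abelian simple group, τ an involution of G, and α a nontrivial automorphism of G whose order is coprime to the order of G. Then α moves some element of the centralizer of τ: α does not fix C_G(τ) elementwise. -/
theorem result {G : Type*} [Group G] [Finite G] [IsSimpleGroup G]
    (hG : ¬ IsMulCommutative G) (τ : G) (hτ : orderOf τ = 2) (α : MulAut G) (hα : α ≠ 1)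
    (hcop : (orderOf α).Coprime (Nat.card G)) :
    ∃ c ∈ Subgroup.centralizer ({τ} : Set G), α c ≠ c := by
  by_contra h
  push Not at h
  have hord : orderOf α ≠ 1 := fun he => hα (orderOf_eq_one_iff.1 he)
  obtain ⟨r, hr, hdvd⟩ := Nat.exists_prime_and_dvd hord
  haveI := Fact.mk hr
  have hne0 : orderOf α ≠ 0 := by
    haveI : Finite (MulAut G) :=
      Finite.of_injective (fun e : MulAut G => (e : G → G)) DFunLike.coe_injective
    exact (orderOf_pos α).ne'
  set β : MulAut G := α ^ (orderOf α / r)
  have hβord : orderOf β = r := orderOf_pow_orderOf_div hne0 hdvd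
  have hfix : ∀ n (c : G), α c = c → (α ^ n) c = c := by
    intro n c hc
    induction n with
    | zero => rfl
    | succ n ih => rw [pow_succ', MulAut.mul_apply, ih, hc]
  have hpair : CfsgLib.CoprimeInvCent.CoprimePair β r :=
    ⟨hr, hβord ▸ pow_orderOf_eq_one β, hcop.coprime_dvd_left hdvd⟩
  have hgood : CfsgLib.CoprimeInvCent.Good β τ :=
    ⟨hτ, fun g hg => hfix _ g (h g (CfsgLib.Involutions.mem_centralizer_singleton.2 hg))⟩
  have h1 : β = 1 := by
    ext g
    have := CfsgLib.CoprimeInvCent.concl_all _ G rfl β r τ hpair hgood g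
    rw [CfsgLib.GWApps.RankTwoSimple.oddCore_eq_bot hG, Subgroup.mem_bot] at this
    exact (inv_mul_eq_one.1 this).symm
  rw [h1, orderOf_one] at hβord
  exact hr.ne_one hβord.symm

end Cfsg.Agent.S3067
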