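import Cfsg.Statements.S3069
import Cfsg.Agent.Lib.KInf.Control
import Cfsg.Agent.Lib.ConjFunctor.IndexP
import Cfsg.Agent.Lib.FFModules.PLocalBasic

set_option autoImplicit false
open Cfsg

namespace Cfsg.Agent.S3069

/-- Let p ≥ 7 be a prime and S a nontrivial Sylow p-subgroup of the finite group G. If N_G(S)/C_G(S) is a p-group (every element of N_G(S) of order prime to p centralizes S), then O^p(G) < G, i.e. G has a nontrivial p-factor group. -/
theorem result {G : Type*} [Group G] [Finite G] {p : ℕ} [Fact p.Prime]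
    (hp : 7 ≤ p) (S : Sylow p G) (hS : (S : Subgroup G) ≠ ⊥)
    (hN : ∀ g ∈ Subgroup.normalizer ((S : Subgroup G) : Set G), (orderOf g).Coprime p →
      g ∈ Subgroup.centralizer ((S : Subgroup G) : Set G)) :
    Cfsg.pResidual p G ≠ ⊤ := by
  obtain ⟨N, hN', hidx⟩ := CfsgLib.ConjFunctor.exists_normal_index_of_transferOK
    (CfsgLib.KInf.isKInf_lower.isCharPFunctor (p := p))
    (fun X _ _ _ => CfsgLib.KInf.isKInf_lower.transferOK (G := X) (show 5 ≤ p by omega)) S hS hN
  haveI := hN'
  intro htop
  have h1 : IsPGroup p (G ⧸ N) := IsPGroup.of_card (n := 1) (by rw [pow_one, ← Subgroup.index_eq_card, hidx])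
  have h2 := CfsgLib.FFModules.pResidual_le_of_isPGroup_quotient N h1
  rw [htop, top_le_iff] at h2
  rw [h2, Subgroup.index_top] at hidx
  exact (Fact.out : p.Prime).one_lt.ne hidx

end Cfsg.Agent.S3069
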