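import Cfsg.Statements.S3071
import Cfsg.Agent.Lib.Replacement.ZJInduction
import Cfsg.Agent.Lib.QdFree.Stable
import Cfsg.Agent.Lib.Amalgams.Qd

set_option autoImplicit false
open Cfsg

namespace Cfsg.Agent.S3071

open CfsgLib.PushUp (cmap conj_mem_cmap cmap_normalizer IsFullyNormalized)
open CfsgLib.Replacement

/-- Let p be an odd prime and S a Sylow p-subgroup of the finite group G such that, for every subgroup P with Z(S) ≤ P ≤ S, the normalizer N_G(P) has no section isomorphic to SL₂(p). Let J(S) be the subgroup generated by the abelian subgroups of S of largest order. Then two elements of S are conjugate in G if and only if they are conjugate in N_G(Z(J(S))). -/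
theorem result {G : Type*} [Group G] [Finite G] {p : ℕ} [Fact p.Prime]
    (hp : p ≠ 2) (S : Sylow p G)
    (hfree : ∀ P : Subgroup G, (S : Subgroup G) ⊓ Subgroup.centralizer ((S : Subgroup G) : Set G) ≤ P → P ≤ S →
      ¬ ∃ (H K : Subgroup G) (hK : (K.subgroupOf H).Normal), H ≤ Subgroup.normalizer (P : Set G) ∧
        Nonempty ((H ⧸ K.subgroupOf H) ≃* Matrix.SpecialLinearGroup (Fin 2) (ZMod p))) :
    ∀ x ∈ S, ∀ y ∈ S, (∃ g : G, g * x * g⁻¹ = y) ↔
      ∃ n ∈ Subgroup.normalizer (Cfsg.centerThompsonAOf (S : Subgroup G) : Set G), n * x * n⁻¹ = y := by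
  classical
  set P : Subgroup G := (S : Subgroup G) with hPdef
  have hD : Cfsg.IsStronglyClosed P P := ⟨le_rfl, fun _ _ _ h => h⟩
  have hJ : Cfsg.centerThompsonAOf P = zcore 0 P := CfsgLib.Replacement.centerThompsonAOf_eq_zcore P
  rw [hJ]
  intro a ha b hb
  refine ⟨?_, fun ⟨n, _, hn⟩ => ⟨n, hn⟩⟩
  rintro ⟨g, hg⟩
  by_cases hPb : P = ⊥
  · refine ⟨g, ?_, hg⟩
    rw [show zcore 0 P = ⊥ by rw [hPb, zcore_bot], Subgroup.normalizer_eq_top]
    trivial
  set M := Subgroup.normalizer (zcore 0 P : Set G) with hM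
  let Rel : Subgroup G → G → Prop := fun T g => ∃ x ∈ M, ∀ t ∈ T, x * t * x⁻¹ = g * t * g⁻¹
  have hRel : CfsgLib.PushUp.IsFusionRel P Rel := by
    refine ⟨fun hle ⟨x, hx, h⟩ => ⟨x, hx, fun t ht => h t (hle ht)⟩, ?_, ?_⟩
    · rintro T g h - - ⟨x, hx, hxe⟩ ⟨y, hy, hye⟩
      refine ⟨y * x, mul_mem hy hx, fun t ht => ?_⟩
      calc y * x * t * (y * x)⁻¹ = y * (x * t * x⁻¹) * y⁻¹ := by group
        _ = h * (g * t * g⁻¹) * h⁻¹ := by rw [hxe t ht, hye _ (conj_mem_cmap ht)]
        _ = h * g * t * (h * g)⁻¹ := by group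
    · rintro T g - - ⟨x, hx, hxe⟩
      refine ⟨x⁻¹, inv_mem hx, ?_⟩
      rintro _ ⟨t, ht, rfl⟩
      show x⁻¹ * (g * t * g⁻¹) * x⁻¹⁻¹ = g⁻¹ * (g * t * g⁻¹) * g⁻¹⁻¹
      rw [← hxe t ht]
      conv_rhs => rw [hxe t ht]
      group
  -- freeness of the normalizer of a subgroup above the centre
  have hqd : ∀ U : Subgroup G, P ⊓ Subgroup.centralizer (P : Set G) ≤ U → U ≤ P →
      ¬ Cfsg.Involves ↥(Cfsg.qd p) ↥(Subgroup.normalizer (U : Set G)) := by
    intro U hZU hUP hinv
    have hlin : Function.Surjective (CfsgLib.Amalgams.Qd.lin (F := ZMod p)) := fun A =>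
      ⟨CfsgLib.Amalgams.Qd.aff A 0 0, CfsgLib.Amalgams.Qd.lin_aff A 0 0⟩
    have h2 : Cfsg.Involves ↥(Cfsg.qdOver (ZMod p)) ↥(Subgroup.normalizer (U : Set G)) := hinv
    set N := Subgroup.normalizer (U : Set G)
    obtain ⟨K, R, hn, ⟨e⟩⟩ := CfsgLib.Amalgams.involves_mono _ hlin h2
    haveI := hn
    refine hfree U hZU hUP ?_
    set K' := K.map N.subtype
    let f : ↥K' →* Matrix.SpecialLinearGroup (Fin 2) (ZMod p) :=
      (e.toMonoidHom.comp (QuotientGroup.mk' (R.subgroupOf K))).comp
        (K.equivMapOfInjective _ N.subtype_injective).symm.toMonoidHom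
    have hf : Function.Surjective f := by
      intro A
      obtain ⟨q, rfl⟩ := e.surjective A
      obtain ⟨k, rfl⟩ := QuotientGroup.mk_surjective q
      exact ⟨K.equivMapOfInjective _ N.subtype_injective k, by simp [f]⟩
    haveI hkn : ((f.ker.map K'.subtype).subgroupOf K').Normal := by
      rw [Subgroup.subgroupOf, Subgroup.comap_map_eq_self_of_injective K'.subtype_injective]
      infer_instance
    refine ⟨K', f.ker.map K'.subtype, hkn, Subgroup.map_subtype_le K, ?_⟩
    · exact ⟨(QuotientGroup.quotientMulEquivOfEq (by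
        rw [Subgroup.subgroupOf, Subgroup.comap_map_eq_self_of_injective K'.subtype_injective])).trans
        (QuotientGroup.quotientKerEquivOfSurjective f hf)⟩
  let Inv : Subgroup G → Prop := fun U => ¬ Cfsg.Involves ↥(Cfsg.qd p) ↥(Subgroup.normalizer (U : Set G))
  have hcenle : ∀ U : Subgroup G, U ≤ P → P ⊓ Subgroup.centralizer (P : Set G) ≤
      P ⊓ Subgroup.centralizer (U : Set G) := fun U hU =>
    inf_le_inf_left _ (Subgroup.centralizer_le (SetLike.coe_subset_coe.2 hU))
  have hmain : Rel (Subgroup.zpowers a) g := by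
    refine centric_functor_induction S hRel ?_ ?_ (zfunctor 0 P)
      (isConjugacyFunctor_zfunctor (dvd_zero p) P) Inv ?_ ?_ ?_ ?_ _ g (Subgroup.zpowers_le.2 ha) ?_
    · rintro T g h he ⟨x, hx, hxe⟩
      exact ⟨x, hx, fun t ht => (hxe t ht).trans (he t ht)⟩
    · exact fun g => ⟨1, one_mem _, fun t ht => by rw [Subgroup.mem_bot.1 ht]; simp⟩
    · exact fun U hU hc => hqd U ((hcenle U hU.1).trans hc) hU.1
    · intro U hU hUI x
      set R := P ⊓ Subgroup.normalizer (U : Set G)
      have hZR : P ⊓ Subgroup.centralizer (P : Set G) ≤ R := by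
        refine le_inf inf_le_left fun z hz => Subgroup.mem_normalizer_iff.2 fun y => ?_
        have hzc := Subgroup.mem_centralizer_iff.1 hz.2
        constructor
        · intro hy
          rwa [← hzc y (hU.1 hy), mul_inv_cancel_right]
        · intro hy
          have h1 := hzc _ (hU.1 hy)
          have e : z * y * z⁻¹ = y := by
            calc z * y * z⁻¹ = z⁻¹ * (z * (z * y * z⁻¹)) := by group
              _ = z⁻¹ * (z * y * z⁻¹ * z) := by rw [h1]
              _ = y := by group
          rwa [e] at hy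
      have hdom : zdom P R = R := by
        unfold zdom
        rw [conjClosure_eq_inf hD inf_le_left, inf_eq_right.2 (inf_le_left : R ≤ P), ite_self]
      have hW : zfunctor 0 P R = zcore 0 R := by rw [zfunctor, hdom]
      have h1 : P ⊓ Subgroup.centralizer (P : Set G) ≤ zfunctor 0 P R := by
        rw [hW]
        exact (le_inf hZR (inf_le_right.trans (Subgroup.centralizer_le (SetLike.coe_subset_coe.2 inf_le_left)))).trans
          (inf_centralizer_le_zcore_zero R)
      have h2 := hqd _ h1 (by rw [hW]; exact (zcore_le 0 R).trans inf_le_left)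
      set W0 := zfunctor 0 P R
      intro h3
      refine h2 ?_
      have e : ↥(Subgroup.normalizer (W0 : Set G)) ≃* ↥(Subgroup.normalizer ((cmap x W0 : Subgroup G) : Set G)) :=
        ((Subgroup.normalizer (W0 : Set G)).equivMapOfInjective _ (MulAut.conj x).injective).trans
          (MulEquiv.subgroupCongr (cmap_normalizer x W0))
      exact CfsgLib.Amalgams.involves_of_involves_image (A := (⊤ : Subgroup ↥(Subgroup.normalizer (W0 : Set G))))
        (e.toMonoidHom.comp (Subgroup.subtype _)) h3 fun y => ⟨⟨e.symm y, trivial⟩, e.apply_symm_apply y⟩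
    · intro T m _ _ hm
      rw [zfunctor, zdom_self hD hPb] at hm
      exact ⟨m, hm, fun _ _ => rfl⟩
    · intro U hU hUb hUI h T n hT hnT hn
      set H := Subgroup.normalizer (U : Set G) with hH
      set R := P ⊓ H with hR
      have hRp : IsPGroup p (R.subgroupOf H) :=
        (S.2.to_le inf_le_left).of_equiv (Subgroup.subgroupOfEquivOfLe inf_le_right).symm
      let Q : Sylow p H := hRp.toSylow hU.2
      have hE := isStronglyClosed_zdom hD (inf_le_left : R ≤ P)
      have hnT' : cmap (⟨n, hn⟩ : H) (T.subgroupOf H) ≤ (Q : Subgroup H) := by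
        rintro _ ⟨t, ht, rfl⟩
        exact hnT (conj_mem_cmap (g := n) ht)
      obtain ⟨m, hm, hme⟩ := exists_normalizer_zcore_conj_eq_of_not_involves hp (Or.inl rfl)
        (X := ↥(Cfsg.qd p)) (fun H _ _ hH => CfsgLib.QdFree.isNormalizerPStable_of_not_involves_qd hp hH)
        hUI Q (isStronglyClosed_subgroupOf (M := H) hE) (T := T.subgroupOf H) (fun t ht => hT ht)
        (g := ⟨n, hn⟩) hnT'
      have hme' : ∀ t ∈ T, (m : G) * t * (m : G)⁻¹ = n * t * n⁻¹ := fun t ht =>
        congrArg Subtype.val (hme ⟨t, (hT ht).2⟩ ht)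
      have hmZ : (m : G) ∈ Subgroup.normalizer ((zfunctor 0 P R : Subgroup G) : Set G) := by
        rw [zfunctor, ← map_zcore_subgroupOf 0 ((zdom_le P R).trans (inf_le_right : R ≤ H))]
        exact Subgroup.le_normalizer_map H.subtype ⟨m, hm, rfl⟩
      obtain ⟨x, hx, hxe⟩ := h T m hT (fun y hy => by
        obtain ⟨t, ht, rfl⟩ := hy
        show (m : G) * t * (m : G)⁻¹ ∈ R
        rw [hme' t ht]
        exact hnT (conj_mem_cmap ht)) ⟨m.2, hmZ⟩
      exact ⟨x, hx, fun t ht => (hxe t ht).trans (hme' t ht)⟩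
    · rw [cmap, MonoidHom.map_zpowers]
      refine Subgroup.zpowers_le.2 ?_
      show g * a * g⁻¹ ∈ P
      rw [hg]; exact hb
  obtain ⟨x, hx, hxe⟩ := hmain
  exact ⟨x, hx, (hxe a (Subgroup.mem_zpowers a)).trans hg⟩

end Cfsg.Agent.S3071
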