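import Cfsg.Statements.S3073
import Cfsg.Agent.Lib.Replacement.ZJNilpotent
import Cfsg.Agent.Lib.Replacement.ZJQdFree
import Cfsg.Agent.Lib.PushUp.ConjFunctor
import Cfsg.Agent.Lib.NormalPComplement.Frobenius

set_option autoImplicit false
universe u
open Cfsg

namespace Cfsg.Agent.S3073


open CfsgLib.NormalPComplement CfsgLib.Replacement
open CfsgLib.PushUp (cmap conj_mem_cmap exists_cmap_eq mem_normalizer_of_cmap_eq)

variable {p : ℕ} [Fact p.Prime]

/-- The property of the wanted subgroup. -/
def Phi (p : ℕ) (S : Type u) [Group S] (K : Subgroup S) : Prop :=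
  ∀ (G : Type u) [Group G] [Finite G] (f : S →* G), Function.Injective f → ¬ p ∣ f.range.index →
    (∀ g ∈ Subgroup.normalizer ((K.map f : Subgroup G) : Set G), (orderOf g).Coprime p →
      g ∈ Subgroup.centralizer ((K.map f : Subgroup G) : Set G)) →
    Cfsg.HasNormalPComplement p G

theorem mem_normalizer_map_of_char {T G : Type*} [Group T] [Group G] [Finite G] (j : T →* G)
    (hj : Function.Injective j) (K : Subgroup T) [hK : K.Characteristic] {n : G}
    (hn : n ∈ Subgroup.normalizer ((j.range : Subgroup G) : Set G)) :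
    n ∈ Subgroup.normalizer ((K.map j : Subgroup G) : Set G) := by
  let e : T ≃* j.range := MonoidHom.ofInjective hj
  let φ : T ≃* T := e.trans ((j.range.normalizerMonoidHom ⟨n, hn⟩).trans e.symm)
  refine Subgroup.mem_normalizer_fintype ?_
  rintro _ ⟨k, hk, rfl⟩
  refine ⟨φ k, ?_, ?_⟩
  · have := Subgroup.characteristic_iff_map_eq.1 hK φ
    exact this ▸ Subgroup.mem_map_of_mem _ hk
  · show ((e (φ k) : j.range) : G) = n * ((e k : j.range) : G) * n⁻¹
    simp only [φ, MulEquiv.trans_apply, MulEquiv.apply_symm_apply]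
    rfl

theorem characteristic_map_subtype {S : Type*} [Group S] (T : Subgroup S) [hT : T.Characteristic]
    (K : Subgroup T) [hK : K.Characteristic] : (K.map T.subtype).Characteristic := by
  refine Subgroup.characteristic_iff_map_le.2 fun φ => ?_
  rintro _ ⟨_, ⟨k, hk, rfl⟩, rfl⟩
  let φT : T ≃* T := (φ.subgroupMap T).trans (MulEquiv.subgroupCongr (Subgroup.characteristic_iff_map_eq.1 hT φ))
  exact ⟨φT k, (Subgroup.characteristic_iff_map_eq.1 hK φT) ▸ Subgroup.mem_map_of_mem _ hk, rfl⟩

/-- A central extension by a `p`-group of a group with a normal complement. -/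
theorem hasNormalPComplement_of_central {G : Type*} [Group G] [Finite G] (Z : Subgroup G) [Z.Normal]
    (hZ : IsPGroup p Z) (hc : Z ≤ Subgroup.center G) (h : Cfsg.HasNormalPComplement p (G ⧸ Z)) :
    Cfsg.HasNormalPComplement p G := by
  refine hasNormalPComplement_of_frobeniusCondition fun Q hQ g hg hcop => ?_
  set π := QuotientGroup.mk' Z
  have h1 := hasNormalPComplement_iff_frobeniusCondition.1 h (Q.map π) (hQ.map π) (π g)
    (Subgroup.le_normalizer_map π ⟨g, hg, rfl⟩) (Nat.Coprime.coprime_dvd_left (orderOf_map_dvd π g) hcop)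
  refine Subgroup.mem_centralizer_iff.2 fun q hq => ?_
  have h2 : π q * π g = π g * π q := Subgroup.mem_centralizer_iff.1 h1 (π q) ⟨q, hq, rfl⟩
  set z := q⁻¹ * (g * q * g⁻¹) with hz
  have hzZ : z ∈ Z := by
    refine (QuotientGroup.eq_one_iff z).1 ?_
    show π z = 1
    rw [hz, map_mul, map_mul, map_mul, map_inv, map_inv, ← h2]
    group
  have hgq : g * q * g⁻¹ = q * z := by rw [hz, mul_inv_cancel_left]
  have hiter : ∀ m : ℕ, g ^ m * q * (g ^ m)⁻¹ = q * z ^ m := by
    intro m
    induction m with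
    | zero => simp
    | succ m ih =>
      have hzg : g * z ^ m * g⁻¹ = z ^ m := by
        rw [Subgroup.mem_center_iff.1 (pow_mem (hc hzZ) m) g, mul_inv_cancel_right]
      calc g ^ (m + 1) * q * (g ^ (m + 1))⁻¹ = g * (g ^ m * q * (g ^ m)⁻¹) * g⁻¹ := by group
        _ = (g * q * g⁻¹) * (g * z ^ m * g⁻¹) := by rw [ih]; group
        _ = q * z ^ (m + 1) := by rw [hgq, hzg, mul_assoc, ← pow_succ']
  have h3 := hiter (orderOf g)
  rw [pow_orderOf_eq_one, one_mul, inv_one, mul_one, left_eq_mul] at h3
  obtain ⟨k, hk⟩ := hZ ⟨z, hzZ⟩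
  have hz1 : z = 1 := orderOf_eq_one_iff.1 (Nat.eq_one_of_dvd_coprimes (hcop.pow_right k)
    (orderOf_dvd_of_pow_eq_one h3) (orderOf_dvd_of_pow_eq_one (congrArg Subtype.val hk)))
  rw [hz1, mul_one] at hgq
  calc q * g = (g * q * g⁻¹) * g := by rw [hgq]
    _ = g * q := by group

theorem exists_K (hp : p ≠ 2) : ∀ (n : ℕ) (S : Type u) [Group S] [Finite S], Nat.card S = n → IsPGroup p S →
    ∃ K : Subgroup S, K.Characteristic ∧ Subgroup.centralizer (K : Set S) ≤ K ∧ Phi p S K := by
  classical
  intro n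
  induction n using Nat.strong_induction_on with
  | _ n ih =>
  intro S _ _ hn hS
  by_cases htriv : Nat.card S = 1
  · refine ⟨⊤, inferInstance, le_top, fun G _ _ f hf hidx _ => ?_⟩
    refine hasNormalPComplement_of_coprime ((Nat.Prime.coprime_iff_not_dvd Fact.out).2 ?_).symm
    have h1 : Nat.card f.range = 1 := by
      rw [← Nat.card_congr (MonoidHom.ofInjective hf).toEquiv, htriv]
    rw [← f.range.card_mul_index, h1, one_mul]
    exact hidx
  set Z : Subgroup S := zcore 0 (⊤ : Subgroup S) with hZdef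
  haveI hZchar : Z.Characteristic := Subgroup.characteristic_iff_map_eq.2 fun φ => by
    rw [hZdef, map_zcore_equiv, Subgroup.map_top_of_surjective φ.toMonoidHom φ.surjective]
  have hZne : Z ≠ ⊥ := zcore_ne_bot (p := p) (dvd_zero p) (hS.to_subgroup ⊤) (fun h => htriv (by
    rw [← Subgroup.card_top (G := S), h, Subgroup.card_bot]))
  set T : Subgroup S := Subgroup.centralizer (Z : Set S) with hTdef
  have hZT : Z ≤ T := fun z hz => Subgroup.mem_centralizer_iff.2 fun w hw => zcore_comm w hw z hz
  -- the last step, common to both cases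
  have finish : ∀ (K : Subgroup T), K.Characteristic → Z ≤ K.map T.subtype → ∀ (G : Type u) [Group G] [Finite G]
      (f : S →* G), Function.Injective f → ¬ p ∣ f.range.index →
      (∀ g ∈ Subgroup.normalizer (((K.map T.subtype).map f : Subgroup G) : Set G), (orderOf g).Coprime p →
        g ∈ Subgroup.centralizer (((K.map T.subtype).map f : Subgroup G) : Set G)) →
      ((T.map f ≤ Subgroup.centralizer ((Z.map f : Subgroup G) : Set G)) →
        ¬ p ∣ (T.map f).relIndex (Subgroup.centralizer ((Z.map f : Subgroup G) : Set G)) →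
        Cfsg.HasNormalPComplement p ↥(Subgroup.centralizer ((Z.map f : Subgroup G) : Set G))) →
      Cfsg.HasNormalPComplement p G := by
    intro K hK hZK G _ _ f hf hidx hcond hC
    let P : Sylow p G := (hS.of_equiv (MonoidHom.ofInjective hf)).toSylow hidx
    have hP : (P : Subgroup G) = f.range := rfl
    have hZP : zcore 0 (P : Subgroup G) = Z.map f := by
      rw [hP, MonoidHom.range_eq_map, map_zcore_injective 0 _ f hf]
    set M := Subgroup.normalizer ((Z.map f : Subgroup G) : Set G) with hM
    set C := Subgroup.centralizer ((Z.map f : Subgroup G) : Set G) with hCdef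
    refine hasNormalPComplement_of_zcore hp (Or.inl rfl) P (P : Subgroup G) ⟨le_rfl, fun _ _ _ h => h⟩ ?_
    rw [hZP]
    have hCM : C ≤ M := fun c hc => Subgroup.mem_normalizer_fintype fun y hy => by
      show c * y * c⁻¹ ∈ Z.map f
      rw [← Subgroup.mem_centralizer_iff.1 hc y hy, mul_inv_cancel_right]; exact hy
    haveI : (C.subgroupOf M).Normal := ⟨fun c hc m => by
      refine Subgroup.mem_subgroupOf.2 (Subgroup.mem_centralizer_iff.2 fun y hy => ?_)
      have hm : (m : G)⁻¹ * y * (m : G) ∈ Z.map f := by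
        simpa using (Subgroup.mem_normalizer_iff.1 (inv_mem m.2) y).1 hy
      have h1 := Subgroup.mem_centralizer_iff.1 (Subgroup.mem_subgroupOf.1 hc) _ hm
      push_cast
      calc y * ((m : G) * c * (m : G)⁻¹) = (m : G) * ((m : G)⁻¹ * y * m * c) * (m : G)⁻¹ := by group
        _ = (m : G) * (c * ((m : G)⁻¹ * y * m)) * (m : G)⁻¹ := by rw [h1]
        _ = (m : G) * c * (m : G)⁻¹ * y := by group⟩
    have hPM : (P : Subgroup G) ≤ M := by
      rw [hM, ← hZP]
      exact Subgroup.le_normalizer.trans (normalizer_le_normalizer_zcore 0 _)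
    have hTC : T.map f = (P : Subgroup G) ⊓ C := by
      refine le_antisymm (le_inf (Subgroup.map_le_range f T) ?_) ?_
      · rintro _ ⟨t, ht, rfl⟩
        refine Subgroup.mem_centralizer_iff.2 ?_
        rintro _ ⟨z, hz, rfl⟩
        rw [← map_mul, ← map_mul, Subgroup.mem_centralizer_iff.1 ht z hz]
      · rintro _ ⟨⟨s, rfl⟩, hs⟩
        refine ⟨s, Subgroup.mem_centralizer_iff.2 fun z hz => hf ?_, rfl⟩
        rw [map_mul, map_mul]
        exact Subgroup.mem_centralizer_iff.1 hs _ ⟨z, hz, rfl⟩
    have hTi : ¬ p ∣ (T.map f).relIndex C := by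
      have h1 := not_dvd_relIndex_inf_normal (P.subtype hPM) (C.subgroupOf M)
      rw [Sylow.coe_subtype,
        show (P : Subgroup G).subgroupOf M ⊓ C.subgroupOf M = ((P : Subgroup G) ⊓ C).subgroupOf M from rfl,
        Subgroup.relIndex_subgroupOf hCM, ← hTC] at h1
      exact h1
    have hTCle : T.map f ≤ C := hTC.le.trans inf_le_right
    have hCn := hC hTCle hTi
    refine hasNormalPComplement_of_pGroup_quotient (C.subgroupOf M)
      ((hasNormalPComplement_congr (Subgroup.subgroupOfEquivOfLe hCM)).2 hCn) ?_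
    intro x
    obtain ⟨⟨m, hm⟩, rfl⟩ := QuotientGroup.mk_surjective x
    have hmC : cmap m C = C := by
      refine le_antisymm ?_ fun c hc => ?_
      · rintro _ ⟨c, hc, rfl⟩
        exact (inferInstance : (C.subgroupOf M).Normal).conj_mem ⟨c, hCM hc⟩ hc ⟨m, hm⟩
      · refine ⟨m⁻¹ * c * m, ?_, by simp [mul_assoc]⟩
        have h := Subgroup.mem_subgroupOf.1
          ((inferInstance : (C.subgroupOf M).Normal).conj_mem ⟨c, hCM hc⟩ hc ⟨m⁻¹, inv_mem hm⟩)
        simpa using h
    obtain ⟨c, hc, hce⟩ := exists_cmap_eq ((Subgroup.map_mono hTCle).trans hmC.le)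
      (((hS.to_subgroup T).map f).map _)
      (by rw [← hmC, Subgroup.relIndex_map_map_of_injective _ _ (MulAut.conj m).injective]; exact hTi)
      hTCle ((hS.to_subgroup T).map f) hTi
    rw [← CfsgLib.PushUp.cmap_mul] at hce
    have hnK : c * m ∈ Subgroup.normalizer (((K.map T.subtype).map f : Subgroup G) : Set G) := by
      rw [Subgroup.map_map]
      refine mem_normalizer_map_of_char (f.comp T.subtype) (fun a b hab => T.subtype_injective (hf hab)) K ?_
      rw [MonoidHom.range_comp, Subgroup.range_subtype]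
      exact mem_normalizer_of_cmap_eq hce
    obtain ⟨e, he⟩ := exists_pow_coprime_orderOf (p := p) (isOfFinOrder_of_finite (c * m))
    have h2 := hcond _ (pow_mem hnK _) he
    have h3 : (c * m) ^ p ^ e ∈ C :=
      Subgroup.centralizer_le (SetLike.coe_subset_coe.2 (Subgroup.map_mono hZK)) h2
    refine ⟨e, ?_⟩
    have h4 : ((⟨c * m, mul_mem (hCM hc) hm⟩ : M) : ↥M ⧸ C.subgroupOf M) = ((⟨m, hm⟩ : M) : ↥M ⧸ C.subgroupOf M) := by
      rw [show (⟨c * m, mul_mem (hCM hc) hm⟩ : M) = ⟨c, hCM hc⟩ * ⟨m, hm⟩ from rfl, QuotientGroup.mk_mul,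
        (QuotientGroup.eq_one_iff (⟨c, hCM hc⟩ : M)).2 hc, one_mul]
    rw [← h4, ← QuotientGroup.mk_pow]
    exact (QuotientGroup.eq_one_iff _).2 h3
  by_cases hT : T = ⊤
  swap
  · -- recursion on `C_S(Z)`
    have hlt : Nat.card T < n := hn ▸ lt_of_le_of_ne (Subgroup.card_le_card_group T)
      fun e => hT (Subgroup.eq_top_of_card_eq T e)
    obtain ⟨K, hK, hKc, hΦ⟩ := ih _ hlt T rfl (hS.to_subgroup T)
    have hZK : Z ≤ K.map T.subtype := fun z hz => ⟨⟨z, hZT hz⟩, hKc (Subgroup.mem_centralizer_iff.2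
      fun k _ => Subtype.ext (Subgroup.mem_centralizer_iff.1 k.2 z hz).symm), rfl⟩
    refine ⟨K.map T.subtype, characteristic_map_subtype T K, fun x hx => ?_, fun G _ _ f hf hidx hcond => ?_⟩
    · have hxT : x ∈ T := Subgroup.centralizer_le (SetLike.coe_subset_coe.2 hZK) hx
      exact ⟨⟨x, hxT⟩, hKc (Subgroup.mem_centralizer_iff.2 fun k hk =>
        Subtype.ext (Subgroup.mem_centralizer_iff.1 hx _ ⟨k, hk, rfl⟩)), rfl⟩
    · refine finish K hK hZK G f hf hidx hcond fun hle hi => ?_
      set C := Subgroup.centralizer ((Z.map f : Subgroup G) : Set G)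
      let j : T →* C := (f.comp T.subtype).codRestrict C fun t => hle ⟨t, t.2, rfl⟩
      have hj : Function.Injective j := fun a b h => T.subtype_injective (hf (congrArg Subtype.val h))
      have hjr : j.range = (T.map f).subgroupOf C := by
        ext c
        exact ⟨fun ⟨t, ht⟩ => ⟨t, t.2, congrArg Subtype.val ht⟩, fun ⟨s, hs, he⟩ => ⟨⟨s, hs⟩, Subtype.ext he⟩⟩
      have hmap : (K.map j).map C.subtype = (K.map T.subtype).map f := by
        rw [Subgroup.map_map, Subgroup.map_map]; rfl
      refine hΦ C j hj (by rw [hjr]; exact hi) fun g hg hcop => ?_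
      have h1 := hcond (g : G) (hmap ▸ Subgroup.le_normalizer_map C.subtype ⟨g, hg, rfl⟩)
        ((orderOf_injective C.subtype C.subtype_injective g).symm ▸ hcop)
      refine Subgroup.mem_centralizer_iff.2 fun y hy => Subtype.ext ?_
      exact Subgroup.mem_centralizer_iff.1 h1 _ (hmap ▸ Subgroup.mem_map_of_mem C.subtype hy)
  · -- recursion on `S / Z`
    have hlt : Nat.card (S ⧸ Z) < n := by
      rw [← hn, Z.card_eq_card_quotient_mul_card_subgroup]
      exact lt_mul_of_one_lt_right Nat.card_pos (Subgroup.one_lt_card_iff_ne_bot _ |>.2 hZne)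
    obtain ⟨Kb, hKb, hKbc, hΦ⟩ := ih _ hlt (S ⧸ Z) rfl (hS.to_quotient Z)
    set K := Kb.comap (QuotientGroup.mk' Z) with hKdef
    have hKchar : K.Characteristic := Subgroup.Characteristic.comap_quotient_mk hKb
    have hZK : Z ≤ K := fun z hz => by
      show (z : S ⧸ Z) ∈ Kb
      rw [(QuotientGroup.eq_one_iff z).2 hz]
      exact one_mem Kb
    have hKT : (K.subgroupOf T).map T.subtype = K := Subgroup.map_subgroupOf_eq_of_le (hT ▸ le_top)
    haveI hKT' : (K.subgroupOf T).Characteristic := Subgroup.characteristic_iff_map_le.2 fun φ => by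
      let eT : T ≃* S := (MulEquiv.subgroupCongr hT).trans Subgroup.topEquiv
      let ψ : S ≃* S := eT.symm.trans (φ.trans eT)
      rintro _ ⟨t, ht, rfl⟩
      have h1 : ψ (t : S) ∈ K := (Subgroup.characteristic_iff_map_eq.1 hKchar ψ) ▸ Subgroup.mem_map_of_mem _ ht
      have h2 : ψ (t : S) = ((φ t : T) : S) := by
        show eT (φ (eT.symm (eT t))) = eT (φ t)
        rw [MulEquiv.symm_apply_apply]
      show ((φ t : T) : S) ∈ K
      rw [← h2]; exact h1
    refine ⟨K, hKchar, fun x hx => ?_, fun G _ _ f hf hidx hcond => ?_⟩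
    · refine hKbc (Subgroup.mem_centralizer_iff.2 fun y hy => ?_)
      obtain ⟨k, rfl⟩ := QuotientGroup.mk'_surjective Z y
      show QuotientGroup.mk' Z k * QuotientGroup.mk' Z x = QuotientGroup.mk' Z x * QuotientGroup.mk' Z k
      rw [← map_mul, ← map_mul, Subgroup.mem_centralizer_iff.1 hx k hy]
    · refine finish (K.subgroupOf T) hKT' (by rw [hKT]; exact hZK) G f hf hidx (by rw [hKT]; exact hcond) fun hle hi => ?_
      set C := Subgroup.centralizer ((Z.map f : Subgroup G) : Set G) with hCdef
      let j : S →* C := f.codRestrict C fun s => hle ⟨s, hT ▸ Subgroup.mem_top s, rfl⟩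
      have hj : Function.Injective j := fun a b h => hf (congrArg Subtype.val h)
      set Zc := Z.map j with hZc
      have hZcc : Zc ≤ Subgroup.center C := by
        rintro _ ⟨z, hz, rfl⟩
        exact Subgroup.mem_center_iff.2 fun c =>
          Subtype.ext (Subgroup.mem_centralizer_iff.1 c.2 _ ⟨z, hz, rfl⟩).symm
      haveI : Zc.Normal := ⟨fun w hw c => by
        rwa [Subgroup.mem_center_iff.1 (hZcc hw) c, mul_inv_cancel_right]⟩
      refine hasNormalPComplement_of_central Zc ((hS.to_subgroup Z).map j) hZcc ?_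
      set fb := QuotientGroup.map Z Zc j (fun z hz => ⟨z, hz, rfl⟩) with hfb
      have hfbi : Function.Injective fb := by
        rw [injective_iff_map_eq_one]
        intro x hx
        obtain ⟨s, rfl⟩ := QuotientGroup.mk_surjective x
        obtain ⟨z, hz, he⟩ := (QuotientGroup.eq_one_iff (j s)).1 hx
        exact (QuotientGroup.eq_one_iff s).2 (hj he ▸ hz)
      have hjr : j.range = (T.map f).subgroupOf C := by
        ext c
        exact ⟨fun ⟨t, ht⟩ => ⟨t, hT ▸ Subgroup.mem_top t, congrArg Subtype.val ht⟩,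
          fun ⟨s, _, he⟩ => ⟨s, Subtype.ext he⟩⟩
      have hidxb : ¬ p ∣ fb.range.index := by
        intro hd
        have h1 : fb.range = j.range.map (QuotientGroup.mk' Zc) := by
          ext y
          constructor
          · rintro ⟨x, rfl⟩
            obtain ⟨s, rfl⟩ := QuotientGroup.mk_surjective x
            exact ⟨j s, ⟨s, rfl⟩, rfl⟩
          · rintro ⟨_, ⟨s, rfl⟩, rfl⟩
            exact ⟨(s : S ⧸ Z), rfl⟩
        rw [h1] at hd
        exact hi (show p ∣ ((T.map f).subgroupOf C).index from hjr ▸ hd.trans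
          (j.range.index_map_dvd (QuotientGroup.mk'_surjective Zc)))
      refine hΦ (↥C ⧸ Zc) fb hfbi hidxb fun g hg hcop => ?_
      obtain ⟨c, rfl⟩ := QuotientGroup.mk'_surjective Zc g
      have hKeq : (Kb.map fb).comap (QuotientGroup.mk' Zc) = K.map j := by
        ext y
        constructor
        · rintro ⟨x, hx, he⟩
          obtain ⟨s, rfl⟩ := QuotientGroup.mk_surjective x
          obtain ⟨z, hz, hze⟩ : (j s)⁻¹ * y ∈ Zc := QuotientGroup.eq.1 he
          exact ⟨s * z, mul_mem (show s ∈ K from hx) (hZK hz), by rw [map_mul, hze, mul_inv_cancel_left]⟩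
        · rintro ⟨s, hs, rfl⟩
          exact ⟨(s : S ⧸ Z), hs, rfl⟩
      have hc : c ∈ Subgroup.normalizer ((K.map j : Subgroup C) : Set C) := by
        rw [← hKeq, ← Subgroup.comap_normalizer_eq_of_surjective _ (QuotientGroup.mk'_surjective Zc)]
        exact hg
      obtain ⟨e, he⟩ := exists_pow_coprime_orderOf (p := p) (isOfFinOrder_of_finite c)
      have hmap : (K.map j).map C.subtype = K.map f := by
        rw [Subgroup.map_map]; rfl
      have h1 := hcond ((c ^ p ^ e : C) : G)
        (hmap ▸ Subgroup.le_normalizer_map C.subtype ⟨c ^ p ^ e, pow_mem hc _, rfl⟩)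
        ((orderOf_injective C.subtype C.subtype_injective (c ^ p ^ e)).symm ▸ he)
      have h2 : (QuotientGroup.mk' Zc c) ^ p ^ e ∈ Subgroup.centralizer ((Kb.map fb : Subgroup (↥C ⧸ Zc)) : Set (↥C ⧸ Zc)) := by
        refine Subgroup.mem_centralizer_iff.2 fun y hy => ?_
        obtain ⟨d, rfl⟩ := QuotientGroup.mk'_surjective Zc y
        have hd : d ∈ K.map j := hKeq ▸ hy
        have h3 : (d : C) * c ^ p ^ e = c ^ p ^ e * d := Subtype.ext
          (Subgroup.mem_centralizer_iff.1 h1 (d : G) (hmap ▸ Subgroup.mem_map_of_mem C.subtype hd))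
        rw [← map_pow, ← map_mul, ← map_mul, h3]
      obtain ⟨m, hm⟩ := exists_pow_eq_self_of_coprime (x := QuotientGroup.mk' Zc c) (n := p ^ e)
        (hcop.symm.pow_left e)
      exact hm ▸ pow_mem h2 m

/-- For an odd prime p, every finite p-group S has a characteristic subgroup K with C_S(K) ≤ K such that, whenever S is (isomorphic to) a Sylow p-subgroup of a finite group G, G has a normal p-complement if and only if N_G(K)/C_G(K) is a p-group, i.e. every element of N_G(K) of order prime to p centralizes K (K transported into G along the isomorphism). -/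
theorem result (p : ℕ) [Fact p.Prime] (hp : p ≠ 2)
    (S : Type u) [Group S] [Finite S] (hS : IsPGroup p S) :
    ∃ K : Subgroup S, K.Characteristic ∧ Subgroup.centralizer (K : Set S) ≤ K ∧
      ∀ (G : Type u) [Group G] [Finite G] (P : Sylow p G) (e : ↥(P : Subgroup G) ≃* S),
        Cfsg.HasNormalPComplement p G ↔
          ∀ g ∈ Subgroup.normalizer (((K.comap (e : ↥(P : Subgroup G) →* S)).map (P : Subgroup G).subtype : Subgroup G) : Set G),
            (orderOf g).Coprime p →
              g ∈ Subgroup.centralizer (((K.comap (e : ↥(P : Subgroup G) →* S)).map (P : Subgroup G).subtype : Subgroup G) : Set G) := by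
  obtain ⟨K, hK, hKc, hΦ⟩ := exists_K hp (Nat.card S) S rfl hS
  refine ⟨K, hK, hKc, fun G _ _ P e => ⟨fun h g hg hcop => ?_, fun h => ?_⟩⟩
  · exact hasNormalPComplement_iff_frobeniusCondition.1 h _ ((P.2.to_subgroup _).map _) g hg hcop
  · let f : S →* G := (P : Subgroup G).subtype.comp e.symm.toMonoidHom
    have hf : Function.Injective f := (P : Subgroup G).subtype_injective.comp e.symm.injective
    have hr : f.range = (P : Subgroup G) := by
      rw [MonoidHom.range_comp, MonoidHom.range_eq_top.2 e.symm.surjective, ← MonoidHom.range_eq_map,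
        Subgroup.range_subtype]
    refine hΦ G f hf (by rw [hr]; exact P.not_dvd_index) ?_
    have hK' : K.map f = (K.comap (e : ↥(P : Subgroup G) →* S)).map (P : Subgroup G).subtype := by
      rw [← Subgroup.map_map]
      congr 1
      exact Subgroup.map_equiv_eq_comap_symm e.symm K
    rw [hK']
    exact h

end Cfsg.Agent.S3073
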