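import Cfsg.Statements.S3074
import Cfsg.Agent.Lib.Amalgams.QdSylow
import Cfsg.Agent.Lib.PGroups.Frattini

set_option autoImplicit false
set_option linter.style.haveILetI false
set_option linter.deprecated false
open Cfsg

namespace Cfsg.Agent.S3074

open scoped commutatorElement

theorem isExtraspecial_of_exponent {P : Type*} [Group P] [Finite P] {p : ℕ} [hp : Fact p.Prime]
    (hcard : Nat.card P = p ^ 3) (hpow : ∀ x : P, x ^ p = 1)
    (hna : ∃ x y : P, x * y ≠ y * x) : Cfsg.IsExtraspecial p P := by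
  have hP : IsPGroup p P := IsPGroup.iff_card.2 ⟨3, hcard⟩
  haveI : Nontrivial P := by
    obtain ⟨x, y, h⟩ := hna
    exact ⟨⟨x * y, y * x, h⟩⟩
  haveI := hP.center_nontrivial
  obtain ⟨x, y, hxy⟩ := hna
  have hZ : Nat.card (Subgroup.center P) = p := by
    obtain ⟨k, hk3, hk⟩ := (Nat.dvd_prime_pow hp.out).1
      (hcard ▸ Subgroup.card_subgroup_dvd_card (Subgroup.center P))
    have hidx := (Subgroup.center P).card_mul_index
    rw [hcard, hk] at hidx
    match k, hk3 with
    | 0, _ =>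
      rw [pow_zero] at hk
      exact absurd hk Finite.one_lt_card.ne'
    | 1, _ => rw [hk, pow_one]
    | 2, _ =>
      exfalso
      have hq : Nat.card (P ⧸ Subgroup.center P) = p := by
        rw [← Subgroup.index_eq_card]
        rw [show p ^ 3 = p ^ 2 * p from pow_succ p 2] at hidx
        exact Nat.eq_of_mul_eq_mul_left (pow_pos hp.out.pos 2) hidx
      haveI := isCyclic_of_prime_card hq
      exact hxy (commutative_of_cyclic_center_quotient (QuotientGroup.mk' (Subgroup.center P))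
        (by rw [QuotientGroup.ker_mk']) x y)
    | 3, _ =>
      exfalso
      have : Subgroup.center P = ⊤ := Subgroup.eq_top_of_card_eq _ (hk.trans hcard.symm)
      exact hxy ((Subgroup.mem_center_iff.1 (this ▸ Subgroup.mem_top y)) x)
  have hq2 : Nat.card (P ⧸ Subgroup.center P) = p ^ 2 := by
    have hidx := (Subgroup.center P).card_mul_index
    rw [hcard, hZ, show p ^ 3 = p * p ^ 2 from pow_succ' p 2] at hidx
    rw [← Subgroup.index_eq_card]
    exact Nat.eq_of_mul_eq_mul_left hp.out.pos hidx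
  have hle : commutator P ≤ Subgroup.center P := by
    rw [commutator_def, Subgroup.commutator_le]
    intro a _ b _
    rw [← QuotientGroup.eq_one_iff]
    show QuotientGroup.mk' (Subgroup.center P) ⁅a, b⁆ = 1
    rw [map_commutatorElement, commutatorElement_eq_one_iff_mul_comm]
    exact IsPGroup.commutative_of_card_eq_prime_sq hq2 _ _
  have hcomm : commutator P = Subgroup.center P := by
    refine Subgroup.eq_of_le_of_card_ge hle ?_
    rcases hp.out.eq_one_or_self_of_dvd _ (hZ ▸ Subgroup.card_dvd_of_le hle) with h | h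
    · exfalso
      refine hxy (commutatorElement_eq_one_iff_mul_comm.1 ?_)
      have h1 : ⁅x, y⁆ ∈ commutator P :=
        Subgroup.commutator_mem_commutator (Subgroup.mem_top x) (Subgroup.mem_top y)
      rwa [Subgroup.eq_bot_of_card_eq _ h, Subgroup.mem_bot] at h1
    · rw [h, hZ]
  refine ⟨⟨hP, le_antisymm ?_ ?_, hcomm⟩, hZ⟩
  · exact CfsgLib.PGroups.frattini_le_of hle fun a => by rw [hpow a]; exact one_mem _
  · rw [← hcomm]
    exact CfsgLib.PGroups.commutator_le_frattini hP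

theorem u_pow {p : ℕ} [Fact p.Prime] (x c f : ZMod p) (n : ℕ) :
    CfsgLib.Amalgams.Qd.u x c f ^ n =
      CfsgLib.Amalgams.Qd.u ((n : ZMod p) * x) ((n : ZMod p) * c + (n.choose 2 : ℕ) * (x * f))
        ((n : ZMod p) * f) := by
  induction n with
  | zero => simp [CfsgLib.Amalgams.Qd.u_zero]
  | succ n ih =>
    rw [pow_succ, ih, CfsgLib.Amalgams.Qd.u_mul, CfsgLib.Amalgams.Qd.u_inj,
      Nat.choose_succ_succ n 1, Nat.choose_one_right]
    push_cast
    refine ⟨?_, ?_, ?_⟩ <;> ring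
theorem aux {p : ℕ} [Fact p.Prime] (hp : p ≠ 2) (P : Sylow p ↥(Cfsg.qdOver (ZMod p))) :
    Cfsg.IsExtraspecial p ↥P ∧ Nat.card P = p ^ 3 ∧ Monoid.exponent ↥P = p := by
  obtain ⟨g, hg⟩ := MulAction.exists_smul_eq ↥(Cfsg.qdOver (ZMod p)) (CfsgLib.Amalgams.Qd.stdSylow (p := p)) P
  have hmem : ∀ y : ↥P, ∃ x c f : ZMod p, g⁻¹ * (y : ↥(Cfsg.qdOver (ZMod p))) * g = CfsgLib.Amalgams.Qd.u x c f := by
    intro y
    have h := y.2
    simp only [← hg] at h
    obtain ⟨z, hz, hze⟩ := h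
    obtain ⟨x, c, f, rfl⟩ := hz
    refine ⟨x, c, f, ?_⟩
    rw [← hze]
    show g⁻¹ * (g * _ * g⁻¹) * g = _
    group
  have hpow : ∀ y : ↥P, y ^ p = 1 := by
    intro y
    obtain ⟨x, c, f, h⟩ := hmem y
    apply Subtype.ext
    have h1 : (g⁻¹ * (y : ↥(Cfsg.qdOver (ZMod p))) * g) ^ p = 1 := by
      have h2 : p ∣ p.choose 2 :=
        (Fact.out : p.Prime).dvd_choose_self two_ne_zero
          (lt_of_le_of_ne (Fact.out : p.Prime).two_le (Ne.symm hp))
      rw [h, u_pow, (CharP.cast_eq_zero_iff (ZMod p) p _).2 h2]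
      simp [CfsgLib.Amalgams.Qd.u_zero]
    have h3 : (g⁻¹ * (y : ↥(Cfsg.qdOver (ZMod p))) * g⁻¹⁻¹) ^ p = 1 := by rwa [inv_inv]
    rw [conj_pow, conj_eq_one_iff] at h3
    simpa using h3
  have hcard : Nat.card P = p ^ 3 := by
    rw [Sylow.card_eq_multiplicity]
    exact congrArg (p ^ ·) CfsgLib.Amalgams.Qd.card_qdOver_factorization
  have hna : ∃ x y : ↥P, x * y ≠ y * x := by
    have hin : ∀ x c f : ZMod p, g * CfsgLib.Amalgams.Qd.u x c f * g⁻¹ ∈ (P : Subgroup ↥(Cfsg.qdOver (ZMod p))) := by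
      intro x c f
      rw [← hg]
      exact ⟨_, ⟨x, c, f, rfl⟩, rfl⟩
    refine ⟨⟨_, hin 1 0 0⟩, ⟨_, hin 0 0 1⟩, fun h => ?_⟩
    have h1 := congrArg Subtype.val h
    have h2 : CfsgLib.Amalgams.Qd.u (1 : ZMod p) 0 0 * CfsgLib.Amalgams.Qd.u 0 0 1
        = CfsgLib.Amalgams.Qd.u 0 0 1 * CfsgLib.Amalgams.Qd.u 1 0 0 := by
      refine mul_right_cancel (b := g⁻¹) ?_
      simpa [mul_assoc] using h1
    rw [CfsgLib.Amalgams.Qd.u_mul, CfsgLib.Amalgams.Qd.u_mul, CfsgLib.Amalgams.Qd.u_inj] at h2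
    simp at h2
  have hE := isExtraspecial_of_exponent hcard hpow hna
  refine ⟨hE, hcard, ?_⟩
  rcases (Fact.out : p.Prime).eq_one_or_self_of_dvd _ (Monoid.exponent_dvd_of_forall_pow_eq_one hpow) with h | h
  · obtain ⟨x, y, hxy⟩ := hna
    haveI := Monoid.exp_eq_one_iff.1 h
    exact absurd (Subsingleton.elim (x * y) (y * x)) hxy
  · exact h

/-- Let p be an odd prime. A Sylow p-subgroup of Qd(p), the split extension of an elementary abelian group of order p² by SL₂(p) acting naturally, is extraspecial of order p³ and exponent p. -/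
theorem result (p : ℕ) [Fact p.Prime] (hp : p ≠ 2) (P : Sylow p ↥(Cfsg.qd p)) :
    Cfsg.IsExtraspecial p ↥P ∧ Nat.card P = p ^ 3 ∧ Monoid.exponent ↥P = p := by
  exact aux hp P

end Cfsg.Agent.S3074
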