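import Cfsg.Statements.S3075
import Mathlib.FieldTheory.Finite.Basic
import Mathlib.GroupTheory.PGroup

set_option autoImplicit false
open Cfsg

namespace Cfsg.Agent.S3075

/-- Over a finite field of odd order two elements of `SL₂` have commutator `-1`. -/
theorem exists_commutator_eq_neg_one {F : Type*} [Field F] [Fintype F] :
    ∃ a b : Matrix.SpecialLinearGroup (Fin 2) F,
      ((a * b * a⁻¹ * b⁻¹ : Matrix.SpecialLinearGroup (Fin 2) F) : Matrix (Fin 2) (Fin 2) F) = -1 := by
  obtain ⟨x, y, hxy⟩ : ∃ x y : F, x ^ 2 + y ^ 2 = -1 := by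
    by_cases h2 : ringChar F = 2
    · have := ringChar.of_eq h2
      exact ⟨1, 0, by rw [CharTwo.neg_eq]; ring⟩
    · open Polynomial in
      obtain ⟨a, b, h⟩ := FiniteField.exists_root_sum_quadratic
        (f := (X : F[X]) ^ 2) (g := X ^ 2 - C (-1)) (by simp)
        (by rw [degree_X_pow_sub_C (by norm_num : (0 : ℕ) < 2)]; rfl)
        (FiniteField.odd_card_of_char_ne_two h2)
      refine ⟨a, b, ?_⟩
      simp only [eval_pow, eval_X, eval_sub, eval_C] at h
      linear_combination h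
  obtain ⟨a, ha⟩ : ∃ a : Matrix.SpecialLinearGroup (Fin 2) F,
      (a : Matrix (Fin 2) (Fin 2) F) = !![0, 1; -1, 0] :=
    ⟨⟨!![0, 1; -1, 0], by simp [Matrix.det_fin_two]⟩, rfl⟩
  obtain ⟨b, hb⟩ : ∃ b : Matrix.SpecialLinearGroup (Fin 2) F,
      (b : Matrix (Fin 2) (Fin 2) F) = !![x, y; y, -x] :=
    ⟨⟨!![x, y; y, -x], by simp [Matrix.det_fin_two]; linear_combination -hxy⟩, rfl⟩
  refine ⟨a, b, ?_⟩
  have h : ((a * b : Matrix.SpecialLinearGroup (Fin 2) F) : Matrix (Fin 2) (Fin 2) F)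
      = -((b * a : Matrix.SpecialLinearGroup (Fin 2) F) : Matrix (Fin 2) (Fin 2) F) := by
    rw [Matrix.SpecialLinearGroup.coe_mul, Matrix.SpecialLinearGroup.coe_mul, ha, hb]
    ext i j
    fin_cases i <;> fin_cases j <;> simp [Matrix.mul_apply, Fin.sum_univ_two]
  rw [show a * b * a⁻¹ * b⁻¹ = (a * b) * (b * a)⁻¹ by group, Matrix.SpecialLinearGroup.coe_mul, h,
    neg_mul, ← Matrix.SpecialLinearGroup.coe_mul, mul_inv_cancel, Matrix.SpecialLinearGroup.coe_one]

/-- Conjugation acts on a normalised cyclic subgroup by commuting maps. -/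
theorem conj_comm_of_cyclic {N : Type*} [Group N] (C : Subgroup N) [IsCyclic C]
    (hC : ∀ g : N, ∀ c ∈ C, g * c * g⁻¹ ∈ C) (a b c : N) (hc : c ∈ C) :
    (a * b * a⁻¹ * b⁻¹) * c * (a * b * a⁻¹ * b⁻¹)⁻¹ = c := by
  have key : ∀ g : N, ∃ i : ℤ, ∀ d ∈ C, g * d * g⁻¹ = d ^ i := by
    intro g
    let f : C →* C :=
      { toFun := fun d => ⟨g * d * g⁻¹, hC g d d.2⟩
        map_one' := Subtype.ext (by simp)
        map_mul' := fun d e => Subtype.ext (by simp [mul_assoc]) }
    obtain ⟨i, hi⟩ := f.map_cyclic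
    exact ⟨i, fun d hd => by simpa [f] using congrArg Subtype.val (hi ⟨d, hd⟩)⟩
  obtain ⟨i, hi⟩ := key a
  obtain ⟨j, hj⟩ := key b
  have e1 : ∀ d ∈ C, a * b * d * (a * b)⁻¹ = b * a * d * (b * a)⁻¹ := by
    intro d hd
    calc a * b * d * (a * b)⁻¹ = a * (b * d * b⁻¹) * a⁻¹ := by group
      _ = (d ^ i) ^ j := by rw [hj d hd, ← conj_zpow, hi d hd]
      _ = (d ^ j) ^ i := by rw [← zpow_mul, ← zpow_mul, mul_comm]
      _ = b * (a * d * a⁻¹) * b⁻¹ := by rw [hi d hd, ← conj_zpow, hj d hd]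
      _ = b * a * d * (b * a)⁻¹ := by group
  have h := e1 ((b * a)⁻¹ * c * (b * a)) (by
    have := hC (b * a)⁻¹ c hc
    rwa [inv_inv] at this)
  calc (a * b * a⁻¹ * b⁻¹) * c * (a * b * a⁻¹ * b⁻¹)⁻¹
      = a * b * ((b * a)⁻¹ * c * (b * a)) * (a * b)⁻¹ := by group
    _ = c := by rw [h]; group

/-- Let p be an odd prime and N a finite group with a normal elementary abelian subgroup A of order p² that is its own centralizer in N, such that N/A is isomorphic to SL₂(p) (over any field F with p elements). Then N splits over A: some subgroup U of N satisfies A ∩ U = 1 and AU = N. -/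
theorem result {N : Type*} [Group N] [Finite N] {p : ℕ} [Fact p.Prime] (hp : p ≠ 2)
    (A : Subgroup N) [A.Normal] (hAcomm : IsMulCommutative A) (hAcard : Nat.card A = p ^ 2) (hAexp : Monoid.exponent ↥A = p)
    (hAself : Subgroup.centralizer (A : Set N) = A)
    {F : Type*} [Field F] [Fintype F] (hF : Fintype.card F = p) (e : N ⧸ A ≃* Matrix.SpecialLinearGroup (Fin 2) F) :
    ∃ U : Subgroup N, A ⊓ U = ⊥ ∧ A ⊔ U = ⊤ := by
  have hprime : p.Prime := Fact.out
  have h2p : ¬ p ∣ 2 := fun h => hp ((Nat.prime_dvd_prime_iff_eq hprime Nat.prime_two).mp h)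
  have hApow : ∀ x ∈ A, x ^ p = 1 := fun x hx => by
    have := Monoid.pow_exponent_eq_one (⟨x, hx⟩ : A)
    rw [hAexp] at this
    exact congrArg Subtype.val this
  have hAc : ∀ x ∈ A, ∀ y ∈ A, x * y = y * x := fun x hx y hy =>
    congrArg Subtype.val (mul_comm' (⟨x, hx⟩ : A) ⟨y, hy⟩)
  obtain ⟨a', b', hab⟩ := exists_commutator_eq_neg_one (F := F)
  obtain ⟨a, ha⟩ := QuotientGroup.mk'_surjective A (e.symm a')
  obtain ⟨b, hb⟩ := QuotientGroup.mk'_surjective A (e.symm b')
  set m := a * b * a⁻¹ * b⁻¹ with hm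
  have hem : e (QuotientGroup.mk' A m) = a' * b' * a'⁻¹ * b'⁻¹ := by
    rw [hm]
    simp only [map_mul, map_inv, ha, hb, MulEquiv.apply_symm_apply]
  have hm2 : e (QuotientGroup.mk' A (m * m)) = 1 := by
    rw [map_mul, map_mul, hem]
    apply Subtype.ext
    rw [Matrix.SpecialLinearGroup.coe_mul, hab]
    simp
  have hm2A : m * m ∈ A :=
    (QuotientGroup.eq_one_iff (m * m)).mp (e.injective (hm2.trans (map_one e).symm))
  obtain ⟨k, hk⟩ : Odd p := hprime.odd_of_ne_two hp
  set w := m ^ p with hw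
  have hw2 : w * w = 1 := by
    rw [hw, ← (Commute.refl m).mul_pow]
    exact hApow _ hm2A
  have hwm : m⁻¹ * w ∈ A := by
    have : m⁻¹ * w = (m * m) ^ k := by
      rw [hw, hk, pow_succ', inv_mul_cancel_left, pow_mul, sq]
    rw [this]
    exact pow_mem hm2A k
  have hwA : w ∉ A := by
    intro h
    have hmA : m ∈ A := by
      have := mul_mem h (inv_mem hwm)
      rwa [mul_inv_rev, inv_inv, mul_inv_cancel_left] at this
    have h1 : ((a' * b' * a'⁻¹ * b'⁻¹ : Matrix.SpecialLinearGroup (Fin 2) F) :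
        Matrix (Fin 2) (Fin 2) F) = 1 := by
      rw [← hem, show QuotientGroup.mk' A m = 1 from (QuotientGroup.eq_one_iff m).mpr hmA, map_one]
      rfl
    rw [hab] at h1
    have h3 : (-1 : F) = 1 := by simpa using congrFun (congrFun h1 0) 0
    have h4 : ((2 : ℕ) : F) = 0 := by push_cast; linear_combination -h3
    obtain ⟨q, hq⟩ := CharP.exists F
    have hqp : q = p := by
      obtain ⟨n, hqprime, hn⟩ := FiniteField.card F q
      rw [hF] at hn
      exact ((Nat.prime_dvd_prime_iff_eq hqprime hprime).mp (hn ▸ dvd_pow_self q n.pos.ne'))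
    subst hqp
    exact h2p ((CharP.cast_eq_zero_iff F q 2).mp h4)
  have hwinv : ∀ x ∈ A, w * (w * x * w) * w = x := fun x _ => by
    rw [show w * (w * x * w) * w = (w * w) * x * (w * w) by group, hw2, one_mul, mul_one]
  have hAn : A.Normal := inferInstance
  have hwx : ∀ x ∈ A, w * x * w ∈ A := fun x hx => by
    have h := hAn.conj_mem x hx w
    rwa [inv_eq_of_mul_eq_one_left hw2] at h
  let φ : N → N := fun x => w * x * w
  have hφ : ∀ x y, φ (x * y) = φ x * φ y := fun x y => by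
    simp only [φ]
    rw [show w * x * w * (w * y * w) = w * x * (w * w) * y * w by group, hw2]
    group
  have hφφ : ∀ x, φ (φ x) = x := fun x => by
    simp only [φ]
    rw [show w * (w * x * w) * w = (w * w) * x * (w * w) by group, hw2, one_mul, mul_one]
  have hφinv : ∀ x, φ x⁻¹ = (φ x)⁻¹ := fun x => by
    simp only [φ]
    rw [mul_inv_rev, mul_inv_rev, inv_eq_of_mul_eq_one_left hw2]
    group
  let C : Subgroup N :=
    { carrier := {x | x ∈ A ∧ φ x = x}
      one_mem' := ⟨one_mem A, by simp [φ, hw2]⟩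
      mul_mem' := fun hx hy => ⟨mul_mem hx.1 hy.1, by rw [hφ, hx.2, hy.2]⟩
      inv_mem' := fun hx => ⟨inv_mem hx.1, by rw [hφinv, hx.2]⟩ }
  let D : Subgroup N :=
    { carrier := {x | x ∈ A ∧ φ x = x⁻¹}
      one_mem' := ⟨one_mem A, by simp [φ, hw2]⟩
      mul_mem' := fun {x y} hx hy => ⟨mul_mem hx.1 hy.1, by
        rw [hφ, hx.2, hy.2, mul_inv_rev, hAc _ (inv_mem hx.1) _ (inv_mem hy.1)]⟩
      inv_mem' := fun hx => ⟨inv_mem hx.1, by rw [hφinv, hx.2]⟩ }
  -- every conjugate of `w` acts on `A` like `w`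
  have hgw : ∀ g : N, ∃ α ∈ A, g * w * g⁻¹ = α * w := by
    intro g
    refine ⟨g * w * g⁻¹ * w⁻¹, (QuotientGroup.eq_one_iff _).mp (e.injective ?_), by group⟩
    have hcentral : ∀ s : Matrix.SpecialLinearGroup (Fin 2) F,
        s * e (QuotientGroup.mk' A w) = e (QuotientGroup.mk' A w) * s := by
      intro s
      have he : e (QuotientGroup.mk' A w) = a' * b' * a'⁻¹ * b'⁻¹ := by
        rw [← hem]
        exact congrArg e (QuotientGroup.eq.mpr hwm).symm
      have hcoe : ((e (QuotientGroup.mk' A w) : Matrix.SpecialLinearGroup (Fin 2) F) :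
          Matrix (Fin 2) (Fin 2) F) = -1 := by rw [he]; exact hab
      apply Subtype.ext
      rw [Matrix.SpecialLinearGroup.coe_mul, Matrix.SpecialLinearGroup.coe_mul, hcoe]
      simp
    change e (QuotientGroup.mk' A (g * w * g⁻¹ * w⁻¹)) = e 1
    rw [map_mul, map_mul, map_mul, map_inv, map_inv, map_mul, map_mul, map_mul, map_inv, map_inv,
      hcentral, map_one]
    group
  have hact : ∀ g x : N, x ∈ A → φ (g * x * g⁻¹) = g * φ x * g⁻¹ := by
    intro g x hx
    obtain ⟨α, hα, hg⟩ := hgw g⁻¹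
    have hwg : w * g = g * (α * w) := by rw [← hg]; group
    have hgw' : g⁻¹ * w = (w * g)⁻¹ := by
      rw [mul_inv_rev, inv_eq_of_mul_eq_one_left hw2]
    calc φ (g * x * g⁻¹) = w * g * x * (g⁻¹ * w) := by simp only [φ]; group
      _ = g * (α * w) * x * (g * (α * w))⁻¹ := by rw [hgw', hwg]
      _ = g * (α * (w * x * w⁻¹) * α⁻¹) * g⁻¹ := by group
      _ = g * φ x * g⁻¹ := by
        rw [inv_eq_of_mul_eq_one_left hw2, hAc α hα _ (hwx x hx), mul_inv_cancel_right]
  have hCn : ∀ g : N, ∀ x ∈ C, g * x * g⁻¹ ∈ C := fun g x hx =>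
    ⟨hAn.conj_mem x hx.1 g, by rw [hact g x hx.1, hx.2]⟩
  have hDn : ∀ g : N, ∀ x ∈ D, g * x * g⁻¹ ∈ D := fun g x hx =>
    ⟨hAn.conj_mem x hx.1 g, by rw [hact g x hx.1, hx.2]; group⟩
  have hroot : ∀ x ∈ A, (x * x) ^ (k + 1) = x := fun x hx => by
    rw [← sq, ← pow_mul, show 2 * (k + 1) = p + 1 by omega, pow_succ, hApow x hx, one_mul]
  -- `C` is trivial
  have hCbot : C = ⊥ := by
    by_contra hC
    by_cases hD : D = ⊥
    · apply hwA
      rw [← hAself, Subgroup.mem_centralizer_iff]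
      intro x hx
      have h1 : x * (φ x)⁻¹ ∈ D := ⟨mul_mem hx (inv_mem (hwx x hx)), by
        rw [hφ, hφinv, hφφ]; group⟩
      rw [hD, Subgroup.mem_bot, mul_inv_eq_one] at h1
      calc x * w = w * x * w * w := by rw [show w * x * w = x from h1.symm]
        _ = w * x := by rw [mul_assoc, hw2, mul_one]
    · have hdisj : ∀ x ∈ C, x ∈ D → x = 1 := fun x hxC hxD => by
        have h1 : x * x = 1 := mul_eq_one_iff_eq_inv.mpr (hxC.2.symm.trans hxD.2)
        rw [← hroot x hxC.1, h1, one_pow]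
      have hle : Nat.card C * Nat.card D ≤ Nat.card A := by
        rw [← Nat.card_prod]
        refine Nat.card_le_card_of_injective
          (fun z => ⟨(z.1 : N) * z.2, mul_mem z.1.2.1 z.2.2.1⟩) ?_
        rintro ⟨⟨c₁, h₁⟩, d₁, g₁⟩ ⟨⟨c₂, h₂⟩, d₂, g₂⟩ he
        have he' : c₁ * d₁ = c₂ * d₂ := congrArg Subtype.val he
        have h3 : c₂⁻¹ * c₁ = d₂ * d₁⁻¹ := by
          rw [eq_mul_inv_iff_mul_eq, mul_assoc, he', inv_mul_cancel_left]
        have h4 : c₂⁻¹ * c₁ = 1 :=
          hdisj _ (mul_mem (inv_mem h₂) h₁) (h3 ▸ mul_mem g₂ (inv_mem g₁))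
        obtain rfl : c₂ = c₁ := inv_mul_eq_one.mp h4
        obtain rfl : d₁ = d₂ := mul_left_cancel he'
        rfl
      have hpA : IsPGroup p A := IsPGroup.of_card hAcard
      have hsz : ∀ S : Subgroup N, S ≤ A → S ≠ ⊥ → p ∣ Nat.card S := by
        intro S hSA hS
        obtain ⟨j, hj⟩ := (hpA.to_le hSA).exists_card_eq
        have hj0 : j ≠ 0 := fun h => hS (Subgroup.card_eq_one.mp (by rw [hj, h, pow_zero]))
        exact hj ▸ dvd_pow_self p hj0
      have hc := hsz C (fun x hx => hx.1) hC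
      have hd := hsz D (fun x hx => hx.1) hD
      have hCp : Nat.card C = p := le_antisymm (by
        have := Nat.le_of_dvd Nat.card_pos hd
        rw [hAcard, sq] at hle
        exact Nat.le_of_mul_le_mul_right ((Nat.mul_le_mul_left _ this).trans hle) hprime.pos)
        (Nat.le_of_dvd Nat.card_pos hc)
      have hDp : Nat.card D = p := le_antisymm (by
        rw [hAcard, sq, hCp] at hle
        exact Nat.le_of_mul_le_mul_left hle hprime.pos) (Nat.le_of_dvd Nat.card_pos hd)
      have := isCyclic_of_prime_card hCp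
      have := isCyclic_of_prime_card hDp
      apply hwA
      have hm' : m ∈ A → w ∈ A := fun hmA => by
        have := mul_mem hmA hwm
        rwa [mul_inv_cancel_left] at this
      apply hm'
      rw [← hAself, Subgroup.mem_centralizer_iff]
      intro x hx
      have h1 : x * φ x ∈ C := ⟨mul_mem hx (hwx x hx), by
        rw [hφ, hφφ]; exact hAc _ (hwx x hx) _ hx⟩
      have h2 : x * (φ x)⁻¹ ∈ D := ⟨mul_mem hx (inv_mem (hwx x hx)), by
        rw [hφ, hφinv, hφφ]; group⟩
      have hxx : (x * φ x) * (x * (φ x)⁻¹) = x * x := by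
        calc (x * φ x) * (x * (φ x)⁻¹) = x * (φ x * x) * (φ x)⁻¹ := by group
          _ = x * (x * φ x) * (φ x)⁻¹ := by rw [hAc _ (hwx x hx) _ hx]
          _ = x * x := by group
      have hfix : m * (x * x) * m⁻¹ = x * x := by
        rw [← hxx, ← conj_mul, conj_comm_of_cyclic C hCn a b _ h1,
          conj_comm_of_cyclic D hDn a b _ h2]
      have : m * x * m⁻¹ = x := by
        rw [← hroot x hx, ← conj_pow, hfix]
      exact (mul_inv_eq_iff_eq_mul.mp this).symm
  have hinv : ∀ x ∈ A, φ x = x⁻¹ := fun x hx => by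
    have h1 : x * φ x ∈ C := ⟨mul_mem hx (hwx x hx), by
      rw [hφ, hφφ]; exact hAc _ (hwx x hx) _ hx⟩
    rw [hCbot, Subgroup.mem_bot] at h1
    exact eq_inv_of_mul_eq_one_right h1
  refine ⟨Subgroup.centralizer {w}, ?_, ?_⟩
  · refine (Subgroup.eq_bot_iff_forall _).2 fun x hx => ?_
    obtain ⟨hxA, hxw⟩ := Subgroup.mem_inf.mp hx
    rw [Subgroup.mem_centralizer_singleton_iff] at hxw
    have h1 : φ x = x := by
      simp only [φ]
      rw [← hxw, mul_assoc, hw2, mul_one]
    have : x ∈ C := ⟨hxA, h1⟩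
    rwa [hCbot, Subgroup.mem_bot] at this
  · rw [eq_top_iff]
    intro g _
    obtain ⟨α, hα, hg⟩ := hgw g
    set β := α ^ (k + 1) with hβ
    have hβA : β ∈ A := pow_mem hα _
    have hβ2 : β * β = α := by
      rw [hβ, ← pow_add, show k + 1 + (k + 1) = p + 1 by omega, pow_succ, hApow α hα, one_mul]
    have : β⁻¹ * g ∈ Subgroup.centralizer {w} := by
      rw [Subgroup.mem_centralizer_singleton_iff]
      have h1 : g * w = α * w * g := by rw [← hg]; group
      have h2 : w * β⁻¹ = β * w := by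
        have h3 := hinv _ (inv_mem hβA)
        rw [inv_inv] at h3
        calc w * β⁻¹ = w * β⁻¹ * (w * w) := by rw [hw2, mul_one]
          _ = φ β⁻¹ * w := by simp only [φ]; group
          _ = _ := by rw [h3]
      calc β⁻¹ * g * w = β⁻¹ * (α * w * g) := by rw [← h1]; group
        _ = β * w * g := by rw [← hβ2]; group
        _ = w * (β⁻¹ * g) := by rw [← h2]; group
    have h := Subgroup.mul_mem_sup hβA this
    rwa [mul_inv_cancel_left] at h

end Cfsg.Agent.S3075
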