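import Cfsg.Statements.S3076
import Cfsg.Agent.Lib.Replacement.ZJQdFree

set_option autoImplicit false
set_option linter.style.haveILetI false
open Cfsg

namespace Cfsg.Agent.S3076

open CfsgLib.NormalPComplement

theorem pPrimePCore_le {M : Type*} [Group M] [Finite M] {p : ℕ} [Fact p.Prime] {H C : Subgroup M}
    [H.Normal] [C.Normal] (hH : IsPGroup p H) (hC : C = Subgroup.centralizer (H : Set M)) :
    Cfsg.pPrimePCore p M ≤ (Cfsg.pCore p (M ⧸ C)).comap (QuotientGroup.mk' C) := by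
  set O := Cfsg.pPrimePCore p M with hO
  haveI : O.Normal := by rw [hO, Cfsg.pPrimePCore]; infer_instance
  haveI : (O.map (QuotientGroup.mk' C)).Normal :=
    Subgroup.Normal.map inferInstance _ (QuotientGroup.mk'_surjective C)
  rw [← Subgroup.map_le_iff_le_comap]
  refine CfsgLib.Cores.le_pCore ?_
  rintro ⟨_, o, ho, rfl⟩
  have ho' : QuotientGroup.mk' (Cfsg.pPrimeCore p M) o ∈ Cfsg.pCore p (M ⧸ Cfsg.pPrimeCore p M) := ho
  obtain ⟨k, hk⟩ := CfsgLib.Cores.isPGroup_pCore p (M ⧸ Cfsg.pPrimeCore p M) ⟨_, ho'⟩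
  refine ⟨k, Subtype.ext ?_⟩
  show (QuotientGroup.mk' C o) ^ p ^ k = 1
  rw [← map_pow]
  refine (QuotientGroup.eq_one_iff _).2 ?_
  have hk' : o ^ p ^ k ∈ Cfsg.pPrimeCore p M :=
    (QuotientGroup.eq_one_iff _).1 (congrArg Subtype.val hk :)
  rw [hC, Subgroup.mem_centralizer_iff]
  exact fun h hh => (CfsgLib.Cores.commute_pCore_pPrimeCore (CfsgLib.Cores.le_pCore hH hh) hk').eq

theorem le_pPrimePCore' {M : Type*} [Group M] [Finite M] {p : ℕ} [Fact p.Prime] (S : Sylow p M)
    {H C : Subgroup M} [H.Normal] [C.Normal] (hC : C = Subgroup.centralizer (H : Set M))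
    (hSC : (S : Subgroup M) ⊓ C ≤ H) :
    (Cfsg.pCore p (M ⧸ C)).comap (QuotientGroup.mk' C) ≤ Cfsg.pPrimePCore p M := by
  set N := (Cfsg.pCore p (M ⧸ C)).comap (QuotientGroup.mk' C) with hN
  haveI : (N.map (QuotientGroup.mk' (Cfsg.pPrimeCore p M))).Normal :=
    Subgroup.Normal.map inferInstance _ (QuotientGroup.mk'_surjective _)
  have hCn : Cfsg.HasNormalPComplement p C := by
    refine hasNormalPComplement_of_frobeniusCondition fun Y hY c _ _ => ?_
    refine Subgroup.mem_centralizer_iff.2 fun y hy => Subtype.ext ?_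
    obtain ⟨g, -, hg⟩ := CfsgLib.PushUp.exists_cmap_le (H := ⊤) le_top (hY.map C.subtype) le_top S.2
      (by rw [Subgroup.relIndex_top_right]; exact S.not_dvd_index)
    have h1 : g * (y : M) * g⁻¹ ∈ H := hSC ⟨hg (CfsgLib.PushUp.conj_mem_cmap ⟨y, hy, rfl⟩),
      (inferInstance : C.Normal).conj_mem _ y.2 g⟩
    have h2 : (y : M) ∈ H := by
      have := (inferInstance : H.Normal).conj_mem _ h1 g⁻¹
      simpa [mul_assoc] using this
    have hc : (c : M) ∈ Subgroup.centralizer (H : Set M) := hC.le c.2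
    exact Subgroup.mem_centralizer_iff.1 hc (y : M) h2
  show N ≤ (Cfsg.pCore p (M ⧸ Cfsg.pPrimeCore p M)).comap (QuotientGroup.mk' (Cfsg.pPrimeCore p M))
  rw [← Subgroup.map_le_iff_le_comap]
  refine CfsgLib.Cores.le_pCore ?_
  rintro ⟨_, n, hn, rfl⟩
  obtain ⟨e, he⟩ := exists_pow_coprime_orderOf (p := p) (isOfFinOrder_of_finite n)
  refine ⟨e, Subtype.ext ?_⟩
  show (QuotientGroup.mk' (Cfsg.pPrimeCore p M) n) ^ p ^ e = 1
  rw [← map_pow]
  refine (QuotientGroup.eq_one_iff _).2 ?_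
  have hnC : n ^ p ^ e ∈ C := by
    refine (QuotientGroup.eq_one_iff _).1 ?_
    obtain ⟨k, hk⟩ := CfsgLib.Cores.isPGroup_pCore p (M ⧸ C) ⟨_, pow_mem hn (p ^ e)⟩
    exact orderOf_eq_one_iff.1 (Nat.eq_one_of_dvd_coprimes (he.pow_right k)
      (orderOf_map_dvd (QuotientGroup.mk' C) _) (orderOf_dvd_of_pow_eq_one (congrArg Subtype.val hk :)))
  refine CfsgLib.Cores.map_subtype_pPrimeCore_le (N := C) (Subgroup.Normal.isSubnormal inferInstance)
    ⟨⟨_, hnC⟩, mem_pPrimeCore_of_coprime hCn ?_, rfl⟩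
  rwa [← orderOf_injective C.subtype C.subtype_injective]

theorem key {M : Type*} [Group M] [Finite M] {p : ℕ} [Fact p.Prime] (S : Sylow p M)
    {H C : Subgroup M} [H.Normal] [C.Normal] (hH : IsPGroup p H)
    (hC : C = Subgroup.centralizer (H : Set M)) :
    (H ≤ (Cfsg.pCore p (M ⧸ C)).comap (QuotientGroup.mk' C) ∧
      ¬ p ∣ H.relIndex ((Cfsg.pCore p (M ⧸ C)).comap (QuotientGroup.mk' C))) ↔
    ((S : Subgroup M) ⊓ C ≤ H ∧ Cfsg.pPrimePCore p M = H ⊔ C) := by
  set N := (Cfsg.pCore p (M ⧸ C)).comap (QuotientGroup.mk' C) with hN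
  have hHN : H ≤ N := by
    haveI : (H.map (QuotientGroup.mk' C)).Normal :=
      Subgroup.Normal.map inferInstance _ (QuotientGroup.mk'_surjective C)
    exact Subgroup.map_le_iff_le_comap.1 (CfsgLib.Cores.le_pCore (hH.map _))
  have hCN : C ≤ N := fun c hc => by
    rw [hN, Subgroup.mem_comap, QuotientGroup.mk'_apply, (QuotientGroup.eq_one_iff c).2 hc]
    exact one_mem _
  have hHS : H ≤ (S : Subgroup M) := IsPGroup.le_sylow_of_normal hH S
  constructor
  · rintro ⟨-, hi⟩
    have hSN : (S : Subgroup M) ⊓ N = H := by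
      refine (Subgroup.eq_of_le_of_card_ge (le_inf hHS hHN) ?_).symm
      obtain ⟨a, ha⟩ := IsPGroup.iff_card.1 (S.2.to_inf_left (K := N))
      have e := Subgroup.relIndex_mul_relIndex H ((S : Subgroup M) ⊓ N) N (le_inf hHS hHN) inf_le_right
      have h1 : H.relIndex ((S : Subgroup M) ⊓ N) = 1 := by
        obtain ⟨b, hb⟩ : H.relIndex ((S : Subgroup M) ⊓ N) ∣ p ^ a :=
          ha ▸ Subgroup.relIndex_dvd_card H _
        by_contra hne
        obtain ⟨i, -, hi'⟩ := (Nat.dvd_prime_pow Fact.out).1 (Dvd.intro b hb.symm)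
        rcases i with _ | i
        · exact hne (by rw [hi', pow_zero])
        · exact hi (e ▸ dvd_mul_of_dvd_left (hi' ▸ dvd_pow_self p i.succ_ne_zero) _)
      rw [Subgroup.relIndex_eq_one] at h1
      exact Subgroup.card_le_of_le h1
    have hSC : (S : Subgroup M) ⊓ C ≤ H := (inf_le_inf_left _ hCN).trans hSN.le
    refine ⟨hSC, ?_⟩
    rw [le_antisymm (pPrimePCore_le hH hC) (le_pPrimePCore' S hC hSC), ← hN]
    refine le_antisymm ?_ (sup_le hHN hCN)
    rw [← Subgroup.relIndex_eq_one]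
    obtain ⟨a, ha⟩ := IsPGroup.iff_card.1 (CfsgLib.Cores.isPGroup_pCore p (M ⧸ C))
    have hCp : C.relIndex N = p ^ a := by
      nth_rewrite 1 [show C = (⊥ : Subgroup (M ⧸ C)).comap (QuotientGroup.mk' C) by
        rw [MonoidHom.comap_bot, QuotientGroup.ker_mk']]
      rw [hN, Subgroup.relIndex_comap, Subgroup.map_comap_eq_self_of_surjective
        (QuotientGroup.mk'_surjective C), Subgroup.relIndex_bot_left]
      exact ha
    refine Nat.eq_one_of_dvd_coprimes (Nat.Coprime.pow_left a ((Fact.out : p.Prime).coprime_iff_not_dvd.2 hi))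
      (hCp ▸ Subgroup.relIndex_dvd_of_le_left N le_sup_right) (Subgroup.relIndex_dvd_of_le_left N le_sup_left)
  · rintro ⟨hSC, hO⟩
    have hNO : N = H ⊔ C := le_antisymm ((le_pPrimePCore' S hC hSC).trans hO.le) (sup_le hHN hCN)
    refine ⟨hHN, ?_⟩
    have hSN : (S : Subgroup M) ⊓ N = H := by
      refine le_antisymm ?_ (le_inf hHS hHN)
      rintro x ⟨hxS, hxN⟩
      rw [hNO] at hxN
      obtain ⟨h, hh, c, hc, rfl⟩ := Subgroup.mem_sup_of_normal_right.1 hxN
      refine mul_mem hh (hSC ⟨?_, hc⟩)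
      have := (S : Subgroup M).mul_mem ((S : Subgroup M).inv_mem (hHS hh)) hxS
      rwa [inv_mul_cancel_left] at this
    rw [← hSN]
    exact CfsgLib.Replacement.not_dvd_relIndex_inf_normal S N
/-- Let P be a Sylow p-subgroup of the finite group G and H ≤ P a subgroup with N_P(H) a Sylow p-subgroup of N_G(H). Let N be the preimage in N_G(H) of O_p(N_G(H)/C_G(H)). Then H is a Sylow p-subgroup of N if and only if C_P(H) ≤ H and O_{p',p}(N_G(H)) = H·C_G(H). -/
theorem result {G : Type*} [Group G] [Finite G] {p : ℕ} [Fact p.Prime]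
    (P : Sylow p G) (H : Subgroup G) (hHP : H ≤ (P : Subgroup G))
    (hSyl : ¬ p ∣ ((P : Subgroup G) ⊓ Subgroup.normalizer (H : Set G)).relIndex (Subgroup.normalizer (H : Set G)))
    [hC : ((Subgroup.centralizer (H : Set G)).subgroupOf (Subgroup.normalizer (H : Set G))).Normal] :
    (H ≤ ((Cfsg.pCore p (↥(Subgroup.normalizer (H : Set G)) ⧸
              (Subgroup.centralizer (H : Set G)).subgroupOf (Subgroup.normalizer (H : Set G)))).comap
            (QuotientGroup.mk' _)).map (Subgroup.normalizer (H : Set G)).subtype ∧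
      ¬ p ∣ H.relIndex (((Cfsg.pCore p (↥(Subgroup.normalizer (H : Set G)) ⧸
              (Subgroup.centralizer (H : Set G)).subgroupOf (Subgroup.normalizer (H : Set G)))).comap
            (QuotientGroup.mk' _)).map (Subgroup.normalizer (H : Set G)).subtype)) ↔
    ((P : Subgroup G) ⊓ Subgroup.centralizer (H : Set G) ≤ H ∧
      (Cfsg.pPrimePCore p ↥(Subgroup.normalizer (H : Set G))).map (Subgroup.normalizer (H : Set G)).subtype =
        H ⊔ Subgroup.centralizer (H : Set G)) := by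
  set M := Subgroup.normalizer (H : Set G) with hM
  have hRp : IsPGroup p (((P : Subgroup G) ⊓ M).subgroupOf M) :=
    (P.2.to_le inf_le_left).of_equiv (Subgroup.subgroupOfEquivOfLe inf_le_right).symm
  let S : Sylow p M := hRp.toSylow hSyl
  haveI : (H.subgroupOf M).Normal := Subgroup.normal_in_normalizer
  have hHM : H ≤ M := Subgroup.le_normalizer
  have hCM : Subgroup.centralizer (H : Set G) ≤ M := Subgroup.centralizer_le_normalizer _
  have hCeq : (Subgroup.centralizer (H : Set G)).subgroupOf M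
      = Subgroup.centralizer ((H.subgroupOf M : Subgroup M) : Set M) := by
    ext x
    simp only [Subgroup.mem_subgroupOf, Subgroup.mem_centralizer_iff, SetLike.mem_coe]
    exact ⟨fun h y hy => Subtype.ext (h y hy), fun h y hy => congrArg Subtype.val (h ⟨y, hHM hy⟩ hy)⟩
  have k := key S (H := H.subgroupOf M) (C := (Subgroup.centralizer (H : Set G)).subgroupOf M)
    (P.2.to_le hHP).comap_subtype hCeq
  have e1 : (S : Subgroup M) ⊓ (Subgroup.centralizer (H : Set G)).subgroupOf M ≤ H.subgroupOf M ↔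
      (P : Subgroup G) ⊓ Subgroup.centralizer (H : Set G) ≤ H := by
    constructor
    · exact fun h x hx => h (x := ⟨x, hCM hx.2⟩) ⟨⟨hx.1, hCM hx.2⟩, hx.2⟩
    · exact fun h x hx => h ⟨hx.1.1, hx.2⟩
  have e2 : ∀ A : Subgroup M, (H ≤ A.map M.subtype ↔ H.subgroupOf M ≤ A) ∧
      H.relIndex (A.map M.subtype) = (H.subgroupOf M).relIndex A := by
    intro A
    refine ⟨⟨fun h x hx => ?_, fun h => ?_⟩, ?_⟩
    · obtain ⟨y, hy, hye⟩ := h hx
      rwa [← Subtype.ext (hye : (y : G) = x)]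
    · rw [← Subgroup.map_subgroupOf_eq_of_le hHM]
      exact Subgroup.map_mono h
    · rw [← Subgroup.relIndex_map_map_of_injective _ _ M.subtype_injective,
        Subgroup.map_subgroupOf_eq_of_le hHM]
  rw [(e2 _).1, (e2 _).2, k, e1]
  refine and_congr_right fun _ => ?_
  rw [← (Subgroup.map_injective M.subtype_injective).eq_iff, Subgroup.map_sup,
    Subgroup.map_subgroupOf_eq_of_le hHM, Subgroup.map_subgroupOf_eq_of_le hCM]
end Cfsg.Agent.S3076
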