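import Cfsg.Statements.S3078
import Cfsg.Agent.Lib.Replacement.Glauberman

set_option autoImplicit false
open Cfsg

namespace Cfsg.Agent.S3078

/-- A replacement Theorem for abelian subgroups of p-groups, p odd. Let G be a finite p-group with p odd, A an abelian subgroup of G, and B a subgroup of nilpotency class at most 2 with [B, B] ≤ A, such that A normalizes B but B does not normalize A. Then there is an abelian subgroup A* of G of the same order as A with A ∩ B strictly contained in A* ∩ B, A* contained in N_G(A) and in the normal closure of A, the exponent of A* dividing the exponent of A, and with the subgroup generated by the elements of order dividing p in A of order at most that of the corresponding subgroup of A* (the rank of A is at most the rank of A*). -/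
theorem result {G : Type*} [Group G] [Finite G] {p : ℕ} [Fact p.Prime] (hp : p ≠ 2) (hG : IsPGroup p G) (A B : Subgroup G) (hA : IsMulCommutative A) (hB2 : ⁅⁅B, B⁆, B⁆ = ⊥) (hBA : ⁅B, B⁆ ≤ A) (hAB : A ≤ Subgroup.normalizer (B : Set G)) (hBnA : ¬ B ≤ Subgroup.normalizer (A : Set G)) : ∃ Astar : Subgroup G, IsMulCommutative Astar ∧ Nat.card Astar = Nat.card A ∧ A ⊓ B < Astar ⊓ B ∧ Astar ≤ Subgroup.normalizer (A : Set G) ∧ Astar ≤ Subgroup.normalClosure (A : Set G) ∧ Monoid.exponent Astar ∣ Monoid.exponent A ∧ Nat.card (Cfsg.omegaOne p A) ≤ Nat.card (Cfsg.omegaOne p Astar) := by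
  obtain ⟨x, h, hx⟩ := CfsgLib.Replacement.exists_glaubermanStep hp hG A B hA hB2 hBA hAB hBnA
  refine ⟨h.star, ⟨⟨fun y y' => Subtype.ext (h.star_comm y y.2 y' y'.2)⟩⟩, h.card_star,
    h.inf_lt_star_inf hx, h.star_le_normalizer, h.star_le_normalClosure, ?_,
    h.card_omegaOne_le ((Fact.out : p.Prime).odd_of_ne_two hp)⟩
  rw [Monoid.exponent_dvd_iff_forall_pow_eq_one]
  intro y
  refine Subtype.ext (h.pow_star_eq_one ?_ ?_ y.2)
  · have hdvd := Group.exponent_dvd_nat_card (G := A)
    obtain ⟨k, hk⟩ := (hG.to_subgroup A).exists_card_eq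
    rw [hk] at hdvd
    exact (((Fact.out : p.Prime).odd_of_ne_two hp).pow).of_dvd_nat hdvd
  · intro a ha
    exact congrArg Subtype.val (Monoid.pow_exponent_eq_one (⟨a, ha⟩ : A))

end Cfsg.Agent.S3078
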