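import Cfsg.Statements.S3086
import Cfsg.Agent.Lib.FFModules.PGVComponents

set_option autoImplicit false
open Cfsg

namespace Cfsg.Agent.S3086

/-- The P(G,V)-theorem. Let p be a prime, G a finite group acting faithfully and linearly on a finite vector space V over the field with p elements, and A a nontrivial elementary abelian p-subgroup of G such that |A|·|C_V(A)| ≥ |B|·|C_V(B)| for every subgroup B of A. Then A normalizes every component (subnormal quasisimple subgroup) of G. -/
theorem result {G V : Type*} [Group G] [Finite G] [AddCommGroup V] [Finite V] (p : ℕ) [Fact p.Prime] [Module (ZMod p) V]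
    (ρ : Representation (ZMod p) G V) (hρ : Function.Injective ρ)
    (A : Subgroup G) (hA : A ≠ ⊥) (hAel : Cfsg.IsElementaryAbelian p A)
    (hP : ∀ B : Subgroup G, B ≤ A →
      Nat.card ↥B * Nat.card {v : V // ∀ b ∈ B, ρ b v = v} ≤ Nat.card ↥A * Nat.card {v : V // ∀ a ∈ A, ρ a v = v}) :
    ∀ K : Subgroup G, Cfsg.IsComponent K → A ≤ Subgroup.normalizer (K : Set G) := by
  intro K hK
  exact CfsgLib.FFModules.PGV.normalizes_component ρ hρ A
    (fun a ha b hb => congrArg Subtype.val (hAel.1.is_comm.comm (⟨a, ha⟩ : A) ⟨b, hb⟩))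
    hAel.2 hP K hK

end Cfsg.Agent.S3086
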