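import Cfsg.Statements.S3087

set_option autoImplicit false
open Cfsg

namespace Cfsg.Agent.S3087

/-- For finite additive subgroups `S ≤ T`: `#S * #(T ⊓ W) ≤ #T * #(S ⊓ W)`. -/
theorem card_mul_le {V : Type*} [AddCommGroup V] [Finite V] (S T W : AddSubgroup V) (h : S ≤ T) :
    Nat.card S * Nat.card (T ⊓ W : AddSubgroup V) ≤ Nat.card T * Nat.card (S ⊓ W : AddSubgroup V) := by
  let f : S × (T ⊓ W : AddSubgroup V) →+ T :=
    { toFun := fun x => ⟨(x.1 : V) + x.2, add_mem (h x.1.2) (AddSubgroup.mem_inf.mp x.2.2).1⟩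
      map_zero' := by ext; simp
      map_add' := fun x y => by ext; simp; abel }
  have hk : Nat.card f.ker ≤ Nat.card (S ⊓ W : AddSubgroup V) := by
    refine Nat.card_le_card_of_injective (fun x => ⟨(x.1.1 : V), ?_⟩) ?_
    · have hx : (x.1.1 : V) + x.1.2 = 0 := congrArg Subtype.val x.2
      refine AddSubgroup.mem_inf.mpr ⟨x.1.1.2, ?_⟩
      rw [eq_neg_of_add_eq_zero_left hx]
      exact neg_mem (AddSubgroup.mem_inf.mp x.1.2.2).2
    · intro x y hxy
      have h1 : (x.1.1 : V) = y.1.1 := by simpa using hxy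
      have hx : (x.1.1 : V) + x.1.2 = 0 := congrArg Subtype.val x.2
      have hy : (y.1.1 : V) + y.1.2 = 0 := congrArg Subtype.val y.2
      apply Subtype.ext
      refine Prod.ext (Subtype.ext h1) (Subtype.ext ?_)
      rw [h1] at hx
      exact add_left_cancel (hx.trans hy.symm)
  have hr : Nat.card f.range ≤ Nat.card T :=
    Nat.card_le_card_of_injective _ Subtype.val_injective
  calc Nat.card S * Nat.card (T ⊓ W : AddSubgroup V)
      = Nat.card (S × (T ⊓ W : AddSubgroup V)) := (Nat.card_prod _ _).symm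
    _ = Nat.card ((S × (T ⊓ W : AddSubgroup V)) ⧸ f.ker) * Nat.card f.ker :=
        AddSubgroup.card_eq_card_quotient_mul_card_addSubgroup _
    _ = Nat.card f.range * Nat.card f.ker := by
        rw [Nat.card_congr (QuotientAddGroup.quotientKerEquivRange f).toEquiv]
    _ ≤ _ := Nat.mul_le_mul hr hk

/-- The fixed points of a subgroup, as an additive subgroup. -/
def fixedSub {G V : Type*} [Group G] [AddCommGroup V] {p : ℕ} [Module (ZMod p) V]
    (ρ : Representation (ZMod p) G V) (B : Subgroup G) : AddSubgroup V where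
  carrier := {v | ∀ b ∈ B, ρ b v = v}
  zero_mem' := fun _ _ => map_zero _
  add_mem' := fun hu hv b hb => by rw [map_add, hu b hb, hv b hb]
  neg_mem' := fun hu b hb => by rw [map_neg, hu b hb]

/-- Let p be a prime, G a finite group acting linearly on a finite vector space V over the field with p elements, W a G-invariant subspace, and A a subgroup of G with |A|·|C_V(A)| ≥ |B|·|C_V(B)| for every subgroup B of A. Then |A|·|C_W(A)| ≥ |B|·|C_W(B)| for every subgroup B of A that contains C_A(W); that is, the image of A in the group induced on W satisfies the same maximality condition. -/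
theorem result {G V : Type*} [Group G] [Finite G] [AddCommGroup V] [Finite V] (p : ℕ) [Fact p.Prime] [Module (ZMod p) V]
    (ρ : Representation (ZMod p) G V) (W : Submodule (ZMod p) V) (hW : ∀ g : G, ∀ w ∈ W, ρ g w ∈ W)
    (A : Subgroup G)
    (hP : ∀ B : Subgroup G, B ≤ A →
      Nat.card ↥B * Nat.card {v : V // ∀ b ∈ B, ρ b v = v} ≤ Nat.card ↥A * Nat.card {v : V // ∀ a ∈ A, ρ a v = v})
    (B : Subgroup G) (hBA : B ≤ A) (hCB : ∀ a ∈ A, (∀ w ∈ W, ρ a w = w) → a ∈ B) :
    Nat.card ↥B * Nat.card {w : W // ∀ b ∈ B, ρ b w = w} ≤ Nat.card ↥A * Nat.card {w : W // ∀ a ∈ A, ρ a w = w} := by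
  have key := card_mul_le (fixedSub ρ A) (fixedSub ρ B) W.toAddSubgroup
    (fun v hv b hb => hv b (hBA hb))
  have e : ∀ C : Subgroup G, Nat.card {w : W // ∀ b ∈ C, ρ b w = w} =
      Nat.card (fixedSub ρ C ⊓ W.toAddSubgroup : AddSubgroup V) := fun C =>
    Nat.card_congr
      { toFun := fun w => ⟨w.1.1, AddSubgroup.mem_inf.mpr ⟨w.2, w.1.2⟩⟩
        invFun := fun v => ⟨⟨v.1, (AddSubgroup.mem_inf.mp v.2).2⟩, (AddSubgroup.mem_inf.mp v.2).1⟩
        left_inv := fun _ => rfl
        right_inv := fun _ => rfl }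
  rw [e A, e B]
  have h := hP B hBA
  have hpos : 0 < Nat.card (fixedSub ρ A) := Nat.card_pos
  change Nat.card B * Nat.card (fixedSub ρ B) ≤ Nat.card A * Nat.card (fixedSub ρ A) at h
  refine Nat.le_of_mul_le_mul_left ?_ hpos
  calc Nat.card (fixedSub ρ A) * (Nat.card B * Nat.card (fixedSub ρ B ⊓ W.toAddSubgroup : AddSubgroup V))
      = Nat.card B * (Nat.card (fixedSub ρ A) * Nat.card (fixedSub ρ B ⊓ W.toAddSubgroup : AddSubgroup V)) := by ring
    _ ≤ Nat.card B * (Nat.card (fixedSub ρ B) * Nat.card (fixedSub ρ A ⊓ W.toAddSubgroup : AddSubgroup V)) :=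
        Nat.mul_le_mul_left _ key
    _ = (Nat.card B * Nat.card (fixedSub ρ B)) * Nat.card (fixedSub ρ A ⊓ W.toAddSubgroup : AddSubgroup V) := by ring
    _ ≤ (Nat.card A * Nat.card (fixedSub ρ A)) * Nat.card (fixedSub ρ A ⊓ W.toAddSubgroup : AddSubgroup V) :=
        Nat.mul_le_mul_right _ h
    _ = _ := by ring

end Cfsg.Agent.S3087
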