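import Cfsg.Statements.S3104
import Cfsg.Agent.S3103
import Cfsg.Agent.S2553
import Cfsg.Agent.Lib.InvChar.SymSixSection
import Cfsg.Agent.Lib.InvChar.GLFourTwo
import Cfsg.Agent.Lib.Generators.SmallPermGroups
import Cfsg.Agent.Lib.Cores.PCore
import Cfsg.Agent.Lib.Hall.Existence
import Cfsg.Agent.Lib.CoprimeAction.Basic
import Cfsg.Agent.Lib.PGroups.Frattini

set_option autoImplicit false
open Cfsg

namespace Cfsg.Agent.S3104

open CfsgLib.Generators.SmallPermGroups
open scoped commutatorElement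

theorem sectional_quotient {p k : ℕ} {X : Type*} [Group X] (h : Cfsg.SectionalPRankLE p k X)
    (M : Subgroup X) [M.Normal] : Cfsg.SectionalPRankLE p k (X ⧸ M) := by
  intro H N _ B hBc hBp
  let π := QuotientGroup.mk' M
  let f : ↥(H.comap π) →* ↥H ⧸ N := (QuotientGroup.mk' N).comp (π.subgroupComap H)
  have hf : Function.Surjective f := by
    intro q
    obtain ⟨⟨y, hy⟩, rfl⟩ := QuotientGroup.mk'_surjective N q
    obtain ⟨x, rfl⟩ := QuotientGroup.mk'_surjective M y
    exact ⟨⟨x, hy⟩, rfl⟩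
  let e := QuotientGroup.quotientKerEquivOfSurjective f hf
  have hcomm : IsMulCommutative ↥(B.map e.symm.toMonoidHom) := by
    haveI := hBc
    refine ⟨⟨?_⟩⟩
    rintro ⟨_, a, ha, rfl⟩ ⟨_, b, hb, rfl⟩
    refine Subtype.ext ?_
    show e.symm a * e.symm b = e.symm b * e.symm a
    rw [← map_mul, ← map_mul, show a * b = b * a from congrArg Subtype.val (mul_comm' (⟨a, ha⟩ : B) ⟨b, hb⟩)]
  have h2 := h (H.comap π) f.ker (B.map e.symm.toMonoidHom) hcomm (by
    rintro _ ⟨a, ha, rfl⟩
    show e.symm a ^ p = 1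
    rw [← map_pow, hBp a ha, map_one])
  rwa [Subgroup.card_map_of_injective e.symm.injective] at h2

theorem nonsolvable_primes {G : Type*} [Group G] [Finite G] (hd : Nat.card G ∣ 20160)
    (hns : ¬ Group.IsSolvable G) : 5 ∣ Nat.card G ∨ 7 ∣ Nat.card G := by
  by_contra hc
  push Not at hc
  have c7 : (Nat.card G).Coprime 7 := ((by norm_num : Nat.Prime 7).coprime_iff_not_dvd.mpr hc.2).symm
  have c5 : (Nat.card G).Coprime 5 := ((by norm_num : Nat.Prime 5).coprime_iff_not_dvd.mpr hc.1).symm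
  exact hns (isSolvable_of_two_primes 2 3 6 2 Nat.prime_two Nat.prime_three rfl
    (c5.dvd_of_dvd_mul_right (c7.dvd_of_dvd_mul_right (by norm_num at hd ⊢; exact hd))))

theorem card_dvd_alt8 {G : Type*} [Group G] (f : G →* ↥(alternatingGroup (Fin 8))) (hf : Function.Injective f) :
    Nat.card G ∣ 20160 := by
  have h := Subgroup.card_dvd_of_injective f hf
  have h3 := card_alt (n := 8) (by norm_num)
  simp only [Nat.factorial] at h3
  rwa [show Nat.card (alternatingGroup (Fin 8)) = 20160 by omega] at h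

theorem odd_no_solv_bot (N : Subgroup (Equiv.Perm (Fin 8))) (hA : N ≤ alternatingGroup (Fin 8))
    (hodd : ¬ 2 ∣ Nat.card N) (h : NoSolvNormal N) : N = ⊥ := by
  classical
  by_contra hne
  haveI : Nontrivial N := (Subgroup.nontrivial_iff_ne_bot N).mpr hne
  haveI : Fact (Nat.Prime 7) := ⟨by norm_num⟩
  have hd : Nat.card N ∣ 20160 := card_dvd_alt8 (Subgroup.inclusion hA) (Subgroup.inclusion_injective hA)
  have c2 : (Nat.card N).Coprime 2 := (Nat.prime_two.coprime_iff_not_dvd.2 hodd).symm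
  have hd' : Nat.card N ∣ 315 := by
    refine (c2.pow_right 6).dvd_of_dvd_mul_right ?_
    norm_num at hd ⊢
    exact hd
  have h7 : 7 ∣ Nat.card N := by
    by_contra h7
    have c7 : (Nat.card N).Coprime 7 := ((by norm_num : Nat.Prime 7).coprime_iff_not_dvd.mpr h7).symm
    exact h.not_solvable (isSolvable_of_two_primes 3 5 2 1 Nat.prime_three (by norm_num) rfl
      (c7.dvd_of_dvd_mul_right (by norm_num at hd' ⊢; exact hd')))
  obtain ⟨g, hg⟩ := exists_prime_orderOf_dvd_card' (G := N) 7 h7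
  have hg' : orderOf (g : Equiv.Perm (Fin 8)) = 7 := by rw [Subgroup.orderOf_coe, hg]
  have hs := (card_centralizer_seven (α := Fin 8) (by simp) hg').1
  obtain ⟨a, ha⟩ : ∃ a, (g : Equiv.Perm (Fin 8)).supportᶜ = {a} := by
    rw [← Finset.card_eq_one, Finset.card_compl, hs, Fintype.card_fin]
  have hfix : ∀ k ∈ N, k a = a := by
    intro k hk
    by_contra hka
    have hks : k a ∈ (g : Equiv.Perm (Fin 8)).support := by
      by_contra hns
      have : k a ∈ (g : Equiv.Perm (Fin 8)).supportᶜ := Finset.mem_compl.2 hns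
      rw [ha, Finset.mem_singleton] at this
      exact hka this
    have hcyc : (g : Equiv.Perm (Fin 8)).IsCycle :=
      Equiv.Perm.isCycle_of_prime_order' (hg' ▸ (by norm_num : Nat.Prime 7)) (by rw [hg']; simp)
    have horb : MulAction.orbit N a = Set.univ := by
      refine Set.eq_univ_of_forall fun z => ?_
      by_cases hz : z ∈ (g : Equiv.Perm (Fin 8)).support
      · obtain ⟨i, hi⟩ := hcyc.exists_zpow_eq (Equiv.Perm.mem_support.1 hks) (Equiv.Perm.mem_support.1 hz)
        refine ⟨⟨_, mul_mem (zpow_mem g.2 i) hk⟩, ?_⟩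
        exact hi
      · have : z ∈ (g : Equiv.Perm (Fin 8)).supportᶜ := Finset.mem_compl.2 hz
        rw [ha, Finset.mem_singleton] at this
        rw [this]
        exact MulAction.mem_orbit_self a
    have h1 := MulAction.card_orbit_mul_card_stabilizer_eq_card_group N a
    simp only [Fintype.card_eq_nat_card] at h1
    rw [horb, Nat.card_congr (Equiv.Set.univ _), Nat.card_fin] at h1
    exact hodd (dvd_trans (by norm_num) (Dvd.intro _ h1))
  obtain ⟨f, hf⟩ := exists_hom_alternating_of_fixed (n := 7) (by simp) a N hA hfix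
  let f' : N →* Equiv.Perm (Fin 7) := (alternatingGroup (Fin 7)).subtype.comp f
  have hf' : Function.Injective f' := (alternatingGroup (Fin 7)).subtype_injective.comp hf
  let eN : N ≃* f'.range := MonoidHom.ofInjective hf'
  have hle : f'.range ≤ alternatingGroup (Fin 7) := by
    rintro y ⟨k, rfl⟩
    exact (f k).2
  rcases degree_seven f'.range hle (h.of_equiv eN) (Nat.card_congr eN.toEquiv ▸ h7) with ⟨⟨e⟩⟩ | ⟨⟨e⟩⟩
  · refine hodd ?_
    rw [Nat.card_congr (eN.trans e).toEquiv]
    have h3 := card_alt (n := 7) (by norm_num)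
    simp only [Nat.factorial] at h3
    omega
  · refine hodd ?_
    rw [Nat.card_congr (eN.trans e).toEquiv, card_GL3]
    norm_num

theorem exists_odd_pCore {G : Type*} [Group G] [Finite G] (f : G →* ↥(alternatingGroup (Fin 8)))
    (hf : Function.Injective f) (hO : Cfsg.pPrimeCore 2 G ≠ ⊥) : ∃ p : ℕ, p.Prime ∧ Cfsg.pCore p G ≠ ⊥ := by
  by_contra hc
  push Not at hc
  let N := Cfsg.pPrimeCore 2 G
  have hNS : NoSolvNormal N := by
    intro S hS hs
    haveI := hS
    haveI := hs
    by_contra hne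
    haveI : Nontrivial S := (Subgroup.nontrivial_iff_ne_bot S).mpr hne
    obtain ⟨p, hp, hcore⟩ := CfsgLib.Hall.exists_pCore_ne_bot (G := S)
    haveI := Fact.mk hp
    apply hcore
    have h1 : (Cfsg.pCore p S).map S.subtype ≤ Cfsg.pCore p N := by
      haveI : ((Cfsg.pCore p S).map S.subtype).Normal := inferInstance
      exact CfsgLib.Cores.le_pCore ((CfsgLib.Cores.isPGroup_pCore p S).map _)
    haveI : N.Normal := inferInstance
    have h2 : (Cfsg.pCore p N).map N.subtype ≤ Cfsg.pCore p G := by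
      haveI : ((Cfsg.pCore p N).map N.subtype).Normal := inferInstance
      exact CfsgLib.Cores.le_pCore ((CfsgLib.Cores.isPGroup_pCore p N).map _)
    rw [hc p hp] at h2
    have h3 : Cfsg.pCore p N = ⊥ :=
      (Subgroup.map_eq_bot_iff_of_injective _ N.subtype_injective).mp (le_bot_iff.1 h2)
    rw [h3] at h1
    exact (Subgroup.map_eq_bot_iff_of_injective _ S.subtype_injective).mp (le_bot_iff.1 h1)
  let j : G →* Equiv.Perm (Fin 8) := (alternatingGroup (Fin 8)).subtype.comp f
  have hj : Function.Injective j := (alternatingGroup (Fin 8)).subtype_injective.comp hf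
  apply hO
  refine (Subgroup.map_eq_bot_iff_of_injective _ hj).mp ?_
  refine odd_no_solv_bot _ (by rintro _ ⟨x, -, rfl⟩; exact (f x).2) ?_ (hNS.of_equiv (N.equivMapOfInjective j hj))
  rw [Subgroup.card_map_of_injective hj]
  intro h2
  have := Nat.eq_one_of_dvd_coprimes (CfsgLib.Cores.card_pPrimeCore_coprime (G := G) 2) h2 dvd_rfl
  norm_num at this

theorem solvable_of_centralized {G : Type*} [Group G] [Finite G] (j : G →* Equiv.Perm (Fin 8))
    (hj : Function.Injective j) (R : Subgroup G) [R.Normal] {p : ℕ} [hp : Fact p.Prime] (hR : Nat.card R = p)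
    (hp57 : p = 5 ∨ p = 7) : Group.IsSolvable G := by
  classical
  obtain ⟨g, hg⟩ := exists_prime_orderOf_dvd_card' (G := R) p (by rw [hR])
  have hgp : orderOf (j (g : G)) = p := by rw [orderOf_injective j hj, Subgroup.orderOf_coe, hg]
  let C := Subgroup.centralizer (R : Set G)
  haveI : C.Normal := inferInstance
  have hd := CfsgLib.SmallGroups.relIndex_centralizer_dvd_pred R hR
  rw [Subgroup.normalizer_eq_top, Subgroup.relIndex_top_right] at hd
  have hC : Group.IsSolvable C := by
    have hle : C.map j ≤ Subgroup.centralizer ({j (g : G)} : Set (Equiv.Perm (Fin 8))) := by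
      rintro _ ⟨c, hc, rfl⟩
      rw [Subgroup.mem_centralizer_singleton_iff, ← map_mul, ← map_mul, Subgroup.mem_centralizer_iff.1 hc g g.2]
    have hdc := Subgroup.card_dvd_of_le hle
    rw [Subgroup.card_map_of_injective hj] at hdc
    rcases hp57 with rfl | rfl
    · obtain ⟨k, hk⟩ := Equiv.Perm.cycleType_prime_order (σ := j (g : G)) (hgp ▸ hp.out)
      have hsum := Equiv.Perm.sum_cycleType (j (g : G))
      have hle8 : (j (g : G)).support.card ≤ 8 := (Finset.card_le_univ _).trans (by simp)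
      rw [hk, hgp, Multiset.sum_replicate, smul_eq_mul] at hsum
      obtain rfl : k = 0 := by omega
      rw [Equiv.Perm.nat_card_centralizer, hk, hgp, Multiset.sum_replicate] at hdc
      have h30 : Nat.card C ∣ 30 := by simpa [Nat.factorial] using hdc
      have key : ∀ d ∈ Nat.divisors 30, d = 30 ∨ d ∣ 2 ^ 1 * 3 ^ 1 ∨ d ∣ 2 ^ 1 * 5 ^ 1 ∨ d ∣ 3 ^ 1 * 5 ^ 1 := by decide
      rcases key _ (Nat.mem_divisors.mpr ⟨h30, by norm_num⟩) with hd | hd | hd | hd
      · exact isSolvable_thirty hd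
      · exact isSolvable_of_two_primes 2 3 1 1 Nat.prime_two Nat.prime_three rfl hd
      · exact isSolvable_of_two_primes 2 5 1 1 Nat.prime_two (by norm_num) rfl hd
      · exact isSolvable_of_two_primes 3 5 1 1 Nat.prime_three (by norm_num) rfl hd
    · rw [(card_centralizer_seven (α := Fin 8) (by simp) hgp).2] at hdc
      exact isSolvable_of_two_primes 7 2 1 0 (by norm_num) Nat.prime_two rfl (by simpa using hdc)
  refine isSolvable_of_extension C hC ?_
  refine isSolvable_of_two_primes 2 3 2 1 Nat.prime_two Nat.prime_three rfl ?_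
  refine hd.trans ?_
  rcases hp57 with rfl | rfl <;> norm_num

theorem three_core_case {G : Type*} [Group G] [Finite G] (f : G →* ↥(alternatingGroup (Fin 8)))
    (hf : Function.Injective f) (hns : ¬ Group.IsSolvable G) (hO2 : Cfsg.pCore 2 G = ⊥)
    (hO : Cfsg.pPrimeCore 2 G ≠ ⊥) :
    Nat.card ↥(Cfsg.pCore 3 G) = 3 ∧
      (Nonempty (G ⧸ Cfsg.pCore 3 G ≃* ↥(alternatingGroup (Fin 5))) ∨
        Nonempty (G ⧸ Cfsg.pCore 3 G ≃* Equiv.Perm (Fin 5))) := by
  classical
  obtain ⟨p, hp, hpc⟩ := exists_odd_pCore f hf hO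
  haveI := Fact.mk hp
  let j : G →* Equiv.Perm (Fin 8) := (alternatingGroup (Fin 8)).subtype.comp f
  have hj : Function.Injective j := (alternatingGroup (Fin 8)).subtype_injective.comp hf
  have hd := card_dvd_alt8 f hf
  have hRd : Nat.card (Cfsg.pCore p G) ∣ 20160 := (Subgroup.card_subgroup_dvd_card _).trans hd
  obtain ⟨e, he⟩ := IsPGroup.iff_card.1 (CfsgLib.Cores.isPGroup_pCore p G)
  have he0 : e ≠ 0 := fun h => hpc (by rw [← Subgroup.card_eq_one, he, h, pow_zero])
  have hpd : p ∣ 20160 := (dvd_pow_self p he0).trans (he ▸ hRd)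
  have hp' : p = 2 ∨ p = 3 ∨ p = 5 ∨ p = 7 := by
    have h' : p ∣ 2 ^ 6 * 3 ^ 2 * 5 * 7 := by norm_num; exact hpd
    rcases (Nat.Prime.dvd_mul hp).1 h' with h | h
    rcases (Nat.Prime.dvd_mul hp).1 h with h | h
    rcases (Nat.Prime.dvd_mul hp).1 h with h | h
    · exact Or.inl ((Nat.prime_dvd_prime_iff_eq hp Nat.prime_two).1 (hp.dvd_of_dvd_pow h))
    · exact Or.inr (Or.inl ((Nat.prime_dvd_prime_iff_eq hp Nat.prime_three).1 (hp.dvd_of_dvd_pow h)))
    · exact Or.inr (Or.inr (Or.inl ((Nat.prime_dvd_prime_iff_eq hp (by norm_num)).1 h)))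
    · exact Or.inr (Or.inr (Or.inr ((Nat.prime_dvd_prime_iff_eq hp (by norm_num)).1 h)))
  have hprime57 : ∀ q, q = 5 ∨ q = 7 → p = q → False := by
    intro q hq hpq
    subst hpq
    have he1 : e = 1 := by
      by_contra h1
      have : p ^ 2 ∣ 20160 := (pow_dvd_pow p (by omega)).trans (he ▸ hRd)
      rcases hq with rfl | rfl <;> norm_num at this
    exact hns (solvable_of_centralized j hj (Cfsg.pCore p G) (by rw [he, he1, pow_one]) hq)
  obtain rfl : p = 3 := by
    rcases hp' with rfl | h | h | h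
    · exact absurd hO2 hpc
    · exact h
    · exact (hprime57 5 (Or.inl rfl) h).elim
    · exact (hprime57 7 (Or.inr rfl) h).elim
  set R := Cfsg.pCore 3 G with hRdef
  have he2 : e ≤ 2 := by
    by_contra h
    have : 3 ^ 3 ∣ 20160 := (pow_dvd_pow 3 (by omega : 3 ≤ e)).trans (he ▸ hRd)
    norm_num at this
  -- an element of order five or seven centralizes R
  have hcent : ∀ q : ℕ, q = 5 ∨ q = 7 → q ∣ Nat.card G → ∃ x : G, orderOf x = q ∧ ∀ r ∈ R, r * x = x * r := by
    intro q hq hqd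
    haveI : Fact q.Prime := ⟨by rcases hq with rfl | rfl <;> norm_num⟩
    obtain ⟨x, hx⟩ := exists_prime_orderOf_dvd_card' (G := G) q hqd
    refine ⟨x, hx, fun r hr => ?_⟩
    haveI := Fintype.ofFinite R
    let c : G →* MulAut R := MulAut.conjNormal
    let σ : Equiv.Perm R := (c x).toEquiv
    have hσ : σ ^ (q ^ 1) = 1 := by
      refine Equiv.ext fun y => ?_
      have key : ∀ n : ℕ, (σ ^ n) y = c (x ^ n) y := by
        intro n
        induction n with
        | zero => simp
        | succ n ih => rw [pow_succ', Equiv.Perm.mul_apply, ih, pow_succ', map_mul]; rfl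
      rw [key, pow_one, ← hx, pow_orderOf_eq_one, map_one]
      rfl
    let F : Subgroup R := (c x).toMonoidHom.eqLocus (MonoidHom.id R)
    have hFc : σ.supportᶜ.card = Nat.card F := by
      rw [Nat.card_eq_fintype_card]
      refine (Fintype.card_of_subtype _ fun y => ?_).symm
      rw [Finset.mem_compl, Equiv.Perm.mem_support, not_not]
      rfl
    have hmod : Nat.card F ≡ Nat.card R [MOD q] := by
      rw [← hFc, Nat.card_eq_fintype_card]
      exact Equiv.Perm.card_compl_support_modEq hσ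
    obtain ⟨i, hi, hFi⟩ := (Nat.dvd_prime_pow Nat.prime_three).1 (he ▸ Subgroup.card_subgroup_dvd_card F)
    have hie : i = e := by
      rw [hFi, he] at hmod
      unfold Nat.ModEq at hmod
      interval_cases e <;> interval_cases i <;> rcases hq with rfl | rfl <;> simp at hmod <;> omega
    have hF : F = ⊤ := Subgroup.eq_top_of_card_eq F (by rw [hFi, he, hie])
    have hrF : (⟨r, hr⟩ : R) ∈ F := hF ▸ Subgroup.mem_top _
    have h1 : ((c x ⟨r, hr⟩ : R) : G) = r := congrArg Subtype.val hrF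
    rw [MulAut.conjNormal_apply] at h1
    exact (mul_inv_eq_iff_eq_mul.1 h1).symm
  have h3R : 3 ∣ Nat.card R := he ▸ dvd_pow_self 3 he0
  have hcentcard : ∀ q : ℕ, ∀ x : G, orderOf x = q → (∀ r ∈ R, r * x = x * r) →
      Nat.card R ∣ Nat.card (Subgroup.centralizer ({j x} : Set (Equiv.Perm (Fin 8)))) := by
    intro q x _ hx
    rw [← Subgroup.card_map_of_injective (K := R) hj]
    refine Subgroup.card_dvd_of_le ?_
    rintro _ ⟨r, hr, rfl⟩
    rw [Subgroup.mem_centralizer_singleton_iff, ← map_mul, ← map_mul, hx r hr]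
  have h5 : 5 ∣ Nat.card G := by
    rcases nonsolvable_primes hd hns with h | h
    · exact h
    · exfalso
      obtain ⟨x, hx, hxR⟩ := hcent 7 (Or.inr rfl) h
      have h1 := hcentcard 7 x hx hxR
      rw [(card_centralizer_seven (α := Fin 8) (by simp) (by rw [orderOf_injective j hj, hx])).2] at h1
      have := h3R.trans h1
      norm_num at this
  obtain ⟨x, hx, hxR⟩ := hcent 5 (Or.inl rfl) h5
  have hjx : orderOf (j x) = 5 := by rw [orderOf_injective j hj, hx]
  obtain ⟨k, hk⟩ := Equiv.Perm.cycleType_prime_order (σ := j x) (hjx ▸ (by norm_num : Nat.Prime 5))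
  have hsum := Equiv.Perm.sum_cycleType (j x)
  have hle8 : (j x).support.card ≤ 8 := (Finset.card_le_univ _).trans (by simp)
  rw [hk, hjx, Multiset.sum_replicate, smul_eq_mul] at hsum
  obtain rfl : k = 0 := by omega
  have hsx : (j x).support.card = 5 := by omega
  have hR3 : Nat.card R = 3 := by
    have h1 := hcentcard 5 x hx hxR
    rw [Equiv.Perm.nat_card_centralizer, hk, hjx, Multiset.sum_replicate] at h1
    have h30 : Nat.card R ∣ 30 := by simpa [Nat.factorial] using h1
    rw [he] at h30 ⊢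
    obtain rfl | rfl : e = 1 ∨ e = 2 := by omega
    · norm_num
    · norm_num at h30
  obtain ⟨r, hr, hr1⟩ : ∃ r ∈ R, r ≠ 1 := by
    by_contra hc
    push Not at hc
    exact hpc (by rw [eq_bot_iff]; exact fun z hz => (Subgroup.mem_bot).2 (hc z hz))
  have hr3 : r ^ 3 = 1 := by
    have := congrArg Subtype.val (pow_card_eq_one' (x := (⟨r, hr⟩ : R)))
    rwa [hR3] at this
  have hcyc : (j x).IsCycle := Equiv.Perm.isCycle_of_prime_order' (hjx ▸ (by norm_num : Nat.Prime 5)) (by rw [hjx]; simp)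
  have hfix : ∀ y ∈ (j x).support, j r y = y := by
    intro y hy
    have hcm : j r * j x = j x * j r := by rw [← map_mul, ← map_mul, hxR r hr]
    have hry : j r y ∈ (j x).support := by
      rw [Equiv.Perm.mem_support] at hy ⊢
      intro h
      rw [← Equiv.Perm.mul_apply, ← hcm, Equiv.Perm.mul_apply] at h
      exact hy ((j r).injective h)
    obtain ⟨i, hi⟩ := hcyc.exists_pow_eq (Equiv.Perm.mem_support.1 hy) (Equiv.Perm.mem_support.1 hry)
    have hcomm : Commute (j r) ((j x) ^ i) := Commute.pow_right hcm i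
    have e2 : ((j r) ^ 3) y = ((j x) ^ (3 * i)) y := by
      have step : j r (((j x) ^ i) y) = ((j x) ^ i) (((j x) ^ i) y) := by
        rw [← Equiv.Perm.mul_apply, hcomm.eq, Equiv.Perm.mul_apply, ← hi]
      rw [show (j r) ^ 3 = j r * (j r * j r) by rw [pow_succ', pow_two], Equiv.Perm.mul_apply, Equiv.Perm.mul_apply,
        ← hi, step, ← Equiv.Perm.mul_apply ((j x) ^ i), ← pow_add, ← Equiv.Perm.mul_apply (j r),
        (Commute.pow_right hcm (i + i)).eq, Equiv.Perm.mul_apply, ← hi, ← Equiv.Perm.mul_apply, ← pow_add]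
      congr 2
      omega
    rw [← map_pow, hr3, map_one, Equiv.Perm.one_apply] at e2
    have h15 : (j x) ^ (3 * i) = 1 := hcyc.pow_eq_one_iff.2 ⟨y, Equiv.Perm.mem_support.1 hy, e2.symm⟩
    have h5i : 5 ∣ i := by
      have := orderOf_dvd_of_pow_eq_one h15
      rw [hjx] at this
      omega
    obtain ⟨m, rfl⟩ := h5i
    rw [← hi, pow_mul, show (j x) ^ 5 = 1 from hjx ▸ pow_orderOf_eq_one _, one_pow, Equiv.Perm.one_apply]
  have hT : (j r).support = (j x).supportᶜ := by
    refine Finset.eq_of_subset_of_card_le (fun y hy => ?_) ?_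
    · rw [Finset.mem_compl]
      exact fun h => Equiv.Perm.mem_support.1 hy (hfix y h)
    · rw [Finset.card_compl, hsx, Fintype.card_fin]
      have h1 : j r ≠ 1 := fun h => hr1 (hj (h.trans (map_one j).symm))
      have ho : orderOf (j r) = 3 := by
        haveI : Fact (Nat.Prime 3) := ⟨by norm_num⟩
        exact orderOf_eq_prime (by rw [← map_pow, hr3, map_one]) h1
      obtain ⟨l, hl⟩ := Equiv.Perm.cycleType_prime_order (σ := j r) (ho ▸ Nat.prime_three)
      have := Equiv.Perm.sum_cycleType (j r)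
      rw [hl, ho, Multiset.sum_replicate, smul_eq_mul] at this
      omega
  have hRmem : ∀ z ∈ R, z = 1 ∨ z = r ∨ z = r * r := by
    intro z hz
    have ho : orderOf (⟨r, hr⟩ : R) = 3 := by
      haveI : Fact (Nat.Prime 3) := ⟨by norm_num⟩
      exact orderOf_eq_prime (Subtype.ext hr3) (fun h => hr1 (congrArg Subtype.val h))
    have hmem : (⟨z, hz⟩ : R) ∈ Subgroup.zpowers (⟨r, hr⟩ : R) := by
      rw [Subgroup.eq_top_of_card_eq (Subgroup.zpowers (⟨r, hr⟩ : R)) (by rw [Nat.card_zpowers, ho, hR3])]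
      exact Subgroup.mem_top _
    obtain ⟨n, hn, hn'⟩ := (mem_zpowers_iff_mem_range_orderOf.1 hmem) |> Finset.mem_image.1
    rw [Finset.mem_range, ho] at hn
    have hn'' : r ^ n = z := congrArg Subtype.val hn'
    interval_cases n
    · exact Or.inl (by rw [← hn'', pow_zero])
    · exact Or.inr (Or.inl (by rw [← hn'', pow_one]))
    · exact Or.inr (Or.inr (by rw [← hn'', pow_two]))
  have hfixT : ∀ z ∈ R, ∀ y, y ∉ (j r).support → j z y = y := by
    intro z hz y hy
    rw [Equiv.Perm.mem_support, not_not] at hy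
    rcases hRmem z hz with rfl | rfl | rfl
    · rw [map_one]; rfl
    · exact hy
    · rw [map_mul, Equiv.Perm.mul_apply, hy, hy]
  have hinv : ∀ g : G, ∀ y, j g y ∉ (j r).support ↔ y ∉ (j r).support := by
    have hone : ∀ g : G, ∀ y, y ∉ (j r).support → j g y ∉ (j r).support := by
      intro g y hy
      have hz : g⁻¹ * r * g ∈ R := by
        have := Subgroup.Normal.conj_mem (inferInstance : R.Normal) r hr g⁻¹
        rwa [inv_inv] at this
      have h1 := hfixT _ hz y hy
      rw [Equiv.Perm.mem_support, not_not]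
      rw [map_mul, map_mul, map_inv, Equiv.Perm.mul_apply, Equiv.Perm.mul_apply, Equiv.Perm.inv_eq_iff_eq] at h1
      exact h1
    intro g y
    refine ⟨fun h => ?_, hone g y⟩
    have := hone g⁻¹ _ h
    rwa [map_inv, ← Equiv.Perm.mul_apply, inv_mul_cancel] at this
  let π : G →* Equiv.Perm {y : Fin 8 // y ∉ (j r).support} :=
    { toFun := fun g => (j g).subtypePerm (hinv g)
      map_one' := Equiv.ext fun y => Subtype.ext (by simp)
      map_mul' := fun g h => Equiv.ext fun y => Subtype.ext (by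
        show j (g * h) y.1 = j g (j h y.1)
        rw [map_mul]; rfl) }
  have hRle : R ≤ π.ker := by
    intro z hz
    exact MonoidHom.mem_ker.2 (Equiv.ext fun y => Subtype.ext (hfixT z hz y.1 y.2))
  have hT3 : (j r).support.card = 3 := by rw [hT, Finset.card_compl, hsx, Fintype.card_fin]
  have hinv' : ∀ g : G, ∀ y, j g y ∈ (j r).support ↔ y ∈ (j r).support := fun g y => not_iff_not.1 (hinv g y)
  let σ : ↥π.ker →* ↥(alternatingGroup {y : Fin 8 // y ∈ (j r).support}) :=
    { toFun := fun g => ⟨(j (g : G)).subtypePerm (hinv' g), by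
        rw [Equiv.Perm.mem_alternatingGroup]
        have key := (Equiv.Perm.sign_subtypePerm (j (g : G)) (hinv' g) fun y hy => ?_).trans (f (g : G)).2
        · convert key
        by_contra hyT
        exact hy (congrArg Subtype.val (Equiv.congr_fun (MonoidHom.mem_ker.1 g.2) ⟨y, hyT⟩))⟩
      map_one' := Subtype.ext (Equiv.ext fun y => Subtype.ext (by simp))
      map_mul' := fun g h => Subtype.ext (Equiv.ext fun y => Subtype.ext (by
        show j ((g : G) * h) y.1 = j g (j h y.1)
        rw [map_mul]; rfl)) }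
  have hσ : Function.Injective σ := by
    intro g h hgh
    refine Subtype.ext (hj (Equiv.ext fun y => ?_))
    by_cases hy : y ∈ (j r).support
    · exact congrArg Subtype.val (Equiv.congr_fun (congrArg Subtype.val hgh) ⟨y, hy⟩)
    · exact congrArg Subtype.val (Equiv.congr_fun ((MonoidHom.mem_ker.1 g.2).trans (MonoidHom.mem_ker.1 h.2).symm) ⟨y, hy⟩)
  have hker : π.ker = R := by
    refine (Subgroup.eq_of_le_of_card_ge hRle ?_).symm
    rw [hR3]
    refine (Nat.card_le_card_of_injective σ hσ).trans ?_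
    haveI : Nontrivial {y : Fin 8 // y ∈ (j r).support} :=
      Fintype.one_lt_card_iff_nontrivial.1 (by rw [Fintype.card_coe, hT3]; norm_num)
    have h2 := two_mul_nat_card_alternatingGroup (α := {y : Fin 8 // y ∈ (j r).support})
    have hc3 : Nat.card {y : Fin 8 // y ∈ (j r).support} = 3 := by
      rw [Nat.card_eq_fintype_card, Fintype.card_coe, hT3]
    rw [Nat.card_perm, hc3] at h2
    rw [show Nat.factorial 3 = 6 from rfl] at h2
    omega
  have hc5 : Fintype.card {y : Fin 8 // y ∉ (j r).support} = 5 := by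
    rw [Fintype.card_subtype_compl, Fintype.card_coe, hT3, Fintype.card_fin]
  let π5 : G →* Equiv.Perm (Fin 5) := (Fintype.equivFinOfCardEq hc5).permCongrHom.toMonoidHom.comp π
  have hker5 : π5.ker = R := by
    rw [← hker]
    refine Subgroup.ext fun g => ?_
    rw [MonoidHom.mem_ker, MonoidHom.mem_ker]
    exact map_eq_one_iff _ (Fintype.equivFinOfCardEq hc5).permCongrHom.injective
  let eq : G ⧸ R ≃* π5.range :=
    (QuotientGroup.quotientMulEquivOfEq hker5.symm).trans (QuotientGroup.quotientKerEquivRange π5)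
  refine ⟨hR3, ?_⟩
  set L := π5.range with hL
  by_cases htop : L = ⊤
  · exact Or.inr ⟨(eq.trans (MulEquiv.subgroupCongr htop)).trans Subgroup.topEquiv⟩
  by_cases halt : L = alternatingGroup (Fin 5)
  · exact Or.inl ⟨eq.trans (MulEquiv.subgroupCongr halt)⟩
  exfalso
  apply hns
  haveI : Group.IsNilpotent R := (CfsgLib.Cores.isPGroup_pCore 3 G).isNilpotent
  refine isSolvable_of_extension R inferInstance ?_
  have hidx := CfsgLib.Derangements.card_le_index (by simp) L htop halt
  have hmul := L.card_mul_index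
  rw [Nat.card_perm, Nat.card_fin] at hmul
  rw [Fintype.card_fin] at hidx
  have hle : Nat.card L ≤ 24 := by
    simp only [Nat.factorial] at hmul
    nlinarith
  have key : ∀ d ∈ Nat.divisors 120, d ≤ 24 → d ∣ 2 ^ 3 * 3 ^ 1 ∨ d ∣ 2 ^ 3 * 5 ^ 1 ∨ d ∣ 3 ^ 1 * 5 ^ 1 := by decide +kernel
  rw [← Nat.card_congr eq.toEquiv] at hle hmul
  rcases key _ (Nat.mem_divisors.mpr ⟨⟨_, hmul.symm⟩, by norm_num⟩) hle with hd | hd | hd
  · exact isSolvable_of_two_primes 2 3 3 1 Nat.prime_two Nat.prime_three rfl hd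
  · exact isSolvable_of_two_primes 2 5 3 1 Nat.prime_two (by norm_num) rfl hd
  · exact isSolvable_of_two_primes 3 5 1 1 Nat.prime_three (by norm_num) rfl hd

theorem gl3_psl : Nonempty (GL (Fin 3) (ZMod 2) ≃* Matrix.ProjectiveSpecialLinearGroup (Fin 3) (ZMod 2)) := by
  have hone : ∀ u : (ZMod 2)ˣ, u = 1 := by decide
  let f : Matrix.SpecialLinearGroup (Fin 3) (ZMod 2) →* GL (Fin 3) (ZMod 2) := Matrix.SpecialLinearGroup.toGL
  have hf : Function.Bijective f := by
    refine ⟨Matrix.SpecialLinearGroup.toGL_injective, fun g => ?_⟩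
    have hdet := congrArg Units.val (hone (Matrix.GeneralLinearGroup.det g))
    rw [Matrix.GeneralLinearGroup.val_det_apply] at hdet
    exact ⟨⟨g, hdet⟩, Units.ext rfl⟩
  have hc : Subgroup.center (Matrix.SpecialLinearGroup (Fin 3) (ZMod 2)) = ⊥ := by
    rw [← Subgroup.card_eq_one, Nat.card_congr (Matrix.SpecialLinearGroup.center_equiv_rootsOfUnity).toEquiv]
    exact Nat.card_eq_one_iff_unique.mpr ⟨⟨fun a b => Subtype.ext ((hone a.1).trans (hone b.1).symm)⟩, ⟨1⟩⟩
  exact ⟨(((QuotientGroup.quotientMulEquivOfEq hc).trans QuotientGroup.quotientBot).trans (MulEquiv.ofBijective f hf)).symm⟩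

/-- The symmetric group of degree six inside the alternating group of degree eight. -/
theorem exists_sym6_alt8 : ∃ f : Equiv.Perm (Fin 6) →* ↥(alternatingGroup (Fin 8)), Function.Injective f := by
  let u : ℤˣ ≃* Equiv.Perm (Fin 2) := (MulEquiv.ofBijective (Equiv.Perm.sign : Equiv.Perm (Fin 2) →* ℤˣ)
    ⟨by decide, fun z => by rcases Int.units_eq_one_or z with rfl | rfl
                            · exact ⟨1, map_one _⟩
                            · exact ⟨Equiv.swap 0 1, Equiv.Perm.sign_swap (by decide)⟩⟩).symm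
  let h : Equiv.Perm (Fin 6) →* Equiv.Perm (Fin 8) :=
    ((finSumFinEquiv (m := 6) (n := 2)).permCongrHom.toMonoidHom).comp
      ((Equiv.Perm.sumCongrHom (Fin 6) (Fin 2)).comp
        ((MonoidHom.id _).prod (u.toMonoidHom.comp Equiv.Perm.sign)))
  have hmem : ∀ σ, h σ ∈ alternatingGroup (Fin 8) := by
    intro σ
    rw [Equiv.Perm.mem_alternatingGroup]
    show Equiv.Perm.sign ((finSumFinEquiv (m := 6) (n := 2)).permCongr (Equiv.Perm.sumCongr σ (u (Equiv.Perm.sign σ)))) = 1
    rw [Equiv.Perm.sign_permCongr, Equiv.Perm.sign_sumCongr]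
    rw [show Equiv.Perm.sign (u (Equiv.Perm.sign σ)) = Equiv.Perm.sign σ from u.symm_apply_apply _]
    exact Int.units_mul_self _
  refine ⟨h.codRestrict _ hmem, fun a b hab => ?_⟩
  have h1 := (finSumFinEquiv (m := 6) (n := 2)).permCongrHom.injective (congrArg Subtype.val hab)
  exact congrArg Prod.fst (Equiv.Perm.sumCongrHom_injective h1)

theorem no_sym6 {X : Type*} [Group X] [Finite X] (hc : Cfsg.IsPConstrained 2 X) (hO : Cfsg.oddCore X = ⊥)
    (h4 : Cfsg.SectionalPRankLE 2 4 X) (ψ : Equiv.Perm (Fin 6) →* X ⧸ Cfsg.pCore 2 X)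
    (hψ : Function.Injective ψ) : False := by
  have h2f : Fact (Nat.Prime 2) := ⟨Nat.prime_two⟩
  set Q := Cfsg.pCore 2 X with hQdef
  have hQp : IsPGroup 2 ↥Q := CfsgLib.Cores.isPGroup_pCore 2 X
  have hCQ : Subgroup.centralizer (Q : Set X) ≤ Q := S3103.centralizer_le hc hO
  let Φ := frattini ↥Q
  let M : Subgroup X := Φ.map Q.subtype
  haveI : M.Normal := inferInstance
  have hMQ : M ≤ Q := Subgroup.map_subtype_le Φ
  let π := QuotientGroup.mk' M
  let V : Subgroup (X ⧸ M) := Q.map π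
  haveI : V.Normal := Subgroup.Normal.map inferInstance π (QuotientGroup.mk'_surjective M)
  have hVc : ∀ a b : V, a * b = b * a := by
    rintro ⟨_, a, ha, rfl⟩ ⟨_, b, hb, rfl⟩
    refine Subtype.ext (commutatorElement_eq_one_iff_mul_comm.1 ?_)
    show ⁅π a, π b⁆ = 1
    rw [← map_commutatorElement]
    refine (QuotientGroup.eq_one_iff _).2 ⟨_, CfsgLib.PGroups.commutatorElement_mem_frattini hQp ⟨a, ha⟩ ⟨b, hb⟩, ?_⟩
    exact map_commutatorElement Q.subtype _ _
  have hV2 : ∀ a : V, a * a = 1 := by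
    rintro ⟨_, a, ha, rfl⟩
    refine Subtype.ext ?_
    show π a * π a = 1
    rw [← pow_two, ← map_pow]
    exact (QuotientGroup.eq_one_iff _).2 ⟨_, CfsgLib.PGroups.pow_mem_frattini hQp ⟨a, ha⟩, rfl⟩
  have hcard : Nat.card V ≤ 16 := by
    haveI : IsMulCommutative V := ⟨⟨hVc⟩⟩
    let f : ↥V →* ↥(⊤ : Subgroup ↥V) := (Subgroup.topEquiv (G := ↥V)).symm.toMonoidHom
    let N0 : Subgroup ↥V := ⊥
    have h := sectional_quotient h4 M V N0 ⊤ ⟨⟨fun a b => Subtype.ext (by
      obtain ⟨a', ha⟩ := QuotientGroup.mk'_surjective N0 a.1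
      obtain ⟨b', hb⟩ := QuotientGroup.mk'_surjective N0 b.1
      show a.1 * b.1 = b.1 * a.1
      rw [← ha, ← hb, ← map_mul, ← map_mul, hVc])⟩⟩ (fun a _ => by
      induction a using QuotientGroup.induction_on with
      | _ a' => rw [← QuotientGroup.mk_pow, pow_two, hV2]; rfl)
    rwa [Subgroup.card_top, Nat.card_congr (QuotientGroup.quotientBot (G := ↥V)).toEquiv] at h
  have hC : Subgroup.centralizer (V : Set (X ⧸ M)) ≤ V := by
    let C : Subgroup X := (Subgroup.centralizer (V : Set (X ⧸ M))).comap π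
    haveI : C.Normal := inferInstance
    suffices hCle : C ≤ Q by
      intro y hy
      obtain ⟨x, rfl⟩ := QuotientGroup.mk'_surjective M y
      exact ⟨x, hCle hy, rfl⟩
    refine CfsgLib.Cores.le_pCore ?_
    rw [IsPGroup.iff_card]
    refine ⟨_, Nat.eq_prime_pow_of_unique_prime_dvd (p := 2) Nat.card_pos.ne' fun {q} hq hdvd => ?_⟩
    by_contra hne
    have : Fact q.Prime := ⟨hq⟩
    obtain ⟨⟨k, hk⟩, hko⟩ := exists_prime_orderOf_dvd_card' q hdvd
    rw [Subgroup.orderOf_mk] at hko
    have hnQ : ∀ z ∈ Q, orderOf z ≠ q := fun z hz hzo => by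
      obtain ⟨m, hm⟩ := hQp ⟨z, hz⟩
      have h1 : q ∣ 2 ^ m := hzo ▸ orderOf_dvd_of_pow_eq_one (congrArg Subtype.val hm)
      exact hne ((Nat.prime_dvd_prime_iff_eq hq Nat.prime_two).1 (hq.dvd_of_dvd_pow h1))
    apply hnQ k _ hko
    refine hCQ (CfsgLib.CoprimeAction.le_centralizer_of_frattini (A := Subgroup.zpowers k) (K := Q)
      (fun z _ => (Subgroup.normalizer_eq_top (H := Q)).symm ▸ Subgroup.mem_top z) ?_ ?_ (Subgroup.mem_zpowers k))
    · obtain ⟨m, hm⟩ := IsPGroup.iff_card.1 (hQp.to_subgroup (frattini ↥Q))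
      rw [Nat.card_zpowers, hko, hm]
      exact Nat.Coprime.pow_right _ ((Nat.coprime_primes hq Nat.prime_two).2 hne)
    · intro a ha y hy
      have haC : a ∈ C := Subgroup.zpowers_le.2 hk ha
      have hm : y⁻¹ * (a * y * a⁻¹) ∈ M := by
        rw [← QuotientGroup.eq_one_iff, ← QuotientGroup.mk'_apply]
        show π (y⁻¹ * (a * y * a⁻¹)) = 1
        have e1 : π y * π a = π a * π y := Subgroup.mem_centralizer_iff.1 haC _ ⟨y, hy, rfl⟩
        rw [map_mul, map_mul, map_mul, map_inv, map_inv, ← e1, mul_inv_cancel_right, inv_mul_cancel]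
      obtain ⟨⟨m, hmQ⟩, hmΦ, hme⟩ := hm
      exact ⟨⟨m, hmQ⟩, hmΦ, hme⟩
  let φ : Equiv.Perm (Fin 6) →* (X ⧸ M) ⧸ V :=
    (QuotientGroup.quotientQuotientEquivQuotient M Q hMQ).symm.toMonoidHom.comp ψ
  exact CfsgLib.InvChar.SymSixSection.not_rank_four V hVc hV2 hcard hC φ
    ((QuotientGroup.quotientQuotientEquivQuotient M Q hMQ).symm.injective.comp hψ) (sectional_quotient h4 M)


/-- Let X be a finite nonsolvable 2-constrained group with no nontrivial normal subgroup of odd order such that O₂(X) has sectional 2-rank at most 4, and write Q for X/O₂(X). Then Q is isomorphic to the projective special linear group of dimension 3 over the field with 2 elements, to an alternating group of degree n with 5 ≤ n ≤ 8, to a symmetric group of degree n with 5 ≤ n ≤ 7, or else O₃(Q) has order 3 and Q/O₃(Q) is isomorphic to the alternating or the symmetric group of degree 5 (so Q is the direct product of a group of order 3 with the alternating group of degree 5, or an extension of that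 direct product by a group of order 2). If moreover X itself has sectional 2-rank at most 4, then Q is not isomorphic to the symmetric group of degree 6 or 7 nor to the alternating group of degree 8. -/
theorem result {X : Type*} [Group X] [Finite X] (hns : ¬ Group.IsSolvable X) (hc : Cfsg.IsPConstrained 2 X) (hO : Cfsg.oddCore X = ⊥)
    (h4 : Cfsg.SectionalPRankLE 2 4 ↥(Cfsg.pCore 2 X)) :
    ((∃ (F : Type) (_ : Field F) (_ : Fintype F), Fintype.card F = 2 ∧
          Nonempty (X ⧸ Cfsg.pCore 2 X ≃* Matrix.ProjectiveSpecialLinearGroup (Fin 3) F)) ∨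
        (∃ n : ℕ, 5 ≤ n ∧ n ≤ 8 ∧ Nonempty (X ⧸ Cfsg.pCore 2 X ≃* ↥(alternatingGroup (Fin n)))) ∨
        (∃ n : ℕ, 5 ≤ n ∧ n ≤ 7 ∧ Nonempty (X ⧸ Cfsg.pCore 2 X ≃* Equiv.Perm (Fin n))) ∨
        (Nat.card ↥(Cfsg.pCore 3 (X ⧸ Cfsg.pCore 2 X)) = 3 ∧
          (Nonempty ((X ⧸ Cfsg.pCore 2 X) ⧸ Cfsg.pCore 3 (X ⧸ Cfsg.pCore 2 X) ≃* ↥(alternatingGroup (Fin 5))) ∨
            Nonempty ((X ⧸ Cfsg.pCore 2 X) ⧸ Cfsg.pCore 3 (X ⧸ Cfsg.pCore 2 X) ≃* Equiv.Perm (Fin 5))))) ∧
      (Cfsg.SectionalPRankLE 2 4 X →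
        ¬ (Nonempty (X ⧸ Cfsg.pCore 2 X ≃* Equiv.Perm (Fin 6)) ∨ Nonempty (X ⧸ Cfsg.pCore 2 X ≃* Equiv.Perm (Fin 7)) ∨
            Nonempty (X ⧸ Cfsg.pCore 2 X ≃* ↥(alternatingGroup (Fin 8))))) := by
  obtain ⟨f, hf⟩ := S3103.result hc hO h4
  set G := X ⧸ Cfsg.pCore 2 X with hG
  have hO2 : Cfsg.pCore 2 G = ⊥ := CfsgLib.Cores.pCore_quotient_pCore 2 X
  have hnsG : ¬ Group.IsSolvable G := by
    intro hs
    haveI : Fact (Nat.Prime 2) := ⟨Nat.prime_two⟩
    haveI : Group.IsNilpotent ↥(Cfsg.pCore 2 X) := (CfsgLib.Cores.isPGroup_pCore 2 X).isNilpotent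
    exact hns (CfsgLib.Generators.SmallPermGroups.isSolvable_of_extension (Cfsg.pCore 2 X) inferInstance hs)
  refine ⟨?_, fun hX => ?_⟩
  · by_cases hOG : Cfsg.pPrimeCore 2 G = ⊥
    · let F : G →* GL (Fin 4) (ZMod 2) := CfsgLib.InvChar.GLFourTwo.equiv.symm.toMonoidHom.comp f
      have hF : Function.Injective F := CfsgLib.InvChar.GLFourTwo.equiv.symm.injective.comp hf
      let e : G ≃* F.range := MonoidHom.ofInjective hF
      have hne : F.range ≠ ⊥ := fun h => hnsG (by
        haveI : Subsingleton F.range := by rw [h]; infer_instance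
        haveI : Subsingleton G := e.toEquiv.subsingleton
        exact inferInstance)
      rcases S2553.result F.range hne (by rw [← CfsgLib.Cores.map_pPrimeCore_equiv e, hOG, Subgroup.map_bot])
          (by rw [← CfsgLib.Cores.map_pCore_equiv e, hO2, Subgroup.map_bot]) with
        ⟨n, h5, h8, ⟨i⟩⟩ | ⟨⟨i⟩⟩ | ⟨⟨i⟩⟩ | ⟨⟨i⟩⟩
      · exact Or.inr (Or.inl ⟨n, h5, h8, ⟨e.trans i⟩⟩)
      · exact Or.inr (Or.inr (Or.inl ⟨5, le_rfl, by norm_num, ⟨e.trans i⟩⟩))
      · exact Or.inr (Or.inr (Or.inl ⟨6, by norm_num, by norm_num, ⟨e.trans i⟩⟩))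
      · obtain ⟨i'⟩ := gl3_psl
        exact Or.inl ⟨ZMod 2, inferInstance, inferInstance, ZMod.card 2, ⟨(e.trans i).trans i'⟩⟩
    · exact Or.inr (Or.inr (Or.inr (three_core_case f hf hnsG hO2 hOG)))
  · rintro (⟨⟨i⟩⟩ | ⟨⟨i⟩⟩ | ⟨⟨i⟩⟩)
    · exact no_sym6 hc hO hX i.symm.toMonoidHom i.symm.injective
    · exact no_sym6 hc hO hX (i.symm.toMonoidHom.comp (Equiv.Perm.viaEmbeddingHom Fin.castSuccEmb))
        (i.symm.injective.comp (Equiv.Perm.viaEmbeddingHom_injective _))
    · obtain ⟨h, hh⟩ := exists_sym6_alt8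
      exact no_sym6 hc hO hX (i.symm.toMonoidHom.comp h) (i.symm.injective.comp hh)

end Cfsg.Agent.S3104
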