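import Cfsg.Statements.S3106
import Cfsg.Agent.S3103
import Cfsg.Agent.S0827
import Cfsg.Agent.Lib.Cores.PCore
import Cfsg.Agent.Lib.Amalgams.Involves
import Cfsg.Agent.Lib.RadicalRankFour.Apply
import Cfsg.Agent.Lib.RadicalRankFour.AFive
-- import your own Cfsg.Agent.* helpers here

set_option autoImplicit false
open Cfsg

namespace Cfsg.Agent.S3106

open CfsgLib.RadicalRankFour

theorem sectional_sub {p k : ℕ} {X : Type*} [Group X] (h : Cfsg.SectionalPRankLE p k X) (Y : Subgroup X) :
    Cfsg.SectionalPRankLE p k Y := by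
  intro H N _ B hBc hBp
  let e : H ≃* H.map Y.subtype := H.equivMapOfInjective Y.subtype Y.subtype_injective
  haveI : (N.map e.toMonoidHom).Normal := Subgroup.Normal.map inferInstance e.toMonoidHom e.surjective
  let e' : H ⧸ N ≃* (H.map Y.subtype) ⧸ N.map e.toMonoidHom := QuotientGroup.congr N _ e rfl
  have hcomm : IsMulCommutative ↥(B.map e'.toMonoidHom) := by
    refine ⟨⟨?_⟩⟩
    rintro ⟨_, a, ha, rfl⟩ ⟨_, b, hb, rfl⟩
    refine Subtype.ext ?_
    show e' a * e' b = e' b * e' a
    rw [← map_mul, ← map_mul, show a * b = b * a from congrArg Subtype.val (hBc.1.1 ⟨a, ha⟩ ⟨b, hb⟩)]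
  have h2 := h (H.map Y.subtype) (N.map e.toMonoidHom) (B.map e'.toMonoidHom) hcomm (by
    rintro _ ⟨a, ha, rfl⟩
    show e' a ^ p = 1
    rw [← map_pow, hBp a ha, map_one])
  rw [Subgroup.card_map_of_injective (f := e'.toMonoidHom) e'.injective] at h2
  exact h2

theorem center_step {K : Type*} [Group K] (x : Fin 5 → K) (z : K) (_hz1 : z ≠ 1)
    (hzc : ∀ k : K, z * k = k * z) (hx : ∀ i, x i * x i = 1)
    (_hxx : ∀ i j, i ≠ j → x i * x j * (x i * x j) = z)
    (hcov : ∀ k : K, (k = 1 ∨ k = z) ∨ (∃ i, (x i)⁻¹ * k = 1 ∨ (x i)⁻¹ * k = z) ∨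
      ∃ i j, i ≠ j ∧ ((x i * x j)⁻¹ * k = 1 ∨ (x i * x j)⁻¹ * k = z))
    (hno : ∀ i j, i ≠ j → x i * x j ≠ x j * x i) {H₁ H₂ : Type*} [Group H₁] [Group H₂] (f : H₁ →* K) (g : H₂ →* K)
    (hcomm : ∀ u ∈ f.range, ∀ v ∈ g.range, u * v = v * u) (htop : f.range ⊔ g.range = ⊤)
    (hzA : z ∈ f.range) (hzB : z ∈ g.range) : f.range ⊓ g.range = Subgroup.center K := by
  have hzAB : z ∈ f.range ⊓ g.range := ⟨hzA, hzB⟩
  have hcen : ∀ k ∈ Subgroup.center K, k = 1 ∨ k = z := by
    intro k hk
    rw [Subgroup.mem_center_iff] at hk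
    rcases hcov k with h | ⟨i, h⟩ | ⟨i, j, hij, h⟩
    · exact h
    · exfalso
      have key : ∀ i : Fin 5, ∃ l, i ≠ l := by decide
      obtain ⟨l, hl⟩ := key i
      refine hno i l hl ?_
      have e : Commute (x i) (x l) := by
        have hk' : Commute k (x l) := (hk (x l)).symm
        rw [show x i = k * ((x i)⁻¹ * k)⁻¹ by group]
        rcases h with h | h <;> rw [h]
        · simpa using hk'
        · exact hk'.mul_left (show Commute z (x l) from hzc _).inv_left
      exact e.eq
    · exfalso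
      refine hno i j hij ?_
      have e : Commute (x i * x j) (x i) := by
        have hk' : Commute k (x i) := (hk (x i)).symm
        rw [show x i * x j = k * ((x i * x j)⁻¹ * k)⁻¹ by group]
        rcases h with h | h <;> rw [h]
        · simpa using hk'
        · exact hk'.mul_left (show Commute z (x i) from hzc _).inv_left
      have h' := e.eq
      rw [mul_assoc, ← mul_assoc (x i) (x i), hx, one_mul] at h'
      calc x i * x j = x i * (x i * (x j * x i)) := by rw [h']
        _ = x j * x i := by rw [← mul_assoc, hx, one_mul]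
  refine le_antisymm ?_ ?_
  · intro k hk
    rw [Subgroup.mem_center_iff]
    intro l
    have hl : l ∈ Subgroup.centralizer ({k} : Set K) := by
      have hA : f.range ≤ Subgroup.centralizer ({k} : Set K) := by
        intro m hm
        rw [Subgroup.mem_centralizer_singleton_iff]
        rcases hk.2 with ⟨q, rfl⟩
        have hgen : m ∈ f.range := hm
        exact hcomm m hgen _ ⟨q, rfl⟩
      have hB : g.range ≤ Subgroup.centralizer ({k} : Set K) := by
        intro m hm
        rw [Subgroup.mem_centralizer_singleton_iff]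
        exact (hcomm k hk.1 m hm).symm
      exact sup_le hA hB (htop ▸ Subgroup.mem_top l)
    rw [Subgroup.mem_centralizer_singleton_iff] at hl
    exact hl
  · intro k hk
    rcases hcen k hk with rfl | rfl
    exacts [one_mem _, hzAB]

/-- A central product of a quaternion group and a dihedral group from five involutions. -/
theorem central_product {K : Type*} [Group K] [Finite K] (x : Fin 5 → K) (z : K) (hz1 : z ≠ 1)
    (hzc : ∀ k : K, z * k = k * z) (hx : ∀ i, x i * x i = 1)
    (hxx : ∀ i j, i ≠ j → x i * x j * (x i * x j) = z)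
    (hprod : x 0 * x 1 * x 2 * x 3 * x 4 = 1 ∨ x 0 * x 1 * x 2 * x 3 * x 4 = z)
    (hcov : ∀ k : K, (k = 1 ∨ k = z) ∨ (∃ i, (x i)⁻¹ * k = 1 ∨ (x i)⁻¹ * k = z) ∨
      ∃ i j, i ≠ j ∧ ((x i * x j)⁻¹ * k = 1 ∨ (x i * x j)⁻¹ * k = z)) :
    ∃ A B : Subgroup K, Nonempty (↥A ≃* QuaternionGroup 2) ∧ Nonempty (↥B ≃* DihedralGroup 4) ∧
      (∀ a ∈ A, ∀ b ∈ B, a * b = b * a) ∧ A ⊔ B = ⊤ ∧ A ⊓ B = Subgroup.center K := by
  haveI : Fact (Nat.Prime 2) := ⟨Nat.prime_two⟩
  have hinv : ∀ i, (x i)⁻¹ = x i := fun i => inv_eq_of_mul_eq_one_right (hx i)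
  have hswap : ∀ i j, i ≠ j → x j * x i = z * (x i * x j) := fun i j hij => by
    calc x j * x i = (x i * x i) * (x j * x i) * (x j * x j) := by rw [hx, hx, one_mul, mul_one]
      _ = x i * (x i * x j * (x i * x j)) * x j := by group
      _ = z * (x i * x j) := by rw [hxx i j hij, ← hzc]; group
  have hzz : z * z = 1 := by
    have h := hswap 0 1 (by decide)
    rw [hswap 1 0 (by decide), ← mul_assoc] at h
    exact mul_eq_right.1 h.symm
  have hno : ∀ i j, i ≠ j → x i * x j ≠ x j * x i := fun i j hij h => by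
    rw [hswap i j hij] at h
    exact hz1 (mul_eq_right.1 h.symm)
  have hord : ∀ i j, i ≠ j → orderOf (x i * x j) = 4 := fun i j hij =>
    orderOf_eq_prime_pow (p := 2) (n := 1)
      (by rw [pow_one, pow_two, hxx i j hij]; exact hz1)
      (by rw [show 2 ^ (1 + 1) = 2 * 2 by norm_num, pow_mul, pow_two (x i * x j), hxx i j hij, pow_two, hzz])
  have hpow4 : ∀ i j, i ≠ j → (x i * x j) ^ 4 = 1 := fun i j hij => by
    rw [← hord i j hij]; exact pow_orderOf_eq_one _
  set a := x 0 * x 1 with hadef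
  set b := x 0 * x 2 with hbdef
  set c := x 3 * x 4 with hcdef
  have hfar : ∀ i j k, i ≠ k → j ≠ k → x k * (x i * x j) = x i * x j * x k := by
    intro i j k hik hjk
    calc x k * (x i * x j) = (x k * x i) * x j := by group
      _ = z * x i * (x k * x j) := by rw [hswap i k hik]; group
      _ = z * ((x i * z) * (x j * x k)) := by rw [hswap j k hjk]; group
      _ = (z * z) * (x i * x j * x k) := by rw [← hzc (x i)]; group
      _ = _ := by rw [hzz, one_mul]
  have hbab : b * a * b⁻¹ = a⁻¹ := by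
    calc b * a * b⁻¹ = x 0 * (x 2 * (x 0 * x 1)) * (x 2)⁻¹ * (x 0)⁻¹ := by rw [hbdef, hadef]; group
      _ = x 0 * (x 0 * x 1) * (x 0)⁻¹ := by rw [hfar 0 1 2 (by decide) (by decide)]; group
      _ = a⁻¹ := by rw [hadef, mul_inv_rev, hinv, hinv, ← mul_assoc, hx, one_mul]
  have hdcd : x 3 * c * (x 3)⁻¹ = c⁻¹ := by
    rw [hcdef, mul_inv_rev, hinv, hinv, ← mul_assoc, hx, one_mul]
  obtain ⟨f, fa, fb⟩ := Cfsg.Agent.S0827.exists_quaternion_hom a b (hpow4 0 1 (by decide))
    ((hxx 0 2 (by decide)).trans (hxx 0 1 (by decide)).symm) hbab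
  have hfa : ∀ k : ℕ, f (QuaternionGroup.a k) = a ^ k := fun k => by
    rw [← QuaternionGroup.a_one_pow, map_pow, fa]
  have hai : ∀ i : ZMod (2 * 2), f (QuaternionGroup.a i) = a ^ i.val := fun i => by
    rw [← hfa, ZMod.natCast_zmod_val]
  have hxai : ∀ i : ZMod (2 * 2), f (QuaternionGroup.xa i) = b * a ^ i.val := fun i => by
    rw [← fb, ← hai, ← map_mul, QuaternionGroup.xa_mul_a, zero_add]
  have hb_not : b ∉ Subgroup.zpowers a := by
    rintro ⟨n, hn⟩
    have hcm : b * a * b⁻¹ = a := by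
      rw [← hn]; show a ^ n * a * (a ^ n)⁻¹ = a; group
    rw [hbab] at hcm
    refine hz1 ?_
    rw [← hxx 0 1 (by decide), ← hadef]
    nth_rewrite 1 [← hcm]
    exact inv_mul_cancel a
  have hfinj : Function.Injective f := by
    rw [injective_iff_map_eq_one]
    rintro (i | i) h
    · rw [hai] at h
      have := Nat.eq_zero_of_dvd_of_lt (orderOf_dvd_of_pow_eq_one h) (by rw [hord 0 1 (by decide)]; exact i.val_lt)
      rw [(ZMod.val_eq_zero i).1 this]; rfl
    · rw [hxai] at h
      exact absurd (by rw [eq_inv_of_mul_eq_one_left h]; exact inv_mem (Subgroup.npow_mem_zpowers _ _)) hb_not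
  let g := CfsgLib.Amalgams.dihedralHom (n := 4) (a := x 3) (b := c) (hpow4 3 4 (by decide)) (hx 3) hdcd
  have hd_not : x 3 ∉ Subgroup.zpowers c := by
    rintro ⟨n, hn⟩
    have hcm : x 3 * c * (x 3)⁻¹ = c := by
      rw [← hn]; show c ^ n * c * (c ^ n)⁻¹ = c; group
    rw [hdcd] at hcm
    refine hz1 ?_
    rw [← hxx 3 4 (by decide), ← hcdef]
    nth_rewrite 1 [← hcm]
    exact inv_mul_cancel c
  have hginj : Function.Injective g :=
    CfsgLib.Amalgams.injective_dihedralHom _ _ _ (hord 3 4 (by decide)) hd_not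
  suffices h : (∀ u ∈ f.range, ∀ v ∈ g.range, u * v = v * u) ∧ f.range ⊔ g.range = ⊤ by
    refine ⟨f.range, g.range, ⟨(MonoidHom.ofInjective hfinj).symm⟩, ⟨(MonoidHom.ofInjective hginj).symm⟩,
      h.1, h.2, ?_⟩
    exact center_step x z hz1 hzc hx hxx hcov hno f g h.1 h.2
      (by rw [← hxx 0 1 (by decide)]; exact mul_mem ⟨_, fa⟩ ⟨_, fa⟩)
      (by
        rw [← hxx 3 4 (by decide)]
        exact ⟨.r 2, by show c ^ (2 : ZMod 4).val = c * c; rw [show (2 : ZMod 4).val = 2 from rfl, pow_two]⟩)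
  refine ⟨?_, ?_⟩
  ·
    have hgen : ∀ k, k = a ∨ k = b → ∀ l, l = c ∨ l = x 3 → Commute k l := by
      intro k hk l hl
      have h3 : ∀ i j : Fin 5, i ≠ j → j ≠ 3 → i ≠ 3 → j ≠ 4 → i ≠ 4 →
          Commute (x i * x j) (x 3) ∧ Commute (x i * x j) (x 3 * x 4) := fun i j _ h1 h2 h3 h4 =>
        ⟨(hfar i j 3 h2 h1).symm, Commute.mul_right (hfar i j 3 h2 h1).symm (hfar i j 4 h4 h3).symm⟩
      rcases hk with rfl | rfl <;> rcases hl with rfl | rfl
      · exact (h3 0 1 (by decide) (by decide) (by decide) (by decide) (by decide)).2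
      · exact (h3 0 1 (by decide) (by decide) (by decide) (by decide) (by decide)).1
      · exact (h3 0 2 (by decide) (by decide) (by decide) (by decide) (by decide)).2
      · exact (h3 0 2 (by decide) (by decide) (by decide) (by decide) (by decide)).1
    have hA : ∀ k ∈ f.range, ∀ l, l = c ∨ l = x 3 → Commute k l := by
      rintro _ ⟨q, rfl⟩ l hl
      rcases q with i | i
      · rw [hai]; exact (hgen a (Or.inl rfl) l hl).pow_left _
      · rw [hxai]; exact (hgen b (Or.inr rfl) l hl).mul_left ((hgen a (Or.inl rfl) l hl).pow_left _)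
    rintro k hk _ ⟨q, rfl⟩
    rcases q with i | i
    · exact ((hA k hk c (Or.inl rfl)).pow_right _).eq
    · exact ((hA k hk (x 3) (Or.inr rfl)).mul_right ((hA k hk c (Or.inl rfl)).pow_right _)).eq
  · -- they generate
    set S := f.range ⊔ g.range
    have haS : a ∈ S := Subgroup.mem_sup_left ⟨_, fa⟩
    have hbS : b ∈ S := Subgroup.mem_sup_left ⟨_, fb⟩
    have h3S : x 3 ∈ S := Subgroup.mem_sup_right ⟨.sr 0, by simp [g, CfsgLib.Amalgams.dihedralHom_sr]⟩
    have hcS : c ∈ S := Subgroup.mem_sup_right ⟨.r 1, by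
      show c ^ (1 : ZMod 4).val = c
      rw [show (1 : ZMod 4).val = 1 from rfl, pow_one]⟩
    have hzS : z ∈ S := by rw [← hxx 0 1 (by decide)]; exact mul_mem haS haS
    have hP : x 0 * x 1 * x 2 * x 3 * x 4 ∈ S := by
      rcases hprod with h | h <;> rw [h]
      exacts [one_mem S, hzS]
    have h2S : x 2 ∈ S := by
      have h := mul_mem (mul_mem (inv_mem haS) hP) (inv_mem hcS)
      rwa [hadef, hcdef, show (x 0 * x 1)⁻¹ * (x 0 * x 1 * x 2 * x 3 * x 4) * (x 3 * x 4)⁻¹ = x 2 by group] at h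
    have h0S : x 0 ∈ S := by
      have h := mul_mem hbS (inv_mem h2S)
      rwa [hbdef, mul_inv_cancel_right] at h
    have h1S : x 1 ∈ S := by
      have h := mul_mem (inv_mem h0S) haS
      rwa [hadef, inv_mul_cancel_left] at h
    have h4S : x 4 ∈ S := by
      have h := mul_mem (inv_mem h3S) hcS
      rwa [hcdef, inv_mul_cancel_left] at h
    have hall : ∀ i, x i ∈ S := by
      intro i; fin_cases i <;> assumption
    rw [eq_top_iff]
    intro k _
    rcases hcov k with h | ⟨i, h⟩ | ⟨i, j, -, h⟩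
    · rcases h with rfl | rfl
      exacts [one_mem S, hzS]
    · rw [show k = x i * ((x i)⁻¹ * k) by group]
      rcases h with h | h <;> rw [h]
      exacts [mul_mem (hall i) (one_mem S), mul_mem (hall i) hzS]
    · rw [show k = x i * x j * ((x i * x j)⁻¹ * k) by group]
      rcases h with h | h <;> rw [h]
      exacts [mul_mem (mul_mem (hall i) (hall j)) (one_mem S), mul_mem (mul_mem (hall i) (hall j)) hzS]

/-- Let X be a finite nonsolvable 2-constrained group with no nontrivial normal subgroup of odd order and of sectional 2-rank at most 4, and suppose X/O₂(X) contains a subgroup isomorphic to the alternating group of degree 5. Then O₂(X) is elementary abelian of order 16, or O₂(X) is a central product of a quaternion group of order 8 and a dihedral group of order 8 (it has order 32 and is generated by two elementwise-commuting subgroups, one quaternion of order 8 and one dihedral of order 8, meeting in the centre). -/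
theorem result {X : Type*} [Group X] [Finite X] (hns : ¬ Group.IsSolvable X) (hc : Cfsg.IsPConstrained 2 X) (hO : Cfsg.oddCore X = ⊥)
    (h4 : Cfsg.SectionalPRankLE 2 4 X)
    (hQ : ∃ A : Subgroup (X ⧸ Cfsg.pCore 2 X), Nonempty (↥A ≃* ↥(alternatingGroup (Fin 5)))) :
    (Cfsg.IsElementaryAbelian 2 (Cfsg.pCore 2 X) ∧ Nat.card ↥(Cfsg.pCore 2 X) = 16) ∨
      (Nat.card ↥(Cfsg.pCore 2 X) = 32 ∧ ∃ A B : Subgroup ↥(Cfsg.pCore 2 X),
        Nonempty (↥A ≃* QuaternionGroup 2) ∧ Nonempty (↥B ≃* DihedralGroup 4) ∧ (∀ a ∈ A, ∀ b ∈ B, a * b = b * a) ∧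
          A ⊔ B = ⊤ ∧ A ⊓ B = Subgroup.center ↥(Cfsg.pCore 2 X)) := by
  classical
  haveI : Fact (Nat.Prime 2) := ⟨Nat.prime_two⟩
  haveI : Fact (Nat.Prime 5) := ⟨by norm_num⟩
  set Q := Cfsg.pCore 2 X with hQdef
  obtain ⟨A, ⟨e⟩⟩ := hQ
  set Y := A.comap (QuotientGroup.mk' Q) with hYdef
  have hQY : Q ≤ Y := fun q hq => by
    rw [hYdef, Subgroup.mem_comap, show QuotientGroup.mk' Q q = 1 from (QuotientGroup.eq_one_iff q).2 hq]
    exact one_mem A
  let π : Y →* A5 := e.toMonoidHom.comp ((QuotientGroup.mk' Q).subgroupComap A)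
  have hsurj : Function.Surjective π := e.surjective.comp
    (MonoidHom.subgroupComap_surjective_of_surjective _ A (QuotientGroup.mk'_surjective Q))
  have hker : π.ker = Q.subgroupOf Y := by
    ext y
    rw [MonoidHom.mem_ker, Subgroup.mem_subgroupOf]
    show e _ = 1 ↔ _
    rw [MulEquiv.map_eq_one_iff, Subtype.ext_iff]
    exact QuotientGroup.eq_one_iff _
  have h5 : 5 ∣ Nat.card A5 := by rw [Nat.card_eq_fintype_card]; decide +kernel
  have hS : Setting π := setting_of π hsurj
    (hker.symm ▸ ((CfsgLib.Cores.isPGroup_pCore 2 X).comap_subtype : IsPGroup 2 (Q.subgroupOf Y)))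
    (sectional_sub h4 Y) (fun y hy => by
      rw [hker, Subgroup.mem_subgroupOf]
      refine Cfsg.Agent.S3103.centralizer_le hc hO (Subgroup.mem_centralizer_iff.2 fun q hq => ?_)
      exact congrArg Subtype.val (Subgroup.mem_centralizer_iff.1 hy ⟨q, hQY hq⟩ (by
        rw [hker]; exact Subgroup.mem_subgroupOf.2 hq))) 5 (by norm_num) h5
  have hcard : Nat.card π.ker = Nat.card Q := by
    rw [hker]; exact Nat.card_congr (Subgroup.subgroupOfEquivOfLe hQY).toEquiv
  have hlift : ∀ q (hq : q ∈ Q), (⟨q, hQY hq⟩ : Y) ∈ π.ker := fun q hq => by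
    rw [hker]; exact Subgroup.mem_subgroupOf.2 hq
  rcases hS.five with hbot | ⟨hZ2, hQ32, x, hx, hxx, -, hprod, hcov⟩
  · left
    have helem : ∀ k ∈ π.ker, k * k = 1 := fun k hk => Subgroup.mem_bot.1 (hbot ▸ sq_mem_phi hk)
    have hcomm : ∀ a ∈ π.ker, ∀ b ∈ π.ker, a * b = b * a := fun a ha b hb => by
      have h := comm_mem_phi (K := π.ker) ha hb
      rw [hbot, Subgroup.mem_bot, mul_inv_eq_one, mul_inv_eq_iff_eq_mul] at h
      exact h
    refine ⟨⟨⟨⟨fun a b => Subtype.ext
      (congrArg (fun w : Y => (w : X)) (hcomm _ (hlift a a.2) _ (hlift b b.2)))⟩⟩, fun q hq => ?_⟩, ?_⟩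
    · rw [pow_two]; exact congrArg Subtype.val (helem _ (hlift q hq))
    have h16 := elementary_le hS.rank π.ker helem
    obtain ⟨n, hn⟩ := IsPGroup.iff_card.1 hS.two
    rw [← hcard]
    by_contra hne16
    have hn3 : n ≤ 3 := by
      by_contra h
      rcases eq_or_ne n 4 with rfl | h4
      · exact hne16 hn
      have := Nat.pow_le_pow_right (n := 2) (by norm_num) (show 5 ≤ n by omega)
      omega
    letI : CommGroup π.ker := { (inferInstance : Group π.ker) with
      mul_comm := fun a b => Subtype.ext (hcomm _ a.2 _ b.2) }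
    obtain ⟨ρ, hρ⟩ := exists_conj_hom π hsurj π.ker fun y hy v hv => by
      rw [hcomm y hy v hv, mul_inv_cancel_right]
    have h1 := small_action_trivial (M := π.ker) ρ hn hn3
    obtain ⟨l, hl⟩ : ∃ l : A5, l ≠ 1 := exists_ne 1
    obtain ⟨y, rfl⟩ := hsurj l
    refine hl (MonoidHom.mem_ker.1 (hS.faithful y fun q hq => ?_))
    have h := hρ y ⟨q, hq⟩
    rw [h1] at h
    rw [show y * q * y⁻¹ = q from h.symm, mul_inv_cancel]
    exact one_mem _
  right
  refine ⟨hcard.symm.trans hQ32, ?_⟩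
  have hval : ∀ k : Y, k ∈ π.ker → (k : X) ∈ Q := fun k hk => by
    rw [hker] at hk; exact Subgroup.mem_subgroupOf.1 hk
  let xq : Fin 5 → Q := fun i => ⟨(x i : Y), hval _ (hx i).1⟩
  have hz0 := sq_mem_phi (mul_mem (hx 0).1 (hx 1).1)
  set zy := x 0 * x 1 * (x 0 * x 1) with hzy
  let zq : Q := ⟨(zy : Y), hval _ (phi_le _ hz0)⟩
  have hcase : ∀ k ∈ Phi π.ker, k = 1 ∨ k = zy := fun k hk => by
    by_cases h : k = 1
    · exact Or.inl h
    · exact Or.inr (two_cases hZ2 hk hz0 h (hxx 0 1 (by decide)))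
  have hPn : (Phi π.ker).Normal := inferInstance
  refine central_product xq zq (fun h => hxx 0 1 (by decide) (Subtype.ext (congrArg (fun k : Q => (k : X)) h)))
    (fun k => ?_) (fun i => Subtype.ext (congrArg (fun w : Y => (w : X)) (hx i).2)) (fun i j hij => ?_) ?_ (fun k => ?_)
  · have hk := hlift k k.2
    have h := hPn.conj_mem zy hz0 ⟨(k : X), hQY k.2⟩
    rcases hcase _ h with h' | h'
    · exact absurd (conj_eq_one_iff.1 h') (hxx 0 1 (by decide))
    · exact Subtype.ext (congrArg Subtype.val (mul_inv_eq_iff_eq_mul.1 h')).symm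
  · have h := sq_mem_phi (mul_mem (hx i).1 (hx j).1)
    exact Subtype.ext (congrArg (fun w : Y => (w : X)) ((hcase _ h).resolve_left (hxx i j hij)))
  · rcases hcase _ hprod with h | h
    · exact Or.inl (Subtype.ext (congrArg (fun w : Y => (w : X)) h))
    · exact Or.inr (Subtype.ext (congrArg (fun w : Y => (w : X)) h))
  · rcases hcov _ (hlift k k.2) with h | ⟨i, h⟩ | ⟨i, j, hij, h⟩
    · left
      rcases hcase _ h with e | e
      · exact Or.inl (Subtype.ext (congrArg (fun w : Y => (w : X)) e))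
      · exact Or.inr (Subtype.ext (congrArg (fun w : Y => (w : X)) e))
    · refine Or.inr (Or.inl ⟨i, ?_⟩)
      rcases hcase _ h with e | e
      · exact Or.inl (Subtype.ext (congrArg (fun w : Y => (w : X)) e))
      · exact Or.inr (Subtype.ext (congrArg (fun w : Y => (w : X)) e))
    · refine Or.inr (Or.inr ⟨i, j, hij, ?_⟩)
      rcases hcase _ h with e | e
      · exact Or.inl (Subtype.ext (congrArg (fun w : Y => (w : X)) e))
      · exact Or.inr (Subtype.ext (congrArg (fun w : Y => (w : X)) e))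

end Cfsg.Agent.S3106
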