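import Cfsg.Statements.S3153
import Cfsg.Agent.Lib.InvChar.Standard

set_option autoImplicit false
open Cfsg

namespace Cfsg.Agent.S3153

open CfsgLib.InvChar in
open scoped IsMulCommutative in
/-- A perfect subgroup centralizing an odd normal subgroup forces 2-components above it to be quasisimple. -/
theorem component_part {X : Type*} [Group X] [Finite X] (P : Subgroup X) (hP : Cfsg.IsQuasisimple ↥P)
    (hPW : ¬ P ≤ Cfsg.oddCore X) (hcomm : Cfsg.oddCore X ≤ Subgroup.centralizer (P : Set X))
    (L : Subgroup X) (hL : Cfsg.IsPComponent 2 L) (hPL : P ≤ L) : Cfsg.IsQuasisimple ↥L := by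
  obtain ⟨hsn, hcomp, hmin⟩ := hL
  set W := Cfsg.oddCore X with hWdef
  have : W.Normal := by
    have := CfsgLib.Cores.pPrimeCore_characteristic 2 X
    show (Cfsg.pPrimeCore 2 X).Normal
    infer_instance
  set π : X →* X ⧸ W := QuotientGroup.mk' W with hπ
  change Cfsg.IsComponent (L.map π) at hcomp
  change ∀ H : Subgroup X, H.IsSubnormal → H ≤ L → H.map π = L.map π → H = L at hmin
  set C := Subgroup.centralizer (W : Set X) with hC
  -- images of normal subgroups of `L`
  let f : ↥L →* ↥(L.map π) := π.subgroupMap L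
  have hf : Function.Surjective f := π.subgroupMap_surjective L
  have hPC : P ≤ C := fun x hx => Subgroup.mem_centralizer_iff.2 fun w hw =>
    (Subgroup.mem_centralizer_iff.1 (hcomm hw) x hx).symm
  have hLC : L ≤ C := by
    have h : L ⊓ C = L := by
      refine hmin _ (hsn.inf (Subgroup.Normal.isSubnormal inferInstance)) inf_le_left ?_
      refine le_antisymm (Subgroup.map_mono inf_le_left) ?_
      have hN : ((C.subgroupOf L).map f).Normal := Subgroup.Normal.map inferInstance f hf
      rcases CfsgLib.Cores.normal_eq_top_or_le_center hcomp.2 ((C.subgroupOf L).map f) with h | h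
      · rintro z ⟨l, hl, rfl⟩
        obtain ⟨m, hm, hmz⟩ : f ⟨l, hl⟩ ∈ (C.subgroupOf L).map f := h ▸ Subgroup.mem_top _
        exact ⟨m, ⟨m.2, hm⟩, congrArg Subtype.val hmz⟩
      · exfalso
        apply hPW
        let g : ↥P →* ↥(Subgroup.center ↥(L.map π)) :=
          (f.comp (Subgroup.inclusion hPL)).codRestrict _ (fun x => h ⟨_, hPC x.2, rfl⟩)
        have hk : commutator ↥P ≤ g.ker := Abelianization.commutator_subset_ker g
        rw [Group.isPerfect_def.1 hP.1] at hk
        intro x hx
        have h1 : π x = 1 := congrArg (fun z : ↥(Subgroup.center ↥(L.map π)) => ((z : ↥(L.map π)) : X ⧸ W))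
          (hk (Subgroup.mem_top (⟨x, hx⟩ : ↥P)))
        exact (QuotientGroup.eq_one_iff x).1 h1
    exact h ▸ inf_le_right
  -- `L` is perfect
  have hLp : Group.IsPerfect ↥L := by
    rw [Group.isPerfect_def]
    have h := hmin ((commutator ↥L).map L.subtype)
      ((Subgroup.Normal.isSubnormal (H := commutator ↥L) inferInstance).trans' hsn) (Subgroup.map_subtype_le _) (by
      rw [Subgroup.map_map, show π.comp L.subtype = (L.map π).subtype.comp f from rfl,
        ← Subgroup.map_map, commutator_def, Subgroup.map_commutator, Subgroup.map_top_of_surjective _ hf,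
        ← commutator_def, Group.isPerfect_def.1 hcomp.2.1, ← MonoidHom.range_eq_map, Subgroup.range_subtype])
    apply Subgroup.map_injective L.subtype_injective
    rw [h, ← MonoidHom.range_eq_map, Subgroup.range_subtype]
  have : Nontrivial ↥L := by
    have := CfsgLib.Cores.nontrivial_of_isQuasisimple hcomp.2
    exact hf.nontrivial
  have := hLp
  have hker : f.ker ≤ Subgroup.center ↥L := by
    intro x hx
    have hxW : (x : X) ∈ W := (QuotientGroup.eq_one_iff _).1 (congrArg Subtype.val hx)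
    rw [Subgroup.mem_center_iff]
    intro l
    exact Subtype.ext (Subgroup.mem_centralizer_iff.1 (hLC l.2) x hxW).symm
  refine CfsgLib.Cores.isQuasisimple_of_normal fun N hN hNtop => ?_
  have hN' : (N.map f).Normal := Subgroup.Normal.map hN f hf
  rcases CfsgLib.Cores.normal_eq_top_or_le_center hcomp.2 (N.map f) with h | h
  · exfalso
    apply hNtop
    have hsup : N ⊔ f.ker = ⊤ := by rw [← Subgroup.comap_map_eq, h, Subgroup.comap_top]
    rw [← top_le_iff]
    intro x _
    have hle : ⁅(⊤ : Subgroup ↥L), (⊤ : Subgroup ↥L)⁆ ≤ N := by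
      rw [Subgroup.commutator_le]
      intro a _ b _
      obtain ⟨n, hn, k, hk, rfl⟩ := Subgroup.mem_sup_of_normal_right.1 (hsup ▸ Subgroup.mem_top a : a ∈ N ⊔ f.ker)
      have hkb : k * b * k⁻¹ = b := by
        rw [← Subgroup.mem_center_iff.1 (hker hk) b, mul_inv_cancel_right]
      rw [commutatorElement_def]
      have : n * k * b * (n * k)⁻¹ * b⁻¹ = n * (b * n⁻¹ * b⁻¹) := by
        calc n * k * b * (n * k)⁻¹ * b⁻¹ = n * (k * b * k⁻¹) * n⁻¹ * b⁻¹ := by simp [mul_assoc]
          _ = _ := by rw [hkb]; simp [mul_assoc]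
      rw [this]
      exact N.mul_mem hn (hN.conj_mem _ (N.inv_mem hn) b)
    rw [← commutator_def, Group.isPerfect_def.1 hLp] at hle
    exact hle (Subgroup.mem_top x)
  · intro n hn
    apply mem_center_of_commutator_mem_center hLp
    intro x
    apply hker
    rw [MonoidHom.mem_ker]
    have := Subgroup.mem_center_iff.1 (h ⟨n, hn, rfl⟩) (f x)
    simp only [map_mul, map_inv, this, mul_inv_cancel_right, mul_inv_cancel]

/-- Let X be a finite group and P a standard subgroup of X whose centralizer has 2-rank at most 1 and whose centre has odd order. Let S be a Sylow 2-subgroup of N_X(P) and t an involution of S centralizing P. Suppose some element g of X normalizes S, does not lie in S, has its square in S, and conjugates t into P·C_X(P). Then P commutes elementwise with the largest normal odd-order subgroup O(X) of X; consequently every t-invariant 2-component of X containing P is quasisimple. -/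
theorem result {X : Type*} [Group X] [Finite X] (P : Subgroup X) (hP : Cfsg.IsStandardSubgroup P)
    (hr : Cfsg.PRankLE 2 1 ↥(Subgroup.centralizer (P : Set X))) (hZ : Odd (Nat.card ↥(Subgroup.center ↥P)))
    (S : Sylow 2 ↥(Subgroup.normalizer (P : Set X))) (t : X) (ht : orderOf t = 2) (htS : t ∈ (S : Subgroup ↥(Subgroup.normalizer (P : Set X))).map (Subgroup.normalizer (P : Set X)).subtype)
    (htP : t ∈ Subgroup.centralizer (P : Set X))
    (g : X) (hgN : ∀ s ∈ (S : Subgroup ↥(Subgroup.normalizer (P : Set X))).map (Subgroup.normalizer (P : Set X)).subtype, g * s * g⁻¹ ∈ (S : Subgroup ↥(Subgroup.normalizer (P : Set X))).map (Subgroup.normalizer (P : Set X)).subtype)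
    (hgS : g ∉ (S : Subgroup ↥(Subgroup.normalizer (P : Set X))).map (Subgroup.normalizer (P : Set X)).subtype) (hg2 : g ^ 2 ∈ (S : Subgroup ↥(Subgroup.normalizer (P : Set X))).map (Subgroup.normalizer (P : Set X)).subtype)
    (hgt : g * t * g⁻¹ ∈ P ⊔ Subgroup.centralizer (P : Set X)) :
    ⁅P, Cfsg.oddCore X⁆ = ⊥ ∧
      ∀ L : Subgroup X, Cfsg.IsPComponent 2 L → P ≤ L → (∀ l ∈ L, t * l * t⁻¹ ∈ L) → Cfsg.IsQuasisimple ↥L := by
  obtain ⟨hPq, hT, -, hNeq⟩ := hP
  set C := Subgroup.centralizer (P : Set X) with hC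
  set T : Subgroup X := (S : Subgroup ↥(Subgroup.normalizer (P : Set X))).map (Subgroup.normalizer (P : Set X)).subtype with hTdef
  have hTN : T ≤ (Subgroup.normalizer (P : Set X)) := Subgroup.map_subtype_le _
  have hNC : ∀ w ∈ (Subgroup.normalizer (P : Set X)), ∀ c ∈ C, w * c * w⁻¹ ∈ C := fun w hw c hc => by
    rw [hNeq] at hw; exact (Subgroup.mem_normalizer_iff.1 hw c).1 hc
  have hTp : IsPGroup 2 ↥T := S.isPGroup'.map _
  have ht2 : t * t = 1 := by rw [← pow_two, ← ht]; exact pow_orderOf_eq_one t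
  have ht1 : t ≠ 1 := fun h => by simp [h] at ht
  have hCtN : ∀ w, w * t = t * w → w ∈ (Subgroup.normalizer (P : Set X)) := fun w hw => by
    rw [hNeq]; exact CfsgLib.InvChar.mem_normalizer_of_tightlyEmbedded hT ht htP hw
  -- `g` is outside `(Subgroup.normalizer (P : Set X))`
  have hgout : g ∉ (Subgroup.normalizer (P : Set X)) := by
    intro hg
    have hgnorm : (⟨g, hg⟩ : ↥(Subgroup.normalizer (P : Set X))) ∈ Subgroup.normalizer ((S : Subgroup ↥(Subgroup.normalizer (P : Set X))) : Set ↥(Subgroup.normalizer (P : Set X))) := by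
      apply Subgroup.mem_normalizer_iff.2
      intro s
      constructor
      · intro hs
        obtain ⟨s', hs', e⟩ := hgN s ⟨s, hs, rfl⟩
        have : s' = ⟨g, hg⟩ * s * (⟨g, hg⟩ : ↥(Subgroup.normalizer (P : Set X)))⁻¹ := Subtype.ext e
        exact this ▸ hs'
      · intro hs
        obtain ⟨s', hs', e⟩ := hg2
        have e' : s' = (⟨g, hg⟩ : ↥(Subgroup.normalizer (P : Set X))) * ⟨g, hg⟩ := Subtype.ext (by rw [Subgroup.coe_mul, ← pow_two]; exact e)
        obtain ⟨r, hr, er⟩ := hgN _ ⟨_, hs, rfl⟩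
        have er' : r = (⟨g, hg⟩ : ↥(Subgroup.normalizer (P : Set X))) * (⟨g, hg⟩ * s * (⟨g, hg⟩ : ↥(Subgroup.normalizer (P : Set X)))⁻¹) * (⟨g, hg⟩ : ↥(Subgroup.normalizer (P : Set X)))⁻¹ := Subtype.ext er
        have : s = s'⁻¹ * r * s' := by rw [e', er']; group
        rw [this]
        exact (S : Subgroup ↥(Subgroup.normalizer (P : Set X))).mul_mem ((S : Subgroup ↥(Subgroup.normalizer (P : Set X))).mul_mem ((S : Subgroup ↥(Subgroup.normalizer (P : Set X))).inv_mem hs') hr) hs'
    have hpz : IsPGroup 2 ↥(Subgroup.zpowers (⟨g, hg⟩ : ↥(Subgroup.normalizer (P : Set X)))) := by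
      obtain ⟨s', hs', e⟩ := hg2
      obtain ⟨k, hk⟩ := S.isPGroup' ⟨s', hs'⟩
      have hk' : s' ^ 2 ^ k = 1 := congrArg Subtype.val hk
      have h1 : (⟨g, hg⟩ : ↥(Subgroup.normalizer (P : Set X))) ^ 2 ^ (k + 1) = 1 := by
        apply Subtype.ext
        rw [Subgroup.coe_pow, pow_succ', pow_mul]
        show (g ^ 2) ^ 2 ^ k = 1
        rw [← e]; exact congrArg Subtype.val hk'
      exact IsPGroup.of_card (n := Nat.find ((Nat.dvd_prime_pow Nat.prime_two).1 (orderOf_dvd_of_pow_eq_one h1)))
        (by rw [Nat.card_zpowers]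
            exact (Nat.find_spec ((Nat.dvd_prime_pow Nat.prime_two).1 (orderOf_dvd_of_pow_eq_one h1))).2)
    have hin : (⟨g, hg⟩ : ↥(Subgroup.normalizer (P : Set X))) ∈ Subgroup.zpowers (⟨g, hg⟩ : ↥(Subgroup.normalizer (P : Set X))) ⊓ (S : Subgroup ↥(Subgroup.normalizer (P : Set X))) := by
      rw [← hpz.inf_normalizer_sylow S]; exact ⟨Subgroup.mem_zpowers _, hgnorm⟩
    exact hgS ⟨_, hin.2, rfl⟩
  set u := g * t * g⁻¹ with hu
  have hut : u ≠ t := fun h => hgout (hCtN g (mul_inv_eq_iff_eq_mul.1 h))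
  have huT : u ∈ T := hgN t htS
  have hu2 : u * u = 1 := by rw [hu, ← pow_two, conj_pow, pow_two, ht2, mul_one, mul_inv_cancel]
  have hu1 : u ≠ 1 := fun h => ht1 (conj_eq_one_iff.1 h)
  -- `t` is central in `T`
  have hTt : ∀ s ∈ T, s * t = t * s := by
    set M := C.subgroupOf T with hM
    have hMn : M.Normal := ⟨fun m hm s => hNC s (hTN s.2) m hm⟩
    have h2M : 2 ∣ Nat.card ↥M := by
      have := orderOf_dvd_natCard (⟨⟨t, htS⟩, htP⟩ : ↥M)
      rwa [← orderOf_injective (T.subtype.comp M.subtype) (T.subtype_injective.comp M.subtype_injective),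
        show (T.subtype.comp M.subtype) ⟨⟨t, htS⟩, htP⟩ = t from rfl, ht] at this
    obtain ⟨b, hb, hb1⟩ := (hTp.of_equiv ConjAct.toConjAct).exists_fixed_point_of_prime_dvd_card_of_fixed_point
      ↥M h2M (a := (1 : ↥M)) (fun g => smul_one g)
    have hbc : ∀ s : ↥T, s * (b : ↥T) * s⁻¹ = b := fun s => by
      have := congrArg Subtype.val (hb (ConjAct.toConjAct s))
      rwa [ConjAct.Subgroup.val_conj_smul, ConjAct.smul_def, ConjAct.ofConjAct_toConjAct] at this
    obtain ⟨k, hk⟩ := hTp (b : ↥T)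
    -- an involution power of `b`
    have hbne : (b : ↥T) ≠ 1 := fun h => hb1 (Subtype.ext h.symm)
    obtain ⟨j, hj, hj'⟩ : ∃ j, (b : ↥T) ^ (2 ^ j) ≠ 1 ∧ ((b : ↥T) ^ (2 ^ j)) ^ 2 = 1 := by
      induction k with
      | zero => simp [hbne] at hk
      | succ k ih =>
        by_cases h : (b : ↥T) ^ 2 ^ k = 1
        · exact ih h
        · exact ⟨k, h, by rw [← pow_mul, ← pow_succ, hk]⟩
    set z := (((b : ↥T) ^ (2 ^ j) : ↥T) : X) with hz
    have hzC : z ∈ C := Subgroup.mem_subgroupOf.1 (M.pow_mem b.2 _)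
    have hzc : ∀ s ∈ T, s * z = z * s := fun s hs => by
      have h : Commute (⟨s, hs⟩ : ↥T) (b : ↥T) := mul_inv_eq_iff_eq_mul.1 (hbc ⟨s, hs⟩)
      exact congrArg Subtype.val (h.pow_right (2 ^ j)).eq
    have hz2 : z * z = 1 := by rw [← pow_two]; exact congrArg Subtype.val hj'
    have hz1 : z ≠ 1 := fun h => hj (Subtype.ext h)
    obtain h | h := CfsgLib.InvChar.eq_one_or_eq_of_pRankLE_one hr hzC htP hz2 ht2 (hzc t htS).symm hz1
    · exact absurd h ht1
    · exact h ▸ hzc
  have hut' : u * t = t * u := hTt u huT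
  -- decompose `u`
  obtain ⟨p, hp, hp2, hup⟩ : ∃ p ∈ P, p * p = 1 ∧ (u = p ∨ u = p * t) := by
    have hgt' : u ∈ P ⊔ C := hgt
    obtain ⟨p, hp, c, hc, hpc⟩ : ∃ p ∈ P, ∃ c ∈ C, u = p * c := by
      have hPN : C ≤ Subgroup.normalizer (P : Set X) := fun c hc => by
        rw [Subgroup.mem_normalizer_iff]
        intro x
        have e : ∀ y, y ∈ P → c * y * c⁻¹ = y := fun y hy => by
          rw [← Subgroup.mem_centralizer_iff.1 hc y hy, mul_inv_cancel_right]
        constructor
        · intro hx; rwa [e x hx]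
        · intro hx
          have h := e _ hx
          have h' : c * x * c⁻¹ = x := (MulAut.conj c).injective h
          rwa [h'] at hx
      rw [← SetLike.mem_coe, Subgroup.coe_mul_of_right_le_normalizer_left P C hPN] at hgt'
      obtain ⟨p, hp, c, hc, h⟩ := hgt'
      exact ⟨p, hp, c, hc, h.symm⟩
    have hcp : p * c = c * p := Subgroup.mem_centralizer_iff.1 hc p hp
    have hpp : (p * p) * (c * c) = 1 := by
      have : (p * p) * (c * c) = (p * c) * (p * c) := by
        simp only [mul_assoc]; rw [← mul_assoc c p c, ← hcp]; simp [mul_assoc]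
      rw [this, ← hpc, hu2]
    have hzZ : (⟨p * p, P.mul_mem hp hp⟩ : ↥P) ∈ Subgroup.center ↥P := by
      rw [Subgroup.mem_center_iff]
      intro x
      apply Subtype.ext
      have h := Subgroup.mem_centralizer_iff.1 (C.inv_mem (C.mul_mem hc hc)) x x.2
      rw [← eq_inv_of_mul_eq_one_left hpp] at h
      exact h
    obtain ⟨k, hk⟩ := hZ
    obtain ⟨q, hq, hqz, hqq⟩ : ∃ q ∈ P, (∀ x ∈ P, x * q = q * x) ∧ q * q * (p * p) = 1 := by
      refine ⟨(p * p) ^ k, P.pow_mem (P.mul_mem hp hp) k, fun x hx => ?_, ?_⟩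
      · exact congrArg Subtype.val (Subgroup.mem_center_iff.1 ((Subgroup.center ↥P).pow_mem hzZ k) ⟨x, hx⟩)
      · rw [← pow_add, ← pow_succ, show k + k + 1 = Nat.card ↥(Subgroup.center ↥P) by omega]
        exact congrArg (fun z : ↥(Subgroup.center ↥P) => ((z : ↥P) : X))
          (pow_card_eq_one' (x := (⟨_, hzZ⟩ : ↥(Subgroup.center ↥P))))
    have hP2 : (p * q) * (p * q) = 1 := by
      have e : Commute p q := hqz p hp
      calc (p * q) * (p * q) = p * (q * p) * q := by simp [mul_assoc]
        _ = p * (p * q) * q := by rw [← e.eq]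
        _ = (p * p) * (q * q) := by simp [mul_assoc]
        _ = (q * q) * (p * p) := ((e.mul_left e).mul_right (e.mul_left e)).eq
        _ = 1 := hqq
    set c' := (p * q)⁻¹ * u with hc'
    have hc'C : c' ∈ C := by
      rw [hc', hpc, mul_inv_rev]; simp only [mul_assoc, inv_mul_cancel_left]
      refine C.mul_mem ?_ hc
      exact C.inv_mem (Subgroup.mem_centralizer_iff.2 fun x hx => hqz x hx)
    have hc't : c' * t = t * c' := by
      have h1 : (p * q) * t = t * (p * q) := Subgroup.mem_centralizer_iff.1 htP _ (P.mul_mem hp hq)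
      have h2 : Commute (p * q)⁻¹ t := (Commute.inv_left h1)
      exact (h2.mul_left hut').eq
    have hpqu : (p * q) * c' = c' * (p * q) := Subgroup.mem_centralizer_iff.1 hc'C _ (P.mul_mem hp hq)
    have hc'2 : c' * c' = 1 := by
      have e : u = (p * q) * c' := by rw [hc', mul_inv_cancel_left]
      have : u * u = (p * q) * (p * q) * (c' * c') := by
        rw [e]
        calc p * q * c' * (p * q * c') = p * q * (c' * (p * q)) * c' := by simp [mul_assoc]
          _ = _ := by rw [← hpqu]; simp [mul_assoc]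
      rwa [hu2, hP2, one_mul, eq_comm] at this
    refine ⟨p * q, P.mul_mem hp hq, hP2, ?_⟩
    rcases CfsgLib.InvChar.eq_one_or_eq_of_pRankLE_one hr htP hc'C ht2 hc'2 hc't.symm ht1 with h | h
    · left
      exact (mul_left_cancel (a := (p * q)⁻¹) (b := u) (c := p * q) (by rw [inv_mul_cancel]; exact h))
    · right
      rw [← h, hc', mul_inv_cancel_left]
  have hp1 : p ≠ 1 := by
    rintro rfl
    rcases hup with h | h
    · exact hu1 h
    · exact hut (by rw [h, one_mul])
  have hpo : orderOf p = 2 := orderOf_eq_prime (by rw [pow_two]; exact hp2) hp1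
  have hpc : ¬ (∀ x ∈ P, x * p = p * x) := by
    intro h
    have hmem : (⟨p, hp⟩ : ↥P) ∈ Subgroup.center ↥P :=
      Subgroup.mem_center_iff.2 fun x => Subtype.ext (h x x.2)
    have := orderOf_dvd_natCard (⟨_, hmem⟩ : ↥(Subgroup.center ↥P))
    rw [← orderOf_injective (P.subtype.comp (Subgroup.center ↥P).subtype)
      (P.subtype_injective.comp (Subgroup.center ↥P).subtype_injective),
      show (P.subtype.comp (Subgroup.center ↥P).subtype) ⟨_, hmem⟩ = p from rfl, hpo] at this
    exact absurd (even_iff_two_dvd.2 this) (Nat.not_even_iff_odd.2 hZ)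
  set W := Cfsg.oddCore X with hW
  have hWodd : Odd (Nat.card ↥W) := CfsgLib.Cores.odd_card_oddCore
  have hWn : W.Normal := by
    have := CfsgLib.Cores.pPrimeCore_characteristic 2 X
    show (Cfsg.pPrimeCore 2 X).Normal
    infer_instance
  -- `C_W(t)` commutes with `u`
  have h1 : ∀ w ∈ W, w * t = t * w → w * u = u * w := by
    intro w hw hwt
    have hwC : w ∈ C :=
      CfsgLib.InvChar.mem_centralizer_of_mem_odd_normal hPq hWodd hp hpo hw (hCtN w hwt)
    have hwp : w * p = p * w := (Subgroup.mem_centralizer_iff.1 hwC p hp).symm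
    rcases hup with h | h
    · rwa [h]
    · rw [h, ← mul_assoc, hwp, mul_assoc, hwt, mul_assoc]
  set D := W ⊓ Subgroup.centralizer ({t} : Set X) with hD
  set E' := W ⊓ Subgroup.centralizer ({u} : Set X) with hE'
  have hDE : D ≤ E' := fun w hw => ⟨hw.1, Subgroup.mem_centralizer_singleton_iff.2
    (h1 w hw.1 (Subgroup.mem_centralizer_singleton_iff.1 hw.2))⟩
  have hDE' : D = E' := by
    refine Subgroup.eq_of_le_of_card_ge hDE ?_
    refine Nat.card_le_card_of_injective
      (fun w : ↥E' => (⟨g⁻¹ * w * g, ?_, Subgroup.mem_centralizer_singleton_iff.2 ?_⟩ : ↥D)) ?_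
    · simpa using hWn.conj_mem (w : X) w.2.1 g⁻¹
    · have := Subgroup.mem_centralizer_singleton_iff.1 w.2.2
      rw [hu] at this
      calc g⁻¹ * (w : X) * g * t = g⁻¹ * ((w : X) * (g * t * g⁻¹)) * g := by simp [mul_assoc]
        _ = g⁻¹ * ((g * t * g⁻¹) * (w : X)) * g := by rw [this]
        _ = t * (g⁻¹ * (w : X) * g) := by simp [mul_assoc]
    · intro a b h
      exact Subtype.ext (mul_left_cancel (mul_right_cancel (congrArg Subtype.val h)))
  have hfix : ∀ w ∈ W, w * (t * u) = (t * u) * w := by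
    intro w hw
    have hle : W ≤ W ⊓ Subgroup.centralizer ({t * u} : Set X) := by
      refine (CfsgLib.InvChar.le_sup_centralizers hWodd ht2 hu2 hut'.symm
        (fun x hx => hWn.conj_mem x hx t) (fun x hx => hWn.conj_mem x hx u)).trans (sup_le (sup_le ?_ ?_) le_rfl)
      · intro x hx
        have a := Subgroup.mem_centralizer_singleton_iff.1 hx.2
        have b := h1 x hx.1 a
        exact ⟨hx.1, Subgroup.mem_centralizer_singleton_iff.2 ((Commute.mul_right a b : Commute x (t * u)).eq)⟩
      · intro x hx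
        have hx' : x ∈ D := hDE' ▸ hx
        have a := Subgroup.mem_centralizer_singleton_iff.1 hx'.2
        have b := Subgroup.mem_centralizer_singleton_iff.1 hx.2
        exact ⟨hx.1, Subgroup.mem_centralizer_singleton_iff.2 ((Commute.mul_right a b : Commute x (t * u)).eq)⟩
    exact Subgroup.mem_centralizer_singleton_iff.1 (hle hw).2
  -- the action of `P` on `W`
  let ρ : X →* MulAut ↥W := MulAut.conjNormal
  have hρtu : ρ (t * u) = 1 := by
    refine MulEquiv.ext fun w => Subtype.ext ?_
    rw [MulAut.conjNormal_apply, MulAut.one_apply]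
    exact mul_inv_eq_iff_eq_mul.2 (hfix w w.2).symm
  have hρt : ∀ x ∈ P, ρ x * ρ t = ρ t * ρ x := fun x hx => by
    rw [← map_mul, ← map_mul, Subgroup.mem_centralizer_iff.1 htP x hx]
  have hρu : ρ u = ρ t := by
    rw [map_mul] at hρtu
    have : ρ t * ρ t = 1 := by rw [← map_mul, ht2, map_one]
    exact (mul_left_cancel (this.trans hρtu.symm)).symm
  have hρp : ∀ x ∈ P, ρ x * ρ p = ρ p * ρ x := by
    intro x hx
    rcases hup with h | h
    · rw [← h, hρu]; exact hρt x hx
    · have : ρ p = 1 := mul_eq_right.1 (show ρ p * ρ t = ρ t by rw [← map_mul, ← h, hρu])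
      rw [this, one_mul, mul_one]
  let ρP : ↥P →* MulAut ↥W := ρ.comp P.subtype
  have hker : ρP.ker = ⊤ := by
    refine (CfsgLib.Cores.normal_eq_top_or_le_center hPq ρP.ker).resolve_right fun hle => hpc ?_
    have hpcen := CfsgLib.InvChar.mem_center_of_commutator_mem_center hPq.1 (a := (⟨p, hp⟩ : ↥P)) (fun x => hle (by
      rw [MonoidHom.mem_ker]
      show ρ ((x : X) * p * (x : X)⁻¹ * p⁻¹) = 1
      rw [map_mul, map_mul, map_mul, map_inv, map_inv, hρp x x.2, mul_inv_cancel_right, mul_inv_cancel]))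
    exact fun x hx => congrArg Subtype.val (Subgroup.mem_center_iff.1 hpcen ⟨x, hx⟩)
  have hcomm : W ≤ Subgroup.centralizer (P : Set X) := by
    intro w hw
    rw [Subgroup.mem_centralizer_iff]
    intro x hx
    have hk : (⟨x, hx⟩ : ↥P) ∈ ρP.ker := hker ▸ Subgroup.mem_top _
    have := congrArg (fun φ : MulAut ↥W => ((φ ⟨w, hw⟩ : ↥W) : X)) (MonoidHom.mem_ker.1 hk)
    exact mul_inv_eq_iff_eq_mul.1 ((MulAut.conjNormal_apply (H := W) x ⟨w, hw⟩).symm.trans this)
  refine ⟨?_, fun L hL hPL _ => component_part P hPq ?_ hcomm L hL hPL⟩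
  · rw [Subgroup.commutator_eq_bot_iff_le_centralizer]
    intro x hx
    exact Subgroup.mem_centralizer_iff.2 fun w hw => (Subgroup.mem_centralizer_iff.1 (hcomm hw) x hx).symm
  · intro hle
    have := orderOf_dvd_natCard (⟨p, hle hp⟩ : ↥W)
    rw [Subgroup.orderOf_mk, hpo] at this
    exact absurd (even_iff_two_dvd.2 this) (Nat.not_even_iff_odd.2 hWodd)

end Cfsg.Agent.S3153
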