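import Cfsg.Statements.S3154
import Cfsg.Agent.Lib.InvChar.PSLThreeFourFacts
import Cfsg.Agent.Lib.NormalComplements.Gaschutz

set_option autoImplicit false
open Cfsg

namespace Cfsg.Agent.S3154

theorem exists_not_in_four {Q : Type*} [Group Q] [Finite Q] (E : Subgroup Q) (hc : Nat.card E = 16)
    (a b c d : Q) : ∃ e ∈ E, e ≠ a ∧ e ≠ b ∧ e ≠ c ∧ e ≠ d := by
  classical
  by_contra! h
  have hsub : (E : Set Q) ⊆ ({a, b, c, d} : Finset Q) := by
    intro e he
    simp only [Finset.coe_insert, Finset.coe_singleton, Set.mem_insert_iff, Set.mem_singleton_iff]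
    by_contra hne
    push Not at hne
    exact hne.2.2.2 (h e he hne.1 hne.2.1 hne.2.2.1)
  have := (Set.ncard_le_ncard hsub (Finset.finite_toSet _)).trans
    ((Set.ncard_coe_finset _).le.trans Finset.card_le_four)
  rw [show (E : Set Q).ncard = 16 from hc] at this
  omega

theorem exponent_two_of_transitive {X : Type*} [Group X] [Finite X]
    (hz : ∀ z ∈ Subgroup.center X, z ^ 2 = 1) (H : Subgroup X)
    (hexp : ∀ e ∈ H.map (QuotientGroup.mk' (Subgroup.center X)), e ^ 2 = 1)
    (hc : Nat.card (H.map (QuotientGroup.mk' (Subgroup.center X))) = 16)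
    (htr : ∀ a ∈ H.map (QuotientGroup.mk' (Subgroup.center X)),
      ∀ b ∈ H.map (QuotientGroup.mk' (Subgroup.center X)), a ≠ 1 → b ≠ 1 → ∃ g, g * a * g⁻¹ = b) :
    ∀ h ∈ H, h ^ 2 = 1 := by
  set π := QuotientGroup.mk' (Subgroup.center X)
  have hsq : ∀ h ∈ H, h * h ∈ Subgroup.center X := fun h hh => by
    refine (QuotientGroup.eq_one_iff _).1 ?_
    have := hexp _ (Subgroup.mem_map_of_mem π hh)
    rw [pow_two] at this
    exact this
  have hconst : ∀ h ∈ H, ∀ k ∈ H, π h ≠ 1 → π k ≠ 1 → k * k = h * h := by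
    intro h hh k hk hh1 hk1
    obtain ⟨g, hg⟩ := htr _ (Subgroup.mem_map_of_mem π hh) _ (Subgroup.mem_map_of_mem π hk) hh1 hk1
    obtain ⟨g, rfl⟩ := QuotientGroup.mk'_surjective _ g
    rw [← map_mul, ← map_inv, ← map_mul] at hg
    obtain ⟨z, hz', rfl⟩ : ∃ z ∈ Subgroup.center X, k = g * h * g⁻¹ * z :=
      ⟨(g * h * g⁻¹)⁻¹ * k, QuotientGroup.eq.1 hg, (mul_inv_cancel_left _ _).symm⟩
    have hc1 := Subgroup.mem_center_iff.1 hz'
    have hc2 := Subgroup.mem_center_iff.1 (hsq h hh) g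
    calc g * h * g⁻¹ * z * (g * h * g⁻¹ * z) = g * h * g⁻¹ * (z * (g * h * g⁻¹)) * z := by group
      _ = g * h * g⁻¹ * (g * h * g⁻¹ * z) * z := by rw [← hc1 (g * h * g⁻¹)]
      _ = g * (h * h) * g⁻¹ * (z * z) := by group
      _ = h * h * (z * z) := by rw [hc2, mul_inv_cancel_right]
      _ = h * h := by rw [← pow_two z, hz z hz', mul_one]
  obtain ⟨_, ⟨h, hh, rfl⟩, h1, -, -, -⟩ := exists_not_in_four (H.map π) hc 1 1 1 1
  obtain ⟨_, ⟨f, hf, rfl⟩, f1, fh, -, -⟩ := exists_not_in_four (H.map π) hc 1 (π h) 1 1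
  obtain ⟨_, ⟨g, hg, rfl⟩, g1, gh, gf, ghf⟩ := exists_not_in_four (H.map π) hc 1 (π h) (π f) (π f * π h)
  set c := h * h with hcdef
  have hcc : c * c = 1 := by rw [← pow_two]; exact hz _ (hsq h hh)
  have hccomm : ∀ g : X, g * c = c * g := Subgroup.mem_center_iff.1 (hsq h hh)
  have hpair : ∀ a ∈ H, ∀ b ∈ H, π a ≠ 1 → π b ≠ 1 → π a ≠ π b → a * b = b * a * c := by
    intro a ha b hb ha1 hb1 hab
    have hab1 : π (a * b) ≠ 1 := fun e => hab (by
      have hb2 := hexp _ (Subgroup.mem_map_of_mem π hb)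
      rw [pow_two] at hb2
      rw [map_mul, ← hb2] at e
      exact mul_right_cancel e)
    have e1 : a * a = c := hconst h hh a ha h1 ha1
    have e2 : b * b = c := hconst h hh b hb h1 hb1
    have e3 : a * b * (a * b) = c := hconst h hh (a * b) (mul_mem ha hb) h1 hab1
    calc a * b = a * b * (a * b) * (a * b)⁻¹ := by group
      _ = c * (b * (b * b)⁻¹ * (a * (a * a)⁻¹)) := by rw [e3]; group
      _ = c * (b * c * (a * c)) := by rw [e1, e2, inv_eq_of_mul_eq_one_right hcc]
      _ = c * (b * (c * a) * c) := by group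
      _ = c * (b * (a * c) * c) := by rw [hccomm a]
      _ = c * (b * a) * (c * c) := by group
      _ = c * (b * a) := by rw [hcc, mul_one]
      _ = b * a * c := (hccomm _).symm
  have hfg1 : π (f * g) ≠ 1 := fun e => gf (by
    have hf2 := hexp _ (Subgroup.mem_map_of_mem π hf)
    rw [pow_two, ← e, map_mul] at hf2
    exact (mul_left_cancel hf2).symm)
  have hfgh : π (f * g) ≠ π h := fun e => ghf (by
    have hf2 := hexp _ (Subgroup.mem_map_of_mem π hf)
    rw [pow_two] at hf2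
    rw [← e, map_mul, ← mul_assoc, hf2, one_mul])
  have k1 := hpair f hf h hh f1 h1 fh
  have k2 := hpair g hg h hh g1 h1 gh
  have k3 := hpair (f * g) (mul_mem hf hg) h hh hfg1 h1 hfgh
  have hc1 : c = 1 := by
    have e : f * g * h = h * (f * g) := by
      calc f * g * h = f * (g * h) := mul_assoc _ _ _
        _ = f * (h * g * c) := by rw [k2]
        _ = (f * h) * g * c := by group
        _ = h * f * c * g * c := by rw [k1]
        _ = h * f * (c * g) * c := by group
        _ = h * f * (g * c) * c := by rw [hccomm g]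
        _ = h * (f * g) * (c * c) := by group
        _ = h * (f * g) := by rw [hcc, mul_one]
    rw [e] at k3
    exact (mul_eq_left.1 k3.symm)
  intro k hk
  by_cases hk1 : π k = 1
  · exact hz k ((QuotientGroup.eq_one_iff k).1 hk1)
  · rw [pow_two, hconst h hh k hk h1 hk1]; exact hc1

theorem elementary_of_sq {X : Type*} [Group X] {H : Subgroup X} (h : ∀ a ∈ H, a ^ 2 = 1) :
    Cfsg.IsElementaryAbelian 2 H := by
  refine ⟨isMulCommutative_iff.2 fun a b => Subtype.ext ?_, h⟩
  have hi : ∀ c ∈ H, c⁻¹ = c := fun c hc => inv_eq_of_mul_eq_one_right (by rw [← pow_two]; exact h c hc)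
  show (a : X) * b = b * a
  rw [← hi _ (mul_mem a.2 b.2), mul_inv_rev, hi _ a.2, hi _ b.2]

theorem exists_complement_within {X : Type*} [Group X] [Finite X] {K : Subgroup X}
    (hK : Cfsg.IsElementaryAbelian 2 K) (L : Subgroup X) (hL : L ≤ K) :
    ∃ D : Subgroup X, D ≤ K ∧ D ⊓ L = ⊥ ∧ K ≤ D ⊔ L := by
  obtain ⟨D, ⟨hDK, hDL⟩, hmax⟩ := (Set.toFinite {D : Subgroup X | D ≤ K ∧ D ⊓ L = ⊥}).exists_maximal
    ⟨⊥, bot_le, bot_inf_eq _⟩
  refine ⟨D, hDK, hDL, fun k hk => ?_⟩
  by_contra hkn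
  have hcomm : ∀ a ∈ K, ∀ b ∈ K, a * b = b * a := fun a ha b hb =>
    congrArg Subtype.val (isMulCommutative_iff.1 hK.1 ⟨a, ha⟩ ⟨b, hb⟩)
  have hk2 : k * k = 1 := by rw [← pow_two]; exact hK.2 k hk
  let D' : Subgroup X :=
    { carrier := {y | y ∈ D ∨ y * k ∈ D}
      one_mem' := Or.inl (one_mem D)
      mul_mem' := by
        rintro a b (ha | ha) (hb | hb)
        · exact Or.inl (mul_mem ha hb)
        · exact Or.inr (by rw [mul_assoc]; exact mul_mem ha hb)
        · refine Or.inr ?_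
          rw [mul_assoc, hcomm b (hDK hb) k hk, ← mul_assoc]
          exact mul_mem ha hb
        · refine Or.inl ?_
          have hb' : b ∈ K := by
            have := mul_mem (hDK hb) (inv_mem hk)
            rwa [mul_inv_cancel_right] at this
          have e : a * b = (a * k) * (b * k) := by
            rw [hcomm b hb' k hk, mul_assoc a k, ← mul_assoc k k, hk2, one_mul]
          rw [e]; exact mul_mem ha hb
      inv_mem' := by
        rintro a (ha | ha)
        · exact Or.inl (inv_mem ha)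
        · refine Or.inr ?_
          have ha' : a ∈ K := by
            have := mul_mem (hDK ha) (inv_mem hk)
            rwa [mul_inv_cancel_right] at this
          have e : a⁻¹ * k = (a * k)⁻¹ := by
            rw [mul_inv_rev, inv_eq_of_mul_eq_one_right hk2, hcomm _ (inv_mem ha') k hk]
          rw [e]; exact inv_mem ha }
  have hD'K : D' ≤ K := by
    rintro y (hy | hy)
    · exact hDK hy
    · have := mul_mem (hDK hy) (inv_mem hk)
      rwa [mul_inv_cancel_right] at this
  have hD'L : D' ⊓ L = ⊥ := by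
    rw [eq_bot_iff]
    rintro y ⟨hy | hy, hyL⟩
    · exact hDL.le ⟨hy, hyL⟩
    · exfalso
      refine hkn ?_
      have e : k = (y * k) * y⁻¹ := by
        rw [mul_assoc, hcomm k hk y⁻¹ (inv_mem (hL hyL)), mul_inv_cancel_left]
      rw [e]
      exact mul_mem (Subgroup.mem_sup_left hy) (Subgroup.mem_sup_right (inv_mem hyL))
  have hle : D ≤ D' := fun y hy => Or.inl hy
  have hkD : k ∈ D' := Or.inr (by rw [hk2]; exact one_mem D)
  exact hkn (Subgroup.mem_sup_left (hmax ⟨hD'K, hD'L⟩ hle hkD))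

theorem exists_split {X : Type*} [Group X] [Finite X] {L : Type*} [Group L] (T : Sylow 2 X)
    (H D : Subgroup X) (hH : Cfsg.IsElementaryAbelian 2 H) (hHT : H ≤ T) (hDT : D ≤ T) (hDH : D ⊓ H = ⊥)
    (hsup : (T : Subgroup X) ≤ D ⊔ H) (hTN : (T : Subgroup X) ≤ Subgroup.normalizer (H : Set X))
    (π : ↥(Subgroup.normalizer (H : Set X)) →* L) (hsurj : Function.Surjective π)
    (hker : ∀ g, π g = 1 ↔ (g : X) ∈ H) :
    ∃ C : Subgroup X, C ≤ Subgroup.normalizer (H : Set X) ∧ C ⊓ H = ⊥ ∧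
      H ⊔ C = Subgroup.normalizer (H : Set X) ∧ Nonempty (↥C ≃* L) := by
  have hHN : H ≤ Subgroup.normalizer (H : Set X) := Subgroup.le_normalizer
  generalize hN : Subgroup.normalizer (H : Set X) = N at *
  let A : Subgroup N := H.subgroupOf N
  have : A.Normal := Subgroup.normal_subgroupOf_iff_le_normalizer hHN |>.2 hN.ge
  have hA : IsMulCommutative A := isMulCommutative_iff.2 fun a b => Subtype.ext (Subtype.ext (
    congrArg (Subtype.val : H → X) (isMulCommutative_iff.1 hH.1 ⟨_, a.2⟩ ⟨_, b.2⟩)))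
  obtain ⟨M, hM⟩ := CfsgLib.NormalComplements.exists_isComplement'_of_coprime_index A
    ((T : Subgroup X).subgroupOf N) (D.subgroupOf N) hA (fun a ha => hHT ha) (fun a ha => hDT ha)
    (by
      rw [eq_bot_iff]
      rintro a ⟨ha, hb⟩
      exact Subtype.ext (hDH.le (show (a : X) ∈ D ⊓ H from ⟨ha, hb⟩)))
    (by
      rw [← Subgroup.subgroupOf_sup (hDT.trans hTN) hHN]
      intro a ha
      exact hsup ha)
    (by
      have h1 : Nat.card A = Nat.card H := Nat.card_congr (Subgroup.subgroupOfEquivOfLe hHN).toEquiv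
      obtain ⟨k, hk⟩ := IsPGroup.iff_card.1 (T.2.to_le hHT)
      rw [h1, hk]
      refine Nat.Coprime.pow_left k ((Nat.Prime.coprime_iff_not_dvd Nat.prime_two).2 fun h2 => ?_)
      exact T.not_dvd_index (h2.trans (Subgroup.relIndex_mul_index hTN ▸ Dvd.intro _ rfl)))
  refine ⟨M.map N.subtype, Subgroup.map_subtype_le _, ?_, ?_, ?_⟩
  · rw [eq_bot_iff]
    rintro _ ⟨⟨m, hm, rfl⟩, hmH⟩
    exact congrArg Subtype.val (hM.disjoint.le_bot ⟨hm, hmH⟩ : m ∈ (⊥ : Subgroup N))
  · have h := congrArg (Subgroup.map N.subtype) hM.sup_eq_top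
    rw [Subgroup.map_sup, Subgroup.map_subgroupOf_eq_of_le hHN, ← MonoidHom.range_eq_map,
      Subgroup.range_subtype, sup_comm] at h
    exact h
  · have hbij : Function.Bijective (π.comp M.subtype) := by
      constructor
      · rw [injective_iff_map_eq_one]
        intro m hm
        exact Subtype.ext (hM.disjoint.le_bot ⟨m.2, (hker m.1).1 hm⟩)
      · intro l
        obtain ⟨g, rfl⟩ := hsurj l
        obtain ⟨⟨⟨m, hm⟩, ⟨a, ha⟩⟩, hg⟩ := hM.2 g
        refine ⟨⟨m, hm⟩, ?_⟩
        rw [← hg, map_mul, (hker a).2 ha, mul_one]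
        rfl
    exact ⟨(M.equivMapOfInjective N.subtype N.subtype_injective).symm.trans
      (MulEquiv.ofBijective (π.comp M.subtype) hbij)⟩


/-- Let X be a finite quasisimple group whose centre is an elementary abelian 2-group and whose central quotient is isomorphic to the projective special linear group of dimension 3 over the field with 4 elements. Let T be a Sylow 2-subgroup of X and H ≠ K subgroups of T containing the centre Z(X) whose images in X/Z(X) are elementary abelian of order 16 (the two such subgroups of a Sylow 2-subgroup of the quotient). Then H and K are elementary abelian, H ∩ K is the centre of the subgroup they generate, and each of N_X(H), N_X(K) is a split extension of H, respectively K, by the projective special linear group of dimension 2 over the field with 4 elements (there is a complement isomorphic to that group). -/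
theorem result {X : Type*} [Group X] [Finite X] (hq : Cfsg.IsQuasisimple X) (hZ : Cfsg.IsElementaryAbelian 2 (Subgroup.center X))
    {F : Type*} [Field F] [Fintype F] (hF : Fintype.card F = 4) (hXL : Nonempty ((X ⧸ Subgroup.center X) ≃* Matrix.ProjectiveSpecialLinearGroup (Fin 3) F))
    (T : Sylow 2 X) (H K : Subgroup X) (hHK : H ≠ K) (hHT : H ≤ T) (hKT : K ≤ T) (hZH : Subgroup.center X ≤ H) (hZK : Subgroup.center X ≤ K)
    (hH : Cfsg.IsElementaryAbelian 2 (H.map (QuotientGroup.mk' (Subgroup.center X))) ∧ Nat.card ↥(H.map (QuotientGroup.mk' (Subgroup.center X))) = 16)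
    (hK : Cfsg.IsElementaryAbelian 2 (K.map (QuotientGroup.mk' (Subgroup.center X))) ∧ Nat.card ↥(K.map (QuotientGroup.mk' (Subgroup.center X))) = 16) :
    Cfsg.IsElementaryAbelian 2 H ∧ Cfsg.IsElementaryAbelian 2 K ∧
      H ⊓ K = (Subgroup.center ↥(H ⊔ K)).map (H ⊔ K).subtype ∧
      (∃ C : Subgroup X, C ≤ Subgroup.normalizer (H : Set X) ∧ C ⊓ H = ⊥ ∧ H ⊔ C = Subgroup.normalizer (H : Set X) ∧
        Nonempty (↥C ≃* Matrix.ProjectiveSpecialLinearGroup (Fin 2) F)) ∧
      (∃ C : Subgroup X, C ≤ Subgroup.normalizer (K : Set X) ∧ C ⊓ K = ⊥ ∧ K ⊔ C = Subgroup.normalizer (K : Set X) ∧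
        Nonempty (↥C ≃* Matrix.ProjectiveSpecialLinearGroup (Fin 2) F)) := by
  obtain ⟨f⟩ := hXL
  have : Fact (Nat.Prime 2) := ⟨Nat.prime_two⟩
  set Z := Subgroup.center X with hZdef
  set φ := QuotientGroup.mk' Z with hφ
  have hsurj : Function.Surjective φ := QuotientGroup.mk'_surjective Z
  let T' : Sylow 2 (X ⧸ Z) := T.mapSurjective hsurj
  have hkerφ : φ.ker = Z := QuotientGroup.ker_mk' Z
  have hHc : (H.map φ).comap φ = H := Subgroup.comap_map_eq_self (hkerφ.le.trans hZH)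
  have hKc : (K.map φ).comap φ = K := Subgroup.comap_map_eq_self (hkerφ.le.trans hZK)
  have hne : H.map φ ≠ K.map φ := fun h => hHK (by rw [← hHc, h, hKc])
  have hH' : ∀ e ∈ H.map φ, e ^ 2 = 1 := hH.1.2
  have hK' : ∀ e ∈ K.map φ, e ^ 2 = 1 := hK.1.2
  have hHT' : H.map φ ≤ (T' : Subgroup (X ⧸ Z)) := Subgroup.map_mono hHT
  have hKT' : K.map φ ≤ (T' : Subgroup (X ⧸ Z)) := Subgroup.map_mono hKT
  obtain ⟨a1, a2, a3, a4, π, hπ, hπk⟩ := CfsgLib.InvChar.PSLThreeFour.pair_facts hF f T'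
    hne hHT' hKT' hH' hK' hH.2 hK.2
  obtain ⟨b1, b2, b3, b4, π', hπ', hπk'⟩ := CfsgLib.InvChar.PSLThreeFour.pair_facts hF f T'
    (Ne.symm hne) hKT' hHT' hK' hH' hK.2 hH.2
  have hHel := elementary_of_sq (exponent_two_of_transitive hZ.2 H hH' hH.2
    (fun a ha b hb h1 h2 => (a4 a ha b hb h1 h2).imp fun g hg => hg.2))
  have hKel := elementary_of_sq (exponent_two_of_transitive hZ.2 K hK' hK.2
    (fun a ha b hb h1 h2 => (b4 a ha b hb h1 h2).imp fun g hg => hg.2))
  have hsup : H ⊔ K = T := by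
    have h : (H ⊔ K).map φ = (T : Subgroup X).map φ := by rw [Subgroup.map_sup]; exact a1
    rw [← Subgroup.comap_map_eq_self (H := H ⊔ K) (f := φ) (hkerφ.le.trans (hZH.trans le_sup_left)), h,
      Subgroup.comap_map_eq_self (H := (T : Subgroup X)) (f := φ) (hkerφ.le.trans (hZH.trans hHT))]
  have hcenter : H ⊓ K = (Subgroup.center ↥(H ⊔ K)).map (H ⊔ K).subtype := by
    refine le_antisymm ?_ ?_
    · rintro x ⟨hxH, hxK⟩
      refine ⟨⟨x, Subgroup.mem_sup_left hxH⟩, Subgroup.mem_center_iff.2 fun y => Subtype.ext ?_, rfl⟩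
      have hle : H ⊔ K ≤ Subgroup.centralizer ({x} : Set X) := sup_le
        (fun a ha => Subgroup.mem_centralizer_singleton_iff.2
          (congrArg Subtype.val (isMulCommutative_iff.1 hHel.1 ⟨a, ha⟩ ⟨x, hxH⟩)))
        (fun a ha => Subgroup.mem_centralizer_singleton_iff.2
          (congrArg Subtype.val (isMulCommutative_iff.1 hKel.1 ⟨a, ha⟩ ⟨x, hxK⟩)))
      exact Subgroup.mem_centralizer_singleton_iff.1 (hle y.2)
    · rintro _ ⟨⟨x, hx⟩, hxc, rfl⟩
      have hc : ∀ y ∈ H ⊔ K, φ x * φ y = φ y * φ x := fun y hy => by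
        have h := Subgroup.mem_center_iff.1 hxc ⟨y, hy⟩
        rw [← map_mul, ← map_mul, show x * y = y * x from (congrArg Subtype.val h).symm]
      have hxT : φ x ∈ (T' : Subgroup (X ⧸ Z)) := Subgroup.mem_map_of_mem φ (hsup ▸ hx)
      refine ⟨(SetLike.ext_iff.1 hHc x).1 (a3 _ hxT ?_), (SetLike.ext_iff.1 hKc x).1 (b3 _ hxT ?_)⟩
      · rintro _ ⟨y, hy, rfl⟩
        exact hc y (Subgroup.mem_sup_left hy)
      · rintro _ ⟨y, hy, rfl⟩
        exact hc y (Subgroup.mem_sup_right hy)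
  have hsplit : ∀ (H K : Subgroup X), H ≤ T → K ≤ T → Cfsg.IsElementaryAbelian 2 H →
      Cfsg.IsElementaryAbelian 2 K → H ⊔ K = T → (H.map φ).comap φ = H →
      (T' : Subgroup (X ⧸ Z)) ≤ Subgroup.normalizer ((H.map φ : Subgroup (X ⧸ Z)) : Set (X ⧸ Z)) →
      ∀ π : ↥(Subgroup.normalizer ((H.map φ : Subgroup (X ⧸ Z)) : Set (X ⧸ Z))) →*
          Matrix.ProjectiveSpecialLinearGroup (Fin 2) F,
      Function.Surjective π → (∀ g, π g = 1 ↔ (g : X ⧸ Z) ∈ H.map φ) →
      ∃ C : Subgroup X, C ≤ Subgroup.normalizer (H : Set X) ∧ C ⊓ H = ⊥ ∧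
        H ⊔ C = Subgroup.normalizer (H : Set X) ∧
        Nonempty (↥C ≃* Matrix.ProjectiveSpecialLinearGroup (Fin 2) F) := by
    intro H K hHT hKT hHel hKel hsup hHc hTN π hπ hπk
    have hN : (Subgroup.normalizer ((H.map φ : Subgroup (X ⧸ Z)) : Set (X ⧸ Z))).comap φ =
        Subgroup.normalizer (H : Set X) := by
      rw [Subgroup.comap_normalizer_eq_of_surjective _ hsurj, hHc]
    obtain ⟨D, hDK, hDH, hD⟩ := exists_complement_within hKel (H ⊓ K) inf_le_right
    let ψ : ↥(Subgroup.normalizer (H : Set X)) →*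
        ↥(Subgroup.normalizer ((H.map φ : Subgroup (X ⧸ Z)) : Set (X ⧸ Z))) :=
      MonoidHom.mk' (fun g => ⟨φ g, (SetLike.ext_iff.1 hN (g : X)).2 g.2⟩)
        fun a b => Subtype.ext (map_mul φ _ _)
    have hψ : Function.Surjective ψ := fun g => by
      obtain ⟨x, hx⟩ := hsurj (g : X ⧸ Z)
      exact ⟨⟨x, (SetLike.ext_iff.1 hN x).1 (show φ x ∈ _ by rw [hx]; exact g.2)⟩, Subtype.ext hx⟩
    refine exists_split T H D hHel hHT (hDK.trans hKT) ?_ ?_ ?_ (π.comp ψ) (hπ.comp hψ) ?_
    · rw [eq_bot_iff]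
      intro y hy
      exact hDH.le ⟨hy.1, hy.2, hDK hy.1⟩
    · rw [← hsup]
      refine sup_le le_sup_right (hD.trans (sup_le le_sup_left (inf_le_left.trans le_sup_right)))
    · rw [← hN]
      intro t ht
      exact hTN (Subgroup.mem_map_of_mem φ ht)
    · intro g
      rw [MonoidHom.comp_apply, hπk]
      exact SetLike.ext_iff.1 hHc (g : X)
  exact ⟨hHel, hKel, hcenter, hsplit H K hHT hKT hHel hKel hsup hHc a2 π hπ hπk,
    hsplit K H hKT hHT hKel hHel (by rw [sup_comm, hsup]) hKc b2 π' hπ' hπk'⟩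

end Cfsg.Agent.S3154
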