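import Cfsg.Statements.S3155
import Mathlib

set_option autoImplicit false
open Cfsg

namespace Cfsg.Agent.S3155

open Matrix in
theorem core (f : (Fin 3 → ZMod 4) →+ (Fin 3 → ZMod 4)) : ¬ ∀ v, f (f v) = -v := by
  intro h
  let L := f.toZModLinearMap 4
  have hL : L ∘ₗ L = -LinearMap.id := LinearMap.ext fun v => h v
  have hd := congrArg LinearMap.det hL
  rw [LinearMap.det_comp] at hd
  have h2 : LinearMap.det (-LinearMap.id : (Fin 3 → ZMod 4) →ₗ[ZMod 4] _) = -1 := by
    rw [← LinearMap.det_toMatrix', map_neg, LinearMap.toMatrix'_id, Matrix.det_neg, Matrix.det_one]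
    simp [pow_succ]
  rw [h2] at hd
  revert hd
  generalize LinearMap.det L = d
  revert d
  decide

/-- Let B be the direct product of three cyclic groups of order 4. Then the automorphism of B inverting every element is not the square of any automorphism of B. -/
theorem result {B : Type*} [CommGroup B] [Finite B] (hB : Nonempty (B ≃* Multiplicative (ZMod 4 × ZMod 4 × ZMod 4)))
    (τ : B ≃* B) : τ.trans τ ≠ MulEquiv.inv B := by
  intro h
  obtain ⟨e⟩ := hB
  let E : Additive B ≃+ (Fin 3 → ZMod 4) :=
    (MulEquiv.toAdditiveLeft e).trans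
      { toFun := fun p => ![p.1, p.2.1, p.2.2]
        invFun := fun v => (v 0, v 1, v 2)
        left_inv := fun p => rfl
        right_inv := fun v => by funext i; fin_cases i <;> rfl
        map_add' := fun p q => by funext i; fin_cases i <;> rfl }
  refine core ((E.symm.trans (MulEquiv.toAdditive τ)).trans E).toAddMonoidHom fun v => ?_
  have hb : ∀ b : B, τ (τ b) = b⁻¹ := fun b => by
    have := DFunLike.congr_fun h b
    simpa using this
  show E (Additive.ofMul (τ (Additive.toMul (E.symm (E (Additive.ofMul (τ (Additive.toMul (E.symm v))))))))) = -v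
  rw [E.symm_apply_apply, toMul_ofMul, hb, ofMul_inv, ofMul_toMul, map_neg, E.apply_symm_apply]

end Cfsg.Agent.S3155
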