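import Cfsg.Statements.S3156
import Cfsg.Agent.Lib.InvChar.UnitaryFourType

set_option autoImplicit false
open Cfsg

namespace Cfsg.Agent.S3156

/-- If a finite group T is isomorphic to a Sylow 2-subgroup of the projective special unitary group of dimension 3 with parameter 4 (realised over the field with 16 elements), then no subgroup of the automorphism group of T is isomorphic to the symmetric group of degree 3. -/
theorem result {T : Type*} [Group T] [Finite T] (hT : (∃ (F : Type) (_ : Field F) (_ : Fintype F), Fintype.card F = 16 ∧ ∃ S : Sylow 2 (Cfsg.PSU 3 F 4), Nonempty (T ≃* ↥(S : Subgroup (Cfsg.PSU 3 F 4))))) (H : Subgroup (MulAut T)) : ¬ Nonempty (↥H ≃* Equiv.Perm (Fin 3)) := by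
  obtain ⟨F, _, _, hF, S, ⟨f⟩⟩ := hT
  rintro ⟨e⟩
  have hU : CfsgLib.InvChar.SymThree.IsUnitaryType T :=
    CfsgLib.InvChar.SymThree.IsUnitaryType.of_equiv f
      (CfsgLib.InvChar.UnitaryFour.isUnitaryType hF S)
  set r : Equiv.Perm (Fin 3) := Equiv.swap 0 1 * Equiv.swap 1 2 with hr
  set s : Equiv.Perm (Fin 3) := Equiv.swap 0 1 with hs
  set ρ : MulAut T := (e.symm r : MulAut T) with hρdef
  set x : MulAut T := (e.symm s : MulAut T) with hxdef
  have hρ3' : ρ * (ρ * ρ) = 1 := by
    rw [hρdef, ← Subgroup.coe_mul, ← Subgroup.coe_mul, ← map_mul, ← map_mul,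
      show r * (r * r) = 1 by rw [hr]; decide, map_one, Subgroup.coe_one]
  have hx2 : x * x = 1 := by
    rw [hxdef, ← Subgroup.coe_mul, ← map_mul, show s * s = 1 by rw [hs]; decide, map_one,
      Subgroup.coe_one]
  have hsr : x * ρ = ρ * ρ * x := by
    rw [hρdef, hxdef, ← Subgroup.coe_mul, ← Subgroup.coe_mul, ← Subgroup.coe_mul, ← map_mul,
      ← map_mul, ← map_mul, show s * r = r * r * s by rw [hr, hs]; decide]
  have hρ1 : ρ ≠ 1 := fun h => by
    have h1 : e.symm r = 1 := Subtype.ext h
    have h2 : r = 1 := by simpa using congrArg e h1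
    exact absurd h2 (by rw [hr]; decide)
  refine CfsgLib.InvChar.SymThree.IsUnitaryType.no_inverting hU (ρ := ρ) (x := x) ?_ hρ1 ?_ ?_
  · intro y; simpa using DFunLike.congr_fun hρ3' y
  · intro y; simpa using DFunLike.congr_fun hx2 y
  · intro y; simpa using DFunLike.congr_fun hsr y

end Cfsg.Agent.S3156
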