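import Cfsg.Statements.S3157
import Cfsg.Agent.Lib.InvChar.SymThreeModel

set_option autoImplicit false
open Cfsg

namespace Cfsg.Agent.S3157

/-- Let T be a non-abelian group of order 64 admitting automorphisms ρ of order 3 and x of order 2 with x ρ x⁻¹ = ρ⁻¹ (so they generate a symmetric group of degree 3), where ρ fixes only the identity. Then T is isomorphic to a Sylow 2-subgroup of the projective special linear group of dimension 3 over the field with 4 elements, and the subgroup of fixed points of x is dihedral of order 8 or quaternion of order 8. -/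
theorem result {T : Type*} [Group T] [Finite T] (hT : Nat.card T = 64) (hna : ¬ IsMulCommutative T) (ρ x : MulAut T) (hρ : orderOf ρ = 3) (hx : orderOf x = 2)
    (hxr : x * ρ * x⁻¹ = ρ⁻¹) (hfp : ∀ y : T, ρ y = y → y = 1) (C : Subgroup T) (hC : ∀ y : T, y ∈ C ↔ x y = y) :
    (∃ (F : Type) (_ : Field F) (_ : Fintype F), Fintype.card F = 4 ∧
        ∃ S : Sylow 2 (Matrix.ProjectiveSpecialLinearGroup (Fin 3) F), Nonempty (T ≃* ↥(S : Subgroup (Matrix.ProjectiveSpecialLinearGroup (Fin 3) F)))) ∧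
      (Nonempty (↥C ≃* DihedralGroup 4) ∨ Nonempty (↥C ≃* QuaternionGroup 2)) := by
  have hρ3 : ∀ y, ρ (ρ (ρ y)) = y := fun y => by
    have h : ρ ^ 3 = 1 := hρ ▸ pow_orderOf_eq_one ρ
    simpa [pow_succ, MulAut.mul_apply] using DFunLike.congr_fun h y
  have hxx : ∀ y, x (x y) = y := fun y => by
    have h : x ^ 2 = 1 := hx ▸ pow_orderOf_eq_one x
    simpa [pow_succ, MulAut.mul_apply] using DFunLike.congr_fun h y
  have hxρ : ∀ y, x (ρ y) = ρ (ρ (x y)) := fun y => by
    have h : x * ρ = ρ⁻¹ * x := mul_inv_eq_iff_eq_mul.1 hxr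
    have h' := DFunLike.congr_fun h y
    simp only [MulAut.mul_apply] at h'
    rw [h']
    refine ρ.injective ?_
    rw [hρ3]
    exact ρ.apply_symm_apply _
  obtain ⟨c, hcZ, hc1, hxc⟩ :=
    CfsgLib.InvChar.SymThree.exists_c hT hna hρ3 hfp hxx hxρ
  have hCeq : C = CfsgLib.InvChar.SymThree.fixed x := Subgroup.ext fun y => hC y
  refine ⟨?_, ?_⟩
  · obtain ⟨u, v, hu, hv, hcm⟩ :=
      CfsgLib.InvChar.SymThree.exists_pair hT hna hρ3 hfp hxx hxρ hcZ hc1 hxc
    have : Fintype (GaloisField 2 2) := Fintype.ofFinite _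
    have hcard : Fintype.card (GaloisField 2 2) = 4 := by
      rw [← Nat.card_eq_fintype_card, GaloisField.card 2 2 (by norm_num)]; norm_num
    exact ⟨GaloisField 2 2, inferInstance, this, hcard,
      CfsgLib.InvChar.SymThree.exists_sylow_equiv hT hna hρ3 hfp hu hv hcm hc1 hcard⟩
  · subst hCeq
    exact CfsgLib.TwoGroups.dihedral_or_quaternion_of_card_eight
      (CfsgLib.InvChar.SymThree.card_fixed hT hna hρ3 hfp hxx hxρ hcZ hc1 hxc)
      (CfsgLib.InvChar.SymThree.fixed_not_comm hT hna hρ3 hfp hxx hxρ hcZ hc1 hxc)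

end Cfsg.Agent.S3157
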