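import Cfsg.Statements.S3161
import Cfsg.Agent.Lib.InvChar.FixedModels

set_option autoImplicit false
open Cfsg

namespace Cfsg.Agent.S3161

/-- Let Q be a non-abelian finite 2-group admitting commuting automorphisms α of order 2 and ρ of order 2^n − 1, where n ≥ 2, such that the fixed points of α form an elementary abelian subgroup of order 2^n on whose nonidentity elements the group generated by ρ acts transitively. Then Q is isomorphic to a Sylow 2-subgroup of the projective special unitary group of dimension 3 with parameter 2^n (realised over the field with 4^n elements) or of the projective special linear group of dimension 3 over the field with 2^n elements. -/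
theorem result {Q : Type*} [Group Q] [Finite Q] (hQ : IsPGroup 2 Q) (hna : ¬ IsMulCommutative Q) (n : ℕ) (hn : 2 ≤ n)
    (α ρ : MulAut Q) (hα : orderOf α = 2) (hρ : orderOf ρ = 2 ^ n - 1) (hc : Commute α ρ)
    (C : Subgroup Q) (hC : ∀ x : Q, x ∈ C ↔ α x = x) (hCE : Cfsg.IsElementaryAbelian 2 C ∧ Nat.card ↥C = 2 ^ n)
    (htr : ∀ x y : Q, x ∈ C → y ∈ C → x ≠ 1 → y ≠ 1 → ∃ k : ℕ, (ρ ^ k) x = y) :
    (∃ (F : Type) (_ : Field F) (_ : Fintype F), Fintype.card F = 4 ^ n ∧
        ∃ S : Sylow 2 (Cfsg.PSU 3 F (2 ^ n)), Nonempty (Q ≃* ↥(S : Subgroup (Cfsg.PSU 3 F (2 ^ n))))) ∨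
      (∃ (F : Type) (_ : Field F) (_ : Fintype F), Fintype.card F = 2 ^ n ∧
        ∃ S : Sylow 2 (Matrix.ProjectiveSpecialLinearGroup (Fin 3) F), Nonempty (Q ≃* ↥(S : Subgroup (Matrix.ProjectiveSpecialLinearGroup (Fin 3) F)))) := by
  classical
  haveI : Fact (Nat.Prime 2) := ⟨Nat.prime_two⟩
  have hq4 : 2 < 2 ^ n :=
    lt_of_lt_of_le (by norm_num) (Nat.pow_le_pow_right two_pos hn)
  have hCfix : C = CfsgLib.InvChar.FixedLayers.fix α := Subgroup.ext fun x => hC x
  have h : CfsgLib.InvChar.FixedLayers.Hyp Q (2 ^ n) α ρ := by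
    refine ⟨inferInstance, hQ, fun x => ?_, fun x => DFunLike.congr_fun hc.eq x, ?_, fun x hx => ?_, ?_,
      hq4, fun x hx y hy => htr x y ((hC x).2 hx) ((hC y).2 hy)⟩
    · have := pow_orderOf_eq_one α
      rw [hα, sq] at this
      exact DFunLike.congr_fun this x
    · rw [← hρ, pow_orderOf_eq_one]
    · rw [← sq, hCE.1.2 x ((hC x).2 hx)]
    · rw [← hCfix, hCE.2]
  have hna' : ∃ x y : Q, x * y ≠ y * x := by
    by_contra hall
    push Not at hall
    exact hna ⟨⟨hall⟩⟩
  let F := GaloisField 2 n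
  letI : Fintype F := Fintype.ofFinite F
  have hF : Nat.card F = 2 ^ n := GaloisField.card 2 n (by omega)
  obtain ⟨ω, lg, hcrd⟩ := CfsgLib.InvChar.FixedLayers.exists_crd (F := F) h hF
  obtain ⟨A, B, e, lam, he, hAm, hBm, hsurj, hfix, hsq, hform⟩ :=
    CfsgLib.InvChar.FixedLayers.exists_form_of_nonabelian hF h hcrd hna'
  have hFc : Fintype.card F = 2 ^ n := by rw [← Nat.card_eq_fintype_card, hF]
  by_cases hr : ∃ r : F, r ^ 2 + r + lam = 0
  · obtain ⟨r, hr⟩ := hr
    obtain ⟨i⟩ := CfsgLib.InvChar.FixedLayers.nonempty_equiv_heis h hcrd A B e lam r hr he hAm hBm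
      hsurj hfix hsq hform
    obtain ⟨S, ⟨k⟩⟩ := CfsgLib.InvChar.FixedLayers.Heis.exists_sylow_psl (n := n) (by omega) hFc
    exact Or.inr ⟨F, inferInstance, inferInstance, hFc, S, ⟨i.trans k⟩⟩
  · push Not at hr
    let K := GaloisField 2 (2 * n)
    letI : Fintype K := Fintype.ofFinite K
    have hK : Nat.card K = (2 ^ n) ^ 2 := by
      rw [GaloisField.card 2 (2 * n) (by omega), ← pow_mul, mul_comm]
    obtain ⟨σ, hU⟩ := CfsgLib.Amalgams.exists_uniField hK
    obtain ⟨j⟩ : Nonempty (F →ₐ[ZMod 2] K) := FiniteField.nonempty_algHom_of_finrank_dvd (by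
      rw [GaloisField.finrank 2 (by omega), GaloisField.finrank 2 (by omega)]
      exact dvd_mul_left _ _)
    obtain ⟨i⟩ := CfsgLib.InvChar.FixedLayers.nonempty_equiv_ut hU hF j.toRingHom h hcrd A B e lam
      hr he hAm hBm hsurj hfix hsq hform
    obtain ⟨S⟩ := Sylow.nonempty (p := 2) (G := Cfsg.PSU 3 K (2 ^ n))
    obtain ⟨k⟩ := CfsgLib.SharplyEven.UnitarySylow.nonempty_sylow_psu (hσσ := hU.conj_conj) hU
      (by omega) rfl S
    refine Or.inl ⟨K, inferInstance, inferInstance, ?_, S, ⟨i.trans k⟩⟩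
    rw [← Nat.card_eq_fintype_card, hK, show (4 : ℕ) = 2 ^ 2 by norm_num, ← pow_mul, ← pow_mul,
      mul_comm]

end Cfsg.Agent.S3161
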