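import Cfsg.Statements.S3162
import Cfsg.Agent.Lib.InvChar.AutUnitaryEven

set_option autoImplicit false
open Cfsg

namespace Cfsg.Agent.S3162

/-- Let S be a Sylow 2-subgroup of the special unitary group of dimension 3 with parameter q = 2^n (n ≥ 2; realised over the field with q² elements). Then the largest normal 2-subgroup of the automorphism group of S is elementary abelian of order 2^(2n²), and the automorphism group has order 2^(2n²) · 2n(q² − 1). -/
theorem result {S : Type*} [Group S] [Finite S] (n : ℕ) (hn : 2 ≤ n) {F : Type*} [Field F] [Fintype F] (hF : Fintype.card F = 4 ^ n)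
    (P : Sylow 2 ↥(Cfsg.SU 3 F (2 ^ n))) (hS : Nonempty (S ≃* ↥(P : Subgroup ↥(Cfsg.SU 3 F (2 ^ n))))) :
    Cfsg.IsElementaryAbelian 2 (Cfsg.pCore 2 (MulAut S)) ∧ Nat.card ↥(Cfsg.pCore 2 (MulAut S)) = 2 ^ (2 * n ^ 2) ∧
      Nat.card (MulAut S) = 2 ^ (2 * n ^ 2) * (2 * n * ((2 ^ n) ^ 2 - 1)) := by
  obtain ⟨f⟩ := hS
  have hn1 : 1 ≤ n := by omega
  have : CharP F 2 := CfsgLib.InvChar.UnitaryEven.charP_two hn1 hF
  let _ : Algebra (ZMod 2) F := ZMod.algebra F 2
  obtain ⟨e, he⟩ := CfsgLib.InvChar.UnitaryEven.exists_param hn1 hF P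
  have he' : ∀ p r : CfsgLib.InvChar.UnitaryEven.Param F n,
      (e.trans f.symm.toEquiv) p * (e.trans f.symm.toEquiv) r = (e.trans f.symm.toEquiv)
        ⟨CfsgLib.InvChar.UnitaryEven.op n p.1 r.1,
          CfsgLib.InvChar.UnitaryEven.op_mem hn1 hF p.2 r.2⟩ := fun p r => by
    show f.symm (e p) * f.symm (e r) = f.symm (e _)
    rw [← map_mul, he]
  obtain ⟨h1, h2⟩ := CfsgLib.InvChar.UnitaryEven.pCore_aut hn1 hF _ he'
  exact ⟨h1, h2, CfsgLib.InvChar.UnitaryEven.card_aut hn1 hF _ he'⟩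

end Cfsg.Agent.S3162
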