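import Cfsg.Statements.S3171
import Cfsg.Agent.Lib.InvChar.MTwentyFourSylow

set_option autoImplicit false
open Cfsg

namespace Cfsg.Agent.S3171

/-- Let P be a Sylow 2-subgroup of the Mathieu group of degree 24 and S the quotient of P by its centre. Then the centre of every maximal subgroup of S has order at most 8; S has an elementary abelian subgroup of order 64; and S has only one abelian subgroup of order 64. -/
theorem result (P : Sylow 2 ↥Cfsg.M24) :
    (∀ M : Subgroup (↥(P : Subgroup ↥Cfsg.M24) ⧸ Subgroup.center ↥(P : Subgroup ↥Cfsg.M24)), IsCoatom M →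
        Nat.card ↥(Subgroup.center ↥M) ≤ 8) ∧
      (∃ A : Subgroup (↥(P : Subgroup ↥Cfsg.M24) ⧸ Subgroup.center ↥(P : Subgroup ↥Cfsg.M24)),
        Cfsg.IsElementaryAbelian 2 A ∧ Nat.card ↥A = 64) ∧
      ∀ A B : Subgroup (↥(P : Subgroup ↥Cfsg.M24) ⧸ Subgroup.center ↥(P : Subgroup ↥Cfsg.M24)),
        IsMulCommutative ↥A → Nat.card ↥A = 64 → IsMulCommutative ↥B → Nat.card ↥B = 64 → A = B := by
  obtain ⟨A, h⟩ := CfsgLib.InvChar.MTwentyFour.exists_sixtyFourData P
  exact ⟨fun M hM => h.card_center_coatom hM, ⟨A, h.elem, h.card_A⟩,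
    fun B C hB hB64 hC hC64 => (h.abelian_eq hB hB64).trans (h.abelian_eq hC hC64).symm⟩

end Cfsg.Agent.S3171
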