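import Cfsg.Statements.S3174
import Cfsg.Agent.Lib.InvChar.Basic
import Cfsg.Agent.Lib.CoreFree.Rudvalis.Form

set_option autoImplicit false
open Cfsg
open CfsgLib.InvChar

namespace Cfsg.Agent.S3174

/-- Let T be a finite 2-group of order at least 2^14 in which the fourth term of the upper central series has order 16. Let W be the centralizer in T of the third term Z₃(T), and suppose the Frattini subgroup of W has order at most 8 and lies in every subgroup of W of index at most 16. Then T has order exactly 2^14; the derived subgroup of W and the Frattini subgroup of W both equal Z₃(T), which is elementary abelian of order 8; the centre of W has order 8; W is normal in T with quotient dihedral of order 8; and W modulo its derived subgroup is elementary abelian of order 2^8. -/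
theorem result {T : Type*} [Group T] [Finite T]
    (hT : IsPGroup 2 T) (ha : 2 ^ 14 ≤ Nat.card T) (hb : Nat.card ↥(Subgroup.upperCentralSeries T 4) = 16)
    (W : Subgroup T) (hW : W = Subgroup.centralizer ((Subgroup.upperCentralSeries T 3 : Subgroup T) : Set T))
    (hc : Nat.card ↥(frattini ↥W) ≤ 8) (hd : ∀ U : Subgroup ↥W, U.index ≤ 16 → frattini ↥W ≤ U) :
    Nat.card T = 2 ^ 14 ∧
      (commutator ↥W).map W.subtype = Subgroup.upperCentralSeries T 3 ∧
      (frattini ↥W).map W.subtype = Subgroup.upperCentralSeries T 3 ∧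
      Nat.card ↥(Subgroup.center ↥W) = 8 ∧
      Nat.card ↥(Subgroup.upperCentralSeries T 3) = 8 ∧ (∀ z ∈ Subgroup.upperCentralSeries T 3, z ^ 2 = 1) ∧
      (∃ (_ : W.Normal), Nonempty (T ⧸ W ≃* DihedralGroup 4)) ∧
      Nat.card (↥W ⧸ commutator ↥W) = 2 ^ 8 ∧ (∀ x : ↥W ⧸ commutator ↥W, x ^ 2 = 1) := by
  have h : CfsgLib.CoreFree.Rudvalis.Hyp T W := ⟨hT, ha, hb, hW, hc, hd⟩
  have hcard3 : Nat.card ↥(Subgroup.upperCentralSeries T 3) = 8 := h.card_Z (i := 3) (by norm_num)
  have hcom : Nat.card ↥(commutator ↥W) = 8 := by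
    rw [Nat.card_congr ((commutator ↥W).equivMapOfInjective W.subtype W.subtype_injective).toEquiv, h.comm_map]
    exact hcard3
  refine ⟨h.sizes.2.2.2, h.comm_map, h.sizes.1, ?_, hcard3, fun z hz => by rw [pow_two]; exact h.Z3_sq hz,
    h.quotient_dihedral, ?_, ?_⟩
  · rw [Nat.card_congr ((Subgroup.center ↥W).equivMapOfInjective W.subtype W.subtype_injective).toEquiv, h.center_map]
    exact hcard3
  · have h1 := (commutator ↥W).card_mul_index
    rw [hcom, h.sizes.2.2.1, Subgroup.index_eq_card] at h1
    norm_num at h1 ⊢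
    omega
  · intro x
    obtain ⟨w, rfl⟩ := QuotientGroup.mk_surjective x
    rw [← QuotientGroup.mk_pow, QuotientGroup.eq_one_iff]
    obtain ⟨u, hu, hu'⟩ := h.comm_map.ge (h.sq_mem w.2)
    have : u = w ^ 2 := Subtype.ext (by rw [Subgroup.coe_pow, pow_two]; exact hu')
    rwa [← this]

end Cfsg.Agent.S3174
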