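import Cfsg.Statements.S3175
import Cfsg.Agent.Lib.InvChar.Basic
import Cfsg.Agent.Lib.CoreFree.Rudvalis.Weak

set_option autoImplicit false
open Cfsg
open CfsgLib.InvChar

namespace Cfsg.Agent.S3175

/-- Let G be a finite group whose Sylow 2-subgroup T has order at least 2^14 and whose upper central series has fourth term of order 16; let W be the centralizer in T of the third term, and suppose the Frattini subgroup of W has order at most 8 and lies in every subgroup of W of index at most 16. Then the normalizer of T in G has a normal 2-complement, and W is weakly closed in T with respect to G. -/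
theorem result {G : Type*} [Group G] [Finite G]
    (T : Sylow 2 G) (ha : 2 ^ 14 ≤ Nat.card ↥(T : Subgroup G))
    (hb : Nat.card ↥(Subgroup.upperCentralSeries ↥(T : Subgroup G) 4) = 16)
    (W : Subgroup ↥(T : Subgroup G))
    (hW : W = Subgroup.centralizer ((Subgroup.upperCentralSeries ↥(T : Subgroup G) 3 : Subgroup ↥(T : Subgroup G)) : Set ↥(T : Subgroup G)))
    (hc : Nat.card ↥(frattini ↥W) ≤ 8)
    (hd : ∀ U : Subgroup ↥W, U.index ≤ 16 → frattini ↥W ≤ U) :
    Cfsg.HasNormalPComplement 2 ↥(Subgroup.normalizer ((T : Subgroup G) : Set G)) ∧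
      Cfsg.IsWeaklyClosed (W.map (T : Subgroup G).subtype) (T : Subgroup G) := by
  classical
  haveI : Fact (Nat.Prime 2) := ⟨Nat.prime_two⟩
  have h : CfsgLib.CoreFree.Rudvalis.Hyp (T : Subgroup G) W := ⟨T.isPGroup', ha, hb, hW, hc, hd⟩
  constructor
  · set N := Subgroup.normalizer ((T : Subgroup G) : Set G) with hN
    let P : Sylow 2 N := T.subtype Subgroup.le_normalizer
    haveI : (P : Subgroup N).Normal := by
      show ((T : Subgroup G).subgroupOf N).Normal
      exact Subgroup.normal_in_normalizer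
    have hcop : Nat.Coprime (Nat.card (P : Subgroup N)) (P : Subgroup N).index := P.card_coprime_index
    obtain ⟨H, hH⟩ := Subgroup.exists_right_complement'_of_coprime hcop
    have hHcent : ∀ k ∈ H, ∀ t ∈ (P : Subgroup N), k * t = t * k := by
      intro k hk t ht
      have hodd : Odd (orderOf k) := by
        rw [← Nat.not_even_iff_odd, even_iff_two_dvd]
        intro h2
        have h3 : 2 ∣ (P : Subgroup N).index := by rw [hH.symm.index_eq_card]; exact h2.trans (H.orderOf_dvd_natCard hk)
        exact P.not_dvd_index h3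
      let α : (T : Subgroup G) ≃* (T : Subgroup G) :=
        { toFun := fun x => ⟨(k : G) * x * (k : G)⁻¹, (Subgroup.mem_normalizer_iff.1 k.2 x).1 x.2⟩
          invFun := fun x => ⟨(k : G)⁻¹ * x * (k : G), (Subgroup.mem_normalizer_iff''.1 k.2 x).1 x.2⟩
          left_inv := fun x => Subtype.ext (by simp [mul_assoc])
          right_inv := fun x => Subtype.ext (by simp [mul_assoc])
          map_mul' := fun x y => Subtype.ext (by simp [mul_assoc]) }
      have hpow : ∀ (n : ℕ) x, ((((⇑α))^[n] x : (T : Subgroup G)) : G) = (k : G) ^ n * x * ((k : G) ^ n)⁻¹ := by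
        intro n x
        induction n with
        | zero => simp
        | succ n ih =>
          rw [Function.iterate_succ_apply']
          show (k : G) * _ * (k : G)⁻¹ = _
          rw [ih, pow_succ']
          simp only [mul_inv_rev, mul_assoc]
      have hfix := h.aut_trivial α hodd (fun x => Subtype.ext (by
        rw [hpow, ← Subgroup.coe_pow, pow_orderOf_eq_one]; simp)) ⟨(t : G), ht⟩
      exact Subtype.ext (mul_inv_eq_iff_eq_mul.1 (congrArg Subtype.val hfix))
    refine ⟨P, H, ⟨fun k hk g => ?_⟩, hH.symm⟩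
    obtain ⟨⟨⟨t, ht⟩, ⟨m, hm⟩⟩, rfl⟩ := (Subgroup.IsComplement.existsUnique hH g).exists
    show t * m * k * (t * m)⁻¹ ∈ H
    have hmk : m * k * m⁻¹ ∈ H := H.mul_mem (H.mul_mem hm hk) (H.inv_mem hm)
    rw [show t * m * k * (t * m)⁻¹ = t * (m * k * m⁻¹) * t⁻¹ by group, ← hHcent _ hmk t ht, mul_inv_cancel_right]
    exact hmk
  · refine ⟨Subgroup.map_subtype_le W, fun g hg => ?_⟩
    have hmem : ∀ w : W, g * ((w : (T : Subgroup G)) : G) * g⁻¹ ∈ (T : Subgroup G) := fun w =>
      hg ⟨_, ⟨(w : (T : Subgroup G)), w.2, rfl⟩, by simp⟩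
    let ι : W →* (T : Subgroup G) := MonoidHom.mk' (fun w => ⟨g * ((w : (T : Subgroup G)) : G) * g⁻¹, hmem w⟩)
      fun v w => Subtype.ext (by simp [mul_assoc])
    have hι : Function.Injective ι := fun v w e => by
      have e1 := congrArg (fun x : (T : Subgroup G) => (x : G)) e
      exact Subtype.ext (Subtype.ext (mul_left_cancel (mul_right_cancel e1)))
    have hZc : ∀ x : (T : Subgroup G), ∀ hx : x ∈ Subgroup.upperCentralSeries (T : Subgroup G) 3,
        (⟨x, h.Z3_le hx⟩ : W) ∈ Subgroup.center W := fun x hx =>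
      Subgroup.mem_center_iff.2 fun v => Subtype.ext (h.comm_Z3 v.2 hx)
    have hV : ι.range = W := by
      refine h.eq_W ι.range ((Subgroup.center W).map ι) ?_ ?_ ?_ ?_ ?_
      · rw [← Nat.card_congr (MonoidHom.ofInjective hι).toEquiv, h.sizes.2.2.1]
      · intro x
        constructor
        · rintro ⟨u, hu, rfl⟩
          refine ⟨⟨u, rfl⟩, ?_⟩
          rintro _ ⟨v, rfl⟩
          rw [← map_mul, ← map_mul, Subgroup.mem_center_iff.1 hu v]
        · rintro ⟨⟨u, rfl⟩, hu⟩
          refine ⟨u, Subgroup.mem_center_iff.2 fun v => hι ?_, rfl⟩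
          rw [map_mul, map_mul]
          exact hu _ ⟨v, rfl⟩
      · rw [← Nat.card_congr ((Subgroup.center W).equivMapOfInjective ι hι).toEquiv,
          Nat.card_congr ((Subgroup.center W).equivMapOfInjective W.subtype W.subtype_injective).toEquiv, h.center_map]
        exact (h.card_Z (i := 3) (by norm_num)).le
      · rintro _ ⟨v, rfl⟩
        exact ⟨v * v, hZc _ (h.sq_mem v.2), map_mul ι v v⟩
      · rintro _ ⟨u, rfl⟩ _ ⟨v, rfl⟩
        exact ⟨u * v * u⁻¹ * v⁻¹, hZc _ (h.comm_mem_Z3 u.2 v.2), by simp only [map_mul, map_inv]⟩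
    have h1 : ι.range.map (T : Subgroup G).subtype = (W.map (T : Subgroup G).subtype).map (MulAut.conj g).toMonoidHom := by
      ext x
      constructor
      · rintro ⟨_, ⟨w, rfl⟩, rfl⟩
        exact ⟨_, ⟨(w : (T : Subgroup G)), w.2, rfl⟩, rfl⟩
      · rintro ⟨_, ⟨w, hw, rfl⟩, rfl⟩
        exact ⟨_, ⟨⟨w, hw⟩, rfl⟩, rfl⟩
    rw [← h1, hV]

end Cfsg.Agent.S3175
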