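import Cfsg.Statements.S3178
import Cfsg.Agent.Lib.InvChar.Transfer
import Cfsg.Agent.Lib.CoreFree.Constrained
import Cfsg.Agent.Lib.TwoGroups.Basic

set_option autoImplicit false
open Cfsg
open CfsgLib.InvChar

namespace Cfsg.Agent.S3178

/-- Groups with a modular Sylow 2-subgroup have a normal 2-complement. Let S, of order 2^(n+1) with n ≥ 3, be a Sylow 2-subgroup of a finite group G, and suppose S contains an element a of order 2^n and an involution b with b a b⁻¹ = a^(2^(n-1) + 1); so S is the non-abelian 2-group with a cyclic subgroup of index 2 that is neither dihedral, semidihedral nor generalized quaternion. Then G has a normal 2-complement. -/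
theorem result {G : Type*} [Group G] [Finite G]
    (S : Sylow 2 G) (n : ℕ) (hn : 3 ≤ n) (hS : Nat.card ↥(S : Subgroup G) = 2 ^ (n + 1))
    (a b : G) (ha : a ∈ (S : Subgroup G)) (hb : b ∈ (S : Subgroup G))
    (hao : orderOf a = 2 ^ n) (hbo : orderOf b = 2) (hrel : b * a * b⁻¹ = a ^ (2 ^ (n - 1) + 1)) :
    Cfsg.HasNormalPComplement 2 G := by
  classical
  haveI : Fact (Nat.Prime 2) := ⟨Nat.prime_two⟩
  have hb2 : b * b = 1 := by rw [← pow_two, ← hbo]; exact pow_orderOf_eq_one b
  have hbinv : b⁻¹ = b := inv_eq_of_mul_eq_one_right hb2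
  obtain ⟨d, rfl⟩ : ∃ d, n = d + 3 := ⟨n - 3, by omega⟩
  rw [show d + 3 - 1 = d + 2 by omega] at hrel
  set r : ℕ := 2 ^ (d + 2) + 1
  have hconj : ∀ i : ℕ, b * a ^ i * b⁻¹ = a ^ (r * i) := by
    intro i; rw [← conj_pow, hrel, pow_mul]
  have hone : ∀ i : ℕ, a ^ i = 1 ↔ 2 ^ (d + 3) ∣ i := fun i => by rw [← hao, orderOf_dvd_iff_pow_eq_one]
  have hsqfix : ∀ i : ℕ, b * a ^ (2 * i) * b⁻¹ = a ^ (2 * i) := by
    intro i
    rw [hconj, show r * (2 * i) = 2 * i + 2 ^ (d + 3) * i by simp only [r]; rw [show d + 3 = (d + 2) + 1 by omega, pow_succ]; ring,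
      pow_add, show a ^ (2 ^ (d + 3) * i) = 1 from (hone _).2 (dvd_mul_right _ _), mul_one]
  have hba : ∀ i : ℕ, Commute b (a ^ (2 * i)) := fun i => mul_inv_eq_iff_eq_mul.1 (hsqfix i)
  -- the elements of `S`
  have hbA : b ∉ Subgroup.zpowers a := by
    intro hm
    obtain ⟨i, rfl⟩ := Subgroup.mem_zpowers_iff.1 hm
    have h1 : a ^ i * a * (a ^ i)⁻¹ = a := by group
    rw [h1] at hrel
    have h2 : a ^ (2 ^ (d + 2)) = 1 := mul_eq_right.1 ((pow_succ a _).symm.trans hrel.symm)
    rw [hone, Nat.pow_dvd_pow_iff_le_right (by norm_num)] at h2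
    omega
  have hforms : ∀ s ∈ (S : Subgroup G), ∃ i : ℕ, s = a ^ i ∨ s = a ^ i * b := by
    intro s hs
    have hcS : Nat.card ↥(S : Subgroup G) = 2 * orderOf (⟨a, ha⟩ : ↥(S : Subgroup G)) := by
      rw [Subgroup.orderOf_mk, hao, hS, pow_succ]; ring
    have hbn : (⟨b, hb⟩ : ↥(S : Subgroup G)) ∉ Subgroup.zpowers (⟨a, ha⟩ : ↥(S : Subgroup G)) := by
      intro hm
      obtain ⟨i, hi⟩ := Subgroup.mem_zpowers_iff.1 hm
      exact hbA ⟨i, by simpa using congrArg Subtype.val hi⟩
    have conv : ∀ k : ℤ, ∃ i : ℕ, a ^ k = a ^ i := fun k => by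
      obtain ⟨i, hi⟩ := ((isOfFinOrder_of_finite a).mem_zpowers_iff_mem_range_orderOf.1 ⟨k, rfl⟩) |> Finset.mem_image.1
      exact ⟨i, hi.2.symm⟩
    rcases CfsgLib.TwoGroups.exists_eq_zpow_or_zpow_mul hcS hbn ⟨s, hs⟩ with ⟨k, hk⟩ | ⟨k, hk⟩
    · obtain ⟨i, hi⟩ := conv k
      exact ⟨i, Or.inl (by rw [← hi]; simpa using congrArg Subtype.val hk)⟩
    · obtain ⟨i, hi⟩ := conv k
      exact ⟨i, Or.inr (by rw [← hi]; simpa using congrArg Subtype.val hk)⟩
  let M : Subgroup G :=
    { carrier := {g | ∃ i : ℕ, g = a ^ (2 * i) ∨ g = a ^ (2 * i) * b}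
      one_mem' := ⟨0, Or.inl (by simp)⟩
      mul_mem' := by
        rintro x y ⟨i, rfl | rfl⟩ ⟨j, rfl | rfl⟩
        · exact ⟨i + j, Or.inl (by rw [← pow_add, mul_add])⟩
        · exact ⟨i + j, Or.inr (by rw [← mul_assoc, ← pow_add, mul_add])⟩
        · exact ⟨i + j, Or.inr (by rw [mul_assoc, (hba j).eq, ← mul_assoc, ← pow_add, mul_add])⟩
        · exact ⟨i + j, Or.inl (by rw [mul_assoc, ← mul_assoc b, (hba j).eq, mul_assoc, hb2, mul_one, ← pow_add, mul_add])⟩
      inv_mem' := by
        have hinv : ∀ i : ℕ, ∃ j : ℕ, (a ^ (2 * i))⁻¹ = a ^ (2 * j) := fun i => by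
          refine ⟨(2 ^ (d + 2)) * i - i, inv_eq_of_mul_eq_one_right ?_⟩
          have h1 : i ≤ 2 ^ (d + 2) * i := Nat.le_mul_of_pos_left i (by positivity)
          rw [← pow_add, show 2 * i + 2 * (2 ^ (d + 2) * i - i) = 2 * (2 ^ (d + 2) * i) by omega, hone]
          exact ⟨i, by rw [show d + 3 = d + 2 + 1 by omega, pow_succ]; ring⟩
        rintro x ⟨i, rfl | rfl⟩
        · obtain ⟨j, hj⟩ := hinv i; exact ⟨j, Or.inl hj⟩
        · obtain ⟨j, hj⟩ := hinv i
          exact ⟨j, Or.inr (by rw [mul_inv_rev, hbinv, hj, (hba j).eq])⟩ }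
  have hMS : M ≤ (S : Subgroup G) := by
    rintro x ⟨i, rfl | rfl⟩
    · exact pow_mem ha _
    · exact mul_mem (pow_mem ha _) hb
  have hMpow : ∀ x ∈ M, x ^ 2 ^ (d + 2) = 1 := by
    rintro x ⟨i, rfl | rfl⟩
    · rw [← pow_mul, hone]; exact ⟨i, by rw [show d + 3 = d + 2 + 1 by omega, pow_succ]; ring⟩
    · rw [((hba i).symm).mul_pow, ← pow_mul, show 2 ^ (d + 2) = 2 * 2 ^ (d + 1) by rw [pow_succ, mul_comm],
        pow_mul b, pow_two b, hb2, one_pow, mul_one, hone]
      exact ⟨i, by rw [show d + 3 = d + 1 + 1 + 1 by omega, pow_succ, pow_succ]; ring⟩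
  have hout : ∀ y ∈ (S : Subgroup G), y ∉ M → 2 ^ (d + 3 - 1) < orderOf y := by
    intro y hy hyM
    rw [show d + 3 - 1 = d + 2 by omega]
    by_contra hle
    rw [not_lt] at hle
    obtain ⟨k, hk⟩ := IsPGroup.iff_orderOf.1 S.2 ⟨y, hy⟩
    rw [Subgroup.orderOf_mk] at hk
    rw [hk, pow_le_pow_iff_right₀ (by norm_num : (1 : ℕ) < 2)] at hle
    have hy1 : y ^ 2 ^ (d + 2) = 1 := by
      rw [← orderOf_dvd_iff_pow_eq_one, hk]; exact pow_dvd_pow 2 hle
    obtain ⟨i, hi⟩ := hforms y hy
    obtain ⟨j, rfl⟩ : ∃ j, i = 2 * j + 1 := by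
      rcases Nat.even_or_odd i with ⟨j, rfl⟩ | h
      · exact absurd ⟨j, by rwa [two_mul]⟩ hyM
      · exact h
    rcases hi with rfl | rfl
    · rw [← pow_mul, hone, show 2 ^ (d + 3) = 2 ^ (d + 2) * 2 from pow_succ 2 _, mul_comm (2 * j + 1)] at hy1
      have := Nat.dvd_of_mul_dvd_mul_left (by positivity) hy1
      omega
    · have hsq : (a ^ (2 * j + 1) * b) ^ 2 = a ^ ((2 * j + 1) * (r + 1)) := by
        rw [pow_two, mul_assoc, ← mul_assoc b]
        calc a ^ (2 * j + 1) * (b * a ^ (2 * j + 1) * b) = a ^ (2 * j + 1) * (b * a ^ (2 * j + 1) * b⁻¹) := by rw [hbinv]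
          _ = _ := by rw [hconj, ← pow_add]; ring_nf
      rw [show 2 ^ (d + 2) = 2 * 2 ^ (d + 1) by rw [pow_succ, mul_comm], pow_mul, hsq, ← pow_mul, hone] at hy1
      have e : (2 * j + 1) * (r + 1) * 2 ^ (d + 1) = 2 ^ (d + 2) * ((2 * j + 1) * (2 ^ (d + 1) + 1)) := by
        simp only [r]; rw [show d + 2 = d + 1 + 1 by omega, pow_succ]; ring
      rw [e, show 2 ^ (d + 3) = 2 ^ (d + 2) * 2 from pow_succ 2 _] at hy1
      have h2 := Nat.dvd_of_mul_dvd_mul_left (by positivity) hy1
      rcases (Nat.Prime.dvd_mul Nat.prime_two).1 h2 with h3 | h3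
      · omega
      · have : 2 ∣ 2 ^ (d + 1) := dvd_pow_self 2 (by omega)
        omega
  have haM : ∀ x ∈ M, orderOf x ≠ 2 ^ (d + 3) := by
    intro x hx e
    have h1 : orderOf x ∣ 2 ^ (d + 2) := orderOf_dvd_of_pow_eq_one (hMpow x hx)
    rw [e, Nat.pow_dvd_pow_iff_le_right (by norm_num)] at h1
    omega
  have haM' : a ∉ M := fun h => haM a h hao
  have hMi : M.relIndex (S : Subgroup G) = 2 := by
    rw [Subgroup.relIndex, Subgroup.index_eq_two_iff]
    refine ⟨⟨a, ha⟩, fun s => ?_⟩
    simp only [Subgroup.mem_subgroupOf, Subgroup.coe_mul]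
    obtain ⟨i, hi⟩ := hforms s s.2
    rcases Nat.even_or_odd i with ⟨j, rfl⟩ | ⟨j, rfl⟩
    · have hsM : (s : G) ∈ M := ⟨j, by rwa [two_mul]⟩
      exact Or.inr ⟨hsM, fun h => haM' (by simpa using M.mul_mem (M.inv_mem hsM) h)⟩
    · rcases hi with e | e
      · have h1 : (s : G) * a ∈ M := ⟨j + 1, Or.inl (by rw [e, ← pow_succ]; ring_nf)⟩
        exact Or.inl ⟨h1, fun h => haM' (by simpa using M.mul_mem (M.inv_mem h) h1)⟩
      · have h1 : (s : G) * a ∈ M := by
          refine ⟨j + 1 + 2 ^ (d + 1), Or.inr ?_⟩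
          have : b * a = a ^ r * b := by rw [← hrel]; group
          rw [e, mul_assoc, this, ← mul_assoc, ← pow_add]
          congr 2
          simp only [r]; rw [show d + 2 = d + 1 + 1 by omega, pow_succ]; ring
        exact Or.inl ⟨h1, fun h => haM' (by simpa using M.mul_mem (M.inv_mem h) h1)⟩
  obtain ⟨H, hHn, hH2, haH⟩ := CfsgLib.InvChar.exists_index_two_not_mem S M hMi (d + 3) (by omega) hout a ha hao
    (fun g h => haM _ h (by rw [← MulAut.conj_apply, MulEquiv.orderOf_eq, hao]))
  haveI := hHn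
  have hmul := fun {x y : G} => Subgroup.mul_mem_iff_of_index_two hH2 (a := x) (b := y)
  have hpow : ∀ i : ℕ, a ^ i ∈ H ↔ Even i := by
    intro i
    induction i with
    | zero => simp
    | succ i ih => rw [pow_succ, hmul, iff_false_intro haH, iff_false, ih, Nat.even_add_one]
  set P : Subgroup G := (S : Subgroup G) ⊓ H
  have hPi : (P.subgroupOf (S : Subgroup G)).index = 2 := by
    rw [Subgroup.index_eq_two_iff]
    refine ⟨⟨a, ha⟩, fun s => ?_⟩
    simp only [P, Subgroup.mem_subgroupOf, Subgroup.coe_mul, Subgroup.mem_inf, SetLike.coe_mem, true_and]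
    rw [hmul, iff_false_intro haH, iff_false]
    by_cases hs : (s : G) ∈ H
    · exact Or.inr ⟨hs, fun h => h.2 hs⟩
    · exact Or.inl ⟨⟨mul_mem s.2 ha, hs⟩, hs⟩
  have hPcard : Nat.card P = 2 ^ (d + 3) := by
    have h1 := (P.subgroupOf (S : Subgroup G)).index_mul_card
    rw [hPi, Nat.card_congr (Subgroup.subgroupOfEquivOfLe (inf_le_left : P ≤ (S : Subgroup G))).toEquiv, hS, pow_succ] at h1
    have h1' : 2 * Nat.card P = 2 ^ (d + 3) * 2 := h1
    omega
  -- `P` is a Sylow 2-subgroup of `H`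
  have hGcard : Nat.card G = 2 * Nat.card H := by rw [← hH2]; exact H.index_mul_card.symm
  have hP' : IsPGroup 2 (P.subgroupOf H) := (S.2.to_le inf_le_left).comap_subtype
  have hPndvd : ¬ 2 ∣ (P.subgroupOf H).index := by
    intro hd
    have h1 := (P.subgroupOf H).index_mul_card
    rw [Nat.card_congr (Subgroup.subgroupOfEquivOfLe (inf_le_right : P ≤ H)).toEquiv, hPcard] at h1
    have h2 := (S : Subgroup G).index_mul_card
    rw [hS, hGcard, ← h1] at h2
    have h3 : (S : Subgroup G).index = (P.subgroupOf H).index := by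
      refine Nat.eq_of_mul_eq_mul_right (by positivity : 0 < 2 ^ (d + 3 + 1)) ?_
      rw [h2, pow_succ]; ring
    exact S.not_dvd_index (h3 ▸ hd)
  let PS : Sylow 2 H := hP'.toSylow hPndvd
  have hPS : (PS : Subgroup H) = P.subgroupOf H := rfl
  have hcompl : ∃ N : Subgroup H, N.Normal ∧ N.IsComplement' (PS : Subgroup H) := by
    by_cases hbH : b ∈ H
    · -- `P = M` is abelian
      have hPM : P ≤ M := by
        rintro x ⟨hxS, hxH⟩
        replace hxH : x ∈ H := hxH
        obtain ⟨i, hi⟩ := hforms x hxS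
        have : Even i := by
          rcases hi with rfl | rfl
          · exact (hpow i).1 hxH
          · rw [hmul, iff_true_intro hbH, iff_true] at hxH; exact (hpow i).1 hxH
        obtain ⟨j, rfl⟩ := this
        exact ⟨j, by rwa [two_mul]⟩
      have hMc : ∀ x ∈ M, ∀ y ∈ M, x * y = y * x := by
        have hc : ∀ x ∈ M, Commute x b ∧ ∀ i, Commute x (a ^ (2 * i)) := by
          rintro x ⟨i, rfl | rfl⟩
          · exact ⟨(hba i).symm, fun j => (Commute.refl a).pow_pow _ _⟩
          · exact ⟨(hba i).symm.mul_left (Commute.refl b), fun j => Commute.mul_left ((Commute.refl a).pow_pow _ _) (hba j)⟩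
        rintro x hx y ⟨j, rfl | rfl⟩
        · exact ((hc x hx).2 j).eq
        · exact (((hc x hx).2 j).mul_right (hc x hx).1).eq
      refine ⟨_, inferInstance, MonoidHom.ker_transferSylow_isComplement' PS ?_⟩
      intro g hg
      rw [Subgroup.mem_centralizer_iff]
      -- the action of `g` on `P`
      have hgn : ∀ x ∈ P, (g : G) * x * (g : G)⁻¹ ∈ P := fun x hx =>
        ((Subgroup.mem_normalizer_iff.1 hg ⟨x, hx.2⟩).1 (hPS ▸ (Subgroup.mem_subgroupOf.2 hx)) :)
      let φ : G → G := fun x => (g : G) * x * (g : G)⁻¹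
      obtain ⟨k, m, hm, hkm⟩ := Nat.exists_eq_two_pow_mul_odd (orderOf_pos g).ne'
      have hgm : g ^ m ∈ (PS : Subgroup H) := by
        have h2 : IsPGroup 2 (Subgroup.zpowers (g ^ m)) := by
          refine IsPGroup.of_card (n := k) ?_
          rw [Nat.card_zpowers, orderOf_pow_of_dvd hm.pos.ne' (hkm ▸ dvd_mul_left _ _), hkm,
            Nat.mul_div_cancel _ hm.pos]
        have h3 := IsPGroup.to_sup_of_normal_right' h2 PS.2 (Subgroup.zpowers_le.2 (pow_mem hg m))
        exact (PS.is_maximal' h3 le_sup_right).le (Subgroup.mem_sup_left (Subgroup.mem_zpowers _))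
      have hiter : ∀ (j : ℕ) (x : G), φ^[j] x = (g : G) ^ j * x * ((g : G) ^ j)⁻¹ := by
        intro j x
        induction j with
        | zero => simp
        | succ j ih => rw [Function.iterate_succ_apply', ih]; simp only [φ]; rw [pow_succ']; group
      have hfix : ∀ x ∈ P, φ^[m] x = x := by
        intro x hx
        rw [hiter, ← SubgroupClass.coe_pow]
        have hgmP : ((g ^ m : H) : G) ∈ P := Subgroup.mem_subgroupOf.1 (hPS ▸ hgm)
        rw [hMc _ (hPM hgmP) x (hPM hx), mul_inv_cancel_right]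
      obtain ⟨l, hl⟩ := hm
      -- the involutions of `M`
      set z := a ^ (2 * 2 ^ (d + 1)) with hz
      have hz1 : z ≠ 1 := by
        rw [hz, Ne, hone, show 2 * 2 ^ (d + 1) = 2 ^ (d + 2) by ring,
          Nat.pow_dvd_pow_iff_le_right (by norm_num)]
        omega
      have hinvol : ∀ x ∈ M, x * x = 1 → x = 1 ∨ x = z ∨ x = b ∨ x = z * b := by
        rintro x ⟨i, hi⟩ hx
        have h4 : a ^ (2 * i) * a ^ (2 * i) = 1 := by
          rcases hi with rfl | rfl
          · exact hx
          · rw [mul_assoc, ← mul_assoc b, (hba i).eq, mul_assoc, hb2, mul_one] at hx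
            exact hx
        rw [← pow_add, hone] at h4
        obtain ⟨c, hc⟩ : 2 ^ (d + 1) ∣ i := by
          rw [show 2 * i + 2 * i = 2 ^ 2 * i by ring, show d + 3 = 2 + (d + 1) by omega, pow_add] at h4
          exact Nat.dvd_of_mul_dvd_mul_left (by norm_num) h4
        have hz2 : z ^ 2 = 1 := by
          rw [hz, ← pow_mul, hone]; exact ⟨1, by rw [show d + 3 = d + 1 + 1 + 1 by omega, pow_succ, pow_succ]; ring⟩
        have e : a ^ (2 * i) = z ^ (c % 2) := by
          rw [hc, ← mul_assoc, pow_mul, ← hz, ← Nat.mod_add_div c 2, pow_add, pow_mul z 2, hz2, one_pow, mul_one]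
          simp [Nat.add_mul_mod_self_left]
        rw [e] at hi
        rcases Nat.mod_two_eq_zero_or_one c with h0 | h0 <;> rw [h0] at hi <;> simp at hi <;> tauto
      have hb' : b ∈ P := ⟨hb, hbH⟩
      have hzmem : z ∈ P := ⟨pow_mem ha _, (hpow _).2 (even_two_mul _)⟩
      have hφz : φ z = z := by
        have h1 : φ z = (φ (a ^ 2)) ^ 2 ^ (d + 1) := by
          simp only [φ, hz]; rw [conj_pow, pow_mul]
        obtain ⟨i, hi⟩ := hPM (hgn (a ^ 2) ⟨pow_mem ha _, (hpow 2).2 even_two⟩)
        have h2 : φ z = a ^ (2 * i * 2 ^ (d + 1)) := by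
          rw [h1]
          rcases hi with e | e
          · simp only [φ]; rw [e, ← pow_mul]
          · simp only [φ]; rw [e, ((hba i).symm).mul_pow, ← pow_mul, show (2 : ℕ) ^ (d + 1) = 2 * 2 ^ d by rw [pow_succ, mul_comm],
              pow_mul b, pow_two b, hb2, one_pow, mul_one]
        have hz2 : z ^ 2 = 1 := by
          rw [hz, ← pow_mul, hone]; exact ⟨1, by rw [show d + 3 = d + 1 + 1 + 1 by omega, pow_succ, pow_succ]; ring⟩
        rw [show 2 * i * 2 ^ (d + 1) = 2 * 2 ^ (d + 1) * i by ring, pow_mul, ← hz, ← Nat.mod_add_div i 2, pow_add,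
          pow_mul z 2, hz2, one_pow, mul_one] at h2
        rcases Nat.mod_two_eq_zero_or_one i with h0 | h0
        · rw [h0, pow_zero] at h2
          exact absurd (conj_eq_one_iff.1 h2) hz1
        · rw [h0, pow_one] at h2; exact h2
      have hφinj : Function.Injective φ := fun x y e => mul_left_cancel (mul_right_cancel e)
      have hφb : φ b = b := by
        have hsq : φ b * φ b = 1 := by simp only [φ]; rw [conj_mul, hb2, mul_one, mul_inv_cancel]
        rcases hinvol _ (hPM (hgn b hb')) hsq with e | e | e | e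
        · exact absurd (conj_eq_one_iff.1 e) (fun e1 => hbA (e1 ▸ one_mem _))
        · exact absurd (hφinj (e.trans hφz.symm)) (fun e1 => hbA (e1 ▸ pow_mem (Subgroup.mem_zpowers a) _))
        · exact e
        · have e2 : φ^[2] b = b := by
            show φ (φ b) = b
            rw [show φ (φ b) = φ (z * b) from congrArg φ e]
            show φ (z * b) = b
            have : φ (z * b) = φ z * φ b := by simp only [φ]; rw [conj_mul]
            rw [this, hφz, show φ b = z * b from e, ← mul_assoc, ← pow_two]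
            rw [show z ^ 2 = 1 by rw [hz, ← pow_mul, hone]; exact ⟨1, by rw [show d + 3 = d + 1 + 1 + 1 by omega, pow_succ, pow_succ]; ring⟩, one_mul]
          have h5 := hfix b hb'
          rw [hl, Function.iterate_add_apply, Function.iterate_one, Function.iterate_mul] at h5
          have h6 : ∀ x, φ^[2] x = x → (φ^[2])^[l] x = x := fun x hx => Function.iterate_fixed hx l
          have e3 : φ^[2] (φ b) = φ b := congrArg φ e2
          rw [h6 _ e3] at h5
          exact h5
      -- by induction on the order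
      have hall : ∀ (j : ℕ), ∀ x ∈ P, x ^ 2 ^ j = 1 → φ x = x := by
        intro j
        induction j with
        | zero => intro x _ hx; rw [pow_zero, pow_one] at hx; subst hx; simp [φ]
        | succ j ih =>
          intro x hx hxj
          have h1 : φ (x * x) = x * x := ih _ (mul_mem hx hx) (by rw [← pow_two, ← pow_mul, mul_comm, ← pow_succ, hxj])
          set t := x⁻¹ * φ x with ht
          have hφxP : φ x ∈ P := hgn x hx
          have htP : t ∈ P := mul_mem (P.inv_mem hx) hφxP
          have ht2 : t * t = 1 := by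
            have hxx : φ x * φ x = x * x := by rw [← h1]; simp only [φ]; rw [conj_mul]
            have hc := hMc (φ x) (hPM hφxP) x⁻¹ (hPM (P.inv_mem hx))
            calc t * t = x⁻¹ * (φ x * x⁻¹) * φ x := by simp only [t]; group
              _ = x⁻¹ * (x⁻¹ * φ x) * φ x := by rw [hc]
              _ = x⁻¹ * x⁻¹ * (φ x * φ x) := by group
              _ = 1 := by rw [hxx]; group
          have hφt : φ t = t := by
            have hφone : φ 1 = 1 := by simp [φ]
            have hφzb : φ (z * b) = z * b := by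
              have : φ (z * b) = φ z * φ b := by simp only [φ]; rw [conj_mul]
              rw [this, hφz, hφb]
            rcases hinvol t (hPM htP) ht2 with e | e | e | e <;> rw [e] <;> assumption
          have hit : ∀ i : ℕ, φ^[i] x = x * t ^ i := by
            intro i
            induction i with
            | zero => simp
            | succ i ih2 =>
              rw [Function.iterate_succ_apply', ih2]
              have : φ (x * t ^ i) = φ x * φ t ^ i := by
                simp only [φ]; rw [conj_pow, conj_mul]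
              rw [this, hφt, pow_succ' t, ← mul_assoc]
              simp only [t]; group
          have h7 := hfix x hx
          rw [hit, hl, pow_succ, pow_mul, pow_two, ht2, one_pow, one_mul] at h7
          have : t = 1 := mul_eq_left.1 h7
          simp only [t] at this
          exact (inv_mul_eq_one.1 this).symm
      intro x hx
      have hxP : (x : G) ∈ P := Subgroup.mem_subgroupOf.1 (hPS ▸ hx)
      refine Subtype.ext ?_
      show (x : G) * g = g * x
      exact (mul_inv_eq_iff_eq_mul.1 (hall (d + 2) _ hxP (hMpow _ (hPM hxP)))).symm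
    · -- `P` is cyclic, generated by `a b`
      have habP : a * b ∈ P := ⟨mul_mem ha hb, (hmul).2 (by tauto)⟩
      have habord : orderOf (a * b) = 2 ^ (d + 3) := by
        have habM : a * b ∉ M := fun h => haM' (by simpa using M.mul_mem h (M.inv_mem ⟨0, Or.inr (by simp)⟩ : b⁻¹ ∈ M))
        have h1 := hout _ habP.1 habM
        have h2 : orderOf (a * b) ∣ 2 ^ (d + 3) := by
          rw [← hPcard, ← Nat.card_zpowers]; exact Subgroup.card_dvd_of_le (Subgroup.zpowers_le.2 habP)
        obtain ⟨k, hk, hk'⟩ := (Nat.dvd_prime_pow Nat.prime_two).1 h2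
        rw [hk', show d + 3 - 1 = d + 2 by omega, pow_lt_pow_iff_right₀ (by norm_num : (1 : ℕ) < 2)] at h1
        rw [hk']; congr 1; omega
      haveI : IsCyclic ↥(PS : Subgroup H) := by
        refine isCyclic_of_orderOf_eq_card (⟨⟨a * b, habP.2⟩, hPS ▸ Subgroup.mem_subgroupOf.2 habP⟩ : ↥(PS : Subgroup H)) ?_
        rw [Subgroup.orderOf_mk, Subgroup.orderOf_mk, habord, ← hPcard]
        exact (Nat.card_congr (Subgroup.subgroupOfEquivOfLe (inf_le_right : P ≤ H)).toEquiv).symm
      have hmin : (Nat.card H).minFac = 2 := by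
        refine le_antisymm (Nat.minFac_le_of_dvd le_rfl ?_) ((Nat.minFac_prime ?_).two_le)
        · have := (P.subgroupOf H).card_subgroup_dvd_card
          rw [Nat.card_congr (Subgroup.subgroupOfEquivOfLe (inf_le_right : P ≤ H)).toEquiv, hPcard] at this
          exact (dvd_pow_self 2 (by omega)).trans this
        · intro h1
          have := (P.subgroupOf H).card_subgroup_dvd_card
          rw [Nat.card_congr (Subgroup.subgroupOfEquivOfLe (inf_le_right : P ≤ H)).toEquiv, hPcard, h1, Nat.dvd_one,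
            Nat.pow_eq_one] at this
          omega
      exact ⟨_, inferInstance, IsCyclic.isComplement' hmin (inferInstance : IsCyclic ↥(PS : Subgroup H))⟩
  obtain ⟨N, hNn, hNc⟩ := hcompl
  haveI := hNn
  let N' : Subgroup G := N.map H.subtype
  have hNcard : Nat.card N' * 2 ^ (d + 3) = Nat.card H := by
    rw [Subgroup.card_map_of_injective H.subtype_injective, ← hNc.card_mul, ← hPcard]
    exact congrArg (Nat.card N * ·) (Nat.card_congr (Subgroup.subgroupOfEquivOfLe (inf_le_right : P ≤ H)).toEquiv).symm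
  have hNodd : Odd (Nat.card N) := by
    have h1 := hNc.index_eq_card
    rw [← h1]
    exact Nat.odd_iff.2 (by rw [hPS]; omega)
  refine ⟨S, N', ⟨fun x hx g => ?_⟩, ?_⟩
  · obtain ⟨y, hy, rfl⟩ := hx
    have hgy : g * (y : G) * g⁻¹ ∈ H := hHn.conj_mem _ y.2 g
    refine ⟨⟨_, hgy⟩, ?_, rfl⟩
    -- an element of odd order of `H` lies in `N`
    show (⟨g * (y : G) * g⁻¹, hgy⟩ : H) ∈ N
    rw [← QuotientGroup.eq_one_iff (N := N)]
    have hco : Nat.Coprime (Nat.card N) (Nat.card (H ⧸ N)) := by
      rw [← Subgroup.index_eq_card, hNc.symm.index_eq_card, hPS,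
        Nat.card_congr (Subgroup.subgroupOfEquivOfLe (inf_le_right : P ≤ H)).toEquiv, hPcard]
      exact Nat.Coprime.pow_right _ (Nat.coprime_two_right.2 hNodd)
    have hd1 : orderOf (QuotientGroup.mk' N (⟨_, hgy⟩ : H)) ∣ Nat.card N := by
      refine (orderOf_map_dvd (QuotientGroup.mk' N) _).trans ?_
      rw [← Subgroup.orderOf_coe]
      show orderOf (MulAut.conj g (y : G)) ∣ _
      rw [MulEquiv.orderOf_eq, Subgroup.orderOf_coe]
      exact N.orderOf_dvd_natCard hy
    exact orderOf_eq_one_iff.1 (Nat.eq_one_of_dvd_coprimes hco hd1 (orderOf_dvd_natCard _))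
  · refine Subgroup.isComplement'_of_coprime ?_ ?_
    · rw [hS, hGcard, ← hNcard, pow_succ]; ring
    · rw [Subgroup.card_map_of_injective H.subtype_injective, hS]
      exact Nat.Coprime.pow_right _ (Nat.coprime_two_right.2 hNodd)

end Cfsg.Agent.S3178
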