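import Cfsg.Statements.S3179
import Cfsg.Agent.Lib.SL2.Card
import Cfsg.Agent.Lib.SL2.Torus
import Cfsg.Agent.Lib.Suzuki.LieBridge
import Cfsg.Agent.Lib.Suzuki.Field

set_option autoImplicit false
open Cfsg

namespace Cfsg.Agent.S3179

open scoped MatrixGroups

theorem card_GL5 : Nat.card (GL (Fin 5) (ZMod 2)) = 9999360 := by
  rw [Matrix.card_GL_field, ZMod.card]
  decide

def matA : Matrix (Fin 5) (Fin 5) (ZMod 2) :=
  !![0, 1, 0, 0, 0; 1, 1, 0, 0, 0; 0, 0, 1, 0, 0; 0, 0, 0, 1, 0; 0, 0, 0, 0, 1]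

def matB : Matrix (Fin 5) (Fin 5) (ZMod 2) :=
  !![1, 0, 0, 0, 0; 0, 1, 0, 0, 0; 0, 0, 0, 1, 0; 0, 0, 1, 1, 0; 0, 0, 0, 0, 1]

/-- There is no element of order nine in `GL₅(2)`. -/
theorem orderOf_ne_nine (y : GL (Fin 5) (ZMod 2)) : orderOf y ≠ 9 := by
  intro hy
  haveI : Fact (Nat.Prime 3) := ⟨Nat.prime_three⟩
  have hA3 : matA * (matA * matA) = 1 := by decide
  have hA3' : (matA * matA) * matA = 1 := by decide
  have hB3 : matB * (matB * matB) = 1 := by decide
  have hB3' : (matB * matB) * matB = 1 := by decide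
  let A : GL (Fin 5) (ZMod 2) := ⟨matA, matA * matA, hA3, hA3'⟩
  let B : GL (Fin 5) (ZMod 2) := ⟨matB, matB * matB, hB3, hB3'⟩
  have hA : orderOf A = 3 := orderOf_eq_prime (Units.ext (by
      rw [Units.val_pow_eq_pow_val, Units.val_one, pow_succ, pow_two]; exact hA3'))
    (fun h => by
      have := congrArg (fun u : GL (Fin 5) (ZMod 2) => (u : Matrix (Fin 5) (Fin 5) (ZMod 2)) 0 0) h
      simp [A, matA] at this)
  have hB : orderOf B = 3 := orderOf_eq_prime (Units.ext (by
      rw [Units.val_pow_eq_pow_val, Units.val_one, pow_succ, pow_two]; exact hB3'))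
    (fun h => by
      have := congrArg (fun u : GL (Fin 5) (ZMod 2) => (u : Matrix (Fin 5) (Fin 5) (ZMod 2)) 2 2) h
      simp [B, matB] at this)
  have hAB : Commute A B := Units.ext (by show matA * matB = matB * matA; decide)
  have hcomm : ∀ (a : Subgroup.zpowers A) (b : Subgroup.zpowers B), Commute (a : GL (Fin 5) (ZMod 2)) b := by
    rintro ⟨a, i, rfl⟩ ⟨b, k, rfl⟩
    exact hAB.zpow_zpow i k
  let f := MonoidHom.noncommCoprod (Subgroup.zpowers A).subtype (Subgroup.zpowers B).subtype hcomm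
  have hinj : Function.Injective f := by
    rw [injective_iff_map_eq_one]
    rintro ⟨a, b⟩ hab
    have hab' : (a : GL (Fin 5) (ZMod 2)) * b = 1 := hab
    have hb : (b : GL (Fin 5) (ZMod 2)) ∈ Subgroup.zpowers A := by
      rw [eq_inv_of_mul_eq_one_right hab']
      exact Subgroup.inv_mem _ a.2
    by_cases hb1 : (b : GL (Fin 5) (ZMod 2)) = 1
    · rw [hb1, mul_one] at hab'
      exact Prod.ext (Subtype.ext hab') (Subtype.ext hb1)
    · exfalso
      have hBA : B ∈ Subgroup.zpowers A := by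
        have hz : Subgroup.zpowers (b : GL (Fin 5) (ZMod 2)) = Subgroup.zpowers B := by
          refine Subgroup.eq_of_le_of_card_ge (by rw [Subgroup.zpowers_le]; exact b.2) ?_
          rw [Nat.card_zpowers, Nat.card_zpowers, hB]
          have hd : orderOf (b : GL (Fin 5) (ZMod 2)) ∣ 3 := by
            rw [← hB, ← Nat.card_zpowers B, Subgroup.orderOf_coe]; exact orderOf_dvd_natCard b
          rcases (Nat.dvd_prime Nat.prime_three).1 hd with h | h
          · exact absurd (orderOf_eq_one_iff.1 h) hb1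
          · omega
        have := Subgroup.zpowers_le.2 hb
        rw [hz] at this
        exact this (Subgroup.mem_zpowers B)
      obtain ⟨i, hi⟩ := Subgroup.mem_zpowers_iff.1 hBA
      rw [← zpow_mod_orderOf, hA] at hi
      have hi' : i % (3 : ℕ) = 0 ∨ i % (3 : ℕ) = 1 ∨ i % (3 : ℕ) = 2 := by omega
      have h22 := congrArg (fun u : GL (Fin 5) (ZMod 2) => (u : Matrix (Fin 5) (Fin 5) (ZMod 2)) 2 2) hi
      rcases hi' with h | h | h <;> simp only [h] at h22
      · simp [B, matB] at h22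
      · simp [A, B, matA, matB] at h22
      · rw [show A ^ (2 : ℤ) = A * A from zpow_two A] at h22
        simp [A, B, matA, matB, Matrix.mul_apply, Fin.sum_univ_five] at h22
  have hcard : Nat.card f.range = 9 := by
    rw [← Nat.card_congr (MonoidHom.ofInjective hinj).toEquiv, Nat.card_prod, Nat.card_zpowers, Nat.card_zpowers, hA, hB]
  have hfac : (Nat.card (GL (Fin 5) (ZMod 2))).factorization 3 = 2 := by
    have h1 : (9 : ℕ).factorization 3 = 2 := by
      rw [show (9 : ℕ) = 3 ^ 2 by norm_num, Nat.Prime.factorization_pow Nat.prime_three]; simp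
    have h2 : (1111040 : ℕ).factorization 3 = 0 := Nat.factorization_eq_zero_of_not_dvd (by norm_num)
    rw [card_GL5, show (9999360 : ℕ) = 9 * 1111040 by norm_num,
      Nat.factorization_mul (by norm_num) (by norm_num), Finsupp.add_apply, h1, h2]
  let P : Sylow 3 (GL (Fin 5) (ZMod 2)) := Sylow.ofCard f.range (by rw [hcard, hfac]; norm_num)
  let Q : Sylow 3 (GL (Fin 5) (ZMod 2)) := Sylow.ofCard (Subgroup.zpowers y) (by rw [Nat.card_zpowers, hy, hfac]; norm_num)
  obtain ⟨g, hg⟩ := MulAction.exists_smul_eq (GL (Fin 5) (ZMod 2)) P Q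
  have hm : y ∈ ((g • P : Sylow 3 (GL (Fin 5) (ZMod 2))) : Subgroup (GL (Fin 5) (ZMod 2))) := by
    rw [hg]; exact Subgroup.mem_zpowers y
  obtain ⟨_, ⟨⟨a, b⟩, rfl⟩, hz⟩ := hm
  have h3 : (f (a, b)) ^ 3 = 1 := by
    rw [← map_pow]
    have ha : a ^ 3 = 1 := by rw [← hA, ← Nat.card_zpowers]; exact pow_card_eq_one'
    have hb : b ^ 3 = 1 := by rw [← hB, ← Nat.card_zpowers]; exact pow_card_eq_one'
    rw [Prod.pow_mk, ha, hb]
    exact map_one f
  have : y ^ 3 = 1 := by
    rw [← hz]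
    exact (map_pow _ _ 3).symm.trans ((congrArg _ h3).trans (map_one _))
  have := Nat.le_of_dvd (by norm_num) (orderOf_dvd_of_pow_eq_one this)
  omega

open Matrix in
/-- The diagonal torus bounds the order of `PSU₃(q)` from below. -/
theorem sq_dvd_card_PSU {F : Type*} [Field F] [Fintype F] {q : ℕ} (hF : Fintype.card F = q ^ 2) (hq : 2 ≤ q) :
    (q + 1) ^ 2 ∣ 6 * Nat.card (Cfsg.PSU 3 F q) := by
  classical
  let U : Subgroup Fˣ := (powMonoidHom (q + 1)).ker
  have hU : Nat.card U = q + 1 := by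
    show Nat.card (powMonoidHom (α := Fˣ) (q + 1)).ker = q + 1
    rw [IsCyclic.card_powMonoidHom_ker, Nat.card_units, Nat.card_eq_fintype_card, hF]
    refine Nat.gcd_eq_right ⟨q - 1, ?_⟩
    rw [← Nat.sq_sub_sq q 1, one_pow]
  have hUp : ∀ a : U, (a : Fˣ) ^ (q + 1) = 1 := fun a => a.2
  let d : U × U → Fin 3 → Fˣ := fun z => ![(z.1 : Fˣ), (z.2 : Fˣ), ((z.1 : Fˣ) * z.2)⁻¹]
  have hd : ∀ z i, d z i ^ (q + 1) = 1 := by
    intro z i
    fin_cases i
    · exact hUp z.1
    · exact hUp z.2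
    · show (((z.1 : Fˣ) * z.2)⁻¹) ^ (q + 1) = 1
      rw [inv_pow, mul_pow, hUp, hUp, mul_one, inv_one]
  let D : U × U →* SpecialLinearGroup (Fin 3) F :=
    { toFun := fun z => ⟨diagonal fun i => (d z i : F), by
        rw [det_diagonal, Fin.prod_univ_three, ← Units.val_mul, ← Units.val_mul]
        show (((z.1 : Fˣ) * z.2 * ((z.1 : Fˣ) * z.2)⁻¹ : Fˣ) : F) = 1
        rw [mul_inv_cancel, Units.val_one]⟩
      map_one' := by
        apply Subtype.ext
        show diagonal _ = (1 : Matrix (Fin 3) (Fin 3) F)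
        rw [← diagonal_one]
        refine congrArg diagonal (funext fun i => ?_)
        fin_cases i <;> simp [d]
      map_mul' := fun z w => by
        apply Subtype.ext
        show diagonal _ = diagonal _ * diagonal _
        rw [diagonal_mul_diagonal]
        refine congrArg diagonal (funext fun i => ?_)
        fin_cases i <;> simp [d] <;> ring }
  have hDmem : ∀ z, D z ∈ Cfsg.SU 3 F q := by
    intro z u v
    show Cfsg.hermForm 3 F q ((diagonal fun i => (d z i : F)) *ᵥ u) ((diagonal fun i => (d z i : F)) *ᵥ v) = _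
    simp only [Cfsg.hermForm, mulVec_diagonal]
    refine Finset.sum_congr rfl fun i _ => ?_
    have h : (d z i : F) * (d z i : F) ^ q = 1 := by
      rw [← pow_succ', ← Units.val_pow_eq_pow_val, hd, Units.val_one]
    linear_combination (u i * v i ^ q) * h
  let ψ : U × U →* Cfsg.PSU 3 F q := (QuotientGroup.mk' _).comp (D.codRestrict _ hDmem)
  -- the cyclic permutation matrix
  let W : SpecialLinearGroup (Fin 3) F := ⟨!![0, 1, 0; 0, 0, 1; 1, 0, 0], by simp [det_fin_three]⟩
  have hW : W ∈ Cfsg.SU 3 F q := by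
    intro u v
    show Cfsg.hermForm 3 F q ((W : Matrix (Fin 3) (Fin 3) F) *ᵥ u) ((W : Matrix (Fin 3) (Fin 3) F) *ᵥ v) = _
    simp [Cfsg.hermForm, W, mulVec, dotProduct, Fin.sum_univ_three]
    ring
  have hker : ∀ z ∈ ψ.ker, z.1 = z.2 ∧ ((z.1 : Fˣ) : F) ^ 3 = 1 := by
    intro z hz
    have hc : D.codRestrict _ hDmem z ∈ Subgroup.center (Cfsg.SU 3 F q) :=
      (QuotientGroup.eq_one_iff _).1 hz
    have h := congrArg (fun g : Cfsg.SU 3 F q => ((g : SpecialLinearGroup (Fin 3) F) : Matrix (Fin 3) (Fin 3) F))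
      (Subgroup.mem_center_iff.1 hc ⟨W, hW⟩)
    have h' : (!![0, 1, 0; 0, 0, 1; 1, 0, 0] : Matrix (Fin 3) (Fin 3) F) * diagonal (fun i => (d z i : F)) =
        diagonal (fun i => (d z i : F)) * !![0, 1, 0; 0, 0, 1; 1, 0, 0] := h
    have h01 := congrFun (congrFun h' 0) 1
    have h12 := congrFun (congrFun h' 1) 2
    simp [d, Matrix.mul_apply, Fin.sum_univ_three, diagonal] at h01 h12
    have e1 : z.1 = z.2 := Subtype.ext (Units.ext h01.symm)
    refine ⟨e1, ?_⟩
    rw [← e1] at h12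
    have h0 := (z.1 : Fˣ).ne_zero
    field_simp at h12
    linear_combination -h12
  have hk : Nat.card ψ.ker ≤ 3 := by
    have h : Nat.card ψ.ker ≤ Nat.card ((Polynomial.nthRoots 3 (1 : F)).toFinset : Set F) := by
      refine Nat.card_le_card_of_injective (fun z => ⟨(((z : U × U).1 : Fˣ) : F), ?_⟩) ?_
      · simp only [Finset.mem_coe, Multiset.mem_toFinset]
        rw [Polynomial.mem_nthRoots (by norm_num)]
        exact (hker z z.2).2
      · intro z w hzw
        have h1 : (z : U × U).1 = (w : U × U).1 := Subtype.ext (Units.ext (congrArg Subtype.val hzw))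
        exact Subtype.ext (Prod.ext h1 ((hker z z.2).1 ▸ (hker w w.2).1 ▸ h1))
    refine h.trans ?_
    rw [Nat.card_coe_set_eq, Set.ncard_coe_finset]
    exact (Multiset.toFinset_card_le _).trans (Polynomial.card_nthRoots 3 1)
  have hmul : (q + 1) ^ 2 = Nat.card ψ.ker * Nat.card ψ.range := by
    rw [← Subgroup.index_ker, Subgroup.card_mul_index, Nat.card_prod, hU, pow_two]
  rw [hmul]
  refine mul_dvd_mul ?_ (Subgroup.card_subgroup_dvd_card ψ.range)
  have hpos : 0 < Nat.card ψ.ker := Nat.card_pos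
  interval_cases Nat.card ψ.ker <;> norm_num

/-- Let X be a section of the general linear group GL(5, 2), that is, a quotient of a subgroup of it. If X is isomorphic to PSL(2, 2^n) for some n ≥ 2, to a Suzuki group over the field with 2^(2m+1) elements for some m ≥ 1, or to PSU(3, 2^n) for some n ≥ 2, then X is isomorphic to PSL(2, 4). -/
theorem result {H : Subgroup (GL (Fin 5) (ZMod 2))}
    {K : Subgroup ↥H} [K.Normal]
    (hX : (∃ (n : ℕ) (F : Type) (_ : Field F) (_ : Fintype F), 2 ≤ n ∧ Fintype.card F = 2 ^ n ∧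
        Nonempty (↥H ⧸ K ≃* Matrix.ProjectiveSpecialLinearGroup (Fin 2) F)) ∨
      (∃ (m : ℕ) (F : Type) (_ : Field F) (_ : Fintype F), 1 ≤ m ∧ Fintype.card F = 2 ^ (2 * m + 1) ∧
        Nonempty (↥H ⧸ K ≃* ↥(Cfsg.Lie.Sz F (2 ^ (m + 1))))) ∨
      (∃ (n : ℕ) (F : Type) (_ : Field F) (_ : Fintype F), 2 ≤ n ∧ Fintype.card F = 4 ^ n ∧
        Nonempty (↥H ⧸ K ≃* Cfsg.PSU 3 F (2 ^ n)))) :
    ∃ (F : Type) (_ : Field F) (_ : Fintype F), Fintype.card F = 4 ∧
      Nonempty (↥H ⧸ K ≃* Matrix.ProjectiveSpecialLinearGroup (Fin 2) F) := by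
  classical
  have hdvd : Nat.card (↥H ⧸ K) ∣ 9999360 :=
    (Subgroup.card_quotient_dvd_card K).trans (card_GL5 ▸ Subgroup.card_subgroup_dvd_card H)
  rcases hX with ⟨n, F, _, _, hn, hF, ⟨e⟩⟩ | ⟨m, F, _, _, hm, hF, ⟨e⟩⟩ | ⟨n, F, _, _, hn, hF, ⟨e⟩⟩
  · have h2 : (2 : F) = 0 := by
      have := FiniteField.cast_card_eq_zero F
      rw [hF] at this
      push_cast at this
      exact (pow_eq_zero_iff (by omega)).1 this
    have hc : Subgroup.center (SL(2, F)) = ⊥ := CfsgLib.SL2.center_eq_bot_of_two h2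
    let e' : ↥H ⧸ K ≃* SL(2, F) :=
      e.trans ((QuotientGroup.quotientMulEquivOfEq hc).trans QuotientGroup.quotientBot)
    rw [Nat.card_congr e'.toEquiv, CfsgLib.SL2.card_SL, Nat.card_eq_fintype_card, hF] at hdvd
    have hle : n ≤ 7 := by
      by_contra hlt
      have h1 : 2 ^ 8 ≤ 2 ^ n := Nat.pow_le_pow_right two_pos (by omega)
      have h3 := Nat.le_of_dvd (by norm_num) hdvd
      have h4 : (2 ^ 8) ^ 2 ≤ (2 ^ n) ^ 2 := Nat.pow_le_pow_left h1 2
      have h5 : 2 ^ 8 * ((2 ^ 8) ^ 2 - 1) ≤ 2 ^ n * ((2 ^ n) ^ 2 - 1) := Nat.mul_le_mul h1 (Nat.sub_le_sub_right h4 1)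
      norm_num at h5
      omega
    interval_cases n <;> norm_num at hdvd
    · exact ⟨F, inferInstance, inferInstance, by rw [hF]; norm_num, ⟨e⟩⟩
    · exfalso
      obtain ⟨g, -, hg, -⟩ := CfsgLib.SL2.exists_torus_generator (F := F) (e := 9)
        (Or.inr (by rw [Nat.card_eq_fintype_card, hF]; norm_num)) (by norm_num)
      obtain ⟨u, hu⟩ := QuotientGroup.mk_surjective (e'.symm g)
      have h9 : 9 ∣ orderOf (u : GL (Fin 5) (ZMod 2)) := by
        have h6 : orderOf (e'.symm g) ∣ orderOf u := hu ▸ orderOf_map_dvd (QuotientGroup.mk' K) u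
        rw [MulEquiv.orderOf_eq, hg] at h6
        rwa [Subgroup.orderOf_coe]
      obtain ⟨k, hk⟩ := h9
      refine orderOf_ne_nine ((u : GL (Fin 5) (ZMod 2)) ^ k) ?_
      have hpos := orderOf_pos (u : GL (Fin 5) (ZMod 2))
      rw [orderOf_pow, hk, Nat.gcd_eq_right (dvd_mul_left k 9), Nat.mul_div_cancel _ (Nat.pos_of_ne_zero ?_)]
      rintro rfl
      omega
  · exfalso
    have h := CfsgLib.Suzuki.Hyp.of_fintype hm hF
    rw [Nat.card_congr e.toEquiv, h.card_lieSz] at hdvd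
    have hle : m ≤ 2 := by
      by_contra hlt
      have h1 : 2 ^ 7 ≤ 2 ^ (2 * m + 1) := Nat.pow_le_pow_right two_pos (by omega)
      have h3 := Nat.le_of_dvd (by norm_num) hdvd
      have h5 : (2 ^ 7) ^ 2 * ((2 ^ 7) ^ 2 + 1) * 1 ≤
          (2 ^ (2 * m + 1)) ^ 2 * ((2 ^ (2 * m + 1)) ^ 2 + 1) * (2 ^ (2 * m + 1) - 1) := by
        gcongr
        omega
      norm_num at h5
      omega
    interval_cases m <;> norm_num at hdvd
  · exfalso
    have hF' : Fintype.card F = (2 ^ n) ^ 2 := by rw [hF, ← pow_mul, mul_comm, pow_mul]; norm_num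
    have hq : 2 ≤ 2 ^ n := le_self_pow₀ (by norm_num) (by omega)
    have h1 := sq_dvd_card_PSU hF' hq
    rw [← Nat.card_congr e.toEquiv] at h1
    have h2 : (2 ^ n + 1) ^ 2 ∣ 2 ^ 11 * 29295 := h1.trans ((mul_dvd_mul_left 6 hdvd).trans (by norm_num))
    have hodd : Nat.Coprime ((2 ^ n + 1) ^ 2) (2 ^ 11) := by
      apply Nat.Coprime.pow
      rw [Nat.coprime_two_right, Nat.odd_add_one, Nat.not_odd_iff_even]
      exact (even_two : Even 2).pow_of_ne_zero (by omega)
    have h3 := hodd.dvd_of_dvd_mul_left h2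
    have h4 := Nat.le_of_dvd (by norm_num) h3
    have hle : n ≤ 7 := by
      by_contra hlt
      have h6 : 2 ^ 8 ≤ 2 ^ n := Nat.pow_le_pow_right two_pos (by omega)
      nlinarith
    interval_cases n <;> norm_num at h3

end Cfsg.Agent.S3179
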