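import Cfsg.Statements.S3180
import Cfsg.Agent.Lib.InvChar.Basic

set_option autoImplicit false
open Cfsg
open CfsgLib.InvChar

namespace Cfsg.Agent.S3180

/-- Let P be a Sylow p-subgroup of a finite group J and P₁ a subgroup of P that is weakly closed in P with respect to J. If J acts on a set and two points, each fixed by every element of P₁, lie in one J-orbit, then they lie in one orbit of the normalizer of P₁ in J. -/
theorem result {J : Type*} [Group J] [Finite J]
    {p : ℕ} [Fact p.Prime] (P : Sylow p J) (P₁ : Subgroup J) (hW : Cfsg.IsWeaklyClosed P₁ (P : Subgroup J))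
    {Ω : Type*} [MulAction J Ω] (x y : Ω) (hx : ∀ g ∈ P₁, g • x = x) (hy : ∀ g ∈ P₁, g • y = y)
    (hc : ∃ g : J, g • x = y) :
    ∃ g ∈ Subgroup.normalizer (P₁ : Set J), g • x = y := by
  obtain ⟨g, hg⟩ := hc
  let H : Subgroup J := MulAction.stabilizer J y
  have h1 : P₁ ≤ H := fun a ha => hy a ha
  have h2 : cj g P₁ ≤ H := by
    intro a ha
    rw [mem_cj] at ha
    have hh := hx _ ha
    show a • y = y
    rw [← hg] 
    conv_lhs => rw [show a • g • x = g • ((g⁻¹ * a * g) • x) by simp [mul_smul]]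
    rw [hh]
  have hP1 : IsPGroup p P₁ := P.2.to_le hW.1
  obtain ⟨R, hR⟩ := (hP1.comap_subtype (K := H)).exists_le_sylow
  have hRH : (R : Subgroup H).map H.subtype ≤ H := Subgroup.map_subtype_le _
  have hRp : IsPGroup p ((R : Subgroup H).map H.subtype) := R.2.map _
  have hi : ¬ p ∣ ((R : Subgroup H).map H.subtype).relIndex H := by
    rw [Subgroup.relIndex, ← Subgroup.comap_subtype,
      Subgroup.comap_map_eq_self_of_injective H.subtype_injective]
    exact R.not_dvd_index
  obtain ⟨h, hh, hle⟩ := exists_cj_le_of_not_dvd_relIndex hRH hRp hi h2 (isPGroup_cj hP1)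
  obtain ⟨k, hk⟩ := exists_cj_le_sylow P hRp
  have hP1R : P₁ ≤ (R : Subgroup H).map H.subtype :=
    fun a ha => ⟨⟨a, h1 ha⟩, hR ha, rfl⟩
  have e1 : cj k P₁ = P₁ := hW.2 k ((cj_mono hP1R).trans hk)
  have e2 : cj (k * (h * g)) P₁ = P₁ :=
    hW.2 _ (by rw [cj_eq, cj_mul, cj_mul]; exact (cj_mono hle).trans hk)
  refine ⟨h * g, ?_, ?_⟩
  · have a1 := cj_eq_self_iff.1 e1
    have a2 := cj_eq_self_iff.1 e2
    have := mul_mem (inv_mem a1) a2
    rwa [inv_mul_cancel_left] at this
  · rw [mul_smul, hg]; exact hh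

end Cfsg.Agent.S3180
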