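import Cfsg.Statements.S3183
import Cfsg.Agent.Lib.InvChar.Basic

set_option autoImplicit false
open Cfsg
open CfsgLib.InvChar

namespace Cfsg.Agent.S3183

/-- Let G be a finite group in which the intersection of any two distinct Sylow 2-subgroups is contained in the centre of some Sylow 2-subgroup, and let S be a Sylow 2-subgroup. Then for every x in S the centralizer of x in S is a Sylow 2-subgroup of the centralizer of x in G (no 2-subgroup centralizing x is larger), and for every other Sylow 2-subgroup T the intersection S ∩ T lies in both the centre of S and the centre of T. -/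
theorem result {G : Type*} [Group G] [Finite G]
    (hCI : ∀ S T : Sylow 2 G, S ≠ T → ∃ U : Sylow 2 G,
      (S : Subgroup G) ⊓ (T : Subgroup G) ≤ (Subgroup.center ↥(U : Subgroup G)).map (U : Subgroup G).subtype)
    (S : Sylow 2 G) :
    (∀ x ∈ (S : Subgroup G), ∀ P : Subgroup G, IsPGroup 2 ↥P → P ≤ Subgroup.centralizer ({x} : Set G) →
        Nat.card ↥P ≤ Nat.card ↥((S : Subgroup G) ⊓ Subgroup.centralizer ({x} : Set G))) ∧
    (∀ T : Sylow 2 G, T ≠ S →
        (S : Subgroup G) ⊓ (T : Subgroup G) ≤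
          (Subgroup.center ↥(S : Subgroup G)).map (S : Subgroup G).subtype ⊓
            (Subgroup.center ↥(T : Subgroup G)).map (T : Subgroup G).subtype) := by
  have key : ∀ (S U : Sylow 2 G) (x : G), x ∈ (S : Subgroup G) → x ∈ (U : Subgroup G) →
      (∀ u ∈ (U : Subgroup G), u * x = x * u) → ∀ s ∈ (S : Subgroup G), s * x = x * s := by
    intro S U x hxS hxU hUx
    by_contra hne
    let C : Subgroup G := Subgroup.centralizer ({x} : Set G)
    let T : Subgroup G := (S : Subgroup G) ⊓ C
    have hlt : T < (S : Subgroup G) := lt_of_le_of_ne inf_le_left fun h => hne fun s hs => by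
      have := (h.ge hs).2
      exact Subgroup.mem_centralizer_singleton_iff.1 this
    have hUC : (U : Subgroup G) ≤ C := fun u hu => Subgroup.mem_centralizer_singleton_iff.2 (hUx u hu)
    obtain ⟨c, hc, hcle⟩ := exists_cj_le_of_not_dvd_relIndex hUC U.2
      (sylow_not_dvd_relIndex U C hUC) inf_le_right (S.2.to_le (inf_le_left : T ≤ (S : Subgroup G)))
    let U' : Sylow 2 G := c⁻¹ • U
    have hTU : T ≤ (U' : Subgroup G) := by
      rw [cj_smul_sylow]
      exact cj_le_iff.1 hcle
    have hU'C : (U' : Subgroup G) ≤ C := by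
      rw [cj_smul_sylow]
      exact (cj_mono hUC).trans (cj_eq_self_of_mem (inv_mem hc)).le
    have hne' : S ≠ U' := fun h => hlt.not_ge (le_inf le_rfl (h ▸ hU'C))
    obtain ⟨V, hV⟩ := hCI S U' hne'
    have hTV : ∀ t ∈ T, t ∈ (V : Subgroup G) ∧ ∀ v ∈ (V : Subgroup G), v * t = t * v := by
      intro t ht
      obtain ⟨w, hw, rfl⟩ := hV ⟨ht.1, hTU ht⟩
      exact ⟨w.2, fun v hv => congrArg Subtype.val (Subgroup.mem_center_iff.1 hw ⟨v, hv⟩)⟩
    let D : Subgroup G := Subgroup.centralizer (T : Set G)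
    have hVD : (V : Subgroup G) ≤ D := fun v hv =>
      Subgroup.mem_centralizer_iff.2 fun t ht => ((hTV t ht).2 v hv).symm
    obtain ⟨n, hnS, hnT, hnN⟩ := exists_mem_normalizer_not_mem S.2 hlt
    have hxT : x ∈ T := ⟨hxS, Subgroup.mem_centralizer_singleton_iff.2 rfl⟩
    let N : Subgroup G := Subgroup.normalizer (T : Set G)
    have hDN : D ≤ N := by
      intro d hd
      rw [Subgroup.mem_normalizer_iff]
      intro t
      constructor
      · intro ht
        rw [← Subgroup.mem_centralizer_iff.1 hd t ht]; simpa [mul_assoc] using ht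
      · intro ht
        have h1 := Subgroup.mem_centralizer_iff.1 hd _ ht
        have : d * t * d⁻¹ = t := by
          calc d * t * d⁻¹ = d⁻¹ * (d * (d * t * d⁻¹)) := by group
            _ = d⁻¹ * ((d * t * d⁻¹) * d) := by rw [h1]
            _ = t := by group
        rwa [this] at ht
    let Q : Subgroup G := (S : Subgroup G) ⊓ N
    obtain ⟨m, hm, hmle⟩ := exists_cj_le_of_not_dvd_relIndex (hVD.trans hDN) V.2
      (sylow_not_dvd_relIndex V N (hVD.trans hDN)) (inf_le_right : Q ≤ N) (S.2.to_le inf_le_left)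
    have hn : n ∈ Q := ⟨hnS, hnN⟩
    have hmn : m * n * m⁻¹ ∈ D := hVD (hmle (conj_mem_cj hn))
    have hnD : n ∈ D := by
      refine Subgroup.mem_centralizer_iff.2 fun t ht => ?_
      have ht' : m * t * m⁻¹ ∈ T := (Subgroup.mem_normalizer_iff.1 hm t).1 ht
      have h1 := Subgroup.mem_centralizer_iff.1 hmn _ ht'
      calc t * n = m⁻¹ * ((m * t * m⁻¹) * (m * n * m⁻¹)) * m := by group
        _ = m⁻¹ * ((m * n * m⁻¹) * (m * t * m⁻¹)) * m := by rw [h1]
        _ = n * t := by group
    exact hnT ⟨hnS, Subgroup.mem_centralizer_singleton_iff.2 (Subgroup.mem_centralizer_iff.1 hnD x hxT).symm⟩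
  have key2 : ∀ S T : Sylow 2 G, S ≠ T → ∀ x ∈ (S : Subgroup G) ⊓ (T : Subgroup G),
      ∀ s ∈ (S : Subgroup G), s * x = x * s := by
    intro S T hST x hx
    obtain ⟨U, hU⟩ := hCI S T hST
    obtain ⟨w, hw, rfl⟩ := hU hx
    exact key S U _ hx.1 w.2 fun u hu => congrArg Subtype.val (Subgroup.mem_center_iff.1 hw ⟨u, hu⟩)
  constructor
  · intro x hx P hP hPC
    have hz : IsPGroup 2 (Subgroup.zpowers x) := S.2.to_le (Subgroup.zpowers_le.2 hx)
    have hPx : P ≤ Subgroup.normalizer ((Subgroup.zpowers x : Subgroup G) : Set G) := by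
      intro g hg
      rw [← cj_eq_self_iff, cj, MonoidHom.map_zpowers]
      have := Subgroup.mem_centralizer_singleton_iff.1 (hPC hg)
      simp [this]
    obtain ⟨Q, hQ⟩ := (IsPGroup.to_sup_of_normal_right' hP hz hPx).exists_le_sylow
    have hxQ : x ∈ (Q : Subgroup G) := hQ (le_sup_right (a := P) (Subgroup.mem_zpowers x))
    by_cases h : S = Q
    · subst h
      exact Subgroup.card_le_of_le (le_inf (le_sup_left.trans hQ) hPC)
    · have hle : (S : Subgroup G) ≤ Subgroup.centralizer ({x} : Set G) := fun s hs =>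
        Subgroup.mem_centralizer_singleton_iff.2 (key2 S Q h x ⟨hx, hxQ⟩ s hs)
      rw [inf_eq_left.2 hle, S.card_eq_multiplicity, ← Q.card_eq_multiplicity]
      exact Subgroup.card_le_of_le (le_sup_left.trans hQ)
  · intro T hT x hx
    refine ⟨⟨⟨x, hx.1⟩, ?_, rfl⟩, ⟨⟨x, hx.2⟩, ?_, rfl⟩⟩
    · exact Subgroup.mem_center_iff.2 fun s => Subtype.ext (key2 S T (Ne.symm hT) x hx s s.2)
    · exact Subgroup.mem_center_iff.2 fun s => Subtype.ext (key2 T S hT x ⟨hx.2, hx.1⟩ s s.2)

end Cfsg.Agent.S3183
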