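import Cfsg.Statements.S3190
import Cfsg.Agent.Lib.InvChar.Basic

set_option autoImplicit false
open Cfsg
open CfsgLib.InvChar

namespace Cfsg.Agent.S3190

/-- Let p be an odd prime and, inside a finite group, let P be a p-subgroup normalized by a Klein four-group T. Let R be a subgroup of P, normal in P and normalized by T, such that P is the product of R with the centralizer of T in P. If T centralizes the centre of P, then T centralizes the centre of R. -/
theorem result {X : Type*} [Group X] [Finite X]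
    {p : ℕ} (hp : p.Prime) (hodd : Odd p) (P T R : Subgroup X) (hP : IsPGroup p ↥P) (hT : IsKleinFour ↥T)
    (hTP : T ≤ Subgroup.normalizer (P : Set X)) (hRP : R ≤ P) (hRn : (R.subgroupOf P).Normal)
    (hTR : T ≤ Subgroup.normalizer (R : Set X)) (hfac : R ⊔ (P ⊓ Subgroup.centralizer (T : Set X)) = P)
    (hZ : T ≤ Subgroup.centralizer (((Subgroup.center ↥P).map P.subtype : Subgroup X) : Set X)) :
    T ≤ Subgroup.centralizer (((Subgroup.center ↥R).map R.subtype : Subgroup X) : Set X) := by
  classical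
  haveI : Fact p.Prime := ⟨hp⟩
  haveI : Fintype T := Fintype.ofFinite T
  let ZR : Subgroup X := (Subgroup.center ↥R).map R.subtype
  have hZRR : ZR ≤ R := Subgroup.map_subtype_le _
  have memZR : ∀ {x : X}, x ∈ R → (∀ r ∈ R, r * x = x * r) → x ∈ ZR := fun {x} hx h =>
    ⟨⟨x, hx⟩, Subgroup.mem_center_iff.2 fun r => Subtype.ext (h r r.2), rfl⟩
  have hcomm : ∀ {x : X}, x ∈ ZR → ∀ r ∈ R, r * x = x * r := by
    rintro x ⟨w, hw, rfl⟩ r hr
    exact congrArg Subtype.val (Subgroup.mem_center_iff.1 hw ⟨r, hr⟩)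
  letI : CommGroup ZR :=
    { (inferInstance : Group ZR) with mul_comm := fun a b => Subtype.ext (hcomm b.2 a (hZRR a.2)) }
  -- elements normalising `R` normalise its centre
  have conjZR : ∀ (g : X), g ∈ Subgroup.normalizer (R : Set X) → ∀ x ∈ ZR, g * x * g⁻¹ ∈ ZR := by
    intro g hg x hx
    have hgR := Subgroup.mem_normalizer_iff.1 hg
    refine memZR ((hgR x).1 (hZRR hx)) fun r hr => ?_
    have hr' : g⁻¹ * r * g ∈ R := by
      have := (hgR (g⁻¹ * r * g)).2 (by simpa [mul_assoc] using hr)
      exact this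
    have e := hcomm hx _ hr'
    calc r * (g * x * g⁻¹) = g * ((g⁻¹ * r * g) * x) * g⁻¹ := by group
      _ = g * (x * (g⁻¹ * r * g)) * g⁻¹ := by rw [e]
      _ = (g * x * g⁻¹) * r := by group
  let act : T → ZR → ZR := fun t v => ⟨(t : X) * v * (t : X)⁻¹, conjZR t (hTR t.2) v v.2⟩
  let N : ZR → ZR := fun v => ∏ t, act t v
  have hNmul : ∀ v w, N (v * w) = N v * N w := by
    intro v w
    rw [← Finset.prod_mul_distrib]
    refine Finset.prod_congr rfl fun t _ => Subtype.ext ?_
    show (t : X) * (v * w : ZR) * (t : X)⁻¹ = (t : X) * v * (t : X)⁻¹ * ((t : X) * w * (t : X)⁻¹)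
    rw [Subgroup.coe_mul]; group
  let Nh : ZR →* ZR := MonoidHom.mk' N hNmul
  have hNfix : ∀ (t : T) (v : ZR), act t (N v) = N v := by
    intro t v
    let ct : ZR →* ZR := MonoidHom.mk' (act t) (fun a b => Subtype.ext (by
      show (t : X) * (a * b : ZR) * (t : X)⁻¹ = (t : X) * a * (t : X)⁻¹ * ((t : X) * b * (t : X)⁻¹)
      rw [Subgroup.coe_mul]; group))
    show ct (∏ s, act s v) = ∏ s, act s v
    rw [map_prod]
    refine Fintype.prod_equiv (Equiv.mulLeft t) _ _ fun s => Subtype.ext ?_
    show (t : X) * ((s : X) * v * (s : X)⁻¹) * (t : X)⁻¹ = ((t * s : T) : X) * v * ((t * s : T) : X)⁻¹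
    rw [Subgroup.coe_mul]; group
  have hZRP : IsPGroup p ZR := hP.to_le (hZRR.trans hRP)
  -- a fixed point in the kernel of the norm is trivial
  have hkerfix : ∀ v : ZR, N v = 1 → (∀ t : T, act t v = v) → v = 1 := by
    intro v hv hfix
    have h4 : v ^ 4 = 1 := by
      have : N v = v ^ Fintype.card T := by
        show ∏ t, act t v = _
        rw [Finset.prod_congr rfl fun t _ => hfix t, Finset.prod_const, Finset.card_univ]
      rw [← Nat.card_eq_fintype_card, hT.card_four] at this
      rw [← this, hv]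
    obtain ⟨k, hk⟩ := IsPGroup.iff_orderOf.1 hZRP v
    have hco : Nat.Coprime (p ^ k) 4 := by
      refine Nat.Coprime.pow_left k ?_
      exact Nat.Coprime.pow_right 2 ((Nat.coprime_two_right).2 hodd)
    exact orderOf_eq_one_iff.1 (hk.trans
      (Nat.eq_one_of_dvd_coprimes hco dvd_rfl (hk ▸ orderOf_dvd_of_pow_eq_one h4)))
  let W : Subgroup X := Nh.ker.map ZR.subtype
  have hWP : W ≤ P := (Subgroup.map_subtype_le _).trans (hZRR.trans hRP)
  -- `W` is normalised by `P`
  have hWn : P ≤ Subgroup.normalizer (W : Set X) := by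
    rw [← hfac]
    refine sup_le ?_ ?_
    · intro r hr
      rw [Subgroup.mem_normalizer_iff]
      intro w
      constructor
      · rintro ⟨v, hv, rfl⟩
        refine ⟨v, hv, ?_⟩
        show (v : X) = r * v * r⁻¹
        rw [hcomm v.2 r hr, mul_inv_cancel_right]
      · rintro ⟨v, hv, hve⟩
        refine ⟨v, hv, ?_⟩
        show (v : X) = w
        have e := hcomm v.2 r⁻¹ (inv_mem hr)
        calc (v : X) = v * r⁻¹ * r := by group
          _ = r⁻¹ * v * r := by rw [e]
          _ = r⁻¹ * (r * w * r⁻¹) * r := congrArg (fun z => r⁻¹ * z * r) hve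
          _ = w := by group
    · have key : ∀ c ∈ P ⊓ Subgroup.centralizer (T : Set X), ∀ w ∈ W, c * w * c⁻¹ ∈ W := by
        rintro c ⟨hcP, hcT⟩ _ ⟨v, hv, rfl⟩
        have hcR : c ∈ Subgroup.normalizer (R : Set X) :=
          (Subgroup.normal_subgroupOf_iff_le_normalizer hRP).1 hRn hcP
        let cc : ZR →* ZR := MonoidHom.mk' (fun v => ⟨c * v * c⁻¹, conjZR c hcR v v.2⟩) (fun a b => Subtype.ext (by
          show c * (a * b : ZR) * c⁻¹ = c * a * c⁻¹ * (c * b * c⁻¹)
          rw [Subgroup.coe_mul]; group))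
        refine ⟨cc v, ?_, rfl⟩
        show N (cc v) = 1
        have : N (cc v) = cc (N v) := by
          show ∏ t, act t (cc v) = cc (∏ t, act t v)
          rw [map_prod]
          refine Finset.prod_congr rfl fun t _ => Subtype.ext ?_
          show (t : X) * (c * v * c⁻¹) * (t : X)⁻¹ = c * ((t : X) * v * (t : X)⁻¹) * c⁻¹
          have e := Subgroup.mem_centralizer_iff.1 hcT t t.2
          calc (t : X) * (c * v * c⁻¹) * (t : X)⁻¹ = (t * c) * v * (t * c)⁻¹ := by group
            _ = (c * t) * v * (c * t)⁻¹ := by rw [e]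
            _ = c * ((t : X) * v * (t : X)⁻¹) * c⁻¹ := by group
        rw [this, show N v = 1 from hv, map_one]
      intro c hc
      rw [Subgroup.mem_normalizer_iff]
      intro w
      constructor
      · exact key c hc w
      · intro hw
        have := key c⁻¹ (inv_mem hc) _ hw
        simpa [mul_assoc] using this
  have hWbot : Nh.ker = ⊥ := by
    by_contra hne
    haveI : (W.subgroupOf P).Normal := (Subgroup.normal_subgroupOf_iff_le_normalizer hWP).2 hWn
    obtain ⟨v, hv, hv1⟩ := (Subgroup.bot_or_exists_ne_one Nh.ker).resolve_left hne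
    -- a non-trivial normal subgroup of a `p`-group meets its centre
    have hWp : IsPGroup p (W.subgroupOf P) := hP.to_subgroup _
    have hdvd : p ∣ Nat.card (W.subgroupOf P) := by
      refine hWp.card_eq_or_dvd.resolve_left fun h => hv1 ?_
      have := Subgroup.card_eq_one.1 h
      have hmem : (⟨(v : X), hWP ⟨v, hv, rfl⟩⟩ : P) ∈ W.subgroupOf P := ⟨v, hv, rfl⟩
      rw [this, Subgroup.mem_bot] at hmem
      exact Subtype.ext (congrArg Subtype.val hmem : (v : X) = 1)
    obtain ⟨⟨w, hwW⟩, hwfix, hw1⟩ := (hP.of_equiv ConjAct.toConjAct).exists_fixed_point_of_prime_dvd_card_of_fixed_point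
      (W.subgroupOf P) hdvd (a := 1) (fun g => by simp)
    obtain ⟨v', hv', hve⟩ := hwW
    have hwc : w ∈ Subgroup.center ↥P := Subgroup.mem_center_iff.2 fun g => by
      have := congrArg Subtype.val (hwfix (ConjAct.toConjAct g))
      rw [ConjAct.Subgroup.val_conj_smul, ConjAct.smul_def, ConjAct.ofConjAct_toConjAct] at this
      exact mul_inv_eq_iff_eq_mul.1 this
    apply hw1
    have h1 : v' = 1 := by
      refine hkerfix v' hv' fun t => Subtype.ext ?_
      show (t : X) * v' * (t : X)⁻¹ = v'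
      have e := Subgroup.mem_centralizer_iff.1 (hZ t.2) (w : X) ⟨w, hwc, rfl⟩
      have hve' : (v' : X) = (w : X) := hve
      rw [hve', ← e, mul_inv_cancel_right]
    refine Subtype.ext (Subtype.ext ?_)
    show (1 : X) = (w : X)
    rw [show (w : X) = (v' : X) from hve.symm, h1]; rfl
  intro t ht
  rw [Subgroup.mem_centralizer_iff]
  intro v hv
  have hinj : Function.Injective Nh := (MonoidHom.ker_eq_bot_iff Nh).1 hWbot
  obtain ⟨u, hu⟩ := (Finite.injective_iff_surjective).1 hinj ⟨v, hv⟩
  have hu' : N u = ⟨v, hv⟩ := hu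
  have hfix := congrArg Subtype.val (hNfix ⟨t, ht⟩ u)
  rw [hu'] at hfix
  exact (mul_inv_eq_iff_eq_mul.1 hfix).symm

end Cfsg.Agent.S3190
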