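import Cfsg.Statements.S3195
import Cfsg.Agent.Lib.InvChar.BaerSuzuki

set_option autoImplicit false
open Cfsg
open CfsgLib.InvChar

namespace Cfsg.Agent.S3195

/-- Let A be a Klein four-subgroup of a finite group G. If every G-conjugate of every involution of A commutes with some involution of A (its centralizer meets A nontrivially), then A meets the largest normal 2-subgroup O₂(G) nontrivially. -/
theorem result {G : Type*} [Group G] [Finite G]
    (A : Subgroup G) (hA : IsKleinFour ↥A)
    (h : ∀ a ∈ A, a ≠ 1 → ∀ g : G, A ⊓ Subgroup.centralizer ({g * a * g⁻¹} : Set G) ≠ ⊥) :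
    A ⊓ Cfsg.pCore 2 G ≠ ⊥ := by
  haveI : Fact (Nat.Prime 2) := ⟨Nat.prime_two⟩
  intro hbot
  have hsq : ∀ x ∈ A, x * x = 1 := by
    intro x hx
    have h1 := hA.exponent_two
    have := Monoid.pow_exponent_eq_one (⟨x, hx⟩ : A)
    rw [h1, pow_two] at this
    exact congrArg Subtype.val this
  have hcomm : ∀ x ∈ A, ∀ y ∈ A, x * y = y * x := by
    intro x hx y hy
    have := hsq _ (mul_mem hx hy)
    calc x * y = (x * y)⁻¹ := (inv_eq_of_mul_eq_one_right this).symm
      _ = y * x := by rw [mul_inv_rev, inv_eq_of_mul_eq_one_right (hsq x hx), inv_eq_of_mul_eq_one_right (hsq y hy)]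
  have hnot : ∀ a ∈ A, a ≠ 1 → a ∉ Cfsg.pCore 2 G := fun a ha h1 h2 =>
    h1 (Subgroup.mem_bot.1 (hbot ▸ ⟨ha, h2⟩))
  have hord : ∀ a ∈ A, a ≠ 1 → orderOf a = 2 := fun a ha h1 =>
    orderOf_eq_prime (by rw [pow_two]; exact hsq a ha) h1
  -- if `a` and `y` invert an element of odd order and `b` centralises both, the powers work out
  have oddpow : ∀ (r b : G), b * b = 1 → Commute r b → Odd (orderOf r) → (r * b) ^ orderOf r = b := by
    intro r b hb hc hodd
    obtain ⟨k, hk⟩ := hodd
    rw [hc.mul_pow, pow_orderOf_eq_one, one_mul, hk, pow_succ, pow_mul, pow_two, hb, one_pow, one_mul]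
  -- first configuration
  obtain ⟨a, ha, ha1⟩ : ∃ a ∈ A, a ≠ 1 := by
    by_contra hc
    push Not at hc
    have : A = ⊥ := (Subgroup.eq_bot_iff_forall A).2 hc
    have h4 := hA.card_four
    rw [this, Subgroup.card_bot] at h4
    omega
  obtain ⟨y, hy, hyodd, hy1⟩ := exists_conj_odd_orderOf_mul a (hord a ha ha1) (hnot a ha ha1)
  have hnc : ∀ {u v : G}, u * u = 1 → v * v = 1 → Odd (orderOf (u * v)) → u * v ≠ 1 → u * v ≠ v * u := by
    intro u v hu hv hodd h1 hc
    have h2 : (u * v) ^ 2 = 1 := by
      rw [pow_two]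
      nth_rw 2 [hc]
      rw [mul_assoc, ← mul_assoc v v, hv, one_mul, hu]
    rcases (Nat.dvd_prime Nat.prime_two).1 (orderOf_dvd_of_pow_eq_one h2) with h3 | h3
    · exact h1 (orderOf_eq_one_iff.1 h3)
    · rw [h3] at hodd; exact absurd hodd (by decide)
  obtain ⟨g0, hg0⟩ := isConj_iff.1 hy
  have hy2 : y * y = 1 := by
    rw [← hg0, show g0 * a * g0⁻¹ * (g0 * a * g0⁻¹) = g0 * (a * a) * g0⁻¹ by group, hsq a ha,
      mul_one, mul_inv_cancel]
  have hay : a * y ≠ y * a := hnc (hsq a ha) hy2 hyodd hy1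
  -- choose `b` centralising `a` and `y`
  obtain ⟨b, hb, hb1⟩ : ∃ b, b ∈ A ⊓ Subgroup.centralizer ({y} : Set G) ∧ b ≠ 1 := by
    have h0 := h a ha ha1 g0
    rw [hg0] at h0
    rw [Ne, Subgroup.eq_bot_iff_forall] at h0
    push Not at h0
    exact h0
  obtain ⟨hbA, hby⟩ := hb
  replace hby : b * y = y * b := Subgroup.mem_centralizer_singleton_iff.1 hby
  have hab : a * b = b * a := hcomm a ha b hbA
  have hba : b ≠ a := fun e => hay (by rw [← e]; exact hby)
  -- the third involution
  obtain ⟨c, hc⟩ : ∃ c, c = a * b := ⟨_, rfl⟩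
  have hcA : c ∈ A := hc ▸ mul_mem ha hbA
  have hc1 : c ≠ 1 := fun e => hba (by
    calc b = a⁻¹ * (a * b) := by group
      _ = a := by rw [← hc, e, mul_one, inv_eq_of_mul_eq_one_right (hsq a ha)])
  -- every involution of `A` is one of `a, b, c`
  have hthree : ∀ x ∈ A, x ≠ 1 → x = a ∨ x = b ∨ x = c := by
    intro x hx hx1
    by_contra hcon
    push Not at hcon
    haveI : Fintype A := Fintype.ofFinite A
    have h4 := hA.card_four
    rw [Nat.card_eq_fintype_card] at h4
    classical
    have hle : ({(1 : A), ⟨a, ha⟩, ⟨b, hbA⟩, ⟨c, hcA⟩, ⟨x, hx⟩} : Finset A).card ≤ 4 :=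
      h4 ▸ Finset.card_le_univ _
    have hca : c ≠ a := fun e => hb1 (mul_eq_left.1 (hc.symm.trans e))
    have hcb : c ≠ b := fun e => ha1 (mul_eq_right.1 (hc.symm.trans e))
    rw [Finset.card_insert_of_notMem, Finset.card_insert_of_notMem, Finset.card_insert_of_notMem,
      Finset.card_insert_of_notMem, Finset.card_singleton] at hle
    · omega
    all_goals simp [Subtype.ext_iff, Ne.symm ha1, Ne.symm hb1, Ne.symm hc1, Ne.symm hba, Ne.symm hca, Ne.symm hcb, Ne.symm hx1, Ne.symm hcon.1, Ne.symm hcon.2.1, Ne.symm hcon.2.2]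
  -- a second pair
  obtain ⟨b', hb', hbodd, hb'1⟩ := exists_conj_odd_orderOf_mul b (hord b hbA hb1) (hnot b hbA hb1)
  obtain ⟨g1, hg1⟩ := isConj_iff.1 hb'
  have hb'2 : b' * b' = 1 := by
    rw [← hg1, show g1 * b * g1⁻¹ * (g1 * b * g1⁻¹) = g1 * (b * b) * g1⁻¹ by group, hsq b hbA,
      mul_one, mul_inv_cancel]
  have hbb' : b * b' ≠ b' * b := hnc (hsq b hbA) hb'2 hbodd hb'1
  -- the conjugating element in `⟨a y⟩`
  obtain ⟨k, hk⟩ := hyodd
  obtain ⟨r, hr⟩ : ∃ r, r = a * y := ⟨_, rfl⟩
  rw [← hr] at hk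
  have hbr : Commute r b := hr ▸ (Commute.mul_left hab hby.symm : Commute (a * y) b)
  have hinv : a * r * a⁻¹ = r⁻¹ := by
    rw [hr, mul_inv_rev, inv_eq_of_mul_eq_one_right (hsq a ha), inv_eq_of_mul_eq_one_right hy2,
      ← mul_assoc a a, hsq a ha, one_mul]
  let d := r ^ k
  have hdb : d * b * d⁻¹ = b := by rw [(hbr.pow_left k).eq, mul_inv_cancel_right]
  have hday : d * a * d⁻¹ = y := by
    have h1 : a * d⁻¹ = d * a := by
      have : a * d * a⁻¹ = d⁻¹ := by rw [← conj_pow, hinv, inv_pow]
      rw [← this, inv_eq_of_mul_eq_one_right (hsq a ha), ← mul_assoc, ← mul_assoc, hsq a ha, one_mul]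
    calc d * a * d⁻¹ = a * d⁻¹ * d⁻¹ := by rw [h1]
      _ = a * (d ^ 2)⁻¹ := by group
      _ = a * r := by
        congr 1
        apply inv_eq_of_mul_eq_one_right
        rw [← pow_mul, ← pow_succ, mul_comm, ← hk, pow_orderOf_eq_one]
      _ = y := by rw [hr, ← mul_assoc, hsq a ha, one_mul]
  -- `b'` commutes with `a` or `c`, and with `y` or `y b`
  have hstar : ∀ x : G, (∃ a₀ ∈ A, a₀ ≠ 1 ∧ ∃ g, g * a₀ * g⁻¹ = x) →
      (x * a = a * x ∨ x * b = b * x ∨ x * c = c * x) ∧
      (x * y = y * x ∨ x * b = b * x ∨ x * (y * b) = (y * b) * x) := by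
    rintro x ⟨a₀, ha₀, ha₀1, g, rfl⟩
    have pick : ∀ g : G, ∃ u, (u = a ∨ u = b ∨ u = c) ∧ (g * a₀ * g⁻¹) * u = u * (g * a₀ * g⁻¹) := by
      intro g
      have h0 := h a₀ ha₀ ha₀1 g
      rw [Ne, Subgroup.eq_bot_iff_forall] at h0
      push Not at h0
      obtain ⟨u, ⟨huA, hu⟩, hu1⟩ := h0
      exact ⟨u, hthree u huA hu1, (Subgroup.mem_centralizer_singleton_iff.1 hu).symm⟩
    constructor
    · obtain ⟨u, rfl | rfl | rfl, hu⟩ := pick g <;> simp [hu]
    · obtain ⟨u, hu', hu⟩ := pick (d⁻¹ * g)
      have h2 : g * a₀ * g⁻¹ * (d * u * d⁻¹) = (d * u * d⁻¹) * (g * a₀ * g⁻¹) := by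
        calc g * a₀ * g⁻¹ * (d * u * d⁻¹)
            = d * (d⁻¹ * g * a₀ * (d⁻¹ * g)⁻¹ * u) * d⁻¹ := by group
          _ = d * (u * (d⁻¹ * g * a₀ * (d⁻¹ * g)⁻¹)) * d⁻¹ := by rw [hu]
          _ = (d * u * d⁻¹) * (g * a₀ * g⁻¹) := by group
      rcases hu' with rfl | rfl | hu'
      · rw [hday] at h2; exact Or.inl h2
      · rw [hdb] at h2; exact Or.inr (Or.inl h2)
      · rw [hu'] at h2
        have : d * c * d⁻¹ = y * b := by
          rw [hc, ← conj_mul, hday, hdb]
        rw [this] at h2; exact Or.inr (Or.inr h2)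
  obtain ⟨hE1, hE2⟩ := hstar b' ⟨b, hbA, hb1, g1, hg1⟩
  have hby' : Commute b y := hby
  have hab' : Commute a b := hab
  -- a product of two elements centralising `b'` whose odd power is `b` is impossible
  have noway : ∀ u v : G, Commute u b' → Commute v b' → u * v = r * b → False := by
    intro u v hu hv e
    have h1 : Commute (r * b) b' := e ▸ hu.mul_left hv
    have h2 := h1.pow_left (orderOf r)
    rw [oddpow r b (hsq b hbA) hbr ⟨k, hk⟩] at h2
    exact hbb' h2
  rcases hE1 with hab1 | hbb1 | hcb1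
  · rcases hE2 with hyb1 | hbb2 | hybb1
    · -- `a, y` centralise `b, b'`: the conjugate `y b'` of `c` centralises nothing in `A`
      have hAy : Commute a b' := Commute.symm hab1
      have hYy : Commute y b' := Commute.symm hyb1
      obtain ⟨e, he⟩ : ∃ e, e = b * b' := ⟨_, rfl⟩
      rw [← he] at hbodd
      obtain ⟨l, hl⟩ := hbodd
      let f := e ^ l
      have hae : Commute a e := he ▸ Commute.mul_right hab' hAy
      have hye : Commute y e := he ▸ Commute.mul_right hby'.symm hYy
      have hfb : f * b * f⁻¹ = b' := by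
        have hi : b * e * b⁻¹ = e⁻¹ := by
          rw [he, mul_inv_rev, inv_eq_of_mul_eq_one_right (hsq b hbA), inv_eq_of_mul_eq_one_right hb'2,
            ← mul_assoc b b, hsq b hbA, one_mul]
        have h1 : b * f⁻¹ = f * b := by
          have : b * f * b⁻¹ = f⁻¹ := by rw [← conj_pow, hi, inv_pow]
          rw [← this, inv_eq_of_mul_eq_one_right (hsq b hbA), ← mul_assoc, ← mul_assoc, hsq b hbA, one_mul]
        calc f * b * f⁻¹ = b * f⁻¹ * f⁻¹ := by rw [h1]
          _ = b * (f ^ 2)⁻¹ := by group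
          _ = b * e := by
            congr 1
            apply inv_eq_of_mul_eq_one_right
            rw [← pow_mul, ← pow_succ, mul_comm, ← hl, pow_orderOf_eq_one]
          _ = b' := by rw [he, ← mul_assoc, hsq b hbA, one_mul]
      have hfy : f * y * f⁻¹ = y := by rw [← (hye.pow_right l).eq, mul_inv_cancel_right]
      have hconj : (f * d) * c * (f * d)⁻¹ = y * b' := by
        rw [hc, ← conj_mul]
        rw [show f * d * a * (f * d)⁻¹ = f * (d * a * d⁻¹) * f⁻¹ by group, hday, hfy,
          show f * d * b * (f * d)⁻¹ = f * (d * b * d⁻¹) * f⁻¹ by group, hdb, hfb]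
      obtain ⟨hk1, -⟩ := hstar (y * b') ⟨c, hcA, hc1, f * d, hconj⟩
      rcases hk1 with hq | hq | hq
      · apply hay
        have : a * y * b' = y * a * b' := by
          rw [mul_assoc, ← hq, mul_assoc, ← hAy.eq, ← mul_assoc]
        exact mul_right_cancel this
      · apply hbb'
        have : y * (b * b') = y * (b' * b) := by
          rw [← mul_assoc, ← hby'.eq, mul_assoc, ← hq, mul_assoc]
        exact mul_left_cancel this
      · rw [hc] at hq
        -- `y b'` against `a b`
        have h1 : (y * a) * (b' * b) = (a * y) * (b * b') := by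
          calc (y * a) * (b' * b) = y * b' * (a * b) := by
                rw [mul_assoc y a, ← mul_assoc a b', hAy.eq, mul_assoc b', ← mul_assoc]
            _ = a * b * (y * b') := hq
            _ = (a * y) * (b * b') := by rw [mul_assoc a b, ← mul_assoc b y, hby'.eq, mul_assoc y, ← mul_assoc]
        have h2 : r ^ 2 = (b' * b) ^ 2 := by
          have e3 : r⁻¹ * (b * b')⁻¹ = r * (b * b') := by
            rw [hr, mul_inv_rev a y, mul_inv_rev b b', inv_eq_of_mul_eq_one_right (hsq a ha),
              inv_eq_of_mul_eq_one_right hy2, inv_eq_of_mul_eq_one_right (hsq b hbA),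
              inv_eq_of_mul_eq_one_right hb'2]
            exact h1
          calc r ^ 2 = r * (r⁻¹ * (b * b')⁻¹ * (b * b')⁻¹) * 1 := by rw [e3, pow_two]; group
            _ = (b' * b) ^ 2 := by
              rw [mul_one, ← mul_assoc, ← mul_assoc, mul_inv_cancel, one_mul, mul_inv_rev,
                inv_eq_of_mul_eq_one_right (hsq b hbA), inv_eq_of_mul_eq_one_right hb'2, pow_two]
        -- `r` has odd order, so `r` lies in `⟨r ^ 2⟩`, which centralises `b` and is centralised by `a`
        have h3 : Commute a (r ^ 2) := h2 ▸ (hAy.mul_right hab').pow_right 2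
        have h4 : Commute a r := by
          have : r = (r ^ 2) ^ (k + 1) := by
            rw [← pow_mul, show 2 * (k + 1) = (2 * k + 1) + 1 by ring, pow_succ, ← hk, pow_orderOf_eq_one, one_mul]
          rw [this]
          exact h3.pow_right (k + 1)
        have h5 := h4.eq
        rw [hr, ← mul_assoc, hsq a ha, one_mul] at h5
        exact hay (by
          calc a * y = a * (a * y * a) := by rw [← h5]
            _ = y * a := by rw [← mul_assoc, ← mul_assoc, hsq a ha, one_mul])
    · exact hbb' hbb2.symm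
    · exact noway a (y * b) (Commute.symm hab1) (Commute.symm hybb1) (by rw [hr, mul_assoc])
  · exact hbb' hbb1.symm
  · rcases hE2 with hyb1 | hbb2 | hybb1
    · exact noway c y (Commute.symm hcb1) (Commute.symm hyb1) (by
        rw [hc, hr, mul_assoc, hby, ← mul_assoc])
    · exact hbb' hbb2.symm
    · -- `c, y b` centralise `b, b'`
      have hCy : Commute c b' := Commute.symm hcb1
      have hDy : Commute (y * b) b' := Commute.symm hybb1
      obtain ⟨e, he⟩ : ∃ e, e = b * b' := ⟨_, rfl⟩
      rw [← he] at hbodd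
      obtain ⟨l, hl⟩ := hbodd
      let f := e ^ l
      have hye : Commute (y * b) e := he ▸ Commute.mul_right (Commute.mul_left hby'.symm (Commute.refl b)) hDy
      have hfb : f * b * f⁻¹ = b' := by
        have hi : b * e * b⁻¹ = e⁻¹ := by
          rw [he, mul_inv_rev, inv_eq_of_mul_eq_one_right (hsq b hbA), inv_eq_of_mul_eq_one_right hb'2,
            ← mul_assoc b b, hsq b hbA, one_mul]
        have h1 : b * f⁻¹ = f * b := by
          have : b * f * b⁻¹ = f⁻¹ := by rw [← conj_pow, hi, inv_pow]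
          rw [← this, inv_eq_of_mul_eq_one_right (hsq b hbA), ← mul_assoc, ← mul_assoc, hsq b hbA, one_mul]
        calc f * b * f⁻¹ = b * f⁻¹ * f⁻¹ := by rw [h1]
          _ = b * (f ^ 2)⁻¹ := by group
          _ = b * e := by
            congr 1
            apply inv_eq_of_mul_eq_one_right
            rw [← pow_mul, ← pow_succ, mul_comm, ← hl, pow_orderOf_eq_one]
          _ = b' := by rw [he, ← mul_assoc, hsq b hbA, one_mul]
      have hfyb : f * (y * b) * f⁻¹ = y * b := by rw [← (hye.pow_right l).eq, mul_inv_cancel_right]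
      -- a conjugate of `a`
      have hconj : (f * d) * a * (f * d)⁻¹ = y * b * b' := by
        rw [show f * d * a * (f * d)⁻¹ = f * (d * a * d⁻¹) * f⁻¹ by group, hday]
        calc f * y * f⁻¹ = f * (y * b * b) * f⁻¹ := by rw [mul_assoc y, hsq b hbA, mul_one]
          _ = (f * (y * b) * f⁻¹) * (f * b * f⁻¹) := by group
          _ = y * b * b' := by rw [hfyb, hfb]
      obtain ⟨hk1, -⟩ := hstar (y * b * b') ⟨a, ha, ha1, f * d, hconj⟩
      have hcyb : c * (y * b) ≠ (y * b) * c := by
        intro e2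
        apply hay
        have h1 : c * (y * b) = a * y := by
          rw [hc, mul_assoc a b, ← mul_assoc b y, hby'.eq, mul_assoc y b, hsq b hbA, mul_one]
        have h2 : y * b * c = y * a := by
          rw [hc, hab, mul_assoc y b, ← mul_assoc b b, hsq b hbA, one_mul]
        rw [← h1, ← h2]; exact e2
      have hb_yb : Commute b (y * b) := Commute.mul_right hby' (Commute.refl b)
      have hbc : Commute b c := hc ▸ Commute.mul_right hab'.symm (Commute.refl b)
      rcases hk1 with hq | hq | hq
      · -- commuting with `a = c b`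
        have hacb : a = c * b := by rw [hc, mul_assoc, hsq b hbA, mul_one]
        rw [hacb] at hq
        have h1 : (y * b * c) * (b' * b) = (c * (y * b)) * (b * b') := by
          calc (y * b * c) * (b' * b) = y * b * b' * (c * b) := by
                rw [mul_assoc (y * b) c, ← mul_assoc c b', hCy.eq, mul_assoc b', ← mul_assoc]
            _ = c * b * (y * b * b') := hq
            _ = (c * (y * b)) * (b * b') := by
                rw [mul_assoc c b, ← mul_assoc b (y * b), hb_yb.eq, mul_assoc (y * b), ← mul_assoc]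
        have h1' : c * (y * b) = r := by
          rw [hc, hr, mul_assoc a b, ← mul_assoc b y, hby'.eq, mul_assoc y b, hsq b hbA, mul_one]
        have h1'' : y * b * c = r⁻¹ := by
          rw [hr, mul_inv_rev, inv_eq_of_mul_eq_one_right (hsq a ha), inv_eq_of_mul_eq_one_right hy2,
            hc, hab, mul_assoc y b, ← mul_assoc b b, hsq b hbA, one_mul]
        rw [h1', h1''] at h1
        have e3 : b' * b = (b * b')⁻¹ := by
          rw [mul_inv_rev, inv_eq_of_mul_eq_one_right (hsq b hbA), inv_eq_of_mul_eq_one_right hb'2]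
        rw [e3] at h1
        have h2 : r ^ 2 = (b' * b) ^ 2 := by
          calc r ^ 2 = r * (r * (b * b') * (b * b')⁻¹) := by rw [pow_two]; group
            _ = r * (r⁻¹ * (b * b')⁻¹ * (b * b')⁻¹) := by rw [h1]
            _ = (b' * b) ^ 2 := by rw [← mul_assoc, ← mul_assoc, mul_inv_cancel, one_mul, e3, pow_two]
        have h3 : Commute c (r ^ 2) := h2 ▸ (hCy.mul_right hbc.symm).pow_right 2
        have h4 : Commute c r := by
          have : r = (r ^ 2) ^ (k + 1) := by
            rw [← pow_mul, show 2 * (k + 1) = (2 * k + 1) + 1 by ring, pow_succ, ← hk, pow_orderOf_eq_one, one_mul]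
          rw [this]
          exact h3.pow_right (k + 1)
        rw [← h1'] at h4
        refine hcyb ?_
        calc c * (y * b) = c * (c * (y * b) * c) * 1 := by
              rw [← h4.eq, ← mul_assoc c c, hsq c hcA, one_mul, mul_one]
          _ = (y * b) * c := by rw [mul_one, ← mul_assoc, ← mul_assoc, hsq c hcA, one_mul]
      · apply hbb'
        have : y * b * (b * b') = y * b * (b' * b) := by
          rw [← mul_assoc, ← hb_yb.eq, mul_assoc, ← hq, mul_assoc]
        exact mul_left_cancel this
      · apply hcyb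
        have : c * (y * b) * b' = y * b * c * b' := by
          rw [mul_assoc, ← hq, mul_assoc, ← hCy.eq, ← mul_assoc]
        exact mul_right_cancel this

end Cfsg.Agent.S3195
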