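import Cfsg.Statements.S3196
import Cfsg.Agent.Lib.InvChar.Basic
import Cfsg.Agent.Lib.Cores.PCore

set_option autoImplicit false
open Cfsg
open CfsgLib.InvChar

namespace Cfsg.Agent.S3196

/-- Let p be a prime and K a set of subgroups of order p of a finite group G, closed under conjugation, such that at least two distinct members of K commute elementwise, and whenever two distinct members X, Y of K commute: every subgroup of order p of the group XY they generate belongs to K, and every member W of K has centralizer meeting XY nontrivially. Then some member V of K commutes elementwise with every member of K and lies in O_p(G); in particular G is not simple. -/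
theorem result {G : Type*} [Group G] [Finite G]
    {p : ℕ} (hp : p.Prime) (K : Set (Subgroup G)) (hK : ∀ X ∈ K, Nat.card ↥X = p)
    (hKc : ∀ X ∈ K, ∀ g : G, X.map (MulAut.conj g).toMonoidHom ∈ K)
    (hex : ∃ X ∈ K, ∃ Y ∈ K, X ≠ Y ∧ ∀ x ∈ X, ∀ y ∈ Y, x * y = y * x)
    (ha : ∀ X ∈ K, ∀ Y ∈ K, X ≠ Y → (∀ x ∈ X, ∀ y ∈ Y, x * y = y * x) →
      ∀ Z : Subgroup G, Z ≤ X ⊔ Y → Nat.card ↥Z = p → Z ∈ K)
    (hb : ∀ X ∈ K, ∀ Y ∈ K, X ≠ Y → (∀ x ∈ X, ∀ y ∈ Y, x * y = y * x) →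
      ∀ W ∈ K, (X ⊔ Y) ⊓ Subgroup.centralizer (W : Set G) ≠ ⊥) :
    (∃ V ∈ K, (∀ W ∈ K, ∀ v ∈ V, ∀ w ∈ W, v * w = w * v) ∧ V ≤ Cfsg.pCore p G) ∧ ¬ IsSimpleGroup G := by
  haveI : Fact p.Prime := ⟨hp⟩
  classical
  let adj : Subgroup G → Subgroup G → Prop := fun X Y => X ≤ Subgroup.centralizer (Y : Set G)
  have adj_of : ∀ X Y : Subgroup G, (∀ x ∈ X, ∀ y ∈ Y, x * y = y * x) → adj X Y := fun X Y h x hx =>
    Subgroup.mem_centralizer_iff.2 fun y hy => (h x hx y hy).symm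
  have of_adj : ∀ X Y : Subgroup G, adj X Y → ∀ x ∈ X, ∀ y ∈ Y, x * y = y * x := fun X Y h x hx y hy =>
    (Subgroup.mem_centralizer_iff.1 (h hx) y hy).symm
  have symm : ∀ X Y : Subgroup G, adj X Y → adj Y X := fun X Y h => Subgroup.le_centralizer_iff.1 h
  have hne1 : ∀ X ∈ K, ∃ x ∈ X, x ≠ 1 := by
    intro X hX
    by_contra hcon
    push Not at hcon
    have := hK X hX
    rw [(Subgroup.eq_bot_iff_forall X).2 hcon, Subgroup.card_bot] at this
    exact hp.ne_one this.symm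
  have self : ∀ X ∈ K, adj X X := by
    intro X hX
    haveI : IsCyclic X := isCyclic_of_prime_card (hK X hX)
    exact Subgroup.le_centralizer_iff_isMulCommutative.2 inferInstance
  -- a line has `p ^ 2` points and exponent `p`
  have line : ∀ X ∈ K, ∀ Y ∈ K, adj X Y → X ≠ Y →
      Nat.card ↥(X ⊔ Y) = p * p ∧ (∀ g ∈ X ⊔ Y, g ^ p = 1) := by
    intro X hX Y hY hXY hne
    let φ : X × Y →* G := MonoidHom.noncommCoprod X.subtype Y.subtype
      (fun x y => of_adj X Y hXY x x.2 y y.2)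
    have hrange : φ.range = X ⊔ Y := by
      exact (MonoidHom.noncommCoprod_range ..).trans (by simp)
    have hinj : Function.Injective φ := by
      rw [injective_iff_map_eq_one]
      rintro ⟨x, y⟩ h
      have hxy : (x : G) = (y : G)⁻¹ := eq_inv_of_mul_eq_one_left h
      have hd : Nat.card ↥(X ⊓ Y) = 1 := by
        have := Subgroup.card_dvd_of_le (inf_le_left : X ⊓ Y ≤ X)
        rw [hK X hX] at this
        refine ((Nat.dvd_prime hp).1 this).resolve_right fun h2 => hne ?_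
        have e1 := Subgroup.eq_of_le_of_card_ge (inf_le_left : X ⊓ Y ≤ X) (by rw [h2, hK X hX])
        have e2 := Subgroup.eq_of_le_of_card_ge (inf_le_right : X ⊓ Y ≤ Y) (by rw [h2, hK Y hY])
        exact e1.symm.trans e2
      have hb := Subgroup.card_eq_one.1 hd
      have hx1 : (x : G) = 1 := Subgroup.mem_bot.1 (hb ▸ ⟨x.2, by show (x : G) ∈ Y; rw [hxy]; exact Y.inv_mem y.2⟩)
      exact Prod.ext (Subtype.ext hx1) (Subtype.ext (inv_eq_one.1 (hxy ▸ hx1)))
    constructor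
    · rw [← hrange, ← Nat.card_congr (MonoidHom.ofInjective hinj).toEquiv, Nat.card_prod]
      exact congrArg₂ (· * ·) (hK X hX) (hK Y hY)
    · rintro g hg
      rw [← hrange] at hg
      obtain ⟨⟨x, y⟩, rfl⟩ := hg
      rw [← map_pow]
      have hx : x ^ p = 1 := hK X hX ▸ pow_card_eq_one'
      have hy : y ^ p = 1 := hK Y hY ▸ pow_card_eq_one'
      rw [Prod.pow_mk, hx, hy]; exact map_one φ
  have pt : ∀ X ∈ K, ∀ Y ∈ K, adj X Y → X ≠ Y → ∀ g ∈ X ⊔ Y, g ≠ 1 → Subgroup.zpowers g ∈ K := by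
    intro X hX Y hY hXY hne g hg hg1
    refine ha X hX Y hY hne (of_adj X Y hXY) _ (Subgroup.zpowers_le.2 hg) ?_
    rw [Nat.card_zpowers]
    exact orderOf_eq_prime ((line X hX Y hY hXY hne).2 g hg) hg1
  have meet : ∀ X ∈ K, ∀ Y ∈ K, adj X Y → X ≠ Y → ∀ W ∈ K, ∃ Z ∈ K, Z ≤ X ⊔ Y ∧ adj Z W := by
    intro X hX Y hY hXY hne W hW
    have h0 := hb X hX Y hY hne (of_adj X Y hXY) W hW
    rw [Ne, Subgroup.eq_bot_iff_forall] at h0
    push Not at h0
    obtain ⟨g, ⟨hg1, hg2⟩, hg3⟩ := h0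
    exact ⟨_, pt X hX Y hY hXY hne g hg1 hg3, Subgroup.zpowers_le.2 hg1, Subgroup.zpowers_le.2 hg2⟩
  have span : ∀ X ∈ K, ∀ Y ∈ K, adj X Y → X ≠ Y → ∀ Z ∈ K, ∀ Z' ∈ K, Z ≤ X ⊔ Y → Z' ≤ X ⊔ Y → Z ≠ Z' →
      adj Z Z' ∧ Z ⊔ Z' = X ⊔ Y := by
    intro X hX Y hY hXY hne Z hZ Z' hZ' hl hl' hne'
    have habel : X ⊔ Y ≤ Subgroup.centralizer ((X ⊔ Y : Subgroup G) : Set G) := by
      refine sup_le (Subgroup.le_centralizer_iff.1 (sup_le ?_ ?_)) (Subgroup.le_centralizer_iff.1 (sup_le ?_ ?_))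
      · exact self X hX
      · exact symm _ _ hXY
      · exact hXY
      · exact self Y hY
    have hadj : adj Z Z' := (hl.trans habel).trans (Subgroup.centralizer_le hl')
    refine ⟨hadj, Subgroup.eq_of_le_of_card_ge (sup_le hl hl') ?_⟩
    rw [(line X hX Y hY hXY hne).1, (line Z hZ Z' hZ' hadj hne').1]
  have adj_sup : ∀ (X Y W : Subgroup G), adj X W → adj Y W → adj (X ⊔ Y) W := fun X Y W h h' => sup_le h h'
  have adj_le : ∀ (X Y W : Subgroup G), X ≤ Y → adj Y W → adj X W := fun X Y W h h' => h.trans h'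
  -- if `W` centralises two points of a line it centralises the line
  have two : ∀ X ∈ K, ∀ Y ∈ K, adj X Y → X ≠ Y → ∀ Z ∈ K, ∀ Z' ∈ K, Z ≤ X ⊔ Y → Z' ≤ X ⊔ Y → Z ≠ Z' →
      ∀ W : Subgroup G, adj Z W → adj Z' W → adj X W ∧ adj Y W := by
    intro X hX Y hY hXY hne Z hZ Z' hZ' hl hl' hne' W h h'
    have := adj_sup Z Z' W h h'
    rw [(span X hX Y hY hXY hne Z hZ Z' hZ' hl hl' hne').2] at this
    exact ⟨adj_le _ _ _ le_sup_left this, adj_le _ _ _ le_sup_right this⟩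
  suffices huniv : ∃ V ∈ K, ∀ W ∈ K, adj V W by
    obtain ⟨V, hV, hVW⟩ := huniv
    let T : Subgroup G := sSup K
    have hTnormal : T.Normal := by
      refine ⟨fun x hx g => ?_⟩
      have : cj g T ≤ T := by
        show Subgroup.map _ (sSup K) ≤ T
        rw [(Subgroup.gc_map_comap _).l_sSup]
        exact iSup₂_le fun X hX => le_sSup (hKc X hX g)
      exact this (conj_mem_cj hx)
    let Z : Subgroup G := T ⊓ Subgroup.centralizer (T : Set G)
    have hVT : V ≤ Z := le_inf (le_sSup hV)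
      (Subgroup.le_centralizer_iff.1 (sSup_le fun W hW => symm _ _ (hVW W hW)))
    haveI : T.Normal := hTnormal
    haveI : Z.Normal := Subgroup.normal_inf_normal _ _
    -- the `p`-part of the abelian normal subgroup
    obtain ⟨P, hP⟩ := ((IsPGroup.of_card (n := 1) (by rw [hK V hV, pow_one]) : IsPGroup p V).comap_subtype (K := Z)).exists_le_sylow
    haveI : IsMulCommutative Z := ⟨⟨fun a b => Subtype.ext (Subgroup.mem_centralizer_iff.1 b.2.2 a a.2.1)⟩⟩
    haveI : (P : Subgroup Z).Normal := ⟨fun x hx g => by rw [mul_comm' g x, mul_inv_cancel_right]; exact hx⟩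
    haveI : (P : Subgroup Z).Characteristic := Sylow.characteristic_of_normal P inferInstance
    haveI : ((P : Subgroup Z).map Z.subtype).Normal := ConjAct.normal_of_characteristic_of_normal
    have hVp : V ≤ Cfsg.pCore p G :=
      (show V ≤ (P : Subgroup Z).map Z.subtype from fun x hx => ⟨⟨x, hVT hx⟩, hP hx, rfl⟩).trans
        (CfsgLib.Cores.le_pCore (P.2.map _))
    refine ⟨⟨V, hV, fun W hW => of_adj V W (hVW W hW), hVp⟩, fun hs => ?_⟩
    obtain ⟨v, hv, hv1⟩ := hne1 V hV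
    haveI : (Cfsg.pCore p G).Normal := by
      refine ⟨fun x hx g => ?_⟩
      have h1 := CfsgLib.Cores.map_pCore_equiv (p := p) (MulAut.conj g)
      rw [← h1]
      exact ⟨x, hx, rfl⟩
    have htop : Cfsg.pCore p G = ⊤ :=
      ((hs.eq_bot_or_eq_top_of_normal _ inferInstance)).resolve_left fun e => hv1 (Subgroup.mem_bot.1 (e ▸ hVp hv))
    have hpG : IsPGroup p G := CfsgLib.Cores.pCore_eq_top_iff.1 htop
    haveI := hs.toNontrivial
    have hc : Subgroup.center G = ⊤ := (hs.eq_bot_or_eq_top_of_normal _ inferInstance).resolve_left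
      hpG.bot_lt_center.ne'
    haveI : IsSimpleGroup G := hs
    letI : CommGroup G := Group.commGroupOfCenterEqTop hc
    have hpr : (Nat.card G).Prime := IsSimpleGroup.prime_card
    obtain ⟨X, hX, Y, hY, hne, -⟩ := hex
    have top : ∀ X ∈ K, X = ⊤ := fun X hX => by
      refine Subgroup.eq_top_of_card_eq _ ?_
      exact ((Nat.dvd_prime hpr).1 X.card_subgroup_dvd_card).resolve_left (by rw [hK X hX]; exact hp.ne_one)
    exact hne ((top X hX).trans (top Y hY).symm)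
  by_contra hcon
  push Not at hcon
  obtain ⟨X₀, hX₀, Y₀, hY₀, hne₀, hcom₀⟩ := hex
  have hadj₀ : adj X₀ Y₀ := adj_of _ _ hcom₀
  -- every point lies on a line
  have nbr : ∀ W ∈ K, ∃ C ∈ K, C ≠ W ∧ adj C W := by
    intro W hW
    obtain ⟨C, hC, hCle, hCW⟩ := meet X₀ hX₀ Y₀ hY₀ hadj₀ hne₀ W hW
    by_cases hCW' : C = W
    · subst hCW'
      by_cases h : X₀ = C
      · exact ⟨Y₀, hY₀, fun e => hne₀ (h.trans e.symm), h ▸ symm _ _ hadj₀⟩
      · exact ⟨X₀, hX₀, h, (span X₀ hX₀ Y₀ hY₀ hadj₀ hne₀ X₀ hX₀ C hC le_sup_left hCle h).1⟩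
    · exact ⟨C, hC, hCW', hCW⟩
  -- the common neighbourhood of two non-adjacent points is non-empty
  have common : ∀ W ∈ K, ∀ X ∈ K, ¬ adj W X → ∃ Z ∈ K, adj Z W ∧ adj Z X := by
    intro W hW X hX hn
    obtain ⟨C, hC, hCW, hadj⟩ := nbr W hW
    obtain ⟨Z, hZ, hZle, hZX⟩ := meet C hC W hW hadj hCW X hX
    exact ⟨Z, hZ, adj_le _ _ _ hZle (adj_sup _ _ _ hadj (self W hW)), hZX⟩
  -- ... and has no universal point
  have nouniv : ∀ W ∈ K, ∀ X ∈ K, ¬ adj W X → ∀ V ∈ K, adj V W → adj V X →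
      ∃ Z ∈ K, adj Z W ∧ adj Z X ∧ ¬ adj Z V := by
    intro W hW X hX hn V hV hVW hVX
    obtain ⟨Q, hQ, hVQ⟩ := hcon V hV
    have hXV : X ≠ V := fun e => hn (symm _ _ (e ▸ hVW))
    obtain ⟨B, hB, hBle, hBQ⟩ := meet X hX V hV (symm _ _ hVX) hXV Q hQ
    have hBV : adj B V := adj_le _ _ _ hBle (adj_sup _ _ _ (symm _ _ hVX) (self V hV))
    have hBneV : B ≠ V := fun e => hVQ (e ▸ hBQ)
    have hBneQ : B ≠ Q := fun e => hVQ (symm _ _ (e ▸ hBV))
    obtain ⟨C, hC, hCle, hCW⟩ := meet B hB Q hQ hBQ hBneQ W hW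
    -- `W` is not adjacent to `B`
    have hBW : ¬ adj B W := by
      intro hBW
      obtain ⟨h1, -⟩ := two X hX V hV (symm _ _ hVX) hXV B hB V hV hBle le_sup_right hBneV W hBW hVW
      exact hn (symm _ _ h1)
    have hCB : C ≠ B := fun e => hBW (e ▸ hCW)
    have hCV : ¬ adj C V := by
      intro hCV
      exact hVQ (symm _ _ (two B hB Q hQ hBQ hBneQ C hC B hB hCle le_sup_left hCB V hCV hBV).2)
    have hCneW : C ≠ W := fun e => hBW (by
      have := (span B hB Q hQ hBQ hBneQ C hC B hB hCle le_sup_left hCB).1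
      exact symm _ _ (e ▸ this))
    obtain ⟨Z, hZ, hZle, hZX⟩ := meet C hC W hW hCW hCneW X hX
    have hZW : adj Z W := adj_le _ _ _ hZle (adj_sup _ _ _ hCW (self W hW))
    refine ⟨Z, hZ, hZW, hZX, fun hZV => hCV ?_⟩
    have hZneW : Z ≠ W := fun e => hn (e ▸ hZX)
    exact (two C hC W hW hCW hCneW Z hZ W hW hZle le_sup_right hZneW V hZV (symm _ _ hVW)).1
  obtain ⟨X, hX, W, hW, hWX⟩ : ∃ X ∈ K, ∃ W ∈ K, ¬ adj W X := by
    obtain ⟨W, hW, h⟩ := hcon X₀ hX₀
    exact ⟨W, hW, X₀, hX₀, h⟩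
  obtain ⟨Z, hZ, hZW, hZX⟩ := common W hW X hX hWX
  obtain ⟨Z', hZ', hZ'W, hZ'X, hZ'Z⟩ := nouniv W hW X hX hWX Z hZ hZW hZX
  obtain ⟨x, hx, hx1⟩ := hne1 X hX
  obtain ⟨z, hz, hz1⟩ := hne1 Z hZ
  have gen : ∀ U ∈ K, ∀ u ∈ U, u ≠ 1 → Subgroup.zpowers u = U := by
    intro U hU u hu hu1
    refine Subgroup.eq_of_le_of_card_ge (Subgroup.zpowers_le.2 hu) ?_
    have h1 := Subgroup.card_dvd_of_le (Subgroup.zpowers_le.2 hu)
    rw [hK U hU, Nat.card_zpowers] at h1
    rw [hK U hU, Nat.card_zpowers, ((Nat.dvd_prime hp).1 h1).resolve_left (fun h => hu1 (orderOf_eq_one_iff.1 h))]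
  -- `W' = W ^ x`
  set W' := cj x W with hW'def
  have hW' : W' ∈ K := hKc W hW x
  have zfix : cj z W = W := by
    rw [cj_eq_self_iff, Subgroup.mem_normalizer_iff]
    intro w
    have hzc : ∀ v ∈ W, z * v = v * z := fun v hv => of_adj _ _ hZW z hz v hv
    constructor
    · intro hw; rw [hzc w hw, mul_inv_cancel_right]; exact hw
    · intro hw
      have h5 := hzc _ hw
      have : z * w * z⁻¹ = w := by
        calc z * w * z⁻¹ = z⁻¹ * (z * (z * w * z⁻¹)) := by group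
          _ = z⁻¹ * ((z * w * z⁻¹) * z) := by rw [h5]
          _ = w := by group
      rwa [this] at hw
  have hW'eq : W' = cj (x * z) W := by rw [cj_mul, zfix]
  -- `T = ⟨x z⟩`
  have hxz1 : x * z ≠ 1 := by
    intro e
    have : x ∈ Z := by rw [eq_inv_of_mul_eq_one_left e]; exact inv_mem hz
    exact hWX (symm _ _ (adj_le _ _ _ (gen X hX x hx hx1 ▸ Subgroup.zpowers_le.2 this) hZW))
  have hXZne : X ≠ Z := fun e => hWX (symm _ _ (e ▸ hZW))
  set T := Subgroup.zpowers (x * z) with hTdef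
  have hTK : T ∈ K := pt X hX Z hZ (symm _ _ hZX) hXZne _ (mul_mem (Subgroup.mem_sup_left hx) (Subgroup.mem_sup_right hz)) hxz1
  have hWZ' : W ≠ Z' := fun e => hWX (e ▸ hZ'X)
  obtain ⟨U, hU, hUle, hUT⟩ := meet W hW Z' hZ' (symm _ _ hZ'W) hWZ' T hTK
  have hxz_mem : x * z ∈ T := Subgroup.mem_zpowers _
  have hUW : U ≠ W := by
    intro e
    subst e
    apply hWX
    refine symm _ _ ?_
    rw [← gen X hX x hx hx1]
    refine Subgroup.zpowers_le.2 ?_
    have h1 : x * z ∈ Subgroup.centralizer (U : Set G) := symm _ _ hUT hxz_mem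
    have h2 : z ∈ Subgroup.centralizer (U : Set G) := hZW hz
    simpa [mul_assoc] using mul_mem h1 (inv_mem h2)
  have hUZ' : U ≠ Z' := by
    intro e
    subst e
    apply hZ'Z
    refine symm _ _ ?_
    rw [← gen Z hZ z hz hz1]
    refine Subgroup.zpowers_le.2 ?_
    have h1 : x * z ∈ Subgroup.centralizer (U : Set G) := symm _ _ hUT hxz_mem
    have h2 : x ∈ Subgroup.centralizer (U : Set G) := symm _ _ hZ'X hx
    simpa using mul_mem (inv_mem h2) h1
  -- transport of commuting by conjugation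
  have trans_adj : ∀ (g : G) (A B : Subgroup G), adj A B → g ∈ Subgroup.centralizer (A : Set G) → adj A (cj g B) := by
    intro g A B hAB hg
    refine adj_of _ _ fun a ha' y hy => ?_
    rw [mem_cj] at hy
    have h1 := of_adj _ _ hAB a ha' _ hy
    have h2 := Subgroup.mem_centralizer_iff.1 hg a ha'
    calc a * y = (a * g) * (g⁻¹ * y * g) * g⁻¹ := by group
      _ = (g * a) * (g⁻¹ * y * g) * g⁻¹ := by rw [h2]
      _ = g * (a * (g⁻¹ * y * g)) * g⁻¹ := by group
      _ = g * ((g⁻¹ * y * g) * a) * g⁻¹ := by rw [h1]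
      _ = y * (g * a) * g⁻¹ := by group
      _ = y * (a * g) * g⁻¹ := by rw [h2]
      _ = y * a := by group
  have hW'Z' : adj Z' W' := trans_adj x Z' W hZ'W (symm _ _ hZ'X hx)
  have hUW2 : adj U W := adj_le _ _ _ hUle (adj_sup _ _ _ (self W hW) hZ'W)
  have hW'U : adj U W' := hW'eq ▸ trans_adj (x * z) U W hUW2 (symm _ _ hUT hxz_mem)
  have hWW' : adj W W' := (two W hW Z' hZ' (symm _ _ hZ'W) hWZ' U hU Z' hZ' hUle le_sup_right hUZ' W' hW'U hW'Z').1
  by_cases heq : W' = W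
  · -- then `x` centralises `W`
    apply hWX
    obtain ⟨w, hw, hw1⟩ := hne1 W hW
    have hxn : x ∈ Subgroup.normalizer (W : Set G) := cj_eq_self_iff.1 heq
    haveI : IsCyclic W := isCyclic_of_prime_card (hK W hW)
    let φ := (Subgroup.normalizerMonoidHom W) ⟨x, hxn⟩
    have hφ : φ = 1 := by
      have h1 : orderOf φ ∣ p := by
        have hxo : x ^ p = 1 := by
          have h := pow_card_eq_one' (x := (⟨x, hx⟩ : X))
          rw [hK X hX] at h
          exact congrArg Subtype.val h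
        have e : (⟨x, hxn⟩ : ↥(Subgroup.normalizer (W : Set G))) ^ p = 1 := Subtype.ext hxo
        rw [orderOf_dvd_iff_pow_eq_one]
        show (Subgroup.normalizerMonoidHom W) ⟨x, hxn⟩ ^ p = 1
        rw [← map_pow, e, map_one]
      have h2 : orderOf φ ∣ p - 1 := by
        rw [← Nat.totient_prime hp, ← hK W hW, ← IsCyclic.card_mulAut]
        exact orderOf_dvd_natCard φ
      have hco : Nat.Coprime p (p - 1) := by
        have h := (Nat.coprime_self_sub_right hp.one_le).2 (Nat.coprime_one_right p)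
        exact h
      exact orderOf_eq_one_iff.1 (Nat.eq_one_of_dvd_coprimes hco h1 h2)
    refine symm _ _ ?_
    rw [← gen X hX x hx hx1]
    refine Subgroup.zpowers_le.2 (Subgroup.mem_centralizer_iff.2 fun v hv => ?_)
    have hφv := congrArg (fun ψ : MulAut W => ((ψ ⟨v, hv⟩ : W) : G)) hφ
    simp only [φ, MulAut.one_apply] at hφv
    exact (mul_inv_eq_iff_eq_mul.1 hφv).symm
  · obtain ⟨V, hV, hVle, hVX⟩ := meet W hW W' hW' hWW' (Ne.symm heq) X hX
    have hVW : adj V W := adj_le _ _ _ hVle (adj_sup _ _ _ (self W hW) (symm _ _ hWW'))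
    obtain ⟨R, hR, hRW, hRX, hRV⟩ := nouniv W hW X hX hWX V hV hVW hVX
    exact hRV (symm _ _ (adj_le _ _ _ hVle (adj_sup _ _ _ (symm _ _ hRW)
      (symm _ _ (trans_adj x R W hRW (symm _ _ hRX hx))))))

end Cfsg.Agent.S3196
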