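import Cfsg.Statements.S3197
import Cfsg.Agent.Lib.AEightThreeClasses.Main

set_option autoImplicit false
open Cfsg

namespace Cfsg.Agent.S3197

/-- Let G be a finite group whose Sylow 2-subgroups are isomorphic to those of the alternating group of degree 8, with exactly three conjugacy classes of involutions, and containing an elementary abelian subgroup A of order 16 whose normalizer N satisfies: A·O(N) is normal in N with quotient N/(A·O(N)) isomorphic to the alternating group of degree 5, O(N) being the largest normal subgroup of odd order of N. Then A·O(G) is a normal subgroup of G. -/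
theorem result {G : Type*} [Group G] [Finite G]
    (S : Sylow 2 G) (P : Sylow 2 ↥(alternatingGroup (Fin 8)))
    (hS : Nonempty (↥(S : Subgroup G) ≃* ↥(P : Subgroup ↥(alternatingGroup (Fin 8)))))
    (h3 : Nat.card {c : ConjClasses G // ∃ x ∈ c.carrier, orderOf x = 2} = 3)
    (A : Subgroup G) (hA : Cfsg.IsElementaryAbelian 2 A) (hA16 : Nat.card ↥A = 16)
    (N : Subgroup G) (hN : N = Subgroup.normalizer (A : Set G))
    (hNA : ∃ (_ : (A.subgroupOf N ⊔ Cfsg.oddCore ↥N).Normal),
      Nonempty (↥N ⧸ (A.subgroupOf N ⊔ Cfsg.oddCore ↥N) ≃* ↥(alternatingGroup (Fin 5)))) :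
    (A ⊔ Cfsg.oddCore G).Normal := by
  subst hN
  exact CfsgLib.AEightThreeClasses.sup_oddCore_normal S P hS h3 A hA hA16 hNA

end Cfsg.Agent.S3197
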