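import Cfsg.Statements.S3200
import Cfsg.Agent.Lib.InvChar.Basic
import Cfsg.Agent.Lib.Hall.Existence
import Cfsg.Agent.Lib.CharTheory.Burnside
import Cfsg.Agent.Lib.PSolvable.Basic

set_option autoImplicit false
open Cfsg
open CfsgLib.InvChar

namespace Cfsg.Agent.S3200

universe v

/-- An abelian subgroup of odd order and 2-power index. -/
def Good (G : Type*) [Group G] : Prop :=
  ∃ C : Subgroup G, IsMulCommutative C ∧ Odd (Nat.card C) ∧ ∃ k, C.index = 2 ^ k

theorem good_pair {G : Type*} [Group G] [Finite G] (h : Good G) :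
    ∃ (P : Sylow 2 G) (D : Subgroup G), IsMulCommutative D ∧ Subgroup.IsComplement' (P : Subgroup G) D := by
  haveI : Fact (Nat.Prime 2) := ⟨Nat.prime_two⟩
  obtain ⟨C, hC, hodd, k, hk⟩ := h
  obtain ⟨P⟩ : Nonempty (Sylow 2 G) := inferInstance
  refine ⟨P, C, hC, Subgroup.isComplement'_of_coprime ?_ ?_⟩
  · have hcard := C.index_mul_card
    rw [hk] at hcard
    have h2 : ¬ 2 ∣ Nat.card C := Nat.two_dvd_ne_zero.2 (Nat.odd_iff.1 hodd)
    have : Nat.card (P : Subgroup G) = 2 ^ k := by
      rw [P.card_eq_multiplicity, ← hcard, Nat.factorization_mul (by positivity) Nat.card_pos.ne',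
        Finsupp.add_apply, Nat.factorization_eq_zero_of_not_dvd h2, add_zero, Nat.Prime.factorization_pow Nat.prime_two,
        Finsupp.single_eq_same]
    rw [this, hcard]
  · obtain ⟨n, hn⟩ := IsPGroup.iff_card.1 P.2
    rw [hn]; exact Nat.Coprime.pow_left n (Nat.coprime_two_left.2 hodd)

theorem good_quotient {G : Type*} [Group G] [Finite G] (N : Subgroup G) [N.Normal] (h : Good G) :
    Good (G ⧸ N) := by
  haveI : Fact (Nat.Prime 2) := ⟨Nat.prime_two⟩
  obtain ⟨C, hC, hodd, k, hk⟩ := h
  haveI := hC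
  refine ⟨C.map (QuotientGroup.mk' N), inferInstance, hodd.of_dvd_nat (Subgroup.card_map_dvd (H := C) _), ?_⟩
  obtain ⟨i, -, hi⟩ := (Nat.dvd_prime_pow Nat.prime_two).1
    (hk ▸ Subgroup.index_map_dvd C (QuotientGroup.mk'_surjective N))
  exact ⟨i, hi⟩

theorem good_normal {G : Type*} [Group G] [Finite G] (N : Subgroup G) [N.Normal] (h : Good G) :
    Good N := by
  haveI : Fact (Nat.Prime 2) := ⟨Nat.prime_two⟩
  obtain ⟨C, hC, hodd, k, hk⟩ := h
  haveI := hC
  refine ⟨C.subgroupOf N, inferInstance, ?_, ?_⟩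
  · refine hodd.of_dvd_nat ?_
    rw [← Subgroup.card_map_of_injective (f := N.subtype) N.subtype_injective, Subgroup.subgroupOf_map_subtype]
    exact Subgroup.card_dvd_of_le inf_le_left
  · have e1 : Nat.card ↥(C ⊓ N) * N.relIndex C = Nat.card C := by
      have h1 := (N.subgroupOf C).index_mul_card
      rw [← Subgroup.relIndex, ← Subgroup.card_map_of_injective (f := C.subtype) C.subtype_injective,
        Subgroup.subgroupOf_map_subtype] at h1
      rw [inf_comm, mul_comm]; exact h1
    have e2 : Nat.card ↥(C ⊓ N) * C.relIndex N = Nat.card N := by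
      have h1 := (C.subgroupOf N).index_mul_card
      rw [← Subgroup.relIndex, ← Subgroup.card_map_of_injective (f := N.subtype) N.subtype_injective,
        Subgroup.subgroupOf_map_subtype] at h1
      rw [mul_comm]; exact h1
    have hd : N.relIndex C ∣ N.index := by
      rw [CfsgLib.PSolvable.relIndex_eq_card_map, Subgroup.index_eq_card]
      exact Subgroup.card_subgroup_dvd_card _
    obtain ⟨b, hb⟩ := hd
    have hkey : C.relIndex N * b = 2 ^ k := by
      rw [← hk]
      refine Nat.eq_of_mul_eq_mul_left (Nat.card_pos (α := C)) ?_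
      rw [C.card_mul_index, ← N.card_mul_index, hb, ← e2, ← e1]; ring
    obtain ⟨i, -, hi⟩ := (Nat.dvd_prime_pow Nat.prime_two).1 (hkey ▸ dvd_mul_right _ _)
    exact ⟨i, hi⟩

theorem good_solvable {G : Type v} [Group G] [Finite G] (n : ℕ) (hn : Nat.card G ≤ n) (h : Good G) :
    Group.IsSolvable G := by
  induction n generalizing G with
  | zero => have : 0 < Nat.card G := Nat.card_pos; omega
  | succ n ih =>
    haveI : Fact (Nat.Prime 2) := ⟨Nat.prime_two⟩
    rcases subsingleton_or_nontrivial G with hG | hG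
    · exact Group.isSolvable_of_comm fun a b => Subsingleton.elim _ _
    by_cases hN : ∃ N : Subgroup G, N.Normal ∧ N ≠ ⊥ ∧ N ≠ ⊤
    · obtain ⟨N, hNn, hNb, hNt⟩ := hN
      haveI := hNn
      have h1 : Nat.card N < Nat.card G := by
        rcases (Subgroup.card_le_card_group N).lt_or_eq with h' | h'
        · exact h'
        · exact absurd (Subgroup.eq_top_of_card_eq N h') hNt
      have h2 : Nat.card (G ⧸ N) < Nat.card G := by
        have := N.index_mul_card
        rw [← Subgroup.index_eq_card]
        have h3 : 1 < Nat.card N := by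
          rw [Subgroup.one_lt_card_iff_ne_bot]; exact hNb
        have h4 : 0 < N.index := Nat.pos_of_ne_zero Subgroup.index_ne_zero_of_finite
        nlinarith
      haveI := ih (G := N) (by omega) (good_normal N h)
      haveI := ih (G := G ⧸ N) (by omega) (good_quotient N h)
      exact Group.isSolvable_of_ker_le_range N.subtype (QuotientGroup.mk' N) (by rw [QuotientGroup.ker_mk', Subgroup.range_subtype])
    · push Not at hN
      haveI : IsSimpleGroup G := ⟨fun N hN' => or_iff_not_imp_left.2 (hN N hN')⟩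
      obtain ⟨C, hC, hodd, k, hk⟩ := h
      by_cases hC1 : C = ⊥
      · rw [hC1, Subgroup.index_bot] at hk
        haveI := (IsPGroup.of_card hk).isNilpotent
        infer_instance
      · haveI := hC
        obtain ⟨c, hc, hc1⟩ := (Subgroup.bot_or_exists_ne_one C).resolve_left hC1
        have hle : C ≤ Subgroup.centralizer ({c} : Set G) := fun x hx =>
          Subgroup.mem_centralizer_singleton_iff.2 (congrArg Subtype.val (mul_comm' (⟨x, hx⟩ : C) ⟨c, hc⟩))
        obtain ⟨i, -, hi⟩ := (Nat.dvd_prime_pow Nat.prime_two).1 (hk ▸ Subgroup.index_dvd_of_le hle)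
        have hp := CfsgLib.CharTheory.prime_card_of_index_centralizer_pow 2 i Nat.prime_two c hc1 hi
        haveI := Fact.mk hp
        haveI : IsCyclic G := isCyclic_of_prime_card rfl
        exact Group.isSolvable_of_comm fun a b => mul_comm' a b

/-- Let H be a finite group in which a Sylow 2-subgroup has an abelian complement (an abelian subgroup meeting it trivially whose product with it is all of H). Then H is solvable, and every subgroup and every quotient group of H again has a Sylow 2-subgroup with an abelian complement. -/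
theorem result {H : Type*} [Group H] [Finite H]
    (S : Sylow 2 H) (C : Subgroup H) (hC : IsMulCommutative ↥C) (hSC : Subgroup.IsComplement' (S : Subgroup H) C) :
    Group.IsSolvable H ∧
    (∀ L : Subgroup H, ∃ (P : Sylow 2 ↥L) (D : Subgroup ↥L), IsMulCommutative ↥D ∧ Subgroup.IsComplement' (P : Subgroup ↥L) D) ∧
    (∀ (N : Subgroup H) [N.Normal], ∃ (P : Sylow 2 (H ⧸ N)) (D : Subgroup (H ⧸ N)),
      IsMulCommutative ↥D ∧ Subgroup.IsComplement' (P : Subgroup (H ⧸ N)) D) := by
  classical
  haveI : Fact (Nat.Prime 2) := ⟨Nat.prime_two⟩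
  haveI := hC
  have hodd : Odd (Nat.card C) := by
    rw [← hSC.symm.index_eq_card]
    have := S.not_dvd_index
    rw [Nat.odd_iff]; omega
  obtain ⟨k, hk⟩ : ∃ k, C.index = 2 ^ k := by
    rw [hSC.index_eq_card]; exact IsPGroup.iff_card.1 S.2
  have hgood : Good H := ⟨C, hC, hodd, k, hk⟩
  haveI hsol : Group.IsSolvable H := good_solvable _ le_rfl hgood
  refine ⟨hsol, fun L => ?_, fun N _ => good_pair (good_quotient N hgood)⟩
  -- a subgroup
  refine good_pair ?_
  haveI : Group.IsSolvable L := Group.isSolvable_of_isSolvable_injective (f := L.subtype) L.subtype_injective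
  let π : Set ℕ := {p | p ≠ 2}
  obtain ⟨D, hD⟩ := CfsgLib.Hall.exists_isPiHall (G := ↥L) π
  have hCH : Cfsg.IsPiHall π C := by
    refine ⟨fun p hp hd => fun e => ?_, fun p hp hpπ hd => ?_⟩
    · subst e; exact Nat.not_even_iff_odd.2 hodd (even_iff_two_dvd.2 hd)
    · rw [hk] at hd
      exact hpπ ((Nat.prime_dvd_prime_iff_eq hp Nat.prime_two).1 (hp.dvd_of_dvd_pow hd))
  have hDp : Cfsg.IsPiSubgroup π (D.map L.subtype) := by
    intro p hp hd
    exact hD.1 p hp (by rwa [Subgroup.card_map_of_injective L.subtype_injective] at hd)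
  obtain ⟨g, hg⟩ := CfsgLib.Hall.exists_le_conj_isPiHall hCH hDp
  have hDodd : Odd (Nat.card D) := by
    rw [← Nat.not_even_iff_odd, even_iff_two_dvd]
    exact fun h => hD.1 2 Nat.prime_two h rfl
  refine ⟨D, ?_, hDodd, ?_⟩
  · refine ⟨⟨fun u v => Subtype.ext (Subtype.ext ?_)⟩⟩
    have hu : ((MulAut.conj g)⁻¹ : MulAut H) ((u : ↥L) : H) ∈ C :=
      Subgroup.mem_pointwise_smul_iff_inv_smul_mem.1 (hg ⟨u, u.2, rfl⟩)
    have hv : ((MulAut.conj g)⁻¹ : MulAut H) ((v : ↥L) : H) ∈ C :=
      Subgroup.mem_pointwise_smul_iff_inv_smul_mem.1 (hg ⟨v, v.2, rfl⟩)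
    have := congrArg Subtype.val (mul_comm' (⟨_, hu⟩ : C) ⟨_, hv⟩)
    refine ((MulAut.conj g)⁻¹ : MulAut H).injective ?_
    show ((MulAut.conj g)⁻¹ : MulAut H) (((u : ↥L) : H) * ((v : ↥L) : H)) = ((MulAut.conj g)⁻¹ : MulAut H) (((v : ↥L) : H) * ((u : ↥L) : H))
    rw [map_mul, map_mul]
    exact this
  · refine ⟨D.index.factorization 2, ?_⟩
    have h := Nat.eq_prime_pow_of_unique_prime_dvd (p := 2) (n := D.index) Subgroup.index_ne_zero_of_finite
      (fun {p} hp hd => by
        by_contra hne
        exact hD.2 p hp hne hd)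
    rw [h]
    congr 1
    rw [Nat.factorization_pow, Nat.prime_two.factorization]
    simp [← Nat.primeFactorsList_count_eq, Nat.primeFactorsList_prime]

end Cfsg.Agent.S3200
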