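import Cfsg.Statements.S3201
import Cfsg.Agent.Lib.InvChar.Basic
import Cfsg.Agent.Lib.CoreFree.UniqueInvolution
import Cfsg.Agent.Lib.TwoGroups.PBasics

set_option autoImplicit false
open Cfsg
open CfsgLib.InvChar

namespace Cfsg.Agent.S3201

/-- Let S be a finite 2-group whose centre Z(S) has n ≥ 2 distinct maximal subgroups C₁, …, Cₙ with trivial intersection such that each quotient S/Cᵢ is a non-abelian group with exactly one involution (a generalized quaternion group). Then S is the internal direct product of an elementary abelian subgroup and a non-abelian subgroup with exactly one involution. -/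
theorem result {S : Type*} [Group S] [Finite S]
    (hS : IsPGroup 2 S) (n : ℕ) (hn : 2 ≤ n) (C : Fin n → Subgroup ↥(Subgroup.center S))
    (hCmax : ∀ i, IsCoatom (C i)) (hCinj : Function.Injective C) (hCint : ⨅ i, C i = ⊥)
    (hCq : ∀ i, ∃ (_ : ((C i).map (Subgroup.center S).subtype).Normal),
      ¬ IsMulCommutative (S ⧸ (C i).map (Subgroup.center S).subtype) ∧
      ∃! x : S ⧸ (C i).map (Subgroup.center S).subtype, orderOf x = 2) :
    ∃ E Q : Subgroup S, Cfsg.IsInternalDirectProduct E Q ⊤ ∧ Cfsg.IsElementaryAbelian 2 E ∧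
      ¬ IsMulCommutative ↥Q ∧ ∃! x : ↥Q, orderOf x = 2 := by
  classical
  haveI : Fact (Nat.Prime 2) := ⟨Nat.prime_two⟩
  let Z : Subgroup S := Subgroup.center S
  let Ci : Fin n → Subgroup S := fun i => (C i).map Z.subtype
  have hCZ : ∀ i, Ci i ≤ Z := fun i => Subgroup.map_subtype_le _
  haveI hCn : ∀ i, (Ci i).Normal := fun i => (hCq i).1
  have hall : ∀ s : S, (∀ i, s ∈ Ci i) → s = 1 := by
    intro s hs
    obtain ⟨w, -, rfl⟩ := hs ⟨0, by omega⟩
    have : w ∈ ⨅ i, C i := by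
      rw [Subgroup.mem_iInf]
      intro i
      obtain ⟨v, hv, hve⟩ := hs i
      rwa [← (Subtype.ext hve : v = w)]
    rw [hCint, Subgroup.mem_bot] at this
    rw [this]; rfl
  have hCi : ∀ i, (C i).index = 2 := fun i => CfsgLib.TwoGroups.index_eq_of_isCoatom (hS.to_subgroup Z) (hCmax i)
  have hZsq : ∀ z ∈ Z, z * z = 1 := fun z hz => hall _ fun i =>
    ⟨(⟨z, hz⟩ : Z) * ⟨z, hz⟩, (Subgroup.mul_mem_iff_of_index_two (hCi i)).2 Iff.rfl, rfl⟩
  have hnaq : ∀ i, ¬ IsMulCommutative (S ⧸ Ci i) := fun i => by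
    obtain ⟨_, h, -⟩ := hCq i; exact h
  have huq : ∀ i, CfsgLib.TwoGroups.UniqueOrderP 2 (S ⧸ Ci i) := fun i => by
    obtain ⟨_, -, h⟩ := hCq i; exact CfsgLib.CoreFree.uniqueOrderP_two_of_existsUnique h
  have hqS : ∀ i, IsPGroup 2 (S ⧸ Ci i) := fun i => hS.to_quotient _
  let q : ∀ i, S →* S ⧸ Ci i := fun i => QuotientGroup.mk' (Ci i)
  have hcard : ∀ i, 2 * Nat.card (Ci i) = Nat.card Z := fun i => by
    rw [Subgroup.card_map_of_injective Z.subtype_injective, ← hCi i]; exact (C i).index_mul_card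
  have hZim : ∀ i, ∃ z ∈ Z, q i z ≠ 1 := fun i => by
    by_contra hc
    push Not at hc
    have hle : Z ≤ Ci i := fun z hz => (QuotientGroup.eq_one_iff z).1 (hc z hz)
    have := Subgroup.card_le_of_le hle
    have := hcard i
    have : 0 < Nat.card (Ci i) := Nat.card_pos
    omega
  let i₀ : Fin n := ⟨0, by omega⟩
  obtain ⟨xb, hxb⟩ := CfsgLib.CoreFree.exists_cyclic_index_two (hqS i₀) (huq i₀) (hnaq i₀)
  obtain ⟨x, rfl⟩ := QuotientGroup.mk'_surjective (Ci i₀) xb
  set A := Subgroup.zpowers x ⊔ Z with hA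
  have hAi : A.index = 2 := by
    have h1 := CfsgLib.TwoGroups.index_zpowers_eq_two hxb
    have h2 : (Subgroup.zpowers (q i₀ x)).comap (q i₀) = A := by
      apply le_antisymm
      · intro s hs
        obtain ⟨k, hk⟩ := Subgroup.mem_zpowers_iff.1 (Subgroup.mem_comap.1 hs)
        have h3 : (x ^ k)⁻¹ * s ∈ Ci i₀ := (QuotientGroup.eq_one_iff _).1 (show q i₀ _ = 1 by
          rw [map_mul, map_inv, map_zpow, hk, inv_mul_cancel])
        have := A.mul_mem (Subgroup.mem_sup_left (Subgroup.zpow_mem _ (Subgroup.mem_zpowers x) k))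
          (Subgroup.mem_sup_right (hCZ i₀ h3))
        rwa [mul_inv_cancel_left] at this
      · refine sup_le (Subgroup.zpowers_le.2 (Subgroup.mem_comap.2 (Subgroup.mem_zpowers _))) fun z hz => ?_
        haveI : Nontrivial (S ⧸ Ci i₀) := by
          by_contra hc
          haveI := not_nontrivial_iff_subsingleton.1 hc
          exact hnaq i₀ ⟨⟨fun a b => Subsingleton.elim _ _⟩⟩
        obtain ⟨k, hk⟩ := IsPGroup.iff_orderOf.1 (hqS i₀) (q i₀ x)
        have hz2 : (q i₀ z) ^ 2 = 1 := by rw [← map_pow, pow_two, hZsq z hz, map_one]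
        rcases k with _ | k
        · exfalso
          refine hnaq i₀ ?_
          haveI : IsCyclic (S ⧸ Ci i₀) := isCyclic_of_prime_card (p := 2) (by
            rw [hxb, show orderOf (q i₀ x) = 1 by simpa using hk, mul_one])
          infer_instance
        exact Subgroup.mem_comap.2 ((huq i₀).mem_zpowers hk hz2)
    rw [← h2, Subgroup.index_comap_of_surjective _ (QuotientGroup.mk'_surjective _)]
    exact h1
  obtain ⟨y, hyA⟩ : ∃ y, y ∉ A := by
    by_contra! hc
    rw [(Subgroup.eq_top_iff' _).2 hc, Subgroup.index_top] at hAi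
    omega
  -- every quotient has the image of `x` as generator of a cyclic subgroup of index two
  have hquot : ∀ i, Nat.card (S ⧸ Ci i) = 2 * orderOf (q i x) ∧ q i y ∉ Subgroup.zpowers (q i x) := by
    intro i
    have hcA : ∀ a ∈ A, Commute a x ∧ ∀ z ∈ Z, Commute a z := by
      intro a ha
      obtain ⟨b, hb, z, hz, rfl⟩ := Subgroup.mem_sup_of_normal_right.1 ha
      obtain ⟨k, rfl⟩ := Subgroup.mem_zpowers_iff.1 hb
      exact ⟨((Commute.refl x).zpow_left k).mul_left (Subgroup.mem_center_iff.1 hz x).symm,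
        fun w hw => Subgroup.mem_center_iff.1 hw _⟩
    have hle : Ci i ≤ A := (hCZ i).trans le_sup_right
    set Ab := A.map (q i) with hAb
    have hAbi : Ab.index = 2 := by
      rw [hAb, Subgroup.index_map_eq _ (QuotientGroup.mk'_surjective _) (by rw [QuotientGroup.ker_mk']; exact hle)]
      exact hAi
    haveI : IsMulCommutative Ab := by
      refine ⟨⟨fun u v => Subtype.ext ?_⟩⟩
      obtain ⟨u, hu⟩ := u; obtain ⟨v, hv⟩ := v
      obtain ⟨a, ha, rfl⟩ := hu
      obtain ⟨b, hb, rfl⟩ := hv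
      obtain ⟨b1, hb1, z, hz, rfl⟩ := Subgroup.mem_sup_of_normal_right.1 hb
      obtain ⟨k, rfl⟩ := Subgroup.mem_zpowers_iff.1 hb1
      exact (((hcA a ha).1.zpow_right k).mul_right ((hcA a ha).2 z hz)).map (q i)
    letI : CommGroup Ab := { (inferInstance : Group Ab) with mul_comm := mul_comm' }
    obtain ⟨z, hzZ, hz⟩ := hZim i
    have hz2 : (q i z) ^ 2 = 1 := by rw [← map_pow, pow_two, hZsq z hzZ, map_one]
    have hqx : q i x ≠ 1 := by
      intro e
      -- then the quotient has order four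
      have h1 : Ab ≤ Subgroup.zpowers (q i z) := by
        rintro _ ⟨a, ha, rfl⟩
        obtain ⟨b, hb, w, hw, rfl⟩ := Subgroup.mem_sup_of_normal_right.1 ha
        obtain ⟨k, rfl⟩ := Subgroup.mem_zpowers_iff.1 hb
        rw [map_mul, map_zpow, e, one_zpow, one_mul]
        by_cases hw1 : q i w = 1
        · rw [hw1]; exact one_mem _
        · exact huq i _ _ (orderOf_eq_prime hz2 hz) (orderOf_eq_prime (by rw [← map_pow, pow_two, hZsq w hw, map_one]) hw1)
      have h2 := Subgroup.card_le_of_le h1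
      rw [Nat.card_zpowers, orderOf_eq_prime hz2 hz] at h2
      have h3 := Ab.index_mul_card
      rw [hAbi] at h3
      obtain ⟨k, hk⟩ := IsPGroup.iff_card.1 (hqS i)
      refine hnaq i ?_
      rcases k with _ | _ | _ | k
      · haveI := (Nat.card_eq_one_iff_unique.1 (by rw [hk, pow_zero])).1
        exact ⟨⟨fun a b => Subsingleton.elim _ _⟩⟩
      · haveI : IsCyclic (S ⧸ Ci i) := isCyclic_of_prime_card (p := 2) (by rw [hk, pow_one])
        infer_instance
      · exact IsPGroup.isMulCommutative_of_card_eq_prime_sq (p := 2) hk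
      · rw [hk] at h3
        have : 2 ^ 3 ≤ 2 ^ (k + 1 + 1 + 1) := pow_le_pow_right₀ (by norm_num) (by omega)
        omega
    obtain ⟨k, hk⟩ := IsPGroup.iff_orderOf.1 (hqS i) (q i x)
    rcases k with _ | k
    · rw [pow_zero, orderOf_eq_one_iff] at hk
      exact absurd hk hqx
    have hAbx : Ab = Subgroup.zpowers (q i x) := by
      refine le_antisymm ?_ (Subgroup.zpowers_le.2 ⟨x, Subgroup.mem_sup_left (Subgroup.mem_zpowers x), rfl⟩)
      rintro _ ⟨a, ha, rfl⟩
      obtain ⟨b, hb, w, hw, rfl⟩ := Subgroup.mem_sup_of_normal_right.1 ha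
      obtain ⟨j, rfl⟩ := Subgroup.mem_zpowers_iff.1 hb
      rw [map_mul, map_zpow]
      exact Subgroup.mul_mem _ (Subgroup.zpow_mem _ (Subgroup.mem_zpowers _) j)
        ((huq i).mem_zpowers hk (by rw [← map_pow, pow_two, hZsq w hw, map_one]))
    refine ⟨?_, fun hy' => hyA ?_⟩
    · rw [← Nat.card_zpowers, ← hAbx, ← hAbi]; exact Ab.index_mul_card.symm
    · rw [← hAbx] at hy'
      obtain ⟨a, ha, e⟩ := hy'
      have := A.mul_mem ha (hle (QuotientGroup.eq.1 e))
      rwa [mul_inv_cancel_left] at this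
  have hstruct := fun i => CfsgLib.CoreFree.inverts_and_sq (hqS i) (huq i) (hnaq i) (hquot i).1 (hquot i).2
  have hinv : y * x * y⁻¹ = x⁻¹ := by
    rw [eq_inv_iff_mul_eq_one]
    refine hall _ fun i => (QuotientGroup.eq_one_iff _).1 (show q i _ = 1 from ?_)
    obtain ⟨-, -, h1, -, -⟩ := hstruct i
    rw [map_mul, map_mul, map_mul, map_inv, h1, inv_mul_cancel]
  obtain ⟨m, hm0, -, hsq0, hsq01⟩ := hstruct i₀
  have hexp : ∀ i, orderOf (q i x) = 2 ^ (m + 1) := by
    intro i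
    have h1 := (hquot i).1
    have h2 := (hquot i₀).1
    rw [hm0] at h2
    have h3 := (Ci i).index_mul_card
    have h4 := (Ci i₀).index_mul_card
    rw [Subgroup.index] at h3 h4
    rw [h1] at h3
    rw [h2] at h4
    have h5 : Nat.card (Ci i) = Nat.card (Ci i₀) := by have := hcard i; have := hcard i₀; omega
    rw [← h5, ← h3] at h4
    have := Nat.eq_of_mul_eq_mul_right Nat.card_pos h4
    omega
  have hsq : y ^ 2 = x ^ 2 ^ m := by
    rw [← mul_inv_eq_one]
    refine hall _ fun i => (QuotientGroup.eq_one_iff _).1 (show q i _ = 1 from ?_)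
    obtain ⟨k, hk, -, h2, -⟩ := hstruct i
    rw [hexp i] at hk
    rw [map_mul, map_inv, map_pow, map_pow, h2, show k = m by
      have := Nat.pow_right_injective le_rfl hk; omega, mul_inv_cancel]
  have hx2m : x ^ 2 ^ (m + 1) = 1 :=
    hall _ fun i => (QuotientGroup.eq_one_iff _).1 (show q i _ = 1 from by rw [map_pow, ← hexp i, pow_orderOf_eq_one])
  have hxord : orderOf x = 2 ^ (m + 1) :=
    Nat.dvd_antisymm (orderOf_dvd_of_pow_eq_one hx2m) (hexp i₀ ▸ orderOf_map_dvd _ x)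
  obtain ⟨z0, hz0⟩ : ∃ z, z = x ^ 2 ^ m := ⟨_, rfl⟩
  have hz0C : z0 ∉ Ci i₀ := fun h => hsq01 (by
    rw [← map_pow, hsq, ← hz0]; exact (QuotientGroup.eq_one_iff _).2 h)
  have hforms : ∀ s : S, ∃ (k : ℤ) (d : S), d ∈ Ci i₀ ∧ (s = x ^ k * d ∨ s = x ^ k * y * d) := by
    intro s
    rcases CfsgLib.TwoGroups.exists_eq_zpow_or_zpow_mul (hquot i₀).1 (hquot i₀).2 (q i₀ s) with ⟨k, hk⟩ | ⟨k, hk⟩
    · exact ⟨k, (x ^ k)⁻¹ * s, (QuotientGroup.eq_one_iff _).1
        (show q i₀ _ = 1 by rw [map_mul, map_inv, map_zpow, ← hk, inv_mul_cancel]), Or.inl (by group)⟩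
    · exact ⟨k, (x ^ k * y)⁻¹ * s, (QuotientGroup.eq_one_iff _).1
        (show q i₀ _ = 1 by rw [map_mul, map_inv, map_mul, map_zpow, ← hk, inv_mul_cancel]), Or.inr (by group)⟩
  have hyinv : y⁻¹ = x ^ (-(2 ^ m : ℕ) : ℤ) * y := by
    rw [zpow_neg, zpow_natCast, ← hsq]; group
  have hmv : ∀ k : ℤ, y * x ^ k = x ^ (-k) * y := fun k => by
    rw [zpow_neg, ← inv_zpow, ← hinv, conj_zpow, inv_mul_cancel_right]
  let Q : Subgroup S :=
    { carrier := {g | ∃ k : ℤ, g = x ^ k ∨ g = x ^ k * y}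
      one_mem' := ⟨0, Or.inl (zpow_zero x).symm⟩
      mul_mem' := by
        rintro a b ⟨i, rfl | rfl⟩ ⟨j, rfl | rfl⟩
        · exact ⟨i + j, Or.inl (zpow_add x i j).symm⟩
        · exact ⟨i + j, Or.inr (by rw [← mul_assoc, zpow_add])⟩
        · exact ⟨i + -j, Or.inr (by rw [mul_assoc, hmv, ← mul_assoc, zpow_add])⟩
        · refine ⟨i + -j + (2 ^ m : ℕ), Or.inl ?_⟩
          rw [mul_assoc, ← mul_assoc y, hmv, mul_assoc, ← pow_two, hsq, ← mul_assoc, ← zpow_natCast, ← zpow_add, ← zpow_add]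
      inv_mem' := by
        rintro a ⟨i, rfl | rfl⟩
        · exact ⟨-i, Or.inl (zpow_neg x i).symm⟩
        · refine ⟨-(2 ^ m : ℕ) + i, Or.inr ?_⟩
          rw [mul_inv_rev, hyinv, ← zpow_neg, mul_assoc, hmv, neg_neg, ← mul_assoc, ← zpow_add] }
  have hQinv : ∀ g ∈ Q, g * g = 1 → g = 1 ∨ g = z0 := by
    rintro g ⟨k, rfl | rfl⟩ hg
    · have h1 : x ^ (2 * k) = 1 := by rwa [two_mul, zpow_add]
      rw [CfsgLib.TwoGroups.zpow_eq_one_iff_dvd hxord] at h1
      obtain ⟨c, hc⟩ : (2 : ℤ) ^ m ∣ k := by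
        push_cast at h1
        rw [pow_succ, mul_comm] at h1
        exact (mul_dvd_mul_iff_left two_ne_zero).1 h1
      rw [hc, zpow_mul, show x ^ ((2 : ℤ) ^ m) = z0 by rw [hz0, ← zpow_natCast]; push_cast; rfl,
        ← Int.emod_add_mul_ediv c 2, zpow_add, zpow_mul z0 2, show z0 ^ (2 : ℤ) = 1 by
          rw [zpow_ofNat, hz0, ← pow_mul, ← pow_succ, hx2m], one_zpow, mul_one]
      rcases Int.emod_two_eq c with h | h <;> rw [h]
      · exact Or.inl (zpow_zero _)
      · exact Or.inr (zpow_one _)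
    · exfalso
      apply hsq01
      rw [mul_assoc, ← mul_assoc y, hmv, mul_assoc, ← pow_two, hsq, ← mul_assoc, ← zpow_add, add_neg_cancel,
        zpow_zero, one_mul] at hg
      rw [← map_pow, hsq, hg, map_one]
  refine ⟨Ci i₀, Q, ⟨le_top, le_top, fun a ha b _ => (Subgroup.mem_center_iff.1 (hCZ i₀ ha) b).symm, ?_, ?_⟩,
    ⟨⟨⟨fun a b => Subtype.ext (Subgroup.mem_center_iff.1 (hCZ i₀ b.2) a)⟩⟩,
      fun a ha => by rw [pow_two]; exact hZsq a (hCZ i₀ ha)⟩, ?_, ?_⟩
  · rw [Subgroup.eq_bot_iff_forall]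
    intro g hg
    rcases hQinv g hg.2 (hZsq g (hCZ i₀ hg.1)) with h | h
    · exact h
    · exact absurd (h ▸ hg.1) hz0C
  · rw [eq_top_iff]
    intro s _
    obtain ⟨k, d, hd, rfl | rfl⟩ := hforms s
    · exact Subgroup.mul_mem _ (Subgroup.mem_sup_right (show x ^ k ∈ Q from ⟨k, Or.inl rfl⟩)) (Subgroup.mem_sup_left hd)
    · exact Subgroup.mul_mem _ (Subgroup.mem_sup_right (show x ^ k * y ∈ Q from ⟨k, Or.inr rfl⟩)) (Subgroup.mem_sup_left hd)
  · intro h
    have hxQ : x ∈ Q := ⟨1, Or.inl (zpow_one x).symm⟩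
    have hyQ : y ∈ Q := ⟨0, Or.inr (by rw [zpow_zero, one_mul])⟩
    have hxy : y * x = x * y := congrArg Subtype.val (h.is_comm.comm ⟨y, hyQ⟩ ⟨x, hxQ⟩)
    apply hnaq i₀
    have hc : Commute (q i₀ y) (q i₀ x) := (show Commute y x from hxy).map _
    refine ⟨⟨fun a b => ?_⟩⟩
    have key : ∀ g, Commute g (q i₀ x) ∧ Commute g (q i₀ y) := by
      intro g
      rcases CfsgLib.TwoGroups.exists_eq_zpow_or_zpow_mul (hquot i₀).1 (hquot i₀).2 g with ⟨k, rfl⟩ | ⟨k, rfl⟩
      · exact ⟨(Commute.refl _).zpow_left k, hc.symm.zpow_left k⟩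
      · exact ⟨((Commute.refl _).zpow_left k).mul_left hc, (hc.symm.zpow_left k).mul_left (Commute.refl _)⟩
    rcases CfsgLib.TwoGroups.exists_eq_zpow_or_zpow_mul (hquot i₀).1 (hquot i₀).2 b with ⟨k, rfl⟩ | ⟨k, rfl⟩
    · exact (key a).1.zpow_right k
    · exact ((key a).1.zpow_right k).mul_right (key a).2
  · have hz0Q : z0 ∈ Q := ⟨(2 ^ m : ℕ), Or.inl (by rw [zpow_natCast, hz0])⟩
    have hz1 : z0 ≠ 1 := fun e => hz0C (e ▸ one_mem _)
    refine ⟨⟨z0, hz0Q⟩, ?_, fun g hg => ?_⟩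
    · show orderOf (⟨z0, hz0Q⟩ : Q) = 2
      rw [Subgroup.orderOf_mk]
      exact orderOf_eq_prime (by rw [hz0, ← pow_mul, ← pow_succ, hx2m]) hz1
    · have h2 : (g : S) * g = 1 := by
        have := pow_orderOf_eq_one g
        rw [hg, pow_two] at this
        exact congrArg Subtype.val this
      rcases hQinv g g.2 h2 with h | h
      · rw [show g = 1 from Subtype.ext h, orderOf_one] at hg; omega
      · exact Subtype.ext h

end Cfsg.Agent.S3201
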