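import Cfsg.Statements.S3202
import Cfsg.Agent.Lib.InvChar.Basic
import Cfsg.Agent.Lib.CoreFree.UniqueInvolution

set_option autoImplicit false
open Cfsg
open CfsgLib.InvChar

namespace Cfsg.Agent.S3202

/-- Let S be a finite 2-group of 2-rank exactly 2 and D a maximal subgroup of the centre of S such that S/D is a non-abelian group with exactly one involution (a generalized quaternion group). Then S has a nontrivial cyclic characteristic subgroup. -/
theorem result {S : Type*} [Group S]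
    [Finite S] (hS : IsPGroup 2 S) (hr2 : Cfsg.PRankLE 2 2 S) (hr1 : ¬ Cfsg.PRankLE 2 1 S)
    (D : Subgroup ↥(Subgroup.center S)) (hD : IsCoatom D)
    (hq : ∃ (_ : (D.map (Subgroup.center S).subtype).Normal),
      ¬ IsMulCommutative (S ⧸ D.map (Subgroup.center S).subtype) ∧
      ∃! x : S ⧸ D.map (Subgroup.center S).subtype, orderOf x = 2) :
    ∃ C : Subgroup S, C ≠ ⊥ ∧ IsCyclic ↥C ∧ C.Characteristic := by
  classical
  haveI : Fact (Nat.Prime 2) := ⟨Nat.prime_two⟩
  obtain ⟨hn, hna, hu'⟩ := hq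
  haveI := hn
  set D' := D.map (Subgroup.center S).subtype
  let q := QuotientGroup.mk' D'
  have hD'c : D' ≤ Subgroup.center S := Subgroup.map_subtype_le _
  have hqS := hS.to_quotient D'
  have hu := CfsgLib.CoreFree.uniqueOrderP_two_of_existsUnique hu'
  obtain ⟨xb, hxb⟩ := CfsgLib.CoreFree.exists_cyclic_index_two hqS hu hna
  obtain ⟨x, rfl⟩ := QuotientGroup.mk'_surjective D' xb
  obtain ⟨yb, hyb⟩ : ∃ yb, yb ∉ Subgroup.zpowers (q x) := by
    by_contra! hall
    have h1 := CfsgLib.TwoGroups.index_zpowers_eq_two hxb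
    rw [(Subgroup.eq_top_iff' _).2 hall, Subgroup.index_top] at h1
    omega
  obtain ⟨y, rfl⟩ := QuotientGroup.mk'_surjective D' yb
  obtain ⟨n, hn', hinv, hsq, -⟩ := CfsgLib.CoreFree.inverts_and_sq hqS hu hna hxb hyb
  -- every element is `x ^ k * d` or `x ^ k * y * d`
  have hforms : ∀ s : S, ∃ (k : ℤ) (d : S), d ∈ D' ∧ (s = x ^ k * d ∨ s = x ^ k * y * d) := by
    intro s
    rcases CfsgLib.TwoGroups.exists_eq_zpow_or_zpow_mul hxb hyb (q s) with ⟨k, hk⟩ | ⟨k, hk⟩
    · refine ⟨k, (x ^ k)⁻¹ * s, ?_, Or.inl (by group)⟩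
      apply (QuotientGroup.eq_one_iff _).1
      show q _ = 1
      rw [map_mul, map_inv, map_zpow, ← hk, inv_mul_cancel]
    · refine ⟨k, (x ^ k * y)⁻¹ * s, ?_, Or.inr (by group)⟩
      apply (QuotientGroup.eq_one_iff _).1
      show q _ = 1
      rw [map_mul, map_inv, map_mul, map_zpow, ← hk, inv_mul_cancel]
  set c := y * x * y⁻¹ * x⁻¹ with hc
  have hcent : ∀ d ∈ D', ∀ g : S, Commute g d := fun d hd g => Subgroup.mem_center_iff.1 (hD'c hd) g
  obtain ⟨d1, hd1, hyx⟩ : ∃ d ∈ D', y * x * y⁻¹ = x⁻¹ * d := by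
    refine ⟨x * (y * x * y⁻¹), (QuotientGroup.eq_one_iff _).1 ?_, by group⟩
    show q _ = 1
    rw [map_mul, map_mul, map_mul, map_inv, hinv, mul_inv_cancel]
  have hcx : Commute c x := by
    rw [hc, hyx]
    exact ((Commute.refl x).inv_left.mul_left (hcent d1 hd1 x).symm).mul_left (Commute.refl x).inv_left
  obtain ⟨d2, hd2, hy2⟩ : ∃ d ∈ D', y ^ 2 = x ^ 2 ^ n * d := by
    refine ⟨(x ^ 2 ^ n)⁻¹ * y ^ 2, (QuotientGroup.eq_one_iff _).1 ?_, by group⟩
    show q _ = 1
    rw [map_mul, map_inv, map_pow, map_pow, hsq, inv_mul_cancel]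
  have hyc : y * c * y⁻¹ = c⁻¹ := by
    have h2 : Commute (y ^ 2) x := by
      rw [hy2]; exact ((Commute.refl x).pow_left _).mul_left (hcent d2 hd2 x).symm
    calc y * c * y⁻¹ = (y ^ 2 * x * (y ^ 2)⁻¹) * (y * x⁻¹ * y⁻¹) := by rw [hc, pow_two]; group
      _ = x * (y * x⁻¹ * y⁻¹) := by rw [h2.eq, mul_inv_cancel_right]
      _ = c⁻¹ := by rw [hc]; group
  haveI hcn : (Subgroup.zpowers c).Normal := by
    refine ⟨fun z hz g => ?_⟩
    obtain ⟨i, rfl⟩ := Subgroup.mem_zpowers_iff.1 hz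
    rw [← conj_zpow]
    refine Subgroup.zpow_mem _ ?_ i
    obtain ⟨k, d, hd, rfl | rfl⟩ := hforms g
    · rw [show x ^ k * d * c * (x ^ k * d)⁻¹ = x ^ k * (d * c * d⁻¹) * (x ^ k)⁻¹ by group,
        (hcent d hd c).symm.eq, mul_inv_cancel_right, ((hcx.zpow_right k).symm).eq, mul_inv_cancel_right]
      exact Subgroup.mem_zpowers c
    · rw [show x ^ k * y * d * c * (x ^ k * y * d)⁻¹ = x ^ k * (y * (d * c * d⁻¹) * y⁻¹) * (x ^ k)⁻¹ by group,
        (hcent d hd c).symm.eq, mul_inv_cancel_right, hyc, ((hcx.inv_left.zpow_right k).symm).eq, mul_inv_cancel_right]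
      exact Subgroup.inv_mem _ (Subgroup.mem_zpowers c)
  have hle : commutator S ≤ Subgroup.zpowers c := by
    rw [commutator_def, Subgroup.commutator_le]
    intro a _ b _
    rw [← QuotientGroup.eq_one_iff, ← QuotientGroup.mk'_apply, map_commutatorElement,
      commutatorElement_eq_one_iff_mul_comm]
    set p := QuotientGroup.mk' (Subgroup.zpowers c)
    have hxy : Commute (p y) (p x) := by
      have : p c = 1 := (QuotientGroup.eq_one_iff c).2 (Subgroup.mem_zpowers c)
      have e : (1 : S ⧸ Subgroup.zpowers c) = p (y * x * y⁻¹ * x⁻¹) := this.symm.trans (congrArg p hc)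
      rw [map_mul, map_mul, map_mul, map_inv, map_inv] at e
      replace this := e.symm
      rw [mul_inv_eq_one, mul_inv_eq_iff_eq_mul] at this
      exact this
    have key : ∀ g, Commute g (p x) → Commute g (p y) → (∀ d ∈ D', Commute g (p d)) → ∀ s, Commute g (p s) := by
      intro g hgx hgy hgd s
      obtain ⟨k, d, hd, rfl | rfl⟩ := hforms s
      · rw [map_mul, map_zpow]; exact (hgx.zpow_right k).mul_right (hgd d hd)
      · rw [map_mul, map_mul, map_zpow]; exact ((hgx.zpow_right k).mul_right hgy).mul_right (hgd d hd)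
    have hdall : ∀ d ∈ D', ∀ s, Commute (p s) (p d) := fun d hd s => (hcent d hd s).map p
    exact (key (p a) (key (p x) (Commute.refl _) hxy.symm (fun d hd => hdall d hd x) a).symm
      (key (p y) hxy (Commute.refl _) (fun d hd => hdall d hd y) a).symm (fun d hd => hdall d hd a) b).eq
  refine ⟨commutator S, ?_, isCyclic_of_injective (Subgroup.inclusion hle) (Subgroup.inclusion_injective hle), inferInstance⟩
  intro e
  apply hna
  refine ⟨⟨fun a b => ?_⟩⟩
  obtain ⟨a, rfl⟩ := QuotientGroup.mk'_surjective D' a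
  obtain ⟨b, rfl⟩ := QuotientGroup.mk'_surjective D' b
  have := Subgroup.commutator_mem_commutator (Subgroup.mem_top a) (Subgroup.mem_top b)
  rw [← commutator_def] at this
  rw [e, Subgroup.mem_bot, commutatorElement_eq_one_iff_mul_comm] at this
  rw [← map_mul, ← map_mul, this]

end Cfsg.Agent.S3202
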