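import Cfsg.Statements.S3208
import Cfsg.Agent.Lib.InvChar.Basic

set_option autoImplicit false
open Cfsg
open CfsgLib.InvChar

namespace Cfsg.Agent.S3208

/-- Let j be an involution of a finite group G, H a subgroup of G, and T a Sylow 2-subgroup of H ∩ C_G(j) containing j such that ⟨j⟩ is a characteristic subgroup of T. Then T is a Sylow 2-subgroup of H. -/
theorem result {G : Type*} [Group G] [Finite G]
    (j : G) (hj : orderOf j = 2) (H T : Subgroup G) (hT : T ≤ H ⊓ Subgroup.centralizer ({j} : Set G)) (h2 : IsPGroup 2 ↥T)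
    (hSyl : ¬ 2 ∣ T.relIndex (H ⊓ Subgroup.centralizer ({j} : Set G))) (hjT : j ∈ T)
    (hchar : ((Subgroup.zpowers j).subgroupOf T).Characteristic) :
    ¬ 2 ∣ T.relIndex H := by
  haveI : Fact (Nat.Prime 2) := ⟨Nat.prime_two⟩
  intro hd
  obtain ⟨R, hR⟩ := (h2.comap_subtype (K := H)).exists_le_sylow
  let R' : Subgroup G := (R : Subgroup H).map H.subtype
  have hTH : T ≤ H := hT.trans inf_le_left
  have hTR : T ≤ R' := fun a ha => ⟨⟨a, hTH ha⟩, hR ha, rfl⟩
  have hlt : T < R' := by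
    refine lt_of_le_of_ne hTR fun h => ?_
    rw [h, Subgroup.relIndex, ← Subgroup.comap_subtype,
      Subgroup.comap_map_eq_self_of_injective H.subtype_injective] at hd
    exact R.not_dvd_index hd
  obtain ⟨n, hnR, hnT, hnN⟩ := exists_mem_normalizer_not_mem (R.2.map H.subtype) hlt
  have hnH : n ∈ H := Subgroup.map_subtype_le _ hnR
  -- `n` fixes `j`
  have hnj : n * j * n⁻¹ = j := by
    let φ : T ≃* T := (Subgroup.normalizerMonoidHom T) ⟨n, hnN⟩
    have hfix := hchar.fixed φ
    have hjmem : (⟨j, hjT⟩ : T) ∈ (Subgroup.zpowers j).subgroupOf T := Subgroup.mem_zpowers j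
    rw [← hfix] at hjmem
    have hmem : n * j * n⁻¹ ∈ Subgroup.zpowers j := by simpa [φ, Subgroup.mem_subgroupOf] using hjmem
    obtain ⟨k, hk⟩ := Subgroup.mem_zpowers_iff.1 hmem
    rw [← zpow_mod_orderOf, hj] at hk
    rcases Int.emod_two_eq k with h | h
    · have hk' : (1 : G) = n * j * n⁻¹ := by simpa [h] using hk
      have hj1 : j = 1 := conj_eq_one_iff.1 hk'.symm
      simp [hj1] at hj
    · simpa [h] using hk.symm
  let T' : Subgroup G := T ⊔ Subgroup.zpowers n
  have hT' : IsPGroup 2 T' :=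
    (R.2.map H.subtype).to_le (sup_le hTR (Subgroup.zpowers_le.2 hnR))
  have hT'le : T' ≤ H ⊓ Subgroup.centralizer ({j} : Set G) :=
    sup_le hT (Subgroup.zpowers_le.2 ⟨hnH, Subgroup.mem_centralizer_singleton_iff.2
      (mul_inv_eq_iff_eq_mul.1 hnj)⟩)
  obtain ⟨g, -, hg⟩ := exists_cj_le_of_not_dvd_relIndex hT h2 hSyl hT'le hT'
  have h1 : Nat.card T' ≤ Nat.card T := by
    rw [← card_cj g T']; exact Subgroup.card_le_of_le hg
  have := Subgroup.eq_of_le_of_card_ge (le_sup_left : T ≤ T') h1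
  exact hnT (this.symm ▸ (le_sup_right (a := T) (Subgroup.mem_zpowers n)))

end Cfsg.Agent.S3208
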