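import Cfsg.Statements.S3210
import Cfsg.Agent.Lib.InvChar.Basic
import Cfsg.Agent.Lib.CoreFree.SL2Pairs
import Cfsg.Agent.Lib.SL2.Card

set_option autoImplicit false
open Cfsg
open CfsgLib.InvChar

namespace Cfsg.Agent.S3210

/-- A central element of `SL₂` corresponds to an element of the intersection. -/
theorem central_mem {G : Type*} [Group G] {F : Type*} [Field F] (L L' : Subgroup G) (j : G)
    (hm : L ⊓ L' = Subgroup.zpowers j) (e : ↥L ≃* Matrix.SpecialLinearGroup (Fin 2) F) (h2 : (2 : F) ≠ 0)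
    (hcen : ∀ z ∈ L ⊓ L', ∀ g ∈ L ⊔ L', z * g = g * z)
    (hj : j ≠ 1) (a : L) (h : e a ∈ Subgroup.center (Matrix.SpecialLinearGroup (Fin 2) F)) :
    (a : G) ∈ L' := by
  have hjL : j ∈ L ⊓ L' := hm.ge (Subgroup.mem_zpowers j)
  rcases (CfsgLib.SL2.mem_center_iff _).1 h with h1 | h1
  · rw [show a = 1 from e.injective (by rw [h1, map_one])]; exact L'.one_mem
  · have hcj : e ⟨j, hjL.1⟩ ∈ Subgroup.center (Matrix.SpecialLinearGroup (Fin 2) F) := by
      rw [Subgroup.mem_center_iff]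
      intro g
      obtain ⟨g, rfl⟩ := e.surjective g
      rw [← map_mul, ← map_mul]
      exact congrArg e (Subtype.ext (hcen j hjL g (Subgroup.mem_sup_left g.2)).symm)
    rcases (CfsgLib.SL2.mem_center_iff _).1 hcj with h3 | h3
    · exact absurd (congrArg Subtype.val (e.injective (h3.trans (map_one e).symm))) hj
    · rw [show a = ⟨j, hjL.1⟩ from e.injective (h1.trans h3.symm)]; exact hjL.2

theorem dichotomy {G : Type*} [Group G] {F : Type*} [Field F] (L L' K K' : Subgroup G) (j : G)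
    (hm : L ⊓ L' = Subgroup.zpowers j) (hc : ∀ x ∈ L, ∀ y ∈ L', x * y = y * x)
    (hmem : ∀ x ∈ L ⊔ L', ∃ a ∈ L, ∃ b ∈ L', x = a * b)
    (hK : K ≤ L ⊔ L') (hK' : K' ≤ L ⊔ L') (hKK : ∀ x ∈ K, ∀ y ∈ K', x * y = y * x)
    (hgen : ∀ x ∈ L ⊔ L', ∃ a ∈ K, ∃ b ∈ K', x = a * b)
    (hcen : ∀ z ∈ L ⊓ L', ∀ g ∈ L ⊔ L', z * g = g * z)
    (hj : j ≠ 1) (e : ↥L ≃* Matrix.SpecialLinearGroup (Fin 2) F) (h2 : (2 : F) ≠ 0) :
    K ≤ L' ∨ K' ≤ L' := by
  have hcenL : ∀ z : L, (z : G) ∈ L' → e z ∈ Subgroup.center (Matrix.SpecialLinearGroup (Fin 2) F) := by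
    intro z hz
    rw [Subgroup.mem_center_iff]
    intro g
    obtain ⟨g, rfl⟩ := e.surjective g
    rw [← map_mul, ← map_mul]
    exact congrArg e (Subtype.ext (hcen z ⟨z.2, hz⟩ g (Subgroup.mem_sup_left g.2)).symm)
  -- projections to `L`
  let proj : Subgroup G → Subgroup (Matrix.SpecialLinearGroup (Fin 2) F) :=
    fun X => ((L ⊓ (X ⊔ L')).subgroupOf L).map e.toMonoidHom
  have hnorm : L ⊔ L' ≤ Subgroup.normalizer (L' : Set G) := by
    refine sup_le (fun a ha => ?_) Subgroup.le_normalizer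
    rw [← CfsgLib.InvChar.cj_eq_self_iff]
    ext y
    rw [CfsgLib.InvChar.mem_cj]
    constructor
    · intro hy
      have e1 := hc a ha _ hy
      have : a * (a⁻¹ * y * a) * a⁻¹ = a⁻¹ * y * a := by rw [e1, mul_inv_cancel_right]
      rw [← this] at hy
      simpa [mul_assoc] using hy
    · intro hy
      rw [mul_assoc, ← hc a ha y hy, inv_mul_cancel_left]; exact hy
  have hsup : ∀ X : Subgroup G, X ≤ L ⊔ L' → ∀ y ∈ X ⊔ L', ∃ x ∈ X, ∃ l ∈ L', y = x * l := by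
    intro X hX y hy
    rw [← SetLike.mem_coe, Subgroup.coe_mul_of_left_le_normalizer_right _ _ (hX.trans hnorm)] at hy
    obtain ⟨a, ha, b, hb, e⟩ := hy
    exact ⟨a, ha, b, hb, e.symm⟩
  refine (CfsgLib.CoreFree.mem_center_or_of_pair h2 (proj K) (proj K') ?_ ?_).elim (fun h => ?_) (fun h => ?_)
  rotate_left 2
  · left
    intro k hk
    obtain ⟨a, ha, b, hb, rfl⟩ := hmem k (hK hk)
    have h3 : (⟨a, ha⟩ : L) ∈ (L ⊓ (K ⊔ L')).subgroupOf L := ⟨ha, by
      have := Subgroup.mul_mem _ (Subgroup.mem_sup_left (T := L') hk) (Subgroup.mem_sup_right (S := K) (L'.inv_mem hb))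
      simpa using this⟩
    have h4 := h ⟨_, h3, rfl⟩
    exact L'.mul_mem (central_mem L L' j hm e h2 hcen hj ⟨a, ha⟩ h4) hb
  · right
    intro k hk
    obtain ⟨a, ha, b, hb, rfl⟩ := hmem k (hK' hk)
    have h3 : (⟨a, ha⟩ : L) ∈ (L ⊓ (K' ⊔ L')).subgroupOf L := ⟨ha, by
      have := Subgroup.mul_mem _ (Subgroup.mem_sup_left (T := L') hk) (Subgroup.mem_sup_right (S := K') (L'.inv_mem hb))
      simpa using this⟩
    have h4 := h ⟨_, h3, rfl⟩
    exact L'.mul_mem (central_mem L L' j hm e h2 hcen hj ⟨a, ha⟩ h4) hb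
  · rintro _ ⟨a, ha, rfl⟩ _ ⟨b, hb, rfl⟩
    obtain ⟨x, hx, l, hl, hax⟩ := hsup K hK _ ha.2
    obtain ⟨y, hy, l', hl', hby⟩ := hsup K' hK' _ hb.2
    show e a * e b * (e a)⁻¹ * (e b)⁻¹ ∈ _
    rw [← map_inv, ← map_inv, ← map_mul, ← map_mul, ← map_mul]
    refine hcenL _ ?_
    have hax' : (L.subtype a : G) = x * l := hax
    have hby' : (L.subtype b : G) = y * l' := hby
    show (a : G) * b * (a : G)⁻¹ * (b : G)⁻¹ ∈ L'
    have N := hnorm
    -- modulo `L'` the commutator is that of `x` and `y`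
    have hmk : ∀ u ∈ L ⊔ L', ∀ z ∈ L', u * z * u⁻¹ ∈ L' := fun u hu z hz =>
      (Subgroup.mem_normalizer_iff.1 (hnorm hu) z).1 hz
    have e1 : (a : G) * b * (a : G)⁻¹ * (b : G)⁻¹ =
        (x * (l * (y * l' * l⁻¹ * y⁻¹)) * x⁻¹) * (x * y * x⁻¹ * y⁻¹) * (y * l'⁻¹ * y⁻¹) := by
      rw [show (a : G) = x * l from hax', show (b : G) = y * l' from hby']
      group
    rw [e1, show x * y * x⁻¹ * y⁻¹ = 1 by rw [hKK x hx y hy]; group, mul_one]
    refine L'.mul_mem (hmk x (hK hx) _ (L'.mul_mem hl ?_)) (hmk y (hK' hy) _ (L'.inv_mem hl'))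
    rw [show y * l' * l⁻¹ * y⁻¹ = y * (l' * l⁻¹) * y⁻¹ by group]
    exact hmk y (hK' hy) _ (L'.mul_mem hl' (L'.inv_mem hl))
  · intro g
    obtain ⟨g, rfl⟩ := e.surjective g
    obtain ⟨x, hx, y, hy, hxy⟩ := hgen g (Subgroup.mem_sup_left g.2)
    obtain ⟨a, ha, b, hb, rfl⟩ := hmem x (hK hx)
    obtain ⟨a', ha', b', hb', rfl⟩ := hmem y (hK' hy)
    have hz : (a * a')⁻¹ * (g : G) ∈ L' := by
      rw [hxy, show (a * a')⁻¹ * (a * b * (a' * b')) = a'⁻¹ * (b * a') * b' by group, ← hc a' ha' b hb,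
        inv_mul_cancel_left]
      exact L'.mul_mem hb hb'
    refine ⟨e ⟨a, ha⟩, ⟨_, ⟨ha, ?_⟩, rfl⟩, e (⟨a', ha'⟩ * ⟨(a * a')⁻¹ * g, L.mul_mem (L.inv_mem (L.mul_mem ha ha')) g.2⟩), ⟨_, ⟨?_, ?_⟩, rfl⟩, ?_⟩
    · have := Subgroup.mul_mem _ (Subgroup.mem_sup_left (T := L') hx) (Subgroup.mem_sup_right (S := K) (L'.inv_mem hb))
      simpa using this
    · exact L.mul_mem ha' (L.mul_mem (L.inv_mem (L.mul_mem ha ha')) g.2)
    · refine Subgroup.mul_mem _ ?_ (Subgroup.mem_sup_right hz)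
      have := Subgroup.mul_mem _ (Subgroup.mem_sup_left (T := L') hy) (Subgroup.mem_sup_right (S := K') (L'.inv_mem hb'))
      simpa using this
    · rw [← map_mul]
      refine congrArg e (Subtype.ext ?_)
      show (g : G) = a * (a' * ((a * a')⁻¹ * g))
      group

/-- A conjugate of a copy of `SL₂` is not inside a cyclic group. -/
theorem not_small {G : Type*} [Group G] (n j : G) (L : Subgroup G) {F : Type*} [Field F]
    (e : ↥L ≃* Matrix.SpecialLinearGroup (Fin 2) F) : ¬ CfsgLib.InvChar.cj n L ≤ Subgroup.zpowers j := by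
  intro hle'
  obtain ⟨g, hg⟩ := CfsgLib.CoreFree.not_subsingleton_quotient_center F
  apply hg
  rw [Subgroup.mem_center_iff]
  intro x
  have hcomm : ∀ u ∈ L, ∀ v ∈ L, u * v = v * u := by
    intro u hu v hv
    obtain ⟨a, ha⟩ := Subgroup.mem_zpowers_iff.1 (hle' (CfsgLib.InvChar.conj_mem_cj hu))
    obtain ⟨b, hb⟩ := Subgroup.mem_zpowers_iff.1 (hle' (CfsgLib.InvChar.conj_mem_cj hv))
    have : (n * u * n⁻¹) * (n * v * n⁻¹) = (n * v * n⁻¹) * (n * u * n⁻¹) := by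
      rw [← ha, ← hb, ← zpow_add, ← zpow_add, add_comm]
    rw [conj_mul, conj_mul] at this
    exact mul_left_cancel (mul_right_cancel this)
  have h1 := hcomm (e.symm x) (e.symm x).2 (e.symm g) (e.symm g).2
  apply e.symm.injective
  rw [map_mul, map_mul]
  exact Subtype.ext h1

/-- Let G be a finite group with subgroups L₁ ≅ SL₂(q₁) and L₂ ≅ SL₂(q₂), q₁ and q₂ odd prime powers, which commute elementwise and meet in ⟨j⟩ for an involution j, and suppose L₁L₂ has index 2 in C_G(j). Then every element n of C_G(j) outside L₁L₂ either normalizes both L₁ and L₂, or conjugates L₁ onto L₂; in the second case q₁ = q₂ and there is an element n′ of C_G(j) outside L₁L₂ conjugating L₁ onto L₂ with n′² ∈ ⟨j⟩. -/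
theorem result {G : Type*} [Group G] [Finite G]
    {F₁ : Type*} [Field F₁] [Fintype F₁] {F₂ : Type*} [Field F₂] [Fintype F₂]
    (hF₁ : Odd (Fintype.card F₁)) (hF₂ : Odd (Fintype.card F₂)) (L₁ L₂ : Subgroup G)
    (e₁ : ↥L₁ ≃* Matrix.SpecialLinearGroup (Fin 2) F₁) (e₂ : ↥L₂ ≃* Matrix.SpecialLinearGroup (Fin 2) F₂)
    (hc : ∀ x ∈ L₁, ∀ y ∈ L₂, x * y = y * x) (j : G) (hj : orderOf j = 2) (hm : L₁ ⊓ L₂ = Subgroup.zpowers j)
    (hle : L₁ ⊔ L₂ ≤ Subgroup.centralizer ({j} : Set G)) (hi : (L₁ ⊔ L₂).relIndex (Subgroup.centralizer ({j} : Set G)) = 2) (n : G) (hn : n ∈ Subgroup.centralizer ({j} : Set G)) (hn' : n ∉ L₁ ⊔ L₂) :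
    (L₁.map (MulAut.conj n).toMonoidHom = L₁ ∧ L₂.map (MulAut.conj n).toMonoidHom = L₂) ∨
      (L₁.map (MulAut.conj n).toMonoidHom = L₂ ∧ Fintype.card F₁ = Fintype.card F₂ ∧
        ∃ n' ∈ Subgroup.centralizer ({j} : Set G), n' ∉ L₁ ⊔ L₂ ∧ L₁.map (MulAut.conj n').toMonoidHom = L₂ ∧ n' ^ 2 ∈ Subgroup.zpowers j) := by
  classical
  have h21 := CfsgLib.CoreFree.two_ne_zero_of_odd_card hF₁
  have h22 := CfsgLib.CoreFree.two_ne_zero_of_odd_card hF₂
  have hj1 : j ≠ 1 := fun e => by rw [e, orderOf_one] at hj; omega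
  set M := L₁ ⊔ L₂ with hM
  have hjZ : ∀ z ∈ L₁ ⊓ L₂, ∀ g ∈ Subgroup.centralizer ({j} : Set G), z * g = g * z := by
    intro z hz g hg
    rw [hm] at hz
    obtain ⟨i, rfl⟩ := Subgroup.mem_zpowers_iff.1 hz
    exact (Commute.zpow_left (Subgroup.mem_centralizer_singleton_iff.1 hg).symm i).eq
  have hmemM : ∀ x ∈ M, ∃ a ∈ L₁, ∃ b ∈ L₂, x = a * b := by
    intro x hx
    have hle : L₂ ≤ Subgroup.normalizer (L₁ : Set G) := by
      intro b hb
      rw [← CfsgLib.InvChar.cj_eq_self_iff]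
      apply le_antisymm
      · intro y hy
        rw [CfsgLib.InvChar.mem_cj] at hy
        have e := hc _ hy b hb
        have : b⁻¹ * y * b = y := by
          rw [mul_assoc b⁻¹ y b] at e
          have e' : b⁻¹ * (y * b) * b = y * b := by rw [e]; group
          calc b⁻¹ * y * b = b⁻¹ * (y * b) := by group
            _ = b⁻¹ * (y * b) * b * b⁻¹ := by group
            _ = y * b * b⁻¹ := by rw [e']
            _ = y := by group
        rwa [this] at hy
      · intro y hy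
        rw [CfsgLib.InvChar.mem_cj, mul_assoc, hc y hy b hb, inv_mul_cancel_left]
        exact hy
    rw [hM, ← SetLike.mem_coe, Subgroup.coe_mul_of_right_le_normalizer_left _ _ hle] at hx
    obtain ⟨a, ha, b, hb, e⟩ := hx
    exact ⟨a, ha, b, hb, e.symm⟩
  have hindex : (M.subgroupOf (Subgroup.centralizer ({j} : Set G))).index = 2 := hi
  have hnM : ∀ g ∈ Subgroup.centralizer ({j} : Set G), CfsgLib.InvChar.cj g M = M := by
    intro g hg
    haveI := Subgroup.normal_of_index_eq_two hindex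
    rw [CfsgLib.InvChar.cj_eq_self_iff]
    exact (Subgroup.normal_subgroupOf_iff_le_normalizer hle).1 inferInstance hg
  set K := CfsgLib.InvChar.cj n L₁ with hK
  set K' := CfsgLib.InvChar.cj n L₂ with hK'
  have hKK : ∀ x ∈ K, ∀ y ∈ K', x * y = y * x := by
    rintro _ ⟨a, ha, rfl⟩ _ ⟨b, hb, rfl⟩
    rw [← map_mul, hc a ha b hb, map_mul]
  have hsupK : K ⊔ K' = M := by
    rw [hK, hK', CfsgLib.InvChar.cj, CfsgLib.InvChar.cj, ← Subgroup.map_sup]
    exact hnM n hn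
  have hnj : n * j * n⁻¹ = j := mul_inv_eq_iff_eq_mul.2 (Subgroup.mem_centralizer_singleton_iff.1 hn)
  have hmemK : ∀ x ∈ M, ∃ a ∈ K, ∃ b ∈ K', x = a * b := by
    intro x hx
    rw [← hnM n hn] at hx
    obtain ⟨y, hy, rfl⟩ := hx
    obtain ⟨a, ha, b, hb, rfl⟩ := hmemM y hy
    exact ⟨_, ⟨a, ha, rfl⟩, _, ⟨b, hb, rfl⟩, map_mul _ a b⟩
  -- one of the new factors projects centrally onto each old one
  have key1 : K ≤ L₂ ∨ K' ≤ L₂ :=
    dichotomy L₁ L₂ K K' j hm hc hmemM (le_sup_left.trans hsupK.le) (le_sup_right.trans hsupK.le) hKK hmemK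
      (fun z hz g hg => hjZ z hz g (hle hg)) hj1 e₁ h21
  have hm' : L₂ ⊓ L₁ = Subgroup.zpowers j := by rw [inf_comm]; exact hm
  have hmemM' : ∀ x ∈ L₂ ⊔ L₁, ∃ a ∈ L₂, ∃ b ∈ L₁, x = a * b := by
    intro x hx
    rw [sup_comm] at hx
    obtain ⟨a, ha, b, hb, rfl⟩ := hmemM x hx
    exact ⟨b, hb, a, ha, hc a ha b hb⟩
  have key2 : K ≤ L₁ ∨ K' ≤ L₁ :=
    dichotomy L₂ L₁ K K' j hm' (fun x hx y hy => (hc y hy x hx).symm) hmemM'
      (by rw [sup_comm]; exact le_sup_left.trans hsupK.le) (by rw [sup_comm]; exact le_sup_right.trans hsupK.le) hKK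
      (fun x hx => hmemK x (by rw [hM, sup_comm]; exact hx))
      (fun z hz g hg => hjZ z (inf_comm L₂ L₁ ▸ hz) g (hle (by rw [hM, sup_comm]; exact hg))) hj1 e₂ h22
  have hcK : Nat.card K = Nat.card L₁ := CfsgLib.InvChar.card_cj n L₁
  have hcK' : Nat.card K' = Nat.card L₂ := CfsgLib.InvChar.card_cj n L₂
  rcases key1 with hKL | hKL <;> rcases key2 with hKL' | hKL'
  · exact absurd (hm ▸ le_inf hKL' hKL : K ≤ Subgroup.zpowers j) (not_small n j L₁ e₁)
  · -- the swap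
    have hcard : Nat.card L₁ = Nat.card L₂ := le_antisymm (hcK ▸ Subgroup.card_le_of_le hKL) (hcK' ▸ Subgroup.card_le_of_le hKL')
    have hKeq : K = L₂ := Subgroup.eq_of_le_of_card_ge hKL (by rw [hcK, hcard])
    have hK'eq : K' = L₁ := Subgroup.eq_of_le_of_card_ge hKL' (by rw [hcK', hcard])
    refine Or.inr ⟨hKeq, ?_, ?_⟩
    · have h1 : Nat.card F₁ * (Nat.card F₁ ^ 2 - 1) = Nat.card F₂ * (Nat.card F₂ ^ 2 - 1) := by
        rw [← CfsgLib.SL2.card_SL, ← CfsgLib.SL2.card_SL, ← Nat.card_congr e₁.toEquiv, ← Nat.card_congr e₂.toEquiv, hcard]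
      simp only [Nat.card_eq_fintype_card] at h1
      have hmono : ∀ a b : ℕ, 1 ≤ a → a < b → a * (a ^ 2 - 1) < b * (b ^ 2 - 1) := by
        intro a b ha hab
        have h2 : a ^ 2 - 1 < b ^ 2 - 1 := by
          have : a ^ 2 < b ^ 2 := Nat.pow_lt_pow_left hab two_ne_zero
          have : 1 ≤ a ^ 2 := Nat.one_le_pow _ _ ha
          omega
        exact Nat.mul_lt_mul'' hab h2
      rcases Nat.lt_trichotomy (Fintype.card F₁) (Fintype.card F₂) with h | h | h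
      · exact absurd h1 (hmono _ _ Fintype.card_pos h).ne
      · exact h
      · exact absurd h1.symm (hmono _ _ Fintype.card_pos h).ne
    · have hn2 : n ^ 2 ∈ M := by
        have h := (Subgroup.mul_mem_iff_of_index_two hindex (a := (⟨n, hn⟩ : Subgroup.centralizer ({j} : Set G))) (b := ⟨n, hn⟩)).2 Iff.rfl
        rw [pow_two]; exact h
      obtain ⟨u, hu, v, hv, huv⟩ := hmemM _ hn2
      have hu' : n * u * n⁻¹ ∈ L₂ := hKeq ▸ CfsgLib.InvChar.conj_mem_cj hu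
      have hv' : n * v * n⁻¹ ∈ L₁ := hK'eq ▸ CfsgLib.InvChar.conj_mem_cj hv
      set w := n * v * n⁻¹ with hw
      have hl : n * v⁻¹ * n⁻¹ = w⁻¹ := by rw [hw]; group
      refine ⟨n * w⁻¹, mul_mem hn (hle (Subgroup.mem_sup_left (L₁.inv_mem hv'))), fun h => hn' ?_, ?_, ?_⟩
      · have := M.mul_mem h (Subgroup.mem_sup_left (T := L₂) hv')
        simpa using this
      · show CfsgLib.InvChar.cj (n * w⁻¹) L₁ = L₂
        rw [CfsgLib.InvChar.cj_mul, CfsgLib.InvChar.cj_eq_self_of_mem (L₁.inv_mem hv')]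
        exact hKeq
      · have hsq : (n * w⁻¹) ^ 2 = u * w⁻¹ := by
          calc (n * w⁻¹) ^ 2 = n ^ 2 * v⁻¹ * w⁻¹ := by rw [pow_two, pow_two, ← hl]; group
            _ = u * w⁻¹ := by rw [huv]; group
        rw [hsq]
        have h1 : (n * u * n⁻¹) * w = u * v := by
          rw [hw, conj_mul, ← huv]; group
        have h2 : w * (n * u * n⁻¹) = u * v := by rw [← h1]; exact hc w hv' _ hu'
        have h3 : w⁻¹ * u ∈ L₁ ⊓ L₂ := by
          refine ⟨L₁.mul_mem (L₁.inv_mem hv') hu, ?_⟩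
          have : w⁻¹ * u = n * u * n⁻¹ * v⁻¹ := by
            calc w⁻¹ * u = w⁻¹ * (u * v) * v⁻¹ := by group
              _ = w⁻¹ * (w * (n * u * n⁻¹)) * v⁻¹ := by rw [h2]
              _ = n * u * n⁻¹ * v⁻¹ := by group
          rw [this]
          exact L₂.mul_mem hu' (L₂.inv_mem hv)
        have h4 : u * w⁻¹ = w⁻¹ * u := by
          have := hjZ _ h3 w (hle (Subgroup.mem_sup_left hv'))
          calc u * w⁻¹ = w * (w⁻¹ * u) * w⁻¹ := by group
            _ = (w⁻¹ * u) * w * w⁻¹ := by rw [this]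
            _ = w⁻¹ * u := by group
        rw [h4, ← hm]
        exact h3
  · -- both fixed
    have h1 : Nat.card K ≤ Nat.card L₁ := hcK.le
    exact Or.inl ⟨Subgroup.eq_of_le_of_card_ge hKL' hcK.ge, Subgroup.eq_of_le_of_card_ge hKL hcK'.ge⟩
  · exact absurd (hm ▸ le_inf hKL' hKL : K' ≤ Subgroup.zpowers j) (not_small n j L₂ e₂)

end Cfsg.Agent.S3210
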