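import Cfsg.Statements.S3211
import Cfsg.Agent.S0215
import Cfsg.Agent.Lib.Amalgams.SwapPair
import Cfsg.Agent.Lib.TwoFusion.IsolatedInvolution
-- import your own Cfsg.Agent.* helpers here

set_option autoImplicit false
open Cfsg

namespace Cfsg.Agent.S3211

/-- Let G be a finite group with subgroups L₁ ≅ SL₂(q₁) and L₂ ≅ SL₂(q₂), q₁ and q₂ odd prime powers, which commute elementwise and meet in ⟨j⟩ for an involution j, and suppose L₁L₂ has index 2 in C_G(j). If some n ∈ C_G(j) with n² = j interchanges L₁ and L₂ under conjugation (so that C_G(j) = L₁L₂⟨n⟩), then G = C_G(j)O(G). -/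
theorem result {G : Type*} [Group G] [Finite G]
    {F₁ : Type*} [Field F₁] [Fintype F₁] {F₂ : Type*} [Field F₂] [Fintype F₂]
    (hF₁ : Odd (Fintype.card F₁)) (hF₂ : Odd (Fintype.card F₂)) (L₁ L₂ : Subgroup G)
    (e₁ : ↥L₁ ≃* Matrix.SpecialLinearGroup (Fin 2) F₁) (e₂ : ↥L₂ ≃* Matrix.SpecialLinearGroup (Fin 2) F₂)
    (hc : ∀ x ∈ L₁, ∀ y ∈ L₂, x * y = y * x) (j : G) (hj : orderOf j = 2) (hm : L₁ ⊓ L₂ = Subgroup.zpowers j)
    (hle : L₁ ⊔ L₂ ≤ Subgroup.centralizer ({j} : Set G)) (hi : (L₁ ⊔ L₂).relIndex (Subgroup.centralizer ({j} : Set G)) = 2) (n : G) (hn : n ∈ Subgroup.centralizer ({j} : Set G))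
    (hn2 : n ^ 2 = j) (hswap : L₁.map (MulAut.conj n).toMonoidHom = L₂) :
    Subgroup.centralizer ({j} : Set G) ⊔ Cfsg.oddCore G = ⊤ := by
  have hjL : j ∈ L₁ := (hm.ge (Subgroup.mem_zpowers j)).1
  have hiso := CfsgLib.Amalgams.isIsolated_of_swapped_pair hj
    (CfsgLib.Amalgams.SL2Pair.of_equiv hF₁ e₁ hj hjL) hc hm hle hi hn hn2 hswap
  haveI : Fact (Nat.Prime 2) := ⟨Nat.prime_two⟩
  obtain ⟨P, hP⟩ := (IsPGroup.of_card (p := 2) (n := 1)
    (by rw [Nat.card_zpowers, hj, pow_one]) : IsPGroup 2 (Subgroup.zpowers j)).exists_le_sylow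
  have hjP : j ∈ (P : Subgroup G) := hP (Subgroup.mem_zpowers j)
  obtain ⟨N, hN, hodd, hcN⟩ := Cfsg.Agent.S0215.result P j hj hjP fun g hg =>
    CfsgLib.TwoGroupTricks.conj_eq_of_mem hiso.2 P.2 hjP hg
  have := CfsgLib.Amalgams.centralizer_sup_eq_top_of_commutators N hodd
    (by rw [← pow_two, ← hj, pow_orderOf_eq_one]) hcN
  exact top_unique (this ▸ sup_le_sup_left (show N ≤ Cfsg.oddCore G from
    le_sSup ⟨hN, Nat.coprime_two_right.2 hodd⟩) _)

end Cfsg.Agent.S3211
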