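import Cfsg.Statements.S3213
import Cfsg.Agent.Lib.SL2.Basic
import Cfsg.Agent.Lib.SL2.Card

set_option autoImplicit false
open Cfsg

namespace Cfsg.Agent.S3213

open scoped MatrixGroups

open Module in
/-- An element of order five acting on `F₃⁴` leaves no proper subspace invariant. -/
theorem invariant_eq_bot_or_top {F V : Type*} [Field F] [Fintype F] [AddCommGroup V] [Module F V] [Finite V]
    (hF : Fintype.card F = 3) (hV : finrank F V = 4) (R : Module.End F V) (hR : R ^ 5 = 1) (hR1 : R ≠ 1)
    (U : Submodule F V) (hU : ∀ v ∈ U, R v ∈ U) :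
    (U = ⊥ ∨ U = ⊤) ∧ ∀ v, R v = v → v = 0 := by
  classical
  haveI : Fact (Nat.Prime 5) := ⟨by norm_num⟩
  letI := Fintype.ofFinite V
  have hcard : ∀ W : Submodule F V, Nat.card W = 3 ^ finrank F W := fun W => by
    rw [Module.natCard_eq_pow_finrank (K := F), Nat.card_eq_fintype_card, hF]
  have key : ∀ W : Submodule F V, (∀ v ∈ W, R v ∈ W) →
      3 ^ finrank F W % 5 = 3 ^ finrank F (W ⊓ LinearMap.ker (R - 1) : Submodule F V) % 5 := by
    intro W hW
    let f : Function.End W := fun w => ⟨R w, hW _ w.2⟩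
    have hit : ∀ (k : ℕ) (w : W), (((f ^ k) w : W) : V) = (R ^ k) (w : V) := by
      intro k
      induction k with
      | zero => intro w; rfl
      | succ k ih => intro w; rw [pow_succ', pow_succ']; show R (((f ^ k) w : W) : V) = _; rw [ih]; rfl
    have hf : f ^ 5 ^ 1 = 1 := by
      funext w
      apply Subtype.ext
      rw [pow_one, hit, hR]
      rfl
    have h := Equiv.Perm.card_fixedPoints_modEq hf
    rw [← Nat.card_eq_fintype_card, ← Nat.card_eq_fintype_card] at h
    rw [← hcard, ← hcard]
    refine h.trans (Eq.trans (congrArg (· % 5) (Nat.card_congr ?_)) rfl)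
    exact {
      toFun := fun w => ⟨w.1.1, w.1.2, by
        rw [SetLike.mem_coe, LinearMap.mem_ker, LinearMap.sub_apply]
        exact sub_eq_zero.2 (congrArg Subtype.val w.2)⟩
      invFun := fun w => ⟨⟨w.1, w.2.1⟩, Subtype.ext (by
        have := w.2.2
        rw [SetLike.mem_coe, LinearMap.mem_ker, LinearMap.sub_apply] at this
        exact sub_eq_zero.1 this)⟩
      left_inv := fun _ => rfl
      right_inv := fun _ => rfl }
  have hfix : LinearMap.ker (R - 1) = ⊥ := by
    have h := key ⊤ (fun _ _ => Submodule.mem_top)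
    rw [finrank_top, hV, top_inf_eq] at h
    have hle := Submodule.finrank_le (LinearMap.ker (R - 1))
    rw [hV] at hle
    generalize hd : finrank F (LinearMap.ker (R - 1)) = d at h hle
    interval_cases d <;> norm_num at h
    · exact Submodule.finrank_eq_zero.1 hd
    · exfalso
      have htop := Submodule.eq_top_of_finrank_eq (hd.trans hV.symm)
      exact hR1 (sub_eq_zero.1 (LinearMap.ker_eq_top.1 htop))
  refine ⟨?_, fun v hv => ?_⟩
  · have h := key U hU
    rw [hfix, inf_bot_eq, finrank_bot] at h
    have hle := Submodule.finrank_le U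
    rw [hV] at hle
    generalize hd : finrank F U = d at h hle
    interval_cases d <;> norm_num at h
    · exact Or.inl (Submodule.finrank_eq_zero.1 hd)
    · exact Or.inr (Submodule.eq_top_of_finrank_eq (hd.trans hV.symm))
  · have : v ∈ LinearMap.ker (R - 1) := by
      rw [LinearMap.mem_ker, LinearMap.sub_apply]
      exact sub_eq_zero.2 hv
    rwa [hfix, Submodule.mem_bot] at this

/-- Let F be the field with 3 elements and K the field with 5 elements. For every injective homomorphism φ from SL₂(K) into the symplectic group Sp₄(F) (4 × 4 matrices g with g J gᵀ = J for the standard alternating matrix J) and every element x of order 3 of SL₂(K), the vectors of F⁴ fixed by φ(x) form a 2-dimensional subspace that is totally isotropic for the alternating form defined by J. -/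
theorem result {F : Type*} [Field F] [Fintype F] (hF : Fintype.card F = 3)
    {K : Type*} [Field K] [Fintype K] (hK : Fintype.card K = 5)
    (φ : Matrix.SpecialLinearGroup (Fin 2) K →* ↥(Matrix.symplecticGroup (Fin 2) F)) (hφ : Function.Injective φ)
    (x : Matrix.SpecialLinearGroup (Fin 2) K) (hx : orderOf x = 3) :
    Module.finrank F ↥(LinearMap.ker (Matrix.toLin' ((φ x : Matrix (Fin 2 ⊕ Fin 2) (Fin 2 ⊕ Fin 2) F)) - LinearMap.id)) = 2 ∧
      ∀ v w : Fin 2 ⊕ Fin 2 → F, (φ x : Matrix (Fin 2 ⊕ Fin 2) (Fin 2 ⊕ Fin 2) F).mulVec v = v →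
        (φ x : Matrix (Fin 2 ⊕ Fin 2) (Fin 2 ⊕ Fin 2) F).mulVec w = w →
          dotProduct v ((Matrix.J (Fin 2) F).mulVec w) = 0 := by
  classical
  let V := Fin 2 ⊕ Fin 2 → F
  have hfr : Module.finrank F V = 4 := by simp [V]
  have h3 : (3 : F) = 0 := by
    have := FiniteField.cast_card_eq_zero F
    rw [hF] at this
    exact_mod_cast this
  have h2 : (2 : F) ≠ 0 := fun h => one_ne_zero (show (1 : F) = 0 by linear_combination h3 - h)
  have hK2 : (2 : K) ≠ 0 := by
    have h5 : (5 : K) = 0 := by
      have := FiniteField.cast_card_eq_zero K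
      rw [hK] at this
      exact_mod_cast this
    exact fun h => one_ne_zero (show (1 : K) = 0 by linear_combination h5 - 2 * h)
  let B : V → V → F := fun v w => dotProduct v ((Matrix.J (Fin 2) F).mulVec w)
  let ψ : SL(2, K) →* Module.End F V :=
    { toFun := fun g => Matrix.toLin' (φ g : Matrix (Fin 2 ⊕ Fin 2) (Fin 2 ⊕ Fin 2) F)
      map_one' := by rw [map_one]; exact Matrix.toLin'_one
      map_mul' := fun g h => by rw [map_mul]; exact Matrix.toLin'_mul _ _ }
  have hψ : Function.Injective ψ := fun a b h => hφ (Subtype.ext (Matrix.toLin'.injective h))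
  have hB : ∀ g u v, B (ψ g u) (ψ g v) = B u v := by
    intro g u v
    have h := SymplecticGroup.mem_iff'.1 (φ g).2
    show dotProduct ((φ g : Matrix (Fin 2 ⊕ Fin 2) (Fin 2 ⊕ Fin 2) F).mulVec u)
      ((Matrix.J (Fin 2) F).mulVec ((φ g : Matrix (Fin 2 ⊕ Fin 2) (Fin 2 ⊕ Fin 2) F).mulVec v)) = _
    rw [Matrix.mulVec_mulVec, Matrix.dotProduct_mulVec, ← Matrix.vecMul_transpose,
      Matrix.vecMul_vecMul, ← mul_assoc, h, ← Matrix.dotProduct_mulVec]
  have hswap : ∀ u v, B u v = -B v u := by
    intro u v
    simp only [B]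
    rw [Matrix.dotProduct_mulVec, ← Matrix.mulVec_transpose, Matrix.J_transpose, Matrix.neg_mulVec,
      neg_dotProduct, dotProduct_comm]
  have hnd : ∀ w, (∀ v, B w v = 0) → w = 0 := by
    intro w hw
    refine dotProduct_eq_zero w fun v => ?_
    have := hw (-((Matrix.J (Fin 2) F).mulVec v))
    simpa [B, Matrix.mulVec_neg, Matrix.mulVec_mulVec, Matrix.J_squared, Matrix.neg_mulVec] using this
  -- an element of order five
  obtain ⟨r, hr⟩ : ∃ r : SL(2, K), orderOf r = 5 := by
    haveI : Fact (Nat.Prime 5) := ⟨by norm_num⟩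
    exact exists_prime_orderOf_dvd_card' 5 (by rw [CfsgLib.SL2.card_SL, Nat.card_eq_fintype_card, hK]; norm_num)
  have hord5 : ∀ g : SL(2, K), orderOf g = 5 → (∀ U : Submodule F V, (∀ v ∈ U, ψ g v ∈ U) →
      (U = ⊥ ∨ U = ⊤) ∧ ∀ v, ψ g v = v → v = 0) := by
    intro g hg U hU
    refine invariant_eq_bot_or_top hF hfr (ψ g) ?_ ?_ U hU
    · rw [← map_pow, ← hg, pow_orderOf_eq_one, map_one]
    · intro h
      rw [hψ (h.trans (map_one ψ).symm), orderOf_one] at hg
      omega
  -- the central involution acts as `-1`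
  have hneg : ∀ v, ψ (-1) v = v → v = 0 := by
    intro v hv
    have hcomm : ∀ w, ψ r (ψ (-1) w) = ψ (-1) (ψ r w) := by
      intro w
      rw [← Module.End.mul_apply, ← Module.End.mul_apply, ← map_mul, ← map_mul]
      simp
    rcases (hord5 r hr (LinearMap.ker (ψ (-1) - 1)) (fun w hw => by
      rw [LinearMap.mem_ker, LinearMap.sub_apply] at hw ⊢
      have hw' : ψ (-1) w = w := sub_eq_zero.1 hw
      show ψ (-1) (ψ r w) - ψ r w = 0
      rw [← hcomm, hw', sub_self])).1 with h | h
    · have : v ∈ LinearMap.ker (ψ (-1) - 1) := by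
        rw [LinearMap.mem_ker, LinearMap.sub_apply]
        exact sub_eq_zero.2 hv
      rwa [h, Submodule.mem_bot] at this
    · exfalso
      have h1 : (-1 : SL(2, K)) = 1 := hψ ((sub_eq_zero.1 (LinearMap.ker_eq_top.1 h)).trans (map_one ψ).symm)
      have := congrArg (fun g : SL(2, K) => (g : Matrix (Fin 2) (Fin 2) K) 0 0) h1
      simp at this
      exact hK2 (by linear_combination -this)
  -- the nilpotent part of `x`
  set X := ψ x with hX
  set N : Module.End F V := X - 1 with hN
  have hX3 : X ^ 3 = 1 := by rw [hX, ← map_pow, ← hx, pow_orderOf_eq_one, map_one]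
  have h3V : ∀ T : Module.End F V, 3 • T = 0 := by
    intro T
    ext w i
    show 3 • (T _ i) = 0
    rw [nsmul_eq_mul]
    push_cast
    rw [h3, zero_mul]
  have hN3 : N ^ 3 = 0 := by
    have : N ^ 3 = (X ^ 3 - 1) - 3 • (X ^ 2 - X) := by
      rw [hN]; simp only [pow_succ, pow_zero, one_mul, sub_mul, mul_sub, mul_one, mul_assoc, smul_sub]; abel
    rw [this, hX3, h3V, sub_self, sub_self]
  have hN2 : (X ^ 2 - 1) ^ 2 = N ^ 2 := by
    have : (X ^ 2 - 1) ^ 2 = N ^ 2 + 3 • (X - X ^ 2) + (X ^ 3 - 1) * X := by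
      rw [hN]; simp only [pow_succ, pow_zero, one_mul, sub_mul, mul_sub, mul_one, mul_assoc, smul_sub]; abel
    rw [this, h3V, hX3, sub_self, zero_mul, add_zero, add_zero]
  have hadj : ∀ u v, B (N u) v = B u ((X ^ 2 - 1 : Module.End F V) v) := by
    intro u v
    have e : B (X u) v = B u ((X ^ 2) v) := by
      have h := hB (x ^ 2) (X u) v
      rw [map_pow, ← hX, ← Module.End.mul_apply (f := X ^ 2), ← pow_succ, hX3, Module.End.one_apply] at h
      exact h.symm
    show dotProduct (X u - u) ((Matrix.J (Fin 2) F).mulVec v) =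
      dotProduct u ((Matrix.J (Fin 2) F).mulVec ((X ^ 2) v - v))
    rw [sub_dotProduct, Matrix.mulVec_sub, dotProduct_sub]
    exact congrArg₂ (· - ·) e rfl
  have halt : ∀ u v, B ((N ^ 2) u) v = -B ((N ^ 2) v) u := by
    intro u v
    conv_lhs => rw [pow_two N, Module.End.mul_apply, hadj, hadj, ← Module.End.mul_apply, ← pow_two, hN2, hswap]
  have hrn : Module.finrank F (LinearMap.range N) + Module.finrank F (LinearMap.ker N) = 4 :=
    (LinearMap.finrank_range_add_finrank_ker N).trans hfr
  have hN20 : N ^ 2 = 0 := by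
    by_contra hne
    have hr2le : LinearMap.range (N ^ 2) ≤ LinearMap.range N := by
      rintro _ ⟨a, rfl⟩
      exact ⟨N a, by rw [pow_two]; rfl⟩
    have hr2ker : LinearMap.range (N ^ 2) ≤ LinearMap.ker N := by
      rintro _ ⟨a, rfl⟩
      rw [LinearMap.mem_ker, ← Module.End.mul_apply, ← pow_succ', hN3]
      rfl
    have hone : Module.finrank F (LinearMap.range (N ^ 2)) ≤ 1 := by
      by_contra hge
      have h1 := Submodule.finrank_mono hr2ker
      have h2' := Submodule.finrank_mono hr2le
      have heq : LinearMap.range (N ^ 2) = LinearMap.range N :=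
        Submodule.eq_of_le_of_finrank_le hr2le (by omega)
      apply hne
      apply LinearMap.ext
      intro a
      obtain ⟨b, hb⟩ : N a ∈ LinearMap.range (N ^ 2) := heq ▸ ⟨a, rfl⟩
      rw [pow_two, Module.End.mul_apply, ← hb, ← Module.End.mul_apply, ← pow_succ', hN3]
      rfl
    obtain ⟨w, hw⟩ := finrank_le_one_iff.1 hone
    apply hne
    apply LinearMap.ext
    intro u
    apply hnd
    intro v
    obtain ⟨c, hc⟩ := hw ⟨(N ^ 2) u, ⟨u, rfl⟩⟩
    obtain ⟨d, hd⟩ := hw ⟨(N ^ 2) v, ⟨v, rfl⟩⟩
    have hc' : c • (w : V) = (N ^ 2) u := congrArg Subtype.val hc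
    have hd' : d • (w : V) = (N ^ 2) v := congrArg Subtype.val hd
    have hsm : ∀ (a : F) (p q : V), B (a • p) q = a * B p q := fun a p q => smul_dotProduct a p _
    have huu : c * B w u = 0 := by
      rw [← hsm, hc']
      have := halt u u
      exact (mul_eq_zero.1 (show (2 : F) * B ((N ^ 2) u) u = 0 by linear_combination this)).resolve_left h2
    have huv : B ((N ^ 2) u) v = -(d * B w u) := by rw [← hsm, hd']; exact halt u v
    rcases mul_eq_zero.1 huu with h | h
    · rw [← hc', hsm, h, zero_mul]
    · rw [huv, h, mul_zero, neg_zero]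
  have hrk : LinearMap.range N ≤ LinearMap.ker N := by
    rintro _ ⟨a, rfl⟩
    rw [LinearMap.mem_ker, ← Module.End.mul_apply, ← pow_two, hN20]
    rfl
  have hle := Submodule.finrank_mono hrk
  have hxne : x ≠ 1 := fun h => by rw [h, orderOf_one] at hx; omega
  have hN0 : Module.finrank F (LinearMap.range N) ≠ 0 := by
    intro h
    rw [Submodule.finrank_eq_zero, LinearMap.range_eq_bot, hN, sub_eq_zero] at h
    exact hxne (hψ (h.trans (map_one ψ).symm))
  have hN1 : Module.finrank F (LinearMap.range N) ≠ 1 := by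
    intro h1
    -- two conjugates of `x` have a common fixed vector
    let r' := ψ r
    let H := LinearMap.ker N
    have hrinj : Function.Injective r' := by
      intro a b hab
      have := congrArg (ψ r⁻¹) hab
      simpa [r', ← Module.End.mul_apply, ← map_mul] using this
    let H' := H.map r'
    have hH' : Module.finrank F H' = Module.finrank F H :=
      (LinearEquiv.finrank_eq (Submodule.equivMapOfInjective r' hrinj H)).symm
    have hne : H ⊓ H' ≠ ⊥ := by
      intro h
      have e := Submodule.finrank_sup_add_finrank_inf_eq H H'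
      have := Submodule.finrank_le (H ⊔ H')
      have hH3 : Module.finrank F H = 3 := by show Module.finrank F (LinearMap.ker N) = 3; omega
      rw [h, finrank_bot, hH', hH3] at e
      change Module.finrank F (H ⊔ H' : Submodule F V) ≤ _ at this
      rw [hfr] at this
      omega
    obtain ⟨v, hv, hv0⟩ := Submodule.exists_mem_ne_zero_of_ne_bot hne
    obtain ⟨hv1, w, hw, hwv⟩ := hv
    have hxv : ψ x v = v := by
      have : N v = 0 := hv1
      exact sub_eq_zero.1 (by simpa [hN] using this)
    have hyv : ψ (r * x * r⁻¹) v = v := by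
      rw [← hwv, map_mul, map_mul]
      show ψ r (ψ x (ψ r⁻¹ (ψ r w))) = ψ r w
      rw [← Module.End.mul_apply (f := ψ r⁻¹), ← map_mul, inv_mul_cancel, map_one, Module.End.one_apply]
      have : N w = 0 := hw
      rw [show ψ x w = w from sub_eq_zero.1 (by simpa [hN] using this)]
    let S : Subgroup SL(2, K) :=
      { carrier := {g | ψ g v = v}
        one_mem' := by simp
        mul_mem' := fun {a b} (ha : ψ a v = v) (hb : ψ b v = v) => by
          show ψ (a * b) v = v
          rw [map_mul, Module.End.mul_apply, hb, ha]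
        inv_mem' := fun {a} (ha : ψ a v = v) => by
          show ψ a⁻¹ v = v
          conv_lhs => rw [← ha]
          rw [← Module.End.mul_apply, ← map_mul, inv_mul_cancel, map_one, Module.End.one_apply] }
    have hScard : Nat.card S ∣ 3 := by
      have hd : Nat.card S ∣ 120 := by
        have := Subgroup.card_subgroup_dvd_card S
        rwa [CfsgLib.SL2.card_SL, Nat.card_eq_fintype_card (α := K), hK] at this
      have hodd : ¬ 2 ∣ Nat.card S := by
        intro h
        haveI : Fact (Nat.Prime 2) := ⟨Nat.prime_two⟩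
        obtain ⟨g, hg⟩ := exists_prime_orderOf_dvd_card' (G := S) 2 h
        rw [← Subgroup.orderOf_coe] at hg
        have hg1 : (g : SL(2, K)) = -1 := CfsgLib.SL2.eq_neg_one_of_sq_eq_one hK2 (by have := pow_orderOf_eq_one (g : SL(2, K)); rwa [hg] at this)
          (fun h => by rw [h, orderOf_one] at hg; omega)
        have : ψ (g : SL(2, K)) v = v := g.2
        rw [hg1] at this
        exact hv0 (hneg v this)
      have h5 : ¬ 5 ∣ Nat.card S := by
        intro h
        haveI : Fact (Nat.Prime 5) := ⟨by norm_num⟩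
        obtain ⟨g, hg⟩ := exists_prime_orderOf_dvd_card' (G := S) 5 h
        rw [← Subgroup.orderOf_coe] at hg
        exact hv0 ((hord5 g hg ⊤ (fun _ _ => Submodule.mem_top)).2 v g.2)
      have h2' : Nat.Coprime (Nat.card S) 8 := (Nat.prime_two.coprime_iff_not_dvd.2 hodd).symm.pow_right 3
      have h5' : Nat.Coprime (Nat.card S) 5 := ((show Nat.Prime 5 by norm_num).coprime_iff_not_dvd.2 h5).symm
      exact (Nat.Coprime.mul_right h2' h5').dvd_of_dvd_mul_right (by simpa using hd)
    have hxS : Subgroup.zpowers x ≤ S := by rw [Subgroup.zpowers_le]; exact hxv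
    have heq : Subgroup.zpowers x = S := Subgroup.eq_of_le_of_card_ge hxS
      (by rw [Nat.card_zpowers, hx]; exact Nat.le_of_dvd (by norm_num) hScard)
    have hy : r * x * r⁻¹ ∈ Subgroup.zpowers x := heq ▸ hyv
    have hcomm : r * x = x * r := by
      obtain ⟨k, hk⟩ := Subgroup.mem_zpowers_iff.1 hy
      rw [← zpow_mod_orderOf, hx] at hk
      have hk' : k % (3 : ℕ) = 0 ∨ k % (3 : ℕ) = 1 ∨ k % (3 : ℕ) = 2 := by omega
      rcases hk' with h | h | h <;> rw [h] at hk
      · rw [zpow_zero] at hk
        exact absurd (conj_eq_one_iff.1 hk.symm) hxne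
      · rw [zpow_one] at hk
        exact mul_inv_eq_iff_eq_mul.1 hk.symm
      · have hk2 : r * x * r⁻¹ = x ^ 2 := by rw [← hk]; rfl
        have h4 : r ^ 2 * x * (r ^ 2)⁻¹ = x := by
          calc r ^ 2 * x * (r ^ 2)⁻¹ = r * (r * x * r⁻¹) * r⁻¹ := by rw [pow_two]; group
            _ = (r * x * r⁻¹) ^ 2 := by rw [hk2, ← conj_pow, hk2]
            _ = x := by
              rw [hk2, ← pow_mul, show 2 * 2 = 3 + 1 by norm_num, pow_succ, ← hx, pow_orderOf_eq_one, one_mul]
        have h5 : Commute (r ^ 2) x := mul_inv_eq_iff_eq_mul.1 h4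
        have h6 : (r ^ 2) ^ 3 = r := by
          rw [← pow_mul, show 2 * 3 = 5 + 1 by norm_num, pow_succ, ← hr, pow_orderOf_eq_one, one_mul]
        rw [← h6]
        exact (h5.pow_left 3).eq
    rcases (hord5 r hr (LinearMap.range N) (by
      rintro _ ⟨a, rfl⟩
      refine ⟨ψ r a, ?_⟩
      show ψ x (ψ r a) - ψ r a = ψ r (ψ x a - a)
      rw [map_sub, ← Module.End.mul_apply, ← map_mul, ← hcomm, map_mul]
      rfl)).1 with h | h
    · rw [h, finrank_bot] at h1; omega
    · rw [h, finrank_top, hfr] at h1; omega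
  have hkr : LinearMap.ker N = LinearMap.range N :=
    (Submodule.eq_of_le_of_finrank_le hrk (by omega)).symm
  refine ⟨?_, fun v w hv hw => ?_⟩
  · show Module.finrank F (LinearMap.ker N) = 2
    have := congrArg (fun U : Submodule F V => Module.finrank F U) hkr
    omega
  · have hfixed : ∀ u, X u = u → N u = 0 := fun u hu => by rw [hN, LinearMap.sub_apply, hu]; exact sub_self _
    have hv' : X v = v := by rw [hX]; exact (Matrix.toLin'_apply _ _).trans hv
    have hw' : X w = w := by rw [hX]; exact (Matrix.toLin'_apply _ _).trans hw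
    obtain ⟨a, rfl⟩ : v ∈ LinearMap.range N := hkr ▸ (hfixed v hv')
    show B (N a) w = 0
    rw [hadj, LinearMap.sub_apply, pow_two, Module.End.mul_apply, hw', hw', Module.End.one_apply, sub_self]
    simp [B]

end Cfsg.Agent.S3213
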