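import Cfsg.Statements.S3215
import Cfsg.Agent.Lib.InvChar.Basic
import Cfsg.Agent.Lib.CoreFree.Constrained
import Cfsg.Agent.Lib.CoprimeAction.Abelian
import Cfsg.Agent.Lib.PSolvable.HallHigman
import Cfsg.Agent.Lib.PSolvable.Basic
import Cfsg.Agent.Lib.TwoGroups.RankOne

set_option autoImplicit false
open Cfsg
open CfsgLib.InvChar

namespace Cfsg.Agent.S3215
set_option maxHeartbeats 1000000

theorem odd_normal_le {Q : Type*} [Group Q] [Finite Q] (X K : Subgroup Q) [K.Normal]
    (hX : Odd (Nat.card X)) (hK : Odd (Nat.card K)) (k : ℕ) (hd : X.index ∣ 2 ^ k) : K ≤ X := by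
  have hsup : Odd (Nat.card ↥(X ⊔ K)) := (hX.mul hK).of_dvd_nat (CfsgLib.Cores.card_sup_dvd X K)
  have h2 : X.relIndex (X ⊔ K) = 1 :=
    Nat.eq_one_of_dvd_coprimes (Nat.Coprime.pow_right k (Nat.coprime_two_right.2 hsup))
      (Subgroup.relIndex_dvd_card _ _) ((Subgroup.relIndex_dvd_index_of_le le_sup_left).trans hd)
  exact le_sup_right.trans (Subgroup.relIndex_eq_one.1 h2)

/-- Let H be a finite solvable group with no nontrivial normal subgroup of odd order in which the centralizer of every involution has a normal 2-complement. Let X be a Hall 2'-subgroup of H (odd order, index a power of 2) and Y = O₂(H). Then no non-identity element of X commutes with a non-identity element of Y (so for X ≠ 1 the group XY is a Frobenius group with kernel Y), every Sylow subgroup of X is cyclic, XY is normal in H, and H/XY is a cyclic 2-group. -/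
theorem result {H : Type*} [Group H] [Finite H] (hsol : Group.IsSolvable H)
    (hO : Cfsg.oddCore H = ⊥)
    (hI : ∀ t : H, orderOf t = 2 → Cfsg.HasNormalPComplement 2 ↥(Subgroup.centralizer ({t} : Set H)))
    (X : Subgroup H) (hXodd : Odd (Nat.card X)) (hXidx : ∃ k : ℕ, X.index = 2 ^ k) :
    (∀ x ∈ X, x ≠ 1 → ∀ y ∈ Cfsg.pCore 2 H, y ≠ 1 → x * y ≠ y * x) ∧
      (∀ (p : ℕ) [Fact p.Prime] (P : Sylow p ↥X), IsCyclic ↥(P : Subgroup ↥X)) ∧
      (X ⊔ Cfsg.pCore 2 H).Normal ∧
      ∀ hN : (X ⊔ Cfsg.pCore 2 H).Normal, IsCyclic (H ⧸ (X ⊔ Cfsg.pCore 2 H)) ∧ IsPGroup 2 (H ⧸ (X ⊔ Cfsg.pCore 2 H)) := by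
  classical
  haveI : Fact (Nat.Prime 2) := ⟨Nat.prime_two⟩
  haveI := hsol
  set Y := Cfsg.pCore 2 H
  haveI hYn : Y.Normal := CfsgLib.CoreFree.pCore_normal H
  have hY2 : IsPGroup 2 Y := CfsgLib.Cores.isPGroup_pCore 2 H
  have hCY : Subgroup.centralizer (Y : Set H) ≤ Y :=
    CfsgLib.PSolvable.centralizer_pCore_le CfsgLib.PSolvable.isPSolvable_of_isSolvable hO
  -- an element of odd order fixes only `1` in `Y`
  have hodd_inv : ∀ t x : H, orderOf t = 2 → Odd (orderOf x) → x * t = t * x →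
      ∀ w ∈ Y, w * t = t * w → x * w = w * x := by
    intro t x ht hx hxt w hw hwt
    set C := Subgroup.centralizer ({t} : Set H)
    obtain ⟨P, N, hNn, hNc⟩ := hI t ht
    haveI := hNn
    have hxC : x ∈ C := Subgroup.mem_centralizer_singleton_iff.2 hxt
    have hwC : w ∈ C := Subgroup.mem_centralizer_singleton_iff.2 hwt
    have hidx : IsPGroup 2 (C ⧸ N) := by
      obtain ⟨n, hn⟩ := IsPGroup.iff_card.1 P.2
      refine IsPGroup.of_card (n := n) ?_
      rw [← Subgroup.index_eq_card, hNc.symm.index_eq_card, hn]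
    have hxN : (⟨x, hxC⟩ : C) ∈ N := by
      rw [← QuotientGroup.eq_one_iff (N := N)]
      obtain ⟨k, hk⟩ := IsPGroup.iff_orderOf.1 hidx (QuotientGroup.mk' N ⟨x, hxC⟩)
      refine orderOf_eq_one_iff.1 (Nat.eq_one_of_dvd_coprimes (Nat.Coprime.pow_left k (Nat.coprime_two_left.2 hx))
        (hk ▸ dvd_rfl) ?_)
      simpa using orderOf_map_dvd (QuotientGroup.mk' N) (⟨x, hxC⟩ : C)
    haveI : (Y.subgroupOf C).Normal := inferInstance
    have hdisj : Disjoint N (Y.subgroupOf C) := by
      rw [disjoint_iff]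
      apply Subgroup.card_eq_one.1
      obtain ⟨n, hn⟩ := IsPGroup.iff_card.1 (hY2.comap_subtype (K := C))
      have hNodd : Odd (Nat.card N) := by
        rw [← hNc.index_eq_card, Nat.odd_iff]
        have := P.not_dvd_index
        omega
      refine Nat.eq_one_of_dvd_coprimes (Nat.Coprime.pow_left n (Nat.coprime_two_left.2 hNodd))
        (hn ▸ Subgroup.card_dvd_of_le inf_le_right) (Subgroup.card_dvd_of_le inf_le_left)
    exact congrArg Subtype.val
      (Subgroup.commute_of_normal_of_disjoint N (Y.subgroupOf C) inferInstance inferInstance hdisj _ _ hxN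
        (show (⟨w, hwC⟩ : C) ∈ Y.subgroupOf C from hw)).eq
  have hfpf : ∀ x : H, Odd (orderOf x) → x ≠ 1 → ∀ y ∈ Y, y ≠ 1 → x * y ≠ y * x := by
    intro x hx hx1 y hy hy1 hxy
    obtain ⟨k, hk⟩ := IsPGroup.iff_orderOf.1 hY2 ⟨y, hy⟩
    rw [Subgroup.orderOf_mk] at hk
    obtain ⟨k, rfl⟩ : ∃ j, k = j + 1 := ⟨k - 1, by
      rcases k with _ | k
      · exact absurd (orderOf_eq_one_iff.1 hk) hy1
      · omega⟩
    set t := y ^ 2 ^ k
    have ht : orderOf t = 2 := by
      rw [orderOf_pow_of_dvd (by positivity) (hk ▸ pow_dvd_pow 2 (by omega)), hk,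
        Nat.pow_div (by omega) (by norm_num)]
      simp
    have hxt : x * t = t * x := (Commute.pow_right hxy _).eq
    set Q := Y ⊓ Subgroup.centralizer ({x} : Set H)
    have hco : (Nat.card (Subgroup.zpowers x)).Coprime 2 := by
      rw [Nat.card_zpowers]; exact Nat.coprime_two_right.2 hx
    have h := CfsgLib.CoprimeAction.pxq (p := 2) (P := Q) (Q := Subgroup.zpowers x) (U := Y)
      (hY2.to_le inf_le_left) hco hY2
      (Subgroup.le_centralizer_iff.1 (Subgroup.zpowers_le.2 (Subgroup.mem_centralizer_iff.2 fun q hq =>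
        Subgroup.mem_centralizer_singleton_iff.1 hq.2)))
      (inf_le_left.trans Subgroup.le_normalizer)
      (Subgroup.zpowers_le.2 (by rw [Subgroup.normalizer_eq_top (H := Y)]; trivial))
      (by
        intro w hw
        rw [Subgroup.mem_centralizer_iff]
        intro v hv
        obtain ⟨i, rfl⟩ := Subgroup.mem_zpowers_iff.1 hv
        have hwt : w * t = t * w := (Subgroup.mem_centralizer_iff.1 hw.2 t
          ⟨Y.pow_mem hy _, Subgroup.mem_centralizer_singleton_iff.2 hxt.symm⟩).symm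
        exact (Commute.zpow_left (hodd_inv t x ht hx hxt w hw.1 hwt) i).eq)
    exact hx1 (CfsgLib.CoreFree.eq_one_of_odd hY2 (hCY (h (Subgroup.mem_zpowers x))) hx)
  -- no involution commutes with a non-identity element of odd order
  have hC : ∀ x g : H, Odd (orderOf x) → x ≠ 1 → g * x = x * g → Odd (orderOf g) := by
    intro x g hx hx1 hgx
    by_contra hg
    rw [Nat.not_odd_iff_even, even_iff_two_dvd] at hg
    set t := g ^ (orderOf g / 2)
    have ht : orderOf t = 2 := by
      rw [orderOf_pow_of_dvd (Nat.div_pos (Nat.le_of_dvd (orderOf_pos g) hg) (by norm_num)).ne' (Nat.div_dvd_of_dvd hg),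
        Nat.div_div_self hg (orderOf_pos g).ne']
    have hxt : x * t = t * x := (Commute.pow_right hgx.symm _).eq
    have hYbot : Y ≠ ⊥ := by
      intro e
      apply hx1
      have := hCY (show x ∈ Subgroup.centralizer (Y : Set H) by rw [e]; simp [Subgroup.mem_centralizer_iff])
      rwa [e, Subgroup.mem_bot] at this
    haveI : Nontrivial Y := (Subgroup.nontrivial_iff_ne_bot Y).2 hYbot
    have ht2 : IsPGroup 2 (Subgroup.zpowers (ConjAct.toConjAct t)) :=
      IsPGroup.of_card (n := 1) (by rw [Nat.card_zpowers, MulEquiv.orderOf_eq, ht, pow_one])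
    obtain ⟨w, hwfix, hw1⟩ := ht2.exists_fixed_point_of_prime_dvd_card_of_fixed_point
      Y (hY2.card_eq_or_dvd.resolve_left Finite.one_lt_card.ne') (a := (1 : Y)) (fun g => by
        refine Subtype.ext ?_
        show (g : ConjAct H) • (1 : H) = _
        simp)
    have := congrArg Subtype.val (hwfix ⟨ConjAct.toConjAct t, Subgroup.mem_zpowers _⟩)
    have hwt : t * (w : H) * t⁻¹ = w := this
    refine hfpf x hx hx1 w w.2 (fun e => hw1 (Subtype.ext e.symm)) ?_
    exact hodd_inv t x ht hx hxt w w.2 (mul_inv_eq_iff_eq_mul.1 hwt).symm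
  have hXord : ∀ x ∈ X, Odd (orderOf x) := fun x hx => hXodd.of_dvd_nat (X.orderOf_dvd_natCard hx)
  refine ⟨fun x hx hx1 => hfpf x (hXord x hx) hx1, ?_⟩
  by_cases hY1 : Y = ⊥
  · -- then `H` is trivial
    have hH1 : ∀ h : H, h = 1 := fun h => by
      have := hCY (show h ∈ Subgroup.centralizer (Y : Set H) by rw [hY1]; simp [Subgroup.mem_centralizer_iff])
      rwa [hY1, Subgroup.mem_bot] at this
    haveI : Subsingleton H := ⟨fun a b => (hH1 a).trans (hH1 b).symm⟩
    refine ⟨fun p _ P => isCyclic_of_subsingleton, ⟨fun a ha g => by rwa [Subsingleton.elim (g * a * g⁻¹) a]⟩, fun hN => ⟨?_, ?_⟩⟩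
    · haveI : Subsingleton (H ⧸ (X ⊔ Y)) := Function.Surjective.subsingleton (QuotientGroup.mk'_surjective (X ⊔ Y))
      exact isCyclic_of_subsingleton
    · haveI : Subsingleton (H ⧸ (X ⊔ Y)) := Function.Surjective.subsingleton (QuotientGroup.mk'_surjective (X ⊔ Y))
      exact fun g => ⟨0, Subsingleton.elim _ _⟩
  -- abelian subgroups of odd order are cyclic
  have habel : ∀ A : Subgroup H, IsMulCommutative A → Odd (Nat.card A) → IsCyclic A := by
    intro A hA hAodd
    by_contra hnc
    haveI := hA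
    obtain ⟨k, hk⟩ := IsPGroup.iff_card.1 hY2
    refine hY1 (le_bot_iff.1 (CfsgLib.CoprimeAction.le_of_centralizers hnc
      (by rw [Subgroup.normalizer_eq_top (H := Y)]; exact le_top) ?_ ?_))
    · rw [hk]; exact Nat.Coprime.pow_right k (Nat.coprime_two_right.2 hAodd)
    · intro a ha ha1 y hy
      rw [Subgroup.mem_bot]
      by_contra hy1
      exact hfpf a (hAodd.of_dvd_nat (A.orderOf_dvd_natCard ha)) ha1 y hy.1 hy1
        (Subgroup.mem_centralizer_singleton_iff.1 hy.2).symm
  refine ⟨?_, ?_⟩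
  · -- Sylow subgroups of `X` are cyclic
    intro p hp P
    by_cases hP1 : Subsingleton ↥(P : Subgroup ↥X)
    · exact isCyclic_of_subsingleton
    haveI : Nontrivial ↥(P : Subgroup ↥X) := not_subsingleton_iff_nontrivial.1 hP1
    have hPodd : Odd (Nat.card ↥(P : Subgroup ↥X)) := hXodd.of_dvd_nat (Subgroup.card_subgroup_dvd_card _)
    have hp2 : p ≠ 2 := by
      rintro rfl
      have := (P.2.card_eq_or_dvd).resolve_left Finite.one_lt_card.ne'
      exact Nat.not_even_iff_odd.2 hPodd (even_iff_two_dvd.2 this)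
    refine ((CfsgLib.TwoGroups.isCyclic_or_quaternion P.2 ?_).resolve_right (fun h => hp2 h.1))
    -- a unique subgroup of order `p`
    haveI := P.2.center_nontrivial
    obtain ⟨c, hc⟩ := exists_prime_orderOf_dvd_card' (G := Subgroup.center ↥(P : Subgroup ↥X)) p
      (((P.2.to_subgroup _).card_eq_or_dvd).resolve_left Finite.one_lt_card.ne')
    have hcord : orderOf (c : ↥(P : Subgroup ↥X)) = p := by rw [Subgroup.orderOf_coe, hc]
    have key : ∀ a : ↥(P : Subgroup ↥X), orderOf a = p → a ∈ Subgroup.zpowers (c : ↥(P : Subgroup ↥X)) := by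
      intro a ha
      let f : ↥(P : Subgroup ↥X) →* H := X.subtype.comp (P : Subgroup ↥X).subtype
      have hf : Function.Injective f := X.subtype_injective.comp (P : Subgroup ↥X).subtype_injective
      set B := Subgroup.closure ({a, (c : ↥(P : Subgroup ↥X))} : Set ↥(P : Subgroup ↥X))
      haveI : IsMulCommutative (B.map f) := by
        have hBc : B ≤ Subgroup.centralizer (B : Set ↥(P : Subgroup ↥X)) := by
          rw [Subgroup.closure_le, Set.insert_subset_iff, Set.singleton_subset_iff]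
          have hcc : ∀ u, u * (c : ↥(P : Subgroup ↥X)) = c * u := fun u => Subgroup.mem_center_iff.1 c.2 u
          constructor
          · have h1 : B ≤ Subgroup.centralizer ({a} : Set _) := by
              rw [Subgroup.closure_le, Set.insert_subset_iff, Set.singleton_subset_iff]
              exact ⟨Subgroup.mem_centralizer_singleton_iff.2 rfl, Subgroup.mem_centralizer_singleton_iff.2 (hcc a).symm⟩
            exact Subgroup.mem_centralizer_iff.2 fun u hu => Subgroup.mem_centralizer_singleton_iff.1 (h1 hu)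
          · exact Subgroup.mem_centralizer_iff.2 fun u _ => hcc u
        haveI := Subgroup.le_centralizer_iff_isMulCommutative.1 hBc
        infer_instance
      have hBodd : Odd (Nat.card (B.map f)) := by
        rw [Subgroup.card_map_of_injective hf]
        exact hPodd.of_dvd_nat B.card_subgroup_dvd_card
      haveI : IsCyclic (B.map f) := habel _ inferInstance hBodd
      haveI : IsCyclic B := (B.equivMapOfInjective f hf).isCyclic.2 inferInstance
      haveI : IsCyclic ↥(B : Subgroup _) := inferInstance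
      let a' : B := ⟨a, Subgroup.subset_closure (by simp)⟩
      let c' : B := ⟨c, Subgroup.subset_closure (by simp)⟩
      have hu : Subgroup.zpowers a' = Subgroup.zpowers c' := by
        obtain ⟨g, hg⟩ := isCyclic_iff_exists_zpowers_eq_top.1 (inferInstance : IsCyclic B)
        -- both are the kernel of the `p`-th power map
        letI : CommGroup B := IsCyclic.commGroup
        have hle : ∀ u : B, orderOf u = p → Subgroup.zpowers u = (powMonoidHom p : B →* B).ker := by
          intro u hu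
          refine Subgroup.eq_of_le_of_card_ge (Subgroup.zpowers_le.2 (by simp [← hu, pow_orderOf_eq_one])) ?_
          rw [Nat.card_zpowers, hu, IsCyclic.card_powMonoidHom_ker]
          exact Nat.gcd_le_right _ hp.out.pos
        rw [hle a' (by rw [Subgroup.orderOf_mk, ha]), hle c' (by rw [Subgroup.orderOf_mk, hcord])]
      obtain ⟨i, hi⟩ := Subgroup.mem_zpowers_iff.1 (hu ▸ Subgroup.mem_zpowers a' : a' ∈ Subgroup.zpowers c')
      exact ⟨i, by simpa [a', c'] using congrArg Subtype.val hi⟩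
    intro a b ha hb
    have hz : Subgroup.zpowers a = Subgroup.zpowers (c : ↥(P : Subgroup ↥X)) :=
      Subgroup.eq_of_le_of_card_ge (Subgroup.zpowers_le.2 (key a ha)) (by rw [Nat.card_zpowers, Nat.card_zpowers, ha, hcord])
    rw [hz]; exact key b hb
  -- the quotient by `Y`
  let q := QuotientGroup.mk' Y
  set Xb := X.map q with hXb
  have hXYcomap : Xb.comap q = X ⊔ Y := by rw [Subgroup.comap_map_eq, QuotientGroup.ker_mk']
  have hqinj : ∀ x ∈ X, q x = 1 → x = 1 := fun x hx e =>
    CfsgLib.CoreFree.eq_one_of_odd hY2 ((QuotientGroup.eq_one_iff x).1 e) (hXord x hx)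
  suffices h : Xb.Normal ∧ ∀ _ : Xb.Normal, ∃ (C : Subgroup (H ⧸ Y)) (_ : C.Normal), C ≤ Xb ∧ IsCyclic ((H ⧸ Y) ⧸ C) by
    haveI := h.1
    obtain ⟨C, hCn, hCX, hcyc⟩ := h.2 h.1
    haveI hN : (X ⊔ Y).Normal := hXYcomap ▸ (inferInstance : (Xb.comap q).Normal)
    refine ⟨hN, fun _ => ⟨?_, ?_⟩⟩
    · haveI := hCn
      haveI := hcyc
      haveI : ((C.comap q)).Normal := inferInstance
      -- `H / (X ⊔ Y)` is an image of `(H / Y) / C`
      let φ : (H ⧸ Y) ⧸ C →* (H ⧸ Y) ⧸ Xb := QuotientGroup.map C Xb (MonoidHom.id _) hCX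
      have hφ : Function.Surjective φ := by
        intro z
        obtain ⟨w, rfl⟩ := QuotientGroup.mk'_surjective Xb z
        exact ⟨QuotientGroup.mk' C w, rfl⟩
      haveI : IsCyclic ((H ⧸ Y) ⧸ Xb) := isCyclic_of_surjective φ hφ
      let ψ : H ⧸ (X ⊔ Y) →* (H ⧸ Y) ⧸ Xb := QuotientGroup.map (X ⊔ Y) Xb q hXYcomap.ge
      refine isCyclic_of_injective ψ ?_
      rw [injective_iff_map_eq_one]
      intro z hz
      obtain ⟨w, rfl⟩ := QuotientGroup.mk'_surjective (X ⊔ Y) z
      refine (QuotientGroup.eq_one_iff w).2 ?_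
      rw [← hXYcomap]
      exact (QuotientGroup.eq_one_iff (q w)).1 hz
    · obtain ⟨k, hk⟩ := hXidx
      have hd : (X ⊔ Y).index ∣ 2 ^ k := hk ▸ Subgroup.index_dvd_of_le le_sup_left
      obtain ⟨i, -, hi⟩ := (Nat.dvd_prime_pow Nat.prime_two).1 hd
      exact IsPGroup.of_card (n := i) (by rw [← Subgroup.index_eq_card, hi])
  -- odd normal subgroups of the quotient lie in the image of `X`
  have hoddle : ∀ K : Subgroup (H ⧸ Y), K.Normal → Odd (Nat.card K) → K ≤ Xb := by
    intro K hK hKodd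
    haveI := hK
    obtain ⟨k, hk⟩ := hXidx
    have hd : Xb.index ∣ 2 ^ k := hk ▸ Subgroup.index_map_dvd X (QuotientGroup.mk'_surjective Y)
    have hXbodd : Odd (Nat.card Xb) := hXodd.of_dvd_nat (Subgroup.card_map_dvd (H := X) q)
    exact odd_normal_le Xb K hXbodd hKodd k hd
  have hXbn : ∀ (C : Subgroup (H ⧸ Y)) [C.Normal], C ≤ Xb → IsMulCommutative ((H ⧸ Y) ⧸ C) → Xb.Normal := by
    intro C hC hCX hcomm
    refine ⟨fun x hx g => ?_⟩
    have : g * x * g⁻¹ * x⁻¹ ∈ C := by
      rw [← QuotientGroup.eq_one_iff (N := C)]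
      have hm := hcomm.is_comm.comm (QuotientGroup.mk' C g) (QuotientGroup.mk' C x)
      show QuotientGroup.mk' C (g * x * g⁻¹ * x⁻¹) = 1
      rw [map_mul, map_mul, map_mul, hm, map_inv, map_inv]
      group
    simpa [mul_assoc] using Xb.mul_mem (hCX this) hx
  suffices h : ∃ (C : Subgroup (H ⧸ Y)) (_ : C.Normal), C ≤ Xb ∧ IsCyclic ((H ⧸ Y) ⧸ C) by
    obtain ⟨C, hCn, hCX, hcyc⟩ := h
    haveI := hCn
    haveI := hcyc
    exact ⟨@hXbn C hCn hCX inferInstance, fun _ => ⟨C, hCn, hCX, hcyc⟩⟩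
  by_cases htriv : Subsingleton (H ⧸ Y)
  · exact ⟨⊥, inferInstance, bot_le, isCyclic_of_subsingleton⟩
  haveI : Nontrivial (H ⧸ Y) := not_subsingleton_iff_nontrivial.1 htriv
  -- a normal cyclic subgroup of prime order
  have hex : ∃ n, derivedSeries (H ⧸ Y) n = ⊥ := Group.IsSolvable.solvable
  have hn0 : Nat.find hex ≠ 0 := by
    intro e
    have := Nat.find_spec hex
    rw [e, derivedSeries_zero] at this
    exact top_ne_bot this
  set m := Nat.find hex - 1 with hm
  set R := derivedSeries (H ⧸ Y) m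
  have hRne : R ≠ ⊥ := Nat.find_min hex (by omega)
  have hRc : IsMulCommutative R := by
    rw [← Subgroup.le_centralizer_iff_isMulCommutative, ← Subgroup.commutator_eq_bot_iff_le_centralizer]
    have := Nat.find_spec hex
    rwa [show Nat.find hex = m + 1 by omega, derivedSeries_succ] at this
  haveI : R.Normal := derivedSeries_normal _ _
  have hRodd : Odd (Nat.card R) := by
    by_contra he
    rw [Nat.not_odd_iff_even, even_iff_two_dvd] at he
    obtain ⟨u, hu⟩ := exists_prime_orderOf_dvd_card' (G := R) 2 he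
    haveI := hRc
    obtain ⟨P, hP⟩ := (IsPGroup.of_card (n := 1) (by rw [Nat.card_zpowers, hu, pow_one]) : IsPGroup 2 (Subgroup.zpowers u)).exists_le_sylow
    haveI : (P : Subgroup R).Normal := ⟨fun x hx g => by rw [mul_comm' g x, mul_inv_cancel_right]; exact hx⟩
    haveI : (P : Subgroup R).Characteristic := Sylow.characteristic_of_normal P inferInstance
    haveI : ((P : Subgroup R).map R.subtype).Normal := ConjAct.normal_of_characteristic_of_normal
    have h1 := CfsgLib.Cores.le_pCore (N := (P : Subgroup R).map R.subtype) (P.2.map R.subtype)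
    rw [CfsgLib.Cores.pCore_quotient_pCore] at h1
    have hu1 : (u : H ⧸ Y) = 1 := Subgroup.mem_bot.1 (h1 ⟨u, hP (Subgroup.mem_zpowers u), rfl⟩)
    rw [show u = 1 from Subtype.ext hu1, orderOf_one] at hu
    omega
  have hRX : R ≤ Xb := hoddle R inferInstance hRodd
  have hRcyc : IsCyclic R := by
    -- lift `R` to `X`
    set R0 := X ⊓ R.comap q
    haveI : IsMulCommutative R0 := ⟨⟨fun u v => Subtype.ext (by
      have h1 : q ((u : H) * v * ((v : H) * u)⁻¹) = 1 := by
        rw [map_mul, map_mul, map_inv, map_mul,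
          show q u * q v = q v * q u from congrArg Subtype.val (hRc.is_comm.comm ⟨q u, u.2.2⟩ ⟨q v, v.2.2⟩), mul_inv_cancel]
      have h2 := hqinj _ (X.mul_mem (X.mul_mem u.2.1 v.2.1) (X.inv_mem (X.mul_mem v.2.1 u.2.1))) h1
      exact mul_inv_eq_one.1 h2)⟩⟩
    haveI : IsCyclic R0 := habel R0 inferInstance (hXodd.of_dvd_nat (Subgroup.card_dvd_of_le inf_le_left))
    refine isCyclic_of_surjective ((q.comp R0.subtype).codRestrict R fun u => u.2.2) ?_
    intro w
    obtain ⟨x, hx, hxw⟩ := hRX w.2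
    exact ⟨⟨x, hx, by show q x ∈ R; rw [hxw]; exact w.2⟩, Subtype.ext hxw⟩
  haveI : Nontrivial R := (Subgroup.nontrivial_iff_ne_bot R).2 hRne
  obtain ⟨r, hr, hrd⟩ := Nat.exists_prime_and_dvd (Finite.one_lt_card (α := R)).ne'
  haveI := Fact.mk hr
  obtain ⟨f0, hf0⟩ := exists_prime_orderOf_dvd_card' (G := R) r hrd
  set f : H ⧸ Y := (f0 : H ⧸ Y)
  have hford : orderOf f = r := by rw [Subgroup.orderOf_coe, hf0]
  have hF : ∀ g : H ⧸ Y, g * f * g⁻¹ ∈ Subgroup.zpowers f := by
    intro g
    obtain ⟨d, hd⟩ := (Subgroup.isCyclic_iff_exists_zpowers_eq_top R).1 hRcyc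
    have hdR : d ∈ R := hd ▸ Subgroup.mem_zpowers d
    obtain ⟨j, hj⟩ := Subgroup.mem_zpowers_iff.1 (show f ∈ Subgroup.zpowers d from hd.symm ▸ f0.2)
    obtain ⟨k, hk⟩ := Subgroup.mem_zpowers_iff.1 (show g * d * g⁻¹ ∈ Subgroup.zpowers d from
      hd.symm ▸ (inferInstance : R.Normal).conj_mem d hdR g)
    refine ⟨k, ?_⟩
    show f ^ k = g * f * g⁻¹
    rw [← hj, ← conj_zpow, ← hk, ← zpow_mul, ← zpow_mul, mul_comm]
  set F := Subgroup.zpowers f
  haveI : F.Normal := ⟨fun z hz g => by
    obtain ⟨i, rfl⟩ := Subgroup.mem_zpowers_iff.1 hz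
    rw [← conj_zpow]; exact F.zpow_mem (hF g) i⟩
  let ψ : (H ⧸ Y) →* MulAut F := MulAut.conjNormal
  haveI : IsCyclic F := inferInstance
  haveI : IsCyclic (MulAut F) := by
    have hcF : Nat.card F = r := by rw [Nat.card_zpowers, hford]
    let e := (inferInstance : IsCyclic F).mulAutMulEquiv
    rw [e.isCyclic, hcF]
    infer_instance
  -- the centraliser of `f` has odd order
  have hker : ψ.ker ≤ Xb := by
    refine hoddle _ inferInstance ?_
    by_contra he
    rw [Nat.not_odd_iff_even, even_iff_two_dvd] at he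
    obtain ⟨gb, hgb⟩ := exists_prime_orderOf_dvd_card' (G := ψ.ker) 2 he
    obtain ⟨g, hg⟩ := QuotientGroup.mk'_surjective Y (gb : H ⧸ Y)
    obtain ⟨x, hx, hxf⟩ := hRX f0.2
    have hxord : orderOf x = r := by
      refine orderOf_eq_prime (hqinj _ (X.pow_mem hx r) (by rw [map_pow, hxf, ← hford, pow_orderOf_eq_one])) (fun e => ?_)
      rw [e, map_one] at hxf
      have hr1 := hr.one_lt
      rw [show f = 1 from hxf.symm, orderOf_one] at hford
      omega
    have hfix : (gb : H ⧸ Y) * f * (gb : H ⧸ Y)⁻¹ = f := by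
      have h1 := congrArg (fun φ : MulAut F => ((φ ⟨f, Subgroup.mem_zpowers f⟩ : F) : H ⧸ Y)) (MonoidHom.mem_ker.1 gb.2)
      simpa [ψ] using h1
    have hmem : g * x * g⁻¹ ∈ Y ⊔ Subgroup.zpowers x := by
      have h1 : q (g * x * g⁻¹ * x⁻¹) = 1 := by
        rw [map_mul, map_mul, map_mul, map_inv, map_inv, hg, hxf, hfix, mul_inv_cancel]
      have := Subgroup.mul_mem _ (Subgroup.mem_sup_left (T := Subgroup.zpowers x) ((QuotientGroup.eq_one_iff _).1 h1))
        (Subgroup.mem_sup_right (S := Y) (Subgroup.mem_zpowers x))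
      simpa using this
    haveI : IsCyclic (Subgroup.zpowers (g * x * g⁻¹)) := inferInstance
    obtain ⟨k, hk⟩ := IsPGroup.iff_card.1 hY2
    obtain ⟨n, hnY, hn⟩ := CfsgLib.CoprimeAction.exists_le_conj_of_coprime (N := Y) (H := Subgroup.zpowers x)
      (by rw [Subgroup.normalizer_eq_top (H := Y)]; exact le_top) (Subgroup.zpowers_le.2 hmem) (B := Subgroup.zpowers (g * x * g⁻¹))
      (by rw [Nat.card_zpowers, hk, ← MulAut.conj_apply, MulEquiv.orderOf_eq]
          exact Nat.Coprime.pow_right k (Nat.coprime_two_right.2 (hXord x hx)))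
      (Or.inl (CfsgLib.CoprimeAction.isSolvable_zpowers _))
    have h2 := CfsgLib.CoprimeAction.mem_conj_iff.1 (hn (Subgroup.mem_zpowers _))
    obtain ⟨i, hi⟩ := Subgroup.mem_zpowers_iff.1 h2
    have hqn : q n = 1 := (QuotientGroup.eq_one_iff n).2 hnY
    have hqi : f ^ i = f := by
      have h3 := congrArg q hi
      rwa [map_zpow, hxf, map_mul, map_mul, map_mul, map_mul, map_inv, map_inv, hqn, inv_one, one_mul, mul_one,
        hg, hxf, hfix] at h3
    have hxi : x ^ i = x := by
      have h4 : (r : ℤ) ∣ i - 1 := by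
        rw [← hford, orderOf_dvd_iff_zpow_eq_one, zpow_sub, zpow_one, hqi, mul_inv_cancel]
      obtain ⟨c, hc⟩ := h4
      rw [show i = (r : ℤ) * c + 1 by linarith, zpow_add, zpow_one, zpow_mul, zpow_natCast, ← hxord, pow_orderOf_eq_one, one_zpow, one_mul]
    rw [hxi] at hi
    have hcom : (n⁻¹ * g) * x = x * (n⁻¹ * g) := by
      calc (n⁻¹ * g) * x = (n⁻¹ * (g * x * g⁻¹) * n) * (n⁻¹ * g) := by group
        _ = x * (n⁻¹ * g) := by rw [← hi]
    have hoddg := hC x (n⁻¹ * g) (hXord x hx) (fun e => by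
      have hr1 := hr.one_lt
      rw [e, orderOf_one] at hxord; omega) hcom
    have hd : 2 ∣ orderOf (n⁻¹ * g) := by
      have h5 := orderOf_map_dvd q (n⁻¹ * g)
      rw [map_mul, map_inv, hqn, inv_one, one_mul, hg, Subgroup.orderOf_coe, hgb] at h5
      exact h5
    exact Nat.not_even_iff_odd.2 hoddg (even_iff_two_dvd.2 hd)
  refine ⟨ψ.ker, inferInstance, hker, ?_⟩
  exact isCyclic_of_injective _ (QuotientGroup.kerLift_injective ψ)

end Cfsg.Agent.S3215
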