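import Cfsg.Statements.S3244
import Cfsg.Agent.Lib.InvChar.Basic
import Cfsg.Agent.Lib.CoreFree.CharTwoEarlyLocal

set_option autoImplicit false
open Cfsg
open CfsgLib.InvChar

namespace Cfsg.Agent.S3244

/-- Say that a finite group G is of characteristic 2 type in the early sense when a Sylow 2-subgroup S of G has a self-centralizing normal subgroup of rank at least 3, S normalizes no nontrivial subgroup of odd order, and every 2-local subgroup of G is 2-constrained. If G is a non-abelian simple group of characteristic 2 type in this sense, then for some maximal 2-local subgroup M of G the centre of O₂(M) is not cyclic. -/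
theorem result {G : Type*} [Group G] [Finite G] [IsSimpleGroup G]
    (hG : ¬ IsMulCommutative G) (S : Sylow 2 G) (A : Subgroup G) (hA : Cfsg.IsSCN (S : Subgroup G) A) (hA3 : ¬ Cfsg.PRankLE 2 2 ↥A)
    (hinv : ∀ X : Subgroup G, Odd (Nat.card ↥X) → (S : Subgroup G) ≤ Subgroup.normalizer (X : Set G) → X = ⊥)
    (hcon : ∀ T : Subgroup G, IsPGroup 2 ↥T → T ≠ ⊥ → Cfsg.IsPConstrained 2 ↥(Subgroup.normalizer (T : Set G))) :
    ∃ M : Subgroup G, Cfsg.IsMaximalTwoLocal M ∧ ¬ IsCyclic ↥(Subgroup.center ↥(Cfsg.pCore 2 ↥M)) := by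
  classical
  haveI : Fact (Nat.Prime 2) := ⟨Nat.prime_two⟩
  obtain ⟨hAS, hSN, hAC⟩ := hA
  have hAcomm : ∀ a ∈ A, ∀ b ∈ A, a * b = b * a := fun a ha b hb =>
    (Subgroup.mem_centralizer_iff.1 (hAC.ge hb).2 a ha)
  let E : Subgroup G :=
    { carrier := {a | a ∈ A ∧ a * a = 1}
      one_mem' := ⟨A.one_mem, one_mul 1⟩
      mul_mem' := fun {a b} ha hb => ⟨A.mul_mem ha.1 hb.1, by
        rw [(show Commute b a from hAcomm b hb.1 a ha.1).mul_mul_mul_comm, ha.2, hb.2, one_mul]⟩
      inv_mem' := fun {a} ha => ⟨A.inv_mem ha.1, by rw [← mul_inv_rev, ha.2, inv_one]⟩ }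
  have hE8 : 8 ≤ Nat.card E := by
    simp only [Cfsg.PRankLE, not_forall, not_le] at hA3
    obtain ⟨B, -, hB2, hBc⟩ := hA3
    have hle : B.map A.subtype ≤ E := by
      rintro _ ⟨b, hb, rfl⟩
      exact ⟨b.2, by rw [← pow_two]; exact congrArg Subtype.val (hB2 b hb)⟩
    have h1 := Subgroup.card_le_of_le hle
    rw [Subgroup.card_map_of_injective A.subtype_injective] at h1
    have hp : IsPGroup 2 E := S.isPGroup'.to_le (fun x hx => hAS hx.1)
    obtain ⟨k, hk⟩ := hp.exists_card_eq
    have : 3 ≤ k := by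
      by_contra hlt
      have : 2 ^ k ≤ 2 ^ 2 := Nat.pow_le_pow_right two_pos (by omega)
      omega
    rw [hk]
    calc 8 = 2 ^ 3 := rfl
      _ ≤ 2 ^ k := Nat.pow_le_pow_right two_pos this
  have hES : E ≤ (S : Subgroup G) := fun x hx => hAS hx.1
  have hnormA : ∀ s ∈ (S : Subgroup G), ∀ a ∈ A, s * a * s⁻¹ ∈ A := fun s hs a ha =>
    (Subgroup.mem_normalizer_iff.1 (hSN hs) a).1 ha
  have hSE : (S : Subgroup G) ≤ Subgroup.normalizer (E : Set G) := by
    intro s hs
    rw [Subgroup.mem_normalizer_iff]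
    intro a
    constructor
    · rintro ⟨ha, ha2⟩
      exact ⟨hnormA s hs a ha, by rw [conj_mul, ha2, mul_one, mul_inv_cancel]⟩
    · rintro ⟨ha, ha2⟩
      refine ⟨?_, ?_⟩
      · simpa [mul_assoc] using hnormA s⁻¹ ((S : Subgroup G).inv_mem hs) _ ha
      · have h1 : s * (a * a) * s⁻¹ = 1 := by rw [← conj_mul]; exact ha2
        exact conj_eq_one_iff.1 h1
  have hcon2 : ∀ b : G, orderOf b = 2 → Cfsg.IsPConstrained 2 ↥(Subgroup.centralizer ({b} : Set G)) := by
    intro b hb
    have hb1 : b ≠ 1 := CfsgLib.Involutions.ne_one hb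
    have heq : Subgroup.normalizer (Subgroup.zpowers b : Set G) = Subgroup.centralizer ({b} : Set G) := by
      ext g
      rw [Subgroup.mem_centralizer_singleton_iff, Subgroup.mem_normalizer_iff]
      have hz : ∀ x : G, x ∈ Subgroup.zpowers b ↔ x = 1 ∨ x = b := by
        intro x
        constructor
        · rintro ⟨k, rfl⟩
          show b ^ k = 1 ∨ b ^ k = b
          rw [← zpow_mod_orderOf, hb]
          rcases Int.emod_two_eq k with e | e <;> simp [e]
        · rintro (rfl | rfl)
          · exact Subgroup.one_mem _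
          · exact Subgroup.mem_zpowers _
      constructor
      · intro hg
        rcases (hz _).1 ((hg b).1 (Subgroup.mem_zpowers b)) with e | e
        · exact absurd (conj_eq_one_iff.1 e) hb1
        · exact mul_inv_eq_iff_eq_mul.1 e
      · intro hg x
        rw [hz, hz]
        have e : g * b * g⁻¹ = b := mul_inv_eq_iff_eq_mul.2 hg
        constructor
        · rintro (rfl | rfl)
          · exact Or.inl (by group)
          · exact Or.inr e
        · rintro (h | h)
          · exact Or.inl (conj_eq_one_iff.1 h)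
          · exact Or.inr (mul_left_cancel (mul_right_cancel (h.trans e.symm)))
    exact heq ▸ hcon (Subgroup.zpowers b) (CfsgLib.Involutions.isPGroup_zpowers_of_involution hb)
      (by rw [Ne, Subgroup.zpowers_eq_bot]; exact hb1)
  have hData : CfsgLib.CoreFree.CharTwoEarly.Data S E :=
    ⟨hES, hSE, fun a ha b hb => hAcomm a ha.1 b hb.1, fun a ha => ha.2, hE8, hinv, hcon2⟩
  haveI : Nontrivial (S : Subgroup G) := by
    rw [← Finite.one_lt_card_iff_nontrivial]
    exact lt_of_lt_of_le (by norm_num) (hE8.trans (Subgroup.card_le_of_le hES))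
  haveI : Nontrivial (Subgroup.center (S : Subgroup G)) := S.isPGroup'.center_nontrivial
  obtain ⟨n, hn, hn'⟩ := (S.isPGroup'.to_subgroup (Subgroup.center (S : Subgroup G))).nontrivial_iff_card.1 inferInstance
  obtain ⟨u, hu⟩ := exists_prime_orderOf_dvd_card' (G := Subgroup.center (S : Subgroup G)) 2 (hn' ▸ dvd_pow_self 2 hn.ne')
  set z : G := ((u : (S : Subgroup G)) : G) with hzdef
  have hz : orderOf z = 2 := by rw [hzdef, Subgroup.orderOf_coe, Subgroup.orderOf_coe, hu]
  have hzc : ∀ s ∈ (S : Subgroup G), s * z = z * s := fun s hs =>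
    congrArg Subtype.val (Subgroup.mem_center_iff.1 u.2 ⟨s, hs⟩)
  by_contra hnot
  push Not at hnot
  have hse := CfsgLib.CoreFree.CharTwoEarly.strongly_embedded hData hcon hnot hz (u : (S : Subgroup G)).2 hzc
  set H := Subgroup.centralizer ({z} : Set G) with hH
  -- `H` is proper, and some conjugate of `z` lies outside it
  obtain ⟨v, hvH, hv⟩ : ∃ g : G, g * z * g⁻¹ ∉ H ∧ orderOf (g * z * g⁻¹) = 2 := by
    by_contra hcl
    have hcl' : ∀ g : G, g * z * g⁻¹ ∈ H := by
      intro g
      by_contra hg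
      exact hcl ⟨g, hg, (CfsgLib.Involutions.orderOf_conj g z).trans hz⟩
    have htop : Subgroup.normalClosure ({z} : Set G) = ⊤ := by
      rcases (Subgroup.normalClosure_normal (s := ({z} : Set G))).eq_bot_or_eq_top with h | h
      · exact absurd (Subgroup.mem_bot.1 (h ▸ Subgroup.subset_normalClosure rfl : z ∈ (⊥ : Subgroup G)))
          (CfsgLib.Involutions.ne_one hz)
      · exact h
    have hle : Subgroup.normalClosure ({z} : Set G) ≤ H := by
      rw [Subgroup.normalClosure, Subgroup.closure_le]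
      intro x hx
      obtain ⟨a, ha, hx'⟩ := Group.mem_conjugatesOfSet_iff.1 hx
      obtain ⟨c, hc⟩ := isConj_iff.1 hx'
      rw [Set.mem_singleton_iff.1 ha] at hc
      exact hc ▸ hcl' c
    have hzc' : z ∈ Subgroup.center G := by
      rw [Subgroup.mem_center_iff]
      intro g
      exact Subgroup.mem_centralizer_singleton_iff.1 (hle (htop ▸ Subgroup.mem_top g))
    rcases (inferInstance : (Subgroup.center G).Normal).eq_bot_or_eq_top with h | h
    · rw [h, Subgroup.mem_bot] at hzc'
      exact CfsgLib.Involutions.ne_one hz hzc'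
    · refine hG ⟨⟨fun a b => ?_⟩⟩
      exact (Subgroup.mem_center_iff.1 (h ▸ Subgroup.mem_top a) b).symm
  set w := v * z * v⁻¹ with hw
  have hall : ∀ t ∈ H, orderOf t = 2 → t = z := by
    intro t ht ht2
    -- the product with `w` has odd order
    have hodd : Odd (orderOf (t * w)) := by
      rw [← Nat.not_even_iff_odd]
      rintro ⟨k, hk⟩
      have hpos := orderOf_pos (t * w)
      have hs2 : orderOf ((t * w) ^ k) = 2 := by
        rw [orderOf_pow, hk, Nat.gcd_eq_right ⟨2, by ring⟩, show k + k = 2 * k by ring, Nat.mul_div_cancel _ (by omega)]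
      have hinv : (t * w) ^ k = ((t * w) ^ k)⁻¹ := (CfsgLib.Involutions.inv_eq_self hs2).symm
      set s := (t * w) ^ k with hs
      have hst : s * t = t * s := by
        have h1 : t * s * t⁻¹ = s := by
          rw [hs, ← conj_pow, CfsgLib.Involutions.conj_mul_eq_inv ht2 hv, inv_pow]
          exact hinv.symm
        exact (mul_inv_eq_iff_eq_mul.1 h1).symm
      have hsw : s * w = w * s := by
        have h1 : (t * w) * s = s * (t * w) := by rw [hs]; exact ((Commute.refl (t * w)).pow_right k).eq
        calc s * w = t⁻¹ * (t * s) * w := by group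
          _ = t⁻¹ * (s * (t * w)) := by rw [← hst]; group
          _ = w * s := by rw [← h1]; group
      have hsH : s ∈ H := hse t ht ht2 s (by rw [hst, mul_inv_cancel_right]; exact ht)
      exact hvH (hse s hsH hs2 w (by rw [← hsw, mul_inv_cancel_right]; exact hsH))
    obtain ⟨k, hk⟩ := hodd
    have hconj : (t * w) ^ (((k : ℤ) + 1)) * t * ((t * w) ^ (((k : ℤ) + 1)))⁻¹ = t * w * t := by
      rw [CfsgLib.Involutions.conj_left_by_zpow ht2 hv]
      congr 1
      rw [← zpow_mod_orderOf, hk]
      have : (2 * ((k : ℤ) + 1)) % ((2 * k + 1 : ℕ) : ℤ) = 1 % ((2 * k + 1 : ℕ) : ℤ) := by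
        push_cast
        rw [show (2 : ℤ) * ((k : ℤ) + 1) = 1 + (2 * k + 1) by ring, Int.add_emod_right]
      rw [this, ← hk, zpow_mod_orderOf, zpow_one]
    set c := (t * w) ^ (((k : ℤ) + 1)) with hc
    have hcz : (c⁻¹ * t * v) * z * (c⁻¹ * t * v)⁻¹ = t := by
      calc (c⁻¹ * t * v) * z * (c⁻¹ * t * v)⁻¹ = c⁻¹ * (t * (v * z * v⁻¹) * t⁻¹) * c := by group
        _ = c⁻¹ * (t * w * t⁻¹) * c := by rw [← hw]
        _ = c⁻¹ * (c * t * c⁻¹) * c := by rw [CfsgLib.Involutions.inv_eq_self ht2, hconj]
        _ = t := by group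
    have hmem := hse z (Subgroup.mem_centralizer_singleton_iff.2 rfl) hz _ (by rw [hcz]; exact ht)
    rw [Subgroup.mem_centralizer_singleton_iff] at hmem
    rw [← hcz, hmem, mul_inv_cancel_right]
  have hEle : Nat.card E ≤ 2 := by
    refine (Nat.card_le_card_of_injective (fun x : E => decide ((x : G) = 1)) ?_).trans (by simp)
    intro a b hab
    simp only [decide_eq_decide] at hab
    by_cases ha : (a : G) = 1
    · exact Subtype.ext (ha.trans (hab.1 ha).symm)
    · have hone : ∀ e : E, (e : G) ≠ 1 → (e : G) = z := fun e he =>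
        hall e (Subgroup.mem_centralizer_singleton_iff.2 (hzc e (hES e.2)))
          (orderOf_eq_prime (by rw [pow_two]; exact e.2.2) he)
      exact Subtype.ext ((hone a ha).trans (hone b (fun e => ha (hab.2 e))).symm)
  omega

end Cfsg.Agent.S3244
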