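import Cfsg.Statements.S3246
import Cfsg.Agent.Lib.InvChar.Basic
import Cfsg.Agent.Lib.InvChar.FourGroup
import Cfsg.Agent.Lib.CoreFree.Constrained

set_option autoImplicit false
open Cfsg
open CfsgLib.InvChar

namespace Cfsg.Agent.S3246

/-- Let G be a finite group whose Sylow 2-subgroup S has a self-centralizing normal subgroup of rank at least 3. Suppose that either every maximal 2-local subgroup of G is 2-constrained with no nontrivial normal subgroup of odd order, or the centralizer of every involution of G is 2-constrained with no nontrivial normal subgroup of odd order. Then S normalizes no nontrivial subgroup of G of odd order and every 2-local subgroup of G is 2-constrained. -/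
theorem result {G : Type*} [Group G] [Finite G]
    (S : Sylow 2 G) (A : Subgroup G) (hA : Cfsg.IsSCN (S : Subgroup G) A) (hA3 : ¬ Cfsg.PRankLE 2 2 ↥A)
    (h : (∀ M : Subgroup G, Cfsg.IsMaximalTwoLocal M → Cfsg.IsPConstrained 2 ↥M ∧ Cfsg.oddCore ↥M = ⊥) ∨
      (∀ t : G, orderOf t = 2 → Cfsg.IsPConstrained 2 ↥(Subgroup.centralizer ({t} : Set G)) ∧
        Cfsg.oddCore ↥(Subgroup.centralizer ({t} : Set G)) = ⊥)) :
    (∀ X : Subgroup G, Odd (Nat.card ↥X) → (S : Subgroup G) ≤ Subgroup.normalizer (X : Set G) → X = ⊥) ∧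
      (∀ T : Subgroup G, IsPGroup 2 ↥T → T ≠ ⊥ → Cfsg.IsPConstrained 2 ↥(Subgroup.normalizer (T : Set G))) := by
  classical
  haveI : Fact (Nat.Prime 2) := ⟨Nat.prime_two⟩
  -- every 2-local subgroup has characteristic 2
  have hloc : ∀ T : Subgroup G, IsPGroup 2 ↥T → T ≠ ⊥ →
      CfsgLib.CoreFree.CharTwo (Subgroup.normalizer (T : Set G)) := by
    intro T hT hT1
    set N := Subgroup.normalizer (T : Set G)
    set Q := CfsgLib.CoreFree.coreOf 2 N
    have hTQ : T ≤ Q := CfsgLib.CoreFree.le_coreOf Subgroup.le_normalizer le_rfl hT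
    have hCN : Subgroup.centralizer (Q : Set G) ≤ N := by
      intro g hg
      have hc : ∀ t ∈ T, g * t * g⁻¹ = t := fun t ht => by
        rw [← Subgroup.mem_centralizer_iff.1 hg t (hTQ ht), mul_inv_cancel_right]
      rw [Subgroup.mem_normalizer_iff]
      intro t
      constructor
      · intro ht; rw [hc t ht]; exact ht
      · intro ht
        have h2 := hc _ ht
        rwa [show t = g⁻¹ * (g * t * g⁻¹) * g by group, show g⁻¹ * (g * t * g⁻¹) * g = g * t * g⁻¹ from by
          nth_rw 1 [← h2]; group]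
    rcases h with hM | hI
    · obtain ⟨M, hNM, hMmax⟩ := Finite.exists_le_maximal (p := fun M : Subgroup G => Cfsg.IsTwoLocal M) (a := N) ⟨T, hT, hT1, rfl⟩
      have hMM : Cfsg.IsMaximalTwoLocal M := ⟨hMmax.1, fun K hK hle => le_antisymm (hMmax.2 hK hle) hle⟩
      exact (CfsgLib.CoreFree.charTwo_of_constrained (hM M hMM).1 (hM M hMM).2).of_local
        (CfsgLib.CoreFree.coreOf_le.trans hNM) (le_inf (hCN.trans hNM) hCN)
    · have hQ1 : Q ≠ ⊥ := fun e => hT1 (le_bot_iff.1 (e ▸ hTQ))
      have hQp : IsPGroup 2 Q := CfsgLib.CoreFree.isPGroup_coreOf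
      haveI : Nontrivial Q := (Subgroup.nontrivial_iff_ne_bot Q).2 hQ1
      haveI : Nontrivial ↥(Subgroup.center ↥Q) := hQp.center_nontrivial
      obtain ⟨w, hw⟩ := exists_prime_orderOf_dvd_card' (G := ↥(Subgroup.center ↥Q)) 2
        (((hQp.to_subgroup _).card_eq_or_dvd).resolve_left (Finite.one_lt_card).ne')
      set z : G := ((w : Q) : G)
      have hz : orderOf z = 2 := by rw [Subgroup.orderOf_coe, Subgroup.orderOf_coe, hw]
      refine (CfsgLib.CoreFree.charTwo_of_constrained (hI z hz).1 (hI z hz).2).of_local ?_ (le_inf ?_ hCN)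
      · intro q hq
        rw [Subgroup.mem_centralizer_singleton_iff]
        exact congrArg Subtype.val (Subgroup.mem_center_iff.1 w.2 ⟨q, hq⟩)
      · intro g hg
        rw [Subgroup.mem_centralizer_singleton_iff]
        exact (Subgroup.mem_centralizer_iff.1 hg z (w : Q).2).symm
  refine ⟨?_, fun T hT hT1 => (hloc T hT hT1).constrained.1⟩
  intro X hXodd hSX
  -- an elementary abelian normal subgroup of `S` of order at least 8
  obtain ⟨hAS, hSA, hAC⟩ := hA
  simp only [Cfsg.PRankLE, not_forall] at hA3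
  obtain ⟨E₀, hE0c, hE02, hE0card⟩ := hA3
  have hAcomm : ∀ a ∈ A, ∀ b ∈ A, a * b = b * a := fun a ha b hb =>
    Subgroup.mem_centralizer_iff.1 (hAC.ge hb).2 a ha
  let E : Subgroup G :=
    { carrier := {a | a ∈ A ∧ a * a = 1}
      one_mem' := ⟨one_mem _, one_mul 1⟩
      mul_mem' := fun {a b} ha hb => ⟨mul_mem ha.1 hb.1, by
        rw [show a * b * (a * b) = a * (b * a) * b by group, hAcomm b hb.1 a ha.1,
          show a * (a * b) * b = a * a * (b * b) by group, ha.2, hb.2, mul_one]⟩
      inv_mem' := fun {a} ha => ⟨inv_mem ha.1, by rw [← mul_inv_rev, ha.2, inv_one]⟩ }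
  have hES : E ≤ (S : Subgroup G) := fun a ha => hAS ha.1
  have hEcard : 4 < Nat.card E := by
    refine lt_of_lt_of_le (not_le.1 hE0card) ?_
    rw [← Subgroup.card_map_of_injective (f := A.subtype) A.subtype_injective]
    refine Subgroup.card_le_of_le ?_
    rintro _ ⟨a, ha, rfl⟩
    exact ⟨a.2, by have := congrArg Subtype.val (hE02 a ha); simpa [pow_two] using this⟩
  have hEn : ∀ s ∈ (S : Subgroup G), ∀ a ∈ E, s * a * s⁻¹ ∈ E := by
    intro s hs a ha
    exact ⟨(Subgroup.mem_normalizer_iff.1 (hSA hs) a).1 ha.1, by rw [conj_mul, ha.2, mul_one, mul_inv_cancel]⟩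
  -- a four-group in `E` normal in `S`
  obtain ⟨z, b, hz, hb, hz1, hb1, hbz, hzc, hbc⟩ : ∃ z b : G, z ∈ E ∧ b ∈ E ∧ z ≠ 1 ∧ b ≠ 1 ∧ b ≠ z ∧
      (∀ s ∈ (S : Subgroup G), s * z * s⁻¹ = z) ∧
      (∀ s ∈ (S : Subgroup G), s * b * s⁻¹ = b ∨ s * b * s⁻¹ = b * z) := by
    haveI : (E.subgroupOf (S : Subgroup G)).Normal := ⟨fun x hx g => hEn g g.2 x hx⟩
    have hEp : IsPGroup 2 ↥(E.subgroupOf (S : Subgroup G)) := S.2.to_subgroup _
    have hdvd : 2 ∣ Nat.card ↥(E.subgroupOf (S : Subgroup G)) := by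
      refine hEp.card_eq_or_dvd.resolve_left ?_
      rw [Nat.card_congr (Subgroup.subgroupOfEquivOfLe hES).toEquiv]; omega
    obtain ⟨⟨z', hz'E⟩, hzfix, hz'1⟩ := (S.2.of_equiv ConjAct.toConjAct).exists_fixed_point_of_prime_dvd_card_of_fixed_point
      (E.subgroupOf (S : Subgroup G)) hdvd (a := 1) (fun g => by simp)
    have hzc : ∀ s ∈ (S : Subgroup G), s * (z' : G) * s⁻¹ = z' := fun s hs => by
      have := congrArg Subtype.val (hzfix (ConjAct.toConjAct ⟨s, hs⟩))
      rw [ConjAct.Subgroup.val_conj_smul, ConjAct.smul_def, ConjAct.ofConjAct_toConjAct] at this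
      exact congrArg Subtype.val this
    have hz1 : (z' : G) ≠ 1 := fun e => hz'1 (Subtype.ext (Subtype.ext e.symm))
    -- the quotient by `⟨z⟩`
    haveI hzn : (Subgroup.zpowers z').Normal := ⟨fun x hx g => by
      obtain ⟨i, rfl⟩ := Subgroup.mem_zpowers_iff.1 hx
      refine ⟨i, ?_⟩
      show z' ^ i = g * z' ^ i * g⁻¹
      rw [← conj_zpow]
      congr 1
      exact Subtype.ext (hzc g g.2).symm⟩
    let q := QuotientGroup.mk' (Subgroup.zpowers z')
    let M := (E.subgroupOf (S : Subgroup G)).map q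
    haveI : M.Normal := (inferInstance : (E.subgroupOf (S : Subgroup G)).Normal).map q (QuotientGroup.mk'_surjective _)
    have hzo : orderOf z' = 2 := orderOf_eq_prime (Subtype.ext (by rw [pow_two]; exact hz'E.2)) (fun e => hz1 (congrArg Subtype.val e))
    have hdvd2 : 2 ∣ Nat.card M := by
      refine ((S.2.to_quotient (Subgroup.zpowers z')).to_subgroup M).card_eq_or_dvd.resolve_left fun e => ?_
      have hle : E.subgroupOf (S : Subgroup G) ≤ Subgroup.zpowers z' := by
        intro x hx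
        have : q x ∈ M := ⟨x, hx, rfl⟩
        rw [Subgroup.card_eq_one.1 e, Subgroup.mem_bot] at this
        exact (QuotientGroup.eq_one_iff x).1 this
      have h1 := Subgroup.card_le_of_le hle
      rw [Nat.card_zpowers, hzo, Nat.card_congr (Subgroup.subgroupOfEquivOfLe hES).toEquiv] at h1
      omega
    obtain ⟨⟨_, b', hb'E, rfl⟩, hbfix, hb'1⟩ := ((S.2.to_quotient (Subgroup.zpowers z')).of_equiv ConjAct.toConjAct).exists_fixed_point_of_prime_dvd_card_of_fixed_point
      M hdvd2 (a := 1) (fun g => by simp)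
    have hb'z : b' ∉ Subgroup.zpowers z' := fun hm => hb'1 (Subtype.ext ((QuotientGroup.eq_one_iff b').2 hm).symm)
    refine ⟨z', b', hz'E, hb'E, hz1, fun e => hb'z ?_, fun e => hb'z ?_, hzc, fun s hs => ?_⟩
    · rw [show b' = 1 from Subtype.ext e]; exact one_mem _
    · rw [show b' = z' from Subtype.ext e]; exact Subgroup.mem_zpowers _
    · have := congrArg Subtype.val (hbfix (ConjAct.toConjAct (q ⟨s, hs⟩)))
      rw [ConjAct.Subgroup.val_conj_smul, ConjAct.smul_def, ConjAct.ofConjAct_toConjAct] at this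
      change q ⟨s, hs⟩ * q b' * (q ⟨s, hs⟩)⁻¹ = q b' at this
      rw [← map_inv, ← map_mul, ← map_mul] at this
      obtain ⟨i, hi⟩ := Subgroup.mem_zpowers_iff.1 (QuotientGroup.eq.1 this)
      rw [← zpow_mod_orderOf, hzo] at hi
      rcases Int.emod_two_eq i with h0 | h0
      · left
        have hi' : (1 : G) = (s * (b' : G) * s⁻¹)⁻¹ * b' := by
          simpa [h0] using congrArg Subtype.val hi
        exact inv_mul_eq_one.1 hi'.symm
      · right
        have hi' : (z' : G) = (s * (b' : G) * s⁻¹)⁻¹ * b' := by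
          simpa [h0] using congrArg Subtype.val hi
        have hinv : (z' : G)⁻¹ = z' := inv_eq_of_mul_eq_one_right hz'E.2
        calc s * (b' : G) * s⁻¹ = b' * (z' : G)⁻¹ := by rw [hi']; group
          _ = b' * z' := by rw [hinv]
  -- every involution whose centraliser in `S` has index at most two fixes only `1` in `X`
  have hkey : ∀ c ∈ (S : Subgroup G), c * c = 1 → c ≠ 1 →
      (∀ s ∈ (S : Subgroup G), s * c * s⁻¹ = c ∨ s * c * s⁻¹ = c * z) →
      X ⊓ Subgroup.centralizer ({c} : Set G) = ⊥ := by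
    intro c hcS hcc hc1 hcs
    set H := Subgroup.centralizer ({c} : Set G)
    set S₀ := (S : Subgroup G) ⊓ H
    have hco : orderOf c = 2 := orderOf_eq_prime (by rw [pow_two, hcc]) hc1
    have hH : CfsgLib.CoreFree.CharTwo H := by
      have hN : Subgroup.normalizer ((Subgroup.zpowers c : Subgroup G) : Set G) = H := by
        refine le_antisymm (fun g hg => ?_) (fun g hg => ?_)
        · have h1 := (Subgroup.mem_normalizer_iff.1 hg c).1 (Subgroup.mem_zpowers c)
          obtain ⟨i, hi⟩ := Subgroup.mem_zpowers_iff.1 h1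
          rw [← zpow_mod_orderOf, hco] at hi
          rw [Subgroup.mem_centralizer_singleton_iff]
          rcases Int.emod_two_eq i with h0 | h0
          · simp [h0] at hi; exact absurd (conj_eq_one_iff.1 hi.symm) hc1
          · simp [h0] at hi; exact mul_inv_eq_iff_eq_mul.1 hi.symm
        · have h1 : g * c * g⁻¹ = c := mul_inv_eq_iff_eq_mul.2 (Subgroup.mem_centralizer_singleton_iff.1 hg)
          rw [← CfsgLib.InvChar.cj_eq_self_iff, CfsgLib.InvChar.cj, MonoidHom.map_zpowers]
          exact congrArg Subgroup.zpowers h1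
      exact hN ▸ hloc _ (IsPGroup.of_card (n := 1) (by rw [Nat.card_zpowers, hco, pow_one]))
        (fun e => hc1 (Subgroup.zpowers_eq_bot.1 e))
    set P := CfsgLib.CoreFree.coreOf 2 H
    have hS0P : S₀ ≤ Subgroup.normalizer (P : Set G) := fun s hs => CfsgLib.CoreFree.le_normalizer_coreOf hs.2
    -- `S₀` has index at most two in `S`
    have hidx : Nat.card ↥(S : Subgroup G) ≤ 2 * Nat.card ↥S₀ := by
      by_cases hall : (S : Subgroup G) ≤ H
      · rw [show S₀ = (S : Subgroup G) from inf_eq_left.2 hall]; omega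
      · obtain ⟨t, htS, htH⟩ := SetLike.not_le_iff_exists.1 hall
        have hcz : c * z ≠ c := fun e => hz1 (mul_eq_left.1 e)
        have hmem : ∀ s ∈ (S : Subgroup G), s ∈ H ↔ s * c * s⁻¹ = c := fun s _ => by
          rw [Subgroup.mem_centralizer_singleton_iff, mul_inv_eq_iff_eq_mul]
        have : (S₀.subgroupOf (S : Subgroup G)).index = 2 := by
          rw [Subgroup.index_eq_two_iff]
          refine ⟨⟨t, htS⟩, fun s => ?_⟩
          simp only [Subgroup.mem_subgroupOf, S₀, Subgroup.mem_inf, SetLike.coe_mem, true_and, Subgroup.coe_mul, htS]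
          have hst : (s : G) * t ∈ (S : Subgroup G) := mul_mem s.2 htS
          rw [hmem _ hst, hmem _ s.2]
          have ht' : t * c * t⁻¹ = c * z := (hcs t htS).resolve_left fun e => htH ((hmem t htS).2 e)
          have e1 : (s : G) * t * c * ((s : G) * t)⁻¹ = ((s : G) * c * (s : G)⁻¹) * z := by
            calc (s : G) * t * c * ((s : G) * t)⁻¹ = (s : G) * (t * c * t⁻¹) * (s : G)⁻¹ := by group
              _ = ((s : G) * c * (s : G)⁻¹) * ((s : G) * z * (s : G)⁻¹) := by rw [ht']; group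
              _ = _ := by rw [hzc s s.2]
          rw [e1]
          rcases hcs s s.2 with e | e <;> rw [e]
          · exact Or.inr ⟨rfl, fun h => hcz h.2⟩
          · exact Or.inl ⟨⟨hst, by rw [mul_assoc, hz.2, mul_one]⟩, hcz⟩
        have h2 := (S₀.subgroupOf (S : Subgroup G)).index_mul_card
        rw [this, Nat.card_congr (Subgroup.subgroupOfEquivOfLe (inf_le_left : S₀ ≤ (S : Subgroup G))).toEquiv] at h2
        have h2' : 2 * Nat.card ↥S₀ = Nat.card ↥(S : Subgroup G) := h2
        omega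
    set Y := X ⊓ H
    set P₀ := P ⊓ S₀
    -- the part of `P` inside `S` has index at most two
    have hP2 : P₀.relIndex P ≤ 2 := by
      have hR := IsPGroup.to_sup_of_normal_right' (S.2.to_le (inf_le_left : S₀ ≤ (S : Subgroup G)))
        (CfsgLib.CoreFree.isPGroup_coreOf : IsPGroup 2 P) hS0P
      obtain ⟨R, hR'⟩ := hR.exists_le_sylow
      have h1 : Nat.card ↥(S₀ ⊔ P) ≤ Nat.card ↥(S : Subgroup G) := by
        rw [S.card_eq_multiplicity, ← R.card_eq_multiplicity]
        exact Subgroup.card_le_of_le hR'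
      have h2 : S₀.relIndex (S₀ ⊔ P) * Nat.card ↥S₀ = Nat.card ↥(S₀ ⊔ P) := by
        rw [Subgroup.relIndex, ← Nat.card_congr (Subgroup.subgroupOfEquivOfLe (le_sup_left : S₀ ≤ S₀ ⊔ P)).toEquiv]
        exact (S₀.subgroupOf (S₀ ⊔ P)).index_mul_card
      have h4 : 0 < Nat.card ↥S₀ := Nat.card_pos
      have h3 : S₀.relIndex (S₀ ⊔ P) ≤ 2 := by nlinarith
      calc P₀.relIndex P = S₀.relIndex P := by rw [show P₀ = S₀ ⊓ P from inf_comm _ _, Subgroup.inf_relIndex_right]
        _ ≤ S₀.relIndex (S₀ ⊔ P) := Subgroup.relIndex_le_of_le_right le_sup_right (Subgroup.index_ne_zero_of_finite)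
        _ ≤ 2 := h3
    have hYP0 : ∀ y ∈ Y, ∀ p ∈ P₀, y * p = p * y := by
      intro y hy p hp
      have hyX : p * y * p⁻¹ ∈ X := (Subgroup.mem_normalizer_iff.1 (hSX hp.2.1) y).1 hy.1
      have h1 : p * y * p⁻¹ * y⁻¹ ∈ X := mul_mem hyX (X.inv_mem hy.1)
      have h2 : p * (y * p⁻¹ * y⁻¹) ∈ P :=
        mul_mem hp.1 ((Subgroup.mem_normalizer_iff.1 (CfsgLib.CoreFree.le_normalizer_coreOf (p := 2) hy.2) _).1 (P.inv_mem hp.1))
      rw [show p * (y * p⁻¹ * y⁻¹) = p * y * p⁻¹ * y⁻¹ by group] at h2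
      have h3 := CfsgLib.CoreFree.eq_one_of_odd CfsgLib.CoreFree.isPGroup_coreOf h2
        (hXodd.of_dvd_nat (X.orderOf_dvd_natCard h1))
      exact ((mul_inv_eq_iff_eq_mul.1 (mul_inv_eq_one.1 h3))).symm
    have hYodd : Odd (Nat.card Y) := hXodd.of_dvd_nat (Subgroup.card_dvd_of_le inf_le_left)
    have hcopr : (Nat.card Y).Coprime (Nat.card P₀) := by
      obtain ⟨k, hk⟩ := IsPGroup.iff_card.1
        ((CfsgLib.CoreFree.isPGroup_coreOf : IsPGroup 2 P).to_le (inf_le_left : P₀ ≤ P))
      rw [hk]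
      exact Nat.Coprime.pow_right k (Nat.coprime_two_right.2 hYodd)
    have hYC : Y ≤ Subgroup.centralizer (P : Set G) := by
      refine CfsgLib.CoprimeAction.le_centralizer_of_series (inf_le_left : P₀ ≤ P) hcopr ?_ ?_
      · exact fun y hy => Subgroup.mem_centralizer_iff.2 fun p hp => (hYP0 y hy p hp).symm
      · intro y hy p hp
        have hyp : y * p * y⁻¹ ∈ P :=
          (Subgroup.mem_normalizer_iff.1 (CfsgLib.CoreFree.le_normalizer_coreOf (p := 2) hy.2) p).1 hp
        by_cases hpP0 : p ∈ P₀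
        · rw [← mul_assoc, ← mul_assoc, mul_assoc p⁻¹, hYP0 y hy p hpP0]
          simp [mul_assoc]
        · have hyp0 : y * p * y⁻¹ ∉ P₀ := by
            intro hm
            apply hpP0
            have h5 := hYP0 y hy _ hm
            have : y * p * y⁻¹ = p := by
              calc y * p * y⁻¹ = y⁻¹ * (y * (y * p * y⁻¹)) := by group
                _ = y⁻¹ * ((y * p * y⁻¹) * y) := by rw [h5]
                _ = p := by group
            rwa [this] at hm
          have hi2 : (P₀.subgroupOf P).index = 2 := by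
            have h6 : (P₀.subgroupOf P).index ≠ 0 := Subgroup.index_ne_zero_of_finite
            have h7 : (P₀.subgroupOf P).index ≠ 1 := fun e =>
              hpP0 ((Subgroup.subgroupOf_eq_top.1 (Subgroup.index_eq_one.1 e)) hp)
            have h8 : (P₀.subgroupOf P).index ≤ 2 := hP2
            omega
          have := (Subgroup.mul_mem_iff_of_index_two hi2 (a := (⟨p, hp⟩ : P)⁻¹) (b := ⟨y * p * y⁻¹, hyp⟩)).2
            (by simp only [Subgroup.mem_subgroupOf, inv_mem_iff]; exact ⟨fun h => absurd h hpP0, fun h => absurd h hyp0⟩)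
          exact this
    rw [Subgroup.eq_bot_iff_forall]
    intro y hy
    have hyP : y ∈ P := hH ⟨hy.2, hYC hy⟩
    refine CfsgLib.CoreFree.eq_one_of_odd CfsgLib.CoreFree.isPGroup_coreOf hyP ?_
    exact hXodd.of_dvd_nat (X.orderOf_dvd_natCard hy.1)
  have hzb : z * b = b * z := hAcomm z hz.1 b hb.1
  have hsup := CfsgLib.InvChar.le_sup_centralizers hXodd hz.2 hb.2 hzb
    (fun w hw => (Subgroup.mem_normalizer_iff.1 (hSX (hES hz)) w).1 hw)
    (fun w hw => (Subgroup.mem_normalizer_iff.1 (hSX (hES hb)) w).1 hw)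
  rw [hkey z (hES hz) hz.2 hz1 (fun s hs => Or.inl (hzc s hs)), hkey b (hES hb) hb.2 hb1 hbc,
    hkey (z * b) (mul_mem (hES hz) (hES hb)) (E.mul_mem hz hb).2 ?_ ?_] at hsup
  · simpa using hsup
  · intro e
    exact hbz ((eq_inv_of_mul_eq_one_right e).trans (inv_eq_of_mul_eq_one_right hz.2))
  · intro s hs
    rw [← conj_mul, hzc s hs]
    rcases hbc s hs with e | e <;> rw [e]
    · exact Or.inl rfl
    · exact Or.inr (by rw [mul_assoc])

end Cfsg.Agent.S3246
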