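import Cfsg.Statements.S3247
import Cfsg.Agent.Lib.SectRank.Constrained
-- import your own Cfsg.Agent.* helpers here

set_option autoImplicit false
open Cfsg

namespace Cfsg.Agent.S3247

/-- Let G be a finite group and p a prime; here a p-local subgroup means the normalizer of a nontrivial p-subgroup, other than G itself. If every p-local subgroup of G that is maximal among p-local subgroups is p-constrained, or if the centralizer of every element of order p of G is p-constrained, then every p-local subgroup of G is p-constrained. -/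
theorem result {G : Type*} [Group G] [Finite G] (p : ℕ) [hp : Fact p.Prime]
    (h : (∀ M : Subgroup G, (∃ T : Subgroup G, IsPGroup p ↥T ∧ T ≠ ⊥ ∧ M = Subgroup.normalizer (T : Set G)) → M ≠ ⊤ →
        (∀ M' : Subgroup G, (∃ T' : Subgroup G, IsPGroup p ↥T' ∧ T' ≠ ⊥ ∧ M' = Subgroup.normalizer (T' : Set G)) → M' ≠ ⊤ → M ≤ M' → M = M') →
        Cfsg.IsPConstrained p ↥M) ∨
      (∀ x : G, orderOf x = p → Cfsg.IsPConstrained p ↥(Subgroup.centralizer ({x} : Set G))))
    (T : Subgroup G) (hT : IsPGroup p ↥T) (hT1 : T ≠ ⊥) (hTG : Subgroup.normalizer (T : Set G) ≠ ⊤) :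
    Cfsg.IsPConstrained p ↥(Subgroup.normalizer (T : Set G)) := by
  rcases h with h | h
  · -- maximal p-local overgroup
    let 𝒮 : Set (Subgroup G) := {M | (∃ T' : Subgroup G, IsPGroup p ↥T' ∧ T' ≠ ⊥ ∧
      M = Subgroup.normalizer (T' : Set G)) ∧ M ≠ ⊤ ∧ Subgroup.normalizer (T : Set G) ≤ M}
    obtain ⟨M, hM⟩ := (Set.toFinite 𝒮).exists_maximal
      ⟨_, ⟨T, hT, hT1, rfl⟩, hTG, le_rfl⟩
    refine CfsgLib.SectRank.isPConstrained_normalizer_of_le T M hT hM.1.2.2 (h M hM.1.1 hM.1.2.1 ?_)
    intro M' hM' hM't hle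
    exact le_antisymm hle (hM.2 ⟨hM', hM't, hM.1.2.2.trans hle⟩ hle)
  · -- centralizer of an element of order p in Z(T)
    haveI : Nontrivial ↥T := (Subgroup.nontrivial_iff_ne_bot T).2 hT1
    haveI := hT.center_nontrivial
    obtain ⟨z, hz⟩ := exists_prime_orderOf_dvd_card' (G := Subgroup.center ↥T) p (by
      obtain ⟨k, hk⟩ := IsPGroup.iff_card.1 (hT.to_subgroup (Subgroup.center ↥T))
      rw [hk]
      exact dvd_pow_self p fun h0 => by
        rw [h0, pow_zero] at hk
        exact (Finite.one_lt_card (α := Subgroup.center ↥T)).ne' hk)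
    set x : G := ((z : ↥T) : G) with hx
    have hxo : orderOf x = p := by rw [hx, Subgroup.orderOf_coe, Subgroup.orderOf_coe, hz]
    set N := Subgroup.normalizer (T : Set G) with hN
    have hTN : T ≤ N := Subgroup.le_normalizer
    have hTC : T ≤ Subgroup.centralizer ({x} : Set G) := fun t ht =>
      Subgroup.mem_centralizer_singleton_iff.2
        (congrArg Subtype.val (Subgroup.mem_center_iff.1 z.2 ⟨t, ht⟩))
    set C := Subgroup.centralizer ({x} : Set G) with hC
    have h1 := CfsgLib.SectRank.isPConstrained_normalizer (T.subgroupOf C)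
      (hT.of_equiv (Subgroup.subgroupOfEquivOfLe hTC).symm) (h x hxo)
    rw [show Subgroup.normalizer ((T.subgroupOf C : Subgroup ↥C) : Set ↥C) = N.subgroupOf C from
      (Subgroup.subgroupOf_normalizer_eq hTC).symm] at h1
    have h2 : Cfsg.IsPConstrained p ↥(C.subgroupOf N) := by
      let e : ↥(C.subgroupOf N) ≃* ↥(N.subgroupOf C) :=
        { toFun := fun a => ⟨⟨(a.1 : G), a.2⟩, a.1.2⟩
          invFun := fun a => ⟨⟨(a.1 : G), a.2⟩, a.1.2⟩
          left_inv := fun a => rfl
          right_inv := fun a => rfl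
          map_mul' := fun a b => rfl }
      exact CfsgLib.SectRank.isPConstrained_of_equiv e h1
    refine CfsgLib.SectRank.isPConstrained_of_centralizer_le (T.subgroupOf N) (C.subgroupOf N)
      (hT.of_equiv (Subgroup.subgroupOfEquivOfLe hTN).symm) (fun a ha => hTC ha) ?_ h2
    intro a ha
    show (a : G) ∈ C
    rw [hC, Subgroup.mem_centralizer_singleton_iff]
    exact (congrArg Subtype.val (Subgroup.mem_centralizer_iff.1 ha ⟨x, hTN z.1.2⟩ z.1.2)).symm

end Cfsg.Agent.S3247
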