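import Cfsg.Statements.S3261
import Cfsg.Agent.Lib.SectRank.DihedralEight
import Cfsg.Agent.Lib.SectRank.AltSixCentralizer
import Cfsg.Agent.S0495
import Cfsg.Agent.S0497

set_option autoImplicit false
open Cfsg

namespace Cfsg.Agent.S3261

/-- Let α̃ be an involution of the alternating group A₆ that is a product of two disjoint transpositions (it lies in the centre of a Sylow 2-subgroup of A₆; its centralizer is dihedral of order 8). Let G be a finite group that has no subgroup of index 2 and contains an involution α, central in some Sylow 2-subgroup of G, with C_G(α) ≅ C_{A₆}(α̃). Then G is isomorphic to A₆ or to PSL₂(7). -/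
theorem result {G : Type*} [Group G] [Finite G]
    (hG : ∀ H : Subgroup G, H.index ≠ 2)
    (αt : ↥(alternatingGroup (Fin 6))) (hαt : orderOf αt = 2) (hsupp : (αt : Equiv.Perm (Fin 6)).support.card = 4)
    (α : G) (hα : orderOf α = 2) (S : Sylow 2 G) (hαS : α ∈ (S : Subgroup G)) (hαc : ∀ s ∈ (S : Subgroup G), s * α = α * s)
    (e : ↥(Subgroup.centralizer ({α} : Set G)) ≃* ↥(Subgroup.centralizer ({αt} : Set ↥(alternatingGroup (Fin 6))))) :
    Nonempty (G ≃* ↥(alternatingGroup (Fin 6))) ∨
      (∃ (F : Type) (_ : Field F) (_ : Fintype F), Fintype.card F = 7 ∧ Nonempty (G ≃* Matrix.ProjectiveSpecialLinearGroup (Fin 2) F)) := by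
  haveI := Fact.mk (show Nat.Prime 7 by norm_num)
  obtain ⟨h8, g, s, hg, hgt, hs, hinv, hsg, hst⟩ :=
    CfsgLib.SectRank.AltSix.exists_structure αt hαt hsupp
  have hmem : ∀ x : ↥(alternatingGroup (Fin 6)), x * αt = αt * x →
      x ∈ Subgroup.centralizer ({αt} : Set ↥(alternatingGroup (Fin 6))) :=
    fun x hx => CfsgLib.Involutions.mem_centralizer_singleton.2 hx
  let φ := e.symm.toMonoidHom
  have hφ : Function.Injective φ := e.symm.injective
  let g' : Subgroup.centralizer ({αt} : Set ↥(alternatingGroup (Fin 6))) :=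
    ⟨g, hmem g (by rw [← hgt, mul_assoc])⟩
  let s' : Subgroup.centralizer ({αt} : Set ↥(alternatingGroup (Fin 6))) := ⟨s, hmem s hst⟩
  -- the image of `αt` is `α`: the only central involution
  have hcard : Nat.card (Subgroup.centralizer ({α} : Set G)) = 8 := (Nat.card_congr e.toEquiv).trans h8
  have hg'o : orderOf ((φ g' : Subgroup.centralizer ({α} : Set G)) : G) = 4 := by
    rw [Subgroup.orderOf_coe, orderOf_injective φ hφ, ← Subgroup.orderOf_coe]
    exact hg
  have hs'o : orderOf ((φ s' : Subgroup.centralizer ({α} : Set G)) : G) = 2 := by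
    rw [Subgroup.orderOf_coe, orderOf_injective φ hφ, ← Subgroup.orderOf_coe]
    exact hs
  have hinv' : ((φ s' : Subgroup.centralizer ({α} : Set G)) : G) * (φ g' : _) *
      ((φ s' : Subgroup.centralizer ({α} : Set G)) : G)⁻¹ =
      ((φ g' : Subgroup.centralizer ({α} : Set G)) : G)⁻¹ := by
    have h1 : φ s' * φ g' * (φ s')⁻¹ = (φ g')⁻¹ := by
      rw [← map_inv, ← map_inv, ← map_mul, ← map_mul]
      exact congrArg φ (Subtype.ext hinv)
    exact congrArg Subtype.val h1
  have hnot : ((φ s' : Subgroup.centralizer ({α} : Set G)) : G) ∉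
      Subgroup.zpowers ((φ g' : Subgroup.centralizer ({α} : Set G)) : G) := by
    intro h
    obtain ⟨z, hz⟩ := Subgroup.mem_zpowers_iff.1 h
    rw [← Subgroup.coe_zpow, ← map_zpow] at hz
    exact hsg ⟨z, congrArg Subtype.val (hφ (Subtype.ext hz))⟩
  -- `α` commutes with `s` and `g`, hence equals `g ^ 2`
  let α' : Subgroup.centralizer ({α} : Set G) :=
    ⟨α, CfsgLib.Involutions.mem_centralizer_singleton.2 rfl⟩
  have hαcomm : ∀ x : Subgroup.centralizer ({α} : Set G), x * α' = α' * x := fun x =>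
    Subtype.ext (CfsgLib.Involutions.mem_centralizer_singleton.1 x.2)
  have hgα : ((φ g' : Subgroup.centralizer ({α} : Set G)) : G) *
      ((φ g' : Subgroup.centralizer ({α} : Set G)) : G) = α := by
    set γ := φ g'
    set σ := φ s'
    have hσγ : σ * γ * σ⁻¹ = γ⁻¹ := Subtype.ext hinv'
    have hγ4 : orderOf γ = 4 := by rw [← hg'o, Subgroup.orderOf_coe]
    have hK : Nat.card (Subgroup.zpowers γ) = 4 := by rw [Nat.card_zpowers, hγ4]
    have hidx : (Subgroup.zpowers γ).index = 2 := by
      have := (Subgroup.zpowers γ).card_mul_index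
      rw [hK, hcard] at this
      omega
    -- `α'` lies in the cyclic subgroup, otherwise it would invert `γ`
    have hα'K : α' ∈ Subgroup.zpowers γ := by
      by_contra hn
      have hσn : σ ∉ Subgroup.zpowers γ := by
        rintro ⟨z, hz⟩
        exact hnot ⟨z, congrArg Subtype.val hz⟩
      have hm : α' * σ ∈ Subgroup.zpowers γ := by
        rw [Subgroup.mul_mem_iff_of_index_two hidx]
        exact iff_of_false hn hσn
      obtain ⟨z, hz⟩ := Subgroup.mem_zpowers_iff.1 hm
      have hc : α' * σ * γ = γ * (α' * σ) := by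
        rw [← hz, ← zpow_add_one, ← zpow_one_add, add_comm]
      have h2 : γ⁻¹ = γ := by
        rw [← hσγ]
        calc σ * γ * σ⁻¹ = α'⁻¹ * (α' * σ * γ) * σ⁻¹ := by group
          _ = α'⁻¹ * (γ * α') * (σ * σ⁻¹) := by rw [hc]; group
          _ = γ := by rw [hαcomm γ]; group
      have : orderOf γ ∣ 2 := orderOf_dvd_of_pow_eq_one (by
        rw [pow_two]; nth_rewrite 1 [← h2]; exact inv_mul_cancel γ)
      rw [hγ4] at this
      norm_num at this
    obtain ⟨z, hz⟩ := Subgroup.mem_zpowers_iff.1 hα'K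
    have hα'o : orderOf α' = 2 := by
      rw [← Subgroup.orderOf_coe]; exact hα
    rw [← zpow_mod_orderOf, hγ4] at hz
    have h4 : z % ((4 : ℕ) : ℤ) = 0 ∨ z % ((4 : ℕ) : ℤ) = 1 ∨ z % ((4 : ℕ) : ℤ) = 2 ∨
        z % ((4 : ℕ) : ℤ) = 3 := by omega
    rcases h4 with h | h | h | h <;> rw [h] at hz
    · rw [← hz, zpow_zero, orderOf_one] at hα'o
      omega
    · rw [← hz, zpow_one, hγ4] at hα'o
      omega
    · rw [show (2 : ℤ) = ((2 : ℕ) : ℤ) from rfl, zpow_natCast, pow_two] at hz
      exact congrArg Subtype.val hz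
    · rw [← hz, show (3 : ℤ) = ((3 : ℕ) : ℤ) from rfl, zpow_natCast, orderOf_pow' _ (by norm_num),
        hγ4] at hα'o
      norm_num at hα'o
  obtain ⟨hsimple, h168 | h360⟩ := CfsgLib.SectRank.DihedralEight.simple_and_card α _ _ hG hα S hαc
    hg'o hgα hs'o hinv' hnot
    (CfsgLib.Involutions.mem_centralizer_singleton.1 (φ s' : Subgroup.centralizer ({α} : Set G)).2)
    hcard
  · haveI := hsimple
    exact Or.inr ⟨ZMod 7, inferInstance, inferInstance, ZMod.card 7,
      Cfsg.Agent.S0495.result h168 (ZMod.card 7)⟩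
  · haveI := hsimple
    exact Or.inl (Cfsg.Agent.S0497.result h360)

end Cfsg.Agent.S3261
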