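import Cfsg.Statements.S3265
import Cfsg.Agent.Lib.SectRank.GraphDiam
import Cfsg.Agent.Lib.SectRank.OddProductInvolutions

set_option autoImplicit false
open Cfsg

namespace Cfsg.Agent.S3265

open Equiv Equiv.Perm

theorem isConj_of_card {n : ℕ} {t z : Equiv.Perm (Fin n)} (ht : orderOf t = 2) (hz : z * z = 1)
    (hc : z.support.card = t.support.card) : IsConj t z := by
  have hz1 : z ≠ 1 := by
    rintro rfl
    have : t = 1 := by rw [← Perm.card_support_eq_zero]; simpa using hc.symm
    rw [this, orderOf_one] at ht; omega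
  have hzo : orderOf z = 2 := orderOf_eq_prime (by rw [sq, hz]) hz1
  obtain ⟨k, hk⟩ := Perm.cycleType_prime_order (σ := t) (by rw [ht]; exact Nat.prime_two)
  obtain ⟨l, hl⟩ := Perm.cycleType_prime_order (σ := z) (by rw [hzo]; exact Nat.prime_two)
  rw [ht] at hk; rw [hzo] at hl
  rw [Perm.isConj_iff_cycleType_eq, hk, hl]
  rw [← Perm.sum_cycleType, ← Perm.sum_cycleType, hk, hl] at hc
  simp at hc
  rw [hc]

/-- A distinct commuting conjugate. -/
theorem exists_commuting_conj {n : ℕ} (hn : 5 ≤ n) {t : Equiv.Perm (Fin n)} (ht : orderOf t = 2) :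
    ∃ x : Equiv.Perm (Fin n), IsConj t x ∧ x ≠ t ∧ t * x = x * t := by
  have h2 : t * t = 1 := by rw [← sq, ← ht, pow_orderOf_eq_one]
  have hinv : ∀ i, t (t i) = i := CfsgLib.SectRank.OddProduct.inv_apply h2
  obtain ⟨a, ha⟩ : ∃ a, t a ≠ a := by
    by_contra! h
    have : t = 1 := Perm.ext h
    rw [this, orderOf_one] at ht; omega
  set b := t a with hb
  have hba : t b = a := hinv a
  by_cases hc : ∃ c, t c ≠ c ∧ c ≠ a ∧ c ≠ b
  · obtain ⟨c, hcc, hca, hcb⟩ := hc
    set d := t c with hd
    have hdc : t d = c := hinv c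
    have hda : d ≠ a := fun e => hcb (by rw [← hdc, e])
    have hdb : d ≠ b := fun e => hca (t.injective e)
    refine ⟨swap b c * t * (swap b c)⁻¹, isConj_iff.2 ⟨_, rfl⟩, ?_, ?_⟩
    · intro e
      have := congrArg (fun f : Perm (Fin n) => f a) e
      simp only [swap_inv, Perm.mul_apply, swap_apply_of_ne_of_ne (Ne.symm ha) hca.symm, ← hb, swap_apply_left] at this
      exact hcb this
    · rw [swap_inv]
      ext w : 1
      simp only [Perm.mul_apply]
      have xa : swap b c (t (swap b c a)) = c := by
        rw [swap_apply_of_ne_of_ne (Ne.symm ha) hca.symm, ← hb, swap_apply_left]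
      have xb : swap b c (t (swap b c b)) = d := by
        rw [swap_apply_left, ← hd, swap_apply_of_ne_of_ne hdb hcc]
      have xc : swap b c (t (swap b c c)) = a := by
        rw [swap_apply_right, hba, swap_apply_of_ne_of_ne (Ne.symm ha) hca.symm]
      have xd : swap b c (t (swap b c d)) = b := by
        rw [swap_apply_of_ne_of_ne hdb hcc, hdc, swap_apply_right]
      have xw : ∀ u, u ≠ a → u ≠ b → u ≠ c → u ≠ d → swap b c (t (swap b c u)) = t u := by
        intro u u1 u2 u3 u4
        rw [swap_apply_of_ne_of_ne u2 u3, swap_apply_of_ne_of_ne]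
        · exact fun e => u1 (t.injective e)
        · exact fun e => u4 (by rw [← hinv u, e])
      by_cases h1 : w = a
      · subst h1; rw [xa, ← hb, xb]
      by_cases h2 : w = b
      · rw [h2, xb, hba, xa, hdc]
      by_cases h3 : w = c
      · rw [h3, xc, ← hd, xd]
      by_cases h4 : w = d
      · rw [h4, xd, hdc, xc, hba]
      rw [xw w h1 h2 h3 h4, xw (t w) ?_ ?_ ?_ ?_]
      · exact fun e => h2 (by rw [← hinv w, e])
      · exact fun e => h1 (t.injective e)
      · exact fun e => h4 (by rw [← hinv w, e])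
      · exact fun e => h3 (t.injective e)
  · push Not at hc
    have hsupp : t = swap a b := by
      ext w : 1
      by_cases h1 : w = a
      · rw [h1, swap_apply_left]
      by_cases h2 : w = b
      · rw [h2, swap_apply_right, hba]
      rw [swap_apply_of_ne_of_ne h1 h2]
      by_contra h
      exact h2 (hc w h h1)
    obtain ⟨c, hc'⟩ : ((Finset.univ : Finset (Fin n)) \ {a, b}).Nonempty := by
      rw [← Finset.card_pos, Finset.card_univ_diff, Fintype.card_fin]
      have := Finset.card_le_two (a := a) (b := b)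
      omega
    obtain ⟨d, hd'⟩ : ((Finset.univ : Finset (Fin n)) \ {a, b, c}).Nonempty := by
      rw [← Finset.card_pos, Finset.card_univ_diff, Fintype.card_fin]
      have := Finset.card_le_three (a := a) (b := b) (c := c)
      omega
    simp only [Finset.mem_sdiff, Finset.mem_univ, true_and, Finset.mem_insert, Finset.mem_singleton, not_or] at hc' hd'
    refine ⟨swap c d, ?_, ?_, ?_⟩
    · rw [hsupp, Perm.isConj_iff_cycleType_eq, (Perm.isCycle_swap ha.symm).cycleType,
        (Perm.isCycle_swap (Ne.symm hd'.2.2)).cycleType, Perm.support_swap ha.symm,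
        Perm.support_swap (Ne.symm hd'.2.2), Finset.card_pair ha.symm, Finset.card_pair (Ne.symm hd'.2.2)]
    · intro e
      have := congrArg (fun f : Perm (Fin n) => f a) e
      simp only [swap_apply_of_ne_of_ne (Ne.symm hc'.1) (Ne.symm hd'.1), ← hb] at this
      exact ha this.symm
    · rw [hsupp]
      refine Perm.Disjoint.commute fun w => ?_
      by_cases h : w = a ∨ w = b
      · refine Or.inr (swap_apply_of_ne_of_ne ?_ ?_)
        · rcases h with rfl | rfl
          exacts [Ne.symm hc'.1, Ne.symm hc'.2]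
        · rcases h with rfl | rfl
          exacts [Ne.symm hd'.1, Ne.symm hd'.2.1]
      · push Not at h; exact Or.inl (swap_apply_of_ne_of_ne h.1 h.2)

/-- Let n ≥ 5 and let X be a conjugacy class of involutions of the symmetric group of degree n. The graph on X joining two distinct involutions whose product has odd order is connected and has diameter exactly 2. -/
theorem result (n : ℕ) (hn : 5 ≤ n) (t : Equiv.Perm (Fin n)) (ht : orderOf t = 2) :
    (SimpleGraph.fromRel fun x y : {x : Equiv.Perm (Fin n) // IsConj t x} =>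
        Odd (orderOf (x.1 * y.1))).Connected ∧
      (SimpleGraph.fromRel fun x y : {x : Equiv.Perm (Fin n) // IsConj t x} =>
        Odd (orderOf (x.1 * y.1))).diam = 2 := by
  have htt : t * t = 1 := by rw [← sq, ← ht, pow_orderOf_eq_one]
  have hprop : ∀ u : {x : Equiv.Perm (Fin n) // IsConj t x}, u.1 * u.1 = 1 ∧ u.1.support.card = t.support.card := by
    intro u
    obtain ⟨c, hc⟩ := isConj_iff.1 u.2
    refine ⟨?_, by rw [← hc, Perm.card_support_conj]⟩
    rw [← hc, show c * t * c⁻¹ * (c * t * c⁻¹) = c * (t * t) * c⁻¹ by group, htt, mul_one, mul_inv_cancel]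
  have hcomm : ∀ a b : Equiv.Perm (Fin n), orderOf (a * b) = orderOf (b * a) := fun a b =>
    (SemiconjBy.orderOf_eq a (show SemiconjBy a (b * a) (a * b) from (mul_assoc a b a).symm)).symm
  refine CfsgLib.SectRank.connected_and_diam_eq_two _ (fun u v huv hna => ?_) ?_
  · obtain ⟨hu2, huc⟩ := hprop u
    obtain ⟨hv2, hvc⟩ := hprop v
    obtain ⟨z, hz2, -, hzc, hxz, hyz⟩ := CfsgLib.SectRank.OddProduct.sol_of_not_bad Finset.univ u.1 v.1
      hu2 hv2 (Finset.subset_univ _) (Finset.subset_univ _) (huc.trans hvc.symm) (by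
        rintro ⟨h, -⟩
        rw [Finset.card_univ, Fintype.card_fin] at h; omega)
    refine ⟨⟨z, isConj_of_card ht hz2 (hzc.trans huc)⟩, ?_, ?_⟩
    · rw [SimpleGraph.fromRel_adj]
      refine ⟨fun e => hna ?_, Or.inl hxz⟩
      rw [SimpleGraph.fromRel_adj]
      refine ⟨huv, Or.inr ?_⟩
      have e' : u.1 = z := congrArg Subtype.val e
      rwa [e']
    · rw [SimpleGraph.fromRel_adj]
      refine ⟨fun e => hna ?_, Or.inr hyz⟩
      rw [SimpleGraph.fromRel_adj]
      refine ⟨huv, Or.inl ?_⟩
      have e' : z = v.1 := congrArg Subtype.val e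
      rwa [← e']
  · obtain ⟨x, hx, hne, hxt⟩ := exists_commuting_conj hn ht
    refine ⟨⟨t, IsConj.refl t⟩, ⟨x, hx⟩, fun e => hne (congrArg Subtype.val e).symm, ?_⟩
    rw [SimpleGraph.fromRel_adj]
    rintro ⟨-, h⟩
    have hx2 : x * x = 1 := (hprop ⟨x, hx⟩).1
    have hsq : (t * x) ^ 2 = 1 := by
      rw [(show Commute t x from hxt).mul_pow, sq, sq, htt, hx2, one_mul]
    have hord : orderOf (t * x) = 2 := orderOf_eq_prime hsq (fun e => hne (by
      rw [← one_mul x, ← htt, mul_assoc, e, mul_one]))
    simp only at h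
    rw [hcomm x t, hord] at h
    rcases h with h | h <;> exact absurd h (by decide)

end Cfsg.Agent.S3265
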