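import Cfsg.Statements.S3266
import Cfsg.Agent.Lib.SectRank.OddProductPSLGraph

set_option autoImplicit false
open Cfsg

namespace Cfsg.Agent.S3266

open CfsgLib.SectRank.OddProductPSL
open scoped Matrix MatrixGroups

theorem semiconj_orderOf {G : Type*} [Group G] (a b : G) : orderOf (a * b) = orderOf (b * a) :=
  (SemiconjBy.orderOf_eq a (show SemiconjBy a (b * a) (a * b) from (mul_assoc a b a).symm)).symm

/-- A distinct commuting involution. -/
theorem exists_commuting {F : Type*} [Field F] [Fintype F] (hF : 4 ≤ Fintype.card F) :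
    ∃ E : SL(2, F), orderOf (π E) = 2 ∧ π E ≠ π J ∧ orderOf (π (J * E)) = 2 := by
  by_cases hc : ringChar F = 2
  · haveI : CharP F 2 := ringChar.of_eq hc
    have two : (2 : F) = 0 := CharTwo.two_eq_zero
    classical
    obtain ⟨b, -, hb⟩ : ∃ b ∈ (Finset.univ : Finset F), b ∉ ({0, 1} : Finset F) := by
      refine Finset.exists_mem_notMem_of_card_lt_card ?_
      have := Finset.card_le_two (a := (0 : F)) (b := 1)
      rw [Finset.card_univ]; omega
    simp only [Finset.mem_insert, Finset.mem_singleton, not_or] at hb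
    let E : SL(2, F) := ⟨!![1 + b, b; b, 1 + b], by rw [Matrix.det_fin_two_of]; linear_combination b * two⟩
    have htE : E.1.trace = 0 := by
      simp [E, Matrix.trace_fin_two]; linear_combination (1 + b) * two
    refine ⟨E, orderOf_eq_two htE fun h => ?_, fun h => ?_, ?_⟩
    · exact hb.1 (by simpa [E] using (mem_center_entries h).1)
    · have h' := (QuotientGroup.eq_iff_div_mem (N := Subgroup.center (Matrix.SpecialLinearGroup (Fin 2) F))).1 h
      obtain ⟨r, -, hr⟩ := scalar_of_mem_center h'
      have hEJ : E.1 = r • (J : SL(2, F)).1 := by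
        have e : E = E / J * J := (div_mul_cancel E J).symm
        conv_lhs => rw [e]
        show (E / J).1 * J.1 = _
        rw [hr, smul_mul_assoc, one_mul]
      have e0 := congrFun (congrFun hEJ 0) 0
      simp [E, J] at e0
      exact hb.2 (by linear_combination e0 - two)
    · refine orderOf_eq_two ?_ fun h => ?_
      · show (J.1 * E.1).trace = 0
        rw [trace_mul_two]; simp [J, E]
      · have this : ((J : SL(2, F)).1 * E.1) 0 1 = 0 := (mem_center_entries h).1
        simp [J, E, Matrix.mul_apply, Fin.sum_univ_two] at this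
        exact hb.2 (by linear_combination -this - two)
  · have h2 : (2 : F) ≠ 0 := Ring.two_ne_zero hc
    obtain ⟨p, r, hpr⟩ := sum_two_squares (-1 : F)
    let E : SL(2, F) := ⟨coord p r 0 1 0, by rw [det_coord hpr]; ring⟩
    have hJE : (J * E).1.trace = 0 := by
      show (J.1 * coord p r 0 1 0).trace = 0
      rw [J_eq_coord (p := p) (r := r), trace_coord_mul hpr]; ring
    refine ⟨E, orderOf_eq_two (trace_coord 0 1 0) (not_mem_center h2 (trace_coord 0 1 0)), fun h => ?_,
      orderOf_eq_two hJE (not_mem_center h2 hJE)⟩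
    refine not_mem_center h2 hJE ((QuotientGroup.eq_one_iff _).1 ?_)
    show π (J * E) = 1
    have htr : (J : SL(2, F)).1.trace = 0 := by simp [J, Matrix.trace_fin_two]
    have e := pow_orderOf_eq_one (π (J : SL(2, F)))
    rw [orderOf_eq_two htr (not_mem_center h2 htr)] at e
    rw [map_mul, h, ← sq, e]

/-- Let F be a finite field with at least 4 elements and let X be a conjugacy class of involutions of PSL(2, F). The graph on X joining two distinct involutions whose product has odd order is connected and has diameter exactly 2. -/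
theorem result {F : Type*} [Field F] [Fintype F] (hF : 4 ≤ Fintype.card F)
    (t : Matrix.ProjectiveSpecialLinearGroup (Fin 2) F) (ht : orderOf t = 2) :
    (SimpleGraph.fromRel fun x y : {x : Matrix.ProjectiveSpecialLinearGroup (Fin 2) F // IsConj t x} =>
        Odd (orderOf (x.1 * y.1))).Connected ∧
      (SimpleGraph.fromRel fun x y : {x : Matrix.ProjectiveSpecialLinearGroup (Fin 2) F // IsConj t x} =>
        Odd (orderOf (x.1 * y.1))).diam = 2 := by
  have htr : (J : SL(2, F)).1.trace = 0 := by simp [J, Matrix.trace_fin_two]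
  have hJ : orderOf (π (J : SL(2, F))) = 2 := orderOf_eq_two htr fun h => by
    simpa [J] using (mem_center_entries h).1
  have hconjJ : ∀ u, orderOf u = 2 → IsConj (π (J : SL(2, F))) u := by
    intro u hu
    obtain ⟨A, rfl⟩ := QuotientGroup.mk'_surjective _ u
    obtain ⟨g, rfl⟩ := exists_conj hu
    exact isConj_iff.2 ⟨π g, by rw [← map_inv, ← map_mul, ← map_mul]⟩
  have hmem : ∀ u, orderOf u = 2 → IsConj t u := fun u hu => ((hconjJ t ht).symm).trans (hconjJ u hu)
  have hord : ∀ u : {x : Matrix.ProjectiveSpecialLinearGroup (Fin 2) F // IsConj t x}, orderOf u.1 = 2 := by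
    intro u
    obtain ⟨c, hc⟩ := isConj_iff.1 u.2
    rw [← hc, show c * t * c⁻¹ = MulAut.conj c t from rfl, MulEquiv.orderOf_eq, ht]
  refine CfsgLib.SectRank.connected_and_diam_eq_two _ (fun u v huv hna => ?_) ?_
  · obtain ⟨A, hA⟩ := QuotientGroup.mk'_surjective _ u.1
    obtain ⟨g, hg⟩ := exists_conj (A := A) (by rw [hA]; exact hord u)
    obtain ⟨B', hB'⟩ := QuotientGroup.mk'_surjective _ ((π g)⁻¹ * v.1 * π g)
    have hu : u.1 = MulAut.conj (π g) (π J) := by
      rw [← hA, hg, MulAut.conj_apply, ← map_inv, ← map_mul, ← map_mul]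
    have hv : v.1 = MulAut.conj (π g) (π B') := by
      rw [show π B' = _ from hB', MulAut.conj_apply]; group
    have hprod : ∀ X Y : SL(2, F), orderOf (MulAut.conj (π g) (π X) * MulAut.conj (π g) (π Y)) = orderOf (π (X * Y)) := by
      intro X Y
      rw [← map_mul, MulEquiv.orderOf_eq, map_mul]
    have hB : orderOf (π B') = 2 := by
      rw [← MulEquiv.orderOf_eq (MulAut.conj (π g)), ← hv]; exact hord v
    have hGood : ¬ Good J B' := fun h => hna (by
      rw [SimpleGraph.fromRel_adj]
      refine ⟨huv, Or.inl ?_⟩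
      rw [hu, hv, hprod]; exact h)
    obtain ⟨C, hC, hJC, hBC⟩ := exists_common hF B' hB hGood
    have hC' : orderOf (MulAut.conj (π g) (π C)) = 2 := by rw [MulEquiv.orderOf_eq, hC]
    refine ⟨⟨_, hmem _ hC'⟩, ?_, ?_⟩
    · rw [SimpleGraph.fromRel_adj]
      refine ⟨fun e => hna ?_, Or.inl (by rw [hu, hprod]; exact hJC)⟩
      rw [SimpleGraph.fromRel_adj]
      refine ⟨huv, Or.inr ?_⟩
      have e' : u.1 = MulAut.conj (π g) (π C) := congrArg Subtype.val e
      rw [e', hv, hprod]; exact hBC
    · rw [SimpleGraph.fromRel_adj]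
      refine ⟨fun e => hna ?_, Or.inr (by rw [hv, hprod]; exact hBC)⟩
      rw [SimpleGraph.fromRel_adj]
      refine ⟨huv, Or.inl ?_⟩
      have e' : MulAut.conj (π g) (π C) = v.1 := congrArg Subtype.val e
      rw [← e', hu, hprod]; exact hJC
  · obtain ⟨E, hE, hne, hJE⟩ := exists_commuting hF
    refine ⟨⟨_, hmem _ hJ⟩, ⟨_, hmem _ hE⟩, fun e => hne (congrArg Subtype.val e).symm, ?_⟩
    rw [SimpleGraph.fromRel_adj]
    rintro ⟨-, h⟩
    simp only at h
    rw [semiconj_orderOf (π E) (π J), ← map_mul, hJE] at h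
    rcases h with h | h <;> exact absurd h (by decide)

end Cfsg.Agent.S3266
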