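import Cfsg.Statements.S3269
import Cfsg.Agent.S0215
import Cfsg.Agent.Lib.Amalgams.QuaternionFactor
-- import your own Cfsg.Agent.* helpers here

set_option autoImplicit false
open Cfsg

namespace Cfsg.Agent.S3269

/-- Let G be a finite group whose Sylow 2-subgroup S is an internal direct product Q × R with Q generalized quaternion (of order at least 8) and R a subgroup all of whose involutions are central in R. Then G is not simple. In particular no finite simple group has a Sylow 2-subgroup that is a direct product of one or more generalized quaternion groups. -/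
theorem result {G : Type*} [Group G] [Finite G]
    (S : Sylow 2 G) (Q R : Subgroup G) (hQR : Cfsg.IsInternalDirectProduct Q R (S : Subgroup G))
    (n : ℕ) (hn : 1 ≤ n) (eQ : ↥Q ≃* QuaternionGroup (2 ^ n))
    (hR : ∀ r ∈ R, orderOf r = 2 → ∀ s ∈ R, r * s = s * r) :
    ¬ IsSimpleGroup G := by
  exact CfsgLib.Amalgams.not_isSimpleGroup_of_quaternion_factor
    (fun P t ht htP h => Cfsg.Agent.S0215.result P t ht htP h) S Q R hQR n hn eQ hR

end Cfsg.Agent.S3269
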