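import Cfsg.Statements.S3276
-- import your own Cfsg.Agent.* helpers here

set_option autoImplicit false
open Cfsg

namespace Cfsg.Agent.S3276

theorem isConj_of_odd_orderOf_mul {G : Type*} [Group G] {x y : G} (hx : x * x = 1) (hy : y * y = 1)
    (h : Odd (orderOf (x * y))) : IsConj x y := by
  obtain ⟨k, hk⟩ := h
  have hn : (x * y) ^ (2 * k + 1) = 1 := by rw [← hk]; exact pow_orderOf_eq_one _
  have hxi : x⁻¹ = x := inv_eq_of_mul_eq_one_right hx
  have hyi : y⁻¹ = y := inv_eq_of_mul_eq_one_right hy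
  have hc : x * (x * y) ^ k * x⁻¹ = ((x * y) ^ k)⁻¹ := by
    rw [← conj_pow, ← inv_pow]
    congr 1
    rw [mul_inv_rev, hxi, hyi, ← mul_assoc, hx, one_mul]
  have h2k : (x * y) ^ (2 * k) = y * x := by
    have h3 : (x * y) ^ (2 * k) * (x * y) = 1 := by rw [← pow_succ]; exact hn
    rw [eq_inv_of_mul_eq_one_left h3, mul_inv_rev, hxi, hyi]
  have hmove : ((x * y) ^ k)⁻¹ * x = x * (x * y) ^ k := by
    rw [← hc, inv_mul_cancel_right]
  have h1 : ((x * y) ^ k)⁻¹ * x * (x * y) ^ k = x * (y * x) := by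
    rw [hmove, mul_assoc, ← pow_add, ← two_mul, h2k]
  rw [isConj_iff]
  refine ⟨x * ((x * y) ^ k)⁻¹, ?_⟩
  have h4 : x * ((x * y) ^ k)⁻¹ * x * (x * ((x * y) ^ k)⁻¹)⁻¹
      = x * (((x * y) ^ k)⁻¹ * x * (x * y) ^ k) * x⁻¹ := by group
  rw [h4, h1, hxi]
  calc x * (x * (y * x)) * x = (x * x) * y * (x * x) := by simp only [mul_assoc]
    _ = y := by rw [hx, one_mul, mul_one]

theorem exists_involution_commute {G : Type*} [Group G] [Finite G] {x y : G} (hx : x * x = 1)
    (hy : y * y = 1) (hnc : ¬ IsConj x y) : ∃ u : G, orderOf u = 2 ∧ Commute u x ∧ Commute u y := by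
  have he : Even (orderOf (x * y)) := Nat.not_odd_iff_even.1 fun h => hnc (isConj_of_odd_orderOf_mul hx hy h)
  obtain ⟨m, hm⟩ := he
  have hpos := orderOf_pos (x * y)
  have hm2 : orderOf (x * y) = 2 * m := by omega
  have hu : orderOf ((x * y) ^ m) = 2 := by
    rw [orderOf_pow' _ (by omega : m ≠ 0), hm2, Nat.gcd_mul_left_left, Nat.mul_div_cancel]
    omega
  refine ⟨(x * y) ^ m, hu, ?_⟩
  have hxi : x⁻¹ = x := inv_eq_of_mul_eq_one_right hx
  have hyi : y⁻¹ = y := inv_eq_of_mul_eq_one_right hy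
  have huinv : ((x * y) ^ m)⁻¹ = (x * y) ^ m := by
    apply inv_eq_of_mul_eq_one_right
    rw [← pow_add, ← hm]; exact pow_orderOf_eq_one _
  have hcx : Commute ((x * y) ^ m) x := by
    have hc : x * (x * y) ^ m * x⁻¹ = (x * y) ^ m := by
      conv_rhs => rw [← huinv]
      rw [← conj_pow, ← inv_pow]
      congr 1
      rw [mul_inv_rev, hxi, hyi, ← mul_assoc, hx, one_mul]
    exact (mul_inv_eq_iff_eq_mul.1 hc).symm
  refine ⟨hcx, ?_⟩
  have hy' : y = x * (x * y) := by rw [← mul_assoc, hx, one_mul]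
  have := hcx.mul_right ((Commute.refl (x * y)).pow_left m)
  rwa [← hy'] at this

/-- Let x and y be commuting, non-conjugate involutions of a finite group G, and suppose that for every involution u commuting with x, each conjugate of y that commutes with u also commutes with y. Then the normal closure of y is a proper, normal, elementary abelian 2-subgroup of G; and if y is the only involution of that normal closure commuting with x, it has order at most 4. -/
theorem result {G : Type*} [Group G] [Finite G] (x y : G) (hx : orderOf x = 2) (hy : orderOf y = 2)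
    (hxy : Commute x y) (hnc : ¬ IsConj x y)
    (hstar : ∀ u : G, orderOf u = 2 → Commute u x → ∀ g : G, Commute (g * y * g⁻¹) u → Commute (g * y * g⁻¹) y) :
    Subgroup.normalClosure ({y} : Set G) ≠ ⊤ ∧ Cfsg.IsElementaryAbelian 2 (Subgroup.normalClosure ({y} : Set G)) ∧
      ((∀ u ∈ Subgroup.normalClosure ({y} : Set G), orderOf u = 2 → Commute u x → u = y) →
        Nat.card ↥(Subgroup.normalClosure ({y} : Set G)) ≤ 4) := by
  have hx2 : x * x = 1 := by rw [← pow_two, ← hx]; exact pow_orderOf_eq_one x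
  have hy2 : y * y = 1 := by rw [← pow_two, ← hy]; exact pow_orderOf_eq_one y
  have hcomm : ∀ g : G, Commute (g * y * g⁻¹) y := by
    intro g
    obtain ⟨u, hu, hux, huy⟩ := exists_involution_commute hx2
      (show g * y * g⁻¹ * (g * y * g⁻¹) = 1 by rw [conj_mul, hy2, mul_one, mul_inv_cancel])
      (fun h => hnc (h.trans (isConj_iff.2 ⟨g, rfl⟩ : IsConj y (g * y * g⁻¹)).symm))
    exact hstar u hu hux g huy.symm
  have hpair : ∀ a ∈ Group.conjugatesOfSet ({y} : Set G), ∀ b ∈ Group.conjugatesOfSet ({y} : Set G),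
      a * b = b * a := by
    intro a ha b hb
    obtain ⟨a0, rfl, hac⟩ := Group.mem_conjugatesOfSet_iff.1 ha
    obtain ⟨b0, rfl, hbc⟩ := Group.mem_conjugatesOfSet_iff.1 hb
    obtain ⟨g, rfl⟩ := isConj_iff.1 hac
    obtain ⟨k, rfl⟩ := isConj_iff.1 hbc
    have h := (Commute.conj_iff g).2 (hcomm (g⁻¹ * k))
    have e : g * (g⁻¹ * k * b0 * (g⁻¹ * k)⁻¹) * g⁻¹ = k * b0 * k⁻¹ := by group
    rw [e] at h
    exact h.symm.eq
  haveI hab : IsMulCommutative ↥(Subgroup.normalClosure ({y} : Set G)) :=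
    Subgroup.isMulCommutative_closure hpair
  have hsq : ∀ a ∈ Subgroup.normalClosure ({y} : Set G), a ^ 2 = 1 := by
    intro a ha
    induction ha using Subgroup.closure_induction with
    | mem a ha =>
      obtain ⟨a0, rfl, hac⟩ := Group.mem_conjugatesOfSet_iff.1 ha
      obtain ⟨g, rfl⟩ := isConj_iff.1 hac
      rw [conj_pow, pow_two, hy2, mul_one, mul_inv_cancel]
    | one => simp
    | mul a b ha hb iha ihb =>
      have hc : Commute a b := congrArg Subtype.val
        (mul_comm' (⟨a, ha⟩ : ↥(Subgroup.normalClosure ({y} : Set G))) ⟨b, hb⟩)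
      rw [hc.mul_pow, iha, ihb, mul_one]
    | inv a ha iha => rw [inv_pow, iha, inv_one]
  refine ⟨?_, ⟨hab, hsq⟩, ?_⟩
  · intro htop
    obtain ⟨g, hg⟩ : ∃ g : G, g = x := ⟨x, rfl⟩
    have hxm : x ∈ Subgroup.normalClosure ({y} : Set G) := by rw [htop]; trivial
    have hall : ∀ a b : G, a * b = b * a := fun a b => congrArg Subtype.val
      (mul_comm' (⟨a, by rw [htop]; trivial⟩ : ↥(Subgroup.normalClosure ({y} : Set G)))
        ⟨b, by rw [htop]; trivial⟩)
    have hle : Subgroup.normalClosure ({y} : Set G) ≤ Subgroup.zpowers y := by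
      haveI : (Subgroup.zpowers y).Normal := ⟨fun a ha g => by
        rwa [hall g a, mul_inv_cancel_right]⟩
      exact Subgroup.normalClosure_le_normal (Set.singleton_subset_iff.2 (Subgroup.mem_zpowers y))
    obtain ⟨i, hi⟩ := Subgroup.mem_zpowers_iff.1 (hle hxm)
    rw [← zpow_mod_orderOf, hy] at hi
    have hi2 : i % 2 = 0 ∨ i % 2 = 1 := by omega
    rcases hi2 with h | h
    · have h' : i % ((2 : ℕ) : ℤ) = 0 := h
      rw [h', zpow_zero] at hi
      rw [← hi, orderOf_one] at hx; omega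
    · have h' : i % ((2 : ℕ) : ℤ) = 1 := h
      rw [h', zpow_one] at hi
      exact hnc (hi ▸ IsConj.refl y)
  · intro huniq
    set E := Subgroup.normalClosure ({y} : Set G) with hE
    have hn : ∀ e : ↥E, x * e.1 * x⁻¹ ∈ E := fun e =>
      (Subgroup.normalClosure_normal).conj_mem e.1 e.2 x
    have hc : ∀ a b : ↥E, (a : G) * b = b * a := fun a b => congrArg Subtype.val (mul_comm' a b)
    let f : ↥E →* ↥E :=
      { toFun := fun e => e * ⟨x * e.1 * x⁻¹, hn e⟩
        map_one' := by simp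
        map_mul' := fun a b => by
          have h1 : (⟨x * (a * b : ↥E).1 * x⁻¹, hn (a * b)⟩ : ↥E)
              = ⟨x * a.1 * x⁻¹, hn a⟩ * ⟨x * b.1 * x⁻¹, hn b⟩ := by
            ext; simp [mul_assoc]
          rw [h1, mul_assoc, ← mul_assoc b, mul_comm' b, mul_assoc, ← mul_assoc, ← mul_assoc] }
    have key : ∀ e : ↥E, Commute e.1 x → e = 1 ∨ e.1 = y := by
      intro e he
      by_cases h1 : e = 1
      · exact Or.inl h1
      · exact Or.inr (huniq e.1 e.2 (orderOf_eq_prime (hsq e.1 e.2) fun h => h1 (Subtype.ext h)) he)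
    have hfc : ∀ e : ↥E, Commute (f e).1 x := by
      intro e
      have hx' : x⁻¹ = x := inv_eq_of_mul_eq_one_right hx2
      have h1 : e.1 * (x * e.1 * x⁻¹) = (x * e.1 * x⁻¹) * e.1 := hc e ⟨x * e.1 * x⁻¹, hn e⟩
      rw [hx'] at h1
      show e.1 * (x * e.1 * x⁻¹) * x = x * (e.1 * (x * e.1 * x⁻¹))
      rw [hx']
      calc e.1 * (x * e.1 * x) * x = e.1 * x * e.1 * (x * x) := by simp only [mul_assoc]
        _ = (x * x) * (e.1 * x * e.1) := by rw [hx2, mul_one, one_mul]
        _ = x * ((x * e.1 * x) * e.1) := by simp only [mul_assoc]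
        _ = x * (e.1 * (x * e.1 * x)) := by rw [h1]
    have hkc : ∀ e : ↥E, f e = 1 → Commute e.1 x := by
      intro e he
      have h1 : e.1 * (x * e.1 * x⁻¹) = 1 := congrArg Subtype.val he
      have h2 : x * e.1 * x⁻¹ = e.1 := by
        rw [eq_inv_of_mul_eq_one_right h1]
        exact inv_eq_of_mul_eq_one_right (by rw [← pow_two]; exact hsq e.1 e.2)
      exact (mul_inv_eq_iff_eq_mul.1 h2).symm
    have hle2 : ∀ H : Subgroup ↥E, (∀ e ∈ H, Commute (e : ↥E).1 x) → Nat.card ↥H ≤ 2 := by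
      intro H hH
      have hyE : y ∈ E := Subgroup.subset_normalClosure rfl
      have hsub : (H : Set ↥E) ⊆ {1, ⟨y, hyE⟩} := by
        intro e he
        rcases key e (hH e he) with h | h
        · exact Or.inl h
        · exact Or.inr (Subtype.ext h)
      calc Nat.card ↥H = (H : Set ↥E).ncard := Nat.card_coe_set_eq _
        _ ≤ ({1, ⟨y, hyE⟩} : Set ↥E).ncard := Set.ncard_le_ncard hsub
        _ ≤ 2 := (Set.ncard_insert_le _ _).trans (by simp)
    have h1 := hle2 f.ker fun e he => hkc e (MonoidHom.mem_ker.1 he)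
    have h2 := hle2 f.range fun e he => by
      obtain ⟨a, rfl⟩ := he
      exact hfc a
    rw [← f.ker.card_mul_index, Subgroup.index_ker]
    calc _ ≤ 2 * 2 := Nat.mul_le_mul h1 h2
      _ = 4 := by norm_num

end Cfsg.Agent.S3276
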