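import Cfsg.Statements.S3278
import Cfsg.Agent.Lib.SectRank.KleinCentralizer
import Cfsg.Agent.Lib.Involutions.KleinBlock
import Cfsg.Agent.Lib.Involutions.KleinSylow
import Cfsg.Agent.Lib.Involutions.PrincipalBlock
import Cfsg.Agent.Lib.CharTheory.Convolution
import Cfsg.Agent.Lib.CharTheory.Linear
import Cfsg.Agent.Lib.SL2.Dickson.Sixty
import Cfsg.Agent.S0493

set_option autoImplicit false
open Cfsg CfsgLib CfsgLib.Involutions

namespace Cfsg.Agent.S3278

/-- The arithmetic of the four characters. -/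
theorem third_le_sum {ι : Type*} [DecidableEq ι] (s : Finset ι) (hs : s.card = 3) (r : ι → ℤ)
    (f : ι → ℕ) (hf : ∀ i ∈ s, 3 ≤ f i) (hr : ∀ i ∈ s, r i = 1 ∨ r i = -1)
    (hsum : ∑ i ∈ s, r i * (f i : ℤ) = -1) :
    -(2 / 3 : ℚ) ≤ ∑ i ∈ s, (r i : ℚ) / (f i : ℚ) := by
  obtain ⟨i₀, hi₀, hpos⟩ : ∃ i ∈ s, r i = 1 := by
    by_contra h
    push Not at h
    have hle : ∑ i ∈ s, r i * (f i : ℤ) ≤ ∑ _i ∈ s, (-3 : ℤ) := Finset.sum_le_sum fun i hi => by
      rw [(hr i hi).resolve_left (h i hi)]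
      have := hf i hi
      omega
    rw [hsum, Finset.sum_const, hs] at hle
    norm_num at hle
  have hlow : ∀ i ∈ s, -(1 / 3 : ℚ) ≤ (r i : ℚ) / (f i : ℚ) := by
    intro i hi
    have h3 : (3 : ℚ) ≤ (f i : ℚ) := by exact_mod_cast hf i hi
    rw [le_div_iff₀ (by linarith)]
    rcases hr i hi with e | e <;> rw [e] <;> push_cast <;> linarith
  rw [← Finset.add_sum_erase s _ hi₀]
  have h2 : ∑ _i ∈ s.erase i₀, -(1 / 3 : ℚ) ≤ ∑ i ∈ s.erase i₀, (r i : ℚ) / (f i : ℚ) :=
    Finset.sum_le_sum fun i hi => hlow i (Finset.mem_of_mem_erase hi)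
  rw [Finset.sum_const, Finset.card_erase_of_mem hi₀, hs] at h2
  have h1 : (0 : ℚ) ≤ (r i₀ : ℚ) / (f i₀ : ℚ) := by rw [hpos]; positivity
  norm_num at h2
  linarith

/-- Let G be a finite simple group with an involution x such that a Sylow 2-subgroup of C_G(x) is a Klein four-group which is normal in C_G(x). Then G is isomorphic to the alternating group of degree 5 (that is, to PSL(2, 5)). -/
theorem result {G : Type*} [Group G] [Finite G] [IsSimpleGroup G] (x : G) (hx : orderOf x = 2)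
    (S₀ : Subgroup G) (hle : S₀ ≤ Subgroup.centralizer ({x} : Set G)) (hK : IsKleinFour ↥S₀)
    (hodd : ¬ 2 ∣ S₀.relIndex (Subgroup.centralizer ({x} : Set G))) (hn : (S₀.subgroupOf (Subgroup.centralizer ({x} : Set G))).Normal) :
    Nonempty (G ≃* ↥(alternatingGroup (Fin 5))) := by
  classical
  haveI := Fact.mk Nat.prime_two
  haveI := Fintype.ofFinite G
  set C := Subgroup.centralizer ({x} : Set G) with hC
  have hcS : Nat.card S₀ = 4 := IsKleinFour.card_four
  have hxC : x ∈ C := mem_centralizer_singleton.2 rfl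
  have htwo : ∀ q ∈ C, ∀ k : ℕ, q ^ 2 ^ k = 1 → q ∈ S₀ := by
    intro q hq k hk
    haveI := hn
    have h1 : (⟨q, hq⟩ : C) ^ S₀.relIndex C ∈ S₀.subgroupOf C := (S₀.subgroupOf C).pow_index_mem _
    have hcop : Nat.gcd (S₀.relIndex C) (2 ^ k) = 1 :=
      (Nat.prime_two.coprime_iff_not_dvd.2 hodd).symm.pow_right k
    have h2 : (⟨q, hq⟩ : C) ^ Nat.gcd (S₀.relIndex C) (2 ^ k) ∈ S₀.subgroupOf C := by
      have e2 : (⟨q, hq⟩ : C) ^ 2 ^ k = 1 := Subtype.ext hk
      rw [← zpow_natCast, Nat.gcd_eq_gcd_ab, zpow_add, zpow_mul, zpow_mul, zpow_natCast,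
        zpow_natCast, e2, one_zpow, mul_one]
      exact Subgroup.zpow_mem _ h1 _
    rw [hcop, pow_one] at h2
    exact h2
  have hxS : x ∈ S₀ := htwo x hxC 1 (by rw [pow_one, pow_two, mul_self_eq_one hx])
  have h8C : ¬ 8 ∣ Nat.card C := by
    intro h
    have e := (S₀.subgroupOf C).card_mul_index
    rw [Nat.card_congr (Subgroup.subgroupOfEquivOfLe hle).toEquiv, hcS] at e
    change 4 * S₀.relIndex C = _ at e
    obtain ⟨j, hj⟩ := h
    exact hodd ⟨j, by omega⟩
  have h4G : 4 ∣ Nat.card G := hcS ▸ Subgroup.card_subgroup_dvd_card S₀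
  have hncyc : ¬ IsCyclic G := by
    intro hc
    letI : CommGroup G := IsCyclic.commGroup
    have hp := Group.is_simple_iff_prime_card.mp ‹IsSimpleGroup G›
    exact absurd ((Nat.prime_dvd_prime_iff_eq Nat.prime_two hp).1 ((dvd_mul_left 2 2).trans h4G))
      (fun e => absurd h4G (by rw [← e]; decide))
  have h8G : ¬ 8 ∣ Nat.card G := by
    intro h
    obtain ⟨K, hK, hxK⟩ := CfsgLib.SectRank.KleinCentralizer.exists_index_two_not_mem' hx h8C h
    haveI := Subgroup.normal_of_index_eq_two hK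
    rcases (inferInstance : K.Normal).eq_bot_or_eq_top with e | e
    · rw [e, Subgroup.index_bot] at hK
      omega
    · exact hxK (e ▸ Subgroup.mem_top x)
  obtain ⟨P, hSP⟩ := (IsPGroup.of_card (p := 2) (n := 2) (by rw [hcS]; rfl) : IsPGroup 2 S₀).exists_le_sylow
  have hSy : ∀ Q : Sylow 2 G, Nat.card (Q : Subgroup G) = 4 := by
    intro Q
    have hd := Subgroup.card_subgroup_dvd_card (Q : Subgroup G)
    obtain ⟨j, hj⟩ := Q.isPGroup'.exists_card_eq
    rw [hj] at hd ⊢
    have hle2 : j ≤ 2 := by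
      by_contra h
      exact h8G ((show (8 : ℕ) = 2 ^ 3 from rfl) ▸ (pow_dvd_pow 2 (by omega : 3 ≤ j)).trans hd)
    have hge : 2 ^ 2 ≤ 2 ^ j := by
      have hmul := Q.card_eq_multiplicity
      rw [hj] at hmul
      rw [hmul]
      exact Nat.pow_le_pow_right (by norm_num)
        ((Nat.prime_two.pow_dvd_iff_le_factorization Nat.card_pos.ne').1 h4G)
    exact le_antisymm (Nat.pow_le_pow_right (by norm_num) hle2) hge
  have hPS : (P : Subgroup G) = S₀ :=
    (Subgroup.eq_of_le_of_card_ge hSP (by rw [hSy, hcS])).symm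
  have hxP : x ∈ (P : Subgroup G) := hPS ▸ hxS
  have hPK : IsKleinFour (P : Subgroup G) := hPS ▸ hK
  have hconj : ∀ u : G, orderOf u = 2 → IsConj x u := by
    intro u hu
    rcases klein_sylow_dichotomy P hPK with ⟨-, N, hN, hNc⟩ | ⟨h, -⟩
    · exfalso
      have hmul := hNc.card_mul
      rcases hN.eq_bot_or_eq_top with e | e <;> subst e
      · rw [Subgroup.card_bot, one_mul, hSy] at hmul
        haveI : (P : Subgroup G).Normal := by
          rw [Subgroup.eq_top_of_card_eq (P : Subgroup G) (by rw [hSy, hmul])]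
          infer_instance
        have hG4 := Cfsg.Agent.S0493.result hncyc (by omega)
        omega
      · rw [Subgroup.card_top, hSy] at hmul
        have := Nat.card_pos (α := G)
        omega
    · have hs := (Nat.card_eq_one_iff_unique.1 h).1
      exact ConjClasses.mk_eq_mk_iff_isConj.1
        (congrArg Subtype.val (hs.elim ⟨_, x, hx, rfl⟩ ⟨_, u, hu, rfl⟩))
  -- a Sylow subgroup through `x` is `P`
  have huniqx : ∀ Q : Sylow 2 G, x ∈ (Q : Subgroup G) → Q = P := by
    intro Q hxQ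
    haveI : IsMulCommutative (Q : Subgroup G) := by
      obtain ⟨c, hc⟩ := MulAction.exists_smul_eq G P Q
      haveI : IsMulCommutative (P : Subgroup G) := IsKleinFour.isMulCommutative
      exact ⟨⟨fun a b => by
        have e := Q.equiv P
        exact e.injective (by rw [map_mul, map_mul, mul_comm'])⟩⟩
    refine Sylow.ext (Subgroup.eq_of_le_of_card_ge (fun q hq => hPS ▸ ?_) (by rw [hSy, hSy]))
    obtain ⟨k, hk⟩ := Q.isPGroup' ⟨q, hq⟩
    refine htwo q (mem_centralizer_singleton.2 ?_) k (by simpa using congrArg Subtype.val hk)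
    exact congrArg Subtype.val (mul_comm' (⟨q, hq⟩ : (Q : Subgroup G)) ⟨x, hxQ⟩)
  have huniq : ∀ u : G, orderOf u = 2 → ∀ Q Q' : Sylow 2 G, u ∈ (Q : Subgroup G) →
      u ∈ (Q' : Subgroup G) → Q = Q' := by
    intro u hu Q Q' h h'
    obtain ⟨c, hc⟩ := isConj_iff.1 (hconj u hu).symm
    have hm : ∀ R : Sylow 2 G, u ∈ (R : Subgroup G) → c • R = P := fun R hR => huniqx _ (by
      rw [Sylow.coe_subgroup_smul, ← hc]
      exact ⟨u, hR, rfl⟩)
    exact MulAction.injective c ((hm Q h).trans (hm Q' h').symm)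
  have hcommP : ∀ a b : G, orderOf a = 2 → orderOf b = 2 → b * a = a * b → a ∈ (P : Subgroup G) →
      b ∈ (P : Subgroup G) := by
    intro a b ha hb hab haP
    obtain ⟨c, hc⟩ := isConj_iff.1 (hconj a ha).symm
    have hbC : c * b * c⁻¹ ∈ C := by
      rw [hC, mem_centralizer_singleton, ← hc, show c * b * c⁻¹ * (c * a * c⁻¹) = c * (b * a) * c⁻¹ by group, hab]
      group
    have hbP : c * b * c⁻¹ ∈ (P : Subgroup G) := hPS ▸ htwo _ hbC 1 (by
      rw [pow_one, pow_two, mul_self_eq_one ((orderOf_conj c b).trans hb)])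
    have h1 : a ∈ ((c⁻¹ • P : Sylow 2 G) : Subgroup G) := by
      rw [Sylow.coe_subgroup_smul]
      exact ⟨c * a * c⁻¹, hc ▸ hxP, by simp [mul_assoc]⟩
    have h2 : b ∈ ((c⁻¹ • P : Sylow 2 G) : Subgroup G) := by
      rw [Sylow.coe_subgroup_smul]
      exact ⟨c * b * c⁻¹, hbP, by simp [mul_assoc]⟩
    rwa [huniq a ha _ P h1 haP] at h2
  have hPord : ∀ u ∈ (P : Subgroup G), u ≠ 1 → orderOf u = 2 := fun u hu hu1 =>
    (eq_one_or_two_of_klein hPK hu).resolve_left hu1
  -- counting Sylow subgroups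
  set n := Nat.card (Sylow 2 G) with hnn
  have hv : Nat.card {u : G // orderOf u = 2} = 3 * n := by
    have e : (Σ Q : Sylow 2 G, {u : (Q : Subgroup G) // u ≠ 1}) ≃ {u : G // orderOf u = 2} := by
      refine Equiv.ofBijective (fun z => ⟨(z.2.1 : G), ?_⟩) ⟨?_, ?_⟩
      · obtain ⟨c, hc⟩ := MulAction.exists_smul_eq G z.1 P
        have hm : c * (z.2.1 : G) * c⁻¹ ∈ (P : Subgroup G) := by
          rw [← hc, Sylow.coe_subgroup_smul]
          exact ⟨_, z.2.1.2, rfl⟩
        rw [← orderOf_conj c]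
        refine hPord _ hm fun e => z.2.2 (Subtype.ext ?_)
        exact conj_eq_one_iff.1 e
      · rintro ⟨Q, u, hu⟩ ⟨Q', u', hu'⟩ h
        have h' : (u : G) = u' := congrArg Subtype.val h
        have ho : orderOf (u : G) = 2 := by
          obtain ⟨c, hc⟩ := MulAction.exists_smul_eq G Q P
          have hm : c * (u : G) * c⁻¹ ∈ (P : Subgroup G) := by
            rw [← hc, Sylow.coe_subgroup_smul]
            exact ⟨_, u.2, rfl⟩
          rw [← orderOf_conj c]
          exact hPord _ hm fun e => hu (Subtype.ext (conj_eq_one_iff.1 e))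
        obtain rfl := huniq _ ho Q Q' u.2 (h' ▸ u'.2)
        obtain rfl : u = u' := Subtype.ext h'
        rfl
      · rintro ⟨u, hu⟩
        obtain ⟨Q, hQ⟩ := (IsPGroup.of_card (p := 2) (n := 1) (by rw [Nat.card_zpowers, hu, pow_one]) :
          IsPGroup 2 (Subgroup.zpowers u)).exists_le_sylow
        exact ⟨⟨Q, ⟨u, hQ (Subgroup.mem_zpowers u)⟩, fun e => ne_one hu (congrArg Subtype.val e)⟩, rfl⟩
    haveI := Fintype.ofFinite (Sylow 2 G)
    rw [← Nat.card_congr e, Nat.card_sigma, Finset.sum_congr rfl (g := fun _ => 3) fun Q _ => ?_,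
      Finset.sum_const, smul_eq_mul, mul_comm, hnn, Nat.card_eq_fintype_card, Finset.card_univ]
    have h := hSy Q
    rw [Nat.card_eq_fintype_card] at h ⊢
    rw [Fintype.card_subtype_compl, Fintype.card_subtype_eq, h]
  have hn4 : 4 ∣ n + 3 := by
    haveI := Fintype.ofFinite (Sylow 2 G)
    have h := MulAction.sum_card_fixedBy_eq_card_orbits_mul_card_group (P : Subgroup G) (Sylow 2 G)
    rw [← Finset.add_sum_erase _ _ (Finset.mem_univ (1 : (P : Subgroup G)))] at h
    rw [Finset.sum_congr rfl (g := fun _ => 1) fun a ha => ?_] at h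
    · rw [Finset.sum_const, Finset.card_erase_of_mem (Finset.mem_univ _), Finset.card_univ] at h
      have h4 := hSy P
      rw [Nat.card_eq_fintype_card] at h4
      rw [h4] at h
      have h1 : Fintype.card (MulAction.fixedBy (Sylow 2 G) (1 : (P : Subgroup G))) = n := by
        rw [hnn, Nat.card_eq_fintype_card]
        exact Fintype.card_congr (Equiv.subtypeUnivEquiv fun Q => one_smul _ Q)
      rw [h1] at h
      simp only [smul_eq_mul, mul_one] at h
      exact ⟨_, (by omega : n + 3 = n + (4 - 1)).trans (h.trans (mul_comm _ _))⟩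
    · have ha1 : (a : G) ≠ 1 := fun e => Finset.ne_of_mem_erase ha (Subtype.ext e)
      have ha2 := hPord _ a.2 ha1
      rw [Fintype.card_eq_one_iff]
      have hPfix : P ∈ MulAction.fixedBy (Sylow 2 G) a := by
        show ((a : G) • P : Sylow 2 G) = P
        rw [Sylow.smul_eq_iff_mem_normalizer]
        exact Subgroup.le_normalizer a.2
      refine ⟨⟨P, hPfix⟩, fun Q => Subtype.ext ?_⟩
      have hQ : ((a : G) • Q.1 : Sylow 2 G) = Q.1 := Q.2
      rw [Sylow.smul_eq_iff_mem_normalizer] at hQ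
      have hz : Subgroup.zpowers (a : G) ⊓ Subgroup.normalizer ((Q.1 : Subgroup G) : Set G) =
          Subgroup.zpowers (a : G) ⊓ (Q.1 : Subgroup G) :=
        IsPGroup.inf_normalizer_sylow
          (IsPGroup.of_card (n := 1) (by rw [Nat.card_zpowers, ha2, pow_one])) Q.1
      have hm : (a : G) ∈ Subgroup.zpowers (a : G) ⊓ (Q.1 : Subgroup G) :=
        hz ▸ ⟨Subgroup.mem_zpowers _, hQ⟩
      exact huniq _ ha2 _ _ hm.2 a.2
  -- the even products
  have hevenP : ∀ c : G, 2 ∣ orderOf (x * (c * x * c⁻¹)) ↔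
      c * x * c⁻¹ ∈ (P : Subgroup G) ∧ c * x * c⁻¹ ≠ x := by
    intro c
    set w := c * x * c⁻¹ with hw
    have hwo : orderOf w = 2 := (orderOf_conj c x).trans hx
    have hxx := mul_self_eq_one hx
    have hww := mul_self_eq_one hwo
    constructor
    · intro h
      have hne : w ≠ x := fun e => by
        rw [e, hxx, orderOf_one] at h
        omega
      refine ⟨?_, hne⟩
      obtain ⟨m, hm⟩ := h
      have hpos := orderOf_pos (x * w)
      have hzo : orderOf ((x * w) ^ m) = 2 := by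
        rw [orderOf_pow, hm, Nat.gcd_eq_right (dvd_mul_left _ _), Nat.mul_div_cancel _ (by omega)]
      have hg : x * (x * w) * x⁻¹ = (x * w)⁻¹ := by
        rw [mul_inv_rev, inv_eq_self hx, inv_eq_self hwo, ← mul_assoc, hxx, one_mul]
      have hg2 : w * (x * w) * w⁻¹ = (x * w)⁻¹ := by
        rw [inv_eq_self hwo, eq_inv_iff_mul_eq_one]
        calc w * (x * w) * w * (x * w) = w * x * (w * w) * (x * w) := by group
          _ = w * (x * x) * w := by rw [hww]; group
          _ = 1 := by rw [hxx, mul_one, hww]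
      have hxz : ∀ s : G, s * (x * w) * s⁻¹ = (x * w)⁻¹ → (x * w) ^ m * s = s * (x * w) ^ m := by
        intro s hs
        have h1 : s * (x * w) ^ m * s⁻¹ = (x * w) ^ m := by
          rw [← conj_pow, hs, inv_pow, inv_eq_self hzo]
        exact (mul_inv_eq_iff_eq_mul.1 h1).symm
      exact hcommP _ w hzo hwo (hxz w hg2).symm (hcommP x _ hx hzo (hxz x hg) hxP)
    · rintro ⟨hwP, hne⟩
      rw [hPord (x * w) ((P : Subgroup G).mul_mem hxP hwP) fun e =>
        hne (by rw [eq_inv_of_mul_eq_one_right e, inv_eq_self hx])]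
  have hcount : (Finset.univ.filter fun c : G => 2 ∣ orderOf (x * (c * x * c⁻¹))).card =
      2 * Nat.card C := by
    set T := Finset.univ.filter fun y : G => y ∈ (P : Subgroup G) ∧ y ≠ 1 ∧ y ≠ x with hT
    rw [Finset.card_eq_sum_card_fiberwise (f := fun c => c * x * c⁻¹) (t := T) fun c hc => by
      rw [Finset.mem_coe, Finset.mem_filter] at hc
      obtain ⟨h1, h2⟩ := (hevenP c).1 hc.2
      exact Finset.mem_coe.2 (Finset.mem_filter.2
        ⟨Finset.mem_univ _, h1, ne_one ((orderOf_conj c x).trans hx), h2⟩)]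
    have hTc : T.card = 2 := by
      have h1 : (Finset.univ.filter fun y : G => y ∈ (P : Subgroup G)).card = 4 := by
        rw [← hSy P, Nat.card_eq_fintype_card, Fintype.card_subtype]
      have h2 : T = ((Finset.univ.filter fun y : G => y ∈ (P : Subgroup G)).erase 1).erase x := by
        ext y
        simp [hT]
        tauto
      rw [h2, Finset.card_erase_of_mem (by simp [hxP, ne_one hx]),
        Finset.card_erase_of_mem (by simp), h1]
    rw [Finset.sum_congr rfl (g := fun _ => Nat.card C) fun y hy => ?_, Finset.sum_const, hTc,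
      smul_eq_mul]
    obtain ⟨-, hyP, hy1, hyx⟩ := Finset.mem_filter.1 hy
    obtain ⟨a, ha⟩ := isConj_iff.1 (hconj y (hPord y hyP hy1))
    rw [← card_conj_eq_card_centralizer ha, Nat.card_eq_fintype_card, Fintype.card_subtype]
    congr 1
    ext c
    simp only [Finset.mem_filter, Finset.mem_univ, true_and]
    exact ⟨fun h => h.2, fun h => ⟨(hevenP c).2 ⟨h ▸ hyP, h ▸ hyx⟩, h⟩⟩
  -- the principal block
  obtain ⟨M, hM⟩ := CfsgLib.Involutions.exists_isPModular Nat.prime_two
  haveI : M.IsPrime := hM.2.1.isPrime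
  haveI := Fintype.ofFinite (IrrCharacter G)
  obtain ⟨-, hval, hpm, hcard, hzero⟩ := klein_principal_block hM P hPK hx hxP hconj
  set B := Finset.univ.filter fun φ : IrrCharacter G => φ ∈ principalBlock M G with hB
  have hdata : ∀ φ : IrrCharacter G, ∃ (f : ℕ) (r : ℤ),
      (φ : G → ℂ) 1 = f ∧ (φ : G → ℂ) x = r ∧ Even (r - f) := fun φ =>
    exists_int_of_involution φ.2 (mul_self_eq_one hx)
  choose f r hf hr hpar using hdata
  have hr1 : ∀ φ ∈ B, r φ = 1 ∨ r φ = -1 := by
    intro φ hφ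
    rcases hpm φ (Finset.mem_filter.1 hφ).2 with e | e <;> rw [hr] at e
    · exact Or.inl (by exact_mod_cast e)
    · exact Or.inr (by exact_mod_cast e)
  set A : ℚ := ∑ φ ∈ B, (r φ : ℚ) / (f φ : ℚ) with hA
  have hmain : (Nat.card G : ℚ) * A = 8 * (Nat.card C : ℚ) := by
    have hL : ∀ φ : IrrCharacter G, ∑ a : G, ∑ b : G, (φ : G → ℂ) (a * x * a⁻¹ * (b * x * b⁻¹)) =
        (Nat.card G : ℂ) * (Nat.card G : ℂ) * ((φ : G → ℂ) x * (φ : G → ℂ) x) / (φ : G → ℂ) 1 := by
      intro φ
      rw [Finset.sum_comm]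
      have : ∀ b : G, ∑ a : G, (φ : G → ℂ) (a * x * a⁻¹ * (b * x * b⁻¹)) =
          (Nat.card G : ℂ) * (φ : G → ℂ) x * (φ : G → ℂ) x / (φ : G → ℂ) 1 := fun b => by
        rw [CharTheory.IsIrrCharacter.sum_conj_mul φ.2, CharTheory.IsIrrCharacter.isClassFunction φ.2 x b]
      rw [Finset.sum_congr rfl fun b _ => this b, Finset.sum_const, Finset.card_univ,
        ← Nat.card_eq_fintype_card, nsmul_eq_mul]
      ring
    have hpt : ∀ g : G, ∑ φ ∈ B, (φ : G → ℂ) x * (φ : G → ℂ) g = if 2 ∣ orderOf g then 4 else 0 := by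
      intro g
      split_ifs with hg
      · rw [Finset.sum_congr rfl (g := fun _ => (1 : ℂ)) fun φ hφ => ?_, Finset.sum_const, hcard]
        · simp
        · have hφ' := (Finset.mem_filter.1 hφ).2
          rw [hval φ hφ' g hg]
          rcases hpm φ hφ' with e | e <;> rw [e] <;> simp
      · exact hzero g hg
    have h1 : ∑ φ ∈ B, (φ : G → ℂ) x *
        ∑ a : G, ∑ b : G, (φ : G → ℂ) (a * x * a⁻¹ * (b * x * b⁻¹)) =
        4 * (Nat.card G : ℂ) * (2 * (Nat.card C : ℂ)) := by
      simp only [Finset.mul_sum]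
      rw [Finset.sum_comm]
      rw [Finset.sum_congr rfl (g := fun _ => (4 : ℂ) * (2 * (Nat.card C : ℂ))) fun a _ => ?_,
        Finset.sum_const, Finset.card_univ, ← Nat.card_eq_fintype_card, nsmul_eq_mul]
      · ring
      rw [Finset.sum_comm]
      rw [Finset.sum_congr rfl fun b _ => hpt _, ← Equiv.sum_comp (Equiv.mulLeft a)]
      have e : ∀ c : G, 2 ∣ orderOf (a * x * a⁻¹ *
          (Equiv.mulLeft a c * x * (Equiv.mulLeft a c)⁻¹)) ↔ 2 ∣ orderOf (x * (c * x * c⁻¹)) := by
        intro c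
        rw [← orderOf_conj a (x * (c * x * c⁻¹))]
        simp [mul_assoc]
      simp only [e]
      rw [← Finset.sum_filter, Finset.sum_const, hcount, nsmul_eq_mul]
      push_cast
      ring
    have hG0 : (Nat.card G : ℂ) ≠ 0 := Nat.cast_ne_zero.2 Nat.card_pos.ne'
    have h2 : ∑ φ ∈ B, (φ : G → ℂ) x *
        ∑ a : G, ∑ b : G, (φ : G → ℂ) (a * x * a⁻¹ * (b * x * b⁻¹)) =
        (Nat.card G : ℂ) * ((Nat.card G : ℂ) * (A : ℂ)) := by
      rw [hA]
      push_cast
      rw [Finset.mul_sum, Finset.mul_sum]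
      refine Finset.sum_congr rfl fun φ hφ => ?_
      rw [hL, hr, hf]
      rcases hr1 φ hφ with e | e <;> rw [e] <;> push_cast <;> ring
    have h3 : (Nat.card G : ℂ) * ((Nat.card G : ℂ) * (A : ℂ)) =
        (Nat.card G : ℂ) * (8 * (Nat.card C : ℂ)) := by
      rw [← h2, h1]
      ring
    have h4 := mul_left_cancel₀ hG0 h3
    have h5 : (((Nat.card G : ℚ) * A : ℚ) : ℂ) = ((8 * (Nat.card C : ℚ) : ℚ) : ℂ) := by
      push_cast
      exact h4
    exact_mod_cast h5
  have htriv : CharTheory.trivIrr G ∈ B := by simp [hB, mem_principalBlock_trivIrr]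
  have hAge : (1 / 3 : ℚ) ≤ A := by
    have hrt : r (CharTheory.trivIrr G) = 1 := by
      exact_mod_cast (hr _).symm.trans (CharTheory.trivIrr_apply x)
    have hft : f (CharTheory.trivIrr G) = 1 := by
      exact_mod_cast (hf _).symm.trans (CharTheory.trivIrr_apply 1)
    have hf3 : ∀ φ ∈ B.erase (CharTheory.trivIrr G), 3 ≤ f φ := by
      intro φ hφ
      obtain ⟨hne, hφB⟩ := Finset.mem_erase.1 hφ
      obtain ⟨j, hj⟩ := hpar φ
      have hodd1 : f φ % 2 = 1 := by
        rcases hr1 φ hφB with e | e <;> rw [e] at hj <;> omega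
      by_contra hlt
      have h1 : f φ = 1 := by omega
      obtain ⟨μ, hμ⟩ := CharTheory.exists_hom_of_degree_one φ.2 (by rw [hf, h1, Nat.cast_one])
      rcases μ.normal_ker.eq_bot_or_eq_top with e | e
      · refine hncyc ?_
        haveI : IsMulCommutative G := ⟨⟨fun a b =>
          (MonoidHom.ker_eq_bot_iff μ).1 e (by rw [map_mul, map_mul, mul_comm])⟩⟩
        letI : CommGroup G := { (inferInstance : Group G) with mul_comm := mul_comm' }
        exact isCyclic_of_prime_card (hp := ⟨Group.is_simple_iff_prime_card.mp ‹_›⟩) rfl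
      · refine hne (Subtype.ext (hμ.trans (funext fun g => ?_)))
        have : μ g = 1 := MonoidHom.mem_ker.1 (e ▸ Subgroup.mem_top g)
        simp [this, CharTheory.trivIrr_apply]
    have hsum : ∑ φ ∈ B, r φ * (f φ : ℤ) = 0 := by
      have h := hzero 1 (by rw [orderOf_one]; omega)
      rw [Finset.sum_congr rfl (g := fun φ => ((r φ * (f φ : ℤ) : ℤ) : ℂ)) fun φ _ => by
        rw [hr, hf]; push_cast; rfl] at h
      exact_mod_cast h
    rw [← Finset.add_sum_erase B _ htriv, hrt, hft] at hsum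
    have h := third_le_sum (B.erase (CharTheory.trivIrr G))
      (by rw [Finset.card_erase_of_mem htriv, hcard]) r f hf3
      (fun φ hφ => hr1 φ (Finset.mem_of_mem_erase hφ)) (by push_cast at hsum ⊢; linarith)
    rw [hA, ← Finset.add_sum_erase B _ htriv, hrt, hft]
    push_cast
    linarith
  -- the number of Sylow subgroups is five
  have hGv : 3 * n * Nat.card C = Nat.card G := by
    rw [← hv, hC, ← card_isConj_mul_card_centralizer x]
    refine congrArg (· * _) (Nat.card_congr (Equiv.subtypeEquivRight fun u => ?_))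
    exact ⟨fun hu => hconj u hu, fun h => (orderOf_eq_of_isConj h).symm.trans hx⟩
  have hn8 : n ≤ 8 := by
    have hCpos : (0 : ℚ) < (Nat.card C : ℚ) := Nat.cast_pos.2 Nat.card_pos
    rw [← hGv] at hmain
    push_cast at hmain
    have h8 : 3 * (n : ℚ) * A = 8 := by
      refine mul_right_cancel₀ hCpos.ne' ?_
      linear_combination hmain
    have hn0 : (0 : ℚ) ≤ (n : ℚ) := Nat.cast_nonneg n
    have hle8 : (n : ℚ) ≤ 8 := by nlinarith
    exact_mod_cast hle8
  have hpos : 0 < n := Nat.card_pos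
  have hn5 : n = 5 := by
    obtain ⟨j, hj⟩ := hn4
    rcases (show n = 1 ∨ n = 5 by omega) with e | e
    · exfalso
      haveI : Subsingleton (Sylow 2 G) := (Nat.card_eq_one_iff_unique.1 e).1
      haveI : (P : Subgroup G).Normal := P.normal_of_subsingleton
      rcases (inferInstance : (P : Subgroup G).Normal).eq_bot_or_eq_top with h | h
      · exact ne_one hx (Subgroup.mem_bot.1 (h ▸ hxP))
      · have := hSy P
        rw [h, Subgroup.card_top] at this
        have := Cfsg.Agent.S0493.result hncyc (by omega)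
        omega
    · exact e
  have hinj : Function.Injective (MulAction.toPermHom G (Sylow 2 G)) := by
    rw [← MonoidHom.ker_eq_bot_iff]
    refine (MonoidHom.normal_ker _).eq_bot_or_eq_top.resolve_right fun h => ?_
    have hfix : ∀ (g : G) (Q : Sylow 2 G), g • Q = Q := fun g Q => by
      have := MonoidHom.mem_ker.1 (h ▸ Subgroup.mem_top g : g ∈ (MulAction.toPermHom G (Sylow 2 G)).ker)
      exact Equiv.Perm.congr_fun this Q
    haveI : Subsingleton (Sylow 2 G) := ⟨fun Q Q' => by
      obtain ⟨c, hc⟩ := MulAction.exists_smul_eq G Q Q'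
      rw [← hc, hfix]⟩
    have : n = 1 := Nat.card_eq_one_iff_unique.2 ⟨inferInstance, ⟨P⟩⟩
    omega
  have h120 := Subgroup.card_dvd_of_injective _ hinj
  rw [Nat.card_perm, ← hnn, hn5] at h120
  obtain ⟨k, hk⟩ := h120
  obtain ⟨i, hi⟩ : 2 ∣ k := by
    by_contra h
    exact h8G ((Nat.Coprime.pow_left 3 (Nat.prime_two.coprime_iff_not_dvd.2 h)).dvd_of_dvd_mul_right
      (hk ▸ ⟨15, rfl⟩))
  have h60 : Nat.card G = 60 := by
    refine Cfsg.Agent.S0493.result hncyc (Nat.le_of_dvd (by norm_num) ⟨i, ?_⟩ |>.trans (by norm_num : 60 ≤ 100))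
    have h2 : Nat.card G * (2 * i) = 120 := by rw [← hi, ← hk]; rfl
    have : Nat.card G * (2 * i) = 2 * (Nat.card G * i) := by ring
    omega
  refine CfsgLib.SL2.Dickson.Sixty.nonempty_mulEquiv_alternating_five h60 fun R hR hRn => ?_
  rcases hRn.eq_bot_or_eq_top with e | e <;> subst e
  · rw [Subgroup.card_bot] at hR; omega
  · rw [Subgroup.card_top] at hR; omega

end Cfsg.Agent.S3278
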