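import Cfsg.Statements.S3279
import Cfsg.Agent.S0215
import Cfsg.Agent.Lib.Balance.ZStarUses

set_option autoImplicit false
open Cfsg

namespace Cfsg.Agent.S3279

/-- Let G be a finite simple group and x an involution of G whose centralizer contains at most three involutions. Then C_G(x) contains a Sylow 2-subgroup of G, and all involutions of G are conjugate. -/
theorem result {G : Type*} [Group G] [Finite G] [IsSimpleGroup G] (x : G) (hx : orderOf x = 2)
    (h3 : Nat.card {u : ↥(Subgroup.centralizer ({x} : Set G)) // orderOf u = 2} ≤ 3) :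
    (∃ S : Sylow 2 G, (S : Subgroup G) ≤ Subgroup.centralizer ({x} : Set G)) ∧
      ∀ u v : G, orderOf u = 2 → orderOf v = 2 → IsConj u v := by
  by_cases hab : IsMulCommutative G
  · have hc : ∀ a b : G, a * b = b * a := fun a b => hab.is_comm.comm a b
    haveI := hab
    have hcen : Subgroup.centralizer ({x} : Set G) = ⊤ :=
      (Subgroup.eq_top_iff' _).2 fun a => Subgroup.mem_centralizer_singleton_iff.2 (hc a x)
    refine ⟨⟨default, by rw [hcen]; exact le_top⟩, fun u v hu hv => ?_⟩
    haveI : Fact (Nat.Prime 2) := ⟨Nat.prime_two⟩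
    have key : ∀ w : G, orderOf w = 2 → w ∈ Subgroup.zpowers u := fun w hw => by
      rcases (inferInstance : (Subgroup.zpowers u).Normal).eq_bot_or_eq_top with h | h
      · rw [Subgroup.zpowers_eq_bot] at h
        rw [h, orderOf_one] at hu
        omega
      · exact h ▸ Subgroup.mem_top w
    have huv : v = u := by
      have hc2 : Nat.card (Subgroup.zpowers u) = 2 := by rw [Nat.card_zpowers, hu]
      have h := key v hv
      by_contra hne
      have h1 := Nat.card_eq_two_iff' (⟨1, one_mem _⟩ : Subgroup.zpowers u) |>.1 hc2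
      obtain ⟨y, -, hy⟩ := h1
      have a := hy ⟨u, Subgroup.mem_zpowers u⟩ (by simp; intro e; rw [e, orderOf_one] at hu; omega)
      have b := hy ⟨v, h⟩ (by simp; intro e; rw [e, orderOf_one] at hv; omega)
      exact hne (congrArg Subtype.val (b.trans a.symm))
    rw [huv]
  · have hZ : CfsgLib.Balance.ZStarTheorem :=
      fun H _ _ P t a b c => Cfsg.Agent.S0215.result P t a b c
    obtain ⟨S, hS⟩ := CfsgLib.Balance.exists_sylow_le_centralizer hZ hab hx h3
    exact ⟨⟨S, hS⟩, CfsgLib.Balance.isConj_of_three_involutions hZ hab hx h3 S hS⟩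

end Cfsg.Agent.S3279
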