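import Cfsg.Statements.S3301
import Cfsg.Agent.Lib.SectRank.AbelianizationSquares
-- import your own Cfsg.Agent.* helpers here

set_option autoImplicit false
open Cfsg

open scoped commutatorElement

namespace Cfsg.Agent.S3301

/-- Let G be a finite group with no nontrivial 2-group quotient (O^2(G) = G), z an involution of G with H = C_G(z), and suppose E = O_2(H) is extraspecial with C_G(E) ≤ E. Then the Sylow 2-subgroups of H/[H, H] are elementary abelian: every element of 2-power order of the abelianization of H has order at most 2. -/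
theorem result {G : Type*} [Group G] [Finite G] (hres : Cfsg.pResidual 2 G = ⊤) (z : G) (hz : orderOf z = 2)
    (E : Subgroup G) (hE : E = (Cfsg.pCore 2 ↥(Subgroup.centralizer ({z} : Set G))).map (Subgroup.centralizer ({z} : Set G)).subtype)
    (hext : Cfsg.IsExtraspecial 2 ↥E) (hcent : Subgroup.centralizer (E : Set G) ≤ E) :
    ∀ q : Abelianization ↥(Subgroup.centralizer ({z} : Set G)), (∃ k : ℕ, orderOf q = 2 ^ k) → q ^ 2 = 1 := by
  classical
  haveI := Fact.mk Nat.prime_two
  have D := CfsgLib.SectRank.LargeExtra.Data.of_pCore hz hE hext hcent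
  set H := Subgroup.centralizer ({z} : Set G) with hH
  set L := (commutator H).map H.subtype with hLdef
  have hLmem : ∀ (x : G) (hx : x ∈ H), x ∈ L ↔ (⟨x, hx⟩ : H) ∈ commutator H := by
    intro x hx
    rw [hLdef, Subgroup.mem_map]
    constructor
    · rintro ⟨w, hw, e⟩
      rwa [show (⟨x, hx⟩ : H) = w from Subtype.ext e.symm]
    · exact fun h => ⟨_, h, rfl⟩
  have hL : ∀ a ∈ H, ∀ b ∈ H, b * a * b⁻¹ * a⁻¹ ∈ L := by
    intro a ha b hb
    refine ⟨⁅(⟨b, hb⟩ : H), (⟨a, ha⟩ : H)⁆, Subgroup.commutator_mem_commutator (Subgroup.mem_top _)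
      (Subgroup.mem_top _), ?_⟩
    simp [commutatorElement_def]
  have hof : ∀ (x : H), Abelianization.of x = 1 ↔ x ∈ commutator H := fun x =>
    QuotientGroup.eq_one_iff x
  intro q hq
  obtain ⟨k, hk⟩ := hq
  obtain ⟨n, hn, hn'⟩ := CfsgLib.MetacyclicP.exists_card_extraspecial hext
  by_cases h8 : n = 1
  · -- `|E| = 8`
    obtain ⟨x, rfl⟩ : ∃ x : H, Abelianization.of x = q := QuotientGroup.mk_surjective q
    obtain ⟨i, m, hm, e⟩ := Nat.exists_eq_pow_mul_and_not_dvd (orderOf_pos x).ne' 2 (by norm_num)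
    have hp : ((x : G) ^ m) ^ 2 ^ i = 1 := by
      rw [← pow_mul, mul_comm, ← e, ← SubgroupClass.coe_pow, pow_orderOf_eq_one]; rfl
    have hmem := D.sq_mem_of_card_eight (by rw [hn', h8]; norm_num) hE hL (H.pow_mem x.2 m) hp
    have h2 : (Abelianization.of x) ^ (2 * m) = 1 := by
      rw [← map_pow, hof, two_mul, pow_add]
      exact (hLmem _ (H.mul_mem (H.pow_mem x.2 m) (H.pow_mem x.2 m))).1 hmem
    have hd := orderOf_dvd_of_pow_eq_one h2
    rw [hk] at hd
    have hco : Nat.Coprime (2 ^ k) m :=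
      Nat.Coprime.pow_left k ((Nat.prime_two.coprime_iff_not_dvd).2 hm)
    have hd' := hco.dvd_of_dvd_mul_right hd
    rw [← hk] at hd'
    exact orderOf_dvd_iff_pow_eq_one.1 hd'
  by_contra hne
  have h32 : 32 ≤ Nat.card E := by
    rw [hn']
    calc 32 = 2 ^ (1 + 2 * 2) := by norm_num
      _ ≤ 2 ^ (1 + 2 * n) := Nat.pow_le_pow_right two_pos (by omega)
  -- a subgroup of index two containing the elements squaring into the derived subgroup
  let σ : Abelianization H →* Abelianization H := powMonoidHom 2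
  obtain ⟨M, hM⟩ := CfsgLib.SectRank.LargeExtra.exists_index_two_of_comm
    (r := (⟨q ^ 2, q, rfl⟩ : σ.range)) (fun e => hne (congrArg Subtype.val e)) (k := k)
    (Subtype.ext (by
      show (q ^ 2) ^ 2 ^ k = 1
      rw [← pow_mul, mul_comm, pow_mul, ← hk, pow_orderOf_eq_one, one_pow]))
  set f : H →* σ.range := σ.rangeRestrict.comp Abelianization.of with hfdef
  have hsurj : Function.Surjective f :=
    σ.rangeRestrict_surjective.comp fun y => QuotientGroup.mk_surjective y
  set K := (M.comap f).map H.subtype with hK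
  have hKi : K.relIndex H = 2 := by
    rw [Subgroup.relIndex, hK, Subgroup.subgroupOf, Subgroup.comap_map_eq_self_of_injective H.subtype_injective,
      Subgroup.index_comap_of_surjective _ hsurj, hM]
  have hKmem : ∀ x ∈ H, x * x ∈ L → x ∈ K := by
    intro x hx hxx
    refine ⟨⟨x, hx⟩, ?_, rfl⟩
    have e : f ⟨x, hx⟩ = 1 := Subtype.ext (by
      show (Abelianization.of (⟨x, hx⟩ : H)) ^ 2 = 1
      rw [← map_pow, hof, pow_two]
      exact (hLmem _ (H.mul_mem hx hx)).1 hxx)
    show f ⟨x, hx⟩ ∈ M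
    rw [e]; exact M.one_mem
  refine D.no_index_two (K := K) hres h32 hKi ?_ ?_
  · intro g hgE hne' d hd hdc
    refine CfsgLib.SectRank.LargeExtra.Data.phi_eq_zero.2 (hKmem _ ?_ ?_)
    · rw [hH, Subgroup.mem_centralizer_singleton_iff]
      calc g⁻¹ * d * g * z = g⁻¹ * (d * (g * z * g⁻¹)) * g := by group
        _ = _ := by rw [hdc]; group
    · rw [show g⁻¹ * d * g * (g⁻¹ * d * g) = g⁻¹ * (d * d) * g by group]
      rcases D.sq hd with e | e <;> rw [e]
      · rw [mul_one, inv_mul_cancel]; exact L.one_mem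
      · have hinv := D.conj_inv_mem (by omega) hgE hne'
        have := D.conjugate_mem_of_commutators (by omega) (g := g⁻¹) (by rw [inv_inv]; exact hinv)
          (fun h => hne' (by
            calc g * z * g⁻¹ = g * (g⁻¹ * z * g⁻¹⁻¹) * g⁻¹ := by rw [h]
              _ = z := by group)) L hL
        rwa [inv_inv] at this
  · rintro ⟨x, hx, hxx, hxK⟩
    exact absurd (hKmem x hx (hxx ▸ L.one_mem)) hxK

end Cfsg.Agent.S3301
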