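import Cfsg.Statements.S3303
import Cfsg.Agent.Lib.SectRank.SylowInter
-- import your own Cfsg.Agent.* helpers here

set_option autoImplicit false
open Cfsg

namespace Cfsg.Agent.S3303

/-- Let G be a finite solvable group in which the intersection of any two distinct Sylow 2-subgroups is cyclic. Then G/O(G) has a normal Sylow 2-subgroup, where O(G) is the largest normal subgroup of odd order. -/
theorem result {G : Type*} [Group G] [Finite G] (hs : Group.IsSolvable G)
    (hC : ∀ S T : Sylow 2 G, S ≠ T → IsCyclic ↥((S : Subgroup G) ⊓ (T : Subgroup G))) :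
    ∃ P : Sylow 2 (G ⧸ Cfsg.oddCore G), (P : Subgroup (G ⧸ Cfsg.oddCore G)).Normal := by
  obtain ⟨S⟩ := (Sylow.nonempty : Nonempty (Sylow 2 (G ⧸ Cfsg.oddCore G)))
  refine ⟨S, ?_⟩
  by_cases hall : ∀ T : Sylow 2 (G ⧸ Cfsg.oddCore G), T = S
  · haveI : Subsingleton (Sylow 2 (G ⧸ Cfsg.oddCore G)) := ⟨fun a b => (hall a).trans (hall b).symm⟩
    exact S.normal_of_subsingleton
  · push Not at hall
    obtain ⟨T, hT⟩ := hall
    haveI := CfsgLib.SectRank.isCyclic_inf_sylow_quotient hC (Cfsg.oddCore G) T S hT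
    set R := Cfsg.pCore 2 (G ⧸ Cfsg.oddCore G) with hRdef
    haveI : IsCyclic ↥R := isCyclic_of_injective _ (Subgroup.inclusion_injective
      (le_inf (CfsgLib.Cores.pCore_le_sylow T) (CfsgLib.Cores.pCore_le_sylow S)))
    have hR : IsPGroup 2 ↥R := CfsgLib.Cores.isPGroup_pCore 2 _
    have hall2 : IsPGroup 2 (G ⧸ Cfsg.oddCore G) :=
      CfsgLib.SectRank.isPGroup_of_centralizer_le hR
        (CfsgLib.SectRank.centralizer_pCore_le_of_solvable
          (CfsgLib.Cores.pPrimeCore_quotient_pPrimeCore 2))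
        (CfsgLib.SectRank.isPGroup_mulAut_of_isCyclic hR)
    rw [← S.3 (hall2.to_subgroup ⊤) le_top]
    infer_instance

end Cfsg.Agent.S3303
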