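import Cfsg.Statements.S3304
import Cfsg.Agent.Lib.SectRank.SylowInter
import Cfsg.Agent.Lib.SectRank.QuaternionEight
import Cfsg.Agent.Lib.StronglyPEmbedded.CharP
import Cfsg.Agent.Lib.TwoGroups.RankOne
import Cfsg.Agent.Lib.TwoGroups.Basic
import Cfsg.Agent.Lib.SmallGroups.Order24

set_option autoImplicit false
set_option linter.style.haveILetI false
open Cfsg

namespace Cfsg.Agent.S3304

open CfsgLib.SectRank

variable {Q : Type*} [Group Q] [Finite Q]

theorem uniqueOrderP_of_pRankLE {P : Type*} [Group P] [Finite P] (hP : IsPGroup 2 P)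
    (h : Cfsg.PRankLE 2 1 P) : CfsgLib.TwoGroups.UniqueOrderP 2 P := by
  rw [CfsgLib.TwoGroups.uniqueOrderP_iff_unique_involution]
  have key : ∀ a c : P, orderOf a = 2 → orderOf c = 2 → Commute a c → a = c := by
    intro a c ha hc hac
    by_contra hne
    have ha2 : a * a = 1 := by rw [← pow_two, ← ha]; exact pow_orderOf_eq_one a
    have hc2 : c * c = 1 := by rw [← pow_two, ← hc]; exact pow_orderOf_eq_one c
    have ha1 : a ≠ 1 := fun e => by rw [e, orderOf_one] at ha; norm_num at ha
    have hc1 : c ≠ 1 := fun e => by rw [e, orderOf_one] at hc; norm_num at hc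
    have hcomm := Subgroup.isMulCommutative_closure (k := ({a, c} : Set P)) (by
      rintro x (rfl | rfl) y (rfl | rfl) <;> first | rfl | exact hac.eq | exact hac.eq.symm)
    have hsq : ∀ x ∈ Subgroup.closure ({a, c} : Set P), x ^ 2 = 1 := by
      intro x hx
      induction hx using Subgroup.closure_induction with
      | mem x hx => rcases hx with rfl | rfl <;> rw [pow_two] <;> assumption
      | one => simp
      | mul x y hx hy ihx ihy =>
        rw [(show Commute x y from congrArg Subtype.val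
          (mul_comm' (⟨x, hx⟩ : Subgroup.closure ({a, c} : Set P)) ⟨y, hy⟩)).mul_pow, ihx, ihy,
          mul_one]
      | inv x hx ih => rw [inv_pow, ih, inv_one]
    have hle := h _ hcomm hsq
    have hsub : ({1, a, c} : Set P) ⊆ (Subgroup.closure ({a, c} : Set P) : Set P) := by
      rintro x (rfl | rfl | rfl)
      · exact one_mem _
      · exact Subgroup.subset_closure (by simp)
      · exact Subgroup.subset_closure (by simp)
    have h3 : ({1, a, c} : Set P).ncard = 3 :=
      Set.ncard_eq_three.2 ⟨1, a, c, ha1.symm, hc1.symm, hne, rfl⟩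
    have := Set.ncard_le_ncard hsub
    rw [h3, ← Nat.card_coe_set_eq] at this
    have hle2 : Nat.card ↥((Subgroup.closure ({a, c} : Set P)) : Set P) ≤ 2 ^ 1 := hle
    omega
  intro a b ha hb
  haveI : Nontrivial P := nontrivial_of_ne a 1 fun e => by rw [e, orderOf_one] at ha; norm_num at ha
  haveI := hP.center_nontrivial
  haveI : Fact (Nat.Prime 2) := ⟨Nat.prime_two⟩
  obtain ⟨z, hz⟩ := exists_prime_orderOf_dvd_card' (G := Subgroup.center P) 2 (by
    obtain ⟨k, hk⟩ := IsPGroup.iff_card.1 (hP.to_subgroup (Subgroup.center P))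
    rw [hk]
    exact dvd_pow_self 2 fun h0 => by
      rw [h0, pow_zero] at hk
      exact (Finite.one_lt_card (α := Subgroup.center P)).ne' hk)
  have hz' : orderOf (z : P) = 2 := by rw [Subgroup.orderOf_coe, hz]
  have hzc : ∀ x : P, Commute x (z : P) := fun x => Subgroup.mem_center_iff.1 z.2 x
  exact (key a z ha hz' (hzc a)).trans (key b z hb hz' (hzc b)).symm

theorem isPGroup_of_quaternion_large {R : Subgroup Q} [R.Normal] (hR : IsPGroup 2 R)
    (hC : Subgroup.centralizer (R : Set Q) ≤ R) {m : ℕ} [NeZero m] (hm : 4 ≤ m)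
    (e : R ≃* QuaternionGroup m) : IsPGroup 2 Q := by
  haveI : Fact (Nat.Prime 2) := ⟨Nat.prime_two⟩
  set ι : QuaternionGroup m →* Q := R.subtype.comp e.symm.toMonoidHom with hι
  have hinj : Function.Injective ι := R.subtype_injective.comp e.symm.injective
  have hιR : ∀ g, ι g ∈ R := fun g => (e.symm g).2
  have hsurj : ∀ r ∈ R, ∃ g, ι g = r := fun r hr => ⟨e ⟨r, hr⟩, by simp [hι]⟩
  let X : Subgroup Q := Subgroup.closure {x | x ∈ R ∧ 4 < orderOf x}
  haveI hXn : X.Normal := by
    constructor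
    intro x hx g
    have h1 : X ≤ X.comap (MulAut.conj g).toMonoidHom := by
      rw [Subgroup.closure_le]
      rintro y ⟨hy, hy4⟩
      refine Subgroup.subset_closure ⟨Subgroup.Normal.conj_mem inferInstance _ hy g, ?_⟩
      show 4 < orderOf ((MulAut.conj g).toMonoidHom y)
      rwa [orderOf_injective _ (MulAut.conj g).injective]
    exact h1 hx
  have hXR : X ≤ R := (Subgroup.closure_le R).2 fun x hx => hx.1
  have ha1 : ι (QuaternionGroup.a 1) ∈ X := by
    refine Subgroup.subset_closure ⟨hιR _, ?_⟩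
    rw [orderOf_injective ι hinj, QuaternionGroup.orderOf_a_one]
    omega
  have hXa : X ≤ Subgroup.zpowers (ι (QuaternionGroup.a 1)) := by
    rw [Subgroup.closure_le]
    rintro r ⟨hr, hr4⟩
    obtain ⟨g, rfl⟩ := hsurj r hr
    rcases g with i | j
    · refine ⟨(i.val : ℤ), ?_⟩
      show ι (QuaternionGroup.a 1) ^ (i.val : ℤ) = ι (QuaternionGroup.a i)
      rw [zpow_natCast, ← map_pow, QuaternionGroup.a_one_pow, ZMod.natCast_zmod_val]
    · rw [orderOf_injective ι hinj, QuaternionGroup.orderOf_xa] at hr4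
      omega
  haveI : IsCyclic ↥X := isCyclic_of_injective _ (Subgroup.inclusion_injective hXa)
  have haX : ∀ i, ι (QuaternionGroup.a i) ∈ X := by
    intro i
    rw [← ZMod.natCast_zmod_val i, ← QuaternionGroup.a_one_pow, map_pow]
    exact X.pow_mem ha1 _
  have hidx : ∀ r ∈ R, ∀ r' ∈ R, r ∉ X → r' ∉ X → r⁻¹ * r' ∈ X := by
    intro r hr r' hr' hrX hrX'
    obtain ⟨g, rfl⟩ := hsurj r hr
    obtain ⟨g', rfl⟩ := hsurj r' hr'
    rcases g with i | j1
    · exact absurd (haX i) hrX
    rcases g' with i | j2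
    · exact absurd (haX i) hrX'
    rw [← map_inv, ← map_mul]
    have h2 : (QuaternionGroup.xa j1 : QuaternionGroup m)⁻¹ * QuaternionGroup.xa j2
        = QuaternionGroup.a (j2 - j1) := by
      rw [inv_mul_eq_iff_eq_mul, QuaternionGroup.xa_mul_a]
      congr 1; ring
    rw [h2]
    exact haX _
  have hXp : IsPGroup 2 ↥X := hR.to_le hXR
  have hAutX : IsPGroup 2 (MulAut ↥X) := isPGroup_mulAut_of_isCyclic hXp
  intro y
  have hall : IsPGroup 2 ↥(⊤ : Subgroup Q) := by
    refine CfsgLib.StronglyPEmbedded.isPGroup_of_forall_coprime fun y _ hy => ?_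
    have hyX : ∀ c ∈ X, Commute y c := by
      intro c hc
      obtain ⟨k, hk⟩ := hAutX (MulAut.conjNormal y : MulAut ↥X)
      have h1 : (MulAut.conjNormal y : MulAut ↥X) = 1 :=
        orderOf_eq_one_iff.1 (Nat.eq_one_of_dvd_coprimes
          (Nat.Coprime.pow_right k (hy.coprime_dvd_left (orderOf_map_dvd _ y))) dvd_rfl
          (orderOf_dvd_of_pow_eq_one hk))
      have h2 := congrArg (fun φ : MulAut ↥X => (φ ⟨c, hc⟩ : Q)) h1
      simp only [MulAut.one_apply, MulAut.conjNormal_apply] at h2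
      exact mul_inv_eq_iff_eq_mul.1 h2
    have hyR : ∀ r ∈ R, Commute y r := by
      intro r hr
      by_cases hrX : r ∈ X
      · exact hyX r hrX
      have hr' : y * r * y⁻¹ ∈ R := Subgroup.Normal.conj_mem inferInstance _ hr y
      have hr'X : y * r * y⁻¹ ∉ X := fun h => hrX (by
        have := hXn.conj_mem _ h y⁻¹
        simpa [mul_assoc] using this)
      have hcX := hidx r hr _ hr' hrX hr'X
      obtain ⟨k, hk⟩ := hXp ⟨_, hcX⟩
      exact (CfsgLib.StronglyPEmbedded.commute_of_stable_coprime (p := 2) hy (hyX _ hcX)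
        ⟨k, congrArg Subtype.val hk⟩ (r := r) (by group)).2
    exact CfsgLib.StronglyPEmbedded.eq_one_of_mem_pGroup_of_coprime hR
      (hC (Subgroup.mem_centralizer_iff.2 fun r hr => (hyR r hr).eq.symm)) hy
  obtain ⟨k, hk⟩ := hall ⟨y, Subgroup.mem_top y⟩
  exact ⟨k, congrArg Subtype.val hk⟩

theorem q8_structure (R : Subgroup Q) [R.Normal] (hR : IsPGroup 2 R)
    (hC : Subgroup.centralizer (R : Set Q) ≤ R) (e : R ≃* Q8)
    (hns : ¬ ∃ P : Sylow 2 Q, (P : Subgroup Q).Normal) :
    Nonempty (Q ≃* GL (Fin 2) (ZMod 3)) ∨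
    (Nat.card Q = 48 ∧ Nat.card ↥(Subgroup.center Q) = 2 ∧
      Nonempty (Q ⧸ Subgroup.center Q ≃* Equiv.Perm (Fin 4)) ∧
      ∀ P : Sylow 2 Q, Nonempty (↥(P : Subgroup Q) ≃* QuaternionGroup 4)) := by
  haveI : Fact (Nat.Prime 2) := ⟨Nat.prime_two⟩
  set ι : Q8 →* Q := R.subtype.comp e.symm.toMonoidHom with hι
  have hinj : Function.Injective ι := R.subtype_injective.comp e.symm.injective
  have hιR : ∀ g, ι g ∈ R := fun g => (e.symm g).2
  have hsurj : ∀ r ∈ R, ∃ g, ι g = r := fun r hr => ⟨e ⟨r, hr⟩, by simp [hι]⟩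
  set Φ : Q →* MulAut Q8 := (MulAut.congr e).toMonoidHom.comp MulAut.conjNormal with hΦ
  have hΦa : ∀ (q : Q) (g : Q8), ι (Φ q g) = q * ι g * q⁻¹ := by
    intro q g
    show (R.subtype (e.symm (e (MulAut.conjNormal q (e.symm g))))) = _
    rw [e.symm_apply_apply]
    show ((MulAut.conjNormal q (e.symm g) : R) : Q) = _
    rw [MulAut.conjNormal_apply]
    rfl
  have hΦι : ∀ r : Q8, Φ (ι r) = MulAut.conj r := fun r => MulEquiv.ext fun g => hinj (by
    rw [hΦa, MulAut.conj_apply, map_mul, map_mul, map_inv])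
  have hker : ∀ q : Q, Φ q = 1 ↔ q = 1 ∨ q = ι (QuaternionGroup.a 2) := by
    intro q
    constructor
    · intro hq
      have hqR : q ∈ R := hC (Subgroup.mem_centralizer_iff.2 fun r hr => by
        obtain ⟨g, rfl⟩ := hsurj r hr
        have := hΦa q g
        rw [hq, MulAut.one_apply] at this
        exact (mul_inv_eq_iff_eq_mul.1 this.symm).symm)
      obtain ⟨r, rfl⟩ := hsurj q hqR
      rw [hΦι] at hq
      have h1 : q8psi ⟨r, 1⟩ = 1 := by
        refine MulEquiv.ext fun g => ?_
        rw [q8psi_apply, q8act_one]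
        exact DFunLike.congr_fun hq g
      rcases ((q8psi_eq_one_iff r 1).1 h1).2 with h | h
      · exact Or.inl (by rw [h, map_one])
      · exact Or.inr (by rw [h])
    · rintro (rfl | rfl)
      · exact map_one Φ
      · rw [hΦι]
        refine MulEquiv.ext fun g => ?_
        have := DFunLike.congr_fun ((q8psi_eq_one_iff (QuaternionGroup.a 2) 1).2 ⟨rfl, Or.inr rfl⟩) g
        rw [q8psi_apply, q8act_one] at this
        exact this
  have hdec : ∀ q : Q, ∃ (r : Q8) (h : D3), Φ q = q8psi ⟨r, h⟩ ∧ Φ ((ι r)⁻¹ * q) = q8aut h := by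
    intro q
    obtain ⟨⟨r, h⟩, hrh⟩ := q8psi_surjective (Φ q)
    refine ⟨r, h, hrh.symm, ?_⟩
    rw [map_mul, map_inv, hΦι, ← hrh, inv_mul_eq_iff_eq_mul]
    exact MulEquiv.ext fun g => rfl
  have hpow : ∀ (q : Q) (r : Q8) (h : D3), Φ q = q8psi ⟨r, h⟩ → ∀ (n : ℕ) (g : Q8),
      Φ (q ^ n) g = q8iter r h n g := by
    intro q r h hq n g
    rw [map_pow, hq, q8psi_pow_apply]
  have hqn : ∀ (q : Q) (r : Q8) (h : D3), Φ q = q8psi ⟨r, h⟩ → ∀ n : ℕ,
      (Φ (q ^ n) = 1 ↔ q8iter r h n (QuaternionGroup.a 1) = QuaternionGroup.a 1 ∧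
        q8iter r h n (QuaternionGroup.xa 0) = QuaternionGroup.xa 0) := by
    intro q r h hq n
    constructor
    · intro h1
      exact ⟨(hpow q r h hq n _).symm.trans (DFunLike.congr_fun h1 _),
        (hpow q r h hq n _).symm.trans (DFunLike.congr_fun h1 _)⟩
    · exact fun h1 => q8_aut_ext ((hpow q r h hq n _).trans h1.1) ((hpow q r h hq n _).trans h1.2)
  have hzsq : ι (QuaternionGroup.a 2) * ι (QuaternionGroup.a 2) = 1 := by
    rw [← map_mul, show (QuaternionGroup.a 2 * QuaternionGroup.a 2 : Q8) = 1 from by decide, map_one]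
  have hker2 : ∀ q : Q, Φ q = 1 → q ^ 2 = 1 := fun q hq => by
    rcases (hker q).1 hq with rfl | rfl
    · exact one_pow 2
    · rw [pow_two]; exact hzsq
  -- every reflection and rotation is realised
  have hrefl : ∃ (q : Q) (k : ZMod 3), Φ q = q8aut (DihedralGroup.sr k) := by
    by_contra hcon
    push Not at hcon
    obtain ⟨P⟩ := (Sylow.nonempty : Nonempty (Sylow 2 Q))
    refine hns ⟨P, ?_⟩
    have hPR : (P : Subgroup Q) ≤ R := by
      intro q hq
      obtain ⟨r, h, hqh, hlift⟩ := hdec q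
      rcases h with k | k
      swap
      · exact absurd hlift (hcon _ k)
      obtain ⟨i, hi⟩ := P.2 ⟨q, hq⟩
      have hq1 : q ^ (4 * 3) = 1 ∨ True := Or.inr trivial
      have hk0 : k = 0 := by
        have h2i : Φ (q ^ 2 ^ i) = 1 := by
          rw [show q ^ 2 ^ i = 1 from congrArg Subtype.val hi, map_one]
        have h24 : Φ q ^ 24 = 1 := by
          haveI : Finite (MulAut Q8) := Nat.finite_of_card_ne_zero (by rw [card_mulAut_Q8]; norm_num)
          rw [← card_mulAut_Q8]; exact pow_card_eq_one'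
        have hd8 : Φ q ^ 8 = 1 := by
          rw [map_pow] at h2i
          have hd : orderOf (Φ q) ∣ Nat.gcd 24 (2 ^ i) :=
            Nat.dvd_gcd (orderOf_dvd_of_pow_eq_one h24) (orderOf_dvd_of_pow_eq_one h2i)
          obtain ⟨j, -, hj⟩ := (Nat.dvd_prime_pow Nat.prime_two).1
            (hd.trans (Nat.gcd_dvd_right _ _))
          have hj24 : 2 ^ j ∣ 24 := hj ▸ orderOf_dvd_of_pow_eq_one h24
          have hj3 : j ≤ 3 := by
            by_contra hh
            exact absurd ((pow_dvd_pow 2 (show 4 ≤ j by omega)).trans hj24) (by norm_num)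
          refine orderOf_dvd_iff_pow_eq_one.1 ?_
          rw [hj, show (8 : ℕ) = 2 ^ 3 by norm_num]
          exact pow_dvd_pow 2 hj3
        have h12 : Φ (q ^ 4) = 1 := by
          rw [← map_pow] at hd8
          -- `(q^4)^2` acts trivially; rotations of order dividing 8 have order dividing 4
          exact (hqn q r _ hqh 4).2 (by
            have h8 := (hqn q r _ hqh 8).1 hd8
            exact (by decide +kernel : ∀ (r : Q8) (k : ZMod 3),
              q8iter r (DihedralGroup.r k) 8 (QuaternionGroup.a 1) = QuaternionGroup.a 1 ∧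
              q8iter r (DihedralGroup.r k) 8 (QuaternionGroup.xa 0) = QuaternionGroup.xa 0 →
              q8iter r (DihedralGroup.r k) 4 (QuaternionGroup.a 1) = QuaternionGroup.a 1 ∧
              q8iter r (DihedralGroup.r k) 4 (QuaternionGroup.xa 0) = QuaternionGroup.xa 0) r k h8)
        exact q8_exp_four_rot r k ((hqn q r _ hqh 4).1 h12).1 ((hqn q r _ hqh 4).1 h12).2
      subst hk0
      rw [show (DihedralGroup.r 0 : D3) = 1 from rfl, map_one, hker] at hlift
      have : (ι r)⁻¹ * q ∈ R := by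
        rcases hlift with h' | h' <;> rw [h']
        · exact one_mem R
        · exact hιR _
      simpa using R.mul_mem (hιR r) this
    rw [show (P : Subgroup Q) = R from (P.3 hR hPR).symm]
    infer_instance
  have hrot : ∃ q : Q, Φ q = q8aut (DihedralGroup.r 1) := by
    by_contra hcon
    push Not at hcon
    have hall2 : IsPGroup 2 Q := by
      by_cases hex : ∃ k, ∃ q, Φ q = q8aut (DihedralGroup.r k) ∧ k ≠ 0
      · exfalso
        obtain ⟨k, q, hq, hk⟩ := hex
        rcases (by decide : ∀ k : ZMod 3, k ≠ 0 → k = 1 ∨ k = 2) k hk with rfl | rfl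
        · exact hcon q hq
        · exact hcon (q ^ 2) (by rw [map_pow, hq, ← map_pow]; exact congrArg q8aut (by decide))
      push Not at hex
      intro q
      refine ⟨3, ?_⟩
      obtain ⟨r, h, hqh, hlift⟩ := hdec q
      have h4 : Φ (q ^ 4) = 1 := by
        rw [hqn q r h hqh]
        rcases h with k | k
        · rw [hex k _ hlift]; exact q8_exp_four r 0 _ (Or.inl rfl)
        · exact q8_exp_four r k _ (Or.inr rfl)
      rw [show 2 ^ 3 = 4 * 2 by norm_num, pow_mul]
      exact hker2 _ h4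
    obtain ⟨P⟩ := (Sylow.nonempty : Nonempty (Sylow 2 Q))
    exact hns ⟨P, by rw [← P.3 (hall2.to_subgroup ⊤) le_top]; infer_instance⟩
  obtain ⟨y0, hy0⟩ := hrot
  have hzc : ∀ q : Q, q * ι (QuaternionGroup.a 2) = ι (QuaternionGroup.a 2) * q := by
    intro q
    have h1 : Φ (q * ι (QuaternionGroup.a 2) * q⁻¹) = 1 := by
      rw [map_mul, map_mul, (hker _).2 (Or.inr rfl), mul_one, map_inv, mul_inv_cancel]
    rcases (hker _).1 h1 with h | h
    · rw [conj_eq_one_iff, ← map_one ι] at h
      exact absurd (hinj h) (by decide)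
    · exact mul_inv_eq_iff_eq_mul.1 h
  have hΦz : Φ (ι (QuaternionGroup.a 2)) = 1 := (hker _).2 (Or.inr rfl)
  obtain ⟨y, hy, hy3⟩ : ∃ y : Q, Φ y = q8aut (DihedralGroup.r 1) ∧ y ^ 3 = 1 := by
    have h3 : Φ (y0 ^ 3) = 1 := by
      rw [map_pow, hy0, ← map_pow, DihedralGroup.r_one_pow_n, map_one]
    rcases (hker _).1 h3 with h | h
    · exact ⟨y0, hy0, h⟩
    · refine ⟨y0 * ι (QuaternionGroup.a 2), by rw [map_mul, hΦz, mul_one, hy0], ?_⟩
      rw [(show Commute y0 (ι (QuaternionGroup.a 2)) from hzc y0).mul_pow, h, ← map_pow, ← map_mul,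
        show (QuaternionGroup.a 2 * QuaternionGroup.a 2 ^ 3 : Q8) = 1 from by decide, map_one]
  obtain ⟨q1, k1, hq1⟩ := hrefl
  obtain ⟨t, ht⟩ : ∃ t : Q, Φ t = q8aut (DihedralGroup.sr 0) := by
    refine ⟨q1 * (y ^ k1.val)⁻¹, ?_⟩
    rw [map_mul, map_inv, map_pow, hq1, hy, ← map_pow, ← map_inv, ← map_mul]
    exact congrArg q8aut ((by decide : ∀ k : ZMod 3,
      DihedralGroup.sr k * (DihedralGroup.r 1 ^ k.val)⁻¹ = (DihedralGroup.sr 0 : D3)) k1)
  have ht2 : t ^ 2 = 1 ∨ t ^ 2 = ι (QuaternionGroup.a 2) := (hker _).1 (by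
    rw [map_pow, ht, ← map_pow, show (DihedralGroup.sr 0 : D3) ^ 2 = 1 from by decide, map_one])
  have hty : t * y * t⁻¹ = y⁻¹ := by
    have h1 : Φ (t * y * t⁻¹ * y) = 1 := by
      rw [map_mul, map_mul, map_mul, map_inv, ht, hy, ← map_inv, ← map_mul, ← map_mul, ← map_mul,
        ← map_one q8aut]
      exact congrArg q8aut (by decide)
    rcases (hker _).1 h1 with h | h
    · exact eq_inv_of_mul_eq_one_left h
    · exfalso
      have h2 : t * y * t⁻¹ = ι (QuaternionGroup.a 2) * y⁻¹ := eq_mul_inv_of_mul_eq h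
      have h3 : (t * y * t⁻¹) ^ 3 = 1 := by rw [conj_pow, hy3, mul_one, mul_inv_cancel]
      rw [h2, (show Commute (ι (QuaternionGroup.a 2)) y⁻¹ from (hzc y⁻¹).symm).mul_pow, inv_pow,
        hy3, inv_one, mul_one, ← map_pow, ← map_one ι] at h3
      exact absurd (hinj h3) (by decide)
  have hy3' : y ^ 3 = 1 := hy3
  have hΦy : ∀ k : ZMod 3, Φ (y ^ k.val) = q8aut (DihedralGroup.r k) := fun k => by
    rw [map_pow, hy, ← map_pow, DihedralGroup.r_one_pow, ZMod.natCast_zmod_val]
  have hΦty : ∀ k : ZMod 3, Φ (t * y ^ k.val) = q8aut (DihedralGroup.sr k) := fun k => by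
    rw [map_mul, hΦy, ht, ← map_mul, DihedralGroup.sr_mul_r, zero_add]
  have hcover : ∀ q : Q, ∃ (r : Q8) (k : ZMod 3), q = ι r * y ^ k.val ∨ q = ι r * (t * y ^ k.val) := by
    intro q
    obtain ⟨r, h, -, hlift⟩ := hdec q
    rcases h with k | k
    · have h1 : Φ (((ι r)⁻¹ * q) * (y ^ k.val)⁻¹) = 1 := by
        rw [map_mul, hlift, map_inv, hΦy, mul_inv_cancel]
      rcases (hker _).1 h1 with h' | h'
      · exact ⟨r, k, Or.inl (by rw [mul_inv_eq_one] at h'; rw [← h', mul_inv_cancel_left])⟩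
      · refine ⟨r * QuaternionGroup.a 2, k, Or.inl ?_⟩
        rw [map_mul, mul_assoc, ← h', inv_mul_cancel_right, mul_inv_cancel_left]
    · have h1 : Φ (((ι r)⁻¹ * q) * (t * y ^ k.val)⁻¹) = 1 := by
        rw [map_mul, hlift, map_inv, hΦty, mul_inv_cancel]
      rcases (hker _).1 h1 with h' | h'
      · exact ⟨r, k, Or.inr (by rw [mul_inv_eq_one] at h'; rw [← h', mul_inv_cancel_left])⟩
      · refine ⟨r * QuaternionGroup.a 2, k, Or.inr ?_⟩
        rw [map_mul, mul_assoc, ← h', inv_mul_cancel_right, mul_inv_cancel_left]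
  haveI : Finite (MulAut Q8) := Nat.finite_of_card_ne_zero (by rw [card_mulAut_Q8]; norm_num)
  have hΦsurj : Function.Surjective Φ := by
    intro φ
    obtain ⟨⟨r, h⟩, rfl⟩ := q8psi_surjective φ
    rcases h with k | k
    · exact ⟨ι r * y ^ k.val, by rw [map_mul, hΦι, hΦy]; exact MulEquiv.ext fun g => rfl⟩
    · exact ⟨ι r * (t * y ^ k.val), by rw [map_mul, hΦι, hΦty]; exact MulEquiv.ext fun g => rfl⟩
  have hkcard : Nat.card Φ.ker = 2 := by
    have hs : (Φ.ker : Set Q) = {1, ι (QuaternionGroup.a 2)} := by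
      ext q
      simp only [SetLike.mem_coe, MonoidHom.mem_ker, hker, Set.mem_insert_iff, Set.mem_singleton_iff]
    rw [show Nat.card Φ.ker = Nat.card (Φ.ker : Set Q) from rfl, Nat.card_coe_set_eq, hs,
      Set.ncard_pair]
    intro h
    rw [← map_one ι] at h
    exact absurd (hinj h) (by decide)
  have h48 : Nat.card Q = 48 := by
    rw [← Φ.ker.card_mul_index, hkcard, Subgroup.index_ker, MonoidHom.range_eq_top.2 hΦsurj,
      Subgroup.card_top, card_mulAut_Q8]
  rcases ht2 with ht2 | ht2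
  · -- split case
    left
    let f2 : D3 → Q := fun
      | DihedralGroup.r k => y ^ k.val
      | DihedralGroup.sr k => t * y ^ k.val
    have hyt : ∀ k : ZMod 3, y ^ k.val * t = t * y ^ (-k).val := by
      intro k
      rw [CfsgLib.TwoGroups.pow_val_neg hy3', CfsgLib.TwoGroups.pow_mul_comm_of_conj_eq_inv hty]
    have hf2 : ∀ a b : D3, f2 (a * b) = f2 a * f2 b := by
      rintro (i | i) (j | j)
      · rw [DihedralGroup.r_mul_r]; exact CfsgLib.TwoGroups.pow_val_add hy3' i j
      · rw [DihedralGroup.r_mul_sr]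
        show t * y ^ (j - i).val = y ^ i.val * (t * y ^ j.val)
        rw [← mul_assoc, hyt, mul_assoc, ← CfsgLib.TwoGroups.pow_val_add hy3', neg_add_eq_sub]
      · rw [DihedralGroup.sr_mul_r]
        show t * y ^ (i + j).val = t * y ^ i.val * y ^ j.val
        rw [mul_assoc, ← CfsgLib.TwoGroups.pow_val_add hy3']
      · rw [DihedralGroup.sr_mul_sr]
        show y ^ (j - i).val = t * y ^ i.val * (t * y ^ j.val)
        rw [mul_assoc, ← mul_assoc (y ^ i.val), hyt, mul_assoc,
          ← CfsgLib.TwoGroups.pow_val_add hy3', neg_add_eq_sub, ← mul_assoc, ← pow_two, ht2, one_mul]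
    have hΦf2 : ∀ h : D3, Φ (f2 h) = q8aut h := by
      rintro (k | k)
      · exact hΦy k
      · exact hΦty k
    let F : Q8D3 →* Q := SemidirectProduct.lift ι (MonoidHom.mk' f2 hf2) (fun h =>
      MonoidHom.ext fun r => by
        show ι (q8aut h r) = f2 h * ι r * (f2 h)⁻¹
        rw [← hΦa, hΦf2])
    have hFs : Function.Surjective F := by
      intro q
      obtain ⟨r, k, hq | hq⟩ := hcover q
      · exact ⟨⟨r, DihedralGroup.r k⟩, hq.symm⟩
      · exact ⟨⟨r, DihedralGroup.sr k⟩, hq.symm⟩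
    obtain ⟨eGL⟩ := nonempty_Q8D3_equiv_GL
    haveI : Finite Q8D3 := Nat.finite_of_card_ne_zero (by rw [card_Q8D3]; norm_num)
    exact ⟨(MulEquiv.ofBijective F ((Nat.bijective_iff_surjective_and_card F).2
      ⟨hFs, by rw [card_Q8D3, h48]⟩)).symm.trans eGL⟩
  · -- binary octahedral case
    right
    have hcenter : Subgroup.center Q = Φ.ker := by
      apply le_antisymm
      · intro q hq
        refine MonoidHom.mem_ker.2 (MulEquiv.ext fun g => hinj ?_)
        rw [hΦa, MulAut.one_apply, ← Subgroup.mem_center_iff.1 hq (ι g), mul_inv_cancel_right]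
      · intro q hq
        rcases (hker q).1 (MonoidHom.mem_ker.1 hq) with rfl | rfl
        · exact one_mem _
        · exact Subgroup.mem_center_iff.2 hzc
    refine ⟨h48, by rw [hcenter, hkcard], ?_, ?_⟩
    · apply CfsgLib.SmallGroups.nonempty_mulEquiv_perm_four
      · have h := (Subgroup.center Q).card_mul_index
        rw [h48, hcenter, hkcard, ← hcenter, Subgroup.index_eq_card] at h
        omega
      · intro g hg
        obtain ⟨q, rfl⟩ := QuotientGroup.mk_surjective g
        have hqpow : ∀ n : ℕ, (q : Q ⧸ Subgroup.center Q) ^ n = 1 ↔ Φ (q ^ n) = 1 := fun n => by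
          rw [← QuotientGroup.mk_pow, QuotientGroup.eq_one_iff, hcenter, MonoidHom.mem_ker]
        obtain ⟨r, h, hqh, -⟩ := hdec q
        have h6 := (hqpow 6).1 (by rw [← hg]; exact pow_orderOf_eq_one _)
        obtain ⟨ha, hb⟩ := (hqn q r h hqh 6).1 h6
        rcases q8_no_six r h ha hb with hc | hc
        · have := orderOf_dvd_of_pow_eq_one ((hqpow 2).2 ((hqn q r h hqh 2).2 hc))
          rw [hg] at this
          norm_num at this
        · have := orderOf_dvd_of_pow_eq_one ((hqpow 3).2 ((hqn q r h hqh 3).2 hc))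
          rw [hg] at this
          norm_num at this
    · intro P
      have hRP : R ≤ (P : Subgroup Q) := by
        exact (CfsgLib.Cores.le_pCore hR).trans (CfsgLib.Cores.pCore_le_sylow P)
      have hinv : ∀ q : Q, orderOf q = 2 → q = ι (QuaternionGroup.a 2) := by
        intro q hq
        have hq2 : q ^ 2 = 1 := by rw [← hq]; exact pow_orderOf_eq_one q
        have hq1 : q ≠ 1 := fun e => by rw [e, orderOf_one] at hq; norm_num at hq
        obtain ⟨r, k, h | h⟩ := hcover q
        · have hk : k = 0 := by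
            have h1 : Φ q = q8psi ⟨r, DihedralGroup.r k⟩ := by
              rw [h, map_mul, hΦι, hΦy]; exact MulEquiv.ext fun g => rfl
            exact q8_exp_four_rot r k
              ((hqn q r _ h1 4).1 (by rw [show q ^ 4 = (q ^ 2) ^ 2 by rw [← pow_mul], hq2, one_pow, map_one])).1
              ((hqn q r _ h1 4).1 (by rw [show q ^ 4 = (q ^ 2) ^ 2 by rw [← pow_mul], hq2, one_pow, map_one])).2
          rw [hk, ZMod.val_zero, pow_zero, mul_one] at h
          rw [h] at hq2 hq1 ⊢
          rw [← map_pow, ← map_one ι] at hq2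
          rcases (by decide : ∀ r : Q8, r ^ 2 = 1 → r = 1 ∨ r = QuaternionGroup.a 2) r (hinj hq2)
            with rfl | rfl
          · exact absurd (map_one ι) hq1
          · rfl
        · exfalso
          have hconj : (t * y ^ k.val) * ι r * (t * y ^ k.val)⁻¹
              = ι (q8act (DihedralGroup.sr k) r) := by
            rw [← hΦa, hΦty]; rfl
          have hsq : (t * y ^ k.val) ^ 2 = ι (QuaternionGroup.a 2) := by
            rw [pow_two, mul_assoc, ← mul_assoc (y ^ k.val),
              CfsgLib.TwoGroups.pow_mul_comm_of_conj_eq_inv hty, mul_assoc, inv_mul_cancel, mul_one,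
              ← pow_two, ht2]
          have : q ^ 2 = ι (r * q8act (DihedralGroup.sr k) r * QuaternionGroup.a 2) := by
            rw [h, map_mul, map_mul, ← hconj, ← hsq]; simp only [pow_two]; group
          rw [hq2, ← map_one ι] at this
          exact q8_no_involution r k (hinj this.symm)
      have hu : CfsgLib.TwoGroups.UniqueOrderP 2 ↥(P : Subgroup Q) := by
        rw [CfsgLib.TwoGroups.uniqueOrderP_iff_unique_involution]
        intro a b ha hb
        apply Subtype.ext
        rw [hinv a (by rw [Subgroup.orderOf_coe, ha]), hinv b (by rw [Subgroup.orderOf_coe, hb])]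
      have hP16 : Nat.card ↥(P : Subgroup Q) = 16 := by
        rw [P.card_eq_multiplicity, h48]
        have : (48 : ℕ).factorization 2 = 4 := by
          rw [show (48 : ℕ) = 2 ^ 4 * 3 from rfl, Nat.factorization_mul (by norm_num) (by norm_num),
            Nat.factorization_pow, Finsupp.add_apply, Finsupp.smul_apply,
            Nat.Prime.factorization Nat.prime_two, Nat.Prime.factorization Nat.prime_three,
            Finsupp.single_eq_same, Finsupp.single_eq_of_ne (by norm_num : (2 : ℕ) ≠ 3)]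
          rfl
        rw [this]; norm_num
      rcases CfsgLib.TwoGroups.isCyclic_or_quaternion P.2 hu with hc | ⟨-, m, -, ⟨em⟩⟩
      · exfalso
        haveI := hc
        have h := congrArg Subtype.val ((IsCyclic.commGroup (α := ↥(P : Subgroup Q))).mul_comm
          ⟨_, hRP (hιR (QuaternionGroup.a 1))⟩ ⟨_, hRP (hιR (QuaternionGroup.xa 0))⟩)
        change ι _ * ι _ = ι _ * ι _ at h
        rw [← map_mul, ← map_mul] at h
        exact absurd (hinj h) (by decide)
      · haveI : NeZero (2 ^ m) := ⟨by positivity⟩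
        have hm : 2 ^ m = 4 := by
          have := (Nat.card_congr em.toEquiv).symm
          rw [Nat.card_eq_fintype_card, QuaternionGroup.card, hP16] at this
          omega
        rw [hm] at em
        exact ⟨em⟩

/-- Let G be a finite solvable group in which the intersection of any two distinct Sylow 2-subgroups has 2-rank at most 1 (contains no Klein four-group). Write Q = G/O(G), O(G) the largest normal subgroup of odd order. Then Q has a normal Sylow 2-subgroup; or Q is isomorphic to GL(2,3); or Q has order 48, centre of order 2 with central quotient isomorphic to the symmetric group of degree 4, and generalized quaternion Sylow 2-subgroups of order 16 (the binary octahedral group). The last two are the two representation groups of the symmetric group of degree 4. -/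
theorem result {G : Type*} [Group G] [Finite G] (hs : Group.IsSolvable G)
    (hI : ∀ S T : Sylow 2 G, S ≠ T → Cfsg.PRankLE 2 1 ↥((S : Subgroup G) ⊓ (T : Subgroup G))) :
    (∃ P : Sylow 2 (G ⧸ Cfsg.oddCore G), (P : Subgroup (G ⧸ Cfsg.oddCore G)).Normal) ∨
    Nonempty ((G ⧸ Cfsg.oddCore G) ≃* GL (Fin 2) (ZMod 3)) ∨
    (Nat.card (G ⧸ Cfsg.oddCore G) = 48 ∧ Nat.card ↥(Subgroup.center (G ⧸ Cfsg.oddCore G)) = 2 ∧
      Nonempty ((G ⧸ Cfsg.oddCore G) ⧸ Subgroup.center (G ⧸ Cfsg.oddCore G) ≃* Equiv.Perm (Fin 4)) ∧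
      ∀ P : Sylow 2 (G ⧸ Cfsg.oddCore G), Nonempty (↥(P : Subgroup (G ⧸ Cfsg.oddCore G)) ≃* QuaternionGroup 4)) := by
  haveI : Fact (Nat.Prime 2) := ⟨Nat.prime_two⟩
  by_cases hn : ∃ P : Sylow 2 (G ⧸ Cfsg.oddCore G), (P : Subgroup (G ⧸ Cfsg.oddCore G)).Normal
  · exact Or.inl hn
  refine Or.inr ?_
  obtain ⟨S⟩ := (Sylow.nonempty : Nonempty (Sylow 2 (G ⧸ Cfsg.oddCore G)))
  obtain ⟨T, hT⟩ : ∃ T : Sylow 2 (G ⧸ Cfsg.oddCore G), T ≠ S := by
    by_contra hall
    push Not at hall
    haveI : Subsingleton (Sylow 2 (G ⧸ Cfsg.oddCore G)) := ⟨fun a b => (hall a).trans (hall b).symm⟩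
    exact hn ⟨S, S.normal_of_subsingleton⟩
  set R := Cfsg.pCore 2 (G ⧸ Cfsg.oddCore G) with hRdef
  have hR : IsPGroup 2 ↥R := CfsgLib.Cores.isPGroup_pCore 2 _
  have hC : Subgroup.centralizer (R : Set (G ⧸ Cfsg.oddCore G)) ≤ R :=
    centralizer_pCore_le_of_solvable (CfsgLib.Cores.pPrimeCore_quotient_pPrimeCore 2)
  have hr1 : Cfsg.PRankLE 2 1 ↥R := by
    intro A hA hA2
    have hle : R ≤ (T : Subgroup _) ⊓ (S : Subgroup _) :=
      le_inf (CfsgLib.Cores.pCore_le_sylow T) (CfsgLib.Cores.pCore_le_sylow S)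
    have h := pRankLE_inf_sylow_quotient hI (Cfsg.oddCore G)
      (CfsgLib.Cores.card_pPrimeCore_coprime 2) T S hT (A.map (Subgroup.inclusion hle))
      (Subgroup.map_isMulCommutative A _)
      (by rintro _ ⟨a, ha, rfl⟩; rw [← map_pow, hA2 a ha, map_one])
    rwa [Subgroup.card_map_of_injective (Subgroup.inclusion_injective hle)] at h
  have hnot2 : ¬ IsPGroup 2 (G ⧸ Cfsg.oddCore G) := fun h =>
    hn ⟨S, by rw [← S.3 (h.to_subgroup ⊤) le_top]; infer_instance⟩
  rcases CfsgLib.TwoGroups.isCyclic_or_quaternion hR (uniqueOrderP_of_pRankLE hR hr1) with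
    hc | ⟨-, m, hm, ⟨e⟩⟩
  · exact absurd (isPGroup_of_centralizer_le hR hC (isPGroup_mulAut_of_isCyclic hR)) hnot2
  · haveI : NeZero (2 ^ m) := ⟨by positivity⟩
    rcases Nat.lt_or_ge m 2 with h2 | h2
    · obtain rfl : m = 1 := by omega
      exact q8_structure R hR hC e hn
    · exact absurd (isPGroup_of_quaternion_large hR hC
        (le_trans (by norm_num) (Nat.pow_le_pow_right (by norm_num : 0 < 2) h2)) e) hnot2

end Cfsg.Agent.S3304
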