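import Cfsg.Statements.S3309
import Cfsg.Agent.Lib.SectRank.Transfer
-- import your own Cfsg.Agent.* helpers here

set_option autoImplicit false
set_option synthInstance.maxSize 2000
open Cfsg

namespace Cfsg.Agent.S3309

variable {G : Type*} [Group G] [Finite G]

/-- An element of `N(S)` has an odd power in `S`. -/
theorem exists_odd_pow_mem (S : Sylow 2 G) (n : G)
    (hn : n ∈ Subgroup.normalizer ((S : Subgroup G) : Set G)) :
    ∃ k : ℕ, n ^ (2 * k + 1) ∈ (S : Subgroup G) := by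
  haveI : Fact (Nat.Prime 2) := ⟨Nat.prime_two⟩
  obtain ⟨i, m, hm, ho⟩ := Nat.exists_eq_pow_mul_and_not_dvd (orderOf_pos n).ne' 2 (by norm_num)
  obtain ⟨k, hk⟩ : ∃ k, m = 2 * k + 1 := ⟨m / 2, by omega⟩
  refine ⟨k, ?_⟩
  rw [← hk]
  have hp : IsPGroup 2 (Subgroup.zpowers (n ^ m)) := by
    refine IsPGroup.iff_orderOf.2 fun x => ?_
    have hd : orderOf (x : G) ∣ 2 ^ i := by
      refine (Subgroup.orderOf_dvd_natCard _ x.2).trans ?_
      rw [Nat.card_zpowers, orderOf_dvd_iff_pow_eq_one, ← pow_mul, mul_comm m, ← ho]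
      exact pow_orderOf_eq_one n
    obtain ⟨j, _, hj⟩ := (Nat.dvd_prime_pow Nat.prime_two).1 hd
    exact ⟨j, by rw [← hj, Subgroup.orderOf_coe]⟩
  have h := (hp.inf_normalizer_sylow S)
  exact (h.le (Subgroup.mem_inf.2 ⟨Subgroup.mem_zpowers _, pow_mem hn m⟩)).2

/-- Burnside with a two-element orbit: two central elements of `S` swapped by a normalizer
element are equal. -/
theorem not_swap (S : Sylow 2 G) (x y : G) (hx : ∀ s ∈ (S : Subgroup G), s * x * s⁻¹ = x)
    (n : G) (hn : n ∈ Subgroup.normalizer ((S : Subgroup G) : Set G))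
    (h1 : n * x * n⁻¹ = y) (h2 : n * y * n⁻¹ = x) : x = y := by
  obtain ⟨k, hk⟩ := exists_odd_pow_mem S n hn
  have h : ∀ j : ℕ, n ^ (2 * j) * x * (n ^ (2 * j))⁻¹ = x := by
    intro j
    induction j with
    | zero => simp
    | succ j ih =>
      have e : n ^ (2 * (j + 1)) * x * (n ^ (2 * (j + 1)))⁻¹
          = n * (n * (n ^ (2 * j) * x * (n ^ (2 * j))⁻¹) * n⁻¹) * n⁻¹ := by
        rw [show 2 * (j + 1) = 2 * j + 1 + 1 by ring, pow_succ' n, pow_succ' n]; group
      rw [e, ih, h1, h2]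
  have h3 := hx _ hk
  rw [pow_succ'] at h3
  calc x = n * n ^ (2 * k) * x * (n * n ^ (2 * k))⁻¹ := h3.symm
    _ = n * (n ^ (2 * k) * x * (n ^ (2 * k))⁻¹) * n⁻¹ := by group
    _ = y := by rw [h k, h1]

/-- Key fusion step. -/
theorem fusion_absurd (S : Sylow 2 G) (E E' : Subgroup G) (a z b : G)
    (hES : E ≤ (S : Subgroup G))
    (hSE' : (S : Subgroup G) ≤ Subgroup.normalizer (E' : Set G))
    (hSE : (S : Subgroup G) ≤ Subgroup.normalizer (E : Set G))
    (hEcard : Nat.card E' = Nat.card E) (hEE' : E ≠ E')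
    (hmax : ∀ A : Subgroup G, A ≤ (S : Subgroup G) → IsMulCommutative A →
      (∀ x ∈ A, x ^ 2 = 1) → A ≤ E ∨ A ≤ E')
    (hEcomm : IsMulCommutative E) (hEsq : ∀ x ∈ E, x ^ 2 = 1)
    (haS : ∀ s ∈ (S : Subgroup G), s * a = a * s)
    (ha : a ∈ E) (hz : z ∈ E) (hb : b ∈ E)
    (hEmem : ∀ x ∈ E, x ≠ 1 → x = a ∨ x = z ∨ x = a * z ∨ IsConj a x)
    (hza : ¬ IsConj a z) (hzw : ¬ IsConj z (a * z)) (haw : ¬ IsConj a (a * z))
    (hz1 : z ≠ 1) (hz2 : a * z ≠ 1)
    (hba : IsConj a b) (hne : a ≠ b) : False := by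
  haveI : Fact (Nat.Prime 2) := ⟨Nat.prime_two⟩
  obtain ⟨g0, hg0⟩ := isConj_iff.1 hba.symm
  set C := Subgroup.centralizer ({a} : Set G) with hC
  have hSC : (S : Subgroup G) ≤ C := fun s hs => by
    rw [hC, Subgroup.mem_centralizer_singleton_iff]; exact haS s hs
  set F := E.map (MulAut.conj g0).toMonoidHom with hF
  have hFC : F ≤ C := by
    rintro _ ⟨x, hx, rfl⟩
    rw [hC, Subgroup.mem_centralizer_singleton_iff]
    show g0 * x * g0⁻¹ * a = a * (g0 * x * g0⁻¹)
    rw [← hg0]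
    have h : x * b = b * x := congrArg Subtype.val (mul_comm' (⟨x, hx⟩ : E) ⟨b, hb⟩)
    calc g0 * x * g0⁻¹ * (g0 * b * g0⁻¹) = g0 * (x * b) * g0⁻¹ := by group
      _ = g0 * (b * x) * g0⁻¹ := by rw [h]
      _ = _ := by group
  have hFp : IsPGroup 2 (F.subgroupOf C) :=
    ((S.2.to_le hES).map _).of_equiv (Subgroup.subgroupOfEquivOfLe hFC).symm
  obtain ⟨Q, hQ⟩ := hFp.exists_le_sylow
  obtain ⟨h, hh⟩ := MulAction.exists_smul_eq C Q (S.subtype hSC)
  set g := (h : G) * g0 with hg
  have hga : g * b * g⁻¹ = a := by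
    have hc := Subgroup.mem_centralizer_singleton_iff.1 h.2
    calc g * b * g⁻¹ = (h : G) * (g0 * b * g0⁻¹) * (h : G)⁻¹ := by rw [hg]; group
      _ = a := by rw [hg0, hc]; group
  have hgS : ∀ x ∈ E, g * x * g⁻¹ ∈ (S : Subgroup G) := by
    intro x hx
    have h1 : g0 * x * g0⁻¹ ∈ F := ⟨x, hx, rfl⟩
    have h3 : h * ⟨g0 * x * g0⁻¹, hFC h1⟩ * h⁻¹ ∈ ((h • Q : Sylow 2 C) : Subgroup C) :=
      ⟨⟨g0 * x * g0⁻¹, hFC h1⟩, hQ h1, rfl⟩
    rw [hh] at h3
    have h4 : (h : G) * (g0 * x * g0⁻¹) * (h : G)⁻¹ ∈ (S : Subgroup G) := h3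
    have e : g * x * g⁻¹ = (h : G) * (g0 * x * g0⁻¹) * (h : G)⁻¹ := by rw [hg]; group
    rwa [e]
  have hle : E.map (MulAut.conj g).toMonoidHom ≤ (S : Subgroup G) := by
    rintro _ ⟨x, hx, rfl⟩; exact hgS x hx
  have hgE : ∀ x ∈ E, g * x * g⁻¹ ∈ E := by
    rcases hmax _ hle (Subgroup.map_isMulCommutative E _)
      (by rintro _ ⟨x, hx, rfl⟩; rw [← map_pow, hEsq x hx, map_one]) with h1 | h1
    · exact fun x hx => h1 ⟨x, hx, rfl⟩
    · exfalso
      have heq : E.map (MulAut.conj g).toMonoidHom = E' :=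
        Subgroup.eq_of_le_of_card_ge h1
          (by rw [hEcard, Subgroup.card_map_of_injective (MulAut.conj g).injective])
      set N := Subgroup.normalizer (E' : Set G) with hN
      have hSN2 : ((g • S : Sylow 2 G) : Subgroup G) ≤ N := by
        rintro _ ⟨s, hs, rfl⟩
        show g * s * g⁻¹ ∈ N
        rw [hN, Subgroup.mem_normalizer_iff]
        intro y
        rw [← heq]
        have hs' := Subgroup.mem_normalizer_iff.1 (hSE hs) (g⁻¹ * y * g)
        simp only [Subgroup.mem_map, MulEquiv.coe_toMonoidHom, MulAut.conj_apply]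
        constructor
        · rintro ⟨x, hx, rfl⟩
          exact ⟨s * x * s⁻¹, (Subgroup.mem_normalizer_iff.1 (hSE hs) x).1 hx, by group⟩
        · rintro ⟨x, hx, hxy⟩
          refine ⟨g⁻¹ * y * g, hs'.2 ?_, by group⟩
          have : s * (g⁻¹ * y * g) * s⁻¹ = x := by
            rw [show s * (g⁻¹ * y * g) * s⁻¹ = g⁻¹ * (g * s * g⁻¹ * y * (g * s * g⁻¹)⁻¹) * g by
              group, ← hxy]
            group
          rwa [this]
      obtain ⟨k, hk⟩ := MulAction.exists_smul_eq N ((g • S).subtype hSN2) (S.subtype hSE')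
      have hkS : ((k : G) * g) • S = S := by
        rw [mul_smul]
        rw [Sylow.smul_subtype hSN2 k] at hk
        exact Sylow.subtype_injective hk
      set n := (k : G) * g with hn
      have hnN : n ∈ Subgroup.normalizer ((S : Subgroup G) : Set G) := Sylow.smul_eq_iff_mem_normalizer.1 hkS
      have hmapE : ∀ x, x ∈ E ↔ n * x * n⁻¹ ∈ E' := by
        intro x
        have e : n * x * n⁻¹ = (k : G) * (g * x * g⁻¹) * (k : G)⁻¹ := by rw [hn]; group
        rw [e, ← Subgroup.mem_normalizer_iff.1 k.2, ← heq]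
        exact (Subgroup.mem_map_iff_mem (MulAut.conj g).injective).symm
      obtain ⟨j, hj⟩ := exists_odd_pow_mem S n hnN
      have hnS : ∀ A : Subgroup G, A ≤ (S : Subgroup G) →
          A.map (MulAut.conj n).toMonoidHom ≤ (S : Subgroup G) := by
        rintro A hA _ ⟨x, hx, rfl⟩
        exact (Subgroup.mem_normalizer_iff.1 hnN x).1 (hA hx)
      have hE'S : E' ≤ (S : Subgroup G) := heq ▸ hle
      have hswap : ∀ x, x ∈ E' → n * x * n⁻¹ ∈ E := by
        have hEq2 : ∀ x, x ∈ E' → n⁻¹ * x * n ∈ E := fun x hx => by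
          rw [hmapE]
          have e : n * (n⁻¹ * x * n) * n⁻¹ = x := by group
          rwa [e]
        haveI : IsMulCommutative E' := heq ▸ Subgroup.map_isMulCommutative E _
        have hsq' : ∀ x ∈ E', x ^ 2 = 1 := fun x hx => by
          have := hEsq _ (hEq2 x hx)
          calc x ^ 2 = n * (n⁻¹ * x * n) ^ 2 * n⁻¹ := by rw [← conj_pow]; group
            _ = 1 := by rw [this]; group
        rcases hmax (E'.map (MulAut.conj n).toMonoidHom) (hnS _ hE'S)
          (Subgroup.map_isMulCommutative E' _)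
          (by rintro _ ⟨x, hx, rfl⟩; rw [← map_pow, hsq' x hx, map_one]) with h2 | h2
        · exact fun x hx => h2 ⟨x, hx, rfl⟩
        · exfalso
          apply hEE'
          apply Subgroup.eq_of_le_of_card_ge _ hEcard.le
          intro x hx
          have h5 : n * x * n⁻¹ ∈ E'.map (MulAut.conj n).toMonoidHom := by
            rw [Subgroup.eq_of_le_of_card_ge h2
              (by rw [Subgroup.card_map_of_injective (MulAut.conj n).injective])]
            exact (hmapE x).1 hx
          exact (Subgroup.mem_map_iff_mem (MulAut.conj n).injective).1 h5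
      have hev : ∀ (i : ℕ) (x : G), x ∈ E → n ^ (2 * i) * x * (n ^ (2 * i))⁻¹ ∈ E := by
        intro i
        induction i with
        | zero => intro x hx; simpa using hx
        | succ i ih =>
          intro x hx
          have e : n ^ (2 * (i + 1)) * x * (n ^ (2 * (i + 1)))⁻¹
              = n * (n * (n ^ (2 * i) * x * (n ^ (2 * i))⁻¹) * n⁻¹) * n⁻¹ := by
            rw [show 2 * (i + 1) = 2 * i + 1 + 1 by ring, pow_succ' n, pow_succ' n]; group
          rw [e]
          exact hswap _ ((hmapE _).1 (ih x hx))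
      apply hEE'
      apply Subgroup.eq_of_le_of_card_ge _ hEcard.le
      intro x hx
      have h1 := (Subgroup.mem_normalizer_iff.1 (hSE (inv_mem hj)) x).1 hx
      have h2 := (hmapE _).1 (hev j _ h1)
      have e : n * (n ^ (2 * j) * ((n ^ (2 * j + 1))⁻¹ * x * ((n ^ (2 * j + 1))⁻¹)⁻¹) *
          (n ^ (2 * j))⁻¹) * n⁻¹ = x := by rw [pow_succ']; group
      rwa [e] at h2
  have hne1 : ∀ x : G, x ≠ 1 → g * x * g⁻¹ ≠ 1 := fun x hx h => hx (conj_eq_one_iff.1 h)
  have hgz : g * z * g⁻¹ = z := by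
    have hc : IsConj z (g * z * g⁻¹) := isConj_iff.2 ⟨g, rfl⟩
    rcases hEmem _ (hgE z hz) (hne1 z hz1) with h | h | h | h
    · exact absurd (h ▸ hc).symm hza
    · exact h
    · exact absurd (h ▸ hc) hzw
    · exact absurd (h.trans hc.symm) hza
  have hgw : g * (a * z) * g⁻¹ = a * z := by
    have hc : IsConj (a * z) (g * (a * z) * g⁻¹) := isConj_iff.2 ⟨g, rfl⟩
    rcases hEmem _ (hgE _ (mul_mem ha hz)) (hne1 _ hz2) with h | h | h | h
    · exact absurd (h ▸ hc).symm haw
    · exact absurd (h ▸ hc).symm hzw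
    · exact h
    · exact absurd (h.trans hc.symm) haw
  apply hne
  have hgaa : g * a * g⁻¹ = a := by
    calc g * a * g⁻¹ = (g * (a * z) * g⁻¹) * (g * z * g⁻¹)⁻¹ := by group
      _ = a := by rw [hgw, hgz]; group
  exact mul_left_cancel (mul_right_cancel (hgaa.trans hga.symm))

/-- The model of the Sylow subgroup. -/
abbrev W : Type := Multiplicative (ZMod 2) × DihedralGroup 4

def inEB (m : W) : Bool :=
  m.2 = DihedralGroup.r 0 || m.2 = DihedralGroup.r 2 || m.2 = DihedralGroup.sr 0 ||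
    m.2 = DihedralGroup.sr 2

def inEC (m : W) : Bool :=
  m.2 = DihedralGroup.r 0 || m.2 = DihedralGroup.r 2 || m.2 = DihedralGroup.sr 1 ||
    m.2 = DihedralGroup.sr 3

def EB : Subgroup W where
  carrier := {m | inEB m = true}
  one_mem' := (by decide : inEB 1 = true)
  mul_mem' := fun {x y} hx hy =>
    (by decide : ∀ x y : W, inEB x = true → inEB y = true → inEB (x * y) = true) x y hx hy
  inv_mem' := fun {x} hx => (by decide : ∀ x : W, inEB x = true → inEB x⁻¹ = true) x hx

def EC : Subgroup W where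
  carrier := {m | inEC m = true}
  one_mem' := (by decide : inEC 1 = true)
  mul_mem' := fun {x y} hx hy =>
    (by decide : ∀ x y : W, inEC x = true → inEC y = true → inEC (x * y) = true) x y hx hy
  inv_mem' := fun {x} hx => (by decide : ∀ x : W, inEC x = true → inEC x⁻¹ = true) x hx

def chi (u v : ZMod 2) : W → ZMod 2
  | (i, DihedralGroup.r j) => Multiplicative.toAdd i + (u + v) * (j.val : ZMod 2)
  | (i, DihedralGroup.sr j) => Multiplicative.toAdd i + u + (u + v) * (j.val : ZMod 2)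

theorem chi_mul : ∀ u v : ZMod 2, ∀ x y : W, chi u v (x * y) = chi u v x + chi u v y := by decide

def chiKer (u v : ZMod 2) : Subgroup W where
  carrier := {m | chi u v m = 0}
  one_mem' := (by decide : ∀ u v : ZMod 2, chi u v 1 = 0) u v
  mul_mem' := fun {x y} hx hy => by
    show chi u v (x * y) = 0
    rw [chi_mul]; simp_all
  inv_mem' := fun {x} hx =>
    (by decide : ∀ u v : ZMod 2, ∀ x : W, chi u v x = 0 → chi u v x⁻¹ = 0) u v x hx

abbrev wa : W := (Multiplicative.ofAdd 1, 1)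
abbrev wz : W := (1, DihedralGroup.r 2)
abbrev wb : W := (1, DihedralGroup.sr 0)
abbrev wc : W := (1, DihedralGroup.sr 1)

theorem aux_0 : ∀ m : W, m * m = 1 ∨ m * m = wz := by decide

theorem aux_1 : ∀ u v : ZMod 2, ∀ x : W, (chi u v (x * wa) = 0 ↔ ¬ chi u v x = 0) := by decide

theorem aux_2 : ∀ u v : ZMod 2, chi u v wa ≠ 0 := by decide

theorem aux_3 : ∀ m : W, (∃ u : W, u * m * u⁻¹ = m * wz) ∨ m = wa ∨ m = wz ∨ m = wa * wz ∨ m = 1 ∨ m * m ≠ 1 := by decide

theorem aux_4 : ∀ u : ZMod 2, (if u = 0 then wb else wa * wb) * wz ≠ wa ∧ (if u = 0 then wb else wa * wb) * wz ≠ wz ∧ (if u = 0 then wb else wa * wb) * wz ≠ wa * wz ∧ (if u = 0 then wb else wa * wb) * wz ≠ 1 ∧ (if u = 0 then wb else wa * wb) * wz * wz = (if u = 0 then wb else wa * wb) := by decide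

theorem aux_5 : ∀ u : ZMod 2, (if u = 0 then wc else wa * wc) * wz ≠ wa ∧ (if u = 0 then wc else wa * wc) * wz ≠ wz ∧ (if u = 0 then wc else wa * wc) * wz ≠ wa * wz ∧ (if u = 0 then wc else wa * wc) * wz ≠ 1 ∧ (if u = 0 then wc else wa * wc) * wz * wz = (if u = 0 then wc else wa * wc) := by decide

theorem aux_6 : ∀ x y : W, inEB x = false → inEC y = false → x * x = 1 → y * y = 1 → x * y ≠ y * x := by decide

theorem aux_7 : ∀ u x : W, inEB x = true → inEB (u * x * u⁻¹) = true := by decide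

theorem aux_8 : ∀ u x : W, inEC x = true → inEC (u * x * u⁻¹) = true := by decide

theorem aux_9 : inEB wb = true := by decide

theorem aux_10 : inEB wa = true := by decide

theorem aux_11 : inEB wz = true := by decide

theorem aux_12 : ∀ x y : W, inEB x = true → inEB y = true → x * y = y * x := by decide

theorem aux_13 : ∀ m : W, inEB m = true → m ^ 2 = 1 := by decide

theorem aux_14 : ∀ m : W, inEB m = true → m = 1 ∨ m = wa ∨ m = wz ∨ m = wa * wz ∨ m = wb ∨ m = wb * wz ∨ m = wa * wb ∨ m = wa * wb * wz := by decide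

theorem aux_15 : inEC wa = true := by decide

theorem aux_16 : inEC wz = true := by decide

theorem aux_17 : inEC wc = true := by decide

theorem aux_18 : ∀ x y : W, inEC x = true → inEC y = true → x * y = y * x := by decide

theorem aux_19 : ∀ m : W, inEC m = true → m ^ 2 = 1 := by decide

theorem aux_20 : ∀ m : W, inEC m = true → m = 1 ∨ m = wa ∨ m = wz ∨ m = wa * wz ∨ m = wc ∨ m = wc * wz ∨ m = wa * wc ∨ m = wa * wc * wz := by decide

theorem aux_21 : ∀ x : W, x * wa = wa * x := by decide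

theorem aux_22 : ∀ x : W, x * wz = wz * x := by decide

theorem aux_23 : ∀ x : W, x * (wa * wz) = (wa * wz) * x := by decide

theorem aux_24 : ∀ u v : ZMod 2, ∀ m : W, chi u v m = 0 → m * m = 1 → m ≠ 1 → m ≠ wz → m = (if u = 0 then wb else wa * wb) ∨ m = (if u = 0 then wb else wa * wb) * wz ∨ m = (if v = 0 then wc else wa * wc) ∨ m = (if v = 0 then wc else wa * wc) * wz := by decide

theorem aux_25 : wa ^ 2 = 1 := by decide

theorem aux_26 : wa * wa = 1 := by decide

theorem aux_27 : wa * wz * wz = wa := by decide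

theorem aux_28 : wz ≠ 1 ∧ wa ≠ wz ∧ wz ≠ wa * wz ∧ wa ≠ wa * wz ∧ wa ≠ 1 ∧ wa * wz ≠ 1 ∧ wa ≠ wb ∧ wa ≠ wc ∧ ¬ inEC wb = true ∧ wz ≠ wa := by decide

theorem not_EC : inEB wb = true ∧ ¬ inEC wb = true := by decide

/-- A finite group whose Sylow 2-subgroups are isomorphic to the direct product of a group of order 2 and the dihedral group of order 8 is not a non-abelian simple group. -/
theorem result {G : Type*} [Group G] [Finite G] (S : Sylow 2 G) (hS : Nonempty (↥(S : Subgroup G) ≃* Multiplicative (ZMod 2) × DihedralGroup 4))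
    [IsSimpleGroup G] (hG : ¬ IsMulCommutative G) : False := by
  obtain ⟨e⟩ := hS
  set ι : W →* G := (S : Subgroup G).subtype.comp e.symm.toMonoidHom with hι
  have hinj : Function.Injective ι := (S : Subgroup G).subtype_injective.comp e.symm.injective
  have hιS : ∀ m, ι m ∈ (S : Subgroup G) := fun m => (e.symm m).2
  have hιsurj : ∀ s ∈ (S : Subgroup G), ∃ m, ι m = s := fun s hs => ⟨e ⟨s, hs⟩, by simp [hι]⟩
  have hidx := CfsgLib.SectRank.index_ne_two_of_simple hG
  have hcent : ∀ m : W, (∀ x : W, x * m = m * x) → ∀ s ∈ (S : Subgroup G), s * ι m = ι m * s := by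
    intro m hm s hs
    obtain ⟨x, rfl⟩ := hιsurj s hs
    rw [← map_mul, hm, map_mul]
  have hcenta : ∀ x : W, x * wa = wa * x := aux_21
  have hcentz : ∀ x : W, x * wz = wz * x := aux_22
  have hcentw : ∀ x : W, x * (wa * wz) = (wa * wz) * x := aux_23
  -- Burnside
  have hburn : ∀ x y : W, (∀ u : W, u * x = x * u) → (∀ u : W, u * y = y * u) →
      IsConj (ι x) (ι y) →
        ∃ n ∈ Subgroup.normalizer ((S : Subgroup G) : Set G), n * ι x * n⁻¹ = ι y := by
    intro x y hx hy hxy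
    obtain ⟨g, hg⟩ := isConj_iff.1 hxy
    obtain ⟨n, hn, hne⟩ := Sylow.conj_eq_normalizer_conj_of_mem_centralizer S (ι x) g⁻¹
      (Subgroup.mem_centralizer_iff.2 fun s hs => hcent x hx s hs)
      (by rw [inv_inv, hg]; exact Subgroup.mem_centralizer_iff.2 fun s hs => hcent y hy s hs)
    exact ⟨n⁻¹, inv_mem hn, by rw [inv_inv, ← hne, inv_inv, hg]⟩
  have hzfix : ∀ n ∈ Subgroup.normalizer ((S : Subgroup G) : Set G), n * ι wz * n⁻¹ = ι wz := by
    intro n hn
    obtain ⟨m, hm⟩ := hιsurj _ ((Subgroup.mem_normalizer_iff.1 hn _).1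
      (hιS ((1, DihedralGroup.r 1) : W)))
    have h2 : (m * m : W) = 1 ∨ m * m = wz :=
      aux_0 m
    have e1 : n * ι wz * n⁻¹ = ι (m * m) := by
      rw [map_mul, hm, conj_mul, ← map_mul]; rfl
    rcases h2 with h | h
    · rw [h, map_one, conj_eq_one_iff, ← map_one ι] at e1
      exact absurd (hinj e1) (by decide)
    · rw [e1, h]
  have hza : ¬ IsConj (ι wa) (ι wz) := fun h => by
    obtain ⟨n, hn, hne⟩ := hburn wa wz hcenta hcentz h
    rw [← hzfix n hn] at hne
    exact absurd (hinj (mul_left_cancel (mul_right_cancel hne))) (by decide)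
  have hzw : ¬ IsConj (ι wz) (ι wa * ι wz) := fun h => by
    rw [← map_mul] at h
    obtain ⟨n, hn, hne⟩ := hburn wz (wa * wz) hcentz hcentw h
    rw [hzfix n hn] at hne
    exact absurd (hinj hne) (by decide)
  have haw : ¬ IsConj (ι wa) (ι wa * ι wz) := fun h => by
    rw [← map_mul] at h
    obtain ⟨n, hn, hne⟩ := hburn wa (wa * wz) hcenta hcentw h
    have h2 : n * ι (wa * wz) * n⁻¹ = ι wa := by
      rw [map_mul, ← conj_mul, hne, hzfix n hn, ← map_mul]
      exact congrArg ι aux_27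
    have h3 : ∀ s ∈ (S : Subgroup G), s * ι wa * s⁻¹ = ι wa := fun s hs => by
      rw [hcent wa hcenta s hs, mul_inv_cancel_right]
    exact absurd (hinj (not_swap S _ _ h3 n hn hne h2)) (by decide)
  -- classes inside S
  have hconjW : ∀ x y u : W, u * x * u⁻¹ = y → IsConj (ι x) (ι y) := fun x y u h =>
    isConj_iff.2 ⟨ι u, by rw [← h, map_mul, map_mul, map_inv]⟩
  -- transfer
  have htrans : ∀ u v : ZMod 2, ∃ m : W, chi u v m = 0 ∧ m * m = 1 ∧ m ≠ 1 ∧ m ≠ wz ∧
      IsConj (ι wa) (ι m) := by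
    intro u v
    set M := (chiKer u v).comap e.toMonoidHom with hM
    have hMi : M.index = 2 := by
      rw [hM, Subgroup.index_comap_of_surjective _ (f := e.toMonoidHom) e.surjective]
      rw [Subgroup.index_eq_two_iff]
      refine ⟨wa, fun x => ?_⟩
      have := aux_1 u v x
      exact xor_iff_iff_not.2 this
    obtain ⟨a, h, hmem⟩ := CfsgLib.SectRank.exists_conj_mem_of_index_two hidx S M hMi
      (e.symm wa)
      (by
        have h1 : (e.symm wa : G) ^ 2 = ι (wa ^ 2) := by rw [map_pow]; rfl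
        rw [h1, show wa ^ 2 = 1 from aux_25, map_one])
      (by
        intro hc
        have h1 : chi u v (e (e.symm wa)) = 0 := hc
        rw [e.apply_symm_apply] at h1
        exact aux_2 u v h1)
    set m := e ⟨a * (e.symm wa : G) * a⁻¹, h⟩ with hm
    have hιm : ι m = a * ι wa * a⁻¹ := by simp [hι, hm]
    refine ⟨m, hmem, hinj ?_, ?_, ?_, isConj_iff.2 ⟨a, hιm.symm⟩⟩
    · rw [map_mul, hιm, conj_mul, ← map_mul, show wa * wa = 1 from aux_26, map_one, mul_one,
        mul_inv_cancel]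
    · intro h1
      rw [h1, map_one, eq_comm, conj_eq_one_iff, ← map_one ι] at hιm
      exact absurd (hinj hιm) (by decide)
    · intro h1
      rw [h1] at hιm
      exact hza (isConj_iff.2 ⟨a, hιm.symm⟩)
  set P : W → Prop := fun m => IsConj (ι wa) (ι m) with hP
  have hPz : ∀ m : W, P m → P (m * wz) ∨ m = wa ∨ m = wz ∨ m = wa * wz ∨ m = 1 ∨ m * m ≠ 1 := by
    intro m hm
    rcases aux_3 m with ⟨u, hu⟩ | h
    · exact Or.inl (hm.trans (hconjW m (m * wz) u hu))
    · exact Or.inr h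
  have hcov : ∀ u v : ZMod 2, ∀ m : W, chi u v m = 0 → m * m = 1 → m ≠ 1 → m ≠ wz → m = (if u = 0 then wb else wa * wb) ∨ m = (if u = 0 then wb else wa * wb) * wz ∨ m = (if v = 0 then wc else wa * wc) ∨ m = (if v = 0 then wc else wa * wc) * wz := aux_24
  have hone : ∀ u v : ZMod 2, P (if u = 0 then wb else wa * wb) ∨
      P (if v = 0 then wc else wa * wc) := by
    intro u v
    obtain ⟨m, hm0, hm1, hm2, hm3, hm4⟩ := htrans u v
    have hback : ∀ t : W, t = (if u = 0 then wb else wa * wb) ∨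
        t = (if v = 0 then wc else wa * wc) → m = t * wz → P t := by
      intro t ht hmt
      have hd : t * wz ≠ wa ∧ t * wz ≠ wz ∧ t * wz ≠ wa * wz ∧ t * wz ≠ 1 ∧
          t * wz * wz = t := by
        rcases ht with rfl | rfl
        · exact aux_4 u
        · exact aux_5 v
      subst hmt
      rcases hPz _ hm4 with h | h | h | h | h | h
      · rwa [hd.2.2.2.2] at h
      · exact absurd h hd.1
      · exact absurd h hd.2.1
      · exact absurd h hd.2.2.1
      · exact absurd h hd.2.2.2.1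
      · exact absurd hm1 h
    rcases hcov u v m hm0 hm1 hm2 hm3 with h | h | h | h
    · exact Or.inl (show P _ by rw [← h]; exact hm4)
    · exact Or.inl (hback _ (Or.inl rfl) h)
    · exact Or.inr (show P _ by rw [← h]; exact hm4)
    · exact Or.inr (hback _ (Or.inr rfl) h)
  have hcases : (P wb ∧ P (wa * wb)) ∨ (P wc ∧ P (wa * wc)) := by
    have h00 := hone 0 0
    have h01 := hone 0 1
    have h10 := hone 1 0
    have h11 := hone 1 1
    simp only [one_ne_zero, if_false, if_true] at h00 h01 h10 h11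
    tauto
  have hmax : ∀ A : Subgroup G, A ≤ (S : Subgroup G) → IsMulCommutative A →
      (∀ x ∈ A, x ^ 2 = 1) → A ≤ EB.map ι ∨ A ≤ EC.map ι := by
    intro A hA hAc hAsq
    by_contra hcon
    push Not at hcon
    obtain ⟨⟨x, hx, hxB⟩, ⟨y, hy, hyC⟩⟩ := And.intro
      (SetLike.not_le_iff_exists.1 hcon.1) (SetLike.not_le_iff_exists.1 hcon.2)
    obtain ⟨mx, rfl⟩ := hιsurj x (hA hx)
    obtain ⟨my, rfl⟩ := hιsurj y (hA hy)
    have h1 : mx * mx = 1 := hinj (by rw [map_mul, map_one, ← pow_two]; exact hAsq _ hx)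
    have h2 : my * my = 1 := hinj (by rw [map_mul, map_one, ← pow_two]; exact hAsq _ hy)
    have h3 : mx * my = my * mx := hinj (by
      rw [map_mul, map_mul]
      exact congrArg Subtype.val (mul_comm' (⟨_, hx⟩ : A) ⟨_, hy⟩))
    exact aux_6 mx my
      (Bool.eq_false_iff.2 fun h => hxB ⟨mx, h, rfl⟩)
      (Bool.eq_false_iff.2 fun h => hyC ⟨my, h, rfl⟩) h1 h2 h3
  have hnormal : ∀ E : Subgroup W, (∀ u x : W, x ∈ E → u * x * u⁻¹ ∈ E) →
      (S : Subgroup G) ≤ Subgroup.normalizer ((E.map ι) : Set G) := by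
    intro E hE s hs
    obtain ⟨u, rfl⟩ := hιsurj s hs
    rw [Subgroup.mem_normalizer_iff]
    intro y
    constructor
    · rintro ⟨x, hx, rfl⟩
      exact ⟨u * x * u⁻¹, hE u x hx, by rw [map_mul, map_mul, map_inv]⟩
    · rintro ⟨x, hx, hxy⟩
      exact ⟨u⁻¹ * x * u⁻¹⁻¹, hE u⁻¹ x hx, by
        rw [map_mul, map_mul, map_inv, inv_inv, hxy]; group⟩
  have hnB := hnormal EB (fun u x hx =>
    aux_7 u x hx)
  have hnC := hnormal EC (fun u x hx =>
    aux_8 u x hx)
  have hcard : Nat.card (EB.map ι) = Nat.card (EC.map ι) := by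
    rw [Subgroup.card_map_of_injective hinj, Subgroup.card_map_of_injective hinj]
    have h1 : Nat.card EB = Nat.card {m : W // inEB m = true} := rfl
    have h2 : Nat.card EC = Nat.card {m : W // inEC m = true} := rfl
    rw [h1, h2, Nat.card_eq_fintype_card, Nat.card_eq_fintype_card]
    decide
  have hne : EB.map ι ≠ EC.map ι := fun h => by
    have h1 : ι wb ∈ EC.map ι := h ▸ Subgroup.mem_map_of_mem ι (show wb ∈ EB from not_EC.1)
    exact not_EC.2 ((Subgroup.mem_map_iff_mem hinj).1 h1)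
  have hS2 : ∀ E : Subgroup W, E.map ι ≤ (S : Subgroup G) := by
    rintro E _ ⟨x, -, rfl⟩; exact hιS x
  have hz1 : ι wz ≠ 1 := fun h => absurd (hinj (h.trans (map_one ι).symm)) (by decide)
  have hz2 : ι wa * ι wz ≠ 1 := fun h => by
    rw [← map_mul, ← map_one ι] at h
    exact absurd (hinj h) (by decide)
  rcases hcases with ⟨hb, hab⟩ | ⟨hc, hac⟩
  · refine fusion_absurd S (EB.map ι) (EC.map ι) (ι wa) (ι wz) (ι wb) (hS2 _) hnC hnB hcard.symm
      hne hmax ?_ ?_ (fun s hs => hcent wa hcenta s hs) ⟨wa, aux_10, rfl⟩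
      ⟨wz, aux_11, rfl⟩ ⟨wb, aux_9, rfl⟩ ?_
      hza hzw haw hz1 hz2 hb (fun h => absurd (hinj h) (by decide))
    · haveI : IsMulCommutative EB := ⟨⟨fun x y => Subtype.ext (aux_12 x y x.2 y.2)⟩⟩
      exact Subgroup.map_isMulCommutative EB ι
    · rintro _ ⟨m, hm, rfl⟩
      rw [← map_pow, aux_13 m hm, map_one]
    · rintro _ ⟨m, hm, rfl⟩ hm1
      rcases aux_14 m hm with
        rfl | rfl | rfl | rfl | rfl | rfl | rfl | rfl
      · exact absurd (map_one ι) hm1
      · exact Or.inl rfl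
      · exact Or.inr (Or.inl rfl)
      · exact Or.inr (Or.inr (Or.inl (map_mul ι _ _)))
      · exact Or.inr (Or.inr (Or.inr hb))
      · exact Or.inr (Or.inr (Or.inr (hb.trans (hconjW _ _ wc (by decide)))))
      · exact Or.inr (Or.inr (Or.inr hab))
      · exact Or.inr (Or.inr (Or.inr (hab.trans (hconjW _ _ wc (by decide)))))
  · refine fusion_absurd S (EC.map ι) (EB.map ι) (ι wa) (ι wz) (ι wc) (hS2 _) hnB hnC hcard
      hne.symm (fun A h1 h2 h3 => (hmax A h1 h2 h3).symm) ?_ ?_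
      (fun s hs => hcent wa hcenta s hs) ⟨wa, aux_15, rfl⟩
      ⟨wz, aux_16, rfl⟩ ⟨wc, aux_17, rfl⟩ ?_
      hza hzw haw hz1 hz2 hc (fun h => absurd (hinj h) (by decide))
    · haveI : IsMulCommutative EC := ⟨⟨fun x y => Subtype.ext (aux_18 x y x.2 y.2)⟩⟩
      exact Subgroup.map_isMulCommutative EC ι
    · rintro _ ⟨m, hm, rfl⟩
      rw [← map_pow, aux_19 m hm, map_one]
    · rintro _ ⟨m, hm, rfl⟩ hm1
      rcases aux_20 m hm with
        rfl | rfl | rfl | rfl | rfl | rfl | rfl | rfl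
      · exact absurd (map_one ι) hm1
      · exact Or.inl rfl
      · exact Or.inr (Or.inl rfl)
      · exact Or.inr (Or.inr (Or.inl (map_mul ι _ _)))
      · exact Or.inr (Or.inr (Or.inr hc))
      · exact Or.inr (Or.inr (Or.inr (hc.trans (hconjW _ _ wb (by decide)))))
      · exact Or.inr (Or.inr (Or.inr hac))
      · exact Or.inr (Or.inr (Or.inr (hac.trans (hconjW _ _ wb (by decide)))))

end Cfsg.Agent.S3309
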