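import Cfsg.Statements.S3315
import Cfsg.Agent.Lib.SectRank.UnitaryCore
import Cfsg.Agent.Lib.Amalgams.UnitaryThree
import Cfsg.Agent.Lib.ClassicalForms.Unitary.Card
-- import your own Cfsg.Agent.* helpers here

set_option autoImplicit false
open Cfsg

open CfsgLib.Amalgams CfsgLib.SectRank.UnitaryCore Matrix
open scoped MatrixGroups

namespace Cfsg.Agent.S3315

section aux

variable {F : Type*} [Field F] [Finite F] {σ : F →+* F} {q : ℕ}

set_option quotPrecheck false in
local notation "U₃" => ↥(uGrp₃ (σ := σ))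

private def bC (g : U₃) : F := mat₃ σ (g : suAnti σ) 1 2

private def cC (g : U₃) : F := mat₃ σ (g : suAnti σ) 0 2

variable (h : UniField F σ q) (h2 : (2 : F) = 0)
include h h2

private theorem form_eqs (g : U₃) :
    mat₃ σ (g : suAnti σ) 0 1 = σ (bC g) ∧ cC g + σ (cC g) + bC g * σ (bC g) = 0 ∧
      mat₃ σ (g : suAnti σ) = uMat₃ σ (bC g) (cC g) := by
  obtain ⟨g, a1, a2, a3, a4, a5, a6⟩ := g
  simp only [bC, cC]
  have e : (mat₃ σ g)ᵀ * antiForm * (mat₃ σ g).map σ = antiForm := mem_suAnti.1 g.2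
  have e12 := congrFun (congrFun e 1) 2
  have e22 := congrFun (congrFun e 2) 2
  simp [antiForm, Matrix.mul_apply, Fin.sum_univ_three, a1, a2, a3, a4, a5, a6] at e12 e22
  have h01 : mat₃ σ g 0 1 = σ (mat₃ σ g 1 2) := by linear_combination e12 - σ (mat₃ σ g 1 2) * h2
  refine ⟨h01, by linear_combination e22, ?_⟩
  have hneg : ∀ x : F, -x = x := fun x => by linear_combination -x * h2
  ext i j
  fin_cases i <;> fin_cases j <;> simp [uMat₃, hneg, h01, a1, a2, a3, a4, a5, a6]

private theorem ext_of_coords {g g' : U₃} (eb : bC g = bC g') (ec : cC g = cC g') : g = g' := by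
  refine Subtype.ext (mat₃_injective σ ?_)
  rw [(form_eqs h h2 g).2.2, (form_eqs h h2 g').2.2, eb, ec]

private theorem bC_mul (g g' : U₃) : bC (g * g') = bC g + bC g' := by
  show mat₃ σ ((g : suAnti σ) * (g' : suAnti σ)) 1 2 = _
  rw [map_mul, (form_eqs h h2 g).2.2, (form_eqs h h2 g').2.2]
  simp [uMat₃, Matrix.mul_apply, Fin.sum_univ_three, add_comm]

private theorem cC_mul (g g' : U₃) : cC (g * g') = cC g + cC g' + σ (bC g) * bC g' := by
  show mat₃ σ ((g : suAnti σ) * (g' : suAnti σ)) 0 2 = _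
  rw [map_mul, (form_eqs h h2 g).2.2, (form_eqs h h2 g').2.2]
  simp [uMat₃, Matrix.mul_apply, Fin.sum_univ_three]
  linear_combination -(σ (bC g) * bC g') * h2

omit h h2 in
private theorem bC_one : bC (1 : U₃) = 0 := by simp [bC]

private theorem exists_lift (b : F) : ∃ g : U₃, bC g = b := by
  obtain ⟨c, hc⟩ := h.exists_trace (a := b * σ b) (by rw [map_mul, h.conj_conj, mul_comm])
  have hm : c + σ c + b * σ b = 0 := by linear_combination hc + (b * σ b) * h2
  exact ⟨⟨uEl₃ h.conj_conj b c hm, by simp [uGrp₃, uMat₃]⟩, by simp [bC, uMat₃]⟩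

private theorem bC_inv (g : U₃) : bC g⁻¹ = bC g := by
  have e := bC_mul h h2 g g⁻¹
  rw [mul_inv_cancel, bC_one] at e
  linear_combination -e - bC g * h2

private theorem mem_center_iff' (g : U₃) : g ∈ Subgroup.center U₃ ↔ bC g = 0 := by
  constructor
  · intro hg
    by_contra hb
    obtain ⟨ζ, hζ⟩ := h.exists_not_fix
    obtain ⟨g', hg'⟩ := exists_lift h h2 (ζ * bC g)
    have e := congrArg cC (Subgroup.mem_center_iff.1 hg g')
    rw [cC_mul h h2, cC_mul h h2, hg', map_mul] at e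
    have hb' : σ (bC g) ≠ 0 := by simpa using hb
    refine hζ (mul_left_cancel₀ (mul_ne_zero hb hb') ?_)
    linear_combination e
  · intro hb
    refine Subgroup.mem_center_iff.2 fun g' => ext_of_coords h h2 ?_ ?_
    · rw [bC_mul h h2, bC_mul h h2, add_comm]
    · rw [cC_mul h h2, cC_mul h h2, hb, map_zero]; ring

private theorem sq_coords (g : U₃) : bC (g * g) = 0 ∧ cC (g * g) = nrm σ (bC g) := by
  refine ⟨by rw [bC_mul h h2]; linear_combination bC g * h2, ?_⟩
  rw [cC_mul h h2, nrm]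
  linear_combination cC g * h2

private theorem central_fix {n : ℕ} (hn : 1 ≤ n) (hq : q = 2 ^ n) (α : U₃ ≃* U₃) (u : U₃)
    (hα : ∀ g, α (α g) = u * g * u⁻¹) : ∀ z ∈ Subgroup.center U₃, α z = z := by
  have hc : ∀ g, bC g = 0 → bC (α g) = 0 := fun g hg => by
    rw [← mem_center_iff' h h2] at hg ⊢
    refine Subgroup.mem_center_iff.2 fun x => ?_
    rw [← α.apply_symm_apply x, ← map_mul, ← map_mul, Subgroup.mem_center_iff.1 hg]
  have hwd : ∀ g g', bC g = bC g' → bC (α g) = bC (α g') := fun g g' e => by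
    have e' : bC (g⁻¹ * g') = 0 := by
      rw [bC_mul h h2, bC_inv h h2, e]; linear_combination bC g' * h2
    rw [show α g' = α g * α (g⁻¹ * g') by rw [← map_mul, mul_inv_cancel_left], bC_mul h h2 (α g),
      hc _ e', add_zero]
  choose lift hlift using exists_lift h h2
  let ρ : F →+ F := AddMonoidHom.mk' (fun b => bC (α (lift b))) fun x y => by
    rw [← bC_mul h h2, ← map_mul]
    exact hwd _ _ (by rw [bC_mul h h2, hlift, hlift, hlift])
  have hρ : ∀ g, ρ (bC g) = bC (α g) := fun g => hwd _ _ (hlift _)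
  have hρρ : ∀ x, ρ (ρ x) = x := fun x => by
    conv_lhs => rw [← hlift x, hρ, hρ, hα]
    rw [bC_mul h h2, bC_mul h h2, bC_inv h h2, hlift]
    linear_combination bC u * h2
  have hN : ∀ a b c, nrm σ a + nrm σ b = nrm σ c →
      nrm σ (ρ a) + nrm σ (ρ b) = nrm σ (ρ c) := fun a b c e => by
    have e1 : lift a * lift a * (lift b * lift b) = lift c * lift c := by
      refine ext_of_coords h h2 ?_ ?_
      · rw [bC_mul h h2, (sq_coords h h2 _).1, (sq_coords h h2 _).1, (sq_coords h h2 _).1, add_zero]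
      · rw [cC_mul h h2, (sq_coords h h2 _).1, map_zero, zero_mul, add_zero, (sq_coords h h2 _).2,
          (sq_coords h h2 _).2, (sq_coords h h2 _).2, hlift, hlift, hlift, e]
    have e2 := congrArg cC (congrArg α e1)
    rw [map_mul, map_mul, map_mul, map_mul, cC_mul h h2, (sq_coords h h2 _).1, map_zero, zero_mul,
      add_zero, (sq_coords h h2 _).2, (sq_coords h h2 _).2, (sq_coords h h2 _).2] at e2
    exact e2
  have key := nrm_eq_of_involution h hn hq ρ hρρ hN
  intro z hz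
  rw [mem_center_iff' h h2] at hz
  have e := (form_eqs h h2 z).2.1
  rw [hz, zero_mul, add_zero] at e
  obtain ⟨b, hb⟩ := h.exists_norm (a := cC z) (by linear_combination e - cC z * h2)
  have hzsq : z = lift b * lift b := by
    refine ext_of_coords h h2 (by rw [hz, (sq_coords h h2 _).1]) ?_
    rw [(sq_coords h h2 _).2, hlift]
    exact hb.symm
  rw [hzsq, map_mul]
  refine ext_of_coords h h2 (by rw [(sq_coords h h2 _).1, (sq_coords h h2 _).1]) ?_
  rw [(sq_coords h h2 _).2, (sq_coords h h2 _).2]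
  rw [hlift]
  exact key b

private theorem card_uGrp : Nat.card U₃ = q ^ 3 := by
  let π : Additive U₃ → F := fun g => bC g.toMul
  let e : U₃ ≃ {p : F × F // p.2 + σ p.2 + p.1 * σ p.1 = 0} :=
    { toFun := fun g => ⟨(bC g, cC g), (form_eqs h h2 g).2.1⟩
      invFun := fun p => ⟨uEl₃ h.conj_conj p.1.1 p.1.2 p.2, by simp [uGrp₃, uMat₃]⟩
      left_inv := fun g => ext_of_coords h h2 (by simp [bC, uMat₃]) (by simp [cC, uMat₃])
      right_inv := fun p => Subtype.ext (by simp [bC, cC, uMat₃]) }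
  have hc₀ : ∀ b : F, ∃ c, c + σ c + b * σ b = 0 := fun b => by
    obtain ⟨g, rfl⟩ := exists_lift h h2 b
    exact ⟨_, (form_eqs h h2 g).2.1⟩
  choose c₀ hc₀ using hc₀
  let e' : {p : F × F // p.2 + σ p.2 + p.1 * σ p.1 = 0} ≃ F × fixAdd σ :=
    { toFun := fun p => (p.1.1, ⟨p.1.2 - c₀ p.1.1, mem_fixAdd.2 (by
        rw [map_sub]; linear_combination p.2 - hc₀ p.1.1 - (p.1.2 - c₀ p.1.1) * h2)⟩)
      invFun := fun x => ⟨(x.1, (x.2 : F) + c₀ x.1), by
        show (x.2 : F) + c₀ x.1 + σ ((x.2 : F) + c₀ x.1) + x.1 * σ x.1 = 0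
        rw [map_add, mem_fixAdd.1 x.2.2]; linear_combination hc₀ x.1 + (x.2 : F) * h2⟩
      left_inv := fun p => Subtype.ext (Prod.ext rfl (sub_add_cancel _ _))
      right_inv := fun x => Prod.ext rfl (Subtype.ext (add_sub_cancel_right _ _)) }
  rw [Nat.card_congr (e.trans e'), Nat.card_prod, h.card, card_fixAdd h h2]
  ring

end aux

/-- Let S be a Sylow 2-subgroup of SU₃(2ⁿ), n ≥ 2 (realised over the field with 4ⁿ elements). If a finite 2-group R contains a subgroup S' of index 2 isomorphic to S, then the centre of S' is contained in the centre of R. -/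
theorem result {R : Type*} [Group R] [Finite R]
    (hR : IsPGroup 2 R) (n : ℕ) (hn : 2 ≤ n) {F : Type*} [Field F] [Fintype F] (hF : Fintype.card F = 4 ^ n)
    (P : Sylow 2 ↥(Cfsg.SU 3 F (2 ^ n))) (S' : Subgroup R) (hS : Nonempty (↥S' ≃* ↥(P : Subgroup ↥(Cfsg.SU 3 F (2 ^ n)))))
    (hidx : S'.index = 2) :
    (Subgroup.center ↥S').map S'.subtype ≤ Subgroup.center R := by
  classical
  revert P
  generalize hq' : 2 ^ n = q
  intro P hS
  have hq := hq'.symm
  have hq0 : 0 < q := by rw [hq]; positivity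
  have hF2 : Fintype.card F = q ^ 2 := by
    rw [hF, hq, ← pow_mul, mul_comm, pow_mul]; norm_num
  obtain ⟨σ, h⟩ := exists_uniField (F := F) (q := q) (by rw [Nat.card_eq_fintype_card, hF2])
  have h2 := two_eq_zero h (by omega : 1 ≤ n) hq
  obtain ⟨e⟩ := exists_suAnti_equiv h
  have : Fact (Nat.Prime 2) := ⟨Nat.prime_two⟩
  have hU : Nat.card ↥((uGrp₃ (σ := σ)).map e.toMonoidHom) = 2 ^ (n * 3) := by
    rw [Subgroup.card_map_of_injective e.injective, card_uGrp h h2, hq, ← pow_mul]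
  obtain ⟨Q, hQ⟩ := (IsPGroup.of_card hU).exists_le_sylow
  obtain ⟨k, hk⟩ := Q.2.exists_card_eq
  have hSU := (CfsgLib.ClassicalForms.card_gu_eq_mul_su (F := F) (q := q) (n := 3)
    (by rw [Nat.card_eq_fintype_card, hF2]) (by norm_num)).symm
  rw [CfsgLib.ClassicalForms.card_gu (by rw [Nat.card_eq_fintype_card, hF2])] at hSU
  rw [Finset.prod_range_succ, Finset.prod_range_succ, Finset.prod_range_succ, Finset.prod_range_zero,
    if_pos (by decide : Even 0), if_neg (by decide : ¬ Even 1), if_pos (by decide : Even 2)] at hSU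
  norm_num [-Nat.card_eq_fintype_card] at hSU
  have hSU' : Nat.card (Cfsg.SU 3 F q) = q ^ 3 * ((q ^ 2 - 1) * (q ^ 3 + 1)) :=
    Nat.eq_of_mul_eq_mul_left (Nat.succ_pos q) (by
      rw [Nat.succ_eq_add_one, hSU]; ring)
  have hcop : Nat.Coprime (2 ^ k) ((q ^ 2 - 1) * (q ^ 3 + 1)) := by
    refine Nat.Coprime.pow_left k ((Nat.prime_two.coprime_iff_not_dvd).2 ?_)
    have h2q : 2 ∣ q := by rw [hq]; exact dvd_pow_self 2 (by omega)
    have hq1 : 1 ≤ q ^ 2 := Nat.one_le_pow _ _ hq0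
    have d2 : 2 ∣ q ^ 2 := dvd_pow h2q (by norm_num)
    have d3 : 2 ∣ q ^ 3 := dvd_pow h2q (by norm_num)
    rw [Nat.prime_two.dvd_mul, not_or]
    omega
  have hdvd : 2 ^ k ∣ q ^ 3 := by
    refine hcop.dvd_of_dvd_mul_right ?_
    rw [← hSU', ← hk]
    exact Subgroup.card_subgroup_dvd_card _
  have hQU : (uGrp₃ (σ := σ)).map e.toMonoidHom = (Q : Subgroup ↥(Cfsg.SU 3 F q)) :=
    Subgroup.eq_of_le_of_card_ge hQ (by
      rw [hU, hk, pow_mul, ← hq]; exact Nat.le_of_dvd (pow_pos hq0 3) hdvd)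
  obtain ⟨φ⟩ := hS
  let ε : ↥S' ≃* ↥(uGrp₃ (σ := σ)) := φ.trans ((P.equiv Q).trans
    ((MulEquiv.subgroupCongr hQU.symm).trans
      ((uGrp₃ (σ := σ)).equivMapOfInjective e.toMonoidHom e.injective).symm))
  have := Subgroup.normal_of_index_eq_two hidx
  rintro _ ⟨z, hz, rfl⟩
  refine Subgroup.mem_center_iff.2 fun r => ?_
  let α : ↥(uGrp₃ (σ := σ)) ≃* ↥(uGrp₃ (σ := σ)) :=
    ε.symm.trans ((MulAut.conjNormal r).trans ε)
  have hr : r * r ∈ S' := Subgroup.mul_self_mem_of_index_two hidx r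
  have key := central_fix h h2 (by omega : 1 ≤ n) hq α (ε ⟨r * r, hr⟩) (fun g => by
    show ε (MulAut.conjNormal r (ε.symm (ε (MulAut.conjNormal r (ε.symm g))))) = _
    rw [MulEquiv.symm_apply_apply]
    conv_rhs => rw [← ε.apply_symm_apply g, ← map_inv, ← map_mul, ← map_mul]
    congr 1
    refine Subtype.ext ?_
    simp only [MulAut.conjNormal_apply, Subgroup.coe_mul, Subgroup.coe_inv, _root_.mul_inv_rev, mul_assoc])
    (ε z) (Subgroup.mem_center_iff.2 fun x => by
      rw [← ε.apply_symm_apply x, ← map_mul, ← map_mul, Subgroup.mem_center_iff.1 hz])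
  have key' : MulAut.conjNormal r z = z := ε.injective (by
    simpa [α] using key)
  have key'' := congrArg Subtype.val key'
  rw [MulAut.conjNormal_apply, mul_inv_eq_iff_eq_mul] at key''
  exact key''

end Cfsg.Agent.S3315
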