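import Cfsg.Statements.S3335
import Mathlib
import Cfsg.Agent.Lib.Generators.CoxeterSn

set_option autoImplicit false
open Cfsg

namespace Cfsg.Agent.S3335

theorem coxeterA_apply (n : ℕ) (i j : Fin n) : CoxeterMatrix.A n i j =
    if i = j then 1 else (if (j : ℕ) + 1 = i ∨ (i : ℕ) + 1 = j then 3 else 2) := rfl

/-- The relations in a group. -/
structure CarmichaelFamily {W : Type*} [Group W] (m : ℕ) (x : Fin m → W) : Prop where
  cube : ∀ i, i.val = 0 → x i ^ 3 = 1
  sq : ∀ i, 1 ≤ i.val → x i ^ 2 = 1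
  near : ∀ i j, j.val = i.val + 1 → (x i * x j) ^ 3 = 1
  far : ∀ i j, i.val + 1 < j.val → (x i * x j) ^ 2 = 1

variable {W : Type*} [Group W] {m : ℕ} {x : Fin m → W}

theorem CarmichaelFamily.toGroup_cond (h : CarmichaelFamily m x) :
    ∀ r ∈ ({g : FreeGroup (Fin m) | ∃ i : Fin m, i.val = 0 ∧ g = FreeGroup.of i ^ 3} ∪
       {g | ∃ i : Fin m, 1 ≤ i.val ∧ g = FreeGroup.of i ^ 2} ∪
       {g | ∃ i j : Fin m, j.val = i.val + 1 ∧ g = (FreeGroup.of i * FreeGroup.of j) ^ 3} ∪
       {g | ∃ i j : Fin m, i.val + 1 < j.val ∧ g = (FreeGroup.of i * FreeGroup.of j) ^ 2}),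
      FreeGroup.lift x r = 1 := by
  rintro r (((⟨i, hi, rfl⟩ | ⟨i, hi, rfl⟩) | ⟨i, j, hi, rfl⟩) | ⟨i, j, hi, rfl⟩) <;>
    simp only [map_pow, map_mul, FreeGroup.lift_apply_of]
  exacts [h.cube i hi, h.sq i hi, h.near i j hi, h.far i j hi]

theorem sq_conj {a b : W} (n : ℕ) (ha : a * a = 1) (h : b ^ n = 1) : (a * b * a) ^ n = 1 := by
  have : a⁻¹ = a := inv_eq_of_mul_eq_one_right ha
  calc (a * b * a) ^ n = (a * b * a⁻¹) ^ n := by rw [this]
    _ = a * b ^ n * a⁻¹ := conj_pow
    _ = 1 := by rw [h, mul_one, mul_inv_cancel]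

theorem inv_pow_swap {a b : W} (n : ℕ) (hb : b * b = 1) (h : (a * b) ^ n = 1) : (a⁻¹ * b) ^ n = 1 := by
  have hb' : b⁻¹ = b := inv_eq_of_mul_eq_one_right hb
  have h1 : (b * a⁻¹) ^ n = 1 := by
    rw [show b * a⁻¹ = (a * b)⁻¹ by rw [mul_inv_rev, hb'], inv_pow, h, inv_one]
  calc (a⁻¹ * b) ^ n = (b * (b * a⁻¹) * b) ^ n := by rw [← mul_assoc b b, hb, one_mul]
    _ = 1 := sq_conj n hb h1

theorem braid_of_pow {a b : W} (ha : a * a = 1) (hb : b * b = 1) (h : (a * b) ^ 3 = 1) :
    a * b * a = b * a * b := by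
  have ha' : a⁻¹ = a := inv_eq_of_mul_eq_one_right ha
  have hb' : b⁻¹ = b := inv_eq_of_mul_eq_one_right hb
  have h' : (a * b * a) * (b * a * b) = 1 := by
    rw [← h]; simp only [pow_succ, pow_zero, one_mul, mul_assoc]
  have h2 := eq_inv_of_mul_eq_one_left h'
  rw [mul_inv_rev, mul_inv_rev, ha', hb'] at h2
  rw [h2, mul_assoc]

theorem comm_of_pow {a b : W} (ha : a * a = 1) (hb : b * b = 1) (h : (a * b) ^ 2 = 1) :
    a * b = b * a := by
  rw [pow_two] at h
  have h2 := eq_inv_of_mul_eq_one_left h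
  rwa [mul_inv_rev, inv_eq_of_mul_eq_one_right ha, inv_eq_of_mul_eq_one_right hb] at h2

/-- A presentation of the alternating group of degree n ≥ 3 on generators x_1, …, x_{n−2} (indexed here by 0, …, n−3): the first generator cubes to 1, every other generator squares to 1, the product of two consecutive generators has order dividing 3, and the product of two generators at distance at least 2 has order dividing 2. The group so presented is isomorphic to the alternating group of degree n. -/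
theorem result (n : ℕ) (hn : 3 ≤ n) :
    Nonempty (PresentedGroup
      ({g : FreeGroup (Fin (n - 2)) | ∃ i : Fin (n - 2), i.val = 0 ∧ g = FreeGroup.of i ^ 3} ∪
       {g | ∃ i : Fin (n - 2), 1 ≤ i.val ∧ g = FreeGroup.of i ^ 2} ∪
       {g | ∃ i j : Fin (n - 2), j.val = i.val + 1 ∧ g = (FreeGroup.of i * FreeGroup.of j) ^ 3} ∪
       {g | ∃ i j : Fin (n - 2), i.val + 1 < j.val ∧ g = (FreeGroup.of i * FreeGroup.of j) ^ 2})
      ≃* alternatingGroup (Fin n)) := by
  classical
  obtain ⟨m, rfl⟩ : ∃ m, n = m + 3 := ⟨n - 3, by omega⟩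
  set rels := ({g : FreeGroup (Fin (m + 3 - 2)) | ∃ i : Fin (m + 3 - 2), i.val = 0 ∧ g = FreeGroup.of i ^ 3} ∪
       {g | ∃ i : Fin (m + 3 - 2), 1 ≤ i.val ∧ g = FreeGroup.of i ^ 2} ∪
       {g | ∃ i j : Fin (m + 3 - 2), j.val = i.val + 1 ∧ g = (FreeGroup.of i * FreeGroup.of j) ^ 3} ∪
       {g | ∃ i j : Fin (m + 3 - 2), i.val + 1 < j.val ∧ g = (FreeGroup.of i * FreeGroup.of j) ^ 2}) with hrels
  set P := PresentedGroup rels with hP
  let X : Fin (m + 3 - 2) → P := PresentedGroup.of
  have hX : CarmichaelFamily (m + 3 - 2) X := by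
    have hone : ∀ r ∈ rels, PresentedGroup.mk rels r = 1 := fun r hr => PresentedGroup.one_of_mem hr
    refine ⟨fun i hi => ?_, fun i hi => ?_, fun i j hi => ?_, fun i j hi => ?_⟩
    · rw [← hone (FreeGroup.of i ^ 3) (Or.inl (Or.inl (Or.inl ⟨i, hi, rfl⟩))), map_pow]; rfl
    · rw [← hone (FreeGroup.of i ^ 2) (Or.inl (Or.inl (Or.inr ⟨i, hi, rfl⟩))), map_pow]; rfl
    · rw [← hone ((FreeGroup.of i * FreeGroup.of j) ^ 3) (Or.inl (Or.inr ⟨i, j, hi, rfl⟩)), map_pow,
        map_mul]; rfl
    · rw [← hone ((FreeGroup.of i * FreeGroup.of j) ^ 2) (Or.inr ⟨i, j, hi, rfl⟩), map_pow, map_mul]; rfl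
  have hXsq : ∀ i : Fin (m + 3 - 2), 1 ≤ i.val → X i * X i = 1 := fun i hi => by
    rw [← pow_two]; exact hX.sq i hi
  -- the automorphism inverting the first generator
  let Y : Fin (m + 3 - 2) → P := fun i => if i.val = 0 then (X i)⁻¹ else X i
  have hY : CarmichaelFamily (m + 3 - 2) Y := by
    refine ⟨fun i hi => ?_, fun i hi => ?_, fun i j hi => ?_, fun i j hi => ?_⟩
    · simp only [Y, if_pos hi]; rw [inv_pow, hX.cube i hi, inv_one]
    · simp only [Y, if_neg (show ¬ i.val = 0 by omega)]; exact hX.sq i hi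
    · simp only [Y, if_neg (show ¬ j.val = 0 by omega)]
      split_ifs with h0
      · exact inv_pow_swap 3 (hXsq j (by omega)) (hX.near i j hi)
      · exact hX.near i j hi
    · simp only [Y, if_neg (show ¬ j.val = 0 by omega)]
      split_ifs with h0
      · exact inv_pow_swap 2 (hXsq j (by omega)) (hX.far i j hi)
      · exact hX.far i j hi
  let θ : P →* P := PresentedGroup.toGroup (f := Y) hY.toGroup_cond
  have hθX : ∀ i, θ (X i) = Y i := fun i => PresentedGroup.toGroup.of hY.toGroup_cond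
  have hθθ : θ.comp θ = MonoidHom.id P := by
    refine PresentedGroup.ext fun i => ?_
    show θ (θ (X i)) = X i
    rw [hθX]
    by_cases h0 : i.val = 0
    · simp only [Y, if_pos h0]; rw [map_inv, hθX]; simp only [Y, if_pos h0]; exact inv_inv _
    · simp only [Y, if_neg h0]; rw [hθX]; simp only [Y, if_neg h0]
  let Θ : MulAut P :=
    { toFun := θ, invFun := θ, left_inv := fun p => DFunLike.congr_fun hθθ p,
      right_inv := fun p => DFunLike.congr_fun hθθ p, map_mul' := map_mul θ }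
  have hΘ : Θ ^ 2 = 1 := by
    ext p
    rw [pow_two, MulAut.mul_apply, MulAut.one_apply]
    exact DFunLike.congr_fun hθθ p
  let act : Multiplicative (ZMod 2) →* MulAut P :=
    MonoidHom.mk' (fun c => if Multiplicative.toAdd c = 0 then 1 else Θ) (by
      intro a b
      have : ∀ a b : ZMod 2, (a = 0 ∧ b = 0 ∧ a + b = 0) ∨ (a ≠ 0 ∧ b = 0 ∧ a + b ≠ 0) ∨
          (a = 0 ∧ b ≠ 0 ∧ a + b ≠ 0) ∨ (a ≠ 0 ∧ b ≠ 0 ∧ a + b = 0) := by decide
      rw [toAdd_mul]
      rcases this (Multiplicative.toAdd a) (Multiplicative.toAdd b) with h | h | h | h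
      · rw [if_pos h.1, if_pos h.2.1, if_pos h.2.2, one_mul]
      · rw [if_neg h.1, if_pos h.2.1, if_neg h.2.2, mul_one]
      · rw [if_pos h.1, if_neg h.2.1, if_neg h.2.2, one_mul]
      · rw [if_neg h.1, if_neg h.2.1, if_pos h.2.2, ← pow_two, hΘ])
  let σ : P ⋊[act] Multiplicative (ZMod 2) := SemidirectProduct.inr (Multiplicative.ofAdd 1)
  have hσ : σ * σ = 1 := by
    rw [← map_mul, ← map_one (SemidirectProduct.inr : Multiplicative (ZMod 2) →* P ⋊[act] _)]
    rfl
  have hσX : ∀ p : P, σ * SemidirectProduct.inl p = SemidirectProduct.inl (θ p) * σ := by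
    intro p
    have h := SemidirectProduct.inl_aut (φ := act) (Multiplicative.ofAdd (1 : ZMod 2)) p
    have e : act (Multiplicative.ofAdd (1 : ZMod 2)) p = θ p := by
      simp [act, show (1 : ZMod 2) ≠ 0 by decide, Θ]
    rw [e] at h
    rw [h, map_inv, inv_mul_cancel_right]
  -- the braid family
  let s : ℕ → P ⋊[act] Multiplicative (ZMod 2) := fun k =>
    if h : 1 ≤ k ∧ k < m + 2 then σ * SemidirectProduct.inl (X ⟨k - 1, by omega⟩) else σ
  have hs0 : s 0 = σ := dif_neg (by omega)
  have hsucc : ∀ i : Fin (m + 3 - 2), s (i.val + 1) = σ * SemidirectProduct.inl (X i) := fun i => by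
    simp only [s]; rw [dif_pos (by omega)]; congr 1
  have hpair : ∀ i j : Fin (m + 3 - 2),
      s (i.val + 1) * s (j.val + 1) = SemidirectProduct.inl (Y i * X j) := by
    intro i j
    rw [hsucc, hsucc, map_mul, ← hθX]
    rw [← mul_assoc (σ * _) σ, mul_assoc σ _ σ]
    have h1 : SemidirectProduct.inl (X i) * σ = σ * SemidirectProduct.inl (θ (X i)) := by
      rw [hσX, show θ (θ (X i)) = X i from DFunLike.congr_fun hθθ _]
    rw [h1, ← mul_assoc σ σ, hσ, one_mul]
  have hsq : ∀ k < m + 2, s k * s k = 1 := by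
    intro k hk
    cases k with
    | zero => rw [hs0, hσ]
    | succ k =>
      rw [show k = (⟨k, by omega⟩ : Fin (m + 3 - 2)).val from rfl, hpair, ← map_one SemidirectProduct.inl]
      congr 1
      by_cases h0 : k = 0
      · simp only [Y, if_pos h0, inv_mul_cancel]
      · simp only [Y, if_neg h0]; exact hXsq _ (by show 1 ≤ k; omega)
  have hfam : CfsgLib.Generators.IsBraidFamily (m + 2) s := by
    refine ⟨hsq, fun i j hij hj => comm_of_pow (hsq i (by omega)) (hsq j hj) ?_,
      fun i hi => braid_of_pow (hsq i (by omega)) (hsq (i + 1) hi) ?_⟩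
    · obtain ⟨j, rfl⟩ : ∃ j', j = j' + 1 := ⟨j - 1, by omega⟩
      rw [show j = (⟨j, by omega⟩ : Fin (m + 3 - 2)).val from rfl]
      cases i with
      | zero =>
        rw [hs0, hsucc, ← mul_assoc, hσ, one_mul, ← map_pow, hX.sq _ (by show 1 ≤ j; omega), map_one]
      | succ i =>
        rw [show i = (⟨i, by omega⟩ : Fin (m + 3 - 2)).val from rfl, hpair, ← map_pow,
          ← map_one SemidirectProduct.inl]
        congr 1
        have h := hY.far ⟨i, by omega⟩ ⟨j, by omega⟩ (by show i + 1 < j; omega)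
        have e : Y ⟨j, by omega⟩ = X ⟨j, by omega⟩ := if_neg (by show ¬ j = 0; omega)
        rwa [e] at h
    · cases i with
      | zero =>
        rw [hs0, show (0 : ℕ) = (⟨0, by omega⟩ : Fin (m + 3 - 2)).val from rfl, hsucc, ← mul_assoc, hσ,
          one_mul, ← map_pow, hX.cube _ rfl, map_one]
      | succ i =>
        show (s ((⟨i, by omega⟩ : Fin (m + 3 - 2)).val + 1) *
          s ((⟨i + 1, by omega⟩ : Fin (m + 3 - 2)).val + 1)) ^ 3 = 1
        rw [hpair, ← map_pow, ← map_one SemidirectProduct.inl]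
        congr 1
        have h := hY.near ⟨i, by omega⟩ ⟨i + 1, by omega⟩ rfl
        have e : Y ⟨i + 1, by omega⟩ = X ⟨i + 1, by omega⟩ := if_neg (by show ¬ i + 1 = 0; omega)
        rwa [e] at h
  have hgen : Subgroup.closure (s '' Set.Iio (m + 2)) = ⊤ := by
    set K := Subgroup.closure (s '' Set.Iio (m + 2))
    have hσK : σ ∈ K := hs0 ▸ Subgroup.subset_closure ⟨0, by simp, rfl⟩
    have hXK : ∀ i, SemidirectProduct.inl (X i) ∈ K := fun i => by
      have h := K.mul_mem hσK (Subgroup.subset_closure ⟨i.val + 1, by simp; omega, rfl⟩ : s (i.val + 1) ∈ K)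
      rwa [hsucc, ← mul_assoc, hσ, one_mul] at h
    rw [eq_top_iff]
    rintro g -
    rw [← SemidirectProduct.inl_left_mul_inr_right g]
    refine K.mul_mem ?_ ?_
    · have hle : Subgroup.closure (Set.range X) ≤ K.comap SemidirectProduct.inl := by
        rw [Subgroup.closure_le]; rintro _ ⟨i, rfl⟩; exact hXK i
      exact hle (by rw [PresentedGroup.closure_range_of]; trivial)
    · obtain ⟨c, hc⟩ : ∃ c : ZMod 2, g.right = Multiplicative.ofAdd c := ⟨_, rfl⟩
      have h2 : ∀ c : ZMod 2, c = 0 ∨ c = 1 := by decide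
      rw [hc]
      rcases h2 c with rfl | rfl
      · rw [ofAdd_zero, map_one]; exact K.one_mem
      · exact hσK
  obtain ⟨hfinW, hcardW⟩ := CfsgLib.Generators.finite_card_le_factorial_of_isBraidFamily (m + 2) s hfam hgen
  haveI := hfinW
  haveI : Finite P := Finite.of_injective _ (SemidirectProduct.inl_injective (φ := act))
  rw [SemidirectProduct.card, Nat.card_congr Multiplicative.toAdd, Nat.card_zmod,
    show m + 2 + 1 = m + 3 from rfl] at hcardW
  -- the map to the symmetric group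
  obtain ⟨cs, hcs⟩ := CfsgLib.Generators.exists_coxeterSystem_perm (m + 2)
  let t : ℕ → Equiv.Perm (Fin (m + 3)) := fun k =>
    if h : k < m + 2 then cs.simple ⟨k, h⟩ else 1
  have htv : ∀ k (h : k < m + 2), t k = cs.simple ⟨k, h⟩ := fun k h => dif_pos h
  have htsq : ∀ k < m + 2, t k * t k = 1 := fun k h => by rw [htv k h, cs.simple_mul_simple_self]
  have ht3 : ∀ k, k + 1 < m + 2 → (t k * t (k + 1)) ^ 3 = 1 := fun k h => by
    rw [htv k (by omega), htv (k + 1) h]
    have := cs.simple_mul_simple_pow ⟨k, by omega⟩ ⟨k + 1, h⟩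
    rwa [coxeterA_apply, if_neg (by simp [Fin.ext_iff]), if_pos (Or.inr rfl)] at this
  have ht2 : ∀ i j, i + 2 ≤ j → j < m + 2 → (t i * t j) ^ 2 = 1 := fun i j hij hj => by
    rw [htv i (by omega), htv j hj]
    have := cs.simple_mul_simple_pow ⟨i, by omega⟩ ⟨j, hj⟩
    rwa [coxeterA_apply, if_neg (by simp [Fin.ext_iff]; omega), if_neg (by simp only; omega)] at this
  let F : Fin (m + 3 - 2) → Equiv.Perm (Fin (m + 3)) := fun i => t 0 * t (i.val + 1)
  have hF : CarmichaelFamily (m + 3 - 2) F := by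
    have hc : ∀ j : ℕ, 1 ≤ j → j + 1 < m + 2 → t (j + 1) * t 0 = t 0 * t (j + 1) := fun j h1 h2 =>
      (comm_of_pow (htsq 0 (by omega)) (htsq (j + 1) h2) (ht2 0 (j + 1) (by omega) h2)).symm
    have key : ∀ (i j : Fin (m + 3 - 2)) (k : ℕ), i.val < j.val →
        (t (i.val + 1) * t (j.val + 1)) ^ k = 1 → (F i * F j) ^ k = 1 := by
      intro i j k hij h
      have e : F i * F j = t 0 * (t (i.val + 1) * t (j.val + 1)) * t 0 := by
        simp only [F]
        rw [← hc j.val (by omega) (by omega)]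
        group
      rw [e]
      exact sq_conj k (htsq 0 (by omega)) h
    refine ⟨fun i hi => ?_, fun i hi => ?_, fun i j hi => key i j 3 (by omega) ?_,
      fun i j hi => key i j 2 (by omega) ?_⟩
    · simp only [F, hi]; exact ht3 0 (by omega)
    · simp only [F]; exact ht2 0 (i.val + 1) (by omega) (by omega)
    · rw [hi]; exact ht3 (i.val + 1) (by omega)
    · exact ht2 (i.val + 1) (j.val + 1) (by omega) (by omega)
  let φ : P →* Equiv.Perm (Fin (m + 3)) := PresentedGroup.toGroup (f := F) hF.toGroup_cond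
  have hφX : ∀ i, φ (X i) = F i := fun i => PresentedGroup.toGroup.of hF.toGroup_cond
  have hsign : ∀ k < m + 2, Equiv.Perm.sign (t k) = -1 := fun k h => by
    rw [htv k h, hcs, Equiv.Perm.sign_swap (by simp [Fin.ext_iff])]
  have hA : φ.range ≤ alternatingGroup (Fin (m + 3)) := by
    rw [MonoidHom.range_eq_map, ← PresentedGroup.closure_range_of rels, MonoidHom.map_closure,
      Subgroup.closure_le]
    rintro _ ⟨_, ⟨i, rfl⟩, rfl⟩
    rw [SetLike.mem_coe, Equiv.Perm.mem_alternatingGroup]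
    show Equiv.Perm.sign (φ (X i)) = 1
    rw [hφX, map_mul, hsign 0 (by omega), hsign (i.val + 1) (by omega)]
    rfl
  -- the range has index at most two
  have ht0 : t 0 * t 0 = 1 := htsq 0 (by omega)
  have hconj : ∀ p : P, φ (θ p) = t 0 * φ p * t 0 := by
    intro p
    have : φ.comp θ = (MulAut.conj (t 0)).toMonoidHom.comp φ := by
      refine PresentedGroup.ext fun i => ?_
      show φ (θ (X i)) = t 0 * φ (X i) * (t 0)⁻¹
      rw [inv_eq_of_mul_eq_one_right ht0, hθX, hφX]
      simp only [Y]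
      split_ifs with h0
      · rw [map_inv, hφX]
        simp only [F]
        rw [mul_inv_rev, inv_eq_of_mul_eq_one_right ht0,
          inv_eq_of_mul_eq_one_right (htsq (i.val + 1) (by omega)), ← mul_assoc (t 0) (t 0), ht0, one_mul]
      · rw [hφX]
        simp only [F]
        rw [← mul_assoc (t 0) (t 0), ht0, one_mul]
        exact comm_of_pow ht0 (htsq (i.val + 1) (by omega)) (ht2 0 (i.val + 1) (by omega) (by omega))
    have h := DFunLike.congr_fun this p
    simpa [inv_eq_of_mul_eq_one_right ht0] using h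
  let Ψ : P ⋊[act] Multiplicative (ZMod 2) →* Equiv.Perm (Fin (m + 3)) :=
    MonoidHom.mk' (fun g => φ g.left * if Multiplicative.toAdd g.right = 0 then 1 else t 0) (by
      intro g h
      have h2 : ∀ c : ZMod 2, c = 0 ∨ c = 1 := by decide
      have h10 : (1 : ZMod 2) ≠ 0 := by decide
      have h11 : (1 : ZMod 2) + 1 = 0 := by decide
      simp only [SemidirectProduct.mul_left, SemidirectProduct.mul_right, toAdd_mul, map_mul]
      rcases h2 (Multiplicative.toAdd g.right) with e | e <;>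
        rcases h2 (Multiplicative.toAdd h.right) with e' | e' <;>
        simp only [act, MonoidHom.mk'_apply, e, e', zero_add, add_zero, h11, h10, if_true, if_false,
          mul_one, MulAut.one_apply, mul_assoc]
      · show φ g.left * φ (θ h.left) * t 0 = _
        rw [hconj, mul_assoc (φ g.left), mul_assoc (t 0 * φ h.left), ht0, mul_one]
      · show φ g.left * φ (θ h.left) = _
        rw [hconj, mul_assoc (t 0)])
  have hΨ : Function.Surjective Ψ := by
    rw [← MonoidHom.range_eq_top, eq_top_iff, ← cs.subgroup_closure_range_simple, Subgroup.closure_le]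
    rintro _ ⟨⟨k, hk⟩, rfl⟩
    rw [← htv k hk]
    cases k with
    | zero =>
      refine ⟨σ, ?_⟩
      show φ 1 * (if Multiplicative.toAdd (Multiplicative.ofAdd (1 : ZMod 2)) = 0 then 1 else t 0) = t 0
      rw [map_one, one_mul, toAdd_ofAdd, if_neg (show ¬ (1 : ZMod 2) = 0 by decide)]
    | succ k =>
      refine ⟨σ * SemidirectProduct.inl (X ⟨k, by omega⟩), ?_⟩
      rw [map_mul]
      show φ 1 * (if Multiplicative.toAdd (Multiplicative.ofAdd (1 : ZMod 2)) = 0 then 1 else t 0) *
        (φ (X ⟨k, by omega⟩) * (if (0 : ZMod 2) = 0 then 1 else t 0)) = _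
      rw [map_one, one_mul, toAdd_ofAdd, if_neg (show ¬ (1 : ZMod 2) = 0 by decide), if_pos rfl, mul_one, hφX]
      simp only [F]
      rw [← mul_assoc, ht0, one_mul]
  let π : P →* alternatingGroup (Fin (m + 3)) := φ.codRestrict _ fun p => hA ⟨p, rfl⟩
  have hn2 : 2 * Nat.card (alternatingGroup (Fin (m + 3))) = (m + 3).factorial := by
    rw [two_mul_nat_card_alternatingGroup, Nat.card_perm, Nat.card_fin]
  have hR : Nat.card (alternatingGroup (Fin (m + 3))) ≤ Nat.card φ.range := by
    have h : Nat.card (Equiv.Perm (Fin (m + 3))) ≤ Nat.card (φ.range × Multiplicative (ZMod 2)) := by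
      refine Nat.card_le_card_of_surjective
        (fun q => (q.1 : Equiv.Perm (Fin (m + 3))) * if Multiplicative.toAdd q.2 = 0 then 1 else t 0) ?_
      intro g
      obtain ⟨w, rfl⟩ := hΨ g
      exact ⟨(⟨φ w.left, w.left, rfl⟩, w.right), rfl⟩
    rw [Nat.card_prod, Nat.card_congr Multiplicative.toAdd, Nat.card_zmod, Nat.card_perm,
      Nat.card_fin] at h
    omega
  have hsurj : Function.Surjective π := by
    intro a
    have heq := Subgroup.eq_of_le_of_card_ge hA hR
    obtain ⟨p, hp⟩ : (a : Equiv.Perm (Fin (m + 3))) ∈ φ.range := heq.ge a.2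
    exact ⟨p, Subtype.ext hp⟩
  exact ⟨MulEquiv.ofBijective π ((Nat.bijective_iff_surjective_and_card _).2
    ⟨hsurj, le_antisymm (show Nat.card P ≤ _ by omega) (Nat.card_le_card_of_surjective π hsurj)⟩)⟩

end Cfsg.Agent.S3335
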