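import Cfsg.Statements.S3341
import Cfsg.Agent.Lib.PermGroups.SelfCentralizingNineCases
import Cfsg.Agent.S0497

set_option autoImplicit false
open Cfsg

namespace Cfsg.Agent.S3341

/-- Let G be a finite simple group whose Sylow 3-subgroup S is elementary abelian of order 9, such that G has more than one conjugacy class of elements of order 3 and C_G(s) = S for every non-identity s in S. Then G is isomorphic to the alternating group of degree 6. -/
theorem result {G : Type*} [Group G] [Finite G] [IsSimpleGroup G]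
    (P : Sylow 3 G) (S : Subgroup G) (hSP : S = P) (hcomm : IsMulCommutative S) (hexp : ∀ a ∈ S, a ^ 3 = 1)
    (hcard : Nat.card S = 9)
    (hclasses : ∃ a b : G, orderOf a = 3 ∧ orderOf b = 3 ∧ ∀ g : G, g * a * g⁻¹ ≠ b)
    (hcent : ∀ s ∈ S, s ≠ 1 → Subgroup.centralizer ({s} : Set G) = S) :
    Nonempty (G ≃* alternatingGroup (Fin 6)) := by
  subst hSP
  classical
  haveI : Fact (Nat.Prime 3) := ⟨Nat.prime_three⟩
  haveI := Fintype.ofFinite G
  have h : CfsgLib.PermGroups.SelfCentNine P := ⟨hcomm, hexp, hcard, hcent⟩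
  obtain ⟨a, b, ha, hb, hab⟩ := hclasses
  have h1 := h.one_lt_nineIndex
  obtain ⟨hle, h8⟩ := h.mem_autP_le
  have hne8 : CfsgLib.PermGroups.nineIndex P ≠ 8 := by
    intro e
    obtain ⟨c, hc⟩ := h.exists_conj_mem ha
    obtain ⟨d, hd⟩ := h.exists_conj_mem hb
    have hc1 : (⟨_, hc⟩ : (P : Subgroup G)) ≠ 1 := fun e' => by
      have := conj_eq_one_iff.1 (congrArg Subtype.val e')
      simp [this] at ha
    have hd1 : (⟨_, hd⟩ : (P : Subgroup G)) ≠ 1 := fun e' => by
      have := conj_eq_one_iff.1 (congrArg Subtype.val e')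
      simp [this] at hb
    have hconj : IsConj a b := ((isConj_iff.2 ⟨c, rfl⟩).trans (h8 _ hc1 e _ hd1)).trans
      (isConj_iff.2 ⟨d, rfl⟩).symm
    obtain ⟨g, hg⟩ := isConj_iff.1 hconj
    exact hab g hg
  obtain ⟨n, hn9, hG, hn⟩ := h.card_group
  have hnc : ∃ x y : G, x * y ≠ y * x := by
    by_contra hne
    push Not at hne
    have hN : (P : Subgroup G).Normal := ⟨fun x hx g => by rw [hne g x, mul_inv_cancel_right]; exact hx⟩
    rcases hN.eq_bot_or_eq_top with e | e
    · rw [e, Subgroup.card_bot] at hcard; omega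
    · obtain ⟨s, hs⟩ : ∃ s : G, s ≠ 1 := exists_ne 1
      have hz : (Subgroup.zpowers a).Normal :=
        ⟨fun x hx g => by rw [hne g x, mul_inv_cancel_right]; exact hx⟩
      have h3 : Nat.card (Subgroup.zpowers a) = 3 := by rw [Nat.card_zpowers, ha]
      rcases hz.eq_bot_or_eq_top with e' | e' <;> rw [e'] at h3
      · simp at h3
      · rw [e] at hcard
        omega
  obtain ⟨M, hM⟩ := CfsgLib.Blocks.exists_isPModular_of_prime Nat.prime_three
  haveI := CfsgLib.Blocks.isPrime_of_isPModular hM
  have hdvd : CfsgLib.PermGroups.nineIndex P ∣ 8 := by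
    obtain ⟨D⟩ := CfsgLib.BlockSections.Exceptional.exists_excData h.isFrobSylow hM h1 (by
      rw [h.card]; omega)
    exact ⟨Nat.card D.Y, by have := D.card_Y; rw [h.card] at this; rw [mul_comm]; omega⟩
  have h24 : CfsgLib.PermGroups.nineIndex P = 2 ∨ CfsgLib.PermGroups.nineIndex P = 4 := by
    have := (Nat.dvd_prime_pow Nat.prime_two (m := 3)).1 hdvd
    obtain ⟨i, hi, hpow⟩ := this
    interval_cases i <;> simp_all
  rcases h24 with h2 | h4
  · exact (h.false_of_two hM hnc h2).elim
  have hle720 := h.card_le_of_four hM h4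
  rw [h4] at hG
  have hn1 : n ≠ 1 := by
    intro e
    rw [e] at hn
    have : Subsingleton (Sylow 3 G) := (Nat.card_eq_one_iff_unique.1 hn).1
    rcases (Sylow.normal_of_subsingleton (P := P)).eq_bot_or_eq_top with e' | e'
    · rw [e', Subgroup.card_bot] at hcard; omega
    · rw [e', Subgroup.card_top] at hcard; omega
  have h19 : n ≠ 19 := by
    intro e
    rw [e] at hG
    haveI : Fact (Nat.Prime 19) := ⟨by norm_num⟩
    obtain ⟨Q⟩ := (inferInstance : Nonempty (Sylow 19 G))
    have hQ : Nat.card (Q : Subgroup G) = 19 := by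
      rw [Q.card_eq_multiplicity, hG]
      rw [show Nat.factorization (19 * (9 * 4)) 19 = 1 from ?_]
      · norm_num
      rw [Nat.factorization_mul (by norm_num) (by norm_num), Finsupp.add_apply,
        Nat.Prime.factorization_self (by norm_num), Nat.factorization_eq_zero_of_not_dvd (by norm_num)]
    have hidx : (Q : Subgroup G).index = 36 := by
      have := Subgroup.card_mul_index (Q : Subgroup G)
      rw [hQ, hG] at this
      omega
    have hd := Q.card_dvd_index
    rw [hidx] at hd
    have hm : Nat.card (Sylow 19 G) % 19 = 1 := card_sylow_modEq_one 19 G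
    have hle36 := Nat.le_of_dvd (by norm_num) hd
    have h1' : Nat.card (Sylow 19 G) = 1 := by
      interval_cases hk : Nat.card (Sylow 19 G) <;> omega
    have : Subsingleton (Sylow 19 G) := (Nat.card_eq_one_iff_unique.1 h1').1
    rcases (Sylow.normal_of_subsingleton (P := Q)).eq_bot_or_eq_top with e' | e'
    · rw [e', Subgroup.card_bot] at hQ; omega
    · rw [e', Subgroup.card_top] at hQ; omega
  exact Cfsg.Agent.S0497.result (by omega : Nat.card G = 360)

end Cfsg.Agent.S3341
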