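import Cfsg.Statements.S3345
import Cfsg.Agent.Lib.OrthEightRecog.Closure
import Cfsg.Agent.Lib.SectRank.WeaklyClosed
import Cfsg.Agent.Lib.Cores.GenFitting
import Cfsg.Agent.Lib.PGroups.Extraspecial
-- import your own Cfsg.Agent.* helpers here

set_option autoImplicit false
open Cfsg

namespace Cfsg.Agent.S3345

/-- Let G be a finite group with O^2(G) = G and an involution t with centralizer C such that F*(C) is extraspecial of order 2^9, C/O₂(C) is isomorphic to Sym(3) × Sym(3) × Sym(3), and C_G(O₂(C)) ≤ O₂(C). Then either the image of t is central in G/O_{2'}(G), or G is isomorphic to Ω⁺(8,2), the commutator subgroup of the isometry group of the hyperbolic quadratic form in dimension 8 over the field with 2 elements. -/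
theorem result {G : Type*} [Group G] [Finite G]
    (hG : Cfsg.pResidual 2 G = ⊤) (t : G) (ht : orderOf t = 2)
    (C : Subgroup G) (hC : C = Subgroup.centralizer ({t} : Set G))
    (hF : Cfsg.IsExtraspecial 2 (Cfsg.generalizedFittingSubgroup C))
    (hFcard : Nat.card (Cfsg.generalizedFittingSubgroup C) = 2 ^ 9)
    (e : C ⧸ Cfsg.pCore 2 C ≃* Equiv.Perm (Fin 3) × Equiv.Perm (Fin 3) × Equiv.Perm (Fin 3))
    (hcc : Subgroup.centralizer (((Cfsg.pCore 2 C).map C.subtype : Subgroup G) : Set G) ≤ (Cfsg.pCore 2 C).map C.subtype) :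
    (∀ g : G, g * t * g⁻¹ * t⁻¹ ∈ Cfsg.oddCore G) ∨
      Nonempty (G ≃* Cfsg.Omega (ZMod 2) (Cfsg.quadFormPlus 4 (ZMod 2))) := by
  haveI := Fact.mk Nat.prime_two
  subst hC
  set C := Subgroup.centralizer ({t} : Set G) with hCdef
  -- the generalised Fitting subgroup is the two-core
  have hF2 : IsPGroup 2 (Cfsg.generalizedFittingSubgroup C) := IsPGroup.of_card hFcard
  have hFeq : Cfsg.generalizedFittingSubgroup C = Cfsg.pCore 2 C :=
    le_antisymm (le_sSup ⟨inferInstance, hF2⟩) (CfsgLib.Cores.pCore_le_generalizedFittingSubgroup 2)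
  rw [hFeq] at hF hFcard
  set Q : Subgroup G := (Cfsg.pCore 2 C).map C.subtype with hQ
  have eQ : ↥(Cfsg.pCore 2 C) ≃* ↥Q := (Cfsg.pCore 2 C).equivMapOfInjective C.subtype C.subtype_injective
  have hext : Cfsg.IsExtraspecial 2 ↥Q := CfsgLib.PGroups.IsExtraspecial.of_mulEquiv eQ hF
  have hcardQ : Nat.card Q = 512 := by
    rw [← Nat.card_congr eQ.toEquiv, hFcard]; norm_num
  have D := CfsgLib.SectRank.LargeExtra.Data.of_pCore ht hQ hext hcc
  let π : ↥C →* CfsgLib.OrthEightRecog.L3 := e.toMonoidHom.comp (QuotientGroup.mk' (Cfsg.pCore 2 C))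
  have hker : ∀ c : ↥C, π c = 1 ↔ (c : G) ∈ Q := by
    intro c
    show e (QuotientGroup.mk c) = 1 ↔ _
    rw [MulEquiv.map_eq_one_iff, QuotientGroup.eq_one_iff, hQ]
    exact (Subgroup.mem_map_iff_mem C.subtype_injective).symm
  have hsurj : Function.Surjective π := e.surjective.comp (QuotientGroup.mk'_surjective _)
  let H : CfsgLib.OrthEightRecog.Hyp t Q := ⟨D, hcardQ, π, hsurj, hker⟩
  -- a subgroup of index two in the centraliser
  let χ : ↥C →* ℤˣ := Equiv.Perm.sign.comp ((MonoidHom.fst _ _).comp π)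
  have hχ : Function.Surjective χ := fun s => by
    obtain ⟨p, hp⟩ := Equiv.Perm.sign_surjective (Fin 3) s
    obtain ⟨c, hc⟩ := hsurj (p, 1, 1)
    exact ⟨c, by show Equiv.Perm.sign (π c).1 = s; rw [hc]; exact hp⟩
  have hKi : (χ.ker.map C.subtype).relIndex C = 2 := by
    rw [Subgroup.relIndex, Subgroup.subgroupOf, Subgroup.comap_map_eq_self_of_injective C.subtype_injective,
      Subgroup.index_ker, MonoidHom.range_eq_top.2 hχ, Subgroup.card_top, Nat.card_eq_fintype_card]
    rfl
  obtain ⟨g₀, hg₀, hne⟩ := D.not_weakly_closed hG (by rw [hcardQ]; norm_num) hKi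
  obtain ⟨g, a, V, iV, fV, F, -, hga⟩ := CfsgLib.OrthEightRecog.exists_frame H rfl hg₀ hne
  obtain ⟨R⟩ := CfsgLib.OrthEightRecog.exists_roots F hga
  obtain ⟨L⟩ := CfsgLib.OrthEightRecog.exists_levi R
  obtain ⟨E⟩ := CfsgLib.OrthEightRecog.exists_emb L
  exact Or.inr (CfsgLib.OrthEightRecog.equiv_model E)

end Cfsg.Agent.S3345
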