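import Cfsg.Statements.S3349
import Mathlib

set_option autoImplicit false
open Cfsg

namespace Cfsg.Agent.S3349

/-- Let Q be a finite extraspecial p-group and α an automorphism of Q fixing every element of some maximal abelian subgroup of Q. Then the order of α is a power of p. -/
theorem result {Q : Type*} [Group Q] [Finite Q]
    (p : ℕ) [Fact p.Prime] (hQ : Cfsg.IsExtraspecial p Q) (α : MulAut Q)
    (A : Subgroup Q) (hA : IsMulCommutative A) (hmax : ∀ B : Subgroup Q, A ≤ B → IsMulCommutative B → B = A)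
    (hfix : ∀ a ∈ A, α a = a) :
    ∃ k : ℕ, orderOf α = p ^ k := by
  obtain ⟨⟨hpg, -, hder⟩, -⟩ := hQ
  have hcent : ∀ c : Q, (∀ a ∈ A, a * c = c * a) → c ∈ A := by
    intro c hc
    have hB : IsMulCommutative (Subgroup.closure ((A : Set Q) ∪ {c})) := by
      refine Subgroup.isMulCommutative_closure ?_
      rintro x (hx | rfl) y (hy | rfl)
      · exact setLike_mul_comm hx hy
      · exact hc x hx
      · exact (hc y hy).symm
      · rfl
    have := hmax _ (fun a ha => Subgroup.subset_closure (Or.inl ha)) hB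
    exact this ▸ Subgroup.subset_closure (Or.inr rfl)
  have hconj : ∀ (x : Q), ∀ a ∈ A, x * a * x⁻¹ ∈ A := by
    intro x a ha
    have h1 : x * a * x⁻¹ * a⁻¹ ∈ A := by
      refine hcent _ fun b _ => ?_
      have : x * a * x⁻¹ * a⁻¹ ∈ Subgroup.center Q := hder ▸
        Subgroup.commutator_mem_commutator (Subgroup.mem_top x) (Subgroup.mem_top a)
      exact Subgroup.mem_center_iff.mp this b
    simpa using mul_mem h1 ha
  have hdiff : ∀ x : Q, x⁻¹ * α x ∈ A := by
    intro x
    refine hcent _ fun a ha => ?_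
    have h := hfix _ (hconj x a ha)
    rw [map_mul, map_mul, map_inv, hfix a ha] at h
    have h' : α x * a = x * a * x⁻¹ * α x := mul_inv_eq_iff_eq_mul.mp h
    rw [mul_assoc x⁻¹, h']; group
  have hiter : ∀ (x : Q) (k : ℕ), (α ^ k) x = x * (x⁻¹ * α x) ^ k := by
    intro x k
    induction k with
    | zero => simp
    | succ k ih =>
      rw [pow_succ', MulAut.mul_apply, ih, map_mul, map_pow, hfix _ (hdiff x), pow_succ', ← mul_assoc x,
        mul_inv_cancel_left]
  obtain ⟨n, hn⟩ := IsPGroup.iff_card.mp hpg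
  have hα : α ^ p ^ n = 1 := by
    ext x
    rw [hiter, ← hn, pow_card_eq_one', mul_one, MulAut.one_apply]
  obtain ⟨k, -, hk⟩ := (Nat.dvd_prime_pow Fact.out).mp (orderOf_dvd_of_pow_eq_one hα)
  exact ⟨k, hk⟩

end Cfsg.Agent.S3349
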