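import Cfsg.Statements.S3365
import Cfsg.Agent.Lib.Spectrum.FixityFourThree
import Cfsg.Agent.Lib.Spectrum.FixityFourTwoA
import Cfsg.Agent.Lib.Spectrum.FixityFourTwoB

set_option autoImplicit false
open Cfsg

namespace Cfsg.Agent.S3365

/-- Finite simple groups acting with fixity 4. Let G be a finite non-abelian simple group acting faithfully and transitively on a finite set so that every non-identity element fixes at most 4 points and some non-identity element fixes exactly 4 (fixity 4). Let P be a Sylow 3-subgroup, S a Sylow 2-subgroup, f the largest number of fixed points of an involution of G, and a a point. Then one of the following holds: (1) f ≥ 1 and G has a strongly embedded subgroup; (2) 1 ≤ f ≤ 3 and S is dihedral or semidihedral; (3) f = 4 and G has sectional 2-rank at most 4; (4) the point stabilizer G_a has odd order divisible by 3 and either G has a strongly 3-embedded subgroup (a proper subgroup H of order divisible by 3 such that H ∩ gHg⁻¹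 has order prime to 3 for every element g outside H), or |P| = 3 and a Sylow 2-subgroup of N_G(P) has order at most 4, or P is elementary abelian of order 9, or P is extraspecial of order 27 and exponent 3, or P is isomorphic to a Sylow 3-subgroup of Sym(9) (the wreath product C₃ ≀ C₃); (5) G_a has order prime to 6. -/
theorem result {G Ω : Type*} [Group G] [Finite G] [IsSimpleGroup G] (hna : ¬ IsMulCommutative G)
    [MulAction G Ω] [FaithfulSMul G Ω] [Finite Ω] (htrans : MulAction.IsPretransitive G Ω)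
    (hfix : ∀ g : G, g ≠ 1 → Nat.card (MulAction.fixedBy Ω g) ≤ 4)
    (hfix4 : ∃ g : G, g ≠ 1 ∧ Nat.card (MulAction.fixedBy Ω g) = 4)
    (P : Sylow 3 G) (S : Sylow 2 G) (f : ℕ)
    (hf : ∀ g : G, orderOf g = 2 → Nat.card (MulAction.fixedBy Ω g) ≤ f)
    (hf' : ∃ g : G, orderOf g = 2 ∧ Nat.card (MulAction.fixedBy Ω g) = f) (a : Ω) :
    (1 ≤ f ∧ ∃ H : Subgroup G, Cfsg.IsStronglyEmbedded H) ∨
    (1 ≤ f ∧ f ≤ 3 ∧ ((∃ n : ℕ, Nonempty ((S : Subgroup G) ≃* DihedralGroup n)) ∨ Cfsg.IsQuasiDihedral (S : Subgroup G))) ∨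
    (f = 4 ∧ Cfsg.SectionalPRankLE 2 4 G) ∨
    (Odd (Nat.card (MulAction.stabilizer G a)) ∧ 3 ∣ Nat.card (MulAction.stabilizer G a) ∧
      ((∃ H : Subgroup G, H ≠ ⊤ ∧ 3 ∣ Nat.card H ∧ ∀ g : G, g ∉ H → ¬ 3 ∣ Nat.card ↥(H ⊓ H.map (MulAut.conj g).toMonoidHom)) ∨
       (Nat.card P = 3 ∧ ∀ T : Sylow 2 (Subgroup.normalizer ((P : Subgroup G) : Set G)), Nat.card T ≤ 4) ∨
       (Nat.card P = 9 ∧ ∀ x ∈ (P : Subgroup G), x ^ 3 = 1) ∨
       (Nat.card P = 27 ∧ Cfsg.IsExtraspecial 3 (P : Subgroup G) ∧ ∀ x ∈ (P : Subgroup G), x ^ 3 = 1) ∨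
       (∃ T : Sylow 3 (Equiv.Perm (Fin 9)), Nonempty ((P : Subgroup G) ≃* (T : Subgroup (Equiv.Perm (Fin 9))))))) ∨
    (Nat.card (MulAction.stabilizer G a)).Coprime 6 := by
  classical
  have : Fact (Nat.Prime 2) := ⟨Nat.prime_two⟩
  have : Fact (Nat.Prime 3) := ⟨Nat.prime_three⟩
  have : MulAction.IsPretransitive G Ω := htrans
  have hle : ∀ g : G, g ≠ 1 → (MulAction.fixedBy Ω g).ncard ≤ 4 := fun g hg => by
    rw [← Nat.card_coe_set_eq]; exact hfix g hg
  have hfn : ∀ g : G, orderOf g = 2 → (MulAction.fixedBy Ω g).ncard ≤ f := fun g hg => by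
    rw [← Nat.card_coe_set_eq]; exact hf g hg
  obtain ⟨t₀, ht₀, ht₀f⟩ := hf'
  rw [Nat.card_coe_set_eq] at ht₀f
  have hf4 : f ≤ 4 := ht₀f ▸ hle t₀ (fun e => by simp [e] at ht₀)
  rcases (show f = 0 ∨ (1 ≤ f ∧ f ≤ 3) ∨ f = 4 by omega) with rfl | ⟨h1, h3⟩ | rfl
  · -- point stabilisers have odd order
    have hodd : ∀ (g : G) (b : Ω), g • b = b → Odd (orderOf g) := by
      intro g b hgb
      by_contra hev
      rw [Nat.not_odd_iff_even] at hev
      have ho : orderOf (g ^ (orderOf g / 2)) = 2 :=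
        orderOf_pow_orderOf_div (orderOf_pos g).ne' (even_iff_two_dvd.1 hev)
      have hb : b ∈ MulAction.fixedBy Ω (g ^ (orderOf g / 2)) :=
        CfsgLib.Spectrum.FixFour.fixedBy_subset_pow g _ hgb
      have := (Set.ncard_pos (Set.toFinite _)).2 ⟨b, hb⟩
      have := hfn _ ho
      omega
    have hGa : Odd (Nat.card (MulAction.stabilizer G a)) := by
      rw [← Nat.not_even_iff_odd, even_iff_two_dvd]
      intro hd
      obtain ⟨x, hx⟩ := exists_prime_orderOf_dvd_card' 2 hd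
      have := hodd (x : G) a x.2
      rw [Subgroup.orderOf_coe, hx] at this
      exact absurd this (by decide)
    right; right; right
    by_cases h3 : 3 ∣ Nat.card (MulAction.stabilizer G a)
    · left
      refine ⟨hGa, h3, ?_⟩
      by_cases h9 : Nat.card P = 9 ∧ ∀ x ∈ (P : Subgroup G), x ^ 3 = 1
      · exact Or.inr (Or.inr (Or.inl h9))
      · obtain ⟨x, hx⟩ := exists_prime_orderOf_dvd_card' 3 h3
        exact Or.inl (CfsgLib.Spectrum.FixFour.odd_case hna htrans hle hodd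
          ⟨x, a, by rw [Subgroup.orderOf_coe, hx], x.2⟩ P h9)
    · right
      rw [show (6 : ℕ) = 2 * 3 by norm_num]
      exact Nat.Coprime.mul_right (Nat.coprime_two_right.2 hGa)
        ((Nat.prime_three.coprime_iff_not_dvd.2 h3).symm)
  · rcases CfsgLib.Spectrum.FixFour.low_case hna htrans f h1 h3 hfn ⟨t₀, ht₀, ht₀f⟩ S with h | h
    · exact Or.inl ⟨h1, h⟩
    · exact Or.inr (Or.inl ⟨h1, h3, h⟩)
  · have hF := CfsgLib.Spectrum.FixFour.Four.of_max hna hle ⟨t₀, ht₀, ht₀f⟩
    by_cases h8 : 8 ∣ Nat.card Ω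
    · exact Or.inr (Or.inr (Or.inl ⟨rfl, hF.case_eight h8 ⟨t₀, ht₀, ht₀f⟩⟩))
    · have h84 : Nat.card Ω % 8 = 4 := by
        have := hF.four_dvd
        omega
      rcases hF.case_four h84 S ⟨t₀, ht₀, ht₀f⟩ with h | h
      · exact Or.inl ⟨by norm_num, h⟩
      · exact Or.inr (Or.inr (Or.inl ⟨rfl, h⟩))

end Cfsg.Agent.S3365
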