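import Cfsg.Statements.S3366
import Cfsg.Agent.Lib.Spectrum.ThreeCentralRecognition

set_option autoImplicit false
open Cfsg

namespace Cfsg.Agent.S3366

/-- Let X be a finite group with O₃(X) extraspecial of order 27 and exponent 3, X/O₃(X) isomorphic to SL(2,3), O₂(X) = 1, and a Sylow 3-subgroup of X containing an elementary abelian subgroup of order 27. Then X is isomorphic to the centralizer in PSp(4,3) of a 3-central element of order 3 (an element of order 3 in the centre of a Sylow 3-subgroup). -/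
theorem result {X : Type*} [Group X] [Finite X]
    (hR : Cfsg.IsExtraspecial 3 (Cfsg.pCore 3 X)) (hRcard : Nat.card (Cfsg.pCore 3 X) = 27)
    (hRexp : ∀ r ∈ Cfsg.pCore 3 X, r ^ 3 = 1)
    (e : X ⧸ Cfsg.pCore 3 X ≃* Matrix.SpecialLinearGroup (Fin 2) (ZMod 3))
    (hO2 : Cfsg.pCore 2 X = ⊥)
    (hE : ∃ E : Subgroup X, IsMulCommutative E ∧ (∀ a ∈ E, a ^ 3 = 1) ∧ Nat.card E = 27)
    (F : Type*) [Field F] [Fintype F] (hF : Fintype.card F = 3) :
    ∃ (c : Cfsg.PSp 2 F) (S : Sylow 3 (Cfsg.PSp 2 F)), orderOf c = 3 ∧ c ∈ (S : Subgroup (Cfsg.PSp 2 F)) ∧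
      c ∈ Subgroup.centralizer ((S : Subgroup (Cfsg.PSp 2 F)) : Set (Cfsg.PSp 2 F)) ∧
      Nonempty (X ≃* Subgroup.centralizer ({c} : Set (Cfsg.PSp 2 F))) := by
  classical
  have : Fact (Nat.Prime 3) := ⟨Nat.prime_three⟩
  obtain ⟨Ψ₀, z, hinj, hzo, hzR, hzc, hzv, hsurj, hCR⟩ :=
    CfsgLib.Spectrum.ThreeCentral.exists_embedding hR hRcard hRexp e hO2 hE
  let r : ZMod 3 ≃+* F := ZMod.ringEquivOfPrime F Nat.prime_three hF
  let φ : Matrix.symplecticGroup (Fin 2) (ZMod 3) ≃* Matrix.symplecticGroup (Fin 2) F :=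
    { toFun := fun A => ⟨(A : Matrix (Fin 2 ⊕ Fin 2) (Fin 2 ⊕ Fin 2) (ZMod 3)).map r.toRingHom,
        SymplecticGroup.map_mem A.2 r.toRingHom⟩
      invFun := fun A => ⟨(A : Matrix (Fin 2 ⊕ Fin 2) (Fin 2 ⊕ Fin 2) F).map r.symm.toRingHom,
        SymplecticGroup.map_mem A.2 r.symm.toRingHom⟩
      left_inv := fun A => Subtype.ext (Matrix.ext fun i j => r.symm_apply_apply _)
      right_inv := fun A => Subtype.ext (Matrix.ext fun i j => r.apply_symm_apply _)
      map_mul' := fun A B => Subtype.ext (by simp [Matrix.map_mul]) }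
  have hcen : (Subgroup.center (Matrix.symplecticGroup (Fin 2) (ZMod 3))).map φ.toMonoidHom =
      Subgroup.center (Matrix.symplecticGroup (Fin 2) F) := by
    ext x
    simp only [Subgroup.mem_map, Subgroup.mem_center_iff, MulEquiv.coe_toMonoidHom]
    constructor
    · rintro ⟨y, hy, rfl⟩ u
      have := congrArg φ (hy (φ.symm u))
      simpa using this
    · intro hx
      exact ⟨φ.symm x, fun u => φ.injective (by simpa using hx (φ u)), φ.apply_symm_apply x⟩
  let ψ : Cfsg.PSp 2 (ZMod 3) ≃* Cfsg.PSp 2 F := QuotientGroup.congr _ _ φ hcen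
  let Ψ : X →* Cfsg.PSp 2 F := ψ.toMonoidHom.comp Ψ₀
  have hΨinj : Function.Injective Ψ := ψ.injective.comp hinj
  set c := Ψ z with hc
  have hco : orderOf c = 3 := by rw [hc, orderOf_injective Ψ hΨinj, hzo]
  have hmem : ∀ y : Cfsg.PSp 2 F, Commute y c ↔ ∃ x, Ψ x = y := by
    intro y
    constructor
    · intro hy
      obtain ⟨x, hx⟩ := hsurj (ψ.symm y) (by
        have h := hy.map ψ.symm.toMonoidHom
        rw [← hzv]
        simpa [hc, Ψ] using h)
      exact ⟨x, show ψ (Ψ₀ x) = y by rw [hx, MulEquiv.apply_symm_apply]⟩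
    · rintro ⟨x, rfl⟩
      exact ((hzc x).symm.map Ψ)
  have hrange : Ψ.range = Subgroup.centralizer ({c} : Set (Cfsg.PSp 2 F)) := by
    ext y
    rw [Subgroup.mem_centralizer_singleton_iff, MonoidHom.mem_range]
    exact ((hmem y).symm.trans Iff.rfl)
  have hRp : IsPGroup 3 ((Cfsg.pCore 3 X).map Ψ) :=
    (IsPGroup.of_card (n := 3) (by rw [hRcard]; norm_num)).map Ψ
  obtain ⟨S, hS⟩ := hRp.exists_le_sylow
  have hcS : c ∈ (S : Subgroup (Cfsg.PSp 2 F)) := hS ⟨z, hzR, rfl⟩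
  refine ⟨c, S, hco, hcS, ?_, ⟨(MonoidHom.ofInjective hΨinj).trans (MulEquiv.subgroupCongr hrange)⟩⟩
  -- the centre of the Sylow subgroup is generated by `c`
  have hnt : Nontrivial (S : Subgroup (Cfsg.PSp 2 F)) := by
    rw [Subgroup.nontrivial_iff_exists_ne_one]
    exact ⟨c, hcS, fun h => by rw [h, orderOf_one] at hco; omega⟩
  have := S.2.center_nontrivial
  obtain ⟨⟨w, hw⟩, hw1⟩ := exists_ne (1 : Subgroup.center (S : Subgroup (Cfsg.PSp 2 F)))
  have hwc : ∀ s ∈ (S : Subgroup (Cfsg.PSp 2 F)), Commute (w : Cfsg.PSp 2 F) s := fun s hs =>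
    (congrArg Subtype.val (Subgroup.mem_center_iff.1 hw ⟨s, hs⟩)).symm
  obtain ⟨x, hx⟩ := (hmem _).1 (hwc c hcS)
  obtain ⟨n, hn⟩ := Subgroup.mem_zpowers_iff.1 (hCR x fun r hr => by
    have h := hwc (Ψ r) (hS ⟨r, hr, rfl⟩)
    rw [← hx, commute_iff_eq, ← map_mul, ← map_mul] at h
    exact hΨinj h)
  have hwn : (w : Cfsg.PSp 2 F) = c ^ n := by rw [← hx, ← hn, map_zpow]
  have hcw : c ∈ Subgroup.zpowers (w : Cfsg.PSp 2 F) := by
    have hle : Subgroup.zpowers (w : Cfsg.PSp 2 F) ≤ Subgroup.zpowers c :=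
      Subgroup.zpowers_le.2 ⟨n, hwn.symm⟩
    have hne : orderOf (w : Cfsg.PSp 2 F) ≠ 1 := fun h =>
      hw1 (Subtype.ext (Subtype.ext (orderOf_eq_one_iff.1 h)))
    have hd : orderOf (w : Cfsg.PSp 2 F) ∣ 3 := by
      have := Subgroup.card_dvd_of_le hle
      rwa [Nat.card_zpowers, Nat.card_zpowers, hco] at this
    have h3 := ((Nat.dvd_prime Nat.prime_three).1 hd).resolve_left hne
    rw [Subgroup.eq_of_le_of_card_ge hle (by rw [Nat.card_zpowers, Nat.card_zpowers, hco, h3])]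
    exact Subgroup.mem_zpowers c
  obtain ⟨m, hm⟩ := Subgroup.mem_zpowers_iff.1 hcw
  rw [Subgroup.mem_centralizer_iff]
  intro s hs
  rw [← hm]
  exact ((hwc s hs).zpow_left m).symm.eq

end Cfsg.Agent.S3366
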