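import Cfsg.Statements.S3376
import Mathlib

set_option autoImplicit false
open Cfsg

namespace Cfsg.Agent.S3376

/-- The product of three 3-cycles. -/
abbrev target : Equiv.Perm (Fin 9) :=
  Equiv.swap (0 : Fin 9) 1 * Equiv.swap 1 2 * Equiv.swap 3 4 * Equiv.swap 4 5 * Equiv.swap 6 7 * Equiv.swap 7 8

theorem target_cycleType : target.cycleType = {3, 3, 3} := by
  have h3 : target ^ 3 = 1 := by decide
  have hne : ∀ i, target i ≠ i := by decide
  have ho : orderOf target = 3 := by
    haveI : Fact (Nat.Prime 3) := ⟨Nat.prime_three⟩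
    exact orderOf_eq_prime h3 (fun e => hne 0 (by rw [e]; rfl))
  obtain ⟨n, hn⟩ := Equiv.Perm.cycleType_prime_order (σ := target) (by rw [ho]; exact Nat.prime_three)
  rw [ho] at hn
  have h1 := Equiv.Perm.sum_cycleType target
  rw [hn, Multiset.sum_replicate, smul_eq_mul,
    show target.support = Finset.univ from Finset.eq_univ_of_forall fun i => Equiv.Perm.mem_support.2 (hne i),
    Finset.card_univ, Fintype.card_fin] at h1
  have : n = 2 := by omega
  subst this
  rw [hn]; rfl

/-- Let G be a group of order 162 = 3⁴·2 with Sylow 3-subgroup S and Sylow 2-subgroup T, having an elementary abelian normal subgroup J of order 27, such that Z = Z(S) has order 3, Z centralizes T, and C_S(T) ≠ S. Then G is isomorphic to the centralizer in Sym(9) of a product of three disjoint 3-cycles. -/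
theorem result {G : Type*} [Group G] [Finite G] (hG : Nat.card G = 162)
    (S : Sylow 3 G) (T : Sylow 2 G) (J : Subgroup G) [hJn : J.Normal] (hJcomm : IsMulCommutative J)
    (hJexp : ∀ a ∈ J, a ^ 3 = 1) (hJcard : Nat.card J = 27)
    (Z : Subgroup G) (hZ : Z = (S : Subgroup G) ⊓ Subgroup.centralizer ((S : Subgroup G) : Set G)) (hZcard : Nat.card Z = 3)
    (hZT : Z ≤ Subgroup.centralizer ((T : Subgroup G) : Set G))
    (hST : (S : Subgroup G) ⊓ Subgroup.centralizer ((T : Subgroup G) : Set G) ≠ S) :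
    Nonempty (G ≃* Subgroup.centralizer ({Equiv.swap (0 : Fin 9) 1 * Equiv.swap 1 2 * Equiv.swap 3 4 * Equiv.swap 4 5 * Equiv.swap 6 7 * Equiv.swap 7 8} : Set (Equiv.Perm (Fin 9)))) := by
  classical
  haveI : Fact (Nat.Prime 3) := ⟨Nat.prime_three⟩
  haveI : Fact (Nat.Prime 2) := ⟨Nat.prime_two⟩
  have h162 : (162 : ℕ) = 2 * 3 ^ 4 := by norm_num
  have hS81 : Nat.card (S : Subgroup G) = 81 := by
    rw [S.card_eq_multiplicity, hG, h162, Nat.factorization_mul (by norm_num) (by norm_num),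
      Nat.Prime.factorization_pow Nat.prime_three, Nat.Prime.factorization Nat.prime_two]
    simp
  have hT2 : Nat.card (T : Subgroup G) = 2 := by
    rw [T.card_eq_multiplicity, hG, h162, Nat.factorization_mul (by norm_num) (by norm_num),
      Nat.Prime.factorization_pow Nat.prime_three, Nat.Prime.factorization Nat.prime_two]
    simp
  have hSn : (S : Subgroup G).Normal := by
    apply Subgroup.normal_of_index_eq_two
    have := (S : Subgroup G).card_mul_index
    rw [hS81, hG] at this; omega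
  obtain ⟨t, htT, ht⟩ : ∃ t : G, t ∈ (T : Subgroup G) ∧ orderOf t = 2 := by
    obtain ⟨t, ht⟩ := exists_prime_orderOf_dvd_card' (G := (T : Subgroup G)) 2 (by rw [hT2])
    exact ⟨t, t.2, by rw [Subgroup.orderOf_coe, ht]⟩
  have htt : t * t = 1 := by rw [← pow_two, ← ht, pow_orderOf_eq_one]
  have htne : t ≠ 1 := fun e => by rw [e, orderOf_one] at ht; norm_num at ht
  have htinv : t⁻¹ = t := inv_eq_of_mul_eq_one_right htt
  have hTt : ∀ g ∈ (T : Subgroup G), g = 1 ∨ g = t := by
    intro g hg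
    have h1 := (Nat.card_eq_two_iff' (1 : (T : Subgroup G))).1 hT2
    obtain ⟨s, hs, hs2⟩ := h1
    by_cases hg1 : g = 1
    · exact Or.inl hg1
    · right
      have e1 := hs2 ⟨g, hg⟩ (fun e => hg1 (congrArg Subtype.val e))
      have e2 := hs2 ⟨t, htT⟩ (fun e => htne (congrArg Subtype.val e))
      exact congrArg Subtype.val (e1.trans e2.symm)
  have hJS : J ≤ (S : Subgroup G) := by
    have hp : IsPGroup 3 J := IsPGroup.of_card (n := 3) (by rw [hJcard]; norm_num)
    obtain ⟨Q, hQ⟩ := hp.exists_le_sylow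
    haveI := Sylow.unique_of_normal S hSn
    rwa [Subsingleton.elim Q S] at hQ
  have hodd : ∀ a : G, a ∈ (S : Subgroup G) → a * a = 1 → a = 1 := by
    intro a ha h
    have h1 : orderOf a ∣ 2 := orderOf_dvd_of_pow_eq_one (by rw [pow_two, h])
    have h2 : orderOf a ∣ 81 := by
      rw [← hS81, ← Subgroup.orderOf_mk a ha]; exact orderOf_dvd_natCard _
    exact orderOf_eq_one_iff.1 (Nat.dvd_one.1 ((show Nat.gcd 2 81 = 1 from rfl) ▸ Nat.dvd_gcd h1 h2))
  have hcJ : ∀ a ∈ J, ∀ b ∈ J, a * b = b * a := fun a ha b hb =>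
    congrArg Subtype.val (hJcomm.is_comm.comm ⟨a, ha⟩ ⟨b, hb⟩)
  have hgen : ∀ x ∈ (S : Subgroup G), x ∉ J → J ⊔ Subgroup.zpowers x = (S : Subgroup G) := by
    intro x hx hxJ
    have hle : J ⊔ Subgroup.zpowers x ≤ (S : Subgroup G) := sup_le hJS ((Subgroup.zpowers_le).2 hx)
    refine Subgroup.eq_of_le_of_card_ge hle ?_
    have h1 := Subgroup.card_dvd_of_le (le_sup_left : J ≤ J ⊔ Subgroup.zpowers x)
    have h2 := Subgroup.card_dvd_of_le hle
    have h3 : Nat.card J ≠ Nat.card (J ⊔ Subgroup.zpowers x : Subgroup G) := fun e => hxJ (by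
      rw [Subgroup.eq_of_le_of_card_ge le_sup_left e.ge]
      exact Subgroup.mem_sup_right (Subgroup.mem_zpowers x))
    rw [hS81] at h2 ⊢
    rw [hJcard] at h1 h3
    obtain ⟨i, hi, e⟩ := (Nat.dvd_prime_pow Nat.prime_three).1 (show _ ∣ 3 ^ 4 from h2)
    rw [e] at h1 h3 ⊢
    interval_cases i <;> first | (norm_num at h1; done) | (norm_num at h3; done) | norm_num
  have hcent : ∀ x ∈ (S : Subgroup G), x ∉ J → ∀ c ∈ J, x * c = c * x → c ∈ Z := by
    intro x hx hxJ c hc hxc
    rw [hZ]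
    refine ⟨hJS hc, Subgroup.mem_centralizer_iff.2 fun g hg => ?_⟩
    have : (S : Subgroup G) ≤ Subgroup.centralizer {c} := by
      rw [← hgen x hx hxJ]
      refine sup_le (fun a ha => Subgroup.mem_centralizer_singleton_iff.2 ?_)
        (Subgroup.zpowers_le.2 (Subgroup.mem_centralizer_singleton_iff.2 ?_))
      · exact hcJ a ha c hc
      · exact hxc
    exact Subgroup.mem_centralizer_singleton_iff.1 (this hg)
  have hZc : ∀ c ∈ Z, c ∈ (S : Subgroup G) ∧ (∀ g ∈ (S : Subgroup G), g * c = c * g) ∧ t * c * t = c := by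
    intro c hc
    have h1 : t * c = c * t := Subgroup.mem_centralizer_iff.1 (hZT hc) t htT
    refine ⟨?_, ?_, by rw [h1, mul_assoc, htt, mul_one]⟩
    · rw [hZ] at hc; exact hc.1
    · intro g hg; rw [hZ] at hc; exact Subgroup.mem_centralizer_iff.1 hc.2 g hg
  -- conjugation inside `J`
  have cJ : ∀ (g c : G), c ∈ J → g * c * g⁻¹ ∈ J := fun g c hc => hJn.conj_mem c hc g
  have hx3J : ∀ x ∈ (S : Subgroup G), x ^ 3 ∈ J := by
    intro x hx
    haveI : (J.subgroupOf (S : Subgroup G)).Normal := Subgroup.normal_subgroupOf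
    have hidx : (J.subgroupOf (S : Subgroup G)).index = 3 := by
      have h := (J.subgroupOf (S : Subgroup G)).card_mul_index
      rw [Nat.card_congr (Subgroup.subgroupOfEquivOfLe hJS).toEquiv, hJcard, hS81] at h
      omega
    have := Subgroup.pow_index_mem (J.subgroupOf (S : Subgroup G)) (⟨x, hx⟩ : (S : Subgroup G))
    rw [hidx] at this
    exact this
  obtain ⟨x0, hx0, hx0J⟩ : ∃ x ∈ (S : Subgroup G), x ∉ J := by
    by_contra h
    push Not at h
    have := Subgroup.card_le_of_le (show (S : Subgroup G) ≤ J from h)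
    rw [hS81, hJcard] at this; omega
  -- the nilpotent map `c ↦ c⁻¹ (x c x⁻¹)`
  have dmem : ∀ (x c : G), c ∈ J → c⁻¹ * (x * c * x⁻¹) ∈ J := fun x c hc => J.mul_mem (J.inv_mem hc) (cJ x c hc)
  have dcube : ∀ x ∈ (S : Subgroup G), ∀ c ∈ J,
      let d := fun e : G => e⁻¹ * (x * e * x⁻¹)
      d (d (d c)) = 1 := by
    intro x hx c hc
    dsimp only
    letI : CommGroup J := { (inferInstance : Group J) with mul_comm := hJcomm.is_comm.comm }
    let φ : J →* J := MonoidHom.mk' (fun e => ⟨x * e * x⁻¹, cJ x e e.2⟩) (fun a b => Subtype.ext (by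
      show x * ((a : G) * b) * x⁻¹ = x * a * x⁻¹ * (x * b * x⁻¹)
      group))
    set e : J := ⟨c, hc⟩
    have hφ3 : φ (φ (φ e)) = e := Subtype.ext (by
      show x * (x * (x * c * x⁻¹) * x⁻¹) * x⁻¹ = c
      calc x * (x * (x * c * x⁻¹) * x⁻¹) * x⁻¹ = x ^ 3 * c * (x ^ 3)⁻¹ := by rw [pow_three]; group
        _ = c := by rw [hcJ _ (hx3J x hx) c hc, mul_inv_cancel_right])
    have h3 : ∀ a : J, a ^ 3 = 1 := fun a => Subtype.ext (hJexp a a.2)
    have : ((e⁻¹ * φ e)⁻¹ * φ (e⁻¹ * φ e))⁻¹ * φ ((e⁻¹ * φ e)⁻¹ * φ (e⁻¹ * φ e)) = 1 := by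
      simp only [map_mul, map_inv, hφ3, mul_inv_rev, inv_inv]
      calc _ = ((φ (φ e))⁻¹) ^ 3 * (φ e) ^ 3 * (e⁻¹ * e) := by
            simp only [pow_succ, pow_zero, one_mul]
            ac_rfl
        _ = 1 := by simp [h3, inv_pow]
    exact congrArg Subtype.val this
  -- `t` inverts `S / J`
  have hinvt : t * x0 * t * x0 ∈ J := by
    by_contra hne
    have h1 : t * x0 * t ∈ (S : Subgroup G) := by
      have := hSn.conj_mem x0 hx0 t
      rwa [htinv] at this
    -- otherwise `t x0 t = j x0`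
    obtain ⟨j, hj, hjx⟩ : ∃ j ∈ J, t * x0 * t = j * x0 := by
      haveI : (J.subgroupOf (S : Subgroup G)).Normal := Subgroup.normal_subgroupOf
      have hidx : (J.subgroupOf (S : Subgroup G)).index = 3 := by
        have h := (J.subgroupOf (S : Subgroup G)).card_mul_index
        rw [Nat.card_congr (Subgroup.subgroupOfEquivOfLe hJS).toEquiv, hJcard, hS81] at h
        omega
      let q := QuotientGroup.mk' (J.subgroupOf (S : Subgroup G))
      have hq : ∀ a : (S : Subgroup G), q a = 1 ↔ (a : G) ∈ J := fun a =>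
        QuotientGroup.eq_one_iff (N := J.subgroupOf (S : Subgroup G)) a
      have hc3 : Nat.card (↥(S : Subgroup G) ⧸ J.subgroupOf (S : Subgroup G)) = 3 := hidx
      have hz : ∀ b, b ∈ Subgroup.zpowers (q ⟨x0, hx0⟩) := fun b =>
        mem_zpowers_of_prime_card hc3 (fun e => hx0J ((hq _).1 e))
      obtain ⟨k, hk⟩ := hz (q ⟨_, h1⟩)
      have hx3 : q ⟨x0, hx0⟩ ^ (3 : ℤ) = 1 := by
        have h9 := pow_card_eq_one' (x := q ⟨x0, hx0⟩)
        rw [hc3] at h9
        rw [show (3 : ℤ) = ((3 : ℕ) : ℤ) from rfl, zpow_natCast]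
        exact h9
      simp only at hk
      rw [← zpow_mod_natCard, hc3] at hk
      rcases (show k % ((3 : ℕ) : ℤ) = 0 ∨ k % ((3 : ℕ) : ℤ) = 1 ∨ k % ((3 : ℕ) : ℤ) = 2 by omega) with e | e | e <;>
        rw [e] at hk
      · exfalso
        rw [zpow_zero] at hk
        have h2 : t * x0 * t ∈ J := (hq _).1 hk.symm
        have h3 := cJ t _ h2
        rw [htinv, show t * (t * x0 * t) * t = (t * t) * x0 * (t * t) by group, htt, one_mul, mul_one] at h3
        exact hx0J h3
      · rw [zpow_one] at hk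
        refine ⟨t * x0 * t * x0⁻¹, ?_, by group⟩
        refine (hq (⟨_, h1⟩ * ⟨x0, hx0⟩⁻¹)).1 ?_
        rw [map_mul, map_inv, ← hk, mul_inv_cancel]
      · exfalso
        refine hne ((hq (⟨_, h1⟩ * ⟨x0, hx0⟩)).1 ?_)
        rw [map_mul, ← hk, ← zpow_add_one]
        exact hx3
    -- `δ c = c⁻¹ (t c t)` is killed step by step
    have step : ∀ c ∈ J, t * (c⁻¹ * (x0 * c * x0⁻¹)) * t = c⁻¹ * (x0 * c * x0⁻¹) → t * c * t = c := by
      intro c hc h
      have hc' : t * c * t ∈ J := by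
        have := cJ t c hc
        rwa [htinv] at this
      have h2 : (t * c * t)⁻¹ * (x0 * (t * c * t) * x0⁻¹) = c⁻¹ * (x0 * c * x0⁻¹) := by
        refine Eq.trans ?_ h
        have h3 : t * (c⁻¹ * (x0 * c * x0⁻¹)) * t =
            (t * c * t)⁻¹ * ((t * x0 * t) * (t * c * t) * (t * x0 * t)⁻¹) := by
          simp only [mul_inv_rev, htinv]
          simp [mul_assoc, ← mul_assoc t t, htt]
        have h6 : (j * x0) * (t * c * t) * (j * x0)⁻¹ = j * (x0 * (t * c * t) * x0⁻¹) * j⁻¹ := by group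
        rw [h3, hjx, h6,
          hcJ j hj _ (cJ x0 _ hc'), mul_inv_cancel_right]
      have hz : c⁻¹ * (t * c * t) ∈ Z := by
        refine hcent x0 hx0 hx0J _ (J.mul_mem (J.inv_mem hc) hc') ?_
        have h2' := inv_mul_eq_iff_eq_mul.1 h2
        have key : x0 * (c⁻¹ * (t * c * t)) * x0⁻¹ = c⁻¹ * (t * c * t) := by
          calc x0 * (c⁻¹ * (t * c * t)) * x0⁻¹
              = (x0 * c * x0⁻¹)⁻¹ * (x0 * (t * c * t) * x0⁻¹) := by group
            _ = (x0 * c * x0⁻¹)⁻¹ * (t * c * t * c⁻¹ * (x0 * c * x0⁻¹)) := by rw [h2']; group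
            _ = (x0 * c * x0⁻¹)⁻¹ * (x0 * c * x0⁻¹ * (t * c * t * c⁻¹)) := by
              rw [hcJ _ (J.mul_mem hc' (J.inv_mem hc)) _ (cJ x0 c hc)]
            _ = t * c * t * c⁻¹ := by group
            _ = c⁻¹ * (t * c * t) := hcJ _ hc' _ (J.inv_mem hc)
        exact mul_inv_eq_iff_eq_mul.1 key
      obtain ⟨hzS, -, hzt⟩ := hZc _ hz
      have h4 : t * (c⁻¹ * (t * c * t)) * t = (c⁻¹ * (t * c * t))⁻¹ := by
        simp only [mul_inv_rev, inv_inv, htinv]
        simp [mul_assoc, htt]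
      rw [hzt, eq_inv_iff_mul_eq_one] at h4
      have := hodd _ hzS h4
      exact ((inv_mul_eq_one).1 this).symm
    have hfix : ∀ c ∈ J, t * c * t = c := by
      intro c hc
      refine step c hc (step _ (dmem x0 c hc) (step _ (dmem x0 _ (dmem x0 c hc)) ?_))
      have h9 := dcube x0 hx0 c hc
      simp only at h9
      rw [h9, mul_one, htt]
    have hj1 : j = 1 := by
      refine hodd j (hJS hj) ?_
      have h5 : t * (t * x0 * t) * t = x0 := by simp [mul_assoc, ← mul_assoc t t, htt]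
      rw [hjx, show t * (j * x0) * t = (t * j * t) * (t⁻¹ * x0 * t) by group, hfix j hj, htinv, hjx,
        ← mul_assoc] at h5
      exact mul_eq_right.1 h5
    refine hST (le_antisymm inf_le_left (le_inf le_rfl ?_))
    rw [← hgen x0 hx0 hx0J]
    refine sup_le (fun a ha => Subgroup.mem_centralizer_iff.2 fun g hg => ?_)
      (Subgroup.zpowers_le.2 (Subgroup.mem_centralizer_iff.2 fun g hg => ?_))
    · rcases hTt g hg with rfl | rfl
      · simp
      · calc g * a = g * a * g * g := by rw [mul_assoc _ g g, htt, mul_one]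
          _ = a * g := by rw [hfix a ha]
    · rcases hTt g hg with rfl | rfl
      · simp
      · calc g * x0 = g * x0 * g * g := by rw [mul_assoc _ g g, htt, mul_one]
          _ = x0 * g := by rw [hjx, hj1, one_mul]
  -- the inverted element of order three
  set y := x0 * (t * x0⁻¹ * t) with hy
  have htS : ∀ a ∈ (S : Subgroup G), t * a * t ∈ (S : Subgroup G) := fun a ha => by
    have := hSn.conj_mem a ha t
    rwa [htinv] at this
  have hyS : y ∈ (S : Subgroup G) := (S : Subgroup G).mul_mem hx0 (htS _ ((S : Subgroup G).inv_mem hx0))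
  have hty : t * y * t = y⁻¹ := by
    rw [hy]; simp only [mul_inv_rev, inv_inv, htinv]; simp [mul_assoc, htt]
  have hyJ : y ∉ J := by
    intro h
    have h1 : t * x0⁻¹ * t * x0⁻¹ ∈ J := by
      have e1 : t * x0⁻¹ * t * x0⁻¹ = (x0 * (t * x0 * t))⁻¹ := by
        simp only [mul_inv_rev, htinv]; simp [mul_assoc]
      have h2 := cJ x0 _ hinvt
      rw [show x0 * (t * x0 * t * x0) * x0⁻¹ = x0 * (t * x0 * t) by group] at h2
      rw [e1]; exact J.inv_mem h2
    have h2 : x0 ^ 2 ∈ J := by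
      have := J.mul_mem h (J.inv_mem h1)
      rw [hy, show x0 * (t * x0⁻¹ * t) * (t * x0⁻¹ * t * x0⁻¹)⁻¹ =
        x0 * ((t * x0⁻¹ * t) * x0) * (t * x0⁻¹ * t)⁻¹ by group] at this
      have h3 := cJ (t * x0⁻¹ * t)⁻¹ _ this
      rw [show (t * x0⁻¹ * t)⁻¹ * (x0 * (t * x0⁻¹ * t * x0) * (t * x0⁻¹ * t)⁻¹) * (t * x0⁻¹ * t)⁻¹⁻¹ =
        (t * x0⁻¹ * t)⁻¹ * x0 * (t * x0⁻¹ * t) * x0 by group] at h3
      have h4 := J.mul_mem (J.inv_mem hinvt) (J.mul_mem hinvt h3)
      have h6 : (x0 * (t * x0⁻¹ * t)) ∈ J := h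
      have h7 : x0 * (t * x0⁻¹ * t) * ((t * x0 * t) * x0) ∈ J := J.mul_mem h6 hinvt
      rw [show x0 * (t * x0⁻¹ * t) * (t * x0 * t * x0) = x0 * (t * (x0⁻¹ * (t * t) * x0) * t) * x0 by group,
        htt, mul_one, inv_mul_cancel, mul_one, htt, mul_one, ← pow_two] at h7
      exact h7
    have h3 := J.mul_mem (hx3J x0 hx0) (J.inv_mem h2)
    rw [show x0 ^ 3 * (x0 ^ 2)⁻¹ = x0 by group] at h3
    exact hx0J h3
  have hy3 : y ^ 3 = 1 := by
    have hc : y ^ 3 ∈ Z := hcent y hyS hyJ _ (hx3J y hyS) (pow_mul_comm' y 3).symm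
    have h1 := (hZc _ hc).2.2
    have h2 : t * y ^ 3 * t = (y ^ 3)⁻¹ := by
      have h3 : (t * y * t⁻¹) ^ 3 = t * y ^ 3 * t⁻¹ := conj_pow
      rw [htinv, hty, inv_pow] at h3
      exact h3.symm
    rw [h1, eq_inv_iff_mul_eq_one] at h2
    exact hodd _ (hZc _ hc).1 h2
  letI : CommGroup J := { (inferInstance : Group J) with mul_comm := hJcomm.is_comm.comm }
  let φ : J →* J := MonoidHom.mk' (fun e => ⟨y * e * y⁻¹, cJ y e e.2⟩) (fun a b => Subtype.ext (by
    show y * ((a : G) * b) * y⁻¹ = y * a * y⁻¹ * (y * b * y⁻¹)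
    group))
  let d : J →* J := MonoidHom.mk' (fun e => e⁻¹ * φ e) (fun a b => by
    simp only [map_mul, mul_inv_rev]; ac_rfl)
  let σ : J →* J := MonoidHom.mk' (fun e => ⟨t * e * t, by
      have := cJ t e e.2
      rwa [htinv] at this⟩) (fun a b => Subtype.ext (by
    show t * ((a : G) * b) * t = t * a * t * (t * b * t)
    simp [mul_assoc, ← mul_assoc t t, htt]))
  have hJ3 : ∀ a : J, a ^ 3 = 1 := fun a => Subtype.ext (hJexp a a.2)
  have hinv2 : ∀ a : J, a⁻¹ = a ^ 2 := fun a => inv_eq_of_mul_eq_one_right (by rw [← pow_succ', hJ3])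
  have hφφφ : ∀ a : J, φ (φ (φ a)) = a := fun a => Subtype.ext (by
    show y * (y * (y * (a : G) * y⁻¹) * y⁻¹) * y⁻¹ = a
    calc y * (y * (y * (a : G) * y⁻¹) * y⁻¹) * y⁻¹ = y ^ 3 * a * (y ^ 3)⁻¹ := by rw [pow_three]; group
      _ = a := by rw [hy3]; simp)
  have hσφ : ∀ a : J, σ (φ a) = φ (φ (σ a)) := fun a => Subtype.ext (by
    show t * (y * a * y⁻¹) * t = y * (y * (t * a * t) * y⁻¹) * y⁻¹
    have e2 : y * y = y⁻¹ := by
      rw [eq_inv_iff_mul_eq_one, mul_assoc, ← pow_three, hy3]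
    calc t * (y * (a : G) * y⁻¹) * t = (t * y * t) * (t * a * t) * (t * y * t)⁻¹ := by
          simp only [mul_inv_rev, htinv]
          simp [mul_assoc, ← mul_assoc t t, htt]
      _ = y⁻¹ * (t * a * t) * y := by rw [hty, inv_inv]
      _ = (y * y) * (t * a * t) * (y * y)⁻¹ := by rw [e2, inv_inv]
      _ = _ := by group)
  have hdd : ∀ a : J, d (d a) = a * φ a * φ (φ a) := fun a => by
    show (a⁻¹ * φ a)⁻¹ * φ (a⁻¹ * φ a) = _
    simp only [map_mul, map_inv, mul_inv_rev, inv_inv]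
    rw [hinv2 (φ a)]
    calc φ a ^ 2 * a * (φ a ^ 2 * φ (φ a)) = a * φ a * φ (φ a) * φ a ^ 3 := by
          simp only [pow_succ, pow_zero, one_mul]; ac_rfl
      _ = _ := by rw [hJ3, mul_one]
  have hσdd : ∀ a : J, σ (d (d a)) = d (d (σ a)) := fun a => by
    rw [hdd, hdd, map_mul, map_mul, hσφ, hσφ, hσφ, hφφφ, mul_right_comm]
  have hker : ∀ a : J, d a = 1 → (a : G) ∈ Z := fun a ha => by
    refine hcent y hyS hyJ _ a.2 ?_
    have h1 : φ a = a := (inv_mul_eq_one.1 ha).symm
    exact mul_inv_eq_iff_eq_mul.1 (congrArg Subtype.val h1)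
  have hkcard : Nat.card d.ker ≤ 3 := by
    rw [← hZcard]
    exact Nat.card_le_card_of_injective (fun a : d.ker => (⟨((a : J) : G), hker _ a.2⟩ : Z))
      fun a b e => Subtype.ext (Subtype.ext (congrArg (fun z : Z => (z : G)) e))
  obtain ⟨v₀, hv₀⟩ : ∃ v : J, d (d v) ≠ 1 := by
    by_contra h
    push Not at h
    have h1 := d.ker.card_mul_index
    rw [Subgroup.index_ker, hJcard] at h1
    have h2 : Nat.card d.range ≤ Nat.card d.ker :=
      Subgroup.card_le_of_le (by rintro _ ⟨a, rfl⟩; exact h a)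
    nlinarith
  set vj : J := v₀ * σ v₀ with hvj
  have hσσ : ∀ a : J, σ (σ a) = a := fun a => Subtype.ext (by
    show t * (t * a * t) * t = (a : G)
    simp [mul_assoc, ← mul_assoc t t, htt])
  have hσv : σ vj = vj := by rw [hvj, map_mul, hσσ, mul_comm]
  have hdv : d (d vj) ≠ 1 := by
    have hd3 : d (d (d v₀)) = 1 := Subtype.ext (dcube y hyS v₀ v₀.2)
    have hz : ((d (d v₀) : J) : G) ∈ Z := hker _ hd3
    have h1 : d (d (σ v₀)) = d (d v₀) := by
      rw [← hσdd]; exact Subtype.ext (hZc _ hz).2.2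
    rw [hvj, map_mul, map_mul, h1]
    intro e
    apply hv₀
    calc d (d v₀) = d (d v₀) ^ 3 * (d (d v₀) * d (d v₀))⁻¹ := by
          simp only [pow_succ, pow_zero, one_mul]; group
      _ = 1 := by rw [hJ3, e, inv_one, mul_one]
  set v : G := (vj : G)
  set w : G := ((φ vj : J) : G)
  set u : G := ((φ (φ vj) : J) : G)
  have htv : t * v * t = v := congrArg Subtype.val hσv
  have htw : t * w * t = u := by
    have : σ (φ vj) = φ (φ vj) := by rw [hσφ, hσv]
    exact congrArg Subtype.val this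
  have htu : t * u * t = w := by
    rw [← htw]; simp [mul_assoc, ← mul_assoc t t, htt]
  have hyv : y * v * y⁻¹ = w := rfl
  have hyw : y * w * y⁻¹ = u := rfl
  have hyu : y * u * y⁻¹ = v := congrArg Subtype.val (hφφφ vj)
  -- `J = ⟨v, w, u⟩`
  have hz : (v * w * u : G) ∈ Z ∧ v * w * u ≠ 1 := by
    have h1 : ((d (d vj) : J) : G) = v * w * u := by rw [hdd]; rfl
    refine ⟨h1 ▸ hker _ (Subtype.ext (dcube y hyS vj vj.2)), fun e => hdv (Subtype.ext ?_)⟩
    rw [h1, e]; rfl
  set A : Subgroup G := Subgroup.zpowers w ⊔ Subgroup.zpowers u with hA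
  have hAJ : A ≤ J := sup_le (Subgroup.zpowers_le.2 (φ vj).2) (Subgroup.zpowers_le.2 (φ (φ vj)).2)
  have hord : ∀ a ∈ J, Nat.card (Subgroup.zpowers a) ≤ 3 := fun a ha => by
    rw [Nat.card_zpowers]
    exact Nat.le_of_dvd (by norm_num) (orderOf_dvd_of_pow_eq_one (hJexp a ha))
  have hsup : ∀ (H : Subgroup G) (a : G), H ≤ J → a ∈ J →
      Nat.card (H ⊔ Subgroup.zpowers a : Subgroup G) ≤ Nat.card H * 3 := by
    intro H a hH ha
    let f := MonoidHom.noncommCoprod H.subtype (Subgroup.zpowers a).subtype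
      (fun m n => hcJ _ (hH m.2) _ ((Subgroup.zpowers_le.2 ha) n.2))
    have hr : f.range = H ⊔ Subgroup.zpowers a := by
      rw [show f.range = H.subtype.range ⊔ (Subgroup.zpowers a).subtype.range from MonoidHom.noncommCoprod_range ..,
        Subgroup.range_subtype, Subgroup.range_subtype]
    rw [← hr]
    calc Nat.card f.range ≤ Nat.card (H × Subgroup.zpowers a) :=
          Nat.card_le_card_of_surjective _ f.rangeRestrict_surjective
      _ = Nat.card H * Nat.card (Subgroup.zpowers a) := Nat.card_prod _ _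
      _ ≤ _ := Nat.mul_le_mul_left _ (hord a ha)
  have hA9 : Nat.card A ≤ 9 :=
    le_trans (hsup _ u (Subgroup.zpowers_le.2 (φ vj).2) (φ (φ vj)).2)
      (le_of_le_of_eq (Nat.mul_le_mul_right 3 (hord w (φ vj).2)) (by norm_num))
  have hJgen : A ⊔ Subgroup.zpowers v = J := by
    refine le_antisymm (sup_le hAJ (Subgroup.zpowers_le.2 vj.2)) ?_
    set M : Subgroup J := (A ⊔ Subgroup.zpowers v).subgroupOf J
    have hvM : vj ∈ M := Subgroup.mem_sup_right (Subgroup.mem_zpowers v)
    have hwM : φ vj ∈ M := Subgroup.mem_sup_left (Subgroup.mem_sup_left (Subgroup.mem_zpowers w))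
    have huM : φ (φ vj) ∈ M := Subgroup.mem_sup_left (Subgroup.mem_sup_right (Subgroup.mem_zpowers u))
    have hzM : d (d vj) ∈ M := by rw [hdd]; exact M.mul_mem (M.mul_mem hvM hwM) huM
    have hdM : d vj ∈ M := M.mul_mem (M.inv_mem hvM) hwM
    have hd3 : d (d (d vj)) = 1 := Subtype.ext (dcube y hyS vj vj.2)
    have k1 : 1 < Nat.card (d.ker ⊓ M : Subgroup J) := by
      rw [Subgroup.one_lt_card_iff_ne_bot]
      exact fun e => hdv ((Subgroup.eq_bot_iff_forall _).1 e _ ⟨hd3, hzM⟩)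
    have lt1 : (d.ker ⊓ M) < ((d.comp d).ker ⊓ M) := by
      refine lt_of_le_of_ne (fun a ha => ⟨?_, ha.2⟩) fun e => ?_
      · show d (d a) = 1
        rw [show d a = 1 from ha.1, map_one]
      · have : d vj ∈ d.ker ⊓ M := e ▸ ⟨hd3, hdM⟩
        exact hdv this.1
    have lt2 : ((d.comp d).ker ⊓ M) < M :=
      lt_of_le_of_ne inf_le_right fun e => hdv ((e.symm ▸ hvM : vj ∈ (d.comp d).ker ⊓ M).1)
    have c1 := Subgroup.card_dvd_of_le lt1.le
    have c2 := Subgroup.card_dvd_of_le lt2.le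
    have n1 : Nat.card (d.ker ⊓ M : Subgroup J) ≠ Nat.card ((d.comp d).ker ⊓ M : Subgroup J) :=
      fun e => lt1.ne (Subgroup.eq_of_le_of_card_ge lt1.le e.ge)
    have n2 : Nat.card ((d.comp d).ker ⊓ M : Subgroup J) ≠ Nat.card M :=
      fun e => lt2.ne (Subgroup.eq_of_le_of_card_ge lt2.le e.ge)
    have c3 := M.card_subgroup_dvd_card
    rw [hJcard] at c3
    obtain ⟨i, hi, ei⟩ := (Nat.dvd_prime_pow Nat.prime_three).1 (show _ ∣ 3 ^ 3 from c3)
    obtain ⟨j, hj, ej⟩ := (Nat.dvd_prime_pow Nat.prime_three).1 (ei ▸ c2)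
    obtain ⟨k, hk, ek⟩ := (Nat.dvd_prime_pow Nat.prime_three).1 (ej ▸ c1)
    have : k ≠ 0 := fun e => by rw [ek, e] at k1; omega
    have : k ≠ j := fun e => n1 (by rw [ek, ej, e])
    have : j ≠ i := fun e => n2 (by rw [ej, ei, e])
    have hi3 : i = 3 := by omega
    have hMtop : M = ⊤ := Subgroup.eq_top_of_card_eq _ (by rw [ei, hi3, hJcard]; norm_num)
    exact Subgroup.subgroupOf_eq_top.1 hMtop
  have hA_eq : Nat.card A = 9 := by
    have := hsup A v hAJ vj.2
    rw [hJgen, hJcard] at this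
    omega
  have hvA : v ∉ A := fun h => by
    have : A ⊔ Subgroup.zpowers v = A := sup_eq_left.2 (Subgroup.zpowers_le.2 h)
    rw [hJgen] at this
    rw [← this, hJcard] at hA_eq
    norm_num at hA_eq
  have htA : ∀ a ∈ A, t * a * t ∈ A := by
    intro a ha
    have h : A ≤ A.comap ((MulAut.conj t).toMonoidHom) := by
      refine sup_le (Subgroup.zpowers_le.2 ?_) (Subgroup.zpowers_le.2 ?_)
      · show t * w * t⁻¹ ∈ A
        rw [htinv, htw]; exact Subgroup.mem_sup_right (Subgroup.mem_zpowers u)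
      · show t * u * t⁻¹ ∈ A
        rw [htinv, htu]; exact Subgroup.mem_sup_left (Subgroup.mem_zpowers w)
    have := h ha
    show t * a * t ∈ A
    have e : t * a * t⁻¹ ∈ A := this
    rwa [htinv] at e
  have htJ : t ∉ J := fun h => htne (hodd t (hJS h) htt)
  let K : Subgroup G :=
    { carrier := {g | g ∈ A ∨ g * t ∈ A}
      one_mem' := Or.inl A.one_mem
      mul_mem' := by
        rintro a b (ha | ha) (hb | hb)
        · exact Or.inl (A.mul_mem ha hb)
        · exact Or.inr (by rw [mul_assoc]; exact A.mul_mem ha hb)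
        · refine Or.inr ?_
          have := A.mul_mem ha (htA b hb)
          rwa [show a * t * (t * b * t) = a * (t * t) * b * t by group, htt, mul_one] at this
        · refine Or.inl ?_
          have := A.mul_mem ha (htA _ hb)
          rwa [show a * t * (t * (b * t) * t) = a * (t * t) * b * (t * t) by group, htt, mul_one, mul_one]
            at this
      inv_mem' := by
        rintro a (ha | ha)
        · exact Or.inl (A.inv_mem ha)
        · refine Or.inr ?_
          have := htA _ (A.inv_mem ha)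
          rwa [show t * (a * t)⁻¹ * t = (t * t⁻¹) * a⁻¹ * t by group, mul_inv_cancel, one_mul] at this }
  have hAK : A ≤ K := fun a ha => Or.inl ha
  have hnotboth : ∀ g : G, g ∈ A → g * t ∉ A := fun g hg h =>
    htJ (hAJ (by simpa using A.mul_mem (A.inv_mem hg) h))
  have hAidx : (A.subgroupOf K).index = 2 := by
    refine Subgroup.index_eq_two_iff.2 ⟨⟨t, Or.inr (by rw [htt]; exact A.one_mem)⟩, ?_⟩
    rintro ⟨b, hb⟩
    simp only [Subgroup.mem_subgroupOf]
    rcases hb with hb | hb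
    · exact Or.inr ⟨hb, hnotboth b hb⟩
    · exact Or.inl ⟨hb, fun h => hnotboth b h hb⟩
  have hK18 : Nat.card K = 18 := by
    rw [← (A.subgroupOf K).card_mul_index, hAidx, Nat.card_congr (Subgroup.subgroupOfEquivOfLe hAK).toEquiv,
      hA_eq]
  have hKJ : ∀ g ∈ K, g ∈ J → g ∈ A := by
    rintro g (hg | hg) hgJ
    · exact hg
    · exact absurd (show t ∈ J by simpa using J.mul_mem (J.inv_mem hgJ) (hAJ hg)) htJ
  -- the kernel of the action on cosets is trivial
  set C := K.normalCore with hC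
  haveI hCn : C.Normal := Subgroup.normalCore_normal K
  have hCJ : ∀ g ∈ C, g ∈ J → g = 1 := by
    intro g hg hgJ
    set P : Subgroup J := C.subgroupOf J with hP
    have hPA : ∀ a : J, a ∈ P → (a : G) ∈ A := fun a ha => hKJ _ (K.normalCore_le ha) a.2
    have hφP : ∀ a : J, a ∈ P → φ a ∈ P := fun a ha => hCn.conj_mem _ ha y
    have hdP : ∀ a : J, a ∈ P → d a ∈ P := fun a ha => P.mul_mem (P.inv_mem ha) (hφP a ha)
    have hfix : ∀ a : J, a ∈ P → d a = 1 → a = 1 := by
      intro a ha ha1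
      by_contra hne
      have haZ : Subgroup.zpowers (a : G) = Z := by
        refine Subgroup.eq_of_le_of_card_ge (Subgroup.zpowers_le.2 (hker a ha1)) ?_
        rw [Nat.card_zpowers, hZcard, orderOf_eq_prime (hJexp _ a.2) (fun e => hne (Subtype.ext e))]
      have hzA : v * w * u ∈ A := by
        have h1 := hz.1
        rw [← haZ] at h1
        exact (Subgroup.zpowers_le.2 (hPA a ha)) h1
      have hwu : w * u ∈ A := A.mul_mem (Subgroup.mem_sup_left (Subgroup.mem_zpowers w))
        (Subgroup.mem_sup_right (Subgroup.mem_zpowers u))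
      refine hvA ?_
      simpa [mul_assoc] using A.mul_mem hzA (A.inv_mem hwu)
    have h : (⟨g, hgJ⟩ : J) = 1 := by
      have h3 : d (d (d (⟨g, hgJ⟩ : J))) = 1 := Subtype.ext (dcube y hyS g hgJ)
      exact hfix _ hg (hfix _ (hdP _ hg) (hfix _ (hdP _ (hdP _ hg)) h3))
    exact congrArg Subtype.val h
  have hCbot : C = ⊥ := by
    rw [Subgroup.eq_bot_iff_forall]
    intro g hg
    rcases K.normalCore_le hg with h | h
    · exact hCJ g hg (hAJ h)
    · exfalso
      -- `g` would be a central involution outside `J`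
      have hcent2 : ∀ a ∈ J, a * g = g * a := by
        intro a ha
        have h1 : a * g * a⁻¹ * g⁻¹ ∈ C := C.mul_mem (hCn.conj_mem g hg a) (C.inv_mem hg)
        have h2 : a * g * a⁻¹ * g⁻¹ ∈ J := by
          rw [mul_assoc, mul_assoc, ← mul_assoc g]
          exact J.mul_mem ha (cJ g _ (J.inv_mem ha))
        have := hCJ _ h1 h2
        rw [mul_inv_eq_one, mul_inv_eq_iff_eq_mul] at this
        exact this
      have e := hcent2 w (φ vj).2
      obtain ⟨a, ha, rfl⟩ : ∃ a ∈ A, g = a * t := ⟨g * t, h, by rw [mul_assoc, htt, mul_one]⟩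
      rw [mul_assoc a t w, show w * (a * t) = (w * a) * t by group, hcJ w (φ vj).2 a (hAJ ha), mul_assoc,
        mul_right_inj] at e
      have h5 : u = w := by rw [← htw, mul_assoc, e, ← mul_assoc, htt, one_mul]
      have h6 : (φ (φ vj) : J) = φ vj := Subtype.ext h5
      have h7 := congrArg φ h6
      rw [hφφφ] at h7
      apply hdv
      have h8 : φ vj = vj := (h7.trans h6).symm
      rw [hdd, h6, h8, ← pow_two, ← pow_succ, hJ3]
  -- the action on the nine cosets
  have hidx : K.index = 9 := by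
    have := K.card_mul_index
    rw [hK18, hG] at this; omega
  have hvv : v * (v * v) = 1 := by rw [← pow_three]; exact hJexp v vj.2
  have hvK : ∀ k ∈ K, v * k * v⁻¹ ∈ K := by
    rintro k (hk | hk)
    · left; rw [hcJ v vj.2 k (hAJ hk), mul_inv_cancel_right]; exact hk
    · right
      have e : t * v⁻¹ * t = v⁻¹ := by
        conv_rhs => rw [← htv]
        simp [mul_assoc, htinv]
      rw [show v * k * v⁻¹ * t = v * (k * t) * (t⁻¹ * v⁻¹ * t) by group, htinv, e,
        hcJ v vj.2 _ (hAJ hk), mul_inv_cancel_right]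
      exact hk
  let π₀ : G ⧸ K → G ⧸ K := Quotient.map' (fun g => g * v) (fun a b hab => by
    rw [QuotientGroup.leftRel_apply] at hab ⊢
    have h1 := hvK _ (hvK _ hab)
    rw [show v * (v * (a⁻¹ * b) * v⁻¹) * v⁻¹ = (v * v) * (a⁻¹ * b) * (v * v)⁻¹ by group,
      show v * v = v⁻¹ from eq_inv_of_mul_eq_one_right hvv] at h1
    simpa [mul_assoc] using h1)
  have hπ3 : ∀ q, π₀ (π₀ (π₀ q)) = q := by
    intro q
    induction q using Quotient.inductionOn' with
    | h g =>
      show Quotient.mk'' (g * v * v * v) = Quotient.mk'' g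
      rw [show g * v * v * v = g * (v * (v * v)) by group, hvv, mul_one]
  let π : Equiv.Perm (G ⧸ K) := ⟨π₀, fun q => π₀ (π₀ q), hπ3, hπ3⟩
  have hπne : ∀ q, π q ≠ q := by
    intro q
    induction q using Quotient.inductionOn' with
    | h g =>
      intro e
      have h1 := QuotientGroup.eq.1 (e.symm : (QuotientGroup.mk g : G ⧸ K) = QuotientGroup.mk (g * v))
      rw [inv_mul_cancel_left] at h1
      exact hvA (hKJ v h1 vj.2)
  let ε : G ⧸ K ≃ Fin 9 := Finite.equivFinOfCardEq (by rw [← hidx]; rfl)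
  let f : G →* Equiv.Perm (Fin 9) :=
    ε.permCongrHom.toMonoidHom.comp (MulAction.toPermHom G (G ⧸ K))
  have hf : Function.Injective f := by
    refine ε.permCongrHom.injective.comp ?_
    rw [← MonoidHom.ker_eq_bot_iff, ← Subgroup.normalCore_eq_ker]
    exact hCbot
  set π' : Equiv.Perm (Fin 9) := ε.permCongrHom π with hπ'
  have hcomm : ∀ g : G, f g * π' = π' * f g := by
    intro g
    show ε.permCongrHom _ * _ = _ * ε.permCongrHom _
    rw [hπ', ← map_mul, ← map_mul]
    congr 1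
    refine Equiv.ext fun q => ?_
    induction q using Quotient.inductionOn' with
    | h a =>
      show (Quotient.mk'' (g * (a * v)) : G ⧸ K) = Quotient.mk'' (g * a * v)
      rw [mul_assoc]
  have hne9 : ∀ i, π' i ≠ i := fun i e => hπne (ε.symm i) (ε.injective (by
    rw [Equiv.apply_symm_apply]; exact e))
  have hπ'3 : π' ^ 3 = 1 := by
    rw [hπ', ← map_pow, show π ^ 3 = 1 from Equiv.ext hπ3, map_one]
  have hπ'ord : orderOf π' = 3 :=
    orderOf_eq_prime hπ'3 (fun e => hne9 0 (by rw [e]; rfl))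
  have hct : π'.cycleType = {3, 3, 3} := by
    obtain ⟨n, hn⟩ := Equiv.Perm.cycleType_prime_order (σ := π') (by rw [hπ'ord]; exact Nat.prime_three)
    rw [hπ'ord] at hn
    have h1 := Equiv.Perm.sum_cycleType π'
    rw [hn, Multiset.sum_replicate, smul_eq_mul,
      show π'.support = Finset.univ from Finset.eq_univ_of_forall fun i => Equiv.Perm.mem_support.2 (hne9 i),
      Finset.card_univ, Fintype.card_fin] at h1
    have : n = 2 := by omega
    subst this
    rw [hn]; rfl
  obtain ⟨c, hc⟩ : ∃ c : Equiv.Perm (Fin 9), c * π' * c⁻¹ = target := by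
    rw [← isConj_iff, Equiv.Perm.isConj_iff_cycleType_eq, hct, target_cycleType]
  let F : G →* Subgroup.centralizer ({target} : Set (Equiv.Perm (Fin 9))) :=
    ((MulAut.conj c).toMonoidHom.comp f).codRestrict _ fun g => by
      refine Subgroup.mem_centralizer_singleton_iff.2 ?_
      show c * f g * c⁻¹ * target = target * (c * f g * c⁻¹)
      rw [← hc, show c * f g * c⁻¹ * (c * π' * c⁻¹) = c * (f g * π') * c⁻¹ by group,
        show c * π' * c⁻¹ * (c * f g * c⁻¹) = c * (π' * f g) * c⁻¹ by group, hcomm]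
  have hF : Function.Injective F := fun a b e =>
    hf ((MulAut.conj c).injective (congrArg Subtype.val e))
  have hcardC : Nat.card (Subgroup.centralizer ({target} : Set (Equiv.Perm (Fin 9)))) = 162 := by
    rw [Equiv.Perm.nat_card_centralizer, target_cycleType]
    decide
  exact ⟨MulEquiv.ofBijective F ((Nat.bijective_iff_injective_and_card F).2 ⟨hF, by rw [hG, hcardC]⟩)⟩

end Cfsg.Agent.S3376
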