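import Cfsg.Statements.S3389
import Mathlib

set_option autoImplicit false
open Cfsg

namespace Cfsg.Agent.S3389

/-- Let G be a finite group acting faithfully and transitively on a finite set Ω with fixity k ≥ 1: every non-identity element fixes at most k points and some non-identity element fixes exactly k points. Then |Z(G)| divides k; if k = 2 then |G| is even; and for every prime p > k dividing |G| and every point α, either p does not divide |G_α| or G_α contains a Sylow p-subgroup of G. -/
theorem result {G : Type*} [Group G] [Finite G] {Ω : Type*} [Fintype Ω] [MulAction G Ω] [FaithfulSMul G Ω]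
    (htr : MulAction.IsPretransitive G Ω) (k : ℕ) (hk : 1 ≤ k)
    (hfix : ∀ g : G, g ≠ 1 → Nat.card (MulAction.fixedBy Ω g) ≤ k) (hex : ∃ g : G, g ≠ 1 ∧ Nat.card (MulAction.fixedBy Ω g) = k) :
    Nat.card (Subgroup.center G) ∣ k ∧ (k = 2 → 2 ∣ Nat.card G) ∧
      ∀ (p : ℕ), p.Prime → k < p → p ∣ Nat.card G → ∀ α : Ω,
        ¬ p ∣ Nat.card (MulAction.stabilizer G α) ∨ ¬ p ∣ (MulAction.stabilizer G α).index := by
  classical
  haveI := htr
  have hperm : ∀ (y g : G), y * g = g * y → ∀ ω : Ω, g • ω = ω → g • (y • ω) = y • ω := by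
    intro y g h ω hω; rw [← mul_smul, ← h, mul_smul, hω]
  refine ⟨?_, ?_, ?_⟩
  · obtain ⟨g, -, hgk⟩ := hex
    let Z := Subgroup.center G
    letI actZ : MulAction Z (MulAction.fixedBy Ω g) :=
      { smul := fun z ω => ⟨(z : G) • (ω : Ω), hperm _ _ (Subgroup.mem_center_iff.mp z.2 g).symm _ ω.2⟩
        one_smul := fun ω => Subtype.ext (one_smul G (ω : Ω))
        mul_smul := fun a b ω => Subtype.ext (mul_smul (a : G) b (ω : Ω)) }
    have hfree : ∀ ω : MulAction.fixedBy Ω g, MulAction.stabilizer Z ω = ⊥ := by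
      intro ω
      rw [eq_bot_iff]
      intro z hz
      have hz' : (z : G) • (ω : Ω) = ω := congrArg Subtype.val hz
      rw [Subgroup.mem_bot]
      apply Subtype.ext
      apply FaithfulSMul.eq_of_smul_eq_smul (α := Ω)
      intro β
      obtain ⟨u, rfl⟩ := MulAction.exists_smul_eq G (ω : Ω) β
      rw [Subgroup.coe_one, one_smul]
      exact hperm u z (Subgroup.mem_center_iff.mp z.2 u) _ hz'
    have hc := Nat.card_congr (MulAction.selfEquivSigmaOrbitsQuotientStabilizer Z (MulAction.fixedBy Ω g))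
    rw [hgk, Nat.card_sigma] at hc
    rw [hc]
    refine Finset.dvd_sum fun ω _ => ?_
    rw [hfree, ← Subgroup.index_eq_card, Subgroup.index_bot]
  · intro hk2
    subst hk2
    obtain ⟨g, hg1, hg2⟩ := hex
    rw [Nat.card_coe_set_eq, Set.ncard_eq_two] at hg2
    obtain ⟨a, b, hab, hfixg⟩ := hg2
    have hga : g • a = a := by rw [← MulAction.mem_fixedBy, hfixg]; simp
    have hgb : g • b = b := by rw [← MulAction.mem_fixedBy, hfixg]; simp
    have pair : ∀ u : G, u ≠ 1 → u • a = a → u • b = b → ∀ ω, u • ω = ω → ω = a ∨ ω = b := by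
      intro u hu hua hub ω hω
      by_contra hne; push_neg at hne
      have h3 : ({a, b, ω} : Set Ω) ⊆ MulAction.fixedBy Ω u := by
        intro x hx; rcases hx with rfl | rfl | rfl <;> assumption
      have := Set.ncard_le_ncard h3
      rw [Set.ncard_insert_of_notMem (by simp [hab, hne.1.symm]), Set.ncard_pair hne.2.symm] at this
      have h2 := hfix u hu
      rw [Nat.card_coe_set_eq] at h2
      omega
    -- elements centralizing a nontrivial element fixing `a, b` and fixing `a` fix `b`
    have move : ∀ u v : G, u ≠ 1 → u • a = a → u • b = b → v * u = u * v → v • a = a → v • b = b := by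
      intro u v hu hua hub hvu hva
      rcases pair u hu hua hub (v • b) (hperm v u hvu b hub) with h | h
      · exact absurd (MulAction.injective v (h.trans hva.symm)) hab.symm
      · exact h
    obtain ⟨p, hp, hpg⟩ := Nat.exists_prime_and_dvd (mt orderOf_eq_one_iff.mp hg1)
    haveI := Fact.mk hp
    let Ga := MulAction.stabilizer G a
    obtain ⟨g0, hg0, hg0p⟩ : ∃ u : G, u ∈ Subgroup.zpowers g ∧ orderOf u = p := by
      refine ⟨g ^ (orderOf g / p), Subgroup.pow_mem _ (Subgroup.mem_zpowers g) _, ?_⟩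
      exact orderOf_pow_orderOf_div (orderOf_pos g).ne' hpg
    have hg0a : g0 • a = a := (Subgroup.zpowers_le.mpr (show g ∈ Ga from hga)) hg0
    have hg0b : g0 • b = b := (Subgroup.zpowers_le.mpr (show g ∈ MulAction.stabilizer G b from hgb)) hg0
    have hg01 : g0 ≠ 1 := fun h => hp.ne_one (by rw [← hg0p, h, orderOf_one])
    have hP0 : IsPGroup p (Subgroup.zpowers (⟨g0, hg0a⟩ : Ga)) := by
      refine IsPGroup.of_card (n := 1) ?_
      rw [Nat.card_zpowers, pow_one, ← Subgroup.orderOf_coe]; exact hg0p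
    obtain ⟨T, hT⟩ := hP0.exists_le_sylow
    have hg0T : (⟨g0, hg0a⟩ : Ga) ∈ T := hT (Subgroup.mem_zpowers _)
    haveI : Nontrivial (T : Subgroup Ga) :=
      ⟨⟨⟨⟨g0, hg0a⟩, hg0T⟩, 1, fun h => hg01 (congrArg (fun z : (T : Subgroup Ga) => ((z : Ga) : G)) h)⟩⟩
    haveI := T.2.center_nontrivial
    obtain ⟨z, hz⟩ := exists_ne (1 : Subgroup.center (T : Subgroup Ga))
    have hzc : ∀ t ∈ T, (t : Ga) * (z : (T : Subgroup Ga)) = (z : (T : Subgroup Ga)) * t := fun t ht =>
      congrArg Subtype.val (Subgroup.mem_center_iff.mp z.2 ⟨t, ht⟩)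
    set zz : G := (((z : (T : Subgroup Ga)) : Ga) : G) with hzz
    have hzza : zz • a = a := ((z : (T : Subgroup Ga)) : Ga).2
    have hzz1 : zz ≠ 1 := fun h => hz (Subtype.ext (Subtype.ext (Subtype.ext h)))
    have hzzb : zz • b = b :=
      move g0 zz hg01 hg0a hg0b (congrArg Subtype.val (hzc _ hg0T)).symm hzza
    have hTb : ∀ t ∈ T, (t : G) • b = b := fun t ht =>
      move zz t hzz1 hzza hzzb (congrArg Subtype.val (hzc _ ht)) t.2
    -- move `a` to `b` normalizing `T`
    obtain ⟨x, hx⟩ := MulAction.exists_smul_eq G a b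
    let Gb := MulAction.stabilizer G b
    let T' : Subgroup G := (T : Subgroup Ga).map Ga.subtype
    have hT'b : T' ≤ Gb := by rintro _ ⟨t, ht, rfl⟩; exact hTb t ht
    let T'' : Subgroup G := T'.map (MulAut.conj x).toMonoidHom
    have hT''b : T'' ≤ Gb := by
      rintro _ ⟨_, ⟨t, ht, rfl⟩, rfl⟩
      show (x * (t : G) * x⁻¹) • b = b
      rw [← hx, smul_smul, inv_mul_cancel_right, mul_smul, t.2]
    have hcard : Nat.card Gb = Nat.card Ga :=
      Nat.card_congr (MulAction.stabilizerEquivStabilizer hx.symm).toEquiv.symm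
    have hT'c : Nat.card T' = p ^ (Nat.card Ga).factorization p := by
      rw [Subgroup.card_map_of_injective Ga.subtype_injective]; exact T.card_eq_multiplicity
    have hT''c : Nat.card T'' = p ^ (Nat.card Ga).factorization p := by
      rw [Subgroup.card_map_of_injective (MulAut.conj x).injective, hT'c]
    let S' : Sylow p Gb := Sylow.ofCard (T'.subgroupOf Gb) (by
      rw [Nat.card_congr (Subgroup.subgroupOfEquivOfLe hT'b).toEquiv, hT'c, hcard])
    let S'' : Sylow p Gb := Sylow.ofCard (T''.subgroupOf Gb) (by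
      rw [Nat.card_congr (Subgroup.subgroupOfEquivOfLe hT''b).toEquiv, hT''c, hcard])
    obtain ⟨y, hy⟩ := MulAction.exists_smul_eq Gb S'' S'
    set u : G := (y : G) * x with hu
    have hua : u • a = b := by rw [hu, mul_smul, hx]; exact y.2
    have hnorm : ∀ t ∈ T', u * t * u⁻¹ ∈ T' := by
      intro t ht
      have h2 : x * t * x⁻¹ ∈ T'' := ⟨t, ht, rfl⟩
      have h1 : y * (⟨x * t * x⁻¹, hT''b h2⟩ : Gb) * y⁻¹ ∈ (y • S'' : Sylow p Gb) := by
        rw [Sylow.smul_def]
        exact ⟨⟨x * t * x⁻¹, hT''b h2⟩, h2, rfl⟩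
      rw [hy] at h1
      have h1' : ((y : G) * (x * t * x⁻¹) * (y : G)⁻¹) ∈ T' := h1
      have h3 : u * t * u⁻¹ = (y : G) * (x * t * x⁻¹) * (y : G)⁻¹ := by rw [hu]; group
      rw [h3]; exact h1'
    have hzT : g0 ∈ T' := ⟨⟨g0, hg0a⟩, hg0T, rfl⟩
    have hu0 : (u * g0 * u⁻¹) ≠ 1 := fun h => hg01 (by simpa using h)
    obtain ⟨t, ht, htu⟩ := hnorm _ hzT
    have hconja : (u * g0 * u⁻¹) • a = a := by rw [← htu]; exact t.2
    have hconjb : (u * g0 * u⁻¹) • b = b := by rw [← htu]; exact hTb t ht
    have hub' : (u * g0 * u⁻¹) • (u • b) = u • b := by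
      rw [smul_smul, inv_mul_cancel_right, mul_smul, hg0b]
    have hub : u • b = a := by
      rcases pair _ hu0 hconja hconjb _ hub' with h | h
      · exact h
      · exact absurd (MulAction.injective u (h.trans hua.symm)) hab.symm
    have h2 : (u ^ 2) • a = a := by rw [sq, mul_smul, hua, hub]
    by_contra hodd
    have hcop : Nat.Coprime 2 (orderOf u) := by
      rw [Nat.prime_two.coprime_iff_not_dvd]
      exact fun h => hodd (h.trans (orderOf_dvd_natCard u))
    have hmem : u ∈ Subgroup.zpowers (u ^ 2) := by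
      obtain ⟨m, hm⟩ := exists_pow_eq_self_of_coprime hcop
      exact ⟨m, by simpa using hm⟩
    have : u • a = a := (Subgroup.zpowers_le.mpr (show u ^ 2 ∈ Ga from h2)) hmem
    exact hab (this.symm.trans hua)
  · intro p hp hkp hpG α
    haveI := Fact.mk hp
    by_cases hpa : p ∣ Nat.card (MulAction.stabilizer G α)
    swap
    · exact Or.inl hpa
    right
    let Ga := MulAction.stabilizer G α
    let Q : Sylow p Ga := default
    let Q' : Subgroup G := (Q : Subgroup Ga).map Ga.subtype
    have hQp : IsPGroup p Q' := Q.2.map _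
    obtain ⟨P, hP⟩ := hQp.exists_le_sylow
    suffices hPQ : (P : Subgroup G) ≤ Ga by
      intro hdvd
      exact P.not_dvd_index' (Subgroup.index_ne_zero_of_finite) (hdvd.trans (Subgroup.index_dvd_of_le hPQ))
    by_contra hne
    have hlt : Q' < (P : Subgroup G) := lt_of_le_of_ne hP fun h =>
      hne (h ▸ Subgroup.map_subtype_le _)
    haveI : Group.IsNilpotent (P : Subgroup G) := P.2.isNilpotent
    have hnc : Q'.subgroupOf (P : Subgroup G) < Subgroup.normalizer (Q'.subgroupOf (P : Subgroup G) : Set (P : Subgroup G)) := by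
      apply Group.normalizerCondition_of_isNilpotent
      exact lt_of_le_of_ne le_top fun h => hlt.not_ge (Subgroup.subgroupOf_eq_top.mp h)
    obtain ⟨y, hy, hyQ⟩ := SetLike.exists_of_lt hnc
    have hQne : Q' ≠ ⊥ := by
      intro h
      have hc : Nat.card (Q : Subgroup Ga) = 1 := by
        have h1 : Nat.card Q' = Nat.card (Q : Subgroup Ga) :=
          Subgroup.card_map_of_injective Ga.subtype_injective
        rw [← h1, h]; simp
      have := Q.dvd_card_of_dvd_card hpa
      rw [hc] at this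
      exact hp.not_dvd_one this
    obtain ⟨q, hq, hq1⟩ := Q'.bot_or_exists_ne_one.resolve_left hQne
    -- the orbit of `α` under `⟨y⟩` lies in the fixed points of `q`
    have horb : MulAction.orbit (Subgroup.zpowers (y : G)) α ⊆ MulAction.fixedBy Ω q := by
      rintro _ ⟨⟨w, hw⟩, rfl⟩
      show q • (w • α) = w • α
      obtain ⟨j, rfl⟩ := hw
      show q • ((y : G) ^ j • α) = (y : G) ^ j • α
      have hyj : y ^ j ∈ Subgroup.normalizer (Q'.subgroupOf (P : Subgroup G) : Set (P : Subgroup G)) :=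
        zpow_mem hy j
      have hq' : (⟨q, hP hq⟩ : (P : Subgroup G)) ∈ Q'.subgroupOf (P : Subgroup G) := hq
      have h1 := (Subgroup.mem_normalizer_iff''.mp hyj ⟨q, hP hq⟩).mp hq'
      have h1' : ((y : G) ^ j)⁻¹ * q * (y : G) ^ j ∈ Q' := by
        simpa [Subgroup.mem_subgroupOf] using h1
      obtain ⟨t, -, ht⟩ := h1'
      have h2 : (((y : G) ^ j)⁻¹ * q * (y : G) ^ j) • α = α := by rw [← ht]; exact t.2
      rw [mul_smul, mul_smul, inv_smul_eq_iff] at h2
      exact h2
    have hya : (y : G) • α = α := by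
      have hyp : IsPGroup p (Subgroup.zpowers (y : G)) :=
        P.2.to_le (Subgroup.zpowers_le.mpr y.2)
      obtain ⟨n, hn⟩ := hyp.card_orbit α
      have hle : Nat.card (MulAction.orbit (Subgroup.zpowers (y : G)) α) ≤ k :=
        le_trans (by rw [Nat.card_coe_set_eq, Nat.card_coe_set_eq]; exact Set.ncard_le_ncard horb) (hfix q hq1)
      have hn0 : n = 0 := by
        by_contra hn0
        have : p ≤ p ^ n := Nat.le_self_pow hn0 p
        omega
      rw [hn0, pow_zero, Nat.card_coe_set_eq, Set.ncard_eq_one] at hn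
      obtain ⟨c, hc⟩ := hn
      have h1 : α ∈ MulAction.orbit (Subgroup.zpowers (y : G)) α := MulAction.mem_orbit_self α
      have h2 : (y : G) • α ∈ MulAction.orbit (Subgroup.zpowers (y : G)) α :=
        ⟨⟨y, Subgroup.mem_zpowers _⟩, rfl⟩
      rw [hc, Set.mem_singleton_iff] at h1 h2
      rw [h2, h1]
    apply hyQ
    -- `P ⊓ Ga` is a `p`-group containing `Q`
    have hle : (Q : Subgroup Ga) ≤ (P : Subgroup G).subgroupOf Ga := fun t ht => hP ⟨t, ht, rfl⟩
    have hpg : IsPGroup p ((P : Subgroup G).subgroupOf Ga) :=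
      P.2.comap_of_injective _ Ga.subtype_injective
    have := Q.3 hpg hle
    show (y : G) ∈ Q'
    refine ⟨⟨y, hya⟩, ?_, rfl⟩
    show (⟨(y : G), hya⟩ : Ga) ∈ (Q : Subgroup Ga)
    rw [← this]
    exact y.2

end Cfsg.Agent.S3389
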