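import Cfsg.Statements.S3390
import Cfsg.Agent.Lib.Spectrum.FixityTwoSign

set_option autoImplicit false
open Cfsg

namespace Cfsg.Agent.S3390

/-- Let G be a finite group acting faithfully and transitively on a finite set Ω with fixity 2 (every non-identity element fixes at most two points, and some fixes exactly two). Let α ∈ Ω and S a Sylow 2-subgroup of G. Then one of the following holds: the stabilizer S_α of α in S is trivial; S is dihedral or semidihedral and either |S_α| = 2 or |S : S_α| = 2; |S| ≥ 4, S has exactly one orbit of size 2 on Ω, every other S-orbit is regular, and G has a normal subgroup of index 2 or of index |S| which is a Frobenius group; or S ≤ G_α. -/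
theorem result {G : Type*} [Group G] [Finite G] {Ω : Type*} [Fintype Ω] [MulAction G Ω] [FaithfulSMul G Ω] (htr : MulAction.IsPretransitive G Ω)
    (hfix : ∀ g : G, g ≠ 1 → Nat.card (MulAction.fixedBy Ω g) ≤ 2) (hex : ∃ g : G, g ≠ 1 ∧ Nat.card (MulAction.fixedBy Ω g) = 2) (α : Ω) (S : Sylow 2 G) :
    (S : Subgroup G) ⊓ MulAction.stabilizer G α = ⊥ ∨
    (((∃ n : ℕ, Nonempty (↥(S : Subgroup G) ≃* DihedralGroup n)) ∨ Cfsg.IsQuasiDihedral ↥(S : Subgroup G)) ∧
       (Nat.card ↥((S : Subgroup G) ⊓ MulAction.stabilizer G α) = 2 ∨ ((S : Subgroup G) ⊓ MulAction.stabilizer G α).relIndex (S : Subgroup G) = 2)) ∨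
    (4 ≤ Nat.card (S : Subgroup G) ∧
       (∃ ω : Ω, Nat.card (MulAction.orbit ↥(S : Subgroup G) ω) = 2 ∧
          ∀ ω' : Ω, ω' ∉ MulAction.orbit ↥(S : Subgroup G) ω → Nat.card (MulAction.orbit ↥(S : Subgroup G) ω') = Nat.card (S : Subgroup G)) ∧
       ∃ N : Subgroup G, N.Normal ∧ (N.index = 2 ∨ N.index = Nat.card (S : Subgroup G)) ∧ (∃ H : Subgroup ↥N, Cfsg.IsFrobeniusComplement H)) ∨
    (S : Subgroup G) ≤ MulAction.stabilizer G α := by
  classical
  haveI := htr
  have : Fact (Nat.Prime 2) := ⟨Nat.prime_two⟩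
  set A := MulAction.stabilizer G α with hA
  set P := (S : Subgroup G) with hP
  set T := MulAction.stabilizer ↥P α with hT
  have hTe : T = A.subgroupOf (S : Subgroup G) := by ext; rfl
  have hcardT : Nat.card ↥((S : Subgroup G) ⊓ A) = Nat.card T := by
    rw [hTe, ← Subgroup.card_map_of_injective (K := A.subgroupOf (S : Subgroup G))
      (S : Subgroup G).subtype_injective, Subgroup.subgroupOf_map_subtype, inf_comm]
  by_cases hT1 : T = ⊥
  · left
    rw [Subgroup.eq_bot_iff_forall]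
    intro x hx
    exact congrArg Subtype.val ((Subgroup.eq_bot_iff_forall _).1 hT1 ⟨x, hx.1⟩ hx.2)
  by_cases hTS : T = ⊤
  · exact Or.inr (Or.inr (Or.inr fun x hx =>
      ((Subgroup.eq_top_iff' _).1 hTS ⟨x, hx⟩ : (⟨x, hx⟩ : (S : Subgroup G)) • α = α)))
  have hfixS : ∀ g : (S : Subgroup G), g ≠ 1 → Nat.card (MulAction.fixedBy Ω g) ≤ 2 :=
    fun g hg => hfix g (fun h => hg (Subtype.ext h))
  have hrelI : ((S : Subgroup G) ⊓ A).relIndex (S : Subgroup G) = T.index := by
    rw [Subgroup.inf_relIndex_left, hTe]; rfl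
  rcases CfsgLib.Spectrum.fixity_two_pgroup S.2 hfixS α hT1 hTS with
    ⟨hD, hc⟩ | ⟨hD, h4, hidx, β, hβα, horb, hTfix, hfree⟩
  · right; left
    exact ⟨hD, by rw [hcardT, hrelI]; exact hc⟩
  right; right; left
  have hαβ : α ≠ β := Ne.symm hβα
  have hfree' : ∀ ω : Ω, ω ∉ MulAction.orbit P α → MulAction.stabilizer P ω = ⊥ := by
    intro ω hω
    rw [horb] at hω
    simp only [Set.mem_insert_iff, Set.mem_singleton_iff, not_or] at hω
    exact hfree ω hω.1 hω.2
  refine ⟨h4, ⟨α, by rw [Nat.card_coe_set_eq, horb, Set.ncard_pair hαβ], fun ω hω => by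
    rw [Nat.card_coe_set_eq, ← MulAction.index_stabilizer, hfree' ω hω, Subgroup.index_bot]⟩, ?_⟩
  obtain ⟨R, hR⟩ := CfsgLib.Spectrum.card_eq_two_add α β hαβ horb hfree'
  obtain ⟨χ, s, hsβ, hχs, hχT⟩ :=
    CfsgLib.Spectrum.exists_separating_hom S α β hαβ horb hidx hTfix hfree R hR
  have hsT : s ∉ T := fun h => hβα (hsβ.symm.trans h)
  set M := χ.ker with hM
  have hMi : M.index = 2 := by
    rw [hM, Subgroup.index_ker, show χ.range = ⊤ from ?_, Subgroup.card_top, Nat.card_eq_fintype_card,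
      Fintype.card_units_int]
    rw [Subgroup.eq_top_iff']
    intro u
    rcases Int.units_eq_one_or u with rfl | rfl
    · exact one_mem _
    · exact ⟨_, hχs⟩
  have hMn : M.Normal := Subgroup.normal_of_index_eq_two hMi
  refine ⟨M, hMn, Or.inl hMi, ?_⟩
  have hsM : (s : G) ∉ M := by
    rw [hM, MonoidHom.mem_ker, hχs]; decide
  have hTM : ∀ t ∈ T, (t : G) ∈ M := hχT
  set Δ₁ := MulAction.orbit M α with hΔ₁
  set Δ₂ := MulAction.orbit M β with hΔ₂
  have himg : Δ₂ = (fun x => (s : G) • x) '' Δ₁ := by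
    ext x
    constructor
    · rintro ⟨m, rfl⟩
      refine ⟨((s : G)⁻¹ * m * s) • α, ⟨⟨_, by simpa using hMn.conj_mem _ m.2 (s : G)⁻¹⟩, rfl⟩, ?_⟩
      simp only [mul_smul, smul_inv_smul]
      rw [← hsβ]; rfl
    · rintro ⟨_, ⟨m, rfl⟩, rfl⟩
      refine ⟨⟨(s : G) * m * (s : G)⁻¹, hMn.conj_mem _ m.2 _⟩, ?_⟩
      change ((s : G) * m * (s : G)⁻¹) • β = (s : G) • (m : G) • α
      rw [← hsβ, mul_smul, mul_smul, Subgroup.smul_def, inv_smul_smul]
  have hcard12 : Δ₂.ncard = Δ₁.ncard := by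
    rw [himg, Set.ncard_image_of_injective _ (MulAction.injective (s : G))]
  have hunion : Δ₁ ∪ Δ₂ = Set.univ := by
    rw [Set.eq_univ_iff_forall]
    intro x
    obtain ⟨g, rfl⟩ := MulAction.exists_smul_eq G α x
    by_cases hg : g ∈ M
    · exact Or.inl ⟨⟨g, hg⟩, rfl⟩
    · refine Or.inr ⟨⟨g * (s : G)⁻¹, ?_⟩, ?_⟩
      · rw [Subgroup.mul_mem_iff_of_index_two hMi, inv_mem_iff]
        exact iff_of_false hg hsM
      · change (g * (s : G)⁻¹) • β = g • α
        rw [← hsβ, mul_smul, Subgroup.smul_def, inv_smul_smul]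
  set H := MulAction.stabilizer M α with hH
  have hmodd : Odd Δ₁.ncard := by
    rw [← MulAction.index_stabilizer, ← Nat.not_even_iff_odd, even_iff_two_dvd]
    intro h2
    set Tm := (T.map P.subtype).subgroupOf M with hTm
    have hle : T.map P.subtype ≤ M := by
      rintro _ ⟨t, ht, rfl⟩
      exact hTM t ht
    have hTH : Tm ≤ MulAction.stabilizer M α := by
      rintro x ⟨t, ht, he⟩
      change (x : G) • α = α
      rw [← show (t : G) = (x : G) from he]
      exact ht
    have h2' : 2 ∣ Tm.index := h2.trans (Subgroup.index_dvd_of_le hTH)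
    have e1 : Nat.card Tm = Nat.card T := by
      rw [hTm, Nat.card_congr (Subgroup.subgroupOfEquivOfLe hle).toEquiv,
        Subgroup.card_map_of_injective P.subtype_injective]
    have e2 := Tm.card_mul_index
    have e3 := M.card_mul_index
    have e4 := T.card_mul_index
    have e5 := P.card_mul_index
    rw [e1] at e2
    rw [hMi] at e3
    rw [hidx] at e4
    have e6 : Nat.card T * 2 * P.index = Nat.card T * 2 * Tm.index := by
      rw [e4, e5, ← e3, ← e2, ← e4]; ring
    have e7 := Nat.eq_of_mul_eq_mul_left (by have := Nat.card_pos (α := T); positivity) e6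
    exact S.not_dvd_index (e7 ▸ h2')
  have hev : Even (Nat.card Ω) := by
    obtain ⟨a, ha⟩ := S.2.exists_card_eq
    rw [hR, Nat.even_add]
    refine iff_of_true even_two (Even.mul_left ?_ R)
    rcases a with _ | a
    · omega
    · rw [ha]; exact ⟨2 ^ a, by ring⟩
  have hdisj : Disjoint Δ₁ Δ₂ := by
    rcases Set.disjoint_or_nonempty_inter Δ₁ Δ₂ with h | ⟨x, hx1, hx2⟩
    · exact h
    exfalso
    have he : Δ₁ = Δ₂ := (MulAction.orbit_eq_iff.2 hx1).symm.trans (MulAction.orbit_eq_iff.2 hx2)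
    rw [← he, Set.union_self] at hunion
    rw [hunion, Set.ncard_univ] at hmodd
    exact Nat.not_even_iff_odd.2 hmodd hev
  obtain ⟨t₀, ht₀, ht₀1⟩ : ∃ t ∈ T, t ≠ 1 := (Subgroup.ne_bot_iff_exists_ne_one.1 hT1).elim
    (fun t ht1 => ⟨(t : P), t.2, fun h => ht1 (Subtype.ext h)⟩)
  refine ⟨H, ?_, ?_, ?_⟩
  · intro h
    have hmem : (⟨(t₀ : G), hTM t₀ ht₀⟩ : M) ∈ H := ht₀
    rw [h, Subgroup.mem_bot] at hmem
    exact ht₀1 (Subtype.ext (congrArg (fun z : M => (z : G)) hmem))
  · intro h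
    have h1 : Δ₁.ncard = 1 := by
      rw [← MulAction.index_stabilizer, ← hH, h, Subgroup.index_top]
    have h2 := Set.ncard_union_le Δ₁ Δ₂
    rw [hunion, Set.ncard_univ, hcard12, h1, hR] at h2
    have hR0 : R = 0 := by nlinarith
    apply ht₀1
    apply Subtype.ext
    refine eq_of_smul_eq_smul (α := Ω) fun x => ?_
    rw [Subgroup.coe_one, one_smul]
    have hΩ : ({α, β} : Set Ω) = Set.univ := Set.eq_of_subset_of_ncard_le (Set.subset_univ _)
      (by rw [Set.ncard_univ, Set.ncard_pair hαβ, hR, hR0]; simp) (Set.toFinite _)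
    have hx : x ∈ MulAction.fixedBy Ω t₀ := by
      rw [hTfix t₀ ht₀1 ht₀, hΩ]; trivial
    exact hx
  · intro g hg
    rw [Subgroup.eq_bot_iff_forall]
    rintro x ⟨hx1, hx2⟩
    by_contra hx0
    set γ := (g : G) • α with hγ
    have hγΔ : γ ∈ Δ₁ := ⟨g, rfl⟩
    have hγα : γ ≠ α := hg
    have hxγ : (x : G) • γ = γ := by
      obtain ⟨k, hk, rfl⟩ := hx2
      change ((g : G) * k * (g : G)⁻¹) • (g : G) • α = (g : G) • α
      rw [mul_smul, inv_smul_smul, mul_smul, show (k : G) • α = α from hk]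
    have hne1 : Nat.card (Subgroup.zpowers x) ≠ 1 := by
      rw [Nat.card_zpowers]; exact fun h => hx0 (orderOf_eq_one_iff.1 h)
    obtain ⟨p, hp, hpd⟩ := Nat.exists_prime_and_dvd hne1
    have : Fact p.Prime := ⟨hp⟩
    obtain ⟨⟨y, hy⟩, hyo⟩ := exists_prime_orderOf_dvd_card' p hpd
    rw [Subgroup.orderOf_mk] at hyo
    set K := Subgroup.zpowers y with hK
    have hy1 : y ≠ 1 := fun e => hp.ne_one (by rw [← hyo, e, orderOf_one])
    have hsub : K ≤ MulAction.stabilizer M α ⊓ MulAction.stabilizer M γ :=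
      (Subgroup.zpowers_le.2 hy).trans (Subgroup.zpowers_le.2 ⟨hx1, hxγ⟩)
    have hKp : IsPGroup p K := IsPGroup.of_card (n := 1) (by rw [hK, Nat.card_zpowers, hyo, pow_one])
    have hy1' : (y : G) ≠ 1 := fun e => hy1 (Subtype.ext e)
    have hF : MulAction.fixedBy Ω (y : G) = {α, γ} := by
      symm
      refine Set.eq_of_subset_of_ncard_le ?_ ?_ (Set.toFinite _)
      · rintro z (rfl | rfl)
        · exact (hsub (Subgroup.mem_zpowers y)).1
        · exact (hsub (Subgroup.mem_zpowers y)).2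
      · rw [Set.ncard_pair hγα.symm, ← Nat.card_coe_set_eq]
        exact hfix _ hy1'
    have hmod : ∀ a : Ω, (MulAction.orbit M a).ncard ≡
        (MulAction.orbit M a ∩ {α, γ}).ncard [MOD p] := by
      intro a
      have h := hKp.card_modEq_card_fixedPoints (MulAction.orbit M a)
      rw [← Nat.card_coe_set_eq]
      suffices e : Nat.card (MulAction.fixedPoints K (MulAction.orbit M a)) =
          (MulAction.orbit M a ∩ {α, γ}).ncard by
        rw [← e]; exact h
      rw [Nat.card_coe_set_eq, ← Set.ncard_image_of_injective _ Subtype.val_injective]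
      congr 1
      ext z
      constructor
      · rintro ⟨w, hw, rfl⟩
        refine ⟨w.2, ?_⟩
        rw [← hF]
        exact congrArg Subtype.val (hw ⟨y, Subgroup.mem_zpowers y⟩)
      · rintro ⟨hz, hz'⟩
        refine ⟨⟨z, hz⟩, fun c => Subtype.ext ?_, rfl⟩
        change ((c : M) : G) • z = z
        rcases hz' with rfl | rfl
        · exact (hsub c.2).1
        · exact (hsub c.2).2
    have h1 : (Δ₁ ∩ {α, γ}).ncard = 2 := by
      rw [Set.inter_eq_right.2 ?_, Set.ncard_pair hγα.symm]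
      rintro z (rfl | rfl)
      · exact MulAction.mem_orbit_self _
      · exact hγΔ
    have h2 : (Δ₂ ∩ {α, γ}).ncard = 0 := by
      rw [Set.ncard_eq_zero, ← Set.disjoint_iff_inter_eq_empty]
      refine hdisj.symm.mono_right ?_
      rintro z (rfl | rfl)
      · exact MulAction.mem_orbit_self _
      · exact hγΔ
    have k1 := hmod α
    have k2 := hmod β
    rw [← hΔ₁, h1] at k1
    rw [← hΔ₂, h2, hcard12] at k2
    have hp2 : p ∣ 2 := Nat.modEq_zero_iff_dvd.1 (k1.symm.trans k2)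
    rw [(Nat.prime_dvd_prime_iff_eq hp Nat.prime_two).1 hp2, Nat.modEq_zero_iff_dvd] at k2
    exact Nat.not_even_iff_odd.2 hmodd (even_iff_two_dvd.2 k2)

end Cfsg.Agent.S3390
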