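import Cfsg.Statements.S3391
import Cfsg.Agent.Lib.Suzuki.FixityTwo
import Cfsg.Agent.Lib.Suzuki.LieBridge

set_option autoImplicit false
open Cfsg

namespace Cfsg.Agent.S3391

/-- Let q = 2^{2m+1} ≥ 8 and let G be isomorphic to the Suzuki group Sz(q). If G acts faithfully and transitively on a finite set Ω with fixity 2 (every non-identity element fixes at most two points, and some fixes exactly two), then either |Ω| = q² + 1 and the action is 2-transitive, or |Ω| = q²(q² + 1) and the point stabilizers have order q − 1. -/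
theorem result {G : Type*} [Group G] [Finite G] (F : Type) [Field F] [Fintype F] (m : ℕ) (hm : 1 ≤ m) (hF : Fintype.card F = 2 ^ (2 * m + 1))
    (e : G ≃* ↥(Cfsg.Lie.Sz F (2 ^ (m + 1)))) {Ω : Type*} [Fintype Ω] [MulAction G Ω] [FaithfulSMul G Ω] (htr : MulAction.IsPretransitive G Ω)
    (hfix : ∀ g : G, g ≠ 1 → Nat.card (MulAction.fixedBy Ω g) ≤ 2) (hex : ∃ g : G, g ≠ 1 ∧ Nat.card (MulAction.fixedBy Ω g) = 2) :
    (Fintype.card Ω = Fintype.card F ^ 2 + 1 ∧ MulAction.IsMultiplyPretransitive G Ω 2) ∨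
    (Fintype.card Ω = Fintype.card F ^ 2 * (Fintype.card F ^ 2 + 1) ∧ ∀ α : Ω, Nat.card (MulAction.stabilizer G α) = Fintype.card F - 1) := by
  classical
  have h : CfsgLib.Suzuki.Hyp F m := .of_fintype hm hF
  let ε : Cfsg.Sz F m ≃* G := h.lieEquiv.trans e.symm
  let act : MulAction (Cfsg.Sz F m) Ω := MulAction.compHom Ω ε.toMonoidHom
  have hsmul : ∀ (g : Cfsg.Sz F m) (ω : Ω), g • ω = ε g • ω := fun _ _ => rfl
  have : MulAction.IsPretransitive (Cfsg.Sz F m) Ω := ⟨fun a b => by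
    obtain ⟨g, hg⟩ := htr.exists_smul_eq a b
    exact ⟨ε.symm g, by rw [hsmul, MulEquiv.apply_symm_apply, hg]⟩⟩
  have : FaithfulSMul (Cfsg.Sz F m) Ω := ⟨fun {g g'} hgg => ε.injective (eq_of_smul_eq_smul (α := Ω) hgg)⟩
  have hfixed : ∀ g : Cfsg.Sz F m, MulAction.fixedBy Ω g = MulAction.fixedBy Ω (ε g) := fun _ => rfl
  have hstab : ∀ α : Ω, Nat.card (MulAction.stabilizer G α) = Nat.card (MulAction.stabilizer (Cfsg.Sz F m) α) :=
    fun α => (Nat.card_congr (ε.toEquiv.subtypeEquiv fun g => Iff.rfl)).symm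
  have hcardG : Nat.card G = (2 ^ (2 * m + 1)) ^ 2 * ((2 ^ (2 * m + 1)) ^ 2 + 1) * (2 ^ (2 * m + 1) - 1) := by
    rw [← Nat.card_congr ε.toEquiv, h.card_group]
  obtain ⟨g₁, hg₁, hg₁c⟩ := hex
  obtain ⟨⟨α₁, hα₁⟩⟩ : Nonempty (MulAction.fixedBy Ω g₁) := (Nat.card_pos_iff.1 (by omega)).1
  have hindex : ∀ α : Ω, Fintype.card Ω * Nat.card (MulAction.stabilizer G α) = Nat.card G := fun α => by
    rw [← Nat.card_eq_fintype_card, ← MulAction.index_stabilizer_of_transitive G α, mul_comm, Subgroup.card_mul_index]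
  have hq : 1 < 2 ^ (2 * m + 1) := Nat.one_lt_two_pow (by omega)
  rcases h.fixity_two (fun g hg => by
      rw [hfixed]; exact hfix _ fun e1 => hg (ε.injective (e1.trans (map_one ε).symm)))
    ⟨ε.symm g₁, fun e1 => hg₁ (by rw [← ε.apply_symm_apply g₁, e1, map_one]), α₁, by
      rw [hsmul, MulEquiv.apply_symm_apply]; exact hα₁⟩ with ⟨α, hα⟩ | hall
  · refine Or.inl ⟨?_, ?_⟩
    · have h1 := hindex α
      rw [hstab, hα, h.card_stabilizer_inf, hcardG] at h1
      rw [hF]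
      refine Nat.eq_of_mul_eq_mul_right (m := (2 ^ (2 * m + 1)) ^ 2 * (2 ^ (2 * m + 1) - 1)) (Nat.mul_pos (pow_pos (Nat.two_pow_pos _) 2) (by omega : 0 < 2 ^ (2 * m + 1) - 1)) ?_
      rw [h1]; ring
    · have h2 : ∀ {a b c d : Cfsg.suzukiOvoid F m}, a ≠ b → c ≠ d → ∃ g : Cfsg.Sz F m, g • a = c ∧ g • b = d :=
        MulAction.is_two_pretransitive_iff.1 h.isMultiplyPretransitive
      have hp : ∀ g : Cfsg.Sz F m, g • α = α ↔ g • CfsgLib.Suzuki.oInf F m = CfsgLib.Suzuki.oInf F m := fun g => by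
        rw [← MulAction.mem_stabilizer_iff, hα, MulAction.mem_stabilizer_iff]
      rw [MulAction.is_two_pretransitive_iff]
      intro a b c d hab hcd
      obtain ⟨x, rfl⟩ := MulAction.exists_smul_eq (Cfsg.Sz F m) α a
      obtain ⟨y, rfl⟩ := MulAction.exists_smul_eq (Cfsg.Sz F m) α b
      obtain ⟨z, rfl⟩ := MulAction.exists_smul_eq (Cfsg.Sz F m) α c
      obtain ⟨w, rfl⟩ := MulAction.exists_smul_eq (Cfsg.Sz F m) α d
      have hne : ∀ x y : Cfsg.Sz F m, x • α ≠ y • α →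
          x • CfsgLib.Suzuki.oInf F m ≠ y • CfsgLib.Suzuki.oInf F m := fun x y hxy e1 => hxy (by
        rw [eq_comm, ← inv_smul_eq_iff, smul_smul, ← hp] at e1
        rw [eq_comm, ← inv_smul_eq_iff, smul_smul]; exact e1)
      obtain ⟨g, hgx, hgy⟩ := h2 (hne x y hab) (hne z w hcd)
      refine ⟨ε g, ?_, ?_⟩
      · rw [← hsmul, smul_smul, eq_comm, ← inv_smul_eq_iff, smul_smul, eq_comm]
        rw [smul_smul, eq_comm, ← inv_smul_eq_iff, smul_smul] at hgx
        first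
          | exact ((hp _).2 hgx)
          | exact ((hp _).2 hgx).symm
      · rw [← hsmul, smul_smul, eq_comm, ← inv_smul_eq_iff, smul_smul, eq_comm]
        rw [smul_smul, eq_comm, ← inv_smul_eq_iff, smul_smul] at hgy
        first
          | exact ((hp _).2 hgy)
          | exact ((hp _).2 hgy).symm
  · refine Or.inr ⟨?_, fun α => by rw [hstab, hall, hF]⟩
    have h1 := hindex α₁
    rw [hstab, hall, hcardG] at h1
    rw [hF]
    exact Nat.eq_of_mul_eq_mul_right (by omega : 0 < 2 ^ (2 * m + 1) - 1) h1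

end Cfsg.Agent.S3391
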