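import Cfsg.Statements.S3399
import Cfsg.Agent.Lib.Pronormal.Core
import Cfsg.Agent.Lib.Pronormal.Final

set_option autoImplicit false
open Cfsg

namespace Cfsg.Agent.S3399

/-- Let G be a transitive permutation group of finite degree n and K a nontrivial subgroup of G that is pronormal in G (K and gKg⁻¹ are conjugate inside ⟨K, gKg⁻¹⟩ for every g ∈ G). If K fixes exactly f points, then f ≤ (n − 1)/2, that is, 2f + 1 ≤ n. -/
theorem result (n : ℕ) (G : Subgroup (Equiv.Perm (Fin n)))
    (htrans : ∀ a b : Fin n, ∃ g ∈ G, g a = b)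
    (K : Subgroup (Equiv.Perm (Fin n))) (hKG : K ≤ G) (hK : K ≠ ⊥)
    (hpro : ∀ g ∈ G, ∃ w ∈ K ⊔ K.map (MulAut.conj g).toMonoidHom,
      K.map (MulAut.conj w).toMonoidHom = K.map (MulAut.conj g).toMonoidHom) :
    2 * Nat.card {a : Fin n // ∀ k ∈ K, k a = a} + 1 ≤ n := by
  induction n using Nat.strong_induction_on with
  | _ n ih =>
    by_contra hlt
    obtain ⟨X⟩ := CfsgLib.Pronormal.exists_geom G K hKG hK htrans hpro
      (by rw [Fintype.card_fin]; omega)
      (fun m G' K' hm htr hle hne hpr =>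
        ih m (by simpa using hm) G' htr K' hle hne hpr)
    exact CfsgLib.Pronormal.false_of_geom X

end Cfsg.Agent.S3399
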