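import Cfsg.Statements.S3410
import Cfsg.Agent.Lib.MetacyclicP.ONanAbelian.Build
import Cfsg.Agent.Lib.ClassicalLinear.Simple
import Cfsg.Agent.Lib.Fischer.PairTwentyFour.Socle

set_option autoImplicit false
open Cfsg

namespace Cfsg.Agent.S3410

/-- Let a finite group G act faithfully and 2-transitively on a finite set X, and let N be an abelian normal subgroup of the stabilizer of a point x which is not semiregular on the remaining points (some non-identity element of N fixes a second point). Then the generalized Fitting subgroup of G is isomorphic to PSL_n(F) for some n ≥ 3 and some finite field F. -/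
theorem result {G X : Type*} [Group G] [Finite G] [Fintype X]
    [MulAction G X] [FaithfulSMul G X] (h2 : MulAction.IsMultiplyPretransitive G X 2) (x : X)
    (N : Subgroup G) (hNle : N ≤ MulAction.stabilizer G x)
    (hNnormal : ∀ g ∈ MulAction.stabilizer G x, ∀ n ∈ N, g * n * g⁻¹ ∈ N) (hNab : IsMulCommutative N)
    (hnsr : ∃ n ∈ N, n ≠ 1 ∧ ∃ y : X, y ≠ x ∧ n • y = y) :
    ∃ (F : Type) (_ : Field F) (_ : Fintype F) (n : ℕ), 3 ≤ n ∧
      Nonempty (↥(Cfsg.generalizedFittingSubgroup G) ≃* Matrix.ProjectiveSpecialLinearGroup (Fin n) F) := by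
  classical
  cases nonempty_fintype G
  have two : ∀ a b a' b' : X, a ≠ b → a' ≠ b' → ∃ g : G, g • a = a' ∧ g • b = b' :=
    fun _ _ _ _ h h' => MulAction.is_two_pretransitive_iff.1 h2 h h'
  obtain ⟨S⟩ := CfsgLib.MetacyclicP.ONanAbelian.exists_absys two x N hNle hNnormal
    (fun a ha b hb => congrArg Subtype.val (hNab.is_comm.comm (⟨a, ha⟩ : N) ⟨b, hb⟩)) hnsr
  obtain ⟨m, K, fK, fiK, hm, -, L, hL, ⟨e⟩, hC⟩ := S.exists_psl
  have hs : IsSimpleGroup (Matrix.ProjectiveSpecialLinearGroup (Fin (m + 1)) K) :=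
    CfsgLib.ClassicalLinear.isSimpleGroup_psl_of_three_le (by rw [Fintype.card_fin]; omega)
  haveI : IsSimpleGroup L := e.isSimpleGroup
  have hnc : ¬ IsMulCommutative L := by
    intro hc
    have hle : L ≤ Subgroup.centralizer (L : Set G) := fun u hu =>
      Subgroup.mem_centralizer_iff.2 fun v hv => congrArg Subtype.val (hc.is_comm.comm (⟨v, hv⟩ : L) ⟨u, hu⟩)
    rw [hC] at hle
    have h0 : L = ⊥ := le_bot_iff.1 hle
    exact (Subgroup.nontrivial_iff_ne_bot L).1 inferInstance h0
  refine ⟨K, fK, fiK, m + 1, by omega, ?_⟩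
  rw [CfsgLib.Fischer.PairTwentyFour.generalizedFitting_eq_of_simple hnc hC]
  exact ⟨e⟩

end Cfsg.Agent.S3410
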