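import Cfsg.Statements.S3413
import Mathlib
import Cfsg.Agent.Lib.Spectrum.M11Graph
-- import your own Cfsg.Agent.* helpers here

set_option autoImplicit false
open Cfsg

namespace Cfsg.Agent.S3413

open CfsgLib.Spectrum.M11G CfsgLib.Golay

section
variable {H : Type*} [Group H] [Finite H]

theorem exists_equiv (f : {h : H // h ≠ 1} ≃ {p : MG // p ≠ 1})
    (hf : ∀ x y : {h : H // h ≠ 1}, (x : H) * y = y * x ↔ (f x : MG) * f y = f y * f x) :
    ∃ F : H ≃ MG, F 1 = 1 ∧ ∀ a b, a * b = b * a ↔ F a * F b = F b * F a := by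
  classical
  let F : H ≃ MG :=
    (Equiv.optionSubtypeNe (1 : H)).symm.trans ((Equiv.optionCongr f).trans (Equiv.optionSubtypeNe (1 : MG)))
  have h1 : F 1 = 1 := by simp [F]
  have hne : ∀ a (ha : a ≠ 1), F a = (f ⟨a, ha⟩ : MG) := fun a ha => by simp [F, ha]
  refine ⟨F, h1, fun a b => ?_⟩
  by_cases ha : a = 1
  · simp [ha, h1]
  by_cases hb : b = 1
  · simp [hb, h1]
  rw [hne a ha, hne b hb]
  exact hf ⟨a, ha⟩ ⟨b, hb⟩

/-- The data transported along the bijection. -/
structure GraphIso (H : Type*) [Group H] where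
  F : H ≃ MG
  one : F 1 = 1
  comm : ∀ a b, a * b = b * a ↔ F a * F b = F b * F a

variable (P : GraphIso H)

/-- Conjugation transported to the target. -/
def sigma : H →* Equiv.Perm MG where
  toFun h := P.F.permCongr (MulAut.conj h).toEquiv
  map_one' := by ext p; simp
  map_mul' a b := by ext p; simp [mul_assoc]

theorem sigma_apply (h : H) (p : MG) : sigma P h p = P.F (h * P.F.symm p * h⁻¹) := rfl

theorem card_cent_eq (a : H) :
    Nat.card (Subgroup.centralizer ({a} : Set H)) =
      Nat.card (Subgroup.centralizer ({P.F a} : Set MG)) :=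
  Nat.card_congr (P.F.subtypeEquiv fun g => by
    simp only [Subgroup.mem_centralizer_singleton_iff]; exact P.comm g a)

theorem card_cent_conj (c x : H) :
    Nat.card (Subgroup.centralizer ({c * x * c⁻¹} : Set H)) =
      Nat.card (Subgroup.centralizer ({x} : Set H)) := by
  refine (Nat.card_congr ((MulAut.conj c).toEquiv.subtypeEquiv fun g => ?_)).symm
  simp only [Subgroup.mem_centralizer_singleton_iff, MulEquiv.toEquiv_eq_coe, EquivLike.coe_coe,
    MulAut.conj_apply]
  constructor
  · intro h
    calc c * g * c⁻¹ * (c * x * c⁻¹) = c * (g * x) * c⁻¹ := by group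
      _ = c * (x * g) * c⁻¹ := by rw [h]
      _ = c * x * c⁻¹ * (c * g * c⁻¹) := by group
  · intro h
    calc g * x = c⁻¹ * (c * g * c⁻¹ * (c * x * c⁻¹)) * c := by group
      _ = c⁻¹ * (c * x * c⁻¹ * (c * g * c⁻¹)) * c := by rw [h]
      _ = x * g := by group

theorem sigma_comm (h : H) (p p' : MG) :
    sigma P h p * sigma P h p' = sigma P h p' * sigma P h p ↔ p * p' = p' * p := by
  rw [sigma_apply, sigma_apply, ← P.comm]
  have h1 : h * P.F.symm p * h⁻¹ * (h * P.F.symm p' * h⁻¹) = h * (P.F.symm p * P.F.symm p') * h⁻¹ := by group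
  have h2 : h * P.F.symm p' * h⁻¹ * (h * P.F.symm p * h⁻¹) = h * (P.F.symm p' * P.F.symm p) * h⁻¹ := by group
  rw [h1, h2, mul_left_inj, mul_right_inj, P.comm]
  simp

theorem sigma_tG (h : H) (i : Fin 165) : ∃ j, sigma P h (tG i) = tG j := by
  obtain ⟨hne, hc⟩ := invol_iff.mp ⟨i, rfl⟩
  refine invol_iff.mpr ⟨fun e => hne ?_, ?_⟩
  · rw [sigma_apply, ← P.one] at e
    have h1 := P.F.injective e
    have h2 : P.F.symm (tG i) = 1 := by
      calc P.F.symm (tG i) = h⁻¹ * (h * P.F.symm (tG i) * h⁻¹) * h := by group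
        _ = 1 := by rw [h1]; group
    rw [← P.F.apply_symm_apply (tG i), h2, P.one]
  · rw [sigma_apply, ← card_cent_eq, card_cent_conj, card_cent_eq, P.F.apply_symm_apply]
    exact hc

/-- The induced map on involutions. -/
noncomputable def move (h : H) (i : Fin 165) : Fin 165 := (sigma_tG P h i).choose

theorem move_spec (h : H) (i : Fin 165) : sigma P h (tG i) = tG (move P h i) :=
  (sigma_tG P h i).choose_spec

theorem move_mul (a b : H) (i : Fin 165) : move P (a * b) i = move P a (move P b i) := by
  apply tG_injective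
  rw [← move_spec, ← move_spec, ← move_spec, map_mul, Equiv.Perm.mul_apply]

theorem move_one (i : Fin 165) : move P 1 i = i := by
  apply tG_injective
  rw [← move_spec, map_one, Equiv.Perm.one_apply]

/-- The action on the graph. -/
noncomputable def toAut : H →* autGraph where
  toFun h := ⟨{
      toFun := move P h
      invFun := move P h⁻¹
      left_inv := fun i => by rw [← move_mul, inv_mul_cancel, move_one]
      right_inv := fun i => by rw [← move_mul, mul_inv_cancel, move_one] },
    fun i j => by
      show adj (move P h i) (move P h j) = adj i j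
      rw [Bool.eq_iff_iff, adj_iff, adj_iff, ← move_spec, ← move_spec, sigma_comm]⟩
  map_one' := Subtype.ext (Equiv.ext fun i => move_one P i)
  map_mul' a b := Subtype.ext (Equiv.ext fun i => move_mul P a b i)

theorem toAut_injective : Function.Injective (toAut P) := by
  rw [injective_iff_map_eq_one]
  intro k hk
  have hfix : ∀ i, tG i * P.F k = P.F k * tG i := by
    intro i
    have h0 : move P k i = i := congrArg (fun α : autGraph => α.1 i) hk
    have h := move_spec P k i
    rw [h0, sigma_apply] at h
    have h' := P.F.injective (h.trans (P.F.apply_symm_apply _).symm)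
    have hc : k * P.F.symm (tG i) = P.F.symm (tG i) * k := mul_inv_eq_iff_eq_mul.mp h'
    simpa using ((P.comm _ _).mp hc).symm
  by_contra hne
  have hF : P.F k ≠ 1 := fun e => hne (P.F.injective (e.trans P.one.symm))
  rcases invol_or_small hF with ⟨j, hj⟩ | ⟨-, hs⟩
  · obtain ⟨i, hi, hn⟩ := List.any_eq_true.1
      (List.all_eq_true.1 nonneighbour j.val (List.mem_range.2 j.2))
    have h1 := (adj_iff j ⟨i, List.mem_range.1 hi⟩).2 (by rw [← hj]; exact (hfix _).symm)
    rw [adj] at h1
    rw [h1] at hn
    cases hn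
  · let ι : Fin 165 → Subgroup.centralizer ({P.F k} : Set MG) := fun i =>
      ⟨tG i, Subgroup.mem_centralizer_singleton_iff.mpr (hfix i)⟩
    have := Nat.card_le_card_of_injective ι fun i j e => tG_injective (congrArg Subtype.val e)
    rw [Nat.card_eq_fintype_card, Fintype.card_fin] at this
    omega

theorem toAut_bijective : Function.Bijective (toAut P) := by
  refine ⟨toAut_injective P, ?_⟩
  have hH : Nat.card H = 7920 := (Nat.card_congr P.F).trans card_MG
  have : (toAut P).range = ⊤ := by
    refine Subgroup.eq_top_of_le_card _ ?_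
    rw [← Nat.card_congr (MonoidHom.ofInjective (toAut_injective P)).toEquiv, hH]
    exact card_autGraph_le
  exact MonoidHom.range_eq_top.mp this

end


/-- Let H be a finite group whose commuting graph (vertices the non-identity elements, two joined when they commute) is isomorphic to that of the Mathieu group M_11: there is a bijection between the non-identity elements of H and of M_11 under which two elements commute exactly when their images do. Then H ≅ M_11. -/
theorem result {H : Type*} [Group H] [Finite H]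
    (f : {h : H // h ≠ 1} ≃ {g : ↥Cfsg.Spor.M11 // g ≠ 1})
    (hf : ∀ x y : {h : H // h ≠ 1}, (x : H) * y = y * x ↔ ((f x) : ↥Cfsg.Spor.M11) * (f y) = (f y) * (f x)) :
    Nonempty (H ≃* ↥Cfsg.Spor.M11) := by
  haveI hfin : Finite ↥(CfsgLib.Spectrum.M11G.MG) := inferInstance
  let q : ↥Cfsg.Spor.M11 ≃* MG := MulEquiv.subgroupCongr M11_eq
  let f' : {h : H // h ≠ 1} ≃ {p : MG // p ≠ 1} :=
    f.trans (q.toEquiv.subtypeEquiv fun g => by simp)
  have hf' : ∀ x y : {h : H // h ≠ 1}, (x : H) * y = y * x ↔ (f' x : MG) * f' y = f' y * f' x := by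
    intro x y
    rw [hf x y]
    show _ ↔ q (f x) * q (f y) = q (f y) * q (f x)
    rw [← map_mul, ← map_mul, q.injective.eq_iff]
  obtain ⟨F, h1, h2⟩ := exists_equiv f' hf'
  let e := MulEquiv.ofBijective _ (toAut_bijective ⟨F, h1, h2⟩)
  let e0 := MulEquiv.ofBijective _ (toAut_bijective (⟨Equiv.refl MG, rfl, fun _ _ => Iff.rfl⟩ : GraphIso MG))
  exact ⟨(e.trans e0.symm).trans q.symm⟩

end Cfsg.Agent.S3413
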