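import Cfsg.Statements.S3421
import Cfsg.Agent.Lib.Spectrum.PSLTwoRecognition
import Cfsg.Agent.S2475

set_option autoImplicit false
open Cfsg

namespace Cfsg.Agent.S3421

/-- Let F be a finite field with more than 3 elements. A finite group G is isomorphic to PSL(2, F) if and only if G has the same set of element orders and the same order as PSL(2, F). -/
theorem result {G : Type*} [Group G] [Finite G] {F : Type*} [Field F] [Fintype F] (hF : 3 < Fintype.card F) :
    Nonempty (G ≃* Matrix.ProjectiveSpecialLinearGroup (Fin 2) F) ↔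
      (Set.range (orderOf : G → ℕ) = Set.range (orderOf : Matrix.ProjectiveSpecialLinearGroup (Fin 2) F → ℕ) ∧
        Nat.card G = Nat.card (Matrix.ProjectiveSpecialLinearGroup (Fin 2) F)) := by
  obtain ⟨p, hchar⟩ := CharP.exists F
  obtain ⟨n, hp, hq⟩ := FiniteField.card F p
  haveI : Fact p.Prime := ⟨hp⟩
  constructor
  · rintro ⟨φ⟩
    refine ⟨?_, Nat.card_congr φ.toEquiv⟩
    ext m
    constructor
    · rintro ⟨g, rfl⟩
      exact ⟨φ g, φ.orderOf_eq g⟩
    · rintro ⟨g, rfl⟩
      exact ⟨φ.symm g, φ.symm.orderOf_eq g⟩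
  · rintro ⟨hs, hc⟩
    rw [Cfsg.Agent.S2475.result p (show 4 ≤ Fintype.card F by omega)] at hs
    have hspec : ∀ m, (∃ g : G, orderOf g = m) ↔ m ∣ p ∨
        m ∣ (Fintype.card F - 1) / Nat.gcd 2 (Fintype.card F - 1) ∨
        m ∣ (Fintype.card F + 1) / Nat.gcd 2 (Fintype.card F - 1) := fun m =>
      Set.ext_iff.1 hs m
    rcases hp.eq_two_or_odd' with rfl | hpo
    · have heven : Even (Fintype.card F) := by
        rw [hq]; exact Nat.even_pow.2 ⟨even_two, n.ne_zero⟩
      rw [CfsgLib.ClassicalLinear.card_PSL_two_of_even rfl heven] at hc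
      have hgcd : Nat.gcd 2 (Fintype.card F - 1) = 1 := by
        obtain ⟨k, hk⟩ := heven
        rw [show Fintype.card F - 1 = 2 * (k - 1) + 1 by omega]
        simp
      rw [hgcd] at hspec
      simp only [Nat.div_one] at hspec
      refine CfsgLib.Spectrum.PSLTwo.nonempty_mulEquiv (p := 2) (n := n) (q := Fintype.card F)
        (a := Fintype.card F - 1) (b := Fintype.card F + 1) (d := 1)
        ⟨hp, hq, hF, Or.inl ⟨rfl, rfl⟩, by omega, by omega, ?_, hspec⟩ rfl
      rw [hc]
      generalize Fintype.card F = q at hF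
      have h1 : 1 ≤ q ^ 2 := Nat.one_le_pow _ _ (by omega)
      zify [h1, show 1 ≤ q by omega]
      ring
    · have hodd : Odd (Fintype.card F) := by rw [hq]; exact hpo.pow
      have h2 := CfsgLib.ClassicalLinear.card_PSL_two_of_odd (F := F) rfl hodd
      rw [← hc] at h2
      obtain ⟨k, hk⟩ := hodd
      have hgcd : Nat.gcd 2 (Fintype.card F - 1) = 2 := by
        rw [hk, show 2 * k + 1 - 1 = 2 * k by omega]
        simp
      rw [hgcd] at hspec
      refine CfsgLib.Spectrum.PSLTwo.nonempty_mulEquiv (p := p) (n := n) (q := Fintype.card F)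
        (a := (Fintype.card F - 1) / 2) (b := (Fintype.card F + 1) / 2) (d := 2)
        ⟨hp, hq, hF, Or.inr ⟨by rintro rfl; exact absurd hpo (by decide), rfl⟩, by omega, by omega, ?_, hspec⟩ rfl
      rw [show (Fintype.card F - 1) / 2 = k by omega, show (Fintype.card F + 1) / 2 = k + 1 by omega,
        hk]
      rw [hk, show (2 * k + 1) ^ 2 - 1 = 2 * k * (2 * k + 2) by
        rw [show (2 * k + 1) ^ 2 = 2 * k * (2 * k + 2) + 1 by ring, Nat.add_sub_cancel]] at h2
      refine Nat.eq_of_mul_eq_mul_left (show 0 < 2 by omega) (h2.trans ?_)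
      ring

end Cfsg.Agent.S3421
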