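import Cfsg.Statements.S3427
import Cfsg.Agent.Lib.GTwoTwo.Recognition
import Cfsg.Agent.Lib.OrderDegrees.G2Iso
import Cfsg.Agent.Lib.G2Spectrum.Roots
import Cfsg.Agent.Lib.Chevalley.G2Spectrum

set_option autoImplicit false
set_option linter.style.haveILetI false
open Cfsg

namespace Cfsg.Agent.S3427

open CfsgLib.GTwoTwo

/-- Let F be the field with 2 elements and let M be the Chevalley group of type G₂ over F (a non-simple group of order 12096 whose derived subgroup, of index 2, is isomorphic to PSU(3, 3)). A finite group G is isomorphic to M if and only if G has the same set of element orders and the same order as M. -/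
theorem result {G : Type*} [Group G] [Finite G] {F : Type*} [Field F] [Fintype F] (hF : Fintype.card F = 2) :
    Nonempty (G ≃* ↥(Cfsg.Lie.chevG2.group F)) ↔
      (Set.range (orderOf : G → ℕ) = Set.range (orderOf : ↥(Cfsg.Lie.chevG2.group F) → ℕ) ∧ Nat.card G = Nat.card ↥(Cfsg.Lie.chevG2.group F)) := by
  constructor
  · rintro ⟨e⟩
    refine ⟨?_, Nat.card_congr e.toEquiv⟩
    ext n
    constructor
    · rintro ⟨g, rfl⟩; exact ⟨e g, e.orderOf_eq g⟩
    · rintro ⟨g, rfl⟩; exact ⟨e.symm g, e.symm.orderOf_eq g⟩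
  · rintro ⟨hspec, hcard⟩
    have hc : Nat.card ↥(Cfsg.Lie.chevG2.group F) = 12096 := by
      rw [CfsgLib.Chevalley.G2Spectrum.card_group 2 hF]; norm_num
    haveI : Finite ↥(Cfsg.Lie.chevG2.group F) := Nat.finite_of_card_ne_zero (by omega)
    haveI : CharP F 2 := charP_of_card_eq_prime (by rw [hF])
    obtain ⟨φ⟩ := CfsgLib.OrderDegrees.G2.nonempty_equiv (F := F)
    have hord : ∀ x : ↥(Cfsg.Lie.chevG2.group F),
        ¬ 9 ∣ orderOf x ∧ ¬ 14 ∣ orderOf x ∧ ¬ 21 ∣ orderOf x := by
      intro x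
      obtain ⟨m, hm, hdvd⟩ := CfsgLib.G2Spectrum.exists_orderOf_dvd (n := 1) (by rw [hF]; norm_num) (φ.symm x).2
      rw [Subgroup.orderOf_coe, φ.symm.orderOf_eq] at hdvd
      simp only [Set.mem_insert_iff, Set.mem_singleton_iff] at hm
      norm_num at hm
      have key : ∀ k, ¬ k ∣ m → ¬ k ∣ orderOf x := fun k hk h => hk (h.trans hdvd)
      refine ⟨key 9 ?_, key 14 ?_, key 21 ?_⟩ <;>
        rcases hm with rfl | rfl | rfl | rfl | rfl | rfl | rfl <;> norm_num
    have hnoM : NoOrders ↥(Cfsg.Lie.chevG2.group F) :=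
      ⟨fun x => (hord x).1, fun x => (hord x).2.1, fun x => (hord x).2.2⟩
    have hnoG : NoOrders G := by
      have h : ∀ g : G, ∃ x : ↥(Cfsg.Lie.chevG2.group F), orderOf x = orderOf g := fun g =>
        (hspec ▸ Set.mem_range_self g : orderOf g ∈ Set.range (orderOf : ↥(Cfsg.Lie.chevG2.group F) → ℕ))
      refine ⟨fun g => ?_, fun g => ?_, fun g => ?_⟩ <;> obtain ⟨x, hx⟩ := h g <;> rw [← hx]
      · exact (hord x).1
      · exact (hord x).2.1
      · exact (hord x).2.2
    obtain ⟨e1⟩ := nonempty_equiv_std (hcard.trans hc) hnoG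
    obtain ⟨e2⟩ := nonempty_equiv_std hc hnoM
    exact ⟨e1.trans e2.symm⟩

end Cfsg.Agent.S3427
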