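import Cfsg.Statements.S3493
import Cfsg.Agent.Lib.Fixity.ExtremelyPrimitive
import Cfsg.Agent.Lib.PermGroups.Basic

set_option autoImplicit false
open Cfsg

namespace Cfsg.Agent.S3493

/-- An extremely primitive permutation group is of affine type or almost simple. Let a finite group G act faithfully and primitively on a finite set Ω with at least two points, in such a way that every point stabilizer acts primitively on each of its own orbits in Ω (an orbit of size one counts as primitive). Then either G has a non-trivial abelian normal subgroup whose elements other than the identity fix no point (affine type), or G has a non-abelian simple normal subgroup with trivial centralizer (almost simple). -/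
theorem result {G : Type*} [Group G] [Finite G] {Ω : Type*} [Fintype Ω] [MulAction G Ω] [FaithfulSMul G Ω] (hΩ : 2 ≤ Fintype.card Ω) (hprim : MulAction.IsPreprimitive G Ω) (hep : ∀ (α : Ω) (ω : Ω), MulAction.IsPreprimitive (MulAction.stabilizer G α) (MulAction.orbit (MulAction.stabilizer G α) ω)) :
    (∃ N : Subgroup G, N.Normal ∧ N ≠ ⊥ ∧ IsMulCommutative N ∧ ∀ ω : Ω, MulAction.stabilizer N ω = ⊥) ∨ (∃ T : Subgroup G, T.Normal ∧ IsSimpleGroup T ∧ ¬ IsMulCommutative T ∧ Subgroup.centralizer (T : Set G) = ⊥) := by
  by_contra hcon
  push Not at hcon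
  obtain ⟨h1, h2⟩ := hcon
  rw [← Nat.card_eq_fintype_card] at hΩ
  obtain ⟨a⟩ : Nonempty Ω := (Nat.card_pos_iff.1 (by omega)).1
  refine CfsgLib.Fixity.false_of_maximal_suborbit_stabilizers hprim hΩ a
    (CfsgLib.Fixity.maximal_of_suborbit_primitive (hep a)) (fun N hN hNc => by_contra fun hNb => ?_) ?_
  · haveI := hN
    haveI := CfsgLib.Fixity.isPretransitive_of_normal_ne_bot (M := N) hprim hNb
    obtain ⟨ω, hω⟩ := h1 N hN hNb hNc
    exact hω (CfsgLib.PermGroups.semiregular_of_abelian_transitive N hNc ω)
  · rintro ⟨T, hT, hTs, hTna, hTc⟩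
    exact h2 T hT hTs hTna hTc

end Cfsg.Agent.S3493
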