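import Cfsg.Statements.S3495
import Cfsg.Agent.Lib.Fixity.AffineDerangements

set_option autoImplicit false
set_option linter.style.haveILetI false
open Cfsg

namespace Cfsg.Agent.S3495

/-- Let a finite group G act faithfully and primitively on a finite set Ω with non-trivial point stabilizers, each acting primitively on every one of its orbits (an extremely primitive group), and suppose G has an elementary abelian normal p-subgroup N acting regularly on Ω (affine type). Then every non-trivial subgroup M of a point stabilizer G_α that is normal in G_α has the same orbits on Ω as G_α, and normalizes no subgroup of N other than 1 and N. -/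
theorem result {G : Type*} [Group G] [Finite G] {Ω : Type*} [Fintype Ω] [MulAction G Ω] [FaithfulSMul G Ω] (hprim : MulAction.IsPreprimitive G Ω) (hH : ∀ α : Ω, MulAction.stabilizer G α ≠ ⊥) (hep : ∀ (α : Ω) (ω : Ω), MulAction.IsPreprimitive (MulAction.stabilizer G α) (MulAction.orbit (MulAction.stabilizer G α) ω))
    (N : Subgroup G) [N.Normal] (hNc : IsMulCommutative N) (p : ℕ) (hp : p.Prime) (hNp : ∀ n ∈ N, n ^ p = 1)
    (hNtr : MulAction.IsPretransitive N Ω) (hNreg : ∀ ω : Ω, MulAction.stabilizer N ω = ⊥) (α : Ω) (M : Subgroup G) (hM : M ≠ ⊥) (hMle : M ≤ MulAction.stabilizer G α)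
    (hMn : MulAction.stabilizer G α ≤ Subgroup.normalizer (M : Set G)) :
    (∀ ω : Ω, MulAction.orbit M ω = MulAction.orbit (MulAction.stabilizer G α) ω) ∧
    (∀ L : Subgroup G, L ≤ N → M ≤ Subgroup.normalizer (L : Set G) → L = ⊥ ∨ L = N) := by
  classical
  haveI := hNtr
  haveI := hprim
  set H := MulAction.stabilizer G α with hHdef
  have hN1 : ∀ n ∈ N, ∀ ω : Ω, n • ω = ω → n = 1 := fun n hn ω h =>
    (CfsgLib.PermGroups.stabilizer_subgroup_eq_bot_iff N ω).1 (hNreg ω) n hn h
  -- a normal subgroup inside `N` is trivial or `N`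
  have hmin : ∀ L : Subgroup G, L ≤ N → L.Normal → L = ⊥ ∨ L = N := by
    intro L hLN hL
    by_cases h : L = ⊥
    · exact Or.inl h
    refine Or.inr (le_antisymm hLN fun n hn => ?_)
    haveI := hL
    haveI := CfsgLib.Fixity.normal_transitive hprim h
    obtain ⟨l, hl⟩ := MulAction.exists_smul_eq L α (n • α)
    have h1 : (l : G)⁻¹ * n = 1 :=
      hN1 _ (mul_mem (inv_mem (hLN l.2)) hn) α (by rw [mul_smul, inv_smul_eq_iff]; exact hl.symm)
    rw [inv_mul_eq_one] at h1
    exact h1 ▸ l.2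
  have hcomm : ∀ x ∈ N, ∀ y ∈ N, x * y = y * x := fun x hx y hy =>
    congrArg Subtype.val (hNc.is_comm.comm (⟨x, hx⟩ : N) ⟨y, hy⟩)
  -- a subgroup of `N` invariant under the stabiliser is normal in `G`
  have hnorm : ∀ L : Subgroup G, L ≤ N → (∀ h ∈ H, ∀ x ∈ L, h * x * h⁻¹ ∈ L) → L.Normal := by
    intro L hLN hinv
    refine ⟨fun x hx g => ?_⟩
    obtain ⟨m, hm⟩ := MulAction.exists_smul_eq N α (g • α)
    have hh : (m : G)⁻¹ * g ∈ H := by
      rw [hHdef, MulAction.mem_stabilizer_iff, mul_smul, inv_smul_eq_iff]; exact hm.symm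
    have h1 := hinv _ hh x hx
    have h2 : g * x * g⁻¹ = (m : G) * ((m : G)⁻¹ * g * x * ((m : G)⁻¹ * g)⁻¹) * (m : G)⁻¹ := by
      group
    rw [h2, hcomm _ m.2 _ (hLN h1), mul_inv_cancel_right]
    exact h1
  -- `M` fixes only the point `α`
  have hfix : ∀ n ∈ N, (∀ m ∈ M, m * n = n * m) → n = 1 := by
    let C : Subgroup G := N ⊓ Subgroup.centralizer (M : Set G)
    have hCn : C.Normal := hnorm C inf_le_left fun h hh x hx => by
      refine ⟨Subgroup.Normal.conj_mem ‹N.Normal› x hx.1 h, fun m hm => ?_⟩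
      have h1 : h⁻¹ * m * h ∈ M := by
        have := (Subgroup.mem_normalizer_iff.1 (hMn (inv_mem hh)) m).1 hm
        rwa [inv_inv] at this
      have h2 : h⁻¹ * m * h * x = x * (h⁻¹ * m * h) := hx.2 _ h1
      calc m * (h * x * h⁻¹) = h * (h⁻¹ * m * h * x) * h⁻¹ := by group
        _ = h * (x * (h⁻¹ * m * h)) * h⁻¹ := by rw [h2]
        _ = h * x * h⁻¹ * m := by group
    rcases hmin C inf_le_left hCn with h | h
    · intro n hn hc
      have : n ∈ C := ⟨hn, hc⟩
      rwa [h, Subgroup.mem_bot] at this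
    · exfalso
      apply hM
      rw [eq_bot_iff]
      intro m hm
      rw [Subgroup.mem_bot]
      have hNC : N ≤ Subgroup.centralizer (M : Set G) := fun n hn => (h.symm ▸ hn : n ∈ C).2
      exact CfsgLib.PermGroups.eq_one_of_commute_of_transitive N (c := m)
        (fun n hn => hNC hn m hm) (a := α) (hMle hm)
  have hmoves : ∀ ω : Ω, ω ≠ α → ∃ m ∈ M, m • ω ≠ ω := by
    intro ω hω
    obtain ⟨n, rfl⟩ := MulAction.exists_smul_eq N α ω
    by_contra hcon
    push Not at hcon
    apply hω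
    have : (n : G) = 1 := hfix n n.2 fun m hm => by
      have h1 : m * (n : G) * m⁻¹ * (n : G)⁻¹ = 1 := by
        have hmem : m * (n : G) * m⁻¹ * (n : G)⁻¹ ∈ N :=
          mul_mem (Subgroup.Normal.conj_mem ‹N.Normal› _ n.2 m) (inv_mem n.2)
        refine hN1 _ hmem ((n : G) • α) ?_
        have h2 : m⁻¹ • α = α := inv_smul_eq_iff.2 (hMle hm).symm
        rw [mul_smul, inv_smul_smul, mul_smul, h2, mul_smul]
        exact hcon m hm
      exact mul_inv_eq_iff_eq_mul.1 (mul_inv_eq_one.1 h1)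
    rw [Subgroup.smul_def, this, one_smul]
  -- orbits
  have horb : ∀ ω : Ω, MulAction.orbit M ω = MulAction.orbit H ω := by
    intro ω
    by_cases hω : ω = α
    · subst hω
      have hA : ∀ K : Subgroup G, K ≤ H → MulAction.orbit K ω = {ω} := by
        intro K hK
        ext x
        constructor
        · rintro ⟨k, rfl⟩; exact hK k.2
        · rintro rfl; exact MulAction.mem_orbit_self _
      rw [hA M hMle, hA H le_rfl]
    haveI := hep α ω
    let M' : Subgroup H := M.subgroupOf H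
    haveI : M'.Normal := (Subgroup.normal_subgroupOf_iff_le_normalizer hMle).2 hMn
    obtain ⟨m, hm, hmω⟩ := hmoves ω hω
    have hne : MulAction.fixedPoints M' (MulAction.orbit H ω) ≠ Set.univ := by
      intro h
      apply hmω
      have h1 : (⟨ω, MulAction.mem_orbit_self ω⟩ : MulAction.orbit H ω) ∈
          MulAction.fixedPoints M' (MulAction.orbit H ω) := by rw [h]; trivial
      exact congrArg Subtype.val (h1 ⟨⟨m, hMle hm⟩, hm⟩)
    haveI := MulAction.IsQuasiPreprimitive.isPretransitive_of_normal (N := M') hne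
    ext x
    constructor
    · rintro ⟨k, rfl⟩; exact ⟨⟨k, hMle k.2⟩, rfl⟩
    · intro hx
      obtain ⟨k, hk⟩ := MulAction.exists_smul_eq M'
        (⟨ω, MulAction.mem_orbit_self ω⟩ : MulAction.orbit H ω) ⟨x, hx⟩
      exact ⟨⟨((k : H) : G), k.2⟩, congrArg Subtype.val hk⟩
  refine ⟨horb, fun L hLN hLM => hmin L hLN (hnorm L hLN fun h hh x hx => ?_)⟩
  -- the orbit of `x • α` under `H` stays inside `L • α`
  have h1 : h • (x • α) ∈ MulAction.orbit H (x • α) := ⟨⟨h, hh⟩, rfl⟩
  rw [← horb] at h1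
  obtain ⟨k, hk⟩ := h1
  have hk1 : (k : G) • (x • α) = h • (x • α) := hk
  have hkx : (k : G) * x * (k : G)⁻¹ ∈ L := (Subgroup.mem_normalizer_iff.1 (hLM k.2) x).1 hx
  have hkα : (k : G)⁻¹ • α = α := inv_smul_eq_iff.2 (hMle k.2).symm
  have hhα : h⁻¹ • α = α := inv_smul_eq_iff.2 (MulAction.mem_stabilizer_iff.1 hh).symm
  have h2 : ((k : G) * x * (k : G)⁻¹)⁻¹ * (h * x * h⁻¹) = 1 := by
    refine hN1 _ (mul_mem (inv_mem (hLN hkx))
      (Subgroup.Normal.conj_mem ‹N.Normal› _ (hLN hx) h)) α ?_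
    rw [mul_smul, inv_smul_eq_iff]
    simp only [mul_smul, hkα, hhα]
    exact hk1.symm
  rw [inv_mul_eq_one] at h2
  exact h2 ▸ hkx

end Cfsg.Agent.S3495
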