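import Cfsg.Statements.S3496
import Cfsg.Agent.Lib.Fixity.ExtremelyStabilizer
import Cfsg.Agent.Lib.Fixity.IrreducibleField
import Cfsg.Agent.Lib.Cores.MinimalNormal
import Cfsg.Agent.Lib.Cores.FPF

set_option autoImplicit false
set_option linter.style.haveILetI false
set_option maxHeartbeats 1000000
open Cfsg

namespace Cfsg.Agent.S3496

theorem counting_bound {p d q i M : ℕ} (hp : p.Prime) (hi : 0 < i) (hid : i < d)
    (hqd : q ∣ p ^ d - 1) (hqi : q ∣ p ^ i - 1) (hM1 : 1 ≤ M) (hM : M * M ≤ p ^ d)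
    (h : p ^ d - 1 ≤ q * (M - 1)) : False := by
  have hg : q ∣ p ^ Nat.gcd i d - 1 := by
    rw [← Nat.pow_sub_one_gcd_pow_sub_one]
    exact Nat.dvd_gcd hqi hqd
  set e := Nat.gcd i d
  have he0 : 0 < e := Nat.gcd_pos_of_pos_left _ hi
  have hed : e ∣ d := Nat.gcd_dvd_right i d
  have hei : e ≤ i := Nat.le_of_dvd hi (Nat.gcd_dvd_left i d)
  have he2 : e + e ≤ d := by
    obtain ⟨c, hc⟩ := hed
    rcases c with _ | _ | c
    · simp at hc; omega
    · simp at hc; omega
    · rw [hc]; nlinarith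
  have hpe : 1 < p ^ e := Nat.one_lt_pow he0.ne' hp.one_lt
  have hq : q ≤ p ^ e - 1 := Nat.le_of_dvd (by omega) hg
  have hsq : p ^ e * p ^ e ≤ p ^ d := by
    rw [← pow_add]; exact Nat.pow_le_pow_right hp.pos he2
  obtain ⟨a, ha⟩ : ∃ a, p ^ e = a + 1 := ⟨p ^ e - 1, by omega⟩
  obtain ⟨b, hb⟩ : ∃ b, M = b + 1 := ⟨M - 1, by omega⟩
  obtain ⟨n, hn⟩ : ∃ n, p ^ d = n + 1 := ⟨p ^ d - 1, by have := Nat.one_le_pow d p hp.pos; omega⟩
  rw [hn, hb, Nat.add_sub_cancel, Nat.add_sub_cancel] at h
  rw [ha, Nat.add_sub_cancel] at hq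
  rw [ha, hn] at hsq
  rw [hn, hb] at hM
  have h1 : n ≤ a * b := h.trans (Nat.mul_le_mul_right b hq)
  rcases Nat.eq_zero_or_pos b with hb0 | hb0
  · subst hb0
    simp at h1
    nlinarith
  · nlinarith [Nat.mul_le_mul hb0 hb0, two_mul_le_add_sq (a := a) (b := b)]


/-- The soluble extremely primitive groups. Let a finite solvable group G act faithfully and primitively on a finite set Ω with p ^ d points (p prime), with non-trivial point stabilizers each acting primitively on every one of its orbits. Then there is a prime q such that every orbit of a point stabilizer G_α other than {α} has exactly q points, q divides p ^ d − 1 but no p ^ i − 1 with 0 < i < d, and G_α has a normal subgroup T of order q with G_α generated by T and one further element and the order of G_α dividing q·d (so G_α is cyclic of order q, or an extension of T by a cyclic group of order dividing d). -/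
theorem result {G : Type*} [Group G] [Finite G] {Ω : Type*} [Fintype Ω] [MulAction G Ω] [FaithfulSMul G Ω] [Group.IsSolvable G] (p d : ℕ) (hp : p.Prime) (hcard : Fintype.card Ω = p ^ d)
    (hprim : MulAction.IsPreprimitive G Ω) (hH : ∀ α : Ω, MulAction.stabilizer G α ≠ ⊥) (hep : ∀ (α : Ω) (ω : Ω), MulAction.IsPreprimitive (MulAction.stabilizer G α) (MulAction.orbit (MulAction.stabilizer G α) ω)) (α : Ω) :
    ∃ q : ℕ, q.Prime ∧ (∀ ω : Ω, ω ≠ α → Nat.card (MulAction.orbit (MulAction.stabilizer G α) ω) = q) ∧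
      q ∣ p ^ d - 1 ∧ (∀ i : ℕ, 0 < i → i < d → ¬ q ∣ p ^ i - 1) ∧
      ∃ T : Subgroup G, T ≤ MulAction.stabilizer G α ∧ MulAction.stabilizer G α ≤ Subgroup.normalizer (T : Set G) ∧ Nat.card T = q ∧
        (∃ h : G, MulAction.stabilizer G α = T ⊔ Subgroup.zpowers h) ∧ Nat.card (MulAction.stabilizer G α) ∣ q * d := by
  classical
  haveI := hprim
  haveI : Fact p.Prime := ⟨hp⟩
  have hΩ : Nat.card Ω = p ^ d := by rw [Nat.card_eq_fintype_card, hcard]
  set H := MulAction.stabilizer G α with hHdef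
  have hH1 : H ≠ ⊥ := hH α
  obtain ⟨w, hw⟩ : ∃ w, w ≠ α := by
    by_contra h
    push Not at h
    apply hH1
    rw [Subgroup.eq_bot_iff_forall]
    intro g hg
    refine eq_of_smul_eq_smul (α := Ω) fun x => ?_
    rw [h x, one_smul]
    exact hg
  have hd : 0 < d := by
    rcases Nat.eq_zero_or_pos d with h | h
    · exfalso
      rw [h, pow_zero] at hcard
      exact hw (Fintype.card_le_one_iff.1 hcard.le w α)
    · exact h
  -- the regular normal subgroup
  haveI : Nontrivial G := by
    refine ⟨⟨1, ?_⟩⟩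
    obtain ⟨g, hg⟩ := MulAction.exists_smul_eq G α w
    exact ⟨g, fun h => hw (by rw [← hg, ← h, one_smul])⟩
  obtain ⟨N, hNn, -, hN, hNmin⟩ := CfsgLib.Cores.exists_minimal_normal_le (K := (⊤ : Subgroup G))
    top_ne_bot
  haveI := hNn
  have hNc := CfsgLib.Cores.isMulCommutative_of_minimal_normal_of_isSolvable hN hNmin
  obtain ⟨hNt, hNreg⟩ := CfsgLib.Fixity.abelian_normal_regular hprim hN hNc
  haveI := hNt
  have hNcard : Nat.card N = p ^ d := by rw [CfsgLib.Fixity.card_regular_eq hNt hNreg α, hΩ]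
  have hN1 : ∀ n ∈ N, ∀ ω : Ω, n • ω = ω → n = 1 := fun n hn ω h =>
    (CfsgLib.PermGroups.stabilizer_subgroup_eq_bot_iff N ω).1 (hNreg ω) n hn h
  have hNinj : ∀ m ∈ N, ∀ n ∈ N, m • α = n • α → m = n := fun m hm n hn h =>
    (inv_mul_eq_one.1 (hN1 _ (mul_mem (inv_mem hn) hm) α (by rw [mul_smul, h, inv_smul_smul]))).symm
  have hact : ∀ h ∈ H, ∀ n : G, (h * n * h⁻¹) • α = h • n • α := fun h hh n => by
    rw [mul_smul, mul_smul, inv_smul_eq_iff.2 (MulAction.mem_stabilizer_iff.1 hh).symm]
  have hfixcomm : ∀ h ∈ H, ∀ n ∈ N, h • n • α = n • α ↔ h * n = n * h := fun h hh n hn => by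
    constructor
    · intro he
      rw [← hact h hh] at he
      exact mul_inv_eq_iff_eq_mul.1 (hNinj _ (hNn.conj_mem n hn h) _ hn he)
    · intro he
      rw [← hact h hh, he, mul_inv_cancel_right]
  have hCN : ∀ h ∈ H, (∀ n ∈ N, h * n = n * h) → h = 1 := fun h hh hc =>
    CfsgLib.PermGroups.eq_one_of_commute_of_transitive N hc (MulAction.mem_stabilizer_iff.1 hh)
  -- a normal subgroup of prime order in the stabiliser
  haveI : Group.IsSolvable H := inferInstance
  haveI : Nontrivial H := (Subgroup.nontrivial_iff_ne_bot H).2 hH1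
  obtain ⟨A, hAn, -, hA, hAmin⟩ := CfsgLib.Cores.exists_minimal_normal_le (K := (⊤ : Subgroup H))
    top_ne_bot
  haveI := hAn
  have hAc := CfsgLib.Cores.isMulCommutative_of_minimal_normal_of_isSolvable hA hAmin
  obtain ⟨q, hq, hAexp⟩ := CfsgLib.Cores.exists_prime_pow_eq_one_of_minimal_normal hA hAmin
  haveI : Fact q.Prime := ⟨hq⟩
  have habn := fun (x : Ω) (hx : x ≠ α) => @CfsgLib.Fixity.abelian_normal_suborbit G Ω _ _ _ _ _
    hprim α hH1 (hep α) x hx A hAn hA hAc
  have hAfix : ∀ a ∈ A, ∀ x : Ω, x ≠ α → (a : G) • x = x → a = 1 := fun a ha x hx hax =>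
    (CfsgLib.PermGroups.stabilizer_subgroup_eq_bot_iff _ _).1
      ((habn x hx).2.1 ⟨_, MulAction.mem_orbit_self x⟩) a ha (Subtype.ext hax)
  have hTcyc : IsCyclic A := by
    haveI : IsMulCommutative (A.map H.subtype) := by
      haveI := hAc; infer_instance
    have hle : A.map H.subtype ≤ Subgroup.normalizer (N : Set G) := by
      rw [Subgroup.normalizer_eq_top]; exact le_top
    haveI := CfsgLib.Cores.isCyclic_of_fpf (A := A.map H.subtype) hN hle (by
      rintro _ ⟨a, ha, rfl⟩ ha1
      rw [eq_bot_iff]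
      intro n hn
      rw [Subgroup.mem_bot]
      by_contra hn1
      apply ha1
      have hne : n • α ≠ α := fun h => hn1 (hN1 n hn.1 α h)
      have hcomm : (a : G) * n = n * a := Subgroup.mem_centralizer_iff.1 hn.2 _ rfl
      rw [Subgroup.coe_subtype, hAfix a ha _ hne ((hfixcomm _ a.2 n hn.1).2 hcomm)]
      rfl)
    exact isCyclic_of_surjective _
      (Subgroup.equivMapOfInjective A H.subtype H.subtype_injective).symm.surjective
  have hAcard : Nat.card A = q := by
    haveI := hTcyc
    obtain ⟨t, ht⟩ := IsCyclic.exists_generator (α := A)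
    have h1 : orderOf t ∣ q := orderOf_dvd_of_pow_eq_one (Subtype.ext (hAexp t t.2))
    rw [orderOf_eq_card_of_forall_mem_zpowers ht] at h1
    rcases (Nat.dvd_prime hq).1 h1 with h | h
    · exact absurd (Subgroup.card_eq_one.1 h) hA
    · exact h
  have horb : ∀ ω : Ω, ω ≠ α → Nat.card (MulAction.orbit H ω) = q := fun ω hω => by
    rw [Nat.card_coe_set_eq, ← (habn ω hω).2.2.1, hAcard]
  have hAC : Subgroup.centralizer (A : Set H) = A := (habn w hw).2.2.2
  obtain ⟨t, ht, ht1⟩ : ∃ t ∈ A, t ≠ 1 := by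
    obtain ⟨t, ht⟩ := Subgroup.ne_bot_iff_exists_ne_one.1 hA
    exact ⟨t, t.2, fun h => ht (Subtype.ext h)⟩
  have hord : orderOf t = q := by
    rcases (Nat.dvd_prime hq).1 (hAcard ▸ Subgroup.orderOf_dvd_natCard A ht : orderOf t ∣ q) with h | h
    · exact absurd (orderOf_eq_one_iff.1 h) ht1
    · exact h
  have hAz : A = Subgroup.zpowers t := (Subgroup.eq_of_le_of_card_ge
    (Subgroup.zpowers_le.2 ht) (by rw [Nat.card_zpowers, hord, hAcard])).symm
  -- the quotient by it is cyclic
  haveI : IsCyclic (MulAut A) := by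
    haveI := hTcyc
    haveI : Fact (Nat.card A).Prime := ⟨hAcard.symm ▸ hq⟩
    exact isCyclic_of_surjective _ (IsCyclic.mulAutMulEquiv A).symm.surjective
  set φ : H →* MulAut A := MulAut.conjNormal
  have hφ : ∀ h, φ h = 1 → h ∈ A := fun h hh => by
    rw [← hAC]
    intro a ha
    have := congrArg Subtype.val (DFunLike.congr_fun hh (⟨a, ha⟩ : A))
    rw [MulAut.conjNormal_apply] at this
    exact (mul_inv_eq_iff_eq_mul.1 this).symm
  obtain ⟨⟨_, h0, rfl⟩, hgen⟩ := IsCyclic.exists_generator (α := φ.range)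
  have hsplit : ∀ h : H, ∃ z : ℤ, (h0 ^ z)⁻¹ * h ∈ A := fun h => by
    obtain ⟨z, hz⟩ := Subgroup.mem_zpowers_iff.1 (hgen ⟨φ h, h, rfl⟩)
    refine ⟨z, hφ _ ?_⟩
    have hz' : φ h0 ^ z = φ h := by simpa using congrArg Subtype.val hz
    rw [map_mul, map_inv, map_zpow, hz', inv_mul_cancel]
  -- subgroups of `N` invariant under `A` have order congruent to one
  have hmod : ∀ U : Subgroup G, U ≤ N → (∀ a ∈ A, ∀ u ∈ U, (a : G) * u * (a : G)⁻¹ ∈ U) →
      q ∣ Nat.card U - 1 := by
    intro U hUN hU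
    let S : SubMulAction A Ω :=
      { carrier := {x | ∃ u ∈ U, u • α = x}
        smul_mem' := by
          rintro a _ ⟨u, hu, rfl⟩
          exact ⟨_, hU a a.2 u hu, hact _ ((a : H)).2 u⟩ }
    have hS : Nat.card S = Nat.card U := by
      refine (Nat.card_congr (Equiv.ofBijective
        (fun u : U => (⟨(u : G) • α, u, u.2, rfl⟩ : S)) ⟨fun u v h => ?_, fun x => ?_⟩)).symm
      · exact Subtype.ext (hNinj _ (hUN u.2) _ (hUN v.2) (congrArg Subtype.val h))
      · obtain ⟨u, hu, hux⟩ := x.2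
        exact ⟨⟨u, hu⟩, Subtype.ext hux⟩
    have hfp : Nat.card (MulAction.fixedPoints A S) = 1 := by
      rw [Nat.card_eq_one_iff_exists]
      refine ⟨⟨⟨α, 1, one_mem _, one_smul _ _⟩, fun a => Subtype.ext ?_⟩, fun x => ?_⟩
      · exact MulAction.mem_stabilizer_iff.1 ((a : H)).2
      · refine Subtype.ext (Subtype.ext ?_)
        by_contra hne
        exact ht1 (hAfix t ht _ hne (congrArg Subtype.val (x.2 ⟨t, ht⟩)))
    have h := (IsPGroup.of_card (n := 1) (by rw [hAcard, pow_one]) : IsPGroup q A).card_modEq_card_fixedPoints S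
    rw [hS, hfp] at h
    exact (Nat.modEq_iff_dvd' Nat.card_pos).1 h.symm
  have hqd : q ∣ p ^ d - 1 := hNcard ▸ hmod N le_rfl fun a _ u hu => hNn.conj_mem u hu _
  -- no smaller exponent, unless the stabiliser has prime order
  have hcase : A = ⊤ ∨ ∀ i : ℕ, 0 < i → i < d → ¬ q ∣ p ^ i - 1 := by
    by_cases h0A : h0 ∈ A
    · left
      rw [eq_top_iff]
      intro h _
      obtain ⟨z, hz⟩ := hsplit h
      have := mul_mem (A.zpow_mem h0A z) hz
      rwa [mul_inv_cancel_left] at this
    right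
    intro i hi hid hqi
    let c : A → G := fun a => (((a : H)⁻¹ * h0 : H) : G)
    let W : A → Subgroup G := fun a => N ⊓ Subgroup.centralizer {c a}
    have hW : ∀ a, Nat.card (W a) * Nat.card (W a) ≤ p ^ d := by
      intro a
      -- a conjugate with trivially intersecting fixed space
      let c' : G := (t : G) * c a * (t : G)⁻¹
      let W' : Subgroup G := N ⊓ Subgroup.centralizer {c'}
      have hdisj : W a ⊓ W' = ⊥ := by
        rw [eq_bot_iff]
        rintro n ⟨⟨hn, hn1⟩, -, hn2⟩
        rw [Subgroup.mem_bot]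
        by_contra hne
        have hv : n • α ≠ α := fun h => hne (hN1 n hn α h)
        have hcH : c a ∈ H := ((a : H)⁻¹ * h0).2
        have hc'H : c' ∈ H := H.mul_mem (H.mul_mem t.2 hcH) (H.inv_mem t.2)
        have f1 := (hfixcomm _ hcH n hn).2 (Subgroup.mem_centralizer_iff.1 hn1 _ rfl)
        have f2 := (hfixcomm _ hc'H n hn).2 (Subgroup.mem_centralizer_iff.1 hn2 _ rfl)
        set cH : H := (a : H)⁻¹ * h0
        have hmem : t * cH * t⁻¹ * cH⁻¹ ∈ A := by
          rw [mul_assoc t cH, mul_assoc t]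
          exact mul_mem ht (hAn.conj_mem _ (inv_mem ht) cH)
        have h1 : t * cH * t⁻¹ * cH⁻¹ = 1 := hAfix _ hmem _ hv (by
          show (((t : G) * c a * (t : G)⁻¹) * (c a)⁻¹) • n • α = n • α
          rw [mul_smul, inv_smul_eq_iff.2 f1.symm]
          exact f2)
        have h2 : cH ∈ A := by
          rw [← hAC]
          intro y hy
          rw [hAz] at hy
          obtain ⟨z, rfl⟩ := Subgroup.mem_zpowers_iff.1 hy
          have h3 : Commute t cH := mul_inv_eq_iff_eq_mul.1 (mul_inv_eq_one.1 h1)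
          exact (h3.zpow_left z).eq
        apply h0A
        have := mul_mem a.2 h2
        rwa [mul_inv_cancel_left] at this
      have hcW : Nat.card W' = Nat.card (W a) := by
        rw [show W' = (W a).map (MulAut.conj (t : G) : G ≃* G).toMonoidHom from ?_]
        · exact (Nat.card_congr ((MulAut.conj (t : G)).subgroupMap (W a)).toEquiv).symm
        ext n
        symm
        rw [Subgroup.mem_map_equiv, MulAut.conj_symm_apply]
        simp only [W, W', c', Subgroup.mem_inf, Subgroup.mem_centralizer_iff,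
          Set.mem_singleton_iff, forall_eq]
        refine and_congr ⟨fun h => ?_, fun h => ?_⟩ ⟨fun h => ?_, fun h => ?_⟩
        · have := hNn.conj_mem _ h (t : G)
          simpa [mul_assoc] using this
        · have := hNn.conj_mem _ h (t : G)⁻¹
          simpa [mul_assoc] using this
        · calc (t : G) * c a * (t : G)⁻¹ * n = t * (c a * ((t : G)⁻¹ * n * t)) * (t : G)⁻¹ := by group
            _ = t * (((t : G)⁻¹ * n * t) * c a) * (t : G)⁻¹ := by rw [h]
            _ = n * ((t : G) * c a * (t : G)⁻¹) := by group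
        · calc c a * ((t : G)⁻¹ * n * t) = (t : G)⁻¹ * ((t : G) * c a * (t : G)⁻¹ * n) * t := by group
            _ = (t : G)⁻¹ * (n * ((t : G) * c a * (t : G)⁻¹)) * t := by rw [h]
            _ = (t : G)⁻¹ * n * t * c a := by group
      let g : W a × W' → N := fun x => ⟨(x.1 : G) * x.2, mul_mem x.1.2.1 x.2.2.1⟩
      have hg : Function.Injective g := by
        rintro ⟨x, y⟩ ⟨x', y'⟩ h
        have h' : (x : G) * y = x' * y' := congrArg Subtype.val h
        have h1 : (x' : G)⁻¹ * x = y' * (y : G)⁻¹ := by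
          rw [eq_mul_inv_iff_mul_eq, mul_assoc, h', inv_mul_cancel_left]
        have h2 : (x' : G)⁻¹ * x ∈ W a ⊓ W' :=
          ⟨(W a).mul_mem ((W a).inv_mem x'.2) x.2, h1 ▸ W'.mul_mem y'.2 (W'.inv_mem y.2)⟩
        rw [hdisj, Subgroup.mem_bot] at h2
        rw [h2] at h1
        exact Prod.ext (Subtype.ext (inv_mul_eq_one.1 h2).symm) (Subtype.ext (mul_inv_eq_one.1 h1.symm).symm)
      have := Nat.card_le_card_of_injective g hg
      rwa [Nat.card_prod, hcW, hNcard] at this
    obtain ⟨a0, ha0⟩ := Finite.exists_max fun a => Nat.card (W a)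
    refine counting_bound hp hi hid hqd hqi (Nat.card_pos (α := W a0)) (hW a0) ?_
    -- every non-identity element of `N` is centralised by one of these elements
    have hcover : ∀ n : {n : N // n ≠ 1}, ∃ a : A, ((n : N) : G) ∈ W a := by
      intro n
      have hv : ((n : N) : G) • α ≠ α := fun h => n.2 (Subtype.ext (hN1 _ (n : N).2 α h))
      haveI := (habn _ hv).1
      obtain ⟨a, ha⟩ := MulAction.exists_smul_eq A
        (⟨((n : N) : G) • α, MulAction.mem_orbit_self _⟩ : MulAction.orbit H (((n : N) : G) • α))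
        ⟨h0 • ((n : N) : G) • α, MulAction.mem_orbit _ _⟩
      refine ⟨a, (n : N).2, fun y hy => ?_⟩
      rw [Set.mem_singleton_iff] at hy
      subst hy
      refine (hfixcomm _ ((a : H)⁻¹ * h0).2 _ (n : N).2).1 ?_
      have ha' : ((a : H) : G) • ((n : N) : G) • α = (h0 : G) • ((n : N) : G) • α :=
        congrArg Subtype.val ha
      show (((a : H)⁻¹ * h0 : H) : G) • _ = _
      rw [Subgroup.coe_mul, Subgroup.coe_inv, mul_smul, ← ha', inv_smul_smul]
    choose f hf using hcover
    let F : {n : N // n ≠ 1} → Σ a : A, {x : W a // x ≠ 1} := fun n =>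
      ⟨f n, ⟨⟨((n : N) : G), hf n⟩, fun h => n.2 (Subtype.ext (congrArg Subtype.val h :))⟩⟩
    have hF : Function.Injective F := fun m n h => by
      have := congrArg (fun s : Σ a : A, {x : W a // x ≠ 1} => ((s.2 : W s.1) : G)) h
      exact Subtype.ext (Subtype.ext this)
    have hle := Nat.card_le_card_of_injective F hF
    have hne : ∀ (X : Subgroup G), Nat.card {x : X // x ≠ 1} = Nat.card X - 1 := fun X => by
      letI : Fintype X := Fintype.ofFinite X
      rw [Nat.card_eq_fintype_card, Nat.card_eq_fintype_card]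
      exact (Fintype.card_subtype_compl (fun x : X => x = 1)).trans (by rw [Fintype.card_subtype_eq])
    letI : Fintype A := Fintype.ofFinite A
    rw [hne, Nat.card_sigma, hNcard] at hle
    refine hle.trans ((Finset.sum_le_card_nsmul _ _ (Nat.card (W a0) - 1) fun a _ => ?_).trans ?_)
    · rw [hne]; exact Nat.sub_le_sub_right (ha0 a) 1
    · rw [smul_eq_mul, Finset.card_univ, ← Nat.card_eq_fintype_card, hAcard]
  -- `A` is irreducible on `N`
  have hirr : ∀ U : Subgroup G, U ≤ N → (∀ a ∈ A, ∀ u ∈ U, (a : G) * u * (a : G)⁻¹ ∈ U) →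
      U = ⊥ ∨ U = N := by
    intro U hUN hU
    rcases hcase with h | h
    · refine hNmin U ⟨fun x hx g => ?_⟩ hUN
      obtain ⟨m, hm⟩ := MulAction.exists_smul_eq N α (g • α)
      have hh : (m : G)⁻¹ * g ∈ H := by
        rw [hHdef, MulAction.mem_stabilizer_iff, mul_smul, inv_smul_eq_iff]; exact hm.symm
      have h1 := hU ⟨_, hh⟩ (h ▸ Subgroup.mem_top _) x hx
      have h2 : g * x * g⁻¹ = (m : G) * ((m : G)⁻¹ * g * x * ((m : G)⁻¹ * g)⁻¹) * (m : G)⁻¹ := by
        group
      have h3 : (m : G) * ((m : G)⁻¹ * g * x * ((m : G)⁻¹ * g)⁻¹) =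
          ((m : G)⁻¹ * g * x * ((m : G)⁻¹ * g)⁻¹) * m :=
        congrArg Subtype.val (hNc.is_comm.comm (m : N) ⟨_, hUN h1⟩)
      rw [h2, h3, mul_inv_cancel_right]
      exact h1
    · by_cases hUb : U = ⊥
      · exact Or.inl hUb
      right
      obtain ⟨u, hud, hu⟩ := (Nat.dvd_prime_pow hp).1 (hNcard ▸ Subgroup.card_dvd_of_le hUN)
      have hu0 : 0 < u := Nat.pos_of_ne_zero fun h0 => hUb (Subgroup.card_eq_one.1 (by rw [hu, h0, pow_zero]))
      have hqu := hmod U hUN hU
      rw [hu] at hqu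
      rcases lt_or_eq_of_le hud with hlt | heq
      · exact absurd hqu (h u hu0 hlt)
      · exact Subgroup.eq_of_le_of_card_ge hUN (by rw [hu, heq, hNcard])
  -- the endomorphisms
  letI : CommGroup N := { (inferInstance : Group N) with mul_comm := hNc.is_comm.comm }
  let ρ : H →* AddMonoid.End (Additive N) :=
    { toFun := fun h => MonoidHom.toAdditive (MulAut.conjNormal (h : G) : MulAut N).toMonoidHom
      map_one' := AddMonoidHom.ext fun v => Additive.toMul.injective (Subtype.ext (by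
        show (1 : G) * (v.toMul : G) * (1 : G)⁻¹ = v.toMul
        simp))
      map_mul' := fun h k => AddMonoidHom.ext fun v => Additive.toMul.injective (Subtype.ext (by
        show ((h : G) * k) * (v.toMul : G) * ((h : G) * k)⁻¹ = (h : G) * ((k : G) * v.toMul * (k : G)⁻¹) * (h : G)⁻¹
        group)) }
  haveI : Nontrivial N := (Subgroup.nontrivial_iff_ne_bot N).2 hN
  have hρinj : Function.Injective ρ := by
    intro h k hhk
    rw [← inv_mul_eq_one]
    refine Subtype.ext (hCN _ (h⁻¹ * k).2 fun n hn => ?_)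
    have := congrArg (fun v : Additive N => (v.toMul : G))
      (DFunLike.congr_fun hhk (Additive.ofMul ⟨n, hn⟩))
    change (h : G) * n * (h : G)⁻¹ = (k : G) * n * (k : G)⁻¹ at this
    show ((h : G)⁻¹ * k) * n = n * ((h : G)⁻¹ * k)
    calc ((h : G)⁻¹ * k) * n = (h : G)⁻¹ * ((k : G) * n * (k : G)⁻¹) * k := by group
      _ = (h : G)⁻¹ * ((h : G) * n * (h : G)⁻¹) * k := by rw [this]
      _ = n * ((h : G)⁻¹ * k) := by group
  obtain ⟨hroot, hindex⟩ := CfsgLib.Fixity.irreducible_end_facts hp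
    (V := Additive N) (d := d) (by rw [Nat.card_congr Additive.toMul, hNcard]) (ρ t) (fun U hU => by
      let U' : Subgroup G := (AddSubgroup.toSubgroup' U).map N.subtype
      have hpow : ∀ (j : ℕ), ∀ u ∈ U, (ρ t ^ j) u ∈ U := by
        intro j
        induction j with
        | zero => exact fun u hu => hu
        | succ j ih => intro u hu; rw [pow_succ']; exact hU _ (ih u hu)
      rcases hirr U' (Subgroup.map_subtype_le _) (fun a ha u hu => by
        rw [hAz] at ha
        obtain ⟨j, rfl⟩ := mem_powers_iff_mem_zpowers.2 ha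
        obtain ⟨u, hu, rfl⟩ := hu
        refine ⟨((ρ t ^ j) (Additive.ofMul u)).toMul, hpow j _ hu, ?_⟩
        rw [← map_pow]
        rfl) with h | h
      · left
        rw [Subgroup.map_eq_bot_iff_of_injective _ N.subtype_injective] at h
        rw [AddSubgroup.eq_bot_iff_forall]
        intro v hv
        have : v.toMul ∈ AddSubgroup.toSubgroup' U := hv
        rw [h, Subgroup.mem_bot] at this
        exact Additive.toMul.injective this
      · right
        rw [eq_top_iff]
        intro v _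
        have : (v.toMul : G) ∈ U' := h.symm ▸ (v.toMul).2
        obtain ⟨u, hu, huv⟩ := this
        have huv' : u = v.toMul := Subtype.ext huv
        rw [huv'] at hu
        exact hu)
  refine ⟨q, hq, horb, hqd, fun i hi hid hqi => ?_, A.map H.subtype, Subgroup.map_subtype_le _,
    ?_, ?_, ⟨h0, ?_⟩, ?_⟩
  · have h1 : t ^ (p ^ i) = t := by
      obtain ⟨c, hc⟩ := hqi
      have hpi := Nat.one_le_pow i p hp.pos
      rw [show p ^ i = q * c + 1 by omega, pow_succ, pow_mul, ← hord, pow_orderOf_eq_one, one_pow,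
        one_mul]
    have := hroot i hi (by rw [← map_pow, h1])
    omega
  · intro g hg
    rw [Subgroup.mem_normalizer_iff]
    intro x
    constructor
    · rintro ⟨a, ha, rfl⟩
      exact ⟨⟨g, hg⟩ * a * ⟨g, hg⟩⁻¹, hAn.conj_mem a ha _, rfl⟩
    · rintro ⟨a, ha, hax⟩
      refine ⟨⟨g, hg⟩⁻¹ * a * (⟨g, hg⟩⁻¹)⁻¹, hAn.conj_mem a ha _, ?_⟩
      show g⁻¹ * (a : G) * g⁻¹⁻¹ = x
      rw [show (a : G) = g * x * g⁻¹ from hax]; group
  · rw [Nat.card_congr (Subgroup.equivMapOfInjective A H.subtype H.subtype_injective).symm.toEquiv, hAcard]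
  · refine le_antisymm (fun g hg => ?_) (sup_le (Subgroup.map_subtype_le _) ?_)
    · obtain ⟨z, hz⟩ := hsplit ⟨g, hg⟩
      have h1 : g = (h0 : G) ^ z * (((h0 : G) ^ z)⁻¹ * g) := by group
      rw [h1]
      exact mul_mem (Subgroup.mem_sup_right (Subgroup.zpow_mem_zpowers _ _))
        (Subgroup.mem_sup_left ⟨_, hz, by simp⟩)
    · rw [Subgroup.zpowers_le]; exact h0.2
  · rw [← Subgroup.card_mul_index A, hAcard]
    refine mul_dvd_mul_left q (hindex ρ A (fun h => ⟨fun hh => ?_, fun hh => ?_⟩) fun h => ?_)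
    · rw [← map_mul, ← map_mul]
      congr 1
      exact congrArg Subtype.val (hAc.is_comm.comm (⟨h, hh⟩ : A) ⟨t, ht⟩)
    · rw [← map_mul, ← map_mul] at hh
      rw [← hAC]
      intro y hy
      rw [hAz] at hy
      obtain ⟨z, rfl⟩ := Subgroup.mem_zpowers_iff.1 hy
      exact ((show Commute t h from (hρinj hh).symm).zpow_left z).eq
    · have hmem : h * t * h⁻¹ ∈ Subgroup.zpowers t := hAz ▸ hAn.conj_mem t ht h
      obtain ⟨r, hr⟩ := mem_powers_iff_mem_zpowers.2 hmem
      exact ⟨r, by rw [← map_mul, ← map_mul, ← map_pow]; exact congrArg ρ hr.symm⟩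

end Cfsg.Agent.S3496
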