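import Cfsg.Statements.S3497
import Cfsg.Agent.Lib.Fixity.ExtremelyStabilizer
import Cfsg.Agent.Lib.Cores.Fitting
import Cfsg.Agent.Lib.InvChar.AutElementary

set_option autoImplicit false
set_option linter.style.haveILetI false
open Cfsg

namespace Cfsg.Agent.S3497

/-- Restrictions on the point stabilizer of an extremely primitive group. Let a finite group G act faithfully and primitively on a finite set Ω with point stabilizers H = G_α whose order is neither 1 nor a prime, each acting primitively on every one of its orbits. Then H has trivial center, the Fitting subgroup F(H) is an elementary abelian p-group for some prime p, and if F(H) ≠ 1 has order p ^ e then p ^ e divides the number of points minus one and H / F(H) embeds in GL_e(p) (there is a homomorphism from H to GL_e(p) with kernel exactly F(H)). -/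
theorem result {G : Type*} [Group G] [Finite G] {Ω : Type*} [Fintype Ω] [MulAction G Ω] [FaithfulSMul G Ω] (hprim : MulAction.IsPreprimitive G Ω) (hep : ∀ (α : Ω) (ω : Ω), MulAction.IsPreprimitive (MulAction.stabilizer G α) (MulAction.orbit (MulAction.stabilizer G α) ω)) (α : Ω)
    (hH1 : MulAction.stabilizer G α ≠ ⊥) (hHp : ¬ (Nat.card (MulAction.stabilizer G α)).Prime) :
    Subgroup.center (MulAction.stabilizer G α) = ⊥ ∧
    IsMulCommutative (Cfsg.fittingSubgroup (MulAction.stabilizer G α)) ∧
    ∃ p e : ℕ, p.Prime ∧ Nat.card (Cfsg.fittingSubgroup (MulAction.stabilizer G α)) = p ^ e ∧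
      (∀ x ∈ Cfsg.fittingSubgroup (MulAction.stabilizer G α), x ^ p = 1) ∧
      (Cfsg.fittingSubgroup (MulAction.stabilizer G α) ≠ ⊥ →
        p ^ e ∣ Fintype.card Ω - 1 ∧
        ∃ φ : MulAction.stabilizer G α →* GL (Fin e) (ZMod p), φ.ker = Cfsg.fittingSubgroup (MulAction.stabilizer G α)) := by
  classical
  haveI := hprim
  set H := MulAction.stabilizer G α
  obtain ⟨w, hw⟩ : ∃ w, w ≠ α := by
    by_contra h
    push Not at h
    apply hH1
    rw [Subgroup.eq_bot_iff_forall]
    intro g hg
    refine eq_of_smul_eq_smul (α := Ω) fun x => ?_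
    rw [h x, one_smul]
    exact hg
  have habn := fun (x : Ω) (hx : x ≠ α) (A : Subgroup H) (hn : A.Normal) (h1 : A ≠ ⊥)
    (h2 : IsMulCommutative A) => @CfsgLib.Fixity.abelian_normal_suborbit G Ω _ _ _ _ _ hprim α hH1
      (hep α) x hx A hn h1 h2
  have hcent : Subgroup.center H = ⊥ := by
    by_contra hZ
    obtain ⟨ht, hreg, -, hC⟩ := habn w hw (Subgroup.center H) inferInstance hZ inferInstance
    have htop : Subgroup.center H = ⊤ := by
      rw [← hC, eq_top_iff]
      intro h _ z hz
      exact ((Subgroup.mem_center_iff.1 hz) h).symm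
    haveI := hep α w
    haveI : Nontrivial (MulAction.orbit H w) := by
      have hA := hC
      by_contra h
      rw [not_nontrivial_iff_subsingleton] at h
      obtain ⟨z, hz, hz1⟩ := (Subgroup.ne_bot_iff_exists_ne_one.1 hZ |> fun ⟨z, hz⟩ =>
        ⟨(z : H), z.2, fun h' => hz (Subtype.ext h')⟩ : ∃ z : H, z ∈ Subgroup.center H ∧ z ≠ 1)
      exact hz1 ((CfsgLib.PermGroups.stabilizer_subgroup_eq_bot_iff _ _).1
        (hreg ⟨w, MulAction.mem_orbit_self w⟩) z hz (Subsingleton.elim _ _))
    have hco := MulAction.IsPreprimitive.isCoatom_stabilizer_of_isPreprimitive H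
      (⟨w, MulAction.mem_orbit_self w⟩ : MulAction.orbit H w)
    have hbot : MulAction.stabilizer H (⟨w, MulAction.mem_orbit_self w⟩ : MulAction.orbit H w) = ⊥ := by
      rw [Subgroup.eq_bot_iff_forall]
      intro z hz
      exact (CfsgLib.PermGroups.stabilizer_subgroup_eq_bot_iff _ _).1
        (hreg ⟨w, MulAction.mem_orbit_self w⟩) z (htop ▸ Subgroup.mem_top z) hz
    rw [hbot] at hco
    obtain ⟨q, hq, hqd⟩ := Nat.exists_prime_and_dvd (n := Nat.card H)
      (fun h => hH1 (Subgroup.card_eq_one.1 h))
    haveI : Fact q.Prime := ⟨hq⟩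
    obtain ⟨x, hx⟩ := exists_prime_orderOf_dvd_card' q hqd
    have hxt : Subgroup.zpowers x = ⊤ := hco.2 _ (bot_lt_iff_ne_bot.2 fun h => by
      rw [Subgroup.zpowers_eq_bot] at h
      rw [h, orderOf_one] at hx
      exact hq.ne_one hx.symm)
    apply hHp
    rw [← Subgroup.card_top (G := H), ← hxt, Nat.card_zpowers, hx]
    exact hq
  refine ⟨hcent, ?_⟩
  set F := Cfsg.fittingSubgroup H
  haveI hFn : F.Normal := CfsgLib.Cores.fittingSubgroup_normal H
  by_cases hF : F = ⊥
  · refine ⟨?_, 2, 0, Nat.prime_two, by rw [hF, Subgroup.card_bot, pow_zero], fun x hx => ?_,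
      fun h => absurd hF h⟩
    · rw [hF]
      exact ⟨⟨fun a b => Subtype.ext (by
        simp only [Subgroup.coe_mul]
        simp [(Subgroup.mem_bot.1 a.2 : (a : H) = 1)])⟩⟩
    · rw [hF, Subgroup.mem_bot] at hx
      rw [hx, one_pow]
  haveI : Group.IsNilpotent F := CfsgLib.Cores.isNilpotent_fittingSubgroup
  haveI : Nontrivial F := (Subgroup.nontrivial_iff_ne_bot F).2 hF
  -- the centre of the Fitting subgroup
  set Z := (Subgroup.center F).map F.subtype
  have hZne : Z ≠ ⊥ := by
    intro h
    rw [Subgroup.map_eq_bot_iff_of_injective _ F.subtype_injective] at h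
    exact (Group.IsNilpotent.center_ne_bot F) h
  have hZF : Z ≤ F := Subgroup.map_subtype_le _
  have hZcent : F ≤ Subgroup.centralizer (Z : Set H) := by
    rintro f hf _ ⟨z, hz, rfl⟩
    exact congrArg Subtype.val ((Subgroup.mem_center_iff.1 hz) ⟨f, hf⟩).symm
  have hZc : IsMulCommutative Z := by
    rw [← Subgroup.le_centralizer_iff_isMulCommutative]
    exact hZF.trans hZcent
  haveI : Z.Normal := by infer_instance
  have hFc : IsMulCommutative F := by
    have h := (habn w hw Z inferInstance hZne hZc).2.2.2
    rw [← Subgroup.le_centralizer_iff_isMulCommutative]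
    intro f hf g hg
    exact (hZcent hf g (h.le (hZcent hg))).trans rfl
  obtain ⟨-, -, hFcard, hFC⟩ := habn w hw F hFn hF hFc
  obtain ⟨p, hp, hexp⟩ := CfsgLib.PermGroups.exists_prime_exponent_of_abelian_minimal_normal F hF
    (fun L hL hLF => by
      by_cases h : L = ⊥
      · exact Or.inl h
      refine Or.inr (le_antisymm hLF ?_)
      have hLc : IsMulCommutative L := by
        rw [← Subgroup.le_centralizer_iff_isMulCommutative]
        exact hLF.trans ((Subgroup.le_centralizer_iff_isMulCommutative.2 hFc).trans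
          (Subgroup.centralizer_le hLF))
      have h' := (habn w hw L hL h hLc).2.2.2
      rw [← h']
      exact (Subgroup.le_centralizer_iff_isMulCommutative.2 hFc).trans
          (Subgroup.centralizer_le hLF)) hFc
  haveI : Fact p.Prime := ⟨hp⟩
  have hpg : IsPGroup p F := fun x => ⟨1, Subtype.ext (by
    rw [pow_one]; exact hexp x x.2)⟩
  obtain ⟨e, he⟩ := IsPGroup.iff_card.1 hpg
  refine ⟨hFc, p, e, hp, he, hexp, fun _ => ⟨?_, ?_⟩⟩
  · let S : SubMulAction H Ω :=
      { carrier := {x | x ≠ α}
        smul_mem' := fun h x hx hx' => hx (by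
          have h' : x = h⁻¹ • α := by rw [← hx', inv_smul_smul]
          rw [h']
          exact (h⁻¹).2) }
    have hfree : ∀ x : S, MulAction.stabilizer F x = ⊥ := by
      intro x
      rw [CfsgLib.PermGroups.stabilizer_subgroup_eq_bot_iff]
      intro f hf hfx
      refine (CfsgLib.PermGroups.stabilizer_subgroup_eq_bot_iff _ _).1
        ((habn (x : Ω) x.2 F hFn hF hFc).2.1 ⟨_, MulAction.mem_orbit_self _⟩) f hf ?_
      exact Subtype.ext (congrArg Subtype.val hfx :)
    have hcount : Nat.card S = Fintype.card Ω - 1 := by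
      show Nat.card {x : Ω // x ≠ α} = _
      rw [Nat.card_eq_fintype_card]
      exact (Fintype.card_subtype_compl (fun x : Ω => x = α)).trans (by rw [Fintype.card_subtype_eq])
    rw [← hcount, ← he, Nat.card_congr (MulAction.selfEquivOrbitsQuotientProd hfree), Nat.card_prod]
    exact dvd_mul_left _ _
  · letI : CommGroup F := { (inferInstance : Group F) with mul_comm := hFc.is_comm.comm }
    obtain ⟨f, hf⟩ := CfsgLib.InvChar.exists_injective_mulAut_GL (V := F) (p := p) (d := e)
      (fun v => Subtype.ext (hexp v v.2)) he.le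
    refine ⟨f.comp (MulAut.conjNormal : H →* MulAut F), ?_⟩
    ext h
    rw [MonoidHom.mem_ker, MonoidHom.comp_apply, map_eq_one_iff f hf]
    constructor
    · intro hh
      rw [← hFC]
      intro x hx
      have := congrArg Subtype.val (DFunLike.congr_fun hh (⟨x, hx⟩ : F))
      rw [MulAut.conjNormal_apply] at this
      exact (mul_inv_eq_iff_eq_mul.1 this).symm
    · intro hh
      refine MulEquiv.ext fun x => Subtype.ext ?_
      rw [MulAut.conjNormal_apply, MulAut.one_apply, mul_inv_eq_iff_eq_mul]
      exact congrArg Subtype.val (hFc.is_comm.comm (⟨h, hh⟩ : F) x)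

end Cfsg.Agent.S3497
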