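import Cfsg.Statements.S3498
import Cfsg.Agent.Lib.CoprimeAction.Sylow

set_option autoImplicit false
set_option linter.style.haveILetI false
open Cfsg

namespace Cfsg.Agent.S3498

/-- A maximal subgroup of a finite almost simple group does not have prime order. Here G is almost simple in the sense that it has a non-abelian simple normal subgroup T with trivial centralizer. -/
theorem result {G : Type*} [Group G] [Finite G] (T : Subgroup G) [T.Normal] (hT : IsSimpleGroup T) (hTc : ¬ IsMulCommutative T)
    (hC : Subgroup.centralizer (T : Set G) = ⊥) (H : Subgroup G) (hmax : IsCoatom H) : ¬ (Nat.card H).Prime := by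
  classical
  intro hp
  set p := Nat.card H with hpdef
  haveI : Fact p.Prime := ⟨hp⟩
  haveI := hT
  have hH1 : H ≠ ⊥ := fun h => hp.ne_one (by rw [hpdef, h, Subgroup.card_bot])
  have hHnn : ¬ H.Normal := by
    intro hn
    have hTH : T ⊓ H = ⊥ := by
      rcases (Subgroup.Normal.eq_bot_or_eq_top
        (show ((T ⊓ H).subgroupOf T).Normal by infer_instance)) with h | h
      · rw [Subgroup.subgroupOf_eq_bot, disjoint_iff] at h
        rw [← h]; ext x; simp
      · exfalso
        rw [Subgroup.subgroupOf_eq_top] at h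
        have hle : T ≤ H := h.trans inf_le_right
        haveI : IsCyclic H := isCyclic_of_prime_card hpdef.symm
        exact hTc ⟨⟨fun a b => Subtype.ext (congrArg Subtype.val
          (IsCyclic.isMulCommutative.is_comm.comm (⟨a, hle a.2⟩ : H) ⟨b, hle b.2⟩) :)⟩⟩
    apply hH1
    rw [eq_bot_iff, ← hC]
    intro x hx t ht
    exact (Subgroup.commute_of_normal_of_disjoint T H inferInstance hn (disjoint_iff.2 hTH)
      t x ht hx).eq
  have hNH : Subgroup.normalizer (H : Set G) = H := by
    rcases (lt_or_eq_of_le (Subgroup.le_normalizer (H := H))) with h | h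
    · exact absurd (Subgroup.normalizer_eq_top_iff.1 (hmax.2 _ h)) hHnn
    · exact h.symm
  have hpg : IsPGroup p H := IsPGroup.of_card (n := 1) (by rw [pow_one])
  obtain ⟨P, hP⟩ := hpg.exists_le_sylow
  have hPH : (P : Subgroup G) = H := by
    by_contra hne
    have hlt : H < (P : Subgroup G) := lt_of_le_of_ne hP (Ne.symm hne)
    haveI : Group.IsNilpotent (P : Subgroup G) := P.2.isNilpotent
    have h1 : H.subgroupOf (P : Subgroup G) < ⊤ := by
      rw [lt_top_iff_ne_top, Ne, Subgroup.subgroupOf_eq_top]; exact hlt.not_ge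
    have h2 := (Group.normalizerCondition_of_isNilpotent (G := (P : Subgroup G))) _ h1
    obtain ⟨x, hx, hxn⟩ := SetLike.exists_of_lt h2
    apply hxn
    rw [Subgroup.mem_subgroupOf, ← hNH]
    have hle : (Subgroup.normalizer (H.subgroupOf (P : Subgroup G) : Set (P : Subgroup G))) ≤
        (Subgroup.normalizer (H : Set G)).subgroupOf (P : Subgroup G) := by
      rw [Subgroup.subgroupOf_normalizer_eq hlt.le]
    exact hle hx
  -- Burnside transfer
  have hcen : Subgroup.normalizer ((P : Subgroup G) : Set G) ≤ Subgroup.centralizer (P : Set G) := by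
    haveI : IsCyclic (P : Subgroup G) := isCyclic_of_prime_card (p := p) (by rw [hPH])
    show Subgroup.normalizer ((P : Subgroup G) : Set G) ≤ Subgroup.centralizer ((P : Subgroup G) : Set G)
    rw [show Subgroup.normalizer ((P : Subgroup G) : Set G) = P by rw [hPH, hNH]]
    intro x hx y hy
    exact congrArg Subtype.val
      (IsCyclic.isMulCommutative.is_comm.comm (⟨y, hy⟩ : (P : Subgroup G)) ⟨x, hx⟩)
  have hK := MonoidHom.ker_transferSylow_isComplement' P hcen
  set K := (MonoidHom.transferSylow P hcen).ker with hKdef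
  have hTK : T ≤ K := by
    rcases (Subgroup.Normal.eq_bot_or_eq_top
        (show (K.subgroupOf T).Normal by infer_instance)) with h | h
    · exfalso
      apply hTc
      rw [Subgroup.subgroupOf_eq_bot, disjoint_iff] at h
      refine ⟨⟨fun a b => Subtype.ext ?_⟩⟩
      show (a : G) * b = b * a
      have hab : (a : G) * b * (a : G)⁻¹ * (b : G)⁻¹ ∈ K ⊓ T := by
        refine ⟨?_, T.mul_mem (T.mul_mem (T.mul_mem a.2 b.2) (T.inv_mem a.2)) (T.inv_mem b.2)⟩
        rw [hKdef]
        show MonoidHom.transferSylow P hcen _ = 1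
        haveI : IsCyclic (P : Subgroup G) := isCyclic_of_prime_card (p := p) (by rw [hPH])
        simp only [map_mul, map_inv]
        rw [IsCyclic.isMulCommutative.is_comm.comm (MonoidHom.transferSylow P hcen (a : G))]
        group
      rw [h, Subgroup.mem_bot] at hab
      exact mul_inv_eq_iff_eq_mul.1 (mul_inv_eq_one.1 hab)
    · exact Subgroup.subgroupOf_eq_top.1 h
  have hcop : (Nat.card H).Coprime (Nat.card T) := by
    refine (Nat.Prime.coprime_iff_not_dvd hp).2 fun hd => ?_
    have h1 : p ∣ Nat.card K := hd.trans (Subgroup.card_dvd_of_le hTK)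
    have h2 := hK.card_mul_card
    have h3 := P.not_dvd_index
    apply h3
    have h4 := Subgroup.card_mul_index (P : Subgroup G)
    rw [mul_comm (Nat.card K)] at h2
    rw [← h2] at h4
    rwa [Nat.eq_of_mul_eq_mul_left Nat.card_pos h4]
  -- an invariant Sylow subgroup of `T`
  haveI : Nontrivial T := hT.toNontrivial
  obtain ⟨q, hq, hqd⟩ := Nat.exists_prime_and_dvd (n := Nat.card T)
    (Finite.one_lt_card (α := T)).ne'
  haveI : Fact q.Prime := ⟨hq⟩
  obtain ⟨Q, hQ⟩ := CfsgLib.CoprimeAction.exists_invariant_sylow (A := H) (K := T)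
    (by rw [Subgroup.normalizer_eq_top]; exact le_top) hcop
    (Or.inl (by
      haveI : IsCyclic H := isCyclic_of_prime_card hpdef.symm
      exact Group.isSolvable_of_comm fun a b => IsCyclic.isMulCommutative.is_comm.comm a b)) q
  set Q' := (Q : Subgroup T).map T.subtype
  have hQT : Q' ≤ T := Subgroup.map_subtype_le _
  have hQne : Q' ≠ ⊥ := by
    rw [Ne, Subgroup.map_eq_bot_iff_of_injective _ T.subtype_injective]
    exact Q.ne_bot_of_dvd_card hqd
  rcases (lt_or_eq_of_le hQ) with h | h
  · have hn : Q'.Normal := Subgroup.normalizer_eq_top_iff.1 (hmax.2 _ h)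
    rcases (Subgroup.Normal.eq_bot_or_eq_top
        (show (Q'.subgroupOf T).Normal by infer_instance)) with h' | h'
    · rw [Subgroup.subgroupOf_eq_bot, disjoint_iff, inf_eq_left.2 hQT] at h'
      exact hQne h'
    · have hQtop : (Q : Subgroup T) = ⊤ := by
        rw [eq_top_iff]
        intro x _
        obtain ⟨y, hy, hyx⟩ := (Subgroup.subgroupOf_eq_top.1 h') x.2
        rwa [← Subtype.ext hyx]
      have hTp : IsPGroup q T := Q.2.of_surjective (Q : Subgroup T).subtype
        (fun x => ⟨⟨x, hQtop ▸ Subgroup.mem_top x⟩, rfl⟩)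
      haveI : Group.IsNilpotent T := hTp.isNilpotent
      exact hTc ⟨⟨fun a b => IsSimpleGroup.comm_iff_isSolvable.2 inferInstance a b⟩⟩
  · apply hQne
    rw [eq_bot_iff]
    intro x hx
    have hxH : x ∈ H := h ▸ Subgroup.le_normalizer hx
    have h1 := hcop
    have h2 : orderOf x ∣ 1 := by
      rw [← h1.gcd_eq_one]
      exact Nat.dvd_gcd (Subgroup.orderOf_dvd_natCard H hxH)
        (Subgroup.orderOf_dvd_natCard T (hQT hx))
    rw [Subgroup.mem_bot, ← orderOf_eq_one_iff]
    exact Nat.dvd_one.1 h2

end Cfsg.Agent.S3498
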