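import Cfsg.Statements.S3504


set_option autoImplicit false
open Cfsg

namespace Cfsg.Agent.S3504

/-- For n ≥ 5, the fixed-point-free permutations of prime order in the symmetric group of degree n form a single conjugacy class if and only if n is a prime power. -/
theorem result (n : ℕ) (hn : 5 ≤ n) :
    Nat.card {c : ConjClasses (Equiv.Perm (Fin n)) // ∃ g : Equiv.Perm (Fin n), ConjClasses.mk g = c ∧ (orderOf g).Prime ∧ ∀ i : Fin n, g i ≠ i} = 1 ↔ IsPrimePow n := by
  classical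
  have hex : ∀ r : ℕ, r.Prime → r ∣ n → ∃ g : Equiv.Perm (Fin n),
      g.cycleType = Multiset.replicate (n / r) r ∧ (orderOf g).Prime ∧ orderOf g = r ∧
        ∀ i, g i ≠ i := by
    intro r hr hdvd
    obtain ⟨g, hg⟩ := (Equiv.Perm.exists_with_cycleType_iff (Fin n)
      (m := Multiset.replicate (n / r) r)).2 ⟨by simp [Nat.div_mul_le_self],
        fun a ha => (Multiset.eq_of_mem_replicate ha) ▸ hr.two_le⟩
    have hk : 0 < n / r := Nat.div_pos (Nat.le_of_dvd (by omega) hdvd) hr.pos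
    have ho : orderOf g = r := by
      rw [← Equiv.Perm.lcm_cycleType, hg]
      refine Nat.dvd_antisymm (Multiset.lcm_dvd.2 fun a ha => ?_) (Multiset.dvd_lcm ?_)
      · rw [Multiset.eq_of_mem_replicate ha]
      · exact Multiset.mem_replicate.2 ⟨by omega, rfl⟩
    refine ⟨g, hg, ho ▸ hr, ho, fun i hi => ?_⟩
    have hs : g.support = Finset.univ := by
      apply Finset.eq_univ_of_card
      rw [← Equiv.Perm.sum_cycleType, hg, Multiset.sum_replicate, smul_eq_mul,
        Nat.div_mul_cancel hdvd, Fintype.card_fin]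
    have : i ∈ g.support := hs ▸ Finset.mem_univ i
    exact (Equiv.Perm.mem_support.1 this) hi
  rw [Nat.card_eq_one_iff_exists, isPrimePow_iff_unique_prime_dvd]
  constructor
  · rintro ⟨⟨c, g, hgc, hgp, hgf⟩, huniq⟩
    obtain ⟨p, hp, hpn⟩ := Nat.exists_prime_and_dvd (n := n) (by omega)
    refine ⟨p, ⟨hp, hpn⟩, fun q ⟨hq, hqn⟩ => ?_⟩
    obtain ⟨a, -, hap, hao, haf⟩ := hex p hp hpn
    obtain ⟨b, -, hbp, hbo, hbf⟩ := hex q hq hqn
    have h1 := congrArg Subtype.val ((huniq ⟨_, a, rfl, hap, haf⟩).trans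
      (huniq ⟨_, b, rfl, hbp, hbf⟩).symm)
    obtain ⟨u, hu⟩ := isConj_iff.1 (ConjClasses.mk_eq_mk_iff_isConj.1 h1)
    rw [← hao, ← hbo, ← hu, ← MulAut.conj_apply, MulEquiv.orderOf_eq]
  · rintro ⟨p, ⟨hp, hpn⟩, huniq⟩
    obtain ⟨g, hgt, hgp, hgo, hgf⟩ := hex p hp hpn
    refine ⟨⟨_, g, rfl, hgp, hgf⟩, ?_⟩
    rintro ⟨c, h, rfl, hhp, hhf⟩
    apply Subtype.ext
    show ConjClasses.mk h = ConjClasses.mk g
    rw [ConjClasses.mk_eq_mk_iff_isConj, Equiv.Perm.isConj_iff_cycleType_eq]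
    obtain ⟨k, hk⟩ := Equiv.Perm.cycleType_prime_order hhp
    have hsum : (k + 1) * orderOf h = n := by
      have hs : h.support = Finset.univ := by
        ext i; simp [hhf i]
      have := Equiv.Perm.sum_cycleType h
      rwa [hk, Multiset.sum_replicate, smul_eq_mul, hs, Finset.card_univ, Fintype.card_fin] at this
    have hq : orderOf h = p := huniq _ ⟨hhp, ⟨k + 1, by rw [mul_comm]; exact hsum.symm⟩⟩
    rw [hk, hgt, hq]
    congr 1
    rw [← hsum, hq, Nat.mul_div_cancel _ hp.pos]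

end Cfsg.Agent.S3504
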