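import Cfsg.Statements.S3508
import Cfsg.Agent.Lib.PermGroups.Basic

set_option autoImplicit false
set_option linter.style.haveILetI false
open Cfsg

namespace Cfsg.Agent.S3508

/-- Let a finite group G act faithfully on a set Ω with p ^ m points (p prime) and have an elementary abelian normal p-subgroup N acting regularly on Ω (so G is a group of affine transformations of an m-dimensional space over the field with p elements). If G contains an element of order p ^ r with r ≥ 1, then p ^ (r − 1) ≤ m. In particular an element of order p ^ m forces m ≤ 2, and m ≤ 1 when p is odd. -/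
theorem result {G : Type*} [Group G] [Finite G] {Ω : Type*} [Fintype Ω] [MulAction G Ω] [FaithfulSMul G Ω] (p m : ℕ) (hp : p.Prime) (hcard : Fintype.card Ω = p ^ m)
    (N : Subgroup G) [N.Normal] (hNc : IsMulCommutative N) (hNp : ∀ n ∈ N, n ^ p = 1)
    (hNtr : MulAction.IsPretransitive N Ω) (hNreg : ∀ ω : Ω, MulAction.stabilizer N ω = ⊥)
    (g : G) (r : ℕ) (hr : 1 ≤ r) (hg : orderOf g = p ^ r) :
    p ^ (r - 1) ≤ m ∧ (r = m → m ≤ 2 ∧ (2 < p → m ≤ 1)) := by
  classical
  haveI := hNtr
  haveI : Fact p.Prime := ⟨hp⟩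
  have hΩ : Nat.card Ω = p ^ m := by rw [Nat.card_eq_fintype_card, hcard]
  haveI : Nonempty Ω := Fintype.card_pos_iff.1 (hcard ▸ pow_pos hp.pos m)
  obtain ⟨α⟩ := ‹Nonempty Ω›
  have hN1 : ∀ n ∈ N, ∀ ω : Ω, n • ω = ω → n = 1 := fun n hn ω h =>
    (CfsgLib.PermGroups.stabilizer_subgroup_eq_bot_iff N ω).1 (hNreg ω) n hn h
  letI : CommGroup N := { (inferInstance : Group N) with mul_comm := hNc.is_comm.comm }
  have hexp : ∀ x : Additive N, p • x = 0 := fun x => by
    apply Additive.toMul.injective
    rw [toMul_nsmul, toMul_zero]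
    exact Subtype.ext (hNp _ (x.toMul).2)
  haveI : Module (ZMod p) (Additive N) := AddCommGroup.zmodModule hexp
  -- the translation part
  choose c hc using fun x : G => MulAction.exists_smul_eq N α (x • α)
  let cj : G → (Additive N →ₗ[ZMod p] Additive N) := fun x =>
    AddMonoidHom.toZModLinearMap p (MonoidHom.toAdditive ((MulAut.conjNormal x : MulAut N).toMonoidHom))
  have hcj : ∀ (x : G) (v : Additive N), ((cj x v).toMul : G) = x * (v.toMul : G) * x⁻¹ := fun x v => rfl
  have hcmul : ∀ x y : G, ((c (x * y) : N) : G) = x * (c y : G) * x⁻¹ * (c x : G) := by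
    intro x y
    have hmem : x * (c y : G) * x⁻¹ * (c x : G) ∈ N :=
      mul_mem (Subgroup.Normal.conj_mem ‹N.Normal› _ (c y).2 x) (c x).2
    have h : (x * (c y : G) * x⁻¹ * (c x : G))⁻¹ * (c (x * y) : G) = 1 := by
      refine hN1 _ (mul_mem (inv_mem hmem) (c (x * y)).2) α ?_
      rw [mul_smul, inv_smul_eq_iff, ← Subgroup.smul_def (c (x * y)), hc, mul_smul x y, mul_smul,
        ← Subgroup.smul_def (c x), hc, mul_smul, inv_smul_smul, mul_smul, ← Subgroup.smul_def (c y),
        hc]
    exact (inv_mul_eq_one.1 h).symm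
  let ρ : G → Module.End (ZMod p) (Additive N × ZMod p) := fun x =>
    ((cj x) ∘ₗ LinearMap.fst _ _ _ +
      (LinearMap.toSpanSingleton (ZMod p) (Additive N) (Additive.ofMul (c x))) ∘ₗ
        LinearMap.snd _ _ _).prod (LinearMap.snd _ _ _)
  have hρ : ∀ (x : G) (w : Additive N × ZMod p), ρ x w = (cj x w.1 + w.2 • Additive.ofMul (c x), w.2) :=
    fun x w => rfl
  have hρmul : ∀ x y : G, ρ (x * y) = ρ x * ρ y := by
    intro x y
    refine LinearMap.ext fun w => ?_
    rw [Module.End.mul_apply, hρ, hρ, hρ]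
    refine Prod.ext ?_ rfl
    show cj (x * y) w.1 + w.2 • Additive.ofMul (c (x * y)) =
      cj x (cj y w.1 + w.2 • Additive.ofMul (c y)) + w.2 • Additive.ofMul (c x)
    have e1 : cj (x * y) w.1 = cj x (cj y w.1) := by
      apply Additive.toMul.injective
      apply Subtype.ext
      rw [hcj, hcj, hcj]; group
    have e2 : Additive.ofMul (c (x * y)) = cj x (Additive.ofMul (c y)) + Additive.ofMul (c x) := by
      apply Additive.toMul.injective
      apply Subtype.ext
      rw [toMul_ofMul, toMul_add, Subgroup.coe_mul, hcj, toMul_ofMul, toMul_ofMul, hcmul]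
    rw [e1, e2, smul_add, map_add, map_smul, add_assoc]
  have hker : ∀ x : G, ρ x = 1 → x = 1 := by
    intro x hx
    have h0 := LinearMap.congr_fun hx ((0 : Additive N), (1 : ZMod p))
    have h1 : ∀ v : Additive N, cj x v = v := fun v => by
      have := LinearMap.congr_fun hx (v, (0 : ZMod p))
      rw [hρ] at this
      simpa using congrArg Prod.fst this
    rw [hρ] at h0
    have h2 : Additive.ofMul (c x) = 0 := by simpa using congrArg Prod.fst h0
    have h3 : x • α = α := by
      rw [← hc x, show c x = 1 by simpa using congrArg Additive.toMul h2, one_smul]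
    refine CfsgLib.PermGroups.eq_one_of_commute_of_transitive N (fun n hn => ?_) h3
    have h4 := congrArg (fun v : Additive N => (v.toMul : G)) (h1 (Additive.ofMul ⟨n, hn⟩))
    simp only [hcj, toMul_ofMul] at h4
    exact mul_inv_eq_iff_eq_mul.1 h4
  have hρ1 : ρ 1 = 1 := by
    refine LinearMap.ext fun w => ?_
    have h0 : c 1 = 1 := Subtype.ext (hN1 _ (c 1).2 α (by
      rw [← Subgroup.smul_def, hc, one_smul]))
    rw [hρ, h0]
    refine Prod.ext ?_ rfl
    show cj 1 w.1 + w.2 • Additive.ofMul 1 = w.1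
    rw [ofMul_one, smul_zero, add_zero]
    apply Additive.toMul.injective
    apply Subtype.ext
    rw [hcj]; group
  let R : G →* Module.End (ZMod p) (Additive N × ZMod p) :=
    { toFun := ρ, map_one' := hρ1, map_mul' := hρmul }
  set W := Additive N × ZMod p
  haveI : Module.Finite (ZMod p) W := Module.Finite.of_finite
  have hdim : Module.finrank (ZMod p) W = m + 1 := by
    have h := Module.natCard_eq_pow_finrank (K := ZMod p) (V := W)
    rw [Nat.card_prod, Nat.card_zmod, Nat.card_congr (Additive.toMul (α := N)),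
      CfsgLib.PermGroups.card_eq_of_regular N (hNreg α), hΩ, ← pow_succ] at h
    exact (Nat.pow_right_injective hp.two_le h).symm
  haveI : CharP (Module.End (ZMod p) W) p :=
    charP_of_injective_algebraMap (algebraMap (ZMod p) (Module.End (ZMod p) W)).injective p
  set f := R g - 1 with hfdef
  have hpow : ∀ s, f ^ (p ^ s) = R (g ^ (p ^ s)) - 1 := fun s => by
    rw [hfdef, sub_pow_char_pow_of_commute _ _ (Commute.one_right _), one_pow, map_pow]
  have hnil : f ^ (m + 1) = 0 := by
    have h0 : f ^ (p ^ r) = 0 := by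
      rw [hpow, ← hg, pow_orderOf_eq_one, map_one, sub_self]
    rw [← LinearMap.ker_eq_top]
    have h1 : m + 1 ≤ max (m + 1) (p ^ r) := le_max_left _ _
    have h2 : f ^ (max (m + 1) (p ^ r)) = 0 := pow_eq_zero_of_le (le_max_right _ _) h0
    have h3 := Module.End.ker_pow_eq_ker_pow_finrank_of_le (f := f) (hdim.le.trans h1)
    rw [hdim, h2, LinearMap.ker_zero] at h3
    exact h3.symm
  have hmain : p ^ (r - 1) ≤ m := by
    by_contra hlt
    have h1 : R (g ^ (p ^ (r - 1))) = 1 := by
      rw [← sub_eq_zero, ← hpow]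
      exact pow_eq_zero_of_le (by omega) hnil
    have h2 := orderOf_dvd_of_pow_eq_one (hker _ h1)
    rw [hg, Nat.pow_dvd_pow_iff_le_right hp.one_lt] at h2
    omega
  refine ⟨hmain, fun hrm => ?_⟩
  subst hrm
  have key : ∀ b k : ℕ, 2 ≤ b → k + 3 < b ^ (k + 2) := by
    intro b k hb
    induction k with
    | zero => have : 2 * 2 ≤ b * b := Nat.mul_le_mul hb hb; rw [pow_two]; omega
    | succ k ih =>
      have : 2 * b ^ (k + 2) ≤ b * b ^ (k + 2) := Nat.mul_le_mul_right _ hb
      rw [show k + 1 + 2 = (k + 2) + 1 from rfl, pow_succ']; omega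
  refine ⟨?_, fun h3 => ?_⟩
  · by_contra h
    obtain ⟨k, rfl⟩ : ∃ k, r = k + 3 := ⟨r - 3, by omega⟩
    have := key p k hp.two_le
    rw [show k + 3 - 1 = k + 2 from rfl] at hmain
    omega
  · by_contra h
    by_cases h' : r = 2
    · subst h'; rw [show (2 : ℕ) - 1 = 1 from rfl, pow_one] at hmain; omega
    · obtain ⟨k, rfl⟩ : ∃ k, r = k + 3 := ⟨r - 3, by omega⟩
      have := key p k hp.two_le
      rw [show k + 3 - 1 = k + 2 from rfl] at hmain
      omega

end Cfsg.Agent.S3508
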