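import Cfsg.Statements.S3511


set_option autoImplicit false
open Cfsg

namespace Cfsg.Agent.S3511

/-- Let a finite group G act faithfully on a set Ω. If every element of G of square-free order has a regular cycle (an orbit of the cyclic group it generates with trivial stabilizer), then every element of G has a regular cycle. -/
theorem result {G : Type*} [Group G] [Finite G] {Ω : Type*} [MulAction G Ω] [FaithfulSMul G Ω]
    (h : ∀ g : G, Squarefree (orderOf g) → ∃ ω : Ω, MulAction.stabilizer (Subgroup.zpowers g) ω = ⊥) (g : G) :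
    ∃ ω : Ω, MulAction.stabilizer (Subgroup.zpowers g) ω = ⊥ := by
  classical
  set n := orderOf g with hn
  have hn0 : n ≠ 0 := (orderOf_pos g).ne'
  set r := ∏ q ∈ n.primeFactors, q with hr
  have hrn : r ∣ n := Nat.prod_primeFactors_dvd n
  have hrsq : Squarefree r := by
    apply (Nat.squarefree_iff_prime_squarefree).2
    intro q hq hqq
    have hpf : r.primeFactors = n.primeFactors := Nat.primeFactors_prod fun x hx => Nat.prime_of_mem_primeFactors hx
    have hr0 : r ≠ 0 := ne_zero_of_dvd_ne_zero hn0 hrn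
    have hqmem : q ∈ n.primeFactors := by
      rw [← hpf]; exact Nat.mem_primeFactors.2 ⟨hq, (dvd_mul_right q q).trans hqq, hr0⟩
    rw [hr, ← Finset.mul_prod_erase _ _ hqmem] at hqq
    have h2 := Nat.dvd_of_mul_dvd_mul_left hq.pos hqq
    obtain ⟨x, hx, hqx⟩ := (Prime.dvd_finsetProd_iff hq.prime _).1 h2
    have hx' := (Finset.mem_erase.1 hx)
    exact hx'.1 ((Nat.prime_dvd_prime_iff_eq hq (Nat.prime_of_mem_primeFactors hx'.2)).1 hqx).symm
  have hord : orderOf (g ^ (n / r)) = r := by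
    rw [orderOf_pow, Nat.gcd_eq_right (Nat.div_dvd_of_dvd hrn), Nat.div_div_self hrn hn0]
  obtain ⟨ω, hω⟩ := h (g ^ (n / r)) (by rw [hord]; exact hrsq)
  refine ⟨ω, (Subgroup.eq_bot_iff_forall _).2 fun x hx => by_contra fun hx1 => ?_⟩
  obtain ⟨q, hq, hqd⟩ := Nat.exists_prime_and_dvd (n := orderOf x) (fun h1 => hx1 (orderOf_eq_one_iff.1 h1))
  set y := x ^ (orderOf x / q) with hy
  have hyo : orderOf y = q := by
    rw [hy, orderOf_pow, Nat.gcd_eq_right (Nat.div_dvd_of_dvd hqd), Nat.div_div_self hqd (orderOf_pos x).ne']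
  have hyω : y ∈ MulAction.stabilizer (Subgroup.zpowers g) ω := pow_mem hx _
  obtain ⟨j, hj⟩ := (mem_powers_iff_mem_zpowers).2 y.2
  simp only at hj
  have hjq : n ∣ j * q := by
    refine orderOf_dvd_of_pow_eq_one ?_
    rw [pow_mul, hj, ← hyo, ← Subgroup.orderOf_coe]
    exact pow_orderOf_eq_one _
  have hqn : q ∣ n := by
    rw [hn, ← hyo, ← Subgroup.orderOf_coe, ← hj]
    exact orderOf_pow_dvd j
  have hqr : q ∣ r := Finset.dvd_prod_of_mem _ (Nat.mem_primeFactors.2 ⟨hq, hqn, hn0⟩)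
  have hdiv : n / r ∣ j :=
    ((Nat.div_dvd_div_left hrn hqr).trans
      ((Nat.div_dvd_iff_dvd_mul hqn hq.pos).2 (by rwa [mul_comm] at hjq)))
  obtain ⟨c, hc⟩ := hdiv
  have hy2 : (y : G) ∈ Subgroup.zpowers (g ^ (n / r)) := by
    rw [← hj, hc, pow_mul]; exact Subgroup.npow_mem_zpowers _ _
  have h1 : (⟨(y : G), hy2⟩ : Subgroup.zpowers (g ^ (n / r))) ∈
      MulAction.stabilizer (Subgroup.zpowers (g ^ (n / r))) ω := hyω
  rw [hω, Subgroup.mem_bot] at h1
  have : y = 1 := Subtype.ext (congrArg Subtype.val h1 :)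
  rw [this, orderOf_one] at hyo
  exact hq.ne_one hyo.symm

end Cfsg.Agent.S3511
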