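import Cfsg.Statements.S3514


set_option autoImplicit false
open Cfsg

namespace Cfsg.Agent.S3514

theorem relIndex_sup_of_normal {X : Type*} [Group X] [Finite X] (K S : Subgroup X) [K.Normal] :
    S.relIndex (S ⊔ K) = S.relIndex K := by
  have a1 := Subgroup.card_mul_index (S.subgroupOf (S ⊔ K))
  have a2 := Subgroup.card_mul_index (K.subgroupOf (S ⊔ K))
  have a3 := Subgroup.card_mul_index (S.subgroupOf K)
  have a4 := Subgroup.card_mul_index (K.subgroupOf S)
  rw [Nat.card_congr (Subgroup.subgroupOfEquivOfLe le_sup_left).toEquiv,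
    show (S.subgroupOf (S ⊔ K)).index = S.relIndex (S ⊔ K) from rfl] at a1
  rw [Nat.card_congr (Subgroup.subgroupOfEquivOfLe le_sup_right).toEquiv,
    show (K.subgroupOf (S ⊔ K)).index = K.relIndex (S ⊔ K) from rfl,
    Subgroup.relIndex_sup_right] at a2
  have e : Nat.card (S.subgroupOf K) = Nat.card (K.subgroupOf S) := by
    refine Nat.card_congr
      { toFun := fun x => ⟨⟨(x : K), x.2⟩, (x : K).2⟩
        invFun := fun x => ⟨⟨(x : S), x.2⟩, (x : S).2⟩
        left_inv := fun x => rfl
        right_inv := fun x => rfl }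
  rw [show (S.subgroupOf K).index = S.relIndex K from rfl, e] at a3
  rw [show (K.subgroupOf S).index = K.relIndex S from rfl] at a4
  have hS : 0 < Nat.card S := Nat.card_pos
  apply Nat.eq_of_mul_eq_mul_left hS
  rw [a1, ← a2, ← a3, ← a4]; ring


/-- Let p be a prime, V a finite vector space over the field with p elements, and H a group of linear transformations of V all of whose orbits on V have size coprime to p. (i) Every normal subgroup K of H has all its orbits on V of size coprime to p. (ii) If N is a group of linear transformations of V of order coprime to p that is normalized by H, then the group generated by N and H has all its orbits on V of size coprime to p. -/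
theorem result (p : ℕ) [Fact p.Prime] {V : Type*} [AddCommGroup V] [Module (ZMod p) V] [Finite V]
    (H : Subgroup (V ≃ₗ[ZMod p] V)) (hH : ∀ v : V, ¬ p ∣ Nat.card {u : V | ∃ h ∈ H, h v = u}) :
    (∀ K : Subgroup (V ≃ₗ[ZMod p] V), K ≤ H → H ≤ Subgroup.normalizer (K : Set (V ≃ₗ[ZMod p] V)) →
        ∀ v : V, ¬ p ∣ Nat.card {u : V | ∃ k ∈ K, k v = u}) ∧
    (∀ N : Subgroup (V ≃ₗ[ZMod p] V), ¬ p ∣ Nat.card N → H ≤ Subgroup.normalizer (N : Set (V ≃ₗ[ZMod p] V)) →
        ∀ v : V, ¬ p ∣ Nat.card {u : V | ∃ x ∈ N ⊔ H, x v = u}) := by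
  classical
  haveI : Finite (V ≃ₗ[ZMod p] V) :=
    Finite.of_injective (fun f => (f : V → V)) DFunLike.coe_injective
  have horb : ∀ (L : Subgroup (V ≃ₗ[ZMod p] V)) (v : V),
      Nat.card {u : V | ∃ g ∈ L, g v = u} = (MulAction.stabilizer (V ≃ₗ[ZMod p] V) v).relIndex L := by
    intro L v
    rw [Subgroup.relIndex, show (MulAction.stabilizer (V ≃ₗ[ZMod p] V) v).subgroupOf L =
      MulAction.stabilizer L v from by ext x; simp [Subgroup.mem_subgroupOf, Subgroup.smul_def],
      MulAction.index_stabilizer, Nat.card_coe_set_eq]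
    congr 1
    ext u
    constructor
    · rintro ⟨g, hg, rfl⟩; exact ⟨⟨g, hg⟩, rfl⟩
    · rintro ⟨g, rfl⟩; exact ⟨g, g.2, rfl⟩
  constructor
  · intro K hKH hHK v hdvd
    apply hH v
    rw [horb] at hdvd ⊢
    refine hdvd.trans ?_
    set S := MulAction.stabilizer (V ≃ₗ[ZMod p] V) v
    -- pass to the group `H`
    haveI : (K.subgroupOf H).Normal := Subgroup.normal_subgroupOf_iff_le_normalizer hKH |>.2 hHK
    have e1 : S.relIndex K = (S.subgroupOf H).relIndex (K.subgroupOf H) :=
      (Subgroup.relIndex_subgroupOf hKH).symm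
    have e2 : S.relIndex H = (S.subgroupOf H).index := rfl
    rw [e1, e2, ← relIndex_sup_of_normal]
    exact Subgroup.relIndex_dvd_index_of_le le_sup_left
  · intro N hN hHN v hdvd
    rw [horb] at hdvd
    set S := MulAction.stabilizer (V ≃ₗ[ZMod p] V) v
    have h1 : S.relIndex (N ⊔ H) ∣ (S ⊓ H).relIndex (N ⊔ H) :=
      Subgroup.relIndex_dvd_of_le_left _ inf_le_left
    have h2 : (S ⊓ H).relIndex H * H.relIndex (N ⊔ H) = (S ⊓ H).relIndex (N ⊔ H) :=
      Subgroup.relIndex_mul_relIndex _ _ _ inf_le_right le_sup_right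
    have h3 : H.relIndex (N ⊔ H) ∣ Nat.card N := by
      have hN' : (N.subgroupOf (N ⊔ H)).Normal := by
        rw [Subgroup.normal_subgroupOf_iff_le_normalizer le_sup_left]
        exact sup_le Subgroup.le_normalizer hHN
      have hsup : H.subgroupOf (N ⊔ H) ⊔ N.subgroupOf (N ⊔ H) = ⊤ := by
        rw [← Subgroup.subgroupOf_sup le_sup_right le_sup_left, sup_comm, Subgroup.subgroupOf_self]
      have h4 : H.relIndex N = H.relIndex (N ⊔ H) := by
        calc H.relIndex N = (H.subgroupOf (N ⊔ H)).relIndex (N.subgroupOf (N ⊔ H)) :=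
              (Subgroup.relIndex_subgroupOf le_sup_left).symm
          _ = (H.subgroupOf (N ⊔ H)).relIndex (H.subgroupOf (N ⊔ H) ⊔ N.subgroupOf (N ⊔ H)) :=
              (relIndex_sup_of_normal _ _).symm
          _ = H.relIndex (N ⊔ H) := by rw [hsup, Subgroup.relIndex_top_right]; rfl
      rw [← h4]
      exact Subgroup.index_dvd_card _
    rw [Subgroup.inf_relIndex_right] at h2
    rcases (Fact.out : p.Prime).dvd_mul.1 (hdvd.trans (h1.trans (dvd_of_eq h2.symm))) with h | h
    · exact hH v (by rw [horb]; exact h)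
    · exact hN (h.trans h3)

end Cfsg.Agent.S3514
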