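import Cfsg.Statements.S3515
import Cfsg.Agent.Lib.Fixity.Closures

set_option autoImplicit false
open Cfsg

namespace Cfsg.Agent.S3515

theorem third_nonzero : ∀ a b c : Fin 2 → ZMod 2, a ≠ 0 → b ≠ 0 → a ≠ b → c ≠ 0 → c ≠ a → c ≠ b →
    c = a + b := by decide +kernel

/-- Every primitive affine permutation group of degree p² is 3-closed. Let p be a prime and G a group of permutations of the plane V = F_p² consisting of affine maps x ↦ Ax + b, containing all translations, and acting primitively on V. Then any permutation σ of V that agrees on every triple of points with some element of G (σ preserves every G-orbit on ordered triples) already lies in G. -/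
theorem result (p : ℕ) [Fact p.Prime] (G : Subgroup (Equiv.Perm (Fin 2 → ZMod p)))
    (haff : (G : Set (Equiv.Perm (Fin 2 → ZMod p))) ⊆ {τ : Equiv.Perm (Fin 2 → ZMod p) | ∃ (A : (Fin 2 → ZMod p) ≃ₗ[ZMod p] (Fin 2 → ZMod p)) (b : Fin 2 → ZMod p), ∀ x, τ x = A x + b})
    (htrans : ∀ b : Fin 2 → ZMod p, ∃ g ∈ G, ∀ x, g x = x + b) (hprim : MulAction.IsPreprimitive G (Fin 2 → ZMod p))
    (σ : Equiv.Perm (Fin 2 → ZMod p)) (hσ : (∀ t : Fin 3 → (Fin 2 → ZMod p), ∃ g ∈ G, ∀ i, σ (t i) = g (t i))) : σ ∈ G := by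
  classical
  obtain ⟨g₀, hg₀, hg₀'⟩ := htrans (σ 0)
  set τ := g₀⁻¹ * σ with hτ
  have hτ0 : τ 0 = 0 := by
    rw [hτ, Equiv.Perm.mul_apply, Equiv.Perm.inv_eq_iff_eq, hg₀', zero_add]
  have hτG : ∀ t : Fin 3 → (Fin 2 → ZMod p), ∃ g ∈ G, ∀ i, τ (t i) = g (t i) := by
    intro t
    obtain ⟨g, hg, hgt⟩ := hσ t
    exact ⟨g₀⁻¹ * g, mul_mem (inv_mem hg₀) hg, fun i => by simp [hτ, hgt i]⟩
  suffices τ ∈ G by
    have := mul_mem hg₀ this
    rwa [hτ, mul_inv_cancel_left] at this
  -- `τ` is additive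
  have hlin : ∀ x y, τ (x + y) = τ x + τ y := by
    intro x y
    by_cases hp : p = 2
    · subst hp
      by_cases hx : x = 0
      · simp [hx, hτ0]
      by_cases hy : y = 0
      · simp [hy, hτ0]
      by_cases hxy : x = y
      · subst hxy
        rw [ZModModule.add_self, hτ0, ZModModule.add_self]
      have hne : ∀ z, z ≠ 0 → τ z ≠ 0 := fun z hz he => hz (τ.injective (he.trans hτ0.symm))
      have hsne : x + y ≠ 0 := by rwa [ne_eq, ← ZModModule.sub_eq_add, sub_eq_zero]
      exact third_nonzero _ _ _ (hne x hx) (hne y hy) (fun he => hxy (τ.injective he)) (hne _ hsne)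
        (fun he => hy (by simpa using τ.injective he))
        (fun he => hx (by simpa using τ.injective he))
    · obtain ⟨A, hA⟩ := CfsgLib.Fixity.isAffine_of_triples hp τ fun t => by
        obtain ⟨g, hg, hgt⟩ := hτG t
        obtain ⟨A, b, hAb⟩ := haff hg
        exact ⟨A, b, fun i => by rw [hgt, hAb]⟩
      rw [hA (x + y), hA x, hA y, hτ0, map_add]; abel
  obtain ⟨g, hg, hgt⟩ := hτG ![0, Pi.single 0 1, Pi.single 1 1]
  obtain ⟨A, b, hAb⟩ := haff hg
  suffices τ = g by rwa [this]
  have hb : b = 0 := by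
    have := hgt 0
    simp [hτ0, hAb] at this
    exact this.symm
  let T : (Fin 2 → ZMod p) →+ (Fin 2 → ZMod p) := AddMonoidHom.mk' τ hlin
  have hTA : T.toZModLinearMap p = (A : (Fin 2 → ZMod p) →ₗ[ZMod p] _) := by
    refine (Pi.basisFun (ZMod p) (Fin 2)).ext fun i => ?_
    rw [Pi.basisFun_apply]
    fin_cases i
    · have := hgt 1; simpa [hAb, hb, T] using this
    · have := hgt 2; simpa [hAb, hb, T] using this
  refine Equiv.ext fun x => ?_
  rw [hAb, hb, add_zero]
  exact LinearMap.congr_fun hTA x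

end Cfsg.Agent.S3515
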