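import Cfsg.Statements.S3516
import Cfsg.Agent.Lib.Fixity.Closures

set_option autoImplicit false
open Cfsg

namespace Cfsg.Agent.S3516

/-- Let p be an odd prime, d ≥ 3, and G a group of affine permutations x ↦ Ax + b of V = F_p^d containing all translations and all maps x ↦ Ax with A of determinant 1. Then the 3-closure of G is the full affine group: a permutation σ of V agrees on every triple of points with some element of G if and only if σ is an affine map. -/
theorem result (p : ℕ) [Fact p.Prime] (hp : p ≠ 2) (d : ℕ) (hd : 3 ≤ d) (G : Subgroup (Equiv.Perm (Fin d → ZMod p)))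
    (haff : (G : Set (Equiv.Perm (Fin d → ZMod p))) ⊆ {τ : Equiv.Perm (Fin d → ZMod p) | ∃ (A : (Fin d → ZMod p) ≃ₗ[ZMod p] (Fin d → ZMod p)) (b : Fin d → ZMod p), ∀ x, τ x = A x + b})
    (htrans : ∀ b : Fin d → ZMod p, ∃ g ∈ G, ∀ x, g x = x + b)
    (hsl : ∀ A : (Fin d → ZMod p) ≃ₗ[ZMod p] (Fin d → ZMod p), LinearMap.det (A : (Fin d → ZMod p) →ₗ[ZMod p] (Fin d → ZMod p)) = 1 → ∃ g ∈ G, ∀ x, g x = A x)
    (σ : Equiv.Perm (Fin d → ZMod p)) :
    (∀ t : Fin 3 → (Fin d → ZMod p), ∃ g ∈ G, ∀ i, σ (t i) = g (t i)) ↔ σ ∈ {τ : Equiv.Perm (Fin d → ZMod p) | ∃ (A : (Fin d → ZMod p) ≃ₗ[ZMod p] (Fin d → ZMod p)) (b : Fin d → ZMod p), ∀ x, τ x = A x + b} := by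
  classical
  constructor
  · intro h
    have hA : ∀ t : Fin 3 → (Fin d → ZMod p), ∃ (A : (Fin d → ZMod p) ≃ₗ[ZMod p] (Fin d → ZMod p))
        (b : Fin d → ZMod p), ∀ i, σ (t i) = A (t i) + b := by
      intro t
      obtain ⟨g, hg, hgt⟩ := h t
      obtain ⟨A, b, hAb⟩ := haff hg
      exact ⟨A, b, fun i => by rw [hgt, hAb]⟩
    obtain ⟨A, hA'⟩ := CfsgLib.Fixity.isAffine_of_triples hp σ hA
    exact ⟨A, σ 0, hA'⟩
  · rintro ⟨A, b, hA⟩ t
    let W : Submodule (ZMod p) (Fin d → ZMod p) := Submodule.span (ZMod p) {A (t 1 - t 0), A (t 2 - t 0)}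
    have hW : W ≠ ⊤ := by
      intro he
      have h1 : Module.finrank (ZMod p) W ≤ 2 := by
        refine (finrank_span_le_card _).trans ?_
        rw [Set.toFinset_card]
        refine le_trans (le_of_eq (Set.fintypeCard_eq_ncard _)) (Set.ncard_insert_le _ _ |>.trans ?_)
        simp
      rw [he, finrank_top, Module.finrank_fintype_fun_eq_card, Fintype.card_fin] at h1
      omega
    obtain ⟨f, hf, hfW⟩ := Submodule.exists_dual_map_eq_bot_of_lt_top (lt_top_iff_ne_top.2 hW)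
      inferInstance
    obtain ⟨v₀, hv₀⟩ : ∃ v, f v ≠ 0 := not_forall.1 fun h => hf (LinearMap.ext h)
    set v := (f v₀)⁻¹ • v₀ with hvdef
    have hv : f v = 1 := by rw [hvdef, map_smul, smul_eq_mul, inv_mul_cancel₀ hv₀]
    set c : ZMod p := (LinearMap.det (A : (Fin d → ZMod p) →ₗ[ZMod p] (Fin d → ZMod p)))⁻¹
    have hdetA : LinearMap.det (A : (Fin d → ZMod p) →ₗ[ZMod p] (Fin d → ZMod p)) ≠ 0 := (LinearEquiv.isUnit_det' A).ne_zero
    have hdet : LinearMap.det (LinearMap.transvection f ((c - 1) • v)) = c := by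
      rw [LinearMap.transvection.det]; simp [hv]
    let D : (Fin d → ZMod p) ≃ₗ[ZMod p] (Fin d → ZMod p) :=
      LinearMap.equivOfDetNeZero (LinearMap.transvection f ((c - 1) • v))
        (by rw [hdet]; exact inv_ne_zero hdetA)
    have hDA : LinearMap.det ((A.trans D : (Fin d → ZMod p) ≃ₗ[ZMod p] (Fin d → ZMod p)) : (Fin d → ZMod p) →ₗ[ZMod p] (Fin d → ZMod p)) = 1 := by
      rw [LinearEquiv.coe_trans, LinearMap.det_comp]
      rw [show (D : (Fin d → ZMod p) →ₗ[ZMod p] (Fin d → ZMod p)) = LinearMap.transvection f ((c - 1) • v) from rfl, hdet]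
      exact inv_mul_cancel₀ hdetA
    obtain ⟨g₁, hg₁, hg₁'⟩ := hsl (A.trans D) hDA
    obtain ⟨g₂, hg₂, hg₂'⟩ := htrans (σ (t 0) - (A.trans D) (t 0))
    refine ⟨g₂ * g₁, mul_mem hg₂ hg₁, fun i => ?_⟩
    rw [Equiv.Perm.mul_apply, hg₁', hg₂']
    have hfix : (A.trans D) (t i - t 0) = A (t i - t 0) := by
      have hz : f (A (t i - t 0)) = 0 := by
        have hmem : A (t i - t 0) ∈ W := by
          fin_cases i
          · simp
          · exact Submodule.subset_span (Or.inl rfl)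
          · exact Submodule.subset_span (Or.inr rfl)
        exact LinearMap.mem_ker.1 (LinearMap.le_ker_iff_map.2 hfW hmem)
      show D (A (t i - t 0)) = _
      show LinearMap.transvection f ((c - 1) • v) (A (t i - t 0)) = _
      rw [LinearMap.transvection.apply, hz, zero_smul, add_zero]
    rw [map_sub, map_sub] at hfix
    rw [hA (t i), hA (t 0)]
    calc A (t i) + b = (A (t i) - A (t 0)) + (A (t 0) + b) := by abel
      _ = _ := by rw [← hfix]; abel

end Cfsg.Agent.S3516
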