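import Cfsg.Statements.S3517
import Cfsg.Agent.Lib.Fixity.Closures

set_option autoImplicit false
open Cfsg

namespace Cfsg.Agent.S3517

/-- For d ≥ 3, the 3-closure of the affine group AGL_d(2) acting on F_2^d is the full symmetric group: every permutation of F_2^d agrees on every ordered triple of points with some affine map (AGL_d(2) is 3-transitive). -/
theorem result (d : ℕ) (hd : 3 ≤ d) (σ : Equiv.Perm (Fin d → ZMod 2)) (t : Fin 3 → (Fin d → ZMod 2)) :
    ∃ (A : (Fin d → ZMod 2) ≃ₗ[ZMod 2] (Fin d → ZMod 2)) (b : Fin d → ZMod 2), ∀ i, σ (t i) = A (t i) + b := by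
  classical
  have key : ∀ x y : Fin d → ZMod 2, x ≠ 0 → y ≠ 0 →
      ∃ A : (Fin d → ZMod 2) ≃ₗ[ZMod 2] (Fin d → ZMod 2), A x = y := by
    intro x y hx hy
    obtain ⟨A, hA⟩ := CfsgLib.Fixity.exists_linearEquiv_of_linearIndependent (u := fun _ : Fin 1 => x)
      (w := fun _ : Fin 1 => y) (LinearIndependent.of_subsingleton (R := ZMod 2) (0 : Fin 1) hx)
      (LinearIndependent.of_subsingleton (R := ZMod 2) (0 : Fin 1) hy)
    exact ⟨A, hA 0⟩
  suffices h : ∃ A : (Fin d → ZMod 2) ≃ₗ[ZMod 2] (Fin d → ZMod 2),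
      ∀ i, A (t i - t 0) = σ (t i) - σ (t 0) by
    obtain ⟨A, hA⟩ := h
    refine ⟨A, σ (t 0) - A (t 0), fun i => ?_⟩
    have := hA i
    rw [map_sub] at this
    rw [← sub_add_cancel (σ (t i)) (σ (t 0)), ← this]; abel
  have hne : ∀ i j, t i ≠ t j → σ (t i) - σ (t j) ≠ 0 := fun i j h he =>
    h (σ.injective (sub_eq_zero.1 he))
  have hne' : ∀ i j, t i ≠ t j → t i - t j ≠ 0 := fun i j h he => h (sub_eq_zero.1 he)
  by_cases h1 : t 1 = t 0
  · by_cases h2 : t 2 = t 0
    · exact ⟨LinearEquiv.refl _ _, fun i => by fin_cases i <;> simp [h1, h2]⟩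
    · obtain ⟨A, hA⟩ := key _ _ (hne' 2 0 h2) (hne 2 0 h2)
      exact ⟨A, fun i => by fin_cases i <;> simp [h1] <;> simpa using hA⟩
  · by_cases h2 : t 2 = t 0
    · obtain ⟨A, hA⟩ := key _ _ (hne' 1 0 h1) (hne 1 0 h1)
      exact ⟨A, fun i => by fin_cases i <;> simp [h2] <;> simpa using hA⟩
    · by_cases h12 : t 1 = t 2
      · obtain ⟨A, hA⟩ := key _ _ (hne' 1 0 h1) (hne 1 0 h1)
        exact ⟨A, fun i => by fin_cases i <;> simp [← h12] <;> simpa using hA⟩
      · obtain ⟨A, hA⟩ := CfsgLib.Fixity.exists_linearEquiv_of_linearIndependent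
          (CfsgLib.Fixity.linearIndependent_pair_two (hne' 1 0 h1) (hne' 2 0 h2)
            (fun he => h12 (sub_left_inj.1 he)))
          (CfsgLib.Fixity.linearIndependent_pair_two (hne 1 0 h1) (hne 2 0 h2)
            (fun he => h12 (σ.injective (sub_left_inj.1 he))))
        refine ⟨A, fun i => ?_⟩
        fin_cases i
        · simp
        · exact hA 0
        · exact hA 1

end Cfsg.Agent.S3517
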