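import Cfsg.Statements.S3518
import Cfsg.Agent.Lib.Fixity.PowDiff

set_option autoImplicit false
open Cfsg

namespace Cfsg.Agent.S3518

/-- Closures of subgroups of the one-dimensional affine group. Let p be a prime and G a group of permutations of F_p lying in the affine group AGL₁(p) = {x ↦ ax + b, a ≠ 0} and containing all translations. (1) If G is a proper subgroup of AGL₁(p), then G is 2-closed: a permutation of F_p agreeing on every ordered pair of points with some element of G lies in G. (2) Every permutation of F_p agrees on every ordered pair with some element of AGL₁(p) (the 2-closure of AGL₁(p) is the symmetric group). (3) AGL₁(p) is 3-closed: a permutation agreeing on every ordered triple with some affine map is affine. -/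
theorem result (p : ℕ) [Fact p.Prime] (G : Subgroup (Equiv.Perm (ZMod p))) (hG : G ≤ Cfsg.affineGroup (ZMod p))
    (htrans : ∀ b : ZMod p, ∃ g ∈ G, ∀ x, g x = x + b) :
    (G ≠ Cfsg.affineGroup (ZMod p) → ∀ σ : Equiv.Perm (ZMod p), (∀ t : Fin 2 → ZMod p, ∃ g ∈ G, ∀ i, σ (t i) = g (t i)) → σ ∈ G) ∧
    (∀ σ : Equiv.Perm (ZMod p), (∀ t : Fin 2 → ZMod p, ∃ g ∈ Cfsg.affineGroup (ZMod p), ∀ i, σ (t i) = g (t i))) ∧
    (∀ σ : Equiv.Perm (ZMod p), (∀ t : Fin 3 → ZMod p, ∃ g ∈ Cfsg.affineGroup (ZMod p), ∀ i, σ (t i) = g (t i)) → σ ∈ Cfsg.affineGroup (ZMod p)) := by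
  classical
  have hp1 : Nat.card (ZMod p)ˣ = p - 1 := by
    rw [Nat.card_eq_fintype_card, ZMod.card_units p]
  refine ⟨fun hne σ hσ => ?_, fun σ t => ?_, fun σ hσ => ?_⟩
  · -- the group of slopes
    let D : Subgroup (ZMod p)ˣ :=
      { carrier := {a | ∃ g ∈ G, ∀ x, g x = (a : ZMod p) * x}
        one_mem' := ⟨1, one_mem _, fun x => by simp⟩
        mul_mem' := by
          rintro a b ⟨g, hg, hga⟩ ⟨h, hh, hhb⟩
          exact ⟨g * h, mul_mem hg hh, fun x => by simp [hga, hhb, mul_assoc]⟩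
        inv_mem' := by
          rintro a ⟨g, hg, hga⟩
          refine ⟨g⁻¹, inv_mem hg, fun x => ?_⟩
          rw [Equiv.Perm.inv_eq_iff_eq, hga, ← mul_assoc, Units.mul_inv, one_mul] }
    have hslope : ∀ g ∈ G, ∃ a ∈ D, ∃ b : ZMod p, ∀ x, g x = (a : ZMod p) * x + b := by
      intro g hg
      obtain ⟨a, b, hab⟩ := hG hg
      obtain ⟨h, hh, hh'⟩ := htrans (-b)
      exact ⟨a, ⟨h * g, mul_mem hh hg, fun x => by simp [hh', hab]⟩, b, hab⟩
    have hmemG : ∀ (a : (ZMod p)ˣ) (b : ZMod p) (g : Equiv.Perm (ZMod p)), a ∈ D →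
        (∀ x, g x = (a : ZMod p) * x + b) → g ∈ G := by
      intro a b g ha hgab
      obtain ⟨g₁, hg₁, hg₁'⟩ := ha
      obtain ⟨g₂, hg₂, hg₂'⟩ := htrans b
      rw [show g = g₂ * g₁ from Equiv.ext fun x => by simp [hgab, hg₁', hg₂']]
      exact mul_mem hg₂ hg₁
    have hDt : D ≠ ⊤ := by
      intro he
      refine hne (le_antisymm hG ?_)
      rintro g ⟨a, b, hab⟩
      exact hmemG a b g (he ▸ Subgroup.mem_top a) hab
    have hd2 : 2 * Nat.card D ≤ p - 1 := by
      rw [← hp1, ← D.card_mul_index, mul_comm 2]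
      exact Nat.mul_le_mul_left _ (D.one_lt_index_of_ne_top hDt)
    have hpow : ∀ x y, (σ x - σ y) ^ Nat.card D = (x - y) ^ Nat.card D := by
      intro x y
      obtain ⟨g, hg, hgt⟩ := hσ ![x, y]
      obtain ⟨a, ha, b, hab⟩ := hslope g hg
      have h0 := hgt 0; have h1 := hgt 1
      simp at h0 h1
      rw [h0, h1, hab, hab, show (a : ZMod p) * x + b - ((a : ZMod p) * y + b) = (a : ZMod p) * (x - y) by ring,
        mul_pow, ← Units.val_pow_eq_pow_val, orderOf_dvd_iff_pow_eq_one.1 (D.orderOf_dvd_natCard ha)]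
      simp
    obtain ⟨a, b, hab⟩ := CfsgLib.Fixity.affine_of_pow_diff σ.injective (Nat.card_pos (α := D)) hd2 hpow
    obtain ⟨g, hg, hgt⟩ := hσ ![0, 1]
    obtain ⟨a', ha', b', hab'⟩ := hslope g hg
    have h0 := hgt 0; have h1 := hgt 1
    simp [hab, hab'] at h0 h1
    subst h0
    have haa : a = (a' : ZMod p) := add_right_cancel h1
    exact hmemG a' b σ ha' fun x => by rw [hab, haa]
  · by_cases h01 : t 0 = t 1
    · refine ⟨Equiv.addRight (σ (t 0) - t 0), ⟨1, σ (t 0) - t 0, fun x => by simp⟩, fun i => ?_⟩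
      fin_cases i <;> simp [h01]
    · have hs : (σ (t 1) - σ (t 0)) / (t 1 - t 0) ≠ 0 :=
        div_ne_zero (sub_ne_zero.2 fun he => h01 (σ.injective he).symm) (sub_ne_zero.2 (Ne.symm h01))
      let a := Units.mk0 _ hs
      refine ⟨(Units.mulLeft a).trans (Equiv.addRight (σ (t 0) - a * t 0)),
        ⟨a, σ (t 0) - a * t 0, fun x => rfl⟩, fun i => ?_⟩
      have hne : t 1 - t 0 ≠ 0 := sub_ne_zero.2 (Ne.symm h01)
      have e : (a : ZMod p) * (t 1 - t 0) = σ (t 1) - σ (t 0) := div_mul_cancel₀ _ hne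
      fin_cases i
      · show σ (t 0) = (a : ZMod p) * t 0 + (σ (t 0) - a * t 0); ring
      · show σ (t 1) = (a : ZMod p) * t 1 + (σ (t 0) - a * t 0); linear_combination -e
  · obtain ⟨g₀, hg₀, hg₀t⟩ := hσ ![0, 1, 0]
    suffices σ = g₀ by rwa [this]
    ext x
    obtain ⟨g, hg, hgt⟩ := hσ ![0, 1, x]
    obtain ⟨a, b, hab⟩ := hg
    obtain ⟨a', b', hab'⟩ := hg₀
    have h0 := hgt 0; have h1 := hgt 1; have h2 := hgt 2
    have k0 := hg₀t 0; have k1 := hg₀t 1
    simp [hab] at h0 h1 h2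
    simp [hab'] at k0 k1
    rw [h2, hab']
    have hb : b = b' := h0.symm.trans k0
    subst hb
    rw [show (a : ZMod p) = a' from add_right_cancel (h1.symm.trans k1)]

end Cfsg.Agent.S3518
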