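import Cfsg.Statements.S3521
import Cfsg.Agent.Lib.ExtremelyPrimitive.AlmostSimple

set_option autoImplicit false
set_option linter.style.haveILetI false
open Cfsg

namespace Cfsg.Agent.S3521

/-- Let a finite group G that is not solvable act faithfully and primitively on a finite set with p ^ d points (p prime), with a non-trivial abelian normal subgroup acting regularly (affine type) and with non-trivial point stabilizers each acting primitively on every one of its orbits (an insoluble extremely primitive group of affine type). Then p = 2; and if moreover G is not 2-transitive, then a point stabilizer is almost simple (it has a non-abelian simple normal subgroup with trivial centralizer). -/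
theorem result {G : Type*} [Group G] [Finite G] {Ω : Type*} [Fintype Ω] [MulAction G Ω] [FaithfulSMul G Ω] (p d : ℕ) (hp : p.Prime) (hcard : Fintype.card Ω = p ^ d) (hsol : ¬ Group.IsSolvable G)
    (N : Subgroup G) [N.Normal] (hN : N ≠ ⊥) (hNc : IsMulCommutative N) (hNreg : ∀ ω : Ω, MulAction.stabilizer N ω = ⊥)
    (hprim : MulAction.IsPreprimitive G Ω) (hH : ∀ α : Ω, MulAction.stabilizer G α ≠ ⊥) (hep : ∀ (α : Ω) (ω : Ω), MulAction.IsPreprimitive (MulAction.stabilizer G α) (MulAction.orbit (MulAction.stabilizer G α) ω)) (α : Ω) :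
    p = 2 ∧ (¬ MulAction.IsMultiplyPretransitive G Ω 2 → ∃ T : Subgroup (MulAction.stabilizer G α), T.Normal ∧ IsSimpleGroup T ∧ ¬ IsMulCommutative T ∧ Subgroup.centralizer (T : Set (MulAction.stabilizer G α)) = ⊥) := by
  open MulAction CfsgLib.ExtremelyPrimitive in
  classical
  haveI := hprim
  letI : CommGroup N := { (inferInstance : Group N) with mul_comm := fun a b => mul_comm' a b }
  letI : MulDistribMulAction (stabilizer G α) N :=
    MulDistribMulAction.compHom N
      ((MulAut.conjNormal : G →* MulAut N).comp (stabilizer G α).subtype)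
  have hsmul : ∀ (h : stabilizer G α) (v : N), ((h • v : N) : G) = (h : G) * v * (h : G)⁻¹ :=
    fun h v => MulAut.conjNormal_apply (h : G) v
  obtain ⟨n₀, hn₀N, hn₀⟩ := (Subgroup.bot_or_exists_ne_one N).resolve_left hN
  have hfree : ∀ n : N, (n : G) • α = α → n = 1 := fun n hn => by
    have : n ∈ stabilizer N α := hn
    rwa [hNreg, Subgroup.mem_bot] at this
  have hfix : fixedPoints N Ω ≠ Set.univ := fun h => by
    have := hfree ⟨n₀, hn₀N⟩ ((h.ge (Set.mem_univ α) : α ∈ fixedPoints N Ω) ⟨n₀, hn₀N⟩)
    exact hn₀ (congrArg Subtype.val this)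
  haveI : IsPretransitive N Ω := IsQuasiPreprimitive.isPretransitive_of_normal hfix
  haveI : Nontrivial Ω := ⟨⟨n₀ • α, α, fun h => hn₀ (congrArg Subtype.val (hfree ⟨n₀, hn₀N⟩ h))⟩⟩
  have hinj : Function.Injective fun n : N => (n : G) • α := fun a b hab => by
    refine (inv_mul_eq_one.1 (hfree (b⁻¹ * a) ?_)).symm
    rw [Subgroup.coe_mul, Subgroup.coe_inv, mul_smul, inv_smul_eq_iff]
    exact hab
  have hsurj : Function.Surjective fun n : N => (n : G) • α := fun ω => exists_smul_eq N α ω
  have hequiv : ∀ (h : stabilizer G α) (v : N),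
      ((h • v : N) : G) • α = (h : G) • (v : G) • α := fun h v => by
    rw [hsmul, mul_smul, mul_smul, inv_smul_eq_iff.2 h.2.symm]
  have hstab : ∀ v : N, stabilizer (stabilizer G α) v = stabilizer (stabilizer G α) ((v : G) • α) :=
    fun v => Subgroup.ext fun h =>
      ⟨fun hh => by rw [mem_stabilizer_iff] at hh ⊢; rw [Subgroup.smul_def, ← hequiv, hh],
        fun hh => hinj ((hequiv h v).trans (mem_stabilizer_iff.1 hh))⟩
  have hHcoatom : IsCoatom (stabilizer G α) := IsPreprimitive.isCoatom_stabilizer_of_isPreprimitive (G := G) α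
  have hirr : ∀ U : Subgroup N, (∀ h : stabilizer G α, ∀ v ∈ U, h • v ∈ U) → U = ⊥ ∨ U = ⊤ := by
    intro U hU
    rcases eq_or_lt_of_le (le_sup_right : stabilizer G α ≤ U.map N.subtype ⊔ stabilizer G α) with
      hL | hL
    · refine Or.inl ((Subgroup.eq_bot_iff_forall U).2 fun u hu => hfree u ?_)
      exact hL.symm.le (Subgroup.mem_sup_left (Subgroup.mem_map_of_mem N.subtype hu))
    · refine Or.inr (top_le_iff.1 fun n _ => ?_)
      have htop := hHcoatom.2 _ hL
      have hn : (U.map N.subtype).Normal := by
        refine normal_of_le_normalizer htop Subgroup.le_normalizer fun g hg => ?_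
        refine mem_normalizer_of_cj_le fun z hz => ?_
        obtain ⟨u, hu, huz⟩ := Subgroup.mem_map.1 (mem_cj.1 hz)
        refine Subgroup.mem_map.2 ⟨(⟨g, hg⟩ : stabilizer G α) • u, hU _ u hu, ?_⟩
        rw [Subgroup.coe_subtype] at huz ⊢
        rw [hsmul, huz]
        group
      haveI := hn
      obtain ⟨_, ⟨u, hu, rfl⟩, h, hh, he⟩ :=
        Subgroup.mem_sup_of_normal_left.1 (htop.ge (Subgroup.mem_top (n : G)))
      have : u⁻¹ * n = 1 := hfree _ (by
        rw [Subgroup.coe_mul, Subgroup.coe_inv, ← he, Subgroup.coe_subtype, inv_mul_cancel_left]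
        exact hh)
      rw [← inv_mul_eq_one.1 this]
      exact hu
  have hfaith : ∀ h : stabilizer G α, (∀ v : N, h • v = v) → h = 1 := fun h hh =>
    Subtype.ext (eq_of_smul_eq_smul fun ω : Ω => by
      obtain ⟨v, rfl⟩ := hsurj ω
      show (h : G) • (v : G) • α = ((1 : stabilizer G α) : G) • (v : G) • α
      rw [← hequiv, hh, Subgroup.coe_one, one_smul])
  have hnf : ∀ v : N, v ≠ 1 → Nontrivial (orbit (stabilizer G α) ((v : G) • α)) := by
    intro v hv
    by_contra hc
    rw [not_nontrivial_iff_subsingleton] at hc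
    let U : Subgroup N :=
      { carrier := {u | ∀ h : stabilizer G α, h • u = u}
        one_mem' := fun h => smul_one h
        mul_mem' := fun hx hy h => by rw [smul_mul', hx h, hy h]
        inv_mem' := fun hx h => by rw [smul_inv', hx h] }
    have hvU : v ∈ U := fun h => hinj ((hequiv h v).trans (congrArg Subtype.val
      (Subsingleton.elim (⟨h • ((v : G) • α), mem_orbit _ h⟩ : orbit (stabilizer G α) ((v : G) • α))
        ⟨(v : G) • α, mem_orbit_self _⟩)))
    rcases hirr U (fun g u hu h => by rw [hu g, hu h]) with hU | hU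
    · exact hv (Subgroup.mem_bot.1 (hU.le hvU))
    · exact hH α ((Subgroup.eq_bot_iff_forall _).2 fun g hg => congrArg Subtype.val
        (hfaith ⟨g, hg⟩ fun u => (hU.ge (Subgroup.mem_top u) : u ∈ U) _))
  have hS : Setting (stabilizer G α) N := by
    refine ⟨fun v hv => ?_, hirr, hfaith, fun hs => hsol ?_,
      ⟨⟨n₀, hn₀N⟩, fun h => hn₀ (congrArg Subtype.val h)⟩⟩
    · haveI := hnf v hv
      haveI := hep α ((v : G) • α)
      have := IsPreprimitive.isCoatom_stabilizer_of_isPreprimitive (G := stabilizer G α)
        (⟨(v : G) • α, mem_orbit_self _⟩ : orbit (stabilizer G α) ((v : G) • α))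
      convert this using 1
      rw [hstab]
      ext h
      simp [mem_stabilizer_iff, Subtype.ext_iff]
    · haveI := hs
      haveI : Group.IsSolvable N := Group.isSolvable_of_comm fun a b => mul_comm' a b
      haveI : Group.IsSolvable (G ⧸ N) := by
        refine Group.isSolvable_of_surjective
          (f := (QuotientGroup.mk' N).comp (stabilizer G α).subtype) fun q => ?_
        obtain ⟨g, rfl⟩ := QuotientGroup.mk'_surjective N q
        obtain ⟨n, hn⟩ := hsurj (g • α)
        refine ⟨⟨(n : G)⁻¹ * g, ?_⟩, ?_⟩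
        · rw [mem_stabilizer_iff, mul_smul, inv_smul_eq_iff]
          exact hn.symm
        · rw [MonoidHom.comp_apply, Subgroup.coe_subtype, map_mul]
          simp [(QuotientGroup.eq_one_iff (n : G)).2 n.2]
      exact Group.isSolvable_of_ker_le_range N.subtype (QuotientGroup.mk' N) (by simp)
  have hcardN : Nat.card N = p ^ d := by
    rw [Nat.card_congr (Equiv.ofBijective _ ⟨hinj, hsurj⟩), Nat.card_eq_fintype_card, hcard]
  obtain ⟨hp2, h2⟩ := hS.mul_self_eq_one hp hcardN
  exact ⟨hp2, fun _ => hS.exists_simple_normal h2⟩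

end Cfsg.Agent.S3521
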