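import Cfsg.Statements.S3526
import Cfsg.Agent.Lib.PrimeGraphBound.Bounded

set_option autoImplicit false
open Cfsg

namespace Cfsg.Agent.S3526

/-- The prime graph of a finite group has the prime divisors of its order as vertices, two distinct primes p, q being joined when the group has an element of order pq; two groups have the same prime graph when they have the same prime divisors and the same joined pairs. Suppose only finitely many finite groups, up to isomorphism, have the same prime graph as the non-trivial finite group G (equivalently, their orders are bounded). Then G is almost simple (it has a non-abelian simple normal subgroup with trivial centralizer), and so is every finite group with the same prime graph as G. -/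
theorem result {G : Type*} [Group G] [Finite G] [Nontrivial G]
    (h : ∃ n : ℕ, ∀ (H : Type) [Group H] [Finite H],
      ((∀ p : ℕ, p.Prime → (p ∣ Nat.card G ↔ p ∣ Nat.card H)) ∧
      (∀ p q : ℕ, p.Prime → q.Prime → p ≠ q → ((∃ g : G, orderOf g = p * q) ↔ (∃ g : H, orderOf g = p * q)))) → Nat.card H ≤ n) :
    (∃ N : Subgroup G, N.Normal ∧ IsSimpleGroup ↥N ∧ ¬ IsMulCommutative ↥N ∧ Subgroup.centralizer (N : Set G) = ⊥) ∧
    ∀ (H : Type) [Group H] [Finite H],
      ((∀ p : ℕ, p.Prime → (p ∣ Nat.card G ↔ p ∣ Nat.card H)) ∧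
      (∀ p q : ℕ, p.Prime → q.Prime → p ≠ q → ((∃ g : G, orderOf g = p * q) ↔ (∃ g : H, orderOf g = p * q)))) →
      ∃ N : Subgroup H, N.Normal ∧ IsSimpleGroup ↥N ∧ ¬ IsMulCommutative ↥N ∧ Subgroup.centralizer (N : Set H) = ⊥ := by
  open CfsgLib.PrimeGraphBound in
  obtain ⟨n, hn⟩ := h
  have key : ∀ (H : Type) [Group H] [Finite H], SameGraph G H →
      ∃ N : Subgroup H, N.Normal ∧ IsSimpleGroup ↥N ∧ ¬ IsMulCommutative ↥N ∧
        Subgroup.centralizer (N : Set H) = ⊥ := by
    intro H _ _ hH
    haveI : Nontrivial H := by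
      obtain ⟨p, hp, hpd⟩ := Nat.exists_prime_and_dvd (Finite.one_lt_card (α := G)).ne'
      rw [← Finite.one_lt_card_iff_nontrivial]
      exact lt_of_lt_of_le hp.one_lt (Nat.le_of_dvd Nat.card_pos ((hH.1 p hp).1 hpd))
    exact almostSimple_of_bounded n fun H' _ _ h' => hn H' (hH.trans h')
  refine ⟨?_, fun H _ _ hH => key H hH⟩
  obtain ⟨d, ⟨e⟩⟩ := Finite.exists_equiv_fin G
  let ψ : G →* Equiv.Perm (Fin d) := e.permCongrHom.toMonoidHom.comp (MulAction.toPermHom G G)
  have hψ : Function.Injective ψ := fun a b hab =>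
    MulAction.toPerm_injective (α := G) (β := G) (e.permCongrHom.injective hab)
  let f : G ≃* ψ.range := MonoidHom.ofInjective hψ
  obtain ⟨N, hN, hNs, hNc, hNz⟩ := key ψ.range (SameGraph.of_mulEquiv f)
  let g : ↥(N.comap f.toMonoidHom) ≃* ↥N :=
    { toFun := fun a => ⟨f a, a.2⟩
      invFun := fun b => ⟨f.symm b, by simp⟩
      left_inv := fun a => Subtype.ext (f.symm_apply_apply a)
      right_inv := fun b => Subtype.ext (f.apply_symm_apply b)
      map_mul' := fun a b => Subtype.ext (map_mul f (a : G) b) }
  refine ⟨N.comap f.toMonoidHom, hN.comap _, ?_, ?_, ?_⟩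
  · haveI := hNs
    haveI : Nontrivial ↥(N.comap f.toMonoidHom) := g.toEquiv.nontrivial
    exact IsSimpleGroup.isSimpleGroup_of_surjective g.symm.toMonoidHom g.symm.surjective
  · intro hc
    exact hNc ⟨⟨fun a b => g.symm.injective (by
      rw [map_mul, map_mul]; exact hc.is_comm.comm _ _)⟩⟩
  · refine (Subgroup.eq_bot_iff_forall _).2 fun c hc => f.injective ?_
    have : f c ∈ Subgroup.centralizer (N : Set ψ.range) :=
      Subgroup.mem_centralizer_iff.2 fun y hy => by
        have h1 := Subgroup.mem_centralizer_iff.1 hc (f.symm y) (by simpa using hy)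
        simpa using congrArg f h1
    rw [hNz, Subgroup.mem_bot] at this
    rw [this, map_one]

end Cfsg.Agent.S3526
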