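import Cfsg.Statements.S3532
import Cfsg.Agent.Lib.Fixity.PSLTwoSpectrum

set_option autoImplicit false
open Cfsg

namespace Cfsg.Agent.S3532

/-- Let q ≥ 4 be a prime power and L = PSL(2,q). There is a finite solvable group with the same set of element orders as L × L (so L × L is not determined by its spectrum). -/
theorem result {F : Type*} [Field F] [Fintype F] (hF : 4 ≤ Fintype.card F) :
    ∃ (H : Type) (_ : Group H) (_ : Finite H), Group.IsSolvable H ∧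
      Set.range (orderOf : H → ℕ) = Set.range (orderOf : Matrix.ProjectiveSpecialLinearGroup (Fin 2) F × Matrix.ProjectiveSpecialLinearGroup (Fin 2) F → ℕ) := by
  classical
  obtain ⟨p, hchar⟩ := CharP.exists F
  haveI := hchar
  obtain ⟨n, hp, hn⟩ := FiniteField.card F p
  haveI : Fact p.Prime := ⟨hp⟩
  set q := Nat.card F with hqdef
  have hq : q = p ^ (n : ℕ) := by rw [hqdef, Nat.card_eq_fintype_card]; exact hn
  have hq4 : 4 ≤ q := by rw [hqdef, Nat.card_eq_fintype_card]; exact hF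
  set d := CfsgLib.Fixity.PSLTwoSpectrum.zd F
  set a := (q - 1) / d
  set b := (q + 1) / d
  let K1 := GaloisField p n
  let K2 := GaloisField p (2 * n)
  have hK1 : Nat.card K1 = q := by rw [hq]; exact GaloisField.card p n n.pos.ne'
  have hK2 : Nat.card K2 = q * q := by
    rw [GaloisField.card p (2 * n) (by have := n.pos; omega), hq, ← pow_add, two_mul]
  have ha : a ∣ Nat.card K1 - 1 := by
    rw [hK1]; exact Nat.div_dvd_of_dvd (CfsgLib.Fixity.PSLTwoSpectrum.zd_dvd (Or.inl rfl))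
  have hb : b ∣ Nat.card K2 - 1 := by
    refine (Nat.div_dvd_of_dvd (CfsgLib.Fixity.PSLTwoSpectrum.zd_dvd (F := F) (Or.inr rfl))).trans ?_
    rw [hK2]
    refine ⟨q - 1, ?_⟩
    have h := Nat.sq_sub_sq q 1
    rw [one_pow, pow_two] at h
    exact h
  obtain ⟨C1, hC1⟩ := CfsgLib.Fixity.exists_unit_subgroup K1 ha
  obtain ⟨C2, hC2⟩ := CfsgLib.Fixity.exists_unit_subgroup K2 hb
  let A := CfsgLib.Fixity.AffineOf K1 C1
  let B := CfsgLib.Fixity.AffineOf K2 C2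
  haveI : Finite A := CfsgLib.Fixity.AffineOf.finite K1 C1
  haveI : Finite B := CfsgLib.Fixity.AffineOf.finite K2 C2
  haveI : Group.IsSolvable A := CfsgLib.Fixity.AffineOf.isSolvable K1 C1
  haveI : Group.IsSolvable B := CfsgLib.Fixity.AffineOf.isSolvable K2 C2
  refine ⟨A × B, inferInstance, inferInstance, inferInstance, ?_⟩
  let S : Set ℕ := {Nat.lcm p a, Nat.lcm p b, Nat.lcm a b}
  have e1 : Nat.lcm p a ∈ S := Or.inl rfl
  have e2 : Nat.lcm p b ∈ S := Or.inr (Or.inl rfl)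
  have e3 : Nat.lcm a b ∈ S := Or.inr (Or.inr rfl)
  rw [CfsgLib.Fixity.range_orderOf_of_cofinal S, CfsgLib.Fixity.range_orderOf_of_cofinal S]
  · rintro ⟨x, y⟩
    rw [Prod.orderOf]
    rcases CfsgLib.Fixity.PSLTwoSpectrum.orderOf_dvd p x with hx | hx | hx <;>
      rcases CfsgLib.Fixity.PSLTwoSpectrum.orderOf_dvd p y with hy | hy | hy
    · exact ⟨_, e1, Nat.lcm_dvd (hx.trans (Nat.dvd_lcm_left _ _)) (hy.trans (Nat.dvd_lcm_left _ _))⟩
    · exact ⟨_, e1, Nat.lcm_dvd (hx.trans (Nat.dvd_lcm_left _ _)) (hy.trans (Nat.dvd_lcm_right _ _))⟩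
    · exact ⟨_, e2, Nat.lcm_dvd (hx.trans (Nat.dvd_lcm_left _ _)) (hy.trans (Nat.dvd_lcm_right _ _))⟩
    · exact ⟨_, e1, Nat.lcm_dvd (hx.trans (Nat.dvd_lcm_right _ _)) (hy.trans (Nat.dvd_lcm_left _ _))⟩
    · exact ⟨_, e1, Nat.lcm_dvd (hx.trans (Nat.dvd_lcm_right _ _)) (hy.trans (Nat.dvd_lcm_right _ _))⟩
    · exact ⟨_, e3, Nat.lcm_dvd (hx.trans (Nat.dvd_lcm_left _ _)) (hy.trans (Nat.dvd_lcm_right _ _))⟩
    · exact ⟨_, e2, Nat.lcm_dvd (hx.trans (Nat.dvd_lcm_right _ _)) (hy.trans (Nat.dvd_lcm_left _ _))⟩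
    · exact ⟨_, e3, Nat.lcm_dvd (hx.trans (Nat.dvd_lcm_right _ _)) (hy.trans (Nat.dvd_lcm_left _ _))⟩
    · exact ⟨_, e2, Nat.lcm_dvd (hx.trans (Nat.dvd_lcm_right _ _)) (hy.trans (Nat.dvd_lcm_right _ _))⟩
  · obtain ⟨x, hx⟩ := CfsgLib.Fixity.PSLTwoSpectrum.exists_orderOf_char (F := F) p
    obtain ⟨y, hy⟩ := CfsgLib.Fixity.PSLTwoSpectrum.exists_orderOf_torus (F := F) (Or.inl rfl) (by omega)
    obtain ⟨z, hz⟩ := CfsgLib.Fixity.PSLTwoSpectrum.exists_orderOf_torus (F := F) (Or.inr rfl) (by omega)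
    rintro m (rfl | rfl | rfl)
    · exact ⟨(x, y), by rw [Prod.orderOf, hx, hy]⟩
    · exact ⟨(x, z), by rw [Prod.orderOf, hx, hz]⟩
    · exact ⟨(y, z), by rw [Prod.orderOf, hy, hz]⟩
  · rintro ⟨x, y⟩
    rw [Prod.orderOf]
    rcases CfsgLib.Fixity.AffineOf.orderOf_dvd p x with hx | hx <;>
      rcases CfsgLib.Fixity.AffineOf.orderOf_dvd p y with hy | hy
    · exact ⟨_, e1, Nat.lcm_dvd (hx.trans (Nat.dvd_lcm_left _ _)) (hy.trans (Nat.dvd_lcm_left _ _))⟩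
    · rw [hC2] at hy
      exact ⟨_, e2, Nat.lcm_dvd (hx.trans (Nat.dvd_lcm_left _ _)) (hy.trans (Nat.dvd_lcm_right _ _))⟩
    · rw [hC1] at hx
      exact ⟨_, e1, Nat.lcm_dvd (hx.trans (Nat.dvd_lcm_right _ _)) (hy.trans (Nat.dvd_lcm_left _ _))⟩
    · rw [hC1] at hx; rw [hC2] at hy
      exact ⟨_, e3, Nat.lcm_dvd (hx.trans (Nat.dvd_lcm_left _ _)) (hy.trans (Nat.dvd_lcm_right _ _))⟩
  · obtain ⟨⟨x, hx⟩, y, hy⟩ := CfsgLib.Fixity.AffineOf.exists_orderOf (K := K1) (C := C1) p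
    obtain ⟨⟨z, hz⟩, w, hw⟩ := CfsgLib.Fixity.AffineOf.exists_orderOf (K := K2) (C := C2) p
    rw [hC1] at hy; rw [hC2] at hw
    rintro m (rfl | rfl | rfl)
    · exact ⟨(y, z), by rw [Prod.orderOf, hy, hz, Nat.lcm_comm]⟩
    · exact ⟨(x, w), by rw [Prod.orderOf, hx, hw]⟩
    · exact ⟨(y, w), by rw [Prod.orderOf, hy, hw]⟩

end Cfsg.Agent.S3532
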