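import Cfsg.Statements.S3548
import Cfsg.Agent.Lib.Fixity.Count

set_option autoImplicit false
open Cfsg

namespace Cfsg.Agent.S3548

/-- Let G act faithfully and transitively on a finite set with n ≥ 2 points and let D be the subgroup generated by the derangements. Then the index of D in G divides n − 1, and if it equals n − 1 then n is a prime power. -/
theorem result {G Ω : Type*} [Group G] [Finite G] [MulAction G Ω] [FaithfulSMul G Ω] [Finite Ω]
    (htrans : MulAction.IsPretransitive G Ω) (hΩ : 2 ≤ Nat.card Ω) :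
    (Subgroup.closure {g : G | ∀ ω : Ω, g • ω ≠ ω}).index ∣ Nat.card Ω - 1 ∧
    ((Subgroup.closure {g : G | ∀ ω : Ω, g • ω ≠ ω}).index = Nat.card Ω - 1 → IsPrimePow (Nat.card Ω)) := by
  classical
  set D := Subgroup.closure {g : G | ∀ ω : Ω, g • ω ≠ ω} with hDdef
  have hD : ∀ g : G, (∀ ω : Ω, g • ω ≠ ω) → g ∈ D := fun g hg => Subgroup.subset_closure hg
  haveI : D.Normal := CfsgLib.Fixity.closure_derangements_normal
  refine ⟨CfsgLib.Fixity.index_dvd_pred htrans D hD, fun heq => ?_⟩
  obtain ⟨hDt, h2⟩ := CfsgLib.Fixity.transitive_and_fix_eq_one htrans D hD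
  haveI : Nonempty Ω := (Nat.card_pos_iff.1 (by omega)).1
  obtain ⟨a⟩ := ‹Nonempty Ω›
  have htwo : ∀ g : G, ∀ x y : Ω, x ≠ y → g • x = x → g • y = y → g ∈ D := by
    intro g x y hxy hx hy
    by_contra hn
    have := @Subsingleton.elim _ (Nat.card_eq_one_iff_unique.1 (h2 g hn)).1
      (⟨x, hx⟩ : MulAction.fixedBy Ω g) ⟨y, hy⟩
    exact hxy (congrArg Subtype.val this)
  set H := MulAction.stabilizer G a
  have hidx : (D.subgroupOf H).index = D.index :=
    CfsgLib.Fixity.index_stabilizer_inf htrans D hD a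
  -- for every other point the two-point stabiliser is exactly `D ⊓ H`, and its orbit is everything else
  have hkey : ∀ b : Ω, b ≠ a → MulAction.stabilizer H b = D.subgroupOf H ∧
      MulAction.orbit H b = Set.univ \ {a} := by
    intro b hb
    have hle : MulAction.stabilizer H b ≤ D.subgroupOf H := by
      intro g hg
      rw [Subgroup.mem_subgroupOf]
      exact htwo g b a hb (MulAction.mem_stabilizer_iff.1 hg) g.2
    have hsub : MulAction.orbit H b ⊆ Set.univ \ {a} := by
      rintro _ ⟨g, rfl⟩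
      refine ⟨Set.mem_univ _, fun he => hb ?_⟩
      have : (g : G) • b = (g : G) • a := by rw [MulAction.mem_stabilizer_iff.1 g.2]; exact he
      exact smul_left_cancel _ this
    have hcard : (Set.univ \ {a} : Set Ω).ncard = Nat.card Ω - 1 := by
      rw [Set.ncard_diff_singleton_of_mem (Set.mem_univ a), Set.ncard_univ]
    have h3 := Subgroup.index_antitone hle
    have h4 := Set.ncard_le_ncard hsub
    rw [← MulAction.index_stabilizer, hcard, ← heq, ← hidx] at h4
    refine ⟨le_antisymm hle ?_, Set.eq_of_subset_of_ncard_le hsub ?_⟩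
    · intro g hg
      by_contra hn
      have := Subgroup.index_strictAnti (lt_of_le_of_ne hle fun he => hn (he ▸ hg))
      omega
    · rw [← MulAction.index_stabilizer, hcard, ← heq, ← hidx]; omega
  -- `D` is regular
  have hreg : ∀ d ∈ D, d • a = a → d = 1 := by
    intro d hd hda
    refine eq_of_smul_eq_smul (α := Ω) fun b => ?_
    rw [one_smul]
    by_cases hb : b = a
    · rw [hb, hda]
    · have : (⟨d, hda⟩ : H) ∈ MulAction.stabilizer H b := by
        rw [(hkey b hb).1, Subgroup.mem_subgroupOf]; exact hd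
      exact MulAction.mem_stabilizer_iff.1 this
  have hconj : ∀ x ∈ D, ∀ y ∈ D, x ≠ 1 → y ≠ 1 → orderOf x = orderOf y := by
    intro x hx y hy hx1 hy1
    have hxa : x • a ≠ a := fun h => hx1 (hreg x hx h)
    have : y • a ∈ MulAction.orbit H (x • a) := by
      rw [(hkey _ hxa).2]; exact ⟨Set.mem_univ _, fun h => hy1 (hreg y hy h)⟩
    obtain ⟨g, hg⟩ := this
    have hgi : (g : G)⁻¹ • a = a := inv_smul_eq_iff.2 (MulAction.mem_stabilizer_iff.1 g.2).symm
    have hy' : y = (g : G) * x * (g : G)⁻¹ := by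
      apply eq_of_inv_mul_eq_one
      refine hreg _ (mul_mem (inv_mem hy) (Subgroup.Normal.conj_mem ‹_› x hx g)) ?_
      rw [mul_smul, mul_smul, mul_smul, hgi]
      exact inv_smul_eq_iff.2 hg
    rw [hy', ← MulAut.conj_apply, MulEquiv.orderOf_eq]
  haveI := hDt
  have hcardD : Nat.card D = Nat.card Ω := by
    refine Nat.card_congr (Equiv.ofBijective (fun d : D => (d : G) • a) ⟨fun d e he => ?_, fun w => ?_⟩)
    · have := hreg _ (mul_mem (inv_mem e.2) d.2) (by
        simp only at he
        rw [mul_smul, he, inv_smul_smul])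
      exact Subtype.ext (inv_mul_eq_one.1 this).symm
    · obtain ⟨d, hd⟩ := MulAction.exists_smul_eq D a w
      exact ⟨d, hd⟩
  obtain ⟨p, hp, hpd⟩ := Nat.exists_prime_and_dvd (n := Nat.card D) (by omega)
  haveI := Fact.mk hp
  obtain ⟨x, hx⟩ := exists_prime_orderOf_dvd_card' p hpd
  have hx1 : (x : G) ≠ 1 := fun h => hp.ne_one (by rw [← hx, ← Subgroup.orderOf_coe, h, orderOf_one])
  have hPG : IsPGroup p D := fun y => by
    by_cases hy : (y : G) = 1
    · exact ⟨0, by rw [pow_zero, pow_one]; exact Subtype.ext hy⟩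
    · refine ⟨1, Subtype.ext ?_⟩
      rw [pow_one, Subgroup.coe_pow, ← hx, ← Subgroup.orderOf_coe, hconj _ x.2 _ y.2 hx1 hy]
      exact pow_orderOf_eq_one _
  obtain ⟨k, hk⟩ := hPG.exists_card_eq
  rw [← hcardD, hk]
  refine hp.isPrimePow.pow ?_
  rintro rfl
  rw [pow_zero] at hk
  omega

end Cfsg.Agent.S3548
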