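import Cfsg.Statements.S3549
import Cfsg.Agent.Lib.Fixity.Count

set_option autoImplicit false
open Cfsg
open scoped Pointwise

namespace Cfsg.Agent.S3549

/-- Let G act faithfully, transitively but imprimitively on a finite set with n points, and let D be the subgroup generated by the derangements. Then the index of D in G is at most √n − 1. -/
theorem result {G Ω : Type*} [Group G] [Finite G] [MulAction G Ω] [FaithfulSMul G Ω] [Finite Ω]
    (htrans : MulAction.IsPretransitive G Ω) (himp : ¬ MulAction.IsPreprimitive G Ω) :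
    ((Subgroup.closure {g : G | ∀ ω : Ω, g • ω ≠ ω}).index : ℝ) ≤ Real.sqrt (Nat.card Ω) - 1 := by
  classical
  set D := Subgroup.closure {g : G | ∀ ω : Ω, g • ω ≠ ω} with hDdef
  have hD : ∀ g : G, (∀ ω : Ω, g • ω ≠ ω) → g ∈ D := fun g hg => Subgroup.subset_closure hg
  haveI : D.Normal := CfsgLib.Fixity.closure_derangements_normal
  have hex : ∃ B : Set Ω, MulAction.IsBlock G B ∧ ¬ B.Subsingleton ∧ B ≠ Set.univ := by
    by_contra hc
    push Not at hc
    exact himp { toIsPretransitive := htrans
                 isTrivialBlock_of_isBlock := fun {B} hB => or_iff_not_imp_left.2 fun h => hc B hB (Set.not_subsingleton_iff.1 h) }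
  obtain ⟨B, hB, hns, hnu⟩ := hex
  obtain ⟨a, ha, b, hb, hab⟩ := Set.not_subsingleton_iff.1 hns
  have hB' : ∀ g : G, g • a = a → ∀ x ∈ B, g • x ∈ B := by
    intro g hg x hx
    have h1 : g • B = B := hB.smul_eq_of_mem ha (by rw [hg]; exact ha)
    rw [← h1]; exact Set.smul_mem_smul_set hx
  have h1 := CfsgLib.Fixity.index_dvd_card_diff htrans D hD a B hB'
  have hB2 : 2 ≤ B.ncard := (Set.one_lt_ncard_iff).2 ⟨a, b, ha, hb, hab⟩
  rw [Set.ncard_diff_singleton_of_mem ha] at h1
  have h2 : D.index ∣ Nat.card (MulAction.orbit G B) - 1 := by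
    refine CfsgLib.Fixity.index_dvd_pred inferInstance D fun g hg => hD g fun w hw => ?_
    obtain ⟨c, hc⟩ := MulAction.exists_smul_eq G a w
    refine hg ⟨c • B, MulAction.mem_orbit _ _⟩ (Subtype.ext ?_)
    show g • c • B = c • B
    exact (hB.translate c).smul_eq_of_mem (a := w) (hc ▸ Set.smul_mem_smul_set ha)
      (by rw [hw]; exact hc ▸ Set.smul_mem_smul_set ha)
  have hmul : B.ncard * Nat.card (MulAction.orbit G B) = Nat.card Ω := by
    rw [Nat.card_coe_set_eq]
    exact hB.ncard_block_mul_ncard_orbit_eq ⟨a, ha⟩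
  have hlt : B.ncard < Nat.card Ω := by
    rw [← Set.ncard_univ]
    exact Set.ncard_lt_ncard (Set.ssubset_univ_iff.2 hnu)
  generalize Nat.card (MulAction.orbit G B) = c at h2 hmul
  have hc2 : 2 ≤ c := by
    by_contra h
    interval_cases c <;> omega
  generalize B.ncard = k at h1 hB2 hmul hlt
  have hk1 : D.index + 1 ≤ k := by have := Nat.le_of_dvd (by omega) h1; omega
  have hc1 : D.index + 1 ≤ c := by have := Nat.le_of_dvd (by omega) h2; omega
  have hle : (D.index + 1) ^ 2 ≤ Nat.card Ω := by
    rw [← hmul, pow_two]; exact Nat.mul_le_mul hk1 hc1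
  rw [le_sub_iff_add_le]
  refine Real.le_sqrt_of_sq_le ?_
  exact_mod_cast hle

end Cfsg.Agent.S3549
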