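import Cfsg.Statements.S3560


set_option autoImplicit false
set_option linter.style.haveILetI false
open Cfsg

namespace Cfsg.Agent.S3560

/-- Permute the coordinates and then act on each coordinate. -/
def coordPerm {ι α : Type*} (s : Equiv.Perm ι) (π : ι → Equiv.Perm α) : Equiv.Perm (ι → α) where
  toFun w k := π k (w (s k))
  invFun w l := (π (s.symm l)).symm (w (s.symm l))
  left_inv w := by funext l; simp
  right_inv w := by funext k; simp

theorem hammingDist_coordPerm {ι α : Type*} [Fintype ι] [DecidableEq α] (s : Equiv.Perm ι)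
    (π : ι → Equiv.Perm α) (x y : ι → α) :
    hammingDist (coordPerm s π x) (coordPerm s π y) = hammingDist x y := by
  simp only [hammingDist, coordPerm, Equiv.coe_fn_mk, ne_eq, EmbeddingLike.apply_eq_iff_eq]
  exact Finset.card_bij' (fun k _ => s k) (fun l _ => s.symm l) (by simp) (by simp) (by simp)
    (by simp)

theorem exists_perm_two {α : Type*} [DecidableEq α] {a b c d : α} (hab : a ≠ b) (hcd : c ≠ d) :
    ∃ π : Equiv.Perm α, π a = c ∧ π b = d := by
  refine ⟨Equiv.swap (Equiv.swap a c b) d * Equiv.swap a c, ?_, ?_⟩
  · rw [Equiv.Perm.mul_apply, Equiv.swap_apply_left]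
    refine Equiv.swap_apply_of_ne_of_ne ?_ hcd
    intro h
    apply hab
    apply (Equiv.swap a c).injective
    rw [Equiv.swap_apply_left]
    exact h
  · rw [Equiv.Perm.mul_apply, Equiv.swap_apply_left]


/-- Let K be a finite group isomorphic to a direct product of r ≥ 2 groups all of the same order m ≥ 3. Then K is not a B-group: there is a primitive but not doubly transitive permutation group (on some finite set) containing a regular subgroup isomorphic to K. -/
theorem result {K : Type*} [Group K] [Finite K] {ι : Type*} [Fintype ι] (F : ι → Type*) [∀ i, Group (F i)]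
    (hr : 2 ≤ Fintype.card ι) (m : ℕ) (hm : 3 ≤ m) (hcard : ∀ i, Nat.card (F i) = m) (e : K ≃* (∀ i, F i)) :
    ∃ (n : ℕ) (G R : Subgroup (Equiv.Perm (Fin n))), R ≤ G ∧ Nonempty (↥R ≃* K) ∧
      MulAction.IsPretransitive ↥R (Fin n) ∧ (∀ a : Fin n, MulAction.stabilizer ↥R a = ⊥) ∧
      MulAction.IsPreprimitive ↥G (Fin n) ∧ ¬ MulAction.IsMultiplyPretransitive ↥G (Fin n) 2 := by
  classical
  haveI : ∀ i, Finite (F i) := fun i => Nat.finite_of_card_ne_zero (by rw [hcard i]; omega)
  let v : ∀ i, F i ≃ Fin m := fun i => (Finite.equivFin (F i)).trans (finCongr (hcard i))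
  set n := Nat.card (ι → Fin m)
  let u : Fin n ≃ (ι → Fin m) := (Finite.equivFin _).symm
  let P : Equiv.Perm (ι → Fin m) →* Equiv.Perm (Fin n) :=
    (Equiv.permCongrHom u.symm).toMonoidHom
  have hP : ∀ (σ : Equiv.Perm (ι → Fin m)) (a : Fin n), u (P σ a) = σ (u a) := fun σ a => by
    simp [P, Equiv.permCongrHom, Equiv.permCongr_apply]
  let G : Subgroup (Equiv.Perm (Fin n)) :=
    { carrier := {σ | ∀ a b, hammingDist (u (σ a)) (u (σ b)) = hammingDist (u a) (u b)}
      one_mem' := fun a b => rfl
      mul_mem' := fun {σ τ} hσ hτ a b => (hσ (τ a) (τ b)).trans (hτ a b)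
      inv_mem' := fun {σ} hσ a b => by
        have h := hσ (σ⁻¹ a) (σ⁻¹ b)
        simp only [← Equiv.Perm.mul_apply, mul_inv_cancel, Equiv.Perm.one_apply] at h
        exact h.symm }
  have hcoord : ∀ (s : Equiv.Perm ι) (π : ι → Equiv.Perm (Fin m)), P (coordPerm s π) ∈ G :=
    fun s π a b => by rw [hP, hP, hammingDist_coordPerm]
  let T : K →* Equiv.Perm (Fin n) := P.comp
    { toFun := fun k => coordPerm 1 (fun i => (v i).permCongr (Equiv.mulLeft (e k i)))
      map_one' := by
        ext w i
        simp [coordPerm, Equiv.permCongr_apply]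
      map_mul' := fun k l => by
        ext w i
        simp [coordPerm, Equiv.permCongr_apply] }
  have hT : ∀ k a i, u (T k a) i = v i (e k i * (v i).symm (u a i)) := fun k a i => by
    show u (P _ a) i = _
    rw [hP]
    simp [coordPerm, Equiv.permCongr_apply]
  have hsemi : ∀ k a, T k a = a → k = 1 := fun k a h => by
    apply e.injective
    funext i
    have h1 := hT k a i
    rw [h] at h1
    have h2 := congrArg (v i).symm h1
    rw [Equiv.symm_apply_apply] at h2
    rw [map_one, Pi.one_apply]
    exact mul_eq_right.1 h2.symm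
  have hn0 : 0 < n := Nat.card_pos_iff.2 ⟨⟨fun _ => ⟨0, by omega⟩⟩, inferInstance⟩
  have hTinj : Function.Injective T := fun k l h => by
    rw [← inv_mul_eq_one]
    refine hsemi _ ⟨0, hn0⟩ ?_
    rw [map_mul, map_inv, h, inv_mul_cancel]; rfl
  refine ⟨n, G, T.range, ?_, ⟨(MonoidHom.ofInjective hTinj).symm⟩, ⟨fun a b => ?_⟩, fun a => ?_,
    ?_, ?_⟩
  · rintro _ ⟨k, rfl⟩
    exact hcoord _ _
  · refine ⟨⟨T (e.symm fun i => (v i).symm (u b i) * ((v i).symm (u a i))⁻¹), _, rfl⟩, ?_⟩
    apply u.injective
    funext i
    show u (T _ a) i = _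
    rw [hT, MulEquiv.apply_symm_apply]
    simp [mul_assoc]
  · rw [Subgroup.eq_bot_iff_forall]
    rintro ⟨_, k, rfl⟩ h
    have h1 := hsemi k a h
    apply Subtype.ext
    show T k = 1
    rw [h1, map_one]
  · haveI : MulAction.IsPretransitive G (Fin n) := ⟨fun a b => by
      refine ⟨⟨_, hcoord 1 fun i => Equiv.swap (u a i) (u b i)⟩, ?_⟩
      apply u.injective
      show u (P _ a) = u b
      rw [hP]
      funext i
      simp [coordPerm]⟩
    refine { isTrivialBlock_of_isBlock := fun {B} hB => ?_ }
    by_cases hsub : B.Subsingleton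
    · exact Or.inl hsub
    refine Or.inr (Set.eq_univ_of_forall fun z0 => ?_)
    rw [Set.not_subsingleton_iff] at hsub
    obtain ⟨x, hx, y, hy, hxy⟩ := hsub
    have hmove : ∀ g : G, ∀ a ∈ B, g • a ∈ B → ∀ b ∈ B, g • b ∈ B := fun g a ha hga b hb => by
      have h := MulAction.isBlock_iff_smul_eq_of_nonempty.1 hB
        (g := g) ⟨g • a, Set.smul_mem_smul_set ha, hga⟩
      rw [← h]
      exact Set.smul_mem_smul_set hb
    -- two adjacent points in the block
    obtain ⟨i, hi⟩ : ∃ i, u x i ≠ u y i := by
      by_contra h
      push Not at h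
      exact hxy (u.injective (funext h))
    obtain ⟨c, hcx, hcy⟩ : ∃ c : Fin m, c ≠ u x i ∧ c ≠ u y i := by
      have h2 : ({u x i, u y i} : Finset (Fin m)).card < (Finset.univ : Finset (Fin m)).card := by
        rw [Finset.card_univ, Fintype.card_fin]
        exact Finset.card_le_two.trans_lt (by omega)
      obtain ⟨c, -, hc⟩ := Finset.exists_mem_notMem_of_card_lt_card h2
      rw [Finset.mem_insert, Finset.mem_singleton, not_or] at hc
      exact ⟨c, hc.1, hc.2⟩
    let g₁ : G := ⟨_, hcoord 1 fun k => if k = i then Equiv.swap (u y i) c else 1⟩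
    have hg₁x : g₁ • x = x := by
      apply u.injective
      show u (P _ x) = u x
      rw [hP]
      funext k
      by_cases hk : k = i
      · subst hk; simp [coordPerm, Equiv.swap_apply_of_ne_of_ne hi hcx.symm]
      · simp [coordPerm, hk]
    have hy' : g₁ • y ∈ B := hmove g₁ x hx (by rw [hg₁x]; exact hx) y hy
    have hy'u : u (g₁ • y) = Function.update (u y) i c := by
      show u (P _ y) = _
      rw [hP]
      funext k
      by_cases hk : k = i
      · subst hk; simp [coordPerm]
      · simp [coordPerm, hk]
    -- the block is closed under changing one coordinate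
    have hclosed : ∀ z ∈ B, ∀ j c', u.symm (Function.update (u z) j c') ∈ B := by
      intro z hz j c'
      by_cases hc' : c' = u z j
      · rw [hc', Function.update_eq_self, Equiv.symm_apply_apply]; exact hz
      obtain ⟨π, hπ1, hπ2⟩ := exists_perm_two hcy.symm (Ne.symm hc')
      let g : G := ⟨_, hcoord (Equiv.swap i j) fun k => if k = j then π else
        Equiv.swap (u y (Equiv.swap i j k)) (u z k)⟩
      have hg1 : g • y = z := by
        apply u.injective
        show u (P _ y) = u z
        rw [hP]
        funext k
        by_cases hk : k = j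
        · subst hk; simp [coordPerm, hπ1]
        · simp [coordPerm, hk]
      have hg2 : u (g • g₁ • y) = Function.update (u z) j c' := by
        show u (P _ (g₁ • y)) = _
        rw [hP, hy'u]
        funext k
        by_cases hk : k = j
        · subst hk; simp [coordPerm, hπ2]
        · have hne : Equiv.swap i j k ≠ i := fun h => hk (by
            have := congrArg (Equiv.swap i j) h
            rwa [Equiv.swap_apply_self, Equiv.swap_apply_left] at this)
          simp [coordPerm, hk, hne]
      have := hmove g y hy (by rw [hg1]; exact hz) _ hy'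
      rwa [← hg2, Equiv.symm_apply_apply]
    suffices h : ∀ S : Finset ι, u.symm (fun k => if k ∈ S then u z0 k else u x k) ∈ B by
      simpa using h Finset.univ
    intro S
    induction S using Finset.induction with
    | empty => simpa using hx
    | @insert j S hj ih =>
      have := hclosed _ ih j (u z0 j)
      rw [Equiv.apply_symm_apply] at this
      convert this using 2
      funext k
      by_cases hk : k = j
      · subst hk; simp
      · simp [hk]
  · intro h
    rw [MulAction.is_two_pretransitive_iff] at h
    obtain ⟨i, j, hij⟩ := Fintype.exists_pair_of_one_lt_card (α := ι) (by omega)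
    let o : ι → Fin m := fun _ => ⟨0, by omega⟩
    let l : Fin m := ⟨1, by omega⟩
    have hol : ∀ k, o k ≠ l := fun k h => absurd (congrArg Fin.val h) (by simp [o, l])
    obtain ⟨g, hg1, hg2⟩ := h (a := u.symm o) (b := u.symm (Function.update o i l))
      (c := u.symm o) (d := u.symm (Function.update (Function.update o i l) j l))
      (fun h => hol i (by simpa using congrFun (u.symm.injective h) i))
      (fun h => hol j (by simpa using congrFun (u.symm.injective h) j))
    have h1 := g.2 (u.symm o) (u.symm (Function.update o i l))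
    rw [Subgroup.smul_def, Equiv.Perm.smul_def] at hg1 hg2
    rw [hg1, hg2, Equiv.apply_symm_apply, Equiv.apply_symm_apply, Equiv.apply_symm_apply] at h1
    have h2 : hammingDist o (Function.update (Function.update o i l) j l) = 2 := by
      rw [hammingDist, show Finset.univ.filter (fun k => o k ≠ Function.update (Function.update o i l) j l k)
        = {i, j} from ?_, Finset.card_pair hij]
      ext k
      by_cases hk : k = j
      · subst hk; simp [hol]
      by_cases hk' : k = i
      · subst hk'; simp [hk, hol]
      · simp [hk, hk']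
    have h3 : hammingDist o (Function.update o i l) = 1 := by
      rw [hammingDist, show Finset.univ.filter (fun k => o k ≠ Function.update o i l k) = {i} from ?_,
        Finset.card_singleton]
      ext k
      by_cases hk : k = i
      · subst hk; simp [hol]
      · simp [hk]
    omega

end Cfsg.Agent.S3560
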