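import Cfsg.Statements.S3573


set_option autoImplicit false
set_option linter.style.haveILetI false
open Cfsg

namespace Cfsg.Agent.S3573

theorem fixed_kset_iff (n k r : ℕ) (hr : r.Prime) (hrn : r ≤ n) (hkn : k ≤ n) :
    (∀ σ : Equiv.Perm (Fin n), orderOf σ = r → ∃ s : Finset (Fin n), s.card = k ∧ s.image σ = s) ↔
      k % r ≤ n % r := by
  classical
  haveI : Fact r.Prime := ⟨hr⟩
  constructor
  · intro h
    obtain ⟨σ, hσ⟩ := (Equiv.Perm.exists_with_cycleType_iff (Fin n)
      (m := Multiset.replicate (n / r) r)).2 ⟨by simp [Nat.div_mul_le_self],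
        fun a ha => (Multiset.eq_of_mem_replicate ha) ▸ hr.two_le⟩
    have hk : 0 < n / r := Nat.div_pos hrn hr.pos
    have ho : orderOf σ = r := by
      rw [← Equiv.Perm.lcm_cycleType, hσ]
      refine Nat.dvd_antisymm (Multiset.lcm_dvd.2 fun a ha => ?_) (Multiset.dvd_lcm ?_)
      · rw [Multiset.eq_of_mem_replicate ha]
      · exact Multiset.mem_replicate.2 ⟨by omega, rfl⟩
    obtain ⟨s, hsc, hs⟩ := h σ ho
    have hmem : ∀ x, σ x ∈ s ↔ x ∈ s := fun x => by
      constructor
      · intro hx
        rw [← hs, Finset.mem_image] at hx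
        obtain ⟨y, hy, hyx⟩ := hx
        exact σ.injective hyx ▸ hy
      · intro hx
        rw [← hs]
        exact Finset.mem_image_of_mem _ hx
    let f : Function.End s := fun x => ⟨σ x, (hmem x).2 x.2⟩
    have hf : f ^ r ^ 1 = 1 := by
      have key : ∀ (j : ℕ) (x : s), (((f ^ j) x : s) : Fin n) = (σ ^ j) x := by
        intro j
        induction j with
        | zero => intro x; rfl
        | succ j ih =>
          intro x
          rw [pow_succ', pow_succ']
          show σ _ = σ _
          rw [ih]
      funext x
      apply Subtype.ext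
      rw [key, pow_one, ← ho, pow_orderOf_eq_one]
      rfl
    have h1 := Equiv.Perm.card_fixedPoints_modEq hf
    rw [Fintype.card_coe, hsc] at h1
    have h2 : Fintype.card f.fixedPoints ≤ n % r := by
      have h3 : (σ.supportᶜ).card = n % r := by
        rw [Finset.card_compl, ← Equiv.Perm.sum_cycleType, hσ, Multiset.sum_replicate, smul_eq_mul,
          Fintype.card_fin]
        have := Nat.div_add_mod n r
        rw [mul_comm] at this
        omega
      rw [← h3, ← Fintype.card_coe]
      refine Fintype.card_le_of_injective (fun x => ⟨((x : s) : Fin n), ?_⟩) fun a b hab => ?_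
      · rw [Finset.mem_compl, Equiv.Perm.notMem_support]
        exact congrArg Subtype.val x.2
      · exact Subtype.ext (Subtype.ext (Subtype.mk.inj hab))
    calc k % r = Fintype.card f.fixedPoints % r := h1
      _ = Fintype.card f.fixedPoints := Nat.mod_eq_of_lt (h2.trans_lt (Nat.mod_lt _ hr.pos))
      _ ≤ n % r := h2
  · intro h σ hσ
    obtain ⟨c, hc⟩ := Equiv.Perm.cycleType_prime_order (hσ ▸ hr : (orderOf σ).Prime)
    rw [hσ] at hc
    have hsupp : σ.support.card = (c + 1) * r := by
      rw [← Equiv.Perm.sum_cycleType, hc, Multiset.sum_replicate, smul_eq_mul]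
    have hcf : σ.cycleFactorsFinset.card = c + 1 := by
      have := congrArg Multiset.card hc
      rwa [Equiv.Perm.cycleType_def, Multiset.card_map, Multiset.card_replicate] at this
    have hlen : ∀ τ ∈ σ.cycleFactorsFinset, τ.support.card = r := fun τ hτ => by
      have hmem : τ.support.card ∈ σ.cycleType := by
        rw [Equiv.Perm.cycleType_def]
        exact Multiset.mem_map_of_mem _ hτ
      rw [hc] at hmem
      exact Multiset.eq_of_mem_replicate hmem
    set a := min (c + 1) (k / r) with ha
    obtain ⟨C, hC, hCcard⟩ := Finset.exists_subset_card_eq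
      (s := σ.cycleFactorsFinset) (n := a) (by rw [hcf]; exact min_le_left _ _)
    set A := C.biUnion fun τ => τ.support with hA
    have hAcard : A.card = a * r := by
      rw [hA, Finset.card_biUnion, Finset.sum_congr rfl fun τ hτ => hlen τ (hC hτ),
        Finset.sum_const, smul_eq_mul, hCcard]
      intro τ hτ τ' hτ' hne
      exact (Equiv.Perm.cycleFactorsFinset_pairwise_disjoint σ (hC hτ) (hC hτ') hne).disjoint_support
    have hAsub : A ⊆ σ.support := by
      intro x hx
      rw [hA, Finset.mem_biUnion] at hx
      obtain ⟨τ, hτ, hx⟩ := hx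
      exact Equiv.Perm.mem_cycleFactorsFinset_support_le (hC hτ) hx
    have hdm := Nat.div_add_mod k r
    have hdn := Nat.div_add_mod n r
    have hcn : (c + 1) * r ≤ n := by
      rw [← hsupp]; exact (Finset.card_le_univ _).trans (Fintype.card_fin n).le
    have hrest : k - a * r ≤ (σ.supportᶜ).card ∧ a * r ≤ k := by
      rw [Finset.card_compl, hsupp, Fintype.card_fin]
      rcases le_total (k / r) (c + 1) with hle | hle
      · rw [ha, min_eq_right hle]
        have h4 : (c + 1) * r ≤ n / r * r :=
          Nat.mul_le_mul_right r ((Nat.le_div_iff_mul_le hr.pos).2 hcn)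
        rw [mul_comm] at hdm hdn
        omega
      · rw [ha, min_eq_left hle]
        have h4 : (c + 1) * r ≤ k / r * r := Nat.mul_le_mul_right r hle
        rw [mul_comm] at hdm
        omega
    obtain ⟨B, hB, hBcard⟩ := Finset.exists_subset_card_eq hrest.1
    refine ⟨A ∪ B, ?_, ?_⟩
    · rw [Finset.card_union_of_disjoint, hAcard, hBcard]
      · omega
      · exact Finset.disjoint_left.2 fun x hx hx' => Finset.mem_compl.1 (hB hx') (hAsub hx)
    · refine Finset.eq_of_subset_of_card_le (fun y hy => ?_)
        (le_of_eq (Finset.card_image_of_injective _ σ.injective).symm)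
      rw [Finset.mem_image] at hy
      obtain ⟨x, hx, rfl⟩ := hy
      rw [Finset.mem_union] at hx ⊢
      rcases hx with hx | hx
      · left
        rw [hA, Finset.mem_biUnion] at hx ⊢
        obtain ⟨τ, hτ, hx⟩ := hx
        refine ⟨τ, hτ, ?_⟩
        rw [← (Equiv.Perm.mem_cycleFactorsFinset_iff.1 (hC hτ)).2 x hx, Equiv.Perm.apply_mem_support]
        exact hx
      · right
        rw [Equiv.Perm.notMem_support.1 (Finset.mem_compl.1 (hB hx))]
        exact hx


/-- Let 1 ≤ k with 2k < n and consider the symmetric group of degree n acting on the k-subsets of an n-set. Let r be a prime dividing the number C(n,k) of k-subsets. If r is odd, then every permutation of order r fixes some k-subset if and only if r ≤ k and the remainder of k modulo r is at most the remainder of n modulo r. If r = 2, then every involution fixes some k-subset if and only if k is even or n is odd. -/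
theorem result (n k : ℕ) (hk : 1 ≤ k) (hkn : 2 * k < n) (r : ℕ) (hr : r.Prime) (hrd : r ∣ Nat.choose n k) :
    (r ≠ 2 → ((∀ σ : Equiv.Perm (Fin n), orderOf σ = r → ∃ s : Finset (Fin n), s.card = k ∧ s.image σ = s) ↔
      (r ≤ k ∧ k % r ≤ n % r))) ∧
    (r = 2 → ((∀ σ : Equiv.Perm (Fin n), orderOf σ = 2 → ∃ s : Finset (Fin n), s.card = k ∧ s.image σ = s) ↔
      (Even k ∨ Odd n))) := by
  have hrn : r ≤ n := by
    by_contra h
    push Not at h
    have h1 := (Nat.Prime.dvd_factorial hr (n := n)).1 (by
      rw [← Nat.choose_mul_factorial_mul_factorial (show k ≤ n by omega)]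
      exact Dvd.dvd.mul_right (Dvd.dvd.mul_right hrd _) _)
    omega
  refine ⟨fun _ => ?_, fun h2 => ?_⟩
  · rw [fixed_kset_iff n k r hr hrn (by omega)]
    refine ⟨fun h => ⟨?_, h⟩, fun h => h.2⟩
    by_contra hlt
    push Not at hlt
    haveI : Fact r.Prime := ⟨hr⟩
    have h1 : n.choose k ≡ (n % r).choose (k % r) * (n / r).choose (k / r) [MOD r] :=
      Choose.choose_modEq_choose_mod_mul_choose_div_nat
    rw [Nat.mod_eq_of_lt hlt] at h1 h
    rw [Nat.div_eq_of_lt hlt, Nat.choose_zero_right, mul_one] at h1
    have h3 : r ∣ (n % r).choose k := by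
      rw [← Nat.modEq_zero_iff_dvd] at hrd ⊢
      exact h1.symm.trans hrd
    have h4 : r ∣ (n % r).factorial := by
      rw [← Nat.choose_mul_factorial_mul_factorial h]
      exact Dvd.dvd.mul_right (Dvd.dvd.mul_right h3 _) _
    have := (Nat.Prime.dvd_factorial hr).1 h4
    have := Nat.mod_lt n hr.pos
    omega
  · subst h2
    rw [fixed_kset_iff n k 2 hr hrn (by omega), Nat.even_iff, Nat.odd_iff]
    omega

end Cfsg.Agent.S3573
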