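import Cfsg.Statements.S3575


set_option autoImplicit false
set_option linter.style.haveILetI false
open Cfsg

namespace Cfsg.Agent.S3575

open Finset in
theorem cycleType_of_pow_eq_one {α : Type*} [Fintype α] [DecidableEq α] {σ : Equiv.Perm α} {r : ℕ}
    (hr : r.Prime) (h : σ ^ r = 1) :
    σ.cycleType = Multiset.replicate ((Fintype.card α - (σ.supportᶜ).card) / r) r := by
  have hall : ∀ x ∈ σ.cycleType, x = r := fun x hx => by
    have h2 := Equiv.Perm.two_le_of_mem_cycleType hx
    rcases (Nat.dvd_prime hr).1 ((Equiv.Perm.dvd_of_mem_cycleType hx).trans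
      (orderOf_dvd_of_pow_eq_one h)) with h1 | h1 <;> omega
  have hrep := Multiset.eq_replicate_card.2 hall
  have hsum := Equiv.Perm.sum_cycleType σ
  rw [hrep, Multiset.sum_replicate, smul_eq_mul] at hsum
  conv_lhs => rw [hrep]
  congr 1
  rw [Finset.card_compl, Nat.sub_sub_self (Finset.card_le_univ _), ← hsum,
    Nat.mul_div_cancel _ hr.pos]

theorem exists_bounded_sum {ι : Type*} (s : Finset ι) (q : ℕ) :
    ∀ T, T ≤ s.card * q → ∃ t : ι → ℕ, (∀ i, t i ≤ q) ∧ ∑ i ∈ s, t i = T := by
  classical
  induction s using Finset.induction with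
  | empty => intro T hT; exact ⟨fun _ => 0, by simp, by simp at hT; simp [hT]⟩
  | @insert i s hi ih =>
    intro T hT
    rw [Finset.card_insert_of_notMem hi, Nat.succ_mul] at hT
    obtain ⟨t, ht, hts⟩ := ih (T - min T q) (by omega)
    refine ⟨Function.update t i (min T q), fun j => ?_, ?_⟩
    · by_cases hj : j = i
      · subst hj; simp
      · simp [hj, ht j]
    · rw [Finset.sum_insert hi, Function.update_self,
        Finset.sum_congr rfl fun j hj => Function.update_of_ne (ne_of_mem_of_not_mem hj hi) _ t, hts]
      omega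

theorem fixes_iff (a b r : ℕ) (hr : r.Prime) (ha : 0 < a) (σ : Equiv.Perm (Fin (a * b)))
    (hσ : σ ^ r = 1) :
    (∃ f : Fin (a * b) → Fin b, (∀ j : Fin b, Nat.card {x : Fin (a * b) // f x = j} = a) ∧
        ∃ π : Equiv.Perm (Fin b), ∀ x : Fin (a * b), f (σ x) = π (f x)) ↔
      ∃ m ≤ b, m % r = b % r ∧ m * (a % r) ≤ (σ.supportᶜ).card ∧ (σ.supportᶜ).card ≤ m * a := by
  classical
  haveI : Fact r.Prime := ⟨hr⟩
  constructor
  · rintro ⟨f, hf, π, hπ⟩
    have hpow : ∀ (i : ℕ) (x), f ((σ ^ i) x) = (π ^ i) (f x) := by
      intro i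
      induction i with
      | zero => intro x; rfl
      | succ i ih => intro x; rw [pow_succ', pow_succ', Equiv.Perm.mul_apply, Equiv.Perm.mul_apply, hπ, ih]
    have hfs : Function.Surjective f := fun j => by
      have : Nonempty {x : Fin (a * b) // f x = j} := (Nat.card_pos_iff.1 (by rw [hf j]; exact ha)).1
      obtain ⟨x, hx⟩ := this
      exact ⟨x, hx⟩
    have hπr : π ^ r = 1 := Equiv.ext fun j => by
      obtain ⟨x, rfl⟩ := hfs j
      rw [← hpow, hσ]; rfl
    set Fx : Finset (Fin b) := π.supportᶜ
    have hmaps : ∀ x ∈ σ.supportᶜ, f x ∈ Fx := fun x hx => by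
      rw [Finset.mem_compl, Equiv.Perm.notMem_support] at hx ⊢
      rw [← hπ, hx]
    have hfib : ∀ j, (Finset.univ.filter fun x => f x = j).card = a := fun j => by
      rw [← Fintype.card_subtype, ← Nat.card_eq_fintype_card, hf]
    refine ⟨Fx.card, (Finset.card_le_univ _).trans (Fintype.card_fin b).le, ?_, ?_, ?_⟩
    · exact (Equiv.Perm.card_compl_support_modEq (p := r) (n := 1) (by rw [pow_one]; exact hπr)).trans
        (by rw [Fintype.card_fin])
    · rw [Finset.card_eq_sum_card_fiberwise hmaps]
      refine Finset.card_nsmul_le_sum _ _ _ fun j hj => ?_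
      rw [Finset.mem_compl, Equiv.Perm.notMem_support] at hj
      let τ : Equiv.Perm {x : Fin (a * b) // f x = j} := σ.subtypePerm fun x => by
        rw [hπ]
        constructor
        · intro h; exact π.injective (h.trans hj.symm)
        · intro h; rw [h, hj]
      have hτ : τ ^ r = 1 := by
        rw [Equiv.Perm.subtypePerm_pow]
        ext x
        simp [hσ]
      have h1 := Equiv.Perm.card_compl_support_modEq (p := r) (n := 1) (σ := τ)
        (by rw [pow_one]; exact hτ)
      have h2 : (τ.supportᶜ).card = (σ.supportᶜ.filter fun x => f x = j).card := by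
        refine Finset.card_bij' (fun x _ => (x : Fin (a * b))) (fun x hx => ⟨x, (Finset.mem_filter.1 hx).2⟩)
          ?_ ?_ ?_ ?_
        · intro x hx
          rw [Finset.mem_compl, Equiv.Perm.notMem_support] at hx
          rw [Finset.mem_filter, Finset.mem_compl, Equiv.Perm.notMem_support]
          exact ⟨congrArg Subtype.val hx, x.2⟩
        · intro x hx
          rw [Finset.mem_filter, Finset.mem_compl, Equiv.Perm.notMem_support] at hx
          rw [Finset.mem_compl, Equiv.Perm.notMem_support]
          exact Subtype.ext hx.1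
        · intro x _; rfl
        · intro x _; rfl
      rw [h2, Fintype.card_subtype, hfib] at h1
      rw [← h1]
      exact Nat.mod_le _ _
    · rw [Finset.card_eq_sum_card_fiberwise hmaps]
      refine Finset.sum_le_card_nsmul _ _ _ fun j _ => ?_
      refine le_trans ?_ (hfib j).le
      exact Finset.card_le_card (Finset.filter_subset_filter _ (Finset.subset_univ _))
  · rintro ⟨m, hmb, hmr, hlo, hhi⟩
    set F := (σ.supportᶜ).card with hF
    set l := a % r
    have hl := Nat.div_add_mod a r
    obtain ⟨J, hJ⟩ : r ∣ b - m := (Nat.modEq_iff_dvd' hmb).1 hmr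
    have hFmod : F % r = (a * b) % r := by
      have := Equiv.Perm.card_compl_support_modEq (p := r) (n := 1) (σ := σ) (by rw [pow_one]; exact hσ)
      rwa [Fintype.card_fin] at this
    obtain ⟨T, hT⟩ : r ∣ F - m * l := by
      refine (Nat.modEq_iff_dvd' hlo).1 ?_
      show m * l % r = F % r
      rw [hFmod, Nat.mul_mod, hmr, mul_comm a b, Nat.mul_mod b a, Nat.mod_mod]
    obtain ⟨P, hPt⟩ := (Equiv.Perm.exists_with_cycleType_iff (Fin b)
      (m := Multiset.replicate J r)).2 ⟨by
        rw [Multiset.sum_replicate, smul_eq_mul, Fintype.card_fin, mul_comm, ← hJ]; omega,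
        fun x hx => (Multiset.eq_of_mem_replicate hx) ▸ hr.two_le⟩
    have hPr : P ^ r = 1 := by
      rw [← orderOf_dvd_iff_pow_eq_one, ← Equiv.Perm.lcm_cycleType, hPt, Multiset.lcm_dvd]
      exact fun x hx => (Multiset.eq_of_mem_replicate hx) ▸ dvd_rfl
    have hPfix : (P.supportᶜ).card = m := by
      rw [Finset.card_compl, ← Equiv.Perm.sum_cycleType, hPt, Multiset.sum_replicate, smul_eq_mul,
        Fintype.card_fin, mul_comm, ← hJ]
      omega
    obtain ⟨t, htq, hts⟩ := exists_bounded_sum P.supportᶜ (a / r) T (by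
      rw [hPfix]
      refine Nat.le_of_mul_le_mul_left ?_ hr.pos
      rw [← hT]
      calc F - m * l ≤ m * a - m * l := by omega
        _ = r * (m * (a / r)) := by rw [← Nat.mul_sub, show a - l = r * (a / r) by omega]; ring)
    have hρ : ∀ i : Fin b, ∃ ρ : Equiv.Perm (Fin a), ρ ^ r = 1 ∧ (P i ≠ i → ρ = 1) ∧
        (P i = i → (ρ.supportᶜ).card = l + r * t i) := by
      intro i
      by_cases hi : P i = i
      · obtain ⟨ρ, hρt⟩ := (Equiv.Perm.exists_with_cycleType_iff (Fin a)
          (m := Multiset.replicate (a / r - t i) r)).2 ⟨by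
            rw [Multiset.sum_replicate, smul_eq_mul, Fintype.card_fin, Nat.sub_mul]
            have := Nat.div_mul_le_self a r
            omega,
            fun x hx => (Multiset.eq_of_mem_replicate hx) ▸ hr.two_le⟩
        refine ⟨ρ, ?_, fun h => absurd hi h, fun _ => ?_⟩
        · rw [← orderOf_dvd_iff_pow_eq_one, ← Equiv.Perm.lcm_cycleType, hρt, Multiset.lcm_dvd]
          exact fun x hx => (Multiset.eq_of_mem_replicate hx) ▸ dvd_rfl
        · rw [Finset.card_compl, ← Equiv.Perm.sum_cycleType, hρt, Multiset.sum_replicate, smul_eq_mul,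
            Fintype.card_fin, Nat.sub_mul, mul_comm (t i) r, mul_comm (a / r) r]
          have := Nat.mul_le_mul_left r (htq i)
          omega
      · exact ⟨1, one_pow _, fun _ => rfl, fun h => absurd h hi⟩
    choose ρ hρr hρ1 hρfix using hρ
    let τ0 : Equiv.Perm (Fin a × Fin b) :=
      { toFun := fun x => (ρ x.2 x.1, P x.2)
        invFun := fun x => ((ρ (P.symm x.2)).symm x.1, P.symm x.2)
        left_inv := fun x => by simp
        right_inv := fun x => by simp }
    have hτpow : ∀ (i : ℕ) (x : Fin a × Fin b), (τ0 ^ i) x = ((ρ x.2 ^ i) x.1, (P ^ i) x.2) := by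
      intro i
      induction i with
      | zero => intro x; rfl
      | succ i ih =>
        intro x
        rw [pow_succ', Equiv.Perm.mul_apply, ih]
        show (ρ ((P ^ i) x.2) ((ρ x.2 ^ i) x.1), P ((P ^ i) x.2)) = _
        refine Prod.ext ?_ (by simp [pow_succ'])
        by_cases h : P x.2 = x.2
        · rw [Equiv.Perm.pow_apply_eq_self_of_apply_eq_self h, pow_succ', Equiv.Perm.mul_apply]
        · rw [hρ1 _ h, hρ1 _ fun h' => h ?_]
          · simp
          · apply (P ^ i).injective
            rw [← Equiv.Perm.mul_apply, ← pow_succ, pow_succ', Equiv.Perm.mul_apply]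
            exact h'
    let e : Fin a × Fin b ≃ Fin (a * b) := finProdFinEquiv
    set τ : Equiv.Perm (Fin (a * b)) := e.permCongr τ0
    have hτr : τ ^ r = 1 := by
      have : τ0 ^ r = 1 := Equiv.ext fun x => by rw [hτpow, hρr, hPr]; rfl
      show (e.permCongrHom τ0) ^ r = 1
      rw [← map_pow, this, map_one]
    have hτfix : (τ.supportᶜ).card = F := by
      have h1 : (τ.supportᶜ).card = (P.supportᶜ.sigma fun i => (ρ i).supportᶜ).card := by
        refine (Finset.card_bij' (fun y _ => (⟨(e.symm y).2, (e.symm y).1⟩ : Σ _ : Fin b, Fin a))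
          (fun z _ => e (z.2, z.1)) ?_ ?_ ?_ ?_)
        · intro y hy
          rw [Finset.mem_compl, Equiv.Perm.notMem_support] at hy
          have h2 : τ0 (e.symm y) = e.symm y := by
            have := congrArg e.symm hy
            simpa [τ, Equiv.permCongr_apply] using this
          rw [Finset.mem_sigma, Finset.mem_compl, Equiv.Perm.notMem_support, Finset.mem_compl,
            Equiv.Perm.notMem_support]
          exact ⟨congrArg Prod.snd h2, congrArg Prod.fst h2⟩
        · intro z hz
          rw [Finset.mem_sigma, Finset.mem_compl, Equiv.Perm.notMem_support, Finset.mem_compl,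
            Equiv.Perm.notMem_support] at hz
          rw [Finset.mem_compl, Equiv.Perm.notMem_support]
          show e.permCongr τ0 (e (z.2, z.1)) = _
          rw [Equiv.permCongr_apply, Equiv.symm_apply_apply]
          show e (ρ z.1 z.2, P z.1) = _
          rw [hz.1, hz.2]
        · intro y _; simp
        · intro z _; simp
      rw [h1, Finset.card_sigma, Finset.sum_congr rfl fun i hi => hρfix i (by
        rw [Finset.mem_compl, Equiv.Perm.notMem_support] at hi; exact hi),
        Finset.sum_add_distrib, ← Finset.mul_sum, hts, Finset.sum_const, smul_eq_mul, hPfix]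
      omega
    obtain ⟨u, hu⟩ := isConj_iff.1 (Equiv.Perm.isConj_iff_cycleType_eq.2 (show τ.cycleType = σ.cycleType by
      rw [cycleType_of_pow_eq_one hr hτr, cycleType_of_pow_eq_one hr hσ, hτfix]))
    refine ⟨fun y => (e.symm (u.symm y)).2, fun j => ?_, P, fun y => ?_⟩
    · rw [Nat.card_congr (show {x : Fin (a * b) // (e.symm (u.symm x)).2 = j} ≃ Fin a from
        { toFun := fun x => (e.symm (u.symm x.1)).1
          invFun := fun i => ⟨u (e (i, j)), by simp⟩
          left_inv := fun x => Subtype.ext (by
            have h : ((e.symm (u.symm x.1)).1, j) = e.symm (u.symm x.1) := Prod.ext rfl x.2.symm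
            show u (e _) = x.1
            rw [h, Equiv.apply_symm_apply, Equiv.apply_symm_apply])
          right_inv := fun i => by simp }), Nat.card_fin]
    · rw [← hu]
      simp only [Equiv.Perm.mul_apply, Equiv.Perm.inv_def, Equiv.symm_apply_apply]
      show (e.symm (e.permCongr τ0 (u.symm y))).2 = _
      rw [Equiv.permCongr_apply, Equiv.symm_apply_apply]
      rfl

theorem arith_iff (a b r : ℕ) (hr : r.Prime) (ha : 2 ≤ a) (hb : 2 ≤ b) (hrab : r ≤ a * b) :
    (∀ c, 0 < c → c * r ≤ a * b →
      ∃ m ≤ b, m % r = b % r ∧ m * (a % r) ≤ a * b - c * r ∧ a * b - c * r ≤ m * a) ↔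
      (r ≤ a ∧ (a % r = 0 ∨ (b % r = 0 ∧ a % r = 1) ∨
        (a % r ≠ 0 ∧ b % r ≠ 0 ∧ (b % r) * (a % r) < r ∧ (b < r ∨ (b % r + r) * (a % r) ≤ (b % r) * a + r)))) := by
  obtain ⟨q, l, hl, rfl⟩ : ∃ q l, l < r ∧ a = q * r + l :=
    ⟨a / r, a % r, Nat.mod_lt _ hr.pos, (Nat.div_add_mod' a r).symm⟩
  obtain ⟨j, k, hk, rfl⟩ : ∃ j k, k < r ∧ b = j * r + k :=
    ⟨b / r, b % r, Nat.mod_lt _ hr.pos, (Nat.div_add_mod' b r).symm⟩
  have hkm : (j * r + k) % r = k := by rw [Nat.mul_add_mod_self_right]; exact Nat.mod_eq_of_lt hk
  have hlm : (q * r + l) % r = l := by rw [Nat.mul_add_mod_self_right]; exact Nat.mod_eq_of_lt hl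
  rw [hkm, hlm]
  have hab : (q * r + l) * (j * r + k) = (q * (j * r + k) + l * j) * r + k * l := by ring
  have hr2 := hr.two_le
  constructor
  · intro h
    have hra : r ≤ q * r + l := by
      by_contra hlt
      have hq : q = 0 := by
        rcases Nat.eq_zero_or_pos q with h0 | h0
        · exact h0
        · exfalso; have := Nat.le_mul_of_pos_left r h0; omega
      subst hq
      obtain ⟨m, hmb, hmr, h1, h2⟩ := h 1 one_pos (by simpa using hrab)
      simp only [Nat.zero_mul, Nat.zero_add, one_mul] at h1 h2 hrab ha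
      obtain ⟨i, hi⟩ := (Nat.modEq_iff_dvd' hmb).1 (hmr.trans hkm.symm)
      have h3 : j * r + k = m + r * i := by omega
      rw [h3] at h1 h2 hrab
      have h4 : l * (r * i) = r := by
        have e : l * (m + r * i) = m * l + l * (r * i) := by ring
        omega
      rcases Nat.eq_zero_or_pos i with h0 | h0
      · subst h0; simp at h4; omega
      · have : 2 * r ≤ l * (r * i) := Nat.mul_le_mul ha (Nat.le_mul_of_pos_right r h0)
        omega
    refine ⟨hra, ?_⟩
    by_cases hl0 : l = 0
    · exact Or.inl hl0
    right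
    by_cases hk0 : k = 0
    · left
      refine ⟨hk0, ?_⟩
      subst hk0
      have hj : 0 < j := Nat.pos_of_ne_zero fun h0 => by subst h0; omega
      set A := q * (j * r + 0) + l * j
      have hA : 2 ≤ A := by
        have h3 : j * (q * r + l) = A := by simp only [A]; ring
        have : 1 * 2 ≤ j * (q * r + l) := Nat.mul_le_mul hj ha
        omega
      have he : (q * r + l) * (j * r + 0) = (A - 1) * r + r := by
        rw [hab, Nat.zero_mul, Nat.add_zero]
        conv_lhs => rw [show A = A - 1 + 1 by omega]
        ring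
      obtain ⟨m, hmb, hmr, h1, h2⟩ := h (A - 1) (by omega) (by omega)
      rw [show (q * r + l) * (j * r + 0) - (A - 1) * r = r by omega] at h1 h2
      by_contra hl1
      rcases Nat.eq_zero_or_pos m with h0 | h0
      · subst h0; omega
      · have hrm : r ≤ m := Nat.le_of_dvd h0 (Nat.dvd_of_mod_eq_zero hmr)
        have : r * 2 ≤ m * l := Nat.mul_le_mul hrm (by omega)
        omega
    · right
      have hkl : k * l < r := by
        by_contra hge
        push Not at hge
        set A := q * (j * r + k) + l * j + k * l / r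
        have he : (q * r + l) * (j * r + k) = A * r + k * l % r := by
          rw [hab]
          conv_lhs => rw [← Nat.div_add_mod (k * l) r]
          ring
        have hA : 0 < A := by
          have := Nat.div_pos hge hr.pos
          omega
        obtain ⟨m, hmb, hmr, h1, h2⟩ := h A hA (by omega)
        rw [show (q * r + l) * (j * r + k) - A * r = k * l % r by omega] at h1
        have hkle : k ≤ m := by rw [← hmr]; exact Nat.mod_le m r
        have := Nat.mul_le_mul_right l hkle
        have := Nat.mod_lt (k * l) hr.pos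
        omega
      refine ⟨hl0, hk0, hkl, ?_⟩
      by_contra hcon
      push Not at hcon
      obtain ⟨hbr, hgap⟩ := hcon
      have hj : 0 < j := Nat.pos_of_ne_zero fun h0 => by subst h0; omega
      have hja : 2 ≤ j * (q * r + l) := (Nat.mul_le_mul (show 1 ≤ j from hj) ha).trans' (by omega)
      have he : (q * r + l) * (j * r + k) = (j * (q * r + l) - 1) * r + (k * (q * r + l) + r) := by
        obtain ⟨B, hB⟩ : ∃ B, j * (q * r + l) = B + 1 := ⟨j * (q * r + l) - 1, by omega⟩
        rw [hB, Nat.add_sub_cancel]
        calc (q * r + l) * (j * r + k) = j * (q * r + l) * r + k * (q * r + l) := by ring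
          _ = _ := by rw [hB]; ring
      obtain ⟨m, hmb, hmr, h1, h2⟩ := h _ (show 0 < j * (q * r + l) - 1 by omega) (by omega)
      rw [show (q * r + l) * (j * r + k) - (j * (q * r + l) - 1) * r = k * (q * r + l) + r by omega]
        at h1 h2
      have hm := Nat.div_add_mod m r
      rw [hmr] at hm
      rcases Nat.eq_zero_or_pos (m / r) with h0 | h0
      · rw [h0] at hm
        simp only [Nat.mul_zero, Nat.zero_add] at hm
        subst hm
        omega
      · have h3 : k + r ≤ m := by
          have := Nat.le_mul_of_pos_right r h0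
          omega
        have := Nat.mul_le_mul_right l h3
        omega
  · rintro ⟨hra, hcases⟩ c hc hcr
    set f := (q * r + l) * (j * r + k) - c * r with hf
    have hfle : f ≤ (j * r + k) * (q * r + l) := by rw [mul_comm (j * r + k)]; omega
    rcases hcases with hl0 | hcases
    · exact ⟨j * r + k, le_rfl, hkm, by rw [hl0]; simp, hfle⟩
    have hfmod : f % r = k * l % r := by
      have h2 : f + c * r = (q * (j * r + k) + l * j) * r + k * l := by rw [← hab]; omega
      have := congrArg (· % r) h2
      simpa [Nat.add_mul_mod_self_right, Nat.mul_add_mod_self_right] using this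
    have hkl : k * l < r := by
      rcases hcases with ⟨rfl, -⟩ | ⟨-, -, h, -⟩
      · simpa using hr.pos
      · exact h
    suffices hmain : ∀ i ≤ j, f ≤ (i * r + k) * (q * r + l) →
        ∃ m ≤ j * r + k, m % r = k ∧ m * l ≤ f ∧ f ≤ m * (q * r + l) from hmain j le_rfl hfle
    intro i
    induction i with
    | zero =>
      intro _ h
      simp only [Nat.zero_mul, Nat.zero_add] at h
      refine ⟨k, by omega, Nat.mod_eq_of_lt hk, ?_, h⟩
      rw [← Nat.mod_eq_of_lt hkl, ← hfmod]
      exact Nat.mod_le f r
    | succ i ih =>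
      intro hij hfi
      by_cases h : f ≤ (i * r + k) * (q * r + l)
      · exact ih (by omega) h
      push Not at h
      refine ⟨(i + 1) * r + k, ?_, ?_, ?_, hfi⟩
      · have := Nat.mul_le_mul_right r hij
        omega
      · rw [Nat.mul_add_mod_self_right]; exact Nat.mod_eq_of_lt hk
      have hg : (i * r + k) * (q * r + l) + r ≤ f := by
        have h2 : ((i * r + k) * (q * r + l)) % r = k * l % r := by
          rw [show (i * r + k) * (q * r + l) = k * l + (i * (q * r + l) + k * q) * r by ring,
            Nat.add_mul_mod_self_right]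
        have h3 : r ∣ f - (i * r + k) * (q * r + l) :=
          (Nat.modEq_iff_dvd' h.le).1 (h2.trans hfmod.symm)
        have := Nat.le_of_dvd (by omega) h3
        omega
      refine le_trans ?_ hg
      have hstep : (k + r) * l ≤ k * (q * r + l) + r := by
        rcases hcases with ⟨rfl, rfl⟩ | ⟨-, -, -, hbr | h'⟩
        · simp
        · exfalso
          have := Nat.mul_le_mul_right r (show 1 ≤ j by omega)
          omega
        · exact h'
      calc ((i + 1) * r + k) * l = (k + r) * l + i * r * l := by ring
        _ ≤ k * (q * r + l) + r + i * r * (q * r + l) :=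
          Nat.add_le_add hstep (Nat.mul_le_mul_left _ (Nat.le_add_left _ _))
        _ = _ := by ring


/-- Let a, b ≥ 2 and consider the symmetric group of degree a·b acting on the partitions of an (a·b)-set into b parts of size a (encoded as maps onto a b-element set all of whose fibres have a elements; a permutation fixes such a partition when it permutes the fibres). Let r be a prime dividing the number (ab)!/((a!)^b·b!) of such partitions, and let ℓ and k be the remainders of a and b modulo r. Then every permutation of order r fixes some such partition if and only if r ≤ a and one of the following holds: ℓ = 0; or k = 0 and ℓ = 1; or ℓ and k are non-zero, k·ℓ < r, and either b < r or (k + r)·ℓ ≤ k·a + r. -/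
theorem result (a b : ℕ) (ha : 2 ≤ a) (hb : 2 ≤ b) (r : ℕ) (hr : r.Prime)
    (hrd : r ∣ (a * b).factorial / (a.factorial ^ b * b.factorial)) :
    (∀ σ : Equiv.Perm (Fin (a * b)), orderOf σ = r →
        ∃ f : Fin (a * b) → Fin b, (∀ j : Fin b, Nat.card {x : Fin (a * b) // f x = j} = a) ∧
          ∃ π : Equiv.Perm (Fin b), ∀ x : Fin (a * b), f (σ x) = π (f x)) ↔
      (r ≤ a ∧ (a % r = 0 ∨ (b % r = 0 ∧ a % r = 1) ∨
        (a % r ≠ 0 ∧ b % r ≠ 0 ∧ (b % r) * (a % r) < r ∧ (b < r ∨ (b % r + r) * (a % r) ≤ (b % r) * a + r)))) := by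
  classical
  haveI : Fact r.Prime := ⟨hr⟩
  have hrab : r ≤ a * b := by
    by_contra hlt
    push Not at hlt
    refine absurd ((Nat.Prime.dvd_factorial hr).1 (hrd.trans (Nat.div_dvd_of_dvd ?_))) (by omega)
    exact ⟨Nat.uniformBell b a, by rw [mul_comm a b, ← Nat.uniformBell_mul_eq b (by omega : a ≠ 0)]; ring⟩
  rw [← arith_iff a b r hr ha hb hrab]
  constructor
  · intro h c hc hcr
    obtain ⟨σ, hσ⟩ := (Equiv.Perm.exists_with_cycleType_iff (Fin (a * b))
      (m := Multiset.replicate c r)).2 ⟨by simp [hcr],
        fun x hx => (Multiset.eq_of_mem_replicate hx) ▸ hr.two_le⟩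
    have ho : orderOf σ = r := by
      rw [← Equiv.Perm.lcm_cycleType, hσ]
      refine Nat.dvd_antisymm (Multiset.lcm_dvd.2 fun x hx => ?_) (Multiset.dvd_lcm ?_)
      · rw [Multiset.eq_of_mem_replicate hx]
      · exact Multiset.mem_replicate.2 ⟨by omega, rfl⟩
    have hfix : (σ.supportᶜ).card = a * b - c * r := by
      rw [Finset.card_compl, ← Equiv.Perm.sum_cycleType, hσ, Multiset.sum_replicate, smul_eq_mul,
        Fintype.card_fin]
    have := (fixes_iff a b r hr (by omega) σ (ho ▸ pow_orderOf_eq_one σ)).1 (h σ ho)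
    rwa [hfix] at this
  · intro h σ ho
    have hpow : σ ^ r = 1 := ho ▸ pow_orderOf_eq_one σ
    rw [fixes_iff a b r hr (by omega) σ hpow]
    obtain ⟨c, hc⟩ := Equiv.Perm.cycleType_prime_order (ho ▸ hr : (orderOf σ).Prime)
    have hsupp : σ.support.card = (c + 1) * r := by
      rw [← Equiv.Perm.sum_cycleType, hc, Multiset.sum_replicate, smul_eq_mul, ho]
    have hle : σ.support.card ≤ a * b := (Finset.card_le_univ _).trans (Fintype.card_fin _).le
    rw [Finset.card_compl, Fintype.card_fin, hsupp]
    exact h (c + 1) (Nat.succ_pos c) (by omega)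

end Cfsg.Agent.S3575
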