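import Cfsg.Statements.S3583
import Cfsg.Agent.Lib.ClassSizesPSL.Main

set_option autoImplicit false
open Cfsg

namespace Cfsg.Agent.S3583

/-- Let F be a finite field with q elements, where either q is even and q > 2, or q is odd and q ≥ 7, and let G be a finite group whose set of conjugacy class sizes equals that of PSL(2,F). Then G is the direct product of a normal subgroup isomorphic to PSL(2,F) and a central (hence abelian) subgroup: there are subgroups N and A of G with N normal and isomorphic to PSL(2,F), A contained in the centre, N ∩ A = 1 and NA = G. -/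
theorem result {F : Type*} [Field F] [Fintype F]
    (hq : (2 ∣ Fintype.card F ∧ 2 < Fintype.card F) ∨ (¬ 2 ∣ Fintype.card F ∧ 7 ≤ Fintype.card F))
    {G : Type*} [Group G] [Finite G]
    (h : Set.range (fun g : G => (Subgroup.centralizer ({g} : Set G)).index) = Set.range (fun g : (Matrix.ProjectiveSpecialLinearGroup (Fin 2) F) => (Subgroup.centralizer ({g} : Set (Matrix.ProjectiveSpecialLinearGroup (Fin 2) F))).index)) :
    ∃ N A : Subgroup G, N.Normal ∧ A ≤ Subgroup.center G ∧ N ⊓ A = ⊥ ∧ N ⊔ A = ⊤ ∧
      Nonempty (N ≃* Matrix.ProjectiveSpecialLinearGroup (Fin 2) F) := by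
  classical
  rcases hq with ⟨h2, h3⟩ | ⟨h2, h3⟩
  · exact CfsgLib.ClassSizesPSL.decomposition_even h2 h3 h
  · exact CfsgLib.ClassSizesPSL.decomposition_odd h2 h3 h

end Cfsg.Agent.S3583
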