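import Cfsg.Statements.S3584
import Cfsg.Agent.Lib.ClassSizesPSL.Main

set_option autoImplicit false
open Cfsg

namespace Cfsg.Agent.S3584

/-- Let F be a finite field with q elements, q odd and q ≥ 7, and let G be a finite group whose set of conjugacy class sizes equals that of PSL(2,F). Then G modulo its centre is isomorphic to PSL(2,F). -/
theorem result {F : Type*} [Field F] [Fintype F]
    (hodd : ¬ 2 ∣ Fintype.card F) (h7 : 7 ≤ Fintype.card F)
    {G : Type*} [Group G] [Finite G]
    (h : Set.range (fun g : G => (Subgroup.centralizer ({g} : Set G)).index) = Set.range (fun g : (Matrix.ProjectiveSpecialLinearGroup (Fin 2) F) => (Subgroup.centralizer ({g} : Set (Matrix.ProjectiveSpecialLinearGroup (Fin 2) F))).index)) :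
    Nonempty (G ⧸ Subgroup.center G ≃* Matrix.ProjectiveSpecialLinearGroup (Fin 2) F) := by
  exact CfsgLib.ClassSizesPSL.nonempty_equiv_odd hodd h7 h

end Cfsg.Agent.S3584
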