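import Cfsg.Statements.S3592
import Cfsg.Agent.Lib.OrderDegrees.M11NSE
import Cfsg.Agent.Lib.Mathieu.Order7920.Steiner

set_option autoImplicit false
open Cfsg

namespace Cfsg.Agent.S3592

/-- Let M be the Mathieu group M₁₁ (order 7920). If a finite group G has the same order as M and the same set of values of the function 'number of elements of order n' (taken over the element orders n that occur), then G is isomorphic to M. -/
theorem result {G : Type*} [Group G] [Finite G]
    (hcard : Nat.card G = Nat.card ↥Cfsg.Spor.M11)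
    (hnse : {c : ℕ | 0 < c ∧ ∃ n : ℕ, c = Nat.card {g : G // orderOf g = n}} =
      {c : ℕ | 0 < c ∧ ∃ n : ℕ, c = Nat.card {g : ↥Cfsg.Spor.M11 // orderOf g = n}}) :
    Nonempty (G ≃* ↥Cfsg.Spor.M11) := by
  exact CfsgLib.Mathieu.Order7920.nonempty_mulEquiv
    (CfsgLib.OrderDegrees.M11NSE.isM11_of_nse hcard hnse)
    CfsgLib.OrderDegrees.M11NSE.isM11_sporM11

end Cfsg.Agent.S3592
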