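import Cfsg.Statements.S3598
import Cfsg.Agent.Lib.DegreeRecogPSL.Square
import Cfsg.Agent.Lib.DegreeRecogPSL.PSLDegrees
import Cfsg.Agent.Lib.DegreeRecogPSL.Multiset
import Cfsg.Agent.Lib.SL2.Dickson.Sixty
import Cfsg.Agent.Lib.CharTheory.Burnside
import Cfsg.Agent.Lib.ClassicalLinear.BlockHom

set_option autoImplicit false
open Cfsg

namespace Cfsg.Agent.S3598

/-- Let p be a prime and F a field with p² elements. If a finite group G has, for every d, the same number of irreducible complex characters of degree d as PSL(2,F) (the same first column of the character table, with multiplicities), then G is isomorphic to PSL(2,F). -/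
theorem result {F : Type*} [Field F] [Fintype F] (p : ℕ) (hp : p.Prime)
    (hF : Fintype.card F = p ^ 2) {G : Type*} [Group G] [Finite G]
    (h : ∀ d : ℕ, Nat.card {χ : Cfsg.IrrCharacter G // (χ : G → ℂ) 1 = (d : ℂ)} =
      Nat.card {χ : Cfsg.IrrCharacter (Matrix.ProjectiveSpecialLinearGroup (Fin 2) F) // (χ : Matrix.ProjectiveSpecialLinearGroup (Fin 2) F → ℂ) 1 = (d : ℂ)}) :
    Nonempty (G ≃* Matrix.ProjectiveSpecialLinearGroup (Fin 2) F) := by
  classical
  obtain ⟨e, he⟩ := CfsgLib.DegreeRecogPSL.exists_degree_equiv h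
  have hcG := CfsgLib.DegreeRecogPSL.card_eq_of_degree_equiv e he
  have h4 : 4 ≤ Fintype.card F := by
    rw [hF, pow_two]; exact Nat.mul_le_mul hp.two_le hp.two_le
  have hperf : commutator G = ⊤ := by
    rw [← Subgroup.index_eq_one, CfsgLib.DegreeRecogPSL.index_commutator_eq h,
      CfsgLib.DegreeRecogPSL.commutator_eq_top h4, Subgroup.index_top]
  rcases hp.eq_two_or_odd with rfl | hodd
  · have h60 : Nat.card (Matrix.ProjectiveSpecialLinearGroup (Fin 2) F) = 60 := by
      rw [CfsgLib.ClassSizesPSL.card_psl_even (by omega), hF]; norm_num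
    obtain ⟨i₁⟩ := CfsgLib.SL2.Dickson.Sixty.nonempty_mulEquiv_alternating_five (hcG.trans h60)
      (CfsgLib.DegreeRecogPSL.not_normal_five (hcG.trans h60) hperf)
    obtain ⟨i₂⟩ := CfsgLib.SL2.Dickson.Sixty.nonempty_mulEquiv_alternating_five h60
      (CfsgLib.DegreeRecogPSL.not_normal_five h60 (CfsgLib.DegreeRecogPSL.commutator_eq_top h4))
    exact ⟨i₁.trans i₂.symm⟩
  · obtain ⟨k, hk⟩ : ∃ k, p = 2 * k + 1 := ⟨p / 2, by omega⟩
    have hk1 : 1 ≤ k := by have := hp.two_le; omega
    set ℓ := 2 * (k * (k + 1)) with hℓ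
    have hq : Fintype.card F = 2 * ℓ + 1 := by rw [hF, hk, hℓ]; ring
    have hl : Even ℓ := even_two_mul _
    have hl4 : 4 ≤ ℓ := by
      have : 1 * 2 ≤ k * (k + 1) := Nat.mul_le_mul hk1 (by omega)
      omega
    have hcard := CfsgLib.ClassSizesPSL.card_psl_odd (F := F) (ℓ := ℓ) (m := ℓ + 1) (by omega)
      (Or.inr rfl) hl
    have hP : CfsgLib.DegreeRecogPSL.Params G p (Fintype.card F) ℓ :=
      { hp := hp
        hq := hF
        hql := hq
        hl := hl
        hl4 := hl4
        hG := hcG.trans hcard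
        hdeg := fun χ => by
          have := CfsgLib.DegreeRecogPSL.degree_cases hq hl hl4 (e χ)
          rwa [he] at this
        huniq := CfsgLib.DegreeRecogPSL.linear_unique hperf }
    obtain ⟨K, _, _, hK, ⟨i⟩⟩ := hP.exists_iso
    exact ⟨i.trans (CfsgLib.ClassicalLinear.pslCongr (FiniteField.ringEquivOfCardEq hK))⟩

end Cfsg.Agent.S3598
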