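import Cfsg.Statements.S3599
import Cfsg.Agent.Lib.OrderDegrees.ProperDivisorGroups

set_option autoImplicit false
set_option linter.unusedSectionVars false
set_option linter.unusedVariables false
open Cfsg

namespace Cfsg.Agent.S3599

open CfsgLib.OrderDegrees

/-- The set of allowed element orders. -/
def Om {s : ℕ} (p : Fin s → Fin 2 → ℕ) : Set ℕ :=
  {m : ℕ | ∃ c : Fin s → ℕ, (∀ j, c j = 1 ∨ c j = p j 0 ∨ c j = p j 1) ∧ m = ∏ j, c j}

/-- The elements killed by `q` form a subgroup. -/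
def Closed (q : ℕ) (G : Type) [Group G] : Prop := ∀ x y : G, x ^ q = 1 → y ^ q = 1 → (x * y) ^ q = 1

/-- Groups with the given element orders and orientation. -/
def Good {s : ℕ} (p : Fin s → Fin 2 → ℕ) (b : Fin s → Fin 2) (G : Type) [Group G] : Prop :=
  Set.range (orderOf : G → ℕ) = Om p ∧ ∀ j, Closed (p j (b j)) G

section

variable {s : ℕ} {p : Fin s → Fin 2 → ℕ} (hp : ∀ j i, (p j i).Prime)
  (hinj : ∀ j i j' i', p j i = p j' i' → j = j' ∧ i = i')
include hp hinj

theorem eq_of_dvd {c : Fin s → ℕ} (hc : ∀ j, c j = 1 ∨ c j = p j 0 ∨ c j = p j 1) {j : Fin s} {i : Fin 2}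
    (h : p j i ∣ ∏ k, c k) : c j = p j i := by
  obtain ⟨k, -, hk⟩ := (hp j i).prime.exists_mem_finset_dvd h
  rcases hc k with h1 | h1 | h1 <;> rw [h1] at hk
  · exact absurd (Nat.dvd_one.mp hk) (hp j i).ne_one
  · obtain ⟨rfl, rfl⟩ := hinj _ _ _ _ ((Nat.prime_dvd_prime_iff_eq (hp j i) (hp k 0)).mp hk)
    exact h1
  · obtain ⟨rfl, rfl⟩ := hinj _ _ _ _ ((Nat.prime_dvd_prime_iff_eq (hp j i) (hp k 1)).mp hk)
    exact h1

theorem not_sq_dvd {m : ℕ} (hm : m ∈ Om p) (j : Fin s) (i : Fin 2) : ¬ p j i * p j i ∣ m := by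
  obtain ⟨c, hc, rfl⟩ := hm
  intro h
  have hcj := eq_of_dvd hp hinj hc (dvd_trans (dvd_mul_right _ _) h)
  rw [← Finset.mul_prod_erase _ _ (Finset.mem_univ j), hcj] at h
  obtain ⟨k, hk, hk'⟩ := (hp j i).prime.exists_mem_finset_dvd (Nat.dvd_of_mul_dvd_mul_left (hp j i).pos h)
  have hkj : k ≠ j := (Finset.mem_erase.mp hk).1
  rcases hc k with h1 | h1 | h1 <;> rw [h1] at hk'
  · exact (hp j i).ne_one (Nat.dvd_one.mp hk')
  · exact hkj (hinj _ _ _ _ ((Nat.prime_dvd_prime_iff_eq (hp j i) (hp k 0)).mp hk')).1.symm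
  · exact hkj (hinj _ _ _ _ ((Nat.prime_dvd_prime_iff_eq (hp j i) (hp k 1)).mp hk')).1.symm

theorem not_mul_mem {j : Fin s} {i i' : Fin 2} (hi : i ≠ i') : p j i * p j i' ∉ Om p := by
  rintro ⟨c, hc, h⟩
  have h1 := eq_of_dvd hp hinj hc (h ▸ dvd_mul_right (p j i) (p j i'))
  have h2 := eq_of_dvd hp hinj hc (h ▸ dvd_mul_left (p j i') (p j i))
  exact hi (hinj _ _ _ _ (h1.symm.trans h2)).2

theorem prime_mem (j : Fin s) (i : Fin 2) : p j i ∈ Om p := by
  classical
  refine ⟨fun k => if k = j then p j i else 1, fun k => ?_, by simp⟩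
  by_cases h : k = j
  · subst h; fin_cases i <;> simp
  · exact Or.inl (if_neg h)

/-- Quotient images of closed groups are closed. -/
theorem closed_image {G X : Type} [Group G] [Group X] (hG : ∀ g : G, orderOf g ∈ Om p) (f : G →* X)
    (hf : Function.Surjective f) (j : Fin s) (i : Fin 2) (hc : Closed (p j i) G) : Closed (p j i) X := by
  have := Fact.mk (hp j i)
  have lift : ∀ x : X, x ^ p j i = 1 → ∃ g : G, g ^ p j i = 1 ∧ f g = x := by
    intro x hx
    by_cases h1 : x = 1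
    · exact ⟨1, one_pow _, by rw [h1, map_one]⟩
    obtain ⟨g, rfl⟩ := hf x
    have hq : p j i ∣ orderOf g := orderOf_eq_prime hx h1 ▸ orderOf_map_dvd f g
    obtain ⟨m, hm⟩ := hq
    have hcop : Nat.Coprime m (p j i) :=
      ((hp j i).coprime_iff_not_dvd.mpr fun h => not_sq_dvd hp hinj (hG g) j i (hm ▸ mul_dvd_mul_left _ h)).symm
    obtain ⟨e, he⟩ := Nat.exists_mul_mod_eq_one_of_coprime hcop (hp j i).one_lt
    refine ⟨g ^ (m * e), ?_, ?_⟩
    · rw [← pow_mul, show m * e * p j i = orderOf g * e by rw [hm]; ring, pow_mul, pow_orderOf_eq_one, one_pow]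
    · rw [map_pow, pow_eq_pow_mod _ hx, he.2, pow_one]
  intro x y hx hy
  obtain ⟨a, ha, rfl⟩ := lift x hx
  obtain ⟨b, hb, rfl⟩ := lift y hy
  rw [← map_mul, ← map_pow, hc a b ha hb, map_one]

theorem section_good {G : Type} [Group G] {b : Fin s → Fin 2} (hG : Good p b G) (H : Subgroup G) (N : Subgroup H)
    [N.Normal] (h : Set.range (orderOf : (↥H ⧸ N) → ℕ) = Om p) : Good p b (↥H ⧸ N) := by
  refine ⟨h, fun j => ?_⟩
  refine closed_image hp hinj (G := H) (fun g => ?_) (QuotientGroup.mk' N) (QuotientGroup.mk'_surjective N) j (b j) ?_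
  · rw [← hG.1, ← Subgroup.orderOf_coe]; exact ⟨_, rfl⟩
  · intro x y hx hy
    apply Subtype.ext
    exact hG.2 j x y (by rw [← SubgroupClass.coe_pow, hx]; rfl) (by rw [← SubgroupClass.coe_pow, hy]; rfl)

theorem orientation_unique {G : Type} [Group G] {b b' : Fin s → Fin 2} (hG : Good p b G) (hG' : Good p b' G) :
    b = b' := by
  funext j
  by_contra hne
  obtain ⟨x, hx⟩ : p j (b j) ∈ Set.range (orderOf : G → ℕ) := hG.1 ▸ prime_mem hp hinj j _
  obtain ⟨y, hy⟩ : p j (b' j) ∈ Set.range (orderOf : G → ℕ) := hG.1 ▸ prime_mem hp hinj j _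
  have hxp : x ^ p j (b j) = 1 := hx ▸ pow_orderOf_eq_one x
  have hyp : y ^ p j (b' j) = 1 := hy ▸ pow_orderOf_eq_one y
  have hcop : Nat.Coprime (p j (b j)) (p j (b' j)) :=
    (Nat.coprime_primes (hp _ _) (hp _ _)).mpr fun h => hne (hinj _ _ _ _ h).2
  have h1 : (x * y * x⁻¹ * y⁻¹) ^ p j (b' j) = 1 :=
    hG'.2 j _ _ (by rw [conj_pow, hyp, mul_one, mul_inv_cancel]) (by rw [inv_pow, hyp, inv_one])
  have h2 : (x * y * x⁻¹ * y⁻¹) ^ p j (b j) = 1 := by
    rw [show x * y * x⁻¹ * y⁻¹ = x * (y * x⁻¹ * y⁻¹) by group]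
    exact hG.2 j _ _ hxp (by rw [conj_pow, inv_pow, hxp, inv_one, mul_one, mul_inv_cancel])
  have h0 : x * y * x⁻¹ * y⁻¹ = 1 := orderOf_eq_one_iff.mp
    (Nat.eq_one_of_dvd_coprimes hcop (orderOf_dvd_of_pow_eq_one h2) (orderOf_dvd_of_pow_eq_one h1))
  have hcomm : Commute x y := by
    show x * y = y * x
    calc x * y = x * y * x⁻¹ * y⁻¹ * (y * x) := by group
      _ = y * x := by rw [h0, one_mul]
  have hmem : p j (b j) * p j (b' j) ∈ Om p := by
    rw [← hG.1]
    exact ⟨x * y, by rw [hcomm.orderOf_mul_eq_mul_orderOf_of_coprime (by rw [hx, hy]; exact hcop), hx, hy]⟩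
  exact not_mul_mem hp hinj (fun h => hne h) hmem

end

section Existence

/-- A group with element orders 1, q, r in which the elements killed by q form a subgroup. -/
theorem exists_factor (q r : ℕ) (hq : q.Prime) (hr : r.Prime) (hqr : r ≠ q) :
    ∃ (G : Type) (_ : Group G) (_ : Finite G),
      Set.range (orderOf : G → ℕ) = {1, q, r} ∧ Closed q G := by
  have := Fact.mk hq
  obtain ⟨R, hRi⟩ : ∃ R : Fin 1 → ℕ, ∀ i, R i = r := ⟨fun _ => r, fun _ => rfl⟩
  have hRp : ∀ i, (R i).Prime := fun i => (hRi i).symm ▸ hr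
  have hRne : ∀ i, R i ≠ q := fun i => (hRi i).symm ▸ hqr
  have : ∀ i : Fin 1, NeZero (R i) := fun i => ⟨(hRp i).ne_zero⟩
  have hfin : Finite (PDGroup q R 0) := Finite.of_equiv _ SemidirectProduct.equivProd.symm
  have hR : (∏ i, R i) = r := by simp [hRi]
  refine ⟨PDGroup q R 0, inferInstance, hfin, ?_, ?_⟩
  · ext d
    constructor
    · rintro ⟨g, rfl⟩
      have h1 := orderOf_dvd_of_pow_eq_one (pow_eq_one_of_orders 0 g)
      have h2 := orderOf_ne_full hq hRp (fun a b _ => Subsingleton.elim a b) hRne 0 g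
      rw [hR] at h1 h2
      obtain ⟨a, b, ha, hb, he⟩ := Nat.dvd_mul.mp h1
      rcases (Nat.dvd_prime hr).mp ha with rfl | rfl <;> rcases (Nat.dvd_prime hq).mp hb with rfl | rfl
      · exact Or.inl (by rw [← he])
      · exact Or.inr (Or.inl (by rw [← he, one_mul]))
      · exact Or.inr (Or.inr (by rw [← he, mul_one]; rfl))
      · exact absurd he.symm h2
    · intro hd
      have key : ∀ l, l.Prime → l ∣ r * q → ∃ g : PDGroup q R 0, orderOf g = r * q / l := fun l hl hdvd => by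
        obtain ⟨g, hg⟩ := exists_orderOf_div_prime (r := R) hq hRp (fun a b _ => Subsingleton.elim a b)
          hRne 0 hl (by rw [hR]; exact hdvd)
        exact ⟨g, by rw [hg, hR]⟩
      rcases hd with rfl | rfl | rfl
      · exact ⟨1, orderOf_one⟩
      · obtain ⟨g, hg⟩ := key r hr (dvd_mul_right _ _)
        exact ⟨g, by rw [hg, Nat.mul_div_cancel_left _ hr.pos]⟩
      · obtain ⟨g, hg⟩ := key q hq (dvd_mul_left _ _)
        exact ⟨g, by rw [hg, Nat.mul_div_cancel _ hq.pos]⟩
  · intro x y hx hy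
    have hright : ∀ z : PDGroup q R 0, z ^ q = 1 → z.right = 1 := by
      intro z hz
      have h1 : z.right ^ q = 1 := by
        rw [← SemidirectProduct.rightHom_eq_right, ← map_pow, hz, map_one]
      apply Multiplicative.toAdd.injective
      funext i
      have h2 : q • (Multiplicative.toAdd z.right i : ZMod (R i)) = 0 := by
        simpa using congrFun (congrArg Multiplicative.toAdd h1) i
      have := Fact.mk (hRp i)
      rw [nsmul_eq_mul, mul_eq_zero, ZMod.natCast_eq_zero_iff] at h2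
      exact h2.resolve_left fun h => hRne i ((Nat.prime_dvd_prime_iff_eq (hRp i) hq).mp h)
    obtain ⟨v, hv⟩ : ∃ v, SemidirectProduct.inl v = x * y :=
      ⟨(x * y).left, SemidirectProduct.ext (by simp)
        (by simp [SemidirectProduct.mul_right, hright x hx, hright y hy])⟩
    rw [← hv, ← map_pow]
    have : v ^ q = 1 := by
      apply Multiplicative.toAdd.injective
      funext k i
      apply Subtype.ext
      funext z
      simp
    rw [this, map_one]

theorem exists_good {s : ℕ} {p : Fin s → Fin 2 → ℕ} (hp : ∀ j i, (p j i).Prime)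
    (hinj : ∀ j i j' i', p j i = p j' i' → j = j' ∧ i = i') (b : Fin s → Fin 2) :
    ∃ (G : Type) (_ : Group G) (_ : Finite G), Good p b G := by
  classical
  have hne : ∀ j, p j (1 - b j) ≠ p j (b j) := fun j h => by
    have h2 := (hinj _ _ _ _ h).2
    generalize b j = i at h2
    revert h2; fin_cases i <;> decide
  choose F iG iF hF hcl using fun j => exists_factor (p j (b j)) (p j (1 - b j)) (hp _ _) (hp _ _) (hne j)
  have hcase : ∀ (j : Fin s) (c : ℕ),
      (c = 1 ∨ c = p j 0 ∨ c = p j 1) ↔ (c = 1 ∨ c = p j (b j) ∨ c = p j (1 - b j)) := by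
    intro j c
    generalize b j = i
    fin_cases i
    · exact Iff.rfl
    · exact or_congr_right or_comm
  have horder : ∀ x : ∀ j, F j, orderOf x = ∏ j, orderOf (x j) := by
    intro x
    have hmem : ∀ j, orderOf (x j) = 1 ∨ orderOf (x j) = p j 0 ∨ orderOf (x j) = p j 1 := fun j =>
      (hcase j _).mpr ((hF j).subset ⟨x j, rfl⟩)
    refine Nat.dvd_antisymm (orderOf_dvd_of_pow_eq_one (funext fun j => ?_)) ?_
    · rw [Pi.pow_apply, Pi.one_apply, ← orderOf_dvd_iff_pow_eq_one]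
      exact Finset.dvd_prod_of_mem _ (Finset.mem_univ j)
    · refine Finset.prod_dvd_of_isRelPrime (fun j _ k _ hjk => ?_) fun j _ => orderOf_map_dvd (Pi.evalMonoidHom F j) x
      rw [Function.onFun, ← Nat.coprime_iff_isRelPrime]
      have hne' : ∀ i i', p j i ≠ p k i' := fun i i' h => hjk (hinj _ _ _ _ h).1
      rcases hmem j with h | h | h <;> rcases hmem k with h' | h' | h' <;> rw [h, h'] <;>
        first
        | exact Nat.coprime_one_left _
        | exact Nat.coprime_one_right _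
        | exact (Nat.coprime_primes (hp _ _) (hp _ _)).mpr (hne' _ _)
  refine ⟨∀ j, F j, inferInstance, inferInstance, ?_, fun j x y hx hy => ?_⟩
  · ext m
    constructor
    · rintro ⟨x, rfl⟩
      exact ⟨fun j => orderOf (x j), fun j => (hcase j _).mpr ((hF j).subset ⟨x j, rfl⟩), horder x⟩
    · rintro ⟨c, hc, rfl⟩
      choose x hx using fun j => (hF j).superset ((hcase j (c j)).mp (hc j))
      exact ⟨x, by rw [horder]; exact Finset.prod_congr rfl fun j _ => hx j⟩
  · funext k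
    rw [Pi.pow_apply, Pi.one_apply, Pi.mul_apply]
    by_cases hk : k = j
    · subst hk
      exact hcl k _ _ (congrFun hx k) (congrFun hy k)
    · have key : ∀ z : F k, z ^ p j (b j) = 1 → z = 1 := by
        intro z hz
        refine orderOf_eq_one_iff.mp ?_
        have hd := orderOf_dvd_of_pow_eq_one hz
        rcases (hF k).subset ⟨z, rfl⟩ with h | h | h
        · exact h
        · rw [h] at hd
          exact absurd (hinj _ _ _ _ ((Nat.prime_dvd_prime_iff_eq (hp _ _) (hp _ _)).mp hd)).1 hk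
        · rw [Set.mem_singleton_iff.mp h] at hd
          exact absurd (hinj _ _ _ _ ((Nat.prime_dvd_prime_iff_eq (hp _ _) (hp _ _)).mp hd)).1 hk
      rw [key (x k) (congrFun hx k), key (y k) (congrFun hy k), one_mul, one_pow]

end Existence

theorem exists_critical {s : ℕ} {p : Fin s → Fin 2 → ℕ} (hp : ∀ j i, (p j i).Prime)
    (hinj : ∀ j i j' i', p j i = p j' i' → j = j' ∧ i = i') (b : Fin s → Fin 2) :
    ∃ (G : Type) (_ : Group G) (_ : Finite G), Good p b G ∧
      ∀ (H : Subgroup G) (N : Subgroup ↥H) [N.Normal], (H ≠ ⊤ ∨ N ≠ ⊥) →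
        Set.range (orderOf : (↥H ⧸ N) → ℕ) ≠ Om p := by
  classical
  have hex : ∃ n, ∃ (G : Type) (_ : Group G) (_ : Finite G), Good p b G ∧ Nat.card G = n := by
    obtain ⟨G, iG, iF, hG⟩ := exists_good hp hinj b
    exact ⟨_, G, iG, iF, hG, rfl⟩
  obtain ⟨G, iG, iF, hG, hcard⟩ := Nat.find_spec hex
  refine ⟨G, iG, iF, hG, fun H N _ hHN hrange => ?_⟩
  have hlt : Nat.card (↥H ⧸ N) < Nat.card G := by
    have h1 := N.card_eq_card_quotient_mul_card_subgroup
    have hq : 0 < Nat.card (↥H ⧸ N) := Nat.card_pos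
    rcases hHN with h | h
    · calc Nat.card (↥H ⧸ N) ≤ Nat.card H := by rw [h1]; exact Nat.le_mul_of_pos_right _ Nat.card_pos
        _ < Nat.card G := lt_of_le_of_ne (Subgroup.card_le_card_group H) fun e => h (Subgroup.eq_top_of_card_eq H e)
    · calc Nat.card (↥H ⧸ N) < Nat.card (↥H ⧸ N) * Nat.card N :=
            lt_mul_of_one_lt_right hq (N.one_lt_card_iff_ne_bot.mpr h)
        _ = Nat.card H := h1.symm
        _ ≤ Nat.card G := Subgroup.card_le_card_group H
  rw [hcard] at hlt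
  exact Nat.find_min hex hlt ⟨↥H ⧸ N, inferInstance, inferInstance, section_good hp hinj hG H N hrange, rfl⟩

/-- A finite group is critical with respect to a set Ω of natural numbers when its set of element orders is Ω while no proper section H/N (H a subgroup, N normal in H, (H, N) ≠ (whole group, 1)) has Ω as its set of element orders. Let s ≥ 1 and let p(j,0), p(j,1) (j < s) be 2s pairwise distinct primes, and let Ω be the set of all products c(0)·…·c(s−1) with each c(j) ∈ {1, p(j,0), p(j,1)}. Then there are 2^s pairwise non-isomorphic finite groups critical with respect to Ω. -/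
theorem result (s : ℕ) (hs : 1 ≤ s) (p : Fin s → Fin 2 → ℕ)
    (hp : ∀ j i, (p j i).Prime) (hinj : ∀ j i j' i', p j i = p j' i' → j = j' ∧ i = i') :
    ∃ (G : Fin (2 ^ s) → Type) (_ : ∀ a, Group (G a)) (_ : ∀ a, Fintype (G a)),
      (∀ a b, a ≠ b → ¬ Nonempty (G a ≃* G b)) ∧
      ∀ a, Set.range (orderOf : (G a) → ℕ) = {m : ℕ | ∃ c : Fin s → ℕ, (∀ j, c j = 1 ∨ c j = p j 0 ∨ c j = p j 1) ∧ m = ∏ j, c j} ∧
      ∀ (H : Subgroup (G a)) (N : Subgroup ↥H) [N.Normal], (H ≠ ⊤ ∨ N ≠ ⊥) → Set.range (orderOf : (↥H ⧸ N) → ℕ) ≠ {m : ℕ | ∃ c : Fin s → ℕ, (∀ j, c j = 1 ∨ c j = p j 0 ∨ c j = p j 1) ∧ m = ∏ j, c j} := by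
  choose G iG iF hG hcrit using fun a : Fin (2 ^ s) => exists_critical hp hinj (finFunctionFinEquiv.symm a)
  refine ⟨G, iG, fun a => Fintype.ofFinite _, fun a a' hne => ?_, fun a => ⟨(hG a).1, hcrit a⟩⟩
  rintro ⟨e⟩
  apply hne
  apply finFunctionFinEquiv.symm.injective
  refine orientation_unique hp hinj (hG a) ⟨(hG a).1, fun j x y hx hy => ?_⟩
  apply e.injective
  rw [map_pow, map_mul, map_one]
  exact (hG a').2 j _ _ (by rw [← map_pow, hx, map_one]) (by rw [← map_pow, hy, map_one])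

end Cfsg.Agent.S3599
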