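import Cfsg.Statements.S3600
import Cfsg.Agent.Lib.CriticalSpectrum.Affine
import Cfsg.Agent.Lib.OrderDegrees.Coclique

set_option autoImplicit false
open Cfsg

namespace Cfsg.Agent.S3600

/-- A finite group is critical with respect to a set Ω of natural numbers when its set of element orders is Ω while no proper section has Ω as its set of element orders. A finite group critical with respect to {1, 2, 3, 4, 5} (the set of element orders of the alternating group of degree 6) is isomorphic either to the alternating group of degree 6 or to the affine group F² ⋊ SL(2,F) over the field F with four elements (realised as the matrices of SL(3,F) with last row (0, 0, 1)). -/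
theorem result {G : Type*} [Group G] [Finite G]
    (hcrit : Set.range (orderOf : G → ℕ) = ({1, 2, 3, 4, 5} : Set ℕ) ∧
      ∀ (H : Subgroup G) (N : Subgroup ↥H) [N.Normal], (H ≠ ⊤ ∨ N ≠ ⊥) → Set.range (orderOf : (↥H ⧸ N) → ℕ) ≠ ({1, 2, 3, 4, 5} : Set ℕ)) :
    Nonempty (G ≃* alternatingGroup (Fin 6)) ∨
      ∃ (F : Type) (_ : Field F) (_ : Fintype F), Fintype.card F = 4 ∧
        Nonempty (G ≃* ↥(Subgroup.closure {M : Matrix.SpecialLinearGroup (Fin 3) F |
          (M : Matrix (Fin 3) (Fin 3) F) 2 0 = 0 ∧ (M : Matrix (Fin 3) (Fin 3) F) 2 1 = 0 ∧ (M : Matrix (Fin 3) (Fin 3) F) 2 2 = 1})) := by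
  obtain ⟨hO, hc⟩ := hcrit
  have hspec : CfsgLib.SmallSpectrum.Spec G := fun g => by
    have : orderOf g ∈ ({1, 2, 3, 4, 5} : Set ℕ) := hO ▸ ⟨g, rfl⟩
    simp only [Set.mem_insert_iff, Set.mem_singleton_iff] at this
    omega
  have hex : ∀ k ∈ ({1, 2, 3, 4, 5} : Set ℕ), ∃ g : G, orderOf g = k := fun k hk => by
    rwa [← hO] at hk
  have hdvd : ∀ k ∈ ({1, 2, 3, 4, 5} : Set ℕ), k ∣ Nat.card G := fun k hk => by
    obtain ⟨g, rfl⟩ := hex k hk
    exact orderOf_dvd_natCard g
  have hns : ¬ Group.IsSolvable G := fun hs => by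
    have hno : ∀ n : ℕ, 5 < n → ¬ ∃ x : G, orderOf x = n := fun n hn ⟨x, hx⟩ => by
      have := hspec x; omega
    have : Group.IsSolvable (⊤ : Subgroup G) := inferInstance
    refine CfsgLib.OrderDegrees.false_of_solvable_coclique (⊤ : Subgroup G) this (r := 2) (s := 3) (t := 5)
      (by norm_num) (by norm_num) (by norm_num) (by norm_num) (by norm_num) (by norm_num)
      (hno 6 (by norm_num)) (hno 10 (by norm_num)) (hno 15 (by norm_num)) ?_ ?_ (hdvd 5 (by simp)) <;>
      rw [Subgroup.card_top]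
    · exact hdvd 2 (by simp)
    · exact hdvd 3 (by simp)
  rcases CfsgLib.SmallSpectrum.Spec.good hspec hns with h6 | ⟨N, hN, ⟨-, hsq⟩, ⟨e⟩⟩
  · exact Or.inl h6
  refine Or.inr ?_
  have hne : N ≠ ⊥ := by
    rintro rfl
    obtain ⟨g, hg⟩ := hex 4 (by simp)
    have h4 : orderOf ((QuotientGroup.quotientBot.symm.trans e) g) = 4 := by rw [MulEquiv.orderOf_eq, hg]
    have hno : ∀ a : ↥(alternatingGroup (Fin 5)), a ^ 4 = 1 → a ^ 2 = 1 := by decide +kernel
    have h2 := hno _ (h4 ▸ pow_orderOf_eq_one _)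
    have := orderOf_dvd_of_pow_eq_one h2
    rw [h4] at this
    omega
  obtain ⟨F, _, _, hF, ⟨i⟩⟩ := CfsgLib.CriticalSpectrum.equiv_affine hspec N hsq e hne (by
    intro M hM hMN
    by_contra hne'
    push Not at hne'
    have := hM
    have : (M.subgroupOf ⊤).Normal := hM.comap _
    let q : G →* (⊤ : Subgroup G) ⧸ M.subgroupOf ⊤ :=
      (QuotientGroup.mk' (M.subgroupOf ⊤)).comp (Subgroup.topEquiv.symm : G ≃* (⊤ : Subgroup G)).toMonoidHom
    have hqk : ∀ g : G, orderOf (q g) = orderOf (g : G ⧸ M) := fun g => by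
      refine orderOf_eq_orderOf_iff.2 fun n => ?_
      rw [← map_pow, ← QuotientGroup.mk_pow, QuotientGroup.eq_one_iff]
      show ((Subgroup.topEquiv.symm (g ^ n) : (⊤ : Subgroup G)) : _ ⧸ M.subgroupOf ⊤) = 1 ↔ _
      rw [QuotientGroup.eq_one_iff, Subgroup.mem_subgroupOf]
      rfl
    refine hc ⊤ (M.subgroupOf ⊤) (Or.inr fun hb => hne'.1 ?_) ?_
    · rw [Subgroup.subgroupOf_eq_bot, disjoint_top] at hb
      exact hb
    · refine Set.Subset.antisymm ?_ ?_
      · rintro _ ⟨z, rfl⟩
        obtain ⟨w, rfl⟩ := QuotientGroup.mk'_surjective _ z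
        have h1 := Nat.le_of_dvd (orderOf_pos w) (orderOf_map_dvd (QuotientGroup.mk' (M.subgroupOf ⊤)) w)
        have h2 := hspec (w : G)
        rw [Subgroup.orderOf_coe] at h2
        have h3 := orderOf_pos (QuotientGroup.mk' (M.subgroupOf ⊤) w)
        simp only [Set.mem_insert_iff, Set.mem_singleton_iff]
        omega
      · intro k hk
        simp only [Set.mem_insert_iff, Set.mem_singleton_iff] at hk
        have hlift : ∀ z : G ⧸ N, ∀ p : ℕ, p.Prime → orderOf z = p →
            ∃ v : (⊤ : Subgroup G) ⧸ M.subgroupOf ⊤, orderOf v = p := by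
          intro z p hp hz
          obtain ⟨g, rfl⟩ := QuotientGroup.mk_surjective z
          have hd : p ∣ orderOf (g : G ⧸ M) := hz ▸ by
            have := orderOf_map_dvd (QuotientGroup.map M N (MonoidHom.id G) hMN) (g : G ⧸ M)
            exact this
          rw [← hqk] at hd
          exact ⟨_, orderOf_pow_orderOf_div (orderOf_pos _).ne' hd⟩
        have hex5 : ∀ p : ℕ, p.Prime → p ∣ 60 → ∃ v : (⊤ : Subgroup G) ⧸ M.subgroupOf ⊤, orderOf v = p := by
          intro p hp hd
          have : Fact p.Prime := ⟨hp⟩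
          obtain ⟨z, hz⟩ := exists_prime_orderOf_dvd_card' (G := G ⧸ N) p (by
            rw [Nat.card_congr e.toEquiv, CfsgLib.SmallSpectrum.card_alternatingGroup_five]; exact hd)
          exact hlift z p hp hz
        rcases hk with rfl | rfl | rfl | rfl | rfl
        · exact ⟨1, orderOf_one⟩
        · exact hex5 2 (by norm_num) (by norm_num)
        · exact hex5 3 (by norm_num) (by norm_num)
        · obtain ⟨g, hg⟩ := CfsgLib.CriticalSpectrum.exists_order_four hspec N hsq e M hMN hne'.2
          exact ⟨q g, (hqk g).trans hg⟩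
        · exact hex5 5 (by norm_num) (by norm_num))
  exact ⟨F, inferInstance, inferInstance, hF,
    ⟨i.trans (MulEquiv.subgroupCongr (Subgroup.closure_eq (CfsgLib.CriticalSpectrum.affineSub F)).symm)⟩⟩

end Cfsg.Agent.S3600
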