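import Cfsg.Statements.S3619


set_option autoImplicit false
open Cfsg

namespace Cfsg.Agent.S3619

open MulAction
open scoped Pointwise

/-- Let G act faithfully on a finite set in such a way that every non-trivial normal subgroup of G is transitive (G is quasiprimitive). Let Γ be a subset with more than one point and not the whole set, such that the pointwise stabilizer of the complement of Γ acts transitively on Γ (a Jordan set). If that pointwise stabilizer acts primitively on Γ, then G is k-fold transitive where k is one more than the number of points outside Γ (the Jordan set is a trivial one). -/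
theorem result {G Ω : Type*} [Group G] [Finite G] [MulAction G Ω] [FaithfulSMul G Ω] [Finite Ω]
    (hqp : ∀ N : Subgroup G, N.Normal → N ≠ ⊥ → MulAction.IsPretransitive ↥N Ω)
    (Γ : Set Ω) (hΓ1 : 1 < Γ.ncard) (hΓ2 : Γ.ncard < Nat.card Ω)
    (hJ : MulAction.IsPretransitive ↥(fixingSubgroup G Γᶜ) ↥(SubMulAction.ofFixingSubgroup G Γᶜ))
    (hJp : MulAction.IsPreprimitive ↥(fixingSubgroup G Γᶜ) ↥(SubMulAction.ofFixingSubgroup G Γᶜ)) :
    MulAction.IsMultiplyPretransitive G Ω (Nat.card Ω - Γ.ncard + 1) := by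
  classical
  set K := fixingSubgroup G Γᶜ with hK
  have hfixK : ∀ k ∈ K, ∀ z, z ∉ Γ → k • z = z := fun k hk z hz =>
    (mem_fixingSubgroup_iff G).mp hk z hz
  have hmem : ∀ z, z ∈ SubMulAction.ofFixingSubgroup G Γᶜ ↔ z ∈ Γ := fun z => by
    simp [SubMulAction.mem_ofFixingSubgroup_iff]
  have hKmaps : ∀ k ∈ K, ∀ z ∈ Γ, k • z ∈ Γ := by
    intro k hk z hz
    exact (hmem _).mp ((⟨k, hk⟩ : K) • (⟨z, (hmem z).mpr hz⟩ : SubMulAction.ofFixingSubgroup G Γᶜ)).2
  have hKtrans : ∀ x ∈ Γ, ∀ y ∈ Γ, ∃ k ∈ K, k • x = y := by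
    intro x hx y hy
    obtain ⟨⟨k, hk⟩, h⟩ := MulAction.exists_smul_eq K
      (⟨x, (hmem x).mpr hx⟩ : SubMulAction.ofFixingSubgroup G Γᶜ) ⟨y, (hmem y).mpr hy⟩
    exact ⟨k, hk, congrArg Subtype.val h⟩
  obtain ⟨γ, γ', hγ, hγ', hne⟩ := (Set.one_lt_ncard_iff).mp hΓ1
  obtain ⟨k₀, hk₀, hk₀γ⟩ := hKtrans γ hγ γ' hγ'
  have hk1 : k₀ ≠ 1 := fun h => hne (by rw [h, one_smul] at hk₀γ; exact hk₀γ)
  have hpre : IsPretransitive G Ω := by
    refine IsPretransitive.mk fun x y => ?_
    have := hqp ⊤ inferInstance (fun h => hk1 ((Subgroup.mem_bot).mp (h ▸ Subgroup.mem_top k₀)))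
    obtain ⟨g, hg⟩ := MulAction.exists_smul_eq (⊤ : Subgroup G) x y
    exact ⟨g.1, hg⟩
  have hprim : IsPreprimitive G Ω := by
    refine { isTrivialBlock_of_isBlock := fun {B} hB => ?_ }
    by_contra htriv
    simp only [IsTrivialBlock, not_or] at htriv
    obtain ⟨hns, hnu⟩ := htriv
    by_cases hsmall : ∀ g : G, ((g • B) ∩ Γ).Subsingleton
    · obtain ⟨b, hb⟩ := (Set.not_subsingleton_iff.mp hns).nonempty
      obtain ⟨g, hg⟩ := MulAction.exists_smul_eq G b γ
      have hγB : γ ∈ g • B := hg ▸ Set.smul_mem_smul_set hb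
      have hnt : (g • B).Nontrivial := (Set.not_subsingleton_iff.mp hns).image (MulAction.injective g)
      obtain ⟨z, hz, hzγ⟩ := hnt.exists_ne γ
      have hzΓ : z ∉ Γ := fun h => hzγ (hsmall g ⟨hz, h⟩ ⟨hγB, hγ⟩)
      have hB1 : IsBlock G (g • B) := hB.translate g
      have heq : k₀ • (g • B) = g • B := by
        apply hB1.smul_eq_of_nonempty
        exact ⟨z, ⟨z, hz, hfixK k₀ hk₀ z hzΓ⟩, hz⟩
      have h1 : γ' ∈ g • B := by rw [← heq, ← hk₀γ]; exact Set.smul_mem_smul_set hγB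
      exact hne (hsmall g ⟨hγB, hγ⟩ ⟨h1, hγ'⟩)
    push Not at hsmall
    obtain ⟨g, hg⟩ := hsmall
    set C := g • B with hCdef
    have hC : IsBlock G C := hB.translate g
    have hblock : IsBlock K (Subtype.val ⁻¹' C : Set (SubMulAction.ofFixingSubgroup G Γᶜ)) := by
      rw [isBlock_iff_smul_eq_of_nonempty]
      rintro ⟨k, hk⟩ ⟨x, hx1, hx2⟩
      obtain ⟨w, hw, rfl⟩ := hx1
      have hkC : k • C = C := hC.smul_eq_of_nonempty ⟨k • (w : Ω), Set.smul_mem_smul_set hw, hx2⟩
      ext ⟨u, hu⟩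
      rw [Set.mem_smul_set_iff_inv_smul_mem]
      show k⁻¹ • u ∈ C ↔ u ∈ C
      conv_rhs => rw [← hkC, Set.mem_smul_set_iff_inv_smul_mem]
    have hΓC : Γ ⊆ C := by
      obtain ⟨x, hx, y, hy, hxy⟩ := hg
      rcases hblock.subsingleton_or_eq_univ with h | h
      · exact absurd (congrArg Subtype.val
          (@h ⟨x, (hmem x).mpr hx.2⟩ hx.1 ⟨y, (hmem y).mpr hy.2⟩ hy.1)) hxy
      · intro z hz
        exact (Set.eq_univ_iff_forall.mp h ⟨z, (hmem z).mpr hz⟩)
    let N : Subgroup G :=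
      { carrier := {n | ∀ h : G, n • (h • C) = h • C}
        mul_mem' := fun {a b} ha hb h => by rw [mul_smul, hb h, ha h]
        one_mem' := fun h => one_smul G _
        inv_mem' := fun {a} ha h => by rw [inv_smul_eq_iff, ha h] }
    have hN : N.Normal := ⟨fun n hn x h => by
      rw [mul_smul, mul_smul, smul_smul x⁻¹ h, hn (x⁻¹ * h), smul_smul, mul_inv_cancel_left]⟩
    have hKN : K ≤ N := by
      intro k hk h
      by_cases hz : ∃ z ∈ Γ, z ∈ h • C
      · obtain ⟨z, hzΓ, hzh⟩ := hz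
        have : h • C = C := hC.smul_eq_of_nonempty ⟨z, hzh, hΓC hzΓ⟩
        rw [this]
        exact hC.smul_eq_of_nonempty
          ⟨k • z, Set.smul_mem_smul_set (hΓC hzΓ), hΓC (hKmaps k hk z hzΓ)⟩
      · push Not at hz
        have : ∀ u ∈ h • C, k • u = u := fun u hu => hfixK k hk u (fun hu' => hz u hu' hu)
        ext u
        exact ⟨fun ⟨w, hw, hwu⟩ => by rw [← hwu]; simpa [this w hw] using hw,
          fun hu => ⟨u, hu, this u hu⟩⟩
    have hNne : N ≠ ⊥ := fun h => hk1 ((Subgroup.mem_bot).mp (h ▸ hKN hk₀))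
    have := hqp N hN hNne
    apply hnu
    have hCu : C = Set.univ := by
      rw [Set.eq_univ_iff_forall]
      intro u
      obtain ⟨⟨n, hn⟩, hnu'⟩ := MulAction.exists_smul_eq N γ u
      have := hn 1
      rw [one_smul] at this
      rw [← this, ← hnu']
      exact Set.smul_mem_smul_set (hΓC hγ)
    have := congrArg (g⁻¹ • ·) hCu
    simpa [hCdef] using this
  obtain ⟨n, hn⟩ : ∃ n, Γᶜ.ncard = n + 1 := ⟨Γᶜ.ncard - 1, by
    have := Set.ncard_add_ncard_compl Γ; omega⟩
  have hsum := Set.ncard_add_ncard_compl Γ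
  have h := hprim.isMultiplyPreprimitive hn (by omega) hJp
  rw [show Nat.card Ω - Γ.ncard + 1 = n + 2 by omega]
  exact h.isMultiplyPretransitive

end Cfsg.Agent.S3619
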