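import Cfsg.Statements.S3622


set_option autoImplicit false
open Cfsg

namespace Cfsg.Agent.S3622

/-- Let G be a group of permutations of a finite set, m ≥ 2, and α a point. Say a permutation σ is k-approximated by a set S of permutations if for every k points there is a member of S agreeing with σ at those points. Suppose every permutation that is (m-1)-approximated by the stabilizer of α in G lies in that stabilizer (the stabilizer is (m-1)-closed). Then every permutation that is m-approximated by G lies in G (G is m-closed). -/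
theorem result {Ω : Type*} [Finite Ω] (G : Subgroup (Equiv.Perm Ω)) (m : ℕ) (hm : 2 ≤ m) (α : Ω)
    (hclosed : ∀ σ : Equiv.Perm Ω,
      (∀ t : Fin (m - 1) → Ω, ∃ g ∈ MulAction.stabilizer ↥G α, ∀ i, (g : Equiv.Perm Ω) (t i) = σ (t i)) →
      σ ∈ G ∧ σ α = α) :
    ∀ σ : Equiv.Perm Ω, (∀ t : Fin m → Ω, ∃ g ∈ G, ∀ i, g (t i) = σ (t i)) → σ ∈ G := by
  intro σ hσ
  obtain ⟨g₀, hg₀, hga⟩ : ∃ g ∈ G, g α = σ α := by
    obtain ⟨g, hg, h⟩ := hσ (fun _ => α)
    exact ⟨g, hg, h ⟨0, by omega⟩⟩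
  have key := hclosed (g₀⁻¹ * σ) ?_
  · have h := G.mul_mem hg₀ key.1
    rwa [mul_inv_cancel_left] at h
  intro t
  obtain ⟨g, hg, h⟩ := hσ (fun i => if hi : (i : ℕ) < m - 1 then t ⟨i, hi⟩ else α)
  have hα : g α = σ α := by
    have := h ⟨m - 1, by omega⟩
    simpa using this
  refine ⟨⟨g₀⁻¹ * g, G.mul_mem (G.inv_mem hg₀) hg⟩, ?_, fun i => ?_⟩
  · show g₀⁻¹ (g α) = α
    rw [hα, ← hga]; simp
  · have := h ⟨i, by omega⟩
    simp only [i.isLt, dif_pos] at this
    show g₀⁻¹ (g (t i)) = g₀⁻¹ (σ (t i))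
    rw [this]

end Cfsg.Agent.S3622
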