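import Cfsg.Statements.S3627
import Cfsg.Agent.Lib.OrderDegrees.ProperDivisorGroups
import Cfsg.Agent.Lib.OrderDegrees.J1Orders.Orders

set_option autoImplicit false
open Cfsg

namespace Cfsg.Agent.S3627

open CfsgLib.OrderDegrees CfsgLib.OrderDegrees.J1Orders

theorem lcm_ne : ∀ a ∈ [1, 2, 3, 5, 6, 7, 10, 11, 15, 19], ∀ b ∈ [1, 2, 3, 5, 6, 7, 10, 11, 15, 19],
    ∀ c ∈ [1, 2, 3, 5, 6, 7, 10, 11, 15, 19], ∀ d ∈ [1, 2, 3, 5, 6, 7, 10, 11, 15, 19],
    Nat.lcm a (Nat.lcm b (Nat.lcm c d)) ≠ 43890 := by decide +kernel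

theorem orders_J1_pow_four :
    Set.range (orderOf : ↥Cfsg.Spor.J1 × ↥Cfsg.Spor.J1 × ↥Cfsg.Spor.J1 × ↥Cfsg.Spor.J1 → ℕ) =
      {d : ℕ | d ∣ 43890 ∧ d ≠ 43890} := by
  ext d
  constructor
  · rintro ⟨⟨a, b, c, e⟩, rfl⟩
    rw [Prod.orderOf_mk, Prod.orderOf_mk, Prod.orderOf_mk]
    have hmem : ∀ g : ↥Cfsg.Spor.J1, orderOf g ∈ [1, 2, 3, 5, 6, 7, 10, 11, 15, 19] := fun g => by
      simpa using orderOf_mem g
    have hdvd : ∀ g : ↥Cfsg.Spor.J1, orderOf g ∣ 43890 := fun g =>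
      (by decide +kernel : ∀ x ∈ [1, 2, 3, 5, 6, 7, 10, 11, 15, 19], x ∣ 43890) _ (hmem g)
    exact ⟨Nat.lcm_dvd (hdvd a) (Nat.lcm_dvd (hdvd b) (Nat.lcm_dvd (hdvd c) (hdvd e))),
      lcm_ne _ (hmem a) _ (hmem b) _ (hmem c) _ (hmem e)⟩
  · rintro ⟨hd, hne⟩
    obtain ⟨l, hl, hlN, hdl⟩ := exists_prime_dvd_div_of_dvd hd hne
    have key : ∀ a b c e, a ∈ [6, 10, 15, 7, 11, 19] → b ∈ [6, 10, 15, 7, 11, 19] → c ∈ [6, 10, 15, 7, 11, 19] →
        e ∈ [6, 10, 15, 7, 11, 19] → Nat.lcm a (Nat.lcm b (Nat.lcm c e)) = 43890 / l →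
        d ∈ Set.range (orderOf : ↥Cfsg.Spor.J1 × ↥Cfsg.Spor.J1 × ↥Cfsg.Spor.J1 × ↥Cfsg.Spor.J1 → ℕ) := by
      intro a b c e ha hb hc he heq
      obtain ⟨x, hx⟩ := exists_orderOf a ha
      obtain ⟨y, hy⟩ := exists_orderOf b hb
      obtain ⟨z, hz⟩ := exists_orderOf c hc
      obtain ⟨w, hw⟩ := exists_orderOf e he
      have ho : orderOf (x, y, z, w) = 43890 / l := by
        rw [Prod.orderOf_mk, Prod.orderOf_mk, Prod.orderOf_mk, hx, hy, hz, hw, heq]
      have hpos : 0 < orderOf (x, y, z, w) :=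
        ho ▸ Nat.div_pos (Nat.le_of_dvd (by norm_num) hlN) hl.pos
      exact exists_orderOf_of_dvd (ho ▸ hdl) hpos
    have h6 : l = 2 ∨ l = 3 ∨ l = 5 ∨ l = 7 ∨ l = 11 ∨ l = 19 := by
      rw [show (43890 : ℕ) = 2 * (3 * (5 * (7 * (11 * 19)))) by norm_num] at hlN
      simp only [hl.dvd_mul, Nat.prime_dvd_prime_iff_eq hl, Nat.prime_two, Nat.prime_three,
        (by norm_num : Nat.Prime 5), (by norm_num : Nat.Prime 7), (by norm_num : Nat.Prime 11),
        (by norm_num : Nat.Prime 19)] at hlN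
      exact hlN
    rcases h6 with rfl | rfl | rfl | rfl | rfl | rfl
    · exact key 15 7 11 19 (by decide) (by decide) (by decide) (by decide) (by decide +kernel)
    · exact key 10 7 11 19 (by decide) (by decide) (by decide) (by decide) (by decide +kernel)
    · exact key 6 7 11 19 (by decide) (by decide) (by decide) (by decide) (by decide +kernel)
    · exact key 6 10 11 19 (by decide) (by decide) (by decide) (by decide) (by decide +kernel)
    · exact key 6 10 7 19 (by decide) (by decide) (by decide) (by decide) (by decide +kernel)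
    · exact key 6 10 7 11 (by decide) (by decide) (by decide) (by decide) (by decide +kernel)

/-- Let J be the first Janko group. Then there are finite groups of arbitrarily large order with exactly the same set of element orders as J × J × J × J. -/
theorem result (N : ℕ) : ∃ (H : Type) (_ : Group H) (_ : Fintype H), N < Fintype.card H ∧
      Set.range (orderOf : H → ℕ) = Set.range (orderOf : ↥Cfsg.Spor.J1 × ↥Cfsg.Spor.J1 × ↥Cfsg.Spor.J1 × ↥Cfsg.Spor.J1 → ℕ) := by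
  obtain ⟨H, iG, iF, hN, hH⟩ := exists_large_proper_divisors (n := 5) (by norm_num) 2 Nat.prime_two
    ![3, 5, 7, 11, 19] (by intro i; fin_cases i <;> simp <;> norm_num)
    (by intro i j h; fin_cases i <;> fin_cases j <;> simp at h ⊢)
    (by intro i; fin_cases i <;> simp) N
  refine ⟨H, iG, iF, hN, ?_⟩
  have h : (∏ i, (![3, 5, 7, 11, 19] : Fin 5 → ℕ) i) * 2 = 43890 := by decide +kernel
  rw [hH, orders_J1_pow_four, h]

end Cfsg.Agent.S3627
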