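import Cfsg.Statements.S3633
import Cfsg.Agent.Lib.OrderDegrees.Coclique

set_option autoImplicit false
open Cfsg

namespace Cfsg.Agent.S3633

/-- Let G be a finite group and ρ a set of at least three prime divisors of the order of G that are pairwise non-adjacent in the prime graph (no element of order rs for distinct r, s ∈ ρ). Then at most one prime of ρ divides the order of any given solvable normal subgroup of G; in particular G is not solvable. -/
theorem result {G : Type*} [Group G] [Finite G] (ρ : Finset ℕ) (hρ : 3 ≤ ρ.card) (hc : ((∀ r ∈ ρ, r.Prime ∧ r ∣ Nat.card G) ∧ (∀ r ∈ ρ, ∀ s ∈ ρ, r ≠ s → ¬ ∃ x : G, orderOf x = r * s)))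
    (K : Subgroup G) [K.Normal] (hK : Group.IsSolvable ↥K) :
    (∀ r ∈ ρ, ∀ s ∈ ρ, r ∣ Nat.card ↥K → s ∣ Nat.card ↥K → r = s) ∧ ¬ Group.IsSolvable G := by
  obtain ⟨hp, hn⟩ := hc
  have main : ∀ (L : Subgroup G), L.Normal → Group.IsSolvable ↥L → ∀ r ∈ ρ, ∀ s ∈ ρ,
      r ∣ Nat.card ↥L → s ∣ Nat.card ↥L → r = s := by
    intro L hLn hL r hr s hs hrL hsL
    by_contra hrs
    obtain ⟨t, ht, htr, hts⟩ : ∃ t ∈ ρ, t ≠ r ∧ t ≠ s := by
      classical
      have hc2 : 1 ≤ (ρ \ {r, s}).card := by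
        have h1 := Finset.le_card_sdiff ({r, s} : Finset ℕ) ρ
        have h2 : ({r, s} : Finset ℕ).card ≤ 2 := Finset.card_le_two
        omega
      obtain ⟨t, ht⟩ := Finset.card_pos.mp hc2
      simp only [Finset.mem_sdiff, Finset.mem_insert, Finset.mem_singleton, not_or] at ht
      exact ⟨t, ht.1, ht.2.1, ht.2.2⟩
    exact CfsgLib.OrderDegrees.false_of_solvable_coclique L hL (hp r hr).1 (hp s hs).1 (hp t ht).1 hrs
      htr.symm hts.symm (hn r hr s hs hrs) (hn r hr t ht htr.symm) (hn s hs t ht hts.symm) hrL hsL (hp t ht).2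
  refine ⟨main K inferInstance hK, fun hG => ?_⟩
  obtain ⟨r, hr, s, hs, hrs⟩ := Finset.one_lt_card.mp (show 1 < ρ.card by omega)
  have htop : Group.IsSolvable ↥(⊤ : Subgroup G) := inferInstance
  exact hrs (main ⊤ inferInstance htop r hr s hs (by rw [Subgroup.card_top]; exact (hp r hr).2)
    (by rw [Subgroup.card_top]; exact (hp s hs).2))

end Cfsg.Agent.S3633
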