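import Cfsg.Statements.S3639
import Cfsg.Agent.Lib.OrderDegrees.PrimeGraphSemidirect
import Cfsg.Agent.Lib.OrderDegrees.SuzukiModule

set_option autoImplicit false
open Cfsg

namespace Cfsg.Agent.S3639

/-- Let S be the Suzuki group over the field with q = 2^(2m+1) ≥ 8 elements. Then there are finite groups of arbitrarily large order with the same prime graph as S. -/
theorem result {F : Type*} [Field F] [Fintype F] {m : ℕ} (hm : 1 ≤ m) (hF : Fintype.card F = 2 ^ (2 * m + 1)) (N : ℕ) :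
    ∃ (H : Type) (_ : Group H) (_ : Fintype H), N < Fintype.card H ∧ ((∀ r : ℕ, r.Prime → (r ∣ Nat.card ↥(Cfsg.Lie.Sz F (2 ^ (m + 1))) ↔ r ∣ Nat.card H)) ∧
      (∀ r s : ℕ, r.Prime → s.Prime → r ≠ s → ((∃ x : ↥(Cfsg.Lie.Sz F (2 ^ (m + 1))), orderOf x = r * s) ↔ (∃ y : H, orderOf y = r * s)))) := by
  have : CharP F 2 := CfsgLib.OrderDegrees.charP_two_of_card hF (by omega)
  obtain ⟨H, _, _, h1, h2, h3⟩ := CfsgLib.OrderDegrees.exists_large_primeGraph 2
    (Cfsg.Lie.Sz F (2 ^ (m + 1))).subtype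
    (by obtain ⟨g, hg⟩ := CfsgLib.OrderDegrees.exists_involution_Sz (F := F) (m + 1)
        have h' := orderOf_dvd_natCard g; rwa [hg] at h')
    (fun g r hr hr2 hg v hv => by
      by_contra hv0
      have h4 := CfsgLib.OrderDegrees.Sz_pow_four_of_fixed g.2 hv0 hv
      have : g ^ 4 = 1 := Subtype.ext h4
      have := orderOf_dvd_of_pow_eq_one this
      rw [hg] at this
      exact hr2 ((Nat.prime_dvd_prime_iff_eq hr Nat.prime_two).mp
        (hr.dvd_of_dvd_pow (show r ∣ 2 ^ 2 from this)))) N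
  exact ⟨H, _, _, by rwa [Nat.card_eq_fintype_card] at h1, h2, h3⟩

end Cfsg.Agent.S3639
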