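import Cfsg.Statements.S3641
import Cfsg.Agent.Lib.OrderDegrees.SylowNumbers
import Cfsg.Agent.Lib.OrderDegrees.Degree18.Ident
import Cfsg.Agent.Lib.ClassicalLinear.BlockHom

set_option autoImplicit false
open Cfsg

namespace Cfsg.Agent.S3641

open Matrix CfsgLib.OrderDegrees CfsgLib.OrderDegrees.Degree18

/-- Transport of `GL / centre` along a ring isomorphism. -/
noncomputable def glModCenterCongr {R S : Type*} [CommRing R] [CommRing S] (e : R ≃+* S) :
    (GL (Fin 2) R ⧸ Subgroup.center (GL (Fin 2) R)) ≃* (GL (Fin 2) S ⧸ Subgroup.center (GL (Fin 2) S)) :=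
  let f : GL (Fin 2) R ≃* GL (Fin 2) S := Units.mapEquiv (RingEquiv.mapMatrix e).toMulEquiv
  QuotientGroup.congr _ _ f <| by
    ext x
    constructor
    · rintro ⟨y, hy, rfl⟩
      exact Subgroup.mem_center_iff.2 fun z => by
        obtain ⟨z, rfl⟩ := f.surjective z
        simp only [MulEquiv.coe_toMonoidHom, MonoidHom.coe_coe, ← map_mul, Subgroup.mem_center_iff.1 hy z]
    · intro hx
      refine ⟨f.symm x, Subgroup.mem_center_iff.2 fun z => ?_, by simp⟩
      apply f.injective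
      simp [Subgroup.mem_center_iff.1 hx]

theorem card_sylow_le_of_injective {A B : Type*} [Group A] [Finite A] [Group B] [Finite B] (f : A →* B)
    (hf : Function.Injective f) (r : ℕ) [Fact r.Prime] : Nat.card (Sylow r A) ≤ Nat.card (Sylow r B) := by
  choose Q hQ using fun P : Sylow r A => Sylow.exists_comap_eq_of_injective P hf
  refine Nat.card_le_card_of_injective Q fun P P' h => ?_
  apply Sylow.ext
  rw [← hQ P, ← hQ P', h]

theorem exists_good {G : Type*} [Group G] [Finite G] (h18 : Nat.card (Sylow 17 G) = 18) :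
    ∃ Φ : G →* Equiv.Perm Pt, Good Φ.range ∧
      ∀ k ∈ Φ.ker, ∀ P : Sylow 17 G, k ∈ Subgroup.normalizer ((P : Subgroup G) : Set G) := by
  classical
  let P₀ : Sylow 17 G := default
  have : Nontrivial (Sylow 17 G) := Finite.one_lt_card_iff_nontrivial.mp (by omega)
  obtain ⟨Q₁, hQ₁⟩ := exists_ne P₀
  obtain ⟨z, hz, hzQ⟩ : ∃ z ∈ (P₀ : Subgroup G), z • Q₁ ≠ Q₁ := by
    by_contra hc
    push Not at hc
    apply hQ₁
    have hle : (P₀ : Subgroup G) ≤ Subgroup.normalizer ((Q₁ : Subgroup G) : Set G) := fun u hu =>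
      Sylow.smul_eq_iff_mem_normalizer.mp (hc u hu)
    have h1 : (P₀ : Subgroup G) ⊓ Subgroup.normalizer ((Q₁ : Subgroup G) : Set G) =
        (P₀ : Subgroup G) ⊓ (Q₁ : Subgroup G) := P₀.2.inf_normalizer_sylow Q₁
    rw [inf_eq_left.mpr hle] at h1
    exact Sylow.ext (P₀.3 Q₁.2 (inf_eq_left.mp h1.symm))
  set φ := MulAction.toPermHom G (Sylow 17 G) with hφ
  set σ := φ z with hσ
  have hσP : σ P₀ = P₀ := Sylow.smul_eq_iff_mem_normalizer.mpr (Subgroup.le_normalizer hz)
  have himg : ∀ y ∈ (P₀ : Subgroup G), φ y ^ 17 = 1 := by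
    intro y hy
    obtain ⟨k, hk⟩ := IsPGroup.iff_card.mp (P₀.2.map φ)
    have hd := ((P₀ : Subgroup G).map φ).card_subgroup_dvd_card
    rw [hk, Nat.card_perm, h18] at hd
    have hk1 : k ≤ 1 := by
      by_contra hk1
      have : 17 ^ 2 ∣ Nat.factorial 18 := (Nat.pow_dvd_pow 17 (by omega)).trans hd
      norm_num [Nat.factorial] at this
    have : orderOf (φ y) ∣ 17 ^ 1 :=
      (Subgroup.orderOf_dvd_natCard ((P₀ : Subgroup G).map φ) ⟨y, hy, rfl⟩).trans (hk ▸ Nat.pow_dvd_pow 17 hk1)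
    exact orderOf_dvd_iff_pow_eq_one.mp (by simpa using this)
  have hσ17 : σ ^ 17 = 1 := himg z hz
  have hord : orderOf σ = 17 := orderOf_eq_prime hσ17 fun h => hzQ (congrArg (fun s : Equiv.Perm _ => s Q₁) h)
  have hfree : ∀ k : ℕ, (σ ^ k) Q₁ = Q₁ → 17 ∣ k := by
    intro k hk
    by_contra hd
    obtain ⟨m, hm⟩ := exists_pow_eq_self_of_coprime (x := σ) (n := k)
      (by rw [hord]; exact ((Nat.Prime.coprime_iff_not_dvd (by norm_num)).mpr hd).symm)
    apply hzQ
    show σ Q₁ = Q₁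
    conv_lhs => rw [← hm]
    have : σ ^ k ∈ MulAction.stabilizer (Equiv.Perm (Sylow 17 G)) Q₁ := hk
    exact pow_mem this m
  let ψ : Pt → Sylow 17 G := fun p => match p with
    | none => P₀
    | some i => (σ ^ i.val) Q₁
  have hψinj : Function.Injective ψ := by
    intro p q h
    cases p with
    | none =>
      cases q with
      | none => rfl
      | some j =>
        exfalso
        apply hQ₁
        have h' : P₀ = (σ ^ j.val) Q₁ := h
        have hfix : (σ ^ j.val) P₀ = P₀ :=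
          Equiv.Perm.pow_apply_eq_self_of_apply_eq_self hσP _
        exact (σ ^ j.val).injective (h'.symm.trans hfix.symm)
    | some i =>
      cases q with
      | none =>
        exfalso
        apply hQ₁
        have h' : (σ ^ i.val) Q₁ = P₀ := h
        have hfix : (σ ^ i.val) P₀ = P₀ :=
          Equiv.Perm.pow_apply_eq_self_of_apply_eq_self hσP _
        exact (σ ^ i.val).injective (h'.trans hfix.symm)
      | some j =>
        have h' : (σ ^ i.val) Q₁ = (σ ^ j.val) Q₁ := h
        have h2 : (σ ^ ((17 - j.val) + i.val)) Q₁ = Q₁ := by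
          rw [pow_add, Equiv.Perm.mul_apply, h', ← Equiv.Perm.mul_apply, ← pow_add,
            Nat.sub_add_cancel (ZMod.val_lt j).le, hσ17]
          rfl
        have hd := hfree _ h2
        have hi := ZMod.val_lt i
        have hj := ZMod.val_lt j
        congr 1
        apply ZMod.val_injective
        obtain ⟨m, hm⟩ := hd
        omega
  let eψ : Pt ≃ Sylow 17 G := Equiv.ofBijective ψ (hψinj.bijective_of_nat_card_le (by
    rw [h18, Nat.card_eq_fintype_card, Fintype.card_option, ZMod.card]))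
  have heψ : ∀ p, eψ p = ψ p := fun p => rfl
  let Φ : G →* Equiv.Perm Pt := eψ.symm.permCongrHom.toMonoidHom.comp φ
  have hΦ : ∀ g p, Φ g p = eψ.symm (φ g (eψ p)) := fun g p => rfl
  have hker : ∀ g, Φ g = 1 ↔ φ g = 1 := fun g =>
    ⟨fun h => eψ.symm.permCongrHom.injective (h.trans (map_one eψ.symm.permCongrHom).symm),
      fun h => by show eψ.symm.permCongrHom (φ g) = 1; rw [h, map_one]⟩
  have hτ : Φ z = tau := by
    ext p : 1
    rw [hΦ, Equiv.symm_apply_eq, ← hσ, heψ, heψ]
    cases p with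
    | none => exact hσP
    | some i =>
      show σ ((σ ^ i.val) Q₁) = (σ ^ (i + 1).val) Q₁
      rw [← Equiv.Perm.mul_apply, ← pow_succ', ZMod.val_add, ← pow_mod_orderOf σ (i.val + 1), hord]
      rfl
  refine ⟨Φ, ⟨⟨z, hτ⟩, fun x => ?_, ?_⟩, fun k hk P => ?_⟩
  · obtain ⟨g, hg⟩ := MulAction.exists_smul_eq G P₀ (eψ x)
    refine ⟨Φ g, ⟨g, rfl⟩, ?_⟩
    rw [hΦ, Equiv.symm_apply_eq]
    exact hg
  · rintro _ ⟨g, rfl⟩ h0
    rw [hΦ, Equiv.symm_apply_eq] at h0
    have hgN : g ∈ Subgroup.normalizer ((P₀ : Subgroup G) : Set G) := Sylow.smul_eq_iff_mem_normalizer.mp h0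
    set y := g * z * g⁻¹ with hy
    have hyP : y ∈ (P₀ : Subgroup G) := (hgN z).mp hz
    have hy17 := himg y hyP
    have himg' : Φ g * tau * (Φ g)⁻¹ = Φ y := by rw [hy, map_mul, map_mul, map_inv, hτ]
    -- both lie in the image of P₀, of order 17
    obtain ⟨k, hk⟩ := IsPGroup.iff_card.mp (P₀.2.map Φ)
    have hd := ((P₀ : Subgroup G).map Φ).card_subgroup_dvd_card
    rw [hk, Nat.card_perm, Nat.card_eq_fintype_card, Fintype.card_option, ZMod.card] at hd
    have hk1 : k ≤ 1 := by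
      by_contra hk1
      have : 17 ^ 2 ∣ Nat.factorial 18 := (Nat.pow_dvd_pow 17 (by omega)).trans hd
      norm_num [Nat.factorial] at this
    have heq : Subgroup.zpowers tau = (P₀ : Subgroup G).map Φ := by
      refine Subgroup.eq_of_le_of_card_ge (Subgroup.zpowers_le.mpr ⟨z, hz, hτ⟩) ?_
      rw [Nat.card_zpowers, orderOf_tau, hk]
      exact (Nat.pow_le_pow_right (by norm_num) hk1).trans (by norm_num)
    have hmem : Φ y ∈ Subgroup.zpowers tau := heq ▸ ⟨y, hyP, rfl⟩
    obtain ⟨i, hi⟩ := mem_zpowers_iff_mem_range_orderOf.mp hmem |> Finset.mem_image.mp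
    exact ⟨i, himg'.trans hi.2.symm⟩
  · exact Sylow.smul_eq_iff_mem_normalizer.mp
      (congrArg (fun s : Equiv.Perm _ => s P) ((hker k).mp hk))

/-- Let G be a finite group with trivial centre whose set of Sylow numbers (numbers of Sylow r-subgroups, r over the prime divisors of its order) is exactly {18, 136, 153}. Then G is isomorphic to PSL(2, 17) or to PGL(2, 17). -/
theorem result {G : Type*} [Group G] [Finite G] (hZ : Subgroup.center G = ⊥) (hNS : {c : ℕ | ∃ r : ℕ, r.Prime ∧ r ∣ Nat.card G ∧ c = Nat.card (Sylow r G)} = ({18, 136, 153} : Set ℕ))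
    {F : Type*} [Field F] [Fintype F] (hF : Fintype.card F = 17) :
    Nonempty (G ≃* Matrix.ProjectiveSpecialLinearGroup (Fin 2) F) ∨ Nonempty (G ≃* (GL (Fin 2) F ⧸ Subgroup.center (GL (Fin 2) F))) := by
  classical
  set S : Set ℕ := {c : ℕ | ∃ r : ℕ, r.Prime ∧ r ∣ Nat.card G ∧ c = Nat.card (Sylow r G)} with hS
  have hval : ∀ r : ℕ, r.Prime → r ∣ Nat.card G →
      Nat.card (Sylow r G) = 18 ∨ Nat.card (Sylow r G) = 136 ∨ Nat.card (Sylow r G) = 153 := by
    intro r hr hrG
    have : Nat.card (Sylow r G) ∈ S := ⟨r, hr, hrG, rfl⟩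
    rw [hNS] at this
    simpa using this
  have hcong : ∀ r : ℕ, r.Prime → r ∣ Nat.card G → r ∣ Nat.card (Sylow r G) - 1 := by
    intro r hr _
    have : Fact r.Prime := ⟨hr⟩
    exact (Nat.modEq_iff_dvd' (Nat.card_pos)).mp (card_sylow_modEq_one r G).symm
  have small : ∀ {r : ℕ}, r.Prime → r ∣ 17 ∨ r ∣ 135 ∨ r ∣ 152 → r = 17 ∨ r = 3 ∨ r = 5 ∨ r = 2 ∨ r = 19 := by
    intro r hr h
    rcases h with h | h | h
    · exact Or.inl ((Nat.prime_dvd_prime_iff_eq hr (by norm_num)).mp h)
    · rcases hr.dvd_mul.mp (show r ∣ 3 ^ 3 * 5 from h) with h | h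
      · exact Or.inr (Or.inl ((Nat.prime_dvd_prime_iff_eq hr Nat.prime_three).mp (hr.dvd_of_dvd_pow h)))
      · exact Or.inr (Or.inr (Or.inl ((Nat.prime_dvd_prime_iff_eq hr (by norm_num)).mp h)))
    · rcases hr.dvd_mul.mp (show r ∣ 2 ^ 3 * 19 from h) with h | h
      · exact Or.inr (Or.inr (Or.inr (Or.inl ((Nat.prime_dvd_prime_iff_eq hr Nat.prime_two).mp (hr.dvd_of_dvd_pow h)))))
      · exact Or.inr (Or.inr (Or.inr (Or.inr ((Nat.prime_dvd_prime_iff_eq hr (by norm_num)).mp h))))
  have hprimes : ∀ r : ℕ, r.Prime → r ∣ Nat.card G →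
      (r = 17 ∧ Nat.card (Sylow r G) = 18) ∨ (r = 3 ∧ Nat.card (Sylow r G) = 136) ∨
      (r = 5 ∧ Nat.card (Sylow r G) = 136) ∨ (r = 2 ∧ Nat.card (Sylow r G) = 153) ∨
      (r = 19 ∧ Nat.card (Sylow r G) = 153) := by
    intro r hr hrG
    have hc := hcong r hr hrG
    rcases hval r hr hrG with h | h | h <;> rw [h] at hc ⊢
    · rcases small hr (Or.inl (show r ∣ 17 from hc)) with rfl | rfl | rfl | rfl | rfl <;>
        first | (norm_num at hc; done) | norm_num
    · rcases small hr (Or.inr (Or.inl (show r ∣ 135 from hc))) with rfl | rfl | rfl | rfl | rfl <;>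
        first | (norm_num at hc; done) | norm_num
    · rcases small hr (Or.inr (Or.inr (show r ∣ 152 from hc))) with rfl | rfl | rfl | rfl | rfl <;>
        first | (norm_num at hc; done) | norm_num
  obtain ⟨h17G, h18⟩ : 17 ∣ Nat.card G ∧ Nat.card (Sylow 17 G) = 18 := by
    have : (18 : ℕ) ∈ S := by rw [hNS]; simp
    obtain ⟨r, hr, hrG, h⟩ := this
    rcases hprimes r hr hrG with ⟨rfl, h'⟩ | ⟨rfl, h'⟩ | ⟨rfl, h'⟩ | ⟨rfl, h'⟩ | ⟨rfl, h'⟩ <;>
      first | exact ⟨hrG, h'⟩ | (exfalso; omega)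
  have h18G : 18 ∣ Nat.card G := by
    let P : Sylow 17 G := default
    rw [← h18, Sylow.card_eq_index_normalizer P]
    exact Subgroup.index_dvd_card _
  have : Fact (Nat.Prime 2) := ⟨Nat.prime_two⟩
  have : Fact (Nat.Prime 3) := ⟨Nat.prime_three⟩
  have h2 : Nat.card (Sylow 2 G) = 153 := by
    rcases hprimes 2 Nat.prime_two ((show 2 ∣ 18 by norm_num).trans h18G) with h | h | h | h | h <;>
      first | exact h.2 | (exfalso; omega)
  have h3 : Nat.card (Sylow 3 G) = 136 := by
    rcases hprimes 3 Nat.prime_three ((show 3 ∣ 18 by norm_num).trans h18G) with h | h | h | h | h <;>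
      first | exact h.2 | (exfalso; omega)
  obtain ⟨Φ, hgood, hker17⟩ := exists_good h18
  set H := Φ.range with hH
  have hE := hgood.even_part
  set E := H ⊓ alternatingGroup Pt with hEdef
  have hev : ∀ h ∈ E, Equiv.Perm.sign h = 1 := fun h hh => sign_even_part hh
  have hn3 : 136 ≤ Nat.card (Sylow 3 ↥H) := by
    rw [← hE.card_sylow_three hev]
    exact card_sylow_le_of_injective _ (Subgroup.inclusion_injective (inf_le_left : E ≤ H)) 3
  have hn2 : 153 ≤ Nat.card (Sylow 2 ↥H) := by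
    rw [← hE.card_sylow_two hev]
    exact card_sylow_le_of_injective _ (Subgroup.inclusion_injective (inf_le_left : E ≤ H)) 2
  have hbig : ∀ r : ℕ, r.Prime → r ∣ Nat.card G → r = 5 ∨ r = 19 → False := by
    intro r hr hrG hcase
    have : Fact r.Prime := ⟨hr⟩
    let R : Sylow r G := default
    have hR : (R : Subgroup G) ≤ Φ.ker := by
      intro x hx
      rw [MonoidHom.mem_ker]
      obtain ⟨k, hk⟩ := R.2 ⟨x, hx⟩
      have hk' : x ^ r ^ k = 1 := congrArg Subtype.val hk
      have hd1 : orderOf (Φ x) ∣ r ^ k := (orderOf_map_dvd Φ x).trans (orderOf_dvd_of_pow_eq_one hk')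
      have hd2 : orderOf (Φ x) ∣ 18 * 17 * 16 := by
        refine (Subgroup.orderOf_dvd_natCard H ⟨x, rfl⟩).trans ?_
        rw [hgood.card_eq.1]
        exact Nat.mul_dvd_mul_left _ hgood.card_eq.2
      have hcop : Nat.Coprime (r ^ k) (18 * 17 * 16) := by
        apply Nat.Coprime.pow_left
        rw [hr.coprime_iff_not_dvd]
        rcases hcase with rfl | rfl <;> norm_num
      have h1 := Nat.dvd_gcd hd1 hd2
      rw [Nat.coprime_iff_gcd_eq_one.mp hcop] at h1
      exact orderOf_eq_one_iff.mp (Nat.dvd_one.mp h1)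
    have key := qpart_card_sylow_modEq_one (q := 17) R (fun Q => fun x hx => hker17 x (hR hx) Q)
    rcases hprimes r hr hrG with h | h | h | h | h <;> obtain ⟨rfl, h⟩ := h
    all_goals (first | omega | skip)
    all_goals (rw [h] at key)
    · rw [show (136 : ℕ) = 17 ^ 1 * 8 by norm_num, Nat.factorization_mul (by norm_num) (by norm_num),
        Finsupp.add_apply, Nat.Prime.factorization_pow (by norm_num : Nat.Prime 17), Finsupp.single_eq_same,
        Nat.factorization_eq_zero_of_not_dvd (by norm_num)] at key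
      exact absurd key (by decide)
    · rw [show (153 : ℕ) = 17 ^ 1 * 9 by norm_num, Nat.factorization_mul (by norm_num) (by norm_num),
        Finsupp.add_apply, Nat.Prime.factorization_pow (by norm_num : Nat.Prime 17), Finsupp.single_eq_same,
        Nat.factorization_eq_zero_of_not_dvd (by norm_num)] at key
      exact absurd key (by decide)
  have hK : Φ.ker = ⊥ := by
    apply eq_bot_of_normalizes_all_sylow hZ
    intro r hr hrG R
    have : Fact r.Prime := ⟨hr⟩
    rw [← MonoidHom.ker_rangeRestrict]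
    rcases hprimes r hr hrG with ⟨rfl, h⟩ | ⟨rfl, h⟩ | ⟨rfl, h⟩ | ⟨rfl, h⟩ | ⟨rfl, h⟩
    · intro k hk
      rw [MonoidHom.ker_rangeRestrict] at hk
      exact hker17 k hk R
    · exact ker_le_normalizer_of_card_sylow _ Φ.rangeRestrict_surjective (h ▸ hn3) R
    · exact (hbig _ hr hrG (Or.inl rfl)).elim
    · exact ker_le_normalizer_of_card_sylow _ Φ.rangeRestrict_surjective (h ▸ hn2) R
    · exact (hbig _ hr hrG (Or.inr rfl)).elim
  have hinj : Function.Injective Φ := (MonoidHom.ker_eq_bot_iff Φ).mp hK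
  let eG : G ≃* ↥H := MonoidHom.ofInjective hinj
  let e : ZMod 17 ≃+* F := ZMod.ringEquivOfPrime F (by norm_num) hF
  by_cases hodd : ∃ h ∈ H, Equiv.Perm.sign h = -1
  · right
    obtain ⟨e1⟩ := hgood.nonempty_equiv_pgl hodd
    exact ⟨(eG.trans e1).trans (glModCenterCongr e)⟩
  · left
    push Not at hodd
    obtain ⟨e1⟩ := hgood.nonempty_equiv_psl fun h hh =>
      (Int.units_eq_one_or _).resolve_right (hodd h hh)
    exact ⟨(eG.trans e1).trans (CfsgLib.ClassicalLinear.pslCongr e)⟩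

end Cfsg.Agent.S3641
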