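import Cfsg.Statements.S3648
import Cfsg.Agent.Lib.NSEPGL.Geometry
import Cfsg.Agent.Lib.NSEPGL.PGLFacts
import Cfsg.Agent.Lib.ClassicalLinear.BlockHom

set_option autoImplicit false
open Cfsg

namespace Cfsg.Agent.S3648

/-- For a finite group X let nse(X) be the set of values of the function 'number of elements of order k' over the element orders k that occur. Let F be a finite field of odd order q > 3 and P = PGL(2, F) = GL(2, F) modulo its centre. If G is a finite group with the same order as P and nse(G) = nse(P), then G is isomorphic to P. -/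
theorem result {F : Type*} [Field F] [Fintype F] (hodd : Odd (Fintype.card F)) (h3 : 3 < Fintype.card F)
    {G : Type*} [Group G] [Finite G] (hcard : Nat.card G = Nat.card (GL (Fin 2) F ⧸ Subgroup.center (GL (Fin 2) F)))
    (hnse : {c : ℕ | 0 < c ∧ ∃ n : ℕ, c = Nat.card {g : G // orderOf g = n}} = {c : ℕ | 0 < c ∧ ∃ n : ℕ, c = Nat.card {g : (GL (Fin 2) F ⧸ Subgroup.center (GL (Fin 2) F)) // orderOf g = n}}) :
    Nonempty (G ≃* (GL (Fin 2) F ⧸ Subgroup.center (GL (Fin 2) F))) := by
  classical
  obtain ⟨p, hchar, n, hp, hq⟩ := FiniteField.card' F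
  haveI : Fact p.Prime := ⟨hp⟩
  haveI : CharP F p := hchar
  have h2 : (2 : F) ≠ 0 := fun h => by
    have h' : ringChar F = 2 := CharP.ringChar_of_prime_eq_zero Nat.prime_two (by exact_mod_cast h)
    have := FiniteField.even_card_of_char_two h'
    rw [Nat.odd_iff] at hodd
    omega
  have hp2 : p ≠ 2 := CfsgLib.NSEPGL.p_ne_two h2
  have hiff : ∀ c : ℕ, 0 < c → ((∃ k, c = CfsgLib.Spectrum.orderCount G k) ↔
      ∃ k, c = CfsgLib.Spectrum.orderCount (GL (Fin 2) F ⧸ Subgroup.center (GL (Fin 2) F)) k) := by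
    intro c hc
    have h' := Set.ext_iff.1 hnse c
    simp only [Set.mem_setOf_eq, hc, true_and] at h'
    exact h'
  obtain ⟨r, hr⟩ : ∃ r, Fintype.card F * Fintype.card F = r + 1 :=
    ⟨Fintype.card F * Fintype.card F - 1, by
      have := Nat.mul_le_mul h3 h3
      omega⟩
  have hP : CfsgLib.NSEPGL.NseParams G p n (Fintype.card F) r :=
    { hp := hp
      hp2 := hp2
      hq := hq
      hf := n.pos
      hr := hr
      hG := by
        rw [hcard]
        show Nat.card (Matrix.ProjGenLinGroup (Fin 2) F) = _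
        rw [CfsgLib.AltGroups.card_PGL_two, pow_two, hr, Nat.add_sub_cancel]
      hvals := fun k hk => by
        obtain ⟨k', hk'⟩ := (hiff _ (Nat.pos_of_ne_zero hk)).1 ⟨k, rfl⟩
        rcases CfsgLib.NSEPGL.count_cases h2 p k' (hk' ▸ hk) with e | e | e | e <;> rw [← hk'] at e
        · exact Or.inl e
        · exact Or.inr (Or.inl e)
        · exact Or.inr (Or.inr (Or.inl (by omega)))
        · exact Or.inr (Or.inr (Or.inr e))
      hsq := by
        obtain ⟨k, hk⟩ := (hiff (Fintype.card F * Fintype.card F) (by omega)).2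
          ⟨2, by rw [CfsgLib.NSEPGL.count_two h2, pow_two]⟩
        exact ⟨k, hk.symm⟩ }
  obtain ⟨K, _, _, hK, ⟨i⟩⟩ := hP.exists_iso
  let g' : GL (Fin 2) K ≃* GL (Fin 2) F :=
    Units.mapEquiv (RingEquiv.toMulEquiv (RingEquiv.mapMatrix (FiniteField.ringEquivOfCardEq hK : K ≃+* F)))
  refine ⟨i.trans (QuotientGroup.congr _ _ g' ?_)⟩
  ext x
  constructor
  · rintro ⟨y, hy, rfl⟩
    rw [Subgroup.mem_center_iff]
    intro z
    obtain ⟨w, rfl⟩ := g'.surjective z
    show g' w * g' y = g' y * g' w
    rw [← map_mul, ← map_mul, Subgroup.mem_center_iff.1 hy w]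
  · intro hx
    refine ⟨g'.symm x, ?_, g'.apply_symm_apply x⟩
    show g'.symm x ∈ Subgroup.center _
    rw [Subgroup.mem_center_iff]
    intro z
    apply g'.injective
    rw [map_mul, map_mul, g'.apply_symm_apply]
    exact Subgroup.mem_center_iff.1 hx (g' z)

end Cfsg.Agent.S3648
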