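import Cfsg.Statements.S3660
import Cfsg.Agent.Lib.OrderDegrees.PrimeGraphSemidirect
import Cfsg.Agent.Lib.OrderDegrees.SL2Module

set_option autoImplicit false
open Cfsg

namespace Cfsg.Agent.S3660

/-- The prime graph of a finite group has the prime divisors of its order as vertices, two distinct primes p, q being joined when the group has an element of order pq; two groups have the same prime graph when they have the same prime divisors and the same joined pairs. Let F be a finite field of characteristic 2 with at least 4 elements. Then there are finite groups of arbitrarily large order with the same prime graph as PSL(2,F); in particular PSL(2,F) is not determined by its prime graph. -/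
theorem result {F : Type*} [Field F] [Fintype F] [CharP F 2] (hF : 4 ≤ Fintype.card F) (N : ℕ) :
    ∃ (H : Type) (_ : Group H) (_ : Finite H), N < Nat.card H ∧
      ((∀ p : ℕ, p.Prime → (p ∣ Nat.card (Matrix.ProjectiveSpecialLinearGroup (Fin 2) F) ↔ p ∣ Nat.card H)) ∧
      (∀ p q : ℕ, p.Prime → q.Prime → p ≠ q → ((∃ g : (Matrix.ProjectiveSpecialLinearGroup (Fin 2) F), orderOf g = p * q) ↔ (∃ g : H, orderOf g = p * q)))) := by
  obtain ⟨H, _, _, h1, h2, h3⟩ := CfsgLib.OrderDegrees.exists_large_primeGraph 2
    (Matrix.SpecialLinearGroup.toGL.comp (CfsgLib.OrderDegrees.psl2EquivSL2 F).toMonoidHom)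
    (by obtain ⟨A, hA⟩ := CfsgLib.OrderDegrees.exists_involution_sl2 (F := F)
        have h := orderOf_dvd_natCard ((CfsgLib.OrderDegrees.psl2EquivSL2 F).symm A)
        rwa [MulEquiv.orderOf_eq, hA] at h)
    (fun g r hr hr2 hg v hv => by
      by_contra hv0
      have h4 := CfsgLib.OrderDegrees.sl2_sq_eq_one_of_fixed
        ((CfsgLib.OrderDegrees.psl2EquivSL2 F) g) hv0 hv
      have := orderOf_dvd_of_pow_eq_one h4
      rw [MulEquiv.orderOf_eq, hg] at this
      exact hr2 ((Nat.prime_dvd_prime_iff_eq hr Nat.prime_two).mp this)) N
  exact ⟨H, _, inferInstance, h1, h2, h3⟩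

end Cfsg.Agent.S3660
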