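import Cfsg.Statements.S3662
import Cfsg.Agent.Lib.OrderDegrees.G2Iso
import Cfsg.Agent.Lib.OrderDegrees.GraphAdjacent
import Cfsg.Agent.Lib.OrderDegrees.SuzukiModule

set_option autoImplicit false
open Cfsg Matrix CfsgLib.OrderDegrees CfsgLib.OrderDegrees.G2

namespace Cfsg.Agent.S3662

section helpers

open Matrix CfsgLib.OrderDegrees CfsgLib.OrderDegrees.G2

/-- the polynomial matrix with the parameter specialised to 1 -/
def atOne (A : PM) : PM := fun i j => (A i j).map fun _ => 0

theorem evM_atOne {F : Type*} [CommRing F] (t : F) (A : PM) : evM t (atOne A) = evM (1 : F) A := by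
  ext i j
  simp [evM, atOne, ev, List.map_map, Function.comp_def]

def word5 : PM := pmul (Ys 11) (atOne (Ys 0))
def word3 : PM := pmul (atOne (Ys 11)) (atOne (Ys 0))

def word2 : PM := atOne (Ys 7)

/-- reduction of an exponent modulo `x ^ 2 + x + 1` -/
def red (k : ℕ) : List ℕ := if k % 3 = 2 then [0, 1] else [k % 3]

theorem ev_red {F : Type*} [Field F] [CharP F 2] {t : F} (ht : t ^ 2 + t + 1 = 0) (l : List ℕ) :
    ev t (l.flatMap red) = ev t l := by
  have h3 : t ^ 3 = 1 := by linear_combination (t - 1) * ht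
  induction l with
  | nil => rfl
  | cons k l ih =>
    rw [List.flatMap_cons, ev_append, ev_cons, ih]
    congr 1
    have hk : t ^ k = t ^ (k % 3) := by
      conv_lhs => rw [← Nat.mod_add_div k 3, pow_add, pow_mul, h3, one_pow, mul_one]
    unfold red
    split_ifs with h
    · rw [hk, h]
      simp [ev]
      linear_combination ht - t ^ 2 * CharTwo.two_eq_zero (R := F)
    · simp [ev, hk]

theorem word5_pow : ∀ i j, nrm ((ppow word5 5 i j).flatMap red) = nrm ((pone i j).flatMap red) := by
  decide +kernel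

theorem word3_pow : ∀ i j, nrm (ppow word3 3 i j) = nrm (pone i j) := by decide +kernel

theorem comm5 : ∀ i j, nrm (pmul word2 word5 i j) = nrm (pmul word5 word2 i j) := by decide +kernel

theorem comm3 : ∀ i j, nrm (pmul word2 word3 i j) = nrm (pmul word3 word2 i j) := by decide +kernel

end helpers

/-- The prime graph of a finite group has the prime divisors of its order as vertices, two distinct primes p, q being joined when the group has an element of order pq; two groups have the same prime graph when they have the same prime divisors and the same joined pairs. Let F be the field with 4 elements and L the Chevalley group of type G₂ over F. There are finite groups of arbitrarily large order with the same prime graph as L. -/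
theorem result {F : Type*} [Field F] [Fintype F] (hF : Fintype.card F = 4) (N : ℕ) :
    ∃ (H : Type) (_ : Group H) (_ : Finite H), N < Nat.card H ∧
      ((∀ p : ℕ, p.Prime → (p ∣ Nat.card ↥(Cfsg.Lie.chevG2.group F) ↔ p ∣ Nat.card H)) ∧
      (∀ p q : ℕ, p.Prime → q.Prime → p ≠ q → ((∃ g : ↥(Cfsg.Lie.chevG2.group F), orderOf g = p * q) ↔ (∃ g : H, orderOf g = p * q)))) := by
  classical
  have : CharP F 2 := charP_two_of_card (k := 2) (by rw [hF]; norm_num) two_ne_zero
  obtain ⟨e⟩ := nonempty_equiv (F := F)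
  obtain ⟨t, ht⟩ : ∃ t : F, t ^ 2 + t + 1 = 0 := by
    obtain ⟨t, -, ht⟩ := Finset.exists_mem_notMem_of_card_lt_card
      (s := ({0, 1} : Finset F)) (t := Finset.univ) (by
        rw [Finset.card_univ, hF]
        exact (Finset.card_le_two).trans_lt (by norm_num))
    simp only [Finset.mem_insert, Finset.mem_singleton, not_or] at ht
    refine ⟨t, ?_⟩
    have h : t ^ 3 = 1 := by
      have := FiniteField.pow_card_sub_one_eq_one t ht.1
      rwa [hF] at this
    have h2 : (t - 1) * (t ^ 2 + t + 1) = 0 := by linear_combination h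
    exact (mul_eq_zero.mp h2).resolve_left (sub_ne_zero.mpr ht.2)
  have ht0 : t ≠ 0 := by
    rintro rfl
    simp at ht
  -- the two elements of order 2r
  let x : G6 F := ⟨Ygl 7 1, Ygl_mem 7 1⟩
  let z5 : G6 F := ⟨Ygl 11 t * Ygl 0 1, mul_mem (Ygl_mem 11 t) (Ygl_mem 0 1)⟩
  let z3 : G6 F := ⟨Ygl 11 1 * Ygl 0 1, mul_mem (Ygl_mem 11 1) (Ygl_mem 0 1)⟩
  have vx : ((x : GL (Fin 6) F) : Matrix (Fin 6) (Fin 6) F) = evM t word2 := (evM_atOne t _).symm
  have v5 : ((z5 : GL (Fin 6) F) : Matrix (Fin 6) (Fin 6) F) = evM t word5 := by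
    rw [word5, evM_pmul, evM_atOne]; rfl
  have v3 : ((z3 : GL (Fin 6) F) : Matrix (Fin 6) (Fin 6) F) = evM t word3 := by
    rw [word3, evM_pmul, evM_atOne, evM_atOne]; rfl
  have ox : orderOf x = 2 := by
    rw [orderOf_eq_prime_iff]
    refine ⟨Subtype.ext (Units.ext ?_), fun h => ?_⟩
    · simp only [SubmonoidClass.coe_pow, Units.val_pow_eq_pow_val, sq]
      exact Y_mul_self 7 (1 : F)
    · have := congrFun (congrFun (congrArg (fun g : G6 F => ((g : GL (Fin 6) F) : Matrix (Fin 6) (Fin 6) F)) h) 0) 1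
      simp [vx, word2, atOne, evM, ev, Ys, pone, off] at this
  have ord : ∀ (z : G6 F) (r : ℕ), r.Prime → r ≠ 2 → z ^ r = 1 → z ≠ 1 → x * z = z * x →
      ∃ g : G6 F, orderOf g = 2 * r := fun z r hr hr2 h1 h2 h3 => by
    have : Fact r.Prime := ⟨hr⟩
    have hz : orderOf z = r := orderOf_eq_prime h1 h2
    refine ⟨x * z, ?_⟩
    rw [(show Commute x z from h3).orderOf_mul_eq_mul_orderOf_of_coprime, ox, hz]
    rw [ox, hz]
    exact (Nat.coprime_primes Nat.prime_two hr).mpr (Ne.symm hr2)
  have e6 : ∃ g : G6 F, orderOf g = 2 * 3 := by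
    refine ord z3 3 Nat.prime_three (by norm_num) (Subtype.ext (Units.ext ?_)) (fun h => ?_)
      (Subtype.ext (Units.ext ?_))
    · simp only [SubmonoidClass.coe_pow, Units.val_pow_eq_pow_val, v3]
      rw [← evM_ppow, evM_congr t word3_pow, evM_pone]; rfl
    · have := congrFun (congrFun (congrArg (fun g : G6 F => ((g : GL (Fin 6) F) : Matrix (Fin 6) (Fin 6) F)) h) 0) 0
      simp [v3, word3, pmul, lmul, atOne, evM, ev, Ys, pone, off, List.finRange, CharTwo.add_self_eq_zero] at this
    · simp only [Subgroup.coe_mul, Units.val_mul, v3, vx]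
      rw [← evM_pmul, ← evM_pmul, evM_congr t comm3]
  have e10 : ∃ g : G6 F, orderOf g = 2 * 5 := by
    refine ord z5 5 (by norm_num) (by norm_num) (Subtype.ext (Units.ext ?_)) (fun h => ?_)
      (Subtype.ext (Units.ext ?_))
    · simp only [SubmonoidClass.coe_pow, Units.val_pow_eq_pow_val, v5]
      rw [← evM_ppow, show (((1 : G6 F) : GL (Fin 6) F) : Matrix (Fin 6) (Fin 6) F) = evM t pone from (evM_pone t).symm]
      ext i j
      rw [evM, evM, of_apply, of_apply, ← ev_red ht (ppow _ 5 i j), ← ev_red ht (pone i j)]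
      exact ev_eq_of_nrm t (word5_pow i j)
    · have := congrFun (congrFun (congrArg (fun g : G6 F => ((g : GL (Fin 6) F) : Matrix (Fin 6) (Fin 6) F)) h) 0) 0
      simp [v5, word5, pmul, lmul, atOne, evM, ev, Ys, pone, off, List.finRange, ht0] at this
    · simp only [Subgroup.coe_mul, Units.val_mul, v5, vx]
      rw [← evM_pmul, ← evM_pmul, evM_congr t comm5]
  have h2 : (2 : ℕ) ∣ Nat.card ↥(Cfsg.Lie.chevG2.group F) := by
    rw [← Nat.card_congr e.toEquiv, ← ox]
    exact orderOf_dvd_natCard x
  have : Fact (Nat.Prime 2) := ⟨Nat.prime_two⟩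
  obtain ⟨H, iG, iF, k1, k2, k3⟩ := exists_large_primeGraph_adjacent 2
    ((G6 F).subtype.comp e.symm.toMonoidHom) h2 (fun g r hr hr2 hg v hv => by
      by_cases hv0 : v = 0
      · exact Or.inl hv0
      right
      have hd := prime_dvd_of_fixed (e.symm g).2 hv0 hv
      rw [Subgroup.orderOf_coe, MulEquiv.orderOf_eq, hg, hF] at hd
      norm_num at hd
      have hr' : r = 3 ∨ r = 5 := by
        have h5 : r ∣ 2 ^ 5 * 3 ^ 2 * 5 := by norm_num; exact hd
        rcases hr.dvd_mul.mp h5 with h | h
        · rcases hr.dvd_mul.mp h with h | h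
          · exact absurd ((Nat.prime_dvd_prime_iff_eq hr Nat.prime_two).mp (hr.dvd_of_dvd_pow h)) hr2
          · exact Or.inl ((Nat.prime_dvd_prime_iff_eq hr Nat.prime_three).mp (hr.dvd_of_dvd_pow h))
        · exact Or.inr ((Nat.prime_dvd_prime_iff_eq hr (by norm_num)).mp h)
      rcases hr' with rfl | rfl
      · obtain ⟨a, ha⟩ := e6
        exact ⟨e a, (MulEquiv.orderOf_eq e a).trans ha⟩
      · obtain ⟨a, ha⟩ := e10
        exact ⟨e a, (MulEquiv.orderOf_eq e a).trans ha⟩) N
  exact ⟨H, iG, inferInstance, k1, k2, k3⟩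

end Cfsg.Agent.S3662
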