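import Cfsg.Statements.S3663
import Cfsg.Agent.Lib.OrderDegrees.GraphAdjacent
import Cfsg.Agent.Lib.OrderDegrees.U34.Witness

set_option autoImplicit false
set_option linter.unusedSectionVars false
open Cfsg

namespace Cfsg.Agent.S3663

open CfsgLib.OrderDegrees CfsgLib.OrderDegrees.U34

section

variable {F : Type*} [Field F] [Fintype F] [CharP F 2] (K : Coord F)

/-- Functions summing to zero on every left coset of every subgroup of order 13. -/
def cosetModule : Submodule (ZMod 5) (Cfsg.SU 3 F 4 → ZMod 5) where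
  carrier := {φ | ∀ z, orderOf z = 13 → ∀ x, ∑ k : Fin 13, φ (x * z ^ (k : ℕ)) = 0}
  add_mem' {φ ψ} hφ hψ z hz x := by simp [Finset.sum_add_distrib, hφ z hz x, hψ z hz x]
  zero_mem' z _ x := by simp
  smul_mem' c φ hφ z hz x := by simp [← Finset.mul_sum, hφ z hz x]

def translate (g : Cfsg.SU 3 F 4) :
    cosetModule (F := F) →ₗ[ZMod 5] cosetModule (F := F) where
  toFun φ := ⟨fun x => φ.1 (x * g), fun z hz x => by
    have h := φ.2 (g⁻¹ * z * g) (by
      rw [show g⁻¹ * z * g = MulAut.conj g⁻¹ z by simp]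
      exact (MulEquiv.orderOf_eq _ z).trans hz) (x * g)
    refine (Finset.sum_congr rfl fun k _ => congrArg φ.1 ?_).trans h
    have hc : (g⁻¹ * z * g) ^ (k : ℕ) = g⁻¹ * z ^ (k : ℕ) * g := by
      simpa using conj_pow (i := (k : ℕ)) (a := g⁻¹) (b := z)
    rw [hc]
    group⟩
  map_add' _ _ := rfl
  map_smul' _ _ := rfl

def translateHom : Cfsg.SU 3 F 4 →* Module.End (ZMod 5) (cosetModule (F := F)) where
  toFun := translate
  map_one' := LinearMap.ext fun φ => Subtype.ext (funext fun x => by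
    show φ.1 (x * 1) = φ.1 x
    rw [mul_one])
  map_mul' g h := LinearMap.ext fun φ => Subtype.ext (funext fun x => by
    show φ.1 (x * (g * h)) = φ.1 (x * g * h)
    rw [mul_assoc])

theorem exists_conj_gen (z : Cfsg.SU 3 F 4) (hz : orderOf z = 13) :
    ∃ (g : Cfsg.SU 3 F 4) (c : Fin 13), c ≠ 0 ∧ z = g * pw K c * g⁻¹ := by
  have : Fact (Nat.Prime 13) := ⟨by norm_num⟩
  have : Finite (Cfsg.SU 3 F 4) := Nat.finite_of_card_ne_zero (by rw [card_SU K]; norm_num)
  have hv : (Nat.card (Cfsg.SU 3 F 4)).factorization 13 = 1 := by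
    rw [card_SU K, show 62400 = 13 * 4800 by norm_num, Nat.factorization_mul (by norm_num) (by norm_num),
      Finsupp.add_apply, Nat.Prime.factorization_self (by norm_num),
      Nat.factorization_eq_zero_of_not_dvd (by norm_num)]
  have hcard : ∀ w : Cfsg.SU 3 F 4, orderOf w = 13 →
      Nat.card (Subgroup.zpowers w) = 13 ^ (Nat.card (Cfsg.SU 3 F 4)).factorization 13 := fun w hw => by
    rw [Nat.card_zpowers, hw, hv, pow_one]
  obtain ⟨g, hg⟩ := MulAction.exists_smul_eq (Cfsg.SU 3 F 4)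
    (Sylow.ofCard _ (hcard _ (orderOf_gen K))) (Sylow.ofCard _ (hcard z hz))
  have hg' := congrArg (fun P : Sylow 13 (Cfsg.SU 3 F 4) => (P : Subgroup (Cfsg.SU 3 F 4))) hg
  simp only [Sylow.coe_subgroup_smul, Sylow.coe_ofCard] at hg'
  have hz' : z ∈ Subgroup.zpowers z := Subgroup.mem_zpowers z
  rw [← hg', Subgroup.mem_pointwise_smul_iff_inv_smul_mem, ← map_inv] at hz'
  obtain ⟨m, hm⟩ := (mem_powers_iff_mem_zpowers (x := gen K)).mpr hz'
  obtain ⟨n, hn1, hn2⟩ : ∃ n < 13, gen K ^ n = _ := ⟨m % 13, Nat.mod_lt _ (by norm_num),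
    (pow_eq_pow_mod m (gen_pow_13 K)).symm.trans hm⟩
  have e : z = g * pw K ⟨n, hn1⟩ * g⁻¹ := by
    show z = g * gen K ^ n * g⁻¹
    rw [hn2]
    simp [MulAut.smul_def]
    group
  refine ⟨g, ⟨n, hn1⟩, fun hc => ?_, e⟩
  rw [e, hc, pw, Fin.val_zero, pow_zero, mul_one, mul_inv_cancel, orderOf_one] at hz
  norm_num at hz

theorem f_mem : f K ∈ cosetModule (F := F) := by
  intro z hz x
  obtain ⟨g, c, hc, rfl⟩ := exists_conj_gen K z hz
  have hinj : ∀ c : Fin 13, c ≠ 0 → Function.Injective (c * ·) := by decide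
  have key : ∀ k : Fin 13, x * (g * pw K c * g⁻¹) ^ (k : ℕ) = x * g * pw K (c * k) * g⁻¹ := fun k => by
    rw [conj_pow, pw, pw, ← pow_mul, Fin.val_mul, ← pow_eq_pow_mod _ (gen_pow_13 K)]
    group
  simp only [key]
  rw [← sum_f K (x * g) g⁻¹]
  exact Fintype.sum_equiv (Equiv.ofBijective _ (Finite.injective_iff_bijective.mp (hinj c hc))) _ _ fun k => rfl

theorem eq_zero_of_fixed {z : Cfsg.SU 3 F 4} (hz : orderOf z = 13) (φ : cosetModule (F := F))
    (h : translate z φ = φ) : φ = 0 := by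
  apply Subtype.ext
  funext x
  have hstep : ∀ y, φ.1 (y * z) = φ.1 y := fun y => congrFun (congrArg Subtype.val h) y
  have hpow : ∀ (k : ℕ) (y : Cfsg.SU 3 F 4), φ.1 (y * z ^ k) = φ.1 y := by
    intro k
    induction k with
    | zero => intro y; rw [pow_zero, mul_one]
    | succ k ih => intro y; rw [pow_succ, ← mul_assoc, hstep, ih]
  have : Fact (Nat.Prime 5) := ⟨by norm_num⟩
  have hs := φ.2 z hz x
  simp only [hpow, Finset.sum_const, Finset.card_univ, Fintype.card_fin, nsmul_eq_mul] at hs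
  rcases mul_eq_zero.mp hs with h | h
  · rw [ZMod.natCast_eq_zero_iff] at h; norm_num at h
  · exact h

theorem exists_orders (K : Coord F) : (∃ g : Cfsg.SU 3 F 4, orderOf g = 5 * 2) ∧ ∃ g : Cfsg.SU 3 F 4, orderOf g = 5 * 3 := by
  have key : ∀ (X : M3), inSU X = true → ∀ k : ℕ,
      mat (ofCode K X ^ k) = toMat K.ω ((fun Y => M3.mul Y X)^[k] M3.one) := by
    intro X hX k
    induction k with
    | zero => rw [pow_zero, mat_one]; exact (toMat_one _).symm
    | succ k ih => rw [pow_succ, mat_mul, ih, mat_ofCode K hX, Function.iterate_succ_apply', toMat_mul K.root]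
  have hne : ∀ (X : M3), inSU X = true → ∀ k : ℕ,
      (∀ i ∈ [((fun Y => M3.mul Y X)^[k] M3.one).a, ((fun Y => M3.mul Y X)^[k] M3.one).b,
        ((fun Y => M3.mul Y X)^[k] M3.one).c], i < 16) →
      (((fun Y => M3.mul Y X)^[k] M3.one).a, ((fun Y => M3.mul Y X)^[k] M3.one).b,
        ((fun Y => M3.mul Y X)^[k] M3.one).c) ≠ (1, 0, 0) → ofCode K X ^ k ≠ 1 := by
    intro X hX k hlt hne h
    have e := congrArg mat h
    rw [key X hX k, mat_one] at e
    have e0 := congrArg (dec K) (congrFun (congrFun e 0) 0)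
    have e1 := congrArg (dec K) (congrFun (congrFun e 0) 1)
    have e2 := congrArg (dec K) (congrFun (congrFun e 0) 2)
    simp only [toMat, Matrix.of_apply, Matrix.cons_val_zero, Matrix.cons_val_one, Matrix.cons_val_two,
      Matrix.tail_cons, Matrix.head_cons, Matrix.one_apply_eq, dec_ev] at e0 e1 e2
    have h1 : dec K (1 : F) = 1 := by rw [← ev_one K.ω, dec_ev]
    have h0 : dec K (0 : F) = 0 := by rw [← ev_zero K.ω, dec_ev]
    rw [h1] at e0
    rw [Matrix.one_apply_ne (by decide), h0] at e1 e2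
    simp only [List.mem_cons, List.not_mem_nil, or_false, forall_eq_or_imp, forall_eq] at hlt
    rw [Nat.mod_eq_of_lt hlt.1] at e0
    rw [Nat.mod_eq_of_lt hlt.2.1] at e1
    rw [Nat.mod_eq_of_lt hlt.2.2] at e2
    exact hne (by rw [e0, e1, e2])
  have hor : ∀ (X : M3) (r : ℕ), inSU X = true → r.Prime → r ≠ 5 →
      (fun Y => M3.mul Y X)^[5 * r] M3.one = M3.one →
      ofCode K X ^ r ≠ 1 → ofCode K X ^ 5 ≠ 1 → orderOf (ofCode K X) = 5 * r := by
    intro X r hX hr hr5 h1 h2 h3
    have hpow : ofCode K X ^ (5 * r) = 1 := mat_ext (by rw [key X hX, h1, toMat_one, mat_one])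
    apply orderOf_eq_of_pow_and_pow_div_prime (by positivity [hr.pos]) hpow
    intro p hp hpd
    rcases (hp.dvd_mul).mp hpd with h | h
    · rw [(Nat.prime_dvd_prime_iff_eq hp (by norm_num)).mp h, Nat.mul_div_cancel_left _ (by norm_num)]
      exact h2
    · rw [(Nat.prime_dvd_prime_iff_eq hp hr).mp h, Nat.mul_div_cancel _ hr.pos]
      exact h3
  exact ⟨⟨_, hor elt10 2 inSU_data.2.1 Nat.prime_two (by norm_num) (by decide +kernel)
      (hne _ inSU_data.2.1 2 (by decide +kernel) (by decide +kernel))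
      (hne _ inSU_data.2.1 5 (by decide +kernel) (by decide +kernel))⟩,
    ⟨_, hor elt15 3 inSU_data.2.2.1 Nat.prime_three (by norm_num) (by decide +kernel)
      (hne _ inSU_data.2.2.1 3 (by decide +kernel) (by decide +kernel))
      (hne _ inSU_data.2.2.1 5 (by decide +kernel) (by decide +kernel))⟩⟩

end

/-- The prime graph of a finite group has the prime divisors of its order as vertices, two distinct primes p, q being joined when the group has an element of order pq; two groups have the same prime graph when they have the same prime divisors and the same joined pairs. Let F be the field with 16 elements and L = PSU(3,4) realised over F. There are finite groups of arbitrarily large order with the same prime graph as L. -/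
theorem result {F : Type*} [Field F] [Fintype F] (hF : Fintype.card F = 16) (N : ℕ) :
    ∃ (H : Type) (_ : Group H) (_ : Finite H), N < Nat.card H ∧
      ((∀ p : ℕ, p.Prime → (p ∣ Nat.card (Cfsg.PSU 3 F 4) ↔ p ∣ Nat.card H)) ∧
      (∀ p q : ℕ, p.Prime → q.Prime → p ≠ q → ((∃ g : (Cfsg.PSU 3 F 4), orderOf g = p * q) ↔ (∃ g : H, orderOf g = p * q)))) := by
  classical
  have := U34.charP_two hF
  obtain ⟨ω, hω⟩ := exists_root_gf16 hF
  let K : Coord F := ⟨ω, hω, hF⟩
  have : Fact (Nat.Prime 5) := ⟨by norm_num⟩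
  have hfin : Finite (Cfsg.SU 3 F 4) := Nat.finite_of_card_ne_zero (by rw [card_SU K]; norm_num)
  have hcard : Nat.card F = 4 ^ 2 := by rw [Nat.card_eq_fintype_card, hF]; norm_num
  have hbot : Subgroup.center (Cfsg.SU 3 F 4) = ⊥ :=
    Subgroup.card_eq_one.mp (by rw [CfsgLib.ClassicalForms.card_center_su hcard (by norm_num)]; rfl)
  let e : Cfsg.PSU 3 F 4 ≃* Cfsg.SU 3 F 4 :=
    (QuotientGroup.quotientMulEquivOfEq hbot).trans QuotientGroup.quotientBot
  let b := Module.finBasis (ZMod 5) (cosetModule (F := F))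
  let ρ : Cfsg.SU 3 F 4 →* GL (Fin (Module.finrank (ZMod 5) (cosetModule (F := F)))) (ZMod 5) :=
    (Units.map (LinearMap.toMatrixAlgEquiv b : _ →* _)).comp translateHom.toHomUnits
  have hpos : Nonempty (Fin (Module.finrank (ZMod 5) (cosetModule (F := F)))) := by
    refine Fin.pos_iff_nonempty.mp (Module.finrank_pos_iff_exists_ne_zero.mpr ⟨⟨f K, f_mem K⟩, fun h => ?_⟩)
    obtain ⟨g, hg⟩ := exists_f_ne_zero K
    exact hg (congrFun (congrArg Subtype.val h) g)
  obtain ⟨⟨g10, h10⟩, ⟨g15, h15⟩⟩ := exists_orders K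
  have hfpf : ∀ (g : Cfsg.SU 3 F 4) (r : ℕ), r.Prime → r ≠ 5 → orderOf g = r →
      ∀ v : Fin (Module.finrank (ZMod 5) (cosetModule (F := F))) → ZMod 5,
      (ρ g : Matrix _ _ (ZMod 5)).mulVec v = v → v = 0 ∨ ∃ x : Cfsg.SU 3 F 4, orderOf x = 5 * r := by
    intro g r hr hr5 hg v hv
    have hdvd : r ∣ 13 * (2 * (2 * (2 * (2 * (2 * (2 * (3 * (5 * 5)))))))) := by
      have := orderOf_dvd_natCard g
      rw [hg, card_SU K] at this
      simpa using this
    simp only [hr.dvd_mul, Nat.prime_dvd_prime_iff_eq hr, Nat.prime_two, Nat.prime_three,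
      (by norm_num : Nat.Prime 5), (by norm_num : Nat.Prime 13)] at hdvd
    obtain rfl | rfl | rfl : r = 13 ∨ r = 2 ∨ r = 3 := by omega
    · left
      have key : ∀ w, b.equivFun (translate g w) = (ρ g : Matrix _ _ (ZMod 5)).mulVec (b.equivFun w) := fun w =>
        (LinearMap.toMatrix_mulVec_repr b b (translate g) w).symm
      have h : translate g (b.equivFun.symm v) = b.equivFun.symm v :=
        b.equivFun.injective (by rw [key, LinearEquiv.apply_symm_apply, hv])
      exact b.equivFun.symm.map_eq_zero_iff.mp (eq_zero_of_fixed hg _ h)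
    · exact Or.inr ⟨g10, h10⟩
    · exact Or.inr ⟨g15, h15⟩
  obtain ⟨H, iG, iF, hN, h1, h2⟩ := exists_large_primeGraph_adjacent 5 ρ
    (by rw [card_SU K]; norm_num) hfpf N
  refine ⟨H, iG, inferInstance, hN, fun p hp => ?_, fun p q hp hq hpq => ?_⟩
  · rw [Nat.card_congr e.toEquiv]; exact h1 p hp
  · rw [← h2 p q hp hq hpq]
    exact ⟨fun ⟨g, hg⟩ => ⟨e g, (MulEquiv.orderOf_eq e g).trans hg⟩,
      fun ⟨g, hg⟩ => ⟨e.symm g, (MulEquiv.orderOf_eq e.symm g).trans hg⟩⟩

end Cfsg.Agent.S3663
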