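import Cfsg.Statements.S3664
import Cfsg.Agent.Lib.PrimeGraphSp63.Symp
import Cfsg.Agent.Lib.PrimeGraphSp63.Witness

set_option autoImplicit false
open Cfsg

namespace Cfsg.Agent.S3664

open CfsgLib.PrimeGraphSp63

theorem five_cases {p K : ℕ} (hp : p.Prime) (e : ℕ) (hK : K = 2 * 3 * 5 * 7 * 13) (h : p ∣ K ^ e) :
    p = 2 ∨ p = 3 ∨ p = 5 ∨ p = 7 ∨ p = 13 := by
  subst hK
  have h := hp.dvd_of_dvd_pow h
  simp only [hp.dvd_mul] at h
  rcases h with ((((h | h) | h) | h) | h)
  · exact Or.inl ((Nat.prime_dvd_prime_iff_eq hp (by norm_num)).1 h)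
  · exact Or.inr (Or.inl ((Nat.prime_dvd_prime_iff_eq hp (by norm_num)).1 h))
  · exact Or.inr (Or.inr (Or.inl ((Nat.prime_dvd_prime_iff_eq hp (by norm_num)).1 h)))
  · exact Or.inr (Or.inr (Or.inr (Or.inl ((Nat.prime_dvd_prime_iff_eq hp (by norm_num)).1 h))))
  · exact Or.inr (Or.inr (Or.inr (Or.inr ((Nat.prime_dvd_prime_iff_eq hp (by norm_num)).1 h))))

theorem graph_iff {X : Type*} [Group X] (hX : ∀ p : ℕ, p.Prime → p ∣ Nat.card X →
      p = 2 ∨ p = 3 ∨ p = 5 ∨ p = 7 ∨ p = 13)
    (h6 : ∃ g : X, orderOf g = 6) (h10 : ∃ g : X, orderOf g = 10) (h14 : ∃ g : X, orderOf g = 14)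
    (h15 : ∃ g : X, orderOf g = 15) (n21 : ∀ g : X, orderOf g ≠ 21) (n35 : ∀ g : X, orderOf g ≠ 35)
    (n26 : ∀ g : X, orderOf g ≠ 26) (n39 : ∀ g : X, orderOf g ≠ 39) (n65 : ∀ g : X, orderOf g ≠ 65)
    (n91 : ∀ g : X, orderOf g ≠ 91) (p q : ℕ) (hp : p.Prime) (hq : q.Prime) (hpq : p ≠ q) :
    (∃ g : X, orderOf g = p * q) ↔ (p * q = 6 ∨ p * q = 10 ∨ p * q = 14 ∨ p * q = 15) := by
  constructor
  · rintro ⟨g, hg⟩
    rcases hX p hp ((Dvd.intro q hg.symm).trans (orderOf_dvd_natCard g)) with rfl | rfl | rfl | rfl | rfl <;>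
      rcases hX q hq ((Dvd.intro_left _ hg.symm).trans (orderOf_dvd_natCard g)) with
        rfl | rfl | rfl | rfl | rfl <;>
      first
        | exact absurd rfl hpq
        | exact absurd hg (n21 g) | exact absurd hg (n35 g) | exact absurd hg (n26 g)
        | exact absurd hg (n39 g) | exact absurd hg (n65 g) | exact absurd hg (n91 g)
        | norm_num
  · rintro (h | h | h | h) <;> rw [h] <;> assumption

/-- The prime graph of a finite group has the prime divisors of its order as vertices, two distinct primes p, q being joined when the group has an element of order pq; two groups have the same prime graph when they have the same prime divisors and the same joined pairs. Let F be the field with 3 elements and L = PSp(6,F). There are finite groups of arbitrarily large order with the same prime graph as L (a prime graph shared by the orthogonal groups Ω₇(3) and PΩ⁺₈(3)). -/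
theorem result {F : Type*} [Field F] [Fintype F] (hF : Fintype.card F = 3) (N : ℕ) :
    ∃ (H : Type) (_ : Group H) (_ : Finite H), N < Nat.card H ∧
      ((∀ p : ℕ, p.Prime → (p ∣ Nat.card (Cfsg.PSp 3 F) ↔ p ∣ Nat.card H)) ∧
      (∀ p q : ℕ, p.Prime → q.Prime → p ≠ q → ((∃ g : (Cfsg.PSp 3 F), orderOf g = p * q) ↔ (∃ g : H, orderOf g = p * q)))) := by
  haveI : Fact (Nat.Prime 2) := ⟨Nat.prime_two⟩
  have hE : Eight (GaloisField 2 3) := ⟨(GaloisField.card 2 3 (by norm_num)).trans (by norm_num)⟩
  have hfin := finite_wit hE (N + 1)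
  refine ⟨Wit hE (N + 1), inferInstance, hfin, ?_, ?_, ?_⟩
  · rw [card_wit]
    have h1 : N + 1 < 2 ^ (N + 1) := Nat.lt_two_pow_self
    have h2 : 2 ^ (N + 1) ≤ 2 ^ (144 * (N + 1)) := Nat.pow_le_pow_right (by norm_num) (by omega)
    omega
  · intro p hp
    rw [card_psp63 hF, card_wit]
    constructor <;> intro h
    · rcases five_cases hp 9 rfl (h.trans (by norm_num)) with rfl | rfl | rfl | rfl | rfl <;>
        exact Dvd.dvd.mul_left (by norm_num) _
    · have h' : p ∣ (2 * 3 * 5 * 7 * 13) ^ (144 * (N + 1) + 6) := h.trans (by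
        rw [pow_add]
        exact mul_dvd_mul (pow_dvd_pow_of_dvd (by norm_num) _) (by norm_num))
      rcases five_cases hp _ rfl h' with rfl | rfl | rfl | rfl | rfl <;> norm_num
  · intro p q hp hq hpq
    obtain ⟨a6, a10, a14, a15⟩ := exists_orders hF
    rw [graph_iff (X := Cfsg.PSp 3 F)
        (fun r hr h => five_cases hr 9 rfl (h.trans (by rw [card_psp63 hF]; norm_num)))
        a6 a10 a14 a15 (no_char_order hF (r := 7) (Or.inl rfl))
        (no_order_lift hF (r := 7) (s := 5) (by norm_num) (Or.inl rfl) (by norm_num) (by norm_num)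
          (by norm_num) (by norm_num))
        (no_twentysix hF) (no_char_order hF (r := 13) (Or.inr rfl))
        (no_order_lift hF (r := 13) (s := 5) (by norm_num) (Or.inr rfl) (by norm_num) (by norm_num)
          (by norm_num) (by norm_num))
        (no_order_lift hF (r := 7) (s := 13) (by norm_num) (Or.inl rfl) (by norm_num) (by norm_num)
          (by norm_num) (by norm_num)) p q hp hq hpq,
      graph_iff (X := Wit hE (N + 1))
        (fun r hr h => five_cases hr (144 * (N + 1) + 6) rfl (h.trans (by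
          rw [card_wit, pow_add]
          exact mul_dvd_mul (pow_dvd_pow_of_dvd (by norm_num) _) (by norm_num))))
        (exists_order_six hE) (exists_order_ten hE (Nat.succ_pos N))
        (exists_order_fourteen hE (Nat.succ_pos N)) (exists_order_fifteen hE)
        (no_order hE (r := 7) (s := 3) (Or.inl rfl) (by norm_num) (by norm_num) (by norm_num))
        (no_order hE (r := 7) (s := 5) (Or.inl rfl) (by norm_num) (by norm_num) (by norm_num))
        (no_order hE (r := 13) (s := 2) (Or.inr rfl) (by norm_num) (by norm_num) (by norm_num))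
        (no_order hE (r := 13) (s := 3) (Or.inr rfl) (by norm_num) (by norm_num) (by norm_num))
        (no_order hE (r := 13) (s := 5) (Or.inr rfl) (by norm_num) (by norm_num) (by norm_num))
        (no_order hE (r := 13) (s := 7) (Or.inr rfl) (by norm_num) (by norm_num) (by norm_num))
        p q hp hq hpq]

end Cfsg.Agent.S3664
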