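import Cfsg.Statements.S3669
import Cfsg.Agent.Lib.SL2.Dickson.Sixty
import Cfsg.Agent.Lib.CharTheory.PermChar
import Cfsg.Agent.Lib.CharTheory.Ito

set_option autoImplicit false
open Cfsg

namespace Cfsg.Agent.S3669

open MulAction Subgroup

/-- `A₅` has an irreducible character of degree 5. -/
theorem exists_degree_five : ∃ χ : alternatingGroup (Fin 5) → ℂ,
    IsIrrCharacter (alternatingGroup (Fin 5)) χ ∧ χ 1 = 5 := by
  classical
  let A := alternatingGroup (Fin 5)
  have hA : Nat.card A = 60 := by
    have h := two_mul_nat_card_alternatingGroup (α := Fin 5)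
    rw [Nat.card_perm, Nat.card_fin, show Nat.factorial 5 = 120 from rfl] at h
    exact Nat.eq_of_mul_eq_mul_left (by norm_num) (h.trans (by norm_num : 120 = 2 * 60))
  have : Fact (Nat.Prime 5) := ⟨Nat.prime_five⟩
  have hm : Nat.card A = 5 ^ 1 * 12 := by rw [hA]; norm_num
  have hP : ∀ P : Sylow 5 A, Nat.card (P : Subgroup A) = 5 := fun P =>
    (CfsgLib.SmallGroups.card_sylow_eq hm (by norm_num) P).trans (by norm_num)
  have h6 : Nat.card (Sylow 5 A) = 6 := by
    have h := CfsgLib.SmallGroups.card_sylow_mem (G := A) (p := 5) (a := 1) (m := 12) hm (by norm_num)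
    rw [show (Nat.divisors 12).filter (fun d => d % 5 = 1) = {1, 6} by decide] at h
    simp only [Finset.mem_insert, Finset.mem_singleton] at h
    refine h.resolve_left fun h1 => ?_
    obtain ⟨P⟩ := (inferInstance : Nonempty (Sylow 5 A))
    rw [P.card_eq_index_normalizer, index_eq_one] at h1
    have hsimp : IsSimpleGroup A := alternatingGroup.isSimpleGroup (by simp)
    rcases (normalizer_eq_top_iff.1 h1).eq_bot_or_eq_top with hb | ht
    · have := hP P; rw [hb, card_bot] at this; omega
    · have := hP P; rw [ht, card_top, hA] at this; omega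
  have htrans : IsPretransitive A (Sylow 5 A) := inferInstance
  have h2 : IsMultiplyPretransitive A (Sylow 5 A) 2 := by
    obtain ⟨P⟩ := (inferInstance : Nonempty (Sylow 5 A))
    rw [is_two_pretransitive_iff]
    have key : ∀ Q R : Sylow 5 A, Q ≠ P → R ≠ P → ∃ g : A, g • P = P ∧ g • Q = R := by
      intro Q R hQ hR
      have hfix : ∀ g ∈ (P : Subgroup A), g • Q = Q → g = 1 := by
        intro g hg hgQ
        by_contra hg1
        have hn : g ∈ normalizer ((Q : Subgroup A) : Set A) :=
          Sylow.smul_eq_iff_mem_normalizer.1 hgQ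
        have hgQ' : g ∈ (Q : Subgroup A) := by
          have hp : IsPGroup 5 (zpowers g) := P.2.to_le (zpowers_le.2 hg)
          have := hp.inf_normalizer_sylow Q
          have hmem : g ∈ zpowers g ⊓ normalizer ((Q : Subgroup A) : Set A) := ⟨mem_zpowers g, hn⟩
          exact (this.le hmem).2
        have hz : ∀ S : Sylow 5 A, g ∈ (S : Subgroup A) → zpowers g = S := fun S hS => by
          refine eq_of_le_of_card_ge (zpowers_le.2 hS) ?_
          have hd := orderOf_dvd_natCard (⟨g, hS⟩ : (S : Subgroup A))
          rw [hP S, Subgroup.orderOf_mk] at hd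
          rcases (Nat.dvd_prime Nat.prime_five).1 hd with h | h
          · exact absurd (orderOf_eq_one_iff.1 h) hg1
          · rw [hP S, Nat.card_zpowers, h]
        exact hQ (Sylow.ext ((hz Q hgQ').symm.trans (hz P hg)))
      let f : ↥(P : Subgroup A) → {S : Sylow 5 A // S ≠ P} := fun g =>
        ⟨(g : A) • Q, fun h => hQ (smul_left_cancel (g : A)
          (h.trans (Sylow.smul_eq_iff_mem_normalizer.2 (le_normalizer g.2)).symm))⟩
      have hinj : Function.Injective f := by
        intro a b hab
        have h : ((b⁻¹ * a : (P : Subgroup A)) : A) • Q = Q := by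
          have := congrArg Subtype.val hab
          simp only [f] at this
          rw [Subgroup.coe_mul, Subgroup.coe_inv, mul_smul, this, inv_smul_smul]
        have := hfix _ (b⁻¹ * a).2 h
        exact (inv_mul_eq_one.1 (Subtype.ext this)).symm
      have hbij : Function.Bijective f := by
        have : Fintype (Sylow 5 A) := Fintype.ofFinite _
        rw [Nat.bijective_iff_injective_and_card]
        refine ⟨hinj, ?_⟩
        rw [hP P, Nat.card_eq_fintype_card, Fintype.card_subtype_compl, Fintype.card_subtype_eq,
          ← Nat.card_eq_fintype_card, h6]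
      obtain ⟨g, hg⟩ := hbij.2 ⟨R, hR⟩
      exact ⟨g, Sylow.smul_eq_iff_mem_normalizer.2 (le_normalizer g.2), congrArg Subtype.val hg⟩
    intro a b c d hab hcd
    obtain ⟨g₁, hg₁⟩ := exists_smul_eq A a P
    obtain ⟨g₂, hg₂⟩ := exists_smul_eq A c P
    obtain ⟨g, hgP, hgQ⟩ := key (g₁ • b) (g₂ • d)
      (fun h => hab (smul_left_cancel g₁ (hg₁.trans h.symm)))
      (fun h => hcd (smul_left_cancel g₂ (hg₂.trans h.symm)))
    refine ⟨g₂⁻¹ * g * g₁, ?_, ?_⟩
    · rw [mul_smul, mul_smul, hg₁, hgP, ← hg₂, inv_smul_smul]
    · rw [mul_smul, mul_smul, hgQ, inv_smul_smul]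
  have hirr := (CfsgLib.CharTheory.isIrrCharacter_card_fixedBy_sub_one_iff (G := A) (Sylow 5 A)
    (by rw [h6]; norm_num)).2 h2
  refine ⟨_, hirr, ?_⟩
  have hfix : fixedBy (Sylow 5 A) (1 : A) = Set.univ := Set.ext fun x => by simp
  simp only [hfix, Nat.card_univ, h6]
  norm_num

/-- The character degree graph of a finite group has as vertices the primes dividing some irreducible complex character degree, two distinct primes being joined when their product divides some irreducible character degree; two groups have the same character degree graph when they have the same vertices and the same joined pairs. A finite group of order 60 with the same character degree graph as the alternating group A₅ (whose character degrees are 1, 3, 4, 5, so the graph has vertices 2, 3, 5 and no edges) is isomorphic to A₅. -/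
theorem result {G : Type*} [Group G] [Finite G] (hcard : Nat.card G = 60)
    (hΓ : Cfsg.degreePrimes G = Cfsg.degreePrimes (alternatingGroup (Fin 5)) ∧ Cfsg.degreeGraph G = Cfsg.degreeGraph (alternatingGroup (Fin 5))) : Nonempty (G ≃* alternatingGroup (Fin 5)) := by
  classical
  have : Fintype G := Fintype.ofFinite G
  refine CfsgLib.SL2.Dickson.Sixty.nonempty_mulEquiv_alternating_five hcard fun R hR hn => ?_
  obtain ⟨χ, hχ, h1⟩ := exists_degree_five
  have h5 : (5 : ℕ) ∈ Cfsg.degreePrimes (alternatingGroup (Fin 5)) := by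
    refine ⟨Nat.prime_five, 5, ⟨⟨χ, hχ⟩, ?_⟩, dvd_rfl⟩
    simp [Cfsg.charDegree, h1]
  rw [← hΓ.1] at h5
  obtain ⟨-, d, ⟨ψ, hψ⟩, hd⟩ := h5
  have : Fact (Nat.Prime 5) := ⟨Nat.prime_five⟩
  have hcyc := (isCyclic_of_prime_card hR : IsCyclic R)
  obtain ⟨e, he, hdvd⟩ := CfsgLib.CharTheory.exists_degree_dvd_index_of_abelian ψ.2 R
    (fun a ha b hb => congrArg Subtype.val ((IsCyclic.commGroup (α := R)).mul_comm ⟨a, ha⟩ ⟨b, hb⟩))
  have hidx : R.index = 12 := by
    have := R.card_mul_index
    rw [hR, hcard] at this
    omega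
  have hde : d = e := by
    rw [← hψ]
    simp [Cfsg.charDegree, he]
  rw [hidx, ← hde] at hdvd
  exact absurd (hd.trans hdvd) (by norm_num)

end Cfsg.Agent.S3669
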