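import Cfsg.Statements.S3670
import Cfsg.Agent.S0188
import Cfsg.Agent.Lib.OrderDegrees.PSUThreeThree
import Cfsg.Agent.Lib.OrderDegrees.AffineDegree

set_option autoImplicit false
open Cfsg

namespace Cfsg.Agent.S3670

theorem graph_eq {X : Type*} [Group X] [Finite X] (hcard : Nat.card X = 6048)
    (h21 : ∃ d ∈ charDegrees X, 21 ∣ d) (h14 : ∃ d ∈ charDegrees X, 14 ∣ d)
    (h6 : ∃ d ∈ charDegrees X, 6 ∣ d) :
    degreePrimes X = {2, 3, 7} ∧
      ∀ p q, (degreeGraph X).Adj p q ↔ p ≠ q ∧ (p = 2 ∨ p = 3 ∨ p = 7) ∧ (q = 2 ∨ q = 3 ∨ q = 7) := by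
  have hpr : ∀ p, p.Prime → (∃ d ∈ charDegrees X, p ∣ d) → p = 2 ∨ p = 3 ∨ p = 7 := by
    rintro p hp ⟨d, ⟨χ, rfl⟩, hd⟩
    have h : p ∣ 2 ^ 5 * 3 ^ 3 * 7 := by
      have := hd.trans (CfsgLib.ZerosCodegree.charDegree_dvd_card χ)
      rwa [hcard] at this
    rcases hp.dvd_mul.1 h with h | h
    · rcases hp.dvd_mul.1 h with h | h
      · exact Or.inl ((Nat.prime_dvd_prime_iff_eq hp Nat.prime_two).1 (hp.dvd_of_dvd_pow h))
      · exact Or.inr (Or.inl ((Nat.prime_dvd_prime_iff_eq hp Nat.prime_three).1 (hp.dvd_of_dvd_pow h)))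
    · exact Or.inr (Or.inr ((Nat.prime_dvd_prime_iff_eq hp (by norm_num)).1 h))
  refine ⟨Set.ext fun p => ⟨fun ⟨hp, h⟩ => hpr p hp h, ?_⟩, fun p q => ?_⟩
  · rintro (rfl | rfl | rfl)
    · exact ⟨Nat.prime_two, h6.imp fun d h => ⟨h.1, dvd_trans (by norm_num) h.2⟩⟩
    · exact ⟨Nat.prime_three, h6.imp fun d h => ⟨h.1, dvd_trans (by norm_num) h.2⟩⟩
    · exact ⟨by norm_num, h14.imp fun d h => ⟨h.1, dvd_trans (by norm_num) h.2⟩⟩
  · constructor
    · rintro ⟨hne, hp, hq, d, hd, hpq⟩
      exact ⟨hne, hpr p hp ⟨d, hd, dvd_trans (Dvd.intro q rfl) hpq⟩,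
        hpr q hq ⟨d, hd, dvd_trans (Dvd.intro_left p rfl) hpq⟩⟩
    · rintro ⟨hne, hp, hq⟩
      refine ⟨hne, by rcases hp with rfl | rfl | rfl <;> norm_num,
        by rcases hq with rfl | rfl | rfl <;> norm_num, ?_⟩
      rcases hp with rfl | rfl | rfl <;> rcases hq with rfl | rfl | rfl <;>
        first
          | exact absurd rfl hne
          | exact h6
          | exact h14
          | exact h21

/-- The character degree graph of a finite group has as vertices the primes dividing some irreducible complex character degree, two distinct primes being joined when their product divides some irreducible character degree; two groups have the same character degree graph when they have the same vertices and the same joined pairs. Let F be the field with 9 elements and L = PSU(3,3) realised over F (order 6048). There is a finite solvable group of order 6048 with the same character degree graph as L; so L is not determined by its order together with its character degree graph.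 -/
theorem result {F : Type*} [Field F] [Fintype F] (hF : Fintype.card F = 9) :
    ∃ (H : Type) (_ : Group H) (_ : Fintype H), Group.IsSolvable H ∧ Nat.card H = 6048 ∧ Cfsg.degreePrimes H = Cfsg.degreePrimes (Cfsg.PSU 3 F 3) ∧ Cfsg.degreeGraph H = Cfsg.degreeGraph (Cfsg.PSU 3 F 3) := by
  classical
  haveI : Fact (Nat.Prime 2) := ⟨Nat.prime_two⟩
  obtain ⟨hcard, h21, h14, h6⟩ := CfsgLib.OrderDegrees.PSUThreeThree.degrees_psu hF
  haveI := Fintype.ofFinite (GaloisField 2 3)
  haveI : Finite (CfsgLib.OrderDegrees.Aff (GaloisField 2 3)) := Finite.of_equiv _ SemidirectProduct.equivProd.symm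
  haveI : Finite (CfsgLib.OrderDegrees.Aff (ZMod 9)) := Finite.of_equiv _ SemidirectProduct.equivProd.symm
  let H := (CfsgLib.OrderDegrees.Aff (GaloisField 2 3) × CfsgLib.OrderDegrees.Aff (ZMod 9)) ×
    Multiplicative (ZMod 2)
  have c8 : Nat.card (GaloisField 2 3) = 8 := by rw [GaloisField.card 2 3 (by norm_num)]; norm_num
  have c7 : Nat.card (GaloisField 2 3)ˣ = 7 := by rw [Nat.card_units, c8]
  have c6 : Nat.card (ZMod 9)ˣ = 6 := by
    rw [Nat.card_eq_fintype_card, ZMod.card_units_eq_totient]; decide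
  have hH : Nat.card H = 6048 := by
    rw [Nat.card_prod, Nat.card_prod, CfsgLib.OrderDegrees.card_aff, CfsgLib.OrderDegrees.card_aff,
      c8, c7, c6, Nat.card_zmod, Nat.card_congr Multiplicative.toAdd, Nat.card_zmod]
  obtain ⟨χ₁, hχ₁⟩ := CfsgLib.OrderDegrees.exists_aff_irr (GaloisField 2 3)
    (AddChar.FiniteField.primitiveChar_to_Complex (GaloisField 2 3)) fun u hu => by
      by_contra h
      have h1 : (u : GaloisField 2 3) - 1 ≠ 0 := fun e => h (Units.ext (sub_eq_zero.1 e))
      refine AddChar.FiniteField.primitiveChar_to_Complex_isPrimitive (GaloisField 2 3) h1 ?_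
      ext r
      rw [AddChar.mulShift_apply, sub_mul, one_mul, AddChar.one_apply,
        AddChar.map_sub_eq_div, hu, div_self]
      exact (AddChar.val_isUnit _ _).ne_zero
  obtain ⟨χ₂, hχ₂⟩ := CfsgLib.OrderDegrees.exists_aff_irr (ZMod 9) ZMod.stdAddChar fun u hu => by
    have := ZMod.injective_stdAddChar (hu 1)
    rw [mul_one] at this
    exact Units.ext this
  haveI := CfsgLib.OrderDegrees.isSolvable_aff (GaloisField 2 3)
  haveI := CfsgLib.OrderDegrees.isSolvable_aff (ZMod 9)
  haveI : Group.IsSolvable (CfsgLib.OrderDegrees.Aff (GaloisField 2 3) × CfsgLib.OrderDegrees.Aff (ZMod 9)) :=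
    inferInstance
  have h42 : 42 ∈ charDegrees H := by
    have hp := (Cfsg.Agent.S0188.result _).2 ⟨_, _, χ₁.2, χ₂.2, rfl⟩
    have hp2 := (Cfsg.Agent.S0188.result (H := Multiplicative (ZMod 2)) _).2
      ⟨_, _, hp, CfsgLib.CharTheory.isIrrCharacter_linear (1 : Multiplicative (ZMod 2) →* ℂˣ), rfl⟩
    refine ⟨⟨_, hp2⟩, CfsgLib.ZerosCodegree.charDegree_eq ?_⟩
    simp only [hχ₁, hχ₂, c7, c6, MonoidHom.one_apply, Units.val_one, Prod.fst_one, Prod.snd_one]
    norm_num
  haveI : Finite (Cfsg.PSU 3 F 3) := Nat.finite_of_card_ne_zero (by omega)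
  obtain ⟨a1, a2⟩ := graph_eq (X := H) hH ⟨42, h42, by norm_num⟩ ⟨42, h42, by norm_num⟩ ⟨42, h42, by norm_num⟩
  obtain ⟨b1, b2⟩ := graph_eq hcard h21 h14 h6
  refine ⟨H, inferInstance, Fintype.ofFinite H, inferInstance, hH, a1.trans b1.symm, ?_⟩
  ext p q
  exact (a2 p q).trans (b2 p q).symm

end Cfsg.Agent.S3670
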