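import Cfsg.Statements.S3678
import Cfsg.Agent.Lib.OrderDegrees.PrimeGraphSemidirect
import Cfsg.Agent.Lib.OrderDegrees.SL2Module

set_option autoImplicit false
open Cfsg

namespace Cfsg.Agent.S3678

open Matrix CfsgLib.OrderDegrees

/-- Groups with isolated primes 2, 3, 7. -/
def Iso237 (G : Type*) [Group G] : Prop :=
  (∀ g : G, g ^ 2 = 1 ∨ g ^ 3 = 1 ∨ g ^ 4 = 1 ∨ g ^ 7 = 1 ∨ g ^ 9 = 1) ∧
    (∃ g : G, orderOf g = 2) ∧ (∃ g : G, orderOf g = 3) ∧ (∃ g : G, orderOf g = 7)

theorem prime_small {r m : ℕ} (hr : r.Prime) (hm : m = 2 ∨ m = 3 ∨ m = 4 ∨ m = 7 ∨ m = 9) (h : r ∣ m) :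
    r = 2 ∨ r = 3 ∨ r = 7 := by
  have := hr.two_le
  have := Nat.le_of_dvd (by omega) h
  rcases hm with rfl | rfl | rfl | rfl | rfl <;> interval_cases r <;>
    first | omega | norm_num at hr

theorem Iso237.dvd {G : Type*} [Group G] [Finite G] (h : Iso237 G) (r : ℕ) (hr : r.Prime) :
    r ∣ Nat.card G ↔ r = 2 ∨ r = 3 ∨ r = 7 := by
  refine ⟨fun hd => ?_, ?_⟩
  · have : Fact r.Prime := ⟨hr⟩
    obtain ⟨g, hg⟩ := exists_prime_orderOf_dvd_card' r hd
    rcases h.1 g with e | e | e | e | e <;> have e' := orderOf_dvd_of_pow_eq_one e <;> rw [hg] at e'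
    all_goals exact prime_small hr (by norm_num) e'
  · rintro (rfl | rfl | rfl)
    · obtain ⟨g, hg⟩ := h.2.1; exact hg ▸ orderOf_dvd_natCard g
    · obtain ⟨g, hg⟩ := h.2.2.1; exact hg ▸ orderOf_dvd_natCard g
    · obtain ⟨g, hg⟩ := h.2.2.2; exact hg ▸ orderOf_dvd_natCard g

theorem Iso237.no_edge {G : Type*} [Group G] (h : Iso237 G) (r t : ℕ) (hr : r.Prime) (ht : t.Prime)
    (hrt : r ≠ t) : ¬ ∃ g : G, orderOf g = r * t := by
  rintro ⟨g, hg⟩
  obtain ⟨m, hm, hd⟩ : ∃ m, (m = 2 ∨ m = 3 ∨ m = 4 ∨ m = 7 ∨ m = 9) ∧ r * t ∣ m := by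
    rcases h.1 g with e | e | e | e | e <;> have e' := orderOf_dvd_of_pow_eq_one e <;> rw [hg] at e'
    all_goals exact ⟨_, by norm_num, e'⟩
  have := hr.two_le
  have := ht.two_le
  have hle : r * t ≤ 9 := (Nat.le_of_dvd (by omega) hd).trans (by omega)
  have : r ≤ 4 := by nlinarith
  have : t ≤ 4 := by nlinarith
  interval_cases r <;> interval_cases t <;> omega

section SL8

variable {E : Type*} [Field E] [CharP E 2]

theorem sl2_eight [Fintype E] (hE : Fintype.card E = 8) (x : Matrix.SpecialLinearGroup (Fin 2) E) :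
    x ^ 2 = 1 ∨ x ^ 3 = 1 ∨ x ^ 4 = 1 ∨ x ^ 7 = 1 ∨ x ^ 9 = 1 := by
  have h2 : (2 : E) = 0 := CharP.cast_eq_zero E 2
  set A := (x : Matrix (Fin 2) (Fin 2) E) with hA
  set t := A 0 0 + A 1 1 with ht
  have hm : -(1 : Matrix (Fin 2) (Fin 2) E) = 1 := by
    have hm1 : (-1 : E) = 1 := by linear_combination -h2
    rw [← neg_one_smul E (1 : Matrix (Fin 2) (Fin 2) E), hm1, one_smul]
  have hsq : A * A = t • A + 1 := by
    rw [hA, sl2_sq x, sub_eq_add_neg, hm, ← hA]
  rcases eq_or_ne t 0 with h0 | h0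
  · left
    apply Subtype.ext
    rw [Matrix.SpecialLinearGroup.coe_pow, pow_two, ← hA, hsq, h0, zero_smul, zero_add]
    rfl
  have ht7 : t ^ 7 = 1 := by
    have := FiniteField.pow_card_sub_one_eq_one t h0
    rwa [hE] at this
  have h4 : A ^ 4 = t ^ 3 • A + (t ^ 2 + 1) • (1 : Matrix (Fin 2) (Fin 2) E) := by
    rw [show A ^ 4 = A * A * (A * A) by simp [pow_succ, mul_assoc], hsq]
    simp only [add_mul, mul_add, smul_mul_assoc, mul_smul_comm, one_mul, mul_one, hsq]
    match_scalars
    · linear_combination t * h2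
    · ring
  have h8 : A ^ 8 = A + (t ^ 6 + t ^ 4 + 1) • (1 : Matrix (Fin 2) (Fin 2) E) := by
    rw [show A ^ 8 = A ^ 4 * A ^ 4 by rw [← pow_add], h4]
    simp only [add_mul, mul_add, smul_mul_assoc, mul_smul_comm, one_mul, mul_one, hsq]
    match_scalars
    · linear_combination ht7 + (t ^ 5 + t ^ 3) * h2
    · linear_combination t ^ 2 * h2
  have hc : (t ^ 6 + t ^ 4 + 1) * (t ^ 6 + t ^ 4 + 1 + t) = 0 := by
    linear_combination (t ^ 5 + t + 1) * ht7 + (t ^ 10 + t ^ 6 + t ^ 4 + t ^ 5 + t + 1) * h2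
  rcases mul_eq_zero.mp hc with h | h
  · right; right; right; left
    rw [h, zero_smul, add_zero] at h8
    have : x ^ 8 = x := Subtype.ext (by rw [Matrix.SpecialLinearGroup.coe_pow, ← hA, h8])
    rwa [pow_succ, mul_eq_right] at this
  · right; right; right; right
    have hct : t ^ 6 + t ^ 4 + 1 = t := by linear_combination h - t * h2
    rw [hct] at h8
    apply Subtype.ext
    rw [Matrix.SpecialLinearGroup.coe_pow, ← hA, show A ^ 9 = A * A ^ 8 by rw [← pow_succ'], h8, mul_add,
      mul_smul_comm, mul_one, hsq]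
    show t • A + 1 + t • A = 1
    match_scalars
    · linear_combination t * h2
    · ring

end SL8

section SL7

variable {F : Type*} [Field F]

theorem mk_eq_one_of_scalar (x : Matrix.SpecialLinearGroup (Fin 2) F) (k : ℕ) (r : F)
    (h : (x : Matrix (Fin 2) (Fin 2) F) ^ k = r • 1) :
    (QuotientGroup.mk x : Matrix.ProjectiveSpecialLinearGroup (Fin 2) F) ^ k = 1 := by
  rw [← QuotientGroup.mk_pow, QuotientGroup.eq_one_iff, Matrix.SpecialLinearGroup.mem_center_iff]
  refine ⟨r, ?_, ?_⟩
  · have hd : ((x ^ k : Matrix.SpecialLinearGroup (Fin 2) F) : Matrix (Fin 2) (Fin 2) F).det = 1 := (x ^ k).2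
    rw [Matrix.SpecialLinearGroup.coe_pow, h, Matrix.det_smul, Matrix.det_one, mul_one] at hd
    exact hd
  · rw [Matrix.SpecialLinearGroup.coe_pow, h, Matrix.scalar_apply, Matrix.smul_one_eq_diagonal]

theorem orderOf_mk_prime (x : Matrix.SpecialLinearGroup (Fin 2) F) (k : ℕ) (hk : k.Prime) (r : F)
    (h : (x : Matrix (Fin 2) (Fin 2) F) ^ k = r • 1)
    (hne : (x : Matrix (Fin 2) (Fin 2) F) 0 1 ≠ 0) :
    orderOf (QuotientGroup.mk x : Matrix.ProjectiveSpecialLinearGroup (Fin 2) F) = k := by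
  have : Fact k.Prime := ⟨hk⟩
  refine orderOf_eq_prime (mk_eq_one_of_scalar x k r h) fun e => hne ?_
  rw [QuotientGroup.eq_one_iff, Matrix.SpecialLinearGroup.mem_center_iff] at e
  obtain ⟨s, -, hs⟩ := e
  rw [← hs]
  simp

theorem psl2_seven [Fintype F] (hF : Fintype.card F = 7) :
    Iso237 (Matrix.ProjectiveSpecialLinearGroup (Fin 2) F) := by
  have : Fact (Nat.Prime 7) := ⟨by norm_num⟩
  have hch : CharP F 7 := by
    obtain ⟨p, hp⟩ := CharP.exists F
    obtain ⟨n, hpp, hn⟩ := FiniteField.card F p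
    rw [hF] at hn
    have h7 : p ∣ 7 := hn.symm ▸ dvd_pow_self p n.ne_zero
    exact ((Nat.prime_dvd_prime_iff_eq hpp (by norm_num)).mp h7) ▸ hp
  have h7 : (7 : F) = 0 := CharP.cast_eq_zero F 7
  refine ⟨fun g => ?_, ?_, ?_, ?_⟩
  · induction g using QuotientGroup.induction_on with
    | H x =>
      set A := (x : Matrix (Fin 2) (Fin 2) F) with hA
      set t := A 0 0 + A 1 1 with ht
      have hsq : A * A = t • A - 1 := by rw [hA, sl2_sq x]
      have ht7 : t ^ 7 = t := by
        have := FiniteField.pow_card t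
        rwa [hF] at this
      have key : t * (t * ((t ^ 2 - 1) * ((t ^ 2 - 2) * (t ^ 2 - 4)))) = 0 := by
        linear_combination t * ht7 + (-t ^ 6 + 2 * t ^ 4 - t ^ 2) * h7
      simp only [mul_eq_zero] at key
      rcases key with h | h | h | h | h
      · left
        apply mk_eq_one_of_scalar x 2 (-1)
        rw [pow_two, ← hA, hsq, h, zero_smul, zero_sub, neg_one_smul]
      · left
        apply mk_eq_one_of_scalar x 2 (-1)
        rw [pow_two, ← hA, hsq, h, zero_smul, zero_sub, neg_one_smul]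
      · right; left
        apply mk_eq_one_of_scalar x 3 (-t)
        rw [← hA, show A ^ 3 = A * (A * A) by simp [pow_succ, mul_assoc], hsq, mul_sub, mul_smul_comm, hsq, mul_one]
        match_scalars
        · linear_combination h
        · ring
      · right; right; left
        apply mk_eq_one_of_scalar x 4 (-1)
        rw [← hA, show A ^ 4 = A * A * (A * A) by simp [pow_succ, mul_assoc], hsq]
        simp only [sub_mul, mul_sub, smul_mul_assoc, mul_smul_comm, one_mul, mul_one, hsq]
        match_scalars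
        · linear_combination t * h
        · linear_combination -h
      · right; right; right; left
        apply mk_eq_one_of_scalar x 7 ((4 * t) ^ 7)
        have hN : (A - (4 * t) • (1 : Matrix (Fin 2) (Fin 2) F)) ^ 2 = 0 := by
          rw [pow_two]
          simp only [sub_mul, mul_sub, smul_mul_assoc, mul_smul_comm, one_mul, mul_one, hsq]
          match_scalars
          · linear_combination (-t) * h7
          · linear_combination 16 * h + 9 * h7
        have hcomm : Commute (A - (4 * t) • (1 : Matrix (Fin 2) (Fin 2) F))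
            ((4 * t) • (1 : Matrix (Fin 2) (Fin 2) F)) :=
          (Commute.one_right _).smul_right _
        have := Commute.add_pow hcomm 7
        rw [sub_add_cancel] at this
        rw [← hA, this, Finset.sum_range_succ', Finset.sum_eq_zero]
        · simp [smul_pow]
        intro i hi
        rcases Nat.eq_zero_or_pos i with rfl | hi0
        · have h7' : ((7 : ℕ) : Matrix (Fin 2) (Fin 2) F) = 0 := by
            rw [← map_natCast (algebraMap F (Matrix (Fin 2) (Fin 2) F)), Nat.cast_ofNat, h7, map_zero]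
          simp only [zero_add, Nat.choose_one_right, h7', mul_zero]
        · rw [pow_eq_zero_of_le (by omega) hN, zero_mul, zero_mul]
  · let x : Matrix.SpecialLinearGroup (Fin 2) F := ⟨!![0, -1; 1, 0], by simp [Matrix.det_fin_two]⟩
    have hx : (x : Matrix (Fin 2) (Fin 2) F) = !![0, -1; 1, 0] := rfl
    refine ⟨_, orderOf_mk_prime x 2 Nat.prime_two (-1) ?_ (by rw [hx]; simp)⟩
    rw [hx, pow_two]
    ext i j
    fin_cases i <;> fin_cases j <;> simp [Matrix.mul_apply, Fin.sum_univ_two]
  · let x : Matrix.SpecialLinearGroup (Fin 2) F := ⟨!![0, -1; 1, 1], by simp [Matrix.det_fin_two]⟩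
    have hx : (x : Matrix (Fin 2) (Fin 2) F) = !![0, -1; 1, 1] := rfl
    refine ⟨_, orderOf_mk_prime x 3 Nat.prime_three (-1) ?_ (by rw [hx]; simp)⟩
    rw [hx, pow_succ, pow_two]
    ext i j
    fin_cases i <;> fin_cases j <;> simp [Matrix.mul_apply, Fin.sum_univ_two]
  · let x : Matrix.SpecialLinearGroup (Fin 2) F := ⟨!![1, 1; 0, 1], by simp [Matrix.det_fin_two]⟩
    have hx : (x : Matrix (Fin 2) (Fin 2) F) = !![1, 1; 0, 1] := rfl
    refine ⟨_, orderOf_mk_prime x 7 (by norm_num) 1 ?_ (by rw [hx]; simp)⟩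
    rw [hx, one_smul]
    have : ∀ n : ℕ, (!![1, 1; 0, 1] : Matrix (Fin 2) (Fin 2) F) ^ n = !![1, (n : F); 0, 1] := by
      intro n
      induction n with
      | zero => simp [Matrix.one_fin_two]
      | succ n ih =>
        rw [pow_succ, ih]
        ext i j
        fin_cases i <;> fin_cases j <;> simp [Matrix.mul_apply, Fin.sum_univ_two] <;> ring
    rw [this, Nat.cast_ofNat, h7, ← Matrix.one_fin_two]

theorem sl2_eight_iso {E : Type*} [Field E] [Fintype E] [CharP E 2] (hE : Fintype.card E = 8) :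
    Iso237 (Matrix.SpecialLinearGroup (Fin 2) E) := by
  have h2 : (2 : E) = 0 := CharP.cast_eq_zero E 2
  refine ⟨sl2_eight hE, exists_involution_sl2, ?_, ?_⟩
  · let x : Matrix.SpecialLinearGroup (Fin 2) E := ⟨!![0, -1; 1, 1], by simp [Matrix.det_fin_two]⟩
    have hx : (x : Matrix (Fin 2) (Fin 2) E) = !![0, -1; 1, 1] := rfl
    have h3 : x ^ 3 = 1 := by
      apply Subtype.ext
      rw [Matrix.SpecialLinearGroup.coe_pow, hx, pow_succ, pow_two]
      have hm1 : (-1 : E) = 1 := by linear_combination -h2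
      have h11 : (1 : E) + 1 = 0 := by linear_combination h2
      ext i j
      fin_cases i <;> fin_cases j <;> simp [Matrix.mul_apply, Fin.sum_univ_two, hm1, h11]
    refine ⟨x, orderOf_eq_prime h3 fun e => ?_⟩
    have := congrArg (fun A : Matrix.SpecialLinearGroup (Fin 2) E => (A : Matrix (Fin 2) (Fin 2) E) 1 0) e
    rw [hx] at this
    simp at this
  · obtain ⟨a, ha⟩ : ∃ a : Eˣ, a ≠ 1 := by
      classical
      have : Nontrivial Eˣ := Fintype.one_lt_card_iff_nontrivial.mp (by
        rw [Fintype.card_units, hE]; norm_num)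
      exact exists_ne 1
    let x : Matrix.SpecialLinearGroup (Fin 2) E :=
      ⟨Matrix.diagonal ![(a : E), ((a⁻¹ : Eˣ) : E)], by simp⟩
    have hx : (x : Matrix (Fin 2) (Fin 2) E) = Matrix.diagonal ![(a : E), ((a⁻¹ : Eˣ) : E)] := rfl
    have ha7 : ∀ b : Eˣ, (b : E) ^ 7 = 1 := fun b => by
      have := FiniteField.pow_card_sub_one_eq_one (b : E) b.ne_zero
      rwa [hE] at this
    have : Fact (Nat.Prime 7) := ⟨by norm_num⟩
    have h7 : x ^ 7 = 1 := by
      apply Subtype.ext
      rw [Matrix.SpecialLinearGroup.coe_pow, hx, Matrix.diagonal_pow]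
      ext i j
      have h1 := ha7 a
      have h2 := ha7 a⁻¹
      rw [Units.val_inv_eq_inv_val, inv_pow] at h2
      fin_cases i <;> fin_cases j <;> simp [Matrix.diagonal, h1]
    refine ⟨x, orderOf_eq_prime h7 fun e => ha (Units.ext ?_)⟩
    have := congrArg (fun A : Matrix.SpecialLinearGroup (Fin 2) E => (A : Matrix (Fin 2) (Fin 2) E) 0 0) e
    rw [hx] at this
    simpa using this

end SL7

/-- The prime graph of a finite group has the prime divisors of its order as vertices, two distinct primes p, q being joined when the group has an element of order pq; two groups have the same prime graph when they have the same prime divisors and the same joined pairs. Let F be the field with 7 elements. There are finite groups of arbitrarily large order with the same prime graph as PSL(2,F) (the graph on {2, 3, 7} with no edges, which is also the prime graph of PSL(2,8)). -/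
theorem result {F : Type*} [Field F] [Fintype F] (hF : Fintype.card F = 7) (N : ℕ) :
    ∃ (H : Type) (_ : Group H) (_ : Finite H), N < Nat.card H ∧
      ((∀ p : ℕ, p.Prime → (p ∣ Nat.card (Matrix.ProjectiveSpecialLinearGroup (Fin 2) F) ↔ p ∣ Nat.card H)) ∧
      (∀ p q : ℕ, p.Prime → q.Prime → p ≠ q → ((∃ g : (Matrix.ProjectiveSpecialLinearGroup (Fin 2) F), orderOf g = p * q) ↔ (∃ g : H, orderOf g = p * q)))) := by
  have : Fact (Nat.Prime 2) := ⟨Nat.prime_two⟩
  let E := GaloisField 2 3
  have : Fintype E := Fintype.ofFinite E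
  have hE : Fintype.card E = 8 := by
    rw [← Nat.card_eq_fintype_card, GaloisField.card 2 3 (by norm_num)]; norm_num
  have hS := sl2_eight_iso hE
  have hP := psl2_seven hF
  obtain ⟨H, hG, hFt, h1, h2, h3⟩ := exists_large_primeGraph 2
    (Matrix.SpecialLinearGroup.toGL : Matrix.SpecialLinearGroup (Fin 2) E →* GL (Fin 2) E)
    ((hS.dvd 2 Nat.prime_two).mpr (Or.inl rfl))
    (fun g r hr hr2 hg v hv => by
      by_contra hv0
      have h4 := sl2_sq_eq_one_of_fixed g hv0 hv
      have := orderOf_dvd_of_pow_eq_one h4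
      rw [hg] at this
      exact hr2 ((Nat.prime_dvd_prime_iff_eq hr Nat.prime_two).mp this)) N
  refine ⟨H, hG, inferInstance, h1, fun r hr => ?_, fun r t hr ht hrt => ?_⟩
  · rw [hP.dvd r hr, ← hS.dvd r hr, h2 r hr]
  · rw [← h3 r t hr ht hrt]
    exact iff_of_false (hP.no_edge r t hr ht hrt) (hS.no_edge r t hr ht hrt)

end Cfsg.Agent.S3678
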