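import Cfsg.Statements.S3680
import Cfsg.Agent.Lib.AltGroups.MinimalNormalProduct

set_option autoImplicit false
open Cfsg

namespace Cfsg.Agent.S3680

open MulAction

section helpers

variable {G Ω : Type*} [Group G] [MulAction G Ω] [FaithfulSMul G Ω]

theorem eq_one_of_commute_fix (A : Subgroup G) [IsPretransitive A Ω] {c : G}
    (hc : ∀ a ∈ A, a * c = c * a) {ω : Ω} (h : c • ω = ω) : c = 1 := by
  refine eq_of_smul_eq_smul fun x : Ω => ?_
  obtain ⟨a, rfl⟩ := exists_smul_eq A ω x
  rw [one_smul, Subgroup.smul_def, ← mul_smul, ← hc a a.2, mul_smul, h]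

theorem isPretransitive_of_normal (hprim : IsPreprimitive G Ω) (A : Subgroup G) [A.Normal] (hA : A ≠ ⊥) :
    IsPretransitive A Ω := by
  have := hprim
  refine IsQuasiPreprimitive.isPretransitive_of_normal (G := G) fun h => hA ?_
  rw [eq_bot_iff]
  intro a ha
  rw [Subgroup.mem_bot]
  refine eq_of_smul_eq_smul fun x : Ω => ?_
  rw [one_smul]
  have hx : x ∈ fixedPoints A Ω := h ▸ Set.mem_univ x
  exact hx ⟨a, ha⟩

/-- Mutually centralising transitive subgroups are isomorphic. -/
theorem nonempty_equiv_of_commute_transitive (A B : Subgroup G) [IsPretransitive A Ω] [IsPretransitive B Ω]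
    (h : ∀ a ∈ A, ∀ b ∈ B, a * b = b * a) (ω : Ω) : Nonempty (B ≃* A) := by
  choose f hf using fun b : B => exists_smul_eq A ω ((b : G) • ω)
  have huniq : ∀ a a' : A, (a : G) • ω = (a' : G) • ω → a = a' := by
    intro a a' he
    have h1 := eq_one_of_commute_fix B (c := ((a'⁻¹ * a : A) : G))
      (fun b hb => (h _ (a'⁻¹ * a).2 b hb).symm) (ω := ω)
      (by rw [Subgroup.coe_mul, Subgroup.coe_inv, mul_smul, he, inv_smul_smul])
    exact (inv_mul_eq_one.1 (Subtype.ext h1)).symm
  have hmul : ∀ b c : B, f (b * c) = f c * f b := by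
    intro b c
    apply huniq
    have e1 := hf (b * c)
    have e2 := hf c
    have e3 := hf b
    rw [Subgroup.smul_def] at e1 e2 e3
    rw [e1, Subgroup.coe_mul, Subgroup.coe_mul, mul_smul, mul_smul, ← e2, ← mul_smul (b : G),
      ← h _ (f c).2 _ b.2, mul_smul, ← e3]
  let φ : B →* A := MonoidHom.mk' (fun b => (f b)⁻¹) fun b c => by rw [hmul, mul_inv_rev]
  refine ⟨MulEquiv.ofBijective φ ⟨?_, ?_⟩⟩
  · rw [injective_iff_map_eq_one]
    intro b hb
    have hb1 : f b = 1 := inv_eq_one.1 hb
    have := hf b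
    rw [hb1, one_smul] at this
    exact Subtype.ext (eq_one_of_commute_fix A (fun a ha => h a ha b b.2) this.symm)
  · intro a
    obtain ⟨b, hb⟩ := exists_smul_eq B ω ((a⁻¹ : A) • ω)
    refine ⟨b, inv_eq_iff_eq_inv.2 (huniq _ _ ?_)⟩
    have := hf b
    rw [Subgroup.smul_def] at this hb
    rw [this, hb, Subgroup.smul_def]

end helpers

/-- The socle of a finite primitive permutation group. Let a finite group G act faithfully and primitively on a set Ω, and let N be the subgroup generated by the minimal normal subgroups of G. Then either N is an elementary abelian p-group for some prime p and acts regularly on Ω (transitively with trivial point stabilizers), or N is isomorphic to a direct product of m ≥ 1 copies of a non-abelian simple group. -/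
theorem result {G Ω : Type*} [Group G] [Finite G] [MulAction G Ω] [FaithfulSMul G Ω] [Finite Ω]
    (hprim : MulAction.IsPreprimitive G Ω) (N : Subgroup G)
    (hN : N = sSup {V : Subgroup G | V.Normal ∧ V ≠ ⊥ ∧ ∀ M : Subgroup G, M.Normal → M ≤ V → M = ⊥ ∨ M = V}) :
    (∃ p : ℕ, p.Prime ∧ IsMulCommutative N ∧ (∀ x : N, x ^ p = 1) ∧
      MulAction.IsPretransitive N Ω ∧ ∀ ω : Ω, MulAction.stabilizer N ω = ⊥) ∨
    (∃ (T : Type) (_ : Group T) (m : ℕ), 1 ≤ m ∧ IsSimpleGroup T ∧ ¬ IsMulCommutative T ∧ Nonempty (N ≃* (Fin m → T))) := by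
  classical
  let S := {V : Subgroup G | V.Normal ∧ V ≠ ⊥ ∧ ∀ M : Subgroup G, M.Normal → M ≤ V → M = ⊥ ∨ M = V}
  rcases subsingleton_or_nontrivial G with hG | hG
  · -- the trivial group: the socle is trivial
    left
    have hNb : N = ⊥ := Subgroup.eq_bot_of_subsingleton N
    have hΩ : ∀ x y : Ω, x = y := fun x y => by
      have := hprim.toIsPretransitive
      obtain ⟨g, hg⟩ := exists_smul_eq G x y
      rw [← hg, Subsingleton.elim g 1, one_smul]
    have : Subsingleton N := hNb ▸ inferInstance
    exact ⟨2, Nat.prime_two, IsMulCommutative.of_comm fun a b => Subsingleton.elim _ _,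
      fun x => Subsingleton.elim _ _, ⟨fun x y => ⟨1, by rw [one_smul]; exact hΩ x y⟩⟩,
      fun ω => Subgroup.eq_bot_of_subsingleton _⟩
  obtain ⟨A, hAS⟩ : S.Nonempty := by
    obtain ⟨V, ⟨h1, h2⟩, hmin⟩ := Set.exists_min_image {V : Subgroup G | V.Normal ∧ V ≠ ⊥}
      (fun V => Nat.card V) (Set.toFinite _) ⟨⊤, inferInstance, top_ne_bot⟩
    refine ⟨V, h1, h2, fun M hM hle => or_iff_not_imp_left.2 fun hne => ?_⟩
    exact Subgroup.eq_of_le_of_card_ge hle (hmin M ⟨hM, hne⟩)
  have htr : ∀ V ∈ S, IsPretransitive V Ω := fun V hV =>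
    have := hV.1
    isPretransitive_of_normal hprim V hV.2.1
  have hcomm : ∀ V ∈ S, ∀ W ∈ S, V ≠ W → ∀ v ∈ V, ∀ w ∈ W, v * w = w * v := by
    intro V hV W hW hne v hv w hw
    refine Subgroup.commute_of_normal_of_disjoint V W hV.1 hW.1 (disjoint_iff.2 ?_) v w hv hw
    have hn : (V ⊓ W).Normal := by have := hV.1; have := hW.1; infer_instance
    refine (hV.2.2 _ hn inf_le_left).resolve_right fun h => hne ?_
    have hVW : V ≤ W := h ▸ inf_le_right
    exact (hW.2.2 V hV.1 hVW).resolve_left hV.2.1
  have hAn := hAS.1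
  have hAt := htr A hAS
  obtain ⟨ω⟩ : Nonempty Ω := by
    by_contra hΩ
    rw [not_nonempty_iff] at hΩ
    obtain ⟨a, b, hab⟩ := exists_pair_ne G
    exact hab (eq_of_smul_eq_smul fun x : Ω => isEmptyElim x)
  obtain ⟨T, _, m, hT, hm, ⟨eA⟩⟩ :=
    CfsgLib.AltGroups.exists_mulEquiv_pi_of_minimal_normal A hAS.2.1 hAS.2.2
  by_cases hTc : IsMulCommutative T
  · -- abelian case: `A` is the socle
    left
    have hA : ∀ a ∈ A, ∀ b ∈ A, a * b = b * a := fun a ha b hb => by
      have : (⟨a, ha⟩ : A) * ⟨b, hb⟩ = ⟨b, hb⟩ * ⟨a, ha⟩ := eA.injective (by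
        rw [map_mul, map_mul]; funext i; exact mul_comm' _ _)
      exact congrArg Subtype.val this
    have hcent : ∀ c : G, (∀ a ∈ A, a * c = c * a) → c ∈ A := by
      intro c hc
      obtain ⟨a, ha⟩ := exists_smul_eq A ω (c • ω)
      rw [Subgroup.smul_def] at ha
      have := eq_one_of_commute_fix A (c := (a : G)⁻¹ * c) (fun b hb => by
        rw [← mul_assoc, hA b hb _ (A.inv_mem a.2), mul_assoc, hc b hb, mul_assoc]) (ω := ω)
        (by rw [mul_smul, ← ha, inv_smul_smul])
      rw [inv_mul_eq_one] at this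
      exact this ▸ a.2
    have hNA : N = A := by
      rw [hN]
      refine le_antisymm (sSup_le fun V hV => ?_) (le_sSup hAS)
      by_cases h : V = A
      · exact h.le
      · exact fun v hv => hcent v fun a ha => (hcomm V hV A hAS h v hv a ha).symm
    subst hNA
    have hTf : Finite T :=
        Finite.of_injective (fun t : T => eA.symm (Pi.mulSingle (⟨0, hm⟩ : Fin m) t))
          (eA.symm.injective.comp (Pi.mulSingle_injective _))
    refine ⟨Nat.card T, Group.is_simple_iff_prime_card.mp hT, IsMulCommutative.of_comm fun a b =>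
      Subtype.ext (hA a a.2 b b.2), fun x => eA.injective ?_, hAt, fun x => ?_⟩
    · rw [map_pow, map_one]; funext i; exact pow_card_eq_one'
    · rw [Subgroup.eq_bot_iff_forall]
      intro a ha
      exact Subtype.ext (eq_one_of_commute_fix N (fun b hb => hA b hb a a.2) (ω := x) ha)
  · -- no minimal normal subgroup is abelian
    right
    by_cases h1 : ∀ V ∈ S, V = A
    · have hNA : N = A := by
        rw [hN]; exact le_antisymm (sSup_le fun V hV => (h1 V hV).le) (le_sSup hAS)
      subst hNA
      exact ⟨T, _, m, hm, hT, hTc, ⟨eA⟩⟩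
    push Not at h1
    obtain ⟨B, hBS, hBA⟩ := h1
    have hBn := hBS.1
    have hBt := htr B hBS
    have hc := hcomm A hAS B hBS (Ne.symm hBA)
    have hcentB : ∀ c : G, (∀ a ∈ A, a * c = c * a) → c ∈ B := by
      intro c hc'
      obtain ⟨b, hb⟩ := exists_smul_eq B ω (c • ω)
      rw [Subgroup.smul_def] at hb
      have := eq_one_of_commute_fix A (c := (b : G)⁻¹ * c) (fun a ha => by
        rw [← mul_assoc, hc a ha _ (B.inv_mem b.2), mul_assoc, hc' a ha, mul_assoc]) (ω := ω)
        (by rw [mul_smul, ← hb, inv_smul_smul])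
      rw [inv_mul_eq_one] at this
      exact this ▸ b.2
    have hNAB : N = A ⊔ B := by
      rw [hN]
      refine le_antisymm (sSup_le fun V hV => ?_) (sup_le (le_sSup hAS) (le_sSup hBS))
      by_cases h : V = A
      · exact h ▸ le_sup_left
      · exact le_trans (fun v hv => hcentB v fun a ha => (hcomm V hV A hAS h v hv a ha).symm) le_sup_right
    obtain ⟨eBA⟩ := nonempty_equiv_of_commute_transitive A B hc ω
    let φ : A × B →* G := A.subtype.noncommCoprod B.subtype fun a b => hc a a.2 b b.2
    have hinj : Function.Injective φ := by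
      rw [injective_iff_map_eq_one]
      rintro ⟨a, b⟩ hab
      change (a : G) * (b : G) = 1 at hab
      have hb : (b : G) = (a : G)⁻¹ := (inv_eq_of_mul_eq_one_right hab).symm
      have hdis : A ⊓ B = ⊥ := (hAS.2.2 _ inferInstance inf_le_left).resolve_right fun h =>
        hBA.symm ((hBS.2.2 A hAn (h ▸ inf_le_right)).resolve_left hAS.2.1)
      have : (a : G) ∈ A ⊓ B := ⟨a.2, by simpa [hb] using B.inv_mem b.2⟩
      rw [hdis, Subgroup.mem_bot] at this
      exact Prod.ext (Subtype.ext this) (Subtype.ext (by rw [hb, this, inv_one]; rfl))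
    have hrange : φ.range = N := by
      rw [hNAB]
      refine (MonoidHom.noncommCoprod_range (f := A.subtype) (g := B.subtype)
        (fun a b => hc a a.2 b b.2)).trans ?_
      rw [Subgroup.range_subtype, Subgroup.range_subtype]
    let e1 : N ≃* A × B := ((MulEquiv.subgroupCongr hrange).symm.trans (MonoidHom.ofInjective hinj).symm)
    let e2 : (Fin m → T) × (Fin m → T) ≃* (Fin (m + m) → T) :=
      { toEquiv := (Equiv.sumArrowEquivProdArrow (Fin m) (Fin m) T).symm.trans
          (Equiv.arrowCongr finSumFinEquiv (Equiv.refl T))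
        map_mul' := fun x y => by
          funext i
          simp only [Equiv.toFun_as_coe, Equiv.trans_apply, Equiv.arrowCongr_apply, Equiv.coe_refl,
            Function.comp_apply, id_eq, Pi.mul_apply]
          rcases finSumFinEquiv.symm i with j | j <;> rfl }
    exact ⟨T, _, m + m, Nat.le_add_right_of_le hm, hT, hTc, ⟨e1.trans
      ((eA.prodCongr (eBA.trans eA)).trans e2)⟩⟩

end Cfsg.Agent.S3680
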