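import Cfsg.Statements.S3681
import Cfsg.Agent.Lib.OrderDegrees.ThreeCycle

set_option autoImplicit false
open Cfsg

namespace Cfsg.Agent.S3681

/-- Bochert's bound for primitive groups. Let a finite group G act faithfully and primitively on a finite set Ω with n elements, and suppose the image of G in the symmetric group of Ω does not contain the alternating group of Ω. Then |G| · ⌊(n + 1)/2⌋! ≤ n!, that is, the index of G in the symmetric group is at least ⌊(n + 1)/2⌋!. -/
theorem result {G Ω : Type*} [Group G] [Finite G] [MulAction G Ω] [FaithfulSMul G Ω] [Fintype Ω] [DecidableEq Ω]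
    (hprim : MulAction.IsPreprimitive G Ω) (hA : ¬ alternatingGroup Ω ≤ (MulAction.toPermHom G Ω).range) :
    Nat.card G * Nat.factorial ((Fintype.card Ω + 1) / 2) ≤ Nat.factorial (Fintype.card Ω) := by
  classical
  obtain ⟨S, hS, hmin⟩ : ∃ S : Finset Ω, (∀ g : G, (∀ x ∈ S, g • x = x) → g = 1) ∧
      ∀ T : Finset Ω, T.card < S.card → ∃ g : G, g ≠ 1 ∧ ∀ x ∈ T, g • x = x := by
    have hne : ((Finset.univ : Finset (Finset Ω)).filter
        (fun S => ∀ g : G, (∀ x ∈ S, g • x = x) → g = 1)).Nonempty :=
      ⟨Finset.univ, by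
        simp only [Finset.mem_filter, Finset.mem_univ, true_and]
        intro g hg
        exact FaithfulSMul.eq_of_smul_eq_smul fun x => by rw [one_smul]; exact hg x trivial⟩
    obtain ⟨S, hS, hmin⟩ := Finset.exists_min_image _ Finset.card hne
    simp only [Finset.mem_filter, Finset.mem_univ, true_and] at hS hmin
    refine ⟨S, hS, fun T hT => ?_⟩
    by_contra hc
    push Not at hc
    exact absurd (hmin T fun g hg => by
      by_contra h1
      obtain ⟨x, hx, hx'⟩ := hc g h1
      exact hx' (hg x hx)) (not_le.mpr hT)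
  have hsmall : 2 * S.card ≤ Fintype.card Ω := by
    by_contra hlt
    apply hA
    have hC : Sᶜ.card < S.card := by
      have := Finset.card_add_card_compl S
      omega
    obtain ⟨g, hg1, hg⟩ := hmin _ hC
    obtain ⟨x, hxS, hgx⟩ : ∃ x ∈ S, g • x ≠ x := by
      by_contra hc; push Not at hc; exact hg1 (hS g hc)
    obtain ⟨h, hh1, hh⟩ := hmin (S.erase x) (Finset.card_erase_lt_of_mem hxS)
    have hhx : h • x ≠ x := fun e => hh1 (hS h fun y hy => by
      rcases eq_or_ne y x with rfl | hne
      · exact e
      · exact hh y (Finset.mem_erase.mpr ⟨hne, hy⟩))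
    refine CfsgLib.OrderDegrees.alternatingGroup_le_range_of_moved_inter hprim g h x hgx hhx ?_
    intro y hy1 hy2
    by_contra hyx
    by_cases hyS : y ∈ S
    · exact hy2 (hh y (Finset.mem_erase.mpr ⟨hyx, hyS⟩))
    · exact hy1 (hg y (Finset.mem_compl.mpr hyS))
  have hcard : Nat.card G ≤ (Fintype.card Ω).descFactorial S.card := by
    let f : G → (S ↪ Ω) := fun g => ⟨fun x => g • (x : Ω), fun x y h =>
      Subtype.ext (MulAction.injective g h)⟩
    have hf : Function.Injective f := by
      intro g g' h
      have h1 : g⁻¹ * g' = 1 := hS _ fun x hx => by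
        have h2 : g • x = g' • x := DFunLike.congr_fun h ⟨x, hx⟩
        rw [mul_smul, ← h2, inv_smul_smul]
      exact (inv_mul_eq_one.mp h1)
    refine (Nat.card_le_card_of_injective f hf).trans ?_
    rw [Nat.card_eq_fintype_card, Fintype.card_embedding_eq, Fintype.card_coe]
  calc Nat.card G * Nat.factorial ((Fintype.card Ω + 1) / 2)
      ≤ (Fintype.card Ω).descFactorial S.card * Nat.factorial (Fintype.card Ω - S.card) :=
        Nat.mul_le_mul hcard (Nat.factorial_le (by omega))
    _ = Nat.factorial (Fintype.card Ω) := by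
        rw [mul_comm, Nat.factorial_mul_descFactorial (by omega)]

end Cfsg.Agent.S3681
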