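import Cfsg.Statements.S3683


set_option autoImplicit false
open Cfsg

namespace Cfsg.Agent.S3683

open MulAction

/-- Let a finite group G act faithfully and primitively on a set Ω, and suppose the stabilizer of a point a fixes a second point b ≠ a (a suborbit of length 1 other than {a}). Then the stabilizer of a is trivial and G is cyclic of prime order. -/
theorem result {G Ω : Type*} [Group G] [Finite G] [MulAction G Ω] [FaithfulSMul G Ω] [Finite Ω]
    (hprim : MulAction.IsPreprimitive G Ω) (a b : Ω) (hab : a ≠ b) (hfix : ∀ g : G, g • a = a → g • b = b) :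
    MulAction.stabilizer G a = ⊥ ∧ IsCyclic G ∧ (Nat.card G).Prime := by
  have : Nontrivial Ω := ⟨⟨a, b, hab⟩⟩
  have hco : IsCoatom (stabilizer G a) :=
    MulAction.IsPreprimitive.isCoatom_stabilizer_of_isPreprimitive G a
  have hcob : IsCoatom (stabilizer G b) :=
    MulAction.IsPreprimitive.isCoatom_stabilizer_of_isPreprimitive G b
  have heq : stabilizer G a = stabilizer G b := by
    have hle : stabilizer G a ≤ stabilizer G b := fun g hg => hfix g hg
    rcases hle.eq_or_lt with h | h
    · exact h
    · exact absurd (hco.2 _ h) hcob.1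
  obtain ⟨g, hg⟩ := MulAction.exists_smul_eq G a b
  have hnotmem : g ∉ stabilizer G a := by
    intro h
    exact hab ((mem_stabilizer_iff.mp h).symm.trans hg)
  have hconj : stabilizer G b = (stabilizer G a).map (MulAut.conj g).toMonoidHom := by
    rw [← hg]; exact MulAction.stabilizer_smul_eq_stabilizer_map_conj g a
  have hgn : g ∈ Subgroup.normalizer (stabilizer G a : Set G) := by
    rw [← heq] at hconj
    intro x
    have h1 : g * x * g⁻¹ ∈ (stabilizer G a).map (MulAut.conj g).toMonoidHom ↔ x ∈ stabilizer G a := by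
      constructor
      · rintro ⟨y, hy, hxy⟩
        have : y = x := by simpa using hxy
        exact this ▸ hy
      · intro hx; exact ⟨x, hx, rfl⟩
    rw [← hconj] at h1
    exact h1.symm
  have hnorm : (stabilizer G a).Normal := by
    rw [← Subgroup.normalizer_eq_top_iff]
    apply hco.2
    exact lt_of_le_of_ne Subgroup.le_normalizer (fun h => hnotmem (h ▸ hgn))
  have hbot : stabilizer G a = ⊥ := by
    rw [eq_bot_iff]
    intro h hh
    rw [Subgroup.mem_bot]
    apply FaithfulSMul.eq_of_smul_eq_smul (α := Ω)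
    intro x
    obtain ⟨k, rfl⟩ := MulAction.exists_smul_eq G a x
    have := hnorm.conj_mem h hh k⁻¹
    rw [mem_stabilizer_iff, inv_inv, mul_smul, mul_smul, inv_smul_eq_iff] at this
    rw [one_smul, this]
  rw [hbot] at hco
  have : Nontrivial G := by
    refine ⟨⟨g, 1, fun h => hab ?_⟩⟩
    rw [← hg, h, one_smul]
  have hsimp : ∀ x : G, x ≠ 1 → Subgroup.zpowers x = ⊤ := by
    intro x hx
    apply hco.2
    rw [bot_lt_iff_ne_bot]
    simpa [Subgroup.zpowers_eq_bot] using hx
  obtain ⟨x, hx⟩ := exists_ne (1 : G)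
  have hcyc : IsCyclic G := ⟨x, fun y => by
    have := hsimp x hx
    simpa [Subgroup.mem_zpowers_iff] using (this ▸ Subgroup.mem_top y : y ∈ Subgroup.zpowers x)⟩
  refine ⟨hbot, hcyc, ?_⟩
  obtain ⟨p, hp, hpd⟩ := Nat.exists_prime_and_dvd (n := Nat.card G) Finite.one_lt_card.ne'
  have : Fact p.Prime := ⟨hp⟩
  obtain ⟨y, hy⟩ := exists_prime_orderOf_dvd_card' p hpd
  have : Nat.card G = p := by
    rw [← hy, ← Nat.card_zpowers, hsimp y (by intro h; rw [h, orderOf_one] at hy; exact hp.ne_one hy.symm)]
    exact Nat.card_congr Subgroup.topEquiv.symm.toEquiv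
  rw [this]; exact hp

end Cfsg.Agent.S3683
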