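import Cfsg.Statements.S3684


set_option autoImplicit false
open Cfsg

namespace Cfsg.Agent.S3684

open MulAction
open scoped Pointwise

theorem exists_inj_dihedralHom {G : Type*} [Group G] [Finite G] (s c : G) (hs : s * s = 1)
    (hsc : s * c * s = c⁻¹) (hns : s ∉ Subgroup.zpowers c) :
    ∃ f : DihedralGroup (orderOf c) →* G, Function.Injective f ∧ f (DihedralGroup.r 1) = c ∧
      f (DihedralGroup.sr 0) = s := by
  set n := orderOf c with hn
  have hn0 : 0 < n := orderOf_pos c
  have : NeZero n := ⟨hn0.ne'⟩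
  let e : ZMod n → G := fun i => c ^ i.val
  have he : ∀ i : ℤ, e (i : ZMod n) = c ^ i := by
    intro i
    show c ^ (i : ZMod n).val = c ^ i
    rw [← zpow_natCast, ZMod.val_intCast, hn, zpow_mod_orderOf]
  have headd : ∀ i j : ZMod n, e (i + j) = e i * e j := by
    intro i j
    rw [← ZMod.intCast_zmod_cast i, ← ZMod.intCast_zmod_cast j, ← Int.cast_add, he, he, he, zpow_add]
  have heneg : ∀ i : ZMod n, e (-i) = (e i)⁻¹ := by
    intro i
    rw [← ZMod.intCast_zmod_cast i, ← Int.cast_neg, he, he, zpow_neg]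
  have hse : ∀ i : ZMod n, s * e i = e (-i) * s := by
    intro i
    have hsinv : s⁻¹ = s := inv_eq_of_mul_eq_one_right hs
    have h1 : s * e i * s⁻¹ = (e i)⁻¹ := by
      show s * c ^ i.val * s⁻¹ = (c ^ i.val)⁻¹
      rw [← conj_pow, hsinv, hsc, inv_pow]
    rw [heneg, ← h1, inv_mul_cancel_right]
  let f : DihedralGroup n → G := fun x => match x with
    | .r i => e i
    | .sr i => s * e i
  have he0 : e 0 = 1 := by show c ^ (0 : ZMod n).val = 1; simp
  refine ⟨MonoidHom.mk' f ?_, ?_, ?_, ?_⟩
  · rintro (i | i) (j | j)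
    · exact headd i j
    · show s * e (j - i) = e i * (s * e j)
      have : e i * s = s * e (-i) := by rw [hse, neg_neg]
      rw [← mul_assoc, this, mul_assoc, ← headd, neg_add_eq_sub]
    · show s * e (i + j) = s * e i * e j
      rw [headd, mul_assoc]
    · show e (j - i) = s * e i * (s * e j)
      rw [hse i, mul_assoc, ← mul_assoc s s, hs, one_mul, ← headd, neg_add_eq_sub]
  · rw [injective_iff_map_eq_one]
    rintro (i | i) h
    · have h' : c ^ i.val = 1 := h
      have hd : n ∣ i.val := orderOf_dvd_of_pow_eq_one h'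
      have : i.val = 0 := Nat.eq_zero_of_dvd_of_lt hd (ZMod.val_lt i)
      rw [DihedralGroup.one_def, (ZMod.val_eq_zero i).mp this]
    · exfalso
      have h' : s * c ^ i.val = 1 := h
      apply hns
      rw [eq_inv_of_mul_eq_one_left h']
      exact Subgroup.inv_mem _ (Subgroup.pow_mem _ (Subgroup.mem_zpowers c) _)
  · show e 1 = c
    have h := he 1
    simpa using h
  · show s * e 0 = s
    rw [he0, mul_one]

/-- Let a finite group G act faithfully and primitively on a set Ω, and suppose the stabilizer of a point a has an orbit of length 2. Then the stabilizer of a has order 2 and G is isomorphic to the dihedral group of order 2p for some prime p. -/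
theorem result {G Ω : Type*} [Group G] [Finite G] [MulAction G Ω] [FaithfulSMul G Ω] [Finite Ω]
    (hprim : MulAction.IsPreprimitive G Ω) (a b : Ω) (h2 : Nat.card (MulAction.orbit (MulAction.stabilizer G a) b) = 2) :
    Nat.card (MulAction.stabilizer G a) = 2 ∧ ∃ p : ℕ, p.Prime ∧ Nonempty (G ≃* DihedralGroup p) := by
  have : Nontrivial Ω := by
    by_contra h
    rw [not_nontrivial_iff_subsingleton] at h
    have := Finite.card_le_one_iff_subsingleton.mpr
      (inferInstance : Subsingleton (MulAction.orbit (MulAction.stabilizer G a) b))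
    omega
  set H := stabilizer G a with hH
  set B := stabilizer G b with hB
  have hcard : Nat.card H = Nat.card B := by
    obtain ⟨g, hg⟩ := MulAction.exists_smul_eq G a b
    rw [hH, hB, ← hg, MulAction.stabilizer_smul_eq_stabilizer_map_conj]
    exact Nat.card_congr (Subgroup.equivMapOfInjective _ _ (MulAut.conj g).injective).toEquiv
  have hrel : (B.subgroupOf H).index = 2 := by
    have h1 : B.subgroupOf H = stabilizer H b := by ext x; rfl
    rw [h1, MulAction.index_stabilizer]
    exact h2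
  have hK1 : ((H ⊓ B).subgroupOf H).index = 2 := by rw [inf_comm, Subgroup.inf_subgroupOf_right]; exact hrel
  have hmul1 : Nat.card ((H ⊓ B : Subgroup G)) * 2 = Nat.card H := by
    rw [← hK1, ← Nat.card_congr (Subgroup.subgroupOfEquivOfLe (inf_le_left : H ⊓ B ≤ H)).toEquiv,
      Subgroup.card_mul_index]
  have hK2 : ((H ⊓ B).subgroupOf B).index = 2 := by
    have h := Subgroup.card_mul_index ((H ⊓ B).subgroupOf B)
    rw [Nat.card_congr (Subgroup.subgroupOfEquivOfLe (inf_le_right : H ⊓ B ≤ B)).toEquiv, ← hcard,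
      ← hmul1] at h
    exact Nat.eq_of_mul_eq_mul_left Nat.card_pos h
  have hHB : H ≠ B := by
    intro h
    rw [h, Subgroup.subgroupOf_self, Subgroup.index_top] at hrel
    norm_num at hrel
  have hcoH : IsCoatom H := MulAction.IsPreprimitive.isCoatom_stabilizer_of_isPreprimitive G a
  have hcoB : IsCoatom B := MulAction.IsPreprimitive.isCoatom_stabilizer_of_isPreprimitive G b
  have hsup : H ⊔ B = ⊤ := by
    apply hcoH.2
    apply lt_of_le_of_ne le_sup_left
    intro h
    have hle : B ≤ H := h ▸ le_sup_right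
    rcases hle.eq_or_lt with h' | h'
    · exact hHB h'.symm
    · exact hcoH.1 (hcoB.2 _ h')
  have hnormal_bot : ∀ N : Subgroup G, N.Normal → N ≤ H → N = ⊥ := by
    intro N hN hle
    rw [eq_bot_iff]
    intro h hh
    rw [Subgroup.mem_bot]
    apply FaithfulSMul.eq_of_smul_eq_smul (α := Ω)
    intro x
    obtain ⟨k, rfl⟩ := MulAction.exists_smul_eq G a x
    have h' := mem_stabilizer_iff.mp (hle (hN.conj_mem h hh k⁻¹))
    rw [inv_inv, mul_smul, mul_smul, inv_smul_eq_iff] at h'
    rw [one_smul, h']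
  have hKn : (H ⊓ B).Normal := by
    rw [← Subgroup.normalizer_eq_top_iff, eq_top_iff, ← hsup, sup_le_iff]
    constructor
    · have := Subgroup.normal_of_index_eq_two hK1
      exact Subgroup.le_normalizer_of_normal_subgroupOf inf_le_left
    · have := Subgroup.normal_of_index_eq_two hK2
      exact Subgroup.le_normalizer_of_normal_subgroupOf inf_le_right
  have hK : H ⊓ B = ⊥ := hnormal_bot _ hKn inf_le_left
  have hH2 : Nat.card H = 2 := by rw [← hmul1, hK, Subgroup.card_bot]
  refine ⟨hH2, ?_⟩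
  obtain ⟨⟨s, hsH⟩, hs⟩ := exists_prime_orderOf_dvd_card' (G := H) 2 (by rw [hH2])
  obtain ⟨⟨t, htB⟩, ht⟩ := exists_prime_orderOf_dvd_card' (G := B) 2 (by rw [← hcard, hH2])
  rw [Subgroup.orderOf_mk] at hs ht
  have hgen : ∀ (L : Subgroup G) (x : G), x ∈ L → orderOf x = 2 → Nat.card L = 2 →
      Subgroup.zpowers x = L := by
    intro L x hx ho hc
    apply Subgroup.eq_of_le_of_card_ge (Subgroup.zpowers_le.mpr hx)
    rw [Nat.card_zpowers, ho, hc]
  have hzs := hgen H s hsH hs hH2
  have hzt := hgen B t htB ht (hcard ▸ hH2)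
  have hs2 : s * s = 1 := by rw [← sq, ← hs, pow_orderOf_eq_one]
  have ht2 : t * t = 1 := by rw [← sq, ← ht, pow_orderOf_eq_one]
  have hsc : s * (s * t) * s = (s * t)⁻¹ := by
    rw [← mul_assoc s s t, hs2, one_mul, mul_inv_rev, inv_eq_of_mul_eq_one_right hs2,
      inv_eq_of_mul_eq_one_right ht2]
  set c := s * t with hc
  have htc : t = s * c := by rw [hc, ← mul_assoc, hs2, one_mul]
  have hns : s ∉ Subgroup.zpowers c := by
    intro h
    have hle : H ⊔ B ≤ Subgroup.zpowers c := by
      rw [← hzs, ← hzt, sup_le_iff, Subgroup.zpowers_le, Subgroup.zpowers_le]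
      refine ⟨h, ?_⟩
      rw [htc]; exact Subgroup.mul_mem _ h (Subgroup.mem_zpowers c)
    rw [hsup] at hle
    have hN : H.Normal := ⟨fun x hx g => by
      obtain ⟨i, rfl⟩ := hle (Subgroup.mem_top x)
      obtain ⟨j, rfl⟩ := hle (Subgroup.mem_top g)
      have : c ^ j * c ^ i * (c ^ j)⁻¹ = c ^ i := by
        rw [← zpow_add, ← zpow_neg, ← zpow_add]; congr 1; ring
      simpa [this] using hx⟩
    have := hnormal_bot H hN le_rfl
    rw [this, Subgroup.card_bot] at hH2
    omega
  obtain ⟨f, hf, hf1, hf0⟩ := exists_inj_dihedralHom s c hs2 hsc hns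
  have hsurj : Function.Surjective f := by
    rw [← MonoidHom.range_eq_top, eq_top_iff, ← hsup, ← hzs, ← hzt, sup_le_iff, Subgroup.zpowers_le,
      Subgroup.zpowers_le]
    refine ⟨⟨_, hf0⟩, ⟨DihedralGroup.sr 0 * DihedralGroup.r 1, ?_⟩⟩
    rw [map_mul, hf0, hf1, htc]
  let e := MulEquiv.ofBijective f ⟨hf, hsurj⟩
  refine ⟨orderOf c, ?_, ⟨e.symm⟩⟩
  have hn1 : orderOf c ≠ 1 := by
    intro h
    rw [orderOf_eq_one_iff] at h
    apply hns
    rw [h] at htc
    rw [mul_one] at htc
    exfalso
    exact hHB (by rw [← hzs, ← hzt, htc])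
  obtain ⟨q, hq, hqn⟩ := Nat.exists_prime_and_dvd hn1
  obtain ⟨k, hk⟩ := hqn
  have hk0 : k ≠ 0 := by
    rintro rfl; rw [mul_zero] at hk; exact (orderOf_pos c).ne' hk
  have hw : orderOf (c ^ k) = q := by
    rw [orderOf_pow' c hk0, hk, Nat.gcd_eq_right (dvd_mul_left k q), Nat.mul_div_cancel _ (Nat.pos_of_ne_zero hk0)]
  set W := Subgroup.zpowers (c ^ k)
  have hconj : ∀ x : G, x * (c ^ k) * x⁻¹ = c ^ k ∨ x * (c ^ k) * x⁻¹ = (c ^ k)⁻¹ := by
    intro x
    obtain ⟨d, rfl⟩ := hsurj x
    have hr : f (DihedralGroup.r (k : ZMod (orderOf c))) = c ^ k := by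
      rw [← DihedralGroup.r_one_pow, map_pow, hf1]
    rw [← hr, ← map_inv, ← map_inv, ← map_mul, ← map_mul]
    cases d with
    | r i => left; congr 1; simp
    | sr i => right; congr 1; simp
  have hWn : W.Normal := ⟨fun y hy g => by
    obtain ⟨i, rfl⟩ := hy
    show g * (c ^ k) ^ i * g⁻¹ ∈ W
    rw [← conj_zpow]
    rcases hconj g with h | h <;> rw [h]
    · exact Subgroup.zpow_mem _ (Subgroup.mem_zpowers _) _
    · exact Subgroup.zpow_mem _ (Subgroup.inv_mem _ (Subgroup.mem_zpowers _)) _⟩
  have htop : H ⊔ W = ⊤ := by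
    apply hcoH.2
    apply lt_of_le_of_ne le_sup_left
    intro h
    have hle : W ≤ H := h ▸ le_sup_right
    have := hnormal_bot W hWn hle
    rw [Subgroup.zpowers_eq_bot] at this
    rw [this, orderOf_one] at hw
    exact hq.ne_one hw.symm
  have hle : Nat.card G ≤ 2 * q := by
    have hset : ((H : Set G) * (W : Set G)) = Set.univ := by
      rw [← Subgroup.coe_mul_of_left_le_normalizer_right H W
        (Subgroup.normalizer_eq_top (H := W) ▸ le_top), htop, Subgroup.coe_top]
    calc Nat.card G = (Set.univ : Set G).ncard := (Set.ncard_univ G).symm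
      _ = ((H : Set G) * (W : Set G)).ncard := by rw [hset]
      _ ≤ (H : Set G).ncard * (W : Set G).ncard := by
          simpa only [Nat.card_coe_set_eq] using Set.natCard_mul_le (s := (H : Set G)) (t := (W : Set G))
      _ = 2 * q := by
          rw [← Nat.card_coe_set_eq, ← Nat.card_coe_set_eq, SetLike.coe_sort_coe, SetLike.coe_sort_coe,
            hH2, Nat.card_zpowers, hw]
  rw [← Nat.card_congr e.toEquiv, DihedralGroup.nat_card, hk] at hle
  have : k = 1 := by
    have h1 : q * k ≤ q * 1 := by omega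
    have := Nat.le_of_mul_le_mul_left h1 hq.pos
    omega
  rw [hk, this, mul_one]; exact hq

end Cfsg.Agent.S3684
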