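import Cfsg.Statements.S3685
import Cfsg.Agent.Lib.Minimal.ArcChainSetup
import Cfsg.Agent.Lib.Minimal.ArcChainTypes

set_option autoImplicit false
open Cfsg

namespace Cfsg.Agent.S3685

/-- Let a finite group G act faithfully and primitively on a set Ω, and suppose the stabilizer of a point a has an orbit of length 3. Then the stabilizer of a is isomorphic to one of: the cyclic group of order 3, the symmetric group of degree 3, the dihedral group of order 12, the symmetric group of degree 4, or the direct product of the symmetric group of degree 4 with a group of order 2. -/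
theorem result {G Ω : Type*} [Group G] [Finite G] [MulAction G Ω] [FaithfulSMul G Ω] [Finite Ω]
    (hprim : MulAction.IsPreprimitive G Ω) (a b : Ω) (h3 : Nat.card (MulAction.orbit (MulAction.stabilizer G a) b) = 3) :
    Nonempty (MulAction.stabilizer G a ≃* Multiplicative (ZMod 3)) ∨ Nonempty (MulAction.stabilizer G a ≃* Equiv.Perm (Fin 3)) ∨
      Nonempty (MulAction.stabilizer G a ≃* DihedralGroup 6) ∨ Nonempty (MulAction.stabilizer G a ≃* Equiv.Perm (Fin 4)) ∨
      Nonempty (MulAction.stabilizer G a ≃* Equiv.Perm (Fin 4) × Multiplicative (ZMod 2)) := by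
  classical
  haveI := hprim
  haveI : Nontrivial Ω := by
    rw [← Finite.one_lt_card_iff_nontrivial]
    have : Nat.card (MulAction.orbit (MulAction.stabilizer G a) b) ≤ Nat.card Ω :=
      Nat.card_le_card_of_injective Subtype.val Subtype.val_injective
    omega
  set H := MulAction.stabilizer G a with hHdef
  have hba : b ≠ a := by
    rintro rfl
    have h1 : MulAction.orbit H b = {b} := by
      ext x
      constructor
      · rintro ⟨h, rfl⟩; exact h.2
      · rintro rfl; exact MulAction.mem_orbit_self _
    rw [h1] at h3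
    simp at h3
  obtain ⟨g, hg⟩ := MulAction.exists_smul_eq G a b
  have hcoat : IsCoatom H := (MulAction.isCoatom_stabilizer_iff_preprimitive G a).2 hprim
  have hcore : ∀ N : Subgroup G, N ≤ H → N.Normal → N = ⊥ := by
    intro N hN hNn
    refine (Subgroup.eq_bot_iff_forall _).2 fun n hn => eq_of_smul_eq_smul (α := Ω) fun x => ?_
    obtain ⟨t, rfl⟩ := MulAction.exists_smul_eq G a x
    have h := hN (hNn.conj_mem n hn t⁻¹)
    rw [hHdef, MulAction.mem_stabilizer_iff, inv_inv, mul_smul, mul_smul, inv_smul_eq_iff] at h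
    rw [one_smul]; exact h
  have hgH : g ∉ H := fun h => hba (hg.symm.trans h)
  have hCb : CfsgLib.Minimal.ArcChain.conjH H g 1 = MulAction.stabilizer G b := by
    ext x
    rw [CfsgLib.Minimal.ArcChain.mem_conjH, zpow_one, hHdef, MulAction.mem_stabilizer_iff,
      MulAction.mem_stabilizer_iff, mul_smul, mul_smul, hg, inv_smul_eq_iff, hg]
  have hidx : (H ⊓ CfsgLib.Minimal.ArcChain.conjH H g 1).relIndex H = 3 := by
    rw [Subgroup.inf_relIndex_left, hCb, ← h3, ← Nat.card_congr (MulAction.orbitEquivQuotientStabilizer H b).symm]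
    rfl
  rcases CfsgLib.Minimal.ArcChain.exists_chain H g hcoat hcore hgH hidx with h | ⟨c, hc⟩
  · haveI : Fact (Nat.Prime 3) := ⟨Nat.prime_three⟩
    exact Or.inl ⟨mulEquivOfPrimeCardEq (p := 3) h (by simp)⟩
  · have hk := c.k_le_four
    have hk1 := c.k_pos
    obtain h | h | h | h : c.k = 1 ∨ c.k = 2 ∨ c.k = 3 ∨ c.k = 4 := by omega
    · exact Or.inr (Or.inl (hc ▸ c.iso_one h))
    · exact Or.inr (Or.inr (Or.inl (hc ▸ c.iso_two h)))
    · exact Or.inr (Or.inr (Or.inr (Or.inl (hc ▸ c.iso_three h))))
    · exact Or.inr (Or.inr (Or.inr (Or.inr (hc ▸ c.iso_four h))))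
end Cfsg.Agent.S3685
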