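import Cfsg.Statements.S3687
import Cfsg.Agent.Lib.OrderDegrees.AltSuborbit.Product
import Cfsg.Agent.Lib.OrderDegrees.ThompsonWielandt.OfPair

set_option autoImplicit false
open Cfsg

namespace Cfsg.Agent.S3687

open CfsgLib.OrderDegrees.ThompsonWielandt CfsgLib.OrderDegrees.AltSuborbit

/-- Let a finite group G act faithfully and primitively on a set Ω, let a and b be points such that the orbit Δ of b under the stabilizer H of a has d ≥ 6 elements, and suppose that the permutation group induced by H on Δ contains the alternating group of Δ (the image of H in the symmetric group of Δ has index at most 2) while H does not act faithfully on Δ. Then either H induces exactly the alternating group of Δ and H is isomorphic to the direct product of the alternating groups of degrees d and d - 1; or H induces the full symmetric group of Δ and H is isomorphic to one of: the direct product of the symmetric groups of degrees d and d - 1, the direct product of the symmetric group of degree d with the alternating group of degree d - 1, or the subgroup of the direct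 product of the symmetric groups of degrees d and d - 1 consisting of the pairs of permutations with equal signs. -/
theorem result {G Ω : Type*} [Group G] [Finite G] [MulAction G Ω] [FaithfulSMul G Ω] [Finite Ω]
    (hprim : MulAction.IsPreprimitive G Ω) (a b : Ω) (d : ℕ) (hd : Nat.card (MulAction.orbit (MulAction.stabilizer G a) b) = d) (h6 : 6 ≤ d)
    (halt : (MulAction.toPermHom (MulAction.stabilizer G a) (MulAction.orbit (MulAction.stabilizer G a) b)).range.index ≤ 2)
    (hunf : ¬ Function.Injective (MulAction.toPermHom (MulAction.stabilizer G a) (MulAction.orbit (MulAction.stabilizer G a) b))) :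
    ((MulAction.toPermHom (MulAction.stabilizer G a) (MulAction.orbit (MulAction.stabilizer G a) b)).range.index = 2 ∧
      Nonempty (MulAction.stabilizer G a ≃* alternatingGroup (Fin d) × alternatingGroup (Fin (d - 1)))) ∨
    ((MulAction.toPermHom (MulAction.stabilizer G a) (MulAction.orbit (MulAction.stabilizer G a) b)).range = ⊤ ∧
      (Nonempty (MulAction.stabilizer G a ≃* Equiv.Perm (Fin d) × Equiv.Perm (Fin (d - 1))) ∨
       Nonempty (MulAction.stabilizer G a ≃* Equiv.Perm (Fin d) × alternatingGroup (Fin (d - 1))) ∨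
       Nonempty (MulAction.stabilizer G a ≃* ((Equiv.Perm.sign.comp (MonoidHom.fst (Equiv.Perm (Fin d)) (Equiv.Perm (Fin (d - 1))))) *
         (Equiv.Perm.sign.comp (MonoidHom.snd (Equiv.Perm (Fin d)) (Equiv.Perm (Fin (d - 1)))))).ker))) := by
  classical
  haveI := Fintype.ofFinite Ω
  haveI := hprim
  haveI : Nontrivial Ω := ⟨⟨a, b, ne_of_suborbit hd (by omega)⟩⟩
  let O := Orbital.ofPair hd (show 2 ≤ d by omega)
  have hab : O.R a b := Orbital.ofPair_R hd _
  set f := MulAction.toPermHom (MulAction.stabilizer G a)
    (MulAction.orbit (MulAction.stabilizer G a) b) with hf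
  have hker : f.ker = (outHom O a).ker := by
    ext g
    rw [MonoidHom.mem_ker, MonoidHom.mem_ker, Equiv.ext_iff, Equiv.ext_iff]
    constructor
    · intro h y
      exact Subtype.ext (show (g : G) • y.1 = y.1 from
        congrArg Subtype.val (h ⟨y.1, mem_suborbit_iff.mp y.2⟩))
    · intro h y
      exact Subtype.ext (show (g : G) • y.1 = y.1 from
        congrArg Subtype.val (h ⟨y.1, mem_suborbit_iff.mpr y.2⟩))
  have hcard : f.range.index * (O.K a).relIndex (MulAction.stabilizer G a) = d.factorial := by
    rw [← card_outHom_range, ← Subgroup.index_ker, ← hker, Subgroup.index_ker,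
      Subgroup.index_mul_card, Nat.card_perm, hd]
  have hbig : Big O := fun x => by
    rw [relIndex_K_eq O a x, ← hcard]
    exact Nat.mul_le_mul_right _ halt
  have hne : O.K a ≠ ⊥ := fun hb => hunf (by
    rw [← MonoidHom.ker_eq_bot_iff, hker, outHom_ker, hb, Subgroup.bot_subgroupOf])
  have H : Hyp O :=
    ⟨hbig, h6, flipK_eq O hbig (by omega), fun x hx => hne (Subgroup.card_eq_one.mp
      ((card_K_eq O x a).trans (by rw [hx, Subgroup.card_bot])))⟩
  obtain ⟨Φ, hinj, hfst, hAA, halt2⟩ := H.exists_embedding hab
  let ed : {y // O.R a y} ≃ Fin d := Finite.equivFinOfCardEq (O.card_out a)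
  let eT : {w // O.R w b ∧ w ≠ a} ≃ Fin (d - 1) := Finite.equivFinOfCardEq (card_T O hab)
  let E := MulEquiv.prodCongr (Equiv.permCongrHom ed) (Equiv.permCongrHom eT)
  let Ψ := E.toMonoidHom.comp Φ
  have hΨ : Function.Injective Ψ := E.injective.comp hinj
  have hsign : ∀ g, Equiv.Perm.sign (Ψ g).1 = Equiv.Perm.sign (Φ g).1 ∧
      Equiv.Perm.sign (Ψ g).2 = Equiv.Perm.sign (Φ g).2 := fun g =>
    ⟨Equiv.Perm.sign_permCongr ed _, Equiv.Perm.sign_permCongr eT _⟩
  have hA : (alternatingGroup (Fin d)).prod (alternatingGroup (Fin (d - 1))) ≤ Ψ.range := by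
    intro p hp
    obtain ⟨g, hg⟩ := hAA (show E.symm p ∈ _ from ⟨by
      show Equiv.Perm.sign (E.symm p).1 = 1
      exact (Equiv.Perm.sign_permCongr ed.symm p.1).trans hp.1, by
      show Equiv.Perm.sign (E.symm p).2 = 1
      exact (Equiv.Perm.sign_permCongr eT.symm p.2).trans hp.2⟩)
    exact ⟨g, by show E (Φ g) = p; rw [hg, E.apply_symm_apply]⟩
  have hrange : Nat.card (outHom O a).range = (O.K a).relIndex (MulAction.stabilizer G a) :=
    card_outHom_range O a
  have houtidx : (outHom O a).range.index = f.range.index := by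
    have h1 := (outHom O a).range.index_mul_card
    rw [hrange, Nat.card_perm, O.card_out, ← hcard] at h1
    refine Nat.eq_of_mul_eq_mul_right (Nat.pos_of_ne_zero fun h0 => ?_) h1
    have := Nat.factorial_pos d
    rw [h0, mul_zero] at hcard
    omega
  have hidx : f.range.index = 1 ∨ f.range.index = 2 := by
    have := Subgroup.index_ne_zero_of_finite (H := f.range)
    omega
  rcases hidx with h1 | h2
  · right
    refine ⟨Subgroup.index_eq_one.mp h1, ?_⟩
    have hsurj : ∀ x, ∃ y, (x, y) ∈ Ψ.range := by
      intro x
      have htop : (outHom O a).range = ⊤ := Subgroup.index_eq_one.mp (houtidx.trans h1)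
      obtain ⟨g, hg⟩ := (htop ▸ Subgroup.mem_top ((Equiv.permCongrHom ed).symm x) :
        (Equiv.permCongrHom ed).symm x ∈ (outHom O a).range)
      refine ⟨(Ψ g).2, g, Prod.ext ?_ rfl⟩
      show Equiv.permCongrHom ed (Φ g).1 = x
      rw [hfst, hg, MulEquiv.apply_symm_apply]
    have hx₀ : Equiv.Perm.sign (Equiv.swap (⟨0, by omega⟩ : Fin d) ⟨1, by omega⟩) = -1 :=
      Equiv.Perm.sign_swap (by simp [Fin.ext_iff])
    rcases three_cases hA hsurj hx₀ with e | e | e
    · exact Or.inl ⟨(MonoidHom.ofInjective hΨ).trans
        ((MulEquiv.subgroupCongr e).trans Subgroup.topEquiv)⟩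
    · exact Or.inr (Or.inl ⟨(MonoidHom.ofInjective hΨ).trans
        ((MulEquiv.subgroupCongr e).trans ((Subgroup.prodEquiv _ _).trans
          (MulEquiv.prodCongr Subgroup.topEquiv (MulEquiv.refl _))))⟩)
    · exact Or.inr (Or.inr ⟨(MonoidHom.ofInjective hΨ).trans (MulEquiv.subgroupCongr e)⟩)
  · left
    refine ⟨h2, ?_⟩
    have hout : (outHom O a).range = alternatingGroup {y // O.R a y} :=
      Equiv.Perm.eq_alternatingGroup_of_index_eq_two (houtidx.trans h2)
    have e : Ψ.range = (alternatingGroup (Fin d)).prod (alternatingGroup (Fin (d - 1))) := by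
      refine le_antisymm ?_ hA
      rintro _ ⟨g, rfl⟩
      refine ⟨(hsign g).1.trans ?_, (hsign g).2.trans (halt2 (h2 ▸ hcard) g)⟩
      rw [hfst, ← Equiv.Perm.mem_alternatingGroup, ← hout]
      exact ⟨g, rfl⟩
    exact ⟨(MonoidHom.ofInjective hΨ).trans ((MulEquiv.subgroupCongr e).trans
      (Subgroup.prodEquiv _ _))⟩

end Cfsg.Agent.S3687
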