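import Cfsg.Statements.S3693
import Cfsg.Agent.Lib.OrderDegrees.ThompsonWielandt.Local

set_option autoImplicit false
open Cfsg

namespace Cfsg.Agent.S3693

/-- Let a finite group G act faithfully and primitively on a set Ω, let a and b be points such that the orbit Δ of b under the stabilizer H of a has length d ≥ 2, and consider the permutation group induced on Δ by the elements of H fixing b. If that induced group has trivial Fitting subgroup (no non-trivial nilpotent normal subgroup), then the two-point stabilizer of a and b has trivial Fitting subgroup and the order of H divides d! · ((d - 1)!)^d. -/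
theorem result {G Ω : Type*} [Group G] [Finite G] [MulAction G Ω] [FaithfulSMul G Ω] [Finite Ω]
    (hprim : MulAction.IsPreprimitive G Ω) (a b : Ω) (d : ℕ) (hd : Nat.card (MulAction.orbit (MulAction.stabilizer G a) b) = d) (h2 : 2 ≤ d)
    (hF : Cfsg.fittingSubgroup ↥(((MulAction.stabilizer G b).subgroupOf (MulAction.stabilizer G a)).map (MulAction.toPermHom (MulAction.stabilizer G a) (MulAction.orbit (MulAction.stabilizer G a) b))) = ⊥) :
    Cfsg.fittingSubgroup ↥(MulAction.stabilizer G a ⊓ MulAction.stabilizer G b) = ⊥ ∧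
      Nat.card (MulAction.stabilizer G a) ∣ Nat.factorial d * (Nat.factorial (d - 1)) ^ d := by
  haveI := hprim
  haveI : Nontrivial Ω :=
    ⟨⟨a, b, CfsgLib.OrderDegrees.ThompsonWielandt.ne_of_suborbit hd h2⟩⟩
  obtain ⟨h0, h1⟩ :=
    (CfsgLib.OrderDegrees.ThompsonWielandt.Orbital.ofPair hd h2).fitting_free h2
      (CfsgLib.OrderDegrees.ThompsonWielandt.le_K_of_fitting_free hd h2 hF)
      (CfsgLib.OrderDegrees.ThompsonWielandt.Orbital.ofPair_R hd h2)
  refine ⟨CfsgLib.Cores.fittingSubgroup_eq_bot_iff.2 fun p hp => ?_, h1⟩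
  refine (Subgroup.map_eq_bot_iff_of_injective _ (Subgroup.subtype_injective _)).1
    (h0 p hp _ (Subgroup.map_subtype_le _) ?_ ((CfsgLib.Cores.isPGroup_pCore p _).map _))
  exact Subgroup.le_normalizer.trans
    (CfsgLib.Cores.normalizer_le_normalizer_map_subtype _ (Cfsg.pCore p _))

end Cfsg.Agent.S3693
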