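import Cfsg.Statements.S3696


set_option autoImplicit false
open Cfsg

namespace Cfsg.Agent.S3696

theorem list_amgm (l : List ℕ) : l.prod * l.length ^ l.length ≤ l.sum ^ l.length := by
  rcases Nat.eq_zero_or_pos l.length with h0 | hpos
  · rw [List.length_eq_zero_iff.mp h0]; simp
  have hprod : (∏ i : Fin l.length, ((l.get i : ℕ) : ℝ)) = ((l.prod : ℕ) : ℝ) := by
    rw [← Nat.cast_prod, ← List.prod_ofFn, List.ofFn_get]
  have hsum : (∑ i : Fin l.length, ((l.get i : ℕ) : ℝ)) = ((l.sum : ℕ) : ℝ) := by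
    rw [← Nat.cast_sum, ← List.sum_ofFn, List.ofFn_get]
  have h := Real.geom_mean_le_arith_mean (Finset.univ : Finset (Fin l.length)) (fun _ => (1 : ℝ))
    (fun i => ((l.get i : ℕ) : ℝ)) (fun i _ => zero_le_one) (by simpa using hpos)
    (fun i _ => Nat.cast_nonneg _)
  simp only [Real.rpow_one, Finset.sum_const, Finset.card_univ, Fintype.card_fin, nsmul_eq_mul,
    mul_one, one_mul, hprod, hsum] at h
  have h2 := pow_le_pow_left₀ (Real.rpow_nonneg (Nat.cast_nonneg _) _) h l.length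
  rw [Real.rpow_inv_natCast_pow (Nat.cast_nonneg _) hpos.ne', div_pow,
    le_div_iff₀ (pow_pos (Nat.cast_pos.mpr hpos) _)] at h2
  exact_mod_cast h2

theorem exists_split (p : ℕ) (hp : 2 ≤ p) : ∀ r a : ℕ, 1 ≤ r → r ≤ a →
    ∃ l : List ℕ, l.length = r ∧ l.sum ≤ p ^ a ∧ p ^ a ≤ l.prod := by
  intro r
  induction r with
  | zero => intro a h; omega
  | succ r ih =>
    intro a _ ha
    rcases Nat.eq_zero_or_pos r with rfl | hr
    · exact ⟨[p ^ a], by simp⟩
    obtain ⟨b, rfl⟩ : ∃ b, a = b + 1 := ⟨a - 1, by omega⟩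
    obtain ⟨l, h1, h2, h3⟩ := ih b hr (by omega)
    refine ⟨p :: l, by simp [h1], ?_, ?_⟩
    · rw [List.sum_cons]
      have hb : p ≤ p ^ b := Nat.le_self_pow (by omega) p
      calc p + l.sum ≤ p ^ b + p ^ b := Nat.add_le_add hb h2
        _ = 2 * p ^ b := (two_mul _).symm
        _ ≤ p * p ^ b := Nat.mul_le_mul_right _ hp
        _ = p ^ (b + 1) := by rw [pow_succ, mul_comm]
    · rw [List.prod_cons, pow_succ, mul_comm (p ^ b)]
      exact Nat.mul_le_mul_left _ h3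

open MulAction in
theorem key {Ω : Type*} [Fintype Ω] [DecidableEq Ω] {p : ℕ} (hp : p.Prime)
    (A E : Subgroup (Equiv.Perm Ω)) (hA : IsPGroup p A)
    (hab : ∀ a ∈ A, ∀ b ∈ A, a * b = b * a) (hE : ∀ a ∈ A, a ∈ E ↔ a ^ p = 1) :
    ∀ (k : ℕ) (B : Subgroup (Equiv.Perm Ω)), B ≤ A → Nat.card ↥(B ⊓ E) = p ^ k →
      ∀ S : Finset Ω, (∀ b ∈ B, (∀ x ∈ S, b x = x) → b = 1) → (∀ b ∈ B, ∀ x ∈ S, b x ∈ S) →
      ∃ l : List ℕ, l.length = k ∧ l.sum ≤ S.card ∧ Nat.card B ≤ l.prod := by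
  intro k
  induction k using Nat.strong_induction_on with
  | _ k ih =>
  intro B hBA hk S hfaith hinv
  have : Fact p.Prime := ⟨hp⟩
  have hBp : IsPGroup p B := hA.to_le hBA
  rcases Nat.eq_zero_or_pos k with rfl | hkpos
  · refine ⟨[], rfl, by simp, ?_⟩
    by_contra hc
    simp only [List.prod_nil, not_le] at hc
    obtain ⟨m, hm⟩ := IsPGroup.iff_card.mp hBp
    obtain ⟨⟨b, hb⟩, hob⟩ := exists_prime_orderOf_dvd_card' (G := B) p (by
      rw [hm]; apply dvd_pow_self; rintro rfl; rw [hm, pow_zero] at hc; exact lt_irrefl _ hc)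
    rw [Subgroup.orderOf_mk] at hob
    have hbE : b ∈ B ⊓ E := ⟨hb, (hE b (hBA hb)).mpr (hob ▸ pow_orderOf_eq_one b)⟩
    rw [pow_zero, Subgroup.card_eq_one] at hk
    rw [hk, Subgroup.mem_bot] at hbE
    rw [hbE, orderOf_one] at hob
    exact hp.one_lt.ne hob
  obtain ⟨⟨e, he⟩, hoe⟩ := exists_prime_orderOf_dvd_card' (G := ↥(B ⊓ E)) p (by
    rw [hk]; exact dvd_pow_self p (by omega))
  rw [Subgroup.orderOf_mk] at hoe
  obtain ⟨heB, heE⟩ := he
  have he1 : e ≠ 1 := by rintro rfl; rw [orderOf_one] at hoe; exact hp.one_lt.ne hoe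
  obtain ⟨x, hxS, hex⟩ : ∃ x ∈ S, e x ≠ x := by
    by_contra hc; push Not at hc; exact he1 (hfaith e heB hc)
  set B' := B ⊓ stabilizer (Equiv.Perm Ω) x with hB'
  have hB'B : B' ≤ B := inf_le_left
  have hst : ∀ H : Subgroup (Equiv.Perm Ω),
      Nat.card (orbit H x) * Nat.card ↥(H ⊓ stabilizer (Equiv.Perm Ω) x) = Nat.card H := by
    intro H
    have h1 := Subgroup.index_mul_card (stabilizer H x)
    rw [index_stabilizer, ← Nat.card_coe_set_eq] at h1
    have h2 : stabilizer H x = (H ⊓ stabilizer (Equiv.Perm Ω) x).subgroupOf H := by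
      ext y
      rw [Subgroup.mem_subgroupOf, Subgroup.mem_inf]
      exact ⟨fun h => ⟨y.2, h⟩, fun h => h.2⟩
    rw [h2, Nat.card_congr (Subgroup.subgroupOfEquivOfLe inf_le_left).toEquiv] at h1
    exact h1
  obtain ⟨k', hk'⟩ : ∃ k', Nat.card ↥(B' ⊓ E) = p ^ k' :=
    IsPGroup.iff_card.mp (hBp.to_le (inf_le_left.trans hB'B))
  obtain ⟨a, ha⟩ : ∃ a, Nat.card (orbit B x) = p ^ a := IsPGroup.card_orbit hBp x
  have horbE := hst (B ⊓ E)
  rw [inf_right_comm, ← hB', hk, hk'] at horbE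
  have hgt : 1 < Nat.card (orbit ↥(B ⊓ E) x) := by
    rw [Nat.card_coe_set_eq, Set.one_lt_ncard]
    exact ⟨x, mem_orbit_self x, e x, ⟨⟨e, heB, heE⟩, rfl⟩, Ne.symm hex⟩
  have hlt : k' < k := by
    apply (Nat.pow_lt_pow_iff_right hp.one_lt).mp
    rw [← horbE]
    exact (Nat.lt_mul_iff_one_lt_left (pow_pos hp.pos _)).mpr hgt
  have hsub : Nat.card (orbit ↥(B ⊓ E) x) ≤ p ^ a := by
    rw [← ha]
    apply Nat.card_mono (Set.toFinite _)
    rintro y ⟨⟨b, hb⟩, rfl⟩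
    exact ⟨⟨b, hb.1⟩, rfl⟩
  have hra : k - k' ≤ a := by
    apply (Nat.pow_le_pow_iff_right hp.one_lt).mp
    refine le_trans (le_of_eq ?_) hsub
    apply Nat.eq_of_mul_eq_mul_right (pow_pos hp.pos k')
    rw [horbE, ← pow_add, Nat.sub_add_cancel hlt.le]
  obtain ⟨l₁, hl₁, hs₁, hp₁⟩ := exists_split p hp.two_le (k - k') a (by omega) hra
  classical
  let O := S.filter fun y => y ∈ orbit B x
  have hO : O.card = p ^ a := by
    rw [← ha, Nat.card_coe_set_eq, ← Set.ncard_coe_finset]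
    congr 1
    ext y
    simp only [O, Finset.coe_filter, Set.mem_ofPred_eq]
    refine ⟨fun h => h.2, fun h => ⟨?_, h⟩⟩
    obtain ⟨⟨b, hb⟩, rfl⟩ := h
    exact hinv b hb x hxS
  have hfixO : ∀ b ∈ B', ∀ y ∈ O, b y = y := by
    intro b hb y hy
    obtain ⟨⟨c, hc⟩, rfl⟩ := (Finset.mem_filter.mp hy).2
    show b (c x) = c x
    have h := DFunLike.congr_fun (hab b (hBA hb.1) c (hBA hc)) x
    simp only [Equiv.Perm.mul_apply] at h
    rw [h]
    exact congrArg c hb.2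
  obtain ⟨l₂, hl₂, hs₂, hp₂⟩ := ih k' hlt B' (hB'B.trans hBA) hk' (S \ O)
    (fun b hb h => hfaith b hb.1 fun y hy => by
      by_cases hyO : y ∈ O
      · exact hfixO b hb y hyO
      · exact h y (Finset.mem_sdiff.mpr ⟨hy, hyO⟩))
    (fun b hb y hy => by
      rw [Finset.mem_sdiff] at hy ⊢
      refine ⟨hinv b hb.1 y hy.1, fun h => hy.2 ?_⟩
      have h' := hfixO b hb _ h
      rw [b.injective h'] at h
      exact h)
  refine ⟨l₁ ++ l₂, by rw [List.length_append, hl₁, hl₂]; omega, ?_, ?_⟩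
  · rw [List.sum_append]
    have : (S \ O).card + O.card = S.card :=
      Finset.card_sdiff_add_card_eq_card (Finset.filter_subset _ _)
    omega
  · rw [List.prod_append, ← hst B, ha, ← hB']
    exact Nat.mul_le_mul hp₁ hp₂

/-- Let p be a prime, Ω a finite set with n ≥ p elements, and A an abelian p-subgroup of the symmetric group on Ω whose elements of order dividing p number p^k (so k is the rank of A). Then |A| · k^k ≤ n^k, that is, |A| ≤ (n/k)^k. -/
theorem result {Ω : Type*} [Fintype Ω] [DecidableEq Ω]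
    (p : ℕ) (hp : p.Prime) (hn : p ≤ Fintype.card Ω) (A : Subgroup (Equiv.Perm Ω)) (hA : IsPGroup p A) (hab : IsMulCommutative A)
    (k : ℕ) (hk : Nat.card {x : A // x ^ p = 1} = p ^ k) :
    Nat.card A * k ^ k ≤ Fintype.card Ω ^ k := by
  have hcomm : ∀ a ∈ A, ∀ b ∈ A, a * b = b * a := fun a ha b hb =>
    congrArg Subtype.val (hab.is_comm.comm (⟨a, ha⟩ : A) ⟨b, hb⟩)
  let E : Subgroup (Equiv.Perm Ω) :=
    { carrier := {a | a ∈ A ∧ a ^ p = 1}
      mul_mem' := fun {a b} ha hb => ⟨A.mul_mem ha.1 hb.1, by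
        rw [Commute.mul_pow (hcomm a ha.1 b hb.1), ha.2, hb.2, one_mul]⟩
      one_mem' := ⟨A.one_mem, one_pow p⟩
      inv_mem' := fun {a} ha => ⟨A.inv_mem ha.1, by rw [inv_pow, ha.2, inv_one]⟩ }
  have hk' : Nat.card ↥(A ⊓ E) = p ^ k := by
    rw [← hk]
    exact Nat.card_congr
      { toFun := fun x => ⟨⟨x.1, x.2.1⟩, Subtype.ext x.2.2.2⟩
        invFun := fun x => ⟨x.1.1, x.1.2, x.1.2, congrArg Subtype.val x.2⟩
        left_inv := fun _ => rfl
        right_inv := fun _ => rfl }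
  obtain ⟨l, hl, hs, hpr⟩ := key hp A E hA hcomm (fun a ha => ⟨fun h => h.2, fun h => ⟨ha, h⟩⟩)
    k A le_rfl hk' Finset.univ (fun b _ h => Equiv.ext fun x => h x (Finset.mem_univ x))
    (fun b _ x _ => Finset.mem_univ _)
  subst hl
  calc Nat.card A * l.length ^ l.length ≤ l.prod * l.length ^ l.length := Nat.mul_le_mul_right _ hpr
    _ ≤ l.sum ^ l.length := list_amgm l
    _ ≤ Fintype.card Ω ^ l.length := Nat.pow_le_pow_left (by simpa using hs) _

end Cfsg.Agent.S3696
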