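import Cfsg.Statements.S3703
import Cfsg.Agent.Lib.OrderDegrees.FrobeniusAction
import Cfsg.Agent.Lib.CoprimeAction.Basic
import Cfsg.Agent.Lib.CoprimeAction.Abelian
import Cfsg.Agent.Lib.Frobenius.Basic
import Cfsg.Agent.Lib.PGroups.Frattini

set_option autoImplicit false
open Cfsg

namespace Cfsg.Agent.S3703

open CfsgLib

variable {G : Type*} [Group G] [Finite G]

/-- Some Sylow subgroup of `N` has, in its normaliser, a `q`-subgroup of the preimage of `Fb` not
centralising it, together with an element normalising both, whose image generates `Hb`. -/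
theorem exists_config (N : Subgroup G) [N.Normal] (Fb Hb : Subgroup (G ⧸ N)) [Fb.Normal]
    (hcyc : IsCyclic Hb) (hcop : (Nat.card Fb).Coprime (Nat.card N))
    (hHb : Hb ≠ ⊥) (hfpf : ∀ h ∈ Hb, h ≠ 1 → ∀ k ∈ Fb, h * k = k * h → k = 1)
    (hnot : ¬ Fb ≤ (Subgroup.centralizer (N : Set G)).map (QuotientGroup.mk' N)) :
    ∃ (p : ℕ) (P Q : Subgroup G) (h : G), p.Prime ∧ IsPGroup p P ∧ P ≤ N ∧
      Q ≤ Subgroup.normalizer (P : Set G) ∧ h ∈ Subgroup.normalizer (P : Set G) ∧
      h ∈ Subgroup.normalizer (Q : Set G) ∧ Q.map (QuotientGroup.mk' N) ≤ Fb ∧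
      (Nat.card Q).Coprime (Nat.card N) ∧
      ¬ Q ≤ Subgroup.centralizer (P : Set G) ∧
      orderOf (QuotientGroup.mk' N h) = Nat.card Hb ∧
      ∀ i : ℕ, 0 < i → i < Nat.card Hb → ∀ w ∈ Fb,
        QuotientGroup.mk' N h ^ i * w = w * QuotientGroup.mk' N h ^ i → w = 1 := by
  classical
  set π := QuotientGroup.mk' N
  have hπ : ∀ x : G, π x = 1 ↔ x ∈ N := fun x => QuotientGroup.eq_one_iff x
  by_contra hcon
  apply hnot
  intro f hf
  obtain ⟨y, rfl⟩ := QuotientGroup.mk'_surjective N f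
  set m := orderOf (π y) with hm
  have hmN : m.Coprime (Nat.card N) :=
    Nat.Coprime.coprime_dvd_left (Subgroup.orderOf_dvd_natCard _ hf) hcop
  -- lifts of coprime order
  have hlift : ∀ z : G, π z = π y → ∃ k : ℕ, π (z ^ k) = π y ∧ (z ^ k) ^ m = 1 := by
    intro z hz
    obtain ⟨k, hk1, hk2⟩ := Nat.chineseRemainder hmN 1 0
    refine ⟨k, ?_, ?_⟩
    · rw [map_pow, hz]
      exact (pow_eq_pow_iff_modEq.2 hk1).trans (pow_one _)
    · rw [← pow_mul, mul_comm, pow_mul]
      have hzN : z ^ m ∈ N := by rw [← hπ, map_pow, hz, pow_orderOf_eq_one]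
      have hd : Nat.card N ∣ k := Nat.modEq_zero_iff_dvd.1 hk2
      exact orderOf_dvd_iff_pow_eq_one.1 ((Subgroup.orderOf_dvd_natCard _ hzN).trans hd)
  obtain ⟨k, hx, hxm⟩ := hlift y rfl
  set x := y ^ k
  refine ⟨x, ?_, hx⟩
  -- the centraliser of `x` in `N` contains a Sylow subgroup for every prime
  have hS : ∀ p : ℕ, p.Prime → ∃ P : Sylow p N, ∀ a : (P : Subgroup N), x * ((a : N) : G) = ((a : N) : G) * x := by
    intro p hp
    have : Fact p.Prime := ⟨hp⟩
    obtain ⟨P⟩ := (inferInstance : Nonempty (Sylow p N))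
    set P' : Subgroup G := (P : Subgroup N).map N.subtype with hP'
    set L := Subgroup.normalizer (P' : Set G) with hL
    have hLN : L ⊔ N = ⊤ := Sylow.normalizer_sup_eq_top P
    set C := Subgroup.centralizer (P' : Set G)
    set K := Fb.comap π with hK
    set M := K ⊓ L with hM
    have hMmap : M.map π = Fb := by
      refine le_antisymm (Subgroup.map_le_iff_le_comap.2 inf_le_left) fun f hf' => ?_
      obtain ⟨g, rfl⟩ := QuotientGroup.mk'_surjective N f
      obtain ⟨l, hl, n, hn, rfl⟩ := Subgroup.mem_sup_of_normal_right.1 (hLN.ge (Subgroup.mem_top g))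
      have hln : π (l * n) = π l := by rw [map_mul, (hπ n).2 hn, mul_one]
      exact ⟨l, ⟨Subgroup.mem_comap.2 (by rw [← hln]; exact hf'), hl⟩, hln.symm⟩
    -- every Sylow subgroup of `M` prime to `N` centralises `P'`
    have hQ : ∀ q : ℕ, q.Prime → q ∣ Nat.card Fb → ∀ Q : Sylow q M,
        (Q : Subgroup M).map M.subtype ≤ C := by
      intro q hq hqF Q
      have : Fact q.Prime := ⟨hq⟩
      have hqN : q.Coprime (Nat.card N) := Nat.Coprime.coprime_dvd_left hqF hcop
      by_contra hnc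
      apply hcon
      obtain ⟨⟨gH, hgH⟩⟩ := hcyc
      obtain ⟨g, hg⟩ := QuotientGroup.mk'_surjective N (gH : G ⧸ N)
      -- Frattini argument for `M` normal in `L`
      set Q' := (Q : Subgroup M).map M.subtype with hQ'
      obtain ⟨l, hl, n, hn, rfl⟩ := Subgroup.mem_sup_of_normal_right.1 (hLN.ge (Subgroup.mem_top g))
      have hlg : π l = gH := by rw [← hg, map_mul, (hπ n).2 hn, mul_one]
      have hML : ∀ u ∈ L, u ∈ Subgroup.normalizer (M : Set G) := fun u hu =>
        CoprimeAction.mem_normalizer_of_conj_mem fun v hv =>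
          ⟨Subgroup.mem_comap.2 (by
            rw [map_mul, map_mul, map_inv]
            exact Subgroup.Normal.conj_mem inferInstance _ (Subgroup.mem_comap.1 hv.1) _),
           L.mul_mem (L.mul_mem hu hv.2) (L.inv_mem hu)⟩
      obtain ⟨u, huM, hu⟩ : ∃ u ∈ M, u * l ∈ Subgroup.normalizer (Q' : Set G) := by
        let e : MulAut M := MulDistribMulAction.toMulAut (Subgroup.normalizer (M : Set G)) M ⟨l, hML l hl⟩
        obtain ⟨u, hu⟩ := MulAction.exists_smul_eq M (e • Q) Q
        refine ⟨u, u.2, ?_⟩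
        have hset := congrArg (fun S : Sylow q M => (S : Subgroup M)) hu
        refine CoprimeAction.mem_normalizer_of_conj_mem fun v hv => ?_
        obtain ⟨v', hv', rfl⟩ := hv
        have hmem : u * e v' * u⁻¹ ∈ (Q : Subgroup M) := by
          rw [← hset]
          exact ⟨e v', ⟨v', hv', rfl⟩, rfl⟩
        refine ⟨_, hmem, ?_⟩
        simp only [Subgroup.coe_subtype, Subgroup.coe_mul, InvMemClass.coe_inv, mul_inv_rev]
        change (u : G) * (l * (v' : G) * l⁻¹) * (u : G)⁻¹ = _
        group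
      have hgen : orderOf (gH : G ⧸ N) = Nat.card Hb := by
        rw [Subgroup.orderOf_coe, orderOf_eq_card_of_forall_mem_zpowers hgH]
      have hgH1 : (gH : G ⧸ N) ≠ 1 := by
        intro h1
        rw [h1, orderOf_one] at hgen
        exact hHb (Subgroup.eq_bot_of_card_eq _ hgen.symm)
      obtain ⟨c, -, hc⟩ := CfsgLib.Frobenius.exists_conj_eq (K := Fb) (H := Hb) hfpf gH.2 hgH1 (k := π u) (show π u ∈ Fb from huM.1)
      have him : π (u * l) = c * gH * c⁻¹ := by rw [map_mul, hlg, hc]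
      refine ⟨p, P', Q', u * l, hp, P.2.map _, Subgroup.map_subtype_le _,
        (Subgroup.map_subtype_le _).trans inf_le_right, L.mul_mem huM.2 hl, hu,
        (Subgroup.map_mono (Subgroup.map_subtype_le _)).trans hMmap.le, ?_, hnc, ?_, ?_⟩
      · rw [hQ', Subgroup.card_map_of_injective M.subtype_injective]
        obtain ⟨e, he⟩ := IsPGroup.iff_card.1 Q.2
        rw [he]
        exact hqN.pow_left e
      · rw [him, ← hgen]
        exact MulEquiv.orderOf_eq (MulAut.conj c) _
      · intro i hi0 hi w hw hcomm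
        rw [him] at hcomm
        have h1 : (gH : G ⧸ N) ^ i ≠ 1 := fun h => by
          have := Nat.le_of_dvd hi0 (orderOf_dvd_of_pow_eq_one h)
          omega
        have h2 : c⁻¹ * w * c = 1 := by
          refine hfpf _ (Hb.pow_mem gH.2 i) h1 _ (Subgroup.Normal.conj_mem' inferInstance _ hw _) ?_
          rw [conj_pow] at hcomm
          have := congrArg (fun v => c⁻¹ * v * c) hcomm
          simpa [mul_assoc] using this
        simpa [mul_assoc] using congrArg (fun v => c * v * c⁻¹) h2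
    have hD : (M ⊓ C).map π = Fb := by
      refine Subgroup.eq_of_le_of_card_ge ((Subgroup.map_mono inf_le_left).trans hMmap.le)
        (Nat.le_of_dvd Nat.card_pos ?_)
      rw [Nat.dvd_iff_prime_pow_dvd_dvd]
      intro q e hq hqe
      rcases Nat.eq_zero_or_pos e with rfl | he
      · simp
      have : Fact q.Prime := ⟨hq⟩
      have hqF : q ∣ Nat.card Fb := (dvd_pow_self q he.ne').trans hqe
      obtain ⟨Q⟩ := (inferInstance : Nonempty (Sylow q M))
      have hQC := hQ q hq hqF Q
      have hQcard : q ^ e ∣ Nat.card ((Q : Subgroup M).map M.subtype) := by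
        rw [Subgroup.card_map_of_injective M.subtype_injective, Q.card_eq_multiplicity]
        exact pow_dvd_pow _ ((hq.pow_dvd_iff_le_factorization Nat.card_pos.ne').1
          (hqe.trans (hMmap ▸ Subgroup.card_map_dvd M π)))
      have hinj : Nat.card (((Q : Subgroup M).map M.subtype).map π) =
          Nat.card ((Q : Subgroup M).map M.subtype) := by
        set Q' := (Q : Subgroup M).map M.subtype with hQ'
        have hcopQ : (Nat.card Q').Coprime (Nat.card N) := by
          rw [hQ', Subgroup.card_map_of_injective M.subtype_injective]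
          obtain ⟨e', he'⟩ := IsPGroup.iff_card.1 Q.2
          rw [he']
          exact (Nat.Coprime.coprime_dvd_left hqF hcop).pow_left e'
        have hi : Function.Injective (π.comp Q'.subtype) := by
          rw [injective_iff_map_eq_one]
          intro v hv
          have h1 : orderOf (v : G) ∣ 1 := hcopQ ▸ Nat.dvd_gcd (Subgroup.orderOf_dvd_natCard _ v.2)
            (Subgroup.orderOf_dvd_natCard _ ((hπ v).1 hv))
          exact Subtype.ext (orderOf_eq_one_iff.1 (Nat.dvd_one.1 h1))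
        have hr : (π.comp Q'.subtype).range = Q'.map π := by
          rw [MonoidHom.range_comp, Subgroup.range_subtype]
        exact hr ▸ (Nat.card_congr (MonoidHom.ofInjective hi).toEquiv).symm
      rw [← hinj] at hQcard
      exact hQcard.trans (Subgroup.card_dvd_of_le (Subgroup.map_mono
        (le_inf (Subgroup.map_subtype_le _) hQC)))
    obtain ⟨z, hz, hzy⟩ : π y ∈ (M ⊓ C).map π := hD.ge hf
    obtain ⟨k', hk', hzm⟩ := hlift z hzy
    have hzC : z ^ k' ∈ C := C.pow_mem hz.2 k'
    obtain ⟨n, hn, hle⟩ := CoprimeAction.exists_le_conj_of_coprime (N := N) (H := Subgroup.zpowers (z ^ k'))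
      (B := Subgroup.zpowers x) (le_top.trans (Subgroup.normalizer_eq_top (H := N)).ge) (by
        rw [Subgroup.zpowers_le]
        have h1 : x * (z ^ k')⁻¹ ∈ N := by rw [← hπ, map_mul, map_inv, hx, hk', mul_inv_cancel]
        have := Subgroup.mul_mem_sup h1 (Subgroup.mem_zpowers (z ^ k'))
        rwa [inv_mul_cancel_right] at this)
      (by rw [Nat.card_zpowers]; exact Nat.Coprime.coprime_dvd_left (orderOf_dvd_of_pow_eq_one hxm) hmN)
      (Or.inl (CoprimeAction.isSolvable_zpowers x))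
    refine ⟨(⟨n, hn⟩ : N) • P, fun a => ?_⟩
    obtain ⟨a', ha', haa⟩ : ∃ a' ∈ (P : Subgroup N), ((a : N) : G) = n * (a' : G) * n⁻¹ := by
      obtain ⟨a, hamem⟩ := a
      have this : a ∈ (((⟨n, hn⟩ : N) • P : Sylow p N) : Subgroup N) := hamem
      rw [Sylow.coe_subgroup_smul, Subgroup.mem_pointwise_smul_iff_inv_smul_mem] at this
      refine ⟨_, this, ?_⟩
      simp [MulAut.smul_def, mul_assoc]
    have hxn : n⁻¹ * x * n ∈ C :=
      Subgroup.zpowers_le.2 hzC (CoprimeAction.mem_conj_iff.1 (hle (Subgroup.mem_zpowers x)))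
    have h2 := Subgroup.mem_centralizer_iff.1 hxn (a' : G) ⟨a', ha', rfl⟩
    rw [haa]
    calc x * (n * (a' : G) * n⁻¹) = n * (n⁻¹ * x * n * a') * n⁻¹ := by group
      _ = n * (a' * (n⁻¹ * x * n)) * n⁻¹ := by rw [h2]
      _ = n * (a' : G) * n⁻¹ * x := by group
  -- hence `x` centralises `N`
  let CN : Subgroup N := (Subgroup.centralizer ({x} : Set G)).subgroupOf N
  have hCN : CN = ⊤ := by
    refine Subgroup.eq_top_of_card_eq _ (Nat.dvd_antisymm (Subgroup.card_subgroup_dvd_card _) ?_)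
    rw [Nat.dvd_iff_prime_pow_dvd_dvd]
    intro p e hp hpe
    have : Fact p.Prime := ⟨hp⟩
    obtain ⟨P, hP⟩ := hS p hp
    have hle : (P : Subgroup N) ≤ CN := fun a ha => by
      rw [Subgroup.mem_subgroupOf, Subgroup.mem_centralizer_singleton_iff]
      exact (hP ⟨a, ha⟩).symm
    refine dvd_trans ?_ (Subgroup.card_dvd_of_le hle)
    rw [P.card_eq_multiplicity]
    exact pow_dvd_pow _ ((hp.pow_dvd_iff_le_factorization Nat.card_pos.ne').1 hpe)
  rw [SetLike.mem_coe, Subgroup.mem_centralizer_iff]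
  intro a ha
  have h1 : (⟨a, ha⟩ : N) ∈ CN := hCN ▸ Subgroup.mem_top _
  rw [Subgroup.mem_subgroupOf, Subgroup.mem_centralizer_singleton_iff] at h1
  exact h1

/-- An element whose image has order `m` and which has larger order gives order `r * m`, `r ∣ |N|`. -/
theorem exists_orderOf_of_pow_ne_one (N : Subgroup G) [N.Normal] (g : G)
    (hg : g ^ orderOf (QuotientGroup.mk' N g) ≠ 1) :
    ∃ r : ℕ, r.Prime ∧ r ∣ Nat.card N ∧ ∃ x : G, orderOf x = r * orderOf (QuotientGroup.mk' N g) := by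
  set m := orderOf (QuotientGroup.mk' N g) with hm
  have hmem : g ^ m ∈ N := by
    rw [← QuotientGroup.eq_one_iff]
    exact (map_pow (QuotientGroup.mk' N) g m).trans (pow_orderOf_eq_one _)
  obtain ⟨r, hr, hrd⟩ := Nat.exists_prime_and_dvd (n := orderOf (g ^ m)) (fun h => hg (orderOf_eq_one_iff.1 h))
  refine ⟨r, hr, hrd.trans (Subgroup.orderOf_dvd_natCard _ hmem), ?_⟩
  have hmo : m ∣ orderOf g := orderOf_map_dvd _ g
  have hm0 : m ≠ 0 := (orderOf_pos _).ne'
  rw [orderOf_pow' g hm0, Nat.gcd_eq_right hmo] at hrd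
  have hdiv : r * m ∣ orderOf g := by
    rw [← Nat.div_mul_cancel hmo]
    exact Nat.mul_dvd_mul_right hrd m
  exact ⟨g ^ (orderOf g / (r * m)), orderOf_pow_orderOf_div (orderOf_pos g).ne' hdiv⟩

/-- Let N be a normal subgroup of the finite group G such that G/N is a Frobenius group with kernel F and cyclic complement H, where the order of F is coprime to that of N and F is not contained in the image of C_G(N) in G/N. Then G has an element of order p·#H for some prime p dividing the order of N. (A standard tool in recognising groups by their element orders.) -/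
theorem result {G : Type*} [Group G] [Finite G] (N : Subgroup G) [N.Normal]
    (Fb Hb : Subgroup (G ⧸ N)) [Fb.Normal] (hHb : Cfsg.IsFrobeniusComplement Hb) (hker : Cfsg.frobeniusKernel Hb = (Fb : Set (G ⧸ N)))
    (hcyc : IsCyclic Hb) (hcop : (Nat.card Fb).Coprime (Nat.card N))
    (hnot : ¬ Fb ≤ (Subgroup.centralizer (N : Set G)).map (QuotientGroup.mk' N)) :
    ∃ p : ℕ, p.Prime ∧ p ∣ Nat.card N ∧ ∃ g : G, orderOf g = p * Nat.card Hb := by
  classical
  have hfpf : ∀ h ∈ Hb, h ≠ 1 → ∀ k ∈ Fb, h * k = k * h → k = 1 := by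
    intro h hh h1 k hk hc
    refine CfsgLib.Frobenius.eq_one_of_mem_kernel_of_mem (show k ∈ Cfsg.frobeniusKernel Hb by rw [hker]; exact hk) ?_
    exact CfsgLib.Frobenius.centralizer_le hHb hh h1 (Subgroup.mem_centralizer_singleton_iff.2 hc.symm)
  obtain ⟨p, P, Q, h, hp, hPp, hPN, hQP, hhP, hhQ, hQF, hQN, hQnc, hord, hhfpf⟩ :=
    exists_config N Fb Hb hcyc hcop hHb.1 hfpf hnot
  have fp : Fact p.Prime := ⟨hp⟩
  set π := QuotientGroup.mk' N
  set m := Nat.card Hb
  -- it is enough to find an element with the image of order `m` and larger order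
  suffices ∃ g : G, orderOf (π g) = m ∧ g ^ m ≠ 1 by
    obtain ⟨g, hg, hgm⟩ := this
    obtain ⟨r, hr, hrN, x, hx⟩ := exists_orderOf_of_pow_ne_one N g (hg.symm ▸ hgm)
    exact ⟨r, hr, hrN, x, by rw [hx, hg]⟩
  by_cases hhm : h ^ m ≠ 1
  · exact ⟨h, hord, hhm⟩
  rw [not_not] at hhm
  -- pass to the normaliser of `P` modulo the Frattini subgroup of `P`
  set W := Subgroup.normalizer (P : Set G)
  set PW := P.subgroupOf W with hPW
  have hPWn : PW.Normal := Subgroup.normal_in_normalizer
  have hPWp : IsPGroup p PW := hPp.comap_subtype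
  set Φ := (frattini PW).map PW.subtype with hΦ
  have hΦn : Φ.Normal := inferInstance
  set τ := QuotientGroup.mk' Φ with hτ
  set Qw := Q.subgroupOf W
  set xw : W := ⟨h, hhP⟩
  have hτQcop : (Nat.card (Qw.map τ)).Coprime (Nat.card (PW.map τ)) := by
    refine Nat.Coprime.coprime_dvd_left (Subgroup.card_map_dvd Qw τ) (Nat.Coprime.coprime_dvd_right
      (Subgroup.card_map_dvd PW τ) ?_)
    rw [Nat.card_congr (Subgroup.subgroupOfEquivOfLe hQP).toEquiv,
      Nat.card_congr (Subgroup.subgroupOfEquivOfLe (Subgroup.le_normalizer : P ≤ W)).toEquiv]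
    exact Nat.Coprime.coprime_dvd_right (Subgroup.card_dvd_of_le hPN) hQN
  have hV0 : ∀ a ∈ PW.map τ, ∀ b ∈ PW.map τ, a * b = b * a := by
    rintro _ ⟨a, ha, rfl⟩ _ ⟨b, hb, rfl⟩
    have hc := CfsgLib.PGroups.commutatorElement_mem_frattini hPWp (⟨a, ha⟩ : PW) ⟨b, hb⟩
    have hcm : (a * b * a⁻¹ * b⁻¹ : W) ∈ Φ := ⟨_, hc, by simp [commutatorElement_def]⟩
    have h1 := (QuotientGroup.eq_one_iff _).2 hcm
    change τ (a * b * a⁻¹ * b⁻¹) = 1 at h1
    simp only [map_mul, map_inv] at h1
    exact mul_inv_eq_iff_eq_mul.1 (mul_inv_eq_one.1 h1)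
  have hcommV0 : IsMulCommutative (PW.map τ) :=
    IsMulCommutative.of_comm fun a b => Subtype.ext (hV0 a a.2 b b.2)
  set V := ⁅PW.map τ, Qw.map τ⁆ with hV
  have hQnorm : Qw.map τ ≤ Subgroup.normalizer ((PW.map τ : Subgroup (W ⧸ Φ)) : Set (W ⧸ Φ)) := by
    have : (PW.map τ).Normal := hPWn.map τ (QuotientGroup.mk'_surjective Φ)
    rw [Subgroup.normalizer_eq_top]
    exact le_top
  have hVle : V ≤ PW.map τ := CoprimeAction.commutator_le_left hQnorm
  -- the action is not trivial
  have hVne : V ≠ ⊥ := by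
    intro hbot
    apply hQnc
    rw [hV, Subgroup.commutator_eq_bot_iff_le_centralizer] at hbot
    have hle := CoprimeAction.le_centralizer_of_frattini (A := Qw) (K := PW)
      (le_top.trans (Subgroup.normalizer_eq_top (H := PW)).ge) (by
        refine Nat.Coprime.coprime_dvd_right (Subgroup.card_subgroup_dvd_card _) ?_
        rw [Nat.card_congr (Subgroup.subgroupOfEquivOfLe hQP).toEquiv,
          Nat.card_congr (Subgroup.subgroupOfEquivOfLe (Subgroup.le_normalizer : P ≤ W)).toEquiv]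
        exact Nat.Coprime.coprime_dvd_right (Subgroup.card_dvd_of_le hPN) hQN)
      (fun a ha k hk => by
        have h1 : τ k * τ a = τ a * τ k :=
          (Subgroup.mem_centralizer_iff.1 (hbot ⟨k, hk, rfl⟩) (τ a) ⟨a, ha, rfl⟩).symm
        rw [← hΦ, ← QuotientGroup.eq_one_iff]
        change τ (k⁻¹ * (a * k * a⁻¹)) = 1
        rw [map_mul, map_mul, map_mul, map_inv, map_inv, ← h1]
        group)
    intro q hq
    refine Subgroup.mem_centralizer_iff.2 fun a ha => ?_
    exact congrArg Subtype.val (Subgroup.mem_centralizer_iff.1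
      (hle (show (⟨q, hQP hq⟩ : W) ∈ Qw from hq)) ⟨a, Subgroup.le_normalizer ha⟩ ha)
  obtain ⟨v, hv, hv1⟩ := (Subgroup.bot_or_exists_ne_one V).resolve_left hVne
  -- the hypotheses of the Frobenius action lemma
  have hxn : τ xw ∈ Subgroup.normalizer ((Qw.map τ : Subgroup (W ⧸ Φ)) : Set (W ⧸ Φ)) := by
    refine CoprimeAction.mem_normalizer_of_conj_mem ?_
    rintro _ ⟨y, hy, rfl⟩
    exact ⟨xw * y * xw⁻¹, (Subgroup.mem_normalizer_iff.1 hhQ (y : G)).1 hy, by simp⟩
  have hxP : τ xw ∈ Subgroup.normalizer ((PW.map τ : Subgroup (W ⧸ Φ)) : Set (W ⧸ Φ)) := by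
    have : (PW.map τ).Normal := hPWn.map τ (QuotientGroup.mk'_surjective Φ)
    rw [Subgroup.normalizer_eq_top]
    trivial
  have hxV : τ xw ∈ Subgroup.normalizer ((V : Subgroup (W ⧸ Φ)) : Set (W ⧸ Φ)) :=
    CoprimeAction.mem_normalizer_of_conj_mem fun u hu => by
      have h1 : V.map (MulAut.conj (τ xw)).toMonoidHom ≤ V := by
        rw [hV, Subgroup.map_commutator]
        exact Subgroup.commutator_mono
          (by rintro _ ⟨a, ha, rfl⟩; exact CoprimeAction.conj_mem hxP ha)
          (by rintro _ ⟨a, ha, rfl⟩; exact CoprimeAction.conj_mem hxn ha)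
      exact h1 ⟨u, hu, rfl⟩
  have hQV : ∀ y ∈ Qw.map τ, y ∈ Subgroup.normalizer ((V : Subgroup (W ⧸ Φ)) : Set (W ⧸ Φ)) := fun y hy =>
    (le_sup_right.trans (CoprimeAction.sup_le_normalizer_commutator (Qw.map τ) (PW.map τ))) hy
  obtain ⟨w, hw, hwr⟩ := CfsgLib.OrderDegrees.exists_pow_ne_one_of_frobenius_action V (Qw.map τ) (τ xw) m
    Nat.card_pos (by rw [← map_pow, show xw ^ m = 1 from Subtype.ext hhm, map_one])
    (fun a ha b hb => hV0 a (hVle ha) b (hVle hb))
    (fun y hy u hu => CoprimeAction.conj_mem (hQV y hy) hu)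
    (fun u hu => CoprimeAction.conj_mem hxV hu)
    (fun y hy => CoprimeAction.conj_mem hxn hy)
    (by
      intro i hi0 him y hy hfix
      obtain ⟨q, hq, rfl⟩ := hy
      rw [← map_pow, ← map_inv, ← map_mul, ← map_mul] at hfix
      have hmem : (q : W)⁻¹ * (xw ^ i * q * (xw ^ i)⁻¹) ∈ Φ := by
        rw [← QuotientGroup.eq_one_iff]
        change τ _ = 1
        rw [map_mul, hfix, map_inv, inv_mul_cancel]
      have hN : ((q : W)⁻¹ * (xw ^ i * q * (xw ^ i)⁻¹) : G) ∈ N :=
        hPN ((Subgroup.map_subtype_le (H := PW) _) hmem)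
      rw [← QuotientGroup.eq_one_iff] at hN
      change π _ = 1 at hN
      simp only [Subgroup.coe_mul, InvMemClass.coe_inv, SubmonoidClass.coe_pow, map_mul, map_inv, map_pow] at hN
      have hq1 : π (q : G) = 1 := by
        refine hhfpf i hi0 him _ (hQF ⟨q, hq, rfl⟩) ?_
        rw [inv_mul_eq_one] at hN
        exact mul_inv_eq_iff_eq_mul.1 hN.symm
      have : orderOf (q : G) ∣ 1 := hQN ▸ Nat.dvd_gcd (Subgroup.orderOf_dvd_natCard _ hq)
        (Subgroup.orderOf_dvd_natCard _ ((QuotientGroup.eq_one_iff _).1 hq1))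
      rw [show q = 1 from Subtype.ext (orderOf_eq_one_iff.1 (Nat.dvd_one.1 this)), map_one])
    (by
      intro u hu hfix
      have h1 := CoprimeAction.inf_commutator_eq_bot hQnorm hτQcop
      have : u ∈ (PW.map τ ⊓ Subgroup.centralizer (Qw.map τ : Set (W ⧸ Φ))) ⊓ V :=
        ⟨⟨hVle hu, Subgroup.mem_centralizer_iff.2 fun y hy => mul_inv_eq_iff_eq_mul.1 (hfix y hy)⟩, hu⟩
      rw [h1] at this
      exact this)
    v hv (by
      intro h1
      have h2 : orderOf v ∣ 1 := hτQcop ▸ Nat.dvd_gcd (orderOf_dvd_of_pow_eq_one h1)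
        (Subgroup.orderOf_dvd_natCard _ (hVle hv))
      exact hv1 (orderOf_eq_one_iff.1 (Nat.dvd_one.1 h2)))
  obtain ⟨a, ha, rfl⟩ := hVle hw
  refine ⟨(a : G) * h, ?_, fun h1 => hwr ?_⟩
  · rw [map_mul, (QuotientGroup.eq_one_iff _).2 (hPN ha) |> fun e => (show π (a : G) = 1 from e), one_mul, hord]
  · rw [← map_mul, ← map_pow, show (a * xw) ^ m = 1 from Subtype.ext h1, map_one]

end Cfsg.Agent.S3703
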