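import Cfsg.Statements.S3710
import Cfsg.Agent.Lib.SUPhanThree.Main
import Cfsg.Agent.Lib.SUPhanThree.Window
import Cfsg.Agent.S3709

set_option autoImplicit false
set_option linter.unusedSectionVars false
open Cfsg

namespace Cfsg.Agent.S3710

open CfsgLib.SUAmalgam CfsgLib.ClassicalForms

section

variable {F : Type*} [Field F] [Fintype F] (c : Conj F 3) {G : Type*} [Group G]

theorem exists_family (hF : Nat.card F = 3 ^ 2) {n : ℕ} (U : Fin n → Subgroup G)
    (V : Fin n → Fin n → Subgroup G)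
    (h1 : ∀ i j : Fin n, (i : ℕ) + 2 ≤ j → ∀ x ∈ U i, ∀ y ∈ U j, x * y = y * x)
    (h2 : ∀ i j : Fin n, (i : ℕ) + 1 = j → Cfsg.IsStandardUnitaryPair (V i j) (U i) (U j) F 3)
    (N : ℕ) : ∃ ψ : ℕ → (SUg 3 F 3 →* G),
      (∀ i, i < N → ∀ h : i + 2 ≤ n,
        IsPair c (V ⟨i, by omega⟩ ⟨i + 1, by omega⟩) (U ⟨i, by omega⟩) (U ⟨i + 1, by omega⟩) (ψ i)) ∧
      (∀ i, i + 1 < N → i + 3 ≤ n →
        (ψ (i + 1)).comp (emb (r := 2) c 0 (by norm_num)) =
          (ψ i).comp (emb (r := 2) c 1 (by norm_num))) := by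
  classical
  induction N with
  | zero => exact ⟨fun _ => 1, fun i hi => absurd hi (by omega), fun i hi => absurd hi (by omega)⟩
  | succ N ih =>
    obtain ⟨ψ, hp, hc⟩ := ih
    by_cases hN : N + 2 ≤ n
    swap
    · exact ⟨ψ, fun i hi h => hp i (by omega) h, fun i hi h => hc i (by omega) h⟩
    obtain ⟨φ, hφ⟩ := Cfsg.Agent.S3709.exists_isPair c (h2 ⟨N, by omega⟩ ⟨N + 1, by omega⟩ rfl)
    obtain ⟨φ', hφ', hφ''⟩ : ∃ φ' : SUg 3 F 3 →* G,
        IsPair c (V ⟨N, by omega⟩ ⟨N + 1, by omega⟩) (U ⟨N, by omega⟩) (U ⟨N + 1, by omega⟩) φ' ∧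
        ∀ M, M + 1 = N → φ'.comp (emb (r := 2) c 0 (by norm_num)) =
          (ψ M).comp (emb (r := 2) c 1 (by norm_num)) := by
      rcases N with _ | M
      · exact ⟨φ, hφ, fun M hM => absurd hM (by omega)⟩
      · obtain ⟨φ', h', h''⟩ := CfsgLib.SUPhanThree.exists_adjust hF (hp M (by omega) (by omega)) hφ
          (h1 ⟨M, by omega⟩ ⟨M + 1 + 1, by omega⟩ le_rfl)
        refine ⟨φ', h', fun M' hM' => ?_⟩
        obtain rfl : M' = M := by omega
        exact h''
    refine ⟨Function.update ψ N φ', fun i hi h => ?_, fun i hi h => ?_⟩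
    · by_cases e : i = N
      · subst e
        rw [Function.update_self]
        exact hφ'
      · rw [Function.update_of_ne e]
        exact hp i (by omega) h
    · by_cases e : i + 1 = N
      · rw [e, Function.update_self, Function.update_of_ne (by omega)]
        exact hφ'' i e
      · rw [Function.update_of_ne e, Function.update_of_ne (by omega)]
        exact hc i (by omega) h

open CfsgLib.SUPhanThree in
/-- The three blocks of a rank three window extend to the four-dimensional group. -/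
theorem exists_window (hF : Nat.card F = 3 ^ 2) {V V' A B B' C : Subgroup G}
    {φ φ' : SUg 3 F 3 →* G} (h : IsPair c V A B φ) (h' : IsPair c V' B' C φ')
    (hcomp : φ'.comp (emb (r := 2) c 0 (by norm_num)) = φ.comp (emb (r := 2) c 1 (by norm_num)))
    (hAC : ∀ x ∈ A, ∀ y ∈ C, x * y = y * x)
    (g₀ : SUg 4 F 3 →* ↥(V ⊔ V')) (hg₀ : Function.Surjective g₀) :
    ∃ α : SUg 4 F 3 →* G,
      α.comp (emb (r := 2) c 0 (by norm_num)) = φ.comp (emb (r := 2) c 0 (by norm_num)) ∧
      α.comp (emb (r := 2) c 1 (by norm_num)) = φ.comp (emb (r := 2) c 1 (by norm_num)) ∧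
      α.comp (emb (r := 2) c 2 (by norm_num)) = φ'.comp (emb (r := 2) c 1 (by norm_num)) := by
  classical
  let g := (V ⊔ V').subtype.comp g₀
  let a₀ := φ.comp (emb (r := 2) c 0 (by norm_num))
  let a₁ := φ.comp (emb (r := 2) c 1 (by norm_num))
  let a₂ := φ'.comp (emb (r := 2) c 1 (by norm_num))
  let f : ℕ → (SUg 2 F 3 →* G) := fun k => if k = 0 then a₀ else if k = 1 then a₁ else a₂
  obtain ⟨ζ, hζ, h2⟩ := exists_zeta c hF
  have hFc : Fintype.card F = 3 ^ 2 := by rw [← Nat.card_eq_fintype_card, hF]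
  have hgφ : ∀ x, ∃ y, g y = φ x := fun x => by
    obtain ⟨y, hy⟩ := hg₀ ⟨φ x, Subgroup.mem_sup_left (h.range.le ⟨x, rfl⟩)⟩
    exact ⟨y, congrArg Subtype.val hy⟩
  have hgφ' : ∀ x, ∃ y, g y = φ' x := fun x => by
    obtain ⟨y, hy⟩ := hg₀ ⟨φ' x, Subgroup.mem_sup_right (h'.range.le ⟨x, rfl⟩)⟩
    exact ⟨y, congrArg Subtype.val hy⟩
  have hnt : g ≠ 1 := fun e => by
    obtain ⟨y, hy⟩ := hgφ (emb c 0 (by norm_num : 0 + 2 ≤ 3) (dg c ζ hζ))
    rw [e, MonoidHom.one_apply] at hy
    have h1 : dg c ζ hζ = 1 := h.inj₀ (hy.symm.trans (map_one (φ.comp (emb c 0 _))).symm)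
    have h00 := congrArg (fun p => mat p 0 0) h1
    simp [mat_dg] at h00
    rw [h00, one_pow] at h2
    exact neg_one_ne_one hF h2.symm
  have hsimple : IsSimpleGroup (Cfsg.PSU 4 F 3) := isSimpleGroup_psu hFc (by norm_num) (by norm_num)
  have hker : g.ker ≤ Subgroup.center (SUg 4 F 3) := by
    set π := QuotientGroup.mk' (Subgroup.center (SUg 4 F 3)) with hπ
    have hN : (g.ker.map π).Normal := g.normal_ker.map _ (QuotientGroup.mk'_surjective _)
    rcases hsimple.eq_bot_or_eq_top_of_normal (g.ker.map π) hN with e | e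
    · rw [Subgroup.map_eq_bot_iff, QuotientGroup.ker_mk'] at e
      exact e
    · exfalso
      refine hnt (MonoidHom.ext fun x => ?_)
      have hall : ∀ x, ∃ k ∈ g.ker, ∃ z ∈ Subgroup.center (SUg 4 F 3), x = k * z := by
        intro x
        obtain ⟨k, hk, hkx⟩ := e.ge (Subgroup.mem_top (π x))
        obtain ⟨z, hz, rfl⟩ := (QuotientGroup.mk'_eq_mk' _).1 hkx
        exact ⟨k, hk, z, hz, rfl⟩
      have hle : commutator (SUg 4 F 3) ≤ g.ker := by
        rw [commutator_def, Subgroup.commutator_le]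
        rintro x - y -
        obtain ⟨k, hk, z, hz, rfl⟩ := hall x
        obtain ⟨l, hl, w, hw, rfl⟩ := hall y
        rw [MonoidHom.mem_ker] at hk hl ⊢
        have cz : Commute (g z) (g w) := Commute.map (Subgroup.mem_center_iff.1 hz w).symm g
        rw [map_commutatorElement, map_mul, map_mul, hk, hl, one_mul, one_mul]
        exact commutatorElement_eq_one_iff_commute.2 cz
      exact hle ((commutator_su_eq_top hFc (by norm_num) (by norm_num)).ge (Subgroup.mem_top x))
  have W : Win c g f := by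
    refine ⟨fun y hy => Sc_of_center hF (by norm_num) (hker hy), fun k hk x => ?_, fun k hk => ?_,
      fun x y => ?_, fun k hk a ha x => ?_, fun k hk a ha x => ?_⟩
    · interval_cases k
      exacts [hgφ _, hgφ _, hgφ' _]
    · interval_cases k
      exacts [h.inj₀, h.inj₁, h'.inj₁]
    · exact hAC _ (h.range₀.le ⟨x, rfl⟩) _ (h'.range₁.le ⟨y, rfl⟩)
    · have key : ∀ ψ : SUg 3 F 3 →* G,
          ψ (emb c 1 (by norm_num : 1 + 2 ≤ 3) (dg c a ha)) * ψ (emb c 0 (by norm_num : 0 + 2 ≤ 3) x) *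
            (ψ (emb c 1 (by norm_num : 1 + 2 ≤ 3) (dg c a ha)))⁻¹ =
          ψ (emb c 0 (by norm_num : 0 + 2 ≤ 3) (D c a ha x)) := fun ψ => by
        have h1 := congrArg ψ (conj_torus₁ (c := c) a (by rw [ha, nm_zero, add_zero]) x
          (by intro i; fin_cases i <;> simp [ha]))
        rw [map_mul, map_mul, map_inv] at h1
        exact h1
      have e1 : ∀ y, φ' (emb c 0 (by norm_num : 0 + 2 ≤ 3) y) = a₁ y := fun y =>
        DFunLike.congr_fun hcomp y
      rcases (show k = 0 ∨ k = 1 by omega) with rfl | rfl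
      · exact key φ
      · show a₂ _ * a₁ x * (a₂ _)⁻¹ = a₁ _
        rw [← e1, ← e1]
        exact key φ'
    · have key : ∀ ψ : SUg 3 F 3 →* G,
          ψ (emb c 0 (by norm_num : 0 + 2 ≤ 3) (dg c a ha)) * ψ (emb c 1 (by norm_num : 1 + 2 ≤ 3) x) *
            (ψ (emb c 0 (by norm_num : 0 + 2 ≤ 3) (dg c a ha)))⁻¹ =
          ψ (emb c 1 (by norm_num : 1 + 2 ≤ 3) (D c a ha x)) := fun ψ => by
        have hd : ∀ i, nm c ((![c.σ a, 1] : Fin 2 → F) i) = 1 := by
          intro i; fin_cases i <;> simp [ha]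
        have e : semi c _ hd (RingEquiv.refl F) x = D c a ha x := by
          refine ext_mat fun i l => ?_
          have haa : a * c.σ a = 1 := ha
          rw [mat_semi_apply, mat_D]
          fin_cases i <;> fin_cases l <;> simp [c.invol] <;>
            first | ring1 | linear_combination mat x 0 0 * haa
        have h1 := congrArg ψ (conj_torus₀ (c := c) a (by rw [ha, nm_zero, add_zero]) x hd)
        rw [e, map_mul, map_mul, map_inv] at h1
        exact h1
      have e1 : ∀ y, φ' (emb c 0 (by norm_num : 0 + 2 ≤ 3) y) = a₁ y := fun y =>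
        DFunLike.congr_fun hcomp y
      rcases (show k = 0 ∨ k = 1 by omega) with rfl | rfl
      · exact key φ
      · show a₁ _ * a₂ x * (a₁ _)⁻¹ = a₂ _
        rw [← e1]
        exact key φ'
  obtain ⟨α, hα⟩ := W.exists_extend hF
  exact ⟨α, MonoidHom.ext (hα 0 _), MonoidHom.ext (hα 1 _), MonoidHom.ext (hα 2 _)⟩

end

/-- Recognition of unitary groups over the field with 9 elements from a weak Phan system. Let F be a field with 9 elements and n ≥ 4. Let G be a group with subgroups U_0, …, U_{n−1}, each isomorphic to SU(2, 9), and, for consecutive indices, subgroups V_{i,i+1} in which U_i and U_{i+1} form a standard pair (via an isomorphism from SU(3, 9) or PSU(3, 9) carrying the block-diagonal subgroups, or their images, onto U_i and U_{i+1}); suppose U_i and U_j commute elementwise whenever the indices differ by at least 2, that G is generated by the U_i and the V_{i,i+1}, and moreover that for each i the subgroup generated by V_{i,i+1} and V_{i+1,i+2}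 is a homomorphic image of SU(4, 9). Then G is a homomorphic image of SU(n+1, 9). (G is not assumed finite.) -/
theorem result {G : Type*} [Group G] (n : ℕ) (hn : 4 ≤ n)
    (F : Type*) [Field F] [Fintype F] (hF : Fintype.card F = 9)
    (U : Fin n → Subgroup G) (e : ∀ i, ↥(Cfsg.SU 2 F 3) ≃* ↥(U i))
    (V : Fin n → Fin n → Subgroup G)
    (h1 : ∀ i j : Fin n, (i : ℕ) + 2 ≤ j → ∀ x ∈ U i, ∀ y ∈ U j, x * y = y * x)
    (h2 : ∀ i j : Fin n, (i : ℕ) + 1 = j → Cfsg.IsStandardUnitaryPair (V i j) (U i) (U j) F 3)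
    (hgen : (⨆ i, U i) ⊔ (⨆ (i : Fin n) (j : Fin n) (_ : (i : ℕ) + 1 = j), V i j) = ⊤)
    (h4 : ∀ i j k : Fin n, (i : ℕ) + 1 = j → (j : ℕ) + 1 = k →
      ∃ g : ↥(Cfsg.SU 4 F 3) →* ↥(V i j ⊔ V j k), Function.Surjective g) :
    ∃ f : ↥(Cfsg.SU (n + 1) F 3) →* G, Function.Surjective f := by
  classical
  have hn3 : 3 ≤ n := by omega
  have hF' : Nat.card F = 3 ^ 2 := by rw [Nat.card_eq_fintype_card, hF]; norm_num
  obtain ⟨c⟩ := exists_conj hF'
  obtain ⟨ψ, hp, hc⟩ := exists_family c hF' U V h1 h2 n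
  let a : ℕ → (SUg 2 F 3 →* G) := fun i =>
    if i + 2 ≤ n then (ψ i).comp (emb c 0 (by norm_num))
    else (ψ (i - 1)).comp (emb c 1 (by norm_num))
  have ha0 : ∀ i, i + 2 ≤ n → a i = (ψ i).comp (emb c 0 (by norm_num)) := fun i h => if_pos h
  have ha1 : ∀ i, i + 2 ≤ n → a (i + 1) = (ψ i).comp (emb c 1 (by norm_num)) := fun i h => by
    by_cases h' : i + 3 ≤ n
    · rw [ha0 _ (by omega), hc i (by omega) h']
    · exact (if_neg (by omega)).trans (by rw [Nat.add_sub_cancel])
  have haU : ∀ i (h : i < n), (a i).range = U ⟨i, h⟩ := fun i h => by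
    by_cases h' : i + 2 ≤ n
    · rw [ha0 i h']; exact (hp i h h').range₀
    · obtain ⟨j, rfl⟩ : ∃ j, i = j + 1 := ⟨i - 1, by omega⟩
      rw [ha1 j (by omega)]; exact (hp j (by omega) (by omega)).range₁
  let gr : ℕ → Subgroup (SUg (n + 1) F 3 × G) := fun i =>
    if h : i + 2 ≤ n + 1 then ((emb c i h).prod (a i)).range else ⊥
  have hgr : ∀ i (h : i + 2 ≤ n + 1), gr i = ((emb c i h).prod (a i)).range := fun i h => dif_pos h
  let K : Subgroup (SUg (n + 1) F 3 × G) := ⨆ i, gr i
  have hle : ∀ i, gr i ≤ K := fun i => le_iSup gr i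
  let C : Cover c (n + 1) K :=
    { π := (MonoidHom.fst _ _).comp K.subtype
      S := fun i => (gr i).subgroupOf K
      hm := by omega
      map_S := fun i hi => by
        rw [← Subgroup.map_map, Subgroup.subgroupOf_map_subtype, inf_eq_left.2 (hle i), hgr i hi,
          MonoidHom.map_range, MonoidHom.fst_comp_prod, range_emb]
      comm := fun i j hij hj x hx y hy => by
        rw [Subgroup.mem_subgroupOf, hgr i (by omega)] at hx
        rw [Subgroup.mem_subgroupOf, hgr j hj] at hy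
        obtain ⟨g, hg⟩ := hx
        obtain ⟨h, hh⟩ := hy
        refine Subtype.ext ?_
        show (x : SUg (n + 1) F 3 × G) * y = y * x
        rw [← hg, ← hh]
        refine Prod.ext ?_ ?_
        · exact Blk_comm c (emb_mem_Blk c i _ g) (emb_mem_Blk c j _ h) hij
        · exact h1 ⟨i, by omega⟩ ⟨j, by omega⟩ hij _ ((haU i _).le ⟨g, rfl⟩) _
            ((haU j _).le ⟨h, rfl⟩)
      inj := fun i hi x hx hx1 => by
        have hb : (gr i).subgroupOf K ⊔ (gr (i + 1)).subgroupOf K ≤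
            (((emb (r := 3) c i hi).prod (ψ i)).range).subgroupOf K := by
          refine sup_le (Subgroup.comap_mono ?_) (Subgroup.comap_mono ?_)
          · rw [hgr i (by omega)]
            rintro _ ⟨g, rfl⟩
            refine ⟨emb c 0 (by norm_num : (0 : ℕ) + 2 ≤ 3) g, Prod.ext (emb_emb c i hi 0 _ g) ?_⟩
            rw [ha0 i (by omega)]
            rfl
          · rw [hgr (i + 1) (by omega)]
            rintro _ ⟨g, rfl⟩
            refine ⟨emb c 1 (by norm_num : 1 + 2 ≤ 3) g, Prod.ext (emb_emb c i hi 1 _ g) ?_⟩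
            rw [ha1 i (by omega)]
            rfl
        obtain ⟨g, hg⟩ := hb hx
        have h0 : emb c i hi g = 1 := (congrArg Prod.fst hg).trans hx1
        have hg1 : g = 1 := emb_injective c i hi (h0.trans (map_one _).symm)
        rw [hg1, map_one] at hg
        exact Subtype.ext hg.symm }
  have inj₄ : ∀ i, i + 4 ≤ n + 1 → CfsgLib.SUAmalgam.KerFree C.π (C.S i ⊔ C.S (i + 1) ⊔ C.S (i + 2)) := by
    intro i hi x hx hx1
    obtain ⟨g₀, hg₀⟩ := h4 ⟨i, by omega⟩ ⟨i + 1, by omega⟩ ⟨i + 1 + 1, by omega⟩ rfl rfl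
    obtain ⟨α, e0, e1, e2⟩ := exists_window c hF' (hp i (by omega) (by omega))
      (hp (i + 1) (by omega) (by omega)) (hc i (by omega) (by omega))
      (h1 ⟨i, by omega⟩ ⟨i + 1 + 1, by omega⟩ le_rfl) g₀ hg₀
    have hb : C.S i ⊔ C.S (i + 1) ⊔ C.S (i + 2) ≤
        (((emb (r := 4) c i hi).prod α).range).subgroupOf K := by
      refine sup_le (sup_le (Subgroup.comap_mono ?_) (Subgroup.comap_mono ?_)) (Subgroup.comap_mono ?_)
      · rw [hgr i (by omega)]
        rintro _ ⟨g, rfl⟩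
        refine ⟨emb c 0 (by norm_num : (0 : ℕ) + 2 ≤ 4) g, Prod.ext (emb_emb c i hi 0 _ g) ?_⟩
        rw [ha0 i (by omega)]
        exact DFunLike.congr_fun e0 g
      · rw [hgr (i + 1) (by omega)]
        rintro _ ⟨g, rfl⟩
        refine ⟨emb c 1 (by norm_num : 1 + 2 ≤ 4) g, Prod.ext (emb_emb c i hi 1 _ g) ?_⟩
        rw [ha1 i (by omega)]
        exact DFunLike.congr_fun e1 g
      · rw [hgr (i + 2) (by omega)]
        rintro _ ⟨g, rfl⟩
        refine ⟨emb c 2 (by norm_num : 2 + 2 ≤ 4) g, Prod.ext (emb_emb c i hi 2 _ g) ?_⟩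
        have e3 : a (i + 2) = (ψ (i + 1)).comp (emb c 1 (by norm_num)) := ha1 (i + 1) (by omega)
        rw [e3]
        exact DFunLike.congr_fun e2 g
    obtain ⟨g, hg⟩ := hb hx
    have h0 : emb c i hi g = 1 := (congrArg Prod.fst hg).trans hx1
    have hg1 : g = 1 := emb_injective c i hi (h0.trans (map_one _).symm)
    rw [hg1, map_one] at hg
    exact Subtype.ext hg.symm
  have htop : C.Fam 0 = ⊤ := by
    refine eq_top_iff.2 fun x _ => ?_
    have hK : K ≤ (C.Fam 0).map K.subtype := iSup_le fun i y hy => by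
      by_cases h : i + 2 ≤ n + 1
      · exact ⟨⟨y, hle i hy⟩, C.S_le_Fam (Nat.zero_le i) h hy, rfl⟩
      · simp only [gr, dif_neg h, Subgroup.mem_bot] at hy
        subst hy
        exact one_mem _
    obtain ⟨y, hy, hyx⟩ := hK x.2
    rwa [Subtype.ext hyx] at hy
  let E : K ≃* SUg (n + 1) F 3 := MulEquiv.ofBijective C.π (CfsgLib.SUPhanThree.cover_bijective C hF' inj₄ htop)
  let f : SUg (n + 1) F 3 →* G := ((MonoidHom.snd _ _).comp K.subtype).comp E.symm.toMonoidHom
  have hf : ∀ i (h : i < n), U ⟨i, h⟩ ≤ f.range := fun i h => by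
    rw [← haU i h]
    rintro _ ⟨g, rfl⟩
    let y : K := ⟨(emb c i (by omega) g, a i g), hle i ((hgr i (by omega)).ge ⟨g, rfl⟩)⟩
    refine ⟨E y, ?_⟩
    show ((E.symm (E y)).1).2 = a i g
    rw [MulEquiv.symm_apply_apply]
  refine ⟨f, MonoidHom.range_eq_top.1 (top_le_iff.1 (hgen ▸ sup_le (iSup_le fun i => hf i.1 i.2)
    (iSup_le fun i => iSup_le fun j => iSup_le fun hij => ?_)))⟩
  obtain ⟨i, hi⟩ := i
  obtain ⟨j, hj⟩ := j
  obtain rfl : i + 1 = j := hij
  have P := hp i hi (by omega)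
  rw [← P.range]
  rintro _ ⟨g, rfl⟩
  have hg : g ∈ Blk c 3 0 2 ⊔ Blk c 3 (0 + 1) 2 :=
    CfsgLib.SUPhanThree.Blk_three_le c hF' 0 le_rfl (fun k hk => absurd hk (by have := k.isLt; omega))
  have hm : (Blk c 3 0 2 ⊔ Blk c 3 (0 + 1) 2).map (ψ i) ≤ f.range := by
    rw [Subgroup.map_sup, ← range_emb c 0 (by norm_num), ← range_emb c (0 + 1) (by norm_num),
      MonoidHom.map_range, MonoidHom.map_range, P.range₀, P.range₁]
    exact sup_le (hf _ _) (hf _ _)
  exact hm ⟨g, hg, rfl⟩


end Cfsg.Agent.S3710
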