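import Cfsg.Statements.S3713
import Cfsg.Agent.Lib.SpAmalgam.Main

set_option autoImplicit false
open Cfsg

namespace Cfsg.Agent.S3713

open CfsgLib.SpAmalgam

section Graph

variable {G H : Type*} [Group G] [Group H]

/-- The graph of a homomorphism on a subgroup. -/
def graph {X : Subgroup G} (ψ : X →* H) : Subgroup (G × H) := (X.subtype.prod ψ).range

theorem graph_map_fst {X : Subgroup G} (ψ : X →* H) :
    (graph ψ).map (MonoidHom.fst G H) = X := by
  rw [graph, MonoidHom.map_range, MonoidHom.fst_comp_prod, Subgroup.range_subtype]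

theorem graph_le {X Y : Subgroup G} (ψ : X →* H) (Ψ : Y →* H) (hle : X ≤ Y)
    (h : ∀ (g : G) (hg : g ∈ X), Ψ ⟨g, hle hg⟩ = ψ ⟨g, hg⟩) : graph ψ ≤ graph Ψ := by
  rintro _ ⟨⟨g, hg⟩, rfl⟩
  exact ⟨⟨g, hle hg⟩, Prod.ext rfl (h g hg)⟩

theorem kerFree_graph {P : Subgroup (G × H)} {Y : Subgroup G} (Ψ : Y →* H) {A B : Subgroup P}
    (hA : A ≤ (graph Ψ).subgroupOf P) (hB : B ≤ (graph Ψ).subgroupOf P) :
    KerFree ((MonoidHom.fst G H).comp P.subtype) (A ⊔ B) := by
  intro a ha h1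
  obtain ⟨y, hy⟩ := sup_le hA hB ha
  have hy1 : y = 1 := Subtype.ext ((congrArg Prod.fst hy).trans h1)
  refine Subtype.ext (Prod.ext h1 ?_)
  rw [hy1, map_one] at hy
  exact (congrArg Prod.snd hy).symm

theorem map_subgroupOf_fst {P : Subgroup (G × H)} {X : Subgroup G} (ψ : X →* H)
    (hle : graph ψ ≤ P) :
    ((graph ψ).subgroupOf P).map ((MonoidHom.fst G H).comp P.subtype) = X := by
  rw [← Subgroup.map_map, Subgroup.map_subgroupOf_eq_of_le hle, graph_map_fst]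

theorem exists_hom (P : Subgroup (G × H))
    (h : Function.Bijective ((MonoidHom.fst G H).comp P.subtype)) :
    ∃ Φ : G →* H, ∀ g x, (g, x) ∈ P → Φ g = x := by
  refine ⟨((MonoidHom.snd G H).comp P.subtype).comp (MulEquiv.ofBijective _ h).symm.toMonoidHom,
    fun g x hm => ?_⟩
  show ((MonoidHom.snd G H).comp P.subtype) ((MulEquiv.ofBijective _ h).symm g) = x
  rw [(MulEquiv.symm_apply_eq _).2 (show g = MulEquiv.ofBijective _ h ⟨(g, x), hm⟩ from rfl)]
  rfl

end Graph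

/-- A presentation of the symplectic group as the universal completion of an amalgam of small subgroups. Let F be a field with more than two elements, n ≥ 2, and Sp the group of 2n × 2n matrices over F preserving the standard alternating form, acting on column vectors; write e_k, f_k for the standard basis vectors of the two halves (a hyperbolic basis). For each k let S_k be the subgroup of Sp fixing e_l and f_l for all l ≠ k (a copy of SL(2, F) on the plane of e_k, f_k), and for each i with i + 1 < n let M_i be the subgroup fixing every e_l and fixing f_l for all l other than i, i+1 (an abelian group isomorphic to the additive group of F³). Then Sp is the universal completion of the amalgam formed by the S_k, the M_i and the subgroups generated by two of them: for every group H and homomorphisms σ_k : S_k → H, μ_i : M_i → H such that for each pair of these subgroups some homomorphism on the subgroup they generate restricts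 to the given ones, there is exactly one homomorphism Sp → H restricting to every σ_k and μ_i. -/
theorem result
    (F : Type*) [Field F] (hF : ∃ a : F, a ≠ 0 ∧ a ≠ 1) (n : ℕ) (hn : 2 ≤ n)
    (S M : Fin n → Subgroup ↥(Matrix.symplecticGroup (Fin n) F))
    (hS : ∀ j : Fin n, S j = Subgroup.closure {A : ↥(Matrix.symplecticGroup (Fin n) F) | ∀ k : Fin n, k ≠ j →
      ((A : ↥(Matrix.symplecticGroup (Fin n) F)) : Matrix (Fin n ⊕ Fin n) (Fin n ⊕ Fin n) F).mulVec (Pi.single (Sum.inl k) (1 : F)) = (Pi.single (Sum.inl k) (1 : F)) ∧ ((A : ↥(Matrix.symplecticGroup (Fin n) F)) : Matrix (Fin n ⊕ Fin n) (Fin n ⊕ Fin n) F).mulVec (Pi.single (Sum.inr k) (1 : F)) = (Pi.single (Sum.inr k) (1 : F))})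
    (hM : ∀ i : Fin n, (i : ℕ) + 1 < n → M i = Subgroup.closure {A : ↥(Matrix.symplecticGroup (Fin n) F) |
      (∀ k : Fin n, ((A : ↥(Matrix.symplecticGroup (Fin n) F)) : Matrix (Fin n ⊕ Fin n) (Fin n ⊕ Fin n) F).mulVec (Pi.single (Sum.inl k) (1 : F)) = (Pi.single (Sum.inl k) (1 : F))) ∧
        ∀ k : Fin n, (k : ℕ) ≠ i → (k : ℕ) ≠ (i : ℕ) + 1 → ((A : ↥(Matrix.symplecticGroup (Fin n) F)) : Matrix (Fin n ⊕ Fin n) (Fin n ⊕ Fin n) F).mulVec (Pi.single (Sum.inr k) (1 : F)) = (Pi.single (Sum.inr k) (1 : F))})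
    {H : Type*} [Group H] (σ : ∀ j : Fin n, ↥(S j) →* H) (μ : ∀ i : Fin n, ↥(M i) →* H)
    (hSS : ∀ j l : Fin n, j ≠ l → ∃ Ψ : ↥(S j ⊔ S l) →* H,
      (∀ (g : ↥(Matrix.symplecticGroup (Fin n) F)) (hg : g ∈ S j), Ψ ⟨g, Subgroup.mem_sup_left hg⟩ = σ j ⟨g, hg⟩) ∧
        (∀ (g : ↥(Matrix.symplecticGroup (Fin n) F)) (hg : g ∈ S l), Ψ ⟨g, Subgroup.mem_sup_right hg⟩ = σ l ⟨g, hg⟩))
    (hMM : ∀ i i' : Fin n, i ≠ i' → (i : ℕ) + 1 < n → (i' : ℕ) + 1 < n → ∃ Ψ : ↥(M i ⊔ M i') →* H,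
      (∀ (g : ↥(Matrix.symplecticGroup (Fin n) F)) (hg : g ∈ M i), Ψ ⟨g, Subgroup.mem_sup_left hg⟩ = μ i ⟨g, hg⟩) ∧
        (∀ (g : ↥(Matrix.symplecticGroup (Fin n) F)) (hg : g ∈ M i'), Ψ ⟨g, Subgroup.mem_sup_right hg⟩ = μ i' ⟨g, hg⟩))
    (hMS : ∀ i j : Fin n, (i : ℕ) + 1 < n → ∃ Ψ : ↥(M i ⊔ S j) →* H,
      (∀ (g : ↥(Matrix.symplecticGroup (Fin n) F)) (hg : g ∈ M i), Ψ ⟨g, Subgroup.mem_sup_left hg⟩ = μ i ⟨g, hg⟩) ∧
        (∀ (g : ↥(Matrix.symplecticGroup (Fin n) F)) (hg : g ∈ S j), Ψ ⟨g, Subgroup.mem_sup_right hg⟩ = σ j ⟨g, hg⟩)) :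
    ∃! Φ : ↥(Matrix.symplecticGroup (Fin n) F) →* H,
      (∀ (j : Fin n) (g : ↥(Matrix.symplecticGroup (Fin n) F)) (hg : g ∈ S j), Φ g = σ j ⟨g, hg⟩) ∧
        (∀ (i : Fin n), (i : ℕ) + 1 < n → ∀ (g : ↥(Matrix.symplecticGroup (Fin n) F)) (hg : g ∈ M i), Φ g = μ i ⟨g, hg⟩) := by
  have hS' : ∀ j, S j = Ssub j := fun j => (hS j).trans (Subgroup.closure_eq (Ssub j))
  have hM' : ∀ i : Fin n, (i : ℕ) + 1 < n → M i = Msub i := fun i hi =>
    (hM i hi).trans (Subgroup.closure_eq (Msub i))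
  let U : Set (↥(Matrix.symplecticGroup (Fin n) F) × H) :=
    {a | ∃ j, a ∈ graph (σ j)} ∪ {a | ∃ i : Fin n, (i : ℕ) + 1 < n ∧ a ∈ graph (μ i)}
  let P := Subgroup.closure U
  have hσP : ∀ j, graph (σ j) ≤ P := fun j a ha => Subgroup.subset_closure (Or.inl ⟨j, ha⟩)
  have hμP : ∀ i : Fin n, (i : ℕ) + 1 < n → graph (μ i) ≤ P := fun i hi a ha =>
    Subgroup.subset_closure (Or.inr ⟨i, hi, ha⟩)
  let C : Cover n F P :=
    { π := (MonoidHom.fst _ H).comp P.subtype
      S := fun j => (graph (σ j)).subgroupOf P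
      M := fun i => (graph (μ i)).subgroupOf P
      map_S := fun j => (map_subgroupOf_fst _ (hσP j)).trans (hS' j)
      map_M := fun i hi => (map_subgroupOf_fst _ (hμP i hi)).trans (hM' i hi)
      inj_SS := fun j l => by
        by_cases h : j = l
        · subst h; exact kerFree_graph (σ j) le_rfl le_rfl
        · obtain ⟨Ψ, h1, h2⟩ := hSS j l h
          exact kerFree_graph Ψ (Subgroup.subgroupOf_mono P (graph_le _ Ψ le_sup_left h1))
            (Subgroup.subgroupOf_mono P (graph_le _ Ψ le_sup_right h2))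
      inj_MM := fun i i' hi hi' => by
        by_cases h : i = i'
        · subst h; exact kerFree_graph (μ i) le_rfl le_rfl
        · obtain ⟨Ψ, h1, h2⟩ := hMM i i' h hi hi'
          exact kerFree_graph Ψ (Subgroup.subgroupOf_mono P (graph_le _ Ψ le_sup_left h1))
            (Subgroup.subgroupOf_mono P (graph_le _ Ψ le_sup_right h2))
      inj_MS := fun i j hi => by
        obtain ⟨Ψ, h1, h2⟩ := hMS i j hi
        exact kerFree_graph Ψ (Subgroup.subgroupOf_mono P (graph_le _ Ψ le_sup_left h1))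
          (Subgroup.subgroupOf_mono P (graph_le _ Ψ le_sup_right h2)) }
  have hgen : C.Fam 0 = ⊤ := by
    rw [eq_top_iff, ← Subgroup.closure_closure_coe_preimage (k := U), Subgroup.closure_le]
    rintro a (⟨j, hj⟩ | ⟨i, hi, hi'⟩)
    · exact C.S_le_Fam (Nat.zero_le _) hj
    · exact C.M_le_Fam (Nat.zero_le _) hi hi'
  obtain ⟨Φ, hΦ⟩ := exists_hom P (C.bijective hF hgen)
  refine ⟨Φ, ⟨fun j g hg => hΦ g _ (hσP j ⟨⟨g, hg⟩, rfl⟩),
    fun i hi g hg => hΦ g _ (hμP i hi ⟨⟨g, hg⟩, rfl⟩)⟩, fun Φ' hΦ' => ?_⟩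
  have heq : P ≤ MonoidHom.eqLocus (Φ'.comp (MonoidHom.fst _ H)) (MonoidHom.snd _ H) := by
    refine (Subgroup.closure_le _).2 ?_
    rintro _ (⟨j, ⟨g, hg⟩, rfl⟩ | ⟨i, hi, ⟨g, hg⟩, rfl⟩)
    · exact hΦ'.1 j g hg
    · exact hΦ'.2 i hi g hg
  refine MonoidHom.ext fun g => ?_
  obtain ⟨p, rfl⟩ := (C.bijective hF hgen).2 g
  exact (show Φ' p.1.1 = p.1.2 from heq p.2).trans (hΦ p.1.1 p.1.2 p.2).symm

end Cfsg.Agent.S3713
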