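import Cfsg.Statements.S3718
import Cfsg.Agent.Lib.NoThreeOrders.TwoQMain
import Cfsg.Agent.Lib.OneComposite.Suzuki

set_option autoImplicit false
open Cfsg

namespace Cfsg.Agent.S3718

/-- Let G be a finite simple group whose set of element orders contains at most one composite number (at most one element order that is neither 1 nor a prime). Then G is cyclic of prime order, or isomorphic to PSL₂(q) for q ∈ {5, 7, 8, 9, 11, 13, 16}, to PSL₃(4), to the Suzuki group Sz(8), to PSL₂(3ⁿ) with (3ⁿ − 1)/2 and (3ⁿ + 1)/4 both prime, or to PSL₂(2ⁿ) with 2ⁿ − 1 and (2ⁿ + 1)/3 both prime. -/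
theorem result {G : Type*} [Group G] [Finite G] [IsSimpleGroup G]
    (h1 : {n : ℕ | n ∈ Set.range (orderOf : G → ℕ) ∧ 1 < n ∧ ¬ n.Prime}.Subsingleton) :
    (Nat.card G).Prime ∨
    (∃ (F : Type) (_ : Field F) (_ : Fintype F), (Fintype.card F = 5 ∨ Fintype.card F = 7 ∨ Fintype.card F = 8 ∨ Fintype.card F = 9 ∨
        Fintype.card F = 11 ∨ Fintype.card F = 13 ∨ Fintype.card F = 16) ∧ Nonempty (G ≃* Matrix.ProjectiveSpecialLinearGroup (Fin 2) F)) ∨
    (∃ (F : Type) (_ : Field F) (_ : Fintype F), Fintype.card F = 4 ∧ Nonempty (G ≃* Matrix.ProjectiveSpecialLinearGroup (Fin 3) F)) ∨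
    (∃ (F : Type) (_ : Field F) (_ : Fintype F), Fintype.card F = 8 ∧ Nonempty (G ≃* ↥(Cfsg.Lie.Sz F 4))) ∨
    (∃ (F : Type) (_ : Field F) (_ : Fintype F), ∃ n r s : ℕ, r.Prime ∧ s.Prime ∧ 3 ^ n - 1 = 2 * r ∧ 3 ^ n + 1 = 4 * s ∧
        Fintype.card F = 3 ^ n ∧ Nonempty (G ≃* Matrix.ProjectiveSpecialLinearGroup (Fin 2) F)) ∨
    (∃ (F : Type) (_ : Field F) (_ : Fintype F), ∃ n r : ℕ, (2 ^ n - 1).Prime ∧ r.Prime ∧ 2 ^ n + 1 = 3 * r ∧
        Fintype.card F = 2 ^ n ∧ Nonempty (G ≃* Matrix.ProjectiveSpecialLinearGroup (Fin 2) F)) := by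
  by_cases hna : ∀ a b : G, a * b = b * a
  · letI : CommGroup G := { (inferInstance : Group G) with mul_comm := hna }
    exact Or.inl IsSimpleGroup.prime_card
  push Not at hna
  refine Or.inr ?_
  rcases CfsgLib.OneComposite.OC.cit_or_two h1 with hc | ⟨p, hT, t, y, ht, hy, hyt⟩
  · exact CfsgLib.OneComposite.cit_outcome hna h1 hc
  have hn3 : CfsgLib.NoThreeOrders.NoThree G := by
    rintro r hr a b c hab hbc hac ⟨da, db, dc⟩
    have key : ∀ x : G, r ∣ orderOf x → orderOf x = r ∨ orderOf x = 2 * p := by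
      intro x hx
      rcases hT.2.2 x with h | h | h
      · rw [h, Nat.dvd_one] at hx
        exact absurd hx hr.one_lt.ne'
      · exact Or.inl ((Nat.prime_dvd_prime_iff_eq hr h).1 hx).symm
      · exact Or.inr h
    rcases key a da with e1 | e1 <;> rcases key b db with e2 | e2 <;> rcases key c dc with e3 | e3 <;> omega
  have hns : ¬ Group.IsSolvable G := fun hs => by
    obtain ⟨a, b, hab⟩ := hna
    exact hab (IsSimpleGroup.comm_iff_isSolvable.2 hs a b)
  have hord : orderOf (y * t) = 2 * p := by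
    rw [(show Commute y t from hyt).orderOf_mul_eq_mul_orderOf_of_coprime
      (by rw [hy, ht]; exact (Nat.coprime_primes hT.1 Nat.prime_two).2 hT.2.1), hy, ht, mul_comm]
  obtain ⟨F, _, _, -, -, ⟨e⟩⟩ := (hn3.twoQ hT.1 hT.2.1 hord).exists_psl hns ⟨y * t, hord⟩
  exact CfsgLib.OneComposite.psl_outcome_of_simple hna h1 e

end Cfsg.Agent.S3718
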