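import Cfsg.Statements.S3726
import Cfsg.Agent.Lib.ConstFix.LowFix
import Cfsg.Agent.S0742

set_option autoImplicit false
open Cfsg

namespace Cfsg.Agent.S3726

/-- Let a finite group G act faithfully and 2-transitively on a finite set Ω, and suppose there is an involution t of G, fixing exactly i points, such that every non-identity element of the centralizer of t also fixes exactly i points. Then G is isomorphic to PSL₂(q) for some finite field of order q, or to a Suzuki group Sz(q) (q = 2^(2m+1) ≥ 8), or G has a normal subgroup acting regularly on Ω. -/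
theorem result {G Ω : Type*} [Group G] [Finite G] [Fintype Ω] [MulAction G Ω] [FaithfulSMul G Ω]
    (h2 : MulAction.IsMultiplyPretransitive G Ω 2) (i : ℕ) (t : G) (ht : orderOf t = 2)
    (hti : Nat.card {x : Ω // t • x = x} = i)
    (hC : ∀ g : G, Commute g t → g ≠ 1 → Nat.card {x : Ω // g • x = x} = i) :
    (∃ (F : Type) (_ : Field F) (_ : Fintype F), Nonempty (G ≃* Matrix.ProjectiveSpecialLinearGroup (Fin 2) F)) ∨
    Cfsg.Lie.IsoSuzuki G ∨
    (∃ R : Subgroup G, R.Normal ∧ (∀ x y : Ω, ∃ r ∈ R, r • x = y) ∧ ∀ x : Ω, ∀ r ∈ R, r • x = x → r = 1) := by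
  classical
  have h : CfsgLib.ConstFix.Hyp (Ω := Ω) t i :=
    ⟨inferInstance, fun a b a' b' hab hab' => (MulAction.is_two_pretransitive_iff.1 h2) hab hab', ht, hti, hC⟩
  by_cases hreg : CfsgLib.ConstFix.HasRegularNormal G Ω
  · exact Or.inr (Or.inr hreg)
  rcases Nat.lt_or_ge i 2 with hi | hi
  · rcases h.psl_or_suzuki_of_le_one (by omega) hreg with h1 | h1
    · exact Or.inl h1
    · exact Or.inr (Or.inl h1)
  have hi2 : i = 2 := le_antisymm h.le_two hi
  obtain ⟨a, b, hab⟩ := Fintype.exists_pair_of_one_lt_card h.two_le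
  obtain ⟨heven, hle⟩ := h.two_mul_le hi2 hab
  have hZ := h.zassenhaus_or hreg
    (fun g x y z hxy hyz hxz hx hy hz => by
      by_contra hg
      rcases h.fixes_eq_of_two hi2 hxy (CfsgLib.ConstFix.mem_stab₂.2 ⟨hx, hy⟩) hg hz with e | e
      · exact hxz e.symm
      · exact hyz e.symm)
    (by
      have : Nontrivial (CfsgLib.ConstFix.stab₂ (G := G) a b) := by
        rw [← Finite.one_lt_card_iff_nontrivial]
        obtain ⟨k, hk⟩ := heven
        have : 0 < Nat.card (CfsgLib.ConstFix.stab₂ (G := G) a b) := Nat.card_pos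
        omega
      obtain ⟨⟨g, hg⟩, hne⟩ := exists_ne (1 : CfsgLib.ConstFix.stab₂ (G := G) a b)
      obtain ⟨h1, h2'⟩ := CfsgLib.ConstFix.mem_stab₂.1 hg
      exact ⟨g, fun e => hne (Subtype.ext e), a, b, hab, h1, h2'⟩)
  obtain ⟨-, -, K, i1, i2, -, -, -, -, ⟨iso⟩⟩ := Cfsg.Agent.S0742.result hZ hab heven hle
  -- the field of `S0742` lives in `Type`
  exact Or.inl ⟨K, i1, i2, ⟨iso⟩⟩

end Cfsg.Agent.S3726
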