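import Cfsg.Statements.S3775
import Mathlib


set_option autoImplicit false
open Cfsg

namespace Cfsg.Agent.S3775


variable {A : Type*} [CommGroup A]

/-- Invariance, elementwise. -/
def Inv (X : Subgroup (MulAut A)) (B : Subgroup A) : Prop := ∀ x ∈ X, ∀ b ∈ B, x b ∈ B

theorem inv_iff (X : Subgroup (MulAut A)) (B : Subgroup A) :
    (∀ x ∈ X, B.map x.toMonoidHom = B) ↔ Inv X B := by
  refine ⟨fun h x hx b hb => (h x hx).le ⟨b, hb, rfl⟩, fun h x hx => le_antisymm ?_ fun b hb => ?_⟩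
  · rintro _ ⟨b, hb, rfl⟩
    exact h x hx b hb
  · exact ⟨x⁻¹ b, h _ (X.inv_mem hx) b hb, x.apply_symm_apply b⟩

theorem inv_inf {X : Subgroup (MulAut A)} {B C : Subgroup A} (hB : Inv X B) (hC : Inv X C) :
    Inv X (B ⊓ C) := fun x hx b hb => ⟨hB x hx b hb.1, hC x hx b hb.2⟩

theorem inv_comap_pow {X : Subgroup (MulAut A)} {B : Subgroup A} (hB : Inv X B) (n : ℕ) :
    Inv X (B.comap (powMonoidHom n)) := fun x hx b hb => by
  show x b ^ n ∈ B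
  rw [← map_pow]
  exact hB x hx _ hb

theorem inv_map_pow {X : Subgroup (MulAut A)} {B : Subgroup A} (hB : Inv X B) (n : ℕ) :
    Inv X (B.map (powMonoidHom n)) := by
  rintro x hx _ ⟨b, hb, rfl⟩
  exact ⟨x b, hB x hx b hb, (map_pow x b n).symm⟩

theorem inv_bot (X : Subgroup (MulAut A)) : Inv X ⊥ := fun x _ b hb => by
  rw [Subgroup.mem_bot] at hb ⊢; rw [hb, map_one]

theorem exists_order_p {p : ℕ} [Fact p.Prime] [Finite A] (hA : IsPGroup p A) (B : Subgroup A)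
    (hB : B ≠ ⊥) : ∃ b ∈ B, b ≠ 1 ∧ b ^ p = 1 := by
  obtain ⟨n, hn0, hn⟩ := (IsPGroup.nontrivial_iff_card (hA.to_subgroup B)).mp
    ((Subgroup.nontrivial_iff_ne_bot B).mpr hB)
  obtain ⟨g, hg⟩ := exists_prime_orderOf_dvd_card' (G := B) p (hn ▸ dvd_pow_self p hn0.ne')
  refine ⟨g, g.2, fun h => ?_, ?_⟩
  · rw [← Subgroup.orderOf_coe, h, orderOf_one] at hg
    exact (Fact.out : p.Prime).ne_one hg.symm
  · rw [← hg, ← Subgroup.coe_pow, pow_orderOf_eq_one, Subgroup.coe_one]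

/-- Maschke: an invariant subgroup `W` of a section of exponent `p` has an invariant complement. -/
theorem exists_compl [Finite A] {p : ℕ} (hp : p.Prime) (X : Subgroup (MulAut A))
    (hX : (Nat.card X).Coprime p) (R W S : Subgroup A) (hR : Inv X R) (hW : Inv X W) (hS : Inv X S)
    (hRS : R ≤ S) (hWS : W ≤ S) (hRW : R ⊓ W = ⊥) (hpow : ∀ a ∈ S, a ^ p ∈ R) :
    ∃ U : Subgroup A, Inv X U ∧ R ≤ U ∧ U ≤ S ∧ U ⊓ W = ⊥ ∧ U ⊔ W = S := by
  classical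
  obtain ⟨Y, ⟨hRY, hYS, hYW⟩, hmax⟩ := (Set.toFinite {Y : Subgroup A | R ≤ Y ∧ Y ≤ S ∧ Y ⊓ W = ⊥})
    |>.exists_maximal ⟨R, le_rfl, hRS, hRW⟩
  have hsup : S ≤ Y ⊔ W := by
    intro a ha
    by_contra haYW
    refine haYW (Subgroup.mem_sup_left ?_)
    refine (hmax (y := Y ⊔ Subgroup.zpowers a) ⟨hRY.trans le_sup_left, sup_le hYS (Subgroup.zpowers_le.mpr ha), ?_⟩
      le_sup_left) (Subgroup.mem_sup_right (Subgroup.mem_zpowers a))
    refine eq_bot_iff.mpr fun w hw => ?_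
    obtain ⟨hw1, hwW⟩ := hw
    obtain ⟨y, hy, _, ⟨k, rfl⟩, rfl⟩ := Subgroup.mem_sup.mp hw1
    by_cases hk : (p : ℤ) ∣ k
    · obtain ⟨m, rfl⟩ := hk
      refine hYW.le ⟨Y.mul_mem hy (hRY ?_), hwW⟩
      show a ^ ((p : ℤ) * m) ∈ R
      rw [zpow_mul, zpow_natCast]
      exact R.zpow_mem (hpow a ha) m
    · obtain ⟨u, v, huv⟩ := ((Nat.prime_iff_prime_int.mp hp).coprime_iff_not_dvd.mpr hk).symm
      refine absurd ?_ haYW
      have h1 : a ^ k ∈ Y ⊔ W := by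
        have := (Y ⊔ W).mul_mem (Subgroup.mem_sup_left (Y.inv_mem hy)) (Subgroup.mem_sup_right hwW)
        simpa using this
      have h2 : a ^ (p : ℤ) ∈ Y ⊔ W := by
        rw [zpow_natCast]; exact Subgroup.mem_sup_left (hRY (hpow a ha))
      have h3 : a ^ (u * k + v * p) ∈ Y ⊔ W := by
        rw [zpow_add, mul_comm u, mul_comm v, zpow_mul, zpow_mul]
        exact Subgroup.mul_mem _ (Subgroup.zpow_mem _ h1 _) (Subgroup.zpow_mem _ h2 _)
      rwa [huv, zpow_one] at h3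
  have hex : ∀ a : S, ∃ w : W, (a : A) * (w : A)⁻¹ ∈ Y := fun a => by
    obtain ⟨y, hy, w, hw, he⟩ := Subgroup.mem_sup.mp (hsup a.2)
    exact ⟨⟨w, hw⟩, by rw [← he, mul_inv_cancel_right]; exact hy⟩
  choose f hf using hex
  have huniq : ∀ (a : S) (w : W), (a : A) * (w : A)⁻¹ ∈ Y → f a = w := by
    intro a w hw
    have h := Y.div_mem hw (hf a)
    rw [mul_div_mul_left_eq_div, inv_div_inv] at h
    exact Subtype.ext (div_eq_one.mp (Subgroup.mem_bot.mp (hYW.le ⟨h, W.div_mem (f a).2 w.2⟩)))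
  let π : S →* W := MonoidHom.mk' f fun a b => huniq _ _ (by
    have := Y.mul_mem (hf a) (hf b)
    rwa [mul_mul_mul_comm, ← mul_inv] at this)
  have : Fintype X := Fintype.ofFinite _
  let t : X → S →* S := fun x => ((MulEquiv.toMonoidHom (x : MulAut A)).comp S.subtype).codRestrict S
    fun a => hS x x.2 a a.2
  let N : S →* A := ∏ x : X, ((MulEquiv.toMonoidHom (x : MulAut A)).comp (W.subtype.comp π)).comp (t x⁻¹)
  have hN : ∀ a : S, N a = ∏ x : X, (x : MulAut A) (π (t x⁻¹ a) : A) := fun a =>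
    MonoidHom.finsetProd_apply _ _ _
  have hNW : ∀ w (hw : w ∈ W), N ⟨w, hWS hw⟩ = w ^ Nat.card X := by
    intro w hw
    rw [hN, Nat.card_eq_fintype_card, ← Finset.card_univ, ← Finset.prod_const]
    refine Finset.prod_congr rfl fun x _ => ?_
    have : π (t x⁻¹ ⟨w, hWS hw⟩) = ⟨((x⁻¹ : X) : MulAut A) w, hW _ (x⁻¹).2 w hw⟩ :=
      huniq _ _ (by
        show ((x⁻¹ : X) : MulAut A) w * (((x⁻¹ : X) : MulAut A) w)⁻¹ ∈ Y
        rw [mul_inv_cancel]; exact Y.one_mem)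
    rw [this]
    exact (x : MulAut A).apply_symm_apply w
  have hNim : ∀ a : S, N a ∈ W := fun a => hN a ▸ prod_mem fun x _ => hW x x.2 _ (π _).2
  have hWp : ∀ w ∈ W, w ^ p = 1 := fun w hw =>
    Subgroup.mem_bot.mp (hRW.le ⟨hpow w (hWS hw), W.pow_mem hw p⟩)
  refine ⟨N.ker.map S.subtype, ?_, ?_, Subgroup.map_subtype_le _, ?_, le_antisymm
    (sup_le (Subgroup.map_subtype_le _) hWS) ?_⟩
  · rintro z hz _ ⟨a, ha, rfl⟩
    refine ⟨t ⟨z, hz⟩ a, ?_, rfl⟩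
    show N (t ⟨z, hz⟩ a) = 1
    rw [hN, ← Equiv.prod_comp (Equiv.mulLeft (⟨z, hz⟩ : X))]
    have : ∀ y : X, (((Equiv.mulLeft (⟨z, hz⟩ : X)) y : X) : MulAut A)
        (π (t ((Equiv.mulLeft (⟨z, hz⟩ : X)) y)⁻¹ (t ⟨z, hz⟩ a)) : A) =
        z ((y : MulAut A) (π (t y⁻¹ a) : A)) := by
      intro y
      have e : t ((Equiv.mulLeft (⟨z, hz⟩ : X)) y)⁻¹ (t ⟨z, hz⟩ a) = t y⁻¹ a := Subtype.ext (by
        show (((⟨z, hz⟩ : X) * y)⁻¹ : X).1 (z a) = (y⁻¹ : X).1 a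
        simp [mul_inv_rev])
      rw [e]; rfl
    simp only [this]
    rw [← map_prod, ← hN, ha, map_one]
  · intro r hr
    refine ⟨⟨r, hRS hr⟩, ?_, rfl⟩
    show N _ = 1
    rw [hN]
    refine Finset.prod_eq_one fun x _ => ?_
    have : π (t x⁻¹ ⟨r, hRS hr⟩) = 1 := huniq _ _ (by
      rw [Subgroup.coe_one, inv_one, mul_one]; exact hRY (hR _ (x⁻¹).2 r hr))
    rw [this, Subgroup.coe_one, map_one]
  · refine eq_bot_iff.mpr ?_
    rintro _ ⟨⟨⟨w, hwS⟩, hk, rfl⟩, hw⟩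
    have hk' : w ^ Nat.card X = 1 := (hNW w hw).symm.trans hk
    have h : w ^ Nat.gcd (Nat.card X) p = 1 := pow_gcd_eq_one.mpr ⟨hk', hWp w hw⟩
    rw [hX.gcd_eq_one, pow_one] at h
    exact Subgroup.mem_bot.mpr h
  · intro a ha
    obtain ⟨m, hm⟩ := exists_pow_eq_self_of_coprime (x := N ⟨a, ha⟩) (n := Nat.card X)
      (hX.coprime_dvd_right (orderOf_dvd_of_pow_eq_one (hWp _ (hNim _))))
    set w := N ⟨a, ha⟩ ^ m with hw
    have hwW : w ∈ W := W.pow_mem (hNim _) m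
    refine Subgroup.mem_sup.mpr ⟨a / w, ⟨⟨a, ha⟩ / ⟨w, hWS hwW⟩, ?_, rfl⟩, w, hwW, div_mul_cancel a w⟩
    show N _ = 1
    rw [map_div, hNW w hwW, hw, ← pow_mul, mul_comm m, pow_mul, hm, div_self']

theorem decompose [Finite A] {p : ℕ} [Fact p.Prime] (hA : IsPGroup p A) (X : Subgroup (MulAut A))
    (hX : (Nat.card X).Coprime p) (S : Subgroup A) (hS : Inv X S) (B : Subgroup A) (hB : Inv X B)
    (hBS : B ≤ S) (hBp : ∀ b ∈ B, b ^ p = 1) (hB1 : B ≠ ⊥)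
    (hBne : ∃ a ∈ S, a ^ p = 1 ∧ a ∉ B) :
    ∃ U V : Subgroup A, Inv X U ∧ Inv X V ∧ U ⊓ V = ⊥ ∧ U ⊔ V = S ∧ U ≠ ⊥ ∧ V ≠ ⊥ := by
  induction S using WellFoundedLT.induction generalizing B with
  | ind S ih =>
    have hp : p.Prime := Fact.out
    let E : Subgroup A := S ⊓ (⊥ : Subgroup A).comap (powMonoidHom p)
    let P : Subgroup A := S.map (powMonoidHom p)
    have hEp : ∀ a, a ∈ E ↔ a ∈ S ∧ a ^ p = 1 := fun a => Iff.rfl
    have hEinv : Inv X E := inv_inf hS (inv_comap_pow (inv_bot X) p)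
    have hPinv : Inv X P := inv_map_pow hS p
    have hPS : P ≤ S := by
      rintro _ ⟨a, ha, rfl⟩; exact S.pow_mem ha p
    have hBE : B ≤ E := fun b hb => ⟨hBS hb, hBp b hb⟩
    have hBEne : B ≠ E := by
      obtain ⟨a, haS, hap, haB⟩ := hBne
      exact fun h => haB (h ▸ (⟨haS, hap⟩ : a ∈ E))
    have hPlt : P < S := by
      refine lt_of_le_not_ge hPS fun hle => ?_
      let f : S → S := fun a => ⟨(a : A) ^ p, S.pow_mem a.2 p⟩
      have hsurj : Function.Surjective f := fun a => by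
        obtain ⟨b, hb, he⟩ := hle a.2
        exact ⟨⟨b, hb⟩, Subtype.ext he⟩
      obtain ⟨b, hb, hb1, hbp⟩ := exists_order_p hA B hB1
      have := (Finite.injective_iff_surjective.mpr hsurj) (a₁ := ⟨b, hBS hb⟩) (a₂ := 1)
        (Subtype.ext (show b ^ p = (1 : A) ^ p by rw [hbp, one_pow]))
      exact hb1 (congrArg Subtype.val this)
    by_cases hP0 : P ⊓ E = ⊥
    · -- `S` is elementary abelian
      have hSE : ∀ a ∈ S, a ^ p = 1 := by
        intro a ha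
        have hP : P = ⊥ := by
          by_contra hP
          obtain ⟨c, hc, hc1, hcp⟩ := exists_order_p hA P hP
          exact hc1 (Subgroup.mem_bot.mp (hP0.le ⟨hc, hPS hc, hcp⟩))
        exact Subgroup.mem_bot.mp (hP.le ⟨a, ha, rfl⟩)
      obtain ⟨U, hU, -, hUS, hUB, hUBS⟩ := exists_compl hp X hX ⊥ B S (inv_bot X) hB hS bot_le hBS
        (bot_inf_eq _) fun a ha => Subgroup.mem_bot.mpr (hSE a ha)
      refine ⟨U, B, hU, hB, hUB, hUBS, fun h => ?_, hB1⟩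
      rw [h, bot_sup_eq] at hUBS
      obtain ⟨a, haS, -, haB⟩ := hBne
      exact haB (hUBS.ge haS)
    -- a decomposition of `P`
    obtain ⟨U1, T1, hU1, hT1, hdis, hUT, hW1, hWE⟩ : ∃ U1 T1 : Subgroup A, Inv X U1 ∧ Inv X T1 ∧
        U1 ⊓ T1 = ⊥ ∧ U1 ⊔ T1 = P ∧ U1 ⊓ E ≠ ⊥ ∧ U1 ⊓ E ≠ E := by
      by_cases hred : ∃ B' : Subgroup A, Inv X B' ∧ B' ≤ P ⊓ E ∧ B' ≠ ⊥ ∧ B' ≠ P ⊓ E
      · obtain ⟨B', hB', hB'le, hB'1, hB'ne⟩ := hred
        obtain ⟨a, ha, haB⟩ := SetLike.exists_of_lt (lt_of_le_of_ne hB'le hB'ne)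
        obtain ⟨U1, T1, h1, h2, h3, h4, h5, h6⟩ := ih P hPlt hPinv B' hB' (hB'le.trans inf_le_left)
          (fun b hb => (hB'le hb).2.2) hB'1 ⟨a, ha.1, ha.2.2, haB⟩
        refine ⟨U1, T1, h1, h2, h3, h4, fun h => ?_, fun h => ?_⟩
        · obtain ⟨c, hc, hc1, hcp⟩ := exists_order_p hA U1 h5
          exact hc1 (Subgroup.mem_bot.mp (h.le ⟨hc, hPS (h4.le (Subgroup.mem_sup_left hc)), hcp⟩))
        · obtain ⟨c, hc, hc1, hcp⟩ := exists_order_p hA T1 h6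
          exact hc1 (Subgroup.mem_bot.mp (h3.le
            ⟨(h.ge (⟨hPS (h4.le (Subgroup.mem_sup_right hc)), hcp⟩ : c ∈ E)).1, hc⟩))
      · refine ⟨P, ⊥, hPinv, inv_bot X, inf_bot_eq _, sup_bot_eq _, hP0, fun h => hred ⟨B, hB, ?_, hB1, ?_⟩⟩
        · exact h.symm ▸ hBE
        · exact h.symm ▸ hBEne
    have hU1S : U1 ≤ S := le_sup_left.trans (hUT.le.trans hPS)
    have hT1S : T1 ≤ S := le_sup_right.trans (hUT.le.trans hPS)
    obtain ⟨W', hW', hRW', hW'E, hW'W, hsupE⟩ := exists_compl hp X hX (T1 ⊓ E) (U1 ⊓ E) E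
      (inv_inf hT1 hEinv) (inv_inf hU1 hEinv) hEinv inf_le_right inf_le_right
      (eq_bot_iff.mpr fun x hx => hdis.le ⟨hx.2.1, hx.1.1⟩)
      (fun a ha => by rw [show a ^ p = 1 from ha.2]; exact one_mem _)
    have hU1W' : U1 ⊓ W' = ⊥ := eq_bot_iff.mpr fun x hx => hW'W.le ⟨hx.2, hx.1, hW'E hx.2⟩
    have hT1W : T1 ⊓ (U1 ⊓ E) = ⊥ := eq_bot_iff.mpr fun x hx => hdis.le ⟨hx.2.1, hx.1⟩
    have hEU : ∀ {K : Subgroup A}, E ≤ S ⊓ K.comap (powMonoidHom p) := fun {K} a ha =>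
      ⟨ha.1, by show a ^ p ∈ K; rw [show a ^ p = 1 from ha.2]; exact one_mem _⟩
    obtain ⟨U, hU, hU1U, hUS, hUW', hUsup⟩ := exists_compl hp X hX U1 W' (S ⊓ U1.comap (powMonoidHom p))
      hU1 hW' (inv_inf hS (inv_comap_pow hU1 p)) (fun a ha => ⟨hU1S ha, U1.pow_mem ha p⟩)
      (hW'E.trans hEU) hU1W' (fun a ha => ha.2)
    obtain ⟨V, hV, hT1V, hVS, hVW, hVsup⟩ := exists_compl hp X hX T1 (U1 ⊓ E) (S ⊓ T1.comap (powMonoidHom p))
      hT1 (inv_inf hU1 hEinv) (inv_inf hS (inv_comap_pow hT1 p)) (fun a ha => ⟨hT1S ha, T1.pow_mem ha p⟩)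
      (inf_le_right.trans hEU) hT1W (fun a ha => ha.2)
    have hWU : U1 ⊓ E ≤ U := inf_le_left.trans hU1U
    have hle : S ⊓ U1.comap (powMonoidHom p) ≤ U ⊔ V := by
      refine hUsup.symm.le.trans (sup_le le_sup_left ?_)
      refine (hW'E.trans hEU).trans (hVsup.symm.le.trans (sup_le le_sup_right ?_))
      exact hWU.trans le_sup_left
    have hle2 : S ⊓ T1.comap (powMonoidHom p) ≤ U ⊔ V :=
      hVsup.symm.le.trans (sup_le le_sup_right (hWU.trans le_sup_left))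
    refine ⟨U, V, hU, hV, ?_, le_antisymm (sup_le (hUS.trans inf_le_left) (hVS.trans inf_le_left)) ?_,
      ?_, ?_⟩
    · by_contra hne
      obtain ⟨y, hy, hy1, hyp⟩ := exists_order_p hA _ hne
      obtain ⟨w', hw', w, hw, rfl⟩ := Subgroup.mem_sup.mp (hsupE.ge ⟨(hUS hy.1).1, hyp⟩)
      have hw'1 : w' = 1 := Subgroup.mem_bot.mp (hUW'.le
        ⟨(Subgroup.mul_mem_cancel_right U (hWU hw)).mp hy.1, hw'⟩)
      rw [hw'1, one_mul] at hy hy1
      exact hy1 (Subgroup.mem_bot.mp (hVW.le ⟨hy.2, hw⟩))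
    · intro a ha
      obtain ⟨u, hu, v, hv, huv⟩ := Subgroup.mem_sup.mp (hUT.ge ⟨a, ha, rfl⟩ : a ^ p ∈ U1 ⊔ T1)
      obtain ⟨u', hu', rfl⟩ := hUT.le (Subgroup.mem_sup_left hu)
      obtain ⟨v', hv', rfl⟩ := hUT.le (Subgroup.mem_sup_right hv)
      have h1 : u' ∈ U ⊔ V := hle ⟨hu', hu⟩
      have h2 : v' ∈ U ⊔ V := hle2 ⟨hv', hv⟩
      have h3 : a / (u' * v') ∈ U ⊔ V := hle (hEU ⟨S.div_mem ha (S.mul_mem hu' hv'), by
        show (a / (u' * v')) ^ p = 1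
        rw [div_pow, mul_pow]
        exact div_eq_one.mpr huv.symm⟩)
      simpa using (U ⊔ V).mul_mem h3 ((U ⊔ V).mul_mem h1 h2)
    · exact fun h => hW1 (eq_bot_iff.mpr (hWU.trans h.le))
    · intro h
      have : W' = ⊥ := by
        refine eq_bot_iff.mpr fun x hx => hUW'.le ⟨?_, hx⟩
        have hx' : x ∈ S ⊓ T1.comap (powMonoidHom p) := hEU (hW'E hx)
        rw [← hVsup, h, bot_sup_eq] at hx'
        exact hWU hx'
      rw [this, bot_sup_eq] at hsupE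
      exact hWE hsupE

theorem uniserial [Finite A] {p : ℕ} [Fact p.Prime] (hA : IsPGroup p A) (X : Subgroup (MulAut A))
    (h : ∀ B : Subgroup A, (∀ x ∈ X, B.map x.toMonoidHom = B) → (∀ b ∈ B, b ^ p = 1) →
      B = ⊥ ∨ ∀ a : A, a ∈ B ↔ a ^ p = 1) (B : Subgroup A) (hB : Inv X B) :
    ∃ i : ℕ, ∀ a : A, a ∈ B ↔ a ^ p ^ i = 1 := by
  classical
  have hex : ∃ i : ℕ, ∀ b ∈ B, b ^ p ^ i = 1 := by
    obtain ⟨n, hn⟩ := (IsPGroup.iff_card).mp hA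
    exact ⟨n, fun b _ => hn ▸ pow_card_eq_one'⟩
  obtain ⟨i, hi, hmin⟩ : ∃ i, (∀ b ∈ B, b ^ p ^ i = 1) ∧ ∀ j < i, ∃ b ∈ B, b ^ p ^ j ≠ 1 :=
    ⟨Nat.find hex, Nat.find_spec hex, fun j hj => by simpa using Nat.find_min hex hj⟩
  refine ⟨i, fun a => ⟨hi a, fun ha => ?_⟩⟩
  suffices key : ∀ j ≤ i, ∀ a : A, a ^ p ^ j = 1 → a ∈ B from key i le_rfl a ha
  intro j
  induction j with
  | zero => intro _ a ha; simp only [pow_zero, pow_one] at ha; exact ha ▸ B.one_mem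
  | succ j IH =>
    intro hj a ha
    let C : Subgroup A := (B ⊓ (⊥ : Subgroup A).comap (powMonoidHom (p ^ (j + 1)))).map (powMonoidHom (p ^ j))
    have hC : ∀ c ∈ C, c ^ p = 1 := by
      rintro _ ⟨b, hb, rfl⟩
      show (b ^ p ^ j) ^ p = 1
      rw [← pow_mul, ← pow_succ]; exact hb.2
    rcases h C ((inv_iff X C).mpr (inv_map_pow (inv_inf hB (inv_comap_pow (inv_bot X) _)) _)) hC with hC0 | hC1
    · exfalso
      obtain ⟨b, hb, hb1⟩ := hmin (i - 1) (by omega)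
      refine hb1 (Subgroup.mem_bot.mp (hC0.le ⟨b ^ p ^ (i - 1 - j), ⟨B.pow_mem hb _, ?_⟩, ?_⟩))
      · show (b ^ p ^ (i - 1 - j)) ^ p ^ (j + 1) = 1
        rw [← pow_mul, ← pow_add, show i - 1 - j + (j + 1) = i by omega]; exact hi b hb
      · show (b ^ p ^ (i - 1 - j)) ^ p ^ j = b ^ p ^ (i - 1)
        rw [← pow_mul, ← pow_add, show i - 1 - j + j = i - 1 by omega]
    · obtain ⟨b, hb, hbe⟩ := (hC1 (a ^ p ^ j)).mpr (by rw [← pow_mul, ← pow_succ]; exact ha)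
      have : a / b ∈ B := IH (by omega) _ (by rw [div_pow]; exact div_eq_one.mpr hbe.symm)
      simpa using B.mul_mem this hb.1

theorem chain [Finite A] {p : ℕ} (hA : IsPGroup p A) (X : Subgroup (MulAut A))
    (hX : (Nat.card X).Coprime p) {P Q R : Prop} (h13 : P → R) (h32 : R → Q) (h21 : Q → P) :
    (P ↔ Q) ∧ (Q ↔ R) :=
  ⟨⟨fun h => h32 (h13 h), h21⟩, ⟨fun h => h13 (h21 h), h32⟩⟩


/-- Let A be a finite abelian p-group and X a group of automorphisms of A of order prime to p. Call a subgroup of A invariant when every element of X maps it onto itself. Then the following are equivalent: (i) A is not the direct product of two nontrivial invariant subgroups; (ii) every invariant subgroup of A is one of the subgroups Ω_i(A) = {a : a^(p^i) = 1}; (iii) the subgroup Ω₁(A) of elements of order dividing p has no invariant subgroups other than 1 and itself. -/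
theorem result {A : Type*} [CommGroup A] [Finite A] {p : ℕ} [Fact p.Prime] (hA : IsPGroup p A) (X : Subgroup (MulAut A)) (hX : (Nat.card X).Coprime p) : ((¬ ∃ B C : Subgroup A, B ≠ ⊥ ∧ C ≠ ⊥ ∧ (∀ x ∈ X, B.map x.toMonoidHom = B) ∧ (∀ x ∈ X, C.map x.toMonoidHom = C) ∧ B ⊓ C = ⊥ ∧ B ⊔ C = ⊤) ↔ (∀ B : Subgroup A, (∀ x ∈ X, B.map x.toMonoidHom = B) → ∃ i : ℕ, ∀ a : A, a ∈ B ↔ a ^ p ^ i = 1)) ∧ ((∀ B : Subgroup A, (∀ x ∈ X, B.map x.toMonoidHom = B) → ∃ i : ℕ, ∀ a : A, a ∈ B ↔ a ^ p ^ i = 1) ↔ (∀ B : Subgroup A, (∀ x ∈ X, B.map x.toMonoidHom = B) → (∀ b ∈ B, b ^ p = 1) → B = ⊥ ∨ ∀ a : A, a ∈ B ↔ a ^ p = 1)) := by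
  refine chain hA X hX ?_ ?_ ?_
  · -- (i) → (iii)
    intro h B hB hBp
    refine or_iff_not_imp_left.mpr fun hB1 => fun a => ⟨fun ha => hBp a ha, fun ha => ?_⟩
    by_contra haB
    obtain ⟨U, V, hU, hV, h1, h2, h3, h4⟩ := decompose hA X hX ⊤ (fun _ _ _ _ => Subgroup.mem_top _) B
      ((inv_iff X B).mp hB) le_top hBp hB1 ⟨a, Subgroup.mem_top _, ha, haB⟩
    exact h ⟨U, V, h3, h4, (inv_iff X U).mpr hU, (inv_iff X V).mpr hV, h1, h2⟩
  · -- (iii) → (ii)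
    intro h B hB
    exact uniserial hA X h B ((inv_iff X B).mp hB)
  · -- (ii) → (i)
    rintro h ⟨B, C, hB1, hC1, hB, hC, hBC, -⟩
    obtain ⟨i, hi⟩ := h B hB
    obtain ⟨j, hj⟩ := h C hC
    obtain ⟨b, hb, hb1, hbp⟩ := exists_order_p hA B hB1
    obtain ⟨c, hc, hc1, -⟩ := exists_order_p hA C hC1
    have hj0 : j ≠ 0 := fun h0 => hc1 (by simpa [h0] using (hj c).mp hc)
    have hbC : b ∈ C := (hj b).mpr (by
      obtain ⟨k, rfl⟩ := Nat.exists_eq_succ_of_ne_zero hj0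
      rw [pow_succ' p, pow_mul, hbp, one_pow])
    exact hb1 ((Subgroup.mem_bot).mp (hBC ▸ ⟨hb, hbC⟩ : b ∈ (⊥ : Subgroup A)))

end Cfsg.Agent.S3775
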