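import Cfsg.Statements.S3802
import Mathlib
import Cfsg.Agent.Lib.Subnormal.Basic


set_option autoImplicit false
open Cfsg

namespace Cfsg.Agent.S3802



/-- Let G be a finite group, M a maximal subgroup of G and N a subnormal subgroup of G contained in M. Then N is contained in every conjugate of M, that is, N lies in the core of M in G. -/
theorem result {G : Type*} [Group G] [Finite G] (M N : Subgroup G) (hM : IsCoatom M) (hN : N.IsSubnormal) (hNM : N ≤ M) :
    N ≤ Subgroup.normalCore M := by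
  set C := Subgroup.normalCore M with hC
  have hCM : C ≤ M := Subgroup.normalCore_le M
  haveI : C.Normal := Subgroup.normalCore_normal M
  haveI : Nontrivial (G ⧸ C) := QuotientGroup.nontrivial_iff.2 fun e => hM.1 (eq_top_iff.2 (e ▸ hCM))
  obtain ⟨K, hKm⟩ := (Set.toFinite {K : Subgroup (G ⧸ C) | K.Normal ∧ K ≠ ⊥}).exists_minimal
    ⟨⊤, inferInstance, top_ne_bot⟩
  haveI : K.Normal := hKm.prop.1
  have hmin : ∀ L : Subgroup (G ⧸ C), L.Normal → L ≤ K → L = ⊥ ∨ L = K := by
    intro L hL hLK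
    by_cases h : L = ⊥
    · exact Or.inl h
    · exact Or.inr (le_antisymm hLK (hKm.le_of_le ⟨hL, h⟩ hLK))
  have hS : (N.map (QuotientGroup.mk' C)).IsSubnormal := by
    have h1 := CfsgLib.Subnormal.isSubnormal_subgroupOf_map (QuotientGroup.mk' C)
      (le_top : N ≤ ⊤) (CfsgLib.Subnormal.isSubnormal_subgroupOf_top.2 hN)
    rw [Subgroup.map_top_of_surjective _ (QuotientGroup.mk'_surjective C)] at h1
    exact CfsgLib.Subnormal.isSubnormal_subgroupOf_top.1 h1
  have hKn := CfsgLib.Subnormal.le_normalizer_of_minimal_normal hS hmin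
  set K' := K.comap (QuotientGroup.mk' C) with hK'
  have hK'n : K'.Normal := hKm.prop.1.comap _
  have hjoin : M ⊔ K' = ⊤ := by
    refine hM.2 _ (lt_of_le_of_ne le_sup_left fun e => hKm.prop.2 ?_)
    have h1 : K' ≤ C := (Subgroup.normal_le_normalCore).2 (e ▸ le_sup_right)
    rw [← Subgroup.map_comap_eq_self_of_surjective (QuotientGroup.mk'_surjective C) K,
      eq_bot_iff, Subgroup.map_le_iff_le_comap, MonoidHom.comap_bot, QuotientGroup.ker_mk']
    exact h1
  intro x hx g
  have hg : g ∈ M ⊔ K' := hjoin ▸ Subgroup.mem_top g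
  rw [Subgroup.mem_sup_of_normal_right] at hg
  obtain ⟨m, hm, k, hk, rfl⟩ := hg
  have h1 := (Subgroup.mem_normalizer_iff.1 (hKn hk) (x : G ⧸ C)).1 ⟨x, hx, rfl⟩
  obtain ⟨y, hy, hye⟩ := h1
  have h2 : k * x * k⁻¹ ∈ M := by
    have h3 : y⁻¹ * (k * x * k⁻¹) ∈ C := by
      rw [← QuotientGroup.eq]
      simpa using hye
    have := M.mul_mem (hNM hy) (hCM h3)
    simpa using this
  have := M.mul_mem (M.mul_mem hm h2) (M.inv_mem hm)
  simpa [mul_assoc] using this

end Cfsg.Agent.S3802
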