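import Cfsg.Statements.S3803
import Mathlib
import Cfsg.Agent.Lib.CoprimeAction.Basic
import Cfsg.Agent.Lib.PGroups.Basic
import Cfsg.Agent.Lib.BGAppendix.Basic
import Cfsg.Agent.Lib.MetacyclicP.Small


set_option autoImplicit false
open Cfsg

namespace Cfsg.Agent.S3803

/-- A group of odd order leaving invariant all subgroups of index `2` of a `2`-group acts
trivially on it. -/
theorem trivial_of_maximals {X : Type*} [Group X] [Finite X] (A K : Subgroup X)
    (hA : Odd (Nat.card A)) (hK : IsPGroup 2 K) (hAK : A ≤ Subgroup.normalizer (K : Set X))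
    (hmax : ∀ M : Subgroup X, M ≤ K → 2 * Nat.card M = Nat.card K →
      A ≤ Subgroup.normalizer (M : Set X)) : A ≤ Subgroup.centralizer (K : Set X) := by
  refine CfsgLib.CoprimeAction.le_centralizer_of_frattini hAK ?_ ?_
  · obtain ⟨n, hn⟩ := IsPGroup.iff_card.1 (hK.to_subgroup (frattini K))
    rw [hn]
    exact (hA.coprime_two_right).pow_right n
  intro a ha k hk
  have hmem : a * k * a⁻¹ ∈ K := (Subgroup.mem_normalizer_iff.1 (hAK ha) k).1 hk
  refine ⟨⟨k⁻¹ * (a * k * a⁻¹), K.mul_mem (K.inv_mem hk) hmem⟩, ?_, rfl⟩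
  show _ ∈ Order.radical (Subgroup K)
  rw [Order.radical]
  simp only [Subgroup.mem_iInf]
  intro M hM
  haveI : Group.IsNilpotent K := hK.isNilpotent
  haveI hMn : M.Normal :=
    Subgroup.NormalizerCondition.normal_of_coatom M Group.normalizerCondition_of_isNilpotent hM
  have hMi : M.index = 2 := by
    obtain ⟨M', hM', -, hi, -⟩ := CfsgLib.PGroups.exists_le_index_prime hK (H := M) hM.1
    have hne : M' ≠ ⊤ := fun e => by rw [e, Subgroup.index_top] at hi; omega
    rcases eq_or_lt_of_le hM' with e | e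
    · rw [e, hi]
    · exact absurd (hM.2 M' e) hne
  have hcard : 2 * Nat.card (M.map K.subtype) = Nat.card K := by
    rw [Subgroup.card_subtype, ← hMi, mul_comm, Subgroup.card_mul_index]
  have hMinv := hmax _ (Subgroup.map_subtype_le M) hcard ha
  have hiff : ∀ y (hy : y ∈ K), (⟨y, hy⟩ : K) ∈ M ↔ y ∈ M.map K.subtype := by
    intro y hy
    exact ⟨fun h => ⟨_, h, rfl⟩, fun ⟨z, hz, e⟩ => (show z = ⟨y, hy⟩ from Subtype.ext e) ▸ hz⟩
  show (⟨k⁻¹, K.inv_mem hk⟩ : K) * ⟨a * k * a⁻¹, hmem⟩ ∈ M
  rw [Subgroup.mul_mem_iff_of_index_two hMi, show (⟨k⁻¹, K.inv_mem hk⟩ : K) = ⟨k, hk⟩⁻¹ from rfl,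
    inv_mem_iff, hiff k hk, hiff _ hmem]
  exact Subgroup.mem_normalizer_iff.1 hMinv k


/-- Let P be a 2-subgroup and A a subgroup of odd order of a finite group, with A normalizing P. Let D ≤ P with 1 < |D| < |P|. If every subgroup of P of order |D|, and also every subgroup of P of order 4 in case |D| = 2, is normalized by A, then A centralizes P. -/
theorem result {X : Type*} [Group X] [Finite X] (P A D : Subgroup X) (hP : IsPGroup 2 P) (hA : Odd (Nat.card A))
    (hAP : A ≤ Subgroup.normalizer (P : Set X)) (hDP : D ≤ P) (hD1 : 1 < Nat.card D) (hD2 : Nat.card D < Nat.card P)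
    (hinv : ∀ E : Subgroup X, E ≤ P → (Nat.card E = Nat.card D ∨ (Nat.card D = 2 ∧ Nat.card E = 4)) → A ≤ Subgroup.normalizer (E : Set X)) :
    A ≤ Subgroup.centralizer (P : Set X) := by
  haveI : Fact (Nat.Prime 2) := ⟨Nat.prime_two⟩
  obtain ⟨n, hn⟩ := IsPGroup.iff_card.1 hP
  obtain ⟨k, hkn, hk⟩ := (Nat.dvd_prime_pow Nat.prime_two).1 (hn ▸ Subgroup.card_dvd_of_le hDP)
  have hk1 : 1 ≤ k := by
    by_contra h
    have : k = 0 := by omega
    rw [this, pow_zero] at hk
    rw [hk] at hD1
    exact lt_irrefl _ hD1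
  have hkn' : k < n := by
    rcases eq_or_lt_of_le hkn with rfl | h
    · rw [hk, hn] at hD2; exact absurd hD2 (lt_irrefl _)
    · exact h
  -- every subgroup of order `|D|` is centralised
  have hfix : ∀ E : Subgroup X, E ≤ P → Nat.card E = Nat.card D →
      A ≤ Subgroup.centralizer (E : Set X) := by
    intro E hEP hE
    obtain ⟨F, hF, hEF, hFP⟩ : ∃ F : Subgroup X, Nat.card F = 2 ^ (k + 1) ∧ E ≤ F ∧ F ≤ P := by
      obtain ⟨F, hF, hEF⟩ := Sylow.exists_subgroup_card_pow_succ (p := 2) (G := P) (n := k)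
        (by rw [hn]; exact pow_dvd_pow 2 hkn') (H := E.subgroupOf P)
        (by rw [Nat.card_congr (Subgroup.subgroupOfEquivOfLe hEP).toEquiv, hE, hk])
      refine ⟨F.map P.subtype, by rw [Subgroup.card_subtype, hF], ?_, Subgroup.map_subtype_le F⟩
      intro x hx
      exact ⟨⟨x, hEP hx⟩, hEF hx, rfl⟩
    have hFp : IsPGroup 2 F := hP.to_le hFP
    have hEinv := hinv E hEP (Or.inl hE)
    by_cases hone : ∀ M : Subgroup X, M ≤ F → Nat.card M = 2 ^ k → M = E
    · -- then `F` and hence `E` is cyclic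
      obtain ⟨y, hyF, hyE⟩ : ∃ y ∈ F, y ∉ E := by
        by_contra h
        push Not at h
        have := Subgroup.card_le_of_le h
        rw [hE, hk, hF, pow_succ] at this
        have : 0 < 2 ^ k := by positivity
        omega
      have hyF' : Subgroup.zpowers y = F := by
        by_contra hne
        obtain ⟨M, hzM, hM⟩ : ∃ M : Subgroup F, (Subgroup.zpowers (⟨y, hyF⟩ : F)) ≤ M ∧
            M.index = 2 := by
          obtain ⟨M, h1, -, h2, -⟩ := CfsgLib.PGroups.exists_le_index_prime hFp
            (H := Subgroup.zpowers (⟨y, hyF⟩ : F)) (fun h => hne (by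
              have e := congrArg (Subgroup.map F.subtype) h
              rwa [MonoidHom.map_zpowers, ← MonoidHom.range_eq_map, Subgroup.range_subtype] at e))
          exact ⟨M, h1, h2⟩
        have hMc : Nat.card (M.map F.subtype) = 2 ^ k := by
          have := M.card_mul_index
          rw [hM, hF, pow_succ] at this
          rw [Subgroup.card_subtype]; omega
        exact hyE (hone _ (Subgroup.map_subtype_le M) hMc ▸
          ⟨⟨y, hyF⟩, hzM (Subgroup.mem_zpowers _), rfl⟩)
      have hcyc : IsCyclic E := by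
        haveI : IsCyclic F := hyF' ▸ inferInstance
        exact Subgroup.isCyclic_of_le hEF
      refine trivial_of_maximals A E hA (hP.to_le hEP) hEinv fun M hM hMc a ha => ?_
      rw [Subgroup.mem_normalizer_iff_map_conj_eq]
      refine CfsgLib.BGAppendix.eq_of_card_eq_of_le_cyclic E _ _ hcyc ?_ hM ?_
      · rintro _ ⟨m, hm, rfl⟩
        exact (Subgroup.mem_normalizer_iff.1 (hEinv ha) m).1 (hM hm)
      · exact Nat.card_congr
          (Subgroup.equivMapOfInjective M _ (MulAut.conj a).injective).symm.toEquiv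
    · push Not at hone
      obtain ⟨M, hMF, hMc, hME⟩ := hone
      have hjoin : E ⊔ M = F := by
        refine Subgroup.eq_of_le_of_card_ge (sup_le hEF hMF) ?_
        obtain ⟨j, hj, hje⟩ := (Nat.dvd_prime_pow Nat.prime_two).1
          (hF ▸ Subgroup.card_dvd_of_le (sup_le hEF hMF))
        rw [hF, hje]
        refine Nat.pow_le_pow_right (by norm_num) ?_
        by_contra hj'
        apply hME
        have h1 : E = E ⊔ M := Subgroup.eq_of_le_of_card_ge le_sup_left (by
          rw [hje, hE, hk]; exact Nat.pow_le_pow_right (by norm_num) (by omega))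
        exact Subgroup.eq_of_le_of_card_ge (le_sup_right.trans_eq h1.symm) (by rw [hE, hk, hMc])
      have hFinv : A ≤ Subgroup.normalizer (F : Set X) := by
        rw [← hjoin]
        exact (le_inf hEinv (hinv M (hMF.trans hFP) (Or.inl (by rw [hMc, hk])))).trans
          CfsgLib.MetacyclicP.normalizer_inf_le_normalizer_sup
      refine (trivial_of_maximals A F hA hFp hFinv fun N hN hNc => ?_).trans
        (Subgroup.centralizer_le hEF)
      refine hinv N (hN.trans hFP) (Or.inl ?_)
      rw [hF, pow_succ] at hNc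
      omega
  intro a ha
  refine CfsgLib.MetacyclicP.mem_centralizer_of_fixes_small hP (hAP ha) ?_ ?_
  · exact hA.coprime_two_right.coprime_dvd_left
      (by rw [← Subgroup.orderOf_mk a ha]; exact orderOf_dvd_natCard _)
  intro x hxP hx
  obtain ⟨j, hj, hjx⟩ := (Nat.dvd_prime_pow Nat.prime_two).1
    (hn ▸ (Subgroup.orderOf_mk x hxP ▸ orderOf_dvd_natCard (⟨x, hxP⟩ : P)))
  have hj2 : j ≤ 2 := by
    refine (Nat.pow_dvd_pow_iff_le_right (x := 2) (by norm_num)).1 ?_
    rw [← hjx]
    rcases hx with h | ⟨-, h⟩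
    · exact (orderOf_dvd_of_pow_eq_one h).trans (by norm_num)
    · exact orderOf_dvd_of_pow_eq_one (by simpa using h)
  rcases le_or_gt j k with hjk | hjk
  · obtain ⟨E, hE, hxE⟩ := Sylow.exists_subgroup_card_pow_prime_le (p := 2) (G := P) (m := k)
      (n := j) (hn ▸ pow_dvd_pow 2 hkn) (H := Subgroup.zpowers (⟨x, hxP⟩ : P))
      (by rw [Nat.card_zpowers, Subgroup.orderOf_mk, hjx]) hjk
    have := hfix (E.map P.subtype) (Subgroup.map_subtype_le E)
      (by rw [Subgroup.card_subtype, hE, hk]) ha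
    exact (this x ⟨⟨x, hxP⟩, hxE (Subgroup.mem_zpowers _), rfl⟩).symm
  · have hk1' : k = 1 := by omega
    have hj' : j = 2 := by omega
    have hC := hinv (Subgroup.zpowers x) (Subgroup.zpowers_le.2 hxP)
      (Or.inr ⟨by rw [hk, hk1']; rfl, by rw [Nat.card_zpowers, hjx, hj']; rfl⟩)
    have := trivial_of_maximals A (Subgroup.zpowers x) hA (hP.to_le (Subgroup.zpowers_le.2 hxP)) hC
      (fun M hM hMc b hb => by
        rw [Subgroup.mem_normalizer_iff_map_conj_eq]
        refine CfsgLib.BGAppendix.eq_of_card_eq_of_le_cyclic (Subgroup.zpowers x) _ _ inferInstance ?_ hM ?_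
        · rintro _ ⟨m, hm, rfl⟩
          exact (Subgroup.mem_normalizer_iff.1 (hC hb) m).1 (hM hm)
        · exact Nat.card_congr
            (Subgroup.equivMapOfInjective M _ (MulAut.conj b).injective).symm.toEquiv) ha
    exact (this x (Subgroup.mem_zpowers x)).symm

end Cfsg.Agent.S3803
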