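import Cfsg.Statements.S3814
import Mathlib
import Cfsg.Agent.Lib.MetacyclicP.NoTripleFinish
import Cfsg.Agent.Lib.MetacyclicP.NoTripleTwo
import Cfsg.Agent.Lib.MetacyclicP.FPFGroup
import Cfsg.Agent.Lib.PGroups.Frattini
import Cfsg.Agent.Lib.OrderDegrees.Coclique

set_option autoImplicit false
set_option linter.style.haveILetI false
open Cfsg

namespace Cfsg.Agent.S3814


open CfsgLib CfsgLib.MetacyclicP Module

/-- A module for `G` from `O_p(G)`: a fixed vector of a `p'`-element gives a commuting element of order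
`p`, and a `p'`-element acting trivially centralises `O_p(G)`. -/
theorem exists_module {G : Type*} [Group G] [Finite G] {p : ℕ} [hp : Fact p.Prime]
    (hcore : pCore p G ≠ ⊥) :
    ∃ (n : ℕ) (ρ : G →* Module.End (AlgebraicClosure (ZMod p)) (Fin n → AlgebraicClosure (ZMod p))),
      0 < n ∧
      (∀ g, (orderOf g).Coprime p → ∀ v, ρ g v = v → v ≠ 0 →
        ∃ a ∈ pCore p G, orderOf a = p ∧ g * a = a * g) ∧
      (∀ g, (orderOf g).Coprime p → ρ g = 1 → ∀ a ∈ pCore p G, g * a = a * g) := by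
  classical
  set P := pCore p G with hP
  have hPp : IsPGroup p P := Cores.isPGroup_pCore p G
  set Φ := frattini P with hΦ
  haveI hΦn : Φ.Normal := inferInstance
  letI : CommGroup (P ⧸ Φ) :=
    { (inferInstance : Group (P ⧸ Φ)) with
      mul_comm := fun a b => by
        induction a using QuotientGroup.induction_on with | _ a =>
        induction b using QuotientGroup.induction_on with | _ b =>
        rw [← QuotientGroup.mk_mul, ← QuotientGroup.mk_mul, QuotientGroup.eq]
        have hc := CfsgLib.PGroups.commutatorElement_mem_frattini hPp b⁻¹ a⁻¹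
        simpa [commutatorElement_def, mul_assoc] using hc }
  haveI : Nontrivial P := (Subgroup.nontrivial_iff_ne_bot _).2 hcore
  haveI : Nontrivial (P ⧸ Φ) := by
    rw [QuotientGroup.nontrivial_iff]
    exact fun h => (bot_ne_top : (⊥ : Subgroup P) ≠ ⊤) (frattini_nongenerating (show (⊥ : Subgroup P) ⊔ frattini P = ⊤ by rw [bot_sup_eq]; exact h))
  let φ : G →* MulAut P := MulAut.conjNormal
  have hΦi : Inv φ Φ := fun a x hx =>
    (Subgroup.characteristic_iff_map_le.1 (inferInstance : Φ.Characteristic) (φ a)) ⟨x, hx, rfl⟩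
  obtain ⟨n, ρ, hn, hker, hfix⟩ := exists_rep (P := P ⧸ Φ) (p := p) (fun x => by
    induction x using QuotientGroup.induction_on with | _ a =>
    rw [← QuotientGroup.mk_pow, QuotientGroup.eq_one_iff]
    exact CfsgLib.PGroups.pow_mem_frattini hPp a) (quotAct φ Φ hΦi)
  refine ⟨n, ρ, hn, fun g hg v hv hv0 => ?_, fun g hg h1 a ha => ?_⟩
  · obtain ⟨abar, ha1, hafix⟩ := hfix g v hv hv0
    obtain ⟨a, rfl⟩ := QuotientGroup.mk'_surjective Φ abar
    have hcoset : a⁻¹ * φ g a ∈ Φ := QuotientGroup.eq.1 hafix.symm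
    have hΦP : (Φ.map P.subtype) ≤ P := Subgroup.map_subtype_le Φ
    haveI : (Φ.map P.subtype).Normal := CfsgLib.Cores.normal_map_subtype P Φ
    have hN : Subgroup.zpowers g ≤ Subgroup.normalizer ((Φ.map P.subtype : Subgroup G) : Set G) := by
      rw [Subgroup.normalizer_eq_top]; exact le_top
    have hco : (Nat.card (Subgroup.zpowers g)).Coprime (Nat.card (Φ.map P.subtype)) := by
      obtain ⟨m, hm⟩ := IsPGroup.iff_card.1 (hPp.to_subgroup Φ)
      rw [Nat.card_zpowers, Subgroup.card_map_of_injective P.subtype_injective, hm]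
      exact hg.pow_right m
    have hfx : ∀ b ∈ Subgroup.zpowers g, (a : G)⁻¹ * (b * (a : G) * b⁻¹) ∈ Φ.map P.subtype := by
      intro b hb
      obtain ⟨i, rfl⟩ : ∃ i, g ^ i = b := (isOfFinOrder_of_finite g).mem_powers_iff_mem_zpowers.2 hb
      have hpow : ∀ i : ℕ, quotAct φ Φ hΦi (g ^ i) (QuotientGroup.mk a) = QuotientGroup.mk a := fun i => by
        induction i with
        | zero => rw [pow_zero, map_one, MulAut.one_apply]
        | succ i ih =>
          rw [pow_succ, map_mul, MulAut.mul_apply]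
          have h0 : quotAct φ Φ hΦi g (QuotientGroup.mk a) = QuotientGroup.mk a := hafix
          rw [h0, ih]
      have h2 := hpow i
      rw [quotAct_mk] at h2
      refine ⟨a⁻¹ * φ (g ^ i) a, QuotientGroup.eq.1 h2.symm, ?_⟩
      show ((a⁻¹ * φ (g ^ i) a : P) : G) = _
      rw [Subgroup.coe_mul, Subgroup.coe_inv, MulAut.conjNormal_apply]
    obtain ⟨c, ⟨hcP, hcC⟩, hc⟩ := CoprimeAction.exists_centralizer_mem_coset_of_le
      (A := Subgroup.zpowers g) (K := P) (N := Φ.map P.subtype) hN hΦP hco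
      (Or.inl (CoprimeAction.isSolvable_zpowers g)) a.2 hfx
    have hc1 : c ≠ 1 := by
      rintro rfl
      rw [mul_one] at hc
      obtain ⟨z, hz, hza⟩ := hc
      apply ha1
      rw [QuotientGroup.mk'_apply, QuotientGroup.eq_one_iff]
      have : z = a⁻¹ := Subtype.ext hza
      simpa [this] using hz
    obtain ⟨k, hk⟩ := hPp ⟨c, hcP⟩
    have hck : c ^ p ^ k = 1 := congrArg Subtype.val hk
    have hpd : p ∣ orderOf c := by
      obtain ⟨j, -, hj⟩ := (Nat.dvd_prime_pow hp.out).1 (orderOf_dvd_of_pow_eq_one hck)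
      rcases j with _ | j
      · exact absurd (orderOf_eq_one_iff.1 (by rw [hj, pow_zero])) hc1
      · exact hj ▸ dvd_pow_self p j.succ_ne_zero
    refine ⟨c ^ (orderOf c / p), P.pow_mem hcP _, orderOf_pow_orderOf_div (orderOf_pos c).ne' hpd, ?_⟩
    exact ((show Commute g c from Subgroup.mem_centralizer_iff.1 hcC g (Subgroup.mem_zpowers g)).pow_right _).eq
  · have hcent : Subgroup.zpowers g ≤ Subgroup.centralizer (P : Set G) := by
      refine CoprimeAction.le_centralizer_of_frattini ?_ ?_ ?_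
      · rw [Subgroup.normalizer_eq_top]; exact le_top
      · obtain ⟨m, hm⟩ := IsPGroup.iff_card.1 (hPp.to_subgroup Φ)
        rw [Nat.card_zpowers, hm]; exact hg.pow_right m
      · intro b hb x hx
        obtain ⟨i, rfl⟩ := Subgroup.mem_zpowers_iff.1 hb
        have hi : ρ (g ^ i) = 1 := MonoidHom.mem_ker.1 (Subgroup.zpow_mem _ (MonoidHom.mem_ker.2 h1) i)
        have h3 := DFunLike.congr_fun ((hker _).1 hi) ((⟨x, hx⟩ : P) : P ⧸ Φ)
        rw [quotAct_mk, MulAut.one_apply] at h3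
        refine ⟨(⟨x, hx⟩ : P)⁻¹ * φ (g ^ i) ⟨x, hx⟩, QuotientGroup.eq.1 h3.symm, ?_⟩
        show (((⟨x, hx⟩ : P)⁻¹ * φ (g ^ i) ⟨x, hx⟩ : P) : G) = _
        rw [Subgroup.coe_mul, Subgroup.coe_inv, MulAut.conjNormal_apply]
    exact (Subgroup.mem_centralizer_iff.1 (hcent (Subgroup.mem_zpowers g)) a ha).symm

/-- A Sylow subgroup for a prime joined to three others (without triples) is noncyclic. -/
theorem exists_rank_two {G : Type*} [Group G] [Finite G] [Group.IsSolvable G] {σ : Finset ℕ}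
    (hσ : σ.card = 4) (hprime : ∀ p ∈ σ, p.Prime)
    (h2 : ∀ p ∈ σ, ∀ q ∈ σ, p ≠ q → ∃ a b : G, orderOf a = p ∧ orderOf b = q ∧ a * b = b * a)
    (h3 : ∀ p ∈ σ, ∀ q ∈ σ, ∀ r ∈ σ, p ≠ q → q ≠ r → p ≠ r → ∀ a b c : G, orderOf a = p →
      orderOf b = q → orderOf c = r → a * b = b * a → a * c = c * a → b * c = c * b → False)
    {t : ℕ} (ht : t ∈ σ) : ∃ E : Subgroup G, IsElementaryAbelian t E ∧ Nat.card E = t ^ 2 := by
  classical
  haveI := Fact.mk (hprime t ht)
  obtain ⟨T⟩ := (Sylow.nonempty : Nonempty (Sylow t G))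
  obtain ⟨o, ho⟩ : (σ.erase t).Nonempty := by
    rw [← Finset.card_pos, Finset.card_erase_of_mem ht, hσ]; norm_num
  rw [Finset.mem_erase] at ho
  obtain ⟨a0, -, ha0, -, -⟩ := h2 t ht o ho.2 ho.1.symm
  haveI : Nontrivial (T : Subgroup G) := by
    rw [Subgroup.nontrivial_iff_ne_bot]
    exact T.ne_bot_of_dvd_card (ha0 ▸ orderOf_dvd_natCard a0)
  haveI : Nontrivial (Subgroup.center (T : Subgroup G)) := T.isPGroup'.center_nontrivial
  obtain ⟨n, hn⟩ := IsPGroup.iff_card.1 (T.isPGroup'.to_subgroup (Subgroup.center (T : Subgroup G)))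
  have hn0 : n ≠ 0 := by
    rintro rfl
    have := Finite.one_lt_card (α := Subgroup.center (T : Subgroup G))
    rw [hn, pow_zero] at this
    omega
  obtain ⟨z, hz⟩ := exists_prime_orderOf_dvd_card' (G := Subgroup.center (T : Subgroup G)) t
    (hn ▸ dvd_pow_self t hn0)
  rw [← Subgroup.orderOf_coe, ← Subgroup.orderOf_coe] at hz
  set u : G := ((z : (T : Subgroup G)) : G) with hu
  by_cases huniq : ∀ x ∈ (T : Subgroup G), orderOf x = t → x ∈ Subgroup.zpowers u
  · exfalso
    -- the centraliser of `u` meets the three other primes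
    have hmeet : ∀ p ∈ σ, p ≠ t → p ∣ Nat.card (Subgroup.centralizer ({u} : Set G)) := by
      intro p hp hpt
      obtain ⟨a, b, ha, hb, hab⟩ := h2 t ht p hp hpt.symm
      obtain ⟨T', hT'⟩ := (IsPGroup.of_card (p := t) (n := 1)
        (by rw [Nat.card_zpowers, ha, pow_one] : Nat.card (Subgroup.zpowers a) = t ^ 1)).exists_le_sylow
      obtain ⟨g, hg⟩ := MulAction.exists_smul_eq G T' T
      have haT : g * a * g⁻¹ ∈ (T : Subgroup G) := by
        rw [← hg]
        exact ⟨a, hT' (Subgroup.mem_zpowers a), rfl⟩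
      have hga : orderOf (g * a * g⁻¹) = t := by rw [orderOf_conj_eq, ha]
      have hmem := huniq _ haT hga
      have hua : u ∈ Subgroup.zpowers (g * a * g⁻¹) := by
        rw [eq_of_mem_zpowers_prime (hprime t ht) hz hga hmem]
        exact Subgroup.mem_zpowers u
      have hcm : (g * a * g⁻¹) * (g * b * g⁻¹) = (g * b * g⁻¹) * (g * a * g⁻¹) := by
        rw [conj_mul, conj_mul, hab]
      have hub := commute_of_mem_zpowers hua hcm
      rw [← hb, ← orderOf_conj_eq g b]
      exact Subgroup.orderOf_dvd_natCard _ (Subgroup.mem_centralizer_singleton_iff.2 hub.symm)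
    obtain ⟨a, b, c, hab, hac, hbc, habc⟩ := Finset.card_eq_three.1
      (show (σ.erase t).card = 3 by rw [Finset.card_erase_of_mem ht, hσ])
    have hmem : ∀ x ∈ ({a, b, c} : Finset ℕ), x ∈ σ ∧ x ≠ t := fun x hx => by
      rw [← habc, Finset.mem_erase] at hx; exact ⟨hx.2, hx.1⟩
    obtain ⟨haσ, hat⟩ := hmem a (by simp)
    obtain ⟨hbσ, hbt⟩ := hmem b (by simp)
    obtain ⟨hcσ, hct⟩ := hmem c (by simp)
    set C := Subgroup.centralizer ({u} : Set G) with hC
    have hno : ∀ p ∈ σ, ∀ q ∈ σ, p ≠ t → q ≠ t → p ≠ q → ¬ ∃ x : C, orderOf x = p * q := by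
      rintro p hp q hq hpt hqt hpq ⟨x, hx⟩
      rw [← Subgroup.orderOf_coe] at hx
      have hxu : (x : G) * u = u * x := Subgroup.mem_centralizer_singleton_iff.1 x.2
      have h1 := orderOf_pow_orderOf_div (orderOf_pos (x : G)).ne' (hx ▸ dvd_mul_right p q)
      have h1' := orderOf_pow_orderOf_div (orderOf_pos (x : G)).ne' (hx ▸ dvd_mul_left q p)
      exact h3 t ht p hp q hq hpt.symm hpq hqt.symm u _ _ hz h1 h1'
        ((show Commute u (x : G) from hxu.symm).pow_right _).eq
        ((show Commute u (x : G) from hxu.symm).pow_right _).eq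
        ((Commute.refl (x : G)).pow_pow _ _).eq
    exact CfsgLib.OrderDegrees.false_of_solvable_coclique (⊤ : Subgroup C) inferInstance (hprime a haσ)
      (hprime b hbσ) (hprime c hcσ) hab hac hbc (hno a haσ b hbσ hat hbt hab) (hno a haσ c hcσ hat hct hac)
      (hno b hbσ c hcσ hbt hct hbc) (by rw [Subgroup.card_top]; exact hmeet a haσ hat)
      (by rw [Subgroup.card_top]; exact hmeet b hbσ hbt) (hmeet c hcσ hct)
  · push Not at huniq
    obtain ⟨x, hxT, hx, hxu⟩ := huniq
    have hcomm : u * x = x * u :=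
      (congrArg Subtype.val (Subgroup.mem_center_iff.1 z.2 ⟨x, hxT⟩)).symm
    obtain ⟨hE, hEc⟩ := exists_elemAb_two (hprime t ht) hz hx hcomm hxu
    refine ⟨_, hE, le_antisymm ?_ ?_⟩
    · haveI : (Subgroup.zpowers u ⊔ Subgroup.zpowers x : Subgroup G).FiniteIndex := inferInstance
      have hle : ((Subgroup.zpowers u ⊔ Subgroup.zpowers x : Subgroup G) : Set G) ⊆
          (fun p : Subgroup.zpowers u × Subgroup.zpowers x => (p.1 : G) * p.2) '' Set.univ := by
        intro y hy
        have hN : Subgroup.zpowers x ≤ Subgroup.normalizer (Subgroup.zpowers u : Set G) := by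
          rw [Subgroup.zpowers_le, Subgroup.mem_normalizer_iff]
          intro w
          have hcw : ∀ w ∈ Subgroup.zpowers u, x * w * x⁻¹ = w := fun w hw => by
            rw [mul_inv_eq_iff_eq_mul]; exact (commute_of_mem_zpowers hw hcomm).symm
          constructor
          · intro hw; rw [hcw w hw]; exact hw
          · intro hw
            have h4 := hcw _ hw
            have h5 : x * w * x⁻¹ = w := by
              have h6 := congrArg (fun z => x⁻¹ * z * x) h4
              simpa [mul_assoc] using h6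
            rwa [h5] at hw
        rw [SetLike.mem_coe, ← SetLike.mem_coe,
          Subgroup.coe_mul_of_right_le_normalizer_left _ _ hN] at hy
        obtain ⟨p, hp, q, hq, rfl⟩ := hy
        exact ⟨(⟨p, hp⟩, ⟨q, hq⟩), trivial, rfl⟩
      have h := Nat.card_mono (Set.toFinite _) hle
      refine h.trans ?_
      refine (Nat.card_image_le (Set.toFinite _)).trans ?_
      rw [Nat.card_univ, Nat.card_prod, Nat.card_zpowers, Nat.card_zpowers, hz, hx, pow_two]
    · obtain ⟨i, hi⟩ := IsPGroup.iff_card.1 (CfsgLib.ThompsonJ.isPGroup_of_isElementaryAbelian hE)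
      rw [hi] at hEc ⊢
      refine Nat.pow_le_pow_right (hprime t ht).pos ?_
      by_contra hi2
      have h7 := (Nat.pow_le_pow_right (hprime t ht).pos (show i ≤ 1 by omega)).trans_eq (pow_one t)
      omega

theorem main {G : Type*} [Group G] [Finite G] [Group.IsSolvable G] (σ : Finset ℕ) (hσ : σ.card = 4)
    (hprime : ∀ p ∈ σ, p.Prime) (hmem : ∀ p, p.Prime → p ∣ Nat.card G → p ∈ σ)
    (h2 : ∀ p ∈ σ, ∀ q ∈ σ, p ≠ q → ∃ a b : G, orderOf a = p ∧ orderOf b = q ∧ a * b = b * a)
    (h3 : ∀ p ∈ σ, ∀ q ∈ σ, ∀ r ∈ σ, p ≠ q → q ≠ r → p ≠ r → ∀ a b c : G, orderOf a = p →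
      orderOf b = q → orderOf c = r → a * b = b * a → a * c = c * a → b * c = c * b → False) : False := by
  classical
  have hrank : ∀ t ∈ σ, ∃ E : Subgroup G, IsElementaryAbelian t E ∧ Nat.card E = t ^ 2 :=
    fun t ht => exists_rank_two hσ hprime h2 h3 ht
  haveI : Nontrivial G := by
    obtain ⟨p, hp⟩ : σ.Nonempty := Finset.card_pos.1 (by rw [hσ]; norm_num)
    obtain ⟨E, -, hEc⟩ := hrank p hp
    by_contra hG
    rw [not_nontrivial_iff_subsingleton] at hG
    haveI := hG
    have h1 : Nat.card E = 1 := Nat.card_of_subsingleton 1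
    rw [hEc] at h1
    exact absurd h1 (Nat.one_lt_pow two_ne_zero (hprime p hp).one_lt).ne'
  obtain ⟨p, hpp, hcp⟩ := Hall.exists_pCore_ne_bot (G := G)
  haveI := Fact.mk hpp
  have hcoreσ : ∀ t : ℕ, t.Prime → pCore t G ≠ ⊥ → t ∈ σ := by
    intro t htp hct
    haveI := Fact.mk htp
    obtain ⟨w, hw⟩ := Subgroup.ne_bot_iff_exists_ne_one.1 (omegaCenter_ne_bot hct)
    refine hmem t htp ?_
    rw [← orderOf_eq_of_mem_exp htp (isElementaryAbelian_omegaCenter t).2 w.2 (fun h => hw (Subtype.ext h))]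
    exact orderOf_dvd_natCard _
  have hpσ := hcoreσ p hpp hcp
  obtain ⟨n₁, ρ₁, hn₁, hfix₁, hker₁⟩ := exists_module (p := p) hcp
  haveI : Nonempty (Fin n₁) := ⟨⟨0, hn₁⟩⟩
  have hcop : ∀ t : ℕ, t.Prime → ∀ q : ℕ, q.Prime → t ≠ q → ∀ g : G, orderOf g = t → (orderOf g).Coprime q :=
    fun t ht q hq htq g hg => hg ▸ (Nat.coprime_primes ht hq).2 htq
  have hne₁ : ∀ t ∈ σ, t ≠ p → (t : AlgebraicClosure (ZMod p)) ≠ 0 := fun t ht htp h0 =>
    htp ((Nat.prime_dvd_prime_iff_eq hpp (hprime t ht)).1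
      ((CharP.cast_eq_zero_iff (AlgebraicClosure (ZMod p)) p t).1 h0)).symm
  -- joined pairs have no common fixed vector
  have hpair : ∀ {p : ℕ} [Fact p.Prime], p ∈ σ → ∀ {m : ℕ}
      (ρ : G →* Module.End (AlgebraicClosure (ZMod p)) (Fin m → AlgebraicClosure (ZMod p))),
      (∀ g, (orderOf g).Coprime p → ∀ v, ρ g v = v → v ≠ 0 →
        ∃ a ∈ pCore p G, orderOf a = p ∧ g * a = a * g) →
      ∀ r ∈ σ, ∀ s ∈ σ, r ≠ p → s ≠ p → r ≠ s → ∀ a b : G, orderOf a = r → orderOf b = s →
        a * b = b * a → ∀ x, ρ a x = x → ρ b x = x → x = 0 := by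
    intro p _ hpσ m ρ hfix r hr s hs hrp hsp hrs a b ha hb hab x hax hbx
    by_contra hx
    have hpp : p.Prime := Fact.out
    have hab' : orderOf (a * b) = r * s := by
      rw [(show Commute a b from hab).orderOf_mul_eq_mul_orderOf_of_coprime
        (ha ▸ hb ▸ (Nat.coprime_primes (hprime r hr) (hprime s hs)).2 hrs), ha, hb]
    obtain ⟨c, -, hc, hcc⟩ := hfix (a * b) (by
        rw [hab']
        exact Nat.Coprime.mul_left ((Nat.coprime_primes (hprime r hr) hpp).2 hrp)
          ((Nat.coprime_primes (hprime s hs) hpp).2 hsp))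
      x (by rw [map_mul, Module.End.mul_apply, hbx, hax]) hx
    obtain ⟨h1, h2'⟩ := mem_zpowers_mul (hprime r hr) (hprime s hs) hrs ha hb hab
    exact h3 r hr s hs p hpσ hrs hsp hrp a b c ha hb hc hab (commute_of_mem_zpowers h1 hcc)
      (commute_of_mem_zpowers h2' hcc)
  by_cases hsecond : ∃ q : ℕ, q.Prime ∧ q ≠ p ∧ pCore q G ≠ ⊥
  · -- two cores
    obtain ⟨q, hqp', hqp, hcq⟩ := hsecond
    haveI := Fact.mk hqp'
    have hqσ := hcoreσ q hqp' hcq
    obtain ⟨n₂, ρ₂, hn₂, hfix₂, -⟩ := exists_module (p := q) hcq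
    haveI : Nonempty (Fin n₂) := ⟨⟨0, hn₂⟩⟩
    obtain ⟨r, s, hrs, hrs'⟩ := Finset.card_eq_two.1
      (show ((σ.erase p).erase q).card = 2 by
        rw [Finset.card_erase_of_mem (Finset.mem_erase.2 ⟨hqp, hqσ⟩), Finset.card_erase_of_mem hpσ, hσ])
    have hrs'' : ∀ x, x = r ∨ x = s → x ∈ σ ∧ x ≠ p ∧ x ≠ q := fun x hx => by
      have hmemx : x ∈ (σ.erase p).erase q := by rw [hrs']; simpa using hx
      rw [Finset.mem_erase, Finset.mem_erase] at hmemx
      exact ⟨hmemx.2.2, hmemx.2.1, hmemx.1⟩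
    obtain ⟨hr, hrp, hrq⟩ := hrs'' r (Or.inl rfl)
    obtain ⟨hs, hsp, hsq⟩ := hrs'' s (Or.inr rfl)
    have hne₂ : ∀ t ∈ σ, t ≠ q → (t : AlgebraicClosure (ZMod q)) ≠ 0 := fun t ht htq h0 =>
      htq ((Nat.prime_dvd_prime_iff_eq hqp' (hprime t ht)).1
        ((CharP.cast_eq_zero_iff (AlgebraicClosure (ZMod q)) q t).1 h0)).symm
    obtain ⟨H, hH⟩ := Hall.exists_isPiHall (G := G) {x | x = r ∨ x = s}
    have hrank' : ∀ t, t = r ∨ t = s →
        ∃ E : Subgroup H, IsElementaryAbelian t E ∧ Nat.card E = t ^ 2 := by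
      intro t ht
      obtain ⟨E, hE, hEc⟩ := hrank t (hrs'' t ht).1
      have htp' := hprime t (hrs'' t ht).1
      obtain ⟨g, hg⟩ := Hall.exists_le_conj_isPiHall (U := E) hH (fun x hx hd => by
        rw [hEc] at hd
        have := (Nat.prime_dvd_prime_iff_eq hx htp').1 (hx.dvd_of_dvd_pow hd)
        subst this
        exact ht)
      have hle : E.map (MulAut.conj g⁻¹).toMonoidHom ≤ H := by
        rintro _ ⟨e, he, rfl⟩
        have := CfsgLib.CoprimeAction.mem_conj_iff.1 (hg he)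
        simpa [MulAut.conj_apply] using this
      refine ⟨(E.map (MulAut.conj g⁻¹).toMonoidHom).subgroupOf H,
        CfsgLib.ThompsonJ.isElementaryAbelian_subgroupOf (CfsgLib.ThompsonJ.isElementaryAbelian_map hE _), ?_⟩
      rw [Nat.card_congr (Subgroup.subgroupOfEquivOfLe hle).toEquiv,
        Subgroup.card_map_of_injective (MulAut.conj g⁻¹).injective, hEc]
    refine NoTriplePair.not_exists (ρ₁ := ρ₁.comp H.subtype) (ρ₂ := ρ₂.comp H.subtype) (r := r) (s := s)
      ⟨hprime r hr, hprime s hs, hrs, fun x hx hd => hH.1 x hx hd, hne₁ r hr hrp, hne₁ s hs hsp,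
        hne₂ r hr hrq, hne₂ s hs hsq, inferInstance, inferInstance,
        fun a b ha hb hab x hax hbx => hpair hpσ ρ₁ hfix₁ r hr s hs hrp hsp hrs a b
          (by rw [Subgroup.orderOf_coe, ha]) (by rw [Subgroup.orderOf_coe, hb])
          (congrArg Subtype.val hab) x hax hbx,
        fun a b ha hb hab x hax hbx => hpair hqσ ρ₂ hfix₂ r hr s hs hrq hsq hrs a b
          (by rw [Subgroup.orderOf_coe, ha]) (by rw [Subgroup.orderOf_coe, hb])
          (congrArg Subtype.val hab) x hax hbx, ?_, hrank' r (Or.inl rfl), hrank' s (Or.inr rfl)⟩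
    intro g hg x y hx hy
    by_contra! hxy
    have hgt : orderOf (g : G) = r ∨ orderOf (g : G) = s := by rwa [Subgroup.orderOf_coe]
    obtain ⟨htσ, htp, htq⟩ := hrs'' (orderOf (g : G)) hgt
    have htprime := hprime _ htσ
    obtain ⟨c, hcP, hc, hgc⟩ := hfix₁ g ((Nat.coprime_primes htprime hpp).2 htp) x hx hxy.1
    obtain ⟨d, hdQ, hd, hgd⟩ := hfix₂ g ((Nat.coprime_primes htprime hqp').2 htq) y hy hxy.2
    exact h3 _ htσ p hpσ q hqσ htp hqp.symm htq (g : G) c d rfl hc hd hgc hgd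
      (Cores.commute_pCore_of_ne hqp.symm hcP hdQ)
  · -- one core
    push Not at hsecond
    set τ := σ.erase p with hτ
    obtain ⟨H, hH⟩ := Hall.exists_isPiHall (G := G) {x | x ∈ τ}
    have hτmem : ∀ x ∈ τ, x ∈ σ ∧ x ≠ p := fun x hx => ⟨(Finset.mem_erase.1 hx).2, (Finset.mem_erase.1 hx).1⟩
    have hconj : ∀ U : Subgroup G, (∀ x : ℕ, x.Prime → x ∣ Nat.card U → x ∈ τ) →
        ∃ g : G, U.map (MulAut.conj g).toMonoidHom ≤ H := by
      intro U hU
      obtain ⟨g, hg⟩ := Hall.exists_le_conj_isPiHall (U := U) hH hU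
      refine ⟨g⁻¹, ?_⟩
      rintro _ ⟨e, he, rfl⟩
      have := CfsgLib.CoprimeAction.mem_conj_iff.1 (hg he)
      simpa [MulAut.conj_apply] using this
    have hFle : fittingSubgroup G ≤ pCore p G :=
      fittingSubgroup_le_pCore fun t ht _ htp => hsecond t ht htp
    refine NoTriple.not_exists (ρ := ρ₁.comp H.subtype) (σ := τ)
      { card := by rw [hτ, Finset.card_erase_of_mem hpσ, hσ]
        prime := fun x hx => hprime x (hτmem x hx).1
        mem := fun x hx hd => hH.1 x hx hd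
        ne_zero := fun x hx => hne₁ x (hτmem x hx).1 (hτmem x hx).2
        faithful := ?_
        nontrivial := inferInstance
        edge := ?_
        triple := ?_
        pair := ?_
        rank := ?_ }
    · rw [← MonoidHom.ker_eq_bot_iff, eq_bot_iff]
      intro g hg
      rw [Subgroup.mem_bot]
      rw [MonoidHom.mem_ker, MonoidHom.comp_apply] at hg
      by_contra hg1
      have hg1' : (g : G) ≠ 1 := fun h => hg1 (Subtype.ext h)
      have hcop' : (orderOf (g : G)).Coprime p := by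
        rw [Nat.coprime_comm, hpp.coprime_iff_not_dvd]
        intro hd
        exact (hτmem p (hH.1 p hpp (hd.trans (Subgroup.orderOf_dvd_natCard H g.2)))).2 rfl
      have hgc := hker₁ g hcop' hg
      have hgF : (g : G) ∈ fittingSubgroup G := Cores.centralizer_fittingSubgroup_le
        (Subgroup.mem_centralizer_iff.2 fun y hy => (hgc y (hFle hy)).symm)
      obtain ⟨k, hk⟩ := Cores.isPGroup_pCore p G ⟨g, hFle hgF⟩
      have hk' : (g : G) ^ p ^ k = 1 := congrArg Subtype.val hk
      exact hg1' (orderOf_eq_one_iff.1 (Nat.eq_one_of_dvd_coprimes (hcop'.pow_right k) dvd_rfl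
        (orderOf_dvd_of_pow_eq_one hk')))
    · intro a ha b hb hab
      obtain ⟨x, y, hx, hy, hxy⟩ := h2 a (hτmem a ha).1 b (hτmem b hb).1 hab
      obtain ⟨g, hg⟩ := hconj (Subgroup.zpowers (x * y)) (fun w hw hd => by
        rw [Nat.card_zpowers, (show Commute x y from hxy).orderOf_mul_eq_mul_orderOf_of_coprime
          (hx ▸ hy ▸ (Nat.coprime_primes (hprime a (hτmem a ha).1) (hprime b (hτmem b hb).1)).2 hab), hx, hy] at hd
        rcases hw.dvd_mul.1 hd with h | h
        · rwa [(Nat.prime_dvd_prime_iff_eq hw (hprime a (hτmem a ha).1)).1 h]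
        · rwa [(Nat.prime_dvd_prime_iff_eq hw (hprime b (hτmem b hb).1)).1 h])
      obtain ⟨h1, h2'⟩ := mem_zpowers_mul (hprime a (hτmem a ha).1) (hprime b (hτmem b hb).1) hab hx hy hxy
      refine ⟨⟨g * x * g⁻¹, hg ⟨x, h1, rfl⟩⟩, ⟨g * y * g⁻¹, hg ⟨y, h2', rfl⟩⟩, ?_, ?_, ?_⟩
      · rw [← Subgroup.orderOf_coe]; exact (orderOf_conj_eq g x).trans hx
      · rw [← Subgroup.orderOf_coe]; exact (orderOf_conj_eq g y).trans hy
      · refine Subtype.ext ?_
        show g * x * g⁻¹ * (g * y * g⁻¹) = g * y * g⁻¹ * (g * x * g⁻¹)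
        rw [conj_mul, conj_mul, hxy]
    · intro a ha b hb c hc hab hbc hac x y z hx hy hz hxy hxz hyz
      exact h3 a (hτmem a ha).1 b (hτmem b hb).1 c (hτmem c hc).1 hab hbc hac x y z
        (by rw [Subgroup.orderOf_coe, hx]) (by rw [Subgroup.orderOf_coe, hy])
        (by rw [Subgroup.orderOf_coe, hz]) (congrArg Subtype.val hxy) (congrArg Subtype.val hxz)
        (congrArg Subtype.val hyz)
    · intro a ha b hb hab x y hx hy hxy v hv hw
      exact hpair hpσ ρ₁ hfix₁ a (hτmem a ha).1 b (hτmem b hb).1 (hτmem a ha).2 (hτmem b hb).2 hab x y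
        (by rw [Subgroup.orderOf_coe, hx]) (by rw [Subgroup.orderOf_coe, hy])
        (congrArg Subtype.val hxy) v hv hw
    · intro t ht
      obtain ⟨E, hE, hEc⟩ := hrank t (hτmem t ht).1
      obtain ⟨g, hg⟩ := hconj E (fun w hw hd => by
        rw [hEc] at hd
        rwa [(Nat.prime_dvd_prime_iff_eq hw (hprime t (hτmem t ht).1)).1 (hw.dvd_of_dvd_pow hd)])
      refine ⟨(E.map (MulAut.conj g).toMonoidHom).subgroupOf H,
        CfsgLib.ThompsonJ.isElementaryAbelian_subgroupOf (CfsgLib.ThompsonJ.isElementaryAbelian_map hE _), ?_⟩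
      rw [Nat.card_congr (Subgroup.subgroupOfEquivOfLe hg).toEquiv,
        Subgroup.card_map_of_injective (MulAut.conj g).injective, hEc]


/-- A criterion for nonsolvability from element orders: let G be a finite group and σ a set of at least four primes such that for all distinct p, q ∈ σ the product pq is the order of some element of G, while for all pairwise distinct p, q, r ∈ σ no element of G has order pqr. Then G is not solvable. -/
theorem result {G : Type*} [Group G] [Finite G]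
    (σ : Finset ℕ) (hσ : 4 ≤ σ.card) (hprime : ∀ p ∈ σ, p.Prime)
    (h2 : ∀ p ∈ σ, ∀ q ∈ σ, p ≠ q → ∃ g : G, orderOf g = p * q)
    (h3 : ∀ p ∈ σ, ∀ q ∈ σ, ∀ r ∈ σ, p ≠ q → q ≠ r → p ≠ r → ∀ g : G, orderOf g ≠ p * q * r) :
    ¬ Group.IsSolvable G := by
  intro hG
  classical
  obtain ⟨σ', hsub, hcard⟩ := Finset.exists_subset_card_eq hσ
  obtain ⟨H, hH⟩ := CfsgLib.Hall.exists_isPiHall (G := G) {x | x ∈ σ'}
  refine main (G := H) σ' hcard (fun p hp => hprime p (hsub hp)) (fun p hp hd => hH.1 p hp hd) ?_ ?_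
  · intro p hp q hq hpq
    obtain ⟨g, hg⟩ := h2 p (hsub hp) q (hsub hq) hpq
    have hpp := hprime p (hsub hp)
    have hqq := hprime q (hsub hq)
    obtain ⟨c, hc⟩ := CfsgLib.Hall.exists_le_conj_isPiHall (U := Subgroup.zpowers g) hH (fun w hw hd => by
      rw [Nat.card_zpowers, hg] at hd
      rcases hw.dvd_mul.1 hd with h | h
      · rw [(Nat.prime_dvd_prime_iff_eq hw hpp).1 h]; exact hp
      · rw [(Nat.prime_dvd_prime_iff_eq hw hqq).1 h]; exact hq)
    have hgH : c⁻¹ * g * c ∈ H := CfsgLib.CoprimeAction.mem_conj_iff.1 (hc (Subgroup.mem_zpowers g))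
    set x : H := ⟨c⁻¹ * g * c, hgH⟩ with hx
    have hxo : orderOf x = p * q := by
      have h := CfsgLib.MetacyclicP.orderOf_conj_eq c⁻¹ g
      rw [inv_inv] at h
      rw [← Subgroup.orderOf_coe, ← hg]
      exact h
    exact ⟨_, _, orderOf_pow_orderOf_div (orderOf_pos x).ne' (hxo ▸ dvd_mul_right p q),
      orderOf_pow_orderOf_div (orderOf_pos x).ne' (hxo ▸ dvd_mul_left q p),
      ((Commute.refl x).pow_pow _ _).eq⟩
  · intro p hp q hq r hr hpq hqr hpr a b c ha hb hc hab hac hbc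
    have hpp := hprime p (hsub hp)
    have hqq := hprime q (hsub hq)
    have hrr := hprime r (hsub hr)
    refine h3 p (hsub hp) q (hsub hq) r (hsub hr) hpq hqr hpr ((a * b * c : H) : G) ?_
    rw [Subgroup.orderOf_coe]
    have h1 : orderOf (a * b) = p * q := by
      rw [(show Commute a b from hab).orderOf_mul_eq_mul_orderOf_of_coprime
        (ha ▸ hb ▸ (Nat.coprime_primes hpp hqq).2 hpq), ha, hb]
    rw [(Commute.mul_left (show Commute a c from hac) hbc).orderOf_mul_eq_mul_orderOf_of_coprime ?_, h1, hc]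
    rw [h1, hc]
    exact Nat.Coprime.mul_left ((Nat.coprime_primes hpp hrr).2 hpr) ((Nat.coprime_primes hqq hrr).2 hqr)

end Cfsg.Agent.S3814
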