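import Cfsg.Statements.S3815
import Mathlib


set_option autoImplicit false
open Cfsg

namespace Cfsg.Agent.S3815



/-- Let G be a finite group, p a prime and d ∈ G an element of order prime to p. If dg has order prime to p for every element g ∈ G of order prime to p, then d ∈ O_{p'}(G). -/
theorem result {G : Type*} [Group G] [Finite G] {p : ℕ} [Fact p.Prime]
    (d : G) (hd : (orderOf d).Coprime p)
    (h : ∀ g : G, (orderOf g).Coprime p → (orderOf (d * g)).Coprime p) :
    d ∈ Cfsg.pPrimeCore p G := by
  classical
  have hmul : ∀ x y : G, (∀ g : G, (orderOf g).Coprime p → (orderOf (x * g)).Coprime p) →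
      (∀ g : G, (orderOf g).Coprime p → (orderOf (y * g)).Coprime p) →
      (∀ g : G, (orderOf g).Coprime p → (orderOf (x * y * g)).Coprime p) := by
    intro x y hx hy g hg
    rw [mul_assoc]
    exact hx _ (hy g hg)
  have hone : ∀ g : G, (orderOf g).Coprime p → (orderOf ((1:G) * g)).Coprime p := by simp
  let N : Subgroup G :=
    { carrier := {x | ∀ g : G, (orderOf g).Coprime p → (orderOf (x * g)).Coprime p}
      mul_mem' := fun {x y} hx hy => hmul x y hx hy
      one_mem' := hone
      inv_mem' := by
        intro x hx
        have : ∀ k : ℕ, ∀ g : G, (orderOf g).Coprime p → (orderOf (x ^ k * g)).Coprime p := by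
          intro k
          induction k with
          | zero => simp
          | succ k ih => rw [pow_succ]; exact hmul _ _ ih hx
        have h1 : x⁻¹ = x ^ (orderOf x - 1) := by
          apply inv_eq_of_mul_eq_one_left
          rw [← pow_succ, Nat.sub_add_cancel (orderOf_pos x), pow_orderOf_eq_one]
        show ∀ g : G, (orderOf g).Coprime p → (orderOf (x⁻¹ * g)).Coprime p
        rw [h1]; exact this _ }
  have hn : N.Normal := by
    constructor
    intro x hx a g hg
    have h2 : (orderOf (a⁻¹ * g * a)).Coprime p := by
      have : orderOf (MulAut.conj a⁻¹ g) = orderOf g :=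
        orderOf_injective (MulAut.conj a⁻¹).toMonoidHom (MulAut.conj a⁻¹).injective g
      rw [MulAut.conj_apply, inv_inv] at this
      rwa [this]
    have h3 := hx _ h2
    have : orderOf (MulAut.conj a (x * (a⁻¹ * g * a))) = orderOf (x * (a⁻¹ * g * a)) :=
      orderOf_injective (MulAut.conj a).toMonoidHom (MulAut.conj a).injective _
    rw [MulAut.conj_apply, show a * (x * (a⁻¹ * g * a)) * a⁻¹ = a * x * a⁻¹ * g by group] at this
    rwa [this]
  have hc : (Nat.card N).Coprime p := by
    rw [Nat.coprime_comm, (Fact.out : p.Prime).coprime_iff_not_dvd]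
    intro hdvd
    obtain ⟨x, hx⟩ := exists_prime_orderOf_dvd_card' p hdvd
    have h1 := x.2 1 (by simp)
    rw [mul_one, Subgroup.orderOf_coe, hx] at h1
    exact (Fact.out : p.Prime).ne_one ((Nat.coprime_self p).1 h1)
  exact (le_sSup (show N ∈ {N : Subgroup G | N.Normal ∧ (Nat.card N).Coprime p} from ⟨hn, hc⟩)) h

end Cfsg.Agent.S3815
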