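import Cfsg.Statements.S3816
import Cfsg.Agent.Lib.MetacyclicP.FixedGenFinal
import Cfsg.Agent.Lib.CoprimeAction.Aut
-- import your own Cfsg.Agent.* helpers here

set_option autoImplicit false
set_option linter.style.haveILetI false
open scoped commutatorElement
open Cfsg

namespace Cfsg.Agent.S3816

/-- Let p be an odd prime, H a finite solvable group of order prime to p, and x an automorphism of H of order p (so P = ⟨x⟩ has prime order p > 2 and acts coprimely on H). For h ∈ H let [h, P] be the subgroup generated by the commutators h⁻¹·xⁱ(h), and let [H, P] be the subgroup generated by all of these. Then the fixed points of x in [H, P] are generated by the fixed points of x in the subgroups [h, P], h ∈ H. -/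
theorem result {H : Type*} [Group H] [Finite H]
    [Group.IsSolvable H] {p : ℕ} [Fact p.Prime] (hp : p ≠ 2) (hcop : (Nat.card H).Coprime p)
    (x : MulAut H) (hx : orderOf x = p) :
    Subgroup.closure {c : H | ∃ h : H, ∃ i : ℕ, c = h⁻¹ * (x ^ i) h} ⊓ (x : H →* H).eqLocus (MonoidHom.id H) =
      ⨆ h : H, Subgroup.closure {c : H | ∃ i : ℕ, c = h⁻¹ * (x ^ i) h} ⊓ (x : H →* H).eqLocus (MonoidHom.id H) := by
  classical
  set P := Subgroup.zpowers x with hP
  haveI : Finite P := inferInstance
  let G := H ⋊[P.subtype] P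
  haveI : Finite G := Finite.of_equiv _ SemidirectProduct.equivProd.symm
  let Hs : Subgroup G := (SemidirectProduct.inl : H →* G).range
  let A : Subgroup G := (SemidirectProduct.inr : P →* G).range
  have hA : Nat.card A = p := by
    rw [← hx, ← Nat.card_zpowers x]
    exact (Nat.card_congr (MonoidHom.ofInjective SemidirectProduct.inr_injective).toEquiv).symm
  have hH : Nat.card Hs = Nat.card H :=
    (Nat.card_congr (MonoidHom.ofInjective SemidirectProduct.inl_injective).toEquiv).symm
  haveI : Group.IsSolvable Hs :=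
    Group.isSolvable_of_surjective (MonoidHom.rangeRestrict_surjective (SemidirectProduct.inl : H →* G))
  have hconj : ∀ (a : P) (h : H),
      (SemidirectProduct.inr a : G) * SemidirectProduct.inl h * (SemidirectProduct.inr a)⁻¹ =
        SemidirectProduct.inl ((a : MulAut H) h) := fun a h => by
    have h1 := SemidirectProduct.inl_aut (φ := P.subtype) a h
    rw [← map_inv]; exact h1.symm
  have hAH : A ≤ Subgroup.normalizer (Hs : Set G) := by
    rintro _ ⟨a, rfl⟩
    refine CfsgLib.CoprimeAction.mem_normalizer_of_conj_mem ?_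
    rintro _ ⟨h, rfl⟩
    exact ⟨_, (hconj a h).symm⟩
  have hmain := CfsgLib.MetacyclicP.FixedGen.commutator_inf_centralizer_eq_fixGen (A := A) (H := Hs) hp hAH hA
    (by rw [hA, hH]; exact hcop.symm)
  have hpowP : ∀ i : ℕ, x ^ i ∈ P := fun i => pow_mem (Subgroup.mem_zpowers x) i
  have hnat : ∀ a : P, ∃ i : ℕ, (a : MulAut H) = x ^ i := fun a => by
    have : (a : MulAut H) ∈ Submonoid.powers x := by
      exact mem_powers_iff_mem_zpowers.2 a.2
    obtain ⟨i, hi⟩ := this
    exact ⟨i, hi.symm⟩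
  have hcl : ∀ h : H, CfsgLib.MetacyclicP.FixedGen.cl A (SemidirectProduct.inl h : G) =
      (Subgroup.closure {c : H | ∃ i : ℕ, c = h⁻¹ * (x ^ i) h}).map SemidirectProduct.inl := by
    intro h
    rw [CfsgLib.MetacyclicP.FixedGen.cl, MonoidHom.map_closure]
    congr 1
    ext c
    constructor
    · rintro ⟨_, ⟨a, rfl⟩, rfl⟩
      obtain ⟨i, hi⟩ := hnat a
      refine ⟨h⁻¹ * (x ^ i) h, ⟨i, rfl⟩, ?_⟩
      rw [hconj, hi, map_mul, map_inv]
    · rintro ⟨_, ⟨i, rfl⟩, rfl⟩
      exact ⟨_, ⟨⟨x ^ i, hpowP i⟩, rfl⟩, by rw [hconj, map_mul, map_inv]⟩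
  have hfix : ∀ h : H, (SemidirectProduct.inl h : G) ∈ Subgroup.centralizer (A : Set G) ↔
      h ∈ (x : H →* H).eqLocus (MonoidHom.id H) := by
    intro h
    rw [Subgroup.mem_centralizer_iff]
    constructor
    · intro hh
      have h1 := hh _ ⟨⟨x, Subgroup.mem_zpowers x⟩, rfl⟩
      have h2 := hconj ⟨x, Subgroup.mem_zpowers x⟩ h
      rw [h1, mul_inv_cancel_right] at h2
      exact (SemidirectProduct.inl_injective h2).symm
    · rintro hh _ ⟨a, rfl⟩
      obtain ⟨i, hi⟩ := hnat a
      have hi' : ∀ j : ℕ, (x ^ j) h = h := by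
        intro j
        induction j with
        | zero => rfl
        | succ j ih => rw [pow_succ, MulAut.mul_apply, show x h = h from hh, ih]
      have h2 := hconj a h
      rw [hi, hi'] at h2
      exact mul_inv_eq_iff_eq_mul.1 h2
  have hfix' : ∀ S : Subgroup H, (S ⊓ (x : H →* H).eqLocus (MonoidHom.id H)).map (SemidirectProduct.inl : H →* G) =
      S.map SemidirectProduct.inl ⊓ Subgroup.centralizer (A : Set G) := by
    intro S
    ext g
    constructor
    · rintro ⟨h, ⟨hS, hh⟩, rfl⟩
      exact ⟨⟨h, hS, rfl⟩, (hfix h).2 hh⟩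
    · rintro ⟨⟨h, hS, rfl⟩, hh⟩
      exact ⟨h, ⟨hS, (hfix h).1 hh⟩, rfl⟩
  have hcomm : ⁅Hs, A⁆ = (Subgroup.closure {c : H | ∃ h : H, ∃ i : ℕ, c = h⁻¹ * (x ^ i) h}).map
      (SemidirectProduct.inl : H →* G) := by
    refine le_antisymm ?_ ?_
    · refine CfsgLib.MetacyclicP.FixedGen.commutator_le_iSup_cl.trans (iSup_le ?_)
      rintro ⟨_, h, rfl⟩
      rw [hcl h]
      exact Subgroup.map_mono (Subgroup.closure_mono fun c ⟨i, hi⟩ => ⟨h, i, hi⟩)
    · rw [Subgroup.map_le_iff_le_comap, Subgroup.closure_le]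
      rintro _ ⟨h, i, rfl⟩
      refine CfsgLib.MetacyclicP.FixedGen.cl_le_commutator (⟨h, rfl⟩ : (SemidirectProduct.inl h : G) ∈ Hs) ?_
      rw [hcl h]
      exact ⟨_, Subgroup.subset_closure ⟨i, rfl⟩, rfl⟩
  refine Subgroup.map_injective (f := (SemidirectProduct.inl : H →* G)) SemidirectProduct.inl_injective ?_
  rw [hfix', ← hcomm, hmain, Subgroup.map_iSup]
  refine le_antisymm (iSup_le ?_) (iSup_le fun h => ?_)
  · rintro ⟨_, h, rfl⟩
    refine le_iSup_of_le h (le_of_eq ?_)
    rw [hfix', hcl h]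
  · refine le_iSup_of_le (⟨SemidirectProduct.inl h, h, rfl⟩ : Hs) (le_of_eq ?_)
    rw [hfix', hcl h]

end Cfsg.Agent.S3816
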