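import Mathlib
import Cfsg.Statements.S3818
import Cfsg.Agent.Lib.MetacyclicP.HalfFixed
import Cfsg.Agent.Lib.HallHigmanB.Minimal

set_option autoImplicit false
open Cfsg

namespace Cfsg.Agent.S3818

/-- Let G be a finite solvable group and P a subgroup of G of prime order p > 3 whose conjugates generate G. Let V be a faithful irreducible representation of G over a field of positive characteristic, finite-dimensional. Then the subspace of V fixed by P has dimension less than half the dimension of V. -/
theorem result {G : Type*} [Group G] [Finite G] [Group.IsSolvable G]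
    {p : ℕ} [Fact p.Prime] (hp : 3 < p) (P : Subgroup G) (hP : Nat.card P = p) (hgen : Subgroup.normalClosure (P : Set G) = ⊤)
    {k : Type*} [Field k] (ℓ : ℕ) [Fact ℓ.Prime] [CharP k ℓ]
    {V : Type*} [AddCommGroup V] [Module k V] [FiniteDimensional k V]
    (ρ : Representation k G V) [ρ.IsIrreducible] (hfaith : Function.Injective ρ) :
    2 * Module.finrank k ↥(⨅ g : ↥P, LinearMap.ker (ρ (g : G) - LinearMap.id)) < Module.finrank k V := by
  classical
  have hpp : p.Prime := Fact.out
  -- a generator
  obtain ⟨x₀, hx₀⟩ := exists_prime_orderOf_dvd_card' (G := P) p hP.symm.dvd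
  set x : G := (x₀ : G) with hxdef
  have hordx : orderOf x = p := by rw [hxdef, Subgroup.orderOf_coe, hx₀]
  have hxp : x ^ p = 1 := by rw [← hordx, pow_orderOf_eq_one]
  have hxP : Subgroup.zpowers x = P := by
    refine Subgroup.eq_of_le_of_card_ge (Subgroup.zpowers_le.2 x₀.2) ?_
    rw [Nat.card_zpowers, hordx, hP]
  have hgen' : Subgroup.normalClosure ({x} : Set G) = ⊤ := by
    rw [eq_top_iff, ← hgen]
    refine Subgroup.normalClosure_le_normal ?_
    rw [← hxP, SetLike.coe_subset_coe, Subgroup.zpowers_le]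
    exact Subgroup.subset_normalClosure rfl
  haveI : Nontrivial G := ⟨x, 1, fun h => hpp.ne_one (by rw [← hordx, h, orderOf_one])⟩
  haveI : Nontrivial V := by
    by_contra h
    rw [not_nontrivial_iff_subsingleton] at h
    obtain ⟨a, b, hab⟩ := exists_pair_ne G
    exact hab (hfaith (LinearMap.ext fun y => Subsingleton.elim _ _))
  have hirr : ∀ W : Submodule k V, (∀ g, ∀ y ∈ W, ρ g y ∈ W) → W = ⊥ ∨ W = ⊤ := by
    intro W hW
    rcases IsSimpleOrder.eq_bot_or_eq_top (⟨W, fun g y hy => hW g y hy⟩ : Subrepresentation ρ) with h | h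
    · exact Or.inl (congrArg Subrepresentation.toSubmodule h)
    · exact Or.inr (congrArg Subrepresentation.toSubmodule h)
  obtain ⟨A, hAn, hAbot, hA⟩ := CfsgLib.MetacyclicP.exists_comm_normal G
  haveI := hAn
  haveI : Fintype A := Fintype.ofFinite _
  have hAk := CfsgLib.MetacyclicP.natCard_ne_zero_of_faithful_irreducible (ℓ := ℓ) ρ hfaith hirr A hA
  have hnorm : (∑ a : A, ρ (a : G)) = 0 := by
    let W : Submodule k V := ⨅ a : A, LinearMap.ker (ρ (a : G) - 1)
    have hW : ∀ y, y ∈ W ↔ ∀ a : A, ρ (a : G) y = y := fun y => by simp [W, sub_eq_zero]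
    have hbot : W = ⊥ := by
      refine (hirr W fun g y hy => (hW _).2 fun a => ?_).resolve_right fun htop => hAbot ?_
      · have h1 := (hW y).1 hy ⟨g⁻¹ * a * g, hAn.conj_mem' _ a.2 g⟩
        rw [← Module.End.mul_apply, ← map_mul, show (a : G) * g = g * (g⁻¹ * a * g) by group, map_mul,
          Module.End.mul_apply, h1]
      · rw [eq_bot_iff]
        intro a ha
        refine Subgroup.mem_bot.2 (hfaith ((LinearMap.ext fun y => ?_ : ρ a = 1).trans (map_one ρ).symm))
        exact (hW y).1 (htop ▸ Submodule.mem_top) ⟨a, ha⟩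
    refine LinearMap.ext fun y => ?_
    rw [LinearMap.zero_apply, ← Submodule.mem_bot k, ← hbot, hW]
    intro b
    rw [LinearMap.sum_apply, map_sum]
    refine Fintype.sum_equiv (Equiv.mulLeft b) _ _ fun a => ?_
    rw [Equiv.coe_mulLeft, Subgroup.coe_mul, map_mul, Module.End.mul_apply]
  haveI : CharP (AlgebraicClosure k) ℓ :=
    charP_of_injective_algebraMap (algebraMap k (AlgebraicClosure k)).injective ℓ
  obtain ⟨Φ, hΦ⟩ := CfsgLib.HallHigmanB.exists_baseChange (F := k) (V := V) (AlgebraicClosure k)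
  have hd : 0 < Module.finrank k V := Module.finrank_pos
  haveI : Nontrivial (Fin (Module.finrank k V) → AlgebraicClosure k) :=
    haveI : Nonempty (Fin (Module.finrank k V)) := ⟨⟨0, hd⟩⟩
    inferInstance
  have hAK : (Nat.card A : AlgebraicClosure k) ≠ 0 := by
    rw [← map_natCast (algebraMap k (AlgebraicClosure k))]
    exact fun h => hAk ((map_eq_zero _).1 h)
  have h1 := CfsgLib.MetacyclicP.half_fixed_of_norm_zero (ℓ := ℓ) hpp hp hxp hgen' A hAK
    (Module.finrank k V) (Fin (Module.finrank k V) → AlgebraicClosure k) (by simp)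
    (Φ.toMonoidHom.comp ρ) (by
      show ∑ a : A, Φ (ρ (a : G)) = 0
      rw [← map_sum, hnorm, map_zero])
  have h2 := CfsgLib.MetacyclicP.finrank_fixed_baseChange Φ hΦ (ρ x)
  have h3 : Module.finrank k ↥(⨅ g : ↥P, LinearMap.ker (ρ (g : G) - LinearMap.id)) ≤
      Module.finrank k (LinearMap.ker (ρ x - 1)) :=
    Submodule.finrank_mono (iInf_le (fun g : P => LinearMap.ker (ρ (g : G) - LinearMap.id)) x₀)
  rw [Module.finrank_fin_fun] at h1
  change 2 * Module.finrank (AlgebraicClosure k) (LinearMap.ker (Φ (ρ x) - 1)) < Module.finrank k V at h1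
  omega

end Cfsg.Agent.S3818
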