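import Cfsg.Statements.S3819
import Cfsg.Agent.Lib.CoprimeAction.Basic
import Cfsg.Agent.Lib.LBalance.PComponentMap
import Cfsg.Agent.Lib.SectRank.SylowInter
-- import your own Cfsg.Agent.* helpers here

set_option autoImplicit false
set_option linter.style.haveILetI false
open Cfsg
open scoped commutatorElement

namespace Cfsg.Agent.S3819



theorem mem_normalizer_inf {X : Type*} [Group X] {A B : Subgroup X} {g : X}
    (hA : g ∈ Subgroup.normalizer (A : Set X)) (hB : g ∈ Subgroup.normalizer (B : Set X)) :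
    g ∈ Subgroup.normalizer ((A ⊓ B : Subgroup X) : Set X) :=
  Subgroup.mem_normalizer_iff.2 fun x => by
    simp only [Subgroup.mem_inf]
    rw [Subgroup.mem_normalizer_iff.1 hA x, Subgroup.mem_normalizer_iff.1 hB x]

/-- `q'`-elements commuting with `z` act trivially on a solvable normal subgroup without `q'`-core. -/
theorem le_centralizer_of_coreless {X : Type*} [Group X] [Finite X] {q : ℕ} [Fact q.Prime]
    {K A : Subgroup X} [K.Normal] [Group.IsSolvable K] (hK : pPrimeCore q K = ⊥)
    (hA : (Nat.card A).Coprime q) {z : X} (hz : IsPGroup q (Subgroup.zpowers z))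
    (hAz : ∀ a ∈ A, a * z = z * a)
    (h : ∀ a ∈ A, ∀ r ∈ K, r * z = z * r → (orderOf ⁅a, r⁆).Coprime q) :
    A ≤ Subgroup.centralizer (K : Set X) := by
  set R := (pCore q K).map K.subtype with hR
  haveI hRn : R.Normal := ⟨fun r hr g => by
    have hn : Subgroup.normalizer (K : Set X) ≤ Subgroup.normalizer (R : Set X) :=
      CfsgLib.Cores.normalizer_le_normalizer_map_subtype K (pCore q K)
    exact (Subgroup.mem_normalizer_iff.1 (hn (by rw [Subgroup.normalizer_eq_top]; trivial)) r).1 hr⟩
  have hRq : IsPGroup q R := (CfsgLib.Cores.isPGroup_pCore q K).map _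
  have hRK : R ≤ K := Subgroup.map_subtype_le _
  have hCR : K ⊓ Subgroup.centralizer (R : Set X) ≤ R := by
    rintro k ⟨hk, hkc⟩
    refine ⟨⟨k, hk⟩, ?_, rfl⟩
    refine CfsgLib.SectRank.centralizer_pCore_le_of_solvable hK (Subgroup.mem_centralizer_iff.2 fun r hr => ?_)
    exact Subtype.ext (Subgroup.mem_centralizer_iff.1 hkc r ⟨r, hr, rfl⟩)
  have hAR : A ≤ Subgroup.centralizer (R : Set X) := by
    refine CfsgLib.CoprimeAction.pxq hz hA hRq ?_ (by rw [Subgroup.normalizer_eq_top]; exact le_top)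
      (by rw [Subgroup.normalizer_eq_top]; exact le_top) ?_
    · refine Subgroup.zpowers_le.2 (Subgroup.mem_centralizer_iff.2 fun a ha => hAz a ha)
    · rintro r ⟨hr, hrz⟩
      refine Subgroup.mem_centralizer_iff.2 fun a ha => ?_
      have h1 := h a ha r (hRK hr) (Subgroup.mem_centralizer_iff.1 hrz z (Subgroup.mem_zpowers z)).symm
      have h2 : ⁅a, r⁆ ∈ R := by
        rw [commutatorElement_def]
        exact mul_mem (hRn.conj_mem r hr a) (inv_mem hr)
      obtain ⟨j, hj⟩ := hRq ⟨⁅a, r⁆, h2⟩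
      exact commutatorElement_eq_one_iff_mul_comm.1 (orderOf_eq_one_iff.1
        (Nat.eq_one_of_dvd_coprimes (h1.pow_right j) dvd_rfl
          (orderOf_dvd_of_pow_eq_one (congrArg Subtype.val hj))))
  obtain ⟨e, he⟩ := IsPGroup.iff_card.1 hRq
  refine CfsgLib.CoprimeAction.le_centralizer_of_series hRK (by rw [he]; exact hA.pow_right e) hAR
    fun a ha k hk => hCR (⟨K.mul_mem (K.inv_mem hk) (Subgroup.Normal.conj_mem ‹K.Normal› k hk a), ?_⟩ :
      k⁻¹ * (a * k * a⁻¹) ∈ K ⊓ Subgroup.centralizer (R : Set X))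
  refine Subgroup.mem_centralizer_iff.2 fun r hr => ?_
  have e1 := Subgroup.mem_centralizer_iff.1 (hAR ha) r hr
  have e2 := Subgroup.mem_centralizer_iff.1 (hAR ha) _ (hRn.conj_mem r hr k)
  have e1' : a * r * a⁻¹ = r := by rw [← e1, mul_inv_cancel_right]
  have e2' : a * (k * r * k⁻¹) * a⁻¹ = k * r * k⁻¹ := by rw [← e2, mul_inv_cancel_right]
  calc r * (k⁻¹ * (a * k * a⁻¹)) = k⁻¹ * (k * r * k⁻¹) * (a * k * a⁻¹) := by group
    _ = k⁻¹ * (a * (k * r * k⁻¹) * a⁻¹) * (a * k * a⁻¹) := by rw [e2']
    _ = k⁻¹ * (a * k * a⁻¹) * (a * r * a⁻¹) := by group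
    _ = k⁻¹ * (a * k * a⁻¹) * r := by rw [e1']

/-- Let G be a finite group with Sylow p-subgroup P and H = O_{p'}(G), and suppose G = PH and the commutator subgroup [H, P] is solvable. Let q be a prime and z an element of q-power order of C_H(P). Then (O_{q'}(C_H(z)) ∩ O_{q'}(C_H(P))) · [O_{q'}(C_H(z)), P] ≤ O_{q'}(H). -/
theorem result {G : Type*} [Group G] [Finite G] {p : ℕ} [Fact p.Prime]
    (P : Sylow p G) (hPH : Cfsg.pPrimeCore p G ⊔ (P : Subgroup G) = ⊤)
    (hsol : Group.IsSolvable ↥⁅Cfsg.pPrimeCore p G, (P : Subgroup G)⁆)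
    {q : ℕ} [Fact q.Prime] (z : G) (hzH : z ∈ Cfsg.pPrimeCore p G) (hzP : z ∈ Subgroup.centralizer ((P : Subgroup G) : Set G))
    (hz : ∃ k : ℕ, orderOf z = q ^ k) :
    ((Cfsg.pPrimeCore q ↥(Cfsg.pPrimeCore p G ⊓ Subgroup.centralizer ({z} : Set G))).map
        (Cfsg.pPrimeCore p G ⊓ Subgroup.centralizer ({z} : Set G)).subtype ⊓
      (Cfsg.pPrimeCore q ↥(Cfsg.pPrimeCore p G ⊓ Subgroup.centralizer ((P : Subgroup G) : Set G))).map
        (Cfsg.pPrimeCore p G ⊓ Subgroup.centralizer ((P : Subgroup G) : Set G)).subtype) ⊔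
    ⁅(Cfsg.pPrimeCore q ↥(Cfsg.pPrimeCore p G ⊓ Subgroup.centralizer ({z} : Set G))).map
        (Cfsg.pPrimeCore p G ⊓ Subgroup.centralizer ({z} : Set G)).subtype, (P : Subgroup G)⁆ ≤
    (Cfsg.pPrimeCore q ↥(Cfsg.pPrimeCore p G)).map (Cfsg.pPrimeCore p G).subtype := by
  classical
  set H := pPrimeCore p G with hH
  set W := (pPrimeCore q ↥(H ⊓ Subgroup.centralizer ({z} : Set G))).map
      (H ⊓ Subgroup.centralizer ({z} : Set G)).subtype with hW
  set Y := (pPrimeCore q ↥(H ⊓ Subgroup.centralizer ((P : Subgroup G) : Set G))).map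
      (H ⊓ Subgroup.centralizer ((P : Subgroup G) : Set G)).subtype with hY
  set N := (pPrimeCore q ↥H).map H.subtype with hN
  have hnN : ∀ {X : Subgroup G} (Z : Subgroup X) [Z.Characteristic],
      Subgroup.normalizer (X : Set G) ≤ Subgroup.normalizer (Z.map X.subtype : Set G) := fun {X} Z _ =>
    CfsgLib.Cores.normalizer_le_normalizer_map_subtype X Z
  haveI : N.Normal := Subgroup.normalizer_eq_top_iff.1 (top_le_iff.1 (by
    refine le_trans (le_of_eq ?_) (hnN (pPrimeCore q ↥H))
    rw [Subgroup.normalizer_eq_top]))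
  have hNq : (Nat.card N).Coprime q := by
    rw [hN, Subgroup.card_map_of_injective H.subtype_injective]
    exact CfsgLib.Cores.card_pPrimeCore_coprime q
  have hNH : N ≤ H := Subgroup.map_subtype_le _
  have leN : ∀ M : Subgroup G, M ≤ H → H ≤ Subgroup.normalizer (M : Set G) → (Nat.card M).Coprime q → M ≤ N := by
    intro M hM hn hc x hx
    haveI : (M.subgroupOf H).Normal := Subgroup.normal_subgroupOf_of_le_normalizer hn
    refine ⟨⟨x, hM hx⟩, CfsgLib.Cores.le_pPrimeCore (N := M.subgroupOf H) ?_ hx, rfl⟩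
    rwa [Nat.card_congr (Subgroup.subgroupOfEquivOfLe hM).toEquiv]
  set π := QuotientGroup.mk' N with hπ
  have hπs : Function.Surjective π := QuotientGroup.mk'_surjective N
  set K := ⁅H, (P : Subgroup G)⁆ with hK
  have hPH' : (P : Subgroup G) ≤ Subgroup.normalizer (H : Set G) := by
    rw [Subgroup.normalizer_eq_top]; exact le_top
  have hKH : K ≤ H := CfsgLib.CoprimeAction.commutator_le_left hPH'
  haveI : K.Normal := Subgroup.normalizer_eq_top_iff.1 (top_le_iff.1
    (hPH ▸ CfsgLib.CoprimeAction.sup_le_normalizer_commutator (P : Subgroup G) H))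
  haveI : (K.map π).Normal := Subgroup.Normal.map inferInstance π hπs
  haveI : Group.IsSolvable (K.map π) :=
    Group.isSolvable_of_surjective (π.subgroupMap_surjective K)
  have hKbar : pPrimeCore q ↥(K.map π) = ⊥ := by
    rw [← Subgroup.map_eq_bot_iff_of_injective _ (K.map π).subtype_injective, eq_bot_iff]
    set M := (pPrimeCore q ↥(K.map π)).map (K.map π).subtype with hM
    haveI : M.Normal := Subgroup.normalizer_eq_top_iff.1 (top_le_iff.1 (by
      refine le_trans (le_of_eq ?_) (CfsgLib.Cores.normalizer_le_normalizer_map_subtype (K.map π) _)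
      rw [Subgroup.normalizer_eq_top]))
    have hMH : M.comap π ≤ H := by
      refine (Subgroup.comap_mono (Subgroup.map_subtype_le _)).trans ?_
      rw [Subgroup.comap_map_eq, hπ, QuotientGroup.ker_mk']
      exact sup_le hKH hNH
    have hMq : (Nat.card (M.comap π)).Coprime q := by
      rw [hπ, CfsgLib.Cores.card_comap_mk']
      refine hNq.mul_left ?_
      rw [hM, Subgroup.card_map_of_injective (K.map π).subtype_injective]
      exact CfsgLib.Cores.card_pPrimeCore_coprime q
    intro m hm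
    obtain ⟨g, rfl⟩ := hπs m
    have := leN _ hMH (by rw [Subgroup.normalizer_eq_top]; exact le_top) hMq (show g ∈ M.comap π from hm)
    exact (QuotientGroup.eq_one_iff g).2 this
  have hWH : W ≤ H := (Subgroup.map_subtype_le _).trans inf_le_left
  have hWz : ∀ w ∈ W, w * z = z * w := fun w hw =>
    (Subgroup.mem_centralizer_singleton_iff.1 ((Subgroup.map_subtype_le _).trans inf_le_right hw))
  have hWq : (Nat.card W).Coprime q := by
    rw [hW, Subgroup.card_map_of_injective (Subgroup.subtype_injective _)]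
    exact CfsgLib.Cores.card_pPrimeCore_coprime q
  have hzq : IsPGroup q (Subgroup.zpowers z) := by
    obtain ⟨k, hk⟩ := hz
    exact IsPGroup.of_card (n := k) (by rw [Nat.card_zpowers, hk])
  have hWK : W.map π ≤ Subgroup.centralizer (K.map π : Set (G ⧸ N)) := by
    refine le_centralizer_of_coreless (z := π z) hKbar
      (hWq.coprime_dvd_left (Subgroup.card_map_dvd W π)) ?_ ?_ ?_
    · rw [← MonoidHom.map_zpowers]; exact hzq.map π
    · rintro _ ⟨w, hw, rfl⟩
      rw [← map_mul, hWz w hw, map_mul]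
    · rintro _ ⟨w, hw, rfl⟩ r hr hrz
      have hc : r ∈ (Subgroup.centralizer (Subgroup.zpowers z : Set G)).map π := by
        rw [hπ, CfsgLib.LBalance.map_centralizer_of_coprime N hNq hzq]
        refine Subgroup.mem_centralizer_iff.2 ?_
        rintro _ ⟨_, ⟨i, rfl⟩, rfl⟩
        show π (z ^ i) * r = r * π (z ^ i)
        rw [map_zpow]
        exact ((Commute.symm hrz).zpow_left i).eq
      obtain ⟨r0, hr0, rfl⟩ := hc
      have hr0H : r0 ∈ H := by
        have : r0 ∈ (K.map π).comap π := hr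
        rw [Subgroup.comap_map_eq, hπ, QuotientGroup.ker_mk'] at this
        exact sup_le hKH hNH this
      have hr0z : r0 ∈ H ⊓ Subgroup.centralizer ({z} : Set G) := ⟨hr0H,
        Subgroup.mem_centralizer_singleton_iff.2 (Subgroup.mem_centralizer_iff.1 hr0 z (Subgroup.mem_zpowers z)).symm⟩
      have h1 : ⁅w, r0⁆ ∈ W := by
        have hn := hnN (pPrimeCore q ↥(H ⊓ Subgroup.centralizer ({z} : Set G))) (Subgroup.le_normalizer hr0z)
        rw [commutatorElement_def, mul_assoc w r0, mul_assoc w]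
        exact mul_mem hw ((Subgroup.mem_normalizer_iff.1 hn _).1 (inv_mem hw))
      rw [← map_commutatorElement]
      exact ((hWq.coprime_dvd_left (Subgroup.orderOf_dvd_natCard _ h1))).coprime_dvd_left (orderOf_map_dvd π _)
  refine sup_le ?_ ?_
  · -- the part centralising `P`
    set X := Y ⊓ (Subgroup.centralizer (K.map π : Set (G ⧸ N))).comap π with hX
    have hXle : W ⊓ Y ≤ X ⊔ N := fun x hx =>
      Subgroup.mem_sup_left ⟨hx.2, hWK ⟨x, hx.1, rfl⟩⟩
    refine hXle.trans (leN _ (sup_le (inf_le_left.trans ((Subgroup.map_subtype_le _).trans inf_le_left)) hNH) ?_ ?_)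
    · have hHd : K ⊔ (H ⊓ Subgroup.centralizer ((P : Subgroup G) : Set G)) = H := by
        obtain ⟨j, hj⟩ := IsPGroup.iff_card.1 P.2
        refine CfsgLib.CoprimeAction.commutator_sup_centralizer hPH' ?_ (Or.inl ?_)
        · rw [hj]; exact ((CfsgLib.Cores.card_pPrimeCore_coprime p).pow_right j).symm
        · haveI := P.2.isNilpotent
          infer_instance
      have hX' : X ⊔ N = (X.map π).comap π := by rw [Subgroup.comap_map_eq, hπ, QuotientGroup.ker_mk']
      rw [hX']
      refine hHd ▸ sup_le (fun k hk => ?_) (fun c hc => ?_)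
      · refine Subgroup.le_normalizer_comap π ?_
        refine Subgroup.mem_normalizer_iff.2 fun x => ?_
        have key : ∀ x ∈ X.map π, π k * x * (π k)⁻¹ = x := by
          rintro _ ⟨y, hy, rfl⟩
          rw [Subgroup.mem_centralizer_iff.1 hy.2 (π k) ⟨k, hk, rfl⟩, mul_inv_cancel_right]
        refine ⟨fun hx => (key x hx).symm ▸ hx, fun hx => ?_⟩
        have h2 : π k * x * (π k)⁻¹ = x := by
          have h3 := key _ hx
          have h4 := congrArg (fun t => (π k)⁻¹ * t * π k) h3
          simpa [mul_assoc] using h4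
        rwa [h2] at hx
      · refine Subgroup.le_normalizer_comap π (Subgroup.le_normalizer_map π ⟨c, ?_, rfl⟩)
        have h1 : c ∈ Subgroup.normalizer (Y : Set G) :=
          hnN (pPrimeCore q ↥(H ⊓ Subgroup.centralizer ((P : Subgroup G) : Set G))) (Subgroup.le_normalizer hc)
        haveI : (Subgroup.centralizer (K.map π : Set (G ⧸ N))).Normal := ⟨fun a ha b =>
          Subgroup.mem_centralizer_iff.2 fun y hy => by
            have h3 := Subgroup.mem_centralizer_iff.1 ha _ (Subgroup.Normal.conj_mem ‹(K.map π).Normal› y hy b⁻¹)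
            have h4 := congrArg (fun t => b * t * b⁻¹) h3
            simpa [mul_assoc] using h4⟩
        have h2 : π c ∈ Subgroup.normalizer (Subgroup.centralizer (K.map π : Set (G ⧸ N)) : Set (G ⧸ N)) := by
          rw [Subgroup.normalizer_eq_top]; trivial
        exact mem_normalizer_inf h1 (Subgroup.le_normalizer_comap π h2)
    · refine (hNq.mul_left ?_).coprime_dvd_left (by
        rw [mul_comm]; exact CfsgLib.Cores.card_sup_dvd X N)
      refine Nat.Coprime.coprime_dvd_left (Subgroup.card_dvd_of_le inf_le_left) ?_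
      rw [hY, Subgroup.card_map_of_injective (Subgroup.subtype_injective _)]
      exact CfsgLib.Cores.card_pPrimeCore_coprime q
  · -- the commutator part
    have hPW : (P : Subgroup G) ≤ Subgroup.normalizer (W : Set G) := fun g hg =>
      hnN (pPrimeCore q ↥(H ⊓ Subgroup.centralizer ({z} : Set G)))
        (mem_normalizer_inf (hPH' hg) (Subgroup.le_normalizer
          (Subgroup.mem_centralizer_singleton_iff.2 (Subgroup.mem_centralizer_iff.1 hzP g hg))))
    have h1 : ⁅W, (P : Subgroup G)⁆ ≤ W ⊓ K :=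
      le_inf (CfsgLib.CoprimeAction.commutator_le_left hPW) (Subgroup.commutator_mono hWH le_rfl)
    refine h1.trans fun x hx => (QuotientGroup.eq_one_iff x).1 ?_
    set Z := (W.map π).subgroupOf (K.map π) with hZ
    haveI : Z.Normal := ⟨fun a ha b => by
      have hc := Subgroup.mem_centralizer_iff.1 (hWK ha) b b.2
      have e : b * a * b⁻¹ = a := Subtype.ext (by
        show (b : G ⧸ N) * a * (b : G ⧸ N)⁻¹ = a
        have hc' : (b : G ⧸ N) * a = (a : G ⧸ N) * b := hc
        rw [hc', mul_inv_cancel_right])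
      rw [e]; exact ha⟩
    have hZq : (Nat.card Z).Coprime q :=
      (hWq.coprime_dvd_left (Subgroup.card_map_dvd W π)).coprime_dvd_left
        (Subgroup.card_comap_dvd_of_injective _ _ (K.map π).subtype_injective)
    have hle := CfsgLib.Cores.le_pPrimeCore (N := Z) hZq
    rw [hKbar] at hle
    have h2 : (⟨π x, ⟨x, hx.2, rfl⟩⟩ : ↥(K.map π)) ∈ (⊥ : Subgroup ↥(K.map π)) := hle ⟨x, hx.1, rfl⟩
    exact congrArg Subtype.val (Subgroup.mem_bot.1 h2)

end Cfsg.Agent.S3819
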