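import Cfsg.Statements.S3820
import Mathlib


set_option autoImplicit false
open Cfsg

namespace Cfsg.Agent.S3820



/-- Call a subgroup H of G pronormal if H and gHg⁻¹ are conjugate inside ⟨H, gHg⁻¹⟩ for every g ∈ G. Let S ≤ H ≤ G be subgroups of a finite group with S pronormal in G (for instance S a Sylow subgroup). Then H is pronormal in G if and only if H and gHg⁻¹ are conjugate inside ⟨H, gHg⁻¹⟩ for every g ∈ N_G(S). In particular H is pronormal whenever N_G(S) ≤ H. -/
theorem result {G : Type*} [Group G] [Finite G] (S H : Subgroup G) (hSH : S ≤ H)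
    (hS : Cfsg.IsPronormal S) :
    Cfsg.IsPronormal H ↔
      ∀ g ∈ Subgroup.normalizer (S : Set G), ∃ w ∈ H ⊔ H.map (MulAut.conj g).toMonoidHom,
        H.map (MulAut.conj g).toMonoidHom = H.map (MulAut.conj w).toMonoidHom := by
  refine ⟨fun h g _ => h g, fun h g => ?_⟩
  obtain ⟨x, hx, hxg⟩ := hS g
  set J := H ⊔ H.map (MulAut.conj g).toMonoidHom with hJ
  have hxJ : x ∈ J := (sup_le_sup hSH (Subgroup.map_mono hSH)) hx
  have hxn : x⁻¹ * g ∈ Subgroup.normalizer (S : Set G) := by
    have e : S.map (MulAut.conj (x⁻¹ * g)).toMonoidHom = S := by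
      have e1 : (MulAut.conj (x⁻¹ * g)).toMonoidHom
          = (MulAut.conj x⁻¹).toMonoidHom.comp (MulAut.conj g).toMonoidHom := by
        ext y; simp [mul_assoc]
      have e2 : (MulAut.conj x⁻¹).toMonoidHom.comp (MulAut.conj x).toMonoidHom = MonoidHom.id G := by
        ext y; simp [mul_assoc]
      rw [e1, ← Subgroup.map_map, hxg, Subgroup.map_map, e2, Subgroup.map_id]
    rw [Subgroup.mem_normalizer_iff]
    intro y
    constructor
    · intro hy
      rw [← e]
      exact ⟨y, hy, by simp [mul_assoc]⟩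
    · intro hy
      rw [← e] at hy
      obtain ⟨z, hz, hz'⟩ := hy
      have hzy : z = y := (MulAut.conj (x⁻¹ * g)).injective hz'
      exact hzy ▸ hz
  obtain ⟨w, hw, hwe⟩ := h _ hxn
  have hle : H.map (MulAut.conj (x⁻¹ * g)).toMonoidHom ≤ J := by
    rintro _ ⟨y, hy, rfl⟩
    have h1 : g * y * g⁻¹ ∈ J := Subgroup.mem_sup_right ⟨y, hy, rfl⟩
    have := J.mul_mem (J.mul_mem (J.inv_mem hxJ) h1) hxJ
    simpa [mul_assoc] using this
  have hwJ : w ∈ J := (sup_le (le_sup_left : H ≤ J) hle) hw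
  refine ⟨x * w, J.mul_mem hxJ hwJ, ?_⟩
  have e1 : ∀ a : G, (MulAut.conj (x * a)).toMonoidHom
      = (MulAut.conj x).toMonoidHom.comp (MulAut.conj a).toMonoidHom := by
    intro a; ext y; simp [mul_assoc]
  rw [show g = x * (x⁻¹ * g) by group, e1, e1, ← Subgroup.map_map, hwe, Subgroup.map_map]

end Cfsg.Agent.S3820
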