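import Cfsg.Statements.S3821
import Mathlib


set_option autoImplicit false
open Cfsg

namespace Cfsg.Agent.S3821



/-- Let A be a normal subgroup of the finite group G and H a subgroup of A. Then H is pronormal in G (H and gHg⁻¹ conjugate inside ⟨H, gHg⁻¹⟩ for every g ∈ G) if and only if H is pronormal in A and G = A · N_G(H). -/
theorem result {G : Type*} [Group G] [Finite G] (A H : Subgroup G) [A.Normal] (hHA : H ≤ A) :
    Cfsg.IsPronormal H ↔ (Cfsg.IsPronormal (H.subgroupOf A) ∧ A ⊔ Subgroup.normalizer (H : Set G) = ⊤) := by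
  constructor
  · intro h
    refine ⟨?_, ?_⟩
    · intro g
      obtain ⟨x, hx, hxe⟩ := h (g : G)
      have hinj : Function.Injective (Subgroup.map A.subtype) :=
        Subgroup.map_injective A.subtype_injective
      have hc : ∀ a : A, ((H.subgroupOf A).map (MulAut.conj a).toMonoidHom).map A.subtype
          = H.map (MulAut.conj (a : G)).toMonoidHom := by
        intro a
        rw [Subgroup.map_map]
        ext y
        constructor
        · rintro ⟨z, hz, rfl⟩; exact ⟨z, hz, by simp⟩
        · rintro ⟨z, hz, rfl⟩; exact ⟨⟨z, hHA hz⟩, hz, by simp⟩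
      have hJ : (H.subgroupOf A ⊔ (H.subgroupOf A).map (MulAut.conj g).toMonoidHom).map A.subtype
          = H ⊔ H.map (MulAut.conj (g : G)).toMonoidHom := by
        rw [Subgroup.map_sup, hc, Subgroup.map_subgroupOf_eq_of_le hHA]
      rw [← hJ] at hx
      obtain ⟨x', hx', rfl⟩ := hx
      refine ⟨x', hx', hinj ?_⟩
      rw [hc, hc]; exact hxe
    · rw [eq_top_iff]
      intro g _
      obtain ⟨x, hx, hxe⟩ := h g
      have hxA : x ∈ A := by
        refine (sup_le hHA ?_) hx
        rintro _ ⟨y, hy, rfl⟩
        exact Subgroup.Normal.conj_mem inferInstance _ (hHA hy) g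
      have hn : x⁻¹ * g ∈ Subgroup.normalizer (H : Set G) := by
        rw [Subgroup.mem_normalizer_iff]
        intro y
        constructor
        · intro hy
          have : g * y * g⁻¹ ∈ H.map (MulAut.conj x).toMonoidHom := hxe ▸ ⟨y, hy, rfl⟩
          obtain ⟨z, hz, hz'⟩ := this
          simp at hz'
          have : x⁻¹ * g * y * (x⁻¹ * g)⁻¹ = z := by
            rw [show x⁻¹ * g * y * (x⁻¹ * g)⁻¹ = x⁻¹ * (g * y * g⁻¹) * x by group, ← hz']
            group
          rwa [this]
        · intro hy
          have : x * (x⁻¹ * g * y * (x⁻¹ * g)⁻¹) * x⁻¹ ∈ H.map (MulAut.conj g).toMonoidHom :=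
            hxe.symm ▸ ⟨_, hy, rfl⟩
          obtain ⟨z, hz, hz'⟩ := this
          simp at hz'
          have : y = z := by
            have e : g * z * g⁻¹ = g * y * g⁻¹ := by simpa [mul_assoc] using hz'
            exact (mul_left_cancel (mul_right_cancel e)).symm
          rwa [this]
      have := Subgroup.mul_mem_sup hxA hn
      simpa using this
  · rintro ⟨h, hF⟩ g
    have hg : g ∈ A ⊔ Subgroup.normalizer (H : Set G) := hF ▸ Subgroup.mem_top g
    rw [Subgroup.mem_sup_of_normal_left] at hg
    obtain ⟨a, ha, n, hn, rfl⟩ := hg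
    have e : H.map (MulAut.conj (a * n)).toMonoidHom = H.map (MulAut.conj a).toMonoidHom := by
      have : (MulAut.conj (a * n)).toMonoidHom
          = (MulAut.conj a).toMonoidHom.comp (MulAut.conj n).toMonoidHom := by
        ext y; simp [mul_assoc]
      rw [this, ← Subgroup.map_map]
      congr 1
      ext y
      constructor
      · rintro ⟨z, hz, rfl⟩; exact (Subgroup.mem_normalizer_iff.1 hn z).1 hz
      · intro hy
        refine ⟨n⁻¹ * y * n, (Subgroup.mem_normalizer_iff.1 hn _).2 ?_, ?_⟩
        · simpa [mul_assoc] using hy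
        · simp [mul_assoc]
    obtain ⟨x, hx, hxe⟩ := h ⟨a, ha⟩
    have hc : ∀ b : A, ((H.subgroupOf A).map (MulAut.conj b).toMonoidHom).map A.subtype
        = H.map (MulAut.conj (b : G)).toMonoidHom := by
      intro b
      rw [Subgroup.map_map]
      ext y
      constructor
      · rintro ⟨z, hz, rfl⟩; exact ⟨z, hz, by simp⟩
      · rintro ⟨z, hz, rfl⟩; exact ⟨⟨z, hHA hz⟩, hz, by simp⟩
    refine ⟨x, ?_, ?_⟩
    · have := Subgroup.mem_map_of_mem A.subtype hx
      rw [Subgroup.map_sup, hc, Subgroup.map_subgroupOf_eq_of_le hHA] at this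
      rw [e]; exact this
    · rw [e]
      have := congrArg (Subgroup.map A.subtype) hxe
      rwa [hc, hc] at this

end Cfsg.Agent.S3821
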