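import Mathlib
import Cfsg.Statements.S3822
import Cfsg.Agent.Lib.MetacyclicP.MaxPairCore
import Cfsg.Agent.Lib.Cores.Fitting

set_option autoImplicit false
set_option linter.style.haveILetI false
open Cfsg

namespace Cfsg.Agent.S3822

/-- Let G be a finite group and P a subgroup of prime order p > 3. Consider the solvable subgroups A of G of the form A = ⟨P, aPa⁻¹⟩ for some a ∈ A, and let A be maximal under inclusion among them. Then for every nilpotent subgroup V of G normalized by A, the subgroup F(A)V generated by the Fitting subgroup of A and V is nilpotent. -/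
theorem result {G : Type*} [Group G] [Finite G]
    {p : ℕ} [Fact p.Prime] (hp : 3 < p) (P : Subgroup G) (hP : Nat.card P = p) (A : Subgroup G)
    (hA : Group.IsSolvable ↥A ∧ ∃ a ∈ A, A = P ⊔ P.map (MulAut.conj a).toMonoidHom)
    (hmax : ∀ B : Subgroup G, A ≤ B → Group.IsSolvable ↥B → (∃ b ∈ B, B = P ⊔ P.map (MulAut.conj b).toMonoidHom) → B = A)
    (V : Subgroup G) (hV : Group.IsNilpotent ↥V) (hAV : A ≤ Subgroup.normalizer (V : Set G)) :
    Group.IsNilpotent ↥((Cfsg.fittingSubgroup ↥A).map A.subtype ⊔ V) := by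
  classical
  obtain ⟨hAs, a, haA, hAdef⟩ := hA
  -- a generator of `P`
  obtain ⟨x₀, hx₀⟩ := exists_prime_orderOf_dvd_card' (G := P) p hP.symm.dvd
  set x : G := (x₀ : G) with hxdef
  have hordx : orderOf x = p := by rw [hxdef, Subgroup.orderOf_coe, hx₀]
  have hxp : x ^ p = 1 := by rw [← hordx, pow_orderOf_eq_one]
  have hxP : P = Subgroup.zpowers x := by
    refine (Subgroup.eq_of_le_of_card_ge (Subgroup.zpowers_le.2 x₀.2) ?_).symm
    rw [Nat.card_zpowers, hordx, hP]
  have hmap : ∀ b : G, P ⊔ P.map (MulAut.conj b).toMonoidHom =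
      Subgroup.zpowers x ⊔ Subgroup.zpowers (b * x * b⁻¹) := fun b => by
    rw [hxP, MonoidHom.map_zpowers]; rfl
  have key := fun (q r : ℕ) (_ : Fact q.Prime) (_ : Fact r.Prime) (hqr : q ≠ r) (F : Subgroup G)
      (hFA : F ≤ A) (hF : IsPGroup q F) (hFn : A ≤ Subgroup.normalizer (F : Set G)) (W : Subgroup G) =>
    CfsgLib.MetacyclicP.centralises_of_max_pair (Fact.out : p.Prime) hp hxp (hAdef.trans (hmap a)) haA hAs
      (fun b h1 h2 h3 => hmax _ h1 h2 ⟨b, h3, (hmap b).symm⟩) hqr hFA hF hFn _ W le_rfl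
  -- the primary parts
  let FQ : ℕ → Subgroup G := fun q => (Cfsg.pCore q A).map A.subtype
  let VQ : ℕ → Subgroup G := fun q => (Cfsg.pCore q V).map V.subtype
  let T : ℕ → Subgroup G := fun q => FQ q ⊔ VQ q
  set K := (Cfsg.fittingSubgroup ↥A).map A.subtype ⊔ V with hK
  have hVAn : A ⊔ V ≤ Subgroup.normalizer (V : Set G) := sup_le hAV Subgroup.le_normalizer
  have hcharmap : ∀ (W : Subgroup G) (H : Subgroup W) [H.Characteristic] (g : G),
      g ∈ Subgroup.normalizer (W : Set G) → ∀ z ∈ H.map W.subtype, g * z * g⁻¹ ∈ H.map W.subtype := by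
    rintro W H _ g hg _ ⟨z, hz, rfl⟩
    have h1 := (Subgroup.characteristic_iff_comap_eq.mp (inferInstance : H.Characteristic))
      (W.normalizerMonoidHom ⟨g, hg⟩)
    exact ⟨W.normalizerMonoidHom ⟨g, hg⟩ z, h1.symm.le hz, rfl⟩
  have hFQn : ∀ q, A ≤ Subgroup.normalizer (FQ q : Set G) := fun q g hg =>
    CfsgLib.CoprimeAction.mem_normalizer_of_conj_mem fun z hz =>
      hcharmap A _ g (Subgroup.le_normalizer hg) z hz
  have hVQn : ∀ q, A ⊔ V ≤ Subgroup.normalizer (VQ q : Set G) := fun q g hg =>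
    CfsgLib.CoprimeAction.mem_normalizer_of_conj_mem fun z hz => hcharmap V _ g (hVAn hg) z hz
  have hFQp : ∀ q, IsPGroup q (FQ q) := fun q => (CfsgLib.Cores.isPGroup_pCore q A).map _
  have hVQp : ∀ q, IsPGroup q (VQ q) := fun q => (CfsgLib.Cores.isPGroup_pCore q V).map _
  have hFQA : ∀ q, FQ q ≤ A := fun q => Subgroup.map_subtype_le _
  have hVQV : ∀ q, VQ q ≤ V := fun q => Subgroup.map_subtype_le _
  have hcomm : ∀ q r, q.Prime → r.Prime → q ≠ r → ∀ f ∈ T q, ∀ v ∈ T r, Commute f v := by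
    intro q r hq hr hqr f hf v hv
    haveI := Fact.mk hq
    haveI := Fact.mk hr
    have hFV : ∀ (q r : ℕ) [Fact q.Prime] [Fact r.Prime], q ≠ r →
        FQ q ≤ Subgroup.centralizer (VQ r : Set G) := fun q r hq hr hqr =>
      key q r hq hr hqr _ (hFQA q) (hFQp q) (hFQn q) _ (hVQp r) (le_sup_left.trans (hVQn r))
    have hc : ∀ (W : Subgroup G) (q r : ℕ) [Fact q.Prime] [Fact r.Prime], q ≠ r →
        ((Cfsg.pCore q W).map W.subtype) ≤
          Subgroup.centralizer (((Cfsg.pCore r W).map W.subtype : Subgroup G) : Set G) := by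
      rintro W q r _ _ hqr _ ⟨a, ha, rfl⟩
      rw [Subgroup.mem_centralizer_iff]
      rintro _ ⟨b, hb, rfl⟩
      exact congrArg Subtype.val (CfsgLib.Cores.commute_pCore_of_ne hqr ha hb).symm.eq
    have hTC : T q ≤ Subgroup.centralizer (T r : Set G) := by
      show FQ q ⊔ VQ q ≤ _
      rw [Subgroup.le_centralizer_iff]
      show FQ r ⊔ VQ r ≤ _
      refine sup_le ?_ ?_ <;> rw [Subgroup.le_centralizer_iff] <;> refine sup_le ?_ ?_
      · exact hc A q r hqr
      · exact Subgroup.le_centralizer_iff.1 (hFV r q hqr.symm)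
      · exact hFV q r hqr
      · exact hc V q r hqr
    exact (Subgroup.mem_centralizer_iff.1 (hTC hf) v hv).symm
  have hTK : ∀ q, q.Prime → T q ≤ K := fun q hq =>
    haveI := Fact.mk hq
    sup_le ((Subgroup.map_mono (CfsgLib.Cores.pCore_le_fittingSubgroup q)).trans le_sup_left)
      ((hVQV q).trans le_sup_right)
  have hVfit : Cfsg.fittingSubgroup V = ⊤ := CfsgLib.Cores.fittingSubgroup_eq_top_iff.2 hV
  have hgen : K ≤ ⨆ q : {q : ℕ // q.Prime}, T q := by
    rw [hK, CfsgLib.Cores.fittingSubgroup_eq_iSup_pCore, Subgroup.map_iSup]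
    refine sup_le (iSup_le fun q => ?_) ?_
    · exact le_trans le_sup_left
        (le_iSup (fun q : {q : ℕ // q.Prime} => T q) ⟨(q : ℕ), Nat.prime_of_mem_primeFactors q.2⟩)
    · have h1 : V = (Cfsg.fittingSubgroup V).map V.subtype := by
        rw [hVfit, ← MonoidHom.range_eq_map, Subgroup.range_subtype]
      rw [CfsgLib.Cores.fittingSubgroup_eq_iSup_pCore, Subgroup.map_iSup] at h1
      refine h1.le.trans (iSup_le fun q => ?_)
      exact le_trans le_sup_right
        (le_iSup (fun q : {q : ℕ // q.Prime} => T q) ⟨(q : ℕ), Nat.prime_of_mem_primeFactors q.2⟩)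
  have hTn : ∀ q, q.Prime → K ≤ Subgroup.normalizer (T q : Set G) := by
    intro q hq
    refine hgen.trans (iSup_le fun r => ?_)
    by_cases h : (r : ℕ) = q
    · rw [h]; exact Subgroup.le_normalizer
    · intro f hf
      refine Subgroup.centralizer_le_normalizer _ (Subgroup.mem_centralizer_iff.2 fun v hv => ?_)
      exact (hcomm r q r.2 hq h f hf v hv).eq.symm
  rw [← CfsgLib.Cores.fittingSubgroup_eq_top_iff, eq_top_iff]
  rintro ⟨g, hg⟩ -
  have hle : (⨆ q : {q : ℕ // q.Prime}, T q) ≤ (Cfsg.fittingSubgroup K).map K.subtype := by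
    refine iSup_le fun q => ?_
    haveI := Fact.mk q.2
    haveI : ((T q).subgroupOf K).Normal := Subgroup.normal_subgroupOf_of_le_normalizer (hTn q q.2)
    have hTp : IsPGroup (q : ℕ) (T q) :=
      (hFQp q).to_sup_of_normal_right' (hVQp q) ((hFQA q).trans (le_sup_left.trans (hVQn q)))
    have h1 : (T q).subgroupOf K ≤ Cfsg.fittingSubgroup K :=
      CfsgLib.Cores.le_fittingSubgroup
        ((hTp.of_equiv (Subgroup.subgroupOfEquivOfLe (hTK q q.2)).symm).isNilpotent)
    intro f hf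
    exact ⟨⟨f, hTK q q.2 hf⟩, h1 hf, rfl⟩
  obtain ⟨z, hz, hzg⟩ := hle (hgen hg)
  rwa [show (⟨g, hg⟩ : K) = z from Subtype.ext hzg.symm]

end Cfsg.Agent.S3822
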