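import Cfsg.Statements.S3825
import Mathlib

set_option autoImplicit false
open Cfsg
open scoped commutatorElement

namespace Cfsg.Agent.S3825

/-- Let U be a subgroup of a finite group H and w an involution of H normalizing U and commuting with exactly two elements of U, the identity and y. If V is a non-cyclic elementary abelian 2-subgroup of U containing y which is normal in U and invariant under w, then V is a Sylow 2-subgroup of U, V has order 4, and U/V is abelian. -/
theorem result {H : Type*} [Group H] [Finite H] (U : Subgroup H) (w : H) (hw : orderOf w = 2)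
    (hwU : w ∈ Subgroup.normalizer (U : Set H)) (y : H) (hy : y ≠ 1) (hyU : y ∈ U)
    (hfix : ∀ u ∈ U, w * u * w⁻¹ = u ↔ (u = 1 ∨ u = y))
    (V : Subgroup H) (hVU : V ≤ U) (hVn : (V.subgroupOf U).Normal) (hVw : ∀ v ∈ V, w * v * w⁻¹ ∈ V)
    (hVe : Cfsg.IsElementaryAbelian 2 V) (hVc : ¬ IsCyclic ↥V) (hyV : y ∈ V) :
    ¬ 2 ∣ V.relIndex U ∧ Nat.card ↥V = 4 ∧ ⁅U, U⁆ ≤ V := by
  obtain ⟨⟨hVc'⟩, hV2⟩ := hVe
  have hcm : ∀ a b : H, a ∈ V → b ∈ V → a * b = b * a := fun a b ha hb =>
    congrArg Subtype.val (hVc'.comm (⟨a, ha⟩ : V) ⟨b, hb⟩)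
  have hw2 : w * w = 1 := by rw [← sq, ← hw, pow_orderOf_eq_one]
  have hwi : w⁻¹ = w := inv_eq_of_mul_eq_one_right hw2
  have hinvo : ∀ u : H, w * (w * u * w⁻¹) * w⁻¹ = u := fun u => by
    rw [hwi]
    calc w * (w * u * w) * w = (w * w) * u * (w * w) := by group
      _ = u := by rw [hw2]; group
  have hfV : ∀ v ∈ V, w * v * w⁻¹ = v → v = 1 ∨ v = y := fun v hv h => (hfix v (hVU hv)).1 h
  have hy2 : y * y = 1 := by rw [← sq]; exact hV2 y hyV
  have hwy : w * y * w⁻¹ = y := (hfix y hyU).2 (Or.inr rfl)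
  obtain ⟨v0, hv0, hv01, hv0y⟩ : ∃ v0 ∈ V, v0 ≠ 1 ∧ v0 ≠ y := by
    by_contra h
    push Not at h
    apply hVc
    rw [Subgroup.isCyclic_iff_exists_zpowers_eq_top]
    refine ⟨y, le_antisymm (Subgroup.zpowers_le.2 hyV) fun v hv => ?_⟩
    by_cases hv1 : v = 1
    · rw [hv1]; exact Subgroup.one_mem _
    · rw [h v hv hv1]; exact Subgroup.mem_zpowers y
  -- the commutator of an element of `V` with `w` is a fixed point
  have hcom : ∀ v ∈ V, w * v * w⁻¹ = v ∨ w * v * w⁻¹ = v * y := by
    intro v hv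
    have hv2 : v * v = 1 := by rw [← sq]; exact hV2 v hv
    have hcv := hVw v hv
    rcases hfV (v * (w * v * w⁻¹)) (V.mul_mem hv hcv) (by
      rw [show w * (v * (w * v * w⁻¹)) * w⁻¹ = (w * v * w⁻¹) * (w * (w * v * w⁻¹) * w⁻¹) by group,
        hinvo]
      exact hcm _ _ hcv hv) with h | h
    · left
      calc w * v * w⁻¹ = v * v * (w * v * w⁻¹) := by rw [hv2, one_mul]
        _ = v := by rw [mul_assoc, h, mul_one]
    · right
      calc w * v * w⁻¹ = v * v * (w * v * w⁻¹) := by rw [hv2, one_mul]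
        _ = v * y := by rw [mul_assoc, h]
  have hwv0 : w * v0 * w⁻¹ = v0 * y := (hcom v0 hv0).resolve_left fun h => by
    rcases hfV v0 hv0 h with h | h
    · exact hv01 h
    · exact hv0y h
  have hv02 : v0 * v0 = 1 := by rw [← sq]; exact hV2 v0 hv0
  have hshift : ∀ u : H, w * u * w⁻¹ = u * y → w * (u * v0) * w⁻¹ = u * v0 := by
    intro u h
    rw [show w * (u * v0) * w⁻¹ = (w * u * w⁻¹) * (w * v0 * w⁻¹) by group, h, hwv0,
      hcm v0 y hv0 hyV, mul_assoc u y, ← mul_assoc y y, hy2, one_mul]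
  have hVset : (V : Set H) = {1, y, v0, y * v0} := by
    ext v
    simp only [SetLike.mem_coe, Set.mem_insert_iff, Set.mem_singleton_iff]
    constructor
    · intro hv
      rcases hcom v hv with h | h
      · rcases hfV v hv h with h | h <;> simp [h]
      · have e : v = v * v0 * v0 := by rw [mul_assoc, hv02, mul_one]
        rcases hfV (v * v0) (V.mul_mem hv hv0) (hshift v h) with h' | h'
        · right; right; left; rw [e, h', one_mul]
        · right; right; right; rw [e, h']
    · rintro (rfl | rfl | rfl | rfl)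
      · exact V.one_mem
      · exact hyV
      · exact hv0
      · exact V.mul_mem hyV hv0
  have hcard : Nat.card V = 4 := by
    show Nat.card ((V : Set H) : Set H) = 4
    rw [Nat.card_coe_set_eq, hVset]
    have h1 : (1 : H) ∉ ({y, v0, y * v0} : Set H) := by
      simp only [Set.mem_insert_iff, Set.mem_singleton_iff, not_or]
      refine ⟨hy.symm, hv01.symm, fun h => hv0y ?_⟩
      rw [← mul_one y, h, ← mul_assoc, hy2, one_mul]
    have h2 : y ∉ ({v0, y * v0} : Set H) := by
      simp only [Set.mem_insert_iff, Set.mem_singleton_iff, not_or]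
      exact ⟨hv0y.symm, fun h => hv01 (mul_eq_left.1 h.symm)⟩
    have h3 : v0 ∉ ({y * v0} : Set H) := by
      simp only [Set.mem_singleton_iff]
      exact fun h => hy (mul_eq_right.1 h.symm)
    rw [Set.ncard_insert_of_notMem h1, Set.ncard_insert_of_notMem h2,
      Set.ncard_insert_of_notMem h3, Set.ncard_singleton]
  -- the action on the quotient
  set W := V.subgroupOf U with hW
  haveI := hVn
  have hwm : ∀ u ∈ U, w * u * w⁻¹ ∈ U := fun u hu => (Subgroup.mem_normalizer_iff.1 hwU u).1 hu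
  let φ : U →* U :=
    { toFun := fun u => ⟨w * (u : H) * w⁻¹, hwm _ u.2⟩
      map_one' := Subtype.ext (by simp)
      map_mul' := fun a b => Subtype.ext (by simp only [Subgroup.coe_mul]; group) }
  have hφW : W ≤ W.comap φ := fun u hu => hVw _ hu
  let ψ : U ⧸ W →* U ⧸ W := QuotientGroup.map W W φ hφW
  have hψ : ∀ u : U, ψ (QuotientGroup.mk u) = QuotientGroup.mk (φ u) := fun _ => rfl
  have hfpf : MonoidHom.FixedPointFree ψ := by
    intro g hg
    obtain ⟨u, rfl⟩ := QuotientGroup.mk_surjective g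
    rw [hψ, QuotientGroup.eq] at hg
    rw [QuotientGroup.eq_one_iff]
    show (u : H) ∈ V
    have hm : (w * (u : H) * w⁻¹)⁻¹ * (u : H) ∈ V := hg
    have hm' : (u : H)⁻¹ * (w * (u : H) * w⁻¹) ∈ V := by
      have := V.inv_mem hm
      rwa [mul_inv_rev, inv_inv] at this
    set v := (u : H)⁻¹ * (w * (u : H) * w⁻¹) with hv
    have he : w * (u : H) * w⁻¹ = (u : H) * v := by rw [hv, mul_inv_cancel_left]
    have hvw : w * v * w⁻¹ = v := by
      have h1 : w * v * w⁻¹ = v⁻¹ := by
        rw [hv, show w * ((u : H)⁻¹ * (w * (u : H) * w⁻¹)) * w⁻¹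
          = (w * (u : H) * w⁻¹)⁻¹ * (w * (w * (u : H) * w⁻¹) * w⁻¹) by group, hinvo,
          mul_inv_rev ((u : H)⁻¹), inv_inv]
      rw [h1]
      exact inv_eq_of_mul_eq_one_right (by rw [← sq]; exact hV2 v hm')
    rcases hfV v hm' hvw with h | h
    · rw [h, mul_one] at he
      rcases (hfix _ u.2).1 he with h' | h' <;> rw [h']
      · exact V.one_mem
      · exact hyV
    · rw [h] at he
      have hu0 : (u : H) * v0 ∈ V := by
        rcases (hfix _ (U.mul_mem u.2 (hVU hv0))).1 (hshift _ he) with h' | h' <;> rw [h']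
        · exact V.one_mem
        · exact hyV
      exact (V.mul_mem_cancel_right hv0).1 hu0
  have hinv : Function.Involutive ψ := by
    intro g
    obtain ⟨u, rfl⟩ := QuotientGroup.mk_surjective g
    rw [hψ, hψ]
    exact congrArg _ (Subtype.ext (hinvo u))
  refine ⟨?_, hcard, ?_⟩
  · show ¬ 2 ∣ Nat.card (U ⧸ W)
    exact fun h => (Nat.not_even_iff_odd.2 (hfpf.odd_card_of_involutive hinv)) (even_iff_two_dvd.2 h)
  · rw [Subgroup.commutator_le]
    intro a ha b hb
    have h := hfpf.commute_all_of_involutive hinv (QuotientGroup.mk (⟨a, ha⟩ : U)) (QuotientGroup.mk ⟨b, hb⟩)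
    have h' : ((⁅(⟨a, ha⟩ : U), ⟨b, hb⟩⁆ : U) : U ⧸ W) = 1 := by
      rw [commutatorElement_def, QuotientGroup.mk_mul, QuotientGroup.mk_mul, QuotientGroup.mk_mul,
        QuotientGroup.mk_inv, QuotientGroup.mk_inv, h.eq]
      group
    rw [QuotientGroup.eq_one_iff] at h'
    exact h'

end Cfsg.Agent.S3825
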