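import Cfsg.Statements.S3835
import Mathlib
import Cfsg.Agent.S2231
import Cfsg.Agent.Lib.Amalgams.Qd

set_option autoImplicit false
open Cfsg

namespace Cfsg.Agent.S3835

open Matrix
open scoped MatrixGroups commutatorElement

variable {p : ℕ} [Fact p.Prime]

/-- `p`-subgroups of a symmetric group of degree below `p²` are abelian. -/
theorem commute_of_isPGroup_perm {α : Type*} [Finite α] (hn : Nat.card α < p ^ 2)
    (P : Subgroup (Equiv.Perm α)) (hP : IsPGroup p P) (x y : P) : x * y = y * x := by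
  have key : ∀ a : α, ⁅x, y⁆ ∈ MulAction.stabilizer P a := by
    intro a
    obtain ⟨k, hk⟩ := hP.index (MulAction.stabilizer P a)
    have hle : (MulAction.stabilizer P a).index ≤ Nat.card α := by
      rw [MulAction.index_stabilizer]
      exact Set.ncard_le_card _
    have hk2 : k < 2 := (Nat.pow_lt_pow_iff_right (Fact.out : p.Prime).one_lt).1
      (hk ▸ lt_of_le_of_lt hle hn)
    have hk01 : k = 0 ∨ k = 1 := by omega
    rcases hk01 with rfl | rfl
    · rw [pow_zero, Subgroup.index_eq_one] at hk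
      rw [hk]; exact Subgroup.mem_top _
    · rw [pow_one] at hk
      haveI : (MulAction.stabilizer P a).Normal := by
        refine Subgroup.normal_of_index_eq_minFac_card ?_
        obtain ⟨m, hm⟩ := IsPGroup.iff_card.1 hP
        rcases Nat.eq_zero_or_pos m with rfl | hm0
        · exfalso
          have h1 := (MulAction.stabilizer P a).index_dvd_card
          rw [hk, hm, pow_zero] at h1
          exact (Fact.out : p.Prime).not_dvd_one h1
        · rw [hk, hm, Nat.Prime.pow_minFac Fact.out hm0.ne']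
      haveI : IsCyclic (P ⧸ MulAction.stabilizer P a) :=
        isCyclic_of_prime_card (p := p) (by rw [← Subgroup.index_eq_card, hk])
      letI := IsCyclic.commGroup (α := P ⧸ MulAction.stabilizer P a)
      rw [← QuotientGroup.eq_one_iff, ← QuotientGroup.mk'_apply, map_commutatorElement]
      exact commutatorElement_eq_one_iff_mul_comm.2 (mul_comm _ _)
  rw [← commutatorElement_eq_one_iff_mul_comm]
  exact Subtype.ext (Equiv.ext fun a => key a)

/-- `Qd(p)` is not involved in a finite group with abelian `p`-subgroups. -/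
theorem not_involves_qd {G : Type*} [Group G] [Finite G] (hp : p ≠ 2)
    (hab : ∀ P : Subgroup G, IsPGroup p P → ∀ x y : P, x * y = y * x) :
    ¬ Cfsg.Involves ↥(Cfsg.qd p) G := by
  intro h
  obtain ⟨H, R, hR, ⟨e⟩⟩ := h
  have hp' : p.Prime := Fact.out
  let U : Subgroup SL(3, ZMod p) :=
    { S2231.uniTri p with
      inv_mem' := fun {M} hM => by
        have h1 : M⁻¹ = M ^ (p - 1) := by
          apply inv_eq_of_mul_eq_one_right
          rw [← pow_succ', Nat.sub_add_cancel hp'.one_le, S2231.uniTri_pow hp hM]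
        show M⁻¹ ∈ S2231.uniTri p
        rw [h1]; exact pow_mem hM _ }
  have hUq : U ≤ Cfsg.qd p := fun M hM => Subgroup.subset_closure ⟨hM.2.1, hM.2.2.1, hM.2.2.2.2.2⟩
  have hUp : IsPGroup p (U.subgroupOf (Cfsg.qd p)) := fun g =>
    ⟨1, Subtype.ext (Subtype.ext (by rw [pow_one]; exact S2231.uniTri_pow hp g.2))⟩
  let φ : H →* Cfsg.qd p := e.toMonoidHom.comp (QuotientGroup.mk' (R.subgroupOf H))
  have hφ : Function.Surjective φ := e.surjective.comp (QuotientGroup.mk'_surjective _)
  obtain ⟨S, hS⟩ := hUp.exists_le_sylow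
  obtain ⟨Q0, hc⟩ := Sylow.mapSurjective_surjective hφ p S
  have hcomm : ∀ x ∈ U.subgroupOf (Cfsg.qd p), ∀ y ∈ U.subgroupOf (Cfsg.qd p), x * y = y * x := by
    intro x hx y hy
    have hx' := hS hx
    have hy' := hS hy
    rw [← hc] at hx' hy'
    obtain ⟨a, ha, rfl⟩ := hx'
    obtain ⟨b, hb, rfl⟩ := hy'
    rw [← map_mul, ← map_mul]
    refine congrArg φ (Subtype.ext ?_)
    simpa using congrArg Subtype.val
      (hab _ (Q0.isPGroup'.map H.subtype) ⟨_, a, ha, rfl⟩ ⟨_, b, hb, rfl⟩)
  let A : SL(3, ZMod p) := ⟨!![1, 1, 0; 0, 1, 0; 0, 0, 1], by simp [Matrix.det_fin_three]⟩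
  let B : SL(3, ZMod p) := ⟨!![1, 0, 0; 0, 1, 1; 0, 0, 1], by simp [Matrix.det_fin_three]⟩
  have hA : A ∈ U := ⟨by simp [A], by simp [A], by simp [A], by simp [A], by simp [A], by simp [A]⟩
  have hB : B ∈ U := ⟨by simp [B], by simp [B], by simp [B], by simp [B], by simp [B], by simp [B]⟩
  have := hcomm ⟨A, hUq hA⟩ hA ⟨B, hUq hB⟩ hB
  have h02 := congrArg (fun g : Cfsg.qd p => g.1.1 0 2) this
  simp only [Subgroup.coe_mul, Matrix.SpecialLinearGroup.coe_mul] at h02
  simp [A, B, Matrix.mul_apply, Fin.sum_univ_three] at h02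

/-- The affine action of a matrix of `Qd(p)` on the plane. -/
def act (M : SL(3, ZMod p)) (v : ZMod p × ZMod p) : ZMod p × ZMod p :=
  (M.1 0 0 * v.1 + M.1 0 1 * v.2 + M.1 0 2, M.1 1 0 * v.1 + M.1 1 1 * v.2 + M.1 1 2)

theorem act_mul (M : SL(3, ZMod p)) {N : SL(3, ZMod p)} (hN : N ∈ Cfsg.qd p) (v : ZMod p × ZMod p) :
    act (M * N) v = act M (act N v) := by
  obtain ⟨h0, h1, h2⟩ := (CfsgLib.Amalgams.Qd.mem_qdOver_iff N).1 hN
  apply Prod.ext <;> simp [act, Matrix.mul_apply, Fin.sum_univ_three, h0, h1, h2] <;> ring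

theorem act_one (v : ZMod p × ZMod p) : act 1 v = v := by simp [act]

/-- The affine action as a homomorphism. -/
def actHom : Cfsg.qd p →* Equiv.Perm (ZMod p × ZMod p) where
  toFun M :=
    { toFun := act M.1
      invFun := act (M⁻¹ : Cfsg.qd p).1
      left_inv := fun v => by rw [← act_mul _ M.2, ← Subgroup.coe_mul, inv_mul_cancel, Subgroup.coe_one, act_one]
      right_inv := fun v => by rw [← act_mul _ (M⁻¹).2, ← Subgroup.coe_mul, mul_inv_cancel, Subgroup.coe_one, act_one] }
  map_one' := Equiv.ext fun v => act_one v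
  map_mul' M N := Equiv.ext fun v => act_mul _ N.2 v

theorem actHom_injective : Function.Injective (actHom (p := p)) := by
  intro M N h
  have h' : ∀ v, act M.1 v = act N.1 v := fun v => Equiv.ext_iff.1 h v
  have e0 := h' (0, 0); have e1 := h' (1, 0); have e2 := h' (0, 1)
  simp only [act, mul_zero, mul_one, zero_add, add_zero, Prod.mk.injEq] at e0 e1 e2
  obtain ⟨M0, M1, M2⟩ := (CfsgLib.Amalgams.Qd.mem_qdOver_iff _).1 M.2
  obtain ⟨N0, N1, N2⟩ := (CfsgLib.Amalgams.Qd.mem_qdOver_iff _).1 N.2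
  apply Subtype.ext; apply Subtype.ext
  ext i j
  fin_cases i <;> fin_cases j <;> simp_all

/-- Lower transvections. -/
def low (b : ZMod p) : SL(2, ZMod p) := ⟨!![1, 0; b, 1], by simp [Matrix.det_fin_two_of]⟩

/-- Upper transvections. -/
def upp (b : ZMod p) : SL(2, ZMod p) := ⟨!![1, b; 0, 1], by simp [Matrix.det_fin_two_of]⟩

theorem upp_mul (a b : ZMod p) : upp a * upp b = upp (a + b) := by
  apply Subtype.ext
  show !![1, a; 0, 1] * !![1, b; 0, 1] = !![1, a + b; 0, 1]
  simp [add_comm]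

theorem low_mul (a b : ZMod p) : low a * low b = low (a + b) := by
  apply Subtype.ext
  show !![1, 0; a, 1] * !![1, 0; b, 1] = !![1, 0; a + b, 1]
  simp

theorem upp_zero : upp (0 : ZMod p) = 1 := by
  apply Subtype.ext
  show !![1, 0; 0, 1] = (1 : Matrix (Fin 2) (Fin 2) (ZMod p))
  exact Matrix.one_fin_two.symm

theorem low_zero : low (0 : ZMod p) = 1 := by
  apply Subtype.ext
  show !![1, 0; 0, 1] = (1 : Matrix (Fin 2) (Fin 2) (ZMod p))
  exact Matrix.one_fin_two.symm

theorem upp_pow (b : ZMod p) (k : ℕ) : upp b ^ k = upp ((k : ZMod p) * b) := by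
  induction k with
  | zero => rw [pow_zero, Nat.cast_zero, zero_mul, upp_zero]
  | succ k ih => rw [pow_succ, ih, upp_mul, Nat.cast_succ, add_mul, one_mul]

theorem low_pow (b : ZMod p) (k : ℕ) : low b ^ k = low ((k : ZMod p) * b) := by
  induction k with
  | zero => rw [pow_zero, Nat.cast_zero, zero_mul, low_zero]
  | succ k ih => rw [pow_succ, ih, low_mul, Nat.cast_succ, add_mul, one_mul]

/-- `Qd(p)` has no quotient of order two. -/
theorem units_hom_eq_one (hp : p ≠ 2) (χ : qdOver (ZMod p) →* ℤˣ) (M : qdOver (ZMod p)) : χ M = 1 := by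
  have hodd : p % 2 = 1 := ((Fact.out : p.Prime).eq_two_or_odd).resolve_left hp
  have hpow : ∀ x : qdOver (ZMod p), x ^ p = 1 → χ x = 1 := by
    intro x hx
    have h := congrArg χ hx
    rwa [map_pow, map_one, Int.units_pow_eq_pow_mod_two, hodd, pow_one] at h
  let g : SL(2, ZMod p) →* qdOver (ZMod p) :=
    MonoidHom.mk' (fun A => CfsgLib.Amalgams.Qd.aff A 0 0) fun A B => by
      refine Eq.trans ?_ (CfsgLib.Amalgams.Qd.aff_mul A B 0 0 0 0).symm
      rw [CfsgLib.Amalgams.Qd.aff_inj]; simp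
  have hupp : ∀ b, χ (g (upp b)) = 1 := fun b => hpow _ (by
    rw [← map_pow, upp_pow, ZMod.natCast_self, zero_mul, upp_zero, map_one])
  have hlow : ∀ b, χ (g (low b)) = 1 := fun b => hpow _ (by
    rw [← map_pow, low_pow, ZMod.natCast_self, zero_mul, low_zero, map_one])
  have hne : ∀ A : SL(2, ZMod p), A.1 1 0 ≠ 0 → χ (g A) = 1 := by
    intro A hc
    have hdet := CfsgLib.Amalgams.Qd.det_block A
    have e : A = upp ((A.1 0 0 - 1) / A.1 1 0) * low (A.1 1 0) * upp ((A.1 1 1 - 1) / A.1 1 0) := by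
      apply Subtype.ext
      show A.1 = !![1, (A.1 0 0 - 1) / A.1 1 0; 0, 1] * !![1, 0; A.1 1 0, 1] *
        !![1, (A.1 1 1 - 1) / A.1 1 0; 0, 1]
      ext i j
      fin_cases i <;> fin_cases j <;> simp [Matrix.mul_apply, Fin.sum_univ_two] <;>
        field_simp <;> first | linear_combination hdet | linear_combination -hdet | ring
    rw [e, map_mul, map_mul, map_mul, map_mul, hupp, hlow, hupp, one_mul, one_mul]
  have hSL : ∀ A : SL(2, ZMod p), χ (g A) = 1 := by
    intro A
    by_cases hc : A.1 1 0 = 0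
    · have h := hne (A * low 1) (by
        intro h0
        have hdet := CfsgLib.Amalgams.Qd.det_block A
        have h0' : (A.1 * !![1, 0; (1 : ZMod p), 1]) 1 0 = 0 := h0
        simp [Matrix.mul_apply, Fin.sum_univ_two, hc] at h0'
        rw [hc, h0'] at hdet
        simp at hdet)
      rwa [map_mul, map_mul, hlow, mul_one] at h
    · exact hne A hc
  obtain ⟨A, c, f, rfl⟩ := CfsgLib.Amalgams.Qd.exists_eq_aff (F := ZMod p) M
  have e : (CfsgLib.Amalgams.Qd.aff A c f : qdOver (ZMod p)) =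
      (CfsgLib.Amalgams.Qd.aff 1 c f : qdOver (ZMod p)) * g A := by
    refine Eq.trans ?_ (CfsgLib.Amalgams.Qd.aff_mul 1 A c f 0 0).symm
    rw [CfsgLib.Amalgams.Qd.aff_inj]; simp
  have ht : χ (CfsgLib.Amalgams.Qd.aff (1 : SL(2, ZMod p)) c f : qdOver (ZMod p)) = 1 := hpow _ (by
    refine (CfsgLib.Amalgams.Qd.trans_pow c f p).trans ?_
    rw [ZMod.natCast_self, zero_mul, zero_mul]
    exact CfsgLib.Amalgams.Qd.aff_one)
  calc χ (CfsgLib.Amalgams.Qd.aff A c f) = χ ((CfsgLib.Amalgams.Qd.aff 1 c f : qdOver (ZMod p)) * g A) :=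
        congrArg χ e
    _ = 1 := by rw [map_mul, ht, hSL, one_mul]

/-- Let p be an odd prime and n a natural number. The alternating group of degree n has a subgroup isomorphic to Qd(p) (the natural semidirect product of an elementary abelian group of order p² by SL₂(p)) if and only if n ≥ p²; and if n < p² then Qd(p) is not even involved in it. -/
theorem result {p : ℕ} [Fact p.Prime] (hp : p ≠ 2) (n : ℕ) : ((∃ H : Subgroup (alternatingGroup (Fin n)), Nonempty (↥H ≃* ↥(Cfsg.qd p))) ↔ p ^ 2 ≤ n) ∧ (n < p ^ 2 → ¬ Cfsg.Involves ↥(Cfsg.qd p) ↥(alternatingGroup (Fin n))) := by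
  have hab : n < p ^ 2 → ∀ P : Subgroup (alternatingGroup (Fin n)), IsPGroup p P →
      ∀ x y : P, x * y = y * x := by
    intro hn P hP x y
    have h := commute_of_isPGroup_perm (p := p) (α := Fin n) (by simpa using hn)
      (P.map (alternatingGroup (Fin n)).subtype) (hP.map _) ⟨_, x.1, x.2, rfl⟩ ⟨_, y.1, y.2, rfl⟩
    exact Subtype.ext (Subtype.ext (by simpa using congrArg Subtype.val h))
  refine ⟨⟨fun ⟨H, ⟨e⟩⟩ => ?_, fun hn => ?_⟩, fun hn => not_involves_qd hp (hab hn)⟩
  · by_contra hlt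
    push Not at hlt
    refine not_involves_qd hp (hab hlt) ⟨H, ⊥, inferInstance, ⟨?_⟩⟩
    exact ((QuotientGroup.quotientMulEquivOfEq (Subgroup.bot_subgroupOf H)).trans
      QuotientGroup.quotientBot).trans e
  · have hcard : Fintype.card (ZMod p × ZMod p) ≤ Fintype.card (Fin n) := by
      simp only [Fintype.card_prod, ZMod.card, Fintype.card_fin]
      rwa [← sq]
    obtain ⟨ι⟩ := Function.Embedding.nonempty_of_card_le hcard
    let Φ : Cfsg.qd p →* Equiv.Perm (Fin n) := (Equiv.Perm.viaEmbeddingHom ι).comp actHom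
    have hΦ : Function.Injective Φ :=
      (Equiv.Perm.viaEmbeddingHom_injective ι).comp actHom_injective
    have hev : ∀ M, Φ M ∈ alternatingGroup (Fin n) := fun M =>
      Equiv.Perm.mem_alternatingGroup.2 (units_hom_eq_one hp (Equiv.Perm.sign.comp Φ) M)
    let Ψ := Φ.codRestrict (alternatingGroup (Fin n)) hev
    have hΨ : Function.Injective Ψ := fun a b h => hΦ (congrArg Subtype.val h)
    exact ⟨Ψ.range, ⟨(MonoidHom.ofInjective hΨ).symm⟩⟩

end Cfsg.Agent.S3835
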