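import Cfsg.Statements.S3836
import Mathlib
import Cfsg.Agent.Lib.Cores.PCore


set_option autoImplicit false
open Cfsg

namespace Cfsg.Agent.S3836



/-- Let G be a finite group that is p-stable in the normalizer form: for every p-subgroup Q and every x ∈ N_G(Q) with [Q, x, x] = 1, the image of x in N_G(Q)/C_G(Q) lies in O_p(N_G(Q)/C_G(Q)). Then every subgroup of G is p-stable in the same sense. -/
theorem result {G : Type*} [Group G] [Finite G] {p : ℕ} [Fact p.Prime] (hst : Cfsg.IsNormalizerPStable p G) (H : Subgroup G) : Cfsg.IsNormalizerPStable p ↥H := by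
  classical
  intro P hP g hg hbr
  set P' := P.map H.subtype with hP'
  let NH := Subgroup.normalizer (P : Set H)
  let NG := Subgroup.normalizer (P' : Set G)
  have hmem : ∀ n : H, n ∈ NH → (n : G) ∈ NG := by
    intro n hn
    rw [Subgroup.mem_normalizer_iff]
    intro y
    constructor
    · rintro ⟨z, hz, rfl⟩
      exact ⟨n * z * n⁻¹, (Subgroup.mem_normalizer_iff.1 hn z).1 hz, by simp⟩
    · rintro ⟨z, hz, hz'⟩
      refine ⟨n⁻¹ * z * n, (Subgroup.mem_normalizer_iff.1 hn _).2 ?_, ?_⟩
      · simpa [mul_assoc] using hz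
      · simp at hz' ⊢
        rw [hz']; group
  let f : NH →* NG :=
    { toFun := fun n => ⟨((n : H) : G), hmem n n.2⟩
      map_one' := rfl
      map_mul' := fun _ _ => rfl }
  let CH := (Subgroup.centralizer (P : Set H)).subgroupOf NH
  let CG := (Subgroup.centralizer (P' : Set G)).subgroupOf NG
  have hker : CG.comap f = CH := by
    ext n
    simp only [CG, CH, Subgroup.mem_comap, Subgroup.mem_subgroupOf, Subgroup.mem_centralizer_iff]
    constructor
    · intro h y hy
      exact Subtype.ext (h y ⟨y, hy, rfl⟩)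
    · rintro h _ ⟨y, hy, rfl⟩
      exact congrArg Subtype.val (h y hy)
  let φ : (NH ⧸ CH) →* (NG ⧸ CG) := QuotientGroup.map CH CG f hker.ge
  have hφ : Function.Injective φ := by
    rw [← MonoidHom.ker_eq_bot_iff, QuotientGroup.ker_map, hker, QuotientGroup.map_mk'_self]
  have hpc : IsPGroup p (pCore p (NG ⧸ CG)) := by
    apply CfsgLib.Cores.isPGroup_pCore
  have hP'p : IsPGroup p P' := hP.map _
  have hg' : (g : G) ∈ NG := hmem g hg
  have hb' : ⁅⁅P', Subgroup.zpowers (g : G)⁆, Subgroup.zpowers (g : G)⁆ = ⊥ := by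
    have e : Subgroup.zpowers (g : G) = (Subgroup.zpowers g).map H.subtype :=
      (MonoidHom.map_zpowers H.subtype g).symm
    rw [hP', e, ← Subgroup.map_commutator, ← Subgroup.map_commutator, hbr, Subgroup.map_bot]
  have key := hst P' hP'p g hg' hb'
  let K : Subgroup (NH ⧸ CH) := (pCore p (NG ⧸ CG)).comap φ
  have hKn : K.Normal := (inferInstance : (pCore p (NG ⧸ CG)).Normal).comap φ
  have hKp : IsPGroup p K := hpc.comap_of_injective φ hφ
  exact (le_sSup (show K ∈ {N : Subgroup (NH ⧸ CH) | N.Normal ∧ IsPGroup p N} from ⟨hKn, hKp⟩)) key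

end Cfsg.Agent.S3836
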