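import Cfsg.Statements.S3838
import Mathlib
import Cfsg.Agent.Lib.NormalPComplement.Basic
import Cfsg.Agent.Lib.CoprimeAction.Basic
import Cfsg.Agent.Lib.CoprimeAction.Glauberman
import Cfsg.Agent.Lib.PSolvable.Basic

open scoped commutatorElement Pointwise


set_option autoImplicit false
open Cfsg

namespace Cfsg.Agent.S3838



/-- Let G be a finite group with Sylow p-subgroup P such that N_G(P) has a normal p-complement. Then N_G(Q) has a normal p-complement for every subgroup Q with [P, P] ≤ Q ≤ Φ(P). -/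
theorem result {G : Type*} [Group G] [Finite G] {p : ℕ} [Fact p.Prime] (P : Sylow p G) (hN : Cfsg.HasNormalPComplement p ↥(Subgroup.normalizer ((P : Subgroup G) : Set G))) (Q : Subgroup G) (h1 : (commutator ↥(P : Subgroup G)).map (P : Subgroup G).subtype ≤ Q) (h2 : Q ≤ (frattini ↥(P : Subgroup G)).map (P : Subgroup G).subtype) : Cfsg.HasNormalPComplement p ↥(Subgroup.normalizer (Q : Set G)) := by
  have hp' : p.Prime := Fact.out
  set M := Subgroup.normalizer (Q : Set G) with hM
  have hQP : Q ≤ (P : Subgroup G) := h2.trans (Subgroup.map_subtype_le _)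
  have hPM : (P : Subgroup G) ≤ M := by
    intro x hx
    apply CfsgLib.CoprimeAction.mem_normalizer_of_conj_mem
    intro q hq
    have h3 : ⁅x, q⁆ ∈ Q := h1 ⟨⁅(⟨x, hx⟩ : (P : Subgroup G)), ⟨q, hQP hq⟩⁆,
      Subgroup.commutator_mem_commutator (Subgroup.mem_top _) (Subgroup.mem_top _), rfl⟩
    have := Q.mul_mem h3 hq
    rw [commutatorElement_def, inv_mul_cancel_right] at this
    exact this
  let P' : Sylow p M := P.subtype hPM
  have hP' : ∀ y : M, y ∈ (P' : Subgroup M) ↔ (y : G) ∈ (P : Subgroup G) := fun _ => Iff.rfl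
  set Q' := Q.subgroupOf M with hQ'
  haveI hQn : Q'.Normal := Subgroup.normal_in_normalizer
  have hQP' : Q' ≤ (P' : Subgroup M) := fun y hy => (hP' y).2 (hQP hy)
  set f := QuotientGroup.mk' Q' with hf
  let Pb : Sylow p (M ⧸ Q') := P'.mapSurjective (QuotientGroup.mk'_surjective Q')
  have hPb : (Pb : Subgroup (M ⧸ Q')) = (P' : Subgroup M).map f := rfl
  -- the normaliser of the image is the image of the normaliser
  have hnorm : ∀ y : M, f y ∈ Subgroup.normalizer ((Pb : Subgroup (M ⧸ Q')) : Set (M ⧸ Q')) →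
      (y : G) ∈ Subgroup.normalizer ((P : Subgroup G) : Set G) := by
    intro y hy
    apply CfsgLib.CoprimeAction.mem_normalizer_of_conj_mem
    intro z hz
    have h3 : f y * f ⟨z, hPM hz⟩ * (f y)⁻¹ ∈ (Pb : Subgroup (M ⧸ Q')) :=
      (Subgroup.mem_normalizer_iff.1 hy _).1 ⟨⟨z, hPM hz⟩, (hP' _).2 hz, rfl⟩
    rw [← map_mul, ← map_inv, ← map_mul] at h3
    have h4 : y * ⟨z, hPM hz⟩ * y⁻¹ ∈ (P' : Subgroup M) := by
      have h5 : y * ⟨z, hPM hz⟩ * y⁻¹ ∈ ((P' : Subgroup M).map f).comap f := h3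
      rwa [Subgroup.comap_map_eq, QuotientGroup.ker_mk', sup_eq_left.2 hQP'] at h5
    exact (hP' _).1 h4
  have hburn : Subgroup.normalizer ((Pb : Subgroup (M ⧸ Q')) : Set (M ⧸ Q')) ≤
      Subgroup.centralizer ((Pb : Subgroup (M ⧸ Q')) : Set (M ⧸ Q')) := by
    intro u hu
    obtain ⟨y, rfl⟩ := QuotientGroup.mk'_surjective Q' u
    obtain ⟨a, b, hab, ⟨k, hak⟩, hb⟩ :=
      CfsgLib.NormalPComplement.exists_pParts (p := p) (isOfFinOrder_of_finite y)
    rintro _ ⟨z, hz, rfl⟩
    -- the `p`-part lies in `P`, the other part centralises `P`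
    have hyN := hnorm y hu
    have hbN : ((y ^ b : M) : G) ∈ Subgroup.normalizer ((P : Subgroup G) : Set G) := by
      push_cast; exact Subgroup.pow_mem _ hyN b
    have hbc := CfsgLib.NormalPComplement.mem_centralizer_of_normalizer P.isPGroup' hN hbN
      (by rwa [Subgroup.orderOf_coe])
    have haP : ((y ^ a : M) : G) ∈ (P : Subgroup G) := by
      have haN : ((y ^ a : M) : G) ∈ Subgroup.normalizer ((P : Subgroup G) : Set G) := by
        push_cast; exact Subgroup.pow_mem _ hyN a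
      have hpg : IsPGroup p (Subgroup.zpowers ((y ^ a : M) : G)) := by
        obtain ⟨j, -, hj⟩ := (Nat.dvd_prime_pow hp').1
          (show orderOf ((y ^ a : M) : G) ∣ p ^ k by rw [Subgroup.orderOf_coe]; exact hak)
        exact IsPGroup.of_card (by rw [Nat.card_zpowers, hj])
      have h6 := hpg.inf_normalizer_sylow P
      have h7 : ((y ^ a : M) : G) ∈ Subgroup.zpowers ((y ^ a : M) : G) ⊓
          Subgroup.normalizer ((P : Subgroup G) : Set G) := ⟨Subgroup.mem_zpowers _, haN⟩
      have h8 := (SetLike.ext_iff.1 h6 _).1 h7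
      exact h8.2
    have hza : f (y ^ a) * f z = f z * f (y ^ a) := by
      rw [← map_mul, ← map_mul, QuotientGroup.mk'_apply, QuotientGroup.mk'_apply, QuotientGroup.eq,
        show (y ^ a * z)⁻¹ * (z * y ^ a) = ⁅z⁻¹, (y ^ a)⁻¹⁆ by rw [commutatorElement_def]; group]
      show (⁅z⁻¹, (y ^ a)⁻¹⁆ : M).1 ∈ Q
      exact h1 ⟨⁅(⟨_, (P : Subgroup G).inv_mem ((hP' z).1 hz)⟩ : (P : Subgroup G)),
        ⟨_, (P : Subgroup G).inv_mem haP⟩⁆,
        Subgroup.commutator_mem_commutator (Subgroup.mem_top _) (Subgroup.mem_top _), rfl⟩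
    have hzb : f z * f (y ^ b) = f (y ^ b) * f z := by
      rw [← map_mul, ← map_mul]
      exact congrArg f (Subtype.ext (by push_cast; exact hbc _ ((hP' z).1 hz)))
    rw [← hab, map_mul]
    calc f z * (f (y ^ a) * f (y ^ b)) = f (y ^ a) * (f z * f (y ^ b)) := by
          rw [← mul_assoc, ← hza, mul_assoc]
      _ = f (y ^ a) * f (y ^ b) * f z := by rw [hzb, mul_assoc]
  have hcompl := MonoidHom.ker_transferSylow_isComplement' Pb hburn
  set K := (MonoidHom.transferSylow Pb hburn).ker.comap f with hK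
  haveI hKn : K.Normal := inferInstance
  have hQK : Q' ≤ K := QuotientGroup.le_comap_mk' Q' _
  have hKi : K.index = Nat.card (Pb : Subgroup (M ⧸ Q')) := by
    rw [hK, Subgroup.index_comap_of_surjective _ (QuotientGroup.mk'_surjective Q'),
      hcompl.symm.index_eq_card]
  have hKcard : Q'.relIndex K = Nat.card (MonoidHom.transferSylow Pb hburn).ker := by
    rw [CfsgLib.PSolvable.relIndex_eq_card_map, hK,
      Subgroup.map_comap_eq_self_of_surjective (QuotientGroup.mk'_surjective Q')]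
  have hkcop : (Nat.card (MonoidHom.transferSylow Pb hburn).ker).Coprime p := by
    rw [← hcompl.index_eq_card]
    exact (hp'.coprime_iff_not_dvd.2 Pb.not_dvd_index).symm
  have hQp : IsPGroup p Q' :=
    P'.isPGroup'.to_le hQP'
  obtain ⟨nQ, hnQ⟩ := IsPGroup.iff_card.1 hQp
  obtain ⟨R', hR'⟩ := Subgroup.exists_right_complement'_of_coprime (N := Q'.subgroupOf K) (by
    rw [Nat.card_congr (Subgroup.subgroupOfEquivOfLe hQK).toEquiv, hnQ]
    show (p ^ nQ).Coprime (Q'.relIndex K)
    rw [hKcard]; exact (hkcop.pow_right nQ).symm)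
  set R := R'.map K.subtype with hR
  have hRK : R ≤ K := Subgroup.map_subtype_le R'
  have hcardR : Nat.card R = Q'.relIndex K := by
    rw [hR, Subgroup.card_subtype]; exact hR'.symm.index_eq_card.symm
  have hRcop : (Nat.card R).Coprime p := by rw [hcardR, hKcard]; exact hkcop
  have hKle : K ≤ Q' ⊔ R := by
    intro k hk
    obtain ⟨⟨u, v⟩, e⟩ := hR'.2 ⟨k, hk⟩
    rw [← show ((u : K) : M) * ((v : K) : M) = k from congrArg Subtype.val e]
    exact Subgroup.mul_mem_sup u.2 ⟨v, v.2, rfl⟩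
  -- Frattini argument
  have hfr : ∀ g : M, ∃ q ∈ Q', q⁻¹ * g ∈ Subgroup.normalizer (R : Set M) := by
    intro g
    have hB : (MulAut.conj g • R : Subgroup M) ≤ Q' ⊔ R := by
      refine le_trans ?_ hKle
      rintro _ ⟨l, hl, rfl⟩
      exact hKn.conj_mem l (hRK hl) g
    obtain ⟨q, hq, hle⟩ := CfsgLib.CoprimeAction.exists_le_conj_of_coprime
      (by rw [Subgroup.normalizer_eq_top_iff.2 hQn]; exact le_top) hB
      (by rw [CfsgLib.CoprimeAction.card_conj_smul, hnQ]; exact hRcop.pow_right nQ)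
      (Or.inr (by haveI := hQp.isNilpotent; infer_instance))
    have heq : (MulAut.conj g • R : Subgroup M) = MulAut.conj q • R :=
      Subgroup.eq_of_le_of_card_ge hle (by
        rw [CfsgLib.CoprimeAction.card_conj_smul, CfsgLib.CoprimeAction.card_conj_smul])
    refine ⟨q, hq, ?_⟩
    rw [← CfsgLib.CoprimeAction.conj_smul_eq_self, map_mul, mul_smul, heq, map_inv, inv_smul_smul]
  have hPR : (P' : Subgroup M) ≤ Subgroup.normalizer (R : Set M) := by
    have hsup : ((Subgroup.normalizer (R : Set M)).comap (Subgroup.inclusion hPM)) ⊔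
        frattini ↥(P : Subgroup G) = ⊤ := by
      rw [eq_top_iff]
      rintro ⟨z, hz⟩ -
      obtain ⟨q, hq, hqz⟩ := hfr ⟨z, hPM hz⟩
      obtain ⟨w, hw, hwe⟩ := h2 hq
      have e : (⟨z, hz⟩ : (P : Subgroup G)) = w * (w⁻¹ * ⟨z, hz⟩) := by group
      rw [e]
      refine Subgroup.mul_mem _ (Subgroup.mem_sup_right hw) (Subgroup.mem_sup_left ?_)
      show Subgroup.inclusion hPM (w⁻¹ * ⟨z, hz⟩) ∈ Subgroup.normalizer (R : Set M)
      have e2 : Subgroup.inclusion hPM (w⁻¹ * ⟨z, hz⟩) = q⁻¹ * ⟨z, hPM hz⟩ :=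
        Subtype.ext (by
          show ((w : G))⁻¹ * z = (q : G)⁻¹ * z
          rw [show (w : G) = q from hwe])
      rw [e2]; exact hqz
    have htop := frattini_nongenerating hsup
    intro y hy
    have := htop.ge (Subgroup.mem_top (⟨(y : G), (hP' y).1 hy⟩ : (P : Subgroup G)))
    exact this
  have hRn : R.Normal := by
    rw [← Subgroup.normalizer_eq_top_iff, eq_top_iff]
    intro g _
    obtain ⟨q, hq, hqg⟩ := hfr g
    have := (Subgroup.normalizer (R : Set M)).mul_mem (hPR (hQP' hq)) hqg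
    rwa [mul_inv_cancel_left] at this
  refine ⟨P', R, hRn, ?_⟩
  obtain ⟨nP, hnP⟩ := IsPGroup.iff_card.1 P'.isPGroup'
  refine Subgroup.isComplement'_of_coprime ?_ (by rw [hnP]; exact hRcop.pow_right nP)
  have h3 := K.card_mul_index
  have h4 := (Q'.subgroupOf K).card_mul_index
  rw [show (Q'.subgroupOf K).index = Nat.card R from hcardR.symm,
    Nat.card_congr (Subgroup.subgroupOfEquivOfLe hQK).toEquiv] at h4
  have h5 : Nat.card (Pb : Subgroup (M ⧸ Q')) * Nat.card Q' = Nat.card (P' : Subgroup M) := by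
    have h6 := (Q'.subgroupOf (P' : Subgroup M)).card_mul_index
    rw [Nat.card_congr (Subgroup.subgroupOfEquivOfLe hQP').toEquiv,
      show (Q'.subgroupOf (P' : Subgroup M)).index = Nat.card (Pb : Subgroup (M ⧸ Q')) from
        CfsgLib.PSolvable.relIndex_eq_card_map Q' (P' : Subgroup M)] at h6
    rw [mul_comm]; exact h6
  rw [hKi, ← h4] at h3
  rw [← h5, ← h3]; ring

end Cfsg.Agent.S3838
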