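import Cfsg.Statements.S3839
import Cfsg.Agent.Lib.MetacyclicP.StrongClosureComplement
-- import your own Cfsg.Agent.* helpers here

set_option autoImplicit false
open Cfsg

namespace Cfsg.Agent.S3839

/-- A Frobenius normal p-complement criterion relative to a strongly closed subgroup. Let G be a finite group, S a Sylow p-subgroup and D a subgroup of S strongly closed in S with respect to G. Then G has a normal p-complement if and only if N_G(U) has a normal p-complement for every subgroup U of D with C_D(U) ≤ U. -/
theorem result {G : Type*} [Group G] [Finite G] {p : ℕ} [Fact p.Prime] (S : Sylow p G) (D : Subgroup G) (hD : Cfsg.IsStronglyClosed D (S : Subgroup G)) : Cfsg.HasNormalPComplement p G ↔ ∀ U : Subgroup G, U ≤ D → D ⊓ Subgroup.centralizer (U : Set G) ≤ U → Cfsg.HasNormalPComplement p ↥(Subgroup.normalizer (U : Set G)) :=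
  CfsgLib.MetacyclicP.hasNormalPComplement_iff_stronglyClosed S hD

end Cfsg.Agent.S3839
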