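import Cfsg.Statements.S3857
import Cfsg.Agent.Lib.HallClasses.PrimeGraphSolvable


set_option autoImplicit false
open Cfsg

namespace Cfsg.Agent.S3857

/-- A finite solvable group whose prime graph (prime divisors of the order, two distinct primes joined when there is an element of order their product) is disconnected is a Frobenius group or a 2-Frobenius group (it has normal subgroups H < K with K a Frobenius group with kernel H and G/H a Frobenius group with kernel K/H). -/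
theorem result {G : Type*} [Group G] [Finite G] (hsol : Group.IsSolvable G)
    (hdisc : (∃ A : Set ℕ, (∃ a ∈ A, a.Prime ∧ a ∣ Nat.card G) ∧ (∃ b ∉ A, b.Prime ∧ b ∣ Nat.card G) ∧
      ∀ a ∈ A, ∀ b ∉ A, a.Prime → b.Prime → a ∣ Nat.card G → b ∣ Nat.card G → ¬ ∃ g : G, orderOf g = a * b)) :
    (∃ C : Subgroup G, Cfsg.IsFrobeniusComplement C) ∨
    (∃ (H K : Subgroup G) (_ : H.Normal), K.Normal ∧ H < K ∧
      (∃ C : Subgroup ↥K, Cfsg.IsFrobeniusComplement C ∧ Cfsg.frobeniusKernel C = (H.subgroupOf K : Set ↥K)) ∧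
      (∃ C : Subgroup (G ⧸ H), Cfsg.IsFrobeniusComplement C ∧ Cfsg.frobeniusKernel C = (K.map (QuotientGroup.mk' H) : Set (G ⧸ H)))) := by
  classical
  obtain ⟨A, ⟨a, haA, ha, had⟩, ⟨b, hbA, hb, hbd⟩, hsep⟩ := hdisc
  have hne : Nontrivial G := by
    rw [← Finite.one_lt_card_iff_nontrivial]
    exact lt_of_lt_of_le ha.one_lt (Nat.le_of_dvd Nat.card_pos had)
  obtain ⟨p, E, hp, hEn, hE1, hEc, hEexp⟩ := CfsgLib.HallClasses.exists_normal_elementary (G := G)
  haveI := Fact.mk hp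
  have hEp : IsPGroup p E := fun x => ⟨1, Subtype.ext (by simpa using hEexp x x.2)⟩
  have hprod : ∀ c d : ℕ, c.Prime → d.Prime → c ≠ d → ∀ x y : G, orderOf x = c → orderOf y = d →
      Commute x y → orderOf (x * y) = c * d := fun c d hc hd hcd x y hx hy hxy => by
    rw [hxy.orderOf_mul_eq_mul_orderOf_of_coprime (by rw [hx, hy]; exact (Nat.coprime_primes hc hd).2 hcd),
      hx, hy]
  have hdvd : ∀ c : ℕ, ∀ x : G, orderOf x = c → c ∣ Nat.card G := fun c x hx => hx ▸ orderOf_dvd_natCard x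
  by_cases hpA : p ∈ A
  · refine CfsgLib.HallClasses.frobenius_or_twoFrobenius (σ := fun r => r ∈ A) ?_ ⟨b, hb, hbA, hbd⟩
      ⟨E, hEn, hE1, CfsgLib.HallClasses.isSigma_of_isPGroup hp hEp hpA⟩
    intro c d hc hd hcA hdA x y hx hy hxy
    exact hsep c hcA d hdA hc hd (hdvd c x hx) (hdvd d y hy)
      ⟨x * y, hprod c d hc hd (fun e => hdA (e ▸ hcA)) x y hx hy hxy⟩
  · refine CfsgLib.HallClasses.frobenius_or_twoFrobenius (σ := fun r => r ∉ A) ?_
      ⟨a, ha, fun h => h haA, had⟩ ⟨E, hEn, hE1, CfsgLib.HallClasses.isSigma_of_isPGroup hp hEp hpA⟩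
    intro c d hc hd hcA hdA x y hx hy hxy
    have hdA' : d ∈ A := not_not.1 hdA
    exact hsep d hdA' c hcA hd hc (hdvd d y hy) (hdvd c x hx)
      ⟨y * x, hprod d c hd hc (fun e => hcA (e ▸ hdA')) y x hy hx hxy.symm⟩

end Cfsg.Agent.S3857
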