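import Cfsg.Statements.S3858



set_option autoImplicit false
open Cfsg

namespace Cfsg.Agent.S3858

/-- A non-abelian simple normal subgroup lies in no proper normal overgroup argument: the Sylow
subgroup meeting it has a proper normaliser. -/
theorem normalizer_ne_top {G : Type*} [Group G] [Finite G] (T : Subgroup G) [T.Normal]
    (hT : IsSimpleGroup T) (hna : ¬ IsMulCommutative T) {r : ℕ} [Fact r.Prime] (U : Subgroup G)
    (hU : IsPGroup r U) (hU0 : U ⊓ T ≠ ⊥) : Subgroup.normalizer (U : Set G) ≠ ⊤ := by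
  intro htop
  have hUn : U.Normal := Subgroup.normalizer_eq_top_iff.1 htop
  rcases hT.eq_bot_or_eq_top_of_normal (U.subgroupOf T) inferInstance with h | h
  · rw [Subgroup.subgroupOf_eq_bot, disjoint_iff] at h
    exact hU0 h
  · have hTU : T ≤ U := Subgroup.subgroupOf_eq_top.1 h
    have hTp : IsPGroup r T := hU.to_le hTU
    haveI := hT
    haveI : Nontrivial T := hT.toNontrivial
    have hc := hTp.center_nontrivial
    rcases hT.eq_bot_or_eq_top_of_normal (Subgroup.center T) inferInstance with h' | h'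
    · exact (Subgroup.nontrivial_iff_ne_bot _).1 hc h'
    · exact hna ⟨⟨fun a b => (Subgroup.mem_center_iff.1 (h' ▸ Subgroup.mem_top b) a)⟩⟩


/-- Let G be a finite group with a normal non-abelian simple subgroup T whose centralizer is trivial (G almost simple with socle T), r a prime and R a Sylow r-subgroup of G meeting T nontrivially. Then R lies in exactly one maximal subgroup of G if and only if G has exactly one conjugacy class of maximal subgroups whose index is prime to r. -/
theorem result {G : Type*} [Group G] [Finite G] (T : Subgroup G) [T.Normal] (hT : IsSimpleGroup T) (hna : ¬ IsMulCommutative T)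
    (hC : Subgroup.centralizer (T : Set G) = ⊥) {r : ℕ} [Fact r.Prime] (R : Sylow r G) (hR0 : (R : Subgroup G) ⊓ T ≠ ⊥) :
    (∃! M : Subgroup G, IsCoatom M ∧ (R : Subgroup G) ≤ M) ↔
      ((∃ M : Subgroup G, IsCoatom M ∧ ¬ r ∣ M.index) ∧
        ∀ M₁ M₂ : Subgroup G, IsCoatom M₁ → ¬ r ∣ M₁.index → IsCoatom M₂ → ¬ r ∣ M₂.index → ∃ g : G, M₂ = M₁.map (MulAut.conj g).toMonoidHom) := by
  have hRtop : Subgroup.normalizer ((R : Subgroup G) : Set G) ≠ ⊤ :=
    normalizer_ne_top T hT hna _ R.2 hR0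
  obtain ⟨M₀, hM₀, hNM₀⟩ := (eq_top_or_exists_le_coatom _).resolve_left hRtop
  have hindex : ∀ M : Subgroup G, (R : Subgroup G) ≤ M → ¬ r ∣ M.index := fun M hM hd =>
    R.not_dvd_index (hd.trans (Subgroup.index_dvd_of_le hM))
  have hcontains : ∀ M : Subgroup G, ¬ r ∣ M.index →
      ∃ g : G, (R : Subgroup G).map (MulAut.conj g).toMonoidHom ≤ M := by
    intro M hM
    obtain ⟨S⟩ := (inferInstance : Nonempty (Sylow r M))
    have hS : IsPGroup r ((S : Subgroup M).map M.subtype) := S.2.map _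
    have hSi : ¬ r ∣ ((S : Subgroup M).map M.subtype).index := by
      rw [Subgroup.index_map, M.ker_subtype, sup_bot_eq, M.range_subtype]
      exact (Fact.out : r.Prime).not_dvd_mul S.not_dvd_index hM
    obtain ⟨g, hg⟩ := MulAction.exists_smul_eq G R (hS.toSylow hSi)
    refine ⟨g, fun x hx => ?_⟩
    have hx' : x ∈ ((g • R : Sylow r G) : Subgroup G) := by
      rw [Sylow.coe_subgroup_smul]; exact hx
    rw [hg] at hx'
    exact Subgroup.map_subtype_le _ hx'
  constructor
  · rintro ⟨M, ⟨hM, hRM⟩, huniq⟩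
    refine ⟨⟨M, hM, hindex M hRM⟩, fun M₁ M₂ h1 h1' h2 h2' => ?_⟩
    have key : ∀ M' : Subgroup G, IsCoatom M' → ¬ r ∣ M'.index →
        ∃ g : G, M' = M.map (MulAut.conj g).toMonoidHom := by
      intro M' hM' hi
      obtain ⟨g, hg⟩ := hcontains M' hi
      have hco : IsCoatom (M'.map (MulAut.conj g⁻¹).toMonoidHom) :=
        ((MulAut.conj g⁻¹).mapSubgroup.isCoatom_iff M').2 hM'
      have hR' : (R : Subgroup G) ≤ M'.map (MulAut.conj g⁻¹).toMonoidHom := fun x hx =>
        ⟨g * x * g⁻¹, hg ⟨x, hx, rfl⟩, by simp [mul_assoc]⟩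
      refine ⟨g, ?_⟩
      rw [← huniq _ ⟨hco, hR'⟩]
      ext x
      simp [Subgroup.map_map, Subgroup.mem_map, mul_assoc]
    obtain ⟨a, rfl⟩ := key M₁ h1 h1'
    obtain ⟨b, rfl⟩ := key M₂ h2 h2'
    refine ⟨b * a⁻¹, ?_⟩
    ext x
    simp [Subgroup.map_map, Subgroup.mem_map, mul_assoc]
  · rintro ⟨-, hconj⟩
    refine ⟨M₀, ⟨hM₀, Subgroup.le_normalizer.trans hNM₀⟩, ?_⟩
    rintro M ⟨hM, hRM⟩
    have hRM₀ : (R : Subgroup G) ≤ M₀ := Subgroup.le_normalizer.trans hNM₀
    obtain ⟨g, hg⟩ := hconj M M₀ hM (hindex M hRM) hM₀ (hindex M₀ hRM₀)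
    -- both R and its conjugate are Sylow subgroups of M₀
    have hgR : ((g • R : Sylow r G) : Subgroup G) ≤ M₀ := by
      rw [Sylow.coe_subgroup_smul, hg]
      exact Subgroup.map_mono hRM
    obtain ⟨m, hm⟩ := MulAction.exists_smul_eq M₀ ((g • R).subtype hgR) (R.subtype hRM₀)
    rw [Sylow.smul_subtype] at hm
    have hmg : ((m : G) * g) • R = R := by
      rw [mul_smul]
      exact Sylow.subtype_injective hm
    have hmem : (m : G) * g ∈ M₀ := hNM₀ (Sylow.smul_eq_iff_mem_normalizer.1 hmg)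
    have hgM : g ∈ M₀ := by simpa using mul_mem (inv_mem m.2) hmem
    rw [hg]
    ext x
    constructor
    · intro hx
      have h1 : g * x * g⁻¹ ∈ M₀ := hg ▸ ⟨x, hx, rfl⟩
      rw [hg] at hgM h1
      have h2 := mul_mem (mul_mem (inv_mem hgM) h1) hgM
      simpa [mul_assoc] using h2
    · rintro ⟨y, hy, rfl⟩
      have hg' : g ∈ M := by
        rw [hg] at hgM
        obtain ⟨z, hz, hzg⟩ := hgM
        have : z = g := by simpa [mul_assoc] using congrArg (fun w => g⁻¹ * w * g) hzg
        exact this ▸ hz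
      exact mul_mem (mul_mem hg' hy) (inv_mem hg')

end Cfsg.Agent.S3858
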