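import Cfsg.Statements.S3859



set_option autoImplicit false
open Cfsg

namespace Cfsg.Agent.S3859

/-- A non-abelian simple normal subgroup lies in no proper normal overgroup argument: the Sylow
subgroup meeting it has a proper normaliser. -/
theorem normalizer_ne_top {G : Type*} [Group G] [Finite G] (T : Subgroup G) [T.Normal]
    (hT : IsSimpleGroup T) (hna : ¬ IsMulCommutative T) {r : ℕ} [Fact r.Prime] (U : Subgroup G)
    (hU : IsPGroup r U) (hU0 : U ⊓ T ≠ ⊥) : Subgroup.normalizer (U : Set G) ≠ ⊤ := by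
  intro htop
  have hUn : U.Normal := Subgroup.normalizer_eq_top_iff.1 htop
  rcases hT.eq_bot_or_eq_top_of_normal (U.subgroupOf T) inferInstance with h | h
  · rw [Subgroup.subgroupOf_eq_bot, disjoint_iff] at h
    exact hU0 h
  · have hTU : T ≤ U := Subgroup.subgroupOf_eq_top.1 h
    have hTp : IsPGroup r T := hU.to_le hTU
    haveI := hT
    haveI : Nontrivial T := hT.toNontrivial
    have hc := hTp.center_nontrivial
    rcases hT.eq_bot_or_eq_top_of_normal (Subgroup.center T) inferInstance with h' | h'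
    · exact (Subgroup.nontrivial_iff_ne_bot _).1 hc h'
    · exact hna ⟨⟨fun a b => (Subgroup.mem_center_iff.1 (h' ▸ Subgroup.mem_top b) a)⟩⟩


/-- Let G be a finite group with a normal non-abelian simple subgroup T whose centralizer is trivial (G almost simple with socle T), r a prime and R a Sylow r-subgroup of G meeting T nontrivially. If R lies in exactly one maximal subgroup of G, then G/T is an r-group. -/
theorem result {G : Type*} [Group G] [Finite G] (T : Subgroup G) [T.Normal] (hT : IsSimpleGroup T) (hna : ¬ IsMulCommutative T)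
    (hC : Subgroup.centralizer (T : Set G) = ⊥) {r : ℕ} [Fact r.Prime] (R : Sylow r G) (hR0 : (R : Subgroup G) ⊓ T ≠ ⊥)
    (huniq : ∃! M : Subgroup G, IsCoatom M ∧ (R : Subgroup G) ≤ M) : IsPGroup r (G ⧸ T) := by
  obtain ⟨M, ⟨hM, hRM⟩, huniq⟩ := huniq
  set U := (R : Subgroup G) ⊓ T with hU
  have hUp : IsPGroup r U := R.2.to_le inf_le_left
  have hNU : Subgroup.normalizer (U : Set G) ≠ ⊤ :=
    normalizer_ne_top T hT hna U hUp (by rw [hU, inf_assoc, inf_idem]; exact hR0)
  have hRN : (R : Subgroup G) ≤ Subgroup.normalizer (U : Set G) := by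
    intro x hx
    rw [Subgroup.mem_normalizer_iff]
    intro y
    rw [hU, Subgroup.mem_inf, Subgroup.mem_inf]
    refine and_congr ⟨fun h => mul_mem (mul_mem hx h) (inv_mem hx),
      fun h => by simpa [mul_assoc] using mul_mem (mul_mem (inv_mem hx) h) hx⟩
      ⟨fun h => Subgroup.Normal.conj_mem inferInstance _ h x, fun h => by
        simpa [mul_assoc] using Subgroup.Normal.conj_mem inferInstance _ h x⁻¹⟩
  -- U is a Sylow subgroup of T
  obtain ⟨S, hS⟩ : ∃ S : Sylow r T, (S : Subgroup T).map T.subtype = U := by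
    obtain ⟨S, hS⟩ := (hUp.comap_subtype (K := T)).exists_le_sylow
    refine ⟨S, (Subgroup.eq_of_le_of_card_ge ?_ ?_).symm⟩
    · intro u hu
      exact ⟨⟨u, hu.2⟩, hS hu, rfl⟩
    · obtain ⟨S', hS'⟩ := (S.2.map T.subtype).exists_le_sylow
      obtain ⟨g, hg⟩ := MulAction.exists_smul_eq G R S'
      have hle : (S : Subgroup T).map T.subtype ≤ U.map (MulAut.conj g).toMonoidHom := by
        intro y hy
        have hyT : y ∈ T := Subgroup.map_subtype_le _ hy
        have hyS := hS' hy
        rw [← hg, Sylow.coe_subgroup_smul] at hyS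
        obtain ⟨z, hz, rfl⟩ := hyS
        refine ⟨z, ⟨hz, ?_⟩, rfl⟩
        have h2 := Subgroup.Normal.conj_mem (inferInstance : T.Normal) _ hyT g⁻¹
        simpa [mul_assoc] using h2
      exact (Subgroup.card_le_of_le hle).trans_eq
        (Subgroup.card_map_of_injective (MulAut.conj g).injective)
  have hfr := Sylow.normalizer_sup_eq_top (N := T) S
  rw [hS] at hfr
  have htop : (R : Subgroup G) ⊔ T = ⊤ := by
    by_contra hne
    obtain ⟨M₁, hM₁, h1⟩ := (eq_top_or_exists_le_coatom _).resolve_left hne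
    obtain ⟨M₂, hM₂, h2⟩ := (eq_top_or_exists_le_coatom _).resolve_left hNU
    have e1 := huniq M₁ ⟨hM₁, le_sup_left.trans h1⟩
    have e2 := huniq M₂ ⟨hM₂, hRN.trans h2⟩
    subst e1; subst e2
    exact hM₁.1 (top_le_iff.1 (hfr ▸ sup_le h2 (le_sup_right.trans h1)))
  refine IsPGroup.of_surjective R.2 ((QuotientGroup.mk' T).comp (R : Subgroup G).subtype) ?_
  intro x
  obtain ⟨g, rfl⟩ := QuotientGroup.mk'_surjective T x
  have hg : g ∈ (R : Subgroup G) ⊔ T := htop ▸ Subgroup.mem_top g
  obtain ⟨y, hy, z, hz, rfl⟩ := Subgroup.mem_sup_of_normal_right.1 hg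
  refine ⟨⟨y, hy⟩, ?_⟩
  simp [(QuotientGroup.eq_one_iff z).2 hz]

end Cfsg.Agent.S3859
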