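import Cfsg.Statements.S3861
import Cfsg.Agent.Lib.InvChar.BaerSuzuki
import Cfsg.Agent.Lib.Cores.PCore


set_option autoImplicit false
open Cfsg

namespace Cfsg.Agent.S3861

open Subgroup


/-- A finite group G has no non-identity element of odd order that is conjugate to its inverse if and only if the Sylow 2-subgroups of G are normal. -/
theorem result {G : Type*} [Group G] [Finite G] (P : Sylow 2 G) : (∀ x : G, x ≠ 1 → Odd (orderOf x) → ¬ IsConj x x⁻¹) ↔ (P : Subgroup G).Normal := by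
  classical
  haveI : Fact (Nat.Prime 2) := ⟨Nat.prime_two⟩
  constructor
  swap
  · -- a normal Sylow 2-subgroup leaves no real element of odd order
    intro hP x hx hodd hc
    obtain ⟨c, hc⟩ := isConj_iff.1 hc
    haveI := hP
    let π := QuotientGroup.mk' (P : Subgroup G)
    have hoddQ : Odd (Nat.card (G ⧸ (P : Subgroup G))) := by
      rw [← index_eq_card, ← Nat.not_even_iff_odd, even_iff_two_dvd]
      exact P.not_dvd_index
    -- `c ^ 2` centralises `x` modulo `P`, hence so does `c`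
    have hconj : π c * π x * (π c)⁻¹ = (π x)⁻¹ := by rw [← map_inv, ← map_mul, ← map_inv, ← map_mul, hc]
    have hsq : Commute (π c ^ 2) (π x) := by
      have : π c ^ 2 * π x * (π c ^ 2)⁻¹ = π x := by
        rw [pow_two, show π c * π c * π x * (π c * π c)⁻¹ = π c * (π c * π x * (π c)⁻¹) * (π c)⁻¹ by group,
          hconj, ← conj_inv, hconj, inv_inv]
      exact mul_inv_eq_iff_eq_mul.1 this
    have hcomm : Commute (π c) (π x) := by
      obtain ⟨k, hk⟩ := hoddQ
      have h1 : π c = (π c ^ 2) ^ (k + 1) := by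
        rw [← pow_mul, show 2 * (k + 1) = (2 * k + 1) + 1 by ring, pow_succ, ← hk, pow_card_eq_one',
          one_mul]
      rw [h1]
      exact hsq.pow_left _
    rw [hcomm.eq, mul_inv_cancel_right] at hconj
    have h2 : π x ^ 2 = 1 := by rw [pow_two]; exact mul_eq_one_iff_eq_inv.2 hconj
    have h3 : orderOf (π x) ∣ Nat.gcd 2 (orderOf x) :=
      Nat.dvd_gcd (orderOf_dvd_of_pow_eq_one h2) (orderOf_map_dvd π x)
    rw [Nat.coprime_two_left.2 hodd, Nat.dvd_one, orderOf_eq_one_iff] at h3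
    have hxP : x ∈ (P : Subgroup G) := (QuotientGroup.eq_one_iff x).1 h3
    obtain ⟨j, hj⟩ := IsPGroup.iff_orderOf.1 P.2 ⟨x, hxP⟩
    rw [Subgroup.orderOf_mk] at hj
    rcases Nat.eq_zero_or_pos j with h | h
    · rw [h, pow_zero, orderOf_eq_one_iff] at hj
      exact hx hj
    · exact Nat.not_even_iff_odd.2 hodd (even_iff_two_dvd.2 (hj ▸ dvd_pow_self 2 h.ne'))
  intro hreal
  let O := Cfsg.pCore 2 G
  haveI : O.Normal := inferInstance
  have hO2 : IsPGroup 2 O := CfsgLib.Cores.isPGroup_pCore 2 G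
  have hOP : O ≤ (P : Subgroup G) := by
    obtain ⟨Q, hQ⟩ := hO2.exists_le_sylow
    obtain ⟨g, rfl⟩ := MulAction.exists_smul_eq G Q P
    intro o ho
    rw [Sylow.coe_subgroup_smul]
    refine ⟨g⁻¹ * o * g⁻¹⁻¹, hQ (Normal.conj_mem inferInstance o ho g⁻¹), ?_⟩
    show g * (g⁻¹ * o * g⁻¹⁻¹) * g⁻¹ = o
    group
  by_contra hPn
  let π := QuotientGroup.mk' O
  -- the image of `P` in `G ⧸ O` contains an involution
  have hne : (P : Subgroup G).map π ≠ ⊥ := fun h => by
    rw [Subgroup.map_eq_bot_iff, QuotientGroup.ker_mk'] at h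
    exact hPn (le_antisymm h hOP ▸ inferInstance)
  obtain ⟨j, hj⟩ := IsPGroup.iff_card.1 (P.2.map π)
  have hdvd : 2 ∣ Nat.card ((P : Subgroup G).map π) := by
    rw [hj]
    exact dvd_pow_self 2 fun h => hne (card_eq_one.1 (hj.trans (by rw [h, pow_zero])))
  obtain ⟨a, ha⟩ := exists_prime_orderOf_dvd_card' 2 hdvd
  have haG : orderOf (a : G ⧸ O) = 2 := by rw [orderOf_coe, ha]
  obtain ⟨y, hy, hodd, hne1⟩ := CfsgLib.InvChar.exists_conj_odd_orderOf_mul (a : G ⧸ O) haG (by
    rw [CfsgLib.Cores.pCore_quotient_pCore, mem_bot]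
    intro h
    rw [h, orderOf_one] at haG
    omega)
  have ha2 : (a : G ⧸ O) * a = 1 := by rw [← pow_two]; exact orderOf_dvd_iff_pow_eq_one.1 haG.dvd
  have hy2 : y * y = 1 := by
    obtain ⟨d, hd⟩ := isConj_iff.1 hy
    rw [← hd, show d * a * d⁻¹ * (d * a * d⁻¹) = d * ((a : G ⧸ O) * a) * d⁻¹ by group, ha2, mul_one,
      mul_inv_cancel]
  have hinv : (a : G ⧸ O) * ((a : G ⧸ O) * y) * (a : G ⧸ O)⁻¹ = ((a : G ⧸ O) * y)⁻¹ := by
    rw [mul_inv_rev, inv_eq_of_mul_eq_one_right ha2, inv_eq_of_mul_eq_one_right hy2, ← mul_assoc, ha2,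
      one_mul]
  -- an element of prime order inverted by `a`
  set u := (a : G ⧸ O) * y with hu
  obtain ⟨r, hr, hru⟩ := Nat.exists_prime_and_dvd (show orderOf u ≠ 1 from
    fun h => hne1 (orderOf_eq_one_iff.1 h))
  haveI := Fact.mk hr
  have hr2 : r ≠ 2 := fun h => Nat.not_even_iff_odd.2 hodd (even_iff_two_dvd.2 (h ▸ hru))
  set w := u ^ (orderOf u / r) with hw
  have hwo : orderOf w = r := orderOf_pow_orderOf_div (orderOf_pos u).ne' hru
  have hwinv : (a : G ⧸ O) * w * (a : G ⧸ O)⁻¹ = w⁻¹ := by rw [hw, ← conj_pow, hinv, inv_pow]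
  -- lift it to an element of order `r`
  let X := (zpowers w).comap π
  have hOX : O ≤ X := fun o ho => by
    rw [mem_comap]
    show π o ∈ zpowers w
    rw [show π o = 1 from (QuotientGroup.eq_one_iff o).2 ho]
    exact one_mem _
  have hcardX : Nat.card X = Nat.card O * r := by
    let f := π.comp X.subtype
    have hrange : f.range = zpowers w := by
      rw [MonoidHom.range_comp, range_subtype, map_comap_eq_self_of_surjective (QuotientGroup.mk'_surjective O)]
    have hk : Nat.card f.ker = Nat.card O := by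
      rw [← MonoidHom.comap_ker, QuotientGroup.ker_mk']
      exact Nat.card_congr (subgroupOfEquivOfLe hOX).toEquiv
    rw [← card_mul_index f.ker, index_ker, hrange, hk, Nat.card_zpowers, hwo]
  obtain ⟨i, hi⟩ := IsPGroup.iff_card.1 hO2
  have hrO : ¬ r ∣ Nat.card O := by
    rw [hi]
    exact fun h => hr2 ((Nat.prime_dvd_prime_iff_eq hr Nat.prime_two).1 (hr.dvd_of_dvd_pow h))
  let S : Sylow r X := default
  have hS : Nat.card (S : Subgroup X) = r := by
    rw [S.card_eq_multiplicity, hcardX, Nat.factorization_mul Nat.card_pos.ne' hr.ne_zero,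
      Finsupp.add_apply, Nat.factorization_eq_zero_of_not_dvd hrO, hr.factorization_self, zero_add,
      pow_one]
  obtain ⟨v, hv⟩ : ∃ v : G, v ∈ (S : Subgroup X).map X.subtype ∧ π v = w := by
    have h1 : ((S : Subgroup X).map X.subtype).map π = zpowers w := by
      refine Subgroup.eq_of_le_of_card_ge ?_ ?_
      · rintro _ ⟨_, ⟨x, -, rfl⟩, rfl⟩
        exact x.2
      · rw [Nat.card_zpowers, hwo]
        refine hS.symm.le.trans (Nat.card_le_card_of_injective (fun x => ⟨π (x : X), _, ⟨(x : X), x.2, rfl⟩, rfl⟩) ?_)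
        intro x x' hxx
        have h2 : π ((x : X) : G) = π ((x' : X) : G) := congrArg Subtype.val hxx
        have h3 : ((x / x' : (S : Subgroup X)) : X).1 ∈ O := by
          refine (QuotientGroup.eq_one_iff _).1 ?_
          show π _ = 1
          push_cast
          rw [map_div, h2, div_self']
        have h4 : orderOf ((x / x' : (S : Subgroup X)) : X).1 ∣ Nat.gcd r (Nat.card O) := by
          refine Nat.dvd_gcd ?_ ?_
          · rw [orderOf_coe, orderOf_coe]
            exact (_root_.orderOf_dvd_natCard _).trans hS.dvd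
          · rw [← Subgroup.orderOf_mk _ h3]
            exact _root_.orderOf_dvd_natCard _
        rw [hr.coprime_iff_not_dvd.2 hrO, Nat.dvd_one, orderOf_eq_one_iff] at h4
        exact div_eq_one.1 (Subtype.ext (Subtype.ext h4))
    obtain ⟨v, hv, hvw⟩ : w ∈ ((S : Subgroup X).map X.subtype).map π := h1.symm ▸ mem_zpowers w
    exact ⟨v, hv, hvw⟩
  obtain ⟨hvS, hvw⟩ := hv
  have hvz : zpowers v = (S : Subgroup X).map X.subtype := by
    refine Subgroup.eq_of_le_of_card_ge (zpowers_le.2 hvS) ?_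
    rw [card_map_of_injective X.subtype_injective, hS, Nat.card_zpowers]
    exact Nat.le_of_dvd (orderOf_pos v) (hwo ▸ hvw ▸ orderOf_map_dvd π v)
  have hvo : orderOf v = r := by
    rw [← Nat.card_zpowers, hvz, card_map_of_injective X.subtype_injective, hS]
  obtain ⟨s, hs⟩ := QuotientGroup.mk'_surjective O (a : G ⧸ O)
  -- conjugate by an element of `X`
  have hvX : v ∈ X := by rw [mem_comap, hvw]; exact mem_zpowers w
  have hsv : s * v * s⁻¹ ∈ X := by
    rw [mem_comap, map_mul, map_mul, map_inv, hvw, show π s = a from hs, hwinv]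
    exact inv_mem (mem_zpowers w)
  obtain ⟨R, hR⟩ : ∃ R : Sylow r X, (zpowers (⟨_, hsv⟩ : X)) ≤ (R : Subgroup X) := by
    refine IsPGroup.exists_le_sylow (IsPGroup.of_card (n := 1) ?_)
    rw [Nat.card_zpowers, Subgroup.orderOf_mk, pow_one, ← hvo]
    exact orderOf_injective (MulAut.conj s).toMonoidHom (MulAut.conj s).injective v
  obtain ⟨e, he⟩ := MulAction.exists_smul_eq X R S
  have hev : (e : G) * (s * v * s⁻¹) * (e : G)⁻¹ ∈ zpowers v := by
    rw [hvz]
    refine ⟨e * ⟨_, hsv⟩ * e⁻¹, ?_, rfl⟩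
    rw [← he]
    exact ⟨⟨_, hsv⟩, hR (mem_zpowers _), rfl⟩
  obtain ⟨k, hk⟩ := mem_zpowers_iff.1 hev
  -- the exponent is `-1`
  have hπe : Commute (π e) w := by
    obtain ⟨l, hl⟩ := mem_zpowers_iff.1 (e.2 : π (e : G) ∈ zpowers w)
    rw [← hl]
    exact (Commute.refl w).zpow_left l
  have hwk : w ^ k = w⁻¹ := by
    have h := congrArg π hk
    rw [map_zpow, map_mul, map_mul, map_mul, map_mul, map_inv, map_inv, hvw,
      show π s = a from hs, hwinv, hπe.inv_right.eq, mul_inv_cancel_right] at h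
    exact h
  have hvk : v ^ k = v⁻¹ := by
    rw [← zpow_neg_one] at hwk ⊢
    rw [zpow_eq_zpow_iff_modEq, hvo]
    rw [zpow_eq_zpow_iff_modEq, hwo] at hwk
    exact hwk
  refine hreal v (fun h => hr.ne_one (by rw [← hvo, h, orderOf_one])) (hvo ▸ hr.odd_of_ne_two hr2)
    (isConj_iff.2 ⟨e * s, ?_⟩)
  rw [← hvk, hk]
  group

end Cfsg.Agent.S3861
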