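import Cfsg.Statements.S3862
import Cfsg.Agent.Lib.NormalPComplement.Frobenius


set_option autoImplicit false
open Cfsg

namespace Cfsg.Agent.S3862

open Subgroup


/-- If every 2-element of the finite group G that is conjugate to its inverse lies in the centre of G, then G has a normal 2-complement. -/
theorem result {G : Type*} [Group G] [Finite G] (h : ∀ x : G, (∃ j : ℕ, orderOf x = 2 ^ j) → IsConj x x⁻¹ → x ∈ Subgroup.center G) : Cfsg.HasNormalPComplement 2 G := by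
  classical
  haveI : Fact (Nat.Prime 2) := ⟨Nat.prime_two⟩
  apply CfsgLib.NormalPComplement.hasNormalPComplement_of_frobeniusCondition
  intro Q
  induction hn : Nat.card Q using Nat.strong_induction_on generalizing Q with
  | _ n ih =>
    subst hn
    intro hQ a ha hcop
    by_contra hne
    have hodd : Odd (orderOf a) := Nat.coprime_two_right.1 hcop
    have hconj : ∀ q ∈ Q, a * q * a⁻¹ ∈ Q := fun q hq => (mem_normalizer_iff.1 ha q).1 hq
    have hconj' : ∀ q ∈ Q, a⁻¹ * q * a ∈ Q := fun q hq => by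
      refine (mem_normalizer_iff.1 ha _).2 ?_
      rwa [show a * (a⁻¹ * q * a) * a⁻¹ = q by group]
    -- proper invariant subgroups are centralised
    have hfix : ∀ R : Subgroup G, R ≤ Q → (∀ r ∈ R, a * r * a⁻¹ ∈ R) → R ≠ Q →
        ∀ r ∈ R, a * r = r * a := by
      intro R hRQ hR hRne r hr
      have haR : a ∈ normalizer (R : Set G) := by
        rw [mem_normalizer_iff_map_conj_eq]
        refine Subgroup.eq_of_le_of_card_ge ?_ (card_map_of_injective (MulAut.conj a).injective).ge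
        rintro _ ⟨x, hx, rfl⟩
        exact hR x hx
      have hlt : Nat.card R < Nat.card Q :=
        lt_of_le_of_ne (card_le_of_le hRQ) fun h => hRne (Subgroup.eq_of_le_of_card_ge hRQ h.ge)
      exact (mem_centralizer_iff.1 (ih _ hlt R rfl (hQ.to_le hRQ) a haR hcop) r hr).symm
    have hgen : ∀ R : Subgroup G, R ≤ Q → (∀ r ∈ R, a * r * a⁻¹ ∈ R) →
        (∃ r ∈ R, a * r ≠ r * a) → R = Q := by
      intro R hRQ hR hex
      by_contra h
      obtain ⟨r, hr, hr'⟩ := hex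
      exact hr' (hfix R hRQ hR h r hr)
    obtain ⟨q₀, hq₀, hq₀a⟩ : ∃ q ∈ Q, a * q ≠ q * a := by
      by_contra h
      push Not at h
      exact hne (mem_centralizer_iff.2 fun q hq => (h q hq).symm)
    -- moved elements
    have hmoved : ∀ q ∈ Q, a * q ≠ q * a → a * (q⁻¹ * (a * q * a⁻¹)) ≠ (q⁻¹ * (a * q * a⁻¹)) * a := by
      intro q hq hqa hcomm
      apply hqa
      set y := q⁻¹ * (a * q * a⁻¹) with hy
      have hstep : ∀ k : ℕ, a ^ k * q * (a ^ k)⁻¹ = q * y ^ k := by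
        intro k
        induction k with
        | zero => simp
        | succ k ihk =>
          rw [pow_succ', show a * a ^ k * q * (a * a ^ k)⁻¹ = a * (a ^ k * q * (a ^ k)⁻¹) * a⁻¹ by group, ihk,
            show a * (q * y ^ k) * a⁻¹ = (a * q * a⁻¹) * (a * y ^ k * a⁻¹) by group,
            ((show Commute a y from hcomm).pow_right k).eq, mul_inv_cancel_right,
            show a * q * a⁻¹ = q * y by rw [hy, mul_inv_cancel_left], mul_assoc, ← pow_succ']
      have h1 := hstep (orderOf a)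
      rw [pow_orderOf_eq_one, one_mul, inv_one, mul_one, eq_comm, mul_eq_left] at h1
      have hyQ : y ∈ Q := Q.mul_mem (Q.inv_mem hq) (hconj q hq)
      obtain ⟨j, hj⟩ := IsPGroup.iff_orderOf.1 hQ ⟨y, hyQ⟩
      rw [Subgroup.orderOf_mk] at hj
      have h2 : orderOf y ∣ Nat.gcd (2 ^ j) (orderOf a) :=
        Nat.dvd_gcd hj.dvd (orderOf_dvd_of_pow_eq_one h1)
      rw [Nat.Coprime.pow_left j (Nat.coprime_two_left.2 hodd), Nat.dvd_one, orderOf_eq_one_iff] at h2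
      rw [h2] at hy
      exact (mul_inv_eq_iff_eq_mul.1 (inv_mul_eq_one.1 hy.symm).symm)
    -- the subgroup generated by the squares
    let D : Subgroup G := closure {s | ∃ q ∈ Q, q * q = s}
    have hDQ : D ≤ Q := (closure_le _).2 fun s ⟨q, hq, hs⟩ => hs ▸ Q.mul_mem hq hq
    have hDinv : ∀ r ∈ D, a * r * a⁻¹ ∈ D := fun r hr => by
      induction hr using closure_induction with
      | mem s hs =>
        obtain ⟨q, hq, rfl⟩ := hs
        exact subset_closure ⟨a * q * a⁻¹, hconj q hq, by group⟩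
      | one => simp [D.one_mem]
      | mul x y _ _ hx hy =>
        rw [show a * (x * y) * a⁻¹ = (a * x * a⁻¹) * (a * y * a⁻¹) by group]
        exact D.mul_mem hx hy
      | inv x _ hx =>
        rw [show a * x⁻¹ * a⁻¹ = (a * x * a⁻¹)⁻¹ by group]
        exact D.inv_mem hx
    have hDne : D ≠ Q := by
      obtain ⟨j, hj⟩ := IsPGroup.iff_card.1 hQ
      have hj0 : j ≠ 0 := fun h => by
        rw [h, pow_zero] at hj
        rw [card_eq_one.1 hj, mem_bot] at hq₀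
        subst hq₀
        exact hq₀a (by simp)
      obtain ⟨M, hM⟩ := Sylow.exists_subgroup_card_pow_prime (G := Q) 2 (n := j - 1)
        (by rw [hj]; exact pow_dvd_pow 2 (Nat.sub_le _ _))
      have hMi : M.index = 2 := by
        have h1 := card_mul_index M
        rw [hM, hj, show 2 ^ j = 2 ^ (j - 1) * 2 by rw [← pow_succ]; congr 1; omega] at h1
        exact Nat.eq_of_mul_eq_mul_left (pow_pos Nat.two_pos _) h1
      intro hD
      have hle : D ≤ M.map Q.subtype := (closure_le _).2 fun s ⟨q, hq, hs⟩ =>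
        hs ▸ ⟨⟨q, hq⟩ * ⟨q, hq⟩, mul_self_mem_of_index_two hMi _, rfl⟩
      have h2 := card_le_of_le (hD ▸ hle)
      rw [card_map_of_injective Q.subtype_injective, hM, hj] at h2
      have := (Nat.pow_le_pow_iff_right (show 1 < 2 by omega)).1 h2
      omega
    have hDfix : ∀ d ∈ D, a * d = d * a := hfix D hDQ hDinv hDne
    have hcommD : ∀ x ∈ Q, ∀ y ∈ Q, x * y * x⁻¹ * y⁻¹ ∈ D := fun x hx y hy => by
      rw [show x * y * x⁻¹ * y⁻¹ = (x * x) * ((x⁻¹ * y) * (x⁻¹ * y)) * (y⁻¹ * y⁻¹) by group]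
      exact D.mul_mem (D.mul_mem (subset_closure ⟨x, hx, rfl⟩)
        (subset_closure ⟨_, Q.mul_mem (Q.inv_mem hx) hy, rfl⟩)) (subset_closure ⟨_, Q.inv_mem hy, rfl⟩)
    -- it is central
    have hcentral : ∀ d ∈ D, ∀ q ∈ Q, d * q = q * d := by
      have hR : Q ⊓ centralizer (D : Set G) = Q := by
        refine hgen _ inf_le_left ?_ ⟨q₀⁻¹ * (a * q₀ * a⁻¹), ⟨Q.mul_mem (Q.inv_mem hq₀) (hconj q₀ hq₀), ?_⟩,
          hmoved q₀ hq₀ hq₀a⟩
        · rintro r ⟨hr, hrc⟩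
          refine ⟨hconj r hr, mem_centralizer_iff.2 fun d hd => ?_⟩
          have h1 := mem_centralizer_iff.1 hrc d hd
          calc d * (a * r * a⁻¹) = (d * a) * r * a⁻¹ := by group
            _ = a * (d * r) * a⁻¹ := by rw [← hDfix d hd]; group
            _ = a * r * (d * a⁻¹) := by rw [h1]; group
            _ = (a * r * a⁻¹) * d := by
              rw [show d * a⁻¹ = a⁻¹ * d from ((show Commute a d from hDfix d hd).inv_left.eq).symm]
              group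
        · refine mem_centralizer_iff.2 fun d hd => ?_
          have hqd : q₀ * d * q₀⁻¹ ∈ D := by
            rw [show q₀ * d * q₀⁻¹ = (q₀ * d * q₀⁻¹ * d⁻¹) * d by group]
            exact D.mul_mem (hcommD q₀ hq₀ d (hDQ hd)) hd
          have h1 : (a * q₀ * a⁻¹) * d * (a * q₀ * a⁻¹)⁻¹ = q₀ * d * q₀⁻¹ := by
            have h2 : a * (q₀ * d * q₀⁻¹) * a⁻¹ = q₀ * d * q₀⁻¹ := by
              rw [hDfix _ hqd, mul_inv_cancel_right]
            have h3 : a⁻¹ * d * a = d := by rw [mul_assoc, ← hDfix d hd, inv_mul_cancel_left]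
            calc (a * q₀ * a⁻¹) * d * (a * q₀ * a⁻¹)⁻¹ = a * (q₀ * (a⁻¹ * d * a) * q₀⁻¹) * a⁻¹ := by group
              _ = _ := by rw [h3, h2]
          calc d * (q₀⁻¹ * (a * q₀ * a⁻¹)) = q₀⁻¹ * (q₀ * d * q₀⁻¹) * (a * q₀ * a⁻¹) := by group
            _ = (q₀⁻¹ * (a * q₀ * a⁻¹)) * d := by rw [← h1]; group
      intro d hd q hq
      exact mem_centralizer_iff.1 ((hR.ge hq).2) d hd
    let K : Subgroup G := closure {s | ∃ x ∈ Q, ∃ y ∈ Q, x * y * x⁻¹ * y⁻¹ = s}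
    have hKD : K ≤ D := (closure_le _).2 fun s ⟨x, hx, y, hy, hs⟩ => hs ▸ hcommD x hx y hy
    have hsqmul : ∀ x ∈ Q, ∀ y ∈ Q,
        (x * y) * (x * y) = (x * x) * (y * y) * (x⁻¹ * y * x⁻¹⁻¹ * y⁻¹) := by
      intro x hx y hy
      have hc := hcentral _ (hcommD x⁻¹ (Q.inv_mem hx) y hy) _ (Q.mul_mem hy hy)
      rw [mul_assoc (x * x), ← hc]
      group
    -- every square is a product of commutators
    let E : Subgroup G :=
      { carrier := {q | q ∈ Q ∧ q * q ∈ K}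
        one_mem' := ⟨Q.one_mem, by simp⟩
        mul_mem' := fun {x y} hx hy => ⟨Q.mul_mem hx.1 hy.1, by
          rw [hsqmul x hx.1 y hy.1]
          exact K.mul_mem (K.mul_mem hx.2 hy.2) (subset_closure ⟨_, Q.inv_mem hx.1, y, hy.1, rfl⟩)⟩
        inv_mem' := fun {x} hx => ⟨Q.inv_mem hx.1, by rw [← mul_inv_rev]; exact K.inv_mem hx.2⟩ }
    have hEQ : E = Q := by
      refine hgen E (fun q hq => hq.1) ?_ ⟨q₀⁻¹ * (a * q₀ * a⁻¹),
        ⟨Q.mul_mem (Q.inv_mem hq₀) (hconj q₀ hq₀), ?_⟩, hmoved q₀ hq₀ hq₀a⟩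
      · rintro r ⟨hr, hr2⟩
        refine ⟨hconj r hr, ?_⟩
        rw [show a * r * a⁻¹ * (a * r * a⁻¹) = a * (r * r) * a⁻¹ by group, hDfix _ (hKD hr2),
          mul_inv_cancel_right]
        exact hr2
      · rw [hsqmul _ (Q.inv_mem hq₀) _ (hconj q₀ hq₀),
          show a * q₀ * a⁻¹ * (a * q₀ * a⁻¹) = a * (q₀ * q₀) * a⁻¹ by group,
          hDfix _ (subset_closure ⟨q₀, hq₀, rfl⟩), mul_inv_cancel_right,
          show q₀⁻¹ * q₀⁻¹ * (q₀ * q₀) = 1 by group, one_mul]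
        exact subset_closure ⟨_, Q.inv_mem (Q.inv_mem hq₀), _, hconj q₀ hq₀, rfl⟩
    -- the commutators with `q₀` fill `K`
    have hadd : ∀ z₁ ∈ Q, ∀ z₂ ∈ Q, q₀ * (z₁ * z₂) * q₀⁻¹ * (z₁ * z₂)⁻¹ =
        (q₀ * z₁ * q₀⁻¹ * z₁⁻¹) * (q₀ * z₂ * q₀⁻¹ * z₂⁻¹) := by
      intro z₁ h1 z₂ h2
      have hc := hcentral _ (hcommD q₀ hq₀ z₂ h2) _ h1
      calc q₀ * (z₁ * z₂) * q₀⁻¹ * (z₁ * z₂)⁻¹ =
            (q₀ * z₁ * q₀⁻¹ * z₁⁻¹) * (z₁ * (q₀ * z₂ * q₀⁻¹ * z₂⁻¹)) * z₁⁻¹ := by group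
        _ = _ := by rw [← hc]; group
    let R : Subgroup G :=
      { carrier := {z | z ∈ Q ∧ ∀ w ∈ Q, ∃ u ∈ Q, z * w * z⁻¹ * w⁻¹ = q₀ * u * q₀⁻¹ * u⁻¹}
        one_mem' := ⟨Q.one_mem, fun w _ => ⟨1, Q.one_mem, by simp⟩⟩
        mul_mem' := by
          rintro x y ⟨hx, hx'⟩ ⟨hy, hy'⟩
          refine ⟨Q.mul_mem hx hy, fun w hw => ?_⟩
          obtain ⟨u, hu, hxu⟩ := hx' w hw
          obtain ⟨v, hv, hyv⟩ := hy' w hw
          refine ⟨v * u, Q.mul_mem hv hu, ?_⟩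
          rw [hadd v hv u hu, ← hxu, ← hyv]
          have hc := hcentral _ (hcommD y hy w hw) _ hx
          calc x * y * w * (x * y)⁻¹ * w⁻¹ = (x * (y * w * y⁻¹ * w⁻¹)) * (w * x⁻¹ * w⁻¹) := by group
            _ = _ := by rw [← hc]; group
        inv_mem' := by
          rintro x ⟨hx, hx'⟩
          refine ⟨Q.inv_mem hx, fun w hw => ?_⟩
          obtain ⟨u, hu, hxu⟩ := hx' w hw
          refine ⟨u⁻¹, Q.inv_mem hu, ?_⟩
          have h1 := hadd u hu u⁻¹ (Q.inv_mem hu)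
          rw [mul_inv_cancel, mul_one, mul_inv_cancel, inv_one, mul_one] at h1
          rw [eq_inv_of_mul_eq_one_right h1.symm, ← hxu]
          have hc := hcentral _ (D.inv_mem (hcommD x hx w hw)) _ hx
          calc x⁻¹ * w * x⁻¹⁻¹ * w⁻¹ = x⁻¹ * ((x * w * x⁻¹ * w⁻¹)⁻¹ * x) := by group
            _ = _ := by rw [hc]; group }
    have hRQ : R = Q := by
      refine hgen R (fun z hz => hz.1) ?_ ⟨q₀, ⟨hq₀, fun w hw => ⟨w, hw, rfl⟩⟩, hq₀a⟩
      rintro z ⟨hz, hz'⟩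
      refine ⟨hconj z hz, fun w hw => ?_⟩
      obtain ⟨u, hu, hzu⟩ := hz' _ (hconj' w hw)
      refine ⟨u, hu, ?_⟩
      rw [← hzu]
      have h := hDfix _ (hcommD z hz _ (hconj' w hw))
      calc a * z * a⁻¹ * w * (a * z * a⁻¹)⁻¹ * w⁻¹ =
            a * (z * (a⁻¹ * w * a) * z⁻¹ * (a⁻¹ * w * a)⁻¹) * a⁻¹ := by group
        _ = _ := by rw [h, mul_inv_cancel_right]
    obtain ⟨u, hu, huq⟩ : ∃ u ∈ Q, q₀ * u * q₀⁻¹ * u⁻¹ = q₀ * q₀ := by
      have hK : ∀ s ∈ K, ∃ u ∈ Q, q₀ * u * q₀⁻¹ * u⁻¹ = s := by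
        intro s hs
        induction hs using closure_induction with
        | mem s hs =>
          obtain ⟨x, hx, y, hy, rfl⟩ := hs
          obtain ⟨u, hu, h⟩ := (hRQ.ge hx).2 y hy
          exact ⟨u, hu, h.symm⟩
        | one => exact ⟨1, Q.one_mem, by simp⟩
        | mul x y _ _ hx hy =>
          obtain ⟨u, hu, rfl⟩ := hx
          obtain ⟨v, hv, rfl⟩ := hy
          exact ⟨u * v, Q.mul_mem hu hv, hadd u hu v hv⟩
        | inv x _ hx =>
          obtain ⟨u, hu, rfl⟩ := hx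
          refine ⟨u⁻¹, Q.inv_mem hu, ?_⟩
          have h1 := hadd u hu u⁻¹ (Q.inv_mem hu)
          rw [mul_inv_cancel, mul_one, mul_inv_cancel, inv_one, mul_one] at h1
          exact eq_inv_of_mul_eq_one_right h1.symm
      exact hK _ (hEQ.ge hq₀).2
    -- so `q₀` is real, hence central
    obtain ⟨j, hj⟩ := IsPGroup.iff_orderOf.1 hQ ⟨q₀, hq₀⟩
    rw [Subgroup.orderOf_mk] at hj
    have hreal : IsConj q₀ q₀⁻¹ := by
      refine isConj_iff.2 ⟨u⁻¹, ?_⟩
      have h1 : u * q₀⁻¹ * u⁻¹ = q₀ := by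
        apply mul_left_cancel (a := q₀)
        rw [← huq]
        group
      calc u⁻¹ * q₀ * u⁻¹⁻¹ = u⁻¹ * (u * q₀⁻¹ * u⁻¹) * u⁻¹⁻¹ := by rw [h1]
        _ = q₀⁻¹ := by group
    exact hq₀a (mem_center_iff.1 (h q₀ ⟨j, hj⟩ hreal) a)

end Cfsg.Agent.S3862
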