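import Cfsg.Statements.S3863
import Cfsg.Agent.Lib.NormalPComplement.Basic


set_option autoImplicit false
open Cfsg

namespace Cfsg.Agent.S3863

/-- Let x be an element of the finite group G that is conjugate to its inverse. Then some 2-element conjugates x to its inverse; if the conjugacy class of x has odd size then x ^ 2 = 1; and x lies in, and is conjugate to its inverse inside, every normal subgroup of odd index. -/
theorem result {G : Type*} [Group G] [Finite G] (x : G) (hx : IsConj x x⁻¹) : (∃ t : G, (∃ j : ℕ, orderOf t = 2 ^ j) ∧ t * x * t⁻¹ = x⁻¹) ∧ (Odd (Subgroup.centralizer ({x} : Set G)).index → x ^ 2 = 1) ∧ ∀ (N : Subgroup G) [N.Normal], Odd N.index → ∃ hxN : x ∈ N, IsConj (⟨x, hxN⟩ : N) (⟨x, hxN⟩ : N)⁻¹ := by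
  obtain ⟨g, hg⟩ := isConj_iff.1 hx
  haveI : Fact (Nat.Prime 2) := ⟨Nat.prime_two⟩
  have hstep : ∀ t : G, t * x * t⁻¹ = x⁻¹ → t * t * x * (t * t)⁻¹ = x := fun t ht => by
    rw [show t * t * x * (t * t)⁻¹ = t * (t * x * t⁻¹) * t⁻¹ by group, ht,
      show t * x⁻¹ * t⁻¹ = (t * x * t⁻¹)⁻¹ by group, ht, inv_inv]
  obtain ⟨a, b, hab, ⟨k, hk⟩, hcop⟩ :=
    CfsgLib.NormalPComplement.exists_pParts (p := 2) (isOfFinOrder_of_finite g)
  set u := g ^ b with hu
  -- the odd part centralises x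
  have hodd : Odd (orderOf u) := Nat.coprime_two_right.1 hcop
  obtain ⟨e, he⟩ : ∃ e : ℕ, u = (g * g) ^ e := by
    obtain ⟨m, hm⟩ := hodd
    refine ⟨b * (m + 1), ?_⟩
    rw [← sq, ← pow_mul, show 2 * (b * (m + 1)) = b * (orderOf u + 1) by rw [hm]; ring, pow_mul,
      ← hu, pow_succ, pow_orderOf_eq_one, one_mul]
  have hgg : Commute (g * g) x := mul_inv_eq_iff_eq_mul.1 (hstep g hg)
  have hux : Commute u x := he ▸ hgg.pow_left e
  have htx : g ^ a * x * (g ^ a)⁻¹ = x⁻¹ := by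
    calc g ^ a * x * (g ^ a)⁻¹ = g ^ a * (u * x * u⁻¹) * (g ^ a)⁻¹ := by
          rw [hux.eq, mul_inv_cancel_right]
      _ = g ^ a * u * x * (g ^ a * u)⁻¹ := by simp only [mul_inv_rev, mul_assoc]
      _ = x⁻¹ := by rw [hab, hg]
  obtain ⟨j, -, hj⟩ := (Nat.dvd_prime_pow Nat.prime_two).1 hk
  refine ⟨⟨g ^ a, ⟨j, hj⟩, htx⟩, ?_, ?_⟩
  · intro hoddi
    set C := Subgroup.centralizer ({x} : Set G) with hC
    have htN : g ^ a ∈ Subgroup.normalizer (C : Set G) := by
      rw [Subgroup.mem_normalizer_iff]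
      intro y
      have key : ∀ t : G, t * x * t⁻¹ = x⁻¹ → ∀ z ∈ C, t * z * t⁻¹ ∈ C := fun t ht z hz => by
        rw [hC, Subgroup.mem_centralizer_singleton_iff] at hz ⊢
        have e1 : x = t * x⁻¹ * t⁻¹ := by
          rw [show t * x⁻¹ * t⁻¹ = (t * x * t⁻¹)⁻¹ by group, ht, inv_inv]
        rw [e1]
        calc t * z * t⁻¹ * (t * x⁻¹ * t⁻¹) = t * (z * x⁻¹) * t⁻¹ := by group
          _ = t * x⁻¹ * t⁻¹ * (t * z * t⁻¹) := by rw [(Commute.inv_right hz).eq]; group
      refine ⟨key _ htx y, fun h => ?_⟩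
      have htx' : (g ^ a)⁻¹ * x * ((g ^ a)⁻¹)⁻¹ = x⁻¹ := by
        calc (g ^ a)⁻¹ * x * ((g ^ a)⁻¹)⁻¹ = ((g ^ a)⁻¹ * (g ^ a * x * (g ^ a)⁻¹) * g ^ a)⁻¹ := by
              rw [htx]; group
          _ = x⁻¹ := by group
      simpa [mul_assoc] using key _ htx' _ h
    have hmem : g ^ a ∈ C := by
      set N := Subgroup.normalizer (C : Set G) with hN
      have h1 := orderOf_dvd_natCard (QuotientGroup.mk' (C.subgroupOf N) ⟨g ^ a, htN⟩)
      rw [← Subgroup.index_eq_card] at h1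
      have h2 : (C.subgroupOf N).index ∣ C.index :=
        Dvd.intro _ (Subgroup.relIndex_mul_index Subgroup.le_normalizer)
      have h3 : orderOf (QuotientGroup.mk' (C.subgroupOf N) ⟨g ^ a, htN⟩) ∣ 2 ^ j := by
        refine (orderOf_map_dvd _ _).trans ?_
        rw [Subgroup.orderOf_mk, hj]
      have h4 := Nat.eq_one_of_dvd_coprimes
        ((Nat.coprime_two_left.2 hoddi).pow_left j) h3 (h1.trans h2)
      exact Subgroup.mem_subgroupOf.1
        ((QuotientGroup.eq_one_iff (⟨g ^ a, htN⟩ : N)).1 (orderOf_eq_one_iff.1 h4))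
    rw [hC, Subgroup.mem_centralizer_singleton_iff] at hmem
    rw [hmem, mul_inv_cancel_right] at htx
    rw [sq, mul_eq_one_iff_eq_inv]
    exact htx
  · intro N _ hN
    have hq : Odd (Nat.card (G ⧸ N)) := hN
    have ht1 : g ^ a ∈ N := by
      refine (QuotientGroup.eq_one_iff _).1 (orderOf_eq_one_iff.1 ?_)
      exact Nat.eq_one_of_dvd_coprimes ((Nat.coprime_two_left.2 hq).pow_left j)
        (hj ▸ orderOf_map_dvd (QuotientGroup.mk' N) (g ^ a)) (orderOf_dvd_natCard _)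
    have hxN : x ∈ N := by
      refine (QuotientGroup.eq_one_iff _).1 (orderOf_eq_one_iff.1 ?_)
      refine Nat.eq_one_of_dvd_coprimes (Nat.coprime_two_left.2 hq)
        (orderOf_dvd_of_pow_eq_one ?_) (orderOf_dvd_natCard _)
      have h1 := congrArg (QuotientGroup.mk' N) htx
      rw [map_mul, map_mul, map_inv, show QuotientGroup.mk' N (g ^ a) = 1 from
        (QuotientGroup.eq_one_iff _).2 ht1, one_mul, inv_one, mul_one, map_inv] at h1
      rw [sq, mul_eq_one_iff_eq_inv]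
      exact h1
    exact ⟨hxN, isConj_iff.2 ⟨⟨g ^ a, ht1⟩, Subtype.ext htx⟩⟩

end Cfsg.Agent.S3863
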