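import Cfsg.Statements.S3864
import Cfsg.Agent.S1255
import Cfsg.Agent.S1254
import Cfsg.Agent.Lib.TwoGroups.Classes


set_option autoImplicit false
open Cfsg

namespace Cfsg.Agent.S3864

/-- Let G be a finite group whose Sylow 2-subgroups are dihedral of order 2 ^ n with n ≥ 3, and count the conjugacy classes of involutions of G. Then exactly one of the following holds: there is one class of involutions and no normal subgroup of index 2; there are two classes of involutions, a normal subgroup of index 2 and none of index 4; there are three classes of involutions and G has a normal 2-complement. -/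
theorem result {G : Type*} [Group G] [Finite G] (P : Sylow 2 G) (n : ℕ) (hn : 3 ≤ n) (hdih : Nonempty (↥(P : Subgroup G) ≃* DihedralGroup (2 ^ (n - 1)))) : (Nat.card {C : ConjClasses G // ∃ g : G, ConjClasses.mk g = C ∧ orderOf g = 2} = 1 ∧ ∀ N : Subgroup G, N.Normal → N.index ≠ 2) ∨ (Nat.card {C : ConjClasses G // ∃ g : G, ConjClasses.mk g = C ∧ orderOf g = 2} = 2 ∧ (∃ N : Subgroup G, N.Normal ∧ N.index = 2) ∧ ∀ N : Subgroup G, N.Normal → N.index ≠ 4) ∨ (Nat.card {C : ConjClasses G // ∃ g : G, ConjClasses.mk g = C ∧ orderOf g = 2} = 3 ∧ Cfsg.HasNormalPComplement 2 G) := by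
  classical
  haveI : Fact (Nat.Prime 2) := ⟨Nat.prime_two⟩
  have hm : 2 ≤ 2 ^ (n - 1) := by
    calc 2 = 2 ^ 1 := rfl
      _ ≤ 2 ^ (n - 1) := Nat.pow_le_pow_right Nat.two_pos (by omega)
  obtain ⟨e⟩ := hdih
  obtain ⟨k, hkm, ⟨δ⟩⟩ := CfsgLib.TwoFusion.exists_dihedralSylow P hm e
  have hk : 2 ≤ k := by
    have : n - 1 = k := Nat.pow_right_injective le_rfl hkm
    omega
  -- reflections of equal parity are conjugate
  have hpar : ∀ i b : ZMod (2 ^ k), (2 : ZMod (2 ^ k)) ∣ b - i →
      IsConj (δ.φ (DihedralGroup.sr i)) (δ.φ (DihedralGroup.sr b)) := by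
    intro i b ⟨c, hc⟩
    refine isConj_iff.2 ⟨δ.φ (DihedralGroup.r (-c)), ?_⟩
    rw [← map_inv, ← map_mul, ← map_mul, DihedralGroup.r_mul_sr, DihedralGroup.inv_r,
      DihedralGroup.sr_mul_r]
    congr 2
    linear_combination (-1 : ZMod (2 ^ k)) * hc
  have hsr : ∀ b : ZMod (2 ^ k), IsConj (δ.φ (DihedralGroup.sr 0)) (δ.φ (DihedralGroup.sr b)) ∨
      IsConj (δ.φ (DihedralGroup.sr 1)) (δ.φ (DihedralGroup.sr b)) := fun b => by
    rcases CfsgLib.TwoFusion.two_dvd_or 0 b with h | h
    · exact Or.inl (hpar 0 b h)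
    · exact Or.inr (hpar 1 b (by simpa using h))
  have hinv : ∀ t : G, orderOf t = 2 → IsConj δ.centre t ∨ IsConj (δ.φ (DihedralGroup.sr 0)) t ∨
      IsConj (δ.φ (DihedralGroup.sr 1)) t := by
    intro t ht
    obtain ⟨x, d, hd⟩ := δ.exists_conj_into ht
    have hdt : IsConj (δ.φ d) t := (isConj_iff.mpr ⟨x, hd⟩).symm
    have ho : orderOf (δ.φ d) = 2 := by
      rw [← hd, show x * t * x⁻¹ = (MulAut.conj x) t from rfl, MulEquiv.orderOf_eq, ht]
    rcases δ.conj_involution_cases ho rfl with rfl | ⟨b, rfl⟩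
    · exact Or.inl hdt
    · exact Or.inr ((hsr b).imp (fun h => h.trans hdt) (fun h => h.trans hdt))
  have hnot2 : ¬ (2 : ZMod (2 ^ k)) ∣ 1 - 0 := by
    rw [sub_zero]; exact CfsgLib.TwoFusion.not_two_dvd_one δ.pos
  have hne01 : IsConj (δ.φ (DihedralGroup.sr 0)) (δ.φ (DihedralGroup.sr 1)) →
      IsConj (δ.φ (DihedralGroup.sr 1)) δ.centre := fun h => by
    obtain ⟨g, hg⟩ := isConj_iff.1 h
    exact δ.isConj_centre_of_conj hk hg hnot2
  have hcount : ∀ m : ℕ,
      Nat.card {C : ConjClasses G // ∃ t : G, orderOf t = 2 ∧ ConjClasses.mk t = C} = m →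
      Nat.card {C : ConjClasses G // ∃ g : G, ConjClasses.mk g = C ∧ orderOf g = 2} = m :=
    fun m h => h ▸ Nat.card_congr (Equiv.subtypeEquivRight fun C =>
      ⟨fun ⟨g, h1, h2⟩ => ⟨g, h2, h1⟩, fun ⟨g, h1, h2⟩ => ⟨g, h2, h1⟩⟩)
  -- exactly one parity fused to the centre
  have htwo : ∀ i j : ZMod (2 ^ k), (2 : ZMod (2 ^ k)) ∣ j - (i + 1) →
      IsConj (δ.φ (DihedralGroup.sr i)) δ.centre → ¬ IsConj (δ.φ (DihedralGroup.sr j)) δ.centre →
      (∀ t : G, orderOf t = 2 → IsConj δ.centre t ∨ IsConj (δ.φ (DihedralGroup.sr j)) t) →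
      Nat.card {C : ConjClasses G // ∃ g : G, ConjClasses.mk g = C ∧ orderOf g = 2} = 2 ∧
        (∃ N : Subgroup G, N.Normal ∧ N.index = 2) ∧ ∀ N : Subgroup G, N.Normal → N.index ≠ 4 := by
    intro i j hji hi hj hall
    refine ⟨hcount 2 (CfsgLib.TwoGroups.card_classes_eq_two δ.centre _ δ.orderOf_centre
      (δ.orderOf_reflection j) (fun h => hj h.symm) hall), ?_, ?_⟩
    · have hp : IsPGroup 2 (Multiplicative (ZMod 2)) := IsPGroup.of_card (n := 1) (by
        rw [Nat.card_congr Multiplicative.toAdd, Nat.card_zmod, pow_one])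
      obtain ⟨K, hK⟩ := CfsgLib.TwoFusion.exists_index_two hp (δ.parityTransfer (j + 1))
        (g := δ.φ (DihedralGroup.sr j)) (by
          rw [δ.parityTransfer_reflection hk (j + 1) hj, Ne,
            CfsgLib.TwoFusion.parityHom_sr_eq_one_iff δ.pos, show j - (j + 1) = -1 by ring, dvd_neg]
          exact CfsgLib.TwoFusion.not_two_dvd_one δ.pos)
      exact ⟨K, Subgroup.normal_of_index_eq_two hK, hK⟩
    · intro N hN h4
      haveI := hN
      let π := QuotientGroup.mk' N
      have hcard : Nat.card (G ⧸ N) = 2 ^ 2 := by rw [← Subgroup.index_eq_card, h4]; rfl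
      have hab : ∀ a b : G ⧸ N, a * b = b * a := fun a b =>
        (IsPGroup.isMulCommutative_of_card_eq_prime_sq hcard).is_comm.comm a b
      have hclass : ∀ a b : G, IsConj a b → π a = π b := fun a b h => by
        obtain ⟨c, hc⟩ := isConj_iff.1 h
        rw [← hc, map_mul, map_mul, map_inv, hab (π c), mul_inv_cancel_right]
      have hsq : ∀ b, π (δ.φ (DihedralGroup.sr b)) * π (δ.φ (DihedralGroup.sr b)) = 1 := fun b => by
        rw [← map_mul, ← map_mul, DihedralGroup.sr_mul_self, map_one, map_one]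
      have hz : π δ.centre = 1 := by
        have he : δ.centre = δ.φ (DihedralGroup.sr 0) *
            δ.φ (DihedralGroup.sr (CfsgLib.TwoFusion.halfTurn k)) := by
          rw [← map_mul, DihedralGroup.sr_mul_sr, sub_zero]; rfl
        have heven : (2 : ZMod (2 ^ k)) ∣ CfsgLib.TwoFusion.halfTurn k - 0 := by
          rw [sub_zero]
          exact dvd_pow_self 2 (by omega : k - 1 ≠ 0)
        rw [he, map_mul, ← hclass _ _ (hpar 0 _ heven), hsq]
      have hii : π (δ.φ (DihedralGroup.sr i)) = 1 := (hclass _ _ hi).trans hz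
      have hmap : (P : Subgroup G).map π ≤ Subgroup.zpowers (π (δ.φ (DihedralGroup.sr j))) := by
        rintro _ ⟨s, hs, rfl⟩
        obtain ⟨d, rfl⟩ := δ.exists_eq hs
        have hsrb : ∀ b, π (δ.φ (DihedralGroup.sr b)) ∈
            Subgroup.zpowers (π (δ.φ (DihedralGroup.sr j))) := fun b => by
          rcases CfsgLib.TwoFusion.two_dvd_or i b with h | h
          · rw [← hclass _ _ (hpar i b h), hii]
            exact one_mem _
          · rw [← hclass _ _ (hpar j b (by
              have := dvd_sub h hji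
              rwa [sub_sub_sub_cancel_right] at this))]
            exact Subgroup.mem_zpowers _
        rcases d with a | b
        · rw [show DihedralGroup.r a = DihedralGroup.sr 0 * DihedralGroup.sr a by
            rw [DihedralGroup.sr_mul_sr, sub_zero], map_mul, map_mul]
          exact mul_mem (hsrb 0) (hsrb a)
        · exact hsrb b
      have hN0 : (P : Subgroup G).map π = ⊤ := by
        rw [← Subgroup.index_eq_one]
        have h1 : ((P : Subgroup G).map π).index ∣ Nat.gcd (P : Subgroup G).index (2 ^ 2) :=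
          Nat.dvd_gcd (Subgroup.index_map_dvd _ (QuotientGroup.mk'_surjective N))
            (hcard ▸ Subgroup.index_dvd_card _)
        rwa [Nat.Coprime.pow_right 2
          ((Nat.prime_two.coprime_iff_not_dvd.2 P.not_dvd_index).symm), Nat.dvd_one] at h1
      have h2 := Subgroup.card_le_of_le hmap
      rw [hN0, Subgroup.card_top, hcard, Nat.card_zpowers] at h2
      have h3 : orderOf (π (δ.φ (DihedralGroup.sr j))) ≤ 2 := Nat.le_of_dvd (by omega)
        (orderOf_dvd_of_pow_eq_one (by rw [pow_two, hsq]))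
      omega
  by_cases h0 : IsConj (δ.φ (DihedralGroup.sr 0)) δ.centre <;>
    by_cases h1 : IsConj (δ.φ (DihedralGroup.sr 1)) δ.centre
  · left
    have hall : ∀ t : G, orderOf t = 2 → IsConj δ.centre t := fun t ht => by
      rcases hinv t ht with h | h | h
      · exact h
      · exact h0.symm.trans h
      · exact h1.symm.trans h
    refine ⟨hcount 1 (CfsgLib.TwoGroups.card_classes_eq_one _ δ.orderOf_centre hall), fun N _ => ?_⟩
    exact ((Cfsg.Agent.S1255.result P _ hm e).2
      (Or.inl fun a b ha hb => (hall a ha).symm.trans (hall b hb))).1 N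
  · refine Or.inr (Or.inl (htwo 0 1 (by simp) h0 h1 fun t ht => ?_))
    rcases hinv t ht with h | h | h
    · exact Or.inl h
    · exact Or.inl (h0.symm.trans h)
    · exact Or.inr h
  · refine Or.inr (Or.inl (htwo 1 0 ⟨-1, by ring⟩ h1 h0 fun t ht => ?_))
    rcases hinv t ht with h | h | h
    · exact Or.inl h
    · exact Or.inr h
    · exact Or.inl (h1.symm.trans h)
  · refine Or.inr (Or.inr ⟨hcount 3 (CfsgLib.TwoGroups.card_classes_eq_three δ.centre _ _
      δ.orderOf_centre (δ.orderOf_reflection 0) (δ.orderOf_reflection 1)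
      (fun h => h0 h.symm) (fun h => h1 h.symm) (fun h => h1 (hne01 h)) hinv), ?_⟩)
    refine Cfsg.Agent.S1254.complement_of_fix δ fun i n hn => ?_
    by_contra hne
    have hmem : n * δ.centre * n⁻¹ ∈ δ.shape (k - 1) i :=
      (Subgroup.mem_normalizer_iff.1 hn _).1 (δ.centre_mem i)
    obtain ⟨d, hd⟩ := δ.exists_eq (δ.shape_le _ _ hmem)
    rcases δ.conj_involution_cases (t := n * δ.centre * n⁻¹) (by
      rw [show n * δ.centre * n⁻¹ = (MulAut.conj n) δ.centre from rfl, MulEquiv.orderOf_eq,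
        δ.orderOf_centre]) hd with rfl | ⟨b, rfl⟩
    · exact hne hd.symm
    · have hc : IsConj δ.centre (δ.φ (DihedralGroup.sr b)) := isConj_iff.2 ⟨n, hd.symm⟩
      exact (hsr b).elim (fun h => h0 (h.trans hc.symm)) (fun h => h1 (h.trans hc.symm))

end Cfsg.Agent.S3864
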