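import Cfsg.Statements.S3865
import Cfsg.Agent.Lib.MaxClassP.Centralizer

set_option autoImplicit false
open Cfsg

namespace Cfsg.Agent.S3865

open CfsgLib CfsgLib.MaxClassP
open scoped commutatorElement

universe u

variable {G : Type u} [Group G] [Finite G] {p : ℕ} [hp : Fact p.Prime]

theorem mem_primeCore {N : Subgroup G} [hN : N.Normal] (h : (Nat.card N).Coprime p) :
    N ≤ Cfsg.pPrimeCore p G :=
  le_sSup (show N ∈ _ from ⟨hN, h⟩)

/-- A normal subgroup meeting the Sylow subgroup in a subgroup of order `p` inside the derived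
subgroup and the centre of the Sylow subgroup is that subgroup. -/
theorem eq_of_small_sylow (P : Sylow p G) (hcore : Cfsg.pPrimeCore p G = ⊥) (N : Subgroup G)
    [hN : N.Normal] {Z : Subgroup G} (hZ : Z = N ⊓ (P : Subgroup G)) (hZc : Nat.card Z = p)
    (hZd : Z ≤ (commutator (P : Subgroup G)).map (P : Subgroup G).subtype)
    (hZP : ∀ z ∈ Z, ∀ y ∈ (P : Subgroup G), z * y = y * z) : N = Z := by
  have hp' := hp.out
  have hZN : Z ≤ N := hZ ▸ inf_le_left
  set ZN := Z.subgroupOf N with hZNdef
  -- `Z` is a Sylow subgroup of `N`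
  have hndvd : ¬ p ∣ ZN.index := by
    intro hd
    have hZNc : Nat.card ZN = p := by
      rw [Nat.card_congr (Subgroup.subgroupOfEquivOfLe hZN).toEquiv, hZc]
    obtain ⟨Q, hQ⟩ := (IsPGroup.of_card (p := p) (n := 1) (G := ZN) (by rw [hZNc, pow_one])).exists_le_sylow
    obtain ⟨R, hR⟩ := (Q.2.map N.subtype).exists_le_sylow
    obtain ⟨g, hg⟩ := MulAction.exists_smul_eq G R P
    have hle : ((Q : Subgroup N).map N.subtype).map (MulAut.conj g).toMonoidHom ≤ Z := by
      rw [hZ]
      rintro _ ⟨x, hx, rfl⟩
      obtain ⟨y, hy, rfl⟩ := hx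
      refine ⟨hN.conj_mem _ y.2 g, ?_⟩
      rw [← hg]
      exact Subgroup.smul_mem_pointwise_smul _ (MulAut.conj g) _ (hR ⟨y, hy, rfl⟩)
    have hQc := Subgroup.card_le_of_le hle
    rw [Subgroup.card_map_of_injective (MulAut.conj g).injective,
      Subgroup.card_map_of_injective N.subtype_injective, hZc] at hQc
    have hQe : (Q : Subgroup N) = ZN := (Subgroup.eq_of_le_of_card_ge hQ (by rw [hZNc]; exact hQc)).symm
    exact Q.not_dvd_index (hQe.symm ▸ hd)
  have hZNc : Nat.card ZN = p := by
    rw [Nat.card_congr (Subgroup.subgroupOfEquivOfLe hZN).toEquiv, hZc]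
  have hZNp : IsPGroup p ZN := IsPGroup.of_card (n := 1) (by rw [hZNc, pow_one])
  let S : Sylow p N := hZNp.toSylow hndvd
  have hS : (S : Subgroup N) = ZN := rfl
  -- the automizer of `Z` in `N` is trivial
  have hcent : Subgroup.normalizer ((S : Subgroup N) : Set N) ≤
      Subgroup.centralizer ((S : Subgroup N) : Set N) := by
    intro k hk
    rw [hS] at hk ⊢
    by_contra hnc
    set C := Subgroup.centralizer (ZN : Set N)
    set SC := ZN.subgroupOf C with hSC
    have hZC : ZN ≤ C := fun z hz => Subgroup.mem_centralizer_iff.2 fun w hw => Subtype.ext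
      (hZP _ hw _ ((hZ ▸ (show ((z : N) : G) ∈ Z from hz) : ((z : N) : G) ∈ N ⊓ (P : Subgroup G))).2)
    have hSCc : Nat.card SC = p := by
      rw [Nat.card_congr (Subgroup.subgroupOfEquivOfLe hZC).toEquiv, hZNc]
    let T : Sylow p C := (IsPGroup.of_card (p := p) (n := 1) (by rw [hSCc, pow_one])).toSylow
      (show ¬ p ∣ SC.index from fun hd => hndvd (hd.trans (Subgroup.relIndex_dvd_index_of_le hZC)))
    have hT : Subgroup.normalizer ((T : Subgroup C) : Set C) ≤
        Subgroup.centralizer ((T : Subgroup C) : Set C) := fun c _ =>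
      Subgroup.mem_centralizer_iff.2 fun w hw => Subtype.ext
        (Subgroup.mem_centralizer_iff.1 c.2 (w : N) hw)
    let τ := MonoidHom.transferSylow T hT
    have hcop : Nat.Coprime p (T : Subgroup C).index := hp'.coprime_iff_not_dvd.2 T.not_dvd_index
    have hinj : ∀ a b : (T : Subgroup C), a ^ (T : Subgroup C).index = b ^ (T : Subgroup C).index → a = b := by
      intro a b hab
      have h1 : (Nat.card (T : Subgroup C)).Coprime (T : Subgroup C).index := by
        rw [show Nat.card (T : Subgroup C) = p from hSCc]; exact hcop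
      exact (powCoprime h1).injective hab
    -- conjugation by an element of `P` does not change the transfer
    have hconj : ∀ y ∈ (P : Subgroup G), ∀ c c' : C,
        (((c' : N) : G)) = y * ((c : N) : G) * y⁻¹ → τ c' = τ c := by
      intro y hy c c' hcc'
      have hmem : ∀ d : C, d ^ (T : Subgroup C).index ∈ (T : Subgroup C) := by
        have hn : (T : Subgroup C).Normal := ⟨fun z hz g => by
          have h1 : (g : C) * z * g⁻¹ = z := Subtype.ext (by
              show ((g : C) : N) * z * ((g : C) : N)⁻¹ = z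
              rw [← Subgroup.mem_centralizer_iff.1 g.2 (z : N) hz, mul_inv_cancel_right])
          rw [h1]; exact hz⟩
        exact fun d => Subgroup.pow_index_mem _ d
      have hpw : c' ^ (T : Subgroup C).index = c ^ (T : Subgroup C).index := by
        apply Subtype.ext; apply Subtype.ext
        have hd : (((c ^ (T : Subgroup C).index : C) : N) : G) ∈ Z := hmem c
        simp only [SubgroupClass.coe_pow] at hd ⊢
        rw [hcc', conj_pow, ← hZP _ hd y hy, mul_inv_cancel_right]
      apply hinj
      rw [← map_pow, ← map_pow, hpw]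
    -- commutators of `k` with `P`
    have hkC : ∀ y ∈ (P : Subgroup G), ∃ c : C, ((c : N) : G) = ⁅(k : G), y⁆ := by
      intro y hy
      have hm : ⁅(k : G), y⁆ ∈ N := by
        rw [show ⁅(k : G), y⁆ = k * (y * (k : G)⁻¹ * y⁻¹) by rw [commutatorElement_def]; group]
        exact mul_mem k.2 (hN.conj_mem _ (inv_mem k.2) y)
      refine ⟨⟨⟨_, hm⟩, Subgroup.mem_centralizer_iff.2 fun w hw => Subtype.ext ?_⟩, rfl⟩
      have hw' : ((w : N) : G) ∈ Z := hw
      have hk1 : (k : G)⁻¹ * (w : G) * k ∈ Z := by
        have h1 := (Subgroup.mem_normalizer_iff''.1 hk w).1 hw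
        exact h1
      have e1 : (w : G) * y = y * w := hZP _ hw' y hy
      have e2 := hZP _ hk1 y hy
      show (w : G) * ⁅(k : G), y⁆ = ⁅(k : G), y⁆ * w
      have e3 : y⁻¹ * (w : G) * y = w := by rw [mul_assoc, e1, inv_mul_cancel_left]
      have e4 : y * ((k : G)⁻¹ * w * k) * y⁻¹ = (k : G)⁻¹ * w * k := by
        rw [← e2, mul_inv_cancel_right]
      calc (w : G) * ⁅(k : G), y⁆
          = k * ((k : G)⁻¹ * w * k) * (y * (k : G)⁻¹ * y⁻¹) := by rw [commutatorElement_def]; group
        _ = k * (y * ((k : G)⁻¹ * w * k) * y⁻¹) * (y * (k : G)⁻¹ * y⁻¹) := by rw [e4]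
        _ = ⁅(k : G), y⁆ * (y * w * y⁻¹) := by rw [commutatorElement_def]; group
        _ = ⁅(k : G), y⁆ * w := by rw [← e1, mul_inv_cancel_right]
    choose! cm hcm using hkC
    let f : (P : Subgroup G) →* (T : Subgroup C) := MonoidHom.mk'
      (fun y => τ (cm (y : G))) fun y y' => by
        have h1 : (cm ((y * y' : (P : Subgroup G)) : G) : C) = cm (y : G) *
            ⟨⟨(y : G) * ((cm (y' : G) : C) : G) * (y : G)⁻¹, hN.conj_mem _ (cm (y' : G) : N).2 _⟩,
              Subgroup.mem_centralizer_iff.2 fun w hw => Subtype.ext (by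
                show (w : G) * _ = _ * (w : G)
                have e1 : (w : G) * (y : G) = y * w := hZP _ hw _ y.2
                have e1' : (w : G) * (y : G)⁻¹ = (y : G)⁻¹ * w := (Commute.inv_right e1).eq
                have e2 : (w : G) * ((cm (y' : G) : C) : G) = ((cm (y' : G) : C) : G) * w :=
                  congrArg Subtype.val (Subgroup.mem_centralizer_iff.1 (cm (y' : G)).2 w hw)
                calc (w : G) * ((y : G) * _ * (y : G)⁻¹)
                    = (w * y) * ((cm (y' : G) : C) : G) * (y : G)⁻¹ := by group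
                  _ = y * (w * ((cm (y' : G) : C) : G)) * (y : G)⁻¹ := by rw [e1]; group
                  _ = y * ((cm (y' : G) : C) : G) * (w * (y : G)⁻¹) := by rw [e2]; group
                  _ = _ := by rw [e1']; group)⟩ := by
          apply Subtype.ext; apply Subtype.ext
          show ((cm ((y * y' : (P : Subgroup G)) : G) : C) : G) =
            ((cm (y : G) : C) : G) * ((y : G) * ((cm (y' : G) : C) : G) * (y : G)⁻¹)
          rw [hcm _ (y * y').2, hcm _ y.2, hcm _ y'.2, Subgroup.coe_mul]
          simp only [commutatorElement_def]; group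
        show τ (cm _) = τ (cm _) * τ (cm _)
        rw [h1, map_mul]; congr 1; exact hconj _ y.2 (cm (y' : G)) _ rfl
    apply hnc
    refine Subgroup.mem_centralizer_iff.2 fun w hw => ?_
    have hw' : (w : G) ∈ Z := hw
    obtain ⟨y, hy, hyw⟩ := Subgroup.mem_map.1 (hZd hw')
    have hfy : f y = 1 := by
      have hcomm : IsMulCommutative (T : Subgroup C) :=
        isMulCommutative_iff.2 fun a b => Subtype.ext
          (Subgroup.mem_centralizer_iff.1 (hT (Subgroup.le_normalizer a.2)) b b.2).symm
      let _ : CommGroup (T : Subgroup C) := { (inferInstance : Group (T : Subgroup C)) with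
        mul_comm := hcomm.is_comm.comm }
      exact Abelianization.commutator_subset_ker f hy
    have hwP : (w : G) ∈ (P : Subgroup G) := hyw ▸ y.2
    have hc1 : cm (w : G) = 1 := by
      have hmemT : cm (w : G) ∈ (T : Subgroup C) := by
        show ((cm (w : G) : C) : G) ∈ Z
        rw [hcm _ hwP, commutatorElement_def,
          show (k : G) * w * (k : G)⁻¹ * (w : G)⁻¹ = ((k : G) * w * (k : G)⁻¹) * (w : G)⁻¹ by group]
        exact mul_mem ((Subgroup.mem_normalizer_iff.1 hk w).1 hw) (inv_mem hw')
      have h1 : τ (cm (w : G)) = 1 := by rw [← hyw]; exact hfy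
      rw [show τ = MonoidHom.transferSylow T hT from rfl,
        MonoidHom.transferSylow_eq_pow T hT _ hmemT] at h1
      have h2 : (⟨cm (w : G), hmemT⟩ : (T : Subgroup C)) = 1 :=
        hinj _ 1 (by rw [one_pow]; exact Subtype.ext (congrArg Subtype.val h1))
      exact congrArg Subtype.val h2
    have h2 : ⁅(k : G), (w : G)⁆ = 1 := by rw [← hcm _ hwP, hc1]; rfl
    exact Subtype.ext (commutatorElement_eq_one_iff_mul_comm.1 h2).symm
  -- a normal p-complement of `N`
  have hker := MonoidHom.ker_transferSylow_isComplement' S hcent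
  set U := (MonoidHom.transferSylow S hcent).ker with hU
  have hUc : (Nat.card U).Coprime p := by
    have h1 := hker.card_mul
    have h2 := ZN.card_mul_index
    rw [hS, hZNc, ← h2, hZNc, mul_comm] at h1
    rw [Nat.eq_of_mul_eq_mul_left hp'.pos h1]
    exact (hp'.coprime_iff_not_dvd.2 hndvd).symm
  have hUchar : U.Characteristic := by
    refine Subgroup.characteristic_iff_map_le.2 fun φ => ?_
    rintro _ ⟨u, hu, rfl⟩
    have ho : ¬ p ∣ orderOf (φ u) := fun hd => by
      rw [MulEquiv.orderOf_eq] at hd
      exact hp'.coprime_iff_not_dvd.1 hUc.symm (hd.trans (Subgroup.orderOf_dvd_natCard U hu))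
    show MonoidHom.transferSylow S hcent (φ u) = 1
    rw [← orderOf_eq_one_iff]
    refine Nat.eq_one_of_dvd_coprimes (hp'.coprime_iff_not_dvd.2 ho)
      ?_ (orderOf_map_dvd _ _)
    exact (orderOf_dvd_natCard _).trans (dvd_of_eq hZNc)
  have hmap : U.map N.subtype ≤ Cfsg.pPrimeCore p G := by
    refine mem_primeCore (hN := ConjAct.normal_of_characteristic_of_normal) ?_
    rwa [Subgroup.card_map_of_injective N.subtype_injective]
  rw [hcore, le_bot_iff, Subgroup.map_eq_bot_iff_of_injective _ N.subtype_injective] at hmap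
  have h1 := hker.card_mul
  rw [hS, hmap, Subgroup.card_bot, one_mul, hZNc] at h1
  exact (Subgroup.eq_of_le_of_card_ge hZN (by rw [hZc, h1])).symm


/-- Let G be a finite group whose Sylow p-subgroup P has order p ^ n with n ≥ 2 and nilpotency class n - 1 (maximal class), whose largest normal subgroup of order prime to p is trivial, and which has no proper normal subgroup of index prime to p. Then either some x ∈ P has a centralizer in G whose order has p-part p ^ 2, or G is quasisimple with centre of order at most p. -/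
theorem result {G : Type*} [Group G] [Finite G] (p : ℕ) [Fact p.Prime] (P : Sylow p G) (n : ℕ) (hP : Nat.card P = p ^ n) (hn : 2 ≤ n) (hmax : Group.nilpotencyClass ↥(P : Subgroup G) = n - 1) (hcore : Cfsg.pPrimeCore p G = ⊥) (hres : ∀ N : Subgroup G, N.Normal → (N.index).Coprime p → N = ⊤) : (∃ x ∈ (P : Subgroup G), (Nat.card (Subgroup.centralizer ({x} : Set G))).factorization p = 2) ∨ (Cfsg.IsQuasisimple G ∧ Nat.card (Subgroup.center G) ≤ p) := by
  have hp' : Fact p.Prime := ‹_›
  by_cases hn2 : n = 2
  · left
    refine ⟨1, one_mem _, ?_⟩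
    have h1 : Nat.card (Subgroup.centralizer ({1} : Set G)) = Nat.card G := by
      rw [show Subgroup.centralizer ({1} : Set G) = ⊤ from top_le_iff.1 fun g _ =>
        Subgroup.mem_centralizer_singleton_iff.2 (by rw [mul_one, one_mul]), Subgroup.card_top]
    rw [h1]
    have h2 := P.card_eq_multiplicity
    rw [hP, hn2] at h2
    exact (Nat.pow_right_injective hp'.out.two_le h2).symm
  have hn3 : 3 ≤ n := by omega
  by_cases hex : ∃ x ∈ (P : Subgroup G),
      (Nat.card (Subgroup.centralizer ({x} : Set G))).factorization p = 2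
  · exact Or.inl hex
  right
  have hMC : MC p n (P : Subgroup G) := ⟨hP, hmax, hn3⟩
  have hPp : IsPGroup p (P : Subgroup G) := P.2
  set Z := W (P : Subgroup G) n 1 with hZdef
  have hZc : Nat.card Z = p := by rw [hZdef, card_W hMC (by omega), pow_one]
  have hZP : ∀ z ∈ Z, ∀ y ∈ (P : Subgroup G), z * y = y * z := by
    rintro _ ⟨z, hz, rfl⟩ y hy
    rw [show n - 1 - 1 = n - 2 by omega] at hz
    exact congrArg Subtype.val (Subgroup.mem_center_iff.1 (L_last_le_center hMC hz) ⟨y, hy⟩).symm
  -- no element with small centralizer restricts the normal subgroups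
  have key : ∀ N : Subgroup G, N.Normal → N ≠ ⊤ → N ⊓ (P : Subgroup G) ≠ ⊥ →
      4 ≤ n ∧ N ⊓ (P : Subgroup G) = Z := by
    intro N hN hNtop hNP
    set M := N.subgroupOf (P : Subgroup G) with hM
    have hMn : M.Normal := hN.subgroupOf _
    have hMtop : M ≠ ⊤ := fun ht => by
      have hle : (P : Subgroup G) ≤ N := Subgroup.subgroupOf_eq_top.1 ht
      exact hNtop (hres N hN (Nat.Coprime.symm (hp'.out.coprime_iff_not_dvd.2 fun hd =>
        P.not_dvd_index (hd.trans (Subgroup.index_dvd_of_le hle)))))
    obtain ⟨r, hr⟩ := hPp.index M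
    have hMcard : Nat.card M * p ^ r = p ^ n := by rw [← hr, M.card_mul_index]; exact hP
    have hrn : r ≤ n - 1 := by
      have hne : M ≠ ⊥ := fun hb => hNP (eq_bot_iff.2 fun x hx => by
        have hxM : (⟨x, hx.2⟩ : (P : Subgroup G)) ∈ M := hx.1
        rw [hb, Subgroup.mem_bot] at hxM
        rw [Subgroup.mem_bot]; exact congrArg Subtype.val hxM)
      by_contra hr'
      have h1 : 1 < Nat.card M := Finite.one_lt_card_iff_nontrivial.2
        ((Subgroup.nontrivial_iff_ne_bot M).2 hne)
      have h2 : p ^ n ≤ p ^ r := Nat.pow_le_pow_right hp'.out.pos (by omega)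
      have h3 := pow_pos hp'.out.pos n
      nlinarith
    have hcontains : ∀ m, m + 2 ≤ n → m + r ≤ n → L (P : Subgroup G) (n - 1 - m) ≤ M := by
      intro m hm hmr
      rcases Nat.lt_or_ge r 2 with hr2 | hr2
      · refine (L_mono (i := 1) (by omega)).trans ?_
        rw [L, Subgroup.top_lowerCentralSeries_one]
        have : IsCyclic ((P : Subgroup G) ⧸ M) := by
          rcases (by omega : r = 0 ∨ r = 1) with rfl | rfl
          · rw [pow_zero] at hr
            have := (Nat.card_eq_one_iff_unique.1 (M.index_eq_card ▸ hr)).1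
            exact isCyclic_of_subsingleton
          · exact isCyclic_of_prime_card (p := p) (by rw [← M.index_eq_card, hr, pow_one])
        let := IsCyclic.commGroup (α := (P : Subgroup G) ⧸ M)
        rw [commutator_def, Subgroup.commutator_le]
        intro a _ b _
        rw [← QuotientGroup.eq_one_iff]
        show QuotientGroup.mk' M ⁅a, b⁆ = 1
        rw [map_commutatorElement, commutatorElement_eq_one_iff_mul_comm]
        exact mul_comm _ _
      · rw [(Cfsg.Agent.S0662.result n hP hmax hn3).1 M r hr2 hr]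
        exact L_mono (by omega)
    by_cases hbig : n = 3 ∨ r + 2 ≤ n
    · exfalso
      obtain ⟨s, hs, hsM⟩ := exists_small hMC M hMtop
      apply hex
      refine ⟨s, s.2, factorization_centralizer hMC hs N (fun k hk hkn => ?_) hsM⟩
      rintro _ ⟨x, hx, rfl⟩
      exact hcontains (k + 1) (by omega) (by omega) hx
    push Not at hbig
    refine ⟨by omega, ?_⟩
    have hr1 : r = n - 1 := by omega
    have hMc : Nat.card M = p := by
      rw [hr1, show p ^ n = p * p ^ (n - 1) by rw [← pow_succ']; congr 1; omega] at hMcard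
      exact Nat.eq_of_mul_eq_mul_right (pow_pos hp'.out.pos _) hMcard
    refine (Subgroup.eq_of_le_of_card_ge (fun x hx => ?_) ?_).symm
    · obtain ⟨x, hx, rfl⟩ := hx
      exact ⟨hcontains 1 (by omega) (by omega) hx, x.2⟩
    · refine le_of_eq ?_
      rw [hZc]
      have h5 : Nat.card (M.map (P : Subgroup G).subtype) = Nat.card M :=
        Subgroup.card_map_of_injective (P : Subgroup G).subtype_injective
      rw [hM, Subgroup.subgroupOf_map_subtype] at h5
      exact h5.trans hMc
  have htriv : ∀ N : Subgroup G, N.Normal → N ⊓ (P : Subgroup G) = ⊥ → N = ⊥ := by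
    intro N hN hNP
    refine le_bot_iff.1 ((mem_primeCore (hN := hN) ?_).trans hcore.le)
    refine (hp'.out.coprime_iff_not_dvd.2 fun hd => ?_).symm
    obtain ⟨x, hx⟩ := exists_prime_orderOf_dvd_card' p hd
    obtain ⟨Q, hQ⟩ := (IsPGroup.of_card (p := p) (n := 1) (G := Subgroup.zpowers (x : G))
      (by rw [Nat.card_zpowers, Subgroup.orderOf_coe, hx, pow_one])).exists_le_sylow
    obtain ⟨g, hg⟩ := MulAction.exists_smul_eq G Q P
    have h1 : g * (x : G) * g⁻¹ ∈ N ⊓ (P : Subgroup G) := by
      refine ⟨hN.conj_mem _ x.2 g, ?_⟩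
      rw [← hg]
      exact Subgroup.smul_mem_pointwise_smul _ (MulAut.conj g) _ (hQ (Subgroup.mem_zpowers _))
    rw [hNP, Subgroup.mem_bot, conj_eq_one_iff] at h1
    rw [← Subgroup.orderOf_coe, h1, orderOf_one] at hx
    exact hp'.out.ne_one hx.symm
  have hsmall : ∀ N : Subgroup G, N.Normal → N ≠ ⊤ → N ≠ ⊥ → N = Z ∧ 4 ≤ n := by
    intro N hN hNtop hNbot
    obtain ⟨h4, hNZ⟩ := key N hN hNtop fun hb => hNbot (htriv N hN hb)
    refine ⟨eq_of_small_sylow P hcore N hNZ.symm hZc (Subgroup.map_mono ?_) hZP, h4⟩
    rw [← Subgroup.top_lowerCentralSeries_one]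
    exact L_mono (by omega)
  have hperf : commutator G = ⊤ := by
    by_contra hne
    have hPd : (commutator (P : Subgroup G)).map (P : Subgroup G).subtype ≤
        commutator G ⊓ (P : Subgroup G) := le_inf ((Subgroup.map_commutator _ _ _).le.trans
          (Subgroup.commutator_mono le_top le_top)) (Subgroup.map_subtype_le _)
    have hdc : Nat.card ((commutator (P : Subgroup G)).map (P : Subgroup G).subtype) = p ^ (n - 2) := by
      rw [Subgroup.card_map_of_injective (P : Subgroup G).subtype_injective,
        ← Subgroup.top_lowerCentralSeries_one]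
      exact (card_L hMC le_rfl (by omega)).trans (by congr 1)
    have hnb : commutator G ⊓ (P : Subgroup G) ≠ ⊥ := fun hb => by
      rw [hb, le_bot_iff] at hPd
      rw [hPd, Subgroup.card_bot] at hdc
      exact absurd hdc.symm (Nat.ne_of_gt (Nat.one_lt_pow (by omega) hp'.out.one_lt))
    obtain ⟨h4, hZ'⟩ := key _ inferInstance hne hnb
    have h1 := Subgroup.card_le_of_le (hPd.trans hZ'.le)
    rw [hdc, hZc] at h1
    have h2 := Nat.pow_lt_pow_right hp'.out.one_lt (show 1 < n - 2 by omega)
    rw [pow_one] at h2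
    omega
  have hperf' : Group.IsPerfect G := ⟨hperf⟩
  have hPna : commutator (P : Subgroup G) ≠ ⊥ := fun hb => by
    have h1 := card_L hMC (j := 1) le_rfl (by omega)
    rw [L, Subgroup.top_lowerCentralSeries_one, hb, Subgroup.card_bot] at h1
    exact absurd h1.symm (Nat.ne_of_gt (Nat.one_lt_pow (by omega) hp'.out.one_lt))
  have hcentral : ∀ N : Subgroup G, N.Normal → N ≠ ⊤ → N ≤ Subgroup.center G := by
    intro N hN hNtop
    rcases eq_or_ne N ⊥ with rfl | hNbot
    · exact bot_le
    obtain ⟨hNZ, -⟩ := hsmall N hN hNtop hNbot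
    have hNc : Nat.card N = p := hNZ ▸ hZc
    have : IsCyclic N := isCyclic_of_prime_card hNc
    let f : G →* MulAut N := MulAut.conjNormal
    have hker : commutator G ≤ f.ker := by
      rw [commutator_def, Subgroup.commutator_le]
      intro a _ b _
      rw [MonoidHom.mem_ker, map_commutatorElement, commutatorElement_eq_one_iff_mul_comm]
      exact (IsCyclic.mulAutMulEquiv N).injective (by rw [map_mul, map_mul, mul_comm])
    intro x hx
    refine Subgroup.mem_center_iff.2 fun g => ?_
    have hg : f g = 1 := hker (hperf.symm ▸ Subgroup.mem_top g)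
    have h2 : g * x * g⁻¹ = x := congrArg Subtype.val (MulEquiv.ext_iff.1 hg ⟨x, hx⟩)
    calc g * x = g * x * g⁻¹ * g := by group
      _ = x * g := by rw [h2]
  have hctop : Subgroup.center G ≠ ⊤ := fun ht => by
    apply hPna
    rw [eq_bot_iff, commutator_def, Subgroup.commutator_le]
    intro a _ b _
    rw [Subgroup.mem_bot, commutatorElement_eq_one_iff_mul_comm]
    exact Subtype.ext (Subgroup.mem_center_iff.1 (ht.symm ▸ Subgroup.mem_top (b : G) : (b : G) ∈ Subgroup.center G) a)
  refine ⟨⟨hperf', ?_⟩, ?_⟩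
  · have : Nontrivial (G ⧸ Subgroup.center G) := QuotientGroup.nontrivial_iff.2 hctop
    refine ⟨fun H hH => ?_⟩
    set q := QuotientGroup.mk' (Subgroup.center G)
    by_cases hT : H.comap q = ⊤
    · right
      rw [← Subgroup.map_comap_eq_self_of_surjective (QuotientGroup.mk'_surjective _) H, hT,
        Subgroup.map_top_of_surjective _ (QuotientGroup.mk'_surjective _)]
    · left
      rw [← Subgroup.map_comap_eq_self_of_surjective (QuotientGroup.mk'_surjective _) H,
        Subgroup.map_eq_bot_iff, QuotientGroup.ker_mk']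
      exact hcentral _ (hH.comap q) hT
  · rcases eq_or_ne (Subgroup.center G) ⊥ with h | h
    · rw [h, Subgroup.card_bot]; exact hp'.out.pos
    · rw [(hsmall _ inferInstance hctop h).1, hZc]

end Cfsg.Agent.S3865
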