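import Cfsg.Statements.S3866
import Mathlib


set_option autoImplicit false
open Cfsg

namespace Cfsg.Agent.S3866

/-- Let A be a commutative normal subgroup of the finite group G with G generated by A and an element x. Then a ↦ x a x⁻¹ a⁻¹ is a surjective homomorphism from A onto the commutator subgroup of G whose kernel is the centralizer of x in A; in particular the commutator subgroup has order equal to the index in A of that centralizer. -/
theorem result {G : Type*} [Group G] [Finite G] (A : Subgroup G) [A.Normal] (hA : IsMulCommutative A) (x : G) (hgen : A ⊔ Subgroup.zpowers x = ⊤) : (∀ a ∈ A, x * a * x⁻¹ * a⁻¹ ∈ commutator G) ∧ (∀ c ∈ commutator G, ∃ a ∈ A, x * a * x⁻¹ * a⁻¹ = c) ∧ (∀ a ∈ A, ∀ b ∈ A, x * (a * b) * x⁻¹ * (a * b)⁻¹ = (x * a * x⁻¹ * a⁻¹) * (x * b * x⁻¹ * b⁻¹)) ∧ Nat.card (commutator G) * Nat.card ↥(A ⊓ Subgroup.centralizer ({x} : Set G)) = Nat.card A := by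
  haveI := hA
  have hcomm : ∀ a ∈ A, ∀ b ∈ A, a * b = b * a := fun a ha b hb =>
    congrArg Subtype.val (mul_comm' (⟨a, ha⟩ : A) ⟨b, hb⟩)
  have hcA : ∀ a ∈ A, x * a * x⁻¹ * a⁻¹ ∈ A := fun a ha =>
    mul_mem (Subgroup.Normal.conj_mem inferInstance a ha x) (inv_mem ha)
  have hmul : ∀ a ∈ A, ∀ b ∈ A, x * (a * b) * x⁻¹ * (a * b)⁻¹ =
      (x * a * x⁻¹ * a⁻¹) * (x * b * x⁻¹ * b⁻¹) := by
    intro a ha b hb
    have h1 := hcomm _ (inv_mem ha) _ (hcA b hb)
    calc x * (a * b) * x⁻¹ * (a * b)⁻¹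
        = x * a * x⁻¹ * ((x * b * x⁻¹ * b⁻¹) * a⁻¹) := by group
      _ = (x * a * x⁻¹ * a⁻¹) * (x * b * x⁻¹ * b⁻¹) := by rw [← h1]; group
  let φ : A →* G :=
    { toFun := fun a => x * a * x⁻¹ * (a : G)⁻¹
      map_one' := by simp
      map_mul' := fun a b => hmul a a.2 b b.2 }
  have hin : ∀ a ∈ A, x * a * x⁻¹ * a⁻¹ ∈ commutator G := fun a _ =>
    Subgroup.commutator_mem_commutator (Subgroup.mem_top x) (Subgroup.mem_top a)
  set K := φ.range with hK
  have hKA : K ≤ A := by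
    rintro _ ⟨a, rfl⟩
    exact hcA a a.2
  -- the image is a normal subgroup
  have hKx : ∀ t : G, (Commute t x) → ∀ y ∈ K, t * y * t⁻¹ ∈ K := by
    rintro t ht _ ⟨a, rfl⟩
    refine ⟨⟨t * a * t⁻¹, Subgroup.Normal.conj_mem inferInstance _ a.2 t⟩, ?_⟩
    show x * (t * a * t⁻¹) * x⁻¹ * (t * a * t⁻¹)⁻¹ = t * (x * a * x⁻¹ * (a : G)⁻¹) * t⁻¹
    calc x * (t * a * t⁻¹) * x⁻¹ * (t * a * t⁻¹)⁻¹
        = (x * t) * a * (x * t)⁻¹ * (t * (a : G)⁻¹ * t⁻¹) := by group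
      _ = t * (x * a * x⁻¹ * (a : G)⁻¹) * t⁻¹ := by rw [ht.symm.eq]; group
  have hgen' : ∀ g : G, ∃ a ∈ A, ∃ k : ℤ, g = a * x ^ k := fun g => by
    obtain ⟨a, ha, z, hz, rfl⟩ := Subgroup.mem_sup_of_normal_left.1
      (hgen.symm ▸ Subgroup.mem_top g : g ∈ A ⊔ Subgroup.zpowers x)
    obtain ⟨k, rfl⟩ := Subgroup.mem_zpowers_iff.1 hz
    exact ⟨a, ha, k, rfl⟩
  have hKn : K.Normal := by
    refine ⟨fun y hy g => ?_⟩
    obtain ⟨a, ha, k, rfl⟩ := hgen' g
    have h1 := hKx (x ^ k) ((Commute.refl x).zpow_left k) y hy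
    have h2 := hcomm a ha _ (hKA h1)
    rw [show a * x ^ k * y * (a * x ^ k)⁻¹ = a * (x ^ k * y * (x ^ k)⁻¹) * a⁻¹ by group, h2,
      mul_inv_cancel_right]
    exact h1
  haveI := hKn
  set q := QuotientGroup.mk' K with hq
  have hxa : ∀ a ∈ A, Commute (q x) (q a) := fun a ha => by
    have h1 : q (x * a * x⁻¹ * a⁻¹) = 1 := (QuotientGroup.eq_one_iff _).2 ⟨⟨a, ha⟩, rfl⟩
    rw [map_mul, map_mul, map_mul, map_inv, map_inv, mul_inv_eq_one, mul_inv_eq_iff_eq_mul] at h1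
    exact h1
  have hle : commutator G ≤ K := by
    refine Subgroup.Normal.quotient_commutative_iff_commutator_le.1 ⟨⟨fun u v => ?_⟩⟩
    obtain ⟨g, rfl⟩ := QuotientGroup.mk'_surjective K u
    obtain ⟨h, rfl⟩ := QuotientGroup.mk'_surjective K v
    obtain ⟨a, ha, k, rfl⟩ := hgen' g
    obtain ⟨b, hb, l, rfl⟩ := hgen' h
    show q (a * x ^ k) * q (b * x ^ l) = q (b * x ^ l) * q (a * x ^ k)
    rw [map_mul q a, map_mul q b, map_zpow, map_zpow]
    have hab : Commute (q a) (q b) := by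
      show q a * q b = q b * q a
      rw [← map_mul, ← map_mul, hcomm a ha b hb]
    exact ((hab.mul_right ((hxa a ha).symm.zpow_right l)).mul_left
      (((hxa b hb).zpow_left k).mul_right ((Commute.refl (q x)).zpow_zpow k l))).eq
  have heq : commutator G = K := le_antisymm hle (by rintro _ ⟨a, rfl⟩; exact hin a a.2)
  refine ⟨hin, fun c hc => ?_, hmul, ?_⟩
  · rw [heq] at hc
    obtain ⟨a, rfl⟩ := hc
    exact ⟨a, a.2, rfl⟩
  · have hker : φ.ker.map A.subtype = A ⊓ Subgroup.centralizer ({x} : Set G) := by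
      ext y
      constructor
      · rintro ⟨a, ha, rfl⟩
        refine ⟨a.2, Subgroup.mem_centralizer_singleton_iff.2 ?_⟩
        have h1 : x * a * x⁻¹ * (a : G)⁻¹ = 1 := ha
        rw [mul_inv_eq_one, mul_inv_eq_iff_eq_mul] at h1
        exact h1.symm
      · rintro ⟨hy, hyc⟩
        refine ⟨⟨y, hy⟩, ?_, rfl⟩
        show x * y * x⁻¹ * y⁻¹ = 1
        rw [(Subgroup.mem_centralizer_singleton_iff.1 hyc).symm, mul_inv_cancel_right, mul_inv_cancel]
    rw [heq, ← hker, Subgroup.card_map_of_injective A.subtype_injective, hK, ← Subgroup.index_ker,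
      mul_comm, Subgroup.card_mul_index]

end Cfsg.Agent.S3866
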