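import Cfsg.Statements.S3867
import Mathlib


set_option autoImplicit false
open Cfsg

namespace Cfsg.Agent.S3867

/-- The Sylow number of a quotient is the index of the subgroup spanned by the normaliser. -/
theorem card_sylow_quotient {G : Type*} [Group G] [Finite G] {p : ℕ} [Fact p.Prime]
    (K : Subgroup G) [K.Normal] (P : Sylow p G) :
    Nat.card (Sylow p (G ⧸ K)) = (Subgroup.normalizer ((P : Subgroup G) : Set G) ⊔ K).index := by
  set N := Subgroup.normalizer ((P : Subgroup G) : Set G) with hN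
  set Pb : Sylow p (G ⧸ K) := P.mapSurjective (QuotientGroup.mk'_surjective K) with hPb
  set NL := (Subgroup.normalizer ((Pb : Subgroup (G ⧸ K)) : Set (G ⧸ K))).comap
    (QuotientGroup.mk' K) with hNL
  have hN1 : N ≤ NL := fun g hg => Subgroup.le_normalizer_map (QuotientGroup.mk' K) ⟨g, hg, rfl⟩
  have hKN : K ≤ NL := fun g hg => by
    show QuotientGroup.mk' K g ∈ Subgroup.normalizer ((Pb : Subgroup (G ⧸ K)) : Set (G ⧸ K))
    rw [show QuotientGroup.mk' K g = 1 from (QuotientGroup.eq_one_iff g).2 hg]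
    exact one_mem _
  have heq : N ⊔ K = NL := by
    refine le_antisymm (sup_le hN1 hKN) (fun g hg => ?_)
    set L := (P : Subgroup G) ⊔ K with hL
    have hP' : (P : Subgroup G) ≤ L := le_sup_left
    have hLc : L = (Pb : Subgroup (G ⧸ K)).comap (QuotientGroup.mk' K) := by
      rw [hPb, Sylow.coe_mapSurjective, Subgroup.comap_map_eq, QuotientGroup.ker_mk']
    have hgP : ((g • P : Sylow p G) : Subgroup G) ≤ L := by
      intro y hy
      rw [Sylow.coe_subgroup_smul] at hy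
      obtain ⟨z, hz, rfl⟩ := hy
      have hz' : z ∈ L := hP' hz
      rw [hLc, Subgroup.mem_comap] at hz' ⊢
      show QuotientGroup.mk' K (g * z * g⁻¹) ∈ _
      rw [map_mul, map_mul, map_inv]
      exact (Subgroup.mem_normalizer_iff.1 (show QuotientGroup.mk' K g ∈
        Subgroup.normalizer ((Pb : Subgroup (G ⧸ K)) : Set (G ⧸ K)) from hg) _).1 hz'
    obtain ⟨m, hm⟩ := MulAction.exists_smul_eq L ((g • P).subtype hgP) (P.subtype hP')
    rw [Sylow.smul_subtype] at hm
    have hmg : ((m : G) * g) • P = P := by rw [mul_smul]; exact Sylow.subtype_injective hm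
    have hmem : (m : G) * g ∈ N := Sylow.smul_eq_iff_mem_normalizer.1 hmg
    have hmL : (m : G) ∈ N ⊔ K :=
      sup_le (Subgroup.le_normalizer.trans le_sup_left) le_sup_right m.2
    simpa using mul_mem (inv_mem hmL) (Subgroup.mem_sup_left (T := K) hmem)
  rw [heq, hNL, Subgroup.index_comap_of_surjective _ (QuotientGroup.mk'_surjective K)]
  exact Pb.card_eq_index_normalizer


/-- Let M and N be nontrivial normal subgroups of the finite group G with M ⊓ N trivial, and let p be a prime. Writing n(X) for the number of Sylow p-subgroups of a group X, one has n(G) · n(G/MN) = n(G/M) · n(G/N). -/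
theorem result {G : Type*} [Group G] [Finite G] (p : ℕ) [Fact p.Prime] (M N : Subgroup G) [M.Normal] [N.Normal] (hM : M ≠ ⊥) (hN : N ≠ ⊥) (hMN : M ⊓ N = ⊥) : Nat.card (Sylow p G) * Nat.card (Sylow p (G ⧸ (M ⊔ N))) = Nat.card (Sylow p (G ⧸ M)) * Nat.card (Sylow p (G ⧸ N)) := by
  obtain ⟨P⟩ := (inferInstance : Nonempty (Sylow p G))
  rw [card_sylow_quotient (M ⊔ N) P, card_sylow_quotient M P, card_sylow_quotient N P]
  set H := Subgroup.normalizer ((P : Subgroup G) : Set G) with hH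
  have hcomm : ∀ a ∈ M, ∀ b ∈ N, a * b = b * a := fun a ha b hb =>
    Subgroup.commute_of_normal_of_disjoint M N inferInstance inferInstance
      (disjoint_iff.2 hMN) a b ha hb
  have huniq : ∀ a ∈ M, ∀ b ∈ N, ∀ a' ∈ M, ∀ b' ∈ N, a * b = a' * b' → a = a' ∧ b = b' := by
    intro a ha b hb a' ha' b' hb' h
    have h1 : a'⁻¹ * a = b' * b⁻¹ := by
      rw [eq_mul_inv_iff_mul_eq, mul_assoc, h]; group
    have h2 : a'⁻¹ * a ∈ M ⊓ N :=
      Subgroup.mem_inf.2 ⟨M.mul_mem (M.inv_mem ha') ha, h1 ▸ N.mul_mem hb' (N.inv_mem hb)⟩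
    rw [hMN, Subgroup.mem_bot] at h2
    exact ⟨(inv_mul_eq_one.1 h2).symm, (mul_inv_eq_one.1 (h1.symm.trans h2)).symm⟩
  -- the M-component of an element of P in MN lies in P
  set T := ((((P : Subgroup G) ⊓ (M ⊔ N)) ⊔ N) ⊓ M) with hT
  have hTmem : ∀ t ∈ T, ∃ s ∈ (P : Subgroup G) ⊓ (M ⊔ N), ∃ c ∈ N, s * c = t := fun t ht =>
    Subgroup.mem_sup_of_normal_right.1 ht.1
  have hTp : IsPGroup p T := by
    rintro ⟨t, ht⟩
    obtain ⟨s, hs, c, hc, hsc⟩ := hTmem t ht
    obtain ⟨a, ha, b, hb, hab⟩ := Subgroup.mem_sup_of_normal_left.1 hs.2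
    obtain ⟨k, hk⟩ := P.2 ⟨s, hs.1⟩
    have hk' : s ^ p ^ k = 1 := congrArg Subtype.val hk
    have hat : a = t := (huniq a ha (b * c) (mul_mem hb hc) t ht.2 1 (one_mem _)
      (by rw [mul_one, ← mul_assoc, hab, hsc])).1
    rw [← hab, (show Commute a b from hcomm a ha b hb).mul_pow] at hk'
    refine ⟨k, Subtype.ext ?_⟩
    show t ^ p ^ k = 1
    rw [← hat]
    exact (huniq _ (pow_mem ha _) _ (pow_mem hb _) 1 (one_mem _) 1 (one_mem _)
      (by rw [hk', one_mul])).1
  have hPT : (P : Subgroup G) ≤ Subgroup.normalizer (T : Set G) := by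
    have key : ∀ u ∈ (P : Subgroup G), ∀ t ∈ T, u * t * u⁻¹ ∈ T := by
      intro u hu t ht
      obtain ⟨s, hs, c, hc, hsc⟩ := hTmem t ht
      refine ⟨Subgroup.mem_sup_of_normal_right.2 ⟨u * s * u⁻¹, ⟨Subgroup.mul_mem _ (Subgroup.mul_mem _ hu hs.1) (Subgroup.inv_mem _ hu),
        Subgroup.Normal.conj_mem inferInstance _ hs.2 u⟩, u * c * u⁻¹,
        Subgroup.Normal.conj_mem inferInstance _ hc u, by rw [← hsc]; group⟩,
        Subgroup.Normal.conj_mem inferInstance _ ht.2 u⟩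
    intro u hu
    rw [Subgroup.mem_normalizer_iff]
    exact fun t => ⟨key u hu t, fun h => by simpa [mul_assoc] using key _ (Subgroup.inv_mem _ hu) _ h⟩
  have hTP : T ≤ (P : Subgroup G) :=
    le_sup_right.trans (P.3 (P.2.to_sup_of_normal_right' hTp hPT) le_sup_left).le
  -- the normaliser meets MN in the product of its meets with M and N
  have hsplit : H ⊓ (M ⊔ N) = (H ⊓ M) ⊔ (H ⊓ N) := by
    refine le_antisymm ?_ (sup_le (inf_le_inf_left _ le_sup_left) (inf_le_inf_left _ le_sup_right))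
    intro y hy
    obtain ⟨m, hm, n, hn, rfl⟩ := Subgroup.mem_sup_of_normal_left.1 hy.2
    have hmH : m ∈ H := by
      rw [hH, Subgroup.mem_normalizer_iff_map_conj_eq]
      refine Subgroup.eq_of_le_of_card_ge ?_
        (Subgroup.card_map_of_injective (MulAut.conj m).injective).ge
      rintro _ ⟨u, hu, rfl⟩
      show m * u * m⁻¹ ∈ (P : Subgroup G)
      have hz : m * n * u * (m * n)⁻¹ ∈ (P : Subgroup G) :=
        (Subgroup.mem_normalizer_iff.1 hy.1 u).1 hu
      have hc1 : m * u * m⁻¹ * u⁻¹ ∈ M := by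
        simpa [mul_assoc] using mul_mem hm (Subgroup.Normal.conj_mem inferInstance _ (inv_mem hm) u)
      have hc2 : n * u * n⁻¹ * u⁻¹ ∈ N := by
        simpa [mul_assoc] using mul_mem hn (Subgroup.Normal.conj_mem inferInstance _ (inv_mem hn) u)
      have hsp : m * n * u * (m * n)⁻¹ * u⁻¹ =
          (m * u * m⁻¹ * u⁻¹) * (n * u * n⁻¹ * u⁻¹) := by
        have h1 := hcomm m hm _ hc2
        calc m * n * u * (m * n)⁻¹ * u⁻¹ = m * (n * u * n⁻¹ * u⁻¹) * (u * m⁻¹ * u⁻¹) := by group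
          _ = (n * u * n⁻¹ * u⁻¹) * (m * u * m⁻¹ * u⁻¹) := by rw [h1]; group
          _ = _ := (hcomm _ hc1 _ hc2).symm
      have hprod : (m * u * m⁻¹ * u⁻¹) * (n * u * n⁻¹ * u⁻¹) ∈ (P : Subgroup G) ⊓ (M ⊔ N) :=
        ⟨hsp ▸ Subgroup.mul_mem _ hz (Subgroup.inv_mem _ hu), Subgroup.mul_mem_sup hc1 hc2⟩
      have hcT : m * u * m⁻¹ * u⁻¹ ∈ T :=
        ⟨Subgroup.mem_sup_of_normal_right.2 ⟨_, hprod, _, inv_mem hc2, by group⟩, hc1⟩
      simpa using Subgroup.mul_mem _ (hTP hcT) hu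
    have hnH : n ∈ H := by simpa using mul_mem (inv_mem hmH) hy.1
    exact Subgroup.mul_mem_sup ⟨hmH, hm⟩ ⟨hnH, hn⟩
  have hcard : ∀ A B : Subgroup G, A ≤ M → B ≤ N →
      Nat.card ↥(A ⊔ B) = Nat.card A * Nat.card B := by
    intro A B hA hB
    rw [← Nat.card_prod]
    symm
    refine Nat.card_congr (Equiv.ofBijective
      (fun ab => ⟨(ab.1 : G) * ab.2, Subgroup.mul_mem_sup ab.1.2 ab.2.2⟩) ⟨?_, ?_⟩)
    · intro ⟨a, b⟩ ⟨a', b'⟩ h
      obtain ⟨h1, h2⟩ := huniq _ (hA a.2) _ (hB b.2) _ (hA a'.2) _ (hB b'.2) (congrArg Subtype.val h)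
      exact Prod.ext (Subtype.ext h1) (Subtype.ext h2)
    · rintro ⟨y, hy⟩
      suffices ∃ a ∈ A, ∃ b ∈ B, a * b = y by
        obtain ⟨a, ha, b, hb, hab⟩ := this
        exact ⟨(⟨a, ha⟩, ⟨b, hb⟩), Subtype.ext hab⟩
      rw [Subgroup.sup_eq_closure] at hy
      induction hy using Subgroup.closure_induction with
      | mem z hz =>
        rcases hz with hz | hz
        · exact ⟨z, hz, 1, one_mem _, mul_one z⟩
        · exact ⟨1, one_mem _, z, hz, one_mul z⟩
      | one => exact ⟨1, one_mem _, 1, one_mem _, one_mul 1⟩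
      | mul y z _ _ hy hz =>
        obtain ⟨a, ha, b, hb, rfl⟩ := hy
        obtain ⟨c, hc, d, hd, rfl⟩ := hz
        refine ⟨a * c, mul_mem ha hc, b * d, mul_mem hb hd, ?_⟩
        calc a * c * (b * d) = a * (c * b) * d := by group
          _ = a * b * (c * d) := by rw [hcomm c (hA hc) b (hB hb)]; group
      | inv y _ hy =>
        obtain ⟨a, ha, b, hb, rfl⟩ := hy
        refine ⟨a⁻¹, inv_mem ha, b⁻¹, inv_mem hb, ?_⟩
        rw [hcomm _ (inv_mem (hA ha)) _ (inv_mem (hB hb)), mul_inv_rev]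
  have hrel : H.relIndex (M ⊔ N) = H.relIndex M * H.relIndex N := by
    have key : ∀ X : Subgroup G, H.relIndex X * Nat.card ↥(H ⊓ X) = Nat.card X := fun X => by
      rw [show H.relIndex X = ((H ⊓ X).subgroupOf X).index by rw [Subgroup.inf_subgroupOf_right]; rfl,
        ← Nat.card_congr (Subgroup.subgroupOfEquivOfLe (inf_le_right : H ⊓ X ≤ X)).toEquiv, mul_comm]
      exact Subgroup.card_mul_index _
    have h1 := key (M ⊔ N)
    rw [hsplit, hcard _ _ inf_le_right inf_le_right, hcard M N le_rfl le_rfl, ← key M, ← key N] at h1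
    refine Nat.eq_of_mul_eq_mul_right (m := Nat.card ↥(H ⊓ M) * Nat.card ↥(H ⊓ N))
      (Nat.mul_pos Nat.card_pos Nat.card_pos) ?_
    rw [h1]; ring
  have step : ∀ (X : Subgroup G) [X.Normal], H.relIndex X * (H ⊔ X).index = H.index := fun X _ => by
    have key : ∀ A B : Subgroup G, A.relIndex B * Nat.card ↥(A ⊓ B) = Nat.card B := fun A B => by
      rw [show A.relIndex B = ((A ⊓ B).subgroupOf B).index by rw [Subgroup.inf_subgroupOf_right]; rfl,
        ← Nat.card_congr (Subgroup.subgroupOfEquivOfLe (inf_le_right : A ⊓ B ≤ B)).toEquiv, mul_comm]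
      exact Subgroup.card_mul_index _
    rw [← Subgroup.relIndex_mul_index (le_sup_left : H ≤ H ⊔ X)]
    congr 1
    have h1 := key H (H ⊔ X)
    have h2 := key X (H ⊔ X)
    have h3 := key X H
    have h4 := key H X
    rw [inf_eq_left.2 le_sup_left] at h1
    rw [inf_eq_left.2 le_sup_right, Subgroup.relIndex_sup_right] at h2
    rw [inf_comm] at h3
    refine Nat.eq_of_mul_eq_mul_right (Nat.card_pos (α := H)) ?_
    rw [h1, ← h2, ← h4, ← h3]
    ring
  have e0 : Nat.card (Sylow p G) = H.index := P.card_eq_index_normalizer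
  rw [e0]
  have e1 := step M
  have e2 := step N
  have e3 := step (M ⊔ N)
  rw [hrel] at e3
  refine Nat.eq_of_mul_eq_mul_left (n := H.relIndex M * H.relIndex N) (Nat.mul_pos
    (Nat.pos_of_ne_zero fun h => by rw [Subgroup.relIndex] at h; exact Subgroup.index_ne_zero_of_finite h)
    (Nat.pos_of_ne_zero fun h => by rw [Subgroup.relIndex] at h; exact Subgroup.index_ne_zero_of_finite h)) ?_
  calc H.relIndex M * H.relIndex N * (H.index * (H ⊔ (M ⊔ N)).index)
      = H.index * (H.relIndex M * H.relIndex N * (H ⊔ (M ⊔ N)).index) := by ring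
    _ = (H.relIndex M * (H ⊔ M).index) * (H.relIndex N * (H ⊔ N).index) := by rw [e3, e1, e2]
    _ = _ := by ring
  --  [step (M ⊔ N), step M, step N]

end Cfsg.Agent.S3867
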