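import Cfsg.Statements.S3878
import Cfsg.Agent.Lib.HallClasses.SymmetricNoHall


set_option autoImplicit false
open Cfsg

namespace Cfsg.Agent.S3878

/-- For a set of primes π the following are equivalent: every finite group has a Hall π-subgroup; in every finite group the maximal π-subgroups are pairwise conjugate; π contains at most one prime or contains every prime. -/
theorem result (π : Set ℕ) :
    ((∀ (G : Type) [Group G] [Finite G], Cfsg.IsEPiGroup π G) ↔
      ((∀ p q : ℕ, p.Prime → q.Prime → p ∈ π → q ∈ π → p = q) ∨ ∀ p : ℕ, p.Prime → p ∈ π)) ∧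
    ((∀ (G : Type) [Group G] [Finite G], Cfsg.IsDPiGroup π G) ↔
      ((∀ p q : ℕ, p.Prime → q.Prime → p ∈ π → q ∈ π → p = q) ∨ ∀ p : ℕ, p.Prime → p ∈ π)) := by
  classical
  -- a failure of the condition gives a group without Hall subgroup
  have hneg : (∀ (G : Type) [Group G] [Finite G], Cfsg.IsEPiGroup π G) →
      ((∀ p q : ℕ, p.Prime → q.Prime → p ∈ π → q ∈ π → p = q) ∨ ∀ p : ℕ, p.Prime → p ∈ π) := by
    intro hE
    by_contra hcon
    push Not at hcon
    obtain ⟨⟨p₀, q₀, hp₀, hq₀, hpπ₀, hqπ₀, hne⟩, r, hr, hrπ⟩ := hcon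
    obtain ⟨p, q, hp, hq, hpπ, hqπ, hqp⟩ : ∃ p q : ℕ, p.Prime ∧ q.Prime ∧ p ∈ π ∧ q ∈ π ∧ q < p := by
      rcases hne.lt_or_gt with h | h
      · exact ⟨q₀, p₀, hq₀, hp₀, hqπ₀, hpπ₀, h⟩
      · exact ⟨p₀, q₀, hp₀, hq₀, hpπ₀, hqπ₀, h⟩
    have hlt : r + q + 5 < p ^ (r + q + 5) := Nat.lt_pow_self hp.one_lt
    haveI : NeZero (p ^ (r + q + 5)) := ⟨by omega⟩
    obtain ⟨H, hH1, hH2⟩ := hE (Equiv.Perm (ZMod (p ^ (r + q + 5))))
    have hle := CfsgLib.HallClasses.SymmetricNoHall.alternatingGroup_le hp hq hqp (by omega)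
      (by omega) H (hH2 p hp hpπ) (hH2 q hq hqπ)
    apply hrπ
    refine hH1 r hr (dvd_trans ?_ (Subgroup.card_dvd_of_le hle))
    have htwo : r * 2 ∣ (p ^ (r + q + 5)).factorial := by
      rcases hr.eq_two_or_odd' with rfl | hodd
      · exact (show 2 * 2 ∣ Nat.factorial 4 from ⟨6, rfl⟩).trans (Nat.factorial_dvd_factorial (by omega))
      · exact ((Nat.coprime_two_right.2 hodd)).mul_dvd_of_dvd_of_dvd
          (Nat.dvd_factorial hr.pos (by omega)) (Nat.dvd_factorial (by omega) (by omega))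
    haveI : Nontrivial (ZMod (p ^ (r + q + 5))) :=
      Fintype.one_lt_card_iff_nontrivial.1 (by rw [ZMod.card]; omega)
    have h2 : 2 * Fintype.card (alternatingGroup (ZMod (p ^ (r + q + 5)))) =
        Fintype.card (Equiv.Perm (ZMod (p ^ (r + q + 5)))) := two_mul_card_alternatingGroup
    rw [Fintype.card_perm, ZMod.card] at h2
    rw [Nat.card_eq_fintype_card]
    rw [← h2, mul_comm r 2] at htwo
    exact Nat.dvd_of_mul_dvd_mul_left Nat.two_pos htwo
  refine ⟨⟨hneg, fun h G _ _ => ?_⟩, ⟨fun hD => hneg fun G _ _ => ?_, fun h G _ _ => ?_⟩⟩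
  · rcases h with h | h
    · by_cases hex : ∃ p : ℕ, p.Prime ∧ p ∈ π
      · obtain ⟨p, hp, hpπ⟩ := hex
        haveI := Fact.mk hp
        let P : Sylow p G := default
        obtain ⟨j, hj⟩ := IsPGroup.iff_card.1 P.2
        refine ⟨P, fun r hr hrd => ?_, fun r hr hrπ => ?_⟩
        · rw [hj] at hrd
          rwa [(Nat.prime_dvd_prime_iff_eq hr hp).1 (hr.dvd_of_dvd_pow hrd)]
        · rw [h r p hr hp hrπ hpπ]
          exact P.not_dvd_index
      · push Not at hex
        exact ⟨⊥, fun r hr hrd => absurd (Subgroup.card_bot (G := G) ▸ hrd) hr.not_dvd_one,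
          fun r hr hrπ => absurd hrπ (hex r hr)⟩
    · exact ⟨⊤, fun r hr _ => h r hr, fun r hr _ => by
        rw [Subgroup.index_top]; exact hr.not_dvd_one⟩
  · -- the dominance property gives a Hall subgroup
    obtain ⟨M, hM⟩ : ∃ M, Maximal (Cfsg.IsPiSubgroup π) (M : Subgroup G) :=
      (Set.toFinite {H : Subgroup G | Cfsg.IsPiSubgroup π H}).exists_maximal
        ⟨⊥, fun r hr hrd => absurd (Subgroup.card_bot (G := G) ▸ hrd) hr.not_dvd_one⟩
    refine ⟨M, hM.1, fun r hr hrπ hrd => ?_⟩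
    haveI := Fact.mk hr
    let P : Sylow r G := default
    obtain ⟨j, hj⟩ := IsPGroup.iff_card.1 P.2
    have hPπ : Cfsg.IsPiSubgroup π (P : Subgroup G) := fun s hs hsd => by
      rw [hj] at hsd
      rwa [(Nat.prime_dvd_prime_iff_eq hs hr).1 (hs.dvd_of_dvd_pow hsd)]
    obtain ⟨K, hPK, hK⟩ := (Set.toFinite {H : Subgroup G | Cfsg.IsPiSubgroup π H}).exists_le_maximal hPπ
    obtain ⟨g, hg⟩ := hD G M K hM hK
    have h1 := Subgroup.card_dvd_of_le hPK
    rw [hg, Subgroup.card_map_of_injective (MulAut.conj g).injective] at h1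
    have h2 : Nat.card (P : Subgroup G) * r ∣ Nat.card G := M.card_mul_index ▸ mul_dvd_mul h1 hrd
    rw [P.card_eq_multiplicity, ← pow_succ, hr.pow_dvd_iff_le_factorization Nat.card_pos.ne'] at h2
    omega
  · intro H K hH hK
    rcases h with h | h
    · by_cases hex : ∃ p : ℕ, p.Prime ∧ p ∈ π
      · obtain ⟨p, hp, hpπ⟩ := hex
        haveI := Fact.mk hp
        have key : ∀ H : Subgroup G, Maximal (Cfsg.IsPiSubgroup π) H → ∃ P : Sylow p G, (P : Subgroup G) = H := by
          intro H hH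
          obtain ⟨j, hj⟩ : ∃ j, Nat.card H = p ^ j := ⟨_, Nat.eq_prime_pow_of_unique_prime_dvd
            Nat.card_pos.ne' fun {d} hd hdd => h d p hd hp (hH.1 d hd hdd) hpπ⟩
          obtain ⟨P, hP⟩ := (IsPGroup.of_card hj).exists_le_sylow
          obtain ⟨i, hi⟩ := IsPGroup.iff_card.1 P.2
          refine ⟨P, le_antisymm (hH.2 (fun s hs hsd => ?_) hP) hP⟩
          rw [hi] at hsd
          rwa [(Nat.prime_dvd_prime_iff_eq hs hp).1 (hs.dvd_of_dvd_pow hsd)]
        obtain ⟨P, rfl⟩ := key H hH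
        obtain ⟨Q, rfl⟩ := key K hK
        obtain ⟨g, rfl⟩ := MulAction.exists_smul_eq G P Q
        exact ⟨g, rfl⟩
      · push Not at hex
        have key : ∀ H : Subgroup G, Maximal (Cfsg.IsPiSubgroup π) H → H = ⊥ := fun H hH =>
          Subgroup.card_eq_one.1 (by
            by_contra h1
            obtain ⟨r, hr, hrd⟩ := Nat.exists_prime_and_dvd h1
            exact hex r hr (hH.1 r hr hrd))
        exact ⟨1, by rw [key H hH, key K hK, Subgroup.map_bot]⟩
    · have key : ∀ H : Subgroup G, Maximal (Cfsg.IsPiSubgroup π) H → H = ⊤ := fun H hH =>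
        top_le_iff.1 (hH.2 (fun r hr _ => h r hr) le_top)
      refine ⟨1, ?_⟩
      rw [key H hH, key K hK]
      simp

end Cfsg.Agent.S3878
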