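import Cfsg.Statements.S3880
import Cfsg.Agent.Lib.ClassK.MetacyclicOdd
import Cfsg.Agent.Lib.ClassK.MetacyclicOddMax

set_option autoImplicit false
open Cfsg

namespace Cfsg.Agent.S3880

open Subgroup CfsgLib.ClassK.MetacyclicOdd

/-- Let p be an odd prime and G a finite metacyclic p-group (G has a cyclic normal subgroup with cyclic quotient). Then a subgroup L of G is abelian if and only if |L| ≤ |G : G'|, and L is a maximal abelian subgroup of G if and only if |L| = |G : G'|. -/
theorem result {G : Type*} [Group G] [Finite G] {p : ℕ} [Fact p.Prime] (hp : p ≠ 2) (hG : IsPGroup p G) (hmc : Cfsg.IsMetacyclic G) (L : Subgroup G) :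
    (IsMulCommutative ↥L ↔ Nat.card ↥L ≤ (commutator G).index) ∧
      (Maximal (fun K : Subgroup G => IsMulCommutative ↥K) L ↔ Nat.card ↥L = (commutator G).index) := by
  obtain ⟨D⟩ := nonempty_data hG hmc
  have hidx := D.index_commutator hG
  have hiff : ∀ K : Subgroup G, IsMulCommutative ↥K ↔ Nat.card ↥K ≤ (commutator G).index := by
    intro K
    rw [D.isMulCommutative_iff hp hG]
    have h1 := Subgroup.card_mul_index K
    have h2 : 0 < Nat.card K := Nat.card_pos
    have h3 : 0 < p ^ D.n := pow_pos (Fact.out : p.Prime).pos _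
    constructor
    · intro h
      refine Nat.le_of_mul_le_mul_right ?_ h3
      rw [hidx, ← h1]; exact Nat.mul_le_mul_left _ h
    · intro h
      refine Nat.le_of_mul_le_mul_left ?_ h2
      rw [h1, ← hidx]; exact Nat.mul_le_mul_right _ h
  exact ⟨hiff L, maximal_iff_card D hp hG L⟩

end Cfsg.Agent.S3880
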