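import Cfsg.Statements.S3881
import Cfsg.Agent.Lib.ClassK.MetacyclicOdd

set_option autoImplicit false
open Cfsg

namespace Cfsg.Agent.S3881

open Subgroup CfsgLib.ClassK.MetacyclicOdd

/-- Let p be an odd prime and G a finite metacyclic p-group (G has a cyclic normal subgroup with cyclic quotient). Suppose G is non-abelian with |G'| = p^n. Then for 1 ≤ i ≤ n the number of elements of G whose conjugacy class has exactly p^i elements is |Z(G)| · (p^(2i) − p^(2i−2)). -/
theorem result {G : Type*} [Group G] [Finite G] {p : ℕ} [Fact p.Prime] (hp : p ≠ 2) (hG : IsPGroup p G) (hmc : Cfsg.IsMetacyclic G) (n : ℕ) (hn : n ≠ 0) (hGn : Nat.card ↥(commutator G) = p ^ n) (i : ℕ) (hi : 1 ≤ i) (hin : i ≤ n) :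
    Nat.card {g : G // (Subgroup.centralizer ({g} : Set G)).index = p ^ i} =
      Nat.card ↥(Subgroup.center G) * (p ^ (2 * i) - p ^ (2 * i - 2)) := by
  obtain ⟨D⟩ := nonempty_data hG hmc
  have hn' : D.n = n := by
    have := D.card_commutator hG
    rw [hGn] at this
    exact (Nat.pow_right_injective (Fact.out : p.Prime).two_le this).symm
  classical
  haveI := Fintype.ofFinite G
  obtain ⟨j, rfl⟩ : ∃ j, i = j + 1 := ⟨i - 1, by omega⟩
  have hA := D.card_pow_le hp hG (j + 1) (by omega)
  have hB := D.card_pow_le hp hG j (by omega)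
  have hsub : ∀ g : G, (centralizer ({g} : Set G)).index = p ^ (j + 1) ↔
      ((g : G ⧸ center G) ^ (p ^ (j + 1)) = 1 ∧ ¬ (g : G ⧸ center G) ^ (p ^ j) = 1) := by
    intro g
    rw [← D.index_centralizer_le_iff hp hG, ← D.index_centralizer_le_iff hp hG]
    obtain ⟨e, -, he⟩ := (Nat.dvd_prime_pow (Fact.out : p.Prime)).1
      (D.index_centralizer_singleton hp hG g ▸ orderOf_dvd_of_pow_eq_one (D.mk_pow_exponent hp hG g))
    rw [he, Nat.pow_le_pow_iff_right (Fact.out : p.Prime).one_lt,
      Nat.pow_le_pow_iff_right (Fact.out : p.Prime).one_lt]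
    constructor
    · intro h
      have := Nat.pow_right_injective (Fact.out : p.Prime).two_le h
      omega
    · intro h
      congr 1; omega
  rw [Nat.card_eq_fintype_card, Fintype.card_subtype] at hA hB
  rw [Nat.card_eq_fintype_card, Fintype.card_subtype, Finset.filter_congr (fun g _ => hsub g)]
  have hle : ∀ g : G, (g : G ⧸ center G) ^ (p ^ j) = 1 → (g : G ⧸ center G) ^ (p ^ (j + 1)) = 1 := by
    intro g h; rw [pow_succ, pow_mul, h, one_pow]
  have hsd : Finset.univ.filter (fun g : G => (g : G ⧸ center G) ^ (p ^ (j + 1)) = 1 ∧ ¬ (g : G ⧸ center G) ^ (p ^ j) = 1)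
      = Finset.univ.filter (fun g : G => (g : G ⧸ center G) ^ (p ^ (j + 1)) = 1) \ Finset.univ.filter (fun g : G => (g : G ⧸ center G) ^ (p ^ j) = 1) := by
    ext g; simp
  rw [hsd, Finset.card_sdiff_of_subset (fun g hg => by simp at hg ⊢; exact hle g hg), hA, hB,
    ← Nat.mul_sub, show 2 * (j + 1) - 2 = 2 * j by omega]

end Cfsg.Agent.S3881
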