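import Cfsg.Statements.S3883
import Cfsg.Agent.Lib.ClassK.MetacyclicOdd

set_option autoImplicit false
open Cfsg

namespace Cfsg.Agent.S3883

open Subgroup CfsgLib.ClassK.MetacyclicOdd

/-- Let p be an odd prime and G a finite metacyclic p-group (G has a cyclic normal subgroup with cyclic quotient). Suppose G is non-abelian. Then an element g of G lies outside the Frattini subgroup if and only if its centralizer C_G(g) is abelian. -/
theorem result {G : Type*} [Group G] [Finite G] {p : ℕ} [Fact p.Prime] (hp : p ≠ 2) (hG : IsPGroup p G) (hmc : Cfsg.IsMetacyclic G) (hna : ¬ IsMulCommutative G) (g : G) :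
    g ∉ frattini G ↔ IsMulCommutative ↥(Subgroup.centralizer ({g} : Set G)) := by
  obtain ⟨D⟩ := nonempty_data hG hmc
  have hn1 : 1 ≤ D.n := by
    by_contra h
    refine hna ⟨⟨fun a b => ?_⟩⟩
    have h1 : IsMulCommutative (⊤ : Subgroup G) := by
      rw [D.isMulCommutative_iff hp hG, Subgroup.index_top, show D.n = 0 by omega, pow_zero]
    exact congrArg Subtype.val (mul_comm' (⟨a, trivial⟩ : (⊤ : Subgroup G)) ⟨b, trivial⟩)
  rw [D.frattini_eq hp hG hn1, D.mem_powSub_iff hp hG hn1, D.isMulCommutative_iff hp hG,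
    ← D.index_centralizer_le_iff hp hG, not_le]
  obtain ⟨e, -, he⟩ := (Nat.dvd_prime_pow (Fact.out : p.Prime)).1
    (D.index_centralizer_singleton hp hG g ▸ orderOf_dvd_of_pow_eq_one (D.mk_pow_exponent hp hG g))
  rw [he, Nat.pow_lt_pow_iff_right (Fact.out : p.Prime).one_lt,
    Nat.pow_le_pow_iff_right (Fact.out : p.Prime).one_lt]
  omega

end Cfsg.Agent.S3883
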