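import Cfsg.Statements.S3884
import Cfsg.Agent.Lib.ClassK.MetacyclicOdd

set_option autoImplicit false
open Cfsg

namespace Cfsg.Agent.S3884

open Subgroup CfsgLib.ClassK.MetacyclicOdd

/-- Let p be an odd prime and G a finite metacyclic p-group (G has a cyclic normal subgroup with cyclic quotient). Then G is the product of two cyclic subgroups with trivial intersection: there are cyclic subgroups A and B with A ∩ B = 1 and |A| · |B| = |G|. -/
theorem result {G : Type*} [Group G] [Finite G] {p : ℕ} [Fact p.Prime] (hp : p ≠ 2) (hG : IsPGroup p G) (hmc : Cfsg.IsMetacyclic G) : ∃ A B : Subgroup G, IsCyclic ↥A ∧ IsCyclic ↥B ∧ A ⊓ B = ⊥ ∧ Nat.card ↥A * Nat.card ↥B = Nat.card G := by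
  obtain ⟨D⟩ := nonempty_data hG hmc
  haveI := D.normal
  have hp' := (Fact.out : p.Prime)
  obtain ⟨m, hm⟩ := IsPGroup.iff_orderOf.1 hG D.u
  obtain ⟨s, hs⟩ := IsPGroup.iff_orderOf.1 (hG.to_quotient (zpowers D.u)) (D.x : G ⧸ zpowers D.u)
  have hcardG : Nat.card G = p ^ s * p ^ m := by
    rw [← hs, ← hm, ← Nat.card_zpowers, ← Nat.card_zpowers, card_eq_card_quotient_mul_card_subgroup (zpowers D.u)]
    congr 1
    refine Nat.card_congr (Equiv.subtypeUnivEquiv fun w => ?_).symm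
    obtain ⟨g, rfl⟩ := QuotientGroup.mk_surjective w
    obtain ⟨i, j, rfl⟩ := D.gen g
    rw [QuotientGroup.mk_mul, (QuotientGroup.eq_one_iff _).2 (pow_mem (mem_zpowers D.u) i), one_mul, QuotientGroup.mk_pow]
    exact pow_mem (mem_zpowers _) j
  have hxs : D.x ^ (p ^ s) ∈ zpowers D.u := by
    rw [← QuotientGroup.eq_one_iff, QuotientGroup.mk_pow, ← hs, pow_orderOf_eq_one]
  obtain ⟨i, hi⟩ := mem_powers_iff_mem_zpowers.2 hxs
  simp only at hi
  -- splitting over `U`
  have split : ∀ w : G, (w : G ⧸ zpowers D.u) = (D.x : G ⧸ zpowers D.u) → w ^ (p ^ s) = 1 →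
      ∃ A B : Subgroup G, IsCyclic ↥A ∧ IsCyclic ↥B ∧ A ⊓ B = ⊥ ∧ Nat.card ↥A * Nat.card ↥B = Nat.card G := by
    intro w hw hw1
    have ho : orderOf w = p ^ s := by
      refine Nat.dvd_antisymm (orderOf_dvd_of_pow_eq_one hw1) ?_
      have h := orderOf_map_dvd (QuotientGroup.mk' (zpowers D.u)) w
      rw [QuotientGroup.mk'_apply, hw, hs] at h
      exact h
    refine ⟨zpowers D.u, zpowers w, inferInstance, inferInstance, ?_, ?_⟩
    · rw [eq_bot_iff]
      rintro z ⟨hz1, hz2⟩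
      obtain ⟨k, rfl⟩ := mem_powers_iff_mem_zpowers.2 hz2
      rw [mem_bot, ← orderOf_dvd_iff_pow_eq_one, ho, ← hs, orderOf_dvd_iff_pow_eq_one, ← hw,
        ← QuotientGroup.mk_pow, QuotientGroup.eq_one_iff]
      exact hz1
    · rw [Nat.card_zpowers, Nat.card_zpowers, hm, ho, hcardG, mul_comm]
  by_cases h1 : D.u ^ i = 1
  · exact split D.x rfl (by rw [← hi, h1])
  have hi0 : i ≠ 0 := by rintro rfl; exact h1 (pow_zero _)
  obtain ⟨ε, q, hq, rfl⟩ := Nat.exists_eq_pow_mul_and_not_dvd hi0 p hp'.ne_one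
  have hεm : ε < m := by
    by_contra h
    apply h1
    rw [← orderOf_dvd_iff_pow_eq_one, hm]
    exact (pow_dvd_pow p (not_lt.1 h)).trans (dvd_mul_right _ _)
  have solve : ∀ t c : ℕ, ¬ p ∣ t → ∃ a : ℕ, p ^ m ∣ a * t + c := by
    intro t c ht
    haveI : NeZero (p ^ m) := ⟨pow_ne_zero m hp'.ne_zero⟩
    have hu : IsUnit (t : ZMod (p ^ m)) :=
      (ZMod.isUnit_iff_coprime t (p ^ m)).2 (((hp'.coprime_iff_not_dvd.2 ht).symm).pow_right m)
    refine ⟨(-(c : ZMod (p ^ m)) * (t : ZMod (p ^ m))⁻¹).val, ?_⟩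
    rw [← ZMod.natCast_eq_zero_iff]
    push_cast
    rw [ZMod.natCast_zmod_val, mul_assoc, ZMod.inv_mul_of_unit _ hu]
    ring
  by_cases hεs : s ≤ ε
  · obtain ⟨q', hq', hall⟩ := exists_conj_pow hG _ D.isCyclic_zpowers D.x
    obtain ⟨t, ht, hte⟩ := geomSum_ppow hp hq' s
    obtain ⟨a, ha⟩ := solve t (p ^ (ε - s) * q) ht
    refine split (D.u ^ a * D.x) ?_ ?_
    · rw [QuotientGroup.mk_mul, (QuotientGroup.eq_one_iff _).2 (pow_mem (mem_zpowers D.u) a), one_mul]
    · rw [mul_pow_geomSum (hall _ (pow_mem (mem_zpowers D.u) a)), hte, ← hi, ← pow_mul, ← pow_add,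
        ← orderOf_dvd_iff_pow_eq_one, hm]
      have e : a * (p ^ s * t) + p ^ ε * q = p ^ s * (a * t + p ^ (ε - s) * q) := by
        rw [mul_add, ← mul_assoc (p ^ s) (p ^ (ε - s)) q, ← pow_add, Nat.add_sub_cancel' hεs]; ring
      rw [e]
      exact ha.trans (dvd_mul_left _ _)
  · push Not at hεs
    obtain ⟨d, hd⟩ := Nat.exists_eq_add_of_le hεs.le
    obtain ⟨q', hq', hall⟩ := exists_conj_pow hG _ D.isCyclic_zpowers (D.x ^ (p ^ d))
    obtain ⟨a, ha⟩ : ∃ a : ℕ, (D.u ^ a * D.x ^ (p ^ d)) ^ (p ^ ε) = 1 ∧ ¬ p ∣ a := by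
      obtain ⟨t, ht, hte⟩ := geomSum_ppow hp hq' ε
      obtain ⟨a, ha⟩ := solve t q ht
      refine ⟨a, ?_, fun hpa => hq ?_⟩
      · rw [mul_pow_geomSum (hall _ (pow_mem (mem_zpowers D.u) a)), hte, ← pow_mul D.x, ← pow_add,
          Nat.add_comm d ε, ← hd, ← hi, ← pow_mul, ← pow_add, ← orderOf_dvd_iff_pow_eq_one, hm]
        have e : a * (p ^ ε * t) + p ^ ε * q = p ^ ε * (a * t + q) := by ring
        rw [e]
        exact ha.trans (dvd_mul_left _ _)
      · exact (Nat.dvd_add_right (hpa.mul_right t)).1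
          ((dvd_pow_self p (by omega : m ≠ 0)).trans ha)
    set w := D.u ^ a * D.x ^ (p ^ d) with hw
    obtain ⟨ha1, hpa⟩ := ha
    have hnot : ∀ e < ε, w ^ (p ^ e) ∉ zpowers D.x := by
      intro e he hmem
      obtain ⟨t, ht, hte⟩ := geomSum_ppow hp hq' e
      rw [hw, mul_pow_geomSum (hall _ (pow_mem (mem_zpowers D.u) a)), hte, ← pow_mul D.x] at hmem
      have hB := (zpowers D.x).mul_mem hmem ((zpowers D.x).inv_mem (pow_mem (mem_zpowers D.x) (p ^ d * p ^ e)))
      rw [mul_inv_cancel_right] at hB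
      obtain ⟨k, hk⟩ := mem_powers_iff_mem_zpowers.2 hB
      simp only at hk
      have hkU : (D.x ^ k : G) ∈ zpowers D.u := by
        rw [hk]; exact pow_mem (pow_mem (mem_zpowers _) _) _
      rw [← QuotientGroup.eq_one_iff, QuotientGroup.mk_pow, ← orderOf_dvd_iff_pow_eq_one, hs] at hkU
      obtain ⟨l, rfl⟩ := hkU
      rw [pow_mul, ← hi, ← pow_mul, ← pow_mul, pow_eq_pow_iff_modEq, hm] at hk
      have h2 : p ^ ε ∣ a * (p ^ e * t) := by
        have hdm : p ^ ε ∣ p ^ m := pow_dvd_pow p hεm.le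
        exact (Nat.ModEq.dvd_iff hk hdm).1 (dvd_mul_of_dvd_left (dvd_mul_right _ _) _)
      have h3 : (p ^ ε).Coprime a := (hp'.coprime_iff_not_dvd.2 hpa).pow_left ε
      have h4 : (p ^ ε).Coprime t := (hp'.coprime_iff_not_dvd.2 ht).pow_left ε
      rw [h3.dvd_mul_left, h4.dvd_mul_right, Nat.pow_dvd_pow_iff_le_right hp'.one_lt] at h2
      omega
    have how : orderOf w = p ^ ε := by
      obtain ⟨e, he1, he⟩ := (Nat.dvd_prime_pow hp').1 (orderOf_dvd_of_pow_eq_one ha1)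
      rcases lt_or_eq_of_le he1 with h | h
      · exact absurd (by rw [← he, pow_orderOf_eq_one]; exact one_mem _) (hnot e h)
      · rw [he, h]
    obtain ⟨ox, hox⟩ := IsPGroup.iff_orderOf.1 hG D.x
    refine ⟨zpowers w, zpowers D.x, inferInstance, inferInstance, ?_, ?_⟩
    · rw [eq_bot_iff]
      rintro z ⟨hz1, hz2⟩
      obtain ⟨k, rfl⟩ := mem_powers_iff_mem_zpowers.2 hz1
      rw [mem_bot]
      obtain ⟨e, he1, he⟩ := (Nat.dvd_prime_pow hp').1 (Nat.gcd_dvd_right k (p ^ ε))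
      rcases lt_or_eq_of_le he1 with h | h
      · refine absurd ?_ (hnot e h)
        rw [← he, ← zpow_natCast, Nat.gcd_eq_gcd_ab, zpow_add, zpow_mul, zpow_mul, zpow_natCast,
          zpow_natCast, ha1, one_zpow, mul_one]
        exact (zpowers D.x).zpow_mem hz2 _
      · subst h
        show w ^ k = 1
        rw [← orderOf_dvd_iff_pow_eq_one, how, ← he]
        exact Nat.gcd_dvd_left _ _
    · rw [Nat.card_zpowers, Nat.card_zpowers, how, hcardG]
      have hxord : orderOf D.x = p ^ (s + (m - ε)) := by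
        have hiff : ∀ l : ℕ, D.x ^ (p ^ s * l) = 1 ↔ p ^ (m - ε) ∣ l := by
          intro l
          rw [pow_mul, ← hi, ← pow_mul, ← orderOf_dvd_iff_pow_eq_one, hm, mul_assoc]
          obtain ⟨d', hd'⟩ := Nat.exists_eq_add_of_le hεm.le
          rw [show m - ε = d' by omega, hd', pow_add, Nat.mul_dvd_mul_iff_left (pow_pos hp'.pos ε)]
          exact ((hp'.coprime_iff_not_dvd.2 hq).pow_left d').dvd_mul_left
        refine Nat.dvd_antisymm (orderOf_dvd_of_pow_eq_one ?_) ?_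
        · rw [pow_add]; exact (hiff _).2 dvd_rfl
        · have hsd : p ^ s ∣ orderOf D.x := by
            rw [← hs]; exact orderOf_map_dvd (QuotientGroup.mk' (zpowers D.u)) D.x
          obtain ⟨l, hl⟩ := hsd
          rw [hl, pow_add]
          exact mul_dvd_mul_left _ ((hiff l).1 (by rw [← hl, pow_orderOf_eq_one]))
      rw [hxord, ← pow_add, ← pow_add]
      congr 1; omega

end Cfsg.Agent.S3884
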