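import Cfsg.Statements.S3885
import Cfsg.Agent.Lib.ClassK.MetacyclicOdd

set_option autoImplicit false
open Cfsg

namespace Cfsg.Agent.S3885

open Subgroup CfsgLib.ClassK.MetacyclicOdd

/-- Let p be an odd prime and G a finite metacyclic p-group (G has a cyclic normal subgroup with cyclic quotient). Then every abelian subgroup K of G containing the center of G is the center of its own centralizer: K = Z(C_G(K)). -/
theorem result {G : Type*} [Group G] [Finite G] {p : ℕ} [Fact p.Prime] (hp : p ≠ 2) (hG : IsPGroup p G) (hmc : Cfsg.IsMetacyclic G) (K : Subgroup G) (hK : IsMulCommutative ↥K) (hZ : Subgroup.center G ≤ K) :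
    K = Subgroup.centralizer (K : Set G) ⊓ Subgroup.centralizer (Subgroup.centralizer (K : Set G) : Set G) := by
  obtain ⟨D⟩ := nonempty_data hG hmc
  have hKC : K ≤ Subgroup.centralizer (K : Set G) := fun k hk => fun l hl =>
    congrArg Subtype.val (mul_comm' (⟨l, hl⟩ : K) ⟨k, hk⟩)
  have hKCC : K ≤ Subgroup.centralizer (Subgroup.centralizer (K : Set G) : Set G) :=
    fun k hk w hw => (hw k hk).symm
  refine le_antisymm (le_inf hKC hKCC) (inf_le_right.trans ?_)
  have h1 := D.card_mul_card_centralizer_of_center_le hp hG hZ
  have h2 := D.card_mul_card_centralizer_of_center_le hp hG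
    (R := Subgroup.centralizer (K : Set G)) (Subgroup.center_le_centralizer _)
  refine (Subgroup.eq_of_le_of_card_ge hKCC ?_).ge
  rw [← h1, mul_comm] at h2
  exact (mul_right_cancel₀ (Nat.card_pos (α := Subgroup.centralizer (K : Set G))).ne' h2).le

end Cfsg.Agent.S3885
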