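import Cfsg.Statements.S3886
import Cfsg.Agent.Lib.ClassK.MetacyclicOdd
import Cfsg.Agent.Lib.ClassK.MetacyclicOddMax

set_option autoImplicit false
open Cfsg

namespace Cfsg.Agent.S3886

open Subgroup CfsgLib.ClassK.MetacyclicOdd

/-- Let p be an odd prime and G a finite metacyclic p-group (G has a cyclic normal subgroup with cyclic quotient). Then the largest value of |R| · |Z(R)| over subgroups R of G is |G : G'|², and the subgroups attaining it (the centrally large subgroups) are exactly the non-abelian subgroups together with the maximal abelian subgroups of G. -/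
theorem result {G : Type*} [Group G] [Finite G] {p : ℕ} [Fact p.Prime] (hp : p ≠ 2) (hG : IsPGroup p G) (hmc : Cfsg.IsMetacyclic G) : Cfsg.maxCentralProduct G = (commutator G).index ^ 2 ∧
    ∀ R : Subgroup G, Cfsg.IsCentrallyLarge R ↔ (¬ IsMulCommutative ↥R ∨ Maximal (fun K : Subgroup G => IsMulCommutative ↥K) R) := by
  obtain ⟨D⟩ := nonempty_data hG hmc
  have hidx := D.index_commutator hG
  have hpos : 0 < p ^ D.n := pow_pos (Fact.out : p.Prime).pos _
  have hval : ∀ R : Subgroup G, Nat.card R * Nat.card (Subgroup.center R) ≤ (commutator G).index ^ 2 ∧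
      (Nat.card R * Nat.card (Subgroup.center R) = (commutator G).index ^ 2 ↔
        (¬ IsMulCommutative ↥R ∨ Nat.card R = (commutator G).index)) := by
    intro R
    rw [D.card_mul_card_center hp hG R, D.isMulCommutative_iff hp hG]
    split_ifs with h
    · have hle : Nat.card R ≤ (commutator G).index := by
        refine Nat.le_of_mul_le_mul_right ?_ hpos
        rw [hidx, ← Subgroup.card_mul_index R]; exact Nat.mul_le_mul_left _ h
      refine ⟨Nat.pow_le_pow_left hle 2, ?_⟩
      rw [Nat.pow_left_injective (by norm_num : (2 : ℕ) ≠ 0) |>.eq_iff]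
      simp [h]
    · exact ⟨le_rfl, by simp [h]⟩
  obtain ⟨L, hL⟩ : ∃ L : Subgroup G, Nat.card L = (commutator G).index := by
    obtain ⟨N, hN⟩ := IsPGroup.iff_card.1 hG
    obtain ⟨m, -, hm⟩ := (Nat.dvd_prime_pow (Fact.out : p.Prime)).1
      (hN ▸ (Subgroup.index_dvd_card (commutator G)))
    obtain ⟨L, hL⟩ := Sylow.exists_subgroup_card_pow_prime p (hm ▸ (Subgroup.index_dvd_card (commutator G)))
    exact ⟨L, hL.trans hm.symm⟩
  have hmax : Cfsg.maxCentralProduct G = (commutator G).index ^ 2 := by
    refine IsGreatest.csSup_eq ⟨⟨L, (hval L).2.2 (Or.inr hL)⟩, ?_⟩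
    rintro k ⟨R, rfl⟩
    exact (hval R).1
  refine ⟨hmax, fun R => ?_⟩
  rw [Cfsg.IsCentrallyLarge, hmax, (hval R).2, maximal_iff_card D hp hG R]

end Cfsg.Agent.S3886
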