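import Cfsg.Statements.S3887
import Cfsg.Agent.Lib.ClassK.MetacyclicOdd

set_option autoImplicit false
open Cfsg

namespace Cfsg.Agent.S3887

open Subgroup CfsgLib.ClassK.MetacyclicOdd

/-- Let p be an odd prime and G a finite metacyclic p-group (G has a cyclic normal subgroup with cyclic quotient). Then a subgroup R of G maximizes |R| · |C_G(R)| over all subgroups of G if and only if R contains the center of G. -/
theorem result {G : Type*} [Group G] [Finite G] {p : ℕ} [Fact p.Prime] (hp : p ≠ 2) (hG : IsPGroup p G) (hmc : Cfsg.IsMetacyclic G) (R : Subgroup G) : Cfsg.IsCentralizerLarge R ↔ Subgroup.center G ≤ R := by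
  obtain ⟨D⟩ := nonempty_data hG hmc
  have hC : ∀ S : Subgroup G, Subgroup.centralizer ((S ⊔ Subgroup.center G : Subgroup G) : Set G) =
      Subgroup.centralizer (S : Set G) := by
    intro S
    refine le_antisymm (Subgroup.centralizer_le (SetLike.coe_subset_coe.2 le_sup_left)) ?_
    intro w hw
    have hle : S ⊔ Subgroup.center G ≤ Subgroup.centralizer ({w} : Set G) :=
      sup_le (fun r hr => Subgroup.mem_centralizer_singleton_iff.2 (hw r hr))
        (fun z hz => Subgroup.mem_centralizer_singleton_iff.2 (Subgroup.mem_center_iff.1 hz w).symm)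
    exact fun k hk => Subgroup.mem_centralizer_singleton_iff.1 (hle hk)
  have hval : ∀ S : Subgroup G, Nat.card S * Nat.card (Subgroup.centralizer (S : Set G)) ≤
      Nat.card (Subgroup.center G) * Nat.card G ∧
      (Nat.card S * Nat.card (Subgroup.centralizer (S : Set G)) =
        Nat.card (Subgroup.center G) * Nat.card G ↔ Subgroup.center G ≤ S) := by
    intro S
    have h1 := D.card_mul_card_centralizer_of_center_le hp hG (R := S ⊔ Subgroup.center G) le_sup_right
    rw [hC] at h1
    refine ⟨h1 ▸ Nat.mul_le_mul_right _ (Subgroup.card_le_of_le le_sup_left), fun h => ?_,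
      fun h => D.card_mul_card_centralizer_of_center_le hp hG h⟩
    rw [← h1] at h
    have := mul_right_cancel₀ (Nat.card_pos (α := Subgroup.centralizer (S : Set G))).ne' h
    rw [Subgroup.eq_of_le_of_card_ge (le_sup_left : S ≤ S ⊔ Subgroup.center G) this.ge]
    exact le_sup_right
  have hmax : Cfsg.maxCentralizerProduct G = Nat.card (Subgroup.center G) * Nat.card G := by
    refine IsGreatest.csSup_eq ⟨⟨Subgroup.center G, (hval _).2.2 le_rfl⟩, ?_⟩
    rintro k ⟨S, rfl⟩
    exact (hval S).1
  rw [Cfsg.IsCentralizerLarge, hmax]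
  exact (hval R).2

end Cfsg.Agent.S3887
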