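import Cfsg.Statements.S3895
import Cfsg.Agent.Lib.HallClasses.PClasses


set_option autoImplicit false
open Cfsg

namespace Cfsg.Agent.S3895

/-- Let G be a finite group with Sylow 2-subgroup P, and write k₂(G) for the number of conjugacy classes of G consisting of 2-elements (elements of 2-power order, the identity included). Then k₂(G) > |P|/2 if and only if G has a normal 2-complement and P has more than |P|/2 conjugacy classes. -/
theorem result {G : Type*} [Group G] [Finite G] (P : Sylow 2 G) :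
    Nat.card ↥(P : Subgroup G) < 2 * Nat.card {c : ConjClasses G // ∀ x ∈ c.carrier, ∃ k : ℕ, orderOf x = 2 ^ k} ↔
      Cfsg.HasNormalPComplement 2 G ∧ Nat.card ↥(P : Subgroup G) < 2 * Nat.card (ConjClasses ↥(P : Subgroup G)) := by
  have hk := CfsgLib.HallClasses.card_pClasses_le_ncard_image P
  have himg : (ConjClasses.mk '' ((P : Subgroup G) : Set G)).ncard ≤
      Nat.card (ConjClasses ↥(P : Subgroup G)) := by
    rw [← Nat.card_coe_set_eq]
    refine Nat.card_le_card_of_surjective
      (fun c => (⟨ConjClasses.map (P : Subgroup G).subtype c, ?_⟩ :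
        {c // c ∈ ConjClasses.mk '' ((P : Subgroup G) : Set G)})) ?_
    · obtain ⟨x, rfl⟩ := ConjClasses.exists_rep c
      exact ⟨x, x.2, rfl⟩
    · rintro ⟨c, x, hx, rfl⟩
      exact ⟨ConjClasses.mk ⟨x, hx⟩, rfl⟩
  constructor
  · intro h
    refine ⟨by
      by_contra hn
      exact absurd (CfsgLib.HallClasses.card_twoClasses_le_of_not P hn) (by omega), ?_⟩
    omega
  · rintro ⟨hnc, hP⟩
    refine hP.trans_le (Nat.mul_le_mul_left 2 ?_)
    have hc := CfsgLib.NormalPComplement.isComplement'_pPrimeCore hnc P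
    let ρ : G →* ↥(P : Subgroup G) :=
      hc.symm.QuotientMulEquiv.toMonoidHom.comp (QuotientGroup.mk' (Cfsg.pPrimeCore 2 G))
    have hρinj : ∀ x y : ↥(P : Subgroup G), ρ x = ρ y → x = y := by
      intro x y hxy
      have h1 : (QuotientGroup.mk' (Cfsg.pPrimeCore 2 G)) (x : G) =
          (QuotientGroup.mk' (Cfsg.pPrimeCore 2 G)) (y : G) :=
        hc.symm.QuotientMulEquiv.injective hxy
      have h2 : (x : G)⁻¹ * y ∈ Cfsg.pPrimeCore 2 G := QuotientGroup.eq.1 h1
      have h3 : (x : G)⁻¹ * y ∈ Cfsg.pPrimeCore 2 G ⊓ (P : Subgroup G) :=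
        ⟨h2, Subgroup.mul_mem _ (Subgroup.inv_mem _ x.2) y.2⟩
      rw [hc.disjoint.eq_bot, Subgroup.mem_bot] at h3
      exact Subtype.ext (inv_mul_eq_one.1 h3)
    refine Nat.card_le_card_of_injective
      (fun c => (⟨ConjClasses.map (P : Subgroup G).subtype c, ?_⟩ :
        {c : ConjClasses G // ∀ x ∈ c.carrier, ∃ k : ℕ, orderOf x = 2 ^ k})) ?_
    · obtain ⟨u, rfl⟩ := ConjClasses.exists_rep c
      intro x hx
      obtain ⟨g, hg⟩ := isConj_iff.1
        (ConjClasses.mk_eq_mk_iff_isConj.1 (ConjClasses.mem_carrier_iff_mk_eq.1 hx)).symm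
      obtain ⟨k, hk⟩ := IsPGroup.iff_orderOf.1 P.2 u
      refine ⟨k, ?_⟩
      rw [← hg, show orderOf (g * (P : Subgroup G).subtype u * g⁻¹) = orderOf u from
        (orderOf_injective (MulAut.conj g).toMonoidHom (MulAut.conj g).injective _).trans
          (Subgroup.orderOf_coe u)]
      exact hk
    · intro a b hab
      obtain ⟨u, rfl⟩ := ConjClasses.exists_rep a
      obtain ⟨v, rfl⟩ := ConjClasses.exists_rep b
      obtain ⟨g, hg⟩ := isConj_iff.1
        (ConjClasses.mk_eq_mk_iff_isConj.1 (congrArg Subtype.val hab))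
      simp only [Subgroup.coe_subtype] at hg
      rw [ConjClasses.mk_eq_mk_iff_isConj]
      -- ρ restricts to an injective endomorphism of P
      have hbij : Function.Bijective (fun x : ↥(P : Subgroup G) => ρ x) :=
        Finite.injective_iff_bijective.1 (fun x y h => hρinj x y h)
      obtain ⟨t, ht⟩ := hbij.2 (ρ g)
      refine isConj_iff.2 ⟨t, hρinj _ _ ?_⟩
      push_cast
      simp only [map_mul, map_inv] at ht ⊢
      rw [ht, ← map_inv, ← map_mul, ← map_mul, hg]

end Cfsg.Agent.S3895
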