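import Cfsg.Statements.S3897
import Cfsg.Agent.Lib.HallClasses.PClasses


set_option autoImplicit false
open Cfsg

namespace Cfsg.Agent.S3897

/-- Let p be an odd prime and G a finite group with Sylow p-subgroup P, and write k_p(G) for the number of conjugacy classes of G consisting of p-elements (elements of p-power order, the identity included). Then k_p(G) > (p + 1)|P|/(2p) if and only if G has a normal p-complement and P is abelian. -/
theorem result {G : Type*} [Group G] [Finite G] {p : ℕ} [Fact p.Prime] (hp : p ≠ 2) (P : Sylow p G) :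
    (p + 1) * Nat.card ↥(P : Subgroup G) < 2 * p * Nat.card {c : ConjClasses G // ∀ x ∈ c.carrier, ∃ k : ℕ, orderOf x = p ^ k} ↔
      Cfsg.HasNormalPComplement p G ∧ IsMulCommutative ↥(P : Subgroup G) := by
  constructor
  · intro h
    by_contra hn
    exact absurd (CfsgLib.HallClasses.card_pClasses_le_of_not hp P hn) (by omega)
  · rintro ⟨hnc, hab⟩
    have hp1 : 1 < p := (Fact.out : p.Prime).one_lt
    have hc := CfsgLib.NormalPComplement.isComplement'_pPrimeCore hnc P
    let ρ : G →* ↥(P : Subgroup G) :=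
      hc.symm.QuotientMulEquiv.toMonoidHom.comp (QuotientGroup.mk' (Cfsg.pPrimeCore p G))
    have hρinj : ∀ x y : ↥(P : Subgroup G), ρ x = ρ y → x = y := by
      intro x y hxy
      have h1 : (QuotientGroup.mk' (Cfsg.pPrimeCore p G)) (x : G) =
          (QuotientGroup.mk' (Cfsg.pPrimeCore p G)) (y : G) :=
        hc.symm.QuotientMulEquiv.injective hxy
      have h2 : (x : G)⁻¹ * y ∈ Cfsg.pPrimeCore p G := QuotientGroup.eq.1 h1
      have h3 : (x : G)⁻¹ * y ∈ Cfsg.pPrimeCore p G ⊓ (P : Subgroup G) :=
        ⟨h2, Subgroup.mul_mem _ (Subgroup.inv_mem _ x.2) y.2⟩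
      rw [hc.disjoint.eq_bot, Subgroup.mem_bot] at h3
      exact Subtype.ext (inv_mul_eq_one.1 h3)
    have hle : Nat.card ↥(P : Subgroup G) ≤
        Nat.card {c : ConjClasses G // ∀ x ∈ c.carrier, ∃ k : ℕ, orderOf x = p ^ k} := by
      refine Nat.card_le_card_of_injective
        (fun u => (⟨ConjClasses.mk (u : G), ?_⟩ :
          {c : ConjClasses G // ∀ x ∈ c.carrier, ∃ k : ℕ, orderOf x = p ^ k})) ?_
      · intro x hx
        obtain ⟨g, hg⟩ := isConj_iff.1
          (ConjClasses.mk_eq_mk_iff_isConj.1 (ConjClasses.mem_carrier_iff_mk_eq.1 hx)).symm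
        obtain ⟨k, hk⟩ := IsPGroup.iff_orderOf.1 P.2 u
        refine ⟨k, ?_⟩
        rw [← hg, show orderOf (g * (u : G) * g⁻¹) = orderOf u from
          (orderOf_injective (MulAut.conj g).toMonoidHom (MulAut.conj g).injective _).trans
            (Subgroup.orderOf_coe u)]
        exact hk
      · intro u v huv
        obtain ⟨g, hg⟩ := isConj_iff.1
          (ConjClasses.mk_eq_mk_iff_isConj.1 (congrArg Subtype.val huv))
        refine hρinj u v ?_
        rw [← hg, map_mul, map_mul, map_inv, hab.is_comm.comm (ρ g), mul_inv_cancel_right]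
    have hpos : 0 < Nat.card ↥(P : Subgroup G) := Nat.card_pos
    nlinarith

end Cfsg.Agent.S3897
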