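import Cfsg.Statements.S3898
import Cfsg.Agent.Lib.HallClasses.PiClasses


set_option autoImplicit false
open Cfsg

namespace Cfsg.Agent.S3898

/-- Let π be a finite set of primes containing 2 and G a finite group. Write k_π(G) for the number of conjugacy classes of G consisting of π-elements (elements all of whose order's prime divisors lie in π) and |G|_π for the π-part of the order of G. If k_π(G) > |G|_π/2, then G has a normal π-complement (a normal subgroup of order prime to π whose index is a π-number) and an abelian Hall subgroup for the set of odd primes in π. -/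
theorem result {G : Type*} [Group G] [Finite G] (π : Finset ℕ) (hπ : ∀ r ∈ π, r.Prime) (h2 : 2 ∈ π)
    (hk : π.prod (fun r => r ^ (Nat.card G).factorization r) < 2 * Nat.card {c : ConjClasses G // ∀ x ∈ c.carrier, ∀ r : ℕ, r.Prime → r ∣ orderOf x → r ∈ π}) :
    (∃ N : Subgroup G, N.Normal ∧ (∀ r : ℕ, r.Prime → r ∣ Nat.card ↥N → r ∉ π) ∧ ∀ r : ℕ, r.Prime → r ∣ N.index → r ∈ π) ∧ ∃ H : Subgroup G, Cfsg.IsPiHall ((↑π : Set ℕ) \ {2}) H ∧ IsMulCommutative ↥H := by
  classical
  haveI : Fact (Nat.Prime 2) := ⟨Nat.prime_two⟩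
  have hkπ : ∀ r ∈ π, ∀ [Fact r.Prime], ∀ P : Sylow r G, Nat.card ↥(P : Subgroup G) <
      2 * Nat.card {c : ConjClasses G // ∀ x ∈ c.carrier, ∃ k : ℕ, orderOf x = r ^ k} := by
    intro r hr _ P
    have h3 := CfsgLib.HallClasses.card_piClasses_le_erase (G := G) π hπ hr
    rw [← Finset.mul_prod_erase π _ hr, ← P.card_eq_multiplicity] at hk
    simp only [CfsgLib.HallClasses.PiEl] at h3
    exact Nat.lt_of_mul_lt_mul_right
      (hk.trans_le ((Nat.mul_le_mul_left 2 h3).trans_eq (mul_assoc _ _ _).symm))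
  obtain ⟨P2⟩ := (inferInstance : Nonempty (Sylow 2 G))
  have hnc : Cfsg.HasNormalPComplement 2 G := by
    by_contra hn
    exact absurd (CfsgLib.HallClasses.card_twoClasses_le_of_not P2 hn)
      (not_le.2 (hkπ 2 h2 P2))
  set M := Cfsg.pPrimeCore 2 G with hM
  have hMc : M.IsComplement' (P2 : Subgroup G) :=
    CfsgLib.NormalPComplement.isComplement'_pPrimeCore hnc P2
  have hModd : Odd (Nat.card M) := by
    rw [Nat.odd_iff, ← Nat.two_dvd_ne_zero, ← hMc.index_eq_card]
    exact P2.not_dvd_index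
  obtain ⟨m2, hm2⟩ := IsPGroup.iff_card.1 P2.2
  have hMi : M.index = 2 ^ m2 := by rw [hMc.symm.index_eq_card, hm2]
  obtain ⟨K, hK, hKd, hKi, H, hH, hHab⟩ :=
    CfsgLib.HallClasses.exists_piComplement (G := M) (π.erase 2)
      (fun r hr => hπ r (Finset.mem_of_mem_erase hr)) (by
      intro r hr _
      obtain ⟨hr2, hrπ⟩ := Finset.mem_erase.1 hr
      by_contra hn
      obtain ⟨Q, hbad⟩ : ∃ Q : Sylow r M, ¬ (Cfsg.HasNormalPComplement r M ∧
          IsMulCommutative ↥(Q : Subgroup M)) := by
        by_contra hall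
        push Not at hall
        exact hn ⟨(hall (Classical.arbitrary _)).1, fun Q => (hall Q).2⟩
      have h1 := CfsgLib.HallClasses.card_pClasses_le_half_of_odd hModd Q hbad hr2
      obtain ⟨P⟩ := (inferInstance : Nonempty (Sylow r G))
      have h3 := hkπ r hrπ P
      have hQP : Nat.card ↥(Q : Subgroup M) = Nat.card ↥(P : Subgroup G) := by
        rw [Q.card_eq_multiplicity, P.card_eq_multiplicity, ← Subgroup.card_mul_index M, hMi,
          Nat.factorization_mul Nat.card_pos.ne' (pow_ne_zero _ two_ne_zero)]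
        simp [Nat.prime_two.factorization, Ne.symm hr2]
      have hkk : Nat.card {c : ConjClasses G // ∀ x ∈ c.carrier, ∃ k : ℕ, orderOf x = r ^ k} ≤
          Nat.card {c : ConjClasses M // ∀ x ∈ c.carrier, ∃ k : ℕ, orderOf x = r ^ k} := by
        refine Nat.card_le_card_of_surjective (fun c => ⟨ConjClasses.map M.subtype c.1, ?_⟩) ?_
        · obtain ⟨u, hu⟩ := ConjClasses.exists_rep c.1
          intro x hx
          rw [← hu] at hx
          obtain ⟨g, hg⟩ := isConj_iff.1
            (ConjClasses.mk_eq_mk_iff_isConj.1 (ConjClasses.mem_carrier_iff_mk_eq.1 hx)).symm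
          obtain ⟨k, hk'⟩ := c.2 u (ConjClasses.mem_carrier_iff_mk_eq.2 hu)
          refine ⟨k, ?_⟩
          rw [← hg, show orderOf (g * M.subtype u * g⁻¹) = orderOf u from
            (orderOf_injective (MulAut.conj g).toMonoidHom (MulAut.conj g).injective _).trans
              (Subgroup.orderOf_coe u)]
          exact hk'
        · rintro ⟨c, hc⟩
          obtain ⟨x, rfl⟩ := ConjClasses.exists_rep c
          obtain ⟨k, hk'⟩ := hc x (ConjClasses.mem_carrier_iff_mk_eq.2 rfl)
          have hxM : x ∈ M := CfsgLib.NormalPComplement.mem_pPrimeCore_of_coprime hnc (by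
            rw [hk']
            exact ((Nat.coprime_primes Fact.out Nat.prime_two).2 hr2).pow_left k)
          refine ⟨⟨ConjClasses.mk ⟨x, hxM⟩, fun z hz => ?_⟩, Subtype.ext rfl⟩
          obtain ⟨g, hg⟩ := isConj_iff.1
            (ConjClasses.mk_eq_mk_iff_isConj.1 (ConjClasses.mem_carrier_iff_mk_eq.1 hz)).symm
          refine ⟨k, ?_⟩
          rw [← hg, show orderOf (g * ⟨x, hxM⟩ * g⁻¹) = orderOf (⟨x, hxM⟩ : M) from
            orderOf_injective (MulAut.conj g).toMonoidHom (MulAut.conj g).injective _,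
            Subgroup.orderOf_mk]
          exact hk'
      omega)
  -- the complement in `M` consists of the elements of `M` of order prime to `π`
  have hmem : ∀ x : M, x ∈ K ↔ ∀ r ∈ π.erase 2, ¬ r ∣ orderOf x := by
    intro x
    refine ⟨fun hx r hr hd => hKd r (hπ r (Finset.mem_of_mem_erase hr))
      (hd.trans (Subgroup.orderOf_dvd_natCard _ hx)) hr, fun hx => ?_⟩
    refine (QuotientGroup.eq_one_iff x).1 (orderOf_eq_one_iff.1 ?_)
    by_contra hne
    exact hx _ (hKi _ (Nat.minFac_prime hne)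
      ((Nat.minFac_dvd _).trans (orderOf_dvd_natCard _)))
      ((Nat.minFac_dvd _).trans (orderOf_map_dvd (QuotientGroup.mk' K) x))
  have hKn : (K.map M.subtype).Normal := by
    refine ⟨?_⟩
    rintro _ ⟨x, hx, rfl⟩ g
    have hgx : g * (x : G) * g⁻¹ ∈ M :=
      Subgroup.Normal.conj_mem inferInstance _ x.2 g
    refine ⟨⟨_, hgx⟩, (hmem _).2 ?_, rfl⟩
    intro r hr hd
    rw [Subgroup.orderOf_mk, show orderOf (g * (x : G) * g⁻¹) = orderOf x from
      (orderOf_injective (MulAut.conj g).toMonoidHom (MulAut.conj g).injective _).trans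
        (Subgroup.orderOf_coe x)] at hd
    exact (hmem x).1 hx r hr hd
  refine ⟨⟨K.map M.subtype, hKn, fun r hr hd hrπ => ?_, fun r hr hd => ?_⟩,
    H.map M.subtype, ⟨fun r hr hd => ?_, fun r hr hrπ hd => ?_⟩,
    ⟨⟨fun a b => (Subgroup.equivMapOfInjective H M.subtype M.subtype_injective).symm.injective
      (by simp only [map_mul]; exact hHab.is_comm.comm _ _)⟩⟩⟩
  · rw [Subgroup.card_map_of_injective M.subtype_injective] at hd
    rcases eq_or_ne r 2 with rfl | hr2
    · exact Nat.not_even_iff_odd.2 hModd (even_iff_two_dvd.2 (hd.trans K.card_subgroup_dvd_card))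
    · exact hKd r hr hd (Finset.mem_erase.2 ⟨hr2, hrπ⟩)
  · rw [Subgroup.index_map, M.ker_subtype, sup_bot_eq, M.range_subtype] at hd
    rcases (Nat.Prime.dvd_mul hr).1 hd with h | h
    · exact Finset.mem_of_mem_erase (hKi r hr h)
    · rw [hMi] at h
      exact ((Nat.prime_dvd_prime_iff_eq hr Nat.prime_two).1 (hr.dvd_of_dvd_pow h)) ▸ h2
  · rw [Subgroup.card_map_of_injective M.subtype_injective, ← hH.symm.index_eq_card] at hd
    have := Finset.mem_erase.1 (hKi r hr hd)
    exact ⟨this.2, this.1⟩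
  · obtain ⟨hrπ, hr2⟩ := hrπ
    rw [Subgroup.index_map, M.ker_subtype, sup_bot_eq, M.range_subtype] at hd
    rcases (Nat.Prime.dvd_mul hr).1 hd with h | h
    · rw [hH.index_eq_card] at h
      exact hKd r hr h (Finset.mem_erase.2 ⟨hr2, hrπ⟩)
    · rw [hMi] at h
      exact hr2 ((Nat.prime_dvd_prime_iff_eq hr Nat.prime_two).1 (hr.dvd_of_dvd_pow h))

end Cfsg.Agent.S3898
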