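import Cfsg.Statements.S3899
import Cfsg.Agent.Lib.HallClasses.PiClasses


set_option autoImplicit false
open Cfsg

namespace Cfsg.Agent.S3899

/-- Let π be a finite non-empty set of odd primes with smallest member p and G a finite group. Write k_π(G) for the number of conjugacy classes of G consisting of π-elements (elements all of whose order's prime divisors lie in π) and |G|_π for the π-part of the order of G. If k_π(G) > (p + 1)|G|_π/(2p), then G has a normal π-complement (a normal subgroup of order prime to π whose index is a π-number) and an abelian Hall π-subgroup. -/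
theorem result {G : Type*} [Group G] [Finite G] (π : Finset ℕ) (hπ : ∀ r ∈ π, r.Prime) (h2 : 2 ∉ π) (p : ℕ) (hp : p ∈ π)
    (hmin : ∀ r ∈ π, p ≤ r) (hk : (p + 1) * π.prod (fun r => r ^ (Nat.card G).factorization r) < 2 * p * Nat.card {c : ConjClasses G // ∀ x ∈ c.carrier, ∀ r : ℕ, r.Prime → r ∣ orderOf x → r ∈ π}) :
    (∃ N : Subgroup G, N.Normal ∧ (∀ r : ℕ, r.Prime → r ∣ Nat.card ↥N → r ∉ π) ∧ ∀ r : ℕ, r.Prime → r ∣ N.index → r ∈ π) ∧ ∃ H : Subgroup G, Cfsg.IsPiHall (↑π : Set ℕ) H ∧ IsMulCommutative ↥H := by
  obtain ⟨N, hN, hNd, hNi, H, hH, hHab⟩ :=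
    CfsgLib.HallClasses.exists_piComplement (G := G) π hπ (by
      intro r hr _
      by_contra hn
      have hr2 : r ≠ 2 := fun h => h2 (h ▸ hr)
      obtain ⟨P, hbad⟩ : ∃ P : Sylow r G, ¬ (Cfsg.HasNormalPComplement r G ∧
          IsMulCommutative ↥(P : Subgroup G)) := by
        by_contra hall
        push Not at hall
        exact hn ⟨(hall (Classical.arbitrary _)).1, fun P => (hall P).2⟩
      have h1 := CfsgLib.HallClasses.card_pClasses_le_of_not hr2 P hbad
      have h3 := CfsgLib.HallClasses.card_piClasses_le_erase (G := G) π hπ hr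
      have hprod : π.prod (fun q => q ^ (Nat.card G).factorization q) =
          Nat.card ↥(P : Subgroup G) *
            (π.erase r).prod (fun q => q ^ (Nat.card G).factorization q) := by
        rw [P.card_eq_multiplicity]
        exact (Finset.mul_prod_erase π _ hr).symm
      rw [hprod] at hk
      simp only [CfsgLib.HallClasses.PiEl] at h3
      generalize (π.erase r).prod (fun q => q ^ (Nat.card G).factorization q) = E at h3 hk
      generalize Nat.card {c : ConjClasses G // ∀ x ∈ c.carrier, ∀ s : ℕ, s.Prime →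
        s ∣ orderOf x → s ∈ π} = K at h3 hk
      generalize Nat.card {c : ConjClasses G // ∀ x ∈ c.carrier, ∃ k : ℕ, orderOf x = r ^ k} = k
        at h1 h3
      generalize Nat.card ↥(P : Subgroup G) = S at h1 hk
      have hpr := hmin r hr
      have hrpos := (hπ r hr).pos
      have e1 : 2 * r * K ≤ (r + 1) * (S * E) := by
        calc 2 * r * K ≤ 2 * r * (k * E) := Nat.mul_le_mul_left _ h3
          _ = 2 * r * k * E := by ring
          _ ≤ (r + 1) * S * E := Nat.mul_le_mul_right _ h1
          _ = _ := by ring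
      nlinarith [Nat.mul_le_mul_left p e1, Nat.mul_lt_mul_of_pos_left hk hrpos,
        Nat.mul_le_mul_right (S * E) hpr])
  refine ⟨⟨N, hN, hNd, hNi⟩, H, ⟨fun q hq hd => ?_, fun q hq hqπ hd => ?_⟩, hHab⟩
  · rw [← hH.symm.index_eq_card] at hd
    exact hNi q hq hd
  · rw [hH.index_eq_card] at hd
    exact hNd q hq hd hqπ

end Cfsg.Agent.S3899
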