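import Cfsg.Statements.S3900
import Cfsg.Agent.Lib.HallClasses.GammaSimple


set_option autoImplicit false
open Cfsg

namespace Cfsg.Agent.S3900


/-- Elements of coprime orders in a finite nilpotent group commute. -/
theorem commute_of_coprime_aux {H : Type*} [Group H] [Finite H] (hH : Group.IsNilpotent H) (a b : H)
    (hcop : (orderOf a).Coprime (orderOf b)) : Commute a b := by
  by_contra hc
  obtain ⟨p, a', ha, haz, han, hap⟩ := CfsgLib.HallClasses.Gamma.exists_PP
    (U := Subgroup.centralizer ({b} : Set H)) (x := a)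
    fun h => hc (Subgroup.mem_centralizer_singleton_iff.1 h)
  obtain ⟨q, b', hb, hbz, hbn, hbq⟩ := CfsgLib.HallClasses.Gamma.exists_PP
    (U := Subgroup.centralizer ({a'} : Set H)) (x := b)
    fun h => han (Subgroup.mem_centralizer_singleton_iff.2
      (Subgroup.mem_centralizer_singleton_iff.1 h).symm)
  haveI := Fact.mk ha.1
  obtain ⟨S, hS⟩ := CfsgLib.HallClasses.Gamma.nilpotent_facts (H := (⊤ : Subgroup H))
    (Group.isNilpotent_top.2 hH) (p := p)
  have hne : q ≠ p := by
    rintro rfl
    exact ha.1.ne_one (Nat.eq_one_of_dvd_coprimes hcop hap hbq)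
  exact hbn (Subgroup.mem_centralizer_singleton_iff.2
    ((hS a' (Subgroup.mem_top _) ha).2 q b' (Subgroup.mem_top _) hb hne).symm.eq)


/-- A criterion of Baumslag–Wiegold type for a term of the lower central series. Let G be a finite group and k ≥ 0; call an element a left-normed commutator value of length k + 1 when it has the form [[…[x₀, x₁], …], x_k] with k + 1 entries (for k = 0, any element), where [a, b] = aba⁻¹b⁻¹. Then the (k+1)-st term γ_{k+1}(G) of the lower central series (γ₁(G) = G) is nilpotent if and only if for every two such values x, y of coprime orders, either every prime dividing o(x)·o(y) divides o(xy), or o(x)·o(y) ≤ o(xy). -/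
theorem result {G : Type*} [Group G] [Finite G] (k : ℕ) :
    Group.IsNilpotent ↥((⊤ : Subgroup G).lowerCentralSeries k) ↔
      ∀ x y : G, (∃ f : Fin (k + 1) → G, x = ((List.ofFn f).tail).foldl (fun a b => a * b * a⁻¹ * b⁻¹) (f 0)) → (∃ f : Fin (k + 1) → G, y = ((List.ofFn f).tail).foldl (fun a b => a * b * a⁻¹ * b⁻¹) (f 0)) → (orderOf x).Coprime (orderOf y) →
        (∀ r : ℕ, r.Prime → r ∣ orderOf x * orderOf y → r ∣ orderOf (x * y)) ∨ orderOf x * orderOf y ≤ orderOf (x * y) := by
  constructor
  · intro hnil x y hx hy hcop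
    refine Or.inr (le_of_eq (Commute.orderOf_mul_eq_mul_orderOf_of_coprime ?_ hcop).symm)
    have hx' := CfsgLib.HallClasses.Gamma.Val.mem_lowerCentralSeries
      ((CfsgLib.HallClasses.Gamma.val_iff_foldl k x).2 hx)
    have hy' := CfsgLib.HallClasses.Gamma.Val.mem_lowerCentralSeries
      ((CfsgLib.HallClasses.Gamma.val_iff_foldl k y).2 hy)
    exact congrArg Subtype.val (commute_of_coprime_aux hnil ⟨x, hx'⟩ ⟨y, hy'⟩
      (by rwa [Subgroup.orderOf_mk, Subgroup.orderOf_mk])).eq
  · intro hc
    have hcent : CfsgLib.HallClasses.Gamma.Centralizes k G :=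
      CfsgLib.HallClasses.Gamma.centralizes_of_cond fun x y hx hy hcop =>
        hc x y ((CfsgLib.HallClasses.Gamma.val_iff_foldl k x).1 hx)
          ((CfsgLib.HallClasses.Gamma.val_iff_foldl k y).1 hy) hcop
    haveI := CfsgLib.HallClasses.Gamma.isSolvable_of_centralizes G hcent
    exact CfsgLib.HallClasses.Gamma.isNilpotent_term hcent

end Cfsg.Agent.S3900
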