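import Cfsg.Statements.S3903
import Cfsg.Agent.Lib.NormalPComplement.FixedPointFree

set_option autoImplicit false
open Cfsg

namespace Cfsg.Agent.S3903

open Subgroup

/-- A subgroup of prime index `p` such that every centralizer of an outside element is a Sylow
`p`-subgroup: the Sylow subgroups are abelian and self-normalizing. -/
theorem sylow_le_centralizer {M : Type*} [Group M] [Finite M] {p : ℕ} [hp : Fact p.Prime]
    (N : Subgroup M) [N.Normal] (hidx : N.index = p)
    (hC : ∀ y : M, y ∉ N → ∃ P : Sylow p M, centralizer ({y} : Set M) = P) (P : Sylow p M) :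
    normalizer ((P : Subgroup M) : Set M) ≤ centralizer ((P : Subgroup M) : Set M) := by
  classical
  haveI := Fintype.ofFinite M
  haveI := Fintype.ofFinite (Sylow p M)
  set a := Nat.card (P : Subgroup M) with ha
  set m := (P : Subgroup M).index with hm
  have hinf : ∀ R : Sylow p M,
      m * Nat.card ↥((R : Subgroup M) ⊓ N) = Nat.card N ∧
      p * Nat.card ↥((R : Subgroup M) ⊓ N) = a := by
    intro R
    have hRN : ¬ (R : Subgroup M) ≤ N := by
      intro h
      have hd := index_dvd_of_le h
      rw [hidx] at hd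
      exact R.not_dvd_index hd
    have hcard : Nat.card (R : Subgroup M) = a := by
      rw [ha, Sylow.card_eq_multiplicity, Sylow.card_eq_multiplicity]
    have hri : N.relIndex (R : Subgroup M) = p := by
      have hdvd := N.relIndex_dvd_index_of_normal (R : Subgroup M)
      rw [hidx] at hdvd
      rcases (Nat.dvd_prime hp.out).1 hdvd with h | h
      · exact absurd (relIndex_eq_one.1 h) hRN
      · exact h
    have h1 : Nat.card ↥((R : Subgroup M) ⊓ N) * p = a := by
      have := card_mul_index (N.subgroupOf (R : Subgroup M))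
      have e : Nat.card ↥(N.subgroupOf (R : Subgroup M)) = Nat.card ↥((R : Subgroup M) ⊓ N) := by
        rw [← inf_subgroupOf_left]
        exact Nat.card_congr ((subgroupOfEquivOfLe inf_le_left).toEquiv)
      have e2 : (N.subgroupOf (R : Subgroup M)).index = p := hri
      rw [e, hcard, e2] at this
      exact this
    refine ⟨?_, by rw [mul_comm]; exact h1⟩
    have h2 : Nat.card N * p = Nat.card M := by rw [← hidx]; exact card_mul_index N
    have h3 : a * m = Nat.card M := card_mul_index _
    have h4 : m * Nat.card ↥((R : Subgroup M) ⊓ N) * p = Nat.card N * p := by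
      rw [h2, ← h3, ← h1]; ring
    exact mul_right_cancel₀ hp.out.ne_zero h4
  set T : Finset M := Finset.univ.filter (fun y => y ∉ N) with hT
  let f : Sylow p M → Finset M := fun R =>
    T.filter (fun y => centralizer ({y} : Set M) = R)
  let u : Sylow p M → Finset M := fun R => T.filter (fun y => y ∈ (R : Subgroup M))
  have hfu : ∀ R, f R ⊆ u R := by
    intro R y hy
    simp only [f, u, Finset.mem_filter] at hy ⊢
    refine ⟨hy.1, ?_⟩
    rw [← hy.2]; exact mem_centralizer_singleton_iff.2 rfl
  set c := Nat.card ↥((P : Subgroup M) ⊓ N) with hc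
  have hcR : ∀ R : Sylow p M, Nat.card ↥((R : Subgroup M) ⊓ N) = c := fun R =>
    mul_left_cancel₀ hp.out.ne_zero ((hinf R).2.trans (hinf P).2.symm)
  have hu : ∀ R : Sylow p M, (u R).card + c = a := by
    intro R
    have hcard : Nat.card (R : Subgroup M) = a := by
      rw [ha, Sylow.card_eq_multiplicity, Sylow.card_eq_multiplicity]
    rw [← hcard, ← hcR R]
    have e1 : Nat.card ↥((R : Subgroup M) ⊓ N) =
        ((Finset.univ.filter (fun y : M => y ∈ (R : Subgroup M))).filter (fun y => y ∈ N)).card := by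
      rw [Nat.card_eq_fintype_card, Fintype.card_subtype]
      congr 1
      ext y; simp [Subgroup.mem_inf]
    have e2 : Nat.card (R : Subgroup M) =
        (Finset.univ.filter (fun y : M => y ∈ (R : Subgroup M))).card := by
      rw [Nat.card_eq_fintype_card, Fintype.card_subtype]
    have e3 : u R =
        (Finset.univ.filter (fun y : M => y ∈ (R : Subgroup M))).filter (fun y => y ∉ N) := by
      ext y; simp [u, T, and_comm]
    rw [e1, e2, e3, add_comm]
    exact Finset.card_filter_add_card_filter_not _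
  have hTcard : T.card + Nat.card N = m * a := by
    have h3 : a * m = Nat.card M := card_mul_index _
    rw [mul_comm m a, h3, Nat.card_eq_fintype_card, Nat.card_eq_fintype_card, Fintype.card_subtype,
      ← Finset.card_univ, add_comm]
    exact Finset.card_filter_add_card_filter_not (fun y : M => y ∈ N)
  have hcover : T ⊆ Finset.univ.biUnion f := by
    intro y hy
    obtain ⟨R, hR⟩ := hC y (Finset.mem_filter.1 hy).2
    exact Finset.mem_biUnion.2 ⟨R, Finset.mem_univ _, Finset.mem_filter.2 ⟨hy, hR⟩⟩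
  have hn : Fintype.card (Sylow p M) ≤ m ∧
      (Fintype.card (Sylow p M) = m → normalizer ((P : Subgroup M) : Set M) ≤ P) := by
    have h : Fintype.card (Sylow p M) = (normalizer ((P : Subgroup M) : Set M)).index := by
      rw [← Nat.card_eq_fintype_card]; exact Sylow.card_eq_index_normalizer P
    have hle : (P : Subgroup M) ≤ normalizer ((P : Subgroup M) : Set M) := le_normalizer
    have hmul := relIndex_mul_index hle
    constructor
    · rw [h]
      exact Nat.le_of_dvd (Nat.pos_of_ne_zero index_ne_zero_of_finite) (Dvd.intro_left _ hmul)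
    · intro he
      rw [← h, he] at hmul
      have : (P : Subgroup M).relIndex (normalizer ((P : Subgroup M) : Set M)) = 1 :=
        mul_right_cancel₀ (index_ne_zero_of_finite (H := (P : Subgroup M))) (by rw [one_mul]; exact hmul)
      exact relIndex_eq_one.1 this
  set w := a - c with hw
  have hu' : ∀ R, (u R).card = w := fun R => by have := hu R; omega
  have hTw : T.card = m * w := by
    have h1 := (hinf P).1
    have h2 : T.card + m * c = m * a := by rw [h1]; exact hTcard
    rw [hw, Nat.mul_sub]; omega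
  have hchain : m * w ≤ Fintype.card (Sylow p M) * w := by
    rw [← hTw]
    refine (Finset.card_le_card hcover).trans (Finset.card_biUnion_le.trans ?_)
    refine (Finset.sum_le_sum (fun R _ => Finset.card_le_card (hfu R))).trans ?_
    simp [hu']
  have hw0 : 0 < w := by
    have h1 : p * c = a := by rw [hc]; exact (hinf P).2
    have h2 : 0 < c := Nat.card_pos
    have h3 : 2 * c ≤ p * c := Nat.mul_le_mul_right _ hp.out.two_le
    omega
  have hnm : Fintype.card (Sylow p M) = m :=
    le_antisymm hn.1 (Nat.le_of_mul_le_mul_right hchain hw0)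
  have hall : ∀ R, f R = u R := by
    intro R
    refine Finset.eq_of_subset_of_card_le (hfu R) ?_
    rw [hu']
    by_contra hlt
    push_neg at hlt
    have hs : ∑ R' : Sylow p M, (f R').card < ∑ _R' : Sylow p M, w :=
      Finset.sum_lt_sum (fun R' _ => (Finset.card_le_card (hfu R')).trans (hu' R').le)
        ⟨R, Finset.mem_univ _, hlt⟩
    have hge : T.card ≤ ∑ R' : Sylow p M, (f R').card :=
      (Finset.card_le_card hcover).trans Finset.card_biUnion_le
    rw [Finset.sum_const, Finset.card_univ, smul_eq_mul, hnm] at hs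
    omega
  have hcentral : ∀ y ∈ (P : Subgroup M), y ∉ N → ∀ z ∈ (P : Subgroup M), z * y = y * z := by
    intro y hy hyN z hz
    have hyu : y ∈ f P := by rw [hall P]; simp [u, T, hy, hyN]
    have := (Finset.mem_filter.1 hyu).2
    rw [← this] at hz
    exact mem_centralizer_singleton_iff.1 hz
  refine (hn.2 hnm).trans ?_
  intro z hz
  rw [mem_centralizer_iff]
  intro y hy
  by_cases hyN : y ∈ N
  · obtain ⟨v, hv, hvN⟩ : ∃ v ∈ (P : Subgroup M), v ∉ N := by
      have h1 : (u P).card ≠ 0 := by rw [hu']; omega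
      obtain ⟨v, hv⟩ := Finset.card_pos.1 (Nat.pos_of_ne_zero h1)
      simp [u, T] at hv
      exact ⟨v, hv.2, hv.1⟩
    have hyv : y * v ∉ N := fun h => hvN ((N.mul_mem_cancel_left hyN).1 h)
    have h1 := hcentral (y * v) ((P : Subgroup M).mul_mem hy hv) hyv z hz
    have h2 := hcentral v hv hvN z hz
    calc y * z = y * (z * v) * v⁻¹ := by group
      _ = (y * v) * z * v⁻¹ := by rw [h2]; group
      _ = z * y := by rw [← h1]; group
  · exact (hcentral y hy hyN z hz).symm

variable {G : Type*} [Group G] [Finite G]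

/-- The centralizer of a `p`-element outside `N` is a `p`-group. -/
theorem isPGroup_centralizer (N : Subgroup G) [N.Normal]
    (h : ∀ x : G, x ∉ N → IsPrimePow (orderOf x)) {p : ℕ} [hp : Fact p.Prime] {x : G}
    (hx : x ∉ N) {k : ℕ} (hk : orderOf x = p ^ k) : IsPGroup p ↥(centralizer ({x} : Set G)) := by
  rw [IsPGroup.iff_card]
  have hcard : Nat.card ↥(centralizer ({x} : Set G)) ≠ 0 := Nat.card_pos.ne'
  refine ⟨_, Nat.eq_prime_pow_of_unique_prime_dvd hcard (fun {q} hq hdvd => ?_)⟩
  by_contra hqp
  haveI := Fact.mk hq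
  obtain ⟨z, hz⟩ := exists_prime_orderOf_dvd_card' q hdvd
  have hcomm : Commute x (z : G) := (mem_centralizer_singleton_iff.1 z.2).symm
  have hzo : orderOf (z : G) = q := by rw [orderOf_coe]; exact hz
  have hcop : (orderOf x).Coprime (orderOf (z : G)) := by
    rw [hk, hzo]
    exact Nat.Coprime.pow_left _ ((Nat.coprime_primes hp.out hq).2 (Ne.symm hqp))
  have ho := hcomm.orderOf_mul_eq_mul_orderOf_of_coprime hcop
  have hxz : x * (z : G) ∉ N := by
    intro hmem
    apply hx
    have h1 : (x * (z : G)) ^ q ∈ N := N.pow_mem hmem q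
    rw [hcomm.mul_pow, ← hzo, pow_orderOf_eq_one, mul_one, hzo] at h1
    have h2 : x ^ (p ^ k) ∈ N := by rw [← hk, pow_orderOf_eq_one]; exact one_mem _
    have hc2 : Nat.Coprime q (p ^ k) :=
      Nat.Coprime.pow_right _ ((Nat.coprime_primes hq hp.out).2 hqp)
    have hint : ∃ a b : ℤ, (q : ℤ) * a + ((p ^ k : ℕ) : ℤ) * b = 1 :=
      ⟨_, _, (Nat.gcd_eq_gcd_ab q (p ^ k)).symm.trans (by rw [hc2]; norm_num)⟩
    obtain ⟨a, b, hab⟩ := hint
    have hx1 : x = (x ^ q) ^ a * (x ^ (p ^ k)) ^ b := by
      rw [← zpow_natCast, ← zpow_natCast, ← zpow_mul, ← zpow_mul, ← zpow_add, hab, zpow_one]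
    rw [hx1]
    exact N.mul_mem (N.zpow_mem h1 a) (N.zpow_mem h2 b)
  have hpp := h _ hxz
  rw [ho, hk, hzo] at hpp
  have hk0 : k ≠ 0 := by
    rintro rfl
    rw [pow_zero, orderOf_eq_one_iff] at hk
    exact hx (hk ▸ one_mem _)
  obtain ⟨r, e, hr, he, heq⟩ := hpp
  have hr' := hr.nat_prime
  have hrp : p = r := (Nat.prime_dvd_prime_iff_eq hp.out hr').1 (hp.out.dvd_of_dvd_pow
    (heq.symm ▸ dvd_mul_of_dvd_left (dvd_pow_self p hk0) q))
  have hrq : q = r := (Nat.prime_dvd_prime_iff_eq hq hr').1 (hq.dvd_of_dvd_pow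
    (heq.symm ▸ dvd_mul_left q _))
  exact hqp (hrq.trans hrp.symm)

/-- Let N be a proper normal subgroup of the finite group G such that every element x of G outside N has prime power order and has centralizer C_G(x) a maximal subgroup of G. Then N is solvable. -/
theorem result {G : Type*} [Group G] [Finite G] (N : Subgroup G) [N.Normal] (hN : N ≠ ⊤)
    (h : ∀ x : G, x ∉ N → IsPrimePow (orderOf x) ∧ IsCoatom (Subgroup.centralizer ({x} : Set G))) : Group.IsSolvable ↥N := by
  classical
  obtain ⟨x₀, hx₀⟩ : ∃ x : G, x ∉ N := by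
    by_contra hne
    push_neg at hne
    exact hN (top_unique fun y _ => hne y)
  obtain ⟨p, e, hp', -, he⟩ := (h x₀ hx₀).1
  have hp := hp'.nat_prime
  haveI := Fact.mk hp
  by_cases hPG : IsPGroup p G
  · haveI := hPG.isNilpotent
    infer_instance
  have hex : ∃ i : ℕ, x₀ ^ (p ^ i) ∈ N := ⟨e, by rw [he, pow_orderOf_eq_one]; exact one_mem _⟩
  obtain ⟨i, hi⟩ : ∃ i, Nat.find hex = i + 1 := by
    refine ⟨Nat.find hex - 1, (Nat.succ_pred_eq_of_pos ?_).symm⟩
    refine Nat.pos_of_ne_zero fun h0 => hx₀ ?_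
    simpa [h0] using Nat.find_spec hex
  set x := x₀ ^ (p ^ i) with hxdef
  have hxN : x ∉ N := Nat.find_min hex (by omega)
  have hxp : x ^ p ∈ N := by
    have := Nat.find_spec hex
    rw [hi, pow_succ, pow_mul] at this
    exact this
  let M : Subgroup G := N ⊔ zpowers x
  have hNM : N ≤ M := le_sup_left
  have hidx : N.relIndex M = p := by
    rw [← QuotientGroup.ker_mk' N, relIndex_ker]
    have himg : M.map (QuotientGroup.mk' N) = zpowers (QuotientGroup.mk' N x) := by
      rw [Subgroup.map_sup, MonoidHom.map_zpowers, QuotientGroup.map_mk'_self, bot_sup_eq]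
    rw [himg]
    show Nat.card ↥(zpowers _) = p
    rw [Nat.card_zpowers]
    refine orderOf_eq_prime ?_ ?_
    · rw [← map_pow]; exact (QuotientGroup.eq_one_iff _).2 hxp
    · exact fun he' => hxN ((QuotientGroup.eq_one_iff _).1 he')
  let N₁ : Subgroup M := N.subgroupOf M
  have hidx₁ : N₁.index = p := hidx
  have hpelem : ∀ y : M, y ∉ N₁ → ∃ k, orderOf (y : G) = p ^ k := by
    intro y hy
    have hyN : (y : G) ∉ N := fun h' => hy (mem_subgroupOf.2 h')
    obtain ⟨q, k, hq', -, hk⟩ := (h _ hyN).1
    refine ⟨k, ?_⟩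
    by_cases hqp : q = p
    · rw [← hqp, hk]
    exfalso
    have h1 : (y : G) ^ p ∈ N := by
      have := N₁.pow_index_mem y
      rw [hidx₁] at this
      simpa [N₁, mem_subgroupOf] using this
    have h2 : (y : G) ^ (q ^ k) ∈ N := by rw [hk, pow_orderOf_eq_one]; exact one_mem _
    have hc2 : Nat.Coprime p (q ^ k) :=
      Nat.Coprime.pow_right _ ((Nat.coprime_primes hp hq'.nat_prime).2 (Ne.symm hqp))
    obtain ⟨a, b, hab⟩ : ∃ a b : ℤ, (p : ℤ) * a + ((q ^ k : ℕ) : ℤ) * b = 1 :=
      ⟨_, _, (Nat.gcd_eq_gcd_ab p (q ^ k)).symm.trans (by rw [hc2]; norm_num)⟩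
    have hy1 : (y : G) = ((y : G) ^ p) ^ a * ((y : G) ^ (q ^ k)) ^ b := by
      rw [← zpow_natCast, ← zpow_natCast, ← zpow_mul, ← zpow_mul, ← zpow_add, hab, zpow_one]
    exact hyN (hy1 ▸ N.mul_mem (N.zpow_mem h1 a) (N.zpow_mem h2 b))
  have hcardinf : ∀ R R' : Sylow p G,
      Nat.card ↥((R : Subgroup G) ⊓ N) = Nat.card ↥((R' : Subgroup G) ⊓ N) := by
    intro R R'
    obtain ⟨g, rfl⟩ := MulAction.exists_smul_eq G R R'
    have hmap : ((g • R : Sylow p G) : Subgroup G) ⊓ N =
        ((R : Subgroup G) ⊓ N).map (MulAut.conj g).toMonoidHom := by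
      have hNc : N.map (MulAut.conj g).toMonoidHom = N := by
        ext w
        refine ⟨?_, fun hw => ⟨g⁻¹ * w * g, by simpa using Normal.conj_mem ‹N.Normal› w hw g⁻¹, by simp [mul_assoc]⟩⟩
        rintro ⟨v, hv, rfl⟩
        exact Normal.conj_mem ‹N.Normal› v hv g
      rw [Subgroup.map_inf_eq _ _ _ (MulAut.conj g).injective, hNc]
      rfl
    rw [hmap]
    exact (Nat.card_congr (Subgroup.equivMapOfInjective _ _ (MulAut.conj g).injective).toEquiv)
  have hC : ∀ y : M, y ∉ N₁ → ∃ Q : Sylow p M, centralizer ({y} : Set M) = Q := by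
    intro y hy
    have hyN : (y : G) ∉ N := fun h' => hy (mem_subgroupOf.2 h')
    obtain ⟨k, hk⟩ := hpelem y hy
    have hCp := isPGroup_centralizer N (fun z hz => (h z hz).1) hyN hk
    obtain ⟨P, hP⟩ := hCp.exists_le_sylow
    have hPC : (P : Subgroup G) = centralizer ({(y : G)} : Set G) := by
      rcases (h _ hyN).2.le_iff.1 hP with ht | ht
      · refine absurd ?_ hPG
        have hP' := P.isPGroup'
        rw [ht] at hP'
        exact hP'.of_equiv Subgroup.topEquiv
      · exact ht
    have hmem : ∀ z : M, z ∈ centralizer ({y} : Set M) ↔ (z : G) ∈ centralizer ({(y : G)} : Set G) := by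
      intro z
      simp [mem_centralizer_singleton_iff, Subtype.ext_iff]
    have hCMp : IsPGroup p ↥(centralizer ({y} : Set M)) := by
      refine hCp.of_injective ((M.subtype.comp (centralizer ({y} : Set M)).subtype).codRestrict _
        (fun z => (hmem _).1 z.2)) ?_
      intro a b hab
      exact Subtype.ext (Subtype.ext (congrArg (fun w : ↥(centralizer ({(y : G)} : Set G)) => (w : G)) hab))
    obtain ⟨Q, hQ⟩ := hCMp.exists_le_sylow
    refine ⟨Q, le_antisymm hQ ?_⟩
    obtain ⟨R, hR⟩ := (Q.isPGroup'.map M.subtype).exists_le_sylow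
    have hPR : (P : Subgroup G) ⊓ N ≤ (R : Subgroup G) ⊓ N := by
      refine le_inf ?_ inf_le_right
      intro z hz
      refine hR ⟨⟨z, hNM hz.2⟩, hQ ((hmem _).2 ?_), rfl⟩
      exact hPC ▸ hz.1
    have heq := Subgroup.eq_of_le_of_card_ge hPR (hcardinf R P).le
    intro z hz
    haveI := hidx₁ ▸ hp
    obtain ⟨j, hj⟩ : ∃ j : ℤ, (y ^ j)⁻¹ * z ∈ N₁ := by
      haveI := Fact.mk hp
      have hcardq : Nat.card (M ⧸ N₁) = p := hidx₁
      have hyq : (QuotientGroup.mk y : M ⧸ N₁) ≠ 1 := fun e' => hy ((QuotientGroup.eq_one_iff _).1 e')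
      obtain ⟨j, hj⟩ := mem_zpowers_iff.1 (mem_zpowers_of_prime_card hcardq hyq (g' := (QuotientGroup.mk z : M ⧸ N₁)))
      refine ⟨j, QuotientGroup.eq.1 ?_⟩
      rw [← hj]; rfl
    have hyQ : y ∈ (Q : Subgroup M) := hQ (mem_centralizer_singleton_iff.2 rfl)
    set w := (y ^ j)⁻¹ * z with hw
    have hwQ : w ∈ (Q : Subgroup M) :=
      (Q : Subgroup M).mul_mem ((Q : Subgroup M).inv_mem ((Q : Subgroup M).zpow_mem hyQ j)) hz
    have hwP : (w : G) ∈ (R : Subgroup G) ⊓ N := ⟨hR ⟨w, hwQ, rfl⟩, mem_subgroupOf.1 hj⟩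
    rw [← heq] at hwP
    have hwC : w ∈ centralizer ({y} : Set M) := (hmem w).2 (hPC ▸ hwP.1)
    have hz' : z = y ^ j * w := by rw [hw]; group
    rw [hz']
    exact (centralizer ({y} : Set M)).mul_mem
      ((centralizer ({y} : Set M)).zpow_mem (mem_centralizer_singleton_iff.2 rfl) j) hwC
  let Q : Sylow p M := default
  have hQ := sylow_le_centralizer N₁ hidx₁ hC Q
  let T := MonoidHom.transferSylow Q hQ
  -- fixed point free automorphism of prime order on the kernel
  let xM : M := ⟨x, le_sup_right (a := N) (mem_zpowers x)⟩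
  have hxM : xM ∉ N₁ := fun h' => hxN (mem_subgroupOf.1 h')
  have hxo : ∃ k, orderOf x = p ^ k := hpelem xM hxM
  obtain ⟨kx, hkx⟩ := hxo
  have hxc := (h x hxN).2
  have hex2 : ∃ j : ℕ, centralizer ({x ^ (p ^ j)} : Set G) = ⊤ :=
    ⟨kx, by rw [← hkx, pow_orderOf_eq_one]; exact top_unique fun z _ => mem_centralizer_singleton_iff.2 (by simp)⟩
  obtain ⟨j, hj⟩ : ∃ j, Nat.find hex2 = j + 1 := by
    refine ⟨Nat.find hex2 - 1, (Nat.succ_pred_eq_of_pos ?_).symm⟩
    refine Nat.pos_of_ne_zero fun h0 => hxc.1 ?_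
    have := Nat.find_spec hex2
    rw [h0, pow_zero, pow_one] at this
    exact this
  have hzc : centralizer ({x ^ (p ^ j)} : Set G) = centralizer ({x} : Set G) := by
    rcases hxc.le_iff.1 (show centralizer ({x} : Set G) ≤ centralizer ({x ^ (p ^ j)} : Set G) from
      fun z hz => mem_centralizer_singleton_iff.2
        ((Commute.pow_right (mem_centralizer_singleton_iff.1 hz) (p ^ j)).eq)) with ht | ht
    · exact absurd ht (Nat.find_min hex2 (by omega))
    · exact ht
  have hzp : ∀ g : G, Commute (x ^ (p ^ (j + 1))) g := by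
    intro g
    have := Nat.find_spec hex2
    rw [hj] at this
    exact (mem_centralizer_singleton_iff.1 (this ▸ mem_top g)).symm
  let z : M := xM ^ (p ^ j)
  let φ : T.ker ≃* T.ker := MulAut.conjNormal z
  have hit : ∀ (i : ℕ) (g : T.ker), ((φ^[i] g : T.ker) : M) = z ^ i * g * (z ^ i)⁻¹ := by
    intro i g
    induction i with
    | zero => simp
    | succ i IH =>
      rw [Function.iterate_succ_apply', MulAut.conjNormal_apply, IH, pow_succ']
      group
  haveI : Group.IsNilpotent T.ker := by
    refine CfsgLib.NormalPComplement.isNilpotent_of_fixedPointFree φ hp ?_ ?_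
    · intro g hg
      have h1 : z * (g : M) * z⁻¹ = g := by
        rw [← MulAut.conjNormal_apply]; exact congrArg Subtype.val hg
      have h2 : z * (g : M) = g * z := by
        conv_rhs => rw [← h1]
        group
      have h3 : ((g : M) : G) ∈ centralizer ({x} : Set G) := by
        rw [← hzc]
        refine mem_centralizer_singleton_iff.2 ?_
        have := congrArg Subtype.val h2
        simpa [z, xM] using this.symm
      obtain ⟨n, hn⟩ := isPGroup_centralizer N (fun w hw => (h w hw).1) hxN hkx ⟨_, h3⟩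
      have hg1 : g ^ (p ^ n) = 1 := by
        apply Subtype.ext; apply Subtype.ext
        simpa using congrArg Subtype.val hn
      have hord : orderOf g ∣ p ^ n := orderOf_dvd_of_pow_eq_one hg1
      obtain ⟨l, -, hl⟩ := (Nat.dvd_prime_pow hp).1 hord
      rcases Nat.eq_zero_or_pos l with rfl | hl0
      · exact orderOf_eq_one_iff.1 (by simpa using hl)
      · exact absurd ((dvd_pow_self p hl0.ne').trans (hl ▸ orderOf_dvd_natCard g))
          (MonoidHom.not_dvd_card_ker_transferSylow Q hQ)
    · intro g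
      apply Subtype.ext
      rw [hit]
      apply Subtype.ext
      have : ((z ^ p : M) : G) = x ^ (p ^ (j + 1)) := by
        simp [z, xM, ← pow_mul, pow_succ]
      have hc := hzp ((g : M) : G)
      rw [← this] at hc
      have hc' := hc.eq
      push_cast
      push_cast at hc'
      rw [hc']; group
  haveI : Group.IsNilpotent ↥(Q : Subgroup M) := Q.isPGroup'.isNilpotent
  haveI : Group.IsSolvable M := Group.isSolvable_of_ker_le_range T.ker.subtype T (by simp)
  exact Group.isSolvable_of_isSolvable_injective (Subgroup.inclusion_injective hNM)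

end Cfsg.Agent.S3903
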