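import Cfsg.Statements.S3904
import Cfsg.Agent.Lib.HallClasses.MaximalCentralizersQuotient


set_option autoImplicit false
open Cfsg

namespace Cfsg.Agent.S3904


/-- In the Frobenius case all proper subgroups are abelian. -/
theorem isMulCommutative_of_proper_aux {X Y : Type*} [Group X] [Group Y] [Finite Y] {p q : ℕ}
    (hq : q.Prime) {K Q : Subgroup Y} [hKn : K.Normal] (hel : Cfsg.IsElementaryAbelian p K)
    (hcard : Nat.card Q = q) (hsup : K ⊔ Q = ⊤)
    (hmin : ∀ B : Subgroup Y, B.Normal → B ≤ K → B = ⊥ ∨ B = K) (e : X ≃* Y) (H : Subgroup X)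
    (hH : H ≠ ⊤) : IsMulCommutative H := by
  haveI := hel.1
  set J := H.map e.toMonoidHom with hJ
  suffices hJc : IsMulCommutative J by
    exact ⟨⟨fun a b => Subtype.ext (e.injective (by
      simp only [Subgroup.coe_mul, map_mul]
      exact congrArg Subtype.val
        (hJc.is_comm.comm ⟨e a, a, a.2, rfl⟩ ⟨e b, b, b.2, rfl⟩)))⟩⟩
  have hJtop : J ≠ ⊤ := by
    intro he
    refine hH (Subgroup.map_injective e.injective (f := e.toMonoidHom) ?_)
    rw [Subgroup.map_top_of_surjective _ e.surjective]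
    exact he
  have hindq : K.index ∣ q := by
    have h1 : K.relIndex (K ⊔ Q) = K.relIndex Q := by rw [sup_comm, Subgroup.relIndex_sup_right]
    rw [hsup, Subgroup.relIndex_top_right] at h1
    rw [h1, ← hcard]
    exact Subgroup.relIndex_dvd_card K Q
  by_cases hJK : J ≤ K
  · exact ⟨⟨fun a b => Subtype.ext ((congrArg Subtype.val
      (hel.1.is_comm.comm ⟨a, hJK a.2⟩ ⟨b, hJK b.2⟩) :) : (a : Y) * b = b * a)⟩⟩
  -- `J` supplements `K`
  have htop : K ⊔ J = ⊤ := by
    rw [← Subgroup.index_eq_one]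
    rcases (Nat.dvd_prime hq).1 hindq with h1 | h1
    · exact Nat.eq_one_of_dvd_one (h1 ▸ Subgroup.index_dvd_of_le le_sup_left)
    · rcases (Nat.dvd_prime hq).1 (h1 ▸ Subgroup.index_dvd_of_le (le_sup_left (b := J) (a := K)))
        with h2 | h2
      · exact h2
      · exfalso
        have h3 := Subgroup.relIndex_mul_index (le_sup_left : K ≤ K ⊔ J)
        rw [h1, h2, mul_eq_right₀ hq.ne_zero, sup_comm, Subgroup.relIndex_sup_right,
          Subgroup.relIndex_eq_one] at h3
        exact hJK h3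
  haveI hn : (K ⊓ J).Normal := by
    refine ⟨fun k hk g => ?_⟩
    obtain ⟨a, ha, b, hb, rfl⟩ := Subgroup.mem_sup_of_normal_left.1 (htop.ge (Subgroup.mem_top g))
    have h1 : b * k * b⁻¹ ∈ K ⊓ J :=
      ⟨hKn.conj_mem k hk.1 b, J.mul_mem (J.mul_mem hb hk.2) (J.inv_mem hb)⟩
    have hab : a * (b * k * b⁻¹) = b * k * b⁻¹ * a :=
      congrArg Subtype.val (hel.1.is_comm.comm ⟨a, ha⟩ ⟨_, h1.1⟩)
    have h2 : a * b * k * (a * b)⁻¹ = b * k * b⁻¹ := by
      calc a * b * k * (a * b)⁻¹ = a * (b * k * b⁻¹) * a⁻¹ := by group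
        _ = (b * k * b⁻¹) * a * a⁻¹ := by
          rw [hab]
        _ = b * k * b⁻¹ := by group
    rw [h2]
    exact h1
  rcases hmin _ hn inf_le_left with hb | hb
  · have h1 : K.relIndex J = Nat.card J := by
      rw [← Subgroup.inf_relIndex_right, hb, Subgroup.relIndex_bot_left]
    have h2 : K.relIndex J = K.index := by
      rw [← Subgroup.relIndex_sup_right (H := J) (K := K), sup_comm, htop, Subgroup.relIndex_top_right]
    have hdvd : Nat.card J ∣ q := h1 ▸ h2 ▸ hindq
    haveI := Fact.mk hq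
    have hcyc : IsCyclic J := by
      rcases (Nat.dvd_prime hq).1 hdvd with h3 | h3
      · haveI := (Nat.card_eq_one_iff_unique.1 h3).1
        infer_instance
      · exact isCyclic_of_prime_card h3
    infer_instance
  · exact absurd (htop.symm.trans (sup_eq_right.2 (inf_eq_left.1 hb))).symm hJtop


/-- Let G be a non-abelian finite group in which the centralizer of every non-central element is a maximal subgroup. Then G/Z(G) is either an elementary abelian p-group for some prime p, or a minimal non-abelian group (non-abelian with all proper subgroups abelian) of order p^a · q for distinct primes p, q with a normal Sylow p-subgroup. -/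
theorem result {G : Type*} [Group G] [Finite G] (hna : ¬ IsMulCommutative G)
    (h : ∀ x : G, x ∉ Subgroup.center G → IsCoatom (Subgroup.centralizer ({x} : Set G))) :
    (∃ p : ℕ, p.Prime ∧ Cfsg.IsElementaryAbelian p (⊤ : Subgroup (G ⧸ Subgroup.center G))) ∨
    (¬ IsMulCommutative (G ⧸ Subgroup.center G) ∧ (∀ H : Subgroup (G ⧸ Subgroup.center G), H ≠ ⊤ → IsMulCommutative ↥H) ∧
      ∃ p q a : ℕ, p.Prime ∧ q.Prime ∧ p ≠ q ∧ Nat.card (G ⧸ Subgroup.center G) = p ^ a * q ∧
        ∀ P : Subgroup (G ⧸ Subgroup.center G), Nat.card ↥P = p ^ a → P.Normal) := by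
  have hH : CfsgLib.HallClasses.MaxCent.Hyp (⊤ : Subgroup G) := fun x _ hx => h x (by
    rwa [Subgroup.coe_top, Subgroup.centralizer_univ] at hx)
  have hz : CfsgLib.HallClasses.MaxCent.zn (⊤ : Subgroup G) = Subgroup.center G := by
    rw [CfsgLib.HallClasses.MaxCent.zn, top_inf_eq, Subgroup.coe_top, Subgroup.centralizer_univ]
  let e : G ⧸ Subgroup.center G ≃* G ⧸ CfsgLib.HallClasses.MaxCent.zn (⊤ : Subgroup G) :=
    QuotientGroup.quotientMulEquivOfEq hz.symm
  have htop : (⊤ : Subgroup G).map (CfsgLib.HallClasses.MaxCent.pr (⊤ : Subgroup G)) = ⊤ :=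
    Subgroup.map_top_of_surjective _ (QuotientGroup.mk'_surjective _)
  by_cases hp : ∃ p : ℕ, p.Prime ∧
      IsPGroup p ((⊤ : Subgroup G).map (CfsgLib.HallClasses.MaxCent.pr (⊤ : Subgroup G)))
  · obtain ⟨p, hp, hpg⟩ := hp
    haveI := Fact.mk hp
    have hall := CfsgLib.HallClasses.MaxCent.elementary_of_isPGroup hH hpg
    refine Or.inl ⟨p, hp, ⟨⟨fun a b => Subtype.ext ?_⟩⟩, fun a _ => ?_⟩
    · obtain ⟨m, hm⟩ := QuotientGroup.mk_surjective (a : G ⧸ Subgroup.center G)
      obtain ⟨n, hn⟩ := QuotientGroup.mk_surjective (b : G ⧸ Subgroup.center G)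
      show (a : G ⧸ Subgroup.center G) * b = b * a
      rw [← hm, ← hn, ← mul_inv_eq_one, ← QuotientGroup.mk_mul, ← QuotientGroup.mk_mul,
        ← QuotientGroup.mk_inv, ← QuotientGroup.mk_mul, QuotientGroup.eq_one_iff, ← hz]
      simpa [mul_assoc] using (hall m trivial n trivial).1
    · obtain ⟨m, rfl⟩ := QuotientGroup.mk_surjective a
      exact (QuotientGroup.eq_one_iff _).2 (hz ▸ (hall m trivial m trivial).2)
  push Not at hp
  obtain ⟨p, q, K, Q, hp', hq, hpq, hK, -, -, hel, hKb, hcard, hinf, hsup, hfpf, hmin⟩ :=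
    CfsgLib.HallClasses.MaxCent.exists_structure hH hp
  rw [htop, top_le_iff] at hsup
  refine Or.inr ⟨?_, ?_, p, q, ?_⟩
  · intro hc
    obtain ⟨k, hk, hk1⟩ := K.bot_or_exists_ne_one.resolve_left hKb
    obtain ⟨t, ht, ht1⟩ := Q.bot_or_exists_ne_one.resolve_left fun e' => hq.ne_one (by
      rw [← hcard, e', Subgroup.card_bot])
    refine hk1 (hfpf t ht ht1 k hk (e.symm.injective ?_))
    rw [map_mul, map_mul]
    exact hc.is_comm.comm _ _
  · intro H hH'
    exact isMulCommutative_of_proper_aux hq hel hcard hsup hmin e H hH'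
  · obtain ⟨a, ha⟩ : ∃ a, Nat.card K = p ^ a :=
      haveI := Fact.mk hp'
      IsPGroup.iff_card.1 fun k => ⟨1, Subtype.ext (by simpa using hel.2 k k.2)⟩
    have hcardG : Nat.card (G ⧸ Subgroup.center G) = p ^ a * q := by
      rw [Nat.card_congr e.toEquiv, ← ha, ← hcard]
      exact (Subgroup.isComplement'_of_disjoint_and_mul_eq_univ (disjoint_iff.2 hinf)
        (by rw [← Subgroup.normal_mul, hsup, Subgroup.coe_top])).card_mul_card.symm
    refine ⟨a, hp', hq, hpq, hcardG, fun P hP => ?_⟩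
    have hindex : K.index = q := by
      have h1 := K.card_mul_index
      rw [ha, ← Nat.card_congr e.toEquiv, hcardG] at h1
      exact mul_left_cancel₀ (pow_ne_zero _ hp'.ne_zero) h1
    have hPK : P.map e.toMonoidHom ≤ K := by
      rintro _ ⟨t, ht, rfl⟩
      have h1 : e t ^ q ∈ K := hindex ▸ K.pow_index_mem (e t)
      have h2 : orderOf (e t) ∣ p ^ a := by
        rw [MulEquiv.orderOf_eq e t, ← hP]
        exact Subgroup.orderOf_dvd_natCard P ht
      exact (Subgroup.zpowers_le.2 h1) (mem_zpowers_pow_iff.2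
        ((((Nat.coprime_primes hp' hq).2 hpq).pow_left a).coprime_dvd_left h2).symm)
    have heq : P.map e.toMonoidHom = K := Subgroup.eq_of_le_of_card_ge hPK (by
      rw [Subgroup.card_map_of_injective e.injective, hP, ha])
    have hn : ((P.map e.toMonoidHom).comap e.toMonoidHom).Normal := by
      rw [heq]; exact hK.comap _
    rwa [Subgroup.comap_map_eq_self_of_injective e.injective] at hn

end Cfsg.Agent.S3904
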