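import Cfsg.Statements.S3905
import Cfsg.Agent.Lib.HallClasses.MaximalCentralizersQuotient


set_option autoImplicit false
open Cfsg

namespace Cfsg.Agent.S3905

/-- Let N be a normal subgroup of the finite group G such that for every element x of N outside the center of N the centralizer C_G(x) is a maximal subgroup of G. Then N/Z(N) is either an elementary abelian p-group for some prime p, or a Frobenius group whose kernel is an elementary abelian normal subgroup and whose complement has prime order. -/
theorem result {G : Type*} [Group G] [Finite G] (N : Subgroup G) [N.Normal]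
    (h : ∀ x : G, x ∈ N → x ∉ Subgroup.centralizer (N : Set G) → IsCoatom (Subgroup.centralizer ({x} : Set G))) :
    (∃ p : ℕ, p.Prime ∧ Cfsg.IsElementaryAbelian p (⊤ : Subgroup (↥N ⧸ Subgroup.center ↥N))) ∨
    (∃ (Q K : Subgroup (↥N ⧸ Subgroup.center ↥N)) (p : ℕ), p.Prime ∧ Cfsg.IsFrobeniusComplement Q ∧ (Nat.card ↥Q).Prime ∧
      K.Normal ∧ (K : Set (↥N ⧸ Subgroup.center ↥N)) = Cfsg.frobeniusKernel Q ∧ Cfsg.IsElementaryAbelian p K) := by
  rcases CfsgLib.HallClasses.MaxCent.quotient_structure N h with hp |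
    ⟨p, q, K, Q, hp, hq, -, hK, hel, hKb, hcard, hc, hfpf, -⟩
  · exact Or.inl hp
  · haveI := hK
    have hQb : Q ≠ ⊥ := fun e => hq.ne_one (by rw [← hcard, e, Subgroup.card_bot])
    have hF := (CfsgLib.Frobenius.isFrobeniusComplement_iff_fpf K Q hc hKb hQb).2 hfpf
    exact Or.inr ⟨Q, K, p, hp, hF, hcard ▸ hq, hK,
      CfsgLib.Frobenius.coe_eq_kernel hF K hc, hel⟩

end Cfsg.Agent.S3905
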