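import Cfsg.Statements.S3908
import Cfsg.Agent.Lib.HallClasses.BGroups


set_option autoImplicit false
open Cfsg

namespace Cfsg.Agent.S3908

/-- Let G be a finite group in which any two abelian subgroups of the same order are conjugate. Then a Sylow 2-subgroup of G is cyclic, elementary abelian or generalized quaternion, and for an odd prime p a Sylow p-subgroup of G is cyclic or has exponent dividing p. -/
theorem result {G : Type*} [Group G] [Finite G] (hB : ∀ A B : Subgroup G, IsMulCommutative ↥A → IsMulCommutative ↥B → Nat.card ↥A = Nat.card ↥B → ∃ g : G, B = A.map (MulAut.conj g).toMonoidHom) :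
    (∀ P : Sylow 2 G, IsCyclic ↥(P : Subgroup G) ∨ Cfsg.IsElementaryAbelian 2 (P : Subgroup G) ∨ ∃ k : ℕ, Nonempty (↥(P : Subgroup G) ≃* QuaternionGroup (2 ^ k))) ∧
    ∀ (p : ℕ) [Fact p.Prime], p ≠ 2 → ∀ P : Sylow p G, IsCyclic ↥(P : Subgroup G) ∨ ∀ x ∈ (P : Subgroup G), x ^ p = 1 := by
  refine ⟨fun P => ?_, fun p _ hp2 P => ?_⟩
  · by_cases h : ∀ x ∈ (P : Subgroup G), x ^ 2 = 1
    · refine Or.inr (Or.inl ⟨⟨⟨fun a b => Subtype.ext ?_⟩⟩, h⟩)
      have h1 := h _ (mul_mem a.2 b.2)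
      have ha : (a : G)⁻¹ = a := inv_eq_of_mul_eq_one_right (by rw [← pow_two]; exact h _ a.2)
      have hb : (b : G)⁻¹ = b := inv_eq_of_mul_eq_one_right (by rw [← pow_two]; exact h _ b.2)
      have hab : ((a : G) * b)⁻¹ = a * b := inv_eq_of_mul_eq_one_right (by rw [← pow_two]; exact h1)
      show (a : G) * b = b * a
      rw [← hab, mul_inv_rev, ha, hb]
    · push Not at h
      obtain ⟨y, hy, hy2⟩ := h
      obtain ⟨x, hx⟩ := CfsgLib.HallClasses.exists_orderOf_eq_sq P.2 hy hy2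
      rcases CfsgLib.TwoGroups.isCyclic_or_quaternion P.2
        (CfsgLib.HallClasses.AbelianSameOrderConj.uniqueOrderP hB hx P.2) with h | ⟨-, m, -, e⟩
      · exact Or.inl h
      · exact Or.inr (Or.inr ⟨m, e⟩)
  · by_cases h : ∀ x ∈ (P : Subgroup G), x ^ p = 1
    · exact Or.inr h
    · push Not at h
      obtain ⟨y, hy, hyp⟩ := h
      obtain ⟨x, hx⟩ := CfsgLib.HallClasses.exists_orderOf_eq_sq P.2 hy hyp
      exact Or.inl (CfsgLib.HallClasses.AbelianSameOrderConj.isCyclic hB hp2 hx P.2)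

end Cfsg.Agent.S3908
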