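import Cfsg.Statements.S3909
import Mathlib


set_option autoImplicit false
open Cfsg

namespace Cfsg.Agent.S3909

/-- Let G be a finite group in which any two abelian subgroups of the same order are conjugate. Let M be a normal subgroup of G. If M contains an element of the same order as a ∈ G, then a ∈ M; and if M is elementary abelian of order p^t with p prime and t ≥ 2, then M is the unique Sylow p-subgroup of G. -/
theorem result {G : Type*} [Group G] [Finite G] (hB : ∀ A B : Subgroup G, IsMulCommutative ↥A → IsMulCommutative ↥B → Nat.card ↥A = Nat.card ↥B → ∃ g : G, B = A.map (MulAut.conj g).toMonoidHom) (M : Subgroup G) [M.Normal] :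
    (∀ a : G, (∃ m ∈ M, orderOf m = orderOf a) → a ∈ M) ∧
    ∀ (p t : ℕ) [Fact p.Prime], 2 ≤ t → Nat.card ↥M = p ^ t → Cfsg.IsElementaryAbelian p M → ∀ P : Sylow p G, (P : Subgroup G) = M := by
  have hfirst : ∀ a : G, (∃ m ∈ M, orderOf m = orderOf a) → a ∈ M := by
    rintro a ⟨m, hm, hma⟩
    obtain ⟨g, hg⟩ := hB (Subgroup.zpowers m) (Subgroup.zpowers a) inferInstance inferInstance
      (by rw [Nat.card_zpowers, Nat.card_zpowers, hma])
    obtain ⟨y, hy, hya⟩ := hg ▸ Subgroup.mem_zpowers a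
    rw [← hya]
    exact Subgroup.Normal.conj_mem inferInstance y ((Subgroup.zpowers_le.2 hm) hy) g
  refine ⟨hfirst, fun p t _ ht hcard hel P => ?_⟩
  have hMp : IsPGroup p M := IsPGroup.of_card hcard
  obtain ⟨Q, hQ⟩ := hMp.exists_le_sylow
  obtain ⟨g, hg⟩ := MulAction.exists_smul_eq G Q P
  have hMP : M ≤ (P : Subgroup G) := by
    intro m hm
    rw [← hg, Sylow.coe_subgroup_smul]
    exact ⟨g⁻¹ * m * g, hQ (by simpa using Subgroup.Normal.conj_mem inferInstance m hm g⁻¹), by simp [mul_assoc]⟩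
  have hcl : ∀ x : G, x ^ p = 1 → x ∈ M := by
    intro x hx
    rcases eq_or_ne x 1 with rfl | hx1
    · exact one_mem _
    obtain ⟨m, hm⟩ := exists_prime_orderOf_dvd_card' (G := M) p (hcard ▸ dvd_pow_self p (by omega))
    exact hfirst x ⟨m, m.2, by rw [Subgroup.orderOf_coe, hm, orderOf_eq_prime hx hx1]⟩
  refine le_antisymm (fun x hx => hcl x ?_) hMP
  by_contra hxp
  obtain ⟨k, hk⟩ := IsPGroup.iff_orderOf.1 P.2 ⟨x, hx⟩
  rw [Subgroup.orderOf_mk] at hk
  have hk2 : 2 ≤ k := by
    by_contra hlt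
    apply hxp
    refine orderOf_dvd_iff_pow_eq_one.1 ?_
    rw [hk]
    interval_cases k <;> simp
  -- a cyclic and an elementary abelian subgroup of order p ^ 2
  obtain ⟨A, hA, hAc⟩ : ∃ A : Subgroup G, A ≤ M ∧ Nat.card A = p ^ 2 := by
    obtain ⟨S, hS⟩ := Sylow.exists_subgroup_card_pow_prime p (G := M) (n := 2)
      (hcard ▸ pow_dvd_pow p ht)
    exact ⟨S.map M.subtype, Subgroup.map_subtype_le _,
      by rw [Subgroup.card_map_of_injective M.subtype_injective, hS]⟩
  set y := x ^ p ^ (k - 2) with hy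
  have hyo : orderOf y = p ^ 2 := by
    rw [hy, orderOf_pow_of_dvd (pow_ne_zero _ (Fact.out : p.Prime).ne_zero)
      (hk ▸ pow_dvd_pow p (Nat.sub_le _ _)), hk, Nat.pow_div (Nat.sub_le _ _) (Fact.out : p.Prime).pos]
    congr 1
    omega
  have hAab : IsMulCommutative A := ⟨⟨fun a b => Subtype.ext
    (congrArg (fun z : M => (z : G)) (hel.1.is_comm.comm (⟨a, hA a.2⟩ : M) ⟨b, hA b.2⟩))⟩⟩
  obtain ⟨h, hh⟩ := hB A (Subgroup.zpowers y) hAab inferInstance (by rw [hAc, Nat.card_zpowers, hyo])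
  obtain ⟨a, ha, hay⟩ := hh ▸ Subgroup.mem_zpowers y
  have hao : orderOf a = p ^ 2 := by
    rw [← hyo, ← hay]
    exact (orderOf_injective (MulAut.conj h).toMonoidHom (MulAut.conj h).injective a).symm
  have hd := orderOf_dvd_of_pow_eq_one (hel.2 a (hA ha))
  rw [hao] at hd
  have := Nat.le_of_dvd (Fact.out : p.Prime).pos hd
  nlinarith [(Fact.out : p.Prime).one_lt]

end Cfsg.Agent.S3909
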