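import Cfsg.Statements.S3910
import Cfsg.Agent.Lib.HallClasses.NilpotentCover


set_option autoImplicit false
open Cfsg

namespace Cfsg.Agent.S3910

/-- A finite nilpotent group in which any two abelian subgroups of the same order are conjugate is cyclic. -/
theorem result {G : Type*} [Group G] [Finite G] (hB : ∀ A B : Subgroup G, IsMulCommutative ↥A → IsMulCommutative ↥B → Nat.card ↥A = Nat.card ↥B → ∃ g : G, B = A.map (MulAut.conj g).toMonoidHom) (hnil : Group.IsNilpotent G) : IsCyclic G := by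
  classical
  haveI := hnil
  have hmax : ∀ p : Nat.Primes, ∃ c : G, (∃ k : ℕ, orderOf c = (p : ℕ) ^ k) ∧
      ∀ y : G, (∃ k : ℕ, orderOf y = (p : ℕ) ^ k) → orderOf y ≤ orderOf c := by
    intro p
    obtain ⟨c, hc, hm⟩ := Set.Finite.exists_maximalFor orderOf
      {y : G | ∃ k : ℕ, orderOf y = (p : ℕ) ^ k} (Set.toFinite _) ⟨1, 0, by simp⟩
    refine ⟨c, hc, fun y hy => ?_⟩
    by_contra hlt
    exact hlt (hm hy (not_le.1 hlt).le)
  choose c hcp hcmax using hmax
  set X : Subgroup G := Subgroup.closure (Set.range c) with hX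
  have hXc : IsMulCommutative X := by
    refine Subgroup.isMulCommutative_closure ?_
    rintro _ ⟨p, rfl⟩ _ ⟨q, rfl⟩
    rcases eq_or_ne p q with rfl | hne
    · rfl
    · obtain ⟨i, hi⟩ := hcp p
      obtain ⟨j, hj⟩ := hcp q
      exact (CfsgLib.HallClasses.commute_of_nilpotent hnil (c p) (c q) (by
        rw [hi, hj]
        exact (((Nat.coprime_primes p.2 q.2).2 (fun h => hne (Subtype.ext h))).pow_left i).pow_right j)).eq
  have hXtop : X = ⊤ := by
    by_contra hne
    obtain ⟨H, hH, hXH⟩ := (eq_top_or_exists_le_coatom X).resolve_left hne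
    have hHn : H.Normal :=
      Subgroup.NormalizerCondition.normal_of_coatom H Group.normalizerCondition_of_isNilpotent hH
    have hsyl : ∀ p : ℕ, ∀ [Fact p.Prime], ∀ P : Sylow p G, (P : Subgroup G) ≤ H := by
      intro p _ P y hy
      let pp : Nat.Primes := ⟨p, Fact.out⟩
      obtain ⟨k, hk⟩ := IsPGroup.iff_orderOf.1 P.2 ⟨y, hy⟩
      rw [Subgroup.orderOf_mk] at hk
      obtain ⟨i, hi⟩ := hcp pp
      have hki : k ≤ i := by
        have := hcmax pp y ⟨k, hk⟩
        rw [hk, hi] at this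
        exact (Nat.pow_le_pow_iff_right (Fact.out : p.Prime).one_lt).1 this
      have hco : orderOf (c pp ^ p ^ (i - k)) = p ^ k := by
        rw [orderOf_pow_of_dvd (pow_ne_zero _ (Fact.out : p.Prime).ne_zero)
          (hi ▸ pow_dvd_pow p (Nat.sub_le _ _)), hi]
        show p ^ i / p ^ (i - k) = p ^ k
        rw [Nat.pow_div (Nat.sub_le _ _) (Fact.out : p.Prime).pos, Nat.sub_sub_self hki]
      obtain ⟨g, hg⟩ := hB (Subgroup.zpowers (c pp ^ p ^ (i - k))) (Subgroup.zpowers y)
        inferInstance inferInstance (by rw [Nat.card_zpowers, Nat.card_zpowers, hco, hk])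
      obtain ⟨z, hz, hzy⟩ := hg ▸ Subgroup.mem_zpowers y
      rw [← hzy]
      exact hHn.conj_mem z ((Subgroup.zpowers_le.2
        (pow_mem (hXH (Subgroup.subset_closure ⟨pp, rfl⟩)) _)) hz) g
    apply hH.1
    refine Subgroup.eq_top_of_le_card _ (Nat.le_of_dvd Nat.card_pos ?_)
    refine (Nat.factorization_prime_le_iff_dvd Nat.card_pos.ne' Nat.card_pos.ne').1 fun p hp => ?_
    haveI := Fact.mk hp
    obtain ⟨P⟩ := (inferInstance : Nonempty (Sylow p G))
    have h1 := Subgroup.card_dvd_of_le (hsyl p P)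
    rw [P.card_eq_multiplicity] at h1
    exact (hp.pow_dvd_iff_le_factorization Nat.card_pos.ne').1 h1
  have habel : ∀ a b : G, a * b = b * a := fun a b =>
    congrArg (fun z : X => (z : G)) (hXc.is_comm.comm (⟨a, hXtop ▸ Subgroup.mem_top a⟩ : X)
      ⟨b, hXtop ▸ Subgroup.mem_top b⟩)
  letI : CommGroup G := { (inferInstance : Group G) with mul_comm := habel }
  obtain ⟨x, hx⟩ := Monoid.exists_orderOf_eq_exponent (G := G)
    (Monoid.ExponentExists.of_finite)
  refine ⟨⟨x, fun y => ?_⟩⟩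
  have hd : orderOf y ∣ orderOf x := hx ▸ Monoid.order_dvd_exponent y
  obtain ⟨e, he⟩ := hd
  have hxo : orderOf (x ^ e) = orderOf y := by
    have he0 : e ≠ 0 := fun h0 => (orderOf_pos x).ne' (by rw [he, h0, mul_zero])
    rw [orderOf_pow_of_dvd he0 (Dvd.intro_left _ he.symm), he, Nat.mul_div_cancel _ (Nat.pos_of_ne_zero he0)]
  obtain ⟨g, hg⟩ := hB (Subgroup.zpowers (x ^ e)) (Subgroup.zpowers y) inferInstance inferInstance
    (by rw [Nat.card_zpowers, Nat.card_zpowers, hxo])
  obtain ⟨z, hz, hzy⟩ := hg ▸ Subgroup.mem_zpowers y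
  have : z = y := by
    rw [← hzy]
    show z = g * z * g⁻¹
    rw [habel g z, mul_inv_cancel_right]
  exact this ▸ (Subgroup.zpowers_le.2 (pow_mem (Subgroup.mem_zpowers x) e)) hz

end Cfsg.Agent.S3910
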