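import Cfsg.Statements.S3911
import Cfsg.Agent.Lib.HallClasses.BGroups
import Cfsg.Agent.Lib.HallClasses.CyclicSubgroups


set_option autoImplicit false
open Cfsg

namespace Cfsg.Agent.S3911

open Subgroup


/-- Let G be a finite group in which any two abelian subgroups of the same order are conjugate. If M is a normal subgroup of G of odd order, then any two abelian subgroups of G/M of the same order are conjugate in G/M. -/
theorem result {G : Type*} [Group G] [Finite G] (hB : ∀ A B : Subgroup G, IsMulCommutative ↥A → IsMulCommutative ↥B → Nat.card ↥A = Nat.card ↥B → ∃ g : G, B = A.map (MulAut.conj g).toMonoidHom) (M : Subgroup G) [M.Normal] (hM : Odd (Nat.card ↥M)) :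
    ∀ A B : Subgroup (G ⧸ M), IsMulCommutative ↥A → IsMulCommutative ↥B → Nat.card ↥A = Nat.card ↥B →
      ∃ g : G ⧸ M, B = A.map (MulAut.conj g).toMonoidHom := by
  classical
  -- each abelian subgroup of the quotient is the image of an abelian subgroup of determined order
  suffices key : ∀ A : Subgroup (G ⧸ M), IsMulCommutative ↥A →
      ∃ T : Subgroup G, IsMulCommutative ↥T ∧ T.map (QuotientGroup.mk' M) = A ∧
        Nat.card T = Nat.card A * ∏ p ∈ (Nat.card A).primeFactors, p ^ (Nat.card M).factorization p by
    intro A B hA hBc hAB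
    obtain ⟨T, hT, rfl, hTc⟩ := key A hA
    obtain ⟨U, hU, rfl, hUc⟩ := key B hBc
    obtain ⟨g, rfl⟩ := hB T U hT hU (by rw [hTc, hUc, hAB])
    refine ⟨QuotientGroup.mk' M g, ?_⟩
    rw [map_map, map_map]
    congr 1
  intro A hA
  obtain ⟨T, hTA, hTmin⟩ := Set.Finite.exists_minimalFor id
    {T : Subgroup G | T.map (QuotientGroup.mk' M) = A} (Set.toFinite _)
    ⟨A.comap (QuotientGroup.mk' M), map_comap_eq_self_of_surjective (QuotientGroup.mk'_surjective M) A⟩
  have hmin : ∀ U : Subgroup G, U ≤ T → U.map (QuotientGroup.mk' M) = A → U = T :=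
    fun U hU hUA => le_antisymm hU (hTmin hUA hU)
  have hTA' : T.map (QuotientGroup.mk' M) = A := hTA
  -- the map onto `A`
  let f : T →* G ⧸ M := (QuotientGroup.mk' M).comp T.subtype
  have hfr : f.range = A := by
    rw [MonoidHom.range_comp, range_subtype, hTA']
  have hfk : f.ker = M.subgroupOf T := by
    rw [← MonoidHom.comap_ker, QuotientGroup.ker_mk']
    rfl
  have hcomm : ∀ a b : T, a * b * a⁻¹ * b⁻¹ ∈ f.ker := fun a b => by
    rw [MonoidHom.mem_ker, map_mul, map_mul, map_mul, map_inv, map_inv,
      show f a * f b = f b * f a from congrArg Subtype.val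
        (hA.is_comm.comm (⟨f a, hfr ▸ ⟨a, rfl⟩⟩ : A) ⟨f b, hfr ▸ ⟨b, rfl⟩⟩), mul_inv_cancel_right,
      mul_inv_cancel]
  -- no proper subgroup maps onto `A`
  have hsurj : ∀ U : Subgroup T, U.map f = A → U = ⊤ := by
    intro U hU
    have h1 := hmin (U.map T.subtype) (map_subtype_le U) (by rw [map_map]; exact hU)
    refine map_injective T.subtype_injective (h1.trans ?_)
    rw [← MonoidHom.range_eq_map, range_subtype]
  haveI hnil : Group.IsNilpotent T := by
    refine (Group.isNilpotent_of_finite_tfae.out 0 2 rfl rfl).2 fun U hU => ?_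
    have hk : f.ker ≤ U := by
      by_contra h
      have htop : U ⊔ f.ker = ⊤ := hU.2 _ (left_lt_sup.2 h)
      apply hU.1
      apply hsurj
      rw [← hfr, MonoidHom.range_eq_map, ← htop, Subgroup.map_sup, (Subgroup.map_eq_bot_iff f.ker).2 le_rfl, sup_bot_eq]
    refine ⟨fun u hu t => ?_⟩
    have h1 : t * u * t⁻¹ * u⁻¹ ∈ U := hk (hcomm t u)
    have h2 := U.mul_mem h1 hu
    rwa [inv_mul_cancel_right] at h2
  have hcardT : Nat.card T = Nat.card f.ker * Nat.card A := by
    rw [← hfr, ← index_ker, card_mul_index]
  have hker_dvd : Nat.card f.ker ∣ Nat.card M := by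
    rw [hfk]
    have e : Nat.card (M.subgroupOf T) = Nat.card (T ⊓ M : Subgroup G) := by
      rw [← card_map_of_injective T.subtype_injective, subgroupOf_map_subtype, inf_comm]
    rw [e]
    exact card_dvd_of_le inf_le_right
  -- local analysis at one prime
  have hloc : ∀ p : ℕ, p.Prime → ∀ S : Sylow p T,
      IsMulCommutative (S : Subgroup T) ∧ (¬ p ∣ Nat.card A → Nat.card (S : Subgroup T) = 1) ∧
        (p ∣ Nat.card A → (Nat.card f.ker).factorization p = (Nat.card M).factorization p) := by
    intro p hp S
    haveI := Fact.mk hp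
    by_cases hpA : p ∣ Nat.card A
    swap
    · have hk : (S : Subgroup T) ≤ f.ker := by
        have h1 : Nat.card ((S : Subgroup T).map f) = 1 := by
          obtain ⟨j, hj⟩ := IsPGroup.iff_card.1 (S.2.map f)
          have hd : Nat.card ((S : Subgroup T).map f) ∣ Nat.card A :=
            card_dvd_of_le ((map_le_range f _).trans hfr.le)
          rcases Nat.eq_zero_or_pos j with h | h
          · rw [hj, h, pow_zero]
          · exact absurd ((dvd_pow_self p h.ne').trans (hj ▸ hd)) hpA
        exact (Subgroup.map_eq_bot_iff _).1 (card_eq_one.1 h1)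
      have hS1 : (S : Subgroup T) = ⊥ := by
        obtain ⟨K, hK⟩ := exists_right_complement'_of_coprime (N := (S : Subgroup T)) (Sylow.card_coprime_index S)
        have hKt : K = ⊤ := by
          apply hsurj
          rw [← hfr, MonoidHom.range_eq_map, ← hK.sup_eq_top, Subgroup.map_sup, (Subgroup.map_eq_bot_iff _).2 hk,
            bot_sup_eq]
        have hd := hK.disjoint
        rwa [hKt, disjoint_top] at hd
      refine ⟨?_, fun _ => card_eq_one.2 hS1, fun h => absurd h hpA⟩
      rw [hS1]
      exact ⟨⟨fun a b => Subsingleton.elim _ _⟩⟩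
    by_cases hpM : p ∣ Nat.card M
    swap
    · have hvk : (Nat.card f.ker).factorization p = 0 :=
        Nat.factorization_eq_zero_of_not_dvd fun h => hpM (h.trans hker_dvd)
      refine ⟨⟨⟨fun a b => ?_⟩⟩, fun h => absurd hpA h,
        fun _ => hvk.trans (Nat.factorization_eq_zero_of_not_dvd hpM).symm⟩
      have h1 : ((a * b * a⁻¹ * b⁻¹ : (S : Subgroup T)) : T) ∈ (S : Subgroup T) ⊓ f.ker :=
        ⟨Subtype.coe_prop _, by push_cast; exact hcomm _ _⟩
      have h2 : (S : Subgroup T) ⊓ f.ker = ⊥ := by
        apply inf_eq_bot_of_coprime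
        obtain ⟨j, hj⟩ := IsPGroup.iff_card.1 S.2
        rw [hj]
        exact Nat.Coprime.pow_left j (hp.coprime_iff_not_dvd.2 fun h => hpM (h.trans hker_dvd))
      rw [h2, mem_bot] at h1
      have h3 : a * b * a⁻¹ * b⁻¹ = 1 := Subtype.ext h1
      exact mul_inv_eq_iff_eq_mul.1 (mul_inv_eq_one.1 h3)
    have hp2 : p ≠ 2 := fun h => by
      subst h
      exact Nat.not_even_iff_odd.2 hM (even_iff_two_dvd.2 hpM)
    -- an element of order `p ^ 2`
    let P : Sylow p (A.comap (QuotientGroup.mk' M)) := default
    let W : Subgroup G := (P : Subgroup (A.comap (QuotientGroup.mk' M))).map (A.comap (QuotientGroup.mk' M)).subtype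
    have hW : IsPGroup p W := P.2.map _
    have hMP : M ≤ A.comap (QuotientGroup.mk' M) := fun m hm => by
      rw [mem_comap, QuotientGroup.mk'_apply, (QuotientGroup.eq_one_iff m).2 hm]
      exact one_mem _
    have hcardC : Nat.card (A.comap (QuotientGroup.mk' M)) = Nat.card M * Nat.card A := by
      let g := (QuotientGroup.mk' M).comp (A.comap (QuotientGroup.mk' M)).subtype
      have hr : g.range = A := by
        rw [MonoidHom.range_comp, range_subtype,
          map_comap_eq_self_of_surjective (QuotientGroup.mk'_surjective M)]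
      have hk : Nat.card g.ker = Nat.card M := by
        rw [← MonoidHom.comap_ker, QuotientGroup.ker_mk']
        exact Nat.card_congr (subgroupOfEquivOfLe hMP).toEquiv
      rw [← card_mul_index g.ker, index_ker, hr, hk]
    have hWc : Nat.card W = p ^ ((Nat.card M).factorization p + (Nat.card A).factorization p) := by
      rw [card_map_of_injective (subtype_injective _), P.card_eq_multiplicity, hcardC,
        Nat.factorization_mul Nat.card_pos.ne' Nat.card_pos.ne', Finsupp.add_apply]
    obtain ⟨z, hz⟩ := exists_prime_orderOf_dvd_card' p hpM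
    have hzG : orderOf (z : G) = p := by rw [orderOf_coe, hz]
    have hordp : ∀ u : G, u ^ p = 1 → u ∈ M := by
      intro u hu
      rcases (Nat.dvd_prime hp).1 (orderOf_dvd_of_pow_eq_one hu) with h | h
      · rw [orderOf_eq_one_iff.1 h]
        exact one_mem _
      · obtain ⟨g, hg⟩ := hB (zpowers (z : G)) (zpowers u) inferInstance inferInstance
          (by rw [Nat.card_zpowers, Nat.card_zpowers, hzG, h])
        obtain ⟨m, hm, hmu⟩ : u ∈ (zpowers (z : G)).map (MulAut.conj g).toMonoidHom := hg ▸ mem_zpowers u
        rw [← hmu]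
        exact Normal.conj_mem inferInstance m ((zpowers_le.2 z.2) hm) g
    obtain ⟨y, hy, hyp⟩ : ∃ y ∈ W, y ^ p ≠ 1 := by
      by_contra h
      push Not at h
      have hle : W ≤ M := fun u hu => hordp u (h u hu)
      have h1 := card_dvd_of_le hle
      rw [hWc, hp.pow_dvd_iff_le_factorization Nat.card_pos.ne'] at h1
      have := hp.factorization_pos_of_dvd Nat.card_pos.ne' hpA
      omega
    obtain ⟨x, hx⟩ := CfsgLib.HallClasses.exists_orderOf_eq_sq hW hy hyp
    have hcyc : ∀ U : Subgroup G, IsPGroup p U → IsCyclic U := fun U hU =>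
      CfsgLib.HallClasses.AbelianSameOrderConj.isCyclic hB hp2 hx hU
    haveI := hcyc _ (S.2.map T.subtype)
    haveI : IsCyclic (S : Subgroup T) :=
      isCyclic_of_surjective _ (equivMapOfInjective (S : Subgroup T) _ T.subtype_injective).symm.surjective
    refine ⟨IsCyclic.commutative, fun h => absurd hpA h, fun _ => ?_⟩
    refine le_antisymm ((hp.pow_dvd_iff_le_factorization Nat.card_pos.ne').1
      ((Nat.ordProj_dvd _ p).trans hker_dvd)) ?_
    -- a cyclic Sylow subgroup of the preimage containing the image of `S`
    have hTle : T ≤ A.comap (QuotientGroup.mk' M) := map_le_iff_le_comap.1 hTA'.le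
    obtain ⟨R, hR⟩ := ((S.2.map T.subtype).comap_of_injective (A.comap (QuotientGroup.mk' M)).subtype
      (subtype_injective _)).exists_le_sylow
    let V : Subgroup G := (R : Subgroup (A.comap (QuotientGroup.mk' M))).map (A.comap (QuotientGroup.mk' M)).subtype
    haveI : IsCyclic V := hcyc V (R.2.map _)
    have hVc : Nat.card V = p ^ ((Nat.card M).factorization p + (Nat.card A).factorization p) := by
      rw [card_map_of_injective (subtype_injective _), R.card_eq_multiplicity, hcardC,
        Nat.factorization_mul Nat.card_pos.ne' Nat.card_pos.ne', Finsupp.add_apply]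
    have hSV : (S : Subgroup T).map T.subtype ≤ V := by
      intro u hu
      obtain ⟨t, ht, htu⟩ := hu
      exact ⟨⟨u, hTle (by rw [← htu]; exact t.2)⟩, hR (by
        rw [mem_comap]
        exact ⟨t, ht, htu⟩), rfl⟩
    -- the largest subgroup of `V` inside `M`
    have hMV : p ^ (Nat.card M).factorization p ∣ Nat.card (V ⊓ M : Subgroup G) := by
      have h1 : M.relIndex V ∣ M.relIndex (A.comap (QuotientGroup.mk' M)) := by
        rw [← relIndex_sup_right V M]
        exact Dvd.intro _ (relIndex_mul_relIndex M (V ⊔ M) _ le_sup_right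
          (sup_le (map_subtype_le _) hMP))
      have h2 : Nat.card (V ⊓ M : Subgroup G) * M.relIndex V = Nat.card V := by
        rw [← inf_relIndex_left, ← relIndex_bot_left, ← relIndex_bot_left,
          relIndex_mul_relIndex ⊥ (V ⊓ M) V bot_le inf_le_left]
      have h3 : M.relIndex (A.comap (QuotientGroup.mk' M)) = Nat.card A := by
        have h4 : Nat.card M * M.relIndex (A.comap (QuotientGroup.mk' M)) = Nat.card M * Nat.card A := by
          rw [← hcardC, ← relIndex_bot_left, ← relIndex_bot_left, relIndex_mul_relIndex ⊥ M _ bot_le hMP]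
        exact Nat.eq_of_mul_eq_mul_left Nat.card_pos h4
      rw [h3] at h1
      obtain ⟨b, hb, hb'⟩ := (Nat.dvd_prime_pow hp).1 (hVc ▸ Dvd.intro_left _ h2)
      have hble : b ≤ (Nat.card A).factorization p :=
        (hp.pow_dvd_iff_le_factorization Nat.card_pos.ne').1 (hb' ▸ h1)
      obtain ⟨c, hc, hc'⟩ := (Nat.dvd_prime_pow hp).1 (hVc ▸ Dvd.intro _ h2)
      rw [hb', hc', hVc, ← pow_add] at h2
      have := Nat.pow_right_injective hp.two_le h2
      rw [hc']
      exact pow_dvd_pow p (by omega)
    have hSc : Nat.card ((S : Subgroup T).map T.subtype) =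
        p ^ ((Nat.card f.ker).factorization p + (Nat.card A).factorization p) := by
      rw [card_map_of_injective T.subtype_injective, S.card_eq_multiplicity, hcardT,
        Nat.factorization_mul Nat.card_pos.ne' Nat.card_pos.ne', Finsupp.add_apply]
    by_contra hlt
    push Not at hlt
    rcases Nat.le_total ((Nat.card f.ker).factorization p + (Nat.card A).factorization p)
      ((Nat.card M).factorization p) with hle | hle
    · -- then the image of `S` lies in `M`
      have hSM : (S : Subgroup T).map T.subtype ≤ V ⊓ M :=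
        CfsgLib.HallClasses.le_of_card_dvd_of_isCyclic hSV inf_le_left
          (hSc ▸ (pow_dvd_pow p hle).trans hMV)
      have h1 : (S : Subgroup T) ≤ f.ker := fun t ht => by
        rw [hfk]
        exact (hSM ⟨t, ht, rfl⟩).2
      have h2 := card_dvd_of_le h1
      rw [S.card_eq_multiplicity, hp.pow_dvd_iff_le_factorization Nat.card_pos.ne', hcardT,
        Nat.factorization_mul Nat.card_pos.ne' Nat.card_pos.ne', Finsupp.add_apply] at h2
      have := hp.factorization_pos_of_dvd Nat.card_pos.ne' hpA
      omega
    · -- then the part of `V` inside `M` lies in `T`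
      have hWM : ∃ U : Subgroup G, U ≤ V ⊓ M ∧ Nat.card U = p ^ (Nat.card M).factorization p := by
        obtain ⟨U, hU⟩ := Sylow.exists_subgroup_card_pow_prime (G := (V ⊓ M : Subgroup G)) p hMV
        exact ⟨U.map (V ⊓ M).subtype, map_subtype_le _,
          by rw [card_map_of_injective (subtype_injective _), hU]⟩
      obtain ⟨U, hUVM, hU⟩ := hWM
      have hUS : U ≤ (S : Subgroup T).map T.subtype :=
        CfsgLib.HallClasses.le_of_card_dvd_of_isCyclic (hUVM.trans inf_le_left) hSV
          (by rw [hU, hSc]; exact pow_dvd_pow p hle)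
      have h1 : U ≤ f.ker.map T.subtype := fun u hu => by
        rw [hfk, subgroupOf_map_subtype]
        exact ⟨(hUVM hu).2, map_subtype_le _ (hUS hu)⟩
      have h2 := card_dvd_of_le h1
      rw [hU, card_map_of_injective T.subtype_injective,
        hp.pow_dvd_iff_le_factorization Nat.card_pos.ne'] at h2
      omega
  refine ⟨T, ?_, hTA', ?_⟩
  · -- `T` is abelian
    have hcen : center T = ⊤ := by
      refine eq_top_of_card_eq _ (Nat.dvd_antisymm (card_subgroup_dvd_card _) ?_)
      refine (Nat.dvd_iff_prime_pow_dvd_dvd _ _).2 fun p k hp hk => ?_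
      haveI := Fact.mk hp
      let S : Sylow p T := default
      refine ((pow_dvd_pow p ((hp.pow_dvd_iff_le_factorization Nat.card_pos.ne').1 hk)).trans
        (dvd_of_eq S.card_eq_multiplicity.symm)).trans (card_dvd_of_le fun s hs => ?_)
      have htop : centralizer ({s} : Set T) = ⊤ := by
        refine eq_top_of_card_eq _ (Nat.dvd_antisymm (card_subgroup_dvd_card _) ?_)
        refine (Nat.dvd_iff_prime_pow_dvd_dvd _ _).2 fun q l hq hl => ?_
        haveI := Fact.mk hq
        let R : Sylow q T := default
        refine ((pow_dvd_pow q ((hq.pow_dvd_iff_le_factorization Nat.card_pos.ne').1 hl)).trans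
          (dvd_of_eq R.card_eq_multiplicity.symm)).trans (card_dvd_of_le fun r hr => ?_)
        rw [mem_centralizer_singleton_iff]
        by_cases hpq : p = q
        · subst hpq
          obtain ⟨g, hg⟩ := MulAction.exists_smul_eq T S R
          rw [← hg, Sylow.smul_eq_of_normal] at hr
          exact congrArg Subtype.val
            ((hloc p hp S).1.is_comm.comm (⟨r, hr⟩ : (S : Subgroup T)) ⟨s, hs⟩)
        · exact (commute_of_normal_of_disjoint _ _ inferInstance inferInstance
            (IsPGroup.disjoint_of_ne p q hpq _ _ S.2 R.2) s r hs hr).symm.eq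
      rw [mem_center_iff]
      intro t
      exact mem_centralizer_singleton_iff.1 (htop ▸ mem_top t)
    exact ⟨⟨fun a b => (mem_center_iff.1 (hcen ▸ mem_top b) a)⟩⟩
  · rw [hcardT, mul_comm]
    congr 1
    refine Nat.eq_of_factorization_eq Nat.card_pos.ne'
      (Finset.prod_ne_zero_iff.2 fun p hp => pow_ne_zero _ (Nat.prime_of_mem_primeFactors hp).ne_zero)
      fun p => ?_
    rw [Nat.factorization_prod (fun q hq => pow_ne_zero _ (Nat.prime_of_mem_primeFactors hq).ne_zero),
      Finsupp.finset_sum_apply]
    by_cases hmem : p ∈ (Nat.card A).primeFactors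
    · rw [Finset.sum_eq_single p]
      · obtain ⟨hp, hpA, -⟩ := Nat.mem_primeFactors.1 hmem
        haveI := Fact.mk hp
        rw [hp.factorization_pow, Finsupp.single_eq_same]
        exact (hloc p hp default).2.2 hpA
      · intro q hq hne
        rw [(Nat.prime_of_mem_primeFactors hq).factorization_pow, Finsupp.single_eq_of_ne hne.symm]
      · exact fun h => absurd hmem h
    · rw [Finset.sum_eq_zero fun q hq => by
        rw [(Nat.prime_of_mem_primeFactors hq).factorization_pow, Finsupp.single_eq_of_ne
          (fun h => hmem (by rw [h]; exact hq))]]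
      by_cases hp : p.Prime
      · haveI := Fact.mk hp
        have hnA : ¬ p ∣ Nat.card A := fun h => hmem (Nat.mem_primeFactors.2 ⟨hp, h, Nat.card_pos.ne'⟩)
        have h1 := (hloc p hp (default : Sylow p T)).2.1 hnA
        rw [Sylow.card_eq_multiplicity, Nat.pow_eq_one, hcardT,
          Nat.factorization_mul Nat.card_pos.ne' Nat.card_pos.ne', Finsupp.add_apply] at h1
        rcases h1 with h1 | h1
        · exact absurd h1 hp.ne_one
        · omega
      · exact Nat.factorization_eq_zero_of_not_prime _ hp

end Cfsg.Agent.S3911
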