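import Cfsg.Statements.S3912
import Cfsg.Agent.Lib.Hall2.AbelianConj
-- import your own Cfsg.Agent.* helpers here

set_option autoImplicit false
open Cfsg

namespace Cfsg.Agent.S3912

/-- Let G be a finite solvable group in which any two abelian subgroups of the same order are conjugate. Then every quotient of G has the same property: any two abelian subgroups of the quotient of the same order are conjugate. -/
theorem result {G : Type*} [Group G] [Finite G] (hB : ∀ A B : Subgroup G, IsMulCommutative ↥A → IsMulCommutative ↥B → Nat.card ↥A = Nat.card ↥B → ∃ g : G, B = A.map (MulAut.conj g).toMonoidHom) (hsol : Group.IsSolvable G) (M : Subgroup G) [M.Normal] :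
    ∀ A B : Subgroup (G ⧸ M), IsMulCommutative ↥A → IsMulCommutative ↥B → Nat.card ↥A = Nat.card ↥B →
      ∃ g : G ⧸ M, B = A.map (MulAut.conj g).toMonoidHom := by
  exact CfsgLib.Hall2.conjAb_quotient_aux _ rfl hB M

end Cfsg.Agent.S3912
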