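import Cfsg.Statements.S3917
import Cfsg.Agent.Lib.CoprimeAction.Abelian
-- import your own Cfsg.Agent.* helpers here

set_option autoImplicit false
open Cfsg

namespace Cfsg.Agent.S3917

/-- Say that a group has self-centralizing non-cyclic subgroups when every non-cyclic subgroup H satisfies C_G(H) ≤ H. A finite abelian group with self-centralizing non-cyclic subgroups is cyclic or elementary abelian of order p² for a prime p. -/
theorem result {G : Type*} [CommGroup G] [Finite G] (hX : (∀ H : Subgroup G, ¬ IsCyclic ↥H → Subgroup.centralizer (H : Set G) ≤ H)) :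
    IsCyclic G ∨ ∃ p : ℕ, p.Prime ∧ Nat.card G = p ^ 2 ∧ Monoid.exponent G = p := by
  by_cases hc : IsCyclic G
  · exact Or.inl hc
  right
  obtain ⟨p, hp, hcard⟩ : ∃ p : ℕ, p.Prime ∧ p < Nat.card (powMonoidHom p : G →* G).ker := by
    by_contra hh
    push Not at hh
    exact hc (CfsgLib.CoprimeAction.isCyclic_of_prime_roots hh)
  have := Fact.mk hp
  have hK : IsPGroup p (powMonoidHom p : G →* G).ker := fun x =>
    ⟨1, Subtype.ext (by rw [pow_one]; exact x.2)⟩
  obtain ⟨i, hi⟩ := IsPGroup.iff_card.1 hK
  have h2 : p ^ 2 ∣ Nat.card (powMonoidHom p : G →* G).ker := by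
    rw [hi] at hcard ⊢
    refine pow_dvd_pow p ?_
    by_contra h
    have := Nat.pow_le_pow_right hp.pos (show i ≤ 1 by omega)
    rw [pow_one] at this
    omega
  obtain ⟨E, hE⟩ := Sylow.exists_subgroup_card_pow_prime p h2
  let E' : Subgroup G := E.map (powMonoidHom p : G →* G).ker.subtype
  have hE' : Nat.card E' = p ^ 2 := by
    rw [Subgroup.card_map_of_injective (Subgroup.subtype_injective _), hE]
  have hexp : ∀ x : G, x ∈ E' → x ^ p = 1 := by
    rintro _ ⟨x, -, rfl⟩
    exact x.2
  have hnc : ¬ IsCyclic E' := by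
    intro h
    obtain ⟨g, hg⟩ := IsCyclic.exists_ofOrder_eq_natCard (α := E')
    have : orderOf g ∣ p := orderOf_dvd_of_pow_eq_one (Subtype.ext (hexp g g.2))
    rw [hg, hE', sq] at this
    have := Nat.le_of_dvd hp.pos this
    have := hp.one_lt
    nlinarith
  have htop : E' = ⊤ := by
    rw [eq_top_iff]
    refine le_trans ?_ (hX E' hnc)
    intro x _
    exact fun y _ => mul_comm y x
  refine ⟨p, hp, ?_, ?_⟩
  · rw [← hE', htop, Subgroup.card_top]
  · rcases (Nat.dvd_prime hp).1 (Monoid.exponent_dvd_of_forall_pow_eq_one fun x : G =>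
      hexp x (htop ▸ Subgroup.mem_top x)) with h | h
    · have : Subsingleton G := Monoid.exp_eq_one_iff.1 h
      exact absurd (inferInstance : IsCyclic G) hc
    · exact h

end Cfsg.Agent.S3917
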