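import Cfsg.Statements.S3918
import Cfsg.Agent.Lib.PGroups.Omega
import Cfsg.Agent.Lib.PGroups.NormalAbelian
-- import your own Cfsg.Agent.* helpers here

set_option autoImplicit false
open Cfsg

namespace Cfsg.Agent.S3918

/-- Say that a group has self-centralizing non-cyclic subgroups when every non-cyclic subgroup H satisfies C_G(H) ≤ H. For an odd prime p, a finite non-abelian p-group has self-centralizing non-cyclic subgroups if and only if it has order p³. -/
theorem result {G : Type*} [Group G] [Finite G] {p : ℕ} [Fact p.Prime] (hp : p ≠ 2) (hG : IsPGroup p G) (hna : ¬ IsMulCommutative G) :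
    (∀ H : Subgroup G, ¬ IsCyclic ↥H → Subgroup.centralizer (H : Set G) ≤ H) ↔ Nat.card G = p ^ 3 := by
  have hnc : ¬ IsCyclic G := fun h => hna IsCyclic.isMulCommutative
  obtain ⟨N, hN⟩ := IsPGroup.iff_card.1 hG
  have hp1 := (Fact.out : p.Prime).one_lt
  have hN3 : 3 ≤ N := by
    by_contra h
    rcases (show N = 0 ∨ N = 1 ∨ N = 2 by omega) with rfl | rfl | rfl
    · have : Subsingleton G := (Nat.card_eq_one_iff_unique.1 (by rw [hN, pow_zero])).1
      exact hnc inferInstance
    · exact hnc (isCyclic_of_prime_card (by rw [hN, pow_one]))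
    · exact hna (IsPGroup.isMulCommutative_of_card_eq_prime_sq hN)
  constructor
  · intro hX
    obtain ⟨E, hEn, ⟨hEab, hEexp⟩, hEc⟩ := CfsgLib.PGroups.exists_normal_elemAb_sq hp hG hnc
    have hEnc : ¬ IsCyclic E := by
      intro h
      obtain ⟨g, hg⟩ := IsCyclic.exists_ofOrder_eq_natCard (α := E)
      have : orderOf g ∣ p := orderOf_dvd_of_pow_eq_one (Subtype.ext (hEexp g g.2))
      rw [hg, hEc, sq] at this
      have := Nat.le_of_dvd (by omega) this
      nlinarith
    have hC : Subgroup.centralizer (E : Set G) = E := le_antisymm (hX E hEnc)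
      (Subgroup.le_centralizer_iff_isMulCommutative.2 hEab)
    have h3 := CfsgLib.PGroups.card_le_of_centralizer_eq hG hEn hC hEc
    rw [hN] at h3 ⊢
    have := (Nat.pow_le_pow_iff_right hp1).1 h3
    rw [show N = 3 by omega]
  · intro h3 H hH
    obtain rfl : N = 3 := Nat.pow_right_injective (Fact.out : p.Prime).two_le (hN.symm.trans h3)
    obtain ⟨i, hi3, hi⟩ :=
      (Nat.dvd_prime_pow (Fact.out : p.Prime)).1 (hN ▸ Subgroup.card_subgroup_dvd_card H)
    interval_cases i
    · exact absurd (by rw [Subgroup.eq_bot_of_card_eq H (by rw [hi, pow_zero])]; infer_instance) hH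
    · exact absurd (isCyclic_of_prime_card (by rw [hi, pow_one])) hH
    · have hab : H ≤ Subgroup.centralizer (H : Set G) :=
        Subgroup.le_centralizer_iff_isMulCommutative.2 (IsPGroup.isMulCommutative_of_card_eq_prime_sq hi)
      by_contra hne
      have hlt : H < Subgroup.centralizer (H : Set G) :=
        lt_of_le_of_ne hab fun h => hne h.symm.le
      have htop : Subgroup.centralizer (H : Set G) = ⊤ := by
        obtain ⟨j, hj3, hj⟩ := (Nat.dvd_prime_pow (Fact.out : p.Prime)).1
          (hN ▸ Subgroup.card_subgroup_dvd_card (Subgroup.centralizer (H : Set G)))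
        refine Subgroup.eq_top_of_card_eq _ ?_
        rw [hj, hN]
        congr 1
        by_contra hj'
        have h2 : Nat.card H = Nat.card (Subgroup.centralizer (H : Set G)) := by
          refine le_antisymm (Subgroup.card_le_of_le hab) ?_
          rw [hj, hi]
          exact Nat.pow_le_pow_right (by omega) (by omega)
        exact hlt.ne (Subgroup.eq_of_le_of_card_ge hab h2.ge)
      rw [Subgroup.centralizer_eq_top_iff_subset] at htop
      have hcyc : IsCyclic (G ⧸ Subgroup.center G) := by
        obtain ⟨j, hj3, hj⟩ := (Nat.dvd_prime_pow (Fact.out : p.Prime)).1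
          (hN ▸ Subgroup.card_subgroup_dvd_card (Subgroup.center G))
        have hij : 2 ≤ j := (Nat.pow_le_pow_iff_right hp1).1
          (by rw [← hi, ← hj]; exact Subgroup.card_le_of_le htop)
        have hmul := (Subgroup.center G).card_mul_index
        rw [hj, hN, show 3 = j + (3 - j) by omega, pow_add] at hmul
        have hidx := Nat.eq_of_mul_eq_mul_left (pow_pos (Fact.out : p.Prime).pos j) hmul
        rcases (show 3 - j = 0 ∨ 3 - j = 1 by omega) with h0 | h1
        · rw [h0, pow_zero, Subgroup.index_eq_card] at hidx
          have := (Nat.card_eq_one_iff_unique.1 hidx).1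
          infer_instance
        · rw [h1, pow_one, Subgroup.index_eq_card] at hidx
          exact isCyclic_of_prime_card hidx
      exact hna (MonoidHom.isMulCommutative_of_isCyclic_of_ker_le_center
        (QuotientGroup.mk' (Subgroup.center G)) (by rw [QuotientGroup.ker_mk']))
    · rw [Subgroup.eq_top_of_card_eq H (by rw [hi, hN])]
      exact le_top

end Cfsg.Agent.S3918
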