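import Cfsg.Statements.S3919
import Cfsg.Agent.Lib.PGroups.MaximalClass
import Cfsg.Agent.Lib.TwoGroups.RankOne
-- import your own Cfsg.Agent.* helpers here

set_option autoImplicit false
open Cfsg

namespace Cfsg.Agent.S3919
theorem commutator_quaternion (m : ℕ) (hm : 1 ≤ m) :
    2 ^ m ≤ Nat.card (commutator (QuaternionGroup (2 ^ m))) := by
  have : NeZero (2 ^ m) := ⟨(pow_pos two_pos m).ne'⟩
  have hmem : QuaternionGroup.a (2 : ZMod (2 * 2 ^ m)) ∈ commutator (QuaternionGroup (2 ^ m)) := by
    have h1 : (QuaternionGroup.a 1 * QuaternionGroup.xa 0 *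
        (QuaternionGroup.a 1 : QuaternionGroup (2 ^ m))⁻¹ * (QuaternionGroup.xa 0)⁻¹) ∈
        commutator (QuaternionGroup (2 ^ m)) :=
      Subgroup.commutator_mem_commutator (Subgroup.mem_top _) (Subgroup.mem_top _)
    convert h1 using 1
    rw [show (QuaternionGroup.a 1 : QuaternionGroup (2 ^ m))⁻¹ = QuaternionGroup.a (-1) from rfl,
      show (QuaternionGroup.xa 0 : QuaternionGroup (2 ^ m))⁻¹
        = QuaternionGroup.xa (((2 ^ m : ℕ) : ZMod (2 * 2 ^ m)) + 0) from rfl,
      QuaternionGroup.a_mul_xa, QuaternionGroup.xa_mul_a, QuaternionGroup.xa_mul_xa]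
    congr 1
    have h2 : ((2 ^ m : ℕ) : ZMod (2 * 2 ^ m)) + ((2 ^ m : ℕ) : ZMod (2 * 2 ^ m)) = 0 := by
      rw [← Nat.cast_add, ← two_mul, ZMod.natCast_self]
    linear_combination -h2
  refine le_trans (le_of_eq ?_) (Subgroup.card_le_of_le (Subgroup.zpowers_le.2 hmem))
  rw [Nat.card_zpowers, show (QuaternionGroup.a (2 : ZMod (2 * 2 ^ m)) : QuaternionGroup (2 ^ m))
    = QuaternionGroup.a 1 ^ 2 by rw [QuaternionGroup.a_one_pow, Nat.cast_ofNat],
    orderOf_pow, QuaternionGroup.orderOf_a_one, Nat.gcd_eq_right (dvd_mul_right 2 _),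
    Nat.mul_div_cancel_left _ two_pos]


/-- Say that a group has self-centralizing non-cyclic subgroups when every non-cyclic subgroup H satisfies C_G(H) ≤ H. A finite non-abelian 2-group G of order 2^n has self-centralizing non-cyclic subgroups if and only if G has nilpotency class n − 1 (that is, G is dihedral, semidihedral or generalized quaternion). -/
theorem result {G : Type*} [Group G] [Finite G] (hna : ¬ IsMulCommutative G) (n : ℕ) (hG : Nat.card G = 2 ^ n) :
    (∀ H : Subgroup G, ¬ IsCyclic ↥H → Subgroup.centralizer (H : Set G) ≤ H) ↔ (⊤ : Subgroup G).lowerCentralSeries (n - 2) ≠ ⊥ := by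
  have : Fact (Nat.Prime 2) := ⟨Nat.prime_two⟩
  have hP : IsPGroup 2 G := IsPGroup.of_card hG
  have := hP.isNilpotent
  have hnc : ¬ IsCyclic G := fun h => hna IsCyclic.isMulCommutative
  have hn3 : 3 ≤ n := by
    by_contra h
    rcases (show n = 0 ∨ n = 1 ∨ n = 2 by omega) with rfl | rfl | rfl
    · have : Subsingleton G := (Nat.card_eq_one_iff_unique.1 (by rw [hG, pow_zero])).1
      exact hnc inferInstance
    · exact hnc (isCyclic_of_prime_card (by rw [hG, pow_one]))
    · exact hna (IsPGroup.isMulCommutative_of_card_eq_prime_sq hG)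
  constructor
  · intro hX
    suffices hc : Group.nilpotencyClass G = n - 1 by
      intro h
      have := Subgroup.lowerCentralSeries_eq_bot_iff_nilpotencyClass_le.1 h
      omega
    by_cases hu : ∀ a b : G, orderOf a = 2 → orderOf b = 2 → a = b
    · rcases CfsgLib.TwoGroups.isCyclic_or_quaternion hP
        (CfsgLib.TwoGroups.uniqueOrderP_iff_unique_involution.2 hu) with h | ⟨-, m, hm, ⟨e⟩⟩
      · exact absurd h hnc
      obtain ⟨k, rfl⟩ : ∃ k, n = k + 3 := ⟨n - 3, by omega⟩
      have : NeZero (2 ^ m) := ⟨(pow_pos two_pos m).ne'⟩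
      have hmk : m = k + 1 := by
        have h1 := Nat.card_congr e.toEquiv
        rw [hG, Nat.card_eq_fintype_card, QuaternionGroup.card,
          show 4 * 2 ^ m = 2 ^ (m + 2) by ring] at h1
        have := Nat.pow_right_injective le_rfl h1
        omega
      have hcc : Nat.card (commutator G) = 2 ^ (k + 1) := by
        refine le_antisymm ?_ ?_
        · have := CfsgLib.PGroups.pow_two_mul_card_commutator_le hP hnc
          rw [hG, show k + 3 = 2 + (k + 1) by omega, pow_add] at this
          exact Nat.le_of_mul_le_mul_left this (by norm_num)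
        · have h1 : (commutator G).map e.toMonoidHom = commutator (QuaternionGroup (2 ^ m)) := by
            rw [map_commutator_eq, MonoidHom.range_eq_top.2 e.surjective]
            rfl
          have h2 := commutator_quaternion m hm
          rw [← h1, Subgroup.card_map_of_injective e.injective, hmk] at h2
          exact h2
      rw [CfsgLib.PGroups.class_of_index_four k hG hcc]
      omega
    · push Not at hu
      obtain ⟨a, b, ha, hb, hab⟩ := hu
      -- a central involution and another involution
      have hnt : Nontrivial G := Finite.one_lt_card_iff_nontrivial.1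
        (by rw [hG]; exact Nat.one_lt_pow (by omega) one_lt_two)
      have hZ := hP.center_nontrivial
      obtain ⟨z, hz, hzo⟩ : ∃ z, z ∈ Subgroup.center G ∧ orderOf z = 2 := by
        obtain ⟨j, hj⟩ := IsPGroup.iff_card.1 (hP.to_subgroup (Subgroup.center G))
        have hj0 : j ≠ 0 := by
          rintro rfl
          rw [pow_zero, Nat.card_eq_one_iff_unique] at hj
          exact not_subsingleton _ hj.1
        obtain ⟨z, hz⟩ := exists_prime_orderOf_dvd_card' (G := Subgroup.center G) 2
          (by rw [hj]; exact dvd_pow_self 2 hj0)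
        exact ⟨z, z.2, by rwa [Subgroup.orderOf_coe]⟩
      obtain ⟨t, ht, htz⟩ : ∃ t : G, orderOf t = 2 ∧ t ≠ z := by
        by_cases h : a = z
        · exact ⟨b, hb, fun h' => hab (h.trans h'.symm)⟩
        · exact ⟨a, ha, h⟩
      have hcz : ∀ g : G, g * z = z * g := Subgroup.mem_center_iff.1 hz
      have hz2 : z * z = 1 := by rw [← sq, ← hzo]; exact pow_orderOf_eq_one z
      have ht2 : t * t = 1 := by rw [← sq, ← ht]; exact pow_orderOf_eq_one t
      have hz1 : z ≠ 1 := fun h => by simp [h] at hzo
      have ht1 : t ≠ 1 := fun h => by simp [h] at ht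
      let E : Subgroup G :=
        { carrier := {1, z, t, z * t}
          one_mem' := Or.inl rfl
          mul_mem' := by
            have e1 : z * (z * t) = t := by rw [← mul_assoc, hz2, one_mul]
            have e2 : t * (z * t) = z := by rw [← mul_assoc, hcz, mul_assoc, ht2, mul_one]
            have e3 : z * t * z = t := by rw [mul_assoc, hcz, e1]
            have e4 : z * t * t = z := by rw [mul_assoc, ht2, mul_one]
            have e5 : z * t * (z * t) = 1 := by rw [mul_assoc, e2, hz2]
            intro u v hu hv
            simp only [Set.mem_insert_iff, Set.mem_singleton_iff] at hu hv ⊢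
            rcases hu with rfl | rfl | rfl | rfl <;> rcases hv with rfl | rfl | rfl | rfl <;>
              simp [hz2, ht2, hcz, e1, e2, e3, e4, e5]
          inv_mem' := by
            intro u hu
            simp only [Set.mem_insert_iff, Set.mem_singleton_iff] at hu ⊢
            have e5 : z * t * (z * t) = 1 := by
              rw [mul_assoc, ← mul_assoc t z t, hcz, mul_assoc z t t, ht2, mul_one, hz2]
            rcases hu with rfl | rfl | rfl | rfl
            · simp
            · exact Or.inr (Or.inl (inv_eq_of_mul_eq_one_right hz2))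
            · exact Or.inr (Or.inr (Or.inl (inv_eq_of_mul_eq_one_right ht2)))
            · exact Or.inr (Or.inr (Or.inr (inv_eq_of_mul_eq_one_right e5))) }
      have hE4 : Nat.card E = 2 ^ 2 := by
        have hne1 : z * t ≠ 1 := fun h => htz (mul_left_cancel (h.trans hz2.symm))
        have : Set.ncard ({1, z, t, z * t} : Set G) = 4 := by
          rw [Set.ncard_insert_of_notMem (by simp [hz1.symm, ht1.symm, hne1.symm]),
            Set.ncard_insert_of_notMem (by simp [htz.symm, ht1]),
            Set.ncard_pair (by simp [hz1])]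
        exact (Nat.card_coe_set_eq _).trans this
      have hEexp : ∀ u ∈ E, u * u = 1 := by
        rintro u (rfl | rfl | rfl | rfl)
        · simp
        · exact hz2
        · exact ht2
        · rw [mul_assoc, ← mul_assoc t z t, hcz, mul_assoc z t t, ht2, mul_one, hz2]
      have hEnc : ¬ IsCyclic E := by
        intro h
        obtain ⟨g, hg⟩ := IsCyclic.exists_ofOrder_eq_natCard (α := E)
        have : orderOf g ∣ 2 := orderOf_dvd_of_pow_eq_one (Subtype.ext (by
          rw [sq]; exact hEexp g g.2))
        rw [hg, hE4] at this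
        norm_num at this
      exact CfsgLib.PGroups.class_of_self_centralizing_sq n hG E hE4
        (le_antisymm (hX E hEnc) (Subgroup.le_centralizer_iff_isMulCommutative.2
          (IsPGroup.isMulCommutative_of_card_eq_prime_sq hE4)))
  · intro hcl H hH
    obtain ⟨k, rfl⟩ : ∃ k, n = k + 3 := ⟨n - 3, by omega⟩
    have hc : Group.nilpotencyClass G = k + 3 - 1 := by
      refine le_antisymm ?_ ?_
      · exact Subgroup.lowerCentralSeries_eq_bot_iff_nilpotencyClass_le.1
          (CfsgLib.PGroups.lowerCentralSeries_eq_bot_of_card_le hP (by omega)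
            (le_of_eq_of_le hG (Nat.pow_le_pow_right (by norm_num) (by omega))))
      · by_contra h
        exact hcl (Subgroup.lowerCentralSeries_eq_bot_iff_nilpotencyClass_le.2 (by omega))
    have hcc : Nat.card (commutator G) = 2 ^ (k + 1) := by
      rw [CfsgLib.PGroups.card_commutator_of_maximal_class (by omega) hG hc]
      congr 1
    obtain ⟨x, hxo, hxi⟩ := CfsgLib.PGroups.exists_cyclic_index_two k hG hcc
    obtain ⟨hZK, hZ2⟩ := CfsgLib.PGroups.center_of_abelian_index_two hG hcc
      (inferInstance : IsMulCommutative (Subgroup.zpowers x)) hxi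
    set K := Subgroup.zpowers x
    -- `H` contains the centre
    obtain ⟨y, hyH, hyK⟩ : ∃ y ∈ H, y ∉ K := by
      by_contra h
      push Not at h
      exact hH (Subgroup.isCyclic_of_le h)
    have hZH : Subgroup.center G ≤ H := by
      have h1 : H ⊓ K ≠ ⊥ := by
        intro h
        have hd : Nat.card H ∣ 2 := by
          rw [← Subgroup.relIndex_bot_left, ← h, Subgroup.inf_relIndex_left, ← hxi]
          have : K.Normal := Subgroup.normal_of_index_eq_two hxi
          exact Subgroup.relIndex_dvd_index_of_normal _ _
        rcases (Nat.dvd_prime Nat.prime_two).1 hd with h2 | h2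
        · exact hH (by rw [Subgroup.eq_bot_of_card_eq H h2]; infer_instance)
        · exact hH (isCyclic_of_prime_card h2)
      obtain ⟨w, hw, hwo⟩ : ∃ w ∈ H ⊓ K, orderOf w = 2 := by
        obtain ⟨j, hj⟩ := IsPGroup.iff_card.1 (hP.to_subgroup (H ⊓ K))
        have hj0 : j ≠ 0 := fun h0 => h1 (Subgroup.eq_bot_of_card_eq _ (by rw [hj, h0, pow_zero]))
        obtain ⟨w, hw⟩ := exists_prime_orderOf_dvd_card' (G := ↥(H ⊓ K)) 2
          (by rw [hj]; exact dvd_pow_self 2 hj0)
        exact ⟨w, w.2, by rwa [Subgroup.orderOf_coe]⟩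
      have : Subgroup.zpowers w = Subgroup.center G := by
        have h2 : ∀ A : Subgroup G, A ≤ K → Nat.card A = 2 → A = Subgroup.zpowers (x ^ 2 ^ (k + 1)) := by
          intro A hA hA2
          have hKc : IsCyclic K := inferInstance
          refine Subgroup.eq_of_le_of_card_ge ?_ ?_
          · intro u hu
            obtain ⟨i, rfl⟩ := Subgroup.mem_zpowers_iff.1 (hA hu)
            have hu2 : (x ^ i) ^ 2 = 1 := by
              have := pow_card_eq_one' (x := (⟨_, hu⟩ : A))
              rw [hA2] at this
              exact congrArg Subtype.val this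
            rw [← zpow_natCast, ← zpow_mul, ← orderOf_dvd_iff_zpow_eq_one, hxo] at hu2
            obtain ⟨q, hq⟩ : ((2 ^ (k + 1) : ℕ) : ℤ) ∣ i := by
              have h3 : ((2 ^ (k + 1) : ℕ) : ℤ) * 2 ∣ i * 2 := by
                have e : ((2 ^ (k + 2) : ℕ) : ℤ) = ((2 ^ (k + 1) : ℕ) : ℤ) * 2 := by push_cast; ring
                rw [e] at hu2
                simpa using hu2
              exact Int.dvd_of_mul_dvd_mul_right two_ne_zero h3
            exact ⟨q, by rw [hq, zpow_mul, zpow_natCast]⟩
          · rw [hA2, Nat.card_zpowers]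
            refine Nat.le_of_dvd two_pos (orderOf_dvd_of_pow_eq_one ?_)
            rw [← pow_mul, ← pow_succ, ← hxo, pow_orderOf_eq_one]
        rw [h2 _ (Subgroup.zpowers_le.2 hw.2) (by rw [Nat.card_zpowers, hwo]), h2 _ hZK hZ2]
      rw [← this]
      exact Subgroup.zpowers_le.2 hw.1
    intro g hg
    have hgy : Commute g y := (hg y hyH).symm
    -- elements of `K` commuting with `y` are central
    have hKn : K.Normal := Subgroup.normal_of_index_eq_two hxi
    have hcen : ∀ u ∈ K, Commute u y → u ∈ Subgroup.center G := by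
      intro u hu huy
      refine Subgroup.mem_center_iff.2 fun g' => ?_
      by_cases hg' : g' ∈ K
      · exact congrArg Subtype.val
          ((inferInstance : IsMulCommutative K).is_comm.comm (⟨g', hg'⟩ : K) ⟨u, hu⟩)
      · have h1 : g' * y⁻¹ ∈ K :=
          (Subgroup.mul_mem_iff_of_index_two hxi).2 (iff_of_false hg' (by rwa [inv_mem_iff]))
        have h2 : Commute (g' * y⁻¹) u := congrArg Subtype.val
          ((inferInstance : IsMulCommutative K).is_comm.comm (⟨_, h1⟩ : K) ⟨u, hu⟩)
        have := h2.mul_left huy.symm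
        rwa [inv_mul_cancel_right] at this
    by_cases hgK : g ∈ K
    · exact hZH (hcen g hgK hgy)
    · have h1 : g * y⁻¹ ∈ K :=
        (Subgroup.mul_mem_iff_of_index_two hxi).2 (iff_of_false hgK (by rwa [inv_mem_iff]))
      have h2 := hZH (hcen _ h1 (hgy.mul_left (Commute.refl y).inv_left))
      simpa using H.mul_mem h2 hyH

end Cfsg.Agent.S3919
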