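import Cfsg.Statements.S3920
import Mathlib
-- import your own Cfsg.Agent.* helpers here

set_option autoImplicit false
open Cfsg

namespace Cfsg.Agent.S3920
theorem noncyclic_has_reflection {n : ℕ} (H : Subgroup (DihedralGroup n)) (h : ¬ IsCyclic H) :
    ∃ i, DihedralGroup.sr i ∈ H := by
  by_contra hh
  push Not at hh
  refine h (Subgroup.isCyclic_of_le (show H ≤ Subgroup.zpowers (DihedralGroup.r 1) from ?_))
  intro x hx
  cases x with
  | r i =>
    obtain ⟨k, rfl⟩ := ZMod.intCast_surjective i
    exact ⟨k, DihedralGroup.r_one_zpow k⟩
  | sr i => exact absurd hx (hh i)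


/-- Say that a group has self-centralizing non-cyclic subgroups when every non-cyclic subgroup H satisfies C_G(H) ≤ H. For n ≥ 3, the dihedral group of order 2n has self-centralizing non-cyclic subgroups if and only if n is odd or a power of 2. -/
theorem result (n : ℕ) (hn : 3 ≤ n) : (∀ H : Subgroup (DihedralGroup n), ¬ IsCyclic ↥H → Subgroup.centralizer (H : Set (DihedralGroup n)) ≤ H) ↔ (Odd n ∨ ∃ k : ℕ, n = 2 ^ k) := by
  have : NeZero n := ⟨by omega⟩
  constructor
  · intro hX
    by_contra hno
    push Not at hno
    obtain ⟨hev, hpow⟩ := hno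
    obtain ⟨v, m, hm, hnvm⟩ := Nat.exists_eq_pow_mul_and_not_dvd (show n ≠ 0 by omega) 2 (by norm_num)
    have hv : v ≠ 0 := by
      rintro rfl
      rw [pow_zero, one_mul] at hnvm
      subst hnvm
      exact hev (Nat.odd_iff.2 (by omega))
    have hm1 : m ≠ 1 := by rintro rfl; exact hpow v (by rw [hnvm, mul_one])
    -- the dihedral subgroup of order `2 m`
    let H : Subgroup (DihedralGroup n) :=
      { carrier := {x | match x with
          | DihedralGroup.r i => (m : ZMod n) * i = 0
          | DihedralGroup.sr i => (m : ZMod n) * i = 0}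
        one_mem' := by rw [DihedralGroup.one_def]; exact mul_zero _
        mul_mem' := by
          rintro (i | i) (j | j) hi hj <;>
            simp_all [DihedralGroup.r_mul_r, DihedralGroup.r_mul_sr, DihedralGroup.sr_mul_r,
              DihedralGroup.sr_mul_sr, mul_add, mul_sub]
        inv_mem' := by
          rintro (i | i) hi
          · rw [DihedralGroup.inv_r]; show _ * -i = 0; rw [mul_neg, hi, neg_zero]
          · rw [DihedralGroup.inv_sr]; exact hi }
    let k : ZMod n := ((2 ^ v : ℕ) : ZMod n)
    have hk : DihedralGroup.r k ∈ H := by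
      show (m : ZMod n) * ((2 ^ v : ℕ) : ZMod n) = 0
      rw [← Nat.cast_mul, mul_comm, ← hnvm, ZMod.natCast_self]
    have hs : DihedralGroup.sr (0 : ZMod n) ∈ H := mul_zero _
    have hnc : ¬ IsCyclic H := by
      intro h
      have hc : IsMulCommutative H := IsCyclic.isMulCommutative
      have he := congrArg Subtype.val (hc.is_comm.comm (⟨_, hk⟩ : H) ⟨_, hs⟩)
      simp only [Subgroup.coe_mul, DihedralGroup.r_mul_sr, DihedralGroup.sr_mul_r,
        DihedralGroup.sr.injEq, zero_sub, zero_add] at he
      have h2 : ((2 * 2 ^ v : ℕ) : ZMod n) = 0 := by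
        push_cast
        simp only [k, Nat.cast_pow, Nat.cast_ofNat] at he
        linear_combination -he
      rw [ZMod.natCast_eq_zero_iff, hnvm, mul_comm, Nat.mul_dvd_mul_iff_right (pow_pos two_pos v),
        Nat.dvd_prime Nat.prime_two] at h2
      rcases h2 with h2 | h2
      · exact hm1 h2
      · exact hm ⟨1, by rw [h2]⟩
    let c : ℕ := 2 ^ (v - 1) * m
    have hc2 : c + c = n := by
      rw [hnvm, ← two_mul, ← mul_assoc, ← pow_succ']
      congr 2
      omega
    have hcen : DihedralGroup.r (c : ZMod n) ∈ Subgroup.centralizer (H : Set (DihedralGroup n)) := by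
      have hcc : (c : ZMod n) + c = 0 := by rw [← Nat.cast_add, hc2, ZMod.natCast_self]
      rintro (i | i) -
      · simp only [DihedralGroup.r_mul_r, DihedralGroup.r.injEq]
        exact add_comm _ _
      · simp only [DihedralGroup.sr_mul_r, DihedralGroup.r_mul_sr, DihedralGroup.sr.injEq]
        linear_combination hcc
    have := hX H hnc hcen
    have h2 : (m : ZMod n) * (c : ZMod n) = 0 := this
    rw [← Nat.cast_mul, ZMod.natCast_eq_zero_iff] at h2
    have hm0 : 0 < m := Nat.pos_of_ne_zero fun h => hm ⟨0, by rw [h]⟩
    have h4 : 2 * c ∣ m * c := by rwa [two_mul, hc2]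
    exact hm (Nat.dvd_of_mul_dvd_mul_right (Nat.mul_pos (pow_pos two_pos _) hm0) h4)
  · intro h H hH x hx
    obtain ⟨i, hi⟩ := noncyclic_has_reflection H hH
    have key : ∀ j : ZMod n, j + j = 0 → DihedralGroup.r j ∈ H := by
      intro j hj
      rcases h with hodd | ⟨k, hk⟩
      · have h2 : IsUnit (2 : ZMod n) := by
          have := (ZMod.unitOfCoprime 2 (Nat.coprime_two_left.2 hodd)).isUnit
          simpa using this
        have : j = 0 := h2.mul_right_eq_zero.1 (by rw [two_mul]; exact hj)
        rw [this, DihedralGroup.r_zero]
        exact one_mem _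
      · by_cases hj0 : j = 0
        · rw [hj0, DihedralGroup.r_zero]; exact one_mem _
        -- some nontrivial rotation lies in `H`
        obtain ⟨d, hd, hd0⟩ : ∃ d : ZMod n, DihedralGroup.r d ∈ H ∧ d ≠ 0 := by
          by_contra hh
          push Not at hh
          refine hH (Subgroup.isCyclic_of_le
            (show H ≤ Subgroup.zpowers (DihedralGroup.sr i) from ?_))
          intro y hy
          cases y with
          | r d => rw [hh d hy, DihedralGroup.r_zero]; exact one_mem _
          | sr d =>
            have := H.mul_mem hi hy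
            rw [DihedralGroup.sr_mul_sr] at this
            rw [sub_eq_zero.1 (hh _ this)]
            exact Subgroup.mem_zpowers _
        -- uniqueness of the rotation of order two
        have huniq : ∀ e : ZMod n, e + e = 0 → e ≠ 0 → 2 * e.val = n := by
          intro e he he0
          have h1 : n ∣ 2 * e.val := by
            rw [← ZMod.natCast_eq_zero_iff]
            push_cast
            rw [ZMod.natCast_zmod_val]
            linear_combination he
          obtain ⟨q, hq⟩ := h1
          have hlt := ZMod.val_lt e
          have hpos : e.val ≠ 0 := fun h0 => he0 ((ZMod.val_eq_zero e).1 h0)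
          have : q < 2 := by nlinarith
          interval_cases q <;> omega
        have hdn : addOrderOf d ∣ 2 ^ k := by
          rw [← hk]
          exact addOrderOf_dvd_of_nsmul_eq_zero (ZModModule.char_nsmul_eq_zero n d)
        obtain ⟨t, -, ht⟩ := (Nat.dvd_prime_pow Nat.prime_two).1 hdn
        have ht0 : t ≠ 0 := by
          rintro rfl
          exact hd0 (AddMonoid.addOrderOf_eq_one_iff.1 ht)
        obtain ⟨t, rfl⟩ : ∃ t', t = t' + 1 := ⟨t - 1, by omega⟩
        have he : (2 ^ t • d) + (2 ^ t • d) = 0 := by
          rw [← two_nsmul, ← mul_nsmul', ← pow_succ', ← ht]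
          exact addOrderOf_nsmul_eq_zero d
        have he0 : 2 ^ t • d ≠ 0 := by
          intro h0
          have h5 := addOrderOf_dvd_of_nsmul_eq_zero h0
          rw [ht, pow_succ] at h5
          have := Nat.le_of_dvd (pow_pos (show 0 < 2 by norm_num) t) h5
          have := pow_pos (show 0 < 2 by norm_num) t
          omega
        have hje : j = 2 ^ t • d := ZMod.val_injective n
          (Nat.eq_of_mul_eq_mul_left two_pos ((huniq j hj hj0).trans (huniq _ he he0).symm))
        rw [hje]
        have : ∀ a : ℕ, DihedralGroup.r (a • d) ∈ H := by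
          intro a
          induction a with
          | zero => rw [zero_nsmul, DihedralGroup.r_zero]; exact one_mem _
          | succ a ih =>
            rw [succ_nsmul, ← DihedralGroup.r_mul_r]
            exact H.mul_mem ih hd
        exact this _
    have hxi := hx _ hi
    cases x with
    | r j =>
      simp only [DihedralGroup.sr_mul_r, DihedralGroup.r_mul_sr, DihedralGroup.sr.injEq] at hxi
      exact key j (by linear_combination hxi)
    | sr j =>
      simp only [DihedralGroup.sr_mul_sr, DihedralGroup.r.injEq] at hxi
      have h1 := H.mul_mem hi (key (j - i) (by linear_combination hxi))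
      rwa [DihedralGroup.sr_mul_r, add_sub_cancel] at h1

end Cfsg.Agent.S3920
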