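import Cfsg.Statements.S3927
import Cfsg.Agent.Lib.Hall2.IteratedComm
-- import your own Cfsg.Agent.* helpers here

set_option autoImplicit false
open Cfsg

namespace Cfsg.Agent.S3927

/-- Let G be a finite group and α an automorphism of G with [G, α] = G, that is, the elements g·α(g)⁻¹ generate G. Then for every k ≥ 1 the iterated commutators [g, α, …, α] with k entries α — the values of the k-th iterate of the map c ↦ c·α(c)⁻¹ — also generate G. -/
theorem result {G : Type*} [Group G] [Finite G] (α : MulAut G) (hG : Subgroup.closure (Set.range (fun c : G => c * (α c)⁻¹)) = ⊤) (k : ℕ) (hk : 1 ≤ k) :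
    Subgroup.closure (Set.range ((fun c : G => c * (α c)⁻¹)^[k])) = ⊤ := by
  exact CfsgLib.Hall2.iterate_comm_closure α hG k

end Cfsg.Agent.S3927
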