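import Mathlib
import Cfsg.Statements.S3933
import Cfsg.Agent.Lib.CharTheory.Burnside
-- import your own Cfsg.Agent.* helpers here

set_option autoImplicit false
set_option linter.style.haveILetI false
open Cfsg

namespace Cfsg.Agent.S3933

open Subgroup

variable {G : Type*} [Group G] [Finite G]

/-- If the index of `M` is a power of `s` and `Σ` is a Sylow `s`-subgroup then `G = Σ M`. -/
theorem exists_mul_of_index_pow {s : ℕ} [Fact s.Prime] (M : Subgroup G) (a : ℕ) (hM : M.index = s ^ a)
    (Z : Sylow s G) (g : G) : ∃ x ∈ (Z : Subgroup G), ∃ m ∈ M, g = x * m := by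
  let f : (Z : Subgroup G) ⧸ M.subgroupOf (Z : Subgroup G) → G ⧸ M :=
    Quotient.map' (fun x => (x : G)) (fun x y h => by
      rw [QuotientGroup.leftRel_apply] at h ⊢
      simpa [Subgroup.mem_subgroupOf] using h)
  have hf : Function.Injective f := by
    intro u v
    refine Quotient.inductionOn₂' u v fun x y h => ?_
    have h' : ((x : G) : G ⧸ M) = (y : G) := h
    rw [QuotientGroup.eq] at h'
    apply QuotientGroup.eq.mpr
    simpa [Subgroup.mem_subgroupOf] using h'
  have h1 : (M ⊓ (Z : Subgroup G)).index = M.relIndex Z * (Z : Subgroup G).index := by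
    rw [← Subgroup.relIndex_mul_index (inf_le_right : M ⊓ (Z : Subgroup G) ≤ Z),
      Subgroup.inf_relIndex_right]
  have h2 : M.index ∣ M.relIndex Z * (Z : Subgroup G).index :=
    h1 ▸ Subgroup.index_dvd_of_le inf_le_left
  have hc : Nat.Coprime M.index (Z : Subgroup G).index := by
    rw [hM]
    exact ((Fact.out : s.Prime).coprime_iff_not_dvd.mpr Z.not_dvd_index).pow_left a
  have h3 : M.index ≤ M.relIndex (Z : Subgroup G) :=
    Nat.le_of_dvd (Nat.pos_of_ne_zero Subgroup.FiniteIndex.index_ne_zero) (hc.dvd_of_dvd_mul_right h2)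
  haveI := Fintype.ofFinite (G ⧸ M)
  haveI := Fintype.ofFinite ((Z : Subgroup G) ⧸ M.subgroupOf (Z : Subgroup G))
  have hs : Function.Surjective f := by
    refine (hf.bijective_of_nat_card_le ?_).2
    exact h3
  obtain ⟨u, hu⟩ := hs (g : G ⧸ M)
  induction u using Quotient.inductionOn' with
  | h x =>
    have h' : ((x : G) : G ⧸ M) = g := hu
    rw [QuotientGroup.eq] at h'
    exact ⟨x, x.2, (x : G)⁻¹ * g, h', by group⟩

theorem eq_top_of_normalizer_index_pow [IsSimpleGroup G] {s : ℕ} [Fact s.Prime] (T X : Subgroup G)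
    (hT : T ≠ ⊥) (a : ℕ) (hi : (normalizer (T : Set G)).index = s ^ a) (Z : Sylow s G)
    (hTX : T ≤ X) (hZX : (Z : Subgroup G) ≤ X) : X = ⊤ := by
  have hle : Subgroup.normalClosure (T : Set G) ≤ X := by
    rw [Subgroup.normalClosure, Subgroup.closure_le]
    intro y hy
    rw [Group.mem_conjugatesOfSet_iff] at hy
    obtain ⟨t, ht, hty⟩ := hy
    rw [isConj_iff] at hty
    obtain ⟨g, rfl⟩ := hty
    obtain ⟨x, hx, m, hm, rfl⟩ := exists_mul_of_index_pow _ a hi Z g
    have hm' : m * t * m⁻¹ ∈ T := (Subgroup.mem_normalizer_iff.mp hm t).mp ht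
    have : x * m * t * (x * m)⁻¹ = x * (m * t * m⁻¹) * x⁻¹ := by group
    rw [this]
    exact X.mul_mem (X.mul_mem (hZX hx) (hTX hm')) (X.inv_mem (hZX hx))
  rcases Subgroup.Normal.eq_bot_or_eq_top (Subgroup.normalClosure_normal (s := (T : Set G))) with h | h
  · exact absurd (le_bot_iff.mp (h ▸ Subgroup.le_normalClosure)) hT
  · exact top_le_iff.mp (h ▸ hle)

theorem exists_sylow_le {t : ℕ} [Fact t.Prime] (D : Subgroup G) (h : ¬ t ∣ D.index) :
    ∃ T : Sylow t G, (T : Subgroup G) ≤ D := by
  obtain ⟨T0⟩ := (Sylow.nonempty : Nonempty (Sylow t D))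
  have hp : IsPGroup t ((T0 : Subgroup D).map D.subtype) := T0.2.map _
  have hi : ¬ t ∣ ((T0 : Subgroup D).map D.subtype).index := by
    rw [Subgroup.index_map_subtype]
    exact (Fact.out : t.Prime).not_dvd_mul T0.not_dvd_index h
  exact ⟨hp.toSylow hi, Subgroup.map_subtype_le _⟩

theorem card_sylow_dvd_of_normal {r : ℕ} [Fact r.Prime] (N : Subgroup G) [N.Normal] (P : Sylow r G) :
    Nat.card (Sylow r N) ∣ Nat.card (Sylow r G) := by
  obtain ⟨P0⟩ := (Sylow.nonempty : Nonempty (Sylow r N))
  obtain ⟨P1, hP1⟩ := IsPGroup.exists_le_sylow (P0.2.map N.subtype)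
  have heq : (P0 : Subgroup N) = (P1 : Subgroup G).subgroupOf N := by
    refine (P0.3 (P1.2.comap_of_injective N.subtype N.subtype_injective) ?_).symm
    intro x hx
    exact hP1 ⟨x, hx, rfl⟩
  have hle : normalizer (P1 : Set G) ≤ normalizer (((P0 : Subgroup N).map N.subtype : Subgroup G) : Set G) := by
    intro g hg
    replace hg : ∀ h, h ∈ (P1 : Subgroup G) ↔ g * h * g⁻¹ ∈ (P1 : Subgroup G) :=
      Subgroup.mem_normalizer_iff.mp hg
    rw [Subgroup.mem_normalizer_iff]
    intro x
    rw [heq, Subgroup.subgroupOf_map_subtype, Subgroup.mem_inf, Subgroup.mem_inf]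
    constructor
    · rintro ⟨h1, h2⟩
      exact ⟨(hg x).mp h1, Subgroup.Normal.conj_mem inferInstance x h2 g⟩
    · rintro ⟨h1, h2⟩
      refine ⟨(hg x).mpr h1, ?_⟩
      have := Subgroup.Normal.conj_mem (inferInstance : N.Normal) _ h2 g⁻¹
      simpa [mul_assoc] using this
  set H := normalizer (((P0 : Subgroup N).map N.subtype : Subgroup G) : Set G) with hH
  have hsup : H ⊔ N = ⊤ := Sylow.normalizer_sup_eq_top P0
  have hrel : H.relIndex N = H.index := by
    have e1 := Subgroup.relIndex_mul_index (inf_le_right : H ⊓ N ≤ N)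
    have e2 := Subgroup.relIndex_mul_index (inf_le_left : H ⊓ N ≤ H)
    rw [Subgroup.inf_relIndex_right] at e1
    rw [Subgroup.inf_relIndex_left, ← Subgroup.relIndex_sup_right (H := H) (K := N), hsup,
      Subgroup.relIndex_top_right] at e2
    have : H.relIndex N * N.index = H.index * N.index := by rw [e1, ← e2, mul_comm]
    exact Nat.eq_of_mul_eq_mul_right (Nat.pos_of_ne_zero Subgroup.FiniteIndex.index_ne_zero) this
  have hcm : H.subgroupOf N ≤ normalizer ((P0 : Subgroup N) : Set N) := by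
    intro g hg
    rw [Subgroup.mem_subgroupOf, hH, Subgroup.mem_normalizer_iff] at hg
    rw [Subgroup.mem_normalizer_iff]
    intro x
    have := hg x
    rwa [show ((g : G) * x * (g : G)⁻¹) = N.subtype (g * x * g⁻¹) by simp,
      show ((x : G) ∈ (P0 : Subgroup N).map N.subtype) = (N.subtype x ∈ (P0 : Subgroup N).map N.subtype) from rfl,
      Subgroup.mem_map_iff_mem N.subtype_injective, Subgroup.mem_map_iff_mem N.subtype_injective] at this
  rw [Sylow.card_eq_index_normalizer P0, Sylow.card_eq_index_normalizer P1]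
  refine (Subgroup.index_dvd_of_le hcm).trans ?_
  change H.relIndex N ∣ _
  rw [hrel]
  exact Subgroup.index_dvd_of_le hle

theorem card_sylow_dvd_of_surjective {H : Type*} [Group H] {f : G →* H} (hf : Function.Surjective f)
    {r : ℕ} [Fact r.Prime] (P : Sylow r G) : Nat.card (Sylow r H) ∣ Nat.card (Sylow r G) := by
  haveI := Finite.of_surjective f hf
  rw [Sylow.card_eq_index_normalizer (P.mapSurjective hf), Sylow.card_eq_index_normalizer P]
  refine (Subgroup.index_dvd_of_le ?_).trans (Subgroup.index_map_dvd _ hf)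
  exact Subgroup.le_normalizer_map f

/-- The simple case. -/
theorem isSolvable_of_simple [IsSimpleGroup G]
    (h : ∀ (r : ℕ) [Fact r.Prime], Nat.card (Sylow r G) = 1 ∨ IsPrimePow (Nat.card (Sylow r G))) :
    Group.IsSolvable G := by
  by_contra hns
  have hne : ∀ (r : ℕ) [Fact r.Prime], r ∣ Nat.card G → ∀ R : Sylow r G,
      (R : Subgroup G) ≠ ⊥ ∧ normalizer (R : Set G) ≠ ⊤ ∧
      ∃ s a : ℕ, s.Prime ∧ s ≠ r ∧ s ∣ Nat.card G ∧ (normalizer (R : Set G)).index = s ^ a := by
    intro r _ hr R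
    have hb : (R : Subgroup G) ≠ ⊥ := by
      intro hb
      apply R.not_dvd_index
      rwa [hb, Subgroup.index_bot]
    have hn : normalizer (R : Set G) ≠ ⊤ := by
      intro hn
      haveI : (R : Subgroup G).Normal := Subgroup.normalizer_eq_top_iff.mp hn
      rcases Subgroup.Normal.eq_bot_or_eq_top (inferInstance : (R : Subgroup G).Normal) with h' | h'
      · exact hb h'
      · have hp : IsPGroup r G := by
          intro g
          obtain ⟨k, hk⟩ := R.2 ⟨g, h' ▸ Subgroup.mem_top g⟩
          exact ⟨k, congrArg Subtype.val hk⟩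
        haveI := hp.isNilpotent
        exact hns inferInstance
    refine ⟨hb, hn, ?_⟩
    rcases h r with h1 | h1
    · rw [Sylow.card_eq_index_normalizer R, Subgroup.index_eq_one] at h1
      exact absurd h1 hn
    · obtain ⟨s, a, hs, ha, hsa⟩ := (isPrimePow_nat_iff _).mp h1
      refine ⟨s, a, hs, ?_, ?_, by rw [← Sylow.card_eq_index_normalizer R, hsa]⟩
      · rintro rfl
        exact not_dvd_card_sylow s G (hsa ▸ dvd_pow_self s ha.ne')
      · exact (hsa ▸ dvd_pow_self s ha.ne' : s ∣ _).trans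
          ((Sylow.card_dvd_index R).trans (Subgroup.index_dvd_card _))
  obtain ⟨p, hp, hpG⟩ := Nat.exists_prime_and_dvd (n := Nat.card G) (by
    intro h1
    haveI := (Nat.card_eq_one_iff_unique.mp h1).1
    exact hns inferInstance)
  haveI := Fact.mk hp
  obtain ⟨P⟩ := (Sylow.nonempty : Nonempty (Sylow p G))
  obtain ⟨hPb, hPn, q, a, hq, hqp, hqG, hPi⟩ := hne p hpG P
  haveI := Fact.mk hq
  obtain ⟨Q⟩ := (Sylow.nonempty : Nonempty (Sylow q G))
  obtain ⟨hQb, hQn, r, b, hr, hrq, hrG, hQi⟩ := hne q hqG Q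
  haveI := Fact.mk hr
  have hrp : r = p := by
    by_contra hrp
    obtain ⟨P1, hP1⟩ := exists_sylow_le (t := p) (normalizer (Q : Set G)) (by
      rw [hQi]
      exact fun h' => hrp ((Nat.prime_dvd_prime_iff_eq hp hr).mp (hp.dvd_of_dvd_pow h')).symm)
    have hP1i : (normalizer (P1 : Set G)).index = q ^ a := by
      rw [← Sylow.card_eq_index_normalizer, Sylow.card_eq_index_normalizer P, hPi]
    have hP1b : (P1 : Subgroup G) ≠ ⊥ := (hne p hpG P1).1
    exact hQn (eq_top_of_normalizer_index_pow (P1 : Subgroup G) _ hP1b a hP1i Q hP1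
      Subgroup.le_normalizer)
  subst hrp
  have hthird : ∃ t : ℕ, t.Prime ∧ t ∣ Nat.card G ∧ t ≠ r ∧ t ≠ q := by
    by_contra hno
    push_neg at hno
    apply hns
    obtain ⟨k, l, hl, hkl⟩ : ∃ k l, ¬ r ∣ l ∧ Nat.card G = r ^ k * l :=
      Nat.exists_eq_pow_mul_and_not_dvd Nat.card_pos.ne' r hr.ne_one
    have hl0 : l ≠ 0 := by rintro rfl; exact hl (dvd_zero r)
    have hlq : l = q ^ l.primeFactorsList.length := Nat.eq_prime_pow_of_unique_prime_dvd hl0 (by
      intro d hd hdl
      refine hno d hd (hkl ▸ hdl.mul_left _) ?_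
      rintro rfl
      exact hl hdl)
    exact CfsgLib.CharTheory.isSolvable_of_card_dvd_pow_mul_pow r q k l.primeFactorsList.length hr hq
      (dvd_of_eq (by rw [hkl, ← hlq]))
  obtain ⟨t, ht, htG, htp, htq⟩ := hthird
  haveI := Fact.mk ht
  set D : Subgroup G := normalizer (P : Set G) ⊓ normalizer (Q : Set G) with hD
  have hDi : D.index = q ^ a * r ^ b := by
    refine le_antisymm (by rw [← hPi, ← hQi]; exact Subgroup.index_inf_le) ?_
    refine Nat.le_of_dvd (Nat.pos_of_ne_zero Subgroup.FiniteIndex.index_ne_zero) ?_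
    refine Nat.Coprime.mul_dvd_of_dvd_of_dvd (((Nat.coprime_primes hq hr).mpr hqp).pow a b) ?_ ?_
    · exact hPi ▸ Subgroup.index_dvd_of_le inf_le_left
    · exact hQi ▸ Subgroup.index_dvd_of_le inf_le_right
  have hDt : ∀ s : ℕ, s.Prime → s ≠ r → s ≠ q → ¬ s ∣ D.index := by
    intro s hs hsr hsq hd
    rw [hDi] at hd
    rcases hs.dvd_mul.mp hd with h' | h'
    · exact hsq ((Nat.prime_dvd_prime_iff_eq hs hq).mp (hs.dvd_of_dvd_pow h'))
    · exact hsr ((Nat.prime_dvd_prime_iff_eq hs hr).mp (hs.dvd_of_dvd_pow h'))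
  obtain ⟨T, hT⟩ := exists_sylow_le (t := t) D (hDt t ht htp htq)
  obtain ⟨hTb, -, s, c, hs, hst, hsG, hTi⟩ := hne t htG T
  haveI := Fact.mk hs
  by_cases hsr : s = r
  · subst hsr
    exact hPn (eq_top_of_normalizer_index_pow (T : Subgroup G) _ hTb c hTi P (hT.trans inf_le_left)
      Subgroup.le_normalizer)
  by_cases hsq : s = q
  · subst hsq
    exact hQn (eq_top_of_normalizer_index_pow (T : Subgroup G) _ hTb c hTi Q (hT.trans inf_le_right)
      Subgroup.le_normalizer)
  · obtain ⟨Z, hZ⟩ := exists_sylow_le (t := s) D (hDt s hs hsr hsq)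
    exact hPn (top_le_iff.mp ((eq_top_of_normalizer_index_pow (T : Subgroup G) _ hTb c hTi Z hT hZ) ▸
      inf_le_left))

universe u in
theorem aux : ∀ (n : ℕ) {G : Type u} [Group G] [Finite G], Nat.card G = n →
    (∀ (r : ℕ) [Fact r.Prime], Nat.card (Sylow r G) = 1 ∨ IsPrimePow (Nat.card (Sylow r G))) →
    Group.IsSolvable G := by
  intro n
  induction n using Nat.strong_induction_on with
  | _ n ih =>
    intro G _ _ hn h
    by_cases hsub : Subsingleton G
    · infer_instance
    haveI : Nontrivial G := not_subsingleton_iff_nontrivial.mp hsub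
    by_cases hsimp : IsSimpleGroup G
    · exact isSolvable_of_simple h
    obtain ⟨N, hN, hN1, hN2⟩ : ∃ N : Subgroup G, N.Normal ∧ N ≠ ⊥ ∧ N ≠ ⊤ := by
      by_contra hno
      push_neg at hno
      exact hsimp ⟨fun N hN => or_iff_not_imp_left.mpr (hno N hN)⟩
    have key : ∀ {m d : ℕ}, (d = 1 ∨ IsPrimePow d) → m ∣ d → m = 1 ∨ IsPrimePow m := by
      intro m d hd hmd
      by_cases hm : m = 1
      · exact Or.inl hm
      · rcases hd with rfl | hd
        · exact absurd (Nat.eq_one_of_dvd_one hmd) hm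
        · exact Or.inr (hd.dvd hmd hm)
    have hNc : Nat.card N < n := by
      rw [← hn]
      exact lt_of_le_of_ne (Subgroup.card_le_card_group N) (fun h' => hN2 (Subgroup.card_eq_iff_eq_top _ |>.mp h'))
    have hQc : Nat.card (G ⧸ N) < n := by
      rw [← hn, Subgroup.card_eq_card_quotient_mul_card_subgroup N]
      exact lt_mul_of_one_lt_right Nat.card_pos (((Subgroup.one_lt_card_iff_ne_bot N).mpr hN1))
    have sN : Group.IsSolvable N := ih _ hNc rfl (fun r _ => key (h r)
      (card_sylow_dvd_of_normal N (Classical.choice Sylow.nonempty)))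
    have sQ : Group.IsSolvable (G ⧸ N) := ih _ hQc rfl (fun r _ => key (h r)
      (card_sylow_dvd_of_surjective (QuotientGroup.mk'_surjective N) (Classical.choice Sylow.nonempty)))
    exact @Group.isSolvable_of_ker_le_range _ _ _ _ _ _ N.subtype (QuotientGroup.mk' N) (by simp) sN sQ

/-- If for every prime r the number of Sylow r-subgroups of the finite group G is a prime power or 1, then G is solvable. -/
theorem result {G : Type*} [Group G] [Finite G] (h : ∀ (r : ℕ) [Fact r.Prime], Nat.card (Sylow r G) = 1 ∨ IsPrimePow (Nat.card (Sylow r G))) :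
    Group.IsSolvable G := by
  exact aux _ rfl h

end Cfsg.Agent.S3933
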