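import Cfsg.Statements.S3941
import Mathlib
-- import your own Cfsg.Agent.* helpers here

set_option autoImplicit false
open Cfsg

namespace Cfsg.Agent.S3941
theorem not_pClosed_alternating {m p : ℕ} [Fact p.Prime] (hp : p ≠ 2) (hm : 4 ≤ m) (hpm : p ≤ m)
    (h : Cfsg.IsPClosed p (alternatingGroup (Fin m))) : False := by
  have hdvd : p ∣ Nat.card (alternatingGroup (Fin m)) := by
    have : Nontrivial (Fin m) := Fin.nontrivial_iff_two_le.2 (by omega)
    have h1 := two_mul_nat_card_alternatingGroup (α := Fin m)
    have h2 : p ∣ 2 * Nat.card (alternatingGroup (Fin m)) := by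
      rw [h1, Nat.card_perm, Nat.card_fin]
      exact (Nat.Prime.dvd_factorial Fact.out).2 hpm
    exact ((Nat.Prime.dvd_mul Fact.out).1 h2).resolve_left fun h2 =>
      hp ((Nat.prime_dvd_prime_iff_eq Fact.out Nat.prime_two).1 h2)
  let P : Sylow p (alternatingGroup (Fin m)) := default
  have hP := h P
  rcases hm.lt_or_eq with h5 | rfl
  · have : IsSimpleGroup (alternatingGroup (Fin m)) :=
      alternatingGroup.isSimpleGroup (by rw [Nat.card_fin]; omega)
    rcases hP.eq_bot_or_eq_top with hb | ht
    · exact P.ne_bot_of_dvd_card hdvd hb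
    · have hsolv : Group.IsSolvable (alternatingGroup (Fin m)) := by
        have hG : IsPGroup p (alternatingGroup (Fin m)) := fun x => by
          obtain ⟨k, hk⟩ := P.2 ⟨x, ht ▸ Subgroup.mem_top x⟩
          exact ⟨k, congrArg Subtype.val hk⟩
        have := hG.isNilpotent
        infer_instance
      have hcomm : IsMulCommutative (alternatingGroup (Fin m)) :=
        ⟨⟨IsSimpleGroup.comm_iff_isSolvable.2 hsolv⟩⟩
      have := alternatingGroup.isMulCommutative_iff_card_le_three.1 hcomm
      simp at this
      omega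
  · -- `A₄` has four Sylow 3-subgroups
    obtain rfl : p = 3 := by
      rcases (show p = 3 ∨ p = 4 by have := (Fact.out : p.Prime).two_le; omega) with h | h
      · exact h
      · exact absurd (h ▸ (Fact.out : p.Prime)) (by decide)
    have hu := Sylow.unique_of_normal P hP
    have hcard : Nat.card (alternatingGroup (Fin 4)) = 12 := by
      rw [Nat.card_eq_fintype_card]; rfl
    have hPc : Nat.card (P : Subgroup (alternatingGroup (Fin 4))) = 3 := by
      rw [P.card_eq_multiplicity, hcard]
      decide +kernel
    let a : alternatingGroup (Fin 4) := ⟨Equiv.swap 0 1 * Equiv.swap 1 2, by rw [Equiv.Perm.mem_alternatingGroup]; decide⟩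
    let b : alternatingGroup (Fin 4) := ⟨Equiv.swap 1 2 * Equiv.swap 2 3, by rw [Equiv.Perm.mem_alternatingGroup]; decide⟩
    have hmem : ∀ x : alternatingGroup (Fin 4), x ^ 3 = 1 → x ∈ (P : Subgroup _) := by
      intro x hx
      have : IsPGroup 3 (Subgroup.zpowers x) := by
        rintro ⟨_, i, rfl⟩
        exact ⟨1, Subtype.ext (by show (x ^ i) ^ (3 ^ 1) = 1; rw [pow_one, ← zpow_natCast, ← zpow_mul, mul_comm, zpow_mul, zpow_natCast, hx, one_zpow])⟩
      obtain ⟨Q, hQ⟩ := this.exists_le_sylow
      rw [show P = Q from Subsingleton.elim _ _]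
      exact hQ (Subgroup.mem_zpowers x)
    have ha := hmem a (by decide)
    have hb := hmem b (by decide)
    have hab := P.toSubgroup.mul_mem ha hb
    have h3 : ∀ x ∈ (P : Subgroup (alternatingGroup (Fin 4))), x ^ 3 = 1 := fun x hx => by
      have := pow_card_eq_one' (x := (⟨x, hx⟩ : (P : Subgroup _)))
      rw [hPc] at this
      exact congrArg Subtype.val this
    have := h3 _ hab
    revert this
    decide


/-- Let n ≥ 5 and p an odd prime with p ≤ n, and suppose that every proper subgroup of the alternating group of degree n whose order is divisible by p has a normal Sylow p-subgroup. Then n = p. -/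
theorem result (n p : ℕ) (hn : 5 ≤ n) [Fact p.Prime] (hp : p ≠ 2) (hpn : p ≤ n)
    (h : ∀ H : Subgroup ↥(alternatingGroup (Fin n)), H ≠ ⊤ → p ∣ Nat.card ↥H → Cfsg.IsPClosed p ↥H) : n = p := by
  by_contra hne
  obtain ⟨m, rfl⟩ : ∃ m, n = m + 1 := ⟨n - 1, by omega⟩
  let s : Finset (Fin (m + 1)) := Finset.univ.erase (Fin.last m)
  have hs : Fintype.card s = m := by simp [s]
  let e : Fin m ≃ s := (Fintype.equivFinOfCardEq hs).symm
  let φ : alternatingGroup (Fin m) →* alternatingGroup (Fin (m + 1)) :=
    (alternatingGroup.ofSubtype s).comp (Equiv.altCongrHom e).toMonoidHom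
  have hφ : Function.Injective φ :=
    alternatingGroup.ofSubtype_injective.comp (Equiv.altCongrHom e).injective
  have hpm : p ≤ m := by omega
  have hnt1 : Nontrivial (Fin m) := Fin.nontrivial_iff_two_le.2 (by omega)
  have hnt2 : Nontrivial (Fin (m + 1)) := Fin.nontrivial_iff_two_le.2 (by omega)
  have e1 := two_mul_nat_card_alternatingGroup (α := Fin m)
  have e2 := two_mul_nat_card_alternatingGroup (α := Fin (m + 1))
  rw [Nat.card_perm, Nat.card_fin] at e1 e2
  have htop : φ.range ≠ ⊤ := by
    intro h
    have e3 := Nat.card_congr (MonoidHom.ofInjective hφ).toEquiv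
    rw [h, Subgroup.card_top] at e3
    rw [← e3, e1, Nat.factorial_succ] at e2
    have := Nat.factorial_pos m
    nlinarith
  have hdvd : p ∣ Nat.card φ.range := by
    rw [← Nat.card_congr (MonoidHom.ofInjective hφ).toEquiv]
    have h2 : p ∣ 2 * Nat.card (alternatingGroup (Fin m)) := by
      rw [e1]; exact (Nat.Prime.dvd_factorial Fact.out).2 hpm
    exact ((Nat.Prime.dvd_mul Fact.out).1 h2).resolve_left fun h2 =>
      hp ((Nat.prime_dvd_prime_iff_eq Fact.out Nat.prime_two).1 h2)
  have hc := h φ.range htop hdvd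
  refine not_pClosed_alternating hp (by omega) hpm fun P => ?_
  let E := MonoidHom.ofInjective hφ
  have hQ := hc (P.mapSurjective (f := E.toMonoidHom) E.surjective)
  have hQ' : ((P : Subgroup _).map E.toMonoidHom).Normal := hQ
  have := hQ'.comap E.toMonoidHom
  rwa [Subgroup.comap_map_eq_self_of_injective (f := E.toMonoidHom) E.injective] at this

end Cfsg.Agent.S3941
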