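import Cfsg.Statements.S3972
import Cfsg.Agent.Lib.Hall2.CyclicRegular
-- import your own Cfsg.Agent.* helpers here

set_option autoImplicit false
open Cfsg

namespace Cfsg.Agent.S3972
/-- The points as residues modulo `p ^ m`. -/
theorem exists_cyclic_coordinates {Ω : Type*} [Fintype Ω] [DecidableEq Ω] {p m : ℕ} (hp : p.Prime)
    (hm : 1 ≤ m) (hΩ : Fintype.card Ω = p ^ m) (g : Equiv.Perm Ω) (hg : orderOf g = p ^ m) :
    ∃ e : ZMod (p ^ m) ≃ Ω, ∀ i a : ZMod (p ^ m), (g ^ a.val) (e i) = e (i + a) := by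
  have : NeZero (p ^ m) := ⟨pow_ne_zero _ hp.ne_zero⟩
  have hne : g ^ p ^ (m - 1) ≠ 1 := fun h => by
    have := Nat.le_of_dvd (pow_pos hp.pos _) (hg ▸ orderOf_dvd_of_pow_eq_one h)
    have := Nat.pow_lt_pow_right hp.one_lt (show m - 1 < m by omega)
    omega
  obtain ⟨o, ho⟩ : ∃ o, (g ^ p ^ (m - 1)) o ≠ o := by
    by_contra h
    push Not at h
    exact hne (Equiv.ext h)
  have key : ∀ d : ℕ, (g ^ d) o = o → p ^ m ∣ d := by
    intro d hd
    by_contra hnd
    have hd0 : d ≠ 0 := fun h => hnd (h ▸ dvd_zero _)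
    obtain ⟨e, r, hr, rfl⟩ := Nat.exists_eq_pow_mul_and_not_dvd hd0 p hp.ne_one
    have he : e ≤ m - 1 := by
      by_contra he
      exact hnd ((pow_dvd_pow p (by omega)).trans (dvd_mul_right _ _))
    have hco : r.Coprime (orderOf (g ^ p ^ e)) := by
      refine Nat.Coprime.coprime_dvd_right (orderOf_pow_dvd _) ?_
      rw [hg]
      exact (((Nat.Prime.coprime_iff_not_dvd hp).2 hr).symm).pow_right m
    obtain ⟨k, hk⟩ := exists_pow_eq_self_of_coprime hco
    have h1 : g ^ p ^ (m - 1) ∈ MulAction.stabilizer (Equiv.Perm Ω) o := by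
      obtain ⟨c, hc⟩ := pow_dvd_pow p he
      rw [hc, pow_mul, ← hk, ← pow_mul g]
      exact pow_mem (pow_mem (MulAction.mem_stabilizer_iff.2 hd) k) c
    exact ho (MulAction.mem_stabilizer_iff.1 h1)
  let f : ZMod (p ^ m) → Ω := fun i => (g ^ i.val) o
  have hinj : Function.Injective f := by
    have hle : ∀ i j : ZMod (p ^ m), i.val ≤ j.val → f i = f j → i = j := by
      intro i j hij h
      have h1 : (g ^ (j.val - i.val)) o = o := by
        apply (g ^ i.val).injective
        rw [← Equiv.Perm.mul_apply, ← pow_add, Nat.add_sub_cancel' hij]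
        exact h.symm
      have h2 := Nat.eq_zero_of_dvd_of_lt (key _ h1) ((Nat.sub_le _ _).trans_lt (ZMod.val_lt j))
      exact ZMod.val_injective _ (by omega)
    intro i j h
    rcases le_total i.val j.val with hij | hij
    · exact hle i j hij h
    · exact (hle j i hij h.symm).symm
  refine ⟨Equiv.ofBijective f ((Fintype.bijective_iff_injective_and_card f).2
    ⟨hinj, by rw [ZMod.card, hΩ]⟩), fun i a => ?_⟩
  show (g ^ a.val) ((g ^ i.val) o) = (g ^ (i + a).val) o
  have h := pow_mod_orderOf g (i.val + a.val)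
  rw [hg] at h
  rw [← Equiv.Perm.mul_apply, ← pow_add, ZMod.val_add, h, add_comm]


/-- Let `p` be a prime, `m ≥ 2`, and `G` a transitive but not doubly transitive permutation group on `p ^ m` points containing a permutation of order `p ^ m` (necessarily a full cycle). Then `G` is imprimitive, and the normal closure in `G` of the `p ^ (m - 1)`-th power of that permutation is an intransitive normal subgroup. -/
theorem result {Ω : Type*} [Fintype Ω] [DecidableEq Ω] (p m : ℕ) (hp : p.Prime) (hm : 2 ≤ m) (hΩ : Fintype.card Ω = p ^ m) (G : Subgroup (Equiv.Perm Ω)) (htr : MulAction.IsPretransitive G Ω) (h2 : ¬ MulAction.IsMultiplyPretransitive G Ω 2) (g : G) (hg : orderOf g = p ^ m) : ¬ MulAction.IsPreprimitive G Ω ∧ ¬ MulAction.IsPretransitive (Subgroup.normalClosure ({g ^ (p ^ (m - 1))} : Set G)) Ω := by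
  have := Fact.mk hp
  have hne : NeZero (p ^ m) := ⟨pow_ne_zero _ hp.ne_zero⟩
  have hgv : orderOf (g : Equiv.Perm Ω) = p ^ m := (Subgroup.orderOf_coe g).trans hg
  obtain ⟨e, he⟩ := exists_cyclic_coordinates hp (by omega) hΩ (g : Equiv.Perm Ω) hgv
  let Φ : Equiv.Perm (ZMod (p ^ m)) →* Equiv.Perm Ω := e.permCongrHom.toMonoidHom
  have hΦ : ∀ σ x, Φ σ x = e (σ (e.symm x)) := fun σ x => rfl
  have htra : ∀ a, Equiv.addRight a ∈ G.comap Φ := fun a => by
    show Φ (Equiv.addRight a) ∈ G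
    rw [show Φ (Equiv.addRight a) = (g : Equiv.Perm Ω) ^ a.val from Equiv.ext fun x => by
      rw [hΦ, Equiv.coe_addRight, ← he, e.apply_symm_apply]]
    exact pow_mem g.2 _
  rcases CfsgLib.Hall2.CyclicRegular.doubly_or_invariant hm htra with hd | ⟨L, hL, hLtop, hLz⟩
  · refine absurd (MulAction.is_two_pretransitive_iff.2 ?_) h2
    intro a b c d hab hcd
    obtain ⟨σ, hσ, h1, h2'⟩ := hd (e.symm.injective.ne hab) (e.symm.injective.ne hcd)
    refine ⟨⟨Φ σ, hσ⟩, ?_, ?_⟩
    · show Φ σ a = c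
      rw [hΦ, h1, e.apply_symm_apply]
    · show Φ σ b = d
      rw [hΦ, h2', e.apply_symm_apply]
  set z := g ^ p ^ (m - 1) with hz
  let K : Subgroup G :=
    { carrier := {k | ∀ x, e.symm ((k : Equiv.Perm Ω) x) - e.symm x ∈ L}
      one_mem' := fun x => by simp
      mul_mem' := fun {k l} hk hl x => by
        simpa [sub_add_sub_cancel] using add_mem (hk ((l : Equiv.Perm Ω) x)) (hl x)
      inv_mem' := fun {k} hk x => by
        have := neg_mem (hk ((k : Equiv.Perm Ω).symm x))
        simpa [Equiv.Perm.inv_def, neg_sub] using this }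
  have hzval : ((p ^ (m - 1) : ℕ) : ZMod (p ^ m)).val = p ^ (m - 1) := by
    rw [ZMod.val_natCast, Nat.mod_eq_of_lt (Nat.pow_lt_pow_right hp.one_lt (by omega))]
  have hzx : ∀ x, (z : Equiv.Perm Ω) x = e (e.symm x + ((p ^ (m - 1) : ℕ) : ZMod (p ^ m))) := by
    intro x
    rw [← he, hzval, e.apply_symm_apply, hz, Subgroup.coe_pow]
  have hN : Subgroup.normalClosure ({z} : Set G) ≤ K := by
    refine (Subgroup.closure_le _).2 fun c hc => ?_
    obtain ⟨_, rfl, hc⟩ := Group.mem_conjugatesOfSet_iff.1 hc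
    obtain ⟨t, rfl⟩ := isConj_iff.1 hc
    intro x
    obtain ⟨y, rfl⟩ := (t : Equiv.Perm Ω).surjective x
    have hσ : e.symm.permCongr (t : Equiv.Perm Ω) ∈ G.comap Φ := by
      show Φ _ ∈ G
      rw [show Φ (e.symm.permCongr (t : Equiv.Perm Ω)) = t from Equiv.ext fun x => by
        simp [hΦ, Equiv.permCongr_apply]]
      exact t.2
    have h1 := hL _ hσ (e.symm y) (e.symm ((z : Equiv.Perm Ω) y))
    simp only [Equiv.permCongr_apply, Equiv.symm_symm, e.apply_symm_apply] at h1
    simp only [Subgroup.coe_mul, Equiv.Perm.mul_apply, Subgroup.coe_inv, Equiv.Perm.inv_def,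
      Equiv.symm_apply_apply]
    refine h1.mpr ?_
    rw [hzx, e.symm_apply_apply, add_sub_cancel_left]
    exact hLz
  have hnt : ¬ MulAction.IsPretransitive (Subgroup.normalClosure ({z} : Set G)) Ω := by
    intro h
    refine hLtop ((AddSubgroup.eq_top_iff' L).2 fun a => ?_)
    obtain ⟨k, hk⟩ := h.exists_smul_eq (e 0) (e a)
    have h1 := hN k.2 (e 0)
    have hk' : ((k : G) : Equiv.Perm Ω) (e 0) = e a := hk
    rw [hk', e.symm_apply_apply, e.symm_apply_apply, sub_zero] at h1
    exact h1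
  refine ⟨fun hprim => hnt ?_, hnt⟩
  refine MulAction.IsQuasiPreprimitive.isPretransitive_of_normal fun hfix => ?_
  have h1 : (z : Equiv.Perm Ω) (e 0) = e 0 :=
    (hfix.ge (Set.mem_univ (e 0)) : e 0 ∈ MulAction.fixedPoints _ Ω)
      ⟨z, Subgroup.subset_normalClosure (Set.mem_singleton z)⟩
  rw [hzx, e.symm_apply_apply, zero_add, e.injective.eq_iff] at h1
  have h2 := congrArg ZMod.val h1
  rw [hzval, ZMod.val_zero] at h2
  exact pow_ne_zero _ hp.ne_zero h2

end Cfsg.Agent.S3972
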