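import Cfsg.Statements.S3982
import Mathlib
import Cfsg.Agent.Lib.CoprimeAction.Sylow
-- import your own Cfsg.Agent.* helpers here

set_option autoImplicit false
open Cfsg

namespace Cfsg.Agent.S3982


/-- Let p be an odd prime and G a finite group of even order divisible by p in which the centralizer of every non-identity p-element has odd order. If some nontrivial p-subgroup of G has a normalizer of even order, then the normalizer of every Sylow p-subgroup of G has even order. -/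
theorem result {G : Type*} [Group G] [Finite G] (p : ℕ) [Fact p.Prime] (hp2 : p ≠ 2) (hpG : p ∣ Nat.card G) (h2G : 2 ∣ Nat.card G) (hC : ∀ g : G, g ≠ 1 → (∃ k : ℕ, orderOf g = p ^ k) → Odd (Nat.card ↥(Subgroup.centralizer ({g} : Set G)))) (Q : Subgroup G) (hQ : IsPGroup p ↥Q) (hQ1 : Q ≠ ⊥) (hev : Even (Nat.card ↥(Subgroup.normalizer (Q : Set G)))) (P : Sylow p G) : Even (Nat.card ↥(Subgroup.normalizer ((P : Subgroup G) : Set G))) := by
  have hp := (Fact.out : p.Prime)
  haveI : Fact (Nat.Prime 2) := ⟨Nat.prime_two⟩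
  obtain ⟨⟨y, hyN⟩, hy⟩ := exists_prime_orderOf_dvd_card'
    (G := ↥(Subgroup.normalizer (Q : Set G))) 2 (even_iff_two_dvd.1 hev)
  rw [Subgroup.orderOf_mk] at hy
  have hy2 : y * y = 1 := by rw [← pow_two, ← hy, pow_orderOf_eq_one]
  obtain ⟨R, hRmax⟩ : ∃ R, Maximal (fun R : Subgroup G =>
      Q ≤ R ∧ IsPGroup p R ∧ y ∈ Subgroup.normalizer (R : Set G)) R :=
    Set.Finite.exists_maximal (Set.toFinite _) ⟨Q, le_rfl, hQ, hyN⟩
  obtain ⟨hQR, hRp, hyR⟩ := hRmax.prop
  have hfix : ∀ u ∈ R, y * u * y⁻¹ = u → u = 1 := by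
    intro u hu he
    by_contra hu1
    obtain ⟨k, hk⟩ := IsPGroup.iff_orderOf.1 hRp ⟨u, hu⟩
    rw [Subgroup.orderOf_mk] at hk
    have h1 := Subgroup.orderOf_dvd_natCard (Subgroup.centralizer ({u} : Set G)) (x := y)
      (Subgroup.mem_centralizer_singleton_iff.2 (mul_inv_eq_iff_eq_mul.1 he))
    rw [hy] at h1
    exact Nat.not_even_iff_odd.2 (hC u hu1 ⟨k, hk⟩) (even_iff_two_dvd.2 h1)
  have hinv : ∀ u ∈ R, y * u * y⁻¹ = u⁻¹ := by
    let f : R → R := fun u => ⟨(u : G)⁻¹ * (y * u * y⁻¹),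
      mul_mem (inv_mem u.2) ((Subgroup.mem_normalizer_iff.1 hyR _).1 u.2)⟩
    have hinj : Function.Injective f := fun u v huv => by
      have h1 : (u : G)⁻¹ * (y * u * y⁻¹) = (v : G)⁻¹ * (y * v * y⁻¹) := congrArg Subtype.val huv
      have h2 := hfix _ (mul_mem v.2 (inv_mem u.2)) (by
        calc y * ((v : G) * (u : G)⁻¹) * y⁻¹ = (y * v * y⁻¹) * (y * u * y⁻¹)⁻¹ := by group
          _ = (v : G) * ((v : G)⁻¹ * (y * v * y⁻¹)) * (y * u * y⁻¹)⁻¹ := by group
          _ = _ := by rw [← h1]; group)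
      exact (Subtype.ext (mul_inv_eq_one.1 h2)).symm
    intro u hu
    obtain ⟨v, hv⟩ := Finite.surjective_of_injective hinj ⟨u, hu⟩
    have hv' : (v : G)⁻¹ * (y * v * y⁻¹) = u := congrArg Subtype.val hv
    rw [← hv', inv_eq_of_mul_eq_one_right hy2]
    simp only [mul_assoc, hy2, mul_one, mul_inv_rev, inv_inv, inv_eq_of_mul_eq_one_right hy2]
  set C := Subgroup.centralizer (R : Set G) with hCdef
  have hRC : R ≤ C := fun u hu => Subgroup.mem_centralizer_iff.2 fun v hv => by
    have h1 : y * (v * u) * y⁻¹ = (v * u)⁻¹ := hinv _ (mul_mem hv hu)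
    have h2 : y * (v * u) * y⁻¹ = v⁻¹ * u⁻¹ := by
      rw [← hinv v hv, ← hinv u hu]; group
    rw [h1, mul_inv_rev] at h2
    simpa using congrArg (fun t => t⁻¹) h2
  have hR1 : R ≠ ⊥ := fun hb => hQ1 (le_bot_iff.1 (hb ▸ hQR))
  have hCodd : ¬ 2 ∣ Nat.card C := by
    obtain ⟨u, hu, hu1⟩ := (Subgroup.bot_or_exists_ne_one R).resolve_left hR1
    obtain ⟨k, hk⟩ := IsPGroup.iff_orderOf.1 hRp ⟨u, hu⟩
    rw [Subgroup.orderOf_mk] at hk
    intro h2
    exact Nat.not_even_iff_odd.2 (hC u hu1 ⟨k, hk⟩) (even_iff_two_dvd.2 (h2.trans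
      (Subgroup.card_dvd_of_le (Subgroup.centralizer_le (Set.singleton_subset_iff.2 hu)))))
  have hsyl : ∀ S : Subgroup G, IsPGroup p S → R ≤ S → R = S := by
    intro S hS hRS
    by_contra hne
    have hlt : R < S := lt_of_le_of_ne hRS hne
    haveI := hS.isNilpotent
    obtain ⟨⟨x, hxS⟩, hxN', hxR'⟩ := SetLike.exists_of_lt
      (Group.normalizerCondition_of_isNilpotent (R.subgroupOf S)
        (lt_top_iff_ne_top.mpr fun h => hlt.not_ge (Subgroup.subgroupOf_eq_top.mp h)))
    have hxR : x ∉ R := fun h => hxR' (Subgroup.mem_subgroupOf.2 h)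
    have hxN : x ∈ Subgroup.normalizer (R : Set G) :=
      CfsgLib.CoprimeAction.mem_normalizer_of_conj_mem fun z hz => by
        simpa [Subgroup.mem_subgroupOf] using
          (Subgroup.mem_normalizer_iff.1 hxN' ⟨z, hRS hz⟩).1 (by simpa [Subgroup.mem_subgroupOf] using hz)
    have hxC : x ∈ Subgroup.normalizer (C : Set G) := by
      refine CfsgLib.CoprimeAction.mem_normalizer_of_conj_mem fun c hc => ?_
      refine Subgroup.mem_centralizer_iff.2 fun u hu => ?_
      have h1 := Subgroup.mem_centralizer_iff.1 hc _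
        ((Subgroup.mem_normalizer_iff'.1 hxN (x⁻¹ * u)).2 (by simpa using hu))
      simpa [mul_assoc] using congrArg (fun t => x * t * x⁻¹) h1
    set T := C ⊔ Subgroup.zpowers x with hT
    have hmemT : ∀ t ∈ T, ∃ c ∈ C, ∃ v ∈ Subgroup.zpowers x, t = c * v := by
      intro t ht
      rw [hT, ← SetLike.mem_coe, Subgroup.coe_mul_of_right_le_normalizer_left C _
        (Subgroup.zpowers_le.2 hxC)] at ht
      obtain ⟨c, hc, v, hv, rfl⟩ := ht
      exact ⟨c, hc, v, hv, rfl⟩
    have hxo : ∃ k, orderOf x = p ^ k := by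
      obtain ⟨k, hk⟩ := IsPGroup.iff_orderOf.1 hS ⟨x, hxS⟩
      exact ⟨k, by rwa [Subgroup.orderOf_mk] at hk⟩
    have hTodd : ¬ 2 ∣ Nat.card T := by
      intro h2
      obtain ⟨⟨t, ht⟩, hto⟩ := exists_prime_orderOf_dvd_card' (G := T) 2 h2
      rw [Subgroup.orderOf_mk] at hto
      obtain ⟨c, hc, v, hv, rfl⟩ := hmemT t ht
      have ht2 : (c * v) * (c * v) = 1 := by rw [← pow_two, ← hto, pow_orderOf_eq_one]
      have hvN : v ∈ Subgroup.normalizer (C : Set G) := Subgroup.zpowers_le.2 hxC hv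
      have hv2 : v ^ 2 ∈ C := by
        have h1 : v * c⁻¹ * v⁻¹ ∈ C := (Subgroup.mem_normalizer_iff.1 hvN _).1 (inv_mem hc)
        have h3 : c * v * c = v⁻¹ := eq_inv_of_mul_eq_one_left (by rw [← ht2]; group)
        have h4 : v * c = c⁻¹ * v⁻¹ := by rw [← h3]; group
        have h5 : v ^ 2 = (v * c⁻¹ * v⁻¹) * c⁻¹ := by
          have : v * c * c⁻¹ = c⁻¹ * v⁻¹ * c⁻¹ := by rw [h4]
          rw [mul_inv_cancel_right] at this
          rw [pow_two]
          nth_rw 2 [this]
          group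
        rw [h5]
        exact mul_mem h1 (inv_mem hc)
      obtain ⟨k, hk⟩ := hxo
      have hvo : (orderOf v).Coprime 2 := by
        obtain ⟨i, rfl⟩ := Subgroup.mem_zpowers_iff.1 hv
        refine Nat.Coprime.coprime_dvd_left (orderOf_dvd_of_mem_zpowers (Subgroup.zpow_mem_zpowers x i)) ?_
        rw [hk]
        exact ((Nat.coprime_primes hp Nat.prime_two).2 hp2).pow_left k
      obtain ⟨j, hj⟩ := exists_pow_eq_self_of_coprime (x := v) hvo.symm
      have hcv : c * v ∈ C := mul_mem hc (hj ▸ pow_mem hv2 j)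
      exact hCodd (hto ▸ Subgroup.orderOf_dvd_natCard C hcv)
    have hyT : y ∈ Subgroup.normalizer (T : Set G) := by
      refine CfsgLib.CoprimeAction.mem_normalizer_of_conj_mem fun t ht => ?_
      have hle : T ≤ T.comap (MulAut.conj y).toMonoidHom := by
        refine sup_le (fun c hc => Subgroup.mem_sup_left ?_) (Subgroup.zpowers_le.2 ?_)
        · refine Subgroup.mem_centralizer_iff.2 fun u hu => ?_
          have h1 := Subgroup.mem_centralizer_iff.1 hc _
            ((Subgroup.mem_normalizer_iff'.1 hyR (y⁻¹ * u)).2 (by simpa using hu))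
          simpa [MulAut.conj_apply, mul_assoc] using congrArg (fun t => y * t * y⁻¹) h1
        · change y * x * y⁻¹ ∈ T
          have hc : y * x * y⁻¹ * x⁻¹ ∈ C := by
            refine Subgroup.mem_centralizer_iff.2 fun u hu => ?_
            have hx1 : x⁻¹ * u * x ∈ R := (Subgroup.mem_normalizer_iff'.1 hxN (x⁻¹ * u)).2 (by simpa using hu)
            have h1 : y * (x⁻¹ * u * x) * y⁻¹ = x⁻¹ * u⁻¹ * x := by rw [hinv _ hx1]; group
            have h2 : y⁻¹ * u * y = u⁻¹ := by
              rw [← hinv u hu, inv_eq_of_mul_eq_one_right hy2]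
            symm
            calc y * x * y⁻¹ * x⁻¹ * u = y * x * y⁻¹ * (x⁻¹ * u⁻¹ * x)⁻¹ * x⁻¹ := by group
              _ = y * x * (x⁻¹ * u * x)⁻¹ * y⁻¹ * x⁻¹ := by rw [← h1]; group
              _ = y * u⁻¹ * y⁻¹ * (y * x * y⁻¹ * x⁻¹) := by group
              _ = u * (y * x * y⁻¹ * x⁻¹) := by
                rw [show y * u⁻¹ * y⁻¹ = (y * u * y⁻¹)⁻¹ by group, hinv u hu, inv_inv]
          simpa using Subgroup.mul_mem_sup hc (Subgroup.mem_zpowers x)
      exact hle ht
    have hcop : (Nat.card ↥(Subgroup.zpowers y)).Coprime (Nat.card T) := by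
      rw [Nat.card_zpowers, hy]; exact Nat.prime_two.coprime_iff_not_dvd.2 hTodd
    obtain ⟨P₁, hle₁, hinv₁⟩ := CfsgLib.CoprimeAction.exists_invariant_sylow_ge
      (A := Subgroup.zpowers y) (Subgroup.zpowers_le.2 hyT) hcop
      (Or.inl (Group.isSolvable_of_comm fun a b => Std.Commutative.comm a b)) (p := p)
      (hRC.trans le_sup_left) hRp (Subgroup.zpowers_le.2 hyR)
    have heq : R = (P₁ : Subgroup T).map T.subtype :=
      hRmax.eq_of_ge ⟨hQR.trans hle₁, P₁.isPGroup'.map _, hinv₁ (Subgroup.mem_zpowers y)⟩ hle₁ |>.symm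
    obtain ⟨k, hk⟩ := hxo
    have hsup : IsPGroup p ↥(R ⊔ Subgroup.zpowers x) :=
      IsPGroup.to_sup_of_normal_left' hRp (IsPGroup.of_card (by rw [Nat.card_zpowers, hk]))
        (Subgroup.zpowers_le.2 hxN)
    have hle2 : R ⊔ Subgroup.zpowers x ≤ T := sup_le (hRC.trans le_sup_left) le_sup_right
    have h3 := P₁.is_maximal' (hsup.comap_of_injective T.subtype T.subtype_injective) (by
      rw [← Subgroup.map_le_iff_le_comap, ← heq]; exact le_sup_left)
    refine hxR ?_
    rw [heq, ← h3]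
    exact ⟨⟨x, hle2 (Subgroup.mem_sup_right (Subgroup.mem_zpowers x))⟩,
      Subgroup.mem_sup_right (Subgroup.mem_zpowers x), rfl⟩
  obtain ⟨P', hP'⟩ := hRp.exists_le_sylow
  have hRP : R = (P' : Subgroup G) := hsyl _ P'.isPGroup' hP'
  have hPN : Even (Nat.card ↥(Subgroup.normalizer ((P' : Subgroup G) : Set G))) := by
    rw [even_iff_two_dvd, ← hy]
    exact Subgroup.orderOf_dvd_natCard _ (hRP ▸ hyR)
  obtain ⟨g, rfl⟩ := MulAction.exists_smul_eq G P' P
  have hindex : (Subgroup.normalizer ((P' : Subgroup G) : Set G)).index =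
      (Subgroup.normalizer (((g • P' : Sylow p G) : Subgroup G) : Set G)).index :=
    P'.card_eq_index_normalizer.symm.trans (g • P').card_eq_index_normalizer
  have h6 := Subgroup.card_mul_index (Subgroup.normalizer (((g • P' : Sylow p G) : Subgroup G) : Set G))
  rw [← hindex, ← Subgroup.card_mul_index (Subgroup.normalizer ((P' : Subgroup G) : Set G))] at h6
  have h7 := Nat.eq_of_mul_eq_mul_right (Nat.pos_of_ne_zero Subgroup.index_ne_zero_of_finite) h6
  exact h7 ▸ hPN

end Cfsg.Agent.S3982
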