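import Cfsg.Statements.S3983
import Cfsg.Agent.Lib.SchurExt.TI
-- import your own Cfsg.Agent.* helpers here

set_option autoImplicit false
open scoped Pointwise
open Cfsg

namespace Cfsg.Agent.S3983


/-- Let P be a Sylow p-subgroup of the finite group G that meets each conjugate g P g⁻¹ with g outside N_G(P) trivially, and let U be a subgroup of G of order divisible by p. Then a Sylow p-subgroup Q of U has the same property inside U: Q meets each conjugate u Q u⁻¹ with u ∈ U outside N_U(Q) trivially. -/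
theorem result {G : Type*} [Group G] [Finite G] (p : ℕ) [Fact p.Prime] (P : Sylow p G) (hTI : ∀ g : G, g ∉ Subgroup.normalizer ((P : Subgroup G) : Set G) → (P : Subgroup G) ⊓ (MulAut.conj g • (P : Subgroup G)) = ⊥) (U : Subgroup G) (hU : p ∣ Nat.card ↥U) (Q : Sylow p ↥U) : ∀ u : ↥U, u ∉ Subgroup.normalizer ((Q : Subgroup ↥U) : Set ↥U) → (Q : Subgroup ↥U) ⊓ (MulAut.conj u • (Q : Subgroup ↥U)) = ⊥ := by
  intro u hu
  by_contra hne
  obtain ⟨x, hx, hx1⟩ := ((Subgroup.bot_or_exists_ne_one _).resolve_left hne)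
  obtain ⟨P', hP'⟩ := (Q.isPGroup'.map U.subtype).exists_le_sylow
  have hmem : ∀ z : ↥U, z ∈ (Q : Subgroup ↥U) ↔ (z : G) ∈ (P' : Subgroup G) := by
    intro z
    refine ⟨fun hz => hP' (Subgroup.mem_map_of_mem U.subtype hz), fun hz => ?_⟩
    have := Q.is_maximal' (P'.isPGroup'.comap_of_injective U.subtype U.subtype_injective)
      (fun w hw => hP' (Subgroup.mem_map_of_mem U.subtype hw))
    exact this.le hz
  have hx2 := CfsgLib.SchurExt.mem_conj_smul.1 hx.2
  have hN := CfsgLib.SchurExt.sylow_ti_elem P hTI P' (u := (u : G)) (x := (x : G))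
    (fun h => hx1 (Subtype.ext h)) ((hmem x).1 hx.1) (by simpa using (hmem _).1 hx2)
  exact hu (Subgroup.mem_normalizer_iff.2 fun z => by
    rw [hmem, hmem]; simpa using Subgroup.mem_normalizer_iff.1 hN (z : G))

end Cfsg.Agent.S3983
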