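import Cfsg.Statements.S3984
import Cfsg.Agent.Lib.SchurExt.TI
-- import your own Cfsg.Agent.* helpers here

set_option autoImplicit false
open scoped Pointwise
open Cfsg

namespace Cfsg.Agent.S3984


/-- Let P be a Sylow p-subgroup of the finite group G that meets each conjugate g P g⁻¹ with g outside N_G(P) trivially, and let N be a normal subgroup of G of order prime to p. Then every Sylow p-subgroup Q of G ⧸ N meets each conjugate x Q x⁻¹ with x outside its normalizer trivially. -/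
theorem result {G : Type*} [Group G] [Finite G] (p : ℕ) [Fact p.Prime] (P : Sylow p G) (hTI : ∀ g : G, g ∉ Subgroup.normalizer ((P : Subgroup G) : Set G) → (P : Subgroup G) ⊓ (MulAut.conj g • (P : Subgroup G)) = ⊥) (N : Subgroup G) [N.Normal] (hN : (Nat.card ↥N).Coprime p) (Q : Sylow p (G ⧸ N)) : ∀ x : G ⧸ N, x ∉ Subgroup.normalizer ((Q : Subgroup (G ⧸ N)) : Set (G ⧸ N)) → (Q : Subgroup (G ⧸ N)) ⊓ (MulAut.conj x • (Q : Subgroup (G ⧸ N))) = ⊥ := by
  intro x hx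
  by_contra hne
  obtain ⟨y, hy, hy1⟩ := ((Subgroup.bot_or_exists_ne_one _).resolve_left hne)
  obtain ⟨c, hc⟩ := MulAction.exists_smul_eq (G ⧸ N) (P.mapSurjective (QuotientGroup.mk'_surjective N)) Q
  obtain ⟨g, rfl⟩ := QuotientGroup.mk'_surjective N c
  set P' : Sylow p G := g • P
  have hQ : (Q : Subgroup (G ⧸ N)) = (P' : Subgroup G).map (QuotientGroup.mk' N) := by
    rw [← hc, Sylow.coe_subgroup_smul, Sylow.coe_mapSurjective, Sylow.coe_subgroup_smul]
    ext z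
    constructor
    · rintro ⟨_, ⟨w, hw, rfl⟩, rfl⟩
      exact ⟨_, ⟨w, hw, rfl⟩, by simp⟩
    · rintro ⟨_, ⟨w, hw, rfl⟩, rfl⟩
      exact ⟨_, ⟨w, hw, rfl⟩, by simp⟩
  rw [hQ] at hy hx
  obtain ⟨y₀, hy₀, rfl⟩ := hy.1
  obtain ⟨u, rfl⟩ := QuotientGroup.mk'_surjective N x
  set J := (P' : Subgroup G) ⊔ N
  have hJ : ∀ z : G, QuotientGroup.mk' N z ∈ (P' : Subgroup G).map (QuotientGroup.mk' N) ↔ z ∈ J := fun z => by
    rw [← Subgroup.mem_comap, Subgroup.comap_map_eq, QuotientGroup.ker_mk']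
  have hy₂ : u⁻¹ * y₀ * u ∈ J := (hJ _).1 (by simpa using CfsgLib.SchurExt.mem_conj_smul.1 hy.2)
  obtain ⟨a, ha⟩ := IsPGroup.iff_orderOf.1 P'.isPGroup' ⟨y₀, hy₀⟩
  rw [Subgroup.orderOf_mk] at ha
  have hpg : IsPGroup p (Subgroup.zpowers (⟨_, hy₂⟩ : J)) := IsPGroup.of_card (n := a) (by
    rw [Nat.card_zpowers, Subgroup.orderOf_mk, ← ha]
    exact (SemiconjBy.orderOf_eq (u : G) (by simp [SemiconjBy, mul_assoc])))
  obtain ⟨R, hR⟩ := hpg.exists_le_sylow
  obtain ⟨h, hh⟩ := MulAction.exists_smul_eq J (P'.subtype (le_sup_left : (P' : Subgroup G) ≤ J)) R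
  rw [← hh, Sylow.coe_subgroup_smul] at hR
  have h3 := CfsgLib.SchurExt.mem_conj_smul.1 (hR (Subgroup.mem_zpowers _))
  rw [Sylow.coe_subtype, Subgroup.mem_subgroupOf] at h3
  have hy₀1 : y₀ ≠ 1 := fun h0 => hy1 (by simp [h0])
  have hn := CfsgLib.SchurExt.sylow_ti_elem P hTI P' (u := u * (h : G)) hy₀1 hy₀
    (by simpa [mul_assoc] using h3)
  refine hx ?_
  have hm : QuotientGroup.mk' N (u * (h : G)) ∈
      Subgroup.normalizer (((P' : Subgroup G).map (QuotientGroup.mk' N)) : Set (G ⧸ N)) :=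
    Subgroup.le_normalizer_map _ (Subgroup.mem_map_of_mem _ hn)
  have hh' : QuotientGroup.mk' N (h : G) ∈
      Subgroup.normalizer (((P' : Subgroup G).map (QuotientGroup.mk' N)) : Set (G ⧸ N)) :=
    Subgroup.le_normalizer ((hJ _).2 h.2)
  simpa using mul_mem hm (inv_mem hh')

end Cfsg.Agent.S3984
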