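import Cfsg.Statements.S3985
import Cfsg.Agent.Lib.SchurExt.TI
-- import your own Cfsg.Agent.* helpers here

set_option autoImplicit false
open scoped Pointwise
open Cfsg

namespace Cfsg.Agent.S3985


/-- Let P be a cyclic Sylow p-subgroup of the finite group G. Then P meets each conjugate g P g⁻¹ with g outside N_G(P) trivially if and only if P is weakly self-centralizing: C_G(x) = C_G(P) for every non-identity x ∈ P. -/
theorem result {G : Type*} [Group G] [Finite G] (p : ℕ) [Fact p.Prime] (P : Sylow p G) (hcyc : IsCyclic ↥(P : Subgroup G)) : (∀ g : G, g ∉ Subgroup.normalizer ((P : Subgroup G) : Set G) → (P : Subgroup G) ⊓ (MulAut.conj g • (P : Subgroup G)) = ⊥) ↔ ∀ x : G, x ∈ (P : Subgroup G) → x ≠ 1 → Subgroup.centralizer ({x} : Set G) = Subgroup.centralizer ((P : Subgroup G) : Set G) := by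
  have hp := (Fact.out : p.Prime)
  obtain ⟨⟨z, hzP⟩, hz⟩ := hcyc.exists_zpow_surjective
  have hzgen : ∀ u ∈ (P : Subgroup G), ∃ i : ℤ, z ^ i = u := fun u hu => by
    obtain ⟨i, hi⟩ := hz ⟨u, hu⟩
    exact ⟨i, congrArg Subtype.val hi⟩
  have hab : ∀ u ∈ (P : Subgroup G), ∀ v ∈ (P : Subgroup G), Commute u v := fun u hu v hv => by
    obtain ⟨i, rfl⟩ := hzgen u hu
    obtain ⟨j, rfl⟩ := hzgen v hv
    exact (Commute.refl z).zpow_zpow i j
  constructor
  · intro hTI x hxP hx
    refine le_antisymm (fun g hg => ?_) (Subgroup.centralizer_le (Set.singleton_subset_iff.2 hxP))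
    have hgx : Commute g x := Subgroup.mem_centralizer_singleton_iff.1 hg
    have hgN : g ∈ Subgroup.normalizer ((P : Subgroup G) : Set G) :=
      CfsgLib.SchurExt.sylow_ti_elem P hTI P hx hxP (by
        rw [mul_assoc, ← hgx.eq, inv_mul_cancel_left]; exact hxP)
    obtain ⟨a, b, habeq, ⟨e, he⟩, hb⟩ :=
      CfsgLib.NormalPComplement.exists_pParts (p := p) (isOfFinOrder_of_finite g)
    have hgb := Subgroup.pow_mem _ hgN b
    have haP : g ^ a ∈ (P : Subgroup G) := by
      obtain ⟨i, -, hi⟩ := (Nat.dvd_prime_pow hp).1 he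
      have hsup : IsPGroup p ↥((P : Subgroup G) ⊔ Subgroup.zpowers (g ^ a)) :=
        IsPGroup.to_sup_of_normal_left' P.isPGroup' (IsPGroup.of_card (by rw [Nat.card_zpowers, hi]))
          (Subgroup.zpowers_le.2 (Subgroup.pow_mem _ hgN a))
      exact (P.is_maximal' hsup le_sup_left).le (Subgroup.mem_sup_right (Subgroup.mem_zpowers _))
    have hbz : g ^ b * z = z * g ^ b := by
      obtain ⟨k, hk⟩ := hzgen _ ((Subgroup.mem_normalizer_iff.1 hgb z).1 hzP)
      obtain ⟨n, hn⟩ := IsPGroup.iff_orderOf.1 P.isPGroup' ⟨z, hzP⟩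
      rw [Subgroup.orderOf_mk] at hn
      refine CfsgLib.SchurExt.commute_of_conj_eq_zpow hk.symm ?_ hn.dvd hb
      obtain ⟨i, rfl⟩ := hzgen x hxP
      have h1 : (z ^ i) ^ k = z ^ i := by
        rw [← zpow_mul, mul_comm, zpow_mul, hk, conj_zpow]
        exact mul_inv_eq_iff_eq_mul.2 (hgx.pow_left b).eq
      have h2 : ((orderOf (z ^ i) : ℕ) : ℤ) ∣ k - 1 :=
        orderOf_dvd_iff_zpow_eq_one.2 (by rw [zpow_sub, h1, zpow_one, mul_inv_cancel])
      obtain ⟨j, hj⟩ := IsPGroup.iff_orderOf.1 P.isPGroup' ⟨z ^ i, hxP⟩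
      rw [Subgroup.orderOf_mk] at hj
      refine (Int.natCast_dvd_natCast.2 ?_).trans h2
      rw [hj]
      exact dvd_pow_self p fun h0 => hx (orderOf_eq_one_iff.1 (by rw [hj, h0, pow_zero]))
    rw [← habeq]
    refine mul_mem ?_ ?_
    · exact Subgroup.mem_centralizer_iff.2 fun u hu => (hab u hu _ haP).eq
    · refine Subgroup.mem_centralizer_iff.2 fun u hu => ?_
      obtain ⟨i, rfl⟩ := hzgen u hu
      exact ((show Commute (g ^ b) z from hbz).zpow_right i).eq.symm
  · intro h g hg
    by_contra hne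
    obtain ⟨x, hx, hx1⟩ := ((Subgroup.bot_or_exists_ne_one _).resolve_left hne)
    have hxg := CfsgLib.SchurExt.mem_conj_smul.1 hx.2
    have hy1 : g⁻¹ * x * g ≠ 1 := fun h0 => hx1 (by
      have := congrArg (fun t => g * t * g⁻¹) h0
      simpa [mul_assoc] using this)
    have key : ∀ u ∈ (P : Subgroup G), g * u * g⁻¹ ∈ Subgroup.centralizer ((P : Subgroup G) : Set G) := by
      intro u hu
      rw [← h x hx.1 hx1]
      refine Subgroup.mem_centralizer_singleton_iff.2 ?_
      have h5 : u * (g⁻¹ * x * g) = (g⁻¹ * x * g) * u := (hab u hu _ hxg).eq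
      simpa [mul_assoc] using congrArg (fun t => g * t * g⁻¹) h5
    have hsup : IsPGroup p ↥((P : Subgroup G) ⊔ (P : Subgroup G).map (MulAut.conj g).toMonoidHom) := by
      refine IsPGroup.to_sup_of_normal_left' P.isPGroup' (P.isPGroup'.map _) ?_
      rintro _ ⟨u, hu, rfl⟩
      exact Subgroup.centralizer_le_normalizer _ (key u hu)
    have heq := P.is_maximal' hsup le_sup_left
    refine hg ?_
    have hmap : (P : Subgroup G).map (MulAut.conj g).toMonoidHom = (P : Subgroup G) :=
      Subgroup.eq_of_le_of_card_ge (le_sup_right.trans heq.le)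
        (Subgroup.card_map_of_injective (MulAut.conj g).injective).ge
    refine Subgroup.mem_normalizer_iff.2 fun u => ?_
    conv_rhs => rw [← hmap]
    exact (Subgroup.mem_map_iff_mem (f := (MulAut.conj g).toMonoidHom) (MulAut.conj g).injective).symm

end Cfsg.Agent.S3985
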