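import Cfsg.Statements.S3986
import Cfsg.Agent.Lib.SchurExt.Elementary
-- import your own Cfsg.Agent.* helpers here

set_option autoImplicit false
open Cfsg

namespace Cfsg.Agent.S3986


/-- Let p be a prime and G a finite group. Then some Sylow p-subgroup of G is a direct factor of G (it is normal and has a normal complement) if and only if every element of p-power order commutes with every element whose order is a power of a prime other than p. -/
theorem result {G : Type*} [Group G] [Finite G] (p : ℕ) [Fact p.Prime] : (∃ (P : Sylow p G) (K : Subgroup G), (P : Subgroup G).Normal ∧ K.Normal ∧ (P : Subgroup G) ⊓ K = ⊥ ∧ (P : Subgroup G) ⊔ K = ⊤) ↔ ∀ x y : G, (∃ a : ℕ, orderOf x = p ^ a) → (∃ q b : ℕ, q.Prime ∧ q ≠ p ∧ orderOf y = q ^ b) → x * y = y * x := by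
  constructor
  · rintro ⟨P, K, hP, hK, hinf, hsup⟩ x y ⟨a, ha⟩ ⟨q, b, hq, hqp, hb⟩
    have hxP : x ∈ (P : Subgroup G) := CfsgLib.SchurExt.mem_sylow_of_normal P hP ha
    have hcomp : K.IsComplement' (P : Subgroup G) :=
      Subgroup.isComplement'_of_disjoint_and_mul_eq_univ (disjoint_iff.2 (by rwa [inf_comm]))
        (by rw [← Subgroup.normal_mul, sup_comm, hsup]; rfl)
    have hyK : y ∈ K := CfsgLib.SchurExt.mem_of_coprime_index K (by
      obtain ⟨n, hn⟩ := IsPGroup.iff_card.1 P.isPGroup'
      rw [hb, hcomp.symm.index_eq_card, hn]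
      exact ((Nat.coprime_primes hq Fact.out).2 hqp).pow b n)
    exact Subgroup.commute_of_normal_of_disjoint (P : Subgroup G) K hP hK (disjoint_iff.2 hinf) x y hxP hyK
  · intro h
    obtain ⟨P⟩ := (inferInstance : Nonempty (Sylow p G))
    have hpow : ∀ u ∈ (P : Subgroup G), ∃ a : ℕ, orderOf u = p ^ a := fun u hu => by
      obtain ⟨a, ha⟩ := IsPGroup.iff_orderOf.1 P.isPGroup' ⟨u, hu⟩
      exact ⟨a, by rwa [Subgroup.orderOf_mk] at ha⟩
    have hcop : ∀ g : G, (orderOf g).Coprime p → g ∈ Subgroup.centralizer ((P : Subgroup G) : Set G) := by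
      intro g hg
      refine CfsgLib.SchurExt.mem_of_forall_primePow _ fun q k hq y hy hyo => ?_
      rcases eq_or_ne q p with rfl | hqp
      · have : y = 1 := orderOf_eq_one_iff.1 (Nat.eq_one_of_dvd_coprimes (hg.pow_right k)
          ((Nat.card_zpowers g) ▸ Subgroup.orderOf_dvd_natCard (Subgroup.zpowers g) hy) (hyo ▸ dvd_rfl))
        rw [this]; exact one_mem _
      · exact Subgroup.mem_centralizer_iff.2 fun u hu => h u y (hpow u hu) ⟨q, k, hq, hqp, hyo⟩
    haveI hPn : (P : Subgroup G).Normal := by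
      rw [← Subgroup.normalizer_eq_top_iff]
      by_contra hne
      obtain ⟨r, hr, hrd⟩ := Nat.exists_prime_and_dvd (mt Subgroup.index_eq_one.1 hne)
      rcases eq_or_ne r p with rfl | hrp
      · exact P.not_dvd_index (hrd.trans (Subgroup.index_dvd_of_le Subgroup.le_normalizer))
      · haveI := Fact.mk hr
        obtain ⟨R⟩ := (inferInstance : Nonempty (Sylow r G))
        refine R.not_dvd_index (hrd.trans (Subgroup.index_dvd_of_le fun u hu => ?_))
        obtain ⟨j, hj⟩ := IsPGroup.iff_orderOf.1 R.isPGroup' ⟨u, hu⟩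
        rw [Subgroup.orderOf_mk] at hj
        exact Subgroup.centralizer_le_normalizer _
          (hcop u (hj ▸ ((Nat.coprime_primes hr Fact.out).2 hrp).pow_left j))
    obtain ⟨K, hK⟩ := Subgroup.exists_left_complement'_of_coprime (N := (P : Subgroup G)) P.card_coprime_index
    have hKc : K ≤ Subgroup.centralizer ((P : Subgroup G) : Set G) := fun u hu => hcop u (by
      refine Nat.Coprime.coprime_dvd_left (Subgroup.orderOf_dvd_natCard _ hu) ?_
      rw [← hK.index_eq_card]
      exact ((Fact.out : p.Prime).coprime_iff_not_dvd.2 P.not_dvd_index).symm)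
    refine ⟨P, K, hPn, ⟨fun u hu g => ?_⟩, disjoint_iff.1 hK.symm.disjoint, hK.symm.sup_eq_top⟩
    have := hK.equiv_fst_mul_equiv_snd g
    set v := (hK.equiv g).1
    set w := (hK.equiv g).2
    rw [← this]
    have hc := Subgroup.mem_centralizer_iff.1 (hKc hu) w w.2
    have he : (v : G) * w * u * ((v : G) * w)⁻¹ = v * u * (v : G)⁻¹ := by
      calc (v : G) * w * u * ((v : G) * w)⁻¹ = v * (w * u) * (w : G)⁻¹ * (v : G)⁻¹ := by group
        _ = v * u * (v : G)⁻¹ := by rw [hc]; group
    rw [he]
    exact mul_mem (mul_mem v.2 hu) (inv_mem v.2)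

end Cfsg.Agent.S3986
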