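import Cfsg.Statements.S3987
import Cfsg.Agent.S3986
-- import your own Cfsg.Agent.* helpers here

set_option autoImplicit false
open Cfsg

namespace Cfsg.Agent.S3987


/-- Let p be a prime and G a finite group. Then some Sylow p-subgroup of G is a direct factor of G (normal with a normal complement) if and only if for every element x of p-power order and every element y whose order is a power of a prime other than p, the conjugacy class of x y has as many elements as the product of the sizes of the classes of x and of y. -/
theorem result {G : Type*} [Group G] [Finite G] (p : ℕ) [Fact p.Prime] : (∃ (P : Sylow p G) (K : Subgroup G), (P : Subgroup G).Normal ∧ K.Normal ∧ (P : Subgroup G) ⊓ K = ⊥ ∧ (P : Subgroup G) ⊔ K = ⊤) ↔ ∀ x y : G, (∃ a : ℕ, orderOf x = p ^ a) → (∃ q b : ℕ, q.Prime ∧ q ≠ p ∧ orderOf y = q ^ b) → (Subgroup.centralizer ({x * y} : Set G)).index = (Subgroup.centralizer ({x} : Set G)).index * (Subgroup.centralizer ({y} : Set G)).index := by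
  constructor
  · rintro ⟨P, K, hP, hK, hinf, hsup⟩ x y ⟨a, ha⟩ ⟨q, b, hq, hqp, hb⟩
    have hxy : Commute x y := (Cfsg.Agent.S3986.result p).1 ⟨P, K, hP, hK, hinf, hsup⟩ x y ⟨a, ha⟩ ⟨q, b, hq, hqp, hb⟩
    have hcop : (orderOf x).Coprime (orderOf y) := by
      rw [ha, hb]; exact ((Nat.coprime_primes Fact.out hq).2 hqp.symm).pow a b
    have hcap : Subgroup.centralizer ({x * y} : Set G) =
        Subgroup.centralizer ({x} : Set G) ⊓ Subgroup.centralizer ({y} : Set G) := by
      refine le_antisymm (fun g hg => ?_) fun g hg => ?_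
      · have hgc : Commute g (x * y) := Subgroup.mem_centralizer_singleton_iff.1 hg
        obtain ⟨i, hi⟩ := Subgroup.mem_zpowers_iff.1 (CfsgLib.SchurExt.mem_zpowers_mul_of_coprime hxy hcop)
        obtain ⟨j, hj⟩ := Subgroup.mem_zpowers_iff.1 (CfsgLib.SchurExt.mem_zpowers_mul_of_coprime hxy.symm hcop.symm)
        rw [← hxy.eq] at hj
        exact ⟨Subgroup.mem_centralizer_singleton_iff.2 (hi ▸ (hgc.zpow_right i).eq),
          Subgroup.mem_centralizer_singleton_iff.2 (hj ▸ (hgc.zpow_right j).eq)⟩
      · refine Subgroup.mem_centralizer_singleton_iff.2 ?_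
        exact ((show Commute g x from Subgroup.mem_centralizer_singleton_iff.1 hg.1).mul_right
          (show Commute g y from Subgroup.mem_centralizer_singleton_iff.1 hg.2)).eq
    have hcomp : K.IsComplement' (P : Subgroup G) :=
      Subgroup.isComplement'_of_disjoint_and_mul_eq_univ (disjoint_iff.2 (by rwa [inf_comm]))
        (by rw [← Subgroup.normal_mul, sup_comm, hsup]; rfl)
    have hKidx : K.index = Nat.card (P : Subgroup G) := hcomp.symm.index_eq_card
    have hxP : x ∈ (P : Subgroup G) := CfsgLib.SchurExt.mem_sylow_of_normal P hP ha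
    have hyK : y ∈ K := CfsgLib.SchurExt.mem_of_coprime_index K (by
      obtain ⟨n, hn⟩ := IsPGroup.iff_card.1 P.isPGroup'
      rw [hb, hKidx, hn]
      exact ((Nat.coprime_primes hq Fact.out).2 hqp).pow b n)
    have hcm : ∀ u ∈ (P : Subgroup G), ∀ v ∈ K, u * v = v * u := fun u hu v hv =>
      Subgroup.commute_of_normal_of_disjoint (P : Subgroup G) K hP hK (disjoint_iff.2 hinf) u v hu hv
    have h1 : (Subgroup.centralizer ({x} : Set G)).index ∣ K.index := Subgroup.index_dvd_of_le fun v hv =>
      Subgroup.mem_centralizer_singleton_iff.2 (hcm x hxP v hv).symm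
    have h2 : (Subgroup.centralizer ({y} : Set G)).index ∣ (P : Subgroup G).index :=
      Subgroup.index_dvd_of_le fun u hu => Subgroup.mem_centralizer_singleton_iff.2 (hcm u hu y hyK)
    rw [hcap]
    refine le_antisymm Subgroup.index_inf_le ?_
    exact Nat.le_of_dvd (Nat.pos_of_ne_zero Subgroup.index_ne_zero_of_finite)
      (((hKidx ▸ P.card_coprime_index : K.index.Coprime _).coprime_dvd_left h1).coprime_dvd_right h2
        |>.mul_dvd_of_dvd_of_dvd (Subgroup.index_dvd_of_le inf_le_left) (Subgroup.index_dvd_of_le inf_le_right))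
  · intro h
    refine Cfsg.Agent.S3986.result p |>.2 fun x y hx hy => ?_
    have hle : Subgroup.centralizer ({x} : Set G) ⊓ Subgroup.centralizer ({y} : Set G) ≤
        Subgroup.centralizer ({x * y} : Set G) := fun g hg => by
      refine Subgroup.mem_centralizer_singleton_iff.2 ?_
      rw [← mul_assoc, Subgroup.mem_centralizer_singleton_iff.1 hg.1, mul_assoc,
        Subgroup.mem_centralizer_singleton_iff.1 hg.2, mul_assoc]
    have heq : Subgroup.centralizer ({x} : Set G) ⊓ Subgroup.centralizer ({y} : Set G) =
        Subgroup.centralizer ({x * y} : Set G) := by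
      have h1 := Subgroup.index_inf_le (H := Subgroup.centralizer ({x} : Set G))
        (K := Subgroup.centralizer ({y} : Set G))
      rw [← h x y hx hy] at h1
      refine Subgroup.eq_of_le_of_card_ge hle (Nat.le_of_mul_le_mul_right ?_ (Nat.pos_of_ne_zero
        (Subgroup.index_ne_zero_of_finite (H := Subgroup.centralizer ({x * y} : Set G)))))
      calc Nat.card (Subgroup.centralizer ({x * y} : Set G)) * (Subgroup.centralizer ({x * y} : Set G)).index
          = Nat.card G := Subgroup.card_mul_index _
        _ = Nat.card ↥(Subgroup.centralizer ({x} : Set G) ⊓ Subgroup.centralizer ({y} : Set G)) * _ :=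
            (Subgroup.card_mul_index _).symm
        _ ≤ _ := Nat.mul_le_mul_left _ h1
    have hmem : x * y ∈ Subgroup.centralizer ({x * y} : Set G) :=
      Subgroup.mem_centralizer_singleton_iff.2 rfl
    rw [← heq] at hmem
    have := Subgroup.mem_centralizer_singleton_iff.1 hmem.1
    rw [mul_assoc] at this
    exact (mul_left_cancel this).symm

end Cfsg.Agent.S3987
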