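import Cfsg.Statements.S3989
import Cfsg.Agent.Lib.NormalPComplement.Frobenius
import Cfsg.Agent.Lib.Supersolvable.Basic
-- import your own Cfsg.Agent.* helpers here

set_option autoImplicit false
open Cfsg

namespace Cfsg.Agent.S3989

universe u

open CfsgLib

/-- The product of the classes of a `p`-element and a `p'`-element of prime power order is their class. -/
def HasClassProducts (G : Type u) [Group G] (p : ℕ) : Prop :=
  ∀ x y : G, (∃ a : ℕ, orderOf x = p ^ a) → (∃ q b : ℕ, q.Prime ∧ q ≠ p ∧ orderOf y = q ^ b) →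
    ∀ z : G, IsConj (x * y) z ↔ ∃ a b : G, z = a * x * a⁻¹ * (b * y * b⁻¹)

variable {G : Type u} [Group G] [Finite G] {p : ℕ} [Fact p.Prime]

theorem exists_lift (N : Subgroup G) [N.Normal] {q : ℕ} [Fact q.Prime] (x : G ⧸ N) {k : ℕ}
    (hk : orderOf x = q ^ k) : ∃ g : G, (g : G ⧸ N) = x ∧ ∃ e : ℕ, orderOf g = q ^ e := by
  obtain ⟨g, rfl⟩ := QuotientGroup.mk'_surjective N x
  obtain ⟨a, b, hab, ⟨e, he⟩, hb⟩ := NormalPComplement.exists_pParts (p := q) (isOfFinOrder_of_finite g)
  obtain ⟨i, -, hi⟩ := (Nat.dvd_prime_pow Fact.out).1 he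
  refine ⟨g ^ a, ?_, i, hi⟩
  have h1 : ((g ^ b : G) : G ⧸ N) = 1 := orderOf_eq_one_iff.1 (Nat.eq_one_of_dvd_coprimes
    (hb.pow_right k) (orderOf_map_dvd (QuotientGroup.mk' N) (g ^ b))
    (hk ▸ (QuotientGroup.mk_pow N g b).symm ▸ orderOf_pow_dvd b))
  calc ((g ^ a : G) : G ⧸ N) = ((g ^ a : G) : G ⧸ N) * ((g ^ b : G) : G ⧸ N) := by rw [h1, mul_one]
    _ = _ := by rw [← QuotientGroup.mk_mul, hab]; rfl

theorem HasClassProducts.quotient (h : HasClassProducts G p) (N : Subgroup G) [N.Normal] :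
    HasClassProducts (G ⧸ N) p := by
  rintro x y ⟨a, ha⟩ ⟨q, b, hq, hqp, hb⟩ z
  haveI := Fact.mk hq
  obtain ⟨x₀, rfl, hx₀⟩ := exists_lift N x ha
  obtain ⟨y₀, rfl, i, hi⟩ := exists_lift N y hb
  have hxy := h x₀ y₀ hx₀ ⟨q, i, hq, hqp, hi⟩
  constructor
  · intro hc
    obtain ⟨c, rfl⟩ := isConj_iff.1 hc
    obtain ⟨c₀, rfl⟩ := QuotientGroup.mk'_surjective N c
    obtain ⟨u, v, huv⟩ := (hxy _).1 (isConj_iff.2 ⟨c₀, rfl⟩)
    exact ⟨u, v, congrArg (QuotientGroup.mk' N) huv⟩
  · rintro ⟨u, v, rfl⟩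
    obtain ⟨u₀, rfl⟩ := QuotientGroup.mk'_surjective N u
    obtain ⟨v₀, rfl⟩ := QuotientGroup.mk'_surjective N v
    exact (QuotientGroup.mk' N).map_isConj ((hxy _).2 ⟨u₀, v₀, rfl⟩)

omit [Fact p.Prime] in
theorem mem_of_forall_primePow (D : Subgroup G) {g : G}
    (h : ∀ q k : ℕ, q.Prime → ∀ y ∈ Subgroup.zpowers g, orderOf y = q ^ k → y ∈ D) : g ∈ D := by
  rw [← Subgroup.zpowers_le]
  have hdvd : orderOf g ∣ Nat.card ↥(Subgroup.zpowers g ⊓ D) := by
    refine (Nat.dvd_iff_prime_pow_dvd_dvd _ _).2 fun q k hq hk => ?_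
    obtain ⟨c, hc⟩ := hk
    have hy : orderOf (g ^ c) = q ^ k := by
      have hc0 : c ≠ 0 := fun h0 => (orderOf_pos g).ne' (by rw [hc, h0, mul_zero])
      rw [orderOf_pow' g hc0, hc, Nat.gcd_eq_right (dvd_mul_left _ _),
        Nat.mul_div_cancel _ (Nat.pos_of_ne_zero hc0)]
    exact hy ▸ Subgroup.orderOf_dvd_natCard (Subgroup.zpowers g ⊓ D) ⟨Subgroup.pow_mem _ (Subgroup.mem_zpowers g) _,
      h q k hq _ (Subgroup.pow_mem _ (Subgroup.mem_zpowers g) _) hy⟩
  have heq : Subgroup.zpowers g ⊓ D = Subgroup.zpowers g :=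
    Subgroup.eq_of_le_of_card_ge inf_le_left
      (by rw [Nat.card_zpowers]; exact Nat.le_of_dvd Nat.card_pos hdvd)
  exact heq ▸ inf_le_right

omit [Finite G] [Fact p.Prime] in
theorem isPSolvable_of_normal (M : Subgroup G) [M.Normal]
    (hM : (∃ m : ℕ, Nat.card M = p ^ m) ∨ (Nat.card M).Coprime p)
    (h : Cfsg.IsPSolvable p (G ⧸ M)) : Cfsg.IsPSolvable p G := by
  obtain ⟨n, C, h0, h1, hmono, hn, hs⟩ := h
  refine ⟨n + 1, Fin.cons ⊥ fun i => (C i).comap (QuotientGroup.mk' M), rfl, ?_, ?_, ?_, ?_⟩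
  · rw [← Fin.succ_last, Fin.cons_succ, h1, Subgroup.comap_top]
  · intro i j hij
    induction i using Fin.cases with
    | zero => rw [Fin.cons_zero]; exact bot_le
    | succ i =>
      induction j using Fin.cases with
      | zero => exact absurd (Fin.le_zero_iff.1 hij) (Fin.succ_ne_zero i)
      | succ j =>
        rw [Fin.cons_succ, Fin.cons_succ]
        exact Subgroup.comap_mono (hmono (Fin.succ_le_succ_iff.1 hij))
  · intro i
    induction i using Fin.cases with
    | zero => rw [Fin.cons_zero]; infer_instance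
    | succ i => rw [Fin.cons_succ]; exact (hn i).comap _
  · intro i
    induction i using Fin.cases with
    | zero =>
      rw [Fin.cons_succ, Fin.castSucc_zero, Fin.cons_zero, h0, MonoidHom.comap_bot,
        QuotientGroup.ker_mk', Subgroup.relIndex_bot_left]
      exact hM
    | succ i =>
      rw [← Fin.succ_castSucc, Fin.cons_succ, Fin.cons_succ, Subgroup.relIndex_comap,
        Subgroup.map_comap_eq_self_of_surjective (QuotientGroup.mk'_surjective M)]
      exact hs i

omit [Finite G] [Fact p.Prime] in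
theorem isPSolvable_of_subsingleton [Subsingleton G] : Cfsg.IsPSolvable p G :=
  ⟨0, fun _ => ⊥, rfl, Subsingleton.elim _ _, monotone_const, fun _ => inferInstance, fun i => i.elim0⟩

omit [Fact p.Prime] in
theorem no_pair (h : HasClassProducts G p) {M : Subgroup G} [M.Normal]
    (hmin : ∀ N : Subgroup G, N.Normal → N ≤ M → N ≠ ⊥ → N = M)
    {x y a : G} (hxM : x ∈ M) (hyM : y ∈ M) (hx : x = a * y * a⁻¹ * y⁻¹)
    (hxp : ∃ i : ℕ, orderOf x = p ^ i) (hyq : ∃ q k : ℕ, q.Prime ∧ q ≠ p ∧ orderOf y = q ^ k) :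
    x = 1 := by
  by_contra hx1
  have hbase : IsConj (x * y) y := isConj_iff.2 ⟨a⁻¹, by rw [hx]; group⟩
  have hstep : ∀ u b : G, IsConj y (u * x * u⁻¹ * (b * y * b⁻¹)) := fun u b =>
    hbase.symm.trans ((h x y hxp hyq _).2 ⟨u, b, rfl⟩)
  let S : Subgroup G :=
    { carrier := {m : G | ∀ z, IsConj y z ↔ IsConj y (m * z)}
      one_mem' := fun z => by rw [one_mul]
      mul_mem' := fun {m m'} hm hm' z => by rw [mul_assoc, ← hm, ← hm']
      inv_mem' := fun {m} hm z => by rw [hm (m⁻¹ * z), mul_inv_cancel_left] }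
  have hxS : ∀ u : G, u * x * u⁻¹ ∈ S := by
    intro u
    have hfwd : ∀ z, IsConj y z → IsConj y (u * x * u⁻¹ * z) := fun z hz => by
      obtain ⟨b, rfl⟩ := isConj_iff.1 hz
      exact hstep u b
    intro z
    refine ⟨hfwd z, fun hz => ?_⟩
    have hpow : ∀ (k : ℕ) (w : G), IsConj y w → IsConj y ((u * x * u⁻¹) ^ k * w) := by
      intro k
      induction k with
      | zero => intro w hw; rwa [pow_zero, one_mul]
      | succ k ih => intro w hw; rw [pow_succ, mul_assoc]; exact ih _ (hfwd w hw)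
    have h2 := hpow (orderOf x - 1) _ hz
    rw [← mul_assoc, ← pow_succ, Nat.sub_add_cancel (orderOf_pos x), conj_pow,
      pow_orderOf_eq_one, mul_one, mul_inv_cancel, one_mul] at h2
    exact h2
  have hle : M ≤ S := by
    rw [← hmin (Subgroup.normalClosure {x}) inferInstance
      (Subgroup.normalClosure_le_normal (Set.singleton_subset_iff.2 hxM))
      (fun hb => hx1 (Subgroup.mem_bot.1 (hb ▸ Subgroup.subset_normalClosure (Set.mem_singleton x))))]
    rw [Subgroup.normalClosure, Subgroup.closure_le]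
    intro m hm
    obtain ⟨w, hw, hc⟩ := Group.mem_conjugatesOfSet_iff.1 hm
    rw [Set.mem_singleton_iff] at hw
    subst hw
    obtain ⟨u, rfl⟩ := isConj_iff.1 hc
    exact hxS u
  have h1 := (hle (M.inv_mem hyM) y).1 (IsConj.refl y)
  rw [inv_mul_cancel, isConj_one_left] at h1
  exact hx1 (by rw [hx, h1]; group)

theorem isPSolvable_of_hasClassProducts (h : HasClassProducts G p) : Cfsg.IsPSolvable p G := by
  induction hn : Nat.card G using Nat.strong_induction_on generalizing G with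
  | _ n IH =>
    subst hn
    rcases subsingleton_or_nontrivial G with h1 | h1
    · exact isPSolvable_of_subsingleton
    obtain ⟨M, ⟨hMn, hMne⟩, hmin'⟩ := Set.Finite.exists_minimal
      (s := {N : Subgroup G | N.Normal ∧ N ≠ ⊥}) (Set.toFinite _) ⟨⊤, inferInstance, top_ne_bot⟩
    haveI := hMn
    have hmin : ∀ N : Subgroup G, N.Normal → N ≤ M → N ≠ ⊥ → N = M := fun N hN hle hne =>
      le_antisymm hle (hmin' ⟨hN, hne⟩ hle)
    have hfrob : NormalPComplement.FrobeniusCondition p M := by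
      intro Q hQ g hg hcop
      refine mem_of_forall_primePow _ fun q k hq y hy hyo => ?_
      refine Subgroup.mem_centralizer_iff.2 fun a ha => ?_
      rcases eq_or_ne q p with rfl | hqp
      · have : y = 1 := orderOf_eq_one_iff.1 (Nat.eq_one_of_dvd_coprimes (hcop.pow_right k)
          ((Nat.card_zpowers g) ▸ Subgroup.orderOf_dvd_natCard (Subgroup.zpowers g) hy) (hyo ▸ dvd_rfl))
        rw [this, mul_one, one_mul]
      have hyN : y ∈ Subgroup.normalizer (Q : Set M) := Subgroup.zpowers_le.2 hg hy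
      have hxQ : a * y * a⁻¹ * y⁻¹ ∈ Q := by
        have := (Subgroup.mem_normalizer_iff.1 hyN a⁻¹).1 (Q.inv_mem ha)
        simpa [mul_assoc] using Q.mul_mem ha this
      obtain ⟨i, hi⟩ := IsPGroup.iff_orderOf.1 hQ ⟨_, hxQ⟩
      have hone := no_pair h hmin (x := ((a * y * a⁻¹ * y⁻¹ : M) : G)) (y := (y : G)) (a := (a : G))
        (SetLike.coe_mem _) y.2 (by simp) ⟨i, by
          rw [Subgroup.orderOf_coe]; rwa [Subgroup.orderOf_mk] at hi⟩
        ⟨q, k, hq, hqp, by rw [Subgroup.orderOf_coe, hyo]⟩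
      have h2 : a * y * a⁻¹ * y⁻¹ = 1 := Subtype.ext hone
      calc a * y = (a * y * a⁻¹ * y⁻¹) * (y * a) := by group
        _ = _ := by rw [h2, one_mul]
    have hc : Cfsg.HasNormalPComplement p M :=
      NormalPComplement.hasNormalPComplement_of_frobeniusCondition hfrob
    haveI : ((Cfsg.pPrimeCore p M).map M.subtype).Normal :=
      ConjAct.normal_of_characteristic_of_normal
    refine isPSolvable_of_normal M ?_
      (IH _ (Supersolvable.card_quotient_lt M hMne) (h.quotient M) rfl)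
    by_cases hb : (Cfsg.pPrimeCore p M).map M.subtype = ⊥
    · refine Or.inl (IsPGroup.iff_card.1 ?_)
      rw [Subgroup.map_eq_bot_iff_of_injective _ M.subtype_injective] at hb
      have := (NormalPComplement.hasNormalPComplement_iff_isPGroup_quotient.1 hc)
      refine this.of_injective (QuotientGroup.mk' (Cfsg.pPrimeCore p M)) fun u v huv => ?_
      have := QuotientGroup.eq.1 huv
      rw [hb, Subgroup.mem_bot, inv_mul_eq_one] at this
      exact this
    · refine Or.inr ?_
      have := hmin _ inferInstance (Subgroup.map_subtype_le _) hb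
      rw [← this, Subgroup.card_map_of_injective M.subtype_injective]
      exact Cores.card_pPrimeCore_coprime p


/-- Let p be a prime and G a finite group such that for every element x of p-power order and every element y whose order is a power of a prime other than p, the conjugacy class of x y is the set of all products of a conjugate of x with a conjugate of y. Then G is p-solvable. -/
theorem result {G : Type*} [Group G] [Finite G] (p : ℕ) [Fact p.Prime] (h : ∀ x y : G, (∃ a : ℕ, orderOf x = p ^ a) → (∃ q b : ℕ, q.Prime ∧ q ≠ p ∧ orderOf y = q ^ b) → ∀ z : G, IsConj (x * y) z ↔ ∃ a b : G, z = a * x * a⁻¹ * (b * y * b⁻¹)) : Cfsg.IsPSolvable p G := by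
  exact isPSolvable_of_hasClassProducts h

end Cfsg.Agent.S3989
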