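import Cfsg.Statements.S4010
import Cfsg.Agent.Lib.SchurExt.LinearDerived
-- import your own Cfsg.Agent.* helpers here

set_option autoImplicit false
open Cfsg

namespace Cfsg.Agent.S4010


/-- Let F be a field, n ≥ 1, and P a finite p-group (p a prime) admitting an injective homomorphism into the general linear group of degree n over F. Then the derived length of P is at most ⌊log₂ n⌋ + 1: that term of the derived series of P is trivial. -/
theorem result {P : Type*} [Group P] [Finite P] (p : ℕ) [Fact p.Prime] (hP : IsPGroup p P) (F : Type*) [Field F] (n : ℕ) (hn : 1 ≤ n) (ρ : P →* Matrix.GeneralLinearGroup (Fin n) F) (hρ : Function.Injective ρ) : derivedSeries P (Nat.log 2 n + 1) = ⊥ := by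
  let K := AlgebraicClosure F
  let σ : Matrix.GeneralLinearGroup (Fin n) F →* Module.End K (Fin n → K) :=
    (Matrix.toLinAlgEquiv' (R := K) (n := Fin n)).toMulEquiv.toMonoidHom.comp
      (((algebraMap F K).mapMatrix : Matrix (Fin n) (Fin n) F →+* Matrix (Fin n) (Fin n) K).toMonoidHom.comp
        (Units.coeHom _))
  have hσ : Function.Injective σ := fun a b h => by
    have h1 := (Matrix.toLinAlgEquiv' (R := K) (n := Fin n)).injective h
    exact Units.ext (Matrix.map_injective (algebraMap F K).injective h1)
  let τ := (σ.comp ρ).toHomUnits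
  have hτ : Function.Injective τ := fun a b h => hρ (hσ (congrArg Units.val h :))
  let e := MonoidHom.ofInjective hτ
  haveI : Finite τ.range := Finite.of_equiv P e.toEquiv
  have hR : IsPGroup p τ.range := hP.of_equiv e
  suffices derivedSeries τ.range (Nat.log 2 n + 1) = ⊥ by
    have h1 := map_derivedSeries_le_derivedSeries e.toMonoidHom (Nat.log 2 n + 1)
    rw [this, le_bot_iff] at h1
    exact (Subgroup.map_eq_bot_iff_of_injective _ (f := e.toMonoidHom) e.injective).1 h1
  rw [eq_bot_iff]
  intro g hg
  rw [Subgroup.mem_bot]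
  refine Subtype.ext (Units.ext ?_)
  let σ' : τ.range →* Module.End K (Fin n → K) := (Units.coeHom _).comp τ.range.subtype
  have hn' : Module.finrank K (Fin n → K) = n := Module.finrank_fin_fun K
  show σ' g = 1
  by_cases hpK : ((p : ℕ) : K) = 0
  · haveI : CharP K p := by
      obtain ⟨q, hq⟩ := CharP.exists K
      have h1 : q ∣ p := (CharP.cast_eq_zero_iff K q p).1 hpK
      rcases (Nat.dvd_prime Fact.out).1 h1 with rfl | rfl
      · exact absurd (Nat.cast_one.symm.trans ((CharP.cast_eq_zero_iff K 1 1).2 dvd_rfl) : (1 : K) = 0) one_ne_zero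
      · exact hq
    exact CfsgLib.SchurExt.derived_trivial_charP hR _
      (hn'.le.trans (Nat.lt_pow_succ_log_self one_lt_two n).le) σ' g hg
  · exact CfsgLib.SchurExt.derived_trivial_coprime hpK _ n hn'.le (Nat.lt_pow_succ_log_self one_lt_two n) hR σ' g hg

end Cfsg.Agent.S4010
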