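import Cfsg.Statements.S4013
import Cfsg.Agent.Lib.ElementOrders.Frobenius
-- import your own Cfsg.Agent.* helpers here

set_option autoImplicit false
open Cfsg

namespace Cfsg.Agent.S4013


/-- Let G be a finite p-group (p prime) and N < M normal subgroups of G such that for some g ∈ M ∖ N the conjugacy class of g is exactly M ∖ N. Then p = 2 and N has index 2 in M. -/
theorem result {G : Type*} [Group G] [Finite G] (p : ℕ) [Fact p.Prime] (hG : IsPGroup p G) (N M : Subgroup G) [N.Normal] [M.Normal] (hNM : N < M) (g : G) (hgM : g ∈ M) (hgN : g ∉ N) (hcl : {h : G | IsConj g h} = (M : Set G) \ (N : Set G)) : p = 2 ∧ N.relIndex M = 2 := by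
  obtain ⟨a, ha⟩ := IsPGroup.iff_card.1 hG
  obtain ⟨b, -, hb⟩ := (Nat.dvd_prime_pow Fact.out).1 (ha ▸ N.card_subgroup_dvd_card)
  obtain ⟨j, hj⟩ := IsPGroup.iff_card.1 ((hG.to_subgroup M).to_quotient (N.subgroupOf M))
  have hrel : N.relIndex M = p ^ j := by rw [Subgroup.relIndex, Subgroup.index_eq_card, hj]
  obtain ⟨c, -, hc⟩ := (Nat.dvd_prime_pow Fact.out).1
    (ha ▸ (Subgroup.centralizer ({g} : Set G)).index_dvd_card)
  have hclass : Nat.card {h : G | IsConj g h} = p ^ c := by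
    rw [← hc]
    have h1 := CfsgLib.ElementOrders.ncard_conj_class_mul_card_centralizer g
    have h2 := (Subgroup.centralizer ({g} : Set G)).index_mul_card
    rw [← h2] at h1
    rw [← Nat.eq_of_mul_eq_mul_right Nat.card_pos h1, ← Nat.card_coe_set_eq]
    exact Nat.card_congr (Equiv.subtypeEquivRight fun h => by
      rw [ConjClasses.mem_carrier_iff_mk_eq, ConjClasses.mk_eq_mk_iff_isConj]
      exact ⟨IsConj.symm, IsConj.symm⟩)
  have hdiff : Nat.card {h : G | IsConj g h} = Nat.card M - Nat.card N := by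
    rw [hcl, Nat.card_coe_set_eq, Set.ncard_sdiff hNM.le, ← Nat.card_coe_set_eq, ← Nat.card_coe_set_eq]
    rfl
  have hM : Nat.card N * p ^ j = Nat.card M := hrel ▸ Nat.card_congr (Subgroup.subgroupOfEquivOfLe hNM.le).toEquiv ▸ (N.subgroupOf M).card_mul_index
  have hkey : p ^ b * (p ^ j - 1) = p ^ c := by
    rw [← hclass, hdiff, ← hM, hb, Nat.mul_sub, mul_one]
  have hp := (Fact.out : p.Prime)
  have hj1 : 1 ≤ j := by
    by_contra h0
    rw [not_le, Nat.lt_one_iff] at h0
    rw [h0, pow_zero, Nat.sub_self, mul_zero] at hkey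
    exact (pow_pos hp.pos c).ne hkey
  obtain ⟨i, -, hi⟩ := (Nat.dvd_prime_pow hp).1 (Dvd.intro_left _ hkey)
  have hge : 1 ≤ p ^ j := Nat.one_le_pow _ _ hp.pos
  rcases i.eq_zero_or_pos with rfl | hipos
  · have h2 : p ^ j = 2 := by rw [pow_zero] at hi; omega
    obtain ⟨hp2, hj2⟩ : p = 2 ∧ j = 1 := (Nat.prime_two.pow_eq_iff).1 h2
    exact ⟨hp2, by rw [hrel, h2]⟩
  · have d1 : p ∣ p ^ j - 1 := hi ▸ dvd_pow_self p hipos.ne'
    have d2 : p ∣ p ^ j := dvd_pow_self p (by omega)
    have := Nat.dvd_sub d2 d1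
    rw [Nat.sub_sub_self hge] at this
    exact absurd (Nat.dvd_one.1 this) hp.ne_one

end Cfsg.Agent.S4013
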