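import Cfsg.Statements.S4014
import Mathlib
-- import your own Cfsg.Agent.* helpers here

set_option autoImplicit false
open Cfsg

namespace Cfsg.Agent.S4014

open scoped commutatorElement

private theorem upper {p : ℕ} [hp : Fact p.Prime] : ∀ (k : ℕ) {Q : Type} [Group Q] [Finite Q], IsPGroup p Q →
    ∀ H : Subgroup Q, H.index ∣ p ^ k → derivedSeries Q k ≤ H := by
  intro k
  induction k with
  | zero =>
    intro Q _ _ _ H hH
    rw [pow_zero, Nat.dvd_one, Subgroup.index_eq_one] at hH
    exact hH.symm ▸ le_top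
  | succ k ih =>
    intro Q _ _ hQ H hH
    by_cases htop : H = ⊤
    · exact htop.symm ▸ le_top
    obtain ⟨M, hM, hHM⟩ := (eq_top_or_exists_le_coatom H).resolve_left htop
    haveI := hQ.isNilpotent
    haveI hMn : M.Normal := Subgroup.NormalizerCondition.normal_of_coatom M Group.normalizerCondition_of_isNilpotent hM
    obtain ⟨j, hj⟩ := hQ.index M
    have hj0 : j ≠ 0 := fun h => hM.1 (Subgroup.index_eq_one.1 (by rw [hj, h, pow_zero]))
    have hidx : M.index = p := by
      obtain ⟨i, hi⟩ := IsPGroup.iff_card.1 hQ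
      obtain ⟨m, hm⟩ := IsPGroup.iff_card.1 (hQ.to_subgroup M)
      have h := M.card_mul_index
      rw [hm, hj, hi, ← pow_add] at h
      have hmi : m < i := by have := Nat.pow_right_injective hp.out.two_le h; omega
      obtain ⟨K, hK, hMK⟩ := Sylow.exists_subgroup_card_pow_succ (n := m) (G := Q)
        (hi ▸ pow_dvd_pow p hmi) hm
      have hne : M < K := lt_of_le_of_ne hMK fun e => absurd
        (Nat.pow_right_injective hp.out.two_le (hm.symm.trans (e ▸ hK))) (by omega)
      rw [hM.2 K hne, Subgroup.card_top, hi] at hK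
      have hij := Nat.pow_right_injective hp.out.two_le hK
      have := Nat.pow_right_injective hp.out.two_le h
      rw [hj, show j = 1 by omega, pow_one]
    have hcomm : commutator Q ≤ M := by
      haveI : IsCyclic (Q ⧸ M) := isCyclic_of_prime_card (p := p) (by rw [← Subgroup.index_eq_card, hidx])
      rw [commutator_def, Subgroup.commutator_le]
      intro x _ y _
      rw [← QuotientGroup.eq_one_iff]
      show QuotientGroup.mk' M ⁅x, y⁆ = 1
      rw [map_commutatorElement, commutatorElement_eq_one_iff_commute]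
      letI := IsCyclic.commGroup (α := Q ⧸ M)
      exact mul_comm _ _
    have hle : ∀ i, derivedSeries Q (i + 1) ≤ (derivedSeries M i).map M.subtype := by
      intro i
      induction i with
      | zero =>
        rw [derivedSeries_one, derivedSeries_zero, ← MonoidHom.range_eq_map, Subgroup.range_subtype]
        exact hcomm
      | succ i ihi =>
        rw [derivedSeries_succ Q (i + 1), derivedSeries_succ M i, Subgroup.map_commutator]
        exact Subgroup.commutator_mono ihi ihi
    refine (hle k).trans ?_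
    rw [Subgroup.map_le_iff_le_comap]
    refine ih (hQ.to_subgroup M) (H.comap M.subtype) ?_
    have h1 : (H.subgroupOf M).index * M.index = H.index := Subgroup.relIndex_mul_index hHM
    rw [hidx] at h1
    rw [← h1, pow_succ] at hH
    exact (Nat.mul_dvd_mul_iff_right hp.out.pos).1 hH

private theorem wreath_lift {D C : Type} [Group D] [Group C] {c : C} (hc : c ≠ 1) : ∀ (j : ℕ), ∀ d ∈ derivedSeries D j,
    ∃ x ∈ derivedSeries (D ≀ᵣ C) (j + 1), x.right = 1 ∧ x.left 1 = d := by
  classical
  intro j
  induction j with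
  | zero =>
    intro d _
    let w : D ≀ᵣ C := ⟨Pi.mulSingle 1 d, 1⟩
    refine ⟨⁅w, RegularWreathProduct.inl c⁆, ?_, ?_, ?_⟩
    · rw [derivedSeries_one, commutator_def]
      exact Subgroup.commutator_mem_commutator (Subgroup.mem_top _) (Subgroup.mem_top _)
    · simp [commutatorElement_def, w]
    · simp [commutatorElement_def, w, hc]
  | succ j ih =>
    let N : Subgroup (D ≀ᵣ C) := RegularWreathProduct.rightHom.ker
    let ev : N →* D := MonoidHom.mk' (fun x => (x : D ≀ᵣ C).left 1) fun x y => by
      have hx : (x : D ≀ᵣ C).right = 1 := x.2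
      simp [hx]
    let A := (derivedSeries (D ≀ᵣ C) (j + 1)).subgroupOf N
    have h1 : derivedSeries D j ≤ A.map ev := fun d hd => by
      obtain ⟨x, hx, hxr, hxl⟩ := ih d hd
      exact ⟨⟨x, hxr⟩, hx, hxl⟩
    have h2 : ⁅A, A⁆ ≤ (derivedSeries (D ≀ᵣ C) (j + 1 + 1)).subgroupOf N := by
      rw [derivedSeries_succ _ (j + 1)]
      refine Subgroup.commutator_le.2 fun a ha b hb => ?_
      rw [Subgroup.mem_subgroupOf, show ((⁅a, b⁆ : N) : D ≀ᵣ C) = ⁅(a : D ≀ᵣ C), (b : D ≀ᵣ C)⁆ from map_commutatorElement N.subtype a b]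
      exact Subgroup.commutator_mem_commutator ha hb
    intro d hd
    rw [derivedSeries_succ] at hd
    have h3 := Subgroup.commutator_mono h1 h1 hd
    rw [← Subgroup.map_commutator] at h3
    obtain ⟨x, hx, rfl⟩ := h3
    exact ⟨x, h2 hx, x.2, rfl⟩

private theorem iter_ne_bot (C : Type) [Group C] [Finite C] [Nontrivial C] : ∀ k : ℕ,
    derivedSeries (IteratedWreathProduct C (k + 1)) k ≠ ⊥ := by
  intro k
  induction k with
  | zero =>
    obtain ⟨c, hc⟩ := exists_ne (1 : C)
    intro h
    have h1 : (RegularWreathProduct.inl c : IteratedWreathProduct C 0 ≀ᵣ C) ∈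
        derivedSeries (IteratedWreathProduct C 0 ≀ᵣ C) 0 := Subgroup.mem_top _
    rw [show derivedSeries (IteratedWreathProduct C 0 ≀ᵣ C) 0 = ⊥ from h, Subgroup.mem_bot] at h1
    exact hc (congrArg RegularWreathProduct.right h1)
  | succ k ih =>
    obtain ⟨c, hc⟩ := exists_ne (1 : C)
    obtain ⟨d, hd, hd1⟩ := (Subgroup.bot_or_exists_ne_one _).resolve_left ih
    obtain ⟨x, hx, -, hxd⟩ := wreath_lift (D := IteratedWreathProduct C (k + 1)) hc k d hd
    intro h
    rw [show derivedSeries (IteratedWreathProduct C (k + 1) ≀ᵣ C) (k + 1) = ⊥ from h, Subgroup.mem_bot] at hx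
    exact hd1 (by rw [← hxd, hx]; rfl)

/-- Let p be a prime, n ≥ 1, and P a Sylow p-subgroup of the symmetric group on n letters. Then the derived length of P is exactly k = ⌊log_p n⌋ (the largest k with p^k ≤ n): the k-th derived subgroup of P is trivial and, when k ≥ 1, the (k−1)-st is not. -/
theorem result (p : ℕ) [Fact p.Prime] (n : ℕ) (hn : 1 ≤ n) (P : Sylow p (Equiv.Perm (Fin n))) : derivedSeries ↥(P : Subgroup (Equiv.Perm (Fin n))) (Nat.log p n) = ⊥ ∧ (1 ≤ Nat.log p n → derivedSeries ↥(P : Subgroup (Equiv.Perm (Fin n))) (Nat.log p n - 1) ≠ ⊥) := by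
  have hp : p.Prime := Fact.out
  refine ⟨?_, fun hk => ?_⟩
  · rw [eq_bot_iff]
    intro g hg
    rw [Subgroup.mem_bot]
    refine Subtype.ext (Equiv.ext fun ω => ?_)
    obtain ⟨j, hj⟩ := P.isPGroup'.index (MulAction.stabilizer (P : Subgroup (Equiv.Perm (Fin n))) ω)
    refine upper (Nat.log p n) P.isPGroup' (MulAction.stabilizer (P : Subgroup (Equiv.Perm (Fin n))) ω) ?_ hg
    rw [hj]
    refine pow_dvd_pow p ((Nat.le_log_iff_pow_le hp.one_lt (by omega)).2 ?_)
    rw [← hj, MulAction.index_stabilizer]
    exact (Set.ncard_le_ncard (Set.subset_univ _)).trans (by rw [Set.ncard_univ, Nat.card_fin])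
  · obtain ⟨k, hk'⟩ : ∃ k, Nat.log p n = k + 1 := ⟨Nat.log p n - 1, by omega⟩
    rw [hk', Nat.add_sub_cancel]
    let C := Multiplicative (ZMod p)
    have hC : Nat.card C = p := (Nat.card_congr Multiplicative.toAdd).trans (Nat.card_zmod p)
    haveI : Finite C := Nat.finite_of_card_ne_zero (by rw [hC]; exact hp.ne_zero)
    haveI : Nontrivial C := Finite.one_lt_card_iff_nontrivial.1 (by rw [hC]; exact hp.one_lt)
    have hle : Nat.card (Fin (k + 1) → C) ≤ Nat.card (Fin n) := by
      rw [Nat.card_fun, Nat.card_fin, Nat.card_fin, hC, ← hk']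
      exact Nat.pow_log_le_self p (by omega)
    have e : (Fin (k + 1) → C) ↪ Fin n :=
      (Finite.equivFin _).toEmbedding.trans (Fin.castLEEmb (hle.trans_eq (Nat.card_fin n)))
    let f := (Equiv.Perm.viaEmbeddingHom e).comp (iteratedWreathToPermHom C (k + 1))
    have hf : Function.Injective f :=
      (Equiv.Perm.viaEmbeddingHom_injective e).comp (iteratedWreathToPermHomInj C (k + 1))
    have hW : IsPGroup p (IteratedWreathProduct C (k + 1)) :=
      IsPGroup.of_card (n := ∑ i ∈ Finset.range (k + 1), p ^ i) (by rw [IteratedWreathProduct.card, hC])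
    obtain ⟨Q, hQ⟩ := (hW.of_surjective f.rangeRestrict f.rangeRestrict_surjective).exists_le_sylow
    let g : IteratedWreathProduct C (k + 1) →* (Q : Subgroup (Equiv.Perm (Fin n))) :=
      f.codRestrict _ fun x => hQ ⟨x, rfl⟩
    let g' := (Q.equiv P).toMonoidHom.comp g
    have hg' : Function.Injective g' := (Q.equiv P).injective.comp fun a b h => hf (congrArg Subtype.val h)
    intro h
    have h1 := map_derivedSeries_le_derivedSeries g' k
    rw [h, le_bot_iff, Subgroup.map_eq_bot_iff_of_injective _ hg'] at h1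
    exact iter_ne_bot C k h1

end Cfsg.Agent.S4014
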