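import Cfsg.Statements.S4015
import Cfsg.Agent.Lib.SchurExt.WreathDerived
import Cfsg.Agent.Lib.ClassicalLinear.Sylow
import Mathlib
-- import your own Cfsg.Agent.* helpers here

set_option autoImplicit false
open Cfsg

namespace Cfsg.Agent.S4015

open CfsgLib.Classes.DerivedWreath

theorem val_prod_pow_sub_one (p q e : ℕ) [hp : Fact p.Prime] (hp2 : p ≠ 2) (hq : 1 < q) (hpq : ¬ p ∣ q)
    (he : orderOf (q : ZMod p) = e) (he0 : 0 < e) : ∀ n : ℕ,
    padicValNat p (∏ i ∈ Finset.range n, (q ^ (i + 1) - 1))
      = (n / e) * padicValNat p (q ^ e - 1) + padicValNat p (n / e).factorial := by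
  have hdvd : ∀ m, p ∣ q ^ m - 1 ↔ e ∣ m := by
    intro m
    rw [← he, orderOf_dvd_iff_pow_eq_one, ← Nat.cast_pow, ← ZMod.natCast_eq_zero_iff,
      Nat.cast_sub (Nat.one_le_pow _ _ (by omega)), Nat.cast_one, sub_eq_zero]
  have hne : ∀ m, 0 < m → q ^ m - 1 ≠ 0 := by
    intro m hm
    have : q ≤ q ^ m := Nat.le_self_pow (by omega) q
    omega
  intro n
  induction n with
  | zero => simp
  | succ n ih =>
    have hprod : ∏ i ∈ Finset.range n, (q ^ (i + 1) - 1) ≠ 0 :=
      Finset.prod_ne_zero_iff.2 fun i _ => hne (i + 1) (by omega)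
    rw [Finset.prod_range_succ, padicValNat.mul hprod (hne (n + 1) (by omega)), ih, Nat.succ_div]
    by_cases hd : e ∣ n + 1
    · obtain ⟨j, hj⟩ := hd
      have hj0 : j ≠ 0 := by rintro rfl; omega
      have hdiv : n / e + 1 = j := by
        have h := Nat.succ_div (a := n) (b := e)
        rw [if_pos ⟨j, hj⟩, hj, Nat.mul_div_cancel_left _ he0] at h
        exact h.symm
      have hodd : Odd p := hp.out.odd_of_ne_two hp2
      have hqe : 1 < q ^ e := Nat.one_lt_pow (by omega) hq
      have hlte : padicValNat p (q ^ (n + 1) - 1) = padicValNat p (q ^ e - 1) + padicValNat p j := by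
        have h := padicValNat.pow_sub_pow (p := p) (x := q ^ e) (y := 1) hodd hqe ((hdvd e).2 dvd_rfl)
          (fun h => hpq (hp.out.dvd_of_dvd_pow h)) hj0
        rwa [one_pow, ← pow_mul, ← hj] at h
      rw [if_pos ⟨j, hj⟩, hlte, hdiv, ← hdiv, Nat.factorial_succ,
        padicValNat.mul (by omega) (Nat.factorial_ne_zero _)]
      ring
    · rw [if_neg hd, add_zero, padicValNat.eq_zero_of_not_dvd fun h => hd ((hdvd _).1 h), add_zero]

section Embed

variable {F K : Type*} [Field F] [Field K] [Algebra F K] (w r : ℕ)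

/-- The monomial action of `Kˣ ≀ Sym(w)` on `K^w × F^r`. -/
noncomputable def wrLin :
    Wr Kˣ (Fin w) →* Module.End F ((Fin w → K) × (Fin r → F)) where
  toFun x :=
    { toFun := fun vu => (fun i => (x.left i : K) * vu.1 (x.right.symm i), vu.2)
      map_add' := fun a b => Prod.ext (funext fun i => by simp [mul_add]) rfl
      map_smul' := fun c a => Prod.ext (funext fun i => by simp [Algebra.mul_smul_comm]) rfl }
  map_one' := LinearMap.ext fun vu => Prod.ext (funext fun i => by simp; rfl) rfl
  map_mul' x y := LinearMap.ext fun vu => Prod.ext (funext fun i => by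
    show ((x * y).left i : K) * vu.1 ((x * y).right.symm i)
      = (x.left i : K) * ((y.left (x.right.symm i) : K) * vu.1 (y.right.symm (x.right.symm i)))
    rw [SemidirectProduct.mul_left, SemidirectProduct.mul_right, Pi.mul_apply, permCoord_apply,
      Units.val_mul, mul_assoc]
    rfl) rfl

theorem wrLin_injective : Function.Injective (wrLin (F := F) (K := K) w r) := by
  intro x y h
  have h1 : ∀ (v : Fin w → K) (i : Fin w),
      (x.left i : K) * v (x.right.symm i) = (y.left i : K) * v (y.right.symm i) := fun v i =>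
    congrFun (congrArg Prod.fst (LinearMap.congr_fun h (v, (0 : Fin r → F)))) i
  have hl : x.left = y.left := funext fun i => Units.ext (by simpa using h1 (fun _ => 1) i)
  refine SemidirectProduct.ext hl (Equiv.symm_bijective.injective (Equiv.ext fun i => ?_))
  have h2 := h1 (fun j => if j = x.right.symm i then 1 else 0) i
  by_contra hne
  simp [Ne.symm hne] at h2

end Embed

/-- Let p be an odd prime, F a finite field with q elements where p does not divide q, and e the multiplicative order of q modulo p. Let n ≥ e and write w = ⌊n/e⌋ and k = ⌊log_p w⌋. Then a Sylow p-subgroup of GL(n, F) has derived length exactly k + 1: its (k+1)-st derived subgroup is trivial and its k-th is not. -/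
theorem result (p : ℕ) [Fact p.Prime] (hp : p ≠ 2) (F : Type*) [Field F] [Fintype F] (q : ℕ) (hq : Fintype.card F = q) (hpq : ¬ p ∣ q) (n : ℕ) (hn : orderOf (q : ZMod p) ≤ n) (P : Sylow p (Matrix.GeneralLinearGroup (Fin n) F)) : derivedSeries ↥(P : Subgroup (Matrix.GeneralLinearGroup (Fin n) F)) (Nat.log p (n / orderOf (q : ZMod p)) + 1) = ⊥ ∧ derivedSeries ↥(P : Subgroup (Matrix.GeneralLinearGroup (Fin n) F)) (Nat.log p (n / orderOf (q : ZMod p))) ≠ ⊥ := by
  classical
  have hpp : p.Prime := Fact.out
  set e := orderOf (q : ZMod p) with he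
  have hqz : (q : ZMod p) ≠ 0 := by rwa [Ne, ZMod.natCast_eq_zero_iff]
  have he0 : 0 < e := by
    rw [he, orderOf_pos_iff, isOfFinOrder_iff_pow_eq_one]
    exact ⟨p - 1, by have := hpp.two_le; omega, ZMod.pow_card_sub_one_eq_one hqz⟩
  have hq1 : 1 < q := hq ▸ Fintype.one_lt_card
  set w := n / e with hw
  set r := n - w * e with hr
  have hw0 : w ≠ 0 := (Nat.div_pos hn he0).ne'
  have hwe : w * e ≤ n := Nat.div_mul_le_self n e
  obtain ⟨ℓ, hchar⟩ := CharP.exists F
  haveI : Fact ℓ.Prime := ⟨CharP.char_is_prime F ℓ⟩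
  haveI : NeZero e := ⟨he0.ne'⟩
  let K := FiniteField.Extension F ℓ e
  have hKcard : Nat.card K = q ^ e := by
    rw [FiniteField.natCard_extension, Nat.card_eq_fintype_card, hq]
  haveI : Finite K := Nat.finite_of_card_ne_zero (by rw [hKcard]; positivity)
  have hfr : Module.finrank F ((Fin w → K) × (Fin r → F)) = n := by
    rw [Module.finrank_prod, Module.finrank_pi_fintype, Module.finrank_pi, Finset.sum_const,
      Finset.card_univ, Fintype.card_fin, Fintype.card_fin, FiniteField.finrank_extension, smul_eq_mul]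
    omega
  let b := Module.finBasisOfFinrankEq F ((Fin w → K) × (Fin r → F)) hfr
  let φ : Wr Kˣ (Fin w) →* Matrix.GeneralLinearGroup (Fin n) F :=
    (((LinearMap.toMatrixAlgEquiv b).toMulEquiv.toMonoidHom).comp (wrLin (F := F) (K := K) w r)).toHomUnits
  have hφ : Function.Injective φ := fun x y h =>
    wrLin_injective w r ((LinearMap.toMatrixAlgEquiv b).injective (congrArg Units.val h))
  -- the two Sylow orders agree
  set a := padicValNat p (q ^ e - 1) with ha
  have ha0 : a ≠ 0 := by
    rw [ha, ← Nat.pos_iff_ne_zero]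
    apply one_le_padicValNat_of_dvd
    · have : 1 < q ^ e := Nat.one_lt_pow (by omega) hq1
      omega
    · rw [← ZMod.natCast_eq_zero_iff, Nat.cast_sub (Nat.one_le_pow _ _ (by omega)), Nat.cast_one,
        Nat.cast_pow, he, pow_orderOf_eq_one, sub_self]
  have hGL : (Nat.card (Matrix.GeneralLinearGroup (Fin n) F)).factorization p
      = w * a + padicValNat p w.factorial := by
    rw [CfsgLib.ClassicalLinear.card_GL_eq_pow_mul, Fintype.card_fin, hq, Nat.factorization_def _ hpp,
      padicValNat.mul (by positivity) (Finset.prod_ne_zero_iff.2 fun i _ => by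
        have : q ≤ q ^ (i + 1) := Nat.le_self_pow (by omega) q
        omega),
      padicValNat.eq_zero_of_not_dvd fun h => hpq (hpp.dvd_of_dvd_pow h), zero_add,
      val_prod_pow_sub_one p q e hp hq1 hpq he.symm he0 n]
  have hcardW : Nat.card (Wr Kˣ (Fin w)) = (q ^ e - 1) ^ w * w.factorial := by
    rw [SemidirectProduct.card, Nat.card_fun, Nat.card_units, hKcard, Nat.card_perm, Nat.card_fin]
  have hWv : (Nat.card (Wr Kˣ (Fin w))).factorization p = w * a + padicValNat p w.factorial := by
    have hne : q ^ e - 1 ≠ 0 := by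
      have : 1 < q ^ e := Nat.one_lt_pow (by omega) hq1
      omega
    rw [hcardW, Nat.factorization_def _ hpp, padicValNat.mul (pow_ne_zero _ hne) (Nat.factorial_ne_zero _),
      padicValNat.pow]
  -- a Sylow subgroup of the wreath product with a long derived series
  set k := Nat.log p w with hk
  have hpK : p ∣ Nat.card Kˣ := by
    rw [Nat.card_units, hKcard]
    exact dvd_of_one_le_padicValNat (Nat.one_le_iff_ne_zero.2 ha0)
  obtain ⟨t, ht⟩ := exists_prime_orderOf_dvd_card' p hpK
  have hT : IsPGroup p (Subgroup.zpowers t) :=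
    IsPGroup.of_card (n := 1) (by rw [Nat.card_zpowers, ht, pow_one])
  obtain ⟨S, hS, -, hSd⟩ := CfsgLib.SchurExt.exists_dser_ne_bot_prime (α := Fin w) (Subgroup.zpowers t) hT
    (by
      simp only [ne_eq, Subgroup.zpowers_eq_bot]
      intro h
      rw [h, orderOf_one] at ht
      exact hpp.ne_one ht.symm)
    k Finset.univ (by rw [Finset.card_univ, Fintype.card_fin]; exact Nat.pow_log_le_self p hw0)
  obtain ⟨R, hSR⟩ := hS.exists_le_sylow
  have hup : dser (R : Subgroup (Wr Kˣ (Fin w))) (k + 1) = ⊥ :=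
    CfsgLib.SchurExt.dser_wr_eq_bot_prime (by
      rw [Nat.card_fin]; exact Nat.lt_pow_succ_log_self hpp.one_lt w) _ R.2
  have hlow : dser (R : Subgroup (Wr Kˣ (Fin w))) k ≠ ⊥ := fun h =>
    hSd (le_bot_iff.1 (h ▸ dser_mono hSR k))
  -- transport
  obtain ⟨Q, hQ⟩ := (R.2.map φ).exists_le_sylow
  have hRQ : (R : Subgroup (Wr Kˣ (Fin w))).map φ = (Q : Subgroup _) := by
    refine Subgroup.eq_of_le_of_card_ge hQ ?_
    rw [Subgroup.card_map_of_injective hφ, Q.card_eq_multiplicity, R.card_eq_multiplicity, hGL, hWv]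
  obtain ⟨g, hg⟩ := MulAction.exists_smul_eq (Matrix.GeneralLinearGroup (Fin n) F) Q P
  have hP : (P : Subgroup _) = (Q : Subgroup _).map (MulAut.conj g).toMonoidHom := by
    rw [← hg]; rfl
  have hder : ∀ m, derivedSeries ↥(P : Subgroup (Matrix.GeneralLinearGroup (Fin n) F)) m = ⊥ ↔
      dser (R : Subgroup (Wr Kˣ (Fin w))) m = ⊥ := by
    intro m
    rw [derivedSeries_eq_bot_iff, hP, ← map_dser, ← hRQ, ← map_dser,
      Subgroup.map_eq_bot_iff_of_injective _ (MulEquiv.injective _),
      Subgroup.map_eq_bot_iff_of_injective _ hφ]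
  exact ⟨(hder _).2 hup, fun h => hlow ((hder _).1 h)⟩

end Cfsg.Agent.S4015
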