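import Cfsg.Statements.S4022
import Cfsg.Agent.Lib.Hall.Existence
import Cfsg.Agent.Lib.SolvableStructure.MinimalNormal
import Cfsg.Agent.Lib.SchurExt.Elementary
import Cfsg.Agent.Lib.BGAppendix.Basic
-- import your own Cfsg.Agent.* helpers here

set_option autoImplicit false
open Cfsg

namespace Cfsg.Agent.S4022

/-- The subgroup conjugate to `H` under `g`. -/
def cj {G : Type*} [Group G] (g : G) (H : Subgroup G) : Subgroup G := H.map (MulAut.conj g).toMonoidHom

theorem cj_cj {G : Type*} [Group G] (a b : G) (H : Subgroup G) : cj a (cj b H) = cj (a * b) H := by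
  rw [cj, cj, cj, Subgroup.map_map]
  congr 1
  ext x
  simp [mul_assoc]

theorem cj_sup {G : Type*} [Group G] (a : G) (H N : Subgroup G) [N.Normal] : cj a (H ⊔ N) = cj a H ⊔ N := by
  rw [cj, Subgroup.map_sup]
  congr 1
  exact Subgroup.Normal.map_conj_eq N a

theorem card_cj {G : Type*} [Group G] (a : G) (H : Subgroup G) : Nat.card (cj a H) = Nat.card H :=
  Subgroup.card_map_of_injective (MulAut.conj a).injective

theorem map_cj {G G' : Type*} [Group G] [Group G'] (f : G →* G') (a : G) (H : Subgroup G) :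
    (cj a H).map f = cj (f a) (H.map f) := by
  rw [cj, cj, Subgroup.map_map, Subgroup.map_map]
  congr 1
  ext x
  simp

theorem exists_lift {G G' : Type*} [Group G] [Group G'] {f : G →* G'} (hf : Function.Surjective f)
    {H K : Subgroup G} (h : ∃ g, K.map f = cj g (H.map f)) : ∃ a, cj a H ⊔ f.ker = K ⊔ f.ker := by
  obtain ⟨g, hg⟩ := h
  obtain ⟨a, rfl⟩ := hf g
  refine ⟨a, ?_⟩
  rw [← map_cj] at hg
  rw [← Subgroup.comap_map_eq, ← Subgroup.comap_map_eq, hg]

theorem card_map_mk {G : Type*} [Group G] [Finite G] (N H : Subgroup G) [N.Normal] :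
    Nat.card ↥(N ⊓ H : Subgroup G) * Nat.card ↥(H.map (QuotientGroup.mk' N)) = Nat.card H := by
  rw [← Subgroup.relIndex_ker H (QuotientGroup.mk' N), QuotientGroup.ker_mk', ← Subgroup.inf_relIndex_right,
    Subgroup.relIndex, ← Nat.card_congr (Subgroup.subgroupOfEquivOfLe (inf_le_right : N ⊓ H ≤ H)).toEquiv,
    Subgroup.card_mul_index]

theorem inf_eq_bot_of_not_dvd {G : Type*} [Group G] [Finite G] {p : ℕ} [Fact p.Prime] {N H : Subgroup G}
    (hN : IsPGroup p N) (h : ¬ p ∣ Nat.card H) : N ⊓ H = ⊥ := by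
  obtain ⟨d, hd⟩ := IsPGroup.iff_card.1 hN
  refine Subgroup.inf_eq_bot_of_coprime ?_
  rw [hd]
  exact ((Nat.Prime.coprime_iff_not_dvd Fact.out).2 h).pow_left d

/-- Complements of a normal `p`-subgroup of order prime to `p` in a solvable group are conjugate. -/
theorem conj_of_sup_eq {G : Type*} [Group G] [Finite G] [Group.IsSolvable G] {p : ℕ} [Fact p.Prime]
    (N : Subgroup G) [N.Normal] (hN : IsPGroup p N) (H K : Subgroup G) (hp : ¬ p ∣ Nat.card H)
    (hc : Nat.card H = Nat.card K) (h : H ⊔ N = K ⊔ N) : ∃ g : G, K = cj g H := by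
  obtain ⟨d, hd⟩ := IsPGroup.iff_card.1 hN
  have hcard : Nat.card ↥(H ⊔ N) = Nat.card H * Nat.card N := by
    have h1 := (N.subgroupOf (H ⊔ N)).card_mul_index
    rw [Nat.card_congr (Subgroup.subgroupOfEquivOfLe (le_sup_right : N ≤ H ⊔ N)).toEquiv] at h1
    change Nat.card N * N.relIndex (H ⊔ N) = _ at h1
    rw [Subgroup.relIndex_sup_right, ← Subgroup.inf_relIndex_right,
      inf_eq_bot_of_not_dvd hN hp, Subgroup.relIndex_bot_left] at h1
    rw [← h1, mul_comm]
  have hcop : (Nat.card H).Coprime (Nat.card N) := by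
    rw [hd]
    exact (((Nat.Prime.coprime_iff_not_dvd Fact.out).2 hp).pow_left d).symm
  have hHH := CfsgLib.Hall.isPiHall_of_card_eq hcard hcop (H := H.subgroupOf (H ⊔ N))
    (Nat.card_congr (Subgroup.subgroupOfEquivOfLe le_sup_left).toEquiv)
  have hKK := CfsgLib.Hall.isPiHall_of_card_eq hcard hcop (H := K.subgroupOf (H ⊔ N))
    ((Nat.card_congr (Subgroup.subgroupOfEquivOfLe (h ▸ le_sup_left)).toEquiv).trans hc.symm)
  obtain ⟨g, hg⟩ := CfsgLib.Hall.isPiHall_isConj hHH hKK
  refine ⟨g, ?_⟩
  have := congrArg (Subgroup.map (H ⊔ N).subtype) hg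
  rw [Subgroup.subgroupOf_map_subtype, inf_eq_left.2 (h ▸ le_sup_left), CfsgLib.Hall.conj_smul_eq_map] at this
  rw [← this]
  show Subgroup.map _ (cj g _) = _
  rw [map_cj, Subgroup.subgroupOf_map_subtype, inf_eq_left.2 le_sup_left]
  rfl

/-- Subgroups of equal order of a cyclic Sylow subgroup are conjugate. -/
theorem conj_of_cyclic {G : Type*} [Group G] [Finite G] {p : ℕ} [Fact p.Prime]
    (hcyc : ∀ P : Sylow p G, IsCyclic P) (H K : Subgroup G) (hH : IsPGroup p H) (hK : IsPGroup p K)
    (h : Nat.card H = Nat.card K) : ∃ g : G, K = cj g H := by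
  obtain ⟨P, hP⟩ := hH.exists_le_sylow
  obtain ⟨Q, hQ⟩ := hK.exists_le_sylow
  obtain ⟨g, hg⟩ := MulAction.exists_smul_eq G P Q
  refine ⟨g, ?_⟩
  have hle : cj g H ≤ (Q : Subgroup G) := by
    rw [← hg]; exact Subgroup.map_mono hP
  exact CfsgLib.BGAppendix.eq_of_card_eq_of_le_cyclic Q K (cj g H) (hcyc Q) hQ hle (by rw [card_cj, h])

theorem exists_pGroup_lift {G : Type*} [Group G] [Finite G] (N : Subgroup G) [N.Normal] {p : ℕ}
    [Fact p.Prime] (H : Subgroup (G ⧸ N)) (hH : IsPGroup p H) :
    ∃ P : Subgroup G, IsPGroup p P ∧ P.map (QuotientGroup.mk' N) = H ∧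
      Nat.card P = p ^ (Nat.card H * Nat.card N).factorization p := by
  set C := H.comap (QuotientGroup.mk' N) with hC
  obtain ⟨S⟩ := (inferInstance : Nonempty (Sylow p C))
  refine ⟨(S : Subgroup C).map C.subtype, S.isPGroup'.map _, ?_, ?_⟩
  · have hf : Function.Surjective ((QuotientGroup.mk' N).subgroupComap H) :=
      MonoidHom.subgroupComap_surjective_of_surjective _ H (QuotientGroup.mk'_surjective N)
    have h1 : ((S.mapSurjective hf : Sylow p H) : Subgroup H) = ⊤ := by
      exact ((S.mapSurjective hf).3 (hH.to_subgroup ⊤) le_top).symm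
    rw [Sylow.coe_mapSurjective] at h1
    have h2 := congrArg (Subgroup.map H.subtype) h1
    rw [Subgroup.map_map, ← MonoidHom.range_eq_map, Subgroup.range_subtype] at h2
    rw [Subgroup.map_map]
    exact h2
  · rw [Subgroup.card_map_of_injective C.subtype_injective, S.card_eq_multiplicity]
    congr 3
    have h1 := (N.subgroupOf C).card_mul_index
    have hle : N ≤ C := fun x hx => by
      rw [hC, Subgroup.mem_comap, QuotientGroup.mk'_apply, (QuotientGroup.eq_one_iff x).2 hx]
      exact H.one_mem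
    have h2 : N.relIndex C = Nat.card H := by
      rw [← Subgroup.map_comap_eq_self_of_surjective (QuotientGroup.mk'_surjective N) H, ← hC,
        ← Subgroup.relIndex_ker, QuotientGroup.ker_mk']
    rw [Nat.card_congr (Subgroup.subgroupOfEquivOfLe hle).toEquiv] at h1
    change Nat.card N * N.relIndex C = _ at h1
    rw [← h1, h2, mul_comm]

universe u

theorem conj_all (n : ℕ) : ∀ (G : Type u) [Group G] [Finite G], Nat.card G ≤ n → Group.IsSolvable G →
    ∀ r : ℕ, (∀ p : ℕ, p.Prime → ∀ H K : Subgroup G, IsPGroup p H → IsPGroup p K →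
      Nat.card H = Nat.card K → ∃ g : G, K = cj g H) →
    (∀ p : ℕ, p.Prime → p ≠ r → ∀ P : Sylow p G, IsCyclic P) →
    ∀ H K : Subgroup G, Nat.card H = Nat.card K → ∃ g : G, K = cj g H := by
  induction n with
  | zero => intro G _ _ hn; exact absurd hn (by have := Nat.card_pos (α := G); omega)
  | succ n ih =>
    intro G _ _ hn hsol r hD hcyc H K hHK
    rcases subsingleton_or_nontrivial G with hG | hG
    · exact ⟨1, Subsingleton.elim _ _⟩
    obtain ⟨N, -, hNn, hNne, hmin⟩ :=
      CfsgLib.SolvableStructure.exists_minimal_normal (G := G) (N := ⊤) inferInstance (by simp)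
    obtain ⟨p, d, hp, hd0, hNcard, hexp, -⟩ :=
      CfsgLib.SolvableStructure.minimal_normal_prime hNne hmin
    haveI := Fact.mk hp
    haveI := hNn
    have hNp : IsPGroup p N := IsPGroup.of_card hNcard
    have hN1 : 1 < Nat.card N := hNcard ▸ Nat.one_lt_pow hd0.ne' hp.one_lt
    have hlt : Nat.card (G ⧸ N) ≤ n := by
      have h1 := N.card_mul_index
      rw [Subgroup.index_eq_card] at h1
      have := Nat.card_pos (α := G ⧸ N)
      nlinarith
    have hqD : ∀ q : ℕ, q.Prime → ∀ A B : Subgroup (G ⧸ N), IsPGroup q A → IsPGroup q B →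
        Nat.card A = Nat.card B → ∃ g : G ⧸ N, B = cj g A := by
      intro q hq A B hA hB hAB
      haveI := Fact.mk hq
      obtain ⟨P, hP, rfl, hPc⟩ := exists_pGroup_lift N A hA
      obtain ⟨Q, hQ, rfl, hQc⟩ := exists_pGroup_lift N B hB
      obtain ⟨g, rfl⟩ := hD q hq P Q hP hQ (by rw [hPc, hQc, hAB])
      exact ⟨_, map_cj _ g P⟩
    have hqcyc : ∀ q : ℕ, q.Prime → q ≠ r → ∀ P : Sylow q (G ⧸ N), IsCyclic P := by
      intro q hq hqr P
      haveI := Fact.mk hq
      obtain ⟨S, rfl⟩ := Sylow.mapSurjective_surjective (QuotientGroup.mk'_surjective N) q P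
      haveI := hcyc q hq hqr S
      exact isCyclic_of_surjective ((QuotientGroup.mk' N).subgroupMap (S : Subgroup G))
        (MonoidHom.subgroupMap_surjective _ _)
    have IH : ∀ A B : Subgroup (G ⧸ N), Nat.card A = Nat.card B → ∃ g : G ⧸ N, B = cj g A :=
      fun A B => ih (G ⧸ N) hlt inferInstance r hqD hqcyc A B
    have hker : (QuotientGroup.mk' N).ker = N := QuotientGroup.ker_mk' N
    -- both subgroups contain `N`
    have hbig : N ≤ H → N ≤ K → ∃ g : G, K = cj g H := by
      intro h1 h2
      have e1 := card_map_mk N H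
      have e2 := card_map_mk N K
      rw [inf_eq_left.2 h1] at e1
      rw [inf_eq_left.2 h2] at e2
      obtain ⟨a, ha⟩ := exists_lift (QuotientGroup.mk'_surjective N)
        (IH _ _ (Nat.eq_of_mul_eq_mul_left Nat.card_pos (e1.trans (hHK.trans e2.symm))))
      rw [hker, sup_eq_left.2 h2, ← cj_sup, sup_eq_left.2 h1] at ha
      exact ⟨a, ha.symm⟩
    by_cases hpH : p ∣ Nat.card H
    swap
    · have e1 := card_map_mk N H
      have e2 := card_map_mk N K
      rw [inf_eq_bot_of_not_dvd hNp hpH, Subgroup.card_bot, one_mul] at e1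
      rw [inf_eq_bot_of_not_dvd hNp (hHK ▸ hpH), Subgroup.card_bot, one_mul] at e2
      obtain ⟨a, ha⟩ := exists_lift (QuotientGroup.mk'_surjective N) (IH _ _ (e1.trans (hHK.trans e2.symm)))
      rw [hker] at ha
      obtain ⟨g, hg⟩ := conj_of_sup_eq N hNp (cj a H) K (by rwa [card_cj]) (by rw [card_cj, hHK]) ha
      exact ⟨g * a, by rw [hg, cj_cj]⟩
    -- a subgroup of order `p ^ i` of `N` absorbs all such subgroups
    have habs : ∀ i ≤ d, ∀ x : G, orderOf x = p ^ i → x ∈ N := by
      intro i hi x hx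
      obtain ⟨J, hJ⟩ := Sylow.exists_subgroup_card_pow_prime (G := N) p (n := i)
        (by rw [hNcard]; exact pow_dvd_pow p hi)
      obtain ⟨g, hg⟩ := hD p hp (J.map N.subtype) (Subgroup.zpowers x) ((IsPGroup.of_card hJ).map _)
        (IsPGroup.of_card (by rw [Nat.card_zpowers, hx]))
        (by rw [Subgroup.card_map_of_injective N.subtype_injective, hJ, Nat.card_zpowers, hx])
      have : x ∈ cj g (J.map N.subtype) := hg ▸ Subgroup.mem_zpowers x
      obtain ⟨y, hy, rfl⟩ := this
      exact hNn.conj_mem y (Subgroup.map_subtype_le J hy) g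
    by_cases hd1 : d = 1
    · have : ∀ A : Subgroup G, p ∣ Nat.card A → N ≤ A := by
        intro A hA
        obtain ⟨a, ha⟩ := exists_prime_orderOf_dvd_card' (G := A) p hA
        have haN : (a : G) ∈ N := habs 1 hd0 a (by rw [Subgroup.orderOf_coe, ha, pow_one])
        have heq : Subgroup.zpowers (a : G) = N := Subgroup.eq_of_le_of_card_ge
          (Subgroup.zpowers_le.2 haN) (by rw [Nat.card_zpowers, Subgroup.orderOf_coe, ha, hNcard, hd1, pow_one])
        exact heq ▸ Subgroup.zpowers_le.2 a.2
      exact hbig (this H hpH) (this K (hHK ▸ hpH))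
    have hd2 : 2 ≤ d := by omega
    have hpr : p = r := by
      by_contra hne
      obtain ⟨P, hP⟩ := hNp.exists_le_sylow
      haveI := hcyc p hp hne P
      haveI : IsCyclic N :=
        isCyclic_of_injective (Subgroup.inclusion hP) (Subgroup.inclusion_injective hP)
      obtain ⟨z, hz⟩ := IsCyclic.exists_ofOrder_eq_natCard (α := N)
      have h1 : orderOf z ∣ p := orderOf_dvd_of_pow_eq_one (Subtype.ext (by simpa using hexp z z.2))
      rw [hz, hNcard] at h1
      have := Nat.le_of_dvd hp.pos h1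
      have : p ^ 2 ≤ p ^ d := Nat.pow_le_pow_right hp.pos hd2
      nlinarith [hp.two_le]
    have hidx : ¬ p ∣ N.index := by
      intro hd'
      obtain ⟨x, hx⟩ := exists_prime_orderOf_dvd_card' (G := G ⧸ N) p (N.index_eq_card ▸ hd')
      obtain ⟨g, hg, e, he⟩ := CfsgLib.SchurExt.exists_lift_primePow N x (k := 1) (by rw [hx, pow_one])
      have hgN : g ∉ N := fun h => by
        rw [← hg, (QuotientGroup.eq_one_iff g).2 h, orderOf_one] at hx
        exact hp.ne_one hx.symm
      rcases le_or_gt e 2 with h | h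
      · exact hgN (habs e (h.trans hd2) g he)
      · obtain ⟨c, hc⟩ := CfsgLib.SchurExt.exists_pow_orderOf_eq (g := g) (q := p) (k := 2)
          (he ▸ pow_dvd_pow p h.le)
        have h2 := hexp _ (habs 2 hd2 _ hc)
        have := Nat.le_of_dvd hp.pos (orderOf_dvd_of_pow_eq_one h2)
        rw [hc] at this
        nlinarith [hp.two_le]
    have e1 := card_map_mk N H
    have e2 := card_map_mk N K
    have hndvd : ∀ A : Subgroup G, (Nat.card ↥(A.map (QuotientGroup.mk' N))).Coprime p := fun A =>
      (((hp.coprime_iff_not_dvd).2 hidx).coprime_dvd_right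
        (N.index_eq_card ▸ Subgroup.card_subgroup_dvd_card _)).symm
    have hAB : Nat.card ↥(N ⊓ H : Subgroup G) = Nat.card ↥(N ⊓ K : Subgroup G) := by
      obtain ⟨i, hi⟩ := IsPGroup.iff_card.1 (hNp.to_le (inf_le_left : N ⊓ H ≤ N))
      obtain ⟨j, hj⟩ := IsPGroup.iff_card.1 (hNp.to_le (inf_le_left : N ⊓ K ≤ N))
      rw [hi] at e1
      rw [hj] at e2
      rw [hi, hj]
      exact Nat.dvd_antisymm
        (((hndvd K).symm.pow_left i).dvd_of_dvd_mul_right ⟨_, e2.trans (hHK.symm.trans e1.symm)⟩)
        (((hndvd H).symm.pow_left j).dvd_of_dvd_mul_right ⟨_, e1.trans (hHK.trans e2.symm)⟩)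
    obtain ⟨g0, hg0⟩ := hD p hp _ _ (hNp.to_le inf_le_left) (hNp.to_le inf_le_left) hAB
    set H' := cj g0 H with hH'
    have hBeq : N ⊓ H' = N ⊓ K := by
      rw [hg0, hH', cj, cj, Subgroup.map_inf _ _ _ (MulAut.conj g0).injective,
        show N.map (MulAut.conj g0).toMonoidHom = N from Subgroup.Normal.map_conj_eq N g0]
    set B := N ⊓ K with hB
    set M := Subgroup.normalizer (B : Set G) with hM
    have hnorm : ∀ A : Subgroup G, N ⊓ A = B → A ≤ M := by
      intro A hA a ha
      rw [hM, Subgroup.mem_normalizer_iff]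
      intro x
      rw [← hA, Subgroup.mem_inf, Subgroup.mem_inf]
      constructor
      · rintro ⟨h1, h2⟩
        exact ⟨hNn.conj_mem x h1 a, mul_mem (mul_mem ha h2) (inv_mem ha)⟩
      · rintro ⟨h1, h2⟩
        refine ⟨?_, ?_⟩
        · simpa [mul_assoc] using hNn.conj_mem _ h1 a⁻¹
        · simpa [mul_assoc] using mul_mem (mul_mem (inv_mem ha) h2) ha
    have hKM : K ≤ M := hnorm K rfl
    have hHM : H' ≤ M := hnorm H' hBeq
    have hBN : B ≤ N := inf_le_left
    have hNM : N ≤ M := by
      intro a ha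
      rw [hM, Subgroup.mem_normalizer_iff]
      intro x
      have hc : ∀ y ∈ N, a * y * a⁻¹ = y := fun y hy => by
        rw [CfsgLib.SolvableStructure.commute_of_isMulCommutative (A := N)
          (h := CfsgLib.SolvableStructure.isMulCommutative_of_minimal_normal hNne hmin) ha hy,
          mul_inv_cancel_right]
      constructor
      · intro hx; rwa [hc x (hBN hx)]
      · intro hx
        have h1 : x ∈ N := by simpa [mul_assoc] using mul_mem (mul_mem (inv_mem ha) (hBN hx)) ha
        rwa [hc x h1] at hx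
    haveI : (B.subgroupOf M).Normal := Subgroup.normal_in_normalizer
    set N' := N.subgroupOf M with hN'
    have hker' : (QuotientGroup.mk' N').ker = N' := QuotientGroup.ker_mk' N'
    have hNcardM : Nat.card N' = Nat.card N :=
      Nat.card_congr (Subgroup.subgroupOfEquivOfLe hNM).toEquiv
    have hidx' : ¬ p ∣ N'.index := fun h => hidx (h.trans (Subgroup.relIndex_dvd_index_of_normal N M))
    have hlt' : Nat.card (M ⧸ N') ≤ n := by
      refine le_trans ?_ hlt
      rw [← Subgroup.index_eq_card, ← Subgroup.index_eq_card]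
      exact Nat.le_of_dvd (Nat.pos_of_ne_zero Subgroup.index_ne_zero_of_finite)
        (Subgroup.relIndex_dvd_index_of_normal N M)
    have hMcyc : ∀ q : ℕ, q.Prime → ∀ P : Sylow q (M ⧸ N'), IsCyclic P := by
      intro q hq P
      haveI := Fact.mk hq
      rcases eq_or_ne q p with rfl | hqp
      · obtain ⟨i, hi⟩ := IsPGroup.iff_card.1 P.isPGroup'
        rcases i.eq_zero_or_pos with rfl | hi0
        · haveI : Subsingleton P := (Nat.card_eq_one_iff_unique.1 (by rwa [pow_zero] at hi)).1
          exact isCyclic_of_subsingleton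
        · exact absurd ((dvd_pow_self q hi0.ne').trans (hi ▸ Subgroup.card_subgroup_dvd_card _))
            (by rw [← Subgroup.index_eq_card]; exact hidx')
      · obtain ⟨S, rfl⟩ := Sylow.mapSurjective_surjective (QuotientGroup.mk'_surjective N') q P
        obtain ⟨T, hT⟩ := (S.isPGroup'.map M.subtype).exists_le_sylow
        haveI := hcyc q hq (hpr ▸ hqp) T
        haveI : IsCyclic S := isCyclic_of_injective
          ((Subgroup.inclusion hT).comp (M.subtype.subgroupMap (S : Subgroup M)))
          ((Subgroup.inclusion_injective hT).comp fun a b hab =>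
            Subtype.ext (M.subtype_injective (congrArg Subtype.val hab :)))
        exact isCyclic_of_surjective ((QuotientGroup.mk' N').subgroupMap (S : Subgroup M))
          (MonoidHom.subgroupMap_surjective _ _)
    have IH' := ih (M ⧸ N') hlt' inferInstance r
      (fun q hq A C hA hC hAC => @conj_of_cyclic _ _ _ q (Fact.mk hq) (hMcyc q hq) A C hA hC hAC)
      (fun q hq _ P => hMcyc q hq P)
    set X := H'.subgroupOf M with hX
    set Y := K.subgroupOf M with hY
    have hXc : Nat.card X = Nat.card H :=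
      (Nat.card_congr (Subgroup.subgroupOfEquivOfLe hHM).toEquiv).trans (card_cj g0 H)
    have hYc : Nat.card Y = Nat.card K := Nat.card_congr (Subgroup.subgroupOfEquivOfLe hKM).toEquiv
    set B' := B.subgroupOf M with hB'
    have hiX : N' ⊓ X = B' := by rw [hN', hX, hB', ← hBeq]; rfl
    have hiY : N' ⊓ Y = B' := by rw [hN', hY, hB', hB]; rfl
    have f1 := card_map_mk N' X
    have f2 := card_map_mk N' Y
    rw [hiX] at f1
    rw [hiY] at f2
    have hq : Nat.card ↥(X.map (QuotientGroup.mk' N')) = Nat.card ↥(Y.map (QuotientGroup.mk' N')) :=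
      Nat.eq_of_mul_eq_mul_left Nat.card_pos
        (f1.trans (by rw [hXc, hHK, ← hYc, f2]))
    obtain ⟨a, ha⟩ := exists_lift (QuotientGroup.mk'_surjective N') (IH' _ _ hq)
    rw [hker'] at ha
    have hBX : B' ≤ cj a X := by
      have : cj a B' = B' := Subgroup.Normal.map_conj_eq B' a
      rw [← this]
      exact Subgroup.map_mono (hiX ▸ inf_le_right)
    have hBY : B' ≤ Y := hiY ▸ inf_le_right
    let π := QuotientGroup.mk' B'
    have hπ : Function.Surjective π := QuotientGroup.mk'_surjective B'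
    haveI : (N'.map π).Normal := Subgroup.Normal.map inferInstance π hπ
    have g1 := card_map_mk B' (cj a X)
    have g2 := card_map_mk B' Y
    rw [inf_eq_left.2 hBX, card_cj, hXc] at g1
    rw [inf_eq_left.2 hBY, hYc] at g2
    have hXq : Nat.card ↥((cj a X).map π) = Nat.card ↥(X.map (QuotientGroup.mk' N')) :=
      Nat.eq_of_mul_eq_mul_left Nat.card_pos (g1.trans (hXc.symm.trans f1.symm))
    have hndX : ¬ p ∣ Nat.card ↥((cj a X).map π) := by
      rw [hXq]
      exact fun h => hidx' (h.trans (N'.index_eq_card ▸ Subgroup.card_subgroup_dvd_card _))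
    obtain ⟨m, hm⟩ := conj_of_sup_eq (N'.map π) ((hNp.of_equiv (Subgroup.subgroupOfEquivOfLe hNM).symm).map π)
      ((cj a X).map π) (Y.map π) hndX
      (Nat.eq_of_mul_eq_mul_left Nat.card_pos (g1.trans (hHK.trans g2.symm)))
      (by rw [← Subgroup.map_sup, ← Subgroup.map_sup, ha])
    obtain ⟨b, hb⟩ := exists_lift hπ ⟨m, hm⟩
    rw [show π.ker = B' from QuotientGroup.ker_mk' B', sup_eq_left.2 hBY,
      show cj b (cj a X) ⊔ B' = cj b (cj a X) by
        rw [← cj_sup, sup_eq_left.2 hBX]] at hb
    refine ⟨((b * a : M) : G) * g0, ?_⟩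
    have h3 := congrArg (Subgroup.map M.subtype) hb
    rw [cj_cj, map_cj, hX, hY, Subgroup.subgroupOf_map_subtype, Subgroup.subgroupOf_map_subtype,
      inf_eq_left.2 hHM, inf_eq_left.2 hKM, hH', cj_cj] at h3
    exact h3.symm

/-- Let G be a finite solvable group in which, for every prime p, any two p-subgroups of the same order are conjugate, and suppose the Sylow p-subgroups of G are cyclic for all primes p with at most one exception. Then any two subgroups of G of the same order are conjugate. -/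
theorem result {G : Type*} [Group G] [Finite G]
    [Group.IsSolvable G] (hD : ∀ p : ℕ, p.Prime → ∀ H K : Subgroup G, IsPGroup p H → IsPGroup p K → Nat.card H = Nat.card K →
      ∃ g : G, K = H.map (MulAut.conj g).toMonoidHom)
    (r : ℕ) (hcyc : ∀ p : ℕ, p.Prime → p ≠ r → ∀ P : Sylow p G, IsCyclic P) :
    ∀ H K : Subgroup G, Nat.card H = Nat.card K → ∃ g : G, K = H.map (MulAut.conj g).toMonoidHom := by
  exact conj_all (Nat.card G) G le_rfl inferInstance r hD hcyc

end Cfsg.Agent.S4022
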