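import Cfsg.Statements.S4023
import Cfsg.Agent.Lib.SchurExt.IsoSubgroups
-- import your own Cfsg.Agent.* helpers here

set_option autoImplicit false
open Cfsg

namespace Cfsg.Agent.S4023

/-- Conjugacy in `G` gives isomorphisms inside a Sylow subgroup. -/
theorem iso_of_conj {G : Type*} [Group G] [Finite G] {p : ℕ}
    (hC : ∀ H K : Subgroup G, IsPGroup p H → IsPGroup p K → Nat.card H = Nat.card K →
      ∃ g : G, K = H.map (MulAut.conj g).toMonoidHom) (P : Sylow p G) (A B : Subgroup (P : Subgroup G))
    (h : Nat.card A = Nat.card B) : Nonempty (A ≃* B) := by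
  obtain ⟨g, hg⟩ := hC (A.map (P : Subgroup G).subtype) (B.map (P : Subgroup G).subtype)
    ((P.isPGroup'.to_subgroup A).map _) ((P.isPGroup'.to_subgroup B).map _)
    (by rw [Subgroup.card_map_of_injective (P : Subgroup G).subtype_injective,
      Subgroup.card_map_of_injective (P : Subgroup G).subtype_injective, h])
  exact ⟨(A.equivMapOfInjective _ (P : Subgroup G).subtype_injective).trans
    (((A.map (P : Subgroup G).subtype).equivMapOfInjective _ (MulAut.conj g).injective).trans
      ((MulEquiv.subgroupCongr hg.symm).trans (B.equivMapOfInjective _ (P : Subgroup G).subtype_injective).symm))⟩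

/-- Let p be a prime and G a finite group in which any two p-subgroups of the same order are conjugate, with Sylow p-subgroup P. Then P is cyclic, or elementary abelian, or p = 2 and P is a quaternion group of order 8, or p is odd and P is non-abelian of order p³ and exponent p. -/
theorem result {G : Type*} [Group G] [Finite G]
    {p : ℕ} [Fact p.Prime] (hC : ∀ H K : Subgroup G, IsPGroup p H → IsPGroup p K → Nat.card H = Nat.card K →
      ∃ g : G, K = H.map (MulAut.conj g).toMonoidHom) (P : Sylow p G) :
    IsCyclic P ∨ Cfsg.IsElementaryAbelian p (P : Subgroup G) ∨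
      (p = 2 ∧ Nonempty ((P : Subgroup G) ≃* QuaternionGroup 2)) ∨
      (p ≠ 2 ∧ ¬ IsMulCommutative P ∧ Nat.card P = p ^ 3 ∧ Monoid.exponent P = p) := by
  rcases CfsgLib.SchurExt.structure_of_iso_subgroups P.isPGroup' (iso_of_conj hC P) with h | ⟨h, h'⟩ | h | h
  · exact Or.inl h
  · refine Or.inr (Or.inl ⟨h, fun a ha => ?_⟩)
    simpa using congrArg Subtype.val (h' ⟨a, ha⟩)
  · exact Or.inr (Or.inr (Or.inl h))
  · exact Or.inr (Or.inr (Or.inr h))

end Cfsg.Agent.S4023
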