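import Cfsg.Statements.S4024
import Cfsg.Agent.Lib.SchurExt.IsoSubgroups
import Cfsg.Agent.Lib.SchurExt.Elementary
import Cfsg.Agent.Lib.Cores.PCore
import Cfsg.Agent.Lib.PSolvable.HallHigman
import Cfsg.Agent.Lib.PSolvable.Basic
-- import your own Cfsg.Agent.* helpers here

set_option autoImplicit false
open Cfsg

namespace Cfsg.Agent.S4024

/-- Conjugacy in `G` gives isomorphisms inside a Sylow subgroup. -/
theorem iso_of_conj {G : Type*} [Group G] [Finite G] {p : ℕ}
    (hC : ∀ H K : Subgroup G, IsPGroup p H → IsPGroup p K → Nat.card H = Nat.card K →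
      ∃ g : G, K = H.map (MulAut.conj g).toMonoidHom) (P : Sylow p G) (A B : Subgroup (P : Subgroup G))
    (h : Nat.card A = Nat.card B) : Nonempty (A ≃* B) := by
  obtain ⟨g, hg⟩ := hC (A.map (P : Subgroup G).subtype) (B.map (P : Subgroup G).subtype)
    ((P.isPGroup'.to_subgroup A).map _) ((P.isPGroup'.to_subgroup B).map _)
    (by rw [Subgroup.card_map_of_injective (P : Subgroup G).subtype_injective,
      Subgroup.card_map_of_injective (P : Subgroup G).subtype_injective, h])
  exact ⟨(A.equivMapOfInjective _ (P : Subgroup G).subtype_injective).trans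
    (((A.map (P : Subgroup G).subtype).equivMapOfInjective _ (MulAut.conj g).injective).trans
      ((MulEquiv.subgroupCongr hg.symm).trans (B.equivMapOfInjective _ (P : Subgroup G).subtype_injective).symm))⟩

/-- An element of order `p` lies in any normal subgroup of order divisible by `p`. -/
theorem mem_of_normal {G : Type*} [Group G] [Finite G] {p : ℕ} [Fact p.Prime]
    (hC : ∀ H K : Subgroup G, IsPGroup p H → IsPGroup p K → Nat.card H = Nat.card K →
      ∃ g : G, K = H.map (MulAut.conj g).toMonoidHom) (H : Subgroup G) [H.Normal] (hdiv : p ∣ Nat.card H)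
    {x : G} (hx : orderOf x = p) : x ∈ H := by
  obtain ⟨y, hy⟩ := exists_prime_orderOf_dvd_card' (G := H) p hdiv
  obtain ⟨g, hg⟩ := hC (Subgroup.zpowers (y : G)) (Subgroup.zpowers x)
    (IsPGroup.of_card (n := 1) (by rw [Nat.card_zpowers, Subgroup.orderOf_coe, hy, pow_one]))
    (IsPGroup.of_card (n := 1) (by rw [Nat.card_zpowers, hx, pow_one]))
    (by rw [Nat.card_zpowers, Nat.card_zpowers, Subgroup.orderOf_coe, hy, hx])
  obtain ⟨z, hz, hzx⟩ := hg.le (Subgroup.mem_zpowers x)
  rw [← hzx]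
  exact (inferInstance : H.Normal).conj_mem z (Subgroup.zpowers_le.2 y.2 hz) g

/-- Let p be an odd prime and G a finite group in which any two p-subgroups of the same order are conjugate, with Sylow p-subgroup P. If H is a normal p-solvable subgroup of G whose order is divisible by p, then P is abelian, and either P ≤ H or P is cyclic. -/
theorem result {G : Type*} [Group G] [Finite G]
    {p : ℕ} [Fact p.Prime] (hp : p ≠ 2) (hC : ∀ H K : Subgroup G, IsPGroup p H → IsPGroup p K → Nat.card H = Nat.card K →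
      ∃ g : G, K = H.map (MulAut.conj g).toMonoidHom) (P : Sylow p G)
    (H : Subgroup G) [H.Normal] (hsolv : Cfsg.IsPSolvable p H) (hdiv : p ∣ Nat.card H) :
    IsMulCommutative P ∧ ((P : Subgroup G) ≤ H ∨ IsCyclic P) := by
  have hexp_case : (∀ x : (P : Subgroup G), x ^ p = 1) → (P : Subgroup G) ≤ H := by
    intro hx x hxP
    by_cases h1 : x = 1
    · rw [h1]; exact H.one_mem
    · exact mem_of_normal hC H hdiv (orderOf_eq_prime (by simpa using congrArg Subtype.val (hx ⟨x, hxP⟩)) h1)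
  rcases CfsgLib.SchurExt.structure_of_iso_subgroups P.isPGroup' (iso_of_conj hC P) with h | ⟨h, h'⟩ | h | ⟨-, hna, -, hexp⟩
  · haveI := h
    exact ⟨IsCyclic.commutative, Or.inr h⟩
  · exact ⟨h, Or.inl (hexp_case h')⟩
  · exact absurd h.1 hp
  exfalso
  have hx : ∀ x : (P : Subgroup G), x ^ p = 1 := fun x => orderOf_dvd_iff_pow_eq_one.1 ((Monoid.order_dvd_exponent x).trans hexp.dvd)
  have hPH : (P : Subgroup G) ≤ H := hexp_case hx
  have hpp : p.Prime := Fact.out
  -- the quotient by `O_{p'}(H)`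
  set K := (Cfsg.pPrimeCore p ↥H).map H.subtype with hK
  haveI : (Cfsg.pPrimeCore p ↥H).Characteristic := inferInstance
  haveI : K.Normal := ConjAct.normal_of_characteristic_of_normal
  have hKc : (Nat.card K).Coprime p := by
    rw [hK, Subgroup.card_map_of_injective H.subtype_injective]
    exact CfsgLib.Cores.card_pPrimeCore_coprime p
  set π := QuotientGroup.mk' K with hπ
  have hπs : Function.Surjective π := QuotientGroup.mk'_surjective K
  set Hb := H.map π with hHb
  haveI : Hb.Normal := Subgroup.Normal.map inferInstance π hπs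
  set f : ↥H →* ↥Hb := π.subgroupMap H with hf
  have hfs : Function.Surjective f := π.subgroupMap_surjective H
  have hfk : f.ker = Cfsg.pPrimeCore p ↥H := by
    ext x
    rw [MonoidHom.mem_ker, Subtype.ext_iff]
    show ((x : G) : G ⧸ K) = 1 ↔ _
    rw [QuotientGroup.eq_one_iff, hK]
    exact ⟨fun ⟨y, hy, hyx⟩ => by rwa [Subtype.ext hyx] at hy, fun hx => ⟨x, hx, rfl⟩⟩
  let e : ↥H ⧸ Cfsg.pPrimeCore p ↥H ≃* ↥Hb :=
    (QuotientGroup.quotientMulEquivOfEq hfk.symm).trans (QuotientGroup.quotientKerEquivOfSurjective f hfs)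
  have hne : Cfsg.pCore p (G ⧸ K) ≠ ⊥ := by
    intro hbot
    have h1 : Cfsg.pCore p ↥Hb = ⊥ := by
      have := CfsgLib.Cores.map_subtype_pCore_le (p := p) (N := Hb) (Subgroup.Normal.isSubnormal inferInstance)
      rw [hbot, le_bot_iff] at this
      exact (Subgroup.map_eq_bot_iff_of_injective _ Hb.subtype_injective).1 this
    have hb : Cfsg.pPrimeCore p ↥Hb = ⊥ := by
      rw [← CfsgLib.Cores.map_pPrimeCore_equiv e, CfsgLib.Cores.pPrimeCore_quotient_pPrimeCore, Subgroup.map_bot]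
    have h2 := CfsgLib.PSolvable.centralizer_pCore_le (p := p)
      (CfsgLib.PSolvable.isPSolvable_of_surjective hsolv (f := f) hfs) hb
    rw [h1] at h2
    have h3 : (⊤ : Subgroup ↥Hb) ≤ ⊥ := le_trans (fun x _ => Subgroup.mem_centralizer_iff.2 fun y hy => by
      rw [SetLike.mem_coe, Subgroup.mem_bot] at hy; rw [hy, one_mul, mul_one]) h2
    obtain ⟨y, hy⟩ := exists_prime_orderOf_dvd_card' (G := ↥H) p hdiv
    have h4 : f y = 1 := Subgroup.mem_bot.1 (h3 (Subgroup.mem_top _))
    have h5 : y ∈ Cfsg.pPrimeCore p ↥H := hfk ▸ MonoidHom.mem_ker.2 h4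
    have := Nat.eq_one_of_dvd_coprimes (CfsgLib.Cores.card_pPrimeCore_coprime (G := ↥H) p)
      (hy.symm.dvd.trans (Subgroup.orderOf_dvd_natCard _ h5)) dvd_rfl
    exact hpp.ne_one this
  set Pb := P.mapSurjective hπs with hPb
  have hPKbot : ∀ x ∈ (P : Subgroup G), x ∈ K → x = 1 := fun x hxP hxK => by
    obtain ⟨i, hi⟩ := IsPGroup.iff_orderOf.1 P.isPGroup' ⟨x, hxP⟩
    rw [Subgroup.orderOf_mk] at hi
    exact orderOf_eq_one_iff.1 (Nat.eq_one_of_dvd_coprimes (hKc.symm.pow_left i) hi.dvd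
      (Subgroup.orderOf_dvd_natCard K hxK))
  have hPbexp : ∀ x ∈ (Pb : Subgroup (G ⧸ K)), x ^ p = 1 := by
    intro x hxP
    rw [Sylow.coe_mapSurjective] at hxP
    obtain ⟨y, hy, rfl⟩ := hxP
    rw [← map_pow, show y ^ p = 1 by simpa using congrArg Subtype.val (hx ⟨y, hy⟩), map_one]
  -- all elements of order `p` of the quotient are conjugate up to powers
  have hconj : ∀ a b : G ⧸ K, orderOf a = p → orderOf b = p → ∃ c, b ∈ Subgroup.zpowers (c * a * c⁻¹) := by
    intro a b ha hb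
    have hlift : ∀ a : G ⧸ K, orderOf a = p → ∃ g : G, π g = a ∧ orderOf g = p := by
      intro a ha
      obtain ⟨g, hga, i, hi⟩ := CfsgLib.SchurExt.exists_lift_primePow K a (q := p) (k := 1) (by rw [ha, pow_one])
      have hg1 : g ≠ 1 := fun h => by
        rw [h, QuotientGroup.mk_one] at hga
        rw [← hga, orderOf_one] at ha
        exact hpp.ne_one ha.symm
      obtain ⟨R, hR⟩ := (IsPGroup.of_card (p := p) (G := Subgroup.zpowers g) (n := i)
        (by rw [Nat.card_zpowers, hi])).exists_le_sylow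
      obtain ⟨c, hc⟩ := MulAction.exists_smul_eq G R P
      have hm : c * g * c⁻¹ ∈ (P : Subgroup G) := by
        rw [← hc, Sylow.coe_subgroup_smul]
        exact ⟨g, hR (Subgroup.mem_zpowers g), rfl⟩
      have hgp : (c * g * c⁻¹) ^ p = 1 := by simpa using congrArg Subtype.val (hx ⟨_, hm⟩)
      rw [conj_pow, conj_eq_one_iff] at hgp
      exact ⟨g, hga, orderOf_eq_prime hgp hg1⟩
    obtain ⟨g, rfl, hg⟩ := hlift a ha
    obtain ⟨g', rfl, hg'⟩ := hlift b hb
    obtain ⟨c, hc⟩ := hC (Subgroup.zpowers g) (Subgroup.zpowers g')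
      (IsPGroup.of_card (n := 1) (by rw [Nat.card_zpowers, hg, pow_one]))
      (IsPGroup.of_card (n := 1) (by rw [Nat.card_zpowers, hg', pow_one]))
      (by rw [Nat.card_zpowers, Nat.card_zpowers, hg, hg'])
    rw [MonoidHom.map_zpowers] at hc
    obtain ⟨j, hj⟩ := hc.le (Subgroup.mem_zpowers g')
    refine ⟨π c, j, ?_⟩
    show (π c * π g * (π c)⁻¹) ^ j = π g'
    rw [← hj]
    simp
  -- a normal subgroup of order divisible by `p` contains `Pb`
  have hbig : ∀ R : Subgroup (G ⧸ K), R.Normal → R ≠ ⊥ → R ≤ (Pb : Subgroup (G ⧸ K)) →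
      (Pb : Subgroup (G ⧸ K)) ≤ R := by
    intro R hR hR1 hRP
    obtain ⟨r, hr, hr1⟩ := (Subgroup.bot_or_exists_ne_one R).resolve_left hR1
    intro x hxP
    by_cases h1 : x = 1
    · rw [h1]; exact R.one_mem
    obtain ⟨c, hc⟩ := hconj r x (orderOf_eq_prime (hPbexp r (hRP hr)) hr1) (orderOf_eq_prime (hPbexp x hxP) h1)
    exact Subgroup.zpowers_le.2 (hR.conj_mem r hr c) hc
  haveI hcn : (Cfsg.pCore p (G ⧸ K)).Normal := Subgroup.sSup_normal _ fun N hN => hN.1
  have hPR : (Pb : Subgroup (G ⧸ K)) = Cfsg.pCore p (G ⧸ K) :=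
    le_antisymm (hbig _ inferInstance hne (CfsgLib.Cores.pCore_le_sylow Pb)) (CfsgLib.Cores.pCore_le_sylow Pb)
  haveI : (Pb : Subgroup (G ⧸ K)).Normal := hPR ▸ hcn
  set Z := (Subgroup.center (Pb : Subgroup (G ⧸ K))).map (Pb : Subgroup (G ⧸ K)).subtype with hZ
  haveI : Z.Normal := ConjAct.normal_of_characteristic_of_normal
  have hPbne : (Pb : Subgroup (G ⧸ K)) ≠ ⊥ := hPR ▸ hne
  haveI : Nontrivial (Pb : Subgroup (G ⧸ K)) := (Subgroup.nontrivial_iff_ne_bot _).2 hPbne
  haveI := Pb.isPGroup'.center_nontrivial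
  have hZne : Z ≠ ⊥ := fun h => by
    rw [hZ, Subgroup.map_eq_bot_iff_of_injective _ (Pb : Subgroup (G ⧸ K)).subtype_injective] at h
    exact (Subgroup.nontrivial_iff_ne_bot _).1 inferInstance h
  have hab := hbig Z inferInstance hZne (Subgroup.map_subtype_le _)
  refine hna ⟨⟨fun a b => Subtype.ext ?_⟩⟩
  have hmem : ∀ u : (P : Subgroup G), π (u : G) ∈ (Pb : Subgroup (G ⧸ K)) := fun u => by
    rw [Sylow.coe_mapSurjective]; exact Subgroup.mem_map_of_mem π u.2
  obtain ⟨z, hz, hza⟩ := hab (hmem a)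
  have h6 := congrArg Subtype.val (Subgroup.mem_center_iff.1 hz ⟨π (b : G), hmem b⟩)
  simp only [Subgroup.coe_mul] at h6
  rw [show (z : G ⧸ K) = π (a : G) from hza, ← map_mul, ← map_mul] at h6
  have h7 := hPKbot _ ((P : Subgroup G).mul_mem ((P : Subgroup G).inv_mem ((P : Subgroup G).mul_mem b.2 a.2))
    ((P : Subgroup G).mul_mem a.2 b.2)) (QuotientGroup.eq.1 h6)
  exact (inv_mul_eq_one.1 h7).symm

end Cfsg.Agent.S4024
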