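import Cfsg.Statements.S4027
import Cfsg.Agent.Lib.SchurExt.Elementary
import Cfsg.Agent.Lib.Subnormal.BaerSuzuki
import Cfsg.Agent.Lib.Involutions.Basic
import Cfsg.Agent.Lib.CoprimeAction.Basic
import Cfsg.Agent.Lib.Supersolvable.Basic
-- import your own Cfsg.Agent.* helpers here

set_option autoImplicit false
open Cfsg

namespace Cfsg.Agent.S4027

universe u

open scoped Pointwise
open CfsgLib

/-- Every element of odd order is centralized by the normalizer of the subgroup it generates. -/
def OddIrrational (G : Type u) [Group G] : Prop :=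
  ∀ x : G, (∀ r : ℕ, r.Prime → r ∣ orderOf x → r ≠ 2) →
    Subgroup.normalizer ((Subgroup.zpowers x : Subgroup G) : Set G) ≤ Subgroup.centralizer {x}

variable {G : Type u} [Group G] [Finite G]

theorem mem_pCore_of_involution (h : OddIrrational G) {t : G} (ht : orderOf t = 2) :
    t ∈ Cfsg.pCore 2 G := by
  refine Subnormal.mem_pCore_of_forall_closure_pair fun g => ?_
  have hg : orderOf (g * t * g⁻¹) = 2 := by rw [Involutions.orderOf_conj, ht]
  set s := t * (g * t * g⁻¹) with hs
  obtain ⟨a, b, hab, ⟨k, hk⟩, hb⟩ := NormalPComplement.exists_pParts (p := 2) (isOfFinOrder_of_finite s)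
  have hinv : t * s ^ b * t⁻¹ = (s ^ b)⁻¹ := by
    rw [← conj_pow, hs, Involutions.conj_mul_eq_inv ht hg, inv_pow]
  have hcen : t ∈ Subgroup.centralizer ({s ^ b} : Set G) :=
    h (s ^ b) (fun r hr hrd hr2 => by
      subst hr2
      exact absurd (Nat.eq_one_of_dvd_coprimes hb hrd dvd_rfl) (by norm_num))
      (SchurExt.mem_normalizer_zpowers (by rw [hinv]; exact inv_mem (Subgroup.mem_zpowers _)))
  have hsb : (s ^ b) ^ 2 = 1 := by
    rw [Involutions.mem_centralizer_singleton] at hcen
    rw [hcen, mul_inv_cancel_right] at hinv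
    rw [pow_two]
    exact mul_eq_one_iff_eq_inv.2 hinv
  have hsb1 : s ^ b = 1 := orderOf_eq_one_iff.1
    (Nat.eq_one_of_dvd_coprimes hb dvd_rfl (orderOf_dvd_of_pow_eq_one hsb))
  have hsk : s ^ (2 ^ k) = 1 := by
    rw [hsb1, mul_one] at hab
    rw [← hab]
    exact orderOf_dvd_iff_pow_eq_one.1 hk
  intro d
  obtain ⟨j, hj | hj⟩ := Involutions.mem_closure_pair ht hg d.2
  · refine ⟨k, Subtype.ext ?_⟩
    rw [SubmonoidClass.coe_pow, hj, ← zpow_natCast, ← zpow_mul, mul_comm, zpow_mul, zpow_natCast,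
      ← hs, hsk, one_zpow]
    rfl
  · refine ⟨1, Subtype.ext ?_⟩
    rw [SubmonoidClass.coe_pow, hj, pow_one, pow_two, Involutions.zpow_mul_mul_zpow_mul ht hg,
      sub_self, zpow_zero]
    rfl

theorem OddIrrational.quotient (h : OddIrrational G) (N : Subgroup G) [N.Normal]
    (hN : IsPGroup 2 N) : OddIrrational (G ⧸ N) := by
  intro x hx
  obtain ⟨x, rfl⟩ := QuotientGroup.mk'_surjective N x
  obtain ⟨a, b, hab, ⟨k, hk⟩, hb⟩ := NormalPComplement.exists_pParts (p := 2) (isOfFinOrder_of_finite x)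
  have hxb : ((x ^ b : G) : G ⧸ N) = (x : G ⧸ N) := by
    have h1 : ((x ^ a : G) : G ⧸ N) = 1 := orderOf_eq_one_iff.1 (Nat.eq_one_of_dvd_coprimes
      ((SchurExt.coprime_of_forall_prime hx Nat.prime_two).pow_right k)
      (by rw [QuotientGroup.mk_pow]; exact orderOf_pow_dvd a)
      ((orderOf_map_dvd (QuotientGroup.mk' N) (x ^ a)).trans hk))
    conv_rhs => rw [← hab, QuotientGroup.mk_mul, h1, one_mul]
  change Subgroup.normalizer ((Subgroup.zpowers (x : G ⧸ N) : Subgroup (G ⧸ N)) : Set (G ⧸ N)) ≤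
    Subgroup.centralizer {(x : G ⧸ N)}
  rw [← hxb]
  set y := x ^ b with hy
  intro c hc
  obtain ⟨g, rfl⟩ := QuotientGroup.mk'_surjective N c
  obtain ⟨j, hj⟩ := Subgroup.mem_zpowers_iff.1
    ((Subgroup.mem_normalizer_iff.1 hc _).1 (Subgroup.mem_zpowers (y : G ⧸ N)))
  have hB : Subgroup.zpowers (g * y * g⁻¹) ≤ N ⊔ Subgroup.zpowers y := by
    rw [Subgroup.zpowers_le]
    have : (g * y * g⁻¹) * (y ^ j)⁻¹ ∈ N := (QuotientGroup.eq_one_iff _).1 (by
      simp only [QuotientGroup.mk_mul, QuotientGroup.mk_inv, QuotientGroup.mk_zpow, hj]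
      exact mul_inv_cancel _)
    simpa using Subgroup.mul_mem_sup this (Subgroup.zpow_mem_zpowers y j)
  have hcop : (Nat.card ↥(Subgroup.zpowers (g * y * g⁻¹))).Coprime (Nat.card N) := by
    obtain ⟨m, hm⟩ := IsPGroup.iff_card.1 hN
    rw [hm, Nat.card_zpowers, Involutions.orderOf_conj]
    exact hb.pow_right m
  obtain ⟨n, hn, hle⟩ := CoprimeAction.exists_le_conj_of_coprime
    (Subgroup.zpowers_le.2 (Subgroup.mem_normalizer_iff.2 fun z =>
      ⟨fun hz => ‹N.Normal›.conj_mem z hz y, fun hz => by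
        simpa [mul_assoc] using ‹N.Normal›.conj_mem _ hz y⁻¹⟩))
    hB hcop (Or.inr (by haveI := hN.isNilpotent; infer_instance))
  obtain ⟨z, hz, hze⟩ := hle (Subgroup.mem_zpowers (g * y * g⁻¹))
  have hnorm : n⁻¹ * g ∈ Subgroup.normalizer ((Subgroup.zpowers y : Subgroup G) : Set G) := by
    refine SchurExt.mem_normalizer_zpowers ?_
    change MulAut.conj n z = g * y * g⁻¹ at hze
    rw [MulAut.conj_apply] at hze
    suffices heq : n⁻¹ * g * y * (n⁻¹ * g)⁻¹ = z by rw [heq]; exact hz
    calc n⁻¹ * g * y * (n⁻¹ * g)⁻¹ = n⁻¹ * (g * y * g⁻¹) * n := by group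
      _ = z := by rw [← hze]; group
  have hcomm := Involutions.mem_centralizer_singleton.1
    (h y (fun r hr hrd hr2 => by
      subst hr2
      exact absurd (Nat.eq_one_of_dvd_coprimes hb hrd dvd_rfl) (by norm_num)) hnorm)
  refine Involutions.mem_centralizer_singleton.2 ?_
  have hn1 : ((n : G) : G ⧸ N) = 1 := (QuotientGroup.eq_one_iff _).2 hn
  have := congrArg (QuotientGroup.mk' N) hcomm
  simpa [hn1] using this

theorem sylow_normal (h : OddIrrational G) (P : Sylow 2 G) : (P : Subgroup G).Normal := by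
  induction hn : Nat.card G using Nat.strong_induction_on generalizing G with
  | _ n IH =>
    subst hn
    by_cases h2 : 2 ∣ Nat.card G
    · set N := Cfsg.pCore 2 G with hNdef
      have hN2 : IsPGroup 2 N := Cores.isPGroup_pCore 2 G
      obtain ⟨t, ht⟩ := exists_prime_orderOf_dvd_card' (G := G) 2 h2
      have hNne : N ≠ ⊥ := fun hb => Involutions.ne_one ht
        (Subgroup.mem_bot.1 (hb ▸ mem_pCore_of_involution h ht))
      have hsurj := QuotientGroup.mk'_surjective N
      have hIH := IH _ (Supersolvable.card_quotient_lt N hNne) (h.quotient N hN2)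
        (P.mapSurjective hsurj) rfl
      rw [Sylow.coe_mapSurjective] at hIH
      have hle : N ≤ (P : Subgroup G) := Cores.pCore_le_sylow P
      rw [← Subgroup.comap_map_eq_self ((QuotientGroup.ker_mk' N).symm ▸ hle :
        (QuotientGroup.mk' N).ker ≤ (P : Subgroup G))]
      exact hIH.comap _
    · have : (P : Subgroup G) = ⊥ := by
        obtain ⟨k, hk⟩ := IsPGroup.iff_card.1 P.isPGroup'
        rcases k.eq_zero_or_pos with rfl | hk0
        · exact Subgroup.card_eq_one.1 (by simpa using hk)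
        · exact absurd ((dvd_pow_self 2 hk0.ne').trans
            (hk ▸ Subgroup.card_subgroup_dvd_card _)) h2
      rw [this]
      infer_instance


/-- Let G be a finite group in which every element x of odd order satisfies N_G(⟨x⟩) = C_G(x). Then the Sylow 2-subgroups of G are normal. -/
theorem result {G : Type*} [Group G] [Finite G]
    (hirr : ∀ x : G, (∀ r : ℕ, r.Prime → r ∣ orderOf x → r ≠ 2) →
      Subgroup.normalizer ((Subgroup.zpowers x : Subgroup G) : Set G) ≤ Subgroup.centralizer {x}) (P : Sylow 2 G) :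
    (P : Subgroup G).Normal := by
  exact sylow_normal hirr P

end Cfsg.Agent.S4027
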