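import Cfsg.Statements.S4028
import Cfsg.Agent.Lib.SchurExt.TI
-- import your own Cfsg.Agent.* helpers here

set_option autoImplicit false
open Cfsg

namespace Cfsg.Agent.S4028


/-- Let G be a finite group with Sylow 2-subgroup P. Then N_G(⟨x⟩) = C_G(x) holds for every 2-element x of G if and only if N_P(⟨y⟩) = C_P(y) holds for every y ∈ P (computed inside P). -/
theorem result {G : Type*} [Group G] [Finite G] (P : Sylow 2 G) :
    (∀ x : G, (∀ r : ℕ, r.Prime → r ∣ orderOf x → r = 2) →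
      Subgroup.normalizer ((Subgroup.zpowers x : Subgroup G) : Set G) ≤ Subgroup.centralizer {x}) ↔
    (∀ y : ↥(P : Subgroup G), Subgroup.normalizer ((Subgroup.zpowers y : Subgroup ↥(P : Subgroup G)) : Set ↥(P : Subgroup G)) ≤
        Subgroup.centralizer {y}) := by
  constructor
  · intro h y w hw
    have h2 : ∀ r : ℕ, r.Prime → r ∣ orderOf (y : G) → r = 2 := fun r hr hrd => by
      obtain ⟨k, hk⟩ := IsPGroup.iff_orderOf.1 P.isPGroup' y
      rw [Subgroup.orderOf_coe, hk] at hrd
      exact (Nat.prime_dvd_prime_iff_eq hr Nat.prime_two).1 (hr.dvd_of_dvd_pow hrd)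
    have hw' : (w : G) ∈ Subgroup.normalizer ((Subgroup.zpowers (y : G) : Subgroup G) : Set G) := by
      refine CfsgLib.SchurExt.mem_normalizer_zpowers ?_
      obtain ⟨j, hj⟩ := Subgroup.mem_zpowers_iff.1 ((Subgroup.mem_normalizer_iff.1 hw y).1 (Subgroup.mem_zpowers y))
      exact Subgroup.mem_zpowers_iff.2 ⟨j, by rw [← SubgroupClass.coe_zpow, hj]; simp⟩
    exact Subgroup.mem_centralizer_singleton_iff.2
      (Subtype.ext (Subgroup.mem_centralizer_singleton_iff.1 (h _ h2 hw')))
  · intro h x hx g hg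
    have hx2 : ∃ n, orderOf x = 2 ^ n :=
      ⟨_, Nat.eq_prime_pow_of_unique_prime_dvd (orderOf_pos x).ne' fun hr hrd => hx _ hr hrd⟩
    obtain ⟨n, hn⟩ := hx2
    obtain ⟨a, b, hab, ⟨e, he⟩, hb⟩ :=
      CfsgLib.NormalPComplement.exists_pParts (p := 2) (isOfFinOrder_of_finite g)
    have hga := Subgroup.pow_mem _ hg a
    have hgb := Subgroup.pow_mem _ hg b
    rw [← hab]
    refine mul_mem ?_ (Subgroup.mem_centralizer_singleton_iff.2 ?_)
    · have hp : IsPGroup 2 ↥(Subgroup.zpowers x ⊔ Subgroup.zpowers (g ^ a)) := by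
        obtain ⟨i, -, hi⟩ := (Nat.dvd_prime_pow Nat.prime_two).1 he
        exact IsPGroup.to_sup_of_normal_left' (IsPGroup.of_card (by rw [Nat.card_zpowers, hn]))
          (IsPGroup.of_card (by rw [Nat.card_zpowers, hi])) (Subgroup.zpowers_le.2 hga)
      obtain ⟨R, hR⟩ := hp.exists_le_sylow
      obtain ⟨c, hc⟩ := MulAction.exists_smul_eq G P R
      rw [← hc, Sylow.coe_subgroup_smul] at hR
      have hxc := CfsgLib.SchurExt.mem_conj_smul.1 (hR (Subgroup.mem_sup_left (Subgroup.mem_zpowers x)))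
      have hac := CfsgLib.SchurExt.mem_conj_smul.1 (hR (Subgroup.mem_sup_right (Subgroup.mem_zpowers (g ^ a))))
      obtain ⟨j, hj⟩ := Subgroup.mem_zpowers_iff.1 ((Subgroup.mem_normalizer_iff.1 hga x).1 (Subgroup.mem_zpowers x))
      have hcent := h ⟨_, hxc⟩ (show (⟨_, hac⟩ : ↥(P : Subgroup G)) ∈ _ from
        CfsgLib.SchurExt.mem_normalizer_zpowers (Subgroup.mem_zpowers_iff.2 ⟨j, Subtype.ext (by
          have : (c⁻¹ * x * c) ^ j = c⁻¹ * x ^ j * c := by
            simpa using (map_zpow (MulAut.conj c⁻¹) x j).symm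
          simp only [SubgroupClass.coe_zpow, Subgroup.coe_mul, InvMemClass.coe_inv, this, hj]
          group)⟩))
      have h5 := congrArg Subtype.val (Subgroup.mem_centralizer_singleton_iff.1 hcent)
      refine Subgroup.mem_centralizer_singleton_iff.2 ?_
      simpa [mul_assoc] using congrArg (fun t => c * t * c⁻¹) h5
    · obtain ⟨j, hj⟩ := Subgroup.mem_zpowers_iff.1 ((Subgroup.mem_normalizer_iff.1 hgb x).1 (Subgroup.mem_zpowers x))
      rcases n.eq_zero_or_pos with rfl | hn0
      · rw [pow_zero, orderOf_eq_one_iff] at hn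
        rw [hn, mul_one, one_mul]
      refine CfsgLib.SchurExt.commute_of_conj_eq_zpow hj.symm ?_ hn.dvd hb
      by_contra hodd
      obtain ⟨t, ht⟩ : (2 : ℤ) ∣ j := by omega
      have h1 : (g ^ b) * x * (g ^ b)⁻¹ ^ 1 = x ^ j := by rw [pow_one, hj]
      have ho : orderOf (x ^ j) = 2 ^ n := by
        rw [hj, ← hn]
        exact (SemiconjBy.orderOf_eq (g ^ b) (by simp [SemiconjBy, mul_assoc])).symm
      have hd : orderOf (x ^ j) ∣ 2 ^ (n - 1) := by
        refine orderOf_dvd_of_pow_eq_one ?_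
        rw [← zpow_natCast, ← zpow_mul, ← orderOf_dvd_iff_zpow_eq_one, hn, ht]
        refine ⟨t, ?_⟩
        push_cast
        rw [mul_comm (2 : ℤ) t, mul_assoc, ← pow_succ', Nat.sub_add_cancel hn0, mul_comm]
      rw [ho] at hd
      have := Nat.pow_dvd_pow_iff_le_right (by norm_num : 1 < 2) |>.1 hd
      omega

end Cfsg.Agent.S4028
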