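import Cfsg.Statements.S4029
import Cfsg.Agent.Lib.Subnormal.SignChars
import Cfsg.Agent.Lib.CharTheory.Orthogonality
import Cfsg.Agent.Lib.RealChar.Indicator

set_option autoImplicit false
open Cfsg

namespace Cfsg.Agent.S4029

open CfsgLib.Subnormal.SignChars
open scoped ComplexConjugate

theorem count {P : Type*} [Group P] [Fintype P] (hP : IsPGroup 2 P)
    (hreal : ∀ g : P, IsConj g g⁻¹ → g ^ 2 = 1) :
    Nat.card (P ⧸ frattini P) ≤
      Nat.card {c : ConjClasses P // ∃ y : P, ConjClasses.mk y = c ∧ y ^ 2 = 1} := by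
  classical
  have : Fact (Nat.Prime 2) := ⟨Nat.prime_two⟩
  have : Finite (Cfsg.IrrCharacter P) := CfsgLib.CharTheory.finite_irrCharacter
  have := Fintype.ofFinite (Cfsg.IrrCharacter P)
  have : Finite (Sign P) := Nat.finite_of_card_ne_zero (by rw [card_sign hP]; exact Nat.card_pos.ne')
  have := Fintype.ofFinite (Sign P)
  have hG0 : (Nat.card P : ℂ) ≠ 0 := Nat.cast_ne_zero.mpr Nat.card_pos.ne'
  have hnat : ∀ χ : Cfsg.IrrCharacter P, ∃ m : ℕ,
      (Nat.card P : ℂ)⁻¹ * ∑ g : P, (χ : P → ℂ) g * (χ : P → ℂ) g = (m : ℂ) := by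
    intro χ
    obtain ⟨r, ρ, hρ, hρc⟩ := χ.2
    exact ⟨_, by rw [← hρc]; exact (CfsgLib.RealChar.finrank_formInvariants ρ).symm⟩
  choose m hm using hnat
  let lin : Sign P → Cfsg.IrrCharacter P := fun a =>
    ⟨fun g => (ev a g : ℂ), CfsgLib.CharTheory.isIrrCharacter_linear (ev a)⟩
  have hlin : Function.Injective lin := fun a b h =>
    ev_injective (CfsgLib.CharTheory.linear_inj (congrArg Subtype.val h))
  have hone : ∀ a, m (lin a) = 1 := fun a => by
    have h := hm (lin a)
    have h2 : ∀ g : P, ((lin a : Cfsg.IrrCharacter P) : P → ℂ) g *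
        ((lin a : Cfsg.IrrCharacter P) : P → ℂ) g = 1 := fun g => by
      show (ev a g : ℂ) * ev a g = 1
      rcases ev_eq_one_or_neg_one hP a g with e | e <;> simp [e]
    rw [Finset.sum_congr rfl fun g _ => h2 g, Finset.sum_const, Finset.card_univ,
      ← Nat.card_eq_fintype_card, nsmul_eq_mul, mul_one, inv_mul_cancel₀ hG0] at h
    exact_mod_cast h.symm
  have hlow : Nat.card (P ⧸ frattini P) ≤ ∑ χ, m χ := by
    rw [← card_sign hP, Nat.card_eq_fintype_card]
    calc Fintype.card (Sign P) = ∑ a : Sign P, m (lin a) := by simp [hone]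
      _ = ∑ χ ∈ Finset.univ.image lin, m χ := (Finset.sum_image hlin.injOn).symm
      _ ≤ ∑ χ, m χ := Finset.sum_le_sum_of_subset (Finset.subset_univ _)
  refine hlow.trans (le_of_eq ?_)
  -- column orthogonality
  let S := Finset.univ.filter fun g : P => g ^ 2 = 1
  have h1 : ((∑ χ, m χ : ℕ) : ℂ) =
      (Nat.card P : ℂ)⁻¹ * ((∑ g ∈ S, Nat.card (Subgroup.centralizer ({g} : Set P)) : ℕ) : ℂ) := by
    push_cast
    rw [Finset.sum_congr rfl fun χ _ => (hm χ).symm, ← Finset.mul_sum, Finset.sum_comm, Finset.sum_filter]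
    congr 1
    refine Finset.sum_congr rfl fun g _ => ?_
    have h2 : ∑ χ : Cfsg.IrrCharacter P, (χ : P → ℂ) g * (χ : P → ℂ) g =
        ∑ χ : Cfsg.IrrCharacter P, (χ : P → ℂ) g * conj ((χ : P → ℂ) g⁻¹) :=
      Finset.sum_congr rfl fun χ _ => by
        rw [← CfsgLib.CharTheory.IsIrrCharacter.inv χ.2 g⁻¹, inv_inv]
    rw [h2, CfsgLib.CharTheory.sum_mul_conj]
    by_cases h : g ^ 2 = 1
    · have hgg : IsConj g g⁻¹ := by
        rw [show g⁻¹ = g from inv_eq_of_mul_eq_one_right (by rw [← sq]; exact h)]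
      rw [if_pos hgg, if_pos h]
    · rw [if_neg fun hc => h (hreal g hc), if_neg h]
  have h2 : ∑ g ∈ S, Nat.card (Subgroup.centralizer ({g} : Set P)) =
      Nat.card P * Nat.card {c : ConjClasses P // ∃ y : P, ConjClasses.mk y = c ∧ y ^ 2 = 1} := by
    rw [← Finset.sum_fiberwise_of_maps_to (g := ConjClasses.mk)
      (t := Finset.univ.filter fun c : ConjClasses P => ∃ y : P, ConjClasses.mk y = c ∧ y ^ 2 = 1)
      (fun g hg => Finset.mem_filter.mpr ⟨Finset.mem_univ _, g, rfl, (Finset.mem_filter.mp hg).2⟩)]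
    rw [Nat.card_eq_fintype_card (α := {c : ConjClasses P // _}), Fintype.card_subtype, mul_comm,
      ← smul_eq_mul, ← Finset.sum_const]
    refine Finset.sum_congr rfl fun c hc => ?_
    obtain ⟨y, rfl, hy⟩ := (Finset.mem_filter.mp hc).2
    have hmemS : ∀ g : P, IsConj y g → g ^ 2 = 1 := fun g hg => by
      obtain ⟨t, rfl⟩ := isConj_iff.mp hg
      rw [conj_pow, hy, mul_one, mul_inv_cancel]
    have hfilter : S.filter (fun g => ConjClasses.mk g = ConjClasses.mk y) =
        Finset.univ.filter fun g => IsConj y g := by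
      ext g
      simp only [S, Finset.mem_filter, Finset.mem_univ, true_and]
      exact ⟨fun h => (ConjClasses.mk_eq_mk_iff_isConj.mp h.2).symm,
        fun h => ⟨hmemS g h, ConjClasses.mk_eq_mk_iff_isConj.mpr h.symm⟩⟩
    rw [hfilter]
    have hcard : ∀ g ∈ Finset.univ.filter (fun g => IsConj y g),
        Nat.card (Subgroup.centralizer ({g} : Set P)) = Nat.card (Subgroup.centralizer ({y} : Set P)) := by
      intro g hg
      have hg' : IsConj y g := (Finset.mem_filter.mp hg).2
      have hidx : Nat.card {x : P // IsConj g x} = Nat.card {x : P // IsConj y x} :=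
        Nat.card_congr (Equiv.subtypeEquivRight fun x => ⟨fun h => hg'.trans h, fun h => hg'.symm.trans h⟩)
      rw [CfsgLib.CharTheory.card_isConj, CfsgLib.CharTheory.card_isConj] at hidx
      have e1 := (Subgroup.centralizer ({g} : Set P)).index_mul_card
      rw [← (Subgroup.centralizer ({y} : Set P)).index_mul_card, hidx] at e1
      exact Nat.eq_of_mul_eq_mul_left (Nat.pos_of_ne_zero Subgroup.index_ne_zero_of_finite) e1
    rw [Finset.sum_congr rfl hcard, Finset.sum_const, smul_eq_mul,
      ← (Subgroup.centralizer ({y} : Set P)).index_mul_card, ← CfsgLib.CharTheory.card_isConj,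
      Nat.card_eq_fintype_card (α := {x : P // IsConj y x}), Fintype.card_subtype]
  rw [h2, Nat.cast_mul, ← mul_assoc, inv_mul_cancel₀ hG0, one_mul] at h1
  exact_mod_cast h1


/-- Let P be a finite 2-group in which N_P(⟨y⟩) = C_P(y) for every y ∈ P. If s is the number of conjugacy classes of involutions of P, then #(P/Φ(P)) ≤ s + 1; in particular the subgroup generated by the involutions of P has order at least #(P/Φ(P)). -/
theorem result {P : Type*} [Group P] [Finite P] (hP : IsPGroup 2 P)
    (hirr : ∀ y : P, Subgroup.normalizer ((Subgroup.zpowers y : Subgroup P) : Set P) ≤ Subgroup.centralizer {y}) :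
    Nat.card (P ⧸ frattini P) ≤ Nat.card {c : ConjClasses P // ∃ y : P, ConjClasses.mk y = c ∧ orderOf y = 2} + 1 ∧
    Nat.card (P ⧸ frattini P) ≤ Nat.card (Subgroup.closure {y : P | orderOf y = 2}) := by
  classical
  have := Fintype.ofFinite P
  -- real elements are involutions
  have hreal : ∀ g : P, IsConj g g⁻¹ → g ^ 2 = 1 := by
    intro g hg
    obtain ⟨t, ht⟩ := isConj_iff.mp hg
    have hmem : t ∈ Subgroup.normalizer ((Subgroup.zpowers g : Subgroup P) : Set P) := by
      rw [Subgroup.mem_normalizer_iff]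
      have h2 : ∀ i : ℤ, t * g ^ i * t⁻¹ = g ^ (-i) := fun i => by
        rw [← conj_zpow, ht, inv_zpow, zpow_neg]
      intro h
      constructor
      · rintro ⟨i, rfl⟩; exact ⟨-i, (h2 i).symm⟩
      · rintro ⟨i, hi⟩
        refine ⟨-i, (MulAut.conj t).injective ?_⟩
        show t * g ^ (-i) * t⁻¹ = t * h * t⁻¹
        rw [h2, neg_neg]
        exact hi
    have h3 := Subgroup.mem_centralizer_singleton_iff.mp (hirr g hmem)
    rw [h3, mul_inv_cancel_right] at ht
    rw [sq]
    exact mul_eq_one_iff_eq_inv.mpr ht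
  let T := {c : ConjClasses P // ∃ y : P, ConjClasses.mk y = c ∧ y ^ 2 = 1}
  have hT : Nat.card T = Nat.card {c : ConjClasses P // ∃ y : P, ConjClasses.mk y = c ∧ orderOf y = 2} + 1 := by
    have hset : {c : ConjClasses P | ∃ y : P, ConjClasses.mk y = c ∧ y ^ 2 = 1} =
        insert (ConjClasses.mk 1) {c : ConjClasses P | ∃ y : P, ConjClasses.mk y = c ∧ orderOf y = 2} := by
      ext c
      constructor
      · rintro ⟨y, rfl, hy⟩
        by_cases h1 : y = 1
        · exact Or.inl (by rw [h1])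
        · exact Or.inr ⟨y, rfl, orderOf_eq_prime hy h1⟩
      · rintro (rfl | ⟨y, rfl, hy⟩)
        · exact ⟨1, rfl, one_pow 2⟩
        · exact ⟨y, rfl, by rw [← hy, pow_orderOf_eq_one]⟩
    have hnot : ConjClasses.mk (1 : P) ∉ {c : ConjClasses P | ∃ y : P, ConjClasses.mk y = c ∧ orderOf y = 2} := by
      rintro ⟨y, hy, hy2⟩
      rw [ConjClasses.mk_eq_mk_iff_isConj] at hy
      rw [isConj_one_left.mp hy, orderOf_one] at hy2
      exact absurd hy2 (by norm_num)
    have h1 := congrArg Set.ncard hset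
    rw [Set.ncard_insert_of_notMem hnot (Set.toFinite _)] at h1
    exact h1
  have hmain : Nat.card (P ⧸ frattini P) ≤ Nat.card T := count hP hreal
  refine ⟨hT ▸ hmain, hmain.trans ?_⟩
  let f : T → (Subgroup.closure {y : P | orderOf y = 2}) := fun c => ⟨c.2.choose, by
    by_cases h1 : c.2.choose = 1
    · rw [h1]; exact one_mem _
    · exact Subgroup.subset_closure (orderOf_eq_prime c.2.choose_spec.2 h1)⟩
  refine Nat.card_le_card_of_injective f fun c d h => Subtype.ext ?_
  rw [← c.2.choose_spec.1, ← d.2.choose_spec.1]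
  exact congrArg (fun z : Subgroup.closure {y : P | orderOf y = 2} => ConjClasses.mk (z : P)) h

end Cfsg.Agent.S4029
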