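import Cfsg.Statements.S4032
import Cfsg.Agent.Lib.CoprimeAction.Basic
import Mathlib.GroupTheory.QuotientGroup.Basic
import Mathlib.RingTheory.Coprime.Lemmas

set_option autoImplicit false
open Cfsg

namespace Cfsg.Agent.S4032

/-- Let π be a set of primes and G a finite group in which N_G(⟨x⟩) = C_G(x) for every π-element x. If N is a normal subgroup of G whose order is divisible by no prime of π, then G/N has the same property: N_{G/N}(⟨y⟩) = C_{G/N}(y) for every π-element y of G/N. -/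
theorem result {G : Type*} [Group G] [Finite G] (π : Set ℕ)
    (hirr : ∀ x : G, (∀ r : ℕ, r.Prime → r ∣ orderOf x → r ∈ π) →
      Subgroup.normalizer ((Subgroup.zpowers x : Subgroup G) : Set G) ≤ Subgroup.centralizer {x})
    (N : Subgroup G) [N.Normal] (hN : ∀ r : ℕ, r.Prime → r ∣ Nat.card N → r ∉ π) :
    ∀ y : G ⧸ N, (∀ r : ℕ, r.Prime → r ∣ orderOf y → r ∈ π) →
      Subgroup.normalizer ((Subgroup.zpowers y : Subgroup (G ⧸ N)) : Set (G ⧸ N)) ≤ Subgroup.centralizer {y} := by
  intro y hy z hz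
  obtain ⟨g, rfl⟩ := QuotientGroup.mk'_surjective N y
  obtain ⟨h, rfl⟩ := QuotientGroup.mk'_surjective N z
  set d := orderOf (QuotientGroup.mk' N g) with hd
  have hcop : d.Coprime (Nat.card N) := Nat.coprime_of_dvd fun r hr hrd hrN => hN r hr hrN (hy r hr hrd)
  obtain ⟨a, b, hab⟩ := Nat.isCoprime_iff_coprime.mpr hcop
  set x := g ^ (b * (Nat.card N : ℤ)) with hx
  have hgd : g ^ d ∈ N := (QuotientGroup.eq_one_iff _).mp (by
    rw [← QuotientGroup.mk'_apply, map_pow, pow_orderOf_eq_one])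
  have hxd : x ^ d = 1 := by
    have h1 : (g ^ d) ^ Nat.card N = 1 := by
      exact orderOf_dvd_iff_pow_eq_one.mp (Subgroup.orderOf_dvd_natCard N hgd)
    rw [hx, ← zpow_natCast, ← zpow_mul,
      show b * (Nat.card N : ℤ) * (d : ℤ) = ((d * Nat.card N : ℕ) : ℤ) * b by push_cast; ring,
      zpow_mul, zpow_natCast, pow_mul, h1, one_zpow]
  have hxq : QuotientGroup.mk' N x = QuotientGroup.mk' N g := by
    rw [hx, map_zpow, show b * (Nat.card N : ℤ) = 1 - a * (d : ℤ) by rw [← hab]; ring, zpow_sub,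
      zpow_one, mul_comm a, zpow_mul, zpow_natCast, pow_orderOf_eq_one, one_zpow, inv_one, mul_one]
  have hxpi : ∀ r : ℕ, r.Prime → r ∣ orderOf x → r ∈ π := fun r hr hrd =>
    hy r hr (hrd.trans (orderOf_dvd_of_pow_eq_one hxd))
  have hle : Subgroup.zpowers (h * x * h⁻¹) ≤ N ⊔ Subgroup.zpowers x := by
    rw [Subgroup.zpowers_le]
    have h1 : QuotientGroup.mk' N (h * x * h⁻¹) ∈ Subgroup.zpowers (QuotientGroup.mk' N g) := by
      rw [map_mul, map_mul, map_inv, hxq]
      exact (Subgroup.mem_normalizer_iff.mp hz _).mp (Subgroup.mem_zpowers _)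
    obtain ⟨i, hi⟩ := h1
    have h2 : (x ^ i)⁻¹ * (h * x * h⁻¹) ∈ N := (QuotientGroup.eq).mp (by
      simp only [← QuotientGroup.mk'_apply, map_zpow, hxq, ← hi])
    have := mul_mem (Subgroup.mem_sup_right (S := N) (Subgroup.zpow_mem _ (Subgroup.mem_zpowers x) i))
      (Subgroup.mem_sup_left h2)
    rwa [mul_inv_cancel_left] at this
  have hcop' : (Nat.card (Subgroup.zpowers (h * x * h⁻¹))).Coprime (Nat.card N) := by
    rw [Nat.card_zpowers, ← MulAut.conj_apply, MulEquiv.orderOf_eq]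
    exact hcop.coprime_dvd_left (orderOf_dvd_of_pow_eq_one hxd)
  obtain ⟨n, hn, hnle⟩ := CfsgLib.CoprimeAction.exists_le_conj_of_coprime (N := N)
    (by rw [Subgroup.normalizer_eq_top_iff.mpr inferInstance]; exact le_top) hle hcop'
    (Or.inl (CfsgLib.CoprimeAction.isSolvable_zpowers _))
  have hgx : (n⁻¹ * h) * x * (n⁻¹ * h)⁻¹ ∈ Subgroup.zpowers x := by
    have := CfsgLib.CoprimeAction.mem_conj_iff.mp (hnle (Subgroup.mem_zpowers _))
    rwa [show n⁻¹ * (h * x * h⁻¹) * n = (n⁻¹ * h) * x * (n⁻¹ * h)⁻¹ by group] at this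
  have hmem : n⁻¹ * h ∈ Subgroup.normalizer ((Subgroup.zpowers x : Subgroup G) : Set G) := by
    refine CfsgLib.CoprimeAction.mem_normalizer_of_conj_mem ?_
    rintro _ ⟨i, rfl⟩
    have := (Subgroup.zpowers x).zpow_mem hgx i
    rwa [conj_zpow] at this
  have h3 := Subgroup.mem_centralizer_singleton_iff.mp (hirr x hxpi hmem)
  rw [Subgroup.mem_centralizer_singleton_iff]
  have h4 := congrArg (QuotientGroup.mk' N) h3
  simp only [map_mul, map_inv, hxq,
    show QuotientGroup.mk' N n = 1 from (QuotientGroup.eq_one_iff n).mpr hn, inv_one, one_mul] at h4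
  exact h4

end Cfsg.Agent.S4032
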