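import Cfsg.Statements.S4035
import Cfsg.Agent.Lib.Subnormal.Cover
import Cfsg.Agent.Lib.ElementOrders.Frobenius
import Mathlib.GroupTheory.SchurZassenhaus
import Mathlib.GroupTheory.Sylow

set_option autoImplicit false
open Cfsg

namespace Cfsg.Agent.S4035

/-- Let G be a finite group and p a prime such that p divides the size of no conjugacy class of p-regular elements (elements of order prime to p). Then G is the internal direct product of a Sylow p-subgroup P and a normal subgroup H of order prime to p: P is normal, P ⊓ H = 1 and PH = G. -/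
theorem result {G : Type*} [Group G] [Finite G] {p : ℕ} [Fact p.Prime]
    (h : ∀ x : G, (orderOf x).Coprime p → ¬ p ∣ (ConjClasses.mk x).carrier.ncard) (P : Sylow p G) :
    (P : Subgroup G).Normal ∧ ∃ H : Subgroup G, H.Normal ∧ ¬ p ∣ Nat.card H ∧
      (P : Subgroup G) ⊓ H = ⊥ ∧ (P : Subgroup G) ⊔ H = ⊤ := by
  have hp : p.Prime := Fact.out
  set C := Subgroup.centralizer ((P : Subgroup G) : Set G) with hCdef
  have hCN : C ≤ Subgroup.normalizer ((P : Subgroup G) : Set G) :=
    Subgroup.centralizer_le_normalizer _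
  -- every element is conjugate into `P ⊔ C`
  have htop : (P : Subgroup G) ⊔ C = ⊤ := by
    refine CfsgLib.Subnormal.eq_top_of_forall_exists_conj_mem fun z => ?_
    obtain ⟨x, y, -, -, hxy, hcomm, ⟨k, hk⟩, hy⟩ := CfsgLib.Subnormal.exists_pPart_mul hp z
    set Cy := Subgroup.centralizer ({y} : Set G) with hCy
    -- a Sylow subgroup of `C(y)` containing `x` is a Sylow subgroup of `G`
    have hxmem : x ∈ Cy := Subgroup.mem_centralizer_singleton_iff.mpr hcomm
    have hxp : IsPGroup p (Subgroup.zpowers (⟨x, hxmem⟩ : Cy)) := IsPGroup.of_card (n := k) (by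
      rw [Nat.card_zpowers, Subgroup.orderOf_mk, hk])
    obtain ⟨R, hR⟩ := hxp.exists_le_sylow
    have hidx : ¬ p ∣ Cy.index := by
      have h1 := CfsgLib.ElementOrders.ncard_conj_class_mul_card_centralizer y
      rw [← Cy.index_mul_card] at h1
      rw [← Nat.eq_of_mul_eq_mul_right Nat.card_pos h1]
      exact h y hy
    have hR' : ¬ p ∣ ((R : Subgroup Cy).map Cy.subtype).index := by
      rw [Subgroup.index_map_subtype]
      exact fun hd => (hp.dvd_mul.mp hd).elim R.not_dvd_index hidx
    let Q : Sylow p G := IsPGroup.toSylow (R.2.map Cy.subtype) hR'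
    obtain ⟨g, hg⟩ := MulAction.exists_smul_eq G Q P
    refine ⟨g, ?_⟩
    have hmem : ∀ q ∈ (Q : Subgroup G), g * q * g⁻¹ ∈ (P : Subgroup G) := fun q hq => by
      rw [← hg, Sylow.coe_subgroup_smul]; exact ⟨q, hq, rfl⟩
    have hxQ : x ∈ (Q : Subgroup G) := ⟨⟨x, hxmem⟩, hR (Subgroup.mem_zpowers _), rfl⟩
    have hyC : g * y * g⁻¹ ∈ C := by
      rw [Subgroup.mem_centralizer_iff]
      intro w hw
      have hw' : w ∈ ((g • Q : Sylow p G) : Subgroup G) := hg ▸ hw
      rw [Sylow.coe_subgroup_smul] at hw'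
      obtain ⟨_, ⟨q, -, rfl⟩, rfl⟩ := hw'
      show g * (q : G) * g⁻¹ * (g * y * g⁻¹) = g * y * g⁻¹ * (g * (q : G) * g⁻¹)
      calc g * (q : G) * g⁻¹ * (g * y * g⁻¹) = g * ((q : G) * y) * g⁻¹ := by group
        _ = g * (y * (q : G)) * g⁻¹ := by rw [Subgroup.mem_centralizer_singleton_iff.mp q.2]
        _ = _ := by group
    rw [← hxy, show g * (x * y) * g⁻¹ = (g * x * g⁻¹) * (g * y * g⁻¹) by group]
    exact Subgroup.mul_mem_sup (hmem x hxQ) hyC
  have hPn : (P : Subgroup G).Normal := Subgroup.normalizer_eq_top_iff.mp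
    (top_le_iff.mp (htop ▸ sup_le Subgroup.le_normalizer hCN))
  refine ⟨hPn, ?_⟩
  obtain ⟨H, hH⟩ := Subgroup.exists_right_complement'_of_coprime (N := (P : Subgroup G))
    P.card_coprime_index
  have hcard : ¬ p ∣ Nat.card H := by
    rw [← hH.symm.index_eq_card]; exact P.not_dvd_index
  have hHC : H ≤ C := by
    intro x hx
    rw [Subgroup.mem_centralizer_iff]
    intro w hw
    -- the order of `x` is prime to `p`, so `x` has trivial image in `G ⧸ C`, a `p`-group
    have hCn : C.Normal := by
      have := hPn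
      infer_instance
    have hord : (orderOf x).Coprime p := by
      have := orderOf_dvd_natCard (⟨x, hx⟩ : H)
      rw [Subgroup.orderOf_mk] at this
      exact Nat.Coprime.coprime_dvd_left this
        ((Nat.Prime.coprime_iff_not_dvd hp).mpr hcard).symm
    have hxq : (QuotientGroup.mk' C x) = 1 := by
      obtain ⟨k, hk⟩ := IsPGroup.iff_card.mp (P.2.map (QuotientGroup.mk' C))
      have htopq : (P : Subgroup G).map (QuotientGroup.mk' C) = ⊤ := by
        rw [← Subgroup.map_top_of_surjective _ (QuotientGroup.mk'_surjective C), ← htop,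
          Subgroup.map_sup]
        have hker : C.map (QuotientGroup.mk' C) = ⊥ := by
          rw [Subgroup.map_eq_bot_iff, QuotientGroup.ker_mk']
        rw [hker, sup_bot_eq]
      rw [htopq, Subgroup.card_top] at hk
      rw [← orderOf_eq_one_iff]
      refine Nat.eq_one_of_dvd_coprimes (Nat.Coprime.pow_right k hord)
        (orderOf_map_dvd _ x) (hk ▸ orderOf_dvd_natCard _)
    exact Subgroup.mem_centralizer_iff.mp ((QuotientGroup.eq_one_iff x).mp hxq) w hw
  refine ⟨H, Subgroup.normalizer_eq_top_iff.mp (top_le_iff.mp ?_), hcard,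
    hH.disjoint.eq_bot, hH.sup_eq_top⟩
  rw [← hH.sup_eq_top]
  refine sup_le (fun a ha => ?_) Subgroup.le_normalizer
  rw [Subgroup.mem_normalizer_iff]
  intro b
  have hcab : ∀ c ∈ H, a * c * a⁻¹ = c := fun c hc => by
    rw [Subgroup.mem_centralizer_iff.mp (hHC hc) a ha, mul_inv_cancel_right]
  constructor
  · intro hb; rw [hcab b hb]; exact hb
  · intro hb
    have := hcab _ hb
    have hab : a * b * a⁻¹ = b := by
      have h2 := congrArg (fun t => a⁻¹ * t * a) this
      simpa [mul_assoc] using h2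
    rwa [hab] at hb

end Cfsg.Agent.S4035
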