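import Cfsg.Statements.S4036
import Mathlib.GroupTheory.PGroup
import Mathlib.GroupTheory.Perm.Cycle.Type

set_option autoImplicit false
open Cfsg

namespace Cfsg.Agent.S4036

/-- Let P be a finite abelian p-group and K a group of automorphisms of P (a subgroup of Aut P) whose order is divisible by p. If all non-identity elements of K have the same fixed-point subgroup on P, then K has no non-trivial normal subgroup of order prime to p. -/
theorem result {P : Type*} [CommGroup P] [Finite P] {p : ℕ}
    [Fact p.Prime] (hP : IsPGroup p P) (K : Subgroup (MulAut P)) (hK : p ∣ Nat.card K)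
    (hfix : ∀ x y : MulAut P, x ∈ K → y ∈ K → x ≠ 1 → y ≠ 1 → ∀ v : P, x v = v ↔ y v = v) :
    ∀ N : Subgroup ↥K, N.Normal → ¬ p ∣ Nat.card N → N = ⊥ := by
  classical
  intro N hNn hNp
  by_contra hNe
  obtain ⟨n₀, hn₀⟩ := (Subgroup.ne_bot_iff_exists_ne_one.mp hNe)
  obtain ⟨x, hx⟩ := exists_prime_orderOf_dvd_card' p hK
  have := Fintype.ofFinite ↥N
  let T : P →* P := ∏ n : N, ((n : ↥K) : MulAut P).toMonoidHom
  have hT : ∀ v, T v = ∏ n : N, ((n : ↥K) : MulAut P) v := fun v => MonoidHom.finsetProd_apply _ _ _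
  have hTinv : ∀ (m : N) (v : P), T (((m : ↥K) : MulAut P) v) = T v := by
    intro m v
    rw [hT, hT]
    refine Fintype.prod_equiv (Equiv.mulRight m) _ _ fun n => ?_
    simp [MulAut.mul_apply]
  have hTfix : ∀ v : P, (∀ m : N, ((m : ↥K) : MulAut P) v = v) → T v = v ^ Nat.card N := fun v hv => by
    rw [hT, Finset.prod_congr rfl fun n _ => hv n, Finset.prod_const, Nat.card_eq_fintype_card]
    rfl
  -- `T` commutes with `x`
  have hTx : ∀ v, T (((x : MulAut P)) v) = (x : MulAut P) (T v) := by
    intro v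
    rw [hT, hT, map_prod]
    let e : N ≃ N :=
      { toFun := fun n => ⟨x * (n : ↥K) * x⁻¹, hNn.conj_mem _ n.2 _⟩
        invFun := fun n => ⟨x⁻¹ * (n : ↥K) * x, by simpa using hNn.conj_mem _ n.2 x⁻¹⟩
        left_inv := fun n => Subtype.ext (by simp [mul_assoc])
        right_inv := fun n => Subtype.ext (by simp [mul_assoc]) }
    refine (Fintype.prod_equiv e _ _ fun n => ?_).symm
    simp [e, MulAut.mul_apply]
  -- the kernel of `T` is trivial
  have hker : T.ker = ⊥ := by
    by_contra hW
    have hmem : ∀ (y : Subgroup.zpowers x) (w : T.ker), ((y : ↥K) : MulAut P) (w : P) ∈ T.ker := by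
      rintro ⟨_, i, rfl⟩ ⟨w, hw⟩
      have key : ∀ j : ℕ, ∀ w ∈ T.ker, ((x : MulAut P) ^ j) w ∈ T.ker := by
        intro j
        induction j with
        | zero => exact fun w hw => hw
        | succ j ih =>
          intro w hw
          rw [pow_succ, MulAut.mul_apply]
          refine ih _ ?_
          rw [MonoidHom.mem_ker, hTx, MonoidHom.mem_ker.mp hw, map_one]
      obtain ⟨j, hj⟩ : ∃ j : ℕ, x ^ j = x ^ i :=
        (isOfFinOrder_of_finite x).mem_powers_iff_mem_zpowers.mpr ⟨i, rfl⟩
      show ((x ^ i : ↥K) : MulAut P) w ∈ T.ker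
      rw [← hj, SubmonoidClass.coe_pow]
      exact key j w hw
    let act : MulAction (Subgroup.zpowers x) T.ker :=
      { smul := fun y w => ⟨_, hmem y w⟩
        one_smul := fun w => Subtype.ext rfl
        mul_smul := fun a b w => Subtype.ext rfl }
    have hpg : IsPGroup p (Subgroup.zpowers x) := IsPGroup.of_card (n := 1) (by
      rw [Nat.card_zpowers, hx, pow_one])
    have hp : p ∣ Nat.card T.ker := by
      obtain ⟨k, hk⟩ := IsPGroup.iff_card.mp (hP.to_subgroup T.ker)
      rcases Nat.eq_zero_or_pos k with rfl | hk0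
      · exact absurd (Subgroup.card_eq_one.mp (by simpa using hk)) hW
      · exact hk ▸ dvd_pow_self p hk0.ne'
    have h1 : (1 : T.ker) ∈ MulAction.fixedPoints (Subgroup.zpowers x) T.ker := fun y =>
      Subtype.ext (map_one ((y : ↥K) : MulAut P))
    obtain ⟨w, hw, hw1⟩ := hpg.exists_fixed_point_of_prime_dvd_card_of_fixed_point _ hp h1
    apply hw1
    refine Subtype.ext ?_
    have hxw : (x : MulAut P) (w : P) = w :=
      congrArg Subtype.val (hw ⟨x, Subgroup.mem_zpowers x⟩)
    have hfixw : ∀ m : N, ((m : ↥K) : MulAut P) (w : P) = w := by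
      intro m
      by_cases hm : m = 1
      · subst hm; rfl
      refine (hfix _ _ (m : ↥K).2 x.2 (fun h => hm (Subtype.ext (Subtype.ext h))) ?_ w).mpr hxw
      intro h
      have : x = 1 := Subtype.ext h
      rw [this, orderOf_one] at hx
      exact (Fact.out : p.Prime).one_lt.ne hx
    have := hTfix _ hfixw
    rw [MonoidHom.mem_ker.mp w.2] at this
    have hcop : (Nat.card P).Coprime (Nat.card N) := by
      obtain ⟨k, hk⟩ := IsPGroup.iff_card.mp hP
      rw [hk]; exact Nat.Coprime.pow_left k ((Nat.Prime.coprime_iff_not_dvd Fact.out).mpr hNp)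
    exact ((powCoprime hcop).injective (by simpa using this.symm : powCoprime hcop (w : P) = powCoprime hcop 1)).symm
  apply hn₀
  refine Subtype.ext (Subtype.ext (MulEquiv.ext fun v => ?_))
  have : (((n₀ : ↥K) : MulAut P) v) * v⁻¹ ∈ T.ker := by
    rw [MonoidHom.mem_ker, map_mul, map_inv, hTinv, mul_inv_cancel]
  rw [hker, Subgroup.mem_bot, mul_inv_eq_one] at this
  exact this

end Cfsg.Agent.S4036
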