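import Cfsg.Statements.S4038
import Cfsg.Agent.Lib.Subnormal.InvariantNilpotentMaximal
import Cfsg.Agent.S0205

set_option autoImplicit false
open Cfsg

namespace Cfsg.Agent.S4038

/-- Let A and G be finite groups of coprime orders with A acting on G by automorphisms. Suppose G has a proper A-invariant subgroup M, maximal among proper A-invariant subgroups, which is nilpotent and whose Sylow 2-subgroups have nilpotency class at most 2. Then G is solvable. -/
theorem result {G A : Type*} [Group G] [Finite G]
    [Group A] [Finite A] (φ : A →* MulAut G) (hcop : (Nat.card A).Coprime (Nat.card G))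
    (M : Subgroup G) (hMtop : M ≠ ⊤) (hMinv : ∀ a : A, ∀ m : G, m ∈ M → φ a m ∈ M)
    (hMmax : ∀ H : Subgroup G, M ≤ H → H ≠ ⊤ → (∀ a : A, ∀ h : G, h ∈ H → φ a h ∈ H) → H = M)
    (hnil : Group.IsNilpotent M) (h2 : ∀ S : Sylow 2 ↥M, Group.nilpotencyClass ↥(S : Subgroup ↥M) ≤ 2) :
    Group.IsSolvable G := by
  exact CfsgLib.Subnormal.isSolvable_of_nilpotent_maximal_invariant
    (fun _ _ _ hodd => Cfsg.Agent.S0205.result hodd) (fun _ _ _ hodd => Cfsg.Agent.S0205.result hodd)
    φ hcop M hMinv hMmax hnil h2

end Cfsg.Agent.S4038
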