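import Cfsg.Statements.S4040
import Cfsg.Agent.Lib.Subnormal.NilpotentMaximal
import Cfsg.Agent.Lib.Subnormal.Subnormalizer
import Cfsg.Agent.Lib.BGAppendix.FittingHall
-- import your own Cfsg.Agent.* helpers here

set_option autoImplicit false
open Cfsg

namespace Cfsg.Agent.S4040

universe u

/-- The local hypothesis in a core-free group with a nilpotent maximal subgroup. -/
theorem local_npc {G : Type u} [Group G] [Finite G] (M : Subgroup G) (p : ℕ) [Fact p.Prime]
    (hnil : Group.IsNilpotent M) (hp : p ∣ Nat.card M)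
    (hN : ∀ R : Subgroup G, R ≠ ⊥ → R ≤ M → M ≤ Subgroup.normalizer (R : Set G) →
      Subgroup.normalizer (R : Set G) = M) :
    ∃ S : Sylow p G, (S : Subgroup G) ≤ M ∧ M ≤ Subgroup.normalizer ((S : Subgroup G) : Set G) ∧
      ∀ R : Subgroup G, R ≤ (S : Subgroup G) → R ≠ ⊥ →
        (S : Subgroup G) ≤ Subgroup.normalizer (R : Set G) →
          HasNormalPComplement p ↥(Subgroup.normalizer (R : Set G)) := by
  obtain ⟨P⟩ : Nonempty (Sylow p M) := inferInstance
  have hPn : (P : Subgroup M).Normal :=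
    (Group.isNilpotent_of_finite_tfae.out 0 3 rfl rfl).mp hnil p ‹_› P
  set P' := (P : Subgroup M).map M.subtype with hP'
  have hP1 : P' ≠ ⊥ := fun h => P.ne_bot_of_dvd_card hp
    ((Subgroup.map_eq_bot_iff_of_injective _ M.subtype_injective).mp h)
  have hMN : M ≤ Subgroup.normalizer (P' : Set G) := by
    refine le_trans ?_ (Subgroup.le_normalizer_map M.subtype)
    rw [Subgroup.normalizer_eq_top_iff.mpr hPn, ← MonoidHom.range_eq_map, Subgroup.range_subtype]
  obtain ⟨S, hS⟩ := (P.2.map M.subtype).exists_le_sylow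
  have heq : (S : Subgroup G) = P' := by
    refine CfsgLib.Subnormal.normalizerCondition_eq S.2 hS ?_
    rw [hN _ hP1 (Subgroup.map_subtype_le _) hMN]
    rintro x ⟨hxS, hxM⟩
    refine ⟨⟨x, hxM⟩, ?_, rfl⟩
    rw [← P.3 S.2.comap_subtype (fun t ht => Subgroup.mem_subgroupOf.mpr (hS ⟨t, ht, rfl⟩))]
    exact Subgroup.mem_subgroupOf.mpr hxS
  refine ⟨S, heq ▸ Subgroup.map_subtype_le _, heq ▸ hMN, fun R hR hR1 hSR => ?_⟩
  have hRM : R ≤ M := hR.trans (heq ▸ Subgroup.map_subtype_le _)
  have hMR : M ≤ Subgroup.normalizer (R : Set G) := by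
    intro m hm
    obtain ⟨a, b, hab, ⟨k, hk⟩, hb⟩ := CfsgLib.NormalPComplement.exists_pParts (p := p)
      (isOfFinOrder_of_finite (⟨m, hm⟩ : M))
    have ha : (⟨m, hm⟩ : M) ^ a ∈ (P : Subgroup M) := by
      obtain ⟨T, hT⟩ := (IsPGroup.of_card_dvd_pow (n := k)
        (G := Subgroup.zpowers ((⟨m, hm⟩ : M) ^ a)) (by rw [Nat.card_zpowers]; exact hk)).exists_le_sylow
      have := Sylow.unique_of_normal P hPn
      exact (Subsingleton.elim T P) ▸ hT (Subgroup.mem_zpowers _)
    have h1 : (((⟨m, hm⟩ : M) ^ a : M) : G) ∈ Subgroup.normalizer (R : Set G) :=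
      hSR (heq ▸ ⟨_, ha, rfl⟩)
    have h2 : (((⟨m, hm⟩ : M) ^ b : M) : G) ∈ Subgroup.normalizer (R : Set G) := by
      refine Subgroup.centralizer_le_normalizer _ (Subgroup.mem_centralizer_iff.mpr fun r hr => ?_)
      obtain ⟨r', hr', rfl⟩ := heq ▸ hR hr
      obtain ⟨e, he⟩ := P.2 ⟨r', hr'⟩
      have hd : orderOf r' ∣ p ^ e := orderOf_dvd_of_pow_eq_one (by simpa using congrArg Subtype.val he)
      have := hnil
      exact congrArg Subtype.val (CfsgLib.BGAppendix.commute_of_coprime_orderOf M r' _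
        ((hb.symm.pow_left e).coprime_dvd_left hd)).eq
    have := mul_mem h1 h2
    rwa [← Subgroup.coe_mul, hab] at this
  rw [hN R hR1 hRM hMR]
  exact CfsgLib.FixedPointFree.hasNormalPComplement_of_isNilpotent p hnil


/-- A finite group possessing a maximal subgroup that is nilpotent of odd order is solvable. -/
theorem result {G : Type*} [Group G] [Finite G]
    (M : Subgroup G) (hmax : IsCoatom M) (hnil : Group.IsNilpotent M) (hodd : Odd (Nat.card M)) :
    Group.IsSolvable G := by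
  refine CfsgLib.Subnormal.isSolvable_of_nilpotent_maximal (fun G _ M => Odd (Nat.card M))
    (fun G _ _ N M _ _ hM => Odd.of_dvd_nat hM (Subgroup.card_map_dvd _ _))
    (fun G _ _ M p _ hM hnil hp hN => ?_) G M hmax hnil hodd
  obtain ⟨S, hSM, hMS, hloc⟩ := local_npc M p hnil hp hN
  have hp2 : p ≠ 2 := fun h => by
    subst h; exact Nat.not_even_iff_odd.mpr hM (even_iff_two_dvd.mpr hp)
  have hS : (S : Subgroup G) ≠ ⊥ := S.ne_bot_of_dvd_card (hp.trans (Subgroup.card_subgroup_dvd_card M))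
  have hF := CfsgLib.NormalPComplement.isPFunctor_omegaOne_centerThompsonOf (p := p)
  exact CfsgLib.NormalPComplement.hasNormalPComplement_of_normalizer_omegaOne_centerThompsonOf hp2 S
    (hloc _ (hF.le _ _ S.2) (hF.ne_bot _ _ S.2 hS)
      (CfsgLib.NormalPComplement.sylow_le_normalizer_of_functor hF S))

end Cfsg.Agent.S4040
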