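import Cfsg.Statements.S4043
import Cfsg.Agent.Lib.CoprimeAction.Basic
import Mathlib.GroupTheory.PGroup
import Mathlib.GroupTheory.Nilpotent
import Mathlib.GroupTheory.Complement

set_option autoImplicit false
open Cfsg

namespace Cfsg.Agent.S4043

theorem le_normalizer_map_subtype {G : Type*} [Group G] (A : Subgroup G) (K : Subgroup A)
    [K.Normal] : A ≤ Subgroup.normalizer ((K.map A.subtype : Subgroup G) : Set G) := by
  refine le_trans ?_ (Subgroup.le_normalizer_map A.subtype)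
  rw [Subgroup.normalizer_eq_top_iff.mpr inferInstance, ← MonoidHom.range_eq_map,
    Subgroup.range_subtype]

theorem normalizer_inf_le_sup {G : Type*} [Group G] (N K : Subgroup G) :
    Subgroup.normalizer (N : Set G) ⊓ Subgroup.normalizer (K : Set G) ≤
      Subgroup.normalizer ((N ⊔ K : Subgroup G) : Set G) := by
  intro x hx
  have hmap : ∀ (H : Subgroup G), x ∈ Subgroup.normalizer (H : Set G) →
      H.map (MulAut.conj x).toMonoidHom = H := fun H hH => by
    ext y
    constructor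
    · rintro ⟨z, hz, rfl⟩; exact (Subgroup.mem_normalizer_iff.mp hH z).mp hz
    · intro hy
      exact ⟨x⁻¹ * y * x, (Subgroup.mem_normalizer_iff.mp hH _).mpr (by simpa [mul_assoc] using hy),
        by simp [mul_assoc]⟩
  have hsup : (N ⊔ K).map (MulAut.conj x).toMonoidHom = N ⊔ K := by
    rw [Subgroup.map_sup, hmap N hx.1, hmap K hx.2]
  rw [Subgroup.mem_normalizer_iff]
  intro y
  constructor
  · intro hy; rw [← hsup]; exact ⟨y, hy, rfl⟩
  · intro hy
    rw [← hsup] at hy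
    obtain ⟨z, hz, hzy⟩ := hy
    exact (MulAut.conj x).injective hzy ▸ hz


/-- Let G be a finite group that is the semidirect product of a normal p-subgroup N by a subgroup A, and also of N by a subgroup A₁, where p is a prime and A and A₁ both have normal p-complements. If C_N(A) = C_N(A₁) = 1, then A₁ is conjugate to A by an element of N. -/
theorem result {G : Type*} [Group G] [Finite G] {p : ℕ}
    [Fact p.Prime] (N : Subgroup G) [N.Normal] (hN : IsPGroup p N) (A A₁ : Subgroup G)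
    (hA : A.IsComplement' N) (hA₁ : A₁.IsComplement' N)
    (hAp : Cfsg.HasNormalPComplement p A) (hA₁p : Cfsg.HasNormalPComplement p A₁)
    (hC : ∀ n : G, n ∈ N → (∀ a : G, a ∈ A → a * n * a⁻¹ = n) → n = 1)
    (hC₁ : ∀ n : G, n ∈ N → (∀ a : G, a ∈ A₁ → a * n * a⁻¹ = n) → n = 1) :
    ∃ n : G, n ∈ N ∧ A₁ = A.map (MulAut.conj n).toMonoidHom := by
  classical
  obtain ⟨P, K₀, hK₀n, hK₀c⟩ := hAp
  obtain ⟨P₁, K₁₀, hK₁n, hK₁c⟩ := hA₁p
  set K := K₀.map A.subtype with hK
  set K₁ := K₁₀.map A₁.subtype with hK₁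
  have hKA : K ≤ A := Subgroup.map_subtype_le _
  have hK₁A : K₁ ≤ A₁ := Subgroup.map_subtype_le _
  have hAnK : A ≤ Subgroup.normalizer (K : Set G) := le_normalizer_map_subtype A K₀
  have hA₁nK : A₁ ≤ Subgroup.normalizer (K₁ : Set G) := le_normalizer_map_subtype A₁ K₁₀
  have hKcop : ¬ p ∣ Nat.card K := by
    rw [hK, Subgroup.card_subtype, ← hK₀c.index_eq_card]; exact P.not_dvd_index
  have hK₁cop : ¬ p ∣ Nat.card K₁ := by
    rw [hK₁, Subgroup.card_subtype, ← hK₁c.index_eq_card]; exact P₁.not_dvd_index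
  obtain ⟨e, he⟩ := IsPGroup.iff_card.mp hN
  have hMn : (N ⊔ K).Normal := by
    rw [← Subgroup.normalizer_eq_top_iff, eq_top_iff, ← hA.sup_eq_top]
    refine sup_le ?_ (le_sup_left.trans Subgroup.le_normalizer)
    exact le_trans (le_inf (le_top.trans_eq (Subgroup.normalizer_eq_top_iff.mpr inferInstance).symm) hAnK)
      (normalizer_inf_le_sup N K)
  -- `K₁ ≤ N ⊔ K` as the quotient is a `p`-group
  have hquo : IsPGroup p (G ⧸ (N ⊔ K)) := by
    obtain ⟨a, ha⟩ := IsPGroup.iff_card.mp (P.2.map ((QuotientGroup.mk' (N ⊔ K)).comp A.subtype))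
    refine IsPGroup.of_card (n := a) ?_
    rw [← ha]
    have : (P : Subgroup A).map ((QuotientGroup.mk' (N ⊔ K)).comp A.subtype) = ⊤ := by
      have htop : (⊤ : Subgroup G).map (QuotientGroup.mk' (N ⊔ K)) = ⊤ :=
        Subgroup.map_top_of_surjective _ (QuotientGroup.mk'_surjective _)
      have hAeq : A.map (QuotientGroup.mk' (N ⊔ K)) =
          (K₀ ⊔ (P : Subgroup A)).map ((QuotientGroup.mk' (N ⊔ K)).comp A.subtype) := by
        rw [hK₀c.sup_eq_top, ← Subgroup.map_map, ← MonoidHom.range_eq_map, Subgroup.range_subtype]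
      rw [← htop, ← hA.sup_eq_top, Subgroup.map_sup,
        (Subgroup.map_eq_bot_iff _).mpr (le_sup_left.trans (QuotientGroup.ker_mk' _).ge), sup_bot_eq,
        hAeq, Subgroup.map_sup]
      have hKbot : K₀.map ((QuotientGroup.mk' (N ⊔ K)).comp A.subtype) = ⊥ := by
        rw [← Subgroup.map_map]
        exact (Subgroup.map_eq_bot_iff _).mpr (le_sup_right.trans (QuotientGroup.ker_mk' _).ge)
      rw [hKbot, bot_sup_eq]
    rw [this, Subgroup.card_top]
  have hle : K₁ ≤ N ⊔ K := by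
    intro x hx
    obtain ⟨a, ha⟩ := (IsPGroup.iff_orderOf.mp hquo) (QuotientGroup.mk' _ x)
    refine (QuotientGroup.eq_one_iff x).mp (orderOf_eq_one_iff.mp ?_)
    refine Nat.eq_one_of_dvd_coprimes ?_ (dvd_refl _) ((orderOf_map_dvd (QuotientGroup.mk' _) x).trans
      (Subgroup.orderOf_mk x hx ▸ orderOf_dvd_natCard (⟨x, hx⟩ : K₁)))
    show (orderOf (QuotientGroup.mk' (N ⊔ K) x)).Coprime _
    rw [ha]
    exact Nat.Coprime.pow_left _ ((Nat.Prime.coprime_iff_not_dvd Fact.out).mpr hK₁cop)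
  obtain ⟨n, hn, hnle⟩ := CfsgLib.CoprimeAction.exists_le_conj_of_coprime (N := N)
    (by rw [Subgroup.normalizer_eq_top_iff.mpr inferInstance]; exact le_top) hle
    (by rw [he]; exact Nat.Coprime.pow_right _ ((Nat.Prime.coprime_iff_not_dvd Fact.out).mpr hK₁cop).symm)
    (Or.inr (by
      have := hN.isNilpotent
      infer_instance))
  refine ⟨n, hn, ?_⟩
  set A' := A.map (MulAut.conj n).toMonoidHom with hA'
  have hcardA : Nat.card A' = Nat.card A₁ := by
    rw [hA', Subgroup.card_map_of_injective (MulEquiv.injective _)]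
    have h1 := hA.card_mul
    rw [← hA₁.card_mul] at h1
    exact Nat.eq_of_mul_eq_mul_right Nat.card_pos h1
  have hdvd : ∀ (B B' : Subgroup G), B ≤ B' → Nat.card B ∣ Nat.card B' := fun _ _ h => Subgroup.card_dvd_of_le h
  have hK'card : Nat.card K = Nat.card K₁ := by
    have hAA : Nat.card A = Nat.card A₁ := by
      rw [← hcardA, hA', Subgroup.card_map_of_injective (MulEquiv.injective _)]
    have hk : Nat.card K = Nat.card K₀ := Subgroup.card_subtype A K₀
    have hk₁ : Nat.card K₁ = Nat.card K₁₀ := Subgroup.card_subtype A₁ K₁₀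
    have h1 : Nat.card K ∣ Nat.card K₁ * Nat.card (P₁ : Subgroup A₁) := by
      rw [hk₁, hK₁c.card_mul, ← hAA]; exact hdvd _ _ hKA
    have h2 : Nat.card K₁ ∣ Nat.card K * Nat.card (P : Subgroup A) := by
      rw [hk, hK₀c.card_mul, hAA]; exact hdvd _ _ hK₁A
    obtain ⟨a, ha⟩ := IsPGroup.iff_card.mp P.2
    obtain ⟨b, hb⟩ := IsPGroup.iff_card.mp P₁.2
    have hc : ∀ {m : ℕ}, ¬ p ∣ m → ∀ k : ℕ, m.Coprime (p ^ k) := fun h k =>
      Nat.Coprime.pow_right k ((Nat.Prime.coprime_iff_not_dvd Fact.out).mpr h).symm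
    exact Nat.dvd_antisymm ((hc hKcop _).dvd_of_dvd_mul_right (hb ▸ h1))
      ((hc hK₁cop _).dvd_of_dvd_mul_right (ha ▸ h2))
  have hKeq : K₁ = K.map (MulAut.conj n).toMonoidHom :=
    Subgroup.eq_of_le_of_card_ge hnle (by
      rw [Subgroup.card_map_of_injective (MulEquiv.injective _)]; exact hK'card.le)
  set M := Subgroup.normalizer (K₁ : Set G) with hM
  have hA'M : A' ≤ M := by
    refine (Subgroup.map_mono hAnK).trans ?_
    rw [hM, hKeq]
    exact Subgroup.le_normalizer_map _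
  -- the normalizer of `K₁` meets `N` trivially
  have hD : N ⊓ M = ⊥ := by
    have hDK : ∀ m ∈ N ⊓ M, ∀ k ∈ K₁, k * m * k⁻¹ = m := by
      intro m hm k hk
      have h1 : k * m * k⁻¹ * m⁻¹ ∈ N ⊓ K₁ := by
        refine ⟨N.mul_mem (Subgroup.Normal.conj_mem inferInstance m hm.1 k) (N.inv_mem hm.1), ?_⟩
        have := K₁.mul_mem hk ((Subgroup.mem_normalizer_iff.mp hm.2 k⁻¹).mp (K₁.inv_mem hk))
        rwa [show k * (m * k⁻¹ * m⁻¹) = k * m * k⁻¹ * m⁻¹ by group] at this
      have hb : N ⊓ K₁ = ⊥ := le_bot_iff.mp (le_trans (inf_le_inf_left N hK₁A) hA₁.disjoint.symm.eq_bot.le)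
      rw [hb, Subgroup.mem_bot] at h1
      exact mul_inv_eq_one.mp h1
    by_contra hne
    have hmem : ∀ (y : (P₁ : Subgroup A₁)) (m : ↥(N ⊓ M)),
        ((y : A₁) : G) * m * ((y : A₁) : G)⁻¹ ∈ N ⊓ M := fun y m =>
      ⟨Subgroup.Normal.conj_mem inferInstance _ m.2.1 _,
        M.mul_mem (M.mul_mem (hA₁nK (y : A₁).2) m.2.2) (M.inv_mem (hA₁nK (y : A₁).2))⟩
    let act : MulAction (P₁ : Subgroup A₁) ↥(N ⊓ M) :=
      { smul := fun y m => ⟨_, hmem y m⟩
        one_smul := fun m => Subtype.ext (by simp [HSMul.hSMul])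
        mul_smul := fun a b m => Subtype.ext (by simp [HSMul.hSMul, mul_assoc]) }
    have hp : p ∣ Nat.card ↥(N ⊓ M) := by
      obtain ⟨k, hk⟩ := IsPGroup.iff_card.mp (hN.to_le (inf_le_left : N ⊓ M ≤ N))
      rcases Nat.eq_zero_or_pos k with rfl | hk0
      · exact absurd (Subgroup.card_eq_one.mp (by simpa using hk)) hne
      · exact hk ▸ dvd_pow_self p hk0.ne'
    have h1 : (1 : ↥(N ⊓ M)) ∈ MulAction.fixedPoints (P₁ : Subgroup A₁) ↥(N ⊓ M) := fun y =>
      Subtype.ext (show ((y : A₁) : G) * 1 * ((y : A₁) : G)⁻¹ = 1 by simp)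
    obtain ⟨m, hm, hm1⟩ := P₁.2.exists_fixed_point_of_prime_dvd_card_of_fixed_point _ hp h1
    apply hm1
    refine (Subtype.ext (hC₁ (m : G) m.2.1 fun a ha => ?_)).symm
    have : (⟨a, ha⟩ : A₁) ∈ K₁₀ ⊔ (P₁ : Subgroup A₁) := hK₁c.sup_eq_top ▸ Subgroup.mem_top _
    obtain ⟨k, hk, s, hs, hks⟩ := Subgroup.mem_sup_of_normal_left.mp this
    have hks' : (k : G) * (s : G) = a := congrArg Subtype.val hks
    have hs' : (s : G) * m * (s : G)⁻¹ = m := congrArg Subtype.val (hm ⟨s, hs⟩)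
    rw [← hks', show (k : G) * s * m * ((k : G) * s)⁻¹ = k * (s * m * (s : G)⁻¹) * (k : G)⁻¹ by group, hs']
    exact hDK (m : G) m.2 k ⟨k, hk, rfl⟩
  have hMA : M ≤ A₁ := by
    intro x hx
    have : x ∈ A₁ ⊔ N := hA₁.sup_eq_top ▸ Subgroup.mem_top x
    obtain ⟨a, ha, m, hm, rfl⟩ := Subgroup.mem_sup_of_normal_right.mp this
    have hmM : m ∈ M := by
      have := M.mul_mem (M.inv_mem (hA₁nK ha)) hx
      rwa [inv_mul_cancel_left] at this
    have : m ∈ (⊥ : Subgroup G) := hD ▸ ⟨hm, hmM⟩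
    rw [Subgroup.mem_bot] at this
    rw [this, mul_one]; exact ha
  exact (Subgroup.eq_of_le_of_card_ge (hA'M.trans hMA) hcardA.ge).symm

end Cfsg.Agent.S4043
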