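import Cfsg.Statements.S4049
import Cfsg.Agent.Lib.InvChar.BaerSuzuki
import Cfsg.Agent.Lib.CoprimeAction.Basic

set_option autoImplicit false
open Cfsg

namespace Cfsg.Agent.S4049

/-- Let G be a finite group such that N_G(H)/C_G(H) has odd order for every nontrivial subgroup H of odd order. Then the Sylow 2-subgroups of G are normal. -/
theorem result {G : Type*} [Group G] [Finite G]
    (hhom : ∀ H : Subgroup G, H ≠ ⊥ → ¬ 2 ∣ Nat.card ↥H →
        ¬ 2 ∣ (Subgroup.centralizer (H : Set G)).relIndex (Subgroup.normalizer (H : Set G))) (P : Sylow 2 G) :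
    (P : Subgroup G).Normal := by
  have : Fact (Nat.Prime 2) := ⟨Nat.prime_two⟩
  set N := Cfsg.pCore 2 G with hN
  by_contra hP
  have hPN : ¬ (P : Subgroup G) ≤ N := fun hle => hP (by
    have : N = P := le_antisymm (CfsgLib.Cores.pCore_le_sylow P) hle
    rw [← this]; infer_instance)
  obtain ⟨t₀, ht₀P, ht₀N⟩ := SetLike.not_le_iff_exists.mp hPN
  -- an involution in the quotient, lifted to a `2`-element
  have ht₀q : (QuotientGroup.mk' N t₀) ≠ 1 := fun h => ht₀N ((QuotientGroup.eq_one_iff t₀).mp h)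
  obtain ⟨k, hk⟩ := (IsPGroup.iff_orderOf.mp P.2) ⟨t₀, ht₀P⟩
  rw [Subgroup.orderOf_mk] at hk
  obtain ⟨j, hjk, hj⟩ := (Nat.dvd_prime_pow Nat.prime_two).mp
    (hk ▸ orderOf_map_dvd (QuotientGroup.mk' N) t₀)
  obtain ⟨j', rfl⟩ : ∃ j', j = j' + 1 := Nat.exists_eq_succ_of_ne_zero (by
    rintro rfl
    exact ht₀q (orderOf_eq_one_iff.mp (by simpa using hj)))
  set t := t₀ ^ (2 ^ j') with ht
  have htq : orderOf (QuotientGroup.mk' N t) = 2 := by
    rw [ht, map_pow, orderOf_pow_of_dvd (by positivity) (by rw [hj, pow_succ]; exact dvd_mul_right _ _),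
      hj, pow_succ, Nat.mul_div_cancel_left _ (by positivity)]
  obtain ⟨y, hy, hodd, hne⟩ := CfsgLib.InvChar.exists_conj_odd_orderOf_mul _ htq (by
    rw [CfsgLib.Cores.pCore_quotient_pCore, Subgroup.mem_bot]
    intro h1; rw [h1] at htq; simp at htq)
  set w := QuotientGroup.mk' N t * y with hw
  have hy2 : y * y = 1 := by
    obtain ⟨c, rfl⟩ := isConj_iff.mp hy
    have := pow_orderOf_eq_one (QuotientGroup.mk' N t)
    rw [htq, sq] at this
    rw [show c * QuotientGroup.mk' N t * c⁻¹ * (c * QuotientGroup.mk' N t * c⁻¹) =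
      c * (QuotientGroup.mk' N t * QuotientGroup.mk' N t) * c⁻¹ by group, this]
    group
  have hwinv : QuotientGroup.mk' N t * w * (QuotientGroup.mk' N t)⁻¹ = w⁻¹ := by
    have ht2 := pow_orderOf_eq_one (QuotientGroup.mk' N t)
    rw [htq, sq] at ht2
    simp only [hw, mul_inv_rev, inv_eq_of_mul_eq_one_right hy2, inv_eq_of_mul_eq_one_right ht2]
    rw [← mul_assoc, ht2, one_mul]
  -- lift `w` to an element of odd order
  obtain ⟨u, hu⟩ := QuotientGroup.mk'_surjective N w
  obtain ⟨l, m, hm, hlm⟩ := Nat.exists_eq_two_pow_mul_odd (orderOf_pos u).ne'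
  set x := u ^ (2 ^ l) with hx
  have hxord : orderOf x = m := by
    rw [hx, orderOf_pow_of_dvd (by positivity) (hlm ▸ dvd_mul_right _ _), hlm,
      Nat.mul_div_cancel_left _ (by positivity)]
  have hxq : QuotientGroup.mk' N x = w ^ (2 ^ l) := by rw [hx, map_pow, hu]
  have hxne : QuotientGroup.mk' N x ≠ 1 := by
    rw [hxq]
    intro h1
    have h2 := orderOf_dvd_of_pow_eq_one h1
    obtain ⟨i, -, hi⟩ := (Nat.dvd_prime_pow Nat.prime_two).mp h2
    rcases Nat.eq_zero_or_pos i with rfl | hipos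
    · exact hne (orderOf_eq_one_iff.mp (by simpa using hi))
    · rw [hi] at hodd
      exact (Nat.not_even_iff_odd.mpr hodd) (Nat.even_pow.mpr ⟨even_two, hipos.ne'⟩)
  have htx : QuotientGroup.mk' N (t * x * t⁻¹) = QuotientGroup.mk' N x⁻¹ := by
    rw [map_mul, map_mul, map_inv, map_inv, hxq, ← conj_pow, hwinv, inv_pow]
  set X := Subgroup.zpowers x with hX
  have hle : Subgroup.zpowers (t * x * t⁻¹) ≤ N ⊔ X := by
    rw [Subgroup.zpowers_le]
    have h1 : (x⁻¹)⁻¹ * (t * x * t⁻¹) ∈ N :=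
      (QuotientGroup.eq).mp htx.symm
    have : t * x * t⁻¹ = x⁻¹ * ((x⁻¹)⁻¹ * (t * x * t⁻¹)) := by group
    rw [this]
    exact mul_mem (Subgroup.mem_sup_right (inv_mem (Subgroup.mem_zpowers x)))
      (Subgroup.mem_sup_left h1)
  have hcop : (Nat.card (Subgroup.zpowers (t * x * t⁻¹))).Coprime (Nat.card N) := by
    obtain ⟨e, he⟩ := IsPGroup.iff_card.mp (CfsgLib.Cores.isPGroup_pCore 2 G)
    rw [he, Nat.card_zpowers, ← MulAut.conj_apply, MulEquiv.orderOf_eq, hxord]
    exact Nat.Coprime.pow_right _ (Nat.coprime_two_right.mpr hm)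
  obtain ⟨n, hn, hnle⟩ := CfsgLib.CoprimeAction.exists_le_conj_of_coprime (N := N) (H := X)
    (by rw [Subgroup.normalizer_eq_top_iff.mpr inferInstance]; exact le_top) hle hcop
    (Or.inl (CfsgLib.CoprimeAction.isSolvable_zpowers _))
  set g := n⁻¹ * t with hg
  have hgx : g * x * g⁻¹ ∈ X := by
    have := CfsgLib.CoprimeAction.mem_conj_iff.mp (hnle (Subgroup.mem_zpowers _))
    rwa [show n⁻¹ * (t * x * t⁻¹) * n = g * x * g⁻¹ by rw [hg]; group] at this
  have hgN : g ∈ Subgroup.normalizer (X : Set G) := by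
    refine CfsgLib.CoprimeAction.mem_normalizer_of_conj_mem ?_
    rintro _ ⟨i, rfl⟩
    have := X.zpow_mem hgx i
    rwa [conj_zpow] at this
  have hgq : QuotientGroup.mk' N g = QuotientGroup.mk' N t := by
    rw [hg, map_mul, map_inv]
    rw [show QuotientGroup.mk' N n = 1 from (QuotientGroup.eq_one_iff n).mpr hn, inv_one, one_mul]
  -- `g` has even order in `N(X) / C(X)`
  have hXne : X ≠ ⊥ := fun h => hxne (by
    rw [show x = 1 from Subgroup.zpowers_eq_bot.mp h, map_one])
  have hXodd : ¬ 2 ∣ Nat.card X := by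
    rw [Nat.card_zpowers, hxord]; exact fun h => Nat.not_even_iff_odd.mpr hm (even_iff_two_dvd.mpr h)
  apply hhom X hXne hXodd
  set C := Subgroup.centralizer (X : Set G)
  have hCN : C ≤ Subgroup.normalizer (X : Set G) := Subgroup.centralizer_le_normalizer _
  have hgC : g ∉ C := fun hgC => by
    have h1 : g * x * g⁻¹ = x := by
      rw [← Subgroup.mem_centralizer_iff.mp hgC x (Subgroup.mem_zpowers x), mul_inv_cancel_right]
    have h2 := congrArg (QuotientGroup.mk' N) h1
    rw [map_mul, map_mul, map_inv, hgq, ← map_inv, ← map_mul, ← map_mul, htx, map_inv, hxq,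
      ← inv_pow] at h2
    have h3 : w ^ (2 ^ l) = 1 := by
      have h4 : (w ^ (2 ^ l)) ^ 2 = 1 := by rw [sq, mul_eq_one_iff_eq_inv, ← inv_pow]; exact h2.symm
      obtain ⟨i, hi⟩ := hodd
      have h5 : (w ^ (2 ^ l)) ^ orderOf w = 1 := by
        rw [← pow_mul, mul_comm, pow_mul, pow_orderOf_eq_one, one_pow]
      rwa [hi, pow_succ, pow_mul, h4, one_pow, one_mul] at h5
    exact hxne (hxq.trans h3)
  by_contra h2
  -- conjugation by `g ^ 2` fixes `x` as it fixes its image, `g` would have odd order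
  have hodd' : Odd (((C.subgroupOf (Subgroup.normalizer (X : Set G)))).index) :=
    Nat.not_even_iff_odd.mp fun h => h2 (even_iff_two_dvd.mp h)
  have hg2 : g ^ 2 ∈ C := by
    rw [Subgroup.mem_centralizer_iff]
    rintro _ ⟨i, rfl⟩
    suffices hcx : Commute (g ^ 2) x from (hcx.zpow_right i).eq.symm
    have hmem : x⁻¹ * (g ^ 2 * x * (g ^ 2)⁻¹) ∈ N ⊓ X := by
      refine ⟨?_, X.mul_mem (X.inv_mem (Subgroup.mem_zpowers x))
        ((Subgroup.mem_normalizer_iff.mp (pow_mem hgN 2) x).mp (Subgroup.mem_zpowers x))⟩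
      refine (QuotientGroup.eq_one_iff _).mp (?_ : QuotientGroup.mk' N _ = 1)
      have ht2 := pow_orderOf_eq_one (QuotientGroup.mk' N t)
      rw [htq] at ht2
      simp only [map_mul, map_inv, map_pow, hgq, ht2]
      group
    have hbot : N ⊓ X = ⊥ := by
      obtain ⟨e, he⟩ := IsPGroup.iff_card.mp (CfsgLib.Cores.isPGroup_pCore 2 G)
      refine Subgroup.inf_eq_bot_of_coprime ?_
      rw [he, Nat.card_zpowers, hxord]
      exact Nat.Coprime.pow_left _ (Nat.coprime_two_left.mpr hm)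
    rw [hbot, Subgroup.mem_bot, inv_mul_eq_one] at hmem
    show g ^ 2 * x = x * g ^ 2
    calc g ^ 2 * x = (g ^ 2 * x * (g ^ 2)⁻¹) * g ^ 2 := by group
      _ = x * g ^ 2 := by rw [← hmem]
  have hnC : (C.subgroupOf (Subgroup.normalizer (X : Set G))).Normal :=
    ⟨fun c hc n => Subgroup.mem_subgroupOf.mpr (Subgroup.mem_centralizer_iff.mpr fun y hy => by
      have hy' : (n : G)⁻¹ * y * (n : G) ∈ (X : Set G) := by
        have := (Subgroup.mem_normalizer_iff.mp (inv_mem n.2) y).mp hy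
        rwa [inv_inv] at this
      have h1 := Subgroup.mem_centralizer_iff.mp (Subgroup.mem_subgroupOf.mp hc) _ hy'
      simp only [Subgroup.coe_mul, Subgroup.coe_inv]
      calc y * ((n : G) * c * (n : G)⁻¹) = n * (((n : G)⁻¹ * y * n) * c) * (n : G)⁻¹ := by group
        _ = n * ((c : G) * ((n : G)⁻¹ * y * n)) * (n : G)⁻¹ := by rw [h1]
        _ = _ := by group)⟩
  obtain ⟨i, hi⟩ := hodd'
  have h3 := Subgroup.pow_index_mem (C.subgroupOf (Subgroup.normalizer (X : Set G))) (⟨g, hgN⟩ : Subgroup.normalizer (X : Set G))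
  rw [hi, Subgroup.mem_subgroupOf, Subgroup.coe_pow, pow_succ, pow_mul] at h3
  exact hgC (by simpa using mul_mem (inv_mem (pow_mem hg2 i)) h3)

end Cfsg.Agent.S4049
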