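import Cfsg.Statements.S4051
import Cfsg.Agent.Lib.Subnormal.Cover
import Cfsg.Agent.Lib.CoprimeAction.Sylow
import Cfsg.Agent.Lib.CoprimeAction.Basic
import Mathlib.GroupTheory.SchurZassenhaus

set_option autoImplicit false
open Cfsg

namespace Cfsg.Agent.S4051

/-- A `π`-element. -/
def IsPi {G : Type*} [Monoid G] (π : Set ℕ) (x : G) : Prop :=
  ∀ r : ℕ, r.Prime → r ∣ orderOf x → r ∈ π


/-- Let π be a set of primes and G a finite group such that N_G(H)/C_G(H) is a π'-group for every nontrivial π'-subgroup H of G. If K is a normal subgroup of G such that the π-elements of K form a subgroup and the π-elements of G/K form a subgroup, then the π-elements of G form a subgroup. -/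
theorem result {G : Type*} [Group G] [Finite G] (π : Set ℕ)
    (hπ : ∀ p ∈ π, p.Prime) (hhom : (∀ H : Subgroup G, H ≠ ⊥ → (∀ p : ℕ, p.Prime → p ∣ Nat.card ↥H → p ∉ π) →
        ∀ p : ℕ, p.Prime → p ∣ (Subgroup.centralizer (H : Set G)).relIndex (Subgroup.normalizer (H : Set G)) → p ∉ π))
    (K : Subgroup G) [K.Normal]
    (hK : ∃ L : Subgroup ↥K, ∀ x : ↥K, x ∈ L ↔ ∀ p : ℕ, p.Prime → p ∣ orderOf x → p ∈ π)
    (hQ : ∃ L : Subgroup (G ⧸ K), ∀ x : G ⧸ K, x ∈ L ↔ ∀ p : ℕ, p.Prime → p ∣ orderOf x → p ∈ π) :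
    (∃ K : Subgroup G, ∀ x : G, x ∈ K ↔ ∀ p : ℕ, p.Prime → p ∣ orderOf x → p ∈ π) := by
  obtain ⟨L₀, hL₀⟩ := hK
  obtain ⟨U₀, hU₀⟩ := hQ
  set L := L₀.map K.subtype with hLdef
  have hL : ∀ x : G, x ∈ L ↔ x ∈ K ∧ IsPi π x := by
    intro x
    constructor
    · rintro ⟨y, hy, rfl⟩
      exact ⟨y.2, fun r hr hd => (hL₀ y).mp hy r hr (by rwa [← Subgroup.orderOf_coe])⟩
    · rintro ⟨hxK, hx⟩
      exact ⟨⟨x, hxK⟩, (hL₀ _).mpr (by simpa [IsPi] using hx), rfl⟩
  have hLn : L.Normal := ⟨fun n hn g => by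
    rw [hL] at hn ⊢
    refine ⟨Subgroup.Normal.conj_mem inferInstance n hn.1 g, fun r hr hd => hn.2 r hr ?_⟩
    rwa [← MulAut.conj_apply, MulEquiv.orderOf_eq] at hd⟩
  have hLpi : ∀ r : ℕ, r.Prime → r ∣ Nat.card L → r ∈ π := fun r hr hd => by
    have := Fact.mk hr
    obtain ⟨c, hc⟩ := exists_prime_orderOf_dvd_card' r hd
    exact ((hL c).mp c.2).2 r hr (by rw [Subgroup.orderOf_coe, hc])
  set f := QuotientGroup.mk' L with hf
  have hfs : Function.Surjective f := QuotientGroup.mk'_surjective L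
  set Kq := K.map f with hKq
  have hKqn : Kq.Normal := (inferInstance : K.Normal).map f hfs
  have hKqpi : ∀ r : ℕ, r.Prime → r ∣ Nat.card Kq → r ∉ π := fun r hr hd hrπ => by
    have := Fact.mk hr
    obtain ⟨c, hc⟩ := exists_prime_orderOf_dvd_card' r hd
    obtain ⟨k, hk, hkc⟩ := c.2
    obtain ⟨a, b, ha, hb, hab, -, ⟨i, hi⟩, hbr⟩ := CfsgLib.Subnormal.exists_pPart_mul hr k
    have haL : a ∈ L := (hL a).mpr ⟨Subgroup.zpowers_le.mpr hk ha, fun s hs hd => by
      rw [hi] at hd
      rwa [(Nat.prime_dvd_prime_iff_eq hs hr).mp (hs.dvd_of_dvd_pow hd)]⟩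
    have hfb : f b = c := by
      rw [← hkc, ← hab, map_mul, show f a = 1 from (QuotientGroup.eq_one_iff a).mpr haL, one_mul]
    have h1 := orderOf_map_dvd f b
    rw [hfb, Subgroup.orderOf_coe, hc] at h1
    exact hr.ne_one (Nat.eq_one_of_dvd_coprimes hbr h1 dvd_rfl)
  -- prime power π-elements centralize `K / L`
  have hcent : ∀ (q : ℕ) (x : G), q.Prime → q ∈ π → (∃ a, orderOf x = q ^ a) →
      f x ∈ Subgroup.centralizer (Kq : Set (G ⧸ L)) := by
    intro q x hq hqπ ⟨a, hxa⟩
    have := Fact.mk hq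
    obtain ⟨e, he⟩ : ∃ e, orderOf (f x) = q ^ e := by
      obtain ⟨e, -, he⟩ := (Nat.dvd_prime_pow hq).mp (hxa ▸ orderOf_map_dvd f x)
      exact ⟨e, he⟩
    have hnorm : Subgroup.zpowers (f x) ≤ Subgroup.normalizer (Kq : Set (G ⧸ L)) := by
      rw [Subgroup.normalizer_eq_top_iff.mpr hKqn]; exact le_top
    have hcop : (Nat.card (Subgroup.zpowers (f x))).Coprime (Nat.card Kq) := by
      rw [Nat.card_zpowers, he]
      exact Nat.Coprime.pow_left e (hq.coprime_iff_not_dvd.mpr fun h => hKqpi q hq h hqπ)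
    set Cx := Subgroup.centralizer ({f x} : Set (G ⧸ L)) with hCx
    suffices h : Kq ≤ Cx by
      rw [Subgroup.mem_centralizer_iff]
      intro k hk
      exact Subgroup.mem_centralizer_singleton_iff.mp (h hk)
    rw [← inf_eq_left]
    refine Subgroup.eq_of_le_of_card_ge inf_le_left (Nat.le_of_dvd Nat.card_pos ?_)
    refine (Nat.dvd_iff_prime_pow_dvd_dvd _ _).mpr fun r k hr hdvd => ?_
    rcases k.eq_zero_or_pos with rfl | hk0
    · simp
    have := Fact.mk hr
    have hrπ : r ∉ π := hKqpi r hr ((dvd_pow_self r hk0.ne').trans hdvd)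
    obtain ⟨Rq, hRq⟩ := CfsgLib.CoprimeAction.exists_invariant_sylow hnorm hcop
      (Or.inl (CfsgLib.CoprimeAction.isSolvable_zpowers _)) r
    set Rb := (Rq : Subgroup Kq).map Kq.subtype with hRb
    suffices hRle : Rb ≤ Cx by
      refine ((Rq.pow_dvd_card_of_pow_dvd_card hdvd).trans ?_)
      rw [← Subgroup.card_subtype Kq (Rq : Subgroup Kq)]
      exact Subgroup.card_dvd_of_le (le_inf (Subgroup.map_subtype_le _) hRle)
    -- lift the invariant Sylow subgroup
    set Rh := Rb.comap f with hRh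
    obtain ⟨S⟩ : Nonempty (Sylow r Rh) := inferInstance
    set R := (S : Subgroup Rh).map Rh.subtype with hR
    have hRp : IsPGroup r R := S.2.map _
    have hLRh : L ≤ Rh := fun l hl => by
      show f l ∈ Rb
      rw [show f l = 1 from (QuotientGroup.eq_one_iff l).mpr hl]; exact one_mem _
    have hRhK : ∀ g ∈ Rh, f g ∈ Kq := fun g hg => Subgroup.map_subtype_le _ hg
    obtain ⟨i, hi⟩ := IsPGroup.iff_card.mp S.2
    have hcopLR : (Nat.card L).Coprime (Nat.card R) := by
      rw [hR, Subgroup.card_subtype Rh, hi]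
      exact Nat.Coprime.pow_right i (hr.coprime_iff_not_dvd.mpr fun h => hrπ (hLpi r hr h)).symm
    have hRhcard : Nat.card Rh = Nat.card L * Nat.card Rb := by
      have h1 := Subgroup.card_eq_card_quotient_mul_card_subgroup (L.subgroupOf Rh)
      rw [Nat.card_congr (Subgroup.subgroupOfEquivOfLe hLRh).toEquiv] at h1
      rw [h1, mul_comm]
      congr 1
      rw [← Subgroup.index_eq_card]
      have : (L.subgroupOf Rh) = (f.comp Rh.subtype).ker := by
        ext g; simp [hf, Subgroup.mem_subgroupOf]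
      rw [this, Subgroup.index_ker, MonoidHom.range_comp, Subgroup.range_subtype,
        Subgroup.map_comap_eq_self_of_surjective hfs]
    have hle : Rh ≤ L ⊔ R := by
      refine (Subgroup.eq_of_le_of_card_ge (sup_le hLRh (Subgroup.map_subtype_le _)) ?_).ge
      rw [hRhcard]
      refine Nat.le_of_dvd Nat.card_pos (Nat.Coprime.mul_dvd_of_dvd_of_dvd ?_
        (Subgroup.card_dvd_of_le le_sup_left) ((?_ : Nat.card Rb ∣ Nat.card R).trans
          (Subgroup.card_dvd_of_le le_sup_right)))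
      · obtain ⟨j, hj⟩ := IsPGroup.iff_card.mp (Rq.2.map Kq.subtype)
        rw [hRb, hj]
        exact Nat.Coprime.pow_right j (hr.coprime_iff_not_dvd.mpr fun h => hrπ (hLpi r hr h)).symm
      · obtain ⟨j, hj⟩ := IsPGroup.iff_card.mp (Rq.2.map Kq.subtype)
        rw [hRb, hj, hR, Subgroup.card_subtype Rh]
        refine S.pow_dvd_card_of_pow_dvd_card ?_
        rw [hRhcard, hRb, hj]
        exact dvd_mul_left _ _
    have hB : R.map (MulAut.conj x).toMonoidHom ≤ L ⊔ R := by
      rintro _ ⟨g, hg, rfl⟩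
      refine hle ?_
      show f (x * g * x⁻¹) ∈ Rb
      rw [map_mul, map_mul, map_inv]
      exact (Subgroup.mem_normalizer_iff.mp (hRq (Subgroup.mem_zpowers (f x))) _).mp
        (Subgroup.map_subtype_le (S : Subgroup Rh) hg)
    obtain ⟨l, hl, hlle⟩ := CfsgLib.CoprimeAction.exists_le_conj_of_coprime (N := L) (H := R)
      (by rw [Subgroup.normalizer_eq_top_iff.mpr hLn]; exact le_top) hB
      (by rw [Subgroup.card_map_of_injective (MulAut.conj x).injective]; exact hcopLR.symm)
      (Or.inl (by have := (hRp.map (MulAut.conj x).toMonoidHom).isNilpotent; infer_instance))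
    set n := l⁻¹ * x with hn
    have hnR : n ∈ Subgroup.normalizer (R : Set G) := by
      refine CfsgLib.CoprimeAction.mem_normalizer_of_conj_mem fun g hg => ?_
      have := CfsgLib.CoprimeAction.mem_conj_iff.mp (hlle ⟨g, hg, rfl⟩)
      simp only [MulEquiv.coe_toMonoidHom, MulAut.conj_apply] at this
      rwa [show l⁻¹ * (x * g * x⁻¹) * l = n * g * n⁻¹ by rw [hn]; group] at this
    have hfn : f n = f x := by
      rw [hn, map_mul, map_inv, show f l = 1 from (QuotientGroup.eq_one_iff l).mpr hl, inv_one, one_mul]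
    by_cases hR1 : R = ⊥
    · intro y hy
      have hy' : y ∈ Rh.map f := by
        rw [hRh, Subgroup.map_comap_eq_self_of_surjective hfs]; exact hy
      obtain ⟨g, hg, rfl⟩ := hy'
      have hgL : g ∈ L := by
        have := hle hg
        rwa [hR1, sup_bot_eq] at this
      rw [show f g = 1 from (QuotientGroup.eq_one_iff g).mpr hgL]
      exact one_mem _
    set N := Subgroup.normalizer (R : Set G)
    set C := Subgroup.centralizer (R : Set G)
    have hCn : (C.subgroupOf N).Normal := ⟨fun c hc g => Subgroup.mem_subgroupOf.mpr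
      (Subgroup.mem_centralizer_iff.mpr fun y hy => by
        have hy' : (g : G)⁻¹ * y * (g : G) ∈ (R : Set G) := by
          have := (Subgroup.mem_normalizer_iff.mp (inv_mem g.2) y).mp hy
          rwa [inv_inv] at this
        have h1 := Subgroup.mem_centralizer_iff.mp (Subgroup.mem_subgroupOf.mp hc) _ hy'
        simp only [Subgroup.coe_mul, Subgroup.coe_inv]
        calc y * ((g : G) * c * (g : G)⁻¹) = g * (((g : G)⁻¹ * y * g) * c) * (g : G)⁻¹ := by group
          _ = g * ((c : G) * ((g : G)⁻¹ * y * g)) * (g : G)⁻¹ := by rw [h1]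
          _ = _ := by group)⟩
    have hd' : ¬ q ∣ C.relIndex N := fun hd => hhom R hR1 (fun s hs hd' => by
      have h2 : s ∣ r ^ i := by rwa [hR, Subgroup.card_subtype Rh, hi] at hd'
      rwa [(Nat.prime_dvd_prime_iff_eq hs hr).mp (hs.dvd_of_dvd_pow h2)]) q hq hd hqπ
    have hne : n ^ C.relIndex N ∈ C := by
      have := (C.subgroupOf N).pow_index_mem ⟨n, hnR⟩
      simpa [Subgroup.mem_subgroupOf, Subgroup.relIndex] using this
    obtain ⟨m, hm⟩ : ∃ m : ℕ, (f x ^ C.relIndex N) ^ m = f x := by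
      have hco : (C.relIndex N).Coprime (orderOf (f x)) := by
        rw [he]; exact Nat.Coprime.pow_right e (hq.coprime_iff_not_dvd.mpr hd').symm
      exact exists_pow_eq_self_of_coprime hco
    intro y hy
    have hy' : y ∈ Rh.map f := by
      rw [hRh, Subgroup.map_comap_eq_self_of_surjective hfs]; exact hy
    obtain ⟨g, hg, rfl⟩ := hy'
    obtain ⟨l', hl', g', hg', rfl⟩ := Subgroup.mem_sup_of_normal_left.mp (hle hg)
    rw [Subgroup.mem_centralizer_singleton_iff, map_mul,
      show f l' = 1 from (QuotientGroup.eq_one_iff l').mpr hl', one_mul]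
    have h1 : Commute (f g') (f n ^ C.relIndex N) := by
      rw [← map_pow]
      exact (show Commute g' (n ^ C.relIndex N) from Subgroup.mem_centralizer_iff.mp hne g' hg').map f
    rw [hfn] at h1
    have := h1.pow_right m
    rwa [hm] at this
  -- the candidate
  set W := U₀.comap (QuotientGroup.map L K (MonoidHom.id G) (fun l hl => ((hL l).mp hl).1)) ⊓
    Subgroup.centralizer (Kq : Set (G ⧸ L)) with hW
  set g₀ := QuotientGroup.map L K (MonoidHom.id G) (fun l hl => ((hL l).mp hl).1) with hg₀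
  set Z := Kq.subgroupOf W with hZ
  have hZn : Z.Normal := hKqn.comap _
  have hZpi : ∀ r : ℕ, r.Prime → r ∣ Nat.card Z → r ∉ π := fun r hr hd => by
    refine hKqpi r hr (hd.trans ?_)
    have hinj := Subgroup.card_subtype W Z
    rw [← hinj, Subgroup.subgroupOf_map_subtype]
    exact Subgroup.card_dvd_of_le inf_le_left
  have hU₀pi : ∀ r : ℕ, r.Prime → r ∣ Nat.card U₀ → r ∈ π := fun r hr hd => by
    have := Fact.mk hr
    obtain ⟨c, hc⟩ := exists_prime_orderOf_dvd_card' r hd
    exact (hU₀ c).mp c.2 r hr (by rw [Subgroup.orderOf_coe, hc])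
  have hZidx : ∀ r : ℕ, r.Prime → r ∣ Z.index → r ∈ π := fun r hr hd => by
    refine hU₀pi r hr (hd.trans ?_)
    have hker : Z = (g₀.comp W.subtype).ker := by
      ext ⟨w, hw⟩
      obtain ⟨g, rfl⟩ := hfs w
      simp only [hZ, Subgroup.mem_subgroupOf, hKq, MonoidHom.mem_ker, MonoidHom.comp_apply,
        Subgroup.coe_subtype]
      show f g ∈ K.map f ↔ QuotientGroup.mk' K g = 1
      constructor
      · rintro ⟨k, hk, hkg⟩
        refine (QuotientGroup.eq_one_iff g).mpr ?_
        have h1 : k⁻¹ * g ∈ L := (QuotientGroup.eq).mp hkg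
        have := K.mul_mem hk ((hL _).mp h1).1
        rwa [mul_inv_cancel_left] at this
      · exact fun h => ⟨g, (QuotientGroup.eq_one_iff g).mp h, rfl⟩
    rw [hker, Subgroup.index_ker, MonoidHom.range_comp, Subgroup.range_subtype]
    refine Subgroup.card_dvd_of_le ?_
    rintro _ ⟨w, hw, rfl⟩
    exact hw.1
  have hcopZ : (Nat.card Z).Coprime Z.index :=
    Nat.coprime_of_dvd fun r hr h1 h2 => hZpi r hr h1 (hZidx r hr h2)
  obtain ⟨D, hD⟩ := Subgroup.exists_right_complement'_of_coprime hcopZ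
  refine ⟨(D.map W.subtype).comap f, fun x => ?_⟩
  constructor
  · intro hx
    obtain ⟨d, hd, hdx⟩ := hx
    intro r hr hrd
    by_contra hrπ
    have h1 : r ∣ orderOf (f x) ∨ r ∣ Nat.card L := by
      have h2 : x ^ orderOf (f x) ∈ L := (QuotientGroup.eq_one_iff _).mp (by
        show f (x ^ orderOf (f x)) = 1
        rw [map_pow, pow_orderOf_eq_one])
      have h3 : orderOf x ∣ orderOf (f x) * Nat.card L := orderOf_dvd_of_pow_eq_one (by
        rw [pow_mul]; exact orderOf_dvd_iff_pow_eq_one.mp (Subgroup.orderOf_dvd_natCard L h2))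
      exact hr.dvd_mul.mp (hrd.trans h3)
    rcases h1 with h | h
    · refine hrπ (hZidx r hr ?_)
      rw [hD.symm.index_eq_card, ← hdx] at *
      rw [show W.subtype d = (d : G ⧸ L) from rfl, Subgroup.orderOf_coe] at h
      exact h.trans (Subgroup.orderOf_dvd_natCard D hd)
    · exact hrπ (hLpi r hr h)
  · intro hx
    have hxW : f x ∈ W := by
      refine ⟨(hU₀ _).mpr fun r hr hd => hx r hr (hd.trans ?_), ?_⟩
      · exact orderOf_map_dvd (g₀.comp f) x
      set Cn := (Subgroup.centralizer (Kq : Set (G ⧸ L))).comap f with hCn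
      show x ∈ Cn
      suffices h : (Subgroup.zpowers x) ⊓ Cn = Subgroup.zpowers x from
        (h.ge (Subgroup.mem_zpowers x)).2
      refine Subgroup.eq_of_le_of_card_ge inf_le_left (Nat.le_of_dvd Nat.card_pos ?_)
      refine (Nat.dvd_iff_prime_pow_dvd_dvd _ _).mpr fun q k hq hdvd => ?_
      rcases k.eq_zero_or_pos with rfl | hk0
      · simp
      rw [Nat.card_zpowers] at hdvd
      have hq' : q ∈ π := hx q hq ((dvd_pow_self q hk0.ne').trans hdvd)
      have hord : orderOf (x ^ (orderOf x / q ^ k)) = q ^ k :=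
        orderOf_pow_orderOf_div (orderOf_pos x).ne' hdvd
      rw [← hord]
      exact Subgroup.orderOf_dvd_natCard _ ⟨Subgroup.pow_mem _ (Subgroup.mem_zpowers x) _,
        hcent q _ hq hq' ⟨k, hord⟩⟩
    have hmem : (⟨f x, hxW⟩ : W) ∈ Z ⊔ D := hD.sup_eq_top ▸ Subgroup.mem_top _
    obtain ⟨z, hz, d, hd, hzd⟩ := Subgroup.mem_sup_of_normal_left.mp hmem
    have hzc : Commute z d := Subtype.ext
      (Subgroup.mem_centralizer_iff.mp d.2.2 (z : G ⧸ L) (Subgroup.mem_subgroupOf.mp hz))
    have hoz : (orderOf z).Coprime (orderOf d) :=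
      (hcopZ.coprime_dvd_left (Subgroup.orderOf_dvd_natCard Z hz)).coprime_dvd_right
        (hD.symm.index_eq_card ▸ Subgroup.orderOf_dvd_natCard D hd)
    have hz1 : z = 1 := by
      by_contra hz1
      obtain ⟨r, hr, hrd⟩ := Nat.exists_prime_and_dvd (mt orderOf_eq_one_iff.mp hz1)
      refine hZpi r hr (hrd.trans (Subgroup.orderOf_dvd_natCard Z hz)) (hx r hr (hrd.trans ?_))
      refine (Dvd.intro _ (hzc.orderOf_mul_eq_mul_orderOf_of_coprime hoz).symm).trans ?_
      rw [hzd, ← Subgroup.orderOf_coe]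
      exact orderOf_map_dvd f x
    rw [hz1, one_mul] at hzd
    exact ⟨d, hd, by rw [hzd]; rfl⟩

end Cfsg.Agent.S4051
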