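import Cfsg.Statements.S4050
import Cfsg.Agent.S4051
import Cfsg.Agent.Lib.Subnormal.Basic
import Mathlib.GroupTheory.Sylow

set_option autoImplicit false
open Cfsg

namespace Cfsg.Agent.S4050

/-- A `π`-element. -/
def IsPiEl {G : Type*} [Monoid G] (π : Set ℕ) (x : G) : Prop :=
  ∀ r : ℕ, r.Prime → r ∣ orderOf x → r ∈ π

theorem homog_subgroup {G : Type*} [Group G] [Finite G] {π : Set ℕ} (A : Subgroup G)
    (hhom : ∀ H : Subgroup G, H ≠ ⊥ → (∀ p : ℕ, p.Prime → p ∣ Nat.card ↥H → p ∉ π) →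
      ∀ p : ℕ, p.Prime → p ∣ (Subgroup.centralizer (H : Set G)).relIndex (Subgroup.normalizer (H : Set G)) → p ∉ π) :
    ∀ H : Subgroup A, H ≠ ⊥ → (∀ p : ℕ, p.Prime → p ∣ Nat.card ↥H → p ∉ π) →
      ∀ p : ℕ, p.Prime → p ∣ (Subgroup.centralizer (H : Set A)).relIndex (Subgroup.normalizer (H : Set A)) → p ∉ π := by
  intro H hH1 hH p hp hd hpπ
  have := Fact.mk hp
  set N := Subgroup.normalizer (H : Set A)
  obtain ⟨S⟩ : Nonempty (Sylow p N) := inferInstance
  refine S.not_dvd_index (hd.trans (Subgroup.index_dvd_of_le fun s hs => ?_))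
  refine Subgroup.mem_subgroupOf.mpr (Subgroup.mem_centralizer_iff.mpr fun h hh => Subtype.ext ?_)
  set H' := H.map A.subtype
  have hsN : ((s : A) : G) ∈ Subgroup.normalizer (H' : Set G) :=
    Subgroup.le_normalizer_map A.subtype ⟨(s : A), s.2, rfl⟩
  set N' := Subgroup.normalizer (H' : Set G)
  set C' := (Subgroup.centralizer (H' : Set G)).subgroupOf N'
  have : C'.Normal := ⟨fun c hc g => Subgroup.mem_subgroupOf.mpr
    (Subgroup.mem_centralizer_iff.mpr fun y hy => by
      have hy' : (g : G)⁻¹ * y * (g : G) ∈ (H' : Set G) := by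
        have := (Subgroup.mem_normalizer_iff.mp (inv_mem g.2) y).mp hy
        rwa [inv_inv] at this
      have h1 := Subgroup.mem_centralizer_iff.mp (Subgroup.mem_subgroupOf.mp hc) _ hy'
      simp only [Subgroup.coe_mul, Subgroup.coe_inv]
      calc y * ((g : G) * c * (g : G)⁻¹) = g * (((g : G)⁻¹ * y * g) * c) * (g : G)⁻¹ := by group
        _ = g * ((c : G) * ((g : G)⁻¹ * y * g)) * (g : G)⁻¹ := by rw [h1]
        _ = _ := by group)⟩
  have h1 : (QuotientGroup.mk' C' ⟨_, hsN⟩) = 1 := by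
    by_contra hne
    obtain ⟨k, hk⟩ := IsPGroup.iff_orderOf.mp S.2 ⟨s, hs⟩
    rw [Subgroup.orderOf_mk] at hk
    have hsG : orderOf ((s : A) : G) = p ^ k := by rw [Subgroup.orderOf_coe, Subgroup.orderOf_coe, hk]
    have hdd := orderOf_map_dvd (QuotientGroup.mk' C') (⟨_, hsN⟩ : N')
    rw [Subgroup.orderOf_mk, hsG] at hdd
    obtain ⟨j, -, hj⟩ := (Nat.dvd_prime_pow hp).mp hdd
    have hj0 : j ≠ 0 := fun h => hne (orderOf_eq_one_iff.mp (by rw [hj, h, pow_zero]))
    have hdiv : p ∣ C'.index := by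
      have := orderOf_dvd_natCard (QuotientGroup.mk' C' ⟨_, hsN⟩)
      rw [hj, ← Subgroup.index_eq_card] at this
      exact (dvd_pow_self p hj0).trans this
    refine hhom H' ?_ (fun r hr hd' => hH r hr (by rwa [Subgroup.card_subtype] at hd')) p hp hdiv hpπ
    rw [Ne, Subgroup.map_eq_bot_iff_of_injective _ A.subtype_injective]
    exact hH1
  have h2 : ((s : A) : G) ∈ Subgroup.centralizer (H' : Set G) :=
    Subgroup.mem_subgroupOf.mp ((QuotientGroup.eq_one_iff (⟨_, hsN⟩ : N')).mp h1)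
  exact Subgroup.mem_centralizer_iff.mp h2 (h : G) ⟨h, hh, rfl⟩


/-- Let π be a set of primes and G a finite group. The π-elements of G (elements whose order is divisible only by primes of π) form a subgroup if and only if G is π-separable (it has a chain of normal subgroups from 1 to G with each successive index divisible only by primes in π or only by primes outside π) and N_G(H)/C_G(H) is a π'-group for every nontrivial π'-subgroup H of G. -/
theorem result {G : Type*} [Group G] [Finite G] (π : Set ℕ)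
    (hπ : ∀ p ∈ π, p.Prime) :
    (∃ K : Subgroup G, ∀ x : G, x ∈ K ↔ ∀ p : ℕ, p.Prime → p ∣ orderOf x → p ∈ π) ↔
    ((∃ (n : ℕ) (H : Fin (n + 1) → Subgroup G), H 0 = ⊥ ∧ H (Fin.last n) = ⊤ ∧ Monotone H ∧ (∀ i, (H i).Normal) ∧
      ∀ i : Fin n, (∀ q : ℕ, q.Prime → q ∣ (H i.castSucc).relIndex (H i.succ) → q ∈ π) ∨
        (∀ q : ℕ, q.Prime → q ∣ (H i.castSucc).relIndex (H i.succ) → q ∉ π)) ∧
     (∀ H : Subgroup G, H ≠ ⊥ → (∀ p : ℕ, p.Prime → p ∣ Nat.card ↥H → p ∉ π) →
        ∀ p : ℕ, p.Prime → p ∣ (Subgroup.centralizer (H : Set G)).relIndex (Subgroup.normalizer (H : Set G)) → p ∉ π)) := by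
  constructor
  · rintro ⟨K, hK⟩
    have hKn : K.Normal := ⟨fun n hn g => by
      rw [hK] at hn ⊢
      intro r hr hd
      rw [← MulAut.conj_apply, MulEquiv.orderOf_eq] at hd
      exact hn r hr hd⟩
    have hKc : ∀ r : ℕ, r.Prime → r ∣ Nat.card K → r ∈ π := fun r hr hd => by
      have := Fact.mk hr
      obtain ⟨c, hc⟩ := exists_prime_orderOf_dvd_card' r hd
      exact (hK c).mp c.2 r hr (by rw [Subgroup.orderOf_coe, hc])
    have hKi : ∀ r : ℕ, r.Prime → r ∣ K.index → r ∉ π := fun r hr hd hrπ => by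
      have := Fact.mk hr
      obtain ⟨S⟩ : Nonempty (Sylow r G) := inferInstance
      refine S.not_dvd_index (hd.trans (Subgroup.index_dvd_of_le fun s hs => ?_))
      obtain ⟨k, hk⟩ := IsPGroup.iff_orderOf.mp S.2 ⟨s, hs⟩
      rw [Subgroup.orderOf_mk] at hk
      refine (hK s).mpr fun t ht hd' => ?_
      rw [hk] at hd'
      rwa [(Nat.prime_dvd_prime_iff_eq ht hr).mp (ht.dvd_of_dvd_pow hd')]
    refine ⟨⟨2, ![⊥, K, ⊤], rfl, rfl, ?_, ?_, ?_⟩, ?_⟩
    · refine Fin.monotone_iff_le_succ.mpr fun i => ?_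
      fin_cases i <;> simp
    · intro i; fin_cases i <;> simp <;> infer_instance
    · intro i
      fin_cases i
      · left
        intro r hr hd
        have : ((⊥ : Subgroup G).relIndex K) = Nat.card K := Subgroup.relIndex_bot_left K
        simp at hd
        exact hKc r hr hd
      · right
        intro r hr hd
        simp at hd
        exact hKi r hr hd
    intro H hH1 hH p hp hd hpπ
    have := Fact.mk hp
    set N := Subgroup.normalizer (H : Set G)
    set C := Subgroup.centralizer (H : Set G)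
    obtain ⟨S⟩ : Nonempty (Sylow p N) := inferInstance
    refine S.not_dvd_index (hd.trans (Subgroup.index_dvd_of_le fun s hs => ?_))
    refine Subgroup.mem_subgroupOf.mpr (Subgroup.mem_centralizer_iff.mpr fun h hh => ?_)
    have hsK : (s : G) ∈ K := by
      obtain ⟨k, hk⟩ := IsPGroup.iff_orderOf.mp S.2 ⟨s, hs⟩
      rw [Subgroup.orderOf_mk, ← Subgroup.orderOf_coe] at hk
      refine (hK _).mpr fun t ht hd' => ?_
      rw [hk] at hd'
      rwa [(Nat.prime_dvd_prime_iff_eq ht hp).mp (ht.dvd_of_dvd_pow hd')]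
    have h1 : (s : G) * h * (s : G)⁻¹ * h⁻¹ ∈ K ⊓ H := by
      refine ⟨?_, H.mul_mem ((Subgroup.mem_normalizer_iff.mp s.2 h).mp hh) (H.inv_mem hh)⟩
      have := K.mul_mem hsK (hKn.conj_mem _ (K.inv_mem hsK) h)
      rwa [show (s : G) * (h * (s : G)⁻¹ * h⁻¹) = (s : G) * h * (s : G)⁻¹ * h⁻¹ by group] at this
    rw [Subgroup.inf_eq_bot_of_coprime (Nat.coprime_of_dvd fun r hr h1 h2 => hH r hr h2 (hKc r hr h1)),
      Subgroup.mem_bot] at h1
    calc h * (s : G) = ((s : G) * h * (s : G)⁻¹ * h⁻¹)⁻¹ * ((s : G) * h) := by group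
      _ = (s : G) * h := by rw [h1, inv_one, one_mul]
  · rintro ⟨⟨n, H, h0, hn, hmono, hnormal, hfac⟩, hhom⟩
    suffices h : ∀ i : Fin (n + 1), ∃ L : Subgroup (H i), ∀ x : (H i), x ∈ L ↔ IsPiEl π x by
      obtain ⟨L, hL⟩ := h (Fin.last n)
      refine ⟨L.map (H (Fin.last n)).subtype, fun x => ?_⟩
      constructor
      · rintro ⟨y, hy, rfl⟩
        exact fun r hr hd => (hL y).mp hy r hr (by rwa [← Subgroup.orderOf_coe])
      · intro hx
        exact ⟨⟨x, by rw [hn]; exact Subgroup.mem_top x⟩,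
          (hL _).mpr (fun r hr hd => hx r hr (by rwa [← Subgroup.orderOf_coe] at hd)), rfl⟩
    intro i
    induction i using Fin.induction with
    | zero =>
      refine ⟨⊤, fun x => iff_of_true (Subgroup.mem_top x) fun r hr hd => ?_⟩
      have hx : (x : G) = 1 := by
        have h1 : (x : G) ∈ (⊥ : Subgroup G) := h0.le x.2
        exact Subgroup.mem_bot.mp h1
      rw [← Subgroup.orderOf_coe, hx, orderOf_one] at hd
      exact absurd (Nat.dvd_one.mp hd) hr.ne_one
    | succ i ih =>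
      set A := H i.succ
      set B := H i.castSucc
      have hBA : B ≤ A := hmono (Fin.castSucc_le_succ i)
      have : (B.subgroupOf A).Normal := (hnormal _).comap _
      refine Cfsg.Agent.S4051.result π hπ (homog_subgroup A hhom) (B.subgroupOf A) ?_ ?_
      · obtain ⟨L, hL⟩ := ih
        refine ⟨L.comap (Subgroup.subgroupOfEquivOfLe hBA).toMonoidHom, fun x => ?_⟩
        rw [Subgroup.mem_comap, hL]
        unfold IsPiEl
        rw [MulEquiv.coe_toMonoidHom, MulEquiv.orderOf_eq]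
      · have hcard : Nat.card (A ⧸ B.subgroupOf A) = B.relIndex A := rfl
        rcases hfac i with h | h
        · exact ⟨⊤, fun x => iff_of_true (Subgroup.mem_top x) fun r hr hd =>
            h r hr (hd.trans (hcard ▸ orderOf_dvd_natCard x))⟩
        · refine ⟨⊥, fun x => ⟨fun hx r hr hd => ?_, fun hx => ?_⟩⟩
          · rw [Subgroup.mem_bot.mp hx, orderOf_one] at hd
            exact absurd (Nat.dvd_one.mp hd) hr.ne_one
          · rw [Subgroup.mem_bot, ← orderOf_eq_one_iff]
            by_contra hne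
            obtain ⟨r, hr, hrd⟩ := Nat.exists_prime_and_dvd hne
            exact h r hr (hrd.trans (hcard ▸ orderOf_dvd_natCard x)) (hx r hr hrd)

end Cfsg.Agent.S4050
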