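import Cfsg.Statements.S4056
import Cfsg.Agent.Lib.Subnormal.ClassTwo

set_option autoImplicit false
open Cfsg

namespace Cfsg.Agent.S4056

open scoped commutatorElement

theorem facts {P : Type*} [Group P] [Finite P] (hP : IsPGroup 2 P)
    (hcl : Group.nilpotencyClass P ≤ 2) (hexp : Monoid.exponent P ∣ 4) :
    (∀ x y : P, ⁅x, y⁆ ∈ Subgroup.center P) ∧ ∀ x y : P, ⁅x, y⁆ ^ 2 = 1 := by
  have : Fact (Nat.Prime 2) := ⟨Nat.prime_two⟩
  have := hP.isNilpotent
  have hc := CfsgLib.Subnormal.commutatorElement_mem_center_of_class_two hcl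
  have h4 : ∀ x : P, x ^ 4 = 1 := fun x => Monoid.exponent_dvd_iff_forall_pow_eq_one.mp hexp x
  refine ⟨hc, fun x y => ?_⟩
  have hyx : ⁅y, x⁆ = ⁅x, y⁆⁻¹ := (commutatorElement_inv x y).symm
  -- `(x y)^n = x^n y^n [y,x]^(n choose 2)`
  have key : ∀ n : ℕ, (x * y) ^ n = x ^ n * y ^ n * ⁅y, x⁆ ^ n.choose 2 := by
    intro n
    induction n with
    | zero => simp
    | succ n ih =>
      have hz : Commute (⁅y, x⁆ ^ n.choose 2) (x * y) :=
        Commute.pow_left ((Subgroup.mem_center_iff.mp (hc y x) _).symm) _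
      have hyn : y ^ n * x = x * y ^ n * ⁅y, x⁆ ^ n := by
        have h := CfsgLib.Subnormal.commutatorElement_pow_left hc y x n
        rw [← h]
        have hcen := Subgroup.mem_center_iff.mp (hc (y ^ n) x) (x * y ^ n)
        rw [hcen, commutatorElement_def]
        group
      rw [pow_succ, ih, mul_assoc, hz.eq, Nat.choose_succ_succ, Nat.choose_one_right, pow_add,
        pow_succ x, pow_succ y]
      have hd : Commute (⁅y, x⁆ ^ n) y :=
        Commute.pow_left ((Subgroup.mem_center_iff.mp (hc y x) _).symm) _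
      calc x ^ n * y ^ n * (x * y * ⁅y, x⁆ ^ n.choose 2)
          = x ^ n * (y ^ n * x) * y * ⁅y, x⁆ ^ n.choose 2 := by simp [mul_assoc]
        _ = x ^ n * (x * y ^ n * ⁅y, x⁆ ^ n) * y * ⁅y, x⁆ ^ n.choose 2 := by rw [hyn]
        _ = _ := by simp [mul_assoc, hd.eq, pow_add]
  have h := key 4
  rw [h4, h4, h4, one_mul, one_mul, show Nat.choose 4 2 = 6 from rfl] at h
  have h6 : ⁅y, x⁆ ^ 2 = 1 := by
    have h' := h.symm
    rw [show (6 : ℕ) = 4 + 2 from rfl, pow_add, h4, one_mul] at h'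
    exact h'
  rw [← commutatorElement_inv y x, inv_pow, h6, inv_one]


/-- In a finite 2-group of nilpotency class at most 2 and exponent dividing 4, the Frattini subgroup lies in the centre and is elementary abelian. -/
theorem result {P : Type*} [Group P] [Finite P] (hP : IsPGroup 2 P)
    (hcl : Group.nilpotencyClass P ≤ 2) (hexp : Monoid.exponent P ∣ 4) :
    frattini P ≤ Subgroup.center P ∧ Cfsg.IsElementaryAbelian 2 (frattini P) := by
  obtain ⟨hc, hsq⟩ := facts hP hcl hexp
  let K : Subgroup P :=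
    { carrier := {z | z ∈ Subgroup.center P ∧ z ^ 2 = 1}
      one_mem' := ⟨one_mem _, one_pow 2⟩
      mul_mem' := fun {a b} ha hb => ⟨mul_mem ha.1 hb.1, by
        rw [(show Commute a b from (Subgroup.mem_center_iff.mp ha.1 b).symm).mul_pow, ha.2, hb.2,
          one_mul]⟩
      inv_mem' := fun {a} ha => ⟨inv_mem ha.1, by rw [inv_pow, ha.2, inv_one]⟩ }
  have h4 : ∀ x : P, x ^ 4 = 1 := fun x => Monoid.exponent_dvd_iff_forall_pow_eq_one.mp hexp x
  have hle : frattini P ≤ K := by
    refine CfsgLib.Subnormal.frattini_le_of_forall (p := 2) (fun x y => ⟨hc x y, hsq x y⟩)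
      fun x => ⟨?_, by rw [← pow_mul]; exact h4 x⟩
    rw [Subgroup.mem_center_iff]
    intro y
    have h := CfsgLib.Subnormal.commutatorElement_pow_left hc x y 2
    rw [hsq, commutatorElement_eq_one_iff_mul_comm] at h
    exact h.symm
  refine ⟨fun x hx => (hle hx).1, ⟨⟨fun a b => Subtype.ext ?_⟩⟩, fun a ha => (hle ha).2⟩
  exact (Subgroup.mem_center_iff.mp (hle a.2).1 b).symm

end Cfsg.Agent.S4056
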