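import Cfsg.Statements.S4057
import Mathlib
import Cfsg.Agent.Lib.Subnormal.UnipotentPivots
import Cfsg.Agent.Lib.Subnormal.OmegaCentral
import Cfsg.Agent.Lib.PGroups.ElemAbFour

set_option autoImplicit false
open Cfsg

namespace Cfsg.Agent.S4057

/-- Let p be an odd prime and P a finite p-group in which every normal abelian subgroup can be generated by k elements. Then every subgroup of P can be generated by at most ⌊k(k+4)/4⌋ elements. -/
theorem result {P : Type*} [Group P] [Finite P] {p : ℕ} [Fact p.Prime]
    (hp : p ≠ 2) (hP : IsPGroup p P) (k : ℕ)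
    (hab : ∀ A : Subgroup P, A.Normal → IsMulCommutative A → ∃ S : Finset P, S.card ≤ k ∧ Subgroup.closure (S : Set P) = A) :
    ∀ H : Subgroup P, ∃ S : Finset P, S.card ≤ k * (k + 4) / 4 ∧ Subgroup.closure (S : Set P) = H := by
  classical
  intro H
  obtain ⟨A, hAn, hAe, hmax⟩ := CfsgLib.PGroups.exists_maximal_normal_elemAb hp hP
  obtain ⟨a, ha⟩ := IsPGroup.iff_card.mp (hP.to_subgroup A)
  have hak : a ≤ k := by
    obtain ⟨S, hS, hSA⟩ := hab A hAn hAe.1
    have hmem : ∀ x ∈ S, x ∈ A := fun x hx => hSA ▸ Subgroup.subset_closure hx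
    let T : Finset A := S.attach.image fun x => ⟨x.1, hmem x.1 x.2⟩
    have hT : Subgroup.closure (T : Set A) = ⊤ := by
      apply Subgroup.map_injective A.subtype_injective
      rw [MonoidHom.map_closure, ← MonoidHom.range_eq_map, Subgroup.range_subtype]
      conv_rhs => rw [← hSA]
      congr 1
      ext x
      constructor
      · rintro ⟨y, hy, rfl⟩
        obtain ⟨z, -, rfl⟩ := Finset.mem_image.mp (Finset.mem_coe.mp hy)
        exact z.2
      · intro hx
        exact ⟨⟨x, hmem x hx⟩, Finset.mem_coe.mpr (Finset.mem_image.mpr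
          ⟨⟨x, hx⟩, Finset.mem_attach _ _, rfl⟩), rfl⟩
    have := hAe.1
    open scoped IsMulCommutative in
    have hdvd : Nat.card A ∣ p ^ Group.rank A := card_dvd_exponent_pow_rank' (G := A)
      fun g => Subtype.ext (hAe.2 g g.2)
    rw [ha, Nat.pow_dvd_pow_iff_le_right (Fact.out : p.Prime).one_lt] at hdvd
    exact hdvd.trans ((Group.rank_le hT).trans (Finset.card_image_le.trans
      (Finset.card_attach.trans_le hS)))
  obtain ⟨X, hXH, hX, hgen⟩ :=
    CfsgLib.Subnormal.exists_generators_mod_centralizer hP hAe.1 ha H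
  set C := H ⊓ Subgroup.centralizer (A : Set P) with hC
  have hcC : CfsgLib.Subnormal.OmegaCentral p C := fun x hx =>
    Subgroup.mem_center_iff.mpr fun y => Subtype.ext
      (Subgroup.mem_centralizer_iff.mp y.2.2 x
        (hmax x x.2.2 (by simpa using congrArg Subtype.val hx))).symm
  have hcard : Nat.card {x : C // x ^ p = 1} ≤ p ^ a := by
    refine le_trans (Nat.card_le_card_of_injective (fun x =>
      (⟨x.1.1, hmax _ x.1.2.2 (by simpa using congrArg Subtype.val x.2)⟩ : A)) ?_) ha.le
    intro x y hxy
    exact Subtype.ext (Subtype.ext (congrArg (fun z : A => (z : P)) hxy))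
  obtain ⟨S, hS, hStop⟩ := CfsgLib.Subnormal.exists_generators_of_omegaCentral hp
    (hP.to_subgroup C) hcC hcard
  refine ⟨X ∪ S.image C.subtype, ?_, ?_⟩
  · have h1 : 4 * (X ∪ S.image C.subtype).card ≤ k * (k + 4) := by
      have := (Finset.card_union_le X (S.image C.subtype)).trans
        (Nat.add_le_add_left Finset.card_image_le _)
      calc 4 * (X ∪ S.image C.subtype).card ≤ 4 * X.card + 4 * S.card := by omega
        _ ≤ a ^ 2 + 4 * a := by omega
        _ ≤ k ^ 2 + 4 * k := by gcongr
        _ = k * (k + 4) := by ring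
    omega
  · have hSC : Subgroup.closure ((S.image C.subtype : Finset P) : Set P) = C := by
      rw [Finset.coe_image, ← MonoidHom.map_closure, hStop, ← MonoidHom.range_eq_map,
        Subgroup.range_subtype]
    rw [Finset.coe_union, Subgroup.closure_union, hSC]
    exact le_antisymm (sup_le ((Subgroup.closure_le H).mpr hXH) inf_le_left) hgen

end Cfsg.Agent.S4057
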