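import Cfsg.Statements.S4058
import Cfsg.Agent.Lib.Subnormal.SignChars
import Cfsg.Agent.Lib.CharTheory.Orthogonality
import Cfsg.Agent.Lib.CharTheory.Degree
import Cfsg.Agent.Lib.RealChar.Indicator

set_option autoImplicit false
open Cfsg

namespace Cfsg.Agent.S4058

open CfsgLib.Subnormal.SignChars
open scoped ComplexConjugate

variable {G : Type*} [Group G]

theorem formula [Fintype G] [Fintype (Cfsg.IrrCharacter G)] :
    ∑ χ : Cfsg.IrrCharacter G, CfsgLib.RealChar.fsIndicator (χ : G → ℂ) * (χ : G → ℂ) 1 =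
      (Nat.card {s : G // s * s = 1} : ℂ) := by
  classical
  simp only [CfsgLib.RealChar.fsIndicator, Finset.mul_sum, Finset.sum_mul]
  rw [Finset.sum_comm]
  have : ∀ s : G, ∑ χ : Cfsg.IrrCharacter G, (Nat.card G : ℂ)⁻¹ * (χ : G → ℂ) (s * s) * (χ : G → ℂ) 1 =
      if s * s = 1 then 1 else 0 := by
    intro s
    calc ∑ χ : Cfsg.IrrCharacter G, (Nat.card G : ℂ)⁻¹ * (χ : G → ℂ) (s * s) * (χ : G → ℂ) 1
        = (Nat.card G : ℂ)⁻¹ * ∑ χ : Cfsg.IrrCharacter G, (χ : G → ℂ) 1 * (χ : G → ℂ) (s * s) := by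
          rw [Finset.mul_sum]; exact Finset.sum_congr rfl fun χ _ => by ring
      _ = _ := by
          rw [CfsgLib.CharTheory.sum_degree_mul]
          split_ifs with h
          · exact inv_mul_cancel₀ (Nat.cast_ne_zero.mpr Nat.card_pos.ne')
          · rw [mul_zero]
  rw [Finset.sum_congr rfl fun s _ => this s, Finset.sum_boole, Nat.card_eq_fintype_card,
    Fintype.card_subtype]

theorem term [Fintype G] (hG : IsPGroup 2 G) (χ : Cfsg.IrrCharacter G) :
    ∃ c : ℤ, CfsgLib.RealChar.fsIndicator (χ : G → ℂ) * (χ : G → ℂ) 1 = (c : ℂ) ∧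
      (∀ a : Sign G, ∀ c' : ℤ,
        CfsgLib.RealChar.fsIndicator (χ : G → ℂ) * (χ : G → ℂ) 1 = (c' : ℂ) →
        ∀ c'' : ℤ, CfsgLib.RealChar.fsIndicator ((mulIrr hG a χ : Cfsg.IrrCharacter G) : G → ℂ) *
          ((mulIrr hG a χ : Cfsg.IrrCharacter G) : G → ℂ) 1 = (c'' : ℂ) → c'' = c') ∧
      ∀ (k d : ℕ), Nat.card (G ⧸ frattini G) = 2 ^ d → 2 * k + 1 ≤ d → ∀ m : ℕ,
        m = Nat.card (@MulAction.orbit (Sign G) (Cfsg.IrrCharacter G) (action hG).toSMul χ) →
        (2 : ℤ) ^ (k + 1) ∣ (m : ℤ) * c := by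
  have : Fact (Nat.Prime 2) := ⟨Nat.prime_two⟩
  let act : MulAction (Sign G) (Cfsg.IrrCharacter G) := action hG
  obtain ⟨n, hn0, hndvd, hn⟩ := CfsgLib.CharTheory.IsIrrCharacter.exists_degree_dvd χ.2
  obtain ⟨N, hN⟩ := IsPGroup.iff_card.mp hG
  obtain ⟨j, -, hj⟩ := (Nat.dvd_prime_pow Nat.prime_two).mp (hN ▸ hndvd)
  obtain ⟨ε, hε⟩ : ∃ ε : ℤ, CfsgLib.RealChar.fsIndicator (χ : G → ℂ) = (ε : ℂ) := by
    obtain ⟨r, ρ, hρ, hρc⟩ := χ.2
    rw [← hρc]
    rcases (CfsgLib.RealChar.fsIndicator_trichotomy ρ).1 with h | h | h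
    · exact ⟨0, by rw [h, Int.cast_zero]⟩
    · exact ⟨1, by rw [h, Int.cast_one]⟩
    · exact ⟨-1, by rw [h, Int.cast_neg, Int.cast_one]⟩
  refine ⟨ε * n, by rw [hε, hn]; push_cast; rfl, fun a c' h' c'' h'' => ?_, fun k d hd hdk m hm => ?_⟩
  · have h1 : ((mulIrr hG a χ : Cfsg.IrrCharacter G) : G → ℂ) 1 = (χ : G → ℂ) 1 := by
      show (ev a 1 : ℂ) * _ = _
      simp
    have h2 : CfsgLib.RealChar.fsIndicator ((mulIrr hG a χ : Cfsg.IrrCharacter G) : G → ℂ) =
        CfsgLib.RealChar.fsIndicator (χ : G → ℂ) := by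
      unfold CfsgLib.RealChar.fsIndicator
      congr 1
      refine Finset.sum_congr rfl fun g _ => ?_
      show (ev a (g * g) : ℂ) * _ = _
      rcases ev_eq_one_or_neg_one hG a g with e | e <;> simp [map_mul, e]
    rw [h1, h2, h'] at h''
    exact_mod_cast h''.symm
  -- bound the stabiliser
  let St := MulAction.stabilizer (Sign G) χ
  let F : G →* (St → ℂˣ) := MonoidHom.mk' (fun g a => ev (a : Sign G) g)
    (fun g h => funext fun a => map_mul _ g h)
  set K := F.ker
  have hvan : ∀ g, g ∉ K → (χ : G → ℂ) g = 0 := by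
    intro g hg
    by_contra hne
    apply hg
    refine funext fun a => Units.ext ?_
    have h := congrFun (congrArg Subtype.val (a.2 : (a : Sign G) • χ = χ)) g
    exact mul_right_cancel₀ hne (h.trans (one_mul _).symm)
  have hKn : K.index ≤ n ^ 2 := by
    have hnorm := CfsgLib.CharTheory.classInner_self_of_isIrr χ.2
    unfold Cfsg.classInner at hnorm
    rw [inv_mul_eq_iff_eq_mul₀ (Nat.cast_ne_zero.mpr Nat.card_pos.ne'), mul_one] at hnorm
    classical
    have hle : (Nat.card G : ℝ) ≤ (Nat.card K : ℝ) * (n : ℝ) ^ 2 := by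
      have h1 : (Nat.card G : ℝ) = ∑ g : G, ‖(χ : G → ℂ) g‖ ^ 2 := by
        have := congrArg Complex.re hnorm
        rw [Complex.re_sum, Complex.natCast_re] at this
        rw [← this]
        refine Finset.sum_congr rfl fun g _ => ?_
        rw [Complex.mul_conj, Complex.ofReal_re, Complex.normSq_eq_norm_sq]
      have hb : ∀ g, ‖(χ : G → ℂ) g‖ ^ 2 ≤ (n : ℝ) ^ 2 := fun g => by
        have h2 := CfsgLib.CharTheory.IsCharacter.norm_le
          (CfsgLib.CharTheory.IsIrrCharacter.isCharacter χ.2) g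
        rw [hn] at h2
        simp only [Complex.natCast_re] at h2
        exact pow_le_pow_left₀ (norm_nonneg _) h2 2
      rw [h1, ← Finset.sum_subset (Finset.subset_univ (Finset.univ.filter fun g => g ∈ K))
        (fun g _ hg => by
          rw [hvan g (fun hk => hg (Finset.mem_filter.mpr ⟨Finset.mem_univ g, hk⟩)), norm_zero]
          simp)]
      refine (Finset.sum_le_card_nsmul _ _ _ fun g _ => hb g).trans (le_of_eq ?_)
      rw [nsmul_eq_mul, Nat.card_eq_fintype_card, Fintype.card_subtype]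
    have h3 : Nat.card G ≤ Nat.card K * n ^ 2 := by exact_mod_cast hle
    rw [← K.index_mul_card, mul_comm] at h3
    exact Nat.le_of_mul_le_mul_left h3 Nat.card_pos
  have hSt : Nat.card St ≤ K.index := by
    rw [show K.index = Nat.card F.range from Subgroup.index_ker F]
    have : Finite F.range := Finite.of_surjective _ F.rangeRestrict_surjective
    let cgr : CommGroup F.range := { (inferInstance : Group F.range) with
      mul_comm := fun a b => Subtype.ext (mul_comm (a : St → ℂˣ) b) }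
    refine le_trans ?_ (CommGroup.card_monoidHom_of_hasEnoughRootsOfUnity F.range ℂ).le
    have : Finite (F.range →* ℂˣ) := Nat.finite_of_card_ne_zero
      (by rw [CommGroup.card_monoidHom_of_hasEnoughRootsOfUnity]; exact Nat.card_pos.ne')
    refine Nat.card_le_card_of_injective
      (fun a : St => (Pi.evalMonoidHom (fun _ : St => ℂˣ) a).comp F.range.subtype) ?_
    intro a b h
    refine Subtype.ext (ev_injective (MonoidHom.ext fun g => ?_))
    exact DFunLike.congr_fun h ⟨F g, g, rfl⟩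
  have : Finite (Sign G) := Nat.finite_of_card_ne_zero (by rw [card_sign hG, hd]; positivity)
  have hos : m * Nat.card St = 2 ^ d := by
    rw [hm, ← hd, ← card_sign hG, Nat.card_coe_set_eq, ← MulAction.index_stabilizer,
      Subgroup.index_mul_card]
  obtain ⟨i, -, hi⟩ := (Nat.dvd_prime_pow Nat.prime_two).mp (hos ▸ dvd_mul_right m _)
  have hdi : d ≤ i + 2 * j := by
    refine (Nat.pow_le_pow_iff_right (le_refl 2)).mp ?_
    rw [← hos, hi, pow_add]
    refine Nat.mul_le_mul_left _ ((hSt.trans hKn).trans ?_)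
    rw [hj, ← pow_mul, mul_comm]
  have h3 : (2 : ℤ) ^ (k + 1) ∣ ((m * n : ℕ) : ℤ) := by
    have : 2 ^ (k + 1) ∣ m * n := by
      rw [hi, hj, ← pow_add]; exact pow_dvd_pow 2 (by omega)
    exact_mod_cast this
  rw [show (m : ℤ) * (ε * n) = ((m * n : ℕ) : ℤ) * ε by push_cast; ring]
  exact h3.mul_right ε


/-- Let G be a finite 2-group with #(G/Φ(G)) ≥ 2^(2k+1). Then the number of elements x of G with x² = 1 is divisible by 2^(k+1). -/
theorem result {G : Type*} [Group G] [Finite G] (hG : IsPGroup 2 G) (k : ℕ)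
    (hgen : 2 ^ (2 * k + 1) ≤ Nat.card (G ⧸ frattini G)) :
    2 ^ (k + 1) ∣ Nat.card {x : G // x ^ 2 = 1} := by
  classical
  have := Fintype.ofFinite G
  obtain ⟨d, hd⟩ := IsPGroup.iff_card.mp (hG.to_quotient (frattini G))
  have hd2k : 2 * k + 1 ≤ d := (Nat.pow_le_pow_iff_right (le_refl 2)).mp (hd ▸ hgen)
  let act : MulAction (Sign G) (IrrCharacter G) := action hG
  have : Finite (Sign G) := Nat.finite_of_card_ne_zero (by rw [card_sign hG, hd]; positivity)
  have : Finite (IrrCharacter G) := CfsgLib.CharTheory.finite_irrCharacter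
  have := Fintype.ofFinite (IrrCharacter G)
  have hsum := formula (G := G)
  choose c hc hcinv hcdvd using fun χ => term hG χ
  rw [Finset.sum_congr rfl fun χ _ => (hc χ)] at hsum
  have hsumZ : ∑ χ : IrrCharacter G, c χ = (Nat.card {x : G // x ^ 2 = 1} : ℤ) := by
    have h1 : Nat.card {x : G // x ^ 2 = 1} = Nat.card {s : G // s * s = 1} :=
      Nat.card_congr (Equiv.subtypeEquivRight fun x => by rw [sq])
    rw [h1]
    exact_mod_cast hsum
  rw [← Int.natCast_dvd_natCast, ← hsumZ, Nat.cast_pow, Nat.cast_ofNat]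
  -- sum over the orbits
  let e := MulAction.selfEquivSigmaOrbits (Sign G) (IrrCharacter G)
  rw [← e.symm.sum_comp, Fintype.sum_sigma]
  refine Finset.dvd_sum fun ω _ => ?_
  have hconst : ∀ χ : MulAction.orbit (Sign G) ω.out, c (e.symm ⟨ω, χ⟩) = c ω.out := by
    rintro ⟨χ, a, rfl⟩
    exact hcinv ω.out a (c ω.out) (hc _) _ (hc _)
  rw [Finset.sum_congr rfl fun χ _ => hconst χ, Finset.sum_const, Finset.card_univ, nsmul_eq_mul,
    ← Nat.card_eq_fintype_card]
  exact hcdvd ω.out k d hd hd2k (Nat.card (MulAction.orbit (Sign G) ω.out)) rfl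

end Cfsg.Agent.S4058
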