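import Cfsg.Statements.S4064
import Mathlib
import Cfsg.Agent.S0183
import Cfsg.Agent.S1476
import Cfsg.Agent.S0338
import Cfsg.Agent.S0738
import Cfsg.Agent.Lib.SharplyEven.SimpleZassenhaus
import Cfsg.Agent.Lib.ClassicalLinear.BlockHom
import Cfsg.Agent.Lib.MetacyclicP.CTI.Basic
import Cfsg.Agent.Lib.MetacyclicP.CTI.Zassenhaus
import Cfsg.Agent.Lib.MetacyclicP.TwoGen.ClosureFPF
-- import your own Cfsg.Agent.* helpers here

set_option autoImplicit false
open Cfsg

namespace Cfsg.Agent.S4064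

open MulAction
open CfsgLib.MetacyclicP.CTI

theorem isCN_subgroup {G : Type*} [Group G] (h : Cfsg.IsCNGroup G) (H : Subgroup G) :
    Cfsg.IsCNGroup H := by
  intro x hx
  have hx' : (x : G) ≠ 1 := fun e => hx (Subtype.ext e)
  haveI := h (x : G) hx'
  let f : Subgroup.centralizer ({x} : Set H) →* Subgroup.centralizer ({(x : G)} : Set G) :=
    { toFun := fun c => ⟨((c : H) : G), mem_cent.2 (congrArg Subtype.val (mem_cent.1 c.2))⟩
      map_one' := rfl
      map_mul' := fun _ _ => rfl }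
  have hf : Function.Injective f := fun a b e =>
    Subtype.ext (Subtype.ext (congrArg (fun z : Subgroup.centralizer ({(x : G)} : Set G) => (z : G)) e))
  exact isNilpotent_of_ker_le_center f (by rw [(MonoidHom.ker_eq_bot_iff f).2 hf]; exact bot_le)

theorem solvable_case {G : Type*} [Group G] [Finite G] [Group.IsSolvable G] (hTI : IsCTI G) :
    Group.IsNilpotent G ∨ ∃ H : Subgroup G, Cfsg.IsFrobeniusComplement H ∧
      (IsCyclic H ∨ ∃ m : ℕ, Odd m ∧ Nonempty (H ≃* Multiplicative (ZMod m) × QuaternionGroup 2)) := by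
  rcases Cfsg.Agent.S1476.result (hTI.isCN) with h | ⟨K, E, -, -, hF, h⟩ | ⟨p, hp, h⟩
  · exact Or.inl h
  · refine Or.inr ⟨E, hF, ?_⟩
    rcases h with h | ⟨C, Q, hsup, hcomm, hC, hodd, n, ⟨e⟩⟩
    · exact Or.inl h
    have hn := hTI.quaternion_le_one e
    haveI : NeZero (2 ^ n) := ⟨by positivity⟩
    have hQ : Nat.card Q = 4 * 2 ^ n := by
      rw [Nat.card_congr e.toEquiv, Nat.card_eq_fintype_card, QuaternionGroup.card]
    have hcop : (Nat.card C).Coprime (Nat.card Q) := by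
      rw [hQ, show 4 * 2 ^ n = 2 ^ (n + 2) by ring]
      exact (Nat.coprime_two_right.2 hodd).pow_right _
    let f : C × Q →* E :=
      { toFun := fun x => ⟨(x.1 : G) * x.2, hsup ▸ Subgroup.mul_mem_sup x.1.2 x.2.2⟩
        map_one' := Subtype.ext (by simp)
        map_mul' := fun x y => Subtype.ext (by
          show ((x.1 : G) * y.1) * ((x.2 : G) * y.2) = (x.1 : G) * x.2 * ((y.1 : G) * y.2)
          calc ((x.1 : G) * y.1) * ((x.2 : G) * y.2) = (x.1 : G) * ((y.1 : G) * x.2) * y.2 := by group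
            _ = (x.1 : G) * ((x.2 : G) * y.1) * y.2 := by rw [hcomm _ y.1.2 _ x.2.2]
            _ = _ := by group) }
    have hinj : Function.Injective f := by
      rw [injective_iff_map_eq_one]
      rintro ⟨c, q⟩ h
      have h1 : (c : G) * q = 1 := congrArg Subtype.val h
      have h2 : (c : G) ∈ C ⊓ Q :=
        ⟨c.2, by rw [eq_inv_of_mul_eq_one_left h1]; exact Q.inv_mem q.2⟩
      rw [Subgroup.inf_eq_bot_of_coprime hcop, Subgroup.mem_bot] at h2
      rw [h2, one_mul] at h1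
      exact Prod.ext (Subtype.ext h2) (Subtype.ext h1)
    have hsurj : Function.Surjective f := by
      have hle : C ⊔ Q ≤ (E.subtype.comp f).range := by
        refine sup_le (fun c hc => ⟨(⟨c, hc⟩, 1), ?_⟩) (fun q hq => ⟨(1, ⟨q, hq⟩), ?_⟩)
        · show c * ((1 : Q) : G) = c
          rw [OneMemClass.coe_one, mul_one]
        · show ((1 : C) : G) * q = q
          rw [OneMemClass.coe_one, one_mul]
      intro y
      obtain ⟨x, hx⟩ := hle (hsup.symm ▸ y.2 : (y : G) ∈ C ⊔ Q)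
      exact ⟨x, Subtype.ext hx⟩
    let g : C × Q ≃* E := MulEquiv.ofBijective f ⟨hinj, hsurj⟩
    rcases Nat.le_one_iff_eq_zero_or_eq_one.1 hn with rfl | rfl
    · haveI : IsCyclic (QuaternionGroup (2 ^ 0)) := by
        rw [pow_zero]; exact QuaternionGroup.quaternionGroup_one_isCyclic
      haveI : IsCyclic Q := isCyclic_of_surjective e.symm.toMonoidHom e.symm.surjective
      haveI : IsCyclic (C × Q) := Group.isCyclic_prod_iff.2 ⟨hC, inferInstance, hcop⟩
      exact Or.inl (isCyclic_of_surjective g.toMonoidHom g.surjective)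
    · exact Or.inr ⟨Nat.card C, hodd,
        ⟨g.symm.trans (MulEquiv.prodCongr (zmodCyclicMulEquiv hC).symm e)⟩⟩
  · exact absurd h (hTI.not_threeStep p hp)

theorem setting_of_not_solvable {G : Type*} [Group G] [Finite G] (hTI : IsCTI G)
    (hns : ¬ Group.IsSolvable G) : ∃ (T : Subgroup G) (t : G), Setting T t := by
  have hCN := hTI.isCN
  have hodd : ∀ H : Subgroup G, Odd (Nat.card H) → Group.IsSolvable H := fun H hH =>
    Cfsg.Agent.S0183.result hH (isCN_subgroup hCN H)
  haveI : Fact (Nat.Prime 2) := ⟨Nat.prime_two⟩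
  obtain ⟨S⟩ : Nonempty (Sylow 2 G) := inferInstance
  have h2 : 2 ∣ Nat.card G := by
    by_contra h
    exact hns (Cfsg.Agent.S0183.result (Nat.odd_iff.2 (by omega)) hCN)
  haveI : Nontrivial (S : Subgroup G) :=
    (Subgroup.nontrivial_iff_ne_bot _).2 (S.ne_bot_of_dvd_card h2)
  haveI := S.2.center_nontrivial
  obtain ⟨z, hz⟩ : ∃ z : Subgroup.center (S : Subgroup G), orderOf z = 2 := by
    refine exists_prime_orderOf_dvd_card' 2 ?_
    obtain ⟨k, hk⟩ := (S.2.to_subgroup (Subgroup.center _)).exists_card_eq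
    rw [hk]
    refine dvd_pow_self 2 ?_
    rintro rfl
    exact (Finite.one_lt_card (α := Subgroup.center (S : Subgroup G))).ne' (by rw [hk, pow_zero])
  set t : G := ((z : (S : Subgroup G)) : G) with ht
  have hto : orderOf t = 2 := by rw [ht, Subgroup.orderOf_coe, Subgroup.orderOf_coe, hz]
  have ht1 : t ≠ 1 := fun h => by rw [h, orderOf_one] at hto; omega
  set T := Subgroup.centralizer ({t} : Set G) with hT
  have htT : t ∈ T := mem_cent.2 rfl
  have hST : (S : Subgroup G) ≤ T := fun s hs =>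
    mem_cent.2 (congrArg Subtype.val (Subgroup.mem_center_iff.1 z.2 ⟨s, hs⟩))
  have hTodd : Odd T.index := Nat.not_even_iff_odd.1 fun he =>
    S.not_dvd_index (he.two_dvd.trans (Subgroup.index_dvd_of_le hST))
  refine ⟨T, t, hCN t ht1, fun a ha ha1 c hc => ?_, hto, rfl, hTodd, hns, hodd⟩
  have hcN : c ∈ Subgroup.normalizer (T : Set G) := hTI.mem_normalizer ha ha1
    (by rw [mem_cent.1 hc, mul_inv_cancel_right]; exact ha)
  haveI : (T.subgroupOf (Subgroup.normalizer (T : Set G))).Normal := Subgroup.normal_in_normalizer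
  set r := T.relIndex (Subgroup.normalizer (T : Set G)) with hr
  have hcr : c ^ r ∈ T := Subgroup.mem_subgroupOf.1 ((T.subgroupOf _).pow_index_mem ⟨c, hcN⟩)
  obtain ⟨k, m, hm, hkm⟩ := Nat.exists_eq_pow_mul_and_not_dvd (orderOf_pos c).ne' 2 (by norm_num)
  have hc2 : c ^ 2 ^ k ∈ T := by
    refine mem_cent.2 (CfsgLib.Frobenius.CN.commute_of_coprime (hCN a ha1) (Subgroup.pow_mem _ hc _)
      (mem_cent.2 (mem_cent.1 ha).symm) ?_)
    rw [hto, orderOf_pow, hkm, Nat.gcd_eq_right (Dvd.intro _ rfl), Nat.mul_div_cancel_left _ (by positivity)]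
    exact Nat.coprime_two_right.2 (Nat.odd_iff.2 (by omega))
  exact CfsgLib.MetacyclicP.TwoGen.mem_of_pow_mem
    (((Odd.of_dvd_nat hTodd (Subgroup.relIndex_dvd_index_of_le Subgroup.le_normalizer)).coprime_two_right).pow_right k)
    hcr hc2

theorem kernel_comm {G : Type*} [Group G] [Finite G] (hTI : IsCTI G) {T : Subgroup G} {t : G}
    (S : Setting T t) {b : G ⧸ Subgroup.normalizer (T : Set G)} (hb : b ≠ ((1 : G) : _)) {q : ℕ}
    (h2 : IsPGroup 2 T) (hZ : Nat.card (Subgroup.center T) = q) (hT : Nat.card T = q ^ 2)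
    (hd : Nat.card (pairStab ((1 : G) : G ⧸ Subgroup.normalizer (T : Set G)) b) = q - 1) :
    IsMulCommutative T := by
  classical
  haveI := Fintype.ofFinite G
  set Z := (Subgroup.center T).map T.subtype with hZdef
  have hZT : Z ≤ T := Subgroup.map_subtype_le _
  have hZc : ∀ z ∈ Z, ∀ x ∈ T, x * z = z * x := by
    rintro _ ⟨z, hz, rfl⟩ x hx
    exact congrArg Subtype.val (Subgroup.mem_center_iff.1 hz ⟨x, hx⟩)
  have hZN : ∀ n ∈ (Subgroup.normalizer (T : Set G)), ∀ z ∈ Z, n * z * n⁻¹ ∈ Z := by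
    intro n hn z hz
    have hzT : n * z * n⁻¹ ∈ T := (Subgroup.mem_normalizer_iff.1 hn z).1 (hZT hz)
    refine ⟨⟨_, hzT⟩, Subgroup.mem_center_iff.2 fun x => Subtype.ext ?_, rfl⟩
    show (x : G) * (n * z * n⁻¹) = n * z * n⁻¹ * x
    have hx : n⁻¹ * x * n ∈ T := (Subgroup.mem_normalizer_iff.1 hn _).2 (by
      rw [show n * (n⁻¹ * x * n) * n⁻¹ = (x : G) by group]; exact x.2)
    calc (x : G) * (n * z * n⁻¹) = n * ((n⁻¹ * x * n) * z) * n⁻¹ := by group
      _ = n * (z * (n⁻¹ * x * n)) * n⁻¹ := by rw [hZc z hz _ hx]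
      _ = _ := by group
  have ht1 : t ≠ 1 := fun h => by have := S.ord; rw [h, orderOf_one] at this; omega
  have htZ : t ∈ Z := ⟨⟨t, S.mem⟩, Subgroup.mem_center_iff.2 fun x => Subtype.ext
    (mem_cent.1 (S.eq.symm ▸ x.2 : (x : G) ∈ Subgroup.centralizer {t})), rfl⟩
  refine ⟨⟨fun a y => ?_⟩⟩
  by_contra hne
  have haT : (a : G) ∈ T := a.2
  have ha1 : (a : G) ≠ 1 := fun e => hne (by
    have : a = 1 := Subtype.ext e
    rw [this, one_mul, mul_one])
  have haZ : (a : G) ∉ Z := fun h => hne (Subtype.ext (hZc _ h _ y.2).symm)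
  set C := Subgroup.centralizer ({(a : G)} : Set G) with hC
  have hZC : Z ≤ C := fun z hz => mem_cent.2 (hZc z hz _ haT).symm
  have haC : (a : G) ∈ C := mem_cent.2 rfl
  have hnorm : ∀ n ∈ (Subgroup.normalizer (T : Set G)), n ∈ Subgroup.normalizer (C : Set G) := fun n hn =>
    hTI.mem_normalizer (hZC htZ) ht1 (hZC (hZN n hn t htZ))
  let D := pairStab ((1 : G) : G ⧸ (Subgroup.normalizer (T : Set G))) b
  have hDN : D ≤ (Subgroup.normalizer (T : Set G)) := fun x hx => smul_o_eq.1 (mem_stabilizer_iff.1 (Subgroup.mem_inf.1 hx).1)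
  have hconj : ∀ x ∈ D, x * (a : G) * x⁻¹ ∈ C := fun x hx =>
    (Subgroup.mem_normalizer_iff.1 (hnorm x (hDN hx)) _).1 haC
  have hconjZ : ∀ x ∈ D, x * (a : G) * x⁻¹ ∉ Z := fun x hx h => haZ (by
    have := hZN x⁻¹ ((Subgroup.normalizer (T : Set G)).inv_mem (hDN hx)) _ h
    simpa [mul_assoc] using this)
  -- the cosets of `Z` are moved freely
  have hfree : ∀ w ∈ D, (a : G)⁻¹ * (w * (a : G) * w⁻¹) ∈ Z → w = 1 := by
    intro w hw hwa
    by_contra hw1
    obtain ⟨p, hp, hpd⟩ := Nat.exists_prime_and_dvd (show orderOf w ≠ 1 by rwa [Ne, orderOf_eq_one_iff])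
    haveI : Fact p.Prime := ⟨hp⟩
    set w' := w ^ (orderOf w / p) with hw'
    have hw'o : orderOf w' = p := orderOf_pow_orderOf_div (orderOf_pos w).ne' hpd
    have hw'D : w' ∈ D := Subgroup.pow_mem _ hw _
    have hall : ∀ i : ℕ, (a : G)⁻¹ * (w ^ i * (a : G) * (w ^ i)⁻¹) ∈ Z := by
      intro i
      induction i with
      | zero => simpa using Z.one_mem
      | succ i ih =>
        have h := Z.mul_mem hwa (hZN w (hDN hw) _ ih)
        have e : (a : G)⁻¹ * (w * (a : G) * w⁻¹) * (w * ((a : G)⁻¹ * (w ^ i * (a : G) * (w ^ i)⁻¹)) * w⁻¹)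
            = (a : G)⁻¹ * (w ^ (i + 1) * (a : G) * (w ^ (i + 1))⁻¹) := by rw [pow_succ']; group
        rwa [e] at h
    have hord : ∀ g : G, (MulAut.conj w')^[p] g = g := fun g => by
      have hit : ∀ i : ℕ, (MulAut.conj w')^[i] g = w' ^ i * g * (w' ^ i)⁻¹ := by
        intro i
        induction i with
        | zero => simp
        | succ i ih => rw [Function.iterate_succ_apply', ih, MulAut.conj_apply, pow_succ']; group
      rw [hit, ← hw'o, pow_orderOf_eq_one]; group
    have hp2 : ¬ p ∣ Nat.card Z := by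
      intro h
      obtain ⟨j, hj⟩ := (h2.to_subgroup (Subgroup.center T)).exists_card_eq
      rw [hZdef, Subgroup.card_map_of_injective T.subtype_injective, hj] at h
      have := (Nat.prime_dvd_prime_iff_eq hp Nat.prime_two).1 (hp.dvd_of_dvd_pow h)
      subst this
      have hw2 : w' ^ 2 = 1 := hw'o ▸ pow_orderOf_eq_one _
      have := S.pairStab_disjoint hb hw'D (S.mem_of_involution (hDN hw'D) hw2)
      rw [this, orderOf_one] at hw'o
      omega
    obtain ⟨c, hc, hcZ⟩ := CfsgLib.MetacyclicP.TwoGen.exists_fixed_coset (φ := MulAut.conj w') hord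
      (X := Z) (fun x hx => hZN w' (hDN hw'D) x hx) hp2 (g := (a : G)) (hall _)
    have hcT : c ∈ T := by
      have := T.mul_mem haT (hZT hcZ)
      rwa [mul_inv_cancel_left] at this
    have hc1 : c ≠ 1 := fun e => haZ (by
      rw [e, mul_one] at hcZ
      simpa using Z.inv_mem hcZ)
    have hw'T : w' ∈ T := S.cl c hcT hc1 (mem_cent.2 (mul_inv_eq_iff_eq_mul.1 hc))
    have := S.pairStab_disjoint hb hw'D hw'T
    rw [this, orderOf_one] at hw'o
    exact hp.one_lt.ne hw'o
  let f : (D × Z) ⊕ Z → C := Sum.elim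
    (fun p => ⟨(p.1 : G) * (a : G) * (p.1 : G)⁻¹ * p.2, C.mul_mem (hconj _ p.1.2) (hZC p.2.2)⟩)
    (fun z => ⟨z, hZC z.2⟩)
  have hf : Function.Injective f := by
    rintro (⟨x, z⟩ | z) (⟨x', z'⟩ | z') h
    · have h' : (x : G) * (a : G) * (x : G)⁻¹ * z = x' * (a : G) * (x' : G)⁻¹ * z' :=
        congrArg Subtype.val h
      have h1 : (x' : G)⁻¹ * x ∈ D := D.mul_mem (D.inv_mem x'.2) x.2
      have h2' : (a : G)⁻¹ * ((x' : G)⁻¹ * x * (a : G) * ((x' : G)⁻¹ * x)⁻¹) ∈ Z := by
        have h3 := hZN (x' : G)⁻¹ ((Subgroup.normalizer (T : Set G)).inv_mem (hDN x'.2)) _ (Z.mul_mem z'.2 (Z.inv_mem z.2))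
        have e : (a : G)⁻¹ * ((x' : G)⁻¹ * x * (a : G) * ((x' : G)⁻¹ * x)⁻¹)
            = (x' : G)⁻¹ * ((z' : G) * (z : G)⁻¹) * (x' : G)⁻¹⁻¹ := by
          calc _ = (a : G)⁻¹ * ((x' : G)⁻¹ * ((x : G) * (a : G) * (x : G)⁻¹ * z) * (z : G)⁻¹ * x') := by group
            _ = (a : G)⁻¹ * ((x' : G)⁻¹ * (x' * (a : G) * (x' : G)⁻¹ * z') * (z : G)⁻¹ * x') := by rw [h']
            _ = _ := by group
        rwa [e]
      have hxx : x = x' := Subtype.ext (inv_mul_eq_one.1 (hfree _ h1 h2')).symm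
      subst hxx
      exact congrArg Sum.inl (Prod.ext rfl (Subtype.ext (mul_left_cancel h')))
    · exfalso
      have h' : (x : G) * (a : G) * (x : G)⁻¹ * z = z' := congrArg Subtype.val h
      exact hconjZ x x.2 (eq_mul_inv_of_mul_eq h' ▸ Z.mul_mem z'.2 (Z.inv_mem z.2))
    · exfalso
      have h' : (z : G) = (x' : G) * (a : G) * (x' : G)⁻¹ * z' := congrArg Subtype.val h
      exact hconjZ x' x'.2 (eq_mul_inv_of_mul_eq h'.symm ▸ Z.mul_mem z.2 (Z.inv_mem z'.2))
    · exact congrArg Sum.inr (Subtype.ext (show (z : G) = z' from congrArg (fun c : C => (c : G)) h))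
  have hcard := Nat.card_le_card_of_injective f hf
  have hZq : Nat.card Z = q := by rw [hZdef, Subgroup.card_map_of_injective T.subtype_injective, hZ]
  have hq0 : 0 < q := hZq ▸ Nat.card_pos
  rw [Nat.card_sum, Nat.card_prod, show Nat.card D = q - 1 from hd, hZq, Nat.sub_one_mul, Nat.sub_add_cancel
    (Nat.le_mul_of_pos_left q hq0), ← sq, ← hT] at hcard
  have hCT : C ≤ T := S.cl _ haT ha1
  have heq : C = T := Subgroup.eq_of_le_of_card_ge hCT hcard
  exact hne (Subtype.ext (mem_cent.1 (heq.symm.le y.2 : (y : G) ∈ C)).symm)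

theorem emb3 {α : Type*} {x y z : α} (hxy : x ≠ y) (hyz : y ≠ z) (hxz : x ≠ z) :
    Function.Injective ![x, y, z] := by
  intro i j hij
  fin_cases i <;> fin_cases j <;> simp_all [eq_comm]

theorem main {G : Type*} [Group G] [Finite G] (hTI : IsCTI G) (hns : ¬ Group.IsSolvable G) :
    ∃ n : ℕ, 2 ≤ n ∧
      Nonempty (G ≃* Matrix.ProjectiveSpecialLinearGroup (Fin 2) (GaloisField 2 n)) := by
  classical
  obtain ⟨T, t, S⟩ := setting_of_not_solvable hTI hns
  haveI := Fintype.ofFinite (G ⧸ Subgroup.normalizer (T : Set G))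
  set o : G ⧸ Subgroup.normalizer (T : Set G) := ((1 : G) : G ⧸ Subgroup.normalizer (T : Set G)) with ho
  have hZ := S.isZassenhaus
  obtain ⟨b, hb⟩ := S.exists_ne_base
  have hΩodd : Odd (Fintype.card (G ⧸ Subgroup.normalizer (T : Set G))) := by
    rw [← Nat.card_eq_fintype_card]; exact S.odd_card_quotient
  haveI : IsSimpleGroup G := Cfsg.Agent.S0338.result hZ hΩodd
  have hst : stabilizer G o = Subgroup.normalizer (T : Set G) := MulAction.stabilizer_quotient _
  have hTle : T ≤ stabilizer G o := hst.symm ▸ (Subgroup.le_normalizer : T ≤ _)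
  have hTn : (T.subgroupOf (stabilizer G o)).Normal := by
    rw [hst]; exact Subgroup.normal_in_normalizer
  have hreg : ∀ y z, y ≠ o → z ≠ o → ∃! u : T, (u : G) • y = z := fun y z hy hz => S.regular hy hz
  have hTconj : ∀ g ∈ stabilizer G o, ∀ u ∈ T, g * u * g⁻¹ ∈ T := fun g hg u hu =>
    (Subgroup.mem_normalizer_iff.1 (hst ▸ hg) u).1 hu
  obtain ⟨hTcard, hTfix⟩ := CfsgLib.SharplyEven.SimpleZassenhaus.eq_kernel hZ hb.symm T hTle hTconj hreg
  have hab : IsMulCommutative T := by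
    have hd : Odd (Nat.card (pairStab o b)) := by rw [(S.exists_swap hb).1]; exact S.odd_relIndex
    by_cases hle : Nat.card T - 1 ≤ 2 * Nat.card (pairStab o b)
    · exact (Cfsg.Agent.S0738.result hZ hb.symm
        (show Fintype.card (G ⧸ Subgroup.normalizer (T : Set G)) - 2 ≤ 2 * Nat.card (pairStab o b) by omega)
        T hTle hTn hreg).1
    · obtain ⟨h2, hna, -⟩ := (CfsgLib.SharplyEven.Feit.main hZ hb.symm (Nat.card T) _
        hTcard.symm rfl hd T hTle hTcard hTfix).resolve_left hle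
      obtain ⟨n, -, -, -, -, hD, -, hZc, hTc, -⟩ :=
        CfsgLib.SharplyEven.SimpleZassenhaus.suzuki_case hZ hb.symm T hTle hTconj hreg h2 hna
      exact kernel_comm hTI S hb h2 hZc hTc hD
  rcases CfsgLib.AltGroups.zassenhaus_abelian_kernel hZ hb T hTle hTn hab hreg with hd | ⟨he, -⟩
  swap
  · exfalso
    rw [he] at hΩodd
    obtain ⟨k, hk⟩ := hΩodd
    omega
  haveI := hZ.1
  obtain ⟨h3t, hfix⟩ := CfsgLib.AltGroups.sharply_three_transitive_of_card hZ hb hd
  obtain ⟨K, i, j, hK, ⟨iso⟩⟩ := CfsgLib.AltGroups.sharply_three_transitive_odd_degree (G := G)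
    (Ω := G ⧸ Subgroup.normalizer (T : Set G))
    (fun p q r p' q' r' h1 h2 h3' h4 h5 h6 => by
      haveI := h3t
      obtain ⟨g, hg⟩ := MulAction.exists_smul_eq G (α := Fin 3 ↪ G ⧸ Subgroup.normalizer (T : Set G))
        ⟨![p, q, r], emb3 h1 h2 h3'⟩ ⟨![p', q', r'], emb3 h4 h5 h6⟩
      refine ⟨g, ⟨DFunLike.congr_fun hg 0, DFunLike.congr_fun hg 1, DFunLike.congr_fun hg 2⟩,
        fun k hk => ?_⟩
      refine (inv_mul_eq_one.1 (hZ.2.2.1 (g⁻¹ * k) p q r h1 h2 h3' ?_ ?_ ?_)).symm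
      · rw [mul_smul, hk.1, inv_smul_eq_iff]; exact (DFunLike.congr_fun hg 0).symm
      · rw [mul_smul, hk.2.1, inv_smul_eq_iff]; exact (DFunLike.congr_fun hg 1).symm
      · rw [mul_smul, hk.2.2, inv_smul_eq_iff]; exact (DFunLike.congr_fun hg 2).symm)
    hΩodd (CfsgLib.RealChar.Zassenhaus.three_le_card hZ)
  have hKev : Even (Fintype.card K) := by
    rw [← hK] at hΩodd
    simpa [Nat.odd_add_one] using hΩodd
  have e1 : G ≃* Matrix.ProjectiveSpecialLinearGroup (Fin 2) K := iso.trans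
    (MulEquiv.ofBijective _ (CfsgLib.SharplyEven.SimpleZassenhaus.toPGL_bijective_of_even hKev)).symm
  haveI : CharP K 2 := ringChar.of_eq (FiniteField.even_card_iff_char_two.2 (Nat.even_iff.1 hKev))
  obtain ⟨n, -, hn⟩ := FiniteField.card K 2
  have hd1 := S.one_lt_d
  have hd3 : 3 ≤ Nat.card (pairStab o b) := by
    rw [(S.exists_swap hb).1]
    obtain ⟨k, hk⟩ := S.odd_relIndex
    omega
  have hd' : Nat.card (pairStab o b) + 2 = Fintype.card (G ⧸ Subgroup.normalizer (T : Set G)) := hd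
  have hn2 : 2 ≤ (n : ℕ) := by
    by_contra hlt
    have h1 : (n : ℕ) = 1 := by have := n.pos; omega
    rw [h1, pow_one] at hn
    omega
  haveI : Finite (GaloisField 2 n) := Module.finite_of_finite (ZMod 2)
  haveI := Fintype.ofFinite (GaloisField 2 n)
  have hcardK : Fintype.card K = Fintype.card (GaloisField 2 n) := by
    rw [hn, ← Nat.card_eq_fintype_card (α := GaloisField 2 n), GaloisField.card 2 n (by omega)]
  exact ⟨n, hn2, ⟨e1.trans (CfsgLib.ClassicalLinear.pslCongr (FiniteField.ringEquivOfCardEq hcardK))⟩⟩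

/-- Let G be a finite group in which the centralizer of every element meets each of its conjugates by elements outside its normalizer trivially. Then G is nilpotent; or G is a Frobenius group with a complement that is cyclic or isomorphic to the direct product of a cyclic group of odd order and the quaternion group of order 8; or G is isomorphic to PSL₂(2ⁿ) for some n ≥ 2. -/
theorem result {G : Type*} [Group G] [Finite G] (hTI : ∀ x : G, Cfsg.IsTISubset (Subgroup.centralizer ({x} : Set G) : Set G)) :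
    Group.IsNilpotent G ∨
    (∃ H : Subgroup G, Cfsg.IsFrobeniusComplement H ∧
      (IsCyclic H ∨ ∃ m : ℕ, Odd m ∧ Nonempty (H ≃* Multiplicative (ZMod m) × QuaternionGroup 2))) ∨
    (∃ n : ℕ, 2 ≤ n ∧ Nonempty (G ≃* Matrix.ProjectiveSpecialLinearGroup (Fin 2) (GaloisField 2 n))) := by
  by_cases hG : Group.IsSolvable G
  · rcases solvable_case (G := G) hTI with h | h
    · exact Or.inl h
    · exact Or.inr (Or.inl h)
  · exact Or.inr (Or.inr (main hTI hG))

end Cfsg.Agent.S4064
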