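import Cfsg.Statements.S4065
import Cfsg.Agent.Lib.SL2.Card
import Mathlib
-- import your own Cfsg.Agent.* helpers here

set_option autoImplicit false
open Cfsg

namespace Cfsg.Agent.S4065

/-- Let F be a finite field with 2ⁿ elements, n ≥ 2. In PSL₂(F) the centralizer of every element meets each of its conjugates by elements outside its normalizer trivially. -/
theorem result (n : ℕ) (hn : 2 ≤ n)
    (x : Matrix.ProjectiveSpecialLinearGroup (Fin 2) (GaloisField 2 n)) :
    Cfsg.IsTISubset (Subgroup.centralizer ({x} : Set (Matrix.ProjectiveSpecialLinearGroup (Fin 2) (GaloisField 2 n))) :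
      Set (Matrix.ProjectiveSpecialLinearGroup (Fin 2) (GaloisField 2 n))) := by
  set F := GaloisField 2 n
  have h2 : (2 : F) = 0 := CharTwo.two_eq_zero
  set π : Matrix.SpecialLinearGroup (Fin 2) F →* Matrix.ProjectiveSpecialLinearGroup (Fin 2) F :=
    QuotientGroup.mk' _
  have hinj : Function.Injective π := by
    rw [← MonoidHom.ker_eq_bot_iff]
    exact (QuotientGroup.ker_mk' _).trans (CfsgLib.SL2.center_eq_bot_of_two h2)
  have hsurj : Function.Surjective π := QuotientGroup.mk'_surjective _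
  obtain ⟨s, rfl⟩ := hsurj x
  intro g hg y hy hgy
  obtain ⟨g, rfl⟩ := hsurj g
  obtain ⟨y, rfl⟩ := hsurj y
  by_contra hy1
  have hy1' : y ≠ 1 := fun h => hy1 (by rw [h, map_one])
  have hc : ∀ {a b : Matrix.SpecialLinearGroup (Fin 2) F},
      π a ∈ Subgroup.centralizer ({π b} : Set _) ↔ a ∈ Subgroup.centralizer ({b} : Set _) := by
    intro a b
    rw [Subgroup.mem_centralizer_singleton_iff, Subgroup.mem_centralizer_singleton_iff,
      ← map_mul, ← map_mul, hinj.eq_iff]
  have hnc : ∀ a : Matrix.SpecialLinearGroup (Fin 2) F, a ≠ 1 → a ∉ Subgroup.center _ := fun a ha h =>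
    ha (Subgroup.mem_bot.mp (CfsgLib.SL2.center_eq_bot_of_two h2 ▸ h))
  by_cases hs : s = 1
  · subst hs
    refine hg (Subgroup.mem_normalizer_iff.mpr fun u => ?_)
    simp [Subgroup.mem_centralizer_singleton_iff]
  have hy' := hc.mp hy
  have hgy' : g * y * g⁻¹ ∈ Subgroup.centralizer ({s} : Set _) := by
    rw [← hc, map_mul, map_mul, map_inv]; exact hgy
  have hgy1 : g * y * g⁻¹ ≠ 1 := fun h => hy1' (conj_eq_one_iff.mp h)
  have e1 := CfsgLib.SL2.centralizer_eq_of_mem (hnc s hs) hy' (hnc y hy1')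
  have e2 := CfsgLib.SL2.centralizer_eq_of_mem (hnc s hs) hgy' (hnc _ hgy1)
  have key : ∀ u, u ∈ Subgroup.centralizer ({s} : Set (Matrix.SpecialLinearGroup (Fin 2) F)) ↔
      g * u * g⁻¹ ∈ Subgroup.centralizer ({s} : Set (Matrix.SpecialLinearGroup (Fin 2) F)) := by
    intro u
    nth_rewrite 1 [← e1]
    rw [← e2, Subgroup.mem_centralizer_singleton_iff, Subgroup.mem_centralizer_singleton_iff]
    constructor
    · intro h
      calc g * u * g⁻¹ * (g * y * g⁻¹) = g * (u * y) * g⁻¹ := by group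
        _ = g * (y * u) * g⁻¹ := by rw [h]
        _ = g * y * g⁻¹ * (g * u * g⁻¹) := by group
    · intro h
      refine mul_left_cancel (a := g) (mul_right_cancel (b := g⁻¹) ?_)
      calc g * (u * y) * g⁻¹ = g * u * g⁻¹ * (g * y * g⁻¹) := by group
        _ = g * y * g⁻¹ * (g * u * g⁻¹) := h
        _ = g * (y * u) * g⁻¹ := by group
  refine hg (Subgroup.mem_normalizer_iff.mpr fun u => ?_)
  obtain ⟨u, rfl⟩ := hsurj u
  rw [← map_inv, ← map_mul, ← map_mul]
  simp only [hc]
  exact key u

end Cfsg.Agent.S4065
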