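import Cfsg.Statements.S4066
import Cfsg.Agent.Lib.Subnormal.Basic
import Cfsg.Agent.Lib.Cores.Fitting
import Mathlib.GroupTheory.PGroup
import Mathlib.GroupTheory.Sylow

set_option autoImplicit false
open Cfsg

namespace Cfsg.Agent.S4066

/-- Let G be a finite group in which the centralizer of every element meets each of its conjugates by elements outside its normalizer trivially. Then any two distinct Sylow p-subgroups of G, for any prime p, intersect trivially. -/
theorem result {G : Type*} [Group G] [Finite G] (hTI : ∀ x : G, Cfsg.IsTISubset (Subgroup.centralizer ({x} : Set G) : Set G))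
    {p : ℕ} [Fact p.Prime] (P Q : Sylow p G) (hPQ : P ≠ Q) : (P : Subgroup G) ⊓ (Q : Subgroup G) = ⊥ := by
  by_contra hne
  obtain ⟨d, hd, hd1⟩ := (Subgroup.ne_bot_iff_exists_ne_one.mp hne : ∃ d : ↥((P : Subgroup G) ⊓ Q), d ≠ 1) |> fun ⟨d, h⟩ => (⟨d.1, d.2, fun h' => h (Subtype.ext h')⟩ : ∃ d : G, d ∈ (P : Subgroup G) ⊓ Q ∧ d ≠ 1)
  have hPnt : Nontrivial (P : Subgroup G) := ⟨⟨⟨d, hd.1⟩, 1, fun h => hd1 (congrArg Subtype.val h)⟩⟩
  have := IsPGroup.center_nontrivial P.2
  obtain ⟨⟨z, hz⟩, hz1⟩ := exists_ne (1 : Subgroup.center (P : Subgroup G))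
  have hzP : ∀ y ∈ (P : Subgroup G), y * (z : G) = (z : G) * y := fun y hy =>
    congrArg Subtype.val (Subgroup.mem_center_iff.mp hz ⟨y, hy⟩)
  have hz1' : (z : G) ≠ 1 := fun h => hz1 (Subtype.ext (Subtype.ext h))
  set K := Subgroup.centralizer ({(z : G)} : Set G) with hK
  have hPK : (P : Subgroup G) ≤ K := fun y hy => Subgroup.mem_centralizer_singleton_iff.mpr (hzP y hy)
  -- `Q ≤ K`
  obtain ⟨g, hg⟩ := MulAction.exists_smul_eq G P Q
  have hgN : g ∈ Subgroup.normalizer (K : Set G) := by
    by_contra hgN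
    have hdQ : d ∈ ((g • P : Sylow p G) : Subgroup G) := hg ▸ hd.2
    rw [Sylow.coe_subgroup_smul] at hdQ
    obtain ⟨d', hd', hdd'⟩ := hdQ
    have hdd : g * d' * g⁻¹ = d := hdd'
    exact hd1 (by rw [← hdd, hTI (z : G) g hgN d' (hPK hd') (hdd ▸ hPK hd.1)]; group)
  have hQK : (Q : Subgroup G) ≤ K := by
    rw [← hg, Sylow.coe_subgroup_smul]
    rintro _ ⟨y, hy, rfl⟩
    exact (Subgroup.mem_normalizer_iff.mp hgN y).mp (hPK hy)
  -- all centralizers of elements of `K` are normalized by `K`
  have hcomm : ∀ y ∈ K, ∀ k ∈ K, Commute (k * y * k⁻¹) y := by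
    intro y hy k hk
    have hzy : (z : G) ∈ Subgroup.centralizer ({y} : Set G) := Subgroup.mem_centralizer_singleton_iff.mpr
      (Subgroup.mem_centralizer_singleton_iff.mp hy).symm
    have hkN : k ∈ Subgroup.normalizer (Subgroup.centralizer ({y} : Set G) : Set G) := by
      by_contra hkN
      exact hz1' (hTI y k hkN (z : G) hzy (by
        rw [Subgroup.mem_centralizer_singleton_iff.mp hk, mul_inv_cancel_right]; exact hzy))
    exact Subgroup.mem_centralizer_singleton_iff.mp
      ((Subgroup.mem_normalizer_iff.mp hkN y).mp (Subgroup.mem_centralizer_singleton_iff.mpr rfl))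
  have hnil : Group.IsNilpotent K := by
    rw [← CfsgLib.Cores.fittingSubgroup_eq_top_iff, Subgroup.eq_top_iff']
    intro y
    set W : Subgroup K := Subgroup.normalClosure {y}
    have hW : IsMulCommutative W := by
      refine Subgroup.isMulCommutative_closure fun a ha b hb => ?_
      obtain ⟨y', rfl, ha'⟩ := Group.mem_conjugatesOfSet_iff.mp ha
      obtain ⟨y'', rfl, hb'⟩ := Group.mem_conjugatesOfSet_iff.mp hb
      obtain ⟨c, rfl⟩ := isConj_iff.mp ha'
      obtain ⟨e, rfl⟩ := isConj_iff.mp hb'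
      set f : K := e⁻¹ * c
      have hfy : Commute (f * y'' * f⁻¹) y'' := Subtype.ext (hcomm (y'' : G) y''.2 (f : G) f.2).eq
      have := hfy.map (MulAut.conj e).toMonoidHom
      simp only [MulEquiv.coe_toMonoidHom, MulAut.conj_apply] at this
      rw [show e * (f * y'' * f⁻¹) * e⁻¹ = c * y'' * c⁻¹ by simp only [f]; group] at this
      exact this.eq
    have hWnil : Group.IsNilpotent W := by
      let cg : CommGroup W := { (inferInstance : Group W) with mul_comm := fun a b => hW.is_comm.comm a b }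
      exact CommGroup.isNilpotent
    exact CfsgLib.Cores.le_fittingSubgroup hWnil (Subgroup.subset_normalClosure (Set.mem_singleton y))
  have heq : P.subtype hPK = Q.subtype hQK := by
    have hn : (P.subtype hPK : Subgroup K).Normal := by
      have := hnil
      infer_instance
    obtain ⟨c, hc⟩ := MulAction.exists_smul_eq K (P.subtype hPK) (Q.subtype hQK)
    rw [Sylow.smul_eq_of_normal] at hc
    exact hc
  exact hPQ (Sylow.subtype_injective heq)

end Cfsg.Agent.S4066
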