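import Cfsg.Statements.S4067
import Cfsg.Agent.Lib.Subnormal.ClassTwo
import Cfsg.Agent.Lib.PGroups.ClassTwo
-- import your own Cfsg.Agent.* helpers here

set_option autoImplicit false
open Cfsg

namespace Cfsg.Agent.S4067

open scoped commutatorElement
open Subgroup

section Counting

variable {G : Type*} [Group G] [Finite G]

/-- The weighted bound for the number of orbits. -/
theorem orbit_bound {A : Type*} [Group A] [MulAction A G] {p L : ℕ} (hpL : p ≤ L) (T : Set G)
    (hdisj : ∀ x ∈ T, x ∉ center G)
    (hp : ∀ x ∉ center G, p ≤ Nat.card (MulAction.orbit A x))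
    (hL : ∀ x ∈ T, L ≤ Nat.card (MulAction.orbit A x))
    (hnum : L * (p - 1) * Nat.card (center G) ≤ (L - p) * T.ncard) (hL0 : 0 < L) :
    p * Nat.card (MulAction.orbitRel.Quotient A G) ≤ Nat.card G := by
  classical
  have := Fintype.ofFinite G
  have := Fintype.ofFinite (MulAction.orbitRel.Quotient A G)
  let w : G → ℕ := fun x => if x ∈ center G then L * p else if x ∈ T then p else L
  have hsum : L * p * Nat.card (MulAction.orbitRel.Quotient A G) ≤ ∑ x, w x := by
    rw [← Finset.sum_fiberwise (g := fun x => (Quotient.mk _ x : MulAction.orbitRel.Quotient A G))]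
    rw [mul_comm, Nat.card_eq_fintype_card, ← Finset.card_univ, ← smul_eq_mul, ← Finset.sum_const]
    refine Finset.sum_le_sum fun q _ => ?_
    induction q using Quotient.inductionOn with
    | _ y =>
    set s := Finset.univ.filter (fun x => (Quotient.mk (MulAction.orbitRel A G) x) =
      Quotient.mk (MulAction.orbitRel A G) y)
    change L * p ≤ ∑ x ∈ s, w x
    have hs : ∀ x ∈ s, s.card = Nat.card (MulAction.orbit A x) := by
      intro x hx
      have hxy := (Finset.mem_filter.mp hx).2
      rw [Nat.card_eq_fintype_card, ← Set.toFinset_card]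
      congr 1
      ext u
      simp only [s, Finset.mem_filter, Finset.mem_univ, true_and, Set.mem_toFinset]
      rw [← hxy, Quotient.eq]
      rfl
    by_cases hZ : ∃ x ∈ s, x ∈ center G
    · obtain ⟨x, hx, hxZ⟩ := hZ
      exact le_trans (by simp [w, hxZ]) (Finset.single_le_sum (f := w) (fun _ _ => Nat.zero_le _) hx)
    push Not at hZ
    by_cases hT : ∃ x ∈ s, x ∈ T
    · obtain ⟨x, hx, hxT⟩ := hT
      refine le_trans ?_ (Finset.card_nsmul_le_sum s w p fun u hu => ?_)
      · rw [smul_eq_mul, hs x hx]; exact Nat.mul_le_mul_right p (hL x hxT)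
      · simp only [w, hZ u hu, if_false]; split_ifs <;> omega
    · push Not at hT
      have hy : y ∈ s := Finset.mem_filter.mpr ⟨Finset.mem_univ _, rfl⟩
      refine le_trans ?_ (Finset.card_nsmul_le_sum s w L fun u hu => ?_)
      · rw [smul_eq_mul, hs y hy, mul_comm]; exact Nat.mul_le_mul_right L (hp y (hZ y hy))
      · simp only [w, hZ u hu, hT u hu, if_false, le_refl]
  have hw : ∑ x, w x + (L - p) * T.ncard ≤ L * Nat.card G + L * (p - 1) * Nat.card (center G) := by
    have e1 : (L - p) * T.ncard = ∑ x : G, if x ∈ T then L - p else 0 := by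
      rw [← Finset.sum_filter, Finset.sum_const, smul_eq_mul, mul_comm, Set.ncard_eq_toFinset_card']
      congr 2; ext; simp
    have e2 : L * (p - 1) * Nat.card (center G) = ∑ x : G, if x ∈ center G then L * (p - 1) else 0 := by
      rw [← Finset.sum_filter, Finset.sum_const, smul_eq_mul, mul_comm,
        Nat.card_eq_fintype_card, Fintype.card_subtype]
    have e3 : L * Nat.card G = ∑ _x : G, L := by
      rw [Finset.sum_const, smul_eq_mul, Finset.card_univ, Nat.card_eq_fintype_card, mul_comm]
    rw [e1, e2, e3, ← Finset.sum_add_distrib, ← Finset.sum_add_distrib]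
    refine Finset.sum_le_sum fun x _ => ?_
    by_cases hxZ : x ∈ center G
    · have hxT : x ∉ T := fun h => hdisj x h hxZ
      simp only [w, if_pos hxZ, if_neg hxT]
      rcases p with _ | p
      · simp
      · simp only [Nat.add_sub_cancel]; rw [Nat.mul_succ]; omega
    · simp only [w, if_neg hxZ]
      split_ifs <;> omega
  refine Nat.le_of_mul_le_mul_left ?_ hL0
  rw [← mul_assoc]
  omega

/-- The least prime divisor is at most any non-trivial divisor. -/
theorem minFac_le {n d : ℕ} (hd : d ∣ n) (h1 : d ≠ 1) (hd0 : 0 < d) : n.minFac ≤ d :=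
  Nat.minFac_le_of_dvd (by omega) hd

theorem index_center_ge (hna : ¬ IsMulCommutative G) :
    let p := (Nat.card G).minFac
    p ^ 2 ≤ (center G).index ∧ ((center G).index ≠ p ^ 2 → p * (p + 1) ≤ (center G).index) := by
  intro p
  set m := (center G).index
  have hmn : m ∣ Nat.card G := (center G).index_dvd_card
  have hnotcyc : ∀ r, r.Prime → m ≠ r := fun r hr h => hna ⟨⟨fun a b => by
    have := Fact.mk hr
    have : IsCyclic (G ⧸ center G) := isCyclic_of_prime_card (p := r) (by rw [← Subgroup.index_eq_card]; exact h)
    exact commutative_of_cyclic_center_quotient (QuotientGroup.mk' (center G)) (by simp) a b⟩⟩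
  have hm1 : m ≠ 1 := fun h => hna ⟨⟨fun a b =>
    (Subgroup.mem_center_iff.mp ((Subgroup.index_eq_one.mp h) ▸ Subgroup.mem_top b) a)⟩⟩
  have hm0 : 0 < m := Nat.pos_of_ne_zero (center G).index_ne_zero_of_finite
  obtain ⟨r, hr, t, ht⟩ := Nat.exists_prime_and_dvd hm1
  have ht1 : t ≠ 1 := fun h => hnotcyc r hr (by rw [ht, h, mul_one])
  have ht0 : 0 < t := Nat.pos_of_ne_zero fun h => by rw [h, mul_zero] at ht; omega
  have hpr : p ≤ r := minFac_le ((Dvd.intro t ht.symm).trans hmn) hr.ne_one hr.pos
  have hpt : p ≤ t := minFac_le ((Dvd.intro_left r ht.symm).trans hmn) ht1 ht0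
  constructor
  · rw [ht, pow_two]; exact Nat.mul_le_mul hpr hpt
  · intro hne
    rw [ht]
    rcases hpr.lt_or_eq with h | h
    · rw [mul_comm r]; exact Nat.mul_le_mul hpt h
    · rcases hpt.lt_or_eq with h' | h'
      · exact Nat.mul_le_mul hpr h'
      · exact absurd (by rw [ht, ← h, ← h', pow_two]) hne

theorem three_subgroups {K K' H : Subgroup G} (h1 : 2 ≤ K.index) (h2 : 2 ≤ K'.index)
    (h3 : 4 ≤ H.index) : ∃ g : G, g ∉ K ∧ g ∉ K' ∧ g ∉ H := by
  classical
  by_contra hcon
  push Not at hcon
  have := Fintype.ofFinite G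
  let F : Subgroup G → Finset G := fun S => Finset.univ.filter (· ∈ S)
  have hF : ∀ S : Subgroup G, (F S).card = Nat.card S := fun S => by
    rw [Nat.card_eq_fintype_card, Fintype.card_subtype]
  have hsub : (Finset.univ : Finset G) ⊆ (F K ∪ F K') ∪ (F H).erase 1 := by
    intro g _
    simp only [Finset.mem_union, Finset.mem_erase, F, Finset.mem_filter, Finset.mem_univ, true_and]
    by_cases hgK : g ∈ K
    · exact Or.inl (Or.inl hgK)
    by_cases hgK' : g ∈ K'
    · exact Or.inl (Or.inr hgK')
    exact Or.inr ⟨fun h => hgK (h ▸ K.one_mem), hcon g hgK hgK'⟩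
  have hc := (Finset.card_le_card hsub).trans (Finset.card_union_le _ _)
  have hu := Finset.card_union_add_card_inter (F K) (F K')
  have hi : F K ∩ F K' = F (K ⊓ K') := by
    ext; simp [F, Subgroup.mem_inf]
  rw [hi, hF, hF, hF] at hu
  rw [Finset.card_univ, ← Nat.card_eq_fintype_card, Finset.card_erase_of_mem (by simp [F]), hF] at hc
  have e1 := K.card_mul_index
  have e2 := K'.card_mul_index
  have e3 := H.card_mul_index
  have e4 := (K ⊓ K').card_mul_index
  have e5 : (K ⊓ K').index ≤ K.index * K'.index := Subgroup.index_inf_le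
  have hH : 0 < Nat.card H := Nat.card_pos
  set a := Nat.card K
  set b := Nat.card K'
  set c := Nat.card (K ⊓ K' : Subgroup G)
  set n := Nat.card G
  have hab : a * b ≤ c * n := by
    have h6 : n ≤ c * (K.index * K'.index) := e4 ▸ Nat.mul_le_mul_left c e5
    have h7 : a * b * n ≤ c * n * n := by
      calc a * b * n ≤ a * b * (c * (K.index * K'.index)) := Nat.mul_le_mul_left _ h6
        _ = c * (a * K.index) * (b * K'.index) := by ring
        _ = _ := by rw [e1, e2]
    exact Nat.le_of_mul_le_mul_right h7 Nat.card_pos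
  have hn0 : 0 < n := Nat.card_pos
  have ha : 2 * a ≤ n := by
    rw [← e1, mul_comm 2]; exact Nat.mul_le_mul_left a h1
  have hb : 2 * b ≤ n := by
    rw [← e2, mul_comm 2]; exact Nat.mul_le_mul_left b h2
  have hd : 4 * Nat.card H ≤ n := by
    rw [← e3, mul_comm 4]; exact Nat.mul_le_mul_left _ h3
  have hmix : 4 * (a + b) ≤ 3 * n + 4 * c := by
    obtain ⟨a', ha'⟩ : ∃ a', 2 * a + a' = n := ⟨n - 2 * a, by omega⟩
    obtain ⟨b', hb'⟩ : ∃ b', 2 * b + b' = n := ⟨n - 2 * b, by omega⟩
    refine Nat.le_of_mul_le_mul_right ?_ hn0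
    have h9 : (n + a') * (n + b') ≥ n * n := Nat.mul_le_mul (n.le_add_right _) (n.le_add_right _)
    have h10 : (n + a' + 2 * a) * (n + b') = 2 * n * (n + b') := by
      rw [show n + a' + 2 * a = 2 * n by omega]
    have h11 : (n + b' + 2 * b) * (2 * a) = 2 * n * (2 * a) := by
      rw [show n + b' + 2 * b = 2 * n by omega]
    have h12 : (2 * b + b') * (2 * n) = n * (2 * n) := by rw [hb']
    linarith
  omega

end Counting

section Central

variable {G : Type*} [Group G] (hc : ∀ x y : G, ⁅x, y⁆ ∈ center G)
include hc

/-- The commutator with a fixed element, as a homomorphism. -/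
def commHom (x : G) : G →* G :=
  { toFun := fun g => ⁅g, x⁆
    map_one' := by simp [commutatorElement_def]
    map_mul' := fun a b => CfsgLib.Subnormal.commutatorElement_mul_left hc a b x }

theorem mem_ker_commHom {x g : G} : g ∈ (commHom hc x).ker ↔ g * x = x * g :=
  MonoidHom.mem_ker.trans commutatorElement_eq_one_iff_mul_comm

theorem index_centralizer_eq (x : G) :
    (centralizer ({x} : Set G)).index = Nat.card (commHom hc x).range := by
  rw [← Subgroup.index_ker]
  congr 1
  ext g
  rw [mem_ker_commHom hc, Subgroup.mem_centralizer_singleton_iff]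

theorem range_eq_of_prime [Finite G] {p : ℕ} [hp : Fact p.Prime] {x g : G}
    (hx : Nat.card (commHom hc x).range = p) (hg : Nat.card (commHom hc g).range = p)
    (h : ⁅g, x⁆ ≠ 1) : (commHom hc x).range = (commHom hc g).range := by
  have key : ∀ R : Subgroup G, Nat.card R = p → ⁅g, x⁆ ∈ R → zpowers ⁅g, x⁆ = R := by
    intro R hR hmem
    refine Subgroup.eq_of_le_of_card_ge (Subgroup.zpowers_le.mpr hmem) ?_
    rw [hR, Nat.card_zpowers]
    have h1 : orderOf ⁅g, x⁆ ∣ p := hR ▸ Subgroup.orderOf_dvd_natCard _ hmem
    rcases (Nat.dvd_prime hp.out).mp h1 with h1 | h1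
    · exact absurd (orderOf_eq_one_iff.mp h1) h
    · exact h1.ge
  rw [← key _ hx ⟨g, rfl⟩, key _ hg ?_]
  refine inv_mem_iff.mp ?_
  rw [commutatorElement_inv]
  exact ⟨x, rfl⟩

end Central

variable {G : Type*} [Group G] [Finite G]

theorem mem_orbit_conj (g x : G) : g * x * g⁻¹ ∈ MulAction.orbit (MulAut G) x :=
  ⟨MulAut.conj g, by simp⟩

theorem index_centralizer_le_orbit (x : G) :
    (centralizer ({x} : Set G)).index ≤ Nat.card (MulAction.orbit (MulAut G) x) := by
  classical
  rw [Subgroup.index_eq_card]
  refine Nat.card_le_card_of_injective (fun q => ⟨q.out * x * q.out⁻¹, mem_orbit_conj _ _⟩)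
    fun a b h => ?_
  have h' : a.out * x * a.out⁻¹ = b.out * x * b.out⁻¹ := congrArg Subtype.val h
  rw [← QuotientGroup.out_eq' a, ← QuotientGroup.out_eq' b, QuotientGroup.eq,
    Subgroup.mem_centralizer_singleton_iff]
  calc a.out⁻¹ * b.out * x = a.out⁻¹ * (b.out * x * b.out⁻¹) * b.out := by group
    _ = a.out⁻¹ * (a.out * x * a.out⁻¹) * b.out := by rw [h']
    _ = x * (a.out⁻¹ * b.out) := by group

theorem orbits_bound_of_hom_eq (hna : ¬ IsMulCommutative G) {p : ℕ} [hp : Fact p.Prime]
    (hpn : p = (Nat.card G).minFac) (hc : ∀ x y : G, ⁅x, y⁆ ∈ center G) {A : Subgroup G}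
    (hA : Nat.card A = p) (hrange : ∀ x ∉ center G, (commHom hc x).range = A) :
    p * Nat.card (MulAction.orbitRel.Quotient (MulAut G) G) ≤ Nat.card G := by
  classical
  have hm := (index_center_ge hna).1
  rw [← hpn] at hm
  have hp2 := hp.out.two_le
  set z := Nat.card (center G)
  set m := (center G).index
  have hn : z * m = Nat.card G := (center G).card_mul_index
  have hexp : ∀ x y : G, ⁅x, y⁆ ^ p = 1 := by
    intro x y
    by_cases hy : y ∈ center G
    · rw [commutatorElement_eq_one_iff_mul_comm.mpr (Subgroup.mem_center_iff.mp hy x), one_pow]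
    · have h1 : ⁅x, y⁆ ∈ A := hrange y hy ▸ ⟨x, rfl⟩
      exact orderOf_dvd_iff_pow_eq_one.mp (hA ▸ Subgroup.orderOf_dvd_natCard _ h1)
  have hpowc : ∀ x : G, x ^ p ∈ center G := fun x => Subgroup.mem_center_iff.mpr fun g =>
    (commutatorElement_eq_one_iff_mul_comm.mp (by
      rw [CfsgLib.Subnormal.commutatorElement_pow_left hc, hexp])).symm
  have hp' : ∀ x ∉ center G, p ≤ Nat.card (MulAction.orbit (MulAut G) x) := fun x hx => by
    refine le_trans (le_of_eq ?_) (index_centralizer_le_orbit x)
    rw [index_centralizer_eq hc, hrange x hx, hA]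
  have hnoncentral : ((center G : Subgroup G) : Set G)ᶜ.ncard + z = Nat.card G := by
    rw [add_comm, ← Set.ncard_add_ncard_compl ((center G : Subgroup G) : Set G)]
    rfl
  have finish : ∀ T : Set G, (∀ x ∈ T, x ∉ center G) →
      (∀ x ∈ T, p ^ 2 ≤ Nat.card (MulAction.orbit (MulAut G) x)) → p * z ≤ T.ncard →
      p * Nat.card (MulAction.orbitRel.Quotient (MulAut G) G) ≤ Nat.card G := by
    intro T hT hL hT2
    refine orbit_bound (L := p ^ 2) (by rw [pow_two]; exact Nat.le_mul_self p) T hT hp' hL ?_
      (pow_pos hp.out.pos 2)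
    calc p ^ 2 * (p - 1) * z = p * (p - 1) * (p * z) := by ring
      _ ≤ p * (p - 1) * T.ncard := Nat.mul_le_mul_left _ hT2
      _ = _ := by rw [pow_two, Nat.mul_sub, mul_one]
  let pw : center G →* center G :=
    { toFun := fun x => x ^ p
      map_one' := one_pow p
      map_mul' := fun a b => Commute.mul_pow (Subtype.ext (Subgroup.mem_center_iff.mp b.2 a)) p }
  by_cases hom : p ^ 2 ≤ Nat.card pw.ker
  · -- the central automorphisms
    refine finish ((center G : Subgroup G) : Set G)ᶜ (fun x hx => hx) (fun x hx => ?_) ?_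
    · -- a homomorphism `G → ℤ/p` non-zero on `x`
      obtain ⟨y, hy⟩ : ∃ y : G, ⁅x, y⁆ ≠ 1 := by
        by_contra hall
        push Not at hall
        exact hx (Subgroup.mem_center_iff.mpr fun y =>
          (commutatorElement_eq_one_iff_mul_comm.mp (hall y)).symm)
      have hyA : ∀ g : G, ⁅g, y⁆ ∈ A := fun g =>
        hrange y (fun hyc => hy (commutatorElement_eq_one_iff_mul_comm.mpr
          (Subgroup.mem_center_iff.mp hyc x))) ▸ ⟨g, rfl⟩
      let f : G →* A := (commHom hc y).codRestrict A hyA
      have hgen : zpowers (f x) = ⊤ := by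
        refine Subgroup.eq_top_of_card_eq _ ?_
        rw [Nat.card_zpowers, hA]
        refine ((Nat.dvd_prime hp.out).mp (hA ▸ orderOf_dvd_natCard (f x))).resolve_left fun h => ?_
        exact hy (congrArg Subtype.val (orderOf_eq_one_iff.mp h))
      have hord : orderOf (f x) = p := by rw [← Nat.card_zpowers, hgen, Subgroup.card_top, hA]
      -- translation by each element of order dividing `p` of the centre
      have htrans : ∀ w ∈ pw.ker, x * ((w : center G) : G) ∈ MulAction.orbit (MulAut G) x := by
        intro w hw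
        have hwp : (w : G) ^ p = 1 := congrArg Subtype.val (MonoidHom.mem_ker.mp hw)
        have hgmem : ∀ g, f g ∈ zpowers (f x) := fun g => hgen ▸ Subgroup.mem_top _
        choose a ha using fun g => Subgroup.mem_zpowers_iff.mp (hgmem g)
        have hwz : ∀ {i j : ℤ}, f x ^ i = f x ^ j → (w : G) ^ i = (w : G) ^ j := by
          intro i j hij
          rw [zpow_eq_zpow_iff_modEq, hord] at hij
          rw [zpow_eq_zpow_iff_modEq]
          exact hij.of_dvd (Int.natCast_dvd_natCast.mpr (orderOf_dvd_of_pow_eq_one hwp))
        have hmul : ∀ g h, (w : G) ^ a (g * h) = (w : G) ^ a g * (w : G) ^ a h := fun g h => by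
          rw [← zpow_add]; exact hwz (by rw [zpow_add, ha, ha, ha, map_mul])
        have hfw : f (w : G) = 1 := Subtype.ext
          (commutatorElement_eq_one_iff_mul_comm.mpr (Subgroup.mem_center_iff.mp w.2 y).symm)
        let F : G →* G :=
          { toFun := fun g => g * (w : G) ^ a g
            map_one' := by
              rw [one_mul]
              exact (hwz (j := 0) (by rw [ha, map_one, zpow_zero])).trans (zpow_zero _)
            map_mul' := fun g h => by
              rw [hmul]
              have := Subgroup.mem_center_iff.mp (zpow_mem w.2 (a g)) h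
              simp only [mul_assoc, ← mul_assoc h, this] }
        have hinj : Function.Injective F := by
          rw [injective_iff_map_eq_one]
          intro g hg
          have hg' : g = ((w : G) ^ a g)⁻¹ := eq_inv_of_mul_eq_one_left hg
          have hfg : f g = 1 := by rw [hg', map_inv, map_zpow, hfw, one_zpow, inv_one]
          have : (w : G) ^ a g = (w : G) ^ (0 : ℤ) := hwz (by rw [ha, hfg, zpow_zero])
          rwa [this, zpow_zero, inv_one] at hg'
        refine ⟨MulEquiv.ofBijective F (Finite.injective_iff_bijective.mp hinj), ?_⟩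
        show x * (w : G) ^ a x = x * (w : G)
        rw [hwz (j := 1) (by rw [ha, zpow_one]), zpow_one]
      refine hom.trans (Nat.card_le_card_of_injective (fun w => ⟨_, htrans w w.2⟩) fun a b h => ?_)
      exact Subtype.ext (Subtype.ext (mul_left_cancel (congrArg Subtype.val h)))
    · have : (p + 1) * z ≤ Nat.card G := by
        rw [← hn, mul_comm z]
        refine Nat.mul_le_mul_right z (le_trans ?_ hm)
        nlinarith
      rw [add_mul, one_mul] at this
      omega
  · -- a transvection
    obtain ⟨g1, g2, hg12⟩ : ∃ a b : G, ⁅a, b⁆ ≠ 1 := by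
      by_contra hall
      push Not at hall
      exact hna ⟨⟨fun a b => commutatorElement_eq_one_iff_mul_comm.mp (hall a b)⟩⟩
    set c₀ := ⁅g1, g2⁆
    set d := c₀ ^ p.choose 2
    have hdc : d ∈ center G := pow_mem (hc _ _) _
    have hrd : pw.range.index < p ^ 2 := by
      have h1 := pw.range.card_mul_index
      have h2 := pw.ker.card_mul_index
      rw [Subgroup.index_ker] at h2
      have h3 : 0 < Nat.card pw.range := Nat.card_pos
      have : pw.range.index = Nat.card pw.ker := Nat.eq_of_mul_eq_mul_left h3 (by linarith)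
      omega
    have hidx : ∀ u : center G, u ∉ pw.range → pw.range ⊔ zpowers u = ⊤ ∧ pw.range.index = p := by
      intro u hu
      have hdvd : pw.range.index ∣ Nat.card G :=
        (Subgroup.index_dvd_card _).trans (Subgroup.card_subgroup_dvd_card _)
      have hne : pw.range.index ≠ 1 := fun h => hu (Subgroup.index_eq_one.mp h ▸ Subgroup.mem_top u)
      have hpw : ∀ y : center G ⧸ pw.range, y ^ p = 1 := fun y => by
        induction y using QuotientGroup.induction_on with
        | _ v => rw [← QuotientGroup.mk_pow, QuotientGroup.eq_one_iff]; exact ⟨v, rfl⟩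
      obtain ⟨k, hk⟩ := IsPGroup.iff_card.mp (fun y => ⟨1, by rw [pow_one]; exact hpw y⟩ :
        IsPGroup p (center G ⧸ pw.range))
      rw [← Subgroup.index_eq_card] at hk
      have hk1 : k = 1 := by
        have : k < 2 := (Nat.pow_lt_pow_iff_right hp.out.one_lt).mp (hk ▸ hrd)
        have : k ≠ 0 := fun h => hne (by rw [hk, h, pow_zero])
        omega
      rw [hk1, pow_one] at hk
      refine ⟨?_, hk⟩
      have h2 := Subgroup.relIndex_mul_index (le_sup_left : pw.range ≤ pw.range ⊔ zpowers u)
      rw [hk] at h2
      rcases (Nat.dvd_prime hp.out).mp (Dvd.intro _ h2) with h3 | h3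
      · exact absurd ((Subgroup.relIndex_eq_one.mp h3) (mem_sup_right (mem_zpowers u))) hu
      · rw [h3] at h2
        exact Subgroup.index_eq_one.mp (Nat.eq_of_mul_eq_mul_left hp.out.pos (h2.trans (mul_one p).symm))
    have hpm : ∀ u v : G, (u * v) ^ p = u ^ p * v ^ p * ⁅v, u⁆ ^ p.choose 2 := fun u v =>
      CfsgLib.PGroups.mul_pow_of_central (hc v u) p
    have hcd : ∀ u v : G, ∃ i : ℤ, ⁅v, u⁆ ^ p.choose 2 = d ^ i := by
      intro u v
      by_cases h : ⁅v, u⁆ = 1
      · exact ⟨0, by rw [h, one_pow, zpow_zero]⟩
      have hg2 : g2 ∉ center G := fun h => hg12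
        (commutatorElement_eq_one_iff_mul_comm.mpr (Subgroup.mem_center_iff.mp h g1))
      have huc : u ∉ center G := fun h' => h
        (commutatorElement_eq_one_iff_mul_comm.mpr (Subgroup.mem_center_iff.mp h' v))
      have h1 : c₀ ∈ A := hrange g2 hg2 ▸ ⟨g1, rfl⟩
      have h2 : ⁅v, u⁆ ∈ A := hrange u huc ▸ ⟨v, rfl⟩
      have h3 : zpowers c₀ = A := by
        refine Subgroup.eq_of_le_of_card_ge (Subgroup.zpowers_le.mpr h1) ?_
        rw [hA, Nat.card_zpowers]
        exact (((Nat.dvd_prime hp.out).mp (hA ▸ Subgroup.orderOf_dvd_natCard _ h1)).resolve_left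
          fun h => hg12 (orderOf_eq_one_iff.mp h)).ge
      obtain ⟨i, hi⟩ := Subgroup.mem_zpowers_iff.mp (h3 ▸ h2)
      exact ⟨i, by rw [← hi, ← zpow_natCast, ← zpow_mul, mul_comm, zpow_mul, zpow_natCast]⟩
    -- `v` outside the centre with `v ^ p = d`
    obtain ⟨v, hvZ, hv⟩ : ∃ v, v ∉ center G ∧ v ^ p = d := by
      obtain ⟨v, hvZ, hv⟩ : ∃ v, v ∉ center G ∧
          ∃ ζ ∈ center G, v ^ p = ζ ^ p * d := by
        by_cases hd : (⟨d, hdc⟩ : center G) ∈ pw.range
        · let h : G →* center G ⧸ pw.range :=
            { toFun := fun x => ((⟨x ^ p, hpowc x⟩ : center G) : center G ⧸ pw.range)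
              map_one' := by
                rw [QuotientGroup.eq_one_iff]; exact ⟨1, Subtype.ext (by simp [pw])⟩
              map_mul' := fun u v => by
                obtain ⟨i, hi⟩ := hcd u v
                rw [← QuotientGroup.mk_mul, QuotientGroup.eq]
                have : ((⟨(u * v) ^ p, hpowc _⟩ : center G))⁻¹ * (⟨u ^ p, hpowc u⟩ * ⟨v ^ p, hpowc v⟩) =
                    (⟨d, hdc⟩ : center G) ^ (-i) := by
                  apply Subtype.ext
                  push_cast
                  rw [hpm, hi, zpow_neg]
                  group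
                rw [this]; exact zpow_mem hd _ }
          obtain ⟨v, hv, hvZ⟩ : ∃ v, v ∈ h.ker ∧ v ∉ center G := by
            by_contra hall
            push Not at hall
            have h1 : h.ker.index ≤ pw.range.index := by
              rw [Subgroup.index_ker, pw.range.index_eq_card]
              exact Subgroup.card_le_card_group _
            have h2 := Nat.le_of_dvd (Nat.pos_of_ne_zero h.ker.index_ne_zero_of_finite)
              (Subgroup.index_dvd_of_le (fun v hv => hall v hv : h.ker ≤ center G))
            omega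
          obtain ⟨s, hs⟩ := hd
          obtain ⟨r, hr⟩ := (QuotientGroup.eq_one_iff _).mp (MonoidHom.mem_ker.mp hv)
          refine ⟨v, hvZ, (r * s⁻¹ : center G), (r * s⁻¹).2, ?_⟩
          have e1 : (r : G) ^ p = v ^ p := congrArg Subtype.val hr
          have e2 : (s : G) ^ p = d := congrArg Subtype.val hs
          have e3 : ((r * s⁻¹ * s : center G) : G) ^ p = (r : G) ^ p := by rw [inv_mul_cancel_right]
          rw [Subgroup.coe_mul, (show Commute (((r * s⁻¹ : center G)) : G) (s : G) from
            Subgroup.mem_center_iff.mp s.2 _).mul_pow, e2] at e3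
          rw [e3, e1]
        · -- every `p`-th power is a power of `d` modulo the `p`-th powers
          obtain ⟨htop, -⟩ := hidx _ hd
          by_contra hall
          push Not at hall
          have hp2' : p = 2 := hp.out.eq_two_or_odd'.resolve_right fun hodd => hd ⟨1, Subtype.ext (by
            obtain ⟨k, hk⟩ : p ∣ p.choose 2 :=
              hp.out.dvd_choose_self two_ne_zero (by rcases hodd with ⟨j, rfl⟩; omega)
            simp [pw, d, hk, pow_mul, c₀, hexp])⟩
          subst hp2'
          have hsq : ∀ v : G, v ∉ center G → ∃ ζ ∈ center G, v ^ 2 = ζ ^ 2 := by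
            intro v hv
            obtain ⟨_, ⟨r, rfl⟩, _, ⟨i, rfl⟩, hri⟩ :=
              Subgroup.mem_sup_of_normal_left.mp (htop ▸ Subgroup.mem_top (⟨v ^ 2, hpowc v⟩ : center G))
            have e : (r : G) ^ 2 * d ^ i = v ^ 2 := by simpa [pw] using congrArg Subtype.val hri
            rcases Int.even_or_odd i with ⟨j, rfl⟩ | ⟨j, rfl⟩
            · refine ⟨(r : G) * d ^ j, mul_mem r.2 (zpow_mem hdc _), ?_⟩
              rw [← e, (show Commute (r : G) (d ^ j) from
                Subgroup.mem_center_iff.mp (zpow_mem hdc j) _).mul_pow]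
              congr 1
              rw [← zpow_natCast, ← zpow_mul]; congr 1; push_cast; ring
            · refine absurd ?_ (hall v hv ((r : G) * d ^ j) (mul_mem r.2 (zpow_mem hdc _)))
              rw [← e, (show Commute (r : G) (d ^ j) from
                Subgroup.mem_center_iff.mp (zpow_mem hdc j) _).mul_pow, zpow_add, zpow_one,
                mul_assoc _ _ d]
              congr 2
              rw [← zpow_natCast, ← zpow_mul]; congr 1; push_cast; ring
          have hg2 : g2 ∉ center G := fun h => hg12
            (commutatorElement_eq_one_iff_mul_comm.mpr (Subgroup.mem_center_iff.mp h g1))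
          have hg1 : g1 ∉ center G := fun h => hg12
            (commutatorElement_eq_one_iff_mul_comm.mpr (Subgroup.mem_center_iff.mp h g2).symm)
          have hg21 : g2 * g1 ∉ center G := fun h => hg12 (commutatorElement_eq_one_iff_mul_comm.mpr (by
            have := Subgroup.mem_center_iff.mp h g2
            exact (mul_left_cancel (this.trans (mul_assoc g2 g1 g2))).symm))
          obtain ⟨a, ha, ea⟩ := hsq g1 hg1
          obtain ⟨b, hb, eb⟩ := hsq g2 hg2
          obtain ⟨e, he, ee⟩ := hsq _ hg21
          rw [hpm, ea, eb] at ee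
          refine hd ⟨⟨(b * a)⁻¹ * e, mul_mem (inv_mem (mul_mem hb ha)) he⟩, Subtype.ext ?_⟩
          show ((b * a)⁻¹ * e) ^ 2 = d
          rw [(show Commute (b * a)⁻¹ e from Subgroup.mem_center_iff.mp he _).mul_pow, inv_pow,
            (show Commute b a from Subgroup.mem_center_iff.mp ha b).mul_pow, ← ee,
            inv_mul_cancel_left]
      obtain ⟨ζ, hζ, e⟩ := hv
      refine ⟨v * ζ⁻¹, fun h => hvZ (by simpa using mul_mem h hζ), ?_⟩
      rw [(show Commute v ζ⁻¹ from Subgroup.mem_center_iff.mp (inv_mem hζ) v).mul_pow, e,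
        (show Commute (ζ ^ p) d from Subgroup.mem_center_iff.mp hdc _).eq, inv_pow, mul_inv_cancel_right]
    have hfr : (commHom hc v).range = A := hrange v hvZ
    -- the transvection `g ↦ g * W (a g)`
    have hmemA : ∀ g, ⁅g, v⁆ ∈ A := fun g => by rw [← hfr]; exact ⟨g, rfl⟩
    obtain ⟨h0, hh0⟩ : ∃ h0 : G, ⁅h0, v⁆ ≠ 1 := by
      by_contra hall
      push Not at hall
      exact hvZ (Subgroup.mem_center_iff.mpr fun y => commutatorElement_eq_one_iff_mul_comm.mp (hall y))
    set c := ⁅h0, v⁆
    have hcord : orderOf c = p :=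
      ((Nat.dvd_prime hp.out).mp (hA ▸ Subgroup.orderOf_dvd_natCard _ (hmemA h0))).resolve_left
        fun h => hh0 (orderOf_eq_one_iff.mp h)
    have hcA : zpowers c = A := Subgroup.eq_of_le_of_card_ge
      (Subgroup.zpowers_le.mpr (hmemA h0)) (by rw [hA, Nat.card_zpowers, hcord])
    have hnat : ∀ g, ∃ a : ℕ, c ^ a = ⁅g, v⁆ := fun g => by
      have hmem : ⁅g, v⁆ ∈ zpowers c := hcA ▸ hmemA g
      exact (mem_powers_iff_mem_zpowers.mpr hmem)
    choose a ha using hnat
    have hcC : c ∈ center G := hc _ _
    have hvd : v ^ p = c ^ p.choose 2 := by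
      rw [hv]
      by_cases hodd : Odd p
      · obtain ⟨k, hk⟩ : p ∣ p.choose 2 :=
          hp.out.dvd_choose_self two_ne_zero (by rcases hodd with ⟨j, rfl⟩; omega)
        simp [d, hk, pow_mul, c₀, c, hexp]
      · obtain rfl := hp.out.eq_two_or_odd'.resolve_right hodd
        have h1 : c₀ ∈ A := by
          refine hrange g2 (fun h => hg12 ?_) ▸ ⟨g1, rfl⟩
          exact commutatorElement_eq_one_iff_mul_comm.mpr (Subgroup.mem_center_iff.mp h g1)
        obtain ⟨i, hi⟩ := Subgroup.mem_zpowers_iff.mp (hcA ▸ h1)
        rcases Int.even_or_odd i with ⟨j, rfl⟩ | ⟨j, rfl⟩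
        · exfalso
          apply hg12
          rw [← hi, ← two_mul, zpow_mul, zpow_ofNat, hexp, one_zpow]
        · simp only [d, show Nat.choose 2 2 = 1 from rfl, pow_one]
          rw [← hi, zpow_add, zpow_mul, zpow_one, zpow_ofNat, hexp, one_zpow, one_mul]
    let W : ℕ → G := fun i => v ^ i * c⁻¹ ^ i.choose 2
    have hvc : ∀ i : ℤ, Commute v (c ^ i) := fun i => Subgroup.mem_center_iff.mp (zpow_mem hcC i) v
    have hWadd : ∀ i j, W (i + j) = W i * W j * c⁻¹ ^ (i * j) := by
      intro i j
      simp only [W]
      have hch : (i + j).choose 2 = i.choose 2 + j.choose 2 + i * j := by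
        simp [Nat.add_choose_eq, Finset.sum_range_succ, Finset.Nat.sum_antidiagonal_eq_sum_range_succ_mk]
        ring
      have hcomm : ∀ l : ℕ, Commute (c⁻¹ ^ l) (v ^ j) := fun l => by
        have := ((hvc (-1)).pow_pow j l).symm
        rwa [zpow_neg_one] at this
      rw [hch, pow_add, pow_add, pow_add]
      simp only [mul_assoc]
      congr 1
      rw [← mul_assoc (c⁻¹ ^ i.choose 2) (v ^ j), (hcomm _).eq]
      simp only [mul_assoc]
    have hWp : W p = 1 := by simp [W, hvd, inv_pow]
    have hWmod : ∀ i j, i ≡ j [MOD p] → W i = W j := by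
      have hstep : ∀ i k, W (i + k * p) = W i := fun i k => by
        induction k with
        | zero => simp
        | succ k ih =>
          rw [Nat.succ_mul, ← Nat.add_assoc, hWadd, ih, hWp, mul_one, mul_comm _ p, pow_mul, inv_pow,
            ← hcord, pow_orderOf_eq_one, inv_one, one_pow, mul_one]
      intro i j hij
      rw [← Nat.mod_add_div i p, ← Nat.mod_add_div j p, mul_comm p, mul_comm p, hstep, hstep]
      exact congrArg W hij
    have haeq : ∀ {i j : ℕ}, c ^ i = c ^ j → W i = W j := fun h =>
      hWmod _ _ (hcord ▸ pow_eq_pow_iff_modEq.mp h)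
    have hswap : ∀ g h, W (a g) * h = h * W (a g) * c⁻¹ ^ (a g * a h) := by
      intro g h
      have h1 : h * v * h⁻¹ * v⁻¹ = c ^ a h := (ha h).symm
      have h1' : v * h = h * v * (c ^ a h)⁻¹ := by
        have hz := Subgroup.mem_center_iff.mp (inv_mem (pow_mem hcC (a h))) (h * v)
        rw [hz, ← h1]; group
      have h2 : ∀ i : ℕ, v ^ i * h = h * v ^ i * c⁻¹ ^ (i * a h) := by
        intro i
        induction i with
        | zero => simp
        | succ i ih =>
          have hz := Subgroup.mem_center_iff.mp (pow_mem (inv_mem hcC) (i * a h)) v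
          rw [pow_succ', mul_assoc, ih, ← mul_assoc, ← mul_assoc, h1', add_mul, one_mul, pow_add]
          simp only [inv_pow] at hz ⊢
          simp only [mul_assoc]
          congr 2
          rw [← mul_assoc ((c ^ a h)⁻¹), ← Subgroup.mem_center_iff.mp (inv_mem (pow_mem hcC (a h))) (v ^ i)]
          simp only [mul_assoc]
          congr 1
          exact (Subgroup.mem_center_iff.mp (inv_mem (pow_mem hcC (i * a h))) _).symm ▸ rfl
      simp only [W]
      rw [mul_assoc, ← Subgroup.mem_center_iff.mp (pow_mem (inv_mem hcC) _) h, ← mul_assoc, h2]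
      simp only [mul_assoc]
      congr 2
      exact Subgroup.mem_center_iff.mp (pow_mem (inv_mem hcC) _) _
    let F : G →* G :=
      { toFun := fun g => g * W (a g)
        map_one' := by
          rw [one_mul, haeq (j := 0) (by rw [ha, pow_zero]; simp [commutatorElement_def])]
          simp [W]
        map_mul' := fun g h => by
          rw [haeq (i := a (g * h)) (j := a g + a h) (by
            rw [pow_add, ha, ha, ha, CfsgLib.Subnormal.commutatorElement_mul_left hc]), hWadd]
          calc g * h * (W (a g) * W (a h) * c⁻¹ ^ (a g * a h))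
              = g * (h * W (a g) * (W (a h) * c⁻¹ ^ (a g * a h))) := by simp only [mul_assoc]
            _ = g * (h * W (a g) * (c⁻¹ ^ (a g * a h) * W (a h))) := by
                rw [Subgroup.mem_center_iff.mp (pow_mem (inv_mem hcC) _) (W (a h))]
            _ = g * (h * W (a g) * c⁻¹ ^ (a g * a h)) * W (a h) := by simp only [mul_assoc]
            _ = g * W (a g) * (h * W (a h)) := by rw [← hswap]; simp only [mul_assoc] }
    have hWf : ∀ i, ⁅W i, v⁆ = 1 := fun i => commutatorElement_eq_one_iff_mul_comm.mpr (by
      simp only [W]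
      exact ((Commute.refl v).pow_left i).mul_left
        ((Subgroup.mem_center_iff.mp (pow_mem (inv_mem hcC) _) v).symm))
    have hinj : Function.Injective F := by
      rw [injective_iff_map_eq_one]
      intro g hg
      have hg' : g = (W (a g))⁻¹ := eq_inv_of_mul_eq_one_left hg
      have h2 : ⁅g, v⁆ = 1 := by
        rw [hg', commutatorElement_eq_one_iff_mul_comm]
        exact (Commute.inv_left (commutatorElement_eq_one_iff_mul_comm.mp (hWf (a g)))).eq
      have h3 : W (a g) = 1 := (haeq (j := 0) (by rw [ha, h2, pow_zero])).trans (by simp [W])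
      rwa [h3, inv_one] at hg'
    let σ : MulAut G := MulEquiv.ofBijective F (Finite.injective_iff_bijective.mp hinj)
    have hit : ∀ g (j : ℕ), (σ ^ j) g = g * W (a g) ^ j := by
      intro g j
      induction j with
      | zero => simp
      | succ j ih =>
        rw [pow_succ', MulAut.mul_apply, ih]
        show F _ = _
        have hagj : W (a (g * W (a g) ^ j)) = W (a g) := haeq (by
          rw [ha, ha, CfsgLib.Subnormal.commutatorElement_mul_left hc,
            CfsgLib.Subnormal.commutatorElement_pow_left hc, hWf, one_pow, mul_one])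
        show g * W (a g) ^ j * W (a (g * W (a g) ^ j)) = _
        rw [hagj, pow_succ, mul_assoc]
    refine finish {g | ⁅g, v⁆ ≠ 1} (fun g hg hgc => hg (commutatorElement_eq_one_iff_mul_comm.mpr
      (Subgroup.mem_center_iff.mp hgc v).symm)) (fun g hg => ?_) ?_
    · have hgZ : g ∉ center G := fun hgc => hg (commutatorElement_eq_one_iff_mul_comm.mpr
        (Subgroup.mem_center_iff.mp hgc v).symm)
      have hmemO : ∀ (j : Fin p) (e : A), (e : G) * (g * W (a g) ^ (j : ℕ)) ∈
          MulAction.orbit (MulAut G) g := by
        intro j e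
        have hne : g * W (a g) ^ (j : ℕ) ∉ center G := fun hgc => hg (by
          have := commutatorElement_eq_one_iff_mul_comm.mpr (Subgroup.mem_center_iff.mp hgc v).symm
          rwa [CfsgLib.Subnormal.commutatorElement_mul_left hc,
            CfsgLib.Subnormal.commutatorElement_pow_left hc, hWf, one_pow, mul_one] at this)
        have he : (e : G) ∈ (commHom hc (g * W (a g) ^ (j : ℕ))).range := by
          rw [hrange _ hne]; exact e.2
        obtain ⟨u, hu⟩ := he
        refine ⟨MulAut.conj u * σ ^ (j : ℕ), ?_⟩
        show MulAut.conj u ((σ ^ (j : ℕ)) g) = _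
        rw [hit, ← hu]
        show u * _ * u⁻¹ = ⁅u, g * W (a g) ^ (j : ℕ)⁆ * _
        rw [commutatorElement_def]; group
      calc p ^ 2 = Nat.card (Fin p × A) := by simp [Nat.card_prod, hA, pow_two]
        _ ≤ _ := Nat.card_le_card_of_injective (fun je => ⟨_, hmemO je.1 je.2⟩) ?_
      rintro ⟨j, e⟩ ⟨j', e'⟩ h
      have h' : (e : G) * (g * W (a g) ^ (j : ℕ)) = e' * (g * W (a g) ^ (j' : ℕ)) :=
        congrArg Subtype.val h
      have hAZ : A ≤ center G := by
        rw [← hcA, Subgroup.zpowers_le]; exact hcC
      set π := QuotientGroup.mk' (center G)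
      have hπe : ∀ x ∈ center G, π x = 1 := fun x hx => (QuotientGroup.eq_one_iff x).mpr hx
      have h1 := congrArg π h'
      rw [map_mul, map_mul π (e' : G), hπe _ (hAZ e.2), hπe _ (hAZ e'.2), one_mul, one_mul, map_mul,
        map_mul, map_pow, map_pow] at h1
      have hWπ : orderOf (π (W (a g))) = p := by
        have : π (W (a g)) = π v ^ a g := by
          rw [← map_pow]; simp only [W]
          rw [map_mul, hπe _ (pow_mem (inv_mem hcC) _), mul_one]
        rw [this]
        have hov : orderOf (π v) = p := orderOf_eq_prime (by rw [← map_pow]; exact hπe _ (hpowc v))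
          fun h => hvZ ((QuotientGroup.eq_one_iff v).mp h)
        rw [Nat.Coprime.orderOf_pow, hov]
        rw [hov]
        refine (hp.out.coprime_iff_not_dvd.mpr fun hd => hg ?_)
        obtain ⟨k, hk⟩ := hd
        rw [← ha, hk, pow_mul, ← hcord, pow_orderOf_eq_one, one_pow]
      have hjj : j = j' := Fin.ext (pow_injOn_Iio_orderOf (by simp [hWπ, j.is_lt])
        (by simp [hWπ, j'.is_lt]) (mul_left_cancel h1))
      subst hjj
      exact Prod.ext rfl (Subtype.ext (mul_right_cancel h'))
    · have hker : Nat.card (commHom hc v).ker * p = Nat.card G := by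
        rw [← (commHom hc v).ker.card_mul_index, Subgroup.index_ker, hfr, hA]
      have hcompl : {g : G | ⁅g, v⁆ ≠ 1}.ncard + Nat.card (commHom hc v).ker = Nat.card G := by
        have h := Set.ncard_add_ncard_compl ((commHom hc v).ker : Set G)
        have e : {g : G | ⁅g, v⁆ ≠ 1} = ((commHom hc v).ker : Set G)ᶜ := by
          ext g; simp [MonoidHom.mem_ker, commHom]
        rw [e, add_comm, ← SetLike.coe_sort_coe, Nat.card_coe_set_eq]
        exact h
      set K := Nat.card (commHom hc v).ker
      have h1 : z * m = K * p := hn.trans hker.symm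
      have h2 : p * z ≤ K := by
        refine Nat.le_of_mul_le_mul_right ?_ hp.out.pos
        rw [← h1, mul_comm z, mul_right_comm, ← pow_two]
        exact Nat.mul_le_mul_right z hm
      have h3 : K * 2 ≤ Nat.card G := hker ▸ Nat.mul_le_mul_left K hp2
      omega

theorem orbits_bound (hna : ¬ IsMulCommutative G) :
    (Nat.card G).minFac * Nat.card (MulAction.orbitRel.Quotient (MulAut G) G) ≤ Nat.card G := by
  classical
  set p := (Nat.card G).minFac with hpdef
  have hG1 : Nat.card G ≠ 1 := fun h => hna ⟨⟨fun a b => by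
    have := (Nat.card_eq_one_iff_unique.mp h).1
    exact Subsingleton.elim _ _⟩⟩
  have := Fact.mk (Nat.minFac_prime hG1)
  have hp2 : 2 ≤ p := (Nat.minFac_prime hG1).two_le
  obtain ⟨hm, hm'⟩ := index_center_ge hna
  rw [← hpdef] at hm hm'
  set m := (center G).index
  set z := Nat.card (center G)
  have hn : z * m = Nat.card G := (center G).card_mul_index
  have hidx : ∀ x ∉ center G, p ≤ (centralizer ({x} : Set G)).index := by
    intro x hx
    refine minFac_le (Subgroup.index_dvd_card _) (fun h => hx ?_)
      (Nat.pos_of_ne_zero (Subgroup.index_ne_zero_of_finite))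
    exact Subgroup.mem_center_iff.mpr fun y => Subgroup.mem_centralizer_singleton_iff.mp
      (Subgroup.index_eq_one.mp h ▸ Subgroup.mem_top y)
  have hp' : ∀ x ∉ center G, p ≤ Nat.card (MulAction.orbit (MulAut G) x) := fun x hx =>
    (hidx x hx).trans (index_centralizer_le_orbit x)
  set T : Set G := {x | x ∉ center G ∧ p < (centralizer ({x} : Set G)).index} with hT
  set S : Set G := {x | (centralizer ({x} : Set G)).index = p}
  by_cases hgen : center G ⊔ closure S = ⊤
  · -- the centralizers of index `p` are normal
    have hc : ∀ x y : G, ⁅x, y⁆ ∈ center G := by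
      intro u w
      have hle : center G ⊔ closure S ≤ centralizer {⁅u, w⁆} := by
        refine sup_le (Subgroup.center_le_centralizer _) ?_
        rw [closure_le]
        intro x hx
        rw [SetLike.mem_coe, Subgroup.mem_centralizer_singleton_iff]
        have hn' : (centralizer ({x} : Set G)).Normal := Subgroup.normal_of_index_eq_minFac_card hx
        have : IsCyclic (G ⧸ centralizer ({x} : Set G)) :=
          isCyclic_of_prime_card (p := p) (by rw [← Subgroup.index_eq_card]; exact hx)
        let := IsCyclic.commGroup (α := G ⧸ centralizer ({x} : Set G))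
        have hmem : ⁅u, w⁆ ∈ centralizer ({x} : Set G) := by
          rw [← QuotientGroup.eq_one_iff]
          change QuotientGroup.mk' (centralizer ({x} : Set G)) ⁅u, w⁆ = 1
          rw [map_commutatorElement, commutatorElement_eq_one_iff_mul_comm]
          exact mul_comm _ _
        exact (Subgroup.mem_centralizer_singleton_iff.mp hmem).symm
      rw [hgen] at hle
      exact Subgroup.mem_center_iff.mpr fun y =>
        Subgroup.mem_centralizer_singleton_iff.mp (hle (Subgroup.mem_top y))
    have hexp : ∀ x y : G, ⁅x, y⁆ ^ p = 1 := by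
      intro x y
      have hle : center G ⊔ closure S ≤ (commHom hc y).ker ⊔ closure S := by
        refine sup_le_sup_right (fun u hu => ?_) _
        rw [mem_ker_commHom hc]; exact (Subgroup.mem_center_iff.mp hu y).symm
      -- the elements with commutator of order dividing `p` form a subgroup
      let K : Subgroup G :=
        { carrier := {u | ⁅u, y⁆ ^ p = 1}
          one_mem' := by simp [commutatorElement_def]
          mul_mem' := fun {a b} ha hb => by
            show ⁅a * b, y⁆ ^ p = 1
            rw [CfsgLib.Subnormal.commutatorElement_mul_left hc,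
              (show Commute ⁅a, y⁆ ⁅b, y⁆ from Subgroup.mem_center_iff.mp (hc b y) _).mul_pow, ha,
              hb, one_mul]
          inv_mem' := fun {a} ha => by
            show ⁅a⁻¹, y⁆ ^ p = 1
            rw [CfsgLib.PGroups.commutatorElement_inv_left' (hc a y), inv_pow, ha, inv_one] }
      have hK : (commHom hc y).ker ⊔ closure S ≤ K := by
        refine sup_le (fun u hu => ?_) ((closure_le K).mpr fun u hu => ?_)
        · show ⁅u, y⁆ ^ p = 1
          rw [show ⁅u, y⁆ = 1 from MonoidHom.mem_ker.mp hu, one_pow]
        · show ⁅u, y⁆ ^ p = 1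
          have h1 : ⁅y, u⁆ ∈ (commHom hc u).range := ⟨y, rfl⟩
          have h2 : ⁅y, u⁆ ^ p = 1 := orderOf_dvd_iff_pow_eq_one.mp
            ((Subgroup.orderOf_dvd_natCard _ h1).trans (by rw [← index_centralizer_eq hc]; exact hu.dvd))
          rw [← commutatorElement_inv, inv_pow, h2, inv_one]
      exact hK (hle (hgen ▸ Subgroup.mem_top x))
    have hpow : ∀ x, ∃ k, (centralizer ({x} : Set G)).index = p ^ k := fun x => by
      rw [index_centralizer_eq hc]
      refine IsPGroup.iff_card.mp fun ⟨r, hr⟩ => ⟨1, Subtype.ext ?_⟩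
      obtain ⟨u, rfl⟩ := hr
      simp only [pow_one, SubmonoidClass.coe_pow, OneMemClass.coe_one]
      exact hexp u x
    by_cases hall : ∀ x ∉ center G, (centralizer ({x} : Set G)).index = p
    · -- all images coincide
      have hAeq : ∀ x y, x ∉ center G → y ∉ center G → (commHom hc x).range = (commHom hc y).range := by
        intro x y hx hy
        obtain ⟨g, hgx, hgy⟩ : ∃ g, g ∉ centralizer ({x} : Set G) ∧ g ∉ centralizer ({y} : Set G) := by
          obtain ⟨g, h1, h2, -⟩ := three_subgroups (H := (⊥ : Subgroup G))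
            (le_trans hp2 (hidx x hx)) (le_trans hp2 (hidx y hy)) (by
              rw [Subgroup.index_bot]
              have h4 : 4 ≤ m := le_trans (by nlinarith) hm
              exact h4.trans (Nat.le_of_dvd Nat.card_pos ((center G).index_dvd_card)))
          exact ⟨g, h1, h2⟩
        rw [Subgroup.mem_centralizer_singleton_iff, ← commutatorElement_eq_one_iff_mul_comm] at hgx hgy
        have hgc : g ∉ center G := fun h => hgx (commutatorElement_eq_one_iff_mul_comm.mpr
          (Subgroup.mem_center_iff.mp h x).symm)
        have hcard : ∀ u ∉ center G, Nat.card (commHom hc u).range = p := fun u hu => by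
          rw [← index_centralizer_eq hc]; exact hall u hu
        exact (range_eq_of_prime hc (hcard x hx) (hcard g hgc) hgx).trans
          (range_eq_of_prime hc (hcard y hy) (hcard g hgc) hgy).symm
      obtain ⟨x0, hx0⟩ : ∃ x0, x0 ∉ center G := by
        by_contra hno
        push Not at hno
        exact hna ⟨⟨fun a b => Subgroup.mem_center_iff.mp (hno b) a⟩⟩
      exact orbits_bound_of_hom_eq hna rfl hc (by rw [← index_centralizer_eq hc]; exact hall x0 hx0)
        fun x hx => hAeq x x0 hx hx0
    · push Not at hall
      obtain ⟨x, hx, hxp⟩ := hall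
      have hbig : ∀ u ∈ T, p ^ 2 ≤ (centralizer ({u} : Set G)).index := by
        intro u hu
        obtain ⟨k, hk⟩ := hpow u
        rw [hk]
        refine Nat.pow_le_pow_right (by omega) ?_
        by_contra hlt
        have h1 := hu.2
        rw [hk] at h1
        have h2 : p ^ k ≤ p ^ 1 := Nat.pow_le_pow_right (by omega) (by omega)
        rw [pow_one] at h2
        omega
      have hxT : x ∈ T := ⟨hx, lt_of_le_of_ne (hidx x hx) (Ne.symm hxp)⟩
      -- `p` cosets of the centre lie in `T`
      have hTcoset : ∀ u ∈ T, ∀ w ∈ center G, u * w ∈ T := by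
        intro u hu w hw
        refine ⟨fun h => hu.1 (by simpa using mul_mem h (inv_mem hw)), ?_⟩
        have : centralizer ({u * w} : Set G) = centralizer ({u} : Set G) := by
          ext y
          simp only [Subgroup.mem_centralizer_singleton_iff]
          rw [← mul_assoc, mul_assoc u w y, (Subgroup.mem_center_iff.mp hw y).symm, ← mul_assoc]
          exact mul_right_cancel_iff
        rw [this]; exact hu.2
      have hTpow : ∀ u ∈ T, ∀ i : ℕ, ¬ p ∣ i → u ^ i ∈ T := by
        intro u hu i hi
        have heq : centralizer ({u ^ i} : Set G) = centralizer ({u} : Set G) := by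
          ext y
          simp only [Subgroup.mem_centralizer_singleton_iff]
          refine ⟨fun h => ?_, fun h => (Commute.pow_right h i).eq⟩
          have h1 : ⁅y, u⁆ ^ i = 1 := by
            rw [← CfsgLib.PGroups.commutatorElement_pow_right (hc y u),
              commutatorElement_eq_one_iff_mul_comm.mpr h]
          exact commutatorElement_eq_one_iff_mul_comm.mp (orderOf_eq_one_iff.mp (Nat.eq_one_of_dvd_coprimes
            ((Fact.out : p.Prime).coprime_iff_not_dvd.mpr hi)
            (orderOf_dvd_of_pow_eq_one (hexp y u)) (orderOf_dvd_of_pow_eq_one h1)))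
        refine ⟨fun h => ?_, heq ▸ hu.2⟩
        have h1 : centralizer ({u ^ i} : Set G) = ⊤ :=
          Subgroup.eq_top_iff' _ |>.mpr fun y =>
            Subgroup.mem_centralizer_singleton_iff.mpr (Subgroup.mem_center_iff.mp h y)
        rw [heq] at h1
        have := hu.2
        rw [h1, Subgroup.index_top] at this
        omega
      set X := center G ⊔ zpowers x
      have hxpc : x ^ p ∈ center G := Subgroup.mem_center_iff.mpr fun g =>
        (commutatorElement_eq_one_iff_mul_comm.mp (by
          rw [CfsgLib.Subnormal.commutatorElement_pow_left hc, hexp])).symm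
      obtain ⟨y, hyT, hyX⟩ : ∃ y ∈ T, y ∉ X := by
        by_contra hno
        push Not at hno
        have hXle : X ≤ centralizer ({x} : Set G) := sup_le (Subgroup.center_le_centralizer _)
          (Subgroup.zpowers_le.mpr (Subgroup.mem_centralizer_singleton_iff.mpr rfl))
        have hX4 : 4 ≤ X.index := le_trans (le_trans (by nlinarith) (hbig x hxT))
          (Nat.le_of_dvd (Nat.pos_of_ne_zero Subgroup.index_ne_zero_of_finite)
            (Subgroup.index_dvd_of_le hXle))
        have hcard : ∀ u, u ∉ X → Nat.card (commHom hc u).range = p := fun u hu => by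
          have huc : u ∉ center G := fun h => hu (mem_sup_left h)
          rw [← index_centralizer_eq hc]
          exact le_antisymm (not_lt.mp fun h => hu (hno u ⟨huc, h⟩)) (hidx u huc)
        have heq : ∀ u w, u ∉ X → w ∉ X → (commHom hc u).range = (commHom hc w).range := by
          intro u w hu hw
          obtain ⟨g, hgu, hgw, hgX⟩ := three_subgroups (K := centralizer ({u} : Set G))
            (K' := centralizer ({w} : Set G)) (by rw [index_centralizer_eq hc, hcard u hu]; omega)
            (by rw [index_centralizer_eq hc, hcard w hw]; omega) hX4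
          rw [Subgroup.mem_centralizer_singleton_iff, ← commutatorElement_eq_one_iff_mul_comm] at hgu hgw
          exact (range_eq_of_prime hc (hcard u hu) (hcard g hgX) hgu).trans
            (range_eq_of_prime hc (hcard w hw) (hcard g hgX) hgw).symm
        obtain ⟨u, hu⟩ : ∃ u, u ∉ X := by
          by_contra hall'
          push Not at hall'
          rw [(Subgroup.eq_top_iff' X).mpr hall', Subgroup.index_top] at hX4
          omega
        have hxu : x * u ∉ X := fun h => hu (by
          have := mul_mem (inv_mem (mem_sup_right (mem_zpowers x) : x ∈ X)) h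
          rwa [inv_mul_cancel_left] at this)
        have hle : (commHom hc x).range ≤ (commHom hc u).range := by
          rintro _ ⟨g, rfl⟩
          show ⁅g, x⁆ ∈ _
          have h1 : ⁅g, x * u⁆ ∈ (commHom hc u).range := heq (x * u) u hxu hu ▸ ⟨g, rfl⟩
          rw [CfsgLib.Subnormal.commutatorElement_mul_right hc] at h1
          exact ((commHom hc u).range.mul_mem_cancel_right
            (show ⁅g, u⁆ ∈ (commHom hc u).range from ⟨g, rfl⟩)).mp h1
        have h2 := Subgroup.card_le_of_le hle
        rw [hcard u hu, ← index_centralizer_eq hc] at h2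
        exact absurd hxT.2 (not_lt.mpr h2)
      refine orbit_bound (L := p ^ 2) (by rw [pow_two]; exact Nat.le_mul_self p) T
        (fun u hu => hu.1) hp' (fun u hu => (hbig u hu).trans (index_centralizer_le_orbit u)) ?_
        (pow_pos (by omega) 2)
      have hT2 : p * z ≤ T.ncard := by
        set π := QuotientGroup.mk' (center G)
        have hox : orderOf (π x) = p := orderOf_eq_prime
          (by rw [← map_pow]; exact (QuotientGroup.eq_one_iff _).mpr hxpc)
          fun h => hx ((QuotientGroup.eq_one_iff x).mp h)
        let e : Fin p × center G → T := fun iw =>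
          if h : (iw.1 : ℕ) = 0 then ⟨y * (iw.2 : G), hTcoset y hyT _ iw.2.2⟩
          else ⟨x ^ (iw.1 : ℕ) * (iw.2 : G), hTcoset _ (hTpow x hxT _ fun hd =>
            h (Nat.eq_zero_of_dvd_of_lt hd iw.1.is_lt)) _ iw.2.2⟩
        calc p * z = Nat.card (Fin p × center G) := by simp [Nat.card_prod, z]
          _ ≤ Nat.card T := Nat.card_le_card_of_injective e ?_
          _ = _ := Nat.card_coe_set_eq T
        have hne : ∀ (i : ℕ) (w w' : center G), y * (w : G) ≠ x ^ i * (w' : G) := fun i w w' h =>
          hyX (by
            rw [eq_mul_inv_of_mul_eq h]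
            exact mul_mem (mul_mem (mem_sup_right (Subgroup.npow_mem_zpowers x i))
              (mem_sup_left w'.2)) (inv_mem (mem_sup_left w.2)))
        rintro ⟨i, w⟩ ⟨i', w'⟩ h
        simp only [e] at h
        split_ifs at h with h1 h2 h2
        · have h' : y * (w : G) = y * (w' : G) := congrArg Subtype.val h
          exact Prod.ext (Fin.ext (h1.trans h2.symm)) (Subtype.ext (mul_left_cancel h'))
        · exact absurd (congrArg Subtype.val h) (hne _ w w')
        · exact absurd (congrArg Subtype.val h).symm (hne _ w' w)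
        · have h' : x ^ (i : ℕ) * (w : G) = x ^ (i' : ℕ) * (w' : G) := congrArg Subtype.val h
          have hq : ∀ r : center G, π (r : G) = 1 := fun r => (QuotientGroup.eq_one_iff _).mpr r.2
          have := congrArg π h'
          rw [map_mul, map_mul, hq, hq, mul_one, mul_one, map_pow, map_pow] at this
          have hii : i = i' := Fin.ext (pow_injOn_Iio_orderOf (by simp [hox, i.is_lt])
            (by simp [hox, i'.is_lt]) this)
          subst hii
          exact Prod.ext rfl (Subtype.ext (mul_left_cancel h'))
      calc p ^ 2 * (p - 1) * z = p * (p - 1) * (p * z) := by ring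
        _ ≤ p * (p - 1) * T.ncard := Nat.mul_le_mul_left _ hT2
        _ = _ := by rw [pow_two, Nat.mul_sub, mul_one]
  · -- few elements with centralizer of index `p`
    set M := center G ⊔ closure S
    refine orbit_bound (L := p + 1) p.le_succ T (fun u hu => hu.1) hp'
      (fun u hu => Nat.succ_le_of_lt hu.2 |>.trans (index_centralizer_le_orbit u)) ?_ p.succ_pos
    have hsub : ((M : Subgroup G) : Set G)ᶜ ⊆ T := by
      intro u hu
      have huc : u ∉ center G := fun h => hu (mem_sup_left h)
      exact ⟨huc, lt_of_le_of_ne (hidx u huc) fun h => hu (mem_sup_right (subset_closure h.symm))⟩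
    have hle := Set.ncard_le_ncard hsub
    have hcompl := Set.ncard_add_ncard_compl ((M : Subgroup G) : Set G)
    rw [← Nat.card_coe_set_eq, SetLike.coe_sort_coe] at hcompl
    have hMp : p ≤ M.index := minFac_le M.index_dvd_card (fun h => hgen (Subgroup.index_eq_one.mp h))
      (Nat.pos_of_ne_zero Subgroup.index_ne_zero_of_finite)
    have hMm : M.index ∣ m := Subgroup.index_dvd_of_le le_sup_left
    have e1 := M.card_mul_index
    have hne : m ≠ p ^ 2 := by
      intro heq
      apply hgen
      refine (Subgroup.eq_top_iff' _).mpr fun u => ?_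
      by_cases huc : u ∈ center G
      · exact mem_sup_left huc
      refine mem_sup_right (subset_closure ?_)
      have hlt : center G < centralizer ({u} : Set G) := lt_of_le_of_ne (Subgroup.center_le_centralizer _)
        fun h => huc (h ▸ Subgroup.mem_centralizer_singleton_iff.mpr rfl)
      have hd := Subgroup.index_dvd_of_le hlt.le
      rw [show (center G).index = p ^ 2 from heq] at hd
      obtain ⟨k, hk, hke⟩ := (Nat.dvd_prime_pow (Fact.out : p.Prime)).mp hd
      show (centralizer ({u} : Set G)).index = p
      have hltm : (centralizer ({u} : Set G)).index < p ^ 2 := by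
        rw [← heq]; exact Subgroup.index_strictAnti hlt
      have := hidx u huc
      rw [hke] at hltm this ⊢
      have hk2 : k < 2 := (Nat.pow_lt_pow_iff_right (by omega)).mp hltm
      rcases Nat.eq_zero_or_pos k with rfl | hk0
      · rw [pow_zero] at this; omega
      · rw [show k = 1 by omega, pow_one]
    have hbig := hm' hne
    -- `|T| ≥ |G| (1 - 1/p) ≥ (p ^ 2 - 1) z`
    have h1 : Nat.card M * p ≤ Nat.card G := e1 ▸ Nat.mul_le_mul_left _ hMp
    have h2 : (p + 1) * p * z ≤ Nat.card G := by
      rw [← hn, mul_comm z, mul_comm (p + 1)]; exact Nat.mul_le_mul_right z hbig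
    rw [Nat.add_sub_cancel_left, one_mul]
    obtain ⟨q, hq⟩ : ∃ q, p = q + 1 := ⟨p - 1, by omega⟩
    rw [hq] at h1 h2 ⊢
    rw [Nat.add_sub_cancel] at ⊢
    refine Nat.le_of_mul_le_mul_left ?_ q.succ_pos
    have h3 : (Nat.card M + T.ncard) * (q + 1) ≥ Nat.card G * (q + 1) :=
      Nat.mul_le_mul_right _ (by omega)
    have h4 : q * ((q + 1 + 1) * (q + 1) * z) ≤ q * Nat.card G := Nat.mul_le_mul_left q h2
    linarith


/-- Let G be a finite non-abelian group and p the least prime dividing its order. Then the automorphism group of G has at most #G/p orbits on G. -/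
theorem result {G : Type*} [Group G] [Finite G] (hna : ¬ IsMulCommutative G) :
    Nat.card (MulAction.orbitRel.Quotient (MulAut G) G) ≤ Nat.card G / (Nat.card G).minFac := by
  rw [Nat.le_div_iff_mul_le (Nat.minFac_pos _), mul_comm]
  exact orbits_bound hna

end Cfsg.Agent.S4067
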