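import Cfsg.Statements.S4068
import Cfsg.Agent.S0183
import Cfsg.Agent.S0494
import Cfsg.Agent.Lib.SolvableStructure.MinimalNormal
import Cfsg.Agent.Lib.Cores.PCore
import Cfsg.Agent.Lib.CharTheory.Burnside
import Cfsg.Agent.Lib.TwoFusion.ElemCentField
import Cfsg.Agent.Lib.SL2.Card

set_option autoImplicit false
open Cfsg

namespace Cfsg.Agent.S4068

open Subgroup Matrix
open scoped MatrixGroups

theorem isSolvable_of_primeFactors {H : Type*} [Group H] [Finite H] {p q : ℕ} (hp : p.Prime)
    (hq : q.Prime) (h : (Nat.card H).primeFactors ⊆ {p, q}) : Group.IsSolvable H := by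
  have h0 : Nat.card H ≠ 0 := Nat.card_pos.ne'
  refine CfsgLib.CharTheory.isSolvable_of_card_dvd_pow_mul_pow p q ((Nat.card H).factorization p)
    ((Nat.card H).factorization q) hp hq ?_
  rw [← Nat.factorization_le_iff_dvd h0 (mul_ne_zero (pow_ne_zero _ hp.ne_zero) (pow_ne_zero _ hq.ne_zero))]
  intro t
  by_cases ht : t ∈ (Nat.card H).primeFactors
  · rw [Nat.factorization_mul (pow_ne_zero _ hp.ne_zero) (pow_ne_zero _ hq.ne_zero),
      hp.factorization_pow, hq.factorization_pow]
    have := h ht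
    simp only [Finset.mem_insert, Finset.mem_singleton] at this
    rcases this with rfl | rfl <;> simp [Finsupp.single_eq_same]
  · rw [← Nat.support_factorization, Finsupp.notMem_support_iff] at ht
    omega

/-- A nontrivial normal subgroup, solvable, contains a nontrivial abelian normal subgroup. -/
theorem exists_abelian_normal {G : Type*} [Group G] [Finite G] (N : Subgroup G) [hN : N.Normal]
    [Group.IsSolvable N] (hNb : N ≠ ⊥) :
    ∃ A : Subgroup G, A.Normal ∧ A ≠ ⊥ ∧ ∀ x ∈ A, ∀ y ∈ A, Commute x y := by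
  obtain ⟨M, hMN, hMn, hMb, hmin⟩ := CfsgLib.SolvableStructure.exists_minimal_normal hN hNb
  haveI : Group.IsSolvable M := Group.isSolvable_of_isSolvable_injective (Subgroup.inclusion_injective hMN)
  refine ⟨M, hMn, hMb, fun x hx y hy => ?_⟩
  have hc : ⁅M, M⁆ = ⊥ := by
    by_contra hne
    have heq := (hmin ⁅M, M⁆ inferInstance (Subgroup.commutator_le_self M)).resolve_left hne
    haveI : Nontrivial M := (Subgroup.nontrivial_iff_ne_bot M).mpr hMb
    refine (Group.IsSolvable.commutator_lt_top_of_nontrivial M).ne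
      (Subgroup.map_injective M.subtype_injective ?_)
    rw [Subgroup.map_subtype_commutator, heq, ← MonoidHom.range_eq_map, Subgroup.range_subtype]
  exact commutatorElement_eq_one_iff_commute.mp
    (Subgroup.mem_bot.mp (hc ▸ Subgroup.commutator_mem_commutator hx hy))


/-- Nonidentity commuting elements of prime order have the same order. -/
theorem orderOf_eq_of_commute {G : Type*} [Group G] (hpr : ∀ g : G, g ≠ 1 → (orderOf g).Prime)
    {x y : G} (hx : x ≠ 1) (hy : y ≠ 1) (h : Commute x y) : orderOf x = orderOf y := by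
  by_contra hne
  have ho := h.orderOf_mul_eq_mul_orderOf_of_coprime ((Nat.coprime_primes (hpr x hx) (hpr y hy)).mpr hne)
  have h1 : x * y ≠ 1 := by
    intro h1
    rw [mul_eq_one_iff_eq_inv] at h1
    exact hne (by rw [h1, orderOf_inv])
  have := hpr _ h1
  rw [ho] at this
  exact Nat.not_prime_mul (hpr x hx).ne_one (hpr y hy).ne_one this

/-- The four orbits give exactly three element orders, all prime, each a single orbit. -/
theorem orbits_of_four {G : Type*} [Group G] [Finite G] (hns : ¬ Group.IsSolvable G)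
    (h4 : Nat.card (MulAction.orbitRel.Quotient (MulAut G) G) = 4) :
    (Nat.card G).primeFactors.card = 3 ∧ (∀ g : G, g ≠ 1 → (orderOf g).Prime) ∧
      ∀ g h : G, orderOf g = orderOf h → ∃ α : MulAut G, α g = h := by
  set π := (Nat.card G).primeFactors
  have hG0 : Nat.card G ≠ 0 := Nat.card_pos.ne'
  have h3 : 3 ≤ π.card := by
    by_contra hlt
    apply hns
    have hsub : ∃ p q : ℕ, p.Prime ∧ q.Prime ∧ π ⊆ {p, q} := by
      rcases (show π.card = 0 ∨ π.card = 1 ∨ π.card = 2 by omega) with h | h | h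
      · exact ⟨2, 2, Nat.prime_two, Nat.prime_two, by rw [Finset.card_eq_zero.mp h]; simp⟩
      · obtain ⟨p, hp⟩ := Finset.card_eq_one.mp h
        have : p ∈ π := by rw [hp]; simp
        exact ⟨p, p, Nat.prime_of_mem_primeFactors this, Nat.prime_of_mem_primeFactors this, by rw [hp]; simp⟩
      · obtain ⟨p, q, -, hp⟩ := Finset.card_eq_two.mp h
        have hpm : p ∈ π := by rw [hp]; simp
        have hqm : q ∈ π := by rw [hp]; simp
        exact ⟨p, q, Nat.prime_of_mem_primeFactors hpm, Nat.prime_of_mem_primeFactors hqm, hp.le⟩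
    obtain ⟨p, q, hp, hq, hsub⟩ := hsub
    refine isSolvable_of_primeFactors hp hq hsub
  obtain ⟨s, hs, hs3⟩ := Finset.exists_subset_card_eq h3
  obtain ⟨p, q, r, hpq, hpr', hqr, hs'⟩ := Finset.card_eq_three.mp hs3
  have hmem : ∀ i : Fin 3, ![p, q, r] i ∈ π := fun i => hs (by rw [hs']; fin_cases i <;> simp)
  have hP : ∀ i : Fin 3, (![p, q, r] i).Prime := fun i => Nat.prime_of_mem_primeFactors (hmem i)
  have hex : ∀ i : Fin 3, ∃ a : G, orderOf a = ![p, q, r] i := fun i => by
    have := Fact.mk (hP i)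
    exact exists_prime_orderOf_dvd_card' _ (Nat.dvd_of_mem_primeFactors (hmem i))
  choose a ha using hex
  let rep : Fin 4 → G := Fin.cons 1 a
  have hrep : ∀ i, orderOf (rep i) = (Fin.cons 1 ![p, q, r] : Fin 4 → ℕ) i := fun i => by
    induction i using Fin.cases with
    | zero => simp [rep]
    | succ j => simp [rep, ha j]
  have hvinj : Function.Injective (Fin.cons 1 ![p, q, r] : Fin 4 → ℕ) := by
    have h0 := (hP 0).one_lt
    have h1 := (hP 1).one_lt
    have h2 := (hP 2).one_lt
    simp only [Matrix.cons_val_zero, Matrix.cons_val_one, Matrix.cons_val] at h0 h1 h2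
    intro i j hij
    fin_cases i <;> fin_cases j <;> first | rfl | (simp at hij; omega)
  have hsurj : ∀ g : G, ∃ i, ∃ α : MulAut G, α (rep i) = g := by
    let f : Fin 4 → MulAction.orbitRel.Quotient (MulAut G) G :=
      fun i => Quotient.mk (MulAction.orbitRel (MulAut G) G) (rep i)
    have hinj : Function.Injective f := by
      intro i j hij
      obtain ⟨α, hα⟩ := MulAction.orbitRel_apply.mp (Quotient.exact hij)
      have ho := MulEquiv.orderOf_eq α (rep j)
      rw [show α (rep j) = rep i from hα, hrep, hrep] at ho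
      exact hvinj ho
    intro g
    obtain ⟨i, hi⟩ := (hinj.bijective_of_nat_card_le (by rw [h4, Nat.card_fin])).2
      (Quotient.mk (MulAction.orbitRel (MulAut G) G) g)
    obtain ⟨α, hα⟩ := MulAction.orbitRel_apply.mp (Quotient.exact hi.symm)
    exact ⟨i, α, hα⟩
  have hpr : ∀ g : G, g ≠ 1 → (orderOf g).Prime := by
    intro g hg
    obtain ⟨i, α, rfl⟩ := hsurj g
    rw [MulEquiv.orderOf_eq, hrep]
    induction i using Fin.cases with
    | zero => simp [rep] at hg
    | succ j => simpa using hP j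
  have htr : ∀ g h : G, orderOf g = orderOf h → ∃ α : MulAut G, α g = h := by
    intro g h hgh
    obtain ⟨i, α, rfl⟩ := hsurj g
    obtain ⟨j, β, rfl⟩ := hsurj h
    rw [MulEquiv.orderOf_eq, MulEquiv.orderOf_eq, hrep, hrep] at hgh
    obtain rfl := hvinj hgh
    exact ⟨β * α⁻¹, by simp⟩
  refine ⟨?_, hpr, htr⟩
  have hπ : π ⊆ s := fun t ht => by
    have := Fact.mk (Nat.prime_of_mem_primeFactors ht)
    obtain ⟨g, hg⟩ := exists_prime_orderOf_dvd_card' (G := G) t (Nat.dvd_of_mem_primeFactors ht)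
    obtain ⟨i, α, rfl⟩ := hsurj g
    rw [MulEquiv.orderOf_eq, hrep] at hg
    induction i using Fin.cases with
    | zero =>
      rw [Fin.cons_zero] at hg
      exact absurd hg.symm (Nat.prime_of_mem_primeFactors ht).ne_one
    | succ j =>
      rw [Fin.cons_succ] at hg
      rw [hs', ← hg]; fin_cases j <;> simp
  exact (le_antisymm (Finset.card_le_card hπ) (Finset.card_le_card hs)).trans hs3

theorem isSimpleGroup_of_orbits {G : Type*} [Group G] [Finite G] (hns : ¬ Group.IsSolvable G)
    (h3 : (Nat.card G).primeFactors.card = 3) (hpr : ∀ g : G, g ≠ 1 → (orderOf g).Prime)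
    (htr : ∀ g h : G, orderOf g = orderOf h → ∃ α : MulAut G, α g = h) : IsSimpleGroup G := by
  classical
  have hG0 : Nat.card G ≠ 0 := Nat.card_pos.ne'
  -- a nontrivial normal subgroup has all element orders
  have hfull : ∀ N : Subgroup G, N.Normal → N ≠ ⊥ →
      ∀ g : G, g ≠ 1 → ∃ n ∈ N, orderOf n = orderOf g := by
    intro N hN hNb
    by_contra hcon
    push Not at hcon
    obtain ⟨g, hg, hmiss⟩ := hcon
    set ρ := orderOf g with hρ
    obtain ⟨p, q, hp, hq, hsub⟩ : ∃ p q : ℕ, p.Prime ∧ q.Prime ∧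
        (Nat.card G).primeFactors.erase ρ ⊆ {p, q} := by
      have hρm : ρ ∈ (Nat.card G).primeFactors :=
        Nat.mem_primeFactors.mpr ⟨hpr g hg, orderOf_dvd_natCard g, hG0⟩
      obtain ⟨p, q, -, hpq⟩ := Finset.card_eq_two.mp
        (show ((Nat.card G).primeFactors.erase ρ).card = 2 by
          rw [Finset.card_erase_of_mem hρm, h3])
      have hm : ∀ t ∈ ({p, q} : Finset ℕ), t.Prime := fun t ht =>
        Nat.prime_of_mem_primeFactors (Finset.mem_of_mem_erase (hpq ▸ ht))
      exact ⟨p, q, hm p (by simp), hm q (by simp), hpq.le⟩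
    have hNsolv : Group.IsSolvable N := by
      refine isSolvable_of_primeFactors hp hq fun t ht => hsub ?_
      obtain ⟨htp, htd, -⟩ := Nat.mem_primeFactors.mp ht
      refine Finset.mem_erase.mpr ⟨fun htr' => ?_,
        Nat.mem_primeFactors.mpr ⟨htp, htd.trans (card_subgroup_dvd_card N), hG0⟩⟩
      have := Fact.mk htp
      obtain ⟨n, hn⟩ := exists_prime_orderOf_dvd_card' (G := N) t htd
      exact hmiss n n.2 (by rw [Subgroup.orderOf_coe, hn, htr'])
    -- a nontrivial abelian normal subgroup is a group of prime exponent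
    obtain ⟨A, hA, hAb, hAc⟩ := exists_abelian_normal N hNb
    obtain ⟨a, haA, ha⟩ := (A.bot_or_exists_ne_one).resolve_left hAb
    have hp' := hpr a ha
    have := Fact.mk hp'
    have hAp : IsPGroup (orderOf a) A := by
      intro x
      refine ⟨1, Subtype.ext ?_⟩
      by_cases hx : (x : G) = 1
      · simp [hx]
      · rw [pow_one, Subgroup.coe_pow, Subgroup.coe_one,
          orderOf_eq_of_commute hpr ha hx (hAc a haA x x.2), pow_orderOf_eq_one]
    -- the whole orbit of that order lies in the core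
    have hcore : ∀ x : G, orderOf x = orderOf a → x ∈ Cfsg.pCore (orderOf a) G := by
      intro x hx
      obtain ⟨α, rfl⟩ := htr a x hx.symm
      haveI := hA
      have hn : (A.map α.toMonoidHom).Normal := hA.map _ α.surjective
      exact CfsgLib.Cores.le_pCore (hN := hn) (hAp.map α.toMonoidHom) ⟨a, haA, rfl⟩
    set R := Cfsg.pCore (orderOf a) G
    have hRn : R.Normal := inferInstance
    have hRsol : Group.IsSolvable R := by
      haveI : Group.IsNilpotent R := (CfsgLib.Cores.isPGroup_pCore _ G).isNilpotent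
      infer_instance
    apply hns
    haveI : Group.IsSolvable (G ⧸ R) := by
      have hρm : orderOf a ∈ (Nat.card G).primeFactors :=
        Nat.mem_primeFactors.mpr ⟨hp', orderOf_dvd_natCard a, hG0⟩
      obtain ⟨p, q, -, hpq⟩ := Finset.card_eq_two.mp
        (show ((Nat.card G).primeFactors.erase (orderOf a)).card = 2 by
          rw [Finset.card_erase_of_mem hρm, h3])
      have hm : ∀ t ∈ ({p, q} : Finset ℕ), t.Prime := fun t ht =>
        Nat.prime_of_mem_primeFactors (Finset.mem_of_mem_erase (hpq ▸ ht))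
      refine isSolvable_of_primeFactors (hm p (by simp)) (hm q (by simp)) fun t ht => hpq ▸ ?_
      obtain ⟨htp, htd, -⟩ := Nat.mem_primeFactors.mp ht
      refine Finset.mem_erase.mpr ⟨fun hta => ?_,
        Nat.mem_primeFactors.mpr ⟨htp, htd.trans (card_quotient_dvd_card R), hG0⟩⟩
      have := Fact.mk htp
      obtain ⟨y, hy⟩ := exists_prime_orderOf_dvd_card' (G := G ⧸ R) t htd
      induction y using QuotientGroup.induction_on with
      | _ z =>
      have hz1 : z ≠ 1 := fun h => htp.ne_one (by rw [← hy, h, QuotientGroup.mk_one, orderOf_one])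
      have hd : t ∣ orderOf z := hy ▸ orderOf_map_dvd (QuotientGroup.mk' R) z
      have hz := (Nat.prime_dvd_prime_iff_eq htp (hpr z hz1)).mp hd
      refine htp.ne_one ?_
      rw [← hy, (QuotientGroup.eq_one_iff z).mpr (hcore z (by rw [← hz, hta])), orderOf_one]
    exact Group.isSolvable_iff_subgroup_quotient R |>.mpr ⟨hRsol, inferInstance⟩
  -- two nontrivial normal subgroups meet nontrivially
  have hmeet : ∀ N M : Subgroup G, N.Normal → M.Normal → N ≠ ⊥ → M ≠ ⊥ → N ⊓ M ≠ ⊥ := by
    intro N M hN hM hNb hMb hbot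
    obtain ⟨m, hm, hm1⟩ := (M.bot_or_exists_ne_one).resolve_left hMb
    obtain ⟨t, ht⟩ : ∃ t : G, t ≠ 1 ∧ orderOf t ≠ orderOf m := by
      have : 0 < ((Nat.card G).primeFactors.erase (orderOf m)).card := by
        rw [Finset.card_erase_of_mem
          (Nat.mem_primeFactors.mpr ⟨hpr m hm1, orderOf_dvd_natCard m, hG0⟩), h3]
        norm_num
      obtain ⟨s, hs⟩ := Finset.card_pos.mp this
      obtain ⟨hne, hs⟩ := Finset.mem_erase.mp hs
      have := Fact.mk (Nat.prime_of_mem_primeFactors hs)
      obtain ⟨t, ht⟩ := exists_prime_orderOf_dvd_card' (G := G) s (Nat.dvd_of_mem_primeFactors hs)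
      exact ⟨t, fun h => (Nat.prime_of_mem_primeFactors hs).ne_one (by rw [← ht, h, orderOf_one]),
        ht ▸ hne⟩
    obtain ⟨n, hn, hno⟩ := hfull N hN hNb t ht.1
    have hn1 : n ≠ 1 := fun h => ht.1 (orderOf_eq_one_iff.mp (by rw [← hno, h, orderOf_one]))
    have hc := Subgroup.commute_of_normal_of_disjoint N M hN hM (disjoint_iff.mpr hbot) n m hn hm
    exact ht.2 (hno ▸ orderOf_eq_of_commute hpr hn1 hm1 hc)
  haveI : Nontrivial G := by
    by_contra h
    rw [not_nontrivial_iff_subsingleton] at h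
    exact hns inferInstance
  refine { exists_pair_ne := Nontrivial.exists_pair_ne, eq_bot_or_eq_top_of_normal := fun M hM => ?_ }
  by_contra hcon
  push Not at hcon
  obtain ⟨hMb, hMt⟩ := hcon
  have : Nonempty {N : Subgroup G // N.Normal ∧ N ≠ ⊥} := ⟨⟨M, hM, hMb⟩⟩
  obtain ⟨⟨N, hN, hNb⟩, hmin⟩ := Finite.exists_min
    (fun N : {N : Subgroup G // N.Normal ∧ N ≠ ⊥} => Nat.card N.1)
  have hle : ∀ L : Subgroup G, L.Normal → L ≠ ⊥ → N ≤ L := by
    intro L hL hLb
    haveI := hN; haveI := hL
    have := Subgroup.eq_of_le_of_card_ge (inf_le_left : N ⊓ L ≤ N)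
      (hmin ⟨N ⊓ L, inferInstance, hmeet N L hN hL hNb hLb⟩)
    exact this ▸ inf_le_right
  refine hMt (eq_top_iff.mpr fun g _ => hle M hM hMb ?_)
  by_cases hg : g = 1
  · exact hg ▸ N.one_mem
  obtain ⟨n, hn, hno⟩ := hfull N hN hNb g hg
  obtain ⟨α, rfl⟩ := htr n g hno
  have hle' := hle (N.comap α.toMonoidHom) (hN.comap _) fun h => hNb (by
    have := congrArg (Subgroup.map α.toMonoidHom) h
    rwa [Subgroup.map_comap_eq_self_of_surjective α.surjective, Subgroup.map_bot] at this)
  exact hle' hn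

variable {F : Type} [Field F]

/-- In characteristic two without cube roots of unity, commuting elements of order three in `SL₂`
generate the same subgroup. -/
theorem eq_or_eq_sq_of_commute (h2 : (2 : F) = 0) (hcube : ∀ a : F, a ^ 3 = 1 → a = 1)
    {x y : SL(2, F)} (hx : x ^ 3 = 1) (hx1 : x ≠ 1) (hy : y ^ 3 = 1) (hy1 : y ≠ 1)
    (h : Commute x y) : y = x ∨ y = x ^ 2 := by
  have hM3 : (x : Matrix (Fin 2) (Fin 2) F) * x * x = 1 := by
    rw [← Matrix.SpecialLinearGroup.coe_mul, ← Matrix.SpecialLinearGroup.coe_mul, ← pow_two,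
      ← pow_succ, hx, Matrix.SpecialLinearGroup.coe_one]
  have hN3 : (y : Matrix (Fin 2) (Fin 2) F) * y * y = 1 := by
    rw [← Matrix.SpecialLinearGroup.coe_mul, ← Matrix.SpecialLinearGroup.coe_mul, ← pow_two,
      ← pow_succ, hy, Matrix.SpecialLinearGroup.coe_one]
  rw [pow_two]
  have hMN : (x : Matrix (Fin 2) (Fin 2) F) * y = y * x := congrArg Subtype.val h
  have hxx : ((x * x : SL(2, F)) : Matrix (Fin 2) (Fin 2) F) = x * x :=
    Matrix.SpecialLinearGroup.coe_mul x x
  have hM1 : (x : Matrix (Fin 2) (Fin 2) F) ≠ 1 := fun h => hx1 (Subtype.ext h)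
  have hN1 : (y : Matrix (Fin 2) (Fin 2) F) ≠ 1 := fun h => hy1 (Subtype.ext h)
  generalize hz : x * x = z at hxx ⊢
  obtain ⟨M, hMdet⟩ := x
  obtain ⟨N, hNdet⟩ := y
  have e2 : ∀ a : F, a + a = 0 := fun a => by linear_combination a * h2
  have ch : ∀ K : Matrix (Fin 2) (Fin 2) F, K.det = 1 → K * K * K = 1 → K ≠ 1 →
      K 0 0 + K 1 1 = 1 ∧ K 0 1 ≠ 0 := by
    intro K hd hK3 hK1
    rw [Matrix.det_fin_two] at hd
    have e00 := congrFun (congrFun hK3 0) 0
    have e01 := congrFun (congrFun hK3 0) 1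
    have e10 := congrFun (congrFun hK3 1) 0
    have e11 := congrFun (congrFun hK3 1) 1
    simp only [Matrix.mul_apply, Fin.sum_univ_two, Matrix.one_apply_eq,
      Matrix.one_apply_ne (show (0 : Fin 2) ≠ 1 by decide),
      Matrix.one_apply_ne (show (1 : Fin 2) ≠ 0 by decide)] at e00 e01 e10 e11
    set b := K 0 0 + K 1 1 with hb
    have hb01 : K 0 1 * (b * b + 1) = 0 := by
      linear_combination e01 + K 0 1 * hd + (K 0 1) * h2
    have hbne : K 0 1 = 0 → False := by
      intro h01
      rw [h01] at hd e00 e10 e11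
      have ha := hcube (K 0 0) (by linear_combination e00)
      have hd' : K 1 1 = 1 := by rw [ha] at hd; linear_combination hd
      rw [ha, hd'] at e10
      apply hK1
      ext i j
      fin_cases i <;> fin_cases j <;> simp [ha, hd', h01]
      linear_combination e10 - K 1 0 * h2
    refine ⟨?_, fun h01 => hbne h01⟩
    have := (mul_eq_zero.mp hb01).resolve_left fun h01 => hbne h01
    have hsq : (b + 1) * (b + 1) = 0 := by linear_combination this + b * h2
    linear_combination (mul_self_eq_zero.mp hsq) - h2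
  obtain ⟨hMt, hM01⟩ := ch M hMdet hM3 hM1
  obtain ⟨hNt, -⟩ := ch N hNdet hN3 hN1
  have c00 := congrFun (congrFun hMN 0) 0
  have c01 := congrFun (congrFun hMN 0) 1
  simp only [Matrix.mul_apply, Fin.sum_univ_two] at c00 c01
  obtain ⟨c, hc⟩ : ∃ c, N 0 1 = c * M 0 1 := ⟨N 0 1 / M 0 1, (div_mul_cancel₀ _ hM01).symm⟩
  set a := N 0 0 - c * M 0 0 with ha
  have h00 : N 0 0 = a + c * M 0 0 := by rw [ha]; ring
  have h10 : N 1 0 = c * M 1 0 := by
    refine mul_left_cancel₀ hM01 ?_
    rw [hc] at c00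
    linear_combination c00
  have h11 : N 1 1 = a + c * M 1 1 := by
    refine mul_left_cancel₀ hM01 ?_
    rw [hc] at c01
    linear_combination c01 + M 0 1 * h00
  have hc1 : c = 1 := by
    linear_combination hNt - h00 - h11 - c * hMt - a * h2
  subst hc1
  rw [Matrix.det_fin_two, h00, h11, hc, h10] at hNdet
  rw [Matrix.det_fin_two] at hMdet
  have ha2 : a * (a + 1) = 0 := by linear_combination hNdet - hMdet - a * hMt
  rcases mul_eq_zero.mp ha2 with h0 | h0
  · left
    refine Subtype.ext ?_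
    ext i j
    fin_cases i <;> fin_cases j <;> simp [h00, h11, hc, h10, h0]
  · right
    refine Subtype.ext ?_
    rw [hxx]
    dsimp only
    ext i j
    fin_cases i <;> fin_cases j <;>
      simp [Matrix.mul_apply, Fin.sum_univ_two, h00, h11, hc, h10]
    · linear_combination h0 + hMdet - M 0 0 * hMt
    · linear_combination (-(M 0 1)) * hMt
    · linear_combination (-(M 1 0)) * hMt
    · linear_combination h0 + hMdet - M 1 1 * hMt

theorem card_field_eq_four [Fintype F] (h2 : (2 : F) = 0) (hq : 4 ≤ Nat.card F)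
    (hpr : ∀ x : SL(2, F), x ≠ 1 → (orderOf x).Prime)
    (h3 : (Nat.card SL(2, F)).primeFactors.card = 3) : Nat.card F = 4 := by
  classical
  haveI : CharP F 2 := CharTwo.of_one_ne_zero_of_two_eq_zero one_ne_zero h2
  obtain ⟨n, -, hn⟩ := FiniteField.card F 2
  rw [← Nat.card_eq_fintype_card] at hn
  set q := Nat.card F with hqdef
  -- the split torus
  have hp : (q - 1).Prime := by
    obtain ⟨u, hu⟩ := IsCyclic.exists_generator (α := Fˣ)
    let φ : Fˣ →* SL(2, F) := MonoidHom.mk'
      (fun v => ⟨!![(v : F), 0; 0, ((v⁻¹ : Fˣ) : F)], by simp [Matrix.det_fin_two]⟩)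
      (fun v w => Subtype.ext (by
        show !![((v * w : Fˣ) : F), 0; 0, (((v * w)⁻¹ : Fˣ) : F)] =
          !![(v : F), 0; 0, ((v⁻¹ : Fˣ) : F)] * !![(w : F), 0; 0, ((w⁻¹ : Fˣ) : F)]
        simp [mul_comm]))
    have hinj : Function.Injective φ := fun v w h => Units.ext (by
      have := congrFun (congrFun (congrArg Subtype.val h) 0) 0
      exact this)
    have ho : orderOf u = q - 1 := by
      rw [orderOf_eq_card_of_forall_mem_zpowers hu, Nat.card_units]
    have := hpr (φ u) fun h => by
      have := orderOf_injective φ hinj u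
      rw [h, orderOf_one, ho] at this; omega
    rwa [orderOf_injective φ hinj u, ho] at this
  have hd : 2 ∣ q := hn ▸ dvd_pow_self 2 n.pos.ne'
  by_cases hp3 : q - 1 = 3
  · omega
  exfalso
  have hcard : Nat.card SL(2, F) = q * (q - 1) * (q + 1) := by
    rw [CfsgLib.SL2.card_SL, mul_assoc]
    congr 1
    rw [mul_comm, ← Nat.sq_sub_sq, one_pow]
  have h3q1 : ¬ 3 ∣ q - 1 := fun h => hp3 ((Nat.prime_dvd_prime_iff_eq Nat.prime_three hp).mp h).symm
  have h3q : ¬ 3 ∣ q := fun h => by
    have := (Nat.prime_dvd_prime_iff_eq Nat.prime_three Nat.prime_two).mp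
      (Nat.prime_three.dvd_of_dvd_pow (hn ▸ h))
    omega
  have h3q2 : 3 ∣ q + 1 := by
    rw [Nat.dvd_iff_mod_eq_zero] at h3q1 h3q ⊢
    rcases (show q % 3 = 1 ∨ q % 3 = 2 by omega) with h | h
    · exact absurd (by omega) h3q1
    · omega
  have hcube : ∀ a : F, a ^ 3 = 1 → a = 1 := by
    intro a ha
    have ha0 : a ≠ 0 := fun h => by simp [h] at ha
    set v : Fˣ := Units.mk0 a ha0
    have hv : v ^ 3 = 1 := Units.ext (by simp [v, ha])
    have h1 := orderOf_dvd_of_pow_eq_one hv
    rcases (Nat.dvd_prime Nat.prime_three).mp h1 with h | h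
    · simpa [v] using congrArg Units.val (orderOf_eq_one_iff.mp h)
    · have h2 := orderOf_dvd_natCard v
      rw [h, Nat.card_units] at h2
      exact absurd h2 h3q1
  have hG0 : Nat.card SL(2, F) ≠ 0 := Nat.card_pos.ne'
  -- the third prime is three
  have hsub : (Nat.card SL(2, F)).primeFactors = {2, q - 1, 3} := by
    symm
    refine Finset.eq_of_subset_of_card_le ?_ (le_of_eq ?_)
    · intro t ht
      simp only [Finset.mem_insert, Finset.mem_singleton] at ht
      refine Nat.mem_primeFactors.mpr ⟨?_, ?_, hG0⟩ <;> rcases ht with rfl | rfl | rfl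
      · exact Nat.prime_two
      · exact hp
      · exact Nat.prime_three
      · rw [hcard]; exact (hd.mul_right _).mul_right _
      · rw [hcard]; exact (dvd_mul_left _ _).mul_right _
      · rw [hcard]; exact h3q2.mul_left _
    · rw [h3, Finset.card_eq_three.mpr ⟨2, q - 1, 3, by omega, by omega, hp3, rfl⟩]
  have hpow : ∀ t : ℕ, t.Prime → t ∣ q + 1 → t = 3 := by
    intro t ht htd
    have hm : t ∈ (Nat.card SL(2, F)).primeFactors :=
      Nat.mem_primeFactors.mpr ⟨ht, by rw [hcard]; exact htd.mul_left _, hG0⟩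
    simp only [hsub, Finset.mem_insert, Finset.mem_singleton] at hm
    rcases hm with rfl | rfl | rfl
    · omega
    · have : q - 1 ∣ (q + 1) - (q - 1) := Nat.dvd_sub htd dvd_rfl
      rw [show q + 1 - (q - 1) = 2 by omega] at this
      have := Nat.le_of_dvd (by norm_num) this
      omega
    · rfl
  have : Fact (Nat.Prime 3) := ⟨Nat.prime_three⟩
  obtain ⟨b, hb⟩ : ∃ b, q + 1 = 3 ^ b :=
    ⟨_, Nat.eq_prime_pow_of_unique_prime_dvd (by omega) fun hd hdvd => hpow _ hd hdvd⟩
  obtain ⟨P⟩ : Nonempty (Sylow 3 SL(2, F)) := inferInstance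
  have hbP : q + 1 ≤ Nat.card P := by
    have h1 : 3 ^ b ∣ Nat.card SL(2, F) := by rw [hcard, ← hb]; exact dvd_mul_left _ _
    rw [hb, P.card_eq_multiplicity]
    exact Nat.le_of_dvd (pow_pos (by norm_num) _) (pow_dvd_pow 3
      ((Nat.prime_three.pow_dvd_iff_le_factorization hG0).mp h1))
  haveI : Nontrivial (P : Subgroup SL(2, F)) := Finite.one_lt_card_iff_nontrivial.mp (by
    have : (1 : ℕ) < q + 1 := by omega
    exact this.trans_le hbP)
  haveI := P.2.center_nontrivial
  obtain ⟨z, hz⟩ := exists_ne (1 : Subgroup.center (P : Subgroup SL(2, F)))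
  set x : SL(2, F) := ((z : (P : Subgroup SL(2, F))) : SL(2, F))
  have h3o : ∀ y ∈ (P : Subgroup SL(2, F)), y ^ 3 = 1 := by
    intro y hy
    by_cases hy1 : y = 1
    · simp [hy1]
    obtain ⟨k, hk⟩ := P.2 ⟨y, hy⟩
    have hd' := orderOf_dvd_of_pow_eq_one (congrArg Subtype.val hk : y ^ 3 ^ k = 1)
    have ho := (Nat.prime_dvd_prime_iff_eq (hpr y hy1) Nat.prime_three).mp
      ((hpr y hy1).dvd_of_dvd_pow hd')
    rw [← ho, pow_orderOf_eq_one]
  have hsubset : ((P : Subgroup SL(2, F)) : Set SL(2, F)) ⊆ ({1, x, x ^ 2} : Finset SL(2, F)) := by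
    intro y hy
    simp only [Finset.coe_insert, Finset.coe_singleton, Set.mem_insert_iff, Set.mem_singleton_iff]
    by_cases hy1 : y = 1
    · exact Or.inl hy1
    refine Or.inr (eq_or_eq_sq_of_commute h2 hcube (h3o x (z : (P : Subgroup SL(2, F))).2)
      (fun h => hz (Subtype.ext (Subtype.ext h))) (h3o y hy) hy1 ?_)
    exact (congrArg Subtype.val (Subgroup.mem_center_iff.mp z.2 ⟨y, hy⟩)).symm
  have := Set.ncard_le_ncard hsubset
  rw [Set.ncard_coe_finset, ← Nat.card_coe_set_eq] at this
  have h3le : ({1, x, x ^ 2} : Finset SL(2, F)).card ≤ 3 := Finset.card_le_three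
  have : Nat.card P ≤ 3 := this.trans h3le
  omega

/-- A finite non-solvable group on which its automorphism group has exactly four orbits is isomorphic to the alternating group of degree 5. -/
theorem result {G : Type*} [Group G] [Finite G] (hns : ¬ Group.IsSolvable G)
    (h4 : Nat.card (MulAction.orbitRel.Quotient (MulAut G) G) = 4) : Nonempty (G ≃* alternatingGroup (Fin 5)) := by
  classical
  obtain ⟨h3, hpr, htr⟩ := orbits_of_four hns h4
  haveI := isSimpleGroup_of_orbits hns h3 hpr htr
  have hG0 : Nat.card G ≠ 0 := Nat.card_pos.ne'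
  haveI : Fact (Nat.Prime 2) := ⟨Nat.prime_two⟩
  -- the order is even
  have heven : 2 ∣ Nat.card G := by
    by_contra hodd
    refine hns (Cfsg.Agent.S0183.result ((Nat.not_even_iff_odd).mp fun h => hodd h.two_dvd) ?_)
    intro g hg
    have := Fact.mk (hpr g hg)
    refine IsPGroup.isNilpotent (p := orderOf g) fun x => ⟨1, Subtype.ext ?_⟩
    by_cases hx : (x : G) = 1
    · simp [hx]
    · rw [pow_one, Subgroup.coe_pow, Subgroup.coe_one, orderOf_eq_of_commute hpr hg hx
        (Subgroup.mem_centralizer_singleton_iff.mp x.2).symm, pow_orderOf_eq_one]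
  obtain ⟨T⟩ : Nonempty (Sylow 2 G) := inferInstance
  have hTb : (T : Subgroup G) ≠ ⊥ := T.ne_bot_of_dvd_card heven
  have hsq : ∀ t ∈ (T : Subgroup G), t ^ 2 = 1 := by
    intro y hy
    by_cases hy1 : y = 1
    · simp [hy1]
    obtain ⟨k, hk⟩ := T.2 ⟨y, hy⟩
    have hd' := orderOf_dvd_of_pow_eq_one (congrArg Subtype.val hk : y ^ 2 ^ k = 1)
    have ho := (Nat.prime_dvd_prime_iff_eq (hpr y hy1) Nat.prime_two).mp
      ((hpr y hy1).dvd_of_dvd_pow hd')
    rw [← ho, pow_orderOf_eq_one]
  have hC : ∀ t : G, orderOf t = 2 → IsMulCommutative (Subgroup.centralizer ({t} : Set G)) ∧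
      ∀ c ∈ Subgroup.centralizer ({t} : Set G), c ^ 2 = 1 := by
    intro t ht
    have ht1 : t ≠ 1 := fun h => by simp [h] at ht
    have key : ∀ c ∈ Subgroup.centralizer ({t} : Set G), c ^ 2 = 1 := by
      intro c hc
      by_cases hc1 : c = 1
      · simp [hc1]
      rw [← ht, orderOf_eq_of_commute hpr ht1 hc1
        (Subgroup.mem_centralizer_singleton_iff.mp hc).symm, pow_orderOf_eq_one]
    refine ⟨⟨⟨fun x y => Subtype.ext ?_⟩⟩, key⟩
    have hinv : ∀ z ∈ Subgroup.centralizer ({t} : Set G), z⁻¹ = z := fun z hz =>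
      inv_eq_of_mul_eq_one_right (by rw [← pow_two, key z hz])
    show (x : G) * y = y * x
    calc (x : G) * y = ((x : G) * y)⁻¹ := (hinv _ (mul_mem x.2 y.2)).symm
      _ = _ := by rw [_root_.mul_inv_rev, hinv _ x.2, hinv _ y.2]
  have hnn : ¬ (T : Subgroup G).Normal := by
    intro hn
    rcases hn.eq_bot_or_eq_top with h | h
    · exact hTb h
    · apply hns
      haveI : Group.IsNilpotent (T : Subgroup G) := T.2.isNilpotent
      exact Group.isSolvable_of_surjective (f := (((MulEquiv.subgroupCongr h).trans Subgroup.topEquiv) : (T : Subgroup G) ≃* G).toMonoidHom) (MulEquiv.surjective _)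
  have hnc : ¬ IsCyclic (T : Subgroup G) := by
    intro hcyc
    have hmin : (Nat.card G).minFac = 2 := (Nat.minFac_eq_two_iff _).mpr heven
    have hker := MonoidHom.ker_transferSylow_isComplement' T (hcyc.normalizer_le_centralizer hmin)
    rcases (MonoidHom.normal_ker (MonoidHom.transferSylow T _)).eq_bot_or_eq_top with h | h
    · rw [h] at hker
      exact hnn (by rw [show (T : Subgroup G) = ⊤ from Subgroup.isComplement'_bot_left.mp hker]; infer_instance)
    · rw [h] at hker
      exact hTb (Subgroup.isComplement'_top_left.mp hker)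
  obtain ⟨F, _, _, hcardF, h2, ⟨e⟩⟩ :=
    CfsgLib.TwoFusion.ElemCentHyp.exists_mulEquiv_SL2 (T := T) ⟨hnc, hnn, hC⟩
  have hq : 4 ≤ Nat.card F := by
    rw [Nat.card_eq_fintype_card, hcardF]
    obtain ⟨n, hn⟩ := T.2.exists_card_eq
    rcases n with _ | _ | n
    · exact absurd ((Subgroup.eq_bot_iff_card _).mpr (by simpa using hn)) hTb
    · exact absurd (isCyclic_of_prime_card (p := 2) (by simpa using hn)) hnc
    · rw [hn, pow_add]
      have := Nat.one_le_two_pow (n := n)
      rw [pow_add] at *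
      omega
  have h4' := card_field_eq_four h2 hq (fun x hx => by
      rw [← MulEquiv.orderOf_eq e.symm x]
      exact hpr _ fun h => hx (by simpa using congrArg e h))
    (by rw [← Nat.card_congr e.toEquiv]; exact h3)
  exact Cfsg.Agent.S0494.result (by
    rw [Nat.card_congr e.toEquiv, CfsgLib.SL2.card_SL, h4']
    norm_num)

end Cfsg.Agent.S4068
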