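import Cfsg.Statements.S4071
import Mathlib
import Cfsg.Agent.Lib.CoprimeAction.Abelian

set_option autoImplicit false
open Cfsg
open scoped commutatorElement
set_option linter.style.haveILetI false

namespace Cfsg.Agent.S4071


open CfsgLib.CoprimeAction

variable {G : Type*} [Group G] [Finite G]

theorem forward [Group.IsSolvable G] (hnn : ¬ Group.IsNilpotent G)
    (h : ∀ H : Subgroup G, ¬ IsMulCommutative H → Subgroup.normalizer (H : Set G) = H) :
    ∃ (x : G) (A : Subgroup G) (p : ℕ), p.Prime ∧ A.Normal ∧ IsMulCommutative A ∧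
      (∃ k : ℕ, orderOf x = p ^ k) ∧
      ¬ p ∣ Nat.card A ∧ (Subgroup.zpowers x).IsComplement' A ∧ x ^ p ∈ Subgroup.center G ∧
      ∀ a : G, a ∈ A → a ≠ 1 → x * a * x⁻¹ ≠ a := by
  haveI : Nontrivial G := by
    by_contra hn
    rw [not_nontrivial_iff_subsingleton] at hn
    exact hnn inferInstance
  obtain ⟨M, hMc, hGM⟩ := (IsCoatomic.eq_top_or_exists_le_coatom (commutator G)).resolve_left
    (Group.IsSolvable.commutator_lt_top_of_nontrivial G).ne
  have hMn : M.Normal := ⟨fun m hm g => by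
    have : ⁅g, m⁆ ∈ M := hGM (Subgroup.commutator_mem_commutator trivial trivial)
    simpa [commutatorElement_def, mul_assoc] using M.mul_mem this hm⟩
  have hMab : IsMulCommutative M := by
    by_contra hc
    have := h M hc
    rw [Subgroup.normalizer_eq_top] at this
    exact hMc.ne_top this.symm
  have hMcomm : ∀ a ∈ M, ∀ b ∈ M, a * b = b * a := fun a ha b hb =>
    congrArg Subtype.val (mul_comm' (⟨a, ha⟩ : M) ⟨b, hb⟩)
  have hgen : ∀ g : G, g ∉ M → M ⊔ Subgroup.zpowers g = ⊤ := fun g hg =>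
    hMc.2 _ (left_lt_sup.mpr fun hle => hg (hle (Subgroup.mem_zpowers g)))
  obtain ⟨p, hp, hpdvd⟩ := Nat.exists_prime_and_dvd (mt Subgroup.index_eq_one.mp hMc.ne_top)
  haveI := Fact.mk hp
  have hidx : M.index = p := by
    obtain ⟨y, hy⟩ := exists_prime_orderOf_dvd_card' (G := G ⧸ M) p (M.index_eq_card ▸ hpdvd)
    obtain ⟨g, rfl⟩ := QuotientGroup.mk'_surjective M y
    have hgM : g ∉ M := fun hg => by
      rw [QuotientGroup.mk'_apply, (QuotientGroup.eq_one_iff g).mpr hg, orderOf_one] at hy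
      exact hp.ne_one hy.symm
    have htop : (Subgroup.zpowers (QuotientGroup.mk' M g)) = ⊤ := by
      rw [← MonoidHom.map_zpowers, ← Subgroup.map_top_of_surjective _
        (QuotientGroup.mk'_surjective M), ← hgen g hgM, Subgroup.map_sup,
        QuotientGroup.map_mk'_self, bot_sup_eq]
    rw [M.index_eq_card, ← Subgroup.card_top, ← htop, Nat.card_zpowers, hy]
  have hpow : ∀ g : G, g ^ p ∈ M := fun g => hidx ▸ M.pow_index_mem g
  -- a `p`-element outside `M`
  obtain ⟨g, hgM⟩ := SetLike.exists_of_lt (lt_top_iff_ne_top.mpr hMc.ne_top) |>.imp fun _ h => h.2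
  set m := ordCompl[p] (orderOf g) with hm
  set x := g ^ m with hxdef
  have hmp : ¬ p ∣ m := Nat.not_dvd_ordCompl hp (orderOf_pos g).ne'
  have hxo : ∃ k : ℕ, orderOf x = p ^ k := by
    obtain ⟨k, -, hk⟩ := (Nat.dvd_prime_pow hp).mp
      (orderOf_dvd_of_pow_eq_one (x := x) (n := p ^ (orderOf g).factorization p) (by
        rw [hxdef, ← pow_mul, hm, mul_comm, Nat.ordProj_mul_ordCompl_eq_self, pow_orderOf_eq_one]))
    exact ⟨k, hk⟩
  have hxM : x ∉ M := fun hx => hgM (by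
    have h1 : (QuotientGroup.mk' M g) ^ m = 1 := by
      rw [← map_pow]; exact (QuotientGroup.eq_one_iff _).mpr hx
    have h2 : (QuotientGroup.mk' M g) ^ p = 1 := by
      rw [← map_pow]; exact (QuotientGroup.eq_one_iff _).mpr (hpow g)
    have h3 := pow_gcd_eq_one.mpr ⟨h1, h2⟩
    rw [Nat.Coprime.gcd_eq_one (((hp.coprime_iff_not_dvd).mpr hmp).symm), pow_one] at h3
    exact (QuotientGroup.eq_one_iff _).mp h3)
  have hcentral : ∀ z : G, (∀ a ∈ M, a * z = z * a) → x * z = z * x → z ∈ Subgroup.center G := by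
    intro z hzM hzx
    have hle : ⊤ ≤ Subgroup.centralizer ({z} : Set G) := by
      rw [← hgen x hxM]
      refine sup_le (fun a ha => ?_) (Subgroup.zpowers_le.mpr ?_) <;>
        rw [Subgroup.mem_centralizer_iff] <;> rintro _ rfl
      exacts [(hzM a ha).symm, hzx.symm]
    exact Subgroup.mem_center_iff.mpr fun w =>
      (Subgroup.mem_centralizer_iff.mp (hle trivial) z rfl).symm
  have hxp : x ^ p ∈ Subgroup.center G :=
    hcentral _ (fun a ha => hMcomm a ha _ (hpow x)) ((Commute.self_pow x p).eq)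
  -- the `p'`-part of `M`
  let A : Subgroup G :=
    { carrier := {a | a ∈ M ∧ (orderOf a).Coprime p}
      one_mem' := ⟨M.one_mem, by simp⟩
      mul_mem' := fun {a b} ha hb => ⟨M.mul_mem ha.1 hb.1,
        ((ha.2.mul_left hb.2)).coprime_dvd_left
          (show Commute a b from hMcomm a ha.1 b hb.1).orderOf_mul_dvd_mul_orderOf⟩
      inv_mem' := fun {a} ha => ⟨M.inv_mem ha.1, by rw [orderOf_inv]; exact ha.2⟩ }
  have hAM : A ≤ M := fun a ha => ha.1
  have hAn : A.Normal := ⟨fun a ha g => ⟨hMn.conj_mem a ha.1 g, by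
    have : orderOf (g * a * g⁻¹) = orderOf a := by
      simpa using (MulAut.conj g).orderOf_eq a
    rw [this]; exact ha.2⟩⟩
  haveI := hAn
  have hAab : IsMulCommutative A :=
    ⟨⟨fun a b => Subtype.ext (hMcomm a (hAM a.2) b (hAM b.2))⟩⟩
  haveI := hAab
  have hpA : ¬ p ∣ Nat.card A := fun hd => by
    obtain ⟨a, ha⟩ := exists_prime_orderOf_dvd_card' (G := A) p hd
    have := a.2.2
    rw [Subgroup.orderOf_coe, ha, Nat.coprime_self] at this
    exact hp.ne_one this
  have hQ : IsPGroup p (G ⧸ A) := by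
    intro q
    obtain ⟨w, rfl⟩ := QuotientGroup.mk'_surjective A q
    refine ⟨(orderOf (w ^ p)).factorization p + 1, ?_⟩
    rw [← map_pow, pow_succ', pow_mul]
    refine (QuotientGroup.eq_one_iff _).mpr ⟨M.pow_mem (hpow w) _, ?_⟩
    rw [orderOf_pow' _ (pow_ne_zero _ hp.ne_zero),
      Nat.gcd_eq_right (Nat.ordProj_dvd (orderOf (w ^ p)) p)]
    exact ((hp.coprime_iff_not_dvd).mpr (Nat.not_dvd_ordCompl hp (orderOf_pos _).ne')).symm
  haveI : Group.IsNilpotent (G ⧸ A) := hQ.isNilpotent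
  -- `x` does not centralize `A`
  obtain ⟨a₀, ha₀, ha₀x⟩ : ∃ a ∈ A, x * a ≠ a * x := by
    by_contra hall
    push Not at hall
    have hle : A ≤ Subgroup.center G := fun a ha =>
      hcentral a (fun b hb => hMcomm b hb a (hAM ha)) (hall a ha)
    exact hnn (Subgroup.isNilpotent_of_ker_le_center (QuotientGroup.mk' A)
      (by rw [QuotientGroup.ker_mk']; exact hle))
  -- `A⟨x⟩ = G`
  set Z := Subgroup.zpowers x with hZ
  have hKnab : ¬ IsMulCommutative ↥(A ⊔ Z) := fun hc => ha₀x (congrArg Subtype.val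
    (mul_comm' (⟨x, Subgroup.mem_sup_right (Subgroup.mem_zpowers x)⟩ : ↥(A ⊔ Z))
      ⟨a₀, Subgroup.mem_sup_left ha₀⟩))
  have htop : A ⊔ Z = ⊤ := by
    by_contra hne
    set f := QuotientGroup.mk' A
    have hK : ((A ⊔ Z).map f).comap f = A ⊔ Z := by
      rw [Subgroup.comap_map_eq, QuotientGroup.ker_mk', sup_eq_left.mpr le_sup_left]
    have hlt : (A ⊔ Z).map f < ⊤ := lt_top_iff_ne_top.mpr fun ht => hne (by
      rw [← hK, ht, Subgroup.comap_top])
    have hlt2 := Group.normalizerCondition_of_isNilpotent _ hlt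
    obtain ⟨y, hy, hy'⟩ := SetLike.exists_of_lt hlt2
    obtain ⟨w, rfl⟩ := QuotientGroup.mk'_surjective A y
    have hw : w ∈ Subgroup.normalizer ((A ⊔ Z : Subgroup G) : Set G) := by
      rw [Subgroup.mem_normalizer_iff]
      intro z
      have := (Subgroup.mem_normalizer_iff.mp hy) (f z)
      rwa [← map_inv, ← map_mul, ← map_mul, ← Subgroup.mem_comap, ← Subgroup.mem_comap, hK] at this
    rw [h _ hKnab] at hw
    exact hy' (Subgroup.mem_map_of_mem f hw)
  have hZA : (Nat.card Z).Coprime (Nat.card A) := by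
    obtain ⟨k, hk⟩ := hxo
    rw [hZ, Nat.card_zpowers, hk]
    exact ((hp.coprime_iff_not_dvd).mpr hpA).pow_left k
  have hnZ : Z ≤ Subgroup.normalizer (A : Set G) := by
    rw [Subgroup.normalizer_eq_top]; exact le_top
  have hinf : Z ⊓ A = ⊥ := (Subgroup.disjoint_of_coprime_natCard hZA).eq_bot
  -- fixed point free
  set B := ⁅A, Z⁆ with hB
  have hBA : B ≤ A := commutator_le_left hnZ
  have hHnab : ¬ IsMulCommutative ↥(B ⊔ Z) := by
    intro hc
    have hBZ : ⁅B, Z⁆ = ⊥ := Subgroup.commutator_eq_bot_iff_le_centralizer.mpr fun b hb =>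
      Subgroup.mem_centralizer_iff.mpr fun z hz => congrArg Subtype.val
        (mul_comm' (⟨z, Subgroup.mem_sup_right hz⟩ : ↥(B ⊔ Z)) ⟨b, Subgroup.mem_sup_left hb⟩)
    rw [hB, commutator_commutator_eq hnZ hZA (Or.inr (isSolvable_of_isMulCommutative A)),
      Subgroup.commutator_eq_bot_iff_le_centralizer] at hBZ
    exact ha₀x (Subgroup.mem_centralizer_iff.mp (hBZ ha₀) x (Subgroup.mem_zpowers x))
  refine ⟨x, A, p, hp, hAn, hAab, hxo, hpA, ?_, hxp, fun a ha ha1 hfix => ha1 ?_⟩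
  · refine Subgroup.isComplement'_of_disjoint_and_mul_eq_univ (disjoint_iff.mpr hinf) ?_
    rw [← Subgroup.mul_normal, sup_comm, htop]
    rfl
  · have hax : a ∈ Subgroup.centralizer (Z : Set G) := by
      rw [hZ, Subgroup.zpowers_eq_closure, Subgroup.centralizer_closure,
        Subgroup.mem_centralizer_iff]
      rintro _ rfl
      exact mul_inv_eq_iff_eq_mul.mp hfix
    have han : a ∈ Subgroup.normalizer ((B ⊔ Z : Subgroup G) : Set G) := by
      refine Subgroup.centralizer_le_normalizer _ (?_ : a ∈ Subgroup.centralizer _)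
      have hle : B ⊔ Z ≤ Subgroup.centralizer ({a} : Set G) := sup_le
        (fun b hb => Subgroup.mem_centralizer_iff.mpr (by
          rintro _ rfl; exact hMcomm _ (hAM ha) _ (hAM (hBA hb))))
        (fun z hz => Subgroup.mem_centralizer_iff.mpr (by
          rintro _ rfl; exact (Subgroup.mem_centralizer_iff.mp hax z hz).symm))
      exact Subgroup.mem_centralizer_iff.mpr fun z hz =>
        (Subgroup.mem_centralizer_iff.mp (hle hz) a rfl).symm
    rw [h _ hHnab] at han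
    have han' : a ∈ ((B ⊔ Z : Subgroup G) : Set G) := han
    rw [Subgroup.coe_mul_of_right_le_normalizer_left B Z
      (le_sup_right.trans (sup_le_normalizer_commutator Z A))] at han'
    obtain ⟨b, hb, z, hz, rfl⟩ := han'
    have hzA : z ∈ Z ⊓ A := ⟨hz, by simpa using A.mul_mem (A.inv_mem (hBA hb)) ha⟩
    rw [hinf, Subgroup.mem_bot] at hzA
    subst hzA
    have : b * 1 ∈ (A ⊓ Subgroup.centralizer (Z : Set G)) ⊓ ⁅A, Z⁆ :=
      ⟨⟨ha, hax⟩, by rw [mul_one]; exact hb⟩
    rwa [inf_commutator_eq_bot hnZ hZA, Subgroup.mem_bot] at this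

theorem backward {x : G} {A : Subgroup G} {p : ℕ} (hp : p.Prime) [A.Normal] [IsMulCommutative A]
    (hxo : ∃ k : ℕ, orderOf x = p ^ k) (hc : (Subgroup.zpowers x).IsComplement' A)
    (hxp : x ^ p ∈ Subgroup.center G)
    (hfpf : ∀ a : G, a ∈ A → a ≠ 1 → x * a * x⁻¹ ≠ a)
    (H : Subgroup G) (hH : ¬ IsMulCommutative H) : Subgroup.normalizer (H : Set G) = H := by
  have hdec : ∀ g : G, ∃ (i : ℤ), ∃ a ∈ A, g = x ^ i * a := fun g => by
    obtain ⟨⟨⟨z, hz⟩, ⟨a, ha⟩⟩, hza⟩ := hc.2 g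
    obtain ⟨i, rfl⟩ := hz
    exact ⟨i, a, ha, hza.symm⟩
  have hAc : ∀ a ∈ A, ∀ b ∈ A, a * b = b * a := fun a ha b hb =>
    congrArg Subtype.val (mul_comm' (⟨a, ha⟩ : A) ⟨b, hb⟩)
  -- some element of `H` lies outside `A⟨x ^ p⟩`
  obtain ⟨i, a, ha, hg, hpi⟩ : ∃ (i : ℤ), ∃ a ∈ A, x ^ i * a ∈ H ∧ ¬ (p : ℤ) ∣ i := by
    by_contra hall
    push Not at hall
    refine hH ⟨⟨fun u v => Subtype.ext ?_⟩⟩
    obtain ⟨i, a, ha, hu⟩ := hdec u
    obtain ⟨j, b, hb, hv⟩ := hdec v
    obtain ⟨i', rfl⟩ := hall i a ha (hu ▸ u.2)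
    obtain ⟨j', rfl⟩ := hall j b hb (hv ▸ v.2)
    have hz : ∀ n : ℤ, x ^ ((p : ℤ) * n) ∈ Subgroup.center G := fun n => by
      rw [zpow_mul, zpow_natCast]; exact Subgroup.zpow_mem _ hxp n
    show (u : G) * v = v * u
    rw [hu, hv]
    have e1 := Subgroup.mem_center_iff.mp (hz i')
    have e2 := Subgroup.mem_center_iff.mp (hz j')
    have c1 : ∀ w, Commute (x ^ ((p : ℤ) * i')) w := fun w => (e1 w).symm
    have c2 : ∀ w, Commute w (x ^ ((p : ℤ) * j')) := fun w => e2 w
    exact (Commute.mul_left (c1 _) (Commute.mul_right (c2 a) (hAc a ha b hb))).eq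
  -- generators of `⟨x⟩` act fixed point freely
  have hxi : x ∈ Subgroup.zpowers (x ^ i) := by
    obtain ⟨k, hk⟩ := hxo
    have hcop : IsCoprime i ((p : ℤ) ^ k) :=
      (((Nat.prime_iff_prime_int.mp hp).coprime_iff_not_dvd.mpr hpi).symm).pow_right
    obtain ⟨s, t, hst⟩ := hcop
    refine ⟨s, ?_⟩
    show (x ^ i) ^ s = x
    have : ((p : ℤ) ^ k) = (orderOf x : ℤ) := by rw [hk]; push_cast; ring
    rw [← zpow_mul]
    calc x ^ (i * s) = x ^ (i * s) * x ^ ((orderOf x : ℤ) * t) := by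
          rw [zpow_mul x (orderOf x : ℤ) t, zpow_natCast, pow_orderOf_eq_one, one_zpow, mul_one]
      _ = x := by
          rw [← zpow_add, ← this, show i * s + (p : ℤ) ^ k * t = 1 by linarith, zpow_one]
  have hfix : ∀ b ∈ A, x ^ i * b = b * x ^ i → b = 1 := by
    intro b hb hbi
    by_contra hb1
    have : x ∈ Subgroup.centralizer ({b} : Set G) := (Subgroup.zpowers_le.mpr (by
      rw [Subgroup.mem_centralizer_iff]; rintro _ rfl; exact hbi.symm)) hxi
    have hxb := Subgroup.mem_centralizer_iff.mp this b rfl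
    exact hfpf b hb hb1 (by rw [← hxb, mul_inv_cancel_right])
  have hcm : ∀ (y : G), ∀ b ∈ A, ⁅b, y⁆ ∈ A := fun y b hb => by
    rw [show ⁅b, y⁆ = b * (y * b⁻¹ * y⁻¹) by simp [commutatorElement_def, mul_assoc]]
    exact A.mul_mem hb (Subgroup.Normal.conj_mem ‹_› _ (A.inv_mem hb) y)
  have hinj : ∀ y : G, (∀ b ∈ A, y * b = b * y → b = 1) → ∀ B : Subgroup G, B ≤ A →
      (∀ b ∈ B, ⁅b, y⁆ ∈ B) → ∀ c ∈ B, ∃ b ∈ B, ⁅b, y⁆ = c := by
    intro y hy B hBA hBy c hcB
    let φ : B → B := fun b => ⟨⁅(b : G), y⁆, hBy b b.2⟩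
    have hφ : Function.Injective φ := by
      intro b b' hbb
      have h' : ⁅(b : G), y⁆ = ⁅(b' : G), y⁆ := congrArg Subtype.val hbb
      have hm : (b' : G)⁻¹ * b ∈ A := A.mul_mem (A.inv_mem (hBA b'.2)) (hBA b.2)
      have : y * ((b' : G)⁻¹ * b) = (b' : G)⁻¹ * b * y := by
        simp only [commutatorElement_def] at h'
        have h2 : (b : G) * y * (b : G)⁻¹ = b' * y * (b' : G)⁻¹ := mul_right_cancel h'
        calc y * ((b' : G)⁻¹ * b) = (b' : G)⁻¹ * (b' * y * (b' : G)⁻¹) * b := by group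
          _ = _ := by rw [← h2]; group
      exact Subtype.ext (inv_mul_eq_one.mp (hy _ hm this)).symm
    obtain ⟨b, hb⟩ := (Finite.injective_iff_surjective.mp hφ) ⟨c, hcB⟩
    exact ⟨b, b.2, congrArg Subtype.val hb⟩
  obtain ⟨b, hb, hbeq⟩ := hinj (x ^ i) hfix A le_rfl (hcm _) (x ^ i * a * (x ^ i)⁻¹)
    (Subgroup.Normal.conj_mem ‹_› a ha _)
  have hbg : b * x ^ i * b⁻¹ = x ^ i * a := by
    rw [commutatorElement_def] at hbeq
    exact mul_right_cancel hbeq
  have hbx : b * x * b⁻¹ ∈ H := by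
    obtain ⟨s, hs⟩ := hxi
    have hs' : (x ^ i) ^ s = x := hs
    rw [← hs', ← conj_zpow, hbg]
    exact H.zpow_mem hg s
  set y := b * x * b⁻¹ with hy
  have hyfix : ∀ c ∈ A, y * c = c * y → c = 1 := by
    intro c hc hyc
    by_contra hc1
    refine hfpf c hc hc1 ?_
    have hbc : b⁻¹ * c * b = c := by rw [mul_assoc, hAc c hc b hb]; group
    calc x * c * x⁻¹ = b⁻¹ * (y * c * y⁻¹) * b := by
          rw [hy]; nth_rewrite 1 [← hbc]; group
      _ = c := by rw [hyc, mul_inv_cancel_right, hbc]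
  refine le_antisymm (fun n hn => ?_) Subgroup.le_normalizer
  obtain ⟨j, c, hc', hnc⟩ := hdec (b⁻¹ * n * b)
  have hn' : n = y ^ j * (b * c * b⁻¹) := by
    rw [hy, conj_zpow]
    calc n = b * (b⁻¹ * n * b) * b⁻¹ := by group
      _ = _ := by rw [hnc]; group
  have hbc : b * c * b⁻¹ = c := by rw [hAc b hb c hc', mul_inv_cancel_right]
  rw [hbc] at hn'
  have hcn : c ∈ Subgroup.normalizer (H : Set G) := by
    have : c = (y ^ j)⁻¹ * n := by rw [hn']; group
    rw [this]
    exact Subgroup.mul_mem _ (Subgroup.inv_mem _ (Subgroup.le_normalizer (H.zpow_mem hbx j))) hn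
  have hcH : ⁅c, y⁆ ∈ H ⊓ A :=
    ⟨H.mul_mem (CfsgLib.CoprimeAction.conj_mem hcn hbx) (H.inv_mem hbx), hcm y c hc'⟩
  obtain ⟨d, hd, hdeq⟩ := hinj y hyfix (H ⊓ A) inf_le_right
    (fun d hd => ⟨H.mul_mem (H.mul_mem (H.mul_mem hd.1 hbx) (H.inv_mem hd.1)) (H.inv_mem hbx),
      hcm y d hd.2⟩) _ hcH
  have hm : d⁻¹ * c ∈ A := A.mul_mem (A.inv_mem hd.2) hc'
  have : y * (d⁻¹ * c) = d⁻¹ * c * y := by
    simp only [commutatorElement_def] at hdeq
    have h2 : d * y * d⁻¹ = c * y * c⁻¹ := mul_right_cancel hdeq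
    calc y * (d⁻¹ * c) = d⁻¹ * (d * y * d⁻¹) * c := by group
      _ = _ := by rw [h2]; group
  have hdc : d = c := inv_mul_eq_one.mp (hyfix _ hm this)
  rw [hn']
  exact H.mul_mem (H.zpow_mem hbx j) (hdc ▸ hd.1)

/-- Let G be a finite solvable non-nilpotent group. Every non-abelian subgroup of G is self-normalizing if and only if G is a semidirect product ⟨x⟩ ⋉ A in which ⟨x⟩ is a p-group for some prime p, A is a normal abelian subgroup of order prime to p, x^p is central in G, and x acts fixed-point-freely on A (no non-identity element of A commutes with x). -/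
theorem result {G : Type*} [Group G] [Finite G]
    [Group.IsSolvable G] (hnn : ¬ Group.IsNilpotent G) :
    (∀ H : Subgroup G, ¬ IsMulCommutative H → Subgroup.normalizer (H : Set G) = H) ↔
    ∃ (x : G) (A : Subgroup G) (p : ℕ), p.Prime ∧ A.Normal ∧ IsMulCommutative A ∧ (∃ k : ℕ, orderOf x = p ^ k) ∧
      ¬ p ∣ Nat.card A ∧ (Subgroup.zpowers x).IsComplement' A ∧ x ^ p ∈ Subgroup.center G ∧
      ∀ a : G, a ∈ A → a ≠ 1 → x * a * x⁻¹ ≠ a := by
  constructor
  · exact forward hnn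
  · rintro ⟨x, A, p, hp, hAn, hAab, hxo, -, hc, hxp, hfpf⟩ H hH
    exact backward hp hxo hc hxp hfpf H hH

end Cfsg.Agent.S4071
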