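import Cfsg.Statements.S4072
import Mathlib
import Cfsg.Agent.Lib.Transfer.Abelian
import Cfsg.Agent.Lib.NormalPComplement.Frobenius
import Cfsg.Agent.Lib.Subnormal.Subnormalizer
-- import your own Cfsg.Agent.* helpers here

set_option autoImplicit false
open Cfsg

namespace Cfsg.Agent.S4072

open Subgroup
open scoped commutatorElement

/-- A perfect finite group has no proper normal subgroup with solvable quotient. -/
theorem eq_top_of_isSolvable_quotient {G : Type*} [Group G] [Finite G]
    (hperf : commutator G = ⊤) (N : Subgroup G) [N.Normal] (hs : Group.IsSolvable (G ⧸ N)) :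
    N = ⊤ := by
  by_contra hne
  have : Nontrivial (G ⧸ N) := by
    rw [← Finite.one_lt_card_iff_nontrivial, ← Subgroup.index_eq_card]
    exact Subgroup.one_lt_index_of_ne_top hne
  refine (Group.IsSolvable.commutator_lt_top_of_nontrivial (G ⧸ N)).ne ?_
  have h := congrArg (Subgroup.map (QuotientGroup.mk' N)) hperf
  rw [commutator_def, Subgroup.map_commutator,
    Subgroup.map_top_of_surjective _ (QuotientGroup.mk'_surjective N)] at h
  rw [commutator_def]
  exact h

theorem not_npc_of_perfect {G : Type*} [Group G] [Finite G] (hperf : commutator G = ⊤) {p : ℕ}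
    [hp : Fact p.Prime] (hpG : p ∣ Nat.card G) : ¬ Cfsg.HasNormalPComplement p G := by
  intro h
  have hq := CfsgLib.NormalPComplement.hasNormalPComplement_iff_isPGroup_quotient.mp h
  have := hq.isNilpotent
  have htop := eq_top_of_isSolvable_quotient hperf (Cfsg.pPrimeCore p G) inferInstance
  have hco := CfsgLib.Cores.card_pPrimeCore_coprime (G := G) p
  rw [htop, Subgroup.card_top] at hco
  exact hp.out.not_dvd_one (hco ▸ Nat.dvd_gcd hpG dvd_rfl)

theorem mem_centralizer_of_commutative {G : Type*} [Group G] {H : Subgroup G} (h : IsMulCommutative H)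
    {a b : G} (ha : a ∈ H) (hb : b ∈ H) : a * b = b * a :=
  congrArg Subtype.val (h.is_comm.comm ⟨a, ha⟩ ⟨b, hb⟩)

/-- A perfect group all whose non-abelian subgroups are self-normalizing has trivial centre. -/
theorem center_eq_bot {G : Type*} [Group G] [Finite G] (hperf : commutator G = ⊤)
    (hS : ∀ H : Subgroup G, ¬ IsMulCommutative H → normalizer (H : Set G) = H) :
    center G = ⊥ := by
  by_contra hne
  obtain ⟨p, hp, hpZ⟩ := Nat.exists_prime_and_dvd (fun h => hne (Subgroup.card_eq_one.mp h))
  have := Fact.mk hp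
  obtain ⟨z, hz⟩ := exists_prime_orderOf_dvd_card' (G := center G) p hpZ
  have hz1 : (z : G) ≠ 1 := fun h => by
    rw [← Subgroup.orderOf_coe, h, orderOf_one] at hz; exact hp.one_lt.ne hz
  have hzp : orderOf (z : G) = p := by rw [Subgroup.orderOf_coe, hz]
  have hpG : p ∣ Nat.card G := hzp ▸ orderOf_dvd_natCard _
  obtain ⟨P⟩ : Nonempty (Sylow p G) := inferInstance
  have hzP : ∀ Q : Sylow p G, (z : G) ∈ (Q : Subgroup G) := by
    intro Q
    refine CfsgLib.Cores.pCore_le_sylow Q ?_
    have hn : (zpowers (z : G)).Normal := ⟨fun n hn g => by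
      rw [Subgroup.mem_center_iff.mp (zpowers_le.mpr z.2 hn) g, mul_inv_cancel_right]
      exact hn⟩
    exact CfsgLib.Cores.le_pCore (IsPGroup.of_card (n := 1) (by rw [Nat.card_zpowers, hzp, pow_one]))
      (mem_zpowers _)
  by_cases hP : IsMulCommutative (P : Subgroup G)
  · have hres : Cfsg.pResidual p G = ⊤ := by
      have := CfsgLib.Transfer.pResidual_normal (G := G) (p := p)
      have := (CfsgLib.Transfer.isPGroup_quotient_pResidual (G := G) (p := p)).isNilpotent
      exact eq_top_of_isSolvable_quotient hperf _ inferInstance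
    have h1 := CfsgLib.Transfer.abelian_inf_pResidual P hP
    rw [hres, inf_top_eq] at h1
    have h2 := (CfsgLib.Transfer.abelian_decomp P hP).1
    rw [← h1] at h2
    refine hz1 (Subgroup.mem_bot.mp (h2 ▸ ⟨⟨hzP P, ?_⟩, hzP P⟩))
    exact Subgroup.mem_centralizer_iff.mpr fun y _ => Subgroup.mem_center_iff.mp z.2 y
  refine not_npc_of_perfect hperf hpG
    (CfsgLib.NormalPComplement.hasNormalPComplement_of_frobeniusCondition fun Q hQ g hg hcop => ?_)
  by_contra hgC
  by_cases hQc : IsMulCommutative Q
  · -- `[Q, g]⟨g⟩` is non-abelian and does not contain `z`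
    set R := zpowers g
    have hRQ : R ≤ normalizer (Q : Set G) := zpowers_le.mpr hg
    have hcop' : (Nat.card R).Coprime (Nat.card Q) := by
      obtain ⟨k, hk⟩ := IsPGroup.iff_card.mp hQ
      rw [Nat.card_zpowers, hk]; exact hcop.pow_right k
    have hdisj := CfsgLib.CoprimeAction.inf_commutator_eq_bot hRQ hcop'
    set V := ⁅Q, R⁆
    have hVQ : V ≤ Q := CfsgLib.CoprimeAction.commutator_le_left hRQ
    have hgV : g ∈ normalizer (V : Set G) :=
      CfsgLib.CoprimeAction.sup_le_normalizer_commutator R Q (mem_sup_right (mem_zpowers g))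
    set H := V ⊔ R
    have hH : ¬ IsMulCommutative H := by
      intro hc
      apply hgC
      refine Subgroup.mem_centralizer_iff.mpr fun v hv => ?_
      have hv' := (CfsgLib.CoprimeAction.sup_commutator_eq hRQ hcop').symm ▸ hv
      have hle : (Q ⊓ centralizer (R : Set G)) ⊔ V ≤ centralizer ({g} : Set G) := by
        refine sup_le (inf_le_right.trans (Subgroup.centralizer_le (by simp [R]))) fun w hw => ?_
        exact Subgroup.mem_centralizer_singleton_iff.mpr
          (mem_centralizer_of_commutative hc (mem_sup_left hw) (mem_sup_right (mem_zpowers g)))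
      exact Subgroup.mem_centralizer_singleton_iff.mp (hle hv')
    have hzH : (z : G) ∈ H := by
      rw [← hS H hH]
      exact Subgroup.center_le_normalizer (H : Set G) z.2
    have hzH' : (z : G) ∈ ((H : Subgroup G) : Set G) := hzH
    rw [Subgroup.coe_mul_of_right_le_normalizer_left V R (zpowers_le.mpr hgV)] at hzH'
    obtain ⟨v, hv, r, hr, hvr⟩ := Set.mem_mul.mp hzH'
    -- `z` lies in `V`
    have hr1 : r = 1 := by
      have hcomm : Commute v⁻¹ (z : G) := Subgroup.mem_center_iff.mp z.2 v⁻¹
      have hrp : IsPGroup p (Q ⊔ zpowers (z : G) : Subgroup G) :=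
        (IsPGroup.of_card (n := 1) (by rw [Nat.card_zpowers, hzp, pow_one]) :
          IsPGroup p (zpowers (z : G))).to_sup_of_normal_left' hQ
          (fun w _ => Subgroup.centralizer_le_normalizer _ (Subgroup.mem_centralizer_iff.mpr fun u hu =>
            (Subgroup.mem_center_iff.mp (zpowers_le.mpr z.2 hu) w).symm)) |> fun h => by
            rwa [sup_comm] at h
      have hrmem : r ∈ Q ⊔ zpowers (z : G) := by
        rw [show r = v⁻¹ * (z : G) by rw [← hvr]; group]
        exact mul_mem (mem_sup_left (inv_mem (hVQ hv))) (mem_sup_right (mem_zpowers _))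
      obtain ⟨e, he⟩ := hrp ⟨r, hrmem⟩
      exact orderOf_eq_one_iff.mp (Nat.eq_one_of_dvd_coprimes (hcop.pow_right e)
        (orderOf_dvd_of_mem_zpowers hr) (orderOf_dvd_of_pow_eq_one (by simpa using congrArg Subtype.val he)))
    rw [hr1, mul_one] at hvr
    refine hz1 (Subgroup.mem_bot.mp (hdisj ▸ ⟨⟨hVQ (hvr ▸ hv), ?_⟩, hvr ▸ hv⟩))
    exact Subgroup.mem_centralizer_iff.mpr fun y _ => Subgroup.mem_center_iff.mp z.2 y
  · -- a non-abelian `p`-subgroup is its own normalizer
    rw [hS Q hQc] at hg
    obtain ⟨e, he⟩ := hQ ⟨g, hg⟩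
    refine hgC ?_
    rw [orderOf_eq_one_iff.mp (Nat.eq_one_of_dvd_coprimes (hcop.pow_right e) dvd_rfl
      (orderOf_dvd_of_pow_eq_one (by simpa using congrArg Subtype.val he)))]
    exact one_mem _

/-- A finite group in which every non-abelian subgroup is self-normalizing is solvable or simple. -/
theorem result {G : Type*} [Group G] [Finite G] (hS : ∀ H : Subgroup G, ¬ IsMulCommutative H → Subgroup.normalizer (H : Set G) = H) :
    Group.IsSolvable G ∨ IsSimpleGroup G := by
  rw [or_iff_not_imp_left]
  intro hns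
  have hnt : Nontrivial G := by
    by_contra h
    rw [not_nontrivial_iff_subsingleton] at h
    exact hns inferInstance
  -- proper normal subgroups are abelian
  have hab : ∀ N : Subgroup G, N.Normal → N ≠ ⊤ → IsMulCommutative N := fun N hN hne =>
    by_contra fun h => hne (by rw [← hS N h]; exact Subgroup.normalizer_eq_top_iff.mpr hN)
  have hperf : commutator G = ⊤ := by
    by_contra hne
    have := hab _ inferInstance hne
    have : Group.IsSolvable (commutator G) :=
      CfsgLib.CoprimeAction.isSolvable_of_isMulCommutative _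
    have hq : Group.IsSolvable (G ⧸ commutator G) :=
      Group.isSolvable_of_comm (fun a b => by
        exact mul_comm (G := Abelianization G) a b)
    exact hns (Group.isSolvable_of_ker_le_range (commutator G).subtype
      (QuotientGroup.mk' (commutator G)) (by simp))
  refine ⟨fun N hN => ?_⟩
  by_contra hN'
  push Not at hN'
  -- a maximal proper normal subgroup
  obtain ⟨A, hNA, ⟨hAn, hAt⟩, hAmax⟩ := Set.Finite.exists_le_maximal
    (Set.toFinite {A : Subgroup G | A.Normal ∧ A ≠ ⊤})
    (show N ∈ {A : Subgroup G | A.Normal ∧ A ≠ ⊤} from ⟨hN, hN'.2⟩)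
  have hAb : A ≠ ⊥ := fun h => hN'.1 (le_bot_iff.mp (h ▸ hNA))
  have hAc := hab A hAn hAt
  have hCn : (centralizer (A : Set G)).Normal := inferInstance
  have hCA : centralizer (A : Set G) ≤ A := by
    by_contra hle
    by_cases hCt : centralizer (A : Set G) = ⊤
    · refine hAb (le_bot_iff.mp (fun a ha => ?_))
      rw [← center_eq_bot hperf hS, Subgroup.mem_center_iff]
      exact fun g => (Subgroup.mem_centralizer_iff.mp (hCt ▸ Subgroup.mem_top g : g ∈ centralizer (A : Set G)) a ha).symm
    · exact hle (hAmax ⟨hCn, hCt⟩ (fun a ha => Subgroup.mem_centralizer_iff.mpr fun b hb =>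
        mem_centralizer_of_commutative hAc hb ha))
  -- in `G ⧸ A` every non-trivial cyclic subgroup is self-normalizing
  have hcyc : ∀ x : G ⧸ A, x ≠ 1 → normalizer (zpowers x : Set (G ⧸ A)) = zpowers x := by
    intro x hx
    set H := (zpowers x).comap (QuotientGroup.mk' A)
    have hH : ¬ IsMulCommutative H := by
      intro hc
      obtain ⟨g, rfl⟩ := QuotientGroup.mk'_surjective A x
      refine hx ((QuotientGroup.eq_one_iff g).mpr (hCA ?_))
      refine Subgroup.mem_centralizer_iff.mpr fun a ha => mem_centralizer_of_commutative hc ?_ ?_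
      · show QuotientGroup.mk' A a ∈ zpowers _
        rw [(QuotientGroup.eq_one_iff a).mpr ha |> fun h => (show QuotientGroup.mk' A a = 1 from h)]
        exact one_mem _
      · exact mem_zpowers _
    have := congrArg (Subgroup.map (QuotientGroup.mk' A)) (hS H hH)
    rw [← Subgroup.comap_normalizer_eq_of_surjective _ (QuotientGroup.mk'_surjective A),
      Subgroup.map_comap_eq_self_of_surjective (QuotientGroup.mk'_surjective A),
      Subgroup.map_comap_eq_self_of_surjective (QuotientGroup.mk'_surjective A)] at this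
    exact this
  have hperf' : commutator (G ⧸ A) = ⊤ := by
    have h := congrArg (Subgroup.map (QuotientGroup.mk' A)) hperf
    rw [commutator_def, Subgroup.map_commutator,
      Subgroup.map_top_of_surjective _ (QuotientGroup.mk'_surjective A)] at h
    rw [commutator_def]
    exact h
  have hcard : Nat.card (G ⧸ A) ≠ 1 := by
    rw [← Subgroup.index_eq_card]; exact fun h => hAt (Subgroup.index_eq_one.mp h)
  obtain ⟨q, hq, hqd⟩ := Nat.exists_prime_and_dvd hcard
  have := Fact.mk hq
  obtain ⟨x, hx⟩ := exists_prime_orderOf_dvd_card' (G := G ⧸ A) q hqd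
  have hx1 : x ≠ 1 := fun h => by rw [h, orderOf_one] at hx; exact hq.one_lt.ne hx
  obtain ⟨S, hS'⟩ := (IsPGroup.of_card (n := 1) (by rw [Nat.card_zpowers, hx, pow_one]) :
    IsPGroup q (zpowers x)).exists_le_sylow
  have hSx : (S : Subgroup (G ⧸ A)) = zpowers x :=
    CfsgLib.Subnormal.normalizerCondition_eq S.2 hS' (by rw [hcyc x hx1]; exact inf_le_right)
  refine not_npc_of_perfect hperf' hqd (CfsgLib.Transfer.hasNormalPComplement_of_le_centralizer S ?_)
  show normalizer ((S : Subgroup (G ⧸ A)) : Set (G ⧸ A)) ≤ centralizer ((S : Subgroup (G ⧸ A)) : Set (G ⧸ A))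
  rw [hSx, hcyc x hx1]
  intro y hy
  refine Subgroup.mem_centralizer_iff.mpr fun w hw => ?_
  obtain ⟨i, rfl⟩ := Subgroup.mem_zpowers_iff.mp hy
  obtain ⟨j, rfl⟩ := Subgroup.mem_zpowers_iff.mp hw
  rw [← zpow_add, add_comm, zpow_add]

end Cfsg.Agent.S4072
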