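import Cfsg.Statements.S4074
-- import your own Cfsg.Agent.* helpers here

set_option autoImplicit false
open Cfsg

namespace Cfsg.Agent.S4074

/-- For n > 2, every non-abelian subgroup of the dihedral group of order 2n is self-normalizing if and only if n = 4 or n is odd. -/
theorem result (n : ℕ) (hn : 2 < n) :
    (∀ H : Subgroup (DihedralGroup n), ¬ IsMulCommutative H → Subgroup.normalizer (H : Set (DihedralGroup n)) = H) ↔
    (n = 4 ∨ Odd n) := by
  constructor
  · intro h
    by_contra hcon
    push Not at hcon
    obtain ⟨hn4, hev⟩ := hcon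
    have hev : 2 ∣ n := (Nat.not_odd_iff_even.mp hev).two_dvd
    let S : AddSubgroup (ZMod n) := AddSubgroup.zmultiples (2 : ZMod n)
    have h2 : (2 : ZMod n) ∈ S := AddSubgroup.mem_zmultiples _
    have h1 : (1 : ZMod n) ∉ S := by
      rintro ⟨k, hk⟩
      have := congrArg (ZMod.castHom hev (ZMod 2)) hk
      simp only [zsmul_eq_mul, map_mul, map_one, map_ofNat] at this
      rw [show (2 : ZMod 2) = 0 from rfl, mul_zero] at this
      exact zero_ne_one this
    let H : Subgroup (DihedralGroup n) :=
      { carrier := {x | match x with | DihedralGroup.r i => i ∈ S | DihedralGroup.sr i => i ∈ S}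
        mul_mem' := by
          rintro (a | a) (b | b) ha hb <;>
            simp only [Set.mem_ofPred_eq, DihedralGroup.r_mul_r, DihedralGroup.r_mul_sr,
              DihedralGroup.sr_mul_r, DihedralGroup.sr_mul_sr] at *
          · exact add_mem ha hb
          · exact sub_mem hb ha
          · exact add_mem ha hb
          · exact sub_mem hb ha
        one_mem' := S.zero_mem
        inv_mem' := by
          rintro (a | a) ha <;> simp only [Set.mem_ofPred_eq] at *
          · exact neg_mem ha
          · exact ha }
    have hr : ∀ i, DihedralGroup.r i ∈ H ↔ i ∈ S := fun i => Iff.rfl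
    have hsr : ∀ i, DihedralGroup.sr i ∈ H ↔ i ∈ S := fun i => Iff.rfl
    have hna : ¬ IsMulCommutative H := fun hc => by
      have := congrArg Subtype.val (hc.is_comm.comm
        (⟨DihedralGroup.r 2, (hr _).2 h2⟩ : H) ⟨DihedralGroup.sr 0, (hsr _).2 S.zero_mem⟩)
      simp only [Subgroup.coe_mul, DihedralGroup.r_mul_sr, DihedralGroup.sr_mul_r, zero_sub,
        zero_add, DihedralGroup.sr.injEq] at this
      have h4 : ((4 : ℕ) : ZMod n) = 0 := by push_cast; linear_combination -this
      have := Nat.le_of_dvd (by norm_num) ((ZMod.natCast_eq_zero_iff _ _).mp h4)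
      obtain ⟨m, rfl⟩ := hev
      omega
    have hmem : DihedralGroup.r (1 : ZMod n) ∈
        Subgroup.normalizer (H : Set (DihedralGroup n)) := by
      rw [Subgroup.mem_normalizer_iff]
      rintro (i | i)
      · simp only [DihedralGroup.r_mul_r, DihedralGroup.inv_r, hr]
        rw [show (1 : ZMod n) + i + -1 = i by abel]
      · simp only [DihedralGroup.r_mul_sr, DihedralGroup.sr_mul_r, DihedralGroup.inv_r, hsr]
        rw [show i - 1 + -1 = i - 2 by ring]
        exact ⟨fun h => S.sub_mem h h2, fun h => by simpa using S.add_mem h h2⟩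
    rw [h H hna] at hmem
    exact h1 ((hr _).1 hmem)
  · intro hn' H hna
    obtain ⟨i0, hi0⟩ : ∃ i, DihedralGroup.sr i ∈ H := by
      by_contra hno
      push Not at hno
      refine hna ⟨⟨fun a b => Subtype.ext ?_⟩⟩
      obtain ⟨a | a, ha⟩ := a
      · obtain ⟨b | b, hb⟩ := b
        · simp [add_comm]
        · exact absurd hb (hno b)
      · exact absurd ha (hno a)
    obtain ⟨s, hs, hs2⟩ : ∃ s, DihedralGroup.r s ∈ H ∧ s + s ≠ 0 := by
      by_contra hno
      push Not at hno
      refine hna ⟨⟨fun a b => Subtype.ext ?_⟩⟩
      obtain ⟨a | a, ha⟩ := a <;> obtain ⟨b | b, hb⟩ := b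
      · simp [add_comm]
      · simp only [Subgroup.coe_mul, DihedralGroup.r_mul_sr, DihedralGroup.sr_mul_r,
          DihedralGroup.sr.injEq]
        linear_combination -(hno a ha)
      · simp only [Subgroup.coe_mul, DihedralGroup.r_mul_sr, DihedralGroup.sr_mul_r,
          DihedralGroup.sr.injEq]
        linear_combination hno b hb
      · simp only [Subgroup.coe_mul, DihedralGroup.sr_mul_sr, DihedralGroup.r.injEq]
        have := hno (b - a) (by simpa using H.mul_mem ha hb)
        linear_combination this
    refine le_antisymm (fun g hg => ?_) Subgroup.le_normalizer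
    have hg0 := (Subgroup.mem_normalizer_iff.mp hg _).mp hi0
    rcases hn' with rfl | hodd
    · have hall : ∀ i, DihedralGroup.r i ∈ H := fun i => by
        have h1 : (DihedralGroup.r (1 : ZMod 4)) ∈ H := by
          have h' : s = 1 ∨ s = 3 := by revert hs2; clear hs; revert s; decide
          rcases h' with rfl | rfl
          · exact hs
          · simpa [show -(3 : ZMod 4) = 1 from rfl] using H.inv_mem hs
        have := H.pow_mem h1 i.val
        simpa using this
      rcases g with i | i
      · exact hall i
      · have := H.mul_mem hi0 (hall (i - i0))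
        simpa using this
    · obtain ⟨m, hm⟩ := hodd
      have hhalf : ∀ j : ZMod n, DihedralGroup.r (j + j) ∈ H → DihedralGroup.r j ∈ H := fun j hj => by
        have := H.pow_mem hj (m + 1)
        rw [DihedralGroup.r_pow] at this
        have h0 : ((2 * m + 1 : ℕ) : ZMod n) = 0 := by rw [← hm]; exact ZMod.natCast_self n
        push_cast at h0 this
        rwa [show (j + j) * ((m : ZMod n) + 1) = j by linear_combination j * h0] at this
      rcases g with i | i
      · simp only [DihedralGroup.r_mul_sr, DihedralGroup.sr_mul_r, DihedralGroup.inv_r] at hg0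
        have := H.mul_mem hg0 hi0
        rw [DihedralGroup.sr_mul_sr] at this
        exact hhalf i (by rwa [show i0 - (i0 - i + -i) = i + i by ring] at this)
      · simp only [DihedralGroup.sr_mul_sr, DihedralGroup.r_mul_sr, DihedralGroup.inv_sr] at hg0
        have := H.mul_mem hi0 hg0
        rw [DihedralGroup.sr_mul_sr] at this
        have := H.mul_mem hi0 (hhalf (i - i0)
          (by rwa [show i - (i0 - i) - i0 = (i - i0) + (i - i0) by ring] at this))
        simpa using this

end Cfsg.Agent.S4074
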