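import Cfsg.Statements.S4075

set_option autoImplicit false
open Cfsg

namespace Cfsg.Agent.S4075

/-- Let G be a finite nilpotent group. Every non-abelian subgroup of G is self-normalizing if and only if G is abelian or G is a minimal non-abelian p-group for some prime p (non-abelian of prime-power order with every proper subgroup abelian). -/
theorem result {G : Type*} [Group G] [Finite G]
    [Group.IsNilpotent G] :
    (∀ H : Subgroup G, ¬ IsMulCommutative H → Subgroup.normalizer (H : Set G) = H) ↔
    (IsMulCommutative G ∨ (IsPrimePow (Nat.card G) ∧ ¬ IsMulCommutative G ∧ ∀ H : Subgroup G, H ≠ ⊤ → IsMulCommutative H)) := by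
  constructor
  · intro h
    by_cases hab : IsMulCommutative G
    · exact Or.inl hab
    have hmin : ∀ H : Subgroup G, H ≠ ⊤ → IsMulCommutative H := fun H hH => by
      by_contra hna
      exact (Group.normalizerCondition_of_isNilpotent H (lt_top_iff_ne_top.mpr hH)).ne'
        (h H hna)
    refine Or.inr ⟨?_, hab, hmin⟩
    by_contra hnpp
    apply hab
    obtain ⟨e⟩ := ((Group.isNilpotent_of_finite_tfae (G := G)).out 0 4).mp ‹Group.IsNilpotent G›
    refine ⟨⟨fun a b => e.symm.injective ?_⟩⟩
    rw [map_mul, map_mul]
    ext r P : 2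
    have hP : IsMulCommutative (P : Subgroup G) := by
      refine hmin _ fun htop => hnpp ?_
      have := Fact.mk (Nat.prime_of_mem_primeFactors r.2)
      obtain ⟨k, hk⟩ := IsPGroup.iff_card.mp P.2
      rw [htop, Subgroup.card_top] at hk
      refine hk ▸ (Nat.prime_of_mem_primeFactors r.2).isPrimePow.pow ?_
      rintro rfl
      have h0 : (r : ℕ) ≤ Nat.card G := Nat.le_of_mem_primeFactors r.2
      have h1 : Nat.card G = 1 := hk.trans (pow_zero _)
      have := (Nat.prime_of_mem_primeFactors r.2).two_le
      omega
    exact hP.is_comm.comm (e.symm a r P) (e.symm b r P)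
  · rintro (hab | ⟨-, hna, hmin⟩) H hH
    · exact absurd ⟨⟨fun a b => Subtype.ext (hab.is_comm.comm (a : G) b)⟩⟩ hH
    · have : H = ⊤ := by_contra fun hne => hH (hmin H hne)
      subst this
      exact le_antisymm le_top Subgroup.le_normalizer

end Cfsg.Agent.S4075
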