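import Cfsg.Statements.S4078
import Cfsg.Agent.S0489
import Cfsg.Agent.Lib.Cores.Schmidt
import Cfsg.Agent.Lib.FixedPointFree.Basic
-- import your own Cfsg.Agent.* helpers here

set_option autoImplicit false
open Cfsg

namespace Cfsg.Agent.S4078

open scoped Pointwise

universe u

theorem solv_iff_of_normal {G : Type u} [Group G] (N : Subgroup G) [N.Normal] [Group.IsSolvable N]
    (a b : G) : Group.IsSolvable (Subgroup.closure ({a, b} : Set G)) ↔
      Group.IsSolvable (Subgroup.closure ({(a : G ⧸ N), (b : G ⧸ N)} : Set (G ⧸ N))) := by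
  have hmap : (Subgroup.closure ({a, b} : Set G)).map (QuotientGroup.mk' N)
      = Subgroup.closure ({(a : G ⧸ N), (b : G ⧸ N)} : Set (G ⧸ N)) := by
    rw [MonoidHom.map_closure, Set.image_pair]; rfl
  rw [← hmap]
  constructor
  · intro h
    exact Group.isSolvable_of_surjective
      ((QuotientGroup.mk' N).subgroupMap_surjective (Subgroup.closure ({a, b} : Set G)))
  · intro h
    set K := Subgroup.closure ({a, b} : Set G)
    let π := (QuotientGroup.mk' N).subgroupMap K
    let ι : ↥(N.subgroupOf K) →* ↥K := (N.subgroupOf K).subtype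
    haveI := CfsgLib.CoprimeAction.isSolvable_of_le (H := (N.subgroupOf K).map K.subtype) (K := N)
      (Subgroup.map_comap_le _ _)
    haveI : Group.IsSolvable ↥(N.subgroupOf K) :=
      Group.isSolvable_of_isSolvable_injective
        (f := ((N.subgroupOf K).equivMapOfInjective _ K.subtype_injective).toMonoidHom)
        (MulEquiv.injective _)
    refine Group.isSolvable_of_ker_le_range ι π fun x hx => ⟨⟨x, ?_⟩, rfl⟩
    exact (QuotientGroup.eq_one_iff (x : G)).1 (congrArg Subtype.val hx)

theorem aux : ∀ (n : ℕ) (G : Type u) [Group G] [Finite G], Nat.card G = n →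
    (∀ x : G, ∃ H : Subgroup G, (H : Set G) = {y : G | Group.IsSolvable ↥(Subgroup.closure ({x, y} : Set G))}) →
    Group.IsSolvable G := by
  intro n
  induction n using Nat.strong_induction_on with
  | _ n ih =>
  intro G _ _ hn h
  subst hn
  by_contra hns
  have proper : ∀ H : Subgroup G, H ≠ ⊤ → Group.IsSolvable H := by
    intro H hH
    refine ih _ (CfsgLib.FixedPointFree.card_lt_of_ne_top hH) H rfl fun x => ?_
    obtain ⟨S, hS⟩ := h (x : G)
    refine ⟨S.subgroupOf H, ?_⟩
    ext y
    have he : (Subgroup.closure ({x, y} : Set H)).map H.subtype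
        = Subgroup.closure ({(x : G), (y : G)} : Set G) := by
      rw [MonoidHom.map_closure, Set.image_pair]; rfl
    have e := (Subgroup.closure ({x, y} : Set H)).equivMapOfInjective _ H.subtype_injective
    rw [SetLike.mem_coe, Subgroup.mem_subgroupOf, Set.mem_setOf_eq, ← SetLike.mem_coe, hS,
      Set.mem_setOf_eq, ← he]
    exact ⟨fun hh => Group.isSolvable_of_isSolvable_injective (f := e.toMonoidHom) e.injective,
      fun hh => Group.isSolvable_of_surjective (f := e.toMonoidHom) e.surjective⟩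
  have simple : ∀ N : Subgroup G, N.Normal → N = ⊥ ∨ N = ⊤ := by
    intro N hN
    by_contra hne
    push Not at hne
    obtain ⟨h1, h2⟩ := hne
    haveI := proper N h2
    have hq : Group.IsSolvable (G ⧸ N) := by
      refine ih _ (CfsgLib.FixedPointFree.card_quot_lt h1) (G ⧸ N) rfl fun x => ?_
      obtain ⟨a, rfl⟩ := QuotientGroup.mk'_surjective N x
      obtain ⟨S, hS⟩ := h a
      refine ⟨S.map (QuotientGroup.mk' N), ?_⟩
      ext y
      obtain ⟨b, rfl⟩ := QuotientGroup.mk'_surjective N y
      constructor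
      · rintro ⟨c, hc, hcb⟩
        rw [hS, Set.mem_setOf_eq, solv_iff_of_normal N] at hc
        rw [Set.mem_setOf_eq, ← hcb]
        exact hc
      · intro hb
        refine ⟨b, ?_, rfl⟩
        rw [hS, Set.mem_setOf_eq, solv_iff_of_normal N]
        exact hb
    haveI := hq
    exact hns (Group.isSolvable_of_ker_le_range N.subtype (QuotientGroup.mk' N)
      (by rw [QuotientGroup.ker_mk', Subgroup.range_subtype]))
  haveI : Nontrivial G := not_subsingleton_iff_nontrivial.1 fun hs => hns (by infer_instance)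
  haveI : IsSimpleGroup G := ⟨simple⟩
  have hcyc : ∀ x : G, Subgroup.zpowers x ≠ ⊤ := fun x hx => hns (Group.isSolvable_of_comm fun a b => by
    obtain ⟨i, rfl⟩ := Subgroup.mem_zpowers_iff.1 (hx ▸ Subgroup.mem_top a : a ∈ Subgroup.zpowers x)
    obtain ⟨j, rfl⟩ := Subgroup.mem_zpowers_iff.1 (hx ▸ Subgroup.mem_top b : b ∈ Subgroup.zpowers x)
    exact zpow_mul_comm x i j)
  choose S hS using h
  have hmem : ∀ {x y : G}, y ∈ S x ↔ Group.IsSolvable ↥(Subgroup.closure ({x, y} : Set G)) :=
    fun {x y} => by rw [← SetLike.mem_coe, hS, Set.mem_setOf_eq]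
  have hsym : ∀ {x y : G}, y ∈ S x → x ∈ S y := fun {x y} hxy => by
    rw [hmem, Set.pair_comm]; exact hmem.1 hxy
  have hmax : ∀ {x : G} {M : Subgroup G}, M ≠ ⊤ → x ∈ M → M ≤ S x := by
    intro x M hM hx y hy
    haveI := proper M hM
    exact hmem.2 (CfsgLib.CoprimeAction.isSolvable_of_le (K := M)
      ((Subgroup.closure_le _).2 (by rintro _ (rfl | rfl) <;> assumption)))
  -- some element has a proper `Sol`
  obtain ⟨x₀, hx₀⟩ : ∃ x, S x ≠ ⊤ := by
    by_contra hcon
    push Not at hcon
    exact hns (Cfsg.Agent.S0489.result fun a b => hmem.1 ((hcon a).symm ▸ Subgroup.mem_top b))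
  have hconj : ∀ g x : G, S x = ⊤ → S (g * x * g⁻¹) = ⊤ := by
    intro g x hx
    rw [Subgroup.eq_top_iff']
    intro y
    have h1 := hmem.1 (hx.symm ▸ Subgroup.mem_top (g⁻¹ * y * g) : g⁻¹ * y * g ∈ S x)
    rw [hmem]
    have hm : (Subgroup.closure ({x, g⁻¹ * y * g} : Set G)).map (MulAut.conj g).toMonoidHom
        = Subgroup.closure ({g * x * g⁻¹, y} : Set G) := by
      rw [MonoidHom.map_closure, Set.image_pair]
      congr 2
      · simp [mul_assoc]
    rw [← hm]
    exact Group.isSolvable_of_surjective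
      ((MulAut.conj g).toMonoidHom.subgroupMap_surjective _)
  -- no nontrivial element has full `Sol`
  have hfull : ∀ y : G, S y = ⊤ → y = 1 := by
    intro y hy
    by_contra hy1
    rcases simple (Subgroup.normalClosure {y}) inferInstance with h' | h'
    · exact hy1 (Subgroup.mem_bot.1 (h' ▸ Subgroup.subset_normalClosure rfl : y ∈ (⊥ : Subgroup G)))
    · refine hx₀ (top_le_iff.1 (h'.symm.le.trans ((Subgroup.closure_le _).2 ?_)))
      intro z hz
      obtain ⟨b, hb, hbz⟩ := Group.mem_conjugatesOfSet_iff.1 hz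
      rw [Set.mem_singleton_iff] at hb
      subst hb
      obtain ⟨g, rfl⟩ := isConj_iff.1 hbz
      exact hsym ((hconj g b hy).symm ▸ Subgroup.mem_top x₀)
  have huniq : ∀ {x : G}, x ≠ 1 → ∀ {M : Subgroup G}, IsCoatom M → x ∈ M → M = S x := by
    intro x hx M hM hxM
    exact ((hM.le_iff_eq fun ht => hx (hfull x ht)).1 (hmax hM.1 hxM)).symm
  have hne : ∀ M : Subgroup G, IsCoatom M → M ≠ ⊥ := fun M hM hb => by
    obtain ⟨x, hx⟩ := exists_ne (1 : G)
    refine hcyc x (hM.2 _ ?_)
    rw [hb, bot_lt_iff_ne_bot, ne_eq, Subgroup.zpowers_eq_bot]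
    exact hx
  have hfrob : ∀ M : Subgroup G, IsCoatom M → Cfsg.IsFrobeniusComplement M := fun M hM => by
    refine ⟨hne M hM, hM.1, fun g hg => ?_⟩
    have hco : IsCoatom (MulAut.conj g • M) :=
      (OrderIso.isCoatom_iff (MulEquiv.mapSubgroup (MulAut.conj g)) M).2 hM
    by_contra hbot
    obtain ⟨x, hx, hx1⟩ := (Subgroup.bot_or_exists_ne_one _).resolve_left hbot
    have heq : M = MulAut.conj g • M := (huniq hx1 hM hx.1).trans (huniq hx1 hco hx.2).symm
    have hnorm : g ∈ Subgroup.normalizer (M : Set G) :=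
      CfsgLib.CoprimeAction.conj_smul_eq_self.1 heq.symm
    have hle : Subgroup.normalizer (M : Set G) = M := by
      by_contra hne'
      have ht := hM.2 _ (lt_of_le_of_ne Subgroup.le_normalizer (Ne.symm hne'))
      rcases (Subgroup.normalizer_eq_top_iff.1 ht).eq_bot_or_eq_top with hb | hb
      · exact hne M hM hb
      · exact hM.1 hb
    exact hg (hle ▸ hnorm)
  obtain ⟨y, hy⟩ := exists_ne (1 : G)
  obtain ⟨M, hM, -⟩ := (eq_top_or_exists_le_coatom (Subgroup.zpowers y)).resolve_left (hcyc y)
  obtain ⟨x, hx, hx1⟩ : ∃ x ∈ Cfsg.frobeniusKernel M, x ≠ 1 := by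
    have h1 := CfsgLib.Frobenius.card_kernel (hfrob M hM)
    have h2 := CfsgLib.Frobenius.one_lt_index (hfrob M hM)
    rw [← h1, Nat.card_coe_set_eq] at h2
    exact Set.exists_ne_of_one_lt_ncard h2 1
  obtain ⟨M', hM', hxM'⟩ := (eq_top_or_exists_le_coatom (Subgroup.zpowers x)).resolve_left (hcyc x)
  obtain ⟨g, hg⟩ := CfsgLib.Cores.exists_conj_eq_of_isFrobeniusComplement (hfrob M' hM') (hfrob M hM)
  exact (hx.resolve_left hx1) g (hg.symm ▸ hxM' (Subgroup.mem_zpowers x))

/-- For an element x of a finite group G let Sol(x) be the set of y ∈ G such that x and y generate a solvable subgroup. Then G is solvable if and only if Sol(x) is (the carrier of) a subgroup of G for every x ∈ G. -/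
theorem result {G : Type*} [Group G] [Finite G] :
    Group.IsSolvable G ↔ ∀ x : G, ∃ H : Subgroup G, (H : Set G) = {y : G | Group.IsSolvable ↥(Subgroup.closure ({x, y} : Set G))} := by
  refine ⟨fun hG x => ⟨⊤, ?_⟩, fun h => aux _ G rfl h⟩
  haveI := hG
  ext y
  exact iff_of_true trivial (show Group.IsSolvable ↥(Subgroup.closure ({x, y} : Set G)) from inferInstance)

end Cfsg.Agent.S4078
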