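import Cfsg.Statements.S4079
import Mathlib
import Cfsg.Agent.Lib.Subnormal.MetacyclicOmega
import Cfsg.Agent.Lib.PGroups.MaximalClass
import Cfsg.Agent.Lib.FusionModels.MaxClassEssential

set_option autoImplicit false
open Cfsg

namespace Cfsg.Agent.S4079

open scoped commutatorElement
open CfsgLib

variable {L : Type*} [Group L] [Finite L] {p : ℕ} [hp : Fact p.Prime]

/-- The semidirect product with the cyclic group generated by `a`. -/
abbrev Ext (a : MulAut L) := SemidirectProduct L ↥(Subgroup.zpowers a) (Subgroup.zpowers a).subtype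

instance (a : MulAut L) : Finite (Ext a) := Finite.of_equiv _ SemidirectProduct.equivProd.symm

/-- The generator as an element of the extension. -/
abbrev gen (a : MulAut L) : Ext a := SemidirectProduct.inr ⟨a, Subgroup.mem_zpowers a⟩

theorem gen_conj (a : MulAut L) (x : L) :
    gen a * SemidirectProduct.inl x * (gen a)⁻¹ = SemidirectProduct.inl (a x) := by
  rw [gen, ← map_inv]
  exact (SemidirectProduct.inl_aut _ x).symm

theorem card_ext (a : MulAut L) (ha : orderOf a = p) {m : ℕ}
    (hm : Nat.card L = p ^ m) : Nat.card (Ext a) = p ^ (m + 1) := by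
  rw [SemidirectProduct.card, hm, Nat.card_zpowers, ha, pow_succ]

theorem apply_binomial {a : MulAut L} {x x₁ x₂ x₃ : L} (h0 : a x = x₁ * x) (h1 : a x₁ = x₂ * x₁)
    (h2 : a x₂ = x₃ * x₂) (h3 : a x₃ = x₃) (c12 : Commute x₁ x₂)
    (c23 : Commute x₂ x₃) (k : ℕ) :
    (a ^ k) x = x₃ ^ k.choose 3 * x₂ ^ k.choose 2 * x₁ ^ k * x := by
  induction k with
  | zero => simp
  | succ k ih =>
    have e3 : (k + 1).choose 3 = k.choose 2 + k.choose 3 := by rw [Nat.choose_succ_succ']
    have e2 : (k + 1).choose 2 = k + k.choose 2 := by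
      rw [Nat.choose_succ_succ', Nat.choose_one_right]
    rw [pow_succ', MulAut.mul_apply, ih, map_mul, map_mul, map_mul, map_pow, map_pow, map_pow, h0,
      h1, h2, h3, e3, e2, pow_add, pow_add, pow_succ, c23.symm.mul_pow, c12.symm.mul_pow]
    have hcm : x₃ ^ k.choose 3 * x₃ ^ k.choose 2 = x₃ ^ k.choose 2 * x₃ ^ k.choose 3 := by
      rw [← pow_add, ← pow_add, add_comm]
    have hcm2 : x₂ ^ k.choose 2 * x₂ ^ k = x₂ ^ k * x₂ ^ k.choose 2 := by
      rw [← pow_add, ← pow_add, add_comm]
    rw [← hcm, ← hcm2]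
    simp only [mul_assoc]

/-- If `a` moves an element of order `p`, then `p = 3` and the extension has maximal class. -/
theorem max_class_of_moved (hp2 : p ≠ 2) (hL : IsPGroup p L) (hmc : Cfsg.IsMetacyclic L)
    (hnc : ∀ C : Subgroup L, IsCyclic C → C.index ≠ p) (a : MulAut L) (ha : orderOf a = p) (m : ℕ)
    (hm : Nat.card L = p ^ m) {x : L} (hx : orderOf x = p) (hax : a x ≠ x) :
    p = 3 ∧ Group.nilpotencyClass (Ext a) = m := by
  classical
  have hne : Nontrivial L := ⟨⟨x, 1, fun h => hax (by rw [h, map_one])⟩⟩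
  obtain ⟨E, hmem, hEe, hEc, -, hpow, hmul, hcent, -⟩ :=
    Subnormal.metacyclic_layers hp2 hL hmc hne hnc
  have hG : IsPGroup p (Ext a) := IsPGroup.of_card (card_ext a ha hm)
  -- `a` moves elements of `E` by fixed elements
  set E₀ : Subgroup (Ext a) := E.map SemidirectProduct.inl with hE₀
  have hE₀n : E₀.Normal := ⟨fun z hz g => by
    obtain ⟨e, he, rfl⟩ := Subgroup.mem_map.mp hz
    have he' := (hmem e).mp he
    have hmemr : g * SemidirectProduct.inl e * g⁻¹ ∈
        (SemidirectProduct.inl : L →* Ext a).range := by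
      rw [SemidirectProduct.range_inl_eq_ker_rightHom, MonoidHom.mem_ker]
      simp
    obtain ⟨w, hw⟩ := hmemr
    refine ⟨w, (hmem w).mpr (SemidirectProduct.inl_injective (φ := (Subgroup.zpowers a).subtype) ?_), hw⟩
    rw [map_pow, hw, conj_pow, ← map_pow, he', map_one, mul_one, mul_inv_cancel]⟩
  have hE₀c : Nat.card E₀ = p ^ 2 := by
    rw [hE₀, Subgroup.card_map_of_injective SemidirectProduct.inl_injective, hEc]
  have hstep : ∀ e ∈ E, a (a e * e⁻¹) = a e * e⁻¹ := by
    intro e he
    have : Group.IsNilpotent (Ext a) := hG.isNilpotent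
    have hb : E₀ ≠ ⊥ := fun h => by
      rw [h, Subgroup.card_bot] at hE₀c
      exact absurd hE₀c.symm (Nat.one_lt_pow two_ne_zero hp.out.one_lt).ne'
    have hlt := PGroups.commutator_top_lt hb
    have hc1 : ⁅E₀, (⊤ : Subgroup (Ext a))⁆ ≤ Subgroup.center (Ext a) := by
      obtain ⟨k, hk⟩ := IsPGroup.iff_card.mp (hG.to_subgroup ⁅E₀, (⊤ : Subgroup (Ext a))⁆)
      have hk2 : k < 2 := by
        refine (Nat.pow_lt_pow_iff_right hp.out.one_lt).mp ?_
        rw [← hk, ← hE₀c]
        exact lt_of_le_of_ne (Subgroup.card_le_of_le hlt.le)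
          fun h => hlt.ne (Subgroup.eq_of_le_of_card_ge hlt.le h.ge)
      interval_cases k
      · rw [Subgroup.eq_bot_of_card_eq ⁅E₀, (⊤ : Subgroup (Ext a))⁆ (by rw [hk, pow_zero])]; exact bot_le
      · exact PGroups.le_center_of_card_eq_prime hG (by rw [hk, pow_one])
    have hz : SemidirectProduct.inl (a e * e⁻¹) ∈ Subgroup.center (Ext a) := by
      refine hc1 ?_
      rw [map_mul, map_inv, ← gen_conj, ← commutatorElement_def, ← commutatorElement_inv]
      exact inv_mem (Subgroup.commutator_mem_commutator (Subgroup.mem_map_of_mem _ he) trivial)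
    have := Subgroup.mem_center_iff.mp hz (gen a)
    rw [← SemidirectProduct.inl_inj (φ := (Subgroup.zpowers a).subtype), ← gen_conj, this,
      mul_inv_cancel_right]
  have haE : ∀ e ∈ E, a e ∈ E := fun e he => (hmem _).mpr (by
    rw [← map_pow, (hmem e).mp he, map_one])
  have hxE : x ∈ E := (hmem x).mpr (hx ▸ pow_orderOf_eq_one x)
  obtain ⟨y, hy⟩ := hpow x hxE
  have hy2 : (y ^ p) ^ p = 1 := by rw [hy, (hmem x).mp hxE]
  have hyi : (y⁻¹ ^ p) ^ p = 1 := by rw [inv_pow, inv_pow, hy2, inv_one]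
  set x₁ := a y * y⁻¹ with hx₁
  set z := a x * x⁻¹ with hz
  have hz1 : z ≠ 1 := fun h => hax (mul_inv_eq_one.mp h)
  have hzE : z ∈ E := mul_mem (haE x hxE) (inv_mem hxE)
  have hzfix : a z = z := hstep x hxE
  have hay : (a y ^ p) ^ p = 1 := by rw [← map_pow, ← map_pow, hy2, map_one]
  have hx₁p : x₁ ^ p = z := by rw [hx₁, hmul _ _ hay hyi, ← map_pow, inv_pow, hy]
  have hx₁2 : (x₁ ^ p) ^ p = 1 := by rw [hx₁p, (hmem z).mp hzE]
  set x₂ := a x₁ * x₁⁻¹ with hx₂
  have hx₂E : x₂ ∈ E := (hmem _).mpr (by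
    rw [hx₂, hmul _ _ (by rw [← map_pow, ← map_pow, hx₁2, map_one])
      (by rw [inv_pow, inv_pow, hx₁2, inv_one]), ← map_pow, inv_pow, hx₁p, hzfix, mul_inv_cancel])
  set x₃ := a x₂ * x₂⁻¹ with hx₃
  have hx₃E : x₃ ∈ E := mul_mem (haE _ hx₂E) (inv_mem hx₂E)
  have hc23 : Commute x₂ x₃ :=
    congrArg Subtype.val (hEe.1.is_comm.comm ⟨x₂, hx₂E⟩ ⟨x₃, hx₃E⟩)
  have key := apply_binomial (a := a) (x := y) (x₁ := x₁) (x₂ := x₂) (x₃ := x₃) (by simp [hx₁])
    (by simp [hx₂]) (by simp [hx₃]) (hstep x₂ hx₂E) (hcent x₂ hx₂E x₁ hx₁2)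
    hc23 p
  rw [show a ^ p = 1 by rw [← ha]; exact pow_orderOf_eq_one a, MulAut.one_apply, hx₁p] at key
  have hp2' : x₂ ^ p.choose 2 = 1 := by
    obtain ⟨k, hk⟩ := PGroups.dvd_choose_two_of_odd (PGroups.odd_prime hp2 : Odd p)
    rw [hk, pow_mul, (hmem _).mp hx₂E, one_pow]
  rw [hp2', mul_one, eq_comm, mul_eq_right] at key
  have hp3 : p = 3 := by
    by_contra h3
    have h4 : 3 < p := by have := hp.out.two_le; omega
    obtain ⟨k, hk⟩ := hp.out.dvd_choose_self (k := 3) (by omega) h4
    rw [hk, pow_mul, (hmem _).mp hx₃E, one_pow, one_mul] at key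
    exact hz1 key
  refine ⟨hp3, ?_⟩
  have hx₂n : a x₂ ≠ x₂ := fun h => hz1 (by
    rw [show x₃ = 1 by simp [hx₃, h], one_pow, one_mul] at key
    exact key)
  -- the fixed points
  let F : Subgroup L :=
    { carrier := {w | a w = w}
      one_mem' := map_one a
      mul_mem' := fun {u v} hu hv => by
        show a (u * v) = u * v
        rw [map_mul, hu, hv]
      inv_mem' := fun {u} hu => by
        show a u⁻¹ = u⁻¹
        rw [map_inv, hu] }
  have hFE : Nat.card ↥(F ⊓ E) = p := by
    have hne' : F ⊓ E ≠ E := fun h => hax (h.ge hxE).1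
    obtain ⟨k, hk⟩ := IsPGroup.iff_card.mp (hL.to_subgroup (F ⊓ E))
    have hlt : p ^ k < p ^ 2 := by
      rw [← hk, ← hEc]
      exact lt_of_le_of_ne (Subgroup.card_le_of_le inf_le_right)
        fun h => hne' (Subgroup.eq_of_le_of_card_ge inf_le_right h.ge)
    have hk2 := (Nat.pow_lt_pow_iff_right hp.out.one_lt).mp hlt
    have hk0 : k ≠ 0 := fun h0 => by
      have hzb : z ∈ F ⊓ E := ⟨hzfix, hzE⟩
      rw [Subgroup.eq_bot_of_card_eq (F ⊓ E) (by rw [hk, h0, pow_zero]), Subgroup.mem_bot] at hzb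
      exact hz1 hzb
    rw [hk, show k = 1 by omega, pow_one]
  have hFexp : F ≤ E := by
    intro w hw
    rw [hmem]
    by_contra hwp
    obtain ⟨i, hi⟩ := IsPGroup.iff_orderOf.mp hL w
    have hi2 : 2 ≤ i := by
      by_contra hcon
      exact hwp (orderOf_dvd_iff_pow_eq_one.mp (hi ▸ (pow_dvd_pow p (show i ≤ 1 by omega)).trans
        (by rw [pow_one])))
    set v := w ^ p ^ (i - 2) with hv
    have hv2 : orderOf v = p ^ 2 := by
      rw [hv, orderOf_pow' _ (pow_ne_zero _ hp.out.ne_zero), hi,
        Nat.gcd_eq_right (pow_dvd_pow p (Nat.sub_le i 2)), Nat.pow_div (Nat.sub_le i 2) hp.out.pos,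
        show i - (i - 2) = 2 by omega]
    have hvF : v ∈ F := pow_mem hw _
    have hvp1 : v ^ p ≠ 1 := fun h => by
      have := Nat.le_of_dvd hp.out.pos (hv2 ▸ orderOf_dvd_of_pow_eq_one h)
      have := lt_self_pow₀ hp.out.one_lt one_lt_two
      omega
    have hvpp : (v ^ p) ^ p = 1 := by rw [← pow_mul, ← sq, ← hv2]; exact pow_orderOf_eq_one v
    have hvm : v ^ p ∈ F ⊓ E := ⟨pow_mem hvF p, (hmem _).mpr hvpp⟩
    obtain ⟨j, hj⟩ : ∃ j : ℕ, (v ^ p) ^ j = z := by
      have hgen := zpowers_eq_top_of_prime_card (G := ↥(F ⊓ E)) hFE (g := ⟨v ^ p, hvm⟩)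
        (fun h => hvp1 (congrArg Subtype.val h))
      have hzm : (⟨z, hzfix, hzE⟩ : ↥(F ⊓ E)) ∈ Subgroup.zpowers (⟨v ^ p, hvm⟩ : ↥(F ⊓ E)) :=
        hgen ▸ Subgroup.mem_top _
      obtain ⟨j, hj⟩ := ((isOfFinOrder_of_finite _).mem_powers_iff_mem_zpowers.mpr hzm)
      exact ⟨j, congrArg Subtype.val hj⟩
    set u := v ^ j with hu
    have hup : u ^ p = z := by rw [hu, ← pow_mul, mul_comm, pow_mul, hj]
    have hu2 : (u ^ p) ^ p = 1 := by rw [hup, (hmem z).mp hzE]
    have he' : x₁ * u⁻¹ ∈ E := (hmem _).mpr (by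
      rw [hmul _ _ hx₁2 (by rw [inv_pow, inv_pow, hu2, inv_one]), inv_pow, hup, hx₁p,
        mul_inv_cancel])
    refine hx₂n ?_
    have hau : a u = u := pow_mem (show v ∈ F from hvF) j
    have : x₂ = a (x₁ * u⁻¹) * (x₁ * u⁻¹)⁻¹ := by
      show a x₁ * x₁⁻¹ = _
      rw [map_mul a x₁ u⁻¹, map_inv a u, hau]; group
    rw [this]
    exact hstep _ he'
  have hFc : Nat.card F = p := (inf_eq_left.mpr hFexp) ▸ hFE
  -- the centraliser of the generator
  set A := Subgroup.centralizer ({gen a} : Set (Ext a)) with hA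
  have hAmem : ∀ g : Ext a, g ∈ A ↔ g.left ∈ F := by
    intro g
    rw [hA, Subgroup.mem_centralizer_singleton_iff]
    constructor
    · intro h
      show a g.left = g.left
      have := congrArg SemidirectProduct.left h
      simp only [SemidirectProduct.mul_left, SemidirectProduct.left_inr, SemidirectProduct.right_inr,
        map_one, mul_one, one_mul] at this
      exact this.symm
    · intro h
      refine SemidirectProduct.ext ?_ ?_
      · simpa using (show g.left = a g.left from (h : a g.left = g.left).symm)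
      · simp only [SemidirectProduct.mul_right, SemidirectProduct.right_inr]
        obtain ⟨i, hi⟩ := Subgroup.mem_zpowers_iff.mp g.right.2
        exact Subtype.ext (by simp [← hi, ((Commute.refl a).zpow_left i).eq])
  have hAc : Nat.card A = p ^ 2 := by
    rw [Nat.card_congr (show A ≃ F × Subgroup.zpowers a from
      { toFun := fun g => (⟨g.1.left, (hAmem g).mp g.2⟩, g.1.right)
        invFun := fun t => ⟨⟨t.1, t.2⟩, (hAmem _).mpr t.1.2⟩
        left_inv := fun g => rfl
        right_inv := fun t => rfl }), Nat.card_prod, hFc, Nat.card_zpowers, ha, sq]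
  have hself : Subgroup.centralizer (A : Set (Ext a)) = A := by
    refine le_antisymm ?_ ?_
    · exact Subgroup.centralizer_le (Set.singleton_subset_iff.mpr
        (Subgroup.mem_centralizer_singleton_iff.mpr rfl : gen a ∈ A))
    · have := IsPGroup.isMulCommutative_of_card_eq_prime_sq hAc
      exact Subgroup.le_centralizer_iff_isMulCommutative.2 this
  rw [PGroups.class_of_self_centralizing_sq (m + 1) (card_ext a ha hm) A hAc hself,
    Nat.add_sub_cancel]

/-- If the extension has maximal class, `a` moves an element of order `p`. -/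
theorem moved_of_max_class (hp2 : p ≠ 2) (hL : IsPGroup p L) (hmc : Cfsg.IsMetacyclic L)
    (hnc : ∀ C : Subgroup L, IsCyclic C → C.index ≠ p) (a : MulAut L) (ha : orderOf a = p) (m : ℕ)
    (hm : Nat.card L = p ^ m) (hcls : Group.nilpotencyClass (Ext a) = m) :
    ∃ x : L, orderOf x = p ∧ a x ≠ x := by
  classical
  by_contra hall
  push Not at hall
  have hne : Nontrivial L := by
    by_contra hs
    rw [not_nontrivial_iff_subsingleton] at hs
    have : a = 1 := MulEquiv.ext fun x => Subsingleton.elim _ _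
    rw [this, orderOf_one] at ha
    exact hp.out.ne_one ha.symm
  obtain ⟨E, hmem, hEe, hEc, hEΦ, -, -, -, h4⟩ :=
    Subnormal.metacyclic_layers hp2 hL hmc hne hnc
  have hm4 : 4 ≤ m := (Nat.pow_le_pow_iff_right hp.out.one_lt).mp (hm ▸ h4)
  have hG : IsPGroup p (Ext a) := IsPGroup.of_card (card_ext a ha hm)
  have : Group.IsNilpotent (Ext a) := hG.isNilpotent
  obtain ⟨hZ, hZ2⟩ := FusionModels.card_upper_of_maxClass hG (card_ext a ha hm) (by omega)
    (fun h => by
      have := Subgroup.lowerCentralSeries_eq_bot_iff_nilpotencyClass_le.1 h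
      omega)
  -- normal subgroups of order `p ^ 2`
  have huniq : ∀ M : Subgroup (Ext a), M.Normal → Nat.card M = p ^ 2 →
      M = Subgroup.upperCentralSeries (Ext a) 2 := by
    intro M hMn hMc
    refine Subgroup.eq_of_le_of_card_ge ?_ (by rw [hMc, hZ2])
    have hb : M ≠ ⊥ := fun h => by
      rw [h, Subgroup.card_bot] at hMc
      exact absurd hMc.symm (Nat.one_lt_pow two_ne_zero hp.out.one_lt).ne'
    have hlt := PGroups.commutator_top_lt hb
    obtain ⟨k, hk⟩ := IsPGroup.iff_card.mp (hG.to_subgroup ⁅M, (⊤ : Subgroup (Ext a))⁆)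
    have hk2 : k < 2 := by
      refine (Nat.pow_lt_pow_iff_right hp.out.one_lt).mp ?_
      rw [← hk, ← hMc]
      exact lt_of_le_of_ne (Subgroup.card_le_of_le hlt.le)
        fun h => hlt.ne (Subgroup.eq_of_le_of_card_ge hlt.le h.ge)
    intro x hx
    refine Subgroup.mem_upperCentralSeries_succ_iff.mpr fun y => ?_
    rw [Subgroup.upperCentralSeries_one]
    have hxy : ⁅x, y⁆ ∈ ⁅M, (⊤ : Subgroup (Ext a))⁆ :=
      Subgroup.commutator_mem_commutator hx trivial
    interval_cases k
    · rw [Subgroup.eq_bot_of_card_eq ⁅M, (⊤ : Subgroup (Ext a))⁆ (by rw [hk, pow_zero]),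
        Subgroup.mem_bot] at hxy
      rw [hxy]; exact one_mem _
    · exact PGroups.le_center_of_card_eq_prime hG (by rw [hk, pow_one]) hxy
  -- characteristic subgroups of `L` are normal in the extension
  have hnormal : ∀ H : Subgroup L, H.Characteristic →
      (H.map (SemidirectProduct.inl : L →* Ext a)).Normal := by
    intro H hH
    refine ⟨fun z hz g => ?_⟩
    obtain ⟨h, hh, rfl⟩ := Subgroup.mem_map.mp hz
    have hchar : ∀ (f : MulAut L), ∀ h ∈ H, f h ∈ H := fun f h hh => by
      have := (Subgroup.characteristic_iff_comap_eq.mp hH) f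
      exact (this.ge hh : h ∈ H.comap f.toMonoidHom)
    refine ⟨(MulAut.conj g.left) ((g.right : MulAut L) h),
      hchar _ _ (hchar _ _ hh), ?_⟩
    conv_rhs => rw [← SemidirectProduct.inl_left_mul_inr_right g]
    rw [MulAut.conj_apply, map_mul, map_mul, map_inv]
    rw [show ((g.right : MulAut L) h) = (Subgroup.zpowers a).subtype g.right h from rfl,
      SemidirectProduct.inl_aut, mul_inv_rev, map_inv]
    group
  set E₀ : Subgroup (Ext a) := E.map SemidirectProduct.inl with hE₀
  have hEchar : E.Characteristic := Subgroup.characteristic_iff_comap_eq.mpr fun f => by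
    ext z
    rw [Subgroup.mem_comap, hmem, hmem, ← map_pow, map_eq_one_iff f.toMonoidHom f.injective]
  have hE₀eq : E₀ = Subgroup.upperCentralSeries (Ext a) 2 := huniq _ (hnormal E hEchar) (by
    rw [Subgroup.card_map_of_injective SemidirectProduct.inl_injective, hEc])
  -- the derived subgroup has order at most `p`
  obtain ⟨N, hN, hNc, hQ⟩ := hmc
  have hcN : commutator L ≤ N := by
    rw [commutator_def, Subgroup.commutator_le]
    intro x _ y _
    refine (QuotientGroup.eq_one_iff _).mp ?_
    show QuotientGroup.mk' N ⁅x, y⁆ = 1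
    rw [map_commutatorElement, commutatorElement_eq_one_iff_mul_comm]
    obtain ⟨g, hg⟩ := hQ.exists_generator
    obtain ⟨i, hi⟩ := Subgroup.mem_zpowers_iff.mp (hg (QuotientGroup.mk' N x))
    obtain ⟨j, hj⟩ := Subgroup.mem_zpowers_iff.mp (hg (QuotientGroup.mk' N y))
    rw [← hi, ← hj]
    exact ((Commute.refl g).zpow_zpow i j).eq
  obtain ⟨l, hl⟩ := IsPGroup.iff_card.mp (hL.to_subgroup (commutator L))
  have hl1 : l ≤ 1 := by
    by_contra hl2
    have hDn := hnormal (commutator L) inferInstance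
    obtain ⟨M, hMn, hMle, hMc⟩ := PGroups.exists_normal_card_le hG (k := 2) (m := l)
      (N := (commutator L).map (SemidirectProduct.inl : L →* Ext a))
      (by rw [Subgroup.card_map_of_injective SemidirectProduct.inl_injective, hl]) (by omega)
    rw [huniq M hMn hMc, ← hE₀eq] at hMle
    have hEN : E ≤ N := fun e he => hcN
      ((Subgroup.mem_map_iff_mem SemidirectProduct.inl_injective).mp
        (hMle (Subgroup.mem_map_of_mem _ he)))
    have : IsCyclic E :=
      isCyclic_of_injective (Subgroup.inclusion hEN) (Subgroup.inclusion_injective _)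
    obtain ⟨g, hg⟩ := IsCyclic.exists_generator (α := E)
    have hd : Nat.card E ∣ p := by
      rw [← orderOf_eq_card_of_forall_mem_zpowers hg]
      exact orderOf_dvd_of_pow_eq_one (Subtype.ext (by simpa using (hmem _).mp g.2))
    have := Nat.le_of_dvd hp.out.pos hd
    rw [hEc] at this
    exact absurd this (not_le.mpr (lt_self_pow₀ hp.out.one_lt one_lt_two))
  have hΦ : frattini L ≤ Subgroup.center L := by
    have hcc : commutator L ≤ Subgroup.center L := by
      interval_cases l
      · rw [Subgroup.eq_bot_of_card_eq (commutator L) (by rw [hl, pow_zero])]; exact bot_le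
      · exact PGroups.le_center_of_card_eq_prime hL (by rw [hl, pow_one])
    refine PGroups.frattini_le_of (p := p) hcc fun h => Subgroup.mem_center_iff.mpr fun g => ?_
    have hmem' : ⁅h, g⁆ ∈ commutator L := Subgroup.commutator_mem_commutator trivial trivial
    rw [eq_comm, ← commutatorElement_eq_one_iff_mul_comm,
      PGroups.commutatorElement_pow_left (hcc hmem')]
    exact orderOf_dvd_iff_pow_eq_one.mp ((Subgroup.orderOf_dvd_natCard _ hmem').trans
      (hl ▸ (pow_dvd_pow p hl1).trans (by rw [pow_one])))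
  -- so `E` is central in the extension
  have hE₀Z : E₀ ≤ Subgroup.center (Ext a) := by
    intro z hz
    obtain ⟨e, he, rfl⟩ := Subgroup.mem_map.mp hz
    have hfix : a e = e := by
      by_cases h1 : e = 1
      · rw [h1, map_one]
      · exact hall e (orderOf_eq_prime ((hmem e).mp he) h1)
    refine Subgroup.mem_center_iff.mpr fun g => ?_
    have hfix' : (g.right : MulAut L) e = e := by
      have hF : a ∈ MulAction.stabilizer (MulAut L) e := hfix
      exact Subgroup.zpowers_le.mpr hF g.right.2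
    refine SemidirectProduct.ext ?_ (by simp)
    simp only [SemidirectProduct.mul_left, SemidirectProduct.left_inl, SemidirectProduct.right_inl,
      map_one, MulAut.one_apply, Subgroup.coe_subtype, hfix']
    exact (Subgroup.mem_center_iff.mp (hΦ (hEΦ he)) g.left)
  have := Subgroup.card_le_of_le hE₀Z
  rw [hE₀, Subgroup.card_map_of_injective SemidirectProduct.inl_injective, hEc, hZ] at this
  exact absurd this (not_le.mpr (lt_self_pow₀ hp.out.one_lt one_lt_two))

/-- Let p be an odd prime and L a finite metacyclic p-group with no cyclic subgroup of index p, and let a be an automorphism of L of order p. Then a moves some element of order p of L if and only if p = 3 and the semidirect product L ⋊ ⟨a⟩ (of order 3·#L) has maximal class, i.e. nilpotency class m where #L = 3^m. -/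
theorem result {L : Type*} [Group L] [Finite L] {p : ℕ} [Fact p.Prime]
    (hp : p ≠ 2) (hL : IsPGroup p L) (hmc : Cfsg.IsMetacyclic L) (hnc : ∀ C : Subgroup L, IsCyclic C → C.index ≠ p)
    (a : MulAut L) (ha : orderOf a = p) (m : ℕ) (hm : Nat.card L = p ^ m) :
    (∃ x : L, orderOf x = p ∧ a x ≠ x) ↔
    (p = 3 ∧ Group.nilpotencyClass (SemidirectProduct L ↥(Subgroup.zpowers a) (Subgroup.zpowers a).subtype) = m) := by
  constructor
  · rintro ⟨x, hx, hax⟩
    exact max_class_of_moved hp hL hmc hnc a ha m hm hx hax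
  · rintro ⟨-, hcls⟩
    exact moved_of_max_class hp hL hmc hnc a ha m hm hcls

end Cfsg.Agent.S4079
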