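import Cfsg.Statements.S4080
-- import your own Cfsg.Agent.* helpers here

set_option autoImplicit false
open Cfsg

namespace Cfsg.Agent.S4080

/-- A nilpotent two-by-two matrix over a field squares to zero. -/
theorem sq_eq_zero_of_pow_eq_zero {K : Type*} [Field K] (N : Matrix (Fin 2) (Fin 2) K) {k : ℕ}
    (h : N ^ k = 0) : N ^ 2 = 0 := by
  rcases k with _ | k
  · rw [pow_zero] at h; exact absurd h one_ne_zero
  have hdet : N.det = 0 := by
    have := congrArg Matrix.det h
    rw [Matrix.det_pow, Matrix.det_zero] at this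
    exact eq_zero_of_pow_eq_zero this
  have hsq : N * N = (N 0 0 + N 1 1) • N := by
    rw [Matrix.det_fin_two] at hdet
    ext i j
    fin_cases i <;> fin_cases j <;>
      simp [Matrix.mul_apply, Fin.sum_univ_two] <;>
      first | ring1 | linear_combination -hdet
  have hpow : ∀ j : ℕ, N ^ (j + 1) = (N 0 0 + N 1 1) ^ j • N := fun j => by
    induction j with
    | zero => simp
    | succ j ih => rw [pow_succ, ih, smul_mul_assoc, hsq, smul_smul, ← pow_succ]
  rw [hpow] at h
  rcases smul_eq_zero.mp h with h0 | h0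
  · rw [pow_two, hsq, eq_zero_of_pow_eq_zero h0, zero_smul]
  · rw [h0, pow_two, mul_zero]

/-- Let p > 3 be a prime and L the direct product of two cyclic groups of order p². Every automorphism of L of order p fixes every element of order p of L. -/
theorem result {p : ℕ} [Fact p.Prime] (hp : 3 < p)
    (a : MulAut (Multiplicative (ZMod (p ^ 2) × ZMod (p ^ 2)))) (ha : orderOf a = p)
    (x : Multiplicative (ZMod (p ^ 2) × ZMod (p ^ 2))) (hx : orderOf x = p) : a x = x := by
  have hpp : p.Prime := Fact.out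
  have hdvd : p ∣ p ^ 2 := dvd_pow_self p two_ne_zero
  -- `a` as a linear map, then as a matrix
  let R := ZMod (p ^ 2)
  let lin : MulAut (Multiplicative (R × R)) →* Module.End R (R × R) :=
    { toFun := fun b => AddMonoidHom.toZModLinearMap (p ^ 2) (MonoidHom.toAdditiveLeft
        b.toMonoidHom |>.comp (AddEquiv.additiveMultiplicative (R × R)).symm.toAddMonoidHom)
      map_one' := rfl
      map_mul' := fun _ _ => rfl }
  let φ := LinearMap.toMatrixAlgEquiv (Module.Basis.finTwoProd R)
  set M : Matrix (Fin 2) (Fin 2) R := φ (lin a) with hMdef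
  have hap : a ^ p = 1 := by
    have h := pow_orderOf_eq_one a
    rwa [ha] at h
  have hMp : M ^ p = 1 := by
    rw [hMdef, ← map_pow, ← map_pow, hap, map_one, map_one]
  set B := M - 1 with hBdef
  -- `B ^ 2` is divisible by `p`
  let ρ : R →+* ZMod p := ZMod.castHom hdvd (ZMod p)
  have hB : (ρ.mapMatrix B) ^ 2 = 0 := by
    refine sq_eq_zero_of_pow_eq_zero _ (k := p) ?_
    rw [hBdef, map_sub, map_one, sub_pow_char_of_commute p (Commute.one_right _), ← map_pow, hMp,
      map_one, one_pow, sub_self]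
  have hdiv : ∀ z : R, ρ z = 0 → ∃ w : R, z = (p : R) * w := fun z hz => by
    obtain ⟨n, rfl⟩ := ZMod.natCast_zmod_surjective z
    rw [map_natCast, ZMod.natCast_eq_zero_iff] at hz
    obtain ⟨m, rfl⟩ := hz
    exact ⟨m, by push_cast; ring⟩
  have hC : ∃ C : Matrix (Fin 2) (Fin 2) R, B ^ 2 = (p : R) • C := by
    have h : ∀ i j, ∃ w : R, (B ^ 2) i j = (p : R) * w := fun i j => hdiv _ (by
      rw [← map_pow] at hB
      exact congrFun (congrFun hB i) j)
    choose w hw using h
    exact ⟨Matrix.of w, by ext i j; simpa using hw i j⟩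
  obtain ⟨C, hC⟩ := hC
  have hp0 : (p : R) * (p : R) = 0 := by
    rw [← Nat.cast_mul, ← pow_two]; exact ZMod.natCast_self _
  have hB4 : B ^ p = 0 := pow_eq_zero_of_le (show 2 + 2 ≤ p by omega) (by
    rw [pow_add, hC, smul_mul_smul_comm, hp0, zero_smul])
  have hterm : ∀ k, 2 ≤ k → k < p → B ^ k * (p.choose k : Matrix (Fin 2) (Fin 2) R) = 0 :=
    fun k hk hkp => by
      obtain ⟨c, hc⟩ := hpp.dvd_choose_self (by omega : k ≠ 0) hkp
      rw [hc, Nat.cast_mul, show k = 2 + (k - 2) by omega, pow_add, hC,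
        show ((p : ℕ) : Matrix (Fin 2) (Fin 2) R) = (p : R) • 1 by
          rw [Nat.cast_smul_eq_nsmul, nsmul_one], smul_mul_assoc, smul_mul_assoc, smul_mul_assoc, one_mul,
        mul_smul_comm, smul_smul, hp0, zero_smul]
  have hpB : (p : R) • B = 0 := by
    have h := (Commute.one_right B).add_pow p
    rw [show B + 1 = M from sub_add_cancel M 1, hMp] at h
    simp only [one_pow, mul_one] at h
    rw [Finset.sum_eq_add 0 1 zero_ne_one (fun k hk hne => ?_) (fun h0 => ?_) (fun h1 => ?_)] at h
    rotate_left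
    · rcases lt_or_eq_of_le (Nat.lt_succ_iff.mp (Finset.mem_range.mp hk)) with hlt | heq
      · exact hterm k (by omega) hlt
      · have hk0 : B ^ k = 0 := heq ▸ hB4
        rw [hk0, zero_mul]
    · exact absurd (Finset.mem_range.mpr (by omega)) h0
    · exact absurd (Finset.mem_range.mpr (by omega)) h1
    simpa [Nat.cast_smul_eq_nsmul, ← (Nat.cast_commute p B).eq, nsmul_eq_mul] using h
  -- elements of order `p` are multiples of `p`
  have hxp : ∃ y : R × R, Multiplicative.toAdd x = (p : R) • y := by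
    have h : (p : R) • Multiplicative.toAdd x = 0 := by
      have hxp := pow_orderOf_eq_one x
      rw [hx] at hxp
      rw [Nat.cast_smul_eq_nsmul, ← toAdd_pow, hxp]; rfl
    have key : ∀ z : R, (p : R) * z = 0 → ∃ w, z = (p : R) * w := fun z hz => hdiv z (by
      obtain ⟨n, rfl⟩ := ZMod.natCast_zmod_surjective z
      rw [← Nat.cast_mul, ZMod.natCast_eq_zero_iff, pow_two] at hz
      rw [map_natCast, ZMod.natCast_eq_zero_iff]
      exact Nat.dvd_of_mul_dvd_mul_left hpp.pos hz)
    obtain ⟨y1, h1⟩ := key _ (congrArg Prod.fst h)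
    obtain ⟨y2, h2⟩ := key _ (congrArg Prod.snd h)
    exact ⟨(y1, y2), Prod.ext h1 h2⟩
  obtain ⟨y, hy⟩ := hxp
  have hlin : (p : R) • (lin a - 1) = 0 := φ.injective (by
    rw [map_smul, map_sub, map_one, map_zero]; exact hpB)
  have hfin := LinearMap.congr_fun hlin y
  rw [LinearMap.smul_apply, LinearMap.sub_apply, LinearMap.zero_apply, smul_sub, ← map_smul,
    Module.End.one_apply, ← hy, sub_eq_zero] at hfin
  exact Multiplicative.toAdd.injective hfin

end Cfsg.Agent.S4080
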