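import Cfsg.Statements.S4081
import Cfsg.Agent.Lib.Subnormal.PrimitiveRoot
import Cfsg.Agent.Lib.Subnormal.Cover
import Cfsg.Agent.Lib.Cores.PCore
import Cfsg.Agent.Lib.CoprimeAction.Abelian
import Cfsg.Agent.Lib.Hall.Existence
import Mathlib.GroupTheory.SemidirectProduct
import Mathlib.Data.Nat.Factorization.PrimePow
import Cfsg.Agent.S0144

set_option autoImplicit false
open Cfsg

namespace Cfsg.Agent.S4081

open scoped IsMulCommutative
open CfsgLib.Subnormal Polynomial

variable {G : Type*} [Group G] [Finite G]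

omit [Finite G] in
theorem smul_eq (α : MulAut G) (g : G) : α • g = α g := rfl

theorem orbits_of_three (hnpp : ¬ IsPrimePow (Nat.card G)) (hnt : Nat.card G ≠ 1)
    (h3 : Nat.card (MulAction.orbitRel.Quotient (MulAut G) G) = 3) :
    ∃ p, p.Prime ∧ ∃ q, q.Prime ∧ p ≠ q ∧ ∃ a : G, orderOf a = p ∧ ∃ b : G, orderOf b = q ∧
      ∀ g : G, g = 1 ∨ (orderOf g = p ∧ ∃ α : MulAut G, α a = g) ∨
        (orderOf g = q ∧ ∃ α : MulAut G, α b = g) := by
  have h2 : 2 ≤ Nat.card G := by have := Nat.card_pos (α := G); omega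
  obtain ⟨p, hp, q, hq, hne⟩ := (Nat.not_isPrimePow_iff_nontrivial_of_two_le h2).mp hnpp
  have := Fact.mk (Nat.prime_of_mem_primeFactors hp)
  have := Fact.mk (Nat.prime_of_mem_primeFactors hq)
  obtain ⟨a, ha⟩ := exists_prime_orderOf_dvd_card' p (Nat.dvd_of_mem_primeFactors hp)
  obtain ⟨b, hb⟩ := exists_prime_orderOf_dvd_card' q (Nat.dvd_of_mem_primeFactors hq)
  refine ⟨p, Fact.out, q, Fact.out, hne, a, ha, b, hb, ?_⟩
  let f : Fin 3 → MulAction.orbitRel.Quotient (MulAut G) G :=
    fun i => Quotient.mk (MulAction.orbitRel (MulAut G) G) (![1, a, b] i)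
  have key : ∀ x y : G, Quotient.mk (MulAction.orbitRel (MulAut G) G) x = Quotient.mk _ y →
      ∃ α : MulAut G, α y = x := fun x y h => MulAction.orbitRel_apply.mp (Quotient.exact h)
  have hinj : Function.Injective f := by
    intro i j hij
    obtain ⟨α, hα⟩ := key _ _ hij
    have ho := MulEquiv.orderOf_eq α (![1, a, b] j)
    rw [hα] at ho
    have hval : ∀ i : Fin 3, orderOf (![1, a, b] i) = ![1, p, q] i := by
      intro i; fin_cases i <;> simp [ha, hb]
    rw [hval, hval] at ho
    have h1 := (Fact.out : p.Prime).two_le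
    have h2 := (Fact.out : q.Prime).two_le
    fin_cases i <;> fin_cases j <;> first | rfl | (simp at ho; omega)
  intro g
  obtain ⟨i, hi⟩ := (hinj.bijective_of_nat_card_le (by rw [h3, Nat.card_fin])).2
    (Quotient.mk (MulAction.orbitRel (MulAut G) G) g)
  obtain ⟨α, hα⟩ := key _ _ hi.symm
  fin_cases i
  · left; simpa using hα.symm
  · exact Or.inr (Or.inl ⟨by rw [← hα, MulEquiv.orderOf_eq]; exact ha, α, hα⟩)
  · exact Or.inr (Or.inr ⟨by rw [← hα, MulEquiv.orderOf_eq]; exact hb, α, hα⟩)

theorem eq_prime {r p : ℕ} (hr : r.Prime) (hp : p.Prime) {w : G} (hw : w ∈ Cfsg.pCore r G)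
    (hwo : orderOf w = p) : r = p := by
  obtain ⟨k, hk⟩ := (CfsgLib.Cores.isPGroup_pCore r G) ⟨w, hw⟩
  have := orderOf_dvd_of_pow_eq_one (congrArg Subtype.val hk : w ^ r ^ k = 1)
  rw [hwo] at this
  exact ((Nat.prime_dvd_prime_iff_eq hp hr).mp (hp.dvd_of_dvd_pow this)).symm

/-- Conjugation as a linear action on an abelian normal subgroup of exponent `p`. -/
noncomputable def conjEnd (p : ℕ) (P : Subgroup G) [P.Normal] [IsMulCommutative P]
    [Module (ZMod p) (Additive P)] : G →* Module.End (ZMod p) (Additive P) where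
  toFun g := (MulAut.conjNormal g : MulAut P).toMonoidHom.toAdditive.toZModLinearMap p
  map_one' := LinearMap.ext fun v => by
    show Additive.ofMul ((MulAut.conjNormal (1 : G) : MulAut P) v.toMul) = v
    simp
  map_mul' g h := LinearMap.ext fun v => by
    show Additive.ofMul ((MulAut.conjNormal (g * h) : MulAut P) v.toMul) = _
    rw [map_mul]
    rfl

omit [Finite G] in
theorem conjEnd_apply {p : ℕ} {P : Subgroup G} [P.Normal] [IsMulCommutative P]
    [Module (ZMod p) (Additive P)] (g : G) (v : Additive P) :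
    (((conjEnd p P g v).toMul : P) : G) = g * (v.toMul : P) * g⁻¹ :=
  MulAut.conjNormal_apply g _

omit [Finite G] in
theorem ext_additive {P : Subgroup G} {v w : Additive P} (h : ((v.toMul : P) : G) = (w.toMul : P)) :
    v = w := Subtype.ext h

theorem forward {p q : ℕ} (hp : p.Prime) (hq : q.Prime) (hne : p ≠ q) {a b : G} (ha : orderOf a = p)
    (hb : orderOf b = q)
    (hall : ∀ g : G, g = 1 ∨ (orderOf g = p ∧ ∃ α : MulAut G, α a = g) ∨
        (orderOf g = q ∧ ∃ α : MulAut G, α b = g))
    (hcore : Cfsg.pCore p G ≠ ⊥) :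
    ∃ (p q n : ℕ) (_ : Fact p.Prime) (_ : Fact q.Prime), p ≠ q ∧ 1 ≤ n ∧ Nat.card G = p ^ n * q ∧
      (∀ P : Sylow p G, (P : Subgroup G).Normal ∧ Cfsg.IsElementaryAbelian p (P : Subgroup G)) ∧
      orderOf (p : ZMod q) = q - 1 ∧
      ∀ x y : G, orderOf x = q → orderOf y = p → x * y * x⁻¹ ≠ y := by
  have := Fact.mk hp
  have := Fact.mk hq
  have horbp : ∀ g g' : G, orderOf g = p → orderOf g' = p → ∃ α : MulAut G, α g = g' := by
    intro g g' hg hg'
    have h1 : ∀ g : G, orderOf g = p → ∃ α : MulAut G, α a = g := fun g hg => by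
      rcases hall g with rfl | ⟨-, h⟩ | ⟨h, -⟩
      · rw [orderOf_one] at hg; exact absurd hg hp.ne_one.symm
      · exact h
      · exact absurd (hg.symm.trans h) hne
    obtain ⟨α, hα⟩ := h1 g hg
    obtain ⟨β, hβ⟩ := h1 g' hg'
    exact ⟨α.symm.trans β, by rw [MulEquiv.trans_apply, ← hα, MulEquiv.symm_apply_apply, hβ]⟩
  have horbq : ∀ g g' : G, orderOf g = q → orderOf g' = q → ∃ α : MulAut G, α g = g' := by
    intro g g' hg hg'
    have h1 : ∀ g : G, orderOf g = q → ∃ α : MulAut G, α b = g := fun g hg => by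
      rcases hall g with rfl | ⟨h, -⟩ | ⟨-, h⟩
      · rw [orderOf_one] at hg; exact absurd hg hq.ne_one.symm
      · exact absurd (h.symm.trans hg) hne
      · exact h
    obtain ⟨α, hα⟩ := h1 g hg
    obtain ⟨β, hβ⟩ := h1 g' hg'
    exact ⟨α.symm.trans β, by rw [MulEquiv.trans_apply, ← hα, MulEquiv.symm_apply_apply, hβ]⟩
  set P := Cfsg.pCore p G with hP
  have hPp : IsPGroup p P := CfsgLib.Cores.isPGroup_pCore p G
  have hchar : ∀ (K : Subgroup G), K.Characteristic → K ≠ ⊥ → K ≤ P →
      ∀ g : G, orderOf g = p → g ∈ K := by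
    intro K hK hK1 hKP g hg
    obtain ⟨w, hw, hw1⟩ := (Subgroup.bot_or_exists_ne_one K).resolve_left hK1
    have hwo : orderOf w = p := by
      rcases hall w with h | ⟨h, -⟩ | ⟨h, -⟩
      · exact absurd h hw1
      · exact h
      · exact absurd (eq_prime hp hq (hKP hw) h) hne
    obtain ⟨α, rfl⟩ := horbp w g hwo hg
    have := hK.fixed α
    rw [← this] at hw
    exact hw
  have hmemP : ∀ g : G, orderOf g = p → g ∈ P := hchar P inferInstance hcore le_rfl
  have hexp : ∀ g ∈ P, g = 1 ∨ orderOf g = p := by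
    intro g hg
    rcases hall g with h | ⟨h, -⟩ | ⟨h, -⟩
    · exact Or.inl h
    · exact Or.inr h
    · exact absurd (eq_prime hp hq hg h) hne
  have hexp' : ∀ g ∈ P, g ^ p = 1 := fun g hg => by
    rcases hexp g hg with rfl | h
    · exact one_pow _
    · exact h ▸ pow_orderOf_eq_one g
  -- the Sylow `p`-subgroup
  have hsyl : ∀ S : Sylow p G, (S : Subgroup G) = P := fun S => by
    refine le_antisymm (fun g hg => ?_) (CfsgLib.Cores.pCore_le_sylow S)
    rcases hall g with rfl | ⟨h, -⟩ | ⟨h, -⟩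
    · exact one_mem _
    · exact hmemP g h
    · obtain ⟨k, hk⟩ := IsPGroup.iff_orderOf.mp S.2 ⟨g, hg⟩
      rw [Subgroup.orderOf_mk, h] at hk
      exact absurd ((Nat.prime_dvd_prime_iff_eq hq hp).mp
        (hq.dvd_of_dvd_pow (dvd_of_eq hk))).symm hne
  have hPne : Nontrivial P := (Subgroup.nontrivial_iff_ne_bot P).mpr hcore
  -- `P` is abelian
  have hPab : IsMulCommutative P := by
    set Z := (Subgroup.center P).map P.subtype with hZ
    have hZne : Z ≠ ⊥ := by
      have := hPp.center_nontrivial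
      rw [hZ, Ne, Subgroup.map_eq_bot_iff_of_injective _ P.subtype_injective]
      exact (Subgroup.nontrivial_iff_ne_bot _).mp this
    have hZc : Z.Characteristic := CfsgLib.Cores.characteristic_map_subtype P _
    have hle : P ≤ Z := fun g hg => by
      rcases hexp g hg with rfl | h
      · exact one_mem _
      · exact hchar Z hZc hZne (Subgroup.map_subtype_le _) g h
    refine ⟨⟨fun u v => ?_⟩⟩
    obtain ⟨z, hz, hzu⟩ := hle u.2
    rw [show u = z from Subtype.ext hzu.symm]
    exact (Subgroup.mem_center_iff.mp hz v).symm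
  -- fixed-point-free
  have hfpf : ∀ x y : G, orderOf x = q → orderOf y = p → x * y * x⁻¹ ≠ y := by
    intro x y hx hy h
    have hc : Commute x y := mul_inv_eq_iff_eq_mul.mp h
    have ho := hc.orderOf_mul_eq_mul_orderOf_of_coprime
      (by rw [hx, hy]; exact (Nat.coprime_primes hq hp).mpr hne.symm)
    rw [hx, hy] at ho
    rcases hall (x * y) with h | ⟨h, -⟩ | ⟨h, -⟩
    · rw [h, orderOf_one] at ho
      exact hq.ne_one (Nat.eq_one_of_dvd_one ⟨p, ho⟩)
    · rw [h] at ho
      exact hne ((Nat.prime_dvd_prime_iff_eq hq hp).mp ⟨p, ho⟩).symm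
    · rw [h] at ho
      exact hp.ne_one ((mul_eq_left₀ hq.ne_zero).mp ho.symm)
  have hfpf' : ∀ x y : G, x ≠ 1 → x ^ q = 1 → y ∈ P → x * y * x⁻¹ = y → y = 1 := by
    intro x y hx1 hxq hy h
    rcases hexp y hy with h1 | h1
    · exact h1
    · exact absurd h (hfpf x y (orderOf_eq_prime hxq hx1) h1)
  -- the Sylow `q`-subgroup has order `q`
  obtain ⟨R⟩ : Nonempty (Sylow q G) := inferInstance
  have hRexp : ∀ g ∈ (R : Subgroup G), g ^ q = 1 := by
    intro g hg
    rcases hall g with rfl | ⟨h, -⟩ | ⟨h, -⟩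
    · exact one_pow _
    · obtain ⟨k, hk⟩ := IsPGroup.iff_orderOf.mp R.2 ⟨g, hg⟩
      rw [Subgroup.orderOf_mk, h] at hk
      exact absurd ((Nat.prime_dvd_prime_iff_eq hp hq).mp (hp.dvd_of_dvd_pow (dvd_of_eq hk))) hne
    · exact h ▸ pow_orderOf_eq_one g
  have hqdvd : q ∣ Nat.card G := hb ▸ orderOf_dvd_natCard b
  have hRne : Nontrivial (R : Subgroup G) := (Subgroup.nontrivial_iff_ne_bot _).mpr
    (R.ne_bot_of_dvd_card hqdvd)
  obtain ⟨x, hxc, hx1⟩ : ∃ x : (R : Subgroup G), x ∈ Subgroup.center (R : Subgroup G) ∧ x ≠ 1 := by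
    have := R.2.center_nontrivial
    obtain ⟨⟨x, hx⟩, h⟩ := exists_ne (1 : Subgroup.center (R : Subgroup G))
    exact ⟨x, hx, fun h1 => h (Subtype.ext h1)⟩
  have hx1' : (x : G) ≠ 1 := fun h => hx1 (Subtype.ext h)
  have hxq : orderOf (x : G) = q := orderOf_eq_prime (hRexp _ x.2) hx1'
  have hRx : (R : Subgroup G) = Subgroup.zpowers (x : G) := by
    refine le_antisymm (fun w hw => ?_) (Subgroup.zpowers_le.mpr x.2)
    by_contra hwx
    have hxw : Commute (x : G) w :=
      (congrArg Subtype.val (Subgroup.mem_center_iff.mp hxc ⟨w, hw⟩)).symm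
    set A : Subgroup G := Subgroup.closure {(x : G), w} with hA
    have hAR : A ≤ (R : Subgroup G) := (Subgroup.closure_le _).mpr (by
      rintro z (rfl | rfl)
      · exact x.2
      · exact hw)
    have : IsMulCommutative A := Subgroup.isMulCommutative_closure (by
      rintro u (rfl | rfl) v (rfl | rfl)
      · rfl
      · exact hxw
      · exact hxw.symm
      · rfl)
    have hAc : ¬ IsCyclic A := by
      intro h
      obtain ⟨g, hg⟩ := (Subgroup.isCyclic_iff_exists_zpowers_eq_top A).mp h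
      have hgA : g ∈ A := hg ▸ Subgroup.mem_zpowers g
      have hxA : (x : G) ∈ A := Subgroup.subset_closure (Set.mem_insert _ _)
      have hwA : w ∈ A := Subgroup.subset_closure (Set.mem_insert_of_mem _ rfl)
      have hgo : orderOf g ∣ q := orderOf_dvd_of_pow_eq_one (hRexp g (hAR hgA))
      have : Subgroup.zpowers (x : G) = A := by
        refine Subgroup.eq_of_le_of_card_ge (Subgroup.zpowers_le.mpr hxA) ?_
        rw [← hg, Nat.card_zpowers, Nat.card_zpowers, hxq]
        exact Nat.le_of_dvd hq.pos hgo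
      exact hwx (this ▸ hwA)
    have hcop : (Nat.card A).Coprime (Nat.card P) := by
      obtain ⟨i, hi⟩ := IsPGroup.iff_card.mp (R.2.to_le hAR)
      obtain ⟨j, hj⟩ := IsPGroup.iff_card.mp hPp
      rw [hi, hj]
      exact Nat.coprime_pow_primes _ _ hq hp hne.symm
    have hle := CfsgLib.CoprimeAction.le_of_centralizers (K := P) (H := ⊥) hAc
      (by rw [Subgroup.normalizer_eq_top_iff.mpr inferInstance]; exact le_top) hcop
      (fun u hu hu1 y hy => Subgroup.mem_bot.mpr (hfpf' u y hu1 (hRexp u (hAR hu)) hy.1 (by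
        rw [← Subgroup.mem_centralizer_singleton_iff.mp hy.2, mul_inv_cancel_right])))
    exact hcore (le_bot_iff.mp hle)
  have hRcard : Nat.card (R : Subgroup G) = q := by rw [hRx, Nat.card_zpowers, hxq]
  -- the order of `G`
  obtain ⟨n, hn⟩ := IsPGroup.iff_card.mp hPp
  have hn1 : 1 ≤ n := Nat.one_le_iff_ne_zero.mpr fun h => hcore
    (Subgroup.card_eq_one.mp (by rw [hn, h, pow_zero]))
  have hcard : Nat.card G = p ^ n * q := by
    obtain ⟨S⟩ : Nonempty (Sylow p G) := inferInstance
    have hcop : (p ^ n).Coprime q := Nat.Coprime.pow_left n ((Nat.coprime_primes hp hq).mpr hne)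
    refine Nat.dvd_antisymm ?_ (hcop.mul_dvd_of_dvd_of_dvd (hn ▸ Subgroup.card_subgroup_dvd_card P)
      (hRcard ▸ Subgroup.card_subgroup_dvd_card _))
    refine (Nat.dvd_iff_prime_pow_dvd_dvd _ _).mpr fun r k hr hdvd => ?_
    rcases k.eq_zero_or_pos with rfl | hk
    · simp
    have := Fact.mk hr
    obtain ⟨c, hc⟩ := exists_prime_orderOf_dvd_card' r ((dvd_pow_self r hk.ne').trans hdvd)
    rcases hall c with rfl | ⟨h, -⟩ | ⟨h, -⟩
    · rw [orderOf_one] at hc; exact absurd hc.symm hr.ne_one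
    · obtain rfl : r = p := hc ▸ h
      refine dvd_mul_of_dvd_left ?_ _
      rw [← hn, ← hsyl S]
      exact S.pow_dvd_card_of_pow_dvd_card hdvd
    · obtain rfl : r = q := hc ▸ h
      refine dvd_mul_of_dvd_right ?_ _
      conv_rhs => rw [← hRcard]
      exact R.pow_dvd_card_of_pow_dvd_card hdvd
  refine ⟨p, q, n, ‹_›, ‹_›, hne, hn1, hcard, fun S => ?_, ?_, hfpf⟩
  · rw [hsyl S]
    exact ⟨inferInstance, hPab, fun u hu => hexp' u hu⟩
  -- the primitive root
  have hmod : Module (ZMod p) (Additive P) := AddCommGroup.zmodModule (n := p) fun v => by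
    show Additive.ofMul (v.toMul ^ p) = 0
    rw [show v.toMul ^ p = 1 from Subtype.ext (hexp' _ (v.toMul : P).2)]
    rfl
  set T := conjEnd p P (x : G) with hT
  have hTq : T ^ q = 1 := by
    rw [hT, ← map_pow, hRexp _ x.2, map_one]
  have hfix : ∀ v : Additive P, T v = v → v = 0 := fun v hv => by
    have := congrArg (fun v : Additive P => ((v.toMul : P) : G)) hv
    rw [hT] at this
    simp only [conjEnd_apply] at this
    exact ext_additive (hfpf' _ _ hx1' (hRexp _ x.2) (v.toMul : P).2 this)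
  have hT1 : T ≠ 1 := by
    intro h
    obtain ⟨v, hv⟩ := exists_ne (0 : Additive P)
    exact hv (hfix v (by rw [h]; rfl))
  have hcomp : Subgroup.IsComplement' P (Subgroup.zpowers (x : G)) := by
    refine Subgroup.isComplement'_of_coprime ?_ ?_
    · rw [hn, Nat.card_zpowers, hxq, hcard]
    · rw [hn, Nat.card_zpowers, hxq]; exact Nat.Coprime.pow_left n ((Nat.coprime_primes hp hq).mpr hne)
  -- every automorphism acts semilinearly
  have hsemi : ∀ α : MulAut G, ∃ σ : Additive P ≃+ Additive P, ∃ i : ℕ,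
      (∀ v, σ (T v) = (T ^ i) (σ v)) ∧ ∀ v, ((σ v).toMul : G) = α (v.toMul : P) := by
    intro α
    have hPc : P.Characteristic := inferInstance
    have hmem : ∀ u : P, α u ∈ P := fun u => by
      have := hPc.fixed α.symm
      have h1 : α u ∈ P.comap α.symm.toMonoidHom := by simp
      rwa [this] at h1
    have hmem' : ∀ u : P, α.symm u ∈ P := fun u => by
      have := hPc.fixed α
      have h1 : α.symm u ∈ P.comap α.toMonoidHom := by simp
      rwa [this] at h1
    let σm : P ≃* P :=
      { toFun := fun u => ⟨α u, hmem u⟩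
        invFun := fun u => ⟨α.symm u, hmem' u⟩
        left_inv := fun u => Subtype.ext (α.symm_apply_apply _)
        right_inv := fun u => Subtype.ext (α.apply_symm_apply _)
        map_mul' := fun u v => Subtype.ext (map_mul α _ _) }
    have hx' : α (x : G) ∈ P ⊔ Subgroup.zpowers (x : G) := hcomp.sup_eq_top ▸ Subgroup.mem_top _
    obtain ⟨u, hu, z, hz, huz⟩ := Subgroup.mem_sup_of_normal_left.mp hx'
    obtain ⟨i, rfl⟩ := (isOfFinOrder_of_finite (x : G)).mem_powers_iff_mem_zpowers.mpr hz
    refine ⟨MulEquiv.toAdditive σm, i, fun v => ext_additive ?_, fun v => rfl⟩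
    rw [hT, ← map_pow, conjEnd_apply]
    show α ((conjEnd p P (x : G) v).toMul : P) = (x : G) ^ i * α (v.toMul : P) * ((x : G) ^ i)⁻¹
    rw [conjEnd_apply, map_mul, map_mul, map_inv, ← huz]
    have hcm : u * ((x : G) ^ i * α (v.toMul : P) * ((x : G) ^ i)⁻¹) =
        (x : G) ^ i * α (v.toMul : P) * ((x : G) ^ i)⁻¹ * u :=
      congrArg Subtype.val (hPab.is_comm.comm ⟨u, hu⟩
        ⟨_, Subgroup.Normal.conj_mem inferInstance _ (hmem v.toMul) _⟩)
    calc u * (x : G) ^ i * α (v.toMul : P) * (u * (x : G) ^ i)⁻¹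
        = u * ((x : G) ^ i * α (v.toMul : P) * ((x : G) ^ i)⁻¹) * u⁻¹ := by group
      _ = _ := by rw [hcm, mul_inv_cancel_right]
  refine PrimitiveRoot.orderOf_eq hne T hTq hT1 ?_ ?_
  · intro v h hh
    obtain ⟨W, ⟨hWinv, hWne⟩, hWmin⟩ := exists_minimal_of_wellFoundedLT
      (fun W : Submodule (ZMod p) (Additive P) => (∀ w ∈ W, T w ∈ W) ∧ W ≠ ⊥)
      ⟨⊤, fun _ _ => Submodule.mem_top, top_ne_bot⟩
    obtain ⟨v₀, hv₀, hv₀ne⟩ := W.ne_bot_iff.mp hWne
    have hpolyW : ∀ (g : (ZMod p)[X]), ∀ w ∈ W, aeval T g w ∈ W := by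
      intro g
      induction g using Polynomial.induction_on with
      | C c => intro w hw; rw [aeval_C, Module.algebraMap_end_apply]; exact W.smul_mem c hw
      | add g g' hg hg' => intro w hw; rw [map_add, LinearMap.add_apply]; exact W.add_mem (hg w hw) (hg' w hw)
      | monomial k c ih =>
        intro w hw
        rw [show C c * X ^ (k + 1) = (C c * X ^ k) * X by rw [pow_succ, mul_assoc], map_mul, aeval_X,
          Module.End.mul_apply]
        exact ih _ (hWinv w hw)
    have hv0 : v ≠ 0 := fun h0 => hh (by rw [h0, map_zero])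
    have hvP : orderOf ((v.toMul : P) : G) = p :=
      (hexp _ (v.toMul : P).2).resolve_left fun h0 => hv0 (ext_additive h0)
    have hv₀P : orderOf ((v₀.toMul : P) : G) = p :=
      (hexp _ (v₀.toMul : P).2).resolve_left fun h0 => hv₀ne (ext_additive h0)
    obtain ⟨α, hα⟩ := horbp _ _ hv₀P hvP
    obtain ⟨σ, i, hσ, hσα⟩ := hsemi α
    obtain ⟨τ, j, hτ, hτα⟩ := hsemi α.symm
    have hσ0 : σ v₀ = v := ext_additive (by rw [hσα, hα])
    have hτ0 : τ v = v₀ := ext_additive (by rw [hτα, ← hα, MulEquiv.symm_apply_apply])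
    have hτσ : ∀ w, σ (τ w) = w := fun w => ext_additive (by
      rw [hσα, hτα, MulEquiv.apply_symm_apply])
    have hu : τ (aeval T h v) = aeval T (h.comp (X ^ j)) v₀ := by
      rw [PrimitiveRoot.aeval_conj hτ, hτ0, aeval_comp, map_pow, aeval_X]
    set u := τ (aeval T h v) with hudef
    have hune : u ≠ 0 := fun h0 => hh (τ.injective (h0.trans (map_zero τ).symm))
    have huW : u ∈ W := hu ▸ hpolyW _ _ hv₀
    let L : (ZMod p)[X] →ₗ[ZMod p] Additive P := (LinearMap.applyₗ u).comp (aeval T).toLinearMap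
    have hrange : W ≤ LinearMap.range L := by
      refine hWmin ⟨?_, ?_⟩ ?_
      · rintro _ ⟨g, rfl⟩
        exact ⟨X * g, by simp [L]⟩
      · exact (Submodule.ne_bot_iff _).mpr ⟨u, ⟨1, by simp [L]⟩, hune⟩
      · rintro _ ⟨g, rfl⟩
        exact hpolyW g u huW
    obtain ⟨k, hk⟩ := hrange hv₀
    refine ⟨k.comp (X ^ i), ?_⟩
    rw [aeval_comp, map_pow, aeval_X, ← hτσ (aeval T h v), ← hudef,
      ← PrimitiveRoot.aeval_conj hσ, ← hσ0]
    exact congrArg σ hk
  · intro i hi1 hiq
    have hxi : orderOf ((x : G) ^ i) = q := by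
      refine orderOf_eq_prime (by rw [← pow_mul, mul_comm, pow_mul, hRexp _ x.2, one_pow]) fun h => ?_
      have := Nat.le_of_dvd hi1 (hxq ▸ orderOf_dvd_of_pow_eq_one h)
      omega
    obtain ⟨α, hα⟩ := horbq _ _ hxq hxi
    obtain ⟨σ, j, hσ, hσα⟩ := hsemi α
    refine ⟨σ, fun v => ext_additive ?_⟩
    rw [hσα, hT, ← map_pow, conjEnd_apply, conjEnd_apply, map_mul, map_mul, map_inv, hα, hσα]

theorem backward {p q n : ℕ} [hp : Fact p.Prime] [hq : Fact q.Prime] (hne : p ≠ q) (hn : 1 ≤ n)
    (hcard : Nat.card G = p ^ n * q)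
    (hP : ∀ P : Sylow p G, (P : Subgroup G).Normal ∧ Cfsg.IsElementaryAbelian p (P : Subgroup G))
    (hord : orderOf (p : ZMod q) = q - 1)
    (hfpf : ∀ x y : G, orderOf x = q → orderOf y = p → x * y * x⁻¹ ≠ y) :
    Nat.card (MulAction.orbitRel.Quotient (MulAut G) G) = 3 := by
  obtain ⟨S⟩ : Nonempty (Sylow p G) := inferInstance
  obtain ⟨hPn, hPab, hexp⟩ := hP S
  set P := (S : Subgroup G) with hPdef
  have hcop : (p ^ n).Coprime q := Nat.Coprime.pow_left n ((Nat.coprime_primes hp.out hq.out).mpr hne)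
  have hPcard : Nat.card P = p ^ n := by
    obtain ⟨k, hk⟩ := IsPGroup.iff_card.mp S.2
    have h1 : p ^ n ∣ p ^ k := hk ▸ S.pow_dvd_card_of_pow_dvd_card (hcard ▸ dvd_mul_right _ _)
    have h2 : p ^ k ∣ p ^ n * q := hk ▸ hcard ▸ Subgroup.card_subgroup_dvd_card P
    rw [hk]
    refine (Nat.dvd_antisymm ?_ h1)
    exact (Nat.Coprime.pow_left k ((Nat.coprime_primes hp.out hq.out).mpr hne)).dvd_of_dvd_mul_right h2
  obtain ⟨x, hx⟩ := exists_prime_orderOf_dvd_card' q (hcard ▸ dvd_mul_left q _)
  have hcomp : Subgroup.IsComplement' P (Subgroup.zpowers x) :=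
    Subgroup.isComplement'_of_coprime (by rw [hPcard, Nat.card_zpowers, hx, hcard])
      (by rw [hPcard, Nat.card_zpowers, hx]; exact hcop)
  have hindex : P.index = q := by
    rw [hcomp.symm.index_eq_card, Nat.card_zpowers, hx]
  -- the possible orders
  have horders : ∀ g : G, g = 1 ∨ orderOf g = p ∧ g ∈ P ∨ orderOf g = q := by
    intro g
    by_cases hg : g ∈ P
    · by_cases hg1 : g = 1
      · exact Or.inl hg1
      · exact Or.inr (Or.inl ⟨orderOf_eq_prime (hexp g hg) hg1, hg⟩)
    refine Or.inr (Or.inr (orderOf_eq_prime ?_ fun h => hg (h ▸ one_mem _)))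
    have hgq : g ^ q ∈ P := hindex ▸ P.pow_index_mem g
    by_contra h1
    have hy : orderOf (g ^ q) = p := orderOf_eq_prime (hexp _ hgq) h1
    have hzq : (g ^ p) ^ q = 1 := by
      rw [← pow_mul, mul_comm, pow_mul]; exact hexp _ hgq
    have hz1 : g ^ p ≠ 1 := fun h => by
      apply hg
      obtain ⟨u, v, huv⟩ := Nat.isCoprime_iff_coprime.mpr ((Nat.coprime_primes hp.out hq.out).mpr hne)
      rw [← zpow_one g, ← huv, zpow_add, mul_comm u, mul_comm v, zpow_mul, zpow_mul, zpow_natCast,
        zpow_natCast, h, one_zpow, one_mul]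
      exact P.zpow_mem hgq v
    refine hfpf _ _ (orderOf_eq_prime hzq hz1) hy ?_
    rw [← inv_pow]
    group
  have hmod : Module (ZMod p) (Additive P) := AddCommGroup.zmodModule (n := p) fun v => by
    show Additive.ofMul (v.toMul ^ p) = 0
    rw [show v.toMul ^ p = 1 from Subtype.ext (hexp _ (v.toMul : P).2)]
    rfl
  have hgeom : ∀ z : G, orderOf z = q →
      aeval (conjEnd p P z) (PrimitiveRoot.geom p q) = 0 := by
    intro z hz
    refine LinearMap.ext fun (v : Additive P) => ?_
    set w := aeval (conjEnd p P z) (PrimitiveRoot.geom p q) v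
    have h1 : (aeval (conjEnd p P z) ((PrimitiveRoot.geom p q) * (X - 1))) = 0 := by
      rw [PrimitiveRoot.geom_mul, map_sub, map_pow, aeval_X, map_one, ← map_pow, ← hz,
        pow_orderOf_eq_one, map_one, sub_self]
    rw [mul_comm, map_mul, map_sub, aeval_X, map_one] at h1
    have h2 : conjEnd p P z w - w = 0 := LinearMap.congr_fun h1 v
    rw [sub_eq_zero] at h2
    by_contra hw
    refine hfpf z ((w.toMul : P) : G) hz (orderOf_eq_prime (hexp _ (w.toMul : P).2)
      fun h => hw (ext_additive h)) ?_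
    rw [← conjEnd_apply (p := p), h2]
  -- building automorphisms
  have haut : ∀ (i : ℕ), orderOf (x ^ i) = q → ∀ u w : Additive P, u ≠ 0 → w ≠ 0 →
      ∃ α : MulAut G, α x = x ^ i ∧ α (u.toMul : P) = (w.toMul : P) := by
    intro i hi u w hu hw
    obtain ⟨σ, hσu, hσ⟩ := PrimitiveRoot.exists_conj hne hord (conjEnd p P x) (conjEnd p P (x ^ i))
      (hgeom x hx) (hgeom _ hi) hu hw
    have hσ' : ∀ v, σ (conjEnd p P x v) = ((conjEnd p P x) ^ i) (σ v) := fun v => by
      rw [hσ, map_pow]
    let fn : P ≃* P :=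
      { toFun := fun v => (σ (Additive.ofMul v)).toMul
        invFun := fun v => (σ.symm (Additive.ofMul v)).toMul
        left_inv := fun v => by simp
        right_inv := fun v => by simp
        map_mul' := fun a b => by simp [ofMul_mul, map_add] }
    let Q := Subgroup.zpowers x
    have hbij : Function.Bijective (fun z : Q => z ^ i) := by
      refine Finite.injective_iff_bijective.mp fun z z' h => ?_
      have hcopi : (Nat.card Q).Coprime i := by
        rw [Nat.card_zpowers, hx]
        refine (hq.out.coprime_iff_not_dvd).mpr fun hd => ?_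
        rw [← hx] at hd
        rw [orderOf_dvd_iff_pow_eq_one.mp hd, orderOf_one] at hi
        exact hq.out.ne_one hi.symm
      exact (powCoprime hcopi).injective h
    let fg : Q ≃* Q := { Equiv.ofBijective _ hbij with
      map_mul' := fun a b => (show Commute a b from mul_comm' a b).mul_pow i }
    let E := SemidirectProduct.mulEquivSubgroup hcomp
    have hcomm : ∀ z : Q, ((P.normalizerMonoidHom.comp
        (Subgroup.inclusion (P.normalizer_eq_top ▸ le_top : Q ≤ _))) z).trans fn =
        fn.trans ((P.normalizerMonoidHom.comp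
        (Subgroup.inclusion (P.normalizer_eq_top ▸ le_top : Q ≤ _))) (fg z)) := by
      rintro ⟨_, hz⟩
      obtain ⟨k, rfl⟩ := (isOfFinOrder_of_finite x).mem_powers_iff_mem_zpowers.mpr hz
      refine MulEquiv.ext fun v => Subtype.ext ?_
      have h := PrimitiveRoot.pow_conj hσ' k (Additive.ofMul v)
      rw [← map_pow, ← map_pow, ← map_pow] at h
      have h' := congrArg (fun v : Additive P => ((v.toMul : P) : G)) h
      simp only [conjEnd_apply] at h'
      show ((σ (Additive.ofMul _)).toMul : G) = (x ^ k) ^ i * ((σ (Additive.ofMul v)).toMul : P) * ((x ^ k) ^ i)⁻¹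
      rw [← pow_mul, mul_comm, pow_mul, ← h']
      rfl
    have key : ∀ z, (E.symm.trans ((SemidirectProduct.congr fn fg hcomm).trans E)) (E z) =
        E (SemidirectProduct.congr fn fg hcomm z) := fun z => by
      rw [MulEquiv.trans_apply, MulEquiv.symm_apply_apply, MulEquiv.trans_apply]
    refine ⟨E.symm.trans ((SemidirectProduct.congr fn fg hcomm).trans E), ?_, ?_⟩
    · have hE : E (SemidirectProduct.inr ⟨x, Subgroup.mem_zpowers x⟩) = x := by simp [E]
      refine (congrArg _ hE.symm).trans ((key _).trans ?_)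
      simp [E, SemidirectProduct.congr, fg]
      rfl
    · have hE : E (SemidirectProduct.inl u.toMul) = ((u.toMul : P) : G) := by simp [E]
      refine (congrArg _ hE.symm).trans ((key _).trans ?_)
      simp [E, SemidirectProduct.congr, fn, hσu]
  have hPnt : Nontrivial P := (Subgroup.one_lt_card_iff_ne_bot P).trans
    (Subgroup.nontrivial_iff_ne_bot P).symm |>.mp (hPcard ▸ Nat.one_lt_pow (by omega) hp.out.one_lt)
  obtain ⟨v₀, hv₀⟩ := exists_ne (0 : Additive P)
  have htransP : ∀ y : G, orderOf y = p → ∃ α : MulAut G, α (v₀.toMul : P) = y := by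
    intro y hy
    rcases horders y with h | ⟨-, hmem⟩ | h
    · rw [h, orderOf_one] at hy; exact absurd hy hp.out.ne_one.symm
    · obtain ⟨α, -, hα⟩ := haut 1 (by rw [pow_one, hx]) v₀ (Additive.ofMul ⟨y, hmem⟩) hv₀ (by
        intro h
        have := congrArg (fun v : Additive P => ((v.toMul : P) : G)) h
        simp at this
        rw [this, orderOf_one] at hy
        exact hp.out.ne_one hy.symm)
      exact ⟨α, hα⟩
    · exact absurd (hy.symm.trans h) hne
  have htransQ : ∀ z : G, orderOf z = q → ∃ α : MulAut G, α x = z := by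
    intro z hz
    have hsyl : ∀ y : G, orderOf y = q → ∃ R : Sylow q G, (R : Subgroup G) = Subgroup.zpowers y := by
      intro y hy
      have hi : ¬ q ∣ (Subgroup.zpowers y).index := by
        have := (Subgroup.zpowers y).index_mul_card
        rw [Nat.card_zpowers, hy, hcard] at this
        rw [Nat.eq_of_mul_eq_mul_right hq.out.pos this]
        exact (hq.out.coprime_iff_not_dvd).mp hcop.symm
      exact ⟨IsPGroup.toSylow (IsPGroup.of_card (n := 1) (by rw [Nat.card_zpowers, hy, pow_one])) hi, rfl⟩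
    obtain ⟨R, hR⟩ := hsyl x hx
    obtain ⟨R', hR'⟩ := hsyl z hz
    obtain ⟨g, hg⟩ := MulAction.exists_smul_eq G R R'
    have hmem : g⁻¹ * z * g ∈ Subgroup.zpowers x := by
      have hz' : z ∈ ((g • R : Sylow q G) : Subgroup G) := by
        rw [hg, hR']; exact Subgroup.mem_zpowers z
      rw [Sylow.coe_subgroup_smul, hR] at hz'
      obtain ⟨w, hw, hwz⟩ := hz'
      have hwz' : g * w * g⁻¹ = z := hwz
      rw [← hwz', show g⁻¹ * (g * w * g⁻¹) * g = w by group]
      exact hw
    obtain ⟨i, hi⟩ := (isOfFinOrder_of_finite x).mem_powers_iff_mem_zpowers.mpr hmem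
    have hio : orderOf (x ^ i) = q := by
      rw [show x ^ i = _ from hi, show g⁻¹ * z * g = MulAut.conj g⁻¹ z by simp, MulEquiv.orderOf_eq, hz]
    obtain ⟨α, hα, -⟩ := haut i hio v₀ v₀ hv₀ hv₀
    refine ⟨α.trans (MulAut.conj g), ?_⟩
    rw [MulEquiv.trans_apply, hα, show x ^ i = _ from hi, MulAut.conj_apply]
    group
  let f : Fin 3 → MulAction.orbitRel.Quotient (MulAut G) G :=
    fun i => Quotient.mk (MulAction.orbitRel (MulAut G) G) (![1, ((v₀.toMul : P) : G), x] i)
  have hv₀o : orderOf ((v₀.toMul : P) : G) = p :=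
    orderOf_eq_prime (hexp _ (v₀.toMul : P).2) fun h => hv₀ (ext_additive h)
  have hbij : Function.Bijective f := by
    constructor
    · intro i j hij
      obtain ⟨α, hα⟩ := MulAction.orbitRel_apply.mp (Quotient.exact hij)
      have ho := MulEquiv.orderOf_eq α (![1, ((v₀.toMul : P) : G), x] j)
      rw [show α (![1, ((v₀.toMul : P) : G), x] j) = ![1, ((v₀.toMul : P) : G), x] i from hα] at ho
      have hval : ∀ i : Fin 3, orderOf (![1, ((v₀.toMul : P) : G), x] i) = ![1, p, q] i := by
        intro i; fin_cases i <;> simp only [Fin.zero_eta, Fin.mk_one, Fin.reduceFinMk,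
          Matrix.cons_val_zero, Matrix.cons_val_one, Matrix.cons_val, orderOf_one, hv₀o, hx]
      rw [hval, hval] at ho
      have h1 := hp.out.two_le
      have h2 := hq.out.two_le
      fin_cases i <;> fin_cases j <;> first | rfl | (simp at ho; omega)
    · refine Quotient.ind fun g => ?_
      rcases horders g with rfl | ⟨h, -⟩ | h
      · exact ⟨0, rfl⟩
      · exact ⟨1, (Quotient.sound (MulAction.orbitRel_apply.mpr (htransP g h))).symm⟩
      · exact ⟨2, (Quotient.sound (MulAction.orbitRel_apply.mpr (htransQ g h))).symm⟩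
  rw [← Nat.card_congr (Equiv.ofBijective f hbij), Nat.card_fin]

theorem isSolvable_of_orders {p q : ℕ} (hp : p.Prime) (hq : q.Prime) (hne : p ≠ q) {a b : G}
    (hall : ∀ g : G, g = 1 ∨ (orderOf g = p ∧ ∃ α : MulAut G, α a = g) ∨
        (orderOf g = q ∧ ∃ α : MulAut G, α b = g)) : Group.IsSolvable G := by
  have hdvd : ∀ r : ℕ, r.Prime → r ∣ Nat.card G → r = p ∨ r = q := fun r hr hd => by
    have := Fact.mk hr
    obtain ⟨c, hc⟩ := exists_prime_orderOf_dvd_card' r hd
    rcases hall c with rfl | ⟨h, -⟩ | ⟨h, -⟩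
    · rw [orderOf_one] at hc; exact absurd hc.symm hr.ne_one
    · exact Or.inl (hc.symm.trans h)
    · exact Or.inr (hc.symm.trans h)
  refine Cfsg.Agent.S0144.result p q ((Nat.card G).factorization p) ((Nat.card G).factorization q)
    hp hq ?_
  refine Nat.eq_of_factorization_eq Nat.card_pos.ne'
    (mul_ne_zero (pow_ne_zero _ hp.ne_zero) (pow_ne_zero _ hq.ne_zero)) fun r => ?_
  rw [Nat.factorization_mul (pow_ne_zero _ hp.ne_zero) (pow_ne_zero _ hq.ne_zero),
    hp.factorization_pow, hq.factorization_pow, Finsupp.add_apply]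
  by_cases hrp : r = p
  · subst hrp; rw [Finsupp.single_eq_same, Finsupp.single_eq_of_ne hne, add_zero]
  by_cases hrq : r = q
  · subst hrq; rw [Finsupp.single_eq_same, Finsupp.single_eq_of_ne hrp, zero_add]
  rw [Finsupp.single_eq_of_ne hrp, Finsupp.single_eq_of_ne hrq, add_zero]
  by_cases hr : r.Prime
  · exact Nat.factorization_eq_zero_of_not_dvd fun hd => (hdvd r hr hd).elim hrp hrq
  · exact Nat.factorization_eq_zero_of_not_prime _ hr


/-- Let G be a finite group whose order is not a prime power. Then the automorphism group of G has exactly three orbits on G if and only if there are distinct primes p, q with #G = pⁿ·q (n ≥ 1) such that G has a normal elementary abelian Sylow p-subgroup P, p is a primitive root modulo q (the multiplicative order of p mod q is q − 1), and every element of order q of G acts on P without non-identity fixed points. -/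
theorem result {G : Type*} [Group G] [Finite G] (hnpp : ¬ IsPrimePow (Nat.card G)) (hnt : Nat.card G ≠ 1) :
    Nat.card (MulAction.orbitRel.Quotient (MulAut G) G) = 3 ↔
    ∃ (p q n : ℕ) (_ : Fact p.Prime) (_ : Fact q.Prime), p ≠ q ∧ 1 ≤ n ∧ Nat.card G = p ^ n * q ∧
      (∀ P : Sylow p G, (P : Subgroup G).Normal ∧ Cfsg.IsElementaryAbelian p (P : Subgroup G)) ∧
      orderOf (p : ZMod q) = q - 1 ∧
      ∀ x y : G, orderOf x = q → orderOf y = p → x * y * x⁻¹ ≠ y := by
  constructor
  · intro h3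
    obtain ⟨p, hp, q, hq, hne, a, ha, b, hb, hall⟩ := orbits_of_three hnpp hnt h3
    have hsolv : Group.IsSolvable G := isSolvable_of_orders hp hq hne hall
    have : Nontrivial G := ⟨a, 1, fun h => hp.ne_one (by rw [← ha, h, orderOf_one])⟩
    obtain ⟨r, hr, hrne⟩ := CfsgLib.Hall.exists_pCore_ne_bot (G := G)
    obtain ⟨w, hw, hw1⟩ := (Subgroup.bot_or_exists_ne_one _).resolve_left hrne
    rcases hall w with h | ⟨hwo, -⟩ | ⟨hwo, -⟩
    · exact absurd h hw1
    · exact forward hp hq hne ha hb hall (eq_prime hr hp hw hwo ▸ hrne)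
    · exact forward hq hp hne.symm hb ha (fun g => (hall g).imp_right Or.symm)
        (eq_prime hr hq hw hwo ▸ hrne)
  · rintro ⟨p, q, n, hp, hq, hne, hn, hcard, hP, hord, hfpf⟩
    exact backward hne hn hcard hP hord hfpf

end Cfsg.Agent.S4081
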