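import Cfsg.Statements.S4082
import Mathlib
import Cfsg.Agent.Lib.Subnormal.PByCyclic
import Cfsg.Agent.Lib.BGAppendix.Basic

set_option autoImplicit false
set_option linter.style.haveILetI false
open Cfsg
open scoped Pointwise commutatorElement

namespace Cfsg.Agent.S4082

open CfsgLib.Subnormal CfsgLib.CoprimeAction

variable {G : Type*} [Group G] [Finite G] {p : ℕ} [hp : Fact p.Prime]

/-- The restricted property. -/
def Restricted (p : ℕ) (G : Type*) [Group G] : Prop :=
  ∀ H : Subgroup G, (∀ S : Sylow p ↥H, (S : Subgroup ↥H).Normal) →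
    (∀ (S : Sylow p ↥H) [(S : Subgroup ↥H).Normal], IsCyclic (↥H ⧸ (S : Subgroup ↥H))) →
    IsCyclic H ∨ (∃ n : ℕ, Nonempty (H ≃* DihedralGroup (p ^ n)))

omit [Finite G] in
/-- An element normalizing a nontrivial `p`-subgroup without centralizing it is an involution. -/
theorem orderOf_eq_two_of_restricted [Finite G] (hp2 : p ≠ 2) (h : Restricted p G) {S : Subgroup G}
    (hS : IsPGroup p S) {y : G} (hy : y ∈ Subgroup.normalizer (S : Set G))
    (hyc : y ∉ Subgroup.centralizer (S : Set G)) : orderOf y = 2 := by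
  obtain ⟨hn, hc⟩ := sylow_normal_sup_zpowers hS hy
  set H := S ⊔ Subgroup.zpowers y
  obtain ⟨s, hs, hsy⟩ : ∃ s ∈ S, s * y ≠ y * s := by
    by_contra hall
    push Not at hall
    exact hyc (Subgroup.mem_centralizer_iff.mpr hall)
  set s' : H := ⟨s, Subgroup.mem_sup_left hs⟩
  set y' : H := ⟨y, Subgroup.mem_sup_right (Subgroup.mem_zpowers y)⟩
  rcases h H hn hc with hcyc | ⟨n, ⟨e⟩⟩
  · letI := hcyc.commGroup
    exact absurd (congrArg Subtype.val (mul_comm s' y')) hsy
  · haveI : NeZero (p ^ n) := ⟨pow_ne_zero _ hp.out.ne_zero⟩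
    have hne : e s' * e y' ≠ e y' * e s' := fun he => hsy (by
      rw [← map_mul, ← map_mul] at he
      exact congrArg Subtype.val (e.injective he))
    obtain ⟨k, hk⟩ := IsPGroup.iff_orderOf.mp hS ⟨s, hs⟩
    rw [Subgroup.orderOf_mk] at hk
    have hso : orderOf (e s') = p ^ k := by
      rw [MulEquiv.orderOf_eq, Subgroup.orderOf_mk, hk]
    obtain ⟨i, hi⟩ : ∃ i, e s' = DihedralGroup.r i := by
      rcases hd : e s' with i | i
      · exact ⟨i, rfl⟩
      · rw [hd, DihedralGroup.orderOf_sr] at hso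
        rcases Nat.eq_zero_or_pos k with rfl | hk0
        · simp at hso
        · have : p ∣ 2 := hso ▸ dvd_pow_self p hk0.ne'
          exact absurd ((Nat.prime_dvd_prime_iff_eq hp.out Nat.prime_two).mp this) hp2
    rcases hd : e y' with j | j
    · rw [hi, hd, DihedralGroup.r_mul_r, DihedralGroup.r_mul_r, add_comm] at hne
      exact absurd rfl hne
    · rw [← Subgroup.orderOf_mk y (Subgroup.mem_sup_right (Subgroup.mem_zpowers y) : y ∈ H),
        ← MulEquiv.orderOf_eq e, hd, DihedralGroup.orderOf_sr]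

theorem inverts_of_restricted (hp2 : p ≠ 2) (h : Restricted p G) {S : Subgroup G}
    (hS : IsPGroup p S) {y : G} (hy : y ∈ Subgroup.normalizer (S : Set G))
    (hyc : y ∉ Subgroup.centralizer (S : Set G)) {c : G}
    (hc : c ∈ Subgroup.centralizer (S : Set G)) : y * c * y⁻¹ = c⁻¹ := by
  have h1 := orderOf_eq_two_of_restricted hp2 h hS hy hyc
  have h2 := orderOf_eq_two_of_restricted hp2 h hS
    (Subgroup.mul_mem _ hy (Subgroup.centralizer_le_normalizer _ hc))
    (fun hm => hyc (by simpa using Subgroup.mul_mem _ hm (Subgroup.inv_mem _ hc)))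
  have h1' : y * y = 1 := by rw [← sq, ← h1, pow_orderOf_eq_one]
  have h2' : y * c * (y * c) = 1 := by rw [← sq, ← h2, pow_orderOf_eq_one]
  rw [inv_eq_of_mul_eq_one_right h1']
  exact eq_inv_of_mul_eq_one_left (by simpa [mul_assoc] using h2')

theorem forward (hp2 : p ≠ 2) (P : Sylow p G) (h : Restricted p G) :
    IsCyclic P ∧
      (Subgroup.normalizer ((P : Subgroup G) : Set G) = Subgroup.centralizer ((P : Subgroup G) : Set G) ∨
       ((Subgroup.centralizer ((P : Subgroup G) : Set G)).relIndex (Subgroup.normalizer ((P : Subgroup G) : Set G)) = 2 ∧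
        ∀ Q : Subgroup G, Q ≤ P → Nat.card Q = p →
          IsMulCommutative ↥(Subgroup.centralizer (Q : Set G)) ∧
          ∀ x : G, x ∈ Subgroup.normalizer (Q : Set G) → x ∉ Subgroup.centralizer (Q : Set G) →
            orderOf x = 2 ∧ ∀ c : G, c ∈ Subgroup.centralizer (Q : Set G) → x * c * x⁻¹ = c⁻¹)) := by
  have hcyc : IsCyclic P := by
    obtain ⟨hn, hc⟩ := sylow_normal_of_normal_pGroup (p := p) (H := (P : Subgroup G))
      (N := (⊤ : Subgroup (P : Subgroup G))) (P.isPGroup'.of_equiv Subgroup.topEquiv.symm)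
      (@isCyclic_of_subsingleton _ _ QuotientGroup.subsingleton_quotient_top)
    rcases h P hn hc with hc | ⟨n, ⟨e⟩⟩
    · exact hc
    · exfalso
      obtain ⟨m, hm⟩ := IsPGroup.iff_card.mp P.isPGroup'
      rw [Nat.card_congr e.toEquiv, DihedralGroup.nat_card] at hm
      have : 2 ∣ p := Nat.prime_two.dvd_of_dvd_pow (hm ▸ dvd_mul_right 2 _)
      exact hp2 ((Nat.prime_dvd_prime_iff_eq Nat.prime_two hp.out).mp this).symm
  refine ⟨hcyc, ?_⟩
  by_cases heq : Subgroup.normalizer ((P : Subgroup G) : Set G) =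
      Subgroup.centralizer ((P : Subgroup G) : Set G)
  · exact Or.inl heq
  right
  obtain ⟨y, hy, hyc⟩ : ∃ y ∈ Subgroup.normalizer ((P : Subgroup G) : Set G),
      y ∉ Subgroup.centralizer ((P : Subgroup G) : Set G) := by
    by_contra hall
    push Not at hall
    exact heq (le_antisymm hall (Subgroup.centralizer_le_normalizer _))
  have hPc : (P : Subgroup G) ≤ Subgroup.centralizer ((P : Subgroup G) : Set G) := fun a ha =>
    Subgroup.mem_centralizer_iff.mpr fun b hb => by
      letI := hcyc.commGroup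
      exact congrArg Subtype.val (mul_comm (⟨b, hb⟩ : (P : Subgroup G)) ⟨a, ha⟩)
  have hinv : ∀ z ∈ Subgroup.normalizer ((P : Subgroup G) : Set G),
      z ∉ Subgroup.centralizer ((P : Subgroup G) : Set G) → ∀ s ∈ (P : Subgroup G),
      z * s * z⁻¹ = s⁻¹ := fun z hz hzc s hs =>
    inverts_of_restricted hp2 h P.isPGroup' hz hzc (hPc hs)
  constructor
  · rw [Subgroup.relIndex, Subgroup.index_eq_two_iff]
    refine ⟨⟨y, hy⟩, fun b => ?_⟩
    simp only [Subgroup.mem_subgroupOf, Subgroup.coe_mul]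
    by_cases hb : (b : G) ∈ Subgroup.centralizer ((P : Subgroup G) : Set G)
    · refine Or.inr ⟨hb, fun hm => hyc ?_⟩
      simpa using Subgroup.mul_mem _ (Subgroup.inv_mem _ hb) hm
    · refine Or.inl ⟨Subgroup.mem_centralizer_iff.mpr fun s hs => ?_, hb⟩
      have h1 := hinv b b.2 hb _ ((P : Subgroup G).inv_mem hs)
      have h2 := hinv y hy hyc s hs
      rw [inv_inv] at h1
      rw [← h2] at h1
      have : (b : G) * y * s = s * ((b : G) * y) := by
        calc (b : G) * y * s = (b : G) * (y * s * y⁻¹) * (b : G)⁻¹ * ((b : G) * y) := by group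
          _ = _ := by rw [h1]
      exact this.symm
  · intro Q hQP hQc
    have hQp : IsPGroup p Q := P.isPGroup'.to_le hQP
    have hyQn : y ∈ Subgroup.normalizer (Q : Set G) := mem_normalizer_of_conj_mem fun q hq => by
      rw [hinv y hy hyc q (hQP hq)]; exact Q.inv_mem hq
    have hyQc : y ∉ Subgroup.centralizer (Q : Set G) := fun hm => by
      obtain ⟨q, hq, hq1⟩ := (Subgroup.bot_or_exists_ne_one Q).resolve_left fun hb => by
        rw [hb] at hQc; exact hp.out.ne_one (by simpa using hQc.symm)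
      have h1 := hinv y hy hyc q (hQP hq)
      have h2 := Subgroup.mem_centralizer_iff.mp hm q hq
      rw [← h2, mul_inv_cancel_right] at h1
      have hq2 : q ^ 2 = 1 := by rw [sq]; nth_rewrite 2 [h1]; exact mul_inv_cancel q
      have hd : orderOf q ∣ p := hQc ▸ (Subgroup.orderOf_mk q hq ▸ orderOf_dvd_natCard (⟨q, hq⟩ : Q))
      have h4 := Nat.eq_one_of_dvd_coprimes ((Nat.coprime_primes hp.out Nat.prime_two).mpr hp2) hd
        (orderOf_dvd_of_pow_eq_one hq2)
      exact hq1 (orderOf_eq_one_iff.mp h4)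
    have hinvQ := fun (x : G) hx hxc (c : G) hc =>
      inverts_of_restricted hp2 h hQp (y := x) (c := c) hx hxc hc
    refine ⟨⟨⟨fun a b => Subtype.ext ?_⟩⟩, fun x hx hxc =>
      ⟨orderOf_eq_two_of_restricted hp2 h hQp hx hxc, hinvQ x hx hxc⟩⟩
    show (a : G) * b = b * a
    have h1 := hinvQ y hyQn hyQc a a.2
    have h2 := hinvQ y hyQn hyQc b b.2
    have h3 := hinvQ y hyQn hyQc _ (a * b).2
    rw [Subgroup.coe_mul, show y * ((a : G) * b) * y⁻¹ = (y * a * y⁻¹) * (y * b * y⁻¹) by group,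
      h1, h2] at h3
    simpa using (congrArg (·⁻¹) h3).symm

theorem backward (P : Sylow p G) (hcyc : IsCyclic P)
    (h : Subgroup.normalizer ((P : Subgroup G) : Set G) = Subgroup.centralizer ((P : Subgroup G) : Set G) ∨
       ((Subgroup.centralizer ((P : Subgroup G) : Set G)).relIndex (Subgroup.normalizer ((P : Subgroup G) : Set G)) = 2 ∧
        ∀ Q : Subgroup G, Q ≤ P → Nat.card Q = p →
          IsMulCommutative ↥(Subgroup.centralizer (Q : Set G)) ∧
          ∀ x : G, x ∈ Subgroup.normalizer (Q : Set G) → x ∉ Subgroup.centralizer (Q : Set G) →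
            orderOf x = 2 ∧ ∀ c : G, c ∈ Subgroup.centralizer (Q : Set G) → x * c * x⁻¹ = c⁻¹)) :
    Restricted p G := by
  intro H hn hc
  obtain ⟨S, y, hS, hy, hyp, hH⟩ := exists_decomp hn hc
  -- `S` is conjugate into `P`
  obtain ⟨T, hT⟩ := hS.exists_le_sylow
  obtain ⟨g, hg⟩ := MulAction.exists_smul_eq G T P
  have hSP : MulAut.conj g • S ≤ (P : Subgroup G) := by
    rw [← hg, Sylow.coe_subgroup_smul]
    exact Subgroup.pointwise_smul_le_pointwise_smul_iff.mpr hT
  have hScyc : IsCyclic S := by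
    haveI : IsCyclic (P : Subgroup G) := hcyc
    haveI := Subgroup.isCyclic_of_le hSP
    exact (Subgroup.equivSMul (MulAut.conj g) S).isCyclic.mpr this
  have hcop : (Nat.card S).Coprime (orderOf y) := by
    obtain ⟨n, hn'⟩ := IsPGroup.iff_card.mp hS
    rw [hn']
    exact ((hp.out.coprime_iff_not_dvd).mpr hyp).pow_left n
  by_cases hyc : ∀ s ∈ S, y * s = s * y
  · exact Or.inl (hH ▸ isCyclic_sup_zpowers hScyc hyc hcop)
  right
  have hmemP : ∀ s ∈ S, g * s * g⁻¹ ∈ (P : Subgroup G) := fun s hs =>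
    hSP (Subgroup.smul_mem_pointwise_smul s (MulAut.conj g) S hs)
  rcases h with hNC | ⟨-, hQ⟩
  · -- a normal `p`-complement
    exfalso
    refine hyc fun s hs => ?_
    set K := (MonoidHom.transferSylow P hNC.le).ker with hK
    have hcompl : K.IsComplement' (P : Subgroup G) :=
      MonoidHom.ker_transferSylow_isComplement' P hNC.le
    have hKp : ¬ p ∣ Nat.card K := hcompl.index_eq_card ▸ P.not_dvd_index
    have hKi : K.index = Nat.card (P : Subgroup G) := hcompl.symm.index_eq_card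
    have hyK : y ∈ K := by
      obtain ⟨n, hn'⟩ := IsPGroup.iff_card.mp P.isPGroup'
      have hpow : y ^ p ^ n ∈ K := by rw [← hn', ← hKi]; exact K.pow_index_mem y
      obtain ⟨i, hi⟩ := exists_pow_eq_self_of_coprime
        ((Nat.Coprime.pow_right n ((hp.out.coprime_iff_not_dvd).mpr hyp).symm).symm)
      rw [← hi]; exact pow_mem hpow i
    have h1 : y * s * y⁻¹ * s⁻¹ ∈ K := by
      have h2 : s * y⁻¹ * s⁻¹ ∈ K := (inferInstance : K.Normal).conj_mem _ (K.inv_mem hyK) s
      simpa [mul_assoc] using K.mul_mem hyK h2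
    have h2 : y * s * y⁻¹ * s⁻¹ ∈ S := S.mul_mem (conj_mem hy hs) (S.inv_mem hs)
    have hd : S ⊓ K = ⊥ := (Subgroup.disjoint_of_coprime_natCard (by
      obtain ⟨n, hn'⟩ := IsPGroup.iff_card.mp hS
      rw [hn']
      exact ((hp.out.coprime_iff_not_dvd).mpr hKp).pow_left n)).eq_bot
    have h3 : y * s * y⁻¹ * s⁻¹ ∈ S ⊓ K := ⟨h2, h1⟩
    rw [hd, Subgroup.mem_bot] at h3
    exact commutatorElement_eq_one_iff_mul_comm.mp h3
  · obtain ⟨s₀, hs₀, hs₀p, hs₀y⟩ : ∃ s ∈ S, s ^ p = 1 ∧ y * s ≠ s * y := by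
      by_contra hall
      push Not at hall
      exact hyc (centralizes_of_cyclic hS hScyc hy hyp hall)
    have hs₀1 : s₀ ≠ 1 := fun h1 => hs₀y (by simp [h1])
    have hso : orderOf s₀ = p := orderOf_eq_prime hs₀p hs₀1
    set q := g * s₀ * g⁻¹ with hq
    have hqo : orderOf q = p := by
      rw [hq, ← MulAut.conj_apply, MulEquiv.orderOf_eq, hso]
    obtain ⟨hab, hinv⟩ := hQ (Subgroup.zpowers q) (Subgroup.zpowers_le.mpr (hmemP s₀ hs₀))
      (by rw [Nat.card_zpowers, hqo])
    -- `⟨s₀⟩` is the only subgroup of order `p` of `S`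
    have hys₀ : y * s₀ * y⁻¹ ∈ Subgroup.zpowers s₀ := by
      have huniq : Subgroup.zpowers (y * s₀ * y⁻¹) = Subgroup.zpowers s₀ :=
        CfsgLib.BGAppendix.eq_of_card_eq_of_le_cyclic S _ _ hScyc
          (Subgroup.zpowers_le.mpr (conj_mem hy hs₀)) (Subgroup.zpowers_le.mpr hs₀)
          (by rw [Nat.card_zpowers, Nat.card_zpowers, ← MulAut.conj_apply, MulEquiv.orderOf_eq])
      exact huniq ▸ Subgroup.mem_zpowers _
    set y' := g * y * g⁻¹ with hy'
    have hy'n : y' ∈ Subgroup.normalizer ((Subgroup.zpowers q : Subgroup G) : Set G) := by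
      refine mem_normalizer_of_conj_mem ?_
      rintro _ ⟨i, rfl⟩
      obtain ⟨j, hj⟩ := hys₀
      refine ⟨j * i, ?_⟩
      show q ^ (j * i) = y' * q ^ i * y'⁻¹
      have hj' : s₀ ^ j = y * s₀ * y⁻¹ := hj
      have hqj : q ^ j = y' * q * y'⁻¹ := by
        rw [hq, hy', conj_zpow, hj']; group
      rw [zpow_mul, hqj, conj_zpow]
    have hy'c : y' ∉ Subgroup.centralizer ((Subgroup.zpowers q : Subgroup G) : Set G) := by
      intro hm
      have := Subgroup.mem_centralizer_iff.mp hm q (Subgroup.mem_zpowers q)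
      apply hs₀y
      rw [hq, hy'] at this
      calc y * s₀ = g⁻¹ * ((g * y * g⁻¹) * (g * s₀ * g⁻¹)) * g := by group
        _ = _ := by rw [← this]; group
    obtain ⟨hy2, hinvc⟩ := hinv y' hy'n hy'c
    rw [hy', ← MulAut.conj_apply, MulEquiv.orderOf_eq] at hy2
    have hinvS : ∀ s ∈ S, y * s * y⁻¹ = s⁻¹ := by
      intro s hs
      have hsc : g * s * g⁻¹ ∈ Subgroup.centralizer ((Subgroup.zpowers q : Subgroup G) : Set G) := by
        refine Subgroup.mem_centralizer_iff.mpr ?_
        rintro _ ⟨i, rfl⟩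
        haveI : IsCyclic (P : Subgroup G) := hcyc
        letI := IsCyclic.commGroup (α := (P : Subgroup G))
        exact congrArg Subtype.val (mul_comm
          (⟨q ^ i, (P : Subgroup G).zpow_mem (hmemP s₀ hs₀) i⟩ : (P : Subgroup G))
          ⟨_, hmemP s hs⟩)
      have := hinvc _ hsc
      rw [hy'] at this
      calc y * s * y⁻¹ = g⁻¹ * ((g * y * g⁻¹) * (g * s * g⁻¹) * (g * y * g⁻¹)⁻¹) * g := by group
        _ = _ := by rw [this]; group
    have hyS : y ∉ S := fun hm => hs₀y (by
      haveI := hScyc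
      letI := hScyc.commGroup
      exact congrArg Subtype.val (mul_comm (⟨y, hm⟩ : S) ⟨s₀, hs₀⟩))
    obtain ⟨n, hn'⟩ := IsPGroup.iff_card.mp hS
    refine ⟨n, ?_⟩
    rw [← hn', ← hH]
    exact dihedral_sup_zpowers hScyc hy2 hyS hinvS

/-- Let p be an odd prime and G a finite group with Sylow p-subgroup P. Say that G has restricted p-by-cyclic subgroups when every subgroup H of G whose Sylow p-subgroup is normal in H with cyclic quotient is itself cyclic or dihedral of order 2pⁿ for some n. Then G has restricted p-by-cyclic subgroups if and only if P is cyclic and one of the following holds: (1) N_G(P) = C_G(P); or (2) N_G(P)/C_G(P) has order 2 and, for the subgroup Q of order p of P, the centralizer C_G(Q) is abelian and every element of N_G(Q) outside C_G(Q) is an involution inverting every element of C_G(Q). -/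
theorem result {G : Type*} [Group G] [Finite G] {p : ℕ}
    [Fact p.Prime] (hp : p ≠ 2) (P : Sylow p G) :
    (∀ H : Subgroup G, (∀ S : Sylow p ↥H, (S : Subgroup ↥H).Normal) →
        (∀ (S : Sylow p ↥H) [(S : Subgroup ↥H).Normal], IsCyclic (↥H ⧸ (S : Subgroup ↥H))) →
        IsCyclic H ∨ (∃ n : ℕ, Nonempty (H ≃* DihedralGroup (p ^ n)))) ↔
    (IsCyclic P ∧
      (Subgroup.normalizer ((P : Subgroup G) : Set G) = Subgroup.centralizer ((P : Subgroup G) : Set G) ∨
       ((Subgroup.centralizer ((P : Subgroup G) : Set G)).relIndex (Subgroup.normalizer ((P : Subgroup G) : Set G)) = 2 ∧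
        ∀ Q : Subgroup G, Q ≤ P → Nat.card Q = p →
          IsMulCommutative ↥(Subgroup.centralizer (Q : Set G)) ∧
          ∀ x : G, x ∈ Subgroup.normalizer (Q : Set G) → x ∉ Subgroup.centralizer (Q : Set G) →
            orderOf x = 2 ∧ ∀ c : G, c ∈ Subgroup.centralizer (Q : Set G) → x * c * x⁻¹ = c⁻¹))) :=
  ⟨fun h => forward hp P h, fun ⟨hc, h⟩ => backward P hc h⟩

end Cfsg.Agent.S4082
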