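import Cfsg.Statements.S4083
import Mathlib
import Cfsg.Agent.Lib.Subnormal.PByCyclic
import Cfsg.Agent.Lib.TwoGroups.Aut
import Cfsg.Agent.Lib.BGAppendix.Basic
import Cfsg.Agent.S0228

set_option autoImplicit false
set_option linter.style.haveILetI false
open Cfsg
open scoped Pointwise

namespace Cfsg.Agent.S4083

open CfsgLib.Subnormal CfsgLib.CoprimeAction

theorem r_comm (m : ℕ) (i j : ZMod m) :
    DihedralGroup.r i * DihedralGroup.r j = DihedralGroup.r j * DihedralGroup.r i := by
  rw [DihedralGroup.r_mul_r, DihedralGroup.r_mul_r, add_comm]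

/-- Subgroups of a dihedral 2-group are cyclic or dihedral. -/
theorem subgroup_dihedral {n : ℕ} (T : Subgroup (DihedralGroup (2 ^ n))) :
    IsCyclic T ∨ ∃ m : ℕ, 1 ≤ m ∧ Nonempty (T ≃* DihedralGroup (2 ^ m)) := by
  haveI : NeZero (2 ^ n) := ⟨pow_ne_zero _ two_ne_zero⟩
  set R := Subgroup.zpowers (DihedralGroup.r (1 : ZMod (2 ^ n))) with hR
  have hrR : ∀ i : ZMod (2 ^ n), DihedralGroup.r i ∈ R := fun i =>
    ⟨(i.val : ℤ), by simp⟩
  have hsrR : ∀ i : ZMod (2 ^ n), DihedralGroup.sr i ∉ R := by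
    intro i hi
    obtain ⟨k, hk⟩ := hi
    simp at hk
  by_cases hT : T ≤ R
  · exact Or.inl (Subgroup.isCyclic_of_le hT)
  obtain ⟨t, htT, htR⟩ := SetLike.not_le_iff_exists.mp hT
  obtain ⟨i, rfl⟩ : ∃ i, t = DihedralGroup.sr i := by
    rcases t with i | i
    · exact absurd (hrR i) htR
    · exact ⟨i, rfl⟩
  set U := T ⊓ R
  haveI : IsCyclic U := Subgroup.isCyclic_of_le (inf_le_right : U ≤ R)
  have hsup : U ⊔ Subgroup.zpowers (DihedralGroup.sr i) = T := by
    refine le_antisymm (sup_le inf_le_left (Subgroup.zpowers_le.mpr htT)) fun g hg => ?_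
    rcases g with j | j
    · exact Subgroup.mem_sup_left ⟨hg, hrR j⟩
    · have h1 : DihedralGroup.sr j * (DihedralGroup.sr i) ∈ U := by
        refine ⟨T.mul_mem hg htT, ?_⟩
        rw [DihedralGroup.sr_mul_sr]
        exact hrR _
      have h2 : DihedralGroup.sr j =
          DihedralGroup.sr j * DihedralGroup.sr i * DihedralGroup.sr i := by
        rw [mul_assoc, DihedralGroup.sr_mul_self, mul_one]
      rw [h2]
      exact Subgroup.mul_mem_sup h1 (Subgroup.mem_zpowers _)
  obtain ⟨m, -, hm⟩ := (Nat.dvd_prime_pow Nat.prime_two).mp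
    ((Subgroup.card_subgroup_dvd_card U).trans
      (show Nat.card (DihedralGroup (2 ^ n)) ∣ 2 ^ (n + 1) by rw [DihedralGroup.nat_card, pow_succ']))
  rcases Nat.eq_zero_or_pos m with rfl | hm0
  · left
    rw [Subgroup.eq_bot_of_card_eq U (by simpa using hm), bot_sup_eq] at hsup
    rw [← hsup]
    infer_instance
  refine Or.inr ⟨m, hm0, ?_⟩
  rw [← hm, ← hsup]
  refine dihedral_sup_zpowers (y := DihedralGroup.sr i) inferInstance (DihedralGroup.orderOf_sr i)
    (fun h => hsrR i h.2) fun s hs => ?_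
  obtain ⟨k, rfl⟩ := Subgroup.mem_zpowers_iff.mp hs.2
  simp [DihedralGroup.sr_mul_r, DihedralGroup.sr_mul_sr]

variable {G : Type*} [Group G] [Finite G]

/-- The property in question. -/
def Restricted (G : Type*) [Group G] : Prop :=
  ∀ H : Subgroup G, (∀ S : Sylow 2 ↥H, (S : Subgroup ↥H).Normal) →
    (∀ (S : Sylow 2 ↥H) [(S : Subgroup ↥H).Normal], IsCyclic (↥H ⧸ (S : Subgroup ↥H))) →
    IsCyclic H ∨ (∃ n : ℕ, Nonempty (H ≃* DihedralGroup (2 ^ n))) ∨ Nonempty (H ≃* alternatingGroup (Fin 4))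

omit [Finite G] in
theorem card_a4 : Nat.card (alternatingGroup (Fin 4)) = 12 := by
  have := nat_card_alternatingGroup (α := Fin 4)
  rw [this, Nat.card_fin]
  rfl

omit [Finite G] in
theorem not_cyclic_four {K : Subgroup G} (hK : Nat.card K = 4) (hexp : ∀ k ∈ K, k ^ 2 = 1) :
    ¬ IsCyclic K := by
  intro h
  haveI : Finite K := Nat.finite_of_card_ne_zero (by omega)
  obtain ⟨g, hg⟩ := h.exists_generator
  have h1 : orderOf g ∣ 2 := orderOf_dvd_of_pow_eq_one (Subtype.ext (by simpa using hexp g g.2))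
  rw [orderOf_eq_card_of_forall_mem_zpowers hg, hK] at h1
  exact absurd h1 (by decide)

theorem forward (P : Sylow 2 G) (h : Restricted G) :
    IsCyclic P ∨
      ((∃ n : ℕ, 1 ≤ n ∧ Nonempty ((P : Subgroup G) ≃* DihedralGroup (2 ^ n))) ∧
        ∀ K : Subgroup G, K ≤ P → Nat.card K = 4 → (∀ k ∈ K, k ^ 2 = 1) → Subgroup.centralizer (K : Set G) = K) := by
  haveI : Fact (Nat.Prime 2) := ⟨Nat.prime_two⟩
  by_cases hP : IsCyclic P
  · exact Or.inl hP
  refine Or.inr ⟨?_, fun K _ hKc hKexp => ?_⟩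
  · obtain ⟨hn, hc⟩ := sylow_normal_of_normal_pGroup (p := 2) (H := (P : Subgroup G))
      (N := (⊤ : Subgroup (P : Subgroup G))) (P.isPGroup'.of_equiv Subgroup.topEquiv.symm)
      (@isCyclic_of_subsingleton _ _ QuotientGroup.subsingleton_quotient_top)
    rcases h P hn hc with h1 | ⟨n, ⟨e⟩⟩ | ⟨⟨e⟩⟩
    · exact absurd h1 hP
    · refine ⟨n, Nat.pos_of_ne_zero fun hn0 => hP ?_, ⟨e⟩⟩
      subst hn0
      exact isCyclic_of_prime_card (p := 2) (by rw [Nat.card_congr e.toEquiv, DihedralGroup.nat_card]; norm_num)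
    · exfalso
      obtain ⟨m, hm⟩ := IsPGroup.iff_card.mp P.isPGroup'
      rw [Nat.card_congr e.toEquiv, card_a4] at hm
      have : 3 ∣ 2 := Nat.prime_three.dvd_of_dvd_pow (n := m) (hm ▸ (by norm_num : 3 ∣ 12))
      exact absurd this (by norm_num)
  · refine le_antisymm (fun c hc => ?_) fun a ha => Subgroup.mem_centralizer_iff.mpr fun b hb => ?_
    swap
    · have h1 := hKexp a ha
      have h2 := hKexp b hb
      have h3 := hKexp _ (K.mul_mem hb ha)
      rw [sq] at h1 h2 h3
      calc b * a = (b * a)⁻¹ := eq_inv_of_mul_eq_one_left h3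
        _ = a⁻¹ * b⁻¹ := mul_inv_rev b a
        _ = a * b := by rw [inv_eq_of_mul_eq_one_right h1, inv_eq_of_mul_eq_one_right h2]
    have hKp : IsPGroup 2 K := fun k => ⟨1, Subtype.ext (by simpa using hKexp k k.2)⟩
    have hcn := Subgroup.centralizer_le_normalizer _ hc
    obtain ⟨hn, hcq⟩ := sylow_normal_sup_zpowers hKp hcn
    set H := K ⊔ Subgroup.zpowers c with hH
    have hKH : K ≤ H := le_sup_left
    have hKab : ∀ a ∈ K, ∀ b ∈ K, a * b = b * a := by
      intro a ha b hb
      have h1 := hKexp a ha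
      have h2 := hKexp b hb
      have h3 := hKexp _ (K.mul_mem ha hb)
      rw [sq] at h1 h2 h3
      calc a * b = (a * b)⁻¹ := eq_inv_of_mul_eq_one_left h3
        _ = b⁻¹ * a⁻¹ := mul_inv_rev a b
        _ = b * a := by rw [inv_eq_of_mul_eq_one_right h1, inv_eq_of_mul_eq_one_right h2]
    have hHab : ∀ a ∈ H, ∀ b ∈ H, a * b = b * a := by
      have hgen : ∀ x ∈ H, H ≤ Subgroup.centralizer ({x} : Set G) := by
        have hcK : ∀ k ∈ K, k * c = c * k := Subgroup.mem_centralizer_iff.mp hc
        intro x hx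
        refine sup_le (fun k hk => ?_) (Subgroup.zpowers_le.mpr ?_)
        · refine Subgroup.mem_centralizer_iff.mpr ?_
          rintro _ rfl
          have : H ≤ Subgroup.centralizer ({k} : Set G) := sup_le
            (fun a ha => Subgroup.mem_centralizer_iff.mpr (by rintro _ rfl; exact hKab _ hk _ ha))
            (Subgroup.zpowers_le.mpr (Subgroup.mem_centralizer_iff.mpr (by rintro _ rfl; exact hcK _ hk)))
          exact (Subgroup.mem_centralizer_iff.mp (this hx) k rfl).symm
        · refine Subgroup.mem_centralizer_iff.mpr ?_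
          rintro _ rfl
          have : H ≤ Subgroup.centralizer ({c} : Set G) := sup_le
            (fun a ha => Subgroup.mem_centralizer_iff.mpr (by rintro _ rfl; exact (hcK _ ha).symm))
            (Subgroup.zpowers_le.mpr (Subgroup.mem_centralizer_iff.mpr (by rintro _ rfl; rfl)))
          exact (Subgroup.mem_centralizer_iff.mp (this hx) c rfl).symm
      exact fun a ha b hb => (Subgroup.mem_centralizer_iff.mp (hgen a ha hb) a rfl)
    have hfin : Nat.card H ≤ 4 := by
      rcases h H hn hcq with h1 | ⟨n, ⟨e⟩⟩ | ⟨⟨e⟩⟩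
      · haveI := h1
        exact absurd (Subgroup.isCyclic_of_le hKH) (not_cyclic_four hKc hKexp)
      · have hcm : ∀ a b : DihedralGroup (2 ^ n), a * b = b * a := fun a b => e.symm.injective (by
          rw [map_mul, map_mul]; exact Subtype.ext (hHab _ (e.symm a).2 _ (e.symm b).2))
        have h2 := hcm (DihedralGroup.r 1) (DihedralGroup.sr 0)
        rw [DihedralGroup.r_mul_sr, DihedralGroup.sr_mul_r, zero_sub, zero_add,
          DihedralGroup.sr.injEq] at h2
        have h3 : ((2 : ℕ) : ZMod (2 ^ n)) = 0 := by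
          have : (1 : ZMod (2 ^ n)) + 1 = 0 := by nth_rewrite 1 [← h2]; simp
          push_cast
          linear_combination this
        rw [ZMod.natCast_eq_zero_iff] at h3
        have := Nat.le_of_dvd two_pos h3
        rw [Nat.card_congr e.toEquiv, DihedralGroup.nat_card]
        omega
      · exfalso
        have hcm : ∀ a b : alternatingGroup (Fin 4), a * b = b * a := fun a b => e.symm.injective (by
          rw [map_mul, map_mul]; exact Subtype.ext (hHab _ (e.symm a).2 _ (e.symm b).2))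
        revert hcm
        decide
    have := Subgroup.eq_of_le_of_card_ge hKH (hfin.trans hKc.ge)
    rw [this]
    exact Subgroup.mem_sup_right (Subgroup.mem_zpowers c)

omit [Finite G] in
/-- An element of odd order normalizing a subgroup with 2-group automorphism group centralizes it. -/
theorem centralizes_of_aut {S : Subgroup G} (hA : IsPGroup 2 (MulAut S)) {y : G}
    (hy : y ∈ Subgroup.normalizer (S : Set G)) (hyp : ¬ 2 ∣ orderOf y) :
    ∀ s ∈ S, y * s = s * y := by
  intro s hs
  set y' : Subgroup.normalizer (S : Set G) := ⟨y, hy⟩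
  obtain ⟨k, hk⟩ := hA (S.normalizerMonoidHom y')
  have h1 : S.normalizerMonoidHom y' = 1 := by
    have hd : orderOf (S.normalizerMonoidHom y') ∣ orderOf y :=
      (orderOf_map_dvd _ _).trans (by rw [Subgroup.orderOf_mk])
    exact orderOf_eq_one_iff.mp (Nat.eq_one_of_dvd_coprimes
      (((Nat.prime_two.coprime_iff_not_dvd).mpr hyp).pow_left k)
      (orderOf_dvd_of_pow_eq_one hk) hd)
  have h2 : y' ∈ (S.normalizerMonoidHom).ker := h1
  rw [Subgroup.normalizerMonoidHom_ker, Subgroup.mem_subgroupOf] at h2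
  exact (Subgroup.mem_centralizer_iff.mp h2 s hs).symm

theorem backward (P : Sylow 2 G)
    (h : IsCyclic P ∨
      ((∃ n : ℕ, 1 ≤ n ∧ Nonempty ((P : Subgroup G) ≃* DihedralGroup (2 ^ n))) ∧
        ∀ K : Subgroup G, K ≤ P → Nat.card K = 4 → (∀ k ∈ K, k ^ 2 = 1) → Subgroup.centralizer (K : Set G) = K)) :
    Restricted G := by
  haveI : Fact (Nat.Prime 2) := ⟨Nat.prime_two⟩
  intro H hn hc
  obtain ⟨S, y, hS, hy, hyp, hH⟩ := exists_decomp hn hc
  obtain ⟨T, hT⟩ := hS.exists_le_sylow
  obtain ⟨g, hg⟩ := MulAction.exists_smul_eq G T P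
  have hSP : MulAut.conj g • S ≤ (P : Subgroup G) := by
    rw [← hg, Sylow.coe_subgroup_smul]
    exact Subgroup.pointwise_smul_le_pointwise_smul_iff.mpr hT
  have hcop : (Nat.card S).Coprime (orderOf y) := by
    obtain ⟨n, hn'⟩ := IsPGroup.iff_card.mp hS
    rw [hn']
    exact ((Nat.prime_two.coprime_iff_not_dvd).mpr hyp).pow_left n
  by_cases hSc : IsCyclic S
  · haveI := hSc
    exact Or.inl (hH ▸ isCyclic_sup_zpowers hSc
      (centralizes_of_aut (CfsgLib.TwoGroups.isPGroup_mulAut_of_isCyclic hS) hy hyp) hcop)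
  rcases h with hP | ⟨⟨n, -, ⟨e⟩⟩, hK⟩
  · haveI : IsCyclic (P : Subgroup G) := hP
    haveI := Subgroup.isCyclic_of_le hSP
    exact absurd ((Subgroup.equivSMul (MulAut.conj g) S).isCyclic.mpr this) hSc
  -- four-groups of `S` are self-centralizing
  have hKS : ∀ K : Subgroup G, K ≤ S → Nat.card K = 4 → (∀ k ∈ K, k ^ 2 = 1) →
      ∀ c ∈ Subgroup.centralizer (K : Set G), c ∈ K := by
    intro K hKS h4 hexp c hc
    have hmem : ∀ k, g * k * g⁻¹ ∈ MulAut.conj g • K ↔ k ∈ K := fun k => by
      rw [mem_conj_iff]; simp [mul_assoc]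
    have h' := hK (MulAut.conj g • K)
      ((Subgroup.pointwise_smul_le_pointwise_smul_iff.mpr hKS).trans hSP)
      (by rw [card_conj_smul, h4]) (fun k hk => by
        have := hexp _ (mem_conj_iff.mp hk)
        calc k ^ 2 = g * (g⁻¹ * k * g) ^ 2 * g⁻¹ := by rw [sq, sq]; group
          _ = 1 := by rw [this]; simp)
    rw [← hmem, ← h', Subgroup.mem_centralizer_iff]
    intro k hk
    have := Subgroup.mem_centralizer_iff.mp hc _ (mem_conj_iff.mp hk)
    calc k * (g * c * g⁻¹) = g * ((g⁻¹ * k * g) * c) * g⁻¹ := by group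
      _ = _ := by rw [this]; group
  -- `S` is dihedral
  let iso : S ≃* (MulAut.conj g • S : Subgroup G) := Subgroup.equivSMul (MulAut.conj g) S
  let j : S →* DihedralGroup (2 ^ n) :=
    (e.toMonoidHom.comp (Subgroup.inclusion hSP)).comp iso.toMonoidHom
  have hj : Function.Injective j :=
    (e.injective.comp (Subgroup.inclusion_injective hSP)).comp iso.injective
  rcases subgroup_dihedral j.range with hcy | ⟨m, hm1, ⟨eT⟩⟩
  · exact absurd ((MonoidHom.ofInjective hj).isCyclic.mpr hcy) hSc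
  let eS : S ≃* DihedralGroup (2 ^ m) := (MonoidHom.ofInjective hj).trans eT
  haveI : NeZero (2 ^ m) := ⟨pow_ne_zero _ two_ne_zero⟩
  by_cases hy1 : y = 1
  · refine Or.inr (Or.inl ⟨m, ?_⟩)
    rw [← hH, hy1, Subgroup.zpowers_one_eq_bot, sup_bot_eq]
    exact ⟨eS⟩
  -- the central four-group
  set z : ZMod (2 ^ m) := ((2 ^ (m - 1) : ℕ) : ZMod (2 ^ m)) with hz
  have hzz : z + z = 0 := by
    rw [hz, ← Nat.cast_add, ← two_mul, ← pow_succ', Nat.sub_add_cancel hm1, ZMod.natCast_self]
  have hz0 : z ≠ 0 := by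
    rw [hz, Ne, ZMod.natCast_eq_zero_iff]
    intro hd
    have := Nat.le_of_dvd (Nat.two_pow_pos _) hd
    have := Nat.pow_lt_pow_right (by norm_num : 1 < 2) (Nat.sub_lt hm1 one_pos)
    omega
  set a : G := ((eS.symm (DihedralGroup.r z) : S) : G) with ha
  set b : G := ((eS.symm (DihedralGroup.sr 0) : S) : G) with hb
  have hlift : ∀ u v w : DihedralGroup (2 ^ m), u * v = w →
      ((eS.symm u : S) : G) * (eS.symm v : S) = (eS.symm w : S) := fun u v w huv => by
    rw [← Subgroup.coe_mul, ← map_mul, huv]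
  have haS : a ∈ S := SetLike.coe_mem _
  have hbS : b ∈ S := SetLike.coe_mem _
  have ha2 : a * a = 1 := by
    rw [ha, hlift _ _ 1 (by rw [DihedralGroup.r_mul_r, hzz]; rfl), map_one, Subgroup.coe_one]
  have hb2 : b * b = 1 := by
    rw [hb, hlift _ _ 1 (DihedralGroup.sr_mul_self 0), map_one, Subgroup.coe_one]
  have hab : a * b = b * a := by
    rw [ha, hb, hlift _ _ _ (DihedralGroup.r_mul_sr z 0), hlift _ _ _ (DihedralGroup.sr_mul_r 0 z),
      zero_sub, zero_add, neg_eq_of_add_eq_zero_left hzz]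
  have ha1 : a ≠ 1 := fun h1 => hz0 (by
    have h2 : eS.symm (DihedralGroup.r z) = 1 := Subtype.ext h1
    rw [← map_one eS.symm] at h2
    have h3 := eS.symm.injective h2
    rw [DihedralGroup.one_def, DihedralGroup.r.injEq] at h3
    exact h3)
  have hb1 : b ≠ 1 := fun h1 => by
    have h2 : eS.symm (DihedralGroup.sr 0) = 1 := Subtype.ext h1
    rw [← map_one eS.symm] at h2
    have h3 := eS.symm.injective h2
    rw [DihedralGroup.one_def] at h3
    exact nomatch h3
  have hba : b ≠ a := fun h1 => by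
    have h3 := eS.symm.injective (Subtype.ext h1)
    exact nomatch h3
  let K : Subgroup G :=
    { carrier := {1, a, b, a * b}
      one_mem' := Or.inl rfl
      mul_mem' := by
        have e1 : a * (a * b) = b := by rw [← mul_assoc, ha2, one_mul]
        have e2 : b * (a * b) = a := by rw [← mul_assoc, ← hab, mul_assoc, hb2, mul_one]
        have e3 : a * b * a = b := by rw [hab, mul_assoc, ha2, mul_one]
        have e4 : a * b * b = a := by rw [mul_assoc, hb2, mul_one]
        have e5 : a * b * (a * b) = 1 := by rw [mul_assoc, e2, ha2]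
        rintro u v (rfl | rfl | rfl | rfl) (rfl | rfl | rfl | rfl) <;>
          simp only [Set.mem_insert_iff, Set.mem_singleton_iff, one_mul, mul_one, ha2, hb2, e1, e2,
            e3, e4, e5, ← hab, true_or, or_true]
      inv_mem' := by
        rintro u (rfl | rfl | rfl | rfl)
        · simp
        · rw [inv_eq_of_mul_eq_one_right ha2]; exact Or.inr (Or.inl rfl)
        · rw [inv_eq_of_mul_eq_one_right hb2]; exact Or.inr (Or.inr (Or.inl rfl))
        · rw [mul_inv_rev, inv_eq_of_mul_eq_one_right ha2, inv_eq_of_mul_eq_one_right hb2, ← hab]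
          exact Or.inr (Or.inr (Or.inr rfl)) }
  have hKle : K ≤ S := by
    rintro u (rfl | rfl | rfl | rfl)
    exacts [S.one_mem, haS, hbS, S.mul_mem haS hbS]
  have hKexp : ∀ u ∈ K, u ^ 2 = 1 := by
    rintro u (rfl | rfl | rfl | rfl)
    · simp
    · rw [sq, ha2]
    · rw [sq, hb2]
    · rw [sq]
      calc a * b * (a * b) = a * (b * a) * b := by group
        _ = 1 := by rw [← hab, ← mul_assoc, ha2, one_mul, hb2]
  have hKc : Nat.card K = 4 := by
    have hab1 : a * b ≠ 1 := fun h1 => hba (by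
      rw [← inv_eq_of_mul_eq_one_right h1, inv_eq_of_mul_eq_one_right ha2])
    have hcar : (K : Set G) = {1, a, b, a * b} := rfl
    rw [← SetLike.coe_sort_coe, Nat.card_coe_set_eq, hcar, Set.ncard_insert_of_notMem,
      Set.ncard_insert_of_notMem, Set.ncard_pair]
    · exact fun h1 => ha1 (mul_eq_right.mp h1.symm)
    · simp only [Set.mem_insert_iff, Set.mem_singleton_iff, not_or]
      exact ⟨hba.symm, fun h1 => hb1 (left_eq_mul.mp h1)⟩
    · simp only [Set.mem_insert_iff, Set.mem_singleton_iff, not_or]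
      exact ⟨ha1.symm, hb1.symm, hab1.symm⟩
  have hyK : ∀ k : ℕ, (∀ s ∈ S, y ^ k * s = s * y ^ k) → y ^ k = 1 := by
    intro k hk
    have hm : y ^ k ∈ K := hKS K hKle hKc hKexp _
      (Subgroup.mem_centralizer_iff.mpr fun u hu => (hk u (hKle hu)).symm)
    have h2 : orderOf (y ^ k) ∣ 2 := orderOf_dvd_of_pow_eq_one (hKexp _ hm)
    exact orderOf_eq_one_iff.mp (Nat.eq_one_of_dvd_coprimes
      (Nat.prime_two.coprime_iff_not_dvd.mpr hyp) h2 (orderOf_pow_dvd k))
  have hcS : Nat.card S = 2 * 2 ^ m := by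
    rw [Nat.card_congr eS.toEquiv, DihedralGroup.nat_card]
  obtain rfl : m = 1 := by
    by_contra hm
    refine hy1 ?_
    have := hyK 1 (by
      simpa using centralizes_of_aut (CfsgLib.TwoGroups.isPGroup_mulAut_congr eS.symm
        (CfsgLib.TwoGroups.isPGroup_mulAut_dihedral (by omega : 2 ≤ m))) hy hyp)
    simpa using this
  have hKS' : K = S := Subgroup.eq_of_le_of_card_ge hKle (by rw [hKc, hcS]; norm_num)
  -- `y` has order three
  have hy3 : y ^ 3 = 1 := by
    set y' : Subgroup.normalizer (S : Set G) := ⟨y, hy⟩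
    let q : MulAut S →* Equiv.Perm S :=
      { toFun := fun f => f.toEquiv, map_one' := rfl, map_mul' := fun _ _ => rfl }
    have h24 : q (S.normalizerMonoidHom y') ^ 24 = 1 := by
      have := pow_card_eq_one' (x := q (S.normalizerMonoidHom y'))
      rwa [Nat.card_perm, hcS, show Nat.factorial (2 * 2 ^ 1) = 24 by decide] at this
    rw [← map_pow, ← map_pow] at h24
    have h2 : S.normalizerMonoidHom (y' ^ 24) = 1 := MulEquiv.ext fun s => by
      rw [MulAut.one_apply]; exact congrArg (fun f : Equiv.Perm S => f s) h24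
    have h3 : y' ^ 24 ∈ (S.normalizerMonoidHom).ker := h2
    rw [Subgroup.normalizerMonoidHom_ker, Subgroup.mem_subgroupOf] at h3
    have h4 : y ^ 24 = 1 := hyK 24 fun s hs => (Subgroup.mem_centralizer_iff.mp h3 s hs).symm
    have h5 : (orderOf y).Coprime 8 :=
      ((Nat.prime_two.coprime_iff_not_dvd).mpr hyp).symm.pow_right 3
    have h6 : orderOf y ∣ 3 := h5.dvd_of_dvd_mul_left (orderOf_dvd_of_pow_eq_one h4 : orderOf y ∣ 8 * 3)
    exact orderOf_dvd_iff_pow_eq_one.mp h6
  haveI : Fact (Nat.Prime 3) := ⟨Nat.prime_three⟩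
  have hyo : orderOf y = 3 := orderOf_eq_prime hy3 hy1
  have hdis : S ⊓ Subgroup.zpowers y = ⊥ :=
    (Subgroup.disjoint_of_coprime_natCard (by rwa [Nat.card_zpowers])).eq_bot
  have hcard : Nat.card H = 12 := by
    rw [← hH, sup_comm, CfsgLib.BGAppendix.card_sup_eq_mul _ _ (Subgroup.zpowers_le.mpr hy)
      (by rw [inf_comm]; exact hdis), Nat.card_zpowers, hyo, hcS]
    norm_num
  refine Or.inr (Or.inr (Cfsg.Agent.S0228.aux hcard fun u hu huc => ?_))
  -- a central involution
  have hu2 : (u : G) * u = 1 := by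
    rw [← Subgroup.coe_mul, ← sq, ← hu, pow_orderOf_eq_one, Subgroup.coe_one]
  have hu1 : (u : G) ≠ 1 := fun h1 => by
    rw [show u = 1 from Subtype.ext h1, orderOf_one] at hu
    exact absurd hu (by norm_num)
  have huy : (u : G) * y = y * u :=
    (congrArg Subtype.val (Subgroup.mem_center_iff.mp huc
      ⟨y, hH ▸ Subgroup.mem_sup_right (Subgroup.mem_zpowers y)⟩)).symm
  have huS : (u : G) ∈ S := by
    have hu' : (u : G) ∈ ((S ⊔ Subgroup.zpowers y : Subgroup G) : Set G) := hH.ge u.2
    rw [Subgroup.coe_mul_of_right_le_normalizer_left S _ (Subgroup.zpowers_le.mpr hy)] at hu'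
    obtain ⟨s, hs, w, hw, hsw⟩ := hu'
    change s * w = u at hsw
    -- `w` is a square in `S` times ... hence trivial
    have hw3 : w ^ 3 = 1 := by
      obtain ⟨i, rfl⟩ := hw
      show (y ^ i) ^ 3 = 1
      rw [← zpow_natCast, ← zpow_mul, mul_comm, zpow_mul, zpow_natCast, hy3, one_zpow]
    have hwS : w * w ∈ S := by
      have h1 : s * (w * s * w⁻¹) * (w * w) = 1 := by
        calc s * (w * s * w⁻¹) * (w * w) = (s * w) * (s * w) := by group
          _ = 1 := by rw [hsw, hu2]
      rw [eq_inv_of_mul_eq_one_right h1]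
      exact S.inv_mem (S.mul_mem hs (conj_mem (Subgroup.zpowers_le.mpr hy hw) hs))
    have h7 : w * w ∈ S ⊓ Subgroup.zpowers y := ⟨hwS, Subgroup.mul_mem _ hw hw⟩
    rw [hdis, Subgroup.mem_bot] at h7
    have : w = 1 := by rw [pow_succ, sq, h7, one_mul] at hw3; exact hw3
    rw [← hsw, this, mul_one]
    exact hs
  -- pick another involution of `S`
  obtain ⟨w, hwS, hw1, hwu⟩ : ∃ w ∈ S, w ≠ 1 ∧ w ≠ (u : G) := by
    by_cases hau : a = (u : G)
    · exact ⟨b, hbS, hb1, hau ▸ hba⟩
    · exact ⟨a, haS, ha1, hau⟩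
  have hexpS : ∀ s ∈ S, s * s = 1 := fun s hs => by rw [← sq]; exact hKexp s (hKS' ▸ hs)
  have hcases : ∀ s ∈ S, s = 1 ∨ s = (u : G) ∨ s = w ∨ s = (u : G) * w := by
    intro s hs
    have huw : (u : G) * w ≠ 1 := fun h1 => hwu (by
      rw [← inv_eq_of_mul_eq_one_right h1, inv_eq_of_mul_eq_one_right hu2])
    by_contra hne
    push Not at hne
    obtain ⟨h1, h2, h3, h4⟩ := hne
    have hsub : ({1, (u : G), w, (u : G) * w, s} : Set G) ⊆ (S : Set G) := by
      rintro x (rfl | rfl | rfl | rfl | rfl)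
      exacts [S.one_mem, huS, hwS, S.mul_mem huS hwS, hs]
    have := Set.ncard_le_ncard hsub (Set.toFinite _)
    rw [← Nat.card_coe_set_eq (S : Set G), SetLike.coe_sort_coe, hcS,
      Set.ncard_insert_of_notMem, Set.ncard_insert_of_notMem, Set.ncard_insert_of_notMem,
      Set.ncard_pair] at this
    · norm_num at this
    · exact h4.symm
    · simp only [Set.mem_insert_iff, Set.mem_singleton_iff, not_or]
      exact ⟨fun h => hu1 (mul_eq_right.mp h.symm), h3.symm⟩
    · simp only [Set.mem_insert_iff, Set.mem_singleton_iff, not_or]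
      exact ⟨hwu.symm, fun h => hw1 (left_eq_mul.mp h), h2.symm⟩
    · simp only [Set.mem_insert_iff, Set.mem_singleton_iff, not_or]
      exact ⟨hu1.symm, hw1.symm, huw.symm, h1.symm⟩
  rcases hcases _ (conj_mem hy hwS) with h | h | h | h
  · exact hw1 (by simpa using h)
  · refine hwu ?_
    calc w = y⁻¹ * (y * w * y⁻¹) * y := by group
      _ = y⁻¹ * ((u : G) * y) := by rw [h, mul_assoc]
      _ = _ := by rw [huy, inv_mul_cancel_left]
  · refine hy1 ?_
    have := hyK 1 (by
      intro s hs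
      rw [pow_one]
      have hwy : Commute y w := mul_inv_eq_iff_eq_mul.mp h
      have huy' : Commute y (u : G) := huy.symm
      rcases hcases s hs with rfl | rfl | rfl | rfl
      · simp
      · exact huy'.eq
      · exact hwy.eq
      · exact (huy'.mul_right hwy).eq)
    simpa using this
  · refine hu1 ?_
    have h2 : y * ((u : G) * w) * y⁻¹ = w := by
      calc y * ((u : G) * w) * y⁻¹ = (y * u * y⁻¹) * (y * w * y⁻¹) := by group
        _ = (u : G) * u * w := by rw [← huy, mul_inv_cancel_right, h, mul_assoc]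
        _ = _ := by rw [hu2, one_mul]
    have h3 : y ^ 3 * w * (y ^ 3)⁻¹ = (u : G) * w := by
      calc y ^ 3 * w * (y ^ 3)⁻¹ = y * (y * (y * w * y⁻¹) * y⁻¹) * y⁻¹ := by
            simp [pow_succ, mul_assoc]
        _ = _ := by rw [h, h2, h]
    rw [hy3] at h3
    exact mul_eq_right.mp (show (u : G) * w = w by simpa using h3.symm)

/-- Let G be a finite group with Sylow 2-subgroup P. Every subgroup H of G whose Sylow 2-subgroup is normal in H with cyclic quotient is cyclic, dihedral of 2-power order, or isomorphic to the alternating group of degree 4, if and only if either P is cyclic, or P is dihedral (of order at least 4) and every elementary abelian subgroup K of order 4 of P satisfies C_G(K) = K. -/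
theorem result {G : Type*} [Group G] [Finite G] (P : Sylow 2 G) :
    (∀ H : Subgroup G, (∀ S : Sylow 2 ↥H, (S : Subgroup ↥H).Normal) →
        (∀ (S : Sylow 2 ↥H) [(S : Subgroup ↥H).Normal], IsCyclic (↥H ⧸ (S : Subgroup ↥H))) →
        IsCyclic H ∨ (∃ n : ℕ, Nonempty (H ≃* DihedralGroup (2 ^ n))) ∨ Nonempty (H ≃* alternatingGroup (Fin 4))) ↔
    (IsCyclic P ∨
      ((∃ n : ℕ, 1 ≤ n ∧ Nonempty ((P : Subgroup G) ≃* DihedralGroup (2 ^ n))) ∧
        ∀ K : Subgroup G, K ≤ P → Nat.card K = 4 → (∀ k ∈ K, k ^ 2 = 1) → Subgroup.centralizer (K : Set G) = K)) :=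
  ⟨fun h => forward P h, fun h => backward P h⟩

end Cfsg.Agent.S4083
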