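import Cfsg.Statements.S4084
import Mathlib.GroupTheory.Perm.Cycle.Type
import Mathlib.GroupTheory.SpecificGroups.Cyclic
import Mathlib.GroupTheory.Subgroup.Centralizer

set_option autoImplicit false
open Cfsg

namespace Cfsg.Agent.S4084

theorem aux {G H : Type*} [Group G] [Finite G] [Group H] [Finite H] (e : G ≃ H)
    (he : ∀ x y : G, Commute x y ↔ Commute (e x) (e y)) {p q : ℕ} (hp : p.Prime) (hq : q.Prime)
    (hpq : p ≠ q) : (∃ g : G, orderOf g = p * q) → ∃ h : H, orderOf h = p * q := by
  rintro ⟨g, hg⟩
  have := Fact.mk hp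
  have := Fact.mk hq
  obtain ⟨S, hgS, hS⟩ := Set.Finite.exists_le_maximal
    (Set.toFinite {S : Set G | ∀ x ∈ S, ∀ y ∈ S, Commute x y})
    (show (Subgroup.zpowers g : Set G) ∈ {S : Set G | ∀ x ∈ S, ∀ y ∈ S, Commute x y} from by
      rintro x ⟨i, rfl⟩ y ⟨j, rfl⟩
      exact (Commute.refl g).zpow_zpow i j)
  have hSeq : S = (Subgroup.centralizer S : Set G) := by
    refine le_antisymm (fun x hx y hy => hS.1 y hy x hx) fun x hx => ?_
    refine hS.2 (y := insert x S) ?_ (Set.subset_insert x S) (Set.mem_insert x S)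
    rintro a (rfl | ha) b (rfl | hb)
    · exact Commute.refl _
    · exact Commute.symm (hx b hb)
    · exact hx a ha
    · exact hS.1 a ha b hb
  let T : Set H := e '' S
  have hTeq : T = (Subgroup.centralizer T : Set H) := by
    refine le_antisymm ?_ fun x hx => ?_
    · rintro _ ⟨x, hx, rfl⟩ _ ⟨y, hy, rfl⟩
      exact (he y x).mp (hS.1 y hy x hx)
    · refine ⟨e.symm x, ?_, e.apply_symm_apply x⟩
      rw [hSeq]
      intro y hy
      refine (he y (e.symm x)).mpr ?_
      rw [e.apply_symm_apply]
      exact hx (e y) ⟨y, hy, rfl⟩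
  have hcard : Nat.card (Subgroup.centralizer T) = Nat.card (Subgroup.centralizer S) := by
    have h1 : Nat.card (Subgroup.centralizer T) = T.ncard := by
      conv_rhs => rw [hTeq]
      exact Nat.card_coe_set_eq _
    have h2 : Nat.card (Subgroup.centralizer S) = S.ncard := by
      conv_rhs => rw [hSeq]
      exact Nat.card_coe_set_eq _
    rw [h1, h2, Set.ncard_image_of_injective _ e.injective]
  have hdvd : p * q ∣ Nat.card (Subgroup.centralizer T) := by
    rw [hcard, ← hg, ← Nat.card_zpowers]
    exact Subgroup.card_dvd_of_le fun x hx => by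
      show x ∈ (Subgroup.centralizer S : Set G)
      rw [← hSeq]; exact hgS hx
  obtain ⟨a, ha⟩ := exists_prime_orderOf_dvd_card' p ((dvd_mul_right p q).trans hdvd)
  obtain ⟨b, hb⟩ := exists_prime_orderOf_dvd_card' q ((dvd_mul_left q p).trans hdvd)
  have hcomm : Commute (a : H) (b : H) :=
    Commute.symm ((b.2 : (b : H) ∈ Subgroup.centralizer T) (a : H) (hTeq.ge a.2)).symm
  refine ⟨a * b, ?_⟩
  rw [hcomm.orderOf_mul_eq_mul_orderOf_of_coprime]
  · rw [Subgroup.orderOf_coe, Subgroup.orderOf_coe, ha, hb]
  · rw [Subgroup.orderOf_coe, Subgroup.orderOf_coe, ha, hb]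
    exact (Nat.coprime_primes hp hq).mpr hpq


/-- Let G and H be finite groups whose commuting graphs are isomorphic: there is a bijection e : G → H with x, y commuting exactly when e(x), e(y) commute. Then G and H have the same prime graph: for distinct primes p, q, G has an element of order pq if and only if H does (and #G = #H, so the prime divisors agree). -/
theorem result {G H : Type*} [Group G] [Finite G] [Group H] [Finite H] (e : G ≃ H)
    (he : ∀ x y : G, Commute x y ↔ Commute (e x) (e y))
    {p q : ℕ} (hp : p.Prime) (hq : q.Prime) (hpq : p ≠ q) :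
    (∃ g : G, orderOf g = p * q) ↔ (∃ h : H, orderOf h = p * q) := by
  constructor
  · exact aux e he hp hq hpq
  · exact aux e.symm (fun x y => by simpa using (he (e.symm x) (e.symm y)).symm) hp hq hpq

end Cfsg.Agent.S4084
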