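import Cfsg.Statements.S4085
import Mathlib
-- import your own Cfsg.Agent.* helpers here

set_option autoImplicit false
open Cfsg

namespace Cfsg.Agent.S4085

namespace PG

variable {G H : Type*} [Group G] [Finite G] [Group H] [Finite H]

/-- Adjacency in the power graph, loops included. -/
def Adj {G : Type*} [Group G] (x y : G) : Prop :=
  x ∈ Subgroup.zpowers y ∨ y ∈ Subgroup.zpowers x

/-- The closed neighbourhood of `x` in the power graph. -/
def Nb {G : Type*} [Group G] (x : G) : Set G := {y | Adj x y}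

/-- `x` generates a maximal cyclic subgroup. -/
def IsMaxCyc {G : Type*} [Group G] (x : G) : Prop :=
  ∀ z : G, x ∈ Subgroup.zpowers z → z ∈ Subgroup.zpowers x

theorem zp_trans {G : Type*} [Group G] {a b c : G} (h1 : a ∈ Subgroup.zpowers b)
    (h2 : b ∈ Subgroup.zpowers c) : a ∈ Subgroup.zpowers c :=
  Subgroup.zpowers_le.mpr h2 h1

theorem adj_symm {G : Type*} [Group G] {a b : G} (h : Adj a b) : Adj b a := h.symm

theorem adj_self {G : Type*} [Group G] (a : G) : Adj a a := Or.inl (Subgroup.mem_zpowers a)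

theorem eq_one_of_mem_zpowers_one {G : Type*} [Group G] {a : G}
    (h : a ∈ Subgroup.zpowers (1 : G)) : a = 1 := by
  simpa using h

theorem order_dvd {G : Type*} [Group G] {a b : G} (h : a ∈ Subgroup.zpowers b) :
    orderOf a ∣ orderOf b :=
  orderOf_dvd_of_mem_zpowers h

theorem mem_of_order_eq {a b : G} (h : a ∈ Subgroup.zpowers b) (ho : orderOf a = orderOf b) :
    b ∈ Subgroup.zpowers a := by
  have := Subgroup.eq_of_le_of_card_ge (Subgroup.zpowers_le.mpr h)
    (by rw [Nat.card_zpowers, Nat.card_zpowers, ho])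
  rw [this]; exact Subgroup.mem_zpowers b

theorem exists_order_in_zpowers {x : G} {D : ℕ} (hD : D ∣ orderOf x) :
    ∃ t ∈ Subgroup.zpowers x, orderOf t = D :=
  ⟨x ^ (orderOf x / D), Subgroup.npow_mem_zpowers x _,
    orderOf_pow_orderOf_div (orderOf_pos x).ne' hD⟩

theorem mem_zpowers_of_dvd {x a b : G} (ha : a ∈ Subgroup.zpowers x)
    (hb : b ∈ Subgroup.zpowers x) (h : orderOf a ∣ orderOf b) : a ∈ Subgroup.zpowers b := by
  classical
  have := Fintype.ofFinite G
  let a' : Subgroup.zpowers x := ⟨a, ha⟩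
  let b' : Subgroup.zpowers x := ⟨b, hb⟩
  have hle := IsCyclic.card_pow_eq_one_le (α := Subgroup.zpowers x) (orderOf_pos b)
  have hsub : (Subgroup.zpowers b' : Set (Subgroup.zpowers x)).toFinset ⊆
      Finset.univ.filter fun z => z ^ orderOf b = 1 := by
    intro z hz
    rw [Set.mem_toFinset] at hz
    refine Finset.mem_filter.mpr ⟨Finset.mem_univ _, orderOf_dvd_iff_pow_eq_one.mp ?_⟩
    exact (order_dvd hz).trans (by rw [← Subgroup.orderOf_coe])
  have heq := Finset.eq_of_subset_of_card_le hsub (by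
    refine hle.trans (le_of_eq ?_)
    rw [← Set.ncard_eq_toFinset_card', ← Nat.card_coe_set_eq]
    exact (Subgroup.orderOf_coe b').trans (Nat.card_zpowers b').symm)
  have hmem : a' ∈ (Subgroup.zpowers b' : Set (Subgroup.zpowers x)).toFinset := by
    rw [heq]
    exact Finset.mem_filter.mpr ⟨Finset.mem_univ _, orderOf_dvd_iff_pow_eq_one.mp
      (by rw [← Subgroup.orderOf_coe]; exact h)⟩
  obtain ⟨i, hi⟩ := Subgroup.mem_zpowers_iff.mp (Set.mem_toFinset.mp hmem)
  exact Subgroup.mem_zpowers_iff.mpr ⟨i, congrArg Subtype.val hi⟩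

/-- An element of prime power order: every divisor structure below it is a chain. -/
theorem adj_of_primePow {r b : ℕ} (hr : r.Prime) {h a c : G} (hh : orderOf h = r ^ b)
    (ha : a ∈ Subgroup.zpowers h) (hc : c ∈ Subgroup.zpowers h) : Adj a c := by
  obtain ⟨i, _, hi⟩ := (Nat.dvd_prime_pow hr).mp (hh ▸ order_dvd ha)
  obtain ⟨j, _, hj⟩ := (Nat.dvd_prime_pow hr).mp (hh ▸ order_dvd hc)
  rcases le_total i j with hij | hij
  · exact Or.inl (mem_zpowers_of_dvd ha hc (by rw [hi, hj]; exact pow_dvd_pow r hij))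
  · exact Or.inr (mem_zpowers_of_dvd hc ha (by rw [hi, hj]; exact pow_dvd_pow r hij))

theorem nb_subset_of_primePow {r b : ℕ} (hr : r.Prime) {h w : G} (hh : orderOf h = r ^ b)
    (hw : w ∈ Subgroup.zpowers h) : Nb h ⊆ Nb w := by
  rintro y (hy | hy)
  · exact Or.inl (zp_trans hw hy)
  · exact adj_of_primePow hr hh hw hy

theorem exists_incomparable {n d p q : ℕ} (hn : n ≠ 0) (hp : p.Prime) (hq : q.Prime) (hpq : p ≠ q)
    (hpn : p ∣ n) (hqn : q ∣ n) (hd : d ∣ n) (hd1 : d ≠ 1) (hdn : d ≠ n) :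
    ∃ D, D ∣ n ∧ ¬ D ∣ d ∧ ¬ d ∣ D := by
  by_cases hall : ∀ r : ℕ, r.Prime → r ∣ n → r ∣ d
  · obtain ⟨r, hr, hrd⟩ : ∃ r : ℕ, r.Prime ∧ ¬ r ^ (n.factorization r) ∣ d := by
      by_contra hcon
      push Not at hcon
      exact hdn (Nat.dvd_antisymm hd ((Nat.dvd_iff_prime_pow_dvd_dvd d n).mpr fun r k hr hk =>
        (pow_dvd_pow r ((hr.pow_dvd_iff_le_factorization hn).mp hk)).trans (hcon r hr)))
    refine ⟨_, Nat.ordProj_dvd n r, hrd, fun h => ?_⟩
    have h1 := hp.dvd_of_dvd_pow ((hall p hp hpn).trans h)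
    have h2 := hq.dvd_of_dvd_pow ((hall q hq hqn).trans h)
    exact hpq (((Nat.prime_dvd_prime_iff_eq hp hr).mp h1).trans
      ((Nat.prime_dvd_prime_iff_eq hq hr).mp h2).symm)
  · push Not at hall
    obtain ⟨r, hr, hrn, hrd⟩ := hall
    refine ⟨r, hrn, hrd, fun h => ?_⟩
    rcases (Nat.dvd_prime hr).mp h with h | h
    · exact hd1 h
    · exact hrd (h ▸ dvd_rfl)

theorem exists_two_primes_or_primePow {d : ℕ} (hd : d ≠ 0) (hd1 : d ≠ 1) :
    (∃ p q : ℕ, p.Prime ∧ q.Prime ∧ p ≠ q ∧ p ∣ d ∧ q ∣ d) ∨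
      ∃ r a : ℕ, r.Prime ∧ d = r ^ a := by
  by_cases h : ∀ q : ℕ, q.Prime → q ∣ d → q = d.minFac
  · exact Or.inr ⟨d.minFac, _, Nat.minFac_prime hd1,
      Nat.eq_prime_pow_of_unique_prime_dvd hd fun {_} hq hqd => h _ hq hqd⟩
  · push Not at h
    obtain ⟨q, hq, hqd, hne⟩ := h
    exact Or.inl ⟨q, d.minFac, hq, Nat.minFac_prime hd1, hne, hqd, Nat.minFac_dvd d⟩

theorem nb_ne_of_mem {x h : G} {p q : ℕ} (hp : p.Prime) (hq : q.Prime) (hpq : p ≠ q)
    (hpn : p ∣ orderOf x) (hqn : q ∣ orderOf x) (hh : h ∈ Subgroup.zpowers x) (h1 : h ≠ 1)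
    (hne : orderOf h ≠ orderOf x) : Nb h ≠ Nb x := by
  obtain ⟨D, hD, hD1, hD2⟩ := exists_incomparable (orderOf_pos x).ne' hp hq hpq hpn hqn
    (order_dvd hh) (fun h' => h1 (orderOf_eq_one_iff.mp h')) hne
  obtain ⟨t, ht, hto⟩ := exists_order_in_zpowers hD
  intro he
  have : t ∈ Nb h := he ▸ (Or.inr ht : Adj x t)
  rcases this with h' | h'
  · exact hD2 (hto ▸ order_dvd h')
  · exact hD1 (hto ▸ order_dvd h')

theorem exists_isMaxCyc (g : G) : ∃ x, IsMaxCyc x ∧ g ∈ Subgroup.zpowers x := by
  obtain ⟨x, hx, hmax⟩ := Set.exists_max_image {z : G | g ∈ Subgroup.zpowers z} orderOf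
    (Set.toFinite _) ⟨g, Subgroup.mem_zpowers g⟩
  refine ⟨x, fun z hz => ?_, hx⟩
  exact mem_of_order_eq hz (le_antisymm (Nat.le_of_dvd (orderOf_pos z) (order_dvd hz))
    (hmax z (zp_trans hx hz)))

theorem dvd_ncard_of_closed {D : ℕ} (S : Set G)
    (hS : ∀ z ∈ S, ∀ w : G, Subgroup.zpowers w = Subgroup.zpowers z → w ∈ S)
    (hD : ∀ z ∈ S, D ∣ (orderOf z).totient) : D ∣ S.ncard := by
  classical
  have := Fintype.ofFinite G
  rw [Set.ncard_eq_toFinset_card' S, Finset.card_eq_sum_card_image (fun w => Subgroup.zpowers w)]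
  refine Finset.dvd_sum fun K hK => ?_
  simp only [Finset.mem_image, Set.mem_toFinset] at hK
  obtain ⟨z, hz, rfl⟩ := hK
  have : (S.toFinset.filter fun w => Subgroup.zpowers w = Subgroup.zpowers z).card =
      (orderOf z).totient := by
    have := IsCyclic.card_orderOf_eq_totient (α := Subgroup.zpowers z) (d := orderOf z)
      (by rw [Fintype.card_zpowers])
    rw [← this]
    refine Finset.card_bij' (fun w hw => ⟨w, ?_⟩) (fun w _ => (w : G)) ?_ ?_ ?_ ?_
    · rw [← (Finset.mem_filter.mp hw).2]; exact Subgroup.mem_zpowers w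
    · intro w hw
      simp only [Finset.mem_filter, Finset.mem_univ, true_and, Subgroup.orderOf_mk]
      rw [← Nat.card_zpowers, (Finset.mem_filter.mp hw).2, Nat.card_zpowers]
    · intro w hw
      simp only [Finset.mem_filter, Finset.mem_univ, true_and] at hw
      rw [← Subgroup.orderOf_coe] at hw
      have := mem_of_order_eq w.2 hw
      have he : Subgroup.zpowers (w : G) = Subgroup.zpowers z :=
        le_antisymm (Subgroup.zpowers_le.mpr w.2) (Subgroup.zpowers_le.mpr this)
      exact Finset.mem_filter.mpr ⟨Set.mem_toFinset.mpr (hS z hz _ he), he⟩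
    · intro w hw; rfl
    · intro w hw; rfl
  rw [this]
  exact hD z hz

theorem ncard_nb_class {x : G} {p q : ℕ} (hp : p.Prime) (hq : q.Prime) (hpq : p ≠ q)
    (hpn : p ∣ orderOf x) (hqn : q ∣ orderOf x) (hx : IsMaxCyc x)
    (hu : ∀ g : G, (∀ y, Adj g y) → g = 1) :
    {z : G | Nb z = Nb x}.ncard = (orderOf x).totient := by
  classical
  have := Fintype.ofFinite G
  have hx1 : x ≠ 1 := fun h => by rw [h, orderOf_one] at hpn; exact hp.not_dvd_one hpn
  have hset : {z : G | Nb z = Nb x} =
      {z : G | z ∈ Subgroup.zpowers x ∧ orderOf z = orderOf x} := by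
    ext z
    constructor
    · intro hz
      have h1 : Adj x z := (show z ∈ Nb x from hz ▸ adj_self z)
      have hzx : z ∈ Subgroup.zpowers x := h1.elim (hx z) id
      refine ⟨hzx, by_contra fun hne => nb_ne_of_mem hp hq hpq hpn hqn hzx ?_ hne hz⟩
      rintro rfl
      exact hx1 (hu x fun y => (show y ∈ Nb x from hz ▸ (Or.inl (one_mem _) : Adj 1 y)))
    · rintro ⟨hzx, ho⟩
      have hxz := mem_of_order_eq hzx ho
      ext y
      exact ⟨fun h => h.imp (fun h => zp_trans hxz h) (fun h => zp_trans h hzx),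
        fun h => h.imp (fun h => zp_trans hzx h) (fun h => zp_trans h hxz)⟩
  rw [hset, ← IsCyclic.card_orderOf_eq_totient (α := Subgroup.zpowers x) (d := orderOf x)
    (by rw [Fintype.card_zpowers]), Set.ncard_eq_toFinset_card']
  refine Finset.card_bij' (fun w hw => ⟨w, (Set.mem_toFinset.mp hw).1⟩) (fun w _ => (w : G))
    ?_ ?_ ?_ ?_
  · intro w hw
    simp only [Finset.mem_filter, Finset.mem_univ, true_and, Subgroup.orderOf_mk]
    exact (Set.mem_toFinset.mp hw).2
  · intro w hw
    simp only [Finset.mem_filter, Finset.mem_univ, true_and] at hw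
    exact Set.mem_toFinset.mpr ⟨w.2, by rwa [Subgroup.orderOf_coe]⟩
  · intro w hw; rfl
  · intro w hw; rfl

/-- The exceptional situation for a maximal cyclic subgroup of non-prime-power order. -/
theorem key (e : G ≃ H) (he : ∀ a b, Adj a b ↔ Adj (e a) (e b)) (he1 : e 1 = 1)
    (hu : ∀ g : G, (∀ y, Adj g y) → g = 1) {x : G} {p q : ℕ} (hp : p.Prime) (hq : q.Prime)
    (hpq : p ≠ q) (hpn : p ∣ orderOf x) (hqn : q ∣ orderOf x) (hx : IsMaxCyc x) :
    (IsMaxCyc (e x) ∧ orderOf (e x) = orderOf x) ∨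
      ∃ (h : H) (r b k : ℕ), r.Prime ∧ 0 < b ∧ orderOf h = r ^ b ∧ Nb h = Nb (e x) ∧
        (orderOf x).totient + 1 = r ^ b ∧ orderOf x = r ^ b + k * (r ^ b).totient ∧
        ∃ (y : H) (p' q' : ℕ), IsMaxCyc y ∧ h ∈ Subgroup.zpowers y ∧ p'.Prime ∧ q'.Prime ∧
          p' ≠ q' ∧ p' ∣ orderOf y ∧ q' ∣ orderOf y := by
  classical
  set n := orderOf x with hn
  have hn2 : 2 < n := by
    by_contra hle
    have := Nat.le_of_dvd (orderOf_pos x) hpn
    have := Nat.le_of_dvd (orderOf_pos x) hqn
    have := hp.two_le; have := hq.two_le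
    omega
  have hx1 : x ≠ 1 := fun h => by rw [hn, h, orderOf_one] at hn2; omega
  have hNx : Nb x = (Subgroup.zpowers x : Set G) := by
    ext y; exact ⟨fun h => h.elim (hx y) id, fun h => Or.inr h⟩
  have him : ∀ a : G, Nb (e a) = e '' Nb a := by
    intro a
    ext y
    constructor
    · intro hy
      exact ⟨e.symm y, (he a _).mpr (by rwa [e.apply_symm_apply]), e.apply_symm_apply y⟩
    · rintro ⟨c, hc, rfl⟩; exact (he a c).mp hc
  have hclass : ∀ a : G, Nb (e a) = Nb (e x) ↔ Nb a = Nb x := fun a => by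
    rw [him, him, e.injective.image_injective.eq_iff]
  -- the two-primes incomparability transported
  have hne : ∀ z c : H, Nb z = Nb c → c ∈ Subgroup.zpowers z → c ≠ 1 →
      orderOf c ≠ orderOf z → ∃ r a : ℕ, r.Prime ∧ orderOf z = r ^ a := by
    intro z c hNb hc hc1 ho
    have hz1 : orderOf z ≠ 1 := fun h => hc1 (by
      rw [orderOf_eq_one_iff.mp h] at hc; exact eq_one_of_mem_zpowers_one hc)
    rcases exists_two_primes_or_primePow (orderOf_pos z).ne' hz1 with ⟨a, b, ha, hb, hab, h1, h2⟩ | h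
    · exact absurd hNb.symm (nb_ne_of_mem ha hb hab h1 h2 hc hc1 ho)
    · exact h
  set h := e x with hh
  have hh1 : h ≠ 1 := fun hc => hx1 (e.injective (hc.trans he1.symm))
  -- elements of prime order inside `⟨x⟩`
  let P : G → Prop := fun v => e v ∈ Subgroup.zpowers h
  have hadjP : ∀ v w : G, v ∈ Subgroup.zpowers x → w ∈ Subgroup.zpowers x → ¬ Adj v w →
      (P v ↔ P w) := by
    intro v w hv hw hvw
    have h1 : Adj h (e v) := (he x v).mp (Or.inr hv)
    have h2 : Adj h (e w) := (he x w).mp (Or.inr hw)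
    constructor <;> intro hP <;> by_contra hn' <;> refine hvw ((he v w).mpr ?_)
    · exact Or.inl (zp_trans hP (h2.resolve_right hn'))
    · exact Or.inr (zp_trans hP (h1.resolve_right hn'))
  obtain ⟨ap, hap, hapo⟩ := exists_order_in_zpowers (x := x) hpn
  obtain ⟨aq, haq, haqo⟩ := exists_order_in_zpowers (x := x) hqn
  have hnadj : ∀ v w : G, ¬ orderOf v ∣ orderOf w → ¬ orderOf w ∣ orderOf v → ¬ Adj v w :=
    fun v w h1 h2 h => h.elim (fun h => h1 (order_dvd h)) (fun h => h2 (order_dvd h))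
  have hprimes : ∀ r : ℕ, r.Prime → ∀ w ∈ Subgroup.zpowers x, orderOf w = r → (P w ↔ P ap) := by
    intro r hr w hw hwo
    by_cases hrp : r = p
    · have hwap := mem_zpowers_of_dvd hw hap (by rw [hwo, hapo, hrp])
      have hapw := mem_zpowers_of_dvd hap hw (by rw [hwo, hapo, hrp])
      have hwq : ¬ Adj w aq := hnadj _ _
        (fun h => hpq (by
          rw [hwo, haqo, hrp] at h; exact (Nat.prime_dvd_prime_iff_eq hp hq).mp h))
        (fun h => hpq (by
          rw [hwo, haqo, hrp] at h; exact ((Nat.prime_dvd_prime_iff_eq hq hp).mp h).symm))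
      have hpq' : ¬ Adj ap aq := hnadj _ _
        (fun h => hpq (by rw [hapo, haqo] at h; exact (Nat.prime_dvd_prime_iff_eq hp hq).mp h))
        (fun h => hpq (by
          rw [hapo, haqo] at h; exact ((Nat.prime_dvd_prime_iff_eq hq hp).mp h).symm))
      exact (hadjP w aq hw haq hwq).trans (hadjP ap aq hap haq hpq').symm
    · refine hadjP w ap hw hap (hnadj _ _ ?_ ?_) <;> rw [hwo, hapo] <;> intro hd
      · exact hrp ((Nat.prime_dvd_prime_iff_eq hr hp).mp hd)
      · exact hrp ((Nat.prime_dvd_prime_iff_eq hp hr).mp hd).symm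
  have hall : ∀ v ∈ Subgroup.zpowers x, v ≠ 1 → orderOf v ≠ n → (P v ↔ P ap) := by
    intro v hv hv1 hvn
    set D := orderOf v with hD
    by_cases hallr : ∀ r : ℕ, r.Prime → r ∣ n → r ∣ D
    · obtain ⟨E, hE, hE1, hE2⟩ := exists_incomparable (orderOf_pos x).ne' hp hq hpq hpn hqn
        (order_dvd hv) (fun h' => hv1 (orderOf_eq_one_iff.mp h')) hvn
      -- a prime power outside `D`
      obtain ⟨r, k, hr, hrE, hrD⟩ : ∃ r k : ℕ, r.Prime ∧ r ^ k ∣ n ∧ ¬ r ^ k ∣ D := by
        by_contra hcon
        push Not at hcon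
        exact hE1 ((Nat.dvd_iff_prime_pow_dvd_dvd _ _).mpr fun r k hr hk =>
          hcon r k hr (hk.trans hE))
      obtain ⟨t, ht, hto⟩ := exists_order_in_zpowers (x := x) hrE
      obtain ⟨s, hs, hsr, hsn⟩ : ∃ s : ℕ, s.Prime ∧ s ≠ r ∧ s ∣ n := by
        by_cases hpr : p = r
        · exact ⟨q, hq, fun h => hpq (hpr.trans h.symm), hqn⟩
        · exact ⟨p, hp, hpr, hpn⟩
      obtain ⟨as, has, haso⟩ := exists_order_in_zpowers (x := x) hsn
      have hk : k ≠ 0 := fun h => hrD (by rw [h, pow_zero]; exact one_dvd _)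
      refine ((hadjP v t hv ht (hnadj _ _ ?_ ?_)).trans
        (hadjP t as ht has (hnadj _ _ ?_ ?_))).trans (hprimes s hs as has haso)
      · rw [hto]; intro hd
        exact hsr ((Nat.prime_dvd_prime_iff_eq hs hr).mp (hs.dvd_of_dvd_pow
          ((hallr s hs hsn).trans hd)))
      · rw [hto]; exact hrD
      · rw [hto, haso]; intro hd
        exact hsr ((Nat.prime_dvd_prime_iff_eq hr hs).mp ((dvd_pow_self r hk).trans hd)).symm
      · rw [hto, haso]; intro hd
        exact hsr ((Nat.prime_dvd_prime_iff_eq hs hr).mp (hs.dvd_of_dvd_pow hd))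
    · push Not at hallr
      obtain ⟨r, hr, hrn, hrD⟩ := hallr
      obtain ⟨ar, har, haro⟩ := exists_order_in_zpowers (x := x) hrn
      refine (hadjP v ar hv har (hnadj _ _ ?_ ?_)).trans (hprimes r hr ar har haro)
      · rw [haro]; intro hd
        rcases (Nat.dvd_prime hr).mp hd with h' | h'
        · exact hv1 (orderOf_eq_one_iff.mp h')
        · exact hrD (by rw [hD, h'])
      · rw [haro]; exact hrD
  have hgen : ∀ v ∈ Subgroup.zpowers x, orderOf v = n → Nb (e v) = Nb h := fun v hv ho => by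
    have hxv := mem_of_order_eq hv ho
    refine (hclass v).mpr ?_
    ext y
    exact ⟨fun h => h.imp (fun h => zp_trans hxv h) (fun h => zp_trans h hv),
      fun h => h.imp (fun h => zp_trans hv h) (fun h => zp_trans h hxv)⟩
  have hpre : ∀ z : H, Adj h z → e.symm z ∈ Subgroup.zpowers x := fun z hz =>
    ((he x _).mpr (by rwa [e.apply_symm_apply])).elim (hx _) id
  have hNh : Nat.card (Nb h : Set H) = n := by
    rw [hh, him, Nat.card_image_of_injective e.injective, hNx]
    exact Nat.card_zpowers x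
  by_cases hPa : P ap
  · left
    have hmax : IsMaxCyc h := by
      intro z hz
      by_contra hzh
      have hzo : orderOf h ≠ orderOf z := fun ho => hzh (mem_of_order_eq hz ho)
      have hu' : e.symm z ∈ Subgroup.zpowers x := hpre z (Or.inl hz)
      have hz1 : e.symm z ≠ 1 := fun h1 => hzh (by
        rw [← e.apply_symm_apply z, h1, he1]; exact one_mem _)
      by_cases hzn : orderOf (e.symm z) = n
      · have hNz : Nb z = Nb h := by simpa using hgen _ hu' hzn
        obtain ⟨r, a, hr, hza⟩ := hne z h hNz hz hh1 hzo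
        have hPq : P aq := ((hprimes q hq aq haq haqo)).mpr hPa
        have hadj : Adj ap aq := (he _ _).mpr
          (adj_of_primePow hr hza (zp_trans hPa hz) (zp_trans hPq hz))
        refine hnadj ap aq ?_ ?_ hadj <;> rw [hapo, haqo] <;> intro hd
        · exact hpq ((Nat.prime_dvd_prime_iff_eq hp hq).mp hd)
        · exact hpq ((Nat.prime_dvd_prime_iff_eq hq hp).mp hd).symm
      · have : P (e.symm z) := (hall _ hu' hz1 hzn).mpr hPa
        exact hzh (by simpa [P] using this)
    refine ⟨hmax, ?_⟩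
    rw [← hNh, show Nb h = (Subgroup.zpowers h : Set H) from
      Set.ext fun y => ⟨fun hy => hy.elim (hmax y) id, fun hy => Or.inr hy⟩]
    exact (Nat.card_zpowers h).symm
  · right
    have hlow : ∀ w ∈ Subgroup.zpowers h, w ≠ 1 → Nb w = Nb h := by
      intro w hw hw1
      have hw' := hpre w (Or.inr hw)
      have hne1 : e.symm w ≠ 1 := fun h1 => hw1 (by rw [← e.apply_symm_apply w, h1, he1])
      by_cases hwn : orderOf (e.symm w) = n
      · simpa using hgen _ hw' hwn
      · exact absurd ((hall _ hw' hne1 hwn).mp (by simpa [P] using hw)) hPa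
    have hho : orderOf h ≠ 1 := fun h' => hh1 (orderOf_eq_one_iff.mp h')
    obtain ⟨r, a, hr, hha⟩ : ∃ r a : ℕ, r.Prime ∧ orderOf h = r ^ a := by
      rcases exists_two_primes_or_primePow (orderOf_pos h).ne' hho with
        ⟨s, t, hs, ht, hst, hsd, htd⟩ | h'
      · obtain ⟨w, hw, hwo⟩ := exists_order_in_zpowers (x := h) hsd
        refine absurd (hlow w hw ?_) (nb_ne_of_mem hs ht hst hsd htd hw ?_ ?_)
        · intro h1; rw [h1, orderOf_one] at hwo; exact hs.ne_one hwo.symm
        · intro h1; rw [h1, orderOf_one] at hwo; exact hs.ne_one hwo.symm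
        · intro h1
          have htd' : t ∣ s := by rw [← hwo, h1]; exact htd
          exact hst ((Nat.prime_dvd_prime_iff_eq ht hs).mp htd').symm
      · exact h'
    obtain ⟨h', hh'C, hmaxo⟩ := Set.exists_max_image {z : H | Nb z = Nb h} orderOf
      (Set.toFinite _) ⟨h, rfl⟩
    replace hh'C : Nb h' = Nb h := hh'C
    have hC1 : ∀ z : H, Nb z = Nb h → z ≠ 1 := fun z hz h1 => by
      subst h1
      exact hx1 (hu x fun y => (he x y).mpr
        (show e y ∈ Nb h from hz ▸ (Or.inl (one_mem _) : Adj 1 (e y))))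
    have hhh' : h ∈ Subgroup.zpowers h' := by
      rcases (show Adj h h' from (hh'C ▸ adj_self h' : h' ∈ Nb h)) with h1 | h1
      · exact h1
      · exact mem_of_order_eq h1 (le_antisymm (Nat.le_of_dvd (orderOf_pos h) (order_dvd h1))
          (hmaxo h rfl))
    obtain ⟨b, hb, hh'b⟩ : ∃ b, 0 < b ∧ orderOf h' = r ^ b := by
      have ha : 0 < a := Nat.pos_of_ne_zero fun h0 => hho (by rw [hha, h0, pow_zero])
      by_cases heq : orderOf h = orderOf h'
      · exact ⟨a, ha, by rw [← heq, hha]⟩
      obtain ⟨s, b, hs, hb⟩ := hne h' h hh'C hhh' hh1 heq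
      have hd : r ^ a ∣ s ^ b := by rw [← hha, ← hb]; exact order_dvd hhh'
      obtain rfl := (Nat.prime_dvd_prime_iff_eq hr hs).mp
        (hr.dvd_of_dvd_pow ((dvd_pow_self r ha.ne').trans hd))
      exact ⟨b, Nat.pos_of_ne_zero fun h0 => heq (by
        rw [hha, hb, h0, pow_zero]; rw [h0, pow_zero] at hd; exact Nat.dvd_one.mp hd), hb⟩
    have hCeq : {z : H | Nb z = Nb h} = (Subgroup.zpowers h' : Set H) \ {1} := by
      ext z
      constructor
      · intro hz
        refine ⟨?_, hC1 z hz⟩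
        have hzN : z ∈ Nb h' := by
          rw [hh'C, ← (hz : Nb z = Nb h)]; exact adj_self z
        rcases (show Adj h' z from hzN) with h1 | h1
        · exact mem_of_order_eq h1 (le_antisymm (Nat.le_of_dvd (orderOf_pos z) (order_dvd h1))
            (hmaxo z hz))
        · exact h1
      · rintro ⟨hz, hz1⟩
        rcases adj_of_primePow hr hh'b hz hhh' with h1 | h1
        · exact hlow z h1 hz1
        · obtain ⟨i, _, hi⟩ := (Nat.dvd_prime_pow hr).mp (hh'b ▸ order_dvd hz)
          refine le_antisymm ?_ ?_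
          · exact nb_subset_of_primePow hr hi h1
          · rw [← hh'C]; exact nb_subset_of_primePow hr hh'b hz
    have hphi : n.totient + 1 = r ^ b := by
      have h1 : {z : H | Nb z = Nb h}.ncard = n.totient := by
        rw [← ncard_nb_class hp hq hpq hpn hqn hx hu,
          ← Set.ncard_image_of_injective _ e.injective]
        congr 1
        ext z
        constructor
        · intro hz
          exact ⟨e.symm z, (hclass _).mp (by simpa using hz), e.apply_symm_apply z⟩
        · rintro ⟨c, hc, rfl⟩; exact (hclass c).mpr hc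
      rw [hCeq, Set.ncard_sdiff (by simpa using one_mem _), Set.ncard_singleton,
        ← Nat.card_coe_set_eq] at h1
      have h2 : Nat.card (Subgroup.zpowers h' : Set H) = r ^ b := by
        rw [← hh'b]; exact Nat.card_zpowers h'
      have h3 : 1 ≤ r ^ b := Nat.one_le_pow _ _ hr.pos
      omega
    set S : Set H := Nb h \ (Subgroup.zpowers h' : Set H) with hS
    have hnS : n = r ^ b + S.ncard := by
      rw [← hNh, Nat.card_coe_set_eq, ← hh'b, ← Nat.card_zpowers, ← SetLike.coe_sort_coe,
        Nat.card_coe_set_eq, hS, add_comm, Set.ncard_sdiff_add_ncard_of_subset]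
      intro z hz
      rw [← hh'C]
      exact Or.inr hz
    have hSup : ∀ z ∈ S, h' ∈ Subgroup.zpowers z := fun z hz =>
      (show Adj h' z from (hh'C.symm ▸ hz.1 : z ∈ Nb h')).resolve_right hz.2
    have hSclosed : ∀ z ∈ S, ∀ w : H, Subgroup.zpowers w = Subgroup.zpowers z → w ∈ S := by
      intro z hz w hw
      refine ⟨hh'C ▸ (Or.inl (hw ▸ hSup z hz) : Adj h' w), fun hwin => hz.2 ?_⟩
      exact zp_trans (hw ▸ Subgroup.mem_zpowers z) hwin
    have hdiv : (r ^ b).totient ∣ S.ncard := dvd_ncard_of_closed S hSclosed fun z hz =>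
      Nat.totient_dvd_of_dvd (hh'b ▸ order_dvd (hSup z hz))
    obtain ⟨k, hk⟩ := hdiv
    by_cases hy : ∃ z ∈ S, ∃ p' q' : ℕ, p'.Prime ∧ q'.Prime ∧ p' ≠ q' ∧ p' ∣ orderOf z ∧ q' ∣ orderOf z
    · obtain ⟨z, hz, p', q', hp', hq', hpq', hd1, hd2⟩ := hy
      obtain ⟨y, hy, hzy⟩ := exists_isMaxCyc z
      exact ⟨h', r, b, k, hr, hb, hh'b, hh'C, hphi, by rw [hnS, hk, mul_comm],
        y, p', q', hy, zp_trans (hSup z hz) hzy, hp', hq', hpq', hd1.trans (order_dvd hzy),
        hd2.trans (order_dvd hzy)⟩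
    · exfalso
      push Not at hy
      have hbig : r ^ b * (r - 1) ∣ S.ncard := by
        refine dvd_ncard_of_closed S hSclosed fun z hz => ?_
        have hd := hh'b ▸ order_dvd (hSup z hz)
        have hz1 : orderOf z ≠ 1 := fun h' => hb.ne' (by
          rw [h', Nat.dvd_one, Nat.pow_eq_one] at hd
          exact hd.resolve_left hr.ne_one)
        rcases exists_two_primes_or_primePow (orderOf_pos z).ne' hz1 with
          ⟨s, t, hs, ht, hst, hsd, htd⟩ | ⟨s, c, hs, hc⟩
        · exact absurd htd (hy z hz s t hs ht hst hsd)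
        rw [hc] at hd
        obtain rfl := (Nat.prime_dvd_prime_iff_eq hr hs).mp
          (hr.dvd_of_dvd_pow ((dvd_pow_self r hb.ne').trans hd))
        have hbc : b < c := by
          refine lt_of_le_of_ne ((Nat.pow_dvd_pow_iff_le_right hr.one_lt).mp hd) fun hbc => hz.2 ?_
          exact mem_of_order_eq (hSup z hz) (by rw [hh'b, hc, hbc])
        rw [hc, Nat.totient_prime_pow hr (by omega)]
        exact mul_dvd_mul (pow_dvd_pow r (by omega)) dvd_rfl
      obtain ⟨k', hk'⟩ := hbig
      have heven : 2 ∣ n.totient := (Nat.totient_even hn2).two_dvd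
      have hr2 : r ≠ 2 := by
        rintro rfl
        have : 2 ∣ n.totient + 1 := hphi ▸ dvd_pow_self 2 hb.ne'
        omega
      have hrn : r ^ b ∣ n := ⟨1 + (r - 1) * k', by rw [hnS, hk']; ring⟩
      have hb1 : b = 1 := by
        by_contra hb1
        have h1 := Nat.totient_dvd_of_dvd hrn
        rw [Nat.totient_prime_pow hr hb] at h1
        have h2 : r ∣ n.totient :=
          ((dvd_pow_self r (by omega : b - 1 ≠ 0)).mul_right _).trans h1
        have h3 : r ∣ n.totient + 1 := hphi ▸ dvd_pow_self r hb.ne'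
        exact hr.not_dvd_one ((Nat.dvd_add_right h2).mp h3)
      subst hb1
      rw [pow_one] at hphi hnS hk' hrn
      obtain ⟨t, ht⟩ := hrn
      have h1 := Nat.totient_super_multiplicative r t
      rw [← ht, Nat.totient_prime hr] at h1
      have htpos : 0 < t := Nat.pos_of_ne_zero fun h0 => by subst h0; omega
      have h3 : t.totient = 1 := by
        have h4 := Nat.totient_pos.mpr htpos
        have h5 : (r - 1) * t.totient ≤ (r - 1) * 1 := by omega
        have := Nat.le_of_mul_le_mul_left h5 (by have := hr.two_le; omega)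
        omega
      rcases Nat.totient_eq_one_iff.mp h3 with rfl | rfl
      · have : p = r := (Nat.prime_dvd_prime_iff_eq hp hr).mp (by simpa [ht] using hpn)
        have : q = r := (Nat.prime_dvd_prime_iff_eq hq hr).mp (by simpa [ht] using hqn)
        omega
      · have h6 : S.ncard = r := by omega
        rw [h6] at hk'
        have h7 : (r - 1) * k' = 1 := Nat.eq_of_mul_eq_mul_left hr.pos (by
          rw [mul_one, ← mul_assoc]; exact hk'.symm)
        have := Nat.eq_one_of_mul_eq_one_right h7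
        omega

theorem arith_exp {n m r s b' c' k : ℕ} (hr : r.Prime) (hs : s.Prime) (hr3 : 3 ≤ r) (hs3 : 3 ≤ s)
    (hb' : 0 < b') (hn : n.totient + 1 = r ^ b' * r) (hm : m.totient + 1 = s ^ c' * s)
    (hsn : s ^ (c' + 1) ∣ n) (hrm : r ^ (b' + 1) ∣ m)
    (hk : n = r ^ (b' + 1) + k * (r ^ (b' + 1)).totient) (hn0 : 0 < n) (hm0 : 0 < m) : False := by
  rw [Nat.totient_prime_pow_succ hr] at hk
  have hrn : r ∣ n := by
    rw [hk]
    exact dvd_add (dvd_pow_self r (by omega))
      (((dvd_pow_self r hb'.ne').mul_right _).mul_left _)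
  have hφm : r ^ b' * (r - 1) ≤ m.totient := by
    have := Nat.totient_dvd_of_dvd hrm
    rw [Nat.totient_prime_pow_succ hr] at this
    exact Nat.le_of_dvd (Nat.totient_pos.mpr hm0) this
  rcases eq_or_ne r s with rfl | hne
  · rcases Nat.eq_zero_or_pos c' with rfl | hc'
    · rw [pow_zero, one_mul] at hm
      have h1 : r ≤ r ^ b' := Nat.le_self_pow hb'.ne' r
      have := Nat.mul_le_mul h1 (show 1 ≤ r - 1 by omega)
      omega
    · have h1 := Nat.totient_dvd_of_dvd hsn
      rw [Nat.totient_prime_pow_succ hr] at h1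
      have h2 : r ∣ n.totient := ((dvd_pow_self r hc'.ne').mul_right _).trans h1
      have h3 : r ∣ n.totient + 1 := hn ▸ dvd_mul_left r _
      exact hr.not_dvd_one ((Nat.dvd_add_right h2).mp h3)
  · have hcop : Nat.Coprime r (s ^ (c' + 1)) :=
      Nat.Coprime.pow_right _ ((Nat.coprime_primes hr hs).mpr hne)
    have h1 := Nat.totient_dvd_of_dvd (hcop.mul_dvd_of_dvd_of_dvd hrn hsn)
    rw [Nat.totient_mul hcop, Nat.totient_prime hr, Nat.totient_prime_pow_succ hs] at h1
    have hφn := Nat.le_of_dvd (Nat.totient_pos.mpr hn0) h1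
    have hR : 0 < r ^ b' := pow_pos hr.pos _
    have hS : 0 < s ^ c' := pow_pos hs.pos _
    have hA : (r - 1) * (s ^ c' * (s - 1)) < r ^ b' * r := by omega
    have hB : r ^ b' * (r - 1) < s ^ c' * s := by omega
    have hmul := Nat.mul_lt_mul'' hA hB
    have h5 : ((r - 1) * (r - 1) * (s - 1)) * (r ^ b' * s ^ c') < (r * s) * (r ^ b' * s ^ c') := by
      calc _ = (r - 1) * (s ^ c' * (s - 1)) * (r ^ b' * (r - 1)) := by ring
        _ < r ^ b' * r * (s ^ c' * s) := hmul
        _ = _ := by ring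
    have h6 := Nat.lt_of_mul_lt_mul_right h5
    obtain ⟨u, rfl⟩ : ∃ u, r = u + 1 := ⟨r - 1, by omega⟩
    obtain ⟨v, rfl⟩ : ∃ v, s = v + 1 := ⟨s - 1, by omega⟩
    simp only [Nat.add_sub_cancel] at h6
    rcases (show u = 2 ∨ 3 ≤ u by omega) with rfl | hu
    · have : 3 ≤ v := by omega
      omega
    · nlinarith [Nat.mul_le_mul hu (show 2 ≤ v by omega), Nat.mul_le_mul_left u (Nat.mul_le_mul hu (show 2 ≤ v by omega))]

/-- No numbers satisfy the conditions of two mirror exceptional pairs. -/
theorem arith {n m r b s c k l : ℕ} (hr : r.Prime) (hs : s.Prime) (hb : 0 < b) (hc : 0 < c)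
    (hn : n.totient + 1 = r ^ b) (hm : m.totient + 1 = s ^ c) (hsn : s ^ c ∣ n) (hrm : r ^ b ∣ m)
    (hk : n = r ^ b + k * (r ^ b).totient) (hl : m = s ^ c + l * (s ^ c).totient)
    (hn2 : 2 < n) (hm2 : 2 < m) (hnp : ¬ n.Prime) : False := by
  have odd_of : ∀ {N R B : ℕ}, R.Prime → 0 < B → 2 < N → N.totient + 1 = R ^ B → 3 ≤ R := by
    intro N R B hR hB hN h
    by_contra hlt
    obtain rfl : R = 2 := by have := hR.two_le; omega
    have h1 : 2 ∣ N.totient + 1 := h ▸ dvd_pow_self 2 hB.ne'
    have h2 : 2 ∣ N.totient := (Nat.totient_even hN).two_dvd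
    omega
  have hr3 := odd_of hr hb hn2 hn
  have hs3 := odd_of hs hc hm2 hm
  obtain ⟨b', rfl⟩ : ∃ b', b = b' + 1 := ⟨b - 1, by omega⟩
  obtain ⟨c', rfl⟩ : ∃ c', c = c' + 1 := ⟨c - 1, by omega⟩
  rw [pow_succ] at hn hm
  rcases Nat.eq_zero_or_pos b' with rfl | hb'
  · rcases Nat.eq_zero_or_pos c' with rfl | hc'
    · simp only [pow_zero, one_mul, zero_add, pow_one] at hn hm hsn hrm hk hl
      rw [Nat.totient_prime hr] at hk
      have h1 := Nat.le_of_dvd (Nat.totient_pos.mpr (by omega)) (Nat.totient_dvd_of_dvd hsn)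
      have h2 := Nat.le_of_dvd (Nat.totient_pos.mpr (by omega)) (Nat.totient_dvd_of_dvd hrm)
      rw [Nat.totient_prime hs] at h1
      rw [Nat.totient_prime hr] at h2
      obtain rfl : s = r := by omega
      obtain ⟨t, ht⟩ := hsn
      have h3 := Nat.totient_super_multiplicative s t
      rw [← ht, Nat.totient_prime hs] at h3
      have htpos : 0 < t := Nat.pos_of_ne_zero fun h0 => by subst h0; omega
      have h4 := Nat.totient_pos.mpr htpos
      have h5 : (s - 1) * t.totient ≤ (s - 1) * 1 := by omega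
      have h6 := Nat.le_of_mul_le_mul_left h5 (by omega)
      rcases Nat.totient_eq_one_iff.mp (by omega : t.totient = 1) with rfl | rfl
      · exact hnp (by rw [ht, mul_one]; exact hs)
      · have h7 : k * (s - 1) = s := by omega
        have h8 : (s - 1) ∣ s := ⟨k, by rw [mul_comm]; exact h7.symm⟩
        have h9 : (s - 1) ∣ 1 := by
          have := Nat.dvd_sub h8 (dvd_refl (s - 1))
          rwa [show s - (s - 1) = 1 by omega] at this
        have := Nat.le_of_dvd one_pos h9
        omega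
    · exact arith_exp hs hr hs3 hr3 hc' hm hn hrm hsn hl (by omega) (by omega)
  · exact arith_exp hr hs hr3 hs3 hb' hn hm hsn hrm hk (by omega) (by omega)

theorem cyclic_of_universal {p q : ℕ}
    (hp : p.Prime) (hq : q.Prime) (hpq : p ≠ q) (hpG : p ∣ Nat.card G) (hqG : q ∣ Nat.card G)
    {g : G} (hg : ∀ y, Adj g y) (hg1 : g ≠ 1) : ∀ y : G, y ∈ Subgroup.zpowers g := by
  rcases exists_two_primes_or_primePow (orderOf_pos g).ne'
      (fun h => hg1 (orderOf_eq_one_iff.mp h)) with ⟨a, b, ha, hb, hab, h1, h2⟩ | ⟨r, a, hr, hga⟩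
  · intro y
    obtain ⟨x, hx, hgx⟩ := exists_isMaxCyc g
    have ho : orderOf g = orderOf x := by
      by_contra hne
      refine nb_ne_of_mem ha hb hab (h1.trans (order_dvd hgx)) (h2.trans (order_dvd hgx)) hgx hg1
        hne ?_
      obtain ⟨D, hD, hD1, hD2⟩ := exists_incomparable (orderOf_pos x).ne' ha hb hab
        (h1.trans (order_dvd hgx)) (h2.trans (order_dvd hgx)) (order_dvd hgx)
        (fun h' => hg1 (orderOf_eq_one_iff.mp h')) hne
      obtain ⟨t, ht, hto⟩ := exists_order_in_zpowers hD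
      rcases hg t with h' | h'
      · exact absurd (hto ▸ order_dvd h') hD2
      · exact absurd (hto ▸ order_dvd h') hD1
    rcases hg y with h | h
    · exact zp_trans (hx y (zp_trans (mem_of_order_eq hgx ho) h)) (mem_of_order_eq hgx ho)
    · exact h
  · exfalso
    obtain ⟨s, hs, hsr, hsG⟩ : ∃ s : ℕ, s.Prime ∧ s ≠ r ∧ s ∣ Nat.card G := by
      by_cases hpr : p = r
      · exact ⟨q, hq, fun h => hpq (hpr.trans h.symm), hqG⟩
      · exact ⟨p, hp, hpr, hpG⟩
    have := Fact.mk hs
    obtain ⟨z, hz⟩ := exists_prime_orderOf_dvd_card' s hsG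
    have ha : a ≠ 0 := fun h => hg1 (orderOf_eq_one_iff.mp (by rw [hga, h, pow_zero]))
    rcases hg z with h | h <;> have hd := order_dvd h <;> rw [hga, hz] at hd
    · exact hsr ((Nat.prime_dvd_prime_iff_eq hr hs).mp ((dvd_pow_self r ha).trans hd)).symm
    · exact hsr ((Nat.prime_dvd_prime_iff_eq hs hr).mp (hs.dvd_of_dvd_pow hd))

theorem main (e : G ≃ H) (he : ∀ a b, Adj a b ↔ Adj (e a) (e b)) {p q : ℕ} (hp : p.Prime)
    (hq : q.Prime) (hpq : p ≠ q) {g : G} (hg : orderOf g = p * q) :
    ∃ h : H, orderOf h = p * q := by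
  have hgn : p * q ∣ Nat.card G := hg ▸ orderOf_dvd_natCard g
  have hpG := (dvd_mul_right p q).trans hgn
  have hqG := (dvd_mul_left q p).trans hgn
  have hcard : Nat.card H = Nat.card G := (Nat.card_congr e).symm
  have fromDvd : ∀ y : H, p * q ∣ orderOf y → ∃ h : H, orderOf h = p * q := fun y hy =>
    ⟨_, orderOf_pow_orderOf_div (orderOf_pos y).ne' hy⟩
  by_cases huH : ∀ h : H, (∀ y, Adj h y) → h = 1
  · by_cases huG : ∀ a : G, (∀ y, Adj a y) → a = 1
    · have he1 : e 1 = 1 := huH _ fun y => by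
        simpa using (he 1 (e.symm y)).mp (Or.inl (one_mem _))
      have he' : ∀ a b : H, Adj a b ↔ Adj (e.symm a) (e.symm b) := fun a b => by
        rw [he, e.apply_symm_apply, e.apply_symm_apply]
      obtain ⟨x, hx, hgx⟩ := exists_isMaxCyc g
      have hpq' : p * q ∣ orderOf x := hg ▸ order_dvd hgx
      rcases key e he he1 huG hp hq hpq ((dvd_mul_right p q).trans hpq')
          ((dvd_mul_left q p).trans hpq') hx with ⟨_, ho⟩ | hex
      · exact fromDvd _ (ho ▸ hpq')
      obtain ⟨h, r, b, k, hr, hb, hho, hNh, hphi, hk, y, a, c, hy, hhy, ha, hc, hac, had, hcd⟩ := hex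
      have hux : e.symm y ∈ Subgroup.zpowers x := by
        have h1 : Adj (e x) y := (hNh ▸ (Or.inl hhy : Adj h y) : y ∈ Nb (e x))
        have h2 : Adj x (e.symm y) := (he _ _).mpr (by rwa [e.apply_symm_apply])
        exact h2.elim (hx _) id
      rcases key e.symm he' (by rw [Equiv.symm_apply_eq, he1]) huH ha hc hac had hcd hy with
        ⟨hmax, ho⟩ | hex'
      · exfalso
        have hxu := hmax x hux
        have hN : Nb (e.symm y) = Nb x := Set.ext fun z =>
          ⟨fun h => h.imp (fun h => zp_trans hxu h) (fun h => zp_trans h hux),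
            fun h => h.imp (fun h => zp_trans hux h) (fun h => zp_trans h hxu)⟩
        have hN' : Nb y = Nb h := by
          rw [hNh]
          ext z
          have := Set.ext_iff.mp hN (e.symm z)
          exact ((he' y z).trans this).trans (by
            show Adj x (e.symm z) ↔ Adj (e x) z
            rw [he, e.apply_symm_apply])
        refine nb_ne_of_mem ha hc hac had hcd hhy ?_ ?_ hN'.symm
        · intro h1; rw [h1, orderOf_one] at hho; exact hb.ne' (Nat.pow_eq_one.mp hho.symm |>.resolve_left hr.ne_one)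
        · intro h1
          rw [hho] at h1
          rw [← h1] at had hcd
          exact hac (((Nat.prime_dvd_prime_iff_eq ha hr).mp (ha.dvd_of_dvd_pow had)).trans
            ((Nat.prime_dvd_prime_iff_eq hc hr).mp (hc.dvd_of_dvd_pow hcd)).symm)
      · exfalso
        obtain ⟨u, s, d, l, hs, hd, huo, hNu, hpsi, hl, -⟩ := hex'
        have hux' : u ∈ Subgroup.zpowers x := by
          have h1 : Adj (e.symm y) x := Or.inl hux
          have h2 : Adj u x := (hNu.symm ▸ h1 : x ∈ Nb u)
          exact h2.elim id fun h3 => hx u h3 |> fun h4 => h4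
        have two_lt : ∀ N a b : ℕ, a.Prime → b.Prime → a ≠ b → a ∣ N → b ∣ N → 0 < N → 2 < N := by
          intro N a b ha hb hab h1 h2 hN
          have := Nat.le_of_dvd hN h1
          have := Nat.le_of_dvd hN h2
          have := ha.two_le; have := hb.two_le
          omega
        refine arith hr hs hb hd hphi hpsi (huo ▸ order_dvd hux') (hho ▸ order_dvd hhy) hk hl
          (two_lt _ p q hp hq hpq ((dvd_mul_right p q).trans hpq') ((dvd_mul_left q p).trans hpq')
            (orderOf_pos x)) (two_lt _ a c ha hc hac had hcd (orderOf_pos y)) fun hprime => ?_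
        exact hpq (((Nat.prime_dvd_prime_iff_eq hp hprime).mp ((dvd_mul_right p q).trans hpq')).trans
          ((Nat.prime_dvd_prime_iff_eq hq hprime).mp ((dvd_mul_left q p).trans hpq')).symm)
    · push Not at huG
      obtain ⟨a, ha, ha1⟩ := huG
      have hcyc := cyclic_of_universal hp hq hpq hpG hqG ha ha1
      have hcard1 : 2 < Nat.card G := by
        have := Nat.le_of_dvd Nat.card_pos hpG
        have := Nat.le_of_dvd Nat.card_pos hqG
        have := hp.two_le; have := hq.two_le
        omega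
      have hsub : ∀ z : G, (∀ y, Adj z y) → z = e.symm 1 := fun z hz => by
        rw [Equiv.eq_symm_apply]
        exact huH _ fun y => by simpa using (he z (e.symm y)).mp (hz _)
      have hu1 : (1 : G) = e.symm 1 := hsub 1 fun y => Or.inl (one_mem _)
      exact absurd ((hsub a ha).trans hu1.symm) ha1
  · push Not at huH
    obtain ⟨a, ha, ha1⟩ := huH
    have hcyc := cyclic_of_universal hp hq hpq (hcard ▸ hpG) (hcard ▸ hqG) ha ha1
    refine fromDvd a ?_
    rw [← Nat.card_zpowers, (Subgroup.eq_top_iff' _).mpr hcyc, Subgroup.card_top, hcard]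
    exact hgn

end PG


/-- Let G and H be finite groups whose power graphs are isomorphic: there is a bijection e : G → H such that, for all x, y, one of x, y is a power of the other exactly when one of e(x), e(y) is a power of the other. Then G and H have the same prime graph: for distinct primes p, q, G has an element of order pq if and only if H does. -/
theorem result {G H : Type*} [Group G] [Finite G] [Group H] [Finite H] (e : G ≃ H)
    (he : ∀ x y : G, (x ∈ Subgroup.zpowers y ∨ y ∈ Subgroup.zpowers x) ↔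
      (e x ∈ Subgroup.zpowers (e y) ∨ e y ∈ Subgroup.zpowers (e x)))
    {p q : ℕ} (hp : p.Prime) (hq : q.Prime) (hpq : p ≠ q) :
    (∃ g : G, orderOf g = p * q) ↔ (∃ h : H, orderOf h = p * q) := by
  constructor
  · rintro ⟨g, hg⟩
    exact PG.main e he hp hq hpq hg
  · rintro ⟨h, hh⟩
    refine PG.main e.symm (fun a b => ?_) hp hq hpq hh
    have := he (e.symm a) (e.symm b)
    rw [e.apply_symm_apply, e.apply_symm_apply] at this
    exact this.symm

end Cfsg.Agent.S4085
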