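import Cfsg.Statements.S4086
import Mathlib.GroupTheory.SpecificGroups.Cyclic.Basic
import Mathlib.Data.Nat.Factorization.PrimePow

set_option autoImplicit false
open Cfsg

namespace Cfsg.Agent.S4086

/-- In a finite cyclic subgroup, divisibility of orders gives containment. -/
theorem mem_of_dvd {G : Type*} [Group G] [Finite G] {x y z : G} (hx : x ∈ Subgroup.zpowers z)
    (hy : y ∈ Subgroup.zpowers z) (h : orderOf x ∣ orderOf y) : x ∈ Subgroup.zpowers y := by
  classical
  have := Fintype.ofFinite (Subgroup.zpowers z)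
  have hle := IsCyclic.card_pow_eq_one_le (α := Subgroup.zpowers z) (orderOf_pos y)
  let x' : Subgroup.zpowers z := ⟨x, hx⟩
  let y' : Subgroup.zpowers z := ⟨y, hy⟩
  have hy' : orderOf y' = orderOf y := Subgroup.orderOf_mk y hy
  have hsub : (Finset.univ.filter fun w => w ∈ Subgroup.zpowers y') ⊆
      Finset.univ.filter fun w : Subgroup.zpowers z => w ^ orderOf y = 1 := by
    intro w hw
    simp only [Finset.mem_filter, Finset.mem_univ, true_and] at hw ⊢
    exact orderOf_dvd_iff_pow_eq_one.mp (hy' ▸ orderOf_dvd_of_mem_zpowers hw)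
  have hcard : (Finset.univ.filter fun w => w ∈ Subgroup.zpowers y').card = orderOf y := by
    rw [← hy', ← Nat.card_zpowers y', Nat.card_eq_fintype_card, Fintype.card_subtype]
  have heq := Finset.eq_of_subset_of_card_le hsub (hcard ▸ hle)
  have hxm : x' ∈ Finset.univ.filter fun w : Subgroup.zpowers z => w ^ orderOf y = 1 := by
    simp only [Finset.mem_filter, Finset.mem_univ, true_and]
    exact orderOf_dvd_iff_pow_eq_one.mp ((Subgroup.orderOf_mk x hx).symm ▸ h)
  rw [← heq, Finset.mem_filter] at hxm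
  obtain ⟨k, hk⟩ := hxm.2
  exact ⟨k, congrArg Subtype.val hk⟩


/-- For a finite group G the following are equivalent: every non-identity element has prime-power order; whenever two elements generate a cyclic subgroup, one of them is a power of the other (the enhanced power graph of G coincides with its power graph). -/
theorem result {G : Type*} [Group G] [Finite G] :
    (∀ g : G, g ≠ 1 → IsPrimePow (orderOf g)) ↔
    (∀ x y : G, IsCyclic ↥(Subgroup.closure ({x, y} : Set G)) → (x ∈ Subgroup.zpowers y ∨ y ∈ Subgroup.zpowers x)) := by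
  classical
  constructor
  · intro h x y hcyc
    obtain ⟨z, hz⟩ := (Subgroup.isCyclic_iff_exists_zpowers_eq_top _).mp hcyc
    have hxz : x ∈ Subgroup.zpowers z := hz ▸ Subgroup.subset_closure (by simp)
    have hyz : y ∈ Subgroup.zpowers z := hz ▸ Subgroup.subset_closure (by simp)
    by_cases hz1 : z = 1
    · subst hz1
      simp only [Subgroup.zpowers_one_eq_bot, Subgroup.mem_bot] at hxz
      exact Or.inl (hxz ▸ one_mem _)
    obtain ⟨p, k, hp, -, hk⟩ := h z hz1
    obtain ⟨i, -, hi⟩ := (Nat.dvd_prime_pow hp.nat_prime).mp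
      (hk ▸ (orderOf_dvd_of_mem_zpowers hxz))
    obtain ⟨j, -, hj⟩ := (Nat.dvd_prime_pow hp.nat_prime).mp
      (hk ▸ (orderOf_dvd_of_mem_zpowers hyz))
    rcases le_total i j with hij | hij
    · exact Or.inl (mem_of_dvd hxz hyz (hi ▸ hj ▸ pow_dvd_pow p hij))
    · exact Or.inr (mem_of_dvd hyz hxz (hi ▸ hj ▸ pow_dvd_pow p hij))
  · intro h g hg
    by_contra hnp
    have hn1 : orderOf g ≠ 1 := fun h1 => hg (orderOf_eq_one_iff.mp h1)
    obtain ⟨p, hp, hpd⟩ := Nat.exists_prime_and_dvd hn1
    let a := ordProj[p] (orderOf g)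
    let b := ordCompl[p] (orderOf g)
    have hab : a * b = orderOf g := Nat.ordProj_mul_ordCompl_eq_self _ _
    have ha1 : a ≠ 1 := by
      have := (Nat.Prime.factorization_pos_of_dvd hp (orderOf_pos g).ne' hpd)
      exact (Nat.one_lt_pow this.ne' hp.one_lt).ne'
    have hb1 : b ≠ 1 := fun hb => hnp ((exists_ordCompl_eq_one_iff_isPrimePow hn1).mpr ⟨p, hp, hb⟩)
    have hcop : a.Coprime b := Nat.Coprime.pow_left _ (Nat.coprime_ordCompl hp (orderOf_pos g).ne')
    have hox : orderOf (g ^ a) = b := by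
      rw [orderOf_pow_of_dvd (pow_ne_zero _ hp.ne_zero) (Dvd.intro b hab)]
    have hoy : orderOf (g ^ b) = a := by
      have hb0 : b ≠ 0 := fun h0 => (orderOf_pos g).ne' (by rw [← hab, h0, mul_zero])
      rw [orderOf_pow_of_dvd hb0 (Dvd.intro_left a hab), ← hab,
        Nat.mul_div_cancel _ (Nat.pos_of_ne_zero hb0)]
    have hle : Subgroup.closure ({g ^ a, g ^ b} : Set G) ≤ Subgroup.zpowers g := by
      rw [Subgroup.closure_le]
      rintro z (rfl | rfl)
      · exact Subgroup.npow_mem_zpowers g a
      · exact Subgroup.npow_mem_zpowers g b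
    rcases h _ _ (Subgroup.isCyclic_of_le hle) with h1 | h1
    · have := orderOf_dvd_of_mem_zpowers h1
      rw [hox, hoy] at this
      exact hb1 (Nat.dvd_one.mp (hcop ▸ Nat.dvd_gcd this dvd_rfl))
    · have := orderOf_dvd_of_mem_zpowers h1
      rw [hox, hoy] at this
      exact ha1 (Nat.dvd_one.mp (hcop ▸ Nat.dvd_gcd dvd_rfl this))

end Cfsg.Agent.S4086
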