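import Cfsg.Statements.S4088
import Cfsg.Agent.Lib.Subnormal.Subnormalizer
import Mathlib
-- import your own Cfsg.Agent.* helpers here

set_option autoImplicit false
set_option linter.style.haveILetI false
open Cfsg

namespace Cfsg.Agent.S4088

/-- Counting the group by the fibres of an orbit map. -/
theorem card_orbit_map {G X : Type*} [Group G] [Finite G] [MulAction G X] (x : X) (C : X → Prop) :
    Nat.card {g : G // C (g • x)} =
      Nat.card {y : X // C y ∧ ∃ g : G, g • x = y} * Nat.card (MulAction.stabilizer G x) := by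
  classical
  rw [← Nat.card_prod]
  refine Nat.card_congr (Equiv.ofBijective
    (fun g => (⟨g.1 • x, g.2, g.1, rfl⟩,
      ⟨(Classical.choose (⟨g.1, rfl⟩ : ∃ h : G, h • x = g.1 • x))⁻¹ * g.1, ?_⟩)) ⟨?_, ?_⟩)
  · rw [MulAction.mem_stabilizer_iff, mul_smul, inv_smul_eq_iff]
    exact (Classical.choose_spec (⟨g.1, rfl⟩ : ∃ h : G, h • x = g.1 • x)).symm
  · rintro ⟨a, ha⟩ ⟨b, hb⟩ h
    simp only [Prod.mk.injEq, Subtype.mk.injEq] at h
    obtain ⟨h1, h2⟩ := h
    simp only [h1] at h2
    exact Subtype.ext (mul_left_cancel h2)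
  · rintro ⟨⟨y, hy, hex⟩, ⟨s, hs⟩⟩
    have hsx : (Classical.choose hex * s) • x = y := by
      rw [mul_smul, MulAction.mem_stabilizer_iff.mp hs, Classical.choose_spec hex]
    refine ⟨⟨Classical.choose hex * s, hsx.symm ▸ hy⟩, ?_⟩
    simp only [Prod.mk.injEq, Subtype.mk.injEq]
    refine ⟨hsx, ?_⟩
    simp only [hsx]
    exact inv_mul_cancel_left _ _

/-- Let G be a finite group, p a prime dividing the order of G, H a p-subgroup of G and P a Sylow p-subgroup of G. Call the subnormalizer of H the set of elements g of G such that H is subnormal in the subgroup generated by H and g. Then the number of elements of the subnormalizer of H equals the number of Sylow p-subgroups of G containing H times the order of N_G(P), and also equals the number of conjugates of H contained in P times the order of N_G(H). -/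
theorem result {G : Type*} [Group G] [Finite G] (p : ℕ) [Fact p.Prime]
    (hp : p ∣ Nat.card G) (H : Subgroup G) (hH : IsPGroup p H) (P : Sylow p G) :
    Nat.card {g : G // ((H).subgroupOf (H ⊔ Subgroup.zpowers g)).IsSubnormal} =
        Nat.card {Q : Sylow p G // H ≤ (Q : Subgroup G)} * Nat.card (Subgroup.normalizer ((P : Subgroup G) : Set G)) ∧
    Nat.card {g : G // ((H).subgroupOf (H ⊔ Subgroup.zpowers g)).IsSubnormal} =
        Nat.card {K : Subgroup G // K ≤ (P : Subgroup G) ∧ ∃ g : G, K = H.map (MulAut.conj g).toMonoidHom} *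
          Nat.card (Subgroup.normalizer (H : Set G)) := by
  classical
  have hset : Nat.card {g : G // ((H).subgroupOf (H ⊔ Subgroup.zpowers g)).IsSubnormal} =
      Nat.card {Q : Sylow p G // H ≤ (Q : Subgroup G)} *
        Nat.card (Subgroup.normalizer ((P : Subgroup G) : Set G)) := by
    rw [← CfsgLib.Subnormal.card_pSubnormalizer P hH, ← Nat.card_coe_set_eq]
    exact Nat.card_congr (Equiv.subtypeEquivRight fun g =>
      CfsgLib.Subnormal.isSubnormal_iff_mem_pSubnormalizer hH g)
  refine ⟨hset, hset.trans ?_⟩
  -- count the elements moving `H` into `P` in two ways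
  letI : MulAction G (Subgroup G) :=
    { smul := fun g K => K.map (MulAut.conj g).toMonoidHom
      one_smul := fun K => by
        change K.map (MulAut.conj 1).toMonoidHom = K
        rw [map_one]; exact Subgroup.map_id K
      mul_smul := fun g h K => by
        change K.map (MulAut.conj (g * h)).toMonoidHom = (K.map _).map _
        rw [Subgroup.map_map, map_mul]; rfl }
  have hstab : MulAction.stabilizer G H = Subgroup.normalizer (H : Set G) := by
    ext g
    rw [MulAction.mem_stabilizer_iff, CfsgLib.Subnormal.mem_normalizer_iff_map_conj]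
    rfl
  have h1 := card_orbit_map H (fun K => K ≤ (P : Subgroup G)) (G := G)
  have h2 := card_orbit_map P (fun Q : Sylow p G => H ≤ (Q : Subgroup G)) (G := G)
  rw [Sylow.stabilizer_eq_normalizer] at h2
  rw [hstab] at h1
  have h3 : Nat.card {g : G // g • H ≤ (P : Subgroup G)} =
      Nat.card {g : G // H ≤ ((g • P : Sylow p G) : Subgroup G)} := by
    refine Nat.card_congr ((Equiv.inv G).subtypeEquiv fun g => ?_)
    constructor
    · intro h x hx
      have : MulAut.conj g x ∈ (P : Subgroup G) := h ⟨x, hx, rfl⟩
      exact ⟨MulAut.conj g x, this, by simp [mul_assoc]⟩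
    · rintro h _ ⟨x, hx, rfl⟩
      obtain ⟨y, hy, hyx⟩ := h hx
      simp [← hyx, mul_assoc]
      exact hy
  have h4 : Nat.card {Q : Sylow p G // H ≤ (Q : Subgroup G)} =
      Nat.card {Q : Sylow p G // H ≤ (Q : Subgroup G) ∧ ∃ g : G, g • P = Q} :=
    Nat.card_congr (Equiv.subtypeEquivRight fun Q =>
      ⟨fun h => ⟨h, MulAction.exists_smul_eq G P Q⟩, fun h => h.1⟩)
  rw [h4]
  refine h2.symm.trans ?_
  rw [← h3, h1]
  congr 1
  exact Nat.card_congr (Equiv.subtypeEquivRight fun K =>
    and_congr_right fun _ => exists_congr fun g => ⟨fun h => h.symm, fun h => h.symm⟩)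

end Cfsg.Agent.S4088
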