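import Cfsg.Statements.S4089
import Cfsg.Agent.Lib.Subnormal.Basic
import Cfsg.Agent.Lib.Cores.PCore

set_option autoImplicit false
open Cfsg

namespace Cfsg.Agent.S4089

variable {G : Type*} [Group G] [Finite G] {p : ℕ} [Fact p.Prime]

/-- `R` is the `p`-core of its normalizer. -/
def IsRad (p : ℕ) (R : Subgroup G) : Prop :=
  (Cfsg.pCore p (Subgroup.normalizer (R : Set G))).map
    (Subgroup.normalizer (R : Set G)).subtype = R

theorem isPGroup_of_isRad {R : Subgroup G} (hR : IsRad p R) : IsPGroup p R :=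
  hR ▸ (CfsgLib.Cores.isPGroup_pCore p _).map _

theorem isSubnormal_of_le_radical {H R : Subgroup G} {g : G} (hHR : H ≤ R) (hR : IsRad p R)
    (hgR : g ∈ Subgroup.normalizer (R : Set G)) :
    (H.subgroupOf (H ⊔ Subgroup.zpowers g)).IsSubnormal := by
  refine CfsgLib.Subnormal.isSubnormal_subgroupOf_mono
    (sup_le (hHR.trans Subgroup.le_normalizer) (Subgroup.zpowers_le.mpr hgR)) ?_
  exact CfsgLib.Subnormal.isSubnormal_subgroupOf_trans hHR Subgroup.le_normalizer
    (CfsgLib.Subnormal.isSubnormal_subgroupOf_of_isNilpotent (isPGroup_of_isRad hR).isNilpotent)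
    Subgroup.normal_in_normalizer.isSubnormal

theorem exists_radical {H : Subgroup G} {g : G} (hH : IsPGroup p H)
    (hg : (H.subgroupOf (H ⊔ Subgroup.zpowers g)).IsSubnormal) :
    ∃ R : Subgroup G, H ≤ R ∧ IsRad p R ∧ g ∈ Subgroup.normalizer (R : Set G) := by
  set L := H ⊔ Subgroup.zpowers g
  set R₀ := (Cfsg.pCore p L).map L.subtype
  have hHR₀ : H ≤ R₀ := by
    have h1 : H.subgroupOf L ≤ Cfsg.pCore p L :=
      CfsgLib.Cores.le_pCore_of_subnormal hg (hH.comap_subtype)
    have := Subgroup.map_mono (f := L.subtype) h1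
    rwa [Subgroup.subgroupOf_map_subtype, inf_eq_left.mpr le_sup_left] at this
  have hgR₀ : g ∈ Subgroup.normalizer (R₀ : Set G) := by
    have : L ≤ Subgroup.normalizer (R₀ : Set G) := by
      refine le_trans ?_ (Subgroup.le_normalizer_map L.subtype)
      rw [Subgroup.normalizer_eq_top_iff.mpr inferInstance, ← MonoidHom.range_eq_map,
        Subgroup.range_subtype]
    exact this (Subgroup.mem_sup_right (Subgroup.mem_zpowers g))
  obtain ⟨R, hR₀R, hmax⟩ := Set.Finite.exists_le_maximal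
    (Set.toFinite {R : Subgroup G | IsPGroup p R ∧ g ∈ Subgroup.normalizer (R : Set G)})
    (show R₀ ∈ {R : Subgroup G | IsPGroup p R ∧ g ∈ Subgroup.normalizer (R : Set G)} from
      ⟨(CfsgLib.Cores.isPGroup_pCore p L).map _, hgR₀⟩)
  refine ⟨R, hHR₀.trans hR₀R, ?_, hmax.1.2⟩
  set N := Subgroup.normalizer (R : Set G)
  have hle : R ≤ (Cfsg.pCore p N).map N.subtype := by
    have : (R.subgroupOf N).Normal := Subgroup.normal_in_normalizer
    have h1 : R.subgroupOf N ≤ Cfsg.pCore p N := CfsgLib.Cores.le_pCore hmax.1.1.comap_subtype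
    have := Subgroup.map_mono (f := N.subtype) h1
    rwa [Subgroup.subgroupOf_map_subtype, inf_eq_left.mpr Subgroup.le_normalizer] at this
  refine le_antisymm (hmax.2 ⟨(CfsgLib.Cores.isPGroup_pCore p N).map _, ?_⟩ hle) hle
  have : N ≤ Subgroup.normalizer ((Cfsg.pCore p N).map N.subtype : Set G) := by
    refine le_trans ?_ (Subgroup.le_normalizer_map N.subtype)
    rw [Subgroup.normalizer_eq_top_iff.mpr inferInstance, ← MonoidHom.range_eq_map,
      Subgroup.range_subtype]
  exact this hmax.1.2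

/-- A radical `p`-subgroup contains the intersection of the Sylow subgroups containing it. -/
theorem sInf_le_radical {R : Subgroup G} (hR : IsRad p R) :
    sInf {K : Subgroup G | ∃ Q : Sylow p G, R ≤ (Q : Subgroup G) ∧ K = (Q : Subgroup G)} ≤ R := by
  set D := sInf {K : Subgroup G | ∃ Q : Sylow p G, R ≤ (Q : Subgroup G) ∧ K = (Q : Subgroup G)}
  have hRD : R ≤ D := le_sInf fun K ⟨Q, hQ, hK⟩ => hK ▸ hQ
  obtain ⟨Q₀, hQ₀⟩ := (isPGroup_of_isRad hR).exists_le_sylow
  have hDp : IsPGroup p D := Q₀.2.to_le (sInf_le ⟨Q₀, hQ₀, rfl⟩)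
  set N := Subgroup.normalizer (R : Set G) with hN
  have hDN : D.subgroupOf N ≤ Cfsg.pCore p N := by
    rw [CfsgLib.Cores.pCore_eq_iInf_sylow]
    refine le_iInf fun S => ?_
    obtain ⟨Q, hQ⟩ := (S.2.map N.subtype).exists_le_sylow
    have hRS : R ≤ (S : Subgroup N).map N.subtype := by
      conv_lhs => rw [← hR]
      exact Subgroup.map_mono (CfsgLib.Cores.pCore_le_sylow S)
    intro x hx
    have hxQ : (x : G) ∈ (Q : Subgroup G) :=
      Subgroup.mem_sInf.mp (Subgroup.mem_subgroupOf.mp hx) _ ⟨Q, hRS.trans hQ, rfl⟩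
    have hle : (S : Subgroup N) ≤ (Q : Subgroup G).subgroupOf N := fun s hs =>
      Subgroup.mem_subgroupOf.mpr (hQ ⟨s, hs, rfl⟩)
    rw [← S.3 Q.2.comap_subtype hle]
    exact Subgroup.mem_subgroupOf.mpr hxQ
  by_contra hne
  have hlt : R < D := lt_of_le_of_ne hRD fun h => hne h.ge
  have := hDp.isNilpotent
  have hlt' : R.subgroupOf D < ⊤ := lt_top_iff_ne_top.mpr fun h =>
    hlt.not_ge (Subgroup.subgroupOf_eq_top.mp h)
  obtain ⟨x, hx, hxR⟩ := SetLike.exists_of_lt (Group.normalizerCondition_of_isNilpotent _ hlt')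
  have hxN : (x : G) ∈ N := by
    have := Subgroup.le_normalizer_map D.subtype ⟨x, hx, rfl⟩
    rwa [Subgroup.subgroupOf_map_subtype, inf_eq_left.mpr hRD] at this
  refine hxR (Subgroup.mem_subgroupOf.mpr ?_)
  rw [← hR]
  exact ⟨⟨x, hxN⟩, hDN (Subgroup.mem_subgroupOf.mpr x.2), rfl⟩


/-- Let G be a finite group, p a prime and H a p-subgroup of G. Then the set of elements g of G such that H is subnormal in the subgroup generated by H and g is the union of the normalizers N_G(R) over the subgroups R of G containing H with R = O_p(N_G(R)); and this set does not change when H is replaced by the intersection of all Sylow p-subgroups of G containing H. -/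
theorem result {G : Type*} [Group G] [Finite G] (p : ℕ) [Fact p.Prime]
    (H : Subgroup G) (hH : IsPGroup p H) :
    {g : G | ((H).subgroupOf (H ⊔ Subgroup.zpowers g)).IsSubnormal} =
      {g : G | ∃ R : Subgroup G, H ≤ R ∧ (Cfsg.pCore p (Subgroup.normalizer (R : Set G))).map (Subgroup.normalizer (R : Set G)).subtype = R ∧ g ∈ Subgroup.normalizer (R : Set G)} ∧
    ∀ g : G, (((H).subgroupOf (H ⊔ Subgroup.zpowers g)).IsSubnormal ↔
      (((sInf {K : Subgroup G | ∃ Q : Sylow p G, H ≤ (Q : Subgroup G) ∧ K = (Q : Subgroup G)})).subgroupOf ((sInf {K : Subgroup G | ∃ Q : Sylow p G, H ≤ (Q : Subgroup G) ∧ K = (Q : Subgroup G)}) ⊔ Subgroup.zpowers g)).IsSubnormal) := by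
  classical
  refine ⟨Set.ext fun g => ⟨fun hg => exists_radical hH hg, ?_⟩, fun g => ⟨fun hg => ?_, fun hg => ?_⟩⟩
  · rintro ⟨R, hHR, hR, hgR⟩
    exact isSubnormal_of_le_radical hHR hR hgR
  · obtain ⟨R, hHR, hR, hgR⟩ := exists_radical hH hg
    exact isSubnormal_of_le_radical (le_trans (sInf_le_sInf (show {K : Subgroup G | ∃ Q : Sylow p G, R ≤ (Q : Subgroup G) ∧ K = (Q : Subgroup G)} ⊆ _ from fun K ⟨Q, hQ, hK⟩ => ⟨Q, hHR.trans hQ, hK⟩))
      (sInf_le_radical hR)) hR hgR
  · set I := sInf {K : Subgroup G | ∃ Q : Sylow p G, H ≤ (Q : Subgroup G) ∧ K = (Q : Subgroup G)}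
    have hHI : H ≤ I := le_sInf fun K ⟨Q, hQ, hK⟩ => hK ▸ hQ
    obtain ⟨Q, hQ⟩ := hH.exists_le_sylow
    have hIp : IsPGroup p I := Q.2.to_le (sInf_le ⟨Q, hQ, rfl⟩)
    refine CfsgLib.Subnormal.isSubnormal_subgroupOf_mono (sup_le_sup_right hHI _) ?_
    exact CfsgLib.Subnormal.isSubnormal_subgroupOf_trans hHI le_sup_left
      (CfsgLib.Subnormal.isSubnormal_subgroupOf_of_isNilpotent hIp.isNilpotent) hg

end Cfsg.Agent.S4089
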