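import Cfsg.Statements.S4090
import Cfsg.Agent.Lib.Subnormal.Subnormalizer
import Cfsg.Agent.S4088
import Mathlib
-- import your own Cfsg.Agent.* helpers here

set_option autoImplicit false
open scoped BigOperators
open Cfsg

namespace Cfsg.Agent.S4090

variable {G : Type*} [Group G] {p : ℕ}

/-- The elements conjugating `H` into `K`. -/
def moveInto (H K : Subgroup G) : Set G := {g | ∀ h ∈ H, g⁻¹ * h * g ∈ K}

/-- The elements of `M'` centralizing `H` modulo `M`. -/
def centSet (H M M' : Subgroup G) : Set G := {u | u ∈ M' ∧ ∀ h ∈ H, h * u * h⁻¹ * u⁻¹ ∈ M}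

theorem inf_sylow_le [Finite G] [Fact p.Prime] (P : Sylow p G) {M M' : Subgroup G} [M.Normal]
    (hco : (M.relIndex M').Coprime p) : (P : Subgroup G) ⊓ M' ≤ M := by
  rw [← Subgroup.relIndex_eq_one]
  have hp : IsPGroup p ↥((P : Subgroup G) ⊓ M') := P.2.to_le inf_le_left
  obtain ⟨a, ha⟩ := hp.index (M.subgroupOf ((P : Subgroup G) ⊓ M'))
  have hd : M.relIndex ((P : Subgroup G) ⊓ M') ∣ M.relIndex M' := by
    rw [← Subgroup.relIndex_subgroupOf (inf_le_right : (P : Subgroup G) ⊓ M' ≤ M')]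
    exact Subgroup.relIndex_dvd_index_of_normal _ _
  change M.relIndex ((P : Subgroup G) ⊓ M') = p ^ a at ha
  have h1 : Nat.Coprime (p ^ a) p := (ha ▸ hd).elim fun c hc =>
    (Nat.Coprime.coprime_mul_right (hc ▸ hco))
  rcases Nat.eq_zero_or_pos a with rfl | hpos
  · simpa using ha
  · exact absurd h1 (by
      rw [Nat.coprime_pow_left_iff hpos, Nat.coprime_self]; exact (Fact.out : p.Prime).ne_one)

theorem centSet_eq_subgroup (H M M' : Subgroup G) [hM : M.Normal] :
    ∃ C : Subgroup G, (C : Set G) = centSet H M M' ∧ (M ≤ M' → M ≤ C) := by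
  refine ⟨
    { carrier := centSet H M M'
      one_mem' := ⟨one_mem _, fun h _ => by simp⟩
      mul_mem' := fun {a b} ha hb => ⟨mul_mem ha.1 hb.1, fun h hh => by
        have := M.mul_mem (ha.2 h hh) (hM.conj_mem _ (hb.2 h hh) a)
        convert this using 1; group⟩
      inv_mem' := fun {a} ha => ⟨inv_mem ha.1, fun h hh => by
        have := hM.conj_mem _ (M.inv_mem (ha.2 h hh)) a⁻¹
        convert this using 1; group⟩ }, rfl, fun hle m hm => ⟨hle hm, fun h _ => ?_⟩⟩
  exact M.mul_mem (hM.conj_mem m hm h) (M.inv_mem hm)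

theorem card_moveInto_step [Finite G] [Fact p.Prime] {H : Subgroup G} (hH : IsPGroup p H)
    (P : Sylow p G) {M M' : Subgroup G} [hM : M.Normal] [hM' : M'.Normal] (hle : M ≤ M')
    (hco : (M.relIndex M').Coprime p) :
    (moveInto H ((P : Subgroup G) ⊔ M)).ncard * Nat.card M' =
      (moveInto H ((P : Subgroup G) ⊔ M')).ncard * (centSet H M M').ncard := by
  classical
  have := Fintype.ofFinite G
  set A := moveInto H ((P : Subgroup G) ⊔ M) with hA
  set B := moveInto H ((P : Subgroup G) ⊔ M') with hB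
  have hmem : ∀ {K : Subgroup G} [K.Normal] {y : G}, y ∈ (P : Subgroup G) ⊔ K →
      ∃ q ∈ (P : Subgroup G), ∃ k ∈ K, q * k = y := fun hy => by
    obtain ⟨q, hq, k, hk, he⟩ := Subgroup.mem_sup_of_normal_right.mp hy
    exact ⟨q, hq, k, hk, he⟩
  have hbase : ∀ x ∈ B, ∃ m ∈ M', ∀ h ∈ H, (x * m)⁻¹ * h * (x * m) ∈ (P : Subgroup G) := by
    intro x hx
    set X := (P : Subgroup G) ⊔ M'
    set K := H.map (MulAut.conj x⁻¹).toMonoidHom
    have hKX : K ≤ X := by
      rintro _ ⟨h, hh, rfl⟩
      simpa using hx h hh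
    obtain ⟨Q, hQ⟩ := ((hH.map (MulAut.conj x⁻¹).toMonoidHom).comap_subtype :
      IsPGroup p (K.subgroupOf X)).exists_le_sylow
    obtain ⟨y, hy⟩ := MulAction.exists_smul_eq X (P.subtype le_sup_left) Q
    obtain ⟨q, hq, m, hm, hqm⟩ := hmem y.2
    refine ⟨q * m * q⁻¹, hM'.conj_mem m hm q, fun h hh => ?_⟩
    have hk : x⁻¹ * h * x ∈ K := ⟨h, hh, by simp⟩
    have h1 := hQ (Subgroup.mem_subgroupOf.mpr hk : (⟨_, hKX hk⟩ : X) ∈ K.subgroupOf X)
    rw [← hy] at h1
    obtain ⟨z, hz, hzk⟩ := h1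
    have hzP : (z : G) ∈ (P : Subgroup G) := hz
    have h2 : (y : G) * z * (y : G)⁻¹ = x⁻¹ * h * x := congrArg Subtype.val hzk
    rw [← hqm] at h2
    have : (x * (q * m * q⁻¹))⁻¹ * h * (x * (q * m * q⁻¹)) = q * z * q⁻¹ := by
      rw [show (x * (q * m * q⁻¹))⁻¹ * h * (x * (q * m * q⁻¹)) =
        (q * m * q⁻¹)⁻¹ * (x⁻¹ * h * x) * (q * m * q⁻¹) by group, ← h2]
      group
    rw [this]
    exact mul_mem (mul_mem hq hzP) (inv_mem hq)
  have hfib : ∀ x ∈ B, ({m : G | m ∈ M' ∧ x * m ∈ A} : Set G).ncard =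
      (centSet H M M').ncard := by
    intro x hx
    obtain ⟨m0, hm0, hP⟩ := hbase x hx
    set a := x * m0 with ha
    have hiff : ∀ u : G, (u ∈ centSet H M M') ↔
        (m0 * (a⁻¹ * u * a) ∈ {m : G | m ∈ M' ∧ x * m ∈ A}) := by
      intro u
      have hu : m0 * (a⁻¹ * u * a) ∈ M' ↔ u ∈ M' := by
        rw [M'.mul_mem_cancel_left hm0]
        constructor
        · intro h; have := hM'.conj_mem _ h a; simpa [mul_assoc] using this
        · intro h; have := hM'.conj_mem _ h a⁻¹; simpa [mul_assoc] using this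
      have heq : ∀ h : G, (x * (m0 * (a⁻¹ * u * a)))⁻¹ * h * (x * (m0 * (a⁻¹ * u * a))) =
          (a⁻¹ * h * a) * (a⁻¹ * (h⁻¹ * u⁻¹ * h * u) * a) := fun h => by rw [ha]; group
      simp only [Set.mem_ofPred_eq, centSet, hu, hA, moveInto, heq]
      refine and_congr_right fun huM => ⟨fun hc h hh => ?_, fun hc h hh => ?_⟩
      · refine mul_mem (Subgroup.mem_sup_left (hP h hh)) (Subgroup.mem_sup_right ?_)
        have h1 := hM.conj_mem _ (M.inv_mem (hc h⁻¹ (inv_mem hh))) (a⁻¹ * u⁻¹)
        convert h1 using 1; group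
      · have h1 := hc h⁻¹ (inv_mem hh)
        rw [((P : Subgroup G) ⊔ M).mul_mem_cancel_left (Subgroup.mem_sup_left (hP h⁻¹ (inv_mem hh))),
          inv_inv] at h1
        have h2 : a⁻¹ * (h * u⁻¹ * h⁻¹ * u) * a ∈ M' := by
          have := hM'.conj_mem _ (M'.mul_mem (hM'.conj_mem _ (M'.inv_mem huM) h) huM) a⁻¹
          simpa [mul_assoc] using this
        obtain ⟨q, hq, k, hk, hqk⟩ := hmem h1
        have hqM : q ∈ M := inf_sylow_le P hco ⟨hq, by
          rw [← hqk] at h2; exact (M'.mul_mem_cancel_right (hle hk)).mp h2⟩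
        have h3 : a⁻¹ * (h * u⁻¹ * h⁻¹ * u) * a ∈ M := hqk ▸ M.mul_mem hqM hk
        have h4 := hM.conj_mem _ (M.inv_mem h3) (u * a)
        convert h4 using 1; group
    rw [← Nat.card_coe_set_eq, ← Nat.card_coe_set_eq]
    refine (Nat.card_congr (Equiv.subtypeEquiv
      ⟨fun u => m0 * (a⁻¹ * u * a), fun v => a * (m0⁻¹ * v) * a⁻¹, fun u => ?_, fun v => ?_⟩
      fun u => hiff u)).symm
    · simp [mul_assoc]
    · simp [mul_assoc]
  -- double counting the pairs `(x, m)` with `x * m ∈ A`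
  have hmono : (P : Subgroup G) ⊔ M ≤ (P : Subgroup G) ⊔ M' := sup_le_sup_left hle _
  have hBinv : ∀ x : G, ∀ m ∈ M', x * m ∈ A → x ∈ B := by
    intro x m hm hxm h hh
    have h1 := hmono (hxm h hh)
    have hm' : m ∈ (P : Subgroup G) ⊔ M' := Subgroup.mem_sup_right hm
    have := mul_mem (mul_mem hm' h1) (inv_mem hm')
    simpa [mul_assoc] using this
  let e : {z : G × G // z.2 ∈ M' ∧ z.1 * z.2 ∈ A} ≃ A × M' :=
    { toFun := fun z => (⟨_, z.2.2⟩, ⟨_, z.2.1⟩)
      invFun := fun w => ⟨(w.1.1 * (w.2.1)⁻¹, w.2.1), w.2.2, by simp [w.1.2]⟩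
      left_inv := fun z => by ext <;> simp
      right_inv := fun w => by ext <;> simp }
  let f : {z : G × G // z.2 ∈ M' ∧ z.1 * z.2 ∈ A} ≃
      Σ x : B, {m : G // m ∈ M' ∧ (x : G) * m ∈ A} :=
    { toFun := fun z => ⟨⟨z.1.1, hBinv _ _ z.2.1 z.2.2⟩, ⟨z.1.2, z.2⟩⟩
      invFun := fun w => ⟨(w.1.1, w.2.1), w.2.2⟩
      left_inv := fun _ => rfl
      right_inv := fun _ => rfl }
  rw [← Nat.card_coe_set_eq A, ← Nat.card_prod, ← Nat.card_congr e, Nat.card_congr f,
    Nat.card_sigma]
  have hc : ∀ x : B, Nat.card {m : G // m ∈ M' ∧ (x : G) * m ∈ A} = (centSet H M M').ncard :=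
    fun x => (Nat.card_coe_set_eq {m : G | m ∈ M' ∧ (x : G) * m ∈ A}).trans (hfib x x.2)
  simp only [hc, Finset.sum_const, smul_eq_mul, Finset.card_univ, ← Nat.card_eq_fintype_card,
    Nat.card_coe_set_eq]

/-- Let G be a finite p-solvable group, H a p-subgroup of G and P a Sylow p-subgroup, and fix a chain of normal subgroups 1 = M₀ ≤ M₁ ≤ ⋯ ≤ Mₙ = G of G each of whose factors is a p-group or a p'-group. Then the number of elements g of G such that H is subnormal in the subgroup generated by H and g equals the order of P times the product, over the factors Mᵢ₊₁/Mᵢ of order prime to p, of the order of the centralizer of H in Mᵢ₊₁/Mᵢ (counted as the number of u ∈ Mᵢ₊₁ with [h, u] ∈ Mᵢ for all h ∈ H, divided by the order of Mᵢ). -/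
theorem result {G : Type*} [Group G] [Finite G] (p : ℕ) [Fact p.Prime]
    (hG : Cfsg.IsPSolvable p G) (H : Subgroup G) (hH : IsPGroup p H) (P : Sylow p G)
    (n : ℕ) (M : Fin (n + 1) → Subgroup G) (h0 : M 0 = ⊥) (hn : M (Fin.last n) = ⊤) (hmono : Monotone M)
    (hnormal : ∀ i, (M i).Normal)
    (hfac : ∀ i : Fin n, (∃ m : ℕ, (M i.castSucc).relIndex (M i.succ) = p ^ m) ∨ ((M i.castSucc).relIndex (M i.succ)).Coprime p) :
    Nat.card {g : G // ((H).subgroupOf (H ⊔ Subgroup.zpowers g)).IsSubnormal} =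
      Nat.card (P : Subgroup G) *
        ∏ i : Fin n, (if ((M i.castSucc).relIndex (M i.succ)).Coprime p then
          Nat.card {u : G // u ∈ M i.succ ∧ ∀ h ∈ H, h * u * h⁻¹ * u⁻¹ ∈ M i.castSucc} / Nat.card (M i.castSucc)
          else 1) := by
  classical
  have hp : p.Prime := Fact.out
  have hnorm : ∀ i, (M i).Normal := hnormal
  set Pp := (P : Subgroup G) with hPp
  let T : Fin (n + 1) → ℕ := fun i => (moveInto H (Pp ⊔ M i)).ncard
  let R : Fin n → ℕ := fun i => (M i.castSucc).relIndex (M i.succ)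
  let c : Fin n → ℕ := fun i => if (R i).Coprime p then
    Nat.card {u : G // u ∈ M i.succ ∧ ∀ h ∈ H, h * u * h⁻¹ * u⁻¹ ∈ M i.castSucc} / Nat.card (M i.castSucc)
    else 1
  let r : Fin n → ℕ := fun i => if (R i).Coprime p then R i else 1
  have hcard : ∀ i : Fin n, Nat.card (M i.castSucc) * R i = Nat.card (M i.succ) := fun i => by
    have h := Subgroup.relIndex_mul_relIndex ⊥ (M i.castSucc) (M i.succ) bot_le
      (hmono i.castSucc_le_succ)
    rwa [Subgroup.relIndex_bot_left, Subgroup.relIndex_bot_left] at h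
  have hstep : ∀ i : Fin n, T i.castSucc * r i = T i.succ * c i := by
    intro i
    have := hnorm i.castSucc
    have := hnorm i.succ
    by_cases hco : (R i).Coprime p
    · simp only [r, c, if_pos hco]
      have h := card_moveInto_step hH P (hmono i.castSucc_le_succ) hco
      obtain ⟨C, hC, hle⟩ := centSet_eq_subgroup H (M i.castSucc) (M i.succ)
      obtain ⟨d, hd⟩ := Subgroup.card_dvd_of_le (hle (hmono i.castSucc_le_succ))
      rw [← hC, ← Nat.card_coe_set_eq (C : Set G), SetLike.coe_sort_coe, hd, ← hcard i] at h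
      have hcS : Nat.card {u : G // u ∈ M i.succ ∧ ∀ h ∈ H, h * u * h⁻¹ * u⁻¹ ∈ M i.castSucc} =
          Nat.card (M i.castSucc) * d := by
        rw [← hd]
        exact Nat.card_congr (Equiv.setCongr hC.symm)
      rw [hcS, Nat.mul_div_cancel_left _ Nat.card_pos]
      refine Nat.eq_of_mul_eq_mul_left (Nat.card_pos (α := M i.castSucc)) ?_
      simp only [T]
      linear_combination h
    · simp only [r, c, if_neg hco, mul_one, T]
      obtain ⟨m, hm⟩ := (hfac i).resolve_right hco
      congr 2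
      refine le_antisymm (sup_le_sup_left (hmono i.castSucc_le_succ) _) (sup_le le_sup_left ?_)
      rw [← Subgroup.relIndex_eq_one]
      -- `M i.succ` lies in `P M i.castSucc` as `P` contains a full `p`-part
      have h1 : (Pp ⊔ M i.castSucc).relIndex (M i.succ) ∣ p ^ m :=
        hm ▸ Subgroup.relIndex_dvd_of_le_left _ le_sup_right
      have h2 : (Pp ⊔ M i.castSucc).relIndex (M i.succ) ∣ Pp.relIndex (M i.succ) :=
        Subgroup.relIndex_dvd_of_le_left _ le_sup_left
      have h3 : ¬ p ∣ Pp.relIndex (M i.succ) := by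
        have e1 := Subgroup.relIndex_mul_relIndex ⊥ (Pp ⊓ M i.succ) (M i.succ) bot_le inf_le_right
        have e2 := Subgroup.relIndex_mul_relIndex ⊥ (Pp ⊓ M i.succ) Pp bot_le inf_le_left
        have e3 := Subgroup.relIndex_mul_relIndex ⊥ (M i.succ) (Pp ⊔ M i.succ) bot_le le_sup_right
        have e4 := Subgroup.relIndex_mul_relIndex ⊥ Pp (Pp ⊔ M i.succ) bot_le le_sup_left
        simp only [Subgroup.relIndex_bot_left, Subgroup.inf_relIndex_right,
          Subgroup.inf_relIndex_left, Subgroup.relIndex_sup_right] at e1 e2 e3 e4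
        intro hdvd
        refine P.not_dvd_index (hdvd.trans (dvd_trans (dvd_of_eq ?_)
          (Subgroup.relIndex_dvd_index_of_le (le_sup_left : Pp ≤ Pp ⊔ M i.succ))))
        refine Nat.eq_of_mul_eq_mul_left (Nat.card_pos (α := Pp)) ?_
        rw [e4, ← e3, ← e1, ← e2]
        ring
      obtain ⟨j, -, hj⟩ := (Nat.dvd_prime_pow hp).mp h1
      rcases Nat.eq_zero_or_pos j with rfl | hj0
      · rwa [pow_zero] at hj
      · exact absurd ((dvd_pow_self p hj0.ne').trans (hj ▸ h2)) h3
  -- telescope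
  have htel : ∀ i : Fin (n + 1), T i * ∏ j ∈ Finset.univ.filter (fun j : Fin n => (i : ℕ) ≤ j), r j =
      Nat.card G * ∏ j ∈ Finset.univ.filter (fun j : Fin n => (i : ℕ) ≤ j), c j := by
    intro i
    induction i using Fin.reverseInduction with
    | last =>
      have hempty : Finset.univ.filter (fun j : Fin n => (Fin.last n : ℕ) ≤ j) = ∅ := by
        ext j; simp [j.is_lt.not_ge]
      rw [hempty, Finset.prod_empty, Finset.prod_empty, mul_one, mul_one]
      have huniv : moveInto H (Pp ⊔ M (Fin.last n)) = Set.univ :=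
        Set.eq_univ_of_forall fun g h _ => by rw [hn, sup_top_eq]; exact Subgroup.mem_top _
      simp only [T, huniv, Set.ncard_univ]
    | cast i ih =>
      have hins : Finset.univ.filter (fun j : Fin n => (i.castSucc : ℕ) ≤ j) =
          insert i (Finset.univ.filter (fun j : Fin n => (i.succ : ℕ) ≤ j)) := by
        ext j
        simp only [Finset.mem_filter, Finset.mem_univ, true_and, Finset.mem_insert,
          Fin.val_castSucc, Fin.val_succ, Fin.ext_iff]
        omega
      have hni : i ∉ Finset.univ.filter (fun j : Fin n => (i.succ : ℕ) ≤ j) := by simp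
      rw [hins, Finset.prod_insert hni, Finset.prod_insert hni]
      calc T i.castSucc * (r i * ∏ j ∈ Finset.univ.filter (fun j : Fin n => (i.succ : ℕ) ≤ j), r j)
          = T i.succ * c i * ∏ j ∈ Finset.univ.filter (fun j : Fin n => (i.succ : ℕ) ≤ j), r j := by
            rw [← mul_assoc, hstep]
        _ = T i.succ * (∏ j ∈ Finset.univ.filter (fun j : Fin n => (i.succ : ℕ) ≤ j), r j) * c i := by
            ring
        _ = _ := by rw [ih]; ring
  have h00 := htel 0
  simp only [Fin.val_zero, zero_le, Finset.filter_true] at h00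
  -- the order of `G`
  have hchain : ∀ i : Fin (n + 1),
      Nat.card (M i) = ∏ j ∈ Finset.univ.filter (fun j : Fin n => (j : ℕ) < i), R j := by
    intro i
    induction i using Fin.induction with
    | zero => simp [h0]
    | succ i ih =>
      have hins : Finset.univ.filter (fun j : Fin n => (j : ℕ) < i.succ) =
          insert i (Finset.univ.filter (fun j : Fin n => (j : ℕ) < i.castSucc)) := by
        ext j
        simp only [Finset.mem_filter, Finset.mem_univ, true_and, Finset.mem_insert,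
          Fin.val_castSucc, Fin.val_succ, Fin.ext_iff]
        omega
      rw [hins, Finset.prod_insert (by simp), ← ih, mul_comm]
      exact (hcard i).symm
  have hG : Nat.card G = ∏ j, R j := by
    have := hchain (Fin.last n)
    rw [hn, Subgroup.card_top] at this
    rw [this]
    exact Finset.prod_congr (by ext j; simp []) fun _ _ => rfl
  set A := ∏ j, r j with hAdef
  set B := ∏ j, (if (R j).Coprime p then 1 else R j) with hBdef
  have hAB : Nat.card G = A * B := by
    rw [hG, hAdef, hBdef, ← Finset.prod_mul_distrib]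
    refine Finset.prod_congr rfl fun j _ => ?_
    simp only [r]; split_ifs <;> simp
  have hA : A.Coprime p := Nat.Coprime.prod_left fun j _ => by
    simp only [r]; split_ifs with h
    · exact h
    · exact Nat.coprime_one_left p
  have hB : ∃ k, B = p ^ k := by
    refine Finset.prod_induction _ (fun x => ∃ k, x = p ^ k)
      (fun a b ⟨k, hk⟩ ⟨l, hl⟩ => ⟨k + l, by rw [hk, hl, pow_add]⟩) ⟨0, rfl⟩ fun j _ => ?_
    split_ifs with h
    · exact ⟨0, rfl⟩
    · exact (hfac j).resolve_right h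
  obtain ⟨k, hk⟩ := hB
  have hPB : Nat.card Pp = B := by
    rw [hPp, P.card_eq_multiplicity, hAB, Nat.factorization_mul (left_ne_zero_of_mul
      (hAB ▸ Nat.card_pos.ne')) (hk ▸ pow_ne_zero k hp.ne_zero), Finsupp.add_apply, hk,
      Nat.factorization_eq_zero_of_not_dvd, hp.factorization_pow, Finsupp.single_eq_same, zero_add]
    intro hdvd
    exact hp.ne_one (Nat.dvd_one.mp (hA ▸ Nat.dvd_gcd hdvd dvd_rfl))
  have hT : T 0 = Nat.card {g : G // ((H).subgroupOf (H ⊔ Subgroup.zpowers g)).IsSubnormal} := by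
    rw [(Nat.card_congr (Equiv.subtypeEquivRight fun g =>
      CfsgLib.Subnormal.isSubnormal_iff_mem_pSubnormalizer hH g)).trans (Nat.card_coe_set_eq _),
      CfsgLib.Subnormal.card_pSubnormalizer P hH]
    have h2 := Cfsg.Agent.S4088.card_orbit_map (G := G) P (fun Q : Sylow p G => H ≤ (Q : Subgroup G))
    rw [Sylow.stabilizer_eq_normalizer] at h2
    rw [Nat.card_congr (Equiv.subtypeEquivRight fun Q : Sylow p G =>
      (⟨fun h => ⟨h, MulAction.exists_smul_eq G P Q⟩, fun h => h.1⟩ :
        H ≤ (Q : Subgroup G) ↔ H ≤ (Q : Subgroup G) ∧ ∃ g : G, g • P = Q))]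
    refine Eq.trans ?_ h2
    simp only [T, h0, sup_bot_eq, ← Nat.card_coe_set_eq]
    refine Nat.card_congr (Equiv.subtypeEquivRight fun g => ?_)
    constructor
    · intro h x hx
      exact ⟨g⁻¹ * x * g, h x hx, by simp [mul_assoc]⟩
    · intro h x hx
      obtain ⟨y, hy, hyx⟩ := h hx
      simp [← hyx, mul_assoc]
      exact hy
  rw [← hT, hPB]
  refine Nat.eq_of_mul_eq_mul_right (pos_of_ne_zero (left_ne_zero_of_mul (hAB ▸ Nat.card_pos.ne'))) ?_
  change T 0 * A = B * (∏ j, c j) * A
  rw [h00, hAB]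
  ring

end Cfsg.Agent.S4090
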