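import Cfsg.Statements.S4091
import Mathlib
import Cfsg.Agent.Lib.Subnormal.FixedPointProduct
import Cfsg.Agent.Lib.PSolvable.Basic
import Cfsg.Agent.Lib.Cores.PCore

set_option autoImplicit false
set_option linter.style.haveILetI false
open Cfsg
open scoped Pointwise

namespace Cfsg.Agent.S4091

open CfsgLib.CoprimeAction

universe u

variable {G : Type u} [Group G] {p : ℕ} [hp : Fact p.Prime]

/-- The number of Sylow `p`-subgroups containing `x`. -/
noncomputable def mult (p : ℕ) (x : G) : ℕ :=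
  Nat.card {S : Sylow p G // x ∈ (S : Subgroup G)}

omit hp in
theorem mult_pos [Finite G] {x : G} {S : Sylow p G} (h : x ∈ (S : Subgroup G)) : 0 < mult p x :=
  Nat.card_pos_iff.mpr ⟨⟨⟨S, h⟩⟩, inferInstance⟩

omit hp in
theorem conj_mem_smul (g x : G) (S : Sylow p G) :
    g * x * g⁻¹ ∈ ((g • S : Sylow p G) : Subgroup G) ↔ x ∈ (S : Subgroup G) := by
  rw [Sylow.coe_subgroup_smul, mem_conj_iff]
  simp [mul_assoc]

omit hp in
theorem mult_conj (g x : G) : mult p (g * x * g⁻¹) = mult p x :=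
  (Nat.card_congr ((MulAction.toPerm g).subtypeEquiv fun S => (conj_mem_smul g x S).symm)).symm

/-- `p`-elements lie in Sylow subgroups. -/
theorem exists_sylow_mem [Finite G] {x : G} :
    (∃ k : ℕ, orderOf x = p ^ k) ↔ ∃ S : Sylow p G, x ∈ (S : Subgroup G) := by
  constructor
  · rintro ⟨k, hk⟩
    obtain ⟨S, hS⟩ := (IsPGroup.of_card (n := k)
      (by rw [Nat.card_zpowers, hk]) : IsPGroup p (Subgroup.zpowers x)).exists_le_sylow
    exact ⟨S, hS (Subgroup.mem_zpowers x)⟩
  · rintro ⟨S, hS⟩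
    obtain ⟨k, hk⟩ := IsPGroup.iff_orderOf.mp S.isPGroup' ⟨x, hS⟩
    exact ⟨k, by rwa [Subgroup.orderOf_mk] at hk⟩

/-- Passing to the quotient by a normal subgroup contained in the kernel of all multiplicities. -/
theorem bound_of_normal_pGroup [Finite G] {Q : Subgroup G} [Q.Normal] (hQ : IsPGroup p Q)
    (P : Sylow p G) [Fintype (P : Subgroup G)]
    (h : ∀ (P' : Sylow p (G ⧸ Q)) [Fintype (P' : Subgroup (G ⧸ Q))],
      (∏ x : (P' : Subgroup (G ⧸ Q)), mult p (x : G ⧸ Q)) ^ p ≤
        Nat.card (Sylow p (G ⧸ Q)) ^ Nat.card (P' : Subgroup (G ⧸ Q))) :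
    (∏ x : (P : Subgroup G), mult p (x : G)) ^ p ≤
      Nat.card (Sylow p G) ^ Nat.card (P : Subgroup G) := by
  classical
  set f := QuotientGroup.mk' Q
  have hs : Function.Surjective f := QuotientGroup.mk'_surjective Q
  have hmem : ∀ (S : Sylow p G) (x : G), f x ∈ ((S.mapSurjective hs : Sylow p (G ⧸ Q)) : Subgroup _) ↔
      x ∈ (S : Subgroup G) := by
    intro S x
    show f x ∈ (S : Subgroup G).map f ↔ _
    rw [← Subgroup.mem_comap, Subgroup.comap_map_eq, QuotientGroup.ker_mk',
      sup_eq_left.mpr (hQ.le_sylow_of_normal S)]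
  have hbij : Function.Bijective (Sylow.mapSurjective hs : Sylow p G → Sylow p (G ⧸ Q)) :=
    ⟨fun S T h => Sylow.ext (SetLike.ext fun x => by rw [← hmem S, ← hmem T, h]),
      Sylow.mapSurjective_surjective hs p⟩
  have hmult : ∀ x : G, mult p x = mult p (f x) := fun x =>
    Nat.card_congr ((Equiv.ofBijective _ hbij).subtypeEquiv fun S => (hmem S x).symm)
  set P' := P.mapSurjective hs
  haveI : Fintype (P' : Subgroup (G ⧸ Q)) := Fintype.ofFinite _
  let g : (P : Subgroup G) →* (P' : Subgroup (G ⧸ Q)) := f.subgroupMap (P : Subgroup G)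
  have hg : Function.Surjective g := f.subgroupMap_surjective _
  have hfib : ∀ y : (P' : Subgroup (G ⧸ Q)),
      (Finset.univ.filter fun x => g x = y).card = Nat.card g.ker := by
    intro y
    obtain ⟨x₀, rfl⟩ := hg y
    rw [← Fintype.card_subtype, ← Nat.card_eq_fintype_card]
    exact Nat.card_congr ((Equiv.mulLeft x₀⁻¹).subtypeEquiv fun x => by
      show g x = g x₀ ↔ g (x₀⁻¹ * x) = 1
      rw [map_mul, map_inv, inv_mul_eq_one, eq_comm])
  have hprod : (∏ x : (P : Subgroup G), mult p (x : G)) =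
      (∏ y : (P' : Subgroup (G ⧸ Q)), mult p (y : G ⧸ Q)) ^ Nat.card g.ker := by
    rw [← Finset.prod_pow, ← Finset.prod_fiberwise Finset.univ g]
    refine Finset.prod_congr rfl fun y _ => ?_
    rw [Finset.prod_eq_pow_card (b := mult p (y : G ⧸ Q)) fun x hx => ?_, hfib]
    rw [Finset.mem_filter] at hx
    rw [← hx.2, hmult]
    rfl
  rw [hprod, ← pow_mul, mul_comm, pow_mul, Nat.card_congr (Equiv.ofBijective _ hbij),
    show Nat.card (P : Subgroup G) = Nat.card (P' : Subgroup (G ⧸ Q)) * Nat.card g.ker by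
      rw [Subgroup.card_eq_card_quotient_mul_card_subgroup g.ker,
        Nat.card_congr (QuotientGroup.quotientKerEquivOfSurjective g hg).toEquiv], pow_mul]
  exact Nat.pow_le_pow_left (h P') _

/-- Passing to the quotient by a normal `p'`-subgroup. -/
theorem bound_of_normal_pPrime [Finite G] {N : Subgroup G} [N.Normal] (hN : ¬ p ∣ Nat.card N)
    (P : Sylow p G) [Fintype (P : Subgroup G)]
    (h : ∀ (P' : Sylow p (G ⧸ N)) [Fintype (P' : Subgroup (G ⧸ N))],
      (∏ x : (P' : Subgroup (G ⧸ N)), mult p (x : G ⧸ N)) ^ p ≤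
        Nat.card (Sylow p (G ⧸ N)) ^ Nat.card (P' : Subgroup (G ⧸ N))) :
    (∏ x : (P : Subgroup G), mult p (x : G)) ^ p ≤
      Nat.card (Sylow p G) ^ Nat.card (P : Subgroup G) := by
  classical
  set f := QuotientGroup.mk' N with hf
  have hs : Function.Surjective f := QuotientGroup.mk'_surjective N
  have hker : f.ker = N := QuotientGroup.ker_mk' N
  let π : Sylow p G → Sylow p (G ⧸ N) := Sylow.mapSurjective hs
  have hπsub : ∀ S : Sylow p G, ((π S : Sylow p (G ⧸ N)) : Subgroup (G ⧸ N)) = (S : Subgroup G).map f :=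
    fun S => rfl
  have hSN : ∀ S : Sylow p G, (S : Subgroup G) ⊓ N = ⊥ := fun S => by
    refine (Subgroup.disjoint_of_coprime_natCard ?_).eq_bot
    obtain ⟨a, ha⟩ := IsPGroup.iff_card.mp S.isPGroup'
    rw [ha]
    exact ((hp.out.coprime_iff_not_dvd).mpr hN).pow_left a
  set c := Nat.card ↥(N ⊓ Subgroup.centralizer ((P : Subgroup G) : Set G)) with hc
  have hcS : ∀ S : Sylow p G,
      Nat.card ↥(N ⊓ Subgroup.centralizer ((S : Subgroup G) : Set G)) = c := by
    intro S
    obtain ⟨g, rfl⟩ := MulAction.exists_smul_eq G P S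
    rw [hc, ← card_conj_smul g (N ⊓ Subgroup.centralizer ((P : Subgroup G) : Set G))]
    congr 2
    ext z
    rw [mem_conj_iff, Subgroup.mem_inf, Subgroup.mem_inf, Subgroup.mem_centralizer_iff,
      Subgroup.mem_centralizer_iff, Sylow.coe_subgroup_smul]
    constructor
    · rintro ⟨h1, h2⟩
      refine ⟨by simpa using conj_mem' (show g ∈ Subgroup.normalizer (N : Set G) by
        rw [Subgroup.normalizer_eq_top]; trivial) h1, fun w hw => ?_⟩
      have := h2 (g * w * g⁻¹) (mem_conj_iff.mpr (by rw [show g⁻¹ * (g * w * g⁻¹) * g = w by group]; exact hw))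
      calc w * (g⁻¹ * z * g) = g⁻¹ * ((g * w * g⁻¹) * z) * g := by group
        _ = _ := by rw [this]; group
    · rintro ⟨h1, h2⟩
      refine ⟨by simpa [mul_assoc] using (inferInstance : N.Normal).conj_mem _ h1 g, fun w hw => ?_⟩
      have := h2 _ (mem_conj_iff.mp hw)
      calc w * z = g * ((g⁻¹ * w * g) * (g⁻¹ * z * g)) * g⁻¹ := by group
        _ = _ := by rw [this]; group
  -- the fibre of `π` over the image of `S₀`, cut by `x ∈ S₀`
  have hfiber : ∀ (S₀ : Sylow p G) (x : G), x ∈ (S₀ : Subgroup G) →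
      Nat.card {S : Sylow p G // π S = π S₀ ∧ x ∈ (S : Subgroup G)} * c =
        Nat.card ↥(N ⊓ Subgroup.centralizer ({x} : Set G)) := by
    intro S₀ x hx
    set K := N ⊓ Subgroup.centralizer ({x} : Set G) with hK
    have hsmulN : ∀ n ∈ N, ∀ S : Sylow p G, π (n • S) = π S := by
      intro n hn S
      refine Sylow.ext ?_
      rw [hπsub, hπsub, Sylow.coe_subgroup_smul]
      ext y
      have hfn : f n = 1 := (QuotientGroup.eq_one_iff n).mpr hn
      constructor
      · rintro ⟨z, hz, rfl⟩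
        refine ⟨n⁻¹ * z * n, mem_conj_iff.mp hz, ?_⟩
        rw [map_mul, map_mul, map_inv, hfn]; simp
      · rintro ⟨z, hz, rfl⟩
        refine ⟨n * z * n⁻¹, mem_conj_iff.mpr (by rw [show n⁻¹ * (n * z * n⁻¹) * n = z by group]; exact hz), ?_⟩
        rw [map_mul, map_mul, map_inv, hfn]; simp
    have hxK : ∀ n ∈ K, n * x * n⁻¹ = x := fun n hn => by
      rw [← Subgroup.mem_centralizer_iff.mp hn.2 x rfl, mul_inv_cancel_right]
    have horb : ∀ S : Sylow p G, (π S = π S₀ ∧ x ∈ (S : Subgroup G)) ↔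
        S ∈ MulAction.orbit K S₀ := by
      intro S
      constructor
      · rintro ⟨hS, hxS⟩
        set H := (S₀ : Subgroup G) ⊔ N with hH
        have hSH : (S : Subgroup G) ≤ H := by
          intro y hy
          have hy' : f y ∈ ((π S₀ : Sylow p (G ⧸ N)) : Subgroup (G ⧸ N)) :=
            hS ▸ (Subgroup.mem_map_of_mem f hy : f y ∈ (S : Subgroup G).map f)
          rw [hπsub, ← Subgroup.mem_comap, Subgroup.comap_map_eq, hker] at hy'
          exact hy'
        obtain ⟨⟨h, hh⟩, hh'⟩ := MulAction.exists_smul_eq H (S₀.subtype le_sup_left) (S.subtype hSH)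
        have hSeq : h • S₀ = S := by
          refine Sylow.ext ?_
          have e1 := congrArg (fun T : Sylow p H => (T : Subgroup H).map H.subtype) hh'
          simp only [Sylow.coe_subgroup_smul, map_conj_subtype, Sylow.coe_subtype] at e1
          erw [Subgroup.map_subgroupOf_eq_of_le (le_sup_left : (S₀ : Subgroup G) ≤ (S₀ : Subgroup G) ⊔ N),
            Subgroup.map_subgroupOf_eq_of_le (hH ▸ hSH : (S : Subgroup G) ≤ (S₀ : Subgroup G) ⊔ N)] at e1
          rw [Sylow.coe_subgroup_smul]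
          exact e1
        have hh2 : h ∈ ((N ⊔ (S₀ : Subgroup G) : Subgroup G) : Set G) := by rw [sup_comm]; exact hh
        rw [Subgroup.normal_mul] at hh2
        obtain ⟨n, hn, s, hs', rfl⟩ := hh2
        have hsS : s • S₀ = S₀ := Sylow.smul_eq_iff_mem_normalizer.mpr (Subgroup.le_normalizer hs')
        rw [mul_smul, hsS] at hSeq
        subst hSeq
        have h1 : n⁻¹ * x * n ∈ (S₀ : Subgroup G) := by
          rwa [Sylow.coe_subgroup_smul, mem_conj_iff] at hxS
        have h2 : x⁻¹ * (n⁻¹ * x * n) ∈ (S₀ : Subgroup G) ⊓ N :=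
          ⟨(S₀ : Subgroup G).mul_mem ((S₀ : Subgroup G).inv_mem hx) h1, by
            rw [show x⁻¹ * (n⁻¹ * x * n) = (x⁻¹ * n⁻¹ * x) * n by group]
            exact N.mul_mem (by simpa using
              (inferInstance : N.Normal).conj_mem _ (N.inv_mem hn) x⁻¹) hn⟩
        rw [hSN, Subgroup.mem_bot, inv_mul_eq_one] at h2
        refine ⟨⟨n, hn, Subgroup.mem_centralizer_iff.mpr fun w hw => ?_⟩, rfl⟩
        rw [Set.mem_singleton_iff.mp hw]
        calc x * n = n * (n⁻¹ * x * n) := by group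
          _ = n * x := by rw [← h2]
      · rintro ⟨⟨n, hn⟩, rfl⟩
        exact ⟨hsmulN n hn.1 S₀, hxK n hn ▸ (conj_mem_smul n x S₀).mpr hx⟩
    have hstab : Nat.card (MulAction.stabilizer K S₀) = c := by
      rw [← hcS S₀, ← Subgroup.card_map_of_injective K.subtype_injective]
      congr 2
      ext z
      constructor
      · rintro ⟨⟨n, hn⟩, hst, rfl⟩
        have hnS : n • S₀ = S₀ := hst
        have hnN := Sylow.smul_eq_iff_mem_normalizer.mp hnS
        refine ⟨hn.1, Subgroup.mem_centralizer_iff.mpr fun s hs' => ?_⟩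
        have h2 : s⁻¹ * (n * s * n⁻¹) ∈ (S₀ : Subgroup G) ⊓ N :=
          ⟨(S₀ : Subgroup G).mul_mem ((S₀ : Subgroup G).inv_mem hs') (conj_mem hnN hs'), by
            rw [show s⁻¹ * (n * s * n⁻¹) = (s⁻¹ * n * s) * n⁻¹ by group]
            exact N.mul_mem (by simpa using (inferInstance : N.Normal).conj_mem _ hn.1 s⁻¹)
              (N.inv_mem hn.1)⟩
        rw [hSN, Subgroup.mem_bot, inv_mul_eq_one] at h2
        exact mul_inv_eq_iff_eq_mul.mp h2.symm ▸ rfl
      · intro hz
        refine ⟨⟨z, hz.1, Subgroup.mem_centralizer_iff.mpr fun w hw => ?_⟩, ?_, rfl⟩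
        · rw [Set.mem_singleton_iff.mp hw]
          exact Subgroup.mem_centralizer_iff.mp hz.2 x hx
        · show z • S₀ = S₀
          exact Sylow.smul_eq_iff_mem_normalizer.mpr (Subgroup.centralizer_le_normalizer _ hz.2)
    rw [Nat.card_congr (Equiv.subtypeEquivRight horb), ← hstab]
    show Nat.card ↥(MulAction.orbit K S₀) * _ = _
    rw [Nat.card_coe_set_eq, ← MulAction.index_stabilizer K S₀, Subgroup.index_mul_card]
  -- every admissible fibre has such a representative
  have hrep : ∀ (T : Sylow p (G ⧸ N)) (x : G), (∃ k : ℕ, orderOf x = p ^ k) →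
      f x ∈ (T : Subgroup (G ⧸ N)) → ∃ S₀ : Sylow p G, π S₀ = T ∧ x ∈ (S₀ : Subgroup G) := by
    intro T x hxp hxT
    obtain ⟨S', rfl⟩ := Sylow.mapSurjective_surjective hs p T
    set H := (S' : Subgroup G) ⊔ N with hH
    have hxH : x ∈ H := by
      have hx' : x ∈ ((S' : Subgroup G).map f).comap f := hxT
      rwa [Subgroup.comap_map_eq, hker] at hx'
    obtain ⟨k, hk⟩ := hxp
    obtain ⟨R, hR⟩ := (IsPGroup.of_card (n := k) (by rw [Nat.card_zpowers, Subgroup.orderOf_mk, hk]) :
      IsPGroup p (Subgroup.zpowers (⟨x, hxH⟩ : H))).exists_le_sylow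
    obtain ⟨⟨h, hh⟩, hh'⟩ := MulAction.exists_smul_eq H (S'.subtype (le_sup_left : _ ≤ H)) R
    refine ⟨h • S', ?_, ?_⟩
    · refine Sylow.ext ?_
      rw [hπsub, Sylow.coe_subgroup_smul]
      have hh2 : h ∈ ((N ⊔ (S' : Subgroup G) : Subgroup G) : Set G) := by rw [sup_comm]; exact hh
      rw [Subgroup.normal_mul] at hh2
      obtain ⟨n, hn, s, hs', rfl⟩ := hh2
      have hfn : f n = 1 := (QuotientGroup.eq_one_iff n).mpr hn
      show (MulAut.conj (n * s) • (S' : Subgroup G)).map f = (S' : Subgroup G).map f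
      have hsS : MulAut.conj s • (S' : Subgroup G) = S' :=
        conj_smul_eq_self.mpr (Subgroup.le_normalizer hs')
      rw [map_mul, mul_smul, hsS]
      ext y
      constructor
      · rintro ⟨z, hz, rfl⟩
        refine ⟨n⁻¹ * z * n, mem_conj_iff.mp hz, ?_⟩
        rw [map_mul, map_mul, map_inv, hfn]; simp
      · rintro ⟨z, hz, rfl⟩
        refine ⟨n * z * n⁻¹, mem_conj_iff.mpr (by rw [show n⁻¹ * (n * z * n⁻¹) * n = z by group]; exact hz), ?_⟩
        rw [map_mul, map_mul, map_inv, hfn]; simp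
    · have h1 : (⟨x, hxH⟩ : H) ∈ (R : Subgroup H) := hR (Subgroup.mem_zpowers _)
      rw [← hh'] at h1
      have h2 := Subgroup.mem_map_of_mem H.subtype h1
      simp only [Sylow.coe_subgroup_smul, map_conj_subtype, Sylow.coe_subtype] at h2
      erw [Subgroup.map_subgroupOf_eq_of_le
        (le_sup_left : (S' : Subgroup G) ≤ (S' : Subgroup G) ⊔ N)] at h2
      rw [Sylow.coe_subgroup_smul]
      exact h2
  have hmult : ∀ x : G, (∃ k : ℕ, orderOf x = p ^ k) →
      mult p x * c = mult p (f x) * Nat.card ↥(N ⊓ Subgroup.centralizer ({x} : Set G)) := by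
    intro x hx
    let e : {S : Sylow p G // x ∈ (S : Subgroup G)} ≃
        Σ T : {T : Sylow p (G ⧸ N) // f x ∈ (T : Subgroup (G ⧸ N))},
          {S : Sylow p G // π S = T.1 ∧ x ∈ (S : Subgroup G)} :=
      { toFun := fun S => ⟨⟨π S.1, Subgroup.mem_map_of_mem f S.2⟩, ⟨S.1, rfl, S.2⟩⟩
        invFun := fun y => ⟨y.2.1, y.2.2.2⟩
        left_inv := fun _ => rfl
        right_inv := by
          rintro ⟨⟨T, hT⟩, ⟨S, hS, hxS⟩⟩
          cases hS
          rfl }
    haveI : Fintype {T : Sylow p (G ⧸ N) // f x ∈ (T : Subgroup (G ⧸ N))} := Fintype.ofFinite _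
    rw [show mult p x = _ from Nat.card_congr e, Nat.card_sigma, Finset.sum_mul]
    rw [Finset.sum_congr rfl (g := fun _ => Nat.card ↥(N ⊓ Subgroup.centralizer ({x} : Set G)))
      (fun T _ => by
        obtain ⟨S₀, hS₀, hxS₀⟩ := hrep T.1 x hx T.2
        rw [← hS₀]; exact hfiber S₀ x hxS₀),
      Finset.sum_const, smul_eq_mul, Finset.card_univ, ← Nat.card_eq_fintype_card]
    rfl
  have hn : Nat.card (Sylow p G) * c = Nat.card (Sylow p (G ⧸ N)) * Nat.card N := by
    have h1 := hmult 1 ⟨0, by simp⟩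
    have e1 : ∀ (H : Type u) [Group H] [Finite H], mult p (1 : H) = Nat.card (Sylow p H) := fun H _ _ =>
      Nat.card_congr (Equiv.subtypeUnivEquiv fun S => Subgroup.one_mem _)
    rw [map_one, e1, e1, show N ⊓ Subgroup.centralizer ({1} : Set G) = N from
      inf_eq_left.mpr fun y _ => Subgroup.mem_centralizer_iff.mpr fun w hw => by
        rw [Set.mem_singleton_iff.mp hw]; simp] at h1
    exact h1
  set P' := π P
  haveI : Fintype (P' : Subgroup (G ⧸ N)) := Fintype.ofFinite _
  let g : (P : Subgroup G) →* (P' : Subgroup (G ⧸ N)) := f.subgroupMap (P : Subgroup G)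
  have hg : Function.Bijective g := by
    refine ⟨(injective_iff_map_eq_one g).mpr fun y hy => ?_, f.subgroupMap_surjective _⟩
    have : (y : G) ∈ (P : Subgroup G) ⊓ N :=
      ⟨y.2, (QuotientGroup.eq_one_iff (y : G)).mp (congrArg Subtype.val hy)⟩
    rw [hSN, Subgroup.mem_bot] at this
    exact Subtype.ext this
  have hprod : (∏ x : (P : Subgroup G), mult p (x : G)) * c ^ Nat.card (P : Subgroup G) =
      (∏ y : (P' : Subgroup (G ⧸ N)), mult p (y : G ⧸ N)) *
        ∏ x : (P : Subgroup G), Nat.card ↥(N ⊓ Subgroup.centralizer ({(x : G)} : Set G)) := by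
    rw [Nat.card_eq_fintype_card, ← Finset.card_univ, ← Finset.prod_const, ← Finset.prod_mul_distrib,
      Finset.prod_congr rfl (fun (x : (P : Subgroup G)) _ => hmult (x : G) (exists_sylow_mem.mpr ⟨P, x.2⟩)),
      Finset.prod_mul_distrib]
    congr 1
    exact Fintype.prod_bijective g hg _ _ fun x => rfl
  have hdvd := CfsgLib.Subnormal.prod_card_centralizer_dvd P.isPGroup'
    (show (P : Subgroup G) ≤ Subgroup.normalizer (N : Set G) by
      rw [Subgroup.normalizer_eq_top]; exact le_top) hN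
  rw [← hc] at hdvd
  have hle := Nat.le_of_dvd (Nat.mul_pos (pow_pos Nat.card_pos _) (pow_pos Nat.card_pos _)) hdvd
  have hq := h P'
  rw [← Nat.card_congr (Equiv.ofBijective g hg)] at hq
  refine Nat.le_of_mul_le_mul_right (c := c ^ (p * Nat.card (P : Subgroup G))) ?_
    (pow_pos Nat.card_pos _)
  rw [mul_comm p, pow_mul, ← mul_pow, hprod, mul_pow]
  refine (Nat.mul_le_mul hq hle).trans (le_of_eq ?_)
  rw [← mul_assoc, ← mul_pow, ← hn, mul_pow, ← pow_mul, mul_assoc, ← pow_add]
  congr 2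
  have := hp.out.pos
  have h9 : 1 + (p - 1) = p := by omega
  calc _ = Nat.card (P : Subgroup G) * (1 + (p - 1)) := by ring
    _ = _ := by rw [h9]

theorem mult_bound [Finite G] (hG : Cfsg.IsPSolvable p G) (P : Sylow p G)
    [Fintype (P : Subgroup G)] :
    (∏ x : (P : Subgroup G), mult p (x : G)) ^ p ≤
      Nat.card (Sylow p G) ^ Nat.card (P : Subgroup G) := by
  suffices main : ∀ n, ∀ {G : Type u} [Group G] [Finite G], Nat.card G = n →
      Cfsg.IsPSolvable p G → ∀ (P : Sylow p G) [Fintype (P : Subgroup G)],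
      (∏ x : (P : Subgroup G), mult p (x : G)) ^ p ≤
        Nat.card (Sylow p G) ^ Nat.card (P : Subgroup G) from main _ rfl hG P
  intro n
  induction n using Nat.strong_induction_on with
  | _ n ih =>
  intro G _ _ hn hG P _
  rcases subsingleton_or_nontrivial G with hsub | hnt
  · have hm : ∀ x : (P : Subgroup G), mult p (x : G) ≤ 1 := fun x => by
      haveI : Subsingleton (Sylow p G) := ⟨fun S T => Sylow.ext (SetLike.ext fun y => by
        rw [show y = 1 from Subsingleton.elim _ _]; simp [one_mem])⟩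
      exact Finite.card_le_one_iff_subsingleton.mpr inferInstance
    calc (∏ x : (P : Subgroup G), mult p (x : G)) ^ p ≤ 1 :=
          pow_le_one₀ (Nat.zero_le _) (Finset.prod_le_one' fun x _ => hm x)
      _ ≤ _ := Nat.one_le_pow _ _ Nat.card_pos
  have hlt : ∀ (M : Subgroup G) [M.Normal], M ≠ ⊥ → Nat.card (G ⧸ M) < n := fun M _ hM => by
    rw [← hn, Subgroup.card_eq_card_quotient_mul_card_subgroup M]
    refine lt_mul_of_one_lt_right Nat.card_pos ?_
    rw [Finite.one_lt_card_iff_nontrivial]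
    exact (Subgroup.nontrivial_iff_ne_bot M).mpr hM
  rcases CfsgLib.PSolvable.core_ne_bot hG with h | h
  · haveI : (Cfsg.pCore p G).Normal := inferInstance
    exact bound_of_normal_pGroup (CfsgLib.Cores.isPGroup_pCore p G) P fun P' _ =>
      ih _ (hlt _ h) rfl (CfsgLib.PSolvable.isPSolvable_quotient hG _) P'
  · exact bound_of_normal_pPrime (N := Cfsg.pPrimeCore p G) CfsgLib.Cores.not_dvd_card_pPrimeCore P
      fun P' _ => ih _ (hlt _ h) rfl (CfsgLib.PSolvable.isPSolvable_quotient hG _) P'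

/-- Let G be a finite p-solvable group, P a Sylow p-subgroup of G, u the number of p-elements of G (elements of p-power order, the identity included) and n the number of Sylow p-subgroups of G. Then u/#P ≥ n^((p−1)/p), stated as u^p ≥ #P^p · n^(p−1). -/
theorem result {G : Type*} [Group G] [Finite G] (p : ℕ) [Fact p.Prime]
    (hG : Cfsg.IsPSolvable p G) (P : Sylow p G) :
    Nat.card (P : Subgroup G) ^ p * Nat.card (Sylow p G) ^ (p - 1) ≤ Nat.card {g : G // ∃ k : ℕ, orderOf g = p ^ k} ^ p := by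
  classical
  haveI : Fintype G := Fintype.ofFinite G
  haveI : Fintype (Sylow p G) := Fintype.ofFinite _
  set d := Nat.card (P : Subgroup G) with hd
  set n := Nat.card (Sylow p G) with hn
  set u := Nat.card {g : G // ∃ k : ℕ, orderOf g = p ^ k} with hu
  let a : G → ℝ := fun x => ((mult p x : ℝ))⁻¹
  have hpos : ∀ x : (P : Subgroup G), (0 : ℝ) < mult p (x : G) := fun x => by
    exact_mod_cast mult_pos x.2
  -- double counting
  have hcount : (u : ℝ) = n * ∑ x : (P : Subgroup G), a x := by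
    have h1 : ∀ S : Sylow p G, (∑ x : G, if x ∈ (S : Subgroup G) then a x else 0) =
        ∑ x : (P : Subgroup G), a x := by
      intro S
      obtain ⟨g, rfl⟩ := MulAction.exists_smul_eq G P S
      rw [← Equiv.sum_comp (MulAut.conj g).toEquiv, ← Finset.sum_subtype
        (Finset.univ.filter fun x => x ∈ (P : Subgroup G)) (by simp) a, Finset.sum_filter]
      refine Finset.sum_congr rfl fun x _ => ?_
      have e : ((MulAut.conj g).toEquiv x : G) = g * x * g⁻¹ := rfl
      rw [e]
      simp only [conj_mem_smul, a, mult_conj]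
    have h2 : ∀ x : G, (∑ S : Sylow p G, if x ∈ (S : Subgroup G) then a x else 0) =
        if (∃ k : ℕ, orderOf x = p ^ k) then 1 else 0 := by
      intro x
      rw [Finset.sum_ite, Finset.sum_const_zero, add_zero, Finset.sum_const, nsmul_eq_mul,
        ← Fintype.card_subtype, ← Nat.card_eq_fintype_card]
      split_ifs with hx
      · obtain ⟨S, hS⟩ := exists_sylow_mem.mp hx
        exact mul_inv_cancel₀ (by exact_mod_cast (mult_pos hS).ne')
      · haveI : IsEmpty {S : Sylow p G // x ∈ (S : Subgroup G)} :=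
          ⟨fun S => hx (exists_sylow_mem.mpr ⟨S.1, S.2⟩)⟩
        simp
    calc (u : ℝ) = ∑ x : G, if (∃ k : ℕ, orderOf x = p ^ k) then (1 : ℝ) else 0 := by
          rw [Finset.sum_boole, hu, Nat.card_eq_fintype_card, Fintype.card_subtype]
      _ = ∑ x : G, ∑ S : Sylow p G, (if x ∈ (S : Subgroup G) then a x else 0) :=
          Finset.sum_congr rfl fun x _ => (h2 x).symm
      _ = ∑ S : Sylow p G, ∑ x : G, (if x ∈ (S : Subgroup G) then a x else 0) := Finset.sum_comm
      _ = _ := by
          rw [Finset.sum_congr rfl fun S _ => h1 S, Finset.sum_const, nsmul_eq_mul, Finset.card_univ,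
            hn, Nat.card_eq_fintype_card]
  have hM : ((∏ x : (P : Subgroup G), mult p (x : G) : ℕ) : ℝ) ^ p ≤ (n : ℝ) ^ d := by
    exact_mod_cast mult_bound hG P
  have hA0 : 0 ≤ ∏ x : (P : Subgroup G), a x :=
    Finset.prod_nonneg fun x _ => (inv_pos.mpr (hpos x)).le
  have hd0 : (0 : ℝ) < d := by exact_mod_cast Nat.card_pos
  have hcd : (Finset.univ : Finset (P : Subgroup G)).card = d := by
    rw [hd, Nat.card_eq_fintype_card, Finset.card_univ]
  -- arithmetic and geometric means
  have hamgm : (d : ℝ) ^ d * ∏ x : (P : Subgroup G), a x ≤ (∑ x : (P : Subgroup G), a x) ^ d := by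
    have h := Real.geom_mean_le_arith_mean (Finset.univ : Finset (P : Subgroup G)) (fun _ => (1 : ℝ))
      (fun x => a x) (fun _ _ => zero_le_one) (by simp [hcd]; exact_mod_cast hd0)
      (fun x _ => (inv_pos.mpr (hpos x)).le)
    simp only [Real.rpow_one, Finset.sum_const, hcd, nsmul_eq_mul, mul_one, one_mul] at h
    have h2 := pow_le_pow_left₀ (Real.rpow_nonneg hA0 _) h d
    rw [← Real.rpow_natCast ((∏ x : (P : Subgroup G), a x) ^ ((d : ℝ)⁻¹)) d, ← Real.rpow_mul hA0,
      inv_mul_cancel₀ hd0.ne', Real.rpow_one, div_pow, le_div_iff₀ (pow_pos hd0 d)] at h2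
    linarith
  have hprodinv : (∏ x : (P : Subgroup G), a x) =
      ((∏ x : (P : Subgroup G), mult p (x : G) : ℕ) : ℝ)⁻¹ := by
    rw [Nat.cast_prod, Finset.prod_inv_distrib]
  have key : ((d : ℝ) ^ p * (n : ℝ) ^ (p - 1)) ^ d ≤ ((u : ℝ) ^ p) ^ d := by
    have hn0 : (0 : ℝ) < n := by exact_mod_cast (Nat.card_pos : 0 < Nat.card (Sylow p G))
    have hMpos : (0 : ℝ) < ((∏ x : (P : Subgroup G), mult p (x : G) : ℕ) : ℝ) := by
      rw [Nat.cast_prod]; exact Finset.prod_pos fun x _ => hpos x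
    have h3 := pow_le_pow_left₀ (mul_nonneg (pow_nonneg hd0.le d) hA0) hamgm p
    rw [hprodinv, mul_pow, inv_pow] at h3
    have h4 : ((d : ℝ) ^ d) ^ p * ((n : ℝ) ^ d)⁻¹ ≤ ((∑ x : (P : Subgroup G), a x) ^ d) ^ p :=
      le_trans (mul_le_mul_of_nonneg_left (inv_anti₀ (pow_pos hMpos p) hM) (by positivity)) h3
    rw [hcount, mul_pow (n : ℝ), mul_pow _ _ d]
    have h5 := mul_le_mul_of_nonneg_left h4 (pow_nonneg (pow_nonneg hn0.le p) d)
    refine le_trans (le_of_eq ?_) (h5.trans (le_of_eq ?_))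
    · have e1 : ((d : ℝ) ^ d) ^ p = ((d : ℝ) ^ p) ^ d := by rw [← pow_mul, ← pow_mul, mul_comm]
      have e2 : ((n : ℝ) ^ p) ^ d = ((n : ℝ) ^ (p - 1)) ^ d * (n : ℝ) ^ d := by
        rw [← mul_pow, ← pow_succ, Nat.sub_add_cancel (Fact.out : p.Prime).pos]
      rw [e1, e2]
      field_simp
    · rw [← pow_mul (∑ x : (P : Subgroup G), a x) d p, mul_comm d p, pow_mul, ← mul_pow]
  have := le_of_pow_le_pow_left₀ (by rw [hd]; exact Nat.card_pos.ne') (by positivity) key
  exact_mod_cast this

end Cfsg.Agent.S4091
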