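import Cfsg.Statements.S4092
import Cfsg.Agent.Lib.ElementOrders.Frobenius

set_option autoImplicit false
open Cfsg

namespace Cfsg.Agent.S4092

theorem card_pElements_modEq_one {G : Type*} [Group G] [Finite G] (p : ℕ) [Fact p.Prime] :
    Nat.card {g : G // ∃ k : ℕ, orderOf g = p ^ k} ≡ 1 [MOD p - 1] := by
  classical
  let _ : Fintype G := Fintype.ofFinite G
  have hp : p.Prime := Fact.out
  let T : Finset G := Finset.univ.filter fun g => ∃ k : ℕ, orderOf g = p ^ k
  have hT : Nat.card {g : G // ∃ k : ℕ, orderOf g = p ^ k} = T.card := by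
    rw [← Nat.card_eq_finsetCard]
    exact Nat.card_congr (Equiv.subtypeEquivRight fun g => by simp [T])
  have h1 : (1 : G) ∈ T := Finset.mem_filter.2 ⟨Finset.mem_univ _, 0, by simp⟩
  have hkey : p - 1 ∣ (T.erase 1).card := by
    rw [Finset.card_eq_sum_card_image (fun g : G => Subgroup.zpowers g) (T.erase 1)]
    refine Finset.dvd_sum fun C hC => ?_
    obtain ⟨x, hx, rfl⟩ := Finset.mem_image.1 hC
    obtain ⟨hx1, k, hk⟩ : x ≠ 1 ∧ ∃ k : ℕ, orderOf x = p ^ k := by simpa [T] using hx
    have hk0 : 0 < k := Nat.pos_of_ne_zero fun h => hx1 (orderOf_eq_one_iff.1 (by rw [hk, h, pow_zero]))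
    let _ : Fintype (Subgroup.zpowers x) := Fintype.ofFinite _
    have hc : Fintype.card (Subgroup.zpowers x) = p ^ k := by
      rw [← Nat.card_eq_fintype_card, Nat.card_zpowers, hk]
    have htot := IsCyclic.card_orderOf_eq_totient (α := Subgroup.zpowers x) (dvd_of_eq hc.symm)
    rw [Nat.totient_prime_pow hp hk0] at htot
    refine ⟨p ^ (k - 1), ?_⟩
    rw [mul_comm (p - 1), ← htot, ← Finset.card_map (Function.Embedding.subtype (· ∈ Subgroup.zpowers x))]
    congr 1
    ext y
    simp only [T, Finset.mem_filter, Finset.mem_erase, Finset.mem_univ, true_and, Finset.mem_map,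
      Function.Embedding.coe_subtype, ne_eq]
    constructor
    · rintro ⟨⟨-, -⟩, hy⟩
      exact ⟨⟨y, hy ▸ Subgroup.mem_zpowers y⟩, by
        rw [Subgroup.orderOf_mk, ← Nat.card_zpowers, hy, Nat.card_zpowers, hk], rfl⟩
    · rintro ⟨⟨z, hz⟩, ho, rfl⟩
      rw [Subgroup.orderOf_mk] at ho
      refine ⟨⟨fun h => ?_, k, ho⟩, ?_⟩
      · subst h; rw [orderOf_one] at ho; exact (Nat.one_lt_pow hk0.ne' hp.one_lt).ne ho
      · exact Subgroup.eq_of_le_of_card_ge (Subgroup.zpowers_le.2 hz)
          (by rw [Nat.card_zpowers, Nat.card_zpowers, ho, hk])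
  rw [hT, ← Finset.card_erase_add_one h1]
  simpa using ((Nat.modEq_zero_iff_dvd).2 hkey).add_right 1

/-- Let G be a finite group, p a prime and P a Sylow p-subgroup of G that is not normal in G. Then G has at least p·#P elements of p-power order (the identity included). -/
theorem result {G : Type*} [Group G] [Finite G] (p : ℕ) [Fact p.Prime]
    (P : Sylow p G) (hP : ¬ (P : Subgroup G).Normal) :
    p * Nat.card (P : Subgroup G) ≤ Nat.card {g : G // ∃ k : ℕ, orderOf g = p ^ k} := by
  have hp : p.Prime := Fact.out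
  obtain ⟨c, hc⟩ := CfsgLib.ElementOrders.card_sylow_dvd_card_pElements P
  obtain ⟨a, ha⟩ := P.isPGroup'.exists_card_eq
  have hP1 : Nat.card (P : Subgroup G) ≡ 1 [MOD p - 1] := by
    rw [ha]
    simpa using (((Nat.modEq_iff_dvd' hp.one_le).2 dvd_rfl).symm).pow a
  have hc1 : 1 ≡ c [MOD p - 1] :=
    ((card_pElements_modEq_one (G := G) p).symm.trans (by rw [hc])).trans
      (by simpa using hP1.mul_right c)
  have hc2 : 2 ≤ c := by
    by_contra hlt
    have hle : Nat.card {g : G // ∃ k : ℕ, orderOf g = p ^ k} ≤ Nat.card (P : Subgroup G) := by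
      rw [hc]; exact (Nat.mul_le_mul_left _ (by omega : c ≤ 1)).trans (by rw [mul_one])
    let f : ↥(P : Subgroup G) → {g : G // ∃ k : ℕ, orderOf g = p ^ k} := fun x => ⟨x, by
      obtain ⟨k, hk⟩ := IsPGroup.iff_orderOf.1 P.isPGroup' x
      exact ⟨k, by rwa [Subgroup.orderOf_coe]⟩⟩
    have hfi : Function.Injective f := fun x y h => by
      have h' := congrArg Subtype.val h
      exact Subtype.ext h'
    have hb := (hfi.bijective_of_nat_card_le hle).surjective
    refine hP ⟨fun n hn g => ?_⟩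
    obtain ⟨k, hk⟩ := IsPGroup.iff_orderOf.1 P.isPGroup' ⟨n, hn⟩
    rw [Subgroup.orderOf_mk] at hk
    have ho : orderOf (g * n * g⁻¹) = p ^ k := by
      rw [← hk]; exact orderOf_injective (MulAut.conj g).toMonoidHom (MulAut.conj g).injective n
    obtain ⟨x, hx⟩ := hb ⟨g * n * g⁻¹, k, ho⟩
    have hx' : (x : G) = g * n * g⁻¹ := congrArg Subtype.val hx
    exact hx' ▸ x.2
  obtain ⟨t, ht⟩ := (Nat.modEq_iff_dvd' (by omega : 1 ≤ c)).1 hc1
  have htpos : 0 < t := Nat.pos_of_ne_zero fun h => by rw [h, mul_zero] at ht; omega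
  have hpc : p ≤ c := by
    have := Nat.le_mul_of_pos_right (p - 1) htpos
    omega
  rw [hc, mul_comm p]
  exact Nat.mul_le_mul_left _ hpc

end Cfsg.Agent.S4092
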