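import Cfsg.Statements.S4093

set_option autoImplicit false
open scoped BigOperators
open Cfsg

namespace Cfsg.Agent.S4093

theorem card_conj_image {G : Type*} [Group G] [Finite G] (N : Subgroup G) (x : G) :
    Nat.card {g : G // ∃ n ∈ N, n * x * n⁻¹ = g} =
      Nat.card N / Nat.card ↥(N ⊓ Subgroup.centralizer ({x} : Set G)) := by
  let C := (Subgroup.centralizer ({x} : Set G)).subgroupOf N
  have hiff : ∀ a b : N, (QuotientGroup.mk a : N ⧸ C) = QuotientGroup.mk b ↔
      (a : G) * x * (a : G)⁻¹ = (b : G) * x * (b : G)⁻¹ := fun a b => by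
    rw [QuotientGroup.eq, Subgroup.mem_subgroupOf, Subgroup.mem_centralizer_singleton_iff]
    push_cast
    constructor <;> intro h
    · calc (a : G) * x * (a : G)⁻¹ = a * (x * ((a : G)⁻¹ * b)) * (b : G)⁻¹ := by group
        _ = a * (((a : G)⁻¹ * b) * x) * (b : G)⁻¹ := by rw [h]
        _ = (b : G) * x * (b : G)⁻¹ := by group
    · calc (a : G)⁻¹ * b * x = (a : G)⁻¹ * ((b : G) * x * (b : G)⁻¹) * b := by group
        _ = (a : G)⁻¹ * ((a : G) * x * (a : G)⁻¹) * b := by rw [h]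
        _ = x * ((a : G)⁻¹ * b) := by group
  let f : N ⧸ C → {g : G // ∃ n ∈ N, n * x * n⁻¹ = g} :=
    Quotient.lift (fun a : N => ⟨(a : G) * x * (a : G)⁻¹, a, a.2, rfl⟩)
      (fun a b h => Subtype.ext ((hiff a b).1 (Quotient.sound h)))
  have hf : Function.Bijective f := by
    refine ⟨fun u v => ?_, ?_⟩
    · refine Quotient.inductionOn₂ u v fun a b h => ?_
      exact (hiff a b).2 (congrArg (fun z : {g : G // ∃ n ∈ N, n * x * n⁻¹ = g} => z.1) h)
    · rintro ⟨g, n, hn, rfl⟩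
      exact ⟨QuotientGroup.mk ⟨n, hn⟩, rfl⟩
  rw [← Nat.card_congr (Equiv.ofBijective f hf), ← Subgroup.index_eq_card]
  have h2 : C.index * Nat.card ↥(N ⊓ Subgroup.centralizer ({x} : Set G)) = Nat.card N := by
    have e : (N ⊓ Subgroup.centralizer ({x} : Set G)).subgroupOf N = C := by
      ext z; simp [C, Subgroup.mem_subgroupOf]
    rw [← C.index_mul_card, ← e,
      Nat.card_congr (Subgroup.subgroupOfEquivOfLe (inf_le_left : N ⊓ _ ≤ N)).toEquiv]
  exact (Nat.div_eq_of_eq_mul_left Nat.card_pos h2.symm).symm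

/-- Let G be a finite group with a normal subgroup N complementing a Sylow p-subgroup P (a normal p-complement). Then the number of elements of G of p-power order equals the sum over x ∈ P of the index of C_N(x) in N. -/
theorem result {G : Type*} [Group G] [Finite G] (p : ℕ) [Fact p.Prime]
    (P : Sylow p G) (N : Subgroup G) [N.Normal] (hNP : N.IsComplement' (P : Subgroup G)) :
    Nat.card {g : G // ∃ k : ℕ, orderOf g = p ^ k} =
      ∑ᶠ x : (P : Subgroup G), Nat.card N / Nat.card ↥(N ⊓ Subgroup.centralizer ({(x : G)} : Set G)) := by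
  classical
  let _ : Fintype (P : Subgroup G) := Fintype.ofFinite _
  rw [finsum_eq_sum_of_fintype, ← Finset.sum_congr rfl (fun (x : (P : Subgroup G)) _ => card_conj_image N (x : G)),
    ← Nat.card_sigma]
  refine (Nat.card_congr (Equiv.ofBijective
    (fun s : Σ x : (P : Subgroup G), {g : G // ∃ n ∈ N, n * (x : G) * n⁻¹ = g} =>
      (⟨s.2.1, by
        obtain ⟨n, -, hn⟩ := s.2.2
        obtain ⟨k, hk⟩ := IsPGroup.iff_orderOf.1 P.isPGroup' s.1
        refine ⟨k, ?_⟩
        rw [← hn, ← hk, ← Subgroup.orderOf_coe]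
        exact orderOf_injective (MulAut.conj n).toMonoidHom (MulAut.conj n).injective _⟩ :
        {g : G // ∃ k : ℕ, orderOf g = p ^ k})) ⟨?_, ?_⟩)).symm
  · rintro ⟨⟨x, hx⟩, g, n, hn, hg⟩ ⟨⟨x', hx'⟩, g', n', hn', hg'⟩ h
    have hgg : g = g' := congrArg Subtype.val h
    subst hgg
    have h1 : x * x'⁻¹ ∈ N := by
      have e : x * x'⁻¹ = n⁻¹ * n' * (x' * (n'⁻¹ * n) * x'⁻¹) := by
        have hx_ : x = n⁻¹ * (n' * x' * n'⁻¹) * n := by rw [show n' * x' * n'⁻¹ = g from hg', ← hg]; group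
        rw [hx_]; group
      rw [e]
      exact N.mul_mem (N.mul_mem (N.inv_mem hn) hn')
        (Subgroup.Normal.conj_mem inferInstance _ (N.mul_mem (N.inv_mem hn') hn) _)
    have h2 : x * x'⁻¹ = 1 :=
      Subgroup.disjoint_def.1 hNP.disjoint h1 (mul_mem hx (inv_mem hx'))
    obtain rfl : x = x' := mul_inv_eq_one.1 h2
    rfl
  · rintro ⟨g, k, hk⟩
    have hpg : IsPGroup p (Subgroup.zpowers g) := IsPGroup.of_card (n := k) (by rw [Nat.card_zpowers, hk])
    obtain ⟨Q, hQ⟩ := hpg.exists_le_sylow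
    obtain ⟨c, hc⟩ := MulAction.exists_smul_eq G P Q
    have hgQ : g ∈ ((c • P : Sylow p G) : Subgroup G) := hc ▸ hQ (Subgroup.mem_zpowers g)
    rw [Sylow.coe_subgroup_smul, Subgroup.mem_pointwise_smul_iff_inv_smul_mem] at hgQ
    obtain ⟨⟨⟨n, hn⟩, ⟨y, hy⟩⟩, hny⟩ := hNP.2 c
    simp only at hny
    refine ⟨⟨⟨y * (c⁻¹ * g * c) * y⁻¹, ?_⟩, g, n, hn, ?_⟩, rfl⟩
    · refine mul_mem (mul_mem hy ?_) (inv_mem hy)
      simpa [MulAut.smul_def] using hgQ
    · simp only
      rw [← hny]; group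

end Cfsg.Agent.S4093
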