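import Cfsg.Statements.S4097
import Cfsg.Agent.Lib.Frobenius.Kernel
import Cfsg.Agent.Lib.CoprimeAction.Sylow
import Cfsg.Agent.Lib.ElementOrders.FPFFactor
import Mathlib
-- import your own Cfsg.Agent.* helpers here

set_option autoImplicit false
open Cfsg

namespace Cfsg.Agent.S4097

open scoped Pointwise

universe u

theorem isSolvable_of_sup_zpowers {G : Type u} [Group G] {W : Subgroup G} [W.Normal]
    (hW : Group.IsSolvable W) {g : G} (h : W ⊔ Subgroup.zpowers g = ⊤) : Group.IsSolvable G := by
  have h1 := CfsgLib.ElementOrders.isSolvable_sup_of_le_normalizer hW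
    (B := Subgroup.zpowers g) (Group.isSolvable_of_comm fun x y => by
      obtain ⟨_, i, rfl⟩ := x
      obtain ⟨_, j, rfl⟩ := y
      exact Subtype.ext (zpow_mul_comm g i j)) (by rw [Subgroup.normalizer_eq_top]; exact le_top)
  rw [h] at h1
  exact Group.isSolvable_of_surjective (f := Subgroup.topEquiv.toMonoidHom) (fun y => ⟨⟨y, trivial⟩, rfl⟩)

/-- An abelian subgroup lying in the centre of every proper overgroup, in an insoluble group where
no abelian normal subgroup contains it: the centraliser is normal only if the group is soluble. -/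
theorem isSolvable_of_normal_centralizer {G : Type u} [Group G] {A : Subgroup G}
    (hAA : ∀ a ∈ A, ∀ b ∈ A, a * b = b * a)
    (hN : (Subgroup.centralizer (A : Set G)).Normal) {g : G} (hg : A ⊔ Subgroup.zpowers g = ⊤) :
    Group.IsSolvable G := by
  set M := Subgroup.centralizer (A : Set G) with hM
  set W := Subgroup.normalClosure (A : Set G) with hW
  have hAM : A ≤ M := fun a ha => Subgroup.mem_centralizer_iff.2 fun b hb => hAA b hb a ha
  have hWM : W ≤ M := Subgroup.normalClosure_le_normal hAM
  have hWc : W ≤ Subgroup.centralizer (M : Set G) :=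
    Subgroup.normalClosure_le_normal fun a ha => Subgroup.mem_centralizer_iff.2 fun m hm =>
      (Subgroup.mem_centralizer_iff.1 hm a ha).symm
  refine isSolvable_of_sup_zpowers (W := W) (g := g) (Group.isSolvable_of_comm fun x y => Subtype.ext ?_) ?_
  · exact Subgroup.mem_centralizer_iff.1 (hWc y.2) x (hWM x.2)
  · exact top_le_iff.1 (hg.ge.trans (sup_le_sup_right Subgroup.le_normalClosure _))

theorem aux : ∀ (n : ℕ) (G : Type u) [Group G] [Finite G], Nat.card G = n →
    ∀ A : Subgroup G, Group.IsSolvable A →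
    (∀ S : Subgroup G, A ≤ S → Group.IsSolvable S → ∀ a ∈ A, ∀ s ∈ S, a * s = s * a) →
    A ≤ Subgroup.center G := by
  intro n
  induction n using Nat.strong_induction_on with
  | _ n ih =>
  intro G _ _ hn A hA hc
  subst hn
  by_contra hnc
  have hns : ¬ Group.IsSolvable G := fun h => hnc fun a ha => Subgroup.mem_center_iff.2 fun g =>
    haveI := h
    (hc ⊤ le_top inferInstance a ha g trivial).symm
  have hAA : ∀ a ∈ A, ∀ b ∈ A, a * b = b * a := hc A le_rfl hA
  set M := Subgroup.centralizer (A : Set G) with hM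
  have hAM : A ≤ M := fun a ha => Subgroup.mem_centralizer_iff.2 fun b hb => hAA b hb a ha
  have hprop : ∀ H : Subgroup G, H ≠ ⊤ → A ≤ H → H ≤ M := by
    intro H hH hAH x hx
    have hlt : Nat.card H < Nat.card G := lt_of_le_of_ne (Subgroup.card_le_card_group H)
      fun e => hH (Subgroup.card_eq_iff_eq_top H |>.1 e)
    haveI := hA
    have h1 := ih _ hlt H rfl (A.subgroupOf H)
      (Group.isSolvable_of_surjective (f := (Subgroup.subgroupOfEquivOfLe hAH).symm.toMonoidHom)
        (MulEquiv.surjective _))
      fun S hAS hS a ha s hs => by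
        have h2 := hc (S.map H.subtype)
          (by rw [← Subgroup.map_subgroupOf_eq_of_le hAH]; exact Subgroup.map_mono hAS)
          (haveI := hS; Group.isSolvable_of_surjective (H.subtype.subgroupMap_surjective S))
          (a : G) ha (s : G) ⟨s, hs, rfl⟩
        exact Subtype.ext h2
    refine Subgroup.mem_centralizer_iff.2 fun a ha => ?_
    exact (congrArg Subtype.val (Subgroup.mem_center_iff.1
      (h1 (show (⟨a, hAH ha⟩ : H) ∈ A.subgroupOf H from ha)) ⟨x, hx⟩)).symm
  have hMtop : M ≠ ⊤ := fun h => hnc fun a ha => Subgroup.mem_center_iff.2 fun g =>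
    (Subgroup.mem_centralizer_iff.1 (h ▸ Subgroup.mem_top g : g ∈ M) a ha).symm
  -- generation outside `M`
  have hgen : ∀ g ∉ M, A ⊔ Subgroup.zpowers g = ⊤ := fun g hg => by
    by_contra h
    exact hg (hprop _ h le_sup_left (le_sup_right (a := A) (Subgroup.mem_zpowers g)))
  obtain ⟨g₀, hg₀⟩ : ∃ g, g ∉ M := by
    by_contra h; push Not at h; exact hMtop (Subgroup.eq_top_iff' M |>.2 h)
  -- the centre is trivial
  have hZ : Subgroup.center G = ⊥ := by
    by_contra hZ
    set Z := Subgroup.center G
    have hlt : Nat.card (G ⧸ Z) < Nat.card G := by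
      rw [Subgroup.card_eq_card_quotient_mul_card_subgroup Z]
      exact lt_mul_of_one_lt_right Nat.card_pos ((Subgroup.one_lt_card_iff_ne_bot Z).2 hZ)
    let π := QuotientGroup.mk' Z
    haveI := hA
    have h1 := ih _ hlt (G ⧸ Z) rfl (A.map π)
      (Group.isSolvable_of_surjective (π.subgroupMap_surjective A))
      fun S hAS hS a ha s hs => by
        obtain ⟨b, hb, rfl⟩ := ha
        obtain ⟨t, rfl⟩ := QuotientGroup.mk'_surjective Z s
        haveI := hS
        have hS' : Group.IsSolvable (S.comap π) := by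
          refine Group.isSolvable_of_ker_le_range
            ((Z.subgroupOf (S.comap π)).subtype) (π.subgroupComap S) ?_ (hG' := ?_)
          · intro x hx
            exact ⟨⟨x, (QuotientGroup.eq_one_iff (x : G)).1 (congrArg Subtype.val hx)⟩, rfl⟩
          · exact Group.isSolvable_of_comm fun x y => Subtype.ext (Subtype.ext
              (Subgroup.mem_center_iff.1 (show ((y : S.comap π) : G) ∈ Z from y.2) _))
        show π b * π t = π t * π b
        rw [← map_mul, ← map_mul, hc _ (fun x hx => hAS ⟨x, hx, rfl⟩) hS' b hb t hs]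
    -- so `A ⊔ Z` is abelian and normal
    have hWn : (A ⊔ Z).Normal := by
      refine ⟨fun x hx g => ?_⟩
      have hx' : π x ∈ Subgroup.center (G ⧸ Z) := by
        have : (A ⊔ Z).map π ≤ Subgroup.center (G ⧸ Z) := by
          rw [Subgroup.map_sup]
          refine sup_le h1 ?_
          rintro _ ⟨z, hz, rfl⟩
          rw [show π z = 1 from (QuotientGroup.eq_one_iff z).2 hz]; exact one_mem _
        exact this ⟨x, hx, rfl⟩
      have e : π (x⁻¹ * (g * x * g⁻¹)) = 1 := by
        simp only [map_mul, map_inv]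
        rw [Subgroup.mem_center_iff.1 hx' (π g)]; group
      have hz := (QuotientGroup.eq_one_iff _).1 e
      have := Subgroup.mul_mem _ hx (le_sup_right (a := A) hz)
      rwa [mul_inv_cancel_left] at this
    have hWsol : Group.IsSolvable ↥(A ⊔ Z) :=
      CfsgLib.ElementOrders.isSolvable_sup_of_le_normalizer hA
        (Group.isSolvable_of_comm fun x y => Subtype.ext (Subgroup.mem_center_iff.1 y.2 x))
        (fun z hz => Subgroup.mem_normalizer_iff.2 fun a => by
          rw [← Subgroup.mem_center_iff.1 hz a, mul_inv_cancel_right])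
    exact hns (isSolvable_of_sup_zpowers (W := A ⊔ Z) hWsol (g := g₀)
      (top_le_iff.1 ((hgen g₀ hg₀).ge.trans (sup_le_sup_right le_sup_left _))))
  -- `M` is self-normalising
  have hnorm : Subgroup.normalizer (M : Set G) = M := by
    refine le_antisymm (hprop _ ?_ (hAM.trans Subgroup.le_normalizer)) Subgroup.le_normalizer
    intro h
    exact hns (isSolvable_of_normal_centralizer hAA (Subgroup.normalizer_eq_top_iff.1 h) (hgen g₀ hg₀))
  have hA1 : A ≠ ⊥ := fun h => hnc (h ▸ bot_le)
  -- `M` is a Frobenius complement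
  have hfrob : Cfsg.IsFrobeniusComplement M := by
    refine ⟨fun h => hA1 (le_bot_iff.1 (h ▸ hAM)), hMtop, fun g hg => ?_⟩
    refine (Subgroup.eq_bot_iff_forall _).2 fun x hx => ?_
    obtain ⟨hxM, hxg⟩ := Subgroup.mem_inf.1 hx
    rw [CfsgLib.Frobenius.mem_conj_smul] at hxg
    by_contra hx1
    have hCtop : Subgroup.centralizer ({x} : Set G) ≠ ⊤ := fun h => hx1 <| by
      rw [← Subgroup.mem_bot, ← hZ, Subgroup.mem_center_iff]
      exact fun y => Subgroup.mem_centralizer_singleton_iff.1 (h ▸ Subgroup.mem_top y)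
    have hAC : A ≤ Subgroup.centralizer ({x} : Set G) := fun a ha =>
      Subgroup.mem_centralizer_singleton_iff.2 (Subgroup.mem_centralizer_iff.1 hxM a ha)
    have hconj : ∀ a ∈ A, g * a * g⁻¹ ∈ M := fun a ha => by
      refine hprop _ hCtop hAC (Subgroup.mem_centralizer_singleton_iff.2 ?_)
      have := Subgroup.mem_centralizer_iff.1 hxg a ha
      calc g * a * g⁻¹ * x = g * (a * (g⁻¹ * x * g)) * g⁻¹ := by group
        _ = g * ((g⁻¹ * x * g) * a) * g⁻¹ := by rw [this]
        _ = x * (g * a * g⁻¹) := by group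
    -- the conjugate centraliser contains `A`
    have hAgM : A ≤ MulAut.conj g • M := fun a ha => by
      rw [CfsgLib.Frobenius.mem_conj_smul]
      refine Subgroup.mem_centralizer_iff.2 fun b hb => ?_
      have := Subgroup.mem_centralizer_iff.1 (hconj b hb) a ha
      calc b * (g⁻¹ * a * g) = g⁻¹ * ((g * b * g⁻¹) * a) * g := by group
        _ = g⁻¹ * (a * (g * b * g⁻¹)) * g := by rw [this]
        _ = g⁻¹ * a * g * b := by group
    have hle : MulAut.conj g • M ≤ M := hprop _ (fun h => hMtop ((Subgroup.eq_top_iff' M).2 fun y => by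
      have := CfsgLib.Frobenius.mem_conj_smul.1
        (h.symm ▸ Subgroup.mem_top (g * y * g⁻¹) : g * y * g⁻¹ ∈ MulAut.conj g • M)
      simpa [mul_assoc] using this)) hAgM
    apply hg
    rw [← hnorm]
    refine CfsgLib.CoprimeAction.conj_smul_eq_self.1 (Subgroup.eq_of_le_of_card_ge hle ?_)
    exact (Nat.card_congr (Subgroup.equivSMul (MulAut.conj g) M).toEquiv).le
  obtain ⟨N, hNK, hNn, hNM⟩ := CfsgLib.Frobenius.exists_kernel hfrob
  haveI := hNn
  have hinf : ∀ x ∈ N, x ∈ M → x = 1 := fun x h1 h2 => by
    simpa using (hNM.disjoint.le_bot (Subgroup.mem_inf.2 ⟨h1, h2⟩))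
  have hNcard : Nat.card N = M.index := hNM.index_eq_card.symm
  have hsup : N ⊔ A = ⊤ := by
    by_contra h
    have h1 := le_sup_left.trans (hprop _ h le_sup_right)
    have : N = ⊥ := (Subgroup.eq_bot_iff_forall _).2 fun x hx => hinf x hx (h1 hx)
    have h2 := CfsgLib.Frobenius.one_lt_index hfrob
    rw [← hNcard, this, Subgroup.card_bot] at h2
    exact lt_irrefl _ h2
  have hMA : M = A := by
    refine le_antisymm (fun x hx => ?_) hAM
    have hx' : x ∈ ((N ⊔ A : Subgroup G) : Set G) := by rw [hsup]; trivial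
    rw [Subgroup.normal_mul] at hx'
    obtain ⟨n, hn, a, ha, rfl⟩ := hx'
    have : n = 1 := hinf n hn (by
      have := M.mul_mem hx (M.inv_mem (hAM ha))
      rwa [mul_inv_cancel_right] at this)
    simpa [this] using ha
  have hcop : (Nat.card A).Coprime (Nat.card N) := by
    rw [hNcard, ← hMA]
    exact CfsgLib.Frobenius.coprime_card_index hfrob
  obtain ⟨p, hp, hpd⟩ := Nat.exists_prime_and_dvd (show Nat.card N ≠ 1 by
    rw [hNcard]; exact (CfsgLib.Frobenius.one_lt_index hfrob).ne')
  haveI : Fact p.Prime := ⟨hp⟩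
  obtain ⟨P, hP⟩ := CfsgLib.CoprimeAction.exists_invariant_sylow (A := A) (K := N)
    (by rw [Subgroup.normalizer_eq_top]; exact le_top) hcop (Or.inl hA) p
  set Q := (P : Subgroup N).map N.subtype with hQ
  have hQp : IsPGroup p Q := P.2.map _
  haveI : Group.IsNilpotent Q := hQp.isNilpotent
  have hS : Group.IsSolvable ↥(Q ⊔ A) :=
    CfsgLib.ElementOrders.isSolvable_sup_of_le_normalizer inferInstance hA hP
  have hQM : Q ≤ M := fun q hq => Subgroup.mem_centralizer_iff.2 fun a ha =>
    hc _ le_sup_right hS a ha q (le_sup_left (b := A) hq)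
  have hQbot : Q = ⊥ := (Subgroup.eq_bot_iff_forall _).2 fun q hq => by
    refine hinf q ?_ (hQM hq)
    obtain ⟨y, -, rfl⟩ := hq
    exact y.2
  have : (P : Subgroup N) = ⊥ := (Subgroup.map_eq_bot_iff_of_injective _ N.subtype_injective).1 hQbot
  exact P.ne_bot_of_dvd_card hpd this

/-- Let A be a solvable subgroup of a finite group G such that A lies in the centre of every solvable subgroup of G containing A. Then A lies in the centre of G. -/
theorem result {G : Type*} [Group G] [Finite G]
    (A : Subgroup G) (hA : Group.IsSolvable A)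
    (hc : ∀ S : Subgroup G, A ≤ S → Group.IsSolvable S → ∀ a ∈ A, ∀ s ∈ S, a * s = s * a) : A ≤ Subgroup.center G :=
  aux _ G rfl A hA hc

end Cfsg.Agent.S4097
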