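import Cfsg.Statements.S4100
import Cfsg.Agent.Lib.AltModule.P2.Fixed
import Cfsg.Agent.Lib.AltModule.P5.Fixed
import Cfsg.Agent.Lib.AltModule.AltData
import Cfsg.Agent.Lib.AltModule.CentralizerCoprime
import Cfsg.Agent.Lib.AltModule.CentralizerModule

set_option autoImplicit false
open Cfsg

namespace Cfsg.Agent.S4100

universe u

open AltMod in
/-- no minimal cover of `A_(a+5)` when `τ ∈ A_a` has order `p` -/
theorem no_cover {K : Type u} [Group K] [Finite K] {p a : ℕ} [Fact p.Prime]
    (h : SolvCent K p) (τ : alternatingGroup (Fin a)) (hτ : τ ^ p = 1) (hτ1 : τ ≠ 1)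
    (halt : ¬ p ∣ 60 ∨ HasFixed.{u} (alternatingGroup (Fin (a + 5))) p)
    (f : K →* alternatingGroup (Fin (a + 5))) (hf : Function.Surjective f)
    (hmin : ∀ H : Subgroup K, H.map f = ⊤ → H = ⊤) : False := by
  obtain ⟨c, L, hc, hcA, hLc, hL, hcard⟩ := exists_elt (Fact.out : p.Prime).one_lt τ hτ hτ1
  rcases halt with h60 | hfix
  · exact contra_coprime h hf hmin hc hcA hLc hL (hcard ▸ h60)
  · obtain ⟨P⟩ : Nonempty (Sylow p f.ker) := inferInstance
    refine contra_central h hf hmin hc hcA (fun hs => hL ?_) P (central_of_hasFixed h hf hmin hfix P)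
    haveI := hs
    exact Group.isSolvable_of_isSolvable_injective (Subgroup.inclusion_injective hLc)

/-- Let G be a finite group and p a prime other than 3 such that the centralizer of every non-central element of p-power order is solvable. Then every alternating group of degree at least 5 involved in G (as a section) has degree at most p + 4, or at most p + 6 = 8 when p = 2. -/
theorem result {G : Type*} [Group G] [Finite G] (p : ℕ) [Fact p.Prime] (hp3 : p ≠ 3)
    (h : ∀ x : G, x ∉ Subgroup.center G → (∃ k : ℕ, orderOf x = p ^ k) → Group.IsSolvable (Subgroup.centralizer ({x} : Set G)))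
    (d : ℕ) (hd : 5 ≤ d) (hinv : Cfsg.Involves (alternatingGroup (Fin d)) G) :
    d ≤ p + 4 + (if p = 2 then 2 else 0) := by
  by_contra hlt
  have hsub : ∀ K : Subgroup G, AltMod.SolvCent K p := fun K x hx hxp => by
    haveI := h (x : G) (fun hc => hx (Subgroup.mem_center_iff.2 fun g => Subtype.ext
      (Subgroup.mem_center_iff.1 hc (g : G)))) (by rwa [Subgroup.orderOf_coe])
    let ι : Subgroup.centralizer ({x} : Set K) →* Subgroup.centralizer ({(x : G)} : Set G) :=
      { toFun := fun g => ⟨((g : K) : G), Subgroup.mem_centralizer_singleton_iff.2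
          (congrArg Subtype.val (Subgroup.mem_centralizer_singleton_iff.1 g.2))⟩
        map_one' := rfl
        map_mul' := fun _ _ => rfl }
    exact Group.isSolvable_of_isSolvable_injective (f := ι) fun a b hab => Subtype.ext (Subtype.ext
      (congrArg (fun z : Subgroup.centralizer ({(x : G)} : Set G) => (z : G)) hab))
  have hp := (Fact.out : p.Prime)
  have main : ∀ (a : ℕ) (τ : alternatingGroup (Fin a)), τ ^ p = 1 → τ ≠ 1 → a + 5 ≤ d →
      (¬ p ∣ 60 ∨ AltMod.HasFixed (alternatingGroup (Fin (a + 5))) p) → False := by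
    intro a τ hτ hτ1 had halt
    obtain ⟨K, f, hf, hmin⟩ := AltMod.exists_min_cover had hinv
    exact no_cover (hsub K) τ hτ hτ1 halt f hf hmin
  by_cases h2 : p = 2
  · subst h2
    rw [if_pos rfl] at hlt
    refine main 4 ⟨Equiv.swap 0 1 * Equiv.swap 2 3, by
      rw [Equiv.Perm.mem_alternatingGroup]; decide⟩ (Subtype.ext ?_) (fun he => ?_)
      (by omega) (Or.inr fun V _ _ _ _ hV => AltMod.P2.exists_fixed hV)
    · simp only [Subgroup.coe_pow, Subgroup.coe_one]
      decide
    · have := congrArg Subtype.val he
      revert this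
      decide
  · rw [if_neg h2] at hlt
    obtain ⟨q, rfl⟩ : ∃ q, p = q + 1 := ⟨p - 1, by have := hp.pos; omega⟩
    have hodd : Odd (q + 1) := hp.odd_of_ne_two h2
    refine main (q + 1) ⟨finRotate (q + 1), ?_⟩ ?_ ?_ (by omega) ?_
    · rw [Equiv.Perm.mem_alternatingGroup, sign_finRotate]
      obtain ⟨j, hj⟩ := hodd
      rw [show q + 1 - 1 = 2 * j by omega, pow_mul, Int.units_sq, one_pow]
    · refine Subtype.ext ?_
      have h1 := pow_orderOf_eq_one (finRotate (q + 1))
      have h2' : orderOf (finRotate (q + 1)) = q + 1 := by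
        have hq : 2 ≤ q + 1 := hp.two_le
        rw [(isCycle_finRotate_of_le hq).orderOf, support_finRotate_of_le hq, Finset.card_univ,
          Fintype.card_fin]
      rw [h2'] at h1
      simpa using h1
    · intro he
      have hq : 2 ≤ q + 1 := hp.two_le
      exact (isCycle_finRotate_of_le hq).ne_one (congrArg Subtype.val he)
    · by_cases h5 : q + 1 = 5
      · refine Or.inr ?_
        obtain rfl : q = 4 := by omega
        exact fun V _ _ _ _ hV => AltMod.P5.exists_fixed hV
      · refine Or.inl fun hd' => ?_
        have hmem : q + 1 ∈ Nat.divisors 60 := Nat.mem_divisors.2 ⟨hd', by norm_num⟩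
        have hle : q ≤ 59 := by
          have := Nat.le_of_dvd (by norm_num) hd'
          omega
        interval_cases q <;> first | omega | (norm_num at hp) | (norm_num at hd')

end Cfsg.Agent.S4100
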