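import Cfsg.Statements.S4104
import Cfsg.Agent.Lib.ElementOrders.PiHallNilpotent

set_option autoImplicit false
open Cfsg

namespace Cfsg.Agent.S4104

open CfsgLib.ElementOrders

theorem core {G : Type*} [Group G] [Finite G] (π : Finset ℕ) (hπ : ∀ q ∈ π, q.Prime) (p : ℕ) [hp : Fact p.Prime]
    (hpπ : p ∈ π) (hmin : ∀ q ∈ π, p ≤ q) (h : piPart π (Nat.card G) < p * piCount π G) :
    ∃ H : Subgroup G, Nat.card H = piPart π (Nat.card G) ∧ Group.IsNilpotent H ∧ Nat.card (commutator H) ≤ p := by
  classical
  obtain ⟨P, A, hAc, hAP, hA⟩ := exists_nilpotent_piHall π hπ p hpπ hmin G h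
  have hPA : (P : Subgroup G) ≤ Subgroup.centralizer (A : Set G) := Subgroup.le_centralizer_iff.1 hAP
  refine ⟨(P : Subgroup G) ⊔ A, ?_, ?_, ?_⟩
  · rw [card_sup_of_commute _ _ hPA, P.card_eq_multiplicity, hA, piPart_erase hpπ]
    rw [P.card_eq_multiplicity, hA]
    refine Nat.coprime_of_dvd fun t ht h1 h2 => ?_
    have e := (Nat.prime_dvd_prime_iff_eq ht hp.out).1 (ht.dvd_of_dvd_pow h1)
    subst e
    exact Finset.notMem_erase t π
      (mem_of_dvd_piPart (fun q hq => hπ q (Finset.mem_of_mem_erase hq)) ht h2)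
  all_goals
    have hc : ∀ (a : (P : Subgroup G)) (b : A), Commute ((P : Subgroup G).subtype a) (A.subtype b) := fun a b =>
      ((Subgroup.mem_centralizer_iff.1 (hPA a.2)) b b.2).symm
    let φ := MonoidHom.noncommCoprod (P : Subgroup G).subtype A.subtype hc
    have hr : φ.range = (P : Subgroup G) ⊔ A := by
      rw [MonoidHom.noncommCoprod_range, Subgroup.range_subtype, Subgroup.range_subtype]
  · have : Group.IsNilpotent (P : Subgroup G) := P.2.isNilpotent
    have : IsMulCommutative A := hAc
    have : Group.IsNilpotent A :=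
      @CommGroup.isNilpotent A { (inferInstance : Group A) with mul_comm := hAc.is_comm.comm }
    have : Group.IsNilpotent (↥(P : Subgroup G) × ↥A) := inferInstance
    rw [← hr]
    exact Group.nilpotent_of_surjective φ.rangeRestrict φ.rangeRestrict_surjective
  · have hP' : Nat.card (commutator (P : Subgroup G)) ≤ p := by
      by_contra hlt
      push Not at hlt
      obtain ⟨j, hj⟩ := IsPGroup.iff_card.1 (P.2.to_subgroup (commutator (P : Subgroup G)))
      have h2 : p ^ 2 ≤ Nat.card (commutator (P : Subgroup G)) := by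
        rw [hj] at hlt ⊢
        have : 1 < j := (Nat.pow_lt_pow_iff_right hp.out.one_lt).1 (by rwa [pow_one])
        exact Nat.pow_le_pow_right hp.out.pos this
      have hk := (Nat.mul_le_mul_left p (card_rClasses_le_conjClasses P)).trans (mul_card_conjClasses_le P.2 h2)
      have h1 := Nat.mul_le_mul_left p (piCount_le_erase (G := G) π hπ hpπ)
      rw [piPart_erase hpπ] at h
      rw [P.card_eq_multiplicity] at hk
      have h3 := Nat.mul_le_mul_right (piPart (π.erase p) (Nat.card G)) hk
      rw [← mul_assoc] at h1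
      omega
    rw [← hr]
    have hmap : (commutator (↥(P : Subgroup G) × ↥A)).map φ.rangeRestrict = commutator φ.range := by
      rw [commutator_def, Subgroup.map_commutator,
        Subgroup.map_top_of_surjective _ φ.rangeRestrict_surjective, ← commutator_def]
    rw [← hmap]
    refine (Nat.le_of_dvd Nat.card_pos (Subgroup.card_map_dvd _ _)).trans ?_
    have hA1 : commutator A = ⊥ := by
      rw [commutator_def, Subgroup.commutator_eq_bot_iff_le_centralizer]
      intro x _
      rw [Subgroup.mem_centralizer_iff]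
      exact fun y _ => hAc.is_comm.comm y x
    rw [commutator_def, ← Subgroup.top_prod_top, Subgroup.commutator_prod_prod, ← commutator_def, ← commutator_def, hA1,
      Nat.card_congr (Subgroup.prodEquiv _ _).toEquiv, Nat.card_prod, Subgroup.card_bot, mul_one]
    exact hP'

theorem piPart_insert_filter {n m p : ℕ} (hn : n ≠ 0) (π : Set ℕ) [DecidablePred (· ∈ π)] (hπ : ∀ q ∈ π, q.Prime)
    (hp : p ∈ π) (hm : m ∣ n) (hmπ : ∀ q : ℕ, q.Prime → q ∣ m → q ∈ π) (hm' : ∀ q ∈ π, ¬ q ∣ n / m) :
    m = piPart (insert p (n.primeFactors.filter (· ∈ π))) n := by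
  have hmem : ∀ q ∈ insert p (n.primeFactors.filter (· ∈ π)), q ∈ π := by
    intro q hq
    rcases Finset.mem_insert.1 hq with rfl | hq
    exacts [hp, (Finset.mem_filter.1 hq).2]
  exact eq_piPart (fun q hq => hπ q (hmem q hq)) hn (Nat.div_mul_cancel hm)
    (fun q _ hd h => hm' q (hmem q h) hd)
    (fun q hq hd => Finset.mem_insert_of_mem
      (Finset.mem_filter.2 ⟨Nat.mem_primeFactors.2 ⟨hq, hd.trans hm, hn⟩, hmπ q hq hd⟩))

/-- Let G be a finite group, π a set of primes with least member p, m the π-part of the order of G and k the number of conjugacy classes of G consisting of π-elements (elements whose order is divisible only by primes in π). If k > m/p, then G has a nilpotent Hall π-subgroup (a nilpotent subgroup of order m) whose derived subgroup has order at most p. -/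
theorem result {G : Type*} [Group G] [Finite G]
    (π : Set ℕ) (hπ : ∀ q ∈ π, q.Prime) (p : ℕ) (hp : p ∈ π) (hmin : ∀ q ∈ π, p ≤ q)
    (m : ℕ) (hm : m ∣ Nat.card G) (hmπ : ∀ q : ℕ, q.Prime → q ∣ m → q ∈ π)
    (hm' : ∀ q ∈ π, ¬ q ∣ Nat.card G / m)
    (k : ℕ) (hk : k = Nat.card {C : ConjClasses G // ∀ q : ℕ, q.Prime → (∃ g : G, ConjClasses.mk g = C ∧ q ∣ orderOf g) → q ∈ π})
    (hmany : m < p * k) :
    ∃ H : Subgroup G, Nat.card H = m ∧ Group.IsNilpotent H ∧ Nat.card (commutator H) ≤ p := by
  classical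
  have : Fact p.Prime := ⟨hπ p hp⟩
  set s := insert p ((Nat.card G).primeFactors.filter (· ∈ π)) with hs
  have hmem : ∀ q ∈ s, q ∈ π := by
    intro q hq
    rcases Finset.mem_insert.1 hq with rfl | hq
    exacts [hp, (Finset.mem_filter.1 hq).2]
  have hcount : k = CfsgLib.ElementOrders.piCount s G := by
    refine hk.trans (Nat.card_congr (Equiv.subtypeEquivRight fun C => ?_))
    constructor
    · intro h x hx q hq hd
      exact Finset.mem_insert_of_mem (Finset.mem_filter.2
        ⟨Nat.mem_primeFactors.2 ⟨hq, hd.trans (orderOf_dvd_natCard x), Nat.card_pos.ne'⟩,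
        h q hq ⟨x, ConjClasses.mem_carrier_iff_mk_eq.1 hx, hd⟩⟩)
    · rintro h q hq ⟨g, hg, hd⟩
      exact hmem q (h g (ConjClasses.mem_carrier_iff_mk_eq.2 hg) q hq hd)
  have hpart := piPart_insert_filter Nat.card_pos.ne' π hπ hp hm hmπ hm'
  rw [hpart, hcount] at hmany
  rw [hpart]
  exact core s (fun q hq => hπ q (hmem q hq)) p (Finset.mem_insert_self _ _) (fun q hq => hmin q (hmem q hq)) hmany

end Cfsg.Agent.S4104
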