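import Cfsg.Statements.S4105
import Cfsg.Agent.Lib.ElementOrders.PiHallAbelian

set_option autoImplicit false
open Cfsg

namespace Cfsg.Agent.S4105

open CfsgLib.ElementOrders in
theorem card_classes_eq {G : Type*} [Group G] [Finite G] (π : Set ℕ) [DecidablePred (· ∈ π)] :
    Nat.card {C : ConjClasses G // ∀ q : ℕ, q.Prime → (∃ g : G, ConjClasses.mk g = C ∧ q ∣ orderOf g) → q ∈ π} =
      piCount ((Nat.card G).primeFactors.filter (· ∈ π)) G := by
  refine Nat.card_congr (Equiv.subtypeEquivRight fun C => ?_)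
  constructor
  · intro h x hx q hq hd
    exact Finset.mem_filter.2 ⟨Nat.mem_primeFactors.2 ⟨hq, hd.trans (orderOf_dvd_natCard x), Nat.card_pos.ne'⟩,
      h q hq ⟨x, ConjClasses.mem_carrier_iff_mk_eq.1 hx, hd⟩⟩
  · rintro h q hq ⟨g, hg, hd⟩
    exact (Finset.mem_filter.1 (h g (ConjClasses.mem_carrier_iff_mk_eq.2 hg) q hq hd)).2

open CfsgLib.ElementOrders in
theorem piPart_filter {n m : ℕ} (hn : n ≠ 0) (π : Set ℕ) [DecidablePred (· ∈ π)] (hm : m ∣ n)
    (hmπ : ∀ q : ℕ, q.Prime → q ∣ m → q ∈ π) (hm' : ∀ q ∈ π, ¬ q ∣ n / m) :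
    m = piPart (n.primeFactors.filter (· ∈ π)) n :=
  eq_piPart (fun q hq => (Nat.mem_primeFactors.1 (Finset.mem_filter.1 hq).1).1) hn
    (Nat.div_mul_cancel hm) (fun q _ hd h => hm' q (Finset.mem_filter.1 h).2 hd)
    (fun q hq hd => Finset.mem_filter.2 ⟨Nat.mem_primeFactors.2 ⟨hq, hd.trans hm, hn⟩, hmπ q hq hd⟩)

/-- Let G be a finite group, π a set of primes with least member p, m the π-part of the order of G and k the number of conjugacy classes of G consisting of π-elements. If k > m·(p² + p − 1)/p³, then G has an abelian Hall π-subgroup (an abelian subgroup of order m). -/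
theorem result {G : Type*} [Group G] [Finite G]
    (π : Set ℕ) (hπ : ∀ q ∈ π, q.Prime) (p : ℕ) (hp : p ∈ π) (hmin : ∀ q ∈ π, p ≤ q)
    (m : ℕ) (hm : m ∣ Nat.card G) (hmπ : ∀ q : ℕ, q.Prime → q ∣ m → q ∈ π)
    (hm' : ∀ q ∈ π, ¬ q ∣ Nat.card G / m)
    (k : ℕ) (hk : k = Nat.card {C : ConjClasses G // ∀ q : ℕ, q.Prime → (∃ g : G, ConjClasses.mk g = C ∧ q ∣ orderOf g) → q ∈ π})
    (hmany : m * (p ^ 2 + p - 1) < p ^ 3 * k) :
    ∃ H : Subgroup G, Nat.card H = m ∧ IsMulCommutative H := by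
  classical
  rw [card_classes_eq π] at hk
  rw [piPart_filter Nat.card_pos.ne' π hm hmπ hm'] at hmany ⊢
  obtain ⟨H, h1, h2⟩ := CfsgLib.ElementOrders.exists_abelian_piHall _
    (fun q hq => (Nat.mem_primeFactors.1 (Finset.mem_filter.1 hq).1).1) p (hπ p hp).two_le
    (fun q hq => hmin q (Finset.mem_filter.1 hq).2) G (by rw [← hk, mul_comm]; exact hmany)
  exact ⟨H, h2, h1⟩

end Cfsg.Agent.S4105
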