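import Cfsg.Statements.S4106
import Cfsg.Agent.Lib.ElementOrders.Frobenius

set_option autoImplicit false
open Cfsg

namespace Cfsg.Agent.S4106

open CfsgLib.ElementOrders

theorem card_classes_le {G : Type*} [Group G] [Finite G] {a b : ℕ} (hab : a.Coprime b)
    (hG : a * b = Nat.card G) :
    Nat.card {C : ConjClasses G // ∀ g : G, ConjClasses.mk g = C → g ^ a = 1} ≤ a := by
  classical
  let _ : Fintype G := Fintype.ofFinite G
  have hpos : 0 < Nat.card G := Nat.card_pos
  have hb : 0 < b := Nat.pos_of_ne_zero fun h => hpos.ne' (by rw [← hG, h, mul_zero])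
  let T : Finset G := Finset.univ.filter fun x => x ^ a = 1
  let F : G → ℕ := fun x => Nat.card {y : Subgroup.centralizer ({x} : Set G) // y ^ b = 1}
  have htot : Nat.card G = ∑ x ∈ T, F x := by
    rw [Finset.sum_subtype (p := fun x => x ^ a = 1) T (fun x => by simp [T]) F, ← Nat.card_sigma]
    exact Nat.card_congr (splitEquiv hab.symm (pow_card_pow_split (by rw [mul_comm]; exact hG)))
  rw [← Finset.sum_fiberwise_of_maps_to (t := T.image ConjClasses.mk)
    (fun x hx => Finset.mem_image_of_mem _ hx) F] at htot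
  have hkey : (T.image ConjClasses.mk).card * b ≤ Nat.card G := by
    rw [htot, ← smul_eq_mul]
    refine Finset.card_nsmul_le_sum _ _ _ fun C hC => ?_
    obtain ⟨x, hx, rfl⟩ := Finset.mem_image.1 hC
    have hfib : (↑(T.filter fun z => ConjClasses.mk z = ConjClasses.mk x) : Set G) =
        (ConjClasses.mk x).carrier := by
      ext z
      simp only [Finset.coe_filter, Set.mem_setOf_eq, ConjClasses.mem_carrier_iff_mk_eq,
        and_iff_right_iff_imp]
      intro hz
      obtain ⟨g, rfl⟩ := isConj_iff.1 (ConjClasses.mk_eq_mk_iff_isConj.1 hz.symm)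
      simpa [T, conj_pow] using hx
    rw [Finset.sum_congr rfl (g := fun _ => F x) ?_, Finset.sum_const, ← Set.ncard_coe_finset,
      hfib, smul_eq_mul]
    · set c := Nat.card (Subgroup.centralizer ({x} : Set G)) with hc
      have hcpos : 0 < c := Nat.card_pos
      have hmul := ncard_conj_class_mul_card_centralizer x
      have hcd : c ∣ a * b := hG ▸ Subgroup.card_subgroup_dvd_card _
      have hsplit : Nat.gcd b c * Nat.gcd a c = c := by
        rw [mul_comm, Nat.gcd_comm a, Nat.gcd_comm b, ← Nat.Coprime.gcd_mul c hab,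
          Nat.gcd_eq_left hcd]
      have hcp : (Nat.gcd b c).Coprime (Nat.gcd a c) :=
        (hab.symm.coprime_dvd_left (Nat.gcd_dvd_left _ _)).coprime_dvd_right (Nat.gcd_dvd_left _ _)
      have hF : Nat.gcd b c ≤ F x := by
        have : Nonempty {y : Subgroup.centralizer ({x} : Set G) // y ^ b = 1} := ⟨⟨1, one_pow _⟩⟩
        refine Nat.le_of_dvd Nat.card_pos ?_
        show _ ∣ Nat.card {y : Subgroup.centralizer ({x} : Set G) // y ^ b = 1}
        rw [Nat.card_congr (Equiv.subtypeEquivRight fun y => pow_eq_one_iff_gcd y b)]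
        exact dvd_card_pow_eq_one hcp hsplit
      refine le_trans (Nat.le_of_mul_le_mul_right ?_ hcpos) (Nat.mul_le_mul_left _ hF)
      rw [mul_right_comm, hmul, ← hG, mul_comm a b, mul_assoc]
      refine Nat.mul_le_mul_left b ?_
      calc c = Nat.gcd b c * Nat.gcd a c := hsplit.symm
        _ ≤ Nat.gcd b c * a :=
          Nat.mul_le_mul_left _ (Nat.le_of_dvd
            (Nat.pos_of_ne_zero fun h => hpos.ne' (by rw [← hG, h, zero_mul])) (Nat.gcd_dvd_left _ _))
        _ = a * Nat.gcd b c := mul_comm _ _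
    · intro z hz
      obtain ⟨g, rfl⟩ := isConj_iff.1
        (ConjClasses.mk_eq_mk_iff_isConj.1 (Finset.mem_filter.1 hz).2.symm)
      exact card_centralizer_pow_eq_one_conj _ g x
  have hle : (T.image ConjClasses.mk).card ≤ a :=
    Nat.le_of_mul_le_mul_right (hG.symm ▸ hkey) hb
  refine le_trans (le_of_eq ?_) hle
  rw [← Nat.card_eq_finsetCard]
  refine Nat.card_congr (Equiv.subtypeEquivRight fun C => ?_)
  simp only [Finset.mem_image, T, Finset.mem_filter, Finset.mem_univ, true_and]
  refine ⟨fun h => ?_, ?_⟩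
  · obtain ⟨g, rfl⟩ := ConjClasses.exists_rep C
    exact ⟨g, h g rfl, rfl⟩
  · rintro ⟨x, hx, rfl⟩ g hg
    obtain ⟨k, rfl⟩ := isConj_iff.1 (ConjClasses.mk_eq_mk_iff_isConj.1 hg.symm)
    simp [conj_pow, hx]

/-- Let G be a finite group, π a set of primes and m the π-part of the order of G. Then the number of conjugacy classes of G consisting of π-elements (elements whose order is divisible only by primes in π) is at most m. -/
theorem result {G : Type*} [Group G] [Finite G]
    (π : Set ℕ) (hπ : ∀ q ∈ π, q.Prime)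
    (m : ℕ) (hm : m ∣ Nat.card G) (hmπ : ∀ q : ℕ, q.Prime → q ∣ m → q ∈ π)
    (hm' : ∀ q ∈ π, ¬ q ∣ Nat.card G / m) :
    Nat.card {C : ConjClasses G // ∀ q : ℕ, q.Prime → (∃ g : G, ConjClasses.mk g = C ∧ q ∣ orderOf g) → q ∈ π} ≤ m := by
  have hab := CfsgLib.ElementOrders.coprime_hall (π := π) (n := Nat.card G) hmπ hm'
  refine le_trans (le_of_eq (Nat.card_congr (Equiv.subtypeEquivRight fun C => ?_)))
    (card_classes_le hab (Nat.mul_div_cancel' hm))
  simp only [CfsgLib.ElementOrders.pow_eq_one_iff_piElement hm hmπ hm']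
  exact ⟨fun h g hg q hq hd => h q hq ⟨g, hg, hd⟩, fun h q hq ⟨g, hg, hd⟩ => h g hg q hq hd⟩

end Cfsg.Agent.S4106
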