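import Cfsg.Statements.S4107
import Cfsg.Agent.Lib.NormalPComplement.Basic
import Cfsg.Agent.Lib.Cores.Fitting
import Cfsg.Agent.Lib.TwoFusion.BenderMax
import Cfsg.Agent.Lib.CoprimeAction.Basic

set_option autoImplicit false
open Cfsg

namespace Cfsg.Agent.S4107

variable {G : Type*} [Group G] [Finite G]

theorem eq_one_of_commute {N : Subgroup G} (heq : ∀ x : G, x ∉ N → ∀ n ∈ N, orderOf (x * n) = orderOf x)
    {x n : G} (hx : x ∉ N) (hn : n ∈ N) (hc : Commute x n) (hcop : (orderOf x).Coprime (orderOf n)) : n = 1 := by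
  have h := heq x hx n hn
  rw [hc.orderOf_mul_eq_mul_orderOf_of_coprime hcop] at h
  exact orderOf_eq_one_iff.1 ((mul_eq_left₀ (orderOf_pos x).ne').1 h)

theorem isPGroup_of_prime_dvd {q : ℕ} [Fact q.Prime] (H : Subgroup G)
    (h : ∀ y ∈ H, ∀ r : ℕ, r.Prime → orderOf y = r → r = q) : IsPGroup q H := by
  have hall : ∀ {d : ℕ}, d.Prime → d ∣ Nat.card H → d = q := fun {d} hd hdd => by
    have : Fact d.Prime := ⟨hd⟩
    obtain ⟨y, hy⟩ := exists_prime_orderOf_dvd_card' d hdd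
    exact h y y.2 d hd (by rw [Subgroup.orderOf_coe, hy])
  exact IsPGroup.of_card (Nat.eq_prime_pow_of_unique_prime_dvd Nat.card_pos.ne' hall)

theorem key (N : Subgroup G) [N.Normal] (hN1 : N ≠ ⊥)
    (heq : ∀ x : G, x ∉ N → ∀ n ∈ N, orderOf (x * n) = orderOf x)
    (hF : ¬ Cfsg.fittingSubgroup G ≤ N) :
    ∃ q : ℕ, q.Prime ∧ IsPGroup q N ∧ IsPGroup q (Cfsg.fittingSubgroup G) := by
  obtain ⟨x, hx, hxN⟩ := Set.not_subset.1 hF
  rw [SetLike.mem_coe] at hx hxN
  obtain ⟨q, hq, hqd⟩ := Nat.exists_prime_and_dvd (n := orderOf (x : G ⧸ N))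
    (fun h => hxN ((QuotientGroup.eq_one_iff x).1 (orderOf_eq_one_iff.1 h)))
  have : Fact q.Prime := ⟨hq⟩
  obtain ⟨a, b, hab, ⟨k, hk⟩, hb⟩ := CfsgLib.NormalPComplement.exists_pParts (p := q) (isOfFinOrder_of_finite x)
  set z := x ^ a with hzdef
  have hz : z ∉ N := fun hzN => hq.coprime_iff_not_dvd.1 hb.symm (by
    refine hqd.trans (dvd_trans ?_ (orderOf_map_dvd (QuotientGroup.mk' N) (x ^ b)))
    conv_lhs => rw [← hab, QuotientGroup.mk_mul, (QuotientGroup.eq_one_iff _).2 hzN, one_mul]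
    rfl)
  have hzO : z ∈ Cfsg.pCore q G := CfsgLib.TwoFusion.mem_pCore_of_mem_fitting (pow_mem hx a) ⟨k, hk⟩
  have hNq : IsPGroup q N := by
    refine isPGroup_of_prime_dvd N fun y hy r hr hyr => ?_
    by_contra hrq
    set O := Cfsg.pCore q G with hO
    obtain ⟨n, hn⟩ := IsPGroup.iff_card.1 (CfsgLib.Cores.isPGroup_pCore q G)
    have hcop : (Nat.card (Subgroup.zpowers y)).Coprime (Nat.card ↥(O ⊓ N)) := by
      refine Nat.Coprime.coprime_dvd_right (Subgroup.card_dvd_of_le inf_le_left) ?_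
      rw [Nat.card_zpowers, hyr, hn]
      exact ((Nat.coprime_primes hr hq).2 hrq).pow_right n
    obtain ⟨c, hc, hcN⟩ := CfsgLib.CoprimeAction.exists_centralizer_mem_coset_of_le
      (A := Subgroup.zpowers y) (N := O ⊓ N) (K := O) (by rw [Subgroup.normalizer_eq_top]; exact le_top)
      inf_le_left hcop (Or.inl (CfsgLib.CoprimeAction.isSolvable_zpowers y)) hzO fun w hw => by
        have hwN : w ∈ N := Subgroup.zpowers_le.2 hy hw
        refine ⟨?_, ?_⟩
        · exact O.mul_mem (O.inv_mem hzO) ((inferInstance : O.Normal).conj_mem z hzO w)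
        · rw [show z⁻¹ * (w * z * w⁻¹) = (z⁻¹ * w * z⁻¹⁻¹) * w⁻¹ by group]
          exact N.mul_mem ((inferInstance : N.Normal).conj_mem w hwN z⁻¹) (N.inv_mem hwN)
    have hcy : Commute c y := (Subgroup.mem_centralizer_iff.1 hc.2 y (Subgroup.mem_zpowers y)).symm
    have hcnN : c ∉ N := fun h => hz (by
      have := N.mul_mem h (N.inv_mem hcN.2)
      simpa [mul_assoc] using this)
    obtain ⟨j, hj⟩ := IsPGroup.iff_orderOf.1 (CfsgLib.Cores.isPGroup_pCore q G) ⟨c, hc.1⟩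
    rw [Subgroup.orderOf_mk] at hj
    have := eq_one_of_commute heq hcnN hy hcy (by
      rw [hj, hyr]; exact ((Nat.coprime_primes hq hr).2 (Ne.symm hrq)).pow_left j)
    rw [this, orderOf_one] at hyr
    exact hr.one_lt.ne hyr
  refine ⟨q, hq, hNq, isPGroup_of_prime_dvd _ fun y hy r hr hyr => ?_⟩
  by_contra hrq
  have : Fact r.Prime := ⟨hr⟩
  have : Nontrivial N := (Subgroup.nontrivial_iff_ne_bot N).2 hN1
  obtain ⟨m, hm1, hm⟩ := hNq.nontrivial_iff_card.1 inferInstance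
  obtain ⟨n, hn⟩ := exists_prime_orderOf_dvd_card' q (hm ▸ dvd_pow_self q hm1.ne')
  have hn' : orderOf (n : G) = q := by rw [Subgroup.orderOf_coe, hn]
  have hNF : N ≤ Cfsg.fittingSubgroup G := CfsgLib.Cores.le_fittingSubgroup hNq.isNilpotent
  have hyN : y ∉ N := fun hyN => hrq (by
    obtain ⟨j, hj⟩ := IsPGroup.iff_orderOf.1 hNq ⟨y, hyN⟩
    rw [Subgroup.orderOf_mk, hyr] at hj
    exact (Nat.prime_dvd_prime_iff_eq hr hq).1 (hr.dvd_of_dvd_pow hj.dvd))
  have hF' := CfsgLib.Cores.isNilpotent_fittingSubgroup (G := G)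
  have hcop : (orderOf y).Coprime (orderOf (n : G)) := by
    rw [hyr, hn']; exact (Nat.coprime_primes hr hq).2 hrq
  have hc : Commute y (n : G) := congrArg Subtype.val
    (CfsgLib.BGAppendix.commute_of_coprime_orderOf (Cfsg.fittingSubgroup G) ⟨y, hy⟩
      ⟨_, hNF n.2⟩ (by rwa [Subgroup.orderOf_mk, Subgroup.orderOf_mk])).eq
  rw [eq_one_of_commute heq hyN n.2 hc hcop, orderOf_one] at hn'
  exact hq.one_lt.ne hn'

/-- Let G be a finite group and N a proper non-trivial normal subgroup such that for every x outside N all elements of the coset xN have the same order as x. Then N ≤ F(G) or F(G) ≤ N, where F(G) is the Fitting subgroup; and if N is properly contained in F(G) then F(G) has prime-power order. -/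
theorem result {G : Type*} [Group G] [Finite G] (N : Subgroup G) [N.Normal] (hN1 : N ≠ ⊥) (hN2 : N ≠ ⊤)
    (heq : ∀ x : G, x ∉ N → ∀ n ∈ N, orderOf (x * n) = orderOf x) :
    (N ≤ Cfsg.fittingSubgroup G ∨ Cfsg.fittingSubgroup G ≤ N) ∧
    (N < Cfsg.fittingSubgroup G → IsPrimePow (Nat.card (Cfsg.fittingSubgroup G))) := by
  refine ⟨?_, fun hlt => ?_⟩
  · by_cases hF : Cfsg.fittingSubgroup G ≤ N
    · exact Or.inr hF
    · obtain ⟨q, hq, hNq, -⟩ := key N hN1 heq hF
      have : Fact q.Prime := ⟨hq⟩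
      exact Or.inl (CfsgLib.Cores.le_fittingSubgroup hNq.isNilpotent)
  · obtain ⟨q, hq, -, hFq⟩ := key N hN1 heq hlt.not_ge
    have : Fact q.Prime := ⟨hq⟩
    have : Nontrivial (Cfsg.fittingSubgroup G) := (Subgroup.nontrivial_iff_ne_bot _).2 fun h => by
      rw [h] at hlt; exact not_lt_bot hlt
    obtain ⟨m, hm1, hm⟩ := hFq.nontrivial_iff_card.1 inferInstance
    exact ⟨q, m, Nat.prime_iff.1 hq, hm1, hm.symm⟩

end Cfsg.Agent.S4107
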