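import Cfsg.Statements.S4108

set_option autoImplicit false
open Cfsg

namespace Cfsg.Agent.S4108

theorem fpf {G : Type*} [Group G] [Finite G] (N H : Subgroup G)
    (heq : ∀ x : G, x ∉ N → ∀ n ∈ N, orderOf (x * n) = orderOf x)
    (hcop : (Nat.card H).Coprime (Nat.card N)) :
    ∀ h ∈ H, h ≠ 1 → ∀ n ∈ N, Commute h n → n = 1 := by
  intro h hh h1 n hn hc
  have hd : (orderOf h).Coprime (orderOf n) :=
    (hcop.coprime_dvd_left (Subgroup.orderOf_dvd_natCard H hh)).coprime_dvd_right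
      (Subgroup.orderOf_dvd_natCard N hn)
  have hN : h ∉ N := fun hN => h1 (orderOf_eq_one_iff.1 (Nat.eq_one_of_dvd_one
    (hcop.gcd_eq_one ▸ Nat.dvd_gcd (Subgroup.orderOf_dvd_natCard H hh) (Subgroup.orderOf_dvd_natCard N hN))))
  have h2 := heq h hN n hn
  rw [hc.orderOf_mul_eq_mul_orderOf_of_coprime hd] at h2
  exact orderOf_eq_one_iff.1 (mul_eq_left₀ (orderOf_pos h).ne' |>.1 h2)

theorem frobenius_of_fpf {K : Type*} [Group K] [Finite K] (N H : Subgroup K) [N.Normal]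
    (hsup : N ⊔ H = ⊤) (hdis : Disjoint N H) (hN : N ≠ ⊥) (hH : H ≠ ⊥)
    (hf : ∀ h ∈ H, h ≠ 1 → ∀ n ∈ N, Commute h n → n = 1) :
    Cfsg.IsFrobeniusComplement H ∧ Cfsg.frobeniusKernel H = (N : Set K) := by
  have hdec : ∀ g : K, ∃ n ∈ N, ∃ h ∈ H, n * h = g := fun g => by
    have : g ∈ N ⊔ H := hsup ▸ Subgroup.mem_top g
    exact Subgroup.mem_sup_of_normal_left.1 this
  have hconj : ∀ n ∈ N, ∀ a ∈ H, ∀ b ∈ H, n * b * n⁻¹ = a → a = b ∧ Commute b n := by
    intro n hn a ha b hb h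
    have hm : a * b⁻¹ ∈ N := by
      rw [← h, show n * b * n⁻¹ * b⁻¹ = n * (b * n⁻¹ * b⁻¹) by group]
      exact N.mul_mem hn (Subgroup.Normal.conj_mem inferInstance _ (N.inv_mem hn) b)
    obtain rfl : a = b := mul_inv_eq_one.1 (Subgroup.disjoint_def.1 hdis hm (H.mul_mem ha (H.inv_mem hb)))
    exact ⟨rfl, (mul_inv_eq_iff_eq_mul.1 h).symm⟩
  refine ⟨⟨hH, fun h => hN ?_, fun g hg => ?_⟩, Set.ext fun x => ?_⟩
  · simpa [h] using hdis
  · obtain ⟨n, hn, h, hh, rfl⟩ := hdec g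
    rw [eq_bot_iff]
    rintro a ⟨ha, ha'⟩
    obtain ⟨b, hb, rfl⟩ := ha'
    simp only [MulDistribMulAction.toMonoidEnd_apply, MulDistribMulAction.toMonoidHom_apply,
      MulAut.smul_def, MulAut.conj_apply] at ha ⊢
    obtain ⟨h1, h2⟩ := hconj n hn _ ha (h * b * h⁻¹) (mul_mem (mul_mem hh hb) (inv_mem hh)) (by group)
    rw [Subgroup.mem_bot, h1]
    by_contra hne
    exact hg (by rw [hf _ (mul_mem (mul_mem hh hb) (inv_mem hh)) hne n hn h2, one_mul]; exact hh)
  · simp only [Cfsg.frobeniusKernel, Set.mem_setOf_eq, SetLike.mem_coe]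
    constructor
    · rintro (rfl | hx)
      · exact N.one_mem
      · by_contra hxN
        obtain ⟨n, hn, h, hh, rfl⟩ := hdec x
        have h1 : h ≠ 1 := fun h1 => hxN (by rw [h1, mul_one]; exact hn)
        let φ : N → N := fun m => ⟨m.1 * (h * (m.1)⁻¹ * h⁻¹),
          N.mul_mem m.2 (Subgroup.Normal.conj_mem inferInstance _ (N.inv_mem m.2) h)⟩
        have hφ : Function.Injective φ := fun m m' e => by
          have e' : m.1 * (h * (m.1)⁻¹ * h⁻¹) = m'.1 * (h * (m'.1)⁻¹ * h⁻¹) := congrArg Subtype.val e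
          have hc : Commute h ((m.1)⁻¹ * m'.1) := by
            show h * ((m.1)⁻¹ * m'.1) = (m.1)⁻¹ * m'.1 * h
            calc h * ((m.1)⁻¹ * m'.1) = (m.1)⁻¹ * (m.1 * (h * (m.1)⁻¹ * h⁻¹)) * h * m'.1 := by group
              _ = (m.1)⁻¹ * m'.1 * h := by rw [e']; group
          exact Subtype.ext (inv_mul_eq_one.1 (hf h hh h1 _ (N.mul_mem (N.inv_mem m.2) m'.2) hc))
        obtain ⟨m, hm⟩ := (Finite.injective_iff_surjective.1 hφ) ⟨n, hn⟩
        refine hx m.1 ⟨h, hh, ?_⟩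
        show m.1 * h * (m.1)⁻¹ = n * h
        rw [← show m.1 * (h * (m.1)⁻¹ * h⁻¹) = n from congrArg Subtype.val hm]; group
    · intro hx
      by_cases h1 : x = 1
      · exact Or.inl h1
      · refine Or.inr fun g hg => h1 ?_
        obtain ⟨b, hb, rfl⟩ := hg
        simp only [MulDistribMulAction.toMonoidEnd_apply, MulDistribMulAction.toMonoidHom_apply,
          MulAut.smul_def, MulAut.conj_apply] at hx ⊢
        have hbN : b ∈ N := by
          have := Subgroup.Normal.conj_mem (H := N) inferInstance _ hx g⁻¹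
          simpa [mul_assoc] using this
        rw [Subgroup.disjoint_def.1 hdis hbN hb]; group

/-- Let G be a finite group, p a prime and N a proper non-trivial normal p-subgroup such that for every x outside N all elements of the coset xN have the same order as x. Then every non-trivial subgroup H of G of order prime to p acts fixed-point-freely on N: NH is a Frobenius group with complement H and kernel N. -/
theorem result {G : Type*} [Group G] [Finite G] (N : Subgroup G) [N.Normal] (hN1 : N ≠ ⊥) (hN2 : N ≠ ⊤)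
    (heq : ∀ x : G, x ∉ N → ∀ n ∈ N, orderOf (x * n) = orderOf x)
    (p : ℕ) [Fact p.Prime] (hNp : IsPGroup p N) :
    ∀ H : Subgroup G, H ≠ ⊥ → (Nat.card H).Coprime p →
      Cfsg.IsFrobeniusComplement (H.subgroupOf (N ⊔ H)) ∧ Cfsg.frobeniusKernel (H.subgroupOf (N ⊔ H)) = (N.subgroupOf (N ⊔ H) : Set ↥(N ⊔ H)) := by
  intro H hH hcop
  obtain ⟨a, ha⟩ := hNp.exists_card_eq
  have hc : (Nat.card H).Coprime (Nat.card N) := ha ▸ hcop.pow_right a
  have hdis : Disjoint N H :=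
    (disjoint_iff.2 (Subgroup.inf_eq_bot_of_coprime hc)).symm
  have hf := fpf N H heq hc
  refine frobenius_of_fpf (N.subgroupOf (N ⊔ H)) (H.subgroupOf (N ⊔ H)) ?_ ?_ ?_ ?_ ?_
  · rw [← Subgroup.subgroupOf_sup le_sup_left le_sup_right, Subgroup.subgroupOf_self]
  · rw [disjoint_iff, eq_bot_iff]
    rintro ⟨x, hx⟩ ⟨h1, h2⟩
    exact Subtype.ext (Subgroup.disjoint_def.1 hdis h1 h2)
  · rw [Ne, Subgroup.subgroupOf_eq_bot, disjoint_iff, inf_of_le_left le_sup_left]; exact hN1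
  · rw [Ne, Subgroup.subgroupOf_eq_bot, disjoint_iff, inf_of_le_left le_sup_right]; exact hH
  · intro h hh h1 n hn hc'
    exact Subtype.ext (hf h hh (fun e => h1 (Subtype.ext e)) n hn (congrArg Subtype.val hc'.eq))

end Cfsg.Agent.S4108
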