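import Cfsg.Statements.S4112

set_option autoImplicit false
open Cfsg

namespace Cfsg.Agent.S4112

theorem prod_ordProj_dvd {n : ℕ} (s : Finset ℕ) (hn : n ≠ 0) (hs : ∀ q ∈ s, q.Prime) :
    (∏ q ∈ s, ordProj[q] n) ∣ n := by
  induction s using Finset.induction_on with
  | empty => simp
  | insert a t hat ih =>
    rw [Finset.prod_insert hat]
    refine Nat.Coprime.mul_dvd_of_dvd_of_dvd (Nat.Coprime.prod_right fun b hb => ?_) (Nat.ordProj_dvd n a)
      (ih fun q hq => hs q (Finset.mem_insert_of_mem hq))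
    exact Nat.coprime_pow_primes _ _ (hs a (Finset.mem_insert_self a t))
      (hs b (Finset.mem_insert_of_mem hb)) fun h => hat (h ▸ hb)

variable {G : Type*} [Group G] [Finite G]

theorem inf_center_ne_bot {Q : Type*} [Group Q] [Finite Q] {p : ℕ} [Fact p.Prime] (hQ : IsPGroup p Q)
    (K : Subgroup Q) [K.Normal] (hK : K ≠ ⊥) : ∃ z : Q, z ∈ K ⊓ Subgroup.center Q ∧ z ≠ 1 := by
  obtain ⟨n, hn⟩ := (hQ.to_subgroup K).exists_card_eq
  have hn0 : n ≠ 0 := fun h => hK (K.eq_bot_of_card_eq (by rw [hn, h, pow_zero]))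
  have hQ' : IsPGroup p (ConjAct Q) := hQ.of_equiv ConjAct.toConjAct
  obtain ⟨z, hz, hzne⟩ := hQ'.exists_fixed_point_of_prime_dvd_card_of_fixed_point K
    (hn ▸ dvd_pow_self p hn0) (a := 1) (fun g => smul_one g)
  refine ⟨z.1, ⟨z.2, Subgroup.mem_center_iff.2 fun g => ?_⟩, fun e => hzne (Subtype.ext e).symm⟩
  have e := congrArg Subtype.val (hz (ConjAct.toConjAct g))
  rw [ConjAct.Subgroup.val_conj_smul, ConjAct.toConjAct_smul] at e
  exact mul_inv_eq_iff_eq_mul.1 e

theorem supplement_inf_eq_bot (N M : Subgroup G) [N.Normal] (hMN : M ≤ N)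
    (hcop : N.index.Coprime (Nat.card M)) : ∃ H : Subgroup G, H ⊔ N = ⊤ ∧ H ⊓ M = ⊥ := by
  obtain ⟨H, -, hH⟩ := Finite.exists_le_minimal (p := fun H : Subgroup G => H ⊔ N = ⊤) (a := ⊤) (top_sup_eq N)
  refine ⟨H, hH.prop, ?_⟩
  by_contra hne
  obtain ⟨p, hp, hpD⟩ := Nat.exists_prime_and_dvd
    (n := Nat.card ↥(H ⊓ M)) (fun h => hne ((H ⊓ M).eq_bot_of_card_eq h))
  have : Fact p.Prime := ⟨hp⟩
  have hpM : p ∣ Nat.card M := hpD.trans (Subgroup.card_dvd_of_le inf_le_right)
  have hpi : ¬ p ∣ N.index := fun h =>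
    hp.one_lt.ne' (Nat.eq_one_of_dvd_one (hcop.gcd_eq_one ▸ Nat.dvd_gcd h hpM))
  let E : Subgroup H := N.subgroupOf H
  have hEi : E.index = N.index := by
    show N.relIndex H = N.index
    rw [← Subgroup.relIndex_top_right, ← hH.prop, sup_comm, Subgroup.relIndex_sup_left]
  have hpE : p ∣ Nat.card E := by
    refine hpD.trans ?_
    rw [Nat.card_congr (Subgroup.subgroupOfEquivOfLe (inf_le_left : H ⊓ M ≤ H)).toEquiv.symm]
    exact Subgroup.card_dvd_of_le (fun x hx => hMN hx.2)
  let P : Sylow p H := default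
  have hPE : (P : Subgroup H) ≤ E := by
    intro x hx
    obtain ⟨k, hk⟩ := IsPGroup.iff_orderOf.1 P.isPGroup' ⟨x, hx⟩
    rw [Subgroup.orderOf_mk] at hk
    rw [← QuotientGroup.eq_one_iff, ← orderOf_eq_one_iff]
    refine Nat.eq_one_of_dvd_one ?_
    rw [← (((hp.coprime_iff_not_dvd.2 (hEi ▸ hpi)).pow_left k).gcd_eq_one)]
    exact Nat.dvd_gcd (hk ▸ orderOf_map_dvd (QuotientGroup.mk' E) x)
      (Subgroup.index_eq_card E ▸ orderOf_dvd_natCard _)
  -- every proper subgroup of `H` fails to supplement `N`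
  have hmin : ∀ K : Subgroup H, E ⊔ K = ⊤ → K = ⊤ := by
    intro K hK
    have h1 : K.map H.subtype ⊔ N = ⊤ := by
      rw [eq_top_iff, ← hH.prop, sup_le_iff]
      refine ⟨fun x hx => ?_, le_sup_right⟩
      have hx' : (⟨x, hx⟩ : H) ∈ E ⊔ K := hK ▸ Subgroup.mem_top _
      have := Subgroup.mem_map_of_mem H.subtype hx'
      rw [Subgroup.map_sup] at this
      refine (sup_le ?_ le_sup_left : E.map H.subtype ⊔ K.map H.subtype ≤ _) this
      exact le_sup_of_le_right (fun y ⟨z, hz, hzy⟩ => hzy ▸ hz)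
    refine eq_top_iff.2 fun x _ => ?_
    obtain ⟨y, hy, hyx⟩ := hH.le_of_le h1 (Subgroup.map_subtype_le K) x.2
    exact Subtype.ext hyx ▸ hy
  have hN : (P : Subgroup H).Normal :=
    Subgroup.normalizer_eq_top_iff.1 (hmin _ (by rw [sup_comm]; exact Sylow.normalizer_sup_eq_top' P hPE))
  obtain ⟨C, hC⟩ := Subgroup.exists_right_complement'_of_coprime P.card_coprime_index
  have hCtop : C = ⊤ := hmin C (eq_top_iff.2 (hC.sup_eq_top.ge.trans (sup_le_sup_right hPE C)))
  have hPbot : (P : Subgroup H) = ⊥ := by simpa [hCtop] using hC.disjoint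
  exact P.ne_bot_of_dvd_card (hpE.trans (Subgroup.card_subgroup_dvd_card E)) hPbot

/-- Let G be a finite group and M ≤ N non-trivial proper normal subgroups such that for every g outside N the conjugacy class of g is a union of cosets of M (equivalently gm is conjugate to g for every m ∈ M). Then (1) and (2) below are equivalent, and they imply (3): (1) every g outside N acts fixed-point-freely on M, that is C_G(x) ≤ N for every x ∈ M, x ≠ 1; (2) the index of N in G is coprime to the order of M; (3) there is a subgroup H of G with HN = G and H ∩ M = 1. -/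
theorem result {G : Type*} [Group G] [Finite G] (N M : Subgroup G) [N.Normal] [M.Normal] (hMN : M ≤ N) (hM1 : M ≠ ⊥) (hN2 : N ≠ ⊤)
    (hcam : ∀ g : G, g ∉ N → ∀ m ∈ M, ∃ x : G, x * g * x⁻¹ = g * m) :
    ((∀ x ∈ M, x ≠ 1 → Subgroup.centralizer ({x} : Set G) ≤ N) ↔ N.index.Coprime (Nat.card M)) ∧
    ((∀ x ∈ M, x ≠ 1 → Subgroup.centralizer ({x} : Set G) ≤ N) → ∃ H : Subgroup G, H ⊔ N = ⊤ ∧ H ⊓ M = ⊥) := by
  have key : (∀ x ∈ M, x ≠ 1 → Subgroup.centralizer ({x} : Set G) ≤ N) ↔ N.index.Coprime (Nat.card M) := by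
    constructor
    · intro h
      refine Nat.coprime_of_dvd fun p hp h1 h2 => ?_
      have : Fact p.Prime := ⟨hp⟩
      let P : Sylow p G := default
      let MP := M.subgroupOf (P : Subgroup G)
      have hMPn : MP.Normal := inferInstanceAs (M.subgroupOf (P : Subgroup G)).Normal
      have hMP : MP ≠ ⊥ := by
        intro hbot
        obtain ⟨m, hm⟩ := exists_prime_orderOf_dvd_card' p h2
        have hpm : IsPGroup p (Subgroup.zpowers (m : G)) :=
          IsPGroup.of_card (n := 1) (by rw [Nat.card_zpowers, Subgroup.orderOf_coe, hm, pow_one])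
        obtain ⟨Q, hQ⟩ := hpm.exists_le_sylow
        obtain ⟨c, hc⟩ := MulAction.exists_smul_eq G Q P
        have hmem : c * (m : G) * c⁻¹ ∈ (P : Subgroup G) := by
          rw [← hc, Sylow.coe_subgroup_smul]
          exact ⟨m, hQ (Subgroup.mem_zpowers _), rfl⟩
        have hmem' : (⟨_, hmem⟩ : (P : Subgroup G)) ∈ MP :=
          (inferInstance : M.Normal).conj_mem _ m.2 c
        rw [hbot, Subgroup.mem_bot] at hmem'
        have h3 : c * (m : G) * c⁻¹ = 1 := congrArg Subtype.val hmem'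
        have h4 : (m : G) = 1 := by simpa using (conj_eq_one_iff (a := c) (b := (m : G))).1 h3
        rw [show m = 1 from Subtype.ext h4, orderOf_one] at hm
        exact hp.one_lt.ne hm
      have : Nontrivial MP := (Subgroup.nontrivial_iff_ne_bot MP).2 hMP
      obtain ⟨z, hz1, hz2⟩ := inf_center_ne_bot P.isPGroup' MP hMP
      have hP : (P : Subgroup G) ≤ N := fun g hg => h z hz1.1 (fun e => hz2 (Subtype.ext e))
        (Subgroup.mem_centralizer_singleton_iff.2
          (congrArg Subtype.val (Subgroup.mem_center_iff.1 hz1.2 ⟨g, hg⟩)))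
      exact P.not_dvd_index (h1.trans (Subgroup.index_dvd_of_le hP))
    · intro hcop x hx hx1 g hg
      by_contra hgN
      rw [Subgroup.mem_centralizer_singleton_iff] at hg
      -- a power of `g` outside `N` of order prime to the order of `x`
      have hm0 : orderOf x ≠ 0 := (orderOf_pos x).ne'
      obtain ⟨k, c, hc, hk⟩ : ∃ k c : ℕ, c.Coprime (orderOf x) ∧ g ^ (k * c) = 1 ∧
          k.Coprime N.index := by
        refine ⟨∏ q ∈ (orderOf x).primeFactors, ordProj[q] (orderOf g),
          orderOf g / ∏ q ∈ (orderOf x).primeFactors, ordProj[q] (orderOf g), ?_, ?_, ?_⟩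
        · refine Nat.coprime_of_dvd fun q hq h1 h2 => ?_
          have hqS : q ∈ (orderOf x).primeFactors := Nat.mem_primeFactors.2 ⟨hq, h2, hm0⟩
          have hqd := Finset.dvd_prod_of_mem (fun q => ordProj[q] (orderOf g)) hqS
          have hdd := Nat.mul_dvd_mul hqd h1
          rw [Nat.mul_div_cancel' (prod_ordProj_dvd _ (orderOf_pos g).ne' fun q hq => Nat.prime_of_mem_primeFactors hq)] at hdd
          exact Nat.pow_succ_factorization_not_dvd (orderOf_pos g).ne' hq hdd
        · rw [Nat.mul_div_cancel' (prod_ordProj_dvd _ (orderOf_pos g).ne' fun q hq => Nat.prime_of_mem_primeFactors hq)]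
          exact pow_orderOf_eq_one g
        · refine Nat.Coprime.prod_left fun q hq => Nat.Coprime.pow_left _ ?_
          exact (hcop.coprime_dvd_right ((Nat.dvd_of_mem_primeFactors hq).trans
            (Subgroup.orderOf_dvd_natCard M hx))).symm
      have hy : g ^ k ∉ N := by
        intro hy
        apply hgN
        rw [← QuotientGroup.eq_one_iff, ← orderOf_eq_one_iff]
        refine Nat.eq_one_of_dvd_one (hk.2.gcd_eq_one ▸ Nat.dvd_gcd ?_ (Subgroup.index_eq_card N ▸ orderOf_dvd_natCard _))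
        exact orderOf_dvd_of_pow_eq_one (by rw [← QuotientGroup.mk_pow]; exact (QuotientGroup.eq_one_iff _).2 hy)
      have hd : orderOf (g ^ k) ∣ c := orderOf_dvd_of_pow_eq_one (by rw [← pow_mul]; exact hk.1)
      obtain ⟨z, hz⟩ := hcam _ hy x hx
      have ho : orderOf (g ^ k * x) = orderOf (g ^ k) :=
        hz ▸ orderOf_injective (MulAut.conj z).toMonoidHom (MulAut.conj z).injective _
      rw [(Commute.pow_left hg k).orderOf_mul_eq_mul_orderOf_of_coprime (hc.coprime_dvd_left hd)] at ho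
      exact hx1 (orderOf_eq_one_iff.1 ((mul_eq_left₀ (orderOf_pos (g ^ k)).ne').1 ho))
  exact ⟨key, fun h => supplement_inf_eq_bot N M hMN (key.1 h)⟩

end Cfsg.Agent.S4112
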