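import Cfsg.Statements.S4116

set_option autoImplicit false
open Cfsg

namespace Cfsg.Agent.S4116

variable {G : Type*} [Group G] [Finite G]

theorem index_map_conj (H : Subgroup G) (c : G) :
    (H.map (MulAut.conj c).toMonoidHom).index = H.index ∧
      Nat.card ↥(H.map (MulAut.conj c).toMonoidHom) = Nat.card H := by
  have h := (Nat.card_congr (H.equivMapOfInjective (MulAut.conj c).toMonoidHom (MulAut.conj c).injective).toEquiv).symm
  refine ⟨?_, h⟩
  refine Nat.eq_of_mul_eq_mul_right Nat.card_pos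
    ((H.map (MulAut.conj c).toMonoidHom).index_mul_card.trans ?_)
  exact ((congrArg (H.index * ·) h).trans H.index_mul_card).symm

theorem map_conj_eq_of_mem (H : Subgroup G) (hTI : Cfsg.IsTISubset (H : Set G))
    {a b z : G} (hza : z ∈ H.map (MulAut.conj a).toMonoidHom) (hzb : z ∈ H.map (MulAut.conj b).toMonoidHom)
    (hz : z ≠ 1) : H.map (MulAut.conj a).toMonoidHom = H.map (MulAut.conj b).toMonoidHom := by
  obtain ⟨u, hu, rfl⟩ := hza
  obtain ⟨v, hv, hvu⟩ := hzb
  have hconj : ∀ c : G, c ∈ Subgroup.normalizer (H : Set G) → H.map (MulAut.conj c).toMonoidHom = H := by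
    intro c hc
    ext x
    constructor
    · rintro ⟨w, hw, rfl⟩; exact (Subgroup.mem_normalizer_iff.1 hc w).1 hw
    · intro hx
      exact ⟨c⁻¹ * x * c, (Subgroup.mem_normalizer_iff.1 hc _).2 (by simpa [mul_assoc] using hx),
        show c * (c⁻¹ * x * c) * c⁻¹ = x by group⟩
  have h1 : b⁻¹ * a ∈ Subgroup.normalizer (H : Set G) := by
    by_contra h
    have hv' : b * v * b⁻¹ = a * u * a⁻¹ := hvu
    have hu1 := hTI _ h u hu (by
      have : b⁻¹ * a * u * (b⁻¹ * a)⁻¹ = v := by
        calc b⁻¹ * a * u * (b⁻¹ * a)⁻¹ = b⁻¹ * (a * u * a⁻¹) * b := by group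
          _ = v := by rw [← hv']; group
      rw [this]; exact hv)
    exact hz (by subst hu1; simp)
  conv_rhs => rw [← hconj _ h1]
  rw [Subgroup.map_map]
  congr 1
  ext x
  simp [mul_assoc]

/-- A normalising element of order prime to the index lies in the subgroup. -/
theorem mem_of_mem_normalizer (L : Subgroup G) (x : G) (hx : x ∈ Subgroup.normalizer (L : Set G))
    (hcop : (orderOf x).Coprime L.index) : x ∈ L := by
  have : (L.subgroupOf (Subgroup.normalizer (L : Set G))).Normal := Subgroup.normal_in_normalizer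
  let q : Subgroup.normalizer (L : Set G) ⧸ L.subgroupOf (Subgroup.normalizer (L : Set G)) :=
    QuotientGroup.mk ⟨x, hx⟩
  have h1 : orderOf q ∣ orderOf x := by
    rw [← Subgroup.orderOf_mk x hx]; exact orderOf_map_dvd (QuotientGroup.mk' _) _
  have h2 : orderOf q ∣ L.index :=
    (Subgroup.index_eq_card (L.subgroupOf (Subgroup.normalizer (L : Set G))) ▸ orderOf_dvd_natCard q).trans
      (Subgroup.relIndex_dvd_index_of_le Subgroup.le_normalizer)
  have h3 : q = 1 := orderOf_eq_one_iff.1 (Nat.eq_one_of_dvd_one (hcop.gcd_eq_one ▸ Nat.dvd_gcd h1 h2))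
  exact Subgroup.mem_subgroupOf.1 ((QuotientGroup.eq_one_iff (⟨x, hx⟩ : Subgroup.normalizer (L : Set G))).1 h3)

/-- Every element whose order involves only primes of the Hall TI-subgroup lies in a conjugate of it. -/
theorem piElement_mem_conj (H : Subgroup G) (hHall : (Nat.card H).Coprime H.index)
    (hTI : Cfsg.IsTISubset (H : Set G)) (x : G) (hx : x ≠ 1)
    (hpi : ∀ q : ℕ, q.Prime → q ∣ orderOf x → q ∣ Nat.card H) :
    ∃ c : G, x ∈ H.map (MulAut.conj c).toMonoidHom := by
  obtain ⟨p, hp, hpx⟩ := Nat.exists_prime_and_dvd (n := orderOf x) (fun h => hx (orderOf_eq_one_iff.1 h))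
  have : Fact p.Prime := ⟨hp⟩
  set z := x ^ (orderOf x / p) with hz
  have hzo : orderOf z = p := orderOf_pow_orderOf_div (orderOf_pos x).ne' hpx
  have hpH : p ∣ Nat.card H := hpi p hp hpx
  let P : Sylow p H := default
  let Q := (P : Subgroup H).map H.subtype
  have hQ : Nat.card Q = p ^ (Nat.card G).factorization p := by
    rw [Subgroup.card_map_of_injective H.subtype_injective, P.card_eq_multiplicity, ← H.card_mul_index,
      Nat.factorization_mul Nat.card_pos.ne' Subgroup.index_ne_zero_of_finite, Finsupp.add_apply,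
      Nat.factorization_eq_zero_of_not_dvd fun h : p ∣ H.index =>
        hp.one_lt.ne' (Nat.eq_one_of_dvd_one (hHall.gcd_eq_one ▸ Nat.dvd_gcd hpH h)), add_zero]
  obtain ⟨R, hR⟩ := (IsPGroup.of_card (n := 1) (by rw [Nat.card_zpowers, hzo, pow_one]) :
    IsPGroup p (Subgroup.zpowers z)).exists_le_sylow
  obtain ⟨c, hc⟩ := MulAction.exists_smul_eq G (Sylow.ofCard Q hQ) R
  have hzc : z ∈ H.map (MulAut.conj c).toMonoidHom := by
    have := hR (Subgroup.mem_zpowers z)
    rw [← hc] at this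
    obtain ⟨y, hy, hyz⟩ := this
    obtain ⟨w, -, rfl⟩ := hy
    exact ⟨w, w.2, hyz⟩
  refine ⟨c, ?_⟩
  set K := H.map (MulAut.conj c).toMonoidHom with hK
  have hcz : x * z * x⁻¹ = z := by
    rw [hz, (Commute.self_pow x _).eq]; group
  have hz1 : z ≠ 1 := fun h => by rw [h, orderOf_one] at hzo; exact hp.one_lt.ne hzo
  have hxN : x ∈ Subgroup.normalizer (K : Set G) := by
    have hcc : H.map (MulAut.conj (x * c)).toMonoidHom = K := by
      refine map_conj_eq_of_mem H hTI (z := z) ?_ hzc hz1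
      obtain ⟨u, hu, huz⟩ := hzc
      refine ⟨u, hu, ?_⟩
      show x * c * u * (x * c)⁻¹ = z
      calc x * c * u * (x * c)⁻¹ = x * (c * u * c⁻¹) * x⁻¹ := by group
        _ = z := by rw [show c * u * c⁻¹ = z from huz, hcz]
    have hle : ∀ w ∈ K, x * w * x⁻¹ ∈ K := by
      rintro _ ⟨u, hu, rfl⟩
      rw [← hcc]
      exact ⟨u, hu, show x * c * u * (x * c)⁻¹ = x * (c * u * c⁻¹) * x⁻¹ by group⟩
    let f : K → K := fun w => ⟨x * w.1 * x⁻¹, hle w w.2⟩
    have hfi : Function.Injective f := fun w w' h =>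
      Subtype.ext (mul_left_cancel (mul_right_cancel (congrArg Subtype.val h)))
    refine Subgroup.mem_normalizer_iff.2 fun w => ⟨hle w, fun h => ?_⟩
    obtain ⟨w', hw'⟩ := Finite.injective_iff_surjective.1 hfi ⟨_, h⟩
    exact mul_left_cancel (mul_right_cancel (congrArg Subtype.val hw')) ▸ w'.2
  refine mem_of_mem_normalizer K x hxN ?_
  rw [(index_map_conj H c).1]
  exact Nat.coprime_of_dvd fun q hq h1 h3 =>
    hq.one_lt.ne' (Nat.eq_one_of_dvd_one (hHall.gcd_eq_one ▸ Nat.dvd_gcd (hpi q hq h1) h3))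

/-- Non-identity elements of `K` in the `K`-conjugates of `D`. -/
theorem card_conj_le {K : Type*} [Group K] [Finite K] (D : Subgroup K)
    (hTI : ∀ k : K, k ∉ D → ∀ d ∈ D, k * d * k⁻¹ ∈ D → d = 1) :
    ∃ f : (K ⧸ D) × {d : D // d ≠ 1} → {k : K // k ≠ 1}, Function.Injective f ∧
      ∀ s, ((f s : {k : K // k ≠ 1}) : K) = s.1.out * ((s.2.1 : D) : K) * (s.1.out)⁻¹ := by
  refine ⟨fun s => ⟨s.1.out * ((s.2.1 : D) : K) * (s.1.out)⁻¹, fun h => s.2.2 (Subtype.ext
    (conj_eq_one_iff.1 h))⟩, fun ⟨q, d, hd⟩ ⟨q', d', hd'⟩ h => ?_, fun _ => rfl⟩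
  have h1 : q.out * (d : K) * (q.out)⁻¹ = q'.out * (d' : K) * (q'.out)⁻¹ := congrArg Subtype.val h
  have hq : q = q' := by
    rw [← QuotientGroup.out_eq' q, ← QuotientGroup.out_eq' q', QuotientGroup.eq]
    by_contra hc
    refine hd' (Subtype.ext (hTI _ hc d' d'.2 ?_))
    have : (q.out)⁻¹ * q'.out * (d' : K) * ((q.out)⁻¹ * q'.out)⁻¹ = d := by
      calc (q.out)⁻¹ * q'.out * (d' : K) * ((q.out)⁻¹ * q'.out)⁻¹
          = (q.out)⁻¹ * (q'.out * (d' : K) * (q'.out)⁻¹) * q.out := by group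
        _ = d := by rw [← h1]; group
    rw [this]; exact d.2
  subst hq
  obtain rfl := Subtype.ext (mul_left_cancel (mul_right_cancel h1))
  rfl

/-- Let G be a finite group with a subgroup H whose order is coprime to its index (a Hall subgroup) and which meets each of its conjugates by elements outside N_G(H) trivially. Then every subgroup of G whose order is divisible only by primes dividing the order of H lies in a conjugate of H. -/
theorem result {G : Type*} [Group G] [Finite G] (H : Subgroup G)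
    (hHall : (Nat.card H).Coprime H.index) (hTI : Cfsg.IsTISubset (H : Set G))
    (K : Subgroup G) (hK : ∀ q : ℕ, q.Prime → q ∣ Nat.card K → q ∣ Nat.card H) :
    ∃ g : G, K ≤ H.map (MulAut.conj g).toMonoidHom := by
  classical
  rcases eq_or_ne K ⊥ with rfl | hKne
  · exact ⟨1, bot_le⟩
  have hpi : ∀ x : K, ∀ q : ℕ, q.Prime → q ∣ orderOf (x : G) → q ∣ Nat.card H := fun x q hq h =>
    hK q hq (h.trans (by rw [Subgroup.orderOf_coe]; exact orderOf_dvd_natCard x))
  have hmem : ∀ x : K, x ≠ 1 → ∃ c : G, (x : G) ∈ H.map (MulAut.conj c).toMonoidHom := fun x hx =>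
    piElement_mem_conj H hHall hTI x (fun h => hx (Subtype.ext h)) (hpi x)
  have hD : ∀ c : G, ∀ k : K, k ∉ (H.map (MulAut.conj c).toMonoidHom).subgroupOf K →
      ∀ d ∈ (H.map (MulAut.conj c).toMonoidHom).subgroupOf K,
        k * d * k⁻¹ ∈ (H.map (MulAut.conj c).toMonoidHom).subgroupOf K → d = 1 := by
    intro c k hk d hd hd'
    by_contra hd1
    obtain ⟨e, he⟩ := hmem k (fun h => hk (h ▸ one_mem _))
    apply hk
    rw [Subgroup.mem_subgroupOf] at hd hd' ⊢
    push_cast at hd'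
    have hdk : (k : G) * d * (k : G)⁻¹ ≠ 1 := fun h => hd1 (Subtype.ext (conj_eq_one_iff.1 h))
    have hkc : H.map (MulAut.conj ((k : G) * c)).toMonoidHom = H.map (MulAut.conj c).toMonoidHom := by
      refine map_conj_eq_of_mem H hTI ?_ hd' hdk
      obtain ⟨u, hu, hud⟩ := hd
      exact ⟨u, hu, by
        show (k : G) * c * u * ((k : G) * c)⁻¹ = _
        rw [show (d : G) = c * u * c⁻¹ from hud.symm]; group⟩
    -- `k` normalises the conjugate of `H`, hence lies in it
    have hkN : (k : G) ∈ Subgroup.normalizer ((H.map (MulAut.conj c).toMonoidHom : Subgroup G) : Set G) := by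
      have hle : ∀ w ∈ H.map (MulAut.conj c).toMonoidHom, (k : G) * w * (k : G)⁻¹ ∈ H.map (MulAut.conj c).toMonoidHom := by
        rintro _ ⟨u, hu, rfl⟩
        have h3 : (k : G) * c * u * ((k : G) * c)⁻¹ ∈ H.map (MulAut.conj ((k : G) * c)).toMonoidHom := ⟨u, hu, rfl⟩
        rw [hkc] at h3
        simpa [mul_assoc] using h3
      let f : ↥(H.map (MulAut.conj c).toMonoidHom) → ↥(H.map (MulAut.conj c).toMonoidHom) :=
        fun w => ⟨(k : G) * w.1 * (k : G)⁻¹, hle w w.2⟩
      have hfi : Function.Injective f := fun w w' h =>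
        Subtype.ext (mul_left_cancel (mul_right_cancel (congrArg Subtype.val h)))
      refine Subgroup.mem_normalizer_iff.2 fun w => ⟨hle w, fun h => ?_⟩
      obtain ⟨w', hw'⟩ := Finite.injective_iff_surjective.1 hfi ⟨_, h⟩
      exact mul_left_cancel (mul_right_cancel (congrArg Subtype.val hw')) ▸ w'.2
    refine mem_of_mem_normalizer _ _ hkN ?_
    rw [(index_map_conj H c).1]
    exact Nat.coprime_of_dvd fun q hq h1 h3 =>
      hq.one_lt.ne' (Nat.eq_one_of_dvd_one (hHall.gcd_eq_one ▸ Nat.dvd_gcd (hpi k q hq h1) h3))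
  obtain ⟨x, hx⟩ : ∃ x : K, x ≠ 1 := by
    by_contra h
    push_neg at h
    exact hKne (eq_bot_iff.2 fun y hy => by simpa using congrArg Subtype.val (h ⟨y, hy⟩))
  obtain ⟨c, hc⟩ := hmem x hx
  refine ⟨c, ?_⟩
  set D := (H.map (MulAut.conj c).toMonoidHom).subgroupOf K with hDdef
  obtain ⟨f, hf, hfv⟩ := card_conj_le D (hD c)
  have hcard : ∀ A : Subgroup K, Nat.card {d : A // d ≠ 1} + 1 = Nat.card A := fun A => by
    rw [← Nat.card_congr (Equiv.sumCompl fun d : A => d ≠ 1), Nat.card_sum]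
    congr 1
    symm
    rw [Nat.card_eq_one_iff_unique]
    exact ⟨⟨fun a b => Subtype.ext ((not_not.1 a.2).trans (not_not.1 b.2).symm)⟩, ⟨⟨1, not_not.2 rfl⟩⟩⟩
  have hhalf : ∀ A : Subgroup K, A ≠ ⊥ → Nat.card K ≤ 2 * Nat.card ((K ⧸ A) × {d : A // d ≠ 1}) := by
    intro A hA
    have h1 := hcard A
    have h2 : Nat.card A ≠ 1 := fun h => hA (A.eq_bot_of_card_eq h)
    have h3 : 0 < Nat.card A := Nat.card_pos
    rw [Nat.card_prod, ← Subgroup.index_eq_card, ← A.index_mul_card, ← h1, mul_left_comm]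
    exact Nat.mul_le_mul_left _ (by omega)
  have hne : Nat.card {k : K // k ≠ 1} + 1 = Nat.card K := by
    rw [← Nat.card_congr (Equiv.sumCompl fun d : K => d ≠ 1), Nat.card_sum]
    congr 1
    symm
    rw [Nat.card_eq_one_iff_unique]
    exact ⟨⟨fun a b => Subtype.ext ((not_not.1 a.2).trans (not_not.1 b.2).symm)⟩, ⟨⟨1, not_not.2 rfl⟩⟩⟩
  have hDne : D ≠ ⊥ := fun h => hx (Subgroup.mem_bot.1 (h ▸ (hc : x ∈ D)))
  have hsurj : Function.Surjective f := by
    intro y
    by_contra hy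
    obtain ⟨e, he⟩ := hmem y.1 y.2
    obtain ⟨f', hf', hfv'⟩ := card_conj_le _ (hD e)
    have hE : (H.map (MulAut.conj e).toMonoidHom).subgroupOf K ≠ ⊥ := fun h =>
      y.2 (Subgroup.mem_bot.1 (h ▸ (he : y.1 ∈ (H.map (MulAut.conj e).toMonoidHom).subgroupOf K)))
    have hsum : Function.Injective (Sum.elim f f') := by
      refine hf.sumElim hf' fun s t hst => hy ?_
      have h4 : ((s.1.out * (s.2.1 : K) * (s.1.out)⁻¹ : K) : G) = (t.1.out * (t.2.1 : K) * (t.1.out)⁻¹ : K) := by
        have h5 := congrArg Subtype.val hst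
        rw [hfv, hfv'] at h5
        exact congrArg Subtype.val h5
      push_cast at h4
      set a : G := (s.1.out : G)
      set b : G := (t.1.out : G)
      have hz : a * (s.2.1 : K) * a⁻¹ ≠ 1 := fun h =>
        s.2.2 (Subtype.ext (Subtype.ext (conj_eq_one_iff.1 h)))
      have h6 : H.map (MulAut.conj (a * c)).toMonoidHom = H.map (MulAut.conj (b * e)).toMonoidHom := by
        refine map_conj_eq_of_mem H hTI ?_ ?_ hz
        · obtain ⟨u, hu, hud⟩ := Subgroup.mem_subgroupOf.1 s.2.1.2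
          refine ⟨u, hu, ?_⟩
          show a * c * u * (a * c)⁻¹ = _
          rw [show ((s.2.1 : K) : G) = c * u * c⁻¹ from hud.symm]; group
        · obtain ⟨u, hu, hud⟩ := Subgroup.mem_subgroupOf.1 t.2.1.2
          refine ⟨u, hu, ?_⟩
          show b * e * u * (b * e)⁻¹ = _
          rw [h4, show ((t.2.1 : K) : G) = e * u * e⁻¹ from hud.symm]; group
      obtain ⟨u, hu, huy⟩ := he
      have h7 : b * y.1 * b⁻¹ ∈ H.map (MulAut.conj (a * c)).toMonoidHom := by
        rw [h6]
        refine ⟨u, hu, ?_⟩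
        show b * e * u * (b * e)⁻¹ = _
        rw [show ((y.1 : K) : G) = e * u * e⁻¹ from huy.symm]; group
      -- hence `y` is a `K`-conjugate of an element of `D`
      let g : K := (t.1.out)⁻¹ * s.1.out
      have h8 : g⁻¹ * y.1 * g ∈ D := by
        obtain ⟨v, hv, hvy⟩ := h7
        refine Subgroup.mem_subgroupOf.2 ⟨v, hv, ?_⟩
        show c * v * c⁻¹ = ((g⁻¹ * y.1 * g : K) : G)
        push_cast [g]
        calc c * v * c⁻¹ = a⁻¹ * (a * c * v * (a * c)⁻¹) * a := by group
          _ = a⁻¹ * (b * y.1 * b⁻¹) * a := by rw [show a * c * v * (a * c)⁻¹ = b * y.1 * b⁻¹ from hvy]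
          _ = (b⁻¹ * a)⁻¹ * y.1 * (b⁻¹ * a) := by group
      obtain ⟨w, hw⟩ := QuotientGroup.mk_out_eq_mul D g
      refine ⟨⟨QuotientGroup.mk g, ⟨⟨(w : K)⁻¹ * (g⁻¹ * y.1 * g) * w,
        mul_mem (mul_mem (inv_mem w.2) h8) w.2⟩, fun h => y.2 ?_⟩⟩, Subtype.ext ?_⟩
      · have h9 : (w : K)⁻¹ * (g⁻¹ * y.1 * g) * w = 1 := congrArg Subtype.val h
        calc y.1 = g * w * ((w : K)⁻¹ * (g⁻¹ * y.1 * g) * w) * (g * w)⁻¹ := by group
          _ = 1 := by rw [h9]; group
      · rw [hfv, hw]; group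
    have := Nat.card_le_card_of_injective _ hsum
    rw [Nat.card_sum] at this
    have := hhalf D hDne
    have := hhalf _ hE
    omega
  have hcf := Nat.card_le_card_of_surjective f hsurj
  have hcf' := Nat.card_le_card_of_injective f hf
  rw [Nat.card_prod, ← Subgroup.index_eq_card] at hcf hcf'
  have h1 := hcard D
  have hi : D.index = 1 := by
    have h2 := D.index_mul_card
    rw [← h1, mul_add, mul_one] at h2
    omega
  exact Subgroup.subgroupOf_eq_top.1 (Subgroup.index_eq_one.1 hi)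

end Cfsg.Agent.S4116
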