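import Cfsg.Statements.S4115
import Cfsg.Agent.Lib.ElementOrders.TIHall
import Cfsg.Agent.Lib.ElementOrders.FPFFactor
import Cfsg.Agent.Lib.RealChar.BrauerSuzukiHall
import Cfsg.Agent.Lib.CoprimeAction.Sylow
import Cfsg.Agent.Lib.Frobenius.Basic
import Cfsg.Agent.S4116

set_option autoImplicit false
universe u
open Cfsg

namespace Cfsg.Agent.S4115

open scoped Pointwise commutatorElement

universe v

variable {G : Type v} [Group G] [Finite G]

/-- Local complement gives a global one. -/
theorem exists_complement (H : Subgroup G) (hTI : Cfsg.IsTISubset (H : Set G))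
    (hHall : (Nat.card H).Coprime (H.subgroupOf (Subgroup.normalizer (H : Set G))).index)
    (hK : ∃ K : Subgroup (Subgroup.normalizer (H : Set G)), K.Normal ∧ K.IsComplement' (H.subgroupOf (Subgroup.normalizer (H : Set G)))) :
    ∃ N : Subgroup G, N.Normal ∧ N.IsComplement' H := by
  set Nz := Subgroup.normalizer (H : Set G) with hNz
  obtain ⟨K, hKn, hKc⟩ := hK
  have hH'n : (H.subgroupOf Nz).Normal := Subgroup.normal_in_normalizer
  have hcop := CfsgLib.ElementOrders.TIHall.coprime_index hTI hHall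
  -- elements of the normaliser act as elements of `H`
  have hinner : ∀ g ∈ Nz, ∃ h ∈ H, ∀ x ∈ H, h * x * h⁻¹ = g * x * g⁻¹ := by
    intro g hg
    have h1 : (⟨g, hg⟩ : Nz) ∈ H.subgroupOf Nz ⊔ K := sup_comm K (H.subgroupOf Nz) ▸ hKc.sup_eq_top ▸ Subgroup.mem_top _
    obtain ⟨h, hh, k, hk, hhk⟩ := Subgroup.mem_sup_of_normal_left.1 h1
    refine ⟨h, hh, fun x hx => ?_⟩
    have hcm : Commute k (⟨x, Subgroup.le_normalizer hx⟩ : Nz) :=
      Subgroup.commute_of_normal_of_disjoint K (H.subgroupOf Nz) hKn hH'n hKc.disjoint k _ hk (show _ ∈ H.subgroupOf Nz from hx)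
    have hcm' : (k : G) * x = x * (k : G) := congrArg Subtype.val hcm.eq
    rw [show g = (h : G) * (k : G) from (congrArg Subtype.val hhk).symm,
      show (h : G) * (k : G) * x * ((h : G) * (k : G))⁻¹ = (h : G) * ((k : G) * x * (k : G)⁻¹) * (h : G)⁻¹ by group,
      hcm', mul_inv_cancel_right]
  refine (CfsgLib.RealChar.exists_normal_complement (H := H) hcop ?_ ?_).elim fun N hN' => ?_
  rotate_left 2
  · obtain ⟨hNn, hsup, hinf⟩ := hN'
    refine ⟨N, hNn, Subgroup.isComplement'_of_disjoint_and_mul_eq_univ (disjoint_iff.2 hinf) ?_⟩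
    rw [← Subgroup.normal_mul, hsup, Subgroup.coe_top]
  · intro x hx y hy hxy
    by_cases hx1 : x = 1
    · subst hx1
      obtain ⟨g, rfl⟩ := isConj_iff.1 hxy
      exact ⟨1, H.one_mem, by simp⟩
    obtain ⟨g, rfl⟩ := isConj_iff.1 hxy
    obtain ⟨h, hh, he⟩ := hinner g (CfsgLib.ElementOrders.TIHall.mem_normalizer_of_conj_mem hTI hx hx1 hy)
    exact ⟨h, hh, he x hx⟩
  · intro E p hp hE hcard
    have : Fact p.Prime := ⟨hp⟩
    obtain ⟨x, hx, -, k, hk⟩ := hE
    by_cases hE1 : E = ⊥
    · exact ⟨1, by rw [hE1, Subgroup.map_bot]; exact bot_le⟩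
    have : Nontrivial E := (Subgroup.nontrivial_iff_ne_bot E).2 hE1
    obtain ⟨z, hz, hz1⟩ : ∃ z : E, z ∈ Subgroup.center E ∧ z ≠ 1 := by
      by_cases hx1 : x = 1
      · rw [hx1, Subgroup.zpowers_one_eq_bot, Subgroup.index_bot] at hk
        have : Nontrivial (Subgroup.center E) := (IsPGroup.of_card (p := p) (n := k) hk).center_nontrivial
        obtain ⟨z, hz⟩ := exists_ne (1 : Subgroup.center E)
        exact ⟨z, z.2, fun h => hz (Subtype.ext h)⟩
      · exact ⟨x, hx, hx1⟩
    have hpi : ∀ w : E, ∀ q : ℕ, q.Prime → q ∣ orderOf (w : G) → q ∣ Nat.card H := fun w q _ hq =>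
      hq.trans ((Subgroup.orderOf_coe w).symm ▸ (orderOf_dvd_natCard w).trans hcard)
    obtain ⟨c, y, hy, hyz⟩ := Cfsg.Agent.S4116.piElement_mem_conj H hcop hTI (z : G)
      (fun h => hz1 (Subtype.ext h)) (hpi z)
    have hy1 : y ≠ 1 := fun h => hz1 (Subtype.ext (by rw [← hyz, h, map_one]; rfl))
    refine ⟨c⁻¹, ?_⟩
    rintro _ ⟨w, hw, rfl⟩
    show c⁻¹ * w * c⁻¹⁻¹ ∈ H
    have hwz : Commute w (z : G) := congrArg Subtype.val (Subgroup.mem_center_iff.1 hz ⟨w, hw⟩)
    refine CfsgLib.ElementOrders.TIHall.mem_of_orderOf_coprime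
      (CfsgLib.ElementOrders.TIHall.centralizer_le_normalizer hTI hy hy1 (Subgroup.mem_centralizer_singleton_iff.2 ?_)) ?_
    · have hyz' : c * y * c⁻¹ = (z : G) := hyz
      calc c⁻¹ * w * c⁻¹⁻¹ * y = c⁻¹ * (w * (c * y * c⁻¹)) * c := by group
        _ = c⁻¹ * ((c * y * c⁻¹) * w) * c := by rw [hyz', hwz.eq]
        _ = y * (c⁻¹ * w * c⁻¹⁻¹) := by group
    · rw [show orderOf (c⁻¹ * w * c⁻¹⁻¹) = orderOf w from orderOf_injective (MulAut.conj c⁻¹).toMonoidHom (MulAut.conj c⁻¹).injective w]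
      exact hHall.coprime_dvd_left ((Subgroup.orderOf_dvd_natCard E hw).trans hcard)

theorem mem_of_commute_mul {x c : G} {S : Subgroup G} (h : x * c ∈ S) (hc : Commute x c)
    (hcop : (orderOf x).Coprime (orderOf c)) : x ∈ S := by
  obtain ⟨e, he1, he2⟩ := Nat.chineseRemainder hcop 1 0
  have : (x * c) ^ e = x := by
    rw [hc.mul_pow, pow_eq_pow_iff_modEq.2 he1, pow_one, orderOf_dvd_iff_pow_eq_one.1
      (Nat.modEq_zero_iff_dvd.1 he2), mul_one]
  exact this ▸ S.pow_mem h e

/-- An invariant Sylow subgroup of the kernel. -/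
theorem exists_invariant (H N : Subgroup G) [N.Normal] (hTI : Cfsg.IsTISubset (H : Set G)) (hnn : ¬ H.Normal)
    (hc : (Nat.card N).Coprime (Nat.card H)) (hsup : N ⊔ Subgroup.normalizer (H : Set G) = ⊤)
    (hD : ∀ h ∈ H, h ≠ 1 → ∀ o ∈ N, Commute h o → o ∈ Subgroup.centralizer (H : Set G))
    (q : ℕ) [Fact q.Prime] :
    ∃ P : Sylow q N, H ≤ Subgroup.normalizer ((P : Subgroup N).map N.subtype : Set G) := by
  have hn : ∀ A : Subgroup G, A ≤ Subgroup.normalizer (N : Set G) := fun A => by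
    rw [Subgroup.normalizer_eq_top]; exact le_top
  by_cases h2 : 2 ∣ Nat.card H
  swap
  · have hz : IsZGroup H := CfsgLib.ElementOrders.TIHall.isZGroup hTI hnn hc hsup fun P => by
      have h1 : Nat.card (P : Subgroup H) = 1 := by
        rw [P.card_eq_multiplicity, Nat.factorization_eq_zero_of_not_dvd h2, pow_zero]
      have := (Nat.card_eq_one_iff_unique.1 h1).1
      exact ⟨⟨fun a b => Subsingleton.elim _ _⟩⟩
    exact CfsgLib.CoprimeAction.exists_invariant_sylow (hn H) hc.symm (Or.inl inferInstance) q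
  have : Fact (Nat.Prime 2) := ⟨Nat.prime_two⟩
  obtain ⟨⟨z, hzH⟩, hz⟩ := exists_prime_orderOf_dvd_card' 2 h2
  rw [Subgroup.orderOf_mk] at hz
  have hz1 : z ≠ 1 := fun h => by rw [h, orderOf_one] at hz; omega
  have hzc : (Nat.card (Subgroup.zpowers z)).Coprime (Nat.card N) :=
    (hc.symm).coprime_dvd_left (Subgroup.card_dvd_of_le (Subgroup.zpowers_le.2 hzH))
  have hzs : Group.IsSolvable (Subgroup.zpowers z) := CfsgLib.CoprimeAction.isSolvable_zpowers z
  obtain ⟨P, hP⟩ := CfsgLib.CoprimeAction.exists_invariant_sylow (hn (Subgroup.zpowers z)) hzc (Or.inl hzs) q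
  set Q := (P : Subgroup N).map N.subtype with hQ
  refine ⟨P, ?_⟩
  -- every conjugate of `z` normalises `Q`
  have hconj : ∀ h ∈ H, h * z * h⁻¹ ∈ Subgroup.normalizer (Q : Set G) := by
    intro h hh
    set w := h * z * h⁻¹ with hw
    have hz2 : z * z = 1 := by rw [← pow_two, ← hz, pow_orderOf_eq_one]
    have hw2 : w * w = 1 := by
      rw [hw, show h * z * h⁻¹ * (h * z * h⁻¹) = h * (z * z) * h⁻¹ by group, hz2]; group
    have hzi : z⁻¹ = z := inv_eq_of_mul_eq_one_right hz2
    have hwH : w ∈ H := H.mul_mem (H.mul_mem hh hzH) (H.inv_mem hh)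
    set C := Subgroup.zpowers (z * w) with hC
    have hzC : Subgroup.zpowers z ≤ Subgroup.normalizer (C : Set G) := by
      refine Subgroup.zpowers_le.2 (Subgroup.mem_normalizer_fintype ?_)
      rintro _ ⟨i, rfl⟩
      refine ⟨-i, ?_⟩
      show (z * w) ^ (-i) = z * (z * w) ^ i * z⁻¹
      rw [← conj_zpow, zpow_neg, ← inv_zpow]
      congr 1
      rw [mul_inv_rev, hzi, inv_eq_of_mul_eq_one_right hw2]
      calc w * z = (z * z) * w * z := by rw [hz2, one_mul]
        _ = z * (z * w) * z := by group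
    set S := C ⊔ Subgroup.zpowers z with hS
    have hSH : S ≤ H := sup_le (Subgroup.zpowers_le.2 (H.mul_mem hzH hwH)) (Subgroup.zpowers_le.2 hzH)
    have hSs : Group.IsSolvable S :=
      CfsgLib.ElementOrders.isSolvable_sup_of_le_normalizer (CfsgLib.CoprimeAction.isSolvable_zpowers _) hzs hzC
    obtain ⟨P1, hP1⟩ := CfsgLib.CoprimeAction.exists_invariant_sylow (hn S)
      (hc.symm.coprime_dvd_left (Subgroup.card_dvd_of_le hSH)) (Or.inl hSs) q
    obtain ⟨c, hcz, hcP⟩ := CfsgLib.CoprimeAction.invariant_sylow_conj (hn (Subgroup.zpowers z)) hzc (Or.inl hzs)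
      P1 P (le_sup_right.trans hP1) hP
    have hcH := hD z hzH hz1 c c.2 (Subgroup.mem_centralizer_iff.1 hcz z (Subgroup.mem_zpowers z))
    have hcw : Commute (c : G) w := (Subgroup.mem_centralizer_iff.1 hcH w hwH).symm
    have hwS : w ∈ S := by
      have : w = z * (z * w) := by rw [← mul_assoc, hz2, one_mul]
      rw [this]
      exact S.mul_mem (le_sup_right (a := C) (Subgroup.mem_zpowers z)) (le_sup_left (b := Subgroup.zpowers z) (Subgroup.mem_zpowers _))
    have hQ1 : MulAut.conj (c : G) • (P1 : Subgroup N).map N.subtype = Q := by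
      rw [← CfsgLib.CoprimeAction.map_conj_subtype,
        show MulAut.conj c • (P1 : Subgroup N) = P from congrArg (fun S : Sylow q N => (S : Subgroup N)) hcP]
    rw [← CfsgLib.CoprimeAction.conj_smul_eq_self, ← hQ1, smul_smul, ← map_mul, hcw.symm.eq, map_mul, ← smul_smul,
      CfsgLib.CoprimeAction.conj_smul_eq_self.2 (hP1 hwS)]
  intro h hh
  -- `Q` and its conjugate are both normalised by `z`
  let φ : N ≃* N := MulAut.conjNormal h⁻¹
  have hcard : Nat.card ((P : Subgroup N).map φ.toMonoidHom) = q ^ (Nat.card N).factorization q := by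
    rw [← Nat.card_congr ((P : Subgroup N).equivMapOfInjective φ.toMonoidHom φ.injective).toEquiv]
    exact P.card_eq_multiplicity
  let P2 : Sylow q N := Sylow.ofCard _ hcard
  have hQ2 : (P2 : Subgroup N).map N.subtype = MulAut.conj h⁻¹ • Q := by
    ext x
    constructor
    · rintro ⟨_, ⟨y, hy, rfl⟩, rfl⟩
      exact ⟨y, ⟨y, hy, rfl⟩, (MulAut.conjNormal_apply h⁻¹ y).symm⟩
    · rintro ⟨_, ⟨y, hy, rfl⟩, rfl⟩
      exact ⟨φ y, ⟨y, hy, rfl⟩, MulAut.conjNormal_apply h⁻¹ y⟩
  have hP2 : Subgroup.zpowers z ≤ Subgroup.normalizer ((P2 : Subgroup N).map N.subtype : Set G) := by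
    rw [Subgroup.zpowers_le, ← CfsgLib.CoprimeAction.conj_smul_eq_self, hQ2, smul_smul, ← map_mul,
      show z * h⁻¹ = h⁻¹ * (h * z * h⁻¹) by group, map_mul, ← smul_smul,
      CfsgLib.CoprimeAction.conj_smul_eq_self.2 (hconj h hh)]
  obtain ⟨c, hcz, hcP⟩ := CfsgLib.CoprimeAction.invariant_sylow_conj (hn (Subgroup.zpowers z)) hzc (Or.inl hzs)
    P P2 hP hP2
  have hcH := hD z hzH hz1 c c.2 (Subgroup.mem_centralizer_iff.1 hcz z (Subgroup.mem_zpowers z))
  have e : MulAut.conj (c : G) • Q = MulAut.conj h⁻¹ • Q := by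
    rw [hQ, ← CfsgLib.CoprimeAction.map_conj_subtype,
      show MulAut.conj c • (P : Subgroup N) = P2 from congrArg (fun S : Sylow q N => (S : Subgroup N)) hcP, hQ2]
  have hmem : h * (c : G) ∈ Subgroup.normalizer (Q : Set G) := by
    rw [← CfsgLib.CoprimeAction.conj_smul_eq_self, map_mul, ← smul_smul, e, smul_smul, ← map_mul, mul_inv_cancel,
      map_one, one_smul]
  exact mem_of_commute_mul hmem (Subgroup.mem_centralizer_iff.1 hcH h hh)
    ((hc.symm.coprime_dvd_left (Subgroup.orderOf_dvd_natCard H hh)).coprime_dvd_right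
      (Subgroup.orderOf_dvd_natCard N c.2))

/-- A fixed-point-free action gives a Frobenius group. -/
theorem frobenius_of_action {W H : Type v} [Group W] [Group H] [Finite W] [Finite H] [Nontrivial W] [Nontrivial H]
    (φ : H →* MulAut W) (hfpf : ∀ h : H, h ≠ 1 → ∀ w : W, φ h w = w → w = 1) :
    ∃ (F : Type v) (_ : Group F) (_ : Finite F) (C : Subgroup F), Cfsg.IsFrobeniusComplement C ∧ Nonempty (H ≃* C) := by
  refine ⟨W ⋊[φ] H, inferInstance, Finite.of_equiv _ SemidirectProduct.equivProd.symm,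
    (SemidirectProduct.inr : H →* W ⋊[φ] H).range, ?_, ⟨MonoidHom.ofInjective SemidirectProduct.inr_injective⟩⟩
  have hN : (SemidirectProduct.inl : W →* W ⋊[φ] H).range.Normal := by
    rw [SemidirectProduct.range_inl_eq_ker_rightHom]; infer_instance
  refine CfsgLib.Frobenius.isFrobeniusComplement_of_fpf (SemidirectProduct.inl : W →* W ⋊[φ] H).range _ ?_ ?_ ?_ ?_ ?_
  · rw [eq_bot_iff]
    rintro _ ⟨⟨w, rfl⟩, k, hk⟩
    have : w = 1 := by simpa using (congrArg SemidirectProduct.left hk).symm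
    rw [this, map_one]; exact Subgroup.one_mem _
  · rw [eq_top_iff]
    intro x _
    rw [← SemidirectProduct.inl_left_mul_inr_right x]
    exact Subgroup.mul_mem_sup ⟨_, rfl⟩ ⟨_, rfl⟩
  · intro h
    obtain ⟨w, hw⟩ := exists_ne (1 : W)
    refine hw (SemidirectProduct.inl_injective (φ := φ) ?_)
    rw [map_one, MonoidHom.range_eq_bot_iff.1 h]; rfl
  · intro h
    obtain ⟨k, hk⟩ := exists_ne (1 : H)
    refine hk (SemidirectProduct.inr_injective (φ := φ) ?_)
    rw [map_one, MonoidHom.range_eq_bot_iff.1 h]; rfl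
  · rintro _ ⟨k, rfl⟩ hk _ ⟨w, rfl⟩ hc
    have h1 := congrArg SemidirectProduct.left hc
    simp only [SemidirectProduct.mul_left, SemidirectProduct.left_inr, SemidirectProduct.right_inr,
      SemidirectProduct.left_inl, SemidirectProduct.right_inl, one_mul, map_one, mul_one] at h1
    rw [hfpf k (fun e => hk (by rw [e, map_one])) w h1, map_one]

/-- The second part. -/
theorem exists_frobenius (H : Subgroup G) (hTI : Cfsg.IsTISubset (H : Set G))
    (hHall : (Nat.card H).Coprime (H.subgroupOf (Subgroup.normalizer (H : Set G))).index) (hnn : ¬ H.Normal)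
    (N : Subgroup G) [N.Normal] (hN : N.IsComplement' H) :
    ∃ (F : Type v) (_ : Group F) (_ : Finite F) (C : Subgroup F), Cfsg.IsFrobeniusComplement C ∧ Nonempty (H ≃* C) := by
  have hH1 : H ≠ ⊥ := fun h => hnn (h ▸ inferInstance)
  have : Nontrivial H := (Subgroup.nontrivial_iff_ne_bot H).2 hH1
  have hc : (Nat.card N).Coprime (Nat.card H) := by
    rw [← hN.index_eq_card]; exact (CfsgLib.ElementOrders.TIHall.coprime_index hTI hHall).symm
  have hsup : N ⊔ Subgroup.normalizer (H : Set G) = ⊤ :=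
    top_le_iff.1 (hN.sup_eq_top.ge.trans (sup_le_sup_left Subgroup.le_normalizer N))
  have hD : ∀ h ∈ H, h ≠ 1 → ∀ o ∈ N, Commute h o → o ∈ Subgroup.centralizer (H : Set G) :=
    fun h hh h1 o ho hc' => CfsgLib.ElementOrders.TIHall.inf_normalizer_le_centralizer hc
      ⟨ho, CfsgLib.ElementOrders.TIHall.centralizer_le_normalizer hTI hh h1
        (Subgroup.mem_centralizer_singleton_iff.2 hc'.symm)⟩
  -- some invariant Sylow subgroup is not centralised
  obtain ⟨Q, hQs, hQN, hQH, hQc⟩ : ∃ Q : Subgroup G, Group.IsSolvable Q ∧ Q ≤ N ∧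
      H ≤ Subgroup.normalizer (Q : Set G) ∧ ¬ H ≤ Subgroup.centralizer (Q : Set G) := by
    by_contra hno
    push Not at hno
    have hle : N ≤ Subgroup.centralizer (H : Set G) := by
      rw [← Subgroup.relIndex_eq_one]
      by_contra hne
      obtain ⟨q, hq, hqd⟩ := Nat.exists_prime_and_dvd hne
      have : Fact q.Prime := ⟨hq⟩
      obtain ⟨P, hP⟩ := exists_invariant H N hTI hnn hc hsup hD q
      have hPs : Group.IsSolvable ((P : Subgroup N).map N.subtype : Subgroup G) := by
        have := (P.isPGroup'.map N.subtype).isNilpotent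
        infer_instance
      have h1 := Subgroup.le_centralizer_iff.1 (hno _ hPs (Subgroup.map_subtype_le _) hP)
      refine P.not_dvd_index (hqd.trans (Subgroup.index_dvd_of_le (fun x hx => ?_)))
      exact h1 (Subgroup.mem_map_of_mem _ hx)
    exact hnn (Subgroup.normalizer_eq_top_iff.1 (top_le_iff.1 (hN.sup_eq_top.ge.trans
      (sup_le (hle.trans (Subgroup.centralizer_le_normalizer _)) Subgroup.le_normalizer))))
  obtain ⟨L, hLQ, hLmin⟩ := Finite.exists_le_minimal
    (p := fun L : Subgroup G => L ≤ Q ∧ H ≤ Subgroup.normalizer (L : Set G) ∧ ¬ H ≤ Subgroup.centralizer (L : Set G))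
    (a := Q) ⟨le_rfl, hQH, hQc⟩
  obtain ⟨⟨hLQ', hLH, hLc⟩, hmin⟩ := hLmin
  have hLs : Group.IsSolvable L := CfsgLib.CoprimeAction.isSolvable_of_le hLQ'
  have hLne : L ≠ ⊥ := fun h => hLc (by
    rw [Subgroup.le_centralizer_iff, h]; exact bot_le)
  have hlt : ⁅L, L⁆ < L := lt_of_le_of_ne (Subgroup.commutator_le_self L) fun he => by
    have := Subgroup.nontrivial_iff_ne_bot L |>.2 hLne
    refine (Group.IsSolvable.commutator_lt_top_of_nontrivial L).ne (Subgroup.map_injective L.subtype_injective ?_)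
    rw [Subgroup.map_subtype_commutator, he, ← MonoidHom.range_eq_map, Subgroup.range_subtype]
  have hMc : H ≤ Subgroup.centralizer ((⁅L, L⁆ : Subgroup G) : Set G) := by
    by_contra hc'
    refine hlt.not_ge (hmin ⟨hlt.le.trans hLQ', fun g hg => ?_, hc'⟩ hlt.le)
    rw [Subgroup.mem_normalizer_iff_map_conj_eq, Subgroup.map_commutator,
      Subgroup.mem_normalizer_iff_map_conj_eq.1 (hLH hg)]
  set T := Subgroup.normalizer (L : Set G) with hT
  have hLn : (L.subgroupOf T).Normal := Subgroup.normal_in_normalizer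
  let e : (H.subgroupOf T) ≃* H := Subgroup.subgroupOfEquivOfLe hLH
  obtain ⟨W, _, _, _, φ, hφ⟩ := CfsgLib.ElementOrders.exists_fpf_of_factor (H := H.subgroupOf T) (L := L.subgroupOf T)
    (by
      rw [Nat.card_congr (Subgroup.subgroupOfEquivOfLe (Subgroup.le_normalizer : L ≤ T)).toEquiv, Nat.card_congr e.toEquiv]
      exact hc.coprime_dvd_left (Subgroup.card_dvd_of_le (hLQ'.trans hQN)))
    (fun h hh h1 o ho hc' => Subgroup.mem_centralizer_iff.2 fun w hw => Subtype.ext
      (Subgroup.mem_centralizer_iff.1 (hD h hh (fun e => h1 (Subtype.ext e)) o (hQN (hLQ' ho)) (congrArg Subtype.val hc'.eq)) w hw))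
    (by
      intro h hh
      refine Subgroup.mem_centralizer_iff.2 fun w hw => Subtype.ext ?_
      refine Subgroup.mem_centralizer_iff.1 (hMc hh) w ?_
      have := Subgroup.mem_map_of_mem T.subtype hw
      rwa [Subgroup.map_commutator, Subgroup.map_subgroupOf_eq_of_le Subgroup.le_normalizer] at this)
    (by
      intro hc'
      refine hLc fun h hh => Subgroup.mem_centralizer_iff.2 fun w hw => ?_
      exact congrArg Subtype.val (Subgroup.mem_centralizer_iff.1 (hc' (show (⟨h, hLH hh⟩ : T) ∈ H.subgroupOf T from hh))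
        ⟨w, Subgroup.le_normalizer hw⟩ hw))
  exact frobenius_of_action (φ.comp e.symm.toMonoidHom) fun h h1 w hw => hφ (e.symm h) (by simpa using h1) w hw

/-- Let G be a finite group and H a subgroup that meets each of its conjugates by elements outside N_G(H) trivially and whose order is coprime to its index in N_G(H). Then H has a normal complement in N_G(H) if and only if H has a normal complement in G. Moreover, if H is not normal in G and has a normal complement in N_G(H), then H is isomorphic to a Frobenius complement of some finite Frobenius group. -/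
theorem result {G : Type u} [Group G] [Finite G] (H : Subgroup G)
    (hTI : Cfsg.IsTISubset (H : Set G)) (hHall : (Nat.card H).Coprime (H.subgroupOf (Subgroup.normalizer (H : Set G))).index) :
    ((∃ K : Subgroup (Subgroup.normalizer (H : Set G)), K.Normal ∧ K.IsComplement' (H.subgroupOf (Subgroup.normalizer (H : Set G)))) ↔
      (∃ N : Subgroup G, N.Normal ∧ N.IsComplement' H)) ∧
    (¬ H.Normal → (∃ K : Subgroup (Subgroup.normalizer (H : Set G)), K.Normal ∧ K.IsComplement' (H.subgroupOf (Subgroup.normalizer (H : Set G)))) →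
      ∃ (F : Type u) (_ : Group F) (_ : Finite F) (C : Subgroup F), Cfsg.IsFrobeniusComplement C ∧ Nonempty (H ≃* C)) := by
  refine ⟨⟨exists_complement H hTI hHall, fun ⟨N, hN, hNc⟩ => ?_⟩, fun hnn hK => ?_⟩
  · refine ⟨N.subgroupOf _, Subgroup.Normal.comap hN _, Subgroup.isComplement'_of_disjoint_and_mul_eq_univ ?_ ?_⟩
    · rw [disjoint_iff, eq_bot_iff]
      rintro ⟨x, hx⟩ ⟨h1, h2⟩
      exact Subtype.ext (Subgroup.disjoint_def.1 hNc.disjoint h1 h2)
    · ext ⟨x, hx⟩
      simp only [Set.mem_univ, iff_true]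
      obtain ⟨n, hn, h, hh, hnh⟩ := Subgroup.mem_sup_of_normal_left.1 (show x ∈ N ⊔ H from hNc.sup_eq_top ▸ Subgroup.mem_top x)
      have hnN : n ∈ Subgroup.normalizer (H : Set G) := by
        rw [show n = x * h⁻¹ by rw [← hnh, mul_inv_cancel_right]]
        exact mul_mem hx (Subgroup.le_normalizer (H.inv_mem hh))
      exact ⟨⟨n, hnN⟩, hn, ⟨h, Subgroup.le_normalizer hh⟩, hh, Subtype.ext hnh⟩
  · obtain ⟨N, hN, hNc⟩ := exists_complement H hTI hHall hK
    exact exists_frobenius H hTI hHall hnn N hNc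

end Cfsg.Agent.S4115
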