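import Cfsg.Statements.S4117
import Cfsg.Agent.Lib.ElementOrders.ZGroupAction

set_option autoImplicit false
open Cfsg

namespace Cfsg.Agent.S4117

open scoped commutatorElement

theorem main {G A : Type*} [Group G] [Finite G] [Group A] [Finite A]
    [MulDistribMulAction A G] (hcop : (Nat.card A).Coprime (Nat.card G)) [IsZGroup G]
    (S : Set G) (hS : S = {y : G | ∃ (a : A) (g : G), y = g⁻¹ * a • g}) :
    (Nat.card (MulAction.fixedPoints A G : Set G)).Coprime (Nat.card G / Nat.card (MulAction.fixedPoints A G : Set G)) ∧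
    IsCyclic (Subgroup.closure S) ∧ (Subgroup.closure S).Normal ∧
    (Subgroup.closure S : Set G) ∩ MulAction.fixedPoints A G = {1} ∧
    Subgroup.closure S ⊔ Subgroup.closure (MulAction.fixedPoints A G) = ⊤ := by
  classical
  let φ := MulDistribMulAction.toMulAut A G
  let ι : G →* G ⋊[φ] A := SemidirectProduct.inl
  have : Finite (G ⋊[φ] A) := Finite.of_equiv _ SemidirectProduct.equivProd.symm
  have hι : Function.Injective ι := SemidirectProduct.inl_injective
  set K := ι.range with hK
  set B := (SemidirectProduct.inr : A →* G ⋊[φ] A).range with hB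
  have hBK : B ≤ Subgroup.normalizer (K : Set (G ⋊[φ] A)) := by
    rintro _ ⟨a, rfl⟩
    refine Subgroup.mem_normalizer_fintype ?_
    rintro _ ⟨g, rfl⟩
    exact ⟨a • g, by rw [← map_inv]; exact SemidirectProduct.inl_aut (φ := φ) a g⟩
  have hKc : Nat.card K = Nat.card G := (Nat.card_congr (MonoidHom.ofInjective hι).toEquiv).symm
  have hBc : Nat.card B = Nat.card A :=
    (Nat.card_congr (MonoidHom.ofInjective (SemidirectProduct.inr_injective (φ := φ))).toEquiv).symm
  have hcop' : (Nat.card B).Coprime (Nat.card K) := by rwa [hKc, hBc]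
  have : IsZGroup K := IsZGroup.of_injective (f := (MonoidHom.ofInjective hι).symm.toMonoidHom) (MulEquiv.injective _)
  -- the commutator subgroup
  have key : ∀ (a : A) (g : G), ⁅ι g, (SemidirectProduct.inr a : G ⋊[φ] A)⁆ = ι (g * a • g⁻¹) := by
    intro a g
    rw [map_mul, show ι (a • g⁻¹) = SemidirectProduct.inl (φ a g⁻¹) from rfl, SemidirectProduct.inl_aut, map_inv, commutatorElement_def]
    simp [ι, mul_assoc]
  have hT : (Subgroup.closure S).map ι = ⁅K, B⁆ := by
    refine le_antisymm ?_ ?_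
    · rw [MonoidHom.map_closure, Subgroup.closure_le, hS]
      rintro _ ⟨_, ⟨a, g, rfl⟩, rfl⟩
      have h := Subgroup.commutator_mem_commutator (H₁ := K) (H₂ := B) ⟨g⁻¹, rfl⟩ ⟨a, rfl⟩
      rwa [key, inv_inv] at h
    · rw [Subgroup.commutator_le]
      rintro _ ⟨g, rfl⟩ _ ⟨a, rfl⟩
      rw [key]
      exact Subgroup.mem_map_of_mem _ (Subgroup.subset_closure (hS ▸ ⟨a, g⁻¹, by rw [inv_inv]⟩))
  let F : Subgroup G := (K ⊓ Subgroup.centralizer (B : Set (G ⋊[φ] A))).comap ι
  have hF : (F : Set G) = MulAction.fixedPoints A G := by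
    ext g
    simp only [F, SetLike.mem_coe, Subgroup.mem_comap, Subgroup.mem_inf, MulAction.mem_fixedPoints]
    constructor
    · rintro ⟨-, hg⟩ a
      have h := Subgroup.mem_centralizer_iff.1 hg _ ⟨a, rfl⟩
      apply hι
      show SemidirectProduct.inl (φ a g) = _
      rw [SemidirectProduct.inl_aut, h, map_inv, mul_inv_cancel_right]
    · intro h
      refine ⟨⟨g, rfl⟩, Subgroup.mem_centralizer_iff.2 ?_⟩
      rintro _ ⟨a, rfl⟩
      have h2 := SemidirectProduct.inl_aut (φ := φ) a g
      rw [show φ a g = g from h a, map_inv] at h2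
      exact (eq_mul_inv_iff_mul_eq.1 h2).symm
  have hFm : F.map ι = K ⊓ Subgroup.centralizer (B : Set (G ⋊[φ] A)) :=
    Subgroup.map_comap_eq_self inf_le_left
  have hcyc := CfsgLib.ElementOrders.isCyclic_commutator_of_isZGroup (A := B) (K := K) hBK
  refine ⟨?_, ?_, ?_, ?_, ?_⟩
  · have h := CfsgLib.ElementOrders.coprime_centralizer_of_isZGroup hBK hcop'
    rw [← hFm, show K = (⊤ : Subgroup G).map ι from MonoidHom.range_eq_map ι, Subgroup.relIndex_map_map_of_injective _ _ hι,
      Subgroup.relIndex_top_right, Subgroup.card_map_of_injective hι] at h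
    have hc : Nat.card (MulAction.fixedPoints A G : Set G) = Nat.card F := by rw [← hF]; rfl
    rwa [hc, ← F.card_mul_index, Nat.mul_div_cancel_left _ Nat.card_pos]
  · exact ((Subgroup.closure S).equivMapOfInjective ι hι).isCyclic.2 (hT ▸ hcyc)
  · refine ⟨fun t ht g => ?_⟩
    have h1 : K ≤ Subgroup.normalizer ((⁅K, B⁆ : Subgroup (G ⋊[φ] A)) : Set (G ⋊[φ] A)) :=
      le_sup_left.trans (CfsgLib.CoprimeAction.sup_le_normalizer_commutator B K)
    have h2 := (Subgroup.mem_normalizer_iff.1 (h1 ⟨g, rfl⟩) (ι t)).1 (hT ▸ Subgroup.mem_map_of_mem ι ht)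
    rw [← hT, ← map_inv, ← map_mul, ← map_mul] at h2
    exact (Subgroup.mem_map_iff_mem hι).1 h2
  · rw [← hF, ← Subgroup.coe_inf, ← Subgroup.coe_bot, SetLike.coe_set_eq]
    apply Subgroup.map_injective hι
    rw [Subgroup.map_inf _ _ _ hι, Subgroup.map_bot, hT, hFm, ← inf_assoc,
      inf_eq_left.2 (CfsgLib.CoprimeAction.commutator_le_left hBK)]
    exact CfsgLib.ElementOrders.commutator_inf_centralizer_of_isZGroup hBK hcop'
  · rw [← hF, Subgroup.closure_eq]
    apply Subgroup.map_injective hι
    rw [Subgroup.map_sup, hT, hFm, ← MonoidHom.range_eq_map]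
    exact CfsgLib.CoprimeAction.commutator_sup_centralizer hBK hcop' (Or.inr inferInstance)

/-- Let A be a finite group acting on the finite group G by automorphisms with the orders of A and G coprime, and suppose every Sylow subgroup of G is cyclic. Then the fixed-point subgroup C_G(A) is a Hall subgroup of G (its order is coprime to its index), the subgroup [G, A] generated by the elements g⁻¹·a(g) is cyclic and normal with [G, A] ∩ C_G(A) = 1 and [G, A]·C_G(A) = G. -/
theorem result {G A : Type*} [Group G] [Finite G] [Group A] [Finite A]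
    [MulDistribMulAction A G] (hcop : (Nat.card A).Coprime (Nat.card G))
    (hcyc : ∀ (p : ℕ) [Fact p.Prime] (P : Sylow p G), IsCyclic (P : Subgroup G)) :
    (Nat.card (MulAction.fixedPoints A G : Set G)).Coprime (Nat.card G / Nat.card (MulAction.fixedPoints A G : Set G)) ∧
    IsCyclic (Subgroup.closure {y : G | ∃ (a : A) (g : G), y = g⁻¹ * a • g}) ∧
    (Subgroup.closure {y : G | ∃ (a : A) (g : G), y = g⁻¹ * a • g}).Normal ∧
    (Subgroup.closure {y : G | ∃ (a : A) (g : G), y = g⁻¹ * a • g} : Set G) ∩ MulAction.fixedPoints A G = {1} ∧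
    Subgroup.closure {y : G | ∃ (a : A) (g : G), y = g⁻¹ * a • g} ⊔ Subgroup.closure (MulAction.fixedPoints A G) = ⊤ := by
  have : IsZGroup G := ⟨fun p hp P => @hcyc p ⟨hp⟩ P⟩
  exact main hcop _ rfl

end Cfsg.Agent.S4117
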