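import Cfsg.Statements.S4118
import Cfsg.Agent.Lib.ElementOrders.TIHall
import Cfsg.Agent.Lib.CoprimeAction.Basic
import Cfsg.Agent.Lib.BGTypes.FPFAction
import Cfsg.Agent.Lib.TwoGroups.Aut
import Cfsg.Agent.Lib.PermGroups.RegularExceptional
import Cfsg.Agent.Lib.PermGroups.Zassenhaus.Main
import Mathlib.GroupTheory.SchurZassenhaus

set_option autoImplicit false
open Cfsg

namespace Cfsg.Agent.S4118

open scoped commutatorElement

variable {G : Type*} [Group G] [Finite G]

theorem sl_not_solvable : ¬ Group.IsSolvable (Matrix.SpecialLinearGroup (Fin 2) (ZMod 5)) := by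
  intro h
  have : Fact (Nat.Prime 5) := ⟨Nat.prime_five⟩
  have : Nontrivial (Matrix.SpecialLinearGroup (Fin 2) (ZMod 5)) :=
    ⟨CfsgLib.PermGroups.slGenY, 1, by decide⟩
  exact (Group.IsSolvable.commutator_lt_top_of_nontrivial
    (Matrix.SpecialLinearGroup (Fin 2) (ZMod 5))).ne
    (CfsgLib.ClassicalLinear.commutator_sl_eq_top (Or.inr ⟨(2 : ZMod 5), CfsgLib.PermGroups.two_facts_five.1, CfsgLib.PermGroups.two_facts_five.2⟩))

/-- A group without `SL(2,5)` acting fixed-point-freely is solvable. -/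
theorem isSolvable_of_fpf {H : Type*} [Group H] [Finite H] {W : Type*} [Group W] [Finite W] [Nontrivial W]
    (φ : H →* MulAut W) (hfpf : ∀ h : H, h ≠ 1 → ∀ w : W, φ h w = w → w = 1)
    (hno : ∀ K : Subgroup H, ¬ Nonempty (K ≃* Matrix.SpecialLinearGroup (Fin 2) (ZMod 5))) :
    Group.IsSolvable H := by
  rw [Group.isSolvable_iff_commutator_lt]
  intro K hK
  refine lt_of_le_of_ne (Subgroup.commutator_le_self K) fun he => hno K ?_
  have : Nontrivial K := (Subgroup.nontrivial_iff_ne_bot K).2 hK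
  refine CfsgLib.PermGroups.equiv_sl_two_five_of_fpf_perfect (φ.comp K.subtype)
    (fun g hg w hw => hfpf g (fun h => hg (Subtype.ext h)) w hw) ?_
  apply Subgroup.map_injective K.subtype_injective
  rw [Subgroup.map_subtype_commutator, he, ← MonoidHom.range_eq_map, Subgroup.range_subtype]

/-- The abelian factor on which `H` acts nontrivially supplies a fixed-point-free action. -/
theorem isSolvable_of_factor {H O L : Subgroup G} [L.Normal] (hLO : L ≤ O)
    (hOc : (Nat.card O).Coprime (Nat.card H))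
    (hD : ∀ h ∈ H, h ≠ 1 → ∀ o ∈ O, Commute h o → o ∈ Subgroup.centralizer (H : Set G))
    (hM : H ≤ Subgroup.centralizer ((⁅L, L⁆ : Subgroup G) : Set G)) (hL : ¬ H ≤ Subgroup.centralizer (L : Set G))
    (hno : ∀ K : Subgroup G, K ≤ H → ¬ Nonempty (K ≃* Matrix.SpecialLinearGroup (Fin 2) (ZMod 5))) :
    Group.IsSolvable H := by
  classical
  set M : Subgroup G := ⁅L, L⁆ with hMdef
  have hML : M ≤ L := Subgroup.commutator_le_self L
  have hMn : M.Normal := by rw [hMdef]; infer_instance
  let π := QuotientGroup.mk' M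
  let V := L.map π
  have hVn : V.Normal := (inferInstance : L.Normal).map π (QuotientGroup.mk'_surjective M)
  let iV : CommGroup V := { (inferInstance : Group V) with
    mul_comm := by
      rintro ⟨_, x, hx, rfl⟩ ⟨_, y, hy, rfl⟩
      refine Subtype.ext ?_
      show π x * π y = π y * π x
      have h1 : π ⁅x, y⁆ = 1 := (QuotientGroup.eq_one_iff ⁅x, y⁆).2 (Subgroup.commutator_mem_commutator hx hy)
      rw [commutatorElement_def, map_mul, map_mul, map_mul, map_inv, map_inv] at h1
      exact mul_inv_eq_iff_eq_mul.1 (mul_inv_eq_one.1 h1) }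
  let ρ : H →* MulAut V := MulAut.conjNormal.comp (π.comp H.subtype)
  let _ : Fintype H := Fintype.ofFinite H
  let ψ : V →* V := MonoidHom.mk' (fun v => ∏ h : H, ρ h v) fun a b => by
    simp only [map_mul]; exact Finset.prod_mul_distrib
  have hψ : ∀ (k : H) (v : V), ψ (ρ k v) = ψ v := fun k v => by
    show ∏ h : H, ρ h (ρ k v) = ∏ h : H, ρ h v
    refine Fintype.prod_equiv (Equiv.mulRight k) _ _ fun h => ?_
    show ρ h (ρ k v) = ρ (h * k) v
    rw [map_mul]; rfl
  let W := ψ.ker
  have hWinv : ∀ (k : H) (w : W), ρ k (w : V) ∈ W := fun k w => by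
    rw [MonoidHom.mem_ker, hψ]; exact w.2
  let f : H → MulAut W := fun k =>
    { toFun := fun w => ⟨ρ k w, hWinv k w⟩
      invFun := fun w => ⟨ρ k⁻¹ w, hWinv k⁻¹ w⟩
      left_inv := fun w => Subtype.ext (by
        show ρ k⁻¹ (ρ k (w : V)) = w
        rw [← MulAut.mul_apply, ← map_mul, inv_mul_cancel, map_one]; rfl)
      right_inv := fun w => Subtype.ext (by
        show ρ k (ρ k⁻¹ (w : V)) = w
        rw [← MulAut.mul_apply, ← map_mul, mul_inv_cancel, map_one]; rfl)
      map_mul' := fun a b => Subtype.ext (map_mul (ρ k) (a : V) (b : V)) }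
  let φ : H →* MulAut W := MonoidHom.mk' f fun a b => MulEquiv.ext fun w => Subtype.ext (by
    show ρ (a * b) (w : V) = ρ a (ρ b (w : V))
    rw [map_mul]; rfl)
  have hcV : (Nat.card V).Coprime (Nat.card H) :=
    hOc.coprime_dvd_left ((Subgroup.card_map_dvd _ π).trans (Subgroup.card_dvd_of_le hLO))
  have : Nontrivial W := by
    rw [Subgroup.nontrivial_iff_ne_bot]
    intro hbot
    have hinj : Function.Injective ψ := (MonoidHom.ker_eq_bot_iff ψ).1 hbot
    refine hL (CfsgLib.CoprimeAction.le_centralizer_of_series hML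
      ((hOc.coprime_dvd_left (Subgroup.card_dvd_of_le (hML.trans hLO))).symm) hM fun a ha k hk => ?_)
    have h1 : ρ ⟨a, ha⟩ ⟨π k, k, hk, rfl⟩ = ⟨π k, k, hk, rfl⟩ := hinj (hψ _ _)
    have h2 : π a * π k * (π a)⁻¹ = π k := congrArg Subtype.val h1
    rw [← QuotientGroup.eq_one_iff]
    show π (k⁻¹ * (a * k * a⁻¹)) = 1
    rw [map_mul, map_inv, map_mul, map_mul, map_inv, h2, inv_mul_cancel]
  refine isSolvable_of_fpf φ ?_ fun K hK => ?_
  · rintro ⟨h, hh⟩ h1 ⟨⟨_, l, hl, rfl⟩, hw⟩ hfix
    have h1' : h ≠ 1 := fun e => h1 (Subtype.ext e)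
    have hfix' : π h * π l * (π h)⁻¹ = π l := congrArg (fun z : W => ((z : V) : G ⧸ M)) hfix
    have hz : Subgroup.zpowers h ≤ H := Subgroup.zpowers_le.2 hh
    obtain ⟨c, hc, hcM⟩ := CfsgLib.CoprimeAction.exists_centralizer_mem_coset_of_le
      (A := Subgroup.zpowers h) (N := M) (K := L) (by rw [Subgroup.normalizer_eq_top]; exact le_top) hML
      ((hOc.coprime_dvd_left (Subgroup.card_dvd_of_le (hML.trans hLO))).coprime_dvd_right
        (Subgroup.card_dvd_of_le hz)).symm
      (Or.inl (CfsgLib.CoprimeAction.isSolvable_zpowers h)) hl (fun b hb => by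
        obtain ⟨i, rfl⟩ := hb
        rw [← QuotientGroup.eq_one_iff]
        show π (l⁻¹ * (h ^ i * l * (h ^ i)⁻¹)) = 1
        have hcm : Commute (π h) (π l) := mul_inv_eq_iff_eq_mul.1 hfix'
        rw [map_mul, map_inv, map_mul, map_mul, map_inv, map_zpow, (hcm.zpow_left i).eq, mul_inv_cancel_right,
          inv_mul_cancel])
    have hcH := hD h hh h1' c (hLO hc.1) (Subgroup.mem_centralizer_iff.1 hc.2 h (Subgroup.mem_zpowers h))
    have hπc : π c = π l := by
      have h3 : π (l⁻¹ * c) = 1 := (QuotientGroup.eq_one_iff _).2 hcM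
      rw [map_mul, map_inv] at h3
      exact (inv_mul_eq_one.1 h3).symm
    set v : V := ⟨π l, l, hl, rfl⟩ with hv
    have hall : ∀ k : H, ρ k v = v := fun k => Subtype.ext (by
      show π k * π l * (π k)⁻¹ = π l
      rw [← hπc, ← map_mul, Subgroup.mem_centralizer_iff.1 hcH k k.2, map_mul, mul_inv_cancel_right])
    have hp : v ^ Nat.card H = 1 := by
      have h4 : ψ v = 1 := hw
      rw [← h4]
      show _ = ∏ k : H, ρ k v
      rw [Finset.prod_congr rfl fun k _ => hall k, Finset.prod_const, Finset.card_univ, Nat.card_eq_fintype_card]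
    exact Subtype.ext (orderOf_eq_one_iff.1 (Nat.eq_one_of_dvd_one (hcV.gcd_eq_one ▸
      Nat.dvd_gcd (orderOf_dvd_natCard v) (orderOf_dvd_of_pow_eq_one hp))))
  · obtain ⟨e⟩ := hK
    exact hno (K.map H.subtype) (Subgroup.map_subtype_le K)
      ⟨(K.equivMapOfInjective H.subtype H.subtype_injective).symm.trans e⟩

/-- Under coprime odd action the automorphisms of a cyclic or quaternion group commute. -/
theorem commute_aut {Q : Type*} [Group Q] [Finite Q]
    (hQ : IsCyclic Q ∨ ∃ m : ℕ, 1 ≤ m ∧ Nonempty (Q ≃* QuaternionGroup (2 ^ m)))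
    {A : Type*} [Group A] [Finite A] (f : A →* MulAut Q) (hcop : (Nat.card A).Coprime (Nat.card Q))
    (a b : A) : f a * f b = f b * f a := by
  rcases hQ with hc | ⟨m, hm, ⟨e⟩⟩
  · ext q
    obtain ⟨i, hi⟩ := (f a).toMonoidHom.map_cyclic
    obtain ⟨j, hj⟩ := (f b).toMonoidHom.map_cyclic
    show f a (f b q) = f b (f a q)
    simp only [MulEquiv.coe_toMonoidHom] at hi hj
    rw [hj q, hi q, hi, hj, ← zpow_mul, ← zpow_mul, mul_comm]
  · have hA2 : (Nat.card A).Coprime 2 := by
      refine hcop.coprime_dvd_right ?_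
      rw [Nat.card_congr e.toEquiv, Nat.card_eq_fintype_card, QuaternionGroup.card]
      exact Dvd.dvd.mul_right (by norm_num) _
    have hrA : Nat.card f.range ∣ Nat.card A := Subgroup.card_range_dvd f
    have hc : IsCyclic f.range := by
      rcases eq_or_lt_of_le hm with rfl | hm2
      · have h24 : Nat.card f.range ∣ 24 := by
          refine (Subgroup.card_subgroup_dvd_card f.range).trans (dvd_of_eq ?_)
          rw [Nat.card_congr (MulAut.congr e).toEquiv]
          exact CfsgLib.PermGroups.card_mulAut_q8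
        have h3 : Nat.card f.range ∣ 3 :=
          ((hA2.pow_right 3).coprime_dvd_left hrA).dvd_of_dvd_mul_left (show _ ∣ 2 ^ 3 * 3 by simpa using h24)
        rcases (Nat.dvd_prime Nat.prime_three).1 h3 with h | h
        · have := (Nat.card_eq_one_iff_unique.1 h).1
          exact isCyclic_of_subsingleton
        · have : Fact (Nat.Prime 3) := ⟨Nat.prime_three⟩
          exact isCyclic_of_prime_card h
      · have h2 : IsPGroup 2 (MulAut Q) :=
          (CfsgLib.TwoGroups.isPGroup_mulAut_quaternion hm2).of_equiv (MulAut.congr e).symm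
        have : Fact (Nat.Prime 2) := ⟨Nat.prime_two⟩
        obtain ⟨k, hk⟩ := IsPGroup.iff_card.1 (h2.to_subgroup f.range)
        have h1 : Nat.card f.range = 1 := by
          refine Nat.eq_one_of_dvd_one ?_
          rw [← ((hA2.pow_right k).gcd_eq_one)]
          exact Nat.dvd_gcd hrA hk.dvd
        have := (Nat.card_eq_one_iff_unique.1 h1).1
        exact isCyclic_of_subsingleton
    obtain ⟨g, hg⟩ := hc.exists_generator
    obtain ⟨i, hi⟩ := hg ⟨f a, a, rfl⟩
    obtain ⟨j, hj⟩ := hg ⟨f b, b, rfl⟩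
    have h := ((Commute.refl g).zpow_zpow i j).eq
    simp only [hi, hj] at h
    exact congrArg Subtype.val h

/-- The derived group of a coprime group acting on a solvable group of rank one acts trivially. -/
theorem commutator_le_centralizer {H A : Subgroup G} [H.Normal] (hsol : Group.IsSolvable H)
    (hcop : (Nat.card A).Coprime (Nat.card H))
    (hu : ∀ (r : ℕ) [Fact r.Prime] (P : Sylow r H), CfsgLib.TwoGroups.UniqueOrderP r (P : Subgroup H)) :
    ⁅A, A⁆ ≤ Subgroup.centralizer (H : Set G) := by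
  refine CfsgLib.BGTypes.le_centralizer_of_le_centralizer_fittingOf hsol
    (hcop.coprime_dvd_left (Subgroup.card_dvd_of_le (Subgroup.commutator_le_self A))) ?_
  rw [Subgroup.le_centralizer_iff]
  show (Cfsg.fittingSubgroup H).map H.subtype ≤ _
  rw [CfsgLib.Cores.fittingSubgroup_eq_iSup_pCore, Subgroup.map_iSup]
  refine iSup_le fun r => ?_
  have : Fact (r : ℕ).Prime := ⟨Nat.prime_of_mem_primeFactors r.2⟩
  rw [Subgroup.le_centralizer_iff, Subgroup.commutator_le]
  intro a ha b hb
  set Q0 := Cfsg.pCore (r : ℕ) H with hQ0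
  set Q := Q0.map H.subtype with hQ
  have : Q0.Characteristic := CfsgLib.Cores.pCore_characteristic (r : ℕ) H
  have hQn : Q.Normal := by rw [hQ]; infer_instance
  have hshape : IsCyclic Q ∨ ∃ m : ℕ, 1 ≤ m ∧ Nonempty (Q ≃* QuaternionGroup (2 ^ m)) := by
    obtain ⟨P, hP⟩ := (CfsgLib.Cores.isPGroup_pCore (r : ℕ) H).exists_le_sylow
    have hu' : CfsgLib.TwoGroups.UniqueOrderP (r : ℕ) Q0 :=
      (hu (r : ℕ) P).of_injective (Subgroup.inclusion hP) (Subgroup.inclusion_injective hP)
    let e := Q0.equivMapOfInjective H.subtype H.subtype_injective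
    rcases CfsgLib.TwoGroups.isCyclic_or_quaternion (CfsgLib.Cores.isPGroup_pCore (r : ℕ) H) hu' with
      h | ⟨-, m, hm, ⟨g⟩⟩
    · exact Or.inl (e.isCyclic.1 h)
    · exact Or.inr ⟨m, hm, ⟨e.symm.trans g⟩⟩
  let f : A →* MulAut Q := MulAut.conjNormal.comp A.subtype
  have hcQ : (Nat.card A).Coprime (Nat.card Q) :=
    hcop.coprime_dvd_right (Subgroup.card_dvd_of_le (Subgroup.map_subtype_le Q0))
  have h1 : f ⁅(⟨a, ha⟩ : A), ⟨b, hb⟩⁆ = 1 := by
    rw [map_commutatorElement, commutatorElement_def, commute_aut hshape f hcQ]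
    group
  rw [Subgroup.mem_centralizer_iff]
  intro w hw
  have h2 : ⁅a, b⁆ * w * ⁅a, b⁆⁻¹ = w := by
    have h3 := congrArg Subtype.val (DFunLike.congr_fun h1 (⟨w, hw⟩ : Q))
    exact h3
  exact (mul_inv_eq_iff_eq_mul.1 h2).symm

/-- Let G be a finite group and H a non-normal subgroup meeting each of its conjugates by elements outside N_G(H) trivially, with the order of H coprime to its index in N_G(H); let π be the set of primes dividing the order of H and suppose G is π-separable (it has a chain of normal subgroups from 1 to G each of whose factors has order divisible only by primes in π or coprime to the order of H). Let O be the largest normal subgroup of G of order coprime to the order of H. Then G = O·N_G(H), O·H is normal in G, and G is solvable if and only if O is solvable and H has no subgroup isomorphic to SL₂(5). -/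
theorem result {G : Type*} [Group G] [Finite G] (H : Subgroup G)
    (hTI : Cfsg.IsTISubset (H : Set G)) (hnn : ¬ H.Normal)
    (hHall : (Nat.card H).Coprime (H.subgroupOf (Subgroup.normalizer (H : Set G))).index)
    (hsep : ∃ (n : ℕ) (M : Fin (n + 1) → Subgroup G), M 0 = ⊥ ∧ M (Fin.last n) = ⊤ ∧ Monotone M ∧ (∀ i, (M i).Normal) ∧
      ∀ i : Fin n, (∀ q : ℕ, q.Prime → q ∣ (M i.castSucc).relIndex (M i.succ) → q ∣ Nat.card H) ∨
        ((M i.castSucc).relIndex (M i.succ)).Coprime (Nat.card H))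
    (O : Subgroup G) (hO : O = sSup {K : Subgroup G | K.Normal ∧ (Nat.card K).Coprime (Nat.card H)}) :
    O ⊔ Subgroup.normalizer (H : Set G) = ⊤ ∧ (O ⊔ H).Normal ∧
    (Group.IsSolvable G ↔ Group.IsSolvable O ∧
      ∀ K : Subgroup G, K ≤ H → ¬ Nonempty (K ≃* Matrix.SpecialLinearGroup (Fin 2) (ZMod 5))) := by
  classical
  set S := {K : Subgroup G | K.Normal ∧ (Nat.card K).Coprime (Nat.card H)} with hS
  have hbot : (⊥ : Subgroup G) ∈ S := ⟨inferInstance, by simp⟩
  have hsup2 : ∀ K ∈ S, ∀ K' ∈ S, K ⊔ K' ∈ S := by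
    rintro K ⟨hK, hKc⟩ K' ⟨hK', hKc'⟩
    refine ⟨inferInstance, Nat.Coprime.coprime_dvd_left ?_ (Nat.Coprime.mul_left hKc hKc')⟩
    rw [← Subgroup.relIndex_bot_left, ← Subgroup.relIndex_mul_relIndex ⊥ K (K ⊔ K') bot_le le_sup_left,
      Subgroup.relIndex_bot_left, Subgroup.relIndex_sup_left]
    exact Nat.mul_dvd_mul_left _ (Subgroup.relIndex_dvd_card _ _)
  obtain ⟨O', hO', hO'max⟩ := (Set.toFinite S).exists_maximal ⟨⊥, hbot⟩
  have hall : ∀ K ∈ S, K ≤ O' := fun K hK =>
    le_sup_left.trans (hO'max (hsup2 K hK O' hO') le_sup_right)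
  obtain rfl : O = O' := hO.trans (le_antisymm (sSup_le hall) (le_sSup hO'))
  obtain ⟨hOn, hOc⟩ := hO'
  have hH : H ≠ ⊥ := fun h => hnn (h ▸ inferInstance)
  have hmax : ∀ K : Subgroup G, K.Normal → (Nat.card K).Coprime (Nat.card H) → K ≤ O :=
    fun K h1 h2 => hall K ⟨h1, h2⟩
  obtain ⟨hsup, hOH⟩ := CfsgLib.ElementOrders.TIHall.sup_normalizer_eq_top hTI hHall hH hsep hOc hmax
  refine ⟨hsup, hOH, fun hG => ⟨inferInstance, fun K _ ⟨e⟩ => sl_not_solvable ?_⟩, fun ⟨hOs, hno⟩ => ?_⟩
  · exact Group.isSolvable_of_surjective (f := e.toMonoidHom) e.surjective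
  have hD : ∀ h ∈ H, h ≠ 1 → ∀ o ∈ O, Commute h o → o ∈ Subgroup.centralizer (H : Set G) :=
    fun h hh h1 o ho hc => CfsgLib.ElementOrders.TIHall.inf_normalizer_le_centralizer hOc
      ⟨ho, CfsgLib.ElementOrders.TIHall.centralizer_le_normalizer hTI hh h1
        (Subgroup.mem_centralizer_singleton_iff.2 hc.symm)⟩
  -- `H` is solvable
  let L : ℕ → Subgroup G := fun i => (derivedSeries O i).map O.subtype
  have hLn : ∀ i, (L i).Normal := fun i => by
    infer_instance
  have hLs : ∀ i, L (i + 1) = ⁅L i, L i⁆ := fun i => by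
    show (derivedSeries O (i + 1)).map O.subtype = _
    rw [derivedSeries_succ, Subgroup.map_commutator]
  have hnotall : ¬ H ≤ Subgroup.centralizer (O : Set G) := fun hc => hnn (Subgroup.normalizer_eq_top_iff.1
    (top_le_iff.1 (hsup ▸ sup_le ((Subgroup.le_centralizer_iff.1 hc).trans
      (Subgroup.centralizer_le_normalizer _)) le_rfl)))
  have hex : ∃ i, H ≤ Subgroup.centralizer (L i : Set G) := by
    obtain ⟨n, hn⟩ := hOs.solvable
    refine ⟨n, ?_⟩
    rw [Subgroup.le_centralizer_iff]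
    show (derivedSeries O n).map O.subtype ≤ _
    rw [hn, Subgroup.map_bot]; exact bot_le
  have hHs : Group.IsSolvable H := by
    obtain ⟨i, hi, hi'⟩ : ∃ i, ¬ H ≤ Subgroup.centralizer (L i : Set G) ∧ H ≤ Subgroup.centralizer (L (i + 1) : Set G) := by
      by_contra hne
      push Not at hne
      obtain ⟨n, hn⟩ := hex
      have : ∀ i, ¬ H ≤ Subgroup.centralizer (L i : Set G) := by
        intro i
        induction i with
        | zero =>
          show ¬ H ≤ Subgroup.centralizer (((derivedSeries O 0).map O.subtype : Subgroup G) : Set G)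
          rwa [derivedSeries_zero, ← MonoidHom.range_eq_map, Subgroup.range_subtype]
        | succ i ih => exact hne i ih
      exact this n hn
    have := hLn i
    rw [hLs] at hi'
    exact isSolvable_of_factor (Subgroup.map_subtype_le _) hOc hD hi' hi hno
  -- the `π'`-part of the normalizer is abelian modulo `O`
  set Nz := Subgroup.normalizer (H : Set G) with hNz
  let H' := H.subgroupOf Nz
  have hH'n : H'.Normal := Subgroup.normal_in_normalizer
  have hcH' : Nat.card H' = Nat.card H :=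
    Nat.card_congr (Subgroup.subgroupOfEquivOfLe Subgroup.le_normalizer).toEquiv
  obtain ⟨A, hA⟩ := Subgroup.exists_right_complement'_of_coprime (N := H') (hcH' ▸ hHall)
  have hAc : (Nat.card A).Coprime (Nat.card H') := by
    rw [← hA.symm.index_eq_card, hcH']; exact hHall.symm
  have hu : ∀ (r : ℕ) [Fact r.Prime] (P : Sylow r H'), CfsgLib.TwoGroups.UniqueOrderP r (P : Subgroup H') := by
    intro r _ P
    let e : H' ≃* H := Subgroup.subgroupOfEquivOfLe Subgroup.le_normalizer
    obtain ⟨P', hP'⟩ := (P.isPGroup'.map e.toMonoidHom).exists_le_sylow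
    exact (CfsgLib.ElementOrders.TIHall.uniqueOrderP hTI hnn hOc hsup P').of_injective
      ((Subgroup.inclusion hP').comp ((P : Subgroup H').equivMapOfInjective e.toMonoidHom e.injective).toMonoidHom)
      ((Subgroup.inclusion_injective hP').comp (MulEquiv.injective _))
  have hH's : Group.IsSolvable H' := Group.isSolvable_of_surjective (f := (Subgroup.subgroupOfEquivOfLe Subgroup.le_normalizer : H' ≃* H).symm.toMonoidHom) (MulEquiv.surjective _)
  have hAA : ⁅A, A⁆ ≤ Subgroup.centralizer (H' : Set Nz) := commutator_le_centralizer hH's hAc hu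
  set A' := A.map Nz.subtype with hA'
  set B := A' ⊓ Subgroup.centralizer (H : Set G) with hB
  have hBO : B ≤ O := by
    refine le_sup_right.trans (hmax (O ⊔ B) ?_ ?_)
    · rw [← Subgroup.normalizer_eq_top_iff, ← top_le_iff, ← hsup]
      refine sup_le (le_sup_left.trans Subgroup.le_normalizer) ?_
      have hgen : Nz ≤ H ⊔ A' := by
        intro x hx
        have h1 : (⟨x, hx⟩ : Nz) ∈ H' ⊔ A := hA.sup_eq_top ▸ Subgroup.mem_top _
        have h2 := Subgroup.mem_map_of_mem Nz.subtype h1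
        rw [Subgroup.map_sup] at h2
        exact sup_le_sup_right (Subgroup.map_subgroupOf_eq_of_le Subgroup.le_normalizer).le _ h2
      refine hgen.trans (sup_le ?_ ?_)
      all_goals
        intro g hg
        apply Subgroup.mem_normalizer_fintype
        intro x hx
        obtain ⟨o, ho, b, hb, rfl⟩ := Subgroup.mem_sup_of_normal_left.1 (show x ∈ O ⊔ B from hx)
        rw [show g * (o * b) * g⁻¹ = (g * o * g⁻¹) * (g * b * g⁻¹) by group]
        refine Subgroup.mul_mem_sup (hOn.conj_mem o ho g) ?_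
      · rw [Subgroup.mem_centralizer_iff.1 hb.2 g hg, mul_inv_cancel_right]; exact hb
      · refine ⟨A'.mul_mem (A'.mul_mem hg hb.1) (A'.inv_mem hg), ?_⟩
        obtain ⟨⟨g', hgN⟩, -, rfl⟩ := id hg
        refine Subgroup.mem_centralizer_iff.2 ?_
        intro w hw
        have hw' : g'⁻¹ * w * g' ∈ H := by
          simpa using (Subgroup.mem_normalizer_iff.1 (inv_mem hgN) w).1 hw
        show w * (g' * b * g'⁻¹) = g' * b * g'⁻¹ * w
        calc w * (g' * b * g'⁻¹) = g' * ((g'⁻¹ * w * g') * b) * g'⁻¹ := by group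
          _ = g' * b * g'⁻¹ * w := by rw [Subgroup.mem_centralizer_iff.1 hb.2 _ hw']; group
    · refine Nat.Coprime.coprime_dvd_left ?_ (Nat.Coprime.mul_left hOc (hcH' ▸ hAc))
      rw [← Subgroup.relIndex_bot_left, ← Subgroup.relIndex_mul_relIndex ⊥ O (O ⊔ B) bot_le le_sup_left,
        Subgroup.relIndex_bot_left, Subgroup.relIndex_sup_left]
      refine Nat.mul_dvd_mul_left _ ((Subgroup.relIndex_dvd_card _ _).trans ?_)
      exact (Subgroup.card_dvd_of_le inf_le_left).trans (Subgroup.card_map_dvd A Nz.subtype)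
  -- assemble
  let q := QuotientGroup.mk' (O ⊔ H)
  have hs1 : Group.IsSolvable (O ⊔ H : Subgroup G) := by
    have : (O.subgroupOf (O ⊔ H)).Normal := Subgroup.Normal.comap hOn _
    rw [Group.isSolvable_iff_subgroup_quotient (O.subgroupOf (O ⊔ H))]
    refine ⟨Group.isSolvable_of_surjective (f := (Subgroup.subgroupOfEquivOfLe (le_sup_left : O ≤ O ⊔ H)).symm.toMonoidHom) (MulEquiv.surjective _), ?_⟩
    refine Group.isSolvable_of_surjective
      (f := (QuotientGroup.mk' (O.subgroupOf (O ⊔ H))).comp (Subgroup.inclusion le_sup_right : H →* ↥(O ⊔ H))) ?_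
    intro z
    obtain ⟨⟨x, hx⟩, rfl⟩ := QuotientGroup.mk'_surjective _ z
    obtain ⟨o, ho, h, hh, rfl⟩ := Subgroup.mem_sup_of_normal_left.1 (show x ∈ O ⊔ H from hx)
    refine ⟨⟨h, hh⟩, QuotientGroup.eq.2 ?_⟩
    show (⟨h, _⟩ : ↥(O ⊔ H))⁻¹ * ⟨o * h, hx⟩ ∈ O.subgroupOf (O ⊔ H)
    rw [Subgroup.mem_subgroupOf]
    show h⁻¹ * (o * h) ∈ O
    simpa [mul_assoc] using hOn.conj_mem o ho h⁻¹
  rw [Group.isSolvable_iff_subgroup_quotient (O ⊔ H)]
  refine ⟨hs1, Group.isSolvable_of_comm ?_⟩
  have hsurj : ∀ z : G ⧸ (O ⊔ H), ∃ a ∈ A, q (a : Nz) = z := by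
    intro z
    obtain ⟨x, rfl⟩ := QuotientGroup.mk'_surjective _ z
    obtain ⟨o, ho, n, hn, rfl⟩ := Subgroup.mem_sup_of_normal_left.1 (show x ∈ O ⊔ Nz from hsup ▸ Subgroup.mem_top x)
    obtain ⟨h, hh, a, ha, hha⟩ := Subgroup.mem_sup_of_normal_left.1
      (show (⟨n, hn⟩ : Nz) ∈ H' ⊔ A from hA.sup_eq_top ▸ Subgroup.mem_top _)
    refine ⟨a, ha, ?_⟩
    have e : n = (h : G) * (a : G) := (congrArg Subtype.val hha).symm
    have h1 : q o = 1 := (QuotientGroup.eq_one_iff o).2 (le_sup_left (a := O) ho)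
    have h2 : q (h : G) = 1 := (QuotientGroup.eq_one_iff (h : G)).2 (le_sup_right (b := H) hh)
    show q (a : G) = q (o * n)
    rw [map_mul, h1, one_mul, e, map_mul, h2, one_mul]
  intro x y
  obtain ⟨a, ha, rfl⟩ := hsurj x
  obtain ⟨b, hb, rfl⟩ := hsurj y
  have hm : ⁅(a : G), (b : G)⁆ ∈ O := by
    refine hBO ⟨?_, Subgroup.mem_centralizer_iff.2 fun w hw => ?_⟩
    · rw [commutatorElement_def]
      exact ⟨⁅a, b⁆, by rw [commutatorElement_def]; exact A.mul_mem (A.mul_mem (A.mul_mem ha hb) (A.inv_mem ha)) (A.inv_mem hb), rfl⟩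
    · exact congrArg Subtype.val (Subgroup.mem_centralizer_iff.1 (hAA (Subgroup.commutator_mem_commutator ha hb))
        (⟨w, Subgroup.le_normalizer hw⟩ : Nz) hw)
  have h1 : q ⁅(a : G), (b : G)⁆ = 1 := (QuotientGroup.eq_one_iff _).2 (le_sup_left (a := O) hm)
  rw [commutatorElement_def, map_mul, map_mul, map_mul, map_inv, map_inv] at h1
  exact mul_inv_eq_iff_eq_mul.1 (mul_inv_eq_one.1 h1)

end Cfsg.Agent.S4118
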