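import Cfsg.Statements.S4126
import Cfsg.Agent.Lib.NormalPComplement.Frobenius
import Cfsg.Agent.Lib.CoprimeAction.Basic
import Cfsg.Agent.Lib.Cores.PCore
import Cfsg.Agent.Lib.FusionExamples.SmallElements

set_option autoImplicit false
open Cfsg

namespace Cfsg.Agent.S4126

variable {G : Type*} [Group G] [Finite G] {p : ℕ} [hp : Fact p.Prime]

theorem commutator_lt {R N : Subgroup G} (hR : Group.IsNilpotent R) [hn : N.Normal] (hNR : N ≤ R) (hN : N ≠ ⊥) :
    ⁅N, R⁆ < N := by
  refine lt_of_le_of_ne ((Subgroup.commutator_mono le_rfl le_top).trans (Subgroup.commutator_le_left N ⊤)) fun he => hN ?_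
  obtain ⟨n, hn⟩ := (Subgroup.isNilpotent_iff_lowerCentralSeries (S := R)).1 hR
  rw [eq_bot_iff, ← hn]
  clear hn
  induction n with
  | zero => exact hNR
  | succ n ih =>
    rw [Subgroup.lowerCentralSeries_succ]
    exact he.ge.trans (Subgroup.commutator_mono ih le_rfl)

/-- An element whose class size is a power of `p` is conjugate only by elements of any Sylow subgroup. -/
theorem exists_mul {x : G} {a : ℕ} (ha : (Subgroup.centralizer ({x} : Set G)).index = p ^ a) (P : Sylow p G) :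
    ∀ g : G, ∃ u ∈ (P : Subgroup G), ∃ c ∈ Subgroup.centralizer ({x} : Set G), g = u * c := by
  set C := Subgroup.centralizer ({x} : Set G) with hC
  have hrel : C.index ≤ C.relIndex (P : Subgroup G) := by
    have h1 := Subgroup.relIndex_mul_index (inf_le_left : (P : Subgroup G) ⊓ C ≤ P)
    have h2 := Subgroup.relIndex_mul_index (inf_le_right : (P : Subgroup G) ⊓ C ≤ C)
    rw [Subgroup.inf_relIndex_left, ← h2, ha] at h1
    rw [ha]
    refine Nat.le_of_dvd (Nat.pos_of_ne_zero Subgroup.index_ne_zero_of_finite) ?_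
    exact ((hp.out.coprime_iff_not_dvd.2 P.not_dvd_index).pow_left a).dvd_of_dvd_mul_right
      (h1 ▸ dvd_mul_left _ _)
  intro g
  let f : (P : Subgroup G) ⧸ C.subgroupOf (P : Subgroup G) → G ⧸ C :=
    Quotient.lift (fun u : (P : Subgroup G) => ((u : G) : G ⧸ C)) fun u v huv => by
      replace huv : QuotientGroup.leftRel (C.subgroupOf (P : Subgroup G)) u v := huv
      rw [QuotientGroup.leftRel_apply] at huv
      exact QuotientGroup.eq.2 huv
  have hf : Function.Injective f := by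
    intro q q' h
    induction q using QuotientGroup.induction_on with | _ u => ?_
    induction q' using QuotientGroup.induction_on with | _ v => ?_
    exact QuotientGroup.eq.2 (show (u : G)⁻¹ * (v : G) ∈ C from
      QuotientGroup.eq.1 (show ((u : G) : G ⧸ C) = ((v : G) : G ⧸ C) from h))
  obtain ⟨q, hq⟩ := (hf.bijective_of_nat_card_le hrel).2 (g : G ⧸ C)
  induction q using QuotientGroup.induction_on with | _ u => ?_
  exact ⟨u, u.2, (u : G)⁻¹ * g, QuotientGroup.eq.1 hq, by group⟩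

theorem mem_pCore {x : G} {a k : ℕ} (hx : orderOf x = p ^ k)
    (ha : (Subgroup.centralizer ({x} : Set G)).index = p ^ a) : x ∈ Cfsg.pCore p G := by
  obtain ⟨P, hP⟩ := (show IsPGroup p (Subgroup.zpowers x) from
    IsPGroup.of_card (n := k) (by rw [Nat.card_zpowers, hx])).exists_le_sylow
  have hxP : x ∈ (P : Subgroup G) := hP (Subgroup.mem_zpowers x)
  refine CfsgLib.Cores.le_pCore (hN := Subgroup.normalClosure_normal (s := {x})) (P.2.to_le ?_)
    (Subgroup.subset_normalClosure rfl)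
  refine (Subgroup.closure_le _).2 fun w hw => ?_
  obtain ⟨v, hv, hvw⟩ := Group.mem_conjugatesOfSet_iff.1 hw
  rw [Set.mem_singleton_iff] at hv
  subst hv
  obtain ⟨g, rfl⟩ := isConj_iff.1 hvw
  obtain ⟨u, hu, c, hc, rfl⟩ := exists_mul ha P g
  show u * c * v * (u * c)⁻¹ ∈ (P : Subgroup G)
  rw [show u * c * v * (u * c)⁻¹ = u * (c * v) * c⁻¹ * u⁻¹ by group,
    Subgroup.mem_centralizer_singleton_iff.1 hc, ← mul_assoc, mul_inv_cancel_right]
  exact (P : Subgroup G).mul_mem ((P : Subgroup G).mul_mem hu hxP) ((P : Subgroup G).inv_mem hu)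

theorem exists_pow_of_small {H : Type*} [Group H] {x : H} (h : CfsgLib.FusionExamples.SmallElt p x) :
    (∃ k, orderOf x = p ^ k) ∧ (x ≠ 1 → orderOf (x) = p ∨ (p = 2 ∧ orderOf x = 4) ∨ (p = 2 ∧ orderOf x = 2)) := by
  rcases h with h | ⟨rfl, h⟩
  · rcases (Nat.dvd_prime hp.out).1 (orderOf_dvd_of_pow_eq_one h) with h1 | h1
    · exact ⟨⟨0, by simpa using h1⟩, fun hx => absurd (orderOf_eq_one_iff.1 h1) hx⟩
    · exact ⟨⟨1, by simpa using h1⟩, fun _ => Or.inl h1⟩
  · obtain ⟨k, hk2, hk⟩ := (Nat.dvd_prime_pow Nat.prime_two (m := 2)).1 (orderOf_dvd_of_pow_eq_one h : orderOf x ∣ 2 ^ 2)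
    refine ⟨⟨k, hk⟩, fun hx => ?_⟩
    interval_cases k
    · exact absurd (orderOf_eq_one_iff.1 (by simpa using hk)) hx
    · exact Or.inl (by simpa using hk)
    · exact Or.inr (Or.inl ⟨rfl, by simpa using hk⟩)

/-- `p'`-elements centralise normal subgroups inside the core. -/
theorem le_centralizer_normal
    (h : ∀ x : G, (orderOf x = p ∨ (p = 2 ∧ orderOf x = 4)) → ∃ a : ℕ, (Subgroup.centralizer ({x} : Set G)).index = p ^ a)
    {y : G} (hy : (orderOf y).Coprime p) (N : Subgroup G) :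
    N.Normal → N ≤ Cfsg.pCore p G → y ∈ Subgroup.centralizer (N : Set G) := by
  induction N using WellFoundedLT.induction with
  | ind N ih =>
  intro hNn hNU
  have hNp : IsPGroup p N := (CfsgLib.Cores.isPGroup_pCore p G).to_le hNU
  have := hNn
  suffices hsmall : ∀ x : N, CfsgLib.FusionExamples.SmallElt p x → MulAut.conjNormal y x = x by
    have h1 := CfsgLib.FusionExamples.eq_one_of_fixes_small hNp (MulAut.conjNormal y) (orderOf y)
      (by rw [← map_pow, pow_orderOf_eq_one, map_one]) hy hsmall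
    refine Subgroup.mem_centralizer_iff.2 fun w hw => ?_
    have h2 := congrArg Subtype.val (DFunLike.congr_fun h1 ⟨w, hw⟩)
    rw [MulAut.conjNormal_apply, MulAut.one_apply] at h2
    exact (mul_inv_eq_iff_eq_mul.1 h2).symm
  rintro ⟨x, hxN⟩ hxs
  refine Subtype.ext ?_
  rw [MulAut.conjNormal_apply]
  refine mul_inv_eq_iff_eq_mul.2 ?_
  show y * x = x * y
  by_cases hx1 : x = 1
  · rw [hx1, one_mul, mul_one]
  have hxs' : CfsgLib.FusionExamples.SmallElt p x :=
    (CfsgLib.FusionExamples.smallElt_map_iff N.subtype N.subtype_injective).2 hxs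
  obtain ⟨a, ha⟩ := h x (by
    rcases (exists_pow_of_small hxs').2 hx1 with h1 | h1 | ⟨h1, h2⟩
    · exact Or.inl h1
    · exact Or.inr h1
    · exact Or.inl (h2.trans h1.symm))
  set Y := Subgroup.normalClosure ({x} : Set G) with hY
  have hxY : x ∈ Y := Subgroup.subset_normalClosure rfl
  have hYN : Y ≤ N := Subgroup.normalClosure_le_normal (Set.singleton_subset_iff.2 hxN)
  rcases hYN.lt_or_eq with hlt | heq
  · exact (Subgroup.mem_centralizer_iff.1 (ih Y hlt (by rw [hY]; exact Subgroup.normalClosure_normal)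
      (hlt.le.trans hNU)) x hxY).symm
  obtain ⟨P, hNP⟩ := hNp.exists_le_sylow
  set N1 := Subgroup.normalClosure {z : G | ∃ g : G, z = g * x * g⁻¹ * x⁻¹} with hN1
  have hN1n : N1.Normal := by rw [hN1]; exact Subgroup.normalClosure_normal
  have hle : N1 ≤ ⁅N, (P : Subgroup G)⁆ := by
    -- the subgroup is generated by the commutators of `x` with elements of the Sylow subgroup
    refine (Subgroup.closure_le _).2 fun w hw => ?_
    obtain ⟨v, ⟨g, rfl⟩, hvw⟩ := Group.mem_conjugatesOfSet_iff.1 hw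
    obtain ⟨t, rfl⟩ := isConj_iff.1 hvw
    have hgen : ∀ s : G, s * x * s⁻¹ * x⁻¹ ∈ ⁅N, (P : Subgroup G)⁆ := by
      intro s
      obtain ⟨u, hu, c, hc, rfl⟩ := exists_mul ha P s
      rw [Subgroup.commutator_comm,
        show u * c * x * (u * c)⁻¹ * x⁻¹ = u * (c * x) * c⁻¹ * u⁻¹ * x⁻¹ by group,
        Subgroup.mem_centralizer_singleton_iff.1 hc, ← mul_assoc, mul_inv_cancel_right]
      exact Subgroup.commutator_mem_commutator hu hxN
    have e : t * (g * x * g⁻¹ * x⁻¹) * t⁻¹ = (t * g * x * (t * g)⁻¹ * x⁻¹) * (t * x * t⁻¹ * x⁻¹)⁻¹ := by group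
    show t * (g * x * g⁻¹ * x⁻¹) * t⁻¹ ∈ ⁅N, (P : Subgroup G)⁆
    rw [e]
    exact Subgroup.mul_mem _ (hgen _) (Subgroup.inv_mem _ (hgen _))
  have hNne : N ≠ ⊥ := fun h0 => hx1 (Subgroup.mem_bot.1 (h0 ▸ hxN))
  have hN1lt : N1 < N := hle.trans_lt (commutator_lt P.2.isNilpotent hNP hNne)
  have hyN1 := ih N1 hN1lt hN1n (hN1lt.le.trans hNU)
  have hcen : N ≤ (Subgroup.center (G ⧸ N1)).comap (QuotientGroup.mk' N1) := by
    rw [← heq]
    refine Subgroup.normalClosure_le_normal (Set.singleton_subset_iff.2 ?_)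
    rw [SetLike.mem_coe, Subgroup.mem_comap, Subgroup.mem_center_iff]
    intro q
    obtain ⟨g, rfl⟩ := QuotientGroup.mk'_surjective N1 q
    have h1 : QuotientGroup.mk' N1 (g * x * g⁻¹ * x⁻¹) = 1 :=
      (QuotientGroup.eq_one_iff _).2 (Subgroup.subset_normalClosure ⟨g, rfl⟩)
    simp only [map_mul, map_inv] at h1
    exact mul_inv_eq_iff_eq_mul.1 (mul_inv_eq_one.1 h1)
  refine (Subgroup.mem_centralizer_iff.1 (CfsgLib.CoprimeAction.le_centralizer_of_series hN1lt.le ?_
    (Subgroup.zpowers_le.2 hyN1) ?_ (Subgroup.mem_zpowers y)) x hxN).symm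
  · obtain ⟨n, hn⟩ := IsPGroup.iff_card.1 (hNp.to_le hN1lt.le)
    rw [Nat.card_zpowers, hn]
    exact hy.pow_right n
  · intro b _ k hk
    rw [← QuotientGroup.eq_one_iff]
    have h1 := Subgroup.mem_center_iff.1 (hcen hk) (b : G ⧸ N1)
    show QuotientGroup.mk' N1 (k⁻¹ * (b * k * b⁻¹)) = 1
    simp only [map_mul, map_inv]
    rw [show QuotientGroup.mk' N1 b * QuotientGroup.mk' N1 k = QuotientGroup.mk' N1 k * QuotientGroup.mk' N1 b from h1]
    group

/-- Let G be a finite group and p a prime. Suppose every element of order p, and when p = 2 also every element of order 4, has a conjugacy class of p-power size. Then G has a normal p-complement. -/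
theorem result {G : Type*} [Group G] [Finite G] (p : ℕ) [Fact p.Prime]
    (h : ∀ x : G, (orderOf x = p ∨ (p = 2 ∧ orderOf x = 4)) → ∃ a : ℕ, (Subgroup.centralizer ({x} : Set G)).index = p ^ a) :
    Cfsg.HasNormalPComplement p G := by
  refine CfsgLib.NormalPComplement.hasNormalPComplement_of_frobeniusCondition fun Q hQ g hg hcop => ?_
  have h1 := CfsgLib.FusionExamples.eq_one_of_fixes_small hQ (Q.normalizerMonoidHom ⟨g, hg⟩) (orderOf g)
    (by rw [← map_pow, show (⟨g, hg⟩ : Subgroup.normalizer (Q : Set G)) ^ orderOf g = 1 from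
      Subtype.ext (pow_orderOf_eq_one g), map_one]) hcop ?_
  · refine Subgroup.mem_centralizer_iff.2 fun w hw => ?_
    have h2 : g * w * g⁻¹ = w := by
      have h3 := congrArg Subtype.val (DFunLike.congr_fun h1 (⟨w, hw⟩ : Q))
      exact h3
    exact (mul_inv_eq_iff_eq_mul.1 h2).symm
  rintro ⟨x, hxQ⟩ hxs
  refine Subtype.ext ?_
  show g * x * g⁻¹ = x
  refine mul_inv_eq_iff_eq_mul.2 ?_
  by_cases hx1 : x = 1
  · rw [hx1, one_mul, mul_one]
  have hxs' : CfsgLib.FusionExamples.SmallElt p x :=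
    (CfsgLib.FusionExamples.smallElt_map_iff Q.subtype Q.subtype_injective).2 hxs
  obtain ⟨⟨k, hk⟩, hcases⟩ := exists_pow_of_small hxs'
  obtain ⟨a, ha⟩ := h x (by
    rcases hcases hx1 with h1 | h1 | ⟨h1, h2⟩
    · exact Or.inl h1
    · exact Or.inr h1
    · exact Or.inl (h2.trans h1.symm))
  exact (Subgroup.mem_centralizer_iff.1
    (le_centralizer_normal h hcop _ (by infer_instance) le_rfl) x (mem_pCore hk ha)).symm

end Cfsg.Agent.S4126
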