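import Cfsg.Statements.S4133
import Cfsg.Agent.Lib.MetacyclicP.TwoPowerIndex.Solvable
import Cfsg.Agent.Lib.Cores.PerfectCore
import Cfsg.Agent.Lib.ClassGraph.Basic

set_option autoImplicit false
set_option linter.style.haveILetI false
open Cfsg

namespace Cfsg.Agent.S4133

/-- Let G be a finite group all of whose Sylow subgroups are abelian, and let 2^a be the largest power of 2 dividing the size of any conjugacy class of G. If some element has a conjugacy class of size exactly 2^a, then G is solvable. -/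
theorem result {G : Type*} [Group G] [Finite G]
    (hA : ∀ (p : ℕ) [Fact p.Prime] (P : Sylow p G), IsMulCommutative (P : Subgroup G))
    (a : ℕ) (hmax : ∀ y : G, ¬ 2 ^ (a + 1) ∣ (Subgroup.centralizer ({y} : Set G)).index) (hx : ∃ x : G, (Subgroup.centralizer ({x} : Set G)).index = 2 ^ a) :
    Group.IsSolvable G := by
  classical
  obtain ⟨x, hx⟩ := hx
  have hG : CfsgLib.MetacyclicP.TwoPowerIndex.AbelianP G :=
    CfsgLib.MetacyclicP.TwoPowerIndex.abelianP_of_sylow hA
  set E := Cfsg.perfectCore G with hEdef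
  refine (CfsgLib.Cores.perfectCore_eq_bot_iff (G := G)).1 ?_
  have hEn : E.Normal := inferInstance
  have hcommE : ⁅E, E⁆ = E := CfsgLib.Cores.commutator_perfectCore_self G
  have hperf : commutator E = ⊤ := by
    refine Subgroup.map_injective E.subtype_injective ?_
    rw [Subgroup.map_subtype_commutator, hcommE, ← MonoidHom.range_eq_map, Subgroup.range_subtype]
  have hEA := hG.subgroup E
  -- the centre of `E` is trivial
  have hcent : ∀ z ∈ E, (∀ e ∈ E, z * e = e * z) → z = 1 := by
    intro z hz hc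
    by_contra hz1
    obtain ⟨r, hr, hrd⟩ := Nat.exists_prime_and_dvd (mt orderOf_eq_one_iff.1 hz1)
    have := Fact.mk hr
    set y : E := (⟨z, hz⟩ : E) ^ (orderOf z / r) with hy
    have hyo : orderOf y = r := by
      rw [hy, ← Subgroup.orderOf_mk z hz]
      exact orderOf_pow_orderOf_div (orderOf_pos _).ne' (by rwa [Subgroup.orderOf_mk z hz])
    obtain ⟨P, hP⟩ := (IsPGroup.of_card (n := 1) (p := r)
      (by rw [Nat.card_zpowers, hyo, pow_one]) : IsPGroup r (Subgroup.zpowers y)).exists_le_sylow
    have hyC : y ∈ Subgroup.center E := Subgroup.pow_mem _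
      (Subgroup.mem_center_iff.2 fun e => Subtype.ext (hc e e.2).symm) _
    have h1 : y ∈ (P : Subgroup E) ⊓ Subgroup.center E ⊓ commutator E :=
      ⟨⟨hP (Subgroup.mem_zpowers y), hyC⟩, hperf ▸ Subgroup.mem_top y⟩
    rw [CfsgLib.PGroups.abelian_inf_center_inf_commutator P
      (hEA.isMulCommutative hr P.2), Subgroup.mem_bot] at h1
    rw [h1, orderOf_one] at hyo
    exact hr.ne_one hyo.symm
  -- `x` centralises `E`
  have hxE : E ≤ Subgroup.centralizer ({x} : Set G) := by
    refine Subgroup.subgroupOf_eq_top.1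
      (CfsgLib.MetacyclicP.TwoPowerIndex.eq_top_of_index_two_pow hEA hperf ?_)
    exact CfsgLib.MetacyclicP.TwoPowerIndex.dvd_two_pow
      (hx ▸ CfsgLib.ThompsonJ.relIndex_dvd_index_of_normal _ E)
  have hxc : ∀ e ∈ E, e * x = x * e := fun e he =>
    Subgroup.mem_centralizer_singleton_iff.1 (hxE he)
  -- every element of `E` centralises a Sylow 2-subgroup of `E`
  have hodd : ∀ r ∈ E, ¬ 2 ∣ (Subgroup.centralizer ({r} : Set G)).relIndex E := by
    intro r hr
    set D := Subgroup.centralizer ({x} : Set G) ⊓ Subgroup.centralizer ({r} : Set G) with hD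
    have hle : Subgroup.centralizer ({x * r} : Set G) ≤ D := by
      intro g hg
      have hgxr : g * (x * r) = x * r * g := Subgroup.mem_centralizer_singleton_iff.1 hg
      set c := r * (g * r * g⁻¹)⁻¹ with hc
      have hcE : c ∈ E := E.mul_mem hr (E.inv_mem (hEn.conj_mem r hr g))
      have hce : x⁻¹ * (g * x * g⁻¹) = c := by
        calc x⁻¹ * (g * x * g⁻¹) = x⁻¹ * (g * (x * r)) * r⁻¹ * g⁻¹ := by group
          _ = c := by rw [hgxr, hc]; group
      have hc1 : c = 1 := hcent c hcE fun e he => by
        have h1 : Commute x e := (hxc e he).symm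
        have h2 : Commute (g * x * g⁻¹) e := by
          have h3 : g⁻¹ * e * g ∈ E := by simpa using hEn.conj_mem e he g⁻¹
          show g * x * g⁻¹ * e = e * (g * x * g⁻¹)
          calc g * x * g⁻¹ * e = g * (x * (g⁻¹ * e * g)) * g⁻¹ := by group
            _ = e * (g * x * g⁻¹) := by rw [← hxc _ h3]; group
        rw [← hce]
        exact (h1.inv_left.mul_left h2).eq
      refine ⟨Subgroup.mem_centralizer_singleton_iff.2 ?_,
        Subgroup.mem_centralizer_singleton_iff.2 ?_⟩
      · rw [hc1, inv_mul_eq_one] at hce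
        exact mul_inv_eq_iff_eq_mul.1 hce.symm
      · rw [hc, mul_inv_eq_one] at hc1
        exact mul_inv_eq_iff_eq_mul.1 hc1.symm
    intro h2
    refine hmax (x * r) ?_
    refine dvd_trans ?_ (Subgroup.index_dvd_of_le hle)
    rw [hD, ← Subgroup.relIndex_mul_index (inf_le_left :
      Subgroup.centralizer ({x} : Set G) ⊓ Subgroup.centralizer ({r} : Set G) ≤
        Subgroup.centralizer ({x} : Set G)), Subgroup.inf_relIndex_left, hx, pow_succ']
    refine mul_dvd_mul (h2.trans ?_) dvd_rfl
    set C := Subgroup.centralizer ({x} : Set G)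
    have hn : (E.subgroupOf C).Normal := hEn.subgroupOf C
    have h3 := CfsgLib.ThompsonJ.relIndex_dvd_index_of_normal
      ((Subgroup.centralizer ({r} : Set G)).subgroupOf C) (E.subgroupOf C)
    rwa [Subgroup.relIndex_subgroupOf hxE] at h3
  -- so a Sylow 2-subgroup of `E` is central
  obtain ⟨T⟩ := (Sylow.nonempty : Nonempty (Sylow 2 E))
  set A := Subgroup.centralizer ((T : Subgroup E) : Set E)
  have hAtop : A = ⊤ := by
    by_contra hA'
    obtain ⟨g, hg⟩ := CfsgLib.ClassGraph.exists_forall_conj_notMem hA'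
    set K := (Subgroup.centralizer ({(g : G)} : Set G)).subgroupOf E with hK
    obtain ⟨P⟩ := (Sylow.nonempty : Nonempty (Sylow 2 K))
    set P' : Subgroup E := (P : Subgroup K).map K.subtype with hP'
    have hP'i : ¬ 2 ∣ P'.index := by
      rw [hP', Subgroup.index_map_subtype, Nat.prime_two.dvd_mul, not_or]
      exact ⟨P.not_dvd_index, hodd g g.2⟩
    let Q : Sylow 2 E := IsPGroup.toSylow (p := 2) (P.2.map K.subtype) hP'i
    obtain ⟨e, he⟩ := MulAction.exists_smul_eq E Q T
    refine hg e (Subgroup.mem_centralizer_iff.2 fun y hy => ?_)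
    rw [← he] at hy
    obtain ⟨d, hd, rfl⟩ := hy
    have hdK : d ∈ K := (Subgroup.map_subtype_le _ : P' ≤ K) hd
    have hdg : d * g = g * d :=
      Subtype.ext (Subgroup.mem_centralizer_singleton_iff.1 (Subgroup.mem_subgroupOf.1 hdK))
    simp only [MulDistribMulAction.toMonoidEnd_apply, MulDistribMulAction.toMonoidHom_apply,
      MulAut.smul_def, MulAut.conj_apply]
    calc e * d * e⁻¹ * (e * g * e⁻¹) = e * (d * g) * e⁻¹ := by group
      _ = e * g * e⁻¹ * (e * d * e⁻¹) := by rw [hdg]; group
  have hTbot : (T : Subgroup E) = ⊥ := by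
    refine (Subgroup.eq_bot_iff_forall _).2 fun y hy => Subtype.ext (hcent y y.2 fun e he => ?_)
    exact congrArg Subtype.val
      (Subgroup.mem_centralizer_iff.1 (hAtop ▸ Subgroup.mem_top (⟨e, he⟩ : E) : (⟨e, he⟩ : E) ∈ A)
        y hy)
  have hEodd : Odd (Nat.card E) := by
    have h1 := (T : Subgroup E).card_mul_index
    rw [hTbot, Subgroup.card_bot, one_mul] at h1
    rw [← h1, ← Nat.not_even_iff_odd, even_iff_two_dvd]
    exact hTbot ▸ T.not_dvd_index
  have : Group.IsSolvable E := Cfsg.Agent.S0205.result hEodd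
  by_contra hne
  haveI : Nontrivial E := (Subgroup.nontrivial_iff_ne_bot E).2 hne
  exact (Group.IsSolvable.commutator_lt_top_of_nontrivial E).ne hperf

end Cfsg.Agent.S4133
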