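import Cfsg.Statements.S4134
import Cfsg.Agent.Lib.NormalPComplement.Basic
import Cfsg.Agent.Lib.Cores.FPF
import Mathlib.GroupTheory.PGroup
import Mathlib.GroupTheory.Nilpotent

set_option autoImplicit false
open Cfsg

namespace Cfsg.Agent.S4134

section Aux

variable {G : Type*} [Group G]

local notation "Cen" x:max => Subgroup.centralizer ({x} : Set G)

theorem mem_cen {x y : G} : y ∈ Cen x ↔ Commute y x := Subgroup.mem_centralizer_singleton_iff

/-- Elements of coprime order with central commutator commute. -/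
theorem commute_of_coprime {y v : G} (hc : y * v * y⁻¹ * v⁻¹ ∈ Subgroup.center G)
    (hcop : (orderOf y).Coprime (orderOf v)) : Commute y v := by
  set c := y * v * y⁻¹ * v⁻¹ with hcdef
  have hcm : ∀ w : G, Commute c w := fun w => (Subgroup.mem_center_iff.1 hc w).symm
  have h1 : c ^ orderOf v = 1 := by
    have e : y * v * y⁻¹ = c * v := by rw [hcdef]; group
    have h := congrArg (· ^ orderOf v) e
    simp only [conj_pow, (hcm v).mul_pow, pow_orderOf_eq_one, mul_one, mul_inv_cancel] at h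
    exact h.symm
  have h2 : c ^ orderOf y = 1 := by
    have e : v * y⁻¹ * v⁻¹ = c * y⁻¹ := by
      rw [(hcm y⁻¹).eq, hcdef]; group
    have h := congrArg (· ^ orderOf y) e
    simp only [conj_pow, (hcm y⁻¹).mul_pow, inv_pow, pow_orderOf_eq_one, inv_one, mul_one, mul_inv_cancel] at h
    exact h.symm
  have : c = 1 := orderOf_eq_one_iff.1 (Nat.eq_one_of_dvd_one (hcop.gcd_eq_one ▸
    Nat.dvd_gcd (orderOf_dvd_of_pow_eq_one h2) (orderOf_dvd_of_pow_eq_one h1)))
  rw [hcdef, mul_inv_eq_one, mul_inv_eq_iff_eq_mul] at this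
  exact this

variable [Finite G] {n : ℕ} (h : ∀ x : G, (Subgroup.centralizer ({x} : Set G)).index = 1 ∨
  (Subgroup.centralizer ({x} : Set G)).index = n)
include h

theorem index_eq {x : G} (hx : x ∉ Subgroup.center G) : (Cen x).index = n := by
  refine (h x).resolve_left fun h1 => hx (Subgroup.mem_center_iff.2 fun w => ?_)
  exact mem_cen.1 (Subgroup.index_eq_one.1 h1 ▸ Subgroup.mem_top w)

theorem eq_of_le {x y : G} (hx : x ∉ Subgroup.center G) (hy : y ∉ Subgroup.center G) (hle : Cen x ≤ Cen y) :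
    Cen x = Cen y := by
  refine Subgroup.eq_of_le_of_card_ge hle (le_of_eq ?_)
  refine Nat.eq_of_mul_eq_mul_right (Nat.pos_of_ne_zero (Subgroup.index_ne_zero_of_finite (H := Cen y))) ?_
  rw [Subgroup.card_mul_index, index_eq h hy, ← index_eq h hx, Subgroup.card_mul_index]

/-- Noncentral elements commuting in coprime orders share their centraliser. -/
theorem eq_of_coprime {x y : G} (hx : x ∉ Subgroup.center G) (hy : y ∉ Subgroup.center G) (hc : Commute x y)
    (hcop : (orderOf x).Coprime (orderOf y)) : Cen x = Cen y := by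
  obtain ⟨a, ha1, ha2⟩ := Nat.chineseRemainder hcop 1 0
  obtain ⟨b, hb1, hb2⟩ := Nat.chineseRemainder hcop 0 1
  have ea : (x * y) ^ a = x := by
    rw [hc.mul_pow, pow_eq_pow_iff_modEq.2 ha1, pow_one, orderOf_dvd_iff_pow_eq_one.1
      (Nat.modEq_zero_iff_dvd.1 ha2), mul_one]
  have eb : (x * y) ^ b = y := by
    rw [hc.mul_pow, orderOf_dvd_iff_pow_eq_one.1 (Nat.modEq_zero_iff_dvd.1 hb1), one_mul,
      pow_eq_pow_iff_modEq.2 hb2, pow_one]
  have hxy : x * y ∉ Subgroup.center G := fun hz => hx (ea ▸ Subgroup.pow_mem _ hz a)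
  have h1 : Cen (x * y) ≤ Cen x := fun w hw => mem_cen.2 (ea ▸ (mem_cen.1 hw).pow_right a)
  have h2 : Cen (x * y) ≤ Cen y := fun w hw => mem_cen.2 (eb ▸ (mem_cen.1 hw).pow_right b)
  rw [← eq_of_le h hxy hx h1, eq_of_le h hxy hy h2]

/-- The key lemma: an element outside a centraliser has `p`-th power central. -/
theorem pow_mem_center {p : ℕ} {z y : G} (hz : z ∉ Subgroup.center G) (hzp : z ^ p ∈ Subgroup.center G)
    (hy : y ∉ Subgroup.center G) (hne : Cen y ≠ Cen z) (hc : z * y * z⁻¹ * y⁻¹ ∈ Subgroup.center G) :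
    y ^ p ∈ Subgroup.center G := by
  by_contra hyp
  have hC : Cen y = Cen (y ^ p) :=
    eq_of_le h hy hyp fun w hw => mem_cen.2 ((mem_cen.1 hw).pow_right p)
  let π := QuotientGroup.mk' (Subgroup.center G)
  have hcm : Commute (π z) (π y) := by
    have h1 : π (z * y * z⁻¹ * y⁻¹) = 1 := (QuotientGroup.eq_one_iff _).2 hc
    simp only [map_mul, map_inv] at h1
    exact mul_inv_eq_iff_eq_mul.1 (mul_inv_eq_one.1 h1)
  set w := (y ^ p)⁻¹ * (z * y) ^ p with hw
  have hwc : w ∈ Subgroup.center G := by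
    rw [← QuotientGroup.eq_one_iff]
    show π w = 1
    rw [hw, map_mul, map_inv, map_pow, map_pow, map_mul, hcm.mul_pow,
      show π z ^ p = 1 by rw [← map_pow]; exact (QuotientGroup.eq_one_iff _).2 hzp, one_mul, inv_mul_cancel]
  have hzy : z * y ∉ Subgroup.center G := by
    intro hm
    refine hne ?_
    ext v
    have hv : Commute v (z * y) := Subgroup.mem_center_iff.1 hm v
    constructor
    · intro hvy
      have := hv.mul_right (mem_cen.1 hvy).inv_right
      rw [mul_inv_cancel_right] at this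
      exact mem_cen.2 this
    · intro hvz
      have := (mem_cen.1 hvz).inv_right.mul_right hv
      rw [inv_mul_cancel_left] at this
      exact mem_cen.2 this
  have hpw : (z * y) ^ p = y ^ p * w := by rw [hw, mul_inv_cancel_left]
  have hzyp : (z * y) ^ p ∉ Subgroup.center G := fun hm => hyp (by
    have := (Subgroup.center G).mul_mem hm ((Subgroup.center G).inv_mem hwc)
    rwa [hpw, mul_inv_cancel_right] at this)
  have hC2 : Cen (z * y) = Cen y := by
    rw [hC]
    refine eq_of_le h hzy hyp fun v hv => mem_cen.2 ?_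
    have h1 := ((mem_cen.1 hv).pow_right p).mul_right
      (show Commute v w⁻¹ from Subgroup.mem_center_iff.1 ((Subgroup.center G).inv_mem hwc) v)
    rwa [hpw, mul_inv_cancel_right] at h1
  refine hne (eq_of_le h hy hz fun v hv => mem_cen.2 ?_)
  have h1 := (mem_cen.1 (hC2 ▸ hv)).mul_right (mem_cen.1 hv).inv_right
  rwa [mul_inv_cancel_right] at h1

omit h in
/-- A noncentral element has a noncentral primary part. -/
theorem exists_prime_part {x : G} (hx : x ∉ Subgroup.center G) :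
    ∃ (p : ℕ) (_ : p.Prime) (a : ℕ), x ^ a ∉ Subgroup.center G ∧ ∃ k, orderOf (x ^ a) ∣ p ^ k := by
  obtain ⟨p, hp, hpd⟩ := Nat.exists_prime_and_dvd (n := orderOf (x : G ⧸ Subgroup.center G))
    (fun h1 => hx ((QuotientGroup.eq_one_iff x).1 (orderOf_eq_one_iff.1 h1)))
  have : Fact p.Prime := ⟨hp⟩
  obtain ⟨a, b, hab, hk, hb⟩ := CfsgLib.NormalPComplement.exists_pParts (p := p) (isOfFinOrder_of_finite x)
  refine ⟨p, hp, a, fun ha => hp.coprime_iff_not_dvd.1 hb.symm ?_, hk⟩
  refine hpd.trans (dvd_trans ?_ (orderOf_map_dvd (QuotientGroup.mk' (Subgroup.center G)) (x ^ b)))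
  conv_lhs => rw [← hab, QuotientGroup.mk_mul, (QuotientGroup.eq_one_iff _).2 ha, one_mul]
  rfl

omit h in
/-- A Sylow subgroup for a prime dividing `|G : Z(G)|` is not central. -/
theorem sylow_not_le {q : ℕ} [Fact q.Prime] (hq : q ∣ (Subgroup.center G).index) (Q : Sylow q G) :
    ¬ (Q : Subgroup G) ≤ Subgroup.center G :=
  fun hle => Q.not_dvd_index (hq.trans (Subgroup.index_dvd_of_le hle))

/-- A prime dividing `|G : Z(G)|` divides `|C : Z(G)|` for every noncentral centraliser. -/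
theorem prime_dvd_relIndex {q : ℕ} [Fact q.Prime] (hq : q ∣ (Subgroup.center G).index) {x : G}
    (hx : x ∉ Subgroup.center G) : q ∣ (Subgroup.center G).relIndex (Cen x) := by
  obtain ⟨Q⟩ := (inferInstance : Nonempty (Sylow q G))
  obtain ⟨y, hy, hyc⟩ := Set.not_subset.1 (sylow_not_le hq Q)
  rw [SetLike.mem_coe] at hy hyc
  have e : ∀ w : G, Subgroup.center G ≤ Cen w := fun w v hv => mem_cen.2 (Subgroup.mem_center_iff.1 hv w).symm
  have h1 : (Subgroup.center G).relIndex (Cen x) = (Subgroup.center G).relIndex (Cen y) := by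
    have a1 := Subgroup.relIndex_mul_index (e x)
    have a2 := Subgroup.relIndex_mul_index (e y)
    rw [index_eq h hx] at a1
    rw [index_eq h hyc, ← a1] at a2
    refine (Nat.eq_of_mul_eq_mul_right (Nat.pos_of_ne_zero ?_) a2).symm
    rw [← index_eq h hx]; exact Subgroup.index_ne_zero_of_finite
  rw [h1]
  have : ((Subgroup.center G).subgroupOf (Cen y)).Normal := inferInstance
  let u : Cen y ⧸ (Subgroup.center G).subgroupOf (Cen y) := QuotientGroup.mk ⟨y, mem_cen.2 rfl⟩
  have hu : u ≠ 1 := fun hu => hyc (Subgroup.mem_subgroupOf.1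
    ((QuotientGroup.eq_one_iff (⟨y, mem_cen.2 rfl⟩ : Cen y)).1 hu))
  obtain ⟨k, hk⟩ := IsPGroup.iff_orderOf.1 Q.2 ⟨y, hy⟩
  rw [Subgroup.orderOf_mk] at hk
  have hd : orderOf u ∣ q ^ k := by
    rw [← hk, ← Subgroup.orderOf_mk y (mem_cen.2 rfl : y ∈ Cen y)]
    exact orderOf_map_dvd (QuotientGroup.mk' _) _
  obtain ⟨j, -, hj⟩ := (Nat.dvd_prime_pow Fact.out).1 hd
  have hj0 : j ≠ 0 := fun h0 => hu (orderOf_eq_one_iff.1 (by rw [hj, h0, pow_zero]))
  refine ((dvd_pow_self q hj0).trans hj.symm.dvd).trans ?_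
  rw [Subgroup.relIndex, Subgroup.index_eq_card]
  exact orderOf_dvd_natCard u

/-- If two primes divide `|G : Z(G)|`, the noncentral centralisers are abelian. -/
theorem cen_comm {p q : ℕ} [hp : Fact p.Prime] [hq : Fact q.Prime] (hpq : p ≠ q)
    (hpd : p ∣ (Subgroup.center G).index) (hqd : q ∣ (Subgroup.center G).index)
    {x y : G} (hx : x ∉ Subgroup.center G) (hy : y ∈ Cen x) (hyc : y ∉ Subgroup.center G) : Cen y = Cen x := by
  -- every centraliser contains noncentral elements of every such prime order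
  have hex : ∀ (r : ℕ) [Fact r.Prime], r ∣ (Subgroup.center G).index →
      ∃ u ∈ Cen x, u ∉ Subgroup.center G ∧ ∃ k, orderOf u ∣ r ^ k := by
    intro r _ hr
    have hd := prime_dvd_relIndex h hr hx
    rw [Subgroup.relIndex, Subgroup.index_eq_card] at hd
    obtain ⟨u, hu⟩ := exists_prime_orderOf_dvd_card' r hd
    obtain ⟨w, rfl⟩ := QuotientGroup.mk_surjective u
    obtain ⟨a, b, hab, hk, hb⟩ := CfsgLib.NormalPComplement.exists_pParts (p := r) (isOfFinOrder_of_finite (w : G))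
    refine ⟨(w : G) ^ a, Subgroup.pow_mem _ w.2 a, fun ha => (Fact.out : r.Prime).coprime_iff_not_dvd.1 hb.symm ?_, hk⟩
    conv_lhs => rw [← hu]
    refine orderOf_dvd_of_pow_eq_one ?_
    rw [← QuotientGroup.mk_pow, QuotientGroup.eq_one_iff, Subgroup.mem_subgroupOf, Subgroup.coe_pow]
    have e : (w : G) ^ orderOf ((w : G) ^ b) = ((w : G) ^ a) ^ orderOf ((w : G) ^ b) := by
      nth_rewrite 1 [← hab]
      rw [((Commute.refl (w : G)).pow_pow a b).mul_pow, pow_orderOf_eq_one, mul_one]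
    rw [e]
    exact Subgroup.pow_mem _ ha _
  -- a noncentral primary element of `Cen x` has the same centraliser
  obtain ⟨u, hux, huc, i, hi⟩ := hex p hpd
  obtain ⟨v, hvx, hvc, j, hj⟩ := hex q hqd
  obtain ⟨r, hr, a, hac, k, hk⟩ := exists_prime_part hx
  have hC : ∀ {w : G}, w ∉ Subgroup.center G → ∀ a : ℕ, w ^ a ∉ Subgroup.center G → Cen w = Cen (w ^ a) :=
    fun hw a ha => eq_of_le h hw ha fun s hs => mem_cen.2 ((mem_cen.1 hs).pow_right a)
  have hprim : ∀ w ∈ Cen x, w ∉ Subgroup.center G → ∀ (s : ℕ), s.Prime → ∀ l, orderOf w ∣ s ^ l → Cen w = Cen x := by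
    intro w hw hwc s hs l hl
    have hco : ∀ {b : G} {t l' : ℕ}, t.Prime → t ≠ s → orderOf b ∣ t ^ l' → (orderOf w).Coprime (orderOf b) :=
      fun ht hne hl' => ((((Nat.coprime_primes hs ht).2 hne.symm).pow l _).coprime_dvd_left hl).coprime_dvd_right hl'
    by_cases hsr : r = s
    · -- go through an element of another prime
      obtain ⟨b, t, ht, htr, hbx, hbc, l', hl'⟩ : ∃ (b : G) (t : ℕ), t.Prime ∧ t ≠ r ∧ b ∈ Cen x ∧ b ∉ Subgroup.center G ∧
          ∃ l', orderOf b ∣ t ^ l' := by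
        by_cases hpr : p = r
        · exact ⟨v, q, hq.out, fun e => hpq (hpr.trans e.symm), hvx, hvc, j, hj⟩
        · exact ⟨u, p, hp.out, hpr, hux, huc, i, hi⟩
      have hbxa : Cen b = Cen x := by
        rw [hC hx a hac]
        exact eq_of_coprime h hbc hac ((mem_cen.1 hbx).pow_right a)
          (((((Nat.coprime_primes ht hr).2 htr).pow l' _).coprime_dvd_left hl').coprime_dvd_right hk)
      have hwb : Commute w b := mem_cen.1 (hbxa ▸ hw)
      rw [← hbxa]
      exact eq_of_coprime h hwc hbc hwb (hco ht (hsr ▸ htr) hl')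
    · rw [hC hx a hac]
      exact eq_of_coprime h hwc hac ((mem_cen.1 hw).pow_right a) (hco hr hsr hk)
  obtain ⟨s, hs, b, hbc, l, hl⟩ := exists_prime_part hyc
  rw [hC hyc b hbc]
  exact hprim _ (Subgroup.pow_mem _ hy b) hbc s hs l hl

/-- At most one prime divides `|G : Z(G)|`. -/
theorem eq_of_dvd_index {p q : ℕ} [hp : Fact p.Prime] [hq : Fact q.Prime]
    (hn : 1 < n) (hpd : p ∣ (Subgroup.center G).index) (hqd : q ∣ (Subgroup.center G).index) : p = q := by
  classical
  by_contra hpq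
  set Z := Subgroup.center G with hZ
  obtain ⟨x, hx⟩ : ∃ x : G, x ∉ Z := by
    by_contra hne
    push Not at hne
    exact hp.out.one_lt.ne' (Nat.eq_one_of_dvd_one (hpd.trans (dvd_of_eq (Subgroup.index_eq_one.2 ((Subgroup.eq_top_iff' _).2 hne)))))
  have hpart : ∀ {x y : G}, x ∉ Z → y ∈ Cen x → y ∉ Z → Cen y = Cen x := fun h1 h2 h3 => cen_comm h hpq hpd hqd h1 h2 h3
  have hab : ∀ {x : G}, x ∉ Z → ∀ u ∈ Cen x, ∀ v ∈ Cen x, Commute u v := by
    intro x hx u hu v hv
    by_cases hvz : v ∈ Z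
    · exact Subgroup.mem_center_iff.1 hvz u
    · exact mem_cen.1 (hpart hx hv hvz ▸ hu)
  have hZle : ∀ w : G, Z ≤ Cen w := fun w v hv => mem_cen.2 (Subgroup.mem_center_iff.1 hv w).symm
  set m := Z.relIndex (Cen x) with hm
  have hmn : m * n = Z.index := by rw [hm, ← index_eq h hx]; exact Subgroup.relIndex_mul_index (hZle x)
  -- each prime of `n` occurs only to the first power
  have hsq : ∀ r : ℕ, r.Prime → ¬ r ^ 2 ∣ n := by
    intro r hr hrn
    have : Fact r.Prime := ⟨hr⟩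
    have hrZ : r ∣ Z.index := ((dvd_pow_self r two_ne_zero).trans hrn).trans (hmn ▸ dvd_mul_left n m)
    obtain ⟨Q⟩ := (inferInstance : Nonempty (Sylow r G))
    -- the centre of `Q` is central
    have hZQ : ∀ z ∈ (Q : Subgroup G), (Q : Subgroup G) ≤ Cen z → z ∈ Z := fun z _ hz => by
      by_contra hzc
      refine Q.not_dvd_index (((dvd_pow_self r two_ne_zero).trans hrn).trans ?_)
      rw [← index_eq h hzc]
      exact Subgroup.index_dvd_of_le hz
    -- an element of the second centre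
    obtain ⟨z, hzQ, hzc, hzr, hzcomm⟩ : ∃ z ∈ (Q : Subgroup G), z ∉ Z ∧ z ^ r ∈ Z ∧ ∀ y ∈ (Q : Subgroup G), y * z * y⁻¹ * z⁻¹ ∈ Z := by
      let Z' := Z.subgroupOf (Q : Subgroup G)
      have hQ' : IsPGroup r ((Q : Subgroup G) ⧸ Z') := Q.2.to_quotient Z'
      have : Nontrivial ((Q : Subgroup G) ⧸ Z') := QuotientGroup.nontrivial_iff.2 fun e =>
        sylow_not_le hrZ Q (Subgroup.subgroupOf_eq_top.1 e)
      have := hQ'.center_nontrivial
      obtain ⟨k, hk0, hk⟩ := (hQ'.to_subgroup (Subgroup.center _)).nontrivial_iff_card.1 this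
      obtain ⟨⟨u, hu⟩, hu'⟩ := exists_prime_orderOf_dvd_card' (G := Subgroup.center ((Q : Subgroup G) ⧸ Z')) r (hk ▸ dvd_pow_self r hk0.ne')
      rw [Subgroup.orderOf_mk] at hu'
      obtain ⟨z, rfl⟩ := QuotientGroup.mk'_surjective Z' u
      refine ⟨z, z.2, fun hz => ?_, ?_, fun y hy => ?_⟩
      · rw [QuotientGroup.mk'_apply, (QuotientGroup.eq_one_iff z).2 (Subgroup.mem_subgroupOf.2 hz), orderOf_one] at hu'
        exact hr.one_lt.ne hu'
      · exact Subgroup.mem_subgroupOf.1 ((QuotientGroup.eq_one_iff (z ^ r)).1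
          (by rw [QuotientGroup.mk_pow]; exact orderOf_dvd_iff_pow_eq_one.1 hu'.dvd))
      · have h1 : QuotientGroup.mk' Z' ((⟨y, hy⟩ : (Q : Subgroup G)) * z * (⟨y, hy⟩ : (Q : Subgroup G))⁻¹ * z⁻¹) = 1 := by
          simp only [map_mul, map_inv]
          rw [Subgroup.mem_center_iff.1 hu (QuotientGroup.mk' Z' ⟨y, hy⟩)]
          group
        exact Subgroup.mem_subgroupOf.1 ((QuotientGroup.eq_one_iff _).1 h1)
    set C := Cen z with hC
    have hQC : (Q : Subgroup G) ≤ Subgroup.normalizer (C : Set G) := fun y hy => by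
      refine Subgroup.mem_normalizer_fintype fun v hv => mem_cen.2 ?_
      rw [SetLike.mem_coe, mem_cen] at hv
      have h1 : Commute (y * v * y⁻¹) (y * z * y⁻¹) := by
        show y * v * y⁻¹ * (y * z * y⁻¹) = y * z * y⁻¹ * (y * v * y⁻¹)
        calc y * v * y⁻¹ * (y * z * y⁻¹) = y * (v * z) * y⁻¹ := by group
          _ = y * z * y⁻¹ * (y * v * y⁻¹) := by rw [hv.eq]; group
      have h2 : Commute (y * v * y⁻¹) (y * z * y⁻¹ * z⁻¹)⁻¹ :=
        Subgroup.mem_center_iff.1 (Z.inv_mem (hzcomm y hy)) _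
      have h3 := h2.mul_right h1
      rwa [show (y * z * y⁻¹ * z⁻¹)⁻¹ * (y * z * y⁻¹) = z by group] at h3
    -- `v ↦ v ^ e` separates the `r`-part of `C`
    set e := ordProj[r] (Nat.card G) with he
    have hCc : ∀ u ∈ C, ∀ v ∈ C, Commute u v := hab hzc
    let M : Subgroup G :=
      { carrier := {v | v ∈ C ∧ v ^ e ∈ Z}
        one_mem' := ⟨C.one_mem, by rw [one_pow]; exact Z.one_mem⟩
        mul_mem' := fun {u v} hu hv => ⟨C.mul_mem hu.1 hv.1, by
          rw [(hCc u hu.1 v hv.1).mul_pow]; exact Z.mul_mem hu.2 hv.2⟩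
        inv_mem' := fun {u} hu => ⟨C.inv_mem hu.1, by rw [inv_pow]; exact Z.inv_mem hu.2⟩ }
    set T := Subgroup.normalizer (C : Set G) with hT
    have hMT : (M.subgroupOf T).Normal := ⟨fun v hv t => by
      rw [Subgroup.mem_subgroupOf] at hv ⊢
      refine ⟨(Subgroup.mem_normalizer_iff.1 t.2 v.1).1 hv.1, ?_⟩
      show ((t : G) * v * (t : G)⁻¹) ^ e ∈ Z
      rw [conj_pow]
      exact (inferInstance : Z.Normal).conj_mem _ hv.2 t⟩
    let π := QuotientGroup.mk' (M.subgroupOf T)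
    let A := ((Q : Subgroup G).subgroupOf T).map π
    let V := (C.subgroupOf T).map π
    have hQ0 : ∀ y ∈ (Q : Subgroup G), y ∈ C → y ∈ M := fun y hy hyC => by
      refine ⟨hyC, ?_⟩
      have : y ^ e = 1 := by
        rw [← orderOf_dvd_iff_pow_eq_one]
        exact (Subgroup.orderOf_dvd_natCard _ hy).trans (dvd_of_eq Q.card_eq_multiplicity)
      rw [this]; exact Z.one_mem
    -- `Q` acts fixed-point-freely
    have hfix : ∀ y ∈ (Q : Subgroup G), y ∉ C → ∀ v ∈ C, y * v * y⁻¹ * v⁻¹ ∈ M → v ∈ M := by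
      intro y hy hyC v hv hyv
      refine ⟨hv, ?_⟩
      have hcy : y * v ^ e * y⁻¹ * (v ^ e)⁻¹ ∈ Z := by
        have h1 := hyv.2
        rwa [(hCc _ ((Subgroup.mem_normalizer_iff.1 (hQC hy) v).1 hv) _ (C.inv_mem hv)).mul_pow, conj_pow, inv_pow] at h1
      have hcop : (orderOf y).Coprime (orderOf (v ^ e)) := by
        obtain ⟨k, hk⟩ := IsPGroup.iff_orderOf.1 Q.2 ⟨y, hy⟩
        rw [Subgroup.orderOf_mk] at hk
        rw [hk]
        refine Nat.Coprime.coprime_dvd_right (orderOf_dvd_of_pow_eq_one (n := ordCompl[r] (Nat.card G)) ?_)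
          ((Nat.coprime_ordCompl hr Nat.card_pos.ne').pow_left k)
        rw [← pow_mul, he, Nat.ordProj_mul_ordCompl_eq_self]; exact pow_card_eq_one'
      have hcm := commute_of_coprime hcy hcop
      by_contra hvz
      exact hyC (by rw [hC, ← hpart hzc (C.pow_mem hv e) hvz]; exact mem_cen.2 hcm)
    have hA : IsPGroup r A := (Q.2.comap_of_injective _ T.subtype_injective).map π
    have hAexp : ∀ a : A, a ^ r = 1 := by
      rintro ⟨_, ⟨y, hyT⟩, hy, rfl⟩
      refine Subtype.ext ?_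
      show π ⟨y, hyT⟩ ^ r = 1
      rw [← map_pow]
      refine (QuotientGroup.eq_one_iff _).2 ?_
      rw [Subgroup.mem_subgroupOf]
      show y ^ r ∈ M
      replace hy : y ∈ (Q : Subgroup G) := hy
      refine hQ0 _ (Subgroup.pow_mem _ hy r) ?_
      by_cases hyC : y ∈ C
      · exact C.pow_mem hyC r
      · have hyc : y ∉ Z := fun hh => hyC (hZle z hh)
        refine hZle z (pow_mem_center h hzc hzr hyc (fun e => hyC (by rw [hC, ← e]; exact mem_cen.2 rfl)) ?_)
        have h1 := Z.inv_mem (hzcomm y hy)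
        rw [show (y * z * y⁻¹ * z⁻¹)⁻¹ = z * y * z⁻¹ * y⁻¹ by group] at h1
        exact h1
    have hAc : IsMulCommutative A := ⟨⟨by
      rintro ⟨_, ⟨a, haT⟩, ha, rfl⟩ ⟨_, ⟨b, hbT⟩, hb, rfl⟩
      refine Subtype.ext ?_
      show π ⟨a, haT⟩ * π ⟨b, hbT⟩ = π ⟨b, hbT⟩ * π ⟨a, haT⟩
      refine mul_inv_eq_iff_eq_mul.1 (mul_inv_eq_one.1 ?_)
      simp only [← map_inv, ← map_mul]
      refine (QuotientGroup.eq_one_iff _).2 ?_
      rw [Subgroup.mem_subgroupOf]
      show a * b * a⁻¹ * b⁻¹ ∈ M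
      replace ha : a ∈ (Q : Subgroup G) := ha
      replace hb : b ∈ (Q : Subgroup G) := hb
      refine hQ0 _ (Subgroup.mul_mem _ (Subgroup.mul_mem _ (Subgroup.mul_mem _ ha hb) (Subgroup.inv_mem _ ha)) (Subgroup.inv_mem _ hb)) ?_
      refine mem_cen.2 ?_
      obtain ⟨c1, hc1, e1⟩ : ∃ c, c ∈ Z ∧ a * z * a⁻¹ = c * z := ⟨_, hzcomm a ha, by group⟩
      obtain ⟨c2, hc2, e2⟩ : ∃ c, c ∈ Z ∧ b * z * b⁻¹ = c * z := ⟨_, hzcomm b hb, by group⟩
      have f1 : a⁻¹ * z * a = c1⁻¹ * z := by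
        have : z = a⁻¹ * (c1 * z) * a := by rw [← e1]; group
        calc a⁻¹ * z * a = c1⁻¹ * (c1 * (a⁻¹ * z * a)) := by group
          _ = c1⁻¹ * (a⁻¹ * (c1 * z) * a) := by
            rw [show c1 * (a⁻¹ * z * a) = c1 * a⁻¹ * z * a by group, ← Subgroup.mem_center_iff.1 hc1 a⁻¹]; group
          _ = c1⁻¹ * z := by rw [← this]
      have f2 : b⁻¹ * z * b = c2⁻¹ * z := by
        have : z = b⁻¹ * (c2 * z) * b := by rw [← e2]; group
        calc b⁻¹ * z * b = c2⁻¹ * (c2 * (b⁻¹ * z * b)) := by group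
          _ = c2⁻¹ * (b⁻¹ * (c2 * z) * b) := by
            rw [show c2 * (b⁻¹ * z * b) = c2 * b⁻¹ * z * b by group, ← Subgroup.mem_center_iff.1 hc2 b⁻¹]; group
          _ = c2⁻¹ * z := by rw [← this]
      have e3 : a * b * a⁻¹ * b⁻¹ * z * (a * b * a⁻¹ * b⁻¹)⁻¹ = z := by
        have k1 : ∀ c, c ∈ Z → ∀ g w : G, g * (c * w) * g⁻¹ = c * (g * w * g⁻¹) := fun c hc g w => by
          rw [← mul_assoc g c w, Subgroup.mem_center_iff.1 hc g]; group
        have f1' : a⁻¹ * z * a⁻¹⁻¹ = c1⁻¹ * z := by rw [inv_inv]; exact f1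
        have f2' : b⁻¹ * z * b⁻¹⁻¹ = c2⁻¹ * z := by rw [inv_inv]; exact f2
        have hi1 := Z.inv_mem hc1
        have hi2 := Z.inv_mem hc2
        rw [show a * b * a⁻¹ * b⁻¹ * z * (a * b * a⁻¹ * b⁻¹)⁻¹ =
          a * (b * (a⁻¹ * (b⁻¹ * z * b⁻¹⁻¹) * a⁻¹⁻¹) * b⁻¹) * a⁻¹ by group, f2', k1 _ hi2, f1', k1 _ hi2,
          k1 _ hi1, e2, k1 _ hi2, k1 _ hi1, k1 _ hc2, e1]
        calc c2⁻¹ * (c1⁻¹ * (c2 * (c1 * z))) = c2⁻¹ * (c1⁻¹ * c2) * c1 * z := by group
          _ = c2⁻¹ * (c2 * c1⁻¹) * c1 * z := by rw [Subgroup.mem_center_iff.1 hc2 c1⁻¹]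
          _ = z := by group
      exact mul_inv_eq_iff_eq_mul.1 e3⟩⟩
    have hVne : V ≠ ⊥ := fun hbot => by
      obtain ⟨s, hs, hsr, hsd⟩ : ∃ s : ℕ, s.Prime ∧ s ≠ r ∧ s ∣ Z.index := by
        by_cases hpr : p = r
        · exact ⟨q, hq.out, fun e => hpq (hpr.trans e.symm), hqd⟩
        · exact ⟨p, hp.out, hpr, hpd⟩
      have : Fact s.Prime := ⟨hs⟩
      have hd := prime_dvd_relIndex h hsd hzc
      rw [Subgroup.relIndex, Subgroup.index_eq_card] at hd
      obtain ⟨u, hu⟩ := exists_prime_orderOf_dvd_card' s hd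
      obtain ⟨w, rfl⟩ := QuotientGroup.mk_surjective u
      have hwM : (w : G) ∈ M := by
        have h1 : π ⟨w, Subgroup.le_normalizer w.2⟩ ∈ V := ⟨_, w.2, rfl⟩
        rw [hbot, Subgroup.mem_bot] at h1
        exact Subgroup.mem_subgroupOf.1 ((QuotientGroup.eq_one_iff (⟨(w : G), Subgroup.le_normalizer w.2⟩ : T)).1 h1)
      have h2 : s ∣ e := by
        conv_lhs => rw [← hu]
        refine orderOf_dvd_of_pow_eq_one ?_
        rw [← QuotientGroup.mk_pow, QuotientGroup.eq_one_iff, Subgroup.mem_subgroupOf]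
        exact hwM.2
      exact hsr ((Nat.prime_dvd_prime_iff_eq hs hr).1 (hs.dvd_of_dvd_pow h2))
    have hVn : V.Normal := (Subgroup.normal_in_normalizer (H := C)).map π (QuotientGroup.mk'_surjective _)
    have hcyc : IsCyclic A := by
      refine CfsgLib.Cores.isCyclic_of_fpf hVne (by rw [Subgroup.normalizer_eq_top]; exact le_top) ?_
      rintro _ ⟨⟨y, hyT⟩, hy, rfl⟩ h1
      rw [eq_bot_iff]
      rintro _ ⟨⟨⟨v, hvT⟩, hv, rfl⟩, hc⟩
      replace hy : y ∈ (Q : Subgroup G) := hy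
      replace hv : v ∈ C := hv
      replace hc : π ⟨v, hvT⟩ * π ⟨y, hyT⟩ = π ⟨y, hyT⟩ * π ⟨v, hvT⟩ := Subgroup.mem_centralizer_singleton_iff.1 hc
      rw [Subgroup.mem_bot]
      refine (QuotientGroup.eq_one_iff _).2 (Subgroup.mem_subgroupOf.2 (hfix y hy ?_ v hv ?_))
      · exact fun hyC => h1 ((QuotientGroup.eq_one_iff _).2 (Subgroup.mem_subgroupOf.2 (hQ0 y hy hyC)))
      · have h2 : π (⟨y, hyT⟩ * ⟨v, hvT⟩ * ⟨y, hyT⟩⁻¹ * ⟨v, hvT⟩⁻¹) = 1 := by
          simp only [map_mul, map_inv]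
          rw [← hc]; group
        exact Subgroup.mem_subgroupOf.1 ((QuotientGroup.eq_one_iff _).1 h2)
    obtain ⟨g, hg⟩ := hcyc.exists_generator
    have hAle : Nat.card A ∣ r := by
      rw [← orderOf_eq_card_of_forall_mem_zpowers hg]
      exact orderOf_dvd_of_pow_eq_one (hAexp g)
    have hidx : (C ⊓ (Q : Subgroup G)).relIndex (Q : Subgroup G) ∣ r := by
      refine dvd_trans ?_ hAle
      let f : (Q : Subgroup G) →* A :=
        (π.comp (Subgroup.inclusion hQC)).codRestrict A fun y => ⟨_, y.2, rfl⟩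
      have hker : f.ker ≤ (C ⊓ (Q : Subgroup G)).subgroupOf (Q : Subgroup G) := fun y hy => by
        have h2 : π (Subgroup.inclusion hQC y) = 1 := congrArg Subtype.val (MonoidHom.mem_ker.1 hy)
        exact ⟨(Subgroup.mem_subgroupOf.1 ((QuotientGroup.eq_one_iff (Subgroup.inclusion hQC y)).1 h2)).1, y.2⟩
      refine (Subgroup.index_dvd_of_le hker).trans ?_
      rw [Subgroup.index_ker]
      exact Subgroup.card_subgroup_dvd_card _
    have h2 : r ^ 2 ∣ (C ⊓ (Q : Subgroup G)).relIndex (Q : Subgroup G) * (Q : Subgroup G).index := by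
      rw [Subgroup.relIndex_mul_index inf_le_right]
      refine hrn.trans ?_
      rw [← index_eq h hzc]
      exact Subgroup.index_dvd_of_le inf_le_left
    have h3 := ((hr.coprime_iff_not_dvd.2 Q.not_dvd_index).pow_left 2).dvd_of_dvd_mul_right h2
    have h4 := Nat.le_of_dvd hr.pos (h3.trans hidx)
    nlinarith [hr.two_le]
  -- count the noncentral elements by centraliser
  have hdvd : m - 1 ∣ m * n - 1 := by
    let _ : Fintype G := Fintype.ofFinite G
    let _ : Fintype (Subgroup G) := Fintype.ofFinite _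
    let S : Finset G := Finset.univ.filter (· ∉ Z)
    have hS : ∀ K : Subgroup G, Z ≤ K → (S.filter (· ∈ K)).card + Nat.card Z = Nat.card K := by
      intro K hK
      rw [Nat.card_eq_fintype_card, Nat.card_eq_fintype_card, Fintype.card_subtype, Fintype.card_subtype,
        ← Finset.card_union_of_disjoint]
      · congr 1
        ext w
        simp only [S, Finset.mem_union, Finset.mem_filter, Finset.mem_univ, true_and]
        exact ⟨fun hw => hw.elim And.right (hK ·), fun hw => (em (w ∈ Z)).elim Or.inr fun hz => Or.inl ⟨hz, hw⟩⟩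
      · rw [Finset.disjoint_left]
        intro w h1 h2
        simp only [S, Finset.mem_filter, Finset.mem_univ, true_and] at h1 h2
        exact h1.1 h2
    have hfib : ∀ K ∈ S.image (fun w => Cen w), (S.filter fun w => Cen w = K).card = (m - 1) * Nat.card Z := by
      intro K hK
      obtain ⟨w, hw, rfl⟩ := Finset.mem_image.1 hK
      have hwz : w ∉ Z := by simpa [S] using hw
      have e1 : (S.filter fun v => Cen v = Cen w) = S.filter (· ∈ Cen w) := by
        ext v
        simp only [S, Finset.mem_filter, Finset.mem_univ, true_and]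
        exact ⟨fun ⟨a, b⟩ => ⟨a, b ▸ mem_cen.2 rfl⟩, fun ⟨a, b⟩ => ⟨a, hpart hwz b a⟩⟩
      have e2 : Z.relIndex (Cen w) = m := by
        refine Nat.eq_of_mul_eq_mul_right (by omega : 0 < n) ?_
        rw [hmn, ← index_eq h hwz]; exact Subgroup.relIndex_mul_index (hZle w)
      have e3 : Nat.card Z * m = Nat.card (Cen w) := by
        rw [← e2, ← Subgroup.relIndex_bot_left, ← Subgroup.relIndex_bot_left,
          Subgroup.relIndex_mul_relIndex ⊥ Z (Cen w) bot_le (hZle w)]
      have e4 := hS (Cen w) (hZle w)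
      rw [e1, Nat.sub_mul, one_mul, mul_comm m, e3]
      omega
    have htot := Finset.card_eq_sum_card_image (fun w => Cen w) S
    rw [Finset.sum_congr rfl hfib, Finset.sum_const, smul_eq_mul] at htot
    have hcardS : S.card = (m * n - 1) * Nat.card Z := by
      have := hS ⊤ le_top
      rw [Finset.filter_true_of_mem (fun w _ => Subgroup.mem_top w), Subgroup.card_top] at this
      rw [hmn, Nat.sub_mul, one_mul, mul_comm, Subgroup.card_mul_index]
      omega
    refine ⟨(S.image fun w => Cen w).card, Nat.eq_of_mul_eq_mul_right (Nat.card_pos (α := Z)) ?_⟩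
    rw [← hcardS, htot]; ring
  have hm2 : 2 ≤ m := by
    have := prime_dvd_relIndex h hpd hx
    have h0 : m ≠ 0 := fun h0 => by rw [h0, zero_mul] at hmn; exact Subgroup.index_ne_zero_of_finite (H := Z) hmn.symm
    exact (Nat.Prime.two_le hp.out).trans (Nat.le_of_dvd (Nat.pos_of_ne_zero h0) this)
  have hle : m ≤ n := by
    have h1 : m - 1 ∣ n - 1 := by
      have e : m * n - 1 = (m - 1) * n + (n - 1) := by
        obtain ⟨m', hm'⟩ : ∃ m', m = m' + 1 := ⟨m - 1, by omega⟩
        rw [hm', Nat.add_sub_cancel, add_mul, one_mul]; omega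
      exact (Nat.dvd_add_right (dvd_mul_right _ _)).1 (e ▸ hdvd)
    have := Nat.le_of_dvd (by omega) h1
    omega
  have hnm : n = m := by
    refine le_antisymm ?_ hle
    refine Nat.le_of_dvd (by omega) ?_
    refine (Nat.dvd_iff_prime_pow_dvd_dvd _ _).2 fun r k hr hk => ?_
    have : Fact r.Prime := ⟨hr⟩
    rcases Nat.lt_or_ge k 2 with h2 | h2
    · interval_cases k
      · exact one_dvd _
      · rw [pow_one] at hk ⊢
        exact prime_dvd_relIndex h (hk.trans (hmn ▸ dvd_mul_left n m)) hx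
    · exact absurd ((pow_dvd_pow r h2).trans hk) (hsq r hr)
  -- every noncentral centraliser is normal
  have hnorm : ∀ {w : G}, w ∉ Z → (Cen w).Normal := by
    intro w hw
    rw [← Subgroup.normalizer_eq_top_iff, ← Subgroup.index_eq_one]
    by_contra hne
    obtain ⟨r, hr, hrd⟩ := Nat.exists_prime_and_dvd hne
    have : Fact r.Prime := ⟨hr⟩
    have hrn : r ∣ n := index_eq h hw ▸ hrd.trans (Subgroup.index_dvd_of_le Subgroup.le_normalizer)
    have hrZ : r ∣ Z.index := hrn.trans (hmn ▸ dvd_mul_left n m)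
    have hd := prime_dvd_relIndex h hrZ hw
    rw [Subgroup.relIndex, Subgroup.index_eq_card] at hd
    obtain ⟨u, hu⟩ := exists_prime_orderOf_dvd_card' r hd
    obtain ⟨v, rfl⟩ := QuotientGroup.mk_surjective u
    obtain ⟨a, b, hab', ⟨k, hk⟩, hb⟩ := CfsgLib.NormalPComplement.exists_pParts (p := r) (isOfFinOrder_of_finite (v : G))
    have hva : (v : G) ^ a ∉ Z := fun ha => hr.coprime_iff_not_dvd.1 hb.symm (by
      conv_lhs => rw [← hu]
      refine orderOf_dvd_of_pow_eq_one ?_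
      rw [← QuotientGroup.mk_pow, QuotientGroup.eq_one_iff, Subgroup.mem_subgroupOf, Subgroup.coe_pow]
      have e : (v : G) ^ orderOf ((v : G) ^ b) = ((v : G) ^ a) ^ orderOf ((v : G) ^ b) := by
        nth_rewrite 1 [← hab']
        rw [((Commute.refl (v : G)).pow_pow a b).mul_pow, pow_orderOf_eq_one, mul_one]
      rw [e]
      exact Subgroup.pow_mem _ ha _)
    obtain ⟨j, -, hj⟩ := (Nat.dvd_prime_pow hr).1 hk
    obtain ⟨Q, hQ⟩ := (show IsPGroup r (Subgroup.zpowers ((v : G) ^ a)) from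
      IsPGroup.of_card (n := j) (by rw [Nat.card_zpowers, hj])).exists_le_sylow
    refine Q.not_dvd_index (hrd.trans (Subgroup.index_dvd_of_le ?_))
    intro y hy
    -- `Q` modulo the centre has order dividing `r ^ 2`
    have hQZ : ∀ s ∈ (Q : Subgroup G), ∀ t ∈ (Q : Subgroup G), s * t * s⁻¹ * t⁻¹ ∈ Z := by
      let Z' := Z.subgroupOf (Q : Subgroup G)
      obtain ⟨i, hi⟩ := IsPGroup.iff_card.1 (Q.2.to_quotient Z')
      have hcom : ∀ s t : (Q : Subgroup G) ⧸ Z', s * t = t * s := by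
        have h2 : i ≤ 2 := by
          have hd2 : r ^ i ∣ Z.index := by
            rw [← hi, ← Subgroup.index_eq_card]
            exact Subgroup.relIndex_dvd_index_of_normal Z _
          rw [← hmn, hnm] at hd2
          by_contra h3
          have h5 : r ^ 3 ∣ m * m := (pow_dvd_pow r (by omega)).trans hd2
          have hm0 : m ≠ 0 := by omega
          have h6 : m.factorization r ≤ 1 := by
            by_contra h7
            exact hsq r hr (hnm ▸ (hr.pow_dvd_iff_le_factorization hm0).2 (by omega))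
          have h8 := (hr.pow_dvd_iff_le_factorization (mul_ne_zero hm0 hm0)).1 h5
          rw [Nat.factorization_mul hm0 hm0, Finsupp.add_apply] at h8
          omega
        interval_cases i
        · have := (Nat.card_eq_one_iff_unique.1 (by simpa using hi)).1
          exact fun s t => Subsingleton.elim _ _
        · have := isCyclic_of_prime_card (p := r) (by simpa using hi)
          exact fun s t => (IsCyclic.commGroup).mul_comm s t
        · exact IsPGroup.commutative_of_card_eq_prime_sq hi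
      intro s hs t ht
      have h1 : QuotientGroup.mk' Z' ((⟨s, hs⟩ : (Q : Subgroup G)) * ⟨t, ht⟩ * ⟨s, hs⟩⁻¹ * ⟨t, ht⟩⁻¹) = 1 := by
        simp only [map_mul, map_inv]
        rw [hcom (QuotientGroup.mk' Z' ⟨s, hs⟩) (QuotientGroup.mk' Z' ⟨t, ht⟩)]; group
      exact Subgroup.mem_subgroupOf.1 ((QuotientGroup.eq_one_iff _).1 h1)
    have hCw : Cen ((v : G) ^ a) = Cen w := hpart hw (Subgroup.pow_mem _ v.2 a) hva
    set v' := (v : G) ^ a
    refine Subgroup.mem_normalizer_fintype fun s hs => ?_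
    rw [SetLike.mem_coe, ← hCw, mem_cen] at hs
    rw [SetLike.mem_coe, ← hCw, mem_cen]
    have h1 : Commute (y * s * y⁻¹) (y * v' * y⁻¹) := by
      show y * s * y⁻¹ * (y * v' * y⁻¹) = y * v' * y⁻¹ * (y * s * y⁻¹)
      calc y * s * y⁻¹ * (y * v' * y⁻¹) = y * (s * v') * y⁻¹ := by group
        _ = y * v' * y⁻¹ * (y * s * y⁻¹) := by rw [hs.eq]; group
    have h2 : Commute (y * s * y⁻¹) (y * v' * y⁻¹ * v'⁻¹)⁻¹ :=
      Subgroup.mem_center_iff.1 (Z.inv_mem (hQZ y hy v' (hQ (Subgroup.mem_zpowers _)))) _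
    have h3 := h2.mul_right h1
    rwa [show (y * v' * y⁻¹ * v'⁻¹)⁻¹ * (y * v' * y⁻¹) = v' by group] at h3
  -- two different ones
  obtain ⟨y, hy⟩ : ∃ y : G, y ∉ Cen x := by
    by_contra hne
    push Not at hne
    have := index_eq h hx
    rw [Subgroup.index_eq_one.2 ((Subgroup.eq_top_iff' _).2 hne)] at this
    omega
  have hyz : y ∉ Z := fun hh => hy (hZle x hh)
  have hne : Cen y ≠ Cen x := fun e => hy (e ▸ mem_cen.2 rfl)
  have hinf : ∀ w, w ∈ Cen x → w ∈ Cen y → w ∈ Z := fun w h1 h2 => by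
    by_contra hwz
    exact hne ((hpart hyz h2 hwz).symm.trans (hpart hx h1 hwz))
  have hexw : ∀ (r : ℕ) [Fact r.Prime], r ∣ Z.index → ∀ {w : G}, w ∉ Z →
      ∃ u ∈ Cen w, u ∉ Z ∧ ∃ k, orderOf u ∣ r ^ k := by
    intro r _ hr w hw
    have hd := prime_dvd_relIndex h hr hw
    rw [Subgroup.relIndex, Subgroup.index_eq_card] at hd
    obtain ⟨u, hu⟩ := exists_prime_orderOf_dvd_card' r hd
    obtain ⟨v, rfl⟩ := QuotientGroup.mk_surjective u
    obtain ⟨a, b, hab', hk, hb⟩ := CfsgLib.NormalPComplement.exists_pParts (p := r) (isOfFinOrder_of_finite (v : G))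
    refine ⟨(v : G) ^ a, Subgroup.pow_mem _ v.2 a, fun ha => (Fact.out : r.Prime).coprime_iff_not_dvd.1 hb.symm ?_, hk⟩
    conv_lhs => rw [← hu]
    refine orderOf_dvd_of_pow_eq_one ?_
    rw [← QuotientGroup.mk_pow, QuotientGroup.eq_one_iff, Subgroup.mem_subgroupOf, Subgroup.coe_pow]
    have e : (v : G) ^ orderOf ((v : G) ^ b) = ((v : G) ^ a) ^ orderOf ((v : G) ^ b) := by
      nth_rewrite 1 [← hab']
      rw [((Commute.refl (v : G)).pow_pow a b).mul_pow, pow_orderOf_eq_one, mul_one]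
    rw [e]
    exact Subgroup.pow_mem _ ha _
  obtain ⟨u, hu, huz, i, hi⟩ := hexw p hpd hx
  obtain ⟨v, hv, hvz, j, hj⟩ := hexw q hqd hyz
  have hcop : (orderOf u).Coprime (orderOf v) :=
    ((((Nat.coprime_primes hp.out hq.out).2 hpq).pow i j).coprime_dvd_left hi).coprime_dvd_right hj
  have hcm : Commute u v := commute_of_coprime (hinf _ (by
    rw [show u * v * u⁻¹ * v⁻¹ = u * (v * u⁻¹ * v⁻¹) by group]
    exact (Cen x).mul_mem hu ((hnorm hx).conj_mem _ ((Cen x).inv_mem hu) v)) (by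
    exact (Cen y).mul_mem ((hnorm hyz).conj_mem _ hv u) ((Cen y).inv_mem hv))) hcop
  refine hvz (hinf v ?_ hv)
  rw [← hpart hx hu huz]
  exact mem_cen.2 hcm.symm

end Aux

theorem mem_cen' {G : Type*} [Group G] {x y : G} : y ∈ Subgroup.centralizer ({x} : Set G) ↔ Commute y x :=
  Subgroup.mem_centralizer_singleton_iff

/-- Let G be a finite group whose conjugacy classes have exactly two sizes, 1 and n > 1. Then n is a power of a prime p and G is the direct product of a p-group and an abelian group of order prime to p: its Sylow p-subgroup P is normal with an abelian normal complement centralizing it; moreover P has an abelian normal subgroup A with P/A of exponent dividing p. -/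
theorem result {G : Type*} [Group G] [Finite G] (n : ℕ) (hn : 1 < n)
    (h : ∀ x : G, (Subgroup.centralizer ({x} : Set G)).index = 1 ∨ (Subgroup.centralizer ({x} : Set G)).index = n) (hex : ∃ x : G, (Subgroup.centralizer ({x} : Set G)).index = n) :
    ∃ (p : ℕ) (_ : Fact p.Prime) (a : ℕ), n = p ^ a ∧ ∀ P : Sylow p G, (P : Subgroup G).Normal ∧
      (∃ N : Subgroup G, N.Normal ∧ N.IsComplement' (P : Subgroup G) ∧ IsMulCommutative N ∧
        ∀ x ∈ N, ∀ y ∈ (P : Subgroup G), x * y = y * x) ∧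
      ∃ A : Subgroup (P : Subgroup G), A.Normal ∧ IsMulCommutative A ∧ ∀ y : (P : Subgroup G), y ^ p ∈ A := by
  obtain ⟨x, hx⟩ := hex
  set Z := Subgroup.center G with hZ
  have hxz : x ∉ Z := fun hh => by
    have h1 : Subgroup.centralizer ({x} : Set G) = ⊤ :=
      (Subgroup.eq_top_iff' _).2 fun w => mem_cen.2 (Subgroup.mem_center_iff.1 hh w)
    rw [h1, Subgroup.index_top] at hx
    omega
  have hZle : ∀ w : G, Z ≤ Subgroup.centralizer ({w} : Set G) := fun w v hv =>
    mem_cen.2 (Subgroup.mem_center_iff.1 hv w).symm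
  obtain ⟨p, hp, hpd⟩ := Nat.exists_prime_and_dvd (n := n) (by omega)
  have hnd : n ∣ Z.index := by rw [← hx]; exact Subgroup.index_dvd_of_le (hZle x)
  have : Fact p.Prime := ⟨hp⟩
  have hone : ∀ q : ℕ, q.Prime → q ∣ Z.index → q = p := fun q hq hqd => by
    have : Fact q.Prime := ⟨hq⟩
    exact eq_of_dvd_index h hn hqd (hpd.trans hnd)
  refine ⟨p, inferInstance, n.primeFactorsList.length, Nat.eq_prime_pow_of_unique_prime_dvd (by omega)
    (fun {d} hd hdn => hone d hd (hdn.trans hnd)), fun P => ?_⟩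
  have hPZ : (P : Subgroup G) ⊔ Z = ⊤ := by
    rw [← Subgroup.index_eq_one]
    by_contra hne
    obtain ⟨r, hr, hrd⟩ := Nat.exists_prime_and_dvd hne
    have := hone r hr (hrd.trans (Subgroup.index_dvd_of_le le_sup_right))
    subst this
    exact P.not_dvd_index (hrd.trans (Subgroup.index_dvd_of_le le_sup_left))
  have hPn : (P : Subgroup G).Normal := by
    rw [← Subgroup.normalizer_eq_top_iff, ← top_le_iff, ← hPZ]
    exact sup_le Subgroup.le_normalizer (Subgroup.center_le_normalizer _)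
  refine ⟨hPn, ?_, ?_⟩
  · -- the `p'`-part of the centre
    let N : Subgroup G :=
      { carrier := {z | z ∈ Z ∧ z ^ ordCompl[p] (Nat.card G) = 1}
        one_mem' := ⟨Z.one_mem, one_pow _⟩
        mul_mem' := fun {a b} ha hb => ⟨Z.mul_mem ha.1 hb.1, by
          rw [(show Commute a b from Subgroup.mem_center_iff.1 hb.1 a).mul_pow, ha.2, hb.2, one_mul]⟩
        inv_mem' := fun {a} ha => ⟨Z.inv_mem ha.1, by rw [inv_pow, ha.2, inv_one]⟩ }
    have hNn : N.Normal := ⟨fun a ha g => by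
      rw [Subgroup.mem_center_iff.1 ha.1 g, mul_inv_cancel_right]; exact ha⟩
    refine ⟨N, hNn, Subgroup.isComplement'_of_disjoint_and_mul_eq_univ ?_ ?_, ⟨⟨fun a b => Subtype.ext
      (Subgroup.mem_center_iff.1 b.2.1 a)⟩⟩, fun a ha b _ => (Subgroup.mem_center_iff.1 ha.1 b).symm⟩
    · rw [Subgroup.disjoint_def]
      intro a ha ha'
      obtain ⟨k, hk⟩ := IsPGroup.iff_orderOf.1 P.2 ⟨a, ha'⟩
      rw [Subgroup.orderOf_mk] at hk
      exact orderOf_eq_one_iff.1 (Nat.eq_one_of_dvd_one (((Nat.coprime_ordCompl hp (Nat.card_pos (α := G)).ne').pow_left k).gcd_eq_one ▸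
        Nat.dvd_gcd hk.dvd (orderOf_dvd_of_pow_eq_one ha.2)))
    · ext g
      simp only [Set.mem_univ, iff_true]
      obtain ⟨u, hu, z, hz, rfl⟩ := Subgroup.mem_sup_of_normal_right.1 (hPZ ▸ Subgroup.mem_top g)
      obtain ⟨a, b, hab, ⟨k, hk⟩, hb⟩ := CfsgLib.NormalPComplement.exists_pParts (p := p) (isOfFinOrder_of_finite z)
      have hbN : z ^ b ∈ N := ⟨Z.pow_mem hz b, orderOf_dvd_iff_pow_eq_one.1
        ((hb.pow_right ((Nat.card G).factorization p)).dvd_of_dvd_mul_left (by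
          rw [Nat.ordProj_mul_ordCompl_eq_self]; exact orderOf_dvd_natCard _))⟩
      refine ⟨z ^ b, hbN, u * z ^ a, ?_, ?_⟩
      · obtain ⟨j, -, hj⟩ := (Nat.dvd_prime_pow hp).1 hk
        obtain ⟨S, hS⟩ := (show IsPGroup p (Subgroup.zpowers (z ^ a)) from
          IsPGroup.of_card (n := j) (by rw [Nat.card_zpowers, hj])).exists_le_sylow
        obtain ⟨c, hc⟩ := MulAction.exists_smul_eq G S P
        refine (P : Subgroup G).mul_mem hu ?_
        rw [← hc]
        refine ⟨z ^ a, hS (Subgroup.mem_zpowers _), ?_⟩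
        show c * z ^ a * c⁻¹ = z ^ a
        rw [Subgroup.mem_center_iff.1 (Z.pow_mem hz a) c, mul_inv_cancel_right]
      · show z ^ b * (u * z ^ a) = u * z
        rw [← mul_assoc, ← Subgroup.mem_center_iff.1 (Z.pow_mem hz b) u, mul_assoc,
          (Commute.pow_pow_self z b a).eq, hab]
  · -- an element of the second centre of `P`
    let Z' := Z.subgroupOf (P : Subgroup G)
    have hP' : IsPGroup p ((P : Subgroup G) ⧸ Z') := P.2.to_quotient Z'
    have : Nontrivial ((P : Subgroup G) ⧸ Z') := QuotientGroup.nontrivial_iff.2 fun e =>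
      sylow_not_le (hpd.trans hnd) P (Subgroup.subgroupOf_eq_top.1 e)
    have := hP'.center_nontrivial
    obtain ⟨k, hk0, hk⟩ := (hP'.to_subgroup (Subgroup.center _)).nontrivial_iff_card.1 this
    obtain ⟨⟨u, hu⟩, hu'⟩ := exists_prime_orderOf_dvd_card' (G := Subgroup.center ((P : Subgroup G) ⧸ Z')) p (hk ▸ dvd_pow_self p hk0.ne')
    rw [Subgroup.orderOf_mk] at hu'
    obtain ⟨z, rfl⟩ := QuotientGroup.mk'_surjective Z' u
    have hzc : (z : G) ∉ Z := fun hz => by
      rw [QuotientGroup.mk'_apply, (QuotientGroup.eq_one_iff z).2 (Subgroup.mem_subgroupOf.2 hz), orderOf_one] at hu'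
      exact hp.one_lt.ne hu'
    have hzp : (z : G) ^ p ∈ Z := Subgroup.mem_subgroupOf.1 ((QuotientGroup.eq_one_iff (z ^ p)).1
      (by rw [QuotientGroup.mk_pow]; exact orderOf_dvd_iff_pow_eq_one.1 hu'.dvd))
    have hcomm : ∀ y : (P : Subgroup G), (z : G) * y * (z : G)⁻¹ * (y : G)⁻¹ ∈ Z := fun y => by
      have h1 : QuotientGroup.mk' Z' (z * y * z⁻¹ * y⁻¹) = 1 := by
        simp only [map_mul, map_inv]
        rw [← Subgroup.mem_center_iff.1 hu (QuotientGroup.mk' Z' y)]
        group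
      exact Subgroup.mem_subgroupOf.1 ((QuotientGroup.eq_one_iff _).1 h1)
    set C := Subgroup.centralizer ({(z : G)} : Set G) with hC
    set A0 := C ⊓ Subgroup.centralizer (C : Set G) with hA0
    refine ⟨A0.subgroupOf (P : Subgroup G), ⟨fun a ha y => ?_⟩, ⟨⟨fun a b => Subtype.ext (Subtype.ext ?_)⟩⟩, fun y => ?_⟩
    · rw [Subgroup.mem_subgroupOf] at ha ⊢
      have hyC : ∀ y : (P : Subgroup G), ∀ s ∈ C, (y : G) * s * (y : G)⁻¹ ∈ C := fun y s hs => by
        rw [mem_cen] at hs ⊢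
        have h1 : Commute ((y : G) * s * (y : G)⁻¹) ((y : G) * z * (y : G)⁻¹) := by
          show (y : G) * s * (y : G)⁻¹ * ((y : G) * z * (y : G)⁻¹) = (y : G) * z * (y : G)⁻¹ * ((y : G) * s * (y : G)⁻¹)
          calc (y : G) * s * (y : G)⁻¹ * ((y : G) * z * (y : G)⁻¹) = (y : G) * (s * z) * (y : G)⁻¹ := by group
            _ = _ := by rw [hs.eq]; group
        have h2 : Commute ((y : G) * s * (y : G)⁻¹) ((z : G) * y * (z : G)⁻¹ * (y : G)⁻¹) :=
          Subgroup.mem_center_iff.1 (hcomm y) _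
        have h3 := h2.mul_right h1
        rwa [show (z : G) * y * (z : G)⁻¹ * (y : G)⁻¹ * ((y : G) * z * (y : G)⁻¹) = z by group] at h3
      refine ⟨hyC y _ ha.1, Subgroup.mem_centralizer_iff.2 fun s hs => ?_⟩
      have h1 := Subgroup.mem_centralizer_iff.1 ha.2 _ (hyC y⁻¹ s hs)
      simp only [Subgroup.coe_inv, inv_inv] at h1
      show s * ((y : G) * a * (y : G)⁻¹) = (y : G) * a * (y : G)⁻¹ * s
      calc s * ((y : G) * a * (y : G)⁻¹) = (y : G) * ((y : G)⁻¹ * s * y * a) * (y : G)⁻¹ := by group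
        _ = _ := by rw [h1]; group
    · exact Subgroup.mem_centralizer_iff.1 b.2.2 _ a.2.1
    · rw [Subgroup.mem_subgroupOf]
      by_cases hyA : (y : G) ∈ A0
      · exact A0.pow_mem hyA p
      · have hZA : Z ≤ A0 := fun w hw => ⟨hZle _ hw, Subgroup.mem_centralizer_iff.2 fun s _ => Subgroup.mem_center_iff.1 hw s⟩
        have hyz : (y : G) ∉ Z := fun hh => hyA (hZA hh)
        refine hZA (pow_mem_center h hzc hzp hyz (fun e => hyA ⟨?_, ?_⟩) (hcomm y))
        · rw [hC, ← e]; exact mem_cen.2 rfl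
        · refine Subgroup.mem_centralizer_iff.2 fun s hs => ?_
          rw [hC, ← e] at hs
          exact (mem_cen.1 hs).eq

end Cfsg.Agent.S4134
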