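import Cfsg.Statements.S4135
import Cfsg.Agent.Lib.ClassSizes3.TwoIndexFinal

set_option autoImplicit false
open Cfsg

namespace Cfsg.Agent.S4135

/-- Let G be a finite group, r a prime and R a Sylow r-subgroup of G that is not central, N a normal subgroup of G containing R, and m a natural number such that every element of N has a conjugacy class in G of size 1 or m. Then N is nilpotent. -/
theorem result {G : Type*} [Group G] [Finite G] (r : ℕ) [Fact r.Prime]
    (R : Sylow r G) (hR : ¬ (R : Subgroup G) ≤ Subgroup.center G) (N : Subgroup G) [N.Normal] (hRN : (R : Subgroup G) ≤ N)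
    (m : ℕ) (h : ∀ x ∈ N, (Subgroup.centralizer ({x} : Set G)).index = 1 ∨ (Subgroup.centralizer ({x} : Set G)).index = m) : Group.IsNilpotent N := by
  refine CfsgLib.ClassSizes3.nilpotent_of_two_indices (r := r) inferInstance (fun x hx hxc y hy hyc => ?_)
    (fun x hx => ?_) ?_
  · have key : ∀ z ∈ N, z ∉ Subgroup.center G → CfsgLib.ClassSizes3.cl z = m := fun z hz hzc =>
      (h z hz).resolve_left fun he => hzc (CfsgLib.ClassSizes3.cl_eq_one.mp he)
    rw [key x hx hxc, key y hy hyc]
  · obtain ⟨Q, hQ⟩ := hx.isPGroup.exists_le_sylow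
    obtain ⟨g, hg⟩ := MulAction.exists_smul_eq G R Q
    have hxQ : x ∈ ((g • R : Sylow r G) : Subgroup G) := hg ▸ hQ (Subgroup.mem_zpowers x)
    rw [Sylow.coe_subgroup_smul, Subgroup.mem_pointwise_smul_iff_inv_smul_mem, MulAut.smul_def,
      ← map_inv, MulAut.conj_apply] at hxQ
    simpa [mul_assoc] using Subgroup.Normal.conj_mem ‹N.Normal› _ (hRN hxQ) g
  · obtain ⟨w, hw, hwc⟩ := SetLike.not_le_iff_exists.mp hR
    exact ⟨w, CfsgLib.ClassSizes3.PEl.of_mem R.isPGroup' hw, hwc⟩

end Cfsg.Agent.S4135
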