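import Cfsg.Statements.S4138
import Cfsg.Agent.Lib.ElementOrders.Frobenius
import Cfsg.Agent.Lib.Hall.Solvability
import Cfsg.Agent.Lib.Frobenius.Basic

set_option autoImplicit false
open Cfsg

namespace Cfsg.Agent.S4138

open scoped IsMulCommutative Pointwise

section Aux

variable {G : Type*} [Group G] [Finite G]

/-- The conjugacy class of `a` as a set. -/
def cls (a : G) : Set G := (ConjClasses.mk a).carrier

omit [Finite G] in
theorem mem_cls {a b : G} : b ∈ cls a ↔ ∃ g : G, g * a * g⁻¹ = b := by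
  rw [cls, ConjClasses.mem_carrier_iff_mk_eq, ConjClasses.mk_eq_mk_iff_isConj, isConj_comm, isConj_iff]

omit [Finite G] in
theorem conj_mem_cls (a g : G) : g * a * g⁻¹ ∈ cls a := mem_cls.2 ⟨g, rfl⟩

omit [Finite G] in
theorem self_mem_cls (a : G) : a ∈ cls a := mem_cls.2 ⟨1, by simp⟩

theorem ncard_cls (a : G) : (cls a).ncard = (Subgroup.centralizer ({a} : Set G)).index := by
  have h := CfsgLib.ElementOrders.ncard_conj_class_mul_card_centralizer a
  rw [← Subgroup.index_mul_card (Subgroup.centralizer ({a} : Set G))] at h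
  exact Nat.eq_of_mul_eq_mul_right Nat.card_pos h

omit [Finite G] in
theorem orderOf_of_mem_cls {a b : G} (h : b ∈ cls a) : orderOf b = orderOf a := by
  obtain ⟨g, rfl⟩ := mem_cls.1 h
  exact orderOf_injective (MulAut.conj g).toMonoidHom (MulAut.conj g).injective a

theorem eq_one_of_mul_mem_cls {a w : G} (hc : Commute w a)
    (hcop : (orderOf w).Coprime (orderOf a)) (h : w * a ∈ cls a) : w = 1 := by
  have h1 := orderOf_of_mem_cls h
  rw [hc.orderOf_mul_eq_mul_orderOf_of_coprime hcop] at h1
  exact orderOf_eq_one_iff.1 (Nat.eq_of_mul_eq_mul_right (orderOf_pos a) (h1.trans (one_mul _).symm))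

omit [Finite G] in
theorem prod_mem_cls {a b a' b' : G} [Finite G]
    (hab : (Subgroup.centralizer ({a} : Set G)).index.Coprime
      (Subgroup.centralizer ({b} : Set G)).index)
    (ha : a' ∈ cls a) (hb : b' ∈ cls b) : a' * b' ∈ cls (a * b) := by
  obtain ⟨g, rfl⟩ := mem_cls.1 ha
  obtain ⟨h, rfl⟩ := mem_cls.1 hb
  obtain ⟨c, hc, d, hd, e⟩ := CfsgLib.Hall.exists_mul_of_coprime_index hab (g⁻¹ * h)
  rw [Subgroup.mem_centralizer_singleton_iff] at hc hd
  refine mem_cls.2 ⟨g * c, ?_⟩
  have hh : h = g * (c * d) := by rw [← e]; group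
  subst hh
  calc g * c * (a * b) * (g * c)⁻¹ = g * (c * a) * c⁻¹ * g⁻¹ * (g * c * b * c⁻¹ * g⁻¹) := by group
    _ = g * (a * c) * c⁻¹ * g⁻¹ * (g * c * (b * d) * d⁻¹ * c⁻¹ * g⁻¹) := by rw [hc]; group
    _ = g * a * g⁻¹ * (g * (c * d) * b * (g * (c * d))⁻¹) := by rw [← hd]; group

theorem centralizer_inf_le (a b : G) :
    Subgroup.centralizer ({a} : Set G) ⊓ Subgroup.centralizer ({b} : Set G) ≤
      Subgroup.centralizer ({a * b} : Set G) := by
  intro g hg
  have h1 : Commute g a := Subgroup.mem_centralizer_singleton_iff.1 hg.1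
  have h2 : Commute g b := Subgroup.mem_centralizer_singleton_iff.1 hg.2
  exact Subgroup.mem_centralizer_singleton_iff.2 (h1.mul_right h2).eq

theorem index_le_mul {a b : G}
    (hab : (Subgroup.centralizer ({a} : Set G)).index.Coprime
      (Subgroup.centralizer ({b} : Set G)).index) :
    (Subgroup.centralizer ({b} : Set G)).index ≤
      (Subgroup.centralizer ({a * b} : Set G)).index := by
  rw [← ncard_cls, ← ncard_cls]
  exact Set.ncard_le_ncard_of_injOn (a * ·) (fun c hc => prod_mem_cls hab (self_mem_cls a) hc)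
    (fun c _ d _ h => mul_left_cancel h) (Set.toFinite _)

theorem shift {a b : G}
    (hab : (Subgroup.centralizer ({a} : Set G)).index.Coprime
      (Subgroup.centralizer ({b} : Set G)).index)
    (hle : (Subgroup.centralizer ({a * b} : Set G)).index ≤
      (Subgroup.centralizer ({b} : Set G)).index)
    (g : G) {b' : G} (hb : b' ∈ cls b) : a⁻¹ * (g * a * g⁻¹) * b' ∈ cls b := by
  have hsub : (a * ·) '' cls b ⊆ cls (a * b) := by
    rintro _ ⟨c, hc, rfl⟩
    exact prod_mem_cls hab (self_mem_cls a) hc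
  have heq : (a * ·) '' cls b = cls (a * b) := by
    refine Set.eq_of_subset_of_ncard_le hsub ?_ (Set.toFinite _)
    rw [Set.ncard_image_of_injective _ (mul_right_injective a), ncard_cls, ncard_cls]
    exact hle
  have h : g * a * g⁻¹ * b' ∈ (a * ·) '' cls b := heq ▸ prod_mem_cls hab (conj_mem_cls a g) hb
  obtain ⟨c, hc, e⟩ := h
  have h1 : a⁻¹ * (g * a * g⁻¹) * b' = c := by
    rw [mul_assoc, show g * a * g⁻¹ * b' = a * c from e.symm]; group
  rwa [h1]

/-- The subgroup generated by the quotients of the conjugates of `a` by `a`. -/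
def diffSub (a : G) : Subgroup G := Subgroup.closure (Set.range fun g : G => a⁻¹ * (g * a * g⁻¹))

omit [Finite G] in
theorem mem_diffSub (a g : G) : a⁻¹ * (g * a * g⁻¹) ∈ diffSub a :=
  Subgroup.subset_closure ⟨g, rfl⟩

omit [Finite G] in
instance diffSub_normal (a : G) : (diffSub a).Normal := by
  refine ⟨fun n hn h => ?_⟩
  have hle : diffSub a ≤ (diffSub a).comap (MulAut.conj h).toMonoidHom := by
    refine (Subgroup.closure_le _).2 ?_
    rintro _ ⟨g, rfl⟩
    rw [SetLike.mem_coe, Subgroup.mem_comap]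
    have e : (MulAut.conj h).toMonoidHom (a⁻¹ * (g * a * g⁻¹)) =
        (a⁻¹ * (h * a * h⁻¹))⁻¹ * (a⁻¹ * ((h * g) * a * (h * g)⁻¹)) := by
      simp only [MulEquiv.coe_toMonoidHom, MulAut.conj_apply]; group
    rw [e]
    exact mul_mem (inv_mem (mem_diffSub a h)) (mem_diffSub a (h * g))
  simpa using hle hn

theorem diffSub_mul_mem {a b : G}
    (hab : (Subgroup.centralizer ({a} : Set G)).index.Coprime
      (Subgroup.centralizer ({b} : Set G)).index)
    (hle : (Subgroup.centralizer ({a * b} : Set G)).index ≤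
      (Subgroup.centralizer ({b} : Set G)).index)
    {w : G} (hw : w ∈ diffSub a) : ∀ b' ∈ cls b, w * b' ∈ cls b := by
  induction hw using Subgroup.closure_induction with
  | mem w hw =>
    obtain ⟨g, rfl⟩ := hw
    exact fun b' hb => shift hab hle g hb
  | one => intro b' hb; simpa using hb
  | mul w w' _ _ h1 h2 => intro b' hb; rw [mul_assoc]; exact h1 _ (h2 _ hb)
  | inv w _ h =>
    have hk : ∀ k : ℕ, ∀ b' ∈ cls b, w ^ k * b' ∈ cls b := by
      intro k
      induction k with
      | zero => intro b' hb; simpa using hb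
      | succ k ih => intro b' hb; rw [pow_succ, mul_assoc]; exact ih _ (h _ hb)
    obtain ⟨k, hk'⟩ := Submonoid.mem_powers_iff (x := w⁻¹) w |>.1
      ((mem_powers_iff_mem_zpowers).2 (Subgroup.inv_mem _ (Subgroup.mem_zpowers w)))
    rw [← hk']
    exact hk k

theorem card_diffSub_dvd {a b : G}
    (hab : (Subgroup.centralizer ({a} : Set G)).index.Coprime
      (Subgroup.centralizer ({b} : Set G)).index)
    (hle : (Subgroup.centralizer ({a * b} : Set G)).index ≤
      (Subgroup.centralizer ({b} : Set G)).index) :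
    Nat.card (diffSub a) ∣ (Subgroup.centralizer ({b} : Set G)).index := by
  let _act : MulAction (diffSub a) (cls b) :=
    { smul := fun w c => ⟨(w : G) * c, diffSub_mul_mem hab hle w.2 _ c.2⟩
      one_smul := fun c => Subtype.ext (one_mul _)
      mul_smul := fun w w' c => Subtype.ext (mul_assoc _ _ _) }
  have h : ∀ c : cls b, MulAction.stabilizer (diffSub a) c = ⊥ := by
    intro c
    refine (Subgroup.eq_bot_iff_forall _).2 fun w hw => ?_
    have e : (w : G) * c = c := congrArg Subtype.val (MulAction.mem_stabilizer_iff.1 hw)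
    exact Subtype.ext (mul_eq_right.1 e)
  have h2 := CfsgLib.Frobenius.card_dvd_of_stabilizer_eq_bot h
  rwa [Nat.card_coe_set_eq, ncard_cls] at h2

theorem diffSub_le_centralizer {a : G}
    (hc : (Nat.card (diffSub a)).Coprime (Subgroup.centralizer ({a} : Set G)).index) :
    diffSub a ≤ Subgroup.centralizer ({a} : Set G) := by
  rw [← Subgroup.relIndex_eq_one]
  refine Nat.eq_one_of_dvd_coprimes hc (Subgroup.relIndex_dvd_card _ _) ?_
  set C := Subgroup.centralizer ({a} : Set G)
  have h1 := Subgroup.relIndex_mul_relIndex (C ⊓ diffSub a) C (C ⊔ diffSub a) inf_le_left le_sup_left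
  have h2 := Subgroup.relIndex_mul_relIndex (C ⊓ diffSub a) (diffSub a) (C ⊔ diffSub a) inf_le_right
    le_sup_right
  rw [Subgroup.inf_relIndex_left] at h1
  rw [Subgroup.inf_relIndex_right, Subgroup.relIndex_sup_right, ← h1, mul_comm] at h2
  rw [Nat.eq_of_mul_eq_mul_left (Nat.pos_of_ne_zero (Subgroup.index_ne_zero_of_finite (H := (diffSub a).subgroupOf C))) h2]
  exact (dvd_mul_right _ _).trans (Subgroup.relIndex_mul_index le_sup_left).dvd

theorem diffSub_isMulCommutative {a : G} (hle : diffSub a ≤ Subgroup.centralizer ({a} : Set G)) :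
    IsMulCommutative (diffSub a) := by
  have hconj : ∀ g : G, ∀ w ∈ diffSub a, Commute w (g * a * g⁻¹) := by
    intro g w hw
    have h1 : g⁻¹ * w * g ∈ diffSub a := by simpa using (diffSub_normal a).conj_mem w hw g⁻¹
    have h2 : Commute (g⁻¹ * w * g) a := Subgroup.mem_centralizer_singleton_iff.1 (hle h1)
    have h3 := h2.map (MulAut.conj g).toMonoidHom
    simpa [mul_assoc] using h3
  have hgen : ∀ v ∈ diffSub a, ∀ w ∈ diffSub a, Commute w v := by
    intro v hv
    induction hv using Subgroup.closure_induction with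
    | mem v hv =>
      obtain ⟨g, rfl⟩ := hv
      intro w hw
      have h1 := hconj 1 w hw
      simp at h1
      exact h1.inv_right.mul_right (hconj g w hw)
    | one => intro w _; exact Commute.one_right w
    | mul v v' _ _ h1 h2 => intro w hw; exact (h1 w hw).mul_right (h2 w hw)
    | inv v _ h => intro w hw; exact (h w hw).inv_right
  exact ⟨⟨fun v w => Subtype.ext (hgen w w.2 v v.2).eq⟩⟩

theorem exists_eq_center_mul {a : G}
    (hc : (Nat.card (diffSub a)).Coprime (Subgroup.centralizer ({a} : Set G)).index) :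
    ∃ z ∈ Subgroup.center G, ∃ u ∈ diffSub a, a = z * u := by
  classical
  have hle := diffSub_le_centralizer hc
  have : IsMulCommutative (diffSub a) := diffSub_isMulCommutative hle
  set C := Subgroup.centralizer ({a} : Set G) with hC
  have := Fintype.ofFinite (G ⧸ C)
  let f : G → diffSub a := fun g => ⟨a⁻¹ * (g * a * g⁻¹), mem_diffSub a g⟩
  have hcoc : ∀ g h : G, f (g * h) = f g * MulAut.conjNormal g (f h) := fun g h => by
    apply Subtype.ext
    show _ = a⁻¹ * (g * a * g⁻¹) * (g * (a⁻¹ * (h * a * h⁻¹)) * g⁻¹)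
    show a⁻¹ * (g * h * a * (g * h)⁻¹) = _
    group
  have hcoset : ∀ g h : G, (QuotientGroup.mk g : G ⧸ C) = QuotientGroup.mk h → f g = f h := by
    intro g h e
    have h1 : Commute (g⁻¹ * h) a :=
      Subgroup.mem_centralizer_singleton_iff.1 (QuotientGroup.eq.1 e)
    apply Subtype.ext
    show a⁻¹ * (g * a * g⁻¹) = a⁻¹ * (h * a * h⁻¹)
    have h2 : h * a * h⁻¹ = g * ((g⁻¹ * h) * a * (g⁻¹ * h)⁻¹) * g⁻¹ := by group
    rw [h2, h1.eq, mul_inv_cancel_right]
  have hP : ∀ g : G, (∏ q : G ⧸ C, f q.out) =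
      f g ^ Fintype.card (G ⧸ C) * MulAut.conjNormal g (∏ q : G ⧸ C, f q.out) := by
    intro g
    conv_lhs => rw [← Equiv.prod_comp (MulAction.toPerm g : Equiv.Perm (G ⧸ C))]
    rw [map_prod]
    have : ∀ q : G ⧸ C, f ((MulAction.toPerm g : Equiv.Perm (G ⧸ C)) q).out =
        f g * MulAut.conjNormal g (f q.out) := by
      intro q
      rw [← hcoc]
      apply hcoset
      rw [QuotientGroup.out_eq', MulAction.toPerm_apply, ← smul_eq_mul g, ← MulAction.Quotient.smul_mk,
        QuotientGroup.out_eq']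
    simp only [this, Finset.prod_mul_distrib, Finset.prod_const, Finset.card_univ]
  have hn : Fintype.card (G ⧸ C) = C.index := by rw [Subgroup.index, Nat.card_eq_fintype_card]
  obtain ⟨w, hw⟩ := (powCoprime hc).surjective (∏ q : G ⧸ C, f q.out)
  rw [powCoprime_apply] at hw
  have hfix : ∀ g : G, f g * MulAut.conjNormal g w = w := by
    intro g
    apply (powCoprime hc).injective
    rw [powCoprime_apply, powCoprime_apply, mul_pow, ← map_pow, hw, ← hn]
    exact (hP g).symm
  refine ⟨a * w, ?_, (w : G)⁻¹, inv_mem w.2, by group⟩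
  rw [Subgroup.mem_center_iff]
  intro g
  have h := congrArg Subtype.val (hfix g)
  have h' : a⁻¹ * (g * a * g⁻¹) * (g * (w : G) * g⁻¹) = w := h
  have h'' : g * (a * w) * g⁻¹ = a * w := by
    calc g * (a * (w : G)) * g⁻¹ = a * (a⁻¹ * (g * a * g⁻¹) * (g * (w : G) * g⁻¹)) := by group
      _ = a * w := by rw [h']
  exact mul_inv_eq_iff_eq_mul.1 h''

omit [Finite G] in
theorem centralizer_center_mul {z : G} (hz : z ∈ Subgroup.center G) (w : G) :
    Subgroup.centralizer ({z * w} : Set G) = Subgroup.centralizer ({w} : Set G) := by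
  ext g
  rw [Subgroup.mem_centralizer_singleton_iff, Subgroup.mem_centralizer_singleton_iff,
    ← mul_assoc, (Subgroup.mem_center_iff.1 hz g), mul_assoc, mul_assoc]
  exact mul_right_inj z

omit [Finite G] in
theorem centralizer_mul_of_coprime {a b : G} (hc : Commute a b)
    (hcop : (orderOf a).Coprime (orderOf b)) :
    Subgroup.centralizer ({a * b} : Set G) =
      Subgroup.centralizer ({a} : Set G) ⊓ Subgroup.centralizer ({b} : Set G) := by
  refine le_antisymm (fun g hg => ?_) (fun g hg => ?_)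
  · have h : Commute g (a * b) := Subgroup.mem_centralizer_singleton_iff.1 hg
    have ha := h.pow_right (CfsgLib.ElementOrders.splitExp hcop)
    rw [hc.mul_pow, CfsgLib.ElementOrders.pow_splitExp_of_left hcop (pow_orderOf_eq_one a),
      CfsgLib.ElementOrders.pow_splitExp_of_right hcop (pow_orderOf_eq_one b), mul_one] at ha
    have hb := h.pow_right (CfsgLib.ElementOrders.splitExp hcop.symm)
    rw [hc.mul_pow, CfsgLib.ElementOrders.pow_splitExp_of_right hcop.symm (pow_orderOf_eq_one a),
      CfsgLib.ElementOrders.pow_splitExp_of_left hcop.symm (pow_orderOf_eq_one b), one_mul] at hb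
    exact ⟨Subgroup.mem_centralizer_singleton_iff.2 ha.eq,
      Subgroup.mem_centralizer_singleton_iff.2 hb.eq⟩
  · have h1 : Commute g a := Subgroup.mem_centralizer_singleton_iff.1 hg.1
    have h2 : Commute g b := Subgroup.mem_centralizer_singleton_iff.1 hg.2
    exact Subgroup.mem_centralizer_singleton_iff.2 (h1.mul_right h2).eq

theorem mem_center_of_coprime_mul {d z w : G} (hz : z ∈ Subgroup.center G) (hd : d = z * w)
    (hcop : (orderOf d).Coprime (orderOf w)) : d ∈ Subgroup.center G := by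
  have hzw : Commute z w := (Subgroup.mem_center_iff.1 hz w).symm
  have h := CfsgLib.ElementOrders.pow_splitExp_of_left hcop (pow_orderOf_eq_one d)
  generalize hk : CfsgLib.ElementOrders.splitExp hcop = k at h
  have hw : w ^ k = 1 := by
    rw [← hk]; exact CfsgLib.ElementOrders.pow_splitExp_of_right hcop (pow_orderOf_eq_one w)
  rw [← h, hd, hzw.mul_pow, hw, mul_one]
  exact pow_mem hz k

theorem orderOf_dvd_of_mem {N : Subgroup G} {w : G} (hw : w ∈ N) : orderOf w ∣ Nat.card N := by
  have h := orderOf_dvd_natCard (⟨w, hw⟩ : N)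
  rwa [← Subgroup.orderOf_coe] at h

theorem mem_of_forall_primary (S : Subgroup G) (d : G)
    (h : ∀ p k j : ℕ, p.Prime → orderOf (d ^ j) = p ^ k → d ^ j ∈ S) : d ∈ S := by
  suffices hdvd : orderOf d ∣ Nat.card ↥(S ⊓ Subgroup.zpowers d) by
    have he : S ⊓ Subgroup.zpowers d = Subgroup.zpowers d :=
      Subgroup.eq_of_le_of_card_ge inf_le_right (by
        rw [Nat.card_zpowers]; exact Nat.le_of_dvd Nat.card_pos hdvd)
    exact (he.symm ▸ Subgroup.mem_zpowers d : d ∈ S ⊓ Subgroup.zpowers d).1
  rw [Nat.dvd_iff_prime_pow_dvd_dvd]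
  intro p k hp hk
  have hj : orderOf (d ^ (orderOf d / p ^ k)) = p ^ k := orderOf_pow_orderOf_div (orderOf_pos d).ne' hk
  have hmem : d ^ (orderOf d / p ^ k) ∈ S ⊓ Subgroup.zpowers d :=
    ⟨h p k _ hp hj, pow_mem (Subgroup.mem_zpowers d) _⟩
  rw [← hj]
  exact orderOf_dvd_of_mem hmem

/-- If all `p`-elements of `C` are central, the `p`-part of `|C|` divides `|Z(G)|`. -/
theorem ordProj_dvd_card_center {p : ℕ} (hp : p.Prime) (C : Subgroup G)
    (h : ∀ d ∈ C, (∃ k, orderOf d = p ^ k) → d ∈ Subgroup.center G) :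
    ordProj[p] (Nat.card C) ∣ Nat.card (Subgroup.center G) := by
  have : Fact p.Prime := ⟨hp⟩
  obtain ⟨P⟩ : Nonempty (Sylow p C) := inferInstance
  rw [← P.card_eq_multiplicity, ← Subgroup.card_map_of_injective C.subtype_injective]
  refine Subgroup.card_dvd_of_le ?_
  rintro _ ⟨d, hd, rfl⟩
  obtain ⟨k, hk⟩ := P.2 ⟨d, hd⟩
  obtain ⟨i, -, hi⟩ := (Nat.dvd_prime_pow hp).1 (orderOf_dvd_of_pow_eq_one hk)
  refine h _ d.2 ⟨i, ?_⟩
  rw [← hi]
  exact (Subgroup.orderOf_coe d).trans (Subgroup.orderOf_coe (⟨d, hd⟩ : (P : Subgroup C))).symm.symm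

/-- If all `p`-elements of `C` are central and `p ^ j ∣ |G : Z(G)|`, then `p ^ j ∣ |G : C|`. -/
theorem pow_dvd_index_of_center {p j : ℕ} (hp : p.Prime) (C : Subgroup G)
    (hZ : Subgroup.center G ≤ C)
    (h : ∀ d ∈ C, (∃ k, orderOf d = p ^ k) → d ∈ Subgroup.center G)
    (hj : p ^ j ∣ (Subgroup.center G).index) : p ^ j ∣ C.index := by
  have h1 : ¬ p ∣ (Subgroup.center G).relIndex C := by
    intro hd
    have h2 := (Nat.ordProj_dvd_ordProj_of_dvd Nat.card_pos.ne'
      (ordProj_dvd_card_center hp C h) p)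
    rw [Nat.ordProj_self_pow hp] at h2
    have h3 : Nat.card (Subgroup.center G) * (Subgroup.center G).relIndex C = Nat.card C := by
      rw [Subgroup.relIndex, ← Nat.card_congr (Subgroup.subgroupOfEquivOfLe hZ).toEquiv]
      exact Subgroup.card_mul_index _
    have h4 : ordProj[p] (Nat.card (Subgroup.center G)) * p ∣ Nat.card C := by
      rw [← h3]; exact mul_dvd_mul (Nat.ordProj_dvd _ _) hd
    have h5 := Nat.ordProj_dvd_ordProj_of_dvd Nat.card_pos.ne' h4 p
    rw [← pow_succ, Nat.ordProj_self_pow hp] at h5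
    have h6 := (Nat.pow_dvd_pow_iff_le_right hp.one_lt).1 (h5.trans h2)
    omega
  rw [← Subgroup.relIndex_mul_index hZ] at hj
  exact (((hp.coprime_iff_not_dvd.2 h1).pow_left j)).dvd_of_dvd_mul_left hj

/-- A product over one period of a power sequence is fixed by the automorphism. -/
theorem norm_fixed {M : Type*} [CommGroup M] (φ : G →* MulAut M) {g : G} {s : ℕ}
    (hg : φ (g ^ s) = 1) (a : M) :
    φ g (∏ j ∈ Finset.range s, φ (g ^ j) a) = ∏ j ∈ Finset.range s, φ (g ^ j) a := by
  rw [map_prod]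
  have h : ∀ j : ℕ, φ g (φ (g ^ j) a) = φ (g ^ (j + 1)) a := fun j => by
    rw [pow_succ', map_mul, MulAut.mul_apply]
  simp only [h]
  have h2 := Finset.prod_range_succ' (fun j => φ (g ^ j) a) s
  rw [Finset.prod_range_succ, hg, pow_zero, map_one] at h2
  exact (mul_right_cancel h2).symm

/-- The standing hypotheses. -/
structure Setup (m n : ℕ) (x y : G) : Prop where
  hmn : n < m
  hn : 1 < n
  hcop : m.Coprime n
  htop : ∀ z : G, (Subgroup.centralizer ({z} : Set G)).index ≤ m
  hsecond : ∀ z : G, (Subgroup.centralizer ({z} : Set G)).index < m →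
    (Subgroup.centralizer ({z} : Set G)).index ≤ n
  hx : (Subgroup.centralizer ({x} : Set G)).index = n
  hy : (Subgroup.centralizer ({y} : Set G)).index = m

namespace Setup

variable {m n : ℕ} {x y : G} (S : Setup m n x y)
include S

theorem coprime_xy : (Subgroup.centralizer ({x} : Set G)).index.Coprime
    (Subgroup.centralizer ({y} : Set G)).index := by rw [S.hx, S.hy]; exact S.hcop.symm

theorem mul_mem_cls {v : G} (hv : (Subgroup.centralizer ({v} : Set G)).index = m)
    {w : G} (hw : w ∈ diffSub x) {v' : G} (hv' : v' ∈ cls v) : w * v' ∈ cls v :=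
  diffSub_mul_mem (by rw [S.hx, hv]; exact S.hcop.symm) (by rw [hv]; exact S.htop _) hw v' hv'

theorem card_dvd : Nat.card (diffSub x) ∣ m := by
  have := card_diffSub_dvd S.coprime_xy (by rw [S.hy]; exact S.htop _)
  rwa [S.hy] at this

theorem card_coprime :
    (Nat.card (diffSub x)).Coprime (Subgroup.centralizer ({x} : Set G)).index := by
  rw [S.hx]; exact S.hcop.coprime_dvd_left S.card_dvd

theorem comm : IsMulCommutative (diffSub x) :=
  diffSub_isMulCommutative (diffSub_le_centralizer S.card_coprime)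

theorem exists_u : ∃ u ∈ diffSub x, Subgroup.centralizer ({u} : Set G) =
    Subgroup.centralizer ({x} : Set G) := by
  obtain ⟨z, hz, u, hu, e⟩ := exists_eq_center_mul S.card_coprime
  exact ⟨u, hu, by rw [e, centralizer_center_mul hz]⟩

theorem coprime_of_dvd {t k : ℕ} (ht : t.Prime) (htn : t ∣ n) {d : G} (hd : orderOf d = t ^ k)
    {w : G} {N : Subgroup G} (hw : w ∈ N) (hN : Nat.card N ∣ m) :
    (orderOf w).Coprime (orderOf d) := by
  rw [hd]
  refine Nat.Coprime.pow_right _ ?_
  refine (S.hcop.coprime_dvd_left ?_).coprime_dvd_right htn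
  exact (orderOf_dvd_of_mem hw).trans hN

theorem index_mul_eq {d : G}
    (hcop' : (Subgroup.centralizer ({d} : Set G)).index.Coprime n)
    (hlt : (Subgroup.centralizer ({d} : Set G)).index < m) :
    (Subgroup.centralizer ({d * x} : Set G)).index = n := by
  have hc : (Subgroup.centralizer ({d} : Set G)).index.Coprime
      (Subgroup.centralizer ({x} : Set G)).index := by rwa [S.hx]
  have h1 := index_le_mul hc
  have h2 := Subgroup.index_dvd_of_le (centralizer_inf_le d x)
  rw [CfsgLib.Hall.index_inf_of_coprime hc, S.hx] at h2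
  rw [S.hx] at h1
  rcases lt_or_eq_of_le (S.htop (d * x)) with h | h
  · exact le_antisymm (S.hsecond _ h) h1
  · rw [h] at h2
    have h3 := Nat.le_of_dvd (Nat.pos_of_ne_zero Subgroup.index_ne_zero_of_finite)
      (S.hcop.dvd_of_dvd_mul_right h2)
    omega

theorem eq_one_of_coprime {d : G}
    (hcop' : (Subgroup.centralizer ({d} : Set G)).index.Coprime n)
    (hlt : (Subgroup.centralizer ({d} : Set G)).index < m) :
    (Subgroup.centralizer ({d} : Set G)).index = 1 := by
  have hc : (Subgroup.centralizer ({d} : Set G)).index.Coprime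
      (Subgroup.centralizer ({x} : Set G)).index := by rwa [S.hx]
  have he := S.index_mul_eq hcop' hlt
  have hD : Nat.card (diffSub d) ∣ n := by
    have := card_diffSub_dvd hc (by rw [he, S.hx])
    rwa [S.hx] at this
  obtain ⟨z, hz, w, hw, ed⟩ := exists_eq_center_mul (hcop'.symm.coprime_dvd_left hD)
  obtain ⟨z', hz', u, hu, ex⟩ := exists_eq_center_mul S.card_coprime
  have hcard : (Nat.card (diffSub d)).Coprime (Nat.card (diffSub x)) :=
    (S.hcop.symm.coprime_dvd_left hD).coprime_dvd_right S.card_dvd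
  have hwu : Commute w u := Subgroup.commute_of_normal_of_disjoint _ _ inferInstance inferInstance
    (Subgroup.disjoint_of_coprime_natCard hcard) _ _ hw hu
  have hord : (orderOf w).Coprime (orderOf u) := by
    exact (hcard.coprime_dvd_left (orderOf_dvd_of_mem hw)).coprime_dvd_right (orderOf_dvd_of_mem hu)
  have e1 : d * x = z * z' * (w * u) := by
    rw [ed, ex, show z * w * (z' * u) = z * (w * z') * u by group,
      Subgroup.mem_center_iff.1 hz' w]
    group
  rw [e1, centralizer_center_mul (mul_mem hz hz'), centralizer_mul_of_coprime hwu hord,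
    ← centralizer_center_mul hz w, ← centralizer_center_mul hz' u, ← ed, ← ex,
    CfsgLib.Hall.index_inf_of_coprime hc, S.hx] at he
  exact Nat.eq_of_mul_eq_mul_right (by have := S.hn; omega) (he.trans (one_mul n).symm)

theorem dich {d : G} (hd : (Subgroup.centralizer ({d} : Set G)).index ∣ m) :
    d ∈ Subgroup.center G ∨ (Subgroup.centralizer ({d} : Set G)).index = m := by
  rcases lt_or_eq_of_le (S.htop d) with h | h
  · refine Or.inl ?_
    have := Subgroup.index_eq_one.1 (S.eq_one_of_coprime (S.hcop.coprime_dvd_left hd) h)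
    rw [Subgroup.centralizer_eq_top_iff_subset] at this
    exact this rfl
  · exact Or.inr h

theorem centralizer_eq {d : G} (hd : d ∉ Subgroup.center G)
    (hle : Subgroup.centralizer ({y} : Set G) ≤ Subgroup.centralizer ({d} : Set G)) :
    Subgroup.centralizer ({d} : Set G) = Subgroup.centralizer ({y} : Set G) := by
  have h := (S.dich (S.hy ▸ Subgroup.index_dvd_of_le hle)).resolve_left hd
  refine (hle.eq_or_lt.resolve_right fun hlt => ?_).symm
  have := Subgroup.index_strictAnti hlt
  rw [S.hy, h] at this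
  exact lt_irrefl _ this

theorem center_index_dvd_inf :
    (Subgroup.centralizer ({x} : Set G) ⊓ Subgroup.centralizer ({y} : Set G)).index = n * m := by
  rw [CfsgLib.Hall.index_inf_of_coprime S.coprime_xy, S.hx, S.hy]

theorem not_dvd_m {t : ℕ} (ht : t.Prime) (htn : t ∣ n) : ¬ t ∣ m := fun h =>
  ht.one_lt.ne' (Nat.dvd_one.1 (S.hcop ▸ Nat.dvd_gcd h htn))

/-- The element with second largest class may be taken primary of a prime dividing `n`. -/
theorem exists_primary : ∃ s : ℕ, s.Prime ∧ s ∣ n ∧ ∃ k, ∃ y0 : G, orderOf y0 = s ^ k ∧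
    Subgroup.centralizer ({y0} : Set G) = Subgroup.centralizer ({y} : Set G) := by
  have hyne : y ∉ Subgroup.center G := fun h => by
    have : Subgroup.centralizer ({y} : Set G) = ⊤ :=
      Subgroup.centralizer_eq_top_iff_subset.2 (by simpa using h)
    have h1 := S.hy
    rw [this, Subgroup.index_top] at h1
    have := S.hmn; have := S.hn
    omega
  obtain ⟨q, k, j, hq, hj, hjZ⟩ : ∃ q k j : ℕ, q.Prime ∧ orderOf (y ^ j) = q ^ k ∧
      y ^ j ∉ Subgroup.center G := by
    by_contra hcon
    push_neg at hcon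
    exact hyne (mem_of_forall_primary _ y hcon)
  have he1 := S.centralizer_eq hjZ (fun g hg => Subgroup.mem_centralizer_singleton_iff.2
    ((show Commute g y from Subgroup.mem_centralizer_singleton_iff.1 hg).pow_right j).eq)
  set t := n.minFac with htdef
  have ht : t.Prime := Nat.minFac_prime (by have := S.hn; omega)
  have htn : t ∣ n := Nat.minFac_dvd n
  obtain ⟨d, hd, ⟨kd, hkd⟩, hdZ⟩ : ∃ d ∈ Subgroup.centralizer ({y} : Set G),
      (∃ k, orderOf d = t ^ k) ∧ d ∉ Subgroup.center G := by
    by_contra hcon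
    push_neg at hcon
    have h1 : t ^ 1 ∣ (Subgroup.center G).index := by
      rw [pow_one]
      refine htn.trans ?_
      rw [← S.hx]
      exact Subgroup.index_dvd_of_le (Subgroup.center_le_centralizer _)
    have h2 := pow_dvd_index_of_center ht _ (Subgroup.center_le_centralizer _)
      (fun d hd hk => hcon d hd hk) h1
    rw [pow_one, S.hy] at h2
    exact S.not_dvd_m ht htn h2
  refine ⟨t, ht, htn, ?_⟩
  rcases eq_or_ne q t with rfl | hne
  · exact ⟨k, y ^ j, hj, he1⟩
  refine ⟨kd, d, hkd, ?_⟩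
  have hc : Commute d (y ^ j) :=
    (show Commute d y from Subgroup.mem_centralizer_singleton_iff.1 hd).pow_right j
  have hcopo : (orderOf d).Coprime (orderOf (y ^ j)) := by
    rw [hj, hkd]; exact Nat.Coprime.pow _ _ ((Nat.coprime_primes ht hq).2 hne.symm)
  have h3 := centralizer_mul_of_coprime hc hcopo
  rw [he1] at h3
  refine S.centralizer_eq hdZ fun g hg => ?_
  have hle : Subgroup.centralizer ({d} : Set G) ⊓ Subgroup.centralizer ({y} : Set G) =
      Subgroup.centralizer ({y} : Set G) := by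
    refine inf_le_right.eq_or_lt.resolve_right fun hlt => ?_
    have h4 := Subgroup.index_strictAnti hlt
    rw [← h3, S.hy] at h4
    have := S.htop (d * y ^ j)
    omega
  exact (hle.symm ▸ hg : g ∈ Subgroup.centralizer ({d} : Set G) ⊓ _).1

section Primary

variable {s k : ℕ} (hs : s.Prime) (hsn : s ∣ n) (hyo : orderOf y = s ^ k)
include hs hsn hyo

theorem eq_one_of_commute {N : Subgroup G} (hN : Nat.card N ∣ m)
    (hst : ∀ w ∈ N, w * y ∈ cls y) {w : G} (hw : w ∈ N) (hc : Commute w y) : w = 1 :=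
  eq_one_of_mul_mem_cls hc (S.coprime_of_dvd hs hsn hyo hw hN) (hst w hw)

theorem diffSub_inf_eq (w : G) (hw : w ∈ diffSub x) (hwy : w ∈ Subgroup.centralizer ({y} : Set G)) :
    w = 1 :=
  S.eq_one_of_commute hs hsn hyo S.card_dvd (fun v hv => S.mul_mem_cls S.hy hv (self_mem_cls y)) hw
    (Subgroup.mem_centralizer_singleton_iff.1 hwy)

theorem primary_mem {t j : ℕ} (ht : t.Prime) (hts : t ≠ s) {d : G}
    (hd : d ∈ Subgroup.centralizer ({y} : Set G)) (hdo : orderOf d = t ^ j)
    (hdZ : d ∉ Subgroup.center G) :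
    Subgroup.centralizer ({d} : Set G) = Subgroup.centralizer ({y} : Set G) := by
  have hc : Commute d y := Subgroup.mem_centralizer_singleton_iff.1 hd
  have hcopo : (orderOf d).Coprime (orderOf y) := by
    rw [hdo, hyo]; exact Nat.Coprime.pow _ _ ((Nat.coprime_primes ht hs).2 hts)
  have h3 := centralizer_mul_of_coprime hc hcopo
  have hle : Subgroup.centralizer ({d} : Set G) ⊓ Subgroup.centralizer ({y} : Set G) =
      Subgroup.centralizer ({y} : Set G) := by
    refine inf_le_right.eq_or_lt.resolve_right fun hlt => ?_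
    have h4 := Subgroup.index_strictAnti hlt
    rw [← h3, S.hy] at h4
    have := S.htop (d * y)
    omega
  exact S.centralizer_eq hdZ (hle ▸ inf_le_left)

theorem inf_eq_center : Subgroup.centralizer ({y} : Set G) ⊓ Subgroup.centralizer ({x} : Set G) =
    Subgroup.center G := by
  refine le_antisymm (fun d hd => ?_)
    (le_inf (Subgroup.center_le_centralizer _) (Subgroup.center_le_centralizer _))
  refine mem_of_forall_primary _ d fun t j i ht ho => ?_
  have hd' := pow_mem hd i
  generalize d ^ i = e at hd' ho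
  obtain ⟨hdy, hdx⟩ := hd'
  obtain ⟨u, hu, hCu⟩ := S.exists_u
  by_contra hZ
  rcases eq_or_ne t s with rfl | hts
  · -- a `t`-element with `t ∣ n`
    have hc : Commute e u := by
      rw [← hCu] at hdx
      exact Subgroup.mem_centralizer_singleton_iff.1 hdx
    have h3 := centralizer_mul_of_coprime hc.symm (S.coprime_of_dvd ht hsn ho hu S.card_dvd)
    rw [hCu] at h3
    have hdvd : n ∣ (Subgroup.centralizer ({u * e} : Set G)).index := by
      rw [h3, ← S.hx]; exact Subgroup.index_dvd_of_le inf_le_left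
    have hne : (Subgroup.centralizer ({u * e} : Set G)).index ≠ m := fun hm => by
      rw [hm] at hdvd
      have := Nat.le_of_dvd (by norm_num) (S.hcop ▸ Nat.dvd_gcd hdvd dvd_rfl : n ∣ 1)
      have := S.hn; omega
    have hle := S.hsecond _ (lt_of_le_of_ne (S.htop _) hne)
    have hxe : Subgroup.centralizer ({x} : Set G) ≤ Subgroup.centralizer ({e} : Set G) := by
      have heq : Subgroup.centralizer ({x} : Set G) ⊓ Subgroup.centralizer ({e} : Set G) =
          Subgroup.centralizer ({x} : Set G) := by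
        refine inf_le_left.eq_or_lt.resolve_right fun hlt => ?_
        have h4 := Subgroup.index_strictAnti hlt
        rw [← h3, S.hx] at h4
        omega
      exact heq ▸ inf_le_right
    have hen : (Subgroup.centralizer ({e} : Set G)).index ∣ n :=
      S.hx ▸ Subgroup.index_dvd_of_le hxe
    have hcop' : (Subgroup.centralizer ({e} : Set G)).index.Coprime
        (Subgroup.centralizer ({y} : Set G)).index := by
      rw [S.hy]; exact S.hcop.symm.coprime_dvd_left hen
    have hD := card_diffSub_dvd hcop' (by rw [S.hy]; exact S.htop _)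
    rw [S.hy] at hD
    obtain ⟨z, hz, w, hw, he⟩ := exists_eq_center_mul ((S.hcop.coprime_dvd_left hD).coprime_dvd_right hen)
    exact hZ (mem_center_of_coprime_mul hz he (S.coprime_of_dvd ht hsn ho hw hD).symm)
  · have he := S.primary_mem hs hsn hyo ht hts hdy ho hZ
    have hxy : Commute x y := by
      have h1 : x ∈ Subgroup.centralizer ({e} : Set G) := Subgroup.mem_centralizer_singleton_iff.2
        ((show Commute e x from Subgroup.mem_centralizer_singleton_iff.1 hdx).symm).eq
      rw [he] at h1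
      exact Subgroup.mem_centralizer_singleton_iff.1 h1
    have huy : Commute u y := by
      have h1 : y ∈ Subgroup.centralizer ({x} : Set G) :=
        Subgroup.mem_centralizer_singleton_iff.2 hxy.symm.eq
      rw [← hCu] at h1
      exact (show Commute y u from Subgroup.mem_centralizer_singleton_iff.1 h1).symm
    have h3 := centralizer_mul_of_coprime huy (S.coprime_of_dvd hs hsn hyo hu S.card_dvd)
    rw [hCu] at h3
    have h4 := S.htop (u * y)
    rw [h3, S.center_index_dvd_inf] at h4
    have := S.hn; have := S.hmn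
    nlinarith

theorem center_index : (Subgroup.center G).index = n * m := by
  rw [← S.inf_eq_center hs hsn hyo, inf_comm, S.center_index_dvd_inf]

theorem center_relIndex : (Subgroup.center G).relIndex (Subgroup.centralizer ({y} : Set G)) = n := by
  have h := Subgroup.relIndex_mul_index (Subgroup.center_le_centralizer ({y} : Set G))
  rw [S.center_index hs hsn hyo, S.hy] at h
  exact Nat.eq_of_mul_eq_mul_right (by have := S.hn; have := S.hmn; omega) h

theorem not_abelian_imp {v : G} (hv : v ∈ Subgroup.centralizer ({y} : Set G))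
    {l : ℕ} (hvo : orderOf v = s ^ l)
    (hvH : v ∉ Subgroup.centralizer (Subgroup.centralizer ({y} : Set G) : Set G))
    (hvs : v ^ s ∈ Subgroup.centralizer (Subgroup.centralizer ({y} : Set G) : Set G)) :
    v ^ s ∈ Subgroup.center G := by
  by_contra hZ
  have hle : Subgroup.centralizer ({y} : Set G) ≤ Subgroup.centralizer ({v ^ s} : Set G) :=
    fun g hg => Subgroup.mem_centralizer_singleton_iff.2 (Subgroup.mem_centralizer_iff.1 hvs g hg)
  have h1 := S.centralizer_eq hZ hle
  have hle2 : Subgroup.centralizer ({v} : Set G) ≤ Subgroup.centralizer ({y} : Set G) :=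
    fun g hg => h1 ▸ Subgroup.mem_centralizer_singleton_iff.2
      ((show Commute g v from Subgroup.mem_centralizer_singleton_iff.1 hg).pow_right s).eq
  rcases hle2.eq_or_lt with h | h
  · exact hvH (Subgroup.mem_centralizer_iff.2 fun g hg =>
      Subgroup.mem_centralizer_singleton_iff.1 (h.symm ▸ hg : g ∈ Subgroup.centralizer ({v} : Set G)))
  · have := Subgroup.index_strictAnti h
    rw [S.hy] at this
    have := S.htop v
    omega

/-- A power `y1` of `y` with `y1 ∉ Z(G)`, `y1 ^ s ∈ Z(G)`. -/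
theorem exists_y1 : ∃ y1 : G, y1 ∈ Subgroup.centralizer (Subgroup.centralizer ({y} : Set G) : Set G) ∧
    y1 ∈ Subgroup.centralizer ({y} : Set G) ∧ y1 ^ s ∈ Subgroup.center G ∧
    (∃ l, orderOf y1 ∣ s ^ l) ∧
    ∀ l : ℕ, ¬ s ∣ l → Subgroup.centralizer ({y1 ^ l} : Set G) = Subgroup.centralizer ({y} : Set G) := by
  classical
  have hk : ∃ i, y ^ s ^ i ∈ Subgroup.center G :=
    ⟨k, by rw [← hyo, pow_orderOf_eq_one]; exact one_mem _⟩
  have hy0 : y ∉ Subgroup.center G := fun h => by
    have : Subgroup.centralizer ({y} : Set G) = ⊤ :=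
      Subgroup.centralizer_eq_top_iff_subset.2 (by simpa using h)
    have h1 := S.hy
    rw [this, Subgroup.index_top] at h1
    have := S.hmn; have := S.hn
    omega
  obtain ⟨i, hi⟩ : ∃ i, Nat.find hk = i + 1 := Nat.exists_eq_succ_of_ne_zero fun h0 => by
    have := Nat.find_spec hk
    rw [h0, pow_zero, pow_one] at this
    exact hy0 this
  have hmem : y ∈ Subgroup.centralizer (Subgroup.centralizer ({y} : Set G) : Set G) :=
    Subgroup.mem_centralizer_iff.2 fun g hg => Subgroup.mem_centralizer_singleton_iff.1 hg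
  have hself : y ∈ Subgroup.centralizer ({y} : Set G) := Subgroup.mem_centralizer_singleton_iff.2 rfl
  have hys : (y ^ s ^ i) ^ s ∈ Subgroup.center G := by
    rw [← pow_mul, ← pow_succ, ← hi]; exact Nat.find_spec hk
  refine ⟨y ^ s ^ i, pow_mem hmem _, pow_mem hself _, hys,
    ⟨k, hyo ▸ orderOf_pow_dvd _⟩, fun l hl => ?_⟩
  refine S.centralizer_eq (fun hlZ => Nat.find_min hk (by omega : i < Nat.find hk) ?_)
    (fun g hg => Subgroup.mem_centralizer_singleton_iff.2
      (((show Commute g y from Subgroup.mem_centralizer_singleton_iff.1 hg).pow_right _).pow_right l).eq)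
  obtain ⟨a, ha⟩ := Nat.exists_mul_mod_eq_one_of_coprime (hs.coprime_iff_not_dvd.2 hl).symm hs.one_lt
  have e : y ^ s ^ i = ((y ^ s ^ i) ^ l) ^ a * (((y ^ s ^ i) ^ s) ^ (l * a / s))⁻¹ := by
    rw [eq_mul_inv_iff_mul_eq, ← pow_mul, ← pow_mul, ← pow_mul, ← pow_mul, ← pow_add]
    congr 1
    have hd := Nat.mod_add_div (l * a) s
    rw [ha.2] at hd
    conv_rhs => rw [← hd]
    ring
  rw [e]
  exact mul_mem (pow_mem hlZ a) (inv_mem (pow_mem hys _))

set_option maxHeartbeats 1000000 in
theorem isMulCommutative_y : IsMulCommutative (Subgroup.centralizer ({y} : Set G)) := by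
  classical
  set H := Subgroup.centralizer ({y} : Set G) with hHdef
  set Z := Subgroup.center G with hZdef
  suffices hall : ∀ d ∈ H, d ∈ Subgroup.centralizer (H : Set G) by
    exact ⟨⟨fun a b => Subtype.ext (Subgroup.mem_centralizer_iff.1 (hall b b.2) a a.2)⟩⟩
  by_contra hcon
  push_neg at hcon
  obtain ⟨v0, hv0H, hv0⟩ := hcon
  -- an `s`-element of `H`, not central in `H`, with `s`-th power central in `H`
  obtain ⟨v, hvH, ⟨l, hvo⟩, hvC, hvs⟩ : ∃ v ∈ H, (∃ l, orderOf v = s ^ l) ∧
      v ∉ Subgroup.centralizer (H : Set G) ∧ v ^ s ∈ Subgroup.centralizer (H : Set G) := by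
    obtain ⟨t, j, i, ht, ho, hno⟩ : ∃ t j i : ℕ, t.Prime ∧ orderOf (v0 ^ i) = t ^ j ∧
        v0 ^ i ∉ Subgroup.centralizer (H : Set G) := by
      by_contra hc
      push_neg at hc
      exact hv0 (mem_of_forall_primary _ v0 hc)
    have hts : t = s := by
      by_contra hts
      refine hno ?_
      by_cases hZ' : v0 ^ i ∈ Subgroup.center G
      · exact Subgroup.center_le_centralizer _ hZ'
      · have := S.primary_mem hs hsn hyo ht hts (pow_mem hv0H i) ho hZ'
        exact Subgroup.mem_centralizer_iff.2 fun g hg =>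
          Subgroup.mem_centralizer_singleton_iff.1 (this.symm ▸ hg :
            g ∈ Subgroup.centralizer ({v0 ^ i} : Set G))
    subst hts
    have hex : ∃ q, (v0 ^ i) ^ t ^ q ∈ Subgroup.centralizer (H : Set G) :=
      ⟨j, by rw [← ho, pow_orderOf_eq_one]; exact one_mem _⟩
    obtain ⟨q, hq⟩ : ∃ q, Nat.find hex = q + 1 := Nat.exists_eq_succ_of_ne_zero fun h0 => by
      have := Nat.find_spec hex
      rw [h0, pow_zero, pow_one] at this
      exact hno this
    refine ⟨(v0 ^ i) ^ t ^ q, pow_mem (pow_mem hv0H i) _, ?_, Nat.find_min hex (by omega), ?_⟩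
    · obtain ⟨l, -, hl⟩ := (Nat.dvd_prime_pow ht).1 (ho ▸ orderOf_pow_dvd (x := v0 ^ i) (t ^ q))
      exact ⟨l, hl⟩
    · rw [← pow_mul, ← pow_succ, ← hq]; exact Nat.find_spec hex
  have hvsZ := S.not_abelian_imp hs hsn hyo hvH hvo hvC hvs
  obtain ⟨y1, hy1C, hy1H, hy1s, ⟨l1, hy1o⟩, hy1⟩ := S.exists_y1 hs hsn hyo
  set M := diffSub x with hMdef
  have : IsMulCommutative M := S.comm
  let φ : G →* MulAut M := MulAut.conjNormal
  have hφZ : ∀ z ∈ Subgroup.center G, φ z = 1 := fun z hz => by
    ext w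
    show z * (w : G) * z⁻¹ = w
    rw [← Subgroup.mem_center_iff.1 hz w, mul_inv_cancel_right]
  have hφfix : ∀ (g : G) (w : M), φ g w = w ↔ Commute (w : G) g := fun g w => by
    rw [Subtype.ext_iff]
    show g * (w : G) * g⁻¹ = w ↔ _
    rw [mul_inv_eq_iff_eq_mul]
    exact ⟨fun h => h.symm, fun h => h.symm⟩
  -- `y1`-norms vanish
  have hnorm : ∀ l : ℕ, ¬ s ∣ l → ∀ w : M, ∏ i ∈ Finset.range s, φ ((y1 ^ l) ^ i) w = 1 := by
    intro l hl w
    have h := norm_fixed φ (g := y1 ^ l) (s := s)
      (hφZ _ (by rw [← pow_mul, mul_comm, pow_mul]; exact pow_mem hy1s l)) w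
    rw [hφfix] at h
    have hmem : ((∏ i ∈ Finset.range s, φ ((y1 ^ l) ^ i) w : M) : G) ∈
        Subgroup.centralizer ({y1 ^ l} : Set G) := Subgroup.mem_centralizer_singleton_iff.2 h.eq
    rw [hy1 l hl] at hmem
    exact Subtype.ext (S.diffSub_inf_eq hs hsn hyo _ (Subtype.coe_prop _) hmem)
  let vi : ℕ → G := fun i => v * y1 ^ i
  have hcomm : Commute v y1 := Subgroup.mem_centralizer_iff.1 hy1C v hvH
  let Mi : Fin s → Subgroup M := fun i => (Subgroup.centralizer ({vi i} : Set G)).subgroupOf M
  have hMi : ∀ (i : Fin s) (w : M), w ∈ Mi i ↔ φ (vi i) w = w := fun i w => by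
    rw [hφfix, Subgroup.mem_subgroupOf, Subgroup.mem_centralizer_singleton_iff]
    rfl
  let N : ℕ → M →* M := fun i =>
    { toFun := fun w => ∏ j ∈ Finset.range s, φ (vi i ^ j) w
      map_one' := by simp
      map_mul' := fun a b => by simp [Finset.prod_mul_distrib] }
  have hvis : ∀ i, φ (vi i ^ s) = 1 := fun i => hφZ _ (by
    rw [(hcomm.pow_right i).mul_pow, ← pow_mul, mul_comm i s, pow_mul]
    exact mul_mem hvsZ (pow_mem hy1s i))
  have hNmem : ∀ (i : Fin s) (w : M), N i w ∈ Mi i := fun i w =>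
    (hMi i _).2 (norm_fixed φ (hvis i) w)
  have hNsum : ∀ w : M, ∏ i ∈ Finset.range s, N i w = w ^ s := by
    intro w
    show (∏ i ∈ Finset.range s, ∏ j ∈ Finset.range s, φ (vi i ^ j) w) = _
    rw [Finset.prod_comm]
    have hterm : ∀ i j : ℕ, φ (vi i ^ j) w = φ (v ^ j) (φ ((y1 ^ j) ^ i) w) := fun i j => by
      rw [← MulAut.mul_apply, ← map_mul, (hcomm.pow_right i).mul_pow, ← pow_mul, ← pow_mul, mul_comm i j]
    simp only [hterm, ← map_prod]
    rw [Finset.prod_eq_single_of_mem 0 (Finset.mem_range.2 hs.pos)]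
    · simp
    · intro j hj hj0
      rw [hnorm j (fun hd => hj0 (Nat.eq_zero_of_dvd_of_lt hd (Finset.mem_range.1 hj))), map_one]
  have hNorth : ∀ (i c : Fin s), i ≠ c → ∀ w ∈ Mi c, N i w = 1 := by
    intro i c hic w hw
    have hl : ¬ s ∣ (i : ℕ) + (s - c) := by
      rintro ⟨q, hq⟩
      have h1 := i.2; have h2 := c.2
      rcases q with _ | _ | q
      · omega
      · exact hic (Fin.ext (by omega))
      · have h3 : s * 2 ≤ s * (q + 1 + 1) := Nat.mul_le_mul_left _ (by omega)
        omega
    rw [← hnorm _ hl w]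
    show (∏ j ∈ Finset.range s, φ (vi i ^ j) w) = _
    refine Finset.prod_congr rfl fun j hj => ?_
    clear hj
    have he : (vi i) * y1 ^ s = vi c * y1 ^ ((i : ℕ) + (s - c)) := by
      show v * y1 ^ (i : ℕ) * y1 ^ s = v * y1 ^ (c : ℕ) * y1 ^ _
      rw [mul_assoc, mul_assoc, ← pow_add, ← pow_add]
      congr 2
      have := c.2; omega
    have hs1 : φ (vi i) = φ (vi c) * φ (y1 ^ ((i : ℕ) + (s - c))) := by
      have h := congrArg φ he
      rw [map_mul φ (vi i) _, hφZ _ hy1s, mul_one, map_mul φ (vi c) _] at h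
      exact h
    have hco : Commute (φ (vi c)) (φ (y1 ^ ((i : ℕ) + (s - c)))) :=
      Commute.map ((hcomm.mul_left (Commute.refl y1 |>.pow_left _)).pow_right _) φ
    rw [map_pow, map_pow _ (y1 ^ ((i : ℕ) + (s - c))), hs1, hco.eq, hco.symm.mul_pow,
      MulAut.mul_apply]
    congr 1
    clear_value φ
    induction j with
    | zero => rfl
    | succ j ih => rw [pow_succ', MulAut.mul_apply, ih, (hMi c w).1 hw]
  have hNown : ∀ (i : Fin s), ∀ w ∈ Mi i, N i w = w ^ s := by
    intro i w hw
    show ∏ j ∈ Finset.range s, φ (vi i ^ j) w = _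
    rw [Finset.prod_congr rfl (g := fun _ => w), Finset.prod_const, Finset.card_range]
    intro j hj
    clear hj
    rw [map_pow]
    induction j with
    | zero => rfl
    | succ j ih => rw [pow_succ', MulAut.mul_apply, ih, (hMi i w).1 hw]
  have hpows : (Nat.card M).Coprime s :=
    (S.hcop.coprime_dvd_left S.card_dvd).coprime_dvd_right hsn
  let Ψ : ((i : Fin s) → Mi i) → M := fun p => ∏ i, (p i : M)
  have hΨmul : ∀ p q, Ψ (p * q) = Ψ p * Ψ q := fun p q => by simp [Ψ, Finset.prod_mul_distrib]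
  have hinj : Function.Injective Ψ := by
    intro p q hpq
    funext i
    have hN : ∀ r : (i : Fin s) → Mi i, N i (Ψ r) = (r i : M) ^ s := fun r => by
      rw [map_prod, Fintype.prod_eq_single i fun c hc => hNorth i c hc.symm _ (r c).2]
      exact hNown i _ (r i).2
    apply Subtype.ext
    apply (powCoprime hpows).injective
    rw [powCoprime_apply, powCoprime_apply, ← hN, ← hN, hpq]
  have hsurj : Function.Surjective Ψ := by
    intro w
    obtain ⟨r, hr⟩ := (powCoprime hpows).surjective w
    refine ⟨fun i => ⟨N i r, hNmem i r⟩, ?_⟩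
    show ∏ i : Fin s, N i r = w
    rw [Fin.prod_univ_eq_prod_range (fun i => N i r), hNsum]
    exact hr
  obtain ⟨u, hu, hCu⟩ := S.exists_u
  obtain ⟨p, hp⟩ := hsurj ⟨u, hu⟩
  let H0 : Subgroup G := H ⊓ Subgroup.centralizer ({v} : Set G)
  have hH0 : ∀ (g : G), g ∈ H → ∀ i, Commute g (vi i) → g ∈ H0 := fun g hg i h => by
    refine ⟨hg, Subgroup.mem_centralizer_singleton_iff.2 ?_⟩
    have h2 : Commute g (y1 ^ i) := (show Commute g y1 from
      Subgroup.mem_centralizer_iff.1 hy1C g hg).pow_right i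
    have h3 : Commute g (v * y1 ^ i * (y1 ^ i)⁻¹) := h.mul_right h2.inv_right
    rwa [mul_inv_cancel_right] at h3
  have hH0' : ∀ g ∈ H0, ∀ i, Commute g (vi i) := fun g hg i =>
    (show Commute g v from Subgroup.mem_centralizer_singleton_iff.1 hg.2).mul_right
      ((show Commute g y1 from Subgroup.mem_centralizer_iff.1 hy1C g hg.1).pow_right i)
  let orb : Fin s → Set M := fun i => Set.range fun h : H0 => φ (h : G) (p i : M)
  have horb : ∀ i, orb i ⊆ (Mi i : Set M) := by
    rintro i _ ⟨h, rfl⟩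
    rw [SetLike.mem_coe, hMi, ← MulAut.mul_apply, ← map_mul, ← (hH0' h h.2 i).eq, map_mul,
      MulAut.mul_apply, (hMi i _).1 (p i).2]
  -- `n` is at most `|H : H0|` times the product of the orbit lengths
  have hn_le : n ≤ H0.relIndex H * ∏ i, (orb i).ncard := by
    let F : H0 → (i : Fin s) → orb i := fun h i => ⟨_, h, rfl⟩
    let F' : H0 → ((i : Fin s) → orb i) × Z := fun h => (F h,
      ⟨(((Function.surjInv (f := Set.rangeFactorization F) Set.rangeFactorization_surjective
        ⟨F h, h, rfl⟩ : H0) : G))⁻¹ * (h : G), by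
      set r : H0 := Function.surjInv (f := Set.rangeFactorization F) Set.rangeFactorization_surjective
        ⟨F h, h, rfl⟩
      have hr : F r = F h := congrArg Subtype.val
        (Function.surjInv_eq (f := Set.rangeFactorization F) Set.rangeFactorization_surjective
          ⟨F h, h, rfl⟩)
      have hri : ∀ i, φ (r : G) (p i : M) = φ (h : G) (p i : M) := fun i =>
        congrArg Subtype.val (congrFun hr i)
      have hu' : φ ((r : G)⁻¹ * (h : G)) ⟨u, hu⟩ = ⟨u, hu⟩ := by
        rw [← hp, map_prod]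
        refine Finset.prod_congr rfl fun i _ => ?_
        rw [map_mul, MulAut.mul_apply, ← hri i, ← MulAut.mul_apply, ← map_mul, inv_mul_cancel,
          map_one, MulAut.one_apply]
      rw [hφfix] at hu'
      rw [hZdef, ← S.inf_eq_center hs hsn hyo]
      refine ⟨H.mul_mem (H.inv_mem r.2.1) h.2.1, ?_⟩
      rw [← hCu]
      exact Subgroup.mem_centralizer_singleton_iff.2 hu'.symm.eq⟩)
    have hF' : Function.Injective F' := by
      intro a b hab
      have h1 : F a = F b := congrArg Prod.fst hab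
      have h2 := congrArg (fun q => ((Prod.snd q : Z) : G)) hab
      have h2' : (((Function.surjInv (f := Set.rangeFactorization F) Set.rangeFactorization_surjective
          ⟨F a, a, rfl⟩ : H0) : G))⁻¹ * (a : G) =
        (((Function.surjInv (f := Set.rangeFactorization F) Set.rangeFactorization_surjective
          ⟨F b, b, rfl⟩ : H0) : G))⁻¹ * (b : G) := h2
      have h3 : (⟨F a, a, rfl⟩ : Set.range F) = ⟨F b, b, rfl⟩ := Subtype.ext h1
      rw [h3] at h2'
      exact Subtype.ext (mul_left_cancel h2')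
    have h1 := Nat.card_le_card_of_injective F' hF'
    rw [Nat.card_prod, Nat.card_pi] at h1
    simp only [Nat.card_coe_set_eq] at h1
    have hHc : Nat.card Z * n = Nat.card H := by
      rw [← S.center_relIndex hs hsn hyo, Subgroup.relIndex,
        ← Nat.card_congr (Subgroup.subgroupOfEquivOfLe (Subgroup.center_le_centralizer ({y} : Set G))).toEquiv]
      exact Subgroup.card_mul_index _
    have hH0c : Nat.card H0 * H0.relIndex H = Nat.card H := by
      rw [Subgroup.relIndex, ← Nat.card_congr (Subgroup.subgroupOfEquivOfLe (inf_le_left : H0 ≤ H)).toEquiv]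
      exact Subgroup.card_mul_index _
    refine Nat.le_of_mul_le_mul_left ?_ (Nat.card_pos (α := Z))
    rw [hHc, ← hH0c]
    calc Nat.card H0 * H0.relIndex H ≤ (∏ i, (orb i).ncard) * Nat.card Z * H0.relIndex H :=
          Nat.mul_le_mul_right _ h1
      _ = Nat.card Z * (H0.relIndex H * ∏ i, (orb i).ncard) := by ring
  -- a component with non-trivial fixed points
  obtain ⟨i, hiM⟩ : ∃ i, Mi i ≠ ⊥ := by
    by_contra hc
    push_neg at hc
    have hu1 : (⟨u, hu⟩ : M) = 1 := by
      rw [← hp]
      exact Finset.prod_eq_one fun i _ => (Subgroup.mem_bot.1 (hc i ▸ (p i).2))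
    have h1 : u = 1 := congrArg Subtype.val hu1
    have h2 := S.hx
    rw [← hCu, h1, Subgroup.centralizer_eq_top_iff_subset.2 (by simp), Subgroup.index_top] at h2
    have := S.hn; omega
  have hviH : vi i ∈ H := mul_mem hvH (pow_mem hy1H _)
  have hord : ∀ w ∈ M, (orderOf w).Coprime (orderOf (vi i)) := by
    intro w hw
    refine Nat.Coprime.coprime_dvd_right ?_
      (((S.hcop.coprime_dvd_left ((orderOf_dvd_of_mem hw).trans S.card_dvd)).coprime_dvd_right
        hsn).pow_right (l + l1))
    refine orderOf_dvd_of_pow_eq_one ?_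
    rw [(hcomm.pow_right (i : ℕ)).mul_pow, orderOf_dvd_iff_pow_eq_one.1 (hvo ▸ pow_dvd_pow s (Nat.le_add_right l l1)),
      ← pow_mul, mul_comm, pow_mul,
      orderOf_dvd_iff_pow_eq_one.1 (hy1o.trans (pow_dvd_pow s (Nat.le_add_left l1 l))), one_pow, one_mul]
  have hpcomm : ∀ w ∈ Mi i, Commute (w : G) (vi i) := fun w hw => (hφfix _ _).1 ((hMi i w).1 hw)
  set pv := ((p i : M) : G) * vi i with hpv
  have hpvn : (Subgroup.centralizer ({pv} : Set G)).index ≤ n := by
    refine S.hsecond _ (lt_of_le_of_ne (S.htop _) fun hm => ?_)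
    obtain ⟨w, hw, hw1⟩ := ((Mi i).bot_or_exists_ne_one).resolve_left hiM
    by_cases hp1 : (p i : M) = 1
    · have hpv1 : pv = vi i := by rw [hpv, hp1, OneMemClass.coe_one, one_mul]
      rw [hpv1] at hm
      exact hw1 (Subtype.ext (eq_one_of_mul_mem_cls (hpcomm w hw) (hord _ w.2)
        (S.mul_mem_cls hm w.2 (self_mem_cls _))))
    · have h1 := S.mul_mem_cls hm (inv_mem (p i : M).2) (self_mem_cls pv)
      rw [hpv, inv_mul_cancel_left] at h1
      obtain ⟨g, hg⟩ := mem_cls.1 h1
      refine hp1 (Subtype.ext (eq_one_of_mul_mem_cls (hpcomm _ (p i).2) (hord _ (p i : M).2)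
        (mem_cls.2 ⟨g⁻¹, ?_⟩)))
      conv_lhs => rw [← hg]
      group
  have hle : H0.relIndex H * (orb i).ncard *
      Nat.card ((j : {j : Fin s // j ≠ i}) → Mi j.1) ≤ n := by
    refine le_trans ?_ hpvn
    rw [← ncard_cls, ← Nat.card_coe_set_eq (cls pv), Subgroup.relIndex, Subgroup.index,
      ← Nat.card_coe_set_eq (orb i), ← Nat.card_prod, ← Nat.card_prod]
    let ext : ((j : {j : Fin s // j ≠ i}) → Mi j.1) → (j : Fin s) → Mi j :=
      fun μ j => if h : j = i then 1 else μ ⟨j, h⟩
    have hmem : ∀ (r : H) (c : M), c ∈ orb i → ∀ μ : M,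
        (r : G) * (μ : G) * ((c : G) * vi i) * ((r : G) * (μ : G))⁻¹ ∈ cls pv := by
      rintro r _ ⟨h, rfl⟩ μ
      refine mem_cls.2 ⟨(r : G) * (μ : G) * (h : G), ?_⟩
      show _ = (r : G) * (μ : G) * ((h : G) * ((p i : M) : G) * (h : G)⁻¹ * vi i) * _
      have := (hH0' h h.2 i).eq
      calc (r : G) * (μ : G) * (h : G) * (((p i : M) : G) * vi i) * ((r : G) * (μ : G) * (h : G))⁻¹
          = (r : G) * (μ : G) * ((h : G) * ((p i : M) : G) * (h : G)⁻¹ * ((h : G) * vi i) * (h : G)⁻¹)
            * ((r : G) * (μ : G))⁻¹ := by group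
        _ = _ := by rw [this]; group
    let T : ((H ⧸ H0.subgroupOf H) × orb i) × ((j : {j : Fin s // j ≠ i}) → Mi j.1) → cls pv :=
      fun q => ⟨_, hmem q.1.1.out q.1.2.1 q.1.2.2 (Ψ (ext q.2))⟩
    refine Nat.card_le_card_of_injective T ?_
    rintro ⟨⟨q, c, hc⟩, μ⟩ ⟨⟨q', c', hc'⟩, μ'⟩ hTT
    have hT : (q.out : G) * (Ψ (ext μ) : G) * ((c : G) * vi i) * ((q.out : G) * (Ψ (ext μ) : G))⁻¹ =
        (q'.out : G) * (Ψ (ext μ') : G) * ((c' : G) * vi i) * ((q'.out : G) * (Ψ (ext μ') : G))⁻¹ :=
      congrArg Subtype.val hTT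
    set a := (q.out : G) * (Ψ (ext μ) : G)
    set b := (q'.out : G) * (Ψ (ext μ') : G)
    -- separate the `s`-parts
    have hsplit : a * vi i * a⁻¹ = b * vi i * b⁻¹ := by
      have hkey : ∀ c : M, c ∈ Mi i → ∀ a : G, (a * ((c : G) * vi i) * a⁻¹) ^
          CfsgLib.ElementOrders.splitExp ((S.hcop.coprime_dvd_left S.card_dvd).coprime_dvd_right
            hsn |>.pow_right (l + l1)).symm = a * vi i * a⁻¹ := by
        intro c hc a
        rw [conj_pow, (hpcomm c hc).mul_pow, CfsgLib.ElementOrders.pow_splitExp_of_right _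
          (orderOf_dvd_iff_pow_eq_one.1 (orderOf_dvd_of_mem c.2)),
          CfsgLib.ElementOrders.pow_splitExp_of_left _ ?_, one_mul]
        rw [(hcomm.pow_right (i : ℕ)).mul_pow, orderOf_dvd_iff_pow_eq_one.1 (hvo ▸ pow_dvd_pow s (Nat.le_add_right l l1)),
          ← pow_mul, mul_comm, pow_mul,
          orderOf_dvd_iff_pow_eq_one.1 (hy1o.trans (pow_dvd_pow s (Nat.le_add_left l1 l))), one_pow, one_mul]
      rw [← hkey c (horb i hc) a, ← hkey c' (horb i hc') b, hT]
    have hcen : Commute (b⁻¹ * a) (vi i) := by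
      calc b⁻¹ * a * vi i = b⁻¹ * (a * vi i * a⁻¹) * a := by group
        _ = vi i * (b⁻¹ * a) := by rw [hsplit]; group
    have hr : (q'.out : G)⁻¹ * (q.out : G) ∈ H0 := by
      refine hH0 _ (mul_mem (inv_mem q'.out.2) q.out.2) i ?_
      set h := (q'.out : G)⁻¹ * (q.out : G) with hhdef
      have hhH : h ∈ H := mul_mem (inv_mem q'.out.2) q.out.2
      have e : b⁻¹ * a = (Ψ (ext μ') : G)⁻¹ * h * (Ψ (ext μ) : G) := by
        simp only [a, b, hhdef]; group
      rw [e] at hcen
      have hq : (QuotientGroup.mk (h * vi i * h⁻¹ * (vi i)⁻¹) : G ⧸ M) = 1 := by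
        have hzero : ∀ w : M, (QuotientGroup.mk (w : G) : G ⧸ M) = 1 := fun w =>
          (QuotientGroup.eq_one_iff _).2 w.2
        have h2 := congrArg (QuotientGroup.mk : G → G ⧸ M) hcen.eq
        simp only [QuotientGroup.mk_mul, QuotientGroup.mk_inv, hzero, inv_one, one_mul, mul_one] at h2
        rw [QuotientGroup.mk_mul, QuotientGroup.mk_mul, QuotientGroup.mk_mul, QuotientGroup.mk_inv,
          QuotientGroup.mk_inv, h2]
        group
      have h3 := S.diffSub_inf_eq hs hsn hyo _ ((QuotientGroup.eq_one_iff _).1 hq)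
        (mul_mem (mul_mem (mul_mem hhH hviH) (inv_mem hhH)) (inv_mem hviH))
      rw [mul_inv_eq_one, mul_inv_eq_iff_eq_mul] at h3
      exact h3
    have hqq : q = q' := by
      rw [← QuotientGroup.out_eq' q, ← QuotientGroup.out_eq' q']
      symm
      rw [QuotientGroup.eq, Subgroup.mem_subgroupOf]
      exact hr
    subst hqq
    have hfix : (Ψ (ext μ'))⁻¹ * Ψ (ext μ) ∈ Mi i := by
      rw [Subgroup.mem_subgroupOf]
      refine Subgroup.mem_centralizer_singleton_iff.2 ?_
      have e : b⁻¹ * a = (((Ψ (ext μ'))⁻¹ * Ψ (ext μ) : M) : G) := by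
        simp only [a, b, Subgroup.coe_mul, Subgroup.coe_inv]; group
      rw [← e]
      exact hcen.eq
    have hμ : μ = μ' := by
      have h4 : Ψ (ext μ' * Function.update (1 : (j : Fin s) → Mi j) i ⟨_, hfix⟩) = Ψ (ext μ) := by
        rw [hΨmul]
        have : Ψ (Function.update (1 : (j : Fin s) → Mi j) i ⟨_, hfix⟩) = (Ψ (ext μ'))⁻¹ * Ψ (ext μ) := by
          show (∏ j, ((Function.update (1 : (j : Fin s) → Mi j) i ⟨_, hfix⟩ j : Mi j) : M)) = _
          rw [Fintype.prod_eq_single i, Function.update_self]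
          intro j hj
          rw [Function.update_of_ne hj]
          rfl
        rw [this, mul_inv_cancel_left]
      funext j
      have h5 := congrFun (hinj h4) j.1
      simp only [Pi.mul_apply, Function.update_of_ne j.2, Pi.one_apply, mul_one, ext, dif_neg j.2] at h5
      exact h5.symm
    subst hμ
    have hcc : c = c' := by
      have := congrArg (fun g => a⁻¹ * g * a) hT
      simp only [a, b] at this
      apply Subtype.ext
      have h6 : (c : G) * vi i = (c' : G) * vi i := by
        convert this using 1 <;> group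
      exact mul_right_cancel h6
    subst hcc
    rfl
  rw [Nat.card_pi] at hle
  have hpos : 0 < H0.relIndex H :=
    Nat.pos_of_ne_zero (Subgroup.index_ne_zero_of_finite (H := H0.subgroupOf H))
  have horb_pos : ∀ j, 0 < (orb j).ncard := fun j =>
    (Set.ncard_pos (Set.toFinite _)).2 ⟨_, ⟨1, rfl⟩⟩
  have hsplit : (∏ j, (orb j).ncard) = (orb i).ncard * ∏ j : {j : Fin s // j ≠ i}, (orb j.1).ncard := by
    rw [Fintype.prod_eq_mul_prod_compl i]
    congr 1
    exact Finset.prod_subtype _ (by simp) fun j => (orb j).ncard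
  rw [hsplit] at hn_le
  have hPP : (∏ j : {j : Fin s // j ≠ i}, Nat.card (Mi j.1)) ≤
      ∏ j : {j : Fin s // j ≠ i}, (orb j.1).ncard := by
    refine Nat.le_of_mul_le_mul_left ?_ (Nat.mul_pos hpos (horb_pos i))
    calc _ ≤ n := hle
      _ ≤ _ := by rw [mul_assoc]; exact hn_le
  have hbot : ∀ j, j ≠ i → Mi j = ⊥ := by
    intro j hj
    by_contra hjb
    refine absurd hPP (not_le.2 (Finset.prod_lt_prod (fun j' _ => horb_pos j'.1) (fun j' _ => ?_)
      ⟨⟨j, hj⟩, Finset.mem_univ _, ?_⟩))
    · exact (Set.ncard_le_ncard (horb j'.1) (Set.toFinite _)).trans_eq (Nat.card_coe_set_eq _).symm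
    · refine lt_of_lt_of_eq (Set.ncard_lt_ncard ((horb j).ssubset_of_ne fun he => ?_) (Set.toFinite _))
        (Nat.card_coe_set_eq _).symm
      obtain ⟨h1, e1⟩ : (1 : M) ∈ orb j := he ▸ (Mi j).one_mem
      have hpj : (p j : M) = 1 := (φ (h1 : G)).map_eq_one_iff.1 e1
      obtain ⟨w, hw, hw1⟩ := ((Mi j).bot_or_exists_ne_one).resolve_left hjb
      obtain ⟨h2, e2⟩ : w ∈ orb j := he ▸ hw
      have e2' : φ (h2 : G) (p j : M) = w := e2
      rw [hpj, map_one] at e2'
      exact hw1 e2'.symm
  have hux : Commute u (vi i) := by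
    have h : (⟨u, hu⟩ : M) = (p i : M) := by
      rw [← hp]
      exact Fintype.prod_eq_single i fun j hj => Subgroup.mem_bot.1 (hbot j hj ▸ (p j).2)
    have h' : u = ((p i : M) : G) := congrArg Subtype.val h
    rw [h']
    exact hpcomm _ (p i).2
  have hvZ : vi i ∈ Z := by
    rw [hZdef, ← S.inf_eq_center hs hsn hyo]
    exact ⟨hviH, hCu ▸ Subgroup.mem_centralizer_singleton_iff.2 hux.symm.eq⟩
  refine hvC ?_
  have e : v = vi i * (y1 ^ (i : ℕ))⁻¹ := by simp [vi]
  rw [e]
  exact mul_mem (Subgroup.center_le_centralizer _ hvZ) (inv_mem (pow_mem hy1C _))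

theorem conj_inf_le (g d : G) (hd : d ∈ Subgroup.centralizer ({y} : Set G))
    (hx' : g * d * g⁻¹ ∈ Subgroup.centralizer ({x} : Set G)) : g * d * g⁻¹ ∈ Subgroup.center G := by
  obtain ⟨c, hc, e, he, hce⟩ := CfsgLib.Hall.exists_mul_of_coprime_index S.coprime_xy g
  rw [← S.inf_eq_center hs hsn hyo]
  have hed : e * d * e⁻¹ ∈ Subgroup.centralizer ({y} : Set G) := mul_mem (mul_mem he hd) (inv_mem he)
  have hcx : e * d * e⁻¹ ∈ Subgroup.centralizer ({x} : Set G) := by
    have h : e * d * e⁻¹ = c⁻¹ * (g * d * g⁻¹) * c := by rw [hce]; group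
    rw [h]
    exact mul_mem (mul_mem (inv_mem hc) hx') hc
  have hZ : e * d * e⁻¹ ∈ Subgroup.center G := by
    rw [← S.inf_eq_center hs hsn hyo]; exact ⟨hed, hcx⟩
  have h : g * d * g⁻¹ = c * (e * d * e⁻¹) * c⁻¹ := by rw [hce]; group
  rw [h, Subgroup.mem_center_iff.1 hZ c, mul_inv_cancel_right, S.inf_eq_center hs hsn hyo]
  exact hZ

theorem centralizer_eq_of_mem {d : G} (hd : d ∈ Subgroup.centralizer ({y} : Set G))
    (hdZ : d ∉ Subgroup.center G) :
    Subgroup.centralizer ({d} : Set G) = Subgroup.centralizer ({y} : Set G) := by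
  have := S.isMulCommutative_y hs hsn hyo
  refine S.centralizer_eq hdZ fun g hg => Subgroup.mem_centralizer_singleton_iff.2 ?_
  exact congrArg Subtype.val (mul_comm' (⟨g, hg⟩ : Subgroup.centralizer ({y} : Set G)) ⟨d, hd⟩)

/-- Conjugates of `C(y)` meeting in a non-central element coincide. -/
theorem conj_mem_iff {g d : G} (hd : d ∈ Subgroup.centralizer ({y} : Set G))
    (hdZ : d ∉ Subgroup.center G) (w : G) :
    w ∈ Subgroup.centralizer ({g * d * g⁻¹} : Set G) ↔
      g⁻¹ * w * g ∈ Subgroup.centralizer ({y} : Set G) := by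
  rw [← S.centralizer_eq_of_mem hs hsn hyo hd hdZ, Subgroup.mem_centralizer_singleton_iff,
    Subgroup.mem_centralizer_singleton_iff]
  constructor
  · intro h
    calc g⁻¹ * w * g * d = g⁻¹ * (w * (g * d * g⁻¹)) * g := by group
      _ = d * (g⁻¹ * w * g) := by rw [h]; group
  · intro h
    calc w * (g * d * g⁻¹) = g * (g⁻¹ * w * g * d) * g⁻¹ := by group
      _ = g * d * g⁻¹ * w := by rw [h]; group

/-- A `t`-element, `t ∣ n`, lies in a conjugate of `C(y)`. -/
theorem exists_conj_mem {t j : ℕ} (ht : t.Prime) (htn : t ∣ n) {d : G} (hd : orderOf d = t ^ j) :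
    ∃ g : G, g⁻¹ * d * g ∈ Subgroup.centralizer ({y} : Set G) := by
  have : Fact t.Prime := ⟨ht⟩
  obtain ⟨Q, hQ⟩ := (IsPGroup.of_card (by rw [Nat.card_zpowers, hd] :
    Nat.card (Subgroup.zpowers d) = t ^ j)).exists_le_sylow
  obtain ⟨P⟩ : Nonempty (Sylow t (Subgroup.centralizer ({y} : Set G))) := inferInstance
  have hc : Nat.card ((P : Subgroup _).map (Subgroup.centralizer ({y} : Set G)).subtype) =
      t ^ (Nat.card G).factorization t := by
    rw [Subgroup.card_map_of_injective (Subgroup.subtype_injective _), P.card_eq_multiplicity,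
      ← Subgroup.index_mul_card (Subgroup.centralizer ({y} : Set G)), S.hy,
      Nat.factorization_mul (by have := S.hn; have := S.hmn; omega) Nat.card_pos.ne']
    simp [Nat.factorization_eq_zero_of_not_dvd (S.not_dvd_m ht htn)]
  obtain ⟨g, hg⟩ := MulAction.exists_smul_eq G (Sylow.ofCard _ hc) Q
  refine ⟨g, ?_⟩
  have h1 : d ∈ ((g • Sylow.ofCard _ hc : Sylow t G) : Subgroup G) :=
    hg ▸ hQ (Subgroup.mem_zpowers d)
  rw [Sylow.coe_subgroup_smul, CfsgLib.Frobenius.mem_conj_smul] at h1
  exact Subgroup.map_subtype_le _ h1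

theorem normalizer_le (g : G)
    (hg : ∀ d ∈ Subgroup.centralizer ({y} : Set G), g * d * g⁻¹ ∈ Subgroup.centralizer ({y} : Set G)) :
    g ∈ Subgroup.centralizer ({y} : Set G) := by
  obtain ⟨h0, hh0, k0, hk0, e⟩ := CfsgLib.Hall.exists_mul_of_coprime_index S.coprime_xy.symm g
  suffices hk : k0 ∈ Subgroup.center G by
    rw [e]; exact mul_mem hh0 (Subgroup.center_le_centralizer _ hk)
  have hk0N : ∀ d ∈ Subgroup.centralizer ({y} : Set G),
      k0 * d * k0⁻¹ ∈ Subgroup.centralizer ({y} : Set G) := fun d hd => by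
    have h : k0 * d * k0⁻¹ = h0⁻¹ * (g * d * g⁻¹) * h0 := by rw [e]; group
    rw [h]
    exact mul_mem (mul_mem (inv_mem hh0) (hg d hd)) hh0
  refine mem_of_forall_primary _ k0 fun t j i ht ho => ?_
  have hwN : ∀ d ∈ Subgroup.centralizer ({y} : Set G),
      k0 ^ i * d * (k0 ^ i)⁻¹ ∈ Subgroup.centralizer ({y} : Set G) := by
    clear ho
    induction i with
    | zero => intro d hd; simpa using hd
    | succ i ih =>
      intro d hd
      have := hk0N _ (ih d hd)
      simpa [pow_succ', mul_assoc] using this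
  have hwK := pow_mem hk0 i
  generalize k0 ^ i = w at ho hwN hwK
  by_contra hwZ
  by_cases htn : t ∣ n
  · obtain ⟨c, hc⟩ := S.exists_conj_mem hs hsn hyo ht htn ho
    have h := S.conj_inf_le hs hsn hyo c _ hc (by simpa [mul_assoc] using hwK)
    exact hwZ (by simpa [mul_assoc] using h)
  · set Cw := Subgroup.centralizer ({w} : Set G) with hCw
    have hcent : ∀ q : ℕ, q.Prime → q ∣ n → ∀ d ∈ Cw, (∃ l, orderOf d = q ^ l) →
        d ∈ Subgroup.center G := by
      rintro q hq hqn d hd ⟨l, hl⟩
      by_contra hdZ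
      obtain ⟨c, hc⟩ := S.exists_conj_mem hs hsn hyo hq hqn hl
      have hcZ : c⁻¹ * d * c ∉ Subgroup.center G := fun h => hdZ (by
        have := (Subgroup.center G).mul_mem h (one_mem _)
        have h2 : d = c * (c⁻¹ * d * c) * c⁻¹ := by group
        rw [h2, Subgroup.mem_center_iff.1 h c, mul_inv_cancel_right]
        exact h)
      have h := (S.conj_mem_iff hs hsn hyo (g := c) hc hcZ w).1
      rw [show c * (c⁻¹ * d * c) * c⁻¹ = d by group] at h
      have hw' := h (Subgroup.mem_centralizer_singleton_iff.2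
        (show Commute d w from Subgroup.mem_centralizer_singleton_iff.1 hd).symm.eq)
      exact hwZ (by simpa [mul_assoc] using
        S.conj_inf_le hs hsn hyo c _ hw' (by simpa [mul_assoc] using hwK))
    have hdvd : n ∣ Cw.index := by
      rw [Nat.dvd_iff_prime_pow_dvd_dvd]
      intro q a hq hqa
      rcases Nat.eq_zero_or_pos a with rfl | ha
      · simp
      refine pow_dvd_index_of_center hq Cw (Subgroup.center_le_centralizer _)
        (hcent q hq ((dvd_pow_self q ha.ne').trans hqa)) ?_
      rw [S.center_index hs hsn hyo]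
      exact hqa.mul_right m
    have hne : Cw.index ≠ m := fun hm => by
      rw [hm] at hdvd
      have := Nat.le_of_dvd (by norm_num) (S.hcop ▸ Nat.dvd_gcd hdvd dvd_rfl : n ∣ 1)
      have := S.hn; omega
    have heq : Cw.index = n := le_antisymm (S.hsecond _ (lt_of_le_of_ne (S.htop _) hne))
      (Nat.le_of_dvd (Nat.pos_of_ne_zero Subgroup.index_ne_zero_of_finite) hdvd)
    have hcop' : (Subgroup.centralizer ({w} : Set G)).index.Coprime
        (Subgroup.centralizer ({y} : Set G)).index := by
      rw [← hCw, heq, S.hy]; exact S.hcop.symm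
    have hle := (S.htop (w * y)).trans_eq S.hy.symm
    have hD := card_diffSub_dvd hcop' hle
    rw [S.hy] at hD
    obtain ⟨z, hz, w', hw', ew⟩ := exists_eq_center_mul
      (show (Nat.card (diffSub w)).Coprime (Subgroup.centralizer ({w} : Set G)).index by
        rw [← hCw, heq]; exact S.hcop.coprime_dvd_left hD)
    have hq : w * y * w⁻¹ * y⁻¹ ∈ diffSub w := by
      have h : w * y * w⁻¹ * y⁻¹ = w' * (y * w'⁻¹ * y⁻¹) := by
        rw [ew, show z * w' * y * (z * w')⁻¹ * y⁻¹ = z * (w' * y * w'⁻¹) * z⁻¹ * y⁻¹ by group,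
          ← Subgroup.mem_center_iff.1 hz (w' * y * w'⁻¹)]
        group
      rw [h]
      exact mul_mem hw' ((diffSub_normal w).conj_mem _ (inv_mem hw') y)
    have hyself : y ∈ Subgroup.centralizer ({y} : Set G) :=
      Subgroup.mem_centralizer_singleton_iff.2 rfl
    have h1 := S.eq_one_of_commute hs hsn hyo hD
      (fun v hv => diffSub_mul_mem hcop' hle hv y (self_mem_cls y)) hq
      (Subgroup.mem_centralizer_singleton_iff.1 (mul_mem (hwN y hyself) (inv_mem hyself)))
    rw [mul_inv_eq_one, mul_inv_eq_iff_eq_mul] at h1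
    refine hwZ ?_
    rw [← S.inf_eq_center hs hsn hyo]
    exact ⟨Subgroup.mem_centralizer_singleton_iff.2 h1, hwK⟩

theorem conclusion :
    IsMulCommutative (Subgroup.centralizer ({x} : Set G)) ∧
    IsMulCommutative (Subgroup.centralizer ({y} : Set G)) ∧
    Cfsg.IsFrobeniusComplement
      ((Subgroup.centralizer ({y} : Set G)).map (QuotientGroup.mk' (Subgroup.center G))) ∧
    Cfsg.frobeniusKernel
      ((Subgroup.centralizer ({y} : Set G)).map (QuotientGroup.mk' (Subgroup.center G))) =
      ((Subgroup.centralizer ({x} : Set G)).map (QuotientGroup.mk' (Subgroup.center G)) :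
        Set (G ⧸ Subgroup.center G)) := by
  set π := QuotientGroup.mk' (Subgroup.center G) with hπdef
  set H := Subgroup.centralizer ({y} : Set G) with hHdef
  set K := Subgroup.centralizer ({x} : Set G) with hKdef
  have hπ : ∀ (C : Subgroup G), Subgroup.center G ≤ C → ∀ g, π g ∈ C.map π ↔ g ∈ C := by
    intro C hC g
    rw [← Subgroup.mem_comap, Subgroup.comap_map_eq, QuotientGroup.ker_mk', sup_eq_left.2 hC]
  have hidx : ∀ (C : Subgroup G), Subgroup.center G ≤ C → (C.map π).index = C.index := by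
    intro C hC
    rw [Subgroup.index_map, QuotientGroup.ker_mk', sup_eq_left.2 hC,
      MonoidHom.range_eq_top.2 (QuotientGroup.mk'_surjective _), Subgroup.index_top, mul_one]
  have hF : Cfsg.IsFrobeniusComplement (H.map π) := by
    refine ⟨fun hb => ?_, fun ht => ?_, fun gb hgb => (Subgroup.eq_bot_iff_forall _).2 fun db hdb => ?_⟩
    · have h1 := S.center_relIndex hs hsn hyo
      rw [Subgroup.relIndex_eq_one.2] at h1
      · have := S.hn; omega
      · intro g hg
        have h2 : π g ∈ (⊥ : Subgroup _) := hb ▸ Subgroup.mem_map_of_mem π hg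
        rwa [Subgroup.mem_bot, QuotientGroup.mk'_apply, QuotientGroup.eq_one_iff] at h2
    · have h1 := hidx H (Subgroup.center_le_centralizer _)
      rw [ht, Subgroup.index_top, S.hy] at h1
      have := S.hn; have := S.hmn; omega
    · obtain ⟨g, rfl⟩ := QuotientGroup.mk'_surjective _ gb
      obtain ⟨d, rfl⟩ := QuotientGroup.mk'_surjective _ db
      obtain ⟨h1, h2⟩ := Subgroup.mem_inf.1 hdb
      rw [CfsgLib.Frobenius.mem_conj_smul, ← map_inv, ← map_mul, ← map_mul] at h2
      rw [hπ H (Subgroup.center_le_centralizer _)] at h1 h2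
      by_contra hd1
      have hdZ : d ∉ Subgroup.center G := fun h => hd1 ((QuotientGroup.eq_one_iff d).2 h)
      refine hgb (Subgroup.mem_map_of_mem π ?_)
      have hcc : ∀ w, w ∈ H ↔ g⁻¹ * w * g ∈ H := by
        intro w
        have h3 := S.conj_mem_iff hs hsn hyo (g := g) h2 (fun h => hdZ (by
          have h4 : d = g * (g⁻¹ * d * g) * g⁻¹ := by group
          rw [h4, Subgroup.mem_center_iff.1 h g, mul_inv_cancel_right]
          exact h)) w
        rwa [show g * (g⁻¹ * d * g) * g⁻¹ = d by group, S.centralizer_eq_of_mem hs hsn hyo h1 hdZ] at h3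
      exact S.normalizer_le hs hsn hyo g fun e he => (hcc _).2 (by simpa [mul_assoc] using he)
  have hker : Cfsg.frobeniusKernel (H.map π) = ((K.map π : Subgroup _) : Set (G ⧸ Subgroup.center G)) := by
    symm
    refine Set.eq_of_subset_of_ncard_le ?_ ?_ (Set.toFinite _)
    · intro q hq
      obtain ⟨w, hw, rfl⟩ := Subgroup.mem_map.1 hq
      by_cases hwZ : w ∈ Subgroup.center G
      · exact Or.inl ((QuotientGroup.eq_one_iff w).2 hwZ)
      refine Or.inr fun gb hgb => hwZ ?_
      obtain ⟨g, rfl⟩ := QuotientGroup.mk'_surjective _ gb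
      rw [CfsgLib.Frobenius.mem_conj_smul, ← map_inv, ← map_mul, ← map_mul,
        hπ H (Subgroup.center_le_centralizer _)] at hgb
      simpa [mul_assoc] using S.conj_inf_le hs hsn hyo g _ hgb (by simpa [mul_assoc] using hw)
    · rw [← Nat.card_coe_set_eq, CfsgLib.Frobenius.card_kernel hF,
        hidx H (Subgroup.center_le_centralizer _), ← Nat.card_coe_set_eq, SetLike.coe_sort_coe]
      refine le_of_eq (Nat.eq_of_mul_eq_mul_left (n := n) (by have := S.hn; omega) ?_)
      have h1 := Subgroup.index_mul_card (K.map π)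
      rw [hidx K (Subgroup.center_le_centralizer _), S.hx, ← Subgroup.index, S.center_index hs hsn hyo] at h1
      rw [S.hy, h1]
  refine ⟨?_, S.isMulCommutative_y hs hsn hyo, hF, hker⟩
  have hnormal : ∀ w ∈ K, ∀ g : G, g * w * g⁻¹ ∈ K := by
    intro w hw g
    have h1 := CfsgLib.Frobenius.conj_mem_kernel (x := π w)
      (show π w ∈ Cfsg.frobeniusKernel (H.map π) by rw [hker]; exact Subgroup.mem_map_of_mem π hw) (π g)
    rw [hker, ← map_inv, ← map_mul, ← map_mul, SetLike.mem_coe,
      hπ K (Subgroup.center_le_centralizer _)] at h1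
    exact h1
  refine ⟨⟨fun a b => Subtype.ext ?_⟩⟩
  by_cases haZ : (a : G) ∈ Subgroup.center G
  · exact (Subgroup.mem_center_iff.1 haZ b).symm
  suffices hCa : Subgroup.centralizer ({(a : G)} : Set G) = K by
    have hb : (b : G) ∈ Subgroup.centralizer ({(a : G)} : Set G) := hCa.symm ▸ b.2
    exact (Subgroup.mem_centralizer_singleton_iff.1 hb).symm
  have hle : Subgroup.centralizer ({(a : G)} : Set G) ≤ K := by
    intro g hg
    by_contra hgK
    have hgker : π g ∉ Cfsg.frobeniusKernel (H.map π) := by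
      rw [hker, SetLike.mem_coe, hπ K (Subgroup.center_le_centralizer _)]
      exact hgK
    simp only [Cfsg.frobeniusKernel, Set.mem_setOf_eq, not_or, not_forall, not_not] at hgker
    obtain ⟨hg1, cb, hcb⟩ := hgker
    obtain ⟨c, rfl⟩ := QuotientGroup.mk'_surjective _ cb
    rw [CfsgLib.Frobenius.mem_conj_smul, ← map_inv, ← map_mul, ← map_mul,
      hπ H (Subgroup.center_le_centralizer _)] at hcb
    have hgZ : c⁻¹ * g * c ∉ Subgroup.center G := fun h => hg1 ((QuotientGroup.eq_one_iff g).2 (by
      have h4 : g = c * (c⁻¹ * g * c) * c⁻¹ := by group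
      rw [h4, Subgroup.mem_center_iff.1 h c, mul_inv_cancel_right]
      exact h))
    have h3 := (S.conj_mem_iff hs hsn hyo (g := c) hcb hgZ (a : G)).1
    rw [show c * (c⁻¹ * g * c) * c⁻¹ = g by group] at h3
    have h4 := h3 (Subgroup.mem_centralizer_singleton_iff.2
      (show Commute g (a : G) from Subgroup.mem_centralizer_singleton_iff.1 hg).symm.eq)
    exact haZ (by simpa [mul_assoc] using
      S.conj_inf_le hs hsn hyo c _ h4 (by simpa [mul_assoc] using a.2))
  refine hle.eq_or_lt.resolve_right fun hlt => ?_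
  have h1 := Subgroup.index_strictAnti hlt
  have h2 : n ∣ (Subgroup.centralizer ({(a : G)} : Set G)).index := S.hx ▸ Subgroup.index_dvd_of_le hle
  rw [S.hx] at h1
  rcases lt_or_eq_of_le (S.htop (a : G)) with h | h
  · have := S.hsecond _ h; omega
  · rw [h] at h2
    have := Nat.le_of_dvd (by norm_num) (S.hcop ▸ Nat.dvd_gcd h2 dvd_rfl : n ∣ 1)
    have := S.hn; omega

end Primary

end Setup

end Aux

/-- Let G be a finite group whose two largest conjugacy class sizes m > n > 1 are coprime, and let x, y ∈ G have classes of sizes n and m respectively. Then C_G(x) and C_G(y) are abelian, and G/Z(G) is a Frobenius group with kernel C_G(x)/Z(G) and complement C_G(y)/Z(G). -/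
theorem result {G : Type*} [Group G] [Finite G] (m n : ℕ) (hmn : n < m) (hn : 1 < n)
    (hcop : m.Coprime n) (htop : ∀ z : G, (Subgroup.centralizer ({z} : Set G)).index ≤ m) (hsecond : ∀ z : G, (Subgroup.centralizer ({z} : Set G)).index < m → (Subgroup.centralizer ({z} : Set G)).index ≤ n)
    (x y : G) (hx : (Subgroup.centralizer ({x} : Set G)).index = n) (hy : (Subgroup.centralizer ({y} : Set G)).index = m) :
    IsMulCommutative (Subgroup.centralizer ({x} : Set G)) ∧ IsMulCommutative (Subgroup.centralizer ({y} : Set G)) ∧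
    Cfsg.IsFrobeniusComplement ((Subgroup.centralizer ({y} : Set G)).map (QuotientGroup.mk' (Subgroup.center G))) ∧
    Cfsg.frobeniusKernel ((Subgroup.centralizer ({y} : Set G)).map (QuotientGroup.mk' (Subgroup.center G))) =
      ((Subgroup.centralizer ({x} : Set G)).map (QuotientGroup.mk' (Subgroup.center G)) : Set (G ⧸ Subgroup.center G)) := by
  have S : Setup m n x y := ⟨hmn, hn, hcop, htop, hsecond, hx, hy⟩
  obtain ⟨s, hs, hsn, k, y0, hy0, he⟩ := S.exists_primary
  have S' : Setup m n x y0 := ⟨hmn, hn, hcop, htop, hsecond, hx, by rw [he, hy]⟩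
  rw [← he]
  exact S'.conclusion hs hsn hy0

end Cfsg.Agent.S4138
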