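import Cfsg.Statements.S4142
import Cfsg.Agent.Lib.ElementOrders.Frobenius

set_option autoImplicit false
open Cfsg

namespace Cfsg.Agent.S4142

open CfsgLib.ElementOrders

theorem mul_card_centralizer_eq_iff {G : Type*} [Group G] [Finite G] (N : Subgroup G) [N.Normal] (g : G) :
    Nat.card (Subgroup.centralizer ({g} : Set G)) =
      Nat.card (Subgroup.centralizer ({(QuotientGroup.mk g : G ⧸ N)} : Set (G ⧸ N))) ↔
    QuotientGroup.mk ⁻¹' (ConjClasses.mk (QuotientGroup.mk g : G ⧸ N)).carrier ⊆ (ConjClasses.mk g).carrier := by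
  set S : Set G := QuotientGroup.mk ⁻¹' (ConjClasses.mk (QuotientGroup.mk g : G ⧸ N)).carrier with hS
  set T : Set G := (ConjClasses.mk g).carrier with hT
  have hsub : T ⊆ S := by
    intro y hy
    obtain ⟨c, rfl⟩ := isConj_iff.1 (ConjClasses.mk_eq_mk_iff_isConj.1 (ConjClasses.mem_carrier_iff_mk_eq.1 hy).symm)
    exact ConjClasses.mem_carrier_iff_mk_eq.2 (ConjClasses.mk_eq_mk_iff_isConj.2
      (isConj_iff.2 ⟨QuotientGroup.mk c, rfl⟩).symm)
  have hSc : S.ncard = Nat.card N * (ConjClasses.mk (QuotientGroup.mk g : G ⧸ N)).carrier.ncard := by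
    rw [← Nat.card_coe_set_eq, ← Nat.card_coe_set_eq, ← Nat.card_prod, hS]
    exact Nat.card_congr (QuotientGroup.preimageMkEquivSubgroupProdSet N _)
  have h1 := ncard_conj_class_mul_card_centralizer g
  have h2 := ncard_conj_class_mul_card_centralizer (QuotientGroup.mk g : G ⧸ N)
  have hTpos : 0 < T.ncard := (Set.ncard_pos).2 ⟨g, ConjClasses.mem_carrier_mk⟩
  have key : T.ncard * Nat.card (Subgroup.centralizer ({g} : Set G)) =
      S.ncard * Nat.card (Subgroup.centralizer ({(QuotientGroup.mk g : G ⧸ N)} : Set (G ⧸ N))) := by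
    rw [h1, hSc, mul_assoc, h2, mul_comm (Nat.card N)]
    exact N.card_eq_card_quotient_mul_card_subgroup
  constructor
  · intro h
    rw [h] at key
    exact (Set.eq_of_subset_of_ncard_le hsub
      (Nat.eq_of_mul_eq_mul_right Nat.card_pos key).ge).ge
  · intro h
    rw [(hsub.antisymm h).symm] at key
    exact Nat.eq_of_mul_eq_mul_left hTpos key

/-- Let G be a finite group and N a normal subgroup. Then the conjugacy class of every element g outside N is a union of cosets of N (gn is conjugate to g for all n ∈ N) if and only if for every g outside N the centralizer of g in G has the same order as the centralizer of gN in G/N. -/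
theorem result {G : Type*} [Group G] [Finite G] (N : Subgroup G) [N.Normal] :
    (∀ g : G, g ∉ N → ∀ n ∈ N, ∃ x : G, x * g * x⁻¹ = g * n) ↔
      ∀ g : G, g ∉ N → Nat.card (Subgroup.centralizer ({g} : Set G)) =
        Nat.card (Subgroup.centralizer ({(QuotientGroup.mk g : G ⧸ N)} : Set (G ⧸ N))) := by
  simp only [mul_card_centralizer_eq_iff]
  refine ⟨fun hcam g hg y hy => ?_, fun h g hg n hn => ?_⟩
  · obtain ⟨cb, hcb⟩ := isConj_iff.1 (ConjClasses.mk_eq_mk_iff_isConj.1
      (ConjClasses.mem_carrier_iff_mk_eq.1 (Set.mem_preimage.1 hy)).symm)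
    obtain ⟨c, rfl⟩ := QuotientGroup.mk'_surjective N cb
    have hn : g⁻¹ * (c⁻¹ * y * c) ∈ N := by
      rw [← QuotientGroup.eq]
      rw [QuotientGroup.mk_mul, QuotientGroup.mk_mul, ← hcb, QuotientGroup.mk_inv]
      simp only [QuotientGroup.mk'_apply]
      group
    obtain ⟨x, hx⟩ := hcam g hg _ hn
    refine ConjClasses.mem_carrier_iff_mk_eq.2 (ConjClasses.mk_eq_mk_iff_isConj.2
      (isConj_iff.2 ⟨c * x, ?_⟩).symm)
    calc c * x * g * (c * x)⁻¹ = c * (x * g * x⁻¹) * c⁻¹ := by group
      _ = y := by rw [hx]; group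
  · have hmem : g * n ∈ QuotientGroup.mk ⁻¹' (ConjClasses.mk (QuotientGroup.mk g : G ⧸ N)).carrier := by
      rw [Set.mem_preimage, QuotientGroup.mk_mul, (QuotientGroup.eq_one_iff n).2 hn, mul_one]
      exact ConjClasses.mem_carrier_mk
    obtain ⟨x, hx⟩ := isConj_iff.1 (ConjClasses.mk_eq_mk_iff_isConj.1
      (ConjClasses.mem_carrier_iff_mk_eq.1 (h g hg hmem)).symm)
    exact ⟨x, hx⟩

end Cfsg.Agent.S4142
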