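import Cfsg.Statements.S4143
import Cfsg.Agent.Lib.PGroups.MaximalClass

set_option autoImplicit false
open Cfsg

namespace Cfsg.Agent.S4143

open scoped commutatorElement

variable {p : ℕ} [hp : Fact p.Prime] {B : Type*} [Group B] [Finite B]

theorem card_center_of_card_cube (hB : Nat.card B = p ^ 3) (hna : ¬ IsMulCommutative B) :
    Nat.card (Subgroup.center B) = p := by
  obtain ⟨k, hk0, hk⟩ := IsPGroup.card_center_eq_prime_pow (p := p) hB (by omega)
  have h3 : k ≤ 3 := (Nat.pow_dvd_pow_iff_le_right hp.out.one_lt).1 (hk ▸ hB ▸ Subgroup.card_subgroup_dvd_card _)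
  have hidx := (Subgroup.center B).card_mul_index
  rw [hk, hB] at hidx
  have hcases : k = 1 ∨ k = 2 ∨ k = 3 := by omega
  rcases hcases with rfl | rfl | rfl
  · rw [hk, pow_one]
  · exfalso
    rw [pow_succ p 2] at hidx
    have hi : Nat.card (B ⧸ Subgroup.center B) = p := Nat.eq_of_mul_eq_mul_left (pow_pos hp.out.pos 2) hidx
    have : IsCyclic (B ⧸ Subgroup.center B) := isCyclic_of_prime_card hi
    exact hna ⟨⟨commutative_of_cyclic_center_quotient (QuotientGroup.mk' (Subgroup.center B)) (le_of_eq (QuotientGroup.ker_mk' _))⟩⟩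
  · exfalso
    have : Subgroup.center B = ⊤ := Subgroup.eq_top_of_card_eq _ (by rw [hk, hB])
    exact hna ⟨⟨fun a b => (Subgroup.mem_center_iff.1 (this ▸ Subgroup.mem_top b : b ∈ Subgroup.center B) a)⟩⟩

theorem card_le_of_pair {X : Type*} [Group X] [Finite X] (Z : Subgroup X) (u v : X) (W : Subgroup X)
    (hW : ∀ g ∈ W, g * u * g⁻¹ * u⁻¹ ∈ Z ∧ g * v * g⁻¹ * v⁻¹ ∈ Z) (D : Subgroup X)
    (hD : ∀ g : X, g * u = u * g → g * v = v * g → g ∈ D) :
    Nat.card W ≤ Nat.card D * (Nat.card Z * Nat.card Z) := by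
  let f : W ⧸ D.subgroupOf W → Option (Z × Z) := fun q => some
    (⟨_, (hW _ (Quotient.out q).2).1⟩, ⟨_, (hW _ (Quotient.out q).2).2⟩)
  have hf : Function.Injective f := by
    intro a b h
    simp only [f, Option.some.injEq, Prod.mk.injEq, Subtype.mk.injEq, mul_left_inj] at h
    rw [← Quotient.out_eq a, ← Quotient.out_eq b]
    refine QuotientGroup.eq.2 ?_
    rw [Subgroup.mem_subgroupOf]
    push_cast
    set g := ((Quotient.out a : W) : X)
    set g' := ((Quotient.out b : W) : X)
    have key : ∀ w : X, g * w * g⁻¹ = g' * w * g'⁻¹ → g⁻¹ * g' * w = w * (g⁻¹ * g') := fun w hw => by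
      calc g⁻¹ * g' * w = g⁻¹ * (g' * w * g'⁻¹) * g' := by group
        _ = _ := by rw [← hw]; group
    exact hD _ (key u h.1) (key v h.2)
  let f' : W ⧸ D.subgroupOf W → Z × Z := fun q =>
    (⟨_, (hW _ (Quotient.out q).2).1⟩, ⟨_, (hW _ (Quotient.out q).2).2⟩)
  have hf' : Function.Injective f' := fun a b h => hf (congrArg some h)
  have h1 := Nat.card_le_card_of_injective f' hf'
  rw [Nat.card_prod] at h1
  have h2 := (D.subgroupOf W).card_mul_index
  rw [← h2]
  refine Nat.mul_le_mul ?_ h1
  exact Nat.card_le_card_of_injective (fun x : D.subgroupOf W => (⟨((x : W) : X), x.2⟩ : D))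
    fun a b h => Subtype.ext (Subtype.ext (congrArg Subtype.val h :))

/-- Let X be a finite p-group of order p^n containing a non-abelian subgroup B of order p³ with C_X(B) ≤ B. Then X has nilpotency class n − 1 (maximal class). -/
theorem result {X : Type*} [Group X] [Finite X] {p : ℕ} [Fact p.Prime] (n : ℕ) (hX : Nat.card X = p ^ n)
    (B : Subgroup X) (hB : Nat.card B = p ^ 3) (hBna : ¬ IsMulCommutative B) (hC : Subgroup.centralizer (B : Set X) ≤ B) :
    Group.nilpotencyClass X = n - 1 := by
  classical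
  have hp : Fact p.Prime := inferInstance
  set Z := Subgroup.center X with hZdef
  have hXp : IsPGroup p X := IsPGroup.of_card hX
  have := hXp.isNilpotent
  have hnt : Nontrivial X := by
    by_contra h
    rw [not_nontrivial_iff_subsingleton] at h
    exact hBna ⟨⟨fun a b => Subsingleton.elim _ _⟩⟩
  have hcb := card_center_of_card_cube hB hBna
  set D := (Subgroup.center B).map B.subtype with hD
  have hDcard : Nat.card D = p := by
    rw [hD, Subgroup.card_map_of_injective B.subtype_injective, hcb]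
  have hCD : Subgroup.centralizer (B : Set X) ≤ D := by
    intro g hg
    refine ⟨⟨g, hC hg⟩, Subgroup.mem_center_iff.2 fun b => Subtype.ext ?_, rfl⟩
    exact Subgroup.mem_centralizer_iff.1 hg b b.2
  have hZD : Z = D := by
    refine Subgroup.eq_of_le_of_card_ge ((Subgroup.center_le_centralizer _).trans hCD) ?_
    rw [hDcard]
    obtain ⟨k, hk⟩ := IsPGroup.iff_card.1 (hXp.to_subgroup Z)
    have h1 : 1 < Nat.card Z := Finite.one_lt_card_iff_nontrivial.2 hXp.center_nontrivial
    rw [hk] at h1 ⊢
    exact Nat.le_self_pow (by rintro rfl; simp at h1) p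
  have hDZ : D = Z := hZD.symm
  have hZcard : Nat.card Z = p := by rw [hZD, hDcard]
  have hZB : Z ≤ B := hZD ▸ Subgroup.map_subtype_le _
  let q := QuotientGroup.mk' Z
  have hmk : ∀ H : Subgroup X, Z ≤ H → p * Nat.card (H.map q) = Nat.card H := by
    intro H hH
    rw [← Subgroup.relIndex_bot_left (H := H.map q), ← Subgroup.relIndex_comap,
      MonoidHom.comap_bot, QuotientGroup.ker_mk']
    have h := Subgroup.relIndex_mul_relIndex ⊥ Z H bot_le hH
    rwa [Subgroup.relIndex_bot_left, Subgroup.relIndex_bot_left, hZcard] at h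
  obtain ⟨u, hu, v, hv, huv⟩ : ∃ u ∈ B, ∃ v ∈ B, u * v ≠ v * u := by
    by_contra h
    push_neg at h
    exact hBna ⟨⟨fun a b => Subtype.ext (h a a.2 b b.2)⟩⟩
  have hgen : Subgroup.closure {u, v} = B := by
    have hle : Subgroup.closure {u, v} ≤ B := by
      rw [Subgroup.closure_le]; exact Set.insert_subset hu (Set.singleton_subset_iff.2 hv)
    refine Subgroup.eq_of_le_of_card_ge hle ?_
    obtain ⟨j, hj⟩ := IsPGroup.iff_card.1 (hXp.to_subgroup (Subgroup.closure {u, v}))
    rw [hB, hj]
    refine Nat.pow_le_pow_right hp.out.pos ?_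
    by_contra hlt
    have hcomm : IsMulCommutative (Subgroup.closure {u, v}) := by
      have hj' : j = 0 ∨ j = 1 ∨ j = 2 := by omega
      rcases hj' with rfl | rfl | rfl
      · have : Subsingleton (Subgroup.closure {u, v}) := (Nat.card_eq_one_iff_unique.1 (by simpa using hj)).1
        exact ⟨⟨fun a b => Subsingleton.elim _ _⟩⟩
      · have : IsCyclic (Subgroup.closure {u, v}) := isCyclic_of_prime_card (p := p) (by simpa using hj)
        let := IsCyclic.commGroup (α := Subgroup.closure {u, v})
        exact ⟨⟨mul_comm⟩⟩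
      · exact IsPGroup.isMulCommutative_of_card_eq_prime_sq hj
    exact huv (Subtype.ext_iff.1 (hcomm.is_comm.comm ⟨u, Subgroup.subset_closure (Set.mem_insert _ _)⟩
      ⟨v, Subgroup.subset_closure (Set.mem_insert_of_mem _ rfl)⟩))
  set W := (Subgroup.centralizer (B.map q : Set (X ⧸ Z))).comap q with hW
  have hBW : B ≤ W := by
    intro b hb
    rw [hW, Subgroup.mem_comap, Subgroup.mem_centralizer_iff]
    rintro _ ⟨c, hc, rfl⟩
    have hBq : Nat.card (B.map q) = p ^ 2 := by
      have h := hmk B hZB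
      rw [hB, pow_succ' p 2] at h
      exact Nat.eq_of_mul_eq_mul_left hp.out.pos h
    exact Subtype.ext_iff.1 ((IsPGroup.isMulCommutative_of_card_eq_prime_sq hBq).is_comm.comm
      ⟨q c, Subgroup.mem_map_of_mem q hc⟩ ⟨q b, Subgroup.mem_map_of_mem q hb⟩)
  have hWB : W = B := by
    refine (Subgroup.eq_of_le_of_card_ge hBW ?_).symm
    have hmem : ∀ g ∈ W, ∀ w ∈ B, g * w * g⁻¹ * w⁻¹ ∈ Z := fun g hg w hw => by
      refine (QuotientGroup.eq_one_iff _).1 ?_
      show q ⁅g, w⁆ = 1
      rw [map_commutatorElement, commutatorElement_eq_one_iff_mul_comm]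
      exact (Subgroup.mem_centralizer_iff.1 hg _ (Subgroup.mem_map_of_mem q hw)).symm
    refine (card_le_of_pair Z u v W (fun g hg => ⟨hmem g hg u hu, hmem g hg v hv⟩) D ?_).trans_eq ?_
    · intro g h1 h2
      apply hCD
      rw [← hgen, Subgroup.centralizer_closure, Subgroup.mem_centralizer_iff]
      rintro w (rfl | rfl)
      · exact h1.symm
      · exact h2.symm
    · rw [hDcard, hZcard, hB]; ring
  obtain ⟨m, rfl⟩ : ∃ m, n = m + 1 := by
    refine Nat.exists_eq_succ_of_ne_zero fun h => ?_
    subst h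
    have := Subgroup.card_le_card_group B
    rw [hX, hB, pow_zero] at this
    have := Nat.one_lt_pow (show 3 ≠ 0 by omega) hp.out.one_lt
    omega
  have hq : Nat.card (X ⧸ Z) = p ^ m := by
    have h := hmk ⊤ le_top
    rw [Subgroup.map_top_of_surjective _ (QuotientGroup.mk'_surjective _), Subgroup.card_top,
      Subgroup.card_top, hX, pow_succ'] at h
    exact Nat.eq_of_mul_eq_mul_left hp.out.pos h
  have hBq : Nat.card (B.map q) = p ^ 2 := by
    have h := hmk B hZB
    rw [hB, pow_succ' p 2] at h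
    exact Nat.eq_of_mul_eq_mul_left hp.out.pos h
  have hself : Subgroup.centralizer ((B.map q) : Set (X ⧸ Z)) = B.map q := by
    have h1 : ((Subgroup.centralizer (B.map q : Set (X ⧸ Z))).comap q).map q = B.map q := by
      rw [← hW, hWB]
    rwa [Subgroup.map_comap_eq_self_of_surjective (QuotientGroup.mk'_surjective _)] at h1
  have h2m : 2 ≤ m := by
    have := Subgroup.card_le_card_group (B.map q)
    rw [hBq, hq] at this
    exact (Nat.pow_le_pow_iff_right hp.out.one_lt).1 this
  rw [Group.nilpotencyClass_eq_quotient_center_plus_one,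
    CfsgLib.PGroups.class_of_self_centralizing_sq m hq (B.map q) hBq hself]
  omega

end Cfsg.Agent.S4143
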