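import Cfsg.Statements.S4144
import Cfsg.Agent.S0662
import Cfsg.Agent.Lib.MaxClassP.Periodic
-- import your own Cfsg.Agent.* helpers here

set_option autoImplicit false
open Cfsg

namespace Cfsg.Agent.S4144

open CfsgLib.MaxClassP CfsgLib.MaxClassP.HallTop
open CfsgLib.HallClasses.HallPetrescu (fil diff)
open scoped commutatorElement

universe u

variable {p : ℕ} [hp : Fact p.Prime]

/-- The commutator with `x`, in the form of a difference. -/
def δ {G : Type u} [Group G] (x w : G) : G := w⁻¹ * (x * w * x⁻¹)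

theorem δ_eq {G : Type u} [Group G] (x w : G) : δ x w = ⁅w⁻¹, x⁆ := by
  rw [δ, commutatorElement_def]; group

theorem δ_iterate_mem {G : Type u} [Group G] (x y : G) (j : ℕ) : (δ x)^[j] y ∈ L G j := by
  induction j with
  | zero => exact Subgroup.mem_top y
  | succ j ih =>
    rw [Function.iterate_succ_apply', δ_eq]
    exact commutator_mem_succ (inv_mem ih) x

theorem map_δ_iterate {G : Type u} [Group G] {K : Type u} [Group K] (f : G →* K) (x y : G)
    (j : ℕ) : f ((δ x)^[j] y) = (δ (f x))^[j] (f y) := by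
  induction j with
  | zero => rfl
  | succ j ih =>
    rw [Function.iterate_succ_apply', Function.iterate_succ_apply', ← ih]
    simp only [δ, map_mul, map_inv]

/-- Iterated commutators with a power of `x`. -/
theorem δ_pow_iterate {G : Type u} [Group G] (x y : G) (a j : ℕ) :
    QuotientGroup.mk' (L G (j + 1)) ((δ (x ^ a))^[j] y) =
      QuotientGroup.mk' (L G (j + 1)) ((δ x)^[j] y) ^ (a ^ j) := by
  induction j with
  | zero => rw [pow_zero, pow_one]; rfl
  | succ j ih =>
    rw [Function.iterate_succ_apply', Function.iterate_succ_apply', ← map_pow]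
    set w := (δ (x ^ a))^[j] y
    set v := (δ x)^[j] y
    set q := QuotientGroup.mk' (L G (j + 1 + 1))
    obtain ⟨z, hz, hwz⟩ := (QuotientGroup.mk'_eq_mk' (N := L G (j + 1))).1
      (show QuotientGroup.mk' (L G (j + 1)) (v ^ a ^ j) = QuotientGroup.mk' (L G (j + 1)) w by
        rw [map_pow]; exact ih.symm)
    have hzc : ∀ g : G, q z * q g = q g * q z := fun g => mk_commute hz g
    have hdc : ∀ g : G, q (δ x v) * q g = q g * q (δ x v) := fun g => mk_commute (by
      rw [δ_eq]; exact commutator_mem_succ (inv_mem (δ_iterate_mem x y j)) x) g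
    have hconj : ∀ b : ℕ, q x ^ b * q v * (q x ^ b)⁻¹ = q v * q (δ x v) ^ b := by
      intro b
      induction b with
      | zero => rw [pow_zero, pow_zero, one_mul, inv_one, mul_one]
      | succ b ihb =>
        have h1 : q x * q v * (q x)⁻¹ = q v * q (δ x v) := by
          rw [δ, map_mul, map_mul, map_mul, map_inv, map_inv]; group
        have h2 : q x ^ b * q (δ x v) * (q x ^ b)⁻¹ = q (δ x v) := by
          rw [← map_pow, ← hdc, mul_inv_cancel_right]
        calc q x ^ (b + 1) * q v * (q x ^ (b + 1))⁻¹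
            = q x ^ b * (q x * q v * (q x)⁻¹) * (q x ^ b)⁻¹ := by rw [pow_succ]; group
          _ = (q x ^ b * q v * (q x ^ b)⁻¹) * (q x ^ b * q (δ x v) * (q x ^ b)⁻¹) := by
            rw [h1]; group
          _ = q v * q (δ x v) ^ (b + 1) := by rw [ihb, h2, mul_assoc, ← pow_succ]
    have hpow : q x ^ a * (q v ^ a ^ j) * (q x ^ a)⁻¹ = q v ^ a ^ j * q (δ x v) ^ (a ^ (j + 1)) := by
      rw [← conj_pow, hconj, Commute.mul_pow (Commute.pow_right (hdc v).symm a), ← pow_mul,
        pow_succ']
    rw [← hwz, map_pow]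
    calc q (δ (x ^ a) (v ^ a ^ j * z))
        = (q z)⁻¹ * ((q v ^ a ^ j)⁻¹ * (q x ^ a * (q v ^ a ^ j) * (q x ^ a)⁻¹)) *
            (q x ^ a * q z * (q x ^ a)⁻¹) := by
          simp only [δ, map_mul, map_inv, map_pow]; group
      _ = (q z)⁻¹ * q (δ x v) ^ (a ^ (j + 1)) * q z := by
          rw [hpow, inv_mul_cancel_left, ← map_pow q x a, ← hzc, mul_inv_cancel_right]
      _ = q (δ x v) ^ (a ^ (j + 1)) := by
          rw [← map_pow, mul_assoc, ← hzc, inv_mul_cancel_left]

/-- Groups of exponent `p` and class `p` satisfy the Engel condition of length `p - 1`. -/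
theorem engel {G : Type u} [Group G] (hbot : fil G (p + 1) = ⊥) (hexp : ∀ g : G, g ^ p = 1)
    (x y : G) : (δ x)^[p - 1] y = 1 := by
  have hp2 := hp.out.two_le
  let P : ℕ → ℕ → G := fun m i => (y * x ^ i) ^ m * ((x ^ i) ^ m)⁻¹
  let u : ℕ → ℕ → G := fun a i => (x ^ a) ^ i * y * ((x ^ a) ^ i)⁻¹
  have hPu : ∀ m, P (m + 1) = fun i => P m i * u m i := by
    intro m; funext i
    simp only [P, u]
    rw [show (x ^ m) ^ i = (x ^ i) ^ m by rw [← pow_mul, Nat.mul_comm, pow_mul], pow_succ,
      pow_succ (x ^ i)]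
    group
  have hdu : ∀ a j i, diff^[j] (u a) i = (x ^ a) ^ i * (δ (x ^ a))^[j] y * ((x ^ a) ^ i)⁻¹ := by
    intro a j
    induction j with
    | zero => intro i; rfl
    | succ j ih =>
      intro i
      rw [Function.iterate_succ_apply', Function.iterate_succ_apply']
      show (diff^[j] (u a) i)⁻¹ * diff^[j] (u a) (i + 1) = _
      rw [ih, ih, δ, pow_succ (x ^ a) i]
      group
  have hQu : ∀ a, QAll 1 (u a) := fun a => qAll_of_iterate fun j i => by
    rw [hdu]
    show _ ∈ L G (1 + j - 1)
    rw [Nat.add_sub_cancel_left]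
    exact (inferInstance : (L G j).Normal).conj_mem _ (δ_iterate_mem _ _ j) _
  have hb : L G p = ⊥ := by
    have h1 : fil G (p + 1) = L G p := by
      show L G (p + 1 - 1) = _
      rw [Nat.add_sub_cancel]
    rw [← h1, hbot]
  set N := (δ x)^[p - 1] y
  have hN : ∀ a, (δ (x ^ a))^[p - 1] y = N ^ (a ^ (p - 1)) := fun a => by
    have h1 := δ_pow_iterate x y a (p - 1)
    rw [← map_pow, show p - 1 + 1 = p by omega] at h1
    obtain ⟨z, hz, he⟩ := (QuotientGroup.mk'_eq_mk' (N := L G p)).1 h1
    rw [hb, Subgroup.mem_bot] at hz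
    rw [← he, hz, mul_one]
  have key : ∀ m, QAll 1 (P m) ∧
      diff^[p - 1] (P m) 0 = N ^ (∑ a ∈ Finset.range m, a ^ (p - 1)) := by
    intro m
    induction m with
    | zero =>
      have h0 : P 0 = fun _ => 1 := by funext i; simp [P]
      rw [h0, Finset.range_zero, Finset.sum_empty, pow_zero]
      exact ⟨qAll_of_iterate fun j i => by rw [iterate_one]; exact one_mem _, iterate_one _ _⟩
    | succ m ih =>
      rw [hPu, Finset.sum_range_succ]
      refine ⟨ih.1.mul (hQu m), ?_⟩
      rw [iterate_mul ih.1 (hQu m) (p - 1) 0 (by rw [show 2 * 1 + (p - 1) = p + 1 by omega, hbot])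
        le_rfl, ih.2, hdu, hN, pow_zero, one_mul, inv_one, mul_one, ← pow_add]
  have hPp : P p = fun _ => 1 := by funext i; simp [P, hexp]
  have h1 := (key p).2
  rw [hPp, iterate_one] at h1
  have hS : ¬ p ∣ ∑ a ∈ Finset.range p, a ^ (p - 1) := by
    rw [← ZMod.natCast_eq_zero_iff, show p = (p - 1) + 1 by omega, Finset.sum_range_succ',
      ← show p = (p - 1) + 1 by omega, zero_pow (by omega : p - 1 ≠ 0), add_zero, Nat.cast_sum,
      Finset.sum_congr rfl (g := fun _ => (1 : ZMod p)) (fun a ha => ?_), Finset.sum_const,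
      Finset.card_range, nsmul_one, ZMod.natCast_eq_zero_iff]
    · exact Nat.not_dvd_of_pos_of_lt (by omega) (by omega)
    · rw [Nat.cast_pow, ZMod.pow_card_sub_one_eq_one]
      rw [Ne, ZMod.natCast_eq_zero_iff]
      exact Nat.not_dvd_of_pos_of_lt (by omega) (by have := Finset.mem_range.1 ha; omega)
  rw [← orderOf_eq_one_iff]
  exact Nat.eq_one_of_dvd_coprimes (hp.out.coprime_iff_not_dvd.2 hS)
    (orderOf_dvd_of_pow_eq_one (hexp N)) (orderOf_dvd_of_pow_eq_one h1.symm)

/-- A group of maximal class of order at least `p ^ (p + 1)` has a p-th power outside `L G p`. -/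
theorem exists_pow_notMem {G : Type u} [Group G] [Finite G] {n : ℕ} (h : MC p n G)
    (hn : p + 1 ≤ n) : ∃ g : G, g ^ p ∉ L G p := by
  have hp2 := hp.out.two_le
  have hn3 := h.three_le
  by_contra! hall
  have : Nontrivial G := Finite.one_lt_card_iff_nontrivial.1 (by
    rw [h.card]; exact Nat.one_lt_pow (by omega) hp.out.one_lt)
  obtain ⟨s, hs, -⟩ := exists_small h (⊥ : Subgroup G) bot_ne_top
  obtain ⟨y, hy⟩ : ∃ y, y ∉ Subgroup.zpowers s ⊔ L G 1 := by
    by_contra! hh
    have h1 := card_sup_L h hs (j := 1) le_rfl (by omega)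
    rw [(Subgroup.eq_top_iff' _).2 hh, Subgroup.card_top, h.card] at h1
    have := Nat.pow_right_injective hp2 h1
    omega
  have hout : ∀ j, j + 1 ≤ p → (δ s)^[j] y ∉ L G (j + 1) := by
    intro j
    induction j with
    | zero => exact fun _ hh => hy (Subgroup.mem_sup_right hh)
    | succ j ih =>
      intro hj hh
      rw [Function.iterate_succ_apply', δ_eq] at hh
      rcases Nat.eq_zero_or_pos j with rfl | hjpos
      · exact hy (inv_mem_iff.1 (mem_sup_of_commutator_mem h hs le_rfl (by omega) hh))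
      · exact ih (by omega) (inv_mem_iff.1 (layer_step h hs hjpos (by omega)
          (inv_mem (δ_iterate_mem s y j)) hh))
  refine hout (p - 1) (by omega) ?_
  rw [show p - 1 + 1 = p by omega, ← QuotientGroup.eq_one_iff]
  show QuotientGroup.mk' (L G p) _ = 1
  rw [map_δ_iterate]
  refine engel ?_ (fun g => ?_) _ _
  · show L (G ⧸ L G p) (p + 1 - 1) = ⊥
    rw [Nat.add_sub_cancel, map_L, Subgroup.map_eq_bot_iff, QuotientGroup.ker_mk']
  · obtain ⟨g, rfl⟩ := QuotientGroup.mk'_surjective (L G p) g
    rw [← map_pow]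
    exact (QuotientGroup.eq_one_iff _).2 (hall g)


/-- Let X be a finite p-group of order p^n, n ≥ 2, of nilpotency class n − 1 (maximal class), and H any subgroup of X. Then the index in H of the subgroup generated by the p-th powers of elements of H is at most p^p. -/
theorem result {X : Type*} [Group X] [Finite X] {p : ℕ} [Fact p.Prime] (n : ℕ) (hn : 2 ≤ n) (hX : Nat.card X = p ^ n)
    (hmax : Group.nilpotencyClass X = n - 1) (H : Subgroup X) :
    (Subgroup.closure {y : X | ∃ h ∈ H, y = h ^ p}).relIndex H ≤ p ^ p := by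
  have hp2 := (Fact.out : p.Prime).two_le
  set A := Subgroup.closure {y : X | ∃ h ∈ H, y = h ^ p} with hA
  have hAH : A ≤ H := by
    rw [hA, Subgroup.closure_le]
    rintro _ ⟨h, hh, rfl⟩
    exact pow_mem hh p
  have hmul : Nat.card A * A.relIndex H = Nat.card H := by
    rw [← Subgroup.relIndex_bot_left A, ← Subgroup.relIndex_bot_left H]
    exact Subgroup.relIndex_mul_relIndex ⊥ A H bot_le hAH
  have of_le : Nat.card H ≤ Nat.card A * p ^ p → A.relIndex H ≤ p ^ p := fun hle =>
    Nat.le_of_mul_le_mul_left (hmul ▸ hle) Nat.card_pos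
  have hApos : 1 ≤ Nat.card A := Nat.card_pos
  rcases Nat.lt_or_ge p n with hpn | hpn
  swap
  · refine of_le (le_trans ?_ (Nat.le_mul_of_pos_left _ hApos))
    calc Nat.card H ≤ Nat.card X := Subgroup.card_le_card_group H
      _ ≤ p ^ p := hX ▸ Nat.pow_le_pow_right (by omega) hpn
  have hMC : MC p n X := ⟨hX, hmax, by omega⟩
  have hXp := hMC.isPGroup
  by_cases hH : H = ⊤
  · -- the whole group
    have hAn : A.Normal := by
      refine ⟨fun a ha g => ?_⟩
      have hle : A ≤ A.comap (MulAut.conj g).toMonoidHom := by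
        refine (Subgroup.closure_le _).2 ?_
        rintro _ ⟨h, hh, rfl⟩
        refine Subgroup.subset_closure ⟨g * h * g⁻¹, hH ▸ Subgroup.mem_top _, ?_⟩
        simp
      exact hle ha
    obtain ⟨g, hg⟩ := exists_pow_notMem hMC (by omega)
    have hgA : g ^ p ∈ A := Subgroup.subset_closure ⟨g, hH ▸ Subgroup.mem_top g, rfl⟩
    obtain ⟨r, hr⟩ := hXp.index A
    rw [hH, Subgroup.relIndex_top_right, hr]
    refine Nat.pow_le_pow_right (by omega) ?_
    by_contra hrp
    rw [(Cfsg.Agent.S0662.result n hX hmax hMC.three_le).1 A r (by omega) hr] at hgA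
    exact hg (L_mono (by omega) hgA)
  -- a proper subgroup
  obtain ⟨s, hs, -⟩ := exists_small hMC (⊥ : Subgroup X) (by
    intro hb
    have h1 := Subgroup.card_top (G := X)
    rw [← hb, Subgroup.card_bot, hX] at h1
    exact absurd h1.symm (Nat.ne_of_gt (Nat.one_lt_pow (by omega) (by omega))))
  set K := H ⊓ L X 1 with hK
  have hHK : Nat.card H ≤ Nat.card K * p := by
    have hlt : (L X 1).relIndex H ∣ p ^ 2 := by
      rw [← index_L_one hMC]; exact Subgroup.relIndex_dvd_index_of_normal _ _
    obtain ⟨i, hi, hie⟩ := (Nat.dvd_prime_pow (Fact.out : p.Prime)).1 hlt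
    have h1 : Nat.card K * (L X 1).relIndex H = Nat.card H := by
      rw [hK, inf_comm, ← Subgroup.inf_relIndex_right (L X 1) H,
        ← Subgroup.relIndex_bot_left (L X 1 ⊓ H), ← Subgroup.relIndex_bot_left H]
      exact Subgroup.relIndex_mul_relIndex ⊥ _ H bot_le inf_le_right
    rw [← h1]
    refine Nat.mul_le_mul_left _ ?_
    rw [hie]
    refine (Nat.pow_le_pow_right (by omega) (?_ : i ≤ 1)).trans (pow_one p).le
    by_contra hi2
    apply hH
    have h2 : (L X 1).relIndex (H ⊔ L X 1) = p ^ 2 := by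
      rw [Subgroup.relIndex_sup_right, hie]; congr 1; omega
    have h3 := Subgroup.relIndex_mul_index (le_sup_right : L X 1 ≤ H ⊔ L X 1)
    rw [h2, index_L_one hMC] at h3
    have h4 : H ⊔ frattini X = ⊤ := by
      rw [frattini_eq hMC, ← Subgroup.index_eq_one]
      exact (mul_eq_left₀ (by positivity)).1 h3
    exact frattini_nongenerating h4
  have key : ∀ a, 1 ≤ a → Nat.card (K ⊓ L X a : Subgroup X) ≤
      Nat.card (A ⊓ L X (a + p - 1) : Subgroup X) * p ^ (p - 1) := by
    intro a
    induction hm : n - a using Nat.strong_induction_on generalizing a with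
    | _ m ih =>
      intro ha
      rcases Nat.lt_or_ge n (a + p + 1) with hlarge | hsmall
      · refine le_trans ?_ (Nat.le_mul_of_pos_left _ Nat.card_pos)
        refine (Subgroup.card_le_of_le inf_le_right).trans ?_
        rcases Nat.lt_or_ge n (a + 1) with h1 | h1
        · rw [L_eq_bot hMC (by omega), Subgroup.card_bot]; exact Nat.one_le_pow _ _ (by omega)
        · rw [card_L hMC ha h1]; exact Nat.pow_le_pow_right (by omega) (by omega)
      have hnext := ih _ (by omega) (a + 1) rfl (by omega)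
      rw [show a + 1 + p - 1 = a + p by omega] at hnext
      have hA' : (A ⊓ L X (a + p) : Subgroup X) ≤ A ⊓ L X (a + p - 1) :=
        inf_le_inf_left _ (L_mono (by omega))
      by_cases heq : K ⊓ L X a ≤ L X (a + 1)
      · exact ((Subgroup.card_le_of_le (le_inf inf_le_left heq)).trans hnext).trans
          (Nat.mul_le_mul_right _ (Subgroup.card_le_of_le hA'))
      obtain ⟨y, hy, hy'⟩ := SetLike.not_le_iff_exists.1 heq
      obtain ⟨hyp, hyp'⟩ := pow_layer hMC hs a ha y hy.2
      have hyA : y ^ p ∈ A := Subgroup.subset_closure ⟨y, hy.1.1, rfl⟩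
      have hlt : A ⊓ L X (a + p) < A ⊓ L X (a + p - 1) := lt_of_le_of_ne hA' fun he =>
        hyp' (by omega) hy' (he.symm ▸ (⟨hyA, hyp⟩ : y ^ p ∈ A ⊓ L X (a + p - 1)) :
          y ^ p ∈ A ⊓ L X (a + p)).2
      have h1 := CfsgLib.PGroups.prime_mul_card_le hXp hlt
      have h2 : Nat.card (K ⊓ L X a : Subgroup X) ≤ p * Nat.card (K ⊓ L X (a + 1) : Subgroup X) := by
        have h3 := Subgroup.relIndex_mul_relIndex ⊥ (K ⊓ L X (a + 1)) (K ⊓ L X a) bot_le
          (inf_le_inf_left _ (L_mono a.le_succ))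
        rw [Subgroup.relIndex_bot_left, Subgroup.relIndex_bot_left] at h3
        rw [← h3, mul_comm p]
        refine Nat.mul_le_mul_left _ ?_
        have h4 : (K ⊓ L X (a + 1)).relIndex (K ⊓ L X a) = (L X (a + 1)).relIndex (K ⊓ L X a) := by
          rw [← Subgroup.inf_relIndex_right (L X (a + 1)), ← Subgroup.inf_relIndex_right (K ⊓ L X (a + 1))]
          congr 1
          ext z; simp only [Subgroup.mem_inf]; tauto
        rw [h4]
        refine le_trans (Subgroup.relIndex_le_of_le_right (inf_le_right) ?_) (le_of_eq ?_)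
        · exact Subgroup.index_ne_zero_of_finite
        · have h5 := Subgroup.relIndex_mul_relIndex ⊥ (L X (a + 1)) (L X a) bot_le (L_mono a.le_succ)
          rw [Subgroup.relIndex_bot_left, Subgroup.relIndex_bot_left, card_L hMC ha (by omega),
            card_L hMC (by omega) (by omega), show n - 1 - a = n - 1 - (a + 1) + 1 by omega,
            pow_succ] at h5
          exact Nat.eq_of_mul_eq_mul_left (pow_pos (by omega) _) h5
      calc Nat.card (K ⊓ L X a : Subgroup X)
          ≤ p * (Nat.card (A ⊓ L X (a + p) : Subgroup X) * p ^ (p - 1)) :=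
            h2.trans (Nat.mul_le_mul_left _ hnext)
        _ ≤ _ := by rw [← mul_assoc]; exact Nat.mul_le_mul_right _ h1
  refine of_le ?_
  have h1 := key 1 le_rfl
  rw [show K ⊓ L X 1 = K by rw [hK, inf_assoc, inf_idem]] at h1
  calc Nat.card H ≤ Nat.card K * p := hHK
    _ ≤ Nat.card A * p ^ (p - 1) * p :=
      Nat.mul_le_mul_right _ (h1.trans (Nat.mul_le_mul_right _ (Subgroup.card_le_of_le inf_le_left)))
    _ = Nat.card A * p ^ p := by rw [mul_assoc, ← pow_succ, show p - 1 + 1 = p by omega]

end Cfsg.Agent.S4144
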