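import Cfsg.Statements.S4145
import Cfsg.Agent.Lib.Alperin.SubgroupSystem
import Cfsg.Agent.Lib.TwoGroupTricks.IsolatedCyclic
import Cfsg.Agent.Lib.NormalPComplement.Basic
import Cfsg.Agent.Lib.PSolvable.Basic

set_option autoImplicit false
open Cfsg

namespace Cfsg.Agent.S4145

universe u
variable {G : Type u} [Group G] [Finite G] {p : ℕ} [hp : Fact p.Prime]

theorem isCyclic_of_le_cyclic {A B : Subgroup G} (h : A ≤ B) (hB : IsCyclic B) : IsCyclic A :=
  isCyclic_of_injective (Subgroup.inclusion h) (Subgroup.inclusion_injective h)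

theorem exists_omega (P : Sylow p G) (hP : IsCyclic (P : Subgroup G)) (h1 : p ∣ Nat.card G) :
    ∃ z z₀ : G, (P : Subgroup G) = Subgroup.zpowers z ∧ z₀ ∈ (P : Subgroup G) ∧ orderOf z₀ = p ∧
      (∀ y ∈ (P : Subgroup G), y ^ p = 1 → y ∈ Subgroup.zpowers z₀) ∧
      ∀ y ∈ (P : Subgroup G), ∀ h : G, h * z * h⁻¹ = y → ∀ Q : Subgroup G, Q < (P : Subgroup G) →
        y * z⁻¹ ∈ Q → h * z₀ * h⁻¹ = z₀ := by
  obtain ⟨⟨z, hzP⟩, hgen⟩ := hP.exists_generator
  have hgen' : (P : Subgroup G) = Subgroup.zpowers z := by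
    refine le_antisymm (fun y hy => ?_) ((Subgroup.zpowers_le).2 hzP)
    obtain ⟨i, hi⟩ := Subgroup.mem_zpowers_iff.1 (hgen ⟨y, hy⟩)
    refine ⟨i, ?_⟩
    have := congrArg Subtype.val hi
    simpa using this
  obtain ⟨n, hn⟩ := IsPGroup.iff_card.1 P.2
  have hz : orderOf z = p ^ n := by rw [← Nat.card_zpowers, ← hgen', hn]
  obtain ⟨m, rfl⟩ : ∃ m, n = m + 1 := by
    refine Nat.exists_eq_succ_of_ne_zero fun h => ?_
    subst h
    have := P.dvd_card_of_dvd_card h1
    rw [hn, pow_zero] at this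
    exact hp.out.ne_one (Nat.eq_one_of_dvd_one this)
  refine ⟨z, z ^ p ^ m, hgen', pow_mem hzP _, ?_, ?_, ?_⟩
  · rw [orderOf_pow' z (pow_ne_zero _ hp.out.ne_zero), hz, Nat.gcd_eq_right (pow_dvd_pow p m.le_succ),
      pow_succ, Nat.mul_div_cancel_left _ (pow_pos hp.out.pos _)]
  · intro y hy hyp
    rw [hgen'] at hy
    obtain ⟨i, rfl⟩ := Subgroup.mem_zpowers_iff.1 hy
    rw [← zpow_natCast (z ^ i), ← zpow_mul, ← orderOf_dvd_iff_zpow_eq_one, hz, Nat.cast_pow, pow_succ] at hyp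
    obtain ⟨j, rfl⟩ := Int.dvd_of_mul_dvd_mul_right (Int.natCast_ne_zero.2 hp.out.ne_zero) hyp
    exact ⟨j, by simp only [← zpow_natCast, ← zpow_mul, Nat.cast_pow]⟩
  · intro y hy h hh Q hQ hyQ
    have hyz : Commute y z⁻¹ := by
      have := hgen' ▸ hy
      obtain ⟨i, rfl⟩ := Subgroup.mem_zpowers_iff.1 this
      exact ((Commute.refl z).zpow_left i).inv_right
    obtain ⟨j, hj⟩ := IsPGroup.iff_card.1 (P.2.to_le hQ.le)
    have hjm : j ≤ m := by
      by_contra hlt
      refine hQ.ne (Subgroup.eq_of_le_of_card_ge hQ.le ?_)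
      rw [hn, hj]
      exact Nat.pow_le_pow_right hp.out.pos (by omega)
    have h3 : (y * z⁻¹) ^ p ^ m = 1 := orderOf_dvd_iff_pow_eq_one.1
      ((Subgroup.orderOf_dvd_natCard Q hyQ).trans (hj ▸ pow_dvd_pow p hjm))
    rw [hyz.mul_pow, inv_pow, mul_inv_eq_one] at h3
    rw [← conj_pow, hh, h3]

theorem cyclic_sylow_split (P : Sylow p G) (hP : IsCyclic (P : Subgroup G)) (H : Subgroup G)
    [H.Normal] (h1 : p ∣ Nat.card H) (h2 : p ∣ H.index) :
    Cfsg.HasNormalPComplement p H ∧ Cfsg.IsPSolvable p G := by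
  obtain ⟨R, hR⟩ := CfsgLib.Alperin.exists_sylow_inf_normal P H
  set Q := (P : Subgroup G) ⊓ H with hQ
  obtain ⟨z, z₀, hgen, hz₀P, hz₀, huniq, hfix⟩ := exists_omega P hP
    (h1.trans (Subgroup.card_subgroup_dvd_card H))
  have hRcard : Nat.card Q = Nat.card (R : Subgroup H) := by
    rw [hR, Nat.card_congr (Subgroup.subgroupOfEquivOfLe inf_le_right).toEquiv]
  have hpQ : p ∣ Nat.card Q := hRcard ▸ R.dvd_card_of_dvd_card h1
  have hQP : Q < (P : Subgroup G) := by
    refine lt_of_le_of_ne inf_le_left fun h => ?_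
    have hd : p ∣ (P : Subgroup G).index := h2.trans (Subgroup.index_dvd_of_le (h ▸ inf_le_right))
    exact P.not_dvd_index hd
  have hz₀Q : z₀ ∈ Q := by
    obtain ⟨w, hw⟩ := exists_prime_orderOf_dvd_card' (G := Q) p hpQ
    have hw1 := huniq w w.2.1 (by
      have := pow_orderOf_eq_one (w : G)
      rwa [Subgroup.orderOf_coe, hw] at this)
    have : Subgroup.zpowers (w : G) = Subgroup.zpowers z₀ := Subgroup.eq_of_le_of_card_ge
      ((Subgroup.zpowers_le).2 hw1) (by rw [Nat.card_zpowers, Nat.card_zpowers, Subgroup.orderOf_coe, hw, hz₀])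
    exact (Subgroup.zpowers_le).2 w.2 (this ▸ Subgroup.mem_zpowers z₀)
  have hz₀1 : z₀ ≠ 1 := fun h => hp.out.ne_one (by rw [← hz₀, h, orderOf_one])
  -- `P` centralizes `z₀`
  have hcommP : ∀ x ∈ (P : Subgroup G), x * z₀ = z₀ * x := by
    intro x hx
    rw [hgen] at hx hz₀P
    obtain ⟨i, rfl⟩ := Subgroup.mem_zpowers_iff.1 hx
    obtain ⟨j, rfl⟩ := Subgroup.mem_zpowers_iff.1 hz₀P
    exact ((Commute.refl z).zpow_zpow i j).eq
  set Z := Subgroup.zpowers z₀ with hZ
  set C := Subgroup.centralizer ({z₀} : Set G) with hC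
  set NZ := Subgroup.normalizer (Z : Set G) with hNZ
  have hCN : C ≤ NZ := fun c hc => Subgroup.mem_normalizer_fintype fun y hy => by
    obtain ⟨i, rfl⟩ := Subgroup.mem_zpowers_iff.1 hy
    rw [← conj_zpow, show c * z₀ * c⁻¹ = z₀ by
      rw [Subgroup.mem_centralizer_singleton_iff.1 hc, mul_inv_cancel_right]]
    exact hy
  have hPC : (P : Subgroup G) ≤ C := fun x hx => Subgroup.mem_centralizer_singleton_iff.2 (hcommP x hx)
  -- elements of `H` normalizing `Z` fix `z₀`
  have key : ∀ h ∈ H, h ∈ NZ → h * z₀ * h⁻¹ = z₀ := by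
    intro h hh hhN
    set A := H ⊓ NZ with hA
    have hPA : (P : Subgroup G) ≤ Subgroup.normalizer (A : Set G) := fun x hx =>
      Subgroup.mem_normalizer_fintype fun y hy => ⟨(inferInstance : H.Normal).conj_mem y hy.1 x,
        NZ.mul_mem (NZ.mul_mem (hCN (hPC hx)) hy.2) (NZ.inv_mem (hCN (hPC hx)))⟩
    set D := C ⊓ (A ⊔ (P : Subgroup G)) with hD
    have hPD : (P : Subgroup G) ≤ D := le_inf hPC le_sup_right
    have hPhD : ((h • P : Sylow p G) : Subgroup G) ≤ D := by
      rintro _ ⟨x, hx, rfl⟩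
      refine ⟨Subgroup.mem_centralizer_singleton_iff.2 ?_, ?_⟩
      · have hw : h⁻¹ * z₀ * h ∈ Z := by
          have := (Subgroup.mem_normalizer_iff.1 (NZ.inv_mem hhN) z₀).1 (Subgroup.mem_zpowers z₀)
          rwa [inv_inv] at this
        obtain ⟨i, hi⟩ := Subgroup.mem_zpowers_iff.1 hw
        have hxw : Commute x (h⁻¹ * z₀ * h) := hi ▸ (show Commute x z₀ from hcommP x hx).zpow_right i
        show h * x * h⁻¹ * z₀ = z₀ * (h * x * h⁻¹)
        calc h * x * h⁻¹ * z₀ = h * (x * (h⁻¹ * z₀ * h)) * h⁻¹ := by group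
          _ = _ := by rw [hxw.eq]; group
      · exact (A ⊔ (P : Subgroup G)).mul_mem ((A ⊔ (P : Subgroup G)).mul_mem
          (Subgroup.mem_sup_left ⟨hh, hhN⟩) (Subgroup.mem_sup_right hx))
          ((A ⊔ (P : Subgroup G)).inv_mem (Subgroup.mem_sup_left ⟨hh, hhN⟩))
    obtain ⟨d, hd⟩ := MulAction.exists_smul_eq D ((h • P : Sylow p G).subtype hPhD) (P.subtype hPD)
    have hd' : ((d : G) * h) • P = P := by
      rw [Sylow.smul_subtype] at hd
      have := Sylow.subtype_injective hd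
      rw [mul_smul]
      exact this
    have hn : (d : G) * h ∈ Subgroup.normalizer ((P : Subgroup G) : Set G) :=
      Sylow.smul_eq_iff_mem_normalizer.1 hd'
    have hdC : (d : G) ∈ C := d.2.1
    have hn2 : (d : G) * h ∈ A ⊔ (P : Subgroup G) := mul_mem d.2.2 (Subgroup.mem_sup_left ⟨hh, hhN⟩)
    rw [← SetLike.mem_coe, Subgroup.coe_mul_of_right_le_normalizer_left A (P : Subgroup G) hPA, Set.mem_mul] at hn2
    obtain ⟨h', hh', x', hx', he⟩ := hn2
    have hh'N : h' ∈ Subgroup.normalizer ((P : Subgroup G) : Set G) := by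
      rw [eq_mul_inv_of_mul_eq he]
      exact mul_mem hn (inv_mem (Subgroup.le_normalizer hx'))
    have hzP : z ∈ (P : Subgroup G) := hgen ▸ Subgroup.mem_zpowers z
    have hzh : h' * z * h'⁻¹ ∈ (P : Subgroup G) := (Subgroup.mem_normalizer_iff.1 hh'N z).1 hzP
    have hfixh' : h' * z₀ * h'⁻¹ = z₀ := by
      refine hfix _ hzh h' rfl Q hQP ⟨(P : Subgroup G).mul_mem hzh ((P : Subgroup G).inv_mem hzP), ?_⟩
      rw [show h' * z * h'⁻¹ * z⁻¹ = h' * (z * h'⁻¹ * z⁻¹) by group]
      exact mul_mem hh'.1 ((inferInstance : H.Normal).conj_mem _ (inv_mem hh'.1) z)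
    have e1 : h = (d : G)⁻¹ * (h' * x') := by rw [he]; group
    have e2 : h' * z₀ = z₀ * h' := mul_inv_eq_iff_eq_mul.1 hfixh'
    have e3 : x' * z₀ = z₀ * x' := hcommP x' hx'
    have e4 : (d : G) * z₀ = z₀ * d := Subgroup.mem_centralizer_singleton_iff.1 hdC
    have e5 : Commute ((d : G)⁻¹ * (h' * x')) z₀ :=
      Commute.mul_left (Commute.inv_left e4) (Commute.mul_left e2 e3)
    rw [mul_inv_eq_iff_eq_mul, e1]
    exact e5.eq
  -- conjugates commuting with `z₀` lie in `Z`
  have hcomm : ∀ g : G, Commute z₀ (g * z₀ * g⁻¹) → g ∈ NZ := by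
    intro g hg
    set y := g * z₀ * g⁻¹ with hy
    have hyo : orderOf y = p := (orderOf_injective (MulAut.conj g).toMonoidHom (MulAut.conj g).injective z₀).trans hz₀
    obtain ⟨S, hS⟩ := (CfsgLib.TwoGroupTricks.isPGroup_zpowers (G := C) (p := p)
      (x := ⟨y, Subgroup.mem_centralizer_singleton_iff.2 hg.eq.symm⟩) ⟨1, by rw [Subgroup.orderOf_mk, hyo, pow_one]⟩).exists_le_sylow
    obtain ⟨c, hc⟩ := MulAction.exists_smul_eq C S (P.subtype hPC)
    have hycP : (c : G) * y * (c : G)⁻¹ ∈ (P : Subgroup G) := by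
      have h4 : c * ⟨y, Subgroup.mem_centralizer_singleton_iff.2 hg.eq.symm⟩ * c⁻¹ ∈ (c • S : Sylow p C).1 :=
        ⟨_, hS (Subgroup.mem_zpowers _), rfl⟩
      rw [hc] at h4
      exact h4
    have hcy := huniq _ hycP (by rw [conj_pow, ← hyo, pow_orderOf_eq_one, mul_one, mul_inv_cancel])
    have hyZ : y ∈ Z := by
      obtain ⟨i, hi⟩ := Subgroup.mem_zpowers_iff.1 hcy
      refine ⟨i, ?_⟩
      have hc' : (c : G) * z₀ = z₀ * c := Subgroup.mem_centralizer_singleton_iff.1 c.2
      show z₀ ^ i = y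
      calc z₀ ^ i = (c : G)⁻¹ * ((c : G) * z₀ ^ i) := by group
        _ = (c : G)⁻¹ * (z₀ ^ i * c) := by rw [((show Commute (c : G) z₀ from hc').zpow_right i).eq]
        _ = y := by rw [hi]; group
    refine Subgroup.mem_normalizer_fintype fun w hw => ?_
    obtain ⟨i, rfl⟩ := Subgroup.mem_zpowers_iff.1 hw
    rw [← conj_zpow, ← hy]
    exact Z.zpow_mem hyZ i
  have hHnpc : Cfsg.HasNormalPComplement p H := by
    refine CfsgLib.TwoGroupTricks.hasNormalPComplement_of_isolated (x := (⟨z₀, hz₀Q.2⟩ : H))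
      ⟨1, by rw [Subgroup.orderOf_mk, hz₀, pow_one]⟩ ?_ (fun h => hz₀1 (congrArg Subtype.val h)) ?_
    · intro g hg
      exact Subtype.ext (key g g.2 (hcomm g (congrArg Subtype.val hg.eq)))
    · intro S
      obtain ⟨g, hg⟩ := MulAction.exists_smul_eq H R S
      have hcR : IsCyclic (R : Subgroup H) := by
        rw [hR]
        exact (Subgroup.subgroupOfEquivOfLe (inf_le_right : (P : Subgroup G) ⊓ H ≤ H)).isCyclic.2
          (isCyclic_of_le_cyclic inf_le_left hP)
      rw [← hg]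
      exact ((R : Subgroup H).equivSMul (MulAut.conj g)).isCyclic.1 hcR
  refine ⟨hHnpc, ?_⟩
  · have hHc : Cfsg.HasNormalPComplement p C := by
      refine CfsgLib.TwoGroupTricks.hasNormalPComplement_of_isolated (x := (⟨z₀, hPC hz₀P⟩ : C))
        ⟨1, by rw [Subgroup.orderOf_mk, hz₀, pow_one]⟩ ?_ (fun h => hz₀1 (congrArg Subtype.val h)) ?_
      · intro g _
        refine Subtype.ext ?_
        show (g : G) * z₀ * (g : G)⁻¹ = z₀
        rw [Subgroup.mem_centralizer_singleton_iff.1 g.2, mul_inv_cancel_right]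
      · intro S
        obtain ⟨g, hg⟩ := MulAction.exists_smul_eq C (P.subtype hPC) S
        rw [← hg]
        exact ((P.subtype hPC : Sylow p C).1.equivSMul (MulAut.conj g)).isCyclic.1
          ((Subgroup.subgroupOfEquivOfLe hPC).isCyclic.2 hP)
    have hsolvH : ∀ {K : Type u} [Group K] [Finite K], Cfsg.HasNormalPComplement p K → Cfsg.IsPSolvable p K := by
      intro K _ _ hK
      exact CfsgLib.PSolvable.isPSolvable_of_step _ (Or.inr (CfsgLib.Cores.card_pPrimeCore_coprime p))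
        (CfsgLib.PSolvable.isPSolvable_of_isPGroup
          (CfsgLib.NormalPComplement.hasNormalPComplement_iff_isPGroup_quotient.1 hK))
    have hCn : (C.subgroupOf NZ).Normal := by
      constructor
      intro c hc n
      rw [Subgroup.mem_subgroupOf, Subgroup.mem_centralizer_singleton_iff] at hc ⊢
      push_cast
      have hw : (n : G)⁻¹ * z₀ * n ∈ Z := by
        have := (Subgroup.mem_normalizer_iff.1 (NZ.inv_mem n.2) z₀).1 (Subgroup.mem_zpowers z₀)
        rwa [inv_inv] at this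
      obtain ⟨i, hi⟩ := Subgroup.mem_zpowers_iff.1 hw
      have hcw : Commute (c : G) ((n : G)⁻¹ * z₀ * n) := hi ▸ (show Commute (c : G) z₀ from hc).zpow_right i
      calc (n : G) * c * (n : G)⁻¹ * z₀ = (n : G) * ((c : G) * ((n : G)⁻¹ * z₀ * n)) * (n : G)⁻¹ := by group
        _ = _ := by rw [hcw.eq]; group
    have hNsolv : Cfsg.IsPSolvable p NZ := by
      refine CfsgLib.PSolvable.isPSolvable_of_extension (C.subgroupOf NZ)
        (CfsgLib.PSolvable.isPSolvable_of_equiv (Subgroup.subgroupOfEquivOfLe hCN).symm (hsolvH hHc)) ?_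
      refine CfsgLib.PSolvable.isPSolvable_of_not_dvd fun hd => P.not_dvd_index ?_
      rw [← Subgroup.index_eq_card] at hd
      refine hd.trans ?_
      exact (Dvd.intro _ (Subgroup.relIndex_mul_index hCN) : C.relIndex NZ ∣ C.index).trans (Subgroup.index_dvd_of_le hPC)
    refine CfsgLib.PSolvable.isPSolvable_of_extension H ?_ ?_
    · exact hsolvH hHnpc
    · refine CfsgLib.PSolvable.isPSolvable_of_surjective hNsolv (f := (QuotientGroup.mk' H).comp NZ.subtype) ?_
      intro q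
      obtain ⟨g, rfl⟩ := QuotientGroup.mk'_surjective H q
      have hfr := Sylow.normalizer_sup_eq_top R
      have hmem : g ∈ Subgroup.normalizer (((R : Subgroup H).map H.subtype : Subgroup G) : Set G) ⊔ H :=
        hfr.symm ▸ Subgroup.mem_top g
      obtain ⟨n, hn, k, hk, rfl⟩ := Subgroup.mem_sup_of_normal_right.1 hmem
      have hnZ : n ∈ NZ := by
        rw [hR, Subgroup.map_subgroupOf_eq_of_le inf_le_right] at hn
        have hz' : n * z₀ * n⁻¹ ∈ Q := (Subgroup.mem_normalizer_iff.1 hn z₀).1 hz₀Q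
        exact hcomm n (hcommP _ hz'.1).symm
      refine ⟨⟨n, hnZ⟩, ?_⟩
      show QuotientGroup.mk' H n = _
      rw [map_mul, show QuotientGroup.mk' H k = 1 from (QuotientGroup.eq_one_iff k).2 hk, mul_one]

/-- Let G be a finite group with a cyclic Sylow p-subgroup and H a normal subgroup such that p divides both the order of H and the index of H. Then H has a normal p-complement and G is p-solvable. -/
theorem result {G : Type*} [Group G] [Finite G] (p : ℕ) [Fact p.Prime]
    (P : Sylow p G) (hP : IsCyclic (P : Subgroup G)) (H : Subgroup G) [H.Normal] (h1 : p ∣ Nat.card H) (h2 : p ∣ H.index) :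
    Cfsg.HasNormalPComplement p H ∧ Cfsg.IsPSolvable p G := by
  exact cyclic_sylow_split P hP H h1 h2

end Cfsg.Agent.S4145
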