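import Cfsg.Statements.S4149
import Cfsg.Agent.Lib.ClassGraph.Basic

set_option autoImplicit false
open Cfsg

namespace Cfsg.Agent.S4149

variable {G : Type*} [Group G] [Finite G]

/-- A prime with `N(P) ≠ C(P)` divides at least half of the class sizes. -/
theorem half_card_le {p : ℕ} [Fact p.Prime] (P : Sylow p G)
    (hP : ¬ Subgroup.normalizer ((P : Subgroup G) : Set G) ≤ Subgroup.centralizer ((P : Subgroup G) : Set G)) :
    Nat.card G ≤ 2 * {g : G | g ≠ 1 ∧ p ∣ (Subgroup.centralizer ({g} : Set G)).index}.ncard := by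
  classical
  set C := Subgroup.centralizer ((P : Subgroup G) : Set G) with hC
  set N := Subgroup.normalizer (C : Set G) with hN
  set S := {g : G | g ≠ 1 ∧ p ∣ (Subgroup.centralizer ({g} : Set G)).index}
  set T := {g : G | g ≠ 1 ∧ ∃ x : G, x * g * x⁻¹ ∈ C}
  have hcover : ({1}ᶜ : Set G) ⊆ S ∪ T := by
    intro g hg
    by_cases hp : p ∣ (Subgroup.centralizer ({g} : Set G)).index
    · exact Or.inl ⟨hg, hp⟩
    · exact Or.inr ⟨hg, CfsgLib.ClassGraph.exists_conj_mem_centralizer P hp⟩
  have h1 := (Set.ncard_le_ncard hcover).trans (Set.ncard_union_le _ _)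
  rw [Set.ncard_compl, Set.ncard_singleton] at h1
  have h2 : T.ncard ≤ N.index * (Nat.card C - 1) := CfsgLib.ClassGraph.ncard_conjugates_le C
  have h3 : 2 ≤ C.relIndex N := by
    have h0 : C.relIndex N ≠ 1 := fun h =>
      hP (CfsgLib.ClassGraph.normalizer_le_centralizer_of_self_normalizing P (Subgroup.relIndex_eq_one.1 h))
    have h0' : C.relIndex N ≠ 0 := Subgroup.index_ne_zero_of_finite
    omega
  have h4 := C.card_mul_index
  rw [← Subgroup.relIndex_mul_index (Subgroup.le_normalizer (H := C)), ← hN] at h4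
  have hi : 1 ≤ N.index := Nat.one_le_iff_ne_zero.2 Subgroup.index_ne_zero_of_finite
  have hc : 1 ≤ Nat.card C := Nat.card_pos
  have h5 : 2 * (N.index * (Nat.card C - 1)) + 2 * N.index ≤ Nat.card G := by
    rw [← mul_add, ← Nat.mul_succ, Nat.succ_eq_add_one, Nat.sub_add_cancel hc, ← h4]
    calc 2 * (N.index * Nat.card C) = Nat.card C * (2 * N.index) := by ring
      _ ≤ Nat.card C * (C.relIndex N * N.index) := Nat.mul_le_mul_left _ (Nat.mul_le_mul_right _ h3)
  omega

/-- More than half of the primes with `N(P) ≠ C(P)` divide one class size. -/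
theorem exists_half (B : Finset ℕ) (hB : B.Nonempty)
    (h : ∀ p ∈ B, Nat.card G ≤ 2 * {g : G | g ≠ 1 ∧ p ∣ (Subgroup.centralizer ({g} : Set G)).index}.ncard)
    (hBp : ∀ p ∈ B, p.Prime) (σ : ℕ)
    (hσ : ∀ x : G, ((Subgroup.centralizer ({x} : Set G)).index).primeFactors.card ≤ σ) : B.card < 2 * σ := by
  classical
  have := Fintype.ofFinite G
  by_contra hlt
  push Not at hlt
  let f : G → ℕ := fun g => (B.filter fun p => g ≠ 1 ∧ p ∣ (Subgroup.centralizer ({g} : Set G)).index).card
  have h1 : B.card * Nat.card G ≤ 2 * ∑ g : G, f g := by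
    have e : ∑ g : G, f g = ∑ p ∈ B, {g : G | g ≠ 1 ∧ p ∣ (Subgroup.centralizer ({g} : Set G)).index}.ncard := by
      simp only [f, Finset.card_filter]
      rw [Finset.sum_comm]
      refine Finset.sum_congr rfl fun p _ => ?_
      rw [← Finset.card_filter, Set.ncard_eq_toFinset_card']
      congr 1
      ext g
      simp
    rw [e, Finset.mul_sum]
    exact (le_of_eq (by rw [Finset.sum_const, smul_eq_mul])).trans (Finset.sum_le_sum h)
  have h2 : ∑ g : G, f g ≤ (Nat.card G - 1) * σ := by
    rw [← Finset.sum_erase (a := (1 : G)) (s := Finset.univ) (by simp [f])]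
    refine (Finset.sum_le_card_nsmul _ _ σ fun g _ => ?_).trans_eq ?_
    · refine le_trans (Finset.card_le_card fun p hp => ?_) (hσ g)
      rw [Finset.mem_filter] at hp
      exact Nat.mem_primeFactors.2 ⟨hBp p hp.1, hp.2.2, Subgroup.index_ne_zero_of_finite⟩
    · rw [Finset.card_erase_of_mem (Finset.mem_univ _), Finset.card_univ, Nat.card_eq_fintype_card, smul_eq_mul]
  have hG : 0 < Nat.card G := Nat.card_pos
  have hσ0 : 0 < σ := by
    by_contra h0
    have : B.card * Nat.card G ≤ 0 := by
      have e : σ = 0 := by omega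
      rw [e, mul_zero] at h2
      omega
    have := Nat.mul_pos hB.card_pos hG
    omega
  have h3 : 2 * σ * Nat.card G ≤ 2 * ((Nat.card G - 1) * σ) :=
    (Nat.mul_le_mul_right _ hlt).trans (h1.trans (Nat.mul_le_mul_left 2 h2))
  have h4 : (Nat.card G - 1) * σ + σ = Nat.card G * σ := by
    rw [← Nat.succ_mul, Nat.succ_eq_add_one, Nat.sub_add_cancel hG]
  nlinarith

/-- Let G be a finite group that has a normal p-complement for at most one prime p dividing its order, and let σ be a natural number such that every conjugacy class size of G has at most σ distinct prime divisors. Then the number of primes dividing at least one conjugacy class size of G is at most 2σ. -/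
theorem result {G : Type*} [Group G] [Finite G] (σ : ℕ)
    (hσ : ∀ x : G, ((Subgroup.centralizer ({x} : Set G)).index).primeFactors.card ≤ σ)
    (hnil : ∀ p q : ℕ, p.Prime → q.Prime → p ∣ Nat.card G → q ∣ Nat.card G →
      Cfsg.HasNormalPComplement p G → Cfsg.HasNormalPComplement q G → p = q) :
    Nat.card {p : ℕ | p.Prime ∧ ∃ x : G, p ∣ (Subgroup.centralizer ({x} : Set G)).index} ≤ 2 * σ := by
  classical
  set V := (Nat.card G).primeFactors.filter fun p => ∃ x : G, p ∣ (Subgroup.centralizer ({x} : Set G)).index with hV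
  have hmem : ∀ p : ℕ, p ∈ V ↔ p.Prime ∧ ∃ x : G, p ∣ (Subgroup.centralizer ({x} : Set G)).index := by
    intro p
    constructor
    · intro hp
      exact ⟨(Nat.mem_primeFactors.1 (Finset.mem_filter.1 hp).1).1, (Finset.mem_filter.1 hp).2⟩
    · rintro ⟨hp, x, hx⟩
      exact Finset.mem_filter.2 ⟨Nat.mem_primeFactors.2 ⟨hp, hx.trans (Subgroup.index_dvd_card _), Nat.card_pos.ne'⟩, x, hx⟩
  have hcard : Nat.card {p : ℕ | p.Prime ∧ ∃ x : G, p ∣ (Subgroup.centralizer ({x} : Set G)).index} = V.card := by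
    rw [← Nat.card_eq_finsetCard]
    exact Nat.card_congr (Equiv.subtypeEquivRight fun p => (hmem p).symm)
  rw [hcard]
  set B := V.filter fun p => ∀ _ : p.Prime, Nat.card G ≤ 2 * {g : G | g ≠ 1 ∧ p ∣ (Subgroup.centralizer ({g} : Set G)).index}.ncard with hB
  have hrest : (V \ B).card ≤ 1 := by
    refine Finset.card_le_one.2 fun a ha b hb => ?_
    have key : ∀ c ∈ V \ B, c.Prime ∧ c ∣ Nat.card G ∧ Cfsg.HasNormalPComplement c G := by
      intro c hc
      obtain ⟨hcV, hcB⟩ := Finset.mem_sdiff.1 hc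
      obtain ⟨hcp, x, hx⟩ := (hmem c).1 hcV
      refine ⟨hcp, hx.trans (Subgroup.index_dvd_card _), ?_⟩
      have : Fact c.Prime := ⟨hcp⟩
      obtain ⟨P⟩ := (inferInstance : Nonempty (Sylow c G))
      refine CfsgLib.ClassGraph.hasNormalPComplement_of_normalizer_le P ?_
      by_contra hn
      exact hcB (Finset.mem_filter.2 ⟨hcV, fun _ => half_card_le P hn⟩)
    obtain ⟨ha1, ha2, ha3⟩ := key a ha
    obtain ⟨hb1, hb2, hb3⟩ := key b hb
    exact hnil a b ha1 hb1 ha2 hb2 ha3 hb3
  have hsplit : V.card = B.card + (V \ B).card := by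
    rw [← Finset.card_union_of_disjoint Finset.disjoint_sdiff, Finset.union_sdiff_of_subset (Finset.filter_subset _ _)]
  rcases B.eq_empty_or_nonempty with hBe | hBne
  · rcases V.eq_empty_or_nonempty with hVe | ⟨p, hp⟩
    · simp [hVe]
    · obtain ⟨hpp, x, hx⟩ := (hmem p).1 hp
      have h1 : 1 ≤ σ := le_trans (Finset.card_pos.2 ⟨p, Nat.mem_primeFactors.2 ⟨hpp, hx, Subgroup.index_ne_zero_of_finite⟩⟩) (hσ x)
      have h0 : B.card = 0 := Finset.card_eq_zero.2 hBe
      omega
  · have hlt := exists_half B hBne (fun p hp => (Finset.mem_filter.1 hp).2 ((hmem p).1 (Finset.mem_filter.1 hp).1).1)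
      (fun p hp => ((hmem p).1 (Finset.mem_filter.1 hp).1).1) σ hσ
    omega

end Cfsg.Agent.S4149
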