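import Cfsg.Statements.S4150
import Cfsg.Agent.Lib.ElementOrders.TwoPrimes
import Cfsg.Agent.Lib.ElementOrders.PrimeGenThirteen

set_option autoImplicit false
open Cfsg

namespace Cfsg.Agent.S4150

open Equiv Equiv.Perm MulAction CfsgLib.ElementOrders.PrimeGen

/-- The generated group on the union of the supports. -/
theorem core {α : Type*} [Fintype α] [DecidableEq α] {x y : Perm α} {p q : ℕ} (hp : p.Prime) (hq : q.Prime)
    (h2 : 2 < p) (hpq : p < q) (hxA : x ∈ alternatingGroup α) (hyA : y ∈ alternatingGroup α)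
    (hxo : orderOf x = p) (hyo : orderOf y = q) (hcov : ∀ a, x a ≠ a ∨ y a ≠ a)
    (hy2 : y.support.card < 2 * q) (hd : Fintype.card α < p + q) (hd' : Fintype.card α < 2 * q)
    (hcase : (x.IsCycle ∧ p + 3 ≤ Fintype.card α) ∨ q + 3 ≤ Fintype.card α ∨ (x.IsCycle ∧ p = 3) ∨
      (Fintype.card α = 6 ∧ q = 5) ∨ (Fintype.card α = 7 ∧ p = 5 ∧ x.IsCycle) ∨
      (Fintype.card α = 13 ∧ p = 11 ∧ x.IsCycle)) :
    ∃ d, 5 ≤ d ∧ Nonempty (Subgroup.closure ({x, y} : Set (Perm α)) ≃* alternatingGroup (Fin d)) := by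
  classical
  set G := Subgroup.closure ({x, y} : Set (Perm α))
  have hG : G ≤ alternatingGroup α := (Subgroup.closure_le _).2 (Set.insert_subset hxA (Set.singleton_subset_iff.2 hyA))
  have hxG : x ∈ G := Subgroup.subset_closure (Or.inl rfl)
  have hyG : y ∈ G := Subgroup.subset_closure (Or.inr rfl)
  obtain ⟨hyc, hys⟩ := isCycle_of_lt hq hyo hy2
  have hprim := isPreprimitive_closure hp hq hxo hyo hyc hys hcov hd hd'
  have h5 : 5 ≤ Fintype.card α := by
    have := y.support.card_le_univ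
    rw [hys] at this
    have h1 : q ≠ 4 := fun h => by rw [h] at hq; norm_num at hq
    omega
  have hxs : x.IsCycle → x.support.card = p := fun hc => hc.orderOf ▸ hxo
  have fin : G = alternatingGroup α → ∃ d, 5 ≤ d ∧ Nonempty (G ≃* alternatingGroup (Fin d)) := fun h =>
    ⟨_, h5, ⟨(MulEquiv.subgroupCongr h).trans (Equiv.altCongrHom (Fintype.equivFin α))⟩⟩
  rcases hcase with ⟨hc, h⟩ | h | ⟨hc, rfl⟩ | ⟨h, rfl⟩ | ⟨h, rfl, hc⟩ | ⟨h, rfl, hc⟩
  · exact fin (le_antisymm hG (Cfsg.Agent.S0713.result G hprim hp h5 h hc (hxs hc) hxG))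
  · exact fin (le_antisymm hG (Cfsg.Agent.S0713.result G hprim hq h5 h hyc hys hyG))
  · exact fin (le_antisymm hG (Equiv.Perm.alternatingGroup_le_of_isPreprimitive_of_isThreeCycle_mem hprim
      (card_support_eq_three_iff.1 (hxs hc)) hxG))
  · exact six_case hG h hprim.toIsPretransitive hyG hyc hys
  · exact fin (seven_case hG hprim h hxG hc (hxs hc))
  · exact fin (thirteen_case hG hprim h hxG hc (hxs hc))

/-- Conditions on a pair of primes that force alternating generation in degree `m`. -/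
def Good (m p q : ℕ) : Prop :=
  p.Prime ∧ q.Prime ∧ 2 < p ∧ p < q ∧ q ≤ m ∧ m ≤ 2 * p ∧
    ((p + 3 ≤ q ∧ m < 2 * p) ∨ (p + 3 ≤ q ∧ q + 3 ≤ m ∧ m = 2 * p) ∨
      (p = 3 ∧ m < 6) ∨ (m = 6 ∧ p = 3 ∧ q = 5) ∨ (p = 5 ∧ q = 7 ∧ m ≤ 10) ∨
      (p = 11 ∧ q = 13 ∧ m < 22))

theorem exists_good (m : ℕ) (hm : 5 ≤ m) : ∃ p q, Good m p q := by
  unfold Good
  rcases le_or_gt 17 m with h | h
  · obtain ⟨p, q, hp, hq, h1, h2, h3⟩ := CfsgLib.ElementOrders.exists_two_primes m h
    exact ⟨p, q, hp, hq, by omega, by omega, h3, h1.le, Or.inl ⟨h2, h1⟩⟩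
  rcases le_or_gt m 6 with h6 | h6
  · exact ⟨3, 5, by norm_num, by norm_num, by omega, by omega, by omega, by omega, by omega⟩
  rcases le_or_gt m 10 with h10 | h10
  · exact ⟨5, 7, by norm_num, by norm_num, by omega, by omega, by omega, by omega, by omega⟩
  rcases le_or_gt m 14 with h14 | h14
  · exact ⟨7, 11, by norm_num, by norm_num, by omega, by omega, by omega, by omega, by omega⟩
  exact ⟨11, 13, by norm_num, by norm_num, by omega, by omega, by omega, by omega, by omega⟩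

theorem generation {m p q : ℕ} (hgood : Good m p q) (x y : alternatingGroup (Fin m))
    (hxo : orderOf x = p) (hyo : orderOf y = q) :
    ∃ d : ℕ, 5 ≤ d ∧ Nonempty (Subgroup.closure ({x, y} : Set (alternatingGroup (Fin m))) ≃* alternatingGroup (Fin d)) := by
  obtain ⟨hp, hq, h2, hpq, hqm, hm2, hcases⟩ := hgood
  let U : Finset (Fin m) := (x : Perm (Fin m)).support ∪ (y : Perm (Fin m)).support
  have hmem : ∀ (σ : Perm (Fin m)), σ.support ⊆ U → ∀ z, σ z ∈ U ↔ z ∈ U := by
    intro σ hσ z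
    by_cases hz : σ z = z
    · rw [hz]
    · have h1 : z ∈ σ.support := Equiv.Perm.mem_support.2 hz
      exact ⟨fun _ => hσ h1, fun _ => hσ (Equiv.Perm.apply_mem_support.2 h1)⟩
  let x' : Perm U := (x : Perm (Fin m)).subtypePerm (hmem _ Finset.subset_union_left)
  let y' : Perm U := (y : Perm (Fin m)).subtypePerm (hmem _ Finset.subset_union_right)
  have hofx : Equiv.Perm.ofSubtype x' = (x : Perm (Fin m)) :=
    Equiv.Perm.ofSubtype_subtypePerm _ fun z hz => Finset.mem_union_left _ (Equiv.Perm.mem_support.2 hz)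
  have hofy : Equiv.Perm.ofSubtype y' = (y : Perm (Fin m)) :=
    Equiv.Perm.ofSubtype_subtypePerm _ fun z hz => Finset.mem_union_right _ (Equiv.Perm.mem_support.2 hz)
  have hinj : Function.Injective (Equiv.Perm.ofSubtype : Perm U →* Perm (Fin m)) :=
    Equiv.Perm.ofSubtype_injective
  have hxA : x' ∈ alternatingGroup U := Equiv.Perm.mem_alternatingGroup.2 (by
    rw [← Equiv.Perm.sign_ofSubtype, hofx]; exact Equiv.Perm.mem_alternatingGroup.1 x.2)
  have hyA : y' ∈ alternatingGroup U := Equiv.Perm.mem_alternatingGroup.2 (by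
    rw [← Equiv.Perm.sign_ofSubtype, hofy]; exact Equiv.Perm.mem_alternatingGroup.1 y.2)
  have hxo' : orderOf x' = p := by rw [← orderOf_injective _ hinj x', hofx, Subgroup.orderOf_coe, hxo]
  have hyo' : orderOf y' = q := by rw [← orderOf_injective _ hinj y', hofy, Subgroup.orderOf_coe, hyo]
  have hcov : ∀ a : U, x' a ≠ a ∨ y' a ≠ a := by
    rintro ⟨a, ha⟩
    rcases Finset.mem_union.1 ha with h | h
    · exact Or.inl fun e => Equiv.Perm.mem_support.1 h (congrArg Subtype.val e)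
    · exact Or.inr fun e => Equiv.Perm.mem_support.1 h (congrArg Subtype.val e)
  have hUm : Fintype.card U ≤ m := by
    rw [Fintype.card_coe]; simpa using Finset.card_le_univ U
  have hys2 : y'.support.card < 2 * q := by
    have := y'.support.card_le_univ
    omega
  obtain ⟨hyc', hys'⟩ := isCycle_of_lt hq hyo' hys2
  have hqU : q ≤ Fintype.card U := hys' ▸ y'.support.card_le_univ
  -- either `x` is a cycle or it moves all `m = 2 * p` points
  have hxcase : x'.IsCycle ∨ (m = 2 * p ∧ Fintype.card U = m) := by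
    rcases lt_or_ge x'.support.card (2 * p) with h | h
    · exact Or.inl (isCycle_of_lt hp hxo' h).1
    · have := x'.support.card_le_univ
      exact Or.inr ⟨by omega, by omega⟩
  obtain ⟨d, hd5, ⟨e⟩⟩ := core (x := x') (y := y') hp hq h2 hpq hxA hyA hxo' hyo' hcov hys2 (by omega) (by omega) (by
    rcases hxcase with hc | ⟨hm', hU⟩
    · rcases hcases with ⟨h, -⟩ | ⟨h, -, -⟩ | ⟨h, -⟩ | ⟨-, h, -⟩ | ⟨rfl, rfl, -⟩ | ⟨rfl, rfl, -⟩
      · exact Or.inl ⟨hc, by omega⟩
      · exact Or.inl ⟨hc, by omega⟩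
      · exact Or.inr (Or.inr (Or.inl ⟨hc, h⟩))
      · exact Or.inr (Or.inr (Or.inl ⟨hc, h⟩))
      · rcases eq_or_lt_of_le hqU with h | h
        · exact Or.inr (Or.inr (Or.inr (Or.inr (Or.inl ⟨h.symm, rfl, hc⟩))))
        · exact Or.inl ⟨hc, by omega⟩
      · rcases eq_or_lt_of_le hqU with h | h
        · exact Or.inr (Or.inr (Or.inr (Or.inr (Or.inr ⟨h.symm, rfl, hc⟩))))
        · exact Or.inl ⟨hc, by omega⟩
    · rcases hcases with ⟨h, h'⟩ | ⟨h, h', -⟩ | ⟨h, h'⟩ | ⟨h, h', h''⟩ | ⟨h, h', -⟩ | ⟨h, h', h''⟩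
      · omega
      · exact Or.inr (Or.inl (by omega))
      · omega
      · exact Or.inr (Or.inr (Or.inr (Or.inl ⟨by omega, h''⟩)))
      · exact Or.inr (Or.inl (by omega))
      · omega)
  refine ⟨d, hd5, ⟨MulEquiv.trans ?_ e⟩⟩
  have h1 : (Subgroup.closure ({x, y} : Set (alternatingGroup (Fin m)))).map (alternatingGroup (Fin m)).subtype =
      (Subgroup.closure ({x', y'} : Set (Perm U))).map Equiv.Perm.ofSubtype := by
    rw [MonoidHom.map_closure, MonoidHom.map_closure, Set.image_pair, Set.image_pair, hofx, hofy]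
    rfl
  exact ((Subgroup.equivMapOfInjective _ _ (alternatingGroup (Fin m)).subtype_injective).trans
    (MulEquiv.subgroupCongr h1)).trans (Subgroup.equivMapOfInjective _ _ hinj).symm

/-- Let m ≥ 5. Then there are primes p < q with m/2 ≤ p and q ≤ m such that any two elements x, y of the alternating group of degree m with x of order p and y of order q generate a subgroup isomorphic to an alternating group of some degree d ≥ 5. -/
theorem result (m : ℕ) (hm : 5 ≤ m) :
    ∃ p q : ℕ, p.Prime ∧ q.Prime ∧ m ≤ 2 * p ∧ p < q ∧ q ≤ m ∧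
      ∀ x y : alternatingGroup (Fin m), orderOf x = p → orderOf y = q →
        ∃ d : ℕ, 5 ≤ d ∧ Nonempty (Subgroup.closure ({x, y} : Set (alternatingGroup (Fin m))) ≃* alternatingGroup (Fin d)) := by
  obtain ⟨p, q, hg⟩ := exists_good m hm
  obtain ⟨hp, hq, -, hpq, hqm, hmp, -⟩ := id hg
  exact ⟨p, q, hp, hq, hmp, hpq, hqm, fun x y hx hy => generation hg x y hx hy⟩

end Cfsg.Agent.S4150
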