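import Cfsg.Statements.S4151
import Cfsg.Agent.Lib.ElementOrders.TIHall
import Cfsg.Agent.Lib.ElementOrders.ZGroupAction
import Cfsg.Agent.Lib.Cores.PCore

set_option autoImplicit false
open Cfsg

namespace Cfsg.Agent.S4151

open CfsgLib.ElementOrders

theorem main {G : Type*} [Group G] [Finite G] (H Q O : Subgroup G) [O.Normal]
    (hHc : (Nat.card H).Coprime H.index) (hOc : (Nat.card O).Coprime (Nat.card H))
    (hQc : (Nat.card Q).Coprime (Nat.card H))
    (hsup : O ⊔ Subgroup.normalizer (H : Set G) = ⊤) (hz : IsZGroup H)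
    (hQ : Q ≤ Subgroup.normalizer (H : Set G)) (hQH : Q ⊓ H = ⊥)
    (hQH' : Q ⊔ H = Subgroup.normalizer (H : Set G)) :
    (Nat.card ↥(H ⊓ Subgroup.centralizer (Q : Set G))).Coprime (H ⊓ Subgroup.centralizer (Q : Set G)).index ∧
    ∃ N : Subgroup G, N.Normal ∧ N.IsComplement' (H ⊓ Subgroup.centralizer (Q : Set G)) := by
  set C := H ⊓ Subgroup.centralizer (Q : Set G) with hC
  set T := (⁅H, Q⁆ : Subgroup G) with hT
  have hCcop : (Nat.card C).Coprime (C.relIndex H) := coprime_centralizer_of_isZGroup hQ hQc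
  have hcop' : (Nat.card C).Coprime C.index := by
    rw [← Subgroup.relIndex_mul_index (inf_le_left : C ≤ H)]
    exact hCcop.mul_right (hHc.coprime_dvd_left (Subgroup.card_dvd_of_le inf_le_left))
  refine ⟨hcop', ?_⟩
  have hTC : T ⊓ Subgroup.centralizer (Q : Set G) = ⊥ := commutator_inf_centralizer_of_isZGroup hQ hQc
  have hTH : T ≤ H := CfsgLib.CoprimeAction.commutator_le_left hQ
  have hTCsup : T ⊔ C = H := CfsgLib.CoprimeAction.commutator_sup_centralizer hQ hQc (Or.inr inferInstance)
  have hnorm : H ⊔ Q ≤ Subgroup.normalizer (T : Set G) := CfsgLib.CoprimeAction.sup_le_normalizer_commutator Q H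
  set N0 := O ⊔ (T ⊔ Q) with hN0
  have hH1 : H ≤ Subgroup.normalizer (N0 : Set G) := by
    intro h hh
    apply Subgroup.mem_normalizer_fintype
    intro x hx
    have hle : (N0 : Subgroup G).map (MulAut.conj h).toMonoidHom ≤ N0 := by
      rw [hN0, Subgroup.map_sup, Subgroup.map_sup]
      refine sup_le ?_ (sup_le ?_ ?_)
      · rintro _ ⟨o, ho, rfl⟩
        exact Subgroup.mem_sup_left ((inferInstance : O.Normal).conj_mem o ho h)
      · rintro _ ⟨t, ht, rfl⟩
        exact Subgroup.mem_sup_right (Subgroup.mem_sup_left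
          ((Subgroup.mem_normalizer_iff.1 (hnorm (Subgroup.mem_sup_left hh)) t).1 ht))
      · rintro _ ⟨q, hq, rfl⟩
        have h1 : h * q * h⁻¹ * q⁻¹ ∈ T := Subgroup.commutator_mem_commutator hh hq
        have h2 := Subgroup.mul_mem_sup h1 hq
        rw [show h * q * h⁻¹ * q⁻¹ * q = h * q * h⁻¹ by group] at h2
        exact Subgroup.mem_sup_right h2
    exact hle (Subgroup.mem_map_of_mem _ hx)
  have hQN : Q ≤ N0 := le_sup_of_le_right le_sup_right
  have hON : O ≤ N0 := le_sup_left
  have hnormal : N0.Normal := by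
    refine Subgroup.normalizer_eq_top_iff.1 (top_le_iff.1 (hsup ▸ sup_le ?_ ?_))
    · exact hON.trans Subgroup.le_normalizer
    · rw [← hQH']
      exact sup_le (hQN.trans Subgroup.le_normalizer) hH1
  have htop : N0 ⊔ C = ⊤ := by
    rw [eq_top_iff, ← hsup, ← hQH', ← hTCsup]
    refine sup_le (le_sup_of_le_left hON) (sup_le (le_sup_of_le_left hQN) (sup_le ?_ le_sup_right))
    exact le_sup_of_le_left (le_sup_of_le_right le_sup_left)
  have hdis : Disjoint N0 C := by
    rw [Subgroup.disjoint_def]
    intro c hcN hcC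
    obtain ⟨o, ho, y, hy, rfl⟩ := Subgroup.mem_sup_of_normal_left.1 hcN
    have hTn : Q ≤ Subgroup.normalizer (T : Set G) := le_sup_right.trans hnorm
    rw [← SetLike.mem_coe, Subgroup.coe_mul_of_right_le_normalizer_left T Q hTn, Set.mem_mul] at hy
    obtain ⟨t, ht, q, hq, rfl⟩ := hy
    have hoN : o ∈ Subgroup.normalizer (H : Set G) := by
      have h1 : t * q ∈ Subgroup.normalizer (H : Set G) :=
        mul_mem (Subgroup.le_normalizer (hTH ht)) (hQ hq)
      have h2 := mul_mem (Subgroup.le_normalizer hcC.1) (inv_mem h1)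
      rwa [mul_inv_cancel_right] at h2
    have hcen := TIHall.inf_normalizer_le_centralizer (H := H) hOc ⟨ho, hoN⟩
    have hot : t * o = o * t := Subgroup.mem_centralizer_iff.1 hcen t (hTH ht)
    have hoq : o * q ∈ H := by
      have : o * q = t⁻¹ * (o * (t * q)) := by
        rw [← mul_assoc o t, ← hot]; group
      rw [this]
      exact H.mul_mem (H.inv_mem (hTH ht)) hcC.1
    have hoq' : Commute o q := by
      have h1 : o * (o * q) = o * q * o := (Subgroup.mem_centralizer_iff.1 hcen _ hoq).symm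
      show o * q = q * o
      exact mul_left_cancel (a := o) (by rw [h1, mul_assoc])
    have hoq1 : o * q = 1 := by
      have hn : (o * q) ^ Nat.card Q = o ^ Nat.card Q := by
        rw [hoq'.mul_pow, orderOf_dvd_iff_pow_eq_one.1 (Subgroup.orderOf_dvd_natCard Q hq), mul_one]
      have h0 : o ^ Nat.card Q ∈ O ⊓ H := ⟨O.pow_mem ho _, hn ▸ H.pow_mem hoq _⟩
      rw [Subgroup.inf_eq_bot_of_coprime hOc, Subgroup.mem_bot] at h0
      exact orderOf_eq_one_iff.1 (Nat.eq_one_of_dvd_one (hQc.gcd_eq_one ▸ Nat.dvd_gcd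
        (orderOf_dvd_of_pow_eq_one (hn.trans h0)) (Subgroup.orderOf_dvd_natCard H hoq)))
    have hct : o * (t * q) = t := by
      rw [← mul_assoc, ← hot, mul_assoc, hoq1, mul_one]
    rw [hct] at hcC ⊢
    have : t ∈ T ⊓ Subgroup.centralizer (Q : Set G) := ⟨ht, hcC.2⟩
    rw [hTC] at this
    exact Subgroup.mem_bot.1 this
  refine ⟨N0, hnormal, Subgroup.isComplement'_of_disjoint_and_mul_eq_univ hdis ?_⟩
  rw [← Subgroup.normal_mul, htop, Subgroup.coe_top]

/-- Let G be a finite group and H a non-normal subgroup meeting each of its conjugates by elements outside N_G(H) trivially, with the order of H coprime to its index in N_G(H), such that G is π-separable for π the set of primes dividing the order of H (G has a chain of normal subgroups from 1 to G each of whose factors has order divisible only by primes dividing the order of H or coprime to it). Suppose a Sylow 2-subgroup of H is abelian and Q is a complement of H in N_G(H). Then C_H(Q), the subgroup of elements of H commuting with Q, has order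 coprime to its index in G and has a normal complement in G. -/
theorem result {G : Type*} [Group G] [Finite G] (H : Subgroup G)
    (hTI : Cfsg.IsTISubset (H : Set G)) (hnn : ¬ H.Normal)
    (hHall : (Nat.card H).Coprime (H.subgroupOf (Subgroup.normalizer (H : Set G))).index)
    (hsep : ∃ (n : ℕ) (M : Fin (n + 1) → Subgroup G), M 0 = ⊥ ∧ M (Fin.last n) = ⊤ ∧ Monotone M ∧ (∀ i, (M i).Normal) ∧
      ∀ i : Fin n, (∀ q : ℕ, q.Prime → q ∣ (M i.castSucc).relIndex (M i.succ) → q ∣ Nat.card H) ∨
        ((M i.castSucc).relIndex (M i.succ)).Coprime (Nat.card H))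
    (h2 : ∀ P : Sylow 2 H, IsMulCommutative (P : Subgroup H))
    (Q : Subgroup G) (hQ : Q ≤ Subgroup.normalizer (H : Set G)) (hQH : Q ⊓ H = ⊥) (hQH' : Q ⊔ H = Subgroup.normalizer (H : Set G)) :
    (Nat.card ↥(H ⊓ Subgroup.centralizer (Q : Set G))).Coprime (H ⊓ Subgroup.centralizer (Q : Set G)).index ∧
    ∃ N : Subgroup G, N.Normal ∧ N.IsComplement' (H ⊓ Subgroup.centralizer (Q : Set G)) := by
  have hH : H ≠ ⊥ := fun h => hnn (h ▸ Subgroup.normal_bot)
  set O := Cfsg.pPrimeCore (Nat.card H) G with hO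
  have hOn : O.Normal := Subgroup.sSup_normal _ fun N hN => hN.1
  have hOc : (Nat.card O).Coprime (Nat.card H) := CfsgLib.Cores.card_pPrimeCore_coprime _
  obtain ⟨hsup, -⟩ := CfsgLib.ElementOrders.TIHall.sup_normalizer_eq_top hTI hHall hH hsep hOc
    fun K hK hKc => CfsgLib.Cores.le_pPrimeCore (hN := hK) hKc
  refine main H Q O (CfsgLib.ElementOrders.TIHall.coprime_index hTI hHall) hOc ?_ hsup
    (CfsgLib.ElementOrders.TIHall.isZGroup hTI hnn hOc hsup h2) hQ hQH hQH'
  set N := Subgroup.normalizer (H : Set G)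
  have : (H.subgroupOf N).Normal := Subgroup.normal_in_normalizer
  have hcompl : Subgroup.IsComplement' (H.subgroupOf N) (Q.subgroupOf N) := by
    refine Subgroup.isComplement'_of_disjoint_and_mul_eq_univ ?_ ?_
    · rw [Subgroup.disjoint_def]
      intro x hx hx'
      have h1 : (x : G) ∈ Q ⊓ H := ⟨hx', hx⟩
      rw [hQH, Subgroup.mem_bot] at h1
      exact Subtype.ext h1
    · rw [← Subgroup.normal_mul, ← Subgroup.subgroupOf_sup Subgroup.le_normalizer hQ, sup_comm, hQH',
        Subgroup.subgroupOf_self, Subgroup.coe_top]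
  rw [← Nat.card_congr (Subgroup.subgroupOfEquivOfLe hQ).toEquiv, ← hcompl.symm.index_eq_card]
  exact hHall.symm

end Cfsg.Agent.S4151
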