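import Cfsg.Statements.S4152
import Cfsg.Agent.Lib.ElementOrders.PiPart

set_option autoImplicit false
open Cfsg

namespace Cfsg.Agent.S4152

/-- `g` is a `π`-element. -/
def IsPiElt (π : Set ℕ) {H : Type*} [Group H] (g : H) : Prop :=
  ∀ q : ℕ, q.Prime → q ∣ orderOf g → q ∈ π

variable {G : Type*} [Group G]

theorem isPiElt_conj {π : Set ℕ} (c g : G) : IsPiElt π (c * g * c⁻¹) ↔ IsPiElt π g := by
  unfold IsPiElt
  rw [show orderOf (c * g * c⁻¹) = orderOf g from
    orderOf_injective (MulAut.conj c).toMonoidHom (MulAut.conj c).injective g]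

theorem isPiElt_coe {π : Set ℕ} {N : Subgroup G} (g : N) : IsPiElt π (g : G) ↔ IsPiElt π g := by
  unfold IsPiElt
  rw [Subgroup.orderOf_coe]

/-- Commuting pairs: `π`-elements of a coset and `π`-elements of a normal subgroup. -/
theorem card_pairs_eq [Finite G] (π : Set ℕ) (N : Subgroup G) [N.Normal] (u : G ⧸ N)
    (hu : IsPiElt π u) :
    Nat.card {p : G × G // (QuotientGroup.mk p.1 : G ⧸ N) = u ∧ IsPiElt π p.1 ∧ p.2 ∈ N ∧ Commute p.1 p.2} =
    Nat.card {p : G × G // (QuotientGroup.mk p.1 : G ⧸ N) = u ∧ p.2 ∈ N ∧ IsPiElt π p.2 ∧ Commute p.1 p.2} := by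
  classical
  set n := Nat.card G with hn
  have hn0 : n ≠ 0 := Nat.card_pos.ne'
  set a := ∏ q ∈ n.primeFactors.filter (· ∈ π), ordProj[q] n with ha
  set b := ∏ q ∈ n.primeFactors.filter (· ∉ π), ordProj[q] n with hb
  have hab : a * b = n := by
    rw [ha, hb, Finset.prod_filter_mul_prod_filter_not]
    exact (Nat.prod_primeFactors_pow_factorization hn0).symm
  have hprime : ∀ {s : Finset ℕ} {q : ℕ}, q.Prime → s ⊆ n.primeFactors →
      q ∣ ∏ r ∈ s, ordProj[r] n → q ∈ s := by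
    intro s q hq hs h
    obtain ⟨r, hr, hqr⟩ := (hq.prime.dvd_finsetProd_iff _).1 h
    exact (Nat.prime_dvd_prime_iff_eq hq (Nat.prime_of_mem_primeFactors (hs hr))).1
      (hq.dvd_of_dvd_pow hqr) ▸ hr
  have hcop : a.Coprime b := Nat.coprime_of_dvd fun q hq h1 h2 =>
    (Finset.mem_filter.1 (hprime hq (Finset.filter_subset _ _) h2)).2
      (Finset.mem_filter.1 (hprime hq (Finset.filter_subset _ _) h1)).2
  have ha0 : 0 < a := Nat.pos_of_ne_zero fun h => hn0 (by rw [← hab, h, zero_mul])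
  have hpi : ∀ g : G, IsPiElt π g ↔ g ^ a = 1 := fun g => by
    rw [CfsgLib.ElementOrders.pow_eq_one_iff_piElement (π := {q | q ∈ π ∧ q.Prime}) ⟨b, hab.symm⟩
      (fun q hq h => ⟨(Finset.mem_filter.1 (hprime hq (Finset.filter_subset _ _) h)).2, hq⟩)
      (fun q hq h => by
        rw [show Nat.card G / a = b from Nat.div_eq_of_eq_mul_right ha0 hab.symm] at h
        exact (Finset.mem_filter.1 (hprime hq.2 (Finset.filter_subset _ _) h)).2 hq.1) g]
    exact ⟨fun h q hq hd => ⟨h q hq hd, hq⟩, fun h q hq hd => (h q hq hd).1⟩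
  set e := CfsgLib.ElementOrders.splitExp hcop
  set f := CfsgLib.ElementOrders.splitExp hcop.symm
  have htot : ∀ g : G, g ^ (a * b) = 1 := fun g => by rw [hab, hn]; exact pow_card_eq_one'
  have hua : u ^ a = 1 := by
    rw [← orderOf_dvd_iff_pow_eq_one]
    have hd : orderOf u ∣ a * b := by
      rw [hab, hn]; exact (orderOf_dvd_natCard u).trans (Subgroup.card_quotient_dvd_card N)
    refine (Nat.coprime_of_dvd fun q hq h1 h2 => ?_).dvd_of_dvd_mul_right hd
    exact (Finset.mem_filter.1 (hprime hq (Finset.filter_subset _ _) h2)).2 (hu q hq h1)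
  have hue : u ^ e = u := CfsgLib.ElementOrders.pow_splitExp_of_left hcop hua
  have huf : u ^ f = 1 := CfsgLib.ElementOrders.pow_splitExp_of_right hcop.symm hua
  let A := {p : G × G // (QuotientGroup.mk p.1 : G ⧸ N) = u ∧ IsPiElt π p.1 ∧ p.2 ∈ N ∧ Commute p.1 p.2}
  let B := {p : G × G // (QuotientGroup.mk p.1 : G ⧸ N) = u ∧ p.2 ∈ N ∧ IsPiElt π p.2 ∧ Commute p.1 p.2}
  let E : A ≃ B :=
    { toFun := fun p => ⟨(p.1.1 * p.1.2 ^ f, p.1.2 ^ e), by
        obtain ⟨⟨y, m⟩, h1, h2, h3, h4⟩ := p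
        refine ⟨?_, pow_mem h3 _, (hpi _).2 (CfsgLib.ElementOrders.pow_splitExp_pow hcop (htot m)), ?_⟩
        · simp only [QuotientGroup.mk_mul, (QuotientGroup.eq_one_iff _).2 (pow_mem h3 f), mul_one, h1]
        · exact (h4.pow_right e).mul_left (Commute.pow_pow_self m f e)⟩
      invFun := fun p => ⟨(p.1.1 ^ e, p.1.2 * p.1.1 ^ f), by
        obtain ⟨⟨z, w⟩, h1, h2, h3, h4⟩ := p
        refine ⟨?_, (hpi _).2 (CfsgLib.ElementOrders.pow_splitExp_pow hcop (htot z)), mul_mem h2 ?_, ?_⟩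
        · simp only [QuotientGroup.mk_pow, h1, hue]
        · rw [← QuotientGroup.eq_one_iff, QuotientGroup.mk_pow, h1, huf]
        · exact (h4.pow_left e).mul_right (Commute.pow_pow_self z e f)⟩
      left_inv := by
        rintro ⟨⟨y, m⟩, h1, h2, h3, h4⟩
        have hy : y ^ a = 1 := (hpi y).1 h2
        have hc : Commute y (m ^ f) := h4.pow_right f
        refine Subtype.ext (Prod.ext ?_ ?_)
        · show (y * m ^ f) ^ e = y
          rw [hc.mul_pow, CfsgLib.ElementOrders.pow_splitExp_of_left hcop hy,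
            CfsgLib.ElementOrders.pow_splitExp_of_right hcop
              (CfsgLib.ElementOrders.pow_splitExp_pow hcop.symm (by rw [mul_comm]; exact htot m)),
            mul_one]
        · show m ^ e * (y * m ^ f) ^ f = m
          rw [hc.mul_pow, CfsgLib.ElementOrders.pow_splitExp_of_right hcop.symm hy,
            CfsgLib.ElementOrders.pow_splitExp_of_left hcop.symm
              (CfsgLib.ElementOrders.pow_splitExp_pow hcop.symm (by rw [mul_comm]; exact htot m)),
            one_mul]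
          exact CfsgLib.ElementOrders.pow_splitExp_mul hcop (htot m)
      right_inv := by
        rintro ⟨⟨z, w⟩, h1, h2, h3, h4⟩
        have hw : w ^ a = 1 := (hpi w).1 h3
        have hc : Commute w (z ^ f) := (h4.pow_left f).symm
        have hzf : (z ^ f) ^ b = 1 :=
          CfsgLib.ElementOrders.pow_splitExp_pow hcop.symm (by rw [mul_comm]; exact htot z)
        refine Subtype.ext (Prod.ext ?_ ?_)
        · show z ^ e * (w * z ^ f) ^ f = z
          rw [hc.mul_pow, CfsgLib.ElementOrders.pow_splitExp_of_right hcop.symm hw,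
            CfsgLib.ElementOrders.pow_splitExp_of_left hcop.symm hzf, one_mul]
          exact CfsgLib.ElementOrders.pow_splitExp_mul hcop (htot z)
        · show (w * z ^ f) ^ e = w
          rw [hc.mul_pow, CfsgLib.ElementOrders.pow_splitExp_of_left hcop hw,
            CfsgLib.ElementOrders.pow_splitExp_of_right hcop hzf, mul_one] }
  exact Nat.card_congr E
/-- Burnside: orbits of conjugation by `N` on an invariant set, times `|N|`, count commuting pairs. -/
theorem card_orbits_conj [Finite G] (N : Subgroup G) (P : G → Prop)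
    (hP : ∀ n ∈ N, ∀ y, P y → P (n * y * n⁻¹)) :
    ∃ k : ℕ, k * Nat.card N = Nat.card {p : G × G // P p.1 ∧ p.2 ∈ N ∧ Commute p.1 p.2} ∧
      ∃ R : Set G, R.ncard = k ∧ (∀ r ∈ R, P r) ∧ (∀ y, P y → ∃ n ∈ N, n * y * n⁻¹ ∈ R) ∧
        (∀ r ∈ R, ∀ r' ∈ R, ∀ n ∈ N, n * r * n⁻¹ = r' → r = r') := by
  classical
  let X := {y : G // P y}
  let _ : MulAction N X :=
    { smul := fun n y => ⟨(n : G) * y.1 * (n : G)⁻¹, hP n n.2 y.1 y.2⟩
      one_smul := fun y => Subtype.ext (show ((1 : N) : G) * y.1 * ((1 : N) : G)⁻¹ = y.1 by simp)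
      mul_smul := fun m n y => Subtype.ext
        (show ((m * n : N) : G) * y.1 * ((m * n : N) : G)⁻¹ =
          (m : G) * ((n : G) * y.1 * (n : G)⁻¹) * (m : G)⁻¹ by push_cast; group) }
  have hsmul : ∀ (n : N) (y : X), ((n • y : X) : G) = (n : G) * y.1 * (n : G)⁻¹ := fun _ _ => rfl
  let Ω := MulAction.orbitRel.Quotient N X
  let _ : Fintype N := Fintype.ofFinite _
  let _ : Fintype Ω := Fintype.ofFinite _
  refine ⟨Nat.card Ω, ?_, Set.range (fun q : Ω => ((q.out : X) : G)), ?_, ?_, ?_, ?_⟩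
  · rw [← Nat.card_prod, ← Nat.card_congr (MulAction.sigmaFixedByEquivOrbitsProdGroup N X)]
    refine Nat.card_congr
      { toFun := fun s => ⟨((s.2.1 : X).1, (s.1 : G)), (s.2.1 : X).2, s.1.2, ?_⟩
        invFun := fun p => ⟨⟨p.1.2, p.2.2.1⟩, ⟨⟨p.1.1, p.2.1⟩, ?_⟩⟩
        left_inv := fun s => rfl
        right_inv := fun p => rfl }
    · have h := congrArg Subtype.val (MulAction.mem_fixedBy.1 s.2.2)
      rw [hsmul] at h
      exact (eq_mul_inv_iff_mul_eq.1 h.symm)
    · refine MulAction.mem_fixedBy.2 (Subtype.ext ?_)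
      rw [hsmul]
      exact mul_inv_eq_iff_eq_mul.2 p.2.2.2.eq.symm
  · rw [← Nat.card_coe_set_eq]
    exact Nat.card_range_of_injective fun q q' h => by
      rw [← Quotient.out_eq q, ← Quotient.out_eq q', Subtype.ext (h : (q.out : X).1 = (q'.out : X).1)]
  · rintro _ ⟨q, rfl⟩; exact (q.out : X).2
  · intro y hy
    obtain ⟨n, hn⟩ := MulAction.mem_orbit_iff.1 (Quotient.mk_out (s := MulAction.orbitRel N X) ⟨y, hy⟩)
    exact ⟨n, n.2, ⟨Quotient.mk _ ⟨y, hy⟩, (congrArg Subtype.val hn).symm.trans (hsmul n _)⟩⟩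
  · rintro _ ⟨q, rfl⟩ _ ⟨q', rfl⟩ n hn h
    have h' : (⟨n, hn⟩ : N) • (q.out : X) = (q'.out : X) := Subtype.ext h
    have : q = q' := by
      rw [← Quotient.out_eq q, ← Quotient.out_eq q']
      exact (Quotient.sound (MulAction.mem_orbit_iff.2 ⟨⟨n, hn⟩, h'⟩)).symm
    rw [this]

theorem piClass_iff {π : Set ℕ} {H : Type*} [Group H] (C : ConjClasses H) :
    (∀ q : ℕ, q.Prime → (∃ g : H, ConjClasses.mk g = C ∧ q ∣ orderOf g) → q ∈ π) ↔
      ∀ g : H, ConjClasses.mk g = C → IsPiElt π g :=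
  ⟨fun h g hg q hq hd => h q hq ⟨g, hg, hd⟩, fun h q hq ⟨g, hg, hd⟩ => h g hg q hq hd⟩

/-- The commuting pairs of a `π`-element and any element of `N` count the `π`-classes of `N`. -/
theorem card_pairs_le [Finite G] (π : Set ℕ) (N : Subgroup G) [N.Normal] (u : G ⧸ N) :
    Nat.card {p : G × G // (QuotientGroup.mk p.1 : G ⧸ N) = u ∧ p.2 ∈ N ∧ IsPiElt π p.2 ∧ Commute p.1 p.2} ≤
      Nat.card {C : ConjClasses N // ∀ g : N, ConjClasses.mk g = C → IsPiElt π g} * Nat.card N := by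
  classical
  obtain ⟨k, hk, R, hRc, hRP, hRex, hRun⟩ := card_orbits_conj N (fun y => y ∈ N ∧ IsPiElt π y)
    (fun n hn y hy => ⟨mul_mem (mul_mem hn hy.1) (inv_mem hn), (isPiElt_conj n y).2 hy.2⟩)
  have hkle : k ≤ Nat.card {C : ConjClasses N // ∀ g : N, ConjClasses.mk g = C → IsPiElt π g} := by
    rw [← hRc, ← Nat.card_coe_set_eq]
    refine Nat.card_le_card_of_injective (fun r => ⟨ConjClasses.mk ⟨r.1, (hRP r r.2).1⟩, fun g hg => ?_⟩)
      fun r r' h => ?_
    · obtain ⟨c, hc⟩ := isConj_iff.1 (ConjClasses.mk_eq_mk_iff_isConj.1 hg.symm)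
      rw [← hc, isPiElt_conj, ← isPiElt_coe]
      exact (hRP r r.2).2
    · obtain ⟨c, hc⟩ := isConj_iff.1 (ConjClasses.mk_eq_mk_iff_isConj.1 (congrArg Subtype.val h))
      exact Subtype.ext (hRun r r.2 r' r'.2 c c.2 (congrArg Subtype.val hc))
  refine le_trans ?_ (Nat.mul_le_mul_right _ hkle)
  rw [hk]
  let z0 : G → G := fun w => Classical.epsilon fun z => (QuotientGroup.mk z : G ⧸ N) = u ∧ Commute z w
  have hz0 : ∀ z w : G, (QuotientGroup.mk z : G ⧸ N) = u → Commute z w →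
      (QuotientGroup.mk (z0 w) : G ⧸ N) = u ∧ Commute (z0 w) w := fun z w h1 h2 =>
    Classical.epsilon_spec (p := fun z => (QuotientGroup.mk z : G ⧸ N) = u ∧ Commute z w) ⟨z, h1, h2⟩
  refine Nat.card_le_card_of_injective (fun p => ⟨(p.1.2, (z0 p.1.2)⁻¹ * p.1.1), ?_⟩) fun p p' h => ?_
  · obtain ⟨⟨z, w⟩, h1, h2, h3, h4⟩ := p
    obtain ⟨h5, h6⟩ := hz0 z w h1 h4
    refine ⟨⟨h2, h3⟩, ?_, (h6.symm.inv_right).mul_right h4.symm⟩
    rw [← QuotientGroup.eq, h5, h1]
  · obtain ⟨⟨z, w⟩, hp⟩ := p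
    obtain ⟨⟨z', w'⟩, hp'⟩ := p'
    have h' := congrArg Subtype.val h
    simp only [Prod.mk.injEq] at h'
    obtain ⟨rfl, h'⟩ := h'
    obtain rfl := mul_left_cancel h'
    rfl

/-- Let G be a finite group, N a normal subgroup and π a set of primes. Then the number of conjugacy classes of π-elements of G (elements whose order is divisible only by primes in π) is at most the number of conjugacy classes of π-elements of N (under conjugation by N) times the number of conjugacy classes of π-elements of G/N. -/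
theorem result {G : Type*} [Group G] [Finite G] (N : Subgroup G) [N.Normal] (π : Set ℕ) :
    Nat.card {C : ConjClasses G // ∀ q : ℕ, q.Prime → (∃ g : G, ConjClasses.mk g = C ∧ q ∣ orderOf g) → q ∈ π} ≤ Nat.card {C : ConjClasses N // ∀ q : ℕ, q.Prime → (∃ g : N, ConjClasses.mk g = C ∧ q ∣ orderOf g) → q ∈ π} * Nat.card {C : ConjClasses (G ⧸ N) // ∀ q : ℕ, q.Prime → (∃ g : (G ⧸ N), ConjClasses.mk g = C ∧ q ∣ orderOf g) → q ∈ π} := by
  classical
  simp only [piClass_iff]
  let TN := {C : ConjClasses N // ∀ g : N, ConjClasses.mk g = C → IsPiElt π g}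
  let TQ := {C : ConjClasses (G ⧸ N) // ∀ g : G ⧸ N, ConjClasses.mk g = C → IsPiElt π g}
  let TG := {C : ConjClasses G // ∀ g : G, ConjClasses.mk g = C → IsPiElt π g}
  let F : TG → TQ := fun C => ⟨ConjClasses.map (QuotientGroup.mk' N) C.1, fun g hg q hq hd => by
    obtain ⟨y, hy⟩ := ConjClasses.exists_rep C.1
    rw [← hy] at hg
    obtain ⟨c, hc⟩ := isConj_iff.1 (ConjClasses.mk_eq_mk_iff_isConj.1 hg.symm)
    refine C.2 y hy q hq (hd.trans ?_)
    rw [← hc]
    exact (orderOf_injective (MulAut.conj c).toMonoidHom (MulAut.conj c).injective _).dvd.trans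
      (orderOf_map_dvd (QuotientGroup.mk' N) y)⟩
  let _ : Fintype TQ := Fintype.ofFinite _
  show Nat.card TG ≤ Nat.card TN * Nat.card TQ
  rw [← Nat.card_congr (Equiv.sigmaFiberEquiv F), Nat.card_sigma, mul_comm, Nat.card_eq_fintype_card (α := TQ),
    ← smul_eq_mul, ← Finset.card_univ]
  refine Finset.sum_le_card_nsmul _ _ _ fun D _ => ?_
  obtain ⟨u, hu⟩ := ConjClasses.exists_rep D.1
  obtain ⟨k, hk, R, hRc, hRP, hRex, -⟩ := card_orbits_conj N
    (fun y => (QuotientGroup.mk y : G ⧸ N) = u ∧ IsPiElt π y)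
    (fun n hn y hy => ⟨by simp [QuotientGroup.mk_mul, (QuotientGroup.eq_one_iff n).2 hn, hy.1],
      (isPiElt_conj n y).2 hy.2⟩)
  have hkle : k ≤ Nat.card TN := by
    refine Nat.le_of_mul_le_mul_right ?_ (Nat.card_pos (α := N))
    rw [hk]
    refine le_trans (le_of_eq ?_) ((card_pairs_eq π N u (D.2 u hu)).le.trans (card_pairs_le π N u))
    exact Nat.card_congr (Equiv.subtypeEquivRight fun p => and_assoc)
  refine le_trans ?_ hkle
  rw [← hRc, ← Nat.card_coe_set_eq]
  refine Nat.card_le_card_of_surjective (fun r : R => ⟨⟨ConjClasses.mk r.1, fun g hg => ?_⟩, ?_⟩) ?_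
  · obtain ⟨c, hc⟩ := isConj_iff.1 (ConjClasses.mk_eq_mk_iff_isConj.1 hg.symm)
    rw [← hc, isPiElt_conj]
    exact (hRP r r.2).2
  · refine Subtype.ext ?_
    rw [← hu]
    exact congrArg ConjClasses.mk (hRP r r.2).1
  · rintro ⟨⟨C, hC⟩, hFC⟩
    obtain ⟨y, rfl⟩ := ConjClasses.exists_rep C
    have h1 : ConjClasses.mk (QuotientGroup.mk y : G ⧸ N) = ConjClasses.mk u :=
      (congrArg Subtype.val hFC).trans hu.symm
    obtain ⟨cb, hcb⟩ := isConj_iff.1 (ConjClasses.mk_eq_mk_iff_isConj.1 h1)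
    obtain ⟨c, rfl⟩ := QuotientGroup.mk'_surjective N cb
    obtain ⟨n, -, hnR⟩ := hRex (c * y * c⁻¹)
      ⟨by rw [QuotientGroup.mk_mul, QuotientGroup.mk_mul, QuotientGroup.mk_inv]; exact hcb,
        (isPiElt_conj c y).2 (hC y rfl)⟩
    refine ⟨⟨_, hnR⟩, Subtype.ext (Subtype.ext ?_)⟩
    exact ConjClasses.mk_eq_mk_iff_isConj.2 (isConj_iff.2 ⟨n * c, by group⟩).symm

end Cfsg.Agent.S4152
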