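import Cfsg.Statements.S4153
import Cfsg.Agent.Lib.ElementOrders.PiPart

set_option autoImplicit false
open Cfsg

namespace Cfsg.Agent.S4153

variable {G : Type*} [Group G] [Finite G]

theorem pow_splitting {p : ℕ} [Fact p.Prime] (g : G) :
    ∃ e : ℕ, (∃ k : ℕ, orderOf (g ^ e) = p ^ k) ∧
      ∀ (H : Type _) [Group H] (f : G →* H), (∃ k : ℕ, orderOf (f g) = p ^ k) → f (g ^ e) = f g := by
  have hp : p.Prime := Fact.out
  set n := Nat.card G with hn
  have hn0 : n ≠ 0 := Nat.card_pos.ne'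
  have hcop : (ordProj[p] n).Coprime (ordCompl[p] n) := (Nat.coprime_ordCompl hp hn0).pow_left _
  have hg : g ^ (ordProj[p] n * ordCompl[p] n) = 1 := by
    rw [Nat.ordProj_mul_ordCompl_eq_self]; exact pow_card_eq_one'
  refine ⟨CfsgLib.ElementOrders.splitExp hcop, ?_, fun H _ f ⟨k, hk⟩ => ?_⟩
  · obtain ⟨k, -, hk⟩ := (Nat.dvd_prime_pow hp).1
      (orderOf_dvd_of_pow_eq_one (CfsgLib.ElementOrders.pow_splitExp_pow hcop hg))
    exact ⟨k, hk⟩
  · rw [map_pow]
    apply CfsgLib.ElementOrders.pow_splitExp_of_left hcop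
    rw [← orderOf_dvd_iff_pow_eq_one, hk]
    refine pow_dvd_pow p ((hp.pow_dvd_iff_le_factorization hn0).1 ?_)
    exact hk ▸ (orderOf_map_dvd f g).trans (orderOf_dvd_natCard g)

theorem card_inf_mul_card {p : ℕ} [Fact p.Prime] (N : Subgroup G) [N.Normal] (Q : Sylow p G)
    (Pbar : Sylow p (G ⧸ N)) :
    Nat.card ↥(N ⊓ (Q : Subgroup G)) * Nat.card (Pbar : Subgroup (G ⧸ N)) =
      Nat.card (Q : Subgroup G) := by
  let Q' := Sylow.mapSurjective (QuotientGroup.mk'_surjective N) Q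
  rw [Nat.card_congr (Pbar.equiv Q').toEquiv]
  show Nat.card ↥(N ⊓ (Q : Subgroup G)) * Nat.card ↥((Q : Subgroup G).map (QuotientGroup.mk' N)) = _
  let f : (Q : Subgroup G) →* G ⧸ N := (QuotientGroup.mk' N).comp (Q : Subgroup G).subtype
  have h1 : f.range = (Q : Subgroup G).map (QuotientGroup.mk' N) := by
    rw [MonoidHom.range_comp, Subgroup.range_subtype]
  have h2 : f.ker = (N ⊓ (Q : Subgroup G)).subgroupOf (Q : Subgroup G) := by
    rw [Subgroup.inf_subgroupOf_right, ← MonoidHom.comap_ker, QuotientGroup.ker_mk']; rfl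
  rw [← h1, ← Subgroup.index_ker, ← f.ker.card_mul_index]
  congr 1
  rw [h2, Nat.card_congr (Subgroup.subgroupOfEquivOfLe (inf_le_right : N ⊓ (Q : Subgroup G) ≤ Q)).toEquiv]

theorem card_inf_le_fiber {p : ℕ} [Fact p.Prime] (N : Subgroup G) [N.Normal] (P : Sylow p G)
    (u : {u : G ⧸ N // ∃ k : ℕ, orderOf u = p ^ k}) :
    Nat.card ↥(N ⊓ (P : Subgroup G)) ≤
      Nat.card {g : {g : G // ∃ k : ℕ, orderOf g = p ^ k} // (QuotientGroup.mk (g : G) : G ⧸ N) = u.1} ∧
    (N ≤ Subgroup.center G →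
      Nat.card {g : {g : G // ∃ k : ℕ, orderOf g = p ^ k} // (QuotientGroup.mk (g : G) : G ⧸ N) = u.1} ≤
        Nat.card ↥(N ⊓ (P : Subgroup G))) := by
  obtain ⟨g, hg⟩ := QuotientGroup.mk'_surjective N u.1
  obtain ⟨e, ⟨k, hk⟩, he⟩ := pow_splitting (p := p) g
  set x := g ^ e with hxdef
  have hx : (QuotientGroup.mk x : G ⧸ N) = u.1 := (he _ (QuotientGroup.mk' N) (hg ▸ u.2)).trans hg
  obtain ⟨Q, hQ⟩ := (IsPGroup.of_card (n := k) (by rw [Nat.card_zpowers, hk]) :
    IsPGroup p (Subgroup.zpowers x)).exists_le_sylow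
  have Pbar : Sylow p (G ⧸ N) := default
  have hNQ : Nat.card ↥(N ⊓ (P : Subgroup G)) = Nat.card ↥(N ⊓ (Q : Subgroup G)) := by
    have h1 := card_inf_mul_card N P Pbar
    rw [Nat.card_congr (P.equiv Q).toEquiv, ← card_inf_mul_card N Q Pbar] at h1
    exact Nat.eq_of_mul_eq_mul_right Nat.card_pos h1
  rw [hNQ]
  let f : ↥(N ⊓ (Q : Subgroup G)) →
      {g : {g : G // ∃ k : ℕ, orderOf g = p ^ k} // (QuotientGroup.mk (g : G) : G ⧸ N) = u.1} :=
    fun n => ⟨⟨x * (n : G), by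
      obtain ⟨j, hj⟩ := IsPGroup.iff_orderOf.1 Q.isPGroup'
        ⟨x * (n : G), mul_mem (hQ (Subgroup.mem_zpowers x)) n.2.2⟩
      exact ⟨j, by rwa [Subgroup.orderOf_mk] at hj⟩⟩, by
      rw [← hx, QuotientGroup.eq]; simpa [mul_assoc] using N.inv_mem n.2.1⟩
  refine ⟨Nat.card_le_card_of_injective f fun a b h => ?_, fun hcen => ?_⟩
  · have h' : x * (a : G) = x * (b : G) := congrArg (fun z : {g : {g : G // ∃ k : ℕ, orderOf g = p ^ k} //
      (QuotientGroup.mk (g : G) : G ⧸ N) = u.1} => (z.1 : G)) h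
    exact Subtype.ext (mul_left_cancel h')
  · refine Nat.card_le_card_of_surjective f ?_
    rintro ⟨⟨y, j, hj⟩, hy⟩
    have hn : x⁻¹ * y ∈ N := by rw [← QuotientGroup.eq, hx]; exact hy.symm
    have hc : Commute x y := by
      have h := Subgroup.mem_center_iff.1 (hcen hn) x
      show x * y = y * x
      calc x * y = x * (x * (x⁻¹ * y)) := by group
        _ = x * ((x⁻¹ * y) * x) := by rw [h]
        _ = y * x := by group
    have hnp : x⁻¹ * y ∈ (Q : Subgroup G) := by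
      have hd : orderOf (x⁻¹ * y) ∣ p ^ (max k j) := by
        refine (Commute.orderOf_mul_dvd_lcm hc.inv_left).trans (Nat.lcm_dvd ?_ ?_)
        · rw [orderOf_inv, hk]; exact pow_dvd_pow p (le_max_left _ _)
        · rw [hj]; exact pow_dvd_pow p (le_max_right _ _)
      obtain ⟨i, -, hi⟩ := (Nat.dvd_prime_pow Fact.out).1 hd
      have hpn : IsPGroup p (Subgroup.zpowers (x⁻¹ * y)) :=
        IsPGroup.of_card (n := i) (by rw [Nat.card_zpowers, hi])
      obtain ⟨R, hR⟩ := hpn.exists_le_sylow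
      obtain ⟨c, hc'⟩ := MulAction.exists_smul_eq G Q R
      have := hR (Subgroup.mem_zpowers (x⁻¹ * y))
      rw [← hc', Sylow.coe_subgroup_smul, Subgroup.mem_pointwise_smul_iff_inv_smul_mem] at this
      have hcc := Subgroup.mem_center_iff.1 (hcen hn) c⁻¹
      have e : c⁻¹ * (x⁻¹ * y) * c = x⁻¹ * y := by rw [hcc]; group
      simp only [← map_inv, MulAut.smul_def, MulAut.conj_apply, inv_inv] at this
      rwa [e] at this
    exact ⟨⟨x⁻¹ * y, hn, hnp⟩, Subtype.ext (Subtype.ext (mul_inv_cancel_left x y))⟩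

/-- Let G be a finite group, p a prime, N a normal subgroup, P a Sylow p-subgroup of G and P̄ a Sylow p-subgroup of G/N. Count the elements of p-power order, the identity included. Then (number of such elements of G/N)/#P̄ ≤ (number of such elements of G)/#P, stated as a cross-multiplied inequality, with equality when N is central. -/
theorem result {G : Type*} [Group G] [Finite G] (p : ℕ) [Fact p.Prime] (N : Subgroup G) [N.Normal]
    (P : Sylow p G) (Pbar : Sylow p (G ⧸ N)) :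
    Nat.card {g : (G ⧸ N) // ∃ k : ℕ, orderOf g = p ^ k} * Nat.card (P : Subgroup G) ≤ Nat.card {g : G // ∃ k : ℕ, orderOf g = p ^ k} * Nat.card (Pbar : Subgroup (G ⧸ N)) ∧
    (N ≤ Subgroup.center G → Nat.card {g : (G ⧸ N) // ∃ k : ℕ, orderOf g = p ^ k} * Nat.card (P : Subgroup G) = Nat.card {g : G // ∃ k : ℕ, orderOf g = p ^ k} * Nat.card (Pbar : Subgroup (G ⧸ N))) := by
  classical
  let _ : Fintype {u : G ⧸ N // ∃ k : ℕ, orderOf u = p ^ k} := Fintype.ofFinite _
  let π : {g : G // ∃ k : ℕ, orderOf g = p ^ k} → {u : G ⧸ N // ∃ k : ℕ, orderOf u = p ^ k} :=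
    fun g => ⟨QuotientGroup.mk g.1, by
      obtain ⟨k, hk⟩ := g.2
      obtain ⟨i, -, hi⟩ := (Nat.dvd_prime_pow Fact.out).1
        (hk ▸ orderOf_map_dvd (QuotientGroup.mk' N) g.1)
      exact ⟨i, hi⟩⟩
  have htot : Nat.card {g : G // ∃ k : ℕ, orderOf g = p ^ k} =
      ∑ u : {u : G ⧸ N // ∃ k : ℕ, orderOf u = p ^ k},
        Nat.card {g : {g : G // ∃ k : ℕ, orderOf g = p ^ k} // (QuotientGroup.mk (g : G) : G ⧸ N) = u.1} := by
    rw [← Nat.card_congr (Equiv.sigmaFiberEquiv π), Nat.card_sigma]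
    exact Finset.sum_congr rfl fun u _ =>
      Nat.card_congr (Equiv.subtypeEquivRight fun g => Subtype.ext_iff)
  have hu := card_inf_le_fiber N P
  have hlo : Nat.card {u : G ⧸ N // ∃ k : ℕ, orderOf u = p ^ k} * Nat.card ↥(N ⊓ (P : Subgroup G)) ≤
      Nat.card {g : G // ∃ k : ℕ, orderOf g = p ^ k} := by
    rw [htot, Nat.card_eq_fintype_card, ← smul_eq_mul]
    exact Finset.card_nsmul_le_sum _ _ _ fun u _ => (hu u).1
  refine ⟨?_, fun hN => ?_⟩
  · rw [← card_inf_mul_card N P Pbar, ← mul_assoc]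
    exact Nat.mul_le_mul_right _ hlo
  · rw [← card_inf_mul_card N P Pbar, ← mul_assoc, htot,
      Finset.sum_congr rfl (fun u _ => le_antisymm ((hu u).2 hN) (hu u).1), Finset.sum_const,
      smul_eq_mul, Finset.card_univ, Nat.card_eq_fintype_card]

end Cfsg.Agent.S4153
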