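import Cfsg.Statements.S4154

set_option autoImplicit false
open Cfsg

namespace Cfsg.Agent.S4154

theorem card_range_le {G : Type*} [Group G] [Finite G] (β : G →* G) (H : Subgroup G)
    (hH : ∀ g ∈ H, β g = g) :
    Nat.card (Set.range fun g : G => g⁻¹ * β g) ≤ H.index := by
  let f : G ⧸ H → (Set.range fun g : G => g⁻¹ * β g) :=
    fun q => ⟨(q.out⁻¹)⁻¹ * β q.out⁻¹, q.out⁻¹, rfl⟩
  refine (Nat.card_le_card_of_surjective f ?_).trans (Subgroup.index_eq_card H).ge
  rintro ⟨y, g, rfl⟩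
  obtain ⟨h, hh⟩ := QuotientGroup.mk_out_eq_mul H g⁻¹
  refine ⟨QuotientGroup.mk g⁻¹, Subtype.ext ?_⟩
  show (Quotient.out (QuotientGroup.mk g⁻¹ : G ⧸ H))⁻¹⁻¹ *
    β (Quotient.out (QuotientGroup.mk g⁻¹ : G ⧸ H))⁻¹ = g⁻¹ * β g
  have e : β (g⁻¹ * (h : G))⁻¹ = (h : G)⁻¹ * β g := by
    rw [mul_inv_rev, inv_inv, map_mul, hH _ (H.inv_mem h.2)]
  rw [hh, e]; group

/-- Let G be a finite group and α an automorphism of G such that every element of G is the product of an element fixed by α and an element of the form g⁻¹α(g). If N is a normal α-invariant subgroup, then the automorphism ᾱ induced on G/N has the same property, and every coset fixed by ᾱ contains an element fixed by α (so the fixed points of ᾱ are the images of the fixed points of α). -/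
theorem result {G : Type*} [Group G] [Finite G] (α : MulAut G)
    (hccp : ∀ x : G, ∃ c g : G, α c = c ∧ x = c * (g⁻¹ * α g))
    (N : Subgroup G) [N.Normal] (hN : ∀ n ∈ N, α n ∈ N) :
    (∀ x : G, ∃ c g : G, c⁻¹ * α c ∈ N ∧ x⁻¹ * (c * (g⁻¹ * α g)) ∈ N) ∧
    (∀ x : G, x⁻¹ * α x ∈ N → ∃ c : G, α c = c ∧ c⁻¹ * x ∈ N) := by
  let αN : G ⧸ N →* G ⧸ N := QuotientGroup.map N N α.toMonoidHom (fun n hn => hN n hn)
  have hαN : ∀ g : G, αN (QuotientGroup.mk g) = QuotientGroup.mk (α g) := fun g => rfl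
  refine ⟨fun x => ?_, fun x hx => ?_⟩
  · obtain ⟨c, g, hc, hx⟩ := hccp x
    exact ⟨c, g, by rw [hc, inv_mul_cancel]; exact N.one_mem, by rw [← hx, inv_mul_cancel]; exact N.one_mem⟩
  · let F : Subgroup (G ⧸ N) := MonoidHom.eqLocus αN (MonoidHom.id _)
    let C : Subgroup (G ⧸ N) :=
      (MonoidHom.eqLocus α.toMonoidHom (MonoidHom.id _)).map (QuotientGroup.mk' N)
    have hCF : C ≤ F := by
      rintro _ ⟨c, hc, rfl⟩
      show αN (QuotientGroup.mk c) = QuotientGroup.mk c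
      rw [hαN]; exact congrArg _ hc
    have hle : Nat.card (G ⧸ N) ≤ Nat.card C * F.index := by
      refine le_trans ?_ (Nat.mul_le_mul_left _ (card_range_le αN F (fun g hg => hg)))
      rw [← Nat.card_prod]
      refine Nat.card_le_card_of_surjective (fun q => (q.1 : G ⧸ N) * (q.2 : G ⧸ N)) ?_
      intro u
      obtain ⟨y, rfl⟩ := QuotientGroup.mk'_surjective N u
      obtain ⟨c, g, hc, rfl⟩ := hccp y
      exact ⟨(⟨_, c, hc, rfl⟩, ⟨_, QuotientGroup.mk g, rfl⟩), rfl⟩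
    rw [← F.card_mul_index] at hle
    have hEq : C = F := Subgroup.eq_of_le_of_card_ge hCF
      (Nat.le_of_mul_le_mul_right hle (Nat.pos_of_ne_zero Subgroup.index_ne_zero_of_finite))
    have hxF : (QuotientGroup.mk x : G ⧸ N) ∈ F := by
      show αN (QuotientGroup.mk x) = QuotientGroup.mk x
      rw [hαN]; exact (QuotientGroup.eq.2 hx).symm
    obtain ⟨c, hc, hcx⟩ := hEq.symm ▸ hxF
    exact ⟨c, hc, QuotientGroup.eq.1 hcx⟩

end Cfsg.Agent.S4154
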