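import Cfsg.Statements.S4155
import Cfsg.Agent.Lib.NormalPComplement.Basic
import Cfsg.Agent.Lib.Cores.FPF
import Cfsg.Agent.Lib.Cores.Fitting
import Cfsg.Agent.Lib.TwoFusion.BenderMax

set_option autoImplicit false
open Cfsg

namespace Cfsg.Agent.S4155

variable {G : Type*} [Group G] [Finite G]

theorem eq_one_of_commute {N : Subgroup G} (heq : ∀ x : G, x ∉ N → ∀ n ∈ N, orderOf (x * n) = orderOf x)
    {x n : G} (hx : x ∉ N) (hn : n ∈ N) (hc : Commute x n) (hcop : (orderOf x).Coprime (orderOf n)) : n = 1 := by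
  have h := heq x hx n hn
  rw [hc.orderOf_mul_eq_mul_orderOf_of_coprime hcop] at h
  exact orderOf_eq_one_iff.1 ((mul_eq_left₀ (orderOf_pos x).ne').1 h)

theorem exists_other_prime {m : ℕ} (h1 : 1 < m) (hm : ¬ IsPrimePow m) (q : ℕ) :
    ∃ r : ℕ, r.Prime ∧ r ≠ q ∧ r ∣ m := by
  by_contra h
  push Not at h
  have hall : ∀ {d : ℕ}, d.Prime → d ∣ m → d = q := fun {d} hd hdm => by_contra fun hne => h d hd hne hdm
  obtain ⟨d, hd, hdm⟩ := Nat.exists_prime_and_dvd (n := m) (by omega)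
  have e := Nat.eq_prime_pow_of_unique_prime_dvd (by omega) hall
  refine hm ⟨q, m.primeFactorsList.length, Nat.prime_iff.1 (hall hd hdm ▸ hd), ?_, e.symm⟩
  rcases Nat.eq_zero_or_pos m.primeFactorsList.length with h0 | h0
  · rw [h0, pow_zero] at e; omega
  · exact h0

/-- Let G be a finite group and N a proper non-trivial normal nilpotent subgroup whose order is not a prime power, such that for every x outside N all elements of the coset xN have the same order as x. Then N is the Fitting subgroup of G, and for every prime q every Sylow q-subgroup of G/N is cyclic or generalized quaternion. -/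
theorem result {G : Type*} [Group G] [Finite G] (N : Subgroup G) [N.Normal] (hN1 : N ≠ ⊥) (hN2 : N ≠ ⊤)
    (heq : ∀ x : G, x ∉ N → ∀ n ∈ N, orderOf (x * n) = orderOf x)
    (hnil : Group.IsNilpotent N) (hnpp : ¬ IsPrimePow (Nat.card N)) :
    N = Cfsg.fittingSubgroup G ∧
    ∀ (q : ℕ) [Fact q.Prime] (Q : Sylow q (G ⧸ N)), IsCyclic (Q : Subgroup (G ⧸ N)) ∨ ∃ n : ℕ, Nonempty ((Q : Subgroup (G ⧸ N)) ≃* QuaternionGroup (2 ^ n)) := by
  have hN : 1 < Nat.card N := Subgroup.one_lt_card_iff_ne_bot N |>.2 hN1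
  have hNF : N ≤ Cfsg.fittingSubgroup G := CfsgLib.Cores.le_fittingSubgroup hnil
  refine ⟨le_antisymm hNF fun x hx => ?_, fun q _ Q => ?_⟩
  · by_contra hxN
    obtain ⟨q, hq, hqd⟩ := Nat.exists_prime_and_dvd (n := orderOf (x : G ⧸ N))
      (fun h => hxN ((QuotientGroup.eq_one_iff x).1 (orderOf_eq_one_iff.1 h)))
    have : Fact q.Prime := ⟨hq⟩
    obtain ⟨a, b, hab, ⟨k, hk⟩, hb⟩ := CfsgLib.NormalPComplement.exists_pParts (p := q) (isOfFinOrder_of_finite x)
    have hz : x ^ a ∉ N := fun hzN => hq.coprime_iff_not_dvd.1 hb.symm (by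
      refine hqd.trans (dvd_trans ?_ (orderOf_map_dvd (QuotientGroup.mk' N) (x ^ b)))
      conv_lhs => rw [← hab, QuotientGroup.mk_mul, (QuotientGroup.eq_one_iff _).2 hzN, one_mul]
      rfl)
    obtain ⟨r, hr, hrq, hrd⟩ := exists_other_prime hN hnpp q
    have : Fact r.Prime := ⟨hr⟩
    obtain ⟨n, hn⟩ := exists_prime_orderOf_dvd_card' r hrd
    have hn' : orderOf (n : G) = r := by rw [Subgroup.orderOf_coe, hn]
    have hcop : (orderOf (x ^ a)).Coprime (orderOf (n : G)) := by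
      rw [hn']; exact (((Nat.coprime_primes hq hr).2 hrq.symm).pow_left k).coprime_dvd_left hk
    have hF := CfsgLib.Cores.isNilpotent_fittingSubgroup (G := G)
    have hc : Commute (x ^ a) (n : G) := congrArg Subtype.val
      (CfsgLib.BGAppendix.commute_of_coprime_orderOf (Cfsg.fittingSubgroup G) ⟨_, pow_mem hx a⟩
        ⟨_, hNF n.2⟩ (by rwa [Subgroup.orderOf_mk, Subgroup.orderOf_mk])).eq
    have := eq_one_of_commute heq hz n.2 hc hcop
    rw [this, orderOf_one] at hn'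
    exact hr.one_lt.ne hn'
  · obtain ⟨P, hP⟩ := Sylow.mapSurjective_surjective (QuotientGroup.mk'_surjective N) q Q
    obtain ⟨r, hr, hrq, hrd⟩ := exists_other_prime hN hnpp q
    have : Fact r.Prime := ⟨hr⟩
    obtain ⟨n, hn⟩ := exists_prime_orderOf_dvd_card' r hrd
    set M := Cfsg.pCore q G ⊓ N with hM
    have hMn : M.Normal := by rw [hM]; infer_instance
    set V0 := Cfsg.pCore r G ⊓ N with hV0
    have hV0n : V0.Normal := by rw [hV0]; infer_instance
    let π := QuotientGroup.mk' M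
    set R := (P : Subgroup G).map π with hR
    set V := V0.map π with hV
    have hqr : ∀ z : G, z ∈ Cfsg.pCore q G → z ∈ Cfsg.pCore r G → z = 1 :=
      fun z h1 h2 => Subgroup.disjoint_def.1 (CfsgLib.Cores.disjoint_pCore_of_ne hrq.symm) h1 h2
    have hPM : ∀ z ∈ (P : Subgroup G), z ∈ N → z ∈ M := fun z hz hzN => by
      refine ⟨CfsgLib.TwoFusion.mem_pCore_of_mem_fitting (hNF hzN) ?_, hzN⟩
      obtain ⟨k, hk⟩ := IsPGroup.iff_orderOf.1 P.2 ⟨z, hz⟩
      rw [Subgroup.orderOf_mk] at hk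
      exact ⟨k, hk.dvd⟩
    have hVne : V ≠ ⊥ := by
      intro hbot
      have hnV : (n : G) ∈ V0 := ⟨CfsgLib.TwoFusion.mem_pCore_of_mem_fitting (hNF n.2)
        ⟨1, by rw [Subgroup.orderOf_coe, hn, pow_one]⟩, n.2⟩
      have h1 : π n ∈ V := Subgroup.mem_map_of_mem _ hnV
      rw [hbot, Subgroup.mem_bot] at h1
      have h2 := hqr _ ((QuotientGroup.eq_one_iff (n : G)).1 h1).1 hnV.1
      rw [← Subgroup.orderOf_coe, h2, orderOf_one] at hn
      exact hr.one_lt.ne hn
    have hVn : V.Normal := hV0n.map π (QuotientGroup.mk'_surjective M)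
    have hfpf : ∀ a ∈ R, a ≠ 1 → V ⊓ Subgroup.centralizer ({a} : Set (G ⧸ M)) = ⊥ := by
      rintro _ ⟨x, hx, rfl⟩ h1
      rw [eq_bot_iff]
      rintro _ ⟨⟨v, hv, rfl⟩, hc⟩
      replace hc : π v * π x = π x * π v := Subgroup.mem_centralizer_singleton_iff.1 hc
      have hxN : x ∉ N := fun h => h1 ((QuotientGroup.eq_one_iff x).2 (hPM x hx h))
      have he : v * x * v⁻¹ * x⁻¹ ∈ M := by
        rw [← QuotientGroup.eq_one_iff]
        show π (v * x * v⁻¹ * x⁻¹) = 1
        simp only [map_mul, map_inv]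
        rw [hc]; group
      have he2 : v * x * v⁻¹ * x⁻¹ ∈ V0 := by
        rw [show v * x * v⁻¹ * x⁻¹ = v * (x * v⁻¹ * x⁻¹) by group]
        exact V0.mul_mem hv (hV0n.conj_mem _ (V0.inv_mem hv) x)
      have he3 : v * x = x * v := mul_inv_eq_iff_eq_mul.1 (mul_inv_eq_one.1 (hqr _ he.1 he2.1))
      have hv1 : v = 1 := by
        refine eq_one_of_commute heq hxN hv.2 he3.symm ?_
        obtain ⟨i, hi⟩ := IsPGroup.iff_orderOf.1 P.2 ⟨x, hx⟩
        obtain ⟨j, hj⟩ := IsPGroup.iff_orderOf.1 (CfsgLib.Cores.isPGroup_pCore r G) ⟨v, hv.1⟩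
        rw [Subgroup.orderOf_mk] at hi hj
        rw [hi, hj]
        exact Nat.coprime_pow_primes i j Fact.out hr hrq.symm
      rw [hv1, map_one]; exact one_mem _
    have hRV : R ≤ Subgroup.normalizer (V : Set (G ⧸ M)) := by
      rw [Subgroup.normalizer_eq_top]; exact le_top
    let f : G ⧸ M →* G ⧸ N := QuotientGroup.map M N (MonoidHom.id G) inf_le_right
    have hQR : Nonempty (R ≃* (Q : Subgroup (G ⧸ N))) := by
      have hmem : ∀ z : R, f z ∈ (Q : Subgroup (G ⧸ N)) := by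
        rintro ⟨_, x, hx, rfl⟩
        rw [← hP]; exact ⟨x, hx, rfl⟩
      refine ⟨MulEquiv.ofBijective ((f.comp R.subtype).codRestrict _ hmem) ⟨?_, ?_⟩⟩
      · rw [injective_iff_map_eq_one]
        rintro ⟨_, x, hx, rfl⟩ h
        exact Subtype.ext ((QuotientGroup.eq_one_iff x).2
          (hPM x hx ((QuotientGroup.eq_one_iff x).1 (congrArg Subtype.val h))))
      · rintro ⟨y, hy⟩
        rw [← hP] at hy
        obtain ⟨x, hx, rfl⟩ := hy
        exact ⟨⟨π x, x, hx, rfl⟩, rfl⟩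
    obtain ⟨e⟩ := hQR
    rcases CfsgLib.Cores.isCyclic_or_quaternion_of_fpf (P.2.map π) hVne hRV hfpf with h | ⟨-, m, -, ⟨g⟩⟩
    · exact Or.inl (e.isCyclic.1 h)
    · exact Or.inr ⟨m, ⟨e.symm.trans g⟩⟩

end Cfsg.Agent.S4155
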