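import Cfsg.Statements.S4156

set_option autoImplicit false
open Cfsg

namespace Cfsg.Agent.S4156

variable {n : ℕ} {F : Type*} [Field F]

/-- Extend a vector to a zero-sum vector. -/
def ext (v : Fin n → F) : Fin (n + 1) → F := Fin.snoc v (-∑ i, v i)

theorem sum_ext (v : Fin n → F) : ∑ j, ext v j = 0 := by
  simp [ext, Fin.sum_univ_castSucc]

theorem ext_restrict (w : Fin (n + 1) → F) (hw : ∑ j, w j = 0) :
    ext (fun i => w i.castSucc) = w := by
  funext j
  rw [Fin.sum_univ_castSucc] at hw
  refine Fin.lastCases ?_ (fun i => ?_) j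
  · simp only [ext, Fin.snoc_last]
    linear_combination -hw
  · simp [ext]

/-- The deleted permutation representation. -/
def deleted (σ : Equiv.Perm (Fin (n + 1))) : (Fin n → F) →ₗ[F] (Fin n → F) where
  toFun v := fun i => ext v (σ.symm i.castSucc)
  map_add' u v := by
    funext i
    simp only [Pi.add_apply]
    refine Fin.lastCases ?_ (fun k => ?_) (σ.symm i.castSucc)
    · simp [ext, Finset.sum_add_distrib]; ring
    · simp [ext]
  map_smul' a v := by
    funext i
    simp only [Pi.smul_apply, RingHom.id_apply]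
    refine Fin.lastCases ?_ (fun k => ?_) (σ.symm i.castSucc)
    · simp [ext, ← Finset.mul_sum]
    · simp [ext]

theorem deleted_one : deleted (n := n) (F := F) 1 = LinearMap.id := by
  refine LinearMap.ext fun v => funext fun i => ?_
  simp [deleted, ext, Equiv.Perm.one_def]

theorem deleted_mul (σ τ : Equiv.Perm (Fin (n + 1))) :
    deleted (F := F) (σ * τ) = (deleted σ).comp (deleted τ) := by
  refine LinearMap.ext fun v => funext fun i => ?_
  show ext v ((σ * τ).symm i.castSucc) = ext (fun k => ext v (τ.symm k.castSucc)) (σ.symm i.castSucc)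
  rw [ext_restrict (fun j => ext v (τ.symm j)) (by rw [Equiv.sum_comp τ.symm (ext v)]; exact sum_ext v)]
  rfl

/-- The deleted permutation representation as matrices. -/
noncomputable def deletedMatrix : Equiv.Perm (Fin (n + 1)) →* Matrix (Fin n) (Fin n) F where
  toFun σ := LinearMap.toMatrix' (deleted σ)
  map_one' := by rw [deleted_one]; exact LinearMap.toMatrix'_id
  map_mul' σ τ := by rw [deleted_mul, LinearMap.toMatrix'_comp]

theorem exists_not_scalar (hn : 5 ≤ n) :
    ∃ σ : alternatingGroup (Fin (n + 1)), ∀ r : F,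
      Matrix.scalar (Fin n) r ≠ deletedMatrix (F := F) (σ : Equiv.Perm (Fin (n + 1))) := by
  let a : Fin (n + 1) := ⟨0, by omega⟩
  let b : Fin (n + 1) := ⟨1, by omega⟩
  let c : Fin (n + 1) := ⟨2, by omega⟩
  refine ⟨⟨Equiv.swap a b * Equiv.swap b c, Equiv.Perm.mem_alternatingGroup.2 ?_⟩, fun r hr => ?_⟩
  · rw [map_mul, Equiv.Perm.sign_swap (by simp [a, b]), Equiv.Perm.sign_swap (by simp [b, c])]
    simp
  · have hab : (⟨0, by omega⟩ : Fin n) ≠ ⟨1, by omega⟩ := by simp
    have h := congrFun (congrFun (congrArg (fun A : Matrix (Fin n) (Fin n) F => A) hr) ⟨1, by omega⟩) ⟨0, by omega⟩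
    rw [Matrix.scalar_apply, Matrix.diagonal_apply_ne _ hab.symm] at h
    simp only [deletedMatrix, MonoidHom.coe_mk, OneHom.coe_mk, LinearMap.toMatrix'_apply] at h
    have hσ : (Equiv.swap a b * Equiv.swap b c).symm (Fin.castSucc ⟨1, by omega⟩) = a := by
      rw [Equiv.symm_apply_eq]
      show _ = Equiv.swap a b (Equiv.swap b c a)
      rw [Equiv.swap_apply_of_ne_of_ne (show a ≠ b by simp [a, b, Fin.ext_iff])
        (show a ≠ c by simp [a, c, Fin.ext_iff]), Equiv.swap_apply_left]
      rfl
    simp only [deleted, LinearMap.coe_mk, AddHom.coe_mk, hσ] at h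
    rw [show a = Fin.castSucc (⟨0, by omega⟩ : Fin n) from rfl] at h
    simp only [ext] at h
    rw [Fin.snoc_castSucc, Pi.single_eq_same] at h
    exact zero_ne_one h

/-- Let n ≥ 5 and F a finite field. Then the projective special linear group PSL_n(F) contains a subgroup isomorphic to the alternating group of degree n + 1. -/
theorem result (n : ℕ) (hn : 5 ≤ n) (F : Type*) [Field F] [Finite F] :
    ∃ f : alternatingGroup (Fin (n + 1)) →* Matrix.ProjectiveSpecialLinearGroup (Fin n) F, Function.Injective f := by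
  have hs : IsSimpleGroup (alternatingGroup (Fin (n + 1))) :=
    alternatingGroup.isSimpleGroup (by simp; omega)
  let ρ : alternatingGroup (Fin (n + 1)) →* Matrix (Fin n) (Fin n) F :=
    (deletedMatrix (n := n) (F := F)).comp (alternatingGroup (Fin (n + 1))).subtype
  let δ : alternatingGroup (Fin (n + 1)) →* Fˣ := (Units.map (Matrix.detMonoidHom)).comp ρ.toHomUnits
  have hnc : ∀ h : ∀ x y : alternatingGroup (Fin (n + 1)), x * y = y * x, False := by
    intro h
    have hc := alternatingGroup.center_eq_bot (α := Fin (n + 1)) (by simp; omega)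
    obtain ⟨x, hx⟩ := exists_ne (1 : alternatingGroup (Fin (n + 1)))
    exact hx (Subgroup.mem_bot.1 (hc ▸ Subgroup.mem_center_iff.2 fun y => h y x))
  have hδ : δ.ker = ⊤ := by
    rcases hs.eq_bot_or_eq_top_of_normal δ.ker inferInstance with h | h
    · refine (hnc fun x y => ((MonoidHom.ker_eq_bot_iff δ).1 h) ?_).elim
      rw [map_mul, map_mul, mul_comm]
    · exact h
  let ψ : alternatingGroup (Fin (n + 1)) →* Matrix.SpecialLinearGroup (Fin n) F :=
    { toFun := fun σ => ⟨ρ σ, by
        have h : δ σ = 1 := MonoidHom.mem_ker.1 (hδ ▸ Subgroup.mem_top σ)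
        simpa [δ] using congrArg Units.val h⟩
      map_one' := Subtype.ext ρ.map_one
      map_mul' := fun x y => Subtype.ext (ρ.map_mul x y) }
  refine ⟨(QuotientGroup.mk' (Subgroup.center (Matrix.SpecialLinearGroup (Fin n) F))).comp ψ, ?_⟩
  rw [← MonoidHom.ker_eq_bot_iff]
  refine (hs.eq_bot_or_eq_top_of_normal _ inferInstance).resolve_right fun h => ?_
  obtain ⟨σ, hσ⟩ := exists_not_scalar (F := F) hn
  have h1 : ψ σ ∈ Subgroup.center _ :=
    (QuotientGroup.eq_one_iff _).1 (MonoidHom.mem_ker.1 (h ▸ Subgroup.mem_top σ))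
  obtain ⟨r, -, hr⟩ := Matrix.SpecialLinearGroup.mem_center_iff.1 h1
  exact hσ r hr

end Cfsg.Agent.S4156
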