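import Cfsg.Statements.S4161
import Cfsg.Agent.Lib.ClassGraph.Basic
import Cfsg.Agent.Lib.HallClasses.PiClasses
import Cfsg.Agent.Lib.CoprimeAction.Basic
import Cfsg.Agent.Lib.Transfer.Hall
import Cfsg.Agent.Lib.Hall.Solvability

set_option autoImplicit false
open Cfsg

namespace Cfsg.Agent.S4161

open scoped commutatorElement

variable {G : Type*} [Group G] [Finite G]

/-- The class size of `g`. -/
noncomputable def cs (g : G) : ℕ := (Subgroup.centralizer ({g} : Set G)).index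

theorem centralizer_mul_le {x y : G} (hxy : Commute x y) (hco : (orderOf x).Coprime (orderOf y)) :
    Subgroup.centralizer ({x * y} : Set G) ≤
      Subgroup.centralizer ({x} : Set G) ⊓ Subgroup.centralizer ({y} : Set G) := by
  intro z hz
  rw [Subgroup.mem_centralizer_singleton_iff] at hz
  have hzc : Commute z (x * y) := hz
  obtain ⟨a, ha1, ha2⟩ := Nat.chineseRemainder hco 1 0
  have e : (x * y) ^ a = x := by
    rw [hxy.mul_pow, (pow_eq_pow_iff_modEq.mpr ha1 : x ^ a = x ^ 1), pow_one,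
      (pow_eq_pow_iff_modEq.mpr ha2 : y ^ a = y ^ 0), pow_zero, mul_one]
  have hzx : Commute z x := e ▸ hzc.pow_right a
  refine ⟨Subgroup.mem_centralizer_singleton_iff.mpr hzx, Subgroup.mem_centralizer_singleton_iff.mpr ?_⟩
  have := (hzx.inv_right).mul_right hzc
  rwa [inv_mul_cancel_left] at this

theorem relIndex_dvd_index_of_normal (A N : Subgroup G) [N.Normal] : A.relIndex N ∣ A.index := by
  have e1 := Subgroup.relIndex_mul_relIndex (A ⊓ N) A (A ⊔ N) inf_le_left le_sup_left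
  have e2 := Subgroup.relIndex_mul_relIndex (A ⊓ N) N (A ⊔ N) inf_le_right le_sup_right
  rw [Subgroup.relIndex_sup_right, Subgroup.inf_relIndex_right] at e2
  rw [Subgroup.inf_relIndex_left] at e1
  rw [mul_comm (A.relIndex N)] at e2
  have h0 : N.relIndex A ≠ 0 := fun h => absurd (Subgroup.relIndex_dvd_card (H := N) (K := A)) (by
    rw [h, zero_dvd_iff]; exact Nat.card_pos.ne')
  have h4 : A.relIndex (A ⊔ N) = A.relIndex N :=
    Nat.eq_of_mul_eq_mul_left (Nat.pos_of_ne_zero h0) (e1.trans e2.symm)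
  exact h4 ▸ Subgroup.relIndex_dvd_index_of_le le_sup_left

/-- A central Sylow subgroup kills `p` in every class size. -/
theorem not_dvd_cs_of_central {p : ℕ} [Fact p.Prime] (P : Sylow p G)
    (h : (P : Subgroup G) ≤ Subgroup.center G) (g : G) : ¬ p ∣ cs g := fun hd =>
  P.not_dvd_index (hd.trans (Subgroup.index_dvd_of_le
    (h.trans (Subgroup.center_le_centralizer _))))

theorem center_of_forall {U K : Subgroup G} (hK : ∀ g : G, ∃ k ∈ K, ∃ l ∈ Subgroup.centralizer (U : Set G), g = k * l)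
    (hU : K ≤ Subgroup.centralizer (U : Set G)) : U ≤ Subgroup.center G := by
  intro u hu
  rw [Subgroup.mem_center_iff]
  intro g
  obtain ⟨k, hk, l, hl, rfl⟩ := hK g
  exact (Subgroup.mem_centralizer_iff.1 ((Subgroup.centralizer (U : Set G)).mul_mem (hU hk) hl) u hu).symm

theorem exists_forall_conj_notMem_of_not_le {V C : Subgroup G} (h : ¬ V ≤ C) :
    ∃ v ∈ V, ∀ x ∈ V, x * v * x⁻¹ ∉ C := by
  obtain ⟨v, hv⟩ := CfsgLib.ClassGraph.exists_forall_conj_notMem (A := C.subgroupOf V)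
    (fun h' => h (Subgroup.subgroupOf_eq_top.1 h'))
  exact ⟨v, v.2, fun x hx hc => hv ⟨x, hx⟩ hc⟩

theorem orderOf_coprime_of_mem {K H : Subgroup G} (h : (Nat.card K).Coprime (Nat.card H)) {k v : G}
    (hk : k ∈ K) (hv : v ∈ H) : (orderOf k).Coprime (orderOf v) :=
  (h.coprime_dvd_left (Subgroup.orderOf_dvd_natCard K hk)).coprime_dvd_right (Subgroup.orderOf_dvd_natCard H hv)

/-- Both Sylow normalisers centralise: impossible. -/
theorem both_good {p q : ℕ} [hp : Fact p.Prime] [hq : Fact q.Prime] (hpq : p ≠ q)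
    (h1 : ∀ g : G, ¬ (p ∣ cs g ∧ q ∣ cs g))
    (h2 : ∀ r : ℕ, r.Prime → r ≠ p → r ≠ q → ¬ ((∃ x : G, p ∣ cs x ∧ r ∣ cs x) ∧ ∃ x : G, q ∣ cs x ∧ r ∣ cs x))
    (hp' : ∃ x : G, p ∣ cs x) (hq' : ∃ x : G, q ∣ cs x) (K H : Subgroup G) [K.Normal]
    (hKH : K.IsComplement' H) (hHc : IsMulCommutative H) (hcop : (Nat.card K).Coprime (Nat.card H))
    (P : Sylow p G) (Q : Sylow q G) (hPH : (P : Subgroup G) ≤ H) (hQH : (Q : Subgroup G) ≤ H) : False := by
  classical
  have hHcen : ∀ (U : Subgroup G), U ≤ H → H ≤ Subgroup.centralizer (U : Set G) := fun U hU h hh =>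
    Subgroup.mem_centralizer_iff.2 fun u hu => Subtype.ext_iff.1 (hHc.is_comm.comm ⟨u, hU hu⟩ ⟨h, hh⟩)
  have hdec : ∀ g : G, ∃ k ∈ K, ∃ h ∈ H, g = k * h := fun g => by
    obtain ⟨⟨k, h⟩, hkh⟩ := hKH.2 g
    exact ⟨k, k.2, h, h.2, hkh.symm⟩
  have hdec' : ∀ g : G, ∃ h ∈ H, ∃ k ∈ K, g = h * k := fun g => by
    obtain ⟨⟨h, k⟩, hkh⟩ := hKH.symm.2 g
    exact ⟨h, h.2, k, k.2, hkh.symm⟩
  set CP := Subgroup.centralizer ((P : Subgroup G) : Set G) with hCP
  set CQ := Subgroup.centralizer ((Q : Subgroup G) : Set G) with hCQ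
  have hHP : H ≤ CP := hHcen _ hPH
  have hHQ : H ≤ CQ := hHcen _ hQH
  have hnotP : ¬ K ≤ CP := fun h => by
    obtain ⟨x, hx⟩ := hp'
    exact not_dvd_cs_of_central P (center_of_forall (fun g => by
      obtain ⟨k, hk, l, hl, e⟩ := hdec g; exact ⟨k, hk, l, hHP hl, e⟩) h) x hx
  have hnotQ : ¬ K ≤ CQ := fun h => by
    obtain ⟨x, hx⟩ := hq'
    exact not_dvd_cs_of_central Q (center_of_forall (fun g => by
      obtain ⟨k, hk, l, hl, e⟩ := hdec g; exact ⟨k, hk, l, hHQ hl, e⟩) h) x hx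
  -- an element of `K` either is conjugate into `C(P)` or has `p` in its class size
  have hconj : ∀ {t : ℕ} [Fact t.Prime] (T : Sylow t G), H ≤ Subgroup.centralizer ((T : Subgroup G) : Set G) →
      ∀ k ∈ K, ¬ t ∣ cs k → ∃ x ∈ K, x * k * x⁻¹ ∈ Subgroup.centralizer ((T : Subgroup G) : Set G) := by
    intro t _ T hT k _ ht
    obtain ⟨g, hg⟩ := CfsgLib.ClassGraph.exists_conj_mem_centralizer T ht
    obtain ⟨h, hh, x, hx, rfl⟩ := hdec' g
    refine ⟨x, hx, ?_⟩
    have := (Subgroup.centralizer ((T : Subgroup G) : Set G)).mul_mem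
      ((Subgroup.centralizer ((T : Subgroup G) : Set G)).mul_mem ((Subgroup.centralizer ((T : Subgroup G) : Set G)).inv_mem (hT hh)) hg) (hT hh)
    rwa [show h⁻¹ * (h * x * k * (h * x)⁻¹) * h = x * k * x⁻¹ by group] at this
  -- the class sizes of the elements of one Sylow subgroup lie near the other prime
  have hside : ∀ {s t : ℕ} [Fact s.Prime] [Fact t.Prime] (S : Sylow s G) (T : Sylow t G),
      (S : Subgroup G) ≤ H → (T : Subgroup G) ≤ H → s ≠ t → (∀ g : G, ¬ (s ∣ cs g ∧ t ∣ cs g)) →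
      ¬ K ≤ Subgroup.centralizer ((S : Subgroup G) : Set G) →
      ∀ v ∈ (T : Subgroup G), ∀ r : ℕ, r.Prime → r ∣ cs v → r ≠ s ∧ r ≠ t ∧ ∃ x : G, s ∣ cs x ∧ r ∣ cs x := by
    intro s t _ _ S T hS hT hst hadj hnot v hv r hr hrv
    have hHv : H ≤ Subgroup.centralizer ({v} : Set G) := fun h hh =>
      Subgroup.mem_centralizer_singleton_iff.2 (Subtype.ext_iff.1 (hHc.is_comm.comm ⟨h, hh⟩ ⟨v, hT hv⟩))
    have hnd : ∀ {w : ℕ} [Fact w.Prime] (W : Sylow w G), (W : Subgroup G) ≤ H → ¬ w ∣ cs v := fun W hW hd =>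
      W.not_dvd_index (hd.trans (Subgroup.index_dvd_of_le (hW.trans hHv)))
    refine ⟨fun e => hnd S hS (e ▸ hrv), fun e => hnd T hT (e ▸ hrv), ?_⟩
    obtain ⟨k, hk, hkn⟩ := exists_forall_conj_notMem_of_not_le hnot
    have hsk : s ∣ cs k := by
      by_contra h
      obtain ⟨x, hx, hxk⟩ := hconj S (hHcen _ hS) k hk h
      exact hkn x hx hxk
    obtain ⟨x, hx, hxk⟩ := hconj T (hHcen _ hT) k hk fun h => hadj k ⟨hsk, h⟩
    set k' := x * k * x⁻¹ with hk'
    have hk'K : k' ∈ K := K.mul_mem (K.mul_mem hx hk) (K.inv_mem hx)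
    have hle := centralizer_mul_le (show Commute k' v from (Subgroup.mem_centralizer_iff.1 hxk v hv).symm)
      (orderOf_coprime_of_mem hcop hk'K (hT hv))
    refine ⟨k' * v, ?_, hrv.trans (Subgroup.index_dvd_of_le (hle.trans inf_le_right))⟩
    refine dvd_trans ?_ (Subgroup.index_dvd_of_le (hle.trans inf_le_left))
    by_contra h
    obtain ⟨y, hy, hyk⟩ := hconj S (hHcen _ hS) k' hk'K h
    refine hkn (y * x) (K.mul_mem hy hx) ?_
    rwa [show y * x * k * (y * x)⁻¹ = y * (x * k * x⁻¹) * y⁻¹ by group]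
  -- `K = C_K(u) C_K(v)`
  have hprod : ∀ u ∈ (P : Subgroup G), ∀ v ∈ (Q : Subgroup G), ∀ k ∈ K,
      ∃ a b : G, a * u = u * a ∧ b * v = v * b ∧ k = b * a ∧ b ∈ K := by
    intro u hu v hv k hk
    have hco : ((Subgroup.centralizer ({v} : Set G)).subgroupOf K).index.Coprime
        ((Subgroup.centralizer ({u} : Set G)).subgroupOf K).index := by
      refine Nat.coprime_of_dvd fun r hr hd hd' => ?_
      obtain ⟨-, -, x, hx1, hx2⟩ := hside P Q hPH hQH hpq h1 hnotP v hv r hr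
        (hd.trans (relIndex_dvd_index_of_normal _ K))
      obtain ⟨hrq, hrp, y, hy1, hy2⟩ := hside Q P hQH hPH hpq.symm (fun g h => h1 g h.symm) hnotQ u hu r hr
        (hd'.trans (relIndex_dvd_index_of_normal _ K))
      exact h2 r hr hrp hrq ⟨⟨x, hx1, hx2⟩, y, hy1, hy2⟩
    obtain ⟨b, hb, a, ha, e⟩ := CfsgLib.Hall.exists_mul_of_coprime_index hco ⟨k, hk⟩
    exact ⟨a, b, Subgroup.mem_centralizer_singleton_iff.1 ha, Subgroup.mem_centralizer_singleton_iff.1 hb,
      congrArg Subtype.val e, b.2⟩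
  have hPQ : ∀ u ∈ (P : Subgroup G), ∀ v ∈ (Q : Subgroup G), Commute u v := fun u hu v hv =>
    (Subgroup.mem_centralizer_iff.1 (hHP (hQH hv)) u hu)
  have hW : ⁅K, (P : Subgroup G)⁆ ≤ CQ := by
    rw [Subgroup.commutator_le]
    intro k hk u hu
    rw [Subgroup.mem_centralizer_iff]
    intro v hv
    obtain ⟨a, b, ha, hb, rfl, -⟩ := hprod u hu v hv k hk
    have e : ⁅b * a, u⁆ = b * u * b⁻¹ * u⁻¹ := by
      rw [commutatorElement_def, show b * a * u * (b * a)⁻¹ * u⁻¹ = b * (a * u) * a⁻¹ * b⁻¹ * u⁻¹ by group, ha]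
      group
    rw [e]
    have c1 : Commute v b := (show Commute b v from hb).symm
    have c2 : Commute v u := (hPQ u hu v hv).symm
    exact (((c1.mul_right c2).mul_right c1.inv_right).mul_right c2.inv_right).eq
  have hV : ⁅K, (Q : Subgroup G)⁆ ≤ CP := by
    rw [Subgroup.commutator_le]
    intro k hk v hv
    rw [Subgroup.mem_centralizer_iff]
    intro u hu
    -- `k⁻¹ = b a` gives `k = a⁻¹ b⁻¹`
    obtain ⟨a, b, ha, hb, e, -⟩ := hprod u hu v hv k⁻¹ (K.inv_mem hk)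
    have e' : ⁅k, v⁆ = a⁻¹ * v * a * v⁻¹ := by
      rw [commutatorElement_def, show k = a⁻¹ * b⁻¹ by rw [← inv_inv k, e, mul_inv_rev],
        show a⁻¹ * b⁻¹ * v * (a⁻¹ * b⁻¹)⁻¹ * v⁻¹ = a⁻¹ * (b⁻¹ * v) * b * a * v⁻¹ by group,
        ((show Commute b v from hb).inv_left).eq]
      group
    rw [e']
    have c1 : Commute u a := (show Commute a u from ha).symm
    have c2 : Commute u v := hPQ u hu v hv
    exact (((c1.inv_right.mul_right c2).mul_right c1).mul_right c2.inv_right).eq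
  have hAK : ∀ U : Subgroup G, U ≤ Subgroup.normalizer (K : Set G) := fun U => by
    rw [Subgroup.normalizer_eq_top]; exact le_top
  have hsolv : ∀ U : Subgroup G, U ≤ H → Group.IsSolvable U ∨ Group.IsSolvable K := fun U hU =>
    Or.inl (Group.isSolvable_of_comm fun a b => Subtype.ext (congrArg Subtype.val
      (hHc.is_comm.comm ⟨a, hU a.2⟩ ⟨b, hU b.2⟩) :))
  have hcU : ∀ U : Subgroup G, U ≤ H → (Nat.card U).Coprime (Nat.card K) := fun U hU =>
    (hcop.coprime_dvd_right (Subgroup.card_dvd_of_le hU)).symm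
  have hnle : ∀ U : Subgroup G, U ≤ H → ¬ K ≤ Subgroup.centralizer (U : Set G) →
      ¬ ⁅K, U⁆ ≤ Subgroup.centralizer (U : Set G) := by
    intro U hU hn h
    refine hn (Subgroup.commutator_eq_bot_iff_le_centralizer.1 ?_)
    rw [← CfsgLib.CoprimeAction.commutator_commutator_eq (hAK U) (hcU U hU) (hsolv U hU)]
    exact Subgroup.commutator_eq_bot_iff_le_centralizer.2 h
  obtain ⟨w, hw, hwn⟩ := exists_forall_conj_notMem_of_not_le (hnle _ hPH hnotP)
  obtain ⟨v, hv, hvn⟩ := exists_forall_conj_notMem_of_not_le (hnle _ hQH hnotQ)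
  -- no conjugate in `K` of `w` centralises `P`
  have hup : ∀ {U : Subgroup G} (_ : U ≤ H) (e : G), e ∈ ⁅K, U⁆ →
      (∀ x ∈ ⁅K, U⁆, x * e * x⁻¹ ∉ Subgroup.centralizer (U : Set G)) →
      ∀ g ∈ K, g * e * g⁻¹ ∉ Subgroup.centralizer (U : Set G) := by
    intro U hU e he hen g hg hge
    obtain ⟨n, hn, c, hc, e1⟩ := CfsgLib.CoprimeAction.commutator_sup_centralizer_aux (hAK U) (hcU U hU) (hsolv U hU)
      (K.inv_mem hg)
    refine hen n⁻¹ (Subgroup.inv_mem _ hn) ?_
    have h3 := (Subgroup.centralizer (U : Set G)).mul_mem ((Subgroup.centralizer (U : Set G)).mul_mem hc.2 hge)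
      ((Subgroup.centralizer (U : Set G)).inv_mem hc.2)
    have : g = c⁻¹ * n⁻¹ := by rw [← inv_inv g, e1, mul_inv_rev]
    rwa [this, show c * (c⁻¹ * n⁻¹ * e * (c⁻¹ * n⁻¹)⁻¹) * c⁻¹ = n⁻¹ * e * n⁻¹⁻¹ by group] at h3
  set k := w * v with hk
  have hkK : k ∈ K := K.mul_mem (CfsgLib.CoprimeAction.commutator_le_left (hAK _) hw)
    (CfsgLib.CoprimeAction.commutator_le_left (hAK _) hv)
  have hnorm : ∀ U : Subgroup G, ∀ g ∈ K, ∀ x ∈ ⁅K, U⁆, g * x * g⁻¹ ∈ ⁅K, U⁆ := fun U g hg x hx =>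
    (Subgroup.mem_normalizer_iff.1 (CfsgLib.CoprimeAction.sup_le_normalizer_commutator U K (Subgroup.mem_sup_left hg)) x).1 hx
  apply h1 k
  constructor
  · by_contra h
    obtain ⟨g, hg, hgk⟩ := hconj P hHP k hkK h
    refine hup hPH w hw hwn g hg ?_
    rw [show g * w * g⁻¹ = g * k * g⁻¹ * (g * v * g⁻¹)⁻¹ by rw [hk]; group]
    exact CP.mul_mem hgk (CP.inv_mem (hV (hnorm _ g hg v hv)))
  · by_contra h
    obtain ⟨g, hg, hgk⟩ := hconj Q hHQ k hkK h
    refine hup hQH v hv hvn g hg ?_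
    rw [show g * v * g⁻¹ = (g * w * g⁻¹)⁻¹ * (g * k * g⁻¹) by rw [hk]; group]
    exact CQ.mul_mem (CQ.inv_mem (hW (hnorm _ g hg w hw))) hgk

/-- One prime good, and all its neighbours too: the complement is centralised. -/
theorem one_good {p : ℕ} [hp : Fact p.Prime] (K H : Subgroup G) [K.Normal] (hKH : K.IsComplement' H)
    (hHc : IsMulCommutative H) (P : Sylow p G) (hPH : (P : Subgroup G) ≤ H) (hK : ¬ IsMulCommutative K)
    (hadj : ∀ x : G, p ∣ cs x → ∀ r : ℕ, r.Prime → r ∣ cs x → ¬ r ∣ Nat.card K) :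
    ∀ x : G, ¬ p ∣ cs x := by
  classical
  set L := Subgroup.centralizer ((P : Subgroup G) : Set G) with hL
  have hHL : H ≤ L := fun h hh =>
    Subgroup.mem_centralizer_iff.2 fun u hu => Subtype.ext_iff.1 (hHc.is_comm.comm ⟨u, hPH hu⟩ ⟨h, hh⟩)
  have hdec' : ∀ g : G, ∃ h ∈ H, ∃ k ∈ K, g = h * k := fun g => by
    obtain ⟨⟨h, k⟩, hkh⟩ := hKH.symm.2 g
    exact ⟨h, h.2, k, k.2, hkh.symm⟩
  -- non-central elements of `K` are conjugate into `L`
  have hcent : ∀ k : K, k ∉ Subgroup.center K → ∃ x : K, x * k * x⁻¹ ∈ L.subgroupOf K := by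
    intro k hk
    have hp0 : ¬ p ∣ cs (k : G) := by
      intro hd
      apply hk
      set C := Subgroup.centralizer ({(k : G)} : Set G)
      have h1 : C.relIndex K = 1 := by
        by_contra hne
        obtain ⟨r, hr, hrd⟩ := Nat.exists_prime_and_dvd hne
        exact hadj k hd r hr (hrd.trans (relIndex_dvd_index_of_normal C K))
          (hrd.trans (C.subgroupOf K).index_dvd_card)
      rw [Subgroup.mem_center_iff]
      intro g
      exact Subtype.ext (Subgroup.mem_centralizer_singleton_iff.1 (Subgroup.relIndex_eq_one.1 h1 g.2))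
    obtain ⟨g, hg⟩ := CfsgLib.ClassGraph.exists_conj_mem_centralizer P hp0
    obtain ⟨h, hh, x, hx, rfl⟩ := hdec' g
    refine ⟨⟨x, hx⟩, ?_⟩
    rw [Subgroup.mem_subgroupOf]
    push_cast
    have := L.mul_mem (L.mul_mem (L.inv_mem (hHL hh)) hg) (hHL hh)
    rwa [show h⁻¹ * (h * x * (k : G) * (h * x)⁻¹) * h = x * k * x⁻¹ by group] at this
  set L' := L.subgroupOf K with hL'
  have htop : L' ⊔ Subgroup.center K = ⊤ := by
    by_contra hne
    obtain ⟨k, hk⟩ := CfsgLib.ClassGraph.exists_forall_conj_notMem hne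
    have hkc : k ∉ Subgroup.center K := fun h => hk 1 (by simpa using Subgroup.mem_sup_right h)
    obtain ⟨x, hx⟩ := hcent k hkc
    exact hk x (Subgroup.mem_sup_left hx)
  obtain ⟨y, hy, hyc⟩ : ∃ y ∈ L', y ∉ Subgroup.center K := by
    by_contra h
    push Not at h
    apply hK
    have : Subgroup.center K = ⊤ := top_le_iff.1 (htop ▸ sup_le (fun y hy => h y hy) le_rfl)
    exact ⟨⟨fun a b => (Subgroup.mem_center_iff.1 (this ▸ Subgroup.mem_top a) b).symm⟩⟩
  have hZL : ∀ z ∈ Subgroup.center K, z ∈ L' := by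
    intro z hz
    have hzy : z * y ∉ Subgroup.center K := fun h => hyc (by
      simpa using (Subgroup.center K).mul_mem ((Subgroup.center K).inv_mem hz) h)
    obtain ⟨x, hx⟩ := hcent _ hzy
    obtain ⟨l, hl, c, hc, rfl⟩ := Subgroup.mem_sup_of_normal_right.1 (htop ▸ Subgroup.mem_top x)
    have hzl : l * z = z * l := Subgroup.mem_center_iff.1 hz l
    have hcy : c * (z * y) = z * y * c := (Subgroup.mem_center_iff.1 hc (z * y)).symm
    have e : l * c * (z * y) * (l * c)⁻¹ = z * (l * y * l⁻¹) := by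
      calc l * c * (z * y) * (l * c)⁻¹ = l * (c * (z * y)) * c⁻¹ * l⁻¹ := by group
        _ = l * (z * y) * l⁻¹ := by rw [hcy]; group
        _ = z * (l * y * l⁻¹) := by rw [← mul_assoc l z y, hzl]; group
    rw [e] at hx
    have h := L'.mul_mem hx (L'.inv_mem (L'.mul_mem (L'.mul_mem hl hy) (L'.inv_mem hl)))
    rwa [mul_inv_cancel_right] at h
  have hKL : K ≤ L := by
    have h : L' = ⊤ := top_le_iff.1 (htop ▸ sup_le le_rfl hZL)
    exact Subgroup.subgroupOf_eq_top.1 h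
  refine not_dvd_cs_of_central P (center_of_forall (fun g => ?_) hKL)
  obtain ⟨⟨k, h⟩, hkh⟩ := hKH.2 g
  exact ⟨k, k.2, h, hHL h.2, hkh.symm⟩

/-- The abelian Hall subgroup for a set of good primes. -/
theorem exists_hall (π : Finset ℕ) (hπ : ∀ r ∈ π, r.Prime)
    (hgood : ∀ r ∈ π, ∀ [Fact r.Prime], ∀ R : Sylow r G, Subgroup.normalizer ((R : Subgroup G) : Set G) ≤
      Subgroup.centralizer ((R : Subgroup G) : Set G)) :
    ∃ K H : Subgroup G, K.Normal ∧ K.IsComplement' H ∧ IsMulCommutative H ∧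
      (Nat.card K).Coprime (Nat.card H) ∧ (∀ r ∈ π, ¬ r ∣ Nat.card K) ∧
      ∀ r ∈ π, ∀ [Fact r.Prime], r ∣ Nat.card G → ∃ R : Sylow r G, (R : Subgroup G) ≤ H := by
  classical
  obtain ⟨K, hK, hK1, hK2, H, hKH, hHc⟩ := CfsgLib.HallClasses.exists_piComplement π hπ
    fun r hr _ => ⟨CfsgLib.ClassGraph.hasNormalPComplement_of_normalizer_le default (hgood r hr default),
      fun P => CfsgLib.ClassGraph.isMulCommutative_of_normalizer_le P (hgood r hr P)⟩
  have hH : ∀ r : ℕ, r.Prime → r ∣ Nat.card H → r ∈ π := fun r hr hd =>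
    hK2 r hr (hKH.symm.index_eq_card.symm ▸ hd)
  have hcop : (Nat.card K).Coprime (Nat.card H) :=
    Nat.coprime_of_dvd fun r hr h1 h2 => hK1 r hr h1 (hH r hr h2)
  refine ⟨K, H, hK, hKH, hHc, hcop, fun r hr hd => hK1 r (hπ r hr) hd hr, fun r hr _ hd => ?_⟩
  have hrH : r ∣ Nat.card H := by
    rw [← hKH.card_mul_card] at hd
    exact ((hπ r hr).dvd_mul.1 hd).resolve_left fun h => hK1 r (hπ r hr) h hr
  obtain ⟨R, hR⟩ := CfsgLib.Transfer.exists_sylow_of_hall (H := H) (p := r)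
    (by rw [hKH.index_eq_card]; exact hcop.symm) hrH default
  exact ⟨R, hR ▸ Subgroup.map_subtype_le _⟩

theorem dvd_card_of_dvd_cs {r : ℕ} {x : G} (h : r ∣ cs x) : r ∣ Nat.card G :=
  h.trans (Subgroup.index_dvd_card _)

theorem core (hG : ¬ Group.IsSolvable G) {p q : ℕ} [hp : Fact p.Prime] [hq : Fact q.Prime] (hpq : p ≠ q)
    (h1 : ∀ g : G, ¬ (p ∣ cs g ∧ q ∣ cs g))
    (h2 : ∀ r : ℕ, r.Prime → r ≠ p → r ≠ q → ¬ ((∃ x : G, p ∣ cs x ∧ r ∣ cs x) ∧ ∃ x : G, q ∣ cs x ∧ r ∣ cs x))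
    (hp' : ∃ x : G, p ∣ cs x) (hq' : ∃ x : G, q ∣ cs x)
    (hpgood : ∀ P : Sylow p G, Subgroup.normalizer ((P : Subgroup G) : Set G) ≤
      Subgroup.centralizer ((P : Subgroup G) : Set G)) : False := by
  classical
  obtain ⟨xp, hxp⟩ := hp'
  obtain ⟨xq, hxq⟩ := hq'
  by_cases hqgood : ∀ Q : Sylow q G, Subgroup.normalizer ((Q : Subgroup G) : Set G) ≤
      Subgroup.centralizer ((Q : Subgroup G) : Set G)
  · obtain ⟨K, H, hK, hKH, hHc, hcop, -, hsyl⟩ := exists_hall {p, q}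
      (by intro r hr; rcases Finset.mem_insert.1 hr with rfl | h
          · exact hp.out
          · rw [Finset.mem_singleton.1 h]; exact hq.out)
      (by intro r hr _ R
          rcases Finset.mem_insert.1 hr with rfl | h
          · exact hpgood R
          · obtain rfl := Finset.mem_singleton.1 h; exact hqgood R)
    obtain ⟨P, hP⟩ := hsyl p (by simp) (dvd_card_of_dvd_cs hxp)
    obtain ⟨Q, hQ⟩ := hsyl q (by simp) (dvd_card_of_dvd_cs hxq)
    exact both_good hpq h1 h2 ⟨xp, hxp⟩ ⟨xq, hxq⟩ K H hKH hHc hcop P Q hP hQ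
  · push Not at hqgood
    obtain ⟨Q₀, hQ₀⟩ := hqgood
    set π := insert p ((Nat.card G).primeFactors.filter fun r => ∃ x : G, p ∣ cs x ∧ r ∣ cs x) with hπdef
    obtain ⟨K, H, hK, hKH, hHc, hcop, hKπ, hsyl⟩ := exists_hall π
      (fun r hr => by
        rcases Finset.mem_insert.1 hr with rfl | h
        · exact hp.out
        · exact (Nat.mem_primeFactors.1 (Finset.mem_filter.1 h).1).1)
      (fun r hr _ R => by
        rcases Finset.mem_insert.1 hr with rfl | h
        · exact hpgood R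
        · obtain ⟨x, hpx, hrx⟩ := (Finset.mem_filter.1 h).2
          have hrq : r ≠ q := fun e => h1 x ⟨hpx, e ▸ hrx⟩
          by_cases hrp : r = p
          · subst hrp; exact hpgood R
          refine (CfsgLib.ClassGraph.ito R Q₀ fun g hg => ?_).resolve_right hQ₀
          exact h2 r Fact.out hrp hrq ⟨⟨x, hpx, hrx⟩, g, hg.2, hg.1⟩)
    obtain ⟨P, hP⟩ := hsyl p (Finset.mem_insert_self _ _) (dvd_card_of_dvd_cs hxp)
    refine one_good K H hKH hHc P hP (fun hKc => hG ?_) (fun x hx r hr hrx => ?_) xp hxp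
    · have : Group.IsSolvable K := Group.isSolvable_of_comm fun a b => hKc.is_comm.comm a b
      have : Group.IsSolvable (G ⧸ K) := Group.isSolvable_of_comm fun a b => by
        apply hKH.symm.QuotientMulEquiv.symm.symm.injective
        rw [map_mul, map_mul]
        exact hHc.is_comm.comm _ _
      exact Group.isSolvable_of_ker_le_range K.subtype (QuotientGroup.mk' K) (by simp)
    · exact hKπ r (Finset.mem_insert_of_mem (Finset.mem_filter.2
        ⟨Nat.mem_primeFactors.2 ⟨hr, dvd_card_of_dvd_cs hrx, Nat.card_pos.ne'⟩, x, hx, hrx⟩))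

/-- Let G be a finite non-solvable group and p ≠ q primes each dividing the size of some conjugacy class of G. Then either some class size is divisible by pq, or there is a prime r, different from p and q, such that some class size is divisible by pr and some class size is divisible by rq. -/
theorem result {G : Type*} [Group G] [Finite G] (hG : ¬ Group.IsSolvable G)
    (p q : ℕ) (hp : p.Prime) (hq : q.Prime) (hpq : p ≠ q) (hp' : ∃ x : G, p ∣ (Subgroup.centralizer ({x} : Set G)).index) (hq' : ∃ x : G, q ∣ (Subgroup.centralizer ({x} : Set G)).index) :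
    (∃ x : G, p * q ∣ (Subgroup.centralizer ({x} : Set G)).index) ∨ ∃ r : ℕ, r.Prime ∧ r ≠ p ∧ r ≠ q ∧ (∃ x : G, p * r ∣ (Subgroup.centralizer ({x} : Set G)).index) ∧ (∃ y : G, r * q ∣ (Subgroup.centralizer ({y} : Set G)).index) := by
  classical
  by_contra hcon
  push Not at hcon
  obtain ⟨hno, hno'⟩ := hcon
  have : Fact p.Prime := ⟨hp⟩
  have : Fact q.Prime := ⟨hq⟩
  have hmul : ∀ {a b n : ℕ}, a.Prime → b.Prime → a ≠ b → a ∣ n → b ∣ n → a * b ∣ n := fun ha hb hab h h' =>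
    ((Nat.coprime_primes ha hb).2 hab).mul_dvd_of_dvd_of_dvd h h'
  have h1 : ∀ g : G, ¬ (p ∣ cs g ∧ q ∣ cs g) := fun g hg => hno g (hmul hp hq hpq hg.1 hg.2)
  have h2 : ∀ r : ℕ, r.Prime → r ≠ p → r ≠ q →
      ¬ ((∃ x : G, p ∣ cs x ∧ r ∣ cs x) ∧ ∃ x : G, q ∣ cs x ∧ r ∣ cs x) := by
    rintro r hr hrp hrq ⟨⟨x, hx1, hx2⟩, y, hy1, hy2⟩
    exact hno' r hr hrp hrq ⟨x, hmul hp hr hrp.symm hx1 hx2⟩ y (hmul hr hq hrq hy2 hy1)
  obtain ⟨P⟩ := (inferInstance : Nonempty (Sylow p G))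
  obtain ⟨Q⟩ := (inferInstance : Nonempty (Sylow q G))
  by_cases hpg : ∀ P : Sylow p G, Subgroup.normalizer ((P : Subgroup G) : Set G) ≤
      Subgroup.centralizer ((P : Subgroup G) : Set G)
  · exact core hG hpq h1 h2 hp' hq' hpg
  · push Not at hpg
    obtain ⟨P₀, hP₀⟩ := hpg
    refine core hG hpq.symm (fun g h => h1 g h.symm) (fun r hr a b h => h2 r hr b a h.symm) hq' hp' fun Q' => ?_
    exact (CfsgLib.ClassGraph.ito P₀ Q' h1).resolve_left hP₀

end Cfsg.Agent.S4161
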