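import Cfsg.Statements.S4163
import Mathlib

set_option autoImplicit false
open Cfsg

namespace Cfsg.Agent.S4163

open scoped commutatorElement

theorem commutator_mem_center {G : Type*} [Group G] [Finite G] (A : Subgroup G) [A.Normal]
    (hA : IsMulCommutative A) (m : ℕ)
    (hmin : ∀ x : G, 1 < (Subgroup.centralizer ({x} : Set G)).index → m ≤ (Subgroup.centralizer ({x} : Set G)).index)
    {x : G} (hx : (Subgroup.centralizer ({x} : Set G)).index = 1 ∨ (Subgroup.centralizer ({x} : Set G)).index = m)
    {a : G} (ha : a ∈ A) : a⁻¹ * (x * a * x⁻¹) ∈ Subgroup.center G := by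
  classical
  set C := Subgroup.centralizer ({x} : Set G) with hCdef
  have hc : ∀ u ∈ A, ∀ v ∈ A, u * v = v * u := fun u hu v hv => Subtype.ext_iff.1 (hA.is_comm.comm ⟨u, hu⟩ ⟨v, hv⟩)
  rcases hx with h1 | hm
  · rw [Subgroup.index_eq_one] at h1
    have := Subgroup.mem_centralizer_singleton_iff.1 (h1 ▸ Subgroup.mem_top a : a ∈ C)
    have : a⁻¹ * (x * a * x⁻¹) = 1 := by rw [← this]; group
    rw [this]; exact one_mem _
  -- the map `a ↦ [a,x]` on `A`
  let f : A →* G :=
    { toFun := fun u => (u : G)⁻¹ * (x * u * x⁻¹)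
      map_one' := by simp
      map_mul' := fun u v => by
        have h1 : x * (u : G) * x⁻¹ ∈ A := (inferInstance : A.Normal).conj_mem _ u.2 x
        have h2 : x * (v : G) * x⁻¹ ∈ A := (inferInstance : A.Normal).conj_mem _ v.2 x
        push_cast
        calc ((u : G) * v)⁻¹ * (x * ((u : G) * v) * x⁻¹)
            = ((v : G)⁻¹) * (((u : G)⁻¹ * (x * u * x⁻¹)) * (x * v * x⁻¹)) := by group
          _ = ((u : G)⁻¹ * (x * u * x⁻¹)) * ((v : G)⁻¹ * (x * v * x⁻¹)) := by
            rw [← mul_assoc, hc _ (A.inv_mem v.2) _ (A.mul_mem (A.inv_mem u.2) h1)]; group }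
  set R := f.range with hR
  have hRA : R ≤ A := by
    rintro _ ⟨u, rfl⟩
    exact A.mul_mem (A.inv_mem u.2) ((inferInstance : A.Normal).conj_mem _ u.2 x)
  set y := a⁻¹ * (x * a * x⁻¹) with hy
  have hyR : y ∈ R := ⟨⟨a, ha⟩, rfl⟩
  set L := A ⊔ C with hL
  have hLR : ∀ l ∈ L, ∀ z ∈ R, l * z * l⁻¹ ∈ R := by
    have : L ≤ Subgroup.normalizer (R : Set G) := by
      refine sup_le (fun l hl => ?_) (fun l hl => ?_)
      · refine Subgroup.mem_normalizer_fintype fun z hz => ?_
        rwa [hc l hl z (hRA hz), mul_inv_cancel_right]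
      · refine Subgroup.mem_normalizer_fintype fun z hz => ?_
        obtain ⟨u, rfl⟩ := hz
        refine ⟨⟨l * u * l⁻¹, (inferInstance : A.Normal).conj_mem _ u.2 l⟩, ?_⟩
        have hlx : l * x = x * l := Subgroup.mem_centralizer_singleton_iff.1 hl
        have hlx' : x⁻¹ * l = l * x⁻¹ := ((show Commute l x from hlx).inv_right).symm.eq
        show (l * (u : G) * l⁻¹)⁻¹ * (x * (l * u * l⁻¹) * x⁻¹) = l * ((u : G)⁻¹ * (x * u * x⁻¹)) * l⁻¹
        have hlx'' : l⁻¹ * x⁻¹ = x⁻¹ * l⁻¹ := by rw [← mul_inv_rev, ← mul_inv_rev, hlx]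
        calc (l * (u : G) * l⁻¹)⁻¹ * (x * (l * u * l⁻¹) * x⁻¹)
            = l * (u : G)⁻¹ * l⁻¹ * ((x * l) * u * (l⁻¹ * x⁻¹)) := by group
          _ = _ := by rw [← hlx, hlx'']; group
    exact fun l hl z hz => (Subgroup.mem_normalizer_iff.1 (this hl) z).1 hz
  set D := Subgroup.centralizer ({y} : Set G) with hD
  rw [← SetLike.mem_coe, ← Set.singleton_subset_iff, ← Subgroup.centralizer_eq_top_iff_subset, ← hD,
    ← Subgroup.index_eq_one]
  by_contra hne
  have hlt := hmin y (Nat.one_lt_iff_ne_zero_and_ne_one.2 ⟨Subgroup.index_ne_zero_of_finite, hne⟩)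
  have hy1 : y ≠ 1 := by
    intro h
    apply hne
    rw [hD, h, Subgroup.index_eq_one, Subgroup.centralizer_eq_top_iff_subset, Set.singleton_subset_iff]
    exact one_mem _
  have h1 : D.relIndex L < Nat.card R := by
    let q : L ⧸ D.subgroupOf L → {z : R // z ≠ 1} :=
      Quotient.lift (fun l : L => ⟨⟨(l : G) * y * (l : G)⁻¹, hLR l l.2 y hyR⟩, fun h => hy1 (by
          have h' : (l : G) * y * (l : G)⁻¹ = 1 := congrArg Subtype.val h
          simpa using h')⟩) (by
        intro l l' hll'
        replace hll' : (QuotientGroup.leftRel (D.subgroupOf L)) l l' := hll'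
        rw [QuotientGroup.leftRel_apply, Subgroup.mem_subgroupOf, Subgroup.mem_centralizer_singleton_iff] at hll'
        push_cast at hll'
        refine Subtype.ext (Subtype.ext ?_)
        show (l : G) * y * (l : G)⁻¹ = (l' : G) * y * (l' : G)⁻¹
        calc (l : G) * y * (l : G)⁻¹ = (l : G) * (y * ((l : G)⁻¹ * l')) * (l' : G)⁻¹ := by group
          _ = _ := by rw [← hll']; group)
    have hq : Function.Injective q := by
      rintro ⟨l⟩ ⟨l'⟩ h
      have h' : (l : G) * y * (l : G)⁻¹ = (l' : G) * y * (l' : G)⁻¹ :=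
        congrArg (fun z : {z : R // z ≠ 1} => ((z : R) : G)) h
      refine Quotient.sound ?_
      show QuotientGroup.leftRel _ l l'
      rw [QuotientGroup.leftRel_apply, Subgroup.mem_subgroupOf, Subgroup.mem_centralizer_singleton_iff]
      push_cast
      calc (l : G)⁻¹ * l' * y = (l : G)⁻¹ * ((l' : G) * y * (l' : G)⁻¹) * l' := by group
        _ = _ := by rw [← h']; group
    have h2 := Nat.card_le_card_of_injective q hq
    have h3 : Nat.card {z : R // z ≠ 1} < Nat.card R := by
      have := Finite.card_subtype_lt (p := fun z : R => z ≠ 1) (x := (1 : R)) (by simp)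
      exact this
    exact lt_of_le_of_lt h2 h3
  have h4 : Nat.card R ≤ C.relIndex L := by
    refine le_trans (le_of_eq ?_) (Subgroup.relIndex_le_of_le_right (le_sup_left : A ≤ L) Subgroup.index_ne_zero_of_finite)
    rw [hR, ← Subgroup.index_ker f, Subgroup.relIndex]
    congr 1
    ext u
    rw [MonoidHom.mem_ker, Subgroup.mem_subgroupOf, Subgroup.mem_centralizer_singleton_iff]
    show (u : G)⁻¹ * (x * u * x⁻¹) = 1 ↔ _
    rw [inv_mul_eq_one, eq_mul_inv_iff_mul_eq]
  have h5 : C.index = C.relIndex L * L.index := (Subgroup.relIndex_mul_index le_sup_right).symm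
  have h6 : D.index ≤ D.relIndex L * L.index := by
    rw [← Subgroup.inf_relIndex_right, Subgroup.relIndex_mul_index (inf_le_right : D ⊓ L ≤ L)]
    exact Nat.le_of_dvd (Nat.pos_of_ne_zero Subgroup.index_ne_zero_of_finite) (Subgroup.index_dvd_of_le inf_le_left)
  have h7 : D.relIndex L * L.index < m := by
    rw [← hm, h5]
    exact Nat.mul_lt_mul_of_pos_right (h1.trans_le h4) (Nat.pos_of_ne_zero Subgroup.index_ne_zero_of_finite)
  rw [← hD] at hlt
  omega

/-- Let G be a finite group with a normal abelian subgroup A satisfying C_G(A) = A. Suppose some conjugacy class of G has size greater than 1, let m be the smallest such size, and let M be the subgroup generated by the elements whose class has size 1 or m. Then M is nilpotent of class at most 3. -/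
theorem result {G : Type*} [Group G] [Finite G]
    (A : Subgroup G) [A.Normal] (hA : IsMulCommutative A) (hCA : Subgroup.centralizer (A : Set G) = A)
    (m : ℕ) (hm1 : 1 < m) (hm : ∃ x : G, (Subgroup.centralizer ({x} : Set G)).index = m) (hmin : ∀ x : G, 1 < (Subgroup.centralizer ({x} : Set G)).index → m ≤ (Subgroup.centralizer ({x} : Set G)).index) :
    Subgroup.upperCentralSeries ↥(Subgroup.closure {x : G | (Subgroup.centralizer ({x} : Set G)).index = 1 ∨ (Subgroup.centralizer ({x} : Set G)).index = m}) 3 = ⊤ := by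
  classical
  set M := Subgroup.closure {x : G | (Subgroup.centralizer ({x} : Set G)).index = 1 ∨ (Subgroup.centralizer ({x} : Set G)).index = m} with hM
  have hAM : ⁅A, M⁆ ≤ Subgroup.center G := by
    rw [Subgroup.commutator_le]
    let φ := QuotientGroup.mk' (Subgroup.center G)
    have key : M ≤ (Subgroup.centralizer (A.map φ : Set (G ⧸ Subgroup.center G))).comap φ := by
      rw [hM, Subgroup.closure_le]
      intro x hx
      rw [SetLike.mem_coe, Subgroup.mem_comap, Subgroup.mem_centralizer_iff]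
      rintro _ ⟨a, ha, rfl⟩
      show φ a * φ x = φ x * φ a
      rw [← map_mul, ← map_mul]
      refine QuotientGroup.eq.2 ?_
      have := (inferInstance : (Subgroup.center G).Normal).conj_mem _
        (commutator_mem_center A hA m hmin hx ha) x⁻¹
      have e : (a * x)⁻¹ * (x * a) = x⁻¹ * (a⁻¹ * (x * a * x⁻¹)) * x⁻¹⁻¹ := by group
      rw [e]; exact this
    intro a ha g hg
    rw [← QuotientGroup.eq_one_iff]
    show φ ⁅a, g⁆ = 1
    rw [map_commutatorElement, commutatorElement_eq_one_iff_mul_comm]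
    exact Subgroup.mem_centralizer_iff.1 (key hg) _ (Subgroup.mem_map_of_mem φ ha)
  have hMM : ⁅M, M⁆ ≤ A := by
    rw [← hCA, ← Subgroup.commutator_eq_bot_iff_le_centralizer]
    have h1 : ⁅⁅A, M⁆, M⁆ = ⊥ := by
      rw [Subgroup.commutator_eq_bot_iff_le_centralizer]
      exact hAM.trans (Subgroup.center_le_centralizer _)
    refine Subgroup.commutator_commutator_eq_bot_of_rotate ?_ h1
    rw [Subgroup.commutator_comm M A]; exact h1
  have u1 : ∀ z : M, (z : G) ∈ Subgroup.center G → z ∈ Subgroup.upperCentralSeries M 1 := by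
    intro z hz
    rw [Subgroup.upperCentralSeries_one, Subgroup.mem_center_iff]
    exact fun g => Subtype.ext (Subgroup.mem_center_iff.1 hz g)
  have u2 : ∀ z : M, (z : G) ∈ A → z ∈ Subgroup.upperCentralSeries M 2 := fun z hz =>
    Subgroup.mem_upperCentralSeries_succ_iff.2 fun g =>
      u1 _ (hAM (Subgroup.commutator_mem_commutator hz g.2))
  rw [eq_top_iff]
  intro z _
  exact Subgroup.mem_upperCentralSeries_succ_iff.2 fun g =>
    u2 _ (hMM (Subgroup.commutator_mem_commutator z.2 g.2))

end Cfsg.Agent.S4163
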