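import Cfsg.Statements.S4169
import Mathlib
import Cfsg.Agent.Lib.TwoGroups.NormalAbelian

set_option autoImplicit false
open Cfsg

namespace Cfsg.Agent.S4169

open scoped commutatorElement

/-- A value of `k ↦ [k, x]` on an abelian normal subgroup has a larger centralizer than `x`. -/
private theorem card_centralizer_lt {G : Type*} [Group G] [Finite G] (K : Subgroup G) [K.Normal]
    (hK : ∀ a ∈ K, ∀ b ∈ K, a * b = b * a) {x k : G} (hk : k ∈ K) (hy1 : ⁅k, x⁆ ≠ 1) :
    Nat.card (Subgroup.centralizer ({x} : Set G)) < Nat.card (Subgroup.centralizer ({⁅k, x⁆} : Set G)) := by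
  classical
  set L := Subgroup.centralizer ({x} : Set G) with hL
  set y := ⁅k, x⁆ with hy
  set CL := L ⊓ Subgroup.centralizer ({y} : Set G) with hCL
  have hmemK : ∀ a ∈ K, ∀ b : G, ⁅a, b⁆ ∈ K := fun a ha b => by
    rw [commutatorElement_def, show a * b * a⁻¹ * b⁻¹ = a * (b * a⁻¹ * b⁻¹) by group]
    exact mul_mem ha ((inferInstance : K.Normal).conj_mem _ (inv_mem ha) b)
  let f : K →* K :=
    { toFun := fun a => ⟨⁅(a : G), x⁆, hmemK a a.2 x⟩
      map_one' := Subtype.ext (by show ⁅((1 : K) : G), x⁆ = _; simp)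
      map_mul' := fun a b => Subtype.ext (by
        show ⁅(a : G) * b, x⁆ = ⁅(a : G), x⁆ * ⁅(b : G), x⁆
        have h1 : ⁅(a : G) * b, x⁆ = (a * ⁅(b : G), x⁆ * (a : G)⁻¹) * ⁅(a : G), x⁆ := by
          rw [commutatorElement_def, commutatorElement_def, commutatorElement_def]; group
        rw [h1, hK _ a.2 _ (hmemK b b.2 x), mul_inv_cancel_right, hK _ (hmemK b b.2 x) _ (hmemK a a.2 x)]) }
  have hker : Nat.card f.ker = Nat.card (K ⊓ L : Subgroup G) := Nat.card_congr
    { toFun := fun a => ⟨a.1.1, a.1.2, Subgroup.mem_centralizer_singleton_iff.2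
        (commutatorElement_eq_one_iff_mul_comm.1 (congrArg Subtype.val (MonoidHom.mem_ker.1 a.2)))⟩
      invFun := fun a => ⟨⟨a.1, a.2.1⟩, MonoidHom.mem_ker.2 (Subtype.ext
        (commutatorElement_eq_one_iff_mul_comm.2 (Subgroup.mem_centralizer_singleton_iff.1 a.2.2)))⟩
      left_inv := fun a => rfl
      right_inv := fun a => rfl }
  have hLK : Nat.card K = Nat.card (K ⊓ L : Subgroup G) * Nat.card f.range := by
    rw [← hker, ← Subgroup.index_ker, Subgroup.card_mul_index]
  -- the orbit of `y` under `L` misses `1` unless `y = 1`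
  have hlt : CL.relIndex L < Nat.card f.range := by
    rw [hCL, Subgroup.inf_relIndex_left, Subgroup.relIndex, Subgroup.index]
    let g : L ⧸ (Subgroup.centralizer ({y} : Set G)).subgroupOf L → {v : f.range // v ≠ 1} :=
      Quotient.lift (fun l : L => ⟨⟨⟨(l : G) * y * (l : G)⁻¹, (inferInstance : K.Normal).conj_mem _ (hmemK k hk x) _⟩,
        ⟨⟨(l : G) * k * (l : G)⁻¹, (inferInstance : K.Normal).conj_mem _ hk _⟩, Subtype.ext (by
          show ⁅(l : G) * k * (l : G)⁻¹, x⁆ = (l : G) * y * (l : G)⁻¹
          have hlx : (l : G) * x * (l : G)⁻¹ = x := by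
            rw [Subgroup.mem_centralizer_singleton_iff.1 l.2, mul_inv_cancel_right]
          rw [hy, conjugate_commutatorElement, hlx])⟩⟩, fun he => hy1 (by
            have := congrArg (fun v : f.range => ((v : K) : G)) he
            simpa using this)⟩)
        (fun a b hab => Subtype.ext (Subtype.ext (Subtype.ext (by
          have h1 := (QuotientGroup.leftRel_apply.1 hab : a⁻¹ * b ∈ _)
          rw [Subgroup.mem_subgroupOf, Subgroup.mem_centralizer_singleton_iff] at h1
          push_cast at h1
          show (a : G) * y * (a : G)⁻¹ = (b : G) * y * (b : G)⁻¹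
          have h2 := congrArg (fun t => (a : G) * t * (b : G)⁻¹) h1
          simpa [mul_assoc] using h2.symm))))
    have hg : Function.Injective g := by
      rintro ⟨a⟩ ⟨b⟩ h
      have h1 : (a : G) * y * (a : G)⁻¹ = (b : G) * y * (b : G)⁻¹ :=
        congrArg (fun v : {v : f.range // v ≠ 1} => (((v : f.range) : K) : G)) h
      refine QuotientGroup.eq.2 ?_
      rw [Subgroup.mem_subgroupOf, Subgroup.mem_centralizer_singleton_iff]
      push_cast
      have h2 := congrArg (fun t => (a : G)⁻¹ * t * (b : G)) h1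
      simpa [mul_assoc] using h2.symm
    refine lt_of_le_of_lt (Nat.card_le_card_of_injective g hg) ?_
    haveI := Fintype.ofFinite f.range
    rw [Nat.card_eq_fintype_card, Nat.card_eq_fintype_card]
    exact Fintype.card_subtype_lt (x := (1 : f.range)) (by simp)
  have hCLK : CL ⊔ K ≤ Subgroup.centralizer ({y} : Set G) := sup_le inf_le_right fun a ha =>
    Subgroup.mem_centralizer_singleton_iff.2 (hK a ha _ (hmemK k hk x))
  have hprod : Nat.card K * K.relIndex CL = Nat.card (CL ⊔ K : Subgroup G) := by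
    rw [← Subgroup.relIndex_bot_left, ← Subgroup.relIndex_sup_right (K := K) (H := CL),
      Subgroup.relIndex_mul_relIndex _ _ _ bot_le le_sup_right, Subgroup.relIndex_bot_left]
  have hint : Nat.card (K ⊓ CL : Subgroup G) * K.relIndex CL = Nat.card CL := by
    rw [← Subgroup.inf_relIndex_right K CL, ← Subgroup.relIndex_bot_left,
      Subgroup.relIndex_mul_relIndex _ _ _ bot_le inf_le_right, Subgroup.relIndex_bot_left]
  have hKCL : K ⊓ CL = K ⊓ L := le_antisymm (inf_le_inf_left K inf_le_left) fun a ha =>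
    ⟨ha.1, ha.2, Subgroup.mem_centralizer_singleton_iff.2 (hK a ha.1 _ (hmemK k hk x))⟩
  have hLc : Nat.card CL * CL.relIndex L = Nat.card L := by
    rw [← Subgroup.relIndex_bot_left, Subgroup.relIndex_mul_relIndex _ _ _ bot_le inf_le_left,
      Subgroup.relIndex_bot_left]
  refine lt_of_lt_of_le ?_ (Subgroup.card_le_of_le hCLK)
  rw [← hprod, hLK, ← hKCL, mul_right_comm, hint, ← hLc]
  exact Nat.mul_lt_mul_of_pos_left hlt Nat.card_pos

/-- Let P be a finite p-group whose conjugacy classes have exactly two sizes (1 and one other value). Then P has nilpotency class at most 3. -/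
theorem result {P : Type*} [Group P] [Finite P] {p : ℕ} [Fact p.Prime] (hP : IsPGroup p P)
    (m : ℕ) (hm : 1 < m) (h : ∀ x : P, (Subgroup.centralizer ({x} : Set P)).index = 1 ∨ (Subgroup.centralizer ({x} : Set P)).index = m) :
    upperCentralSeries P 3 = ⊤ := by
  haveI : Fact p.Prime := inferInstance
  obtain ⟨A, -, hAn, hAc, hCA⟩ := CfsgLib.TwoGroups.exists_normal_abelian_centralizer_eq hP
    (inferInstance : (⊥ : Subgroup P).Normal) inferInstance
  haveI := hAn
  have hA : ∀ a ∈ A, ∀ b ∈ A, a * b = b * a := fun a ha b hb =>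
    congrArg Subtype.val (hAc.is_comm.comm (⟨a, ha⟩ : A) ⟨b, hb⟩)
  have hZ : ∀ a ∈ A, ∀ x : P, ⁅a, x⁆ ∈ Subgroup.center P := by
    intro a ha x
    by_cases hy : ⁅a, x⁆ = 1
    · rw [hy]; exact one_mem _
    have hxc : (Subgroup.centralizer ({x} : Set P)).index = m := by
      refine (h x).resolve_left fun h1 => hy ?_
      rw [Subgroup.index_eq_one] at h1
      exact commutatorElement_eq_one_iff_mul_comm.2
        (Subgroup.mem_centralizer_singleton_iff.1 (h1 ▸ Subgroup.mem_top a))
    have hlt := card_centralizer_lt A hA ha hy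
    have hidx : (Subgroup.centralizer ({⁅a, x⁆} : Set P)).index = 1 := by
      refine (h _).resolve_right fun h2 => ?_
      have e1 := (Subgroup.centralizer ({x} : Set P)).card_mul_index
      have e2 := (Subgroup.centralizer ({⁅a, x⁆} : Set P)).card_mul_index
      rw [hxc] at e1
      rw [h2] at e2
      exact absurd (Nat.eq_of_mul_eq_mul_right (by omega) (e1.trans e2.symm)) hlt.ne
    rw [Subgroup.index_eq_one] at hidx
    exact Subgroup.mem_center_iff.2 fun g => Subgroup.mem_centralizer_singleton_iff.1 (hidx ▸ Subgroup.mem_top g)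
  have hA2 : A ≤ Subgroup.upperCentralSeries P 2 := fun a ha =>
    Subgroup.mem_upperCentralSeries_succ_iff.2 fun y => by
      rw [Subgroup.upperCentralSeries_one]
      simpa [commutatorElement_def] using hZ a ha y
  have h3 : ⁅⁅(⊤ : Subgroup P), (⊤ : Subgroup P)⁆, A⁆ = (⊥ : Subgroup P) := by
    have h0 : ⁅⁅(⊤ : Subgroup P), A⁆, (⊤ : Subgroup P)⁆ = ⊥ := by
      rw [← le_bot_iff]
      refine le_trans (Subgroup.commutator_mono ?_ le_rfl)
        (le_of_eq (Subgroup.commutator_eq_bot_iff_le_centralizer.2 ?_) : ⁅Subgroup.center P, ⊤⁆ ≤ ⊥)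
      · rw [Subgroup.commutator_comm, Subgroup.commutator_le]
        exact fun a ha x _ => hZ a ha x
      · exact fun z hz => Subgroup.mem_centralizer_iff.2 fun g _ => Subgroup.mem_center_iff.1 hz g
    have h0' : ⁅⁅A, (⊤ : Subgroup P)⁆, (⊤ : Subgroup P)⁆ = ⊥ := by rw [Subgroup.commutator_comm A]; exact h0
    exact Subgroup.commutator_commutator_eq_bot_of_rotate h0 h0'
  rw [Subgroup.commutator_eq_bot_iff_le_centralizer, hCA] at h3
  refine eq_top_iff.2 fun x _ => Subgroup.mem_upperCentralSeries_succ_iff.2 fun y => hA2 (h3 ?_)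
  simpa [commutatorElement_def] using Subgroup.commutator_mem_commutator (Subgroup.mem_top x) (Subgroup.mem_top y)

end Cfsg.Agent.S4169
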