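import Cfsg.Statements.S4172
import Mathlib
import Cfsg.Agent.Lib.Cores.GenFitting
import Cfsg.Agent.Lib.Subnormal.Join
import Cfsg.Agent.Lib.Transfer.Tate
import Cfsg.Agent.Lib.PGroups.Frattini

set_option autoImplicit false
set_option maxHeartbeats 500000
open Cfsg
open scoped commutatorElement

namespace Cfsg.Agent.S4172

variable {G : Type*} [Group G] [Finite G] {p : ℕ} [Fact p.Prime]

/-- In a perfect group a central `p`-element lies in the derived subgroup of each Sylow. -/
private theorem central_mem {E : Type*} [Group E] [Finite E] [Fact p.Prime]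
    (hperf : commutator E = ⊤) (S : Sylow p E) {z : E} (hz : z ∈ Subgroup.center E)
    (hzS : z ∈ (S : Subgroup E)) : (⟨z, hzS⟩ : (S : Subgroup E)) ∈ commutator (S : Subgroup E) := by
  classical
  let ϕ : (S : Subgroup E) →* Abelianization (S : Subgroup E) := Abelianization.of
  have hV : MonoidHom.transfer ϕ z = 1 :=
    (Abelianization.commutator_subset_ker (MonoidHom.transfer ϕ)) (hperf ▸ Subgroup.mem_top z)
  have key : ∀ (k : ℕ) (g₀ : E), g₀⁻¹ * z ^ k * g₀ ∈ (S : Subgroup E) → g₀⁻¹ * z ^ k * g₀ = z ^ k :=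
    fun k g₀ _ => by
      have := Subgroup.mem_center_iff.mp ((Subgroup.center E).pow_mem hz k) g₀
      rw [mul_assoc, ← this, inv_mul_cancel_left]
  rw [MonoidHom.transfer_eq_pow ϕ z key] at hV
  have h1 : (⟨z, hzS⟩ : (S : Subgroup E)) ^ (S : Subgroup E).index ∈ commutator (S : Subgroup E) := by
    rw [← Abelianization.ker_of, MonoidHom.mem_ker]
    exact hV
  obtain ⟨k, hk⟩ := S.isPGroup' ⟨z, hzS⟩
  have hco : Nat.Coprime (p ^ k) (S : Subgroup E).index :=
    Nat.Coprime.pow_left k ((Fact.out : p.Prime).coprime_iff_not_dvd.mpr S.not_dvd_index)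
  obtain ⟨m, hm⟩ := exists_pow_eq_self_of_coprime (x := (⟨z, hzS⟩ : (S : Subgroup E)))
    (n := (S : Subgroup E).index) (Nat.Coprime.coprime_dvd_left (orderOf_dvd_of_pow_eq_one hk) hco).symm
  rw [← hm]
  exact (commutator _).pow_mem h1 m

/-- Tate: if `P ∩ M ≤ Φ(P)` then the `p'`-elements of `M` generate a `p'`-group. -/
private theorem coprime_residual (P : Sylow p G) (M : Subgroup G)
    (hN : (P : Subgroup G) ≤ Subgroup.normalizer (M : Set G))
    (h : (P : Subgroup G) ⊓ M ≤ (frattini ↥(P : Subgroup G)).map (P : Subgroup G).subtype) :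
    ¬ p ∣ Nat.card (Cfsg.pResidual p ↥M) := by
  classical
  set H := (P : Subgroup G) ⊔ M with hH
  have hPH : (P : Subgroup G) ≤ H := le_sup_left
  have hMH : M ≤ H := le_sup_right
  let PH : Sylow p H := P.subtype hPH
  haveI hMn : (M.subgroupOf H).Normal :=
    (Subgroup.normal_subgroupOf_iff_le_normalizer hMH).mpr (sup_le hN Subgroup.le_normalizer)
  have htop : (PH : Subgroup H) ⊔ M.subgroupOf H = ⊤ := by
    rw [Sylow.coe_subtype, ← Subgroup.subgroupOf_sup hPH hMH, Subgroup.subgroupOf_self]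
  have hres : Cfsg.pResidual p H ≤ M.subgroupOf H := by
    refine CfsgLib.Transfer.pResidual_le_of_isPGroup ?_
    refine PH.isPGroup'.of_surjective ((QuotientGroup.mk' (M.subgroupOf H)).comp (PH : Subgroup H).subtype) ?_
    intro q
    obtain ⟨x, rfl⟩ := QuotientGroup.mk'_surjective _ q
    obtain ⟨a, ha, b, hb, rfl⟩ := Subgroup.mem_sup_of_normal_right.mp (htop ▸ Subgroup.mem_top x)
    refine ⟨⟨a, ha⟩, ?_⟩
    rw [map_mul, show QuotientGroup.mk' (M.subgroupOf H) b = 1 from (QuotientGroup.eq_one_iff b).mpr hb, mul_one]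
    rfl
  have hc : Cfsg.HasNormalPComplement p H := by
    refine CfsgLib.Transfer.hasNormalPComplement_of_inf_le_frattini PH ?_
    rintro x ⟨hx1, hx2⟩
    obtain ⟨y, hy, hyx⟩ := h ⟨hx1, hres hx2⟩
    let j : ↥(P : Subgroup G) ≃* ↥(PH : Subgroup H) :=
      (Subgroup.subgroupOfEquivOfLe hPH).symm.trans (MulEquiv.subgroupCongr rfl)
    refine ⟨j y, ?_, Subtype.ext hyx⟩
    have := frattini_le_comap_frattini_of_surjective (φ := j.toMonoidHom) j.surjective hy
    exact this
  obtain ⟨Q, N, hNn, hNc⟩ := hc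
  have hle := CfsgLib.Transfer.pResidual_le_normalComplement Q hNc
  have hnd := CfsgLib.Transfer.not_dvd_card_normalComplement Q hNc
  intro hd
  apply hnd
  refine hd.trans ?_
  have hle2 : (Cfsg.pResidual p ↥M).map (Subgroup.inclusion hMH) ≤ N :=
    (CfsgLib.Transfer.map_pResidual_le _).trans hle
  rw [← Subgroup.card_map_of_injective (Subgroup.inclusion_injective hMH)]
  exact Subgroup.card_dvd_of_le hle2

/-- A normal subgroup meeting a Sylow inside its Frattini subgroup is trivial. -/
private theorem eq_bot_of_le_frattini (P : Sylow p G) (hcore : Cfsg.pPrimeCore p G = ⊥)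
    (hfrat : ((frattini ↥(P : Subgroup G)).map (P : Subgroup G).subtype).normalCore = ⊥)
    (M : Subgroup G) [hM : M.Normal]
    (h : (P : Subgroup G) ⊓ M ≤ (frattini ↥(P : Subgroup G)).map (P : Subgroup G).subtype) : M = ⊥ := by
  classical
  have hnd := coprime_residual P M (by rw [Subgroup.normalizer_eq_top_iff.mpr hM]; exact le_top) h
  haveI : (Cfsg.pResidual p ↥M).Characteristic := CfsgLib.Transfer.pResidual_characteristic
  have hres : (Cfsg.pResidual p ↥M).map M.subtype = ⊥ := by
    refine le_bot_iff.mp (hcore ▸ CfsgLib.Cores.le_pPrimeCore ?_)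
    rw [Subgroup.card_map_of_injective M.subtype_injective]
    exact ((Fact.out : p.Prime).coprime_iff_not_dvd.mpr hnd).symm
  rw [Subgroup.map_eq_bot_iff_of_injective _ M.subtype_injective] at hres
  have hp : IsPGroup p M := by
    intro x
    obtain ⟨k, hk⟩ := CfsgLib.Transfer.exists_pow_mem_pResidual (p := p) x
    rw [hres, Subgroup.mem_bot] at hk
    exact ⟨k, hk⟩
  have hMP : M ≤ (P : Subgroup G) := (CfsgLib.Cores.le_pCore hp).trans (CfsgLib.Cores.pCore_le_sylow P)
  exact le_bot_iff.mp (hfrat ▸ Subgroup.normal_le_normalCore.mpr ((le_inf hMP le_rfl).trans h))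

/-- A normal subgroup of a two-generated `p`-group outside the Frattini subgroup has cyclic quotient. -/
private theorem exists_sup_eq_top {Q : Type*} [Group Q] [Finite Q] [Fact p.Prime]
    (h2 : (frattini Q).index = p ^ 2) (A : Subgroup Q) (hA : ¬ A ≤ frattini Q) :
    ∃ y : Q, A ⊔ Subgroup.zpowers y = ⊤ := by
  classical
  set B := A ⊔ frattini Q with hB
  have hd : B.index ∣ p ^ 2 := h2 ▸ Subgroup.index_dvd_of_le le_sup_right
  obtain ⟨i, hi, hiB⟩ := (Nat.dvd_prime_pow (Fact.out : p.Prime)).mp hd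
  have hne : B.index ≠ p ^ 2 := by
    intro e
    refine hA ?_
    have hrel := Subgroup.relIndex_mul_index (le_sup_right : frattini Q ≤ B)
    rw [e, h2] at hrel
    have h1 : (frattini Q).relIndex B = 1 :=
      (mul_eq_right₀ (pow_ne_zero 2 (Fact.out : p.Prime).ne_zero)).mp hrel
    exact le_sup_left.trans (Subgroup.relIndex_eq_one.mp h1)
  have hi1 : i = 0 ∨ i = 1 := by
    rcases Nat.lt_or_ge i 2 with h | h
    · omega
    · exact absurd (by rw [hiB, show i = 2 by omega]) hne
  rcases hi1 with rfl | rfl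
  · exact ⟨1, by simp [frattini_nongenerating (Subgroup.index_eq_one.mp (by rw [← hB, hiB, pow_zero]))]⟩
  · have hcoatom : IsCoatom B := by
      refine ⟨fun e => (Fact.out : p.Prime).ne_one ?_, fun C hC => ?_⟩
      · rw [← pow_one p, ← hiB, e, Subgroup.index_top]
      · have hr := Subgroup.relIndex_mul_index hC.le
        rw [hiB, pow_one] at hr
        rcases (Nat.dvd_prime Fact.out).mp (Dvd.intro_left _ hr) with h1 | h1
        · exact Subgroup.index_eq_one.mp h1
        · rw [h1] at hr
          have : B.relIndex C = 1 := (mul_eq_right₀ (Fact.out : p.Prime).ne_zero).mp hr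
          exact absurd (Subgroup.relIndex_eq_one.mp this) hC.not_ge
    obtain ⟨y, hy⟩ : ∃ y, y ∉ B := by
      by_contra hc; push Not at hc; exact hcoatom.1 (eq_top_iff.mpr fun y _ => hc y)
    refine ⟨y, frattini_nongenerating ?_⟩
    rw [sup_right_comm]
    exact hcoatom.2 _ (lt_of_le_of_ne le_sup_left fun e => hy (e ▸ Subgroup.mem_sup_right (Subgroup.mem_zpowers y)))

/-- If `A` and `B` are normal in `Q`, both with cyclic quotient, and meet trivially then `Q` is abelian. -/
private theorem comm_of_two {Q : Type*} [Group Q] (A B : Subgroup Q) [A.Normal] [B.Normal]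
    (hAB : A ⊓ B = ⊥) (hA : ∃ y, A ⊔ Subgroup.zpowers y = ⊤) (hB : ∃ y, B ⊔ Subgroup.zpowers y = ⊤) :
    IsMulCommutative Q := by
  have key : ∀ (C : Subgroup Q) [C.Normal], (∃ y, C ⊔ Subgroup.zpowers y = ⊤) → commutator Q ≤ C := by
    intro C _ ⟨y, hy⟩
    rw [commutator_def, Subgroup.commutator_le]
    intro a _ b _
    obtain ⟨c, hc, w, ⟨i, rfl⟩, rfl⟩ := Subgroup.mem_sup_of_normal_left.mp (hy ▸ Subgroup.mem_top a)
    obtain ⟨d, hd, w', ⟨j, rfl⟩, rfl⟩ := Subgroup.mem_sup_of_normal_left.mp (hy ▸ Subgroup.mem_top b)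
    rw [← QuotientGroup.eq_one_iff, ← QuotientGroup.mk'_apply, map_commutatorElement, map_mul, map_mul,
      show QuotientGroup.mk' C c = 1 from (QuotientGroup.eq_one_iff c).mpr hc,
      show QuotientGroup.mk' C d = 1 from (QuotientGroup.eq_one_iff d).mpr hd, one_mul, one_mul,
      commutatorElement_eq_one_iff_mul_comm, ← map_mul, ← map_mul]
    exact congrArg _ (zpow_mul_comm y i j)
  have h : commutator Q = ⊥ := le_bot_iff.mp (hAB ▸ le_inf (key A hA) (key B hB))
  exact ⟨⟨fun a b => commutatorElement_eq_one_iff_mul_comm.mp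
    (Subgroup.mem_bot.mp (h ▸ Subgroup.commutator_mem_commutator (Subgroup.mem_top a) (Subgroup.mem_top b)))⟩⟩

/-- Let p be a prime and G a finite group with a non-commutative Sylow p-subgroup P whose Frattini subgroup has index p² in P (P is generated by two elements). Suppose G has no nontrivial normal subgroup of order prime to p and the Frattini subgroup of P contains no nontrivial normal subgroup of G. Then the generalized Fitting subgroup F*(G) is the unique minimal normal subgroup of G, the image of P in G/F*(G) is cyclic, and if F*(G) is not commutative then P permutes the components of G transitively by conjugation. -/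
theorem result {G : Type*} [Group G] [Finite G] (p : ℕ) [Fact p.Prime] (P : Sylow p G) (hna : ¬ IsMulCommutative (P : Subgroup G)) (hgen : (frattini ↥(P : Subgroup G)).index = p ^ 2) (hcore : Cfsg.pPrimeCore p G = ⊥) (hfrat : ((frattini ↥(P : Subgroup G)).map (P : Subgroup G).subtype).normalCore = ⊥) [hFn : (Cfsg.generalizedFittingSubgroup G).Normal] :
    (Cfsg.generalizedFittingSubgroup G ≠ ⊥ ∧ ∀ K : Subgroup G, K.Normal → K ≠ ⊥ → Cfsg.generalizedFittingSubgroup G ≤ K) ∧
      IsCyclic ↥((P : Subgroup G).map (QuotientGroup.mk' (Cfsg.generalizedFittingSubgroup G))) ∧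
      (¬ IsMulCommutative (Cfsg.generalizedFittingSubgroup G) → ∀ K L : Subgroup G, Cfsg.IsComponent K → Cfsg.IsComponent L → ∃ x ∈ (P : Subgroup G), L = K.map (MulAut.conj x).toMonoidHom) := by
  classical
  set Φ' := (frattini ↥(P : Subgroup G)).map (P : Subgroup G).subtype with hΦ'
  -- every nontrivial normal subgroup gives a cyclic complementary part
  have hout : ∀ M : Subgroup G, M.Normal → M ≠ ⊥ → ¬ ((P : Subgroup G) ⊓ M ≤ Φ') := fun M hM hne hle =>
    hne (eq_bot_of_le_frattini (hM := hM) P hcore hfrat M hle)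
  have hy : ∀ M : Subgroup G, ¬ ((P : Subgroup G) ⊓ M ≤ Φ') →
      ∃ y, M.subgroupOf (P : Subgroup G) ⊔ Subgroup.zpowers y = ⊤ := fun M h =>
    exists_sup_eq_top hgen _ fun h' => h fun x hx => ⟨⟨x, hx.1⟩, h' hx.2, rfl⟩
  have hPnt : Nontrivial (P : Subgroup G) := by
    by_contra hc
    rw [not_nontrivial_iff_subsingleton] at hc
    exact hna ⟨⟨fun a b => Subsingleton.elim _ _⟩⟩
  haveI : Nontrivial G := Subgroup.subtype_injective (P : Subgroup G) |>.nontrivial
  have htwo : ∀ M₁ M₂ : Subgroup G, M₁.Normal → M₂.Normal → M₁ ≠ ⊥ → M₂ ≠ ⊥ → M₁ ⊓ M₂ ≠ ⊥ := by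
    intro M₁ M₂ h1 h2 hne1 hne2 hdis
    refine hna (comm_of_two (M₁.subgroupOf P) (M₂.subgroupOf P) ?_ (hy _ (hout _ h1 hne1)) (hy _ (hout _ h2 hne2)))
    rw [eq_bot_iff]
    rintro u ⟨hu1, hu2⟩
    rw [Subgroup.mem_bot]
    exact Subtype.ext (Subgroup.mem_bot.mp (hdis ▸ (⟨hu1, hu2⟩ : (u : G) ∈ M₁ ⊓ M₂)))
  obtain ⟨N, ⟨hNn, hNne⟩, hNmin⟩ : ∃ N : Subgroup G, (N.Normal ∧ N ≠ ⊥) ∧
      ∀ K : Subgroup G, (K.Normal ∧ K ≠ ⊥) → K ≤ N → N ≤ K := by
    obtain ⟨N, hN, hmin⟩ := (Set.toFinite {K : Subgroup G | K.Normal ∧ K ≠ ⊥}).exists_minimal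
      ⟨⊤, inferInstance, top_ne_bot⟩
    exact ⟨N, hN, fun K hK hle => hmin hK hle⟩
  have hNle : ∀ K : Subgroup G, K.Normal → K ≠ ⊥ → N ≤ K := fun K hK hne => by
    haveI := hK; haveI := hNn
    exact (hNmin _ ⟨inferInstance, htwo N K hNn hK hNne hne⟩ inf_le_left).trans inf_le_right
  have hNout := hout N hNn hNne
  have hFp : Cfsg.fittingSubgroup G = Cfsg.pCore p G := by
    refine le_antisymm ?_ (CfsgLib.Cores.pCore_le_fittingSubgroup p)
    rw [CfsgLib.Cores.fittingSubgroup_eq_iSup_pCore]
    refine iSup_le fun q => ?_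
    obtain ⟨q, hq⟩ := q
    haveI := Fact.mk (Nat.prime_of_mem_primeFactors hq)
    rcases eq_or_ne q p with rfl | hne
    · exact le_rfl
    · haveI : (Cfsg.pCore q G).Normal := Subgroup.sSup_normal _ fun _ h => h.1
      show Cfsg.pCore q G ≤ _
      refine le_trans ?_ (bot_le (a := Cfsg.pCore p G))
      rw [← hcore]
      refine CfsgLib.Cores.le_pPrimeCore ?_
      obtain ⟨n, hn⟩ := IsPGroup.iff_card.mp (CfsgLib.Cores.isPGroup_pCore q G)
      rw [hn]
      exact Nat.Coprime.pow_left n ((Nat.coprime_primes (Nat.prime_of_mem_primeFactors hq) Fact.out).mpr hne)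
  haveI hFnorm : (Cfsg.fittingSubgroup G).Normal := Subgroup.sSup_normal _ fun _ h => h.1
  -- the main claim
  suffices hmain : Cfsg.generalizedFittingSubgroup G = N ∧
      (¬ IsMulCommutative N → ∀ K L : Subgroup G, Cfsg.IsComponent K → Cfsg.IsComponent L →
        ∃ x ∈ (P : Subgroup G), L = K.map (MulAut.conj x).toMonoidHom) by
    refine ⟨⟨hmain.1 ▸ hNne, fun K hK hne => hmain.1 ▸ hNle K hK hne⟩, ?_, ?_⟩
    · obtain ⟨y, hyt⟩ := hy N hNout
      rw [isCyclic_iff_exists_zpowers_eq_top]
      refine ⟨⟨_, Subgroup.mem_map_of_mem (QuotientGroup.mk' (Cfsg.generalizedFittingSubgroup G)) y.2⟩, ?_⟩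
      rw [eq_top_iff]
      rintro ⟨_, x, hx, rfl⟩ -
      obtain ⟨a, ha, w, ⟨i, rfl⟩, e⟩ := Subgroup.mem_sup_of_normal_left.mp
        (hyt ▸ Subgroup.mem_top (⟨x, hx⟩ : (P : Subgroup G)))
      refine ⟨i, Subtype.ext ?_⟩
      have hxe : x = (a : G) * (y : G) ^ i := by
        rw [← SubgroupClass.coe_zpow, ← Subgroup.coe_mul, e]
      have ha1 : QuotientGroup.mk' (Cfsg.generalizedFittingSubgroup G) (a : G) = 1 :=
        (QuotientGroup.eq_one_iff _).mpr (hmain.1 ▸ ha)
      show QuotientGroup.mk' _ (y : G) ^ i = QuotientGroup.mk' _ x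
      rw [hxe, map_mul, ha1, one_mul, map_zpow]
    · intro hn K L hK hL
      exact hmain.2 (fun hc => hn (by rw [hmain.1]; exact hc)) K L hK hL
  by_cases hF : Cfsg.fittingSubgroup G = ⊥
  · -- no abelian part
    haveI : (Cfsg.layer G).Normal := by
      have : Cfsg.generalizedFittingSubgroup G = Cfsg.layer G := by
        rw [Cfsg.generalizedFittingSubgroup, hF, sup_bot_eq]
      exact this ▸ hFn
    have hgen' : Cfsg.generalizedFittingSubgroup G = Cfsg.layer G := by
      rw [Cfsg.generalizedFittingSubgroup, hF, sup_bot_eq]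
    have hEne : Cfsg.layer G ≠ ⊥ := hgen' ▸ CfsgLib.Cores.generalizedFittingSubgroup_ne_bot
    have hNE := hNle _ inferInstance hEne
    have hab : ∀ S : Subgroup G, S.IsSubnormal → (∀ a ∈ S, ∀ b ∈ S, a * b = b * a) → S = ⊥ := by
      intro S hS hc
      refine le_bot_iff.mp (hF ▸ CfsgLib.Cores.le_fittingSubgroup_of_subnormal hS ?_)
      haveI : IsMulCommutative S := ⟨⟨fun a b => Subtype.ext (hc a a.2 b b.2)⟩⟩
      letI : CommGroup S := { (inferInstance : Group S) with mul_comm := fun a b => Subtype.ext (hc a a.2 b b.2) }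
      exact CommGroup.isNilpotent
    have hall : ∀ K, Cfsg.IsComponent K → K ≤ N := by
      intro K hK
      by_contra hKN
      have hcent := CfsgLib.Cores.le_centralizer_of_not_le hK hNn.isSubnormal hKN
      set M := Subgroup.normalClosure (K : Set G) with hM
      haveI := hNn
      have hMC : M ≤ Subgroup.centralizer (N : Set G) := Subgroup.normalClosure_le_normal hcent
      have hMne : M ≠ ⊥ := fun e => CfsgLib.Cores.ne_bot_of_isComponent hK
        (le_bot_iff.mp (e ▸ Subgroup.subset_normalClosure))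
      have hNM : N ≤ M := hNle M inferInstance hMne
      exact hNne (hab N hNn.isSubnormal fun a ha b hb =>
        (Subgroup.mem_centralizer_iff.mp (hMC (hNM ha)) b hb).symm)
    have hEN : Cfsg.layer G = N := le_antisymm (CfsgLib.Cores.layer_le_iff.mpr hall) hNE
    refine ⟨hgen'.trans hEN, fun _ K L hK hL => ?_⟩
    by_contra hKL
    push Not at hKL
    let orb : Subgroup G → Subgroup G := fun C => ⨆ x : (P : Subgroup G), C.map (MulAut.conj (x : G)).toMonoidHom
    have hcomp : ∀ C, Cfsg.IsComponent C → ∀ g : G, Cfsg.IsComponent (C.map (MulAut.conj g).toMonoidHom) :=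
      fun C hC g => CfsgLib.Cores.isComponent_map_equiv hC (MulAut.conj g)
    have horbN : ∀ C, (P : Subgroup G) ≤ Subgroup.normalizer (orb C : Set G) := by
      intro C g hg
      have hle : ∀ h : G, h ∈ (P : Subgroup G) → ∀ y ∈ orb C, h * y * h⁻¹ ∈ orb C := by
        intro h hh y hy
        have : (orb C).map (MulAut.conj h).toMonoidHom ≤ orb C := by
          simp only [orb, Subgroup.map_iSup]
          refine iSup_le fun x => le_iSup_of_le (⟨h, hh⟩ * x) ?_
          rw [Subgroup.map_map]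
          refine le_of_eq ?_
          congr 1
          ext u; simp [mul_assoc]
        exact this ⟨y, hy, rfl⟩
      rw [Subgroup.mem_normalizer_iff]
      refine fun y => ⟨hle g hg y, fun h' => ?_⟩
      have := hle g⁻¹ ((P : Subgroup G).inv_mem hg) _ h'
      simpa [mul_assoc] using this
    have horbsn : ∀ C, Cfsg.IsComponent C → (orb C).IsSubnormal := fun C hC =>
      CfsgLib.Subnormal.isSubnormal_iSup fun x => (hcomp C hC _).1
    have hle_orb : ∀ C : Subgroup G, C ≤ orb C := fun C => le_iSup_of_le 1 (by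
      intro u hu; exact ⟨u, hu, by simp⟩)
    have horbperf : ∀ C, Cfsg.IsComponent C → orb C ≤ ⁅orb C, orb C⁆ := fun C hC => by
      refine iSup_le fun x => ?_
      rw [← CfsgLib.Cores.commutator_self_eq_of_isComponent (hcomp C hC x)]
      exact Subgroup.commutator_mono (le_iSup_of_le x le_rfl) (le_iSup_of_le x le_rfl)
    have horbout : ∀ C, Cfsg.IsComponent C → ¬ ((P : Subgroup G) ⊓ orb C ≤ Φ') := by
      intro C hC hle
      have hnd := coprime_residual P (orb C) (horbN C) hle
      haveI : (Cfsg.pResidual p ↥(orb C)).Normal := CfsgLib.Transfer.pResidual_normal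
      have htop : Cfsg.pResidual p ↥(orb C) = ⊤ := by
        set R := Cfsg.pResidual p ↥(orb C)
        have hperf : commutator ↥(orb C) = ⊤ := by
          refine eq_top_iff.mpr fun u _ => ?_
          have h1 := horbperf C hC u.2
          rw [← Subgroup.map_subtype_commutator] at h1
          obtain ⟨v, hv, hvu⟩ := h1
          rwa [← Subtype.ext hvu]
        by_contra hR
        haveI : Nontrivial (↥(orb C) ⧸ R) := QuotientGroup.nontrivial_iff.mpr hR
        haveI : Group.IsNilpotent (↥(orb C) ⧸ R) := (CfsgLib.Transfer.isPGroup_quotient_pResidual).isNilpotent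
        refine (Group.IsSolvable.commutator_lt_top_of_nontrivial (↥(orb C) ⧸ R)).ne ?_
        rw [commutator_def, ← Subgroup.map_top_of_surjective _ (QuotientGroup.mk'_surjective R),
          ← Subgroup.map_commutator, ← commutator_def, hperf]
      rw [htop, Subgroup.card_top] at hnd
      refine CfsgLib.Cores.ne_bot_of_isComponent hC (le_bot_iff.mp (hcore ▸
        ((hle_orb C).trans (CfsgLib.Cores.le_pPrimeCore_of_subnormal (horbsn C hC) ?_))))
      exact ((Fact.out : p.Prime).coprime_iff_not_dvd.mpr hnd).symm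
    haveI : ((orb K).subgroupOf (P : Subgroup G)).Normal :=
      Subgroup.normal_subgroupOf_iff_le_normalizer_inf.mpr
        ((le_inf (horbN K) Subgroup.le_normalizer).trans (Subgroup.inf_normalizer_le_normalizer_inf))
    haveI : ((orb L).subgroupOf (P : Subgroup G)).Normal :=
      Subgroup.normal_subgroupOf_iff_le_normalizer_inf.mpr
        ((le_inf (horbN L) Subgroup.le_normalizer).trans (Subgroup.inf_normalizer_le_normalizer_inf))
    refine hna (comm_of_two ((orb K).subgroupOf P) ((orb L).subgroupOf P) (hA := hy _ (horbout K hK))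
      (hB := hy _ (horbout L hL)) ?_)
    have hcomm : orb K ≤ Subgroup.centralizer (orb L : Set G) := by
      refine iSup_le fun x => ?_
      rw [← Subgroup.commutator_eq_bot_iff_le_centralizer, Subgroup.commutator_comm,
        Subgroup.commutator_eq_bot_iff_le_centralizer]
      refine iSup_le fun x' => CfsgLib.Cores.le_centralizer_of_isComponent_ne (hcomp L hL _) (hcomp K hK _) fun e => ?_
      refine hKL ((x'⁻¹ * x : (P : Subgroup G)) : G) (Subtype.prop _) ?_
      have e2 := congrArg (Subgroup.map (MulAut.conj ((x' : G)⁻¹)).toMonoidHom) e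
      rw [Subgroup.map_map, Subgroup.map_map] at e2
      rw [show ((x'⁻¹ * x : (P : Subgroup G)) : G) = (x' : G)⁻¹ * (x : G) from rfl]
      have a1 : (MulAut.conj ((x' : G)⁻¹)).toMonoidHom.comp (MulAut.conj (x' : G)).toMonoidHom = MonoidHom.id G := by
        ext u; simp [mul_assoc]
      have a2 : (MulAut.conj ((x' : G)⁻¹)).toMonoidHom.comp (MulAut.conj (x : G)).toMonoidHom =
          (MulAut.conj ((x' : G)⁻¹ * (x : G))).toMonoidHom := by
        ext u; simp [mul_assoc]
      rw [a1, a2, Subgroup.map_id] at e2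
      exact e2
    rw [eq_bot_iff]
    rintro u ⟨hu1, hu2⟩
    have hinf : orb K ⊓ orb L = ⊥ := by
      set Z : Subgroup G := (Subgroup.center (orb K)).map (orb K).subtype with hZ
      have hZsn : Z.IsSubnormal := Subgroup.IsSubnormal.trans' ((inferInstance : (Subgroup.center (orb K)).Normal).isSubnormal) (horbsn K hK)
      have hZab : Z = ⊥ := hab Z hZsn (by
        rintro _ ⟨a, ha, rfl⟩ _ ⟨b, -, rfl⟩
        exact (congrArg Subtype.val (Subgroup.mem_center_iff.mp ha b)).symm)
      rw [eq_bot_iff, ← hZab]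
      rintro v ⟨hv1, hv2⟩
      exact ⟨⟨v, hv1⟩, Subgroup.mem_center_iff.mpr fun w =>
        Subtype.ext (Subgroup.mem_centralizer_iff.mp (hcomm w.2) v hv2).symm, rfl⟩
    rw [Subgroup.mem_bot]
    exact Subtype.ext (Subgroup.mem_bot.mp (hinf ▸ (⟨hu1, hu2⟩ : (u : G) ∈ orb K ⊓ orb L)))
  · -- the Fitting subgroup is an elementary abelian p-group
    set R := Cfsg.fittingSubgroup G with hRdef
    have hRne : R ≠ ⊥ := hF
    have hNR : N ≤ R := hNle R hFnorm hRne
    have hRp : IsPGroup p R := by rw [hFp]; exact CfsgLib.Cores.isPGroup_pCore p G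
    have hRP : R ≤ (P : Subgroup G) := by rw [hFp]; exact CfsgLib.Cores.pCore_le_sylow P
    have hfR : (frattini ↥R).map R.subtype = ⊥ := by
      haveI := hFnorm
      refine le_bot_iff.mp (hfrat ▸ Subgroup.normal_le_normalCore.mpr ?_)
      have h1 := CfsgLib.PGroups.map_frattini_le P.isPGroup' (R.subgroupOf P)
      rintro _ ⟨r, hr, rfl⟩
      let j : ↥R ≃* ↥(R.subgroupOf (P : Subgroup G)) := (Subgroup.subgroupOfEquivOfLe hRP).symm
      have hj : j r ∈ frattini ↥(R.subgroupOf (P : Subgroup G)) :=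
        frattini_le_comap_frattini_of_surjective (φ := j.toMonoidHom) j.surjective hr
      exact ⟨_, h1 ⟨j r, hj, rfl⟩, rfl⟩
    rw [Subgroup.map_eq_bot_iff_of_injective _ R.subtype_injective, CfsgLib.PGroups.frattini_eq_bot_iff hRp] at hfR
    obtain ⟨hRc, hRexp⟩ := hfR
    have hNP : N ≤ (P : Subgroup G) := hNR.trans hRP
    have hE : Cfsg.layer G = ⊥ := by
      by_contra hE
      haveI : (Cfsg.layer G).Normal := Subgroup.normalizer_eq_top_iff.mp (eq_top_iff.mpr fun g _ => by
        rw [Subgroup.mem_normalizer_iff]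
        intro x
        have hinv : ∀ h : G, (Cfsg.layer G).map (MulAut.conj h).toMonoidHom = Cfsg.layer G := fun h =>
          CfsgLib.Cores.map_layer_equiv (MulAut.conj h)
        constructor
        · intro hx; rw [← hinv g]; exact ⟨x, hx, rfl⟩
        · intro hx
          rw [← hinv g⁻¹]
          exact ⟨_, hx, by simp [mul_assoc]⟩)
      set E := Cfsg.layer G with hEdef
      have hNE := hNle E inferInstance hE
      have hperf : commutator ↥E = ⊤ := (CfsgLib.Cores.isPerfect_layer G).commutator_eq_top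
      obtain ⟨S⟩ : Nonempty (Sylow p ↥E) := inferInstance
      obtain ⟨Q, hQ⟩ := (S.isPGroup'.map E.subtype).exists_le_sylow
      obtain ⟨g, hg⟩ := MulAction.exists_smul_eq G Q P
      apply hNout
      intro z hz
      haveI := hNn
      set w := g⁻¹ * z * g with hwdef
      have hw : w ∈ N := by simpa [hwdef] using hNn.conj_mem z hz.2 g⁻¹
      have hwc : (⟨w, hNE hw⟩ : ↥E) ∈ Subgroup.center ↥E := Subgroup.mem_center_iff.mpr fun e =>
        Subtype.ext (commutatorElement_eq_one_iff_mul_comm.mp (Subgroup.mem_bot.mp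
          (CfsgLib.Cores.commutator_layer_fittingSubgroup (G := G) ▸
            Subgroup.commutator_mem_commutator e.2 (hNR hw))))
      have hwS : (⟨w, hNE hw⟩ : ↥E) ∈ (S : Subgroup ↥E) := by
        have hwp : IsPGroup p (N.subgroupOf E) :=
          (hRp.to_le hNR).of_equiv (Subgroup.subgroupOfEquivOfLe hNE).symm
        haveI : (N.subgroupOf E).Normal := inferInstance
        exact (CfsgLib.Cores.le_pCore hwp).trans (CfsgLib.Cores.pCore_le_sylow S) hw
      have h1 := central_mem hperf S hwc hwS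
      let f : ↥(S : Subgroup ↥E) →* ↥(P : Subgroup G) :=
        ((MulAut.conj g).toMonoidHom.comp (E.subtype.comp (S : Subgroup ↥E).subtype)).codRestrict _ fun x => by
          rw [← hg]
          exact Subgroup.smul_mem_pointwise_smul _ (MulAut.conj g) _ (hQ ⟨_, x.2, rfl⟩)
      have h2 : f ⟨⟨w, hNE hw⟩, hwS⟩ ∈ frattini ↥(P : Subgroup G) := by
        refine CfsgLib.PGroups.commutator_le_frattini P.isPGroup' ?_
        have h3 : (commutator ↥(S : Subgroup ↥E)).map f ≤ commutator ↥(P : Subgroup G) := by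
          rw [commutator_def, Subgroup.map_commutator]
          exact Subgroup.commutator_mono le_top le_top
        exact h3 ⟨_, h1, rfl⟩
      refine ⟨_, h2, ?_⟩
      show g * w * g⁻¹ = z
      rw [hwdef]; group
    have hgen' : Cfsg.generalizedFittingSubgroup G = R := by
      rw [Cfsg.generalizedFittingSubgroup, hE, bot_sup_eq]
    refine ⟨hgen'.trans (le_antisymm ?_ hNR), fun hc => absurd (⟨⟨fun a b => Subtype.ext ?_⟩⟩ : IsMulCommutative N) hc⟩
    swap
    · exact (congrArg (Subtype.val : R → G) (hRc ⟨a, hNR a.2⟩ ⟨b, hNR b.2⟩) :)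
    obtain ⟨y, hyt⟩ := hy N hNout
    by_contra hRN
    -- an element of R outside N centralised by P
    obtain ⟨r, hr, hrN⟩ : ∃ r ∈ R, r ∉ N := Set.not_subset.mp hRN
    obtain ⟨a, ha, w, ⟨i, rfl⟩, e⟩ := Subgroup.mem_sup_of_normal_left.mp
      (hyt ▸ Subgroup.mem_top (⟨r, hRP hr⟩ : (P : Subgroup G)))
    set c : G := (y : G) ^ i with hc
    have hre : r = (a : G) * c := by
      rw [hc, ← SubgroupClass.coe_zpow, ← Subgroup.coe_mul, e]
    have hcR : c ∈ R := by
      rw [show c = (a : G)⁻¹ * r by rw [hre]; group]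
      exact R.mul_mem (R.inv_mem (hNR ha)) hr
    have hcN : c ∉ N := fun h => hrN (hre ▸ N.mul_mem ha h)
    have hcP : ∀ x ∈ (P : Subgroup G), x * c * x⁻¹ = c := by
      intro x hx
      obtain ⟨b, hb, w', ⟨j, rfl⟩, e'⟩ := Subgroup.mem_sup_of_normal_left.mp
        (hyt ▸ Subgroup.mem_top (⟨x, hx⟩ : (P : Subgroup G)))
      have hxe : x = (b : G) * (y : G) ^ j := by
        rw [← SubgroupClass.coe_zpow, ← Subgroup.coe_mul, e']
      have h1 : (b : G) * c = c * (b : G) := congrArg Subtype.val (hRc ⟨b, hNR hb⟩ ⟨c, hcR⟩)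
      have h2 : (y : G) ^ j * c = c * (y : G) ^ j := zpow_mul_comm (y : G) j i
      calc x * c * x⁻¹ = (b : G) * ((y : G) ^ j * c) * ((y : G) ^ j)⁻¹ * (b : G)⁻¹ := by rw [hxe]; group
        _ = (b : G) * c * (b : G)⁻¹ := by rw [h2]; group
        _ = c := by rw [h1]; group
    set C := Subgroup.zpowers c with hC
    have hdis : ∀ u, u ∈ N → u ∈ C → u = 1 := by
      rintro u hu ⟨j, rfl⟩
      by_contra hne
      apply hcN
      have hord : orderOf c = p := orderOf_eq_prime
        (congrArg Subtype.val (hRexp ⟨c, hcR⟩)) (fun h => hcN (h ▸ N.one_mem))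
      have hgcd : Subgroup.zpowers (c ^ j) = Subgroup.zpowers c := by
        have hle : Subgroup.zpowers (c ^ j) ≤ Subgroup.zpowers c := Subgroup.zpowers_le.mpr ⟨j, rfl⟩
        refine Subgroup.eq_of_le_of_card_ge hle ?_
        rw [Nat.card_zpowers, Nat.card_zpowers, hord]
        have h5 : orderOf (c ^ j) ∣ p := hord ▸ orderOf_dvd_of_mem_zpowers ⟨j, rfl⟩
        rcases (Nat.dvd_prime Fact.out).mp h5 with h6 | h6
        · exact absurd (orderOf_eq_one_iff.mp h6) hne
        · rw [h6]
      exact Subgroup.zpowers_le.mpr hu (hgcd ▸ Subgroup.mem_zpowers c)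
    -- the projection and its average
    haveI := hFnorm
    letI : CommGroup R := { (inferInstance : Group R) with mul_comm := hRc }
    have hNC : ∀ v : R, ∃ n : R, (n : G) ∈ N ∧ (n : G)⁻¹ * (v : G) ∈ C := by
      intro v
      obtain ⟨b, hb, w', ⟨j, rfl⟩, e'⟩ := Subgroup.mem_sup_of_normal_left.mp
        (hyt ▸ Subgroup.mem_top (⟨(v : G), hRP v.2⟩ : (P : Subgroup G)))
      have hve : (v : G) = (b : G) * (y : G) ^ j := by
        rw [← SubgroupClass.coe_zpow, ← Subgroup.coe_mul, e']
      refine ⟨⟨b, hNR hb⟩, hb, ?_⟩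
      -- the element v lies in N times the powers of y, and R meets those in N times C
      have hyj : (y : G) ^ j ∈ R := by
        rw [show (y : G) ^ j = (b : G)⁻¹ * v by rw [hve]; group]
        exact R.mul_mem (R.inv_mem (hNR hb)) v.2
      show (b : G)⁻¹ * (v : G) ∈ C
      rw [hve, inv_mul_cancel_left]
      -- cyclic group of exponent p
      let Y : Subgroup G := R ⊓ Subgroup.zpowers (y : G)
      haveI : IsCyclic Y := isCyclic_of_surjective
        (Subgroup.subgroupOfEquivOfLe (inf_le_right : Y ≤ Subgroup.zpowers (y : G))).toMonoidHom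
        (Subgroup.subgroupOfEquivOfLe (inf_le_right : Y ≤ Subgroup.zpowers (y : G))).surjective
      have hcY : c ∈ Y := ⟨hcR, i, rfl⟩
      have hcard : Nat.card Y ≤ p := by
        rw [← IsCyclic.exponent_eq_card]
        refine Nat.le_of_dvd (Fact.out : p.Prime).pos (Monoid.exponent_dvd_of_forall_pow_eq_one fun u => ?_)
        exact Subtype.ext (by
          have := congrArg Subtype.val (hRexp ⟨(u : G), u.2.1⟩)
          simpa using this)
      have : C = Y := by
        refine Subgroup.eq_of_le_of_card_ge (Subgroup.zpowers_le.mpr hcY) ?_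
        rw [hC, Nat.card_zpowers, orderOf_eq_prime (x := c) (congrArg Subtype.val (hRexp ⟨c, hcR⟩)) (fun h => hcN (h ▸ N.one_mem))]
        exact hcard
      rw [this]; exact ⟨hyj, j, rfl⟩
    choose π hπN hπC using hNC
    have huniq : ∀ v n : R, (n : G) ∈ N → (n : G)⁻¹ * (v : G) ∈ C → π v = n := by
      intro v n hn hnC
      refine Subtype.ext (inv_mul_eq_one.mp (hdis ((π v : G)⁻¹ * (n : G)) (N.mul_mem (N.inv_mem (hπN v)) hn) ?_))
      rw [show (π v : G)⁻¹ * (n : G) = ((π v : G)⁻¹ * v) * ((n : G)⁻¹ * v)⁻¹ by group]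
      exact C.mul_mem (hπC v) (C.inv_mem hnC)
    let π' : R →* R := MonoidHom.mk' π fun u v => by
      refine huniq _ _ (N.mul_mem (hπN u) (hπN v)) ?_
      have h1 : ((π v : G))⁻¹ * ((π u : G)⁻¹ * u) = ((π u : G)⁻¹ * u) * ((π v : G))⁻¹ :=
        congrArg Subtype.val (mul_comm (π v)⁻¹ ((π u)⁻¹ * u))
      rw [Subgroup.coe_mul, Subgroup.coe_mul, show ((π u : G) * (π v : G))⁻¹ * ((u : G) * v) =
        (π v : G)⁻¹ * ((π u : G)⁻¹ * u) * v by group, h1, mul_assoc]
      exact C.mul_mem (hπC u) (hπC v)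
    let κ : G → MulAut R := fun g => MulAut.conjNormal g
    have hPeq : ∀ x ∈ (P : Subgroup G), ∀ v, π (κ x v) = κ x (π v) := by
      intro x hx v
      haveI := hNn
      refine huniq _ _ (by simpa [κ] using hNn.conj_mem _ (hπN v) x) ?_
      obtain ⟨j, hj⟩ := hπC v
      refine ⟨j, ?_⟩
      have hj' : c ^ j = (π v : G)⁻¹ * (v : G) := hj
      simp only [κ, MulAut.conjNormal_apply]
      calc c ^ j = x * c ^ j * x⁻¹ := by rw [← conj_zpow, hcP x hx]
        _ = _ := by rw [hj']; group
    haveI : Fintype (G ⧸ (P : Subgroup G)) := Fintype.ofFinite _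
    let F : G → R →* R := fun g => ((κ g).toMonoidHom.comp π').comp (κ g⁻¹).toMonoidHom
    have hκmul : ∀ g h : G, ∀ v, κ (g * h) v = κ g (κ h v) := fun g h v => by
      simp only [κ, map_mul, MulAut.mul_apply]
    have hF : ∀ g h : G, (g : G ⧸ (P : Subgroup G)) = h → F g = F h := by
      intro g h hgh
      obtain ⟨x, hx, rfl⟩ : ∃ x ∈ (P : Subgroup G), h = g * x := ⟨g⁻¹ * h, QuotientGroup.eq.mp hgh, by group⟩
      refine MonoidHom.ext fun v => ?_
      show κ g (π (κ g⁻¹ v)) = κ (g * x) (π (κ (g * x)⁻¹ v))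
      rw [mul_inv_rev, hκmul, hκmul, ← hPeq x hx, ← hκmul x x⁻¹, mul_inv_cancel]
      simp [κ]
    let avgπ : R →* R := ∏ q : G ⧸ (P : Subgroup G), F q.out
    have havg : ∀ v, avgπ v = ∏ q : G ⧸ (P : Subgroup G), F q.out v := fun v => MonoidHom.finsetProd_apply _ _ _
    have hequiv : ∀ g v, avgπ (κ g v) = κ g (avgπ v) := by
      intro g v
      rw [havg, havg, map_prod, ← Equiv.prod_comp (MulAction.toPerm g : Equiv.Perm (G ⧸ (P : Subgroup G)))
        (fun q => F q.out (κ g v))]
      refine Finset.prod_congr rfl fun q _ => ?_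
      rw [MulAction.toPerm_apply, hF (g • q).out (g * q.out) (by rw [QuotientGroup.out_eq', ← smul_eq_mul, ← MulAction.Quotient.smul_coe, QuotientGroup.out_eq'])]
      show κ (g * q.out) (π (κ (g * q.out)⁻¹ (κ g v))) = κ g (κ q.out (π (κ q.out⁻¹ v)))
      rw [hκmul, ← hκmul (g * q.out)⁻¹ g, mul_inv_rev, inv_mul_cancel_right]
    have hfix : ∀ v : R, (v : G) ∈ N → avgπ v = v ^ (P : Subgroup G).index := by
      intro v hv
      rw [havg, Subgroup.index, Nat.card_eq_fintype_card, ← Finset.card_univ, ← Finset.prod_const]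
      refine Finset.prod_congr rfl fun q _ => ?_
      show κ q.out (π (κ q.out⁻¹ v)) = v
      rw [huniq (κ q.out⁻¹ v) (κ q.out⁻¹ v) (by simpa [κ] using hNn.conj_mem _ hv q.out⁻¹) (by simp [C.one_mem]),
        ← hκmul, mul_inv_cancel]
      simp [κ]
    have hker : avgπ.ker = ⊥ := by
      haveI : (avgπ.ker.map R.subtype).Normal := by
        refine ⟨?_⟩
        rintro _ ⟨v, hv, rfl⟩ g
        refine ⟨κ g v, ?_, by simp [κ]⟩
        rw [SetLike.mem_coe, MonoidHom.mem_ker, hequiv, MonoidHom.mem_ker.mp hv, map_one]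
      by_contra hne
      have hmap : avgπ.ker.map R.subtype ≠ ⊥ := fun h =>
        hne ((Subgroup.map_eq_bot_iff_of_injective _ R.subtype_injective).mp h)
      apply hNne
      rw [eq_bot_iff]
      intro n hn
      obtain ⟨v, hv, rfl⟩ := hNle _ inferInstance hmap hn
      rw [SetLike.mem_coe, MonoidHom.mem_ker, hfix v hn] at hv
      have hco : Nat.Coprime (orderOf v) (P : Subgroup G).index := by
        refine Nat.Coprime.coprime_dvd_left (orderOf_dvd_of_pow_eq_one (hRexp v)) ?_
        exact (Fact.out : p.Prime).coprime_iff_not_dvd.mpr P.not_dvd_index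
      rw [Subgroup.mem_bot, Subgroup.coe_subtype]
      exact congrArg Subtype.val (orderOf_eq_one_iff.mp
        (Nat.eq_one_of_dvd_coprimes hco dvd_rfl (orderOf_dvd_of_pow_eq_one hv)))
    have hrange : avgπ.range ≤ N.subgroupOf R := by
      rintro _ ⟨v, rfl⟩
      rw [havg]
      refine Subgroup.prod_mem _ fun q _ => ?_
      rw [Subgroup.mem_subgroupOf]
      show (κ q.out (π (κ q.out⁻¹ v)) : G) ∈ N
      simpa [κ] using hNn.conj_mem _ (hπN (κ q.out⁻¹ v)) q.out
    have hcardle : Nat.card R ≤ Nat.card (N.subgroupOf R) := by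
      rw [← Nat.card_congr (MonoidHom.ofInjective ((MonoidHom.ker_eq_bot_iff _).mp hker)).toEquiv.symm]
      exact Subgroup.card_le_of_le hrange
    have := Subgroup.eq_top_of_le_card _ hcardle
    exact hRN (Subgroup.subgroupOf_eq_top.mp this)

end Cfsg.Agent.S4172
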