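import Cfsg.Statements.S4176
import Cfsg.Agent.Lib.NormalComplements.CoprimeOrbits
import Cfsg.Agent.Lib.PSolvable.Basic
import Mathlib.LinearAlgebra.Dimension.Finrank

set_option autoImplicit false
open Cfsg CfsgLib.NormalComplements.CoprimeOrbits

namespace Cfsg.Agent.S4176

universe u v w

private theorem main (n : ℕ) : ∀ {k : Type u} {V : Type v} {H : Type w} [Field k] (p : ℕ) [Fact p.Prime]
    [CharP k p] [AddCommGroup V] [Module k V] [Group H] [Finite H], Nat.card H ≤ n →
    Cfsg.IsPSolvable p H → ∀ (ρ : Representation k H V) (a : V),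
    (∃ P : Sylow p H, ∀ x : H, x ∈ (P : Subgroup H) → ρ x a = a) →
    Submodule.span k {u : V | ∃ h : H, ρ h a = u} = ⊤ →
    (∃ w : V, ∀ v : V, (∀ h, ρ h v = v) → v ∈ k ∙ w) ∧
    ∀ b : V, (Nat.card {u : V | ∃ h : H, ρ h a = u}).Coprime (Nat.card {u : V | ∃ h : H, ρ h b = u}) →
      ∀ h : H, ρ h b = b := by
  induction n with
  | zero =>
    intro k V H _ p _ _ _ _ _ _ hcard
    exact absurd hcard (not_le.mpr Nat.card_pos)
  | succ n ih =>
    intro k V H _ p _ _ _ _ _ _ hcard hsol ρ a hfix hspan
    classical
    rcases subsingleton_or_nontrivial H with hH | hH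
    · have hfx : ∀ (v : V) (h : H), ρ h v = v := fun v h => by rw [Subsingleton.elim h 1]; simp
      refine ⟨⟨a, fun v _ => ?_⟩, fun b _ h => hfx b h⟩
      have : {u : V | ∃ h : H, ρ h a = u} = {a} := by
        ext u; simp [hfx a, eq_comm]
      rw [← this, hspan]; trivial
    · have quot : ∀ (N : Subgroup H) [N.Normal], N ≠ ⊥ →
          Nat.card (H ⧸ N) ≤ n ∧ Cfsg.IsPSolvable p (H ⧸ N) := by
        intro N _ hN
        refine ⟨?_, CfsgLib.PSolvable.isPSolvable_quotient hsol N⟩
        have h1 := Subgroup.card_eq_card_quotient_mul_card_subgroup N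
        have h2 : 1 < Nat.card N := by
          have := (Subgroup.one_lt_card_iff_ne_bot N).mpr hN
          exact this
        have h3 : Nat.card (H ⧸ N) * 2 ≤ Nat.card H := h1 ▸ Nat.mul_le_mul_left _ h2
        have h4 : 0 < Nat.card (H ⧸ N) := Nat.card_pos
        omega
      obtain ⟨P, hP⟩ := hfix
      rcases CfsgLib.PSolvable.core_ne_bot hsol with hp | hp
      · -- a normal p-subgroup fixes the spanning orbit
        set N := Cfsg.pCore p H with hNdef
        haveI : N.Normal := Subgroup.sSup_normal _ fun _ h => h.1
        have hfx : ∀ (m : H), m ∈ N → ∀ v : V, ρ m v = v := by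
          intro m hm v
          have hle : Submodule.span k {u : V | ∃ h : H, ρ h a = u} ≤
              LinearMap.eqLocus (ρ m) (LinearMap.id) := by
            refine Submodule.span_le.mpr ?_
            rintro _ ⟨h, rfl⟩
            show ρ m (ρ h a) = ρ h a
            have : ρ (h⁻¹ * m * h) a = a := hP _ (CfsgLib.Cores.pCore_le_sylow P
              (by simpa using Subgroup.Normal.conj_mem inferInstance m hm h⁻¹))
            conv_rhs => rw [← this]
            rw [← rho_mul_apply, ← rho_mul_apply]
            simp [mul_assoc]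
          exact hle (hspan ▸ Submodule.mem_top)
        let ρ' : Representation k (H ⧸ N) V := QuotientGroup.con N |>.lift ρ (fun x y hxy => by
          have hm : x⁻¹ * y ∈ N := QuotientGroup.leftRel_apply.mp hxy
          refine LinearMap.ext fun v => ?_
          show ρ x v = ρ y v
          conv_lhs => rw [← hfx _ hm v, ← rho_mul_apply]
          simp)
        have hrho : ∀ (h : H) (v : V), ρ' (h : H ⧸ N) v = ρ h v := fun h v => rfl
        have horb : ∀ v : V, {u : V | ∃ q : H ⧸ N, ρ' q v = u} = {u : V | ∃ h : H, ρ h v = u} := by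
          intro v; ext u; constructor
          · rintro ⟨q, rfl⟩
            induction q using QuotientGroup.induction_on with | H x => exact ⟨x, rfl⟩
          · rintro ⟨h, rfl⟩; exact ⟨h, rfl⟩
        obtain ⟨h1, h2⟩ := ih (k := k) (V := V) (H := H ⧸ N) p (quot N hp).1 (quot N hp).2 ρ' a
          ⟨P.mapSurjective (QuotientGroup.mk'_surjective N), fun x hx => by
            obtain ⟨y, hy, rfl⟩ := hx
            exact hP y hy⟩ (by rw [horb]; exact hspan)
        obtain ⟨w, hw⟩ := h1
        refine ⟨⟨w, fun v hv => hw v fun q => ?_⟩, fun b hb h => ?_⟩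
        · induction q using QuotientGroup.induction_on with | H x => exact hv x
        · exact h2 b (by rw [horb, horb]; exact hb) (h : H ⧸ N)
      · -- a normal p'-subgroup: average over it
        set N := Cfsg.pPrimeCore p H with hNdef
        haveI : N.Normal := Subgroup.sSup_normal _ fun _ h => h.1
        have hNk : (Nat.card N : k) ≠ 0 := fun h =>
          CfsgLib.Cores.not_dvd_card_pPrimeCore ((CharP.cast_eq_zero_iff k p _).mp h)
        set V0 : Submodule k V := LinearMap.range (avg ρ N) with hV0
        have hfx0 : ∀ (v : V), v ∈ V0 → ∀ m ∈ N, ρ m v = v := by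
          rintro _ ⟨v, rfl⟩ m hm; exact avg_mem_fixed ρ N hm v
        have hinv : ∀ (h : H) (v : V), v ∈ V0 → ρ h v ∈ V0 := by
          rintro h _ ⟨v, rfl⟩; exact ⟨ρ h v, avg_comm ρ N h v⟩
        let σ : Representation k H V0 :=
          { toFun := fun h => (ρ h).restrict (fun v hv => hinv h v hv)
            map_one' := by ext v; simp
            map_mul' := fun x y => by ext v; exact rho_mul_apply ρ x y _ }
        have hσ : ∀ (h : H) (v : V0), ((σ h v : V0) : V) = ρ h v := fun h v => rfl
        let ρ' : Representation k (H ⧸ N) V0 := QuotientGroup.con N |>.lift σ (fun x y hxy => by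
          have hm : x⁻¹ * y ∈ N := QuotientGroup.leftRel_apply.mp hxy
          refine LinearMap.ext fun v => Subtype.ext ?_
          show ρ x (v : V) = ρ y (v : V)
          conv_lhs => rw [← hfx0 _ v.2 _ hm, ← rho_mul_apply]
          simp)
        have hrho : ∀ (h : H) (v : V0), ((ρ' (h : H ⧸ N) v : V0) : V) = ρ h v := fun h v => rfl
        have horb : ∀ v : V0, Nat.card {u : V0 | ∃ q : H ⧸ N, ρ' q v = u} =
            (repStab ρ (v : V)).index := by
          intro v
          rw [← card_repOrbit]
          refine Nat.card_congr (Equiv.ofBijective (fun u => ⟨((u : V0) : V), ?_⟩) ⟨?_, ?_⟩)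
          · obtain ⟨q, hq⟩ := u.2
            induction q using QuotientGroup.induction_on with
            | H x => exact ⟨x, by rw [← hq]; exact (hrho x v).symm⟩
          · intro x y hxy
            exact Subtype.ext (Subtype.ext (by simpa only [Subtype.mk.injEq] using hxy))
          · rintro ⟨u, h, rfl⟩
            exact ⟨⟨ρ' (h : H ⧸ N) v, _, rfl⟩, rfl⟩
        let a0 : V0 := ⟨avg ρ N a, LinearMap.mem_range_self _ a⟩
        have hspan0 : Submodule.span k {u : V0 | ∃ q : H ⧸ N, ρ' q a0 = u} = ⊤ := by
          rw [eq_top_iff]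
          rintro ⟨u, v, rfl⟩ -
          have hle : Submodule.span k {u : V | ∃ h : H, ρ h a = u} ≤
              (Submodule.span k {u : V0 | ∃ q : H ⧸ N, ρ' q a0 = u}).comap
                (LinearMap.rangeRestrict (avg ρ N)) := by
            refine Submodule.span_le.mpr ?_
            rintro _ ⟨h, rfl⟩
            refine Submodule.subset_span ⟨(h : H ⧸ N), Subtype.ext ?_⟩
            exact (avg_comm ρ N h a).symm
          exact hle (hspan ▸ Submodule.mem_top (x := v))
        obtain ⟨h1, h2⟩ := ih (k := k) (V := V0) (H := H ⧸ N) p (quot N hp).1 (quot N hp).2 ρ' a0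
          ⟨P.mapSurjective (QuotientGroup.mk'_surjective N), fun x hx => by
            obtain ⟨y, hy, rfl⟩ := hx
            refine Subtype.ext ?_
            show ρ y (avg ρ N a) = avg ρ N a
            rw [← avg_comm, hP y hy]⟩ hspan0
        obtain ⟨w, hw⟩ := h1
        refine ⟨⟨w, fun v hv => ?_⟩, fun b hb => ?_⟩
        · have hv0 : v ∈ V0 := ⟨v, avg_of_fixed ρ N hNk fun m _ => hv m⟩
          have := hw ⟨v, hv0⟩ fun q => by
            induction q using QuotientGroup.induction_on with | H x => exact Subtype.ext (hv x)
          obtain ⟨c, hc⟩ := Submodule.mem_span_singleton.mp this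
          exact Submodule.mem_span_singleton.mpr ⟨c, congrArg Subtype.val hc⟩
        · rw [card_repOrbit, card_repOrbit] at hb
          obtain ⟨hb0, -⟩ := fixed_of_coprime_orbit ρ N hNk a hspan b hb
          intro h
          have := h2 ⟨b, b, hb0⟩ (by
            rw [horb, horb]
            refine Nat.Coprime.coprime_dvd_left (Subgroup.index_dvd_of_le ?_) hb
            intro x hx
            show ρ x (avg ρ N a) = avg ρ N a
            rw [← avg_comm, mem_repStab.mp hx]) (h : H ⧸ N)
          exact congrArg Subtype.val this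

/-- Let k be a field of prime characteristic p, H a finite p-soluble group and ρ a k-linear representation of H on V. Let a be a vector that is fixed by some Sylow p-subgroup of H and whose H-orbit spans V. Then the space of H-fixed vectors has dimension at most 1, and every vector b whose H-orbit has size coprime to the size of the orbit of a is fixed by H. -/
theorem result {k V H : Type*} [Field k] (p : ℕ) [Fact p.Prime] [CharP k p] [AddCommGroup V] [Module k V]
    [Group H] [Finite H] (hsol : Cfsg.IsPSolvable p H) (ρ : Representation k H V) (a : V)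
    (hfix : ∃ P : Sylow p H, ∀ x : H, x ∈ (P : Subgroup H) → ρ x a = a)
    (hspan : Submodule.span k {u : V | ∃ h : H, ρ h a = u} = ⊤) :
    Module.finrank k ρ.invariants ≤ 1 ∧
    ∀ b : V, (Nat.card {u : V | ∃ h : H, ρ h a = u}).Coprime (Nat.card {u : V | ∃ h : H, ρ h b = u}) → ∀ h : H, ρ h b = b := by
  obtain ⟨⟨w, hw⟩, h2⟩ := main (Nat.card H) p le_rfl hsol ρ a hfix hspan
  refine ⟨?_, h2⟩
  have hle : ρ.invariants ≤ k ∙ w := fun v hv => hw v hv
  refine (Submodule.finrank_mono hle).trans ?_
  simpa using finrank_span_le_card (R := k) ({w} : Set V)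

end Cfsg.Agent.S4176
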