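import Cfsg.Statements.S4177
import Cfsg.Agent.Lib.NormalComplements.CoprimeOrbits

set_option autoImplicit false
open Cfsg CfsgLib.NormalComplements.CoprimeOrbits

namespace Cfsg.Agent.S4177

/-- Let k be a field whose characteristic does not divide the order of the finite group H (for instance a field of characteristic zero), and ρ a k-linear representation of H on V. Let a be a vector whose H-orbit spans V. Then the space of H-fixed vectors has dimension at most 1, and every vector b whose H-orbit has size coprime to the size of the orbit of a is fixed by H. -/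
theorem result {k V H : Type*} [Field k] [AddCommGroup V] [Module k V] [Group H] [Finite H]
    (hchar : ¬ ringChar k ∣ Nat.card H) (ρ : Representation k H V) (a : V)
    (hspan : Submodule.span k {u : V | ∃ h : H, ρ h a = u} = ⊤) :
    Module.finrank k ρ.invariants ≤ 1 ∧
    ∀ b : V, (Nat.card {u : V | ∃ h : H, ρ h a = u}).Coprime (Nat.card {u : V | ∃ h : H, ρ h b = u}) → ∀ h : H, ρ h b = b := by
  classical
  have hH : (Nat.card H : k) ≠ 0 := fun h => hchar ((ringChar.spec k _).mp h)
  have hT : (Nat.card (⊤ : Subgroup H) : k) ≠ 0 := by rwa [Subgroup.card_top]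
  refine ⟨?_, fun b hb h => (fixed_of_coprime_orbit ρ ⊤ hT a hspan b
    (by rw [← card_repOrbit, ← card_repOrbit]; exact hb)).2 h (Subgroup.mem_top h)⟩
  have hle : ρ.invariants ≤ k ∙ avg ρ ⊤ a := by
    intro v hv
    rw [← avg_of_fixed ρ ⊤ hT (v := v) fun n _ => hv n]
    have : Submodule.span k {u : V | ∃ h : H, ρ h a = u} ≤ (k ∙ avg ρ ⊤ a).comap (avg ρ ⊤) := by
      refine Submodule.span_le.mpr ?_
      rintro _ ⟨h, rfl⟩
      show avg ρ ⊤ (ρ h a) ∈ (k ∙ avg ρ ⊤ a)
      rw [avg_translate_right ρ ⊤ (Subgroup.mem_top h)]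
      exact Submodule.mem_span_singleton_self _
    exact this (hspan ▸ Submodule.mem_top)
  refine (Submodule.finrank_mono hle).trans ?_
  simpa using finrank_span_le_card (R := k) ({avg ρ ⊤ a} : Set V)

end Cfsg.Agent.S4177
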