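import Cfsg.Statements.S4178
import Mathlib

set_option autoImplicit false
open Cfsg

namespace Cfsg.Agent.S4178

/-- Let F be a finite field with q elements, V a non-zero finite-dimensional F-space of dimension d, H a group of invertible linear maps of V, and R the subgroup of H generated by the elements of H that fix some non-zero vector (have eigenvalue 1). Then the index of R in H is at most q^d − 1; and if H leaves invariant some proper non-zero subspace, the index is at most q^(d/2) − 1. -/
theorem result {F V : Type*} [Field F] [Fintype F] [AddCommGroup V] [Module F V] [FiniteDimensional F V] [Nontrivial V]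
    (H : Subgroup (V ≃ₗ[F] V)) :
    (Subgroup.closure {h : ↥H | ∃ v : V, v ≠ 0 ∧ (h : V ≃ₗ[F] V) v = v}).index ≤ Fintype.card F ^ Module.finrank F V - 1 ∧
    ((∃ W : Submodule F V, W ≠ ⊥ ∧ W ≠ ⊤ ∧ ∀ h ∈ H, ∀ w ∈ W, h w ∈ W) →
      ((Subgroup.closure {h : ↥H | ∃ v : V, v ≠ 0 ∧ (h : V ≃ₗ[F] V) v = v}).index : ℝ) ≤ Real.sqrt ((Fintype.card F : ℝ) ^ Module.finrank F V) - 1) := by
  classical
  haveI : Finite V := Module.finite_of_finite F
  haveI : Fintype V := Fintype.ofFinite V
  set R := Subgroup.closure {h : ↥H | ∃ v : V, v ≠ 0 ∧ (h : V ≃ₗ[F] V) v = v} with hR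
  have key : ∀ {Y : Type _} [Fintype Y] (f : ↥H → Y) (y0 : Y), (∀ h, f h ≠ y0) →
      (∀ a b, f a = f b → a⁻¹ * b ∈ R) → R.index ≤ Fintype.card Y - 1 := by
    intro Y _ f y0 hf hfib
    have hsec : ∀ q : ↥H ⧸ R, ((Quotient.out q : ↥H) : ↥H ⧸ R) = q := fun q => QuotientGroup.out_eq' q
    rw [show Fintype.card Y - 1 = Nat.card {y : Y // ¬ y = y0} by
      rw [Nat.card_eq_fintype_card, Fintype.card_subtype_compl, Fintype.card_subtype_eq]]
    refine Nat.card_le_card_of_injective (fun q => ⟨f (Quotient.out q), hf _⟩) fun p q hpq => ?_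
    rw [← hsec p, ← hsec q, QuotientGroup.eq]
    exact hfib _ _ (congrArg Subtype.val hpq)
  constructor
  · obtain ⟨v, hv⟩ := exists_ne (0 : V)
    rw [← Module.card_eq_pow_finrank (K := F) (V := V)]
    refine key (fun h => (h : V ≃ₗ[F] V) v) 0 (fun h => by simpa using hv) fun a b hab => ?_
    refine Subgroup.subset_closure ⟨v, hv, ?_⟩
    simp only [Subgroup.coe_mul, Subgroup.coe_inv]
    show (a : V ≃ₗ[F] V).symm ((b : V ≃ₗ[F] V) v) = v
    rw [← hab]; simp
  · rintro ⟨W, hW0, hW1, hinv⟩
    haveI : Finite W := Subtype.finite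
    haveI : Fintype W := Fintype.ofFinite W
    haveI : Fintype (V ⧸ W) := Fintype.ofFinite _
    have hdim := W.finrank_quotient_add_finrank
    have bound : ∀ (Y : Type _) [AddCommGroup Y] [Module F Y] [Fintype Y] [FiniteDimensional F Y],
        2 * Module.finrank F Y ≤ Module.finrank F V → R.index ≤ Fintype.card Y - 1 →
        (R.index : ℝ) ≤ Real.sqrt ((Fintype.card F : ℝ) ^ Module.finrank F V) - 1 := by
      intro Y _ _ _ _ hd hle
      have h1 : ((Fintype.card Y : ℕ) : ℝ) ≤ Real.sqrt ((Fintype.card F : ℝ) ^ Module.finrank F V) := by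
        refine Real.le_sqrt_of_sq_le ?_
        rw [Module.card_eq_pow_finrank (K := F) (V := Y), Nat.cast_pow, ← pow_mul]
        refine pow_le_pow_right₀ ?_ (by omega)
        exact_mod_cast Fintype.card_pos
      have h2 : R.index + 1 ≤ Fintype.card Y := by
        have : 0 < Fintype.card Y := Fintype.card_pos
        omega
      have h3 : ((R.index : ℝ) + 1) ≤ (Fintype.card Y : ℝ) := by exact_mod_cast h2
      linarith
    rcases le_total (Module.finrank F W) (Module.finrank F (V ⧸ W)) with hc | hc
    · obtain ⟨w, hw, hw0⟩ := W.exists_mem_ne_zero_of_ne_bot hW0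
      refine bound W (by omega) (key (fun h => (⟨(h : V ≃ₗ[F] V) w, hinv _ h.2 w hw⟩ : W)) 0
        (fun h e => hw0 (by simpa using congrArg Subtype.val e)) fun a b hab => ?_)
      refine Subgroup.subset_closure ⟨w, hw0, ?_⟩
      simp only [Subgroup.coe_mul, Subgroup.coe_inv]
      show (a : V ≃ₗ[F] V).symm ((b : V ≃ₗ[F] V) w) = w
      have hab' : (a : V ≃ₗ[F] V) w = (b : V ≃ₗ[F] V) w := congrArg Subtype.val hab
      rw [← hab']; simp
    · obtain ⟨v, -, hv⟩ := SetLike.exists_of_lt (lt_top_iff_ne_top.mpr hW1)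
      have hsymm : ∀ (h : ↥H) (x : V), x ∈ W → (h : V ≃ₗ[F] V).symm x ∈ W := fun h x hx =>
        hinv _ (H.inv_mem h.2) x hx
      refine bound (V ⧸ W) (by omega) (key (fun h => Submodule.Quotient.mk ((h : V ≃ₗ[F] V) v)) 0
        (fun h e => hv (by simpa using hsymm h _ ((Submodule.Quotient.mk_eq_zero _).mp e))) fun a b hab => ?_)
      refine Subgroup.subset_closure ?_
      set g : ↥H := a⁻¹ * b with hg
      have hgv : (g : V ≃ₗ[F] V) v - v ∈ W := by
        have := hsymm a _ ((Submodule.Quotient.eq W).mp hab.symm)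
        rw [map_sub, LinearEquiv.symm_apply_apply] at this
        exact this
      by_contra hnone
      simp only [Set.mem_setOf_eq, not_exists, not_and] at hnone
      set T : W →ₗ[F] W := ((g : V ≃ₗ[F] V).toLinearMap - LinearMap.id).restrict
        (fun w hw => W.sub_mem (hinv _ g.2 w hw) hw) with hT
      have hinj : Function.Injective T := by
        refine (injective_iff_map_eq_zero T).mpr fun w hw => ?_
        by_contra hw0
        refine hnone (w : V) (fun e => hw0 (Subtype.ext e)) ?_
        exact sub_eq_zero.mp (congrArg Subtype.val hw)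
      obtain ⟨w, hw⟩ := LinearMap.injective_iff_surjective.mp hinj ⟨_, hgv⟩
      have hw' : (g : V ≃ₗ[F] V) (w : V) - w = (g : V ≃ₗ[F] V) v - v := congrArg Subtype.val hw
      refine hnone (v - w) (fun e => hv (sub_eq_zero.mp e ▸ w.2)) ?_
      rw [map_sub]
      linear_combination (norm := module) -hw'

end Cfsg.Agent.S4178
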