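import Cfsg.Statements.S4181
import Cfsg.Agent.Lib.Fixity.SylowFixed

set_option autoImplicit false
open Cfsg

namespace Cfsg.Agent.S4181

open MulAction Pointwise CfsgLib.SylowOrbits in
/-- Sylow subgroups fixing the coset `q` correspond to the Sylow subgroups of `H`. -/
theorem card_fixing {G : Type*} [Group G] [Finite G] {p : ℕ} [Fact p.Prime] (H : Subgroup G)
    (P : Sylow p G) (hP : (P : Subgroup G) ≤ H) (q : G ⧸ H) :
    Nat.card {Q : Sylow p G // q ∈ (pfix Q : Set (G ⧸ H))} = Nat.card (Sylow p ↥H) := by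
  have hiff : ∀ Q : Sylow p G,
      ((1 : G) : G ⧸ H) ∈ (pfix Q : Set (G ⧸ H)) ↔ (Q : Subgroup G) ≤ H := by
    intro Q
    constructor
    · intro h x hx
      have := h x hx
      rw [MulAction.Quotient.smul_coe, smul_eq_mul, mul_one, QuotientGroup.eq, mul_one,
        inv_mem_iff] at this
      exact this
    · intro h x hx
      rw [MulAction.Quotient.smul_coe, smul_eq_mul, mul_one, QuotientGroup.eq, mul_one,
        inv_mem_iff]
      exact h hx
  obtain ⟨g, rfl⟩ := QuotientGroup.mk_surjective q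
  have e1 : {Q : Sylow p G // ((g : G) : G ⧸ H) ∈ (pfix Q : Set (G ⧸ H))} ≃
      {Q : Sylow p G // (Q : Subgroup G) ≤ H} := by
    refine (MulAction.toPerm g⁻¹).subtypeEquiv fun Q => ?_
    rw [← hiff]
    change _ ↔ ((1 : G) : G ⧸ H) ∈ (pfix (g⁻¹ • Q) : Set (G ⧸ H))
    have hg : ((g : G) : G ⧸ H) = g • ((1 : G) : G ⧸ H) := by
      rw [MulAction.Quotient.smul_coe, smul_eq_mul, mul_one]
    constructor
    · intro h z hz
      rw [conj_mem_iff, inv_inv] at hz
      have := h _ hz
      rw [hg, mul_smul, mul_smul, inv_smul_smul, smul_left_cancel_iff] at this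
      exact this
    · intro h x hx
      have hz : g⁻¹ * x * g ∈ ((g⁻¹ • Q : Sylow p G) : Subgroup G) := by
        rw [conj_mem_iff]
        simpa [mul_assoc] using hx
      have := h _ hz
      rw [mul_smul, mul_smul, inv_smul_eq_iff, ← hg] at this
      exact this
  rw [Nat.card_congr e1]
  refine Nat.card_eq_of_bijective (fun Q => Q.1.subtype Q.2) ⟨?_, ?_⟩
  · rintro ⟨Q, hQ⟩ ⟨Q', hQ'⟩ h
    have h' := congrArg (fun S : Sylow p ↥H => (S : Subgroup ↥H).map H.subtype) h
    simp only [Sylow.coe_subtype, Subgroup.map_subgroupOf_eq_of_le hQ,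
      Subgroup.map_subgroupOf_eq_of_le hQ'] at h'
    exact Subtype.ext (Sylow.ext h')
  · intro S
    obtain ⟨h, rfl⟩ := MulAction.exists_smul_eq H (P.subtype hP) S
    exact ⟨⟨(h : G) • P, Sylow.smul_le hP h⟩, (Sylow.smul_subtype hP h).symm⟩

/-- Let p be a prime and G a finite group generated by its elements of p-power order, and let H be a proper subgroup of G containing a Sylow p-subgroup of G. Then 2p − 1 times the number of Sylow p-subgroups of H is at most p − 1 times the number of Sylow p-subgroups of G. -/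
theorem result {G : Type*} [Group G] [Finite G] (p : ℕ) [Fact p.Prime] (hgen : Subgroup.closure {g : G | ∃ k : ℕ, orderOf g = p ^ k} = ⊤)
    (H : Subgroup G) (hH : H ≠ ⊤) (P : Sylow p G) (hP : (P : Subgroup G) ≤ H) :
    (2 * p - 1) * Nat.card (Sylow p ↥H) ≤ (p - 1) * Nat.card (Sylow p G) := by
  haveI : Fintype (G ⧸ H) := Fintype.ofFinite _
  haveI : Fintype (Sylow p G) := Fintype.ofFinite _
  have hsyl : CfsgLib.SylowOrbits.SylGen p G := by
    intro M hM
    rw [eq_top_iff, ← hgen, Subgroup.closure_le]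
    rintro g ⟨k, hk⟩
    have hg : IsPGroup p (Subgroup.zpowers g) :=
      IsPGroup.of_card (n := k) (by rw [Nat.card_zpowers, hk])
    obtain ⟨Q, hQ⟩ := hg.exists_le_sylow
    exact hM Q (hQ (Subgroup.mem_zpowers g))
  have hfix : ∀ w : G ⧸ H, ∃ g : G, g • w ≠ w := by
    intro w
    by_contra hh
    simp only [not_exists, not_not] at hh
    refine hH (eq_top_iff.mpr fun x _ => ?_)
    obtain ⟨a, rfl⟩ := QuotientGroup.mk_surjective w
    have := hh (a * x * a⁻¹)
    rw [MulAction.Quotient.smul_coe, smul_eq_mul, inv_mul_cancel_right, QuotientGroup.eq,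
      mul_inv_rev, inv_mul_cancel_right, inv_mem_iff] at this
    exact this
  have hb := CfsgLib.SylowFixed.fixed_bound hsyl hfix P
  have hcount : Nat.card (Sylow p G) * Nat.card (CfsgLib.SylowOrbits.pfix P : Set (G ⧸ H))
      = Nat.card (G ⧸ H) * Nat.card (Sylow p ↥H) := by
    classical
    have h1 : ∀ Q : Sylow p G, Nat.card (CfsgLib.SylowOrbits.pfix Q : Set (G ⧸ H))
        = Nat.card (CfsgLib.SylowOrbits.pfix P : Set (G ⧸ H)) := by
      intro Q
      obtain ⟨a, rfl⟩ := MulAction.exists_smul_eq G P Q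
      refine Nat.card_congr ((MulAction.toPerm a⁻¹).subtypeEquiv fun w => ?_)
      change (∀ z ∈ ((a • P : Sylow p G) : Subgroup G), z • w = w) ↔
        ∀ x ∈ (P : Subgroup G), x • a⁻¹ • w = a⁻¹ • w
      constructor
      · intro h x hx
        have := h (a * x * a⁻¹) (by
          rw [CfsgLib.SylowOrbits.conj_mem_iff]
          simpa [mul_assoc] using hx)
        rw [mul_smul, mul_smul] at this
        exact eq_inv_smul_iff.mpr this
      · intro h z hz
        exact CfsgLib.SylowOrbits.fixed_of_mem_cover (P := P) (g := a) (w := w) h hz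
    have hswap : ∑ Q : Sylow p G, Nat.card (CfsgLib.SylowOrbits.pfix Q : Set (G ⧸ H))
        = ∑ q : G ⧸ H, Nat.card {Q : Sylow p G //
            q ∈ (CfsgLib.SylowOrbits.pfix Q : Set (G ⧸ H))} := by
      simp only [Nat.card_eq_fintype_card, Fintype.card_subtype, Finset.card_filter]
      exact Finset.sum_comm
    rw [Finset.sum_congr rfl (fun Q _ => h1 Q),
      Finset.sum_congr rfl (fun q _ => card_fixing H P hP q), Finset.sum_const,
      Finset.sum_const, Finset.card_univ, Finset.card_univ, smul_eq_mul, smul_eq_mul,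
      ← Nat.card_eq_fintype_card, ← Nat.card_eq_fintype_card] at hswap
    exact hswap
  have hpos : 0 < Nat.card (G ⧸ H) := Nat.card_pos
  refine Nat.le_of_mul_le_mul_left ?_ hpos
  calc Nat.card (G ⧸ H) * ((2 * p - 1) * Nat.card (Sylow p ↥H))
      = Nat.card (Sylow p G) * ((2 * p - 1) *
          Nat.card (CfsgLib.SylowOrbits.pfix P : Set (G ⧸ H))) := by
        rw [mul_left_comm, ← hcount, mul_left_comm]
    _ ≤ Nat.card (Sylow p G) * ((p - 1) * Nat.card (G ⧸ H)) := Nat.mul_le_mul_left _ hb
    _ = Nat.card (G ⧸ H) * ((p - 1) * Nat.card (Sylow p G)) := by ring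

end Cfsg.Agent.S4181
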