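import Cfsg.Statements.S4184
import Mathlib.GroupTheory.Sylow
import Mathlib.GroupTheory.Perm.Cycle.Type
import Mathlib.Data.Nat.Factorization.Basic

set_option autoImplicit false
open Cfsg
namespace Cfsg.Agent.S4184

/-- class size -/
private noncomputable def n {G : Type*} [Group G] (g : G) : ℕ :=
  (Subgroup.centralizer ({g} : Set G)).index

private theorem n_ne_zero {G : Type*} [Group G] [Finite G] (g : G) : n g ≠ 0 :=
  Subgroup.index_ne_zero_of_finite

private theorem card_C_mul_n {G : Type*} [Group G] (g : G) :
    Nat.card (Subgroup.centralizer ({g} : Set G)) * n g = Nat.card G :=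
  Subgroup.card_mul_index _

private theorem n_dvd_card {G : Type*} [Group G] (g : G) : n g ∣ Nat.card G :=
  Subgroup.index_dvd_card _

private theorem fac_split {G : Type*} [Group G] [Finite G] (g : G) (p : ℕ) :
    (Nat.card (Subgroup.centralizer ({g} : Set G))).factorization p + (n g).factorization p
      = (Nat.card G).factorization p := by
  rw [← card_C_mul_n g, Nat.factorization_mul Nat.card_pos.ne' (n_ne_zero g)]
  rfl

private theorem one_lt_n {G : Type*} [Group G] [Finite G] (hZ : Subgroup.center G = ⊥) {g : G}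
    (hg : g ≠ 1) : n g ≠ 1 := by
  intro h
  apply hg
  have htop := Subgroup.index_eq_one.mp h
  have : g ∈ Subgroup.center G := Subgroup.mem_center_iff.mpr fun y => by
    have hy : y ∈ Subgroup.centralizer ({g} : Set G) := htop ▸ Subgroup.mem_top y
    exact (Subgroup.mem_centralizer_singleton_iff.mp hy).symm ▸ rfl
  simpa [hZ] using this

/-- `C(uv) ≤ C(u)` for commuting elements of coprime order. -/
private theorem centralizer_mul_le {G : Type*} [Group G] [Finite G] {u v : G} (h : Commute u v)
    (hco : (orderOf u).Coprime (orderOf v)) :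
    Subgroup.centralizer ({u * v} : Set G) ≤ Subgroup.centralizer ({u} : Set G) := by
  intro x hx
  have hx' : Commute x (u * v) := Subgroup.mem_centralizer_singleton_iff.mp hx
  have h1 : Commute x (u ^ orderOf v) := by
    have := hx'.pow_right (orderOf v)
    rwa [h.mul_pow, pow_orderOf_eq_one, mul_one] at this
  obtain ⟨m, hm⟩ := exists_pow_eq_self_of_coprime hco.symm
  refine Subgroup.mem_centralizer_singleton_iff.mpr ?_
  have := h1.pow_right m
  rw [hm] at this
  exact this

private theorem n_dvd_mul {G : Type*} [Group G] [Finite G] {u v : G} (h : Commute u v)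
    (hco : (orderOf u).Coprime (orderOf v)) : n u ∣ n (u * v) :=
  Subgroup.index_dvd_of_le (centralizer_mul_le h hco)

/-- A proper subgroup's conjugates do not cover a finite group. -/
private theorem eq_top_of_conjugates_cover {G : Type*} [Group G] [Finite G] (H : Subgroup G)
    (h : ∀ g : G, ∃ c : G, c⁻¹ * g * c ∈ H) : H = ⊤ := by
  classical
  cases nonempty_fintype G
  cases nonempty_fintype (G ⧸ H)
  have hb := MulAction.sum_card_fixedBy_eq_card_orbits_mul_card_group G (G ⧸ H)
  haveI : Subsingleton (Quotient (MulAction.orbitRel G (G ⧸ H))) :=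
    (MulAction.pretransitive_iff_subsingleton_quotient G (G ⧸ H)).mp inferInstance
  have hone : Fintype.card (Quotient (MulAction.orbitRel G (G ⧸ H))) = 1 := by
    refine Fintype.card_eq_one_iff.mpr ⟨Quotient.mk _ ((1 : G) : G ⧸ H), fun q => Subsingleton.elim _ _⟩
  rw [hone, one_mul] at hb
  have hge : ∀ g : G, 1 ≤ Fintype.card (MulAction.fixedBy (G ⧸ H) g) := by
    intro g
    obtain ⟨c, hc⟩ := h g
    refine Fintype.card_pos_iff.mpr ⟨⟨(c : G ⧸ H), ?_⟩⟩
    show g • (c : G ⧸ H) = c
    rw [MulAction.Quotient.smul_coe, smul_eq_mul, eq_comm, QuotientGroup.eq]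
    simpa [mul_assoc] using hc
  by_contra hH
  have h1 : 1 < Fintype.card (MulAction.fixedBy (G ⧸ H) (1 : G)) := by
    have he : Fintype.card (MulAction.fixedBy (G ⧸ H) (1 : G)) = H.index := by
      rw [Subgroup.index, Nat.card_eq_fintype_card]
      exact Fintype.card_congr ((Equiv.setCongr (Set.eq_univ_of_forall fun q => one_smul G q)).trans (Equiv.Set.univ _))
    have := Subgroup.index_ne_zero_of_finite (H := H)
    have : H.index ≠ 1 := fun e => hH (Subgroup.index_eq_one.mp e)
    omega
  have := Finset.sum_lt_sum (s := Finset.univ) (f := fun _ : G => 1) (fun g _ => hge g)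
    ⟨1, Finset.mem_univ _, h1⟩
  rw [hb, Finset.sum_const, Finset.card_univ, smul_eq_mul, mul_one] at this
  exact lt_irrefl _ this

section
variable {G M : Type*} [Group G] [Finite G] [Group M] [Finite M]

private def Full (P : ℕ → Prop) (L : ℕ) (k : ℕ) : Prop :=
  ∀ p : ℕ, p.Prime → P p → k.factorization p = L.factorization p

private theorem full_of_dvd {P : ℕ → Prop} {L a b : ℕ} (hb : b ≠ 0) (hL : L ≠ 0) (hab : a ∣ b)
    (hbL : b ∣ L) (h : Full P L a) : Full P L b := fun p hp hP => by
  have h1 := (Nat.factorization_le_iff_dvd (ne_zero_of_dvd_ne_zero hb hab) hb).mpr hab p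
  have h2 := (Nat.factorization_le_iff_dvd hb hL).mpr hbL p
  have := h p hp hP
  omega

private theorem center_elt {r : ℕ} [Fact r.Prime] {K : Type*} [Group K] [Finite K] (R : Sylow r K)
    (hR : r ∣ Nat.card K) :
    ∃ u : K, u ∈ (R : Subgroup K) ∧ u ≠ 1 ∧ (R : Subgroup K) ≤ Subgroup.centralizer ({u} : Set K) := by
  haveI : Nontrivial (R : Subgroup K) :=
    (Subgroup.nontrivial_iff_ne_bot _).mpr (R.ne_bot_of_dvd_card hR)
  haveI := R.isPGroup'.center_nontrivial
  obtain ⟨⟨u, hu⟩, hne⟩ := exists_ne (1 : Subgroup.center (R : Subgroup K))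
  refine ⟨(u : K), u.2, fun e => hne (Subtype.ext (Subtype.ext e)), fun x hx => ?_⟩
  exact Subgroup.mem_centralizer_singleton_iff.mpr
    (congrArg Subtype.val (Subgroup.mem_center_iff.mp hu ⟨x, hx⟩))

private theorem orderOf_pow_of_mem {r : ℕ} {K : Type*} [Group K] {R : Subgroup K} (hR : IsPGroup r R)
    {u : K} (hu : u ∈ R) : ∃ k, u ^ r ^ k = 1 := by
  obtain ⟨k, hk⟩ := hR ⟨u, hu⟩
  exact ⟨k, congrArg Subtype.val hk⟩

private theorem fac_centralizer_le {r : ℕ} [Fact r.Prime] (R : Sylow r G) {u : G}
    (hu : (R : Subgroup G) ≤ Subgroup.centralizer ({u} : Set G)) :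
    (n u).factorization r = 0 := by
  refine Nat.factorization_eq_zero_of_not_dvd fun hd => R.not_dvd_index ?_
  exact hd.trans (Subgroup.index_dvd_of_le hu)

/-- Main step: for a prime `r` in the part `P`, the `r`-part of `|G|` is the one of `L`. -/
private theorem key (L : ℕ) (hL : L ≠ 0) (P : ℕ → Prop)
    (hZ : Subgroup.center G = ⊥)
    (hdvd : ∀ g : G, n g ∣ L)
    (hdich : ∀ g : G, g ≠ 1 → Full P L (n g) ∨ Full (fun p => ¬ P p) L (n g))
    (hnot : ∀ g : G, ¬ (Full P L (n g) ∧ Full (fun p => ¬ P p) L (n g)))
    (s : ℕ) (hs : s.Prime) (hsP : ¬ P s) (hsL : L.factorization s ≠ 0)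
    (hsG : s ∣ Nat.card G)
    (r : ℕ) (hr : r.Prime) (hrP : P r) :
    (Nat.card G).factorization r ≤ L.factorization r := by
  haveI := Fact.mk hr
  haveI := Fact.mk hs
  by_contra hlt
  push Not at hlt
  by_cases hrL : L.factorization r = 0
  · -- r divides no class size: the Sylow is central
    obtain ⟨R⟩ : Nonempty (Sylow r G) := inferInstance
    have hrG : r ∣ Nat.card G := Nat.dvd_of_factorization_pos (by omega)
    obtain ⟨u, huR, hu1, hu⟩ := center_elt R hrG
    have hcov : Subgroup.centralizer ({u} : Set G) = ⊤ := by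
      refine eq_top_of_conjugates_cover _ fun g => ?_
      have hg : ¬ r ∣ n g := fun hd => by
        have := (Nat.factorization_le_iff_dvd (n_ne_zero g) hL).mpr (hdvd g) r
        have := hr.factorization_pos_of_dvd (n_ne_zero g) hd
        omega
      obtain ⟨S⟩ : Nonempty (Sylow r (Subgroup.centralizer ({g} : Set G))) := inferInstance
      have hS : Nat.card ((S : Subgroup _).map (Subgroup.centralizer ({g} : Set G)).subtype : Subgroup G)
          = r ^ (Nat.card G).factorization r := by
        rw [Subgroup.card_map_of_injective (Subgroup.subtype_injective _), Sylow.card_eq_multiplicity]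
        congr 1
        have := fac_split g r
        have := Nat.factorization_eq_zero_of_not_dvd hg
        omega
      let S' : Sylow r G := Sylow.ofCard _ hS
      obtain ⟨c, hc⟩ := MulAction.exists_smul_eq G R S'
      refine ⟨c, Subgroup.mem_centralizer_singleton_iff.mpr ?_⟩
      have hmem : c * u * c⁻¹ ∈ (S' : Subgroup G) := by
        rw [← hc]
        exact Subgroup.smul_mem_pointwise_smul u (MulAut.conj c) _ huR
      have hcm : c * u * c⁻¹ ∈ Subgroup.centralizer ({g} : Set G) := by
        have := hmem
        simp [S'] at this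
        obtain ⟨h1, -⟩ := this
        exact h1
      have := Subgroup.mem_centralizer_singleton_iff.mp hcm
      calc c⁻¹ * g * c * u = c⁻¹ * (g * (c * u * c⁻¹)) * c := by group
        _ = c⁻¹ * (c * u * c⁻¹ * g) * c := by rw [this]
        _ = u * (c⁻¹ * g * c) := by group
    exact one_lt_n hZ hu1 (by rw [n, hcov, Subgroup.index_top])
  · obtain ⟨S⟩ : Nonempty (Sylow s G) := inferInstance
    obtain ⟨v, hvS, hv1, hv⟩ := center_elt S hsG
    have hvs := fac_centralizer_le S hv
    have hvA : Full P L (n v) := (hdich v hv1).resolve_right fun h => hsL ((h s hs hsP) ▸ hvs)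
    have hvr : Nat.Coprime r (orderOf v) := by
      obtain ⟨k, hk⟩ := orderOf_pow_of_mem S.isPGroup' hvS
      refine Nat.Coprime.coprime_dvd_right (orderOf_dvd_of_pow_eq_one hk) ?_
      exact Nat.Coprime.pow_right k ((Nat.coprime_primes hr hs).mpr fun e => hsP (e ▸ hrP))
    -- the exponent t
    set C := Subgroup.centralizer ({v} : Set G) with hC
    have ht : (Nat.card C).factorization r + L.factorization r = (Nat.card G).factorization r := by
      rw [← hvA r hr hrP]; exact fac_split v r
    obtain ⟨R0⟩ : Nonempty (Sylow r C) := inferInstance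
    have hrC : r ∣ Nat.card C := Nat.dvd_of_factorization_pos (by omega)
    obtain ⟨w', hw'R, hw'1, hw'⟩ := center_elt R0 hrC
    set w : G := (w' : G) with hw
    have hwv : Commute w v := Subgroup.mem_centralizer_singleton_iff.mp w'.2
    have rpow : ∀ {x : G} {k : ℕ}, x ^ r ^ k = 1 → (orderOf x).Coprime (orderOf v) := fun hk =>
      Nat.Coprime.coprime_dvd_left (orderOf_dvd_of_pow_eq_one hk) (Nat.Coprime.pow_left _ hvr)
    have both : ∀ x : G, Commute x v → (orderOf x).Coprime (orderOf v) →
        ¬ Full (fun p => ¬ P p) L (n x) := by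
      intro x hx hco hB
      refine hnot (x * v) ⟨?_, ?_⟩
      · refine full_of_dvd (n_ne_zero _) hL ?_ (hdvd _) hvA
        rw [hx.eq]; exact n_dvd_mul hx.symm hco.symm
      · exact full_of_dvd (n_ne_zero _) hL (n_dvd_mul hx hco) (hdvd _) hB
    have hwk : ∃ k, w ^ r ^ k = 1 := by
      obtain ⟨k, hk⟩ := orderOf_pow_of_mem R0.isPGroup' hw'R
      exact ⟨k, congrArg Subtype.val hk⟩
    have hw1 : w ≠ 1 := fun e => hw'1 (Subtype.ext e)
    have hwA : Full P L (n w) := (hdich w hw1).resolve_right (both w hwv (rpow hwk.choose_spec))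
    set R0' : Subgroup G := (R0 : Subgroup C).map C.subtype with hR0'
    have hR0card : Nat.card R0' = r ^ (Nat.card C).factorization r := by
      rw [hR0', Subgroup.card_map_of_injective (Subgroup.subtype_injective _), Sylow.card_eq_multiplicity]
    have hR0p : IsPGroup r R0' := IsPGroup.of_card hR0card
    have hR0w : R0' ≤ Subgroup.centralizer ({w} : Set G) := by
      rintro _ ⟨y, hy, rfl⟩
      have := Subgroup.mem_centralizer_singleton_iff.mp (hw' hy)
      exact Subgroup.mem_centralizer_singleton_iff.mpr (congrArg Subtype.val this)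
    obtain ⟨R, hR⟩ := hR0p.exists_le_sylow
    obtain ⟨u, huR, hu1, hu⟩ := center_elt R (hrC.trans (Subgroup.card_subgroup_dvd_card C))
    have hur := fac_centralizer_le R hu
    have huB : Full (fun p => ¬ P p) L (n u) :=
      (hdich u hu1).resolve_left fun h => hrL ((h r hr hrP) ▸ hur)
    have huk := orderOf_pow_of_mem R.isPGroup' huR
    have huR0 : Commute w u := Subgroup.mem_centralizer_singleton_iff.mp
      (hu (hR ⟨w', hw'R, rfl⟩))
    have hbig : R0' ⊔ Subgroup.zpowers u = R0' := by
      symm
      apply Subgroup.eq_of_le_of_card_ge le_sup_left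
      set T := R0' ⊔ Subgroup.zpowers u with hT
      have hTR : T ≤ R := sup_le hR (Subgroup.zpowers_le.mpr huR)
      have hTC : T ≤ Subgroup.centralizer ({w} : Set G) :=
        sup_le hR0w (Subgroup.zpowers_le.mpr
          (Subgroup.mem_centralizer_singleton_iff.mpr huR0.symm.eq))
      obtain ⟨k, hk⟩ := (IsPGroup.iff_card.mp (R.isPGroup'.to_le hTR))
      have hd := Subgroup.card_dvd_of_le hTC
      rw [hk] at hd
      have hle : k ≤ (Nat.card (Subgroup.centralizer ({w} : Set G))).factorization r :=
        (hr.pow_dvd_iff_le_factorization Nat.card_pos.ne').mp hd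
      have := fac_split w r
      have := hwA r hr hrP
      rw [hk, hR0card]
      exact Nat.pow_le_pow_right hr.pos (by omega)
    have huC : u ∈ C := by
      have : u ∈ R0' := hbig ▸ Subgroup.mem_sup_right (Subgroup.mem_zpowers u)
      obtain ⟨y, -, rfl⟩ := this
      exact y.2
    exact both u (Subgroup.mem_centralizer_singleton_iff.mp huC) (rpow huk.choose_spec) huB

/-- In the group with disconnected prime graph. -/
private theorem dichM (A : ℕ → Prop)
    (hA : ∀ a b : ℕ, A a → ¬ A b → a.Prime → b.Prime → a ∣ Nat.card M → b ∣ Nat.card M →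
      ¬ ∃ x : M, orderOf x = a * b) {x : M} (hx : x ≠ 1) :
    Full A (Nat.card M) (n x) ∨ Full (fun p => ¬ A p) (Nat.card M) (n x) := by
  obtain ⟨q, hq, hqx⟩ := Nat.exists_prime_and_dvd (fun e => hx (orderOf_eq_one_iff.mp e))
  have hqM : q ∣ Nat.card M := hqx.trans (orderOf_dvd_natCard x)
  have key : ∀ p : ℕ, p.Prime → (A q ↔ ¬ A p) →
      (n x).factorization p = (Nat.card M).factorization p := by
    intro p hp hAp
    have h0 : (Nat.card (Subgroup.centralizer ({x} : Set M))).factorization p = 0 := by
      refine Nat.factorization_eq_zero_of_not_dvd fun hd => ?_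
      haveI := Fact.mk hp
      obtain ⟨y, hy⟩ := exists_prime_orderOf_dvd_card' p hd
      have hyx : Commute (y : M) x := Subgroup.mem_centralizer_singleton_iff.mp y.2
      have hox : orderOf (x ^ (orderOf x / q)) = q := by
        rw [orderOf_pow_of_dvd (Nat.div_pos (Nat.le_of_dvd (orderOf_pos x) hqx) hq.pos).ne'
          (Nat.div_dvd_of_dvd hqx)]
        exact Nat.div_div_self hqx (orderOf_pos x).ne'
      have hoy : orderOf (y : M) = p := by rw [Subgroup.orderOf_coe, hy]
      have hpq : p ≠ q := by rintro rfl; tauto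
      have hpM : p ∣ Nat.card M := hd.trans (Subgroup.card_subgroup_dvd_card _)
      have hord : orderOf ((y : M) * x ^ (orderOf x / q)) = p * q := by
        rw [(hyx.pow_right _).orderOf_mul_eq_mul_orderOf_of_coprime
          (by rw [hoy, hox]; exact (Nat.coprime_primes hp hq).mpr hpq), hoy, hox]
      by_cases hAq : A q
      · exact hA q p hAq (hAp.mp hAq) hq hp hqM hpM ⟨_, hord.trans (mul_comm p q)⟩
      · exact hA p q (by tauto) hAq hp hq hpM hqM ⟨_, hord⟩
    have := fac_split x p
    omega
  by_cases hAq : A q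
  · exact Or.inr fun p hp hP => key p hp ⟨fun _ => hP, fun _ => hAq⟩
  · exact Or.inl fun p hp hP => key p hp ⟨fun h => absurd h hAq, fun h => absurd hP h⟩

end

/-- Let G and M be finite groups with trivial centres and the same set of conjugacy class sizes, and suppose the prime graph of M is disconnected: the prime divisors of #M split into two non-empty parts such that M has no element of order pq with p in one part and q in the other. Then #G = #M. -/
theorem result {G M : Type*}
    [Group G] [Finite G] [Group M] [Finite M] (hZG : Subgroup.center G = ⊥) (hZM : Subgroup.center M = ⊥)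
    (h : Set.range (fun g : G => (Subgroup.centralizer ({g} : Set G)).index) = Set.range (fun g : M => (Subgroup.centralizer ({g} : Set M)).index))
    (hdisc : ∃ A : Set ℕ, (∃ a ∈ A, a.Prime ∧ a ∣ Nat.card M) ∧ (∃ b ∉ A, b.Prime ∧ b ∣ Nat.card M) ∧
      ∀ a ∈ A, ∀ b ∉ A, a.Prime → b.Prime → a ∣ Nat.card M → b ∣ Nat.card M → ¬ ∃ x : M, orderOf x = a * b) :
    Nat.card G = Nat.card M := by
  obtain ⟨A, ⟨a, haA, hap, haM⟩, ⟨b, hbA, hbp, hbM⟩, hedge⟩ := hdisc
  set L := Nat.card M with hLdef
  have hL : L ≠ 0 := Nat.card_pos.ne'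
  let P : ℕ → Prop := fun p => p ∈ A
  have hdM : ∀ x : M, x ≠ 1 → Full P L (n x) ∨ Full (fun p => ¬ P p) L (n x) :=
    fun x hx => dichM P (fun a b ha hb => hedge a ha b hb) hx
  have ofG : ∀ g : G, ∃ x : M, n x = n g := fun g => by
    have : n g ∈ Set.range (fun g : M => (Subgroup.centralizer ({g} : Set M)).index) := h ▸ ⟨g, rfl⟩
    exact this
  have ofM : ∀ x : M, ∃ g : G, n g = n x := fun x => by
    have : n x ∈ Set.range (fun g : G => (Subgroup.centralizer ({g} : Set G)).index) := h ▸ ⟨x, rfl⟩
    exact this
  have hdvd : ∀ g : G, n g ∣ L := fun g => by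
    obtain ⟨x, hx⟩ := ofG g; exact hx ▸ n_dvd_card x
  have hxne : ∀ g : G, g ≠ 1 → ∀ x : M, n x = n g → x ≠ 1 := by
    rintro g hg x hx rfl
    apply one_lt_n hZG hg
    rw [← hx, n, Subgroup.index_eq_one, eq_top_iff]
    exact fun y _ => Subgroup.mem_centralizer_singleton_iff.mpr (by simp)
  have hdG : ∀ g : G, g ≠ 1 → Full P L (n g) ∨ Full (fun p => ¬ P p) L (n g) := fun g hg => by
    obtain ⟨x, hx⟩ := ofG g; exact hx ▸ hdM x (hxne g hg x hx)
  have hnot : ∀ g : G, ¬ (Full P L (n g) ∧ Full (fun p => ¬ P p) L (n g)) := by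
    rintro g ⟨h1, h2⟩
    obtain ⟨x, hx⟩ := ofG g
    have he : n g = L := Nat.eq_of_factorization_eq (n_ne_zero g) hL fun p => by
      by_cases hp : p.Prime
      · by_cases hP : P p
        · exact h1 p hp hP
        · exact h2 p hp hP
      · simp [Nat.factorization_eq_zero_of_not_prime _ hp]
    rw [← hx] at he
    have hc := card_C_mul_n x
    rw [he] at hc
    have h1c : Nat.card (Subgroup.centralizer ({x} : Set M)) = 1 :=
      (mul_left_eq_self₀.mp hc).resolve_right hL
    have hxb : x ∈ (⊥ : Subgroup M) := (Subgroup.eq_bot_of_card_eq _ h1c) ▸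
      Subgroup.mem_centralizer_singleton_iff.mpr rfl
    rw [Subgroup.mem_bot] at hxb
    subst hxb
    have hn1 : n (1 : M) = 1 := by
      rw [n, Subgroup.index_eq_one, eq_top_iff]
      exact fun y _ => Subgroup.mem_centralizer_singleton_iff.mpr (by simp)
    rw [← he, hn1] at haM
    exact hap.ne_one (Nat.dvd_one.mp haM)
  -- every prime part of L occurs inside a class size of G
  have hle : ∀ p : ℕ, p.Prime → L.factorization p ≤ (Nat.card G).factorization p := by
    intro p hp
    have aux : ∀ q : ℕ, q.Prime → q ∣ L → (q ∈ A ↔ ¬ p ∈ A) →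
        L.factorization p ≤ (Nat.card G).factorization p := by
      intro q hq hqL hiff
      haveI := Fact.mk hq
      obtain ⟨y, hy⟩ := exists_prime_orderOf_dvd_card' q hqL
      have hy1 : y ≠ 1 := by rintro rfl; exact hq.ne_one (by simpa using hy.symm)
      have hny : (n y).factorization p = L.factorization p := by
        rcases hdM y hy1 with h1 | h1
        · by_cases hpA : p ∈ A
          · exact h1 p hp hpA
          · exfalso
            have hqA : q ∈ A := hiff.mpr hpA
            have := h1 q hq hqA
            have h2 : _ + _ = L.factorization q := fac_split y q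
            have h3 : q ∣ Nat.card (Subgroup.centralizer ({y} : Set M)) := by
              rw [← hy, ← Subgroup.orderOf_mk y (Subgroup.mem_centralizer_singleton_iff.mpr rfl)]
              exact orderOf_dvd_natCard _
            have := hq.factorization_pos_of_dvd Nat.card_pos.ne' h3
            omega
        · by_cases hpA : p ∈ A
          · exfalso
            have hqA : ¬ q ∈ A := fun hh => hiff.mp hh hpA
            have := h1 q hq hqA
            have h2 : _ + _ = L.factorization q := fac_split y q
            have h3 : q ∣ Nat.card (Subgroup.centralizer ({y} : Set M)) := by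
              rw [← hy, ← Subgroup.orderOf_mk y (Subgroup.mem_centralizer_singleton_iff.mpr rfl)]
              exact orderOf_dvd_natCard _
            have := hq.factorization_pos_of_dvd Nat.card_pos.ne' h3
            omega
          · exact h1 p hp hpA
      obtain ⟨g, hg⟩ := ofM y
      have := (Nat.factorization_le_iff_dvd (n_ne_zero g) Nat.card_pos.ne').mpr (n_dvd_card g) p
      rw [hg] at this
      omega
    by_cases hpA : p ∈ A
    · exact aux b hbp hbM ⟨fun h => absurd h hbA, fun h => absurd hpA h⟩
    · exact aux a hap haM ⟨fun _ => hpA, fun _ => haA⟩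
  refine Nat.eq_of_factorization_eq Nat.card_pos.ne' hL fun r => ?_
  by_cases hr : r.Prime
  · refine le_antisymm ?_ (hle r hr)
    have posG : ∀ q : ℕ, q.Prime → q ∣ L → q ∣ Nat.card G := fun q hq hqL =>
      Nat.dvd_of_factorization_pos (by
        have := hq.factorization_pos_of_dvd hL hqL
        have := hle q hq
        omega)
    by_cases hrA : r ∈ A
    · exact key L hL P hZG hdvd hdG hnot b hbp hbA (hbp.factorization_pos_of_dvd hL hbM).ne'
        (posG b hbp hbM) r hr hrA
    · refine key L hL (fun p => ¬ P p) hZG hdvd (fun g hg => ?_) (fun g hg => ?_) a hap (not_not.mpr haA)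
        (hap.factorization_pos_of_dvd hL haM).ne' (posG a hap haM) r hr hrA
      · have e : (fun p => ¬ ¬ P p) = P := funext fun p => propext not_not
        rw [e]; exact (hdG g hg).symm
      · have e : (fun p => ¬ ¬ P p) = P := funext fun p => propext not_not
        rw [e] at hg; exact hnot g hg.symm
  · simp [Nat.factorization_eq_zero_of_not_prime _ hr]

end Cfsg.Agent.S4184
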