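import Cfsg.Statements.S4186

set_option autoImplicit false
open Cfsg

namespace Cfsg.Agent.S4186

/-- Let T and X be subgroups of a group with T a finite 2-group normalizing X but not centralizing it. Then some element of T inverts some non-identity element of X under conjugation. -/
theorem result {G : Type*} [Group G] (T X : Subgroup G) [Finite ↥T] (hT : IsPGroup 2 ↥T) (hTN : T ≤ Subgroup.normalizer (X : Set G)) (hTC : ¬ T ≤ Subgroup.centralizer (X : Set G)) : ∃ t ∈ T, ∃ x ∈ X, x ≠ 1 ∧ t * x * t⁻¹ = x⁻¹ := by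
  classical
  set C : Subgroup T := (Subgroup.centralizer (X : Set G)).subgroupOf T with hC
  have hC1 : C ≠ ⊤ := fun h => hTC (Subgroup.subgroupOf_eq_top.mp h)
  haveI : C.Normal := by
    refine ⟨fun c hc g => ?_⟩
    rw [hC, Subgroup.mem_subgroupOf, Subgroup.mem_centralizer_iff] at *
    intro x hx
    have hx' : (g : G)⁻¹ * x * (g : G) ∈ X := (Subgroup.mem_normalizer_iff''.mp (hTN g.2) x).mp hx
    have := hc _ hx'
    calc x * ((g * c * g⁻¹ : T) : G) = (g : G) * (((g : G)⁻¹ * x * g) * c) * (g : G)⁻¹ := by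
          push_cast; group
      _ = (g : G) * (c * ((g : G)⁻¹ * x * g)) * (g : G)⁻¹ := by rw [this]
      _ = _ := by push_cast; group
  haveI : Nontrivial (T ⧸ C) := QuotientGroup.nontrivial_iff.mpr hC1
  haveI := Fact.mk Nat.prime_two
  obtain ⟨n, hn, hcard⟩ := (IsPGroup.nontrivial_iff_card (hT.to_quotient C)).mp inferInstance
  obtain ⟨q, hq⟩ := exists_prime_orderOf_dvd_card' (G := T ⧸ C) 2 (by rw [hcard]; exact dvd_pow_self _ (by omega))
  obtain ⟨t, rfl⟩ := QuotientGroup.mk_surjective q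
  have ht : t ∉ C := fun h => by
    rw [(QuotientGroup.eq_one_iff t).mpr h, orderOf_one] at hq; omega
  have ht2 : t ^ 2 ∈ C := by
    rw [← QuotientGroup.eq_one_iff, QuotientGroup.mk_pow]
    exact hq ▸ pow_orderOf_eq_one _
  rw [hC, Subgroup.mem_subgroupOf, Subgroup.mem_centralizer_iff] at ht ht2
  push Not at ht
  obtain ⟨x, hx, hxt⟩ := ht
  refine ⟨t, t.2, x⁻¹ * ((t : G) * x * (t : G)⁻¹),
    X.mul_mem (X.inv_mem hx) ((Subgroup.mem_normalizer_iff.mp (hTN t.2) x).mp hx), ?_, ?_⟩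
  · intro h
    apply hxt
    rw [inv_mul_eq_one] at h
    nth_rw 1 [h]
    group
  · have h2 := ht2 x hx
    push_cast at h2
    have h3 : (t : G) * ((t : G) * x * (t : G)⁻¹) * (t : G)⁻¹ = x := by
      calc (t : G) * ((t : G) * x * (t : G)⁻¹) * (t : G)⁻¹ = (t : G) ^ 2 * x * ((t : G) ^ 2)⁻¹ := by rw [pow_two]; group
        _ = x * (t : G) ^ 2 * ((t : G) ^ 2)⁻¹ := by rw [← h2]
        _ = x := by group
    calc (t : G) * (x⁻¹ * ((t : G) * x * (t : G)⁻¹)) * (t : G)⁻¹
        = ((t : G) * x * (t : G)⁻¹)⁻¹ * ((t : G) * ((t : G) * x * (t : G)⁻¹) * (t : G)⁻¹) := by group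
      _ = _ := by rw [h3]; group

end Cfsg.Agent.S4186
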