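import Cfsg.Statements.S4188
import Mathlib
import Cfsg.Agent.Lib.TwoGroups.SquareIndex
import Cfsg.Agent.Lib.TwoGroups.PBasics

set_option autoImplicit false
open Cfsg

namespace Cfsg.Agent.S4188

/-- Let G be a finite group that is the semidirect product of a normal abelian subgroup N of odd order by a 2-subgroup P, and suppose N is the unique minimal normal subgroup of G. Then the index of the Frattini subgroup of P in P is at most #N − 1. -/
theorem result {G : Type*} [Group G] [Finite G] (N P : Subgroup G) (hN : N.Normal) (hNab : IsMulCommutative ↥N) (hNodd : Odd (Nat.card ↥N)) (hP : IsPGroup 2 ↥P) (hdisj : N ⊓ P = ⊥) (hprod : N ⊔ P = ⊤) (hmin : N ≠ ⊥ ∧ ∀ M : Subgroup G, M.Normal → M ≠ ⊥ → N ≤ M) : (frattini ↥P).index ≤ Nat.card ↥N - 1 := by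
  haveI := hN
  haveI : Fact (Nat.Prime 2) := ⟨Nat.prime_two⟩
  letI : CommGroup N := { (inferInstance : Group N) with mul_comm := fun a b => hNab.is_comm.comm a b }
  let φ : P →* MulAut N := (MulAut.conjNormal (H := N)).comp P.subtype
  have hφ : Function.Injective φ := by
    refine (MonoidHom.ker_eq_bot_iff φ).1 ?_
    by_contra hne
    have hcent : ∀ c ∈ φ.ker, ∀ x ∈ N, (c : G) * x * (c : G)⁻¹ = x := fun c hc x hx => by
      have := congrArg (fun f : MulAut N => ((f ⟨x, hx⟩ : N) : G)) (MonoidHom.mem_ker.1 hc)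
      simpa [φ] using this
    -- the kernel is normal in the whole group
    have hn : (φ.ker.map P.subtype).Normal := by
      rw [← Subgroup.normalizer_eq_top_iff, ← top_le_iff, ← hprod, sup_le_iff]
      constructor
      · intro x hx
        rw [Subgroup.mem_normalizer_iff]
        intro h
        constructor
        · rintro ⟨c, hc, rfl⟩
          refine ⟨c, hc, ?_⟩
          have h1 := hcent c hc x hx
          rw [mul_inv_eq_iff_eq_mul] at h1
          exact eq_mul_inv_iff_mul_eq.2 h1
        · intro h'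
          obtain ⟨c, hc, hce⟩ := h'
          refine ⟨c, hc, ?_⟩
          have h1 := hcent c hc x hx
          rw [mul_inv_eq_iff_eq_mul] at h1
          have h2 : x⁻¹ * P.subtype c * x = h := by rw [hce]; group
          rw [← h2]
          show (c : G) = x⁻¹ * c * x
          rw [mul_assoc, h1, inv_mul_cancel_left]
      · refine le_trans ?_ (Subgroup.le_normalizer_map P.subtype)
        rw [Subgroup.normalizer_eq_top_iff.2 φ.normal_ker, ← MonoidHom.range_eq_map, Subgroup.range_subtype]
    have hle := hmin.2 _ hn (fun h => hne ((Subgroup.map_eq_bot_iff_of_injective _ P.subtype_injective).1 h))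
    exact hmin.1 (le_bot_iff.1 (hdisj ▸ le_inf le_rfl (hle.trans (Subgroup.map_subtype_le _))))
  have hN1 : 1 < Nat.card N := (Subgroup.one_lt_card_iff_ne_bot N).2 hmin.1
  have hb := CfsgLib.SquareIndex.bound (Nat.card N) N rfl hNodd hN1 P hP φ hφ
  have hfr : CfsgLib.SquareIndex.squares P ≤ frattini P := by
    refine le_iInf₂ fun K hK => ?_
    have hKn : K.Normal := CfsgLib.TwoGroups.normal_of_isCoatom hP hK
    rw [CfsgLib.SquareIndex.squares, Subgroup.closure_le]
    rintro _ ⟨x, rfl⟩
    show x ^ 2 ∈ K
    by_contra hx2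
    have hx : x ∉ K := fun h => hx2 (pow_mem h 2)
    have htop : K ⊔ Subgroup.zpowers (x ^ 2) = ⊤ :=
      hK.2 _ (lt_of_le_of_ne le_sup_left fun h => hx2 (h ▸ Subgroup.mem_sup_right (Subgroup.mem_zpowers _)))
    -- the image of x generates a 2-group and lies in the subgroup generated by its square
    have hq : QuotientGroup.mk' K x ∈ Subgroup.zpowers (QuotientGroup.mk' K x ^ 2) := by
      have h1 : Subgroup.map (QuotientGroup.mk' K) (K ⊔ Subgroup.zpowers (x ^ 2)) =
          Subgroup.zpowers (QuotientGroup.mk' K x ^ 2) := by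
        rw [Subgroup.map_sup, QuotientGroup.map_mk'_self, bot_sup_eq, MonoidHom.map_zpowers, map_pow]
      rw [← h1, htop]
      exact Subgroup.mem_map_of_mem _ (Subgroup.mem_top x)
    obtain ⟨k, hk⟩ := IsPGroup.iff_orderOf.1 (hP.to_quotient K) (QuotientGroup.mk' K x)
    rcases k with _ | k
    · rw [pow_zero, orderOf_eq_one_iff] at hk
      exact hx ((QuotientGroup.eq_one_iff x).1 hk)
    · have h2 := orderOf_dvd_of_mem_zpowers hq
      rw [orderOf_pow, hk, Nat.gcd_eq_right (dvd_pow_self 2 k.succ_ne_zero), pow_succ,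
        Nat.mul_div_cancel _ two_pos] at h2
      have := Nat.le_of_dvd (pow_pos two_pos k) h2
      have := Nat.pos_of_ne_zero (pow_ne_zero k (two_ne_zero : (2 : ℕ) ≠ 0))
      omega
  have hle : (frattini P).index ≤ (CfsgLib.SquareIndex.squares P).index :=
    Nat.le_of_dvd (Nat.pos_of_ne_zero Subgroup.index_ne_zero_of_finite) (Subgroup.index_dvd_of_le hfr)
  rcases hb with hb | ⟨hb3, hb⟩ <;> omega

end Cfsg.Agent.S4188
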