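import Cfsg.Statements.S4189
import Mathlib
import Cfsg.Agent.Lib.NormalComplements.AutCount
import Cfsg.Agent.Lib.TwoGroups.Basic

set_option autoImplicit false
open Cfsg
open scoped commutatorElement

namespace Cfsg.Agent.S4189

private theorem eq_bot_of_commutator_eq {P : Type*} [Group P] [Group.IsNilpotent P] {N : Subgroup P}
    (h : N ≤ ⁅N, (⊤ : Subgroup P)⁆) : N = ⊥ := by
  obtain ⟨k, hk⟩ := Subgroup.nilpotent_iff_lowerCentralSeries.mp (inferInstance : Group.IsNilpotent P)
  have : ∀ m, N ≤ (⊤ : Subgroup P).lowerCentralSeries m := by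
    intro m
    induction m with
    | zero => exact le_top
    | succ m ih => exact h.trans (Subgroup.commutator_mono ih le_rfl)
  exact le_bot_iff.mp (hk ▸ this k)

private theorem mem_center_of_gen {P : Type*} [Group P] {a b c : P}
    (hgen : Subgroup.closure ({a, b} : Set P) = ⊤) (ha : a * c = c * a) (hb : b * c = c * b) :
    c ∈ Subgroup.center P := by
  rw [Subgroup.mem_center_iff]
  intro g
  have : Subgroup.closure ({a, b} : Set P) ≤ Subgroup.centralizer {c} := by
    rw [Subgroup.closure_le]
    rintro x (rfl | rfl)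
    · exact Subgroup.mem_centralizer_singleton_iff.mpr ha
    · exact Subgroup.mem_centralizer_singleton_iff.mpr hb
  exact Subgroup.mem_centralizer_singleton_iff.mp (this (hgen ▸ Subgroup.mem_top g))

private theorem map_gen {P Q : Type*} [Group P] [Group Q] (f : P →* Q) (hf : Function.Surjective f)
    {a b : P} (hgen : Subgroup.closure ({a, b} : Set P) = ⊤) :
    Subgroup.closure ({f a, f b} : Set Q) = ⊤ := by
  rw [← Set.image_pair, ← MonoidHom.map_closure, hgen, Subgroup.map_top_of_surjective f hf]

/-- Let P be a finite non-abelian 2-group whose commutator subgroup has index 4 and whose automorphism group is not a 2-group (some automorphism has order that is not a power of 2). Then P is isomorphic to the quaternion group of order 8. -/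
theorem result {P : Type*} [Group P] [Finite P] (hP : IsPGroup 2 P) (hna : ¬ IsMulCommutative P) (h4 : (commutator P).index = 4) (haut : ¬ IsPGroup 2 (MulAut P)) : Nonempty (P ≃* QuaternionGroup 2) := by
  classical
  haveI := Fact.mk Nat.prime_two
  haveI : Group.IsNilpotent P := hP.isNilpotent
  cases nonempty_fintype P
  have hcycQ : ¬ IsCyclic (P ⧸ commutator P) := by
    intro hc
    apply hna
    obtain ⟨q, hq⟩ := hc.exists_generator
    obtain ⟨g, rfl⟩ := QuotientGroup.mk_surjective q
    have hsup : Subgroup.zpowers g ⊔ frattini P = ⊤ := by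
      rw [eq_top_iff]
      intro x _
      obtain ⟨m, hm⟩ := hq (x : P ⧸ commutator P)
      have : (g ^ m)⁻¹ * x ∈ commutator P := QuotientGroup.eq.mp (by simpa using hm)
      rw [show x = g ^ m * ((g ^ m)⁻¹ * x) by group]
      exact Subgroup.mul_mem _ (Subgroup.mem_sup_left (Subgroup.zpow_mem_zpowers g m))
        (Subgroup.mem_sup_right (CfsgLib.PGroups.commutator_le_frattini hP this))
    have h1 := frattini_nongenerating hsup
    refine ⟨⟨fun x y => ?_⟩⟩
    obtain ⟨i, rfl⟩ : x ∈ Subgroup.zpowers g := h1 ▸ Subgroup.mem_top x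
    obtain ⟨j, rfl⟩ : y ∈ Subgroup.zpowers g := h1 ▸ Subgroup.mem_top y
    show g ^ i * g ^ j = g ^ j * g ^ i
    rw [← zpow_add, ← zpow_add, add_comm]
  have hsq : ∀ x : P, x ^ 2 ∈ commutator P := by
    intro x
    have hd : orderOf (x : P ⧸ commutator P) ∣ 4 := by
      have := orderOf_dvd_natCard (x : P ⧸ commutator P)
      rwa [show Nat.card (P ⧸ commutator P) = 4 from h4] at this
    have hne : orderOf (x : P ⧸ commutator P) ≠ 4 := fun e =>
      hcycQ (isCyclic_of_orderOf_eq_card _ (by rw [e]; exact h4.symm))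
    rw [← QuotientGroup.eq_one_iff, QuotientGroup.mk_pow, ← orderOf_dvd_iff_pow_eq_one]
    have hmem : orderOf (x : P ⧸ commutator P) ∈ Nat.divisors 4 := Nat.mem_divisors.mpr ⟨hd, by omega⟩
    have e4 : Nat.divisors 4 = {1, 2, 4} := by decide
    rw [e4] at hmem
    simp only [Finset.mem_insert, Finset.mem_singleton] at hmem
    rcases hmem with e | e | e
    · rw [e]; decide
    · rw [e]
    · exact absurd e hne
  have hfr : frattini P = commutator P :=
    le_antisymm (CfsgLib.PGroups.frattini_le_of (p := 2) le_rfl hsq) (CfsgLib.PGroups.commutator_le_frattini hP)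
  obtain ⟨n, hn⟩ := IsPGroup.iff_card.mp hP
  have hr : (frattini P).index = 2 ^ 2 := by rw [hfr, h4]; norm_num
  -- an automorphism of order three
  have h3 : 3 ∣ Nat.card (MulAut P) := by
    by_contra h3
    apply haut
    have hd := CfsgLib.NormalComplements.AutCount.card_mulAut_dvd hn hr
    have e : (∏ i ∈ Finset.range 2, ((2 : ℕ) ^ 2 - 2 ^ i)) = 2 * 3 := by decide
    rw [e, ← mul_assoc, ← pow_succ] at hd
    obtain ⟨k, -, hk⟩ := (Nat.dvd_prime_pow Nat.prime_two).mp
      (((Nat.prime_three.coprime_iff_not_dvd.mpr h3).symm).dvd_of_dvd_mul_right hd)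
    exact IsPGroup.of_card hk
  haveI := Fact.mk Nat.prime_three
  obtain ⟨φ, hφ⟩ := exists_prime_orderOf_dvd_card' (G := MulAut P) 3 h3
  obtain ⟨a, ha⟩ : ∃ a : P, φ a * a⁻¹ ∉ commutator P := by
    by_contra hc
    push Not at hc
    have := CfsgLib.NormalComplements.AutCount.card_dvd_of_trivial_on_frattini hn hr (Subgroup.zpowers φ) (by
      intro α hα x
      rw [hfr]
      obtain ⟨k, rfl⟩ := (Submonoid.mem_powers_iff _ _).mp ((mem_powers_iff_mem_zpowers).mpr hα)
      clear hα
      induction k with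
      | zero => simp
      | succ k ih =>
        rw [pow_succ', MulAut.mul_apply, show φ ((φ ^ k) x) * x⁻¹ =
          (φ ((φ ^ k) x) * ((φ ^ k) x)⁻¹) * ((φ ^ k) x * x⁻¹) by group]
        exact (commutator P).mul_mem (hc _) ih)
    rw [Nat.card_zpowers, hφ] at this
    exact absurd (Nat.prime_three.dvd_of_dvd_pow this) (by decide)
  have hchar : ∀ (N : Subgroup P) [N.Characteristic] (x : P), φ x ∈ N ↔ x ∈ N := by
    intro N _ x
    have h := Subgroup.characteristic_iff_comap_eq.mp (inferInstance : N.Characteristic) φ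
    exact ⟨fun hx => by rw [← h]; exact hx, fun hx => by rw [← h] at hx; exact hx⟩
  let π := QuotientGroup.mk' (commutator P)
  have hchar1 : ∀ x y : P, π x = π y → π (φ x) = π (φ y) := by
    intro x y hxy
    rw [QuotientGroup.mk'_eq_mk'] at hxy ⊢
    obtain ⟨z, hz, e⟩ := hxy
    exact ⟨φ z, (hchar _ z).mpr hz, by rw [← map_mul, e]⟩
  have hpi : ∀ x, π x = 1 ↔ x ∈ commutator P := fun x => QuotientGroup.eq_one_iff x
  obtain ⟨b, hb⟩ : ∃ b, b = φ a := ⟨_, rfl⟩
  have hab : π b ≠ π a := fun e => ha (by rw [← hpi, map_mul, map_inv, ← hb, e, mul_inv_cancel])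
  have ha1 : π a ≠ 1 := fun e => hab (by
    have h := (hchar _ a).mpr ((hpi a).mp e)
    rw [e, (hpi b).mpr (hb ▸ h)])
  have hb1 : π b ≠ 1 := fun e => ha1 ((hpi a).mpr ((hchar _ a).mp (hb ▸ (hpi b).mp e)))
  have ha2 : π a * π a = 1 := by rw [← map_mul, hpi, ← pow_two]; exact hsq a
  have hab1 : π a * π b ≠ 1 := fun e => hab (mul_left_cancel (e.trans ha2.symm))
  have hab2 : π a * π b ≠ π a := fun e => hb1 (mul_eq_left.mp e)
  have hab3 : π a * π b ≠ π b := fun e => ha1 (mul_eq_right.mp e)
  haveI : Fintype (P ⧸ commutator P) := Fintype.ofFinite _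
  have hall : ∀ q : P ⧸ commutator P, q = 1 ∨ q = π a ∨ q = π b ∨ q = π a * π b := by
    intro q
    by_contra hq
    push Not at hq
    obtain ⟨q1, q2, q3, q4⟩ := hq
    have h5 : ({q, 1, π a, π b, π a * π b} : Finset (P ⧸ commutator P)).card = 5 := by
      rw [Finset.card_insert_of_notMem, Finset.card_insert_of_notMem, Finset.card_insert_of_notMem,
        Finset.card_insert_of_notMem, Finset.card_singleton]
      · simp [hab3.symm]
      · simp [hab.symm, hab2.symm]
      · simp [ha1.symm, hb1.symm, hab1.symm]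
      · simp [q1, q2, q3, q4]
    have := Finset.card_le_univ ({q, 1, π a, π b, π a * π b} : Finset (P ⧸ commutator P))
    have h4' : Fintype.card (P ⧸ commutator P) = 4 := by rw [← Nat.card_eq_fintype_card]; exact h4
    omega
  have hgen : Subgroup.closure ({a, b} : Set P) = ⊤ := by
    refine frattini_nongenerating ?_
    rw [hfr, eq_top_iff]
    intro x _
    have hm : ∀ y ∈ ({1, a, b, a * b} : Set P), π x = π y → x ∈ Subgroup.closure {a, b} ⊔ commutator P := by
      intro y hy e
      have hy' : y ∈ Subgroup.closure ({a, b} : Set P) := by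
        have h1 : a ∈ Subgroup.closure ({a, b} : Set P) := Subgroup.subset_closure (by simp)
        have h2 : b ∈ Subgroup.closure ({a, b} : Set P) := Subgroup.subset_closure (by simp)
        rcases hy with rfl | rfl | rfl | rfl
        · exact one_mem _
        · exact h1
        · exact h2
        · exact mul_mem h1 h2
      rw [show x = y * (y⁻¹ * x) by group]
      exact mul_mem (Subgroup.mem_sup_left hy') (Subgroup.mem_sup_right ((hpi _).mp (by simp [e])))
    rcases hall (π x) with e | e | e | e
    · exact hm 1 (by simp) (by rw [e, map_one])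
    · exact hm a (by simp) e
    · exact hm b (by simp) e
    · exact hm (a * b) (by simp) (by rw [e, map_mul])
  -- φ b is ab modulo the commutator subgroup
  have hφ3 : ∀ x, φ (φ (φ x)) = x := fun x => by
    have h : φ ^ 3 = 1 := hφ ▸ pow_orderOf_eq_one φ
    have := DFunLike.congr_fun h x
    simpa [pow_succ] using this
  have hsymm : ∀ x y : P, π (φ x) = π (φ y) → π x = π y := fun x y e => by
    have := hchar1 _ _ (hchar1 _ _ e)
    rwa [hφ3, hφ3] at this
  have hfb : π (φ b) = π a * π b := by
    rcases hall (π (φ b)) with e | e | e | e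
    · exact absurd ((hpi b).mpr ((hchar _ b).mp ((hpi _).mp e))) hb1
    · exact absurd (by
        have h1 := hchar1 _ _ e
        rw [← hb] at h1
        have h2 : φ (φ b) = a := by rw [hb, hφ3]
        rw [h2] at h1
        exact h1.symm) hab
    · exact absurd (hsymm b a (by rw [e, ← hb])) hab
    · exact e
  set G2 : Subgroup P := ⁅commutator P, (⊤ : Subgroup P)⁆ with hG2
  set G3 : Subgroup P := ⁅G2, (⊤ : Subgroup P)⁆ with hG3
  haveI : G2.Characteristic := by rw [hG2]; infer_instance
  haveI : G2.Normal := inferInstance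
  haveI : G3.Normal := by rw [hG3]; infer_instance
  have hG21 : G2 ≤ commutator P := Subgroup.commutator_le_left _ _
  obtain ⟨c, hc⟩ : ∃ c, c = ⁅a, b⁆ := ⟨_, rfl⟩
  have hcP : c ∈ commutator P := hc ▸ Subgroup.commutator_mem_commutator (Subgroup.mem_top a) (Subgroup.mem_top b)
  let σ := QuotientGroup.mk' G2
  have hσ : ∀ x, σ x = 1 ↔ x ∈ G2 := fun x => QuotientGroup.eq_one_iff x
  have hcen : ∀ z ∈ commutator P, σ z ∈ Subgroup.center (P ⧸ G2) := by
    intro z hz
    rw [Subgroup.mem_center_iff]
    intro g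
    obtain ⟨g, rfl⟩ := QuotientGroup.mk'_surjective G2 g
    refine (commutatorElement_eq_one_iff_mul_comm.mp ?_).symm
    rw [← map_commutatorElement, hσ]
    exact Subgroup.commutator_mem_commutator hz (Subgroup.mem_top g)
  have hM : ∀ z ∈ commutator P, z ∈ G2 ⊔ Subgroup.zpowers c := by
    set M := G2 ⊔ Subgroup.zpowers c with hMdef
    have hM1 : M ≤ commutator P := sup_le hG21 (Subgroup.zpowers_le.mpr hcP)
    haveI : M.Normal := Subgroup.commutator_top_right_le_iff.mp
      ((Subgroup.commutator_mono hM1 le_rfl).trans le_sup_left)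
    have hm := map_gen (QuotientGroup.mk' M) (QuotientGroup.mk'_surjective M) hgen
    have hcomm : QuotientGroup.mk' M a * QuotientGroup.mk' M b = QuotientGroup.mk' M b * QuotientGroup.mk' M a := by
      refine commutatorElement_eq_one_iff_mul_comm.mp ?_
      rw [← map_commutatorElement, ← hc]
      exact (QuotientGroup.eq_one_iff c).mpr (Subgroup.mem_sup_right (Subgroup.mem_zpowers c))
    have hA := mem_center_of_gen hm rfl hcomm.symm
    have hB := mem_center_of_gen hm hcomm rfl
    have htop : Subgroup.center (P ⧸ M) = ⊤ := by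
      rw [eq_top_iff, ← hm, Subgroup.closure_le]
      rintro x (rfl | rfl)
      · exact hA
      · exact hB
    have hle : commutator P ≤ M := by
      rw [commutator_def, Subgroup.commutator_le]
      intro x _ y _
      rw [← QuotientGroup.ker_mk' M, MonoidHom.mem_ker, map_commutatorElement, commutatorElement_eq_one_iff_mul_comm]
      exact (Subgroup.mem_center_iff.mp (htop ▸ Subgroup.mem_top (QuotientGroup.mk' M y)) _)
    exact fun z hz => hle hz
  have hab' : σ b * σ a = (σ c)⁻¹ * (σ a * σ b) := by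
    rw [hc, map_commutatorElement, commutatorElement_def]; group
  have hc2 : σ c * σ c = 1 := by
    have h1 := Subgroup.mem_center_iff.mp (hcen _ (hsq a)) (σ b)
    rw [map_pow, pow_two] at h1
    have h2 : σ a * σ b = σ c * (σ b * σ a) := by rw [hab']; group
    have h3 := Subgroup.mem_center_iff.mp (hcen _ hcP) (σ a)
    have h4 : σ a * σ a * σ b = σ c * σ c * (σ b * (σ a * σ a)) := by
      calc σ a * σ a * σ b = σ a * (σ c * (σ b * σ a)) := by rw [mul_assoc, h2]
        _ = σ c * (σ a * σ b) * σ a := by rw [← mul_assoc, h3]; simp only [mul_assoc]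
        _ = σ c * (σ c * (σ b * σ a)) * σ a := by rw [h2]
        _ = _ := by simp only [mul_assoc]
    rw [h1] at h4
    exact right_eq_mul.mp h4
  have hcases : ∀ z ∈ commutator P, σ z = 1 ∨ σ z = σ c := by
    intro z hz
    obtain ⟨u, hu, v, hv, rfl⟩ := (Subgroup.mem_sup_of_normal_left).mp (hM z hz)
    rw [map_mul, (hσ u).mpr hu, one_mul]
    obtain ⟨i, rfl⟩ := hv
    simp only [map_zpow]
    rcases Int.even_or_odd' i with ⟨j, rfl | rfl⟩
    · left; rw [zpow_mul, zpow_two, hc2, one_zpow]
    · right; rw [zpow_add_one, zpow_mul, zpow_two, hc2, one_zpow, one_mul]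
  have hG1ne : commutator P ≠ ⊥ := fun h => hna ⟨⟨fun x y => commutatorElement_eq_one_iff_mul_comm.mp
    (Subgroup.mem_bot.mp (h ▸ Subgroup.commutator_mem_commutator (Subgroup.mem_top x) (Subgroup.mem_top y)))⟩⟩
  have hc1 : σ c ≠ 1 := by
    intro h
    apply hG1ne
    apply eq_bot_of_commutator_eq
    intro z hz
    have := hcases z hz
    rw [h, or_self] at this
    exact (hσ z).mp this
  have hchar2 : ∀ x : P, σ x = 1 → σ (φ x) = 1 := fun x hx => (hσ _).mpr ((hchar _ x).mpr ((hσ x).mp hx))
  have haa : σ a * σ a = σ c := by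
    have h0 := hcases _ (hsq a)
    rw [map_pow, pow_two] at h0
    refine h0.resolve_left fun e => hc1 ?_
    have e1 : σ b * σ b = 1 := by
      rw [← map_mul] at e ⊢
      rw [hb, ← map_mul φ]
      exact hchar2 _ e
    obtain ⟨z, hz, hzb⟩ : ∃ z ∈ commutator P, φ b = a * b * z := by
      refine ⟨(a * b)⁻¹ * φ b, (hpi _).mp (by simp [hfb, mul_assoc]), by group⟩
    have e2 : σ (φ b) * σ (φ b) = 1 := by
      rw [← map_mul, ← map_mul φ]
      exact hchar2 _ (by rw [map_mul]; exact e1)
    have ez : σ z * σ z = 1 := by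
      rcases hcases z hz with h | h <;> rw [h]
      · rw [one_mul]
      · exact hc2
    have hzc := Subgroup.mem_center_iff.mp (hcen z hz)
    rw [hzb, map_mul, map_mul] at e2
    have e3 : σ a * σ b * (σ a * σ b) = 1 := by
      calc σ a * σ b * (σ a * σ b) = σ a * σ b * (σ a * σ b) * (σ z * σ z) := by rw [ez, mul_one]
        _ = σ a * σ b * (σ a * σ b * σ z) * σ z := by group
        _ = σ a * σ b * (σ z * (σ a * σ b)) * σ z := by rw [hzc (σ a * σ b)]
        _ = σ a * σ b * σ z * (σ a * σ b * σ z) := by group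
        _ = 1 := e2
    have h3 := Subgroup.mem_center_iff.mp (hcen _ hcP) (σ a)
    have e4 : (σ c)⁻¹ * ((σ a * σ a) * (σ b * σ b)) = 1 := by
      have h3' : σ a * (σ c)⁻¹ = (σ c)⁻¹ * σ a := (Commute.inv_right (show Commute (σ a) (σ c) from h3)).eq
      calc (σ c)⁻¹ * ((σ a * σ a) * (σ b * σ b)) = σ a * ((σ c)⁻¹ * (σ a * σ b)) * σ b := by
            rw [← mul_assoc (σ a) (σ c)⁻¹, h3']; simp only [mul_assoc]
        _ = σ a * (σ b * σ a) * σ b := by rw [hab']
        _ = 1 := by rw [← e3]; simp only [mul_assoc]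
    rw [e, e1, one_mul, mul_one] at e4
    exact inv_eq_one.mp e4
  have hbb : σ b * σ b = σ c := by
    have h0 := hcases _ (hsq b)
    rw [map_pow, pow_two] at h0
    refine h0.resolve_left fun e => hc1 ?_
    rw [← haa, ← map_mul]
    rw [← map_mul, hσ, hb, ← map_mul φ, hchar] at e
    exact (hσ _).mpr e
  have hG2bot : G2 = ⊥ := by
    apply eq_bot_of_commutator_eq
    let τ := QuotientGroup.mk' G3
    have hτ : ∀ x, τ x = 1 ↔ x ∈ G3 := fun x => QuotientGroup.eq_one_iff x
    have hz2 : ∀ z ∈ G2, ∀ g : P, τ g * τ z = τ z * τ g := fun z hz g => by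
      refine (commutatorElement_eq_one_iff_mul_comm.mp ?_).symm
      rw [← map_commutatorElement, hτ]
      exact Subgroup.commutator_mem_commutator hz (Subgroup.mem_top g)
    have hcom : ∀ x : P, σ x * σ x = σ c → τ x * τ c = τ c * τ x := by
      intro x hx
      have hz : (x * x)⁻¹ * c ∈ G2 := (hσ _).mp (by simp [← hx, mul_assoc])
      have hcx : τ c = τ x * τ x * τ ((x * x)⁻¹ * c) := by simp [mul_assoc]
      rw [hcx]
      simp only [mul_assoc]
      rw [← hz2 _ hz x]
    have hcc := mem_center_of_gen (map_gen τ (QuotientGroup.mk'_surjective G3) hgen) (hcom a haa) (hcom b hbb)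
    rw [hG2, Subgroup.commutator_le]
    intro z hz g _
    obtain ⟨u, hu, v, hv, rfl⟩ := (Subgroup.mem_sup_of_normal_left).mp (hM z hz)
    rw [← hG2, ← hG3, ← hτ, map_commutatorElement, commutatorElement_eq_one_iff_mul_comm, map_mul]
    obtain ⟨i, rfl⟩ := hv
    simp only [map_zpow]
    have h1 := Subgroup.mem_center_iff.mp ((Subgroup.center _).zpow_mem hcc i) (τ g)
    rw [mul_assoc, ← h1, ← mul_assoc, ← hz2 u hu g, mul_assoc]
  have hinj : Function.Injective σ := by
    rw [← MonoidHom.ker_eq_bot_iff, QuotientGroup.ker_mk', hG2bot]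
  have haa' : a * a = c := hinj (by rw [map_mul, haa])
  have hbb' : b * b = c := hinj (by rw [map_mul, hbb])
  have hc1' : c ≠ 1 := fun h => hc1 (by rw [h, map_one])
  have hc2' : c * c = 1 := hinj (by rw [map_mul, hc2, map_one])
  have hcard : Nat.card P = 8 := by
    have hcc : commutator P = Subgroup.zpowers c := by
      refine le_antisymm (fun z hz => ?_) (Subgroup.zpowers_le.mpr hcP)
      rcases hcases z hz with h | h
      · rw [hinj (h.trans (map_one σ).symm)]; exact one_mem _
      · rw [hinj h]; exact Subgroup.mem_zpowers c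
    rw [← Subgroup.card_mul_index (commutator P), h4, hcc, Nat.card_zpowers,
      orderOf_eq_prime (p := 2) (by rw [pow_two, hc2']) hc1']
  have hoa : orderOf a = 2 ^ (1 + 1) := orderOf_eq_prime_pow (by rw [pow_one, pow_two, haa']; exact hc1')
    (by rw [show 2 ^ (1 + 1) = 2 * 2 by norm_num, pow_mul, pow_two a, haa', pow_two, hc2'])
  refine CfsgLib.TwoGroups.nonempty_mulEquiv_quaternion (k := 2) (x := a) (y := b) (hoa.trans (by norm_num))
    (hcard.trans (by norm_num)) ?_ (by rw [pow_two, pow_two, haa', hbb']) ?_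
  · rintro ⟨i, hi⟩
    apply hc1'
    have hi' : a ^ i = b := hi
    rw [hc, commutatorElement_eq_one_iff_mul_comm, ← hi', ← zpow_one_add, ← zpow_add_one, add_comm]
  · have h1 : a * b * a⁻¹ * b⁻¹ = a * a := by rw [haa', hc, commutatorElement_def]
    have h2 : b * a⁻¹ * b⁻¹ = a := mul_left_cancel (a := a) (by rw [← h1]; group)
    calc b * a * b⁻¹ = (b * a⁻¹ * b⁻¹)⁻¹ := by group
      _ = a⁻¹ := by rw [h2]

end Cfsg.Agent.S4189
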