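import Cfsg.Statements.S4192
import Cfsg.Agent.Lib.RealClassGraph.Main

set_option autoImplicit false
open Cfsg

namespace Cfsg.Agent.S4192

/-- Let G be a finite group; call an element real when it is conjugate to its inverse, and say that the real-class-size graph of a group is disconnected when the primes dividing its real class sizes split into two non-empty disjoint parts with no real class size divisible by a prime from each part. If the real-class-size graph of G is disconnected, then some real class size of G is even, and either the Sylow 2-subgroups of G are normal, or the subgroup K generated by the 2-elements of G (the smallest normal subgroup of odd index) again has a disconnected real-class-size graph and every real class size of K is odd or a power of 2. -/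
theorem result {G : Type*} [Group G] [Finite G] (h : (∃ π₁ π₂ : Set ℕ, π₁.Nonempty ∧ π₂.Nonempty ∧ Disjoint π₁ π₂ ∧ (∀ q ∈ π₁ ∪ π₂, q.Prime ∧ ∃ n ∈ {n : ℕ | ∃ x : G, IsConj x x⁻¹ ∧ (Subgroup.centralizer ({x} : Set G)).index = n}, q ∣ n) ∧ (∀ q : ℕ, q.Prime → (∃ n ∈ {n : ℕ | ∃ x : G, IsConj x x⁻¹ ∧ (Subgroup.centralizer ({x} : Set G)).index = n}, q ∣ n) → q ∈ π₁ ∨ q ∈ π₂) ∧ ∀ a ∈ π₁, ∀ b ∈ π₂, ∀ n ∈ {n : ℕ | ∃ x : G, IsConj x x⁻¹ ∧ (Subgroup.centralizer ({x} : Set G)).index = n}, ¬ (a ∣ n ∧ b ∣ n))) : (∃ n ∈ {n : ℕ | ∃ x : G, IsConj x x⁻¹ ∧ (Subgroup.centralizer ({x} : Set G)).index = n}, 2 ∣ n) ∧ ((∀ P : Sylow 2 G, (P : Subgroup G).Normal) ∨ ((∃ π₁ π₂ : Set ℕ, π₁.Nonempty ∧ π₂.Nonempty ∧ Disjoint π₁ π₂ ∧ (∀ q ∈ π₁ ∪ π₂, q.Prime ∧ ∃ n ∈ {n : ℕ | ∃ x : ↥(Subgroup.closure {g : G | ∃ k : ℕ, orderOf g = 2 ^ k}), IsConj x x⁻¹ ∧ (Subgroup.centralizer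 ({x} : Set ↥(Subgroup.closure {g : G | ∃ k : ℕ, orderOf g = 2 ^ k}))).index = n}, q ∣ n) ∧ (∀ q : ℕ, q.Prime → (∃ n ∈ {n : ℕ | ∃ x : ↥(Subgroup.closure {g : G | ∃ k : ℕ, orderOf g = 2 ^ k}), IsConj x x⁻¹ ∧ (Subgroup.centralizer ({x} : Set ↥(Subgroup.closure {g : G | ∃ k : ℕ, orderOf g = 2 ^ k}))).index = n}, q ∣ n) → q ∈ π₁ ∨ q ∈ π₂) ∧ ∀ a ∈ π₁, ∀ b ∈ π₂, ∀ n ∈ {n : ℕ | ∃ x : ↥(Subgroup.closure {g : G | ∃ k : ℕ, orderOf g = 2 ^ k}), IsConj x x⁻¹ ∧ (Subgroup.centralizer ({x} : Set ↥(Subgroup.closure {g : G | ∃ k : ℕ, orderOf g = 2 ^ k}))).index = n}, ¬ (a ∣ n ∧ b ∣ n)) ∧ ∀ n ∈ {n : ℕ | ∃ x : ↥(Subgroup.closure {g : G | ∃ k : ℕ, orderOf g = 2 ^ k}), IsConj x x⁻¹ ∧ (Subgroup.centralizer ({x} : Set ↥(Subgroup.closure {g : G | ∃ k : ℕ, orderOf g = 2 ^ k}))).index = n}, Odd n ∨ ∃ j : ℕ, n = 2 ^ j)) := by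
  obtain ⟨π₁, π₂, hne₁, hne₂, hd, hpr, hcov, hsep⟩ := h
  have hS : CfsgLib.RealClassGraph.Split G π₁ π₂ :=
    { disj := hd
      cover := fun n hn q hq hqn => hcov q hq ⟨n, hn, hqn⟩
      sep := hsep
      ne₁ := by
        obtain ⟨q, hq⟩ := hne₁
        exact ⟨q, (hpr q (Or.inl hq)).1, hq, (hpr q (Or.inl hq)).2⟩
      ne₂ := by
        obtain ⟨q, hq⟩ := hne₂
        exact ⟨q, (hpr q (Or.inr hq)).1, hq, (hpr q (Or.inr hq)).2⟩ }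
  obtain ⟨n, hn, hn2⟩ := CfsgLib.RealClassGraph.exists_even_size hS
  refine ⟨⟨n, hn, hn2⟩, ?_⟩
  by_cases hP : ∀ P : Sylow 2 G, (P : Subgroup G).Normal
  · exact Or.inl hP
  refine Or.inr ?_
  obtain ⟨ρ₁, ρ₂, hR, h2⟩ : ∃ ρ₁ ρ₂ : Set ℕ, CfsgLib.RealClassGraph.Split G ρ₁ ρ₂ ∧ 2 ∈ ρ₁ := by
    rcases hcov 2 Nat.prime_two ⟨n, hn, hn2⟩ with h' | h'
    · exact ⟨π₁, π₂, hS, h'⟩
    · exact ⟨π₂, π₁, hS.symm, h'⟩
  obtain ⟨hall, ⟨m, hm, hm2⟩, k, hk, hko, hk1⟩ := CfsgLib.RealClassGraph.twoGen_split hR h2 hP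
  obtain ⟨r, hr, hrk⟩ := Nat.exists_prime_and_dvd hk1
  have hr2 : r ≠ 2 := by
    rintro rfl
    exact Nat.not_even_iff_odd.2 hko (even_iff_two_dvd.2 hrk)
  refine ⟨⟨{2}, {q | q.Prime ∧ q ≠ 2 ∧ ∃ n ∈ CfsgLib.RealClassGraph.realSizes
    (CfsgLib.RealClassGraph.twoGen G), q ∣ n}, Set.singleton_nonempty 2, ⟨r, hr, hr2, k, hk, hrk⟩,
    ?_, ?_, ?_, ?_⟩, hall⟩
  · rw [Set.disjoint_singleton_left]
    exact fun h' => h'.2.1 rfl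
  · rintro q (rfl | hq)
    · exact ⟨Nat.prime_two, m, hm, hm2⟩
    · exact ⟨hq.1, hq.2.2⟩
  · intro q hq hqn
    rcases eq_or_ne q 2 with e | e
    · exact Or.inl e
    · exact Or.inr ⟨hq, e, hqn⟩
  · rintro a rfl b ⟨hb, hb2, -⟩ l hl ⟨h2l, hbl⟩
    rcases hall l hl with ho | ⟨j, rfl⟩
    · exact Nat.not_even_iff_odd.2 ho (even_iff_two_dvd.2 h2l)
    · exact hb2 ((Nat.prime_dvd_prime_iff_eq hb Nat.prime_two).1 (hb.dvd_of_dvd_pow hbl))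

end Cfsg.Agent.S4192
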