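import Cfsg.Statements.S4194
import Cfsg.Agent.Lib.OddClassTwo.Main

set_option autoImplicit false
open Cfsg

namespace Cfsg.Agent.S4194

/-- A finite group G has commutative Sylow 2-subgroups if and only if every 2-element of G (element of order a power of 2) is 2-central, that is, its centralizer contains a Sylow 2-subgroup of G. -/
theorem result {G : Type*} [Group G] [Finite G] (P : Sylow 2 G) :
    IsMulCommutative (P : Subgroup G) ↔ ∀ x : G, (∃ k : ℕ, orderOf x = 2 ^ k) → (∃ Q : Sylow 2 G, (Q : Subgroup G) ≤ Subgroup.centralizer ({x} : Set G)) := by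
  haveI : Fact (Nat.Prime 2) := ⟨Nat.prime_two⟩
  constructor
  · intro hP x ⟨k, hk⟩
    have hx : IsPGroup 2 (Subgroup.zpowers x) := IsPGroup.of_card (n := k) (by rw [Nat.card_zpowers, hk])
    obtain ⟨R, hR⟩ := hx.exists_le_sylow
    obtain ⟨g, hg⟩ := MulAction.exists_smul_eq G P R
    refine ⟨R, fun q hq => Subgroup.mem_centralizer_singleton_iff.2 ?_⟩
    have hxR : x ∈ R := hR (Subgroup.mem_zpowers x)
    rw [← hg, Sylow.smul_def] at hq hxR
    obtain ⟨a, ha, rfl⟩ := hq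
    obtain ⟨b, hb, rfl⟩ := hxR
    show g * a * g⁻¹ * (g * b * g⁻¹) = g * b * g⁻¹ * (g * a * g⁻¹)
    have hab : a * b = b * a := congrArg Subtype.val (mul_comm' (⟨a, ha⟩ : (P : Subgroup G)) ⟨b, hb⟩)
    calc g * a * g⁻¹ * (g * b * g⁻¹) = g * (a * b) * g⁻¹ := by group
      _ = g * (b * a) * g⁻¹ := by rw [hab]
      _ = g * b * g⁻¹ * (g * a * g⁻¹) := by group
  · intro h
    have hH : CfsgLib.OddClassTwo.Hyp G := by
      intro x ⟨k, hk⟩
      obtain ⟨j, -, hj⟩ := (Nat.dvd_prime_pow Nat.prime_two).1 (orderOf_dvd_of_pow_eq_one hk)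
      obtain ⟨Q, hQ⟩ := h x ⟨j, hj⟩
      exact ⟨Q, fun q hq => Subgroup.mem_centralizer_singleton_iff.1 (hQ hq)⟩
    exact ⟨⟨fun a b => Subtype.ext (hH.comm P a a.2 b b.2)⟩⟩

end Cfsg.Agent.S4194
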