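import Cfsg.Statements.S4195

set_option autoImplicit false
open Cfsg

namespace Cfsg.Agent.S4195
/-- a real element whose centralizer has odd index squares to one -/
private theorem sq_eq_one {G : Type*} [Group G] [Finite G] {x : G} (hreal : IsConj x x⁻¹)
    (hodd : ¬ 2 ∣ (Subgroup.centralizer ({x} : Set G)).index) : x ^ 2 = 1 := by
  classical
  obtain ⟨c, hc⟩ := isConj_iff.mp hreal
  set C := Subgroup.centralizer ({x} : Set G) with hC
  let E : Subgroup G :=
    { carrier := {g | g * x * g⁻¹ = x ∨ g * x * g⁻¹ = x⁻¹}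
      one_mem' := Or.inl (by group)
      mul_mem' := by
        intro a b ha hb
        have e : a * b * x * (a * b)⁻¹ = a * (b * x * b⁻¹) * a⁻¹ := by group
        have e' : a * x⁻¹ * a⁻¹ = (a * x * a⁻¹)⁻¹ := by group
        show a * b * x * (a * b)⁻¹ = x ∨ a * b * x * (a * b)⁻¹ = x⁻¹
        rcases hb with hb | hb <;> rw [e, hb] <;> [skip; rw [e']] <;>
          rcases ha with ha | ha <;> simp [ha]
      inv_mem' := by
        intro a ha
        rcases ha with ha | ha
        · refine Or.inl ?_
          calc a⁻¹ * x * a⁻¹⁻¹ = a⁻¹ * (a * x * a⁻¹) * a := by rw [ha]; group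
            _ = x := by group
        · refine Or.inr ?_
          calc a⁻¹ * x * a⁻¹⁻¹ = (a⁻¹ * (a * x * a⁻¹) * a)⁻¹ := by rw [ha]; group
            _ = x⁻¹ := by group }
  have hCE : C ≤ E := fun g hg => Or.inl (by
    rw [(Subgroup.mem_centralizer_singleton_iff.mp hg)]; group)
  by_contra hne
  have hcE : c ∈ E := Or.inr hc
  have hcC : c ∉ C := fun h => hne (by
    have h' := Subgroup.mem_centralizer_singleton_iff.mp h
    rw [h', mul_inv_cancel_right] at hc
    rw [pow_two]; nth_rw 2 [hc]; group)
  have hidx : C.relIndex E = 2 := by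
    rw [Subgroup.relIndex, Subgroup.index_eq_two_iff]
    refine ⟨⟨c, hcE⟩, fun b => ?_⟩
    simp only [Subgroup.mem_subgroupOf, Subgroup.coe_mul, Xor']
    rcases b with ⟨b, hb⟩
    simp only [hC, Subgroup.mem_centralizer_singleton_iff]
    rcases hb with hb | hb
    · right
      refine ⟨mul_inv_eq_iff_eq_mul.mp hb, fun h => hne ?_⟩
      have h1 : b * c * x * (b * c)⁻¹ = x := by rw [h]; group
      have h2 : b * c * x * (b * c)⁻¹ = b * (c * x * c⁻¹) * b⁻¹ := by group
      rw [h2, hc] at h1
      have h3 : (b * x * b⁻¹)⁻¹ = x := by conv_rhs => rw [← h1]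
                                          group
      rw [hb] at h3
      rw [pow_two]; nth_rw 1 [← h3]; group
    · left
      refine ⟨?_, fun h => hne ?_⟩
      · apply mul_inv_eq_iff_eq_mul.mp
        calc b * c * x * (b * c)⁻¹ = (b * (c * x * c⁻¹)⁻¹ * b⁻¹)⁻¹ := by group
          _ = (b * x * b⁻¹)⁻¹ := by rw [hc, inv_inv]
          _ = x := by rw [hb, inv_inv]
      · have h1 : b * x * b⁻¹ = x := by rw [h]; group
        rw [hb] at h1
        rw [pow_two]; nth_rw 1 [← h1]; group
  exact hodd (hidx ▸ Subgroup.relIndex_dvd_index_of_le hCE)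

private theorem odd_index {G : Type*} [Group G] [Finite G] {x : G} (P : Sylow 2 G)
    (hP : (P : Subgroup G) ≤ Subgroup.centralizer ({x} : Set G)) :
    ¬ 2 ∣ (Subgroup.centralizer ({x} : Set G)).index := fun h =>
  haveI := Fact.mk Nat.prime_two
  P.not_dvd_index (h.trans (Subgroup.index_dvd_of_le hP))


/-- Let x be a non-identity element of a finite group G whose centralizer contains a Sylow 2-subgroup of G. If x is conjugate to its inverse, then x has order 2. -/
theorem result {G : Type*} [Group G] [Finite G] (x : G) (hx : x ≠ 1) (P : Sylow 2 G) (hP : (P : Subgroup G) ≤ Subgroup.centralizer ({x} : Set G)) (hreal : IsConj x x⁻¹) : orderOf x = 2 := by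
  exact orderOf_eq_prime (hp := ⟨Nat.prime_two⟩) (sq_eq_one hreal (odd_index P hP)) hx

end Cfsg.Agent.S4195
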