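import Cfsg.Statements.S4230
-- import your own Cfsg.Agent.* helpers here

set_option autoImplicit false
open Cfsg

namespace Cfsg.Agent.S4230

/-- Let p be an odd prime, q a natural number not divisible by p, and e the multiplicative order of q modulo p. For a natural number f, p divides the value at q of the f-th cyclotomic polynomial if and only if f = e·p^j for some j ≥ 0. -/
theorem result (p q f : ℕ) (hp : p.Prime) (hp2 : p ≠ 2) (hpq : ¬ p ∣ q) :
    ((p : ℤ) ∣ (Polynomial.cyclotomic f ℤ).eval (q : ℤ)) ↔ ∃ j : ℕ, f = orderOf (q : ZMod p) * p ^ j := by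
  haveI : Fact p.Prime := ⟨hp⟩
  have hq : (q : ZMod p) ≠ 0 := by rwa [ne_eq, ZMod.natCast_eq_zero_iff]
  have hepos : 0 < orderOf (q : ZMod p) :=
    orderOf_pos_iff.mpr (isOfFinOrder_iff_pow_eq_one.mpr ⟨p - 1, Nat.sub_pos_of_lt hp.one_lt, ZMod.pow_card_sub_one_eq_one hq⟩)
  have hep : ¬ p ∣ orderOf (q : ZMod p) := fun h => by
    have h1 : orderOf (q : ZMod p) ∣ p - 1 := orderOf_dvd_of_pow_eq_one (ZMod.pow_card_sub_one_eq_one hq)
    have h2 := Nat.le_of_dvd (Nat.sub_pos_of_lt hp.one_lt) (h.trans h1)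
    exact absurd h2 (Nat.not_le.mpr (Nat.sub_lt hp.pos Nat.one_pos))
  have hroot : ((p : ℤ) ∣ (Polynomial.cyclotomic f ℤ).eval (q : ℤ)) ↔
      (Polynomial.cyclotomic f (ZMod p)).IsRoot (q : ZMod p) := by
    rw [← ZMod.intCast_zmod_eq_zero_iff_dvd, Polynomial.IsRoot.def,
      ← Polynomial.map_cyclotomic f (Int.castRingHom (ZMod p))]
    rw [← Int.cast_natCast (R := ZMod p), Polynomial.eval_intCast_map]
    simp
  rw [hroot]
  constructor
  · intro h
    have hf : f ≠ 0 := by rintro rfl; simp at h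
    obtain ⟨j, m, hm, rfl⟩ := Nat.exists_eq_pow_mul_and_not_dvd hf p hp.ne_one
    haveI : NeZero (m : ZMod p) := ⟨by rwa [ne_eq, ZMod.natCast_eq_zero_iff]⟩
    rw [Polynomial.isRoot_cyclotomic_prime_pow_mul_iff_of_charP] at h
    exact ⟨j, by rw [h.eq_orderOf, mul_comm]⟩
  · rintro ⟨j, rfl⟩
    haveI : NeZero ((orderOf (q : ZMod p) : ℕ) : ZMod p) := ⟨by rwa [ne_eq, ZMod.natCast_eq_zero_iff]⟩
    rw [mul_comm, Polynomial.isRoot_cyclotomic_prime_pow_mul_iff_of_charP]
    exact IsPrimitiveRoot.orderOf _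

end Cfsg.Agent.S4230
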