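import Cfsg.Statements.S4234
import Cfsg.Agent.Lib.SL2.Basic
import Cfsg.Agent.Lib.ClassicalLinear.Simple
import Cfsg.Agent.Lib.ClassicalLinear.Card
import Cfsg.Agent.Lib.ClassGraph.Basic
import Cfsg.Agent.Lib.BGAppendix.Basic
import Cfsg.Agent.Lib.NormalPComplement.Basic

set_option autoImplicit false
set_option linter.style.haveILetI false
open Cfsg

namespace Cfsg.Agent.S4234

open scoped Pointwise

variable {T : Type*} [Group T]

/-- Every non-normal subgroup has a maximal normalizer. -/
def MaxNorm (T : Type*) [Group T] : Prop :=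
  ∀ H : Subgroup T, ¬ H.Normal → IsCoatom (Subgroup.normalizer (H : Set T))

theorem dvd_factorial_index [Finite T] [IsSimpleGroup T] {L : Subgroup T} (hL : L ≠ ⊤) :
    Nat.card T ∣ L.index.factorial := by
  have hker : L.normalCore = ⊥ := (L.normalCore_normal.eq_bot_or_eq_top).resolve_right
    fun h => hL (top_le_iff.1 (h ▸ L.normalCore_le))
  have hinj : Function.Injective (MulAction.toPermHom T (T ⧸ L)) := by
    rw [← MonoidHom.ker_eq_bot_iff, ← Subgroup.normalCore_eq_ker, hker]
  rw [Subgroup.index_eq_card, ← Nat.card_perm]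
  exact Subgroup.card_dvd_of_injective _ hinj

/-- A unique Sylow subgroup of prime order of `L` puts `L` into the normalizer of a Sylow subgroup of `T`. -/
theorem le_normalizer_sylow [Finite T] {q : ℕ} [Fact q.Prime] {L : Subgroup T}
    (h1 : Nat.card (Sylow q L) = 1) (hq : q ∣ Nat.card L)
    (hq2 : ∀ P : Sylow q T, Nat.card P = q) :
    ∃ P : Sylow q T, (P : Subgroup T) ≤ L ∧ L ≤ Subgroup.normalizer ((P : Subgroup T) : Set T) := by
  haveI : Subsingleton (Sylow q L) := (Nat.card_eq_one_iff_unique.1 h1).1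
  obtain ⟨R⟩ := (inferInstance : Nonempty (Sylow q L))
  let Q : Subgroup T := (R : Subgroup L).map L.subtype
  obtain ⟨P, hP⟩ := (R.isPGroup'.map L.subtype).exists_le_sylow
  have hRne : (R : Subgroup L) ≠ ⊥ := R.ne_bot_of_dvd_card hq
  have hcard : Nat.card Q = Nat.card P := by
    have hdvd : Nat.card Q ∣ q := (Subgroup.card_dvd_of_le hP).trans (hq2 P).dvd
    rcases (Nat.dvd_prime Fact.out).1 hdvd with h | h
    · exact absurd (by rwa [Subgroup.card_eq_one, Subgroup.map_eq_bot_iff_of_injective _
        L.subtype_injective] at h) hRne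
    · exact h.trans (hq2 P).symm
  have hQP : Q = P := Subgroup.eq_of_le_of_card_ge hP hcard.ge
  refine ⟨P, hQP ▸ Subgroup.map_subtype_le _, fun l hl => hQP ▸ ?_⟩
  haveI : (R : Subgroup L).Normal := Sylow.normal_of_subsingleton R
  rw [Subgroup.mem_normalizer_iff]
  intro x
  constructor
  · rintro ⟨r, hr, rfl⟩
    exact ⟨_, (inferInstance : (R : Subgroup L).Normal).conj_mem r hr ⟨l, hl⟩, rfl⟩
  · rintro ⟨r, hr, hrx⟩
    refine ⟨_, (inferInstance : (R : Subgroup L).Normal).conj_mem r hr ⟨l⁻¹, L.inv_mem hl⟩, ?_⟩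
    simp only [Subgroup.coe_subtype] at hrx
    simp only [Subgroup.coe_subtype, Subgroup.coe_mul, Subgroup.coe_inv, hrx]
    group

section Order1092

variable [Finite T] (hT : Nat.card T = 1092)
include hT

theorem card_sylow_prime (q : ℕ) [Fact q.Prime] (h : q ∣ 1092) (h2 : ¬ q * q ∣ 1092) (P : Sylow q T) :
    Nat.card P = q := by
  rw [P.card_eq_multiplicity, hT]
  have hpos : 0 < Nat.factorization 1092 q := Nat.Prime.factorization_pos_of_dvd Fact.out (by norm_num) h
  have hlt : Nat.factorization 1092 q < 2 := by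
    by_contra hc
    exact h2 (by simpa [pow_two] using
      ((Nat.Prime.pow_dvd_iff_le_factorization Fact.out (by norm_num)).2 (Nat.le_of_not_lt hc)))
  rw [show Nat.factorization 1092 q = 1 by omega, pow_one]

variable [IsSimpleGroup T]

theorem card_normalizer_seven [Fact (Nat.Prime 7)] (P : Sylow 7 T) :
    Nat.card (Subgroup.normalizer ((P : Subgroup T) : Set T)) = 14 := by
  have hn := card_sylow_modEq_one 7 T
  have hP : Nat.card P = 7 := card_sylow_prime hT 7 (by norm_num) (by norm_num) P
  have hd : Nat.card (Sylow 7 T) ∣ 156 := by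
    have := P.card_dvd_index
    rwa [show (P : Subgroup T).index = 156 by
      have := Subgroup.index_mul_card (P : Subgroup T); rw [hP, hT] at this; omega] at this
  have hne : Nat.card (Sylow 7 T) ≠ 1 := fun h1 => by
    haveI : Subsingleton (Sylow 7 T) := (Nat.card_eq_one_iff_unique.1 h1).1
    rcases (Sylow.normal_of_subsingleton P).eq_bot_or_eq_top with h | h
    · rw [h, Subgroup.card_bot] at hP; omega
    · rw [h, Subgroup.card_top, hT] at hP; omega
  have hmem : Nat.card (Sylow 7 T) ∈ Nat.divisors 156 := Nat.mem_divisors.2 ⟨hd, by norm_num⟩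
  have key : ∀ n ∈ Nat.divisors 156, n % 7 = 1 → n ≠ 1 → n = 78 := by decide
  have h78 := key _ hmem hn hne
  have := Subgroup.index_mul_card (Subgroup.normalizer ((P : Subgroup T) : Set T))
  rw [show (Subgroup.normalizer ((P : Subgroup T) : Set T)).index = 78 from
    P.card_eq_index_normalizer.symm.trans h78, hT] at this
  omega

theorem card_normalizer_thirteen [Fact (Nat.Prime 13)] (P : Sylow 13 T) :
    Nat.card (Subgroup.normalizer ((P : Subgroup T) : Set T)) = 78 := by
  have hn := card_sylow_modEq_one 13 T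
  have hP : Nat.card P = 13 := card_sylow_prime hT 13 (by norm_num) (by norm_num) P
  have hd : Nat.card (Sylow 13 T) ∣ 84 := by
    have := P.card_dvd_index
    rwa [show (P : Subgroup T).index = 84 by
      have := Subgroup.index_mul_card (P : Subgroup T); rw [hP, hT] at this; omega] at this
  have hne : Nat.card (Sylow 13 T) ≠ 1 := fun h1 => by
    haveI : Subsingleton (Sylow 13 T) := (Nat.card_eq_one_iff_unique.1 h1).1
    rcases (Sylow.normal_of_subsingleton P).eq_bot_or_eq_top with h | h
    · rw [h, Subgroup.card_bot] at hP; omega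
    · rw [h, Subgroup.card_top, hT] at hP; omega
  have hmem : Nat.card (Sylow 13 T) ∈ Nat.divisors 84 := Nat.mem_divisors.2 ⟨hd, by norm_num⟩
  have key : ∀ n ∈ Nat.divisors 84, n % 13 = 1 → n ≠ 1 → n = 14 := by decide
  have h14 := key _ hmem hn hne
  have := Subgroup.index_mul_card (Subgroup.normalizer ((P : Subgroup T) : Set T))
  rw [show (Subgroup.normalizer ((P : Subgroup T) : Set T)).index = 14 from
    P.card_eq_index_normalizer.symm.trans h14, hT] at this
  omega

theorem exists_sylow_thirteen [Fact (Nat.Prime 13)] {L : Subgroup T} (hL : L ≠ ⊤)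
    (h13 : 13 ∣ Nat.card L) :
    ∃ P : Sylow 13 T, (P : Subgroup T) ≤ L ∧ L ≤ Subgroup.normalizer ((P : Subgroup T) : Set T) := by
  refine le_normalizer_sylow ?_ h13 fun P => card_sylow_prime hT 13 (by norm_num) (by norm_num) P
  have hn := card_sylow_modEq_one 13 L
  obtain ⟨R⟩ := (inferInstance : Nonempty (Sylow 13 L))
  by_contra hne
  have hLdvd : Nat.card L ∣ 1092 := hT ▸ Subgroup.card_subgroup_dvd_card L
  have hRdvd : 13 ∣ Nat.card R := R.dvd_card_of_dvd_card h13
  have hidx : (R : Subgroup L).index * Nat.card R = Nat.card L :=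
    Subgroup.index_mul_card (R : Subgroup L)
  have hpos := Nat.card_pos (α := Sylow 13 L)
  have h14 : 14 ≤ Nat.card (Sylow 13 L) := by
    unfold Nat.ModEq at hn; omega
  have h182 : 182 ≤ Nat.card L := by
    rw [← hidx]
    have h1 := Nat.le_of_dvd (Nat.pos_of_ne_zero (Subgroup.index_ne_zero_of_finite)) R.card_dvd_index
    have h2 := Nat.le_of_dvd Nat.card_pos hRdvd
    nlinarith
  have hi := Subgroup.index_mul_card L
  rw [hT] at hi
  have hi6 : L.index ≤ 6 := by
    by_contra hc
    nlinarith
  have h720 : 13 ∣ L.index.factorial := (show 13 ∣ Nat.card T by rw [hT]; norm_num).trans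
    (dvd_factorial_index hL)
  have := (Fact.out : Nat.Prime 13).dvd_factorial.1 h720
  omega

theorem card_dvd_of_proper {L : Subgroup T} (hL : L ≠ ⊤) :
    (13 ∣ Nat.card L ∧ Nat.card L ∣ 78) ∨ (7 ∣ Nat.card L ∧ Nat.card L ∣ 14) ∨ Nat.card L ∣ 12 := by
  haveI : Fact (Nat.Prime 13) := ⟨by norm_num⟩
  haveI : Fact (Nat.Prime 7) := ⟨by norm_num⟩
  have hd : Nat.card L ∣ 1092 := hT ▸ Subgroup.card_subgroup_dvd_card L
  by_cases h13 : 13 ∣ Nat.card L
  · obtain ⟨P, -, hP⟩ := exists_sylow_thirteen hT hL h13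
    exact Or.inl ⟨h13, card_normalizer_thirteen hT P ▸ Subgroup.card_dvd_of_le hP⟩
  have hd84 : Nat.card L ∣ 84 :=
    ((Nat.Prime.coprime_iff_not_dvd (by norm_num)).2 h13).symm.dvd_of_dvd_mul_left
      (show Nat.card L ∣ 13 * 84 from hd)
  by_cases h7 : 7 ∣ Nat.card L
  · refine Or.inr (Or.inl ⟨h7, ?_⟩)
    obtain ⟨R⟩ := (inferInstance : Nonempty (Sylow 7 L))
    have h1 : Nat.card (Sylow 7 L) = 1 := by
      have hn := card_sylow_modEq_one 7 L
      have hR : 7 ∣ Nat.card R := R.dvd_card_of_dvd_card h7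
      have h12 : Nat.card (Sylow 7 L) ∣ 12 := by
        have h : 7 * (R : Subgroup L).index ∣ 7 * 12 :=
          (mul_dvd_mul_right hR _).trans ((dvd_of_eq (R : Subgroup L).card_mul_index).trans hd84)
        exact R.card_dvd_index.trans (Nat.dvd_of_mul_dvd_mul_left (by norm_num) h)
      have hmem : Nat.card (Sylow 7 L) ∈ Nat.divisors 12 := Nat.mem_divisors.2 ⟨h12, by norm_num⟩
      have key : ∀ n ∈ Nat.divisors 12, n % 7 = 1 → n = 1 := by decide
      exact key _ hmem hn
    obtain ⟨P, -, hP⟩ := le_normalizer_sylow h1 h7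
      fun P => card_sylow_prime hT 7 (by norm_num) (by norm_num) P
    exact card_normalizer_seven hT P ▸ Subgroup.card_dvd_of_le hP
  · exact Or.inr (Or.inr (((Nat.Prime.coprime_iff_not_dvd (by norm_num)).2 h7).symm.dvd_of_dvd_mul_left
      (show Nat.card L ∣ 7 * 12 from hd84)))

theorem isCoatom_of_dvd {N : Subgroup T} (hN : N ≠ ⊤) {m : ℕ} (hm : m = 12 ∨ m = 14 ∨ m = 78)
    (h : m ∣ Nat.card N) : IsCoatom N := by
  have key : ∀ L : Subgroup T, L ≠ ⊤ → m ∣ Nat.card L → Nat.card L = m := by
    intro L hL hmL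
    refine Nat.dvd_antisymm ?_ hmL
    rcases card_dvd_of_proper hT hL with ⟨h13, h78⟩ | ⟨h7, h14⟩ | h12
    · rcases hm with rfl | rfl | rfl
      · exact absurd (hmL.trans h78) (by norm_num)
      · exact absurd (hmL.trans h78) (by norm_num)
      · exact h78
    · rcases hm with rfl | rfl | rfl
      · exact absurd (hmL.trans h14) (by norm_num)
      · exact h14
      · exact absurd (hmL.trans h14) (by norm_num)
    · rcases hm with rfl | rfl | rfl
      · exact h12
      · exact absurd (hmL.trans h12) (by norm_num)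
      · exact absurd (hmL.trans h12) (by norm_num)
  refine ⟨hN, fun L hlt => ?_⟩
  by_contra hL
  exact hlt.ne (Subgroup.eq_of_le_of_card_ge hlt.le
    (le_of_eq ((key L hL (h.trans (Subgroup.card_dvd_of_le hlt.le))).trans (key N hN h).symm)))

theorem maxNorm (d w u : T) (hd : orderOf d = 6) (hw : orderOf w = 2)
    (hwd : w * d * w⁻¹ = d⁻¹) (hwn : w ∉ Subgroup.zpowers d) (hu : orderOf u = 13)
    (hdu : d * u * d⁻¹ ∈ Subgroup.zpowers u) : MaxNorm T := by
  haveI : Fact (Nat.Prime 13) := ⟨by norm_num⟩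
  haveI : Fact (Nat.Prime 7) := ⟨by norm_num⟩
  haveI : Fact (Nat.Prime 3) := ⟨by norm_num⟩
  intro H hH
  have hN : Subgroup.normalizer (H : Set T) ≠ ⊤ := fun h => hH (Subgroup.normalizer_eq_top_iff.1 h)
  have hHne : H ≠ ⊤ := fun h => hH (h ▸ inferInstance)
  have hHbot : H ≠ ⊥ := fun h => hH (h ▸ inferInstance)
  have hW : Subgroup.zpowers w ≤ Subgroup.normalizer (Subgroup.zpowers d : Set T) := by
    refine Subgroup.zpowers_le.2 (Subgroup.mem_normalizer_fintype ?_)
    rintro _ ⟨i, rfl⟩
    refine ⟨-i, ?_⟩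
    show d ^ (-i) = w * d ^ i * w⁻¹
    rw [← MulAut.conj_apply, map_zpow, MulAut.conj_apply, hwd, inv_zpow, zpow_neg]
  -- the dihedral group of order twelve
  let D := Subgroup.zpowers w ⊔ Subgroup.zpowers d
  have hwd' : Subgroup.zpowers w ⊓ Subgroup.zpowers d = ⊥ := by
    refine eq_bot_iff.2 fun x ⟨hx1, hx2⟩ => ?_
    haveI : Fact (Nat.Prime 2) := ⟨Nat.prime_two⟩
    by_contra hx
    refine hwn ?_
    have hcard : Nat.card (Subgroup.zpowers w) = 2 := by rw [Nat.card_zpowers, hw]
    have h := (Subgroup.eq_bot_or_eq_top_of_prime_card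
      ((Subgroup.zpowers d).subgroupOf (Subgroup.zpowers w)) (hp := ⟨hcard.symm ▸ Nat.prime_two⟩)).resolve_left (fun h => hx ?_)
    · exact Subgroup.subgroupOf_eq_top.1 h (Subgroup.mem_zpowers w)
    · have hm : (⟨x, hx1⟩ : Subgroup.zpowers w) ∈
          (Subgroup.zpowers d).subgroupOf (Subgroup.zpowers w) := Subgroup.mem_subgroupOf.2 hx2
      rw [h, Subgroup.mem_bot] at hm
      exact congrArg Subtype.val hm
  have hD : Nat.card D = 12 := by
    show Nat.card ↥(Subgroup.zpowers w ⊔ Subgroup.zpowers d) = 12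
    rw [CfsgLib.BGAppendix.card_sup_eq_mul _ _ hW hwd', Nat.card_zpowers, Nat.card_zpowers, hw, hd]
  -- the involution `d ^ 3`
  have ht : orderOf (d ^ 3) = 2 := by rw [orderOf_pow' d (by norm_num), hd]; rfl
  have hd6 : d ^ 6 = 1 := hd ▸ pow_orderOf_eq_one d
  have hDt : D ≤ Subgroup.centralizer ({d ^ 3} : Set T) := by
    refine sup_le (Subgroup.zpowers_le.2 ?_) (Subgroup.zpowers_le.2 ?_)
    · rw [Subgroup.mem_centralizer_singleton_iff]
      have h3 : w * d ^ 3 * w⁻¹ = d ^ 3 := by
        rw [← MulAut.conj_apply, map_pow, MulAut.conj_apply, hwd, inv_pow]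
        exact inv_eq_of_mul_eq_one_right (by rw [← pow_add]; exact hd6)
      exact mul_inv_eq_iff_eq_mul.1 h3
    · exact Subgroup.mem_centralizer_singleton_iff.2 (Commute.self_pow d 3).eq
  have hD3 : D ≤ Subgroup.normalizer (Subgroup.zpowers (d ^ 2) : Set T) := by
    refine sup_le (Subgroup.zpowers_le.2 (Subgroup.mem_normalizer_fintype ?_))
      (Subgroup.zpowers_le.2 (Subgroup.mem_normalizer_fintype ?_)) <;> rintro _ ⟨i, rfl⟩
    · refine ⟨-i, ?_⟩
      show (d ^ 2) ^ (-i) = w * (d ^ 2) ^ i * w⁻¹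
      rw [← MulAut.conj_apply, map_zpow, map_pow, MulAut.conj_apply, hwd, inv_pow, inv_zpow,
        zpow_neg]
    · refine ⟨i, ?_⟩
      show (d ^ 2) ^ i = d * (d ^ 2) ^ i * d⁻¹
      rw [((Commute.self_pow d 2).zpow_right i).eq, mul_inv_cancel_right]
  -- Klein four Sylow subgroups
  haveI : Fact (Nat.Prime 2) := ⟨Nat.prime_two⟩
  have hS2 : ∀ P : Sylow 2 T, Nat.card P = 4 := by
    intro P
    rw [P.card_eq_multiplicity, hT]
    rw [show (1092 : ℕ) = 2 ^ 2 * 273 by norm_num,
      Nat.factorization_mul (by norm_num) (by norm_num), Finsupp.add_apply,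
      Nat.factorization_pow, Finsupp.smul_apply, Nat.Prime.factorization_self Nat.prime_two,
      Nat.factorization_eq_zero_of_not_dvd (show ¬ 2 ∣ 273 by norm_num)]
    rfl
  have hwt : Commute w (d ^ 3) :=
    Subgroup.mem_centralizer_singleton_iff.1 (hDt (Subgroup.mem_sup_left (Subgroup.mem_zpowers w)))
  have hsq : ∀ (P : Sylow 2 T), ∀ x ∈ (P : Subgroup T), x ^ 2 = 1 := by
    intro P
    let V := Subgroup.zpowers w ⊔ Subgroup.zpowers (d ^ 3)
    have hVn : Subgroup.zpowers w ≤ Subgroup.normalizer (Subgroup.zpowers (d ^ 3) : Set T) := by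
      refine Subgroup.zpowers_le.2 (Subgroup.mem_normalizer_fintype ?_)
      rintro _ ⟨i, rfl⟩
      refine ⟨i, ?_⟩
      show (d ^ 3) ^ i = w * (d ^ 3) ^ i * w⁻¹
      rw [(hwt.zpow_right i).eq, mul_inv_cancel_right]
    have hVd : Subgroup.zpowers w ⊓ Subgroup.zpowers (d ^ 3) = ⊥ :=
      le_bot_iff.1 (hwd' ▸ inf_le_inf_left _
        (Subgroup.zpowers_le.2 (Subgroup.pow_mem _ (Subgroup.mem_zpowers d) 3)))
    have hV : Nat.card V = 4 := by
      show Nat.card ↥(Subgroup.zpowers w ⊔ Subgroup.zpowers (d ^ 3)) = 4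
      rw [CfsgLib.BGAppendix.card_sup_eq_mul _ _ hVn hVd, Nat.card_zpowers, Nat.card_zpowers, hw, ht]
    have hVsq : ∀ x ∈ V, x ^ 2 = 1 := by
      intro x hx
      obtain ⟨y, ⟨i, rfl⟩, z, ⟨j, rfl⟩, rfl⟩ : ∃ y ∈ Subgroup.zpowers w, ∃ z ∈ Subgroup.zpowers (d ^ 3),
          y * z = x := by
        have := hx
        rw [← SetLike.mem_coe, Subgroup.coe_mul_of_left_le_normalizer_right _ _ hVn] at this
        exact this
      show (w ^ i * (d ^ 3) ^ j) ^ 2 = 1
      have h1 : w ^ 2 = 1 := hw ▸ pow_orderOf_eq_one w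
      have h2 : (d ^ 3) ^ 2 = 1 := ht ▸ pow_orderOf_eq_one (d ^ 3)
      rw [((hwt.zpow_right j).zpow_left i).mul_pow, ← zpow_natCast, ← zpow_natCast (( d ^ 3) ^ j),
        ← zpow_mul, ← zpow_mul, mul_comm i, mul_comm j, zpow_mul, zpow_mul, zpow_natCast,
        zpow_natCast, h1, h2, one_zpow, one_zpow, mul_one]
    obtain ⟨P0, hP0⟩ := (IsPGroup.of_card (p := 2) (n := 2) hV).exists_le_sylow
    have hP0V : V = P0 := Subgroup.eq_of_le_of_card_ge hP0 (by rw [hV]; exact (hS2 P0).le)
    obtain ⟨g, rfl⟩ := MulAction.exists_smul_eq T P0 P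
    intro x hx
    rw [Sylow.coe_subgroup_smul, Subgroup.mem_pointwise_smul_iff_inv_smul_mem] at hx
    have := hVsq _ (hP0V ▸ hx)
    rw [MulAut.smul_def, ← map_pow, map_eq_one_iff _ (MulEquiv.injective _)] at this
    exact this
  -- the fusion element
  have hfus : ∀ P : Sylow 2 T, ∀ x ∈ (P : Subgroup T), x ≠ 1 →
      ∀ y ∈ (P : Subgroup T), y ≠ 1 → ∃ g : T, g * x * g⁻¹ = y := by
    intro P x hx hx1 y hy hy1
    set M := Subgroup.normalizer ((P : Subgroup T) : Set T) with hM
    have hMC : ¬ M ≤ Subgroup.centralizer ((P : Subgroup T) : Set T) := by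
      intro hle
      obtain ⟨Q, N, hNn, hc⟩ := CfsgLib.ClassGraph.hasNormalPComplement_of_normalizer_le P hle
      have hmul := hc.card_mul
      rw [hT, hS2 Q] at hmul
      rcases hNn.eq_bot_or_eq_top with h | h
      · rw [h, Subgroup.card_bot] at hmul; omega
      · rw [h, Subgroup.card_top, hT] at hmul; omega
    have hcomm : ∀ a ∈ (P : Subgroup T), ∀ b ∈ (P : Subgroup T), a * b = b * a := by
      intro a ha b hb
      calc a * b = (a * b)⁻¹ := (inv_eq_of_mul_eq_one_right
            ((pow_two _).symm.trans (hsq P _ (mul_mem ha hb)))).symm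
        _ = b⁻¹ * a⁻¹ := mul_inv_rev a b
        _ = b * a := by
          rw [inv_eq_of_mul_eq_one_right ((pow_two _).symm.trans (hsq P _ ha)),
            inv_eq_of_mul_eq_one_right ((pow_two _).symm.trans (hsq P _ hb))]
    -- some element of `M` of odd order moves `P`
    obtain ⟨g, hg, hgo, hgc⟩ : ∃ g ∈ M, Odd (orderOf g) ∧
        g ∉ Subgroup.centralizer ((P : Subgroup T) : Set T) := by
      by_contra hne
      push Not at hne
      refine hMC fun m hm => ?_
      obtain ⟨a, b, hab, ⟨i, hi⟩, hb⟩ :=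
        CfsgLib.NormalPComplement.exists_pParts (p := 2) (isOfFinOrder_of_finite m)
      rw [← hab]
      refine mul_mem ?_ (hne _ (M.pow_mem hm b)
        (Nat.coprime_two_right.1 hb))
      obtain ⟨j, -, hj⟩ := (Nat.dvd_prime_pow Nat.prime_two).1 hi
      have hpg : IsPGroup 2 (Subgroup.zpowers (m ^ a)) :=
        IsPGroup.of_card (n := j) (by rw [Nat.card_zpowers, hj])
      have hsup := hpg.to_sup_of_normal_right' P.isPGroup' (Subgroup.zpowers_le.2 (M.pow_mem hm a))
      have hP : (Subgroup.zpowers (m ^ a) ⊔ (P : Subgroup T)) = P := P.is_maximal' hsup le_sup_right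
      have hmem : m ^ a ∈ (P : Subgroup T) := by
        rw [← hP]; exact Subgroup.mem_sup_left (Subgroup.mem_zpowers _)
      exact Subgroup.mem_centralizer_iff.2 fun z hz => hcomm z hz _ hmem
    have hconj : ∀ z ∈ (P : Subgroup T), g * z * g⁻¹ ∈ (P : Subgroup T) := fun z hz =>
      (Subgroup.mem_normalizer_iff.1 hg z).1 hz
    have hmove : ∀ z ∈ (P : Subgroup T), z ≠ 1 → g * z * g⁻¹ ≠ z := by
      intro z hz hz1 hfix
      refine hgc (Subgroup.mem_centralizer_iff.2 fun c hc => ?_)
      have hgz : Commute g z := mul_inv_eq_iff_eq_mul.1 hfix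
      have hc2 : g * g * c * (g * g)⁻¹ = c := by
        rcases em (c = 1) with rfl | hc1
        · simp
        rcases em (c = z) with rfl | hcz
        · rw [show g * g * c * (g * g)⁻¹ = g * (g * c * g⁻¹) * g⁻¹ by group, hfix, hfix]
        · -- `P` has exactly four elements
          have hlist : ∀ e ∈ (P : Subgroup T), e = 1 ∨ e = z ∨ e = c ∨ e = z * c := by
            intro e he
            classical
            have hsub : ({1, z, c, z * c} : Finset T) ⊆ ((P : Subgroup T) : Set T).toFinite.toFinset := by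
              intro v hv
              rw [Set.Finite.mem_toFinset, SetLike.mem_coe]
              simp only [Finset.mem_insert, Finset.mem_singleton] at hv
              rcases hv with rfl | rfl | rfl | rfl
              · exact one_mem _
              · exact hz
              · exact hc
              · exact mul_mem hz hc
            have hzc : z * c ≠ 1 := fun h => hcz (by
              rw [← inv_eq_of_mul_eq_one_right h,
                inv_eq_of_mul_eq_one_right ((pow_two _).symm.trans (hsq P _ hz))])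
            have h4 : ({1, z, c, z * c} : Finset T).card = 4 := by
              rw [Finset.card_insert_of_notMem, Finset.card_insert_of_notMem,
                Finset.card_pair (fun h => hz1 (mul_eq_right.1 h.symm))]
              · simp only [Finset.mem_insert, Finset.mem_singleton, not_or]
                exact ⟨Ne.symm hcz, fun h => hc1 (mul_eq_left.1 h.symm)⟩
              · simp only [Finset.mem_insert, Finset.mem_singleton, not_or]
                exact ⟨Ne.symm hz1, Ne.symm hc1, Ne.symm hzc⟩
            have heq := Finset.eq_of_subset_of_card_le hsub (by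
              rw [h4, ← Set.ncard_eq_toFinset_card _, ← Nat.card_coe_set_eq]
              exact (hS2 P).le)
            have hm : e ∈ ({1, z, c, z * c} : Finset T) := by
              rw [heq, Set.Finite.mem_toFinset]; exact he
            simpa using hm
          rcases hlist _ (hconj c hc) with h | h | h | h
          · exact absurd (by simpa [mul_assoc] using congrArg (fun v => g⁻¹ * v * g) h) hc1
          · refine absurd ?_ hcz
            have := h.trans hfix.symm
            simpa using this
          · rw [show g * g * c * (g * g)⁻¹ = g * (g * c * g⁻¹) * g⁻¹ by group, h, h]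
          · rw [show g * g * c * (g * g)⁻¹ = g * (g * c * g⁻¹) * g⁻¹ by group, h,
              show g * (z * c) * g⁻¹ = g * z * g⁻¹ * (g * c * g⁻¹) by group, hfix, h, ← mul_assoc,
              (pow_two z).symm.trans (hsq P _ hz), one_mul]
      obtain ⟨k, hk⟩ := hgo
      have hg2 : Commute (g * g) c := mul_inv_eq_iff_eq_mul.1 hc2
      have hk1 : g ^ (2 * k + 1) = 1 := hk ▸ pow_orderOf_eq_one g
      have hg' : g = ((g * g) ^ k)⁻¹ := by
        rw [eq_inv_iff_mul_eq_one, ← pow_two, ← pow_mul, ← pow_succ']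
        exact hk1
      rw [hg']
      exact ((hg2.pow_left k).inv_left).eq.symm
    -- so `g` permutes the three involutions cyclically
    have hx' := hconj x hx
    classical
    have hx'1 : g * x * g⁻¹ ≠ 1 := fun h => hx1 (by simpa [mul_assoc] using congrArg (fun v => g⁻¹ * v * g) h)
    have hx2 := hmove _ hx' hx'1
    have hne : g * (g * x * g⁻¹) * g⁻¹ ≠ x := by
      intro h
      have hc2 : Commute (g * g) x := mul_inv_eq_iff_eq_mul.1 (by
        rw [show g * g * x * (g * g)⁻¹ = g * (g * x * g⁻¹) * g⁻¹ by group]; exact h)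
      obtain ⟨k, hk⟩ := hgo
      have hk1 : g ^ (2 * k + 1) = 1 := hk ▸ pow_orderOf_eq_one g
      have hg' : g = ((g * g) ^ k)⁻¹ := by
        rw [eq_inv_iff_mul_eq_one, ← pow_two, ← pow_mul, ← pow_succ']
        exact hk1
      refine hmove x hx hx1 (mul_inv_eq_iff_eq_mul.2 ?_)
      rw [hg']
      exact ((hc2.pow_left k).inv_left).eq
    have hsub : ({1, x, g * x * g⁻¹, g * (g * x * g⁻¹) * g⁻¹} : Finset T) ⊆
        ((P : Subgroup T) : Set T).toFinite.toFinset := by
      intro v hv
      rw [Set.Finite.mem_toFinset, SetLike.mem_coe]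
      simp only [Finset.mem_insert, Finset.mem_singleton] at hv
      rcases hv with rfl | rfl | rfl | rfl
      · exact one_mem _
      · exact hx
      · exact hx'
      · exact hconj _ hx'
    have h4 : ({1, x, g * x * g⁻¹, g * (g * x * g⁻¹) * g⁻¹} : Finset T).card = 4 := by
      rw [Finset.card_insert_of_notMem, Finset.card_insert_of_notMem, Finset.card_pair hx2.symm]
      · simp only [Finset.mem_insert, Finset.mem_singleton, not_or]
        exact ⟨(hmove x hx hx1).symm, hne.symm⟩
      · simp only [Finset.mem_insert, Finset.mem_singleton, not_or]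
        exact ⟨hx1.symm, hx'1.symm, fun h => hx'1 (by simpa [mul_assoc] using congrArg (fun v => g⁻¹ * v * g) h.symm)⟩
    have heq := Finset.eq_of_subset_of_card_le hsub (by
      rw [h4, ← Set.ncard_eq_toFinset_card _, ← Nat.card_coe_set_eq]; exact (hS2 P).le)
    have hm : y ∈ ({1, x, g * x * g⁻¹, g * (g * x * g⁻¹) * g⁻¹} : Finset T) := by
      rw [heq, Set.Finite.mem_toFinset]; exact hy
    simp only [Finset.mem_insert, Finset.mem_singleton] at hm
    rcases hm with h | h | h | h
    · exact absurd h hy1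
    · exact ⟨1, by rw [h]; simp⟩
    · exact ⟨g, h.symm⟩
    · exact ⟨g * g, by rw [h]; group⟩
  have hinvol : ∀ x : T, orderOf x = 2 → 12 ∣ Nat.card (Subgroup.centralizer ({x} : Set T)) := by
    intro x hx
    have hpg : ∀ z : T, orderOf z = 2 → IsPGroup 2 (Subgroup.zpowers z) := fun z hz =>
      IsPGroup.of_card (n := 1) (by rw [Nat.card_zpowers, hz, pow_one])
    obtain ⟨P, hP⟩ := (hpg x hx).exists_le_sylow
    obtain ⟨Q, hQ⟩ := (hpg _ ht).exists_le_sylow
    obtain ⟨a, rfl⟩ := MulAction.exists_smul_eq T P Q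
    have h1 := hQ (Subgroup.mem_zpowers (d ^ 3))
    rw [Sylow.coe_subgroup_smul, Subgroup.mem_pointwise_smul_iff_inv_smul_mem, MulAut.smul_def,
      ← map_inv, MulAut.conj_apply, inv_inv] at h1
    have hne : a⁻¹ * d ^ 3 * a ≠ 1 := fun h => by
      have h' : d ^ 3 = 1 := by simpa [mul_assoc] using congrArg (fun v => a * v * a⁻¹) h
      rw [h', orderOf_one] at ht; omega
    obtain ⟨g, hg⟩ := hfus P _ h1 hne x (hP (Subgroup.mem_zpowers x))
      (fun h => by rw [h, orderOf_one] at hx; omega)
    let c : T := g * a⁻¹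
    have hc : (MulAut.conj c) (d ^ 3) = x := by
      rw [MulAut.conj_apply, ← hg]
      simp only [c]; group
    have hle : D.map (MulAut.conj c).toMonoidHom ≤ Subgroup.centralizer ({x} : Set T) := by
      rintro _ ⟨y, hy, rfl⟩
      rw [Subgroup.mem_centralizer_singleton_iff, ← hc]
      simp only [MulEquiv.coe_toMonoidHom, ← map_mul]
      exact congrArg _ (Subgroup.mem_centralizer_singleton_iff.1 (hDt hy))
    have h12 := Subgroup.card_dvd_of_le hle
    rwa [Subgroup.card_map_of_injective (MulEquiv.injective _), hD] at h12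
  have hS3 : ∀ R : Sylow 3 T, Nat.card R = 3 :=
    fun R => card_sylow_prime hT 3 (by norm_num) (by norm_num) R
  have hthree : ∀ C : Subgroup T, Nat.card C = 3 →
      12 ∣ Nat.card (Subgroup.normalizer (C : Set T)) := by
    intro C hC
    have h2 : orderOf (d ^ 2) = 3 := by rw [orderOf_pow' d (by norm_num), hd]; rfl
    obtain ⟨R, hR⟩ := (IsPGroup.of_card (p := 3) (n := 1) (by rw [hC, pow_one]) :
      IsPGroup 3 C).exists_le_sylow
    obtain ⟨R0, hR0⟩ := (IsPGroup.of_card (p := 3) (n := 1)
      (by rw [Nat.card_zpowers, h2, pow_one]) : IsPGroup 3 (Subgroup.zpowers (d ^ 2))).exists_le_sylow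
    have hCR : C = R := Subgroup.eq_of_le_of_card_ge hR (by rw [hC]; exact (hS3 R).le)
    have hdR : Subgroup.zpowers (d ^ 2) = R0 := Subgroup.eq_of_le_of_card_ge hR0
      (by rw [Nat.card_zpowers, h2]; exact (hS3 R0).le)
    obtain ⟨a, rfl⟩ := MulAction.exists_smul_eq T R0 R
    have hle : D.map (MulAut.conj a).toMonoidHom ≤ Subgroup.normalizer (C : Set T) := by
      rintro _ ⟨y, hy, rfl⟩
      refine Subgroup.mem_normalizer_fintype fun v hv => ?_
      rw [SetLike.mem_coe, hCR, Sylow.coe_subgroup_smul, ← hdR,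
        Subgroup.mem_pointwise_smul_iff_inv_smul_mem, MulAut.smul_def, ← map_inv] at hv
      rw [SetLike.mem_coe, hCR, Sylow.coe_subgroup_smul, ← hdR,
        Subgroup.mem_pointwise_smul_iff_inv_smul_mem, MulAut.smul_def, ← map_inv]
      have := (Subgroup.mem_normalizer_iff.1 (hD3 hy) _).1 hv
      convert this using 1
      simp only [MulEquiv.coe_toMonoidHom, MulAut.conj_apply]
      group
    have h12 := Subgroup.card_dvd_of_le hle
    rwa [Subgroup.card_map_of_injective (MulEquiv.injective _), hD] at h12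
  have hdvd := Subgroup.card_subgroup_dvd_card H
  rcases card_dvd_of_proper hT hHne with ⟨h13, -⟩ | ⟨h7, h14⟩ | h12
  · -- Borel case
    obtain ⟨P, hPH, hHP⟩ := exists_sylow_thirteen hT hHne h13
    refine isCoatom_of_dvd hT hN (Or.inr (Or.inr rfl)) ?_
    rw [← card_normalizer_thirteen hT P]
    refine Subgroup.card_dvd_of_le ?_
    obtain ⟨Q, hQ⟩ := (IsPGroup.of_card (p := 13) (n := 1)
      (by rw [Nat.card_zpowers, hu, pow_one]) : IsPGroup 13 (Subgroup.zpowers u)).exists_le_sylow
    have hQu : Subgroup.zpowers u = Q := Subgroup.eq_of_le_of_card_ge hQ (by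
      rw [Nat.card_zpowers, hu]; exact (card_sylow_prime hT 13 (by norm_num) (by norm_num) Q).le)
    obtain ⟨a, rfl⟩ := MulAction.exists_smul_eq T Q P
    set d' := a * d * a⁻¹ with hd'
    set M := Subgroup.normalizer ((a • Q : Sylow 13 T) : Set T) with hM
    have hd'M : d' ∈ M := by
      refine Subgroup.mem_normalizer_fintype fun v hv => ?_
      change v ∈ ((a • Q : Sylow 13 T) : Subgroup T) at hv
      change _ ∈ ((a • Q : Sylow 13 T) : Subgroup T)
      rw [Sylow.coe_subgroup_smul, ← hQu,
        Subgroup.mem_pointwise_smul_iff_inv_smul_mem, MulAut.smul_def, ← map_inv,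
        MulAut.conj_apply, inv_inv] at hv ⊢
      obtain ⟨i, hi⟩ := hv
      rw [hd', show a⁻¹ * (a * d * a⁻¹ * v * (a * d * a⁻¹)⁻¹) * a = d * (a⁻¹ * v * a) * d⁻¹ by group,
        ← hi]
      show d * u ^ i * d⁻¹ ∈ Subgroup.zpowers u
      rw [← MulAut.conj_apply, map_zpow, MulAut.conj_apply]
      exact Subgroup.zpow_mem _ hdu i
    have hinf : Subgroup.zpowers d' ⊓ ((a • Q : Sylow 13 T) : Subgroup T) = ⊥ := by
      refine disjoint_iff.1 (Subgroup.disjoint_of_coprime_natCard ?_)
      rw [card_sylow_prime hT 13 (by norm_num) (by norm_num), Nat.card_zpowers, hd',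
        ← MulAut.conj_apply, MulEquiv.orderOf_eq, hd]
      norm_num
    have hMeq : Subgroup.zpowers d' ⊔ ((a • Q : Sylow 13 T) : Subgroup T) = M := by
      refine Subgroup.eq_of_le_of_card_ge (sup_le (Subgroup.zpowers_le.2 hd'M) Subgroup.le_normalizer) ?_
      rw [CfsgLib.BGAppendix.card_sup_eq_mul _ _ ((Subgroup.zpowers_le.2 hd'M)) hinf,
        show Nat.card M = 78 from card_normalizer_thirteen hT _, Nat.card_zpowers, hd', ← MulAut.conj_apply,
        MulEquiv.orderOf_eq, hd, card_sylow_prime hT 13 (by norm_num) (by norm_num)]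
    replace hHP : H ≤ M := hHP
    change M ≤ _
    rw [← hMeq] at hHP ⊢
    refine sup_le (Subgroup.zpowers_le.2 (Subgroup.mem_normalizer_fintype fun v hv => ?_))
      (hPH.trans Subgroup.le_normalizer)
    have := hHP hv
    rw [← SetLike.mem_coe, Subgroup.coe_mul_of_left_le_normalizer_right _ _
      (Subgroup.zpowers_le.2 hd'M)] at this
    obtain ⟨e, ⟨i, rfl⟩, r, hr, rfl⟩ := this
    show d' * (d' ^ i * r) * d'⁻¹ ∈ H
    have hei : d' ^ i ∈ H := by
      have := H.mul_mem hv (H.inv_mem (hPH hr))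
      rwa [mul_inv_cancel_right] at this
    rw [show d' * (d' ^ i * r) * d'⁻¹ = d' ^ i * (d' * r * d'⁻¹) by
      rw [← mul_assoc d', (Commute.zpow_right (Commute.refl d') i).eq]; group]
    exact H.mul_mem hei (hPH ((Subgroup.mem_normalizer_iff.1 hd'M r).1 hr))
  · -- dihedral case of order 14
    obtain ⟨R⟩ := (inferInstance : Nonempty (Sylow 7 H))
    have h1 : Nat.card (Sylow 7 H) = 1 := by
      have hn := card_sylow_modEq_one 7 H
      have h2 : Nat.card (Sylow 7 H) ∣ 14 :=
        (R.card_dvd_index.trans (Subgroup.index_dvd_card _)).trans h14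
      have hmem : Nat.card (Sylow 7 H) ∈ Nat.divisors 14 := Nat.mem_divisors.2 ⟨h2, by norm_num⟩
      have key : ∀ n ∈ Nat.divisors 14, n % 7 = 1 → n = 1 := by decide
      exact key _ hmem hn
    obtain ⟨P, hPH, hHP⟩ := le_normalizer_sylow h1 h7
      fun P => card_sylow_prime hT 7 (by norm_num) (by norm_num) P
    refine isCoatom_of_dvd hT hN (Or.inr (Or.inl rfl)) ?_
    rw [← card_normalizer_seven hT P]
    refine Subgroup.card_dvd_of_le ?_
    have hM := card_normalizer_seven hT P
    have hcases : Nat.card H = 7 ∨ Nat.card H = 14 := by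
      obtain ⟨c, hc⟩ := h7
      rw [hc] at h14 ⊢
      have : c ∣ 2 := Nat.dvd_of_mul_dvd_mul_left (by norm_num) (show 7 * c ∣ 7 * 2 from h14)
      rcases (Nat.dvd_prime Nat.prime_two).1 this with rfl | rfl <;> simp
    rcases hcases with h | h
    · rw [← Subgroup.eq_of_le_of_card_ge hPH
        (by rw [h]; exact (card_sylow_prime hT 7 (by norm_num) (by norm_num) P).ge)]
    · rw [← Subgroup.eq_of_le_of_card_ge hHP (by rw [h, hM])]
      exact Subgroup.le_normalizer
  · -- subgroups of order dividing twelve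
    refine isCoatom_of_dvd hT hN (Or.inl rfl) ?_
    have hmem : Nat.card H ∈ Nat.divisors 12 := Nat.mem_divisors.2 ⟨h12, by norm_num⟩
    have hne1 : Nat.card H ≠ 1 := fun h => hHbot (Subgroup.card_eq_one.1 h)
    have key : ∀ n ∈ Nat.divisors 12, n ≠ 1 → n = 2 ∨ n = 3 ∨ n = 4 ∨ n = 6 ∨ n = 12 := by decide
    rcases key _ hmem hne1 with h | h | h | h | h
    · obtain ⟨⟨x, hxH⟩, hx⟩ := exists_prime_orderOf_dvd_card' (G := H) 2 (by rw [h])
      rw [Subgroup.orderOf_mk] at hx
      refine (hinvol x hx).trans (Subgroup.card_dvd_of_le ?_)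
      have hHx : H = Subgroup.zpowers x := (Subgroup.eq_of_le_of_card_ge (Subgroup.zpowers_le.2 hxH)
        (by rw [h, Nat.card_zpowers, hx])).symm
      intro y hy
      refine Subgroup.mem_normalizer_fintype fun v hv => ?_
      rw [SetLike.mem_coe, hHx] at hv ⊢
      obtain ⟨i, rfl⟩ := hv
      show y * x ^ i * y⁻¹ ∈ _
      rw [((Commute.zpow_right (Subgroup.mem_centralizer_singleton_iff.1 hy :) i)).eq,
        mul_inv_cancel_right]
      exact Subgroup.zpow_mem _ (Subgroup.mem_zpowers x) i
    · exact hthree H h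
    · obtain ⟨P, hP⟩ := (IsPGroup.of_card (p := 2) (n := 2) h).exists_le_sylow
      have hHP : H = P := Subgroup.eq_of_le_of_card_ge hP (by rw [h]; exact (hS2 P).le)
      have h4 : 4 ∣ Nat.card (Subgroup.normalizer (H : Set T)) :=
        h ▸ Subgroup.card_dvd_of_le Subgroup.le_normalizer
      have h3 : 3 ∣ Nat.card (Subgroup.normalizer (H : Set T)) := by
        by_contra h3
        -- the normalizer is then proper with order `4 m`, so equal to `P`
        rcases card_dvd_of_proper hT hN with ⟨-, h78⟩ | ⟨-, h14'⟩ | h12'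
        · exact absurd (h4.trans h78) (by norm_num)
        · exact absurd (h4.trans h14') (by norm_num)
        · have hle4 : Nat.card (Subgroup.normalizer (H : Set T)) ∣ 4 :=
            ((Nat.Prime.coprime_iff_not_dvd Nat.prime_three).2 h3).symm.dvd_of_dvd_mul_left
              (show _ ∣ 3 * 4 from h12')
          have hNH : H = Subgroup.normalizer (H : Set T) := Subgroup.eq_of_le_of_card_ge
            Subgroup.le_normalizer (h.symm ▸ Nat.le_of_dvd (by norm_num) hle4)
          have hab : Subgroup.normalizer ((P : Subgroup T) : Set T) ≤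
              Subgroup.centralizer ((P : Subgroup T) : Set T) := by
            rw [← hHP, ← hNH]
            intro a ha
            refine Subgroup.mem_centralizer_iff.2 fun b hb => ?_
            rw [SetLike.mem_coe] at hb
            have e1 := hsq P _ (hHP ▸ ha)
            have e2 := hsq P _ (hHP ▸ hb)
            have e3 := hsq P _ (hHP ▸ mul_mem hb ha)
            rw [pow_two] at e1 e2 e3
            calc b * a = (b * a)⁻¹ := (inv_eq_of_mul_eq_one_right e3).symm
              _ = a⁻¹ * b⁻¹ := mul_inv_rev b a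
              _ = a * b := by rw [inv_eq_of_mul_eq_one_right e1, inv_eq_of_mul_eq_one_right e2]
          obtain ⟨Q, N, hNn, hc⟩ := CfsgLib.ClassGraph.hasNormalPComplement_of_normalizer_le P hab
          have hmul := hc.card_mul
          rw [hT, hS2 Q] at hmul
          rcases hNn.eq_bot_or_eq_top with h' | h'
          · rw [h', Subgroup.card_bot] at hmul; omega
          · rw [h', Subgroup.card_top, hT] at hmul; omega
      exact (show Nat.Coprime 4 3 by norm_num).mul_dvd_of_dvd_of_dvd h4 h3
    · obtain ⟨⟨x, hxH⟩, hx⟩ := exists_prime_orderOf_dvd_card' (G := H) 3 (by rw [h]; norm_num)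
      rw [Subgroup.orderOf_mk] at hx
      set C := Subgroup.zpowers x with hC
      have hCH : C ≤ H := Subgroup.zpowers_le.2 hxH
      have hCcard : Nat.card C = 3 := by rw [hC, Nat.card_zpowers, hx]
      have hindex : (C.subgroupOf H).index = 2 := by
        have := Subgroup.index_mul_card (C.subgroupOf H)
        rw [Nat.card_congr (Subgroup.subgroupOfEquivOfLe hCH).toEquiv, hCcard, h] at this
        omega
      haveI := Subgroup.normal_of_index_eq_two hindex
      have hHN : H ≤ Subgroup.normalizer (C : Set T) :=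
        (Subgroup.normal_subgroupOf_iff_le_normalizer hCH).1 inferInstance
      have hM := hthree C hCcard
      have hMne : Subgroup.normalizer (C : Set T) ≠ ⊤ := by
        intro htop
        rcases (Subgroup.normalizer_eq_top_iff.1 htop).eq_bot_or_eq_top with h' | h'
        · rw [h', Subgroup.card_bot] at hCcard; omega
        · rw [h', Subgroup.card_top, hT] at hCcard; omega
      have hM12 : Nat.card (Subgroup.normalizer (C : Set T)) ∣ 12 := by
        rcases card_dvd_of_proper hT hMne with ⟨-, h'⟩ | ⟨-, h'⟩ | h'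
        · exact absurd (hM.trans h') (by norm_num)
        · exact absurd (hM.trans h') (by norm_num)
        · exact h'
      have hi2 : (H.subgroupOf (Subgroup.normalizer (C : Set T))).index = 2 := by
        have := Subgroup.index_mul_card (H.subgroupOf (Subgroup.normalizer (C : Set T)))
        rw [Nat.card_congr (Subgroup.subgroupOfEquivOfLe hHN).toEquiv, h,
          Nat.dvd_antisymm hM12 hM] at this
        omega
      haveI := Subgroup.normal_of_index_eq_two hi2
      exact hM.trans (Subgroup.card_dvd_of_le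
        ((Subgroup.normal_subgroupOf_iff_le_normalizer hHN).1 inferInstance))
    · exact h ▸ Subgroup.card_dvd_of_le Subgroup.le_normalizer

end Order1092

/-- A central subgroup of order two containing every involution lifts the property. -/
theorem maxNorm_lift {L : Type*} [Group L] [Finite L] {f : L →* T} (hf : Function.Surjective f)
    (hker : Nat.card f.ker = 2) (hcent : ∀ z ∈ f.ker, ∀ y, z * y = y * z)
    (huniq : ∀ x : L, x * x = 1 → x ∈ f.ker) (h : MaxNorm T) : MaxNorm L := by
  intro H hH
  haveI : Finite T := Finite.of_surjective f hf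
  have key : Subgroup.normalizer (H : Set L) =
      (Subgroup.normalizer ((H.map f) : Set T)).comap f := by
    ext y
    constructor
    · intro hy
      refine Subgroup.mem_normalizer_fintype ?_
      rintro _ ⟨v, hv, rfl⟩
      exact ⟨y * v * y⁻¹, (Subgroup.mem_normalizer_iff.1 hy v).1 hv, by simp⟩
    · intro hy
      refine Subgroup.mem_normalizer_fintype fun v hv => ?_
      obtain ⟨v', hv', he⟩ := (Subgroup.mem_normalizer_iff.1 hy (f v)).1 ⟨v, hv, rfl⟩
      have hz : v'⁻¹ * (y * v * y⁻¹) ∈ f.ker := by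
        rw [MonoidHom.mem_ker, map_mul, map_mul, map_mul, map_inv, map_inv, he, inv_mul_cancel]
      set z := v'⁻¹ * (y * v * y⁻¹) with hzdef
      have hyv : y * v * y⁻¹ = v' * z := by rw [hzdef]; group
      haveI : Fact (Nat.Prime 2) := ⟨Nat.prime_two⟩
      by_cases hodd : 2 ∣ Nat.card H
      · obtain ⟨⟨i, hiH⟩, hi⟩ := exists_prime_orderOf_dvd_card' (G := H) 2 hodd
        rw [Subgroup.orderOf_mk] at hi
        have hik : i ∈ f.ker := huniq i (by rw [← pow_two, ← hi]; exact pow_orderOf_eq_one i)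
        have hkeq : f.ker = Subgroup.zpowers i :=
          (Subgroup.eq_of_le_of_card_ge (Subgroup.zpowers_le.2 hik)
            (by rw [hker, Nat.card_zpowers, hi])).symm
        rw [SetLike.mem_coe, hyv]
        exact H.mul_mem hv' (Subgroup.zpowers_le.2 hiH (hkeq ▸ hz))
      · -- odd order: compare orders
        have ho : ∀ w ∈ H, w ^ Nat.card H = 1 := fun w hw => by
          have := pow_card_eq_one' (G := H) (x := ⟨w, hw⟩)
          exact congrArg Subtype.val this
        have hz2 : z * z = 1 := by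
          have := pow_card_eq_one' (G := f.ker) (x := ⟨z, hz⟩)
          rw [hker, pow_two] at this
          exact congrArg Subtype.val this
        have h1 : (y * v * y⁻¹) ^ Nat.card H = 1 := by rw [conj_pow, ho v hv]; group
        rw [hyv, Commute.mul_pow (show Commute v' z from (hcent z hz v').symm), ho v' hv', one_mul] at h1
        have hz1 : z = 1 := by
          obtain ⟨k, hk⟩ : Odd (Nat.card H) := Nat.odd_iff.2 (by omega)
          rwa [hk, pow_succ, pow_mul, pow_two, hz2, one_pow, one_mul] at h1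
        rw [SetLike.mem_coe, hyv, hz1, mul_one]
        exact hv'
  rw [key]
  have hnn : ¬ (H.map f).Normal := by
    intro hn
    refine hH (Subgroup.normalizer_eq_top_iff.1 ?_)
    rw [key, Subgroup.normalizer_eq_top_iff.2 hn, Subgroup.comap_top]
  have hc := h _ hnn
  refine ⟨fun e => hc.1 (Subgroup.comap_injective hf (e.trans (Subgroup.comap_top f).symm)),
    fun M hlt => ?_⟩
  have hkM : f.ker ≤ M := le_trans (MonoidHom.comap_bot f ▸ Subgroup.comap_mono bot_le) hlt.le
  rw [← Subgroup.comap_map_eq_self hkM] at hlt ⊢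
  rw [hc.2 _ ((Subgroup.comap_lt_comap_of_surjective hf).1 hlt), Subgroup.comap_top]

theorem maxNorm_equiv {L : Type*} [Group L] (e : L ≃* T) (h : MaxNorm T) : MaxNorm L := by
  intro H hH
  have hnn : ¬ (H.map e.toMonoidHom).Normal := fun hn => hH (by
    rw [← Subgroup.comap_map_eq_self_of_injective (f := e.toMonoidHom) e.injective H]
    exact hn.comap _)
  have key : Subgroup.normalizer (H : Set L) =
      (Subgroup.normalizer ((H.map e.toMonoidHom) : Set T)).comap e.toMonoidHom := by
    rw [Subgroup.comap_normalizer_eq_of_surjective _ e.surjective,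
      Subgroup.comap_map_eq_self_of_injective (f := e.toMonoidHom) e.injective]
  rw [key]
  exact (Subgroup.isCoatom_comap e).2 (h _ hnn)

abbrev SL13 := Matrix.SpecialLinearGroup (Fin 2) (ZMod 13)

def mkSL (a b c d : ZMod 13) (h : a * d - b * c = 1) : SL13 :=
  ⟨!![a, b; c, d], by rw [Matrix.det_fin_two_of, h]⟩

theorem eq_zero_of_neg_eq : ∀ v : ZMod 13, -v = v → v = 0 := by decide +kernel

theorem eq_of_mul_self : ∀ v : ZMod 13, v * v - 0 * 0 = 1 → v = 1 ∨ v = -1 := by decide +kernel

def d0 : SL13 := mkSL 2 0 0 7 (by decide +kernel)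
def w0 : SL13 := mkSL 0 1 (-1) 0 (by decide +kernel)
def u0 : SL13 := mkSL 1 1 0 1 (by decide +kernel)

theorem sq_eq_one {x : SL13} (h : x * x = 1) : x = 1 ∨ x = -1 := by
  haveI : Fact (Nat.Prime 13) := ⟨by norm_num⟩
  have hinv : x⁻¹ = x := inv_eq_of_mul_eq_one_right h
  have e : (x.1).adjugate = x.1 := by
    rw [← Matrix.SpecialLinearGroup.coe_inv, hinv]
  rw [Matrix.adjugate_fin_two] at e
  have h00 : x.1 1 1 = x.1 0 0 := by simpa using congrFun (congrFun e 0) 0
  have h01 : - x.1 0 1 = x.1 0 1 := by simpa using congrFun (congrFun e 0) 1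
  have h10 : - x.1 1 0 = x.1 1 0 := by simpa using congrFun (congrFun e 1) 0
  have key := eq_zero_of_neg_eq
  have hb := key _ h01
  have hc := key _ h10
  have hdet := x.2
  rw [Matrix.det_fin_two, h00, hb, hc] at hdet
  have key2 := eq_of_mul_self
  rcases key2 _ hdet with ha | ha
  · left
    ext i j
    fin_cases i <;> fin_cases j <;> simp [ha, hb, hc, h00]
  · right
    ext i j
    fin_cases i <;> fin_cases j <;> simp [ha, hb, hc, h00]

theorem center_eq {x : SL13} : x ∈ Subgroup.center SL13 ↔ x = 1 ∨ x = -1 := by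
  haveI : Fact (Nat.Prime 13) := ⟨by norm_num⟩
  constructor
  · intro hx
    refine sq_eq_one ?_
    have h := CfsgLib.ClassicalLinear.card_center_SL (ι := Fin 2) (F := ZMod 13)
    rw [Fintype.card_fin, ZMod.card] at h
    have := pow_card_eq_one' (G := Subgroup.center SL13) (x := ⟨x, hx⟩)
    rw [h, show Nat.gcd 2 (13 - 1) = 2 by decide, pow_two] at this
    exact congrArg Subtype.val this
  · rintro (rfl | rfl)
    · exact one_mem _
    · rw [Subgroup.mem_center_iff]
      intro g
      ext i j
      simp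

theorem maxNorm_psl : MaxNorm (Matrix.ProjectiveSpecialLinearGroup (Fin 2) (ZMod 13)) := by
  haveI : Fact (Nat.Prime 13) := ⟨by norm_num⟩
  haveI : IsSimpleGroup (Matrix.ProjectiveSpecialLinearGroup (Fin 2) (ZMod 13)) :=
    CfsgLib.ClassicalLinear.isSimpleGroup_psl_fin le_rfl fun _ => by rw [Nat.card_zmod]; norm_num
  have hsl : Nat.card SL13 = 2184 := by
    have h := CfsgLib.ClassicalLinear.card_SL (ι := Fin 2) (F := ZMod 13)
    rw [← Equiv.prod_comp (finCongr (Fintype.card_fin 2).symm), Fin.prod_univ_two] at h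
    simp only [finCongr_apply, Fin.val_cast, Fin.val_zero, Fin.val_one, Fintype.card_fin,
      ZMod.card] at h
    norm_num at h
    rw [← Nat.card_eq_fintype_card] at h
    show Nat.card (Matrix.SpecialLinearGroup (Fin 2) (ZMod 13)) = 2184
    omega
  have hT : Nat.card (Matrix.ProjectiveSpecialLinearGroup (Fin 2) (ZMod 13)) = 1092 := by
    have h := Subgroup.card_eq_card_quotient_mul_card_subgroup (Subgroup.center SL13)
    rw [hsl, CfsgLib.ClassicalLinear.card_center_SL, Fintype.card_fin, ZMod.card,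
      show Nat.gcd 2 (13 - 1) = 2 by decide] at h
    show Nat.card (SL13 ⧸ Subgroup.center SL13) = 1092
    omega
  let π : SL13 →* Matrix.ProjectiveSpecialLinearGroup (Fin 2) (ZMod 13) :=
    QuotientGroup.mk' (Subgroup.center SL13)
  have hπ : ∀ x : SL13, π x = 1 ↔ x = 1 ∨ x = -1 := fun x =>
    (QuotientGroup.eq_one_iff x).trans center_eq
  haveI : Fact (Nat.Prime 2) := ⟨Nat.prime_two⟩
  refine maxNorm hT (π d0) (π w0) (π u0) ?_ ?_ ?_ ?_ ?_ ?_
  · have h6 : (π d0) ^ 6 = 1 := by
      rw [← map_pow, hπ]; right; decide +kernel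
    have h2 : (π d0) ^ 2 ≠ 1 := by
      rw [← map_pow, Ne, hπ]; decide +kernel
    have h3 : (π d0) ^ 3 ≠ 1 := by
      rw [← map_pow, Ne, hπ]; decide +kernel
    have hd : orderOf (π d0) ∣ 6 := orderOf_dvd_of_pow_eq_one h6
    have hmem : orderOf (π d0) ∈ Nat.divisors 6 := Nat.mem_divisors.2 ⟨hd, by norm_num⟩
    have key : ∀ n ∈ Nat.divisors 6, ¬ n ∣ 2 → ¬ n ∣ 3 → n = 6 := by decide
    exact key _ hmem (fun h => h2 (orderOf_dvd_iff_pow_eq_one.1 h))
      (fun h => h3 (orderOf_dvd_iff_pow_eq_one.1 h))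
  · refine orderOf_eq_prime ?_ ?_
    · rw [← map_pow, hπ]; decide +kernel
    · rw [Ne, hπ]; decide +kernel
  · rw [← mul_inv_eq_one, inv_inv, ← map_inv, ← map_mul, ← map_mul, ← map_mul, hπ]
    decide +kernel
  · rintro ⟨i, hi⟩
    have hc : Commute (π d0) (π w0) := hi ▸ (Commute.refl (π d0)).zpow_right i
    have h := hc.eq
    rw [← map_mul, ← map_mul, ← mul_inv_eq_one, ← map_inv, ← map_mul, hπ] at h
    revert h
    decide +kernel
  · refine orderOf_eq_prime ?_ ?_
    · rw [← map_pow, hπ]; decide +kernel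
    · rw [Ne, hπ]; decide +kernel
  · refine ⟨4, ?_⟩
    show π u0 ^ (4 : ℤ) = _
    rw [show (4 : ℤ) = ((4 : ℕ) : ℤ) from rfl, zpow_natCast, ← map_pow, ← map_inv, ← map_mul,
      ← map_mul, ← mul_inv_eq_one, ← map_inv, ← map_mul, hπ]
    decide +kernel

theorem maxNorm_sl : MaxNorm SL13 := by
  haveI : Fact (Nat.Prime 13) := ⟨by norm_num⟩
  let f : SL13 →* Matrix.ProjectiveSpecialLinearGroup (Fin 2) (ZMod 13) :=
    QuotientGroup.mk' (Subgroup.center SL13)
  have hker : f.ker = Subgroup.center SL13 := QuotientGroup.ker_mk' _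
  refine maxNorm_lift (f := f) (QuotientGroup.mk'_surjective _) ?_ ?_ ?_ maxNorm_psl
  · rw [hker, CfsgLib.ClassicalLinear.card_center_SL, Fintype.card_fin, ZMod.card]; rfl
  · intro z hz y
    rw [hker] at hz
    exact (Subgroup.mem_center_iff.1 hz y).symm
  · intro x hx
    rw [hker]
    exact center_eq.2 (sq_eq_one hx)

/-- Let K be isomorphic to PSL(2, 13) or to SL(2, 13) and let S be a finite abelian group of order coprime to the order of K. Then in the direct product K × S every subgroup that is not normal has a normalizer that is a maximal subgroup. -/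
theorem result {K S : Type*} [Group K] [CommGroup S] [Finite K] [Finite S]
    (hK : Nonempty (K ≃* Matrix.ProjectiveSpecialLinearGroup (Fin 2) (ZMod 13)) ∨
      Nonempty (K ≃* Matrix.SpecialLinearGroup (Fin 2) (ZMod 13)))
    (hKS : (Nat.card K).Coprime (Nat.card S)) (H : Subgroup (K × S)) (hH : ¬ H.Normal) :
    IsCoatom (Subgroup.normalizer (H : Set (K × S))) := by
  have hmax : MaxNorm K := by
    rcases hK with ⟨⟨e⟩⟩ | ⟨⟨e⟩⟩
    · exact maxNorm_equiv e maxNorm_psl
    · exact maxNorm_equiv e maxNorm_sl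
  have hsplit : ∀ (L : Subgroup (K × S)) (k : K) (s : S), (k, s) ∈ L → (k, 1) ∈ L := by
    intro L k s hks
    obtain ⟨a, ha1, ha0⟩ := Nat.chineseRemainder hKS 1 0
    have h := L.pow_mem hks a
    have e1 : k ^ a = k := by
      conv_rhs => rw [← pow_one k]
      exact pow_eq_pow_iff_modEq.2 (ha1.of_dvd (orderOf_dvd_natCard k))
    have e2 : s ^ a = 1 :=
      orderOf_dvd_iff_pow_eq_one.1 ((orderOf_dvd_natCard s).trans (Nat.modEq_zero_iff_dvd.1 ha0))
    rwa [Prod.pow_mk, e1, e2] at h
  let ι : K →* K × S := MonoidHom.inl K S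
  let H1 : Subgroup K := H.comap ι
  have key : Subgroup.normalizer (H : Set (K × S)) =
      (Subgroup.normalizer (H1 : Set K)).comap (MonoidHom.fst K S) := by
    ext ⟨k, s⟩
    constructor
    · intro hy
      refine Subgroup.mem_normalizer_fintype fun v hv => ?_
      have h := (Subgroup.mem_normalizer_iff.1 hy (v, 1)).1 hv
      simpa [H1, ι] using h
    · intro hy
      refine Subgroup.mem_normalizer_fintype ?_
      rintro ⟨v, t⟩ hvt
      have hv : (v, (1 : S)) ∈ H := hsplit H v t hvt
      have ht : ((1 : K), t) ∈ H := by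
        have := H.mul_mem (H.inv_mem hv) hvt
        simpa using this
      have hv' : (k * v * k⁻¹, (1 : S)) ∈ H := (Subgroup.mem_normalizer_iff.1 hy v).1 hv
      have := H.mul_mem hv' ht
      simpa [mul_comm s t] using this
  have hn1 : ¬ H1.Normal := by
    intro hn
    refine hH (Subgroup.normalizer_eq_top_iff.1 ?_)
    rw [key, Subgroup.normalizer_eq_top_iff.2 hn, Subgroup.comap_top]
  have hc := hmax H1 hn1
  rw [key]
  refine ⟨fun e => hc.1 (Subgroup.comap_injective Prod.fst_surjective
    (e.trans (Subgroup.comap_top _).symm)), fun M hlt => ?_⟩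
  have hfst : Function.Surjective (MonoidHom.fst K S) := Prod.fst_surjective
  have hkM : (MonoidHom.fst K S).ker ≤ M :=
    le_trans (MonoidHom.comap_bot (MonoidHom.fst K S) ▸ Subgroup.comap_mono bot_le) hlt.le
  rw [← Subgroup.comap_map_eq_self hkM] at hlt ⊢
  rw [hc.2 _ ((Subgroup.comap_lt_comap_of_surjective hfst).1 hlt), Subgroup.comap_top]

end Cfsg.Agent.S4234
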