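import Cfsg.Statements.S4236
import Mathlib
import Cfsg.Agent.Lib.NormalPComplement.Basic

set_option linter.style.haveILetI false
open scoped Pointwise
-- import your own Cfsg.Agent.* helpers here

set_option autoImplicit false
open Cfsg

namespace Cfsg.Agent.S4236

/-- The data extracted from a group with `35` Sylow `17`-subgroups acting on them. -/
structure Config (K Ω : Type*) [Group K] [MulAction K Ω] where
  card_eq : Nat.card Ω = 35
  trans : MulAction.IsPretransitive K Ω
  faith : ∀ k : K, (∀ x : Ω, k • x = x) → k = 1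
  P : Ω → Subgroup K
  isPGroup : ∀ ω, IsPGroup 17 (P ω)
  not_dvd : ∀ ω, ¬ 17 ∣ (P ω).index
  fixes : ∀ ω, ∀ c ∈ P ω, c • ω = ω
  unique_fixed : ∀ ω x, (∀ c ∈ P ω, c • x = x) → x = ω
  normalised : ∀ ω, ∀ k : K, k • ω = ω → k ∈ Subgroup.normalizer (P ω : Set K)
  conj : ∀ (g : K) ω, ∀ c ∈ P ω, g * c * g⁻¹ ∈ P (g • ω)

section
variable {K Ω : Type*} [Group K] [Finite K] [MulAction K Ω] [Finite Ω]

/-- A `17`-element fixing `ω` lies in `P ω`. -/
theorem Config.mem_P (D : Config K Ω) {ω : Ω} {c : K} {i : ℕ} (hc : orderOf c ∣ 17 ^ i)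
    (hω : c • ω = ω) : c ∈ D.P ω := by
  haveI : Fact (Nat.Prime 17) := ⟨by norm_num⟩
  obtain ⟨j, -, hj⟩ := (Nat.dvd_prime_pow (by norm_num : Nat.Prime 17)).mp hc
  have hz : IsPGroup 17 (Subgroup.zpowers c) := IsPGroup.of_card (n := j) (by rw [Nat.card_zpowers, hj])
  let S : Sylow 17 K := (D.isPGroup ω).toSylow (D.not_dvd ω)
  have h : Subgroup.zpowers c ⊓ Subgroup.normalizer ((S : Subgroup K) : Set K) =
      Subgroup.zpowers c ⊓ (S : Subgroup K) := hz.inf_normalizer_sylow S
  have hmem : c ∈ Subgroup.zpowers c ⊓ (S : Subgroup K) :=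
    h ▸ ⟨Subgroup.mem_zpowers c, D.normalised ω c hω⟩
  exact hmem.2

/-- The orbit of a point other than `ω` under `P ω`. -/
theorem Config.card_orbit (D : Config K Ω) {ω x : Ω} (hx : x ≠ ω) :
    Nat.card (MulAction.orbit (D.P ω) x) = 17 := by
  haveI : Fact (Nat.Prime 17) := ⟨by norm_num⟩
  obtain ⟨j, hj⟩ := (D.isPGroup ω).card_orbit x
  have hle : Nat.card (MulAction.orbit (D.P ω) x) ≤ 34 := by
    have hsub : MulAction.orbit (D.P ω) x ⊆ {ω}ᶜ := by
      rintro y ⟨c, rfl⟩ (h : (c : K) • x = ω)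
      exact hx (MulAction.injective (c : K) (h.trans (D.fixes ω _ c.2).symm))
    rw [Nat.card_coe_set_eq]
    refine (Set.ncard_le_ncard hsub).trans (le_of_eq ?_)
    rw [Set.ncard_compl, Set.ncard_singleton, D.card_eq]
  rcases j with - | _ | j
  · exfalso
    refine hx (D.unique_fixed ω x fun c hc => ?_)
    rw [pow_zero, Nat.card_eq_one_iff_unique] at hj
    haveI := hj.1
    exact congrArg Subtype.val (Subsingleton.elim (⟨c • x, ⟨⟨c, hc⟩, rfl⟩⟩ : MulAction.orbit (D.P ω) x)
      ⟨x, MulAction.mem_orbit_self x⟩)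
  · simpa using hj
  · have h17 : 17 ^ 2 ≤ 17 ^ (j + 1 + 1) := Nat.pow_le_pow_right (by norm_num) (by omega)
    omega

theorem Config.orbit_eq (D : Config K Ω) {ω x : Ω} {c : K} (hc : c ∈ D.P ω) (hx : x ≠ ω)
    (hcx : c • x ≠ x) :
    MulAction.orbit (D.P ω) x = MulAction.orbit (Subgroup.zpowers c) x := by
  haveI : Fact (Nat.Prime 17) := ⟨by norm_num⟩
  have hsub : MulAction.orbit (Subgroup.zpowers c) x ⊆ MulAction.orbit (D.P ω) x := by
    rintro _ ⟨e, rfl⟩
    exact ⟨⟨(e : K), Subgroup.zpowers_le.mpr hc e.2⟩, rfl⟩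
  symm
  refine Set.eq_of_subset_of_ncard_le hsub ?_
  rw [← Nat.card_coe_set_eq, ← Nat.card_coe_set_eq, D.card_orbit hx]
  obtain ⟨j, hj⟩ := ((D.isPGroup ω).to_le (Subgroup.zpowers_le.mpr hc)).card_orbit x
  rcases j with - | j
  · exfalso
    rw [pow_zero, Nat.card_eq_one_iff_unique] at hj
    haveI := hj.1
    exact hcx (congrArg Subtype.val (Subsingleton.elim
      (⟨c • x, ⟨⟨c, Subgroup.mem_zpowers c⟩, rfl⟩⟩ : MulAction.orbit (Subgroup.zpowers c) x)
      ⟨x, MulAction.mem_orbit_self x⟩))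
  · rw [hj, pow_succ]
    exact Nat.le_mul_of_pos_left _ (pow_pos (by norm_num) j)

/-- An element of `P ω` fixing a second point moves exactly one orbit of `P ω`. -/
theorem Config.moved_eq (D : Config K Ω) {ω x₀ y : Ω} {c : K} (hc : c ∈ D.P ω) (hx₀ : x₀ ≠ ω)
    (hfix : c • x₀ = x₀) (hy : c • y ≠ y) :
    {z : Ω | c • z ≠ z} = MulAction.orbit (D.P ω) y := by
  have hmoved : ∀ z : Ω, c • z ≠ z → ∀ w ∈ MulAction.orbit (D.P ω) z, c • w ≠ w := by
    intro z hz w hw hw'
    have hzne : z ≠ ω := fun e => hz (e ▸ D.fixes ω c hc)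
    rw [D.orbit_eq hc hzne hz] at hw
    obtain ⟨⟨e, he⟩, rfl⟩ := hw
    obtain ⟨i, rfl⟩ := Subgroup.mem_zpowers_iff.mp he
    refine hz (MulAction.injective (c ^ i) ?_)
    have hw'' : c • c ^ i • z = c ^ i • z := hw'
    rw [← mul_smul, ((Commute.refl c).zpow_right i).eq, mul_smul] at hw''
    exact hw''
  have hyne : y ≠ ω := fun e => hy (e ▸ D.fixes ω c hc)
  refine Set.Subset.antisymm (fun z hz => ?_) (fun z hz => hmoved y hy z hz)
  by_contra hzy
  have hzne : z ≠ ω := fun e => hz (e ▸ D.fixes ω c hc)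
  have hd : ∀ a b : Ω, b ∉ MulAction.orbit (D.P ω) a →
      Disjoint (MulAction.orbit (D.P ω) a) (MulAction.orbit (D.P ω) b) := by
    intro a b hb
    rw [Set.disjoint_left]
    intro w hwa hwb
    exact hb ((MulAction.orbit_eq_iff.mpr hwa).symm.trans (MulAction.orbit_eq_iff.mpr hwb) ▸
      MulAction.mem_orbit_self b)
  have h1 := hd y z hzy
  have h2 := hd y x₀ fun h => hmoved y hy x₀ h hfix
  have h3 := hd z x₀ fun h => hmoved z hz x₀ h hfix
  have hsub : MulAction.orbit (D.P ω) y ∪ MulAction.orbit (D.P ω) z ∪ MulAction.orbit (D.P ω) x₀ ⊆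
      Set.univ := Set.subset_univ _
  have hle := Set.ncard_le_ncard hsub
  rw [Set.ncard_union_eq (Set.disjoint_union_left.mpr ⟨h2, h3⟩), Set.ncard_union_eq h1,
    Set.ncard_univ, D.card_eq, ← Nat.card_coe_set_eq, ← Nat.card_coe_set_eq, ← Nat.card_coe_set_eq,
    D.card_orbit hyne, D.card_orbit hzne, D.card_orbit hx₀] at hle
  omega

/-- No nontrivial element of `P ω` fixes a second point. -/
theorem Config.semiregular (D : Config K Ω) {ω x₀ : Ω} {c : K} (hc : c ∈ D.P ω) (hc1 : c ≠ 1)
    (hx₀ : x₀ ≠ ω) : c • x₀ ≠ x₀ := by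
  classical
  haveI := Fintype.ofFinite Ω
  haveI : Fact (Nat.Prime 17) := ⟨by norm_num⟩
  intro hfix
  let blk : Ω → Finset (Finset Ω) := fun o => Finset.univ.filter fun B => ∃ d ∈ D.P o,
    d ≠ 1 ∧ (∃ x, x ≠ o ∧ d • x = x) ∧ B = Finset.univ.filter fun z => d • z ≠ z
  have hblk : ∀ o B, B ∈ blk o → ∃ y, y ≠ o ∧ (B : Set Ω) = MulAction.orbit (D.P o) y ∧ B.card = 17 := by
    intro o B hB
    obtain ⟨d, hd, hd1, ⟨x, hxo, hx⟩, rfl⟩ := (Finset.mem_filter.mp hB).2
    obtain ⟨y, hy⟩ : ∃ y, d • y ≠ y := by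
      by_contra h
      push Not at h
      exact hd1 (D.faith d h)
    have hyo : y ≠ o := fun e => hy (e ▸ D.fixes o d hd)
    have e : ((Finset.univ.filter fun z => d • z ≠ z : Finset Ω) : Set Ω) =
        MulAction.orbit (D.P o) y := by
      rw [Finset.coe_filter_univ]
      exact D.moved_eq hd hxo hx hy
    refine ⟨y, hyo, e, ?_⟩
    rw [← Set.ncard_coe_finset, e, ← Nat.card_coe_set_eq, D.card_orbit hyo]
  have hle2 : ∀ o, (blk o).card ≤ 2 := by
    intro o
    by_contra h
    obtain ⟨B₁, B₂, B₃, h₁, h₂, h₃, h12, h13, h23⟩ := Finset.two_lt_card_iff.mp (not_le.mp h)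
    have hdis : ∀ B B', B ∈ blk o → B' ∈ blk o → B ≠ B' → Disjoint B B' := by
      intro B B' hB hB' hne
      obtain ⟨y, -, ey, -⟩ := hblk o B hB
      obtain ⟨y', -, ey', -⟩ := hblk o B' hB'
      rw [Finset.disjoint_left]
      intro w hw hw'
      rw [← Finset.mem_coe, ey] at hw
      rw [← Finset.mem_coe, ey'] at hw'
      exact hne (Finset.coe_injective (by
        rw [ey, ey', ← MulAction.orbit_eq_iff.mpr hw, ← MulAction.orbit_eq_iff.mpr hw']))
    have hc := Finset.card_le_univ (B₁ ∪ B₂ ∪ B₃)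
    rw [Finset.card_union_of_disjoint (Finset.disjoint_union_left.mpr
      ⟨hdis _ _ h₁ h₃ h13, hdis _ _ h₂ h₃ h23⟩), Finset.card_union_of_disjoint (hdis _ _ h₁ h₂ h12),
      (hblk o B₁ h₁).choose_spec.2.2, (hblk o B₂ h₂).choose_spec.2.2,
      (hblk o B₃ h₃).choose_spec.2.2, ← Nat.card_eq_fintype_card, D.card_eq] at hc
    omega
  have hequi : ∀ (g : K) o, (blk o).card ≤ (blk (g • o)).card := by
    intro g o
    refine Finset.card_le_card_of_injOn (fun B => B.image (g • ·)) (fun B hB => ?_)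
      (Finset.image_injective (MulAction.injective g)).injOn
    obtain ⟨d, hd, hd1, ⟨x, hxo, hx⟩, rfl⟩ := (Finset.mem_filter.mp hB).2
    refine Finset.mem_filter.mpr ⟨Finset.mem_univ _, g * d * g⁻¹, D.conj g o d hd, ?_,
      ⟨g • x, (MulAction.injective g).ne hxo, ?_⟩, ?_⟩
    · exact fun h => hd1 (conj_eq_one_iff.mp h)
    · rw [mul_smul, mul_smul, inv_smul_smul, hx]
    · ext z
      simp only [Finset.mem_image, Finset.mem_filter, Finset.mem_univ, true_and]
      constructor
      · rintro ⟨a, ha, rfl⟩ h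
        rw [mul_smul, mul_smul, inv_smul_smul] at h
        exact ha (MulAction.injective g h)
      · intro h
        refine ⟨g⁻¹ • z, fun h' => h ?_, smul_inv_smul g z⟩
        rw [mul_smul, mul_smul, h', smul_inv_smul]
  have hconst : ∀ o, (blk o).card = (blk ω).card := by
    intro o
    haveI := D.trans
    obtain ⟨g, rfl⟩ := MulAction.exists_smul_eq K ω o
    refine le_antisymm ?_ (hequi g ω)
    have h := hequi g⁻¹ (g • ω)
    rwa [inv_smul_smul] at h
  have hpos : 0 < (blk ω).card := Finset.card_pos.mpr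
    ⟨Finset.univ.filter fun z => c • z ≠ z, Finset.mem_filter.mpr
      ⟨Finset.mem_univ _, c, hc, hc1, ⟨x₀, hx₀, hfix⟩, rfl⟩⟩
  let all : Finset (Finset Ω) := Finset.univ.filter fun B => ∃ o, B ∈ blk o
  have hB : ∀ B ∈ all, (Finset.univ.filter fun o => B ∈ blk o).card = 18 := by
    intro B hB
    obtain ⟨o, ho⟩ := (Finset.mem_filter.mp hB).2
    have hcard := (hblk o B ho).choose_spec.2.2
    obtain ⟨d, hd, hd1, -, hBd⟩ := (Finset.mem_filter.mp ho).2
    have e : (Finset.univ.filter fun o' => B ∈ blk o') = Bᶜ := by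
      ext o'
      simp only [Finset.mem_filter, Finset.mem_univ, true_and, Finset.mem_compl]
      constructor
      · intro h ho'
        obtain ⟨d', hd', -, -, e'⟩ := (Finset.mem_filter.mp h).2
        rw [e'] at ho'
        exact (Finset.mem_filter.mp ho').2 (D.fixes o' d' hd')
      · intro ho'
        have hdo : d • o' = o' := by
          by_contra h
          exact ho' (hBd ▸ Finset.mem_filter.mpr ⟨Finset.mem_univ _, h⟩)
        obtain ⟨i, hi⟩ := IsPGroup.iff_orderOf.mp (D.isPGroup o) ⟨d, hd⟩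
        rw [Subgroup.orderOf_mk] at hi
        have h18 : Bᶜ.card = 18 := by
          rw [Finset.card_compl, hcard, ← Nat.card_eq_fintype_card, D.card_eq]
        obtain ⟨x, hx, hxne⟩ := Finset.exists_mem_ne (by omega : 1 < Bᶜ.card) o'
        refine Finset.mem_filter.mpr ⟨Finset.mem_univ _, d, D.mem_P hi.dvd hdo, hd1,
          ⟨x, hxne, ?_⟩, hBd⟩
        by_contra h
        exact Finset.mem_compl.mp hx (hBd ▸ Finset.mem_filter.mpr ⟨Finset.mem_univ _, h⟩)
    rw [e, Finset.card_compl, hcard, ← Nat.card_eq_fintype_card, D.card_eq]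
  have hdc : ∑ o : Ω, (blk o).card = ∑ B ∈ all, (Finset.univ.filter fun o => B ∈ blk o).card := by
    have e : ∀ o, blk o = all.filter fun B => B ∈ blk o := by
      intro o
      ext B
      simp only [all, Finset.mem_filter, Finset.mem_univ, true_and]
      exact ⟨fun h => ⟨⟨o, h⟩, h⟩, fun h => h.2⟩
    simp_rw [Finset.card_filter]
    rw [Finset.sum_comm]
    refine Finset.sum_congr rfl fun o _ => ?_
    conv_lhs => rw [e o]
    rw [Finset.card_filter]
  rw [Finset.sum_congr rfl fun o _ => hconst o, Finset.sum_congr rfl hB, Finset.sum_const,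
    Finset.sum_const, Finset.card_univ, ← Nat.card_eq_fintype_card, D.card_eq, smul_eq_mul,
    smul_eq_mul] at hdc
  have := hle2 ω
  omega

theorem Config.card_P (D : Config K Ω) (ω : Ω) : Nat.card (D.P ω) = 17 := by
  obtain ⟨x, hx⟩ : ∃ x, x ≠ ω := by
    by_contra h
    push Not at h
    haveI : Subsingleton Ω := ⟨fun a b => (h a).trans (h b).symm⟩
    have := D.card_eq
    rw [Nat.card_of_subsingleton ω] at this
    omega
  have hst : MulAction.stabilizer (D.P ω) x = ⊥ := by
    refine (Subgroup.eq_bot_iff_forall _).mpr fun c hc => ?_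
    by_contra h
    exact D.semiregular c.2 (fun e => h (Subtype.ext e)) hx hc
  rw [← D.card_orbit hx, Nat.card_congr (MulAction.orbitEquivQuotientStabilizer (D.P ω) x), hst,
    ← Subgroup.index, Subgroup.index_bot]

/-- The centraliser of `P ω` in the stabiliser of `ω` has order at most `34`. -/
theorem Config.card_centralizer (D : Config K Ω) (ω : Ω) :
    Nat.card (MulAction.stabilizer K ω ⊓ Subgroup.centralizer (D.P ω : Set K) : Subgroup K) ∣ 34 := by
  haveI : Fact (Nat.Prime 17) := ⟨by norm_num⟩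
  set C : Subgroup K := MulAction.stabilizer K ω ⊓ Subgroup.centralizer (D.P ω : Set K)
  have hPC : D.P ω ≤ C := by
    refine le_inf (fun c hc => D.fixes ω c hc) fun c hc => ?_
    rw [Subgroup.mem_centralizer_iff]
    intro e he
    haveI : Fact (Nat.Prime 17) := ⟨by norm_num⟩
    haveI := isCyclic_of_prime_card (D.card_P ω)
    exact congrArg Subtype.val ((IsCyclic.commGroup (α := D.P ω)).mul_comm ⟨e, he⟩ ⟨c, hc⟩)
  obtain ⟨x, hx⟩ : ∃ x, x ≠ ω := by
    by_contra h
    push Not at h
    haveI : Subsingleton Ω := ⟨fun a b => (h a).trans (h b).symm⟩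
    have := D.card_eq
    rw [Nat.card_of_subsingleton ω] at this
    omega
  let F : C → ({ω}ᶜ : Set Ω) := fun d => ⟨(d : K) • x, fun h =>
    hx (MulAction.injective (d : K) (h.trans d.2.1.symm))⟩
  have hF : Function.Injective F := by
    intro d d' h
    have h' : (d : K) • x = (d' : K) • x := congrArg Subtype.val h
    have hemem : (d' : K)⁻¹ * d ∈ C := C.mul_mem (C.inv_mem d'.2) d.2
    have hex : ((d' : K)⁻¹ * d) • x = x := by rw [mul_smul, h', inv_smul_smul]
    generalize hegen : (d' : K)⁻¹ * d = e at hemem hex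
    suffices he : e = 1 by
      rw [he, inv_mul_eq_one] at hegen
      exact Subtype.ext hegen.symm
    have hcomm : ∀ p ∈ D.P ω, ∀ z : Ω, e • p • z = p • e • z := by
      intro p hp z
      rw [← mul_smul, ← mul_smul, (Subgroup.mem_centralizer_iff.mp hemem.2 p hp)]
    have hO : ∀ z ∈ MulAction.orbit (D.P ω) x, e • z = z := by
      rintro _ ⟨⟨p, hp⟩, rfl⟩
      show e • p • x = p • x
      rw [hcomm p hp, hex]
    have h17 : e ^ 17 = 1 := by
      refine D.faith _ fun z => ?_
      by_cases hzω : z = ω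
      · exact hzω ▸ (pow_mem hemem.1 17 : e ^ 17 ∈ MulAction.stabilizer K ω)
      have hpow : ∀ n : ℕ, e • z = z → e ^ n • z = z := fun n h => by
        induction n with
        | zero => simp
        | succ n ih => rw [pow_succ, mul_smul, h, ih]
      by_cases hzO : z ∈ MulAction.orbit (D.P ω) x
      · exact hpow 17 (hO z hzO)
      -- `e` preserves the second orbit
      have heω : e • z ≠ ω := fun h => hzω (MulAction.injective e (h.trans hemem.1.symm))
      have hezO : e • z ∉ MulAction.orbit (D.P ω) x := fun h =>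
        hzO (MulAction.injective e (hO _ h).symm ▸ h)
      have hez : e • z ∈ MulAction.orbit (D.P ω) z := by
        by_contra hne
        have hd : ∀ a b : Ω, b ∉ MulAction.orbit (D.P ω) a →
            Disjoint (MulAction.orbit (D.P ω) a) (MulAction.orbit (D.P ω) b) := by
          intro a b hb
          rw [Set.disjoint_left]
          intro w hwa hwb
          exact hb ((MulAction.orbit_eq_iff.mpr hwa).symm.trans (MulAction.orbit_eq_iff.mpr hwb) ▸
            MulAction.mem_orbit_self b)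
        have hle := Set.ncard_le_ncard (Set.subset_univ (MulAction.orbit (D.P ω) x ∪
          MulAction.orbit (D.P ω) z ∪ MulAction.orbit (D.P ω) (e • z)))
        rw [Set.ncard_union_eq (Set.disjoint_union_left.mpr ⟨hd _ _ hezO, hd _ _ hne⟩),
          Set.ncard_union_eq (hd _ _ hzO), Set.ncard_univ, D.card_eq, ← Nat.card_coe_set_eq,
          ← Nat.card_coe_set_eq, ← Nat.card_coe_set_eq, D.card_orbit hx, D.card_orbit hzω,
          D.card_orbit heω] at hle
        omega
      obtain ⟨⟨p, hp⟩, hpz : p • z = e • z⟩ := hez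
      have hiter : ∀ n : ℕ, e ^ n • z = p ^ n • z := by
        intro n
        induction n with
        | zero => simp
        | succ n ih =>
          rw [pow_succ', mul_smul, ih, hcomm _ (pow_mem hp n), ← hpz, ← mul_smul, ← pow_succ]
      rw [hiter, ← D.card_P ω]
      have := congrArg Subtype.val (pow_card_eq_one' (x := (⟨p, hp⟩ : D.P ω)))
      rw [SubgroupClass.coe_pow, OneMemClass.coe_one] at this
      rw [this, one_smul]
    by_contra he
    exact D.semiregular (D.mem_P (i := 1) (by simpa using orderOf_dvd_of_pow_eq_one h17) hemem.1)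
      he hx hex
  have hle : Nat.card C ≤ 34 := by
    refine (Nat.card_le_card_of_injective F hF).trans (le_of_eq ?_)
    rw [Nat.card_coe_set_eq, Set.ncard_compl, Set.ncard_singleton, D.card_eq]
  have hd := Subgroup.card_dvd_of_le hPC
  rw [D.card_P] at hd
  have hpos : 0 < Nat.card C := Nat.card_pos
  rcases (show Nat.card C = 17 ∨ Nat.card C = 34 by omega) with h | h <;> rw [h] <;> norm_num

end

/-- An automorphism of order prime to `6` of an abelian `2`-group with at most four square roots of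
one is trivial. -/
theorem apply_eq_of_pow_eq_one {T : Type*} [Group T] [Finite T] (hT : IsPGroup 2 T)
    (hcomm : ∀ a b : T, a * b = b * a) (h4 : Nat.card {z : T // z ^ 2 = 1} ≤ 4) (φ : MulAut T)
    (n : ℕ) (hn : n.Coprime 6) (hφ : φ ^ n = 1) (t : T) : φ t = t := by
  letI : MulAction (MulAut T) T := inferInstance
  have hinv : ∀ z : T, z ^ 2 = 1 → φ z = z := by
    intro z hz
    by_cases hz1 : z = 1
    · rw [hz1, map_one]
    have hsub : MulAction.orbit (Subgroup.zpowers φ) z ⊆ {w : T | w ^ 2 = 1 ∧ w ≠ 1} := by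
      rintro _ ⟨⟨e, -⟩, rfl⟩
      exact ⟨show (e z) ^ 2 = 1 by rw [← map_pow, hz, map_one],
        fun h => hz1 (e.injective (h.trans (map_one e).symm))⟩
    have h3 : Nat.card {w : T | w ^ 2 = 1 ∧ w ≠ 1} ≤ 3 := by
      have e : ({w : T | w ^ 2 = 1 ∧ w ≠ 1} : Set T) = {w : T | w ^ 2 = 1} \ {1} := by
        ext w; simp [Set.mem_sdiff]
      rw [e, Nat.card_coe_set_eq, Set.ncard_sdiff_singleton_of_mem (by simp)]
      have : ({w : T | w ^ 2 = 1}).ncard ≤ 4 := by rw [← Nat.card_coe_set_eq]; exact h4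
      omega
    have hle : Nat.card (MulAction.orbit (Subgroup.zpowers φ) z) ≤ 3 := (Nat.card_mono (Set.toFinite _) hsub).trans h3
    have hd : Nat.card (MulAction.orbit (Subgroup.zpowers φ) z) ∣ n := by
      rw [Nat.card_congr (MulAction.orbitEquivQuotientStabilizer (Subgroup.zpowers φ) z),
        ← Subgroup.index]
      refine (Subgroup.index_dvd_card _).trans ?_
      rw [Nat.card_zpowers]
      exact orderOf_dvd_of_pow_eq_one hφ
    have h1 : Nat.card (MulAction.orbit (Subgroup.zpowers φ) z) = 1 := by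
      haveI := (MulAction.nonempty_orbit (M := Subgroup.zpowers φ) z).to_subtype
      have hpos : 0 < Nat.card (MulAction.orbit (Subgroup.zpowers φ) z) := Nat.card_pos
      have h123 : Nat.card (MulAction.orbit (Subgroup.zpowers φ) z) = 1 ∨
          Nat.card (MulAction.orbit (Subgroup.zpowers φ) z) = 2 ∨
          Nat.card (MulAction.orbit (Subgroup.zpowers φ) z) = 3 := by omega
      rcases h123 with h | h | h
      · exact h
      · exact absurd (Nat.eq_one_of_dvd_coprimes hn hd (by rw [h]; norm_num)) (by rw [h]; norm_num)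
      · exact absurd (Nat.eq_one_of_dvd_coprimes hn hd (by rw [h]; norm_num)) (by rw [h]; norm_num)
    haveI := (Nat.card_eq_one_iff_unique.mp h1).1
    exact congrArg Subtype.val (Subsingleton.elim
      (⟨φ z, ⟨⟨φ, Subgroup.mem_zpowers φ⟩, rfl⟩⟩ : MulAction.orbit (Subgroup.zpowers φ) z)
      ⟨z, MulAction.mem_orbit_self z⟩)
  induction ho : orderOf t using Nat.strong_induction_on generalizing t with
  | _ m ih =>
  by_cases ht : t = 1
  · rw [ht, map_one]
  obtain ⟨k, hk⟩ := IsPGroup.iff_orderOf.mp hT t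
  have h2d : 2 ∣ orderOf t := by
    rcases k with - | k
    · exact absurd (orderOf_eq_one_iff.mp (by simpa using hk)) ht
    · exact hk ▸ dvd_pow_self 2 k.succ_ne_zero
  have hsq : φ (t ^ 2) = t ^ 2 := by
    refine ih _ ?_ _ rfl
    rw [← ho, orderOf_pow_of_dvd two_ne_zero h2d]
    exact Nat.div_lt_self (orderOf_pos t) one_lt_two
  set z := φ t * t⁻¹ with hz
  have hz2 : z ^ 2 = 1 := by
    rw [hz, (show Commute (φ t) t⁻¹ from hcomm _ _).mul_pow, ← map_pow, hsq, inv_pow, mul_inv_cancel]
  have hiter : ∀ j : ℕ, (φ ^ j) t = z ^ j * t := by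
    intro j
    induction j with
    | zero => simp
    | succ j ihj =>
      rw [pow_succ', MulAut.mul_apply, ihj, map_mul, map_pow, hinv z hz2, pow_succ, mul_assoc,
        hz, inv_mul_cancel_right]
  have h := hiter n
  rw [hφ, MulAut.one_apply] at h
  have hzn : z ^ n = 1 := mul_eq_right.mp h.symm
  have hz1 : z = 1 := orderOf_eq_one_iff.mp (Nat.eq_one_of_dvd_coprimes
    (Nat.Coprime.coprime_dvd_right (by norm_num : 2 ∣ 6) hn) (orderOf_dvd_of_pow_eq_one hzn)
    (orderOf_dvd_of_pow_eq_one hz2))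
  rw [hz, mul_inv_eq_one] at hz1
  exact hz1


theorem false_of_config {K Ω : Type*} [Group K] [Finite K] [MulAction K Ω] [Finite Ω]
    (D : Config K Ω) : False := by
  haveI h17 : Fact (Nat.Prime 17) := ⟨by norm_num⟩
  haveI : Fact (Nat.Prime 2) := ⟨Nat.prime_two⟩
  haveI h5 : Fact (Nat.Prime 5) := ⟨by norm_num⟩
  haveI := D.trans
  obtain ⟨ω⟩ : Nonempty Ω := by
    by_contra h
    rw [not_nonempty_iff] at h
    have := D.card_eq
    rw [Nat.card_of_isEmpty] at this
    omega
  set H := MulAction.stabilizer K ω with hH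
  have hKcard : Nat.card K = 35 * Nat.card H := by
    rw [← H.card_mul_index, MulAction.index_stabilizer_of_transitive K ω, D.card_eq, mul_comm]
  let i : H →* Subgroup.normalizer (D.P ω : Set K) := Subgroup.inclusion fun k hk => D.normalised ω k hk
  let ψ : H →* MulAut (D.P ω) := (D.P ω).normalizerMonoidHom.comp i
  haveI := isCyclic_of_prime_card (D.card_P ω)
  have hker : Nat.card ψ.ker ∣ 34 := by
    refine (Eq.dvd ?_).trans (D.card_centralizer ω)
    have e : ψ.ker = (Subgroup.centralizer (D.P ω : Set K)).subgroupOf H := by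
      rw [← MonoidHom.comap_ker, Subgroup.normalizerMonoidHom_ker]
      exact Subgroup.ext fun _ => Iff.rfl
    rw [e, ← Subgroup.inf_subgroupOf_left, Nat.card_congr (Subgroup.subgroupOfEquivOfLe inf_le_left).toEquiv]
  have hrange : Nat.card ψ.range ∣ 16 := by
    refine (Subgroup.card_subgroup_dvd_card _).trans ?_
    rw [IsCyclic.card_mulAut (D.P ω), D.card_P, Nat.totient_prime h17.out]
  have hHcard : Nat.card H ∣ 544 := by
    rw [← ψ.ker.card_mul_index, Subgroup.index_ker]
    exact mul_dvd_mul hker hrange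
  haveI hcycA : IsCyclic (MulAut (D.P ω)) := by
    haveI : IsCyclic (ZMod (Nat.card (D.P ω)))ˣ := by
      rw [D.card_P]; exact ZMod.isCyclic_units_prime (by norm_num)
    exact isCyclic_of_injective (IsCyclic.mulAutMulEquiv (D.P ω)).toMonoidHom
      (IsCyclic.mulAutMulEquiv (D.P ω)).injective
  let T0 : Sylow 2 H := default
  let η : (T0 : Subgroup H) →* MulAut (D.P ω) := ψ.comp (T0 : Subgroup H).subtype
  let g : (T0 : Subgroup H) →* η.range := η.rangeRestrict
  have hgker : Nat.card g.ker ≤ 2 := by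
    rw [MonoidHom.ker_rangeRestrict]
    have hd : Nat.card η.ker ∣ 34 := by
      refine (Subgroup.card_dvd_of_injective
        (((T0 : Subgroup H).subtype.comp η.ker.subtype).codRestrict ψ.ker fun x => x.2)
        fun x y h => Subtype.ext (Subtype.ext (congrArg (Subtype.val (p := (· ∈ ψ.ker))) h))).trans hker
    obtain ⟨j, hj⟩ := IsPGroup.iff_card.mp (T0.isPGroup'.to_subgroup η.ker)
    rw [hj] at hd ⊢
    rcases j with - | _ | j
    · norm_num
    · norm_num
    · exfalso
      have : (4 : ℕ) ∣ 34 := (pow_dvd_pow 2 (by omega : 2 ≤ j + 1 + 1)).trans hd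
      norm_num at this
  have hcen : g.ker ≤ Subgroup.center (T0 : Subgroup H) := by
    intro z hz
    rw [Subgroup.mem_center_iff]
    intro y
    by_cases hz1 : z = 1
    · rw [hz1, mul_one, one_mul]
    have hmem : y * z * y⁻¹ ∈ g.ker := (inferInstance : g.ker.Normal).conj_mem z hz y
    have hne : y * z * y⁻¹ ≠ 1 := fun h => hz1 (conj_eq_one_iff.mp h)
    by_contra hne'
    have h3 : 2 < Nat.card g.ker := by
      classical
      haveI := Fintype.ofFinite g.ker
      rw [Nat.card_eq_fintype_card]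
      refine Fintype.two_lt_card_iff.mpr ⟨1, ⟨z, hz⟩, ⟨_, hmem⟩, fun h => hz1 (congrArg Subtype.val h).symm,
        fun h => hne (congrArg Subtype.val h).symm, fun h => hne' ?_⟩
      have h' : z = y * z * y⁻¹ := congrArg Subtype.val h
      exact (mul_inv_eq_iff_eq_mul.mp h'.symm)
    omega
  haveI : IsCyclic η.range := inferInstance
  have hcomm : ∀ a b : (T0 : Subgroup H), a * b = b * a := commutative_of_cyclic_center_quotient g hcen
  have h4 : Nat.card {z : (T0 : Subgroup H) // z ^ 2 = 1} ≤ 4 := by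
    classical
    haveI := Fintype.ofFinite η.range
    haveI := Fintype.ofFinite (T0 : Subgroup H)
    rw [Nat.card_eq_fintype_card, Fintype.card_subtype]
    have h1 : ((Finset.univ.filter fun z : (T0 : Subgroup H) => z ^ 2 = 1).image g).card ≤ 2 := by
      refine (Finset.card_le_card ?_).trans (IsCyclic.card_pow_eq_one_le (α := η.range) two_pos)
      intro y hy
      obtain ⟨z, hz, rfl⟩ := Finset.mem_image.mp hy
      exact Finset.mem_filter.mpr ⟨Finset.mem_univ _, by rw [← map_pow, (Finset.mem_filter.mp hz).2, map_one]⟩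
    refine (Finset.card_le_mul_card_image (f := g) _ 2 fun y hy => ?_).trans (by omega)
    obtain ⟨z₀, hz₀, rfl⟩ := Finset.mem_image.mp hy
    refine le_trans ?_ hgker
    rw [Nat.card_eq_fintype_card, Fintype.card_subtype]
    refine Finset.card_le_card_of_injOn (fun z => z * z₀⁻¹) (fun z hz => ?_) fun a _ b _ h => mul_right_cancel h
    rw [Finset.mem_coe, Finset.mem_filter] at hz ⊢
    exact ⟨Finset.mem_univ _, by rw [MonoidHom.mem_ker, map_mul, map_inv, hz.2, mul_inv_cancel]⟩
  -- the Sylow `2`-subgroup of `K`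
  let T : Subgroup K := (T0 : Subgroup H).map H.subtype
  let e : (T0 : Subgroup H) ≃* T := (T0 : Subgroup H).equivMapOfInjective H.subtype H.subtype_injective
  have hTidx : ¬ 2 ∣ T.index := by
    rw [Subgroup.index_map_subtype, MulAction.index_stabilizer_of_transitive K ω, D.card_eq]
    exact fun h => (Nat.prime_two.dvd_mul.mp h).elim T0.not_dvd_index (by norm_num)
  have hTp : IsPGroup 2 T := T0.isPGroup'.map H.subtype
  let TS : Sylow 2 K := hTp.toSylow hTidx
  have hTcomm : ∀ a b : T, a * b = b * a := fun a b => by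
    obtain ⟨a, rfl⟩ := e.surjective a
    obtain ⟨b, rfl⟩ := e.surjective b
    rw [← map_mul, ← map_mul, hcomm]
  have hT4 : Nat.card {z : T // z ^ 2 = 1} ≤ 4 := by
    refine le_of_eq_of_le ?_ h4
    refine Nat.card_congr (Equiv.subtypeEquiv e.toEquiv fun z => ?_).symm
    show z ^ 2 = 1 ↔ (e z) ^ 2 = 1
    rw [← map_pow, MulEquiv.map_eq_one_iff]
  have h3K : ¬ 3 ∣ Nat.card K := by
    rw [hKcard]
    intro h
    have := h.trans (mul_dvd_mul_left 35 hHcard)
    norm_num at this
  have hNC : Subgroup.normalizer ((TS : Subgroup K) : Set K) ≤ Subgroup.centralizer ((TS : Subgroup K) : Set K) := by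
    intro x hx
    obtain ⟨a, b, hab, ⟨k, hk⟩, hb⟩ := CfsgLib.NormalPComplement.exists_pParts (p := 2) (isOfFinOrder_of_finite x)
    rw [← hab]
    refine Subgroup.mul_mem _ ?_ ?_
    · -- the `2`-part lies in `T`
      obtain ⟨l, -, hl⟩ := (Nat.dvd_prime_pow Nat.prime_two).mp hk
      have hz : IsPGroup 2 (Subgroup.zpowers (x ^ a)) :=
        IsPGroup.of_card (n := l) (by rw [Nat.card_zpowers, hl])
      have hmem : x ^ a ∈ Subgroup.zpowers (x ^ a) ⊓ (TS : Subgroup K) :=
        hz.inf_normalizer_sylow TS ▸ ⟨Subgroup.mem_zpowers _, Subgroup.pow_mem _ hx a⟩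
      rw [Subgroup.mem_centralizer_iff]
      intro y hy
      exact congrArg Subtype.val (hTcomm ⟨y, hy⟩ ⟨_, hmem.2⟩)
    · let n : Subgroup.normalizer (T : Set K) := ⟨x ^ b, Subgroup.pow_mem _ hx b⟩
      have hφ : (Subgroup.normalizerMonoidHom T n) ^ orderOf (x ^ b) = 1 := by
        rw [← map_pow, show n ^ orderOf (x ^ b) = 1 from Subtype.ext (pow_orderOf_eq_one (x ^ b)), map_one]
      have h6 : (orderOf (x ^ b)).Coprime 6 := by
        refine Nat.Coprime.mul_right (m := 2) (n := 3) hb ?_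
        refine ((Nat.Prime.coprime_iff_not_dvd Nat.prime_three).mpr fun h => h3K ?_).symm
        exact h.trans (orderOf_dvd_natCard _)
      have hfix := apply_eq_of_pow_eq_one hTp hTcomm hT4 (Subgroup.normalizerMonoidHom T n) _ h6 hφ
      have hn : n ∈ T.normalizerMonoidHom.ker := MonoidHom.mem_ker.mpr (MulEquiv.ext hfix)
      rw [Subgroup.normalizerMonoidHom_ker] at hn
      exact hn
  -- the normal `2`-complement
  set M := (MonoidHom.transferSylow TS hNC).ker with hM
  have hc := MonoidHom.ker_transferSylow_isComplement' TS hNC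
  have hMidx : M.index = Nat.card T := hc.index_eq_card.trans rfl |> fun h => by
    rw [hc.symm.index_eq_card]; rfl
  obtain ⟨t, ht⟩ := IsPGroup.iff_card.mp hTp
  have hModd : ¬ 2 ∣ Nat.card M := by rw [← hc.index_eq_card]; exact hTidx
  have hMcard : Nat.card M ∣ 595 := by
    have h1 : Nat.card M ∣ 2 ^ 5 * 595 := (Subgroup.card_subgroup_dvd_card M).trans
      (by rw [hKcard]; exact (mul_dvd_mul_left 35 hHcard).trans (by norm_num))
    exact (((Nat.Prime.coprime_iff_not_dvd Nat.prime_two).mpr hModd).symm.pow_right 5).dvd_of_dvd_mul_left h1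
  have hoddmem : ∀ x : K, ¬ 2 ∣ orderOf x → x ∈ M := by
    intro x hx
    rw [← QuotientGroup.eq_one_iff]
    refine orderOf_eq_one_iff.mp (Nat.eq_one_of_dvd_coprimes
      (((Nat.Prime.coprime_iff_not_dvd Nat.prime_two).mpr hx).pow_left t)
      (orderOf_dvd_natCard _ |>.trans (dvd_of_eq ?_)) (orderOf_map_dvd (QuotientGroup.mk' M) x))
    rw [← Subgroup.index, hMidx, ht]
  obtain ⟨r, hr⟩ := exists_prime_orderOf_dvd_card' (G := K) 5 (hKcard ▸ (by norm_num : 5 ∣ 35).mul_right _)
  have hrM : r ∈ M := hoddmem r (by rw [hr]; norm_num)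
  obtain ⟨c, hc17⟩ := exists_prime_orderOf_dvd_card' (G := D.P ω) 17 (by rw [D.card_P])
  have hcM : (c : K) ∈ M := hoddmem _ (by rw [Subgroup.orderOf_coe, hc17]; norm_num)
  obtain ⟨R⟩ := (inferInstance : Nonempty (Sylow 5 M))
  have hRidx : (R : Subgroup M).index ∣ 119 := by
    have h1 : (R : Subgroup M).index ∣ 5 * 119 := (Subgroup.index_dvd_card _).trans hMcard
    exact ((Nat.Prime.coprime_iff_not_dvd h5.out).mpr R.not_dvd_index).symm.dvd_of_dvd_mul_left h1
  have hn5 : Nat.card (Sylow 5 M) = 1 := by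
    have h1 := (R.card_dvd_index).trans hRidx
    have h2 := card_sylow_modEq_one 5 M
    have hle := Nat.le_of_dvd (by norm_num) h1
    unfold Nat.ModEq at h2
    interval_cases h : Nat.card (Sylow 5 M) <;> omega
  haveI : Subsingleton (Sylow 5 M) := (Nat.card_eq_one_iff_unique.mp hn5).1
  haveI hRn : (R : Subgroup M).Normal := R.normal_of_subsingleton
  have hrR : (⟨r, hrM⟩ : M) ∈ (R : Subgroup M) := by
    have hz : IsPGroup 5 (Subgroup.zpowers (⟨r, hrM⟩ : M)) :=
      IsPGroup.of_card (n := 1) (by rw [Nat.card_zpowers, Subgroup.orderOf_mk, hr, pow_one])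
    obtain ⟨R', hR'⟩ := hz.exists_le_sylow
    exact Subsingleton.elim R' R ▸ hR' (Subgroup.mem_zpowers _)
  have hRcard : Nat.card (R : Subgroup M) = 5 := by
    obtain ⟨j, hj⟩ := IsPGroup.iff_card.mp R.isPGroup'
    have hd := (Subgroup.card_subgroup_dvd_card (R : Subgroup M)).trans hMcard
    have h1 : orderOf (⟨⟨r, hrM⟩, hrR⟩ : (R : Subgroup M)) ∣ Nat.card (R : Subgroup M) :=
      orderOf_dvd_natCard _
    rw [Subgroup.orderOf_mk, Subgroup.orderOf_mk, hr, hj] at h1
    rw [hj] at hd ⊢
    rcases j with - | _ | j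
    · norm_num at h1
    · norm_num
    · exfalso
      have : (25 : ℕ) ∣ 595 := (pow_dvd_pow 5 (by omega : 2 ≤ j + 1 + 1)).trans hd
      norm_num at this
  haveI := isCyclic_of_prime_card hRcard
  let α : MulAut (R : Subgroup M) := MulAut.conjNormal (⟨c, hcM⟩ : M)
  have hα : α = 1 := by
    refine orderOf_eq_one_iff.mp (Nat.eq_one_of_dvd_coprimes (by norm_num : Nat.Coprime 17 4) ?_ ?_)
    · refine (orderOf_map_dvd _ _).trans ?_
      rw [Subgroup.orderOf_mk, Subgroup.orderOf_coe, hc17]
    · refine (orderOf_dvd_natCard _).trans ?_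
      rw [IsCyclic.card_mulAut, hRcard, Nat.totient_prime h5.out]
  have hcr : (c : K) * r * (c : K)⁻¹ = r := by
    have h := congrArg (fun z : (R : Subgroup M) => ((z : M) : K))
      (show α ⟨⟨r, hrM⟩, hrR⟩ = ⟨⟨r, hrM⟩, hrR⟩ by rw [hα]; rfl)
    simpa [α] using h
  have hrω : r • ω = ω := by
    refine D.unique_fixed ω (r • ω) fun d hd => ?_
    obtain ⟨k, hk⟩ : (⟨d, hd⟩ : D.P ω) ∈ Subgroup.zpowers c :=
      mem_zpowers_of_prime_card (D.card_P ω) (fun h => by
        rw [h, orderOf_one] at hc17; norm_num at hc17)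
    have hd' : d = (c : K) ^ k := by
      rw [← SubgroupClass.coe_zpow, show c ^ k = (⟨d, hd⟩ : D.P ω) from hk]
    have hcomm' : Commute r d := hd' ▸ (Commute.zpow_right (mul_inv_eq_iff_eq_mul.mp hcr).symm k)
    rw [← mul_smul, ← hcomm'.eq, mul_smul, D.fixes ω d hd]
  have h5H : 5 ∣ Nat.card H := hr ▸ Subgroup.orderOf_dvd_natCard H hrω
  have := h5H.trans hHcard
  norm_num at this

/-- No finite group has exactly 35 Sylow 17-subgroups. -/
theorem result {G : Type*} [Group G] [Finite G] : Nat.card (Sylow 17 G) ≠ 35 := by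
  intro h35
  haveI h17 : Fact (Nat.Prime 17) := ⟨by norm_num⟩
  let f : G →* Equiv.Perm (Sylow 17 G) := MulAction.toPermHom G (Sylow 17 G)
  letI : MulAction f.range (Sylow 17 G) := inferInstance
  have hsmul : ∀ (g : G) (x : Sylow 17 G), (f.rangeRestrict g) • x = g • x := fun g x => rfl
  have hsurj : Function.Surjective f.rangeRestrict := MonoidHom.rangeRestrict_surjective f
  refine false_of_config (K := f.range) (Ω := Sylow 17 G)
    { card_eq := h35
      trans := ⟨fun x y => ?_⟩
      faith := fun k hk => Subtype.ext (Equiv.ext hk)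
      P := fun ω => (ω : Subgroup G).map f.rangeRestrict
      isPGroup := fun ω => ω.isPGroup'.map _
      not_dvd := fun ω => fun h => ω.not_dvd_index (h.trans (Subgroup.index_map_dvd _ hsurj))
      fixes := ?_
      unique_fixed := ?_
      normalised := ?_
      conj := ?_ }
  · obtain ⟨g, hg⟩ := MulAction.exists_smul_eq G x y
    exact ⟨f.rangeRestrict g, (hsmul g x).trans hg⟩
  · rintro ω _ ⟨g, hg, rfl⟩
    rw [hsmul, Sylow.smul_eq_iff_mem_normalizer]
    exact Subgroup.le_normalizer hg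
  · intro ω x hx
    have hle : (ω : Subgroup G) ≤ Subgroup.normalizer (x : Set G) := fun g hg => by
      rw [← Sylow.smul_eq_iff_mem_normalizer, ← hsmul]
      exact hx _ ⟨g, hg, rfl⟩
    have h := ω.isPGroup'.inf_normalizer_sylow x
    rw [inf_eq_left.mpr hle] at h
    exact Sylow.ext (ω.is_maximal' x.isPGroup' (h.le.trans inf_le_right))
  · intro ω k hk
    obtain ⟨g, rfl⟩ := hsurj k
    rw [hsmul, Sylow.smul_eq_iff_mem_normalizer] at hk
    exact Subgroup.le_normalizer_map _ ⟨g, hk, rfl⟩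
  · rintro k ω _ ⟨u, hu, rfl⟩
    obtain ⟨g, rfl⟩ := hsurj k
    refine ⟨g * u * g⁻¹, ?_, by rw [map_mul, map_mul, map_inv]⟩
    rw [hsmul, SetLike.mem_coe, Sylow.coe_subgroup_smul]
    exact Subgroup.smul_mem_pointwise_smul u (MulAut.conj g) _ hu

end Cfsg.Agent.S4236
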