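import Cfsg.Statements.S4237
import Cfsg.Agent.Lib.PGroupCounting.Kulakoff

set_option autoImplicit false
open Cfsg

namespace Cfsg.Agent.S4237

/-- Let G be a finite group, p a prime and a a natural number such that p^(a+1) divides the order of G. Then the number of subgroups of G of order p^a is congruent to 1 or to 1 + p modulo p². -/
theorem result {G : Type*} [Group G] [Finite G] (p a : ℕ) (hp : p.Prime) (hdvd : p ^ (a + 1) ∣ Nat.card G) :
    Nat.card {H : Subgroup G // Nat.card H = p ^ a} ≡ 1 [MOD p ^ 2] ∨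
      Nat.card {H : Subgroup G // Nat.card H = p ^ a} ≡ 1 + p [MOD p ^ 2] := by
  haveI : Fact p.Prime := ⟨hp⟩
  rcases eq_or_ne p 2 with rfl | hp2
  · have h := CfsgLib.PGroupCounting.card_subgroups_modEq_one (p := 2) (a := a)
      ((pow_dvd_pow 2 (Nat.le_succ a)).trans hdvd)
    unfold Nat.ModEq at h ⊢
    omega
  obtain ⟨P⟩ := (inferInstance : Nonempty (Sylow p G))
  have hred := CfsgLib.PGroupCounting.card_subgroups_modEq_sylow hdvd P
  obtain ⟨n, hn⟩ := IsPGroup.iff_card.mp P.isPGroup'
  have han : a + 1 ≤ n := by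
    have h := P.pow_dvd_card_of_pow_dvd_card hdvd
    rw [hn] at h
    exact (Nat.pow_dvd_pow_iff_le_right hp.one_lt).mp h
  by_cases hc : IsCyclic (P : Subgroup G)
  · haveI := hc
    rw [CfsgLib.PGroupCounting.card_subgroups_eq_one_of_isCyclic hn (by omega)] at hred
    exact Or.inl hred
  rcases Nat.eq_zero_or_pos a with rfl | ha
  · refine Or.inl (hred.trans ?_)
    have h1 : Nat.card {H : Subgroup (P : Subgroup G) // Nat.card H = p ^ 0} = 1 := by
      haveI : Unique {H : Subgroup (P : Subgroup G) // Nat.card H = p ^ 0} :=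
        { default := ⟨⊥, by rw [Subgroup.card_bot, pow_zero]⟩
          uniq := fun K => Subtype.ext (Subgroup.card_eq_one.mp (K.2.trans (pow_zero p))) }
      exact Nat.card_unique
    rw [h1]
  · exact Or.inr (hred.trans (CfsgLib.PGroupCounting.kulakoff hp2 n hn hc a ha (by omega)))

end Cfsg.Agent.S4237
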