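import Cfsg.Statements.S4238
import Cfsg.Agent.Lib.NormalPComplement.Frobenius
import Cfsg.Agent.Lib.BGAppendix.Basic

set_option linter.style.haveILetI false
open scoped Pointwise
-- import your own Cfsg.Agent.* helpers here

set_option autoImplicit false
open Cfsg

namespace Cfsg.Agent.S4238

open CfsgLib

/-- A finite `p`-group has an element whose order is the exponent. -/
theorem exists_orderOf_eq_exponent {K : Type*} [Group K] [Finite K] {p : ℕ} [Fact p.Prime]
    (h : IsPGroup p K) : ∃ k : K, orderOf k = Monoid.exponent K := by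
  obtain ⟨n, hn⟩ := IsPGroup.iff_card.mp h
  obtain ⟨e, -, he⟩ := (Nat.dvd_prime_pow Fact.out).mp (hn ▸ Group.exponent_dvd_nat_card (G := K))
  rcases e with - | e
  · exact ⟨1, by simp [he]⟩
  by_contra hne
  push Not at hne
  have hd : Monoid.exponent K ∣ p ^ e := Monoid.exponent_dvd_of_forall_pow_eq_one fun k => by
    obtain ⟨i, hi, hk⟩ := (Nat.dvd_prime_pow Fact.out).mp (he ▸ Monoid.order_dvd_exponent k)
    have : i ≤ e := by
      by_contra hie
      exact hne k (by rw [hk, he, show i = e + 1 by omega])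
    rw [← orderOf_dvd_iff_pow_eq_one, hk]
    exact pow_dvd_pow p this
  rw [he] at hd
  exact absurd ((Nat.pow_dvd_pow_iff_le_right (Fact.out : p.Prime).one_lt).mp hd) (by omega)

variable {G : Type*} [Group G]

/-- A section without an element of exponent order exists above a nontrivial coprime action. -/
theorem frobenius_step [Finite G] {p : ℕ} [Fact p.Prime]
    (h : ∀ (H : Subgroup G) (N : Subgroup H) [N.Normal], pPrimeCore p (H ⧸ N) = ⊥ →
      ∃ k : H ⧸ N, orderOf k = Monoid.exponent (H ⧸ N)) :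
    NormalPComplement.FrobeniusCondition p G := by
  suffices H : ∀ n, ∀ Q : Subgroup G, IsPGroup p Q → ∀ g ∈ Subgroup.normalizer (Q : Set G),
      (orderOf g).Coprime p → Nat.card Q + orderOf g = n → g ∈ Subgroup.centralizer (Q : Set G) by
    exact fun Q hQ g hg hc => H _ Q hQ g hg hc rfl
  intro n
  induction n using Nat.strong_induction_on with
  | _ n ih =>
  intro Q hQ g hg hcop hn
  by_contra hbad
  have hg1 : g ≠ 1 := fun e => hbad (e ▸ Subgroup.one_mem _)
  obtain ⟨r, hr, hrd⟩ := Nat.exists_prime_and_dvd (mt orderOf_eq_one_iff.mp hg1)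
  haveI : Fact r.Prime := ⟨hr⟩
  have hrp : r ≠ p := fun e => (Fact.out : p.Prime).ne_one
    (Nat.eq_one_of_dvd_coprimes hcop (e ▸ hrd) dvd_rfl)
  -- a proper power of `g` centralises `Q`
  have hgr : g ^ r ∈ Subgroup.centralizer (Q : Set G) := by
    refine ih (Nat.card Q + orderOf (g ^ r)) ?_ Q hQ _ (Subgroup.pow_mem _ hg r) ?_ rfl
    · rw [← hn, orderOf_pow_of_dvd hr.ne_zero hrd]
      exact Nat.add_lt_add_left (Nat.div_lt_self (orderOf_pos g) hr.one_lt) _
    · exact hcop.coprime_dvd_left (orderOf_pow_dvd r)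
  -- proper invariant subgroups are centralised
  have hprop : ∀ V : Subgroup G, V ≤ Q → V ≠ Q → g ∈ Subgroup.normalizer (V : Set G) →
      g ∈ Subgroup.centralizer (V : Set G) := by
    intro V hV hne hgV
    refine ih (Nat.card V + orderOf g) ?_ V (hQ.to_le hV) g hgV hcop rfl
    rw [← hn]
    refine Nat.add_lt_add_right (lt_of_le_of_ne (Nat.le_of_dvd Nat.card_pos
      (Subgroup.card_dvd_of_le hV)) fun e => hne (Subgroup.eq_of_le_of_card_ge hV e.ge)) _
  let C : Subgroup G := Q ⊓ Subgroup.centralizer ({g} : Set G)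
  have hCQ : C ≠ Q := fun e => hbad (Subgroup.mem_centralizer_iff.mpr fun x hx => by
    rw [SetLike.mem_coe, ← e] at hx
    exact Subgroup.mem_centralizer_singleton_iff.mp hx.2)
  have hgC : g ∈ Subgroup.centralizer (C : Set G) :=
    Subgroup.mem_centralizer_iff.mpr fun x hx => Subgroup.mem_centralizer_singleton_iff.mp hx.2
  -- `C` is normal in `Q`
  have hQC : Q ≤ Subgroup.normalizer (C : Set G) := by
    by_contra hle
    let V := Q ⊓ Subgroup.normalizer (C : Set G)
    have hgV : g ∈ Subgroup.normalizer (V : Set G) := by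
      refine Subgroup.inf_normalizer_le_normalizer_inf ⟨hg, ?_⟩
      exact Subgroup.le_normalizer ((Subgroup.centralizer_le_normalizer _) hgC)
    have hVC : V ≤ C := fun x hx => ⟨hx.1, Subgroup.mem_centralizer_singleton_iff.mpr
      (Subgroup.mem_centralizer_iff.mp
        (hprop V inf_le_left (fun e => hle (e ▸ inf_le_right)) hgV) x hx)⟩
    haveI := hQ.isNilpotent
    have hlt : C.subgroupOf Q < ⊤ := lt_top_iff_ne_top.mpr fun e =>
      hCQ (le_antisymm inf_le_left (Subgroup.subgroupOf_eq_top.mp e))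
    obtain ⟨x, hx, hxC⟩ := SetLike.exists_of_lt (Group.normalizerCondition_of_isNilpotent _ hlt)
    rw [← Subgroup.subgroupOf_normalizer_eq (inf_le_left : C ≤ Q)] at hx
    exact hxC (hVC ⟨x.2, hx⟩)
  -- `Q / C` has no nontrivial fixed point of `g`
  have hfix : ∀ q ∈ Q, g * q * g⁻¹ * q⁻¹ ∈ C → q ∈ C := by
    intro q hq hc
    refine ⟨hq, Subgroup.mem_centralizer_singleton_iff.mpr ?_⟩
    set c := g * q * g⁻¹ * q⁻¹ with hcdef
    have hcg : Commute c g := (Subgroup.mem_centralizer_singleton_iff.mp hc.2 : _)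
    have hiter : ∀ i : ℕ, g ^ i * q * (g ^ i)⁻¹ = c ^ i * q := by
      intro i
      induction i with
      | zero => simp
      | succ i ihi =>
        calc g ^ (i + 1) * q * (g ^ (i + 1))⁻¹ = g * (g ^ i * q * (g ^ i)⁻¹) * g⁻¹ := by
              rw [pow_succ']; group
          _ = g * (c ^ i * q) * g⁻¹ := by rw [ihi]
          _ = c ^ i * (g * q * g⁻¹) := by
              rw [← mul_assoc, ← (hcg.pow_left i).eq]; group
          _ = c ^ i * (c * q) := by rw [hcdef]; group
          _ = c ^ (i + 1) * q := by rw [← mul_assoc, pow_succ]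
    have h1 := hiter (orderOf g)
    rw [pow_orderOf_eq_one, one_mul, inv_one, mul_one] at h1
    have hc1 : c ^ orderOf g = 1 := by
      exact mul_eq_right.mp h1.symm
    have hc0 : c = 1 := by
      obtain ⟨k, hk⟩ := IsPGroup.iff_orderOf.mp hQ ⟨c, hc.1⟩
      rw [Subgroup.orderOf_mk] at hk
      exact orderOf_eq_one_iff.mp (Nat.eq_one_of_dvd_coprimes
        (hcop.symm.pow_left k) hk.dvd (orderOf_dvd_of_pow_eq_one hc1))
    rw [hcdef, mul_inv_eq_one, mul_inv_eq_iff_eq_mul] at hc0
    exact hc0.symm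
  let H : Subgroup G := Q ⊔ Subgroup.zpowers g
  have hQH : Q ≤ H := le_sup_left
  have hgH : g ∈ H := Subgroup.mem_sup_right (Subgroup.mem_zpowers g)
  let Z : Subgroup G := Subgroup.zpowers (g ^ r)
  let N : Subgroup H := (C ⊔ Z).subgroupOf H
  haveI hN : N.Normal := by
    refine (Subgroup.normal_subgroupOf_iff_le_normalizer
      (sup_le (inf_le_left.trans hQH) (Subgroup.zpowers_le.mpr (Subgroup.pow_mem _ hgH r)))).mpr ?_
    have hZ : H ≤ Subgroup.normalizer (Z : Set G) := by
      refine le_trans ?_ (Subgroup.centralizer_le_normalizer _)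
      refine Subgroup.le_centralizer_iff.mpr (Subgroup.zpowers_le.mpr ?_)
      rw [Subgroup.mem_centralizer_iff]
      intro x hx
      have : x ∈ Subgroup.centralizer ({g ^ r} : Set G) := by
        refine sup_le ?_ (Subgroup.zpowers_le.mpr ?_) hx
        · intro y hy
          exact Subgroup.mem_centralizer_singleton_iff.mpr (Subgroup.mem_centralizer_iff.mp hgr y hy)
        · exact Subgroup.mem_centralizer_singleton_iff.mpr (Commute.self_pow g r)
      exact Subgroup.mem_centralizer_singleton_iff.mp this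
    have hC : H ≤ Subgroup.normalizer (C : Set G) :=
      sup_le hQC (Subgroup.zpowers_le.mpr (Subgroup.centralizer_le_normalizer _ hgC))
    intro x hx
    rw [Subgroup.mem_normalizer_iff_conj_image_eq]
    have hc' := Subgroup.mem_normalizer_iff_conj_image_eq.mp (hC hx)
    have hz' := Subgroup.mem_normalizer_iff_conj_image_eq.mp (hZ hx)
    have e : (C ⊔ Z).map (MulAut.conj x).toMonoidHom = C ⊔ Z := by
      rw [Subgroup.map_sup]
      congr 1
      · exact SetLike.coe_injective hc'
      · exact SetLike.coe_injective hz'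
    exact congrArg SetLike.coe e
  let f : H →* H ⧸ N := QuotientGroup.mk' N
  have hmemN : ∀ x : H, f x = 1 → ∃ c ∈ C, ∃ z ∈ Z, c * z = (x : G) ∧ Commute c z := by
    intro x hx
    have hx' : (x : G) ∈ C ⊔ Z := (QuotientGroup.eq_one_iff x).mp hx
    have hCZ : Z ≤ Subgroup.centralizer (C : Set G) :=
      Subgroup.zpowers_le.mpr (Subgroup.pow_mem _ hgC r)
    rw [← SetLike.mem_coe, Subgroup.coe_mul_of_right_le_normalizer_left C Z
      (hCZ.trans (Subgroup.centralizer_le_normalizer _))] at hx'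
    obtain ⟨c, hc, z, hz, e⟩ := hx'
    exact ⟨c, hc, z, hz, e, (Subgroup.mem_centralizer_iff.mp (hCZ hz) c hc)⟩
  -- `Q` and `zpowers g` meet trivially
  have hdisj : ∀ x ∈ Q, x ∈ Subgroup.zpowers g → x = 1 := by
    intro x hx hxg
    obtain ⟨k, hk⟩ := IsPGroup.iff_orderOf.mp hQ ⟨x, hx⟩
    rw [Subgroup.orderOf_mk] at hk
    refine orderOf_eq_one_iff.mp (Nat.eq_one_of_dvd_coprimes (hcop.symm.pow_left k) hk.dvd ?_)
    rw [← Nat.card_zpowers g]
    exact Subgroup.orderOf_dvd_natCard _ hxg
  have hkerQ : ∀ q : H, (q : G) ∈ Q → f q = 1 → (q : G) ∈ C := by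
    intro q hq hfq
    obtain ⟨c, hc, z, hz, e, -⟩ := hmemN q hfq
    have hz1 : z = 1 := hdisj z (by
      have := Q.mul_mem (Q.inv_mem hc.1) hq
      rwa [← e, inv_mul_cancel_left] at this)
      (Subgroup.zpowers_le.mpr (Subgroup.pow_mem _ (Subgroup.mem_zpowers g) r) hz)
    rw [hz1, mul_one] at e
    exact e ▸ hc
  let g' : H := ⟨g, hgH⟩
  have hfg : f g' ≠ 1 := by
    intro e
    obtain ⟨c, hc, z, hz, e, -⟩ := hmemN g' e
    have hc1 : c = 1 := hdisj c hc.1 (by
      have hz' : z ∈ Subgroup.zpowers g :=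
        Subgroup.zpowers_le.mpr (Subgroup.pow_mem _ (Subgroup.mem_zpowers g) r) hz
      have := Subgroup.mul_mem _ (Subgroup.mem_zpowers g) (Subgroup.inv_mem _ hz')
      have e' : g = c * z := e.symm
      have hce : c = g * z⁻¹ := by rw [e', mul_inv_cancel_right]
      rw [hce]
      exact this)
    rw [hc1, one_mul] at e
    exact hbad (show g ∈ Subgroup.centralizer (Q : Set G) from
      Subgroup.zpowers_le.mpr hgr (e ▸ hz : (g' : G) ∈ Z))
  have hgr1 : f g' ^ r = 1 := by
    rw [← map_pow]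
    exact (QuotientGroup.eq_one_iff _).mpr (Subgroup.mem_sup_right (Subgroup.mem_zpowers _))
  have hog : orderOf (f g') = r :=
    orderOf_eq_prime hgr1 hfg
  let Q' : Subgroup (H ⧸ N) := (Q.subgroupOf H).map f
  have hQ'p : IsPGroup p Q' := (hQ.comap_subtype).map f
  haveI : Q'.Normal := Subgroup.Normal.map
    ((Subgroup.normal_subgroupOf_iff_le_normalizer hQH).mpr
      (sup_le Subgroup.le_normalizer (Subgroup.zpowers_le.mpr hg))) f
    (QuotientGroup.mk'_surjective N)
  have hfixK : ∀ v ∈ Q', Commute v (f g') → v = 1 := by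
    rintro _ ⟨q, hq, rfl⟩ hcomm
    refine (QuotientGroup.eq_one_iff q).mpr (Subgroup.mem_sup_left (hfix q hq ?_))
    have hmem : (g : G) * q * g⁻¹ * (q : G)⁻¹ ∈ Q :=
      Q.mul_mem (Subgroup.mem_normalizer_iff.mp hg q |>.mp hq) (Q.inv_mem hq)
    refine hkerQ (g' * q * g'⁻¹ * q⁻¹) hmem ?_
    rw [map_mul, map_mul, map_mul, map_inv, map_inv, ← hcomm.eq, mul_inv_cancel_right, mul_inv_cancel]
  let R : Subgroup (H ⧸ N) := Subgroup.zpowers (f g')
  have hRcard : Nat.card R = r := by rw [Nat.card_zpowers, hog]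
  have hQR : Q' ⊔ R = ⊤ := by
    refine top_le_iff.mp ?_
    rw [← MonoidHom.range_eq_top.mpr (QuotientGroup.mk'_surjective N), MonoidHom.range_eq_map,
      Subgroup.map_le_iff_le_comap]
    intro x _
    have hx := x.2
    rw [← SetLike.mem_coe, Subgroup.coe_mul_of_right_le_normalizer_left Q _
      (Subgroup.zpowers_le.mpr hg)] at hx
    obtain ⟨a, ha, b, hb, e⟩ := hx
    obtain ⟨i, rfl⟩ := Subgroup.mem_zpowers_iff.mp hb
    have : x = (⟨a, hQH ha⟩ : H) * g' ^ i := Subtype.ext e.symm
    rw [Subgroup.mem_comap, this, map_mul, map_zpow]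
    exact Subgroup.mul_mem_sup ⟨_, ha, rfl⟩ (Subgroup.zpow_mem _ (Subgroup.mem_zpowers _) i)
  obtain ⟨m, hm⟩ := IsPGroup.iff_card.mp hQ'p
  have hcard : Nat.card (H ⧸ N) = p ^ m * r := by
    have hd : R ⊓ Q' = ⊥ := by
      refine (Subgroup.disjoint_of_coprime_natCard ?_).eq_bot
      rw [hRcard, hm]
      exact ((Nat.coprime_primes hr (Fact.out : p.Prime)).mpr hrp).pow_right m
    have e := BGAppendix.card_sup_eq_mul R Q' Subgroup.le_normalizer_of_normal hd
    rw [sup_comm, hQR, Subgroup.card_top, hRcard, hm] at e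
    rw [e, mul_comm]
  have hQne : Q' ≠ ⊥ := by
    intro e
    refine hCQ (le_antisymm inf_le_left fun q hq => hkerQ ⟨q, hQH hq⟩ hq ?_)
    have hmem : f ⟨q, hQH hq⟩ ∈ Q' := ⟨_, hq, rfl⟩
    rwa [e, Subgroup.mem_bot] at hmem
  have hcore : pPrimeCore p (H ⧸ N) = ⊥ := by
    by_contra hne
    have hd : Nat.card (pPrimeCore p (H ⧸ N)) ∣ r :=
      ((Cores.card_pPrimeCore_coprime p).pow_right m).dvd_of_dvd_mul_left
        (hcard ▸ Subgroup.card_subgroup_dvd_card _)
    have hsyl : ∃ z ∈ pPrimeCore p (H ⧸ N), z ≠ 1 := by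
      by_contra h'
      push Not at h'
      exact hne ((Subgroup.eq_bot_iff_forall _).mpr h')
    obtain ⟨z, hz, hz1⟩ := hsyl
    have hdisjc : Disjoint Q' (pPrimeCore p (H ⧸ N)) := by
      refine Subgroup.disjoint_of_coprime_natCard ?_
      rw [hm]
      exact ((Cores.card_pPrimeCore_coprime p).pow_right m).symm
    have hRle : R ⊔ Q' ≤ Q' ⊔ pPrimeCore p (H ⧸ N) := by
      refine le_of_eq_of_le (sup_comm _ _) (hQR.le.trans (top_le_iff.mpr ?_))
      refine Subgroup.eq_top_of_card_eq _ (le_antisymm (Subgroup.card_le_card_group _) ?_)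
      rw [BGAppendix.card_sup_eq_mul _ _ Subgroup.le_normalizer_of_normal hdisjc.eq_bot, hcard, hm]
      refine Nat.mul_le_mul_left _ (le_of_eq ?_)
      exact (((Nat.dvd_prime hr).mp hd).resolve_left fun h => hne (Subgroup.card_eq_one.mp h)).symm
    refine hQne ((Subgroup.eq_bot_iff_forall _).mpr fun v hv => hfixK v hv ?_)
    obtain ⟨a, ha, b, hb, e⟩ := Subgroup.mem_sup_of_normal_left.mp
      (hRle (Subgroup.mem_sup_left (Subgroup.mem_zpowers (f g'))))
    have ha1 : Commute a (f g') → a = 1 := hfixK a ha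
    have hab : Commute a b :=
      Subgroup.commute_of_normal_of_disjoint _ _ inferInstance inferInstance hdisjc a b ha hb
    have : a = 1 := ha1 (e ▸ (Commute.refl a).mul_right hab)
    rw [← e, this, one_mul]
    exact Subgroup.commute_of_normal_of_disjoint _ _ inferInstance inferInstance hdisjc v b hv hb
  obtain ⟨k, hk⟩ := h H N hcore
  have hrk : r ∣ orderOf k := hk ▸ hog ▸ Monoid.order_dvd_exponent (f g')
  have hpk : p ∣ orderOf k := by
    haveI : Nontrivial Q' := (Subgroup.nontrivial_iff_ne_bot Q').mpr hQne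
    obtain ⟨v, hv⟩ := exists_prime_orderOf_dvd_card' p
      (hQ'p.card_eq_or_dvd.resolve_left fun h => hQne (Subgroup.card_eq_one.mp h))
    rw [hk, ← hv, ← Subgroup.orderOf_coe]
    exact Monoid.order_dvd_exponent _
  let u := k ^ (orderOf k / r)
  let v := k ^ (orderOf k / p)
  have hu : orderOf u = r := orderOf_pow_orderOf_div (orderOf_pos k).ne' hrk
  have hv : orderOf v = p := orderOf_pow_orderOf_div (orderOf_pos k).ne' hpk
  have huv : Commute v u := Commute.pow_pow_self k _ _
  have hnd : ∀ W : Subgroup (H ⧸ N), Nat.card W = r → ¬ r ∣ W.index := by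
    intro W hW hd
    have e := W.card_mul_index
    rw [hW, hcard, mul_comm (p ^ m)] at e
    rw [Nat.eq_of_mul_eq_mul_left hr.pos e] at hd
    exact hrp ((Nat.prime_dvd_prime_iff_eq hr Fact.out).mp (hr.dvd_of_dvd_pow hd))
  have hucard : Nat.card (Subgroup.zpowers u) = r := by rw [Nat.card_zpowers, hu]
  obtain ⟨x, hx⟩ := MulAction.exists_smul_eq (H ⧸ N)
    ((IsPGroup.of_card (n := 1) (by rw [hRcard, pow_one]) : IsPGroup r R).toSylow (hnd R hRcard))
    ((IsPGroup.of_card (n := 1) (by rw [hucard, pow_one]) :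
      IsPGroup r (Subgroup.zpowers u)).toSylow (hnd _ hucard))
  have hxu : x * f g' * x⁻¹ ∈ Subgroup.zpowers u := by
    have e : MulAut.conj x • R = Subgroup.zpowers u := congrArg Sylow.toSubgroup hx
    rw [← e]
    exact Subgroup.smul_mem_pointwise_smul _ (MulAut.conj x) R (Subgroup.mem_zpowers _)
  obtain ⟨i, hi⟩ := Subgroup.mem_zpowers_iff.mp hxu
  have hvcomm : Commute (x⁻¹ * v * x) (f g') := by
    have h1 : Commute v (x * f g' * x⁻¹) := hi ▸ huv.zpow_right i
    have := h1.eq
    show x⁻¹ * v * x * f g' = f g' * (x⁻¹ * v * x)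
    calc x⁻¹ * v * x * f g' = x⁻¹ * (v * (x * f g' * x⁻¹)) * x := by group
      _ = x⁻¹ * (x * f g' * x⁻¹ * v) * x := by rw [this]
      _ = f g' * (x⁻¹ * v * x) := by group
  have hvQ : v ∈ Q' := by
    rw [← QuotientGroup.eq_one_iff]
    refine orderOf_eq_one_iff.mp (Nat.eq_one_of_dvd_coprimes
      ((Nat.coprime_primes (Fact.out : p.Prime) hr).mpr (Ne.symm hrp))
      (hv ▸ orderOf_map_dvd (QuotientGroup.mk' Q') v) (orderOf_dvd_natCard _ |>.trans ?_))
    have e := Q'.card_mul_index
    rw [hm, hcard] at e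
    rw [← Subgroup.index, Nat.eq_of_mul_eq_mul_left (pow_pos (Fact.out : p.Prime).pos m) e]
  have := hfixK _ (by simpa using Subgroup.Normal.conj_mem inferInstance v hvQ x⁻¹) hvcomm
  have hv1 : v = 1 := by
    calc v = x * (x⁻¹ * v * x) * x⁻¹ := by group
      _ = 1 := by rw [this]; group
  rw [hv1, orderOf_one] at hv
  exact (Fact.out : p.Prime).ne_one hv.symm

/-- Let G be a finite group and p a prime. Then G has a normal p-complement if and only if every section K = H/N of G (N a normal subgroup of a subgroup H) whose largest normal subgroup of order prime to p is trivial contains an element whose order equals the exponent of K. -/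
theorem result {G : Type*} [Group G] [Finite G] (p : ℕ) [Fact p.Prime] :
    Cfsg.HasNormalPComplement p G ↔
      ∀ (H : Subgroup G) (N : Subgroup H) [N.Normal], Cfsg.pPrimeCore p (H ⧸ N) = ⊥ →
        ∃ k : H ⧸ N, orderOf k = Monoid.exponent (H ⧸ N) := by
  constructor
  · intro hc H N _ hcore
    have hKc : HasNormalPComplement p (H ⧸ N) :=
      NormalPComplement.hasNormalPComplement_quotient
        (NormalPComplement.hasNormalPComplement_subgroup hc H) N
    refine exists_orderOf_eq_exponent (p := p) ?_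
    have hq := NormalPComplement.hasNormalPComplement_iff_isPGroup_quotient.mp hKc
    exact hq.of_injective (QuotientGroup.mk' _)
      ((MonoidHom.ker_eq_bot_iff _).mp (by rw [QuotientGroup.ker_mk', hcore]))
  · intro h
    exact NormalPComplement.hasNormalPComplement_of_frobeniusCondition (frobenius_step h)

end Cfsg.Agent.S4238
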