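import Cfsg.Statements.S4240
import Cfsg.Agent.S0205
import Cfsg.Agent.Lib.OddOrderApps.InvariantNilpotent

set_option autoImplicit false
open Cfsg

namespace Cfsg.Agent.S4240

/-- Let a finite group A act by automorphisms on a finite group G of order coprime to that of A. Suppose every maximal A-invariant proper subgroup of G is nilpotent while G is not. Then G is solvable, the order of G has the form p^a·q^b for two distinct primes p and q, and G has a normal A-invariant Sylow subgroup for some prime dividing its order. -/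
theorem result {A G : Type*} [Group A] [Group G] [Finite A] [Finite G] [MulDistribMulAction A G]
    (hcop : (Nat.card A).Coprime (Nat.card G))
    (hmax : ∀ H : Subgroup G, H ≠ ⊤ → (∀ a : A, ∀ x ∈ H, a • x ∈ H) →
      (∀ K : Subgroup G, H < K → (∀ a : A, ∀ x ∈ K, a • x ∈ K) → K = ⊤) → Group.IsNilpotent H)
    (hG : ¬ Group.IsNilpotent G) :
    Group.IsSolvable G ∧
      (∃ p q a b : ℕ, p.Prime ∧ q.Prime ∧ p ≠ q ∧ Nat.card G = p ^ a * q ^ b) ∧
      ∃ (p : ℕ) (P : Sylow p G), p.Prime ∧ p ∣ Nat.card G ∧ (P : Subgroup G).Normal ∧ (∀ a : A, ∀ x ∈ (P : Subgroup G), a • x ∈ (P : Subgroup G)) := by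
  have hnil : ∀ H : Subgroup G, H ≠ ⊤ →
      CfsgLib.OddOrderApps.Inv (MulDistribMulAction.toMulAut A G) H → Group.IsNilpotent H := by
    intro H
    induction H using WellFoundedGT.induction with
    | _ H ih =>
      intro hH hinv
      by_cases h : ∀ K : Subgroup G, H < K → (∀ a : A, ∀ x ∈ K, a • x ∈ K) → K = ⊤
      · exact hmax H hH hinv h
      · simp only [not_forall] at h
        obtain ⟨K, hlt, hK, hne⟩ := h
        haveI := ih K hlt hne hK
        exact Subgroup.isNilpotent_of_ker_le_center (Subgroup.inclusion hlt.le)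
          (by rw [(MonoidHom.ker_eq_bot_iff _).2 (Subgroup.inclusion_injective _)]; exact bot_le)
  exact CfsgLib.OddOrderApps.structure_of_forall_inv_isNilpotent
    (fun _ _ _ => Cfsg.Agent.S0205.result) (fun _ _ _ => Cfsg.Agent.S0205.result)
    (MulDistribMulAction.toMulAut A G) hcop hnil hG

end Cfsg.Agent.S4240
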