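import Cfsg.Statements.S4242
import Cfsg.Agent.Lib.NormalPComplement.Frobenius
import Cfsg.Agent.Lib.CoprimeAction.Sylow
import Cfsg.Agent.Lib.SolvableStructure.MinimalNonNilpotent
import Cfsg.Agent.Lib.Subnormal.Basic
import Cfsg.Agent.Lib.Cores.Fitting
import Cfsg.Agent.Lib.BGAppendix.Basic

set_option linter.style.haveILetI false
-- import your own Cfsg.Agent.* helpers here

set_option autoImplicit false
open Cfsg

namespace Cfsg.Agent.S4242

open CfsgLib

variable {G : Type*} [Group G] [Finite G]

theorem isNilpotent_of_le {H K : Subgroup G} (h : Group.IsNilpotent K) (hle : H ≤ K) :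
    Group.IsNilpotent H := by
  haveI := h
  exact Group.nilpotent_of_mulEquiv (Subgroup.subgroupOfEquivOfLe hle)

/-- Elements of coprime orders in a nilpotent subgroup commute. -/
theorem commute_of_coprime {H : Subgroup G} (hH : Group.IsNilpotent H) {p : ℕ} [Fact p.Prime]
    {x y : G} (hx : x ∈ H) (hy : y ∈ H) {i : ℕ} (hxo : orderOf x = p ^ i)
    (hyo : (orderOf y).Coprime p) : Commute x y := by
  have hxs := @Subnormal.isSubnormal_of_isNilpotent H _ _ hH (Subgroup.zpowers ⟨x, hx⟩)
  have hys := @Subnormal.isSubnormal_of_isNilpotent H _ _ hH (Subgroup.zpowers ⟨y, hy⟩)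
  have h1 : (⟨x, hx⟩ : H) ∈ pCore p H := Cores.le_pCore_of_subnormal hxs
    (IsPGroup.of_card (n := i) (by rw [Nat.card_zpowers, Subgroup.orderOf_mk, hxo]))
    (Subgroup.mem_zpowers _)
  have h2 : (⟨y, hy⟩ : H) ∈ pPrimeCore p H := Cores.le_pPrimeCore_of_subnormal hys
    (by rw [Nat.card_zpowers, Subgroup.orderOf_mk]; exact hyo) (Subgroup.mem_zpowers _)
  have hd : Disjoint (pCore p H) (pPrimeCore p H) := by
    refine Subgroup.disjoint_of_coprime_natCard ?_
    obtain ⟨j, hj⟩ := IsPGroup.iff_card.mp (Cores.isPGroup_pCore p H)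
    rw [hj]
    exact ((Cores.card_pPrimeCore_coprime p).pow_right j).symm
  exact congrArg Subtype.val
    (Subgroup.commute_of_normal_of_disjoint _ _ inferInstance inferInstance hd _ _ h1 h2).eq

/-- No maximal subgroup of order prime to `p` is non-nilpotent when the `p`-core is trivial. -/
theorem false_of_pCore_eq_bot {p : ℕ} [Fact p.Prime] (hpG : p ∣ Nat.card G)
    (hprop : ∀ H : Subgroup G, H ≠ ⊤ → p ∣ Nat.card H → Group.IsNilpotent H)
    (hO : pCore p G = ⊥) {M : Subgroup G} (hM : IsCoatom M) (hMn : ¬ Group.IsNilpotent M)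
    (hpM : ¬ p ∣ Nat.card M) : False := by
  have hc : HasNormalPComplement p G := by
    refine NormalPComplement.hasNormalPComplement_of_frobeniusCondition fun Q hQ g hg hcop => ?_
    by_cases hQb : Q = ⊥
    · subst hQb
      simp [Subgroup.mem_centralizer_iff]
    have hN : Subgroup.normalizer (Q : Set G) ≠ ⊤ := by
      intro h
      haveI := Subgroup.normalizer_eq_top_iff.mp h
      exact hQb (le_bot_iff.mp (hO ▸ Cores.le_pCore hQ))
    have hnil := hprop _ hN ((hQ.card_eq_or_dvd.resolve_left
      fun h => hQb (Subgroup.card_eq_one.mp h)).trans (Subgroup.card_dvd_of_le Subgroup.le_normalizer))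
    rw [Subgroup.mem_centralizer_iff]
    intro x hx
    obtain ⟨k, hk⟩ := IsPGroup.iff_orderOf.mp hQ ⟨x, hx⟩
    rw [Subgroup.orderOf_mk] at hk
    exact commute_of_coprime hnil (Subgroup.le_normalizer hx) hg hk hcop
  let K := pPrimeCore p G
  have hMK : M ≤ K := fun x hx => NormalPComplement.mem_pPrimeCore_of_coprime hc
    ((Nat.Prime.coprime_iff_not_dvd Fact.out).mpr fun h =>
      hpM (h.trans (Subgroup.orderOf_dvd_natCard M hx))).symm
  have hKcop : (Nat.card K).Coprime p := Cores.card_pPrimeCore_coprime p
  have hK : K = M := by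
    rcases hM.le_iff.mp hMK with h | h
    · refine absurd hpG ((Nat.Prime.coprime_iff_not_dvd Fact.out).mp ?_)
      have := hKcop.symm
      rwa [h, Subgroup.card_top] at this
    · exact h
  obtain ⟨P⟩ := (inferInstance : Nonempty (Sylow p G))
  obtain ⟨n, hn⟩ := IsPGroup.iff_card.mp P.2
  have hPK : (Nat.card (P : Subgroup G)).Coprime (Nat.card K) := by
    rw [hn]; exact hKcop.symm.pow_left n
  have hKC : K ≤ Subgroup.centralizer ((P : Subgroup G) : Set G) := by
    rw [← Subgroup.subgroupOf_eq_top, ← Subgroup.index_eq_one]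
    by_contra hne
    obtain ⟨r, hr, hrd⟩ := Nat.exists_prime_and_dvd hne
    haveI : Fact r.Prime := ⟨hr⟩
    obtain ⟨R, hR⟩ := CoprimeAction.exists_invariant_sylow (A := (P : Subgroup G)) (K := K)
      Subgroup.le_normalizer_of_normal hPK
      (Or.inl (by haveI := P.isPGroup'.isNilpotent; infer_instance)) r
    let R' : Subgroup G := (R : Subgroup K).map K.subtype
    have hRle : (R : Subgroup K) ≤ (Subgroup.centralizer ((P : Subgroup G) : Set G)).subgroupOf K := by
      by_cases htop : (P : Subgroup G) ⊔ R' = ⊤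
      · -- then `K` is an `r`-group, hence nilpotent
        exfalso
        haveI : R'.Normal := Subgroup.normalizer_eq_top_iff.mp
          (top_le_iff.mp (htop.ge.trans (sup_le hR Subgroup.le_normalizer)))
        have hKR : K ≤ R' := by
          intro x hx
          obtain ⟨a, ha, b, hb, rfl⟩ := Subgroup.mem_sup_of_normal_right.mp (htop.ge (Subgroup.mem_top x))
          have hbK : b ∈ K := Subgroup.map_subtype_le _ hb
          have haK : a ∈ K := by
            have := K.mul_mem hx (K.inv_mem hbK)
            rwa [mul_inv_cancel_right] at this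
          have : a = 1 := by
            have h := Subgroup.disjoint_of_coprime_natCard hPK
            exact (Subgroup.disjoint_def.mp h) ha haK
          rw [this, one_mul]
          exact hb
        refine hMn (isNilpotent_of_le (K := R') ?_ (hK ▸ hKR))
        exact (R.isPGroup'.map K.subtype).isNilpotent
      · intro x hx
        rw [Subgroup.mem_subgroupOf, Subgroup.mem_centralizer_iff]
        intro y hy
        have hnil := hprop _ htop ((P.dvd_card_of_dvd_card hpG).trans
          (Subgroup.card_dvd_of_le le_sup_left))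
        obtain ⟨k, hk⟩ := IsPGroup.iff_orderOf.mp P.2 ⟨y, hy⟩
        rw [Subgroup.orderOf_mk] at hk
        refine commute_of_coprime hnil (Subgroup.mem_sup_left hy)
          (Subgroup.mem_sup_right ⟨x, hx, rfl⟩) hk ?_
        exact hKcop.coprime_dvd_left (Subgroup.orderOf_dvd_natCard K x.2)
    exact R.not_dvd_index (hrd.trans (Subgroup.index_dvd_of_le hRle))
  have hPn : (P : Subgroup G).Normal := by
    rw [← Subgroup.normalizer_eq_top_iff, ← top_le_iff, ← NormalPComplement.pPrimeCore_sup_sylow hc P]
    exact sup_le (hKC.trans (Subgroup.centralizer_le_normalizer _)) Subgroup.le_normalizer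
  exact P.ne_bot_of_dvd_card hpG (le_bot_iff.mp (hO ▸ Cores.le_pCore P.2))

/-- Let G be a finite group and p a prime dividing its order. Every maximal subgroup of G of order divisible by p is nilpotent if and only if G is nilpotent, or G is a minimal non-nilpotent group, or G is the internal direct product of a normal subgroup of order p and a normal minimal non-nilpotent subgroup of order prime to p. -/
theorem result {G : Type*} [Group G] [Finite G] (p : ℕ) (hp : p.Prime) (hpG : p ∣ Nat.card G) :
    (∀ M : Subgroup G, IsCoatom M → p ∣ Nat.card M → Group.IsNilpotent M) ↔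
      (Group.IsNilpotent G ∨ Cfsg.IsMinimalNonNilpotent G ∨
        ∃ Z K : Subgroup G, Z.Normal ∧ K.Normal ∧ Z ⊓ K = ⊥ ∧ Z ⊔ K = ⊤ ∧ Nat.card Z = p ∧
          Cfsg.IsMinimalNonNilpotent K ∧ ¬ p ∣ Nat.card K) := by
  haveI : Fact p.Prime := ⟨hp⟩
  constructor
  · intro h
    have hprop : ∀ H : Subgroup G, H ≠ ⊤ → p ∣ Nat.card H → Group.IsNilpotent H := by
      intro H hH hpH
      obtain ⟨M, hM, hHM⟩ := (eq_top_or_exists_le_coatom H).resolve_left hH
      exact isNilpotent_of_le (h M hM (hpH.trans (Subgroup.card_dvd_of_le hHM))) hHM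
    by_cases hnil : Group.IsNilpotent G
    · exact Or.inl hnil
    by_cases hall : ∀ H : Subgroup G, H ≠ ⊤ → Group.IsNilpotent H
    · exact Or.inr (Or.inl ⟨hnil, hall⟩)
    push Not at hall
    obtain ⟨H, hH, hHn⟩ := hall
    obtain ⟨M, hM, hHM⟩ := (eq_top_or_exists_le_coatom H).resolve_left hH
    have hMn : ¬ Group.IsNilpotent M := fun h => hHn (isNilpotent_of_le h hHM)
    have hpM : ¬ p ∣ Nat.card M := fun hd => hMn (h M hM hd)
    have hcopM : ∀ x ∈ M, (orderOf x).Coprime p := fun x hx =>
      ((Nat.Prime.coprime_iff_not_dvd hp).mpr fun h =>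
        hpM (h.trans (Subgroup.orderOf_dvd_natCard M hx))).symm
    by_cases hO : pCore p G = ⊥
    · exact (false_of_pCore_eq_bot hpG hprop hO hM hMn hpM).elim
    let U := pCore p G
    obtain ⟨n, hn⟩ := IsPGroup.iff_card.mp (Cores.isPGroup_pCore p G)
    have hdisj : ∀ V : Subgroup G, IsPGroup p V → ∀ H ≤ M, V ⊓ H = ⊥ := by
      intro V hV H hH
      refine (Subgroup.disjoint_of_coprime_natCard ?_).eq_bot
      obtain ⟨j, hj⟩ := IsPGroup.iff_card.mp hV
      rw [hj]
      exact ((Nat.Prime.coprime_iff_not_dvd hp).mpr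
        fun hd => hpM (hd.trans (Subgroup.card_dvd_of_le hH))).pow_left j
    have hUM : ¬ U ≤ M := fun hle => hO (le_bot_iff.mp
      ((le_inf le_rfl hle).trans (hdisj U (Cores.isPGroup_pCore p G) M le_rfl).le))
    have htop : M ⊔ U = ⊤ := hM.2 _ (lt_of_le_of_ne le_sup_left fun e => hUM (e ▸ le_sup_right))
    have hpU : p ∣ Nat.card U :=
      (Cores.isPGroup_pCore p G).card_eq_or_dvd.resolve_left fun h => hO (Subgroup.card_eq_one.mp h)
    have hGcard : Nat.card G = Nat.card M * Nat.card U := by
      rw [← BGAppendix.card_sup_eq_mul M U Subgroup.le_normalizer_of_normal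
        (by rw [inf_comm]; exact hdisj U (Cores.isPGroup_pCore p G) M le_rfl), htop, Subgroup.card_top]
    -- every proper subgroup of `M` centralises `U`
    have hsub : ∀ H : Subgroup G, H < M → Group.IsNilpotent H ∧
        H ≤ Subgroup.centralizer (U : Set G) := by
      intro H hH
      have hcard : Nat.card (H ⊔ U : Subgroup G) = Nat.card H * Nat.card U :=
        BGAppendix.card_sup_eq_mul H U Subgroup.le_normalizer_of_normal
          (by rw [inf_comm]; exact hdisj U (Cores.isPGroup_pCore p G) H hH.le)
      have hne : H ⊔ U ≠ ⊤ := by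
        intro e
        rw [e, Subgroup.card_top, hGcard] at hcard
        have := Nat.eq_of_mul_eq_mul_right Nat.card_pos hcard
        exact hH.ne (Subgroup.eq_of_le_of_card_ge hH.le this.le)
      have hnil := hprop _ hne (hpU.trans (Subgroup.card_dvd_of_le le_sup_right))
      refine ⟨isNilpotent_of_le hnil le_sup_left, fun x hx => ?_⟩
      rw [Subgroup.mem_centralizer_iff]
      intro y hy
      obtain ⟨k, hk⟩ := IsPGroup.iff_orderOf.mp (Cores.isPGroup_pCore p G) ⟨y, hy⟩
      rw [Subgroup.orderOf_mk] at hk
      exact commute_of_coprime hnil (Subgroup.mem_sup_right hy) (Subgroup.mem_sup_left hx) hk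
        (hcopM x (hH.le hx))
    have hMC : M ≤ Subgroup.centralizer (U : Set G) := by
      intro x hx
      refine (hsub (Subgroup.zpowers x) (lt_of_le_of_ne (Subgroup.zpowers_le.mpr hx) fun e => hMn ?_)).2
        (Subgroup.mem_zpowers x)
      rw [← e]
      letI := IsCyclic.commGroup (α := Subgroup.zpowers x)
      infer_instance
    obtain ⟨u, hu⟩ := exists_prime_orderOf_dvd_card' p hpU
    let V := Subgroup.zpowers (u : G)
    have hVcard : Nat.card V = p := by rw [Nat.card_zpowers, Subgroup.orderOf_coe, hu]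
    have hVU : V ≤ U := Subgroup.zpowers_le.mpr u.2
    have hMV : M ≤ Subgroup.normalizer (V : Set G) :=
      (hMC.trans (Subgroup.centralizer_le hVU)).trans (Subgroup.centralizer_le_normalizer _)
    have hVM : V ⊓ M = ⊥ := hdisj V ((Cores.isPGroup_pCore p G).to_le hVU) M le_rfl
    have htopV : M ⊔ V = ⊤ := by
      refine hM.2 _ (lt_of_le_of_ne le_sup_left fun e => ?_)
      have : V ≤ M := e ▸ le_sup_right
      rw [inf_eq_left.mpr this] at hVM
      rw [hVM, Subgroup.card_bot] at hVcard
      exact hp.ne_one hVcard.symm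
    have hUp : Nat.card U = p := by
      have h := BGAppendix.card_sup_eq_mul M V hMV (by rw [inf_comm]; exact hVM)
      rw [htopV, Subgroup.card_top, hGcard, hVcard] at h
      exact Nat.eq_of_mul_eq_mul_left Nat.card_pos h
    refine Or.inr (Or.inr ⟨U, M, inferInstance, ?_, hdisj U (Cores.isPGroup_pCore p G) M le_rfl,
      by rw [sup_comm]; exact htop, hUp, ⟨hMn, fun H hH => ?_⟩, hpM⟩)
    · rw [← Subgroup.normalizer_eq_top_iff, ← top_le_iff, ← htop]
      exact sup_le Subgroup.le_normalizer
        ((Subgroup.le_centralizer_iff.mp hMC).trans (Subgroup.centralizer_le_normalizer _))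
    · have hlt : H.map M.subtype < M := lt_of_le_of_ne (Subgroup.map_subtype_le H) fun e => hH
        (Subgroup.map_injective M.subtype_injective (e.trans (by
          rw [← MonoidHom.range_eq_map, Subgroup.range_subtype])))
      haveI := (hsub _ hlt).1
      exact Group.nilpotent_of_mulEquiv (H.equivMapOfInjective _ M.subtype_injective).symm
  · rintro (h | ⟨-, h⟩ | ⟨Z, K, hZn, hKn, hd, hs, hZ, ⟨hKnn, hK⟩, hpK⟩) M hM hpM
    · exact Subgroup.isNilpotent M
    · exact h M hM.1
    · have hZM : Z ≤ M := by
        obtain ⟨z, hz⟩ := exists_prime_orderOf_dvd_card' p hpM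
        have hzZ : (z : G) ∈ Z := by
          obtain ⟨a, ha, b, hb, hab⟩ := Subgroup.mem_sup_of_normal_right.mp (hs.ge (Subgroup.mem_top (z : G)))
          have hc : Commute a b :=
            Subgroup.commute_of_normal_of_disjoint Z K hZn hKn (disjoint_iff.mpr hd) a b ha hb
          have hb1 : b ^ p = 1 := by
            have h1 : (z : G) ^ p = 1 := by
              rw [← SubgroupClass.coe_pow, ← hz, pow_orderOf_eq_one, OneMemClass.coe_one]
            have h2 : a ^ p = 1 := by
              rw [← hZ]
              exact congrArg Subtype.val (pow_card_eq_one' (x := (⟨a, ha⟩ : Z)))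
            rwa [← hab, hc.mul_pow, h2, one_mul] at h1
          have : b = 1 := by
            rw [← orderOf_eq_one_iff]
            refine ((Nat.dvd_prime hp).mp (orderOf_dvd_of_pow_eq_one hb1)).resolve_right fun e => hpK ?_
            exact e ▸ Subgroup.orderOf_dvd_natCard K hb
          rw [← hab, this, mul_one]
          exact ha
        have hzp : Subgroup.zpowers (z : G) = Z := Subgroup.eq_of_le_of_card_ge
          (Subgroup.zpowers_le.mpr hzZ) (by rw [hZ, Nat.card_zpowers, Subgroup.orderOf_coe, hz])
        rw [← hzp]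
        exact Subgroup.zpowers_le.mpr z.2
      have hdec : M = Z ⊔ (M ⊓ K) := by
        refine le_antisymm (fun x hx => ?_) (sup_le hZM inf_le_left)
        obtain ⟨a, ha, b, hb, rfl⟩ := Subgroup.mem_sup_of_normal_right.mp (hs.ge (Subgroup.mem_top x))
        have hbM : b ∈ M := by
          have := M.mul_mem (M.inv_mem (hZM ha)) hx
          rwa [inv_mul_cancel_left] at this
        exact Subgroup.mul_mem_sup ha ⟨hbM, hb⟩
      have hne : ¬ K ≤ M := fun hle => hM.1 (top_le_iff.mp (hs.ge.trans (sup_le hZM hle)))
      have hMK : Group.IsNilpotent ((M ⊓ K).subgroupOf M) := by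
        haveI : Group.IsNilpotent ((M ⊓ K : Subgroup G)) := by
          haveI := hK ((M ⊓ K).subgroupOf K) fun e =>
            hne ((Subgroup.subgroupOf_eq_top.mp e).trans inf_le_left)
          exact Group.nilpotent_of_mulEquiv (Subgroup.subgroupOfEquivOfLe (inf_le_right : M ⊓ K ≤ K))
        exact Group.nilpotent_of_mulEquiv (Subgroup.subgroupOfEquivOfLe (inf_le_left : M ⊓ K ≤ M)).symm
      have hZ' : Group.IsNilpotent (Z.subgroupOf M) := by
        haveI := (IsPGroup.of_card (n := 1) (by rw [hZ, pow_one]) : IsPGroup p Z).isNilpotent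
        exact Group.nilpotent_of_mulEquiv (Subgroup.subgroupOfEquivOfLe hZM).symm
      haveI : (M ⊓ K).subgroupOf M |>.Normal := by
        rw [Subgroup.inf_subgroupOf_left]
        exact Subgroup.normal_subgroupOf
      have := Cores.isNilpotent_sup_of_normal (N := Z.subgroupOf M) (M := (M ⊓ K).subgroupOf M) hZ' hMK
      rw [← Subgroup.subgroupOf_sup hZM inf_le_left, ← hdec, Subgroup.subgroupOf_self] at this
      exact Group.nilpotent_of_mulEquiv Subgroup.topEquiv

end Cfsg.Agent.S4242
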