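import Cfsg.Statements.S4244
-- import your own Cfsg.Agent.* helpers here

set_option autoImplicit false
open Cfsg

namespace Cfsg.Agent.S4244

theorem relIndex_sup_of_normal_right {G : Type*} [Group G] [Finite G] (A N : Subgroup G) [N.Normal] :
    A.relIndex (A ⊔ N) = A.relIndex N := by
  have e1 := Subgroup.relIndex_mul_relIndex (A ⊓ N) A (A ⊔ N) inf_le_left le_sup_left
  have e2 := Subgroup.relIndex_mul_relIndex (A ⊓ N) N (A ⊔ N) inf_le_right le_sup_right
  rw [Subgroup.relIndex_sup_right, Subgroup.inf_relIndex_right] at e2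
  rw [Subgroup.inf_relIndex_left] at e1
  rw [mul_comm (A.relIndex N)] at e2
  have h0 : N.relIndex A ≠ 0 := fun h => absurd (Subgroup.relIndex_dvd_card (H := N) (K := A)) (by
    rw [h, zero_dvd_iff]; exact Nat.card_pos.ne')
  exact Nat.eq_of_mul_eq_mul_left (Nat.pos_of_ne_zero h0) (e1.trans e2.symm)

/-- Let H be a subnormal subgroup of a finite group G. Then for every subgroup K of G the index of H ∩ K in H divides the index of K in G. -/
theorem result {G : Type*} [Group G] [Finite G] (H : Subgroup G) (hH : H.IsSubnormal) (K : Subgroup G) :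
    (H ⊓ K).relIndex H ∣ K.index := by
  induction hH generalizing K with
  | top => simp
  | step H L h_le hSubn hN ih =>
    refine dvd_trans ?_ (ih K)
    rw [Subgroup.inf_relIndex_left, Subgroup.inf_relIndex_left]
    have h1 : K.relIndex H = (K.subgroupOf L).relIndex (H.subgroupOf L) :=
      (Subgroup.relIndex_subgroupOf h_le).symm
    rw [h1]
    change _ ∣ (K.subgroupOf L).index
    calc (K.subgroupOf L).relIndex (H.subgroupOf L)
        = (K.subgroupOf L).relIndex (K.subgroupOf L ⊔ H.subgroupOf L) :=
          (relIndex_sup_of_normal_right (K.subgroupOf L) (H.subgroupOf L)).symm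
      _ ∣ (K.subgroupOf L).index := Subgroup.relIndex_dvd_index_of_le le_sup_left

end Cfsg.Agent.S4244
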