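import Cfsg.Statements.S4245
import Cfsg.Agent.Lib.CharTheory.Burnside
import Cfsg.Agent.Lib.BGAppendix.Basic

set_option autoImplicit false
set_option linter.style.haveILetI false
open Cfsg

namespace Cfsg.Agent.S4245

/-- A normal cyclic subgroup with cyclic quotient of `2`-power order. -/
def HasCyclicSection (A : Type*) [Group A] : Prop :=
  ∃ (N : Subgroup A) (_ : N.Normal), IsCyclic N ∧ IsCyclic (A ⧸ N) ∧ ∃ r : ℕ, Nat.card (A ⧸ N) = 2 ^ r

theorem HasCyclicSection.of_injective {A A' : Type*} [Group A] [Group A'] [Finite A]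
    (h : HasCyclicSection A) (f : A' →* A) (hf : Function.Injective f) : HasCyclicSection A' := by
  obtain ⟨N, hN, hc, hq, r, hr⟩ := h
  haveI := hN
  haveI := hc
  haveI := hq
  let g : A' ⧸ N.comap f →* A ⧸ N := QuotientGroup.map _ _ f le_rfl
  have hg : Function.Injective g := by
    rw [injective_iff_map_eq_one]
    intro x hx
    induction x using QuotientGroup.induction_on with
    | H a => exact (QuotientGroup.eq_one_iff a).mpr ((QuotientGroup.eq_one_iff (f a)).mp hx)
  let i : N.comap f →* N := (f.comp (N.comap f).subtype).codRestrict N fun x => x.2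
  have hi : Function.Injective i := fun x y hxy => Subtype.ext (hf (congrArg Subtype.val hxy))
  refine ⟨N.comap f, inferInstance, isCyclic_of_injective i hi, isCyclic_of_injective g hg, ?_⟩
  have hd := Subgroup.card_dvd_of_injective g hg
  rw [hr] at hd
  obtain ⟨j, -, hj⟩ := (Nat.dvd_prime_pow Nat.prime_two).mp hd
  exact ⟨j, hj⟩

theorem HasCyclicSection.of_surjective {A A' : Type*} [Group A] [Group A'] [Finite A]
    (h : HasCyclicSection A) (f : A →* A') (hf : Function.Surjective f) : HasCyclicSection A' := by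
  obtain ⟨N, hN, hc, hq, r, hr⟩ := h
  haveI := hN
  haveI := hc
  haveI := hq
  haveI : (N.map f).Normal := hN.map f hf
  let g : A ⧸ N →* A' ⧸ N.map f := QuotientGroup.map _ _ f (Subgroup.le_comap_map f N)
  have hg : Function.Surjective g := by
    intro y
    induction y using QuotientGroup.induction_on with
    | H y =>
      obtain ⟨x, rfl⟩ := hf y
      exact ⟨(x : A ⧸ N), rfl⟩
  refine ⟨N.map f, inferInstance,
    isCyclic_of_surjective (f.subgroupMap N) (f.subgroupMap_surjective N),
    isCyclic_of_surjective g hg, ?_⟩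
  have hd := Subgroup.card_dvd_of_surjective g hg
  rw [hr] at hd
  obtain ⟨j, -, hj⟩ := (Nat.dvd_prime_pow Nat.prime_two).mp hd
  exact ⟨j, hj⟩

theorem prime_power_of_dvd {p s m : ℕ} (hp : p.Prime) (h : m ∣ p ^ s) : ∃ k, m = p ^ k := by
  obtain ⟨k, -, hk⟩ := (Nat.dvd_prime_pow hp).mp h
  exact ⟨k, hk⟩

theorem isSolvable_aux.{v} {G : Type v} [Group G] [Finite G] (A : Subgroup G) (p : ℕ) (hp : p.Prime)
    (hA : ∃ s, A.index = p ^ s) (hsec : HasCyclicSection A) : Group.IsSolvable G := by
  induction hn : Nat.card G using Nat.strong_induction_on generalizing G with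
  | _ n ih =>
  subst hn
  obtain ⟨s, hs⟩ := hA
  by_cases hN : ∃ N : Subgroup G, N.Normal ∧ N ≠ ⊥ ∧ N ≠ ⊤
  · obtain ⟨N, hNn, hNb, hNt⟩ := hN
    haveI := hNn
    have h1 : Group.IsSolvable N := by
      refine ih _ ?_ (A.subgroupOf N) ?_ ?_ rfl
      · refine lt_of_le_of_ne (Subgroup.card_le_card_group N) fun e => hNt ?_
        exact Subgroup.eq_top_of_card_eq _ e
      · refine prime_power_of_dvd hp (m := (A.subgroupOf N).index) (s := s) ?_
        rw [← hs]
        show A.relIndex N ∣ A.index
        have e1 := Subgroup.relIndex_mul_relIndex (A ⊓ N) A (A ⊔ N) inf_le_left le_sup_left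
        have e2 := Subgroup.relIndex_mul_relIndex (A ⊓ N) N (A ⊔ N) inf_le_right le_sup_right
        rw [Subgroup.relIndex_sup_right, Subgroup.inf_relIndex_right] at e2
        rw [Subgroup.inf_relIndex_left] at e1
        rw [mul_comm (A.relIndex N)] at e2
        have h0 : N.relIndex A ≠ 0 := fun h => absurd (Subgroup.relIndex_dvd_card (H := N) (K := A)) (by
          rw [h, zero_dvd_iff]; exact Nat.card_pos.ne')
        have h4 : A.relIndex (A ⊔ N) = A.relIndex N :=
          Nat.eq_of_mul_eq_mul_left (Nat.pos_of_ne_zero h0) (e1.trans e2.symm)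
        exact h4 ▸ Subgroup.relIndex_dvd_index_of_le le_sup_left
      · exact hsec.of_injective
          ((N.subtype.comp (A.subgroupOf N).subtype).codRestrict A fun x => x.2)
          fun x y hxy => Subtype.ext (Subtype.ext (show ((x : N) : G) = ((y : N) : G) from congrArg (Subtype.val (p := (· ∈ A))) hxy))
    have h2 : Group.IsSolvable (G ⧸ N) := by
      refine ih _ ?_ (A.map (QuotientGroup.mk' N)) ?_ ?_ rfl
      · rw [← Subgroup.index, ← N.card_mul_index]
        exact lt_mul_of_one_lt_left (Nat.pos_of_ne_zero Subgroup.index_ne_zero_of_finite)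
          ((Subgroup.one_lt_card_iff_ne_bot N).mpr hNb)
      · have hd : (A.map (QuotientGroup.mk' N)).index ∣ A.index :=
          Subgroup.index_map_dvd A (QuotientGroup.mk'_surjective N)
        exact prime_power_of_dvd hp (hd.trans hs.dvd)
      · exact hsec.of_surjective _ ((QuotientGroup.mk' N).subgroupMap_surjective A)
    haveI := h1
    haveI := h2
    exact Group.isSolvable_of_ker_le_range N.subtype (QuotientGroup.mk' N) (by simp)
  push Not at hN
  rcases subsingleton_or_nontrivial G with hsub | hnt
  · exact Group.isSolvable_of_comm fun a b => Subsingleton.elim _ _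
  haveI : IsSimpleGroup G := ⟨fun N hn => (em (N = ⊥)).imp id fun h => hN N hn h⟩
  by_contra hns
  have hnotprime : ¬ (Nat.card G).Prime := fun h => hns (by
    haveI : Fact (Nat.card G).Prime := ⟨h⟩
    haveI := isCyclic_of_prime_card (α := G) rfl
    exact Group.isSolvable_of_comm fun a b => (IsCyclic.commGroup (α := G)).mul_comm a b)
  have hclass : ∀ g : G, g ≠ 1 → ∀ q j k : ℕ, q.Prime → (Subgroup.centralizer ({g} : Set G)).index ∣ q ^ j →
      k = j → False := by
    intro g hg q j k hq hd _
    obtain ⟨i, hi⟩ := prime_power_of_dvd hq hd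
    exact hnotprime (CfsgLib.CharTheory.prime_card_of_index_centralizer_pow q i hq g hg hi)
  obtain ⟨B, hB, hBc, hBq, r, hr⟩ := hsec
  haveI := hB
  haveI := hBc
  haveI := hBq
  -- no element of `A` is central in `A`
  have hZ : ∀ a : A, (∀ x : A, x * a = a * x) → a = 1 := by
    intro a ha
    by_contra h1
    refine hclass (a : G) (fun e => h1 (Subtype.ext e)) p s s hp (hs ▸ Subgroup.index_dvd_of_le ?_) rfl
    intro x hx
    rw [Subgroup.mem_centralizer_singleton_iff]
    exact congrArg Subtype.val (ha ⟨x, hx⟩)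
  have hAcard : Nat.card A = Nat.card B * 2 ^ r := by
    rw [← hr, ← B.card_mul_index]; rfl
  have hGcard : Nat.card G = Nat.card B * (2 ^ r * p ^ s) := by
    rw [← A.card_mul_index, hAcard, hs, mul_assoc]
  by_cases hp2 : p = 2
  · subst hp2
    have hB1 : ∀ q : ℕ, q.Prime → q ∣ Nat.card B → q = 2 := by
      intro q hq hqB
      by_contra hq2
      haveI : Fact q.Prime := ⟨hq⟩
      obtain ⟨b, hb⟩ := exists_prime_orderOf_dvd_card' q hqB
      have hb1 : ((b : A) : G) ≠ 1 := fun e => by
        rw [← orderOf_eq_one_iff, Subgroup.orderOf_coe, Subgroup.orderOf_coe, hb] at e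
        exact hq.ne_one e
      refine hclass _ hb1 2 (r + s) (r + s) Nat.prime_two ?_ rfl
      have h1 : B.map A.subtype ≤ Subgroup.centralizer ({((b : A) : G)} : Set G) := by
        rintro _ ⟨y, hy, rfl⟩
        rw [Subgroup.mem_centralizer_singleton_iff]
        have := (IsCyclic.commGroup (α := B)).mul_comm ⟨y, hy⟩ b
        exact congrArg (fun z : B => ((z : A) : G)) this
      refine (Subgroup.index_dvd_of_le h1).trans ?_
      rw [Subgroup.index_map_subtype, pow_add, hs]
      exact mul_dvd_mul_right (dvd_of_eq hr) _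
    obtain ⟨j, hj⟩ : ∃ j, Nat.card B = 2 ^ j :=
      ⟨_, Nat.eq_prime_pow_of_unique_prime_dvd Nat.card_pos.ne' (fun {q} hq hd => hB1 q hq hd)⟩
    haveI : Fact (Nat.Prime 2) := ⟨Nat.prime_two⟩
    haveI := (IsPGroup.of_card (n := j + (r + s)) (by
      rw [hGcard, hj, pow_add, pow_add]) : IsPGroup 2 G).isNilpotent
    exact hns inferInstance
  · -- `B` has odd order
    haveI : Fact (Nat.Prime 2) := ⟨Nat.prime_two⟩
    have hBodd : ¬ 2 ∣ Nat.card B := by
      intro h2
      obtain ⟨z, hz⟩ := exists_prime_orderOf_dvd_card' 2 h2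
      have hzA : (z : A) = 1 := hZ _ fun x => by
        have hx : x * (z : A) * x⁻¹ ∈ B := hB.conj_mem _ z.2 x
        let w : B := ⟨_, hx⟩
        have hw : orderOf w = 2 := by
          rw [← Subgroup.orderOf_coe]
          show orderOf (x * (z : A) * x⁻¹) = 2
          exact ((MulEquiv.orderOf_eq (MulAut.conj x) (z : A)).trans (Subgroup.orderOf_coe z)).trans hz
        have hwz : w = z := by
          have hmem : w ∈ Subgroup.zpowers z := by
            rw [CfsgLib.BGAppendix.eq_of_card_eq_of_le_cyclic ⊤ (Subgroup.zpowers z) (Subgroup.zpowers w)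
              (Subgroup.topEquiv.isCyclic.mpr hBc) le_top le_top
              (by rw [Nat.card_zpowers, Nat.card_zpowers, hz, hw])]
            exact Subgroup.mem_zpowers w
          obtain ⟨i, hi⟩ := Subgroup.mem_zpowers_iff.mp hmem
          rcases Int.even_or_odd i with ⟨j, rfl⟩ | ⟨j, rfl⟩
          · exfalso
            rw [← two_mul, zpow_mul, show z ^ (2 : ℤ) = 1 by
              rw [zpow_ofNat, ← hz, pow_orderOf_eq_one], one_zpow] at hi
            rw [← hi, orderOf_one] at hw
            omega
          · rw [zpow_add, zpow_mul, show z ^ (2 : ℤ) = 1 by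
              rw [zpow_ofNat, ← hz, pow_orderOf_eq_one], one_zpow, one_mul, zpow_one] at hi
            exact hi.symm
        have := congrArg Subtype.val hwz
        exact mul_inv_eq_iff_eq_mul.mp this
      rw [← Subgroup.orderOf_coe, hzA, orderOf_one] at hz
      omega
    let T : Sylow 2 A := default
    have hTinj : Function.Injective ((QuotientGroup.mk' B).comp (T : Subgroup A).subtype) := by
      rw [injective_iff_map_eq_one]
      intro x hx
      have hxB : (x : A) ∈ B := (QuotientGroup.eq_one_iff _).mp hx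
      obtain ⟨k, hk⟩ := T.isPGroup' x
      have h1 : orderOf (x : A) ∣ 2 ^ k := orderOf_dvd_of_pow_eq_one (by
        rw [← SubgroupClass.coe_pow, hk, OneMemClass.coe_one])
      have h3 : orderOf (x : A) ∣ Nat.card B := by
        rw [show orderOf (x : A) = orderOf (⟨(x : A), hxB⟩ : B) from (Subgroup.orderOf_mk _ _).symm]
        exact orderOf_dvd_natCard _
      exact Subtype.ext (orderOf_eq_one_iff.mp (Nat.eq_one_of_dvd_coprimes
        (((Nat.Prime.coprime_iff_not_dvd Nat.prime_two).mpr hBodd).pow_left k) h1 h3))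
    haveI : IsCyclic (T : Subgroup A) := isCyclic_of_injective _ hTinj
    -- the image of `T` is a Sylow subgroup of `G`
    let T' : Subgroup G := (T : Subgroup A).map A.subtype
    have hT' : IsPGroup 2 T' := T.isPGroup'.map A.subtype
    have hT'idx : ¬ 2 ∣ T'.index := by
      rw [Subgroup.index_map_subtype, hs]
      exact fun h => (Nat.prime_two.dvd_mul.mp h).elim T.not_dvd_index
        fun h => hp2 ((Nat.prime_dvd_prime_iff_eq Nat.prime_two hp).mp (Nat.prime_two.dvd_of_dvd_pow h)).symm
    let TS : Sylow 2 G := hT'.toSylow hT'idx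
    haveI : IsCyclic (TS : Subgroup G) :=
      isCyclic_of_surjective (A.subtype.subgroupMap (T : Subgroup A)) (A.subtype.subgroupMap_surjective _)
    by_cases h2 : 2 ∣ Nat.card G
    · have hmin : (Nat.card G).minFac = 2 := (Nat.minFac_eq_two_iff _).mpr h2
      have hcy : IsCyclic (TS : Subgroup G) := inferInstance
      have hc := IsCyclic.isComplement' hmin hcy
      rcases (inferInstance : (MonoidHom.transferSylow TS (IsCyclic.normalizer_le_centralizer hmin hcy)).ker.Normal).eq_bot_or_eq_top with h | h
      · rw [h, Subgroup.isComplement'_bot_left] at hc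
        refine hns (Group.isSolvable_of_comm fun a b => ?_)
        have := (IsCyclic.commGroup (α := (TS : Subgroup G))).mul_comm
          ⟨a, hc ▸ Subgroup.mem_top a⟩ ⟨b, hc ▸ Subgroup.mem_top b⟩
        exact congrArg Subtype.val this
      · rw [h, Subgroup.isComplement'_top_left] at hc
        exact TS.ne_bot_of_dvd_card h2 hc
    · have hr0 : r = 0 := by
        by_contra h
        exact h2 (hGcard ▸ ((dvd_pow_self 2 h).mul_right _).mul_left _)
      have hA1 : A = ⊥ := by
        refine (Subgroup.eq_bot_iff_forall _).mpr fun x hx => ?_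
        have hBtop : B = ⊤ := by
          refine Subgroup.eq_top_of_card_eq _ ?_
          rw [hAcard, hr0, pow_zero, mul_one]
        have := hZ ⟨x, hx⟩ fun y => congrArg Subtype.val ((IsCyclic.commGroup (α := B)).mul_comm
          ⟨y, hBtop ▸ Subgroup.mem_top y⟩ ⟨⟨x, hx⟩, hBtop ▸ Subgroup.mem_top _⟩)
        exact congrArg Subtype.val this
      haveI : Fact p.Prime := ⟨hp⟩
      haveI := (IsPGroup.of_card (n := s) (by
        rw [← hs, hA1, Subgroup.index_bot]) : IsPGroup p G).isNilpotent
      exact hns inferInstance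

/-- Let G be a finite group with a subgroup A of prime-power index. Suppose A has a normal cyclic subgroup B such that A/B is cyclic of order a power of 2. Then G is solvable. -/
theorem result {G : Type*} [Group G] [Finite G] (A : Subgroup G) (p s : ℕ) (hp : p.Prime) (hA : A.index = p ^ s)
    (B : Subgroup A) [B.Normal] (hB : IsCyclic B) (hAB : IsCyclic (A ⧸ B)) (r : ℕ) (hr : Nat.card (A ⧸ B) = 2 ^ r) :
    Group.IsSolvable G := by
  exact isSolvable_aux A p hp ⟨s, hA⟩ ⟨B, inferInstance, hB, hAB, r, hr⟩

end Cfsg.Agent.S4245
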