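import Cfsg.Statements.S4250
import Cfsg.Agent.Lib.PGroups.AlperinTame
import Mathlib.GroupTheory.Focal

set_option linter.style.haveILetI false
-- import your own Cfsg.Agent.* helpers here

set_option autoImplicit false
open Cfsg

namespace Cfsg.Agent.S4250

open CfsgLib
open scoped commutatorElement

variable {G : Type*} [Group G] {p : ℕ}

/-- `[a, x]` lies in `R` for every `a` in the set, composed along a chain. -/
theorem diff_mem_of_tameChain [Finite G] {P : Sylow p G} {R : Subgroup G} {c : ℕ}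
    (hstep : ∀ Q : Sylow p G, PGroups.IsTameInter P Q →
      c ≤ Nat.card ((P : Subgroup G) ⊓ (Q : Subgroup G) : Subgroup G) →
      ∀ x ∈ Subgroup.normalizer (((P : Subgroup G) ⊓ (Q : Subgroup G) : Subgroup G) : Set G),
        ∀ a ∈ (P : Subgroup G) ⊓ (Q : Subgroup G), a⁻¹ * (x⁻¹ * a * x) ∈ R) :
    ∀ (l : List (Sylow p G × G)) (A : Set G), PGroups.TameChain P A l → c ≤ A.ncard → ∀ a ∈ A,
      a⁻¹ * ((PGroups.tameProd l)⁻¹ * a * PGroups.tameProd l) ∈ R := by
  intro l
  induction l with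
  | nil => intro A _ _ a _; simp [PGroups.tameProd, R.one_mem]
  | cons hd l ih =>
    obtain ⟨Q, x⟩ := hd
    intro A hc hcard a ha
    obtain ⟨hA, hx, htame, hl⟩ := hc
    have hQ : c ≤ Nat.card ((P : Subgroup G) ⊓ (Q : Subgroup G) : Subgroup G) := by
      refine hcard.trans ?_
      rw [← SetLike.coe_sort_coe, Nat.card_coe_set_eq]
      exact Set.ncard_le_ncard hA
    have h1 := hstep Q htame hQ x hx a (hA ha)
    have hinj : Function.Injective fun b : G => x⁻¹ * b * x := fun b b' h =>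
      mul_left_cancel (mul_right_cancel h)
    have h2 := ih _ hl (by rwa [Set.ncard_image_of_injective _ hinj]) (x⁻¹ * a * x) ⟨a, ha, rfl⟩
    have e : PGroups.tameProd ((Q, x) :: l) = x * PGroups.tameProd l := by simp [PGroups.tameProd]
    rw [e]
    have := R.mul_mem h1 h2
    simpa [mul_assoc] using this

/-- The subgroup of the statement contains all differences along tame steps. -/
theorem step_mem [Finite G] [Fact p.Prime] (P : Sylow p G) (R : Subgroup G)
    (hR1 : ⁅(P : Subgroup G), Subgroup.normalizer ((P : Subgroup G) : Set G)⁆ ≤ R)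
    (hR2 : ∀ Q : Sylow p G, PGroups.IsTameInter P Q →
      ∀ x ∈ Subgroup.normalizer (((P : Subgroup G) ⊓ (Q : Subgroup G) : Subgroup G) : Set G),
        (∃ k, orderOf x = p ^ k) → ⁅(P : Subgroup G) ⊓ (Q : Subgroup G), Subgroup.zpowers x⁆ ≤ R) :
    ∀ Q : Sylow p G, PGroups.IsTameInter P Q →
      ∀ x ∈ Subgroup.normalizer (((P : Subgroup G) ⊓ (Q : Subgroup G) : Subgroup G) : Set G),
        ∀ a ∈ (P : Subgroup G) ⊓ (Q : Subgroup G), a⁻¹ * (x⁻¹ * a * x) ∈ R := by
  suffices H : ∀ d, ∀ Q : Sylow p G,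
      Nat.card G - Nat.card ((P : Subgroup G) ⊓ (Q : Subgroup G) : Subgroup G) = d →
      PGroups.IsTameInter P Q →
      ∀ x ∈ Subgroup.normalizer (((P : Subgroup G) ⊓ (Q : Subgroup G) : Subgroup G) : Set G),
        ∀ a ∈ (P : Subgroup G) ⊓ (Q : Subgroup G), a⁻¹ * (x⁻¹ * a * x) ∈ R from fun Q => H _ Q rfl
  intro d
  induction d using Nat.strong_induction_on with
  | _ d ih =>
  intro Q hd htame
  set D : Subgroup G := (P : Subgroup G) ⊓ (Q : Subgroup G) with hD
  intro x hx a ha
  have hcomm : ∀ a' : G, ∀ z : G, a'⁻¹ * (z⁻¹ * a' * z) = ⁅a'⁻¹, z⁻¹⁆ := fun a' z => by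
    rw [commutatorElement_def, inv_inv, inv_inv]; group
  by_cases hDP : D = (P : Subgroup G)
  · rw [hDP] at hx ha
    rw [hcomm]
    exact hR1 (Subgroup.commutator_mem_commutator (Subgroup.inv_mem _ ha) (Subgroup.inv_mem _ hx))
  set N : Subgroup G := Subgroup.normalizer (D : Set G) with hN
  have hlt : D < (P : Subgroup G) ⊓ N := PGroups.lt_inf_normalizer (lt_of_le_of_ne inf_le_left hDP)
  have hconj : ∀ z ∈ N, ∀ b ∈ D, z⁻¹ * b * z ∈ D := fun z hz b hb => by
    have := (Subgroup.mem_normalizer_iff.mp (Subgroup.inv_mem _ hz) b).mp hb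
    rwa [inv_inv] at this
  let T : Subgroup N :=
    { carrier := {z | ∀ b ∈ D, b⁻¹ * ((z : G)⁻¹ * b * z) ∈ R}
      one_mem' := fun b _ => by simp [R.one_mem]
      mul_mem' := fun {z w} hz hw b hb => by
        have := R.mul_mem (hz b hb) (hw _ (hconj _ z.2 b hb))
        simpa [mul_assoc] using this
      inv_mem' := fun {z} hz b hb => by
        have hb' : (z : G) * b * (z : G)⁻¹ ∈ D := (Subgroup.mem_normalizer_iff.mp z.2 b).mp hb
        have := R.inv_mem (hz _ hb')
        simpa [mul_assoc] using this }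
  suffices h : T = ⊤ from (h.ge (Subgroup.mem_top ⟨x, hx⟩)) a ha
  let S : Subgroup N := ((P : Subgroup G) ⊓ N).subgroupOf N
  have hSp : IsPGroup p S := (P.isPGroup'.to_le inf_le_left).comap_subtype
  let SS : Sylow p N := hSp.toSylow htame.1
  have hpel : ∀ z : N, (∃ k, orderOf z = p ^ k) → z ∈ T := by
    rintro z ⟨k, hk⟩ b hb
    rw [hcomm]
    refine hR2 Q htame z z.2 ⟨k, by rw [Subgroup.orderOf_coe]; exact hk⟩
      (Subgroup.commutator_mem_commutator (Subgroup.inv_mem _ hb)
        (Subgroup.inv_mem _ (Subgroup.mem_zpowers _)))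
  let K : Subgroup N := Subgroup.normalClosure (S : Set N)
  have hKT : K ≤ T := by
    refine (Subgroup.closure_le _).mpr fun z hz => ?_
    obtain ⟨s, hs, hsz⟩ := Group.mem_conjugatesOfSet_iff.mp hz
    obtain ⟨g, hg⟩ := isConj_iff.mp hsz
    obtain ⟨k, hk⟩ := IsPGroup.iff_orderOf.mp hSp ⟨s, hs⟩
    rw [Subgroup.orderOf_mk] at hk
    refine hpel z ⟨k, ?_⟩
    rw [← hg]
    exact ((MulAut.conj g).orderOf_eq s).trans hk
  have hSK : (SS : Subgroup N) ≤ K := Subgroup.subset_normalClosure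
  have hnorm : Subgroup.normalizer ((SS : Subgroup N) : Set N) ≤ T := by
    intro z hz b hb
    set A : Set G := (((P : Subgroup G) ⊓ N : Subgroup G) : Set G) with hA
    obtain ⟨l, hl, hlg⟩ := PGroups.exists_tameChain P A z
      (fun u hu => hu.1) (by
        rintro _ ⟨u, hu, rfl⟩
        have hz' := (Subgroup.mem_normalizer_iff.mp (Subgroup.inv_mem _ hz) ⟨u, hu.2⟩).mp
          (show (⟨u, hu.2⟩ : N) ∈ S from hu)
        rw [inv_inv] at hz'
        exact hz'.1)
    have hAc : A.ncard = Nat.card ((P : Subgroup G) ⊓ N : Subgroup G) := by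
      rw [← Nat.card_coe_set_eq]; rfl
    have hcardlt : Nat.card D < A.ncard := by
      rw [hAc]
      exact lt_of_le_of_ne (Nat.le_of_dvd Nat.card_pos (Subgroup.card_dvd_of_le hlt.le))
        fun e => hlt.ne (Subgroup.eq_of_le_of_card_ge hlt.le e.ge)
    have := diff_mem_of_tameChain (R := R) (c := A.ncard) (fun Q' ht' hc' => ih _ ?_ Q' rfl ht') l A hl le_rfl b
      (hlt.le hb)
    · rwa [hlg] at this
    · have h1 := Subgroup.card_le_card_group (D : Subgroup G)
      have h2 := Subgroup.card_le_card_group ((P : Subgroup G) ⊓ (Q' : Subgroup G))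
      omega
  have htop := Sylow.normalizer_sup_eq_top (SS.subtype hSK)
  rw [Sylow.coe_subtype, Subgroup.map_subgroupOf_eq_of_le hSK] at htop
  exact top_le_iff.mp (htop.ge.trans (sup_le hnorm hKT))

/-- Let P be a Sylow p-subgroup of a finite group G. Call an intersection H = P ∩ Q with a Sylow p-subgroup Q tame when N_P(H) and N_Q(H) are Sylow p-subgroups of N_G(H). Then P ∩ G′ is generated by [P, N_G(P)] together with the commutator subgroups [P ∩ Q, ⟨x⟩] for all tame intersections P ∩ Q and all p-elements x of N_G(P ∩ Q). -/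
theorem result {G : Type*} [Group G] [Finite G] (p : ℕ) [Fact p.Prime] (P : Sylow p G) :
    (P : Subgroup G) ⊓ commutator G =
      ⁅(P : Subgroup G), Subgroup.normalizer ((P : Subgroup G) : Set G)⁆ ⊔
        ⨆ (Q : Sylow p G) (_ : (¬ p ∣ ((P : Subgroup G) ⊓ Subgroup.normalizer (((P : Subgroup G) ⊓ (Q : Subgroup G) : Subgroup G) : Set G)).relIndex (Subgroup.normalizer (((P : Subgroup G) ⊓ (Q : Subgroup G) : Subgroup G) : Set G)) ∧ ¬ p ∣ ((Q : Subgroup G) ⊓ Subgroup.normalizer (((P : Subgroup G) ⊓ (Q : Subgroup G) : Subgroup G) : Set G)).relIndex (Subgroup.normalizer (((P : Subgroup G) ⊓ (Q : Subgroup G) : Subgroup G) : Set G))))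
          (x : G) (_ : x ∈ Subgroup.normalizer (((P : Subgroup G) ⊓ (Q : Subgroup G) : Subgroup G) : Set G) ∧ ∃ k : ℕ, orderOf x = p ^ k),
          ⁅(P : Subgroup G) ⊓ (Q : Subgroup G), Subgroup.zpowers x⁆ := by
  refine le_antisymm ?_ (sup_le ?_ (iSup₂_le fun Q htame => iSup₂_le fun x hx => ?_))
  · rw [inf_comm, Subgroup.commutator_inf_eq_focalSubgroup, Subgroup.focalSubgroup_def,
      Subgroup.closure_le]
    rintro g ⟨hg, y, hy, u, rfl⟩
    obtain ⟨l, hl, hlg⟩ := PGroups.exists_tameChain P {y⁻¹} u⁻¹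
      (Set.singleton_subset_iff.mpr (Subgroup.inv_mem _ hy)) (by
        rw [Set.image_singleton, Set.singleton_subset_iff, inv_inv]
        have := Subgroup.mul_mem _ (Subgroup.inv_mem _ hy) hg
        rw [commutatorElement_def] at this
        show u * y⁻¹ * u⁻¹ ∈ (P : Subgroup G)
        simpa [mul_assoc] using this)
    set R : Subgroup G :=
      ⁅(P : Subgroup G), Subgroup.normalizer ((P : Subgroup G) : Set G)⁆ ⊔
        ⨆ (Q : Sylow p G) (_ : (¬ p ∣ ((P : Subgroup G) ⊓ Subgroup.normalizer (((P : Subgroup G) ⊓ (Q : Subgroup G) : Subgroup G) : Set G)).relIndex (Subgroup.normalizer (((P : Subgroup G) ⊓ (Q : Subgroup G) : Subgroup G) : Set G)) ∧ ¬ p ∣ ((Q : Subgroup G) ⊓ Subgroup.normalizer (((P : Subgroup G) ⊓ (Q : Subgroup G) : Subgroup G) : Set G)).relIndex (Subgroup.normalizer (((P : Subgroup G) ⊓ (Q : Subgroup G) : Subgroup G) : Set G))))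
          (x : G) (_ : x ∈ Subgroup.normalizer (((P : Subgroup G) ⊓ (Q : Subgroup G) : Subgroup G) : Set G) ∧ ∃ k : ℕ, orderOf x = p ^ k),
          ⁅(P : Subgroup G) ⊓ (Q : Subgroup G), Subgroup.zpowers x⁆ with hRdef
    have hR2 : ∀ Q : Sylow p G, PGroups.IsTameInter P Q →
        ∀ x ∈ Subgroup.normalizer (((P : Subgroup G) ⊓ (Q : Subgroup G) : Subgroup G) : Set G),
          (∃ k, orderOf x = p ^ k) → ⁅(P : Subgroup G) ⊓ (Q : Subgroup G), Subgroup.zpowers x⁆ ≤ R := by
      intro Q ht x hx hk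
      refine le_trans ?_ le_sup_right
      refine le_iSup₂_of_le Q ht ?_
      refine le_iSup₂_of_le x ?_ le_rfl
      exact ⟨hx, hk⟩
    have hmem := diff_mem_of_tameChain (c := 0) (R := R)
      (fun Q ht _ => step_mem P R le_sup_left hR2 Q ht) l {y⁻¹} hl (Nat.zero_le _) y⁻¹ rfl
    rw [hlg, inv_inv, inv_inv] at hmem
    rw [SetLike.mem_coe, commutatorElement_def]
    simpa [mul_assoc] using hmem
  · refine le_inf (Subgroup.commutator_le.mpr fun a ha n hn => ?_)
      (Subgroup.commutator_mono le_top le_top)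
    rw [commutatorElement_def]
    have := (Subgroup.mem_normalizer_iff.mp hn a⁻¹).mp (Subgroup.inv_mem _ ha)
    simpa [mul_assoc] using Subgroup.mul_mem _ ha this
  · refine le_inf (Subgroup.commutator_le.mpr fun a ha n hn => ?_)
      (Subgroup.commutator_mono le_top le_top)
    rw [commutatorElement_def]
    have hn' := (Subgroup.zpowers_le.mpr hx.1) hn
    have := (Subgroup.mem_normalizer_iff.mp hn' a⁻¹).mp (Subgroup.inv_mem _ ha)
    simpa [mul_assoc] using Subgroup.mul_mem _ ha.1 this.1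

end Cfsg.Agent.S4250
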