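import Cfsg.Statements.S4251
import Cfsg.Agent.Lib.PGroups.AlperinTame
import Cfsg.Agent.Lib.Transfer.Fusion

set_option linter.style.haveILetI false
-- import your own Cfsg.Agent.* helpers here

set_option autoImplicit false
open Cfsg

namespace Cfsg.Agent.S4251

open CfsgLib

theorem exists_conj_of_tameChain {G : Type*} [Group G] [Finite G] {p : ℕ} [Fact p.Prime]
    (P : Sylow p G)
    (h : ∀ Q : Sylow p G, (P : Subgroup G) ⊓ (Q : Subgroup G) ≠ ⊥ → PGroups.IsTameInter P Q →
      IsPGroup p (Subgroup.normalizer (((P : Subgroup G) ⊓ (Q : Subgroup G) : Subgroup G) : Set G) ⧸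
        (Subgroup.centralizer (((P : Subgroup G) ⊓ (Q : Subgroup G) : Subgroup G) : Set G)).subgroupOf
          (Subgroup.normalizer (((P : Subgroup G) ⊓ (Q : Subgroup G) : Subgroup G) : Set G)))) :
    ∀ (l : List (Sylow p G × G)) (A : Set G) (a : G), PGroups.TameChain P A l → a ∈ A →
      ∃ w ∈ (P : Subgroup G), w⁻¹ * a * w = (PGroups.tameProd l)⁻¹ * a * PGroups.tameProd l := by
  intro l
  induction l with
  | nil => exact fun A a _ _ => ⟨1, Subgroup.one_mem _, by simp [PGroups.tameProd]⟩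
  | cons hd l ih =>
    obtain ⟨Q, x⟩ := hd
    intro A a hc ha
    obtain ⟨hA, hx, htame, hl⟩ := hc
    by_cases ha1 : a = 1
    · exact ⟨1, Subgroup.one_mem _, by simp [ha1]⟩
    obtain ⟨w, hw, hwe⟩ := ih _ (x⁻¹ * a * x) hl ⟨a, ha, rfl⟩
    set D : Subgroup G := (P : Subgroup G) ⊓ (Q : Subgroup G) with hD
    set N : Subgroup G := Subgroup.normalizer (D : Set G) with hN
    have hne : D ≠ ⊥ := fun e => ha1 (Subgroup.mem_bot.mp (e ▸ hA ha))
    have hq := h Q hne htame
    let C : Subgroup N := (Subgroup.centralizer (D : Set G)).subgroupOf N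
    let S : Subgroup N := ((P : Subgroup G) ⊓ N).subgroupOf N
    have hSidx : ¬ p ∣ S.index := htame.1
    have htop : C ⊔ S = ⊤ := by
      rw [← Subgroup.index_eq_one]
      obtain ⟨k, hk⟩ := IsPGroup.iff_card.1 hq
      have hk' : C.index = p ^ k := by rw [Subgroup.index, hk]
      exact Nat.eq_one_of_dvd_coprimes
        (((Nat.Prime.coprime_iff_not_dvd Fact.out).2 hSidx).symm.pow_right k)
        (Subgroup.index_dvd_of_le le_sup_right) (hk' ▸ Subgroup.index_dvd_of_le le_sup_left)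
    obtain ⟨c, hc, s, hs, hcs⟩ := Subgroup.mem_sup_of_normal_left.mp (htop.ge (Subgroup.mem_top ⟨x, hx⟩))
    have hcs' : (c : G) * s = x := congrArg Subtype.val hcs
    have hconj : x⁻¹ * a * x = (s : G)⁻¹ * a * s := by
      have hca : a * (c : G) = c * a := Subgroup.mem_centralizer_iff.mp hc a (hA ha)
      rw [← hcs']
      calc ((c : G) * s)⁻¹ * a * (c * s) = (s : G)⁻¹ * (c : G)⁻¹ * (a * c) * s := by group
        _ = (s : G)⁻¹ * a * s := by rw [hca]; group
    refine ⟨(s : G) * w, Subgroup.mul_mem _ hs.1 hw, ?_⟩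
    have e : PGroups.tameProd ((Q, x) :: l) = x * PGroups.tameProd l := by simp [PGroups.tameProd]
    rw [e]
    calc ((s : G) * w)⁻¹ * a * (s * w) = w⁻¹ * ((s : G)⁻¹ * a * s) * w := by group
      _ = w⁻¹ * (x⁻¹ * a * x) * w := by rw [hconj]
      _ = (PGroups.tameProd l)⁻¹ * (x⁻¹ * a * x) * PGroups.tameProd l := hwe
      _ = (x * PGroups.tameProd l)⁻¹ * a * (x * PGroups.tameProd l) := by group


/-- Let P be a Sylow p-subgroup of a finite group G. Call an intersection H = P ∩ Q with a Sylow p-subgroup Q tame when N_P(H) and N_Q(H) are Sylow p-subgroups of N_G(H). If N_G(H)/C_G(H) is a p-group for every nontrivial tame intersection H = P ∩ Q, then G has a normal p-complement. -/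
theorem result {G : Type*} [Group G] [Finite G] (p : ℕ) [Fact p.Prime] (P : Sylow p G)
    (h : ∀ Q : Sylow p G, (P : Subgroup G) ⊓ (Q : Subgroup G) ≠ ⊥ → (¬ p ∣ ((P : Subgroup G) ⊓ Subgroup.normalizer (((P : Subgroup G) ⊓ (Q : Subgroup G) : Subgroup G) : Set G)).relIndex (Subgroup.normalizer (((P : Subgroup G) ⊓ (Q : Subgroup G) : Subgroup G) : Set G)) ∧ ¬ p ∣ ((Q : Subgroup G) ⊓ Subgroup.normalizer (((P : Subgroup G) ⊓ (Q : Subgroup G) : Subgroup G) : Set G)).relIndex (Subgroup.normalizer (((P : Subgroup G) ⊓ (Q : Subgroup G) : Subgroup G) : Set G))) →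
      IsPGroup p (Subgroup.normalizer (((P : Subgroup G) ⊓ (Q : Subgroup G) : Subgroup G) : Set G) ⧸
        (Subgroup.centralizer (((P : Subgroup G) ⊓ (Q : Subgroup G) : Subgroup G) : Set G)).subgroupOf
          (Subgroup.normalizer (((P : Subgroup G) ⊓ (Q : Subgroup G) : Subgroup G) : Set G)))) :
    Cfsg.HasNormalPComplement p G := by
  refine Transfer.hasNormalPComplement_of_control P fun x hx u hu => ?_
  obtain ⟨l, hl, hlg⟩ := PGroups.exists_tameChain P {x} u⁻¹ (Set.singleton_subset_iff.mpr hx)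
    (by rw [Set.image_singleton, inv_inv]; exact Set.singleton_subset_iff.mpr hu)
  obtain ⟨w, hw, hwe⟩ := exists_conj_of_tameChain P (fun Q hne ht => h Q hne ht) l {x} x hl rfl
  refine ⟨w⁻¹, Subgroup.inv_mem _ hw, ?_⟩
  rw [inv_inv, hwe, hlg, inv_inv]

end Cfsg.Agent.S4251
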