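import Cfsg.Statements.S4252
-- import your own Cfsg.Agent.* helpers here

set_option autoImplicit false
open Cfsg
open Pointwise

namespace Cfsg.Agent.S4252

/-- Let a finite group G act on a finite set Ω with more than one point, transitively but not regularly, so that no non-identity element of G fixes two distinct points. Then the stabilizer H of any point is a Frobenius complement in G (nontrivial, proper, meeting its other conjugates trivially), and the Frobenius kernel of G with respect to H (the identity together with the elements lying in no conjugate of H) is exactly the set consisting of the identity and the elements fixing no point. -/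
theorem result {G Ω : Type*} [Group G] [Finite G] [Fintype Ω] [MulAction G Ω] (hΩ : 1 < Fintype.card Ω)
    (htrans : ∀ α β : Ω, ∃ g : G, g • α = β) (hnreg : ∃ g : G, g ≠ 1 ∧ ∃ α : Ω, g • α = α)
    (hfix : ∀ g : G, g ≠ 1 → ∀ α β : Ω, g • α = α → g • β = β → α = β) (α : Ω) :
    Cfsg.IsFrobeniusComplement (MulAction.stabilizer G α) ∧
      Cfsg.frobeniusKernel (MulAction.stabilizer G α) = {g : G | g = 1 ∨ ∀ ω : Ω, g • ω ≠ ω} := by
  have hstab : ∀ g : G, MulAut.conj g • MulAction.stabilizer G α = MulAction.stabilizer G (g • α) := by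
    intro g
    rw [MulAction.stabilizer_smul_eq_stabilizer_map_conj]
    rfl
  haveI : Nontrivial Ω := Fintype.one_lt_card_iff_nontrivial.mp hΩ
  refine ⟨⟨?_, ?_, ?_⟩, ?_⟩
  · obtain ⟨g, hg, β, hβ⟩ := hnreg
    obtain ⟨t, ht⟩ := htrans β α
    intro h
    have : t * g * t⁻¹ ∈ MulAction.stabilizer G α := by
      rw [MulAction.mem_stabilizer_iff, mul_smul, mul_smul, ← ht, inv_smul_smul, hβ]
    rw [h, Subgroup.mem_bot] at this
    exact hg (conj_eq_one_iff.mp this)
  · intro h
    obtain ⟨β, hβ⟩ := exists_ne α
    obtain ⟨t, ht⟩ := htrans α β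
    have : t ∈ MulAction.stabilizer G α := h ▸ Subgroup.mem_top t
    exact hβ (ht.symm.trans this)
  · intro g hg
    rw [hstab, eq_bot_iff]
    rintro x ⟨h1, h2⟩
    rw [Subgroup.mem_bot]
    by_contra hx
    exact hg (hfix x hx α (g • α) h1 h2).symm
  · ext x
    simp only [Cfsg.frobeniusKernel, Set.mem_setOf_eq]
    refine or_congr Iff.rfl ⟨fun h ω hω => ?_, fun h g hg => ?_⟩
    · obtain ⟨g, rfl⟩ := htrans α ω
      exact h g (by rw [hstab]; exact hω)
    · rw [hstab] at hg
      exact h _ hg

end Cfsg.Agent.S4252
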