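import Cfsg.Statements.S4253
-- import your own Cfsg.Agent.* helpers here

set_option autoImplicit false
open Cfsg
open Pointwise

namespace Cfsg.Agent.S4253

/-- Let H be a Frobenius complement in a finite group G (a nontrivial proper subgroup meeting each conjugate gHg⁻¹ with g outside H trivially). Then in the action of G on the left cosets of H by left multiplication, no non-identity element of G fixes two distinct cosets. -/
theorem result {G : Type*} [Group G] [Finite G] (H : Subgroup G) (hH : Cfsg.IsFrobeniusComplement H)
    (g : G) (hg : g ≠ 1) (a b : G ⧸ H) (ha : g • a = a) (hb : g • b = b) : a = b := by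
  induction a using QuotientGroup.induction_on with
  | H x =>
  induction b using QuotientGroup.induction_on with
  | H y =>
  have hx : x⁻¹ * g * x ∈ H := by
    have h1 : ((g * x : G) : G ⧸ H) = (x : G ⧸ H) := ha
    have h2 := QuotientGroup.eq.mp h1.symm
    simpa [mul_assoc] using h2
  have hy : y⁻¹ * g * y ∈ H := by
    have h1 : ((g * y : G) : G ⧸ H) = (y : G ⧸ H) := hb
    have h2 := QuotientGroup.eq.mp h1.symm
    simpa [mul_assoc] using h2
  rw [QuotientGroup.eq]
  by_contra ht
  have h3 : x⁻¹ * g * x ∈ H ⊓ (MulAut.conj (x⁻¹ * y) • H) := by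
    refine Subgroup.mem_inf.mpr ⟨hx, ?_⟩
    rw [Subgroup.mem_pointwise_smul_iff_inv_smul_mem, ← map_inv, MulAut.smul_def, MulAut.conj_apply]
    simpa [mul_assoc] using hy
  rw [hH.2.2 _ ht, Subgroup.mem_bot] at h3
  apply hg
  have h4 := congrArg (fun z => x * z * x⁻¹) h3
  simpa [mul_assoc] using h4

end Cfsg.Agent.S4253
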