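import Cfsg.Statements.S4258
import Cfsg.Agent.Lib.TwoLengthExponent.Main
import Cfsg.Agent.Lib.TwoLengthExponent.Steps

set_option autoImplicit false
open Cfsg

namespace Cfsg.Agent.S4258

/-- Let G be a finite 2-soluble group whose Sylow 2-subgroups have exponent dividing 2^e. Then the 2-length of G is at most e. -/
theorem result {G : Type*} [Group G] [Finite G] (hG : Cfsg.IsPSolvable 2 G) (e : ℕ)
    (hexp : ∀ (P : Sylow 2 G), ∀ x ∈ (P : Subgroup G), x ^ 2 ^ e = 1) : Cfsg.PLengthLE 2 e G := by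
  haveI : Fact (Nat.Prime 2) := ⟨Nat.prime_two⟩
  refine CfsgLib.TwoLengthExponent.pLengthLE_exponent_two ?_ e G
    (CfsgLib.TwoLengthExponent.isSolvable_of_two hG) fun g hg => ?_
  · intro H _ _ hsol hcore d ρ hρ n hrel P N hP hPN hN hz
    haveI := hsol
    haveI : CharP (AlgebraicClosure (ZMod 2)) 2 :=
      charP_of_injective_algebraMap (algebraMap (ZMod 2) _).injective 2
    exact CfsgLib.TwoLengthExponent.hasSteps_of_relation hcore hρ hrel hP hPN hN hz
  obtain ⟨k, hk⟩ := hg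
  obtain ⟨i, -, hi⟩ := (Nat.dvd_prime_pow Nat.prime_two).1 (orderOf_dvd_of_pow_eq_one hk)
  have hz : IsPGroup 2 (Subgroup.zpowers g) := IsPGroup.of_card (n := i) (by rw [Nat.card_zpowers, hi])
  obtain ⟨P, hP⟩ := hz.exists_le_sylow
  exact hexp P g (hP (Subgroup.mem_zpowers g))

end Cfsg.Agent.S4258
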