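import Cfsg.Statements.S4260
-- import your own Cfsg.Agent.* helpers here

set_option autoImplicit false
open Cfsg

namespace Cfsg.Agent.S4260

/-- Let H be a Hall subgroup of a finite group G (the order of H is coprime to its index) such that x^[G : H] lies in H for every x in G. Then H is normal in G. -/
theorem result {G : Type*} [Group G] [Finite G] (H : Subgroup G) (hHall : (Nat.card H).Coprime H.index)
    (hexp : ∀ x : G, x ^ H.index ∈ H) : H.Normal := by
  have key : ∀ x : G, x ^ Nat.card H = 1 → x ∈ H := by
    intro x hx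
    have hc : H.index.Coprime (orderOf x) :=
      Nat.Coprime.coprime_dvd_right (orderOf_dvd_of_pow_eq_one hx) hHall.symm
    obtain ⟨m, hm⟩ := exists_pow_eq_self_of_coprime hc
    rw [← hm]
    exact H.pow_mem (hexp x) m
  refine ⟨fun h hh g => key _ ?_⟩
  have h1 : h ^ Nat.card H = 1 := by
    have h2 : (⟨h, hh⟩ : H) ^ Nat.card H = 1 := pow_card_eq_one'
    rw [← SubgroupClass.coe_pow (⟨h, hh⟩ : H), h2, OneMemClass.coe_one]
  rw [conj_pow, h1, mul_one, mul_inv_cancel]

end Cfsg.Agent.S4260
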