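import Cfsg.Statements.S4261
-- import your own Cfsg.Agent.* helpers here

set_option autoImplicit false
open Cfsg
open scoped commutatorElement

namespace Cfsg.Agent.S4261

/-- Let M be a maximal subgroup of a finite solvable group G such that x^[G : M] lies in M for every x in G. Then M is normal in G. -/
theorem result {G : Type*} [Group G] [Finite G] (hG : Group.IsSolvable G) (M : Subgroup G) (hM : IsCoatom M)
    (hexp : ∀ x : G, x ^ M.index ∈ M) : M.Normal := by
  haveI := hG
  set K : Subgroup G := M.normalCore with hKdef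
  haveI hKn : K.Normal := M.normalCore_normal
  have hKM : K ≤ M := M.normalCore_le
  by_contra hMn
  have hKtop : K < ⊤ := lt_of_le_of_lt hKM hM.1.lt_top
  obtain ⟨L, hLn, hKL, hLmin⟩ : ∃ L : Subgroup G, L.Normal ∧ K < L ∧
      ∀ L' : Subgroup G, L'.Normal → K < L' → L' ≤ L → L' = L := by
    obtain ⟨L, hL⟩ := (Set.toFinite {L : Subgroup G | L.Normal ∧ K < L}).exists_minimal
      ⟨⊤, inferInstance, hKtop⟩
    exact ⟨L, hL.1.1, hL.1.2, fun L' h1 h2 h3 => le_antisymm h3 (hL.2 ⟨h1, h2⟩ h3)⟩
  haveI := hLn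
  -- `L / K` is abelian
  have hcomm : ⁅L, L⁆ ≤ K := by
    by_contra hc
    have h1 : ⁅L, L⁆ ⊔ K = L := hLmin _ inferInstance
      (right_lt_sup.mpr hc) (sup_le (Subgroup.commutator_le_self L) hKL.le)
    have h2 := congrArg (Subgroup.map (QuotientGroup.mk' K)) h1
    rw [Subgroup.map_sup, QuotientGroup.map_mk'_self, sup_bot_eq, Subgroup.map_commutator] at h2
    have h3 : L.map (QuotientGroup.mk' K) ≠ ⊥ := by
      rw [ne_eq, Subgroup.map_eq_bot_iff, QuotientGroup.ker_mk']
      exact hKL.not_ge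
    exact (Group.IsSolvable.commutator_lt_of_ne_bot h3).ne h2
  have hLM : ¬ L ≤ M := fun h => hKL.not_ge (Subgroup.normal_le_normalCore.mpr h)
  have hLMtop : M ⊔ L = ⊤ := hM.2 _ (left_lt_sup.mpr hLM)
  -- `M ⊓ L = K`
  have hML : M ⊓ L = K := by
    have hn : (M ⊓ L).Normal := by
      rw [← Subgroup.normalizer_eq_top_iff, eq_top_iff, ← hLMtop]
      refine sup_le (fun m hm => ?_) (fun l hl => ?_)
      · rw [Subgroup.mem_normalizer_iff]
        intro y
        constructor
        · rintro ⟨h1, h2⟩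
          exact ⟨M.mul_mem (M.mul_mem hm h1) (M.inv_mem hm), hLn.conj_mem _ h2 m⟩
        · rintro ⟨h1, h2⟩
          constructor
          · simpa [mul_assoc] using M.mul_mem (M.mul_mem (M.inv_mem hm) h1) hm
          · simpa [mul_assoc] using hLn.conj_mem _ h2 m⁻¹
      · rw [Subgroup.mem_normalizer_iff]
        have key : ∀ z ∈ L, ∀ y ∈ M ⊓ L, z * y * z⁻¹ ∈ M ⊓ L := by
          intro z hz y hy
          have h1 : z * y * z⁻¹ * y⁻¹ ∈ M ⊓ L :=
            ⟨hKM (hcomm (Subgroup.commutator_mem_commutator hz hy.2)),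
              Subgroup.commutator_le_self L (Subgroup.commutator_mem_commutator hz hy.2)⟩
          simpa [mul_assoc] using mul_mem h1 hy
        intro y
        refine ⟨key l hl y, fun h => ?_⟩
        simpa [mul_assoc] using key l⁻¹ (L.inv_mem hl) _ h
    exact le_antisymm (Subgroup.normal_le_normalCore.mpr inf_le_left) (le_inf hKM hKL.le)
  have hidx : M.index = K.relIndex L := by
    have h0 : M.relIndex (M ⊔ L) = M.index := by rw [hLMtop, Subgroup.relIndex_top_right]
    rw [← h0, ← hML, Subgroup.inf_relIndex_right]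
    have e1 := Subgroup.relIndex_mul_relIndex (M ⊓ L) M (M ⊔ L) inf_le_left le_sup_left
    have e2 := Subgroup.relIndex_mul_relIndex (M ⊓ L) L (M ⊔ L) inf_le_right le_sup_right
    rw [Subgroup.relIndex_sup_right, Subgroup.inf_relIndex_right] at e2
    rw [Subgroup.inf_relIndex_left] at e1
    rw [mul_comm (M.relIndex L)] at e2
    have h1 : L.relIndex M ≠ 0 := fun h => absurd (Subgroup.relIndex_dvd_card (H := L) (K := M)) (by
      rw [h, zero_dvd_iff]; exact Nat.card_pos.ne')
    exact Nat.eq_of_mul_eq_mul_left (Nat.pos_of_ne_zero h1) (e1.trans e2.symm)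
  have hne1 : K.relIndex L ≠ 1 := fun h => hKL.not_ge (Subgroup.relIndex_eq_one.mp h)
  obtain ⟨r, hr, hrdvd⟩ := Nat.exists_prime_and_dvd hne1
  haveI : Fact r.Prime := ⟨hr⟩
  -- `L / K` has exponent `r`
  let f : L →* G ⧸ K := (QuotientGroup.mk' K).comp L.subtype
  have fcomm : ∀ a b : L, Commute (f a) (f b) := fun a b => by
    have h : ⁅(a : G), (b : G)⁆ ∈ K := hcomm (Subgroup.commutator_mem_commutator a.2 b.2)
    rw [← QuotientGroup.eq_one_iff] at h
    exact commutatorElement_eq_one_iff_commute.mp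
      ((map_commutatorElement (QuotientGroup.mk' K) _ _).symm.trans h)
  let L' : Subgroup G :=
    { carrier := {x | x ∈ L ∧ x ^ r ∈ K}
      one_mem' := ⟨L.one_mem, by simp⟩
      inv_mem' := fun {x} hx => ⟨L.inv_mem hx.1, by rw [inv_pow]; exact K.inv_mem hx.2⟩
      mul_mem' := fun {x y} hx hy => ⟨L.mul_mem hx.1 hy.1, by
        have h := (fcomm ⟨x, hx.1⟩ ⟨y, hy.1⟩).mul_pow r
        have h1 : f ⟨x, hx.1⟩ ^ r = 1 := by
          rw [← map_pow]; exact (QuotientGroup.eq_one_iff _).mpr hx.2
        have h2 : f ⟨y, hy.1⟩ ^ r = 1 := by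
          rw [← map_pow]; exact (QuotientGroup.eq_one_iff _).mpr hy.2
        rw [h1, h2, one_mul, ← map_mul, ← map_pow] at h
        exact (QuotientGroup.eq_one_iff _).mp h⟩ }
  have hexp' : ∀ x ∈ L, x ^ r ∈ K := by
    have hn : L'.Normal := ⟨fun x hx g => ⟨hLn.conj_mem _ hx.1 g, by
      rw [conj_pow]; exact hKn.conj_mem _ hx.2 g⟩⟩
    have hlt : K < L' := by
      refine lt_of_le_of_ne (fun x hx => ⟨hKL.le hx, K.pow_mem hx r⟩) (fun h => ?_)
      have hdvd : r ∣ Nat.card f.range := by
        have h1 : Nat.card f.range = K.relIndex L := by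
          rw [← Subgroup.index_ker]
          rw [← MonoidHom.comap_ker, QuotientGroup.ker_mk']
          rfl
        rw [h1]; exact hrdvd
      obtain ⟨⟨z, hz⟩, hzo⟩ := exists_prime_orderOf_dvd_card' r hdvd
      obtain ⟨x, rfl⟩ := hz
      have hz1 : (f x) ^ r = 1 := by
        have := pow_orderOf_eq_one (⟨f x, x, rfl⟩ : f.range)
        rw [hzo] at this
        simpa using congrArg Subtype.val this
      have hmem : (x : G) ∈ L' := ⟨x.2, (QuotientGroup.eq_one_iff _).mp (by rw [← map_pow] at hz1; exact hz1)⟩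
      rw [← h, ← QuotientGroup.eq_one_iff] at hmem
      have : (⟨f x, x, rfl⟩ : f.range) = 1 := Subtype.ext hmem
      rw [this, orderOf_one] at hzo
      exact hr.one_lt.ne hzo
    intro x hx
    rw [← hLmin L' hn hlt (fun x hx => hx.1)] at hx
    exact hx.2
  -- the index of `M` is a power of `r`
  have hpg : IsPGroup r f.range := by
    rintro ⟨_, x, rfl⟩
    refine ⟨1, Subtype.ext ?_⟩
    rw [pow_one, SubgroupClass.coe_pow, ← map_pow, OneMemClass.coe_one]
    exact (QuotientGroup.eq_one_iff _).mpr (hexp' x x.2)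
  obtain ⟨s, hs⟩ := IsPGroup.iff_card.mp hpg
  have hMr : M.index = r ^ s := by
    rw [hidx, ← hs, ← Subgroup.index_ker, ← MonoidHom.comap_ker, QuotientGroup.ker_mk']
    rfl
  let O : Subgroup G := Subgroup.closure {x : G | (orderOf x).Coprime r}
  have hOn : O.Normal := by
    refine ⟨fun n hn g => ?_⟩
    have : O.map (MulAut.conj g).toMonoidHom ≤ O := by
      rw [MonoidHom.map_closure]
      refine Subgroup.closure_mono ?_
      rintro _ ⟨x, hx, rfl⟩
      simp only [Set.mem_setOf_eq] at hx ⊢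
      rwa [orderOf_injective _ (MulAut.conj g).injective x]
    exact this ⟨n, hn, rfl⟩
  have hOK : O ≤ K := by
    haveI := hOn
    refine Subgroup.normal_le_normalCore.mpr ?_
    rw [Subgroup.closure_le]
    intro x hx
    have h1 := hexp x
    rw [hMr] at h1
    obtain ⟨m, hm⟩ := exists_pow_eq_self_of_coprime (n := r ^ s) (x := x)
      (Nat.Coprime.pow_left s hx.symm)
    rw [← hm]; exact M.pow_mem h1 m
  have hQ : IsPGroup r (G ⧸ K) := by
    intro q
    induction q using QuotientGroup.induction_on with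
    | H g =>
    obtain ⟨a, m, hm, hgm⟩ := Nat.exists_eq_pow_mul_and_not_dvd (orderOf_pos g).ne' r hr.ne_one
    refine ⟨a, ?_⟩
    rw [← QuotientGroup.mk_pow, QuotientGroup.eq_one_iff]
    apply hOK
    apply Subgroup.subset_closure
    show (orderOf (g ^ r ^ a)).Coprime r
    rw [orderOf_pow_of_dvd (pow_ne_zero _ hr.ne_zero) (hgm ▸ dvd_mul_right _ _), hgm,
      Nat.mul_div_cancel_left _ (pow_pos hr.pos _)]
    exact ((Nat.Prime.coprime_iff_not_dvd hr).mpr hm).symm
  haveI := hQ.isNilpotent
  have hMeq : (M.map (QuotientGroup.mk' K)).comap (QuotientGroup.mk' K) = M := by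
    rw [Subgroup.comap_map_eq, QuotientGroup.ker_mk', sup_eq_left]; exact hKM
  have hMbar : IsCoatom (M.map (QuotientGroup.mk' K)) := by
    refine ⟨fun h => hM.1 ?_, fun B hB => ?_⟩
    · rw [← hMeq, h, Subgroup.comap_top]
    · have h1 : M < B.comap (QuotientGroup.mk' K) := by
        rw [← hMeq]
        exact (Subgroup.comap_lt_comap_of_surjective (QuotientGroup.mk'_surjective K)).mpr hB
      exact Subgroup.comap_injective (QuotientGroup.mk'_surjective K)
        ((hM.2 _ h1).trans (Subgroup.comap_top _).symm)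
  haveI := Subgroup.NormalizerCondition.normal_of_coatom (M.map (QuotientGroup.mk' K))
    Group.normalizerCondition_of_isNilpotent hMbar
  exact hMn (hMeq ▸ inferInstance)

end Cfsg.Agent.S4261
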