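import Cfsg.Statements.S4262
import Cfsg.Agent.Lib.NormalPComplement.Thompson
import Cfsg.Agent.Lib.Cores.PerfectCore
import Cfsg.Agent.Lib.Cores.Fitting
import Cfsg.Agent.Lib.Subnormal.Basic
import Cfsg.Agent.Lib.SolvableStructure.MinimalNonNilpotent

set_option linter.style.haveILetI false
-- import your own Cfsg.Agent.* helpers here

set_option autoImplicit false
open Cfsg

namespace Cfsg.Agent.S4262

open CfsgLib

theorem normal_of_le_center {E : Type*} [Group E] {C : Subgroup E} (hC : C ≤ Subgroup.center E) :
    C.Normal :=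
  ⟨fun c hc g => by rwa [Subgroup.mem_center_iff.mp (hC hc) g, mul_inv_cancel_right]⟩

/-- A nilpotent group has a normal `p`-complement. -/
theorem hasNormalPComplement_of_isNilpotent {H : Type*} [Group H] [Finite H] (h : Group.IsNilpotent H)
    (p : ℕ) [Fact p.Prime] : HasNormalPComplement p H :=
  NormalPComplement.hasNormalPComplement_of_forall_mem fun g hg =>
    Cores.le_pPrimeCore_of_subnormal (@Subnormal.isSubnormal_of_isNilpotent H _ _ h _)
      ((Nat.card_zpowers g).symm ▸ hg) (Subgroup.mem_zpowers g)

theorem isNilpotent_of_le {G : Type*} [Group G] {H K : Subgroup G} (h : Group.IsNilpotent K)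
    (hle : H ≤ K) : Group.IsNilpotent H := by
  haveI := h
  exact Group.nilpotent_of_mulEquiv (Subgroup.subgroupOfEquivOfLe hle)

/-- A nilpotent maximal subgroup containing a Sylow subgroup for an odd prime with trivial core
gives a normal complement. -/
theorem hasNormalPComplement_of_nilpotent_coatom.{v} {G : Type v} [Group G] [Finite G] {p : ℕ}
    [Fact p.Prime] (hp : p ≠ 2) (hO : pCore p G = ⊥) (M : Subgroup G) (hM : IsCoatom M)
    (hnil : Group.IsNilpotent M) (P : Sylow p G) (hP : (P : Subgroup G) ≤ M) :
    HasNormalPComplement p G := by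
  have hnorm : M ≤ Subgroup.normalizer ((P : Subgroup G) : Set G) := by
    have h := SolvableStructure.sylow_normal_of_isNilpotent hnil p (P.subtype hP)
    rw [Sylow.coe_subtype] at h
    exact Subgroup.le_normalizer_of_normal_subgroupOf (hK := h) hP
  have hJle := (NormalPComplement.thompsonSubgroupAOf_le (P : Subgroup G))
  have hJ : M ≤ Subgroup.normalizer (thompsonSubgroupAOf (P : Subgroup G) : Set G) :=
    hnorm.trans (NormalPComplement.normalizer_le_normalizer_thompsonSubgroupAOf _)
  by_cases hbot : (P : Subgroup G) = ⊥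
  · refine NormalPComplement.hasNormalPComplement_of_coprime ?_
    refine ((Nat.Prime.coprime_iff_not_dvd Fact.out).mpr fun h => ?_).symm
    exact P.ne_bot_of_dvd_card h hbot
  refine NormalPComplement.hasNormalPComplement_of_thompsonA hp P ?_ ?_
  · rcases hM.le_iff.mp hJ with h | h
    · exfalso
      haveI : (thompsonSubgroupAOf (P : Subgroup G)).Normal := Subgroup.normalizer_eq_top_iff.mp h
      have := Cores.le_pCore (p := p) (P.2.to_le hJle)
      rw [hO, le_bot_iff] at this
      exact NormalPComplement.isPFunctor_thompsonSubgroupAOf.ne_bot G _ P.2 hbot this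
    · rw [h]
      exact hasNormalPComplement_of_isNilpotent hnil p
  · have hMc : M ≤ Subgroup.centralizer (((P : Subgroup G) ⊓
        Subgroup.centralizer ((P : Subgroup G) : Set G) : Subgroup G) : Set G) := by
      intro m hm
      rw [Subgroup.mem_centralizer_iff]
      intro z hz
      obtain ⟨a, b, hab, ⟨k, hk⟩, hb⟩ := NormalPComplement.exists_pParts (p := p) (isOfFinOrder_of_finite m)
      have hn : (((P.subtype hP) : Sylow p M) : Subgroup M).Normal :=
        SolvableStructure.sylow_normal_of_isNilpotent hnil p _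
      rw [← hab]
      have h1 : Commute z (m ^ a) := by
        have hpg : IsPGroup p (Subgroup.zpowers (⟨m, hm⟩ ^ a : M)) := by
          obtain ⟨i, -, hi⟩ := (Nat.dvd_prime_pow Fact.out).mp hk
          refine IsPGroup.of_card (n := i) ?_
          rw [Nat.card_zpowers, ← Subgroup.orderOf_coe]
          exact hi
        have hmem : (⟨m, hm⟩ ^ a : M) ∈ ((P.subtype hP : Sylow p M) : Subgroup M) := by
          obtain ⟨T, hT⟩ := hpg.exists_le_sylow
          have hu : T = P.subtype hP := by
            haveI := Sylow.unique_of_normal (P.subtype hP) hn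
            exact Subsingleton.elim _ _
          exact hu ▸ hT (Subgroup.mem_zpowers _)
        exact (hz.2 (m ^ a) hmem).symm
      have h2 : Commute z (m ^ b) := by
        have hzP : (⟨z, hP hz.1⟩ : M) ∈ ((P.subtype hP : Sylow p M) : Subgroup M) := by
          exact hz.1
        have hbM : (⟨m, hm⟩ ^ b : M) ∈ pPrimeCore p M :=
          NormalPComplement.mem_pPrimeCore_of_coprime (hasNormalPComplement_of_isNilpotent hnil p)
            (by rw [← Subgroup.orderOf_coe]; exact hb)
        have hdis : Disjoint ((P.subtype hP : Sylow p M) : Subgroup M) (pPrimeCore p M) := by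
          rw [disjoint_iff]
          refine Subgroup.inf_eq_bot_of_coprime ?_
          obtain ⟨i, hi⟩ := IsPGroup.iff_card.mp (P.subtype hP).isPGroup'
          rw [hi]
          exact ((Cores.card_pPrimeCore_coprime p).pow_right i).symm
        exact congrArg Subtype.val
          (Subgroup.commute_of_normal_of_disjoint _ _ hn inferInstance hdis _ _ hzP hbM).eq
      exact h1.mul_right h2
    rcases hM.le_iff.mp hMc with h | h
    · exfalso
      have hz : ((P : Subgroup G) ⊓ Subgroup.centralizer ((P : Subgroup G) : Set G)) ≤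
          Subgroup.center G := Subgroup.centralizer_eq_top_iff_subset.mp h
      haveI := normal_of_le_center hz
      have := Cores.le_pCore (p := p) (P.2.to_le (inf_le_left : (P : Subgroup G) ⊓
        Subgroup.centralizer ((P : Subgroup G) : Set G) ≤ P))
      rw [hO, le_bot_iff] at this
      exact NormalPComplement.inf_centralizer_ne_bot P.2 hbot this
    · rw [h]
      exact hasNormalPComplement_of_isNilpotent hnil p


/-- A nilpotent maximal subgroup containing a Sylow subgroup for an odd prime kills the odd part
of every perfect subgroup modulo the core. -/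
theorem mem_pCore_of_nilpotent_coatom {G : Type*} [Group G] [Finite G] {p : ℕ}
    [Fact p.Prime] (hp : p ≠ 2) (M : Subgroup G) (hM : IsCoatom M) (hnil : Group.IsNilpotent M)
    (P : Sylow p G) (hP : (P : Subgroup G) ≤ M) {r : G} (hr : r ∈ perfectCore G)
    {k : ℕ} (hk : orderOf r = p ^ k) : r ∈ pCore p G := by
  let f : G →* G ⧸ pCore p G := QuotientGroup.mk' _
  have hf : Function.Surjective f := QuotientGroup.mk'_surjective _
  have hker : f.ker ≤ M := by
    rw [QuotientGroup.ker_mk']
    exact (Cores.pCore_le_sylow P).trans hP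
  have hM' : IsCoatom (M.map f) := by
    refine ⟨fun h => hM.1 ?_, fun L hL => ?_⟩
    · rw [← Subgroup.comap_map_eq_self hker, h, Subgroup.comap_top]
    · have h1 : M < L.comap f := by
        rw [← Subgroup.comap_map_eq_self hker]
        exact (Subgroup.comap_lt_comap_of_surjective hf).mpr hL
      rw [← Subgroup.map_comap_eq_self_of_surjective hf L, hM.2 _ h1,
        Subgroup.map_top_of_surjective f hf]
  have hnil' : Group.IsNilpotent (M.map f) := by
    haveI := hnil
    exact Group.nilpotent_of_surjective (f.subgroupMap M) (f.subgroupMap_surjective M)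
  have hc := hasNormalPComplement_of_nilpotent_coatom hp (Cores.pCore_quotient_pCore p G) (M.map f)
    hM' hnil' (P.mapSurjective hf) (by rw [Sylow.coe_mapSurjective]; exact Subgroup.map_mono hP)
  have hq := NormalPComplement.hasNormalPComplement_iff_isPGroup_quotient.mp hc
  have hs : Group.IsSolvable ((G ⧸ pCore p G) ⧸ pPrimeCore p (G ⧸ pCore p G)) := by
    haveI := hq.isNilpotent
    infer_instance
  have h1 : f r ∈ pPrimeCore p (G ⧸ pCore p G) := by
    rw [← QuotientGroup.eq_one_iff]
    have h : ((QuotientGroup.mk' (pPrimeCore p (G ⧸ pCore p G))).comp f) r ∈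
        perfectCore ((G ⧸ pCore p G) ⧸ pPrimeCore p (G ⧸ pCore p G)) :=
      Cores.map_perfectCore_le _ (Subgroup.mem_map_of_mem _ hr)
    rwa [Cores.perfectCore_eq_bot_iff.mpr hs, Subgroup.mem_bot] at h
  refine (QuotientGroup.eq_one_iff r).mp (orderOf_eq_one_iff.mp (Nat.eq_one_of_dvd_coprimes
    ((Cores.card_pPrimeCore_coprime (G := G ⧸ pCore p G) p).pow_right k).symm (hk ▸ orderOf_map_dvd f r) ?_))
  exact Subgroup.orderOf_dvd_natCard _ h1

theorem mem_pCore_of_mem_perfectCore {G : Type*} [Group G] [Finite G]
    (h : ∀ g : G, g ∉ Subgroup.center G → IsCoatom (Subgroup.centralizer ({g} : Set G))) {p : ℕ}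
    [Fact p.Prime] (hp : p ≠ 2) {x : G} (hx : x ∈ perfectCore G) {k : ℕ}
    (hk : orderOf x = p ^ k) : x ∈ pCore p G := by
  have hxp : IsPGroup p (Subgroup.zpowers x) := IsPGroup.of_card (n := k) (by rw [Nat.card_zpowers, hk])
  by_cases hxZ : x ∈ Subgroup.center G
  · haveI := normal_of_le_center ((Subgroup.zpowers_le).mpr hxZ)
    exact Cores.le_pCore hxp (Subgroup.mem_zpowers x)
  let M := Subgroup.centralizer ({x} : Set G)
  have hM : IsCoatom M := h x hxZ
  have hxM : x ∈ M := Subgroup.mem_centralizer_singleton_iff.mpr rfl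
  -- elements of order prime to `p` are central in `M`
  have hcen : ∀ y : M, (orderOf y).Coprime p → y ∈ Subgroup.center M := by
    intro y hy
    have hcomm : Commute x (y : G) := (Subgroup.mem_centralizer_singleton_iff.mp y.2).symm
    have hy' : (orderOf x).Coprime (orderOf (y : G)) := by
      rw [hk, Subgroup.orderOf_coe]
      exact hy.symm.pow_left k
    have hCle : Subgroup.centralizer ({x * (y : G)} : Set G) ≤
        M ⊓ Subgroup.centralizer ({(y : G)} : Set G) := by
      intro z hz
      rw [Subgroup.mem_centralizer_singleton_iff] at hz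
      have hzc : Commute z (x * (y : G)) := hz
      obtain ⟨a, ha1, ha2⟩ := Nat.chineseRemainder hy' 1 0
      have e : (x * (y : G)) ^ a = x := by
        rw [hcomm.mul_pow, (pow_eq_pow_iff_modEq.mpr ha1 : x ^ a = x ^ 1), pow_one,
          (pow_eq_pow_iff_modEq.mpr ha2 : (y : G) ^ a = (y : G) ^ 0), pow_zero, mul_one]
      have hzx : Commute z x := e ▸ hzc.pow_right a
      refine ⟨Subgroup.mem_centralizer_singleton_iff.mpr hzx, Subgroup.mem_centralizer_singleton_iff.mpr ?_⟩
      have := (hzx.inv_right).mul_right hzc
      rwa [inv_mul_cancel_left] at this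
    have hxy : x * (y : G) ∉ Subgroup.center G := by
      intro hc
      refine hM.1 (top_le_iff.mp fun z _ => (hCle ?_).1)
      exact Subgroup.mem_centralizer_singleton_iff.mpr (Subgroup.mem_center_iff.mp hc z)
    have heq : Subgroup.centralizer ({x * (y : G)} : Set G) = M :=
      (((h _ hxy).le_iff.mp (hCle.trans inf_le_left)).resolve_left hM.1).symm
    rw [Subgroup.mem_center_iff]
    intro z
    refine Subtype.ext (Subgroup.mem_centralizer_singleton_iff.mp (hCle ?_).2)
    rw [heq]
    exact z.2
  have hnil : Group.IsNilpotent M := by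
    refine Group.of_quotient_center_nilpotent ?_
    refine (IsPGroup.isNilpotent (p := p) fun z => ?_)
    obtain ⟨g, rfl⟩ := QuotientGroup.mk_surjective z
    obtain ⟨e, he⟩ := NormalPComplement.exists_pow_coprime_orderOf (p := p) (isOfFinOrder_of_finite g)
    exact ⟨e, (QuotientGroup.eq_one_iff _).mpr (hcen _ he)⟩
  obtain ⟨U, hU⟩ := (hxp.comap_of_injective M.subtype M.subtype_injective).exists_le_sylow
  have hxU : (⟨x, hxM⟩ : M) ∈ (U : Subgroup M) := hU (Subgroup.mem_zpowers x)
  obtain ⟨P, hP⟩ := (U.isPGroup'.map M.subtype).exists_le_sylow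
  have hUn : (U : Subgroup M).Normal := SolvableStructure.sylow_normal_of_isNilpotent hnil p U
  have hUeq : (U : Subgroup M).map M.subtype = M ⊓ (P : Subgroup G) := by
    refine le_antisymm (le_inf (Subgroup.map_subtype_le _) hP) ?_
    rw [inf_comm, ← Subgroup.subgroupOf_map_subtype]
    exact Subgroup.map_mono ((U.is_maximal' (P.2.comap_of_injective M.subtype M.subtype_injective)
      fun z hz => hP ⟨z, hz, rfl⟩).le)
  by_cases hPM : (P : Subgroup G) ≤ M
  · exact mem_pCore_of_nilpotent_coatom hp M hM hnil P hPM hx hk
  have hlt : ((U : Subgroup M).map M.subtype).subgroupOf (P : Subgroup G) < ⊤ := by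
    refine lt_top_iff_ne_top.mpr fun e => hPM ?_
    rw [Subgroup.subgroupOf_eq_top, hUeq] at e
    exact e.trans inf_le_left
  haveI := P.isPGroup'.isNilpotent
  obtain ⟨g, hg, hgU⟩ := SetLike.exists_of_lt (Group.normalizerCondition_of_isNilpotent _ hlt)
  have hMN : M ≤ Subgroup.normalizer (((U : Subgroup M).map M.subtype : Subgroup G) : Set G) := by
    haveI : (((U : Subgroup M).map M.subtype).subgroupOf M).Normal := by
      rwa [Subgroup.subgroupOf, Subgroup.comap_map_eq_self_of_injective M.subtype_injective]
    exact Subgroup.le_normalizer_of_normal_subgroupOf (Subgroup.map_subtype_le _)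
  have hgN : (g : G) ∈ Subgroup.normalizer (((U : Subgroup M).map M.subtype : Subgroup G) : Set G) := by
    rw [← Subgroup.subgroupOf_normalizer_eq hP] at hg
    exact hg
  rcases hM.le_iff.mp hMN with e | e
  · haveI := Subgroup.normalizer_eq_top_iff.mp e
    exact Cores.le_pCore (U.isPGroup'.map M.subtype) ⟨_, hxU, rfl⟩
  · exfalso
    refine hgU ?_
    rw [Subgroup.mem_subgroupOf, hUeq]
    exact ⟨e ▸ hgN, g.2⟩

/-- Let G be a finite group in which the centralizer of every non-central element is a maximal subgroup of G. Then G is solvable. -/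
theorem result {G : Type*} [Group G] [Finite G]
    (h : ∀ g : G, g ∉ Subgroup.center G → IsCoatom (Subgroup.centralizer ({g} : Set G))) :
    Group.IsSolvable G := by
  by_contra hns
  refine hns ?_
  -- the perfect core is nilpotent
  haveI hF : Group.IsNilpotent (fittingSubgroup G) := Cores.isNilpotent_fittingSubgroup
  let f : perfectCore G →* perfectCore G ⧸ (fittingSubgroup G).subgroupOf (perfectCore G) :=
    QuotientGroup.mk' _
  haveI : Fact (Nat.Prime 2) := ⟨Nat.prime_two⟩
  have h2 : IsPGroup 2 (perfectCore G ⧸ (fittingSubgroup G).subgroupOf (perfectCore G)) := by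
    obtain ⟨j, hj⟩ : ∃ j, Nat.card (perfectCore G ⧸ (fittingSubgroup G).subgroupOf (perfectCore G)) = 2 ^ j := by
      refine ⟨_, Nat.eq_prime_pow_of_unique_prime_dvd Nat.card_pos.ne' fun {q} hq hd => ?_⟩
      by_contra hq2
      haveI : Fact q.Prime := ⟨hq⟩
      obtain ⟨z, hz⟩ := exists_prime_orderOf_dvd_card' q hd
      obtain ⟨g, rfl⟩ := QuotientGroup.mk_surjective z
      obtain ⟨a, b, hab, ⟨k, hk⟩, hb⟩ :=
        NormalPComplement.exists_pParts (p := q) (isOfFinOrder_of_finite g)
      obtain ⟨i, -, hi⟩ := (Nat.dvd_prime_pow hq).mp hk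
      have ha : f (g ^ a) = 1 := (QuotientGroup.eq_one_iff _).mpr
        (Cores.pCore_le_fittingSubgroup q (mem_pCore_of_mem_perfectCore h hq2 (g ^ a).2
          ((Subgroup.orderOf_coe (g ^ a)).trans hi)))
      have hg : f g = f (g ^ b) := by rw [← hab, map_mul, ha, one_mul, hab]
      have hdvd : q ∣ orderOf (g ^ b) := by
        have := orderOf_map_dvd f (g ^ b)
        rw [← hg] at this
        exact hz ▸ this
      exact hq.ne_one (Nat.eq_one_of_dvd_coprimes hb hdvd dvd_rfl)
    exact IsPGroup.of_card hj
  haveI := h2.isNilpotent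
  haveI : Group.IsSolvable ((fittingSubgroup G).subgroupOf (perfectCore G)) := by
    haveI : Group.IsSolvable (fittingSubgroup G) := inferInstance
    exact Group.isSolvable_of_isSolvable_injective (f := (((perfectCore G).subtype.comp
      ((fittingSubgroup G).subgroupOf (perfectCore G)).subtype).codRestrict (fittingSubgroup G) fun x => x.2))
      (fun x y e => Subtype.ext (Subtype.ext (congrArg Subtype.val e : _)))
  have hsol : Group.IsSolvable (perfectCore G) :=
    Group.isSolvable_of_ker_le_range ((fittingSubgroup G).subgroupOf (perfectCore G)).subtype f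
      (by simp [f])
  rw [← Cores.perfectCore_eq_bot_iff]
  by_contra hb
  haveI : Nontrivial (perfectCore G) := (Subgroup.nontrivial_iff_ne_bot _).mpr hb
  haveI := Cores.isPerfect_perfectCore G
  exact Group.IsPerfect.not_isSolvable _ hsol

end Cfsg.Agent.S4262
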