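import Cfsg.Statements.S4263
-- import your own Cfsg.Agent.* helpers here

set_option autoImplicit false
open Cfsg

namespace Cfsg.Agent.S4263

/-- In a finite `p`-group, the index power of any element lies in the subgroup. -/
theorem pow_index_mem_of_isPGroup {G : Type*} [Group G] [Finite G] {p : ℕ} [Fact p.Prime]
    (hG : IsPGroup p G) (U : Subgroup G) (x : G) : x ^ U.index ∈ U := by
  obtain ⟨n, hn0, hnle, hn⟩ := U.exists_pow_mem_of_index_ne_zero Subgroup.index_ne_zero_of_finite x
  obtain ⟨j, hj⟩ := hG.index U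
  obtain ⟨a, ha⟩ := hG x
  have hg : x ^ Nat.gcd n (p ^ a) ∈ U := by
    have h2 : x ^ (Nat.gcd n (p ^ a) : ℤ) ∈ U := by
      rw [Nat.gcd_eq_gcd_ab, zpow_add, zpow_mul, zpow_mul, zpow_natCast, zpow_natCast, ha, one_zpow,
        mul_one]
      exact U.zpow_mem hn _
    simpa using h2
  obtain ⟨i, -, hi⟩ := (Nat.dvd_prime_pow (Fact.out : p.Prime)).mp (Nat.gcd_dvd_right n (p ^ a))
  have hij : i ≤ j := by
    have h1 : p ^ i ≤ p ^ j := by
      rw [← hi, ← hj]
      exact (Nat.le_of_dvd hn0 (Nat.gcd_dvd_left n (p ^ a))).trans hnle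
    exact (pow_le_pow_iff_right₀ (Fact.out : p.Prime).one_lt).mp h1
  obtain ⟨c, hc⟩ := pow_dvd_pow p hij
  rw [hj, hc, pow_mul]
  exact U.pow_mem (hi ▸ hg) c

theorem pow_index_mem_of_normal_isPGroup {G : Type*} [Group G] [Finite G] {p : ℕ} [Fact p.Prime]
    (P : Subgroup G) [P.Normal] (hP : IsPGroup p P) (H : Subgroup G) {x : G} (hx : x ∈ P) :
    x ^ H.index ∈ H := by
  have h1 : x ^ (H.subgroupOf P).index ∈ H := by
    have h2 := pow_index_mem_of_isPGroup hP (H.subgroupOf P) ⟨x, hx⟩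
    simpa [Subgroup.mem_subgroupOf] using h2
  have h3 : (H.subgroupOf P).index ∣ H.index := by
    have e1 := Subgroup.relIndex_mul_relIndex (H ⊓ P) H (H ⊔ P) inf_le_left le_sup_left
    have e2 := Subgroup.relIndex_mul_relIndex (H ⊓ P) P (H ⊔ P) inf_le_right le_sup_right
    rw [Subgroup.relIndex_sup_right, Subgroup.inf_relIndex_right] at e2
    rw [Subgroup.inf_relIndex_left] at e1
    rw [mul_comm (H.relIndex P)] at e2
    have h0 : P.relIndex H ≠ 0 := fun h => absurd (Subgroup.relIndex_dvd_card (H := P) (K := H)) (by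
      rw [h, zero_dvd_iff]; exact Nat.card_pos.ne')
    have h4 : H.relIndex (H ⊔ P) = H.relIndex P :=
      Nat.eq_of_mul_eq_mul_left (Nat.pos_of_ne_zero h0) (e1.trans e2.symm)
    have h5 := Subgroup.relIndex_dvd_index_of_le (H := H) (K := H ⊔ P) le_sup_left
    rw [h4] at h5
    exact h5
  obtain ⟨c, hc⟩ := h3
  rw [hc, pow_mul]
  exact H.pow_mem h1 c

/-- The intersection of all Sylow `p`-subgroups. -/
def sylowInf (p : ℕ) (G : Type*) [Group G] : Subgroup G := ⨅ P : Sylow p G, (P : Subgroup G)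

theorem sylowInf_normal (p : ℕ) (G : Type*) [Group G] : (sylowInf p G).Normal := by
  refine ⟨fun n hn g => ?_⟩
  rw [sylowInf, Subgroup.mem_iInf] at hn ⊢
  intro P
  have h := hn (g⁻¹ • P)
  rw [Sylow.coe_subgroup_smul, Subgroup.mem_pointwise_smul_iff_inv_smul_mem] at h
  simpa [MulAut.smul_def, mul_assoc] using h

theorem sylowInf_isPGroup (p : ℕ) (G : Type*) [Group G] : IsPGroup p (sylowInf p G) := by
  obtain ⟨P⟩ := (inferInstance : Nonempty (Sylow p G))
  exact P.isPGroup'.to_le (iInf_le _ P)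

theorem le_sylowInf {p : ℕ} {G : Type*} [Group G] (N : Subgroup G) [N.Normal] (hN : IsPGroup p N) :
    N ≤ sylowInf p G := by
  refine le_iInf fun P => ?_
  have h := IsPGroup.to_sup_of_normal_left hN P.isPGroup'
  rw [← P.is_maximal' h le_sup_right]
  exact le_sup_left

theorem mem_of_nilpotent_normal {G : Type*} [Group G] [Finite G] (x : G)
    (hx : ∀ p : ℕ, p.Prime → ∀ n : ℕ, (∃ a, (x ^ n) ^ p ^ a = 1) → x ^ n ∈ sylowInf p G) :
    x ∈ ⨆ p : (Nat.card G).primeFactors, sylowInf (p : ℕ) G := by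
  suffices h : ∀ d : ℕ, ∀ n : ℕ, orderOf (x ^ n) = d →
      x ^ n ∈ ⨆ p : (Nat.card G).primeFactors, sylowInf (p : ℕ) G by
    simpa using h _ 1 rfl
  intro d
  induction d using Nat.recOnPrimeCoprime with
  | zero => intro n hn; exact absurd hn (orderOf_pos _).ne'
  | prime_pow p k hp =>
    intro n hn
    by_cases hk : k = 0
    · subst hk
      rw [pow_zero, orderOf_eq_one_iff] at hn
      rw [hn]; exact one_mem _
    have hpG : p ∈ (Nat.card G).primeFactors := by
      refine Nat.mem_primeFactors.mpr ⟨hp, ?_, Nat.card_pos.ne'⟩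
      exact (hn ▸ dvd_pow_self p hk).trans (orderOf_dvd_natCard _)
    have h2 : x ^ n ∈ sylowInf p G := hx p hp n ⟨k, by rw [← hn, pow_orderOf_eq_one]⟩
    exact Subgroup.mem_iSup_of_mem
      (S := fun q : (Nat.card G).primeFactors => sylowInf (q : ℕ) G) ⟨p, hpG⟩ h2
  | coprime a b ha hb hab iha ihb =>
    intro n hn
    have h1 : orderOf (x ^ n) ≠ 0 := (orderOf_pos _).ne'
    have hA : orderOf (x ^ (n * b)) = a := by
      rw [pow_mul, orderOf_pow_of_dvd (by omega) (hn ▸ dvd_mul_left b a), hn,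
        Nat.mul_div_cancel _ (by omega)]
    have hB : orderOf (x ^ (n * a)) = b := by
      rw [pow_mul, orderOf_pow_of_dvd (by omega) (hn ▸ dvd_mul_right a b), hn,
        Nat.mul_div_cancel_left _ (by omega)]
    have hmem1 := iha _ hA
    have hmem2 := ihb _ hB
    have e : x ^ n = (x ^ (n * b)) ^ Nat.gcdB a b * (x ^ (n * a)) ^ Nat.gcdA a b := by
      rw [← zpow_natCast x (n * b), ← zpow_natCast x (n * a), ← zpow_mul, ← zpow_mul, ← zpow_add,
        ← zpow_natCast x n]
      congr 1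
      have := Nat.gcd_eq_gcd_ab a b
      rw [Nat.Coprime.gcd_eq_one hab] at this
      push_cast at this ⊢
      linear_combination (n : ℤ) * this
    rw [e]
    exact mul_mem (Subgroup.zpow_mem _ hmem1 _) (Subgroup.zpow_mem _ hmem2 _)

theorem fitting_le {G : Type*} [Group G] [Finite G] :
    Cfsg.fittingSubgroup G ≤ ⨆ p : (Nat.card G).primeFactors, sylowInf (p : ℕ) G := by
  refine sSup_le fun N hN x hx => mem_of_nilpotent_normal x fun p hp n ⟨a, ha⟩ => ?_
  obtain ⟨hNn, hnil⟩ := hN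
  haveI := hNn
  haveI := hnil
  haveI : Fact p.Prime := ⟨hp⟩
  let P : Sylow p N := default
  haveI hPn : (P : Subgroup N).Normal := P.normal_of_normalizerCondition normalizerCondition_of_isNilpotent
  haveI : (P : Subgroup N).Characteristic := Sylow.characteristic_of_normal P hPn
  have hle : ((P : Subgroup N).map N.subtype) ≤ sylowInf p G :=
    le_sylowInf _ (P.isPGroup'.map _)
  have hpg : IsPGroup p (Subgroup.zpowers (⟨x, hx⟩ ^ n : N)) := by
    rintro ⟨y, hy⟩
    obtain ⟨i, rfl⟩ := Subgroup.mem_zpowers_iff.mp hy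
    refine ⟨a, Subtype.ext ?_⟩
    apply Subtype.ext
    simp only [SubgroupClass.coe_pow, SubgroupClass.coe_zpow, OneMemClass.coe_one]
    rw [← zpow_natCast ((x ^ n) ^ i), ← zpow_mul, mul_comm, zpow_mul, zpow_natCast, ha, one_zpow]
  obtain ⟨Q, hQ⟩ := hpg.exists_le_sylow
  haveI := Sylow.unique_of_normal P hPn
  rw [Subsingleton.elim Q P] at hQ
  exact hle ⟨_, hQ (Subgroup.mem_zpowers _), rfl⟩

theorem pow_index_mem {G : Type*} [Group G] [Finite G] {x : G}
    (hx : x ∈ ⨆ p : (Nat.card G).primeFactors, sylowInf (p : ℕ) G) (H : Subgroup G) :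
    x ^ H.index ∈ H := by
  have hcomm : Pairwise fun i j : (Nat.card G).primeFactors =>
      ∀ a b : G, a ∈ sylowInf (i : ℕ) G → b ∈ sylowInf (j : ℕ) G → Commute a b := by
    intro i j hij a b ha hb
    haveI : Fact (i : ℕ).Prime := ⟨Nat.prime_of_mem_primeFactors i.2⟩
    haveI : Fact (j : ℕ).Prime := ⟨Nat.prime_of_mem_primeFactors j.2⟩
    haveI := sylowInf_normal (i : ℕ) G
    haveI := sylowInf_normal (j : ℕ) G
    exact Subgroup.commute_of_normal_of_disjoint _ _ inferInstance inferInstance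
      (IsPGroup.disjoint_of_ne _ _ (fun h => hij (Subtype.ext h)) _ _
        (sylowInf_isPGroup _ G) (sylowInf_isPGroup _ G)) a b ha hb
  rw [← Subgroup.noncommPiCoprod_range (hcomm := hcomm)] at hx
  obtain ⟨u, rfl⟩ := hx
  rw [← map_pow, Subgroup.noncommPiCoprod_apply]
  refine Subgroup.noncommProd_mem H _ fun i _ => ?_
  haveI : Fact (i : ℕ).Prime := ⟨Nat.prime_of_mem_primeFactors i.2⟩
  haveI := sylowInf_normal (i : ℕ) G
  simpa using pow_index_mem_of_normal_isPGroup (sylowInf (i : ℕ) G) (sylowInf_isPGroup _ G) H (u i).2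

/-- Let G be a finite group. An element x lies in the Fitting subgroup F(G) if and only if, for every subgroup H of G, the power x^[G : H] lies in H. -/
theorem result {G : Type*} [Group G] [Finite G] (x : G) :
    x ∈ Cfsg.fittingSubgroup G ↔ ∀ H : Subgroup G, x ^ H.index ∈ H := by
  constructor
  · intro hx H
    exact pow_index_mem (fitting_le hx) H
  · intro h
    have hx : x ∈ ⨆ p : (Nat.card G).primeFactors, sylowInf (p : ℕ) G := by
      refine mem_of_nilpotent_normal x fun p hp n ⟨a, ha⟩ => ?_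
      haveI : Fact p.Prime := ⟨hp⟩
      rw [sylowInf, Subgroup.mem_iInf]
      intro P
      have h1 : (x ^ n) ^ (P : Subgroup G).index ∈ P := by
        rw [← pow_mul, mul_comm, pow_mul]; exact Subgroup.pow_mem _ (h _) n
      have hc : (P : Subgroup G).index.Coprime (orderOf (x ^ n)) := by
        refine Nat.Coprime.coprime_dvd_right (orderOf_dvd_of_pow_eq_one ha) (Nat.Coprime.pow_right a ?_)
        exact ((Nat.Prime.coprime_iff_not_dvd hp).mpr P.not_dvd_index).symm
      obtain ⟨m, hm⟩ := exists_pow_eq_self_of_coprime hc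
      rw [← hm]
      exact Subgroup.pow_mem _ h1 m
    refine (iSup_le fun i => ?_ : _ ≤ Cfsg.fittingSubgroup G) hx
    haveI : Fact (i : ℕ).Prime := ⟨Nat.prime_of_mem_primeFactors i.2⟩
    exact le_sSup ⟨sylowInf_normal _ G, (sylowInf_isPGroup _ G).isNilpotent⟩

end Cfsg.Agent.S4263
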