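import Cfsg.Statements.S4264
import Cfsg.Agent.Lib.PGroupCounting.PermClassBound

set_option autoImplicit false
open Cfsg

namespace Cfsg.Agent.S4264

theorem four_pow_le {d : ℕ} (hd : 8 ≤ d) : 4 ^ d ≤ 5 ^ (d - 1) := by
  induction d, hd using Nat.le_induction with
  | base => norm_num
  | succ d hd ih =>
    rw [Nat.add_sub_cancel, pow_succ]
    calc 4 ^ d * 4 ≤ 5 ^ (d - 1) * 5 := Nat.mul_le_mul ih (by norm_num)
      _ = 5 ^ d := by rw [← pow_succ, Nat.sub_add_cancel (by omega)]

/-- Let G be a subgroup of the symmetric group of degree d ≥ 1. Then G has at most 5^{d−1} conjugacy classes. -/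
theorem result (d : ℕ) (hd : 1 ≤ d) (G : Subgroup (Equiv.Perm (Fin d))) : Nat.card (ConjClasses ↥G) ≤ 5 ^ (d - 1) := by
  rcases Nat.lt_or_ge d 8 with h | h
  · have h1 : Nat.card (ConjClasses ↥G) ≤ Nat.card G :=
      Nat.card_le_card_of_surjective ConjClasses.mk ConjClasses.mk_surjective
    have h2 : Nat.card G ≤ d.factorial := by
      refine (Subgroup.card_le_card_group G).trans (le_of_eq ?_)
      rw [Nat.card_perm, Nat.card_fin]
    refine h1.trans (h2.trans ?_)
    interval_cases d <;> decide
  · have := CfsgLib.PermClassBound.card_conjClasses_le_four_pow G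
    rw [Nat.card_fin] at this
    exact this.trans (four_pow_le h)

end Cfsg.Agent.S4264
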