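import Cfsg.Statements.S4265
import Cfsg.Agent.Lib.SolvableLinear.Complex
-- import your own Cfsg.Agent.* helpers here

set_option autoImplicit false
open Cfsg

namespace Cfsg.Agent.S4265

/-- Let G be a finite solvable subgroup of GL_r(ℂ), r ≥ 1, with Fitting subgroup F(G) normal in G. Then for every subgroup H of G the quotient H/(H ∩ F(G)) has at most 3^{r−1} conjugacy classes. -/
theorem result (r : ℕ) (hr : 1 ≤ r) (G : Subgroup (GL (Fin r) ℂ)) [Finite ↥G] (hsolv : Group.IsSolvable ↥G) [hF : (Cfsg.fittingSubgroup ↥G).Normal] (H : Subgroup ↥G) : Nat.card (ConjClasses (↥H ⧸ (Cfsg.fittingSubgroup ↥G).subgroupOf H)) ≤ 3 ^ (r - 1) := by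
  let ρ : ↥G →* Module.End ℂ (Fin r → ℂ) :=
    ((Matrix.toLinAlgEquiv' (R := ℂ) (n := Fin r)).toAlgHom.toMonoidHom.comp
      (Units.coeHom (Matrix (Fin r) (Fin r) ℂ))).comp G.subtype
  have hρ : Function.Injective ρ := fun a b h => Subtype.ext (Units.val_injective
    ((Matrix.toLinAlgEquiv' (R := ℂ) (n := Fin r)).injective h))
  have hbd := CfsgLib.SolvableLinear.bd_fitting_aux (k := ℂ) r ↥G (Fin r → ℂ) ρ hρ
    (Module.finrank_fin_fun ℂ) hr
  let g : ↥H ⧸ (Cfsg.fittingSubgroup ↥G).subgroupOf H →* ↥G ⧸ Cfsg.fittingSubgroup ↥G :=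
    QuotientGroup.map _ _ H.subtype fun x hx => hx
  refine (hbd.of_injective g ?_).self
  rw [injective_iff_map_eq_one]
  intro q hq
  obtain ⟨x, rfl⟩ := QuotientGroup.mk_surjective q
  exact (QuotientGroup.eq_one_iff x).mpr ((QuotientGroup.eq_one_iff (x : ↥G)).mp hq)

end Cfsg.Agent.S4265
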