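import Cfsg.Statements.S4269
import Mathlib

set_option linter.style.haveILetI false
open scoped commutatorElement
-- import your own Cfsg.Agent.* helpers here

set_option autoImplicit false
open Cfsg

namespace Cfsg.Agent.S4269

/-- Let G be a finite group, V an abelian normal subgroup and H a subgroup with HV = G. Then H is pronormal in G (H and gHg⁻¹ are conjugate inside the subgroup they generate, for every g) if and only if every H-invariant subgroup U of V satisfies U = N_U(H)·[H, U], that is, U is the join of U ∩ N_G(H) and the commutator subgroup [H, U]. -/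
theorem result {G : Type*} [Group G] [Finite G]
    (V : Subgroup G) [V.Normal] (hV : IsMulCommutative ↥V) (H : Subgroup G) (hHV : H ⊔ V = ⊤) :
    Cfsg.IsPronormal H ↔
      ∀ U : Subgroup G, U ≤ V → (∀ h ∈ H, U.map (MulAut.conj h).toMonoidHom = U) →
        U = (U ⊓ Subgroup.normalizer (H : Set G)) ⊔ ⁅H, U⁆ := by
  classical
  have hcomm : ∀ a ∈ V, ∀ b ∈ V, a * b = b * a := fun a ha b hb =>
    congrArg Subtype.val (hV.is_comm.comm ⟨a, ha⟩ ⟨b, hb⟩)
  have hV' : ∀ v ∈ V, ∀ g : G, g * v * g⁻¹ ∈ V := fun v hv g => (inferInstance : V.Normal).conj_mem v hv g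
  -- conjugates of `H` are conjugates by elements of `V`
  have hred : ∀ g : G, ∃ v ∈ V, H.map (MulAut.conj g).toMonoidHom = H.map (MulAut.conj v).toMonoidHom := by
    intro g
    obtain ⟨v, hv, h, hh, rfl⟩ : ∃ v ∈ V, ∃ h ∈ H, v * h = g :=
      Subgroup.mem_sup_of_normal_left.mp (by rw [sup_comm, hHV]; exact Subgroup.mem_top g)
    refine ⟨v, hv, ?_⟩
    have e : H.map (MulAut.conj h).toMonoidHom = H :=
      Subgroup.mem_normalizer_iff_map_conj_eq.mp (Subgroup.le_normalizer hh)
    conv_rhs => rw [← e]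
    rw [Subgroup.map_map]
    congr 1
    ext z
    simp [mul_assoc]
  have hnorm : ∀ a b : G, H.map (MulAut.conj a).toMonoidHom = H.map (MulAut.conj b).toMonoidHom →
      b⁻¹ * a ∈ Subgroup.normalizer (H : Set G) := by
    intro a b hab
    refine Subgroup.mem_normalizer_iff_map_conj_eq.mpr ?_
    have := congrArg (Subgroup.map (MulAut.conj b⁻¹).toMonoidHom) hab
    rw [Subgroup.map_map, Subgroup.map_map] at this
    have e1 : (MulAut.conj b⁻¹).toMonoidHom.comp (MulAut.conj b).toMonoidHom = MonoidHom.id G := by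
      ext z; simp [mul_assoc]
    have e2 : (MulAut.conj b⁻¹).toMonoidHom.comp (MulAut.conj a).toMonoidHom = (MulAut.conj (b⁻¹ * a)).toMonoidHom := by
      ext z; simp [mul_assoc]
    rwa [e1, e2, Subgroup.map_id] at this
  constructor
  · intro hp U hUV hinv
    have hUH : ∀ h ∈ H, ∀ u ∈ U, h * u * h⁻¹ ∈ U := fun h hh u hu => by
      rw [← hinv h hh]; exact ⟨u, hu, by simp⟩
    refine le_antisymm (fun v hv => ?_) (sup_le inf_le_left (Subgroup.commutator_le.mpr fun h hh u hu => ?_))
    · obtain ⟨x, hx, hxe⟩ := hp v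
      set W : Subgroup G := ⁅H, U⁆ with hW
      have hWU : W ≤ U := Subgroup.commutator_le.mpr fun h hh u hu => by
        rw [commutatorElement_def]; exact U.mul_mem (hUH h hh u hu) (U.inv_mem hu)
      have hWN : H ≤ Subgroup.normalizer (W : Set G) := by
        intro h hh
        refine Subgroup.mem_normalizer_iff_map_conj_eq.mpr ?_
        rw [hW, Subgroup.map_commutator]
        exact congrArg₂ (fun A B : Subgroup G => ⁅A, B⁆)
          (Subgroup.mem_normalizer_iff_map_conj_eq.mp (Subgroup.le_normalizer hh)) (hinv h hh)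
      have hle : H ⊔ H.map (MulAut.conj v).toMonoidHom ≤ H ⊔ W := by
        refine sup_le le_sup_left ?_
        rintro _ ⟨h, hh, rfl⟩
        have hmem : ⁅h, v⁆ ∈ W := Subgroup.commutator_mem_commutator hh hv
        have e : (MulAut.conj v).toMonoidHom h = ⁅h, v⁆⁻¹ * h := by
          simp [commutatorElement_def, mul_assoc]
        rw [e]
        exact Subgroup.mul_mem _ (Subgroup.mem_sup_right (W.inv_mem hmem)) (Subgroup.mem_sup_left hh)
      have hx' := hle hx
      rw [← SetLike.mem_coe, Subgroup.coe_mul_of_left_le_normalizer_right H W hWN] at hx'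
      obtain ⟨h, hh, j, hj, rfl⟩ := hx'
      have hj' : h * j * h⁻¹ ∈ W := (Subgroup.mem_normalizer_iff.mp (hWN hh) j).mp hj
      have hx2 : H.map (MulAut.conj (h * j)).toMonoidHom = H.map (MulAut.conj (h * j * h⁻¹)).toMonoidHom := by
        conv_rhs => rw [← Subgroup.mem_normalizer_iff_map_conj_eq.mp (Subgroup.le_normalizer hh)]
        rw [Subgroup.map_map]
        congr 1
        ext z
        simp [mul_assoc]
      have hn := hnorm v (h * j * h⁻¹) (hxe.trans hx2)
      have hnU : (h * j * h⁻¹)⁻¹ * v ∈ U := U.mul_mem (U.inv_mem (hWU hj')) hv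
      rw [show v = (h * j * h⁻¹) * ((h * j * h⁻¹)⁻¹ * v) by rw [mul_inv_cancel_left]]
      exact Subgroup.mul_mem _ (Subgroup.mem_sup_right hj') (Subgroup.mem_sup_left ⟨hnU, hn⟩)
    · rw [commutatorElement_def]
      exact U.mul_mem (hUH h hh u hu) (U.inv_mem hu)
  · intro hU g
    obtain ⟨v, hv, hgv⟩ := hred g
    let U : Subgroup G := Subgroup.closure {u | ∃ h ∈ H, h * v * h⁻¹ = u}
    have hUV : U ≤ V := (Subgroup.closure_le _).mpr fun u ⟨h, _, e⟩ => e ▸ hV' v hv h
    have hvU : v ∈ U := Subgroup.subset_closure ⟨1, H.one_mem, by simp⟩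
    have hUle : ∀ h ∈ H, U.map (MulAut.conj h).toMonoidHom ≤ U := fun h hh => by
      rw [MonoidHom.map_closure, Subgroup.closure_le]
      rintro _ ⟨u, ⟨k, hk, rfl⟩, rfl⟩
      exact Subgroup.subset_closure ⟨h * k, H.mul_mem hh hk, by simp [mul_assoc]⟩
    have hinv : ∀ h ∈ H, U.map (MulAut.conj h).toMonoidHom = U := fun h hh =>
      Subgroup.eq_of_le_of_card_ge (hUle h hh) (by rw [Subgroup.card_map_of_injective (MulEquiv.injective _)])
    set X := H ⊔ H.map (MulAut.conj g).toMonoidHom with hX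
    have hWX : ⁅H, U⁆ ≤ X := by
      refine Subgroup.commutator_le.mpr fun h hh u hu => ?_
      revert h
      induction hu using Subgroup.closure_induction with
      | mem u hu' =>
        obtain ⟨k, hk, rfl⟩ := hu'
        intro h hh
        have hh' : k⁻¹ * h * k ∈ H := H.mul_mem (H.mul_mem (H.inv_mem hk) hh) hk
        have e : ⁅h, k * v * k⁻¹⁆ = k * ((k⁻¹ * h * k) * (v * (k⁻¹ * h * k)⁻¹ * v⁻¹)) * k⁻¹ := by
          rw [commutatorElement_def]; group
        rw [e]
        refine X.mul_mem (X.mul_mem (Subgroup.mem_sup_left hk) (X.mul_mem (Subgroup.mem_sup_left hh') ?_))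
          (X.inv_mem (Subgroup.mem_sup_left hk))
        refine Subgroup.mem_sup_right ?_
        rw [hgv]
        exact ⟨_, H.inv_mem hh', by simp⟩
      | one => intro h _; simp [X.one_mem]
      | mul a b ha hb iha ihb =>
        intro h hh
        have hb' : ⁅h, b⁆ ∈ V := by
          rw [commutatorElement_def]; exact V.mul_mem (hV' b (hUV hb) h) (V.inv_mem (hUV hb))
        have e : ⁅h, a * b⁆ = ⁅h, a⁆ * (a * ⁅h, b⁆ * a⁻¹) := by
          simp only [commutatorElement_def]; group
        rw [e, hcomm a (hUV ha) _ hb', mul_inv_cancel_right]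
        exact X.mul_mem (iha h hh) (ihb h hh)
      | inv a ha iha =>
        intro h hh
        have ha' : ⁅h, a⁆ ∈ V := by
          rw [commutatorElement_def]; exact V.mul_mem (hV' a (hUV ha) h) (V.inv_mem (hUV ha))
        have e : ⁅h, a⁻¹⁆ = a⁻¹ * ⁅h, a⁆⁻¹ * a := by
          simp only [commutatorElement_def]; group
        rw [e, hcomm a⁻¹ (V.inv_mem (hUV ha)) _ (V.inv_mem ha'), inv_mul_cancel_right]
        exact X.inv_mem (iha h hh)
    have hv' : v ∈ (U ⊓ Subgroup.normalizer (H : Set G)) ⊔ ⁅H, U⁆ := hU U hUV hinv ▸ hvU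
    have hcm : (U ⊓ Subgroup.normalizer (H : Set G)) ≤ Subgroup.normalizer ((⁅H, U⁆ : Subgroup G) : Set G) := by
      intro a ha
      have hWV : ⁅H, U⁆ ≤ V := Subgroup.commutator_le.mpr fun h _ u hu => by
        rw [commutatorElement_def]; exact V.mul_mem (hV' u (hUV hu) h) (V.inv_mem (hUV hu))
      refine Subgroup.centralizer_le_normalizer _ ?_
      exact Subgroup.mem_centralizer_iff.mpr fun w hw => hcomm w (hWV hw) a (hUV ha.1)
    rw [← SetLike.mem_coe, Subgroup.coe_mul_of_left_le_normalizer_right _ _ hcm] at hv'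
    obtain ⟨n, hn, j, hj, hnj⟩ := hv'
    refine ⟨j, hWX hj, ?_⟩
    have hjV : j ∈ V := by
      have : j = n⁻¹ * v := by rw [← hnj, inv_mul_cancel_left]
      exact this ▸ V.mul_mem (V.inv_mem (hUV hn.1)) hv
    rw [hgv]
    conv_rhs => rw [← Subgroup.mem_normalizer_iff_map_conj_eq.mp hn.2]
    rw [Subgroup.map_map]
    congr 1
    ext z
    have e : v = j * n := by rw [← hnj]; exact hcomm n (hUV hn.1) j hjV
    simp [e, mul_assoc]

end Cfsg.Agent.S4269
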