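import Cfsg.Statements.S4270
import Cfsg.Agent.Lib.OutAut.Pronormal

set_option linter.style.haveILetI false
open scoped Pointwise
-- import your own Cfsg.Agent.* helpers here

set_option autoImplicit false
open Cfsg

namespace Cfsg.Agent.S4270

section

open Cfsg

variable {G : Type*} [Group G]

/-- `K ^ g`. -/
abbrev cj (g : G) (K : Subgroup G) : Subgroup G := K.map (MulAut.conj g).toMonoidHom

theorem cj_cj (a b : G) (K : Subgroup G) : cj a (cj b K) = cj (a * b) K := by
  rw [cj, cj, cj, Subgroup.map_map]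
  congr 1
  ext z; simp [mul_assoc]

theorem cj_one (K : Subgroup G) : cj 1 K = K := by
  ext z; simp [cj]

theorem cj_eq_of_mem {g : G} {K : Subgroup G} (h : g ∈ Subgroup.normalizer (K : Set G)) : cj g K = K :=
  Subgroup.mem_normalizer_iff_map_conj_eq.mp h

/-- The pronormality condition for one element. -/
def Good (K : Subgroup G) (g : G) : Prop := ∃ x ∈ K ⊔ cj g K, cj g K = cj x K

theorem good_of_mem_normalizer {K : Subgroup G} {g : G} (h : g ∈ Subgroup.normalizer (K : Set G)) :
    Good K g :=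
  ⟨1, one_mem _, by rw [cj_one, cj_eq_of_mem h]⟩

theorem good_mul {K : Subgroup G} {g y : G} (hy : y ∈ K ⊔ cj g K) (h : Good K (y⁻¹ * g)) : Good K g := by
  obtain ⟨x, hx, he⟩ := h
  have hle : K ⊔ cj (y⁻¹ * g) K ≤ K ⊔ cj g K := by
    refine sup_le le_sup_left ?_
    rw [← cj_cj]
    rintro _ ⟨z, hz, rfl⟩
    exact mul_mem (mul_mem (inv_mem hy) (Subgroup.mem_sup_right hz)) (by simpa using hy)
  refine ⟨y * x, mul_mem hy (hle hx), ?_⟩
  rw [← cj_cj, ← he, cj_cj, mul_inv_cancel_left]

theorem isPronormal_image {H : Type*} [Group H] {f : G →* H} (hf : Function.Surjective f)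
    {K : Subgroup G} (h : IsPronormal K) : IsPronormal (K.map f) := by
  intro g
  obtain ⟨g, rfl⟩ := hf g
  obtain ⟨x, hx, he⟩ := h g
  have e : ∀ a : G, (K.map f).map (MulAut.conj (f a)).toMonoidHom = (cj a K).map f := by
    intro a
    rw [cj, Subgroup.map_map, Subgroup.map_map]
    congr 1
    ext z; simp
  refine ⟨f x, ?_, ?_⟩
  · rw [e, ← Subgroup.map_sup]
    exact ⟨x, hx, rfl⟩
  · rw [e, e]; exact congrArg (Subgroup.map f) he

theorem isPronormal_cj {K : Subgroup G} (c : G) (h : IsPronormal K) : IsPronormal (cj c K) :=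
  isPronormal_image (MulEquiv.surjective _) h

theorem isPronormal_restrict {N : Subgroup G} {K : Subgroup N} (h : IsPronormal (K.map N.subtype)) :
    IsPronormal K := by
  intro g
  obtain ⟨x, hx, he⟩ := h g
  have e : ∀ a : N, cj (a : G) (K.map N.subtype) = (K.map (MulAut.conj a).toMonoidHom).map N.subtype := by
    intro a
    rw [cj, Subgroup.map_map, Subgroup.map_map]
    congr 1
  change x ∈ K.map N.subtype ⊔ cj (g : G) (K.map N.subtype) at hx
  rw [e, ← Subgroup.map_sup] at hx
  obtain ⟨x', hx', rfl⟩ := hx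
  refine ⟨x', hx', Subgroup.map_injective N.subtype_injective ?_⟩
  rw [← e, ← e]
  exact he

/-- Lift a pronormality witness from a subgroup. -/
theorem exists_witness {N : Subgroup G} {K : Subgroup G} (hKN : K ≤ N)
    (h : IsPronormal (K.subgroupOf N)) {g : G} (hg : g ∈ N) :
    ∃ x ∈ K ⊔ cj g K, x ∈ N ∧ cj g K = cj x K := by
  obtain ⟨x, hx, he⟩ := h ⟨g, hg⟩
  have e : ∀ a : N, cj (a : G) K = ((K.subgroupOf N).map (MulAut.conj a).toMonoidHom).map N.subtype := by
    intro a
    conv_lhs => rw [← Subgroup.map_subgroupOf_eq_of_le hKN]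
    rw [cj, Subgroup.map_map, Subgroup.map_map]
    congr 1
  refine ⟨(x : G), ?_, x.2, ?_⟩
  · have e2 : K ⊔ cj g K = ((K.subgroupOf N) ⊔ (K.subgroupOf N).map (MulAut.conj ⟨g, hg⟩).toMonoidHom).map N.subtype := by
      rw [Subgroup.map_sup, ← e, Subgroup.map_subgroupOf_eq_of_le hKN]
    rw [e2]
    exact ⟨x, hx, rfl⟩
  · rw [e x, e ⟨g, hg⟩, he]

variable [Finite G] {p : ℕ} [Fact p.Prime]

/-- `P ∩ A` is a Sylow subgroup of the normal subgroup `A`. -/
theorem exists_sylow_inf (A : Subgroup G) [A.Normal] (P : Sylow p G) :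
    ∃ S : Sylow p A, (S : Subgroup A).map A.subtype = (P : Subgroup G) ⊓ A := by
  obtain ⟨S₀⟩ := (inferInstance : Nonempty (Sylow p A))
  obtain ⟨Q, hQ⟩ := (S₀.isPGroup'.map A.subtype).exists_le_sylow
  obtain ⟨g, hg⟩ := MulAction.exists_smul_eq G Q P
  have hcard : Nat.card ((Q : Subgroup G) ⊓ A : Subgroup G) = Nat.card ((P : Subgroup G) ⊓ A : Subgroup G) := by
    have e : cj g ((Q : Subgroup G) ⊓ A) = (P : Subgroup G) ⊓ A := by
      rw [cj, Subgroup.map_inf _ _ _ (MulEquiv.injective _),
        show A.map (MulAut.conj g).toMonoidHom = A from cj_eq_of_mem (Subgroup.le_normalizer_of_normal (H := A) (K := ⊤) trivial), ← hg]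
      rfl
    rw [← e, Subgroup.card_map_of_injective (MulEquiv.injective _)]
  have hpg : IsPGroup p (((P : Subgroup G) ⊓ A).subgroupOf A) := (P.isPGroup'.to_le inf_le_left).comap_subtype
  obtain ⟨S, hS⟩ := hpg.exists_le_sylow
  refine ⟨S, (Subgroup.eq_of_le_of_card_ge ?_ ?_).symm⟩
  · rw [← Subgroup.map_subgroupOf_eq_of_le (inf_le_right : (P : Subgroup G) ⊓ A ≤ A)]
    exact Subgroup.map_mono hS
  · rw [← hcard, Subgroup.card_map_of_injective A.subtype_injective]
    have h1 : (S₀ : Subgroup A).map A.subtype ≤ (Q : Subgroup G) ⊓ A := le_inf hQ (Subgroup.map_subtype_le _)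
    refine le_of_eq_of_le ?_ (Nat.le_of_dvd Nat.card_pos (Subgroup.card_dvd_of_le h1))
    rw [Subgroup.card_map_of_injective A.subtype_injective, S.card_eq_multiplicity, S₀.card_eq_multiplicity]

/-- Frattini: an element normalising `J` can be corrected by an element of `J` to normalise a
given Sylow subgroup of `J`. -/
theorem exists_frattini {J : Subgroup G} {T : Subgroup G} (hTJ : T ≤ J) (hT : IsPGroup p T)
    (hidx : ¬ p ∣ (T.subgroupOf J).index) {a : G} (ha : a ∈ Subgroup.normalizer (J : Set G)) :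
    ∃ j ∈ J, j⁻¹ * a ∈ Subgroup.normalizer (T : Set G) := by
  let S : Sylow p J := (hT.comap_subtype (K := J)).toSylow hidx
  have hle : cj a T ≤ J := by
    rw [← cj_eq_of_mem ha]
    exact Subgroup.map_mono hTJ
  have hS' : ¬ p ∣ ((cj a T).subgroupOf J).index := by
    refine fun h => hidx (h.trans (dvd_of_eq ?_))
    have h1 := ((cj a T).subgroupOf J).card_mul_index
    rw [Nat.card_congr (Subgroup.subgroupOfEquivOfLe hle).toEquiv,
      Subgroup.card_map_of_injective (MulEquiv.injective _), ← (T.subgroupOf J).card_mul_index,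
      Nat.card_congr (Subgroup.subgroupOfEquivOfLe hTJ).toEquiv] at h1
    exact Nat.eq_of_mul_eq_mul_left Nat.card_pos h1
  let S' : Sylow p J := ((hT.map (MulAut.conj a).toMonoidHom).comap_subtype (K := J)).toSylow hS'
  obtain ⟨j, hj⟩ := MulAction.exists_smul_eq J S S'
  refine ⟨j, j.2, Subgroup.mem_normalizer_iff_map_conj_eq.mpr ?_⟩
  have e : cj (j : G) T = cj a T := by
    have h := congrArg (fun Q : Sylow p J => (Q : Subgroup J).map J.subtype) hj
    have h1 : ((j • S : Sylow p J) : Subgroup J).map J.subtype = cj (j : G) ((S : Subgroup J).map J.subtype) := by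
      rw [Sylow.coe_subgroup_smul]
      ext z
      constructor
      · rintro ⟨w, ⟨v, hv, rfl⟩, rfl⟩
        exact ⟨(v : G), ⟨v, hv, rfl⟩, rfl⟩
      · rintro ⟨_, ⟨v, hv, rfl⟩, rfl⟩
        exact ⟨_, ⟨v, hv, rfl⟩, rfl⟩
    rw [h1] at h
    change cj (j : G) ((T.subgroupOf J).map J.subtype) = ((cj a T).subgroupOf J).map J.subtype at h
    rwa [Subgroup.map_subgroupOf_eq_of_le hTJ, Subgroup.map_subgroupOf_eq_of_le hle] at h
  show cj ((j : G)⁻¹ * a) T = T
  rw [← cj_cj, ← e, cj_cj, inv_mul_cancel, cj_one]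

end

/-- Let p be a prime and G a finite group with a normal subgroup A such that, both in A and in G/A, every subgroup containing a Sylow p-subgroup of that group is pronormal in that group. Let T be a Sylow p-subgroup of A. Then every subgroup of G containing a Sylow p-subgroup of G is pronormal in G if and only if (i) every subgroup of N_G(T)/T containing a Sylow p-subgroup of N_G(T)/T is pronormal there, and (ii) for every subgroup H of G containing a Sylow p-subgroup of G, the image of N_G(H) in G/A is the full normalizer of the image of H. (Pronormal: H and gHg⁻¹ are conjugate inside the subgroup they generate, for every g.) -/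
theorem result {G : Type*} [Group G] [Finite G] {p : ℕ} [Fact p.Prime]
    (A : Subgroup G) [A.Normal] (hA : (∀ K : Subgroup ↥A, (∃ P : Sylow p ↥A, (P : Subgroup ↥A) ≤ K) → Cfsg.IsPronormal K)) (hQ : (∀ K : Subgroup (G ⧸ A), (∃ P : Sylow p (G ⧸ A), (P : Subgroup (G ⧸ A)) ≤ K) → Cfsg.IsPronormal K))
    (T : Subgroup G) (hT : ∃ P : Sylow p ↥A, (P : Subgroup ↥A).map A.subtype = T) [(T.subgroupOf (Subgroup.normalizer (T : Set G))).Normal] :
    (∀ K : Subgroup G, (∃ P : Sylow p G, (P : Subgroup G) ≤ K) → Cfsg.IsPronormal K) ↔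
      ((∀ K : Subgroup (↥(Subgroup.normalizer (T : Set G)) ⧸ T.subgroupOf (Subgroup.normalizer (T : Set G))), (∃ P : Sylow p (↥(Subgroup.normalizer (T : Set G)) ⧸ T.subgroupOf (Subgroup.normalizer (T : Set G))), (P : Subgroup (↥(Subgroup.normalizer (T : Set G)) ⧸ T.subgroupOf (Subgroup.normalizer (T : Set G)))) ≤ K) → Cfsg.IsPronormal K) ∧
        ∀ K : Subgroup G, (∃ P : Sylow p G, (P : Subgroup G) ≤ K) →
          (Subgroup.normalizer (K : Set G)).map (QuotientGroup.mk' A) = Subgroup.normalizer ((K.map (QuotientGroup.mk' A) : Subgroup (G ⧸ A)) : Set (G ⧸ A))) := by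
  classical
  obtain ⟨T₀, hT₀⟩ := hT
  have hTA : T ≤ A := hT₀ ▸ Subgroup.map_subtype_le _
  have hTp : IsPGroup p T := hT₀ ▸ T₀.isPGroup'.map A.subtype
  set N := Subgroup.normalizer (T : Set G) with hNdef
  have hTN : T ≤ N := Subgroup.le_normalizer
  -- a Sylow subgroup containing `T` lies in `N`
  have hPT : ∀ P : Sylow p G, T ≤ (P : Subgroup G) → (P : Subgroup G) ⊓ A = T ∧ (P : Subgroup G) ≤ N := by
    intro P hP
    obtain ⟨S, hS⟩ := exists_sylow_inf A P
    have e : (P : Subgroup G) ⊓ A = T := by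
      refine (Subgroup.eq_of_le_of_card_ge (le_inf hP hTA) ?_).symm
      rw [← hS, ← hT₀, Subgroup.card_map_of_injective A.subtype_injective,
        Subgroup.card_map_of_injective A.subtype_injective, S.card_eq_multiplicity, T₀.card_eq_multiplicity]
    refine ⟨e, ?_⟩
    rw [hNdef, ← e]
    exact le_trans (le_inf Subgroup.le_normalizer Subgroup.le_normalizer_of_normal)
      (Subgroup.inf_normalizer_le_normalizer_inf)
  constructor
  · intro hG
    refine ⟨fun K hK => ?_, fun K hK => ?_⟩
    · obtain ⟨R, hR⟩ := hK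
      set f := QuotientGroup.mk' (T.subgroupOf N) with hf
      have hfs : Function.Surjective f := QuotientGroup.mk'_surjective _
      rw [← Subgroup.map_comap_eq_self_of_surjective hfs K]
      refine isPronormal_image hfs (isPronormal_restrict (hG _ ?_))
      obtain ⟨P0, hP0⟩ := hTp.exists_le_sylow
      let PN : Sylow p N := P0.subtype (hPT P0 hP0).2
      obtain ⟨c, hc⟩ := MulAction.exists_smul_eq (↥N ⧸ T.subgroupOf N) (PN.mapSurjective hfs) R
      obtain ⟨c, rfl⟩ := hfs c
      refine ⟨(c : G) • P0, fun z hz => ?_⟩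
      rw [Sylow.coe_subgroup_smul] at hz
      obtain ⟨w, hw, rfl⟩ := hz
      have hwN : w ∈ N := (hPT P0 hP0).2 hw
      refine ⟨c * ⟨w, hwN⟩ * c⁻¹, ?_, rfl⟩
      rw [SetLike.mem_coe, Subgroup.mem_comap]
      apply hR
      rw [← hc, Sylow.coe_subgroup_smul, Sylow.coe_mapSurjective, map_mul, map_mul, map_inv]
      exact Subgroup.smul_mem_pointwise_smul _ (MulAut.conj (f c)) _
        (Subgroup.mem_map_of_mem f (Subgroup.mem_subgroupOf.mpr hw))
    · set f := QuotientGroup.mk' A with hf
      refine le_antisymm (Subgroup.le_normalizer_map f) fun y hy => ?_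
      obtain ⟨g, rfl⟩ := QuotientGroup.mk'_surjective A y
      obtain ⟨x, hx, he⟩ := hG K hK g
      have hKg : ∀ z ∈ cj g K, f z ∈ K.map f := by
        rintro _ ⟨u, hu, rfl⟩
        have := (Subgroup.mem_normalizer_iff.mp hy (f u)).mp ⟨u, hu, rfl⟩
        show f (g * u * g⁻¹) ∈ K.map f
        rw [map_mul, map_mul, map_inv]
        exact this
      have hxK : f x ∈ K.map f := by
        have hle : (K ⊔ cj g K).map f ≤ K.map f := by
          rw [Subgroup.map_sup]
          exact sup_le le_rfl fun z ⟨u, hu, e⟩ => e ▸ hKg u hu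
        exact hle ⟨x, hx, rfl⟩
      obtain ⟨k, hk, hkx⟩ := hxK
      refine ⟨k * (x⁻¹ * g), Subgroup.mul_mem _ (Subgroup.le_normalizer hk)
        (Subgroup.mem_normalizer_iff_map_conj_eq.mpr ?_), by rw [map_mul, map_mul, map_inv, hkx, mul_inv_cancel_left]⟩
      show cj (x⁻¹ * g) K = K
      rw [← cj_cj, show cj g K = cj x K from he, cj_cj, inv_mul_cancel, cj_one]
  · rintro ⟨hi, hii⟩ K ⟨P, hPK⟩
    -- we may assume that `P` contains `T`
    obtain ⟨P0, hP0⟩ := hTp.exists_le_sylow
    obtain ⟨c, hc⟩ := MulAction.exists_smul_eq G P P0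
    suffices hmain : ∀ K : Subgroup G, (P0 : Subgroup G) ≤ K → IsPronormal K by
      have := isPronormal_cj c⁻¹ (hmain (cj c K) (by
        rw [← hc, Sylow.coe_subgroup_smul]
        exact Subgroup.map_mono hPK))
      rwa [cj_cj, inv_mul_cancel, cj_one] at this
    clear hc c hPK P K
    intro K hPK g
    obtain ⟨hPA, hPN⟩ := hPT P0 hP0
    set f := QuotientGroup.mk' A with hf
    have hfs : Function.Surjective f := QuotientGroup.mk'_surjective _
    -- first reduce to elements of `A`
    have hA1 : ∀ a ∈ A, Good K a := by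
      intro a ha
      -- reduce to normalising `J = K ⊓ A`
      set J := K ⊓ A with hJ
      have hTJ : T ≤ J := le_inf (hP0.trans hPK) hTA
      have hJpro : IsPronormal (J.subgroupOf A) := by
        refine hA _ ⟨T₀, ?_⟩
        rw [← Subgroup.map_le_map_iff_of_injective A.subtype_injective, hT₀,
          Subgroup.map_subgroupOf_eq_of_le (inf_le_right : J ≤ A)]
        exact hTJ
      obtain ⟨y, hy, -, hye⟩ := exists_witness (inf_le_right : J ≤ A) hJpro ha
      refine good_mul ((sup_le_sup inf_le_left (Subgroup.map_mono inf_le_left)) hy) ?_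
      have hb : y⁻¹ * a ∈ Subgroup.normalizer (J : Set G) := Subgroup.mem_normalizer_iff_map_conj_eq.mpr
        (show cj (y⁻¹ * a) J = J by rw [← cj_cj, hye, cj_cj, inv_mul_cancel, cj_one])
      generalize y⁻¹ * a = b at hb
      -- reduce to normalising `T`
      have hidx : ¬ p ∣ (T.subgroupOf J).index := by
        intro h
        have h' : p ∣ T.relIndex A := dvd_trans h (Dvd.intro _ (Subgroup.relIndex_mul_relIndex T J A hTJ inf_le_right))
        refine T₀.not_dvd_index (h'.trans (dvd_of_eq ?_))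
        rw [← hT₀, Subgroup.relIndex, Subgroup.subgroupOf,
          Subgroup.comap_map_eq_self_of_injective A.subtype_injective]
      obtain ⟨j, hj, hjb⟩ := exists_frattini hTJ hTp hidx hb
      refine good_mul (Subgroup.mem_sup_left hj.1) ?_
      have hb2 : j⁻¹ * b ∈ Subgroup.normalizer (J : Set G) :=
        Subgroup.mul_mem _ (Subgroup.inv_mem _ (Subgroup.le_normalizer hj)) hb
      generalize j⁻¹ * b = n at hjb hb2
      clear hye hy y ha a hb b hj j
      -- use the hypothesis on `N / T`
      set KN := K ⊓ N with hKN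
      have hTKN : T ≤ KN := le_inf (hP0.trans hPK) hTN
      have hKJ : K ≤ Subgroup.normalizer (J : Set G) :=
        le_trans (le_inf Subgroup.le_normalizer Subgroup.le_normalizer_of_normal) Subgroup.inf_normalizer_le_normalizer_inf
      have hKNpro : ∃ x ∈ KN ⊔ cj n KN, cj n KN = cj x KN := by
        set q := QuotientGroup.mk' (T.subgroupOf N) with hq
        have hqs : Function.Surjective q := QuotientGroup.mk'_surjective _
        have hpro := hi ((KN.subgroupOf N).map q) ⟨(P0.subtype hPN).mapSurjective hqs, by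
          rw [Sylow.coe_mapSurjective, Sylow.coe_subtype]
          exact Subgroup.map_mono (Subgroup.comap_mono (le_inf hPK hPN))⟩
        obtain ⟨x, hx, hxe⟩ := hpro (q ⟨n, hjb⟩)
        obtain ⟨x, rfl⟩ := hqs x
        have e : ∀ a : N, ((KN.subgroupOf N).map q).map (MulAut.conj (q a)).toMonoidHom =
            ((cj (a : G) KN).subgroupOf N).map q := by
          intro a
          have h1 : cj (a : G) KN ≤ N := by
            rintro _ ⟨z, hz, rfl⟩
            exact N.mul_mem (N.mul_mem a.2 hz.2) (N.inv_mem a.2)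
          have h2 : (cj (a : G) KN).subgroupOf N = (KN.subgroupOf N).map (MulAut.conj a).toMonoidHom := by
            refine Subgroup.map_injective N.subtype_injective ?_
            rw [Subgroup.map_subgroupOf_eq_of_le h1, Subgroup.map_map]
            conv_lhs => rw [cj, ← Subgroup.map_subgroupOf_eq_of_le (show KN ≤ N from inf_le_right), Subgroup.map_map]
            congr 1
          rw [h2, Subgroup.map_map, Subgroup.map_map]
          congr 1
        have hcjT : ∀ a : N, T.subgroupOf N ≤ (cj (a : G) KN).subgroupOf N := by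
          intro a z hz
          rw [Subgroup.mem_subgroupOf] at hz ⊢
          rw [← cj_eq_of_mem a.2] at hz
          exact Subgroup.map_mono hTKN hz
        have hcjN : ∀ a : N, cj (a : G) KN ≤ N := by
          rintro a _ ⟨z, hz, rfl⟩
          exact N.mul_mem (N.mul_mem a.2 hz.2) (N.inv_mem a.2)
        rw [e] at hx hxe
        rw [e] at hxe
        refine ⟨x, ?_, ?_⟩
        · rw [← Subgroup.map_sup] at hx
          have hker : q.ker ≤ KN.subgroupOf N ⊔ (cj n KN).subgroupOf N := by
            rw [hq, QuotientGroup.ker_mk']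
            exact (hcjT ⟨n, hjb⟩).trans le_sup_right
          have := Subgroup.mem_comap.mpr hx
          rw [Subgroup.comap_map_eq_self hker] at this
          exact (Subgroup.map_subgroupOf_eq_of_le (sup_le inf_le_right (hcjN ⟨n, hjb⟩)) ▸
            Subgroup.mem_map_of_mem N.subtype (Subgroup.subgroupOf_sup inf_le_right (hcjN ⟨n, hjb⟩) ▸ this))
        · have h := congrArg (Subgroup.comap q) hxe
          rw [Subgroup.comap_map_eq_self (by rw [hq, QuotientGroup.ker_mk']; exact hcjT ⟨n, hjb⟩),
            Subgroup.comap_map_eq_self (by rw [hq, QuotientGroup.ker_mk']; exact hcjT x)] at h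
          have h' := congrArg (Subgroup.map N.subtype) h
          rwa [Subgroup.map_subgroupOf_eq_of_le (hcjN ⟨n, hjb⟩), Subgroup.map_subgroupOf_eq_of_le (hcjN x)] at h'
      obtain ⟨x, hx, hxe⟩ := hKNpro
      refine good_mul ((sup_le_sup inf_le_left (Subgroup.map_mono inf_le_left)) hx) (good_of_mem_normalizer ?_)
      have hxJ : x ∈ Subgroup.normalizer (J : Set G) := by
        refine sup_le (inf_le_left.trans hKJ) ?_ hx
        rintro _ ⟨z, hz, rfl⟩
        exact Subgroup.mul_mem _ (Subgroup.mul_mem _ hb2 (hKJ hz.1)) (Subgroup.inv_mem _ hb2)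
      set m := x⁻¹ * n with hm
      have hmJ : m ∈ Subgroup.normalizer (J : Set G) := Subgroup.mul_mem _ (Subgroup.inv_mem _ hxJ) hb2
      have hmK : cj m KN = KN := by rw [hm, ← cj_cj, hxe, cj_cj, inv_mul_cancel, cj_one]
      have hKdec : K = J ⊔ KN := by
        refine le_antisymm (fun k hk => ?_) (sup_le inf_le_left inf_le_left)
        obtain ⟨i, hi', hik⟩ := exists_frattini hTJ hTp hidx (hKJ hk)
        rw [show k = i * (i⁻¹ * k) by rw [mul_inv_cancel_left]]
        exact Subgroup.mul_mem_sup hi' ⟨K.mul_mem (K.inv_mem hi'.1) hk, hik⟩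
      rw [hKdec]
      refine Subgroup.mem_normalizer_iff_map_conj_eq.mpr ?_
      rw [Subgroup.map_sup]
      exact congrArg₂ (· ⊔ ·) (cj_eq_of_mem hmJ) hmK
    -- the general case
    obtain ⟨x, hx, hxe⟩ := hQ (K.map f) ⟨P0.mapSurjective hfs, by
      rw [Sylow.coe_mapSurjective]; exact Subgroup.map_mono hPK⟩ (f g)
    have e : ∀ a : G, (K.map f).map (MulAut.conj (f a)).toMonoidHom = (cj a K).map f := by
      intro a
      rw [cj, Subgroup.map_map, Subgroup.map_map]
      congr 1
    rw [e, ← Subgroup.map_sup] at hx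
    obtain ⟨x, hx, rfl⟩ := hx
    rw [e, e] at hxe
    refine good_mul hx ?_
    have hn : f (x⁻¹ * g) ∈ (Subgroup.normalizer (K : Set G)).map f := by
      rw [hii K ⟨P0, hPK⟩]
      refine Subgroup.mem_normalizer_iff_map_conj_eq.mpr ?_
      show (K.map f).map (MulAut.conj (f (x⁻¹ * g))).toMonoidHom = _
      have e2 : ∀ (a : G) (L : Subgroup G), (cj a L).map f = (L.map f).map (MulAut.conj (f a)).toMonoidHom := by
        intro a L
        rw [cj, Subgroup.map_map, Subgroup.map_map]
        congr 1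
      rw [e, ← cj_cj, e2, hxe, ← e2, cj_cj, inv_mul_cancel, cj_one]
    obtain ⟨n, hn, hne⟩ := hn
    have ha : x⁻¹ * g * n⁻¹ ∈ A := by
      rw [← QuotientGroup.eq_one_iff]
      show f _ = 1
      rw [map_mul, map_inv f n, hne, mul_inv_cancel]
    obtain ⟨y, hy, hye⟩ := hA1 _ ha
    have hcn : cj (x⁻¹ * g * n⁻¹) K = cj (x⁻¹ * g) K := by
      rw [← cj_cj _ n⁻¹, cj_eq_of_mem (Subgroup.inv_mem _ hn)]
    rw [hcn] at hy hye
    exact ⟨y, hy, hye⟩

end Cfsg.Agent.S4270
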