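import Cfsg.Statements.S4271
import Cfsg.Agent.S4270

set_option linter.style.haveILetI false
open scoped Pointwise
-- import your own Cfsg.Agent.* helpers here

set_option autoImplicit false
open Cfsg

namespace Cfsg.Agent.S4271

/-- Let p be a prime and G a finite group with a normal subgroup A such that every subgroup of A containing a Sylow p-subgroup of A is pronormal in A, and the Sylow p-subgroups of G/A are self-normalizing. Let T be a Sylow p-subgroup of A. Then every subgroup of G containing a Sylow p-subgroup of G is pronormal in G if and only if every subgroup of N_G(T)/T containing a Sylow p-subgroup of N_G(T)/T is pronormal in N_G(T)/T. (Pronormal: H and gHg⁻¹ are conjugate inside the subgroup they generate, for every g.) -/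
theorem result {G : Type*} [Group G] [Finite G] {p : ℕ} [Fact p.Prime]
    (A : Subgroup G) [A.Normal] (hA : (∀ K : Subgroup ↥A, (∃ P : Sylow p ↥A, (P : Subgroup ↥A) ≤ K) → Cfsg.IsPronormal K))
    (hQ : ∀ P : Sylow p (G ⧸ A), Subgroup.normalizer ((P : Subgroup (G ⧸ A)) : Set (G ⧸ A)) = P)
    (T : Subgroup G) (hT : ∃ P : Sylow p ↥A, (P : Subgroup ↥A).map A.subtype = T) [(T.subgroupOf (Subgroup.normalizer (T : Set G))).Normal] :
    (∀ K : Subgroup G, (∃ P : Sylow p G, (P : Subgroup G) ≤ K) → Cfsg.IsPronormal K) ↔ (∀ K : Subgroup (↥(Subgroup.normalizer (T : Set G)) ⧸ T.subgroupOf (Subgroup.normalizer (T : Set G))), (∃ P : Sylow p (↥(Subgroup.normalizer (T : Set G)) ⧸ T.subgroupOf (Subgroup.normalizer (T : Set G))), (P : Subgroup (↥(Subgroup.normalizer (T : Set G)) ⧸ T.subgroupOf (Subgroup.normalizer (T : Set G)))) ≤ K) → Cfsg.IsPronormal K) := by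
  classical
  -- a subgroup of `G / A` containing a Sylow subgroup is self-normalising
  have hself : ∀ L : Subgroup (G ⧸ A), (∃ R : Sylow p (G ⧸ A), (R : Subgroup (G ⧸ A)) ≤ L) →
      Subgroup.normalizer (L : Set (G ⧸ A)) ≤ L := by
    rintro L ⟨R, hR⟩ y hy
    obtain ⟨j, hj, hjy⟩ := Cfsg.Agent.S4270.exists_frattini hR R.isPGroup'
      (fun h => R.not_dvd_index (h.trans (Dvd.intro _ (Subgroup.relIndex_mul_index hR)))) hy
    rw [hQ R] at hjy
    have := L.mul_mem hj (hR hjy)
    rwa [mul_inv_cancel_left] at this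
  have hQ' : ∀ K : Subgroup (G ⧸ A), (∃ P : Sylow p (G ⧸ A), (P : Subgroup (G ⧸ A)) ≤ K) →
      Cfsg.IsPronormal K := fun K ⟨R, hR⟩ =>
    CfsgLib.OutAut.isPronormal_of_normalizer_sylow_le R K hR (le_of_eq_of_le (hQ R) hR)
  rw [Cfsg.Agent.S4270.result A hA hQ' T hT, and_iff_left]
  rintro K ⟨P, hP⟩
  refine le_antisymm (Subgroup.le_normalizer_map _) ?_
  refine (hself _ ⟨P.mapSurjective (QuotientGroup.mk'_surjective A), ?_⟩).trans
    (Subgroup.map_mono Subgroup.le_normalizer)
  rw [Sylow.coe_mapSurjective]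
  exact Subgroup.map_mono hP

end Cfsg.Agent.S4271
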