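import Cfsg.Statements.S4330
import Cfsg.Agent.Lib.Components2.FixedPointAvoid
import Cfsg.Agent.Lib.Cores.PCore
import Cfsg.Agent.Lib.SolvableStructure.MinimalNormal
-- import your own Cfsg.Agent.* helpers here

set_option autoImplicit false
open Pointwise
open Cfsg

namespace Cfsg.Agent.S4330

open scoped Pointwise

universe u

open CfsgLib.Components2

/-- The core of the induction: a `p`-group joined with some conjugate in every class by a
`p`-group, in a solvable group. -/
theorem core {p : ℕ} (hp : p.Prime) (h2 : p ≠ 2) (n : ℕ) :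
    ∀ {G : Type u} [Group G] [Finite G], Group.IsSolvable G → Nat.card G = n →
      ∀ A : Subgroup G, IsPGroup p A →
        (∀ c : G, ∃ g : G, IsConj c g ∧ IsPGroup p ↥(A ⊔ MulAut.conj g • A)) →
          A ≤ Cfsg.pCore p G := by
  have : Fact p.Prime := ⟨hp⟩
  induction n using Nat.strong_induction_on with
  | _ n ih =>
  intro G _ _ hG hn A hA h
  have hquot : ∀ (N : Subgroup G) [N.Normal], N ≠ ⊥ →
      A.map (QuotientGroup.mk' N) ≤ Cfsg.pCore p (G ⧸ N) := by
    intro N _ hN
    have : Group.IsSolvable G := hG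
    refine ih _ ?_ inferInstance rfl _ (hA.map _) fun c => ?_
    · have h1 : 1 < Nat.card N := Finite.one_lt_card_iff_nontrivial.2
        ((Subgroup.nontrivial_iff_ne_bot N).2 hN)
      rw [← hn, ← N.card_mul_index, ← Subgroup.index_eq_card]
      exact lt_mul_of_one_lt_left (Nat.pos_of_ne_zero Subgroup.index_ne_zero_of_finite) h1
    obtain ⟨c, rfl⟩ := QuotientGroup.mk_surjective c
    obtain ⟨g, hg, hgA⟩ := h c
    refine ⟨(g : G ⧸ N), (QuotientGroup.mk' N).map_isConj hg, (hgA.map (QuotientGroup.mk' N)).to_le ?_⟩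
    rw [Subgroup.map_sup]
    refine sup_le_sup le_rfl ?_
    rintro _ ⟨_, ⟨a, ha, rfl⟩, rfl⟩
    exact ⟨_, ⟨a, ha, rfl⟩, by simp⟩
  by_cases hO : Cfsg.pCore p G = ⊥
  swap
  · have hn' : (Cfsg.pCore p G).Normal := inferInstance
    intro a ha
    rw [← CfsgLib.Cores.comap_pCore_quotient (Cfsg.pCore p G) (CfsgLib.Cores.isPGroup_pCore p G)]
    exact hquot _ hO ⟨a, ha, rfl⟩
  rw [hO]
  by_contra hne
  rw [le_bot_iff] at hne
  have : Group.IsSolvable G := hG
  have hpA : p ∣ Nat.card A := by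
    obtain ⟨k, hk⟩ := IsPGroup.iff_card.1 hA
    rw [hk]
    refine dvd_pow_self p fun hk0 => hne ?_
    rw [hk0, pow_zero] at hk
    exact Subgroup.eq_bot_of_card_eq A hk
  obtain ⟨⟨a, haA⟩, ha⟩ := exists_prime_orderOf_dvd_card' p hpA
  rw [Subgroup.orderOf_mk] at ha
  have : Nontrivial G := nontrivial_of_ne a 1 fun h => hp.ne_one (by rw [← ha, h, orderOf_one])
  obtain ⟨V, -, hVn, hV, hmin⟩ := CfsgLib.SolvableStructure.exists_minimal_normal
    (N := (⊤ : Subgroup G)) inferInstance top_ne_bot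
  obtain ⟨q, d, hq, hd, hcard, -, hVc⟩ := CfsgLib.SolvableStructure.minimal_normal_prime hV hmin
  have hqp : q ≠ p := by
    rintro rfl
    exact hV (le_bot_iff.1 (hO ▸ CfsgLib.Cores.le_pCore (IsPGroup.of_card hcard)))
  have hcop : p.Coprime (Nat.card V) := by
    rw [hcard]; exact Nat.Coprime.pow_right d ((Nat.coprime_primes hp hq).2 (Ne.symm hqp))
  let : CommGroup V := { (inferInstance : Group V) with mul_comm := hVc.is_comm.comm }
  set M := (Cfsg.pCore p (G ⧸ V)).comap (QuotientGroup.mk' V) with hM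
  let φ : G →* MulAut V := MulAut.conjNormal
  have hφV : ∀ v ∈ V, φ v = 1 := by
    intro v hv
    refine MulEquiv.ext fun w => Subtype.ext ?_
    have : v * (w : G) = (w : G) * v := congrArg Subtype.val (hVc.is_comm.comm ⟨v, hv⟩ w)
    simp [φ, MulAut.conjNormal_apply, this]
  have haM : a ∈ M := hquot V hV ⟨a, haA, rfl⟩
  have hMn : M.Normal := Subgroup.Normal.comap inferInstance _
  have hpc : ∀ x ∈ M, ∃ k : ℕ, x ^ p ^ k ∈ V := by
    intro x hx
    obtain ⟨k, hk⟩ := CfsgLib.Cores.isPGroup_pCore p (G ⧸ V) ⟨_, hx⟩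
    refine ⟨k, (QuotientGroup.eq_one_iff _).1 ?_⟩
    simpa using congrArg Subtype.val hk
  have hN : IsPGroup p (M.map φ) := by
    rintro ⟨_, x, hx, rfl⟩
    obtain ⟨k, hk⟩ := hpc x hx
    exact ⟨k, Subtype.ext (by simpa [← map_pow] using hφV _ hk)⟩
  have hap : φ a ^ p = 1 := by rw [← map_pow, ← ha, pow_orderOf_eq_one, map_one]
  have ha1 : φ a ≠ 1 := by
    intro h1
    set L := φ.ker ⊓ M with hL
    let g : L →* Cfsg.pCore p (G ⧸ V) := ((QuotientGroup.mk' V).comp L.subtype).codRestrict _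
      fun x => x.2.2
    have hker : g.ker ≤ Subgroup.center L := by
      intro x hx
      have hxV : (x : G) ∈ V := (QuotientGroup.eq_one_iff _).1 (congrArg Subtype.val hx)
      refine Subgroup.mem_center_iff.2 fun y => Subtype.ext ?_
      have hy : φ (y : G) = 1 := y.2.1
      have h' := congrArg (fun e : MulAut V => ((e ⟨x, hxV⟩ : V) : G)) hy
      simp only [φ, MulAut.conjNormal_apply, MulAut.one_apply] at h'
      show (y : G) * x = x * y
      exact mul_inv_eq_iff_eq_mul.1 h'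
    have : Group.IsNilpotent (Cfsg.pCore p (G ⧸ V)) :=
      (CfsgLib.Cores.isPGroup_pCore p (G ⧸ V)).isNilpotent
    have hLn : Group.IsNilpotent L := Subgroup.isNilpotent_of_ker_le_center g hker
    obtain ⟨S, hS⟩ := IsPGroup.exists_le_sylow (p := p)
      (show IsPGroup p (Subgroup.zpowers (⟨a, h1, haM⟩ : L)) from IsPGroup.of_card (n := 1)
        (by rw [Nat.card_zpowers, ← Subgroup.orderOf_coe]; simpa using ha))
    have hSn : (S : Subgroup L).Normal :=
      S.normal_of_normalizerCondition Group.normalizerCondition_of_isNilpotent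
    have hSc : (S : Subgroup L).Characteristic := S.characteristic_of_normal hSn
    have hLnormal : L.Normal := inferInstance
    have : ((S : Subgroup L).map L.subtype).Normal := ConjAct.normal_of_characteristic_of_normal
    have hle := CfsgLib.Cores.le_pCore (S.2.map L.subtype)
    rw [hO] at hle
    have := hle ⟨⟨a, h1, haM⟩, hS (Subgroup.mem_zpowers _), rfl⟩
    rw [Subgroup.mem_bot] at this
    exact hp.ne_one (by rw [← ha, show a = 1 from this, orderOf_one])
  obtain ⟨v, hv⟩ := FixedPointAvoid.exists_moved hp h2 hcop (Δ := φ.range) (N := M.map φ) hN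
    (Subgroup.map_le_range φ M) (fun δ hδ => by
      obtain ⟨x, rfl⟩ := hδ
      refine Subgroup.eq_of_le_of_card_ge ?_
        (Subgroup.card_map_of_injective (MulAut.conj _).injective).ge
      rintro _ ⟨_, ⟨m, hm, rfl⟩, rfl⟩
      exact ⟨x * m * x⁻¹, hMn.conj_mem m hm x, by simp⟩)
    ⟨a, haM, rfl⟩ hap ha1
  obtain ⟨g, hg, hgA⟩ := h (v : G)
  obtain ⟨x, hx⟩ := isConj_iff.1 hg
  have hgV : g ∈ V := hx ▸ hVn.conj_mem _ v.2 x
  have hcomm : g * a * g⁻¹ = a := by
    have h1 : g * a * g⁻¹ * a⁻¹ ∈ A ⊔ MulAut.conj g • A :=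
      mul_mem (Subgroup.mem_sup_right ⟨a, haA, rfl⟩) (Subgroup.mem_sup_left (inv_mem haA))
    have h2' : g * a * g⁻¹ * a⁻¹ ∈ V := by
      rw [mul_assoc g a, mul_assoc g]
      exact mul_mem hgV (hVn.conj_mem _ (inv_mem hgV) a)
    obtain ⟨k, hk⟩ := hgA ⟨_, h1⟩
    have h3 : g * a * g⁻¹ * a⁻¹ = 1 := by
      have h4 := FixedPointAvoid.eq_one_of_pow_prime_pow hcop (v := (⟨_, h2'⟩ : V)) (n := k)
        (Subtype.ext (by simpa using congrArg Subtype.val hk))
      exact congrArg Subtype.val h4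
    exact mul_inv_eq_one.1 h3
  refine hv (φ x⁻¹) ⟨x⁻¹, rfl⟩ ?_
  rw [← map_inv, ← map_mul, ← map_mul]
  refine Subtype.ext ?_
  simp only [φ, MulAut.conjNormal_apply, inv_inv]
  have h5 : g * a = a * g := mul_inv_eq_iff_eq_mul.1 hcomm
  calc x⁻¹ * a * x * (v : G) * (x⁻¹ * a * x)⁻¹ = x⁻¹ * (a * (x * v * x⁻¹)) * a⁻¹ * x := by group
    _ = x⁻¹ * (g * a) * a⁻¹ * x := by rw [hx, h5]
    _ = x⁻¹ * g * x := by group
    _ = v := by rw [← hx]; group


/-- Let G be a finite solvable group, p an odd prime and A a p-subgroup of G such that every conjugacy class of G contains an element g for which A is subnormal in the subgroup generated by A and its conjugate by g. Then A is contained in O_p(G). (The hypothesis that p is odd is needed.) -/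
theorem result {G : Type*} [Group G] [Finite G]
    (hG : Group.IsSolvable G) (p : ℕ) [Fact p.Prime] (hp : p ≠ 2) (A : Subgroup G) (hA : IsPGroup p A)
    (h : ∀ c : G, ∃ g : G, IsConj c g ∧ (A.subgroupOf (A ⊔ MulAut.conj g • A)).IsSubnormal) :
    A ≤ Cfsg.pCore p G := by
  refine core.{_} (Fact.out : p.Prime) hp (Nat.card G) hG rfl A hA fun c => ?_
  obtain ⟨g, hg, hsub⟩ := h c
  refine ⟨g, hg, ?_⟩
  set X := A ⊔ MulAut.conj g • A
  set O := Cfsg.pCore p X
  have hAO : A.subgroupOf X ≤ O := CfsgLib.Cores.le_pCore_of_subnormal hsub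
    (hA.of_equiv (Subgroup.subgroupOfEquivOfLe le_sup_left).symm)
  have hgX : MulAut.conj g • A ≤ X := le_sup_right
  have hB : IsPGroup p ((MulAut.conj g • A).subgroupOf X) :=
    (hA.of_equiv (Subgroup.equivSMul (MulAut.conj g) A)).of_equiv
      (Subgroup.subgroupOfEquivOfLe hgX).symm
  have htop : O ⊔ (MulAut.conj g • A).subgroupOf X = ⊤ := by
    rw [eq_top_iff, ← Subgroup.subgroupOf_self X]
    show (A ⊔ MulAut.conj g • A).subgroupOf X ≤ _
    rw [Subgroup.subgroupOf_sup le_sup_left hgX]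
    exact sup_le_sup hAO le_rfl
  have hXp := (CfsgLib.Cores.isPGroup_pCore p X).to_sup_of_normal_left hB
  rw [htop] at hXp
  exact hXp.of_equiv Subgroup.topEquiv

end Cfsg.Agent.S4330
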