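import Cfsg.Statements.S4331
import Cfsg.Agent.Lib.Subnormal.Basic
import Cfsg.Agent.Lib.Cores.PCore
-- import your own Cfsg.Agent.* helpers here

set_option autoImplicit false
open Cfsg

namespace Cfsg.Agent.S4331

open scoped Pointwise

open Matrix

abbrev Mat := Matrix (Fin 2) (Fin 2) (ZMod 3)

/-- Multiplication by a square root of `-1` on the plane over the field with three elements. -/
def J : Mat := !![0, 2; 1, 0]

/-- The semilinear group: invertible maps commuting or anticommuting with `J`. -/
def H : Subgroup (GL (Fin 2) (ZMod 3)) where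
  carrier := {M | (M : Mat) * J = J * M ∨ (M : Mat) * J = -(J * M)}
  one_mem' := Or.inl (by simp)
  mul_mem' := by
    rintro M N (hM | hM) (hN | hN)
    all_goals first
      | exact Or.inl (by rw [Units.val_mul, mul_assoc, hN]; first
          | rw [← mul_assoc, hM, mul_assoc]
          | rw [mul_neg, ← mul_assoc, hM, neg_mul, neg_neg, mul_assoc])
      | exact Or.inr (by rw [Units.val_mul, mul_assoc, hN]; first
          | rw [← mul_assoc, hM, neg_mul, mul_assoc]
          | rw [mul_neg, ← mul_assoc, hM, mul_assoc])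
  inv_mem' := by
    intro M hM
    have e : ∀ X : Mat, (M : Mat) * J = X → J * (M⁻¹ : GL (Fin 2) (ZMod 3)) = (M⁻¹ : GL (Fin 2) (ZMod 3)) * (X * (M⁻¹ : GL (Fin 2) (ZMod 3))) := by
      intro X hX
      rw [← hX, ← mul_assoc, ← mul_assoc, Units.inv_mul, one_mul]
    rcases hM with hM | hM
    · left
      have := e _ hM
      rw [mul_assoc J, Units.mul_inv, mul_one] at this
      exact this.symm
    · right
      have := e _ hM
      rw [neg_mul, mul_assoc J, Units.mul_inv, mul_one, mul_neg] at this
      rw [this, neg_neg]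

instance factThreeS4331 : Fact (Nat.Prime 3) := ⟨by norm_num⟩

/-- The action on translations. -/
noncomputable def act : H →* MulAut (Multiplicative (Fin 2 → ZMod 3)) where
  toFun M := AddEquiv.toMultiplicative
    { toFun := fun v => ((M : GL (Fin 2) (ZMod 3)) : Mat) *ᵥ v
      invFun := fun v => (((M⁻¹ : H) : GL (Fin 2) (ZMod 3)) : Mat) *ᵥ v
      left_inv := fun v => by
        show _ *ᵥ (_ *ᵥ v) = v
        rw [Matrix.mulVec_mulVec, Subgroup.coe_inv, Units.inv_mul, Matrix.one_mulVec]
      right_inv := fun v => by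
        show _ *ᵥ (_ *ᵥ v) = v
        rw [Matrix.mulVec_mulVec, Subgroup.coe_inv, Units.mul_inv, Matrix.one_mulVec]
      map_add' := fun v w => Matrix.mulVec_add _ v w }
  map_one' := MulEquiv.ext fun v => congrArg Multiplicative.ofAdd (Matrix.one_mulVec v.toAdd)
  map_mul' M N := MulEquiv.ext fun v => congrArg Multiplicative.ofAdd
    (Matrix.mulVec_mulVec v.toAdd ((M : GL (Fin 2) (ZMod 3)) : Mat) ((N : GL (Fin 2) (ZMod 3)) : Mat)).symm

/-- The group of order 144. -/
abbrev G := Multiplicative (Fin 2 → ZMod 3) ⋊[act] H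

/-- Facts about the semilinear matrices, checked by evaluation. -/
theorem facts : ∀ a b c d : ZMod 3, a * d - b * c ≠ 0 →
    (!![a, b; c, d] * J = J * !![a, b; c, d] ∨ !![a, b; c, d] * J = -(J * !![a, b; c, d])) →
    !![a, b; c, d] ^ 8 = (1 : Mat) ∧
    (!![a, b; c, d] = (1 : Mat) ∨
      (∀ v w : ZMod 3, ∃ u u' : ZMod 3, a * u + b * u' = u + v ∧ c * u + d * u' = u' + w) ∨
      ∃ a' b' c' d' : ZMod 3, a' * d' - b' * c' ≠ 0 ∧
        (!![a', b'; c', d'] * J = J * !![a', b'; c', d'] ∨
          !![a', b'; c', d'] * J = -(J * !![a', b'; c', d'])) ∧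
        !![a', b'; c', d'] * !![a, b; c, d] = !![(1 : ZMod 3), 0; 0, 2] * !![a', b'; c', d']) := by
  decide +kernel

/-- The semilinear group moves every vector to the first axis. -/
theorem to_axis : ∀ v w : ZMod 3, ∃ a b c d : ZMod 3, a * d - b * c ≠ 0 ∧
    (!![a, b; c, d] * J = J * !![a, b; c, d] ∨ !![a, b; c, d] * J = -(J * !![a, b; c, d])) ∧
    c * v + d * w = 0 := by
  decide +kernel

/-- There is a finite solvable group G with a subgroup A of order 2 such that every conjugacy class of G contains an element g for which A is subnormal in the subgroup generated by A and g, and yet A is not contained in O_2(G). (So the corresponding criteria for odd primes fail at the prime 2, even for solvable groups.) -/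
theorem result :
    ∃ (G : Type) (_ : Group G) (_ : Finite G) (A : Subgroup G), Group.IsSolvable G ∧ Nat.card A = 2 ∧
      (∀ c : G, ∃ g : G, IsConj c g ∧ (A.subgroupOf (A ⊔ Subgroup.zpowers g)).IsSubnormal) ∧
      ¬ A ≤ Cfsg.pCore 2 G := by
  haveI : Finite H := inferInstance
  haveI : Finite G := Finite.of_equiv _ SemidirectProduct.equivProd.symm
  -- matrices of elements of `H`
  have hmk : ∀ a b c d : ZMod 3, a * d - b * c ≠ 0 →
      (!![a, b; c, d] * J = J * !![a, b; c, d] ∨ !![a, b; c, d] * J = -(J * !![a, b; c, d])) →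
      ∃ M : H, ((M : GL (Fin 2) (ZMod 3)) : Mat) = !![a, b; c, d] := by
    intro a b c d hdet hJ
    have hu : IsUnit (!![a, b; c, d] : Mat).det := by
      rw [Matrix.det_fin_two_of]; exact isUnit_iff_ne_zero.2 hdet
    exact ⟨⟨Matrix.nonsingInvUnit _ hu, hJ⟩, rfl⟩
  have hof : ∀ M : H, ∃ a b c d : ZMod 3, a * d - b * c ≠ 0 ∧
      ((M : GL (Fin 2) (ZMod 3)) : Mat) = !![a, b; c, d] ∧
      (!![a, b; c, d] * J = J * !![a, b; c, d] ∨ !![a, b; c, d] * J = -(J * !![a, b; c, d])) := by
    intro M
    refine ⟨_, _, _, _, ?_, Matrix.eta_fin_two _, ?_⟩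
    · rw [← Matrix.det_fin_two]
      exact ((Matrix.isUnit_iff_isUnit_det _).1 (M : GL (Fin 2) (ZMod 3)).isUnit).ne_zero
    · rw [← Matrix.eta_fin_two]; exact M.2
  obtain ⟨τ, hτ⟩ := hmk 1 0 0 2 (by decide) (Or.inr (by decide))
  have hp : IsPGroup 2 H := by
    intro M
    refine ⟨3, Subtype.ext (Units.ext ?_)⟩
    obtain ⟨a, b, c, d, hdet, hM, hJ⟩ := hof M
    simp only [SubmonoidClass.coe_pow, Units.val_pow_eq_pow_val, hM]
    exact (facts a b c d hdet hJ).1
  haveI : Group.IsNilpotent H := hp.isNilpotent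
  haveI : Group.IsSolvable G :=
    solvable_of_ker_le_range (SemidirectProduct.inl : Multiplicative (Fin 2 → ZMod 3) →* G)
      (SemidirectProduct.rightHom : G →* H) SemidirectProduct.range_inl_eq_ker_rightHom.ge
  let t : G := SemidirectProduct.inr τ
  let A : Subgroup G := Subgroup.zpowers t
  have hτ2 : τ * τ = 1 := Subtype.ext (Units.ext (by
    show ((τ : GL (Fin 2) (ZMod 3)) : Mat) * ((τ : GL (Fin 2) (ZMod 3)) : Mat) = 1
    rw [hτ]; decide))
  have hτ1 : τ ≠ 1 := by
    intro h
    have h' := congrArg (fun M : H => ((M : GL (Fin 2) (ZMod 3)) : Mat) 1 1) h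
    simp [hτ] at h'
    exact absurd h' (by decide)
  have hA : Nat.card A = 2 := by
    rw [Nat.card_zpowers, orderOf_eq_prime (p := 2) (by rw [sq, ← map_mul, hτ2, map_one])
      (fun h => hτ1 (SemidirectProduct.inr_injective (h.trans (map_one _).symm)))]
  have hleft : ∀ (M : H) (v : Fin 2 → ZMod 3),
      (act M (Multiplicative.ofAdd v)).toAdd = ((M : GL (Fin 2) (ZMod 3)) : Mat) *ᵥ v := fun _ _ => rfl
  -- the two kinds of good elements
  have hgoodR : ∀ g ∈ (SemidirectProduct.inr : H →* G).range,
      (A.subgroupOf (A ⊔ Subgroup.zpowers g)).IsSubnormal := by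
    intro g hg
    have hle : A ⊔ Subgroup.zpowers g ≤ (SemidirectProduct.inr : H →* G).range :=
      sup_le (Subgroup.zpowers_le.2 ⟨τ, rfl⟩) (Subgroup.zpowers_le.2 hg)
    haveI : Group.IsNilpotent ↥(A ⊔ Subgroup.zpowers g) :=
      ((hp.of_surjective _ (SemidirectProduct.inr : H →* G).rangeRestrict_surjective).to_le hle).isNilpotent
    exact CfsgLib.Subnormal.isSubnormal_of_isNilpotent _
  have hgoodC : ∀ g : G, Commute t g → (A.subgroupOf (A ⊔ Subgroup.zpowers g)).IsSubnormal := by
    intro g hg
    refine Subgroup.Normal.isSubnormal ((Subgroup.normal_subgroupOf_iff_le_normalizer le_sup_left).2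
      (sup_le Subgroup.le_normalizer (Subgroup.zpowers_le.2 (Subgroup.centralizer_le_normalizer _ ?_))))
    rw [Subgroup.mem_centralizer_iff]
    rintro _ ⟨i, rfl⟩
    exact (hg.zpow_left i).eq
  refine ⟨G, inferInstance, inferInstance, A, inferInstance, hA, fun c => ?_, ?_⟩
  · suffices hh : ∃ h : G, h * c * h⁻¹ ∈ (SemidirectProduct.inr : H →* G).range ∨
        Commute t (h * c * h⁻¹) by
      obtain ⟨h, h' | h'⟩ := hh
      · exact ⟨_, isConj_iff.2 ⟨h, rfl⟩, hgoodR _ h'⟩
      · exact ⟨_, isConj_iff.2 ⟨h, rfl⟩, hgoodC _ h'⟩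
    set v : Fin 2 → ZMod 3 := c.left.toAdd with hv
    obtain ⟨a, b, c₁, d, hdet, hM, hJ⟩ := hof c.right
    rcases (facts a b c₁ d hdet hJ).2 with h | h | ⟨a', b', c', d', hdet', hJ', heq⟩
    · -- translations
      obtain ⟨p, q, r, s, hdetp, hJp, hax⟩ := to_axis (v 0) (v 1)
      obtain ⟨N, hN⟩ := hmk p q r s hdetp hJp
      refine ⟨SemidirectProduct.inr N, Or.inr ?_⟩
      have hright : c.right = 1 := Subtype.ext (Units.ext (hM.trans h))
      refine SemidirectProduct.ext ?_ ?_
      · simp [t, hright]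
        apply Multiplicative.toAdd.injective
        have e : (act N c.left).toAdd = ((N : GL (Fin 2) (ZMod 3)) : Mat) *ᵥ v := hleft N v
        show (act τ (act N c.left)).toAdd = (act N c.left).toAdd
        rw [show (act τ (act N c.left)).toAdd =
          ((τ : GL (Fin 2) (ZMod 3)) : Mat) *ᵥ (act N c.left).toAdd from hleft τ _, e, hN, hτ]
        funext i
        fin_cases i <;> simp [Matrix.mulVec, Matrix.vecHead, Matrix.vecTail, hax]
      · simp [t, hright]
    · -- no fixed vectors: conjugate into the stabiliser of the origin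
      obtain ⟨u, u', hu, hu'⟩ := h (v 0) (v 1)
      refine ⟨SemidirectProduct.inl (Multiplicative.ofAdd ![u, u']), Or.inl ⟨c.right, ?_⟩⟩
      refine SemidirectProduct.ext ?_ (by simp)
      simp
      apply Multiplicative.toAdd.injective
      show (0 : Fin 2 → ZMod 3) = ![u, u'] + v + -((act c.right) (Multiplicative.ofAdd ![u, u'])).toAdd
      rw [hleft, hM]
      funext i
      fin_cases i
      · simp [Matrix.mulVec, Matrix.vecHead, Matrix.vecTail]; linear_combination hu
      · simp [Matrix.mulVec, Matrix.vecHead, Matrix.vecTail]; linear_combination hu'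
    · -- reflections
      obtain ⟨N, hN⟩ := hmk a' b' c' d' hdet' hJ'
      have hconj : N * c.right = τ * N := Subtype.ext (Units.ext (by
        show ((N : GL (Fin 2) (ZMod 3)) : Mat) * ((c.right : GL (Fin 2) (ZMod 3)) : Mat) =
          ((τ : GL (Fin 2) (ZMod 3)) : Mat) * ((N : GL (Fin 2) (ZMod 3)) : Mat)
        rw [hN, hM, hτ, heq]))
      set w : Fin 2 → ZMod 3 := ((N : GL (Fin 2) (ZMod 3)) : Mat) *ᵥ v with hw
      -- remove the component along the second axis
      let u : Fin 2 → ZMod 3 := ![0, w 1]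
      refine ⟨SemidirectProduct.inl (Multiplicative.ofAdd u) * SemidirectProduct.inr N, Or.inr ?_⟩
      have hz : SemidirectProduct.inl (Multiplicative.ofAdd u) * SemidirectProduct.inr N * c *
          (SemidirectProduct.inl (Multiplicative.ofAdd u) * SemidirectProduct.inr N)⁻¹ =
          SemidirectProduct.inl (Multiplicative.ofAdd (u + w - ((τ : GL (Fin 2) (ZMod 3)) : Mat) *ᵥ u)) * t := by
        refine SemidirectProduct.ext ?_ (by simp [t, ← mul_assoc, hconj])
        simp only [SemidirectProduct.mul_left, SemidirectProduct.inv_left, SemidirectProduct.left_inl,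
          SemidirectProduct.left_inr, SemidirectProduct.right_inl, SemidirectProduct.right_inr,
          SemidirectProduct.mul_right, map_one, MulAut.one_apply, one_mul, mul_one, t]
        rw [hconj, ← MulAut.mul_apply, ← map_mul, mul_inv_cancel_right]
        apply Multiplicative.toAdd.injective
        show u + (act N c.left).toAdd + ((act τ) (Multiplicative.ofAdd u)⁻¹).toAdd =
          u + w - ((τ : GL (Fin 2) (ZMod 3)) : Mat) *ᵥ u
        rw [show (act N c.left).toAdd = w from hleft N v,
          show ((act τ) (Multiplicative.ofAdd u)⁻¹).toAdd = ((τ : GL (Fin 2) (ZMod 3)) : Mat) *ᵥ (-u) from hleft _ _,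
          Matrix.mulVec_neg, sub_eq_add_neg]
      rw [hz]
      refine SemidirectProduct.ext ?_ (by simp [t])
      simp only [SemidirectProduct.mul_left, SemidirectProduct.left_inl, SemidirectProduct.left_inr,
        SemidirectProduct.right_inl, SemidirectProduct.right_inr, map_one, one_mul, mul_one, t]
      apply Multiplicative.toAdd.injective
      show (act τ (Multiplicative.ofAdd (u + w - ((τ : GL (Fin 2) (ZMod 3)) : Mat) *ᵥ u))).toAdd =
        u + w - ((τ : GL (Fin 2) (ZMod 3)) : Mat) *ᵥ u
      rw [hleft, hτ]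
      have key : ∀ z : ZMod 3, z + z - 2 * z = 0 ∧ 2 * (z + z - 2 * z) = 0 := by decide
      funext i
      fin_cases i
      · simp [u, Matrix.mulVec, Matrix.vecHead, Matrix.vecTail]
      · simp [u, Matrix.mulVec, Matrix.vecHead, Matrix.vecTail]
        linear_combination (key (w 1)).1
  · intro hle
    haveI : Fact (Nat.Prime 2) := ⟨Nat.prime_two⟩
    haveI : (Cfsg.pCore 2 G).Normal := Subgroup.sSup_normal _ (fun _ h => h.1)
    have ht : t ∈ Cfsg.pCore 2 G := hle (Subgroup.mem_zpowers t)
    let x : G := SemidirectProduct.inl (Multiplicative.ofAdd ![0, 1])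
    have hk : x * t * x⁻¹ * t⁻¹ ∈ Cfsg.pCore 2 G :=
      mul_mem (Subgroup.Normal.conj_mem inferInstance t ht x) (inv_mem ht)
    have he : x * t * x⁻¹ * t⁻¹ = SemidirectProduct.inl (Multiplicative.ofAdd ![0, 2]) := by
      refine SemidirectProduct.ext ?_ (by simp [x, t])
      simp [x, t]
      apply Multiplicative.toAdd.injective
      show ![0, 1] + -((act τ) (Multiplicative.ofAdd ![0, 1])).toAdd = (![0, 2] : Fin 2 → ZMod 3)
      rw [hleft, hτ]
      decide
    rw [he] at hk
    obtain ⟨j, hj⟩ := (CfsgLib.Cores.isPGroup_pCore 2 G).exists_orderOf_eq_pow ⟨_, hk⟩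
    rw [Subgroup.orderOf_mk, orderOf_injective _ SemidirectProduct.inl_injective,
      orderOf_ofAdd_eq_addOrderOf] at hj
    have h3 : addOrderOf (![0, 2] : Fin 2 → ZMod 3) = 3 :=
      addOrderOf_eq_prime (by decide) (by decide)
    rw [h3] at hj

    have h2 : 3 ∣ 2 ^ j := ⟨1, by rw [← hj]⟩
    exact absurd (Nat.le_of_dvd (by norm_num) (Nat.prime_three.dvd_of_dvd_pow h2)) (by norm_num)

end Cfsg.Agent.S4331
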