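import Cfsg.Statements.S4332
import Cfsg.Agent.Lib.Subnormal.Basic
import Cfsg.Agent.Lib.Cores.PCore
-- import your own Cfsg.Agent.* helpers here

set_option autoImplicit false
open Pointwise
open Cfsg

namespace Cfsg.Agent.S4332

open scoped Pointwise

/-- In the symmetric group of degree 8, let A be the subgroup generated by a 3-cycle. Then every conjugacy class contains an element g for which A is subnormal in the subgroup generated by A and its conjugate by g, although O_3 of the symmetric group of degree 8 is trivial. -/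
theorem result
    (σ : Equiv.Perm (Fin 8)) (hσ : σ.IsThreeCycle) :
    (∀ c : Equiv.Perm (Fin 8), ∃ g : Equiv.Perm (Fin 8), IsConj c g ∧
      ((Subgroup.zpowers σ).subgroupOf (Subgroup.zpowers σ ⊔ MulAut.conj g • Subgroup.zpowers σ)).IsSubnormal) ∧
    Cfsg.pCore 3 (Equiv.Perm (Fin 8)) = ⊥ := by
  classical
  refine ⟨fun c => ?_, ?_⟩
  · -- a three-cycle commuting with its conjugate by `c`
    obtain ⟨τ, hτ, hcomm⟩ : ∃ τ : Equiv.Perm (Fin 8), τ.IsThreeCycle ∧
        Commute τ (c * τ * c⁻¹) := by
      have hconj : ∀ a b : Fin 8, c * Equiv.swap a b * c⁻¹ = Equiv.swap (c a) (c b) :=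
        fun a b => (Equiv.swap_apply_apply c a b).symm
      have h3 : ∀ a b d : Fin 8, a ≠ b → a ≠ d → b ≠ d →
          (Equiv.swap a b * Equiv.swap a d).IsThreeCycle := fun a b d h h' h'' =>
        Equiv.Perm.isThreeCycle_swap_mul_swap_same h h' h''
      have hcc : ∀ a b d : Fin 8, c * (Equiv.swap a b * Equiv.swap a d) * c⁻¹ =
          Equiv.swap (c a) (c b) * Equiv.swap (c a) (c d) := by
        intro a b d
        rw [← hconj, ← hconj]; group
      by_cases hA : 3 ≤ (Finset.univ.filter fun a => c a = a).card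
      · obtain ⟨a, b, d, ha, hb, hd, hab, had, hbd⟩ := Finset.two_lt_card_iff.1 hA
        simp only [Finset.mem_filter, Finset.mem_univ, true_and] at ha hb hd
        exact ⟨_, h3 a b d hab had hbd, by rw [hcc, ha, hb, hd]⟩
      by_cases hB : ∃ a, c a ≠ a ∧ c (c (c a)) = a
      · obtain ⟨a, ha, ha3⟩ := hB
        have h2 : c (c a) ≠ a := fun e => ha (by rw [e] at ha3; exact ha3)
        have h12 : c (c a) ≠ c a := fun e => ha (c.injective e)
        refine ⟨_, h3 a (c a) (c (c a)) (Ne.symm ha) (Ne.symm h2) (Ne.symm h12), ?_⟩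
        rw [hcc, ha3]
        have : Equiv.swap (c a) (c (c a)) * Equiv.swap (c a) a =
            Equiv.swap a (c a) * Equiv.swap a (c (c a)) := by
          rw [show Equiv.swap (c a) a = Equiv.swap a (c a) from Equiv.swap_comm _ _]
          rw [Equiv.swap_mul_eq_mul_swap]
          congr 1
          rw [Equiv.swap_inv, Equiv.swap_apply_right,
            Equiv.swap_apply_of_ne_of_ne h2 h12]
        rw [this]
      push Not at hA hB
      obtain ⟨a, ha⟩ : ∃ a, c a ≠ a := by
        by_contra hc
        push Not at hc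
        have : (Finset.univ.filter fun a => c a = a) = Finset.univ := by simp [hc]
        rw [this, Finset.card_univ, Fintype.card_fin] at hA
        omega
      set R := Finset.univ.filter fun b => c b ≠ b ∧ b ∉ ({a, c a, c⁻¹ a} : Finset (Fin 8))
      have hR : 3 ≤ R.card := by
        have hsub : Finset.univ ⊆ (Finset.univ.filter fun b => c b = b) ∪ ({a, c a, c⁻¹ a} : Finset (Fin 8)) ∪ R := by
          intro b _
          simp only [R, Finset.mem_union, Finset.mem_filter, Finset.mem_univ, true_and]
          tauto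
        have h := (Finset.card_le_card hsub).trans (Finset.card_union_le _ _)
        have h' := Finset.card_union_le (Finset.univ.filter fun b => c b = b) ({a, c a, c⁻¹ a} : Finset (Fin 8))
        have h'' := Finset.card_le_three (a := a) (b := c a) (c := c⁻¹ a)
        rw [Finset.card_univ, Fintype.card_fin] at h
        omega
      obtain ⟨b, d, hb, hd, hbd, hbd1, hbd2⟩ : ∃ b d, b ∈ R ∧ d ∈ R ∧ b ≠ d ∧ c b ≠ d ∧ c d ≠ b := by
        obtain ⟨u, v, w, hu, hv, hw, huv, huw, hvw⟩ := Finset.two_lt_card_iff.1 hR
        by_contra hc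
        push Not at hc
        have k1 : c u = v ∨ c v = u := or_iff_not_imp_left.2 fun e => hc u v hu hv huv e
        have k2 : c u = w ∨ c w = u := or_iff_not_imp_left.2 fun e => hc u w hu hw huw e
        have k3 : c v = w ∨ c w = v := or_iff_not_imp_left.2 fun e => hc v w hv hw hvw e
        rcases k1 with k1 | k1
        · have k2' : c w = u := k2.resolve_left fun e => hvw (k1.symm.trans e)
          have k3' : c v = w := k3.resolve_right fun e => huv (k2'.symm.trans e)
          exact hB u (k1 ▸ huv.symm) (by rw [k1, k3', k2'])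
        · have k3' : c w = v := k3.resolve_left fun e => huw (k1.symm.trans e)
          have k2' : c u = w := k2.resolve_right fun e => huv (e.symm.trans k3')
          exact hB u (k2' ▸ huw.symm) (by rw [k2', k3', k1])
      simp only [R, Finset.mem_filter, Finset.mem_univ, true_and, Finset.mem_insert,
        Finset.mem_singleton, not_or] at hb hd
      obtain ⟨hb0, hba, hbca, hbia⟩ := hb
      obtain ⟨hd0, hda, hdca, hdia⟩ := hd
      have hcb : c b ≠ a := fun e => hbia (Equiv.Perm.eq_inv_iff_eq.2 e)
      have hcd : c d ≠ a := fun e => hdia (Equiv.Perm.eq_inv_iff_eq.2 e)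
      have hab : a ≠ b := Ne.symm hba
      have had : a ≠ d := Ne.symm hda
      refine ⟨_, h3 a b d hab had hbd, ?_⟩
      rw [hcc]
      have hdis : ∀ p q r s : Fin 8, p ≠ r → p ≠ s → q ≠ r → q ≠ s →
          Commute (Equiv.swap p q) (Equiv.swap r s) := by
        intro p q r s h1 h2 h3 h4
        refine Equiv.Perm.Disjoint.commute fun z => ?_
        by_cases hz : z = p ∨ z = q
        · right
          rcases hz with rfl | rfl <;> exact Equiv.swap_apply_of_ne_of_ne ‹_› ‹_›
        · left
          push Not at hz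
          exact Equiv.swap_apply_of_ne_of_ne hz.1 hz.2
      exact ((hdis _ _ _ _ (Ne.symm ha) (Ne.symm hcb) hbca hb0.symm).mul_right
          (hdis _ _ _ _ (Ne.symm ha) (Ne.symm hcd) hbca (Ne.symm hbd2))).mul_left
        ((hdis _ _ _ _ (Ne.symm ha) (Ne.symm hcb) hdca (Ne.symm hbd1)).mul_right
          (hdis _ _ _ _ (Ne.symm ha) (Ne.symm hcd) hdca hd0.symm))
    obtain ⟨k, rfl⟩ := isConj_iff.1 (Equiv.Perm.isConj_iff_cycleType_eq.2 (hτ.cycleType.trans hσ.cycleType.symm))
    refine ⟨k * c * k⁻¹, isConj_iff.2 ⟨k, rfl⟩, ?_⟩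
    set g := k * c * k⁻¹
    set σ := k * τ * k⁻¹
    have hcomm' : Commute σ (g * σ * g⁻¹) := by
      have := hcomm.map (MulAut.conj k).toMonoidHom
      simp only [MulEquiv.coe_toMonoidHom, MulAut.conj_apply] at this
      have e : g * σ * g⁻¹ = k * (c * τ * c⁻¹) * k⁻¹ := by simp only [g, σ]; group
      rw [e]
      exact this
    refine Subgroup.Normal.isSubnormal ((Subgroup.normal_subgroupOf_iff_le_normalizer le_sup_left).2
      (sup_le Subgroup.le_normalizer ?_))
    refine le_trans ?_ (Subgroup.centralizer_le_normalizer _)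
    intro z hz
    rw [Subgroup.mem_smul_pointwise_iff_exists] at hz
    obtain ⟨_, ⟨i, rfl⟩, rfl⟩ := hz
    rw [Subgroup.mem_centralizer_iff]
    rintro _ ⟨j, rfl⟩
    rw [MulAut.smul_def, MulAut.conj_apply, ← conj_zpow]
    exact (hcomm'.zpow_zpow j i).eq
  · haveI : Fact (Nat.Prime 3) := ⟨by norm_num⟩
    by_contra hne
    set N := Cfsg.pCore 3 (Equiv.Perm (Fin 8))
    haveI : N.Normal := Subgroup.sSup_normal _ (fun _ h => h.1)
    haveI : MulAction.IsPreprimitive (Equiv.Perm (Fin 8)) (Fin 8) := by infer_instance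
    have htr : MulAction.IsPretransitive N (Fin 8) := by
      refine MulAction.IsQuasiPreprimitive.isPretransitive_of_normal fun he => hne ?_
      refine (Subgroup.eq_bot_iff_forall _).2 fun n hn => Equiv.ext fun y => ?_
      have hy : y ∈ MulAction.fixedPoints N (Fin 8) := he ▸ Set.mem_univ y
      exact hy ⟨n, hn⟩
    obtain ⟨j, hj⟩ := IsPGroup.iff_card.1
      (CfsgLib.Cores.isPGroup_pCore 3 (Equiv.Perm (Fin 8)))
    have hd : 8 ∣ Nat.card N := by
      have h := MulAction.index_stabilizer_of_transitive N (0 : Fin 8)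
      rw [Nat.card_fin] at h
      have h2 := (MulAction.stabilizer N (0 : Fin 8)).index_dvd_card
      rwa [h] at h2
    rw [hj] at hd
    have := Nat.prime_two.dvd_of_dvd_pow ((by norm_num : 2 ∣ 8).trans hd)
    norm_num at this

end Cfsg.Agent.S4332
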