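import Cfsg.Statements.S4333
import Cfsg.Agent.Lib.Subnormal.Zipper
-- import your own Cfsg.Agent.* helpers here

set_option autoImplicit false
open Pointwise
open Cfsg

namespace Cfsg.Agent.S4333

open scoped Pointwise

open CfsgLib.Subnormal in
theorem aux {G : Type*} [Group G] [Finite G] (A : Subgroup G)
    (h : ∀ a ∈ A, ∀ g : G,
      (A.subgroupOf (A ⊔ A.map (MulAut.conj (g⁻¹ * a * g)).toMonoidHom)).IsSubnormal)
    (K : Subgroup G) : A ≤ K → (A.subgroupOf K).IsSubnormal := by
  induction K using WellFoundedLT.induction with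
  | ind K ih =>
    intro hAK
    by_contra hns
    let A' : Subgroup K := A.subgroupOf K
    have hz : ∀ L : Subgroup K, A' ≤ L → L ≠ ⊤ → (A'.subgroupOf L).IsSubnormal := by
      intro L hL hne
      have hlt : L.map K.subtype < K := by
        refine lt_of_le_of_ne (Subgroup.map_subtype_le L) fun he => hne ?_
        apply Subgroup.map_injective K.subtype_injective
        rw [he, ← MonoidHom.range_eq_map, Subgroup.range_subtype]
      have hAL : A ≤ L.map K.subtype := fun y hy =>
        ⟨⟨y, hAK hy⟩, hL (Subgroup.mem_subgroupOf.mpr hy), rfl⟩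
      exact (ih _ hlt hAL).comap
        (Subgroup.equivMapOfInjective L K.subtype K.subtype_injective).toMonoidHom
    obtain ⟨M, hM, hAM, hMu⟩ := zipper hz hns
    have hmem : ∀ a ∈ A', ∀ g : K, g⁻¹ * a * g ∈ Subgroup.normalizer (M : Set K) := by
      intro a ha g
      let J : Subgroup G := A ⊔ A.map (MulAut.conj ((g : G)⁻¹ * a * g)).toMonoidHom
      have hJK : J ≤ K := sup_le hAK (by
        rintro _ ⟨s, hs, rfl⟩
        exact K.mul_mem (K.mul_mem (g⁻¹ * a * g).2 (hAK hs)) (K.inv_mem (g⁻¹ * a * g).2))
      have hJne : J.subgroupOf K ≠ ⊤ := by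
        intro he
        apply hns
        have hJ : J = K := le_antisymm hJK fun y hy =>
          Subgroup.mem_subgroupOf.mp (he.ge (Subgroup.mem_top (⟨y, hy⟩ : K)))
        exact hJ ▸ h a (Subgroup.mem_subgroupOf.mp ha) g
      have hJM : J.subgroupOf K ≤ M := hMu _
        (fun y hy => Subgroup.mem_subgroupOf.mpr
          (Subgroup.mem_sup_left (Subgroup.mem_subgroupOf.mp hy))) hJne
      have hA' : A' ≤ M.map (MulAut.conj (g⁻¹ * a * g)⁻¹).toMonoidHom := by
        rw [← map_conj_inv_map_conj A' (g⁻¹ * a * g)]
        refine Subgroup.map_mono (le_trans ?_ hJM)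
        rintro _ ⟨s, hs, rfl⟩
        exact Subgroup.mem_subgroupOf.mpr
          (Subgroup.mem_sup_right ⟨(s : G), Subgroup.mem_subgroupOf.mp hs, rfl⟩)
      have hle := hMu _ hA' (map_conj_ne_top hM.1 _)
      rw [← inv_mem_iff, mem_normalizer_iff_map_conj]
      exact Subgroup.eq_of_le_of_card_ge hle
        (Subgroup.card_map_of_injective (MulAut.conj (g⁻¹ * a * g)⁻¹).injective).ge
    let N : Subgroup K := Subgroup.normalClosure (A' : Set K)
    have hNM : N ≤ Subgroup.normalizer (M : Set K) := by
      refine (Subgroup.closure_le _).mpr fun y hy => ?_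
      obtain ⟨a, ha, hay⟩ := Group.mem_conjugatesOfSet_iff.mp hy
      obtain ⟨c, rfl⟩ := isConj_iff.mp hay
      simpa using hmem a ha c⁻¹
    have hN : N ≠ ⊤ := by
      intro he
      rw [he, top_le_iff] at hNM
      haveI : M.Normal := Subgroup.normalizer_eq_top_iff.1 hNM
      exact hM.1 (top_le_iff.1 (he ▸ Subgroup.normalClosure_le_normal hAM))
    exact hns (isSubnormal_of_le_normal (N := N) Subgroup.le_normalClosure
      (hz N Subgroup.le_normalClosure hN))

/-- Let A be a subgroup of a finite group G. If A is subnormal in the subgroup generated by A and its conjugate by g⁻¹ a g, for every a ∈ A and every g ∈ G, then A is subnormal in G. (A sharpening of Wielandt's subnormality criterion: only conjugates of A by conjugates of elements of A are needed.) -/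
theorem result {G : Type*} [Group G] [Finite G]
    (A : Subgroup G)
    (h : ∀ a ∈ A, ∀ g : G, (A.subgroupOf (A ⊔ MulAut.conj (g⁻¹ * a * g) • A)).IsSubnormal) :
    A.IsSubnormal := by
  refine CfsgLib.Subnormal.isSubnormal_subgroupOf_top.mp (aux A (fun a ha g => ?_) ⊤ le_top)
  exact h a ha g

end Cfsg.Agent.S4333
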