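import Cfsg.Statements.S4337
-- import your own Cfsg.Agent.* helpers here

set_option autoImplicit false
open Cfsg

namespace Cfsg.Agent.S4337

open scoped Pointwise

/-- In a finite symmetric group, any three transpositions generate a solvable subgroup. -/
theorem result (n : ℕ) (a b c : Equiv.Perm (Fin n))
    (ha : a.IsSwap) (hb : b.IsSwap) (hc : c.IsSwap) :
    Group.IsSolvable (Subgroup.closure ({a, b, c} : Set (Equiv.Perm (Fin n)))) := by
  classical
  set K := Subgroup.closure ({a, b, c} : Set (Equiv.Perm (Fin n))) with hK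
  -- subgroups supported on at most four points are solvable
  have h4 : ∀ (S : Finset (Fin n)) (H : Subgroup (Equiv.Perm (Fin n))), S.card ≤ 4 →
      (∀ h ∈ H, ∀ x ∉ S, h x = x) → Group.IsSolvable H := by
    intro S H hS hH
    have hmem : ∀ (h : H) (x : Fin n), (h : Equiv.Perm (Fin n)) x ∈ S ↔ x ∈ S := by
      intro h x
      constructor
      · intro hx
        by_contra hxS
        exact hxS (hH _ h.2 x hxS ▸ hx)
      · intro hx
        by_contra hxS
        exact hxS ((Equiv.injective _ (hH _ h.2 _ hxS)).symm ▸ hx)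
    let φ : H →* Equiv.Perm {x // x ∈ S} :=
      { toFun := fun h => (h : Equiv.Perm (Fin n)).subtypePerm (hmem h)
        map_one' := Equiv.ext fun x => rfl
        map_mul' := fun g h => Equiv.ext fun x => rfl }
    have hφ : Function.Injective φ := by
      intro g h he
      refine Subtype.ext (Equiv.ext fun x => ?_)
      by_cases hx : x ∈ S
      · exact congrArg Subtype.val (Equiv.congr_fun he ⟨x, hx⟩)
      · rw [hH _ g.2 x hx, hH _ h.2 x hx]
    haveI : Group.IsSolvable (Equiv.Perm {x // x ∈ S}) := by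
      haveI hA4 : Group.IsSolvable (alternatingGroup (Fin 4)) := by
        have hc : _root_.commutator (alternatingGroup (Fin 4)) = alternatingGroup.kleinFour (Fin 4) :=
          (alternatingGroup.kleinFour_eq_commutator (α := Fin 4) (by simp)).symm
        haveI : IsKleinFour (alternatingGroup.kleinFour (Fin 4)) :=
          alternatingGroup.kleinFour_isKleinFour (by simp)
        refine ⟨⟨2, ?_⟩⟩
        rw [derivedSeries_succ, derivedSeries_one, hc, eq_bot_iff, Subgroup.commutator_le]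
        intro g hg h hh
        rw [Subgroup.mem_bot, commutatorElement_eq_one_iff_mul_comm]
        exact congrArg Subtype.val (mul_comm_of_exponent_two (G := alternatingGroup.kleinFour (Fin 4))
          IsKleinFour.exponent_two ⟨g, hg⟩ ⟨h, hh⟩)
      haveI hS4 : Group.IsSolvable (Equiv.Perm (Fin 4)) :=
        solvable_of_ker_le_range (alternatingGroup (Fin 4)).subtype Equiv.Perm.sign (by
          rw [Subgroup.range_subtype]; exact le_rfl)
      obtain ⟨e⟩ : Nonempty ({x // x ∈ S} ↪ Fin 4) :=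
        Function.Embedding.nonempty_of_card_le (by simpa using hS)
      exact solvable_of_solvable_injective (Equiv.Perm.viaEmbeddingHom_injective e)
    exact solvable_of_solvable_injective hφ
  obtain ⟨a₁, a₂, ha', rfl⟩ := ha
  obtain ⟨b₁, b₂, hb', rfl⟩ := hb
  obtain ⟨c₁, c₂, hc', rfl⟩ := hc
  -- a transposition disjoint from the two others splits off
  have hsplit : ∀ (u₁ u₂ v₁ v₂ w₁ w₂ : Fin n),
      (∀ g ∈ ({Equiv.swap u₁ u₂, Equiv.swap v₁ v₂, Equiv.swap w₁ w₂} : Set _), g ∈ K) →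
      K = Subgroup.closure ({Equiv.swap u₁ u₂, Equiv.swap v₁ v₂, Equiv.swap w₁ w₂} : Set _) →
      w₁ ≠ u₁ → w₁ ≠ u₂ → w₁ ≠ v₁ → w₁ ≠ v₂ → w₂ ≠ u₁ → w₂ ≠ u₂ → w₂ ≠ v₁ → w₂ ≠ v₂ →
      Group.IsSolvable K := by
    intro u₁ u₂ v₁ v₂ w₁ w₂ _ hKe n1 n2 n3 n4 n5 n6 n7 n8
    let A := Subgroup.closure ({Equiv.swap u₁ u₂, Equiv.swap v₁ v₂} : Set (Equiv.Perm (Fin n)))
    let W := Subgroup.zpowers (Equiv.swap w₁ w₂)
    have hA : Group.IsSolvable A := by
      refine h4 {u₁, u₂, v₁, v₂} A Finset.card_le_four fun g hg x hx => ?_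
      simp only [Finset.mem_insert, Finset.mem_singleton, not_or] at hx
      refine Subgroup.closure_induction (fun y hy => ?_) rfl (fun y z _ _ hy hz => ?_)
        (fun y _ hy => ?_) hg
      · rcases hy with rfl | rfl
        · exact Equiv.swap_apply_of_ne_of_ne hx.1 hx.2.1
        · exact Equiv.swap_apply_of_ne_of_ne hx.2.2.1 hx.2.2.2
      · rw [Equiv.Perm.mul_apply, hz, hy]
      · exact (Equiv.Perm.inv_eq_iff_eq).2 hy.symm
    have hcomm : ∀ (g : A) (w : W), Commute (g : Equiv.Perm (Fin n)) w := by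
      intro g w
      obtain ⟨i, hi⟩ := Subgroup.mem_zpowers_iff.1 w.2
      rw [← hi]
      refine Commute.zpow_right ?_ i
      refine (Equiv.Perm.Disjoint.commute ?_)
      intro x
      by_cases hx : x = w₁ ∨ x = w₂
      · left
        refine Subgroup.closure_induction (fun y hy => ?_) rfl (fun y z _ _ hy hz => ?_)
          (fun y _ hy => ?_) g.2
        · rcases hy with rfl | rfl <;> rcases hx with rfl | rfl <;>
            apply Equiv.swap_apply_of_ne_of_ne <;> assumption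
        · rw [Equiv.Perm.mul_apply, hz, hy]
        · exact (Equiv.Perm.inv_eq_iff_eq).2 hy.symm
      · right
        push Not at hx
        exact Equiv.swap_apply_of_ne_of_ne hx.1 hx.2
    let ψ : A × W →* Equiv.Perm (Fin n) := MonoidHom.noncommCoprod A.subtype W.subtype hcomm
    have hle : K ≤ ψ.range := by
      rw [hKe, Subgroup.closure_le]
      rintro g (rfl | rfl | rfl)
      · exact ⟨(⟨_, Subgroup.subset_closure (Or.inl rfl)⟩, 1), by change _ * (1 : Equiv.Perm (Fin n)) = _; exact mul_one _⟩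
      · exact ⟨(⟨_, Subgroup.subset_closure (Or.inr rfl)⟩, 1), by change _ * (1 : Equiv.Perm (Fin n)) = _; exact mul_one _⟩
      · exact ⟨(1, ⟨_, Subgroup.mem_zpowers _⟩), by change (1 : Equiv.Perm (Fin n)) * _ = _; exact one_mul _⟩
    haveI := hA
    haveI : Group.IsSolvable ψ.range := solvable_of_surjective ψ.rangeRestrict_surjective
    exact solvable_of_solvable_injective (Subgroup.inclusion_injective hle)
  by_cases h6 : c₁ ≠ a₁ ∧ c₁ ≠ a₂ ∧ c₁ ≠ b₁ ∧ c₁ ≠ b₂ ∧ c₂ ≠ a₁ ∧ c₂ ≠ a₂ ∧ c₂ ≠ b₁ ∧ c₂ ≠ b₂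
  · obtain ⟨e1, e2, e3, e4, e5, e6, e7, e8⟩ := h6
    exact hsplit a₁ a₂ b₁ b₂ c₁ c₂ (fun g hg => Subgroup.subset_closure hg) rfl e1 e2 e3 e4 e5 e6 e7 e8
  by_cases h7 : a₁ ≠ b₁ ∧ a₁ ≠ b₂ ∧ a₁ ≠ c₁ ∧ a₁ ≠ c₂ ∧ a₂ ≠ b₁ ∧ a₂ ≠ b₂ ∧ a₂ ≠ c₁ ∧ a₂ ≠ c₂
  · obtain ⟨e1, e2, e3, e4, e5, e6, e7, e8⟩ := h7
    have hperm : ({Equiv.swap b₁ b₂, Equiv.swap c₁ c₂, Equiv.swap a₁ a₂} : Set (Equiv.Perm (Fin n))) =
        {Equiv.swap a₁ a₂, Equiv.swap b₁ b₂, Equiv.swap c₁ c₂} := by
      ext g; simp only [Set.mem_insert_iff, Set.mem_singleton_iff]; tauto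
    exact hsplit b₁ b₂ c₁ c₂ a₁ a₂ (fun g hg => Subgroup.subset_closure (hperm ▸ hg))
      (by rw [hperm]) e1 e2 e3 e4 e5 e6 e7 e8
  by_cases h8 : b₁ ≠ a₁ ∧ b₁ ≠ a₂ ∧ b₁ ≠ c₁ ∧ b₁ ≠ c₂ ∧ b₂ ≠ a₁ ∧ b₂ ≠ a₂ ∧ b₂ ≠ c₁ ∧ b₂ ≠ c₂
  · obtain ⟨e1, e2, e3, e4, e5, e6, e7, e8⟩ := h8
    have hperm : ({Equiv.swap a₁ a₂, Equiv.swap c₁ c₂, Equiv.swap b₁ b₂} : Set (Equiv.Perm (Fin n))) =
        {Equiv.swap a₁ a₂, Equiv.swap b₁ b₂, Equiv.swap c₁ c₂} := by
      ext g; simp only [Set.mem_insert_iff, Set.mem_singleton_iff]; tauto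
    exact hsplit a₁ a₂ c₁ c₂ b₁ b₂ (fun g hg => Subgroup.subset_closure (hperm ▸ hg))
      (by rw [hperm]) e1 e2 e3 e4 e5 e6 e7 e8
  -- otherwise the six points reduce to at most four
  refine h4 {a₁, a₂, b₁, b₂, c₁, c₂} K ?_ fun g hg x hx => ?_
  · by_contra hlt
    push Not at hlt
    have hsub : ({a₁, a₂, b₁, b₂, c₁, c₂} : Finset (Fin n)).card ≤ 4 := by
      push Not at h6 h7 h8
      grind [Finset.card_insert_of_mem, Finset.card_le_four]
    omega
  · simp only [Finset.mem_insert, Finset.mem_singleton, not_or] at hx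
    refine Subgroup.closure_induction (fun y hy => ?_) rfl (fun y z _ _ hy hz => ?_)
      (fun y _ hy => ?_) hg
    · rcases hy with rfl | rfl | rfl
      · exact Equiv.swap_apply_of_ne_of_ne hx.1 hx.2.1
      · exact Equiv.swap_apply_of_ne_of_ne hx.2.2.1 hx.2.2.2.1
      · exact Equiv.swap_apply_of_ne_of_ne hx.2.2.2.2.1 hx.2.2.2.2.2
    · rw [Equiv.Perm.mul_apply, hz, hy]
    · exact (Equiv.Perm.inv_eq_iff_eq).2 hy.symm

end Cfsg.Agent.S4337
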