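import Cfsg.Statements.S4342
import Cfsg.Agent.Lib.Components2.SylowCount
-- import your own Cfsg.Agent.* helpers here

set_option autoImplicit false
open Cfsg

namespace Cfsg.Agent.S4342

open scoped Pointwise

/-- Let H be a normal subgroup of a finite group G and p a prime not dividing the index of H. Then the number of Sylow p-subgroups of H/Z(H) equals the number of Sylow p-subgroups of G. -/
theorem result {G : Type*} [Group G] [Finite G]
    (p : ℕ) [Fact p.Prime] (H : Subgroup G) [H.Normal] (hp : ¬ p ∣ H.index) :
    Nat.card (Sylow p (H ⧸ Subgroup.center H)) = Nat.card (Sylow p G) := by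
  obtain ⟨Q⟩ : Nonempty (Sylow p G) := inferInstance
  obtain ⟨D, hD⟩ := CfsgLib.Components2.exists_sylow_map_subtype_eq_inf H Q
  have hidx : ¬ p ∣ ((D : Subgroup H).map H.subtype).index := by
    rw [Subgroup.index_map_subtype]
    exact Nat.Prime.not_dvd_mul Fact.out D.not_dvd_index hp
  have hQH : (Q : Subgroup G) ≤ H := by
    have hp' : IsPGroup p ((D : Subgroup H).map H.subtype) := D.2.map _
    have h := (hp'.toSylow hidx).3 Q.2 (by rw [IsPGroup.toSylow_coe, hD]; exact inf_le_left)
    rw [h, IsPGroup.toSylow_coe, hD]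
    exact inf_le_right
  rw [CfsgLib.Components2.card_sylow_quotient_of_le_center _ le_rfl,
    CfsgLib.Components2.card_sylow_subgroup Q hQH, CfsgLib.Components2.card_sylow_eq_index Q,
    ← Subgroup.relIndex_top_right]
  have hfr : (⊤ : Subgroup G) = H ⊔ Subgroup.normalizer ((Q : Subgroup G) : Set G) := by
    rw [sup_comm]
    exact (Sylow.normalizer_sup_eq_top' Q hQH).symm
  rw [hfr, CfsgLib.Components2.relIndex_sup_of_le _ H _ le_rfl]

end Cfsg.Agent.S4342
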