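import Cfsg.Statements.S4344
-- import your own Cfsg.Agent.* helpers here

set_option autoImplicit false
open Cfsg

namespace Cfsg.Agent.S4344

open scoped Pointwise

/-- Let S be a finite non-abelian simple group, M a maximal subgroup of S and C a cyclic normal subgroup of M. If a Sylow p-subgroup P of S (for a prime p dividing the order of S) is contained in C, then the number of Sylow p-subgroups of S equals the index of M. -/
theorem result {S : Type*} [Group S] [Finite S]
    [IsSimpleGroup S] (hS : ¬ IsMulCommutative S) (p : ℕ) [Fact p.Prime] (hp : p ∣ Nat.card S)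
    (M : Subgroup S) (hM : IsCoatom M) (C : Subgroup S) (hCM : C ≤ M) (hCn : (C.subgroupOf M).Normal)
    (hC : IsCyclic C) (P : Sylow p S) (hP : (P : Subgroup S) ≤ C) :
    Nat.card (Sylow p S) = M.index := by
  have hPne : (P : Subgroup S) ≠ ⊥ := P.ne_bot_of_dvd_card hp
  have hcomm : ∀ a ∈ C, ∀ b ∈ C, a * b = b * a := fun a ha b hb =>
    congrArg Subtype.val (IsCyclic.isMulCommutative.is_comm.comm (⟨a, ha⟩ : C) ⟨b, hb⟩)
  have hPtop : (P : Subgroup S) ≠ ⊤ := by
    intro h
    exact hS ⟨⟨fun a b => hcomm a (hP (h ▸ Subgroup.mem_top a)) b (hP (h ▸ Subgroup.mem_top b))⟩⟩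
  have hnormal : ((P : Subgroup S).subgroupOf C).Normal := by
    refine ⟨fun n hn g => ?_⟩
    rw [Subgroup.mem_subgroupOf] at hn ⊢
    rw [Subgroup.coe_mul, Subgroup.coe_mul, Subgroup.coe_inv, hcomm g g.2 n n.2, mul_inv_cancel_right]
    exact hn
  have huniq : ∀ Q : Sylow p S, (Q : Subgroup S) ≤ C → Q = P := by
    intro Q hQ
    have : (P.subtype hP : Subgroup C).Normal := hnormal
    have h1 : Subsingleton (Sylow p C) := by
      let _ := Sylow.unique_of_normal (P.subtype hP) this
      infer_instance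
    exact Sylow.subtype_injective (Subsingleton.elim (Q.subtype hQ) (P.subtype hP))
  have hM' : M ≤ Subgroup.normalizer ((P : Subgroup S) : Set S) := by
    intro m hm
    refine Sylow.smul_eq_iff_mem_normalizer.1 (huniq _ ?_)
    intro y hy
    rw [Sylow.coe_subgroup_smul, Subgroup.mem_smul_pointwise_iff_exists] at hy
    obtain ⟨z, hz, rfl⟩ := hy
    have := hCn.conj_mem ⟨z, hCM (hP hz)⟩ (Subgroup.mem_subgroupOf.2 (hP hz)) ⟨m, hm⟩
    simpa [Subgroup.mem_subgroupOf] using this
  rw [P.card_eq_index_normalizer]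
  rcases hM.le_iff.1 hM' with h | h
  · exact absurd (IsSimpleGroup.eq_bot_or_eq_top_of_normal _ (Subgroup.normalizer_eq_top_iff.1 h))
      (not_or.2 ⟨hPne, hPtop⟩)
  · exact congrArg Subgroup.index h

end Cfsg.Agent.S4344
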