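import Cfsg.Statements.S4345
import Cfsg.Agent.Lib.Components2.SylowInduction
-- import your own Cfsg.Agent.* helpers here

set_option autoImplicit false
open Cfsg

namespace Cfsg.Agent.S4345

open scoped Pointwise

/-- Let G be a finite solvable group and p, ℓ primes. Then the largest power of ℓ dividing the number of Sylow p-subgroups of G is congruent to 1 modulo p. -/
theorem result {G : Type*} [Group G] [Finite G]
    (hG : Group.IsSolvable G) (p ℓ : ℕ) [Fact p.Prime] (hℓ : ℓ.Prime) :
    ℓ ^ (Nat.card (Sylow p G)).factorization ℓ ≡ 1 [MOD p] := by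
  refine CfsgLib.Components2.card_sylow_induction (p := p) True
    (fun n => n ≠ 0 ∧ ∀ q : ℕ, q.Prime → q ^ n.factorization q ≡ 1 [MOD p])
    ⟨one_ne_zero, fun q _ => by simp [Nat.ModEq.refl]⟩ ?_ (fun m hm hq => ⟨hm, hq⟩) ?_
    (fun _ => hG) |>.2 ℓ hℓ
  · rintro m n ⟨hm, hm'⟩ ⟨hn, hn'⟩
    refine ⟨mul_ne_zero hm hn, fun q hq => ?_⟩
    rw [Nat.factorization_mul hm hn, Finsupp.add_apply, pow_add]
    simpa using (hm' q hq).mul (hn' q hq)
  · intro S _ _ hS hsol
    have := hsol trivial
    have hcomm : ∀ a b : S, a * b = b * a := IsSimpleGroup.comm_iff_isSolvable.2 this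
    obtain ⟨P⟩ : Nonempty (Sylow p S) := inferInstance
    rw [CfsgLib.Components2.card_sylow_eq_one_of_normal P
      ⟨fun x hx g => by rw [hcomm g x, mul_inv_cancel_right]; exact hx⟩]
    exact ⟨one_ne_zero, fun q _ => by simp [Nat.ModEq.refl]⟩

end Cfsg.Agent.S4345
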