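import Cfsg.Statements.S4346
import Cfsg.Agent.Lib.Components2.SylowInduction
import Cfsg.Agent.Lib.Components2.TwentyTwo.Nine
import Cfsg.Agent.Lib.Components2.TwentyTwo.Three
-- import your own Cfsg.Agent.* helpers here

set_option autoImplicit false
open Cfsg

namespace Cfsg.Agent.S4346

open scoped Pointwise

open CfsgLib.Components2.TwentyTwo in
theorem not_simple_twentytwo {S : Type*} [Group S] [Finite S] [Fact (Nat.Prime 3)] [IsSimpleGroup S]
    (hn : Nat.card (Sylow 3 S) = 22) : False := by
  have hnc : ¬ IsMulCommutative S := by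
    intro hc
    obtain ⟨P⟩ : Nonempty (Sylow 3 S) := inferInstance
    have hN : Subgroup.normalizer (P : Set S) = ⊤ := by
      rw [eq_top_iff]
      intro g _
      refine Subgroup.mem_normalizer_iff.2 fun y => ?_
      rw [hc.is_comm.comm g y, mul_inv_cancel_right]
    rw [Sylow.card_eq_index_normalizer P, hN, Subgroup.index_top] at hn
    omega
  have h : Hyp S := ⟨inferInstance, hnc, hn⟩
  obtain ⟨c⟩ := exists_config h
  by_cases hM : Nat.card c.α = 3
  · exact c.card_ne_three h hM
  rcases ncard_far_cases h c.α hM with h0 | h9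
  · exact far_ne_zero h c.α hM h0
  · exact c.far_ne_nine h hM h9

/-- No finite group has exactly 22 Sylow 3-subgroups. -/
theorem result {G : Type*} [Group G] [Finite G] : Nat.card (Sylow 3 G) ≠ 22 := by
  haveI : Fact (Nat.Prime 3) := ⟨by norm_num⟩
  suffices h : Nat.card (Sylow 3 G) % 3 = 1 ∧ Nat.card (Sylow 3 G) ≠ 22 from h.2
  refine CfsgLib.Components2.card_sylow_induction (p := 3) False (fun n => n % 3 = 1 ∧ n ≠ 22)
    ⟨rfl, by norm_num⟩ ?_ ?_ ?_ False.elim
  · rintro m n ⟨hm, hm'⟩ ⟨hn, hn'⟩
    refine ⟨by rw [Nat.mul_mod, hm, hn], fun h => ?_⟩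
    have : m ∣ 22 := ⟨n, h.symm⟩
    have := Nat.le_of_dvd (by norm_num) this
    interval_cases m <;> omega
  · intro m hm hq
    refine ⟨?_, fun h => ?_⟩
    · have : m ≡ 1 [MOD 3] := by
        conv_lhs => rw [← Nat.prod_factorization_pow_eq_self hm]
        rw [Finsupp.prod, Nat.support_factorization]
        refine Finset.prod_induction _ (fun x => x ≡ 1 [MOD 3]) (fun a b ha hb => ?_) rfl
          fun q hq' => hq q (Nat.prime_of_mem_primeFactors hq')
        simpa using ha.mul hb
      exact this
    · subst h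
      have h3 := hq 2 (by norm_num)
      rw [show (22 : ℕ) = 2 ^ 1 * 11 by norm_num,
        Nat.factorization_mul (by norm_num) (by norm_num)] at h3
      simp [Nat.Prime.factorization (by norm_num : Nat.Prime 2),
        Nat.factorization_eq_zero_of_not_dvd (by norm_num : ¬ 2 ∣ 11), Nat.ModEq] at h3
  · intro S _ _ hS _
    exact ⟨card_sylow_modEq_one 3 S, fun h => not_simple_twentytwo h⟩

end Cfsg.Agent.S4346
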