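import Cfsg.Statements.S4354
import Cfsg.Agent.Lib.Components2.SylowFacts
-- import your own Cfsg.Agent.* helpers here

set_option autoImplicit false
open Cfsg

namespace Cfsg.Agent.S4354

open scoped Pointwise

section
variable {G : Type*} [Group G] [Finite G] (p : ℕ) [Fact p.Prime]

/-- The class-size condition on `p`-elements. -/
def Good (G : Type*) [Group G] (p : ℕ) : Prop :=
  ∀ x : G, (∃ k : ℕ, orderOf x = p ^ k) → ¬ p ∣ (Subgroup.centralizer ({x} : Set G)).index

omit [Finite G] [Fact p.Prime] in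
theorem isPGroup_zpowers {x : G} (hx : ∃ k : ℕ, orderOf x = p ^ k) :
    IsPGroup p (Subgroup.zpowers x) := by
  obtain ⟨k, hk⟩ := hx
  exact IsPGroup.of_card (n := k) (by rw [Nat.card_zpowers, hk])

variable {p}

theorem exists_central_sylow (h : Good G p) {x : G} (hx : ∃ k : ℕ, orderOf x = p ^ k) :
    ∃ Q : Sylow p G, x ∈ Q ∧ (Q : Subgroup G) ≤ Subgroup.centralizer {x} := by
  obtain ⟨Q, hQ⟩ := CfsgLib.Components2.exists_sylow_le_of_not_dvd_index _ (h x hx)
  exact ⟨Q, CfsgLib.Components2.mem_sylow_of_le_centralizer Q (isPGroup_zpowers p hx) hQ, hQ⟩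

theorem good_normal (h : Good G p) (N : Subgroup G) [N.Normal] : Good N p := by
  intro x hx hd
  have hx' : ∃ k : ℕ, orderOf (x : G) = p ^ k := by simpa [Subgroup.orderOf_coe] using hx
  obtain ⟨Q, hxQ, hQ⟩ := exists_central_sylow h hx'
  obtain ⟨D, hD⟩ := CfsgLib.Components2.exists_sylow_map_subtype_eq_inf N Q
  have hle : (D : Subgroup N) ≤ Subgroup.centralizer {x} := by
    intro d hd'
    have : (d : G) ∈ (Q : Subgroup G) ⊓ N := hD ▸ Subgroup.mem_map_of_mem _ hd'
    rw [Subgroup.mem_centralizer_singleton_iff]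
    exact Subtype.ext (by simpa using Subgroup.mem_centralizer_singleton_iff.1 (hQ this.1))
  exact D.not_dvd_index (hd.trans (Subgroup.index_dvd_of_le hle))

theorem good_quotient (h : Good G p) (N : Subgroup G) [N.Normal] : Good (G ⧸ N) p := by
  intro xb hx hd
  obtain ⟨P⟩ : Nonempty (Sylow p G) := inferInstance
  let hf : Function.Surjective (QuotientGroup.mk' N) := QuotientGroup.mk'_surjective N
  obtain ⟨R, hR⟩ := (isPGroup_zpowers p hx).exists_le_sylow
  obtain ⟨g, hg⟩ := MulAction.exists_smul_eq (G ⧸ N) (P.mapSurjective hf) R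
  obtain ⟨g, rfl⟩ := hf g
  have hxR : xb ∈ R := hR (Subgroup.mem_zpowers xb)
  rw [← hg, ← SetLike.mem_coe, Sylow.coe_smul, Set.mem_smul_set] at hxR
  obtain ⟨yb, hyb, rfl⟩ := hxR
  have hyb' : yb ∈ (P : Subgroup G).map (QuotientGroup.mk' N) := by
    rw [← Sylow.coe_mapSurjective hf P]; exact hyb
  obtain ⟨y, hy, rfl⟩ := hyb'
  set z := g * y * g⁻¹ with hz
  have hzo : ∃ k : ℕ, orderOf z = p ^ k := by
    obtain ⟨k, hk⟩ := P.2.exists_orderOf_eq_pow ⟨y, hy⟩ 
    refine ⟨k, ?_⟩
    rw [hz, ← MulAut.conj_apply, ← MulEquiv.coe_toMonoidHom, orderOf_injective _ (MulAut.conj g).injective]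
    simpa [Subgroup.orderOf_coe] using hk
  have hle : (Subgroup.centralizer {z}).map (QuotientGroup.mk' N) ≤
      Subgroup.centralizer {(MulAut.conj (QuotientGroup.mk' N g)) • (QuotientGroup.mk' N y)} := by
    rintro _ ⟨c, hc, rfl⟩
    rw [Subgroup.mem_centralizer_singleton_iff]
    have hc' := congrArg (QuotientGroup.mk' N) (Subgroup.mem_centralizer_singleton_iff.1 hc)
    rw [map_mul, map_mul, hz, map_mul, map_mul, map_inv] at hc'
    exact hc'
  exact h z hzo ((hd.trans (Subgroup.index_dvd_of_le hle)).trans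
    (Subgroup.index_map_dvd _ hf))

theorem comm_of_minimal (h : Good G p)
    (hab : ∀ (N : Subgroup G) [N.Normal], N ≠ ⊥ → N ≠ ⊤ →
      (∀ D : Sylow p N, IsMulCommutative D) ∧ (∀ R : Sylow p (G ⧸ N), IsMulCommutative R))
    (N : Subgroup G) [N.Normal] (hN0 : N ≠ ⊥) (hN1 : N ≠ ⊤) (P : Sylow p G) :
    IsMulCommutative P := by
  obtain ⟨hN, hQ⟩ := hab N hN0 hN1
  obtain ⟨D, hD⟩ := CfsgLib.Components2.exists_sylow_map_subtype_eq_inf N P
  set Dg := (D : Subgroup N).map N.subtype with hDg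
  set C := Subgroup.centralizer (Dg : Set G) with hC
  have hDC : Dg ≤ C := by
    rintro _ ⟨a, ha, rfl⟩
    rw [Subgroup.mem_centralizer_iff]
    rintro _ ⟨b, hb, rfl⟩
    have := hN D
    exact congrArg N.subtype (congrArg Subtype.val (mul_comm' (⟨b, hb⟩ : D) ⟨a, ha⟩))
  -- the normalizer of `Dg` normalizes `C`, so `N ⊔ C` is normal
  have hfr : Subgroup.normalizer (Dg : Set G) ⊔ N = ⊤ := Sylow.normalizer_sup_eq_top D
  have hK : (N ⊔ C).Normal := by
    rw [← Subgroup.normalizer_eq_top_iff, eq_top_iff, ← hfr, sup_le_iff]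
    refine ⟨?_, le_sup_left.trans Subgroup.le_normalizer⟩
    intro g hg
    have hsupp : (N ⊔ C).map (MulAut.conj g).toMonoidHom = N ⊔ C := by
      rw [Subgroup.map_sup]
      congr 1
      · apply le_antisymm
        · rintro _ ⟨n, hn, rfl⟩
          simpa using (inferInstance : N.Normal).conj_mem n hn g
        · intro n hn
          refine ⟨g⁻¹ * n * g, ?_, ?_⟩
          · simpa using (inferInstance : N.Normal).conj_mem n hn g⁻¹
          · simp only [MulEquiv.coe_toMonoidHom, MulAut.conj_apply]; group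
      · apply le_antisymm
        · rintro _ ⟨c, hc, rfl⟩
          rw [Subgroup.mem_centralizer_iff]
          intro d hd
          have hd' : g⁻¹ * d * g ∈ Dg := (Subgroup.mem_normalizer_iff''.1 hg d).1 hd
          have e := Subgroup.mem_centralizer_iff.1 hc _ hd'
          simp only [MulEquiv.coe_toMonoidHom, MulAut.conj_apply]
          calc d * (g * c * g⁻¹) = g * ((g⁻¹ * d * g) * c) * g⁻¹ := by group
            _ = g * (c * (g⁻¹ * d * g)) * g⁻¹ := by rw [e]
            _ = g * c * g⁻¹ * d := by group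
        · intro c hc
          refine ⟨g⁻¹ * c * g, ?_, ?_⟩
          · rw [SetLike.mem_coe, Subgroup.mem_centralizer_iff]
            intro d hd
            have hd' : g * d * g⁻¹ ∈ Dg := (Subgroup.mem_normalizer_iff.1 hg d).1 hd
            have e := Subgroup.mem_centralizer_iff.1 hc _ hd'
            calc d * (g⁻¹ * c * g) = g⁻¹ * ((g * d * g⁻¹) * c) * g := by group
              _ = g⁻¹ * (c * (g * d * g⁻¹)) * g := by rw [e]
              _ = g⁻¹ * c * g * d := by group
          · simp only [MulEquiv.coe_toMonoidHom, MulAut.conj_apply]; group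
    rw [Subgroup.mem_normalizer_iff]
    intro n
    constructor
    · intro hn
      rw [← hsupp]
      exact ⟨n, hn, rfl⟩
    · intro hn
      rw [← hsupp] at hn
      obtain ⟨m, hm, hme⟩ := hn
      have : m = n := (MulAut.conj g).injective hme
      exact this ▸ hm
  -- every `p`-element lies in `N ⊔ C`
  have hmem : ∀ x : G, (∃ k : ℕ, orderOf x = p ^ k) → x ∈ N ⊔ C := by
    intro x hx
    obtain ⟨Q, hxQ, hQx⟩ := exists_central_sylow h hx
    obtain ⟨E, hE⟩ := CfsgLib.Components2.exists_sylow_map_subtype_eq_inf N Q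
    obtain ⟨n, hn⟩ := MulAction.exists_smul_eq N E D
    have hc : (n : G) * x * (n : G)⁻¹ ∈ C := by
      rw [Subgroup.mem_centralizer_iff]
      rintro _ ⟨d, hd, rfl⟩
      have hd' : d ∈ ((n • E : Sylow p N) : Set N) := by rw [hn]; exact hd
      rw [Sylow.coe_smul, Set.mem_smul_set] at hd'
      obtain ⟨e, he, rfl⟩ := hd'
      have heQ : (e : G) ∈ (Q : Subgroup G) ⊓ N := hE ▸ Subgroup.mem_map_of_mem _ he
      have hcomm := Subgroup.mem_centralizer_singleton_iff.1 (hQx heQ.1)
      simp only [MulAut.smul_def, MulAut.conj_apply, Subgroup.coe_subtype, Subgroup.coe_mul,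
        Subgroup.coe_inv]
      calc (n : G) * e * (n : G)⁻¹ * (n * x * (n : G)⁻¹) = n * (e * x) * (n : G)⁻¹ := by group
        _ = n * (x * e) * (n : G)⁻¹ := by rw [hcomm]
        _ = n * x * (n : G)⁻¹ * (n * e * (n : G)⁻¹) := by group
    have hxe : x = (n : G)⁻¹ * ((n : G) * x * (n : G)⁻¹) * n := by group
    rw [hxe]
    exact mul_mem (mul_mem (inv_mem (Subgroup.mem_sup_left n.2)) (Subgroup.mem_sup_right hc))
      (Subgroup.mem_sup_left n.2)
  have hKne : N ⊔ C ≠ ⊥ := fun e => hN0 (le_bot_iff.1 (e ▸ le_sup_left))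
  have hPK : (P : Subgroup G) ≤ N ⊔ C := fun x hx => by
    obtain ⟨k, hk⟩ := P.2.exists_orderOf_eq_pow ⟨x, hx⟩
    exact hmem x ⟨k, by simpa [Subgroup.orderOf_coe] using hk⟩
  by_cases hKtop : N ⊔ C = ⊤
  swap
  · have hPc := (hab (N ⊔ C) hKne hKtop).1 (P.subtype hPK)
    refine ⟨⟨fun a b => ?_⟩⟩
    have e := mul_comm' (M := P.subtype hPK) ⟨⟨a, hPK a.2⟩, a.2⟩ ⟨⟨b, hPK b.2⟩, b.2⟩
    exact Subtype.ext (congrArg (fun t : P.subtype hPK => ((t : ↥(N ⊔ C)) : G)) e)
  -- `C` has index prime to `p`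
  have hCidx : ¬ p ∣ C.index := by
    intro hd
    have h1 : C.relIndex N = C.index := by
      rw [← Subgroup.relIndex_top_right C, ← hKtop]
      exact (CfsgLib.Components2.relIndex_sup_normal C N).symm
    rw [← h1, ← Subgroup.inf_relIndex_right] at hd
    have hle : Dg ≤ C ⊓ N := le_inf hDC (Subgroup.map_subtype_le _)
    have h2 : (C ⊓ N).relIndex N ∣ Dg.relIndex N := Subgroup.relIndex_dvd_of_le_left N hle
    have h3 : Dg.relIndex N = (D : Subgroup N).index := by
      rw [Subgroup.relIndex, Subgroup.subgroupOf, hDg, Subgroup.comap_map_eq_self_of_injective N.subtype_injective]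
    exact D.not_dvd_index (hd.trans (h3 ▸ h2))
  have hDcentral : ∀ d ∈ (P : Subgroup G) ⊓ N, ∀ y ∈ P, y * d = d * y := by
    obtain ⟨Q, hQC⟩ := CfsgLib.Components2.exists_sylow_le_of_not_dvd_index C hCidx
    have hDQ : Dg ≤ (Q : Subgroup G) := by
      intro d hd
      have hdP : d ∈ (P : Subgroup G) := by
        have : d ∈ (P : Subgroup G) ⊓ N := hD ▸ hd
        exact this.1
      obtain ⟨k, hk⟩ := P.2.exists_orderOf_eq_pow ⟨d, hdP⟩
      refine CfsgLib.Components2.mem_sylow_of_le_centralizer Q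
        (isPGroup_zpowers p ⟨k, by simpa [Subgroup.orderOf_coe] using hk⟩) ?_
      intro q hq
      rw [Subgroup.mem_centralizer_singleton_iff]
      exact (Subgroup.mem_centralizer_iff.1 (hQC hq) d hd).symm
    obtain ⟨E, hE⟩ := CfsgLib.Components2.exists_sylow_map_subtype_eq_inf N Q
    have hED : (D : Subgroup N) ≤ E := fun d hd => by
      have h1 : (d : G) ∈ (E : Subgroup N).map N.subtype :=
        hE ▸ ⟨hDQ ⟨d, hd, rfl⟩, d.2⟩
      obtain ⟨e, he, hee⟩ := h1
      exact (N.subtype_injective hee) ▸ he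
    have hEeq : (E : Subgroup N) = D := D.3 E.2 hED
    have hQN : (Q : Subgroup G) ⊓ N = (P : Subgroup G) ⊓ N := by rw [← hE, hEeq]; exact hD
    obtain ⟨g, hg⟩ := MulAction.exists_smul_eq G Q P
    intro d hd y hy
    rw [← hg, ← SetLike.mem_coe, Sylow.coe_smul, Set.mem_smul_set] at hy
    obtain ⟨q, hq, rfl⟩ := hy
    have hdP : d ∈ ((g • Q : Sylow p G) : Set G) := by rw [hg]; exact hd.1
    rw [Sylow.coe_smul, Set.mem_smul_set] at hdP
    obtain ⟨q', hq', hq'd⟩ := hdP
    have hq'N : q' ∈ N := by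
      have hq'eq : q' = g⁻¹ * d * g := by
        rw [← hq'd, MulAut.smul_def, MulAut.conj_apply]; group
      rw [hq'eq]
      simpa using (inferInstance : N.Normal).conj_mem d hd.2 g⁻¹
    have hq'D : q' ∈ Dg := by rw [hD, ← hQN]; exact ⟨hq', hq'N⟩
    have e := Subgroup.mem_centralizer_iff.1 (hQC hq) q' hq'D
    rw [← hq'd]
    simp only [MulAut.smul_def]
    rw [← map_mul, ← map_mul, e]
  refine ⟨⟨fun a b => Subtype.ext ?_⟩⟩
  change (a : G) * b = b * a
  -- show that `a` is central in `P`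
  have hcentral : ∀ x ∈ P, ∀ y ∈ P, y * x = x * y := by
    intro x hxP
    obtain ⟨k, hk⟩ := P.2.exists_orderOf_eq_pow ⟨x, hxP⟩
    obtain ⟨Q, hxQ, hQx⟩ := exists_central_sylow h ⟨k, by simpa [Subgroup.orderOf_coe] using hk⟩
    let X := (Subgroup.centralizer {QuotientGroup.mk' N x}).comap (QuotientGroup.mk' N)
    have hPX : (P : Subgroup G) ≤ X := by
      intro y hy
      rw [Subgroup.mem_comap, Subgroup.mem_centralizer_singleton_iff]
      have hR := hQ (P.mapSurjective (QuotientGroup.mk'_surjective N))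
      exact congrArg Subtype.val (mul_comm'
        (⟨_, Subgroup.mem_map_of_mem (QuotientGroup.mk' N) hy⟩ : P.mapSurjective (QuotientGroup.mk'_surjective N))
        ⟨_, Subgroup.mem_map_of_mem (QuotientGroup.mk' N) hxP⟩)
    have hQX : (Q : Subgroup G) ≤ X := by
      intro y hy
      rw [Subgroup.mem_comap, Subgroup.mem_centralizer_singleton_iff, ← map_mul, ← map_mul,
        Subgroup.mem_centralizer_singleton_iff.1 (hQx hy)]
    obtain ⟨c, hcX, hc⟩ := CfsgLib.Components2.exists_conj_sylow_of_le P Q hPX hQX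
    have hz : ∀ y ∈ P, y * (c * x * c⁻¹) = c * x * c⁻¹ * y := by
      intro y hy
      rw [← hc, ← SetLike.mem_coe, Sylow.coe_smul, Set.mem_smul_set] at hy
      obtain ⟨q, hq, rfl⟩ := hy
      have e := Subgroup.mem_centralizer_singleton_iff.1 (hQx hq)
      simp only [MulAut.smul_def, MulAut.conj_apply]
      calc c * q * c⁻¹ * (c * x * c⁻¹) = c * (q * x) * c⁻¹ := by group
        _ = c * (x * q) * c⁻¹ := by rw [e]
        _ = c * x * c⁻¹ * (c * q * c⁻¹) := by group
    have hzP : c * x * c⁻¹ ∈ P := by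
      rw [← hc, ← SetLike.mem_coe, Sylow.coe_smul]
      exact ⟨x, hxQ, rfl⟩
    have hd : x * (c * x * c⁻¹)⁻¹ ∈ (P : Subgroup G) ⊓ N := by
      refine Subgroup.mem_inf.2 ⟨mul_mem hxP (inv_mem hzP), ?_⟩
      have hcX' : QuotientGroup.mk' N c * QuotientGroup.mk' N x = QuotientGroup.mk' N x * QuotientGroup.mk' N c :=
        Subgroup.mem_centralizer_singleton_iff.1 hcX
      rw [← QuotientGroup.eq_one_iff]
      change QuotientGroup.mk' N (x * (c * x * c⁻¹)⁻¹) = 1
      rw [map_mul, map_inv, map_mul, map_mul, map_inv, hcX', mul_inv_cancel_right, mul_inv_cancel]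
    intro y hy
    have e1 := hDcentral _ hd y hy
    have e2 := hz y hy
    have ex : x = x * (c * x * c⁻¹)⁻¹ * (c * x * c⁻¹) := by rw [inv_mul_cancel_right]
    rw [ex, ← mul_assoc y, e1, mul_assoc _ y, e2]
    simp only [mul_assoc]
  exact hcentral b b.2 a a.2

end

/-- Let G be a finite group and p a prime such that the Sylow p-subgroups of G are non-abelian while every element of p-power order has conjugacy class size prime to p, and suppose no nontrivial proper normal subgroup N of G has this property and no quotient G/N by such an N has it. Then G is simple. -/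
theorem result {G : Type*} [Group G] [Finite G]
    (p : ℕ) [Fact p.Prime] (h : ((∃ P : Sylow p G, ¬ IsMulCommutative P) ∧ ∀ x : G, (∃ k : ℕ, orderOf x = p ^ k) → ¬ p ∣ (Subgroup.centralizer ({x} : Set G)).index))
    (hmin : ∀ (N : Subgroup G) [N.Normal], N ≠ ⊥ → N ≠ ⊤ →
      ¬ ((∃ P : Sylow p N, ¬ IsMulCommutative P) ∧ ∀ x : N, (∃ k : ℕ, orderOf x = p ^ k) → ¬ p ∣ (Subgroup.centralizer ({x} : Set N)).index) ∧
      ¬ ((∃ P : Sylow p (G ⧸ N), ¬ IsMulCommutative P) ∧ ∀ x : (G ⧸ N), (∃ k : ℕ, orderOf x = p ^ k) → ¬ p ∣ (Subgroup.centralizer ({x} : Set (G ⧸ N))).index)) :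
    IsSimpleGroup G := by
  obtain ⟨⟨P, hP⟩, hgood⟩ := h
  have hab : ∀ (N : Subgroup G) [N.Normal], N ≠ ⊥ → N ≠ ⊤ →
      (∀ D : Sylow p N, IsMulCommutative D) ∧ (∀ R : Sylow p (G ⧸ N), IsMulCommutative R) := by
    intro N hNn h0 h1
    obtain ⟨ha, hb⟩ := hmin N h0 h1
    exact ⟨fun D => by_contra fun hD => ha ⟨⟨D, hD⟩, good_normal hgood N⟩,
      fun R => by_contra fun hR => hb ⟨⟨R, hR⟩, good_quotient hgood N⟩⟩
  have : Nontrivial G := by
    by_contra hc
    rw [not_nontrivial_iff_subsingleton] at hc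
    exact hP ⟨⟨fun a b => Subsingleton.elim _ _⟩⟩
  refine ⟨fun N hN => ?_⟩
  by_contra hne
  push Not at hne
  exact hP (comm_of_minimal hgood hab N hne.1 hne.2 P)

end Cfsg.Agent.S4354
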