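import Cfsg.Statements.S4359
import Cfsg.Agent.Lib.PGroups.Basic
import Cfsg.Agent.Lib.NormalPComplement.Basic
-- import your own Cfsg.Agent.* helpers here

set_option autoImplicit false
open Pointwise
open Cfsg

namespace Cfsg.Agent.S4359

open scoped Pointwise

open scoped commutatorElement

section
variable {G : Type*} [Group G]

/-- The conjugates of `P` by the powers of `g`. -/
def Pc (P : Subgroup G) (g : G) (j : ℤ) : Subgroup G := MulAut.conj (g ^ j)⁻¹ • P

/-- Intersections of consecutive conjugates. -/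
def Iv (P : Subgroup G) (g : G) (a : ℤ) (m : ℕ) : Subgroup G :=
  ⨅ j ∈ Finset.range (m + 1), Pc P g (a + j)

variable {P : Subgroup G} {g : G}

theorem mem_Pc {x : G} {j : ℤ} : x ∈ Pc P g j ↔ g ^ j * x * (g ^ j)⁻¹ ∈ P := by
  rw [Pc, Subgroup.mem_pointwise_smul_iff_inv_smul_mem, ← map_inv, inv_inv]
  rfl

theorem mem_Iv {x : G} {a : ℤ} {m : ℕ} :
    x ∈ Iv P g a m ↔ ∀ j : ℤ, a ≤ j → j ≤ a + m → x ∈ Pc P g j := by
  simp only [Iv, Subgroup.mem_iInf, Finset.mem_range]
  constructor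
  · intro h j h1 h2
    have := h (j - a).toNat (by omega)
    rwa [show a + ((j - a).toNat : ℤ) = j by omega] at this
  · intro h i hi
    exact h _ (by omega) (by omega)

theorem mem_Iv_shift {x : G} {a b : ℤ} {m : ℕ} :
    x ∈ Iv P g (a + b) m ↔ g ^ b * x * (g ^ b)⁻¹ ∈ Iv P g a m := by
  simp only [mem_Iv, mem_Pc]
  constructor
  · intro h j h1 h2
    have := h (j + b) (by omega) (by omega)
    rwa [show g ^ j * (g ^ b * x * (g ^ b)⁻¹) * (g ^ j)⁻¹ = g ^ (j + b) * x * (g ^ (j + b))⁻¹ by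
      rw [zpow_add]; group]
  · intro h j h1 h2
    have := h (j - b) (by omega) (by omega)
    rwa [show g ^ j * x * (g ^ j)⁻¹ = g ^ (j - b) * (g ^ b * x * (g ^ b)⁻¹) * (g ^ (j - b))⁻¹ by
      rw [zpow_sub]; group]

theorem Iv_shift (a b : ℤ) (m : ℕ) :
    Iv P g (a + b) m = MulAut.conj (g ^ b)⁻¹ • Iv P g a m := by
  ext x
  rw [mem_Iv_shift, Subgroup.mem_pointwise_smul_iff_inv_smul_mem, ← map_inv, inv_inv]
  rfl

theorem Iv_succ (a : ℤ) (m : ℕ) :
    Iv P g a (m + 1) = Iv P g a m ⊓ Pc P g (a + m + 1) := by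
  ext x
  simp only [Subgroup.mem_inf, mem_Iv]
  constructor
  · exact fun h => ⟨fun j h1 h2 => h j h1 (by omega), h _ (by omega) (by omega)⟩
  · rintro ⟨h, h'⟩ j h1 h2
    by_cases hj : j ≤ a + m
    · exact h j h1 hj
    · rwa [show j = a + m + 1 by omega]

theorem Iv_zero (a : ℤ) : Iv P g a 0 = Pc P g a := by
  ext x
  rw [mem_Iv]
  exact ⟨fun h => h a le_rfl (by omega), fun h j h1 h2 => by rwa [show j = a by omega]⟩

variable [Finite G]

theorem card_conj (c : G) (H : Subgroup G) : Nat.card ↥(MulAut.conj c • H) = Nat.card H :=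
  (Nat.card_congr (Subgroup.equivSMul (MulAut.conj c) H).toEquiv).symm

theorem card_Iv (a : ℤ) (m : ℕ) : Nat.card ↥(Iv P g a m) = Nat.card ↥(Iv P g 0 m) := by
  have h := Iv_shift (P := P) (g := g) 0 a m
  rw [zero_add] at h
  rw [h, card_conj]

theorem normal_of_index_p {p : ℕ} [Fact p.Prime] {A B : Subgroup G} (hB : IsPGroup p B) (hAB : A ≤ B)
    (h : Nat.card A * p = Nat.card B) : ∀ b ∈ B, ∀ a ∈ A, b * a * b⁻¹ ∈ A := by
  have hlt : A.subgroupOf B ≠ ⊤ := fun h' => by
    rw [Subgroup.subgroupOf_eq_top] at h'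
    rw [le_antisymm hAB h'] at h
    have := (Fact.out : p.Prime).one_lt
    have hpos : 0 < Nat.card B := Nat.card_pos
    nlinarith
  obtain ⟨M, hM, hMn, hMi, -⟩ := CfsgLib.PGroups.exists_le_index_prime hB hlt
  have hA : A.subgroupOf B = M := by
    refine Subgroup.eq_of_le_of_card_ge hM (le_of_eq ?_)
    have h1 := M.card_mul_index
    rw [hMi, ← h] at h1
    rw [Nat.card_congr (Subgroup.subgroupOfEquivOfLe hAB).toEquiv]
    exact Nat.eq_of_mul_eq_mul_right (Fact.out : p.Prime).pos h1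
  intro b hb a ha
  have hm : (⟨a, hAB ha⟩ : B) ∈ M := hA ▸ (show (⟨a, hAB ha⟩ : B) ∈ A.subgroupOf B from ha)
  have := hMn.conj_mem _ hm ⟨b, hb⟩
  rw [← hA] at this
  exact this

theorem sup_eq_of_index_p {p : ℕ} [hp : Fact p.Prime] {A A' B : Subgroup G} (hB : IsPGroup p B)
    (hA : A ≤ B) (hA' : A' ≤ B) (h : Nat.card A * p = Nat.card B) (hne : ¬ A' ≤ A) : A ⊔ A' = B := by
  have hlt : A < A ⊔ A' := lt_of_le_of_ne le_sup_left fun h' => hne (h' ▸ le_sup_right)
  refine Subgroup.eq_of_le_of_card_ge (sup_le hA hA') ?_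
  obtain ⟨k, hk⟩ := IsPGroup.iff_card.1 (hB.to_le (sup_le hA hA'))
  obtain ⟨l, hl⟩ := IsPGroup.iff_card.1 (hB.to_le hA)
  have hlt' : Nat.card A < Nat.card ↥(A ⊔ A') :=
    lt_of_not_ge fun h => hlt.ne (Subgroup.eq_of_le_of_card_ge hlt.le h)
  rw [hk, hl] at hlt'
  rw [← h, hk, hl, ← pow_succ]
  exact Nat.pow_le_pow_right hp.out.pos ((Nat.pow_lt_pow_iff_right hp.out.one_lt).1 hlt')

/-- Under the hypotheses `P` is a `p`-group. -/
theorem isPGroup_P {p : ℕ} [hp : Fact p.Prime]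
    (hN : ((P ⊓ MulAut.conj g⁻¹ • P).subgroupOf (MulAut.conj g⁻¹ • P)).Normal)
    (hidx : (P ⊓ MulAut.conj g⁻¹ • P).relIndex (MulAut.conj g⁻¹ • P) = p)
    (h1 : ∀ Q : Subgroup G, Q ≤ P → (Q.subgroupOf P).Normal → MulAut.conj g • Q = Q → Q = ⊥) :
    IsPGroup p P := by
  set c := MulAut.conj g
  set P1 := MulAut.conj g⁻¹ • P
  set S : Set G := {x | x ∈ P ∧ (orderOf x).Coprime p}
  set O := Subgroup.closure S
  have hOP : O ≤ P := (Subgroup.closure_le P).2 fun x hx => hx.1
  have hgen : ∀ x ∈ S, g⁻¹ * x * g ∈ S := by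
    rintro x ⟨hx, hxo⟩
    have ho : orderOf (g⁻¹ * x * g) = orderOf x :=
      (SemiconjBy.orderOf_eq g⁻¹ (by simp [SemiconjBy, mul_assoc])).symm
    refine ⟨?_, ho ▸ hxo⟩
    have hmem : g⁻¹ * x * g ∈ P1 := ⟨x, hx, by simp⟩
    set y : P1 := ⟨_, hmem⟩
    set R := (P ⊓ P1).subgroupOf P1
    have h1' : y ^ p ∈ R := by
      have := Subgroup.pow_index_mem R y
      rwa [show R.index = p from hidx] at this
    obtain ⟨m, hm⟩ := exists_pow_eq_self_of_coprime
      (show p.Coprime (orderOf y) by rw [Subgroup.orderOf_mk, ho]; exact hxo.symm)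
    have := pow_mem h1' m
    rw [hm] at this
    exact this.1
  have hinv : MulAut.conj g⁻¹ • O ≤ O := by
    rw [Subgroup.smul_closure]
    refine (Subgroup.closure_le _).2 ?_
    rintro _ ⟨x, hx, rfl⟩
    refine Subgroup.subset_closure ?_
    simpa using hgen x hx
  have hfix : c • O = O := by
    have h2 : MulAut.conj g⁻¹ • O = O := Subgroup.eq_of_le_of_card_ge hinv (card_conj _ _).ge
    conv_lhs => rw [← h2, ← mul_smul, ← map_mul, mul_inv_cancel, map_one, one_smul]
  have hnorm : (O.subgroupOf P).Normal := by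
    rw [Subgroup.normal_subgroupOf_iff hOP]
    intro o y ho hy
    induction ho using Subgroup.closure_induction with
    | mem x hx =>
      exact Subgroup.subset_closure ⟨mul_mem (mul_mem hy hx.1) (inv_mem hy), by
        rw [← SemiconjBy.orderOf_eq y (x := x) (by simp [SemiconjBy])]; exact hx.2⟩
    | one => simpa using one_mem O
    | mul a b _ _ ha hb => rw [show y * (a * b) * y⁻¹ = y * a * y⁻¹ * (y * b * y⁻¹) by group]; exact mul_mem ha hb
    | inv a _ ha => rw [show y * a⁻¹ * y⁻¹ = (y * a * y⁻¹)⁻¹ by group]; exact inv_mem ha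
  have hO := h1 O hOP hnorm hfix
  intro x
  obtain ⟨e, he⟩ := CfsgLib.NormalPComplement.exists_pow_coprime_orderOf (p := p)
    (isOfFinOrder_of_finite (x : G))
  refine ⟨e, Subtype.ext ?_⟩
  have : (x : G) ^ p ^ e ∈ O := Subgroup.subset_closure ⟨pow_mem x.2 _, he⟩
  rw [hO, Subgroup.mem_bot] at this
  simpa using this

/-- The chain of intersections. -/
theorem exists_length {p : ℕ} [hp : Fact p.Prime] (hPp : IsPGroup p P)
    (hidx : (P ⊓ MulAut.conj g⁻¹ • P).relIndex (MulAut.conj g⁻¹ • P) = p)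
    (h1 : ∀ Q : Subgroup G, Q ≤ P → (Q.subgroupOf P).Normal → MulAut.conj g • Q = Q → Q = ⊥) :
    ∃ t : ℕ, 1 ≤ t ∧ ∀ a : ℤ, ∀ i ≤ t, Nat.card ↥(Iv P g a i) = p ^ (t - i) := by
  have hIp : ∀ a m, IsPGroup p ↥(Iv P g a m) := by
    intro a m
    have hle : Iv P g a m ≤ Pc P g a := fun x hx => mem_Iv.1 hx a le_rfl (by omega)
    exact (hPp.of_equiv (Subgroup.equivSMul (MulAut.conj (g ^ a)⁻¹) P)).to_le hle
  have hP0 : Pc P g 0 = P := by ext x; simp [mem_Pc]
  have hP1 : Pc P g 1 = MulAut.conj g⁻¹ • P := by rw [Pc, zpow_one]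
  have hstep : ∀ m, Iv P g 0 (m + 1) = Iv P g 0 m ∨
      Nat.card ↥(Iv P g 0 (m + 1)) * p = Nat.card ↥(Iv P g 0 m) := by
    intro m
    have hle : Iv P g 0 (m + 1) ≤ Iv P g 0 m := by rw [Iv_succ]; exact inf_le_left
    have hrel : (Iv P g 0 (m + 1)).relIndex (Iv P g 0 m) ≤ p := by
      rw [Iv_succ, Subgroup.inf_relIndex_left]
      have hb : Iv P g 0 m ≤ Pc P g (0 + m) := fun x hx => mem_Iv.1 hx _ (by omega) (by omega)
      have hcard : Nat.card ↥(Pc P g (0 + m)) = Nat.card P := card_conj _ _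
      have hinf : Pc P g (0 + m + 1) ⊓ Pc P g (0 + m) = MulAut.conj (g ^ (m : ℤ))⁻¹ • (P ⊓ MulAut.conj g⁻¹ • P) := by
        ext x
        rw [Subgroup.mem_inf, mem_Pc, mem_Pc, Subgroup.mem_pointwise_smul_iff_inv_smul_mem,
          ← map_inv, inv_inv, Subgroup.mem_inf, Subgroup.mem_pointwise_smul_iff_inv_smul_mem (S := P),
          ← map_inv, inv_inv, zero_add, add_comm (m : ℤ) 1, zpow_add, zpow_one, and_comm]
        simp [mul_assoc, -map_pow, MulAut.smul_def]
        intro _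
        rw [show g * (g ^ m * (x * ((g ^ m)⁻¹ * g⁻¹))) = g ^ m * (g * (x * (g⁻¹ * (g ^ m)⁻¹))) by group]
      have h3 : (Pc P g (0 + m + 1)).relIndex (Pc P g (0 + m)) = p := by
        rw [← Subgroup.inf_relIndex_right, hinf]
        have e1 := Subgroup.relIndex_mul_relIndex ⊥ (P ⊓ MulAut.conj g⁻¹ • P) (MulAut.conj g⁻¹ • P)
          bot_le inf_le_right
        rw [Subgroup.relIndex_bot_left, Subgroup.relIndex_bot_left, hidx, card_conj] at e1
        have e2 := Subgroup.relIndex_mul_relIndex ⊥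
          (MulAut.conj (g ^ (m : ℤ))⁻¹ • (P ⊓ MulAut.conj g⁻¹ • P)) (Pc P g (0 + m)) bot_le
          (hinf ▸ inf_le_right)
        rw [Subgroup.relIndex_bot_left, Subgroup.relIndex_bot_left, hcard, card_conj, ← e1] at e2
        exact Nat.eq_of_mul_eq_mul_left Nat.card_pos e2
      refine le_trans (Subgroup.relIndex_le_of_le_right hb ?_) h3.le
      rw [h3]; exact hp.out.ne_zero
    have e := Subgroup.relIndex_mul_relIndex ⊥ _ _ bot_le hle
    rw [Subgroup.relIndex_bot_left, Subgroup.relIndex_bot_left] at e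
    obtain ⟨k, hk⟩ := IsPGroup.iff_card.1 (hIp 0 m)
    obtain ⟨r, -, hr⟩ := (Nat.dvd_prime_pow hp.out).1 (hk ▸ Dvd.intro_left _ e :
      (Iv P g 0 (m + 1)).relIndex (Iv P g 0 m) ∣ p ^ k)
    rw [hr] at hrel e
    have hr1 : r ≤ 1 := (Nat.pow_le_pow_iff_right hp.out.one_lt).1 (hrel.trans_eq (pow_one p).symm)
    interval_cases r
    · left
      rw [pow_zero, mul_one] at e
      exact Subgroup.eq_of_le_of_card_ge hle e.ge
    · right; rwa [pow_one] at e
  have hex : ∃ m, Iv P g 0 (m + 1) = Iv P g 0 m := by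
    by_contra hcon
    push Not at hcon
    have hlt : ∀ m, Nat.card ↥(Iv P g 0 m) + m ≤ Nat.card ↥(Iv P g 0 0) := by
      intro m
      induction m with
      | zero => simp
      | succ m ih =>
        have h := (hstep m).resolve_left (hcon m)
        have h2 : Nat.card ↥(Iv P g 0 (m + 1)) < Nat.card ↥(Iv P g 0 m) := by
          rw [← h]; exact lt_mul_of_one_lt_right Nat.card_pos hp.out.one_lt
        omega
    have h := hlt (Nat.card ↥(Iv P g 0 0))
    have : 0 < Nat.card ↥(Iv P g 0 (Nat.card ↥(Iv P g 0 0))) := Nat.card_pos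
    omega
  classical
  set t := Nat.find hex with ht
  have hstab : Iv P g 0 (t + 1) = Iv P g 0 t := Nat.find_spec hex
  have hdec : ∀ i < t, Nat.card ↥(Iv P g 0 (i + 1)) * p = Nat.card ↥(Iv P g 0 i) := fun i hi =>
    (hstep i).resolve_left (Nat.find_min hex hi)
  have ht1 : 1 ≤ t := by
    by_contra h0
    rw [show t = 0 by omega, Iv_succ, Iv_zero, Nat.cast_zero, add_zero, zero_add, hP0, hP1] at hstab
    rw [hstab] at hidx
    have e := Subgroup.relIndex_mul_relIndex ⊥ P (MulAut.conj g⁻¹ • P) bot_le (inf_eq_left.1 hstab)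
    rw [Subgroup.relIndex_bot_left, Subgroup.relIndex_bot_left, hidx, card_conj] at e
    have : 0 < Nat.card P := Nat.card_pos
    have := hp.out.one_lt
    nlinarith
  set Q := Iv P g 0 t with hQ
  have hQeq : Iv P g 1 t = Q := by
    refine (Subgroup.eq_of_le_of_card_ge (fun x hx => ?_) ?_).symm
    · replace hx : x ∈ Iv P g 0 (t + 1) := hstab.symm ▸ hx
      exact mem_Iv.2 fun j h1 h2 => mem_Iv.1 hx j (by omega) (by omega)
    · rw [hQ, card_Iv 1 t]
  have hQfix : MulAut.conj g⁻¹ • Q = Q := by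
    have h := Iv_shift (P := P) (g := g) 0 1 t
    rw [zero_add, zpow_one, hQeq] at h
    exact h.symm
  have hQP : Q ≤ P := fun x hx => hP0 ▸ mem_Iv.1 hx 0 le_rfl (by omega)
  -- every interval normalises `Q`
  have hQshift : ∀ b : ℤ, ∀ x ∈ Q, g ^ b * x * (g ^ b)⁻¹ ∈ Q := by
    have hN : Subgroup.zpowers g ≤ Subgroup.normalizer (Q : Set G) := by
      rw [Subgroup.zpowers_le]
      refine Subgroup.mem_normalizer_iff''.2 fun x => ?_
      conv_rhs => rw [← hQfix, Subgroup.mem_pointwise_smul_iff_inv_smul_mem, ← map_inv, inv_inv]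
      simp [mul_assoc]
    exact fun b x hx => (Subgroup.mem_normalizer_iff.1
      (hN (zpow_mem (Subgroup.mem_zpowers g) b)) x).1 hx
  have hnorm : ∀ d i, i + d + 1 = t → ∀ a : ℤ, Iv P g a i ≤ Subgroup.normalizer (Q : Set G) := by
    have hshift : ∀ i, Iv P g 0 i ≤ Subgroup.normalizer (Q : Set G) →
        ∀ a : ℤ, Iv P g a i ≤ Subgroup.normalizer (Q : Set G) := by
      intro i hi a x hx
      rw [← zero_add a, mem_Iv_shift] at hx
      refine Subgroup.mem_normalizer_iff.2 fun q => ?_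
      have h := Subgroup.mem_normalizer_iff.1 (hi hx) (g ^ a * q * (g ^ a)⁻¹)
      have key : ∀ q, g ^ a * q * (g ^ a)⁻¹ ∈ Q ↔ q ∈ Q := fun q => by
        refine ⟨fun hq => ?_, hQshift a q⟩
        have := hQshift (-a) _ hq
        simpa [mul_assoc] using this
      rw [key] at h
      rw [h, ← key (x * q * x⁻¹)]
      constructor <;> intro h' <;> simpa [mul_assoc] using h'
    intro d
    induction d with
    | zero =>
      intro i hi
      refine hshift i fun x hx => ?_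
      have hle : Q ≤ Iv P g 0 i := fun y hy => mem_Iv.2 fun j h1 h2 => mem_Iv.1 hy j h1 (by omega)
      have hc : Nat.card Q * p = Nat.card ↥(Iv P g 0 i) := by
        rw [← hdec i (by omega), show i + 1 = t by omega]
      have key := normal_of_index_p (hIp 0 i) hle hc
      refine Subgroup.mem_normalizer_iff.2 fun q => ⟨key x hx q, fun h => ?_⟩
      simpa [mul_assoc] using key x⁻¹ (inv_mem hx) _ h
    | succ d ih =>
      intro i hi
      refine hshift i ?_
      have hA : Iv P g 0 (i + 1) ≤ Iv P g 0 i := fun y hy =>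
        mem_Iv.2 fun j h1 h2 => mem_Iv.1 hy j h1 (by omega)
      have hA' : Iv P g (-1) (i + 1) ≤ Iv P g 0 i := fun y hy =>
        mem_Iv.2 fun j h1 h2 => mem_Iv.1 hy j (by omega) (by omega)
      have hne : ¬ Iv P g (-1) (i + 1) ≤ Iv P g 0 (i + 1) := by
        intro h
        refine Nat.find_min hex (m := i + 1) (by omega) (le_antisymm ?_ fun y hy => ?_)
        · rw [Iv_succ]; exact inf_le_left
        have heq : Iv P g (-1) (i + 1) = Iv P g 0 (i + 1) :=
          Subgroup.eq_of_le_of_card_ge h (card_Iv (-1) (i + 1)).ge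
        have hy' : g * y * g⁻¹ ∈ Iv P g 0 (i + 1) → y ∈ Iv P g 1 (i + 1) := fun h' => by
          rw [show (1 : ℤ) = 0 + 1 by ring, mem_Iv_shift, zpow_one]; exact h'
        have hy1 : y ∈ Iv P g (-1) (i + 1) := heq ▸ hy
        have h2 : y ∈ Iv P g 1 (i + 1) := hy' (by
          rw [show (0 : ℤ) = -1 + 1 by ring] at hy
          rw [mem_Iv_shift, zpow_one] at hy
          exact heq ▸ hy)
        refine mem_Iv.2 fun j h1 h3 => ?_
        by_cases hj : j ≤ 0 + ((i : ℤ) + 1)
        · exact mem_Iv.1 hy j h1 (by omega)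
        · exact mem_Iv.1 h2 j (by omega) (by omega)
      rw [← sup_eq_of_index_p (hIp 0 i) hA hA' (hdec i (by omega)) hne]
      exact sup_le (ih (i + 1) (by omega) 0) (ih (i + 1) (by omega) (-1))
  have hPnorm : P ≤ Subgroup.normalizer (Q : Set G) := by
    rw [← hP0, ← Iv_zero]
    exact hnorm (t - 1) 0 (by omega) 0
  have hQbot : Q = ⊥ := by
    refine h1 Q hQP ((Subgroup.normal_subgroupOf_iff hQP).2 fun q y hq hy =>
      (Subgroup.mem_normalizer_iff.1 (hPnorm hy) q).1 hq) ?_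
    conv_lhs => rw [← hQfix, ← mul_smul, ← map_mul, mul_inv_cancel, map_one, one_smul]
  refine ⟨t, ht1, fun a i hi => ?_⟩
  rw [card_Iv]
  have key : ∀ d, d ≤ t → Nat.card ↥(Iv P g 0 (t - d)) = p ^ d := by
    intro d
    induction d with
    | zero => intro _; rw [Nat.sub_zero, ← hQ, hQbot, Subgroup.card_bot, pow_zero]
    | succ d ih =>
      intro hd
      rw [← hdec (t - (d + 1)) (by omega), show t - (d + 1) + 1 = t - d by omega, ih (by omega), pow_succ]
  have := key (t - i) (by omega)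
  rwa [show t - (t - i) = i by omega] at this

set_option maxHeartbeats 1000000 in
/-- The Sims–Glauberman bound. -/
theorem bound {p : ℕ} [hp : Fact p.Prime] {t n : ℕ} (ht : 1 ≤ t) (hn : 1 ≤ n)
    (hcard : ∀ a : ℤ, ∀ i ≤ t, Nat.card ↥(Iv P g a i) = p ^ (t - i))
    (h2 : ∀ x ∈ P, (∀ j : ℤ, 0 ≤ j → j ≤ (n : ℤ) → ∀ y ∈ Pc P g j, Commute x y) → x = 1) :
    t ≤ 3 * n ∧ t ≠ 3 * n - 1 := by
  classical
  obtain ⟨M, hMdef⟩ : ∃ M : ℤ → ℕ → Subgroup G, ∀ a l, M a l = Iv P g (a + l - 1) (t - l) :=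
    ⟨_, fun _ _ => rfl⟩
  have hM : ∀ a l, l ≤ t → Nat.card ↥(M a l) = p ^ l := fun a l hl => by
    rw [hMdef, hcard _ _ (by omega), show t - (t - l) = l by omega]
  have hMmem : ∀ a l x, l ≤ t →
      (x ∈ M a l ↔ ∀ j : ℤ, a + l - 1 ≤ j → j ≤ a + t - 1 → x ∈ Pc P g j) := fun a l x hl => by
    rw [hMdef]
    rw [mem_Iv, show a + (l : ℤ) - 1 + ((t - l : ℕ) : ℤ) = a + t - 1 by omega]
  have hMmono : ∀ (a : ℤ) (l : ℕ) (a' : ℤ) (l' : ℕ), l ≤ t → l' ≤ t → a' ≤ a → a + l ≤ a' + l' →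
      M a l ≤ M a' l' := by
    intro a l a' l' hl hl' h1 h2 x hx
    rw [hMmem _ _ _ hl] at hx
    exact (hMmem _ _ _ hl').2 fun j h3 h4 => hx j (by omega) (by omega)
  have hMp : ∀ a l, l ≤ t → IsPGroup p ↥(M a l) := fun a l hl => IsPGroup.of_card (hM a l hl)
  have hM0 : ∀ a, M a 0 = ⊥ := fun a =>
    Subgroup.eq_bot_of_card_eq _ (by rw [hM a 0 (Nat.zero_le t), pow_zero])
  obtain ⟨x0, hx0, hx01⟩ : ∃ x ∈ M 0 1, x ≠ 1 := by
    by_contra hcon
    push Not at hcon
    have h := hM 0 1 ht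
    rw [(Subgroup.eq_bot_iff_forall _).2 hcon, Subgroup.card_bot, pow_one] at h
    exact hp.out.ne_one h.symm
  obtain ⟨y, hydef⟩ : ∃ y : ℤ → G, ∀ i, y i = (g ^ i)⁻¹ * x0 * g ^ i := ⟨_, fun _ => rfl⟩
  have hy : ∀ i, y i ∈ M i 1 := fun i => by
    rw [hMmem _ _ _ ht] at hx0 ⊢
    intro j h1 h2
    have := hx0 (j - i) (by omega) (by omega)
    rw [mem_Pc] at this ⊢
    rwa [show g ^ j * y i * (g ^ j)⁻¹ = g ^ (j - i) * x0 * (g ^ (j - i))⁻¹ by
      rw [zpow_sub]; simp [hydef, mul_assoc]]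
  have hy1 : ∀ i, y i ≠ 1 := fun i h => hx01 (by
    rw [show x0 = g ^ i * y i * (g ^ i)⁻¹ by simp [hydef, mul_assoc], h]; simp)
  have hconj : ∀ i s, (g ^ s)⁻¹ * y i * g ^ s = y (i + s) := fun i s => by
    simp [hydef, zpow_add, mul_assoc]
  -- right and left steps
  have hnot : ∀ a l, l + 1 ≤ t → y (a + l) ∉ M a l ∧ y a ∉ M (a + 1) l := by
    intro a l hl
    have hz : ∀ b : ℤ, ∀ x, (∀ j : ℤ, b ≤ j → j ≤ b + t → x ∈ Pc P g j) → x = 1 := by
      intro b x hx
      have : x ∈ M (b + 1) 0 := (hMmem _ _ _ (Nat.zero_le t)).2 fun j h1 h2 => hx j (by omega) (by omega)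
      rwa [hM0, Subgroup.mem_bot] at this
    constructor <;> intro h
    · refine hy1 (a + l) (hz (a + l - 1) _ fun j h1 h2 => ?_)
      by_cases hj : a + l ≤ j
      · exact (hMmem _ _ _ ht).1 (hy (a + l)) j (by omega) (by omega)
      · exact (hMmem _ _ _ (by omega)).1 h j (by omega) (by omega)
    · refine hy1 a (hz a _ fun j h1 h2 => ?_)
      by_cases hj : j ≤ a + t - 1
      · exact (hMmem _ _ _ ht).1 (hy a) j (by omega) (by omega)
      · exact (hMmem _ _ _ (by omega)).1 h j (by omega) (by omega)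
  have hstepR : ∀ a l, l + 1 ≤ t → M a l ⊔ Subgroup.zpowers (y (a + l)) = M a (l + 1) := by
    intro a l hl
    refine sup_eq_of_index_p (hMp a (l + 1) hl) (hMmono _ _ _ _ (by omega) hl le_rfl (by omega)) ?_ ?_ ?_
    · rw [Subgroup.zpowers_le]
      exact hMmono _ _ _ _ ht hl (by omega) (by omega) (hy (a + l))
    · rw [hM a l (by omega), hM a (l + 1) hl, pow_succ]
    · exact fun h => (hnot a l hl).1 (h (Subgroup.mem_zpowers _))
  have hstepL : ∀ a l, l + 1 ≤ t → M (a + 1) l ⊔ Subgroup.zpowers (y a) = M a (l + 1) := by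
    intro a l hl
    refine sup_eq_of_index_p (hMp a (l + 1) hl) (hMmono _ _ _ _ (by omega) hl (by omega) (by omega)) ?_ ?_ ?_
    · rw [Subgroup.zpowers_le]
      exact hMmono _ _ _ _ ht hl le_rfl (by omega) (hy a)
    · rw [hM (a + 1) l (by omega), hM a (l + 1) hl, pow_succ]
    · exact fun h => (hnot a l hl).2 (h (Subgroup.mem_zpowers _))
  have hcomm : ∀ l, l ≤ t → ∀ (a : ℤ) (z : G),
      (∀ i : ℤ, a ≤ i → i < a + l → Commute z (y i)) → M a l ≤ Subgroup.centralizer {z} := by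
    intro l
    induction l with
    | zero => intro _ a z _; rw [hM0]; exact bot_le
    | succ l ih =>
      intro hl a z hz
      rw [← hstepR a l hl]
      exact sup_le (ih (by omega) a z fun i h1 h2 => hz i h1 (by omega))
        (Subgroup.zpowers_le.2 (Subgroup.mem_centralizer_singleton_iff.2
          (hz _ (by omega) (by omega)).symm.eq))
  have hcmem : ∀ (i : ℤ) (d : ℕ), 1 ≤ d → d + 1 ≤ t →
      ⁅y i, y (i + d)⁆ ∈ M (i + 1) (d - 1) := by
    intro i d hd hdt
    have hA : M i d ≤ M i (d + 1) := hMmono _ _ _ _ (by omega) hdt le_rfl (by omega)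
    have hB : M (i + 1) d ≤ M i (d + 1) := hMmono _ _ _ _ (by omega) hdt (by omega) (by omega)
    have hcA : Nat.card ↥(M i d) * p = Nat.card ↥(M i (d + 1)) := by
      rw [hM i d (by omega), hM i (d + 1) hdt, pow_succ]
    have hcB : Nat.card ↥(M (i + 1) d) * p = Nat.card ↥(M i (d + 1)) := by
      rw [hM (i + 1) d (by omega), hM i (d + 1) hdt, pow_succ]
    have hyA : y i ∈ M i d := hMmono _ _ _ _ ht (by omega) le_rfl (by omega) (hy i)
    have hyB : y (i + d) ∈ M (i + 1) d := hMmono _ _ _ _ ht (by omega) (by omega) (by omega) (hy _)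
    have e1 : ⁅y i, y (i + d)⁆ ∈ M i d := by
      rw [commutatorElement_def, show y i * y (i + d) * (y i)⁻¹ * (y (i + d))⁻¹ =
        y i * (y (i + d) * (y i)⁻¹ * (y (i + d))⁻¹) by group]
      exact mul_mem hyA (normal_of_index_p (hMp i (d + 1) hdt) hA hcA _ (hB hyB) _ (inv_mem hyA))
    have e2 : ⁅y i, y (i + d)⁆ ∈ M (i + 1) d := by
      rw [commutatorElement_def]
      exact mul_mem (normal_of_index_p (hMp i (d + 1) hdt) hB hcB _ (hA hyA) _ hyB) (inv_mem hyB)
    rw [hMmem _ _ _ (by omega)] at e1 e2 ⊢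
    intro j h1 h2
    by_cases hj : j ≤ i + t - 1
    · exact e1 j (by omega) hj
    · exact e2 j (by omega) (by omega)
  have hshiftcomm : ∀ i j s, Commute (y i) (y j) → Commute (y (i + s)) (y (j + s)) := by
    intro i j s h
    rw [← hconj, ← hconj]
    show (g ^ s)⁻¹ * y i * g ^ s * ((g ^ s)⁻¹ * y j * g ^ s) = _
    calc (g ^ s)⁻¹ * y i * g ^ s * ((g ^ s)⁻¹ * y j * g ^ s) = (g ^ s)⁻¹ * (y i * y j) * g ^ s := by group
      _ = (g ^ s)⁻¹ * (y j * y i) * g ^ s := by rw [h.eq]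
      _ = _ := by group
  -- the commuting length
  obtain ⟨k, hk1, hkt, hk, hknot⟩ : ∃ k : ℕ, 1 ≤ k ∧ k ≤ t ∧
      (∀ d : ℕ, d < k → Commute (y 0) (y d)) ∧ (k < t → ¬ Commute (y 0) (y k)) := by
    by_cases h : ∃ d, d < t ∧ ¬ Commute (y 0) (y (d : ℕ))
    · refine ⟨Nat.find h, ?_, (Nat.find_spec h).1.le, fun d hd => ?_, fun _ => (Nat.find_spec h).2⟩
      · rw [Nat.one_le_iff_ne_zero]
        intro h0
        have := (Nat.find_spec h).2
        rw [h0] at this
        exact this (Commute.refl _)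
      · by_contra hc
        exact Nat.find_min h hd ⟨by have := (Nat.find_spec h).1; omega, hc⟩
    · push Not at h
      exact ⟨t, ht, le_rfl, fun d hd => h d hd, fun h' => absurd h' (lt_irrefl t)⟩
  have hcom : ∀ i j : ℤ, i - j < k → j - i < k → Commute (y i) (y j) := by
    intro i j h1 h2
    rcases le_total i j with h | h
    · have := hshiftcomm 0 ((j - i).toNat : ℤ) i (hk _ (by omega))
      rwa [zero_add, show ((j - i).toNat : ℤ) + i = j by omega] at this
    · have := (hshiftcomm 0 ((i - j).toNat : ℤ) j (hk _ (by omega))).symm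
      rwa [zero_add, show ((i - j).toNat : ℤ) + j = i by omega] at this
  have hintervals : ∀ a l b l', l ≤ t → l' ≤ t → (∀ i j : ℤ, a ≤ i → i < a + (l : ℕ) → b ≤ j →
      j < b + (l' : ℕ) → i - j < k ∧ j - i < k) → ∀ x ∈ M a l, ∀ x' ∈ M b l', Commute x x' := by
    intro a l b l' hl hl' h x hx x' hx'
    have h1 : ∀ i : ℤ, a ≤ i → i < a + (l : ℕ) → Commute (y i) x' := fun i h1 h2 =>
      (Subgroup.mem_centralizer_singleton_iff.1 (hcomm l' hl' b (y i) (fun j h3 h4 =>
        hcom i j (h i j h1 h2 h3 h4).1 (h i j h1 h2 h3 h4).2) hx') : Commute x' (y i)).symm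
    exact Subgroup.mem_centralizer_singleton_iff.1 (hcomm l hl a x' (fun i h1' h2' => (h1 i h1' h2').symm) hx)
  -- the centre bound
  have hcent : 2 * k ≤ t + n := by
    by_contra hlt
    push Not at hlt
    set i : ℤ := min 0 ((k : ℤ) - t) with hi
    refine hy1 i (h2 _ ?_ fun j h1 h2' x hx => ?_)
    · have h := (hMmem _ _ _ ht).1 (hy i) 0 (by omega) (by omega)
      rw [mem_Pc] at h; simpa using h
    · have hxM : x ∈ M (j + 1 - t) t := (hMmem _ _ _ le_rfl).2 fun j' h3 h4 => by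
        rwa [show j' = j by omega]
      exact hintervals i 1 (j + 1 - t) t ht le_rfl (fun i' j' a1 a2 a3 a4 => by omega) _ (hy i) _ hxM
  by_cases hkt' : k = t
  · omega
  have hk' : k < t := lt_of_le_of_ne hkt hkt'
  have hnc : ∀ i : ℤ, ¬ Commute (y i) (y (i + k)) := fun i h => hknot hk' (by
    have := hshiftcomm i (i + k) (-i) h
    rwa [add_neg_cancel, add_comm i (k : ℤ), add_neg_cancel_right] at this)
  set a := y 1
  set b := y (1 + k)
  set w := ⁅a, b⁆ with hw
  have hwM : w ∈ M 2 (k - 1) := hcmem 1 k hk1 hk'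
  have hw1 : w ≠ 1 := fun h => hnc 1 (commutatorElement_eq_one_iff_mul_comm.1 h)
  -- the first index of `w`
  obtain ⟨u, hu1, hu2, hwu, hwu'⟩ : ∃ u : ℕ, 2 ≤ u ∧ u ≤ k ∧ w ∈ M u (k + 1 - u) ∧
      w ∉ M (u + 1) (k - u) := by
    set S := (Finset.Icc 2 (k + 1)).filter fun u : ℕ => w ∈ M u (k + 1 - u)
    have hne : S.Nonempty := ⟨2, Finset.mem_filter.2 ⟨Finset.mem_Icc.2 ⟨le_rfl, by omega⟩, by
      rw [show k + 1 - 2 = k - 1 by omega]; exact hwM⟩⟩
    obtain ⟨hm, hm'⟩ := Finset.mem_filter.1 (S.max'_mem hne)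
    rw [Finset.mem_Icc] at hm
    have hne' : S.max' hne ≠ k + 1 := fun h => hw1 (by
      rw [h, Nat.sub_self, hM0, Subgroup.mem_bot] at hm'; exact hm')
    refine ⟨S.max' hne, hm.1, by omega, hm', fun h => ?_⟩
    have := S.le_max' (S.max' hne + 1) (Finset.mem_filter.2
      ⟨Finset.mem_Icc.2 ⟨by omega, by omega⟩, by
        rw [show k + 1 - (S.max' hne + 1) = k - S.max' hne by omega]
        exact_mod_cast h⟩)
    omega
  -- the last index of `w`
  obtain ⟨v, hv1, hv2, hwv, hwv'⟩ : ∃ v : ℕ, 2 ≤ v ∧ v ≤ k ∧ w ∈ M 2 (v - 1) ∧ w ∉ M 2 (v - 2) := by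
    have hex : ∃ v : ℕ, w ∈ M 2 (v - 1) := ⟨k, hwM⟩
    have h := Nat.find_spec hex
    have hle : Nat.find hex ≤ k := Nat.find_min' hex hwM
    have h2' : 2 ≤ Nat.find hex := by
      by_contra h'
      rw [show Nat.find hex - 1 = 0 by omega, hM0, Subgroup.mem_bot] at h
      exact hw1 h
    refine ⟨Nat.find hex, h2', hle, h, fun h' => Nat.find_min hex (m := Nat.find hex - 1) (by omega) ?_⟩
    rwa [show Nat.find hex - 1 - 1 = Nat.find hex - 2 by omega]
  have hupow : ∀ (i : ℤ) (z : G) (e : ℤ), Commute (y i ^ e) z → y i ^ e ≠ 1 → Commute (y i) z := by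
    intro i z e h hne
    have hc : Nat.card (Subgroup.zpowers (y i ^ e)) = Nat.card ↥(M i 1) := by
      have hle : Subgroup.zpowers (y i ^ e) ≤ M i 1 := Subgroup.zpowers_le.2 (zpow_mem (hy i) e)
      have hd := Subgroup.card_dvd_of_le hle
      rw [hM i 1 ht, pow_one] at hd ⊢
      refine (hp.out.eq_one_or_self_of_dvd _ hd).resolve_left fun h1' => hne ?_
      rwa [Nat.card_zpowers, orderOf_eq_one_iff] at h1'
    have heq : Subgroup.zpowers (y i ^ e) = M i 1 :=
      Subgroup.eq_of_le_of_card_ge (Subgroup.zpowers_le.2 (zpow_mem (hy i) e)) hc.ge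
    obtain ⟨m, hm⟩ := Subgroup.mem_zpowers_iff.1 (heq.ge (hy i))
    rw [← hm]
    exact h.zpow_left m
  have hdecL : ∀ (a : ℤ) (l : ℕ) (x : G), l + 1 ≤ t → x ∈ M a (l + 1) →
      ∃ r ∈ M (a + 1) l, ∃ e : ℤ, x = r * y a ^ e := by
    intro a l x hl hx
    have hn : Subgroup.zpowers (y a) ≤ Subgroup.normalizer (M (a + 1) l : Set G) := by
      rw [Subgroup.zpowers_le]
      have key := normal_of_index_p (hMp a (l + 1) hl)
        (hMmono _ _ _ _ (by omega) hl (by omega) (by omega) : M (a + 1) l ≤ M a (l + 1))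
        (by rw [hM (a + 1) l (by omega), hM a (l + 1) hl, pow_succ])
      have hya : y a ∈ M a (l + 1) := hMmono _ _ _ _ ht hl le_rfl (by omega) (hy a)
      exact Subgroup.mem_normalizer_iff.2 fun r => ⟨key _ hya r, fun h => by
        simpa [mul_assoc] using key _ (inv_mem hya) _ h⟩
    rw [← hstepL a l hl, ← SetLike.mem_coe,
      Subgroup.coe_mul_of_right_le_normalizer_left _ _ hn] at hx
    obtain ⟨r, hr, _, ⟨e, rfl⟩, rfl⟩ := hx
    exact ⟨r, hr, e, rfl⟩
  have hdecR : ∀ (a : ℤ) (l : ℕ) (x : G), l + 1 ≤ t → x ∈ M a (l + 1) →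
      ∃ r ∈ M a l, ∃ e : ℤ, x = r * y (a + l) ^ e := by
    intro a l x hl hx
    have hn : Subgroup.zpowers (y (a + l)) ≤ Subgroup.normalizer (M a l : Set G) := by
      rw [Subgroup.zpowers_le]
      have key := normal_of_index_p (hMp a (l + 1) hl)
        (hMmono _ _ _ _ (by omega) hl le_rfl (by omega) : M a l ≤ M a (l + 1))
        (by rw [hM a l (by omega), hM a (l + 1) hl, pow_succ])
      have hya : y (a + l) ∈ M a (l + 1) := hMmono _ _ _ _ ht hl (by omega) (by omega) (hy _)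
      exact Subgroup.mem_normalizer_iff.2 fun r => ⟨key _ hya r, fun h => by
        simpa [mul_assoc] using key _ (inv_mem hya) _ h⟩
    rw [← hstepR a l hl, ← SetLike.mem_coe,
      Subgroup.coe_mul_of_right_le_normalizer_left _ _ hn] at hx
    obtain ⟨r, hr, _, ⟨e, rfl⟩, rfl⟩ := hx
    exact ⟨r, hr, e, rfl⟩
  have hu : t < u + k := by
    by_contra hle
    push Not at hle
    set z := y (u + k)
    have hbz : Commute z b := hcom _ _ (by omega) (by omega)
    set c := ⁅z, a⁆ with hc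
    have hcM : c ∈ M 2 (u + k - 2) := by
      have h := hcmem 1 (u + k - 1) (by omega) (by omega)
      rw [show (1 : ℤ) + ((u + k - 1 : ℕ) : ℤ) = (u : ℤ) + k by omega,
        show u + k - 1 - 1 = u + k - 2 by omega, show (1 : ℤ) + 1 = 2 by norm_num] at h
      rw [hc, ← commutatorElement_inv]
      exact inv_mem h
    have hcb : Commute c b :=
      hintervals 2 (u + k - 2) (1 + k) 1 (by omega) ht (fun i j a1 a2 a3 a4 => by omega) _ hcM _ (hy _)
    have hcw : Commute c w :=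
      hintervals 2 (u + k - 2) u (k + 1 - u) (by omega) (by omega) (fun i j a1 a2 a3 a4 => by omega)
        _ hcM _ hwu
    have hzw : Commute z w := by
      have e : z * w * z⁻¹ = ⁅z * a * z⁻¹, z * b * z⁻¹⁆ := by
        rw [hw, commutatorElement_def, commutatorElement_def]; group
      rw [hbz.eq, mul_inv_cancel_right, show z * a * z⁻¹ = c * a by rw [hc, commutatorElement_def]; group,
        commutatorElement_mul_left_eq_conj_mul, commutatorElement_eq_one_iff_mul_comm.2 hcb.eq, mul_one,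
        ← hw, hcw.eq, mul_inv_cancel_right] at e
      exact mul_inv_eq_iff_eq_mul.1 e
    obtain ⟨r, hr, e, he⟩ := hdecL u (k - u) w (by omega)
      (by rw [show k - u + 1 = k + 1 - u by omega]; exact hwu)
    have hzr : Commute z r :=
      hintervals (u + k) 1 (u + 1) (k - u) ht (by omega) (fun i j a1 a2 a3 a4 => by omega) _ (hy _) _ hr
    refine hnc u (hupow u z e ?_ ?_)
    · rw [show y u ^ e = r⁻¹ * w by rw [he, inv_mul_cancel_left]]
      exact ((hzr.inv_right).mul_right hzw).symm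
    · intro h; rw [he, h, mul_one] at hwu'; exact hwu' hr
  have hv : t + v ≤ 2 * k + 1 := by
    by_contra hle
    push Not at hle
    set z := y ((v : ℤ) - k)
    have haz : Commute z a := hcom _ _ (by omega) (by omega)
    set c := ⁅z, b⁆ with hc
    have hcM : c ∈ M ((v : ℤ) - k + 1) (2 * k - v) := by
      have h := hcmem ((v : ℤ) - k) (2 * k + 1 - v) (by omega) (by omega)
      rw [show (v : ℤ) - k + ((2 * k + 1 - v : ℕ) : ℤ) = 1 + k by omega,
        show 2 * k + 1 - v - 1 = 2 * k - v by omega] at h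
      exact h
    have hca : Commute c a :=
      hintervals _ (2 * k - v) 1 1 (by omega) ht (fun i j a1 a2 a3 a4 => by omega) _ hcM _ (hy _)
    have hcw : Commute c w :=
      hintervals _ (2 * k - v) 2 (v - 1) (by omega) (by omega) (fun i j a1 a2 a3 a4 => by omega)
        _ hcM _ hwv
    have hzw : Commute z w := by
      have e : z * w * z⁻¹ = ⁅z * a * z⁻¹, z * b * z⁻¹⁆ := by
        rw [hw, commutatorElement_def, commutatorElement_def]; group
      rw [haz.eq, mul_inv_cancel_right, show z * b * z⁻¹ = c * b by rw [hc, commutatorElement_def]; group,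
        commutatorElement_mul_right_eq_mul_conj,
        commutatorElement_eq_one_iff_mul_comm.2 hca.symm.eq, one_mul,
        ← hw, hcw.eq, mul_inv_cancel_right] at e
      exact mul_inv_eq_iff_eq_mul.1 e
    obtain ⟨r, hr, e, he⟩ := hdecR 2 (v - 2) w (by omega)
      (by rw [show v - 2 + 1 = v - 1 by omega]; exact hwv)
    rw [show (2 : ℤ) + ((v - 2 : ℕ) : ℤ) = (v : ℤ) by omega] at he
    have hzr : Commute z r :=
      hintervals ((v : ℤ) - k) 1 2 (v - 2) ht (by omega) (fun i j a1 a2 a3 a4 => by omega) _ (hy _) _ hr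
    have hc' := hupow v z e (by
      rw [show y v ^ e = r⁻¹ * w by rw [he, inv_mul_cancel_left]]
      exact ((hzr.inv_right).mul_right hzw).symm) (fun h => by
      rw [he, h, mul_one] at hwv'; exact hwv' hr)
    have := hnc ((v : ℤ) - k)
    rw [sub_add_cancel] at this
    exact this hc'.symm
  have huv : u ≤ v := by
    by_contra h
    push Not at h
    refine hw1 ?_
    have e1 := hMmono 2 (v - 1) 2 (u - 2) (by omega) (by omega) le_rfl (by omega) hwv
    have : w ∈ M (u : ℤ) 0 := by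
      rw [hMmem _ _ _ (Nat.zero_le t)]
      intro j h1 h2'
      by_cases hj : j ≤ (2 : ℤ) + t - 1
      · exact (hMmem _ _ _ (by omega)).1 e1 j (by omega) hj
      · exact (hMmem _ _ _ (by omega)).1 hwu j (by omega) h2'
    rwa [hM0, Subgroup.mem_bot] at this
  omega

end


/-- Let P be a subgroup of a finite group G and g an element such that P ∩ g⁻¹Pg is a normal subgroup of prime index p in g⁻¹Pg. Let n ≥ 1 and let K be the subgroup generated by P and its conjugates g⁻ⁱPgⁱ for i ≤ n. Suppose that g normalizes no non-identity normal subgroup of P and that P meets the center of K trivially. Then the order of P is pᵗ for some t with 1 ≤ t ≤ 3n and t ≠ 3n - 1. -/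
theorem result {G : Type*} [Group G] [Finite G]
    (P : Subgroup G) (g : G) (p : ℕ) (hp : p.Prime)
    (hN : ((P ⊓ MulAut.conj g⁻¹ • P).subgroupOf (MulAut.conj g⁻¹ • P)).Normal)
    (hidx : (P ⊓ MulAut.conj g⁻¹ • P).relIndex (MulAut.conj g⁻¹ • P) = p)
    (n : ℕ) (hn : 1 ≤ n) (K : Subgroup G) (hK : K = ⨆ i ∈ Finset.range (n + 1), MulAut.conj (g ^ i)⁻¹ • P)
    (h1 : ∀ Q : Subgroup G, Q ≤ P → (Q.subgroupOf P).Normal → MulAut.conj g • Q = Q → Q = ⊥)
    (h2 : P ⊓ (Subgroup.center K).map K.subtype = ⊥) :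
    ∃ t : ℕ, Nat.card P = p ^ t ∧ 1 ≤ t ∧ t ≤ 3 * n ∧ t ≠ 3 * n - 1 := by
  have : Fact p.Prime := ⟨hp⟩
  have hPp := isPGroup_P hN hidx h1
  obtain ⟨t, ht, hcard⟩ := exists_length hPp hidx h1
  have hPt : Nat.card P = p ^ t := by
    have h := hcard 0 0 (Nat.zero_le t)
    rw [Nat.sub_zero, Iv_zero, Pc, zpow_zero, inv_one, map_one, one_smul] at h
    exact h
  refine ⟨t, hPt, ht, bound ht hn hcard fun x hx h => ?_⟩
  subst hK
  have hj : ∀ i : ℕ, i ∈ Finset.range (n + 1) →
      MulAut.conj (g ^ i)⁻¹ • P ≤ Subgroup.centralizer {x} := fun i hi y hy => by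
    refine Subgroup.mem_centralizer_singleton_iff.2 (h i (by omega) ?_ y ?_).symm.eq
    · have := Finset.mem_range.1 hi; omega
    · show y ∈ MulAut.conj (g ^ (i : ℤ))⁻¹ • P
      rwa [zpow_natCast]
  set K := ⨆ i ∈ Finset.range (n + 1), MulAut.conj (g ^ i)⁻¹ • P
  have hKc : K ≤ Subgroup.centralizer {x} := iSup₂_le hj
  have hxK : x ∈ K := by
    refine Subgroup.mem_iSup_of_mem 0 (Subgroup.mem_iSup_of_mem (Finset.mem_range.2 (by omega)) ?_)
    simpa using hx
  have hmem : x ∈ P ⊓ (Subgroup.center K).map K.subtype :=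
    ⟨hx, ⟨x, hxK⟩, Subgroup.mem_center_iff.2 fun y =>
      Subtype.ext (Subgroup.mem_centralizer_singleton_iff.1 (hKc y.2)), rfl⟩
  rw [h2, Subgroup.mem_bot] at hmem
  exact hmem

end Cfsg.Agent.S4359
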