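import Cfsg.Statements.S4365


set_option autoImplicit false
open Cfsg

namespace Cfsg.Agent.S4365

open scoped commutatorElement

theorem gcdA_mul_mod (p j : ℕ) (hc : Nat.Coprime j p) (hp : 0 < p) :
    (j * (Nat.gcdA j p % (p : ℤ)).toNat) % p = 1 % p := by
  have h := Nat.gcd_eq_gcd_ab j p
  rw [hc.gcd_eq_one] at h
  have hnn : 0 ≤ Nat.gcdA j p % (p : ℤ) := Int.emod_nonneg _ (by exact_mod_cast hp.ne')
  have hA : ((Nat.gcdA j p % (p : ℤ)).toNat : ℤ) = Nat.gcdA j p % (p : ℤ) := Int.toNat_of_nonneg hnn
  have : ((j * (Nat.gcdA j p % (p : ℤ)).toNat % p : ℕ) : ℤ) = ((1 % p : ℕ) : ℤ) := by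
    push_cast
    rw [hA, Int.mul_emod, Int.emod_emod_of_dvd _ dvd_rfl, ← Int.mul_emod]
    conv_rhs => rw [show (1 : ℤ) = (j : ℤ) * Nat.gcdA j p + (p : ℤ) * Nat.gcdB j p by exact_mod_cast h]
    rw [Int.add_mul_emod_self_left]
  exact_mod_cast this

theorem inv_mul_mod (p j : ℕ) (hc : Nat.Coprime j p) (hp : 0 < p) (i : ℕ) (hi : i < p) :
    i * j % p * (Nat.gcdA j p % (p : ℤ)).toNat % p = i := by
  rw [Nat.mod_mul_mod, mul_assoc, Nat.mul_mod, gcdA_mul_mod p j hc hp, ← Nat.mul_mod, mul_one,
    Nat.mod_eq_of_lt hi]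

theorem mul_inv_mod (p j : ℕ) (hc : Nat.Coprime j p) (hp : 0 < p) (i : ℕ) (hi : i < p) :
    i * (Nat.gcdA j p % (p : ℤ)).toNat % p * j % p = i := by
  rw [Nat.mod_mul_mod, mul_assoc, mul_comm _ j, Nat.mul_mod, gcdA_mul_mod p j hc hp, ← Nat.mul_mod,
    mul_one, Nat.mod_eq_of_lt hi]

/-- Let P be a finite p-group whose conjugacy class sizes are exactly 1 and pᵃ for some a ≥ 1. Then every element of P has its p-th power in the center of P (P/Z(P) has exponent p). -/
theorem result {P : Type*} [Group P] [Finite P] (p : ℕ) [Fact p.Prime]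
    (hP : IsPGroup p P) (a : ℕ) (ha : 1 ≤ a)
    (hcs : {k : ℕ | ∃ x : P, (Subgroup.centralizer ({x} : Set P)).index = k} = {1, p ^ a}) (x : P) :
    x ^ p ∈ Subgroup.center P := by
  classical
  have hp := (Fact.out : p.Prime)
  by_contra hxp
  have hcs' : ∀ u : P, u ∉ Subgroup.center P → (Subgroup.centralizer ({u} : Set P)).index = p ^ a := by
    intro u hu
    have : (Subgroup.centralizer ({u} : Set P)).index ∈ ({1, p ^ a} : Set ℕ) := hcs ▸ ⟨u, rfl⟩
    rcases this with h | h
    · exact absurd (Subgroup.centralizer_eq_top_iff_subset.mp (Subgroup.index_eq_one.mp h) rfl) hu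
    · exact h
  have hcard : ∀ u : P, u ∉ Subgroup.center P →
      Nat.card (Subgroup.centralizer ({u} : Set P)) * p ^ a = Nat.card P := fun u hu => by
    rw [← hcs' u hu, Subgroup.card_mul_index]
  have heq : ∀ u v : P, u ∉ Subgroup.center P → v ∉ Subgroup.center P →
      Subgroup.centralizer ({u} : Set P) ≤ Subgroup.centralizer ({v} : Set P) →
      Subgroup.centralizer ({u} : Set P) = Subgroup.centralizer ({v} : Set P) := fun u v hu hv h =>
    Subgroup.eq_of_le_of_card_ge h (Nat.le_of_eq (Nat.eq_of_mul_eq_mul_right (pow_pos hp.pos a)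
      ((hcard v hv).trans (hcard u hu).symm)))
  have hmemC : ∀ u v : P, v ∈ Subgroup.centralizer ({u} : Set P) ↔ u * v = v * u := fun u v => by
    rw [Subgroup.mem_centralizer_singleton_iff]; exact eq_comm
  have hpow : ∀ u : P, u ∉ Subgroup.center P → u ^ p ∉ Subgroup.center P →
      Subgroup.centralizer ({u} : Set P) = Subgroup.centralizer ({u ^ p} : Set P) := fun u hu hup =>
    heq u _ hu hup fun v hv => (hmemC _ _).mpr ((Commute.pow_left ((hmemC u v).mp hv : Commute u v) p).eq)
  have hnc : ∀ u : P, u ^ p ∉ Subgroup.center P → u ∉ Subgroup.center P := fun u h hu =>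
    h (pow_mem hu p)
  -- an element of the second centre with central `p`-th power
  obtain ⟨z, hz2, hzZ, hzp⟩ : ∃ z : P, (∀ g : P, ⁅z, g⁆ ∈ Subgroup.center P) ∧ z ∉ Subgroup.center P ∧
      z ^ p ∈ Subgroup.center P := by
    haveI : Group.IsNilpotent P := hP.isNilpotent
    have hne : Subgroup.upperCentralSeries P 2 ≠ Subgroup.center P := by
      intro h
      have hst : ∀ n, Subgroup.upperCentralSeries P n ≤ Subgroup.center P := by
        intro n
        induction n with
        | zero => simp
        | succ n ih =>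
          intro y hy
          rw [← h]
          rw [Subgroup.mem_upperCentralSeries_succ_iff] at hy ⊢
          exact fun g => by rw [Subgroup.upperCentralSeries_one]; exact ih (hy g)
      obtain ⟨n, hn⟩ := Group.IsNilpotent.nilpotent (G := P)
      exact hxp (hst n (hn ▸ Subgroup.mem_top _))
    have hle : Subgroup.center P ≤ Subgroup.upperCentralSeries P 2 := by
      rw [← Subgroup.upperCentralSeries_one P]
      exact Subgroup.upperCentralSeries_mono P (by norm_num)
    obtain ⟨z₀, hz₀, hz₀Z⟩ := SetLike.exists_of_lt (lt_of_le_of_ne hle (Ne.symm hne))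
    obtain ⟨k, hk⟩ := hP z₀
    have hex : ∃ i, z₀ ^ p ^ i ∈ Subgroup.center P := ⟨k, hk ▸ one_mem _⟩
    rcases hi : Nat.find hex with _ | i
    · have := Nat.find_spec hex
      rw [hi] at this
      simp at this
      exact absurd this hz₀Z
    · refine ⟨z₀ ^ p ^ i, fun g => ?_, fun h => ?_, ?_⟩
      · have := (Subgroup.mem_upperCentralSeries_succ_iff.mp
          ((pow_mem hz₀ (p ^ i)) : z₀ ^ p ^ i ∈ Subgroup.upperCentralSeries P (1 + 1))) g
        rw [Subgroup.upperCentralSeries_one] at this
        rw [commutatorElement_def]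
        simpa [commutatorElement_def] using this
      · have := Nat.find_min' hex h
        omega
      · rw [← pow_mul, ← pow_succ]
        have := Nat.find_spec hex
        rwa [hi] at this
  set A := Subgroup.centralizer ({z} : Set P) with hA
  have hzg : ∀ g : P, ∃ c ∈ Subgroup.center P, g * z * g⁻¹ = c * z := by
    intro g
    refine ⟨(⁅z, g⁆)⁻¹, inv_mem (hz2 g), ?_⟩
    rw [commutatorElement_def]; group
  have hpA : ∀ g : P, g ^ p ∈ A := by
    intro g
    obtain ⟨c, hc, e⟩ := hzg g
    have hn : ∀ n : ℕ, g ^ n * z * (g ^ n)⁻¹ = c ^ n * z := by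
      intro n
      induction n with
      | zero => simp
      | succ n ih =>
        have hcc : g * c ^ n = c ^ n * g := Subgroup.mem_center_iff.mp (pow_mem hc n) g
        calc g ^ (n + 1) * z * (g ^ (n + 1))⁻¹ = g * (g ^ n * z * (g ^ n)⁻¹) * g⁻¹ := by
              rw [pow_succ']; group
          _ = g * (c ^ n * z) * g⁻¹ := by rw [ih]
          _ = c ^ n * (g * z * g⁻¹) := by rw [← mul_assoc g, hcc]; group
          _ = c ^ (n + 1) * z := by rw [e, ← mul_assoc, pow_succ]
    -- `c ^ p = 1` as `z ^ p` is central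
    have h1 : (c * z) ^ p = z ^ p := by
      rw [← e, conj_pow, Subgroup.mem_center_iff.mp hzp g, mul_inv_cancel_right]
    rw [(show Commute c z from (Subgroup.mem_center_iff.mp hc z).symm).mul_pow, mul_eq_right] at h1
    rw [hA, hmemC]
    have := hn p
    rw [h1, one_mul, mul_inv_eq_iff_eq_mul] at this
    exact this.symm
  have hCA : ∀ u : P, u ^ p ∉ Subgroup.center P → u ∈ A → Subgroup.centralizer ({u} : Set P) = A := by
    intro u hu huA
    have huz : Commute u z := ((hmemC z u).mp huA).symm
    have hcz : ∀ v, v ^ p ∉ Subgroup.center P → v ∈ A →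
        Subgroup.centralizer ({v} : Set P) = Subgroup.centralizer ({v ^ p} : Set P) :=
      fun v hv _ => hpow v (hnc v hv) hv
    have hup : (u * z) ^ p ∉ Subgroup.center P := by
      rw [huz.mul_pow]
      exact fun h => hu (by simpa using Subgroup.mul_mem _ h (inv_mem hzp))
    have h1 : Subgroup.centralizer ({u * z} : Set P) = Subgroup.centralizer ({u} : Set P) := by
      rw [hpow _ (hnc _ hup) hup, hpow u (hnc u hu) hu, huz.mul_pow]
      ext v
      rw [hmemC, hmemC]
      have hz' : Commute v (z ^ p) := Subgroup.mem_center_iff.mp hzp v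
      constructor
      · intro h
        have := (Commute.mul_left (h : Commute (u ^ p * z ^ p) v) hz'.symm.inv_left).eq
        simpa using this
      · intro h
        exact (Commute.mul_left (h : Commute (u ^ p) v) hz'.symm).eq
    refine heq u z (hnc u hu) hzZ fun v hv => ?_
    have hv' := hv
    rw [← h1] at hv'
    rw [hmemC] at hv hv' ⊢
    have := (Commute.mul_left (Commute.inv_left (hv : Commute u v)) (hv' : Commute (u * z) v)).eq
    rwa [inv_mul_cancel_left] at this
  have hxA : x ∈ A := by
    -- `z` centralises `x ^ p`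
    have h := hpA x
    rw [hA, hmemC] at h ⊢
    have h' : z ∈ Subgroup.centralizer ({x ^ p} : Set P) := (hmemC _ _).mpr h.symm
    rw [← hpow x (hnc x hxp) hxp, hmemC] at h'
    exact h'.symm
  have hCx : Subgroup.centralizer ({x} : Set P) = A := hCA x hxp hxA
  have hAx : ∀ v ∈ A, Commute v x := fun v hv => by
    rw [← hCx, hmemC] at hv
    exact hv.symm
  haveI hAn : A.Normal := by
    refine ⟨fun n hn g => ?_⟩
    obtain ⟨c, hc, e⟩ := hzg g⁻¹
    rw [hA, hmemC] at hn ⊢
    rw [inv_inv] at e
    have e' : g * ((c * z) * n) * g⁻¹ = g * (n * (c * z)) * g⁻¹ := by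
      have h1 : Commute n c := Subgroup.mem_center_iff.mp hc n
      have h2 : Commute n (c * z) := h1.mul_right (Commute.symm hn)
      rw [h2.eq]
    rw [← e] at e'
    calc z * (g * n * g⁻¹) = g * (g⁻¹ * z * g * n) * g⁻¹ := by group
      _ = g * (n * (g⁻¹ * z * g)) * g⁻¹ := e'
      _ = g * n * g⁻¹ * z := by group
  have hAabel : ∀ u ∈ A, ∀ v ∈ A, u * v = v * u := by
    intro u hu v hv
    by_cases h : u ^ p ∈ Subgroup.center P
    swap
    · rw [← hCA u h hu, hmemC] at hv
      exact hv
    by_cases h' : v ^ p ∈ Subgroup.center P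
    swap
    · rw [← hCA v h' hv, hmemC] at hu
      exact hu.symm
    -- `u * x` has non-central `p`-th power
    have hux : Commute u x := hAx u hu
    have hxu : (u * x) ^ p ∉ Subgroup.center P := by
      rw [hux.mul_pow]
      exact fun e => hxp (by simpa using Subgroup.mul_mem _ (inv_mem h) e)
    have hv' : v ∈ Subgroup.centralizer ({u * x} : Set P) := (hCA _ hxu (A.mul_mem hu hxA)).symm ▸ hv
    rw [hmemC] at hv'
    have := (Commute.mul_left (hv' : Commute (u * x) v) (hAx v hv).symm.inv_left).eq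
    simpa using this
  have hout : ∀ g : P, g ∉ A → g ^ p ∈ Subgroup.center P := by
    intro g hg
    by_contra h
    apply hg
    have h1 := hpow g (hnc g h) h
    have hx' : Commute x (g ^ p) := (hAx _ (hpA g)).symm
    have h2 : x ∈ Subgroup.centralizer ({g} : Set P) := h1 ▸ (hmemC _ _).mpr hx'.symm.eq
    rw [hmemC] at h2
    rw [← hCx, hmemC]
    exact h2.symm
  have hCg : ∀ g : P, g ∉ A → ∀ v ∈ A, g * v = v * g → v ∈ Subgroup.center P := by
    intro g hg v hv hgv
    by_contra hvZ
    apply hg
    -- the centraliser of `v` is `A`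
    have hle : A ≤ Subgroup.centralizer ({v} : Set P) := fun w hw => (hmemC _ _).mpr (hAabel v hv w hw)
    rw [hA] at hle ⊢
    rw [heq z v hzZ hvZ hle, hmemC]
    exact hgv.symm
  -- the quotient by `A`
  obtain ⟨g, hg⟩ : ∃ g : P, g ∉ A := by
    by_contra hcon
    push Not at hcon
    exact hzZ (Subgroup.centralizer_eq_top_iff_subset.mp (eq_top_iff.mpr fun y _ => hcon y) rfl)
  have hcomm : ∀ g h : P, ⁅g, h⁆ ∈ A := by
    intro g h
    obtain ⟨c, hc, e⟩ := hzg g
    obtain ⟨d, hd, e'⟩ := hzg h
    have cg : ∀ y : P, y * c = c * y := Subgroup.mem_center_iff.mp hc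
    have dg : ∀ y : P, y * d = d * y := Subgroup.mem_center_iff.mp hd
    have hgh : g * h * z * (g * h)⁻¹ = d * c * z := by
      calc g * h * z * (g * h)⁻¹ = g * (h * z * h⁻¹) * g⁻¹ := by group
        _ = g * (d * z) * g⁻¹ := by rw [e']
        _ = d * (g * z * g⁻¹) := by rw [← mul_assoc g, dg g]; group
        _ = d * c * z := by rw [e, mul_assoc]
    have hhg : h * g * z * (h * g)⁻¹ = d * c * z := by
      calc h * g * z * (h * g)⁻¹ = h * (g * z * g⁻¹) * h⁻¹ := by group
        _ = h * (c * z) * h⁻¹ := by rw [e]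
        _ = c * (h * z * h⁻¹) := by rw [← mul_assoc h, cg h]; group
        _ = d * c * z := by rw [e', ← mul_assoc, cg d]
    rw [hA, hmemC, commutatorElement_def]
    have hz' : (g * h) * ((h * g)⁻¹ * (d * c * z) * (h * g)) * (g * h)⁻¹ = d * c * z := by
      rw [show (h * g)⁻¹ * (d * c * z) * (h * g) = z by rw [← hhg]; group]
      exact hgh
    have hdc : ∀ y : P, y * (d * c) = (d * c) * y := Subgroup.mem_center_iff.mp (mul_mem hd hc)
    have hw : (g * h * (h * g)⁻¹) * z * (g * h * (h * g)⁻¹)⁻¹ = z := by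
      have h1 : (g * h * (h * g)⁻¹) * (d * c * z) * (g * h * (h * g)⁻¹)⁻¹ = d * c * z :=
        calc _ = (g * h) * ((h * g)⁻¹ * (d * c * z) * (h * g)) * (g * h)⁻¹ := by group
          _ = _ := hz'
      rw [← mul_assoc _ (d * c), hdc, mul_assoc (d * c), mul_assoc (d * c), mul_right_inj] at h1
      exact h1
    have := mul_inv_eq_iff_eq_mul.mp hw
    rw [show g * h * g⁻¹ * h⁻¹ = g * h * (h * g)⁻¹ by group]
    exact this.symm
  obtain ⟨h, hh⟩ : ∃ h : P, ∀ i : ℕ, h * g ^ i ∉ A := by
    by_contra hcon
    push Not at hcon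
    haveI := hAn
    let q := QuotientGroup.mk' A
    have hcyc : ∀ y : P ⧸ A, y ∈ Subgroup.zpowers (q g) := by
      intro y
      obtain ⟨y, rfl⟩ := QuotientGroup.mk'_surjective A y
      obtain ⟨i, hi⟩ := hcon y
      have : q y * q g ^ i = 1 := by
        rw [← map_pow, ← map_mul]; exact (QuotientGroup.eq_one_iff _).mpr hi
      show q y ∈ _
      rw [eq_inv_of_mul_eq_one_left this]
      exact inv_mem (pow_mem (Subgroup.mem_zpowers _) i)
    have hidx : A.index ≤ p := by
      rw [Subgroup.index, ← Nat.card_congr Subgroup.topEquiv.toEquiv,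
        ← eq_top_iff.mpr (fun y _ => hcyc y), Nat.card_zpowers]
      refine Nat.le_of_dvd hp.pos (orderOf_dvd_of_pow_eq_one ?_)
      rw [← map_pow]; exact (QuotientGroup.eq_one_iff _).mpr (hpA g)
    have ha1 : A.index = p ^ a := hcs' z hzZ
    -- the centraliser of `g` modulo the centre embeds into `P ⧸ A`
    let C := Subgroup.centralizer ({g} : Set P)
    have hC : Nat.card C = Nat.card A := Nat.eq_of_mul_eq_mul_right (pow_pos hp.pos a)
      ((hcard g (fun hgz => hg (by rw [hA, hmemC]; exact (Subgroup.mem_center_iff.mp hgz z)))).trans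
        (hcard z hzZ).symm)
    have hker : (q.comp C.subtype).ker = (Subgroup.center P).subgroupOf C := by
      ext v
      simp only [MonoidHom.mem_ker, MonoidHom.coe_comp, Function.comp_apply, Subgroup.coe_subtype,
        Subgroup.mem_subgroupOf, q, QuotientGroup.mk'_apply, QuotientGroup.eq_one_iff]
      exact ⟨fun hv => hCg g hg v hv ((hmemC _ _).mp v.2), fun hv => by
        rw [hA, hmemC]; exact Subgroup.mem_center_iff.mp hv z⟩
    have hZC : Subgroup.center P ≤ C := fun v hv => (hmemC _ _).mpr (Subgroup.mem_center_iff.mp hv g)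
    have hZA : Subgroup.center P ≤ A := fun v hv => (hmemC _ _).mpr (Subgroup.mem_center_iff.mp hv z)
    have h1 := Subgroup.card_mul_index ((q.comp C.subtype).ker)
    rw [hker, Nat.card_congr (Subgroup.subgroupOfEquivOfLe hZC).toEquiv, hC] at h1
    have h2 := Subgroup.card_mul_index ((Subgroup.center P).subgroupOf A)
    rw [Nat.card_congr (Subgroup.subgroupOfEquivOfLe hZA).toEquiv] at h2
    have h3 : ((Subgroup.center P).subgroupOf A).index ≤ p := by
      rw [← Nat.eq_of_mul_eq_mul_left Nat.card_pos (h1.trans h2.symm)]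
      have := Subgroup.index_ker (q.comp C.subtype)
      rw [hker] at this
      rw [this]
      refine le_trans (Nat.card_le_card_of_injective _ Subtype.val_injective) (le_of_eq_of_le ?_ hidx)
      rfl
    -- hence `x ^ p` is central
    apply hxp
    obtain ⟨j, hj⟩ := (hP.to_subgroup A).index ((Subgroup.center P).subgroupOf A)
    rw [hj] at h3
    have hj1 : j ≤ 1 := by
      by_contra hj1
      have := Nat.pow_le_pow_right hp.pos (show 2 ≤ j by omega)
      have := hp.one_lt
      nlinarith
    have hmem := Subgroup.pow_index_mem ((Subgroup.center P).subgroupOf A) (⟨x, hxA⟩ : A)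
    rw [hj] at hmem
    have : x ^ p ^ j ∈ Subgroup.center P := by simpa [Subgroup.mem_subgroupOf] using hmem
    interval_cases j
    · simp at this; exact absurd (pow_mem this p) hxp
    · simpa using this
  -- the norm identity
  haveI := hAn
  letI : CommGroup A := { (inferInstance : Group A) with mul_comm := fun u v => Subtype.ext (hAabel u u.2 v v.2) }
  let T : P →* MulAut A := MulAut.conjNormal
  have hT : ∀ k : P, k ∈ A → T k = 1 := by
    intro k hk
    refine MulEquiv.ext fun v => Subtype.ext ?_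
    rw [MulAut.conjNormal_apply, MulAut.one_apply, hAabel k hk v v.2, mul_inv_cancel_right]
  have hnorm : ∀ k : P, k ∉ A → ∀ b : A, ((∏ j ∈ Finset.range p, (T k ^ j) b : A) : P) ∈ Subgroup.center P := by
    intro k hk b
    have hid : ∀ n : ℕ, ((b : P) * k) ^ n = ((∏ j ∈ Finset.range n, (T k ^ j) b : A) : P) * k ^ n := by
      intro n
      induction n with
      | zero => simp
      | succ n ih =>
        rw [pow_succ ((b : P) * k), ih, Finset.prod_range_succ, Subgroup.coe_mul, ← map_pow, MulAut.conjNormal_apply]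
        rw [pow_succ]; group
    have hbk : (b : P) * k ∉ A := fun h => hk (by simpa using A.mul_mem (A.inv_mem b.2) h)
    have := hout _ hbk
    rw [hid] at this
    simpa using Subgroup.mul_mem _ this (inv_mem (hout k hk))
  set α := T g with hα
  set β := T h with hβ
  have hαp : α ^ p = 1 := by rw [hα, ← map_pow]; exact hT _ (hpA g)
  have hαβ : Commute α β := by
    show T g * T h = T h * T g
    have : T (⁅g, h⁆) = 1 := hT _ (hcomm g h)
    rw [commutatorElement_def, map_mul, map_mul, map_mul, map_inv, map_inv, mul_inv_eq_one,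
      mul_inv_eq_iff_eq_mul] at this
    exact this
  let b : A := ⟨x, hxA⟩
  let M : ℕ → A := fun j => ∏ i ∈ Finset.range p, (α ^ i * β ^ j) b
  -- all products over one row are the same
  have hrow : ∀ j ∈ Finset.range p, j ≠ 0 →
      (∏ i ∈ Finset.range p, (α ^ (i * j) * β ^ j) b) = M j := by
    intro j hj hj0
    have hcop : Nat.Coprime j p := (hp.coprime_iff_not_dvd.mpr fun hd =>
      absurd (Nat.le_of_dvd (Nat.pos_of_ne_zero hj0) hd) (not_le.mpr (Finset.mem_range.mp hj))).symm
    refine Finset.prod_bij' (fun i _ => i * j % p) (fun i _ => i * (Nat.gcdA j p % (p : ℤ)).toNat % p)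
      (fun i _ => Finset.mem_range.mpr (Nat.mod_lt _ hp.pos))
      (fun i _ => Finset.mem_range.mpr (Nat.mod_lt _ hp.pos)) ?_ ?_ (fun i _ => ?_)
    · intro i hi
      exact inv_mul_mod p j hcop hp.pos i (Finset.mem_range.mp hi)
    · intro i hi
      exact mul_inv_mod p j hcop hp.pos i (Finset.mem_range.mp hi)
    · congr 2
      exact pow_eq_pow_mod _ hαp
  have hM0 : ((M 0 : A) : P) ∈ Subgroup.center P := by
    have := hnorm g hg b
    simpa [M] using this
  have hrows : ∀ i, ((∏ j ∈ Finset.range p, (α ^ (i * j) * β ^ j) b : A) : P) ∈ Subgroup.center P := by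
    intro i
    have := hnorm _ (hh i) b
    convert this using 4 with j
    rw [map_mul, map_pow, ← hα, ← hβ, (hαβ.symm.pow_right i).mul_pow, ← pow_mul,
      (Commute.pow_pow hαβ.symm j (i * j)).eq]
  have hall : ((∏ j ∈ Finset.range p, M j : A) : P) ∈ Subgroup.center P := by
    simp only [M]
    rw [Finset.prod_comm]
    refine Subgroup.prod_mem ((Subgroup.center P).subgroupOf A) fun i _ => ?_
    show ((∏ j ∈ Finset.range p, (α ^ i * β ^ j) b : A) : P) ∈ Subgroup.center P
    -- a translate of the norm of `h`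
    have h1 : (∏ j ∈ Finset.range p, (α ^ i * β ^ j) b : A) = (α ^ i) (∏ j ∈ Finset.range p, (β ^ j) b) := by
      rw [map_prod]; rfl
    rw [h1, hα, ← map_pow, MulAut.conjNormal_apply]
    exact (inferInstance : (Subgroup.center P).Normal).conj_mem _ (hnorm h (by simpa using hh 0) b) _
  have hkey : (∏ i ∈ Finset.range p, ∏ j ∈ Finset.range p, (α ^ (i * j) * β ^ j) b) * M 0 =
      b ^ p * ∏ j ∈ Finset.range p, M j := by
    rw [Finset.prod_comm]
    have h0 : 0 ∈ Finset.range p := Finset.mem_range.mpr hp.pos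
    rw [← Finset.mul_prod_erase _ _ h0, ← Finset.mul_prod_erase _ M h0]
    rw [Finset.prod_congr rfl fun j hj => hrow j (Finset.mem_of_mem_erase hj) (Finset.ne_of_mem_erase hj)]
    have hb : (∏ i ∈ Finset.range p, (α ^ (i * 0) * β ^ 0) b) = b ^ p := by
      simp
    rw [hb, mul_assoc, mul_comm (∏ j ∈ (Finset.range p).erase 0, M j) (M 0)]
  have := congrArg Subtype.val hkey
  simp only [Subgroup.coe_mul, SubgroupClass.coe_pow] at this
  apply hxp
  have e : x ^ p = ((∏ i ∈ Finset.range p, ∏ j ∈ Finset.range p, (α ^ (i * j) * β ^ j) b : A) : P) *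
      (M 0 : A) * (((∏ j ∈ Finset.range p, M j : A) : P))⁻¹ := by
    rw [this]; simp [b]
  rw [e]
  refine Subgroup.mul_mem _ (Subgroup.mul_mem _ ?_ hM0) (inv_mem hall)
  exact Subgroup.prod_mem ((Subgroup.center P).subgroupOf A) fun i _ => hrows i

end Cfsg.Agent.S4365
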