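import Cfsg.Statements.S4370
import Cfsg.Agent.Lib.TwoGroups.RankOne

set_option autoImplicit false
open Cfsg

namespace Cfsg.Agent.S4370

theorem cyclic_subgroup_eq {C : Type*} [Group C] [Finite C] [IsCyclic C] {H K : Subgroup C}
    (h : Nat.card H = Nat.card K) : H = K := by
  classical
  cases nonempty_fintype C
  have key : ∀ L : Subgroup C, (L : Set C).toFinset = Finset.univ.filter fun x : C => x ^ Nat.card L = 1 := by
    intro L
    refine Finset.eq_of_subset_of_card_le (fun x hx => ?_) ?_
    · rw [Set.mem_toFinset] at hx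
      exact Finset.mem_filter.mpr ⟨Finset.mem_univ _, congrArg Subtype.val (pow_card_eq_one' (x := (⟨x, hx⟩ : L)))⟩
    · refine (IsCyclic.card_pow_eq_one_le Nat.card_pos).trans (le_of_eq ?_)
      rw [Set.toFinset_card, ← Nat.card_eq_fintype_card]
      rfl
  exact SetLike.coe_injective (Set.toFinset_inj.mp ((key H).trans (h ▸ (key K).symm)))

theorem commute_of_coprime {G : Type*} [Group G] [Finite G] (hG : Group.IsNilpotent G) {x y : G}
    (h : (orderOf x).Coprime (orderOf y)) : x * y = y * x := by
  obtain ⟨e⟩ := ((Group.isNilpotent_of_finite_tfae (G := G)).out 0 4 rfl rfl).mp hG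
  obtain ⟨a, rfl⟩ := e.surjective x
  obtain ⟨b, rfl⟩ := e.surjective y
  rw [MulEquiv.orderOf_eq, MulEquiv.orderOf_eq] at h
  rw [← map_mul, ← map_mul]
  congr 1
  funext q R
  haveI : Fact (q : ℕ).Prime := ⟨Nat.prime_of_mem_primeFactors q.2⟩
  have ha : orderOf (a q R) ∣ orderOf a :=
    orderOf_map_dvd ((Pi.evalMonoidHom (fun R : Sylow (q : ℕ) G => ↥(R : Subgroup G)) R).comp
      (Pi.evalMonoidHom _ q)) a
  have hb : orderOf (b q R) ∣ orderOf b :=
    orderOf_map_dvd ((Pi.evalMonoidHom (fun R : Sylow (q : ℕ) G => ↥(R : Subgroup G)) R).comp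
      (Pi.evalMonoidHom _ q)) b
  obtain ⟨i, hi⟩ := IsPGroup.iff_orderOf.mp R.2 (a q R)
  obtain ⟨j, hj⟩ := IsPGroup.iff_orderOf.mp R.2 (b q R)
  rcases Nat.eq_zero_or_pos i with h0 | hi0
  · rw [h0, pow_zero, orderOf_eq_one_iff] at hi
    rw [Pi.mul_apply, Pi.mul_apply, Pi.mul_apply, Pi.mul_apply, hi, one_mul, mul_one]
  rcases Nat.eq_zero_or_pos j with h0 | hj0
  · rw [h0, pow_zero, orderOf_eq_one_iff] at hj
    rw [Pi.mul_apply, Pi.mul_apply, Pi.mul_apply, Pi.mul_apply, hj, one_mul, mul_one]
  exfalso
  have hq : (q : ℕ) ∣ 1 := by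
    rw [← h.gcd_eq_one]
    exact Nat.dvd_gcd ((hi ▸ dvd_pow_self _ hi0.ne').trans ha) ((hj ▸ dvd_pow_self _ hj0.ne').trans hb)
  exact (Fact.out : (q : ℕ).Prime).not_dvd_one hq

theorem two_mul_eq_zero {n : ℕ} [NeZero n] {z : ZMod (2 * n)} (h : z + z = 0) :
    z = 0 ∨ z = (n : ZMod (2 * n)) := by
  haveI : NeZero (2 * n) := ⟨by simp [NeZero.ne n]⟩
  have hlt := ZMod.val_lt z
  rw [← ZMod.natCast_zmod_val z, ← Nat.cast_add, ZMod.natCast_eq_zero_iff] at h
  obtain ⟨t, ht⟩ := h
  rcases lt_or_ge t 2 with h2 | h2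
  · interval_cases t
    · left; rw [← ZMod.natCast_zmod_val z, show z.val = 0 by omega, Nat.cast_zero]
    · right; rw [← ZMod.natCast_zmod_val z, show z.val = n by omega]
  · exfalso; nlinarith

open QuaternionGroup in
theorem quaternion_centralizer (n : ℕ) [NeZero n] (q : QuaternionGroup n)
    (hq : q ∉ Subgroup.center (QuaternionGroup n)) :
    ∃ g : QuaternionGroup n, ∀ y : QuaternionGroup n, y * q = q * y → y ∈ Subgroup.zpowers g := by
  cases q with
  | a i =>
    refine ⟨a 1, fun y hy => ?_⟩
    cases y with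
    | a j => exact Subgroup.mem_zpowers_iff.mpr ⟨(j.val : ℤ), by
        rw [zpow_natCast, a_one_pow, ZMod.natCast_zmod_val]⟩
    | xa j =>
      exfalso
      apply hq
      rw [xa_mul_a, a_mul_xa, xa.injEq, sub_eq_add_neg, add_right_inj] at hy
      rw [Subgroup.mem_center_iff]
      intro g
      cases g with
      | a l => rw [a_mul_a, a_mul_a, add_comm]
      | xa l => rw [xa_mul_a, a_mul_xa, sub_eq_add_neg, ← hy]
  | xa i =>
    refine ⟨xa i, fun y hy => ?_⟩
    have hsq : (xa i : QuaternionGroup n) * xa i = a (n : ZMod (2 * n)) := by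
      rw [xa_mul_xa]; congr 1; abel
    cases y with
    | a j =>
      rw [a_mul_xa, xa_mul_a, xa.injEq, sub_eq_add_neg, add_right_inj] at hy
      rcases two_mul_eq_zero (show j + j = 0 by nth_rewrite 1 [← hy]; exact neg_add_cancel j) with rfl | rfl
      · exact one_mem _
      · rw [← hsq]; exact mul_mem (Subgroup.mem_zpowers _) (Subgroup.mem_zpowers _)
    | xa j =>
      rw [xa_mul_xa, xa_mul_xa, a.injEq] at hy
      have hij : (j - i) + (j - i) = 0 := by
        have : ((n : ZMod (2 * n)) + j - i) - ((n : ZMod (2 * n)) + i - j) = 0 := by rw [hy]; exact sub_self _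
        rw [← this]; abel
      rcases two_mul_eq_zero hij with h | h
      · rw [sub_eq_zero.mp h]; exact Subgroup.mem_zpowers _
      · have : (xa j : QuaternionGroup n) = xa i * (xa i * xa i) := by
          rw [hsq, xa_mul_a, xa.injEq, ← h]; abel
        rw [this]
        exact mul_mem (Subgroup.mem_zpowers _) (mul_mem (Subgroup.mem_zpowers _) (Subgroup.mem_zpowers _))

/-- Let G be a finite non-abelian nilpotent group. Then the centralizer of every non-central element of G is cyclic if and only if G is isomorphic to the direct product of a generalized quaternion group and a cyclic group of odd order. -/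
theorem result {G : Type*} [Group G] [Finite G] (hG : Group.IsNilpotent G)
    (hna : ¬ IsMulCommutative G) :
    (∀ x : G, x ∉ Subgroup.center G → IsCyclic (Subgroup.centralizer ({x} : Set G))) ↔
      ∃ (k m : ℕ), 1 ≤ k ∧ Odd m ∧ Nonempty (G ≃* QuaternionGroup (2 ^ k) × Multiplicative (ZMod m)) := by
  classical
  haveI : Fact (Nat.Prime 2) := ⟨Nat.prime_two⟩
  constructor
  · intro h
    have habel : ∀ A : Subgroup G, IsMulCommutative A → IsCyclic A := by
      intro A hA
      have hle : ∃ x : G, x ∉ Subgroup.center G ∧ A ≤ Subgroup.centralizer ({x} : Set G) := by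
        by_cases hAZ : A ≤ Subgroup.center G
        · obtain ⟨x, hx⟩ : ∃ x : G, x ∉ Subgroup.center G := by
            by_contra hcon
            push Not at hcon
            exact hna ⟨⟨fun a b => Subgroup.mem_center_iff.mp (hcon b) a⟩⟩
          exact ⟨x, hx, fun y hy => Subgroup.mem_centralizer_singleton_iff.mpr
            (Subgroup.mem_center_iff.mp (hAZ hy) x).symm⟩
        · obtain ⟨x, hxA, hx⟩ := SetLike.not_le_iff_exists.mp hAZ
          exact ⟨x, hx, fun y hy => Subgroup.mem_centralizer_singleton_iff.mpr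
            (congrArg Subtype.val (hA.is_comm.comm ⟨y, hy⟩ ⟨x, hxA⟩))⟩
      obtain ⟨x, hx, hle⟩ := hle
      haveI := h x hx
      exact isCyclic_of_injective (Subgroup.inclusion hle) (Subgroup.inclusion_injective hle)
    have hsyl : ∀ (p : ℕ) [Fact p.Prime] (P : Sylow p G), IsCyclic (P : Subgroup G) ∨
        (p = 2 ∧ ∃ m : ℕ, 1 ≤ m ∧ Nonempty ((P : Subgroup G) ≃* QuaternionGroup (2 ^ m))) := by
      intro p hpf P
      apply CfsgLib.TwoGroups.isCyclic_or_quaternion P.2
      intro a b ha hb
      haveI : Group.IsNilpotent (P : Subgroup G) := P.2.isNilpotent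
      haveI : Nontrivial (P : Subgroup G) := ⟨⟨a, 1, fun e => by
        rw [e, orderOf_one] at ha; exact hpf.out.one_lt.ne ha⟩⟩
      haveI := P.2.center_nontrivial
      obtain ⟨c, hc⟩ := exists_prime_orderOf_dvd_card' (G := Subgroup.center (P : Subgroup G)) p (by
        obtain ⟨k, hk⟩ := IsPGroup.iff_card.mp (P.2.to_subgroup (Subgroup.center (P : Subgroup G)))
        cases k with
        | zero => exact absurd (hk.trans (pow_zero p)) Finite.one_lt_card.ne'
        | succ k => exact hk ▸ dvd_pow_self p (Nat.succ_ne_zero k))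
      have hc' : orderOf (c : (P : Subgroup G)) = p := by rw [Subgroup.orderOf_coe, hc]
      have key : ∀ d : (P : Subgroup G), orderOf d = p → d ∈ Subgroup.zpowers (c : (P : Subgroup G)) := by
        intro d hd
        have hcomm : (c : (P : Subgroup G)) * d = d * c := (Subgroup.mem_center_iff.mp c.2 d).symm
        let A := (Subgroup.closure ({(c : (P : Subgroup G)), d} : Set (P : Subgroup G))).map
          (P : Subgroup G).subtype
        have hA : IsMulCommutative A := by
          haveI : IsMulCommutative (Subgroup.closure ({(c : (P : Subgroup G)), d} : Set (P : Subgroup G))) := by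
            refine Subgroup.isMulCommutative_closure fun x hx y hy => ?_
            rcases hx with rfl | rfl <;> rcases hy with rfl | rfl
            · rfl
            · exact hcomm
            · exact hcomm.symm
            · rfl
          exact Subgroup.map_isMulCommutative _ _
        haveI := habel A hA
        let c' : A := ⟨_, Subgroup.mem_map_of_mem _ (Subgroup.subset_closure (Set.mem_insert _ _))⟩
        let d' : A := ⟨_, Subgroup.mem_map_of_mem _ (Subgroup.subset_closure (Set.mem_insert_of_mem _ rfl))⟩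
        have hsub : Subgroup.zpowers c' = Subgroup.zpowers d' := by
          refine cyclic_subgroup_eq ?_
          rw [Nat.card_zpowers, Nat.card_zpowers, ← Subgroup.orderOf_coe c', ← Subgroup.orderOf_coe d']
          show orderOf ((c : (P : Subgroup G)) : G) = orderOf (d : G)
          rw [Subgroup.orderOf_coe, Subgroup.orderOf_coe, Subgroup.orderOf_coe, hc, hd]
        obtain ⟨i, hi⟩ := Subgroup.mem_zpowers_iff.mp (hsub.symm ▸ Subgroup.mem_zpowers d' : d' ∈ Subgroup.zpowers c')
        exact Subgroup.mem_zpowers_iff.mpr ⟨i, Subtype.ext (by simpa [c', d'] using congrArg Subtype.val hi)⟩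
      have h1 := key a ha
      have h2 := key b hb
      have : Subgroup.zpowers a = Subgroup.zpowers (c : (P : Subgroup G)) :=
        Subgroup.eq_of_le_of_card_ge (Subgroup.zpowers_le.mpr h1)
          (by rw [Nat.card_zpowers, Nat.card_zpowers, ha, hc'])
      rwa [this]
    obtain ⟨P⟩ := (inferInstance : Nonempty (Sylow 2 G))
    haveI hPn : (P : Subgroup G).Normal :=
      ((Group.isNilpotent_of_finite_tfae (G := G)).out 0 3 rfl rfl).mp hG 2 inferInstance P
    obtain ⟨K, hK⟩ := Subgroup.exists_right_complement'_of_coprime P.card_coprime_index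
    have hKidx : Nat.card K = (P : Subgroup G).index := hK.symm.index_eq_card.symm
    have hKodd : ¬ 2 ∣ Nat.card K := hKidx ▸ P.not_dvd_index
    have hcommPK : ∀ x ∈ (P : Subgroup G), ∀ y ∈ K, x * y = y * x := by
      intro x hx y hy
      have hx2 : ∃ i, orderOf x = 2 ^ i := by
        obtain ⟨i, hi⟩ := IsPGroup.iff_orderOf.mp P.2 ⟨x, hx⟩
        exact ⟨i, by rw [← hi, Subgroup.orderOf_mk]⟩
      obtain ⟨i, hi⟩ := hx2
      exact commute_of_coprime hG (by
        rw [hi]
        refine Nat.Coprime.pow_left i (Nat.prime_two.coprime_iff_not_dvd.mpr fun h2 => hKodd ?_)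
        exact h2.trans (Subgroup.orderOf_dvd_natCard _ hy))
    have hKab : IsMulCommutative K := by
      haveI : Group.IsNilpotent G := hG
      obtain ⟨e⟩ := (((Group.isNilpotent_of_finite_tfae (G := K)).out 0 4 rfl rfl).mp inferInstance)
      refine ⟨⟨fun a b => ?_⟩⟩
      obtain ⟨a, rfl⟩ := e.surjective a
      obtain ⟨b, rfl⟩ := e.surjective b
      rw [← map_mul, ← map_mul]
      congr 1
      funext q R
      haveI : Fact (q : ℕ).Prime := ⟨Nat.prime_of_mem_primeFactors q.2⟩
      obtain ⟨Q, hQ⟩ := (R.2.map K.subtype).exists_le_sylow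
      rcases hsyl q Q with hc | ⟨hq2, -⟩
      · haveI := hc
        have := hc.isMulCommutative
        refine Subtype.ext (Subtype.ext ?_)
        simp only [Pi.mul_apply, Subgroup.coe_mul]
        exact congrArg Subtype.val (this.is_comm.comm
          ⟨((a q R : K) : G), hQ (Subgroup.mem_map_of_mem _ (a q R).2)⟩
          ⟨((b q R : K) : G), hQ (Subgroup.mem_map_of_mem _ (b q R).2)⟩)
      · exact absurd (hq2 ▸ (Nat.dvd_of_mem_primeFactors q.2)) hKodd
    haveI hKc : IsCyclic K := habel K hKab
    rcases hsyl 2 P with hc | ⟨-, m, hm, ⟨e⟩⟩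
    · exfalso
      apply hna
      have hPab := hc.isMulCommutative
      refine ⟨⟨fun a b => ?_⟩⟩
      obtain ⟨⟨x, k⟩, rfl, -⟩ := hK.existsUnique a
      obtain ⟨⟨y, l⟩, rfl, -⟩ := hK.existsUnique b
      have h1 : Commute (x : G) y := congrArg Subtype.val (hPab.is_comm.comm x y)
      have h2 : Commute (k : G) l := congrArg Subtype.val (hKab.is_comm.comm k l)
      have h3 : Commute (x : G) l := hcommPK x x.2 l l.2
      have h4 : Commute (k : G) y := (hcommPK y y.2 k k.2 : Commute (y : G) k).symm
      exact ((h1.mul_right h3).mul_left (h4.mul_right h2)).eq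
    · refine ⟨m, Nat.card K, hm, Nat.not_even_iff_odd.mp fun he => hKodd (even_iff_two_dvd.mp he), ⟨?_⟩⟩
      let f : ↥(P : Subgroup G) × ↥K →* G := MonoidHom.noncommCoprod (P : Subgroup G).subtype K.subtype
        fun x y => hcommPK x x.2 y y.2
      have hf : Function.Bijective f := hK
      exact (MulEquiv.ofBijective f hf).symm.trans (MulEquiv.prodCongr e (zmodCyclicMulEquiv hKc).symm)
  · rintro ⟨k, m, hk, hm, ⟨e⟩⟩ x hx
    have hm0 : m ≠ 0 := fun h => by simp [h] at hm
    haveI : NeZero m := ⟨hm0⟩
    obtain ⟨⟨q, c⟩, rfl⟩ := e.symm.surjective x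
    have hq : q ∉ Subgroup.center (QuaternionGroup (2 ^ k)) := by
      intro hq
      apply hx
      rw [Subgroup.mem_center_iff]
      intro g
      obtain ⟨⟨g1, g2⟩, rfl⟩ := e.symm.surjective g
      rw [← map_mul, ← map_mul, Prod.mk_mul_mk, Prod.mk_mul_mk, Subgroup.mem_center_iff.mp hq g1, mul_comm g2]
    obtain ⟨g, hg⟩ := quaternion_centralizer (2 ^ k) q hq
    let f : Subgroup.centralizer ({e.symm (q, c)} : Set G) →* Subgroup.zpowers g × Multiplicative (ZMod m) :=
      MonoidHom.prod
        (((MonoidHom.fst _ _).comp (e.toMonoidHom.comp (Subgroup.subtype _))).codRestrict (Subgroup.zpowers g)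
          fun y => hg _ (by
            have := congrArg e (Subgroup.mem_centralizer_singleton_iff.mp y.2)
            rw [map_mul, map_mul, e.apply_symm_apply] at this
            exact congrArg Prod.fst this))
        ((MonoidHom.snd _ _).comp (e.toMonoidHom.comp (Subgroup.subtype _)))
    have hf : Function.Injective f := by
      intro a b hab
      simp only [f, MonoidHom.prod_apply, Prod.mk.injEq] at hab
      exact Subtype.ext (e.injective (Prod.ext (congrArg Subtype.val hab.1) hab.2))
    haveI : IsCyclic (Subgroup.zpowers g × Multiplicative (ZMod m)) := by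
      refine Group.isCyclic_prod_iff.mpr ⟨inferInstance, inferInstance, ?_⟩
      have h2 : Nat.card (Subgroup.zpowers g) ∣ 2 ^ (k + 2) := by
        have h := Subgroup.card_subgroup_dvd_card (Subgroup.zpowers g)
        rwa [Nat.card_eq_fintype_card (α := QuaternionGroup (2 ^ k)), QuaternionGroup.card,
          show 4 * 2 ^ k = 2 ^ (k + 2) by ring] at h
      rw [show Nat.card (Multiplicative (ZMod m)) = m from Nat.card_zmod m]
      exact Nat.Coprime.coprime_dvd_left h2 (Nat.Coprime.pow_left _ (Nat.coprime_two_left.mpr hm))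
    exact isCyclic_of_injective f hf

end Cfsg.Agent.S4370
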