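import Cfsg.Statements.S4372
import Cfsg.Agent.Lib.BaseCoprime.Marks

set_option autoImplicit false
open Cfsg

namespace Cfsg.Agent.S4372

/-- Let the finite solvable group A act faithfully by automorphisms on the finite group K with the orders of A and K coprime. Then there are two elements x, y of K such that only the identity of A fixes both. -/
theorem result {A K : Type*} [Group A] [Finite A] [Group K] [Finite K]
    [MulDistribMulAction A K] [FaithfulSMul A K] (hA : Group.IsSolvable A) (hcop : (Nat.card A).Coprime (Nat.card K)) :
    ∃ x y : K, ∀ a : A, a • x = x → a • y = y → a = 1 := by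
  let φ : A →* MulAut K := MulDistribMulAction.toMulAut A K
  have : Finite φ.range := Finite.of_surjective _ φ.rangeRestrict_surjective
  have hfs : FaithfulSMul φ.range K := ⟨fun {a b} h => Subtype.ext (MulEquiv.ext h)⟩
  obtain ⟨x, y, hxy⟩ := CfsgLib.BaseThree.exists_pair_group (A := φ.range) (K := K)
    (Group.isSolvable_of_surjective φ.rangeRestrict_surjective)
    (hcop.coprime_dvd_left (Subgroup.card_range_dvd φ))
  refine ⟨x, y, fun a h1 h2 => FaithfulSMul.eq_of_smul_eq_smul fun z : K => ?_⟩
  rw [one_smul]
  exact congrArg (fun b : φ.range => (b : MulAut K) z) (hxy ⟨φ a, a, rfl⟩ h1 h2)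

end Cfsg.Agent.S4372
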