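import Cfsg.Statements.S4374
import Cfsg.Agent.Lib.BaseThree.Main

set_option autoImplicit false
open Cfsg

namespace Cfsg.Agent.S4374

/-- Let the finite solvable group A act faithfully on the finite additive group V by group automorphisms, completely reducibly (every A-invariant subgroup has an A-invariant complement). Then there are v₁, v₂, v₃ ∈ V such that only the identity of A fixes all three. -/
theorem result {A V : Type*} [Group A] [Finite A]
    [AddCommGroup V] [Finite V] [DistribMulAction A V] [FaithfulSMul A V] (hA : Group.IsSolvable A)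
    (hcr : (∀ U : AddSubgroup V, (∀ a : A, ∀ v ∈ U, a • v ∈ U) → ∃ W : AddSubgroup V, (∀ a : A, ∀ w ∈ W, a • w ∈ W) ∧ U ⊓ W = ⊥ ∧ U ⊔ W = ⊤)) :
    ∃ v₁ v₂ v₃ : V, ∀ a : A, a • v₁ = v₁ → a • v₂ = v₂ → a • v₃ = v₃ → a = 1 := by
  let φ : A →* (AddMonoid.End V)ˣ := (DistribMulAction.toAddMonoidEnd A V).toHomUnits
  have : Finite φ.range := Finite.of_surjective _ φ.rangeRestrict_surjective
  have hs : Group.IsSolvable φ.range := Group.isSolvable_of_surjective φ.rangeRestrict_surjective
  have hcr' : CfsgLib.BaseTwo.IsCR φ.range V := by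
    intro U hU
    obtain ⟨W, hW, h1, h2⟩ := hcr U (fun a x hx => hU ⟨φ a, a, rfl⟩ x hx)
    refine ⟨W, ?_, h1, h2⟩
    rintro ⟨_, a, rfl⟩ x hx
    exact hW a x hx
  obtain ⟨v, hv⟩ := CfsgLib.BaseThree.below (Nat.card V + 1) φ.range V hs hcr' (Nat.lt_succ_self _)
  exact ⟨v 0, v 1, v 2, fun a h1 h2 h3 => FaithfulSMul.eq_of_smul_eq_smul fun x : V =>
    (hv ⟨φ a, a, rfl⟩ (fun r => by fin_cases r <;> assumption) x).trans (one_smul A x).symm⟩

end Cfsg.Agent.S4374
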