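import Cfsg.Statements.S4375
import Cfsg.Agent.S0205
import Cfsg.Agent.Lib.BaseTwo.Main

set_option autoImplicit false
open Cfsg

namespace Cfsg.Agent.S4375

/-- Let the finite group A of odd order act faithfully on the finite additive group V by group automorphisms, completely reducibly (every A-invariant subgroup has an A-invariant complement). Then there are v, w ∈ V such that only the identity of A fixes both. -/
theorem result {A V : Type*} [Group A] [Finite A]
    [AddCommGroup V] [Finite V] [DistribMulAction A V] [FaithfulSMul A V] (hA : Odd (Nat.card A))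
    (hcr : (∀ U : AddSubgroup V, (∀ a : A, ∀ v ∈ U, a • v ∈ U) → ∃ W : AddSubgroup V, (∀ a : A, ∀ w ∈ W, a • w ∈ W) ∧ U ⊓ W = ⊥ ∧ U ⊔ W = ⊤)) :
    ∃ v w : V, ∀ a : A, a • v = v → a • w = w → a = 1 := by
  let φ : A →* (AddMonoid.End V)ˣ := (DistribMulAction.toAddMonoidEnd A V).toHomUnits
  have hodd : Odd (Nat.card φ.range) := hA.of_dvd_nat (Subgroup.card_range_dvd φ)
  have : Finite φ.range := Nat.finite_of_card_ne_zero (by obtain ⟨j, hj⟩ := hodd; omega)
  have hcr' : CfsgLib.BaseTwo.IsCR φ.range V := by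
    intro U hU
    obtain ⟨W, hW, h1, h2⟩ := hcr U (fun a x hx => hU ⟨φ a, a, rfl⟩ x hx)
    refine ⟨W, ?_, h1, h2⟩
    rintro ⟨_, a, rfl⟩ x hx
    exact hW a x hx
  obtain ⟨v, w, hvw⟩ := CfsgLib.BaseTwo.exists_pair (A := φ.range) hodd (Cfsg.Agent.S0205.result hodd) hcr'
  exact ⟨v, w, fun a ha hb => FaithfulSMul.eq_of_smul_eq_smul fun x : V =>
    (hvw ⟨φ a, a, rfl⟩ ha hb x).trans (one_smul A x).symm⟩

end Cfsg.Agent.S4375
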