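import Cfsg.Statements.S4377


set_option autoImplicit false
open Cfsg

namespace Cfsg.Agent.S4377

/-- Two finite groups have the same number of elements of each order if and only if, for every n, they have the same number of elements g with gⁿ = 1. -/
theorem result {G H : Type*} [Group G] [Finite G] [Group H] [Finite H] :
    (∀ n : ℕ, Nat.card {g : G // orderOf g = n} = Nat.card {h : H // orderOf h = n}) ↔
      ∀ n : ℕ, Nat.card {g : G // g ^ n = 1} = Nat.card {h : H // h ^ n = 1} := by
  classical
  constructor
  · intro h
    have e : ∀ d : ℕ, {g : G // orderOf g = d} ≃ {x : H // orderOf x = d} := fun d =>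
      Classical.choice ((Finite.card_eq).mp (h d))
    let E : G ≃ H := ((Equiv.sigmaFiberEquiv (fun g : G => orderOf g)).symm.trans
      (Equiv.sigmaCongrRight e)).trans (Equiv.sigmaFiberEquiv (fun x : H => orderOf x))
    have hE : ∀ g : G, orderOf (E g) = orderOf g := fun g =>
      (e (orderOf g) ⟨g, rfl⟩).2
    intro n
    refine Nat.card_congr (E.subtypeEquiv fun g => ?_)
    rw [← orderOf_dvd_iff_pow_eq_one, ← orderOf_dvd_iff_pow_eq_one, hE]
  · intro h n
    induction n using Nat.strong_induction_on with
    | _ n ih =>
      rcases Nat.eq_zero_or_pos n with rfl | hn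
      · haveI : IsEmpty {g : G // orderOf g = 0} := ⟨fun g => (orderOf_pos g.1).ne' g.2⟩
        haveI : IsEmpty {g : H // orderOf g = 0} := ⟨fun g => (orderOf_pos g.1).ne' g.2⟩
        rw [Nat.card_of_isEmpty, Nat.card_of_isEmpty]
      · cases nonempty_fintype G
        cases nonempty_fintype H
        have h' := h n
        simp only [Nat.card_eq_fintype_card, Fintype.card_subtype] at h' ⊢ ih
        rw [← sum_card_orderOf_eq_card_pow_eq_one (G := G) hn.ne',
          ← sum_card_orderOf_eq_card_pow_eq_one (G := H) hn.ne', ← Nat.insert_self_properDivisors hn.ne',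
          Finset.sum_insert Nat.self_notMem_properDivisors, Finset.sum_insert Nat.self_notMem_properDivisors] at h'


        have hs : ∀ m ∈ n.properDivisors,
            (Finset.univ.filter fun x : G => orderOf x = m).card =
            (Finset.univ.filter fun x : H => orderOf x = m).card :=
          fun m hm => ih m (Nat.mem_properDivisors.mp hm).2
        rw [Finset.sum_congr rfl hs] at h'
        omega

end Cfsg.Agent.S4377
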