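import Cfsg.Statements.S4376
import Cfsg.Agent.S4377
import Cfsg.Agent.OT4376.Groups

set_option autoImplicit false
open Cfsg

namespace Cfsg.Agent.S4376

set_option synthInstance.maxSize 4096
set_option synthInstance.maxHeartbeats 2000000

theorem order_type_of_kernel_counts {G H : Type} [Group G] [Finite G] [Group H] [Finite H]
    (h : ∀ n : ℕ, Nat.card {g : G // g ^ n = 1} = Nat.card {h : H // h ^ n = 1}) :
    ∀ n : ℕ, Nat.card {g : G // orderOf g = n} = Nat.card {h : H // orderOf h = n} :=
  Cfsg.Agent.S4377.result.mpr h

/-- There are finite groups G and H having the same number of elements of each order (the same order type) with G solvable and H not solvable. -/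
theorem result :
    ∃ (G : Type) (_ : Group G) (_ : Finite G) (H : Type) (_ : Group H) (_ : Finite H),
      Group.IsSolvable G ∧ ¬ Group.IsSolvable H ∧ ∀ n : ℕ, Nat.card {g : G // orderOf g = n} = Nat.card {h : H // orderOf h = n} := by
  classical
  refine ⟨CfsgOT4376.GS, inferInstance, inferInstance, CfsgOT4376.GN, inferInstance, inferInstance,
    CfsgOT4376.solvable_GS, CfsgOT4376.not_solvable_GN, ?_⟩
  exact order_type_of_kernel_counts CfsgOT4376.same

end Cfsg.Agent.S4376
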