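import Cfsg.Statements.S4381
import Mathlib
import Cfsg.Agent.Lib.CoprimeAction.Sylow
import Cfsg.Agent.Lib.CoprimeAction.Aut
import Cfsg.Agent.Lib.PGroups.Frattini
import Cfsg.Agent.S3775

set_option autoImplicit false
open Pointwise
open Cfsg

namespace Cfsg.Agent.S4381


variable {A G : Type*} [Group A] [Group G] [MulDistribMulAction A G]

/-- A maximal invariant subgroup. -/
abbrev IsMaxInv (A : Type*) {G : Type*} [Group A] [Group G] [MulDistribMulAction A G] (M : Subgroup G) : Prop :=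
  M ≠ ⊤ ∧ (∀ a : A, ∀ x ∈ M, a • x ∈ M) ∧
    ∀ L : Subgroup G, M < L → (∀ a : A, ∀ x ∈ L, a • x ∈ L) → L = ⊤

theorem exists_max [Finite G] (H : Subgroup G) (hne : H ≠ ⊤) (hH : ∀ a : A, ∀ x ∈ H, a • x ∈ H) :
    ∃ M, H ≤ M ∧ IsMaxInv A M := by
  obtain ⟨M, ⟨hHM, hM, hMne⟩, hmax⟩ :=
    (Set.toFinite {M : Subgroup G | H ≤ M ∧ (∀ a : A, ∀ x ∈ M, a • x ∈ M) ∧ M ≠ ⊤}).exists_maximal
      ⟨H, le_rfl, hH, hne⟩
  exact ⟨M, hHM, hMne, hM, fun L hL hLi => by
    by_contra hLne
    exact hL.not_ge (hmax ⟨hHM.trans hL.le, hLi, hLne⟩ hL.le)⟩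

theorem smul_mem_frattini (a : A) {x : G} (hx : x ∈ frattini G) : a • x ∈ frattini G := by
  have h := Subgroup.characteristic_iff_comap_eq.mp (frattini_characteristic (G := G))
    (MulDistribMulAction.toMulEquiv G a)
  rw [← h] at hx
  exact hx

theorem unique [Finite G]
    (h : (∃ p : ℕ, p.Prime ∧ IsPGroup p G) ∧
      ∀ L : Subgroup G, frattini G < L → (∀ a : A, ∀ x ∈ L, a • x ∈ L) → L = ⊤)
    (M : Subgroup G) : IsMaxInv A M ↔ (M = frattini G ∧ M ≠ ⊤) := by
  obtain ⟨⟨p, hp, hG⟩, hirr⟩ := h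
  have := Fact.mk hp
  constructor
  · rintro ⟨hne, hinv, hmax⟩
    refine ⟨?_, hne⟩
    have hn : (frattini G).Normal := inferInstance
    have hle : frattini G ≤ M := by
      by_contra hle
      have hlt : M < M ⊔ frattini G := lt_of_le_not_ge le_sup_left fun h => hle (le_sup_right.trans h)
      refine hne (frattini_nongenerating (hmax _ hlt fun a x hx => ?_))
      obtain ⟨y, hy, z, hz, rfl⟩ := Subgroup.mem_sup_of_normal_right.mp hx
      rw [smul_mul']
      exact Subgroup.mul_mem_sup (hinv a y hy) (smul_mem_frattini a hz)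
    by_contra hMΦ
    exact hne (hirr M (lt_of_le_of_ne hle (Ne.symm hMΦ)) hinv)
  · rintro ⟨rfl, hne⟩
    exact ⟨hne, fun a x hx => smul_mem_frattini a hx, hirr⟩

theorem exists_invariant_sylow_action [Finite A] [Finite G] (hcop : (Nat.card A).Coprime (Nat.card G))
    (hsol : Group.IsSolvable A ∨ Group.IsSolvable G) (p : ℕ) [Fact p.Prime] :
    ∃ S : Subgroup G, (∀ a : A, ∀ x ∈ S, a • x ∈ S) ∧
      Nat.card S = p ^ (Nat.card G).factorization p := by
  let φ : A →* MulAut G := MulDistribMulAction.toMulAut A G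
  haveI := CfsgLib.CoprimeAction.finite_semidirect φ
  let i : G →* G ⋊[φ] A := SemidirectProduct.inl
  let j : A →* G ⋊[φ] A := SemidirectProduct.inr
  have hnorm : j.range ≤ Subgroup.normalizer (i.range : Set (G ⋊[φ] A)) := by
    rw [show i.range = (⊤ : Subgroup G).map i from MonoidHom.range_eq_map i]
    exact CfsgLib.CoprimeAction.inr_le_normalizer_map_inl fun a n _ => Subgroup.mem_top _
  let ei := MonoidHom.ofInjective (f := i) SemidirectProduct.inl_injective
  let ej := MonoidHom.ofInjective (f := j) SemidirectProduct.inr_injective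
  have hc : (Nat.card j.range).Coprime (Nat.card i.range) := by
    rwa [← Nat.card_congr ej.toEquiv, ← Nat.card_congr ei.toEquiv]
  have hs : Group.IsSolvable j.range ∨ Group.IsSolvable i.range := hsol.imp
    (fun h => by haveI := h; exact Group.isSolvable_of_surjective (f := ej.toMonoidHom) ej.surjective)
    (fun h => by haveI := h; exact Group.isSolvable_of_surjective (f := ei.toMonoidHom) ei.surjective)
  obtain ⟨P, hP⟩ := CfsgLib.CoprimeAction.exists_invariant_sylow hnorm hc hs p
  let P' : Subgroup (G ⋊[φ] A) := (P : Subgroup i.range).map i.range.subtype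
  refine ⟨P'.comap i, fun a x hx => ?_, ?_⟩
  · have := CfsgLib.CoprimeAction.conj_mem (hP ⟨a, rfl⟩) (show i x ∈ P' from hx)
    show i (a • x) ∈ P'
    rw [show i (a • x) = j a * i x * (j a)⁻¹ by
      rw [← map_inv]; exact SemidirectProduct.inl_aut (φ := φ) a x]
    exact this
  · rw [Nat.card_congr (Subgroup.equivMapOfInjective (P'.comap i) i SemidirectProduct.inl_injective).toEquiv,
      Subgroup.map_comap_eq_self (Subgroup.map_subtype_le _),
      ← Nat.card_congr (Subgroup.equivMapOfInjective _ _ i.range.subtype_injective).toEquiv,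
      P.card_eq_multiplicity, ← Nat.card_congr ei.toEquiv]

theorem forward [Finite A] [Finite G] (hcop : (Nat.card A).Coprime (Nat.card G))
    (hsol : Group.IsSolvable A ∨ Group.IsSolvable G)
    (h : ∀ M N : Subgroup G, IsMaxInv A M → IsMaxInv A N →
      ∃ c : G, (∀ a : A, a • c = c) ∧ N = MulAut.conj c • M) :
    (∃ p : ℕ, p.Prime ∧ IsPGroup p G) ∧
      ∀ L : Subgroup G, frattini G < L → (∀ a : A, ∀ x ∈ L, a • x ∈ L) → L = ⊤ := by
  rcases subsingleton_or_nontrivial G with hs | hnt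
  · refine ⟨⟨2, Nat.prime_two, fun g => ⟨0, Subsingleton.elim _ _⟩⟩, fun L _ _ => Subsingleton.elim _ _⟩
  -- `G` is a `p`-group
  have hpg : ∃ p : ℕ, p.Prime ∧ IsPGroup p G := by
    by_contra hno
    push Not at hno
    obtain ⟨M₀, -, hM₀⟩ := exists_max (A := A) (⊥ : Subgroup G) bot_ne_top fun a x hx => by
      rw [Subgroup.mem_bot] at hx ⊢; rw [hx, smul_one]
    refine hM₀.1 (Subgroup.eq_top_of_card_eq _ (Nat.dvd_antisymm (Subgroup.card_subgroup_dvd_card _)
      ((Nat.dvd_iff_prime_pow_dvd_dvd _ _).mpr fun r k hr hrk => ?_)))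
    have := Fact.mk hr
    obtain ⟨S, hS, hcard⟩ := exists_invariant_sylow_action hcop hsol r
    have hSne : S ≠ ⊤ := fun h => hno r hr (IsPGroup.iff_card.mpr
      ⟨_, by rw [← Subgroup.card_top (G := G), ← h, hcard]⟩)
    obtain ⟨M, hSM, hM⟩ := exists_max S hSne hS
    obtain ⟨c, -, hMc⟩ := h M M₀ hM hM₀
    rw [hMc, CfsgLib.CoprimeAction.card_conj_smul]
    refine dvd_trans ?_ (Subgroup.card_dvd_of_le hSM)
    rw [hcard]
    exact Nat.pow_dvd_pow r ((hr.pow_dvd_iff_le_factorization Nat.card_pos.ne').mp hrk)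
  refine ⟨hpg, fun L hL hLi => ?_⟩
  by_contra hLne
  obtain ⟨p, hp, hG⟩ := hpg
  have := Fact.mk hp
  letI : CommGroup (G ⧸ frattini G) :=
    { (inferInstance : Group (G ⧸ frattini G)) with
      mul_comm := by
        rintro ⟨a⟩ ⟨b⟩
        refine (QuotientGroup.eq.mpr ?_)
        have := CfsgLib.PGroups.commutatorElement_mem_frattini hG b⁻¹ a⁻¹
        simpa [commutatorElement_def, mul_assoc] using this }
  let q : G →* G ⧸ frattini G := QuotientGroup.mk' (frattini G)
  let act : A →* MulAut (G ⧸ frattini G) :=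
    { toFun := fun a => QuotientGroup.congr _ _ (MulDistribMulAction.toMulEquiv G a) (by
        exact Subgroup.characteristic_iff_map_eq.mp frattini_characteristic _)
      map_one' := MulEquiv.ext fun x => by
        induction x using QuotientGroup.induction_on with
        | _ g => exact congrArg q (one_smul A g)
      map_mul' := fun a b => MulEquiv.ext fun x => by
        induction x using QuotientGroup.induction_on with
        | _ g => exact congrArg q (mul_smul a b g) }
  have hact : ∀ (a : A) (g : G), act a (q g) = q (a • g) := fun a g => rfl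
  have hX : (Nat.card act.range).Coprime p := by
    obtain ⟨n, hn0, hn⟩ := (IsPGroup.nontrivial_iff_card hG).mp hnt
    exact (hcop.coprime_dvd_left (Subgroup.card_range_dvd act)).coprime_dvd_right
      (hn ▸ dvd_pow_self p hn0.ne')
  have hLinv : S3775.Inv act.range (L.map q) := by
    rintro _ ⟨a, rfl⟩ _ ⟨g, hg, rfl⟩
    exact ⟨a • g, hLi a g hg, (hact a g).symm⟩
  obtain ⟨U, hU, -, -, hUL, hUsup⟩ := S3775.exists_compl hp act.range hX ⊥ (L.map q) ⊤
    (S3775.inv_bot _) hLinv (fun _ _ _ _ => Subgroup.mem_top _) bot_le le_top (bot_inf_eq _)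
    (fun x _ => by
      induction x using QuotientGroup.induction_on with
      | _ g =>
        rw [Subgroup.mem_bot, ← QuotientGroup.mk_pow, QuotientGroup.eq_one_iff]
        exact CfsgLib.PGroups.pow_mem_frattini hG g)
  let L' : Subgroup G := U.comap q
  have hL'ne : L' ≠ ⊤ := by
    intro h'
    obtain ⟨g, hg, hgΦ⟩ := SetLike.exists_of_lt hL
    refine hgΦ ((QuotientGroup.eq_one_iff g).mp (Subgroup.mem_bot.mp (hUL.le ⟨?_, g, hg, rfl⟩)))
    exact (h' ▸ Subgroup.mem_top g : g ∈ L')
  have hΦL' : frattini G ≤ L' := fun g hg => by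
    show q g ∈ U
    rw [show q g = 1 from (QuotientGroup.eq_one_iff g).mpr hg]; exact one_mem _
  obtain ⟨M, hLM, hM⟩ := exists_max L hLne hLi
  obtain ⟨N, hLN, hN⟩ := exists_max (A := A) L' hL'ne fun a x hx => by
    show q (a • x) ∈ U
    rw [← hact]; exact hU _ ⟨a, rfl⟩ _ hx
  obtain ⟨c, -, hc⟩ := h M N hM hN
  have hMn : M.Normal := Subgroup.commutator_top_right_le_iff.1
    ((Subgroup.commutator_mono le_top le_rfl).trans ((CfsgLib.PGroups.commutator_le_frattini hG).trans (hL.le.trans hLM)))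
  rw [CfsgLib.CoprimeAction.conj_smul_eq_self.mpr (by rw [Subgroup.normalizer_eq_top]; trivial)] at hc
  refine hM.1 (eq_top_iff.mpr fun g _ => ?_)
  obtain ⟨u, hu, _, ⟨l, hl, rfl⟩, hul⟩ := Subgroup.mem_sup.mp (hUsup.ge (Subgroup.mem_top (q g)))
  have hgl : g * l⁻¹ ∈ L' := by
    show q (g * l⁻¹) ∈ U
    rw [map_mul, map_inv, ← hul, mul_inv_cancel_right]; exact hu
  have := M.mul_mem (hc ▸ hLN hgl : g * l⁻¹ ∈ M) (hLM hl)
  rwa [inv_mul_cancel_right] at this


/-- Let the finite group A act by automorphisms on the finite group G with the orders of A and G coprime, and assume that A or G is solvable. Call a proper A-invariant subgroup of G maximal A-invariant when no A-invariant subgroup lies strictly between it and G. Then all maximal A-invariant subgroups of G are conjugate under elements of the fixed-point subgroup C_G(A) if and only if G is a p-group for some prime p and A leaves invariant no subgroup strictly between the Frattini subgroup of G and G. In that case, if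 G is nontrivial, the Frattini subgroup is the only maximal A-invariant subgroup (a trivial G has none). -/
theorem result {A G : Type*} [Group A] [Finite A]
    [Group G] [Finite G] [MulDistribMulAction A G] (hcop : (Nat.card A).Coprime (Nat.card G)) (hsol : Group.IsSolvable A ∨ Group.IsSolvable G) :
    ((∀ M N : Subgroup G, (M ≠ ⊤ ∧ (∀ a : A, ∀ x ∈ M, a • x ∈ M) ∧ ∀ L : Subgroup G, M < L → (∀ a : A, ∀ x ∈ L, a • x ∈ L) → L = ⊤) → (N ≠ ⊤ ∧ (∀ a : A, ∀ x ∈ N, a • x ∈ N) ∧ ∀ L : Subgroup G, N < L → (∀ a : A, ∀ x ∈ L, a • x ∈ L) → L = ⊤) →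
        ∃ c : G, (∀ a : A, a • c = c) ∧ N = MulAut.conj c • M) ↔
      ((∃ p : ℕ, p.Prime ∧ IsPGroup p G) ∧ ∀ L : Subgroup G, frattini G < L → (∀ a : A, ∀ x ∈ L, a • x ∈ L) → L = ⊤)) ∧
    (((∃ p : ℕ, p.Prime ∧ IsPGroup p G) ∧ ∀ L : Subgroup G, frattini G < L → (∀ a : A, ∀ x ∈ L, a • x ∈ L) → L = ⊤) →
      ∀ M : Subgroup G, (M ≠ ⊤ ∧ (∀ a : A, ∀ x ∈ M, a • x ∈ M) ∧ ∀ L : Subgroup G, M < L → (∀ a : A, ∀ x ∈ L, a • x ∈ L) → L = ⊤) ↔ (M = frattini G ∧ M ≠ ⊤)) := by
  refine ⟨⟨fun h => forward hcop hsol h, ?_⟩, fun h => unique h⟩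
  rintro h M N hM hN
  exact ⟨1, fun a => smul_one a, by rw [((unique h M).mp hM).1, ((unique h N).mp hN).1, map_one, one_smul]⟩

end Cfsg.Agent.S4381
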