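import Cfsg.Statements.S4385
import Cfsg.Agent.Lib.PushUp.SmallDihedral.Ident

set_option autoImplicit false
open Pointwise
open Cfsg

namespace Cfsg.Agent.S4385

open CfsgLib.PushUp.SmallDih in
theorem exists_inner {G : Type*} [Group G] {P : Subgroup G} {w : G}
    (hw : w ∈ P ⊔ Subgroup.centralizer (P : Set G)) :
    ∃ p ∈ P, ∀ z ∈ P, cj w z = cj p z := by
  rw [Subgroup.sup_eq_closure] at hw
  induction hw using Subgroup.closure_induction with
  | mem a ha =>
    rcases ha with ha | ha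
    · exact ⟨a, ha, fun z _ => rfl⟩
    · refine ⟨1, P.one_mem, fun z hz => ?_⟩
      rw [cj_one, cj_eq_self]
      exact (Subgroup.mem_centralizer_iff.mp ha z hz).symm
  | one => exact ⟨1, P.one_mem, fun z _ => rfl⟩
  | mul a b _ _ iha ihb =>
    obtain ⟨p, hp, h1⟩ := iha
    obtain ⟨q, hq, h2⟩ := ihb
    refine ⟨p * q, P.mul_mem hp hq, fun z hz => ?_⟩
    have h3 : cj q z ∈ P := P.mul_mem (P.mul_mem hq hz) (P.inv_mem hq)
    rw [cj_mul, cj_mul, h2 z hz, h1 _ h3]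
  | inv a _ ih =>
    obtain ⟨p, hp, h1⟩ := ih
    refine ⟨p⁻¹, P.inv_mem hp, fun z hz => ?_⟩
    have h := h1 (cj p⁻¹ z) (P.mul_mem (P.mul_mem (P.inv_mem hp) hz) (P.inv_mem (P.inv_mem hp)))
    rw [cj_cj_inv] at h
    conv_lhs => rw [← h, cj_inv_cj]

open CfsgLib.PushUp.SmallDih in
theorem exists_setup {G : Type*} [Group G] [Finite G]
    (H : Subgroup G) (hO : Cfsg.pCore 2 ↥H ≠ ⊥) (n : ℕ) (hn : 2 ≤ n)
    (hdih : Nonempty (↥H ⧸ Cfsg.pCore 2 ↥H ≃* DihedralGroup n))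
    (P : Subgroup G) (hPH : P ≤ H) (hP : IsPGroup 2 P) (hPsyl : ¬ 2 ∣ P.relIndex H)
    (y : G) (hy2 : y ^ 2 ∈ P ⊔ Subgroup.centralizer (P : Set G)) (hyN : MulAut.conj y • P = P)
    (hyQ : ∀ Q : Subgroup G, Q ≤ P → (Q.subgroupOf H).Normal → MulAut.conj y • Q = Q → Q = ⊥) :
    ∃ S : Setup G, S.H = H ∧ S.P = P := by
  have : Fact (Nat.Prime 2) := ⟨Nat.prime_two⟩
  obtain ⟨e⟩ := hdih
  let π : H →* DihedralGroup n := e.toMonoidHom.comp (QuotientGroup.mk' _)
  have hπs : Function.Surjective π := e.surjective.comp (QuotientGroup.mk'_surjective _)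
  have hπk : ∀ a : H, π a = 1 ↔ a ∈ Cfsg.pCore 2 ↥H := fun a => by
    rw [← QuotientGroup.eq_one_iff (N := Cfsg.pCore 2 ↥H)]
    exact map_eq_one_iff e e.injective
  have h2k : IsPGroup 2 (Cfsg.pCore 2 ↥H) := CfsgLib.Cores.isPGroup_pCore 2 ↥H
  -- `n` is odd
  have hodd : Odd n := by
    by_contra hev
    rw [Nat.not_odd_iff_even] at hev
    obtain ⟨m, hm⟩ := hev
    set z : DihedralGroup n := DihedralGroup.r (m : ZMod n) with hz
    have hmm : ((m : ZMod n)) + m = 0 := by rw [← Nat.cast_add, ← hm]; exact ZMod.natCast_self n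
    have hcomm : ∀ a : DihedralGroup n, a * z = z * a := by
      rintro (i | i) <;> simp only [hz, DihedralGroup.r_mul_r, DihedralGroup.sr_mul_r,
        DihedralGroup.r_mul_sr]
      · rw [add_comm]
      · rw [sub_eq_add_neg, neg_eq_of_add_eq_zero_left hmm]
    have hzz : z * z = 1 := by rw [hz, DihedralGroup.r_mul_r, hmm]; rfl
    let N : Subgroup H := (Subgroup.zpowers z).comap π
    have : (Subgroup.zpowers z).Normal := ⟨fun a ha g => by
      obtain ⟨k, rfl⟩ := Subgroup.mem_zpowers_iff.mp ha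
      rw [(show Commute g z from hcomm g).zpow_right k |>.eq, mul_inv_cancel_right]
      exact Subgroup.zpow_mem _ (Subgroup.mem_zpowers z) k⟩
    have hN : N.Normal := Subgroup.Normal.comap inferInstance π
    have hN2 : IsPGroup 2 N := by
      rintro ⟨a, ha⟩
      obtain ⟨i, hi⟩ := Subgroup.mem_zpowers_iff.mp (ha : π a ∈ Subgroup.zpowers z)
      have h1 : π (a * a) = 1 := by
        rw [map_mul, ← hi, ← zpow_add, ← two_mul, zpow_mul, zpow_two, hzz, one_zpow]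
      obtain ⟨k, hk⟩ := h2k ⟨a * a, (hπk _).mp h1⟩
      refine ⟨k + 1, Subtype.ext ?_⟩
      have hk' : (a * a) ^ (2 ^ k) = 1 := congrArg Subtype.val hk
      show a ^ (2 ^ (k + 1)) = 1
      rw [pow_succ', pow_mul, pow_two, hk']
    obtain ⟨a, ha⟩ := hπs z
    have h1 : π a = 1 := (hπk a).mpr (CfsgLib.Cores.le_pCore hN2
      (show a ∈ N by
        refine Subgroup.mem_comap.mpr ?_
        rw [ha]; exact Subgroup.mem_zpowers z))
    rw [ha, hz, DihedralGroup.one_def] at h1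
    have h2 : (m : ZMod n) = 0 := DihedralGroup.r.inj h1
    rw [ZMod.natCast_eq_zero_iff] at h2
    have := Nat.le_of_dvd (by omega) h2
    omega
  -- the Sylow subgroup
  have hP' : IsPGroup 2 (P.subgroupOf H) := hP.of_equiv (Subgroup.subgroupOfEquivOfLe hPH).symm
  have hidx : ¬ 2 ∣ (P.subgroupOf H).index := hPsyl
  have hcoreP : Cfsg.pCore 2 ↥H ≤ P.subgroupOf H :=
    CfsgLib.Cores.pCore_le_sylow (hP'.toSylow hidx)
  let Q : Subgroup G := (Cfsg.pCore 2 ↥H).map H.subtype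
  have memQ : ∀ a : H, (a : G) ∈ Q ↔ π a = 1 := fun a => by
    rw [hπk]
    exact Subgroup.mem_map_iff_mem H.subtype_injective
  have hQP : Q ≤ P := by
    rintro _ ⟨a, ha, rfl⟩
    exact hcoreP ha
  -- `2`-elements of `H` map to reflections
  have hr_two : ∀ (j : ZMod n) (k : ℕ), (DihedralGroup.r j) ^ (2 ^ k) = 1 → j = 0 := by
    intro j k hk
    rw [DihedralGroup.r_pow, DihedralGroup.one_def] at hk
    have h1 := DihedralGroup.r.inj hk
    have hu : IsUnit (((2 ^ k : ℕ)) : ZMod n) := by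
      rw [ZMod.isUnit_iff_coprime]
      exact (Nat.coprime_two_left.mpr hodd).pow_left k
    exact hu.mul_left_eq_zero.mp h1
  have hPimg : ∀ (p : G) (hp : p ∈ P), ∀ j : ZMod n, π ⟨p, hPH hp⟩ = DihedralGroup.r j → j = 0 := by
    intro p hp j hj
    obtain ⟨k, hk⟩ := hP ⟨p, hp⟩
    refine hr_two j k ?_
    rw [← hj, ← map_pow, show (⟨p, hPH hp⟩ : H) ^ (2 ^ k) = 1 from
      Subtype.ext (congrArg (Subtype.val : P → G) hk), map_one]
  have : NeZero n := ⟨by omega⟩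
  -- an element of `P` outside `Q`
  obtain ⟨t0, ht0, a, hta⟩ : ∃ t : H, (t : G) ∈ P ∧ ∃ a : ZMod n, π t = DihedralGroup.sr a := by
    have h1 : ¬ 2 ∣ ((P.subgroupOf H).map π).index := fun h =>
      hidx (h.trans (Subgroup.index_map_dvd _ hπs))
    have h2 : 2 ∣ Nat.card ((P.subgroupOf H).map π) := by
      have h3 := Subgroup.card_mul_index ((P.subgroupOf H).map π)
      rw [DihedralGroup.nat_card] at h3
      exact (Nat.prime_two.dvd_mul.mp (h3 ▸ dvd_mul_right 2 n)).resolve_right h1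
    obtain ⟨⟨w, hw⟩, hwo⟩ := exists_prime_orderOf_dvd_card' 2 h2
    obtain ⟨t, ht, rfl⟩ := hw
    rcases e0 : π t with j | j
    · exfalso
      have hj : j = 0 := hPimg t ht j (by simpa using e0)
      have : (⟨π t, t, ht, rfl⟩ : (P.subgroupOf H).map π) = 1 :=
        Subtype.ext (show π t = 1 from e0.trans (by rw [hj]; rfl))
      rw [this, orderOf_one] at hwo
      omega
    · exact ⟨t, ht, j, e0⟩
  -- the generator of odd order
  obtain ⟨x0, hx0⟩ := hπs (DihedralGroup.r 1)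
  have hx0n : π (x0 ^ n) = 1 := by
    rw [map_pow, hx0, DihedralGroup.r_one_pow, ZMod.natCast_self]; rfl
  obtain ⟨k, hk⟩ := h2k ⟨x0 ^ n, (hπk _).mp hx0n⟩
  let x : H := x0 ^ (2 ^ k)
  have hxn : x ^ n = 1 := by
    show (x0 ^ (2 ^ k)) ^ n = 1
    rw [← pow_mul, mul_comm, pow_mul]
    exact congrArg Subtype.val hk
  have hπx : π x = DihedralGroup.r ((2 ^ k : ℕ) : ZMod n) := by
    rw [map_pow, hx0, DihedralGroup.r_one_pow]
  have hrot : ∀ j : ZMod n, ∃ i : ℕ, π (x ^ i) = DihedralGroup.r j := by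
    intro j
    have : NeZero n := ⟨by omega⟩
    obtain ⟨u, hu⟩ := (ZMod.isUnit_iff_coprime (2 ^ k) n).mpr ((Nat.coprime_two_left.mpr hodd).pow_left k)
    refine ⟨((u⁻¹ : (ZMod n)ˣ) * j : ZMod n).val, ?_⟩
    rw [map_pow, hπx, DihedralGroup.r_pow, ZMod.natCast_zmod_val, ← hu, Units.mul_inv_cancel_left]
  have hclosedN : ∀ X : Subgroup G, X ≤ P → (∀ h ∈ H, ∀ z ∈ X, cj h z ∈ X) →
      (∀ z ∈ X, cj y z ∈ X) → X = ⊥ := by
    intro X hXP hXH hXy
    refine hyQ X hXP ⟨fun z hz h => hXH h h.2 z hz⟩ ?_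
    refine Subgroup.eq_of_le_of_card_ge ?_ ?_
    · rintro _ ⟨z, hz, rfl⟩
      exact hXy z hz
    · exact le_of_eq (Nat.card_congr ((Subgroup.equivSMul (MulAut.conj y) X).toEquiv))
  refine ⟨{
    H := H, P := P, Q := Q, y := y, x := x, n := n, n_odd := hodd, QP := hQP, PH := hPH
    xH := x.2
    x_pow := by simpa using congrArg Subtype.val hxn
    Qn := ?_
    dich := ?_
    idx := ?_
    inv := ?_
    yP := ?_
    y2 := ?_
    core := hclosedN
    Qne := ?_
    outside := ⟨t0, ht0, fun h => by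
      have h1 := (memQ t0).mp h
      rw [hta, DihedralGroup.one_def] at h1
      cases h1⟩
    P2 := hP }, rfl, rfl⟩
  · rintro h hh _ ⟨q, hq, rfl⟩
    exact ⟨_, (Cfsg.pCore_normal 2 ↥H).conj_mem q hq ⟨h, hh⟩, rfl⟩
  · intro h hh
    rcases e0 : π ⟨h, hh⟩ with j | j
    · obtain ⟨i, hi⟩ := hrot j
      refine ⟨i, ((x : G) ^ i)⁻¹ * h, hQP ((memQ ((x ^ i)⁻¹ * ⟨h, hh⟩)).mpr ?_), by simp⟩
      rw [map_mul, map_inv, hi, e0, inv_mul_cancel]
    · obtain ⟨i, hi⟩ := hrot (a - j)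
      refine ⟨i, ((x : G) ^ i)⁻¹ * h, ?_, by simp⟩
      have h1 := hQP ((memQ ((x ^ i)⁻¹ * ⟨h, hh⟩ * t0⁻¹)).mpr (by
        rw [map_mul, map_mul, map_inv, map_inv, hi, e0, hta]
        simp [DihedralGroup.inv_r, DihedralGroup.inv_sr]))
      simpa using P.mul_mem h1 ht0
  · intro u hu v hv huQ hvQ
    have key : ∀ (w : G) (hw : w ∈ P), w ∉ Q → ∃ j, π ⟨w, hPH hw⟩ = DihedralGroup.sr j := by
      intro w hw hwQ
      rcases e0 : π ⟨w, hPH hw⟩ with j | j
      · exact absurd ((memQ ⟨w, hPH hw⟩).mpr (by rw [e0, hPimg w hw j e0]; rfl)) hwQ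
      · exact ⟨j, rfl⟩
    obtain ⟨i, hi⟩ := key u hu huQ
    obtain ⟨j, hj⟩ := key v hv hvQ
    have h1 : π (⟨u, hPH hu⟩ * ⟨v, hPH hv⟩) = DihedralGroup.r (j - i) := by
      rw [map_mul, hi, hj, DihedralGroup.sr_mul_sr]
    refine (memQ (⟨u, hPH hu⟩ * ⟨v, hPH hv⟩)).mpr ?_
    rw [h1, hPimg (u * v) (P.mul_mem hu hv) (j - i) h1]
    rfl
  · intro t ht htQ
    rcases e0 : π ⟨t, hPH ht⟩ with j | j
    · exact absurd ((memQ ⟨t, hPH ht⟩).mpr (by rw [e0, hPimg t ht j e0]; rfl)) htQ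
    · refine (memQ (⟨t, hPH ht⟩ * x * ⟨t, hPH ht⟩⁻¹ * x)).mpr ?_
      rw [map_mul, map_mul, map_mul, map_inv, e0, hπx, DihedralGroup.inv_sr, DihedralGroup.sr_mul_r,
        DihedralGroup.sr_mul_sr, DihedralGroup.r_mul_r, DihedralGroup.one_def]
      congr 1
      ring
  · intro p hp
    rw [← hyN]
    exact ⟨p, hp, rfl⟩
  · obtain ⟨p, hp, h⟩ := exists_inner hy2
    exact ⟨p, hp, fun z hz => by rw [← cj_mul, ← pow_two]; exact h z hz⟩
  · intro h
    exact hO ((Subgroup.map_eq_bot_iff_of_injective _ H.subtype_injective).mp h)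

/-- Let H be a subgroup of a finite group G whose largest normal 2-subgroup O_2(H) is nontrivial and such that H/O_2(H) is a dihedral group of order at least 4. Let P be a Sylow 2-subgroup of H and S a Sylow 2-subgroup of G containing P. Suppose y ∈ S lies outside P, normalizes P, has y² in the product of P with the centralizer of P in G, and normalizes no non-identity normal subgroup of H contained in P. Then P has order 4, 8 or 16, and H modulo its largest normal subgroup of odd order is isomorphic to the four-group, to the symmetric group of degree 4, or to the direct product of the symmetric group of degree 4 with a group of order 2. -/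
theorem result {G : Type*} [Group G] [Finite G]
    (H : Subgroup G) (hO : Cfsg.pCore 2 ↥H ≠ ⊥) (n : ℕ) (hn : 2 ≤ n) (hdih : Nonempty (↥H ⧸ Cfsg.pCore 2 ↥H ≃* DihedralGroup n))
    (P : Subgroup G) (hPH : P ≤ H) (hP : IsPGroup 2 P) (hPsyl : ¬ 2 ∣ P.relIndex H)
    (S : Sylow 2 G) (hPS : P ≤ (S : Subgroup G)) (y : G) (hyS : y ∈ (S : Subgroup G)) (hyP : y ∉ P)
    (hy2 : y ^ 2 ∈ P ⊔ Subgroup.centralizer (P : Set G)) (hyN : MulAut.conj y • P = P)
    (hyQ : ∀ Q : Subgroup G, Q ≤ P → (Q.subgroupOf H).Normal → MulAut.conj y • Q = Q → Q = ⊥) :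
    (Nat.card P = 4 ∨ Nat.card P = 8 ∨ Nat.card P = 16) ∧
    (Nonempty (↥H ⧸ Cfsg.oddCore ↥H ≃* Multiplicative (ZMod 2) × Multiplicative (ZMod 2)) ∨
     Nonempty (↥H ⧸ Cfsg.oddCore ↥H ≃* Equiv.Perm (Fin 4)) ∨
     Nonempty (↥H ⧸ Cfsg.oddCore ↥H ≃* Equiv.Perm (Fin 4) × Multiplicative (ZMod 2))) := by
  obtain ⟨Su, rfl, rfl⟩ := exists_setup H hO n hn hdih P hPH hP hPsyl y hy2 hyN hyQ
  exact Su.conclusion

end Cfsg.Agent.S4385
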