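import Cfsg.Statements.S4387


set_option autoImplicit false
open Pointwise
open Cfsg

namespace Cfsg.Agent.S4387

/-- Let G be a non-trivial finite group in which any two maximal subgroups are conjugate. Then G is cyclic of prime-power order. -/
theorem result {G : Type*} [Group G] [Finite G] [Nontrivial G]
    (h : ∀ M N : Subgroup G, IsCoatom M → IsCoatom N → ∃ g : G, N = MulAut.conj g • M) :
    IsCyclic G ∧ IsPrimePow (Nat.card G) := by
  classical
  have hM : ∀ H : Subgroup G, H ≠ ⊤ → ∃ M : Subgroup G, IsCoatom M ∧ H ≤ M := fun H hH =>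
    ((eq_top_or_exists_le_coatom H).resolve_left hH)
  obtain ⟨M, hMc, -⟩ := hM ⊥ bot_ne_top
  have hp : ∃ p : ℕ, p.Prime ∧ IsPGroup p G := by
    by_contra hcon
    push_neg at hcon
    apply hMc.1
    rw [← Subgroup.index_eq_one]
    by_contra h1
    obtain ⟨p, hp, hpd⟩ := Nat.exists_prime_and_dvd h1
    haveI : Fact p.Prime := ⟨hp⟩
    let P : Sylow p G := default
    have hPtop : (P : Subgroup G) ≠ ⊤ := fun h =>
      hcon p hp ((h ▸ P.2 : IsPGroup p (⊤ : Subgroup G)).of_equiv Subgroup.topEquiv)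
    obtain ⟨N, hN, hPN⟩ := hM _ hPtop
    obtain ⟨g, rfl⟩ := h M N hMc hN
    have hcard : Nat.card (MulAut.conj g • M : Subgroup G) = Nat.card M :=
      (Nat.card_congr (Subgroup.equivSMul (MulAut.conj g) M).toEquiv).symm
    have hidx : (MulAut.conj g • M : Subgroup G).index = M.index := by
      have h1 := (MulAut.conj g • M : Subgroup G).card_mul_index
      rw [hcard, ← M.card_mul_index] at h1
      exact Nat.eq_of_mul_eq_mul_left Nat.card_pos h1
    exact P.not_dvd_index ((hpd.trans hidx.symm.dvd).trans (Subgroup.index_dvd_of_le hPN))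
  obtain ⟨p, hpp, hG⟩ := hp
  haveI : Fact p.Prime := ⟨hpp⟩
  haveI : Group.IsNilpotent G := hG.isNilpotent
  haveI : M.Normal := Subgroup.NormalizerCondition.normal_of_coatom M Group.normalizerCondition_of_isNilpotent hMc
  have huniq : ∀ N : Subgroup G, IsCoatom N → N = M := by
    intro N hN
    obtain ⟨g, rfl⟩ := h M N hMc hN
    exact Subgroup.Normal.conjAct ‹_› (ConjAct.toConjAct g)
  obtain ⟨g, hg⟩ : ∃ g : G, g ∉ M := by
    by_contra hcon
    push_neg at hcon
    exact hMc.1 (eq_top_iff.mpr fun x _ => hcon x)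
  refine ⟨⟨⟨g, fun x => ?_⟩⟩, ?_⟩
  · have : Subgroup.zpowers g = ⊤ := by
      by_contra hne
      obtain ⟨N, hN, hle⟩ := hM _ hne
      exact hg (huniq N hN ▸ hle (Subgroup.mem_zpowers g))
    exact (this ▸ Subgroup.mem_top x : x ∈ Subgroup.zpowers g)
  · obtain ⟨k, hk⟩ := IsPGroup.iff_card.mp hG
    rw [hk]
    refine hpp.isPrimePow.pow ?_
    rintro rfl
    simp only [pow_zero] at hk
    exact absurd hk Finite.one_lt_card.ne'

end Cfsg.Agent.S4387
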