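import Cfsg.Statements.S4396
import Cfsg.Agent.Lib.Minimal.FreeOverComplement
import Cfsg.Agent.Lib.Frobenius.Basic

set_option autoImplicit false
open Cfsg

namespace Cfsg.Agent.S4396

/-- Let the finite group A act faithfully and linearly on a finite-dimensional vector space V over a field k, and suppose A is a Frobenius group with nilpotent kernel F (every Frobenius kernel is nilpotent) and complement H such that F fixes no nonzero vector. Then V is free as a module for H: there is a subspace W with V the direct sum of the translates hW, h ∈ H. (No assumption on the characteristic of k.) -/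
theorem result {k V A : Type*} [Field k] [AddCommGroup V] [Module k V] [FiniteDimensional k V] [Group A] [Finite A] [DecidableEq A]
    (ρ : Representation k A V) (hρ : Function.Injective ρ)
    (Fk Hc : Subgroup A) [Fk.Normal] (hHc : Cfsg.IsFrobeniusComplement Hc) (hker : Cfsg.frobeniusKernel Hc = (Fk : Set A)) (hnil : Group.IsNilpotent ↥Fk)
    (hCF : ∀ v : V, (∀ f ∈ Fk, ρ f v = v) → v = 0) :
    ∃ W : Submodule k V, DirectSum.IsInternal (fun h : ↥Hc => W.map (ρ (h : A))) := by
  letI : Fintype ↥Hc := Fintype.ofFinite _
  haveI : Group.IsNilpotent ↥Fk := hnil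
  let σ : ↥Hc →* (V →ₗ[k] V) := MonoidHom.comp ρ Hc.subtype
  let τ : ↥Fk →* (V →ₗ[k] V) := MonoidHom.comp ρ Fk.subtype
  let φ : ↥Hc →* MulAut ↥Fk := (MulAut.conjNormal (H := Fk)).comp Hc.subtype
  have hfree : CfsgLib.Minimal.FreeOverComplement.IsFreeRep σ := by
    refine CfsgLib.Minimal.FreeOverComplement.IsFreeRep.of_nilpotent τ σ φ ?_ ?_ ?_
    · intro h f
      change ρ (h : A) * ρ (f : A) = ρ ((φ h f : ↥Fk) : A) * ρ (h : A)
      rw [← map_mul, ← map_mul]
      congr 1
      change (h : A) * f = (h : A) * f * (h : A)⁻¹ * h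
      rw [inv_mul_cancel_right]
    · intro h hh f hf
      have h1 : (h : A) * f * (h : A)⁻¹ = f := congrArg Subtype.val hf
      have hc : (f : A) ∈ Subgroup.centralizer ({(h : A)} : Set A) := by
        rw [Subgroup.mem_centralizer_singleton_iff]
        exact (mul_inv_eq_iff_eq_mul.1 h1).symm
      exact Subtype.ext (CfsgLib.Frobenius.eq_one_of_mem_kernel_of_mem (hker.symm ▸ f.2)
        (CfsgLib.Frobenius.centralizer_le hHc h.2 (fun e => hh (Subtype.ext e)) hc))
    · exact fun v hv => hCF v fun f hf => hv ⟨f, hf⟩
  exact hfree.isInternal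

end Cfsg.Agent.S4396
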