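import Cfsg.Statements.S4397
import Cfsg.Agent.Lib.Minimal.CentralPairs
import Cfsg.Agent.Lib.PGroups.Frattini

set_option autoImplicit false
set_option linter.style.haveILetI false
set_option maxHeartbeats 800000
open Cfsg

namespace Cfsg.Agent.S4397

open scoped commutatorElement

/-- A normal cyclic subgroup together with one further generator. -/
theorem metacyclic_of_normal {G : Type*} [Group G] [Finite G] {a h : G}
    (hgen : Subgroup.closure ({a, h} : Set G) = ⊤) (hconj : a * h * a⁻¹ ∈ Subgroup.zpowers h) :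
    Cfsg.IsMetacyclic G := by
  have key : ∀ x : G, x * h * x⁻¹ ∈ Subgroup.zpowers h →
      x ∈ Subgroup.normalizer (Subgroup.zpowers h : Set G) := by
    intro x hx
    have hmap : (Subgroup.zpowers h).map (MulAut.conj x).toMonoidHom = Subgroup.zpowers h :=
      Subgroup.eq_of_le_of_card_ge
        (by rw [MonoidHom.map_zpowers]; exact Subgroup.zpowers_le.2 hx)
        (by rw [Subgroup.card_map_of_injective (MulAut.conj x).injective])
    rw [Subgroup.mem_normalizer_iff]
    intro n
    conv_rhs => rw [← hmap]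
    exact ⟨fun hn => ⟨n, hn, rfl⟩, fun ⟨m, hm, he⟩ => (MulAut.conj x).injective he ▸ hm⟩
  have hN : (Subgroup.zpowers h).Normal := by
    rw [← Subgroup.normalizer_eq_top_iff, eq_top_iff, ← hgen, Subgroup.closure_le]
    rintro y (rfl | rfl)
    · exact key _ hconj
    · exact key _ (by simp)
  refine ⟨Subgroup.zpowers h, hN, inferInstance, ?_⟩
  refine isCyclic_iff_exists_zpowers_eq_top.2 ⟨(a : G ⧸ Subgroup.zpowers h), ?_⟩
  rw [eq_top_iff, ← Subgroup.map_top_of_surjective (QuotientGroup.mk' (Subgroup.zpowers h))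
    (QuotientGroup.mk'_surjective _), ← hgen, MonoidHom.map_closure, Subgroup.closure_le]
  rintro _ ⟨y, (rfl | rfl), rfl⟩
  · exact Subgroup.mem_zpowers _
  · rw [QuotientGroup.mk'_apply, (QuotientGroup.eq_one_iff _).2 (Subgroup.mem_zpowers _)]
    exact one_mem _

theorem mem_of_odd_zpow_mem {G : Type*} [Group G] [Finite G] (h2 : IsPGroup 2 G) {H : Subgroup G}
    {x : G} {j : ℤ} (hj : Odd j) (h : x ^ j ∈ H) : x ∈ H := by
  obtain ⟨t, ht⟩ := h2 x
  have hcop : IsCoprime j ((2 : ℤ) ^ t) := by
    refine IsCoprime.pow_right ?_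
    obtain ⟨i, rfl⟩ := hj
    exact ⟨1, -i, by ring⟩
  obtain ⟨u, v, huv⟩ := hcop
  have hx : x = (x ^ j) ^ u := by
    conv_lhs => rw [← zpow_one x, ← huv, zpow_add, mul_comm u, mul_comm v, zpow_mul, zpow_mul]
    rw [show ((2 : ℤ) ^ t) = ((2 ^ t : ℕ) : ℤ) by push_cast; rfl, zpow_natCast, ht, one_zpow, mul_one]
  rw [hx]; exact H.zpow_mem h u

/-- Sectional rank two and a central commutator of order two: metacyclic. -/
theorem class_two_case {G : Type*} [Group G] [Finite G] (h2 : IsPGroup 2 G)
    (hr : Cfsg.SectionalPRankLE 2 2 G) {a b c : G} (hgen : Subgroup.closure ({a, b} : Set G) = ⊤)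
    (hc1 : c ≠ 1) (hc2 : c * c = 1) (hcc : ∀ x, c * x = x * c) (hab : a * b = c * b * a) :
    Cfsg.IsMetacyclic G := by
  have hci : c⁻¹ = c := inv_eq_of_mul_eq_one_right hc2
  have hba : ∀ {p q : G}, p * q = c * q * p → q * p = c * p * q := by
    intro p q h
    rw [mul_assoc c p q, h, ← mul_assoc c, ← mul_assoc c, hc2, one_mul]
  -- squares of generators are central
  have hsqc : ∀ {p q : G}, p * q = c * q * p → Commute (p * p) q := by
    intro p q h
    calc p * p * q = p * (p * q) := mul_assoc _ _ _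
      _ = p * (c * q * p) := by rw [h]
      _ = c * ((p * q) * p) := by rw [mul_assoc c q p, ← mul_assoc p c, ← hcc p]; simp only [mul_assoc]
      _ = c * ((c * q * p) * p) := by rw [h]
      _ = q * (p * p) := by
          simp only [← mul_assoc]; rw [hc2, one_mul]
  have hcent : ∀ {p q : G}, Subgroup.closure ({p, q} : Set G) = ⊤ → ∀ z : G, Commute z p → Commute z q →
      ∀ x, z * x = x * z := by
    intro p q hpq z hp hq x
    have hx : x ∈ Subgroup.centralizer ({z} : Set G) := by
      refine (Subgroup.closure_le _).2 ?_ (hpq ▸ Subgroup.mem_top x : x ∈ Subgroup.closure ({p, q} : Set G))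
      rintro y (rfl | rfl)
      · exact Subgroup.mem_centralizer_singleton_iff.2 hp.eq.symm
      · exact Subgroup.mem_centralizer_singleton_iff.2 hq.eq.symm
    exact (Subgroup.mem_centralizer_singleton_iff.1 hx).symm
  -- the key alternative for a pair of generators
  have step : ∀ p q : G, Subgroup.closure ({p, q} : Set G) = ⊤ → p * q = c * q * p →
      c ∈ Subgroup.zpowers (p * p) ⊔ Subgroup.zpowers (q * q) ∨ p * p ∈ Subgroup.zpowers (q * q) := by
    intro p q hpq h
    have hpp : ∀ x, p * p * x = x * (p * p) :=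
      hcent hpq _ ((Commute.refl p).mul_left (Commute.refl p)) (hsqc h)
    have hqq : ∀ x, q * q * x = x * (q * q) :=
      hcent hpq _ (hsqc (hba h)) ((Commute.refl q).mul_left (Commute.refl q))
    set Z := Subgroup.center G
    have hppZ : p * p ∈ Z := Subgroup.mem_center_iff.2 fun x => (hpp x).symm
    have hqqZ : q * q ∈ Z := Subgroup.mem_center_iff.2 fun x => (hqq x).symm
    have hcZ : c ∈ Z := Subgroup.mem_center_iff.2 fun x => (hcc x).symm
    set K := Subgroup.zpowers ((p * p) * (p * p)) ⊔ Subgroup.zpowers (q * q) with hK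
    set X1 := K ⊔ Subgroup.zpowers (p * p) with hX1
    set X2 := X1 ⊔ Subgroup.zpowers c with hX2
    set D := X2 ⊔ Subgroup.zpowers q with hD
    have hKZ : K ≤ Z := sup_le (Subgroup.zpowers_le.2 (Z.mul_mem hppZ hppZ)) (Subgroup.zpowers_le.2 hqqZ)
    have hX1Z : X1 ≤ Z := sup_le hKZ (Subgroup.zpowers_le.2 hppZ)
    have hX2Z : X2 ≤ Z := sup_le hX1Z (Subgroup.zpowers_le.2 hcZ)
    have hX1V : X1 ≤ Subgroup.zpowers (p * p) ⊔ Subgroup.zpowers (q * q) :=
      sup_le (sup_le (le_sup_of_le_left (Subgroup.zpowers_le.2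
        (Subgroup.mul_mem _ (Subgroup.mem_zpowers _) (Subgroup.mem_zpowers _)))) le_sup_right)
        le_sup_left
    have hcomm : ∀ (X Y : Subgroup G), X ≤ Z → ∀ x ∈ X, ∀ y ∈ Y, x * y = y * x :=
      fun X Y hX x hx y _ => (Subgroup.mem_center_iff.1 (hX hx) y).symm
    have hqD : ∀ x ∈ D, x * x ∈ K := by
      intro x hx
      obtain ⟨x2, hx2, q', hq', rfl⟩ := CfsgLib.Minimal.mem_sup_of_commute (hcomm X2 _ hX2Z) hx
      obtain ⟨x1, hx1, c', hc', rfl⟩ := CfsgLib.Minimal.mem_sup_of_commute (hcomm X1 _ hX1Z) hx2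
      obtain ⟨k, hk, p', hp', rfl⟩ := CfsgLib.Minimal.mem_sup_of_commute (hcomm K _ hKZ) hx1
      obtain ⟨i, rfl⟩ := Subgroup.mem_zpowers_iff.1 hp'
      obtain ⟨j, rfl⟩ := Subgroup.mem_zpowers_iff.1 hq'
      obtain ⟨l, rfl⟩ := Subgroup.mem_zpowers_iff.1 hc'
      have h1 : Commute (k * (p * p) ^ i * c ^ l) (q ^ j) :=
        (Subgroup.mem_center_iff.1 (hX2Z hx2) _).symm
      have h2' : Commute (k * (p * p) ^ i) (c ^ l) := (Subgroup.mem_center_iff.1 (hX1Z hx1) _).symm
      have h3 : Commute k ((p * p) ^ i) := (Subgroup.mem_center_iff.1 (hKZ hk) _).symm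
      rw [← pow_two, h1.mul_pow, h2'.mul_pow, h3.mul_pow]
      refine K.mul_mem (K.mul_mem (K.mul_mem (K.pow_mem hk 2) ?_) ?_) ?_
      · rw [← zpow_natCast, ← zpow_mul, mul_comm, zpow_mul]
        refine Subgroup.mem_sup_left (Subgroup.zpow_mem _ ?_ i)
        rw [zpow_natCast, pow_two]; exact Subgroup.mem_zpowers _
      · rw [← zpow_natCast, ← zpow_mul, mul_comm, zpow_mul, zpow_natCast, pow_two, hc2, one_zpow]
        exact one_mem _
      · rw [← zpow_natCast, ← zpow_mul, mul_comm, zpow_mul]
        refine Subgroup.mem_sup_right (Subgroup.zpow_mem _ ?_ j)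
        rw [zpow_natCast, pow_two]; exact Subgroup.mem_zpowers _
    by_contra hno
    push Not at hno
    obtain ⟨hcV, hpq2⟩ := hno
    have hK1 : K < X1 := by
      refine lt_of_le_of_ne le_sup_left fun he => hpq2 ?_
      have hm : p * p ∈ K := by rw [he]; exact Subgroup.mem_sup_right (Subgroup.mem_zpowers _)
      obtain ⟨u, hu, w, hw, he'⟩ := CfsgLib.Minimal.mem_sup_of_commute
        (hcomm _ _ (Subgroup.zpowers_le.2 (Z.mul_mem hppZ hppZ))) hm
      obtain ⟨i, rfl⟩ := Subgroup.mem_zpowers_iff.1 hu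
      refine mem_of_odd_zpow_mem h2 (j := 1 - 2 * i) ⟨-i, by ring⟩ ?_
      have hw' : (p * p) ^ (1 - 2 * i) = w := by
        have he'' : w = ((p * p * (p * p)) ^ i)⁻¹ * (p * p) := eq_inv_mul_iff_mul_eq.2 he'
        rw [he'', ← pow_two (p * p), ← zpow_natCast (p * p) 2, ← zpow_mul, ← zpow_neg, ← zpow_add_one]
        congr 1; push_cast; ring
      rw [hw']; exact hw
    have hK2 : X1 < X2 := lt_of_le_of_ne le_sup_left fun he =>
      hcV (hX1V (he ▸ Subgroup.mem_sup_right (Subgroup.mem_zpowers _)))
    have hK3 : X2 < D := lt_of_le_of_ne le_sup_left fun he => hc1 (by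
      have hqZ : q ∈ Z := hX2Z (he ▸ Subgroup.mem_sup_right (Subgroup.mem_zpowers _))
      have h1 := Subgroup.mem_center_iff.1 hqZ p
      rw [h, mul_assoc] at h1
      exact mul_eq_right.1 h1)
    have hle := CfsgLib.Minimal.relIndex_le_of_squares hr (le_trans hK1.le (le_trans hK2.le hK3.le)) hqD
    have two : ∀ {A B : Subgroup G}, A < B → 2 ≤ A.relIndex B := by
      intro A B hAB
      have h0 : A.relIndex B ≠ 0 := Subgroup.FiniteIndex.index_ne_zero
      have h1 : A.relIndex B ≠ 1 := fun h => not_le_of_gt hAB (Subgroup.relIndex_eq_one.1 h)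
      omega
    have m1 := Subgroup.relIndex_mul_relIndex K X1 X2 hK1.le hK2.le
    have m2 := Subgroup.relIndex_mul_relIndex K X2 D (hK1.le.trans hK2.le) hK3.le
    have := Nat.mul_le_mul (Nat.mul_le_mul (two hK1) (two hK2)) (two hK3)
    rw [m1, m2] at this
    omega
  -- commutation rules
  have hconjpow : ∀ {p q : G}, p * q = c * q * p → ∀ n : ℕ, p * q ^ n * p⁻¹ = c ^ n * q ^ n := by
    intro p q h n
    rw [← conj_pow, h, mul_inv_cancel_right, (show Commute c q from hcc q).mul_pow]
  have hconj : ∀ k l : ℕ, a * (a ^ k * b ^ l) * a⁻¹ = c ^ l * (a ^ k * b ^ l) ∧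
      b * (a ^ k * b ^ l) * b⁻¹ = c ^ k * (a ^ k * b ^ l) := by
    intro k l
    constructor
    · calc a * (a ^ k * b ^ l) * a⁻¹ = a ^ k * (a * b ^ l * a⁻¹) := by group
        _ = a ^ k * (c ^ l * b ^ l) := by rw [hconjpow hab]
        _ = _ := by rw [← mul_assoc, ← ((show Commute c (a ^ k) from hcc _).pow_left l).eq, mul_assoc]
    · calc b * (a ^ k * b ^ l) * b⁻¹ = (b * a ^ k * b⁻¹) * b ^ l := by group
        _ = _ := by rw [hconjpow (hba hab), mul_assoc]
  have hsq : ∀ k l : ℕ, (a ^ k * b ^ l) * (a ^ k * b ^ l) = a ^ (2 * k) * b ^ (2 * l) * c ^ (k * l) := by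
    intro k l
    have h1 : b ^ l * a ^ k = c ^ (k * l) * (a ^ k * b ^ l) := by
      have h3 : b ^ l * a * (b ^ l)⁻¹ = c ^ l * a := by
        have h4 := hconjpow hab l
        have h5 : b ^ l * a = c ^ l * (a * b ^ l) := by
          rw [mul_inv_eq_iff_eq_mul] at h4
          rw [h4, ← mul_assoc, ← mul_assoc, ← pow_add, ← two_mul, pow_mul, pow_two, hc2, one_pow, one_mul]
        rw [h5]; group
      have h6 : b ^ l * a ^ k * (b ^ l)⁻¹ = c ^ (k * l) * a ^ k := by
        rw [← conj_pow, h3, ((show Commute c a from hcc a).pow_left l).mul_pow, ← pow_mul, mul_comm k]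
      rw [← mul_assoc, ← h6]; group
    have hck : ∀ n x, c ^ n * x = x * c ^ n := fun n x => ((show Commute c x from hcc x).pow_left n).eq
    calc (a ^ k * b ^ l) * (a ^ k * b ^ l) = a ^ k * (b ^ l * a ^ k) * b ^ l := by group
      _ = a ^ k * (c ^ (k * l) * (a ^ k * b ^ l)) * b ^ l := by rw [h1]
      _ = (a ^ k * a ^ k) * (b ^ l * b ^ l) * c ^ (k * l) := by
          rw [hck]; simp only [mul_assoc]; rw [← hck]
      _ = _ := by rw [← pow_add, ← pow_add, two_mul, two_mul]
  have hcpow : ∀ n : ℕ, c ^ (2 * n) = 1 := fun n => by rw [pow_mul, pow_two, hc2, one_pow]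
  have hcodd : ∀ n : ℕ, Odd n → c ^ n = c := fun n hn => by
    obtain ⟨i, rfl⟩ := hn
    rw [pow_succ, hcpow, one_mul]
  -- the commutator is a power of a generator
  have fin : ∀ k l : ℕ, (Odd k ∨ Odd l) → c ∈ Subgroup.zpowers (a ^ k * b ^ l) →
      Cfsg.IsMetacyclic G := by
    intro k l hodd hc
    set h := a ^ k * b ^ l with hh
    have hin : ∀ n, c ^ n * h ∈ Subgroup.zpowers h := fun n =>
      Subgroup.mul_mem _ (Subgroup.pow_mem _ hc n) (Subgroup.mem_zpowers _)
    rcases hodd with hk | hl
    · refine metacyclic_of_normal (a := b) (h := h) ?_ (by rw [(hconj k l).2]; exact hin k)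
      rw [eq_top_iff, ← hgen, Subgroup.closure_le]
      have hb : b ∈ Subgroup.closure ({b, h} : Set G) := Subgroup.subset_closure (Set.mem_insert _ _)
      rintro y (rfl | rfl)
      · refine mem_of_odd_zpow_mem h2 (j := (k : ℤ)) (by exact_mod_cast hk) ?_
        rw [zpow_natCast, show y ^ k = h * (b ^ l)⁻¹ by rw [hh, mul_inv_cancel_right]]
        exact Subgroup.mul_mem _ (Subgroup.subset_closure (Set.mem_insert_of_mem _ rfl))
          (Subgroup.inv_mem _ (Subgroup.pow_mem _ hb l))
      · exact hb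
    · refine metacyclic_of_normal (a := a) (h := h) ?_ (by rw [(hconj k l).1]; exact hin l)
      rw [eq_top_iff, ← hgen, Subgroup.closure_le]
      have ha : a ∈ Subgroup.closure ({a, h} : Set G) := Subgroup.subset_closure (Set.mem_insert _ _)
      rintro y (rfl | rfl)
      · exact ha
      · refine mem_of_odd_zpow_mem h2 (j := (l : ℤ)) (by exact_mod_cast hl) ?_
        rw [zpow_natCast, show y ^ l = (a ^ k)⁻¹ * h by rw [hh, inv_mul_cancel_left]]
        exact Subgroup.mul_mem _ (Subgroup.inv_mem _ (Subgroup.pow_mem _ ha k))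
          (Subgroup.subset_closure (Set.mem_insert_of_mem _ rfl))
  have hnat : ∀ {x y : G}, x ∈ Subgroup.zpowers y → ∃ n : ℕ, y ^ n = x := fun h =>
    mem_powers_iff_mem_zpowers.2 h
  by_cases hcV : c ∈ Subgroup.zpowers (a * a) ⊔ Subgroup.zpowers (b * b)
  · obtain ⟨x, hx, y, hy, hxy⟩ := CfsgLib.Minimal.mem_sup_of_commute (fun x hx y hy => by
      obtain ⟨i, rfl⟩ := Subgroup.mem_zpowers_iff.1 hx
      exact ((show Commute (a * a) y from (hcent hgen _ ((Commute.refl a).mul_left (Commute.refl a))
        (hsqc hab)) y).zpow_left i).eq) hcV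
    obtain ⟨i, rfl⟩ := hnat hx
    obtain ⟨j, rfl⟩ := hnat hy
    have desc : ∀ N s i j : ℕ, i + j ≤ N → c = a ^ (2 ^ (s + 1) * i) * b ^ (2 ^ (s + 1) * j) →
        Cfsg.IsMetacyclic G := by
      intro N
      induction N with
      | zero =>
        intro s i j hN h
        rw [show i = 0 by omega, show j = 0 by omega] at h
        simp at h
        exact absurd h hc1
      | succ N ih =>
        intro s i j hN h
        by_cases h0 : i = 0 ∧ j = 0
        · rw [h0.1, h0.2] at h; simp at h; exact absurd h hc1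
        rcases Nat.even_or_odd i with ⟨i', hi⟩ | hi <;> rcases Nat.even_or_odd j with ⟨j', hj⟩ | hj
        · refine ih (s + 1) i' j' (by omega) ?_
          rw [h, hi, hj]; congr 2 <;> ring
        all_goals
          rcases s with _ | s
          · have h2' := hsq i j
            simp only [zero_add, pow_one] at h
            rw [← h] at h2'
            rcases Nat.even_or_odd (i * j) with ⟨m, hm⟩ | hm
            · refine fin i j (by first | exact Or.inl hi | exact Or.inr hj) ?_
              rw [hm, ← two_mul, hcpow, mul_one] at h2'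
              rw [← h2']
              exact Subgroup.mul_mem _ (Subgroup.mem_zpowers _) (Subgroup.mem_zpowers _)
            · rw [hcodd _ hm, hc2] at h2'
              -- an involution among the generators
              set g := a ^ i * b ^ j with hg
              have hjo : Odd j := (Nat.odd_mul.1 hm).2
              have hag : a * g = c * g * a := by
                rw [← mul_inv_eq_iff_eq_mul, (hconj i j).1, hcodd _ hjo]
              have hgen' : Subgroup.closure ({a, g} : Set G) = ⊤ := by
                rw [eq_top_iff, ← hgen, Subgroup.closure_le]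
                have ha : a ∈ Subgroup.closure ({a, g} : Set G) :=
                  Subgroup.subset_closure (Set.mem_insert _ _)
                rintro y (rfl | rfl)
                · exact ha
                · refine mem_of_odd_zpow_mem h2 (j := (j : ℤ)) (by exact_mod_cast hjo) ?_
                  rw [zpow_natCast, show y ^ j = (a ^ i)⁻¹ * g by rw [hg, inv_mul_cancel_left]]
                  exact Subgroup.mul_mem _ (Subgroup.inv_mem _ (Subgroup.pow_mem _ ha i))
                    (Subgroup.subset_closure (Set.mem_insert_of_mem _ rfl))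
              rcases step a g hgen' hag with h5 | h5
              · rw [h2', Subgroup.zpowers_one_eq_bot, sup_bot_eq] at h5
                refine fin 1 0 (Or.inl odd_one) ?_
                rw [pow_one, pow_zero, mul_one]
                exact Subgroup.zpowers_le.2 (Subgroup.mul_mem _ (Subgroup.mem_zpowers _)
                  (Subgroup.mem_zpowers _)) h5
              · rw [h2', Subgroup.zpowers_one_eq_bot, Subgroup.mem_bot] at h5
                refine fin (i + 1) j (Or.inr hjo) ?_
                have h6 : (a * g) * (a * g) = c := by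
                  calc (a * g) * (a * g) = (c * g * a) * (a * g) := by rw [← hag]
                    _ = c * g * (a * a) * g := by group
                    _ = c * (g * g) := by rw [h5]; group
                    _ = c := by rw [h2', mul_one]
                rw [show a ^ (i + 1) * b ^ j = a * g by rw [hg, pow_succ', mul_assoc]]
                rw [← h6]
                exact Subgroup.mul_mem _ (Subgroup.mem_zpowers _) (Subgroup.mem_zpowers _)
          · refine fin i j (by first | exact Or.inl hi | exact Or.inr hj) ?_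
            have h4 : (a ^ i * b ^ j) ^ 4 = a ^ (4 * i) * b ^ (4 * j) := by
              have hs := hsq i j
              rw [show (4 : ℕ) = 2 * 2 from rfl, pow_mul, pow_two (a ^ i * b ^ j), hs, pow_two]
              have hA : ∀ x, a ^ (2 * i) * x = x * a ^ (2 * i) := fun x => by
                rw [pow_mul]
                refine ((show Commute (a ^ 2) x from ?_).pow_left i).eq
                rw [pow_two]; exact hcent hgen _ ((Commute.refl a).mul_left (Commute.refl a)) (hsqc hab) x
              have hC : ∀ x, c ^ (i * j) * x = x * c ^ (i * j) := fun x =>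
                ((show Commute c x from hcc x).pow_left _).eq
              calc a ^ (2 * i) * b ^ (2 * j) * c ^ (i * j) * (a ^ (2 * i) * b ^ (2 * j) * c ^ (i * j))
                  = a ^ (2 * i) * (b ^ (2 * j) * a ^ (2 * i)) * b ^ (2 * j) * (c ^ (i * j) * c ^ (i * j)) := by
                    simp only [mul_assoc]; rw [hC]; simp only [mul_assoc]
                _ = _ := by
                    rw [← hA, ← pow_add c, ← two_mul, hcpow, mul_one]
                    simp only [mul_assoc]
                    rw [← pow_add, ← mul_assoc, ← pow_add]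
                    congr 2 <;> ring
            rw [h]
            have hA4 : Commute (a ^ (4 * i)) (b ^ (4 * j)) := by
              rw [show 4 * i = 2 * (2 * i) by ring, pow_mul, pow_two]
              exact (show Commute (a * a) _ from
                hcent hgen _ ((Commute.refl a).mul_left (Commute.refl a)) (hsqc hab) _).pow_left _
            rw [show 2 ^ (s + 1 + 1) * i = 4 * i * 2 ^ s by rw [pow_add, pow_add]; ring,
              show 2 ^ (s + 1 + 1) * j = 4 * j * 2 ^ s by rw [pow_add, pow_add]; ring,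
              pow_mul, pow_mul b, ← hA4.mul_pow, ← h4]
            exact Subgroup.pow_mem _ (Subgroup.pow_mem _ (Subgroup.mem_zpowers _) 4) _
    refine desc (i + j) 0 i j le_rfl ?_
    rw [← hxy, zero_add, pow_one, pow_mul, pow_mul, pow_two, pow_two]
  · have hA : a * a ∈ Subgroup.zpowers (b * b) := (step a b hgen hab).resolve_left hcV
    have hB : b * b ∈ Subgroup.zpowers (a * a) :=
      (step b a (by rw [Set.pair_comm]; exact hgen) (hba hab)).resolve_left
        (by rw [sup_comm]; exact hcV)
    obtain ⟨m, hm⟩ := hnat hB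
    rcases Nat.even_or_odd m with ⟨m', hm'⟩ | hmo
    · -- both generators are involutions
      have haa : a * a = 1 := by
        obtain ⟨n, hn⟩ := hnat hA
        rw [← hm, ← pow_mul] at hn
        have h7 : (a * a) ^ (1 - ((m * n : ℕ) : ℤ)) ∈ (⊥ : Subgroup G) := by
          rw [zpow_sub, zpow_one, zpow_natCast, hn, mul_inv_cancel, Subgroup.mem_bot]
        exact Subgroup.mem_bot.1 (mem_of_odd_zpow_mem h2
          ⟨-((m' * n : ℕ) : ℤ), by rw [hm']; push_cast; ring⟩ h7)
      have hbb : b * b = 1 := by rw [← hm, haa, one_pow]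
      refine fin 1 1 (Or.inl odd_one) ?_
      have h8 : (a * b) * (a * b) = c := by
        calc (a * b) * (a * b) = (c * b * a) * (a * b) := by rw [← hab]
          _ = c * b * (a * a) * b := by group
          _ = c * (b * b) := by rw [haa]; group
          _ = c := by rw [hbb, mul_one]
      rw [pow_one, pow_one, ← h8]
      exact Subgroup.mul_mem _ (Subgroup.mem_zpowers _) (Subgroup.mem_zpowers _)
    · -- `(a ^ -m * b) ^ 2 = c`
      obtain ⟨k, hk⟩ := hnat (x := (a ^ m)⁻¹) (y := a)
        (Subgroup.inv_mem _ (Subgroup.pow_mem _ (Subgroup.mem_zpowers _) _))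
      refine fin k 1 (Or.inr odd_one) ?_
      have h9 : (a ^ k * b ^ 1) * (a ^ k * b ^ 1) = c := by
        rw [pow_one, hk]
        have h10 : b * a ^ m = c * (a ^ m * b) := by
          have := hconjpow (hba hab) m
          rw [hcodd _ hmo, mul_inv_eq_iff_eq_mul] at this
          rw [this, mul_assoc]
        have h11 : b * (a ^ m)⁻¹ = c * ((a ^ m)⁻¹ * b) := by
          rw [mul_inv_eq_iff_eq_mul, mul_assoc c, mul_assoc _ b, h10]
          rw [← mul_assoc _ c, ← hcc, mul_assoc, inv_mul_cancel_left, ← mul_assoc, hc2, one_mul]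
        calc (a ^ m)⁻¹ * b * ((a ^ m)⁻¹ * b) = (a ^ m)⁻¹ * (b * (a ^ m)⁻¹) * b := by group
          _ = c * ((a ^ m)⁻¹ * (a ^ m)⁻¹ * (b * b)) := by
              rw [h11, ← mul_assoc _ c, ← hcc]; group
          _ = c := by
              rw [← hm, (Commute.refl a).mul_pow]; group
      rw [← h9]
      exact Subgroup.mul_mem _ (Subgroup.mem_zpowers _) (Subgroup.mem_zpowers _)

theorem sectionalPRankLE_quotient {p k : ℕ} {G : Type*} [Group G] (hr : Cfsg.SectionalPRankLE p k G)
    (K : Subgroup G) [K.Normal] : Cfsg.SectionalPRankLE p k (G ⧸ K) := by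
  intro H N _
  let φ : H.comap (QuotientGroup.mk' K) →* H ⧸ N :=
    MonoidHom.mk' (fun x => QuotientGroup.mk' N ⟨QuotientGroup.mk' K (x : G), x.2⟩) fun x y => by
      rw [← map_mul]; congr 1
  have hφ : Function.Surjective φ := by
    intro y
    obtain ⟨⟨h, hh⟩, rfl⟩ := QuotientGroup.mk'_surjective N y
    obtain ⟨g, rfl⟩ := QuotientGroup.mk'_surjective K h
    exact ⟨⟨g, hh⟩, rfl⟩
  intro A hA hA2
  let e := QuotientGroup.quotientKerEquivOfSurjective φ hφ
  rw [← Subgroup.card_map_of_injective (f := e.symm.toMonoidHom) e.symm.injective]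
  refine hr (H.comap (QuotientGroup.mk' K)) φ.ker _ (Subgroup.map_isMulCommutative _ _) ?_
  rintro _ ⟨a, ha, rfl⟩
  rw [← map_pow, hA2 a ha, map_one]

theorem two_generated {G : Type*} [Group G] [Finite G] (h2 : IsPGroup 2 G)
    (hr : Cfsg.SectionalPRankLE 2 2 G) : ∃ a b : G, Subgroup.closure ({a, b} : Set G) = ⊤ := by
  haveI : Fact (Nat.Prime 2) := ⟨Nat.prime_two⟩
  set N := CfsgLib.Minimal.squares (⊤ : Subgroup G)
  have hle := CfsgLib.Minimal.relIndex_le_of_squares hr (le_top : N ≤ ⊤)
    (fun x _ => CfsgLib.Minimal.sq_mem_squares (Subgroup.mem_top x))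
  have hNΦ : N ≤ frattini G := by
    rw [show N = Subgroup.closure ((fun x : G => x * x) '' ((⊤ : Subgroup G) : Set G)) from rfl,
      Subgroup.closure_le]
    rintro _ ⟨x, -, rfl⟩
    simpa [pow_two] using CfsgLib.PGroups.pow_mem_frattini h2 x
  have pick : ∀ X : Subgroup G, ∃ a, X ⊔ Subgroup.zpowers a = ⊤ ∨ X < X ⊔ Subgroup.zpowers a := by
    intro X
    by_cases h : X = ⊤
    · exact ⟨1, Or.inl (by rw [h, top_sup_eq])⟩
    · obtain ⟨a, -, ha⟩ := SetLike.exists_of_lt (lt_top_iff_ne_top.2 h)
      exact ⟨a, Or.inr (lt_of_le_of_ne le_sup_left fun he =>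
        ha (he ▸ Subgroup.mem_sup_right (Subgroup.mem_zpowers a)))⟩
  obtain ⟨a, ha⟩ := pick N
  obtain ⟨b, hb⟩ := pick (N ⊔ Subgroup.zpowers a)
  refine ⟨a, b, ?_⟩
  have htop : N ⊔ Subgroup.zpowers a ⊔ Subgroup.zpowers b = ⊤ := by
    rcases ha with ha | ha
    · rw [ha, top_sup_eq]
    rcases hb with hb | hb
    · exact hb
    by_contra hne
    have two : ∀ {A B : Subgroup G}, A < B → 2 ≤ A.relIndex B := by
      intro A B hAB
      have h0 : A.relIndex B ≠ 0 := Subgroup.FiniteIndex.index_ne_zero
      have h1 : A.relIndex B ≠ 1 := fun h => not_le_of_gt hAB (Subgroup.relIndex_eq_one.1 h)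
      omega
    have m1 := Subgroup.relIndex_mul_relIndex _ _ _ ha.le hb.le
    have m2 := Subgroup.relIndex_mul_relIndex N _ ⊤ (ha.le.trans hb.le) le_top
    have := Nat.mul_le_mul (Nat.mul_le_mul (two ha) (two hb)) (two (lt_top_iff_ne_top.2 hne))
    rw [m1, m2] at this
    omega
  refine frattini_nongenerating (top_le_iff.1 ?_)
  rw [← htop]
  refine sup_le (sup_le (le_sup_of_le_right hNΦ) (le_sup_of_le_left ?_)) (le_sup_of_le_left ?_) <;>
    rw [Subgroup.zpowers_le] <;> apply Subgroup.subset_closure <;> simp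

theorem main (n : ℕ) : ∀ (G : Type*) [Group G] [Finite G], Nat.card G ≤ n → IsPGroup 2 G →
    Cfsg.SectionalPRankLE 2 2 G → Cfsg.IsMetacyclic G := by
  induction n with
  | zero => intro G _ _ h; have := Nat.card_pos (α := G); omega
  | succ n ih =>
    intro G _ _ hn h2 hr
    haveI : Fact (Nat.Prime 2) := ⟨Nat.prime_two⟩
    obtain ⟨a, b, hgen⟩ := two_generated h2 hr
    by_cases hcom : commutator G = ⊥
    · refine metacyclic_of_normal hgen ?_
      have : ⁅a, b⁆ ∈ commutator G := Subgroup.commutator_mem_commutator (Subgroup.mem_top a) (Subgroup.mem_top b)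
      rw [hcom, Subgroup.mem_bot, commutatorElement_eq_one_iff_mul_comm] at this
      rw [this, mul_inv_cancel_right]
      exact Subgroup.mem_zpowers _
    -- a central involution in the commutator subgroup
    obtain ⟨r, hrC, hrZ, hr1, hr2⟩ : ∃ r ∈ commutator G, r ∈ Subgroup.center G ∧ r ≠ 1 ∧ r * r = 1 := by
      obtain ⟨t, ht⟩ := IsPGroup.iff_card.1 (h2.to_subgroup (commutator G))
      have ht1 : 1 ≤ t := by
        rcases Nat.eq_zero_or_pos t with rfl | h
        · exact absurd (Subgroup.card_eq_one.1 (by simpa using ht)) hcom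
        · exact h
      obtain ⟨M, hMn, hMC, hM2⟩ := CfsgLib.PGroups.exists_normal_card_le h2 (k := 1) ht ht1
      rw [pow_one] at hM2
      obtain ⟨⟨r, hrM⟩, hor⟩ := exists_prime_orderOf_dvd_card' 2 (hM2 ▸ dvd_rfl : 2 ∣ Nat.card M)
      rw [Subgroup.orderOf_mk] at hor
      exact ⟨r, hMC hrM, CfsgLib.PGroups.le_center_of_card_eq_prime h2 hM2 hrM,
        fun h => by simp [h] at hor, by rw [← pow_two, ← hor, pow_orderOf_eq_one]⟩
    have hrc : ∀ x, r * x = x * r := fun x => (Subgroup.mem_center_iff.1 hrZ x).symm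
    set R := Subgroup.zpowers r with hR
    haveI hRn : R.Normal := ⟨fun x hx g => by
      have hxZ : x ∈ Subgroup.center G := Subgroup.zpowers_le.2 hrZ hx
      rwa [Subgroup.mem_center_iff.1 hxZ g, mul_inv_cancel_right]⟩
    have hRmem : ∀ x ∈ R, x = 1 ∨ x = r := by
      intro x hx
      obtain ⟨i, rfl⟩ := (mem_powers_iff_mem_zpowers).2 hx
      rcases Nat.even_or_odd i with ⟨m, rfl⟩ | ⟨m, rfl⟩
      · left; simp [← two_mul, pow_mul, pow_two, hr2]
      · right; simp [pow_succ, pow_mul, pow_two, hr2]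
    have hcard : Nat.card (G ⧸ R) ≤ n := by
      have h := Subgroup.card_mul_index R
      rw [Nat.card_zpowers, orderOf_eq_prime (p := 2) (by rw [pow_two, hr2]) hr1,
        Subgroup.index_eq_card] at h
      omega
    obtain ⟨N, hNn, hNc, hQc⟩ := ih (G ⧸ R) hcard (h2.to_quotient R) (sectionalPRankLE_quotient hr R)
    obtain ⟨gq, hgq⟩ := (Subgroup.isCyclic_iff_exists_zpowers_eq_top N).1 hNc
    obtain ⟨g, rfl⟩ := QuotientGroup.mk'_surjective R gq
    obtain ⟨cq, hcq⟩ := isCyclic_iff_exists_zpowers_eq_top.1 hQc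
    obtain ⟨aq, rfl⟩ := QuotientGroup.mk'_surjective N cq
    obtain ⟨a', rfl⟩ := QuotientGroup.mk'_surjective R aq
    have hrΦ : r ∈ frattini G := CfsgLib.PGroups.commutator_le_frattini h2 hrC
    have hgen' : Subgroup.closure ({a', g} : Set G) = ⊤ := by
      refine frattini_nongenerating (top_le_iff.1 fun x _ => ?_)
      have hx : QuotientGroup.mk' N (QuotientGroup.mk' R x) ∈
          Subgroup.zpowers (QuotientGroup.mk' N (QuotientGroup.mk' R a')) := by
        rw [hcq]; exact Subgroup.mem_top _
      obtain ⟨i, hi⟩ := Subgroup.mem_zpowers_iff.1 hx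
      rw [← map_zpow, ← map_zpow] at hi
      have h1 := (QuotientGroup.eq.1 hi)
      rw [← hgq] at h1
      obtain ⟨j, hj⟩ := Subgroup.mem_zpowers_iff.1 h1
      rw [QuotientGroup.mk'_apply, QuotientGroup.mk'_apply, QuotientGroup.mk'_apply,
        ← QuotientGroup.mk_inv, ← QuotientGroup.mk_mul, ← QuotientGroup.mk_zpow] at hj
      have h2' := QuotientGroup.eq.1 hj
      have hx' : x = a' ^ i * g ^ j * ((g ^ j)⁻¹ * ((a' ^ i)⁻¹ * x)) := by group
      rw [hx']
      exact Subgroup.mul_mem _ (Subgroup.mem_sup_left (Subgroup.mul_mem _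
        (Subgroup.zpow_mem _ (Subgroup.subset_closure (by simp)) i)
        (Subgroup.zpow_mem _ (Subgroup.subset_closure (by simp)) j)))
        (Subgroup.mem_sup_right (Subgroup.zpowers_le.2 hrΦ h2'))
    obtain ⟨e, he⟩ : ∃ e : ℤ, (g ^ e)⁻¹ * (a' * g * a'⁻¹) ∈ R := by
      have h1 : QuotientGroup.mk' R (a' * g * a'⁻¹) ∈ Subgroup.zpowers (QuotientGroup.mk' R g) := by
        rw [hgq, map_mul, map_mul, map_inv]
        exact hNn.conj_mem _ (hgq ▸ Subgroup.mem_zpowers _) _
      obtain ⟨e, he⟩ := Subgroup.mem_zpowers_iff.1 h1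
      rw [QuotientGroup.mk'_apply, QuotientGroup.mk'_apply, ← QuotientGroup.mk_zpow] at he
      exact ⟨e, QuotientGroup.eq.1 he⟩
    rcases hRmem _ he with he | he
    · refine metacyclic_of_normal hgen' ?_
      rw [← inv_mul_eq_one.1 he]
      exact Subgroup.zpow_mem _ (Subgroup.mem_zpowers _) e
    -- the commutator `y`
    have hag : a' * g * a'⁻¹ = g ^ e * r := by rw [← he]; group
    set y := g ^ (e - 1) * r with hy
    have hgy : Commute g y := by
      rw [hy]; exact ((Commute.refl g).zpow_right _).mul_right (hrc g).symm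
    have hay : a' * y * a'⁻¹ = y ^ e := by
      have h1 : a' * g ^ (e - 1) * a'⁻¹ = g ^ (e * (e - 1)) * r ^ (e - 1) := by
        rw [← conj_zpow, hag, (show Commute (g ^ e) r from (hrc _).symm).mul_zpow, ← zpow_mul]
      have h2' : a' * r * a'⁻¹ = r := by rw [← hrc, mul_inv_cancel_right]
      calc a' * y * a'⁻¹ = (a' * g ^ (e - 1) * a'⁻¹) * (a' * r * a'⁻¹) := by rw [hy]; group
        _ = g ^ (e * (e - 1)) * r ^ e := by rw [h1, h2', mul_assoc, ← zpow_add_one, sub_add_cancel]
        _ = y ^ e := by
            rw [hy, (show Commute (g ^ (e - 1)) r from (hrc _).symm).mul_zpow, ← zpow_mul, mul_comm e]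
    have hyN : (Subgroup.zpowers y).Normal := by
      have key : ∀ x : G, x * y * x⁻¹ ∈ Subgroup.zpowers y →
          x ∈ Subgroup.normalizer (Subgroup.zpowers y : Set G) := by
        intro x hx
        have hmap : (Subgroup.zpowers y).map (MulAut.conj x).toMonoidHom = Subgroup.zpowers y :=
          Subgroup.eq_of_le_of_card_ge
            (by rw [MonoidHom.map_zpowers]; exact Subgroup.zpowers_le.2 hx)
            (by rw [Subgroup.card_map_of_injective (MulAut.conj x).injective])
        rw [Subgroup.mem_normalizer_iff]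
        intro n
        conv_rhs => rw [← hmap]
        exact ⟨fun hn => ⟨n, hn, rfl⟩, fun ⟨m, hm, he⟩ => (MulAut.conj x).injective he ▸ hm⟩
      rw [← Subgroup.normalizer_eq_top_iff, eq_top_iff, ← hgen', Subgroup.closure_le]
      rintro z (rfl | rfl)
      · exact key _ (by rw [hay]; exact Subgroup.zpow_mem _ (Subgroup.mem_zpowers _) e)
      · exact key _ (by rw [hgy.eq, mul_inv_cancel_right]; exact Subgroup.mem_zpowers _)
    have hcy : commutator G ≤ Subgroup.zpowers y := by
      haveI := hyN
      rw [← Subgroup.Normal.quotient_commutative_iff_commutator_le]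
      have hcc : a' * g = (g * a') * (a'⁻¹ * y * a') := by
        rw [hy, show g * a' * (a'⁻¹ * (g ^ (e - 1) * r) * a') = g ^ e * r * a' by group, ← hag]
        group
      have hcomm : Commute (a' : G ⧸ Subgroup.zpowers y) g := by
        show (_ : G ⧸ Subgroup.zpowers y) = _
        rw [← QuotientGroup.mk_mul, ← QuotientGroup.mk_mul, hcc, QuotientGroup.mk_mul (Subgroup.zpowers y) (g * a') (a'⁻¹ * y * a'),
          (QuotientGroup.eq_one_iff (a'⁻¹ * y * a')).2 (by
            simpa using hyN.conj_mem _ (Subgroup.mem_zpowers y) a'⁻¹), mul_one]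
      have htop : Subgroup.closure ({(a' : G ⧸ Subgroup.zpowers y), (g : G ⧸ Subgroup.zpowers y)} : Set _) = ⊤ := by
        have := congrArg (Subgroup.map (QuotientGroup.mk' (Subgroup.zpowers y))) hgen'
        rwa [MonoidHom.map_closure, Set.image_pair,
          Subgroup.map_top_of_surjective _ (QuotientGroup.mk'_surjective _)] at this
      refine ⟨⟨fun p q => ?_⟩⟩
      have := Subgroup.isMulCommutative_closure (k := ({(a' : G ⧸ Subgroup.zpowers y),
        (g : G ⧸ Subgroup.zpowers y)} : Set _)) (by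
          rintro u (rfl | rfl) v (rfl | rfl)
          exacts [rfl, hcomm.eq, hcomm.eq.symm, rfl])
      exact congrArg Subtype.val (this.is_comm.comm ⟨p, htop ▸ Subgroup.mem_top p⟩ ⟨q, htop ▸ Subgroup.mem_top q⟩)
    obtain ⟨m, hm⟩ := (mem_powers_iff_mem_zpowers).2 (hcy hrC)
    simp only [hy, (show Commute (g ^ (e - 1)) r from (hrc _).symm).mul_pow] at hm
    rcases Nat.even_or_odd m with ⟨m', rfl⟩ | hmo
    · rw [← two_mul, pow_mul r, pow_two, hr2, one_pow, mul_one] at hm
      refine metacyclic_of_normal hgen' ?_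
      rw [hag, ← hm]
      exact Subgroup.mul_mem _ (Subgroup.zpow_mem _ (Subgroup.mem_zpowers _) _)
        (Subgroup.pow_mem _ (Subgroup.zpow_mem _ (Subgroup.mem_zpowers _) _) _)
    · have h1 : (g ^ (e - 1)) ^ (m : ℤ) ∈ (⊥ : Subgroup G) := by
        rw [zpow_natCast, Subgroup.mem_bot]
        obtain ⟨i, rfl⟩ := hmo
        rw [pow_succ r, pow_mul r, pow_two, hr2, one_pow, one_mul, mul_eq_right] at hm
        exact hm
      have hge : g ^ (e - 1) = 1 :=
        Subgroup.mem_bot.1 (mem_of_odd_zpow_mem h2 (by exact_mod_cast hmo) h1)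
      refine class_two_case h2 hr hgen' hr1 hr2 hrc ?_
      rw [show a' * g = (a' * g * a'⁻¹) * a' by group, hag,
        show g ^ e = g ^ (e - 1) * g by rw [← zpow_add_one, sub_add_cancel], hge, one_mul, hrc g]

/-- A finite 2-group of sectional 2-rank at most 2 (every section has no elementary abelian subgroup of order 8) is metacyclic: it has a cyclic normal subgroup with cyclic quotient. -/
theorem result {S : Type*} [Group S] [Finite S] (h2 : IsPGroup 2 S) (hr : Cfsg.SectionalPRankLE 2 2 S) : Cfsg.IsMetacyclic S :=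
  main (Nat.card S) S le_rfl h2 hr

end Cfsg.Agent.S4397
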