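import Cfsg.Statements.S4400
import Cfsg.Agent.Lib.Minimal.CentralPairs

set_option autoImplicit false
open Cfsg

namespace Cfsg.Agent.S4400

/-- Let S be a finite 2-group of sectional 2-rank at most 4, and let P and Q be normal non-abelian subgroups of S whose centres have order 2 and are different. Then P and Q commute elementwise and intersect trivially, and PQ contains its own centralizer in S. -/
theorem result {S : Type*} [Group S] [Finite S] (h2 : IsPGroup 2 S) (hr : Cfsg.SectionalPRankLE 2 4 S)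
    (P Q : Subgroup S) [P.Normal] [Q.Normal] (hP : ¬ IsMulCommutative ↥P) (hQ : ¬ IsMulCommutative ↥Q)
    (hZP : Nat.card ↥(Subgroup.center ↥P) = 2) (hZQ : Nat.card ↥(Subgroup.center ↥Q) = 2)
    (hne : (Subgroup.center ↥P).map P.subtype ≠ (Subgroup.center ↥Q).map Q.subtype) :
    ⁅P, Q⁆ = ⊥ ∧ P ⊓ Q = ⊥ ∧ Subgroup.centralizer ((P ⊔ Q : Subgroup S) : Set S) ≤ P ⊔ Q := by
  classical
  have hcen : ∀ (R : Subgroup S), R.Normal → Nat.card ↥(Subgroup.center ↥R) = 2 →
      (Subgroup.center ↥R).map R.subtype ≤ Subgroup.centralizer ((⊤ : Subgroup S) : Set S) := by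
    intro R hR hZ
    haveI := hR
    haveI hn : ((Subgroup.center ↥R).map R.subtype).Normal := CfsgLib.Cores.normal_map_subtype R _
    intro z hz
    rw [Subgroup.mem_centralizer_iff]
    intro s _
    have hs : s * z * s⁻¹ ∈ (Subgroup.center ↥R).map R.subtype := hn.conj_mem z hz s
    have h2' : Nat.card ↥((Subgroup.center ↥R).map R.subtype) = 2 := by
      rw [Subgroup.card_map_of_injective R.subtype_injective, hZ]
    obtain ⟨w, -, huniv⟩ := (Nat.card_eq_two_iff' (1 : ↥((Subgroup.center ↥R).map R.subtype))).mp h2'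
    by_cases hz1 : z = 1
    · simp [hz1]
    · have e1 := huniv ⟨z, hz⟩ (fun h => hz1 (congrArg Subtype.val h))
      have e2 := huniv ⟨_, hs⟩ (fun h => hz1 (by simpa using congrArg Subtype.val h))
      have := congrArg Subtype.val (e2.trans e1.symm)
      exact mul_inv_eq_iff_eq_mul.mp this
  obtain ⟨hd, hc⟩ := CfsgLib.Minimal.pair_disjoint h2 (S₀ := ⊤) (P := P) (Q := Q) le_top le_top
    (Subgroup.normalizer_eq_top (H := P)).ge (Subgroup.normalizer_eq_top (H := Q)).ge hZP hZQ
    (hcen P inferInstance hZP) (hcen Q inferInstance hZQ) hne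
  refine ⟨?_, hd, CfsgLib.Minimal.pair_centralizer h2 hr hP hQ hZP hZQ hd hc⟩
  rw [Subgroup.commutator_eq_bot_iff_le_centralizer]
  intro x hx
  exact Subgroup.mem_centralizer_iff.mpr fun y hy => (hc x hx y hy).symm

end Cfsg.Agent.S4400
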