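import Cfsg.Statements.S4401
import Cfsg.Agent.Lib.Minimal.CentralPairs

set_option autoImplicit false
open Cfsg

namespace Cfsg.Agent.S4401

/-- Let S be a finite 2-group of sectional 2-rank at most 4 and P a proper non-abelian subgroup whose centre has order 2. Let S₀ be the centralizer in S of Z(P) and suppose P is normal in S₀. Then either S₀ = S, or P has sectional 2-rank at most 2 and S₀ has index 2 in S. -/
theorem result {S : Type*} [Group S] [Finite S] (h2 : IsPGroup 2 S) (hr : Cfsg.SectionalPRankLE 2 4 S)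
    (P : Subgroup S) (hPlt : P ≠ ⊤) (hP : ¬ IsMulCommutative ↥P) (hZP : Nat.card ↥(Subgroup.center ↥P) = 2)
    (S₀ : Subgroup S) (hS₀ : S₀ = Subgroup.centralizer (((Subgroup.center ↥P).map P.subtype : Subgroup S) : Set S))
    (hPn : ∀ s ∈ S₀, ∀ x ∈ P, s * x * s⁻¹ ∈ P) :
    S₀ = ⊤ ∨ (Cfsg.SectionalPRankLE 2 2 ↥P ∧ S₀.index = 2) := by
  classical
  haveI : Fact (Nat.Prime 2) := ⟨Nat.prime_two⟩
  haveI : Group.IsNilpotent S := h2.isNilpotent
  refine or_iff_not_imp_left.mpr fun hne => ?_
  set Z := (Subgroup.center ↥P).map P.subtype with hZdef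
  have hZ2 : Nat.card Z = 2 := by rw [hZdef, Subgroup.card_map_of_injective P.subtype_injective, hZP]
  obtain ⟨z', hz1', huniq⟩ := (Nat.card_eq_two_iff' (1 : Z)).mp hZ2
  set z : S := (z' : S) with hzdef
  have hz1 : z ≠ 1 := fun h => hz1' (Subtype.ext h)
  have hzZ : z ∈ Z := z'.2
  have hZel : ∀ x ∈ Z, x = 1 ∨ x = z := by
    intro x hx
    by_cases h : x = 1
    · exact Or.inl h
    · exact Or.inr (congrArg Subtype.val (huniq ⟨x, hx⟩ fun h' => h (congrArg Subtype.val h')))
  have hS₀' : ∀ s, s ∈ S₀ ↔ z * s = s * z := by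
    intro s
    rw [hS₀, Subgroup.mem_centralizer_iff]
    refine ⟨fun h => h z hzZ, fun h x hx => ?_⟩
    rcases hZel x hx with rfl | rfl
    · simp
    · exact h
  have hzP : z ∈ P := Subgroup.map_subtype_le _ hzZ
  have hPS : P ≤ S₀ := by
    intro x hx
    rw [hS₀']
    obtain ⟨w, hw, hwz⟩ := hzZ
    have h := congrArg Subtype.val (Subgroup.mem_center_iff.mp hw ⟨x, hx⟩)
    rw [show z = P.subtype w from hwz.symm]
    exact h.symm
  have hPn' : S₀ ≤ Subgroup.normalizer (P : Set S) := by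
    intro s hs
    rw [Subgroup.mem_normalizer_iff]
    refine fun x => ⟨hPn s hs x, fun h => ?_⟩
    simpa [mul_assoc] using hPn s⁻¹ (S₀.inv_mem hs) _ h
  -- conjugates of `P` by elements normalising `S₀`
  set N := Subgroup.normalizer (S₀ : Set S) with hNdef
  have conjP : ∀ g ∈ N, let R := P.map (MulAut.conj g).toMonoidHom
      R ≤ S₀ ∧ S₀ ≤ Subgroup.normalizer (R : Set S) ∧ Nat.card (Subgroup.center R) = 2 ∧
        ¬ IsMulCommutative R ∧ (Subgroup.center R).map R.subtype ≤ Subgroup.centralizer (S₀ : Set S) ∧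
        g * z * g⁻¹ ∈ (Subgroup.center R).map R.subtype := by
    intro g hg R
    let e : P ≃* R := P.equivMapOfInjective _ (MulAut.conj g).injective
    have hRS : R ≤ S₀ := by
      rintro _ ⟨x, hx, rfl⟩
      exact (Subgroup.mem_normalizer_iff.mp hg x).mp (hPS hx)
    have hzR : g * z * g⁻¹ ∈ (Subgroup.center R).map R.subtype := by
      obtain ⟨w, hw, hwz⟩ := hzZ
      refine ⟨e w, Subgroup.mem_center_iff.mpr fun r => ?_, ?_⟩
      · obtain ⟨r, rfl⟩ := e.surjective r
        rw [← map_mul, ← map_mul, Subgroup.mem_center_iff.mp hw r]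
      · show g * (w : S) * g⁻¹ = _
        rw [show (w : S) = z from hwz]
    have hcard : Nat.card (Subgroup.center R) = 2 := by
      rw [← hZP]
      exact Nat.card_congr (Subgroup.centerCongr e).symm.toEquiv
    refine ⟨hRS, ?_, hcard, fun h => hP ?_, ?_, hzR⟩
    · intro s hs
      have hs' : g⁻¹ * s * g ∈ S₀ := by
        have := (Subgroup.mem_normalizer_iff.mp (inv_mem hg) s).mp hs
        simpa using this
      rw [Subgroup.mem_normalizer_iff]
      intro x
      simp only [R, Subgroup.mem_map_equiv, MulAut.conj_symm_apply]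
      rw [show g⁻¹ * (s * x * s⁻¹) * g = (g⁻¹ * s * g) * (g⁻¹ * x * g) * (g⁻¹ * s * g)⁻¹ by group]
      exact Subgroup.mem_normalizer_iff.mp (hPn' hs') _
    · exact ⟨⟨fun a b => e.injective (by rw [map_mul, map_mul]; exact h.is_comm.comm _ _)⟩⟩
    · intro x hx
      have h2' : Nat.card ((Subgroup.center R).map R.subtype) = 2 := by
        rw [Subgroup.card_map_of_injective R.subtype_injective, hcard]
      obtain ⟨w, hw1, hw⟩ := (Nat.card_eq_two_iff' (1 : (Subgroup.center R).map R.subtype)).mp h2'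
      by_cases hx1 : x = 1
      · rw [hx1]; exact one_mem _
      · have e1 := hw ⟨x, hx⟩ (fun h => hx1 (congrArg Subtype.val h))
        have e2 := hw ⟨_, hzR⟩ (fun h => hz1 (by simpa using congrArg Subtype.val h))
        have : x = g * z * g⁻¹ := congrArg Subtype.val (e1.trans e2.symm)
        rw [this, Subgroup.mem_centralizer_iff]
        intro s hs
        have hs' : g⁻¹ * s * g ∈ S₀ := by
          have := (Subgroup.mem_normalizer_iff.mp (inv_mem hg) s).mp hs
          simpa using this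
        have h := (hS₀' _).mp hs'
        calc s * (g * z * g⁻¹) = g * ((g⁻¹ * s * g) * z) * g⁻¹ := by group
          _ = g * (z * (g⁻¹ * s * g)) * g⁻¹ := by rw [h]
          _ = g * z * g⁻¹ * s := by group
  have hlt : S₀ < N := Group.normalizerCondition_of_isNilpotent S₀ (lt_top_iff_ne_top.mpr hne)
  obtain ⟨h, hhN, hhS⟩ := SetLike.exists_of_lt hlt
  obtain ⟨hQS, hQn, hZQ, hQ, hcQ, hzQ⟩ := conjP h hhN
  set Q := P.map (MulAut.conj h).toMonoidHom with hQdef
  set z₂ := h * z * h⁻¹ with hz₂def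
  have hcP : Z ≤ Subgroup.centralizer (S₀ : Set S) := by
    intro x hx
    rw [Subgroup.mem_centralizer_iff]
    intro s hs
    rcases hZel x hx with rfl | rfl
    · simp
    · exact ((hS₀' s).mp hs).symm
  have hz₂ne : z₂ ≠ z := fun e => hhS ((hS₀' h).mpr (mul_inv_eq_iff_eq_mul.mp e).symm)
  have hz₂1 : z₂ ≠ 1 := fun e => hz1 (by simpa [hz₂def] using e)
  have hZne : Z ≠ (Subgroup.center Q).map Q.subtype := by
    intro e
    rcases hZel z₂ (e ▸ hzQ) with e' | e'
    · exact hz₂1 e'
    · exact hz₂ne e'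
  obtain ⟨hd, hc⟩ := CfsgLib.Minimal.pair_disjoint h2 hPS hQS hPn' hQn hZP hZQ hcP hcQ hZne
  have hcent := CfsgLib.Minimal.pair_centralizer h2 hr hP hQ hZP hZQ hd hc
  have hzQP : z₂ ∈ Q := Subgroup.map_subtype_le _ hzQ
  -- elements of `S` centralising `P` and `Q`
  have hCZ : ∀ w : S, (∀ x ∈ P, x * w = w * x) → (∀ x ∈ Q, x * w = w * x) →
      w = 1 ∨ w = z ∨ w = z₂ ∨ w = z * z₂ := by
    intro w h1 h2'
    have hwC : w ∈ Subgroup.centralizer ((P ⊔ Q : Subgroup S) : Set S) := by
      rw [Subgroup.mem_centralizer_iff]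
      intro x hx
      obtain ⟨a, ha, b, hb, rfl⟩ := CfsgLib.Minimal.mem_sup_of_commute hc hx
      exact (Commute.mul_left (h1 a ha) (h2' b hb)).eq
    obtain ⟨a, ha, b, hb, rfl⟩ := CfsgLib.Minimal.mem_sup_of_commute hc (hcent hwC)
    have haZ : a ∈ Z := ⟨⟨a, ha⟩, Subgroup.mem_center_iff.mpr fun x => Subtype.ext (by
      have e1 : Commute (x : S) (a * b) := h1 x x.2
      have := e1.mul_right (Commute.inv_right (hc x x.2 b hb))
      rw [mul_inv_cancel_right] at this
      exact this.eq), rfl⟩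
    have hbQ : b ∈ (Subgroup.center Q).map Q.subtype := ⟨⟨b, hb⟩, Subgroup.mem_center_iff.mpr fun x => Subtype.ext (by
      have e1 : Commute (x : S) (a * b) := h2' x x.2
      have e2 : Commute (x : S) a⁻¹ := Commute.inv_right (Commute.symm (hc a ha x x.2))
      have := e2.mul_right e1
      rw [inv_mul_cancel_left] at this
      exact this.eq), rfl⟩
    obtain ⟨q, hq1, hq⟩ := (Nat.card_eq_two_iff' (1 : (Subgroup.center Q).map Q.subtype)).mp
      (by rw [Subgroup.card_map_of_injective Q.subtype_injective, hZQ])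
    have hb' : b = 1 ∨ b = z₂ := by
      by_cases hb1 : b = 1
      · exact Or.inl hb1
      · exact Or.inr (congrArg Subtype.val ((hq ⟨b, hbQ⟩ fun e => hb1 (congrArg Subtype.val e)).trans
          (hq ⟨z₂, hzQ⟩ fun e => hz₂1 (congrArg Subtype.val e)).symm))
    rcases hZel a haZ with rfl | rfl <;> rcases hb' with rfl | rfl <;> simp
  -- every element of `N` permutes `z` and `z₂`
  have hperm : ∀ g ∈ N, g * z * g⁻¹ = z ∨ g * z * g⁻¹ = z₂ := by
    intro g hg
    by_contra hcon
    push Not at hcon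
    obtain ⟨hRS, hRn, hZR, hR, hcR, hzR⟩ := conjP g hg
    set R := P.map (MulAut.conj g).toMonoidHom with hRdef
    obtain ⟨q, hq1, hq⟩ := (Nat.card_eq_two_iff' (1 : (Subgroup.center R).map R.subtype)).mp
      (by rw [Subgroup.card_map_of_injective R.subtype_injective, hZR])
    have helR : ∀ x ∈ (Subgroup.center R).map R.subtype, x = 1 ∨ x = g * z * g⁻¹ := by
      intro x hx
      by_cases hx1 : x = 1
      · exact Or.inl hx1
      · exact Or.inr (congrArg Subtype.val ((hq ⟨x, hx⟩ fun e => hx1 (congrArg Subtype.val e)).trans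
          (hq ⟨_, hzR⟩ fun e => hz1 (by simpa using congrArg Subtype.val e)).symm))
    have h1 : Z ≠ (Subgroup.center R).map R.subtype := fun e => by
      rcases helR z (e ▸ hzZ) with e' | e'
      · exact hz1 e'
      · exact hcon.1 e'.symm
    have h3 : (Subgroup.center Q).map Q.subtype ≠ (Subgroup.center R).map R.subtype := fun e => by
      rcases helR z₂ (e ▸ hzQ) with e' | e'
      · exact hz₂1 e'
      · exact hcon.2 e'.symm
    obtain ⟨-, hc1⟩ := CfsgLib.Minimal.pair_disjoint h2 hPS hRS hPn' hRn hZP hZR hcP hcR h1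
    obtain ⟨-, hc2⟩ := CfsgLib.Minimal.pair_disjoint h2 hQS hRS hQn hRn hZQ hZR hcQ hcR h3
    apply hR
    refine ⟨⟨fun a b => Subtype.ext ?_⟩⟩
    have hcz : Commute (z : S) z₂ := hc z hzP z₂ hzQP
    have hall : ∀ a : R, (a : S) = 1 ∨ (a : S) = z ∨ (a : S) = z₂ ∨ (a : S) = z * z₂ := fun a =>
      hCZ a (fun x hx => hc1 x hx a a.2) (fun x hx => hc2 x hx a a.2)
    show (a : S) * b = b * a
    rcases hall a with ea | ea | ea | ea <;> rcases hall b with eb | eb | eb | eb <;> rw [ea, eb] <;>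
      first
      | simp
      | exact hcz.eq
      | exact hcz.eq.symm
      | exact ((Commute.refl z).mul_right hcz).eq
      | exact ((Commute.refl z).mul_right hcz).eq.symm
      | exact (hcz.symm.mul_right (Commute.refl z₂)).eq
      | exact (hcz.symm.mul_right (Commute.refl z₂)).eq.symm
  have hN2 : ∀ g ∈ N, g ∈ S₀ ∨ h⁻¹ * g ∈ S₀ := by
    intro g hg
    rcases hperm g hg with e | e
    · exact Or.inl ((hS₀' g).mpr (mul_inv_eq_iff_eq_mul.mp e).symm)
    · refine Or.inr ((hS₀' _).mpr ?_)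
      have : (h⁻¹ * g) * z * (h⁻¹ * g)⁻¹ = z := by
        rw [show (h⁻¹ * g) * z * (h⁻¹ * g)⁻¹ = h⁻¹ * (g * z * g⁻¹) * h by group, e, hz₂def]
        group
      exact (mul_inv_eq_iff_eq_mul.mp this).symm
  -- `N` is everything
  have hNtop : N = ⊤ := by
    by_contra hNne
    obtain ⟨g, hg, hgN⟩ := SetLike.exists_of_lt
      (Group.normalizerCondition_of_isNilpotent N (lt_top_iff_ne_top.mpr hNne))
    set u := z * z₂ with hudef
    have hh2 : h * z₂ * h⁻¹ = z := by
      rcases hperm (h * h) (N.mul_mem hhN hhN) with e | e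
      · rw [← e, hz₂def]; group
      · exfalso
        apply hz₂ne
        have : h * z * h⁻¹ = z := by
          have e' : h * (h * z * h⁻¹) * h⁻¹ = h * z * h⁻¹ := by
            rw [show h * (h * z * h⁻¹) * h⁻¹ = h * h * z * (h * h)⁻¹ by group, e]
          exact mul_left_cancel (mul_right_cancel e')
        exact this
    have hcz : Commute (z : S) z₂ := hc z hzP z₂ hzQP
    have hsz : ∀ s ∈ S₀, s * z * s⁻¹ = z := fun s hs =>
      mul_inv_eq_iff_eq_mul.mpr ((hS₀' s).mp hs).symm
    have hsz2 : ∀ s ∈ S₀, s * z₂ * s⁻¹ = z₂ := fun s hs =>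
      mul_inv_eq_iff_eq_mul.mpr (Subgroup.mem_centralizer_iff.mp (hcQ hzQ) s hs)
    have hu : ∀ n ∈ N, n * u * n⁻¹ = u := by
      intro n hn
      rcases hN2 n hn with hs | hs
      · rw [hudef, show n * (z * z₂) * n⁻¹ = (n * z * n⁻¹) * (n * z₂ * n⁻¹) by group, hsz n hs, hsz2 n hs]
      · set s := h⁻¹ * n with hsdef
        rw [hudef, show n * (z * z₂) * n⁻¹ = h * (s * z * s⁻¹) * h⁻¹ * (h * (s * z₂ * s⁻¹) * h⁻¹) by
            rw [hsdef]; group, hsz s hs, hsz2 s hs, hh2, ← hz₂def]
        exact hcz.eq.symm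
    have hu1 : u ≠ 1 := fun e => by
      have : z = z₂⁻¹ := eq_inv_of_mul_eq_one_left e
      have hzQ' : z ∈ Q := this ▸ Q.inv_mem hzQP
      exact hz1 ((Subgroup.mem_bot).mp (hd ▸ ⟨hzP, hzQ'⟩))
    have hPN : ∀ x ∈ P, x ∈ N := fun x hx => Subgroup.le_normalizer (hPS hx)
    have hQN : ∀ x ∈ Q, x ∈ N := fun x hx => Subgroup.le_normalizer (hQS hx)
    have hgu : g * u * g⁻¹ = u := by
      have hcommN : ∀ n ∈ N, n * (g * u * g⁻¹) = (g * u * g⁻¹) * n := by
        intro n hn
        have hn' : g⁻¹ * n * g ∈ N := by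
          have := (Subgroup.mem_normalizer_iff.mp (inv_mem hg) n).mp hn
          simpa using this
        have := mul_inv_eq_iff_eq_mul.mp (hu _ hn')
        calc n * (g * u * g⁻¹) = g * ((g⁻¹ * n * g) * u) * g⁻¹ := by group
          _ = g * (u * (g⁻¹ * n * g)) * g⁻¹ := by rw [this]
          _ = g * u * g⁻¹ * n := by group
      rcases hCZ _ (fun x hx => hcommN x (hPN x hx)) (fun x hx => hcommN x (hQN x hx)) with e | e | e | e
      · exact absurd (by simpa using e) hu1
      · exfalso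
        have := hcommN h hhN
        rw [e] at this
        exact hz₂ne (mul_inv_eq_iff_eq_mul.mpr this)
      · exfalso
        have := hcommN h hhN
        rw [e] at this
        exact hz₂ne (((mul_inv_eq_iff_eq_mul.mpr this).symm.trans hh2))
      · exact e
    have hzN : z ∈ N := hPN z hzP
    set w := g * z * g⁻¹ with hwdef
    have hwN : w ∈ N := (Subgroup.mem_normalizer_iff.mp hg z).mp hzN
    have hcomm : ∀ n ∈ N, n * w * n⁻¹ = w ∨ n * w * n⁻¹ = w * u := by
      intro n hn
      have hn' : g⁻¹ * n * g ∈ N := by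
        have := (Subgroup.mem_normalizer_iff.mp (inv_mem hg) n).mp hn
        simpa using this
      rcases hperm _ hn' with e | e
      · left
        rw [hwdef, show n * (g * z * g⁻¹) * n⁻¹ = g * ((g⁻¹ * n * g) * z * (g⁻¹ * n * g)⁻¹) * g⁻¹ by group, e]
      · right
        rw [hwdef, show n * (g * z * g⁻¹) * n⁻¹ = g * ((g⁻¹ * n * g) * z * (g⁻¹ * n * g)⁻¹) * g⁻¹ by group, e]
        conv_rhs => rw [← hgu]
        have hzz : z * z = 1 := by
          rcases hZel (z * z) (mul_mem hzZ hzZ) with e' | e'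
          · exact e'
          · exact absurd (mul_eq_left.mp e') hz1
        rw [show g * z * g⁻¹ * (g * u * g⁻¹) = g * ((z * z) * z₂) * g⁻¹ by rw [hudef]; group, hzz, one_mul]
    have huP : u ∉ P := fun hu' => by
      have : z₂ ∈ P := by
        have := P.mul_mem (P.inv_mem hzP) hu'
        simpa [hudef] using this
      exact hz₂1 ((Subgroup.mem_bot).mp (hd ▸ ⟨this, hzQP⟩))
    have huQ : u ∉ Q := fun hu' => by
      have : z ∈ Q := by
        have := Q.mul_mem hu' (Q.inv_mem hzQP)
        simpa [hudef] using this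
      exact hz1 ((Subgroup.mem_bot).mp (hd ▸ ⟨hzP, this⟩))
    by_cases hwS : w ∈ S₀
    · have key : ∀ R : Subgroup S, u ∉ R → R ≤ S₀ → S₀ ≤ Subgroup.normalizer (R : Set S) →
          ∀ x ∈ R, x * w = w * x := by
        intro R hu' hRS hRn x hx
        rcases hcomm x (Subgroup.le_normalizer (hRS hx)) with e | e
        · exact mul_inv_eq_iff_eq_mul.mp e
        · exfalso
          apply hu'
          have : u = (w⁻¹ * x * w) * x⁻¹ := by
            rw [show (w⁻¹ * x * w) * x⁻¹ = w⁻¹ * (x * w * x⁻¹) by group, e]; group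
          rw [this]
          refine R.mul_mem ?_ (R.inv_mem hx)
          have := (Subgroup.mem_normalizer_iff.mp (hRn (S₀.inv_mem hwS)) x).mp hx
          simpa using this
      rcases hCZ w (key P huP hPS hPn') (key Q huQ hQS hQn) with e | e | e | e
      · exact hz1 (by simpa [hwdef] using e)
      · exact hgN (Subgroup.le_normalizer ((hS₀' g).mpr (mul_inv_eq_iff_eq_mul.mp e).symm))
      · apply hgN
        have hg' : h⁻¹ * g ∈ S₀ := by
          rw [hS₀']
          have : (h⁻¹ * g) * z * (h⁻¹ * g)⁻¹ = z := by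
            rw [show (h⁻¹ * g) * z * (h⁻¹ * g)⁻¹ = h⁻¹ * (g * z * g⁻¹) * h by group, ← hwdef, e, hz₂def]
            group
          exact (mul_inv_eq_iff_eq_mul.mp this).symm
        simpa using N.mul_mem hhN (Subgroup.le_normalizer hg')
      · refine hz₂1 ((mul_eq_left (a := z)).mp ?_)
        have : g * z * g⁻¹ = g * u * g⁻¹ := by rw [hgu, ← hwdef, e]
        exact (mul_left_cancel (mul_right_cancel this)).symm
    · have hs : h⁻¹ * w ∈ S₀ := (hN2 w hwN).resolve_left hwS
      apply hP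
      have key : ∀ x ∈ P, x = 1 ∨ x = z := by
        intro x hx
        have hy : w * x * w⁻¹ ∈ Q := by
          refine ⟨(h⁻¹ * w) * x * (h⁻¹ * w)⁻¹, hPn _ hs x hx, ?_⟩
          show h * _ * h⁻¹ = _
          group
        rcases hcomm x (hPN x hx) with e | e
        · left
          have : w * x * w⁻¹ = x := mul_inv_eq_iff_eq_mul.mpr (mul_inv_eq_iff_eq_mul.mp e).symm
          exact (Subgroup.mem_bot).mp (hd ▸ ⟨hx, this ▸ hy⟩)
        · have hux : x * u = u * x := mul_inv_eq_iff_eq_mul.mp (hu x (hPN x hx))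
          have hxw : x * w = w * (x * u) := by
            calc x * w = w * u * x := mul_inv_eq_iff_eq_mul.mp e
              _ = w * (u * x) := mul_assoc _ _ _
              _ = w * (x * u) := by rw [hux]
          have hxeq : w * x * w⁻¹ = x * u⁻¹ := by
            have hwu : Commute w u := mul_inv_eq_iff_eq_mul.mp (hu w hwN)
            calc w * x * w⁻¹ = (w * (x * u)) * u⁻¹ * w⁻¹ := by group
              _ = (x * w) * u⁻¹ * w⁻¹ := by rw [hxw]
              _ = x * (w * u⁻¹) * w⁻¹ := by group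
              _ = x * (u⁻¹ * w) * w⁻¹ := by rw [hwu.inv_right.eq]
              _ = x * u⁻¹ := by group
          rw [hxeq, hudef, mul_inv_rev] at hy
          have hcomm2 : x * (z₂⁻¹ * z⁻¹) = (x * z⁻¹) * z₂⁻¹ := by
            rw [(hcz.symm.inv_inv).eq, mul_assoc]
          rw [hcomm2] at hy
          have hxz : x * z⁻¹ ∈ Q := by
            have := Q.mul_mem hy hzQP
            simpa [mul_assoc] using this
          right
          exact mul_inv_eq_one.mp ((Subgroup.mem_bot).mp (hd ▸ ⟨P.mul_mem hx (P.inv_mem hzP), hxz⟩))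
      refine ⟨⟨fun a b => Subtype.ext ?_⟩⟩
      show (a : S) * b = b * a
      rcases key a a.2 with ea | ea <;> rcases key b b.2 with eb | eb <;> rw [ea, eb] <;> simp
  refine ⟨?_, ?_⟩
  · intro H M _ A hA hA2
    let X₀ : Subgroup S := (A.comap (QuotientGroup.mk' M)).map H.subtype |>.map P.subtype
    let X₁ : Subgroup S := M.map H.subtype |>.map P.subtype
    have hX₁₀ : X₁ ≤ X₀ := by
      refine Subgroup.map_mono (Subgroup.map_mono fun m hm => ?_)
      show QuotientGroup.mk' M m ∈ A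
      rw [show QuotientGroup.mk' M m = 1 from (QuotientGroup.eq_one_iff m).mpr hm]
      exact one_mem _
    have hX₀P : X₀ ≤ P := Subgroup.map_subtype_le _
    have hrel : X₁.relIndex X₀ = Nat.card A := by
      rw [Subgroup.relIndex_map_map_of_injective _ _ P.subtype_injective,
        Subgroup.relIndex_map_map_of_injective _ _ H.subtype_injective]
      have e : M = (⊥ : Subgroup (↥H ⧸ M)).comap (QuotientGroup.mk' M) := by
        rw [MonoidHom.comap_bot, QuotientGroup.ker_mk']
      refine (congrArg (fun K : Subgroup ↥H => K.relIndex (A.comap (QuotientGroup.mk' M))) e).trans ?_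
      rw [Subgroup.relIndex_comap, Subgroup.map_comap_eq_self_of_surjective (QuotientGroup.mk'_surjective M),
        Subgroup.relIndex_bot_left]
    have hcX : ∀ x ∈ X₀, ∀ y ∈ Q, x * y = y * x := fun x hx y hy => hc x (hX₀P hx) y hy
    have hN' : X₁ ⊔ CfsgLib.Minimal.squares Q ≤ X₀ ⊔ Q := sup_le_sup hX₁₀ (CfsgLib.Minimal.squares_le Q)
    have hb := CfsgLib.Minimal.relIndex_le_of_squares hr hN' (fun x hx => by
      obtain ⟨a, ha, b, hb, rfl⟩ := CfsgLib.Minimal.mem_sup_of_commute hcX hx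
      rw [Commute.mul_mul_mul_comm (Commute.symm (hcX a ha b hb))]
      refine mul_mem (Subgroup.mem_sup_left ?_) (Subgroup.mem_sup_right (CfsgLib.Minimal.sq_mem_squares hb))
      obtain ⟨a', ⟨a'', ha'', rfl⟩, rfl⟩ := ha
      refine ⟨H.subtype a'' * H.subtype a'', ⟨a'' * a'', ?_, rfl⟩, rfl⟩
      have h3 := hA2 _ ha''
      rw [pow_two, ← map_mul] at h3
      exact (QuotientGroup.eq_one_iff _).mp h3)
    have hdX : X₀ ⊓ Q = ⊥ := le_bot_iff.mp ((inf_le_inf_right Q hX₀P).trans hd.le)
    have hdX1 : X₁ ⊓ CfsgLib.Minimal.squares Q = ⊥ :=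
      le_bot_iff.mp ((inf_le_inf hX₁₀ (CfsgLib.Minimal.squares_le Q)).trans hdX.le)
    have h1 := Subgroup.card_mul_index ((X₁ ⊔ CfsgLib.Minimal.squares Q).subgroupOf (X₀ ⊔ Q))
    rw [Nat.card_congr (Subgroup.subgroupOfEquivOfLe hN').toEquiv, CfsgLib.Minimal.card_sup_of_commute
      (fun x hx y hy => hcX x (hX₁₀ hx) y (CfsgLib.Minimal.squares_le Q hy)) hdX1,
      CfsgLib.Minimal.card_sup_of_commute hcX hdX] at h1
    have hp' := Subgroup.card_mul_index (X₁.subgroupOf X₀)
    rw [Nat.card_congr (Subgroup.subgroupOfEquivOfLe hX₁₀).toEquiv] at hp'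
    have hq' := Subgroup.card_mul_index ((CfsgLib.Minimal.squares Q).subgroupOf Q)
    rw [Nat.card_congr (Subgroup.subgroupOfEquivOfLe (CfsgLib.Minimal.squares_le Q)).toEquiv] at hq'
    rw [← hp', ← hq', mul_mul_mul_comm] at h1
    have h3 := Nat.eq_of_mul_eq_mul_left (Nat.mul_pos Nat.card_pos Nat.card_pos) h1
    change (X₁ ⊔ CfsgLib.Minimal.squares Q).relIndex (X₀ ⊔ Q) = X₁.relIndex X₀ * (CfsgLib.Minimal.squares Q).relIndex Q at h3
    rw [h3, hrel] at hb
    have h4 := CfsgLib.Minimal.four_le_relIndex_squares h2 hQ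
    nlinarith [Nat.zero_le (Nat.card A)]
  · rw [Subgroup.index_eq_two_iff]
    refine ⟨h, fun b => ?_⟩
    by_cases hb : b ∈ S₀
    · exact Or.inr ⟨hb, fun e => hhS (by simpa using S₀.mul_mem (S₀.inv_mem hb) e)⟩
    · refine Or.inl ⟨?_, hb⟩
      have hb' : b⁻¹ ∈ N := hNtop ▸ Subgroup.mem_top _
      rcases hN2 b⁻¹ hb' with e | e
      · exact absurd (inv_mem_iff.mp e) hb
      · have := S₀.inv_mem e
        simpa using this

end Cfsg.Agent.S4401
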