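import Cfsg.Statements.S4402
import Cfsg.Agent.Lib.TwoFusion.DihWreathRankFour

set_option autoImplicit false
open Cfsg

namespace Cfsg.Agent.S4402

/-- Let S be a finite 2-group of sectional 2-rank at most 4 and P a proper subgroup isomorphic to the wreath product of the dihedral group of order 8 by a group of order 2 (equivalently, to a Sylow 2-subgroup of the symmetric group of degree 8; order 128). Then Z(S) = Z(P) has order 2, P has index 2 in its normalizer N_S(P), N_S(P)/Z(S) is again isomorphic to that wreath product, and every elementary abelian subgroup V of order 16 that is normal in P satisfies N_S(V) = P. -/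
theorem result {S : Type*} [Group S] [Finite S] (h2 : IsPGroup 2 S) (hr : Cfsg.SectionalPRankLE 2 4 S)
    (P : Subgroup S) (hPlt : P ≠ ⊤) (hP : ∃ T : Sylow 2 (Equiv.Perm (Fin 8)), Nonempty (↥P ≃* ↥(T : Subgroup (Equiv.Perm (Fin 8))))) :
    Subgroup.center S = (Subgroup.center ↥P).map P.subtype ∧ Nat.card ↥(Subgroup.center S) = 2 ∧
    P.relIndex (Subgroup.normalizer (P : Set S)) = 2 ∧
    (∃ (_ : ((Subgroup.center S).subgroupOf (Subgroup.normalizer (P : Set S))).Normal) (T : Sylow 2 (Equiv.Perm (Fin 8))),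
      Nonempty (↥(Subgroup.normalizer (P : Set S)) ⧸ (Subgroup.center S).subgroupOf (Subgroup.normalizer (P : Set S)) ≃*
        ↥(T : Subgroup (Equiv.Perm (Fin 8))))) ∧
    ∀ V : Subgroup S, V ≤ P → (∀ g ∈ P, ∀ v ∈ V, g * v * g⁻¹ ∈ V) → Cfsg.IsElementaryAbelian 2 V → Nat.card ↥V = 16 →
      Subgroup.normalizer (V : Set S) = P := by
  classical
  obtain ⟨T, ⟨e⟩⟩ := hP
  obtain ⟨g⟩ := CfsgLib.TwoFusion.DihWr.sylow_perm_eight T
  let i : CfsgLib.TwoFusion.DihWr.W ≃* ↥P := g.trans e.symm
  let f : CfsgLib.TwoFusion.DihWr.W →* S := P.subtype.comp i.toMonoidHom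
  have hf : f.range = P := by
    refine le_antisymm (by rintro _ ⟨x, rfl⟩; exact (i x).2) fun x hx => ⟨i.symm ⟨x, hx⟩, ?_⟩
    show ((i (i.symm ⟨x, hx⟩) : ↥P) : S) = x
    rw [MulEquiv.apply_symm_apply]
  have hS : CfsgLib.TwoFusion.DihWr.Setting f :=
    ⟨Subtype.val_injective.comp i.injective, h2, hr⟩
  have hne : f.range ≠ ⊤ := by rw [hf]; exact hPlt
  obtain ⟨-, hcenter⟩ := CfsgLib.TwoFusion.DihWr.center_eq hS
  refine ⟨?_, ?_, ?_, ?_, ?_⟩
  · ext x
    rw [hcenter]
    constructor
    · intro hx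
      have hxc : x ∈ Subgroup.center S := (hcenter x).2 hx
      have hxP : x ∈ P := by
        rcases hx with rfl | rfl
        · exact one_mem P
        · exact (i _).2
      exact ⟨⟨x, hxP⟩, Subgroup.mem_center_iff.2 fun y =>
        Subtype.ext (Subgroup.mem_center_iff.1 hxc y), rfl⟩
    · rintro ⟨y, hy, rfl⟩
      obtain ⟨w, rfl⟩ := i.surjective y
      rcases (CfsgLib.TwoFusion.DihWr.center_iff w).1 (fun v => i.injective (by
        rw [map_mul, map_mul]; exact (Subgroup.mem_center_iff.1 hy (i v)).symm)) with rfl | rfl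
      · exact Or.inl (by simp)
      · exact Or.inr rfl
  · have hset : (Subgroup.center S : Set S) = {1, f CfsgLib.TwoFusion.DihWr.zc} := by
      ext x; simp [hcenter x]
    refine (Nat.card_coe_set_eq (Subgroup.center S : Set S)).trans ?_
    rw [hset, Set.ncard_pair]
    exact fun h => absurd (hS.inj (h.symm.trans (map_one f).symm)) (by decide +kernel)
  · rw [← hf]
    exact CfsgLib.TwoFusion.DihWr.relIndex_eq_two hS hne
  · have h := CfsgLib.TwoFusion.DihWr.normalizer_quotient hS hne
    rw [hf] at h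
    obtain ⟨hn, ⟨j⟩⟩ := h
    exact ⟨hn, T, ⟨j.symm.trans g⟩⟩
  · intro V hVP hn hV h16
    rw [← hf] at hVP hn ⊢
    haveI := hV.1
    exact CfsgLib.TwoFusion.DihWr.normalizer_normal_elementary hS V hVP hn
      (fun v hv => by rw [← pow_two]; exact hV.2 v hv)
      (fun v hv w hw => congrArg Subtype.val (mul_comm' (⟨v, hv⟩ : V) ⟨w, hw⟩)) h16

end Cfsg.Agent.S4402
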