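import Cfsg.Statements.S4403
import Cfsg.Agent.Lib.Cores.GenFitting
import Cfsg.Agent.Lib.Cores.MinimalNormal
import Cfsg.Agent.Lib.CoprimeAction.Basic

set_option autoImplicit false
open Cfsg

namespace Cfsg.Agent.S4403

open scoped Pointwise

section
variable {X : Type*} [Group X] [Finite X]

theorem relIndex_dvd_index_of_normal' (N Q : Subgroup X) [N.Normal] : Q.relIndex N ∣ Q.index := by
  have h1 := Subgroup.card_mul_index (N.subgroupOf (N ⊔ Q))
  rw [Nat.card_congr (Subgroup.subgroupOfEquivOfLe (le_sup_left : N ≤ N ⊔ Q)).toEquiv] at h1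
  change Nat.card N * N.relIndex (N ⊔ Q) = _ at h1
  rw [sup_comm, Subgroup.relIndex_sup_right] at h1
  have h2 := Subgroup.card_mul_index (Q.subgroupOf N)
  have h3 := Subgroup.card_mul_index (N.subgroupOf Q)
  have hcard : Nat.card (Q.subgroupOf N) = Nat.card (N.subgroupOf Q) := by
    rw [← Subgroup.card_map_of_injective N.subtype_injective, ← Subgroup.card_map_of_injective Q.subtype_injective,
      Subgroup.subgroupOf_map_subtype, Subgroup.subgroupOf_map_subtype, inf_comm]
  change _ * Q.relIndex N = _ at h2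
  change _ * N.relIndex Q = _ at h3
  have h4 : Nat.card (Q ⊔ N : Subgroup X) = Nat.card Q * Q.relIndex N := by
    rw [← h1, ← h2, ← h3, hcard]; ring
  have h5 := Subgroup.card_subgroup_dvd_card (Q ⊔ N)
  rw [h4, ← Q.card_mul_index] at h5
  exact (Nat.mul_dvd_mul_iff_left Nat.card_pos).mp h5

theorem cyclic_subgroup_eq {C : Type*} [Group C] [Finite C] [IsCyclic C] {H K : Subgroup C}
    (h : Nat.card H = Nat.card K) : H = K := by
  classical
  cases nonempty_fintype C
  have key : ∀ L : Subgroup C, (L : Set C).toFinset = Finset.univ.filter fun x : C => x ^ Nat.card L = 1 := by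
    intro L
    refine Finset.eq_of_subset_of_card_le (fun x hx => ?_) ?_
    · rw [Set.mem_toFinset] at hx
      exact Finset.mem_filter.mpr ⟨Finset.mem_univ _, congrArg Subtype.val (pow_card_eq_one' (x := (⟨x, hx⟩ : L)))⟩
    · refine (IsCyclic.card_pow_eq_one_le Nat.card_pos).trans (le_of_eq ?_)
      rw [Set.toFinset_card, ← Nat.card_eq_fintype_card]
      rfl
  exact SetLike.coe_injective (Set.toFinset_inj.mp ((key H).trans (h ▸ (key K).symm)))

/-- The intersection of a Sylow subgroup with a normal subgroup, as a Sylow subgroup of the latter. -/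
noncomputable def sylowInter (p : ℕ) [Fact p.Prime] (N : Subgroup X) [N.Normal] (P : Sylow p X) : Sylow p N :=
  IsPGroup.toSylow (P := (P : Subgroup X).subgroupOf N)
    (P.2.comap_of_injective N.subtype N.subtype_injective)
    (fun h => P.not_dvd_index (h.trans (relIndex_dvd_index_of_normal' N (P : Subgroup X))))

theorem sylowInter_coe (p : ℕ) [Fact p.Prime] (N : Subgroup X) [N.Normal] (P : Sylow p X) :
    ((sylowInter p N P : Sylow p N) : Subgroup N) = (P : Subgroup X).subgroupOf N := rfl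

theorem common_element' (p : ℕ) [Fact p.Prime] (P : Sylow p X) {N : Subgroup X} [N.Normal]
    (h : p ∣ Nat.card N) : ∃ u : X, u ≠ 1 ∧ u ∈ (P : Subgroup X) ∧ u ∈ N := by
  obtain ⟨x, hx⟩ := exists_prime_orderOf_dvd_card' (G := N) p h
  have hxX : orderOf (x : X) = p := by rw [Subgroup.orderOf_coe, hx]
  obtain ⟨Q, hQ⟩ := (IsPGroup.of_card (n := 1) (by rw [Nat.card_zpowers, hxX, pow_one]) :
    IsPGroup p (Subgroup.zpowers (x : X))).exists_le_sylow
  obtain ⟨g, rfl⟩ := MulAction.exists_smul_eq X P Q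
  have := hQ (Subgroup.mem_zpowers (x : X))
  rw [Sylow.coe_subgroup_smul, Subgroup.mem_pointwise_smul_iff_inv_smul_mem] at this
  refine ⟨g⁻¹ * x * g, ?_, ?_, ?_⟩
  · intro e
    have hx1 : (x : X) = 1 := by
      calc (x : X) = g * (g⁻¹ * x * g) * g⁻¹ := by group
        _ = 1 := by rw [e]; group
    rw [hx1, orderOf_one] at hxX
    exact (Fact.out : p.Prime).one_lt.ne hxX
  · simpa [MulAut.smul_def, MulAut.inv_def, mul_assoc] using this
  · simpa using (inferInstance : N.Normal).conj_mem _ x.2 g⁻¹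

/-- Two normal subgroups of order divisible by `p` share a nontrivial element of a cyclic Sylow `p`-subgroup. -/
theorem common_element (p : ℕ) [Fact p.Prime] (P : Sylow p X) (hP : IsCyclic (P : Subgroup X))
    {N M : Subgroup X} [N.Normal] [M.Normal] (hN : p ∣ Nat.card N) (hM : p ∣ Nat.card M) :
    ∃ u : X, u ≠ 1 ∧ u ∈ N ∧ u ∈ M := by
  obtain ⟨a, ha1, haP, haN⟩ := common_element' p P hN
  obtain ⟨b, hb1, hbP, hbM⟩ := common_element' p P hM
  obtain ⟨g, hg⟩ := hP.exists_generator
  obtain ⟨i, hi⟩ := IsPGroup.iff_orderOf.mp P.2 g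
  obtain ⟨A, hA, hAe⟩ := exists_order_p_mem p P haP ha1 haN
  obtain ⟨B, hB, hBe⟩ := exists_order_p_mem p P hbP hb1 hbM
  -- in a cyclic group all subgroups of order `p` coincide
  have hsub : Subgroup.zpowers A = Subgroup.zpowers B :=
    cyclic_subgroup_eq (C := (P : Subgroup X)) (by rw [Nat.card_zpowers, Nat.card_zpowers, hA, hB])
  refine ⟨A, ?_, hAe, ?_⟩
  · intro e
    rw [show A = 1 from Subtype.ext e, orderOf_one] at hA
    exact (Fact.out : p.Prime).one_lt.ne hA
  · obtain ⟨k, hk⟩ := Subgroup.mem_zpowers_iff.mp (hsub ▸ Subgroup.mem_zpowers A : A ∈ Subgroup.zpowers B)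
    rw [← hk]
    simpa using zpow_mem hBe k
where
  exists_order_p_mem (p : ℕ) [Fact p.Prime] (P : Sylow p X) {a : X} {N : Subgroup X}
      (haP : a ∈ (P : Subgroup X)) (ha1 : a ≠ 1) (haN : a ∈ N) :
      ∃ A : (P : Subgroup X), orderOf A = p ∧ (A : X) ∈ N := by
    obtain ⟨i, hi⟩ := IsPGroup.iff_orderOf.mp P.2 ⟨a, haP⟩
    cases i with
    | zero =>
      rw [pow_zero, orderOf_eq_one_iff] at hi
      exact absurd (congrArg Subtype.val hi) ha1
    | succ i =>
      refine ⟨⟨a, haP⟩ ^ p ^ i, ?_, by simpa using pow_mem haN (p ^ i)⟩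
      rw [orderOf_pow' _ (pow_ne_zero i (Fact.out : p.Prime).ne_zero), hi,
        Nat.gcd_eq_right (pow_dvd_pow p i.le_succ), pow_succ,
        Nat.mul_div_cancel_left _ (pow_pos (Fact.out : p.Prime).pos i)]

theorem pow_pPow_congr {p : ℕ} {k : ℤ} (hk : (p : ℤ) ∣ k - 1) (m : ℕ) :
    (p : ℤ) ^ (m + 1) ∣ k ^ p ^ m - 1 := by
  have := dvd_sub_pow_of_dvd_sub (R := ℤ) (p := p) hk m
  rwa [one_pow] at this

/-- An element normalising a cyclic Sylow subgroup and centralising a nontrivial element of it acts with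
`p`-power order. -/
theorem exists_pPow_centralizes (p : ℕ) [hp : Fact p.Prime] (P : Sylow p X) [hP : IsCyclic (P : Subgroup X)]
    (n : X) (hn : n ∈ Subgroup.normalizer ((P : Subgroup X) : Set X))
    (hu : ∃ u ∈ (P : Subgroup X), u ≠ 1 ∧ n * u * n⁻¹ = u) :
    ∃ e : ℕ, ∀ x ∈ (P : Subgroup X), n ^ p ^ e * x * (n ^ p ^ e)⁻¹ = x := by
  obtain ⟨g, hg⟩ := hP.exists_generator
  obtain ⟨u, huP, hu1, hnu⟩ := hu
  obtain ⟨k, hk⟩ := Subgroup.mem_zpowers_iff.mp (hg ⟨_, (Subgroup.mem_normalizer_iff.mp hn g).mp g.2⟩)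
  have hk' : (g : X) ^ k = n * g * n⁻¹ := by rw [← Subgroup.coe_zpow, hk]
  obtain ⟨m, hm⟩ := IsPGroup.iff_orderOf.mp P.2 g
  obtain ⟨i, hi⟩ := Subgroup.mem_zpowers_iff.mp (hg ⟨u, huP⟩)
  have hi' : (g : X) ^ i = u := by rw [← Subgroup.coe_zpow, hi]
  have hgm : orderOf (g : X) = p ^ m := by rw [Subgroup.orderOf_coe, hm]
  have hpk : (p : ℤ) ∣ k - 1 := by
    have h1 : (g : X) ^ (i * (k - 1)) = 1 := by
      have : (g : X) ^ (k * i) = (g : X) ^ i := by rw [zpow_mul, hk', conj_zpow, hi']; exact hnu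
      rw [mul_sub, mul_one, zpow_sub, mul_comm i k, this, mul_inv_cancel]
    rw [← orderOf_dvd_iff_zpow_eq_one, hgm] at h1
    by_contra hnd
    have hcop : IsCoprime ((p : ℤ) ^ m) (k - 1) :=
      IsCoprime.pow_left ((Nat.prime_iff_prime_int.mp hp.out).coprime_iff_not_dvd.mpr hnd)
    have : (orderOf (g : X) : ℤ) ∣ i := by
      rw [hgm]; push_cast at h1 ⊢; exact hcop.dvd_of_dvd_mul_right h1
    rw [orderOf_dvd_iff_zpow_eq_one, hi'] at this
    exact hu1 this
  refine ⟨m, fun x hx => ?_⟩
  have hconj : ∀ j : ℕ, n ^ j * (g : X) * (n ^ j)⁻¹ = (g : X) ^ (k ^ j) := by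
    intro j
    induction j with
    | zero => simp
    | succ j ih =>
      calc n ^ (j + 1) * (g : X) * (n ^ (j + 1))⁻¹ = n * (n ^ j * g * (n ^ j)⁻¹) * n⁻¹ := by
            rw [pow_succ']; group
        _ = (n * g * n⁻¹) ^ (k ^ j) := by rw [ih, conj_zpow]
        _ = (g : X) ^ (k ^ (j + 1)) := by rw [← hk', ← zpow_mul, pow_succ']
  obtain ⟨l, hl⟩ := Subgroup.mem_zpowers_iff.mp (hg ⟨x, hx⟩)
  have hl' : (g : X) ^ l = x := by rw [← Subgroup.coe_zpow, hl]
  rw [← hl', ← conj_zpow, hconj, ← zpow_mul]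
  rw [← sub_add_cancel (k ^ p ^ m * l) l, zpow_add]
  have : (g : X) ^ (k ^ p ^ m * l - l) = 1 := by
    rw [← orderOf_dvd_iff_zpow_eq_one, hgm, show k ^ p ^ m * l - l = (k ^ p ^ m - 1) * l by ring]
    refine Dvd.dvd.mul_right ?_ l
    push_cast
    exact (pow_dvd_pow _ m.le_succ).trans (pow_pPow_congr hpk m)
  rw [this, one_mul]

theorem normalizer_le_centralizer_of_pPow {p : ℕ} [hp : Fact p.Prime] (P : Sylow p X)
    [hPc : IsCyclic (P : Subgroup X)]
    (h : ∀ n ∈ Subgroup.normalizer ((P : Subgroup X) : Set X),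
      ∃ e : ℕ, ∀ x ∈ (P : Subgroup X), n ^ p ^ e * x * (n ^ p ^ e)⁻¹ = x) :
    Subgroup.normalizer ((P : Subgroup X) : Set X) ≤ Subgroup.centralizer ((P : Subgroup X) : Set X) := by
  intro n hn
  obtain ⟨e, he⟩ := h n hn
  -- split `n` into its `p`-part and `p'`-part
  obtain ⟨i, r, hr, hir⟩ := Nat.exists_eq_pow_mul_and_not_dvd (orderOf_pos n).ne' p hp.out.ne_one
  have hcop : Nat.Coprime (p ^ e) r := Nat.Coprime.pow_left e (hp.out.coprime_iff_not_dvd.mpr hr)
  have h1 : n ^ r ∈ Subgroup.centralizer ((P : Subgroup X) : Set X) := by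
    have hpr : IsPGroup p (Subgroup.zpowers (n ^ r)) := by
      refine IsPGroup.of_card (n := i) ?_
      have hr0 : r ≠ 0 := fun h => hr (h ▸ dvd_zero p)
      rw [Nat.card_zpowers, orderOf_pow' _ hr0, hir, Nat.gcd_eq_right (Dvd.intro_left _ rfl),
        Nat.mul_div_cancel _ (Nat.pos_of_ne_zero hr0)]
    have hmem : n ^ r ∈ (P : Subgroup X) := by
      have hle : Subgroup.zpowers (n ^ r) ⊔ (P : Subgroup X) = (P : Subgroup X) :=
        P.3 (hpr.to_sup_of_normal_right' P.2 (Subgroup.zpowers_le.mpr (pow_mem hn r))) le_sup_right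
      exact hle ▸ Subgroup.mem_sup_left (Subgroup.mem_zpowers _)
    rw [Subgroup.mem_centralizer_iff]
    intro y hy
    have := hPc.isMulCommutative
    exact congrArg Subtype.val (this.is_comm.comm ⟨y, hy⟩ ⟨_, hmem⟩)
  have h2 : n ^ p ^ e ∈ Subgroup.centralizer ((P : Subgroup X) : Set X) := by
    rw [Subgroup.mem_centralizer_iff]
    intro y hy
    exact (mul_inv_eq_iff_eq_mul.mp (he y hy)).symm
  have hb := Int.gcd_eq_gcd_ab (p ^ e : ℕ) (r : ℕ)
  rw [Int.gcd_natCast_natCast, hcop.gcd_eq_one] at hb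
  have : n = (n ^ p ^ e) ^ Int.gcdA (p ^ e : ℕ) r * (n ^ r) ^ Int.gcdB (p ^ e : ℕ) r := by
    rw [← zpow_natCast n (p ^ e), ← zpow_natCast n r, ← zpow_mul, ← zpow_mul, ← zpow_add]
    conv_lhs => rw [← zpow_one n]
    exact congrArg (n ^ ·) (by exact_mod_cast hb)
  rw [this]
  exact mul_mem (zpow_mem h2 _) (zpow_mem h1 _)

/-- An element normalising `P ∩ N` acts on it like an element normalising `P`. -/
theorem lift_pPow (p : ℕ) [hp : Fact p.Prime] (N : Subgroup X) [N.Normal] (P : Sylow p X)
    (hP : IsCyclic (P : Subgroup X)) (hlt : ¬ (P : Subgroup X) ≤ N) (a : N)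
    (ha : a ∈ Subgroup.normalizer ((sylowInter p N P : Subgroup N) : Set N)) :
    ∃ m : X, (∀ e : ℕ, (∀ x ∈ (P : Subgroup X), m ^ p ^ e * x * (m ^ p ^ e)⁻¹ = x) →
      ∀ x ∈ (sylowInter p N P : Subgroup N), ((a ^ p ^ e * x * (a ^ p ^ e)⁻¹ : N) : X) = x) ∧
      ∃ e : ℕ, ∀ x ∈ (P : Subgroup X), m ^ p ^ e * x * (m ^ p ^ e)⁻¹ = x := by
  set P1 : Subgroup X := (P : Subgroup X) ⊓ N with hP1
  have haP1 : ∀ x : X, x ∈ P1 ↔ (a : X) * x * (a : X)⁻¹ ∈ P1 := by
    intro x
    constructor
    · intro hx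
      exact ⟨((Subgroup.mem_normalizer_iff.mp ha ⟨x, hx.2⟩).mp hx.1 :), N.mul_mem (N.mul_mem a.2 hx.2) (N.inv_mem a.2)⟩
    · intro hx
      have hxN : x ∈ N := by
        have := N.mul_mem (N.mul_mem (N.inv_mem a.2) hx.2) a.2
        simpa [mul_assoc] using this
      exact ⟨(Subgroup.mem_normalizer_iff.mp ha ⟨x, hxN⟩).mpr hx.1, hxN⟩
  set U : Subgroup X := Subgroup.centralizer (P1 : Set X) ⊓ (N ⊔ (P : Subgroup X)) with hU
  have hPU : (P : Subgroup X) ≤ U := le_inf (fun x hx => Subgroup.mem_centralizer_iff.mpr fun y hy => by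
    have := hP.isMulCommutative
    exact congrArg Subtype.val (this.is_comm.comm ⟨y, hy.1⟩ ⟨x, hx⟩)) le_sup_right
  have hconjP : MulAut.conj (a : X) • (P : Subgroup X) ≤ U := by
    intro y hy
    rw [Subgroup.mem_pointwise_smul_iff_inv_smul_mem] at hy
    simp only [MulAut.smul_def, MulAut.inv_def, MulAut.conj_symm_apply] at hy
    refine ⟨Subgroup.mem_centralizer_iff.mpr fun z hz => ?_, ?_⟩
    · have hz' : (a : X)⁻¹ * z * a ∈ P1 := (haP1 _).mpr (by simpa [mul_assoc] using hz)
      have h := Subgroup.mem_centralizer_iff.mp (hPU hy).1 _ hz'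
      calc z * y = (a : X) * (((a : X)⁻¹ * z * a) * ((a : X)⁻¹ * y * a)) * (a : X)⁻¹ := by group
        _ = (a : X) * (((a : X)⁻¹ * y * a) * ((a : X)⁻¹ * z * a)) * (a : X)⁻¹ := by rw [h]
        _ = y * z := by group
    · have := mul_mem (mul_mem (Subgroup.mem_sup_left (T := (P : Subgroup X)) a.2) (Subgroup.mem_sup_right hy))
        (inv_mem (Subgroup.mem_sup_left (T := (P : Subgroup X)) a.2))
      simpa [mul_assoc] using this
  obtain ⟨c, hc⟩ := MulAction.exists_smul_eq U (P.subtype hPU) ((((a : X)) • P).subtype hconjP)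
  -- `m = c⁻¹ a` normalises `P` and acts as `a` on `P ∩ N`
  set m : X := (c : X)⁻¹ * a with hm
  have hmP : m ∈ Subgroup.normalizer ((P : Subgroup X) : Set X) := by
    rw [CfsgLib.CoprimeAction.conj_smul_eq_self.symm]
    refine Subgroup.eq_of_le_of_card_ge ?_ (le_of_eq (CfsgLib.CoprimeAction.card_conj_smul _ _).symm)
    intro y hy
    rw [CfsgLib.CoprimeAction.mem_conj_iff] at hy
    have hy' : (c : X) * y * (c : X)⁻¹ ∈ MulAut.conj (a : X) • (P : Subgroup X) := by
      rw [CfsgLib.CoprimeAction.mem_conj_iff]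
      simpa [hm, mul_assoc] using hy
    have hcy : (⟨(c : X) * y * (c : X)⁻¹, hconjP hy'⟩ : U) ∈ ((c • P.subtype hPU : Sylow p U) : Subgroup U) := by
      rw [hc]; exact hy'
    rw [Sylow.coe_subgroup_smul, Subgroup.mem_pointwise_smul_iff_inv_smul_mem] at hcy
    simp only [MulAut.smul_def, MulAut.inv_def, MulAut.conj_symm_apply] at hcy
    have : (c : X)⁻¹ * ((c : X) * y * (c : X)⁻¹) * c ∈ (P : Subgroup X) := hcy
    simpa [mul_assoc] using this
  have hmN : ∀ j : ℕ, ∀ z ∈ P1, m ^ j * z * (m ^ j)⁻¹ = (a : X) ^ j * z * ((a : X) ^ j)⁻¹ ∧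
      (a : X) ^ j * z * ((a : X) ^ j)⁻¹ ∈ P1 := by
    intro j
    induction j with
    | zero => intro z hz; simpa using hz
    | succ j ih =>
      intro z hz
      obtain ⟨e1, e2⟩ := ih z hz
      have e3 := (haP1 _).mp e2
      refine ⟨?_, by simpa [pow_succ', mul_assoc] using e3⟩
      calc m ^ (j + 1) * z * (m ^ (j + 1))⁻¹ = m * (m ^ j * z * (m ^ j)⁻¹) * m⁻¹ := by rw [pow_succ']; group
        _ = (c : X)⁻¹ * ((a : X) * ((a : X) ^ j * z * ((a : X) ^ j)⁻¹) * (a : X)⁻¹) * c := by
            rw [e1, hm]; group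
        _ = (a : X) * ((a : X) ^ j * z * ((a : X) ^ j)⁻¹) * (a : X)⁻¹ := by
            have hcz := Subgroup.mem_centralizer_iff.mp c.2.1 _ e3
            rw [mul_assoc, hcz, inv_mul_cancel_left]
        _ = (a : X) ^ (j + 1) * z * ((a : X) ^ (j + 1))⁻¹ := by rw [pow_succ']; group
  refine ⟨m, fun e he x hx => ?_, ?_⟩
  · have := (hmN (p ^ e) x ⟨hx, x.2⟩).1
    rw [he x hx] at this
    simpa using this.symm
  · -- `m` centralises `P / (P ∩ N)`
    obtain ⟨g, hg⟩ := hP.exists_generator
    obtain ⟨k, hk⟩ := Subgroup.mem_zpowers_iff.mp (hg ⟨_, (Subgroup.mem_normalizer_iff.mp hmP g).mp g.2⟩)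
    obtain ⟨i, hi⟩ := IsPGroup.iff_orderOf.mp P.2 g
    have hk' : (g : X) ^ k = m * g * m⁻¹ := by rw [← Subgroup.coe_zpow, hk]
    have hmX : m ∈ N ⊔ (P : Subgroup X) := mul_mem (inv_mem c.2.2) (Subgroup.mem_sup_left a.2)
    have hcomm : ∀ y ∈ N ⊔ (P : Subgroup X), y * g * y⁻¹ * (g : X)⁻¹ ∈ N := by
      intro y hy
      rw [← SetLike.mem_coe, Subgroup.normal_mul] at hy
      obtain ⟨n, hn, q, hq, rfl⟩ := hy
      have := hP.isMulCommutative
      have hqg : q * g * q⁻¹ = g :=
        mul_inv_eq_iff_eq_mul.mpr (congrArg Subtype.val (this.is_comm.comm ⟨q, hq⟩ g))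
      have : n * q * g * (n * q)⁻¹ * (g : X)⁻¹ = n * ((g : X) * n⁻¹ * (g : X)⁻¹) := by
        rw [show n * q * g * (n * q)⁻¹ = n * (q * g * q⁻¹) * n⁻¹ by group, hqg]; group
      show n * q * g * (n * q)⁻¹ * (g : X)⁻¹ ∈ N
      rw [this]
      exact N.mul_mem hn ((inferInstance : N.Normal).conj_mem _ (N.inv_mem hn) _)
    have hgk : (g : X) ^ (k - 1) ∈ N := by
      rw [zpow_sub_one, hk']; exact hcomm m hmX
    have hpk : (p : ℤ) ∣ k - 1 := by
      by_contra hnd
      apply hlt
      have hcop : IsCoprime ((p : ℤ) ^ i) (k - 1) :=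
        IsCoprime.pow_left ((Nat.prime_iff_prime_int.mp hp.out).coprime_iff_not_dvd.mpr hnd)
      obtain ⟨s, t, hst⟩ := hcop
      have hgN : (g : X) ∈ N := by
        rw [← zpow_one (g : X), ← hst, zpow_add]
        refine mul_mem ?_ (by rw [mul_comm, zpow_mul]; exact zpow_mem hgk t)
        rw [mul_comm, zpow_mul]
        have h1 : (g : X) ^ ((p : ℤ) ^ i) = 1 := by
          rw [← Nat.cast_pow, zpow_natCast, ← hi, ← Subgroup.coe_pow, pow_orderOf_eq_one]; rfl
        rw [h1, one_zpow]
        exact one_mem _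
      intro y hy
      obtain ⟨l, hl⟩ := Subgroup.mem_zpowers_iff.mp (hg ⟨y, hy⟩)
      have : y = (g : X) ^ l := by rw [← Subgroup.coe_zpow, hl]
      rw [this]; exact zpow_mem hgN l
    have hgi : orderOf (g : X) = p ^ i := by rw [Subgroup.orderOf_coe, hi]
    refine ⟨i, fun x hx => ?_⟩
    have hconj : ∀ j : ℕ, m ^ j * (g : X) * (m ^ j)⁻¹ = (g : X) ^ (k ^ j) := by
      intro j
      induction j with
      | zero => simp
      | succ j ih =>
        calc m ^ (j + 1) * (g : X) * (m ^ (j + 1))⁻¹ = m * (m ^ j * g * (m ^ j)⁻¹) * m⁻¹ := by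
              rw [pow_succ']; group
          _ = (m * g * m⁻¹) ^ (k ^ j) := by rw [ih, conj_zpow]
          _ = (g : X) ^ (k ^ (j + 1)) := by rw [← hk', ← zpow_mul, pow_succ']
    obtain ⟨l, hl⟩ := Subgroup.mem_zpowers_iff.mp (hg ⟨x, hx⟩)
    have hl' : (g : X) ^ l = x := by rw [← Subgroup.coe_zpow, hl]
    rw [← hl', ← conj_zpow, hconj, ← zpow_mul, ← sub_add_cancel (k ^ p ^ i * l) l, zpow_add]
    have : (g : X) ^ (k ^ p ^ i * l - l) = 1 := by
      rw [← orderOf_dvd_iff_zpow_eq_one, hgi, show k ^ p ^ i * l - l = (k ^ p ^ i - 1) * l by ring]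
      refine Dvd.dvd.mul_right ?_ l
      push_cast
      exact (pow_dvd_pow _ i.le_succ).trans (pow_pPow_congr hpk i)
    rw [this, one_mul]

end

/-- Let K be a finite group, p a prime dividing its order with O_{p'}(K) = 1 (no nontrivial normal subgroup of order prime to p), and P a cyclic Sylow p-subgroup of K. Then either P is normal and self-centralizing in K with K/P cyclic of order dividing p − 1 (so K is the semidirect product of P by a group of automorphisms of P of order dividing p − 1), or the generalized Fitting subgroup F*(K) is a non-abelian simple group and p does not divide the index of F*(K) in K. -/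
theorem result {K : Type*} [Group K] [Finite K] (p : ℕ) [Fact p.Prime] (hp : p ∣ Nat.card K) (hO : Cfsg.pPrimeCore p K = ⊥)
    (P : Sylow p K) (hP : IsCyclic ↥(P : Subgroup K)) :
    ((P : Subgroup K).Normal ∧ Subgroup.centralizer ((P : Subgroup K) : Set K) = (P : Subgroup K) ∧
      (∀ (_ : (P : Subgroup K).Normal), IsCyclic (K ⧸ (P : Subgroup K))) ∧ (P : Subgroup K).index ∣ p - 1) ∨
    (IsSimpleGroup ↥(Cfsg.generalizedFittingSubgroup K) ∧ ¬ IsMulCommutative ↥(Cfsg.generalizedFittingSubgroup K) ∧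
      ¬ p ∣ (Cfsg.generalizedFittingSubgroup K).index) := by
  classical
  have hpp := (Fact.out : p.Prime)
  have meet : ∀ N : Subgroup K, N.Normal → N ≠ ⊥ → p ∣ Nat.card N := by
    intro N hN hne
    haveI := hN
    by_contra h
    exact hne (le_bot_iff.mp (hO ▸ CfsgLib.Cores.le_pPrimeCore_of_not_dvd hpp h))
  have hKtop : (⊤ : Subgroup K) ≠ ⊥ := by
    intro h
    have h1 := Subgroup.card_top (G := K)
    rw [h, Subgroup.card_bot] at h1
    rw [← h1] at hp
    exact hpp.not_dvd_one hp
  obtain ⟨N, hNn, -, hNne, hNmin⟩ := CfsgLib.Cores.exists_minimal_normal_le (K := (⊤ : Subgroup K)) hKtop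
  haveI := hNn
  have hcore : ∀ M : Subgroup K, M.Normal → Cfsg.pPrimeCore p ↥M = ⊥ := fun M hM => by
    haveI := hM
    have h := CfsgLib.Cores.map_subtype_pPrimeCore_le (p := p) (N := M) hM.isSubnormal
    rw [hO, le_bot_iff, Subgroup.map_eq_bot_iff_of_injective _ M.subtype_injective] at h
    exact h
  have hle : ∀ M : Subgroup K, M.Normal → M ≠ ⊥ → N ≤ M := by
    intro M hM hMne
    haveI := hM
    obtain ⟨u, hu, huN, huM⟩ := common_element p P hP (meet N hNn hNne) (meet M hM hMne)
    rcases hNmin (N ⊓ M) inferInstance inf_le_left with h | h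
    · exact absurd (Subgroup.mem_bot.mp (h ▸ (⟨huN, huM⟩ : u ∈ N ⊓ M))) hu
    · exact inf_eq_left.mp h
  let PN : Subgroup K := (P : Subgroup K) ⊓ N
  have hPN : ∃ S : Sylow p N, (S : Subgroup N).map N.subtype = PN := by
    refine ⟨(sylowInter p N P), ?_⟩
    rw [sylowInter_coe, Subgroup.subgroupOf_map_subtype]
  by_cases hab : IsMulCommutative N
  · left
    -- `N` has order `p`
    obtain ⟨u, hu1, huP, huN⟩ := common_element' p P (meet N hNn hNne)
    obtain ⟨q, hq, hexp⟩ := CfsgLib.Cores.exists_prime_pow_eq_one_of_minimal_normal hNne hNmin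
    haveI := Fact.mk hq
    have hqp : q = p := by
      have h1 : orderOf u ∣ q := orderOf_dvd_of_pow_eq_one (hexp u huN)
      obtain ⟨j, hj⟩ := IsPGroup.iff_orderOf.mp P.2 ⟨u, huP⟩
      rw [Subgroup.orderOf_mk] at hj
      rcases (Nat.dvd_prime hq).mp h1 with h | h
      · exact absurd (orderOf_eq_one_iff.mp h) hu1
      · rw [hj] at h
        exact ((Nat.prime_dvd_prime_iff_eq hpp hq).mp (h ▸ dvd_pow_self p (fun j0 => by
          rw [j0, pow_zero] at h; exact hq.one_lt.ne h))).symm
    subst hqp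
    have hNP : N ≤ (P : Subgroup K) := by
      have hN : IsPGroup q N := fun x => ⟨1, Subtype.ext (by simpa using hexp x x.2)⟩
      obtain ⟨Q, hQ⟩ := hN.exists_le_sylow
      obtain ⟨g, rfl⟩ := MulAction.exists_smul_eq K P Q
      intro x hx
      have := hQ (hNn.conj_mem x hx g)
      rw [Sylow.coe_subgroup_smul, Subgroup.mem_pointwise_smul_iff_inv_smul_mem] at this
      simpa [MulAut.smul_def, MulAut.inv_def, mul_assoc] using this
    haveI hNc : IsCyclic N := by
      haveI := hP
      exact isCyclic_of_injective (Subgroup.inclusion hNP) (Subgroup.inclusion_injective hNP)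
    have hNcard : Nat.card N = q := by
      obtain ⟨g, hg⟩ := hNc.exists_generator
      have h1 : orderOf g = Nat.card N := orderOf_eq_card_of_forall_mem_zpowers hg
      have h2 : orderOf g ∣ q := orderOf_dvd_of_pow_eq_one (Subtype.ext (by simpa using hexp g g.2))
      rcases (Nat.dvd_prime hq).mp h2 with h | h
      · exact absurd (Subgroup.card_eq_one.mp (h1.symm.trans h)) hNne
      · exact h1.symm.trans h
    set C := Subgroup.centralizer (N : Set K) with hCdef
    have hPC : (P : Subgroup K) ≤ C := by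
      intro x hx
      rw [Subgroup.mem_centralizer_iff]
      intro y hy
      have := hP.isMulCommutative
      exact congrArg Subtype.val (this.is_comm.comm ⟨y, hNP hy⟩ ⟨x, hx⟩)
    haveI hCn : C.Normal := inferInstance
    have hCP : C = (P : Subgroup K) := by
      let PC : Sylow q C := P.subtype hPC
      haveI hPCc : IsCyclic (PC : Subgroup C) := by
        haveI := hP
        show IsCyclic ((P : Subgroup K).subgroupOf C)
        exact isCyclic_of_surjective _ (Subgroup.subgroupOfEquivOfLe hPC).symm.surjective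
      have hcent : Subgroup.normalizer ((PC : Subgroup C) : Set C) ≤
          Subgroup.centralizer ((PC : Subgroup C) : Set C) := by
        refine normalizer_le_centralizer_of_pPow PC fun n hn => ?_
        have huPC : (⟨u, hPC huP⟩ : C) ∈ (PC : Subgroup C) := huP
        refine exists_pPow_centralizes q PC n hn ⟨_, huPC, fun h => hu1 (congrArg Subtype.val h), ?_⟩
        exact Subtype.ext (mul_inv_eq_iff_eq_mul.mpr (Subgroup.mem_centralizer_iff.mp n.2 u huN).symm)
      have hc := MonoidHom.ker_transferSylow_isComplement' PC hcent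
      have hco : (Nat.card (MonoidHom.transferSylow PC hcent).ker).Coprime q :=
        (hq.coprime_iff_not_dvd.mpr (MonoidHom.not_dvd_card_ker_transferSylow PC hcent)).symm
      have hbot : (MonoidHom.transferSylow PC hcent).ker = ⊥ :=
        le_bot_iff.mp ((CfsgLib.Cores.le_pPrimeCore hco).trans (hcore C hCn).le)
      rw [hbot, Subgroup.isComplement'_bot_left] at hc
      refine le_antisymm (fun x hx => ?_) hPC
      have : (⟨x, hx⟩ : C) ∈ (PC : Subgroup C) := hc ▸ Subgroup.mem_top _
      exact this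
    have hPn : (P : Subgroup K).Normal := hCP ▸ hCn
    let φ : K →* MulAut N := MulAut.conjNormal
    have hker : φ.ker = (P : Subgroup K) := by
      rw [← hCP, hCdef]
      ext x
      rw [MonoidHom.mem_ker, Subgroup.mem_centralizer_iff]
      constructor
      · intro h y hy
        have := congrArg (fun e : MulAut N => (e ⟨y, hy⟩ : K)) h
        simp only [φ, MulAut.conjNormal_apply, MulAut.one_apply] at this
        exact (mul_inv_eq_iff_eq_mul.mp this).symm
      · intro h
        refine MulEquiv.ext fun y => Subtype.ext ?_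
        simp only [φ, MulAut.conjNormal_apply, MulAut.one_apply]
        rw [← h y y.2, mul_inv_cancel_right]
    refine ⟨hPn, ?_, fun h' => ?_, ?_⟩
    · refine le_antisymm ?_ ?_
      · intro x hx
        rw [← hCP]
        exact Subgroup.centralizer_le hNP hx
      · intro x hx
        rw [Subgroup.mem_centralizer_iff]
        intro y hy
        have := hP.isMulCommutative
        exact congrArg Subtype.val (this.is_comm.comm ⟨y, hy⟩ ⟨x, hx⟩)
    · haveI := h'
      haveI : IsCyclic (MulAut N) := by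
        haveI : IsCyclic (ZMod (Nat.card N))ˣ := by
          rw [hNcard]; infer_instance
        exact isCyclic_of_surjective _ (IsCyclic.mulAutMulEquiv N).symm.surjective
      haveI : φ.ker.Normal := inferInstance
      exact isCyclic_of_injective
        ((QuotientGroup.kerLift φ).comp (QuotientGroup.quotientMulEquivOfEq hker.symm).toMonoidHom)
        ((QuotientGroup.kerLift_injective φ).comp (MulEquiv.injective _))
    · have h1 := Subgroup.card_subgroup_dvd_card φ.range
      rw [← Subgroup.index_ker, hker, IsCyclic.card_mulAut, hNcard, Nat.totient_prime hq] at h1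
      exact h1
  · right
    haveI hsimple : IsSimpleGroup N := by
      haveI : Nontrivial N := (Subgroup.nontrivial_iff_ne_bot N).mpr hNne
      have meetN : ∀ R : Subgroup N, R.Normal → R ≠ ⊥ → p ∣ Nat.card R := by
        intro R hR hne
        haveI := hR
        by_contra h
        exact hne (le_bot_iff.mp ((hcore N hNn) ▸ CfsgLib.Cores.le_pPrimeCore_of_not_dvd hpp h))
      haveI hPNc : IsCyclic (sylowInter p N P : Subgroup N) := by
        haveI := hP
        refine isCyclic_of_injective ((N.subtype.comp (sylowInter p N P : Subgroup N).subtype).codRestrict (P : Subgroup K) fun x => ?_) ?_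
        · exact x.2
        · exact fun a b h => Subtype.ext (Subtype.ext (congrArg Subtype.val h :))
      have hNtop : (⊤ : Subgroup N) ≠ ⊥ := by
        rw [Ne, ← Subgroup.card_eq_one, Subgroup.card_top, Subgroup.card_eq_one]
        exact hNne
      obtain ⟨M, hMn, -, hMne, hMmin⟩ :=
        CfsgLib.Cores.exists_minimal_normal_le (K := (⊤ : Subgroup N)) hNtop
      haveI := hMn
      have hleN : ∀ R : Subgroup N, R.Normal → R ≠ ⊥ → M ≤ R := by
        intro R hR hne
        haveI := hR
        obtain ⟨v, hv, hvM, hvR⟩ := common_element p (sylowInter p N P) hPNc (meetN M hMn hMne) (meetN R hR hne)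
        rcases hMmin (M ⊓ R) inferInstance inf_le_left with h | h
        · exact absurd (Subgroup.mem_bot.mp (h ▸ (⟨hvM, hvR⟩ : v ∈ M ⊓ R))) hv
        · exact inf_eq_left.mp h
      haveI hchar : M.Characteristic := by
        rw [Subgroup.characteristic_iff_le_map]
        intro φ
        exact hleN _ (hMn.map _ φ.surjective) ((Subgroup.map_eq_bot_iff_of_injective _ φ.injective).not.mpr hMne)
      have hMtop : M = ⊤ := by
        rcases hNmin (M.map N.subtype) (CfsgLib.Cores.normal_map_subtype N M) (Subgroup.map_subtype_le M) with h | h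
        · exact absurd ((Subgroup.map_eq_bot_iff_of_injective _ N.subtype_injective).mp h) hMne
        · refine eq_top_iff.mpr fun x _ => ?_
          obtain ⟨y, hy, hyx⟩ := (h.symm ▸ x.2 : (x : K) ∈ M.map N.subtype)
          rwa [← Subtype.ext hyx]
      exact ⟨fun R hR => or_iff_not_imp_left.mpr fun hne => top_le_iff.mp (hMtop ▸ hleN R hR hne)⟩
    have hC : Subgroup.centralizer (N : Set K) = ⊥ := by
      by_contra hne
      refine hab ?_
      have := hle _ inferInstance hne
      exact Subgroup.le_centralizer_iff_isMulCommutative.mp this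
    have hFs : Cfsg.generalizedFittingSubgroup K = N := by
      have hFit : Cfsg.fittingSubgroup K = ⊥ := by
        by_contra hne
        have h1 := hle _ inferInstance hne
        have hnil := CfsgLib.Cores.isNilpotent_of_le (CfsgLib.Cores.isNilpotent_fittingSubgroup (G := K)) h1
        haveI := hnil
        exact hab (@IsSimpleGroup.comm_iff_isSolvable N _ _ |>.mpr inferInstance |> fun h => ⟨⟨h⟩⟩)
      have hcomp : Cfsg.IsComponent N :=
        ⟨hNn.isSubnormal, CfsgLib.Cores.isQuasisimple_of_isSimpleGroup hab⟩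
      rw [Cfsg.generalizedFittingSubgroup, hFit, sup_bot_eq]
      refine le_antisymm (CfsgLib.Cores.layer_le_iff.mpr fun L hL => ?_) (CfsgLib.Cores.le_layer hcomp)
      by_cases hLN : L = N
      · exact hLN.le
      · have := CfsgLib.Cores.le_centralizer_of_isComponent_ne hL hcomp hLN
        rw [hC, le_bot_iff] at this
        exact absurd this (CfsgLib.Cores.ne_bot_of_isComponent hL)
    rw [hFs]
    refine ⟨hsimple, hab, fun hidx => ?_⟩
    -- the Sylow subgroup of `N`
    set S := sylowInter p N P with hSdef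
    haveI hSc : IsCyclic (S : Subgroup N) := by
      haveI := hP
      refine isCyclic_of_injective ((N.subtype.comp (sylowInter p N P : Subgroup N).subtype).codRestrict (P : Subgroup K) fun x => ?_) ?_
      · exact x.2
      · exact fun a b h => Subtype.ext (Subtype.ext (congrArg Subtype.val h :))
    have hlt : ¬ (P : Subgroup K) ≤ N := fun h =>
      P.not_dvd_index (hidx.trans (Subgroup.index_dvd_of_le h))
    have hcent : Subgroup.normalizer ((S : Subgroup N) : Set N) ≤ Subgroup.centralizer ((S : Subgroup N) : Set N) := by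
      refine normalizer_le_centralizer_of_pPow S fun a ha => ?_
      obtain ⟨m, hmeq, e, he⟩ := lift_pPow p N P hP hlt a ha
      refine ⟨e, fun x hx => ?_⟩
      exact Subtype.ext (hmeq e he x hx)
    have hS1 : (S : Subgroup N) ≠ ⊥ := fun h => by
      have := S.not_dvd_index
      rw [h, Subgroup.index_bot] at this
      exact this (meet N hNn hNne)
    have hbot : (MonoidHom.transferSylow S hcent).ker = ⊥ := by
      rcases (inferInstance : (MonoidHom.transferSylow S hcent).ker.Normal).eq_bot_or_eq_top with h | h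
      · exact h
      · have hc := MonoidHom.ker_transferSylow_isComplement' S hcent
        rw [h, Subgroup.isComplement'_top_left] at hc
        exact absurd hc hS1
    have hc := MonoidHom.ker_transferSylow_isComplement' S hcent
    rw [hbot, Subgroup.isComplement'_bot_left] at hc
    apply hab
    have hScomm := hSc.isMulCommutative
    exact ⟨⟨fun x y => congrArg Subtype.val
      (hScomm.is_comm.comm ⟨x, hc ▸ Subgroup.mem_top x⟩ ⟨y, hc ▸ Subgroup.mem_top y⟩)⟩⟩

end Cfsg.Agent.S4403
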