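import Cfsg.Statements.S4404
import Cfsg.Agent.Lib.Minimal.FourSupport
import Cfsg.Agent.Lib.Hall.Existence
import Cfsg.Agent.Lib.BGAppendix.SmallRankAut
import Cfsg.Agent.Lib.Transfer.Critical
import Cfsg.Agent.Lib.NormalPComplement.Frobenius

set_option maxHeartbeats 1000000
set_option linter.style.haveILetI false

set_option autoImplicit false
open Cfsg

namespace Cfsg.Agent.S4404

/-- Let S be a finite solvable group and M a normal elementary abelian 2-subgroup of S. Suppose S contains an elementary abelian subgroup of order p³ for some odd prime p, and a cyclic 3-subgroup Q such that the cubes of the elements of Q centralize M and the commutator subgroup [Q, M] has order 4 (a four-group inside M). Then S contains an elementary abelian subgroup F of order r³, for some odd prime r, whose centralizer of [Q, M] in F — the subgroup C_F([Q, M]) — is not cyclic. -/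
theorem result {S : Type*} [Group S] [Finite S]
    [Group.IsSolvable S] (M : Subgroup S) [M.Normal] (hM : Cfsg.IsElementaryAbelian 2 M)
    (p : ℕ) (hp : p.Prime) (hp2 : p ≠ 2) (E : Subgroup S) (hE : Cfsg.IsElementaryAbelian p E) (hE3 : Nat.card ↥E = p ^ 3)
    (Q : Subgroup S) (hQc : IsCyclic ↥Q) (hQ3 : IsPGroup 3 ↥Q)
    (hQ1 : ∀ x ∈ Q, x ^ 3 ∈ Subgroup.centralizer (M : Set S)) (hQM : Nat.card ↥⁅Q, M⁆ = 4) :
    ∃ (r : ℕ) (F : Subgroup S), r.Prime ∧ r ≠ 2 ∧ Cfsg.IsElementaryAbelian r F ∧ Nat.card ↥F = r ^ 3 ∧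
      ¬ IsCyclic ↥(F ⊓ Subgroup.centralizer ((⁅Q, M⁆ : Subgroup S) : Set S)) := by
  classical
  haveI : Fact (Nat.Prime 3) := ⟨Nat.prime_three⟩
  haveI : Fact p.Prime := ⟨hp⟩
  haveI hMc : IsMulCommutative M := hM.1
  letI : CommGroup M := { (inferInstance : Group M) with mul_comm := fun a b => hMc.is_comm.comm a b }
  letI : Module (ZMod 2) (Additive M) := AddCommGroup.zmodModule (n := 2) fun x =>
    Additive.toMul.injective (Subtype.ext (hM.2 _ (Additive.toMul x).2))
  let ρ : S →* Module.End (ZMod 2) (Additive M) :=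
    { toFun := fun g => AddMonoidHom.toZModLinearMap 2
        (MonoidHom.toAdditive (MulAut.conjNormal g : MulAut M).toMonoidHom)
      map_one' := LinearMap.ext fun v => by
        show Additive.ofMul ((MulAut.conjNormal (1 : S) : MulAut M) (Additive.toMul v)) = v
        rw [map_one]; rfl
      map_mul' := fun g h => LinearMap.ext fun v => by
        show Additive.ofMul ((MulAut.conjNormal (g * h) : MulAut M) (Additive.toMul v)) =
          Additive.ofMul ((MulAut.conjNormal g : MulAut M) ((MulAut.conjNormal h : MulAut M) (Additive.toMul v)))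
        rw [map_mul]; rfl }
  let ι : Additive M → S := fun v => ((Additive.toMul v : M) : S)
  have hι : Function.Injective ι := fun a b h => Additive.toMul.injective (Subtype.ext h)
  have hιρ : ∀ g v, ι (ρ g v) = g * ι v * g⁻¹ := fun g v => MulAut.conjNormal_apply _ _
  have hιsub : ∀ u v, ι (u - v) = ι u * (ι v)⁻¹ := fun u v => by
    simp only [ι, toMul_sub, div_eq_mul_inv]; rfl
  obtain ⟨q, hq⟩ := (Subgroup.isCyclic_iff_exists_zpowers_eq_top Q).1 hQc
  have hqQ : q ∈ Q := hq ▸ Subgroup.mem_zpowers q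
  have hq3 : ρ (q ^ 3) = 1 := LinearMap.ext fun v => hι (by
    rw [hιρ, ← Subgroup.mem_centralizer_iff.1 (hQ1 q hqQ) (ι v) (Additive.toMul v).2,
      mul_inv_cancel_right]
    rfl)
  have hqodd : Odd (orderOf q) := by
    obtain ⟨i, hi⟩ := IsPGroup.iff_orderOf.1 hQ3 ⟨q, hqQ⟩
    rw [Subgroup.orderOf_mk] at hi
    rw [hi]; exact Odd.pow (by decide)
  set W := CfsgLib.Minimal.FourSupport.moved ρ q with hWdef
  let Wg : Subgroup S :=
    { carrier := ι '' (W : Set (Additive M))
      one_mem' := ⟨0, W.zero_mem, rfl⟩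
      mul_mem' := by
        rintro _ _ ⟨u, hu, rfl⟩ ⟨v, hv, rfl⟩
        exact ⟨u + v, W.add_mem hu hv, rfl⟩
      inv_mem' := by
        rintro _ ⟨u, hu, rfl⟩
        exact ⟨-u, W.neg_mem hu, rfl⟩ }
  have hcomm : ⁅Q, M⁆ = Wg := by
    refine le_antisymm (Subgroup.commutator_le.2 fun a ha m hm => ?_) ?_
    · obtain ⟨n, rfl⟩ := (mem_powers_iff_mem_zpowers).2 (hq ▸ ha : a ∈ Subgroup.zpowers q)
      refine ⟨ρ (q ^ n) (Additive.ofMul ⟨m, hm⟩) - Additive.ofMul ⟨m, hm⟩,
        CfsgLib.Minimal.FourSupport.moved_pow_le ρ q n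
          (CfsgLib.Minimal.FourSupport.sub_mem_moved ρ _ _), ?_⟩
      rw [hιsub, hιρ, commutatorElement_def]
      rfl
    · rintro _ ⟨_, ⟨v, rfl⟩, rfl⟩
      simp only [LinearMap.sub_apply, Module.End.one_apply]
      rw [hιsub, hιρ, ← commutatorElement_def]
      exact Subgroup.commutator_mem_commutator hqQ (Additive.toMul v).2
  have hW2 : Module.finrank (ZMod 2) W = 2 := by
    have h1 : Nat.card Wg = Nat.card W := by
      rw [show Nat.card Wg = (ι '' (W : Set (Additive M))).ncard from Nat.card_coe_set_eq _,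
        Set.ncard_image_of_injective _ hι, ← Nat.card_coe_set_eq]
      rfl
    rw [← hcomm, hQM, Module.natCard_eq_pow_finrank (K := ZMod 2) (V := W), Nat.card_zmod] at h1
    exact Nat.pow_right_injective le_rfl (a₁ := Module.finrank (ZMod 2) W) (a₂ := 2) (by simpa using h1.symm)
  -- conclusion from a fixing subgroup
  have finish : ∀ (r : ℕ) (F : Subgroup S), r.Prime → r ≠ 2 → Cfsg.IsElementaryAbelian r F →
      Nat.card F = r ^ 3 → ∀ N : Subgroup F, r ^ 2 ≤ Nat.card N →
      (∀ g ∈ N, ∀ v ∈ W, ρ (g : S) v = v) →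
      ∃ (r : ℕ) (F : Subgroup S), r.Prime ∧ r ≠ 2 ∧ Cfsg.IsElementaryAbelian r F ∧ Nat.card ↥F = r ^ 3 ∧
        ¬ IsCyclic ↥(F ⊓ Subgroup.centralizer ((⁅Q, M⁆ : Subgroup S) : Set S)) := by
    intro r F hr hr2 hF hF3 N hN hfix
    refine ⟨r, F, hr, hr2, hF, hF3, fun hcyc => ?_⟩
    have hle : N.map F.subtype ≤ F ⊓ Subgroup.centralizer ((⁅Q, M⁆ : Subgroup S) : Set S) := by
      rintro _ ⟨g, hg, rfl⟩
      refine ⟨g.2, Subgroup.mem_centralizer_iff.2 fun x hx => ?_⟩
      rw [SetLike.mem_coe, hcomm] at hx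
      obtain ⟨v, hv, rfl⟩ := hx
      have h := hιρ (g : S) v
      rw [hfix g hg v hv] at h
      exact mul_inv_eq_iff_eq_mul.1 h.symm |>.symm
    have h1 := Subgroup.card_le_of_le hle
    rw [Subgroup.card_map_of_injective F.subtype_injective] at h1
    obtain ⟨⟨c, hc⟩, hcgen⟩ := hcyc.exists_generator
    have h2 : Nat.card ↥(F ⊓ Subgroup.centralizer ((⁅Q, M⁆ : Subgroup S) : Set S)) = orderOf c := by
      rw [← Subgroup.orderOf_mk c hc]
      exact (orderOf_eq_card_of_forall_mem_zpowers hcgen).symm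
    have h3 : orderOf c ≤ r := orderOf_le_of_pow_eq_one hr.pos (hF.2 c hc.1)
    have : r * 2 ≤ r ^ 2 := by rw [pow_two]; exact Nat.mul_le_mul_left r hr.two_le
    have := hr.pos
    omega
  obtain ⟨T, hQT⟩ := hQ3.exists_le_sylow
  by_cases hrank : Cfsg.PRankLE 3 2 (T : Subgroup S)
  · -- all 3-subgroups have rank at most two
    have hall : ∀ A : Subgroup S, IsMulCommutative A → (∀ a ∈ A, a ^ 3 = 1) → Nat.card A ≤ 3 ^ 2 := by
      intro A hA hA3
      have hAp : IsPGroup 3 A := fun a => ⟨1, Subtype.ext (by simpa using hA3 a a.2)⟩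
      obtain ⟨R, hR⟩ := hAp.exists_le_sylow
      obtain ⟨y, hy⟩ := MulAction.exists_smul_eq S R T
      have hA' : A.map (MulAut.conj y).toMonoidHom ≤ (T : Subgroup S) := by
        rw [← hy]
        rintro _ ⟨a, ha, rfl⟩
        exact ⟨a, hR ha, rfl⟩
      rw [← Subgroup.card_map_of_injective (f := (MulAut.conj y).toMonoidHom) (MulAut.conj y).injective,
        ← Nat.card_congr (Subgroup.subgroupOfEquivOfLe hA').toEquiv]
      refine hrank _ ⟨⟨fun a b => Subtype.ext (Subtype.ext ?_)⟩⟩ fun a ha => Subtype.ext ?_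
      · have h := Subgroup.map_isMulCommutative A (MulAut.conj y).toMonoidHom
        have h2 := congrArg Subtype.val (h.is_comm.comm
          (⟨((a : (T : Subgroup S)) : S), Subgroup.mem_subgroupOf.1 a.2⟩ : A.map (MulAut.conj y).toMonoidHom)
          ⟨((b : (T : Subgroup S)) : S), Subgroup.mem_subgroupOf.1 b.2⟩)
        simp only [Subgroup.coe_mul] at h2 ⊢
        exact h2
      · obtain ⟨c, hc, hc'⟩ := ha
        show ((a : S)) ^ 3 = 1
        rw [show (a : S) = (MulAut.conj y) c from hc'.symm, ← map_pow, hA3 c hc, map_one]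
    have hp3 : p ≠ 3 := fun h => by
      subst h
      have := hall E hE.1 hE.2
      rw [hE3] at this
      norm_num at this
    have h5 : 5 ≤ p := by
      have := hp.two_le
      by_contra hlt
      interval_cases p
      · exact hp2 rfl
      · exact hp3 rfl
      · norm_num at hp
    set π : Set ℕ := {3, p} with hπ
    obtain ⟨H, hH, hQH⟩ := CfsgLib.Hall.exists_isPiHall_ge (π := π) (U := Q) (by
      intro r hr hrd
      obtain ⟨i, hi⟩ := IsPGroup.iff_card.1 hQ3
      rw [hi] at hrd
      exact Or.inl ((Nat.prime_dvd_prime_iff_eq hr Nat.prime_three).1 (hr.dvd_of_dvd_pow hrd)))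
    obtain ⟨y, hy⟩ := CfsgLib.Hall.exists_le_conj_isPiHall hH (U := E) (by
      intro r hr hrd
      rw [hE3] at hrd
      exact Or.inr ((Nat.prime_dvd_prime_iff_eq hr hp).1 (hr.dvd_of_dvd_pow hrd)))
    set E' := E.map (MulAut.conj y⁻¹).toMonoidHom with hE'
    have hE'H : E' ≤ H := by
      rintro _ ⟨e, he, rfl⟩
      obtain ⟨h, hh, he'⟩ := hy he
      rw [← he']
      simpa [mul_assoc] using hh
    -- `H` has a normal 3-complement
    have hN3 : Cfsg.HasNormalPComplement 3 H := by
      refine CfsgLib.NormalPComplement.hasNormalPComplement_of_frobeniusCondition fun X hX g hg hcop => ?_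
      set N := Subgroup.normalizer (X : Set H)
      let X' := X.subgroupOf N
      haveI : X'.Normal := Subgroup.normal_in_normalizer
      let ψ : N →* MulAut X' := MulAut.conjNormal
      let A := Subgroup.zpowers (ψ ⟨g, hg⟩)
      have hX' : IsPGroup 3 X' := hX.of_equiv (Subgroup.subgroupOfEquivOfLe Subgroup.le_normalizer).symm
      have hr' : Cfsg.PRankLE 3 2 X' := by
        intro B hB hB3
        let j : X' →* S := H.subtype.comp (N.subtype.comp X'.subtype)
        have hj : Function.Injective j :=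
          H.subtype_injective.comp (N.subtype_injective.comp X'.subtype_injective)
        rw [← Subgroup.card_map_of_injective (K := B) hj]
        refine hall _ (Subgroup.map_isMulCommutative _ _) ?_
        rintro _ ⟨b, hb, rfl⟩
        rw [← map_pow, hB3 b hb, map_one]
      have hA1 : Nat.card A = 1 := by
        by_contra hne
        obtain ⟨l, hl, hld⟩ := Nat.exists_prime_and_dvd hne
        have hlg : l ∣ orderOf g := by
          rw [Nat.card_zpowers] at hld
          have := hld.trans (orderOf_map_dvd ψ _)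
          rwa [Subgroup.orderOf_mk] at this
        have hl3 : l ≠ 3 := fun h => by
          subst h
          exact Nat.prime_three.not_dvd_one (hcop ▸ Nat.dvd_gcd hlg dvd_rfl)
        have hlp : l = p := (hH.1 l hl (hlg.trans (orderOf_dvd_natCard g))).resolve_left hl3
        rcases CfsgLib.BGAppendix.prime_dvd_of_rank_two (by norm_num : (3 : ℕ) ≠ 2) hX' hr'
            A.subtype A.subtype_injective hl hld with h | h | h
        · exact hl3 h
        · have := Nat.le_of_dvd (by norm_num) h; omega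
        · have := Nat.le_of_dvd (by norm_num) h; omega
      have h1 : ψ ⟨g, hg⟩ = 1 := by
        rw [Nat.card_zpowers] at hA1
        exact orderOf_eq_one_iff.1 hA1
      refine Subgroup.mem_centralizer_iff.2 fun x hx => ?_
      have h2 := congrArg Subtype.val (congrArg Subtype.val
        (DFunLike.congr_fun h1 (⟨⟨x, Subgroup.le_normalizer hx⟩, hx⟩ : X')))
      simp only [ψ, MulAut.conjNormal_apply, MulAut.one_apply, Subgroup.coe_mul,
        InvMemClass.coe_inv] at h2
      exact (mul_inv_eq_iff_eq_mul.1 h2).symm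
    set P := (Cfsg.pPrimeCore 3 H).map H.subtype with hPdef
    have hPp : IsPGroup p P := by
      rw [IsPGroup.iff_orderOf]
      rintro ⟨z, hz⟩
      rw [Subgroup.orderOf_mk]
      obtain ⟨x, hx, rfl⟩ := hz
      rw [Subgroup.coe_subtype, Subgroup.orderOf_coe]
      refine ⟨(orderOf x).primeFactorsList.length, Nat.eq_prime_pow_of_unique_prime_dvd (orderOf_pos x).ne' ?_⟩
      intro l hl hld
      refine (hH.1 l hl (hld.trans (orderOf_dvd_natCard x))).resolve_left fun h => ?_
      subst h
      exact CfsgLib.Cores.not_dvd_card_pPrimeCore (G := H) (p := 3)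
        (hld.trans (Subgroup.orderOf_dvd_natCard _ hx))
    have hqN : q ∈ Subgroup.normalizer (P : Set S) := by
      have hconj : ∀ h ∈ H, ∀ x ∈ P, h * x * h⁻¹ ∈ P := by
        rintro h hh _ ⟨x, hx, rfl⟩
        exact ⟨⟨h, hh⟩ * x * ⟨h, hh⟩⁻¹, (inferInstance : (Cfsg.pPrimeCore 3 H).Normal).conj_mem x hx _, rfl⟩
      rw [Subgroup.mem_normalizer_iff]
      intro x
      refine ⟨fun hx => hconj q (hQH hqQ) x hx, fun hx => ?_⟩
      have h := hconj q⁻¹ (H.inv_mem (hQH hqQ)) _ hx
      rwa [show q⁻¹ * (q * x * q⁻¹) * q⁻¹⁻¹ = x by group] at h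
    obtain ⟨U, hWU, hU3, hUinv⟩ :=
      CfsgLib.Minimal.FourSupport.exists_invariant ρ hPp h5 hqN hq3 hqodd hW2
    have hE'el : Cfsg.IsElementaryAbelian p E' := by
      refine ⟨?_, ?_⟩
      · haveI := hE.1
        exact Subgroup.map_isMulCommutative E _
      · rintro _ ⟨e, he, rfl⟩
        rw [← map_pow, hE.2 e he, map_one]
    have hE'3 : Nat.card E' = p ^ 3 := by
      rw [hE', Subgroup.card_map_of_injective (MulAut.conj y⁻¹).injective, hE3]
    have hE'P : E' ≤ P := by
      intro e he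
      refine ⟨⟨e, hE'H he⟩, CfsgLib.NormalPComplement.mem_pPrimeCore_of_coprime hN3 ?_, rfl⟩
      rw [Subgroup.orderOf_mk]
      refine Nat.Coprime.coprime_dvd_left (orderOf_dvd_of_pow_eq_one (hE'el.2 e he)) ?_
      exact (Nat.coprime_primes hp Nat.prime_three).2 hp3
    obtain ⟨N, hN, hfix⟩ := CfsgLib.Minimal.FourSupport.card_fix_ge ρ hE'3 U
      (fun g hg => hUinv g (hE'P hg)) (Or.inl ⟨by omega, h5⟩)
    exact finish p E' hp hp2 hE'el hE'3 N hN fun g hg v hv => hfix g hg v (hWU hv)
  · obtain ⟨A, hAn, hAc, hA3, hA27⟩ : ∃ A : Subgroup (T : Subgroup S), A.Normal ∧ IsMulCommutative A ∧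
        (∀ a ∈ A, a ^ 3 = 1) ∧ Nat.card A = 3 ^ 3 := by
      by_contra hno
      push Not at hno
      refine hrank fun B hB hB3 => ?_
      exact CfsgLib.Transfer.card_le_sq_of_no_normal_rank_three (by norm_num) T.isPGroup' hno B ⟨hB, hB3⟩
    set F := A.map (T : Subgroup S).subtype with hFdef
    have hFel : Cfsg.IsElementaryAbelian 3 F := by
      refine ⟨?_, ?_⟩
      · haveI := hAc
        exact Subgroup.map_isMulCommutative A _
      · rintro _ ⟨a, ha, rfl⟩
        rw [← map_pow, hA3 a ha, map_one]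
    have hF3 : Nat.card F = 3 ^ 3 := by
      rw [hFdef, Subgroup.card_map_of_injective (T : Subgroup S).subtype_injective, hA27]
    have hinv : ∀ g ∈ F, ∀ v ∈ W, ρ g v ∈ W := by
      intro e he v hv
      have heT : e ∈ (T : Subgroup S) := Subgroup.map_subtype_le _ he
      have hc : Commute e (e * q * e⁻¹ * q⁻¹) := by
        obtain ⟨a, ha, rfl⟩ := he
        have h1 : a * ((⟨q, hQT hqQ⟩ : (T : Subgroup S)) * a⁻¹ * (⟨q, hQT hqQ⟩ : (T : Subgroup S))⁻¹) ∈ A :=
          A.mul_mem ha (hAn.conj_mem _ (A.inv_mem ha) _)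
        have h2 := congrArg (fun z : A => ((z : (T : Subgroup S)) : S))
          (hAc.is_comm.comm ⟨a, ha⟩ ⟨_, h1⟩)
        simp only [Subgroup.coe_mul, InvMemClass.coe_inv] at h2
        rw [Subgroup.coe_subtype]
        show _ * _ = _ * _
        simpa [mul_assoc] using h2
      rw [hWdef, ← CfsgLib.Minimal.FourSupport.map_moved_eq ρ T.isPGroup' (hQT hqQ) heT hW2
        (hFel.2 e he) hc]
      exact ⟨v, hv, rfl⟩
    obtain ⟨N, hN, hfix⟩ := CfsgLib.Minimal.FourSupport.card_fix_ge ρ hF3 W hinv (Or.inr ⟨hW2, rfl⟩)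
    exact finish 3 F Nat.prime_three (by norm_num) hFel hF3 N hN hfix

end Cfsg.Agent.S4404
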