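import Cfsg.Statements.S4405
import Cfsg.Agent.Lib.Fischer2.LargeExtraspecial
import Cfsg.Agent.Lib.Minimal.CentralPairs
import Cfsg.Agent.Lib.Cores.Fitting

set_option autoImplicit false
set_option linter.style.haveILetI false
open Cfsg

namespace Cfsg.Agent.S4405

theorem elementary_of {G : Type*} [Group G] {A : Subgroup G}
    (hc : ∀ x ∈ A, ∀ y ∈ A, x * y = y * x) (h2 : ∀ x ∈ A, x * x = 1) :
    Cfsg.IsElementaryAbelian 2 A :=
  ⟨⟨⟨fun x y => Subtype.ext (hc x x.2 y y.2)⟩⟩, fun a ha => by rw [pow_two]; exact h2 a ha⟩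

theorem pow_conj_fix {Q : Type*} [Group Q] {v h k : Q} (hk : v * k = k * v)
    (hvh : v * h * v⁻¹ = h * k) : ∀ n : ℕ, v ^ n * h * (v ^ n)⁻¹ = h * k ^ n
  | 0 => by simp
  | n + 1 => by
    have ih := pow_conj_fix hk hvh n
    have hkn : v * k ^ n * v⁻¹ = k ^ n := by
      rw [((show Commute v k from hk).pow_right n).eq, mul_inv_cancel_right]
    calc v ^ (n + 1) * h * (v ^ (n + 1))⁻¹ = v * (v ^ n * h * (v ^ n)⁻¹) * v⁻¹ := by
          rw [pow_succ']; group
      _ = (v * h * v⁻¹) * (v * k ^ n * v⁻¹) := by rw [ih]; group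
      _ = h * k ^ (n + 1) := by rw [hvh, hkn, pow_succ', mul_assoc]

/-- An element of order dividing five centralising a subgroup of index at most four in an
elementary abelian group it normalises centralises all of it. -/
theorem commute_of_large {Q : Type*} [Group Q] [Finite Q] (M K : Subgroup Q) (u : Q)
    (hu : u ^ 5 = 1) (hM2 : ∀ x ∈ M, x * x = 1)
    (hKM : K ≤ M) (hKu : ∀ k ∈ K, u * k = k * u) (hidx : Nat.card M ≤ 4 * Nat.card K)
    (hinv : ∀ x ∈ M, u * x * u⁻¹ ∈ M) (h : Q) (hh : h ∈ M) : u * h = h * u := by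
  classical
  have hpow : ∀ i : ℕ, u ^ i * h * (u ^ i)⁻¹ ∈ M := by
    intro i
    induction i with
    | zero => simpa using hh
    | succ i ih =>
      have := hinv _ ih
      rwa [show u * (u ^ i * h * (u ^ i)⁻¹) * u⁻¹ = u ^ (i + 1) * h * (u ^ (i + 1))⁻¹ by
        rw [pow_succ']; group] at this
  let f : Fin 5 → M ⧸ K.subgroupOf M := fun i => QuotientGroup.mk ⟨_, hpow i⟩
  have hq : Nat.card (M ⧸ K.subgroupOf M) ≤ 4 := by
    have := (K.subgroupOf M).index_mul_card
    rw [Subgroup.index_eq_card,
      Nat.card_congr (Subgroup.subgroupOfEquivOfLe hKM).toEquiv] at this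
    exact Nat.le_of_mul_le_mul_right (by rw [this]; exact hidx) Nat.card_pos
  obtain ⟨i, j, hij, hfij⟩ : ∃ i j : Fin 5, i < j ∧ f i = f j := by
    by_contra hne
    push Not at hne
    have := Nat.card_le_card_of_injective f (fun i j hf => by
      rcases lt_trichotomy i j with h | h | h
      · exact absurd hf (hne i j h)
      · exact h
      · exact absurd hf.symm (hne j i h))
    simp at this
    omega
  have hmem := (QuotientGroup.eq.1 hfij)
  rw [Subgroup.mem_subgroupOf] at hmem
  set m : ℕ := j.val - i.val with hm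
  have hm5 : 0 < m ∧ m < 5 := by
    have := j.2
    have : i.val < j.val := hij
    omega
  set v := u ^ m with hv
  have hjm : u ^ (j : ℕ) = u ^ (i : ℕ) * v := by
    rw [hv, ← pow_add]; congr 1; omega
  have hk : h⁻¹ * (v * h * v⁻¹) ∈ K := by
    set a := u ^ (i : ℕ) with ha
    have h1 : (a * h * a⁻¹)⁻¹ * (u ^ (j : ℕ) * h * (u ^ (j : ℕ))⁻¹) =
        a * (h⁻¹ * (v * h * v⁻¹)) * a⁻¹ := by rw [hjm]; group
    have hmem' : (a * h * a⁻¹)⁻¹ * (u ^ (j : ℕ) * h * (u ^ (j : ℕ))⁻¹) ∈ K := hmem
    rw [h1] at hmem'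
    set k' := a * (h⁻¹ * (v * h * v⁻¹)) * a⁻¹ with hk'
    have hc : a * k' = k' * a := (Commute.pow_left (hKu k' hmem') _)
    have : h⁻¹ * (v * h * v⁻¹) = k' := by
      calc h⁻¹ * (v * h * v⁻¹) = a⁻¹ * (k' * a) := by rw [hk']; group
        _ = k' := by rw [← hc]; group
    rw [this]; exact hmem'
  set k := h⁻¹ * (v * h * v⁻¹) with hkdef
  have hvk : v * k = k * v := Commute.pow_left (hKu k hk) m
  have h5 := pow_conj_fix hvk (h := h) (by rw [hkdef]; group) 5
  rw [show v ^ 5 = 1 by rw [hv, ← pow_mul, mul_comm, pow_mul, hu, one_pow], one_mul, inv_one,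
    mul_one, left_eq_mul] at h5
  have hk1 : k = 1 := by
    rw [show k ^ 5 = k * k * (k * k) * k by simp only [pow_succ, pow_zero, one_mul, mul_assoc], hM2 k (hKM hk), one_mul, one_mul] at h5
    exact h5
  rw [hkdef, inv_mul_eq_one, eq_comm, mul_inv_eq_iff_eq_mul] at hk1
  -- `u` is a power of `v`
  obtain ⟨n, hn⟩ : ∃ n : ℕ, m * n % 5 = 1 := by
    have := hm5
    rcases (show m = 1 ∨ m = 2 ∨ m = 3 ∨ m = 4 by omega) with h | h | h | h <;> rw [h]
    exacts [⟨1, rfl⟩, ⟨3, rfl⟩, ⟨2, rfl⟩, ⟨4, rfl⟩]
  have huv : v ^ n = u := by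
    rw [hv, ← pow_mul, ← Nat.mod_add_div (m * n) 5, hn, pow_add, pow_mul, hu, one_pow, mul_one,
      pow_one]
  rw [← huv]
  exact (Commute.pow_left (show Commute v h from hk1) n).eq

/-- Let G be a finite group of order 320 = 64·5 whose largest normal 2-subgroup H = O₂(G) equals the Fitting subgroup F(G) and is extraspecial of order 32 containing no elementary abelian subgroup of order 8 (so H is the central product of a quaternion group and a dihedral group of order 8). If T is an involution of G outside H whose centralizer in H contains an elementary abelian subgroup of order 4, then C_H(T) itself is elementary abelian of order 4. -/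
theorem result {G : Type*} [Group G] [Finite G]
    (hG : Nat.card G = 320) (hHF : Cfsg.pCore 2 G = Cfsg.fittingSubgroup G)
    (hex : Cfsg.IsExtraspecial 2 ↥(Cfsg.pCore 2 G)) (h32 : Nat.card ↥(Cfsg.pCore 2 G) = 32)
    (hminus : ∀ A : Subgroup G, A ≤ Cfsg.pCore 2 G → Cfsg.IsElementaryAbelian 2 A → Nat.card ↥A ≤ 4)
    (T : G) (hT : orderOf T = 2) (hTH : T ∉ Cfsg.pCore 2 G)
    (V : Subgroup G) (hV : V ≤ Cfsg.pCore 2 G ⊓ Subgroup.centralizer ({T} : Set G)) (hV4 : Nat.card ↥V = 4) (hVe : Cfsg.IsElementaryAbelian 2 V) :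
    Nat.card ↥(Cfsg.pCore 2 G ⊓ Subgroup.centralizer ({T} : Set G)) = 4 ∧
      Cfsg.IsElementaryAbelian 2 (Cfsg.pCore 2 G ⊓ Subgroup.centralizer ({T} : Set G)) := by
  haveI : Fact (Nat.Prime 2) := ⟨Nat.prime_two⟩
  haveI : Fact (Nat.Prime 5) := ⟨by norm_num⟩
  set H := Cfsg.pCore 2 G with hH
  haveI hHn : H.Normal := inferInstance
  set Z := (Subgroup.center H).map H.subtype with hZ
  haveI hZn : Z.Normal := ConjAct.normal_of_characteristic_of_normal
  have hZ2 : Nat.card Z = 2 := CfsgLib.Fischer2.IsExtraspecial.card_centerImage hex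
  have hZH : Z ≤ H := Subgroup.map_subtype_le _
  have hZc : ∀ z ∈ Z, ∀ g : G, g * z = z * g := by
    intro z hz g
    by_cases hz1 : z = 1
    · simp [hz1]
    rcases CfsgLib.Fischer2.eq_one_or_eq_of_card_two hZ2 hz hz1 (hZn.conj_mem z hz g) with h | h
    · exact absurd (conj_eq_one_iff.1 h) hz1
    · exact mul_inv_eq_iff_eq_mul.1 h
  have hZsq : ∀ z ∈ Z, z * z = 1 := fun z hz => by
    have := Z.orderOf_dvd_natCard hz
    rw [hZ2, orderOf_dvd_iff_pow_eq_one, pow_two] at this
    exact this
  set π := QuotientGroup.mk' Z with hπ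
  have hπ1 : ∀ g, π g = 1 ↔ g ∈ Z := fun g => QuotientGroup.eq_one_iff g
  have hsq : ∀ a ∈ H, π a * π a = 1 := fun a ha => by
    rw [← map_mul, hπ1, ← pow_two]
    exact CfsgLib.Fischer2.IsExtraspecial.sq_mem hex ha
  have hcomm : ∀ a ∈ H, ∀ b ∈ H, π a * π b = π b * π a := fun a ha b hb => by
    have := (hπ1 _).2 (CfsgLib.Fischer2.IsExtraspecial.commutator_mem hex ha hb)
    simp only [map_mul, map_inv] at this
    rw [← mul_inv_eq_one, mul_inv_rev, ← mul_assoc]
    exact this
  have hTT : T * T = 1 := by rw [← pow_two, ← hT, pow_orderOf_eq_one]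
  have hTi : T⁻¹ = T := inv_eq_of_mul_eq_one_right hTT
  set W := H ⊓ (Subgroup.centralizer ({π T} : Set (G ⧸ Z))).comap π with hW
  have hWmem : ∀ h, h ∈ W ↔ h ∈ H ∧ π h * π T = π T * π h := fun h => by
    simp [hW, Subgroup.mem_inf, Subgroup.mem_centralizer_singleton_iff]
  -- the fixed points of `T` on `H/Z` form a subgroup of order at most eight
  have hW8 : Nat.card W ≤ 8 := by
    by_contra hW8
    push Not at hW8
    have hW16 : 16 ≤ Nat.card W := by
      have hd : Nat.card W ∣ 2 ^ 5 := by
        rw [show (2:ℕ)^5 = 32 from rfl, ← h32]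
        exact Subgroup.card_dvd_of_le inf_le_left
      obtain ⟨k, hk, hk'⟩ := (Nat.dvd_prime_pow Nat.prime_two).1 hd
      rw [hk'] at hW8 ⊢
      interval_cases k <;> omega
    set q := QuotientGroup.mk' H with hq
    have hq1 : ∀ g, q g = 1 ↔ g ∈ H := fun g => QuotientGroup.eq_one_iff g
    have hq10 : Nat.card (G ⧸ H) = 10 := by
      have := Subgroup.card_eq_card_quotient_mul_card_subgroup H
      rw [hG, h32] at this
      omega
    set a := q T with ha
    have ha1 : a ≠ 1 := fun h => hTH ((hq1 T).1 h)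
    have ha2 : a * a = 1 := by rw [ha, ← map_mul, hTT, map_one]
    obtain ⟨x, hx⟩ : ∃ x : G, q x * a * (q x)⁻¹ ≠ a := by
      by_contra hall
      push Not at hall
      haveI hn : (Subgroup.zpowers a).Normal := by
        constructor
        intro y hy g
        obtain ⟨g, rfl⟩ := QuotientGroup.mk'_surjective H g
        obtain ⟨i, rfl⟩ := Subgroup.mem_zpowers_iff.1 hy
        rw [← conj_zpow, hall g]
        exact Subgroup.zpow_mem_zpowers a i
      have h2 : IsPGroup 2 ((Subgroup.zpowers a).comap q) := by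
        intro g
        obtain ⟨i, hi⟩ := Subgroup.mem_zpowers_iff.1 g.2
        have hg2 : (g : G) ^ 2 ∈ H := by
          rw [← hq1, map_pow, ← hi, pow_two, ← zpow_add, ← two_mul, zpow_mul, zpow_two, ha2,
            one_zpow]
        obtain ⟨k, hk⟩ := hex.1.1 ⟨_, hg2⟩
        refine ⟨k + 1, Subtype.ext ?_⟩
        have := congrArg Subtype.val hk
        simp only [SubmonoidClass.coe_pow, OneMemClass.coe_one] at this ⊢
        rwa [pow_succ', pow_mul]
      exact hTH (CfsgLib.Cores.le_pCore h2 (Subgroup.mem_zpowers a : q T ∈ Subgroup.zpowers a))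
    set b := q x * a * (q x)⁻¹ with hb
    have hb2 : b * b = 1 := by
      calc b * b = q x * (a * a) * (q x)⁻¹ := by rw [hb]; group
        _ = 1 := by rw [ha2]; group
    have hb1 : b ≠ 1 := fun h => ha1 (conj_eq_one_iff.1 h)
    have hab : a * b ≠ b * a := by
      intro h
      have hd : Subgroup.zpowers a ⊓ Subgroup.zpowers b = ⊥ := by
        rw [eq_bot_iff]
        rintro y ⟨hy1, hy2⟩
        have two : ∀ c : G ⧸ H, c * c = 1 → ∀ y ∈ Subgroup.zpowers c, y = 1 ∨ y = c := by
          intro c hc y hy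
          obtain ⟨i, rfl⟩ := Subgroup.mem_zpowers_iff.1 hy
          rcases Int.even_or_odd' i with ⟨j, rfl | rfl⟩
          · left; rw [zpow_mul, zpow_two, hc, one_zpow]
          · right; rw [zpow_add, zpow_mul, zpow_two, hc, one_zpow, one_mul, zpow_one]
        rcases two a ha2 y hy1 with h1 | h1
        · exact h1
        · rcases two b hb2 y hy2 with h3 | h3
          · exact h3
          · exact absurd (h3.symm.trans h1) hx
      have h4 := CfsgLib.Minimal.card_sup_of_commute (fun y hy z hz => by
        obtain ⟨i, rfl⟩ := Subgroup.mem_zpowers_iff.1 hy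
        obtain ⟨j, rfl⟩ := Subgroup.mem_zpowers_iff.1 hz
        exact ((show Commute a b from h).zpow_zpow i j).eq) hd
      rw [Nat.card_zpowers, Nat.card_zpowers, orderOf_eq_prime (p := 2) (by rw [pow_two, ha2]) ha1,
        orderOf_eq_prime (p := 2) (by rw [pow_two, hb2]) hb1] at h4
      have := Subgroup.card_subgroup_dvd_card (Subgroup.zpowers a ⊔ Subgroup.zpowers b)
      rw [h4, hq10] at this
      omega
    have hab5 : orderOf (a * b) = 5 := by
      have hd : orderOf (a * b) ∣ 10 := hq10 ▸ orderOf_dvd_natCard _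
      have hle := Nat.le_of_dvd (by norm_num) hd
      have hne1 : orderOf (a * b) ≠ 1 := fun h => hab (by
        have h1 := orderOf_eq_one_iff.1 h
        rw [h1, mul_eq_one_iff_eq_inv.1 h1, inv_eq_of_mul_eq_one_right hb2, hb2])
      have hne2 : orderOf (a * b) ≠ 2 := fun h => hab (by
        have h1 := pow_orderOf_eq_one (a * b)
        rw [h, pow_two] at h1
        calc a * b = (a * b)⁻¹ := eq_inv_of_mul_eq_one_left h1
          _ = b * a := by
            rw [mul_inv_rev, inv_eq_of_mul_eq_one_right ha2, inv_eq_of_mul_eq_one_right hb2])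
      have hne10 : orderOf (a * b) ≠ 10 := fun h => hab (by
        have : IsCyclic (G ⧸ H) := isCyclic_of_orderOf_eq_card (a * b) (by rw [h, hq10])
        let := IsCyclic.commGroup (α := G ⧸ H)
        exact mul_comm _ _)
      interval_cases hj : orderOf (a * b) <;> first | omega | simp_all
    set u0 := T * (x * T * x⁻¹) with hu0
    have hqu0 : q u0 = a * b := by simp [hu0, hb, ha]
    set u := u0 ^ 32 with hu
    have hu5 : u ^ 5 = 1 := by
      have hm : u0 ^ 5 ∈ H := by
        rw [← hq1, map_pow, hqu0, ← hab5, pow_orderOf_eq_one]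
      have hc := congrArg Subtype.val (pow_card_eq_one' (x := (⟨_, hm⟩ : H)))
      simp only [SubmonoidClass.coe_pow, OneMemClass.coe_one, h32] at hc
      rw [hu, ← pow_mul, mul_comm, pow_mul]
      exact hc
    have hqu : q u = (a * b) ^ 2 := by
      rw [hu, map_pow, hqu0, show 32 = 2 + 5 * 6 from rfl, pow_add, pow_mul, ← hab5,
        pow_orderOf_eq_one, one_pow, mul_one]
    -- `K` is centralised by `u` modulo `Z`
    set W' := W.map (MulAut.conj x).toMonoidHom with hW'
    set K := W ⊓ W' with hK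
    have hW'H : W' ≤ H := by
      rintro _ ⟨w, hw, rfl⟩
      exact hHn.conj_mem w ((hWmem w).1 hw).1 x
    have hKcard : 8 ≤ Nat.card K := by
      have h1 : K.relIndex H ≤ W.relIndex H * W'.relIndex H := Subgroup.relIndex_inf_le
      have h2 : ∀ A : Subgroup G, A ≤ H → Nat.card A * A.relIndex H = 32 := fun A hA => by
        rw [← h32, Subgroup.relIndex, ← (A.subgroupOf H).card_mul_index,
          Nat.card_congr (Subgroup.subgroupOfEquivOfLe hA).toEquiv]
      have e1 := h2 W inf_le_left
      have e2 := h2 W' hW'H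
      have e3 := h2 K (inf_le_left.trans inf_le_left)
      have hcW' : Nat.card W' = Nat.card W :=
        (Nat.card_congr (W.equivMapOfInjective _ (MulAut.conj x).injective).toEquiv).symm
      rw [hcW'] at e2
      have hr1 : W.relIndex H ≤ 2 := by
        have := Nat.mul_le_mul_right (W.relIndex H) hW16
        omega
      have hr2 : W'.relIndex H ≤ 2 := by
        have := Nat.mul_le_mul_right (W'.relIndex H) hW16
        omega
      have h4 : K.relIndex H ≤ 4 := h1.trans (Nat.mul_le_mul hr1 hr2)
      have := Nat.mul_le_mul_left (Nat.card K) h4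
      omega
    have hKu : ∀ k ∈ K.map π, π u * k = k * π u := by
      rintro _ ⟨k, ⟨hk1, w, hw, rfl⟩, rfl⟩
      have c1 : Commute (π T) (π (MulAut.conj x w)) := ((hWmem _).1 hk1).2.symm
      have c2 : Commute (π (x * T * x⁻¹)) (π (MulAut.conj x w)) := by
        have h3 : Commute (π T) (π w) := ((hWmem w).1 hw).2.symm
        have := h3.map (MulAut.conj (π x)).toMonoidHom
        simpa using this
      have c3 : Commute (π u0) (π (MulAut.conj x w)) := by
        rw [hu0, map_mul]; exact c1.mul_left c2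
      rw [hu, map_pow]
      exact (c3.pow_left 32).eq
    have hcardπ : ∀ A : Subgroup G, Z ≤ A → Nat.card (A.map π) * 2 = Nat.card A := by
      intro A hA
      rw [← MonoidHom.domRestrict_range, ← Subgroup.index_ker, MonoidHom.ker_domRestrict, hπ,
        QuotientGroup.ker_mk', ← hZ2,
        ← Nat.card_congr (Subgroup.subgroupOfEquivOfLe hA).toEquiv, Subgroup.index_mul_card]
    have hZW : Z ≤ W := fun z hz => (hWmem z).2 ⟨hZH hz, by rw [(hπ1 z).2 hz, one_mul, mul_one]⟩
    have hZK : Z ≤ K := le_inf hZW fun z hz =>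
      ⟨z, hZW hz, by
        change x * z * x⁻¹ = z
        rw [hZc z hz x, mul_inv_cancel_right]⟩
    have hcu : ∀ h ∈ H, π u * π h = π h * π u := fun h hh => by
      refine commute_of_large (H.map π) (K.map π) (π u) (by rw [← map_pow, hu5, map_one]) ?_
        (Subgroup.map_mono (inf_le_left.trans inf_le_left)) hKu ?_ ?_ _ ⟨h, hh, rfl⟩
      · rintro _ ⟨y, hy, rfl⟩; exact hsq y hy
      · have := hcardπ H hZH
        have := hcardπ K hZK
        omega
      · rintro _ ⟨y, hy, rfl⟩
        exact ⟨u * y * u⁻¹, hHn.conj_mem y hy u, by simp⟩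
    set D := H ⊔ Subgroup.zpowers u with hD
    have hDc : D = (Subgroup.zpowers (q u)).comap q := by
      rw [← MonoidHom.map_zpowers, Subgroup.comap_map_eq, hq, QuotientGroup.ker_mk', hD, sup_comm]
    have hqu5 : orderOf (q u) = 5 := by
      rw [hqu, orderOf_pow, hab5]; norm_num
    haveI hDn : D.Normal := by
      haveI : (Subgroup.zpowers (q u)).Normal := Subgroup.normal_of_index_eq_two (by
        have := (Subgroup.zpowers (q u)).card_mul_index
        rw [Nat.card_zpowers, hqu5, hq10] at this
        omega)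
      rw [hDc]; infer_instance
    have hDπ : D.map π ≤ Subgroup.centralizer (D.map π : Set (G ⧸ Z)) := by
      have hHu : H.map π ≤ Subgroup.centralizer (Subgroup.zpowers (π u) : Set (G ⧸ Z)) := by
        refine Subgroup.le_centralizer_iff.1 (Subgroup.zpowers_le.2 ?_)
        exact Subgroup.mem_centralizer_iff.2 (by rintro _ ⟨y, hy, rfl⟩; exact (hcu y hy).symm)
      have hHH : H.map π ≤ Subgroup.centralizer (H.map π : Set (G ⧸ Z)) := by
        rintro _ ⟨y, hy, rfl⟩
        exact Subgroup.mem_centralizer_iff.2 (by rintro _ ⟨y', hy', rfl⟩; exact hcomm y' hy' y hy)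
      rw [hD, Subgroup.map_sup, MonoidHom.map_zpowers]
      exact sup_le
        (Subgroup.le_centralizer_iff.1 (sup_le hHH (Subgroup.le_centralizer_iff.1 hHu)))
        (Subgroup.le_centralizer_iff.1 (sup_le hHu (Subgroup.le_centralizer _)))
    have hnil : Group.IsNilpotent D := by
      refine CfsgLib.Cores.isNilpotent_of_commutator_le_centralizer ?_
      refine le_trans (Subgroup.commutator_le.2 fun d hd e he => ?_) (fun z hz =>
        Subgroup.mem_centralizer_iff.2 fun g _ => hZc z hz g)
      rw [← hπ1, map_commutatorElement, commutatorElement_eq_one_iff_mul_comm]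
      exact (Subgroup.mem_centralizer_iff.1 (hDπ ⟨d, hd, rfl⟩) _ ⟨e, he, rfl⟩).symm
    have huH : u ∈ H := by
      rw [hHF]
      exact CfsgLib.Cores.le_fittingSubgroup hnil
        (Subgroup.mem_sup_right (Subgroup.mem_zpowers u))
    rw [← hq1, ← orderOf_eq_one_iff, hqu5] at huH
    omega
  set C := H ⊓ Subgroup.centralizer ({T} : Set G) with hC
  have hCT : ∀ c ∈ C, T * c * T = c := fun c hc => by
    rw [← Subgroup.mem_centralizer_singleton_iff.1 hc.2, mul_assoc, hTT, mul_one]
  -- `V` contains `Z`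
  have hVZ : Z ≤ V := by
    have h1 : ∀ y ∈ V, ∀ z ∈ Z, y * z = z * y := fun y _ z hz => hZc z hz y
    have hel : Cfsg.IsElementaryAbelian 2 (V ⊔ Z) := by
      refine elementary_of (fun a ha b hb => ?_) (fun a ha => ?_)
      · obtain ⟨a1, ha1, a2, ha2, rfl⟩ := CfsgLib.Minimal.mem_sup_of_commute h1 ha
        obtain ⟨b1, hb1, b2, hb2, rfl⟩ := CfsgLib.Minimal.mem_sup_of_commute h1 hb
        have e : Commute a1 b1 := congrArg Subtype.val (hVe.1.is_comm.comm ⟨a1, ha1⟩ ⟨b1, hb1⟩)
        exact ((e.mul_right (hZc b2 hb2 a1)).mul_left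
          (Commute.mul_right (hZc a2 ha2 b1).symm (hZc b2 hb2 a2))).eq
      · obtain ⟨a1, ha1, a2, ha2, rfl⟩ := CfsgLib.Minimal.mem_sup_of_commute h1 ha
        rw [← pow_two, (show Commute a1 a2 from hZc a2 ha2 a1).mul_pow, hVe.2 a1 ha1, pow_two,
          hZsq a2 ha2, one_mul]
    have h2 := hminus _ (sup_le (hV.trans inf_le_left) hZH) hel
    have := Subgroup.eq_of_le_of_card_ge (le_sup_left : V ≤ V ⊔ Z) (by omega)
    rw [this]; exact le_sup_right
  have hCW : C ≤ W := fun c hc => (hWmem c).2 ⟨hc.1, by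
    rw [← map_mul, ← map_mul, Subgroup.mem_centralizer_singleton_iff.1 hc.2]⟩
  have h4C : Nat.card C = 4 := by
    by_contra hne
    have hge := Subgroup.card_le_of_le hV
    have hCle := Subgroup.card_le_of_le hCW
    have hdC : Nat.card C ∣ 2 ^ 5 := by
      rw [show (2:ℕ)^5 = 32 from rfl, ← h32]
      exact Subgroup.card_dvd_of_le inf_le_left
    have hC8 : Nat.card C = 8 := by
      obtain ⟨k, hk, hk'⟩ := (Nat.dvd_prime_pow Nat.prime_two).1 hdC
      rw [hV4] at hge
      rw [hk'] at hne ⊢
      interval_cases k <;> omega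
    have hCWeq : C = W := Subgroup.eq_of_le_of_card_ge hCW (by omega)
    let φ : H →* G ⧸ Z := MonoidHom.mk' (fun h => π ((h : G)⁻¹ * T * h * T)) (fun a b => by
      have hd : (a : G)⁻¹ * T * a * T ∈ H := by
        have := H.mul_mem (H.inv_mem a.2) (hHn.conj_mem _ a.2 T)
        rw [hTi] at this
        simpa [mul_assoc] using this
      calc π (((a * b : H) : G)⁻¹ * T * (a * b : H) * T)
          = π (b : G)⁻¹ * π ((a : G)⁻¹ * T * a * T) * π (T * (b : G) * T) := by
            rw [← map_mul, ← map_mul]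
            congr 1
            simp only [Subgroup.coe_mul, mul_inv_rev, mul_assoc]
            rw [← mul_assoc T T, hTT, one_mul]
        _ = π ((a : G)⁻¹ * T * a * T) * π (b : G)⁻¹ * π (T * (b : G) * T) := by
            rw [hcomm _ (H.inv_mem b.2) _ hd]
        _ = _ := by rw [mul_assoc, ← map_mul]; congr 2; group)
    have hφr : φ.range ≤ C.map π := by
      rintro _ ⟨h, rfl⟩
      refine ⟨_, ?_, rfl⟩
      rw [SetLike.mem_coe, hCWeq, hWmem]
      have hd : (h : G)⁻¹ * T * h * T ∈ H := by
        have := H.mul_mem (H.inv_mem h.2) (hHn.conj_mem _ h.2 T)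
        rw [hTi] at this
        simpa [mul_assoc] using this
      refine ⟨hd, ?_⟩
      have h3 := hsq _ hd
      set d := (h : G)⁻¹ * T * h * T with hd'
      have hinvd : T * d * T = d⁻¹ := by
        simp only [hd', mul_inv_rev, inv_inv, hTi, mul_assoc]
        rw [hTT, mul_one]
      have : π T * π d * π T = π d := by
        rw [← map_mul, ← map_mul, hinvd, map_inv]
        exact inv_eq_of_mul_eq_one_right h3
      calc π d * π T = π T * π d * (π T * π T) := by
            conv_lhs => rw [← this]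
            simp only [mul_assoc]
        _ = π T * π d := by rw [← map_mul π T T, hTT, map_one, mul_one]
    have hker : φ.ker = W.subgroupOf H := by
      ext h
      rw [MonoidHom.mem_ker, Subgroup.mem_subgroupOf, hWmem]
      constructor
      · intro h1
        refine ⟨h.2, ?_⟩
        change π ((h : G)⁻¹ * T * h * T) = 1 at h1
        simp only [map_mul, map_inv] at h1
        rw [mul_assoc, mul_assoc, inv_mul_eq_one] at h1
        calc π (h : G) * π T = π T * π (h : G) * (π T * π T) := by
              conv_lhs => rw [h1]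
              simp only [mul_assoc]
          _ = π T * π (h : G) := by rw [← map_mul π T T, hTT, map_one, mul_one]
      · rintro ⟨-, h1⟩
        change π ((h : G)⁻¹ * T * h * T) = 1
        simp only [map_mul, map_inv]
        rw [mul_assoc _ (π T), ← h1, ← mul_assoc, inv_mul_cancel, one_mul, ← map_mul, hTT, map_one]
    have hrange : φ.range = C.map π := by
      refine Subgroup.eq_of_le_of_card_ge hφr ?_
      have e1 : Nat.card φ.range * 8 = 32 := by
        rw [← Subgroup.index_ker, hker, ← h32, ← hC8, hCWeq,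
          ← Nat.card_congr (Subgroup.subgroupOfEquivOfLe (inf_le_left : W ≤ H)).toEquiv,
          Subgroup.index_mul_card]
      have e2 : Nat.card (C.map π) * 2 = 8 := by
        rw [← hC8, ← MonoidHom.domRestrict_range, ← Subgroup.index_ker, MonoidHom.ker_domRestrict,
          hπ, QuotientGroup.ker_mk', ← hZ2,
          ← Nat.card_congr (Subgroup.subgroupOfEquivOfLe (hVZ.trans hV)).toEquiv,
          Subgroup.index_mul_card]
      omega
    -- so every element of `C` is `h⁻¹ h^T` up to `Z`
    have hform : ∀ c ∈ C, ∃ h ∈ H, ∃ z ∈ Z, c = (h⁻¹ * T * h * T) * z := by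
      intro c hc
      obtain ⟨h, hh⟩ : π c ∈ φ.range := hrange ▸ ⟨c, hc, rfl⟩
      refine ⟨h, h.2, _, ?_, (mul_inv_cancel_left _ c).symm⟩
      rw [← hπ1, map_mul, map_inv]
      exact inv_mul_eq_one.2 hh
    have hCd : ∀ c ∈ C, ∀ h ∈ H, c * (h⁻¹ * T * h * T) = (h⁻¹ * T * h * T) * c := by
      intro c hc h hh
      set s := c * h * c⁻¹ * h⁻¹ with hs
      have hsZ : s ∈ Z := CfsgLib.Fischer2.IsExtraspecial.commutator_mem hex hc.1 hh
      have h1 : c * h = s * h * c := by rw [hs]; group
      have hTc : c * T = T * c := Subgroup.mem_centralizer_singleton_iff.1 hc.2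
      have h2 : c * (T * h * T) = s * (T * h * T) * c := by
        calc c * (T * h * T) = (c * T) * h * T := by group
          _ = T * (c * h) * T := by rw [hTc]; group
          _ = T * s * h * (c * T) := by rw [h1]; group
          _ = s * T * h * (T * c) := by rw [hTc, hZc s hsZ T]
          _ = s * (T * h * T) * c := by group
      have h3 : c * h⁻¹ = h⁻¹ * s⁻¹ * c := by
        calc c * h⁻¹ = h⁻¹ * s⁻¹ * (s * h * c) * h⁻¹ := by group
          _ = _ := by rw [← h1]; group
      calc c * (h⁻¹ * T * h * T) = (c * h⁻¹) * (T * h * T) := by group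
        _ = h⁻¹ * s⁻¹ * (c * (T * h * T)) := by rw [h3]; group
        _ = _ := by rw [h2]; group
    have hel : Cfsg.IsElementaryAbelian 2 C := by
      refine elementary_of (fun a ha b hb => ?_) (fun a ha => ?_)
      · obtain ⟨h, hh, z, hz, rfl⟩ := hform b hb
        exact (Commute.mul_right (hCd a ha h hh) (hZc z hz a)).eq
      · obtain ⟨h, hh, z, hz, rfl⟩ := hform a ha
        have hfix := hCT _ ha
        set d := h⁻¹ * T * h * T with hd
        have hinvd : T * d * T = d⁻¹ := by
          simp only [hd, mul_inv_rev, inv_inv, hTi, mul_assoc]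
          rw [hTT, mul_one]
        have hd2 : d * d = 1 := by
          rw [show T * (d * z) * T = T * d * (z * T) by group, ← hZc z hz T, ← mul_assoc,
            hinvd, mul_left_inj] at hfix
          rw [← mul_eq_one_iff_eq_inv.2 hfix.symm]
        calc d * z * (d * z) = d * (z * d) * z := by group
          _ = (d * d) * (z * z) := by rw [← hZc z hz d]; group
          _ = 1 := by rw [hd2, hZsq z hz, one_mul]
    have := hminus C inf_le_left hel
    omega
  refine ⟨h4C, ?_⟩
  have hCV : V = C := Subgroup.eq_of_le_of_card_ge hV (by rw [hV4]; exact h4C.le)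
  rw [← hCV]; exact hVe

end Cfsg.Agent.S4405
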