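import Cfsg.Statements.S4406


set_option autoImplicit false
open Cfsg

namespace Cfsg.Agent.S4406

abbrev A4 : Type := ↥(alternatingGroup (Fin 4))

set_option maxRecDepth 20000
set_option synthInstance.maxSize 1024

theorem a4_card : Fintype.card A4 = 12 := by decide
theorem a4_sq : ∀ v : A4, v ^ 4 = 1 → v * v = 1 := by decide
theorem a4_cube : ∀ v : A4, v ^ 9 = 1 → v ^ 3 = 1 := by decide
theorem a4_klein_card : Fintype.card {v : A4 // v * v = 1} = 4 := by decide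
theorem a4_three_mul : ∀ a : A4, a ≠ 1 → a ^ 3 = 1 → ∀ b : A4, b ^ 3 = 1 → (a * b) ^ 3 = 1 →
    (a * (a * b)) ^ 3 = 1 → (b = 1 ∨ b = a ∨ b = a⁻¹) := by decide
theorem a4_orbit : ∀ q : A4, q ≠ 1 → q ^ 3 = 1 → ∀ v : A4, v * v = 1 → v ≠ 1 → ∀ v' : A4, v' * v' = 1 →
    v' ≠ 1 → (v' = q * v * q⁻¹ ∨ v' = q⁻¹ * v * q ∨ v' = v) := by decide
theorem a4_free : ∀ q : A4, q ≠ 1 → q ^ 3 = 1 → ∀ v : A4, v * v = 1 → v ≠ 1 → q * v * q⁻¹ ≠ v := by decide
theorem a4_free2 : ∀ q : A4, q ≠ 1 → q ^ 3 = 1 → ∀ v : A4, v * v = 1 → v ≠ 1 →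
    q * (q * v * q⁻¹) * q⁻¹ ≠ v := by decide

theorem a4_cube_conj {M : Type*} [Group M] (q : M) (h : q ^ 3 = 1) (v : M) :
    q * (q * (q * v * q⁻¹) * q⁻¹) * q⁻¹ = v := by
  have h3 : q * q * q = 1 := by rw [← h, pow_succ, pow_two]
  calc q * (q * (q * v * q⁻¹) * q⁻¹) * q⁻¹ = (q * q * q) * v * (q * q * q)⁻¹ := by group
    _ = v := by rw [h3]; simp

theorem a4_inv_conj {M : Type*} [Group M] (q : M) (h : q ^ 3 = 1) (v : M) :
    q⁻¹ * v * q = q * (q * v * q⁻¹) * q⁻¹ := by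
  conv_lhs => rw [← a4_cube_conj q h v]
  group

/-- A subgroup of order nine of `A4 × A4` is a full product of its two projections. -/
theorem diag_mem (Q : Subgroup (A4 × A4)) (hc : Nat.card Q = 9) (hQ : ∀ x ∈ Q, x.1 ^ 3 = 1 ∧ x.2 ^ 3 = 1)
    {q : A4 × A4} (hq : q ∈ Q) (h1 : q.1 ≠ 1) (h2 : q.2 ≠ 1) : (q.1, q.2⁻¹) ∈ Q := by
  classical
  -- the coordinates of `Q` lie in the groups generated by those of `q`
  let f : Q → ({v : A4 // v = 1 ∨ v = q.1 ∨ v = q.1⁻¹} × {v : A4 // v = 1 ∨ v = q.2 ∨ v = q.2⁻¹}) :=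
    fun x => (⟨x.1.1, a4_three_mul _ h1 (hQ q hq).1 _ (hQ _ x.2).1 (hQ _ (mul_mem hq x.2)).1
        (hQ _ (mul_mem hq (mul_mem hq x.2))).1⟩,
      ⟨x.1.2, a4_three_mul _ h2 (hQ q hq).2 _ (hQ _ x.2).2 (hQ _ (mul_mem hq x.2)).2
        (hQ _ (mul_mem hq (mul_mem hq x.2))).2⟩)
  have hfi : Function.Injective f := fun a b h => Subtype.ext
    (Prod.ext (congrArg (fun z => z.1.1) h) (congrArg (fun z => z.2.1) h))
  have hle : ∀ a : A4, Nat.card {v : A4 // v = 1 ∨ v = a ∨ v = a⁻¹} ≤ 3 := by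
    intro a
    rw [Nat.card_eq_fintype_card, Fintype.card_subtype]
    exact (Finset.card_le_card (t := {1, a, a⁻¹}) (fun v hv => by simpa using hv)).trans Finset.card_le_three
  have hb : Function.Bijective f := by
    refine (Nat.bijective_iff_injective_and_card f).mpr ⟨hfi, le_antisymm (Nat.card_le_card_of_injective f hfi) ?_⟩
    rw [Nat.card_prod, hc]
    exact Nat.mul_le_mul (hle _) (hle _)
  obtain ⟨x, hx⟩ := hb.2 (⟨q.1, Or.inr (Or.inl rfl)⟩, ⟨q.2⁻¹, Or.inr (Or.inr rfl)⟩)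
  have : (x : A4 × A4) = (q.1, q.2⁻¹) :=
    Prod.ext (congrArg (fun z => z.1.1) hx) (congrArg (fun z => z.2.1) hx)
  exact this ▸ x.2

theorem not_isPGroup_nine (Q : Subgroup (A4 × A4)) (hc : Nat.card Q = 9) (h2 : ∀ x ∈ Q, x.2 = 1)
    (h3 : ∀ x ∈ Q, x.1 ^ 3 = 1) : False := by
  classical
  obtain ⟨q, hq, hq1⟩ : ∃ q ∈ Q, q.1 ≠ 1 := by
    by_contra hcon
    push Not at hcon
    have : Q = ⊥ := (Subgroup.eq_bot_iff_forall _).mpr fun x hx => Prod.ext (hcon x hx) (h2 x hx)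
    rw [this, Subgroup.card_bot] at hc
    omega
  let f : Q → {v : A4 // v = 1 ∨ v = q.1 ∨ v = q.1⁻¹} := fun x => ⟨x.1.1,
    a4_three_mul _ hq1 (h3 q hq) _ (h3 _ x.2) (h3 _ (mul_mem hq x.2)) (h3 _ (mul_mem hq (mul_mem hq x.2)))⟩
  have hfi : Function.Injective f := fun a b h => Subtype.ext
    (Prod.ext (congrArg Subtype.val h) ((h2 _ a.2).trans (h2 _ b.2).symm))
  have := Nat.card_le_card_of_injective f hfi
  rw [hc, Nat.card_eq_fintype_card, Fintype.card_subtype] at this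
  have := this.trans ((Finset.card_le_card (t := {1, q.1, q.1⁻¹}) (fun v hv => by simpa using hv)).trans Finset.card_le_three)
  omega

theorem not_isPGroup_nine' (Q : Subgroup (A4 × A4)) (hc : Nat.card Q = 9) (h1 : ∀ x ∈ Q, x.1 = 1)
    (h3 : ∀ x ∈ Q, x.2 ^ 3 = 1) : False := by
  refine not_isPGroup_nine (Q.map (MulEquiv.prodComm (M := A4) (N := A4)).toMonoidHom) ?_ ?_ ?_
  · rw [Subgroup.card_map_of_injective (MulEquiv.prodComm (M := A4) (N := A4)).injective, hc]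
  · rintro _ ⟨x, hx, rfl⟩; exact h1 x hx
  · rintro _ ⟨x, hx, rfl⟩; exact h3 x hx

/-- In the direct product P = A₄ × A₄, let X be the Sylow 2-subgroup, X₁ and X₂ its intersections with the two direct factors, Q a Sylow 3-subgroup and Q₁, Q₂ its intersections with the two factors. Then every subgroup B of X of order 4 either meets X₁ or X₂ nontrivially, or is normalized by one of the two subgroups of Q of order 3 other than Q₁ and Q₂. -/
theorem result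
    (X : Sylow 2 (↥(alternatingGroup (Fin 4)) × ↥(alternatingGroup (Fin 4))))
    (Q : Sylow 3 (↥(alternatingGroup (Fin 4)) × ↥(alternatingGroup (Fin 4))))
    (B : Subgroup (↥(alternatingGroup (Fin 4)) × ↥(alternatingGroup (Fin 4)))) (hBX : B ≤ (X : Subgroup _)) (hB4 : Nat.card ↥B = 4) :
    B ⊓ ((X : Subgroup _) ⊓ Subgroup.prod ⊤ ⊥) ≠ ⊥ ∨ B ⊓ ((X : Subgroup _) ⊓ Subgroup.prod ⊥ ⊤) ≠ ⊥ ∨
      ∃ R : Subgroup (↥(alternatingGroup (Fin 4)) × ↥(alternatingGroup (Fin 4))), R ≤ (Q : Subgroup _) ∧ Nat.card ↥R = 3 ∧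
        R ≠ (Q : Subgroup _) ⊓ Subgroup.prod ⊤ ⊥ ∧ R ≠ (Q : Subgroup _) ⊓ Subgroup.prod ⊥ ⊤ ∧ R ≤ Subgroup.normalizer (B : Set _) := by
  classical
  haveI : Fact (Nat.Prime 2) := ⟨Nat.prime_two⟩
  haveI : Fact (Nat.Prime 3) := ⟨Nat.prime_three⟩
  by_cases hB1 : B ⊓ ((X : Subgroup _) ⊓ Subgroup.prod ⊤ ⊥) = ⊥
  swap
  · exact Or.inl hB1
  by_cases hB2 : B ⊓ ((X : Subgroup _) ⊓ Subgroup.prod ⊥ ⊤) = ⊥
  swap
  · exact Or.inr (Or.inl hB2)
  refine Or.inr (Or.inr ?_)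
  have hsq : ∀ b ∈ B, b.1 * b.1 = 1 ∧ b.2 * b.2 = 1 := by
    intro b hb
    have h4 : b ^ 4 = 1 := by
      have := pow_card_eq_one' (G := B) (x := ⟨b, hb⟩)
      rw [hB4] at this
      simpa using congrArg Subtype.val this
    exact ⟨a4_sq _ (congrArg Prod.fst h4), a4_sq _ (congrArg Prod.snd h4)⟩
  have hf1 : Function.Injective (fun b : B => (b : A4 × A4).1) := by
    intro a b hab
    have hm : (a⁻¹ * b : B).1 ∈ B ⊓ ((X : Subgroup _) ⊓ Subgroup.prod ⊥ ⊤) := by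
      refine ⟨(a⁻¹ * b : B).2, hBX (a⁻¹ * b : B).2, ?_, Subgroup.mem_top _⟩
      simp only [Subgroup.coe_mul, Subgroup.coe_inv, Prod.fst_mul, Prod.fst_inv, SetLike.mem_coe,
        Subgroup.mem_bot] at hab ⊢
      rw [hab, inv_mul_cancel]
      rfl
    rw [hB2, Subgroup.mem_bot] at hm
    exact Subtype.ext (inv_mul_eq_one.mp hm)
  have hf2 : Function.Injective (fun b : B => (b : A4 × A4).2) := by
    intro a b hab
    have hm : (a⁻¹ * b : B).1 ∈ B ⊓ ((X : Subgroup _) ⊓ Subgroup.prod ⊤ ⊥) := by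
      refine ⟨(a⁻¹ * b : B).2, hBX (a⁻¹ * b : B).2, Subgroup.mem_top _, ?_⟩
      simp only [Subgroup.coe_mul, Subgroup.coe_inv, Prod.snd_mul, Prod.snd_inv, SetLike.mem_coe,
        Subgroup.mem_bot] at hab ⊢
      rw [hab, inv_mul_cancel]
      rfl
    rw [hB1, Subgroup.mem_bot] at hm
    exact Subtype.ext (inv_mul_eq_one.mp hm)
  -- projections of `B` onto the Klein four-group
  have hsurj : ∀ v : A4, v * v = 1 → ∃ b ∈ B, b.1 = v := by
    let f : B → {v : A4 // v * v = 1} := fun b => ⟨(b : A4 × A4).1, (hsq _ b.2).1⟩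
    have hfi : Function.Injective f := fun a b h => hf1 (congrArg Subtype.val h)
    have hc : Nat.card {v : A4 // v * v = 1} = Nat.card B := by
      rw [hB4, Nat.card_eq_fintype_card, a4_klein_card]
    have hb : Function.Bijective f := (Nat.bijective_iff_injective_and_card f).mpr ⟨hfi, hc.symm⟩
    intro v hv
    obtain ⟨b, hb'⟩ := hb.2 ⟨v, hv⟩
    exact ⟨b, b.2, congrArg Subtype.val hb'⟩
  -- a diagonal element of order three in `Q`
  have hQc : Nat.card (Q : Subgroup (A4 × A4)) = 9 := by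
    rw [Sylow.card_eq_multiplicity, Nat.card_prod, Nat.card_eq_fintype_card, a4_card]
    rw [show (12 * 12 : ℕ) = 3 ^ 2 * 16 by norm_num, Nat.factorization_mul (by norm_num) (by norm_num),
      Finsupp.add_apply, Nat.factorization_pow, Finsupp.smul_apply, Nat.prime_three.factorization_self,
      Nat.factorization_eq_zero_of_not_dvd (by norm_num)]
    norm_num
  have hQmem : ∀ q ∈ (Q : Subgroup (A4 × A4)), q.1 ^ 3 = 1 ∧ q.2 ^ 3 = 1 := by
    intro q hq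
    have h9 : q ^ 9 = 1 := by
      have := pow_card_eq_one' (G := (Q : Subgroup (A4 × A4))) (x := ⟨q, hq⟩)
      rw [hQc] at this
      simpa using congrArg Subtype.val this
    exact ⟨a4_cube _ (congrArg Prod.fst h9), a4_cube _ (congrArg Prod.snd h9)⟩
  obtain ⟨q, hq, hq1, hq2⟩ : ∃ q ∈ (Q : Subgroup (A4 × A4)), q.1 ≠ 1 ∧ q.2 ≠ 1 := by
    by_contra hcon
    push Not at hcon
    let Q1 : Subgroup (A4 × A4) := (Q : Subgroup (A4 × A4)) ⊓ Subgroup.prod ⊤ ⊥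
    let Q2 : Subgroup (A4 × A4) := (Q : Subgroup (A4 × A4)) ⊓ Subgroup.prod ⊥ ⊤
    have hQ12 : (Q : Subgroup (A4 × A4)) = Q1 ∨ (Q : Subgroup (A4 × A4)) = Q2 := by
      by_contra hne
      push Not at hne
      obtain ⟨a, ha, ha'⟩ := SetLike.exists_of_lt (lt_of_le_of_ne (inf_le_left : Q1 ≤ _) hne.1.symm)
      obtain ⟨b, hb, hb'⟩ := SetLike.exists_of_lt (lt_of_le_of_ne (inf_le_left : Q2 ≤ _) hne.2.symm)
      have a1 : a.1 = 1 := by
        by_contra h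
        exact ha' ⟨ha, Subgroup.mem_top _, Subgroup.mem_bot.mpr (hcon a ha h)⟩
      have b1 : b.1 ≠ 1 := fun h => hb' ⟨hb, Subgroup.mem_bot.mpr h, Subgroup.mem_top _⟩
      have a2 : a.2 ≠ 1 := fun h => ha' ⟨ha, Subgroup.mem_top _, Subgroup.mem_bot.mpr h⟩
      have b2 := hcon b hb b1
      have := hcon _ (Subgroup.mul_mem _ ha hb) (by simp [a1, b1])
      exact a2 (by simpa [b2] using this)
    rcases hQ12 with h | h
    · have hsmall : ∀ x ∈ (Q : Subgroup (A4 × A4)), x.2 = 1 := fun x hx => by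
        rw [h] at hx; exact Subgroup.mem_bot.mp hx.2.2
      exact not_isPGroup_nine (Q : Subgroup (A4 × A4)) hQc hsmall (fun x hx => (hQmem x hx).1)
    · have hsmall : ∀ x ∈ (Q : Subgroup (A4 × A4)), x.1 = 1 := fun x hx => by
        rw [h] at hx; exact Subgroup.mem_bot.mp hx.2.1
      exact not_isPGroup_nine' (Q : Subgroup (A4 × A4)) hQc hsmall (fun x hx => (hQmem x hx).2)
  obtain ⟨hq1', hq2'⟩ := hQmem q hq
  -- choose the sign
  obtain ⟨v₀, hv₀, hv₀'⟩ : ∃ v : A4, v * v = 1 ∧ v ≠ 1 := by decide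
  obtain ⟨b₀, hb₀, rfl⟩ := hsurj v₀ hv₀
  have mapping : ∀ b ∈ B, ∃ b' ∈ B, b'.1 = q.1 * b.1 * q.1⁻¹ ∧
      (b'.2 = q.2 * b.2 * q.2⁻¹ ∨ b'.2 = q.2⁻¹ * b.2 * q.2 ∨ b'.2 = b.2) := by
    intro b hb
    obtain ⟨b', hb', e⟩ := hsurj (q.1 * b.1 * q.1⁻¹) (by
      calc q.1 * b.1 * q.1⁻¹ * (q.1 * b.1 * q.1⁻¹) = q.1 * (b.1 * b.1) * q.1⁻¹ := by group
        _ = 1 := by rw [(hsq b hb).1]; group)
    refine ⟨b', hb', e, ?_⟩
    by_cases h1 : b.1 = 1
    · have hb1 : b = 1 := congrArg Subtype.val (hf1 (a₁ := ⟨b, hb⟩) (a₂ := (1 : B)) (by simpa using h1))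
      have hb'1 : b' = 1 := congrArg Subtype.val (hf1 (a₁ := ⟨b', hb'⟩) (a₂ := (1 : B)) (by simp [e, h1]))
      simp [hb1, hb'1]
    · have h21 : b.2 ≠ 1 := fun h => h1 (by
        have : b = 1 := congrArg Subtype.val (hf2 (a₁ := ⟨b, hb⟩) (a₂ := (1 : B)) (by simpa using h))
        simp [this])
      have h2' : b'.2 ≠ 1 := fun h => h1 (by
        have : b' = 1 := congrArg Subtype.val (hf2 (a₁ := ⟨b', hb'⟩) (a₂ := (1 : B)) (by simpa using h))
        rw [this, Prod.fst_one, eq_comm, mul_inv_eq_one, mul_eq_left] at e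
        exact e)
      exact a4_orbit _ hq2 hq2' _ (hsq b hb).2 h21 _ (hsq b' hb').2 h2'
  obtain ⟨c₀, hc₀, ec, hc⟩ := mapping b₀ hb₀
  have hne0 : c₀.2 ≠ b₀.2 := by
    intro h
    have := congrArg (fun x : B => (x : A4 × A4).1) (hf2 (a₁ := ⟨c₀, hc₀⟩) (a₂ := ⟨b₀, hb₀⟩) h)
    simp only at this
    rw [ec] at this
    exact a4_free _ hq1 hq1' _ hv₀ hv₀' this
  obtain ⟨w, hwQ, hw2ne, hw3, hw⟩ : ∃ w : A4, (q.1, w) ∈ (Q : Subgroup (A4 × A4)) ∧ w ≠ 1 ∧ w ^ 3 = 1 ∧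
      c₀.2 = w * b₀.2 * w⁻¹ := by
    rcases hc with h | h | h
    · exact ⟨q.2, hq, hq2, hq2', h⟩
    · refine ⟨q.2⁻¹, ?_, inv_ne_one.mpr hq2, by rw [inv_pow, hq2', inv_one], by rw [inv_inv]; exact h⟩
      exact diag_mem (Q : Subgroup (A4 × A4)) hQc hQmem hq hq1 hq2
    · exact absurd h hne0
  have hstable : ∀ b ∈ B, (q.1, w) * b * (q.1, w)⁻¹ ∈ B := by
    intro b hb
    obtain ⟨b', hb', e, -⟩ := mapping b hb
    suffices b'.2 = w * b.2 * w⁻¹ by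
      convert hb' using 1
      exact Prod.ext e.symm this.symm
    by_cases h1 : b.1 = 1
    · have hb1 : b = 1 := congrArg Subtype.val (hf1 (a₁ := ⟨b, hb⟩) (a₂ := (1 : B)) (by simpa using h1))
      have hb'1 : b' = 1 := congrArg Subtype.val (hf1 (a₁ := ⟨b', hb'⟩) (a₂ := (1 : B)) (by simp [e, h1]))
      simp [hb1, hb'1]
    -- `b.1` is one of the three translates of `b₀.1`
    obtain ⟨d₀, hd₀, ed, -⟩ := mapping c₀ hc₀
    have inj2 : ∀ x ∈ B, ∀ y ∈ B, x.2 = y.2 → x.1 = y.1 := fun x hx y hy h =>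
      congrArg (fun z : B => (z : A4 × A4).1) (hf2 (a₁ := ⟨x, hx⟩) (a₂ := ⟨y, hy⟩) h)
    have inj1 : ∀ x ∈ B, ∀ y ∈ B, x.1 = y.1 → x = y := fun x hx y hy h =>
      congrArg Subtype.val (hf1 (a₁ := ⟨x, hx⟩) (a₂ := ⟨y, hy⟩) h)
    have ne2 : ∀ x ∈ B, x.1 ≠ 1 → x.2 ≠ 1 := fun x hx h h' =>
      h (inj2 x hx 1 B.one_mem h')
    have hc1 : c₀.1 ≠ 1 := by rw [ec]; exact fun h => hv₀' (by rwa [mul_inv_eq_one, mul_eq_left] at h)
    have hd1 : d₀.1 ≠ 1 := by rw [ed]; exact fun h => hc1 (by rwa [mul_inv_eq_one, mul_eq_left] at h)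
    have hd2 : d₀.2 = w * c₀.2 * w⁻¹ := by
      rcases a4_orbit _ hw2ne hw3 _ (hsq c₀ hc₀).2 (ne2 _ hc₀ hc1) _ (hsq d₀ hd₀).2 (ne2 _ hd₀ hd1) with h | h | h
      · exact h
      · exfalso
        have : d₀.2 = b₀.2 := by rw [h, hw]; group
        exact a4_free2 _ hq1 hq1' _ hv₀ hv₀' (by rw [← ec, ← ed]; exact inj2 _ hd₀ _ hb₀ this)
      · exact absurd (ed.symm.trans (inj2 _ hd₀ _ hc₀ h)) (a4_free _ hq1 hq1' _ (hsq c₀ hc₀).1 hc1)
    rcases a4_orbit _ hq1 hq1' _ hv₀ hv₀' _ (hsq b hb).1 h1 with h | h | h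
    · have hbc : b = c₀ := inj1 b hb c₀ hc₀ (by rw [h, ec])
      have : b' = d₀ := inj1 _ hb' _ hd₀ (by rw [e, ed, hbc])
      rw [this, hbc, hd2]
    · have hbd : b = d₀ := inj1 b hb d₀ hd₀ (by rw [h, ed, ec]; exact a4_inv_conj _ hq1' _)
      have : b' = b₀ := inj1 _ hb' _ hb₀ (by rw [e, h]; group)
      rw [this, hbd, hd2, hw]
      exact (a4_cube_conj _ hw3 _).symm
    · have hbb : b = b₀ := inj1 b hb b₀ hb₀ h
      have : b' = c₀ := inj1 _ hb' _ hc₀ (by rw [e, hbb, ec])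
      rw [this, hbb, hw]
  have hord : orderOf ((q.1, w) : A4 × A4) = 3 :=
    orderOf_eq_prime (Prod.ext hq1' hw3) (fun h => hq1 (congrArg Prod.fst h))
  refine ⟨Subgroup.zpowers (q.1, w), (Subgroup.zpowers_le.mpr hwQ), by rw [Nat.card_zpowers, hord],
    ?_, ?_, ?_⟩
  · intro h
    have := (h ▸ Subgroup.mem_zpowers _ : (q.1, w) ∈ (Q : Subgroup (A4 × A4)) ⊓ Subgroup.prod ⊤ ⊥)
    exact hw2ne (Subgroup.mem_bot.mp this.2.2)
  · intro h
    have := (h ▸ Subgroup.mem_zpowers _ : (q.1, w) ∈ (Q : Subgroup (A4 × A4)) ⊓ Subgroup.prod ⊥ ⊤)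
    exact hq1 (Subgroup.mem_bot.mp this.2.1)
  · rw [Subgroup.zpowers_le]
    exact Subgroup.mem_normalizer_iff_map_conj_eq.mpr (Subgroup.eq_of_le_of_card_ge
      (by rintro _ ⟨b, hb, rfl⟩; exact hstable b hb)
      (by rw [Subgroup.card_map_of_injective (MulAut.conj _).injective]))

end Cfsg.Agent.S4406
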