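import Cfsg.Statements.S4407
import Cfsg.Agent.Lib.Minimal.CentralPairs

set_option autoImplicit false
set_option linter.style.haveILetI false
set_option maxHeartbeats 800000
open Cfsg

namespace Cfsg.Agent.S4407

theorem two_eq_zero' {M : Type*} [AddCommGroup M] [Module (ZMod 2) M] (m : M) : m + m = 0 := by
  rw [← two_smul (ZMod 2) m, show (2 : ZMod 2) = 0 from rfl, zero_smul]

/-- The structure of the module attached to an orbit of subgroups of order three. -/
theorem orbit_case {S : Type*} [Group S] {M : Type*} [AddCommGroup M] [Module (ZMod 2) M]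
    [Finite M]
    (ρ : Representation (ZMod 2) S M)
    (hirr : ∀ N : Submodule (ZMod 2) M, (∀ g : S, ∀ m ∈ N, ρ g m ∈ N) → N = ⊥ ∨ N = ⊤)
    (r s u : S) (hgen : Subgroup.closure ({u, r * u * r⁻¹, r, s} : Set S) = ⊤)
    (hu3 : u * (u * u) = 1) (hu : Commute u (r * u * r⁻¹)) (hr : r * r * (r * r) = 1)
    (hs : s * s = 1) (hsr : s * r * s = r⁻¹) (hzu : r * r * u * (r * r)⁻¹ = u⁻¹)
    (hsu : s * u * s⁻¹ = u)
    (hA : ∀ m, ρ u m = m → ρ (r * u * r⁻¹) m = m → m = 0) (v0 : M) (hv0 : v0 ≠ 0)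
    (hv0u : ρ u v0 = v0) :
    Nat.card M = 16 ∧
      {m : M | ρ (r * r) m = m ∧ ρ (r * s) m = m}.ncard = 2 ∧
      {m : M | ρ (r * r) m = m ∧ ρ s m = m}.ncard = 4 := by
  classical
  set u2 := r * u * r⁻¹ with hu2def
  set z := r * r with hz
  set w := s * z with hw
  have hmul : ∀ (a b : S) (m : M), ρ (a * b) m = ρ a (ρ b m) := fun a b m => by rw [map_mul]; rfl
  have hone : ∀ m : M, ρ 1 m = m := fun m => by rw [map_one]; rfl
  have hzz : z * z = 1 := hr
  have hzi : z⁻¹ = z := inv_eq_of_mul_eq_one_right hzz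
  have hsi : s⁻¹ = s := inv_eq_of_mul_eq_one_right hs
  have hrz : r * z = z * r := by simp only [hz, mul_assoc]
  have hsz : s * z = z * s := by
    have h1 : s * z * s = z := by
      calc s * z * s = (s * r * s) * (s * r * s) := by
            rw [hz, show s * r * s * (s * r * s) = s * r * (s * s) * r * s by group, hs]; group
        _ = (r * r)⁻¹ := by rw [hsr]; group
        _ = z := hzi
    calc s * z = s * z * (s * s) := by rw [hs, mul_one]
      _ = (s * z * s) * s := by group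
      _ = z * s := by rw [h1]
  have hww : w * w = 1 := by
    calc w * w = s * (z * s) * z := by rw [hw]; group
      _ = s * s * (z * z) := by rw [← hsz]; group
      _ = 1 := by rw [hs, hzz, one_mul]
  have hsr' : s * r = r * (z * s) := by
    calc s * r = s * r * s * s := by rw [mul_assoc _ s s, hs, mul_one]
      _ = r⁻¹ * s := by rw [hsr]
      _ = r * (z * s) := by
          rw [show r⁻¹ * s = r * (z⁻¹ * s) by rw [hz]; group, hzi]
  -- conjugation rules
  have cz : z * u = u⁻¹ * z := mul_inv_eq_iff_eq_mul.1 hzu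
  have cs : s * u = u * s := mul_inv_eq_iff_eq_mul.1 hsu
  have cw : w * u = u⁻¹ * w := by
    calc w * u = s * (z * u) := by rw [hw, mul_assoc]
      _ = (s * u⁻¹ * s⁻¹) * s * z := by rw [cz]; group
      _ = u⁻¹ * w := by
          rw [show s * u⁻¹ * s⁻¹ = (s * u * s⁻¹)⁻¹ by group, hsu, hw, mul_assoc]
  have hu2z : z * u2 * z⁻¹ = u2⁻¹ := by
    calc z * u2 * z⁻¹ = r * (z * u * z⁻¹) * r⁻¹ := by
          rw [hu2def, show z * (r * u * r⁻¹) * z⁻¹ = (z * r) * u * (z * r)⁻¹ by group, ← hrz]; group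
      _ = u2⁻¹ := by rw [hzu, hu2def]; group
  have hu2s : s * u2 * s⁻¹ = u2⁻¹ := by
    calc s * u2 * s⁻¹ = r * (z * (s * u * s⁻¹) * z⁻¹) * r⁻¹ := by
          rw [hu2def, show s * (r * u * r⁻¹) * s⁻¹ = (s * r) * u * (s * r)⁻¹ by group, hsr']; group
      _ = u2⁻¹ := by rw [hsu, hzu, hu2def]; group
  have cu2z : z * u2 = u2⁻¹ * z := mul_inv_eq_iff_eq_mul.1 hu2z
  have cu2s : s * u2 = u2⁻¹ * s := mul_inv_eq_iff_eq_mul.1 hu2s
  have cu2w : w * u2 = u2 * w := by
    calc w * u2 = s * (z * u2) := by rw [hw, mul_assoc]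
      _ = (s * u2 * s⁻¹)⁻¹ * s * z := by rw [cu2z]; group
      _ = u2 * w := by rw [hu2s, inv_inv, hw, mul_assoc]
  -- `M1` is the fixed space of `u`
  let M1 : Submodule (ZMod 2) M := LinearMap.ker (ρ u - 1)
  have hM1 : ∀ m, m ∈ M1 ↔ ρ u m = m := fun m => by
    simp [M1, LinearMap.mem_ker, LinearMap.sub_apply, sub_eq_zero]
  have hinv_u : ∀ m, ρ u m = m → ρ u⁻¹ m = m := fun m hm => by
    conv_lhs => rw [← hm, ← hmul, inv_mul_cancel, hone]
  have hM1u : ∀ g, (g * u = u⁻¹ * g ∨ g * u = u * g) → ∀ m ∈ M1, ρ g m ∈ M1 := by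
    intro g hg m hm
    rw [hM1] at hm ⊢
    rcases hg with hg | hg
    · have h1 : ρ u⁻¹ (ρ g m) = ρ g m := by rw [← hmul, ← hg, hmul, hm]
      conv_lhs => rw [← h1, ← hmul, mul_inv_cancel, hone]
    · rw [← hmul, ← hg, hmul, hm]
  have hru2 : ∀ m ∈ M1, ρ u2 (ρ r m) = ρ r m := fun m hm => by
    rw [← hmul, show u2 * r = r * u by rw [hu2def]; group, hmul, (hM1 m).1 hm]
  -- a subspace of `M1` invariant under `u2`, `z`, `s` spans `M` with its translate
  have key : ∀ U : Submodule (ZMod 2) M, U ≤ M1 → (∀ m ∈ U, ρ u2 m ∈ U) → (∀ m ∈ U, ρ z m ∈ U) →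
      (∀ m ∈ U, ρ s m ∈ U) → U ≠ ⊥ → U = M1 ∧ ∀ m : M, ∃ a ∈ U, ∃ b ∈ U, m = a + ρ r b := by
    intro U hU hu2U hzU hsU hne
    set T := U ⊔ U.map (ρ r) with hT
    have hlift : ∀ g : S, (∀ m ∈ U, ρ g m ∈ T) → (∀ m ∈ U, ρ g (ρ r m) ∈ T) →
        ∀ m ∈ T, ρ g m ∈ T := by
      intro g h1 h2 m hm
      obtain ⟨a, ha, _, ⟨b, hb, rfl⟩, rfl⟩ := Submodule.mem_sup.1 hm
      rw [map_add]; exact T.add_mem (h1 a ha) (h2 b hb)
    have hinl : ∀ {m}, m ∈ U → m ∈ T := fun hm => Submodule.mem_sup_left hm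
    have hinr : ∀ {m}, m ∈ U → ρ r m ∈ T := fun hm => Submodule.mem_sup_right ⟨_, hm, rfl⟩
    have hTinv : ∀ g ∈ Subgroup.closure ({u, u2, r, s} : Set S), ∀ m ∈ T, ρ g m ∈ T := by
      intro g hg
      induction hg using Subgroup.closure_induction with
      | mem g hg =>
        rcases hg with h | h | h | h <;> rw [h]
        · refine hlift _ (fun m hm => ?_) (fun m hm => ?_)
          · rw [(hM1 m).1 (hU hm)]; exact hinl hm
          · have h2 : u * r = r * (u2⁻¹) := by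
              have : r⁻¹ * u * r = u2⁻¹ := by
                calc r⁻¹ * u * r = r * (z⁻¹ * u * z) * r⁻¹ := by rw [hz]; group
                  _ = r * (z * u * z⁻¹) * r⁻¹ := by rw [hzi]
                  _ = u2⁻¹ := by rw [hzu, hu2def]; group
              rw [← this]; group
            rw [← hmul, h2, hmul]
            refine hinr ?_
            have h3 : u2⁻¹ = u2 * u2 := by
              refine inv_eq_of_mul_eq_one_right ?_
              rw [hu2def, show r * u * r⁻¹ * (r * u * r⁻¹ * (r * u * r⁻¹)) =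
                r * (u * (u * u)) * r⁻¹ by group, hu3]
              group
            rw [h3, hmul]
            exact hu2U _ (hu2U m hm)
        · exact hlift _ (fun m hm => hinl (hu2U m hm))
            (fun m hm => by rw [hru2 m (hU hm)]; exact hinr hm)
        · exact hlift _ (fun m hm => hinr hm)
            (fun m hm => by rw [← hmul]; exact hinl (hzU m hm))
        · exact hlift _ (fun m hm => hinl (hsU m hm))
            (fun m hm => by rw [← hmul, hsr', hmul, hmul z]; exact hinr (hzU _ (hsU m hm)))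
      | one => intro m hm; rwa [hone]
      | mul a b _ _ ha hb => intro m hm; rw [hmul]; exact ha _ (hb m hm)
      | inv a _ ha =>
        intro m hm
        have hinj : Function.Injective (fun p : T => (⟨ρ a p, ha p p.2⟩ : T)) := fun x y h => by
          have := congrArg (fun p : T => ρ a⁻¹ (p : M)) h
          simp only [← hmul, inv_mul_cancel, hone] at this
          exact Subtype.ext this
        obtain ⟨y, hy⟩ := Finite.injective_iff_surjective.1 hinj ⟨m, hm⟩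
        have hy' : ρ a y = m := congrArg Subtype.val hy
        rw [← hy', ← hmul, inv_mul_cancel, hone]; exact y.2
    rw [hgen] at hTinv
    have htop : T = ⊤ := (hirr T fun g m hm => hTinv g (Subgroup.mem_top g) m hm).resolve_left
      fun h => hne (le_bot_iff.1 (h ▸ le_sup_left))
    have hdec : ∀ m : M, ∃ a ∈ U, ∃ b ∈ U, m = a + ρ r b := by
      intro m
      obtain ⟨a, ha, _, ⟨b, hb, rfl⟩, he⟩ := Submodule.mem_sup.1 (htop.ge (Submodule.mem_top (x := m)))
      exact ⟨a, ha, b, hb, he.symm⟩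
    refine ⟨le_antisymm hU fun m hm => ?_, hdec⟩
    obtain ⟨a, ha, b, hb, rfl⟩ := hdec m
    have h0 : ρ r b = 0 := by
      refine hA _ ?_ (hru2 b (hU hb))
      have h1 := (hM1 _).1 (M1.sub_mem hm (hU ha))
      rwa [add_sub_cancel_left] at h1
    rw [h0, add_zero]; exact ha
  -- the orbit of `w`
  let W : Submodule (ZMod 2) M := M1 ⊓ LinearMap.ker (ρ w - 1)
  have hWmem : ∀ m, m ∈ W ↔ m ∈ M1 ∧ ρ w m = m := fun m => by
    simp [W, Submodule.mem_inf, LinearMap.mem_ker, LinearMap.sub_apply, sub_eq_zero]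
  have hsub : ∀ g, (g * u = u⁻¹ * g ∨ g * u = u * g) → w * g = g * w → ∀ m ∈ W, ρ g m ∈ W := by
    intro g hg hgw m hm
    rw [hWmem] at hm ⊢
    exact ⟨hM1u g hg m hm.1, by rw [← hmul, hgw, hmul, hm.2]⟩
  have hWne : W ≠ ⊥ := by
    rw [Submodule.ne_bot_iff]
    by_cases h : ρ w v0 = v0
    · exact ⟨v0, (hWmem _).2 ⟨(hM1 v0).2 hv0u, h⟩, hv0⟩
    · refine ⟨v0 + ρ w v0, (hWmem _).2
        ⟨M1.add_mem ((hM1 v0).2 hv0u) (hM1u w (Or.inl cw) v0 ((hM1 v0).2 hv0u)), ?_⟩, fun h0 => h ?_⟩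
      · rw [map_add, ← hmul, hww, hone, add_comm]
      · calc ρ w v0 = (v0 + v0) + ρ w v0 := by rw [two_eq_zero', zero_add]
          _ = v0 := by rw [add_assoc, h0, add_zero]
  have hwz : w * z = z * w := by rw [hw, mul_assoc, hzz, hsz, ← mul_assoc, hzz]; group
  have hws : w * s = s * w := by rw [hw, mul_assoc, ← hsz]
  obtain ⟨hWM, -⟩ := key W inf_le_left
    (hsub u2 (Or.inr hu.symm.eq) cu2w) (hsub z (Or.inl cz) hwz) (hsub s (Or.inr cs) hws) hWne
  have hwtriv : ∀ m ∈ M1, ρ w m = m := fun m hm => ((hWmem m).1 (hWM.ge hm)).2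
  have hsz1 : ∀ m ∈ M1, ρ s m = ρ z m := fun m hm => by
    conv_lhs => rw [← hwtriv m hm, ← hmul, hw, ← mul_assoc, hs, one_mul]
  -- a `z`-fixed vector of `M1`
  obtain ⟨v, hvM, hv, hzv⟩ : ∃ v ∈ M1, v ≠ 0 ∧ ρ z v = v := by
    by_cases h : ρ z v0 = v0
    · exact ⟨v0, (hM1 v0).2 hv0u, hv0, h⟩
    · refine ⟨v0 + ρ z v0, M1.add_mem ((hM1 v0).2 hv0u) (hM1u z (Or.inl cz) v0 ((hM1 v0).2 hv0u)),
        fun h0 => h ?_, ?_⟩
      · calc ρ z v0 = (v0 + v0) + ρ z v0 := by rw [two_eq_zero', zero_add]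
          _ = v0 := by rw [add_assoc, h0, add_zero]
      · rw [map_add, ← hmul, hzz, hone, add_comm]
  set v2 := ρ u2 v with hv2
  have hv2M : v2 ∈ M1 := hM1u u2 (Or.inr hu.symm.eq) v hvM
  have hu23 : u2 * (u2 * u2) = 1 := by
    rw [hu2def, show r * u * r⁻¹ * (r * u * r⁻¹ * (r * u * r⁻¹)) =
      r * (u * (u * u)) * r⁻¹ by group, hu3]
    group
  have hu2v2 : ρ u2 v2 = v + v2 := by
    have hsum : v + v2 + ρ u2 v2 = 0 := by
      refine hA _ ((hM1 _).1 (M1.add_mem (M1.add_mem hvM hv2M) (hM1u u2 (Or.inr hu.symm.eq) _ hv2M))) ?_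
      rw [map_add, map_add, ← hv2, ← hmul u2 u2 v2, hv2, ← hmul (u2 * u2) u2 v, mul_assoc, hu23, hone]
      abel
    rw [← neg_eq_of_add_eq_zero_right hsum]
    exact neg_eq_of_add_eq_zero_right (two_eq_zero' _)
  let U : Submodule (ZMod 2) M := Submodule.span (ZMod 2) {v, v2}
  have hUmap : ∀ g, ρ g v ∈ U → ρ g v2 ∈ U → ∀ m ∈ U, ρ g m ∈ U := by
    intro g h1 h2 m hm
    have hle : U.map (ρ g) ≤ U := by
      rw [Submodule.map_span, Submodule.span_le]
      rintro _ ⟨y, (rfl | rfl), rfl⟩ <;> assumption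
    exact hle ⟨m, hm, rfl⟩
  have hvU : v ∈ U := Submodule.subset_span (Set.mem_insert _ _)
  have hv2U : v2 ∈ U := Submodule.subset_span (Set.mem_insert_of_mem _ rfl)
  have hzv2 : ρ z v2 = v + v2 := by
    have hu2i : u2⁻¹ = u2 * u2 := inv_eq_of_mul_eq_one_right hu23
    rw [hv2, ← hmul, cu2z, hmul, hzv, hu2i, hmul, ← hv2, hu2v2]
  have hUne : U ≠ ⊥ := fun h => hv (by simpa [h] using hvU)
  have hUM1 : U ≤ M1 := by
    rw [Submodule.span_le]; rintro y (rfl | rfl) <;> assumption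
  have hzU : ∀ m ∈ U, ρ z m ∈ U :=
    hUmap z (by rw [hzv]; exact hvU) (by rw [hzv2]; exact U.add_mem hvU hv2U)
  obtain ⟨hUeq, hdec⟩ := key U hUM1 (hUmap u2 hv2U (by rw [hu2v2]; exact U.add_mem hvU hv2U)) hzU
    (fun m hm => by rw [hsz1 m (hUM1 hm)]; exact hzU m hm) hUne
  have hv2ne : v2 ≠ 0 := fun h => hv (by
    have h1 := congrArg (ρ (u2 * u2)) h
    rwa [hv2, ← hmul, mul_assoc, hu23, hone, map_zero] at h1)
  have hvv2 : v ≠ v2 := fun h => hv (hA v ((hM1 v).1 hvM) h.symm)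
  have hU4 : ∀ m, m ∈ U ↔ m = 0 ∨ m = v ∨ m = v2 ∨ m = v + v2 := by
    intro m
    rw [Submodule.mem_span_pair]
    constructor
    · rintro ⟨a, b, rfl⟩
      have hc : ∀ c : ZMod 2, c = 0 ∨ c = 1 := by decide
      rcases hc a with rfl | rfl <;> rcases hc b with rfl | rfl <;> simp
    · rintro (rfl | rfl | rfl | rfl)
      exacts [⟨0, 0, by simp⟩, ⟨1, 0, by simp⟩, ⟨0, 1, by simp⟩, ⟨1, 1, by simp⟩]
  have hUcard : Nat.card U = 4 := by
    have e : (U : Set M) = {0, v, v2, v + v2} := by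
      ext m; simp [hU4 m]
    rw [show Nat.card U = (U : Set M).ncard from Nat.card_coe_set_eq (U : Set M), e]
    have h3 : v + v2 ≠ 0 := fun h => hvv2 (by
      calc v = v + (v2 + v2) := by rw [two_eq_zero', add_zero]
        _ = v2 := by rw [← add_assoc, h, zero_add])
    rw [Set.ncard_insert_of_notMem, Set.ncard_insert_of_notMem, Set.ncard_pair] <;>
      simp [hv, Ne.symm hv, hv2ne, Ne.symm hv2ne, hvv2, Ne.symm h3]
  have huniq : ∀ a ∈ U, ∀ b ∈ U, ∀ a' ∈ U, ∀ b' ∈ U, a + ρ r b = a' + ρ r b' → a = a' ∧ b = b' := by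
    intro a ha b hb a' ha' b' hb' h
    have h1 : a - a' = ρ r (b' - b) := by
      rw [map_sub, sub_eq_sub_iff_add_eq_add, h, add_comm]
    have h0 : a - a' = 0 := hA _ ((hM1 _).1 (hUM1 (U.sub_mem ha ha')))
      (by rw [h1]; exact hru2 _ (hUM1 (U.sub_mem hb' hb)))
    refine ⟨sub_eq_zero.1 h0, ?_⟩
    rw [h0] at h1
    have h2 := congrArg (ρ r⁻¹) h1
    rw [map_zero, ← hmul, inv_mul_cancel, hone, eq_comm, sub_eq_zero] at h2
    exact h2.symm
  -- fixed vectors
  have hzfix : ∀ a ∈ U, ρ z a = a → a = 0 ∨ a = v := by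
    intro a ha h
    rcases (hU4 a).1 ha with rfl | rfl | rfl | rfl
    · exact Or.inl rfl
    · exact Or.inr rfl
    · rw [hzv2] at h
      exact absurd (add_eq_right.1 h) hv
    · rw [map_add, hzv, hzv2, ← add_assoc, two_eq_zero', zero_add] at h
      exact absurd (right_eq_add.1 h) hv
  have hzr : ∀ b, ρ z (ρ r b) = ρ r (ρ z b) := fun b => by rw [← hmul, ← hmul, hrz]
  have hsrU : ∀ b ∈ U, ρ s (ρ r b) = ρ r b := fun b hb => by
    rw [← hmul, hsr', ← hsz, ← hw, hmul, hwtriv b (hUM1 hb)]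
  refine ⟨?_, ?_, ?_⟩
  · have hb : Function.Bijective (fun p : U × U => (p.1 : M) + ρ r (p.2 : M)) := by
      constructor
      · rintro ⟨a, b⟩ ⟨a', b'⟩ h
        obtain ⟨h1, h2⟩ := huniq a a.2 b b.2 a' a'.2 b' b'.2 h
        exact Prod.ext (Subtype.ext h1) (Subtype.ext h2)
      · intro m
        obtain ⟨a, ha, b, hb, rfl⟩ := hdec m
        exact ⟨(⟨a, ha⟩, ⟨b, hb⟩), rfl⟩
    rw [← Nat.card_eq_of_bijective _ hb, Nat.card_prod, hUcard]
  · have e : {m : M | ρ (r * r) m = m ∧ ρ (r * s) m = m} = {0, v + ρ r v} := by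
      ext m
      simp only [Set.mem_setOf_eq, Set.mem_insert_iff, Set.mem_singleton_iff, ← hz]
      have hrsr : ∀ b ∈ U, ρ (r * s) (ρ r b) = ρ z b := fun b hb => by
        rw [hmul, hsrU b hb, ← hmul]
      have hrsa : ∀ a ∈ U, ρ (r * s) a = ρ r (ρ z a) := fun a ha => by
        rw [hmul, hsz1 a (hUM1 ha)]
      constructor
      · rintro ⟨h1, h2⟩
        obtain ⟨a, ha, b, hb, rfl⟩ := hdec m
        rw [map_add, hzr] at h1
        obtain ⟨ha', hb'⟩ := huniq _ (hzU a ha) _ (hzU b hb) a ha b hb h1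
        rw [map_add, hrsa a ha, hrsr b hb, ha', hb', add_comm] at h2
        obtain ⟨hba, -⟩ := huniq b hb a ha a ha b hb h2
        subst hba
        rcases hzfix b hb hb' with h | h <;> rw [h]
        · left; simp
        · right; rfl
      · rintro (rfl | rfl)
        · simp
        · refine ⟨by rw [map_add, hzr, hzv], ?_⟩
          rw [map_add, hrsa v hvU, hrsr v hvU, hzv, add_comm]
    rw [e, Set.ncard_pair]
    intro h
    have h5 : (0 : M) + ρ r 0 = v + ρ r v := by rw [map_zero, add_zero]; exact h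
    exact hv (huniq 0 U.zero_mem 0 U.zero_mem v hvU v hvU h5).1.symm
  · have e : {m : M | ρ (r * r) m = m ∧ ρ s m = m} = {0, v, ρ r v, v + ρ r v} := by
      ext m
      simp only [Set.mem_setOf_eq, Set.mem_insert_iff, Set.mem_singleton_iff, ← hz]
      constructor
      · rintro ⟨h1, -⟩
        obtain ⟨a, ha, b, hb, rfl⟩ := hdec m
        rw [map_add, hzr] at h1
        obtain ⟨ha', hb'⟩ := huniq _ (hzU a ha) _ (hzU b hb) a ha b hb h1
        rcases hzfix a ha ha' with h | h <;> rcases hzfix b hb hb' with h' | h' <;> simp [h, h']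
      · rintro (h | h | h | h) <;> rw [h]
        · simp
        · exact ⟨hzv, by rw [hsz1 v hvM, hzv]⟩
        · exact ⟨by rw [hzr, hzv], hsrU v hvU⟩
        · exact ⟨by rw [map_add, hzr, hzv], by rw [map_add, hsz1 v hvM, hzv, hsrU v hvU]⟩
    have n1 : ρ r v ≠ 0 := fun h => hv
      (huniq 0 U.zero_mem v hvU 0 U.zero_mem 0 U.zero_mem (by simp [h])).2
    have n2 : v ≠ ρ r v := fun h => hv
      (huniq v hvU 0 U.zero_mem 0 U.zero_mem v hvU (by simpa using h)).1
    have n3 : v + ρ r v ≠ 0 := fun h => hv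
      (huniq v hvU v hvU 0 U.zero_mem 0 U.zero_mem (by simpa using h)).1
    rw [e, Set.ncard_insert_of_notMem, Set.ncard_insert_of_notMem, Set.ncard_pair] <;>
      simp [hv, Ne.symm hv, n1, Ne.symm n1, n2, Ne.symm n3]

/-- The four-group of `D₈` containing `sr j`. -/
def fourSet (j : ZMod 4) : Finset (DihedralGroup 4) := {1, .r 2, .sr j, .sr (j + 2)}

theorem fourSet_one_mem : ∀ j, (1 : DihedralGroup 4) ∈ fourSet j := by unfold fourSet; decide

theorem fourSet_r_mem : ∀ j, (.r 2 : DihedralGroup 4) ∈ fourSet j := by unfold fourSet; decide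

theorem fourSet_sr_mem : ∀ j, (.sr j : DihedralGroup 4) ∈ fourSet j := by unfold fourSet; decide

theorem fourSet_mul_mem : ∀ j, ∀ a ∈ fourSet j, ∀ b ∈ fourSet j, a * b ∈ fourSet j := by
  unfold fourSet; decide

theorem fourSet_inv_mem : ∀ j, ∀ a ∈ fourSet j, a⁻¹ ∈ fourSet j := by unfold fourSet; decide

theorem fourSet_sq : ∀ j, ∀ a ∈ fourSet j, a * a = 1 := by unfold fourSet; decide

theorem fourSet_card : ∀ j, (fourSet j).card = 4 := by unfold fourSet; decide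

theorem fourSet_cases : ∀ j, ∀ a ∈ fourSet j,
    a = 1 ∨ a = .r 2 ∨ a = .sr j ∨ a = .sr j * .r 2 := by
  unfold fourSet; decide

theorem d8_four_groups : ∀ a b : DihedralGroup 4, a * a = 1 → b * b = 1 → a * b = b * a →
    (a ∈ fourSet 0 ∧ b ∈ fourSet 0) ∨ (a ∈ fourSet 3 ∧ b ∈ fourSet 3) := by
  unfold fourSet; decide

theorem d8_center : ∀ d : DihedralGroup 4, .r 2 * d = d * .r 2 := by decide

theorem d8_pow_three : ∀ d : DihedralGroup 4, d ^ 3 = 1 → d = 1 := by decide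

theorem d8_gen (j : ZMod 4) :
    Subgroup.closure ({.r 1, .sr j} : Set (DihedralGroup 4)) = ⊤ := by
  have hr : ∀ i : ZMod 4,
      DihedralGroup.r i ∈ Subgroup.closure ({.r 1, .sr j} : Set (DihedralGroup 4)) := fun i => by
    have h := Subgroup.pow_mem _ (Subgroup.subset_closure
      (Set.mem_insert (DihedralGroup.r (1 : ZMod 4)) {DihedralGroup.sr j})) i.val
    rwa [DihedralGroup.r_one_pow, ZMod.natCast_val, ZMod.cast_id] at h
  rw [eq_top_iff]
  rintro (i | i) -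
  · exact hr i
  · rw [show DihedralGroup.sr i = DihedralGroup.sr j * DihedralGroup.r (i - j) by
      rw [DihedralGroup.sr_mul_r, add_sub_cancel]]
    exact Subgroup.mul_mem _ (Subgroup.subset_closure (Set.mem_insert_of_mem _ rfl)) (hr _)

theorem fix_or_inv {S : Type*} [Group S] (A : Subgroup S) [A.Normal]
    (hAc : ∀ a ∈ A, ∀ b ∈ A, a * b = b * a) {x : S} (hx2 : x * x = 1)
    (hall : ∀ b ∈ A, x * b * x⁻¹ = b → b = 1) {a : S} (ha : a ∈ A) : x * a * x⁻¹ = a⁻¹ := by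
  set c := x * a * x⁻¹ with hc
  have hcA : c ∈ A := (inferInstance : A.Normal).conj_mem a ha x
  have h1 : x * (a * c) * x⁻¹ = a * c := by
    calc x * (a * c) * x⁻¹ = c * ((x * x) * a * (x * x)⁻¹) := by rw [hc]; group
      _ = a * c := by rw [hx2, one_mul, inv_one, mul_one, hAc c hcA a ha]
  exact eq_inv_of_mul_eq_one_right (hall _ (A.mul_mem ha hcA) h1)

/-- The central involution inverts `A`. -/
theorem z_no_fixed {S : Type*} [Group S] [Finite S] (A : Subgroup S) [A.Normal]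
    (hA9 : Nat.card ↥A = 9) (hAc : ∀ a ∈ A, ∀ b ∈ A, a * b = b * a)
    (hA : ∀ a ∈ A, a ^ 3 = 1) (r z : S) (hz : z = r * r) (hr4 : z * z = 1)
    (hmove : ¬ ∀ a ∈ A, z * a * z⁻¹ = a) :
    ∀ a ∈ A, z * a * z⁻¹ = a → a = 1 := by
  have hA3 : ∀ a ∈ A, a * (a * a) = 1 := fun a ha => by rw [← hA a ha, pow_three]
  have horder : ∀ a ∈ A, a ≠ 1 → orderOf a = 3 := fun a ha h1 =>
    haveI : Fact (Nat.Prime 3) := ⟨Nat.prime_three⟩
    orderOf_eq_prime (hA a ha) h1
  intro a ha hza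
  by_contra ha1
  let F : Subgroup S := A ⊓ Subgroup.centralizer ({z} : Set S)
  have hFmem : ∀ b, b ∈ F ↔ b ∈ A ∧ z * b * z⁻¹ = b := fun b => by
    simp only [F, Subgroup.mem_inf, Subgroup.mem_centralizer_singleton_iff, mul_inv_eq_iff_eq_mul]
    exact and_congr_right fun _ => eq_comm
  have hFne : F ≠ A := fun h => hmove fun b hb => ((hFmem b).1 (h.ge hb)).2
  have hF3 : Nat.card F = 3 := by
    have hd : Nat.card F ∣ 3 ^ 2 := by
      rw [show (3 : ℕ) ^ 2 = 9 from rfl, ← hA9]; exact Subgroup.card_dvd_of_le inf_le_left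
    obtain ⟨j, hj, hj'⟩ := (Nat.dvd_prime_pow Nat.prime_three).1 hd
    have hle : 3 ≤ Nat.card F := by
      have h5 := Subgroup.card_le_of_le (Subgroup.zpowers_le.2 ((hFmem a).2 ⟨ha, hza⟩))
      rwa [Nat.card_zpowers, horder a ha ha1] at h5
    have hne9 : Nat.card F ≠ 9 := fun h =>
      hFne (Subgroup.eq_of_le_of_card_ge inf_le_left (by rw [hA9, h]))
    rcases (by omega : j = 0 ∨ j = 1 ∨ j = 2) with h | h | h <;> rw [h] at hj'
    · rw [hj'] at hle; norm_num at hle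
    · simpa using hj'
    · exact absurd (by simpa using hj') hne9
  -- `r` acts as `±1` on the fixed line and on the inverted line
  obtain ⟨b, hb, hb1, hzb⟩ : ∃ b ∈ A, b ≠ 1 ∧ z * b * z⁻¹ = b⁻¹ := by
    obtain ⟨c, hc, hcF⟩ := SetLike.exists_of_lt (lt_of_le_of_ne inf_le_left hFne)
    set d := z * c * z⁻¹ with hd
    have hdA : d ∈ A := (inferInstance : A.Normal).conj_mem c hc z
    refine ⟨c⁻¹ * d, A.mul_mem (A.inv_mem hc) hdA,
      fun h => hcF ((hFmem c).2 ⟨hc, (inv_mul_eq_one.1 h).symm⟩), ?_⟩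
    calc z * (c⁻¹ * d) * z⁻¹ = d⁻¹ * ((z * z) * c * (z * z)⁻¹) := by rw [hd]; group
      _ = (c⁻¹ * d)⁻¹ := by rw [hr4]; group
  have hpm : ∀ c ∈ A, c ≠ 1 → r * c * r⁻¹ ∈ Subgroup.zpowers c → z * c * z⁻¹ = c := by
    intro c hc hc1 hm
    obtain ⟨i, hi⟩ := Subgroup.mem_zpowers_iff.1 hm
    have h2 : z * c * z⁻¹ = (c ^ i) ^ i := by
      calc z * c * z⁻¹ = r * (r * c * r⁻¹) * r⁻¹ := by rw [hz]; group
        _ = (c ^ i) ^ i := by rw [← hi, ← conj_zpow, ← hi]
    rw [h2, ← zpow_mul]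
    conv_rhs => rw [← zpow_one c]
    rw [zpow_eq_zpow_iff_modEq, horder c hc hc1]
    have hne : ¬ (3 : ℤ) ∣ i := by
      rintro ⟨k, rfl⟩
      rw [zpow_mul, show c ^ (3 : ℤ) = c ^ 3 by norm_cast, hA c hc, one_zpow] at hi
      exact hc1 (conj_eq_one_iff.1 hi.symm)
    unfold Int.ModEq
    have h3 : i % 3 = 1 ∨ i % 3 = 2 := by omega
    rcases h3 with h3 | h3 <;> simp [Int.mul_emod, h3]
  have hcomm : z * r = r * z := by simp only [hz, mul_assoc]
  have hbb : z * b * z⁻¹ = b := by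
    refine hpm b hb hb1 ?_
    -- the inverted elements form a subgroup of order three
    let G' : Subgroup S :=
      { carrier := {y | y ∈ A ∧ z * y * z⁻¹ = y⁻¹}
        one_mem' := ⟨A.one_mem, by simp⟩
        mul_mem' := fun {p q} hp hq => ⟨A.mul_mem hp.1 hq.1, by
          rw [show z * (p * q) * z⁻¹ = (z * p * z⁻¹) * (z * q * z⁻¹) by group, hp.2, hq.2,
            hAc _ (A.inv_mem hp.1) _ (A.inv_mem hq.1), mul_inv_rev]⟩
        inv_mem' := fun {p} hp => ⟨A.inv_mem hp.1, by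
          rw [show z * p⁻¹ * z⁻¹ = (z * p * z⁻¹)⁻¹ by group, hp.2]⟩ }
    have hrb : r * b * r⁻¹ ∈ G' := ⟨(inferInstance : A.Normal).conj_mem b hb r, by
      calc z * (r * b * r⁻¹) * z⁻¹ = (z * r) * b * (z * r)⁻¹ := by group
        _ = r * (z * b * z⁻¹) * r⁻¹ := by rw [hcomm]; group
        _ = _ := by rw [hzb]; group⟩
    have hG3 : Nat.card G' ≤ 3 := by
      have hdis : F ⊓ G' = ⊥ := by
        rw [eq_bot_iff]
        rintro y ⟨hy1, hy2⟩
        have h5 : y = y⁻¹ := ((hFmem y).1 hy1).2.symm.trans hy2.2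
        have h6 : y * y = 1 := by rw [← mul_inv_cancel y]; exact congrArg (y * ·) h5
        have h7 := hA3 y hy2.1
        rw [h6, mul_one] at h7
        exact Subgroup.mem_bot.2 h7
      have h8 := CfsgLib.Minimal.card_sup_of_commute
        (X := F) (Y := G') (fun y hy y' hy' => hAc y ((hFmem y).1 hy).1 y' hy'.1) hdis
      have h9 : Nat.card (F ⊔ G' : Subgroup S) ≤ 9 :=
        hA9 ▸ Subgroup.card_le_of_le (sup_le inf_le_left fun y hy => hy.1)
      rw [h8, hF3] at h9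
      omega
    have heq : Subgroup.zpowers b = G' := Subgroup.eq_of_le_of_card_ge
      (Subgroup.zpowers_le.2 ⟨hb, hzb⟩) (by rw [Nat.card_zpowers, horder b hb hb1]; exact hG3)
    rw [heq]; exact hrb
  rw [hbb] at hzb
  have h6 : b * b = 1 := by rw [← mul_inv_cancel b]; exact congrArg (b * ·) hzb
  have h7 := hA3 b hb
  rw [h6, mul_one] at h7
  exact hb1 h7

/-- Some element of order three of `⟨u, u2⟩` has a nonzero fixed vector. -/
theorem exists_fixed {S : Type*} [Group S] {M : Type*} [AddCommGroup M] [Module (ZMod 2) M]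
    [Nontrivial M] (ρ : Representation (ZMod 2) S M) (u u2 : S) (hu3 : u * (u * u) = 1)
    (hu23 : u2 * (u2 * u2) = 1) (hc : u * u2 = u2 * u) :
    ∃ m, m ≠ 0 ∧ (ρ u m = m ∨ ρ u2 m = m ∨ ρ (u * u2) m = m ∨ ρ (u2 * u⁻¹) m = m) := by
  have hmul : ∀ (a b : S) (m : M), ρ (a * b) m = ρ a (ρ b m) := fun a b m => by rw [map_mul]; rfl
  have hone : ∀ m : M, ρ 1 m = m := fun m => by rw [map_one]; rfl
  by_contra hno
  push Not at hno
  obtain ⟨m, hm⟩ := exists_ne (0 : M)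
  have tr : ∀ a, a * (a * a) = 1 → (∀ m, m ≠ 0 → ρ a m ≠ m) →
      ∀ m : M, m + ρ a m + ρ a (ρ a m) = 0 := by
    intro a ha h m
    by_contra hne
    refine h _ hne ?_
    rw [map_add, map_add, ← hmul a a (ρ a m), ← hmul (a * a) a m, mul_assoc, ha, hone]
    abel
  have hui : u⁻¹ = u * u := inv_eq_of_mul_eq_one_right hu3
  have hu2u : ∀ k l : S, k * l = l * k → k * (k * k) = 1 → l * (l * l) = 1 →
      k * l * (k * l * (k * l)) = 1 := fun k l h h1 h2 => by
    rw [← pow_three, (show Commute k l from h).mul_pow, pow_three, pow_three, h1, h2, one_mul]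
  have s1 := tr u hu3 (fun m h => (hno m h).1) m
  have s2 := tr u2 hu23 (fun m h => (hno m h).2.1) m
  have s3 := tr _ (hu2u u u2 hc hu3 hu23) (fun m h => (hno m h).2.2.1) m
  have s4 := tr (u2 * u⁻¹) (hu2u u2 u⁻¹ ((show Commute u2 u from hc.symm).inv_right) hu23
    (by rw [← mul_inv_rev, ← mul_inv_rev, mul_assoc, hu3, inv_one])) (fun m h => (hno m h).2.2.2) m
  have s5 : ∀ m : M, m + ρ u m + ρ u (ρ u m) = 0 := tr u hu3 (fun m h => (hno m h).1)
  have s6 := congrArg₂ (· + ·) (s5 m) (congrArg₂ (· + ·) (s5 (ρ u2 m)) (s5 (ρ u2 (ρ u2 m))))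
  simp only [hui, hmul] at s4
  simp only [hmul] at s3
  have c : ∀ p : M, ρ u2 (ρ u p) = ρ u (ρ u2 p) := fun p => by rw [← hmul, ← hmul, hc]
  simp only [c] at s3 s4
  have hu3' : ρ u (ρ u (ρ u (ρ u (ρ u2 (ρ u2 m))))) = ρ u (ρ u2 (ρ u2 m)) := by
    rw [← hmul u u (ρ u (ρ u (ρ u2 (ρ u2 m)))), ← hmul (u * u) u, mul_assoc, hu3, hone]
  rw [hu3'] at s4
  apply hm
  have hsum := congrArg₂ (· + ·) (congrArg₂ (· + ·) s1 s2) (congrArg₂ (· + ·) s3 s4)
  simp only [add_zero] at hsum s6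
  have htot : (m + ρ u m + ρ u (ρ u m) + (m + ρ u2 m + ρ u2 (ρ u2 m)) +
      (m + ρ u (ρ u2 m) + ρ u (ρ u (ρ u2 (ρ u2 m))) +
        (m + ρ u (ρ u (ρ u2 m)) + ρ u (ρ u2 (ρ u2 m))))) +
      (m + ρ u m + ρ u (ρ u m) + (ρ u2 m + ρ u (ρ u2 m) + ρ u (ρ u (ρ u2 m)) +
        (ρ u2 (ρ u2 m) + ρ u (ρ u2 (ρ u2 m)) + ρ u (ρ u (ρ u2 (ρ u2 m)))))) = 0 := by
    rw [hsum, s6, add_zero]
  calc m = m + ((m + m) + (m + m) + (ρ u m + ρ u m) + (ρ u (ρ u m) + ρ u (ρ u m)) +
        (ρ u2 m + ρ u2 m) + (ρ u2 (ρ u2 m) + ρ u2 (ρ u2 m)) +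
        (ρ u (ρ u2 m) + ρ u (ρ u2 m)) + (ρ u (ρ u (ρ u2 m)) + ρ u (ρ u (ρ u2 m))) +
        (ρ u (ρ u2 (ρ u2 m)) + ρ u (ρ u2 (ρ u2 m))) +
        (ρ u (ρ u (ρ u2 (ρ u2 m))) + ρ u (ρ u (ρ u2 (ρ u2 m))))) := by
          simp only [two_eq_zero', add_zero]
    _ = 0 := by rw [← htot]; abel

theorem main_aux {S : Type*} [Group S] [Finite S] (A : Subgroup S) [A.Normal]
    (hA : Cfsg.IsElementaryAbelian 3 A) (hA9 : Nat.card ↥A = 9)
    (hAC : Subgroup.centralizer (A : Set S) = A) (X : Subgroup S)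
    (e : ↥X ≃* DihedralGroup 4) (hAX : A ⊔ X = ⊤) {M : Type*} [AddCommGroup M]
    [Module (ZMod 2) M] [Finite M] (ρ : Representation (ZMod 2) S M) (hfaith : Function.Injective ρ)
    (hirr : ∀ N : Submodule (ZMod 2) M, (∀ s : S, ∀ m ∈ N, ρ s m ∈ N) → N = ⊥ ∨ N = ⊤)
    (hM : Nontrivial M) :
    Nat.card M = 16 ∧ ∃ B : Subgroup S, B ≤ X ∧ Nat.card ↥B = 4 ∧ (∀ b ∈ B, b ^ 2 = 1) ∧
        Nat.card {m : M // ∀ b ∈ B, ρ b m = m} = 2 ∧
        ∀ B' : Subgroup S, B' ≤ X → Nat.card ↥B' = 4 → (∀ b ∈ B', b ^ 2 = 1) →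
          Nat.card {m : M // ∀ b ∈ B', ρ b m = m} = 2 → B' = B := by
  classical
  have hmul : ∀ (a b : S) (m : M), ρ (a * b) m = ρ a (ρ b m) := fun a b m => by rw [map_mul]; rfl
  have hone : ∀ m : M, ρ 1 m = m := fun m => by rw [map_one]; rfl
  have hAc : ∀ a ∈ A, ∀ b ∈ A, a * b = b * a := fun a ha b hb =>
    congrArg Subtype.val (hA.1.is_comm.comm ⟨a, ha⟩ ⟨b, hb⟩)
  have hA3 : ∀ a ∈ A, a * (a * a) = 1 := fun a ha => by rw [← hA.2 a ha, pow_three]
  let g : DihedralGroup 4 → S := fun d => ((e.symm d : X) : S)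
  have hgm : ∀ a b, g (a * b) = g a * g b := fun a b => by simp [g]
  have hg1 : g 1 = 1 := by simp [g]
  have hginv : ∀ a, g a⁻¹ = (g a)⁻¹ := fun a => by simp [g]
  have hginj : Function.Injective g := Subtype.val_injective.comp e.symm.injective
  have hgX : ∀ d, g d ∈ X := fun d => (e.symm d).2
  have hgsurj : ∀ x ∈ X, ∃ d, g d = x := fun x hx => ⟨e ⟨x, hx⟩, by simp [g]⟩
  have hXA : ∀ x ∈ X, x ∈ A → x = 1 := by
    intro x hx hxA
    obtain ⟨d, rfl⟩ := hgsurj x hx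
    have h1 : d ^ 3 = 1 := hginj (by
      rw [hg1, pow_three, hgm, hgm]; exact hA3 _ hxA)
    rw [d8_pow_three d h1, hg1]
  set r := g (.r 1) with hr
  set t0 := g (.sr 0) with ht0
  set z := r * r with hz
  have hzg : z = g (.r 2) := by rw [hz, hr, ← hgm]; congr 1
  have hr4 : z * z = 1 := by rw [hzg, ← hgm, ← hg1]; congr 1
  have hzc : ∀ x ∈ X, z * x = x * z := by
    intro x hx
    obtain ⟨d, rfl⟩ := hgsurj x hx
    rw [hzg, ← hgm, ← hgm]
    rw [d8_center]
  have ht02 : t0 * t0 = 1 := by rw [ht0, ← hgm, ← hg1]; congr 1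
  have ht0r : t0 * r * t0 = r⁻¹ := by rw [ht0, hr, ← hgm, ← hgm, ← hginv]; congr 1
  have hfaithX : ∀ x ∈ X, (∀ a ∈ A, x * a * x⁻¹ = a) → x = 1 := fun x hx h =>
    hXA x hx (hAC.le (Subgroup.mem_centralizer_iff.2 fun a ha =>
      (mul_inv_eq_iff_eq_mul.1 (h a ha)).symm))
  have hzX : z ∈ X := hzg ▸ hgX _
  have hz1 : z ≠ 1 := by rw [hzg, ← hg1]; exact fun h => absurd (hginj h) (by decide)
  have horder : ∀ a ∈ A, a ≠ 1 → orderOf a = 3 := fun a ha h1 =>
    haveI : Fact (Nat.Prime 3) := ⟨Nat.prime_three⟩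
    orderOf_eq_prime (hA.2 a ha) h1
  have hzinv : ∀ a ∈ A, z * a * z⁻¹ = a⁻¹ := fun a ha =>
    fix_or_inv A hAc hr4
      (z_no_fixed A hA9 hAc hA.2 r z hz hr4 fun h => hz1 (hfaithX z hzX h)) ha
  -- a point fixed by `t0`
  obtain ⟨u, hu, hu1, htu⟩ : ∃ u ∈ A, u ≠ 1 ∧ t0 * u * t0⁻¹ = u := by
    by_contra hall
    push Not at hall
    have hinv : ∀ a ∈ A, t0 * a * t0⁻¹ = a⁻¹ := fun a ha =>
      fix_or_inv A hAc ht02 (fun b hb h => by_contra fun hb1 => hall b hb hb1 h) ha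
    have h1 := hfaithX (z * t0) (X.mul_mem hzX (hgX _)) fun a ha => by
      calc z * t0 * a * (z * t0)⁻¹ = z * (t0 * a * t0⁻¹) * z⁻¹ := by group
        _ = a := by rw [hinv a ha, hzinv _ (A.inv_mem ha), inv_inv]
    rw [hzg, ht0, ← hgm, ← hg1] at h1
    exact absurd (hginj h1) (by decide)
  set u2 := r * u * r⁻¹ with hu2
  have hu2A : u2 ∈ A := (inferInstance : A.Normal).conj_mem u hu r
  have hti : t0⁻¹ = t0 := inv_eq_of_mul_eq_one_right ht02
  have htu2 : t0 * u2 * t0⁻¹ = u2⁻¹ := by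
    calc t0 * u2 * t0⁻¹ = (t0 * r * t0) * (t0⁻¹ * u * t0) * (t0 * r * t0)⁻¹ := by rw [hu2]; group
      _ = r⁻¹ * (t0⁻¹ * u * t0) * r := by rw [ht0r]; group
      _ = r⁻¹ * u * r := by rw [hti]; nth_rewrite 2 [← hti]; rw [htu]
      _ = r * (z⁻¹ * u * z) * r⁻¹ := by rw [hz]; group
      _ = r * (z * u * z⁻¹) * r⁻¹ := by rw [inv_eq_of_mul_eq_one_right hr4]
      _ = u2⁻¹ := by rw [hzinv u hu, hu2]; group
  -- `A` is generated by `u` and `u2`
  have hd : Subgroup.zpowers u ⊓ Subgroup.zpowers u2 = ⊥ := by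
    rw [eq_bot_iff]
    rintro y ⟨hy1, hy2⟩
    have hyA : y ∈ A := Subgroup.zpowers_le.2 hu hy1
    obtain ⟨i, hi⟩ := Subgroup.mem_zpowers_iff.1 hy1
    obtain ⟨j, hj⟩ := Subgroup.mem_zpowers_iff.1 hy2
    have h1 : t0 * y * t0⁻¹ = y := by rw [← hi, ← conj_zpow, htu]
    have h2 : t0 * y * t0⁻¹ = y⁻¹ := by rw [← hj, ← conj_zpow, htu2, inv_zpow]
    have h6 : y * y = 1 := by rw [← mul_inv_cancel y]; exact congrArg (y * ·) (h1.symm.trans h2)
    have h7 := hA3 y hyA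
    rw [h6, mul_one] at h7
    exact Subgroup.mem_bot.2 h7
  have hu21 : u2 ≠ 1 := fun h => hu1 (conj_eq_one_iff.1 h)
  have hsup : Subgroup.zpowers u ⊔ Subgroup.zpowers u2 = A := by
    refine Subgroup.eq_of_le_of_card_ge (sup_le (Subgroup.zpowers_le.2 hu) (Subgroup.zpowers_le.2 hu2A)) ?_
    rw [CfsgLib.Minimal.card_sup_of_commute (fun y hy y' hy' =>
      hAc y (Subgroup.zpowers_le.2 hu hy) y' (Subgroup.zpowers_le.2 hu2A hy')) hd,
      Nat.card_zpowers, Nat.card_zpowers, horder u hu hu1, horder u2 hu2A hu21, hA9]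
  have hCA : ∀ m, (∀ a ∈ A, ρ a m = m) → m = 0 := by
    intro m hm
    let N : Submodule (ZMod 2) M :=
      { carrier := {m | ∀ a ∈ A, ρ a m = m}
        add_mem' := fun {p q} hp hq a ha => by rw [map_add, hp a ha, hq a ha]
        zero_mem' := fun a _ => map_zero _
        smul_mem' := fun c p hp a ha => by rw [map_smul, hp a ha] }
    rcases hirr N (fun x p hp a ha => by
      have h := hp _ ((inferInstance : A.Normal).conj_mem a ha x⁻¹)
      conv_rhs => rw [← h]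
      rw [inv_inv, ← hmul, ← hmul, ← mul_assoc, ← mul_assoc, mul_inv_cancel, one_mul]) with h | h
    · have : m ∈ N := hm
      rwa [h, Submodule.mem_bot] at this
    · exfalso
      have hu' : ρ u = ρ 1 := LinearMap.ext fun p => by
        rw [hone]; exact (h ▸ Submodule.mem_top : p ∈ N) u hu
      exact hu1 (hfaith hu')
  have hgen : ∀ s u' : S, (Subgroup.closure ({r, s} : Set S) = X) →
      (Subgroup.zpowers u' ⊔ Subgroup.zpowers (r * u' * r⁻¹) = A) →
      Subgroup.closure ({u', r * u' * r⁻¹, r, s} : Set S) = ⊤ := by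
    intro s u' hs' hu'
    rw [eq_top_iff, ← hAX, ← hs', ← hu']
    refine sup_le (sup_le (Subgroup.zpowers_le.2 (Subgroup.subset_closure ?_))
      (Subgroup.zpowers_le.2 (Subgroup.subset_closure ?_))) (Subgroup.closure_mono ?_)
    · simp
    · simp
    · intro y hy; rcases hy with rfl | rfl <;> simp
  have hXgen : ∀ d0 : DihedralGroup 4, Subgroup.closure ({.r 1, d0} : Set (DihedralGroup 4)) = ⊤ →
      Subgroup.closure ({r, g d0} : Set S) = X := by
    intro d0 hd0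
    have h1 := congrArg (Subgroup.map (X.subtype.comp e.symm.toMonoidHom)) hd0
    rw [MonoidHom.map_closure, ← MonoidHom.range_eq_map, MonoidHom.range_comp,
      MonoidHom.range_eq_top.2 e.symm.surjective, ← MonoidHom.range_eq_map, Subgroup.range_subtype] at h1
    rw [← h1, Set.image_pair]
    rfl
  have hd8 := d8_gen
  set t1 := r * t0 with ht1
  have ht1g : t1 = g (.sr 3) := by rw [ht1, hr, ht0, ← hgm]; congr 1
  set u' := u * u2 with hu'
  have hu'A : u' ∈ A := A.mul_mem hu hu2A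
  have hru2 : r * u2 * r⁻¹ = u⁻¹ := by
    rw [hu2, show r * (r * u * r⁻¹) * r⁻¹ = z * u * z⁻¹ by rw [hz]; group, hzinv u hu]
  have hru' : r * u' * r⁻¹ = u2 * u⁻¹ := by
    rw [hu', show r * (u * u2) * r⁻¹ = (r * u * r⁻¹) * (r * u2 * r⁻¹) by group, hru2]
  have ht1u' : t1 * u' * t1⁻¹ = u' := by
    calc t1 * u' * t1⁻¹ = r * ((t0 * u * t0⁻¹) * (t0 * u2 * t0⁻¹)) * r⁻¹ := by
          rw [hu', ht1]; group
      _ = (r * u * r⁻¹) * (r * u2 * r⁻¹)⁻¹ := by rw [htu, htu2]; group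
      _ = u' := by rw [hru2, inv_inv, hAc u2 hu2A u hu]
  have hsup' : Subgroup.zpowers u' ⊔ Subgroup.zpowers (r * u' * r⁻¹) = A := by
    refine le_antisymm (sup_le (Subgroup.zpowers_le.2 hu'A)
      (Subgroup.zpowers_le.2 ((inferInstance : A.Normal).conj_mem u' hu'A r))) ?_
    set T := Subgroup.zpowers u' ⊔ Subgroup.zpowers (r * u' * r⁻¹) with hT
    have m1 : u' ∈ T := Subgroup.mem_sup_left (Subgroup.mem_zpowers _)
    have m2 : u2 * u⁻¹ ∈ T := hru' ▸ Subgroup.mem_sup_right (Subgroup.mem_zpowers _)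
    have hu2T : u2 ∈ T := by
      have h5 := T.mul_mem m1 m2
      have h6 : u * u2 * (u2 * u⁻¹) = u2 * u2 := by
        calc u * u2 * (u2 * u⁻¹) = (u * u2) * u2 * u⁻¹ := by group
          _ = (u2 * u) * u2 * u⁻¹ := by rw [hAc u hu u2 hu2A]
          _ = u2 * (u * u2) * u⁻¹ := by group
          _ = u2 * (u2 * u) * u⁻¹ := by rw [hAc u hu u2 hu2A]
          _ = u2 * u2 := by group
      rw [hu', h6] at h5
      have h7 : u2 = (u2 * u2)⁻¹ := eq_inv_of_mul_eq_one_left (hA3 u2 hu2A)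
      rw [h7]; exact T.inv_mem h5
    have huT : u ∈ T := by simpa [hu'] using T.mul_mem m1 (T.inv_mem hu2T)
    rw [← hsup]
    exact sup_le (Subgroup.zpowers_le.2 huT) (Subgroup.zpowers_le.2 hu2T)
  -- some orbit has fixed vectors
  have hex : (∃ m, m ≠ 0 ∧ ρ u m = m) ∨ (∃ m, m ≠ 0 ∧ ρ u' m = m) := by
    have hback : ∀ a m, m ≠ 0 → ρ (r * a * r⁻¹) m = m → ∃ m', m' ≠ 0 ∧ ρ a m' = m' := by
      intro a m hm he
      refine ⟨ρ r⁻¹ m, fun h0 => hm ?_, ?_⟩
      · have := congrArg (ρ r) h0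
        rwa [← hmul, mul_inv_cancel, hone, map_zero] at this
      · have h1 := congrArg (ρ r⁻¹) he
        rw [← hmul, show r⁻¹ * (r * a * r⁻¹) = a * r⁻¹ by group, hmul] at h1
        exact h1
    obtain ⟨m, hm, h | h | h | h⟩ :=
      exists_fixed ρ u u2 (hA3 u hu) (hA3 u2 hu2A) (hAc u hu u2 hu2A)
    · exact Or.inl ⟨m, hm, h⟩
    · exact Or.inl (hback u m hm h)
    · exact Or.inr ⟨m, hm, h⟩
    · exact Or.inr (hback u' m hm (by rw [hru']; exact h))
  have hA' : ∀ a b, Subgroup.zpowers a ⊔ Subgroup.zpowers b = A → ∀ m, ρ a m = m → ρ b m = m → m = 0 := by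
    intro a b hab m ha hb
    refine hCA m fun c hc => ?_
    rw [← hab] at hc
    let St : Subgroup S :=
      { carrier := {y | ρ y m = m}
        one_mem' := hone m
        mul_mem' := fun {p q} hp hq => by
          change ρ (p * q) m = m
          rw [hmul, (show ρ q m = m from hq), (show ρ p m = m from hp)]
        inv_mem' := fun {p} hp => by
          change ρ p⁻¹ m = m
          conv_lhs => rw [← (show ρ p m = m from hp), ← hmul, inv_mul_cancel, hone] }
    exact (sup_le (Subgroup.zpowers_le.2 (show a ∈ St from ha))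
      (Subgroup.zpowers_le.2 (show b ∈ St from hb)) : _ ≤ St) hc
  -- the two four-groups
  let Bf : ZMod 4 → Subgroup S := fun j =>
    { carrier := {x | ∃ d ∈ fourSet j, g d = x}
      one_mem' := ⟨1, fourSet_one_mem j, hg1⟩
      mul_mem' := fun {p q} hp hq => by
        obtain ⟨a, ha, rfl⟩ := hp
        obtain ⟨b, hb, rfl⟩ := hq
        exact ⟨a * b, fourSet_mul_mem j a ha b hb, hgm a b⟩
      inv_mem' := fun {p} hp => by
        obtain ⟨a, ha, rfl⟩ := hp
        exact ⟨a⁻¹, fourSet_inv_mem j a ha, hginv a⟩ }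
  have hBX : ∀ j, Bf j ≤ X := fun j x hx => by obtain ⟨d, -, rfl⟩ := hx; exact hgX _
  have hBcard : ∀ j, Nat.card (Bf j) = 4 := fun j => by
    have hset : (Bf j : Set S) = g '' (fourSet j : Set (DihedralGroup 4)) := rfl
    rw [show Nat.card (Bf j) = (Bf j : Set S).ncard from Nat.card_coe_set_eq _, hset,
      Set.ncard_image_of_injective _ hginj, Set.ncard_coe_finset, fourSet_card]
  have hBsq : ∀ j, ∀ b ∈ Bf j, b ^ 2 = 1 := fun j b hb => by
    obtain ⟨d, hd, rfl⟩ := hb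
    rw [pow_two, ← hgm, fourSet_sq j d hd, hg1]
  have hBfix : ∀ j, Nat.card {m : M // ∀ b ∈ Bf j, ρ b m = m} =
      {m : M | ρ z m = m ∧ ρ (g (.sr j)) m = m}.ncard := by
    intro j
    rw [← Nat.card_coe_set_eq]
    refine Nat.card_congr (Equiv.subtypeEquivRight fun m => ⟨fun h => ?_, fun h b hb => ?_⟩)
    · exact ⟨h z ⟨_, fourSet_r_mem j, hzg.symm⟩, h _ ⟨_, fourSet_sr_mem j, rfl⟩⟩
    · obtain ⟨d, hd, rfl⟩ := hb
      rcases fourSet_cases j d hd with h' | h' | h' | h' <;> rw [h']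
      · rw [hg1, hone]
      · rw [← hzg]; exact h.1
      · exact h.2
      · rw [hgm, ← hzg, hmul, h.1]; exact h.2
  have hclass : ∀ B' : Subgroup S, B' ≤ X → Nat.card B' = 4 → (∀ b ∈ B', b ^ 2 = 1) →
      B' = Bf 0 ∨ B' = Bf 3 := by
    intro B' hB'X hB'c hB'2
    have hcomm : ∀ a ∈ B', ∀ b ∈ B', a * b = b * a := fun a ha b hb => by
      have h : ∀ y ∈ B', y⁻¹ = y := fun y hy =>
        inv_eq_of_mul_eq_one_right (by rw [← pow_two]; exact hB'2 y hy)
      rw [← h _ (B'.mul_mem ha hb), mul_inv_rev, h a ha, h b hb]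
    have hsubB : B' ≤ Bf 0 ∨ B' ≤ Bf 3 := by
      by_contra hne
      push Not at hne
      obtain ⟨a, ha, ha'⟩ := SetLike.not_le_iff_exists.1 hne.1
      obtain ⟨b, hb, hb'⟩ := SetLike.not_le_iff_exists.1 hne.2
      obtain ⟨da, rfl⟩ := hgsurj a (hB'X ha)
      obtain ⟨db, rfl⟩ := hgsurj b (hB'X hb)
      rcases d8_four_groups da db (hginj (by rw [hgm, hg1, ← pow_two]; exact hB'2 _ ha))
          (hginj (by rw [hgm, hg1, ← pow_two]; exact hB'2 _ hb))
          (hginj (by rw [hgm, hgm]; exact hcomm _ ha _ hb)) with ⟨h1, -⟩ | ⟨-, h2⟩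
      · exact ha' ⟨da, h1, rfl⟩
      · exact hb' ⟨db, h2, rfl⟩
    rcases hsubB with h | h
    · exact Or.inl (Subgroup.eq_of_le_of_card_ge h (by rw [hB'c, hBcard]))
    · exact Or.inr (Subgroup.eq_of_le_of_card_ge h (by rw [hB'c, hBcard]))
  have hr4' : r * r * (r * r) = 1 := hr4
  rcases hex with ⟨v0, hv0, hv0u⟩ | ⟨v0, hv0, hv0u⟩
  · obtain ⟨h16, hfix2, hfix4⟩ := orbit_case ρ hirr r t0 u (hgen t0 u (hXgen _ (hd8 0)) hsup)
      (hA3 u hu) (hAc u hu u2 hu2A) hr4' ht02 ht0r (hzinv u hu) htu (hA' u u2 hsup) v0 hv0 hv0u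
    refine ⟨h16, Bf 3, hBX 3, hBcard 3, hBsq 3, ?_, fun B' h1 h2 h3 h4 => ?_⟩
    · rw [hBfix, ← ht1g]; exact hfix2
    · rcases hclass B' h1 h2 h3 with rfl | rfl
      · rw [hBfix, ← ht0, hfix4] at h4; omega
      · rfl
  · have ht12 : t1 * t1 = 1 := by rw [ht1g, ← hgm, ← hg1]; congr 1
    have ht1r : t1 * r * t1 = r⁻¹ := by rw [ht1g, hr, ← hgm, ← hgm, ← hginv]; congr 1
    obtain ⟨h16, hfix2, hfix4⟩ := orbit_case ρ hirr r t1 u'
      (hgen t1 u' (ht1g ▸ hXgen _ (hd8 3)) hsup') (hA3 u' hu'A)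
      (hAc u' hu'A _ ((inferInstance : A.Normal).conj_mem u' hu'A r)) hr4' ht12 ht1r (hzinv u' hu'A)
      ht1u' (hA' u' _ hsup') v0 hv0 hv0u
    refine ⟨h16, Bf 0, hBX 0, hBcard 0, hBsq 0, ?_, fun B' h1 h2 h3 h4 => ?_⟩
    · rw [hBfix, ← ht0]
      refine Eq.trans ?_ hfix2
      congr 1
      ext m
      simp only [Set.mem_setOf_eq, ← hz]
      refine and_congr_right fun hzm => ?_
      rw [ht1, show r * (r * t0) = z * t0 by rw [hz]; group]
      rw [hzc t0 (hgX _), hmul, hzm]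
    · rcases hclass B' h1 h2 h3 with rfl | rfl
      · rfl
      · rw [hBfix, ← ht1g, hfix4] at h4; omega

/-- Let S be a finite group with a normal elementary abelian subgroup A of order 9 that is self-centralizing (C_S(A) = A), and a dihedral subgroup X of order 8 with S = AX. Let M be a finite-dimensional module for S over the field with two elements that is faithful and irreducible. Then M has 16 elements, and X contains exactly one subgroup B of order 4 and exponent 2 whose fixed points on M form a subspace with exactly 2 elements (equivalently, M is free of rank one over the group algebra of B). -/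
theorem result {S : Type*} [Group S] [Finite S]
    (A : Subgroup S) [A.Normal] (hA : Cfsg.IsElementaryAbelian 3 A) (hA9 : Nat.card ↥A = 9)
    (hAC : Subgroup.centralizer (A : Set S) = A) (X : Subgroup S) (hX : Nonempty (↥X ≃* DihedralGroup 4)) (hAX : A ⊔ X = ⊤)
    {M : Type*} [AddCommGroup M] [Module (ZMod 2) M] [Finite M] (ρ : Representation (ZMod 2) S M)
    (hfaith : Function.Injective ρ)
    (hirr : ∀ N : Submodule (ZMod 2) M, (∀ s : S, ∀ m ∈ N, ρ s m ∈ N) → N = ⊥ ∨ N = ⊤) (hM : Nontrivial M) :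
    Nat.card M = 16 ∧
      ∃! B : Subgroup S, B ≤ X ∧ Nat.card ↥B = 4 ∧ (∀ b ∈ B, b ^ 2 = 1) ∧
        Nat.card {m : M // ∀ b ∈ B, ρ b m = m} = 2 := by
  obtain ⟨e⟩ := hX
  obtain ⟨h16, B, hB1, hB2, hB3, hB4, huniq⟩ :=
    main_aux A hA hA9 hAC X e hAX ρ hfaith hirr hM
  exact ⟨h16, B, ⟨hB1, hB2, hB3, hB4⟩, fun B' ⟨g1, g2, g3, g4⟩ => huniq B' g1 g2 g3 g4⟩

end Cfsg.Agent.S4407
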