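import Cfsg.Statements.S4408
import Cfsg.Agent.Lib.PSolvable.FrattiniFacts
import Cfsg.Agent.Lib.Minimal.CentralPairs

set_option autoImplicit false
set_option linter.style.haveILetI false
open Cfsg

namespace Cfsg.Agent.S4408

theorem exists_eigen {Q : Type*} [Group Q] (T : Subgroup Q)
    (hT : ∀ x ∈ T, ∀ y ∈ T, x * y = y * x) (hne : T ≠ ⊥) (L : Finset Q)
    (hsq : ∀ s ∈ L, s * s = 1) (hcomm : ∀ s ∈ L, ∀ r ∈ L, s * r = r * s)
    (hinv : ∀ s ∈ L, ∀ x ∈ T, s * x * s ∈ T) :
    ∃ c ∈ T, c ≠ 1 ∧ ∀ s ∈ L, s * c * s = c ∨ s * c * s = c⁻¹ := by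
  classical
  induction L using Finset.induction_on with
  | empty =>
    obtain ⟨⟨c, hc⟩, hc1⟩ := (Subgroup.ne_bot_iff_exists_ne_one).1 hne
    exact ⟨c, hc, fun h => hc1 (Subtype.ext h), by simp⟩
  | insert s L _ ih =>
    obtain ⟨c, hc, hc1, hcL⟩ := ih (fun r hr => hsq r (Finset.mem_insert_of_mem hr))
      (fun r hr r' hr' => hcomm r (Finset.mem_insert_of_mem hr) r' (Finset.mem_insert_of_mem hr'))
      (fun r hr => hinv r (Finset.mem_insert_of_mem hr))
    by_cases hs : s * c * s = c
    · refine ⟨c, hc, hc1, fun r hr => ?_⟩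
      rcases Finset.mem_insert.1 hr with rfl | hr
      · exact Or.inl hs
      · exact hcL r hr
    · set d := s * c * s with hd
      have hdT : d ∈ T := hinv s (Finset.mem_insert_self _ _) c hc
      have hss : s * s = 1 := hsq s (Finset.mem_insert_self _ _)
      have hsi : s⁻¹ = s := inv_eq_of_mul_eq_one_right hss
      refine ⟨c⁻¹ * d, T.mul_mem (T.inv_mem hc) hdT, fun h => hs (inv_mul_eq_one.1 h).symm,
        fun r hr => ?_⟩
      rcases Finset.mem_insert.1 hr with rfl | hr'
      · right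
        calc r * (c⁻¹ * d) * r = (r * c⁻¹ * r) * c * (r * r) := by rw [hd]; group
          _ = d⁻¹ * c := by rw [hss, mul_one, hd, mul_inv_rev, mul_inv_rev, hsi, ← mul_assoc]
          _ = (c⁻¹ * d)⁻¹ := by group
      · have hrr : r * r = 1 := hsq r hr
        have hri : r⁻¹ = r := inv_eq_of_mul_eq_one_right hrr
        have hrs : r * s = s * r := hcomm r hr s (Finset.mem_insert_self _ _)
        have h2 : r * d * r = s * (r * c * r) * s := by
          calc r * d * r = (r * s) * c * (s * r) := by rw [hd]; group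
            _ = (s * r) * c * (r * s) := by rw [hrs]
            _ = s * (r * c * r) * s := by group
        have h3 : r * (c⁻¹ * d) * r = (r * c * r)⁻¹ * (r * d * r) := by
          calc r * (c⁻¹ * d) * r = r * c⁻¹ * (r * r) * d * r := by rw [hrr]; group
            _ = (r⁻¹ * c * r⁻¹)⁻¹ * (r * d * r) := by group
            _ = (r * c * r)⁻¹ * (r * d * r) := by rw [hri]
        rw [h3, h2]
        rcases hcL r hr' with h | h
        · left; rw [h]
        · right
          rw [h, inv_inv, show s * c⁻¹ * s = d⁻¹ by rw [hd, mul_inv_rev, mul_inv_rev, hsi, mul_assoc],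
            mul_inv_rev c⁻¹ d, inv_inv, hT d⁻¹ (T.inv_mem hdT) c hc]

theorem mem_normalizer_of_conj_mem {G : Type*} [Group G] [Finite G] {H : Subgroup G} {g : G}
    (h : ∀ x ∈ H, g * x * g⁻¹ ∈ H) : g ∈ Subgroup.normalizer (H : Set G) := by
  have he : H.map (MulAut.conj g).toMonoidHom = H := by
    refine Subgroup.eq_of_le_of_card_ge ?_ ?_
    · rintro _ ⟨x, hx, rfl⟩; exact h x hx
    · exact (Nat.card_congr (H.equivMapOfInjective _ (MulAut.conj g).injective).toEquiv).le
  rw [Subgroup.mem_normalizer_iff]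
  refine fun x => ⟨h x, fun hx => ?_⟩
  rw [← he] at hx
  obtain ⟨y, hy, hyx⟩ := hx
  have : y = x := (MulAut.conj g).injective hyx
  exact this ▸ hy

/-- An abelian subgroup of `F` invariant under the elementary abelian `I` and equal to its
centralizer in `F`, normal in `F`. -/
theorem exists_selfCentralizing {S : Type*} [Group S] [Finite S] (F I : Subgroup S) [hFn : F.Normal]
    (hF : Group.IsNilpotent F) (hI : Cfsg.IsElementaryAbelian 2 I) :
    ∃ A : Subgroup S, A ≤ F ∧ IsMulCommutative A ∧ I ≤ Subgroup.normalizer (A : Set S) ∧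
      F ≤ Subgroup.normalizer (A : Set S) ∧ F ⊓ Subgroup.centralizer (A : Set S) ≤ A := by
  classical
  obtain ⟨A, hA, hmax⟩ := Set.Finite.exists_maximal
    (s := {A : Subgroup S | A ≤ F ∧ A ≤ Subgroup.centralizer (A : Set S) ∧
      I ≤ Subgroup.normalizer (A : Set S) ∧ F ≤ Subgroup.normalizer (A : Set S)}) (Set.toFinite _)
    ⟨⊥, bot_le, bot_le, fun g _ => mem_normalizer_of_conj_mem (by simp),
      fun g _ => mem_normalizer_of_conj_mem (by simp)⟩
  obtain ⟨hAF, hAc, hAI, hAFn⟩ := hA
  refine ⟨A, hAF, ⟨⟨fun x y => Subtype.ext ((Subgroup.mem_centralizer_iff.1 (hAc y.2)) x x.2)⟩⟩,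
    hAI, hAFn, ?_⟩
  by_contra hC
  set C := F ⊓ Subgroup.centralizer (A : Set S) with hCdef
  have hAC : A ≤ C := le_inf hAF hAc
  have hCn : ∀ g ∈ Subgroup.normalizer (A : Set S), ∀ x ∈ C, g * x * g⁻¹ ∈ C := by
    intro g hg x hx
    refine ⟨hFn.conj_mem x hx.1 g, Subgroup.mem_centralizer_iff.2 fun a ha => ?_⟩
    have h1 : g⁻¹ * a * g ∈ A := by
      have := (Subgroup.mem_normalizer_iff.1 (Subgroup.inv_mem _ hg) a).1 ha
      simpa using this
    have := Subgroup.mem_centralizer_iff.1 hx.2 _ h1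
    calc a * (g * x * g⁻¹) = g * ((g⁻¹ * a * g) * x) * g⁻¹ := by group
      _ = g * (x * (g⁻¹ * a * g)) * g⁻¹ := by rw [this]
      _ = g * x * g⁻¹ * a := by group
  set N := Subgroup.normalizer (A : Set S) with hN
  set K := A.subgroupOf N with hK
  haveI : K.Normal := Subgroup.normal_in_normalizer
  set π := QuotientGroup.mk' K with hπ
  have hπ1 : ∀ x : N, π x = 1 ↔ (x : S) ∈ A := fun x => by
    rw [hπ, QuotientGroup.mk'_apply, QuotientGroup.eq_one_iff, hK, Subgroup.mem_subgroupOf]
  set Fb := (F.subgroupOf N).map π with hFb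
  set Cb := (C.subgroupOf N).map π with hCb
  have hCbn : (Cb.subgroupOf Fb).Normal := by
    constructor
    rintro ⟨x, hxF⟩ hx ⟨g, hg⟩
    rw [Subgroup.mem_subgroupOf] at hx ⊢
    obtain ⟨x, hx', rfl⟩ := hx
    obtain ⟨g, hg', rfl⟩ := hg
    exact ⟨g * x * g⁻¹, hCn _ g.2 _ hx', by simp⟩
  have hCbne : Cb.subgroupOf Fb ≠ ⊥ := by
    obtain ⟨c, hcC, hcA⟩ := SetLike.not_le_iff_exists.1 hC
    intro h
    have hcm : π ⟨c, hAFn hcC.1⟩ ∈ Cb := ⟨_, hcC, rfl⟩
    have hcF : π ⟨c, hAFn hcC.1⟩ ∈ Fb := ⟨_, hcC.1, rfl⟩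
    have : (⟨_, hcF⟩ : Fb) ∈ Cb.subgroupOf Fb := hcm
    rw [h, Subgroup.mem_bot] at this
    exact hcA ((hπ1 _).1 (congrArg Subtype.val this))
  haveI : Group.IsNilpotent (F.subgroupOf N) :=
    Group.nilpotent_of_mulEquiv (Subgroup.subgroupOfEquivOfLe hAFn).symm
  haveI : Group.IsNilpotent Fb :=
    Group.nilpotent_of_surjective (π.subgroupMap (F.subgroupOf N))
      (π.subgroupMap_surjective _)
  set T := Cb ⊓ Subgroup.centralizer (Fb : Set (N ⧸ K)) with hT
  have hCbF : Cb ≤ Fb := Subgroup.map_mono fun x hx => hx.1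
  have hTne : T ≠ ⊥ := by
    obtain ⟨⟨⟨x, hxF⟩, hxC, hxZ⟩, hx1⟩ := Subgroup.ne_bot_iff_exists_ne_one.1
      (CfsgLib.PSolvable.inf_center_ne_bot hCbne)
    refine Subgroup.ne_bot_iff_exists_ne_one.2 ⟨⟨x, hxC, Subgroup.mem_centralizer_iff.2 fun y hy =>
      congrArg Subtype.val (Subgroup.mem_center_iff.1 hxZ ⟨y, hy⟩)⟩, fun h => hx1 ?_⟩
    have : x = 1 := congrArg Subtype.val h
    exact Subtype.ext (Subtype.ext this)
  have hTab : ∀ x ∈ T, ∀ y ∈ T, x * y = y * x := fun x hx y hy =>
    Subgroup.mem_centralizer_iff.1 hy.2 x (hCbF hx.1)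
  let L : Finset (N ⧸ K) := (Set.toFinite {q | ∃ s : N, (s : S) ∈ I ∧ π s = q}).toFinset
  have hL : ∀ q, q ∈ L ↔ ∃ s : N, (s : S) ∈ I ∧ π s = q := fun q => by simp [L]
  have hIsq : ∀ s ∈ I, s * s = 1 := fun s hs => by rw [← pow_two]; exact hI.2 s hs
  have hIc : ∀ s ∈ I, ∀ r ∈ I, s * r = r * s := fun s hs r hr =>
    congrArg Subtype.val (hI.1.is_comm.comm ⟨s, hs⟩ ⟨r, hr⟩)
  obtain ⟨cb, hcb, hcb1, hcbL⟩ := exists_eigen T hTab hTne L
    (fun q hq => by
      obtain ⟨s, hs, rfl⟩ := (hL q).1 hq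
      rw [← map_mul, show s * s = 1 from Subtype.ext (hIsq _ hs), map_one])
    (fun q hq q' hq' => by
      obtain ⟨s, hs, rfl⟩ := (hL q).1 hq
      obtain ⟨r, hr, rfl⟩ := (hL q').1 hq'
      rw [← map_mul, ← map_mul, show s * r = r * s from Subtype.ext (hIc _ hs _ hr)])
    (fun q hq x hx => by
      obtain ⟨s, hs, rfl⟩ := (hL q).1 hq
      obtain ⟨⟨x, hx', rfl⟩, hxc⟩ := hx
      have hsi : s⁻¹ = s := inv_eq_of_mul_eq_one_right (Subtype.ext (hIsq _ hs))
      rw [← map_mul, ← map_mul]
      refine ⟨⟨s * x * s, ?_, rfl⟩, Subgroup.mem_centralizer_iff.2 ?_⟩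
      · have := hCn _ s.2 _ hx'
        rw [← Subgroup.coe_inv, hsi] at this
        exact this
      · rintro _ ⟨y, hy, rfl⟩
        have hy' : π (s * y * s) ∈ Fb := ⟨_, by
          have h5 : (s : S) * y * (s : S)⁻¹ ∈ F := hFn.conj_mem _ hy _
          rw [← Subgroup.coe_inv, hsi] at h5
          exact h5, rfl⟩
        have h6 := Subgroup.mem_centralizer_iff.1 hxc _ hy'
        have hss : π s * π s = 1 := by
          rw [← map_mul, show s * s = 1 from Subtype.ext (hIsq _ hs), map_one]
        simp only [map_mul] at h6 ⊢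
        calc π y * (π s * π x * π s) = π s * ((π s * π y * π s) * π x) * π s := by
              simp only [← mul_assoc, hss, one_mul]
          _ = π s * (π x * (π s * π y * π s)) * π s := by rw [h6]
          _ = π s * π x * π s * π y := by simp only [mul_assoc, hss, mul_one])
  obtain ⟨⟨c, hcC, rfl⟩, hcc⟩ := hcb
  set A' := A ⊔ Subgroup.zpowers (c : S) with hA'
  have hcA' : (c : S) ∈ A' := Subgroup.mem_sup_right (Subgroup.mem_zpowers _)
  have hgen : ∀ g ∈ N, (g * c * g⁻¹ * (c : S)⁻¹ ∈ A ∨ g * c * g⁻¹ * (c : S) ∈ A) →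
      g ∈ Subgroup.normalizer (A' : Set S) := by
    intro g hg hcg
    refine mem_normalizer_of_conj_mem ?_
    have hle : A' ≤ A'.comap (MulAut.conj g).toMonoidHom := by
      refine sup_le (fun a ha => ?_) (Subgroup.zpowers_le.2 ?_)
      · exact Subgroup.mem_sup_left ((Subgroup.mem_normalizer_iff.1 hg a).1 ha)
      · rcases hcg with h | h
        · have := A'.mul_mem (Subgroup.mem_sup_left h) hcA'
          simpa using this
        · have := A'.mul_mem (Subgroup.mem_sup_left h) (A'.inv_mem hcA')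
          simpa using this
    exact fun x hx => hle hx
  have hA'mem : A' ∈ {A : Subgroup S | A ≤ F ∧ A ≤ Subgroup.centralizer (A : Set S) ∧
      I ≤ Subgroup.normalizer (A : Set S) ∧ F ≤ Subgroup.normalizer (A : Set S)} := by
    refine ⟨sup_le hAF (Subgroup.zpowers_le.2 hcC.1), ?_, fun g hg => ?_, fun g hg => ?_⟩
    · have h1 : A' ≤ Subgroup.centralizer (A : Set S) :=
        sup_le hAc (Subgroup.zpowers_le.2 hcC.2)
      refine sup_le (Subgroup.le_centralizer_iff.1 h1) (Subgroup.le_centralizer_iff.1 ?_)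
      refine sup_le ?_ ?_
      · exact Subgroup.le_centralizer_iff.1 (Subgroup.zpowers_le.2 hcC.2)
      · exact Subgroup.le_centralizer (Subgroup.zpowers (c : S))
    · have hgN : g ∈ N := hAI hg
      refine hgen g hgN ?_
      have hgi : g⁻¹ = g := inv_eq_of_mul_eq_one_right (hIsq g hg)
      rw [hgi]
      rcases hcbL (π ⟨g, hgN⟩) ((hL _).2 ⟨⟨g, hgN⟩, hg, rfl⟩) with h | h
      · left
        rw [← mul_inv_eq_one] at h
        simp only [← map_inv, ← map_mul] at h
        exact (hπ1 _).1 h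
      · right
        rw [← mul_eq_one_iff_eq_inv] at h
        simp only [← map_mul] at h
        exact (hπ1 _).1 h
    · have hgN : g ∈ N := hAFn hg
      refine hgen g hgN (Or.inl ?_)
      have h := Subgroup.mem_centralizer_iff.1 hcc (π ⟨g, hgN⟩) ⟨_, hg, rfl⟩
      rw [← mul_inv_eq_one, mul_inv_rev, ← mul_assoc, mul_assoc _ (π ⟨g, hgN⟩)⁻¹] at h
      have h' : π (⟨g, hgN⟩ * c * ⟨g, hgN⟩⁻¹ * c⁻¹) = 1 := by
        simpa [map_mul, mul_assoc] using h
      exact (hπ1 _).1 h'
  have := hmax hA'mem le_sup_left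
  exact hcb1 ((hπ1 c).2 (this hcA'))

theorem eq_one_of_odd {S : Type*} [Group S] [Finite S] {F : Subgroup S}
    (hF : Odd (Nat.card F)) {x : S} (hx : x ∈ F) (h2 : x * x = 1) : x = 1 := by
  have h1 : orderOf x ∣ 2 := orderOf_dvd_of_pow_eq_one (by rw [pow_two, h2])
  have h3 := F.orderOf_dvd_natCard hx
  have hco : Nat.Coprime 2 (Nat.card F) := Nat.coprime_two_left.2 hF
  exact orderOf_eq_one_iff.1 (Nat.dvd_one.1 (hco.gcd_eq_one ▸ Nat.dvd_gcd h1 h3))

theorem exists_family {S : Type*} [Group S] [Finite S] (F A I : Subgroup S) (hFodd : Odd (Nat.card F))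
    (hAF : A ≤ F) (hA : IsMulCommutative A) (hAI : I ≤ Subgroup.normalizer (A : Set S))
    (hI : Cfsg.IsElementaryAbelian 2 I) (hfaith : I ⊓ Subgroup.centralizer (A : Set S) = ⊥)
    (n : ℕ) (hIn : Nat.card I = 2 ^ n) : ∀ k, k ≤ n →
    ∃ f : Fin k → Subgroup S, (∀ i, (Nat.card (f i)).Prime) ∧ (∀ i, f i ≤ A) ∧
      (∀ i, I ≤ Subgroup.normalizer (f i : Set S)) ∧
      Nat.card (⨆ i, f i : Subgroup S) = ∏ i, Nat.card (f i) ∧
      Nat.card (I ⊓ Subgroup.centralizer ((⨆ i, f i : Subgroup S) : Set S) : Subgroup S) * 2 ^ k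
        = 2 ^ n := by
  classical
  have hAc : ∀ x ∈ A, ∀ y ∈ A, x * y = y * x := fun x hx y hy =>
    congrArg Subtype.val (hA.is_comm.comm ⟨x, hx⟩ ⟨y, hy⟩)
  have hIsq : ∀ s ∈ I, s * s = 1 := fun s hs => by rw [← pow_two]; exact hI.2 s hs
  have hIinv : ∀ s ∈ I, s⁻¹ = s := fun s hs => inv_eq_of_mul_eq_one_right (hIsq s hs)
  have hIA : ∀ s ∈ I, ∀ x ∈ A, s * x * s ∈ A := fun s hs x hx => by
    have := (Subgroup.mem_normalizer_iff.1 (hAI hs) x).1 hx
    rwa [hIinv s hs] at this
  intro k
  induction k with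
  | zero =>
    intro _
    refine ⟨Fin.elim0, fun i => i.elim0, fun i => i.elim0, fun i => i.elim0, by simp, ?_⟩
    have htop : Subgroup.centralizer ((⊥ : Subgroup S) : Set S) = ⊤ := by
      rw [eq_top_iff]
      intro x _
      rw [Subgroup.mem_centralizer_iff]
      intro h hh
      rw [SetLike.mem_coe, Subgroup.mem_bot] at hh
      subst hh; simp
    rw [iSup_of_empty, htop, inf_top_eq, hIn, pow_zero, mul_one]
  | succ k ih =>
    intro hk
    obtain ⟨f, hfp, hfA, hfI, hfc, hcard⟩ := ih (by omega)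
    set P := ⨆ i, f i with hP
    set K := I ⊓ Subgroup.centralizer (P : Set S) with hK
    have hPA : P ≤ A := iSup_le hfA
    obtain ⟨⟨t, htK⟩, ht1⟩ := Subgroup.ne_bot_iff_exists_ne_one.1 (show K ≠ ⊥ from fun h => by
      rw [h, Subgroup.card_bot, one_mul] at hcard
      have := Nat.pow_right_injective (le_refl 2) hcard
      omega)
    have htA : t ∉ Subgroup.centralizer (A : Set S) := fun h => ht1 (Subtype.ext (by
      have : t ∈ (⊥ : Subgroup S) := hfaith ▸ ⟨htK.1, h⟩
      exact this))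
    rw [Subgroup.mem_centralizer_iff] at htA
    push Not at htA
    obtain ⟨a, ha, hat⟩ := htA
    let B : Subgroup S :=
      { carrier := {x | x ∈ A ∧ t * x * t = x⁻¹}
        one_mem' := ⟨A.one_mem, by rw [mul_one, hIsq t htK.1, inv_one]⟩
        mul_mem' := fun {x y} hx hy => ⟨A.mul_mem hx.1 hy.1, by
          calc t * (x * y) * t = (t * x * t) * (t * y * t) := by
                simp only [mul_assoc]; rw [← mul_assoc t t, hIsq t htK.1, one_mul]
            _ = (x * y)⁻¹ := by
                rw [hx.2, hy.2, mul_inv_rev, hAc _ (A.inv_mem hx.1) _ (A.inv_mem hy.1)]⟩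
        inv_mem' := fun {x} hx => ⟨A.inv_mem hx.1, by
          calc t * x⁻¹ * t = (t⁻¹ * x * t⁻¹)⁻¹ := by group
            _ = x⁻¹⁻¹ := by rw [hIinv t htK.1, hx.2]⟩ }
    have hBne : B ≠ ⊥ := by
      refine Subgroup.ne_bot_iff_exists_ne_one.2 ⟨⟨a⁻¹ * (t * a * t),
        A.mul_mem (A.inv_mem ha) (hIA t htK.1 a ha), ?_⟩, fun h => hat ?_⟩
      · calc t * (a⁻¹ * (t * a * t)) * t = (t * a⁻¹ * t) * a * (t * t) := by group
          _ = (a⁻¹ * (t⁻¹ * a * t⁻¹))⁻¹ := by rw [hIsq t htK.1]; group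
          _ = _ := by rw [hIinv t htK.1]
      · have h1 : a⁻¹ * (t * a * t) = 1 := congrArg Subtype.val h
        rw [inv_mul_eq_one] at h1
        conv_lhs => rw [h1]
        rw [mul_assoc, hIsq t htK.1, mul_one]
    obtain ⟨c, hcB, hc1, hcI⟩ := exists_eigen B (fun x hx y hy => hAc x hx.1 y hy.1) hBne
      (Set.toFinite (I : Set S)).toFinset (fun s hs => hIsq s (by simpa using hs))
      (fun s hs r hr => congrArg Subtype.val
        (hI.1.is_comm.comm ⟨s, by simpa using hs⟩ ⟨r, by simpa using hr⟩))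
      (fun s hs x hx => by
        have hs : s ∈ I := by simpa using hs
        refine ⟨hIA s hs x hx.1, ?_⟩
        have hst : t * s = s * t := congrArg Subtype.val (hI.1.is_comm.comm ⟨t, htK.1⟩ ⟨s, hs⟩)
        calc t * (s * x * s) * t = (t * s) * x * (s * t) := by group
          _ = (s * t) * x * (t * s) := by rw [hst]
          _ = s * (t * x * t) * s := by group
          _ = (s⁻¹ * x * s⁻¹)⁻¹ := by rw [hx.2]; group
          _ = _ := by rw [hIinv s hs])
    obtain ⟨q, hq, hqd⟩ := Nat.exists_prime_and_dvd (mt orderOf_eq_one_iff.1 hc1)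
    set y := c ^ (orderOf c / q) with hy
    have hyo : orderOf y = q := orderOf_pow_orderOf_div (orderOf_pos c).ne' hqd
    have hyc : y ∈ Subgroup.zpowers c := Subgroup.npow_mem_zpowers c _
    have hyB : y ∈ B := B.pow_mem hcB _
    have hy1 : y ≠ 1 := fun h => by rw [h, orderOf_one] at hyo; exact hq.ne_one hyo.symm
    have hyI : ∀ s ∈ I, s * y * s = y ∨ s * y * s = y⁻¹ := by
      intro s hs
      have : s * y * s = (s * c * s) ^ (orderOf c / q) := by
        conv_rhs => arg 1; arg 2; rw [← hIinv s hs]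
        rw [conj_pow, hIinv s hs]
      rw [this]
      rcases hcI s (by simpa using hs) with h | h
      · left; rw [h]
      · right; rw [h, inv_pow]
    have hty : t * y ≠ y * t := fun h => hy1 (eq_one_of_odd hFodd (hAF hyB.1) (by
      have h2 := hyB.2
      rw [h, mul_assoc, hIsq t htK.1, mul_one] at h2
      conv_lhs => arg 1; rw [h2]
      exact inv_mul_cancel y))
    set Z := Subgroup.zpowers y with hZ
    have hZP : P ⊓ Z = ⊥ := by
      have hdvd := Subgroup.card_dvd_of_le (inf_le_right : P ⊓ Z ≤ Z)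
      rw [hZ, Nat.card_zpowers, hyo] at hdvd
      rcases hq.eq_one_or_self_of_dvd _ hdvd with h | h
      · exact Subgroup.eq_bot_of_card_eq _ h
      · exfalso
        have := Subgroup.eq_of_le_of_card_ge (inf_le_right : P ⊓ Z ≤ Z)
          (by rw [hZ, Nat.card_zpowers, hyo]; exact h.ge)
        have hyP : y ∈ P := (this.ge (Subgroup.mem_zpowers y)).1
        exact hty (Subgroup.mem_centralizer_iff.1 htK.2 y hyP).symm
    have hsup : (⨆ i, (Fin.snoc f Z : Fin (k + 1) → Subgroup S) i) = P ⊔ Z := by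
      refine le_antisymm (iSup_le fun i => ?_) (sup_le (iSup_le fun i => ?_) ?_)
      · induction i using Fin.lastCases with
        | last => simp
        | cast j => simpa using le_sup_of_le_left (le_iSup f j)
      · simpa using le_iSup (Fin.snoc f Z : Fin (k + 1) → Subgroup S) i.castSucc
      · simpa using le_iSup (Fin.snoc f Z : Fin (k + 1) → Subgroup S) (Fin.last k)
    refine ⟨Fin.snoc f Z, fun i => ?_, fun i => ?_, fun i => ?_, ?_, ?_⟩
    · induction i using Fin.lastCases with
      | last => simpa [hZ, Nat.card_zpowers, hyo] using hq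
      | cast j => simpa using hfp j
    · induction i using Fin.lastCases with
      | last => simpa [hZ] using hyB.1
      | cast j => simpa using hfA j
    · induction i using Fin.lastCases with
      | last =>
        simp only [Fin.snoc_last]
        refine fun s hs => mem_normalizer_of_conj_mem fun x hx => ?_
        obtain ⟨m, rfl⟩ := Subgroup.mem_zpowers_iff.1 hx
        rw [← conj_zpow, hIinv s hs]
        refine Z.zpow_mem ?_ m
        rcases hyI s hs with h | h <;> rw [h]
        · exact Subgroup.mem_zpowers y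
        · exact Z.inv_mem (Subgroup.mem_zpowers y)
      | cast j => simpa using hfI j
    · rw [hsup, CfsgLib.Minimal.card_sup_of_commute
        (fun x hx z hz => hAc x (hPA hx) z (Subgroup.zpowers_le.2 hyB.1 hz)) hZP,
        Fin.prod_univ_castSucc, hfc]
      simp [hZ, Nat.card_zpowers]
    · rw [hsup]
      have hK' : I ⊓ Subgroup.centralizer ((P ⊔ Z : Subgroup S) : Set S) =
          K ⊓ Subgroup.centralizer ({y} : Set S) := by
        ext x
        constructor
        · exact fun hx => ⟨⟨hx.1, Subgroup.centralizer_le (by exact_mod_cast le_sup_left) hx.2⟩,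
            Subgroup.mem_centralizer_singleton_iff.2 (Subgroup.mem_centralizer_iff.1 hx.2 y
              (Subgroup.mem_sup_right (Subgroup.mem_zpowers y))).symm⟩
        · rintro ⟨⟨hxI, hxP⟩, hxy⟩
          have hle : P ⊔ Z ≤ Subgroup.centralizer ({x} : Set S) := by
            refine sup_le (fun z hz => Subgroup.mem_centralizer_singleton_iff.2
              (Subgroup.mem_centralizer_iff.1 hxP z hz)) (Subgroup.zpowers_le.2 ?_)
            exact Subgroup.mem_centralizer_singleton_iff.2
              (Subgroup.mem_centralizer_singleton_iff.1 hxy).symm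
          exact ⟨hxI, Subgroup.mem_centralizer_iff.2 fun z hz =>
            Subgroup.mem_centralizer_singleton_iff.1 (hle hz)⟩
      rw [hK', ← hcard]
      set K' := K ⊓ Subgroup.centralizer ({y} : Set S) with hK'def
      have hidx : (K'.subgroupOf K).index = 2 := by
        rw [Subgroup.index_eq_two_iff]
        refine ⟨⟨t, htK⟩, fun b => ?_⟩
        have hmem : ∀ u : K, u ∈ K'.subgroupOf K ↔ (u : S) * y * u = y := fun u => by
          rw [Subgroup.mem_subgroupOf, hK'def, Subgroup.mem_inf,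
            Subgroup.mem_centralizer_singleton_iff]
          constructor
          · rintro ⟨-, h⟩
            rw [h, mul_assoc, hIsq _ u.2.1, mul_one]
          · refine fun h => ⟨u.2, ?_⟩
            conv_rhs => rw [← h]
            rw [mul_assoc _ (u : S) (u : S), hIsq _ u.2.1, mul_one]
        have hbt : ((b * ⟨t, htK⟩ : K) : S) * y * (b * ⟨t, htK⟩ : K) =
            ((b : S) * y * b)⁻¹ := by
          have hcm : (b : S) * t = t * b :=
            congrArg Subtype.val (hI.1.is_comm.comm ⟨(b : S), b.2.1⟩ ⟨t, htK.1⟩)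
          calc (b : S) * t * y * (b * t) = (b : S) * t * y * (t * b) := by rw [← hcm]
            _ = (b : S) * (t * y * t) * b := by group
            _ = ((b : S)⁻¹ * y * (b : S)⁻¹)⁻¹ := by rw [hyB.2]; group
            _ = _ := by rw [hIinv _ b.2.1]
        have hne2 : y⁻¹ ≠ y := fun h => hy1 (eq_one_of_odd hFodd (hAF hyB.1)
          (by conv_lhs => arg 1; rw [← h]
              exact inv_mul_cancel y))
        rw [hmem, hmem, hbt]
        rcases hyI b b.2.1 with h | h <;> simp [h, Xor', hne2]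
      have := Subgroup.relIndex_mul_index (le_top : K' ≤ ⊤)
      have hcK : Nat.card K = 2 * Nat.card K' := by
        rw [← (K'.subgroupOf K).card_mul_index, hidx,
          Nat.card_congr (Subgroup.subgroupOfEquivOfLe (inf_le_left : K' ≤ K)).toEquiv, mul_comm]
      rw [hcK, pow_succ]
      ring

/-- Let S be a finite solvable group whose Fitting subgroup F(S) has odd order, and let I be an elementary abelian 2-subgroup of S of order 2ⁿ with n ≥ 1. Then F(S) contains subgroups A₁, …, Aₙ of prime order, each normalized by I, pairwise commuting and generating a subgroup A of order |A₁|⋯|Aₙ| (their internal direct product), such that no non-identity element of I centralizes A. -/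
theorem result {S : Type*} [Group S] [Finite S]
    [Group.IsSolvable S] (hF : Odd (Nat.card ↥(Cfsg.fittingSubgroup S)))
    (I : Subgroup S) (hI : Cfsg.IsElementaryAbelian 2 I) (n : ℕ) (hn : 1 ≤ n) (hIn : Nat.card ↥I = 2 ^ n) :
    ∃ f : Fin n → Subgroup S, (∀ i, (Nat.card ↥(f i)).Prime) ∧ (∀ i, f i ≤ Cfsg.fittingSubgroup S) ∧
      (∀ i, I ≤ Subgroup.normalizer ((f i) : Set S)) ∧ (∀ i j, i ≠ j → ∀ a ∈ f i, ∀ b ∈ f j, a * b = b * a) ∧
      Nat.card ↥(⨆ i, f i) = ∏ i, Nat.card ↥(f i) ∧ I ⊓ Subgroup.centralizer ((⨆ i, f i : Subgroup S) : Set S) = ⊥ := by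
  set F := Cfsg.fittingSubgroup S with hFdef
  haveI hFn : F.Normal := CfsgLib.Cores.fittingSubgroup_normal S
  obtain ⟨A, hAF, hA, hAI, hAFn, hCA⟩ := exists_selfCentralizing F I
    CfsgLib.Cores.isNilpotent_fittingSubgroup hI
  have hfaith : I ⊓ Subgroup.centralizer (A : Set S) = ⊥ := by
    rw [eq_bot_iff]
    intro t ht
    have htt : t * t = 1 := by rw [← pow_two]; exact hI.2 t ht.1
    have hti : t⁻¹ = t := inv_eq_of_mul_eq_one_right htt
    have hfix : ∀ a ∈ A, t * a * t = a := fun a ha => by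
      rw [← Subgroup.mem_centralizer_iff.1 ht.2 a ha, mul_assoc, htt, mul_one]
    have htF : t ∈ Subgroup.centralizer (F : Set S) := by
      refine Subgroup.mem_centralizer_iff.2 fun f hf => ?_
      set c := f⁻¹ * (t * f * t) with hc
      have htf : t * f * t ∈ F := by
        have := hFn.conj_mem f hf t
        rwa [hti] at this
      have hcA : c ∈ A := by
        refine hCA ⟨F.mul_mem (F.inv_mem hf) htf, Subgroup.mem_centralizer_iff.2 fun a ha => ?_⟩
        have h1 : f * a * f⁻¹ ∈ A := (Subgroup.mem_normalizer_iff.1 (hAFn hf) a).1 ha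
        have h2 : (t * f * t) * a * (t * f * t)⁻¹ = f * a * f⁻¹ := by
          rw [show (t * f * t) * a * (t * f * t)⁻¹ = t * (f * (t * a * t⁻¹) * f⁻¹) * t⁻¹ by group,
            hti, hfix a ha, hfix _ h1]
        calc a * c = f⁻¹ * (f * a * f⁻¹) * (t * f * t) := by rw [hc]; group
          _ = f⁻¹ * ((t * f * t) * a * (t * f * t)⁻¹) * (t * f * t) := by rw [h2]
          _ = c * a := by rw [hc]; group
      have hcc : c * c = 1 := by
        have h3 : c * (t * c * t) = 1 := by
          calc c * (t * c * t) = f⁻¹ * t * f * (t * t) * f⁻¹ * t * f * (t * t) := by rw [hc]; group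
            _ = f⁻¹ * (t * t) * f := by simp only [htt, mul_one, mul_inv_cancel_right]; group; simp [htt, ← pow_two, mul_assoc]
            _ = 1 := by rw [htt]; group
        rwa [hfix c hcA] at h3
      have hc1 : c = 1 := eq_one_of_odd hF (hAF hcA) hcc
      rw [hc, inv_mul_eq_one] at hc1
      conv_lhs => rw [hc1]
      rw [mul_assoc, htt, mul_one]
    exact Subgroup.mem_bot.2
      (eq_one_of_odd hF (CfsgLib.Cores.centralizer_fittingSubgroup_le htF) htt)
  obtain ⟨f, hfp, hfA, hfI, hfc, hcard⟩ := exists_family F A I hF hAF hA hAI hI hfaith n hIn n le_rfl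
  refine ⟨f, hfp, fun i => (hfA i).trans hAF, hfI, fun i j _ a ha b hb =>
    congrArg Subtype.val (hA.is_comm.comm ⟨a, hfA i ha⟩ ⟨b, hfA j hb⟩), hfc,
    Subgroup.eq_bot_of_card_eq _ ?_⟩
  exact Nat.eq_of_mul_eq_mul_right (Nat.two_pow_pos n) (by rw [hcard, one_mul])

end Cfsg.Agent.S4408
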