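import Cfsg.Statements.S4409
import Cfsg.Agent.Lib.Minimal.SmallCore
import Cfsg.Agent.Lib.PSolvable.HallHigman
import Cfsg.Agent.Lib.Hall.Existence
import Cfsg.Agent.Lib.MetacyclicP.AbelianIndex
import Cfsg.Agent.Lib.PGroups.Extraspecial
import Cfsg.Agent.Lib.Cores.Basic
import Mathlib

set_option autoImplicit false
set_option maxHeartbeats 1000000
set_option linter.style.haveILetI false
open Cfsg

namespace Cfsg.Agent.S4409

open CfsgLib.Minimal CfsgLib.Minimal.SmallTwo
open scoped commutatorElement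

theorem zm2_sq : (Multiplicative.ofAdd (1 : ZMod 2)) ^ 2 = 1 := by decide

theorem zm2_add : (1 : ZMod 2) + 1 = 0 := by decide

theorem zm2_ne : (Multiplicative.ofAdd (1 : ZMod 2)) ≠ 1 := by decide

theorem zm2_cases : ∀ m : Multiplicative (ZMod 2), m = 1 ∨ m = Multiplicative.ofAdd 1 := by decide

/-- Normality from two generating subgroups. -/
theorem normal_of {S : Type*} [Group S] {X H Y : Subgroup S} [X.Normal] (hXH : X ⊔ H = ⊤)
    (h1 : ∀ g ∈ X, ∀ y ∈ Y, g * y * g⁻¹ ∈ Y) (h2 : ∀ g ∈ H, ∀ y ∈ Y, g * y * g⁻¹ ∈ Y) : Y.Normal := by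
  refine ⟨fun n hn s => ?_⟩
  obtain ⟨x, hx, h, hh, rfl⟩ := Subgroup.mem_sup_of_normal_left.1 (hXH.symm ▸ Subgroup.mem_top s : s ∈ X ⊔ H)
  rw [show x * h * n * (x * h)⁻¹ = x * (h * n * h⁻¹) * x⁻¹ by group]
  exact h1 x hx _ (h2 h hh n hn)

/-- The Frattini subgroup of a normal 2-subgroup is abelian if it is small. -/
theorem frattini_comm {S : Type*} [Group S] [Finite S] {X : Subgroup S} [hXn : X.Normal] (hX : IsPGroup 2 X)
    (hS : SmallTwo.Small ((frattini X).map X.subtype)) :
    ∀ a ∈ (frattini X).map X.subtype, ∀ b ∈ (frattini X).map X.subtype, a * b = b * a := by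
  classical
  haveI : Fact (Nat.Prime 2) := ⟨Nat.prime_two⟩
  set Φ := (frattini X).map X.subtype
  have hΦX : Φ ≤ X := Subgroup.map_subtype_le _
  set C := Φ ⊓ Subgroup.centralizer (Φ : Set S)
  have hCc : ∀ c ∈ C, ∀ a ∈ Φ, c * a = a * c := fun c hc a ha => (Subgroup.mem_centralizer_iff.1 hc.2 a ha).symm
  have hP : IsPGroup 2 C := hX.to_le (inf_le_left.trans hΦX)
  by_cases hcy : IsCyclic C
  · by_cases hc : ∃ c ∈ C, c * c ≠ 1
    · obtain ⟨c, hc, hc2⟩ := hc
      haveI := isCyclic_of_small_central (hX.to_le hΦX) hS hc.1 (hCc c hc) hc2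
      intro a ha b hb
      exact congrArg Subtype.val (IsCyclic.isMulCommutative.is_comm.comm (⟨a, ha⟩ : Φ) ⟨b, hb⟩)
    push Not at hc
    intro a0 ha0 b0 hb0
    by_contra hab0
    set N := frattini X with hN
    have hNne : N ≠ ⊥ := fun h => hab0 (by
      have e : Φ = ⊥ := by
        show (frattini X).map X.subtype = ⊥
        rw [← hN, h, Subgroup.map_bot]
      rw [e, Subgroup.mem_bot] at ha0
      rw [ha0, one_mul, mul_one])
    obtain ⟨zX, hzN, hz1, hzZ⟩ := CfsgLib.TwoGroups.exists_mem_center_of_normal hX hNne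
    have hzC : ∀ x : X, x ∈ N → (∀ y ∈ N, x * y = y * x) → (x : S) ∈ C := fun x hx h =>
      ⟨⟨x, hx, rfl⟩, Subgroup.mem_centralizer_iff.2 fun a ha => by
        obtain ⟨y, hy, rfl⟩ := ha
        exact congrArg Subtype.val (h y hy).symm⟩
    have hzC' : (zX : S) ∈ C := hzC zX hzN fun y _ => (Subgroup.mem_center_iff.1 hzZ y).symm
    have hC2 : ∀ c ∈ C, c = 1 ∨ c = (zX : S) := by
      intro c hcC
      by_contra hno
      push Not at hno
      have hcomm : c * (zX : S) = zX * c := hCc c hcC _ hzC'.1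
      have hz1' : (zX : S) ≠ 1 := fun h => hz1 (Subtype.ext h)
      refine not_isCyclic_of_sq ?_ (fourOf_le (hc c hcC) (hc _ hzC') hcomm hcC hzC')
        (isFour_fourOf _ _ _ hno.1 hz1' hno.2) hcy
      have h4 := Subgroup.card_le_of_le (fourOf_le (hc c hcC) (hc _ hzC') hcomm hcC hzC')
      rw [(isFour_fourOf (hc c hcC) (hc _ hzC') hcomm hno.1 hz1' hno.2).card] at h4
      omega
    have hz2 : zX * zX = 1 := Subtype.ext (hc _ hzC')
    haveI hn : (Subgroup.zpowers zX).Normal := ⟨fun w hw g => by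
      have hcc : Subgroup.zpowers zX ≤ Subgroup.center X := Subgroup.zpowers_le.2 hzZ
      rwa [Subgroup.mem_center_iff.1 (hcc hw) g, mul_inv_cancel_right]⟩
    let q := QuotientGroup.mk' (Subgroup.zpowers zX)
    have hpow : ∀ w : X, w ∈ Subgroup.zpowers zX → w = 1 ∨ w = zX := by
      intro w hw
      obtain ⟨n, rfl⟩ := Subgroup.mem_zpowers_iff.1 hw
      rw [zpow_eq_zpow_emod' (n := 2) n (by rw [pow_two]; exact hz2)]
      rcases Int.emod_two_eq_zero_or_one n with h | h <;> rw [show ((2 : ℕ) : ℤ) = 2 from rfl, h]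
      · exact Or.inl (zpow_zero _)
      · exact Or.inr (zpow_one _)
    haveI : (N.map q).Normal := (inferInstance : N.Normal).map q (QuotientGroup.mk'_surjective _)
    have hNz : N.map q ≠ ⊥ := fun h => hab0 (by
      have h' := (Subgroup.map_eq_bot_iff _).1 h
      rw [QuotientGroup.ker_mk'] at h'
      obtain ⟨x, hx, rfl⟩ := ha0
      rcases hpow x (h' hx) with rfl | rfl
      · simp
      · exact hCc _ hzC' b0 hb0)
    obtain ⟨_, ⟨w, hwN, rfl⟩, hq1, hqc⟩ := CfsgLib.TwoGroups.exists_mem_center_of_normal (p := 2)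
      (hX.to_quotient (Subgroup.zpowers zX)) (N := N.map q) hNz
    have hε : ∀ x : X, x * w * x⁻¹ = w ∨ x * w * x⁻¹ = zX * w := by
      intro x
      have hc' := Subgroup.mem_center_iff.1 hqc (q x)
      have h' : q (x * w * x⁻¹ * w⁻¹) = 1 := by
        rw [map_mul, map_mul, map_mul, map_inv, map_inv, hc']; group
      rcases hpow _ ((QuotientGroup.eq_one_iff _).1 h') with h | h
      · exact Or.inl (mul_inv_eq_one.1 h)
      · exact Or.inr (mul_inv_eq_iff_eq_mul.1 h)
    have hzc : ∀ x : X, x * zX = zX * x := Subgroup.mem_center_iff.1 hzZ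
    let ε : X → X := fun x => x * w * x⁻¹ * w⁻¹
    have hεc : ∀ x, ε x = 1 ∨ ε x = zX := fun x => by
      rcases hε x with h | h <;> simp [ε, h]
    have hεz : ∀ x y : X, y * ε x = ε x * y := fun x y => by
      rcases hεc x with h | h <;> rw [h]
      · simp
      · exact hzc y
    have hεm : ∀ x y, ε (x * y) = ε x * ε y := fun x y => by
      calc ε (x * y) = x * ε y * w * x⁻¹ * w⁻¹ := by simp only [ε]; group
        _ = ε y * ε x := by rw [hεz y x]; simp only [ε]; group
        _ = ε x * ε y := hεz x (ε y)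
    let εh : X →* X := MonoidHom.mk' ε hεm
    have hker : N ≤ εh.ker := by
      refine CfsgLib.PGroups.frattini_le_of (p := 2) ?_ fun x => ?_
      · rw [commutator_def, Subgroup.commutator_le]
        intro x _ y _
        rw [MonoidHom.mem_ker, map_commutatorElement, commutatorElement_eq_one_iff_mul_comm]
        exact (hεz x (ε y)).symm
      · rw [MonoidHom.mem_ker, map_pow, pow_two]
        rcases hεc x with h | h <;> show ε x * ε x = 1 <;> rw [h]
        · exact one_mul 1
        · exact hz2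
    refine hq1 ((QuotientGroup.eq_one_iff w).2 ?_)
    rcases hC2 _ (hzC w hwN fun y hy => by
      have h1 : y * w * y⁻¹ * w⁻¹ = 1 := hker hy
      exact (mul_inv_eq_iff_eq_mul.1 (mul_inv_eq_one.1 h1)).symm) with h | h
    · rw [show w = 1 from Subtype.ext h]; exact one_mem _
    · rw [show w = zX from Subtype.ext h]; exact Subgroup.mem_zpowers _
  · have hcomm : ∀ x ∈ C, ∀ y ∈ C, x * y = y * x := fun x hx y hy => hCc x hx y hy.1
    have hU := isFour_of_small_abelian hP (hS.mono inf_le_left) hcomm hcy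
    have h := eq_of_small_four (hX.to_le hΦX) hS hU inf_le_left fun u hu w hw => hCc u hu w hw
    exact fun a ha b hb => hCc a (h ▸ ha) b hb


/-- Generalized quaternion or dihedral subgroup of index two: the last step. -/
theorem finish {S : Type*} [Group S] [Finite S] {X H : Subgroup S} [hXn : X.Normal] (hX : IsPGroup 2 X)
    (hH : Odd (Nat.card H)) (hXH : X ⊔ H = ⊤)
    (hsmall : ∀ Y : Subgroup S, Y.Normal → Y ≤ X → Y ≠ X → SmallTwo.Small Y)
    (htriv : (∀ h ∈ H, ∀ x ∈ X, h * x = x * h) → False)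
    (hnab : ¬ ∀ x ∈ X, ∀ y ∈ X, x * y = y * x)
    {z u : S} (hz2 : z * z = 1) (hz1 : z ≠ 1) (hzX : z ∈ X) (hzc : ∀ s, z * s = s * z)
    (huX : u ∈ X) (huH : ∀ h ∈ H, h * u = u * h) (hucen : ∀ x ∈ X, u * x = x * u)
    (hu : u ≠ 1) (huz : u ≠ z)
    (hsq : ∀ x ∈ X, x * x = 1 ∨ x * x = z) (hcom : ∀ x ∈ X, ∀ y ∈ X, x * y = y * x ∨ x * y = z * (y * x)) :
    ∃ (X₀ : Subgroup S) (k : ℕ), X₀ ≤ X ∧ X₀.relIndex X = 2 ∧
      Nonempty (↥X₀ ≃* QuaternionGroup (2 ^ (k + 1))) ∧ X₀ ⊔ (X ⊓ Subgroup.centralizer (X₀ : Set S)) = X := by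
  classical
  haveI : Fact (Nat.Prime 2) := ⟨Nat.prime_two⟩
  let zX : X := ⟨z, hzX⟩
  let uX : X := ⟨u, huX⟩
  have hzXc : ∀ w : X, zX * w = w * zX := fun w => Subtype.ext (hzc w)
  have hΦ : frattini X ≤ Subgroup.zpowers zX := by
    refine CfsgLib.PGroups.frattini_le_of (p := 2) ?_ fun x => ?_
    · rw [commutator_def, Subgroup.commutator_le]
      intro x _ y _
      rcases hcom x x.2 y y.2 with h | h
      · rw [commutatorElement_eq_one_iff_mul_comm.2 (Subtype.ext h : x * y = y * x)]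
        exact one_mem _
      · have h' : x * y = zX * (y * x) := Subtype.ext h
        rw [show ⁅x, y⁆ = zX by rw [commutatorElement_def, h']; group]
        exact Subgroup.mem_zpowers _
    · rw [pow_two]
      rcases hsq x x.2 with h | h
      · rw [show x * x = 1 from Subtype.ext h]; exact one_mem _
      · rw [show x * x = zX from Subtype.ext h]; exact Subgroup.mem_zpowers _
  have hzp : ∀ w ∈ Subgroup.zpowers zX, (w : S) = 1 ∨ (w : S) = z := by
    intro w hw
    obtain ⟨n, rfl⟩ := Subgroup.mem_zpowers_iff.1 hw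
    rw [SubgroupClass.coe_zpow, zpow_eq_zpow_emod' (n := 2) n (by rw [pow_two]; exact hz2)]
    rcases Int.emod_two_eq_zero_or_one n with h | h <;> rw [show ((2 : ℕ) : ℤ) = 2 from rfl, h]
    · exact Or.inl (zpow_zero z)
    · exact Or.inr (zpow_one z)
  have huΦ : uX ∉ frattini X := fun h => (hzp _ (hΦ h)).elim hu huz
  -- a maximal subgroup of `X` avoiding `u`
  obtain ⟨M, hMc, hMu⟩ : ∃ M : Subgroup X, IsCoatom M ∧ uX ∉ M := by
    by_contra hno
    push Not at hno
    refine huΦ ?_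
    rw [frattini, Order.radical, Subgroup.mem_iInf]
    intro M
    rw [Subgroup.mem_iInf]
    exact fun hM => hno M hM
  have hΦM : frattini X ≤ M := frattini_le_coatom hMc
  have hcM : commutator X ≤ M := (CfsgLib.PGroups.commutator_le_frattini hX).trans hΦM
  haveI hMn : M.Normal := Subgroup.commutator_top_right_le_iff.1
    ((Subgroup.commutator_mono le_top le_rfl).trans hcM)
  have hsqM : ∀ x : X, x * x ∈ M := fun x => by
    rw [← pow_two]; exact hΦM (CfsgLib.PGroups.pow_mem_frattini hX x)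
  have hdich : ∀ x : X, x ∈ M ∨ x * uX ∈ M := by
    intro x
    have htop : M ⊔ Subgroup.zpowers uX = ⊤ :=
      hMc.2 _ (left_lt_sup.2 fun h => hMu (h (Subgroup.mem_zpowers uX)))
    obtain ⟨m, hm, i, rfl⟩ := CfsgLib.PGroups.mem_sup_zpowers (x := x) hcM (htop ▸ Subgroup.mem_top x)
    rcases Int.even_or_odd' i with ⟨c, hc | hc⟩ <;> subst hc
    · refine Or.inl (mul_mem hm ?_)
      rw [zpow_mul]; exact zpow_mem (by rw [zpow_two]; exact hsqM uX) c
    · refine Or.inr ?_
      rw [mul_assoc, ← zpow_add_one, show 2 * c + 1 + 1 = 2 * (c + 1) by ring, zpow_mul]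
      exact mul_mem hm (zpow_mem (by rw [zpow_two]; exact hsqM uX) _)
  let χ : X →* Multiplicative (ZMod 2) := MonoidHom.mk' (fun x => Multiplicative.ofAdd (if x ∈ M then (0 : ZMod 2) else 1))
    (fun a b => by
      have key : a * b ∈ M ↔ (a ∈ M ↔ b ∈ M) := by
        by_cases ha : a ∈ M
        · simp [ha, M.mul_mem_cancel_left ha]
        · by_cases hb : b ∈ M
          · simp [ha, hb, M.mul_mem_cancel_right hb]
          · simp only [ha, hb, iff_self, iff_true]
            have ha' := (hdich a).resolve_left ha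
            have hb' := (hdich b).resolve_left hb
            have huu := inv_mem (hsqM uX)
            have hcu : ∀ w : X, uX * w = w * uX := fun w => Subtype.ext (hucen w w.2)
            have h := mul_mem (mul_mem ha' hb') huu
            have e : a * uX * (b * uX) * (uX * uX)⁻¹ = a * b := by
              rw [show a * uX * (b * uX) = a * (uX * b) * uX by group, hcu b]; group
            rwa [e] at h
      rw [← ofAdd_add]
      by_cases ha : a ∈ M <;> by_cases hb : b ∈ M <;> simp [key, ha, hb, zm2_add])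
  have hχu : χ uX = Multiplicative.ofAdd 1 := by simp [χ, hMu]
  -- average over `H`
  haveI : Fintype H := Fintype.ofFinite H
  let c : H → MulAut X := fun h => MulAut.conjNormal (H := X) (h : S)
  let F : X →* Multiplicative (ZMod 2) := MonoidHom.mk' (fun x => ∏ h : H, χ (c h x))
    (fun a b => by simp only [map_mul, Finset.prod_mul_distrib])
  have hFH : ∀ (g : H) (x : X), F (c g x) = F x := by
    intro g x
    show ∏ h : H, χ (c h (c g x)) = ∏ h : H, χ (c h x)
    refine Fintype.prod_equiv (Equiv.mulRight g) _ _ fun h => ?_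
    simp only [c, Equiv.coe_mulRight, Subgroup.coe_mul, map_mul, MulAut.mul_apply]
  have hFu : F uX = Multiplicative.ofAdd 1 := by
    have hcu : ∀ h : H, c h uX = uX := fun h => Subtype.ext (by
      show (MulAut.conjNormal (h : S) uX : S) = u
      rw [MulAut.conjNormal_apply]
      show (h : S) * u * (h : S)⁻¹ = u
      rw [huH h h.2, mul_inv_cancel_right])
    show ∏ h : H, χ (c h uX) = _
    simp only [hcu, hχu, Finset.prod_const, Finset.card_univ]
    obtain ⟨k, hk⟩ := (Nat.card_eq_fintype_card (α := H) ▸ hH : Odd (Fintype.card H))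
    rw [hk, pow_succ, pow_mul, show (Multiplicative.ofAdd (1 : ZMod 2)) ^ 2 = 1 from zm2_sq, one_pow, one_mul]
  set Y := F.ker.map X.subtype with hY
  have hYX : Y ≤ X := Subgroup.map_subtype_le _
  have hmemY : ∀ x : X, (x : S) ∈ Y ↔ F x = 1 := fun x => by
    rw [hY]
    exact ⟨fun ⟨w, hw, he⟩ => Subtype.ext (p := (· ∈ X)) he ▸ hw, fun h => ⟨x, h, rfl⟩⟩
  haveI hYn : Y.Normal := by
    refine normal_of hXH ?_ ?_
    · intro g hg
      rintro _ ⟨w, hw, rfl⟩
      refine (hmemY (⟨g, hg⟩ * w * ⟨g, hg⟩⁻¹)).2 ?_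
      rw [map_mul, map_mul, map_inv, mul_comm (F ⟨g, hg⟩), mul_inv_cancel_right]
      exact hw
    · intro g hg
      rintro _ ⟨w, hw, rfl⟩
      have h := (hmemY (c ⟨g, hg⟩ w)).2 ((hFH ⟨g, hg⟩ w).trans hw)
      simpa [c, MulAut.conjNormal_apply] using h
  have huY : u ∉ Y := fun h => by
    have := (hmemY uX).1 h
    rw [hFu] at this
    exact zm2_ne this
  have hcov : ∀ x ∈ X, x ∈ Y ∨ ∃ y ∈ Y, x = y * u := by
    intro x hx
    have h2 : ∀ m : Multiplicative (ZMod 2), m = 1 ∨ m = Multiplicative.ofAdd 1 := zm2_cases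
    rcases h2 (F ⟨x, hx⟩) with h | h
    · exact Or.inl ((hmemY ⟨x, hx⟩).2 h)
    · refine Or.inr ⟨x * u⁻¹, ?_, by simp⟩
      refine (hmemY (⟨x, hx⟩ * uX⁻¹)).2 ?_
      rw [map_mul, map_inv, h, hFu, mul_inv_cancel]
  have hYne : Y ≠ X := fun h => huY (h ▸ huX)
  have hYS := hsmall Y hYn hYX hYne
  -- a noncommuting pair in `Y`
  obtain ⟨a, haY, b, hbY, hab⟩ : ∃ a ∈ Y, ∃ b ∈ Y, a * b ≠ b * a := by
    by_contra hno
    push Not at hno
    refine hnab fun x hx y hy => ?_
    have hu' : ∀ w ∈ Y, Commute u w := fun w hw => hucen w (hYX hw)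
    rcases hcov x hx with h | ⟨x', hx', rfl⟩ <;> rcases hcov y hy with h' | ⟨y', hy', rfl⟩
    · exact hno x h y h'
    · exact ((show Commute x y' from hno x h y' hy').mul_right (hu' x h).symm).eq
    · exact ((show Commute x' y from hno x' hx' y h').mul_left (hu' y h')).eq
    · exact (((show Commute x' y' from hno x' hx' y' hy').mul_right (hu' x' hx').symm).mul_left
        ((hu' y' hy').mul_right (Commute.refl u))).eq
  have hzY : z ∈ Y := by
    have h := (hcom a (hYX haY) b (hYX hbY)).resolve_left hab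
    rw [← mul_inv_eq_iff_eq_mul] at h
    rw [← h]
    exact mul_mem (mul_mem haY hbY) (inv_mem (mul_mem hbY haY))
  have hY8 : Nat.card Y = 8 := card_eq_eight (hX.to_le hYX) hYS hz2 hz1 hzY (fun w _ => hzc w)
    (fun w hw => hsq w (hYX hw)) (fun v hv w hw => hcom v (hYX hv) w (hYX hw)) haY hbY hab
  have hYnc : ¬ IsMulCommutative Y := fun h => hab (congrArg Subtype.val (h.is_comm.comm ⟨a, haY⟩ ⟨b, hbY⟩))
  rcases CfsgLib.TwoGroups.dihedral_or_quaternion_of_card_eight hY8 hYnc with h | h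
  · exfalso
    refine htriv fun g hg => ?_
    obtain ⟨l, hl⟩ := CfsgLib.TwoGroups.isPGroup_mulAut_congr h.some.symm
      (CfsgLib.TwoGroups.isPGroup_mulAut_dihedral (n := 2) le_rfl) (MulAut.conjNormal (H := Y) g)
    have hgk : g ^ Nat.card H = 1 := congrArg Subtype.val (pow_card_eq_one' (G := H) (x := ⟨g, hg⟩))
    have h1 : MulAut.conjNormal (H := Y) g = 1 :=
      CfsgLib.TwoGroups.eq_one_of_pow_odd hH (by rw [← map_pow, hgk, map_one]) hl
    have hY' : ∀ w ∈ Y, g * w = w * g := fun w hw => by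
      have h := congrArg Subtype.val (DFunLike.congr_fun h1 ⟨w, hw⟩)
      rw [MulAut.conjNormal_apply, MulAut.one_apply] at h
      exact mul_inv_eq_iff_eq_mul.1 h
    intro x hx
    rcases hcov x hx with h' | ⟨w, hw, rfl⟩
    · exact hY' x h'
    · exact ((show Commute g w from hY' w hw).mul_right (huH g hg)).eq
  · refine ⟨Y, 0, hYX, ?_, by simpa using h, ?_⟩
    · show (Y.subgroupOf X).index = 2
      rw [hY, Subgroup.subgroupOf, Subgroup.comap_map_eq_self_of_injective X.subtype_injective, Subgroup.index_ker]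
      have hr : F.range = ⊤ := by
        refine top_le_iff.1 fun m _ => ?_
        have h2 : ∀ m : Multiplicative (ZMod 2), m = 1 ∨ m = Multiplicative.ofAdd 1 := zm2_cases
        rcases h2 m with rfl | rfl
        · exact one_mem _
        · exact ⟨uX, hFu⟩
      rw [hr, Subgroup.card_top]
      simp
    · refine le_antisymm (sup_le hYX inf_le_left) fun x hx => ?_
      rcases hcov x hx with h' | ⟨w, hw, rfl⟩
      · exact Subgroup.mem_sup_left h'
      · refine mul_mem (Subgroup.mem_sup_left hw) (Subgroup.mem_sup_right ⟨huX, ?_⟩)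
        exact Subgroup.mem_centralizer_iff.2 fun v hv => (hucen v (hYX hv)).symm

/-- The structure of the normal Sylow 2-subgroup. -/
theorem structure_normal {S : Type*} [Group S] [Finite S] {X H : Subgroup S} [hXn : X.Normal]
    (hX : IsPGroup 2 X) (hH : Odd (Nat.card H)) (hXH : X ⊔ H = ⊤)
    (hsmall : ∀ Y : Subgroup S, Y.Normal → Y ≤ X → Y ≠ X → SmallTwo.Small Y)
    (htriv : (∀ h ∈ H, ∀ x ∈ X, h * x = x * h) → False)
    (hnab : ¬ ∀ x ∈ X, ∀ y ∈ X, x * y = y * x) (hge : 8 < Nat.card X) :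
    (Cfsg.IsExtraspecial 2 ↥X ∧ 32 ≤ Nat.card ↥X) ∨
      (∃ (X₀ : Subgroup S) (k : ℕ), X₀ ≤ X ∧ X₀.relIndex X = 2 ∧
        Nonempty (↥X₀ ≃* QuaternionGroup (2 ^ (k + 1))) ∧ X₀ ⊔ (X ⊓ Subgroup.centralizer (X₀ : Set S)) = X) ∨
      (Cfsg.IsSpecial 2 ↥X ∧ Nat.card ↥(Subgroup.center ↥X) = 4) := by
  classical
  haveI : Fact (Nat.Prime 2) := ⟨Nat.prime_two⟩
  -- an automorphism of odd order fixing `g⁻¹ φ(g)` fixes `g`
  have hfix : ∀ h ∈ H, ∀ g ∈ X, h * (h * g * h⁻¹ * g⁻¹) = h * g * h⁻¹ * g⁻¹ * h → h * g = g * h := by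
    intro h hh g hg hc
    have hgX : h * g * h⁻¹ ∈ X := hXn.conj_mem g hg h
    have hk : (MulAut.conjNormal (H := X) h) ^ Nat.card H = 1 := by
      rw [← map_pow, show h ^ Nat.card H = 1 from congrArg Subtype.val (pow_card_eq_one' (G := H) (x := ⟨h, hh⟩)),
        map_one]
    have h1 := CfsgLib.TwoGroups.fixed_of_odd_order hH hk hX (g := (⟨g, hg⟩ : X))
      (n := ⟨h * g * h⁻¹ * g⁻¹, mul_mem hgX (inv_mem hg)⟩)
      (Subtype.ext (by rw [MulAut.conjNormal_apply]; exact mul_inv_eq_iff_eq_mul.2 hc))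
      (Subtype.ext (by rw [MulAut.conjNormal_apply, Subgroup.coe_mul]; group))
    have h2 := congrArg Subtype.val h1
    rw [MulAut.conjNormal_apply] at h2
    exact mul_inv_eq_iff_eq_mul.1 h2
  set Z := X ⊓ Subgroup.centralizer (X : Set S) with hZdef
  have hZmem : ∀ {x}, x ∈ Z ↔ x ∈ X ∧ ∀ y ∈ X, x * y = y * x := fun {x} => by
    rw [hZdef, Subgroup.mem_inf, Subgroup.mem_centralizer_iff]
    exact ⟨fun h => ⟨h.1, fun y hy => (h.2 y hy).symm⟩, fun h => ⟨h.1, fun y hy => (h.2 y hy).symm⟩⟩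
  have hcenmap : (Subgroup.center ↥X).map X.subtype = Z := by
    ext x
    constructor
    · rintro ⟨w, hw, rfl⟩
      exact hZmem.2 ⟨w.2, fun y hy => congrArg Subtype.val (Subgroup.mem_center_iff.1 hw ⟨y, hy⟩).symm⟩
    · intro hx
      exact ⟨⟨x, (hZmem.1 hx).1⟩, Subgroup.mem_center_iff.2 fun y => Subtype.ext ((hZmem.1 hx).2 y y.2).symm, rfl⟩
  set Φ := (frattini X).map X.subtype with hΦdef
  haveI hΦn : Φ.Normal := CfsgLib.Cores.normal_map_subtype X _
  have hΦX : Φ ≤ X := Subgroup.map_subtype_le _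
  have hsqΦ : ∀ x ∈ X, x * x ∈ Φ := fun x hx =>
    ⟨⟨x, hx⟩ ^ 2, CfsgLib.PGroups.pow_mem_frattini hX _, by simp [pow_two]⟩
  have hcoΦ : ∀ x ∈ X, ∀ y ∈ X, ⁅x, y⁆ ∈ Φ := fun x hx y hy =>
    ⟨⁅(⟨x, hx⟩ : X), ⟨y, hy⟩⁆, CfsgLib.PGroups.commutatorElement_mem_frattini hX _ _, by
      rw [map_commutatorElement]; rfl⟩
  -- a normal subgroup of order two is central in `S`
  have hcentral : ∀ (z : S), z ≠ 1 → ∀ N : Subgroup S, N.Normal → z ∈ N → (∀ w ∈ N, w = 1 ∨ w = z) →
      ∀ s, z * s = s * z := by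
    intro z hz1 N hN hzN hN2 s
    have h := (hN2 _ (hN.conj_mem z hzN s)).resolve_left fun h => hz1 (conj_eq_one_iff.1 h)
    exact (mul_inv_eq_iff_eq_mul.1 h).symm
  by_cases hI : ∃ U : Subgroup S, U.Normal ∧ U ≤ X ∧ IsFour U
  · obtain ⟨U, hUn, hUX, hU⟩ := hI
    haveI := hUn
    have hUc : ∀ u ∈ U, ∀ x ∈ X, u * x = x * u := by
      by_contra hnot
      push Not at hnot
      obtain ⟨u, hu, x, hx, hux⟩ := hnot
      set C := X ⊓ Subgroup.centralizer (U : Set S)
      have hCn : C.Normal := inferInstance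
      have hCne : C ≠ X := fun h => hux (Subgroup.mem_centralizer_iff.1 (h.ge hx).2 u hu)
      have hCU : C = U := eq_of_small_four (hX.to_le inf_le_left) (hsmall C hCn inf_le_left hCne) hU
        (fun v hv => ⟨hUX hv, Subgroup.mem_centralizer_iff.2 fun w hw => hU.comm hw hv⟩)
        fun v hv w hw => Subgroup.mem_centralizer_iff.1 hw.2 v hv
      have hrel := CfsgLib.Minimal.SmallCore.relIndex_centralizer_le hX hU
        (by rw [Subgroup.normalizer_eq_top]; exact le_top)
      have h1 := Subgroup.card_mul_index (C.subgroupOf X)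
      rw [Nat.card_congr (Subgroup.subgroupOfEquivOfLe (inf_le_left : C ≤ X)).toEquiv,
        show (C.subgroupOf X).index = (Subgroup.centralizer (U : Set S)).relIndex X by
          rw [Subgroup.inf_subgroupOf_left]; rfl] at h1
      have h4 : Nat.card ↥(X ⊓ Subgroup.centralizer (U : Set S)) = 4 :=
        (congrArg (fun K : Subgroup S => Nat.card K) hCU).trans hU.card
      rw [h4] at h1
      omega
    have hUZ : U ≤ Z := fun u hu => hZmem.2 ⟨hUX hu, hUc u hu⟩
    have hZne : Z ≠ X := fun h => hnab fun x hx y hy => (hZmem.1 (h.symm ▸ hx : x ∈ Z)).2 y hy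
    have hZU : Z = U := eq_of_small_four (hX.to_le inf_le_left) (hsmall Z inferInstance inf_le_left hZne) hU hUZ
      fun u hu w hw => hUc u hu w (hZmem.1 hw).1
    -- `Φ ≤ U`
    have hΦU : Φ ≤ U := by
      have hΦne : Φ ≠ X := by
        intro h
        have h1 : frattini X = ⊤ := Subgroup.map_injective X.subtype_injective (by
          rw [← hΦdef, h, ← MonoidHom.range_eq_map, Subgroup.range_subtype])
        refine hnab fun x hx y hy => ?_
        have hb : (⊥ : Subgroup X) = ⊤ := frattini_nongenerating (K := ⊥) (by rw [h1, bot_sup_eq])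
        have hxb : (⟨x, hx⟩ : X) ∈ (⊥ : Subgroup X) := hb.symm ▸ Subgroup.mem_top _
        rw [show x = 1 from congrArg Subtype.val (Subgroup.mem_bot.1 hxb), one_mul, mul_one]
      have hΦab : ∀ a ∈ Φ, ∀ b ∈ Φ, a * b = b * a := frattini_comm hX (hsmall Φ hΦn hΦX hΦne)
      have hsup : ∀ a ∈ Φ ⊔ U, ∀ b ∈ Φ ⊔ U, a * b = b * a := by
        intro a ha b hb
        obtain ⟨p, hp, q, hq, rfl⟩ := Subgroup.mem_sup_of_normal_right.1 ha
        obtain ⟨p', hp', q', hq', rfl⟩ := Subgroup.mem_sup_of_normal_right.1 hb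
        exact (((show Commute p p' from hΦab p hp p' hp').mul_right (hUc q' hq' p (hΦX hp)).symm).mul_left
          ((show Commute q p' from hUc q hq p' (hΦX hp')).mul_right (hU.comm hq hq'))).eq
      have hne : Φ ⊔ U ≠ X := fun h => hnab fun x hx y hy => hsup x (h.symm ▸ hx) y (h.symm ▸ hy)
      have h := eq_of_small_four (hX.to_le (sup_le hΦX hUX)) (hsmall _ inferInstance (sup_le hΦX hUX) hne) hU
        le_sup_right fun u hu w hw => hsup u (Subgroup.mem_sup_right hu) w hw
      exact le_sup_left.trans h.le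
    have hder : ∃ z ∈ U, z ≠ 1 ∧ ∃ x ∈ X, ∃ y ∈ X, ⁅x, y⁆ = z := by
      by_contra hno
      push Not at hno
      refine hnab fun x hx y hy => commutatorElement_eq_one_iff_mul_comm.1 ?_
      by_contra h1
      exact hno _ (hΦU (hcoΦ x hx y hy)) h1 x hx y hy rfl
    obtain ⟨z, hzU, hz1, x0, hx0, y0, hy0, hxy0⟩ := hder
    have hcZ : commutator X ≤ Subgroup.center X := by
      rw [commutator_def, Subgroup.commutator_le]
      intro x _ y _
      refine Subgroup.mem_center_iff.2 fun w => Subtype.ext ?_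
      have hm : ⁅(x : S), (y : S)⁆ ∈ U := hΦU (hcoΦ x x.2 y y.2)
      show (w : S) * ((⁅x, y⁆ : X) : S) = ((⁅x, y⁆ : X) : S) * w
      rw [show ((⁅x, y⁆ : X) : S) = ⁅(x : S), (y : S)⁆ from map_commutatorElement X.subtype x y]
      exact (hUc _ hm w w.2).symm
    have hZcard : Nat.card (Subgroup.center ↥X) = 4 := by
      rw [← hU.card, ← hZU, ← hcenmap, Subgroup.card_subtype]
    by_cases hfull : commutator X = Subgroup.center X
    · refine Or.inr (Or.inr ⟨⟨hX, le_antisymm ?_ ?_, hfull⟩, hZcard⟩)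
      · intro w hw
        have h : (w : S) ∈ Z := hUZ (hΦU ⟨w, hw, rfl⟩)
        exact Subgroup.mem_center_iff.2 fun v => Subtype.ext ((hZmem.1 h).2 v v.2).symm
      · exact hfull ▸ CfsgLib.PGroups.commutator_le_frattini hX
    -- the derived subgroup has order two
    have hcard2 : Nat.card (commutator X) = 2 := by
      have hd := Subgroup.card_dvd_of_le hcZ
      rw [hZcard] at hd
      have hlt : Nat.card (commutator X) ≠ 4 := fun h => hfull (Subgroup.eq_of_le_of_card_ge hcZ (by omega))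
      have hne1 : Nat.card (commutator X) ≠ 1 := fun h => hz1 (by
        have hm : ⁅(⟨x0, hx0⟩ : X), (⟨y0, hy0⟩ : X)⁆ ∈ commutator X :=
          Subgroup.commutator_mem_commutator (Subgroup.mem_top _) (Subgroup.mem_top _)
        rw [Subgroup.eq_bot_of_card_eq _ h, Subgroup.mem_bot] at hm
        rw [← hxy0]
        simpa [map_commutatorElement] using congrArg X.subtype hm)
      have := Nat.le_of_dvd (by norm_num) hd
      have hpos := Nat.card_pos (α := commutator X)
      interval_cases hc : Nat.card (commutator X) <;> simp_all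
    set N := (commutator X).map X.subtype
    haveI hNn : N.Normal := CfsgLib.Cores.normal_map_subtype X _
    have hzN : z ∈ N := ⟨⁅(⟨x0, hx0⟩ : X), ⟨y0, hy0⟩⁆,
      Subgroup.commutator_mem_commutator (Subgroup.mem_top _) (Subgroup.mem_top _), by
        rw [map_commutatorElement]; exact hxy0⟩
    have hN2 : ∀ w ∈ N, w = 1 ∨ w = z := by
      intro w hw
      by_contra hno
      push Not at hno
      have hsub : ({1, z, w} : Set S) ⊆ N := by
        rintro v (rfl | rfl | rfl)
        exacts [one_mem _, hzN, hw]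
      have h := Set.ncard_le_ncard hsub (Set.toFinite _)
      rw [← Nat.card_coe_set_eq (N : Set S), SetLike.coe_sort_coe, Subgroup.card_subtype, hcard2,
        Set.ncard_eq_three.2 ⟨1, z, w, hz1.symm, hno.1.symm, hno.2.symm, rfl⟩] at h
      omega
    have hzc := hcentral z hz1 N hNn hzN hN2
    have hz2 : z * z = 1 := hU.sq z hzU
    have hcom : ∀ a ∈ X, ∀ b ∈ X, a * b = b * a ∨ a * b = z * (b * a) := by
      intro a ha b hb
      have hm : ⁅a, b⁆ ∈ N := ⟨⁅(⟨a, ha⟩ : X), ⟨b, hb⟩⁆,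
        Subgroup.commutator_mem_commutator (Subgroup.mem_top _) (Subgroup.mem_top _), by
          rw [map_commutatorElement]; rfl⟩
      rcases hN2 _ hm with h | h
      · exact Or.inl (commutatorElement_eq_one_iff_mul_comm.1 h)
      · refine Or.inr ?_
        rw [← h, commutatorElement_def]; group
    let W : Subgroup S :=
      { carrier := {x | x ∈ X ∧ (x * x = 1 ∨ x * x = z)}
        one_mem' := ⟨one_mem _, Or.inl (one_mul 1)⟩
        mul_mem' := fun {a b} ha hb => by
          refine ⟨mul_mem ha.1 hb.1, ?_⟩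
          have e : a * b * (a * b) = (a * a) * (b * b) ∨ a * b * (a * b) = z * ((a * a) * (b * b)) := by
            rcases hcom b hb.1 a ha.1 with h | h
            · left
              calc a * b * (a * b) = a * (b * a) * b := by group
                _ = a * a * (b * b) := by rw [h]; group
            · right
              calc a * b * (a * b) = a * (b * a) * b := by group
                _ = a * z * (a * b * b) := by rw [h]; group
                _ = z * (a * a * (b * b)) := by rw [← hzc a]; group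
          rcases ha.2 with h1 | h1 <;> rcases hb.2 with h2 | h2 <;> rcases e with e | e <;>
            rw [e, h1, h2] <;> simp [hz2]
        inv_mem' := fun {a} ha => ⟨inv_mem ha.1, by
          rw [← mul_inv_rev]
          rcases ha.2 with h | h
          · exact Or.inl (by rw [h, inv_one])
          · exact Or.inr (by rw [h]; exact inv_eq_of_mul_eq_one_right hz2)⟩ }
    by_cases hW : W = X
    · obtain ⟨u, huU, hu⟩ : ∃ u ∈ U, u ≠ 1 ∧ u ≠ z := by
        by_contra hno
        push Not at hno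
        have hsub : (U : Set S) ⊆ {1, z} := fun u hu => by
          by_cases h1 : u = 1
          · exact Or.inl h1
          · exact Or.inr (hno u hu h1)
        have h := (Set.ncard_le_ncard hsub (Set.toFinite _)).trans (Set.ncard_insert_le _ _)
        rw [← Nat.card_coe_set_eq, SetLike.coe_sort_coe, hU.card, Set.ncard_singleton] at h
        omega
      have huH : ∀ h ∈ H, h * u = u * h := by
        intro h hh
        refine hfix h hh u (hUX huU) ?_
        have hm : h * u * h⁻¹ ∈ U := hUn.conj_mem u huU h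
        have hU4 : ∀ w ∈ U, w = 1 ∨ w = z ∨ w = u ∨ w = z * u := by
          intro w hw
          by_contra hno
          push Not at hno
          have hsub : ({1, z, u, z * u, w} : Set S) ⊆ U := by
            rintro v (rfl | rfl | rfl | rfl | rfl)
            exacts [one_mem _, hzU, huU, mul_mem hzU huU, hw]
          have h1 : ({1, z, u, z * u} : Set S).ncard = 4 :=
            Set.ncard_eq_four.2 ⟨1, z, u, z * u, hz1.symm, hu.1.symm,
              fun h => hu.2 (by rw [← inv_eq_of_mul_eq_one_right h.symm, inv_eq_of_mul_eq_one_right hz2]),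
              hu.2.symm, fun h => hu.1 (mul_eq_left.1 h.symm), fun h => hz1 (mul_eq_right.1 h.symm), rfl⟩
          have h2 : ({1, z, u, z * u, w} : Set S) = insert w {1, z, u, z * u} := by
            ext v; simp only [Set.mem_insert_iff, Set.mem_singleton_iff]; tauto
          have h3 := Set.ncard_le_ncard hsub (Set.toFinite _)
          rw [h2, Set.ncard_insert_of_notMem (by simp [hno.1, hno.2.1, hno.2.2.1, hno.2.2.2]) (Set.toFinite _),
            h1, ← Nat.card_coe_set_eq, SetLike.coe_sort_coe, hU.card] at h3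
          omega
        rcases hU4 _ hm with h1 | h1 | h1 | h1
        · exact absurd (conj_eq_one_iff.1 h1) hu.1
        · refine absurd ?_ hu.2
          have := congrArg (fun v => h⁻¹ * v * h) h1
          rwa [show h⁻¹ * (h * u * h⁻¹) * h = u by group, mul_assoc, hzc h, inv_mul_cancel_left] at this
        · rw [h1]; group
        · rw [h1, mul_inv_cancel_right]; exact (hzc h).symm
      exact Or.inr (Or.inl (finish hX hH hXH hsmall htriv hnab hz2 hz1 (hUX hzU) hzc (hUX huU) huH
        (hUc u huU) hu.1 hu.2 (fun x hx => (hW.ge hx).2) hcom))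
    · exfalso
      have hWX : W ≤ X := fun x hx => hx.1
      have hWn : W.Normal := ⟨fun w hw s => ⟨hXn.conj_mem w hw.1 s, by
        rw [show s * w * s⁻¹ * (s * w * s⁻¹) = s * (w * w) * s⁻¹ by group]
        rcases hw.2 with h | h <;> rw [h]
        · exact Or.inl (by group)
        · exact Or.inr (by rw [← hzc s, mul_inv_cancel_right])⟩⟩
      have hUW : U ≤ W := fun v hv => ⟨hUX hv, Or.inl (hU.sq v hv)⟩
      have hWU : W = U := eq_of_small_four (hX.to_le hWX) (hsmall W hWn hWX hW) hU hUW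
        fun v hv w hw => hUc v hv w hw.1
      obtain ⟨v, hvX, hvW⟩ : ∃ v ∈ X, v ∉ W := by
        by_contra hno
        push Not at hno
        exact hW (le_antisymm hWX hno)
      have htwo : ∀ w ∈ X, w ∉ W → w * v ∈ W := by
        intro w hw hwW
        have hv2 : v * v ∈ U ∧ v * v ≠ 1 ∧ v * v ≠ z :=
          ⟨hΦU (hsqΦ v hvX), fun h => hvW ⟨hvX, Or.inl h⟩, fun h => hvW ⟨hvX, Or.inr h⟩⟩
        have hw2 : w * w ∈ U ∧ w * w ≠ 1 ∧ w * w ≠ z :=
          ⟨hΦU (hsqΦ w hw), fun h => hwW ⟨hw, Or.inl h⟩, fun h => hwW ⟨hw, Or.inr h⟩⟩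
        -- two elements of `U` outside `{1, z}` multiply into `{1, z}`
        have hmul : w * w * (v * v) = 1 ∨ w * w * (v * v) = z := by
          by_contra hno
          push Not at hno
          set p := w * w
          set q := v * v
          have hpq : p * q ∈ U := mul_mem hw2.1 hv2.1
          have hne : p ≠ q := fun h => hno.1 (by rw [h]; exact hU.sq q hv2.1)
          have hsub : ({1, z, p, q, p * q} : Set S) ⊆ U := by
            rintro t (rfl | rfl | rfl | rfl | rfl)
            exacts [one_mem _, hzU, hw2.1, hv2.1, hpq]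
          have h1 : ({1, z, p, q} : Set S).ncard = 4 :=
            Set.ncard_eq_four.2 ⟨1, z, p, q, hz1.symm, hw2.2.1.symm, hv2.2.1.symm, hw2.2.2.symm, hv2.2.2.symm, hne, rfl⟩
          have h2 : ({1, z, p, q, p * q} : Set S) = insert (p * q) {1, z, p, q} := by
            ext t; simp only [Set.mem_insert_iff, Set.mem_singleton_iff]; tauto
          have hn1 : p * q ≠ p := fun h => hv2.2.1 (mul_eq_left.1 h)
          have hn2 : p * q ≠ q := fun h => hw2.2.1 (mul_eq_right.1 h)
          have h3 := Set.ncard_le_ncard hsub (Set.toFinite _)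
          rw [h2, Set.ncard_insert_of_notMem (by simp [hno.1, hno.2, hn1, hn2]) (Set.toFinite _),
            h1, ← Nat.card_coe_set_eq, SetLike.coe_sort_coe, hU.card] at h3
          omega
        refine ⟨mul_mem hw hvX, ?_⟩
        have e : w * v * (w * v) = w * w * (v * v) ∨ w * v * (w * v) = z * (w * w * (v * v)) := by
          rcases hcom v hvX w hw with h | h
          · left
            calc w * v * (w * v) = w * (v * w) * v := by group
              _ = w * w * (v * v) := by rw [h]; group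
          · right
            calc w * v * (w * v) = w * (v * w) * v := by group
              _ = w * z * (w * v * v) := by rw [h]; group
              _ = z * (w * w * (v * v)) := by rw [← hzc w]; group
        rcases hmul with h1 | h1 <;> rcases e with e | e <;> rw [e, h1] <;> simp [hz2]
      have hle : Nat.card X ≤ 8 := by
        have hsub : (X : Set S) ⊆ (W : Set S) ∪ (fun t => t * v⁻¹) '' (W : Set S) := fun w hw => by
          by_cases hwW : w ∈ W
          · exact Or.inl hwW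
          · exact Or.inr ⟨w * v, htwo w hw hwW, by simp⟩
        have h4 : (W : Set S).ncard = 4 := by
          rw [← Nat.card_coe_set_eq, SetLike.coe_sort_coe, hWU, hU.card]
        have h := (Set.ncard_le_ncard hsub (Set.toFinite _)).trans ((Set.ncard_union_le _ _).trans
          (Nat.add_le_add_left (Set.ncard_image_le (Set.toFinite _)) _))
        rw [← Nat.card_coe_set_eq, SetLike.coe_sort_coe, h4] at h
        omega
      omega
  push Not at hI
  -- every abelian normal proper subgroup inside `X` is cyclic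
  have hcyc : ∀ N : Subgroup S, N.Normal → N ≤ X → N ≠ X → (∀ a ∈ N, ∀ b ∈ N, a * b = b * a) → IsCyclic N := by
    intro N hN hNX hne hc
    by_contra h
    exact hI N hN hNX (isFour_of_small_abelian (hX.to_le hNX) (hsmall N hN hNX hne) hc h)
  have hΦne : Φ ≠ X := by
    intro h
    have h1 : frattini X = ⊤ := Subgroup.map_injective X.subtype_injective (by
      rw [← hΦdef, h, ← MonoidHom.range_eq_map, Subgroup.range_subtype])
    refine hnab fun x hx y hy => ?_
    have hb : (⊥ : Subgroup X) = ⊤ := frattini_nongenerating (K := ⊥) (by rw [h1, bot_sup_eq])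
    have hxb : (⟨x, hx⟩ : X) ∈ (⊥ : Subgroup X) := hb.symm ▸ Subgroup.mem_top _
    rw [show x = 1 from congrArg Subtype.val (Subgroup.mem_bot.1 hxb), one_mul, mul_one]
  have hΦab : ∀ a ∈ Φ, ∀ b ∈ Φ, a * b = b * a := frattini_comm hX (hsmall Φ hΦn hΦX hΦne)
  have hΦcyc : IsCyclic Φ := hcyc Φ hΦn hΦX hΦne hΦab
  have hautfix : ∀ N : Subgroup S, N.Normal → N ≤ X → IsCyclic N → ∀ h ∈ H, ∀ w ∈ N, h * w = w * h := by
    intro N hN hNX hNc h hh w hw
    haveI := hN
    haveI := hNc
    obtain ⟨l, hl⟩ := CfsgLib.TwoGroups.isPGroup_mulAut_of_isCyclic (hX.to_le hNX) (MulAut.conjNormal (H := N) h)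
    have hk : h ^ Nat.card H = 1 := congrArg Subtype.val (pow_card_eq_one' (G := H) (x := ⟨h, hh⟩))
    have h1 : MulAut.conjNormal (H := N) h = 1 :=
      CfsgLib.TwoGroups.eq_one_of_pow_odd hH (by rw [← map_pow, hk, map_one]) hl
    have h2 := congrArg Subtype.val (DFunLike.congr_fun h1 ⟨w, hw⟩)
    rw [MulAut.conjNormal_apply, MulAut.one_apply] at h2
    exact mul_inv_eq_iff_eq_mul.1 h2
  -- `Φ` is central in `X`
  have hΦc : ∀ w ∈ Φ, ∀ x ∈ X, w * x = x * w := by
    set C := X ⊓ Subgroup.centralizer (Φ : Set S)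
    have hCmem : ∀ x, x ∈ C → ∀ w ∈ Φ, w * x = x * w := fun x hx w hw =>
      Subgroup.mem_centralizer_iff.1 hx.2 w hw
    by_cases hCX : C = X
    · exact fun w hw x hx => hCmem x (hCX.ge hx) w hw
    exfalso
    obtain ⟨c, hc, hc2⟩ : ∃ c ∈ Φ, c * c ≠ 1 := by
      by_contra hno
      push Not at hno
      refine hCX (le_antisymm inf_le_left fun x hx => ⟨hx, Subgroup.mem_centralizer_iff.2 fun w hw => ?_⟩)
      by_cases hw1 : w = 1
      · simp [hw1]
      refine (hcentral w hw1 Φ hΦn hw ?_ x)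
      intro v hv
      by_contra hno'
      push Not at hno'
      exact not_isCyclic_of_sq (by
        rw [← SetLike.coe_sort_coe, Nat.card_coe_set_eq]
        have hsub : ({1, w, v} : Set S) ⊆ Φ := by
          rintro t (rfl | rfl | rfl)
          exacts [one_mem _, hw, hv]
        have h := Set.ncard_le_ncard hsub (Set.toFinite _)
        rw [Set.ncard_eq_three.2 ⟨1, w, v, Ne.symm hw1, hno'.1.symm, hno'.2.symm, rfl⟩] at h
        omega) (fourOf_le (hno w hw) (hno v hv) (hΦab w hw v hv) hw hv)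
        (isFour_fourOf _ _ _ hw1 hno'.1 hno'.2.symm) hΦcyc
    have hcC : c ∈ C := ⟨hΦX hc, Subgroup.mem_centralizer_iff.2 fun w hw => hΦab w hw c hc⟩
    have hCn : C.Normal := inferInstance
    have hCcyc : IsCyclic C := isCyclic_of_small_central (hX.to_le inf_le_left)
      (hsmall C hCn inf_le_left hCX) hcC (fun w hw => hCmem w hw c hc) hc2
    refine htriv fun h hh x hx => hfix h hh x hx ?_
    refine hautfix C hCn inf_le_left hCcyc h hh _ ⟨X.mul_mem (hXn.conj_mem x hx h) (X.inv_mem hx), ?_⟩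
    refine Subgroup.mem_centralizer_iff.2 fun w hw => ?_
    have hwC : x⁻¹ * w * x ∈ Φ := by
      have := hΦn.conj_mem w hw x⁻¹
      simpa using this
    have hwfix := hautfix C hCn inf_le_left hCcyc h hh (x⁻¹ * w * x)
      ⟨hΦX hwC, Subgroup.mem_centralizer_iff.2 fun v hv => hΦab v hv _ hwC⟩
    have hwfix' := hautfix C hCn inf_le_left hCcyc h hh w
      ⟨hΦX hw, Subgroup.mem_centralizer_iff.2 fun v hv => hΦab v hv w hw⟩
    have e1 : x * h⁻¹ * (x⁻¹ * w * x) = w * (x * h⁻¹) := by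
      rw [mul_assoc x h⁻¹, show h⁻¹ * (x⁻¹ * w * x) = x⁻¹ * w * x * h⁻¹ from
        ((show Commute h (x⁻¹ * w * x) from hwfix).inv_left).eq]
      group
    calc w * (h * x * h⁻¹ * x⁻¹) = h * (w * (x * h⁻¹)) * x⁻¹ := by
          rw [← mul_assoc h w, hwfix']; group
      _ = h * (x * h⁻¹ * (x⁻¹ * w * x)) * x⁻¹ := by rw [e1]
      _ = h * x * h⁻¹ * x⁻¹ * w := by group
  have hcZ : commutator X ≤ Subgroup.center X := by
    rw [commutator_def, Subgroup.commutator_le]
    intro x _ y _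
    refine Subgroup.mem_center_iff.2 fun w => Subtype.ext ?_
    show (w : S) * ((⁅x, y⁆ : X) : S) = ((⁅x, y⁆ : X) : S) * w
    rw [show ((⁅x, y⁆ : X) : S) = ⁅(x : S), (y : S)⁆ from map_commutatorElement X.subtype x y]
    exact (hΦc _ (hcoΦ x x.2 y y.2) w w.2).symm
  have hZne : Z ≠ X := fun h => hnab fun x hx y hy => (hZmem.1 (h.symm ▸ hx : x ∈ Z)).2 y hy
  have hZcyc : IsCyclic Z := hcyc Z inferInstance inf_le_left hZne fun a ha b hb =>
    (hZmem.1 ha).2 b (hZmem.1 hb).1
  have hΦZ : Φ ≤ Z := fun w hw => hZmem.2 ⟨hΦX hw, hΦc w hw⟩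
  have hinv : ∀ a ∈ Z, ∀ b ∈ Z, a * a = 1 → b * b = 1 → a ≠ 1 → b ≠ 1 → a = b := by
    intro a ha b hb ha2 hb2 ha1 hb1
    by_contra hne
    have hab := (hZmem.1 ha).2 b (hZmem.1 hb).1
    refine not_isCyclic_of_sq ?_ (fourOf_le ha2 hb2 hab ha hb) (isFour_fourOf _ _ _ ha1 hb1 hne) hZcyc
    have h4 := Subgroup.card_le_of_le (fourOf_le ha2 hb2 hab ha hb)
    rw [(isFour_fourOf ha2 hb2 hab ha1 hb1 hne).card] at h4
    omega
  obtain ⟨x0, hx0, y0, hy0, hxy0⟩ : ∃ x ∈ X, ∃ y ∈ X, x * y ≠ y * x := by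
    push Not at hnab; exact hnab
  set z := ⁅x0, y0⁆ with hzdef
  have hzZ : z ∈ Z := hΦZ (hcoΦ x0 hx0 y0 hy0)
  have hz1 : z ≠ 1 := fun h => hxy0 (commutatorElement_eq_one_iff_mul_comm.1 h)
  have hcsq : ∀ x ∈ X, ∀ y ∈ X, ⁅x, y⁆ * ⁅x, y⁆ = 1 := by
    intro x hx y hy
    have h := CfsgLib.PGroups.commutatorElement_pow_eq_one (x := (⟨x, hx⟩ : X)) (y := ⟨y, hy⟩) (m := 2)
      (hcZ (Subgroup.commutator_mem_commutator (Subgroup.mem_top _) (Subgroup.mem_top _)))
      (Subgroup.mem_center_iff.2 fun w => Subtype.ext (by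
        show (w : S) * x ^ 2 = x ^ 2 * w
        rw [pow_two]; exact (hΦc _ (hsqΦ x hx) w w.2).symm))
    have h' := congrArg X.subtype h
    rwa [map_pow, map_commutatorElement, map_one, pow_two] at h'
  have hz2 : z * z = 1 := hcsq x0 hx0 y0 hy0
  have hzc : ∀ s, z * s = s * z := by
    intro s
    have hm : s * z * s⁻¹ ∈ Z := (inferInstance : Z.Normal).conj_mem z hzZ s
    have h := hinv _ hm z hzZ (by rw [show s * z * s⁻¹ * (s * z * s⁻¹) = s * (z * z) * s⁻¹ by group, hz2]; group)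
      hz2 (fun h => hz1 (conj_eq_one_iff.1 h)) hz1
    exact (mul_inv_eq_iff_eq_mul.1 h).symm
  have hcom : ∀ a ∈ X, ∀ b ∈ X, a * b = b * a ∨ a * b = z * (b * a) := by
    intro a ha b hb
    by_cases h1 : ⁅a, b⁆ = 1
    · exact Or.inl (commutatorElement_eq_one_iff_mul_comm.1 h1)
    · refine Or.inr ?_
      rw [← hinv _ (hΦZ (hcoΦ a ha b hb)) z hzZ (hcsq a ha b hb) hz2 h1 hz1, commutatorElement_def]; group
  by_cases hZ2 : ∀ w ∈ Z, w = 1 ∨ w = z
  · -- extraspecial
    have hZcard : Nat.card (Subgroup.center ↥X) = 2 := by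
      rw [← Subgroup.card_subtype, hcenmap, ← SetLike.coe_sort_coe, Nat.card_coe_set_eq]
      rw [show (Z : Set S) = {1, z} from Set.ext fun w => ⟨hZ2 w, by
        rintro (rfl | rfl)
        exacts [one_mem _, hzZ]⟩]
      exact Set.ncard_pair hz1.symm
    have hzc' : commutator X = Subgroup.center X := by
      refine Subgroup.eq_of_le_of_card_ge hcZ ?_
      rw [hZcard]
      by_contra hlt
      have hb : commutator X = ⊥ := Subgroup.eq_bot_of_card_le _ (by omega)
      have hm : ⁅(⟨x0, hx0⟩ : X), (⟨y0, hy0⟩ : X)⁆ ∈ commutator X :=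
        Subgroup.commutator_mem_commutator (Subgroup.mem_top _) (Subgroup.mem_top _)
      rw [hb, Subgroup.mem_bot] at hm
      exact hz1 (by simpa [map_commutatorElement] using congrArg X.subtype hm)
    have hex : Cfsg.IsExtraspecial 2 X := by
      refine ⟨⟨hX, le_antisymm ?_ (hzc' ▸ CfsgLib.PGroups.commutator_le_frattini hX), hzc'⟩, hZcard⟩
      intro w hw
      exact Subgroup.mem_center_iff.2 fun v => Subtype.ext (hΦc w ⟨w, hw, rfl⟩ v v.2).symm
    refine Or.inl ⟨hex, ?_⟩
    obtain ⟨n, hn1, hn⟩ := CfsgLib.MetacyclicP.exists_card_extraspecial hex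
    rcases Nat.lt_or_ge n 2 with h | h
    · rw [show n = 1 by omega] at hn; omega
    · rw [hn]
      calc 32 = 2 ^ 5 := by norm_num
        _ ≤ _ := Nat.pow_le_pow_right (by norm_num) (by omega)
  push Not at hZ2
  obtain ⟨w0, hw0, hw01, hw0z⟩ := hZ2
  haveI := hZcyc
  obtain ⟨⟨g, hg⟩, hgen⟩ := IsCyclic.exists_generator (α := Z)
  have hgenZ : ∀ w ∈ Z, ∃ k : ℤ, g ^ k = w := fun w hw => by
    obtain ⟨k, hk⟩ := Subgroup.mem_zpowers_iff.1 (hgen ⟨w, hw⟩)
    exact ⟨k, congrArg Subtype.val hk⟩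
  obtain ⟨n, hn⟩ := IsPGroup.iff_orderOf.1 (hX.to_le (inf_le_left : Z ≤ X)) ⟨g, hg⟩
  rw [← Subgroup.orderOf_coe] at hn
  change orderOf g = 2 ^ n at hn
  have hn2 : 2 ≤ n := by
    by_contra h
    have hgg : g * g = 1 := by
      rw [← pow_two, ← orderOf_dvd_iff_pow_eq_one, hn]
      exact (Nat.pow_dvd_pow 2 (show n ≤ 1 by omega)).trans (dvd_of_eq (pow_one 2))
    have hw2 : w0 * w0 = 1 := by
      obtain ⟨k, rfl⟩ := hgenZ w0 hw0
      rw [← zpow_add, ← two_mul, zpow_mul, zpow_two, hgg, one_zpow]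
    exact hw0z (hinv w0 hw0 z hzZ hw2 hz2 hw01 hz1)
  have hpow : (2 : ℕ) ^ n = 2 * 2 ^ (n - 1) := by rw [← pow_succ', Nat.sub_add_cancel (by omega)]
  have hzg : z = g ^ 2 ^ (n - 1) := by
    refine (hinv _ (pow_mem hg _) z hzZ ?_ hz2 (fun h => ?_) hz1).symm
    · rw [← pow_add, ← two_mul, ← hpow, ← hn, pow_orderOf_eq_one]
    · have := orderOf_dvd_of_pow_eq_one h
      rw [hn, Nat.pow_dvd_pow_iff_le_right (by norm_num)] at this
      omega
  set c := g ^ 2 ^ (n - 2) with hc
  have hcc : c * c = z := by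
    rw [hzg, hc, ← pow_add, ← two_mul, ← pow_succ']
    congr 2; omega
  have hcZ' : c ∈ Z := pow_mem hg _
  obtain ⟨w, hwX, hw2, hwnc⟩ : ∃ w ∈ X, w * w = 1 ∧ w ∉ Z := by
    have hodd : ∀ v ∈ X, v ∉ Z → (∃ e : ℤ, v * v = g ^ (2 * e)) → ∃ w ∈ X, w * w = 1 ∧ w ∉ Z := by
      rintro v hv hvZ ⟨e, he⟩
      have hge : g ^ (-e) ∈ Z := zpow_mem hg _
      refine ⟨v * g ^ (-e), mul_mem hv (hZmem.1 hge).1, ?_, fun h => hvZ ?_⟩
      · have hc' : Commute (g ^ (-e)) v := (hZmem.1 hge).2 v hv
        calc v * g ^ (-e) * (v * g ^ (-e)) = v * (g ^ (-e) * v) * g ^ (-e) := by group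
          _ = v * v * (g ^ (-e) * g ^ (-e)) := by rw [hc'.eq]; group
          _ = 1 := by rw [he, ← zpow_add, ← zpow_add]; ring_nf; exact zpow_zero g
      · simpa using mul_mem h (inv_mem hge)
    have hsq' : ∀ v ∈ X, ∃ a : ℤ, g ^ a = v * v := fun v hv => hgenZ _ (hΦZ (hsqΦ v hv))
    have hnx : x0 ∉ Z := fun h => hxy0 ((hZmem.1 h).2 y0 hy0)
    have hny : y0 ∉ Z := fun h => hxy0 ((hZmem.1 h).2 x0 hx0).symm
    have hnxy : x0 * y0 ∉ Z := fun h => hxy0 (by
      have h2 := (hZmem.1 h).2 x0 hx0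
      exact (mul_left_cancel (by rwa [mul_assoc] at h2 : x0 * (y0 * x0) = x0 * (x0 * y0))).symm)
    obtain ⟨a, ha⟩ := hsq' x0 hx0
    obtain ⟨b, hb⟩ := hsq' y0 hy0
    rcases Int.even_or_odd' a with ⟨e, he | he⟩
    · exact hodd x0 hx0 hnx ⟨e, by rw [← ha, he]⟩
    rcases Int.even_or_odd' b with ⟨f, hf | hf⟩
    · exact hodd y0 hy0 hny ⟨f, by rw [← hb, hf]⟩
    refine hodd (x0 * y0) (mul_mem hx0 hy0) hnxy ⟨e + f + 1 + (2 ^ (n - 2) : ℕ), ?_⟩
    have hyx : y0 * x0 = z * (x0 * y0) :=
      (hcom y0 hy0 x0 hx0).resolve_left fun h => hxy0 h.symm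
    calc x0 * y0 * (x0 * y0) = x0 * (y0 * x0) * y0 := by group
      _ = x0 * z * (x0 * y0 * y0) := by rw [hyx]; group
      _ = z * ((x0 * x0) * (y0 * y0)) := by rw [← hzc x0]; group
      _ = _ := by
        rw [← ha, ← hb, ← hcc, hc, he, hf, ← pow_add, ← zpow_natCast, ← zpow_add, ← zpow_add]
        congr 1
        push_cast; ring
  let W : Subgroup S :=
    { carrier := {x | x ∈ X ∧ (x * x = 1 ∨ x * x = z)}
      one_mem' := ⟨one_mem _, Or.inl (one_mul 1)⟩
      mul_mem' := fun {a b} ha hb => by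
        refine ⟨mul_mem ha.1 hb.1, ?_⟩
        have e : a * b * (a * b) = (a * a) * (b * b) ∨ a * b * (a * b) = z * ((a * a) * (b * b)) := by
          rcases hcom b hb.1 a ha.1 with h | h
          · left
            calc a * b * (a * b) = a * (b * a) * b := by group
              _ = a * a * (b * b) := by rw [h]; group
          · right
            calc a * b * (a * b) = a * (b * a) * b := by group
              _ = a * z * (a * b * b) := by rw [h]; group
              _ = z * (a * a * (b * b)) := by rw [← hzc a]; group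
        rcases ha.2 with h1 | h1 <;> rcases hb.2 with h2 | h2 <;> rcases e with e | e <;>
          rw [e, h1, h2] <;> simp [hz2]
      inv_mem' := fun {a} ha => ⟨inv_mem ha.1, by
        rw [← mul_inv_rev]
        rcases ha.2 with h | h
        · exact Or.inl (by rw [h, inv_one])
        · exact Or.inr (by rw [h]; exact inv_eq_of_mul_eq_one_right hz2)⟩ }
  have hWX : W ≤ X := fun x hx => hx.1
  have hW : W = X := by
    by_contra hW
    have hWn : W.Normal := ⟨fun v hv s => ⟨hXn.conj_mem v hv.1 s, by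
      rw [show s * v * s⁻¹ * (s * v * s⁻¹) = s * (v * v) * s⁻¹ by group]
      rcases hv.2 with h | h <;> rw [h]
      · exact Or.inl (by group)
      · exact Or.inr (by rw [← hzc s, mul_inv_cancel_right])⟩⟩
    have hcW : c ∈ W := ⟨(hZmem.1 hcZ').1, Or.inr hcc⟩
    have hcy : IsCyclic W := isCyclic_of_small_central (hX.to_le hWX) (hsmall W hWn hWX hW) hcW
      (fun v hv => (hZmem.1 hcZ').2 v hv.1) (by rw [hcc]; exact hz1)
    have hw1 : w ≠ 1 := fun h => hwnc (h ▸ one_mem Z)
    have hwz : w ≠ z := fun h => hwnc (h ▸ hzZ)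
    have hwc : z * w = w * z := hzc w
    have hle : fourOf hz2 hw2 hwc ≤ W :=
      fourOf_le _ _ _ ⟨(hZmem.1 hzZ).1, Or.inl hz2⟩ ⟨hwX, Or.inl hw2⟩
    refine not_isCyclic_of_sq ?_ hle (isFour_fourOf _ _ _ hz1 hw1 hwz.symm) hcy
    have h4 := Subgroup.card_le_of_le hle
    rw [(isFour_fourOf hz2 hw2 hwc hz1 hw1 hwz.symm).card] at h4
    omega
  exact Or.inr (Or.inl (finish hX hH hXH hsmall htriv hnab hz2 hz1 (hZmem.1 hzZ).1 hzc (hZmem.1 hcZ').1
    (fun h hh => hautfix Z inferInstance inf_le_left hZcyc h hh c hcZ') (hZmem.1 hcZ').2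
    (fun h => hz1 (by rw [← hcc, h, one_mul])) (fun h => hz1 (by rw [← hcc, h, hz2]))
    (fun x hx => (hW.ge hx).2) hcom))

/-- Let S be a finite solvable group with O_{2'}(S) = 1 that contains a non-cyclic abelian subgroup of order 8, while no proper subgroup of S of 2-power index contains one. Then a Sylow 2-subgroup X of S is normal in S, and one of the following holds: X is abelian; X is extraspecial of order at least 32; X has a generalized quaternion subgroup X₀ of index 2 with X = X₀·C_X(X₀); or X is special with centre of order 4. -/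
theorem result {S : Type*} [Group S] [Finite S]
    [Group.IsSolvable S] (hO : Cfsg.pPrimeCore 2 S = ⊥)
    (h8 : ∃ A : Subgroup S, IsMulCommutative ↥A ∧ ¬ IsCyclic ↥A ∧ Nat.card ↥A = 8)
    (hmin : ∀ R : Subgroup S, R ≠ ⊤ → (∃ k : ℕ, R.index = 2 ^ k) →
      ¬ ∃ A : Subgroup S, A ≤ R ∧ IsMulCommutative ↥A ∧ ¬ IsCyclic ↥A ∧ Nat.card ↥A = 8)
    (X : Sylow 2 S) :
    (X : Subgroup S).Normal ∧
      (IsMulCommutative ↥X ∨
        (Cfsg.IsExtraspecial 2 ↥X ∧ 32 ≤ Nat.card ↥X) ∨
        (∃ (X₀ : Subgroup S) (k : ℕ), X₀ ≤ (X : Subgroup S) ∧ X₀.relIndex (X : Subgroup S) = 2 ∧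
          Nonempty (↥X₀ ≃* QuaternionGroup (2 ^ (k + 1))) ∧ X₀ ⊔ ((X : Subgroup S) ⊓ Subgroup.centralizer (X₀ : Set S)) = (X : Subgroup S)) ∨
        (Cfsg.IsSpecial 2 ↥X ∧ Nat.card ↥(Subgroup.center ↥X) = 4)) := by
  classical
  haveI : Fact (Nat.Prime 2) := ⟨Nat.prime_two⟩
  obtain ⟨A, hAc, hAn, hA8⟩ := h8
  have hsmR : ∀ R : Subgroup S, R ≠ ⊤ → (∃ k : ℕ, R.index = 2 ^ k) → SmallTwo.Small R :=
    fun R hR hk B hB hBc hBn hB8 => hmin R hR hk ⟨B, hB, hBc, hBn, hB8⟩
  set T := Cfsg.pCore 2 S with hT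
  haveI hTn : T.Normal := inferInstance
  have hTp : IsPGroup 2 T := CfsgLib.Cores.isPGroup_pCore 2 S
  have hCT : Subgroup.centralizer (T : Set S) ≤ T :=
    CfsgLib.PSolvable.centralizer_pCore_le CfsgLib.PSolvable.isPSolvable_of_isSolvable hO
  have hTnot : ¬ SmallTwo.Small T := CfsgLib.Minimal.SmallCore.not_small_core T hTp hCT hAc hAn hA8 hsmR
    fun N hN hp => le_sSup ⟨hN, hp⟩
  obtain ⟨H, hH⟩ := CfsgLib.Hall.exists_isPiHall (G := S) {q | q ≠ 2}
  have hHodd : Odd (Nat.card H) := by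
    rw [← Nat.not_even_iff_odd, even_iff_two_dvd]
    exact fun h => hH.1 2 Nat.prime_two h rfl
  have hHidx : ∃ k : ℕ, H.index = 2 ^ k :=
    ⟨_, Nat.eq_prime_pow_of_unique_prime_dvd Subgroup.index_ne_zero_of_finite fun {d} hd hdd =>
      by_contra fun hne => hH.2 d hd hne hdd⟩
  have hidx : ∀ R : Subgroup S, H ≤ R → ∃ k : ℕ, R.index = 2 ^ k := fun R hR => by
    obtain ⟨k, hk⟩ := hHidx
    obtain ⟨j, -, hj⟩ := (Nat.dvd_prime_pow Nat.prime_two).1 (hk ▸ Subgroup.index_dvd_of_le hR)
    exact ⟨j, hj⟩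
  have hTH : T ⊔ H = ⊤ := by
    by_contra hne
    exact hTnot ((hsmR _ hne (hidx _ le_sup_right)).mono le_sup_left)
  have hdisj : ∀ K : Subgroup S, IsPGroup 2 K → ∀ x, x ∈ K → x ∈ H → x = 1 := by
    intro K hK x hxK hxH
    obtain ⟨l, hl⟩ := hK ⟨x, hxK⟩
    exact CfsgLib.TwoGroups.eq_one_of_pow_odd hHodd
      (congrArg Subtype.val (pow_card_eq_one' (G := H) (x := ⟨x, hxH⟩))) (congrArg Subtype.val hl)
  -- `T` is the Sylow 2-subgroup
  have hTX : T = (X : Subgroup S) := by
    have hle : T ≤ (X : Subgroup S) :=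
      (X.3 (IsPGroup.to_sup_of_normal_right X.2 hTp) le_sup_left).le.trans' le_sup_right
    refine Subgroup.eq_of_le_of_card_ge hle ?_
    have h1 := Nat.le_of_dvd (Nat.mul_pos Nat.card_pos Nat.card_pos) (CfsgLib.Cores.card_sup_dvd H T)
    rw [sup_comm, hTH, Subgroup.card_top] at h1
    have h3 : Nat.card (X : Subgroup S) * Nat.card H ≤ Nat.card S := by
      rw [← Nat.card_prod]
      refine Nat.card_le_card_of_injective (fun p : ↥(X : Subgroup S) × ↥H => (p.1 : S) * (p.2 : S)) ?_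
      rintro ⟨a, b⟩ ⟨a', b'⟩ he
      simp only at he
      have e1 : (a' : S)⁻¹ * a = b' * (b : S)⁻¹ := by
        rw [inv_mul_eq_iff_eq_mul, ← mul_assoc, ← he, mul_inv_cancel_right]
      have e2 := hdisj _ X.2 _ (mul_mem (inv_mem a'.2) a.2) (e1 ▸ mul_mem b'.2 (inv_mem b.2))
      have ha : a = a' := Subtype.ext (inv_mul_eq_one.1 e2).symm
      subst ha
      exact Prod.ext rfl (Subtype.ext (mul_left_cancel he))
    exact Nat.le_of_mul_le_mul_right
      ((mul_comm _ _).trans_le ((le_of_eq (mul_comm _ _)).trans (h3.trans (h1.trans (le_of_eq (mul_comm _ _))))))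
      Nat.card_pos
  have hXn : (X : Subgroup S).Normal := hTX ▸ hTn
  haveI := hXn
  refine ⟨hXn, ?_⟩
  by_cases hab : ∀ x ∈ (X : Subgroup S), ∀ y ∈ (X : Subgroup S), x * y = y * x
  · exact Or.inl ⟨⟨fun a b => Subtype.ext (hab a a.2 b b.2)⟩⟩
  refine Or.inr ?_
  have hXp : IsPGroup 2 (X : Subgroup S) := X.2
  have hXH : (X : Subgroup S) ⊔ H = ⊤ := hTX ▸ hTH
  have hA : IsPGroup 2 A := IsPGroup.of_card (n := 3) (by rw [hA8]; norm_num)
  have hAX : A ≤ (X : Subgroup S) :=
    (X.3 (IsPGroup.to_sup_of_normal_right hA hXp) le_sup_right).le.trans' le_sup_left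
  have hsmall : ∀ Y : Subgroup S, Y.Normal → Y ≤ (X : Subgroup S) → Y ≠ (X : Subgroup S) →
      SmallTwo.Small Y := by
    intro Y hYn hYX hne
    haveI := hYn
    refine (hsmR (Y ⊔ H) (fun htop => hne (le_antisymm hYX fun x hx => ?_)) (hidx _ le_sup_right)).mono le_sup_left
    obtain ⟨y, hy, h, hh, rfl⟩ := Subgroup.mem_sup_of_normal_left.1 (htop.symm ▸ Subgroup.mem_top x : x ∈ Y ⊔ H)
    have hh1 : h = 1 := hdisj _ hXp h (by simpa using mul_mem (inv_mem (hYX hy)) hx) hh
    rw [hh1, mul_one]; exact hy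
  have htriv : (∀ h ∈ H, ∀ x ∈ (X : Subgroup S), h * x = x * h) → False := by
    intro h
    have hHbot : H = ⊥ := (Subgroup.eq_bot_iff_forall _).2 fun g hg => hdisj T hTp g
      (hCT (Subgroup.mem_centralizer_iff.2 fun t ht => (h g hg t (hTX ▸ ht)).symm)) hg
    have hAtop : A = ⊤ := by
      by_contra hne
      exact hsmR A hne (hidx A (hHbot ▸ bot_le)) A le_rfl hAc hAn hA8
    exact hab fun x _ y _ => congrArg Subtype.val (hAc.is_comm.comm
      (⟨x, hAtop ▸ Subgroup.mem_top x⟩ : A) ⟨y, hAtop ▸ Subgroup.mem_top y⟩)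
  have hge : 8 < Nat.card (X : Subgroup S) := by
    by_contra hle
    have hAX' : A = (X : Subgroup S) := Subgroup.eq_of_le_of_card_ge hAX (by rw [hA8]; omega)
    exact hab fun x hx y hy => congrArg Subtype.val (hAc.is_comm.comm
      (⟨x, hAX'.symm ▸ hx⟩ : A) ⟨y, hAX'.symm ▸ hy⟩)
  exact structure_normal hXp hHodd hXH hsmall htriv hab hge

end Cfsg.Agent.S4409
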