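import Cfsg.Statements.S4410
import Cfsg.Agent.Lib.Cores.Fitting
import Mathlib.LinearAlgebra.Matrix.GeneralLinearGroup.Card
import Mathlib.GroupTheory.Nilpotent

set_option autoImplicit false
set_option linter.style.haveILetI false
open Cfsg

namespace Cfsg.Agent.S4410

theorem card_sup_le {R M : Type*} [Ring R] [AddCommGroup M] [Module R M] [Finite M]
    (A B : Submodule R M) : Nat.card (A ⊔ B : Submodule R M) ≤ Nat.card A * Nat.card B := by
  rw [← Nat.card_prod]
  refine Nat.card_le_card_of_surjective (fun p : A × B => (⟨(p.1 : M) + p.2,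
    Submodule.add_mem_sup p.1.2 p.2.2⟩ : (A ⊔ B : Submodule R M))) ?_
  rintro ⟨z, hz⟩
  obtain ⟨a, ha, b, hb, rfl⟩ := Submodule.mem_sup.1 hz
  exact ⟨(⟨a, ha⟩, ⟨b, hb⟩), rfl⟩

theorem card_linearEquiv {U : Type*} [AddCommGroup U] [Module (ZMod 2) U] [Finite U] :
    ∃ k, Nat.card U = 2 ^ k ∧ Nat.card (U ≃ₗ[ZMod 2] U) = ∏ i : Fin k, (2 ^ k - 2 ^ (i : ℕ)) := by
  haveI : Fact (Nat.Prime 2) := ⟨Nat.prime_two⟩
  refine ⟨Module.finrank (ZMod 2) U, ?_, ?_⟩
  · rw [Module.natCard_eq_pow_finrank (K := ZMod 2), Nat.card_zmod]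
  · rw [← Nat.card_congr (LinearMap.GeneralLinearGroup.generalLinearEquiv (ZMod 2) U).toEquiv,
      ← Nat.card_congr
        (Matrix.GeneralLinearGroup.toLin' (Module.finBasis (ZMod 2) U)).toEquiv,
      Matrix.card_GL_field]
    simp

theorem add_self_eq_zero' {M : Type*} [AddCommGroup M] [Module (ZMod 2) M] (w : M) : w + w = 0 := by
  rw [← two_smul (ZMod 2) w, show (2 : ZMod 2) = 0 from rfl, zero_smul]

/-- A group of odd order acting trivially on `V/U` embeds into `GL(U)`. -/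
theorem card_dvd {V : Type*} [AddCommGroup V] [Module (ZMod 2) V] [Finite V]
    {S : Subgroup (V ≃ₗ[ZMod 2] V)} (K : Subgroup S) (hK : Odd (Nat.card K))
    (U : Submodule (ZMod 2) V) (hU : ∀ g ∈ K, ∀ v, (g : V ≃ₗ[ZMod 2] V) v - v ∈ U) :
    Nat.card K ∣ Nat.card (↥U ≃ₗ[ZMod 2] ↥U) := by
  have hmem : ∀ g ∈ K, ∀ v ∈ U, (g : V ≃ₗ[ZMod 2] V) v ∈ U := fun g hg v hv => by
    simpa using U.add_mem (hU g hg v) hv
  have hone : ∀ v, ((1 : S) : V ≃ₗ[ZMod 2] V) v = v := fun v => rfl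
  let res : K → (↥U ≃ₗ[ZMod 2] ↥U) := fun g =>
    { toFun := fun u => ⟨((g : S) : V ≃ₗ[ZMod 2] V) u, hmem g g.2 u u.2⟩
      map_add' := fun a b => Subtype.ext (map_add _ (a : V) b)
      map_smul' := fun c a => Subtype.ext (map_smul _ c (a : V))
      invFun := fun u => ⟨(((g⁻¹ : K) : S) : V ≃ₗ[ZMod 2] V) u, hmem _ (g⁻¹).2 u u.2⟩
      left_inv := fun u => Subtype.ext (by
        change ((((g⁻¹ : K) * g : K) : S) : V ≃ₗ[ZMod 2] V) u = u
        rw [inv_mul_cancel]; rfl)
      right_inv := fun u => Subtype.ext (by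
        change ((((g * g⁻¹ : K)) : S) : V ≃ₗ[ZMod 2] V) u = u
        rw [mul_inv_cancel]; rfl) }
  let φ : K →* (↥U ≃ₗ[ZMod 2] ↥U) :=
    MonoidHom.mk' res (fun g h => LinearEquiv.ext fun u => Subtype.ext rfl)
  refine Subgroup.card_dvd_of_injective φ ((injective_iff_map_eq_one φ).2 fun g hg => ?_)
  have hfix : ∀ u ∈ U, ((g : S) : V ≃ₗ[ZMod 2] V) u = u := fun u hu =>
    congrArg Subtype.val (LinearEquiv.congr_fun hg ⟨u, hu⟩)
  have hg2 : g * g = 1 := by
    refine Subtype.ext (Subtype.ext (LinearEquiv.ext fun v => ?_))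
    set G := ((g : S) : V ≃ₗ[ZMod 2] V) with hG
    change G (G v) = v
    have h1 := hfix _ (hU g g.2 v)
    rw [map_sub] at h1
    -- `G (G v) - G v = G v - v`
    have h2 : G (G v) = (G v - v) + G v := sub_eq_iff_eq_add.1 h1
    rw [h2, sub_add_eq_add_sub, add_self_eq_zero', zero_sub, ← add_eq_zero_iff_neg_eq,
      add_self_eq_zero']
  have h1 : orderOf g ∣ 2 := orderOf_dvd_of_pow_eq_one (by rw [pow_two, hg2])
  have h3 : orderOf g ∣ Nat.card K := orderOf_dvd_natCard g
  exact orderOf_eq_one_iff.1 (Nat.dvd_one.1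
    ((Nat.coprime_two_left.2 hK).gcd_eq_one ▸ Nat.dvd_gcd h1 h3))

theorem odd_card_fitting {S : Type*} [Group S] [Finite S] (h : Cfsg.pCore 2 S = ⊥) :
    Odd (Nat.card (Cfsg.fittingSubgroup S)) := by
  haveI : Fact (Nat.Prime 2) := ⟨Nat.prime_two⟩
  haveI := CfsgLib.Cores.isNilpotent_fittingSubgroup (G := S)
  haveI := CfsgLib.Cores.fittingSubgroup_normal S
  by_contra hodd
  rw [Nat.not_odd_iff_even, even_iff_two_dvd] at hodd
  let Q : Sylow 2 (Cfsg.fittingSubgroup S) := default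
  haveI hQn : (Q : Subgroup (Cfsg.fittingSubgroup S)).Normal := inferInstance
  haveI := Q.characteristic_of_normal hQn
  haveI : ((Q : Subgroup (Cfsg.fittingSubgroup S)).map (Cfsg.fittingSubgroup S).subtype).Normal :=
    ConjAct.normal_of_characteristic_of_normal
  have hb : (Q : Subgroup (Cfsg.fittingSubgroup S)).map (Cfsg.fittingSubgroup S).subtype = ⊥ :=
    le_bot_iff.1 (h ▸ CfsgLib.Cores.le_pCore (Q.isPGroup'.map _))
  rw [Subgroup.map_eq_bot_iff_of_injective _ (Cfsg.fittingSubgroup S).subtype_injective] at hb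
  exact (Sylow.ne_bot_of_dvd_card Q hodd) hb

theorem mem_zpowers_of_nilpotent {G : Type*} [Group G] [Finite G] (hn : Group.IsNilpotent G)
    (h9 : ¬ 9 ∣ Nat.card G) {x y : G} (hx : orderOf x = 3) (hy : y ^ 3 = 1) :
    y ∈ Subgroup.zpowers x := by
  haveI : Fact (Nat.Prime 3) := ⟨Nat.prime_three⟩
  let P : Sylow 3 G := default
  haveI hPn : (P : Subgroup G).Normal := inferInstance
  have hmem : ∀ z : G, z ^ 3 = 1 → z ∈ (P : Subgroup G) := by
    intro z hz
    obtain ⟨R, hR⟩ := (IsPGroup.of_card (p := 3) (n := (orderOf z).factorization 3)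
      (G := Subgroup.zpowers z) (by
        rw [Nat.card_zpowers]
        rcases Nat.prime_three.eq_one_or_self_of_dvd _ (orderOf_dvd_of_pow_eq_one hz) with h | h <;>
          simp [h, Nat.prime_three.factorization_self])).exists_le_sylow
    haveI := Sylow.unique_of_normal P hPn
    rw [show P = R from Subsingleton.elim _ _]
    exact hR (Subgroup.mem_zpowers z)
  have hxP := hmem x (by rw [← hx]; exact pow_orderOf_eq_one x)
  have hcard : Nat.card (P : Subgroup G) ≤ Nat.card (Subgroup.zpowers x) := by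
    rw [Nat.card_zpowers, hx]
    obtain ⟨k, hk⟩ := IsPGroup.iff_card.1 P.isPGroup'
    by_contra hlt
    have h2 : 2 ≤ k := by
      by_contra h'
      interval_cases k <;> omega
    exact h9 ((pow_dvd_pow 3 h2).trans (hk ▸ Subgroup.card_subgroup_dvd_card _))
  exact (Subgroup.eq_of_le_of_card_ge (Subgroup.zpowers_le.2 hxP) hcard).ge (hmem y hy)

/-- Let V be a finite-dimensional vector space over the field with two elements and S a solvable group of linear automorphisms of V with O₂(S) = 1. If P ∈ S has order 4 and (P − 1)³ = 0 on V, then the image of (P − 1)² has at least 4 elements; equivalently, in the decomposition of V into indecomposable modules for the cyclic group generated by P, at least two summands have dimension 3. -/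
theorem result
    {V : Type*} [AddCommGroup V] [Module (ZMod 2) V] [Finite V]
    (S : Subgroup (V ≃ₗ[ZMod 2] V)) (hS : Group.IsSolvable ↥S) (hO2 : Cfsg.pCore 2 ↥S = ⊥)
    (P : V ≃ₗ[ZMod 2] V) (hPS : P ∈ S) (hP4 : orderOf P = 4)
    (hcub : ((P : V →ₗ[ZMod 2] V) - LinearMap.id) ^ 3 = 0) :
    4 ≤ Nat.card ↥(LinearMap.range (((P : V →ₗ[ZMod 2] V) - LinearMap.id) ^ 2)) := by
  haveI : Fact (Nat.Prime 2) := ⟨Nat.prime_two⟩
  haveI : Finite (V ≃ₗ[ZMod 2] V) := Finite.of_injective (fun e => (e : V → V)) DFunLike.coe_injective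
  haveI := hS
  by_contra hlt
  push Not at hlt
  set N : V →ₗ[ZMod 2] V := ((P : V →ₗ[ZMod 2] V) - LinearMap.id) ^ 2 with hN
  set R := LinearMap.range N with hR
  have hR2 : Nat.card R ≤ 2 := by
    have hc := Module.natCard_eq_pow_finrank (K := ZMod 2) (V := R)
    rw [Nat.card_zmod] at hc
    rcases Nat.lt_or_ge (Module.finrank (ZMod 2) R) 2 with h | h
    · rw [hc]; exact (Nat.pow_le_pow_right two_pos (Nat.le_of_lt_succ h)).trans (by norm_num)
    · have := Nat.pow_le_pow_right two_pos h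
      omega
  set Ps : S := ⟨P, hPS⟩ with hPs
  set t : S := Ps * Ps with ht
  have hord : orderOf Ps = 4 := by rw [← hP4]; exact Subgroup.orderOf_mk P hPS
  have ht1 : t ≠ 1 := fun h => by
    have := orderOf_dvd_of_pow_eq_one (pow_two Ps ▸ (h : Ps * Ps = 1) : Ps ^ 2 = 1)
    rw [hord] at this
    omega
  have htt : t * t = 1 := by
    rw [ht, ← pow_two, ← pow_two, ← pow_mul]
    have := pow_orderOf_eq_one Ps
    rw [hord] at this
    exact this
  have hti : t⁻¹ = t := inv_eq_of_mul_eq_one_right htt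
  have htR : ∀ v, (t : V ≃ₗ[ZMod 2] V) v - v ∈ R := by
    intro v
    refine ⟨v, ?_⟩
    change (P (P v - v) - (P v - v)) = P (P v) - v
    have h2 : v + v = 0 := add_self_eq_zero' v
    have h3 : P v + P v = 0 := add_self_eq_zero' (P v)
    rw [map_sub, eq_comm, ← sub_eq_zero]
    have : P (P v) - v - (P (P v) - P v - (P v - v)) = (P v + P v) - (v + v) := by abel
    rw [this, h2, h3, sub_zero]
  have hFodd := odd_card_fitting hO2
  haveI hFn := CfsgLib.Cores.fittingSubgroup_normal ↥S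
  have hFnil := CfsgLib.Cores.isNilpotent_fittingSubgroup (G := ↥S)
  set F := Cfsg.fittingSubgroup ↥S with hF
  have hoddle : ∀ K : Subgroup S, K ≤ F → Odd (Nat.card K) := fun K hK =>
    hFodd.of_dvd_nat (Subgroup.card_dvd_of_le hK)
  let Rf : S → Submodule (ZMod 2) V := fun f =>
    R ⊔ R.map (((f⁻¹ : S) : V ≃ₗ[ZMod 2] V) : V →ₗ[ZMod 2] V)
  have hRf : ∀ f, Nat.card (Rf f) ≤ 4 := fun f => by
    have h1 : Nat.card (R.map (((f⁻¹ : S) : V ≃ₗ[ZMod 2] V) : V →ₗ[ZMod 2] V)) ≤ 2 := by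
      refine le_trans ?_ hR2
      exact (Nat.card_congr
        ((((f⁻¹ : S) : V ≃ₗ[ZMod 2] V)).submoduleMap R).toEquiv).ge
    exact (card_sup_le _ _).trans (Nat.mul_le_mul hR2 h1)
  have hone : ∀ v, ((1 : S) : V ≃ₗ[ZMod 2] V) v = v := fun v => rfl
  let x : S → S := fun f => f⁻¹ * t * f * t
  have hxF : ∀ f ∈ F, x f ∈ F := fun f hf => by
    have := F.mul_mem (F.inv_mem hf) (hFn.conj_mem f hf t)
    rw [hti] at this
    simpa [x, mul_assoc] using this
  have hmove : ∀ f v, (x f : V ≃ₗ[ZMod 2] V) v - v ∈ Rf f := by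
    intro f v
    set a := (t : V ≃ₗ[ZMod 2] V) v with ha
    have h1 : (x f : V ≃ₗ[ZMod 2] V) v - v =
        ((f⁻¹ : S) : V ≃ₗ[ZMod 2] V) ((t : V ≃ₗ[ZMod 2] V) ((f : V ≃ₗ[ZMod 2] V) a) -
          (f : V ≃ₗ[ZMod 2] V) a) + (a - v) := by
      have hca : ((f⁻¹ : S) : V ≃ₗ[ZMod 2] V) ((f : V ≃ₗ[ZMod 2] V) a) = a := by
        change ((f⁻¹ * f : S) : V ≃ₗ[ZMod 2] V) a = a
        rw [inv_mul_cancel]; rfl
      rw [map_sub, hca]
      change ((f⁻¹ : S) : V ≃ₗ[ZMod 2] V) ((t : V ≃ₗ[ZMod 2] V) ((f : V ≃ₗ[ZMod 2] V) a)) - v = _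
      abel
    rw [h1]
    exact Submodule.add_mem _ (Submodule.mem_sup_right ⟨_, htR _, rfl⟩)
      (Submodule.mem_sup_left (htR v))
  have hgen : ∀ (U : Submodule (ZMod 2) V) (T : Set S),
      (∀ g ∈ T, ∀ v, (g : V ≃ₗ[ZMod 2] V) v - v ∈ U) →
      ∀ g ∈ Subgroup.closure T, ∀ v, (g : V ≃ₗ[ZMod 2] V) v - v ∈ U := by
    intro U T hT g hg
    induction hg using Subgroup.closure_induction with
    | mem g hg => exact hT g hg
    | one => intro v; rw [hone, sub_self]; exact U.zero_mem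
    | mul a b _ _ ha hb =>
      intro v
      have := U.add_mem (ha ((b : V ≃ₗ[ZMod 2] V) v)) (hb v)
      rwa [sub_add_sub_cancel] at this
    | inv a _ ha =>
      intro v
      have := U.neg_mem (ha (((a⁻¹ : S) : V ≃ₗ[ZMod 2] V) v))
      have hc : (a : V ≃ₗ[ZMod 2] V) (((a⁻¹ : S) : V ≃ₗ[ZMod 2] V) v) = v := by
        change ((a * a⁻¹ : S) : V ≃ₗ[ZMod 2] V) v = v
        rw [mul_inv_cancel]; rfl
      rwa [hc, neg_sub] at this
  have hx3 : ∀ f ∈ F, x f ^ 3 = 1 := by
    intro f hf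
    have hodd := hoddle (Subgroup.closure {x f})
      ((Subgroup.closure_le _).2 (by simpa using hxF f hf))
    have hd := card_dvd _ hodd (Rf f)
      (hgen (Rf f) {x f} (fun g hg => by rw [Set.mem_singleton_iff] at hg; subst hg; exact hmove f))
    obtain ⟨k, hk, hk'⟩ := card_linearEquiv (U := Rf f)
    rw [hk'] at hd
    have hk2 : k ≤ 2 := (Nat.pow_le_pow_iff_right (le_refl 2)).1 (hk ▸ hRf f)
    have h6 : Nat.card (Subgroup.closure {x f}) ∣ 6 := by
      refine hd.trans ?_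
      interval_cases k <;> simp [Fin.prod_univ_succ]
    rw [← Subgroup.zpowers_eq_closure, Nat.card_zpowers] at hodd h6
    exact orderOf_dvd_iff_pow_eq_one.1
      (Nat.Coprime.dvd_of_dvd_mul_left (Nat.coprime_two_right.2 hodd) (h6 : _ ∣ 2 * 3))
  -- `t` centralises the Fitting subgroup
  have hcent : t ∈ Subgroup.centralizer (F : Set S) := by
    refine Subgroup.mem_centralizer_iff.2 fun f hf => ?_
    suffices hx1 : x f = 1 by
      calc f * t = f * (x f) * t := by rw [hx1, mul_one]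
        _ = t * f * (t * t) := by simp only [x]; group
        _ = t * f := by rw [htt, mul_one]
    by_contra hxne
    have hxo : orderOf (x f) = 3 := orderOf_eq_prime (hx3 f hf) hxne
    set f' := Ps * f * Ps⁻¹ with hf'
    have hf'F : f' ∈ F := hFn.conj_mem f hf Ps
    have hconj : x f' = Ps * x f * Ps⁻¹ := by
      simp only [x, hf', ht]; group
    set Q := Subgroup.closure ({x f, x f'} : Set S) with hQ
    have hQF : Q ≤ F := (Subgroup.closure_le _).2 (by
      intro g hg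
      rcases hg with rfl | rfl
      exacts [hxF f hf, hxF f' hf'F])
    set U := Rf f ⊔ R.map (((f'⁻¹ : S) : V ≃ₗ[ZMod 2] V) : V →ₗ[ZMod 2] V) with hUdef
    have hU8 : Nat.card U ≤ 8 := by
      have h2 : Nat.card (R.map (((f'⁻¹ : S) : V ≃ₗ[ZMod 2] V) : V →ₗ[ZMod 2] V)) ≤ 2 :=
        le_trans ((Nat.card_congr
          ((((f'⁻¹ : S) : V ≃ₗ[ZMod 2] V)).submoduleMap R).toEquiv).ge) hR2
      exact (card_sup_le _ _).trans (Nat.mul_le_mul (hRf f) h2)
    have hd := card_dvd Q (hoddle Q hQF) U (hgen U _ (fun g hg v => by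
      rcases hg with rfl | rfl
      · exact Submodule.mem_sup_left (hmove f v)
      · exact (sup_le (le_sup_of_le_left le_sup_left) le_sup_right : Rf f' ≤ U) (hmove f' v)))
    obtain ⟨k, hk, hk'⟩ := card_linearEquiv (U := U)
    rw [hk'] at hd
    have hk3 : k ≤ 3 := (Nat.pow_le_pow_iff_right (le_refl 2)).1 (hk ▸ hU8)
    have h168 : Nat.card Q ∣ 168 := by
      refine hd.trans ?_
      interval_cases k <;> simp [Fin.prod_univ_succ]
    have hQnil : Group.IsNilpotent Q :=
      Group.nilpotent_of_mulEquiv (Subgroup.subgroupOfEquivOfLe hQF)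
    have hxQ : x f ∈ Q := Subgroup.subset_closure (Set.mem_insert _ _)
    have hx'Q : x f' ∈ Q := Subgroup.subset_closure (Set.mem_insert_of_mem _ rfl)
    have hmz := mem_zpowers_of_nilpotent hQnil (fun h => absurd (h.trans h168) (by norm_num))
      (x := ⟨x f, hxQ⟩) (y := ⟨x f', hx'Q⟩) (by rw [Subgroup.orderOf_mk, hxo])
      (Subtype.ext (by simpa using hx3 f' hf'F))
    obtain ⟨i, hi⟩ := Subgroup.mem_zpowers_iff.1 hmz
    have hi' : x f ^ i = Ps * x f * Ps⁻¹ := by
      rw [← hconj]; simpa using congrArg Subtype.val hi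
    -- conjugation by `t` inverts and centralises `x f`
    have hinv : t * x f * t⁻¹ = (x f)⁻¹ := by simp only [x]; rw [hti]; group; simp [htt, hti, mul_assoc]
    have hpm : Ps * x f * Ps⁻¹ = x f ∨ Ps * x f * Ps⁻¹ = (x f)⁻¹ := by
      obtain ⟨m, hm⟩ := (isOfFinOrder_of_finite (x f)).mem_powers_iff_mem_zpowers.2
        (Subgroup.mem_zpowers_iff.2 ⟨i, hi'⟩)
      change x f ^ m = _ at hm
      rw [← hm, ← pow_mod_orderOf, hxo]
      have h3 : m % 3 < 3 := Nat.mod_lt _ (by norm_num)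
      rcases (show m % 3 = 0 ∨ m % 3 = 1 ∨ m % 3 = 2 by omega) with h | h | h
      · exfalso
        rw [← pow_mod_orderOf, hxo, h, pow_zero, eq_comm, conj_eq_one_iff] at hm
        exact hxne hm
      · left; rw [h, pow_one]
      · right; rw [h, eq_inv_iff_mul_eq_one, ← pow_succ, hx3 f hf]
    have hfix : t * x f * t⁻¹ = x f := by
      calc t * x f * t⁻¹ = Ps * (Ps * x f * Ps⁻¹) * Ps⁻¹ := by rw [ht]; group
        _ = x f := by
          rcases hpm with h | h
          · rw [h, h]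
          · rw [h, ← conj_inv, h, inv_inv]
    rw [hfix] at hinv
    have h2 : orderOf (x f) ∣ 2 :=
      orderOf_dvd_of_pow_eq_one (by rw [pow_two]; exact eq_inv_iff_mul_eq_one.1 hinv)
    rw [hxo] at h2
    omega
  have htF : t ∈ F := CfsgLib.Cores.centralizer_fittingSubgroup_le hcent
  have hot : orderOf t = 2 := orderOf_eq_prime (by rw [pow_two, htt]) ht1
  have := F.orderOf_dvd_natCard htF
  rw [hot] at this
  exact Nat.not_even_iff_odd.2 hFodd (even_iff_two_dvd.2 this)

end Cfsg.Agent.S4410
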