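import Cfsg.Statements.S4411
import Cfsg.Agent.Lib.Minimal.CharAutomizer

set_option autoImplicit false
open Cfsg

namespace Cfsg.Agent.S4411

open CfsgLib.Minimal CfsgLib.NormalPComplement

theorem charIn_map {G G' : Type*} [Group G] [Group G'] (f : G →* G') (hf : Function.Injective f)
    {P K : Subgroup G} (h : CharIn P K) : CharIn (P.map f) (K.map f) := by
  obtain ⟨K', hK', rfl⟩ := h
  let e := P.equivMapOfInjective f hf
  refine ⟨K'.map e.toMonoidHom, Subgroup.characteristic_iff_map_eq.2 fun φ => ?_, ?_⟩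
  · have h1 := Subgroup.characteristic_iff_map_eq.1 hK' ((e.trans φ).trans e.symm)
    conv_rhs => rw [← h1]
    rw [Subgroup.map_map, Subgroup.map_map]
    congr 1
    ext z
    simp
  · rw [Subgroup.map_map, Subgroup.map_map]
    rfl

theorem mem_normalizer_sup {G : Type*} [Group G] {A B : Subgroup G} {x : G}
    (hx : x ∈ (Subgroup.normalizer (A : Set G) : Set G) ∩ Subgroup.normalizer (B : Set G)) :
    x ∈ Subgroup.normalizer ((A ⊔ B : Subgroup G) : Set G) := by
  have key : ∀ {X : Subgroup G} {u : G}, u ∈ Subgroup.normalizer (X : Set G) →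
      X.map (MulAut.conj u).toMonoidHom ≤ X := fun {X u} hu => by
    rintro _ ⟨z, hz, rfl⟩
    exact (Subgroup.mem_normalizer_iff.1 hu z).1 hz
  have hle : ∀ {u : G}, u ∈ Subgroup.normalizer (A : Set G) → u ∈ Subgroup.normalizer (B : Set G) →
      ∀ y ∈ A ⊔ B, u * y * u⁻¹ ∈ A ⊔ B := fun {u} ha hb y hy => by
    have h : (A ⊔ B).map (MulAut.conj u).toMonoidHom ≤ A ⊔ B := by
      rw [Subgroup.map_sup]; exact sup_le_sup (key ha) (key hb)
    exact h ⟨y, hy, rfl⟩
  refine Subgroup.mem_normalizer_iff.2 fun y => ⟨hle hx.1 hx.2 y, fun hy => ?_⟩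
  have h := hle (inv_mem (s := Subgroup.normalizer (A : Set G)) hx.1)
    (inv_mem (s := Subgroup.normalizer (B : Set G)) hx.2) _ hy
  simpa [mul_assoc] using h

/-- An element of prime power order outside the centralizer gives a divisor of the automizer. -/
theorem dvd_of_elem {G : Type*} [Group G] [Finite G] {q k : ℕ} [hq : Fact q.Prime] {K : Subgroup G} {x : G}
    (hx : x ∈ Subgroup.normalizer (K : Set G)) (hxC : x ∉ Subgroup.centralizer (K : Set G))
    (hk : orderOf x = q ^ k) :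
    q ∣ ((Subgroup.centralizer (K : Set G)).subgroupOf (Subgroup.normalizer (K : Set G))).index := by
  set N := Subgroup.normalizer (K : Set G)
  set C := (Subgroup.centralizer (K : Set G)).subgroupOf N
  let f := QuotientGroup.mk' C
  have hne : orderOf (f ⟨x, hx⟩) ≠ 1 := fun h =>
    hxC (Subgroup.mem_subgroupOf.1 ((QuotientGroup.eq_one_iff _).1 (orderOf_eq_one_iff.1 h)))
  obtain ⟨j, -, hj⟩ := (Nat.dvd_prime_pow hq.out).1 (hk ▸ Subgroup.orderOf_mk x hx ▸ orderOf_map_dvd f ⟨x, hx⟩)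
  rw [Subgroup.index_eq_card]
  refine dvd_trans ?_ (orderOf_dvd_natCard (f ⟨x, hx⟩))
  rw [hj] at hne ⊢
  exact dvd_pow_self q (by rintro rfl; simp at hne)

/-- A divisor of the index gives such an element. -/
theorem exists_elem {G : Type*} [Group G] [Finite G] {q : ℕ} [hq : Fact q.Prime] {M C : Subgroup G}
    (h : q ∣ C.relIndex M) : ∃ x ∈ M, x ∉ C ∧ ∃ k, orderOf x = q ^ k := by
  obtain ⟨Q⟩ := (inferInstance : Nonempty (Sylow q M))
  by_contra hno
  push Not at hno
  refine Q.not_dvd_index (h.trans (Subgroup.index_dvd_of_le fun z hz => ?_))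
  obtain ⟨k, hk⟩ := IsPGroup.iff_orderOf.1 Q.isPGroup' ⟨z, hz⟩
  rw [Subgroup.orderOf_mk] at hk
  exact Subgroup.mem_subgroupOf.2 (by_contra fun hzC => hno z z.2 hzC k (by rw [Subgroup.orderOf_coe, hk]))

/-- Let p and q be distinct primes with {p, q} ≠ {2, 3}, and let G be a finite group such that for every p-subgroup H of G the automizer N_G(H)/C_G(H) is p-solvable. If q divides the order of N_G(H)/C_G(H) for some p-subgroup H, then a Sylow p-subgroup of G has a normal subgroup K (normal in the Sylow subgroup) such that q divides the order of N_G(K)/C_G(K). -/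
theorem result {G : Type*} [Group G] [Finite G]
    (p q : ℕ) [Fact p.Prime] [Fact q.Prime] (hpq : p ≠ q) (h23 : ¬ ((p = 2 ∧ q = 3) ∨ (p = 3 ∧ q = 2)))
    (hsol : ∀ H : Subgroup G, IsPGroup p ↥H →
      Cfsg.IsPSolvable p (↥(Subgroup.normalizer (H : Set G)) ⧸ (Subgroup.centralizer (H : Set G)).subgroupOf (Subgroup.normalizer (H : Set G))))
    (H : Subgroup G) (hH : IsPGroup p ↥H)
    (hq : q ∣ ((Subgroup.centralizer (H : Set G)).subgroupOf (Subgroup.normalizer (H : Set G))).index)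
    (Gp : Sylow p G) :
    ∃ K : Subgroup G, K ≤ (Gp : Subgroup G) ∧ (Gp : Subgroup G) ≤ Subgroup.normalizer (K : Set G) ∧
      q ∣ ((Subgroup.centralizer (K : Set G)).subgroupOf (Subgroup.normalizer (K : Set G))).index := by
  classical
  have hp : p.Prime := Fact.out
  have hqp : q.Prime := Fact.out
  let N : Subgroup G → Subgroup G := fun X => Subgroup.normalizer (X : Set G)
  let m : Subgroup G → ℕ := fun X => (Nat.card (N X)).factorization p
  let w : Subgroup G → ℕ := fun X => m X * (Nat.card G + 1) + Nat.card X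
  obtain ⟨H0, ⟨hH0, hq0⟩, hmax⟩ := Set.Finite.exists_maximalFor w
    {X : Subgroup G | IsPGroup p X ∧
      q ∣ ((Subgroup.centralizer (X : Set G)).subgroupOf (N X)).index} (Set.toFinite _) ⟨H, hH, hq⟩
  have hle : ∀ X : Subgroup G, IsPGroup p X →
      q ∣ ((Subgroup.centralizer (X : Set G)).subgroupOf (N X)).index →
      m X ≤ m H0 ∧ (m H0 ≤ m X → Nat.card X ≤ Nat.card H0) := by
    intro X hX hXq
    have h1 : w X ≤ w H0 := by
      by_contra hlt
      push Not at hlt
      exact absurd (hmax ⟨hX, hXq⟩ hlt.le) (not_le.2 hlt)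
    have hc : Nat.card X < Nat.card G + 1 := Nat.lt_succ_of_le X.card_le_card_group
    have hc0 : Nat.card H0 < Nat.card G + 1 := Nat.lt_succ_of_le H0.card_le_card_group
    change m X * (Nat.card G + 1) + Nat.card X ≤ m H0 * (Nat.card G + 1) + Nat.card H0 at h1
    refine ⟨?_, fun h2 => ?_⟩
    · by_contra hlt
      have := Nat.mul_le_mul_right (Nat.card G + 1) (show m H0 + 1 ≤ m X by omega)
      rw [Nat.succ_mul] at this
      omega
    · have := Nat.mul_le_mul_right (Nat.card G + 1) h2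
      omega
  set L := N H0 with hL
  set C := (Subgroup.centralizer (H0 : Set G)).subgroupOf L with hC
  set H' := H0.subgroupOf L with hH'
  haveI hH'n : H'.Normal := Subgroup.normal_in_normalizer
  have hH'p : IsPGroup p H' := hH0.comap_subtype
  have hmSylow : ∀ P : Sylow p L, Nat.card (P : Subgroup L) = p ^ m H0 := fun P => P.card_eq_multiplicity
  -- the Sylow subgroups of `C` lie in `H0`
  obtain ⟨SC⟩ := (inferInstance : Nonempty (Sylow p C))
  set PC := (SC : Subgroup C).map C.subtype with hPC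
  have hSC : PC ≤ H' := by
    obtain ⟨P, hP⟩ := (SC.isPGroup'.map C.subtype).exists_le_sylow
    have hH'P : H' ≤ (P : Subgroup L) := (CfsgLib.Cores.le_pCore hH'p).trans (CfsgLib.Cores.pCore_le_sylow P)
    have heq : (SC : Subgroup C) = (P : Subgroup L).comap C.subtype :=
      (SC.is_maximal' (P.isPGroup'.comap_subtype) fun z hz => hP ⟨z, hz, rfl⟩).symm
    set PCg := PC.map L.subtype with hPCg
    set H1 := H0 ⊔ PCg with hH1
    have hPg : ∀ u ∈ (P : Subgroup L).map L.subtype, u ∈ N H1 := by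
      rintro _ ⟨u, hu, rfl⟩
      refine mem_normalizer_sup (A := H0) (B := PCg) ⟨u.2, ?_⟩
      have key : ∀ u ∈ (P : Subgroup L), ∀ z ∈ PC, u * z * u⁻¹ ∈ PC := by
        rintro u hu _ ⟨z, hz, rfl⟩
        refine ⟨⟨u * z * u⁻¹, (inferInstance : C.Normal).conj_mem z z.2 u⟩, ?_, rfl⟩
        rw [heq] at hz ⊢
        exact Subgroup.mul_mem _ (Subgroup.mul_mem _ hu hz) (Subgroup.inv_mem _ hu)
      rw [SetLike.mem_coe, Subgroup.mem_normalizer_iff]
      intro y
      refine ⟨?_, ?_⟩
      · rintro ⟨z, hz, rfl⟩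
        exact ⟨u * z * u⁻¹, key u hu z hz, rfl⟩
      · rintro ⟨z, hz, hzy⟩
        refine ⟨u⁻¹ * z * u⁻¹⁻¹, key _ ((P : Subgroup L).inv_mem hu) z hz, ?_⟩
        simp only [map_mul, map_inv, hzy]
        simp [mul_assoc]
    have hH1p : IsPGroup p H1 := by
      refine (P.isPGroup'.map L.subtype).to_le (sup_le (fun z hz => ?_) ?_)
      · exact ⟨⟨z, Subgroup.le_normalizer hz⟩, hH'P hz, rfl⟩
      · exact Subgroup.map_mono hP
    obtain ⟨x, hxM, hxC, k, hk⟩ := exists_elem (q := q) (M := Subgroup.normalizer (PC : Set L)) (C := C) (by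
      rw [← Subgroup.relIndex_sup_right (H := Subgroup.normalizer (PC : Set L)) (K := C),
        Sylow.normalizer_sup_eq_top SC, Subgroup.relIndex_top_right]
      exact hq0)
    have hxN : (x : G) ∈ N H1 := by
      refine mem_normalizer_sup (A := H0) (B := PCg) ⟨x.2, ?_⟩
      rw [SetLike.mem_coe, Subgroup.mem_normalizer_iff]
      intro y
      refine ⟨?_, ?_⟩
      · rintro ⟨z, hz, rfl⟩
        exact ⟨x * z * x⁻¹, (Subgroup.mem_normalizer_iff.1 hxM z).1 hz, rfl⟩
      · rintro ⟨z, hz, hzy⟩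
        refine ⟨x⁻¹ * z * x⁻¹⁻¹, (Subgroup.mem_normalizer_iff.1 (inv_mem hxM) z).1 hz, ?_⟩
        simp only [map_mul, map_inv, hzy]
        simp [mul_assoc]
    have hq1 := dvd_of_elem (q := q) (K := H1) hxN
      (fun h => hxC (Subgroup.mem_subgroupOf.2 (Subgroup.centralizer_le (show (H0 : Set G) ⊆ (H1 : Set G) from fun z hz => Subgroup.mem_sup_left hz) h)))
      (by rw [Subgroup.orderOf_coe]; exact hk)
    have hm1 : m H0 ≤ m H1 := by
      have hd : p ^ m H0 ∣ Nat.card (N H1) := by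
        rw [← hmSylow P, ← Subgroup.card_map_of_injective L.subtype_injective]
        exact Subgroup.card_dvd_of_le hPg
      exact (hp.pow_dvd_iff_le_factorization Nat.card_pos.ne').1 hd
    have hcard := (hle H1 hH1p hq1).2 hm1
    have heq1 : H0 = H1 := Subgroup.eq_of_le_of_card_ge le_sup_left hcard
    intro z hz
    refine Subgroup.mem_subgroupOf.2 ?_
    rw [heq1]
    exact Subgroup.mem_sup_right ⟨z, hz, rfl⟩
  have hCn : Cfsg.HasNormalPComplement p C := by
    refine hasNormalPComplement_of_frobeniusCondition fun Q hQ g _ _ => ?_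
    obtain ⟨R, hR⟩ := hQ.exists_le_sylow
    obtain ⟨c, hc⟩ := MulAction.exists_smul_eq C SC R
    refine Subgroup.mem_centralizer_iff.2 fun y hy => ?_
    have hyR : y ∈ ((c • SC : Sylow p C) : Subgroup C) := hc ▸ hR hy
    rw [Sylow.coe_subgroup_smul] at hyR
    obtain ⟨z, hz, hzy⟩ := hyR
    have hyH : (y : L) ∈ H' := by
      rw [← hzy]
      exact hH'n.conj_mem _ (hSC ⟨z, hz, rfl⟩) _
    exact Subtype.ext (Subtype.ext (Subgroup.mem_centralizer_iff.1 (Subgroup.mem_subgroupOf.1 g.2)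
      ((y : L) : G) (Subgroup.mem_subgroupOf.1 hyH)))
  have hLsol : Cfsg.IsPSolvable p L := by
    refine CfsgLib.PSolvable.isPSolvable_of_extension C ?_ (hsol H0 hH0)
    refine CfsgLib.PSolvable.isPSolvable_of_extension (Cfsg.pPrimeCore p C)
      (CfsgLib.PSolvable.isPSolvable_of_coprime (CfsgLib.Cores.card_pPrimeCore_coprime p)) ?_
    exact CfsgLib.PSolvable.isPSolvable_of_isPGroup (hasNormalPComplement_iff_isPGroup_quotient.1 hCn)
  obtain ⟨Y, hY, hYp, hYq⟩ := exists_pair_subgroup (q := q) hpq (Nat.card L) L le_rfl hLsol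
  obtain ⟨PY⟩ := (inferInstance : Nonempty (Sylow p Y))
  have hP1i : ¬ p ∣ ((PY : Subgroup Y).map Y.subtype).index := by
    rw [Subgroup.index_map_subtype]
    exact fun h => (hp.dvd_mul.1 h).elim PY.not_dvd_index hYp
  let P1 : Sylow p L := (PY.isPGroup'.map Y.subtype).toSylow hP1i
  have hP1 : (P1 : Subgroup L) = (PY : Subgroup Y).map Y.subtype := rfl
  have hH'Y : H' ≤ Y := ((CfsgLib.Cores.le_pCore hH'p).trans (CfsgLib.Cores.pCore_le_sylow P1)).trans (Subgroup.map_subtype_le _)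
  obtain ⟨x0, hx0Y, hx0C, k0, hk0⟩ : ∃ x ∈ Y, x ∉ C ∧ ∃ k, orderOf x = q ^ k := by
    refine exists_elem (q := q) ?_
    by_contra hnd
    have h1 := Subgroup.relIndex_mul_index (inf_le_right : C ⊓ Y ≤ Y)
    rw [Subgroup.inf_relIndex_right] at h1
    have h2 : q ∣ C.relIndex Y * Y.index := h1 ▸ dvd_trans hq0 (Subgroup.index_dvd_of_le inf_le_left)
    exact (hqp.dvd_mul.1 h2).elim hnd hYq
  have hnq : ¬ Quiet p (PY : Subgroup Y) := by
    intro hquiet
    have hYn : Cfsg.HasNormalPComplement p Y := by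
      refine hasNormalPComplement_of_quiet (Nat.card Y) Y le_rfl (fun e hd => ?_) PY hquiet
      rcases hY 3 Nat.prime_three hd with h | h
      · omega
      · exact h23 (Or.inl ⟨e, h.symm⟩)
    haveI : (H'.subgroupOf Y).Normal := inferInstance
    apply hx0C
    refine Subgroup.mem_subgroupOf.2 (Subgroup.mem_centralizer_iff.2 fun y hy => ?_)
    have hyL : y ∈ L := Subgroup.le_normalizer hy
    have hyY : (⟨y, hyL⟩ : L) ∈ Y := hH'Y hy
    have h1 := commute_of_normal_pGroup hYn (Q := H'.subgroupOf Y) hH'p.comap_subtype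
      (g := ⟨x0, hx0Y⟩) (x := ⟨⟨y, hyL⟩, hyY⟩) (by
        rw [Subgroup.orderOf_mk, hk0]
        exact ((Nat.coprime_primes hqp hp).2 hpq.symm).pow_left k0) hy
    exact congrArg (fun z : Y => (((z : L)) : G)) h1.eq
  simp only [Quiet, not_forall] at hnq
  obtain ⟨K, hK, x, hx, hxcop, hxC⟩ := hnq
  let ι : Y →* G := L.subtype.comp Y.subtype
  have hι : Function.Injective ι := L.subtype_injective.comp Y.subtype_injective
  set Kg := K.map ι with hKg
  set Pg := (PY : Subgroup Y).map ι with hPg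
  have hKc : CharIn Pg Kg := charIn_map ι hι hK
  have hxN : ι x ∈ N Kg := by
    refine Subgroup.mem_normalizer_iff.2 fun y => ⟨?_, ?_⟩
    · rintro ⟨z, hz, rfl⟩
      exact ⟨x * z * x⁻¹, (Subgroup.mem_normalizer_iff.1 hx z).1 hz, by simp⟩
    · rintro ⟨z, hz, hzy⟩
      refine ⟨x⁻¹ * z * x⁻¹⁻¹, (Subgroup.mem_normalizer_iff.1 (inv_mem hx) z).1 hz, ?_⟩
      rw [map_mul, map_mul, hzy]
      simp [mul_assoc]
  have hxCg : ι x ∉ Subgroup.centralizer (Kg : Set G) := fun h => hxC
    (Subgroup.mem_centralizer_iff.2 fun z hz => hι (by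
      rw [map_mul, map_mul]; exact Subgroup.mem_centralizer_iff.1 h (ι z) ⟨z, hz, rfl⟩))
  obtain ⟨k, hk⟩ : ∃ k, orderOf (ι x) = q ^ k := by
    rw [orderOf_injective ι hι]
    refine ⟨(orderOf x).primeFactorsList.length, Nat.eq_prime_pow_of_unique_prime_dvd (orderOf_pos x).ne' ?_⟩
    intro r hr hrd
    refine (hY r hr (hrd.trans (orderOf_dvd_natCard x))).resolve_left fun h => ?_
    subst h
    exact hr.not_dvd_one (hxcop ▸ Nat.dvd_gcd hrd dvd_rfl)
  have hqK := dvd_of_elem (q := q) hxN hxCg hk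
  have hPgp : IsPGroup p Pg := PY.isPGroup'.map ι
  have hPgc : Nat.card Pg = p ^ m H0 := by
    rw [hPg, ← hmSylow P1, hP1, Subgroup.card_map_of_injective hι,
      Subgroup.card_map_of_injective Y.subtype_injective]
  obtain ⟨R, hR⟩ := hPgp.exists_le_sylow
  have hPR : Pg = (R : Subgroup G) := by
    by_contra hne
    have hlt : Pg.subgroupOf (R : Subgroup G) < ⊤ := lt_top_iff_ne_top.2 fun h =>
      hne (le_antisymm hR (Subgroup.subgroupOf_eq_top.1 h))
    haveI : Group.IsNilpotent (R : Subgroup G) := R.isPGroup'.isNilpotent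
    have hgrow := normalizerCondition_of_isNilpotent (G := (R : Subgroup G)) _ hlt
    set NR := Subgroup.normalizer ((Pg.subgroupOf (R : Subgroup G) : Subgroup (R : Subgroup G)) : Set (R : Subgroup G))
    set NRg := NR.map (R : Subgroup G).subtype with hNRg
    have hNRN : NRg ≤ N Kg := by
      refine le_trans ?_ hKc.normalizer_le
      rintro _ ⟨u, hu, rfl⟩
      refine Subgroup.mem_normalizer_iff.2 fun y => ⟨fun hy => ?_, fun hy => ?_⟩
      · exact (Subgroup.mem_normalizer_iff.1 hu ⟨y, hR hy⟩).1 hy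
      · have h1 := (Subgroup.mem_normalizer_iff.1 (inv_mem hu) ⟨_, hR hy⟩).1 hy
        simpa [Subgroup.mem_subgroupOf, mul_assoc] using h1
    obtain ⟨j, hj⟩ := IsPGroup.iff_card.1 (R.isPGroup'.to_le (Subgroup.map_subtype_le NR) : IsPGroup p NRg)
    have h1 : p ^ m H0 < p ^ j := by
      rw [← hj, ← hPgc, hNRg, Subgroup.card_map_of_injective (R : Subgroup G).subtype_injective,
        ← Nat.card_congr (Subgroup.subgroupOfEquivOfLe hR).toEquiv]
      exact lt_of_le_of_ne (Subgroup.card_le_of_le hgrow.le) fun e =>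
        hgrow.ne (Subgroup.eq_of_le_of_card_ge hgrow.le e.ge)
    have h2 : j ≤ m Kg := (hp.pow_dvd_iff_le_factorization Nat.card_pos.ne').1
      (hj ▸ Subgroup.card_dvd_of_le hNRN)
    have h3 := (hle Kg (hPgp.to_le hKc.le) hqK).1
    have := Nat.pow_le_pow_right hp.pos (h2.trans h3)
    omega
  obtain ⟨g, hg⟩ := MulAction.exists_smul_eq G R Gp
  let c : G →* G := (MulAut.conj g).toMonoidHom
  have hc : Function.Injective c := (MulAut.conj g).injective
  have hGp : (Gp : Subgroup G) = Pg.map c := by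
    rw [← hg, hPR, Sylow.coe_subgroup_smul]; rfl
  have hKc' : CharIn (Gp : Subgroup G) (Kg.map c) := hGp ▸ charIn_map c hc hKc
  refine ⟨Kg.map c, hKc'.le, Subgroup.le_normalizer.trans hKc'.normalizer_le, ?_⟩
  refine dvd_of_elem (q := q) (x := c (ι x)) (k := k) ?_ ?_ ((orderOf_injective c hc _).trans hk)
  · refine Subgroup.mem_normalizer_iff.2 fun y => ⟨?_, ?_⟩
    · rintro ⟨z, hz, rfl⟩
      exact ⟨ι x * z * (ι x)⁻¹, (Subgroup.mem_normalizer_iff.1 hxN z).1 hz, by simp⟩
    · rintro ⟨z, hz, hzy⟩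
      refine ⟨(ι x)⁻¹ * z * (ι x)⁻¹⁻¹, (Subgroup.mem_normalizer_iff.1 (inv_mem hxN) z).1 hz, ?_⟩
      rw [map_mul, map_mul, hzy]
      simp [mul_assoc]
  · exact fun h => hxCg (Subgroup.mem_centralizer_iff.2 fun z hz => hc (by
      rw [map_mul, map_mul]; exact Subgroup.mem_centralizer_iff.1 h (c z) ⟨z, hz, rfl⟩))

end Cfsg.Agent.S4411
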