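import Cfsg.Statements.S4412
import Cfsg.Agent.Lib.Minimal.AutGeneration
import Cfsg.Agent.Lib.PGroups.Frattini
import Mathlib

set_option autoImplicit false
set_option maxHeartbeats 800000
set_option linter.style.haveILetI false
open Cfsg
open scoped commutatorElement
set_option linter.unusedSimpArgs false

namespace Cfsg.Agent.S4412


/-- An automorphism of order at most two of a cyclic subgroup of odd prime power order is `±1`. -/
theorem fix_or_invert {P : Type*} [Group P] [Finite P] {p : ℕ} (hp : p.Prime) (hp2 : p ≠ 2)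
    (hP : IsPGroup p P) {T : MulAut P} (hT : T * T = 1) {a : P} (ha : T a ∈ Subgroup.zpowers a) :
    T a = a ∨ T a = a⁻¹ := by
  haveI : Fact p.Prime := ⟨hp⟩
  obtain ⟨k, hk⟩ := Subgroup.mem_zpowers_iff.1 ha
  have h2 : a ^ (k * k) = a ^ (1 : ℤ) := by
    rw [zpow_one, zpow_mul, hk]
    have h := DFunLike.congr_fun hT a
    rw [MulAut.mul_apply, MulAut.one_apply] at h
    calc (T a) ^ k = T (a ^ k) := (map_zpow T a k).symm
      _ = a := by rw [hk, h]
  obtain ⟨m, hm⟩ := IsPGroup.iff_orderOf.1 hP a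
  have hdvd : ((orderOf a : ℕ) : ℤ) ∣ (k - 1) * (k + 1) := by
    rw [orderOf_dvd_iff_zpow_eq_one, show (k - 1) * (k + 1) = k * k - 1 by ring, zpow_sub, h2,
      mul_inv_cancel]
  rw [hm, Nat.cast_pow] at hdvd
  have hpp : Prime (p : ℤ) := Nat.prime_iff_prime_int.1 hp
  by_cases h : (p : ℤ) ∣ k - 1
  · left
    have h' : ¬ (p : ℤ) ∣ k + 1 := by
      intro h'
      have h3 : (p : ℤ) ∣ ((2 : ℕ) : ℤ) := by
        have := dvd_sub h' h
        simpa using this
      exact hp2 ((Nat.prime_dvd_prime_iff_eq hp Nat.prime_two).1 (Int.natCast_dvd_natCast.1 h3))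
    have hd := ((hpp.coprime_iff_not_dvd.2 h').pow_left (m := m)).dvd_of_dvd_mul_right hdvd
    rw [← Nat.cast_pow, ← hm, orderOf_dvd_iff_zpow_eq_one, zpow_sub, zpow_one, mul_inv_eq_one] at hd
    exact hk ▸ hd
  · right
    have hd := ((hpp.coprime_iff_not_dvd.2 h).pow_left (m := m)).dvd_of_dvd_mul_left hdvd
    rw [← Nat.cast_pow, ← hm, orderOf_dvd_iff_zpow_eq_one, zpow_add, zpow_one, mul_eq_one_iff_eq_inv] at hd
    exact hk ▸ hd

/-- In a `p`-group a proper inclusion multiplies the order by at least `p`. -/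
theorem card_mul_le_of_lt {P : Type*} [Group P] [Finite P] {p : ℕ} (hp : p.Prime) (hP : IsPGroup p P)
    {H K : Subgroup P} (h : H < K) : Nat.card H * p ≤ Nat.card K := by
  haveI : Fact p.Prime := ⟨hp⟩
  obtain ⟨i, hi⟩ := IsPGroup.iff_card.1 (hP.to_subgroup H)
  obtain ⟨j, hj⟩ := IsPGroup.iff_card.1 (hP.to_subgroup K)
  have hlt : Nat.card H < Nat.card K := by
    rw [← SetLike.coe_sort_coe, ← SetLike.coe_sort_coe, Nat.card_coe_set_eq, Nat.card_coe_set_eq]
    exact Set.ncard_lt_ncard h (Set.toFinite _)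
  rw [hi, hj, ← pow_succ]
  rw [hi, hj] at hlt
  exact Nat.pow_le_pow_right hp.pos ((Nat.pow_lt_pow_iff_right hp.one_lt).1 hlt)

/-- A two-generated `p`-group has Frattini index at most `p ^ 2`. -/
theorem index_frattini_le {P : Type*} [Group P] [Finite P] {p : ℕ} [Fact p.Prime] (hP : IsPGroup p P)
    {x y : P} (h : Subgroup.closure {x, y} = ⊤) : (frattini P).index ≤ p * p := by
  let π := QuotientGroup.mk' (frattini P)
  have hp0 : (p : ℤ) ≠ 0 := by exact_mod_cast (Fact.out : p.Prime).ne_zero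
  have hexp : ∀ g, (π g) ^ p = 1 := fun g => by
    rw [← map_pow]
    exact (QuotientGroup.eq_one_iff _).2 (CfsgLib.PGroups.pow_mem_frattini hP g)
  have hcomm : ∀ g g', Commute (π g) (π g') := fun g g' => by
    rw [← commutatorElement_eq_one_iff_commute, ← map_commutatorElement]
    exact (QuotientGroup.eq_one_iff _).2 (CfsgLib.PGroups.commutatorElement_mem_frattini hP g g')
  have hsurj : Function.Surjective
      (fun ij : Fin p × Fin p => π x ^ (ij.1 : ℕ) * π y ^ (ij.2 : ℕ)) := by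
    intro c
    obtain ⟨g, rfl⟩ := QuotientGroup.mk'_surjective (frattini P) c
    obtain ⟨m, n, hmn⟩ : ∃ m n : ℤ, π x ^ m * π y ^ n = π g := by
      have hg : g ∈ Subgroup.closure {x, y} := h ▸ Subgroup.mem_top g
      induction hg using Subgroup.closure_induction with
      | mem b hb =>
        rcases hb with rfl | rfl
        · exact ⟨1, 0, by simp⟩
        · exact ⟨0, 1, by simp⟩
      | one => exact ⟨0, 0, by simp⟩
      | mul b c _ _ hb hc =>
        obtain ⟨m, n, h1⟩ := hb; obtain ⟨m', n', h2⟩ := hc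
        refine ⟨m + m', n + n', ?_⟩
        rw [map_mul, ← h1, ← h2, zpow_add, zpow_add, mul_assoc, mul_assoc, ← mul_assoc (π x ^ m'),
          ((hcomm x y).zpow_zpow m' n).eq, mul_assoc]
      | inv b _ hb =>
        obtain ⟨m, n, h1⟩ := hb
        refine ⟨-m, -n, ?_⟩
        rw [map_inv, ← h1, mul_inv_rev, zpow_neg, zpow_neg]
        exact ((hcomm x y).zpow_zpow m n).inv_inv.eq
    have hm0 := Int.emod_nonneg m hp0
    have hn0 := Int.emod_nonneg n hp0
    have hm1 := Int.emod_lt_of_pos m (Int.natCast_pos.2 (Fact.out : p.Prime).pos)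
    have hn1 := Int.emod_lt_of_pos n (Int.natCast_pos.2 (Fact.out : p.Prime).pos)
    refine ⟨(⟨(m % p).toNat, by omega⟩, ⟨(n % p).toNat, by omega⟩), ?_⟩
    simp only
    rw [← zpow_natCast (π x), ← zpow_natCast (π y), Int.toNat_of_nonneg hm0, Int.toNat_of_nonneg hn0,
      ← zpow_eq_zpow_emod' m (hexp x), ← zpow_eq_zpow_emod' n (hexp y), hmn]
  have h1 := Nat.card_le_card_of_surjective _ hsurj
  simpa [Subgroup.index, Nat.card_prod] using h1

/-- The sign rule. -/
theorem ext_of_signs {P : Type*} [Group P] {T S : MulAut P} {a b c : P}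
    (hgen : Subgroup.closure {a, b, c} = ⊤) (ha : T a = S a) (hb : T b = S b) (hc : T c = S c) :
    T = S := by
  refine MulEquiv.ext fun x => ?_
  have := MonoidHom.eqOn_closure (f := T.toMonoidHom) (g := S.toMonoidHom) (s := {a, b, c})
    (fun z hz => by rcases hz with rfl | rfl | rfl <;> assumption)
  exact this (by rw [hgen]; exact Subgroup.mem_top x)

/-- Let p be an odd prime, P a finite p-group and I an elementary abelian subgroup of order 8 of Aut(P). Call T ∈ I, T ≠ 1, broad when its fixed-point subgroup C_P(T) is not cyclic. Suppose I has a proper subgroup I₀ containing no broad element such that the product of any two broad elements lies in I₀. Then P is abelian of rank exactly 3 (generated by three elements but not by two), there are exactly three broad elements and they generate I, and I₀ is exactly the set of products of two broad elements. -/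
theorem result
    {P : Type*} [Group P] [Finite P] (p : ℕ) (hp : p.Prime) (hp2 : p ≠ 2) (hP : IsPGroup p P)
    (I : Subgroup (MulAut P)) (hI : Cfsg.IsElementaryAbelian 2 I) (hI8 : Nat.card ↥I = 8)
    (I₀ : Subgroup (MulAut P)) (hI₀ : I₀ < I)
    (hdisj : ∀ T ∈ I₀, T ≠ 1 → ∃ g : P, ∀ x : P, (T x = x ↔ x ∈ Subgroup.zpowers g))
    (hprod : ∀ T ∈ I, ∀ T' ∈ I, T ≠ 1 → T' ≠ 1 → (¬ ∃ g : P, ∀ x : P, (T x = x ↔ x ∈ Subgroup.zpowers g)) →
      (¬ ∃ g : P, ∀ x : P, (T' x = x ↔ x ∈ Subgroup.zpowers g)) → T * T' ∈ I₀) :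
    IsMulCommutative P ∧ (∃ a b c : P, Subgroup.closure {a, b, c} = ⊤) ∧ (¬ ∃ a b : P, Subgroup.closure {a, b} = ⊤) ∧
      Nat.card {T : MulAut P // T ∈ I ∧ T ≠ 1 ∧ ¬ ∃ g : P, ∀ x : P, (T x = x ↔ x ∈ Subgroup.zpowers g)} = 3 ∧
      Subgroup.closure {T : MulAut P | T ∈ I ∧ T ≠ 1 ∧ ¬ ∃ g : P, ∀ x : P, (T x = x ↔ x ∈ Subgroup.zpowers g)} = I ∧
      (I₀ : Set (MulAut P)) = {S : MulAut P | ∃ T T' : MulAut P, T ∈ I ∧ T' ∈ I ∧ T ≠ 1 ∧ T' ≠ 1 ∧
        (¬ ∃ g : P, ∀ x : P, (T x = x ↔ x ∈ Subgroup.zpowers g)) ∧ (¬ ∃ g : P, ∀ x : P, (T' x = x ↔ x ∈ Subgroup.zpowers g)) ∧ S = T * T'} := by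
  classical
  haveI : Fact p.Prime := ⟨hp⟩
  have hodd : Odd (Nat.card P) := by
    obtain ⟨n, hn⟩ := IsPGroup.iff_card.1 hP
    rw [hn]; exact (hp.odd_of_ne_two hp2).pow
  have hcomI : ∀ T ∈ I, ∀ S ∈ I, T * S = S * T := fun T hT S hS =>
    congrArg Subtype.val (hI.1.is_comm.comm ⟨T, hT⟩ ⟨S, hS⟩)
  have hsq : ∀ T ∈ I, T * T = 1 := fun T hT => by rw [← pow_two]; exact hI.2 T hT
  let Cyc : MulAut P → Prop := fun T => ∃ g : P, ∀ x : P, (T x = x ↔ x ∈ Subgroup.zpowers g)
  let ι := {T : MulAut P // T ∈ I}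
  haveI : Finite (MulAut P) := Finite.of_injective (fun f => (f : P → P)) DFunLike.coe_injective
  haveI : Fintype P := Fintype.ofFinite P
  have hcard : ∀ s : Set (MulAut P), s.ncard < 8 → ∃ T ∈ I, T ∉ s := by
    intro s hs
    by_contra hno
    push Not at hno
    have h := Set.ncard_le_ncard (s := (I : Set (MulAut P))) hno (Set.toFinite s)
    rw [← Nat.card_coe_set_eq, SetLike.coe_sort_coe, hI8] at h
    omega
  -- a four-group all whose involutions have cyclic centralizers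
  obtain ⟨u, v, huI, hvI, hu1, hv1, huv, cu, cv, cuv⟩ : ∃ u v, u ∈ I ∧ v ∈ I ∧ u ≠ 1 ∧ v ≠ 1 ∧ u ≠ v ∧
      Cyc u ∧ Cyc v ∧ Cyc (u * v) := by
    obtain ⟨t, htI, ht1, htc, hpair⟩ : ∃ t, t ∈ I ∧ t ≠ 1 ∧ Cyc t ∧
        ((∀ T ∈ I, ∀ T' ∈ I, T ≠ 1 → T' ≠ 1 → ¬ Cyc T → ¬ Cyc T' → T * T' = 1 ∨ T * T' = t) ∨
          ∃ s ∈ I, s ≠ 1 ∧ s ≠ t ∧ Cyc s ∧ Cyc (t * s)) := by
      by_cases h0 : ∃ t ∈ I₀, t ≠ 1
      · obtain ⟨t, ht, ht1⟩ := h0
        refine ⟨t, hI₀.le ht, ht1, hdisj t ht ht1, ?_⟩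
        by_cases h2 : ∃ s ∈ I₀, s ≠ 1 ∧ s ≠ t
        · obtain ⟨s, hs, hs1, hst⟩ := h2
          refine Or.inr ⟨s, hI₀.le hs, hs1, hst, hdisj s hs hs1, hdisj _ (mul_mem ht hs) fun h => hst ?_⟩
          rw [← inv_eq_of_mul_eq_one_right h, inv_eq_of_mul_eq_one_right (hsq t (hI₀.le ht))]
        · push Not at h2
          exact Or.inl fun T hT T' hT' h1 h1' hc hc' =>
            (em _).imp id (h2 _ (hprod T hT T' hT' h1 h1' hc hc'))
      · push Not at h0
        have hsub : ∀ T ∈ I, ∀ T' ∈ I, T ≠ 1 → T' ≠ 1 → ¬ Cyc T → ¬ Cyc T' → T * T' = 1 :=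
          fun T hT T' hT' h1 h1' hc hc' => h0 _ (hprod T hT T' hT' h1 h1' hc hc')
        obtain ⟨t, ht, ht'⟩ := hcard {1} (by simp)
        simp only [Set.mem_singleton_iff] at ht'
        by_cases htc : Cyc t
        · exact ⟨t, ht, ht', htc, Or.inl fun T a T' b c d e f => Or.inl (hsub T a T' b c d e f)⟩
        obtain ⟨t₂, ht₂, ht₂'⟩ := hcard {1, t} (by
          refine lt_of_le_of_lt (Set.ncard_insert_le _ _) ?_; simp)
        simp only [Set.mem_insert_iff, Set.mem_singleton_iff, not_or] at ht₂'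
        refine ⟨t₂, ht₂, ht₂'.1, ?_, Or.inl fun T a T' b c d e f => Or.inl (hsub T a T' b c d e f)⟩
        by_contra hc
        apply ht₂'.2
        rw [← inv_eq_of_mul_eq_one_right (hsub t ht t₂ ht₂ ht' ht₂'.1 htc hc),
          inv_eq_of_mul_eq_one_right (hsq t ht)]
    rcases hpair with hpair | ⟨s, hs, hs1, hst, hsc, htsc⟩
    · by_contra hno
      push Not at hno
      obtain ⟨v₁, hv₁, hv₁'⟩ := hcard {1, t} (by
        refine lt_of_le_of_lt (Set.ncard_insert_le _ _) ?_; simp)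
      simp only [Set.mem_insert_iff, Set.mem_singleton_iff, not_or] at hv₁'
      obtain ⟨v₂, hv₂, hv₂'⟩ := hcard {1, t, v₁, t * v₁} (by
        refine lt_of_le_of_lt (Set.ncard_insert_le _ _) ?_
        refine lt_of_le_of_lt (Nat.add_le_add_right (Set.ncard_insert_le _ _) 1) ?_
        refine lt_of_le_of_lt (Nat.add_le_add_right (Nat.add_le_add_right (Set.ncard_insert_le _ _) 1) 1) ?_
        simp)
      simp only [Set.mem_insert_iff, Set.mem_singleton_iff, not_or] at hv₂'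
      have tt := hsq t htI
      have pick : ∀ v ∈ I, v ≠ 1 → v ≠ t → ∃ w, w ∈ I ∧ w ≠ 1 ∧ ¬ Cyc w ∧ (w = v ∨ w = t * v) := by
        intro v hv h1 h2
        by_cases hc : Cyc v
        · refine ⟨t * v, mul_mem htI hv, fun h => h2 ?_, hno t v htI hv ht1 h1 (Ne.symm h2) htc hc, Or.inr rfl⟩
          rw [← inv_eq_of_mul_eq_one_right h, inv_eq_of_mul_eq_one_right tt]
        · exact ⟨v, hv, h1, hc, Or.inl rfl⟩
      obtain ⟨w₁, hw₁, hw₁1, hw₁c, e₁⟩ := pick v₁ hv₁ hv₁'.1 hv₁'.2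
      obtain ⟨w₂, hw₂, hw₂1, hw₂c, e₂⟩ := pick v₂ hv₂ hv₂'.1 hv₂'.2.1
      have tc := hcomI t htI
      have key : v₂ = v₁ ∨ v₂ = t * v₁ := by
        have h := hpair w₁ hw₁ w₂ hw₂ hw₁1 hw₂1 hw₁c hw₂c
        have hw : w₂ = w₁ ∨ w₂ = t * w₁ := by
          rcases h with h | h
          · left; rw [← inv_eq_of_mul_eq_one_right h, inv_eq_of_mul_eq_one_right (hsq w₁ hw₁)]
          · right; rw [tc w₁ hw₁, ← h, ← mul_assoc, hsq w₁ hw₁, one_mul]
        have back : v₂ = w₂ ∨ v₂ = t * w₂ := e₂.imp (fun e => e.symm) (fun e => by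
          rw [e, ← mul_assoc, tt, one_mul])
        rcases back with e | e <;> rcases hw with e' | e' <;> rcases e₁ with e'' | e'' <;>
          subst e e' e'' <;> simp [← mul_assoc, tt]
      exact key.elim hv₂'.2.2.1 hv₂'.2.2.2
    · exact ⟨t, s, htI, hs, ht1, hs1, Ne.symm hst, htc, hsc, htsc⟩
  obtain ⟨a, ha⟩ := cu
  obtain ⟨b, hb⟩ := cv
  obtain ⟨c, hc⟩ := cuv
  have huvI : u * v ∈ I := mul_mem huI hvI
  have hgen : Subgroup.closure {a, b, c} = ⊤ := by
    have hz : ∀ d : P, d ∈ ({a, b, c} : Set P) → ∀ w ∈ Subgroup.zpowers d,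
        w ∈ Subgroup.closure ({a, b, c} : Set P) := fun d hd w hw =>
      (Subgroup.zpowers_le.2 (Subgroup.subset_closure hd)) hw
    refine top_le_iff.1 (CfsgLib.Minimal.AutGeneration.le_of_fixed (W := (⊤ : Subgroup P))
      (H := Subgroup.closure ({a, b, c} : Set P)) hodd (hsq u huI) (hsq v hvI)
      (hcomI u huI v hvI) hu1 hv1 huv (fun w _ => Subgroup.mem_top _) (fun w _ => Subgroup.mem_top _)
      ?_ ?_ ?_)
    · intro w _ hw
      exact hz a (Or.inl rfl) w ((ha w).1 hw)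
    · intro w _ hw
      exact hz b (Or.inr (Or.inl rfl)) w ((hb w).1 hw)
    · intro w _ hw
      exact hz c (Or.inr (Or.inr rfl)) w ((hc w).1 hw)
  have hpm : ∀ (j : MulAut P) (d : P), j ∈ I → (∀ x, j x = x ↔ x ∈ Subgroup.zpowers d) → ∀ T ∈ I,
      T d = d ∨ T d = d⁻¹ := by
    intro j d hj hd T hT
    refine fix_or_invert hp hp2 hP (hsq T hT) ((hd _).1 ?_)
    rw [← MulAut.mul_apply, hcomI j hj T hT, MulAut.mul_apply, (hd d).2 (Subgroup.mem_zpowers d)]
  let sgn : I → Bool × Bool × Bool := fun T =>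
    (decide ((T : MulAut P) a = a), decide ((T : MulAut P) b = b), decide ((T : MulAut P) c = c))
  have hinj : Function.Injective sgn := by
    rintro ⟨T, hT⟩ ⟨S, hS⟩ h
    simp only [sgn, Prod.mk.injEq, decide_eq_decide] at h
    have step : ∀ d, (T d = d ∨ T d = d⁻¹) → (S d = d ∨ S d = d⁻¹) → (T d = d ↔ S d = d) → T d = S d := by
      intro d h1 h2 h3
      by_cases h4 : T d = d
      · rw [h4, h3.1 h4]
      · rw [h1.resolve_left h4, h2.resolve_left fun h5 => h4 (h3.2 h5)]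
    exact Subtype.ext (ext_of_signs hgen
      (step a (hpm u a huI ha T hT) (hpm u a huI ha S hS) h.1)
      (step b (hpm v b hvI hb T hT) (hpm v b hvI hb S hS) h.2.1)
      (step c (hpm _ c huvI hc T hT) (hpm _ c huvI hc S hS) h.2.2))
  haveI : Fintype I := Fintype.ofFinite I
  have hbij : Function.Bijective sgn := (Fintype.bijective_iff_injective_and_card sgn).2
    ⟨hinj, by rw [← Nat.card_eq_fintype_card, hI8]; rfl⟩
  have hsurj : ∀ x y z : Bool, ∃ T ∈ I, (T a = a ↔ x = true) ∧ (T b = b ↔ y = true) ∧ (T c = c ↔ z = true) := by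
    intro x y z
    obtain ⟨⟨T, hT⟩, h⟩ := hbij.2 (x, y, z)
    simp only [sgn, Prod.mk.injEq] at h
    exact ⟨T, hT, by simp [← h.1], by simp [← h.2.1], by simp [← h.2.2]⟩
  obtain ⟨Ta, hTa, hTaa, hTab, hTac⟩ := hsurj false true true
  obtain ⟨Tb, hTb, hTba, hTbb, hTbc⟩ := hsurj true false true
  obtain ⟨Tc, hTc, hTca, hTcb, hTcc⟩ := hsurj true true false
  obtain ⟨τ, hτ, hτa, hτb, hτc⟩ := hsurj false false false
  simp only [Bool.false_eq_true, iff_false, iff_true] at hTaa hTab hTac hTba hTbb hTbc hTca hTcb hTcc hτa hτb hτc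
  -- no two of the generators suffice, so no two elements do
  have hnsub : ∀ {d e : P} {T : MulAut P}, T ≠ 1 → T d = d → T e = e → Subgroup.closure {d, e} ≠ ⊤ := by
    intro d e T hT1 hd he h
    refine hT1 (MulEquiv.ext fun x => ?_)
    have := MonoidHom.eqOn_closure (f := T.toMonoidHom) (g := MonoidHom.id P) (s := {d, e})
      (fun z hz => by rcases hz with rfl | rfl <;> assumption)
    exact this (h ▸ Subgroup.mem_top x)
  have hTa1 : Ta ≠ 1 := fun h => hTaa (by rw [h]; rfl)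
  have hTb1 : Tb ≠ 1 := fun h => hTbb (by rw [h]; rfl)
  have hTc1 : Tc ≠ 1 := fun h => hTcc (by rw [h]; rfl)
  have hbc := hnsub hTa1 hTab hTac
  have hac := hnsub hTb1 hTba hTbc
  have hab := hnsub hTc1 hTca hTcb
  have h3gen : ¬ ∃ x y : P, Subgroup.closure {x, y} = ⊤ := by
    rintro ⟨x, y, hxy⟩
    set Φ := frattini P
    have nong : ∀ {d e : P}, (a ∈ Subgroup.closure {d, e} ⊔ Φ) → (b ∈ Subgroup.closure {d, e} ⊔ Φ) →
        (c ∈ Subgroup.closure {d, e} ⊔ Φ) → Subgroup.closure {d, e} = ⊤ := by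
      intro d e h1 h2 h3
      refine frattini_nongenerating (top_le_iff.1 ?_)
      rw [← hgen, Subgroup.closure_le]
      rintro z (rfl | rfl | rfl) <;> assumption
    have mm : ∀ {d e : P} {z : P}, z = d ∨ z = e → z ∈ Subgroup.closure {d, e} ⊔ Φ := fun h =>
      Subgroup.mem_sup_left (Subgroup.subset_closure h)
    set K1 := Subgroup.zpowers a ⊔ Φ
    set K2 := Subgroup.closure {a, b} ⊔ Φ
    have l1 : Φ < K1 := by
      refine lt_of_le_of_ne le_sup_right fun h => hbc ?_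
      exact nong (Subgroup.mem_sup_right (h ▸ Subgroup.mem_sup_left (Subgroup.mem_zpowers a)))
        (mm (Or.inl rfl)) (mm (Or.inr rfl))
    have hK12 : K1 ≤ K2 := sup_le_sup_right (Subgroup.zpowers_le.2 (Subgroup.subset_closure (Set.mem_insert a {b}))) Φ
    have l2 : K1 < K2 := by
      refine lt_of_le_of_ne hK12 fun h => hac (nong (mm (Or.inl rfl)) ?_ (mm (Or.inr rfl)))
      have hb1 : b ∈ K1 := h ▸ mm (Or.inr rfl)
      exact sup_le_sup_right (Subgroup.zpowers_le.2 (Subgroup.subset_closure (Set.mem_insert a {c}))) Φ hb1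
    have l3 : K2 < ⊤ := lt_top_iff_ne_top.2 fun h => hab (nong (mm (Or.inl rfl)) (mm (Or.inr rfl))
      (show c ∈ K2 from h ▸ Subgroup.mem_top c))
    have e1 := card_mul_le_of_lt hp hP l1
    have e2 := card_mul_le_of_lt hp hP l2
    have e3 := card_mul_le_of_lt hp hP l3
    rw [Subgroup.card_top, ← Subgroup.card_mul_index Φ] at e3
    have h4 := Nat.mul_le_mul_left (Nat.card Φ) (index_frattini_le hP hxy)
    have h5 : Nat.card Φ * p * p * p ≤ Nat.card Φ * Φ.index :=
      (Nat.mul_le_mul_right p ((Nat.mul_le_mul_right p e1).trans e2)).trans e3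
    have h6 : Nat.card Φ * p * p * p ≤ Nat.card Φ * p * p * 1 := by
      rw [mul_one]; exact h5.trans (h4.trans (le_of_eq (mul_assoc _ _ _).symm))
    exact absurd (Nat.le_of_mul_le_mul_left h6
      (Nat.mul_pos (Nat.mul_pos Nat.card_pos hp.pos) hp.pos)) (not_le.2 hp.one_lt)
  -- the group is abelian
  have hτinv : ∀ d, d = a ∨ d = b ∨ d = c → τ d = d⁻¹ := by
    rintro d (rfl | rfl | rfl)
    · exact (hpm u _ huI ha τ hτ).resolve_left hτa
    · exact (hpm v _ hvI hb τ hτ).resolve_left hτb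
    · exact (hpm _ _ huvI hc τ hτ).resolve_left hτc
  have hτz : ∀ d, τ d = d⁻¹ → ∀ z ∈ Subgroup.zpowers d, τ z = z⁻¹ := by
    rintro d hd z ⟨k, rfl⟩
    simp [map_zpow, hd]
  have hab' : ∀ x y : P, x * y = y * x := by
    set W := commutator P
    set Q := ⁅W, (⊤ : Subgroup P)⁆
    haveI hWc : W.Characteristic := inferInstance
    haveI hQc : Q.Characteristic := inferInstance
    let π := QuotientGroup.mk' Q
    have hWinv : ∀ T : MulAut P, ∀ w ∈ W, T w ∈ W := fun T w hw =>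
      Subgroup.characteristic_iff_map_le.1 hWc T ⟨w, hw, rfl⟩
    have hQinv : Q ≤ Q.comap τ.toMonoidHom := fun x hx =>
      Subgroup.characteristic_iff_map_le.1 hQc τ ⟨x, hx, rfl⟩
    let τ' : P ⧸ Q →* P ⧸ Q := QuotientGroup.map Q Q τ.toMonoidHom hQinv
    have hτ' : ∀ x, τ' (π x) = π (τ x) := fun x => rfl
    have hcen : ∀ w ∈ W, ∀ g, Commute (π w) (π g) := fun w hw g => by
      rw [← commutatorElement_eq_one_iff_commute, ← map_commutatorElement]
      exact (QuotientGroup.eq_one_iff _).2 (Subgroup.commutator_mem_commutator hw (Subgroup.mem_top g))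
    have hmemW : ∀ x y : P, ⁅x, y⁆ ∈ W := fun x y =>
      Subgroup.commutator_mem_commutator (Subgroup.mem_top x) (Subgroup.mem_top y)
    have hx : ∀ x, τ x * x ∈ W := by
      intro x
      let β : P →* Abelianization P := Abelianization.of
      have h := MonoidHom.eqOn_closure (f := β.comp τ.toMonoidHom) (g := β⁻¹) (s := {a, b, c}) (fun z hz => by
        show β (τ z) = (β z)⁻¹
        rw [hτinv z hz, map_inv]) (hgen ▸ Subgroup.mem_top x)
      have h' : β (τ x) = (β x)⁻¹ := h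
      show τ x * x ∈ commutator P
      rw [← Abelianization.ker_of, MonoidHom.mem_ker, map_mul]
      show β (τ x) * β x = 1
      rw [h', inv_mul_cancel]
    have hfix : ∀ w ∈ W, τ' (π w) = π w := by
      have hgens : ∀ x y : P, τ' (π ⁅x, y⁆) = π ⁅x, y⁆ := by
        intro x y
        rw [hτ', map_commutatorElement, map_commutatorElement, map_commutatorElement]
        obtain ⟨ex, hex, hex'⟩ : ∃ e ∈ W, τ x = e * x⁻¹ := ⟨τ x * x, hx x, by group⟩
        obtain ⟨ey, hey, hey'⟩ : ∃ e ∈ W, τ y = e * y⁻¹ := ⟨τ y * y, hx y, by group⟩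
        rw [hex', hey', map_mul, map_mul, map_inv, map_inv]
        have cz := hcen _ (hmemW x y)
        have zc : ∀ (z g h : P ⧸ Q), (∀ k, Commute z k) → ⁅z * g, h⁆ = ⁅g, h⁆ := by
          intro z g h hz
          simp only [commutatorElement_def, mul_inv_rev]
          rw [show z * g * h * (g⁻¹ * z⁻¹) * h⁻¹ = z * (g * h * g⁻¹) * z⁻¹ * h⁻¹ by group,
            (hz (g * h * g⁻¹)).eq]
          group
        have zc' : ∀ (z g h : P ⧸ Q), (∀ k, Commute z k) → ⁅h, z * g⁆ = ⁅h, g⁆ := by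
          intro z g h hz
          rw [← commutatorElement_inv (z * g) h, zc z g h hz, commutatorElement_inv]
        have hall : ∀ w ∈ W, ∀ k, Commute (π w) k := fun w hw k => by
          obtain ⟨k, rfl⟩ := QuotientGroup.mk'_surjective Q k; exact hcen w hw k
        rw [zc _ _ _ (hall ex hex), zc' _ _ _ (hall ey hey)]
        have key : ⁅(π x)⁻¹, (π y)⁻¹⁆ = (π y * π x)⁻¹ * ⁅π x, π y⁆ * (π y * π x) := by
          simp only [commutatorElement_def]; group
        rw [key, ← map_commutatorElement, ← map_mul π y x, mul_assoc, (hall _ (hmemW x y) _).eq, ← mul_assoc,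
          inv_mul_cancel, one_mul]
      intro w hw
      rw [show W = Subgroup.closure (commutatorSet P) from commutator_eq_closure P] at hw
      exact MonoidHom.eqOn_closure (f := τ'.comp π) (g := π) (fun z hz => by
        obtain ⟨x, y, rfl⟩ := hz; exact hgens x y) hw
    have hWQ : W ≤ Q := by
      refine CfsgLib.Minimal.AutGeneration.le_of_fixed hodd (hsq u huI) (hsq v hvI)
        (hcomI u huI v hvI) hu1 hv1 huv (hWinv u) (hWinv v) ?_ ?_ ?_ <;> intro w hw hwfix
      all_goals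
        have hinvw : τ w = w⁻¹ := by
          first
          | exact hτz a (hτinv a (Or.inl rfl)) w ((ha w).1 hwfix)
          | exact hτz b (hτinv b (Or.inr (Or.inl rfl))) w ((hb w).1 hwfix)
          | exact hτz c (hτinv c (Or.inr (Or.inr rfl))) w ((hc w).1 hwfix)
        have h := hfix w hw
        rw [hτ', hinvw, map_inv] at h
        have h2 : (π w) ^ 2 = 1 := by rw [pow_two, mul_eq_one_iff_eq_inv]; exact h.symm
        have hno : orderOf (π w) ∣ Nat.card P := (orderOf_map_dvd π w).trans (orderOf_dvd_natCard w)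
        have h1 : orderOf (π w) ∣ 1 := by
          rw [← (hodd.coprime_two_left : Nat.Coprime 2 (Nat.card P))]
          exact Nat.dvd_gcd (orderOf_dvd_of_pow_eq_one h2) hno
        exact (QuotientGroup.eq_one_iff _).1 (orderOf_eq_one_iff.1 (Nat.dvd_one.1 h1))
    haveI := hP.isNilpotent
    obtain ⟨n, hn⟩ := Subgroup.nilpotent_iff_lowerCentralSeries.1 (inferInstance : Group.IsNilpotent P)
    have hbot : W = ⊥ := by
      have hge : ∀ n, W ≤ Subgroup.lowerCentralSeries (⊤ : Subgroup P) n := by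
        intro n
        induction n with
        | zero => exact le_top
        | succ n ih =>
          rw [Subgroup.lowerCentralSeries_succ]
          exact hWQ.trans (Subgroup.commutator_mono ih le_rfl)
      exact le_bot_iff.1 (hn ▸ hge n)
    intro x y
    exact commutatorElement_eq_one_iff_mul_comm.1 (by simpa [hbot] using hmemW x y)
  -- centralizers
  have hnc : ∀ {T : MulAut P} {d e f : P}, T d = d → T e = e →
      Subgroup.closure {d, e, f} = ⊤ → ¬ Cyc T := by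
    rintro T d e f hd he hfull ⟨g, hg⟩
    refine h3gen ⟨g, f, top_le_iff.1 ?_⟩
    rw [← hfull, Subgroup.closure_le]
    have hgz : Subgroup.zpowers g ≤ Subgroup.closure {g, f} :=
      Subgroup.zpowers_le.2 (Subgroup.subset_closure (Set.mem_insert g {f}))
    rintro z (rfl | rfl | rfl)
    · exact hgz ((hg _).1 hd)
    · exact hgz ((hg _).1 he)
    · exact Subgroup.subset_closure (Set.mem_insert_of_mem g rfl)
  have nca : ¬ Cyc Ta := hnc hTab hTac (f := a) (by rw [← hgen]; congr 1; ext z; simp; tauto)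
  have ncb : ¬ Cyc Tb := hnc hTba hTbc (f := b) (by rw [← hgen]; congr 1; ext z; simp; tauto)
  have ncc : ¬ Cyc Tc := hnc hTca hTcb (f := c) hgen
  have hτall : ∀ x, τ x = x⁻¹ := by
    intro x
    letI : CommGroup P := { (inferInstance : Group P) with mul_comm := hab' }
    exact MonoidHom.eqOn_closure (f := τ.toMonoidHom) (g := (invMonoidHom : P →* P)) (s := {a, b, c})
      (fun z hz => hτinv z hz) (hgen ▸ Subgroup.mem_top x)
  have hτcyc : Cyc τ := by
    refine ⟨1, fun x => ⟨fun h => ?_, fun h => ?_⟩⟩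
    · rw [hτall] at h
      have h2 : x ^ 2 = 1 := by rw [pow_two, mul_eq_one_iff_eq_inv]; exact h.symm
      have h1 : orderOf x ∣ 1 := by
        rw [← (hodd.coprime_two_left : Nat.Coprime 2 (Nat.card P))]
        exact Nat.dvd_gcd (orderOf_dvd_of_pow_eq_one h2) (orderOf_dvd_natCard x)
      rw [orderOf_eq_one_iff.1 (Nat.dvd_one.1 h1)]
      exact one_mem _
    · rw [Subgroup.zpowers_one_eq_bot, Subgroup.mem_bot] at h
      rw [h, map_one]
  have flip : ∀ (j : MulAut P) (d : P), j ∈ I → (∀ x, j x = x ↔ x ∈ Subgroup.zpowers d) → ∀ {T S : MulAut P},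
      T ∈ I → S ∈ I → ((T * S) d = d ↔ (T d = d ↔ S d = d)) := by
    intro j d hj hd T S hT hS
    rw [MulAut.mul_apply]
    rcases hpm j d hj hd S hS with h | h
    · simp [h]
    · rw [h, map_inv]
      rcases hpm j d hj hd T hT with h' | h'
      · simp [h']
      · rw [h', inv_inv]; simp
  have fa := @flip u a huI ha
  have fb := @flip v b hvI hb
  have fc := @flip (u * v) c huvI hc
  have same : ∀ {T S : MulAut P}, T ∈ I → S ∈ I → (T a = a ↔ S a = a) → (T b = b ↔ S b = b) →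
      (T c = c ↔ S c = c) → T = S := fun {T S} hT hS h1 h2 h3 =>
    congrArg Subtype.val (hinj (a₁ := ⟨T, hT⟩) (a₂ := ⟨S, hS⟩) (by simp [sgn, h1, h2, h3]))
  set NC := {T : MulAut P | T ∈ I ∧ T ≠ 1 ∧ ¬ Cyc T} with hNC
  have hprod' : ∀ T ∈ NC, ∀ S ∈ NC, T * S ∈ I₀ := fun T hT S hS =>
    hprod T hT.1 S hS.1 hT.2.1 hS.2.1 hT.2.2 hS.2.2
  have na : Ta ∈ NC := ⟨hTa, hTa1, nca⟩
  have nb : Tb ∈ NC := ⟨hTb, hTb1, ncb⟩
  have nc : Tc ∈ NC := ⟨hTc, hTc1, ncc⟩
  have hcases : ∀ T ∈ I, T = 1 ∨ T = Ta ∨ T = Tb ∨ T = Tc ∨ T = Ta * Tb ∨ T = Ta * Tc ∨ T = Tb * Tc ∨ T = τ := by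
    intro T hT
    by_cases h1 : T a = a <;> by_cases h2 : T b = b <;> by_cases h3 : T c = c
    · exact Or.inl (same hT (one_mem I) (by simp [h1]) (by simp [h2]) (by simp [h3]))
    · exact Or.inr (Or.inr (Or.inr (Or.inl (same hT hTc (by simp [*]) (by simp [*]) (by simp [*])))))
    · exact Or.inr (Or.inr (Or.inl (same hT hTb (by simp [*]) (by simp [*]) (by simp [*]))))
    · exact Or.inr (Or.inr (Or.inr (Or.inr (Or.inr (Or.inr (Or.inl (same hT (mul_mem hTb hTc)
        (by rw [fa hTb hTc]; simp [hTaa, hTab, hTac, hTba, hTbb, hTbc, hTca, hTcb, hTcc, *]) (by rw [fb hTb hTc]; simp [hTaa, hTab, hTac, hTba, hTbb, hTbc, hTca, hTcb, hTcc, *]) (by rw [fc hTb hTc]; simp [hTaa, hTab, hTac, hTba, hTbb, hTbc, hTca, hTcb, hTcc, *]))))))))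
    · exact Or.inr (Or.inl (same hT hTa (by simp [*]) (by simp [*]) (by simp [*])))
    · exact Or.inr (Or.inr (Or.inr (Or.inr (Or.inr (Or.inl (same hT (mul_mem hTa hTc)
        (by rw [fa hTa hTc]; simp [hTaa, hTab, hTac, hTba, hTbb, hTbc, hTca, hTcb, hTcc, *]) (by rw [fb hTa hTc]; simp [hTaa, hTab, hTac, hTba, hTbb, hTbc, hTca, hTcb, hTcc, *]) (by rw [fc hTa hTc]; simp [hTaa, hTab, hTac, hTba, hTbb, hTbc, hTca, hTcb, hTcc, *])))))))
    · exact Or.inr (Or.inr (Or.inr (Or.inr (Or.inl (same hT (mul_mem hTa hTb)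
        (by rw [fa hTa hTb]; simp [hTaa, hTab, hTac, hTba, hTbb, hTbc, hTca, hTcb, hTcc, *]) (by rw [fb hTa hTb]; simp [hTaa, hTab, hTac, hTba, hTbb, hTbc, hTca, hTcb, hTcc, *]) (by rw [fc hTa hTb]; simp [hTaa, hTab, hTac, hTba, hTbb, hTbc, hTca, hTcb, hTcc, *]))))))
    · exact Or.inr (Or.inr (Or.inr (Or.inr (Or.inr (Or.inr (Or.inr
        (same hT hτ (iff_of_false h1 hτa) (iff_of_false h2 hτb) (iff_of_false h3 hτc))))))))
  have hNCeq : ∀ T, T ∈ NC ↔ T = Ta ∨ T = Tb ∨ T = Tc := by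
    intro T
    refine ⟨fun ⟨hT, h1, hc'⟩ => ?_, by rintro (rfl | rfl | rfl) <;> assumption⟩
    rcases hcases T hT with h | h | h | h | h | h | h | h
    · exact absurd h h1
    · exact Or.inl h
    · exact Or.inr (Or.inl h)
    · exact Or.inr (Or.inr h)
    · exact absurd (h ▸ hdisj _ (hprod' _ na _ nb) (h ▸ h1)) hc'
    · exact absurd (h ▸ hdisj _ (hprod' _ na _ nc) (h ▸ h1)) hc'
    · exact absurd (h ▸ hdisj _ (hprod' _ nb _ nc) (h ▸ h1)) hc'
    · exact absurd (h ▸ hτcyc) hc'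
  have hab3 : Ta ≠ Tb ∧ Ta ≠ Tc ∧ Tb ≠ Tc :=
    ⟨fun h => hTaa (h ▸ hTba), fun h => hTaa (h ▸ hTca), fun h => hTbb (h ▸ hTcb)⟩
  have hclos : Subgroup.closure NC = I := by
    refine le_antisymm ((Subgroup.closure_le _).2 fun T hT => hT.1) fun T hT => ?_
    have m : ∀ {T}, T ∈ NC → T ∈ Subgroup.closure NC := fun h => Subgroup.subset_closure h
    rcases hcases T hT with h | h | h | h | h | h | h | h <;> subst h
    · exact one_mem _
    · exact m na
    · exact m nb
    · exact m nc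
    · exact mul_mem (m na) (m nb)
    · exact mul_mem (m na) (m nc)
    · exact mul_mem (m nb) (m nc)
    · rw [show T = Ta * (Tb * Tc) from same hT (mul_mem hTa (mul_mem hTb hTc))
        (by rw [fa hTa (mul_mem hTb hTc), fa hTb hTc]; simp [hTaa, hTab, hTac, hTba, hTbb, hTbc, hTca, hTcb, hTcc, hτa, hτb, hτc]) (by rw [fb hTa (mul_mem hTb hTc), fb hTb hTc]; simp [hTaa, hTab, hTac, hTba, hTbb, hTbc, hTca, hTcb, hTcc, hτa, hτb, hτc])
        (by rw [fc hTa (mul_mem hTb hTc), fc hTb hTc]; simp [hTaa, hTab, hTac, hTba, hTbb, hTbc, hTca, hTcb, hTcc, hτa, hτb, hτc])]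
      exact mul_mem (m na) (mul_mem (m nb) (m nc))
  have hI0 : (I₀ : Set (MulAut P)) = {S | ∃ T T' : MulAut P, T ∈ NC ∧ T' ∈ NC ∧ S = T * T'} := by
    ext S
    refine ⟨fun hS => ?_, fun ⟨T, T', hT, hT', h⟩ => h ▸ hprod' T hT T' hT'⟩
    have bad : ∀ X ∈ NC, X ∉ I₀ := fun X hX h => hX.2.2 (hdisj X h hX.2.1)
    rcases hcases S (hI₀.le hS) with h | h | h | h | h | h | h | h
    · exact ⟨Ta, Ta, na, na, by rw [h, hsq Ta hTa]⟩
    · exact absurd (h ▸ hS) (bad _ na)
    · exact absurd (h ▸ hS) (bad _ nb)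
    · exact absurd (h ▸ hS) (bad _ nc)
    · exact ⟨Ta, Tb, na, nb, h⟩
    · exact ⟨Ta, Tc, na, nc, h⟩
    · exact ⟨Tb, Tc, nb, nc, h⟩
    · exfalso
      refine bad _ na ?_
      have e : Ta = S * (Tb * Tc) := same hTa (mul_mem (hI₀.le hS) (mul_mem hTb hTc))
        (by subst h; rw [fa hτ (mul_mem hTb hTc), fa hTb hTc]; simp [hTaa, hTab, hTac, hTba, hTbb, hTbc, hTca, hTcb, hTcc, hτa, hτb, hτc])
        (by subst h; rw [fb hτ (mul_mem hTb hTc), fb hTb hTc]; simp [hTaa, hTab, hTac, hTba, hTbb, hTbc, hTca, hTcb, hTcc, hτa, hτb, hτc])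
        (by subst h; rw [fc hτ (mul_mem hTb hTc), fc hTb hTc]; simp [hTaa, hTab, hTac, hTba, hTbb, hTbc, hTca, hTcb, hTcc, hτa, hτb, hτc])
      rw [e]
      exact mul_mem hS (hprod' _ nb _ nc)
  refine ⟨⟨⟨hab'⟩⟩, ⟨a, b, c, hgen⟩, h3gen, ?_, hclos, ?_⟩
  · show Nat.card NC = 3
    have hset : NC = {Ta, Tb, Tc} := Set.ext fun T => by simpa using hNCeq T
    rw [Nat.card_coe_set_eq, hset]
    exact Set.ncard_eq_three.2 ⟨Ta, Tb, Tc, hab3.1, hab3.2.1, hab3.2.2, rfl⟩
  · rw [hI0]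
    ext S
    simp only [Set.mem_ofPred_eq, hNC]
    constructor
    · rintro ⟨T, T', ⟨h1, h2, h3⟩, ⟨h4, h5, h6⟩, h⟩
      exact ⟨T, T', h1, h4, h2, h5, h3, h6, h⟩
    · rintro ⟨T, T', h1, h4, h2, h5, h3, h6, h⟩
      exact ⟨T, T', ⟨h1, h2, h3⟩, ⟨h4, h5, h6⟩, h⟩

end Cfsg.Agent.S4412
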