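import Cfsg.Statements.S4413
import Cfsg.Agent.Lib.Minimal.MinusFive
import Cfsg.Agent.Lib.Minimal.ExtraspecialTwo
import Mathlib

set_option autoImplicit false
set_option linter.style.haveILetI false
set_option linter.unusedSimpArgs false
open Cfsg
open CfsgLib.Minimal.ExtraspecialTwo CfsgLib.Minimal.MinusFive

namespace Cfsg.Agent.S4413


/-- Four pairwise noncommuting involutions generate a group of minus type and order 32. -/
theorem exists_rel {P : Type*} [Group P] [Finite P] (hex : Cfsg.IsExtraspecial 2 P) (h32 : Nat.card P = 32)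
    (hminus : ∀ A : Subgroup P, Cfsg.IsElementaryAbelian 2 A → Nat.card ↥A ≤ 4) :
    ∃ t : Fin 4 → P, Mdl.Rel (zE hex) t := by
  haveI : Fact (Nat.Prime 2) := ⟨Nat.prime_two⟩
  obtain ⟨a, b, ha, hb, hab⟩ := (normal_form hex).resolve_right fun h => by omega
  have hcard : Nat.card (pairCentralizer a b) = 8 := by
    have := card_eq_four_mul hex hab; omega
  have hC := extraspecial_pairCentralizer hex hab (by omega)
  set z := zE hex with hzdef
  have hz1 := zE_ne hex
  have hzz := zE_sq hex
  have hzc : ∀ x, z * x = x * z := zE_comm hex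
  have hsw : ∀ {x y : P}, x * y ≠ y * x → y * x = z * (x * y) := fun h => swap_eq hex h
  have hzC : ((zE hC : pairCentralizer a b) : P) = z := by
    have h1 : ((zE hC : pairCentralizer a b) : P) * ((zE hC : pairCentralizer a b) : P) = 1 := congrArg Subtype.val (zE_sq hC)
    have hcen : ((zE hC : pairCentralizer a b) : P) ∈ Subgroup.center P := by
      refine Subgroup.mem_center_iff.2 fun x => ?_
      obtain ⟨⟨⟨s, t⟩, d⟩, rfl⟩ := (pair_bijective hex hab).2 x
      obtain ⟨hca, hcb⟩ := mem_pairCentralizer.1 (zE hC).2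
      have hd : Commute (d : P) ((zE hC : pairCentralizer a b) : P) := (congrArg Subtype.val (zE_comm hC d)).symm
      refine (Commute.mul_left (Commute.mul_left ?_ ?_) hd).eq
      · cases s
        · exact Commute.one_left _
        · exact hca.symm
      · cases t
        · exact Commute.one_left _
        · exact hcb.symm
    exact (zE_cases hex hcen).resolve_left fun h => zE_ne hC (Subtype.ext h)
  rcases normal_form hC with ⟨c, d, hc, hd, hcd⟩ | ⟨-, hall⟩
  · exfalso
    obtain ⟨hca, hcb⟩ := mem_pairCentralizer.1 c.2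
    have hc' : (c : P) * c = 1 := congrArg Subtype.val hc
    let A := Subgroup.closure ({z, a, (c : P)} : Set P)
    have hcomm : IsMulCommutative A := Subgroup.isMulCommutative_closure (by
      rintro x (rfl | rfl | rfl) y (rfl | rfl | rfl) <;>
        first | rfl | exact hzc _ | exact (hzc _).symm | exact hca | exact hca.symm)
    have hel : Cfsg.IsElementaryAbelian 2 A := by
      refine ⟨hcomm, fun x hx => ?_⟩
      induction hx using Subgroup.closure_induction with
      | mem y hy => rcases hy with rfl | rfl | rfl <;> rw [pow_two] <;> assumption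
      | one => exact one_pow 2
      | mul x y hxA hyA hx hy =>
        have hxy : Commute x y :=
          congrArg Subtype.val (hcomm.is_comm.comm ⟨x, hxA⟩ ⟨y, hyA⟩)
        rw [hxy.mul_pow, hx, hy, one_mul]
      | inv x _ hx => rw [inv_pow, hx, inv_one]
    have mz : z ∈ A := Subgroup.subset_closure (Or.inl rfl)
    have maa : a ∈ A := Subgroup.subset_closure (Or.inr (Or.inl rfl))
    have mc : (c : P) ∈ A := Subgroup.subset_closure (Or.inr (Or.inr rfl))
    have n1 : a ≠ 1 := fun h => hab (by rw [h, one_mul, mul_one])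
    have n2 : a ≠ z := fun h => hab (by rw [h, hzc])
    have n3 : (c : P) ≠ 1 := fun h => hcd (by rw [show c = 1 from Subtype.ext h, one_mul, mul_one])
    have n4 : (c : P) ≠ z := fun h => hcd (Subtype.ext (show (c : P) * d = d * c by rw [h, hzc]))
    have n5 : (c : P) ≠ a := fun h => hab (h ▸ hcb)
    have n6 : a * c ≠ z := fun h => hab (by
      have e : (c : P) = a * z := by rw [← h, ← mul_assoc, ha, one_mul]
      have h' := hcb
      rw [e, mul_assoc, hzc b, ← mul_assoc, ← mul_assoc] at h'
      exact mul_right_cancel h')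
    have n7 : a * c ≠ 1 := fun h => n5 (by rw [← inv_eq_of_mul_eq_one_right h, inv_eq_of_mul_eq_one_right ha])
    classical
    have m1 : a ≠ a * c := fun h => n3 (mul_eq_left.1 h.symm)
    have m2 : (c : P) ≠ a * c := fun h => n1 (mul_eq_right.1 h.symm)
    have h5 : ({1, z, a, (c : P), a * c} : Finset P).card = 5 := by
      rw [Finset.card_insert_of_notMem, Finset.card_insert_of_notMem, Finset.card_insert_of_notMem,
        Finset.card_insert_of_notMem, Finset.card_singleton] <;>
        simp only [Finset.mem_insert, Finset.mem_singleton, not_or]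
      · exact m2
      · exact ⟨n5.symm, m1⟩
      · exact ⟨n2.symm, n4.symm, n6.symm⟩
      · exact ⟨hz1.symm, n1.symm, n3.symm, n7.symm⟩
    have h5' : ({1, z, a, (c : P), a * c} : Finset P).card ≤ Nat.card A := by
      rw [← SetLike.coe_sort_coe, Nat.card_coe_set_eq, ← Set.ncard_coe_finset]
      refine Set.ncard_le_ncard (fun x hx => ?_) (Set.toFinite _)
      simp only [Finset.coe_insert, Finset.coe_singleton, Set.mem_insert_iff, Set.mem_singleton_iff] at hx
      rcases hx with rfl | rfl | rfl | rfl | rfl
      exacts [one_mem _, mz, maa, mc, mul_mem maa mc]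
    have := hminus A hel
    omega
  · obtain ⟨c, d, hcd⟩ := CfsgLib.PGroups.IsExtraspecial.exists_not_commute hC
    have hcn := (not_mem_center hcd)
    have hcd' : (c : P) * d ≠ d * c := fun h => hcd (Subtype.ext h)
    have hcc : (c : P) * c = z := (congrArg Subtype.val (hall c hcn.1)).trans hzC
    have hdd : (d : P) * d = z := (congrArg Subtype.val (hall d hcn.2)).trans hzC
    obtain ⟨hca, hcb⟩ := mem_pairCentralizer.1 c.2
    obtain ⟨hda, hdb⟩ := mem_pairCentralizer.1 d.2
    have e1 := hsw hab
    have e2 := hsw hcd'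
    have kz : ∀ u x : P, u * (z * x) = z * (u * x) := fun u x => by
      rw [← mul_assoc, ← hzc u, mul_assoc]
    have kzz : ∀ x : P, z * (z * x) = x := fun x => by rw [← mul_assoc, hzz, one_mul]
    have ka : ∀ x : P, a * (a * x) = x := fun x => by rw [← mul_assoc, ha, one_mul]
    have kb : ∀ x : P, b * (b * x) = x := fun x => by rw [← mul_assoc, hb, one_mul]
    have kc : ∀ x : P, (c : P) * (c * x) = z * x := fun x => by rw [← mul_assoc, hcc]
    have kd : ∀ x : P, (d : P) * (d * x) = z * x := fun x => by rw [← mul_assoc, hdd]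
    have kba : ∀ x : P, b * (a * x) = z * (a * (b * x)) := fun x => by
      rw [← mul_assoc, e1]; simp only [mul_assoc]
    have kdc : ∀ x : P, (d : P) * (c * x) = z * (c * (d * x)) := fun x => by
      rw [← mul_assoc, e2]; simp only [mul_assoc]
    have kca : ∀ x : P, (c : P) * (a * x) = a * (c * x) := fun x => by rw [← mul_assoc, hca, mul_assoc]
    have kcb : ∀ x : P, (c : P) * (b * x) = b * (c * x) := fun x => by rw [← mul_assoc, hcb, mul_assoc]
    have kda : ∀ x : P, (d : P) * (a * x) = a * (d * x) := fun x => by rw [← mul_assoc, hda, mul_assoc]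
    have kdb : ∀ x : P, (d : P) * (b * x) = b * (d * x) := fun x => by rw [← mul_assoc, hdb, mul_assoc]
    have zr : ∀ u : P, u * z = z * u := fun u => (hzc u).symm
    refine ⟨![a, b, a * b * c, a * b * d], ⟨hzz, fun h => (hzc h).symm, ?_, ?_⟩⟩
    · intro i
      fin_cases i <;> simp [mul_assoc, ha, hb, hcc, hdd, e1, e2, hca, hcb, hda, hdb, hzz, kz, kzz, ka, kb,
        kc, kd, kba, kdc, kca, kcb, kda, kdb, zr]
    · intro i j hij
      fin_cases i <;> fin_cases j <;> simp at hij <;>
        simp [mul_assoc, ha, hb, hcc, hdd, e1, e2, hca, hcb, hda, hdb, hzz, kz, kzz, ka, kb, kc, kd, kba,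
          kdc, kca, kcb, kda, kdb, zr]

/-- Let P be an extraspecial 2-group of order 32 with no elementary abelian subgroup of order 8 (the central product of a dihedral and a quaternion group of order 8). Then the inner automorphism group of P has order 16 and the outer automorphism group Aut(P)/Inn(P) is isomorphic to the symmetric group of degree 5; in particular Aut(P) has order 1920. -/
theorem result {P : Type*} [Group P] [Finite P]
    (hex : Cfsg.IsExtraspecial 2 P) (h32 : Nat.card P = 32)
    (hminus : ∀ A : Subgroup P, Cfsg.IsElementaryAbelian 2 A → Nat.card ↥A ≤ 4)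
    [(MulAut.conj : P →* MulAut P).range.Normal] :
    Nat.card ↥(MulAut.conj : P →* MulAut P).range = 16 ∧ Nat.card (MulAut P) = 1920 ∧
      Nonempty ((MulAut P ⧸ (MulAut.conj : P →* MulAut P).range) ≃* Equiv.Perm (Fin 5)) := by
  obtain ⟨t, r⟩ := exists_rel hex h32 hminus
  have hcard : Nat.card Mdl = Nat.card P := by
    rw [h32, Nat.card_eq_fintype_card]
    decide
  let e : Mdl ≃* P := MulEquiv.ofBijective r.lift
    ((Nat.bijective_iff_injective_and_card _).2 ⟨r.lift_injective (zE_ne hex), hcard⟩)
  let Φ : MulAut Mdl ≃* MulAut P := MulAut.congr e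
  have hmap : (MulAut.conj : Mdl →* MulAut Mdl).range.map Φ.toMonoidHom =
      (MulAut.conj : P →* MulAut P).range := by
    have hΦ : ∀ g, Φ (MulAut.conj g) = MulAut.conj (e g) := fun g => MulEquiv.ext fun x => by
      simp [Φ, MulAut.congr, MulAut.conj_apply]
    ext f
    constructor
    · rintro ⟨_, ⟨g, rfl⟩, rfl⟩
      exact ⟨e g, (hΦ g).symm⟩
    · rintro ⟨g, rfl⟩
      exact ⟨_, ⟨e.symm g, rfl⟩, (hΦ _).trans (by rw [e.apply_symm_apply])⟩
  refine ⟨?_, ?_, ?_⟩
  · rw [← hmap, Subgroup.card_map_of_injective Φ.injective, Mdl.card_range_conj]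
  · rw [← Nat.card_congr Φ.toEquiv, Mdl.card_mulAut]
  · haveI : (MulAut.conj : Mdl →* MulAut Mdl).range.Normal := Mdl.perm_ker ▸ MonoidHom.normal_ker _
    exact ⟨((QuotientGroup.congr _ _ Φ hmap).symm.trans
      (QuotientGroup.quotientMulEquivOfEq Mdl.perm_ker.symm)).trans
      (QuotientGroup.quotientKerEquivOfSurjective _ Mdl.perm_surjective)⟩

end Cfsg.Agent.S4413
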