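import Cfsg.Statements.S4414
import Cfsg.Agent.Lib.Minimal.CharSupport
import Mathlib

set_option autoImplicit false
set_option maxHeartbeats 1600000
set_option linter.style.haveILetI false
set_option linter.unusedSimpArgs false
set_option linter.deprecated false
open Cfsg

namespace Cfsg.Agent.S4414

open CfsgLib.Minimal.CharSupport
open scoped TensorProduct

universe u v

/-- A finite field of characteristic two with enough roots of unity of odd order `n`. -/
theorem exists_field {n : ℕ} (hn : Odd n) : ∃ (K : Type) (_ : Field K) (_ : Finite K) (_ : Algebra (ZMod 2) K),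
    CharP K 2 ∧ HasEnoughRootsOfUnity K n := by
  haveI : Fact (Nat.Prime 2) := ⟨Nat.prime_two⟩
  haveI : NeZero n := ⟨by rintro rfl; exact absurd hn (by decide)⟩
  have hf : 0 < n.totient := Nat.totient_pos.2 (NeZero.pos n)
  let K := GaloisField 2 n.totient
  haveI : Finite K := inferInstance
  haveI : Fintype K := Fintype.ofFinite K
  refine ⟨K, inferInstance, inferInstance, inferInstance, inferInstance, ?_, inferInstance⟩
  have hcard : Nat.card Kˣ = 2 ^ n.totient - 1 := by
    rw [Nat.card_units, GaloisField.card 2 _ hf.ne']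
  have hdvd : n ∣ Nat.card Kˣ := by
    rw [hcard]
    refine (Nat.modEq_iff_dvd' Nat.one_le_two_pow).1 (Nat.ModEq.symm ?_)
    exact Nat.ModEq.pow_totient ((Nat.coprime_two_left).2 hn)
  obtain ⟨g, hg⟩ := IsCyclic.exists_ofOrder_eq_natCard (α := Kˣ)
  refine ⟨((g ^ (Nat.card Kˣ / n) : Kˣ) : K), ?_⟩
  have ho : orderOf (g ^ (Nat.card Kˣ / n)) = n := by
    have hne : Nat.card Kˣ / n ≠ 0 :=
      (Nat.div_pos (Nat.le_of_dvd Nat.card_pos hdvd) (NeZero.pos n)).ne'
    rw [orderOf_pow_of_dvd hne (hg.symm ▸ Nat.div_dvd_of_dvd hdvd), hg, Nat.div_div_self hdvd Nat.card_pos.ne']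
  have h := IsPrimitiveRoot.orderOf ((g ^ (Nat.card Kˣ / n) : Kˣ) : K)
  rwa [orderOf_units, ho] at h

theorem coords_map {K : Type*} [Field K] [Algebra (ZMod 2) K] {E : Type*} [AddCommGroup E] [Module (ZMod 2) E]
    {ι : Type*} [DecidableEq ι] (b : Module.Basis ι (ZMod 2) K) (f : E →ₗ[ZMod 2] E)
    (v : K ⊗[ZMod 2] E) (i : ι) :
    TensorProduct.equivFinsuppOfBasisLeft b (f.baseChange K v) i =
      f (TensorProduct.equivFinsuppOfBasisLeft b v i) := by
  induction v using TensorProduct.induction_on with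
  | zero => simp
  | tmul m e => simp [TensorProduct.equivFinsuppOfBasisLeft_apply_tmul_apply]
  | add x y hx hy => simp [map_add, hx, hy]

/-- Let S be a finite solvable group whose order is divisible only by the primes 2, p, q (p, q distinct odd primes), with a Sylow system S₂, S_p, S_q (pairwise permutable Sylow subgroups) such that: S_p is a minimal normal subgroup of S of order p or p²; S_q has order q and [S_p, S_q] = S_p; and O₂(S) = 1. Let E be an irreducible module for S over the field with two elements on which S_p acts faithfully, and E₀ the subspace of fixed points of S₂. Then either E₀ has at least 8 elements, or E₀ has exactly 4 elements and S_q does not leave E₀ invariant. -/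
theorem result {S : Type*} [Group S] [Finite S]
    [Group.IsSolvable S] (p q : ℕ) (hp : p.Prime) (hq : q.Prime) (hp2 : p ≠ 2) (hq2 : q ≠ 2) (hpq : p ≠ q)
    (hπ : ∀ r : ℕ, r.Prime → r ∣ Nat.card S → r = 2 ∨ r = p ∨ r = q)
    (S₂ : Sylow 2 S) (Sp : Sylow p S) (Sq : Sylow q S)
    (h2q : Nat.card ↥((S₂ : Subgroup S) ⊔ (Sq : Subgroup S)) = Nat.card ↥S₂ * Nat.card ↥Sq)
    (h2p : Nat.card ↥((S₂ : Subgroup S) ⊔ (Sp : Subgroup S)) = Nat.card ↥S₂ * Nat.card ↥Sp)
    (hpq' : Nat.card ↥((Sp : Subgroup S) ⊔ (Sq : Subgroup S)) = Nat.card ↥Sp * Nat.card ↥Sq)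
    (hSpN : (Sp : Subgroup S).Normal) (hSpmin : ∀ N : Subgroup S, N.Normal → N ≤ (Sp : Subgroup S) → N = ⊥ ∨ N = (Sp : Subgroup S))
    (hSpcard : Nat.card ↥Sp = p ∨ Nat.card ↥Sp = p ^ 2)
    (hSq : Nat.card ↥Sq = q) (hcomm : ⁅(Sp : Subgroup S), (Sq : Subgroup S)⁆ = (Sp : Subgroup S))
    (hO2 : Cfsg.pCore 2 S = ⊥)
    {E : Type*} [AddCommGroup E] [Module (ZMod 2) E] [Finite E] (ρ : Representation (ZMod 2) S E) (hE : Nontrivial E)
    (hirr : ∀ N : Submodule (ZMod 2) E, (∀ s : S, ∀ m ∈ N, ρ s m ∈ N) → N = ⊥ ∨ N = ⊤)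
    (hfaith : ∀ x ∈ (Sp : Subgroup S), ρ x = 1 → x = 1) :
    8 ≤ Nat.card {v : E // ∀ s ∈ (S₂ : Subgroup S), ρ s v = v} ∨
      (Nat.card {v : E // ∀ s ∈ (S₂ : Subgroup S), ρ s v = v} = 4 ∧
        ∃ x ∈ (Sq : Subgroup S), ∃ v : E, (∀ s ∈ (S₂ : Subgroup S), ρ s v = v) ∧ ¬ ∀ s ∈ (S₂ : Subgroup S), ρ s (ρ x v) = ρ x v) := by
  classical
  haveI : Fact p.Prime := ⟨hp⟩
  haveI : Fact q.Prime := ⟨hq⟩
  haveI : Fact (Nat.Prime 2) := ⟨Nat.prime_two⟩
  set N : Subgroup S := (Sp : Subgroup S)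
  haveI : N.Normal := hSpN
  haveI : Fintype N := Fintype.ofFinite N
  have hNc : ∀ a b : N, a * b = b * a := by
    rcases hSpcard with h | h
    · haveI : IsCyclic N := isCyclic_of_prime_card (p := p) h
      exact fun a b => IsCyclic.isMulCommutative.is_comm.comm a b
    · exact IsPGroup.commutative_of_card_eq_prime_sq h
  have hNodd : Odd (Fintype.card N) := by
    rw [← Nat.card_eq_fintype_card]
    rcases hSpcard with h | h <;> rw [show Nat.card N = _ from h]
    · exact hp.odd_of_ne_two hp2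
    · exact (hp.odd_of_ne_two hp2).pow
  have hexp : Odd (Monoid.exponent N) :=
    Odd.of_dvd_nat hNodd (Group.exponent_dvd_nat_card.trans (dvd_of_eq Nat.card_eq_fintype_card))
  obtain ⟨K, _, _, _, hK2, hroots⟩ := exists_field hexp
  haveI := hK2
  haveI := hroots
  haveI : Module.Finite (ZMod 2) K := Module.Finite.of_finite
  let b := Module.finBasis (ZMod 2) K
  set m := Module.finrank (ZMod 2) K with hm
  have hm0 : 0 < m := Module.finrank_pos
  let C := TensorProduct.equivFinsuppOfBasisLeft (N := E) b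
  let V := K ⊗[ZMod 2] E
  haveI : Finite V := Finite.of_equiv (Fin m → E) (Finsupp.equivFunOnFinite.symm.trans C.symm.toEquiv)
  let ρK : S →* Module.End K V :=
    { toFun := fun g => (ρ g).baseChange K
      map_one' := by rw [map_one]; exact LinearMap.baseChange_id
      map_mul' := fun g h => by rw [map_mul]; exact LinearMap.baseChange_comp _ _ }
  have hC : ∀ g v i, C (ρK g v) i = ρ g (C v i) := fun g v i => coords_map b (ρ g) v i
  have hmulK : ∀ (g h : S) (v : V), ρK (g * h) v = ρK g (ρK h v) := fun g h v => by rw [map_mul]; rfl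
  have hfixE : ∀ v : V, ∀ g : S, (ρK g v = v ↔ ∀ i, ρ g (C v i) = C v i) := fun v g => by
    refine ⟨fun h i => by rw [← hC, h], fun h => C.injective (Finsupp.ext fun i => ?_)⟩
    rw [hC, h i]
  -- fixed vectors
  let F : Submodule K V :=
    { carrier := {v | ∀ s ∈ (S₂ : Subgroup S), ρK s v = v}
      add_mem' := fun {u w} hu hw s hs => by rw [map_add, hu s hs, hw s hs]
      zero_mem' := fun s _ => map_zero _
      smul_mem' := fun c w hw s hs => by rw [map_smul, hw s hs] }
  set E0 := {v : E // ∀ s ∈ (S₂ : Subgroup S), ρ s v = v}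
  have hFcard : Nat.card F = Nat.card E0 ^ m := by
    let e : F ≃ (Fin m → E0) :=
      { toFun := fun v i => ⟨C (v : V) i, fun s hs => ((hfixE v s).1 (v.2 s hs)) i⟩
        invFun := fun f => ⟨C.symm (Finsupp.equivFunOnFinite.symm fun i => (f i : E)), fun s hs => by
          rw [hfixE]
          intro i
          simpa using (f i).2 s hs⟩
        left_inv := fun v => Subtype.ext (by
          apply C.injective
          ext i
          simp)
        right_inv := fun f => funext fun i => Subtype.ext (by simp) }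
    rw [Nat.card_congr e, Nat.card_fun, Nat.card_fin]
  have hd : Nat.card E0 = 2 ^ Module.finrank K F := by
    refine Nat.pow_left_injective hm0.ne' ?_
    simp only
    rw [← hFcard, Module.natCard_eq_pow_finrank (K := K) (V := F),
      Module.natCard_eq_pow_finrank (K := ZMod 2) (V := K), Nat.card_zmod, ← pow_mul, ← pow_mul, mul_comm]
  -- no nonzero vector of `V` is fixed by `N`
  have hnofix : ∀ v : V, (∀ a ∈ N, ρK a v = v) → v = 0 := by
    intro v hv
    let E1 : Submodule (ZMod 2) E :=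
      { carrier := {w | ∀ a ∈ N, ρ a w = w}
        add_mem' := fun {u w} hu hw a ha => by rw [map_add, hu a ha, hw a ha]
        zero_mem' := fun a _ => map_zero _
        smul_mem' := fun c w hw a ha => by rw [map_smul, hw a ha] }
    rcases hirr E1 (fun g w hw a ha => by
      have h := hw _ (hSpN.conj_mem a ha g⁻¹)
      conv_rhs => rw [← h]
      rw [← Module.End.mul_apply, ← Module.End.mul_apply, ← map_mul, ← map_mul]
      congr 2; group) with h | h
    · refine C.injective (Finsupp.ext fun i => ?_)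
      have hmem : C v i ∈ E1 := fun a ha => (hfixE v a).1 (hv a ha) i
      rw [h, Submodule.mem_bot] at hmem
      rw [hmem, map_zero]; rfl
    · exfalso
      have hbot : N = ⊥ := (Subgroup.eq_bot_iff_forall _).2 fun a ha =>
        hfaith a ha (LinearMap.ext fun w => (h ▸ Submodule.mem_top : w ∈ E1) a ha)
      rcases hSpcard with h' | h' <;> rw [show Nat.card ↥Sp = Nat.card N from rfl, hbot, Subgroup.card_bot] at h'
      · exact hp.ne_one h'.symm
      · exact hp.ne_one ((Nat.pow_eq_one.1 h'.symm).resolve_right (by norm_num))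
  obtain ⟨⟨x, hx⟩, hxg⟩ := (isCyclic_of_prime_card (p := q) hSq).exists_generator
  have hxq : x ^ q = 1 := by
    have h := pow_card_eq_one' (G := (Sq : Subgroup S)) (x := ⟨x, hx⟩)
    rw [show Nat.card (Sq : Subgroup S) = q from hSq] at h
    exact congrArg Subtype.val h
  letI := charAction N K
  haveI : Finite (N →* Kˣ) := Finite.of_injective _ DFunLike.coe_injective
  have hsmul : ∀ (g : S) (χ : N →* Kˣ), g • χ = act N K g χ := fun _ _ => rfl
  -- a character of a nonzero vector is moved by `x` out of its orbit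
  have hmove : ∀ (χ : N →* Kˣ) (v : V), proj ρK χ v ≠ 0 →
      (fun ψ => x • ψ) '' MulAction.orbit (S₂ : Subgroup S) χ ≠ MulAction.orbit (S₂ : Subgroup S) χ := by
    intro χ v hv he
    set O := MulAction.orbit (S₂ : Subgroup S) χ
    let A := Subgroup.zpowers x
    have hxO : ∀ ψ ∈ O, x • ψ ∈ O := fun ψ hψ => he ▸ ⟨ψ, hψ, rfl⟩
    have hpowO : ∀ n : ℕ, ∀ ψ ∈ O, x ^ n • ψ ∈ O := by
      intro n
      induction n with
      | zero => intro ψ h; rwa [pow_zero, one_smul]
      | succ n ih => intro ψ h; rw [pow_succ', mul_smul]; exact hxO _ (ih ψ h)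
    have hAO : ∀ a ∈ A, ∀ ψ ∈ O, a • ψ ∈ O := by
      intro a ha ψ hψ
      obtain ⟨n, rfl⟩ := (mem_powers_iff_mem_zpowers).2 ha
      exact hpowO n ψ hψ
    letI : MulAction A O :=
      { smul := fun a ψ => ⟨(a : S) • (ψ : N →* Kˣ), hAO a a.2 ψ ψ.2⟩
        one_smul := fun ψ => Subtype.ext (one_smul S _)
        mul_smul := fun a a' ψ => Subtype.ext (mul_smul (a : S) (a' : S) _) }
    have hA : IsPGroup q A := by
      rintro ⟨y, hy⟩
      obtain ⟨i, rfl⟩ := Subgroup.mem_zpowers_iff.1 hy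
      refine ⟨1, Subtype.ext ?_⟩
      simp only [pow_one, SubmonoidClass.coe_pow, OneMemClass.coe_one]
      rw [← zpow_natCast, ← zpow_mul, mul_comm, zpow_mul, zpow_natCast, hxq, one_zpow]
    obtain ⟨k, hk⟩ := IsPGroup.iff_card.1 S₂.isPGroup'
    have hdvd : Nat.card O ∣ 2 ^ k := by
      rw [← hk, Nat.card_coe_set_eq, ← MulAction.index_stabilizer]
      exact Subgroup.index_dvd_card _
    obtain ⟨⟨ψ, hψO⟩, hψ⟩ : (MulAction.fixedPoints A O).Nonempty := by
      refine hA.nonempty_fixed_point_of_prime_not_dvd_card O fun h => ?_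
      exact hq2 ((Nat.prime_dvd_prime_iff_eq hq Nat.prime_two).1 (hq.dvd_of_dvd_pow (h.trans hdvd)))
    have hfix : ∀ y ∈ (Sq : Subgroup S), y • ψ = ψ := by
      intro y hy
      obtain ⟨i, hi⟩ := Subgroup.mem_zpowers_iff.1 (hxg ⟨y, hy⟩)
      have hyx : y ∈ A := Subgroup.mem_zpowers_iff.2 ⟨i, congrArg Subtype.val hi⟩
      exact congrArg Subtype.val (hψ ⟨y, hyx⟩)
    have hψ1 : ∀ a : N, ψ a = 1 := by
      let T : Subgroup S := ψ.ker.map N.subtype
      have hT : ⁅N, (Sq : Subgroup S)⁆ ≤ T := by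
        refine Subgroup.commutator_le.2 fun a ha y hy => ?_
        refine ⟨⟨a, ha⟩ * (MulAut.conjNormal y : MulAut N) (⟨a, ha⟩ : N)⁻¹, ?_, ?_⟩
        · rw [SetLike.mem_coe, MonoidHom.mem_ker, map_mul]
          have h := DFunLike.congr_fun (hfix y⁻¹ (inv_mem hy)) (⟨a, ha⟩ : N)⁻¹
          change ψ ((MulAut.conjNormal y⁻¹⁻¹ : MulAut N) (⟨a, ha⟩ : N)⁻¹) = _ at h
          rw [inv_inv] at h
          rw [h, map_inv, mul_inv_cancel]
        · simp [commutatorElement_def, mul_assoc]
      intro a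
      obtain ⟨c, hc, hca⟩ := hT (hcomm.ge a.2)
      rw [← (N.subtype_injective hca : c = a)]
      exact hc
    obtain ⟨⟨s, hs⟩, hsψ⟩ := hψO
    change s • χ = ψ at hsψ
    have hχ1 : ∀ a : N, χ a = 1 := by
      intro a
      have h := DFunLike.congr_fun hsψ ((MulAut.conjNormal s : MulAut N) a)
      change χ ((MulAut.conjNormal s⁻¹ : MulAut N) ((MulAut.conjNormal s : MulAut N) a)) = _ at h
      rwa [← MulAut.mul_apply, ← map_mul, inv_mul_cancel, map_one, MulAut.one_apply, hψ1] at h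
    refine hv (hnofix _ fun a ha => ?_)
    rw [proj_eigen ρK hNc χ ⟨a, ha⟩ v, hχ1, Units.val_one, one_smul]
  -- a fixed vector with given orbit
  have hvec : ∀ (χ : N →* Kˣ) (v : V), proj ρK χ v ≠ 0 → ∃ w ∈ F, w ≠ 0 ∧
      supp ρK w = MulAction.orbit (S₂ : Subgroup S) χ := by
    intro χ v hv
    set O := MulAction.orbit (S₂ : Subgroup S) χ
    set W := within ρK O
    have hWinv : ∀ s ∈ (S₂ : Subgroup S), ∀ w ∈ W, ρK s w ∈ W := by
      intro s hs w hw
      rw [mem_within] at hw ⊢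
      rw [supp_map]
      rintro _ ⟨ψ, hψ, rfl⟩
      exact MulAction.mem_orbit_of_mem_orbit (⟨s, hs⟩ : (S₂ : Subgroup S)) (hw hψ)
    have hvW : proj ρK χ v ∈ W := by
      rw [mem_within, supp_of_eigen ρK hNodd hv fun c => proj_eigen ρK hNc χ c v]
      exact Set.singleton_subset_iff.2 (MulAction.mem_orbit_self χ)
    letI : MulAction (S₂ : Subgroup S) W :=
      { smul := fun s w => ⟨ρK (s : S) w, hWinv s s.2 w w.2⟩
        one_smul := fun w => Subtype.ext (by show ρK (1 : S) w = w; rw [map_one]; rfl)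
        mul_smul := fun s t w => Subtype.ext (hmulK _ _ _) }
    have h2 : 2 ∣ Nat.card W := by
      have hnt : Nontrivial W := ⟨⟨⟨_, hvW⟩, 0, fun h => hv (congrArg Subtype.val h)⟩⟩
      rw [Module.natCard_eq_pow_finrank (K := K) (V := W),
        Module.natCard_eq_pow_finrank (K := ZMod 2) (V := K), Nat.card_zmod, ← pow_mul]
      exact dvd_pow_self 2 (Nat.mul_pos hm0 (Module.finrank_pos (R := K) (M := W))).ne'
    obtain ⟨⟨w, hwW⟩, hw, hw0⟩ := S₂.isPGroup'.exists_fixed_point_of_prime_dvd_card_of_fixed_point W h2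
      (a := 0) fun s => Subtype.ext (map_zero (ρK (s : S)))
    have hwF : ∀ s ∈ (S₂ : Subgroup S), ρK s w = w := fun s hs => congrArg Subtype.val (hw ⟨s, hs⟩)
    have hwne : w ≠ 0 := fun h => hw0 (Subtype.ext h.symm)
    refine ⟨w, hwF, hwne, Set.Subset.antisymm ((mem_within ρK).1 hwW) ?_⟩
    obtain ⟨ψ, hψ⟩ := supp_nonempty ρK hNc hNodd hwne
    obtain ⟨⟨t, ht⟩, htψ⟩ := (mem_within ρK).1 hwW hψ
    change t • χ = ψ at htψ
    rintro _ ⟨⟨s, hs⟩, rfl⟩
    show s • χ ∈ supp ρK w
    rw [← hwF (s * t⁻¹) (mul_mem hs (inv_mem ht)), supp_map]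
    refine ⟨ψ, hψ, ?_⟩
    rw [← hsmul, ← htψ, ← mul_smul, inv_mul_cancel_right]
  -- two orbits
  obtain ⟨v0, hv0⟩ : ∃ v : V, v ≠ 0 := by
    obtain ⟨e, he⟩ := exists_ne (0 : E)
    refine ⟨C.symm (Finsupp.equivFunOnFinite.symm fun _ => e), fun h => he ?_⟩
    have := congrArg (fun v => C v ⟨0, hm0⟩) h
    simpa using this
  obtain ⟨χ1, hχ1⟩ := supp_nonempty (N := N) ρK hNc hNodd hv0
  set O1 := MulAction.orbit (S₂ : Subgroup S) χ1 with hO1
  obtain ⟨χ2, v2', hv2', hχ2⟩ : ∃ (χ2 : N →* Kˣ) (v : V), proj ρK χ2 v ≠ 0 ∧ χ2 ∉ O1 := by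
    by_contra hno
    push Not at hno
    refine hmove χ1 v0 hχ1 (Set.eq_of_subset_of_ncard_le ?_ ?_)
    · rintro _ ⟨ψ, ⟨⟨s, hs⟩, rfl⟩, rfl⟩
      show x • (s • χ1) ∈ O1
      rw [← mul_smul]
      refine hno _ (ρK (x * s) v0) ?_
      rw [hsmul, ← map_proj]
      intro h0
      apply hχ1
      have h1 := congrArg (ρK (x * s)⁻¹) h0
      rwa [← hmulK, inv_mul_cancel, map_one, map_zero] at h1
    · rw [Set.ncard_image_of_injective _ (MulAction.injective x)]
  set O2 := MulAction.orbit (S₂ : Subgroup S) χ2 with hO2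
  have hdisj : ∀ ψ, ψ ∈ O1 → ψ ∈ O2 → False := by
    intro ψ h1 h2
    apply hχ2
    rw [hO1, ← MulAction.orbit_eq_iff.2 h1, MulAction.orbit_eq_iff.2 h2]
    exact MulAction.mem_orbit_self χ2
  obtain ⟨w1, hw1F, hw10, hs1⟩ := hvec χ1 v0 hχ1
  obtain ⟨w2, hw2F, hw20, hs2⟩ := hvec χ2 v2' hv2'
  have hindV : LinearIndependent K ![w1, w2] := by
    refine LinearIndependent.pair_iff.2 ?_
    intro a c h'
    have hc : c = 0 := by
      by_contra hc
      have h1 : proj ρK χ2 (a • w1 + c • w2) = 0 := by rw [h', map_zero]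
      rw [map_add, map_smul, map_smul] at h1
      have h2 : proj ρK χ2 w1 = 0 := by
        by_contra h3
        exact hχ2 (hs1.le h3)
      rw [h2, smul_zero, zero_add, smul_eq_zero] at h1
      exact (show χ2 ∈ supp ρK w2 from hs2.ge (MulAction.mem_orbit_self χ2)) (h1.resolve_left hc)
    refine ⟨?_, hc⟩
    rw [hc, zero_smul, add_zero, smul_eq_zero] at h'
    exact h'.resolve_right hw10
  have hind : LinearIndependent K ![(⟨w1, hw1F⟩ : F), ⟨w2, hw2F⟩] := by
    refine LinearIndependent.of_comp F.subtype ?_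
    rw [show F.subtype ∘ ![(⟨w1, hw1F⟩ : F), ⟨w2, hw2F⟩] = ![w1, w2] from funext fun i => by
      fin_cases i <;> rfl]
    exact hindV
  have hd2 : 2 ≤ Module.finrank K F := by simpa using hind.fintype_card_le_finrank
  by_cases hd3 : 3 ≤ Module.finrank K F
  · left
    rw [hd]
    calc 8 = 2 ^ 3 := by norm_num
      _ ≤ _ := Nat.pow_le_pow_right (by norm_num) hd3
  right
  have hdF : Module.finrank K F = 2 := by omega
  refine ⟨by rw [hd, hdF]; norm_num, ?_⟩
  by_contra hinv
  push Not at hinv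
  have hxF : ∀ w ∈ F, ρK x w ∈ F := by
    intro w hw s hs
    rw [hfixE]
    intro i
    rw [hC]
    exact hinv x hx _ (fun t ht => (hfixE w t).1 (hw t ht) i) s hs
  have hspan : Submodule.span K (Set.range ![w1, w2]) = F := by
    refine Submodule.eq_of_le_of_finrank_le (Submodule.span_le.2 ?_) ?_
    · rintro _ ⟨i, rfl⟩
      fin_cases i
      · exact hw1F
      · exact hw2F
    · rw [finrank_span_eq_card hindV, Fintype.card_fin, hdF]
  have hsupp : ∀ w ∈ F, w ≠ 0 → supp ρK w = O1 ∨ supp ρK w = O2 ∨ supp ρK w = O1 ∪ O2 := by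
    intro w hw hw0
    have hmem : w ∈ Submodule.span K (Set.range ![w1, w2]) := by
      rw [hspan]; exact hw
    rw [Matrix.range_cons, Matrix.range_cons, Matrix.range_empty, Set.union_empty, Set.singleton_union,
      Submodule.mem_span_pair] at hmem
    obtain ⟨a, c, hac⟩ := hmem
    have hw' : a • w1 + c • w2 = w := hac
    subst hw'
    by_cases ha : a = 0
    · by_cases hc : c = 0
      · simp [ha, hc] at hw0
      · right; left
        rw [ha, zero_smul, zero_add, supp_smul ρK hc, hs2]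
    by_cases hc : c = 0
    · left
      rw [hc, zero_smul, add_zero, supp_smul ρK ha, hs1]
    right; right
    ext ψ
    have e1 : ψ ∈ O1 ↔ proj ρK ψ w1 ≠ 0 := by rw [hO1, ← hs1]; rfl
    have e2 : ψ ∈ O2 ↔ proj ρK ψ w2 ≠ 0 := by rw [hO2, ← hs2]; rfl
    show proj ρK ψ (a • w1 + c • w2) ≠ 0 ↔ ψ ∈ O1 ∨ ψ ∈ O2
    rw [map_add, map_smul, map_smul]
    by_cases h1 : ψ ∈ O1
    · have h2 : proj ρK ψ w2 = 0 := not_not.1 fun h => hdisj ψ h1 (e2.2 h)
      simp [h1, h2, ha, e1.1 h1]
    · have h2 : proj ρK ψ w1 = 0 := not_not.1 fun h => h1 (e1.2 h)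
      simp [h1, h2, hc, e2]
  have hinjx : ∀ w, ρK x w = 0 → w = 0 := fun w h => by
    have h1 := congrArg (ρK x⁻¹) h
    rwa [← hmulK, inv_mul_cancel, map_one, map_zero] at h1
  let fx : Set (N →* Kˣ) → Set (N →* Kˣ) := fun O => (fun ψ => x • ψ) '' O
  have hcase : ∀ (O : Set (N →* Kˣ)) (w : V), w ∈ F → w ≠ 0 → supp ρK w = O →
      fx O = O1 ∨ fx O = O2 ∨ fx O = O1 ∪ O2 := by
    intro O w hw hw0 hsw
    have h := hsupp _ (hxF w hw) fun h => hw0 (hinjx w h)
    rwa [supp_map, hsw] at h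
  have hcard : ∀ O : Set (N →* Kˣ), (fx O).ncard = O.ncard := fun O =>
    Set.ncard_image_of_injective _ (MulAction.injective x)
  have hne1 : fx O1 ≠ O1 := hmove χ1 v0 hχ1
  have hne2 : fx O2 ≠ O2 := hmove χ2 v2' hv2'
  have hu : (O1 ∪ O2).ncard = O1.ncard + O2.ncard :=
    Set.ncard_union_eq (Set.disjoint_left.2 fun ψ h1 h2 => hdisj ψ h1 h2)
  have hp1 : 0 < O1.ncard := (Set.ncard_pos).2 ⟨χ1, MulAction.mem_orbit_self χ1⟩
  have hp2' : 0 < O2.ncard := (Set.ncard_pos).2 ⟨χ2, MulAction.mem_orbit_self χ2⟩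
  have h12 : fx O1 = O2 := by
    rcases hcase O1 w1 hw1F hw10 hs1 with h | h | h
    · exact absurd h hne1
    · exact h
    · have := hcard O1; rw [h, hu] at this; omega
  have h21 : fx O2 = O1 := by
    rcases hcase O2 w2 hw2F hw20 hs2 with h | h | h
    · exact h
    · exact absurd h hne2
    · have := hcard O2; rw [h, hu] at this; omega
  have key : ∀ j : ℕ, (fun ψ => x ^ (2 * j + 1) • ψ) '' O1 = O2 := by
    intro j
    induction j with
    | zero => simpa using h12
    | succ j ih =>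
      have h3 : fx (fx ((fun ψ => x ^ (2 * j + 1) • ψ) '' O1)) = O2 := by rw [ih, h21, h12]
      rw [← h3]
      simp only [fx, Set.image_image]
      congr 1
      funext ψ
      rw [← mul_smul, ← mul_smul, mul_assoc, ← pow_succ', ← pow_succ']
      ring_nf
  obtain ⟨j, hj⟩ := hq.odd_of_ne_two hq2
  have h4 := key j
  rw [← hj, hxq] at h4
  simp only [one_smul, Set.image_id'] at h4
  exact hdisj χ1 (MulAction.mem_orbit_self χ1) (h4 ▸ MulAction.mem_orbit_self χ1)

end Cfsg.Agent.S4414
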