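import Cfsg.Statements.S4415
import Cfsg.Agent.Lib.Minimal.ThreeBlockExtraspecial
import Cfsg.Agent.Lib.PSolvable.HallHigman
import Cfsg.Agent.Lib.PGroups.Extraspecial

set_option autoImplicit false
set_option linter.style.haveILetI false
set_option maxHeartbeats 2000000
open Cfsg
open scoped commutatorElement

namespace Cfsg.Agent.S4415

/-- Let S be a finite solvable group acting faithfully on a finite-dimensional space E over the field with three elements, with O₃(S) = 1. Let B ≤ S have order 3 and suppose: E = E₀ ⊕ E₁ with B fixing E₁ pointwise, E₀ B-invariant of order 27 and indecomposable under B (a generator of B has a single Jordan block on E₀); B normalizes but does not centralize some subgroup Q of S that is elementary abelian of order 4; and B is the centre of a Sylow 3-subgroup of S. Put R = [O_{3'}(S), B]. Then R is elementary abelian of order 4 or extraspecial of order 32 containing an elementary abelian subgroup of order 8 (a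 central product of two quaternion groups), and E is the direct sum of a subspace fixed pointwise by R and an RB-invariant subspace on which the subgroup RB acts faithfully and irreducibly. -/
theorem result {S : Type*} [Group S] [Finite S]
    [Group.IsSolvable S] {E : Type*} [AddCommGroup E] [Module (ZMod 3) E] [Finite E] (ρ : Representation (ZMod 3) S E)
    (hfaith : Function.Injective ρ) (hO3 : Cfsg.pCore 3 S = ⊥)
    (B : Subgroup S) (hB : Nat.card ↥B = 3) (b : S) (hb : Subgroup.zpowers b = B)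
    (E₀ E₁ : Submodule (ZMod 3) E) (hE01 : E₀ ⊓ E₁ = ⊥) (hE01' : E₀ ⊔ E₁ = ⊤)
    (hE1 : ∀ v ∈ E₁, ρ b v = v) (hE0inv : ∀ v ∈ E₀, ρ b v ∈ E₀) (hE0 : Nat.card ↥E₀ = 27)
    (hind : ∃ v ∈ E₀, ρ b (ρ b v - v) - (ρ b v - v) ≠ 0)
    (Q : Subgroup S) (hQ : Cfsg.IsElementaryAbelian 2 Q) (hQ4 : Nat.card ↥Q = 4)
    (hBQ : B ≤ Subgroup.normalizer (Q : Set S)) (hBQ' : ¬ B ≤ Subgroup.centralizer (Q : Set S))
    (P : Sylow 3 S) (hBZ : (Subgroup.center ↥(P : Subgroup S)).map (P : Subgroup S).subtype = B) :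
    ((Cfsg.IsElementaryAbelian 2 ⁅Cfsg.pPrimeCore 3 S, B⁆ ∧ Nat.card ↥⁅Cfsg.pPrimeCore 3 S, B⁆ = 4) ∨
      (Cfsg.IsExtraspecial 2 ↥⁅Cfsg.pPrimeCore 3 S, B⁆ ∧ Nat.card ↥⁅Cfsg.pPrimeCore 3 S, B⁆ = 32 ∧
        ∃ A : Subgroup S, A ≤ ⁅Cfsg.pPrimeCore 3 S, B⁆ ∧ Cfsg.IsElementaryAbelian 2 A ∧ Nat.card ↥A = 8)) ∧
    ∃ F₀ F₁ : Submodule (ZMod 3) E, F₀ ⊓ F₁ = ⊥ ∧ F₀ ⊔ F₁ = ⊤ ∧
      (∀ r ∈ ⁅Cfsg.pPrimeCore 3 S, B⁆, ∀ v ∈ F₁, ρ r v = v) ∧ (∀ r ∈ ⁅Cfsg.pPrimeCore 3 S, B⁆ ⊔ B, ∀ v ∈ F₀, ρ r v ∈ F₀) ∧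
      (∀ r ∈ ⁅Cfsg.pPrimeCore 3 S, B⁆ ⊔ B, (∀ v ∈ F₀, ρ r v = v) → r = 1) ∧
      (∀ N : Submodule (ZMod 3) E, N ≤ F₀ → (∀ r ∈ ⁅Cfsg.pPrimeCore 3 S, B⁆ ⊔ B, ∀ v ∈ N, ρ r v ∈ N) → N = ⊥ ∨ N = F₀) := by
  classical
  haveI : Fact (Nat.Prime 3) := ⟨Nat.prime_three⟩
  set K := Cfsg.pPrimeCore 3 S with hK
  have hbB : b ∈ B := hb ▸ Subgroup.mem_zpowers b
  have hbord : orderOf b = 3 := by rw [← Nat.card_zpowers, hb, hB]
  have hb3 : b ^ 3 = 1 := hbord ▸ pow_orderOf_eq_one b
  have hbbb : b * (b * b) = 1 := by rw [← hb3, pow_succ, pow_two, mul_assoc]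
  have hq2 : ∀ x ∈ Q, x * x = 1 := fun x hx => by rw [← pow_two]; exact hQ.2 x hx
  have hqc : ∀ x ∈ Q, ∀ y ∈ Q, x * y = y * x := fun x hx y hy => by
    haveI := hQ.1
    exact setLike_mul_comm hx hy
  have hbQn : ∀ x ∈ Q, b * x * b⁻¹ ∈ Q := fun x hx => (Subgroup.mem_normalizer_iff.1 (hBQ hbB) x).1 hx
  -- a point of `Q` fixed by `b` is trivial
  have hQb : ∀ x ∈ Q, Commute x b → x = 1 := by
    intro x hx hxb
    by_contra hx1
    refine hBQ' (hb ▸ Subgroup.zpowers_le.2 (Subgroup.mem_centralizer_iff.2 fun y hy => ?_))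
    by_cases hy1 : y = 1
    · rw [hy1, one_mul, mul_one]
    by_cases hyx : y = x
    · rw [hyx]; exact hxb.eq
    by_contra hyb
    set z := b * y * b⁻¹ with hz
    have hzQ : z ∈ Q := hbQn y hy
    have hzy : z ≠ y := fun h => hyb (by
      rw [hz, mul_inv_eq_iff_eq_mul] at h; exact h.symm)
    have hfour : ∀ w ∈ Q, w = 1 ∨ w = x ∨ w = y ∨ w = x * y := by
      intro w hw
      by_contra hc
      push Not at hc
      have hxy1 : x * y ≠ 1 := fun h => hyx (by
        rw [mul_eq_one_iff_eq_inv, inv_eq_of_mul_eq_one_right (hq2 y hy)] at h; exact h.symm)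
      haveI : Finite Q := inferInstance
      have hsub : ({1, x, y, x * y, w} : Finset S) ⊆ (Set.toFinite (Q : Set S)).toFinset := by
        intro a ha
        simp only [Finset.mem_insert, Finset.mem_singleton] at ha
        rw [Set.Finite.mem_toFinset]
        rcases ha with rfl | rfl | rfl | rfl | rfl
        · exact Q.one_mem
        · exact hx
        · exact hy
        · exact Q.mul_mem hx hy
        · exact hw
      have h5 := Finset.card_le_card hsub
      rw [← Set.ncard_eq_toFinset_card, ← Nat.card_coe_set_eq] at h5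
      change _ ≤ Nat.card Q at h5
      rw [hQ4] at h5
      simp [Ne.symm hx1, Ne.symm hy1, Ne.symm hyx, Ne.symm hxy1, Ne.symm hc.1, Ne.symm hc.2.1,
        Ne.symm hc.2.2.1, Ne.symm hc.2.2.2, hx1, hy1] at h5
    rcases hfour z hzQ with h | h | h | h
    · rw [hz, mul_inv_eq_one] at h; exact hy1 (mul_eq_left.1 h)
    · refine hyx ?_
      have h2 : b * y * b⁻¹ = b * x * b⁻¹ := by
        rw [← hz, h, ← hxb.eq, mul_inv_cancel_right]
      exact mul_left_cancel (mul_right_cancel h2)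
    · exact hzy h
    · have e2 : b * z * b⁻¹ = y := by
        rw [h, show b * (x * y) * b⁻¹ = (b * x * b⁻¹) * (b * y * b⁻¹) by group, ← hz, h, ← hxb.eq,
          mul_inv_cancel_right, ← mul_assoc, hq2 x hx, one_mul]
      have e3 : b * y * b⁻¹ = y := by
        have h3 : b * (b * (b * y * b⁻¹) * b⁻¹) * b⁻¹ = y := by
          calc _ = (b * (b * b)) * y * (b * (b * b))⁻¹ := by group
            _ = y := by rw [hbbb, one_mul, inv_one, mul_one]
        rwa [← hz, e2] at h3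
      exact hzy e3
  -- `Q` lies in `K`
  set q := QuotientGroup.mk' K with hq
  set M := Cfsg.pCore 3 (S ⧸ K) with hM
  have hbM : q b ∈ M := by
    refine CfsgLib.PSolvable.centralizer_pCore_le CfsgLib.PSolvable.isPSolvable_of_isSolvable
      (CfsgLib.Cores.pPrimeCore_quotient_pPrimeCore 3) ?_
    refine Subgroup.mem_centralizer_iff.2 fun m hm => ?_
    let Pb : Sylow 3 (S ⧸ K) := P.mapSurjective (QuotientGroup.mk'_surjective K)
    have hmP : m ∈ (P : Subgroup S).map q :=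
      IsPGroup.le_sylow_of_normal (CfsgLib.Cores.isPGroup_pCore 3 (S ⧸ K)) Pb hm
    obtain ⟨p, hp, rfl⟩ := hmP
    obtain ⟨⟨b', hb'⟩, hbc, hbe⟩ := hBZ.symm ▸ hbB
    rw [← map_mul, ← map_mul]
    refine congrArg q ?_
    have h1 := congrArg Subtype.val (Subgroup.mem_center_iff.1 hbc ⟨p, hp⟩)
    simp only [Subgroup.coe_mul] at h1
    change b' = b at hbe
    exact hbe ▸ h1
  let δ : Q → Q := fun x => ⟨(x : S)⁻¹ * (b * x * b⁻¹), Q.mul_mem (Q.inv_mem x.2) (hbQn x x.2)⟩
  have hδinj : Function.Injective δ := by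
    intro x y h
    have h1 : (x : S)⁻¹ * (b * x * b⁻¹) = (y : S)⁻¹ * (b * y * b⁻¹) := congrArg Subtype.val h
    refine Subtype.ext (eq_of_inv_mul_eq_one (hQb _ (Q.mul_mem (Q.inv_mem x.2) y.2) ?_))
    have h2 : b * ((x : S)⁻¹ * y) * b⁻¹ = (x : S)⁻¹ * y := by
      calc b * ((x : S)⁻¹ * y) * b⁻¹ = (b * x * b⁻¹)⁻¹ * (b * y * b⁻¹) := by group
        _ = ((x : S) * ((x : S)⁻¹ * (b * x * b⁻¹)))⁻¹ * ((y : S) * ((y : S)⁻¹ * (b * y * b⁻¹))) := by group
        _ = _ := by
          rw [h1]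
          have hd : (y : S)⁻¹ * (b * y * b⁻¹) ∈ Q := Q.mul_mem (Q.inv_mem y.2) (hbQn y y.2)
          rw [mul_inv_rev, hqc _ (Q.inv_mem hd) _ (Q.inv_mem x.2), mul_assoc,
            hqc (y : S) y.2 _ hd, ← mul_assoc _⁻¹ _ (y : S), inv_mul_cancel, one_mul]
    exact (mul_inv_eq_iff_eq_mul.1 h2).symm
  have hδ : ∀ y ∈ Q, ∃ x ∈ Q, y = ⁅x⁻¹, b⁆ := fun y hy => by
    obtain ⟨x, hx⟩ := (Finite.injective_iff_surjective.1 hδinj) ⟨y, hy⟩
    refine ⟨x, x.2, ?_⟩
    have h := congrArg Subtype.val hx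
    simp only [δ] at h
    rw [← h, commutatorElement_def]
    group
  have hQK : Q ≤ K := by
    intro y hy
    obtain ⟨x, -, hxe⟩ := hδ y hy
    have hyM : q y ∈ M := by
      rw [hxe, map_commutatorElement, commutatorElement_def]
      exact M.mul_mem ((inferInstance : M.Normal).conj_mem _ hbM _) (M.inv_mem hbM)
    obtain ⟨k, hk⟩ := CfsgLib.Cores.isPGroup_pCore 3 (S ⧸ K) ⟨q y, hyM⟩
    have h1 : q y ^ 3 ^ k = 1 := by simpa using congrArg Subtype.val hk
    have h2 : q y ^ 2 = 1 := by rw [← map_pow, pow_two, hq2 y hy, map_one]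
    exact (QuotientGroup.eq_one_iff y).1 (orderOf_eq_one_iff.1 (Nat.eq_one_of_dvd_coprimes
      (((Nat.coprime_primes Nat.prime_three Nat.prime_two).2 (by norm_num)).pow_left k)
      (orderOf_dvd_of_pow_eq_one h1) (orderOf_dvd_of_pow_eq_one h2)))
  -- `R = [K,B]`
  set R := ⁅K, B⁆ with hR
  have hQR : Q ≤ R := fun y hy => by
    obtain ⟨x, hx, hxe⟩ := hδ y hy
    rw [hxe]
    exact Subgroup.commutator_mem_commutator (K.inv_mem (hQK hx)) hbB
  have hBK : B ≤ Subgroup.normalizer (K : Set S) := (Subgroup.normalizer_eq_top (H := K)).symm ▸ le_top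
  have hRK : R ≤ K := CfsgLib.CoprimeAction.commutator_le_left hBK
  have hKcop : (Nat.card K).Coprime 3 := CfsgLib.Cores.card_pPrimeCore_coprime 3
  have hRcop : (Nat.card R).Coprime 3 := hKcop.coprime_dvd_left (Subgroup.card_dvd_of_le hRK)
  have hRR : ⁅R, B⁆ = R := CfsgLib.CoprimeAction.commutator_commutator_eq hBK
    (by rw [hB]; exact hKcop.symm) (Or.inr inferInstance)
  have hRBn : R ⊔ B ≤ Subgroup.normalizer (R : Set S) :=
    (sup_le (hRK.trans le_sup_left) le_sup_right).trans (CfsgLib.CoprimeAction.sup_le_normalizer_commutator B K)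
  -- rank of `b - 1`
  set N : E →ₗ[ZMod 3] E := ρ b - 1 with hN
  have hNapp : ∀ v, N v = ρ b v - v := fun v => rfl
  have hN3 : ∀ v, N (N (N v)) = 0 := by
    intro v
    have h3 : ρ b (ρ b (ρ b v)) = v := by
      rw [← CfsgLib.Minimal.ThreeBlock.rho_mul, ← CfsgLib.Minimal.ThreeBlock.rho_mul, mul_assoc, hbbb, map_one]; rfl
    have hz : ∀ w : E, w + w + w = 0 := fun w => by
      have h := (CfsgLib.Minimal.ThreeBlock.four_smul_self w)
      rwa [add_eq_right] at h
    simp only [hNapp, map_sub, h3]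
    calc _ = (ρ b v + ρ b v + ρ b v) - (ρ b (ρ b v) + ρ b (ρ b v) + ρ b (ρ b v)) := by abel
      _ = 0 := by rw [hz, hz, sub_zero]
  have hE0fin : Module.finrank (ZMod 3) E₀ = 3 := by
    have h := Module.natCard_eq_pow_finrank (K := ZMod 3) (V := E₀)
    rw [hE0, Nat.card_zmod] at h
    exact (Nat.pow_right_injective (le_refl 2 |>.trans (by norm_num)) (h.symm.trans (by norm_num : (27 : ℕ) = 3 ^ 3)))
  have hrank : Module.finrank (ZMod 3) (LinearMap.range N) ≤ 2 := by
    have hle : LinearMap.range N ≤ E₀.map N := by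
      rintro _ ⟨v, rfl⟩
      obtain ⟨v0, hv0, v1, hv1, rfl⟩ := Submodule.mem_sup.1 (hE01' ▸ Submodule.mem_top : v ∈ E₀ ⊔ E₁)
      refine ⟨v0, hv0, ?_⟩
      rw [map_add, show N v1 = 0 by rw [hNapp, hE1 v1 hv1, sub_self], add_zero]
    have hlt : E₀.map N < E₀ := by
      refine lt_of_le_of_ne ?_ fun heq => ?_
      · rintro _ ⟨v, hv, rfl⟩
        rw [hNapp]; exact E₀.sub_mem (hE0inv v hv) hv
      · obtain ⟨v, hv, hv2⟩ := hind
        rw [← heq] at hv
        obtain ⟨w, hw, rfl⟩ := hv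
        exact hv2 (hN3 w)
    have := Submodule.finrank_lt_finrank_of_lt hlt
    have := Submodule.finrank_mono hle
    omega
  -- the frame of `Q`
  haveI : Nontrivial Q := Finite.one_lt_card_iff_nontrivial.1 (by omega)
  obtain ⟨⟨u, huQ⟩, hu1'⟩ := exists_ne (1 : Q)
  have hu1 : u ≠ 1 := fun h => hu1' (Subtype.ext h)
  set v := b * u * b⁻¹ with hv
  have hvQ : v ∈ Q := hbQn u huQ
  have huv : u * v = b * v * b⁻¹ := by
    have hf : b * (u * v * (b * v * b⁻¹)) * b⁻¹ = u * v * (b * v * b⁻¹) := by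
      calc b * (u * v * (b * v * b⁻¹)) * b⁻¹ = v * (b * v * b⁻¹) * ((b * (b * b)) * u * (b * (b * b))⁻¹) := by
            rw [hv]; group
        _ = v * (b * v * b⁻¹) * u := by rw [hbbb, one_mul, inv_one, mul_one]
        _ = u * v * (b * v * b⁻¹) := by
            rw [hqc _ (Q.mul_mem hvQ (hbQn v hvQ)) _ huQ]; group
    have h1 := hQb _ (Q.mul_mem (Q.mul_mem huQ hvQ) (hbQn v hvQ)) (mul_inv_eq_iff_eq_mul.1 hf).symm
    rw [mul_eq_one_iff_eq_inv] at h1
    rw [h1, inv_eq_of_mul_eq_one_right (hq2 _ (hbQn v hvQ))]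
  have hvu : v * u = b * v * b⁻¹ := (hqc v hvQ u huQ).trans huv
  obtain ⟨e, F⟩ := CfsgLib.Minimal.ThreeBlock.exists_frame ρ hb3 (hq2 u huQ) huv hvu
    (fun h => hu1 (hfaith (h.trans (map_one ρ).symm))) hrank
  obtain ⟨r1, r2, r3, r4⟩ := F.rels hb3
  -- averaging over `R`
  haveI : Fintype R := Fintype.ofFinite R
  have hc0 : (Nat.card R : ZMod 3) ≠ 0 := fun h => by
    rw [ZMod.natCast_eq_zero_iff] at h
    exact absurd (Nat.eq_one_of_dvd_coprimes hRcop h dvd_rfl) (by norm_num)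
  let π : E →ₗ[ZMod 3] E := ((Nat.card R : ZMod 3))⁻¹ • ∑ r : R, ρ (r : S)
  have hπapp : ∀ x, π x = ((Nat.card R : ZMod 3))⁻¹ • ∑ r : R, ρ (r : S) x := fun x => by
    simp [π, LinearMap.sum_apply]
  have hπl : ∀ r ∈ R, ∀ x, ρ r (π x) = π x := fun r hr x => by
    rw [hπapp, map_smul, map_sum]
    congr 1
    refine Fintype.sum_equiv (Equiv.mulLeft (⟨r, hr⟩ : R)) _ _ fun s => ?_
    rw [← CfsgLib.Minimal.ThreeBlock.rho_mul]; rfl
  have hπr : ∀ r ∈ R, ∀ x, π (ρ r x) = π x := fun r hr x => by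
    rw [hπapp, hπapp]
    congr 1
    refine Fintype.sum_equiv (Equiv.mulRight (⟨r, hr⟩ : R)) _ _ fun s => ?_
    rw [← CfsgLib.Minimal.ThreeBlock.rho_mul]; rfl
  have hπfix : ∀ x, (∀ r ∈ R, ρ r x = x) → π x = x := fun x hx => by
    rw [hπapp, show (∑ r : R, ρ (r : S) x) = ∑ _r : R, x from Finset.sum_congr rfl fun r _ => hx _ r.2,
      Finset.sum_const, Finset.card_univ,
      ← Nat.card_eq_fintype_card, ← Nat.cast_smul_eq_nsmul (ZMod 3), smul_smul, inv_mul_cancel₀ hc0, one_smul]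
  have hπg : ∀ g ∈ R ⊔ B, ∀ x, π (ρ g x) = ρ g (π x) := fun g hg x => by
    rw [hπapp, hπapp, map_smul, map_sum]
    congr 1
    have hn := hRBn hg
    let cj : R ≃ R :=
      { toFun := fun r => ⟨g⁻¹ * r * g, by
          have := (Subgroup.mem_normalizer_iff.1 ((Subgroup.normalizer _).inv_mem hn) r).1 r.2
          simpa using this⟩
        invFun := fun r => ⟨g * r * g⁻¹, (Subgroup.mem_normalizer_iff.1 hn r).1 r.2⟩
        left_inv := fun r => Subtype.ext (by simp [mul_assoc])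
        right_inv := fun r => Subtype.ext (by simp [mul_assoc]) }
    refine Fintype.sum_equiv cj _ _ fun s => ?_
    rw [← CfsgLib.Minimal.ThreeBlock.rho_mul, ← CfsgLib.Minimal.ThreeBlock.rho_mul]
    simp [cj, mul_assoc]
  let F₁ : Submodule (ZMod 3) E :=
    { carrier := {x | ∀ r ∈ R, ρ r x = x}
      zero_mem' := fun r _ => map_zero _
      add_mem' := fun {x y} hx hy r hr => by rw [map_add, hx r hr, hy r hr]
      smul_mem' := fun c x hx r hr => by rw [map_smul, hx r hr] }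
  set F₀ := LinearMap.ker π with hF0
  have hinf : F₀ ⊓ F₁ = ⊥ := eq_bot_iff.2 fun x hx => by
    rw [Submodule.mem_bot, ← hπfix x hx.2]
    exact hx.1
  have hsup : F₀ ⊔ F₁ = ⊤ := eq_top_iff.2 fun x _ => by
    rw [show x = (x - π x) + π x from (sub_add_cancel x _).symm]
    refine Submodule.add_mem_sup ?_ fun r hr => hπl r hr x
    rw [hF0, LinearMap.mem_ker, map_sub, hπfix _ fun r hr => hπl r hr x, sub_self]
  have hbF1 : ∀ x ∈ F₁, ρ b x = x := fun x hx => F.fixed hb3 (hx u (hQR huQ)) (hx v (hQR hvQ))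
  have hF0inv : ∀ g ∈ R ⊔ B, ∀ x ∈ F₀, ρ g x ∈ F₀ := fun g hg x hx => by
    rw [hF0, LinearMap.mem_ker] at hx ⊢
    rw [hπg g hg, hx, map_zero]
  have heF : e ∈ F₀ := by
    rw [hF0, LinearMap.mem_ker]
    refine CfsgLib.Minimal.ThreeBlock.eq_zero_of_neg_eq ?_
    conv_rhs => rw [← hπr v (hQR hvQ) e, F.v_e, map_neg]
  have hfixall : ∀ g ∈ R ⊔ B, ∀ x ∈ F₁, ρ g x = x := by
    let Kf : Subgroup S :=
      { carrier := {g | ∀ y ∈ F₁, ρ g y = y}
        one_mem' := fun y _ => by rw [map_one]; rfl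
        mul_mem' := fun {g h} hg hh y hy => by rw [CfsgLib.Minimal.ThreeBlock.rho_mul, hh y hy, hg y hy]
        inv_mem' := fun {g} hg y hy => by
          conv_lhs => rw [← hg y hy]
          rw [← CfsgLib.Minimal.ThreeBlock.rho_mul, inv_mul_cancel, map_one]; rfl }
    have hle : R ⊔ B ≤ Kf := sup_le (fun r hr y hy => hy r hr) (hb ▸ Subgroup.zpowers_le.2 hbF1)
    exact fun g hg => hle hg
  have hfaith0 : ∀ r ∈ R ⊔ B, (∀ x ∈ F₀, ρ r x = x) → r = 1 := by
    intro r hr hx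
    refine hfaith (LinearMap.ext fun y => ?_)
    obtain ⟨a, ha, c, hc, rfl⟩ := Submodule.mem_sup.1 (hsup ▸ Submodule.mem_top : y ∈ F₀ ⊔ F₁)
    rw [map_one, map_add, hx a ha, hfixall r hr c hc]; rfl
  -- irreducibility
  have hirr : ∀ L : Submodule (ZMod 3) E, L ≤ F₀ → (∀ r ∈ R ⊔ B, ∀ x ∈ L, ρ r x ∈ L) → L = ⊥ ∨ L = F₀ := by
    intro L hL hLinv
    have hmR : ∀ r ∈ R, r ∈ R ⊔ B := fun r hr => Subgroup.mem_sup_left hr
    have hmb : b ∈ R ⊔ B := Subgroup.mem_sup_right hbB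
    by_cases hfix : ∀ x ∈ L, ρ u x = x ∧ ρ v x = x
    · left
      refine eq_bot_iff.2 fun x hx => hinf.le ⟨hL hx, fun r hr => ?_⟩
      have hb1 : ∀ i : ℤ, ∀ y ∈ L, ρ (b ^ i) y = y := by
        intro i y hy
        obtain ⟨n, hn⟩ := mem_powers_iff_mem_zpowers.2 (⟨i, rfl⟩ : b ^ i ∈ Subgroup.zpowers b)
        simp only at hn
        rw [← hn]
        clear hn
        induction n with
        | zero => rw [pow_zero, map_one]; rfl
        | succ n ih =>
          rw [pow_succ, CfsgLib.Minimal.ThreeBlock.rho_mul, F.fixed hb3 (hfix y hy).1 (hfix y hy).2, ih]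
      let Kf : Subgroup S :=
        { carrier := {g | ∀ y ∈ L, ρ g y = y}
          one_mem' := fun y _ => by rw [map_one]; rfl
          mul_mem' := fun {g h} hg hh y hy => by rw [CfsgLib.Minimal.ThreeBlock.rho_mul, hh y hy, hg y hy]
          inv_mem' := fun {g} hg y hy => by
            conv_lhs => rw [← hg y hy]
            rw [← CfsgLib.Minimal.ThreeBlock.rho_mul, inv_mul_cancel, map_one]; rfl }
      have hle : ⁅R, B⁆ ≤ Kf := by
        rw [Subgroup.commutator_le]
        intro r hr c hc y hy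
        obtain ⟨i, rfl⟩ := Subgroup.mem_zpowers_iff.1 (hb ▸ hc)
        rw [commutatorElement_def, ← zpow_neg, CfsgLib.Minimal.ThreeBlock.rho_mul,
          CfsgLib.Minimal.ThreeBlock.rho_mul, hb1 _ y hy, CfsgLib.Minimal.ThreeBlock.rho_mul,
          hb1 _ _ (hLinv _ (hmR _ (R.inv_mem hr)) y hy), ← CfsgLib.Minimal.ThreeBlock.rho_mul,
          mul_inv_cancel, map_one]
        rfl
      exact (hRR.ge.trans hle) hr x hx
    right
    -- some frame vector lies in `L`
    have hsmul : ∀ (a : ZMod 3) (y : E), a • y ∈ L → y ≠ 0 → a • y ≠ 0 → y ∈ L := fun a y h _ h0 => by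
      rcases CfsgLib.Minimal.ThreeBlock.scalar_cases a with rfl | rfl | rfl
      · exact absurd (zero_smul _ y) h0
      · rwa [one_smul] at h
      · rw [neg_one_smul] at h; simpa using L.neg_mem h
    have hcyc : e ∈ L ∨ ρ b e ∈ L ∨ ρ b (ρ b e) ∈ L → e ∈ L := by
      have hbb : ρ b (ρ b (ρ b e)) = e := by
        rw [← CfsgLib.Minimal.ThreeBlock.rho_mul, ← CfsgLib.Minimal.ThreeBlock.rho_mul, mul_assoc, hbbb, map_one]; rfl
      rintro (h | h | h)
      · exact h
      · rw [← hbb]; exact hLinv b hmb _ (hLinv b hmb _ h)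
      · rw [← hbb]; exact hLinv b hmb _ h
    have heL : e ∈ L := by
      push Not at hfix
      obtain ⟨x, hxL, hx⟩ := hfix
      have huL : ∀ y ∈ L, ρ u y ∈ L := hLinv u (hmR _ (hQR huQ))
      have hvL : ∀ y ∈ L, ρ v y ∈ L := hLinv v (hmR _ (hQR hvQ))
      have huu : ∀ y, ρ u (ρ u y) = y := fun y => by
        rw [← CfsgLib.Minimal.ThreeBlock.rho_mul, hq2 u huQ, map_one]; rfl
      have hvv : ∀ y, ρ v (ρ v y) = y := fun y => by
        rw [← CfsgLib.Minimal.ThreeBlock.rho_mul, hq2 v hvQ, map_one]; rfl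
      by_cases hux : ρ u x = x
      · have hy : ρ u (x - ρ v x) = x - ρ v x := by
          rw [map_sub, hux, ← CfsgLib.Minimal.ThreeBlock.rho_mul, hqc u huQ v hvQ,
            CfsgLib.Minimal.ThreeBlock.rho_mul, hux]
        obtain ⟨a, ha⟩ := F.eigen hb3 hy (by rw [map_sub, hvv, neg_sub])
        exact hsmul a e (ha ▸ L.sub_mem hxL (hvL x hxL)) F.ne_zero
          (fun h => hx hux (sub_eq_zero.1 (ha.trans h)).symm)
      · have hy : x - ρ u x ∈ LinearMap.ker (ρ u + 1) := by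
          rw [LinearMap.mem_ker, LinearMap.add_apply, Module.End.one_apply, map_sub, huu]; abel
        rw [F.minus_u hb3, Submodule.mem_span_pair] at hy
        obtain ⟨a, c, hac⟩ := hy
        have hyL : x - ρ u x ∈ L := L.sub_mem hxL (huL x hxL)
        have hvy : ρ v (x - ρ u x) = a • ρ b e - c • ρ b (ρ b e) := by
          rw [← hac, map_add, map_smul, map_smul, r2, r4, smul_neg, sub_eq_add_neg]
        by_cases ha : a = 0
        · subst ha
          rw [zero_smul, zero_add] at hac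
          refine hcyc (Or.inr (Or.inr (hsmul c _ (hac ▸ hyL) ?_ ?_)))
          · exact fun h => hux (sub_eq_zero.1 (by rw [← hac, h, smul_zero])).symm
          · exact fun h => hux (sub_eq_zero.1 (hac.symm.trans h)).symm
        · have h1 : (x - ρ u x) + ρ v (x - ρ u x) = (a + a) • ρ b e := by
            rw [hvy, ← hac, add_smul]; abel
          have haa : a + a ≠ 0 := fun h =>
            ha (CfsgLib.Minimal.ThreeBlock.eq_zero_of_neg_eq (neg_eq_of_add_eq_zero_right h))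
          have hbe : ρ b e ≠ 0 := fun h => F.ne_zero (by
            simpa [← CfsgLib.Minimal.ThreeBlock.rho_mul] using congrArg (ρ b⁻¹) h)
          exact hcyc (Or.inr (Or.inl (hsmul _ _ (h1 ▸ L.add_mem hyL (hvL _ hyL)) hbe
            (smul_ne_zero haa hbe))))
    have hNL : ∀ x, ρ b x - x ∈ L := by
      intro x
      obtain ⟨c, a₁, a₂, a₃, -, -, hcb, rfl⟩ := F.decomp x
      have h1 := hLinv b hmb _ heL
      have h2 := hLinv b hmb _ h1
      have h3 := hLinv b hmb _ h2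
      simp only [map_add, map_smul, hcb]
      rw [show c + a₁ • ρ b e + a₂ • ρ b (ρ b e) + a₃ • ρ b (ρ b (ρ b e)) -
        (c + a₁ • e + a₂ • ρ b e + a₃ • ρ b (ρ b e)) = a₁ • ρ b e + a₂ • ρ b (ρ b e) +
        a₃ • ρ b (ρ b (ρ b e)) - (a₁ • e + a₂ • ρ b e + a₃ • ρ b (ρ b e)) by abel]
      exact L.sub_mem (L.add_mem (L.add_mem (L.smul_mem _ h1) (L.smul_mem _ h2)) (L.smul_mem _ h3))
        (L.add_mem (L.add_mem (L.smul_mem _ heL) (L.smul_mem _ h1)) (L.smul_mem _ h2))
    have hbmod : ∀ (n : ℕ) x, ρ (b ^ n) x - x ∈ L := by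
      intro n
      induction n with
      | zero => intro x; rw [pow_zero, map_one]; simp
      | succ n ih =>
        intro x
        rw [pow_succ, CfsgLib.Minimal.ThreeBlock.rho_mul, show ρ (b ^ n) (ρ b x) - x =
          (ρ (b ^ n) (ρ b x) - ρ b x) + (ρ b x - x) by abel]
        exact L.add_mem (ih _) (hNL x)
    let G' : Subgroup S :=
      { carrier := {g | (∀ y ∈ L, ρ g y ∈ L) ∧ (∀ y ∈ L, ρ g⁻¹ y ∈ L) ∧ ∀ x, ρ g x - x ∈ L}
        one_mem' := ⟨fun y hy => by rwa [map_one], fun y hy => by rwa [inv_one, map_one],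
          fun x => by rw [map_one]; simp⟩
        mul_mem' := fun {g h} hg hh => ⟨fun y hy => by
            rw [CfsgLib.Minimal.ThreeBlock.rho_mul]; exact hg.1 _ (hh.1 y hy), fun y hy => by
            rw [mul_inv_rev, CfsgLib.Minimal.ThreeBlock.rho_mul]; exact hh.2.1 _ (hg.2.1 y hy), fun x => by
            rw [CfsgLib.Minimal.ThreeBlock.rho_mul, show ρ g (ρ h x) - x =
              (ρ g (ρ h x) - ρ h x) + (ρ h x - x) by abel]
            exact L.add_mem (hg.2.2 _) (hh.2.2 x)⟩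
        inv_mem' := fun {g} hg => ⟨hg.2.1, fun y hy => by rw [inv_inv]; exact hg.1 y hy, fun x => by
            have h := L.neg_mem (hg.2.2 (ρ g⁻¹ x))
            rwa [← CfsgLib.Minimal.ThreeBlock.rho_mul, mul_inv_cancel, map_one, Module.End.one_apply,
              neg_sub] at h⟩ }
    have hle : ⁅R, B⁆ ≤ G' := by
      rw [Subgroup.commutator_le]
      intro r hr c hc
      have hmem : ⁅r, c⁆ ∈ R ⊔ B := by
        rw [commutatorElement_def]
        exact (R ⊔ B).mul_mem ((R ⊔ B).mul_mem ((R ⊔ B).mul_mem (hmR r hr) (Subgroup.mem_sup_right hc))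
          ((R ⊔ B).inv_mem (hmR r hr))) ((R ⊔ B).inv_mem (Subgroup.mem_sup_right hc))
      refine ⟨hLinv _ hmem, hLinv _ ((R ⊔ B).inv_mem hmem), fun x => ?_⟩
      obtain ⟨n, hn⟩ := mem_powers_iff_mem_zpowers.2 (hb ▸ hc : c ∈ Subgroup.zpowers b)
      simp only at hn
      obtain ⟨k, hk⟩ := mem_powers_iff_mem_zpowers.2 (Subgroup.inv_mem _ (hb ▸ hc : c ∈ Subgroup.zpowers b))
      simp only at hk
      rw [commutatorElement_def, CfsgLib.Minimal.ThreeBlock.rho_mul, CfsgLib.Minimal.ThreeBlock.rho_mul,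
        CfsgLib.Minimal.ThreeBlock.rho_mul, ← hk]
      set x' := ρ (b ^ k) x
      have h1 : x' - x ∈ L := hbmod k x
      have h2 : ρ c (ρ r⁻¹ x') - ρ r⁻¹ x' ∈ L := hn ▸ hbmod n _
      have h3 : ρ r (ρ c (ρ r⁻¹ x')) - x' ∈ L := by
        have := hLinv r (hmR r hr) _ h2
        rwa [map_sub, ← CfsgLib.Minimal.ThreeBlock.rho_mul ρ r r⁻¹, mul_inv_cancel, map_one,
          Module.End.one_apply] at this
      rw [show ρ r (ρ c (ρ r⁻¹ x')) - x = (ρ r (ρ c (ρ r⁻¹ x')) - x') + (x' - x) by abel]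
      exact L.add_mem h3 h1
    refine le_antisymm hL fun x hx => ?_
    have hmod : ∀ r ∈ R, ρ r x - x ∈ L := fun r hr => ((hRR.ge.trans hle) hr).2.2 x
    rw [hF0, LinearMap.mem_ker] at hx
    have hsum : π x - x ∈ L := by
      have h1 : π x - x = ((Nat.card R : ZMod 3))⁻¹ • ∑ r : R, (ρ (r : S) x - x) := by
        rw [Finset.sum_sub_distrib, Finset.sum_const, Finset.card_univ, ← Nat.card_eq_fintype_card,
          smul_sub, ← hπapp, ← Nat.cast_smul_eq_nsmul (ZMod 3), smul_smul, inv_mul_cancel₀ hc0, one_smul]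
      rw [h1]
      exact L.smul_mem _ (L.sum_mem fun r _ => hmod r r.2)
    rw [hx, zero_sub] at hsum
    simpa using L.neg_mem hsum
  refine ⟨?_, F₀, F₁, hinf, hsup, fun r hr x hx => hx r hr, hF0inv, hfaith0, hirr⟩
  -- the restricted setting
  let H : Subgroup S := R ⊔ B
  let ρ' : Representation (ZMod 3) H F₀ :=
    { toFun := fun g => (ρ (g : S)).restrict (hF0inv g g.2)
      map_one' := LinearMap.ext fun x => Subtype.ext (by simp)
      map_mul' := fun g h => LinearMap.ext fun x => Subtype.ext (by simp) }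
  have hρ' : ∀ (g : H) (x : F₀), ((ρ' g x : F₀) : E) = ρ (g : S) x := fun g x => rfl
  have hRH : R ≤ H := le_sup_left
  let b' : H := ⟨b, Subgroup.mem_sup_right hbB⟩
  let u' : H := ⟨u, hRH (hQR huQ)⟩
  let R' : Subgroup H := R.subgroupOf H
  have hmapB : (Subgroup.zpowers b').map H.subtype = B := by
    rw [MonoidHom.map_zpowers]; exact hb
  have hmapR : R'.map H.subtype = R := Subgroup.map_subgroupOf_eq_of_le hRH
  have Sg : CfsgLib.Minimal.ThreeBlock.Setting ρ' R' b' u' := by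
    refine ⟨fun g h hgh => ?_, fun L hL => ?_, ?_, ?_, Subtype.ext hb3, ?_, ?_, ?_, hQR huQ,
      Subtype.ext (hq2 u huQ), fun h => hu1 (congrArg Subtype.val h), Subtype.ext huv, Subtype.ext hvu⟩
    · refine eq_of_inv_mul_eq_one (Subtype.ext ?_)
      refine hfaith0 _ (g⁻¹ * h).2 fun x hx => ?_
      have h1 := congrArg Subtype.val (DFunLike.congr_fun hgh ⟨x, hx⟩)
      rw [hρ', hρ'] at h1
      rw [Subgroup.coe_mul, Subgroup.coe_inv, CfsgLib.Minimal.ThreeBlock.rho_mul, ← h1,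
        ← CfsgLib.Minimal.ThreeBlock.rho_mul, inv_mul_cancel, map_one]
      rfl
    · rcases hirr (L.map F₀.subtype) (Submodule.map_subtype_le _ _) (by
        rintro r hr _ ⟨x, hx, rfl⟩
        exact ⟨ρ' ⟨r, hr⟩ x, hL _ x hx, rfl⟩) with h | h
      · left; exact Submodule.map_injective_of_injective F₀.injective_subtype (h.trans (Submodule.map_bot _).symm)
      · right; exact Submodule.map_injective_of_injective F₀.injective_subtype
          (h.trans (Submodule.map_subtype_top F₀).symm)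
    · exact Subgroup.normal_subgroupOf_of_le_normalizer hRBn
    · rwa [Nat.card_congr (Subgroup.subgroupOfEquivOfLe hRH).toEquiv]
    · apply Subgroup.map_injective H.subtype_injective
      rw [Subgroup.map_sup, hmapB, hmapR, ← MonoidHom.range_eq_map, Subgroup.range_subtype]
    · apply Subgroup.map_injective H.subtype_injective
      rw [Subgroup.map_commutator, hmapB, hmapR, hRR]
    · let f : LinearMap.range (ρ' b' - 1) →ₗ[ZMod 3] LinearMap.range N :=
        (F₀.subtype.comp (LinearMap.range (ρ' b' - 1)).subtype).codRestrict _ (by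
          rintro ⟨_, x, rfl⟩; exact ⟨(x : E), rfl⟩)
      exact (LinearMap.finrank_le_finrank_of_injective (f := f) fun x y h =>
        Subtype.ext (Subtype.ext (congrArg Subtype.val h :))).trans hrank
  let Q' : Subgroup H := Q.subgroupOf H
  have hQH : Q ≤ H := hQR.trans hRH
  have hQ'R : Q' ≤ R' := fun x hx => hQR hx
  have hQ'4 : Nat.card Q' = 4 := by
    rw [Nat.card_congr (Subgroup.subgroupOfEquivOfLe hQH).toEquiv, hQ4]
  haveI := Sg.normal
  have hbig : R = Q ∨ (Nat.card R' = 32 ∧ Cfsg.IsExtraspecial 2 R' ∧ ∃ m ∈ R', ρ' m = -1) := by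
    by_cases hA : ∃ A : Subgroup H, A.Normal ∧ (∀ a ∈ A, a * a = 1) ∧ A ≤ R' ∧ ∃ a ∈ A, ¬ Commute a b'
    · obtain ⟨A, hAn, hA2, hAR, hAb⟩ := hA
      haveI := hAn
      rcases CfsgLib.Minimal.ThreeBlock.monomial_case Sg Q' hQ'R hQ'4 A hA2 hAR hAb with h | h
      · left; rw [← hmapR, h, Subgroup.map_subgroupOf_eq_of_le hQH]
      · exact Or.inr h
    · push Not at hA
      exact Or.inr (CfsgLib.Minimal.ThreeBlock.extraspecial_case Sg Q' hQ'R hQ'4
        (fun a ha => Subtype.ext (hq2 _ ha))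
        (fun a ha hab => Subtype.ext (hQb _ ha (congrArg Subtype.val hab.eq)))
        fun A hAn hA2 hAR a ha => hA A hAn hA2 hAR a ha)
  rcases hbig with h | ⟨h32, hex, m, hmR, hm⟩
  · exact Or.inl ⟨h.symm ▸ hQ, h.symm ▸ hQ4⟩
  right
  let eR : R' ≃* R := Subgroup.subgroupOfEquivOfLe hRH
  refine ⟨CfsgLib.PGroups.IsExtraspecial.of_mulEquiv eR hex, by rw [← Nat.card_congr eR.toEquiv, h32], ?_⟩
  set m₀ : S := (m : S)
  have hmneg : ∀ x : F₀, ρ' m x = -x := fun x => by rw [hm]; rfl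
  have hmc : ∀ g : H, Commute m g := fun g => Sg.faith (LinearMap.ext fun x => by
    rw [map_mul, map_mul, Module.End.mul_apply, Module.End.mul_apply, hmneg, hmneg, map_neg])
  have hm2 : m * m = 1 := Sg.faith (LinearMap.ext fun x => by
    rw [map_mul, Module.End.mul_apply, hmneg, hmneg, neg_neg, map_one]; rfl)
  have hm1 : m ≠ 1 := fun h => F.ne_zero (by
    have h1 := congrArg Subtype.val (hmneg ⟨e, heF⟩)
    rw [h, map_one] at h1
    exact CfsgLib.Minimal.ThreeBlock.eq_zero_of_neg_eq h1.symm)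
  have hm2' : m₀ * m₀ = 1 := congrArg Subtype.val hm2
  have hmb : Commute m₀ b := congrArg Subtype.val (hmc b').eq
  have hmQ : m₀ ∉ Q := fun h => hm1 (Subtype.ext (hQb m₀ h hmb))
  have hmq : ∀ x ∈ Q, m₀ * x = x * m₀ := fun x hx => congrArg Subtype.val (hmc ⟨x, hQH hx⟩).eq
  let A : Subgroup S :=
    { carrier := {x | x ∈ Q ∨ m₀ * x ∈ Q}
      one_mem' := Or.inl Q.one_mem
      mul_mem' := fun {x y} hx hy => by
        rcases hx with hx | hx <;> rcases hy with hy | hy
        · exact Or.inl (Q.mul_mem hx hy)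
        · refine Or.inr ?_
          rw [← mul_assoc, hmq x hx, mul_assoc]
          exact Q.mul_mem hx hy
        · exact Or.inr (by rw [← mul_assoc]; exact Q.mul_mem hx hy)
        · refine Or.inl ?_
          have h1 := Q.mul_mem hx hy
          have h2 : m₀ * x * (m₀ * y) = x * y := by
            have hxm : m₀ * x * m₀ = x := by
              have h3 := hmq _ hx
              rw [← mul_assoc, hm2', one_mul] at h3
              exact h3.symm
            rw [← mul_assoc, hxm]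
          rwa [h2] at h1
      inv_mem' := fun {x} hx => by
        rcases hx with hx | hx
        · exact Or.inl (Q.inv_mem hx)
        · refine Or.inr ?_
          have h1 := Q.inv_mem hx
          rw [mul_inv_rev, inv_eq_of_mul_eq_one_right hm2'] at h1
          have h3 := hmq _ h1
          rw [mul_assoc x⁻¹, hm2', mul_one] at h3
          have h4 : m₀ * x⁻¹ = m₀ * (m₀ * (x⁻¹ * m₀)) := by rw [h3]
          rw [h4, ← mul_assoc, hm2', one_mul]
          exact h1 }
  have hAQ : ∀ x ∈ A, ∃ y ∈ Q, x = y ∨ x = m₀ * y := fun x hx => hx.elim (fun h => ⟨x, h, Or.inl rfl⟩)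
    fun h => ⟨m₀ * x, h, Or.inr (by rw [← mul_assoc, hm2', one_mul])⟩
  have hmq' : ∀ y ∈ Q, Commute m₀ y := fun y hy => hmq y hy
  refine ⟨A, fun x hx => ?_, ⟨.of_setLike_mul_comm fun x hx y hy => ?_, fun x hx => ?_⟩, ?_⟩
  · obtain ⟨y, hy, rfl | rfl⟩ := hAQ x hx
    · exact hQR hy
    · exact R.mul_mem hmR (hQR hy)
  · obtain ⟨a, ha, rfl | rfl⟩ := hAQ x hx <;> obtain ⟨c, hc, rfl | rfl⟩ := hAQ y hy
    · exact hqc _ ha _ hc
    · exact ((hmq' _ ha).symm.mul_right (hqc _ ha _ hc)).eq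
    · exact ((hmq' _ hc).mul_left (hqc _ ha _ hc)).eq
    · exact (((Commute.refl m₀).mul_right (hmq' c hc)).mul_left
        ((hmq' a ha).symm.mul_right (hqc _ ha _ hc))).eq
  · obtain ⟨y, hy, rfl | rfl⟩ := hAQ x hx
    · exact hQ.2 _ hy
    · rw [(hmq' y hy).mul_pow, pow_two, hm2', one_mul]; exact hQ.2 _ hy
  · let f : Q × Bool → A := fun a => if a.2 then ⟨m₀ * a.1, Or.inr (by
      rw [← mul_assoc, hm2', one_mul]; exact a.1.2)⟩ else ⟨a.1, Or.inl a.1.2⟩
    have hf : Function.Bijective f := by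
      constructor
      · rintro ⟨a, s⟩ ⟨c, t⟩ h
        have h1 := congrArg Subtype.val h
        cases s <;> cases t <;> simp [f] at h1
        · rw [h1]
        · exact absurd ((Q.mul_mem_cancel_right c.2).1 (h1 ▸ a.2)) hmQ
        · exact absurd ((Q.mul_mem_cancel_right a.2).1 (h1.symm ▸ c.2)) hmQ
        · rw [h1]
      · rintro ⟨x, hx⟩
        obtain ⟨y, hy, h | h⟩ := hAQ x hx
        · exact ⟨(⟨y, hy⟩, false), Subtype.ext h.symm⟩
        · exact ⟨(⟨y, hy⟩, true), Subtype.ext h.symm⟩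
    rw [← Nat.card_congr (Equiv.ofBijective f hf), Nat.card_prod, hQ4, Nat.card_eq_fintype_card, Fintype.card_bool]

end Cfsg.Agent.S4415
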