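import Cfsg.Statements.S4417
import Cfsg.Agent.Lib.TwoGroups.NormalAbelian
import Cfsg.Agent.Lib.PGroups.Frattini
import Mathlib

set_option autoImplicit false
open Cfsg

namespace Cfsg.Agent.S4417

universe u v w

/-- The bound on the derived length in dimension `n`. -/
def bd (e n : ℕ) : ℕ := if n < e then 0 else Nat.log 2 (n / e) + 1

theorem bd_mono {e : ℕ} {m n : ℕ} (h : m ≤ n) : bd e m ≤ bd e n := by
  unfold bd
  split_ifs with h1 h2
  · exact le_rfl
  · exact Nat.zero_le _
  · omega
  · exact Nat.add_le_add_right (Nat.log_mono_right (Nat.div_le_div_right h)) 1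

theorem bd_double {e : ℕ} (he : 0 < e) {d n : ℕ} (hd : 2 * d ≤ n) (hen : e ≤ n) :
    bd e d + 1 ≤ bd e n := by
  unfold bd
  rw [if_neg (Nat.not_lt.2 hen)]
  split_ifs with h1
  · omega
  · have h2 : 1 ≤ d / e := (Nat.one_le_div_iff he).2 (Nat.not_lt.1 h1)
    have h3 : 2 * (d / e) ≤ n / e :=
      (Nat.mul_div_le_mul_div_assoc 2 d e).trans (Nat.div_le_div_right hd)
    have h4 := Nat.log_mono_right (b := 2) h3
    rw [mul_comm, Nat.log_mul_base (by norm_num) (by omega)] at h4
    omega

variable {F : Type w} [Field F] [Fintype F] {p : ℕ} [hp : Fact p.Prime]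

/-- An element of order `p` moves a space of dimension at least `e`. -/
theorem le_finrank_of_order {P : Type u} [Group P] {V : Type v} [AddCommGroup V] [Module F V] [Finite V]
    (hpq : ¬ p ∣ Fintype.card F) (ρ : P →* Module.End F V) {z : P} (hz : z ^ p = 1) (hne : ρ z ≠ 1) :
    orderOf (Fintype.card F : ZMod p) ≤ Module.finrank F V := by
  haveI := hp
  let A := Subgroup.zpowers z
  letI : MulAction A V :=
    { smul := fun g v => ρ (g : P) v
      one_smul := fun v => by show ρ (1 : P) v = v; rw [map_one]; rfl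
      mul_smul := fun g h v => by
        show ρ ((g : P) * h) v = ρ (g : P) (ρ (h : P) v); rw [map_mul]; rfl }
  have hA : IsPGroup p A := by
    rintro ⟨y, hy⟩
    obtain ⟨i, rfl⟩ := Subgroup.mem_zpowers_iff.1 hy
    refine ⟨1, Subtype.ext ?_⟩
    simp only [pow_one, SubmonoidClass.coe_pow, OneMemClass.coe_one]
    rw [← zpow_natCast, ← zpow_mul, mul_comm, zpow_mul, zpow_natCast, hz, one_zpow]
  let W : Submodule F V := LinearMap.ker (ρ z - 1)
  have hW : ∀ v, v ∈ W ↔ ρ z v = v := fun v => by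
    simp [W, LinearMap.mem_ker, LinearMap.sub_apply, sub_eq_zero]
  have hfix : MulAction.fixedPoints A V = (W : Set V) := by
    ext v
    refine ⟨fun hv => (hW v).2 (hv ⟨z, Subgroup.mem_zpowers z⟩), fun hv => ?_⟩
    rintro ⟨y, hy⟩
    show ρ y v = v
    let St : Subgroup P :=
      { carrier := {g | ρ g v = v}
        one_mem' := by show ρ 1 v = v; rw [map_one]; rfl
        mul_mem' := fun {g h} (hg : ρ g v = v) (hh : ρ h v = v) => by
          show ρ (g * h) v = v
          rw [map_mul, Module.End.mul_apply, hh, hg]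
        inv_mem' := fun {g} (hg : ρ g v = v) => by
          show ρ g⁻¹ v = v
          conv_lhs => rw [← hg, ← Module.End.mul_apply, ← map_mul, inv_mul_cancel, map_one]
          rfl }
    exact (Subgroup.zpowers_le.2 (show z ∈ St from (hW v).1 hv)) hy
  have hWtop : W ≠ ⊤ := fun h => hne (LinearMap.ext fun v => (hW v).1 (h ▸ Submodule.mem_top))
  have hlt := Submodule.finrank_lt hWtop
  have hmod := hA.card_modEq_card_fixedPoints V
  rw [hfix, SetLike.coe_sort_coe, Module.natCard_eq_pow_finrank (K := F) (V := V),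
    Module.natCard_eq_pow_finrank (K := F) (V := W), Nat.card_eq_fintype_card,
    ← ZMod.natCast_eq_natCast_iff] at hmod
  push_cast at hmod
  have hq0 : (Fintype.card F : ZMod p) ≠ 0 := by rwa [Ne, ZMod.natCast_eq_zero_iff]
  obtain ⟨j, hj⟩ := Nat.exists_eq_add_of_le hlt.le
  rw [hj, pow_add] at hmod
  have hj1 := orderOf_dvd_of_pow_eq_one ((mul_eq_left₀ (pow_ne_zero _ hq0)).1 hmod)
  have := Nat.le_of_dvd (by omega) hj1
  omega

/-- Faithful representations. -/
theorem faithful_case (hpq : ¬ p ∣ Fintype.card F) {P : Type u} [Group P] [Finite P] (hP : IsPGroup p P)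
    {V : Type v} [AddCommGroup V] [Module F V] [Finite V] (ρ : P →* Module.End F V)
    (hρ : Function.Injective ρ) (n : ℕ) (hn : Module.finrank F V = n)
    (ih : ∀ d < n, ∀ (Q : Type u) [Group Q] [Finite Q], IsPGroup p Q →
      ∀ (U : Type v) [AddCommGroup U] [Module F U] [Finite U] (σ : Q →* Module.End F U),
        Module.finrank F U ≤ d →
          derivedSeries Q (bd (orderOf (Fintype.card F : ZMod p)) d) ≤ σ.ker) :
    derivedSeries P (bd (orderOf (Fintype.card F : ZMod p)) n) = ⊥ := by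
  classical
  have hprime : p.Prime := hp.out
  set e := orderOf (Fintype.card F : ZMod p) with he
  have hq0 : (Fintype.card F : ZMod p) ≠ 0 := by rwa [Ne, ZMod.natCast_eq_zero_iff]
  have hedvd : e ∣ p - 1 := orderOf_dvd_of_pow_eq_one (ZMod.pow_card_sub_one_eq_one hq0)
  have he0 : 0 < e := Nat.pos_of_dvd_of_pos hedvd (by have := hprime.two_le; omega)
  have hmul : ∀ (a b : P) (m : V), ρ (a * b) m = ρ a (ρ b m) := fun a b m => by rw [map_mul]; rfl
  have hone : ∀ m : V, ρ 1 m = m := fun m => by rw [map_one]; rfl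
  have hinvl : ∀ (a : P) (m : V), ρ a⁻¹ (ρ a m) = m := fun a m => by
    rw [← hmul, inv_mul_cancel, hone]
  have hinvr : ∀ (a : P) (m : V), ρ a (ρ a⁻¹ m) = m := fun a m => by
    rw [← hmul, mul_inv_cancel, hone]
  by_cases htriv : ∀ x : P, x = 1
  · exact (Subgroup.eq_bot_iff_forall _).2 fun x _ => htriv x
  push Not at htriv
  obtain ⟨x0, hx0⟩ := htriv
  haveI : Nontrivial P := ⟨⟨x0, 1, hx0⟩⟩
  obtain ⟨z, hz⟩ := exists_prime_orderOf_dvd_card' p (by
    obtain ⟨k, hk⟩ := IsPGroup.iff_card.1 hP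
    have h1 : 1 < Nat.card P := Finite.one_lt_card
    rw [hk] at h1 ⊢
    exact dvd_pow_self p (by rintro rfl; simp at h1) : p ∣ Nat.card P)
  have hen : e ≤ n := hn ▸ le_finrank_of_order hpq ρ (by rw [← hz, pow_orderOf_eq_one]) (fun h => by
    have : z = 1 := hρ (h.trans ρ.map_one.symm)
    rw [this, orderOf_one] at hz
    exact hprime.ne_one hz.symm)
  by_cases hred : ∃ W : Submodule F V, W ≠ ⊥ ∧ W ≠ ⊤ ∧ ∀ g, ∀ w ∈ W, ρ g w ∈ W
  · obtain ⟨W, hW0, hW1, hWi⟩ := hred
    let ρW : P →* Module.End F W :=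
      { toFun := fun g => (ρ g).restrict (hWi g)
        map_one' := LinearMap.ext fun v => Subtype.ext (hone _)
        map_mul' := fun g h => LinearMap.ext fun v => Subtype.ext (hmul g h _) }
    let ρQ : P →* Module.End F (V ⧸ W) :=
      { toFun := fun g => W.mapQ W (ρ g) (hWi g)
        map_one' := Submodule.linearMap_qext _ (LinearMap.ext fun v => congrArg Submodule.Quotient.mk (hone v))
        map_mul' := fun g h =>
          Submodule.linearMap_qext _ (LinearMap.ext fun v => congrArg Submodule.Quotient.mk (hmul g h v)) }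
    have hdim := Submodule.finrank_quotient_add_finrank W
    have hWlt := Submodule.finrank_lt hW1
    haveI : Nontrivial W := Submodule.nontrivial_iff_ne_bot.2 hW0
    have hW0' : 0 < Module.finrank F W := Module.finrank_pos
    have hQlt : Module.finrank F (V ⧸ W) < n := by omega
    have h1 := (derivedSeries_antitone P (bd_mono (show Module.finrank F W ≤ n by omega))).trans
      (ih _ (by omega) P hP W ρW le_rfl)
    haveI : Finite (V ⧸ W) := Finite.of_surjective _ (Submodule.Quotient.mk_surjective W)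
    have h2 := (derivedSeries_antitone P (bd_mono hQlt.le)).trans (ih _ hQlt P hP (V ⧸ W) ρQ le_rfl)
    refine (Subgroup.eq_bot_iff_forall _).2 fun y hy => ?_
    have hfix : ∀ v ∈ W, ρ y v = v := fun v hv =>
      congrArg Subtype.val (LinearMap.congr_fun (MonoidHom.mem_ker.1 (h1 hy)) (⟨v, hv⟩ : W))
    have hsub : ∀ v, ρ y v - v ∈ W := fun v =>
      (Submodule.Quotient.eq W).1 (LinearMap.congr_fun (MonoidHom.mem_ker.1 (h2 hy)) (Submodule.Quotient.mk v))
    have hpow : ∀ (j : ℕ) v, ρ (y ^ j) v = v + j • (ρ y v - v) := by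
      intro j
      induction j with
      | zero => intro v; simp [hone]
      | succ j ihj =>
        intro v
        rw [pow_succ', hmul, ihj, map_add, map_nsmul, hfix _ (hsub v), succ_nsmul']
        abel
    obtain ⟨c, hc⟩ := CharP.exists F
    obtain ⟨m, hcp, hcard⟩ := FiniteField.card F c
    have hyc : y ^ c = 1 := hρ (LinearMap.ext fun v => by
      rw [hpow, ← Nat.cast_smul_eq_nsmul F, CharP.cast_eq_zero, zero_smul, add_zero, hone])
    obtain ⟨k, hk⟩ := IsPGroup.iff_orderOf.1 hP y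
    have hd := orderOf_dvd_of_pow_eq_one hyc
    rw [hk] at hd
    rcases (Nat.dvd_prime hcp).1 hd with h | h
    · exact orderOf_eq_one_iff.1 (hk.trans h)
    · exfalso
      rcases Nat.eq_zero_or_pos k with rfl | hk0
      · rw [pow_zero] at h; exact hcp.ne_one h.symm
      · refine hpq ?_
        rw [hcard]
        exact (dvd_pow_self p hk0.ne').trans (h ▸ dvd_pow_self c m.ne_zero)
  push Not at hred
  have hVnt : ∃ v : V, v ≠ 0 := by
    by_contra h
    push Not at h
    exact hx0 (hρ (LinearMap.ext fun v => by rw [h (ρ x0 v), h (ρ 1 v)]))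
  have hspan : ∀ W : Submodule F V, W ≠ ⊥ → (∀ g, ∀ w ∈ W, ρ g w ∈ W) → W = ⊤ := fun W h0 hi => by
    by_contra h1
    obtain ⟨g, w, hw, hgw⟩ := hred W h0 h1
    exact hgw (hi g w hw)
  obtain ⟨A, -, hAn, hAc, hCA⟩ := CfsgLib.TwoGroups.exists_normal_abelian_centralizer_eq hP
    (B := ⊥) inferInstance inferInstance
  let R : Subalgebra F (Module.End F V) := Algebra.adjoin F (ρ '' (A : Set P))
  have hAR : ∀ a ∈ A, ρ a ∈ R := fun a ha => Algebra.subset_adjoin ⟨a, ha, rfl⟩
  have hRc : ∀ r ∈ R, ∀ s ∈ R, r * s = s * r := by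
    have hgen : ∀ r ∈ R, ∀ a ∈ A, r * ρ a = ρ a * r := by
      intro r hr
      induction hr using Algebra.adjoin_induction with
      | mem x hx =>
        obtain ⟨b, hb, rfl⟩ := hx
        intro a ha
        rw [← map_mul, ← map_mul]
        exact congrArg ρ (congrArg Subtype.val (hAc.is_comm.comm ⟨b, hb⟩ ⟨a, ha⟩))
      | algebraMap c => intro a _; exact Algebra.commutes c _
      | add x y _ _ hx hy => intro a ha; rw [add_mul, mul_add, hx a ha, hy a ha]
      | mul x y _ _ hx hy => intro a ha; rw [mul_assoc, hy a ha, ← mul_assoc, hx a ha, mul_assoc]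
    intro r hr s hs
    induction hs using Algebra.adjoin_induction with
    | mem x hx => obtain ⟨b, hb, rfl⟩ := hx; exact hgen r hr b hb
    | algebraMap c => exact (Algebra.commutes c r).symm
    | add x y _ _ hx hy => rw [add_mul, mul_add, hx, hy]
    | mul x y _ _ hx hy => rw [← mul_assoc, hx, mul_assoc, hy, mul_assoc]
  let cj : P → Module.End F V → Module.End F V := fun g r => ρ g⁻¹ * r * ρ g
  have hcjR : ∀ g, ∀ r ∈ R, cj g r ∈ R := by
    intro g r hr
    induction hr using Algebra.adjoin_induction with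
    | mem x hx =>
      obtain ⟨b, hb, rfl⟩ := hx
      show ρ g⁻¹ * ρ b * ρ g ∈ R
      rw [← map_mul, ← map_mul]
      exact hAR _ (by simpa using hAn.conj_mem b hb g⁻¹)
    | algebraMap c =>
      show ρ g⁻¹ * algebraMap F _ c * ρ g ∈ R
      rw [← Algebra.commutes, mul_assoc, ← map_mul, inv_mul_cancel, map_one, mul_one]
      exact R.algebraMap_mem c
    | add x y _ _ hx hy =>
      show ρ g⁻¹ * (x + y) * ρ g ∈ R
      rw [mul_add, add_mul]; exact R.add_mem hx hy
    | mul x y _ _ hx hy =>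
      show ρ g⁻¹ * (x * y) * ρ g ∈ R
      have h := R.mul_mem hx hy
      have e1 : cj g x * cj g y = ρ g⁻¹ * (x * y) * ρ g := by
        show ρ g⁻¹ * x * ρ g * (ρ g⁻¹ * y * ρ g) = _
        rw [show ρ g⁻¹ * x * ρ g * (ρ g⁻¹ * y * ρ g) = ρ g⁻¹ * x * (ρ g * ρ g⁻¹) * y * ρ g by
          simp only [mul_assoc], ← map_mul, mul_inv_cancel, map_one, mul_one]
        simp only [mul_assoc]
      rwa [e1] at h
  have hcja : ∀ (g : P) r w, ρ g (cj g r w) = r (ρ g w) := fun g r w => hinvr g _
  obtain ⟨W, ⟨hW0, hWR⟩, hWmin⟩ : ∃ W : Submodule F V,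
      (W ≠ ⊥ ∧ ∀ r ∈ R, ∀ w ∈ W, r w ∈ W) ∧
      ∀ W' : Submodule F V, (W' ≠ ⊥ ∧ ∀ r ∈ R, ∀ w ∈ W', r w ∈ W') → W' ≤ W → W ≤ W' := by
    obtain ⟨v, hv⟩ := hVnt
    obtain ⟨W, hW⟩ := Set.Finite.exists_minimal
      (s := {W : Submodule F V | W ≠ ⊥ ∧ ∀ r ∈ R, ∀ w ∈ W, r w ∈ W}) (Set.toFinite _)
      ⟨⊤, (Submodule.ne_bot_iff _).2 ⟨v, trivial, hv⟩, fun _ _ _ _ => trivial⟩
    exact ⟨W, hW.1, fun W' h hle => hW.2 h hle⟩
  let Kill : P → Module.End F V → Prop := fun g r => ∀ w ∈ W, r (ρ g w) = 0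
  have hKill1 : ∀ r, Kill 1 r ↔ ∀ w ∈ W, r w = 0 := fun r => by simp only [Kill, hone]
  have hKmul : ∀ g h r, Kill (g * h) r ↔ Kill h (cj g r) := by
    intro g h r
    refine forall₂_congr fun w _ => ?_
    rw [hmul, ← hcja g r (ρ h w)]
    exact ⟨fun h0 => by rw [← hinvl g (cj g r (ρ h w)), h0, map_zero], fun h0 => by rw [h0, map_zero]⟩
  have hK1 : ∀ g r, Kill g r ↔ Kill 1 (cj g r) := fun g r => by rw [← hKmul, mul_one]
  have hinjW : ∀ r ∈ R, ¬ Kill 1 r → ∀ w ∈ W, r w = 0 → w = 0 := by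
    intro r hr hk w hw hw0
    by_contra hne
    refine hk ((hKill1 r).2 fun u hu => ?_)
    have hle := hWmin (W ⊓ LinearMap.ker r) ⟨(Submodule.ne_bot_iff _).2 ⟨w, ⟨hw, hw0⟩, hne⟩,
      fun s hs x hx => ⟨hWR s hs x hx.1, by
        show r (s x) = 0
        rw [← Module.End.mul_apply, hRc r hr s hs, Module.End.mul_apply, (show r x = 0 from hx.2), map_zero]⟩⟩
      inf_le_left
    exact (hle hu).2
  let H : Subgroup P :=
    { carrier := {g | ∀ r ∈ R, (Kill g r ↔ Kill 1 r)}
      one_mem' := fun _ _ => Iff.rfl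
      mul_mem' := fun {g h} hg hh r hr => by
        rw [hKmul, hh _ (hcjR g r hr), ← hK1, hg r hr]
      inv_mem' := fun {g} hg r hr => by
        rw [hK1, ← hg _ (hcjR g⁻¹ r hr), hK1 g]
        have e1 : cj g (cj g⁻¹ r) = r := by
          show ρ g⁻¹ * (ρ g⁻¹⁻¹ * r * ρ g⁻¹) * ρ g = r
          rw [inv_inv, ← mul_assoc, ← mul_assoc, ← map_mul, inv_mul_cancel, map_one, one_mul,
            mul_assoc, ← map_mul, inv_mul_cancel, map_one, mul_one]
        rw [e1] }
  by_cases hH : H = ⊤
  · -- `R` is a field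
    have hkill0 : ∀ r ∈ R, Kill 1 r → r = 0 := by
      intro r hr hk
      let K : Submodule F V :=
        { carrier := {v | ∀ s ∈ R, Kill 1 s → s v = 0}
          add_mem' := fun {x y} hx hy s hs hk => by rw [map_add, hx s hs hk, hy s hs hk, add_zero]
          zero_mem' := fun s _ _ => map_zero s
          smul_mem' := fun c x hx s hs hk => by rw [map_smul, hx s hs hk, smul_zero] }
      have hKtop : K = ⊤ := by
        refine hspan K (fun h => hW0 (le_bot_iff.1 ?_)) fun g v hv s hs hk => ?_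
        · exact h ▸ fun w hw s _ hk => (hKill1 s).1 hk w hw
        · rw [← hcja g s v, hv _ (hcjR g s hs) ((hK1 g s).1 ((hH ▸ Subgroup.mem_top g : g ∈ H) s hs |>.2 hk)),
            map_zero]
      exact LinearMap.ext fun v => (hKtop ▸ Submodule.mem_top : v ∈ K) r hr hk
    haveI : Finite (Module.End F V) := Finite.of_injective _ DFunLike.coe_injective
    letI : CommRing R := { R.toRing with mul_comm := fun a b => Subtype.ext (hRc _ a.2 _ b.2) }
    haveI : Nontrivial R := by
      obtain ⟨v, hv⟩ := hVnt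
      refine ⟨⟨0, 1, fun h => hv ?_⟩⟩
      have := LinearMap.congr_fun (congrArg Subtype.val h) v
      exact this.symm
    haveI : NoZeroDivisors R := ⟨fun {a b} hab => by
      by_contra hne
      push Not at hne
      refine hne.2 (Subtype.ext (hkill0 _ b.2 ((hKill1 _).2 fun w hw => ?_)))
      refine hinjW _ a.2 (fun hk => hne.1 (Subtype.ext (hkill0 _ a.2 hk))) _ (hWR _ b.2 w hw) ?_
      exact LinearMap.congr_fun (congrArg Subtype.val hab) w⟩
    haveI : IsDomain R := NoZeroDivisors.to_isDomain R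
    letI : Field R := (Finite.isField_of_domain R).toField
    have hinjV : ∀ r : R, r ≠ 0 → ∀ v : V, (r : Module.End F V) v = 0 → v = 0 := by
      intro r hr v hv
      obtain ⟨s, hs⟩ := (Finite.isField_of_domain R).mul_inv_cancel hr
      rw [mul_comm] at hs
      have h1 := LinearMap.congr_fun (congrArg Subtype.val hs) v
      change (s : Module.End F V) ((r : Module.End F V) v) = v at h1
      rw [hv, map_zero] at h1
      exact h1.symm
    have hfle : Module.finrank F R ≤ n := by
      obtain ⟨v, hv⟩ := hVnt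
      rw [← hn]
      refine LinearMap.finrank_le_finrank_of_injective
        (f := (LinearMap.applyₗ v).comp R.val.toLinearMap) fun a b hab => ?_
      by_contra hne
      refine hv (hinjV (a - b) (sub_ne_zero.2 hne) v ?_)
      show (a : Module.End F V) v - (b : Module.End F V) v = 0
      rw [sub_eq_zero]; exact hab
    let φ : P →* (R ≃ₐ[F] R) :=
      MonoidHom.mk' (fun g => AlgEquiv.ofBijective
        ({ toFun := fun r => ⟨cj g⁻¹ r, hcjR g⁻¹ r r.2⟩
           map_one' := Subtype.ext (by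
             show ρ g⁻¹⁻¹ * 1 * ρ g⁻¹ = 1
             rw [inv_inv, mul_one, ← map_mul, mul_inv_cancel, map_one])
           map_mul' := fun a b => Subtype.ext (by
             show ρ g⁻¹⁻¹ * ((a : Module.End F V) * b) * ρ g⁻¹ =
               ρ g⁻¹⁻¹ * (a : Module.End F V) * ρ g⁻¹ * (ρ g⁻¹⁻¹ * (b : Module.End F V) * ρ g⁻¹)
             rw [show ∀ x y : Module.End F V, ρ g⁻¹⁻¹ * x * ρ g⁻¹ * (ρ g⁻¹⁻¹ * y * ρ g⁻¹) =
               ρ g⁻¹⁻¹ * x * (ρ g⁻¹ * ρ g⁻¹⁻¹) * y * ρ g⁻¹ from fun x y => by simp only [mul_assoc],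
               ← map_mul, mul_inv_cancel, map_one, mul_one]
             simp only [mul_assoc])
           map_zero' := Subtype.ext (by show ρ g⁻¹⁻¹ * 0 * ρ g⁻¹ = 0; rw [mul_zero, zero_mul])
           map_add' := fun a b => Subtype.ext (by
             show ρ g⁻¹⁻¹ * ((a : Module.End F V) + b) * ρ g⁻¹ = _
             rw [mul_add, add_mul]; rfl)
           commutes' := fun c => Subtype.ext (by
             show ρ g⁻¹⁻¹ * algebraMap F _ c * ρ g⁻¹ = algebraMap F _ c
             rw [← Algebra.commutes, mul_assoc, inv_inv, ← map_mul, mul_inv_cancel, map_one, mul_one]) } :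
          R →ₐ[F] R)
        (Finite.injective_iff_bijective.1 (RingHom.injective _)))
        fun g h => AlgEquiv.ext fun r => Subtype.ext (by
          show ρ (g * h)⁻¹⁻¹ * (r : Module.End F V) * ρ (g * h)⁻¹ =
            ρ g⁻¹⁻¹ * (ρ h⁻¹⁻¹ * (r : Module.End F V) * ρ h⁻¹) * ρ g⁻¹
          simp only [inv_inv, mul_inv_rev, map_mul, mul_assoc])
    have hker : φ.ker ≤ A := by
      intro g hg
      rw [← hCA, Subgroup.mem_centralizer_iff]
      intro a ha
      have h1 := congrArg Subtype.val (AlgEquiv.congr_fun (MonoidHom.mem_ker.1 hg) (⟨ρ a, hAR a ha⟩ : R))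
      change ρ g⁻¹⁻¹ * ρ a * ρ g⁻¹ = ρ a at h1
      rw [inv_inv, ← map_mul, ← map_mul] at h1
      exact (mul_inv_eq_iff_eq_mul.1 (hρ h1)).symm
    have hcA : commutator P ≤ A := by
      refine le_trans (Subgroup.commutator_le.2 fun g _ h _ => ?_) hker
      letI : CommGroup (R ≃ₐ[F] R) := IsCyclic.commGroup
      rw [MonoidHom.mem_ker, map_commutatorElement, commutatorElement_eq_one_iff_mul_comm, mul_comm]
    have hAA : ⁅A, A⁆ = (⊥ : Subgroup P) := Subgroup.commutator_eq_bot_iff_le_centralizer.2 hCA.ge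
    by_cases hPA : A = ⊤
    · refine le_bot_iff.1 ((derivedSeries_antitone P (show 1 ≤ bd e n by
        unfold bd; rw [if_neg (Nat.not_lt.2 hen)]; exact Nat.le_add_left 1 _)).trans ?_)
      rw [derivedSeries_one, commutator_def, ← hAA, hPA]
    have hpf : p ∣ Module.finrank F R := by
      have h1 : φ.ker.index ∣ Nat.card (R ≃ₐ[F] R) := by
        rw [Subgroup.index_ker]; exact Subgroup.card_subgroup_dvd_card _
      rw [IsGalois.card_aut_eq_finrank] at h1
      obtain ⟨k, hk⟩ := IsPGroup.iff_card.1 (hP.to_subgroup (φ.range.comap φ))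
      refine dvd_trans ?_ h1
      have hki : φ.ker.index ≠ 1 := fun h => hPA (top_le_iff.1 ((Subgroup.index_eq_one.1 h).ge.trans hker))
      obtain ⟨l, hl⟩ := hP.index φ.ker
      rw [hl] at hki ⊢
      exact dvd_pow_self p (by rintro rfl; simp at hki)
    have hef : e ∣ Module.finrank F R := by
      have hAne : A ≠ ⊥ := fun h => hPA (by
        rw [← hCA, h]
        exact top_le_iff.1 fun g _ => Subgroup.mem_centralizer_iff.2 fun x hx => by
          rw [Subgroup.mem_bot.1 hx, one_mul, mul_one])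
      obtain ⟨⟨a, ha⟩, hao⟩ := exists_prime_orderOf_dvd_card' p (by
        obtain ⟨k, hk⟩ := IsPGroup.iff_card.1 (hP.to_subgroup A)
        have h1 := (Subgroup.one_lt_card_iff_ne_bot A).2 hAne
        rw [hk] at h1 ⊢
        exact dvd_pow_self p (by rintro rfl; simp at h1) : p ∣ Nat.card A)
      rw [Subgroup.orderOf_mk] at hao
      set ra : R := ⟨ρ a, hAR a ha⟩ with hra
      have hra1 : ra ≠ 1 := fun h => by
        have : a = 1 := hρ ((congrArg Subtype.val h).trans ρ.map_one.symm)
        rw [this, orderOf_one] at hao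
        exact hprime.ne_one hao.symm
      have hrap : ra ^ p = 1 := Subtype.ext (by
        show (ρ a) ^ p = 1
        rw [← map_pow, ← hao, pow_orderOf_eq_one, map_one])
      have hra0 : ra ≠ 0 := fun h => by rw [h, zero_pow hprime.ne_zero] at hrap; exact zero_ne_one hrap
      have ho : orderOf (Units.mk0 ra hra0) = p :=
        orderOf_eq_prime (Units.ext hrap) (fun h => hra1 (congrArg Units.val h))
      have h2 := orderOf_dvd_natCard (Units.mk0 ra hra0)
      rw [ho, Nat.card_units, Module.natCard_eq_pow_finrank (K := F) (V := R), Nat.card_eq_fintype_card] at h2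
      refine orderOf_dvd_of_pow_eq_one ?_
      have h3 := (ZMod.natCast_eq_zero_iff _ _).2 h2
      rw [Nat.cast_sub (Nat.one_le_pow _ _ Fintype.card_pos), Nat.cast_one, sub_eq_zero, Nat.cast_pow] at h3
      exact h3
    have hpe : p.Coprime e := (hprime.coprime_iff_not_dvd).2 fun h => by
      have := Nat.le_of_dvd (by have := hprime.two_le; omega) (h.trans hedvd)
      have := hprime.two_le
      omega
    have hfpos : 0 < Module.finrank F R := Module.finrank_pos
    have h2e : 2 * e ≤ n := (Nat.mul_le_mul_right e hprime.two_le).trans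
      ((Nat.le_of_dvd hfpos (hpe.mul_dvd_of_dvd_of_dvd hpf hef)).trans hfle)
    refine le_bot_iff.1 ((derivedSeries_antitone P (show 2 ≤ bd e n from ?_)).trans ?_)
    · unfold bd
      rw [if_neg (Nat.not_lt.2 hen)]
      have : 1 ≤ Nat.log 2 (n / e) :=
        Nat.log_pos (by norm_num) ((Nat.le_div_iff_mul_le he0).2 h2e)
      omega
    · rw [derivedSeries_succ, derivedSeries_one, ← hAA]
      exact Subgroup.commutator_mono hcA hcA
  -- a reducible maximal subgroup
  obtain ⟨M, hHM, hM⟩ : ∃ M : Subgroup P, H ≤ M ∧ IsCoatom M := by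
    obtain ⟨M, hM⟩ := (eq_top_or_exists_le_coatom H).resolve_left hH
    exact ⟨M, hM.2, hM.1⟩
  haveI hMn : M.Normal := CfsgLib.TwoGroups.normal_of_isCoatom hP hM
  have hMi : M.index = p := CfsgLib.TwoGroups.index_eq_of_isCoatom hP hM
  obtain ⟨x, hx⟩ : ∃ x, x ∉ M := by
    by_contra h; push Not at h; exact hM.1 (top_le_iff.1 fun y _ => h y)
  have hsep : ∀ g ∈ M, ∃ s ∈ R, Kill g s ∧ ¬ Kill x s := by
    intro g hg
    by_contra hno
    push Not at hno
    apply hx
    have hgx : g⁻¹ * x ∈ M := hHM fun r hr => by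
      have e1 : cj g (cj g⁻¹ r) = r := by
        show ρ g⁻¹ * (ρ g⁻¹⁻¹ * r * ρ g⁻¹) * ρ g = r
        rw [inv_inv, ← mul_assoc, ← mul_assoc, ← map_mul, inv_mul_cancel, map_one, one_mul,
          mul_assoc, ← map_mul, inv_mul_cancel, map_one, mul_one]
      rw [hKmul]
      have hr' := hcjR g⁻¹ r hr
      refine ⟨fun h => ?_, fun h => hno _ hr' (by rw [hK1, e1]; exact h)⟩
      by_contra hne
      have hgne : ¬ Kill g (cj g⁻¹ r) := fun h' => hne (by rw [hK1, e1] at h'; exact h')
      set r' := cj g⁻¹ r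
      -- a power of `r'` is the identity on `g W`
      haveI : Finite (Module.End F V) := Finite.of_injective _ DFunLike.coe_injective
      obtain ⟨i, j, hij, heq⟩ := Finite.exists_ne_map_eq_of_infinite (fun i : ℕ => r' ^ i)
      wlog hlt : i < j generalizing i j
      · exact this j i (Ne.symm hij) heq.symm (lt_of_le_of_ne (Nat.not_lt.1 hlt) (Ne.symm hij))
      set m := j - i with hm
      have hkx : ∀ w ∈ W, (r' ^ m) (ρ x w) = 0 := fun w hw => by
        rw [show m = (m - 1) + 1 by omega, pow_succ, Module.End.mul_apply, h w hw, map_zero]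
      have hinjg : ∀ w ∈ W, r' (ρ g w) = 0 → w = 0 := fun w hw h0 => by
        refine hinjW _ (hcjR g _ hr') (fun hk => hgne ((hK1 g r').2 hk)) w hw ?_
        show ρ g⁻¹ (r' (ρ g w)) = 0
        rw [h0, map_zero]
      have hgW : ∀ t : ℕ, ∀ w ∈ W, ∃ w' ∈ W, (r' ^ t) (ρ g w) = ρ g w' ∧ (w' = 0 → w = 0) := by
        intro t
        induction t with
        | zero => exact fun w hw => ⟨w, hw, rfl, id⟩
        | succ t iht =>
          intro w hw
          obtain ⟨w', hw', he', hz'⟩ := iht w hw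
          refine ⟨cj g r' w', hWR _ (hcjR g _ hr') _ hw', ?_, fun h0 => hz' (hinjg w' hw' ?_)⟩
          · rw [pow_succ', Module.End.mul_apply, he', hcja]
          · rw [← hcja, h0, map_zero]
      have hid : ∀ w ∈ W, (r' ^ m) (ρ g w) = ρ g w := by
        intro w hw
        obtain ⟨w', hw', he', -⟩ := hgW m w hw
        obtain ⟨w'', hw'', he'', hz''⟩ := hgW i (w' - w) (W.sub_mem hw' hw)
        have h3 : (r' ^ i) (ρ g w') = (r' ^ i) (ρ g w) := by
          rw [← he', ← Module.End.mul_apply, ← pow_add, show i + m = j by omega]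
          exact (LinearMap.congr_fun heq (ρ g w)).symm
        have h4 : ρ g w'' = 0 := by rw [← he'', map_sub, map_sub, h3, sub_self]
        have h5 : w'' = 0 := by rw [← hinvl g w'', h4, map_zero]
        rw [he', sub_eq_zero.1 (hz'' h5)]
      have hs : 1 - r' ^ m ∈ R := R.sub_mem R.one_mem (R.pow_mem hr' m)
      have hkg : Kill g (1 - r' ^ m) := fun w hw => by
        rw [LinearMap.sub_apply, Module.End.one_apply, hid w hw, sub_self]
      have hkx2 := hno _ hs hkg
      apply hW0
      rw [Submodule.eq_bot_iff]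
      intro w hw
      have h6 := hkx2 w hw
      rw [LinearMap.sub_apply, Module.End.one_apply, hkx w hw, sub_zero] at h6
      rw [← hinvl x w, h6, map_zero]
    simpa using M.mul_mem hg hgx
  have hsep' : ∀ t : Finset P, (∀ g ∈ t, g ∈ M) → ∃ s ∈ R, (∀ g ∈ t, Kill g s) ∧ ¬ Kill x s := by
    intro t
    induction t using Finset.induction_on with
    | empty =>
      refine fun _ => ⟨1, R.one_mem, by simp, fun h => hW0 ((Submodule.eq_bot_iff _).2 fun w hw => ?_)⟩
      have h6 : ρ x w = 0 := h w hw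
      rw [← hinvl x w, h6, map_zero]
    | insert g t _ iht =>
      intro ht
      obtain ⟨s, hs, hst, hsx⟩ := iht fun g' hg' => ht g' (Finset.mem_insert_of_mem hg')
      obtain ⟨s', hs', hs'g, hs'x⟩ := hsep g (ht g (Finset.mem_insert_self _ _))
      refine ⟨s' * s, R.mul_mem hs' hs, fun g' hg' w hw => ?_, fun hk => ?_⟩
      · rcases Finset.mem_insert.1 hg' with rfl | hg'
        · rw [hRc s' hs' s hs, Module.End.mul_apply, hs'g w hw, map_zero]
        · rw [Module.End.mul_apply, hst g' hg' w hw, map_zero]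
      · refine hsx fun w hw => ?_
        have hw' : cj x s w ∈ W := hWR _ (hcjR x s hs) w hw
        have h0 : cj x s w = 0 := by
          refine hinjW _ (hcjR x s' hs') (fun h1 => hs'x ((hK1 x s').2 h1)) _ hw' ?_
          show ρ x⁻¹ (s' (ρ x (cj x s w))) = 0
          rw [hcja, ← Module.End.mul_apply s', hk w hw, map_zero]
        rw [← hcja, h0, map_zero]
  haveI : Fintype M := Fintype.ofFinite _
  obtain ⟨s, hs, hsM, hsx⟩ := hsep' (Finset.univ.image (Subtype.val : M → P)) (by simp)
  obtain ⟨U, ⟨hU0, hU1, hUM⟩, hUmin⟩ : ∃ U : Submodule F V,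
      (U ≠ ⊥ ∧ U ≠ ⊤ ∧ ∀ g ∈ M, ∀ u ∈ U, ρ g u ∈ U) ∧
      ∀ U' : Submodule F V, (U' ≠ ⊥ ∧ U' ≠ ⊤ ∧ ∀ g ∈ M, ∀ u ∈ U', ρ g u ∈ U') → U' ≤ U → U ≤ U' := by
    let U0 : Submodule F V := ⨆ g : M, W.map (ρ (g : P))
    have hker : U0 ≤ LinearMap.ker s := iSup_le fun g => by
      rintro _ ⟨w, hw, rfl⟩
      exact hsM g (Finset.mem_image.2 ⟨g, Finset.mem_univ _, rfl⟩) w hw
    have hU0 : U0 ≠ ⊥ ∧ U0 ≠ ⊤ ∧ ∀ g ∈ M, ∀ u ∈ U0, ρ g u ∈ U0 := by
      refine ⟨fun h => hW0 (le_bot_iff.1 ?_), fun h => hsx fun w _ => hker (h ▸ Submodule.mem_top), ?_⟩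
      · intro w hw
        rw [← h]
        exact Submodule.mem_iSup_of_mem (1 : M) ⟨w, hw, hone w⟩
      · intro g hg
        refine fun u hu => (show U0 ≤ U0.comap (ρ g) from iSup_le fun k => ?_) hu
        rintro _ ⟨w, hw, rfl⟩
        exact Submodule.mem_iSup_of_mem (⟨g, hg⟩ * k : M) ⟨w, hw, hmul _ _ _⟩
    obtain ⟨U, hU⟩ := Set.Finite.exists_minimal
      (s := {U : Submodule F V | U ≠ ⊥ ∧ U ≠ ⊤ ∧ ∀ g ∈ M, ∀ u ∈ U, ρ g u ∈ U}) (Set.toFinite _) ⟨U0, hU0⟩
    exact ⟨U, hU.1, fun U' h hle => hU.2 h hle⟩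
  obtain ⟨g0, u0, hu0, hgu0⟩ := hred U hU0 hU1
  have hinjρ : ∀ g, Function.Injective (ρ g) := fun g a b h => by rw [← hinvl g a, h, hinvl]
  have hinvT : ∀ g : P, ∀ m ∈ M, ∀ u ∈ U.map (ρ g), ρ m u ∈ U.map (ρ g) := by
    rintro g m hm _ ⟨u, hu, rfl⟩
    refine ⟨ρ (g⁻¹ * m * g) u, hUM _ (by simpa using hMn.conj_mem m hm g⁻¹) u hu, ?_⟩
    rw [← hmul, ← hmul]; congr 2; group
  have hfr : ∀ g : P, Module.finrank F (U.map (ρ g)) = Module.finrank F U := fun g =>
    (Submodule.equivMapOfInjective (ρ g) (hinjρ g) U).finrank_eq.symm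
  have hdisj : U ⊓ U.map (ρ g0) = ⊥ := by
    by_contra hne
    have hle := hUmin _ ⟨hne, fun h => hU1 (top_le_iff.1 (h.ge.trans inf_le_left)),
      fun m hm u hu => ⟨hUM m hm u hu.1, hinvT g0 m hm u hu.2⟩⟩ inf_le_left
    have heq := Submodule.eq_of_le_of_finrank_eq (hle.trans inf_le_right) (hfr g0).symm
    exact hgu0 (heq ▸ ⟨u0, hu0, rfl⟩)
  have h2d : 2 * Module.finrank F U ≤ n := by
    have h1 := Submodule.finrank_sup_add_finrank_inf_eq U (U.map (ρ g0))
    have h2 := Submodule.finrank_le (U ⊔ U.map (ρ g0))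
    rw [hdisj, finrank_bot, hfr] at h1
    omega
  haveI : Nontrivial U := Submodule.nontrivial_iff_ne_bot.2 hU0
  have hdpos : 0 < Module.finrank F U := Module.finrank_pos
  set d := Module.finrank F U with hd
  have hD : ∀ y ∈ derivedSeries M (bd e d), ρ (y : P) = 1 := by
    intro y hy
    have hall : ∀ g : P, U.map (ρ g) ≤ LinearMap.ker (ρ (y : P) - 1) := by
      intro g
      let σ : M →* Module.End F (U.map (ρ g)) :=
        { toFun := fun m => (ρ (m : P)).restrict (hinvT g m m.2)
          map_one' := LinearMap.ext fun v => Subtype.ext (hone _)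
          map_mul' := fun a b => LinearMap.ext fun v => Subtype.ext (hmul _ _ _) }
      intro v hv
      have := congrArg Subtype.val (LinearMap.congr_fun (MonoidHom.mem_ker.1
        (ih d (by omega) M (hP.to_subgroup M) _ σ (hfr g).le hy)) (⟨v, hv⟩ : U.map (ρ g)))
      rw [LinearMap.mem_ker, LinearMap.sub_apply, Module.End.one_apply, sub_eq_zero]
      exact this
    have htop : (⨆ g : P, U.map (ρ g)) = ⊤ := by
      refine hspan _ (fun h => hU0 (le_bot_iff.1 ?_)) fun g v hv => ?_
      · intro w hw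
        rw [← h]
        exact Submodule.mem_iSup_of_mem (1 : P) ⟨w, hw, hone w⟩
      · refine (show (⨆ g : P, U.map (ρ g)) ≤ (⨆ g : P, U.map (ρ g)).comap (ρ g) from
          iSup_le fun k => ?_) hv
        rintro _ ⟨w, hw, rfl⟩
        exact Submodule.mem_iSup_of_mem (g * k) ⟨w, hw, hmul _ _ _⟩
    have hker : (⊤ : Submodule F V) ≤ LinearMap.ker (ρ (y : P) - 1) := htop ▸ iSup_le hall
    exact LinearMap.ext fun v => by
      have := hker (Submodule.mem_top (x := v))
      rwa [LinearMap.mem_ker, LinearMap.sub_apply, sub_eq_zero] at this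
  have hstep : ∀ j, derivedSeries P (j + 1) ≤ (derivedSeries M j).map M.subtype := by
    intro j
    induction j with
    | zero =>
      rw [derivedSeries_one, derivedSeries_zero, ← MonoidHom.range_eq_map, Subgroup.range_subtype]
      haveI : IsCyclic (P ⧸ M) := isCyclic_of_prime_card (p := p) (by rw [← Subgroup.index_eq_card, hMi])
      rw [← Subgroup.Normal.quotient_commutative_iff_commutator_le]
      exact IsCyclic.isMulCommutative
    | succ j ihj =>
      show ⁅derivedSeries P (j + 1), derivedSeries P (j + 1)⁆ ≤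
        (⁅derivedSeries M j, derivedSeries M j⁆).map M.subtype
      rw [Subgroup.map_commutator]
      exact Subgroup.commutator_mono ihj ihj
  refine le_bot_iff.1 ((derivedSeries_antitone P (bd_double he0 h2d hen)).trans ((hstep _).trans ?_))
  rintro _ ⟨y, hy, rfl⟩
  exact Subgroup.mem_bot.2 (hρ ((hD y hy).trans ρ.map_one.symm))

theorem main (hpq : ¬ p ∣ Fintype.card F) (n : ℕ) :
    ∀ (P : Type u) [Group P] [Finite P], IsPGroup p P →
      ∀ (V : Type v) [AddCommGroup V] [Module F V] [Finite V] (ρ : P →* Module.End F V),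
        Module.finrank F V ≤ n →
          derivedSeries P (bd (orderOf (Fintype.card F : ZMod p)) n) ≤ ρ.ker := by
  induction n using Nat.strong_induction_on with
  | _ n ih =>
    intro P _ _ hP V _ _ _ ρ hn
    let ρ' : P ⧸ ρ.ker →* Module.End F V := QuotientGroup.lift ρ.ker ρ le_rfl
    have hinj : Function.Injective ρ' := (injective_iff_map_eq_one ρ').2 fun y hy => by
      obtain ⟨g, rfl⟩ := QuotientGroup.mk_surjective y
      exact (QuotientGroup.eq_one_iff g).2 hy
    have h := faithful_case hpq (hP.to_quotient ρ.ker) ρ' hinj (Module.finrank F V) rfl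
      (fun d hd => ih d (lt_of_lt_of_le hd hn))
    refine le_trans (derivedSeries_antitone P (bd_mono hn)) fun y hy => ?_
    have h1 := map_derivedSeries_le_derivedSeries (QuotientGroup.mk' ρ.ker) _ ⟨y, hy, rfl⟩
    rw [h, Subgroup.mem_bot] at h1
    exact (QuotientGroup.eq_one_iff y).1 h1

/-- Let F be a field with q elements, p a prime not dividing q, and e the multiplicative order of q modulo p; assume e ≤ n. Then every p-subgroup of GL_n(F) has derived length at most ⌊log₂(n/e)⌋ + 1: that term of its derived series is trivial (n/e is the integer quotient). -/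
theorem result {F : Type*} [Field F] [Fintype F] (q : ℕ) (hF : Fintype.card F = q) (p : ℕ) [Fact p.Prime] (hpq : ¬ p ∣ q) (n e : ℕ) (he : e = orderOf (q : ZMod p)) (hen : e ≤ n) (P : Subgroup (GL (Fin n) F)) (hP : IsPGroup p P) : derivedSeries ↥P (Nat.log 2 (n / e) + 1) = ⊥ := by
  subst hF
  let V := Fin n → F
  let ρ : ↥P →* Module.End F V :=
    ((Matrix.toLinAlgEquiv' (R := F) (n := Fin n)).toMonoidHom.comp (Units.coeHom _)).comp P.subtype
  have hρ : Function.Injective ρ := fun a b h => Subtype.ext (Units.ext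
    ((Matrix.toLinAlgEquiv' (R := F) (n := Fin n)).injective h))
  have h := main (p := p) hpq n ↥P hP V ρ (by simp [V])
  rw [← he, (MonoidHom.ker_eq_bot_iff ρ).2 hρ, le_bot_iff] at h
  unfold bd at h
  rwa [if_neg (Nat.not_lt.2 hen)] at h

end Cfsg.Agent.S4417
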