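import Cfsg.Statements.S4420


set_option autoImplicit false
open Cfsg

namespace Cfsg.Agent.S4420

/-- Structure of groups in which every element outside some proper subgroup has square 1. Let H be a finite group with a proper subgroup A such that every element outside A has square 1. Then H has an abelian normal subgroup B of index 2 such that every element outside B is an involution inverting every element of B; and if H is not an elementary abelian 2-group, B is the only abelian normal subgroup of index 2 with this property. -/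
theorem result {H : Type*} [Group H] [Finite H] (A : Subgroup H) (hA : A ≠ ⊤) (hD : ∀ x : H, x ∉ A → x ^ 2 = 1) :
    ∃ B : Subgroup H, B.Normal ∧ IsMulCommutative ↥B ∧ B.index = 2 ∧
      (∀ x : H, x ∉ B → x ^ 2 = 1 ∧ ∀ b ∈ B, x * b * x⁻¹ = b⁻¹) ∧
      (¬ (IsMulCommutative H ∧ ∀ x : H, x ^ 2 = 1) →
        ∀ B' : Subgroup H, B'.Normal → IsMulCommutative ↥B' → B'.index = 2 →
          (∀ x : H, x ∉ B' → x ^ 2 = 1 ∧ ∀ b ∈ B', x * b * x⁻¹ = b⁻¹) → B' = B) := by
  classical
  have key : ∀ x : H, x ∉ A → ∀ a ∈ A, x * a * x⁻¹ = a⁻¹ := by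
    intro x hx a ha
    have h1 : x * a ∉ A := fun h => hx (by simpa using A.mul_mem h (A.inv_mem ha))
    have h2 := hD x hx
    have h3 := hD _ h1
    rw [pow_two] at h2 h3
    have hxi : x⁻¹ = x := inv_eq_of_mul_eq_one_right h2
    rw [hxi]
    exact eq_inv_of_mul_eq_one_left (by rw [← h3]; simp [mul_assoc])
  obtain ⟨x₀, hx₀⟩ : ∃ x : H, x ∉ A := by
    by_contra hcon
    push_neg at hcon
    exact hA (eq_top_iff.mpr fun x _ => hcon x)
  have hAc : ∀ a ∈ A, ∀ b ∈ A, a * b = b * a := by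
    intro a ha b hb
    have h1 := key x₀ hx₀ _ (A.mul_mem ha hb)
    have h2 : x₀ * (a * b) * x₀⁻¹ = (x₀ * a * x₀⁻¹) * (x₀ * b * x₀⁻¹) := by group
    rw [h2, key x₀ hx₀ a ha, key x₀ hx₀ b hb, ← mul_inv_rev, inv_inj] at h1
    exact h1.symm
  have huniq : ∀ B B' : Subgroup H, IsMulCommutative B' →
      (∀ x : H, x ∉ B → x ^ 2 = 1 ∧ ∀ b ∈ B, x * b * x⁻¹ = b⁻¹) →
      (∀ x : H, x ∉ B' → x ^ 2 = 1) → ¬ B' ≤ B → ∀ h : H, h ^ 2 = 1 := by
    intro B B' hc hB hB' hle h
    obtain ⟨z, hz', hz⟩ := SetLike.not_le_iff_exists.mp hle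
    by_cases h1 : h ∈ B
    · by_cases h2 : h ∈ B'
      · have e := (hB z hz).2 h h1
        have hcomm : z * h = h * z := congrArg Subtype.val (hc.is_comm.comm ⟨z, hz'⟩ ⟨h, h2⟩)
        rw [hcomm, mul_inv_cancel_right] at e
        rw [pow_two]
        exact eq_inv_iff_mul_eq_one.mp e
      · exact hB' h h2
    · exact (hB h h1).1
  by_cases h2 : ∀ x : H, x ^ 2 = 1
  · have hc : ∀ a b : H, a * b = b * a := by
      intro a b
      have hi : ∀ x : H, x⁻¹ = x := fun x => inv_eq_of_mul_eq_one_right (by rw [← pow_two]; exact h2 x)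
      rw [← hi (a * b), mul_inv_rev, hi, hi]
    have h2g : IsPGroup 2 H := fun x => ⟨1, by simpa using h2 x⟩
    haveI : Group.IsNilpotent H := by
      haveI : Fact (Nat.Prime 2) := ⟨Nat.prime_two⟩
      exact h2g.isNilpotent
    obtain ⟨B, hB⟩ : ∃ B : Subgroup H, B.index = 2 := by
      obtain ⟨k, hk⟩ := (haveI : Fact (Nat.Prime 2) := ⟨Nat.prime_two⟩; IsPGroup.iff_card.mp h2g)
      cases k with
      | zero =>
        exfalso
        haveI : Subsingleton H := (Nat.card_eq_one_iff_unique.mp (by simpa using hk)).1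
        exact hx₀ (Subsingleton.elim x₀ 1 ▸ A.one_mem)
      | succ k =>
        haveI : Fact (Nat.Prime 2) := ⟨Nat.prime_two⟩
        obtain ⟨B, hB⟩ := Sylow.exists_subgroup_card_pow_prime 2 (n := k) (hk ▸ pow_dvd_pow 2 k.le_succ)
        refine ⟨B, ?_⟩
        have := B.card_mul_index
        rw [hB, hk, pow_succ] at this
        exact Nat.eq_of_mul_eq_mul_left (by positivity) this
    refine ⟨B, ⟨fun b hb g => by rw [hc g b, mul_inv_cancel_right]; exact hb⟩,
      ⟨⟨fun a b => Subtype.ext (hc _ _)⟩⟩, hB, fun x _ => ⟨h2 x, fun b _ => ?_⟩, fun hn => ?_⟩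
    · rw [hc x b, mul_inv_cancel_right, ← mul_eq_one_iff_eq_inv, ← pow_two]
      exact h2 b
    · exact absurd ⟨⟨⟨hc⟩⟩, h2⟩ hn
  · have hi : A.index = 2 := by
      rw [Subgroup.index_eq_two_iff]
      refine ⟨x₀, fun b => ?_⟩
      by_cases hb : b ∈ A
      · exact Or.inr ⟨hb, fun h => hx₀ (by simpa using A.mul_mem (A.inv_mem hb) h)⟩
      · refine Or.inl ⟨?_, hb⟩
        by_contra hbx
        apply h2
        intro h
        by_cases hh : h ∈ A
        · have e1 := key _ hbx h hh
          have e2 : b * x₀ * h * (b * x₀)⁻¹ = b * (x₀ * h * x₀⁻¹) * b⁻¹ := by group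
          rw [e2, key x₀ hx₀ h hh, key b hb _ (A.inv_mem hh), inv_inv] at e1
          rw [pow_two]
          exact eq_inv_iff_mul_eq_one.mp e1
        · exact hD h hh
    have hn : A.Normal := Subgroup.normal_of_index_eq_two hi
    have hAm : IsMulCommutative A := ⟨⟨fun a b => Subtype.ext (hAc _ a.2 _ b.2)⟩⟩
    refine ⟨A, hn, hAm, hi, fun x hx => ⟨hD x hx, key x hx⟩, fun _ B' _ hc' hi' hB' => ?_⟩
    refine le_antisymm ?_ ?_
    · by_contra hle
      exact h2 (huniq A B' hc' (fun x hx => ⟨hD x hx, key x hx⟩) (fun x hx => (hB' x hx).1) hle)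
    · by_contra hle
      exact h2 (huniq B' A hAm hB' hD hle)

end Cfsg.Agent.S4420
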