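import Cfsg.Statements.S4492
import Cfsg.Agent.Lib.CharDegreesTheory.PPrimeCover
import Cfsg.Agent.Lib.PSolvable.HallHigman
import Cfsg.Agent.Lib.BrauerPairs.Local

set_option autoImplicit false
open Cfsg

namespace Cfsg.Agent.S4492

open CfsgLib CfsgLib.BrauerPairs CfsgLib.CharDegreesTheory MonoidAlgebra

/-- Let G be a finite p-solvable group, N = O_{p'}(G) its largest normal subgroup of order prime to p, and θ an irreducible character of N invariant under conjugation by G; fix a maximal ideal M of the algebraic integers containing p. Then the irreducible characters of G lying over θ (those whose restriction to N contains θ) form a single p-block of G, and the defect groups of that block are exactly the Sylow p-subgroups of G. -/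
theorem result {G : Type*} [Group G] [Fintype G] (p : ℕ) [Fact p.Prime] (M : Ideal Cfsg.AlgInt) (hM : Cfsg.IsPModular p M) (hsolv : Cfsg.IsPSolvable p G) (N : Subgroup G) [hN : N.Normal] [Fintype N] (hNdef : N = Cfsg.pPrimeCore p G) (θ : Cfsg.IrrCharacter N) (hinv : ∀ (g : G) (n : N), (θ : N → ℂ) ⟨g * n * g⁻¹, hN.conj_mem n n.2 g⟩ = (θ : N → ℂ) n) : ∃ B : Set (Cfsg.IrrCharacter G), Cfsg.IsPBlock M B ∧ (∀ χ : Cfsg.IrrCharacter G, χ ∈ B ↔ Cfsg.classInner (fun n : N => (χ : G → ℂ) n) (θ : N → ℂ) ≠ 0) ∧ (∀ P : Sylow p G, Cfsg.IsDefectGroup p M B (P : Subgroup G)) ∧ ∀ D : Subgroup G, Cfsg.IsDefectGroup p M B D → ∃ P : Sylow p G, D = (P : Subgroup G) := by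
  classical
  have : M.IsPrime := Blocks.isPrime_of_isPModular hM
  have hp := Blocks.fact_of_isPModular hM
  have : CharP (Blocks.Res M) p := Blocks.charP_res hM
  have hNp : ¬ p ∣ Nat.card N := by
    subst hNdef
    exact Cores.not_dvd_card_pPrimeCore
  have hbot : pPrimeCore p (G ⧸ N) = ⊥ := by
    subst hNdef
    exact Cores.pPrimeCore_quotient_pPrimeCore p
  set φ := QuotientGroup.mk' N with hφ
  set Qb := pCore p (G ⧸ N) with hQb
  have hQbp : IsPGroup p Qb := Cores.isPGroup_pCore p (G ⧸ N)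
  set K := Qb.comap φ with hK
  have hNK : N ≤ K := fun x hx => by
    show φ x ∈ Qb
    rw [show φ x = 1 from (QuotientGroup.eq_one_iff x).2 hx]
    exact one_mem _
  have hKn : K.Normal := by
    have : Qb.Normal := inferInstance
    exact this.comap φ
  have hreg : ∀ x ∈ K, ¬ p ∣ orderOf x → x ∈ N := by
    intro x hx hr
    have h1 : φ x ∈ Qb := hx
    obtain ⟨m, hm⟩ := hQbp ⟨φ x, h1⟩
    have h2 : (φ x) ^ (p ^ m) = 1 := congrArg Subtype.val hm
    have h3 : (φ x) ^ orderOf x = 1 := by rw [← map_pow, pow_orderOf_eq_one, map_one]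
    have h4 : orderOf (φ x) = 1 := Nat.eq_one_of_dvd_coprimes
      (Nat.Coprime.pow_left m ((Fact.out : p.Prime).coprime_iff_not_dvd.2 hr))
      (orderOf_dvd_of_pow_eq_one h2) (orderOf_dvd_of_pow_eq_one h3)
    exact (QuotientGroup.eq_one_iff x).1 (orderOf_eq_one_iff.1 h4)
  obtain ⟨S0⟩ := (inferInstance : Nonempty (Sylow p K))
  set P := (S0 : Subgroup K).map K.subtype with hP
  have hPK : P ≤ K := Subgroup.map_subtype_le _
  have hPp : IsPGroup p P := S0.2.map _
  have hPmax : ∀ Q : Subgroup G, Q ≤ K → IsPGroup p Q → Nat.card Q ≤ Nat.card P := by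
    intro Q hQK hQ
    obtain ⟨T, hT⟩ := (hQ.comap_subtype (K := K)).exists_le_sylow
    rw [hP, ← Nat.card_congr (Subgroup.equivMapOfInjective _ _ K.subtype_injective).toEquiv,
      show Nat.card (S0 : Subgroup K) = Nat.card (T : Subgroup K) by
        rw [S0.card_eq_multiplicity, T.card_eq_multiplicity],
      ← Nat.card_congr (Subgroup.subgroupOfEquivOfLe hQK).toEquiv]
    exact Subgroup.card_le_of_le hT
  have hCP : Subgroup.centralizer (P : Set G) ≤ K := by
    have hPmap : Qb ≤ P.map φ := by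
      have hle : P.map φ ≤ Qb := (Subgroup.map_mono hPK).trans (Subgroup.map_comap_le φ Qb)
      let ψ : K →* Qb := (φ.comp K.subtype).codRestrict Qb fun x => x.2
      have hψ : Function.Surjective ψ := by
        rintro ⟨y, hy⟩
        obtain ⟨x, rfl⟩ := QuotientGroup.mk'_surjective N y
        exact ⟨⟨x, hy⟩, Subtype.ext rfl⟩
      have hmap : (S0 : Subgroup K).map ψ = ⊤ := by
        have h1 := (S0.mapSurjective hψ).3 (hQbp.to_subgroup ⊤) le_top
        rw [Sylow.coe_mapSurjective] at h1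
        exact h1.symm
      intro y hy
      have : (⟨y, hy⟩ : Qb) ∈ (S0 : Subgroup K).map ψ := hmap ▸ Subgroup.mem_top _
      obtain ⟨x, hx, hxy⟩ := this
      exact ⟨x, ⟨x, hx, rfl⟩, congrArg Subtype.val hxy⟩
    intro x hx
    show φ x ∈ Qb
    refine PSolvable.centralizer_pCore_le (PSolvable.isPSolvable_quotient hsolv N)
      hbot (Subgroup.mem_centralizer_iff.2 fun y hy => ?_)
    obtain ⟨u, hu, rfl⟩ := hPmap hy
    rw [← map_mul, ← map_mul, Subgroup.mem_centralizer_iff.1 hx u hu]
  have hE := isBlockIdem_subIdem_singleton N hM hNp θ hinv hNK hreg hPp hPK hPmax hCP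
  obtain ⟨B, hB, hBE⟩ := exists_isPBlock_of_isBlockIdem hE
  have hbθ := isPBlock_singleton hM hNp θ
  have hfull : ∀ P₁ : Sylow p G, IsDefectGroup p M B (P₁ : Subgroup G) := by
    intro P₁
    obtain ⟨D, hD⟩ := exists_isDefectGroup hM hB
    have hD' := (isDefectGroup_iff hM hB).1 hD
    rw [hBE] at hD'
    obtain ⟨c, -, hc⟩ := hD'.exists_conj_le P₁.2 le_top
      (brau_subIdem_singleton_ne_zero N hM hNp θ P₁.2 fun g _ => hinv g)
    have hcj : cj c⁻¹ (P₁ : Subgroup G) ≤ D := by
      intro u hu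
      rw [mem_cj, inv_inv] at hu
      simpa [mul_assoc] using hc _ hu
    have heq : (P₁ : Subgroup G) = cj c D := by
      refine (P₁.3 (hD'.2.1.map _) ?_).symm
      intro u hu
      rw [mem_cj]
      exact hc u hu
    rw [isDefectGroup_iff hM hB, hBE, heq]
    have h := hD'.conj_cj c
    rwa [cj_of_mem (Subgroup.mem_top c) (H := ⊤), subIdem_singleton_fixed N θ hinv c
      (Subgroup.mem_top c)] at h
  refine ⟨B, hB, fun χ => ?_, hfull, fun D hD => ?_⟩
  · have : Fintype (IrrCharacter N) := Fintype.ofFinite _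
    constructor
    · intro hχ
      have hcov : ∃ χ ∈ B, ∃ η ∈ ({θ} : Set (IrrCharacter N)),
          classInner (fun n : N => (χ : G → ℂ) n) (η : N → ℂ) ≠ 0 := by
        rw [covers_iff N hB hbθ, hBE, hE.mul_self]
        exact hE.ne_zero
      obtain ⟨χ₁, hχ₁, η, hη, h1⟩ := hcov
      obtain ⟨ξ, hξ⟩ := BlockLocal.exists_constituent N χ
      obtain ⟨g, η', hη', rfl⟩ := (BlockLocal.mem_orbitSet N).1
        (BlockLocal.mem_orbitSet_of_constituent N hbθ (Blocks.sameBlock_of_mem hB hχ₁ hχ)
          hη h1 hξ)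
      rw [BlockLocal.classInner_res_conjIrr] at hξ
      rwa [Set.mem_singleton_iff.1 hη'] at hξ
    · intro h
      set B' := blockOf M (χ : G → ℂ) with hB'
      have hB'b : IsPBlock M B' := Blocks.isPBlock_blockOf χ
      have hne := (covers_iff N hB'b hbθ).1 ⟨χ, Blocks.mem_blockOf_self χ, θ, rfl, h⟩
      have heq := (isBlockIdem_redElem_blockCoeff hB'b).eq_of_mul_ne_zero hE hne
      rw [← hBE] at heq
      rw [← redElem_blockCoeff_injective hB'b hB heq]
      exact Blocks.mem_blockOf_self χ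
  · obtain ⟨S⟩ := (inferInstance : Nonempty (Sylow p G))
    obtain ⟨c, -, hc⟩ := ((isDefectGroup_iff hM hB).1 (hfull S)).exists_conj
      ((isDefectGroup_iff hM hB).1 hD)
    refine ⟨S.mapSurjective (f := (MulAut.conj c).toMonoidHom) (MulAut.conj c).surjective, ?_⟩
    exact hc

end Cfsg.Agent.S4492
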