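import Cfsg.Statements.S4517
import Cfsg.Agent.Lib.ZerosCodegree.TwoBlockReal

set_option autoImplicit false
open Cfsg

namespace Cfsg.Agent.S4517

/-- Let G be a finite group, M a maximal ideal of the algebraic integers containing 2, and k a natural number coprime to the order of G with g ^ k = g⁻¹ for every element g of odd order (so that g ↦ g ^ k induces a field automorphism of the character values inverting the roots of unity of odd order). If B is a 2-block of full defect (its defect equals the exponent of 2 in the order of G) that is stable under χ ↦ χ ∘ (· ^ k), then B is the principal 2-block. -/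
theorem result {G : Type*} [Group G] [Finite G] (M : Ideal Cfsg.AlgInt) (hM : Cfsg.IsPModular 2 M) (k : ℕ) (hk : Nat.Coprime k (Nat.card G)) (hk₂ : ∀ g : G, Odd (orderOf g) → g ^ k = g⁻¹) (B : Set (Cfsg.IrrCharacter G)) (hB : Cfsg.IsPBlock M B) (hdef : Cfsg.blockDefect 2 B = (Nat.card G).factorization 2) (hstab : ∀ χ ∈ B, ∃ ψ ∈ B, ∀ g : G, (ψ : G → ℂ) g = (χ : G → ℂ) (g ^ k)) : B = Cfsg.principalBlock M G := by
  classical
  haveI := CfsgLib.Blocks.isPrime_of_isPModular hM
  refine CfsgLib.ZerosCodegree.eq_principalBlock_of_twist_closed hM hk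
    (fun g hg => hk₂ g (Nat.odd_iff.2 (Nat.two_dvd_ne_zero.1 hg))) hB ?_ fun χ hχ => ?_
  · obtain ⟨χ, hχ, hmin⟩ := Nat.sInf_mem ((CfsgLib.Blocks.isPBlock_nonempty hB).image
      (fun χ : Cfsg.IrrCharacter G => (Cfsg.charDegree (χ : G → ℂ)).factorization 2))
    refine ⟨χ, hχ, fun hd => ?_⟩
    have h1 : 0 < (Cfsg.charDegree (χ : G → ℂ)).factorization 2 :=
      Nat.Prime.factorization_pos_of_dvd Nat.prime_two
        (CfsgLib.ZerosCodegree.charDegree_pos χ).ne' hd
    have h2 : 0 < (Nat.card G).factorization 2 := Nat.Prime.factorization_pos_of_dvd Nat.prime_two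
      Nat.card_pos.ne' (hd.trans (CfsgLib.ZerosCodegree.charDegree_dvd_card χ))
    simp only [Cfsg.blockDefect] at hdef
    simp only at hmin
    omega
  · obtain ⟨ψ, hψ, h⟩ := hstab χ hχ
    exact ⟨ψ, hψ, funext h⟩

end Cfsg.Agent.S4517
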