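import Cfsg.Statements.S4519
import Cfsg.Agent.Lib.ZerosCodegree.InvertingTwist

set_option autoImplicit false
open Cfsg

namespace Cfsg.Agent.S4519

/-- Let N be a normal subgroup of odd index in the finite group G, and let k be coprime to the order of G with k ^ (2 ^ e) ≡ 1 modulo the order of G for some e and g ^ k = g⁻¹ for every element g of odd order (so g ↦ g ^ k induces a field automorphism of 2-power order inverting the roots of unity of odd order). If an irreducible character θ of N satisfies θ (n ^ k) = θ n for all n, then there is exactly one irreducible character χ of G with θ a constituent of its restriction to N and χ (g ^ k) = χ g for all g; moreover, if θ is invariant under conjugation by G, that χ restricts to θ. -/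
theorem result {G : Type*} [Group G] [Fintype G] (N : Subgroup G) [hN : N.Normal] [Fintype N] (hidx : Odd N.index) (k e : ℕ) (hk : Nat.Coprime k (Nat.card G)) (hke : k ^ (2 ^ e) ≡ 1 [MOD Nat.card G]) (hk₂ : ∀ g : G, Odd (orderOf g) → g ^ k = g⁻¹) (θ : Cfsg.IrrCharacter N) (hθ : ∀ n : N, (θ : N → ℂ) (n ^ k) = (θ : N → ℂ) n) : ∃ χ : Cfsg.IrrCharacter G, (Cfsg.classInner (fun n : N => (χ : G → ℂ) n) (θ : N → ℂ) ≠ 0 ∧ (∀ g : G, (χ : G → ℂ) (g ^ k) = (χ : G → ℂ) g) ∧ ((∀ g : G, ∀ n : N, (θ : N → ℂ) ⟨g * n * g⁻¹, hN.conj_mem n n.2 g⟩ = (θ : N → ℂ) n) → ∀ n : N, (χ : G → ℂ) n = (θ : N → ℂ) n)) ∧ ∀ χ' : Cfsg.IrrCharacter G, Cfsg.classInner (fun n : N => (χ' : G → ℂ) n) (θ : N → ℂ) ≠ 0 → (∀ g : G, (χ' : G → ℂ) (g ^ k) = (χ' : G → ℂ) g) → χ' = χ := by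
  classical
  haveI : Fintype (G ⧸ N) := Fintype.ofFinite _
  have hinv : ∀ g : G, g ^ k * g ∈ N := by
    intro g
    obtain ⟨s, o, ho2, hso⟩ := Nat.exists_eq_pow_mul_and_not_dvd (orderOf_pos g).ne' 2 (by decide)
    have ho : Odd o := Nat.odd_iff.2 (Nat.two_dvd_ne_zero.1 ho2)
    have hodd : Odd (orderOf (g ^ (2 ^ s))) := by
      refine ho.of_dvd_nat (orderOf_dvd_of_pow_eq_one ?_)
      rw [← pow_mul, ← hso, pow_orderOf_eq_one]
    have hQ : (2 ^ s).Coprime (orderOf (g : G ⧸ N)) := by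
      refine Nat.Coprime.pow_left s (Odd.coprime_two_left ?_)
      refine hidx.of_dvd_nat ?_
      rw [Subgroup.index_eq_card]
      exact orderOf_dvd_natCard _
    obtain ⟨j, hj⟩ := exists_pow_eq_self_of_coprime hQ
    have h := hk₂ _ hodd
    have h' : ((g : G ⧸ N) ^ (2 ^ s)) ^ k = ((g : G ⧸ N) ^ (2 ^ s))⁻¹ := by
      have := congrArg (fun x : G => (x : G ⧸ N)) h
      simpa using this
    rw [← QuotientGroup.eq_one_iff, QuotientGroup.mk_mul, QuotientGroup.mk_pow, ← hj,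
      ← pow_mul, mul_comm j k, pow_mul, h', inv_pow, inv_mul_cancel]
  have hθ' : CfsgLib.ZerosCodegree.powTwist k (θ : N → ℂ) = θ := funext hθ
  obtain ⟨χ, ⟨hc, hf⟩, huniq⟩ :=
    CfsgLib.ZerosCodegree.existsUnique_fixed_over N hidx hk hinv θ hθ' hke
  refine ⟨χ, ⟨hc, congrFun hf, fun hθinv => ?_⟩, fun χ' h1 h2 => huniq χ' ⟨h1, funext h2⟩⟩
  obtain ⟨ψ, hψ, hψk, hψθ⟩ :=
    CfsgLib.ZerosCodegree.exists_fixed_extension N hidx hk hke hinv θ hθ' (fun g => funext (hθinv g))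
  have he : (⟨ψ, hψ⟩ : Cfsg.IrrCharacter G) = χ := huniq _ ⟨by
    rw [show (fun n : N => ψ n) = (θ : N → ℂ) from funext hψθ,
      CfsgLib.CharTheory.classInner_self_of_isIrr θ.2]
    exact one_ne_zero, hψk⟩
  exact he ▸ hψθ

end Cfsg.Agent.S4519
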