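import Cfsg.Statements.S4521
import Cfsg.Agent.Lib.ZerosCodegree.CentralProductBlocks

set_option autoImplicit false
open Cfsg

namespace Cfsg.Agent.S4521

/-- Let the finite group G be generated by subgroups U₁ and U₂ that commute elementwise and whose intersection is a p-group, and let M be a maximal ideal of the algebraic integers containing the prime p. If the irreducible character χ of G has the irreducible constituents ψ₁ on U₁ and ψ₂ on U₂, then χ lies in the principal block of G if and only if ψ₁ and ψ₂ lie in the principal blocks of U₁ and U₂. -/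
theorem result {G : Type*} [Group G] [Fintype G] (p : ℕ) [Fact p.Prime] (M : Ideal Cfsg.AlgInt) (hM : Cfsg.IsPModular p M) (U₁ U₂ : Subgroup G) [Fintype U₁] [Fintype U₂] (hcomm : ∀ u ∈ U₁, ∀ v ∈ U₂, u * v = v * u) (hgen : U₁ ⊔ U₂ = ⊤) (hZ : IsPGroup p ↥(U₁ ⊓ U₂)) (χ : Cfsg.IrrCharacter G) (ψ₁ : Cfsg.IrrCharacter U₁) (ψ₂ : Cfsg.IrrCharacter U₂) (h₁ : Cfsg.classInner (fun u : U₁ => (χ : G → ℂ) u) (ψ₁ : U₁ → ℂ) ≠ 0) (h₂ : Cfsg.classInner (fun u : U₂ => (χ : G → ℂ) u) (ψ₂ : U₂ → ℂ) ≠ 0) : χ ∈ Cfsg.principalBlock M G ↔ (ψ₁ ∈ Cfsg.principalBlock M U₁ ∧ ψ₂ ∈ Cfsg.principalBlock M U₂) := by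
  haveI : M.IsPrime := hM.2.1.isPrime
  have h := CfsgLib.ZerosCodegree.commPair_of_sup hcomm hgen
  refine ⟨fun hχ => ⟨h.constituent_principal h₁ hχ, h.symm.constituent_principal h₂ hχ⟩, fun hψ => ?_⟩
  exact h.mem_principalBlock hM hZ h₁ h₂ hψ.1 hψ.2

end Cfsg.Agent.S4521
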