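import Cfsg.Statements.S4529
-- import your own Cfsg.Agent.* helpers here

import Cfsg.Agent.Lib.QuatBlock.RankThree

set_option autoImplicit false
open Cfsg

namespace Cfsg.Agent.S4529

/-- Let B be a 2-block of the finite group G (relative to a maximal ideal M of the algebraic integers containing 2) whose defect group D is semidihedral (quasi-dihedral) of order 2 ^ n, n ≥ 4. Then the number of irreducible characters in B is 2 ^ (n - 2) + 3 or 2 ^ (n - 2) + 4, its 2-regular rank l is between 1 and 3, with l = 3 forcing 2 ^ (n - 2) + 4 characters and l = 1 forcing 2 ^ (n - 2) + 3; exactly four members have height zero, exactly 2 ^ (n - 2) - 1 have height one, and every other member has height n - 2. -/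
theorem result {G : Type*} [Group G] [Finite G] (M : Ideal Cfsg.AlgInt) (hM : Cfsg.IsPModular 2 M) (B : Set (Cfsg.IrrCharacter G)) (hB : Cfsg.IsPBlock M B) (D : Subgroup G) (hD : Cfsg.IsDefectGroup 2 M B D) (n : ℕ) (hn : 4 ≤ n) (hcard : Nat.card D = 2 ^ n) (hsd : Cfsg.IsQuasiDihedral D) : (Nat.card B = 2 ^ (n - 2) + 3 ∨ Nat.card B = 2 ^ (n - 2) + 4) ∧ 1 ≤ Cfsg.blockRank 2 B ∧ Cfsg.blockRank 2 B ≤ 3 ∧ (Cfsg.blockRank 2 B = 3 → Nat.card B = 2 ^ (n - 2) + 4) ∧ (Cfsg.blockRank 2 B = 1 → Nat.card B = 2 ^ (n - 2) + 3) ∧ Nat.card {χ : Cfsg.IrrCharacter G // χ ∈ B ∧ Cfsg.blockHeight 2 B (χ : G → ℂ) = 0} = 4 ∧ Nat.card {χ : Cfsg.IrrCharacter G // χ ∈ B ∧ Cfsg.blockHeight 2 B (χ : G → ℂ) = 1} = 2 ^ (n - 2) - 1 ∧ ∀ χ ∈ B, Cfsg.blockHeight 2 B (χ : G → ℂ) = 0 ∨ Cfsg.blockHeight 2 B (χ : G → ℂ) = 1 ∨ Cfsg.blockHeight 2 B (χ : G → ℂ) = n - 2 := by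
  classical
  haveI : Fact (2 : ℕ).Prime := ⟨Nat.prime_two⟩
  haveI := Fintype.ofFinite G
  haveI : M.IsMaximal := hM.2.1
  haveI := CfsgLib.Blocks.charP_res hM
  haveI := CfsgLib.Blocks.isAlgClosed_res (M := M)
  haveI := Fintype.ofFinite (IrrCharacter G)
  haveI : ∀ y : G, Fintype (Subgroup.centralizer ({y} : Set G)) := fun y => Fintype.ofFinite _
  obtain ⟨e0, hmax⟩ := CfsgLib.BrauerPairs.exists_isMaxPair_of_isDefectIn
    (CfsgLib.BrauerPairs.isBlockIdem_redElem_blockCoeff (M := M) hB)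
    ((CfsgLib.BrauerPairs.isDefectGroup_iff hM hB).1 hD)
  have hn2 : 2 * 2 ^ (n - 3) = 2 ^ (n - 2) := by
    rw [← pow_succ']; congr 1; omega
  haveI : NeZero (4 * 2 ^ (n - 3)) := ⟨by positivity⟩
  obtain ⟨x, hS⟩ := CfsgLib.QuatBlock.exists_isTame_semidihedral hn hcard hsd
  have h2 : 2 ≤ 2 ^ (n - 3) := Nat.le_self_pow (by omega) 2
  rcases hS.cases with ⟨ht1, -⟩ | ⟨-, -, y, hy, hyo, hy2⟩
  · exfalso
    rw [sub_eq_neg_self] at ht1
    exact hS.two_h_ne_zero ht1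
  obtain ⟨E, hR⟩ := CfsgLib.QuatBlock.exists_isTameReps hM hB hmax hS hy hyo
  obtain ⟨a, hrot⟩ := CfsgLib.QuatBlock.exists_isRotData hM hB hmax hS
  have C : CfsgLib.QuatBlock.Ctx M B D e0 x (2 ^ (n - 3)) _ y E a :=
    ⟨hM, hB, hmax, hS, hR, hrot⟩
  have hyx := hS.sq_outer_mul hy hyo (1 : ZMod (4 * 2 ^ (n - 3)))
  rw [hS.rot_one, hy2, one_mul, mul_one, sub_add_cancel] at hyx
  obtain ⟨hgen, hk, hl, h1, h3⟩ := C.semi_facts h2 hy2 hyx
  obtain ⟨hh0, hall, hh1⟩ := C.height_facts hgen (n := n) hn2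
  rw [hn2] at hk h1 h3
  exact ⟨hk, C.rank_pos, hl, fun e => (h3 e).1, h1, hh0, by rw [hh1 h2, hn2], hall⟩


end Cfsg.Agent.S4529
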