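import Cfsg.Statements.S4530
-- import your own Cfsg.Agent.* helpers here

import Cfsg.Agent.Lib.QuatBlock.RankThree

set_option autoImplicit false
open Cfsg

namespace Cfsg.Agent.S4530

/-- Let B be a 2-block of the finite group G (relative to a maximal ideal M of the algebraic integers containing 2) whose defect group D is generalized quaternion of order 2 ^ n, n ≥ 3. Then its 2-regular rank l is between 1 and 3, the number of irreducible characters in B is l + 2 ^ (n - 2) + 2, exactly four members have height zero, and every other member has height one or height n - 2; when n ≥ 4 exactly 2 ^ (n - 2) - 1 members have height one. -/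
theorem result {G : Type*} [Group G] [Finite G] (M : Ideal Cfsg.AlgInt) (hM : Cfsg.IsPModular 2 M) (B : Set (Cfsg.IrrCharacter G)) (hB : Cfsg.IsPBlock M B) (D : Subgroup G) (hD : Cfsg.IsDefectGroup 2 M B D) (n : ℕ) (hn : 3 ≤ n) (hq : Nonempty (D ≃* QuaternionGroup (2 ^ (n - 2)))) : 1 ≤ Cfsg.blockRank 2 B ∧ Cfsg.blockRank 2 B ≤ 3 ∧ Nat.card B = Cfsg.blockRank 2 B + 2 ^ (n - 2) + 2 ∧ Nat.card {χ : Cfsg.IrrCharacter G // χ ∈ B ∧ Cfsg.blockHeight 2 B (χ : G → ℂ) = 0} = 4 ∧ (∀ χ ∈ B, Cfsg.blockHeight 2 B (χ : G → ℂ) = 0 ∨ Cfsg.blockHeight 2 B (χ : G → ℂ) = 1 ∨ Cfsg.blockHeight 2 B (χ : G → ℂ) = n - 2) ∧ (4 ≤ n → Nat.card {χ : Cfsg.IrrCharacter G // χ ∈ B ∧ Cfsg.blockHeight 2 B (χ : G → ℂ) = 1} = 2 ^ (n - 2) - 1) := by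
  classical
  haveI : Fact (2 : ℕ).Prime := ⟨Nat.prime_two⟩
  haveI := Fintype.ofFinite G
  haveI : M.IsMaximal := hM.2.1
  haveI := CfsgLib.Blocks.charP_res hM
  haveI := CfsgLib.Blocks.isAlgClosed_res (M := M)
  haveI := Fintype.ofFinite (IrrCharacter G)
  haveI : ∀ y : G, Fintype (Subgroup.centralizer ({y} : Set G)) := fun y => Fintype.ofFinite _
  obtain ⟨e0, hmax⟩ := CfsgLib.BrauerPairs.exists_isMaxPair_of_isDefectIn
    (CfsgLib.BrauerPairs.isBlockIdem_redElem_blockCoeff (M := M) hB)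
    ((CfsgLib.BrauerPairs.isDefectGroup_iff hM hB).1 hD)
  have hn2 : 2 * 2 ^ (n - 3) = 2 ^ (n - 2) := by
    rw [← pow_succ']; congr 1; omega
  haveI : NeZero (4 * 2 ^ (n - 3)) := ⟨by positivity⟩
  obtain ⟨σ⟩ := hq
  obtain ⟨x, hS⟩ := CfsgLib.QuatBlock.exists_isTame_quaternion (h := 2 ^ (n - 3)) ⟨_, rfl⟩
    (hn2 ▸ σ)
  obtain ⟨y, hy, hyo⟩ := hS.exists_outer
  obtain ⟨E, hR⟩ := CfsgLib.QuatBlock.exists_isTameReps hM hB hmax hS hy hyo
  obtain ⟨a, hrot⟩ := CfsgLib.QuatBlock.exists_isRotData hM hB hmax hS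
  have C : CfsgLib.QuatBlock.Ctx M B D e0 x (2 ^ (n - 3)) _ y E a :=
    ⟨hM, hB, hmax, hS, hR, hrot⟩
  have hyx := hS.sq_outer_mul hy hyo (1 : ZMod (4 * 2 ^ (n - 3)))
  rw [hS.rot_one, hS.sq_outer_of_neg rfl hy hyo, neg_add_cancel, zero_mul,
    CfsgLib.DihedralBlock.rot_zero, mul_one] at hyx
  obtain ⟨hgen, hk, hl⟩ := C.quat_facts (hS.sq_outer_of_neg rfl hy hyo) hyx
  obtain ⟨hh0, hall, hh1⟩ := C.height_facts hgen (n := n) hn2
  refine ⟨C.rank_pos, hl, by omega, hh0, hall, fun h4 => ?_⟩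
  rw [hh1 (Nat.le_self_pow (by omega) 2), hn2]


end Cfsg.Agent.S4530
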