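import Cfsg.Statements.S4531
-- import your own Cfsg.Agent.* helpers here

import Cfsg.Agent.Lib.QuatBlock.RankThree

set_option autoImplicit false
open Cfsg

namespace Cfsg.Agent.S4531

/-- Let the finite group G have a 2-block B (relative to a maximal ideal M of the algebraic integers containing 2) of 2-regular rank three (three irreducible Brauer characters) whose defect group D is dihedral of order 2 ^ n with n ≥ 3 or semidihedral. Then the centre of G has odd order and G is not solvable. -/
theorem result {G : Type*} [Group G] [Finite G] (M : Ideal Cfsg.AlgInt) (hM : Cfsg.IsPModular 2 M) (B : Set (Cfsg.IrrCharacter G)) (hB : Cfsg.IsPBlock M B) (D : Subgroup G) (hD : Cfsg.IsDefectGroup 2 M B D) (hD' : (∃ n : ℕ, 3 ≤ n ∧ Nonempty (D ≃* DihedralGroup (2 ^ (n - 1)))) ∨ Cfsg.IsQuasiDihedral D) (hl : Cfsg.blockRank 2 B = 3) : Odd (Nat.card (Subgroup.center G)) ∧ ¬ Group.IsSolvable G := by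
  rcases hD' with ⟨n, hn, ⟨σ⟩⟩ | hsd
  · exact CfsgLib.QuatBlock.dihedral_center_odd hM hB hD hn σ hl
  · exact CfsgLib.QuatBlock.semidihedral_center_odd hM hB hD hsd hl


end Cfsg.Agent.S4531
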