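import Cfsg.Statements.S4535
import Cfsg.Agent.Lib.SymChar.AltMain

set_option autoImplicit false
open Cfsg

namespace Cfsg.Agent.S4535

/-- Let B be a p-block of a finite alternating group (relative to a maximal ideal M of the algebraic integers containing p) with a nontrivial defect group D all of whose sections have p-rank at most s. Then the p-regular rank of B is less than p ^ s. -/
theorem result (n : ℕ) (p : ℕ) [Fact p.Prime] (M : Ideal Cfsg.AlgInt) (hM : Cfsg.IsPModular p M) (B : Set (Cfsg.IrrCharacter (alternatingGroup (Fin n)))) (hB : Cfsg.IsPBlock M B) (D : Subgroup (alternatingGroup (Fin n))) (hD : Cfsg.IsDefectGroup p M B D) (hD1 : D ≠ ⊥) (s : ℕ) (hs : Cfsg.SectionalPRankLE p s D) : Cfsg.blockRank p B < p ^ s := by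
  exact CfsgLib.SymChar.blockRank_alt_lt_pow hM hB hD hD1 hs

end Cfsg.Agent.S4535
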