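import Cfsg.Statements.S4538
import Cfsg.Agent.Lib.ClassK.SLBlocks

set_option autoImplicit false
open Cfsg

namespace Cfsg.Agent.S4538

/-- Let F be a finite field of characteristic p and n ≥ 2. Relative to a maximal ideal M of the algebraic integers containing p, the group SL(n, F) has exactly one p-block of defect zero, and every other p-block has full defect (its defect equals the exponent of p in the order of the group, so its defect groups are Sylow p-subgroups). -/
theorem result {F : Type*} [Field F] [Fintype F] (n : ℕ) (hn : 2 ≤ n) (p : ℕ) [Fact p.Prime] [CharP F p] (M : Ideal Cfsg.AlgInt) (hM : Cfsg.IsPModular p M) : Nat.card {B : Set (Cfsg.IrrCharacter (Matrix.SpecialLinearGroup (Fin n) F)) // Cfsg.IsPBlock M B ∧ Cfsg.blockDefect p B = 0} = 1 ∧ ∀ B : Set (Cfsg.IrrCharacter (Matrix.SpecialLinearGroup (Fin n) F)), Cfsg.IsPBlock M B → Cfsg.blockDefect p B = 0 ∨ Cfsg.blockDefect p B = (Nat.card (Matrix.SpecialLinearGroup (Fin n) F)).factorization p := by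
  haveI := CfsgLib.Blocks.isPrime_of_isPModular hM
  exact ⟨CfsgLib.ClassK.SLn.card_defect_zero_blocks hM,
    fun B hB => CfsgLib.ClassK.SLn.blockDefect_cases hM hB⟩

end Cfsg.Agent.S4538
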