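import Cfsg.Statements.S4539
import Cfsg.Agent.Lib.BlockSections.RankTwo
import Cfsg.Agent.Lib.Blocks.Defect

set_option linter.style.haveILetI false

set_option autoImplicit false
open Cfsg

namespace Cfsg.Agent.S4539

/-- Let B be a p-block of the finite group G (relative to a maximal ideal M of the algebraic integers containing p) of defect d with defect group D. Let z be an element of D commuting with every element of D, and let b be a block of the centralizer C of z with defect group D that induces B (a major subsection (z, b)). If b has p-regular rank at most two, then B contains at most p ^ d irreducible characters. -/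
theorem result {G : Type*} [Group G] [Finite G] (p : ℕ) [Fact p.Prime] (M : Ideal Cfsg.AlgInt) (hM : Cfsg.IsPModular p M) (B : Set (Cfsg.IrrCharacter G)) (hB : Cfsg.IsPBlock M B) (D : Subgroup G) (hD : Cfsg.IsDefectGroup p M B D) (z : G) (hzD : z ∈ D) (hzc : ∀ d ∈ D, d * z = z * d) (b : Set (Cfsg.IrrCharacter ↥(Subgroup.centralizer ({z} : Set G)))) (hb : Cfsg.IsInducedBlock M (Subgroup.centralizer ({z} : Set G)) b B) (hbD : Cfsg.IsDefectGroup p M b (D.subgroupOf (Subgroup.centralizer ({z} : Set G)))) (hl : Cfsg.blockRank p b ≤ 2) : Nat.card B ≤ p ^ Cfsg.blockDefect p B := by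
  classical
  haveI := CfsgLib.Blocks.isPrime_of_isPModular hM
  haveI := Fintype.ofFinite G
  have hy : ∃ k : ℕ, orderOf z = p ^ k := by
    obtain ⟨k, hk⟩ := IsPGroup.iff_orderOf.1 (CfsgLib.Blocks.isPGroup_of_isDefectGroup hD) ⟨z, hzD⟩
    exact ⟨k, by rwa [Subgroup.orderOf_mk] at hk⟩
  have hDC : D ≤ Subgroup.centralizer ({z} : Set G) := fun d hd =>
    Subgroup.mem_centralizer_singleton_iff.2 (hzc d hd)
  have hd : Cfsg.blockDefect p b = Cfsg.blockDefect p B := by
    refine Nat.pow_right_injective (Fact.out : p.Prime).two_le ?_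
    show p ^ Cfsg.blockDefect p b = p ^ Cfsg.blockDefect p B
    rw [← CfsgLib.Blocks.card_isDefectGroup hM hB hD, ← CfsgLib.Blocks.card_isDefectGroup hM hb.1 hbD,
      Nat.card_congr (Subgroup.subgroupOfEquivOfLe hDC).toEquiv]
  rcases Nat.lt_or_ge (Cfsg.blockRank p b) 2 with hlt | hge
  · -- rank at most one: every diagonal entry has mean at least one
    have hN := CfsgLib.BlockSections.galCard_pos (orderOf (CfsgLib.BrauerCharacters.cenElem z))
    have h1 : ∀ χ ∈ CfsgLib.BrauerCharacters.blockFinset B, CfsgLib.BlockSections.conjCount z ≤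
        CfsgLib.BlockSections.diagSum z b p χ := fun χ hχ =>
      CfsgLib.BlockSections.conjCount_le_diagSum z b hM hy hb
        (CfsgLib.BlockSections.secX_self_ne_zero_of_major z b hM hy hb hd
          (CfsgLib.BrauerCharacters.mem_blockFinset.1 hχ))
    have h2 := Finset.sum_le_sum h1
    rw [CfsgLib.BlockSections.sum_diagSum z b hM hy hb, Finset.sum_const, nsmul_eq_mul,
      CfsgLib.BrauerCharacters.card_blockFinset] at h2
    have h3 : Nat.card B ≤ p ^ Cfsg.blockDefect p b * Cfsg.blockRank p b := by
      exact_mod_cast le_of_mul_le_mul_right h2 hN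
    rw [← hd]
    exact h3.trans ((Nat.mul_le_mul_left _ (Nat.lt_succ_iff.1 hlt)).trans_eq (mul_one _))
  · exact CfsgLib.BlockSections.card_block_le_of_rank_two z b hM hy hb hd (le_antisymm hl hge)

end Cfsg.Agent.S4539
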