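import Cfsg.Statements.S4540
import Cfsg.Agent.Lib.BlockSections.Major
import Cfsg.Agent.Lib.BlockSections.TwoPower
import Cfsg.Agent.Lib.Blocks.Defect

set_option linter.style.haveILetI false

set_option autoImplicit false
open Cfsg

namespace Cfsg.Agent.S4540

open CfsgLib.CharTheory CfsgLib.Blocks CfsgLib.BrauerCharacters CfsgLib.BlockSections Finset

theorem main {G : Type*} [Group G] [Fintype G] {y : G} [Fintype (Subgroup.centralizer ({y} : Set G))]
    {b : Set (IrrCharacter (Subgroup.centralizer ({y} : Set G)))} {M : Ideal AlgInt} [M.IsPrime]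
    (hM : IsPModular 2 M) {B : Set (IrrCharacter G)} (hy : ∃ k : ℕ, orderOf y = 2 ^ k)
    (hind : IsInducedBlock M (Subgroup.centralizer ({y} : Set G)) b B)
    (hd : blockDefect 2 b = blockDefect 2 B) (hl : blockRank 2 b ≤ 3) :
    let S := (blockFinset B).filter fun φ : IrrCharacter G => blockHeight 2 B (φ : G → ℂ) = 0
    let U := (blockFinset B).filter fun φ : IrrCharacter G => 1 ≤ blockHeight 2 B (φ : G → ℂ)
    3 * S.card + 2 * ∑ χ ∈ U, 2 ^ blockHeight 2 B (χ : G → ℂ) ≤ 3 * 2 ^ blockDefect 2 B := by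
  classical
  intro S U
  haveI : Fact (Nat.Prime 2) := ⟨Nat.prime_two⟩
  have hN := galCard_pos (orderOf (cenElem y))
  have hdisj : ∀ f : IrrCharacter G → ℝ, (∑ χ ∈ S, f χ) + ∑ χ ∈ U, f χ = ∑ χ ∈ blockFinset B, f χ := by
    intro f
    rw [← sum_filter_add_sum_filter_not (blockFinset B) (fun φ : IrrCharacter G => blockHeight 2 B (φ : G → ℂ) = 0)]
    congr 1
    exact sum_congr (filter_congr fun φ _ => Nat.one_le_iff_ne_zero) fun _ _ => rfl
  rw [← hd]
  suffices h : (3 * (S.card : ℝ) + 2 * ∑ χ ∈ U, (2 : ℝ) ^ blockHeight 2 B (χ : G → ℂ)) *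
      conjCount y ≤ (3 * (2 : ℝ) ^ blockDefect 2 b) * conjCount y by
    have := le_of_mul_le_mul_right h hN
    exact_mod_cast this
  by_cases hone : ∃ χ ∈ S, diagSum y b 2 χ ≤ conjCount y
  · obtain ⟨χ, hχ, hle⟩ := hone
    obtain ⟨h1, h2⟩ := mem_filter.1 hχ
    have h3 := sum_pow_height_le (p := 2) y b hM hy hind hd (mem_blockFinset.1 h1) h2
    rw [Nat.cast_ofNat] at h3
    have h4 : 3 * ((∑ φ ∈ blockFinset B, ((2 : ℝ) ^ blockHeight 2 B (φ : G → ℂ)) ^ 2) * conjCount y) ≤
        3 * ((2 : ℝ) ^ blockDefect 2 b * conjCount y) :=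
      mul_le_mul_of_nonneg_left (h3.trans (mul_le_mul_of_nonneg_left hle (by positivity))) (by norm_num)
    refine le_trans ?_ ((le_of_eq (mul_assoc (3 : ℝ) _ _)).trans (h4.trans (le_of_eq (by ring))))
    refine mul_le_mul_of_nonneg_right ?_ hN.le
    rw [← hdisj, mul_add]
    refine add_le_add (le_of_eq ?_) ?_
    · rw [sum_congr rfl (g := fun _ => (1 : ℝ)) (fun φ hφ => by rw [(mem_filter.1 hφ).2]; norm_num),
        sum_const, nsmul_eq_mul, mul_one]
    · rw [mul_sum, mul_sum]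
      refine sum_le_sum fun φ _ => ?_
      have : (1 : ℝ) ≤ (2 : ℝ) ^ blockHeight 2 B (φ : G → ℂ) := one_le_pow₀ (by norm_num)
      nlinarith
  · push Not at hone
    have htot := sum_diagSum (p := 2) y b hM hy hind
    have hbound : ((2 ^ blockDefect 2 b * blockRank 2 b : ℕ) : ℝ) * conjCount y ≤
        3 * (2 : ℝ) ^ blockDefect 2 b * conjCount y := by
      refine mul_le_mul_of_nonneg_right ?_ hN.le
      push_cast
      rw [mul_comm (3 : ℝ)]
      exact mul_le_mul_of_nonneg_left (by exact_mod_cast hl) (by positivity)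
    refine le_trans ?_ hbound
    rw [← htot, ← hdisj, add_mul, mul_assoc, mul_assoc, sum_mul, ← nsmul_eq_mul, ← sum_const, mul_sum, mul_sum]
    refine add_le_add (sum_le_sum fun χ hχ => ?_) (sum_le_sum fun χ hχ => ?_)
    · obtain ⟨h1, h2⟩ := mem_filter.1 hχ
      obtain ⟨z, hzo, hz⟩ := odd_of_height_zero y b hM hy hind (mem_blockFinset.1 h1) h2
      have hlt := hone χ hχ
      rw [hz] at hlt ⊢
      have hz1 : (1 : ℝ) < z := lt_of_mul_lt_mul_left (by rwa [mul_one]) hN.le
      have hz3 : (3 : ℤ) ≤ z := by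
        obtain ⟨u, rfl⟩ := hzo
        have : (1 : ℤ) < 2 * u + 1 := by exact_mod_cast hz1
        omega
      rw [mul_comm (conjCount y)]
      exact mul_le_mul_of_nonneg_right (by exact_mod_cast hz3) hN.le
    · obtain ⟨h1, h2⟩ := mem_filter.1 hχ
      have hχB := mem_blockFinset.1 h1
      obtain ⟨k, hk⟩ := exists_orderOf_cenElem y hy
      obtain ⟨z, hz⟩ := exists_int_galSum hk (isIntegral_secQuot (p := 2) y b hM hy hind hd hχB χ)
      have hlt := galCard_lt_galSum hM (isIntegral_secQuot (p := 2) y b hM hy hind hd hχB χ)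
        (totNonneg_secQuot y b hM hy hind hd χ) (secQuot_self_ne_zero y b hM hy hind hd hχB)
        (memLocalIdeal_secQuot_self y b hM hy hind hd hχB h2)
      rw [hz] at hlt
      have hz1 : (1 : ℝ) < z := lt_of_mul_lt_mul_left (by rwa [mul_one]) hN.le
      have hz2 : (2 : ℤ) ≤ z := by
        have : (1 : ℤ) < z := by exact_mod_cast hz1
        omega
      rw [diagSum_eq_pow_mul y b hM hy hind hd, hz, Nat.cast_ofNat]
      have hp0 : (0 : ℝ) ≤ (2 : ℝ) ^ blockHeight 2 B (χ : G → ℂ) * conjCount y := by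
        have := hN.le
        positivity
      calc (2 : ℝ) * ((2 : ℝ) ^ blockHeight 2 B (χ : G → ℂ) * conjCount y)
          ≤ (z : ℝ) * ((2 : ℝ) ^ blockHeight 2 B (χ : G → ℂ) * conjCount y) :=
            mul_le_mul_of_nonneg_right (by exact_mod_cast hz2) hp0
        _ = _ := by ring

/-- Let B be a 2-block of the finite group G (relative to a maximal ideal M of the algebraic integers containing 2) of defect d with defect group D. Let z be an element of D commuting with every element of D, and let b be a block of the centralizer C of z with defect group D that induces B (a major subsection (z, b)). If b has 2-regular rank at most three, then 3·k(B) ≤ 3·k₀(B) + 2·Σ 2 ^ h(χ), where k(B) is the number of members of B, k₀(B) the number of members of height zero, and the sum runs over the members χ of B of positive height h(χ); this bound is at most 3·2 ^ d, so in particular B contains at most 2 ^ d irreducible characters. -/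
theorem result {G : Type*} [Group G] [Finite G] (M : Ideal Cfsg.AlgInt) (hM : Cfsg.IsPModular 2 M) (B : Set (Cfsg.IrrCharacter G)) (hB : Cfsg.IsPBlock M B) (D : Subgroup G) (hD : Cfsg.IsDefectGroup 2 M B D) (z : G) (hzD : z ∈ D) (hzc : ∀ d ∈ D, d * z = z * d) (b : Set (Cfsg.IrrCharacter ↥(Subgroup.centralizer ({z} : Set G)))) (hb : Cfsg.IsInducedBlock M (Subgroup.centralizer ({z} : Set G)) b B) (hbD : Cfsg.IsDefectGroup 2 M b (D.subgroupOf (Subgroup.centralizer ({z} : Set G)))) (hl : Cfsg.blockRank 2 b ≤ 3) : 3 * Nat.card B ≤ 3 * Nat.card {χ : Cfsg.IrrCharacter G // χ ∈ B ∧ Cfsg.blockHeight 2 B (χ : G → ℂ) = 0} + 2 * (∑ᶠ χ ∈ {χ : Cfsg.IrrCharacter G | χ ∈ B ∧ 1 ≤ Cfsg.blockHeight 2 B (χ : G → ℂ)}, 2 ^ Cfsg.blockHeight 2 B (χ : G → ℂ)) ∧ 3 * Nat.card {χ : Cfsg.IrrCharacter G // χ ∈ B ∧ Cfsg.blockHeight 2 B (χ : G → ℂ) = 0} + 2 * (∑ᶠ χ ∈ {χ : Cfsg.IrrCharacter G | χ ∈ B ∧ 1 ≤ Cfsg.blockHeight 2 B (χ : G → ℂ)}, 2 ^ Cfsg.blockHeight 2 B (χ : G → ℂ)) ≤ 3 * 2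 ^ Cfsg.blockDefect 2 B := by
  classical
  haveI := CfsgLib.Blocks.isPrime_of_isPModular hM
  haveI : Fact (Nat.Prime 2) := ⟨Nat.prime_two⟩
  haveI := Fintype.ofFinite G
  have hy : ∃ k : ℕ, orderOf z = 2 ^ k := by
    obtain ⟨k, hk⟩ := IsPGroup.iff_orderOf.1 (isPGroup_of_isDefectGroup hD) ⟨z, hzD⟩
    exact ⟨k, by rwa [Subgroup.orderOf_mk] at hk⟩
  have hDC : D ≤ Subgroup.centralizer ({z} : Set G) := fun d hd =>
    Subgroup.mem_centralizer_singleton_iff.2 (hzc d hd)
  have hd : blockDefect 2 b = blockDefect 2 B := by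
    refine Nat.pow_right_injective (le_refl 2) ?_
    show 2 ^ blockDefect 2 b = 2 ^ blockDefect 2 B
    rw [← card_isDefectGroup hM hB hD, ← card_isDefectGroup hM hb.1 hbD,
      Nat.card_congr (Subgroup.subgroupOfEquivOfLe hDC).toEquiv]
  have h := main hM hy hb hd hl
  set S := (blockFinset B).filter fun φ : IrrCharacter G => blockHeight 2 B (φ : G → ℂ) = 0
  set U := (blockFinset B).filter fun φ : IrrCharacter G => 1 ≤ blockHeight 2 B (φ : G → ℂ)
  have hS : Nat.card {φ : IrrCharacter G // φ ∈ B ∧ blockHeight 2 B (φ : G → ℂ) = 0} = S.card :=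
    Nat.subtype_card S fun φ => by simp [S]
  have hU : ∑ᶠ χ ∈ {χ : IrrCharacter G | χ ∈ B ∧ 1 ≤ blockHeight 2 B (χ : G → ℂ)},
      2 ^ blockHeight 2 B (χ : G → ℂ) = ∑ χ ∈ U, 2 ^ blockHeight 2 B (χ : G → ℂ) := by
    rw [← finsum_mem_coe_finset]
    exact finsum_mem_congr (Set.ext fun χ => by simp [U]) fun _ _ => rfl
  rw [hS, hU]
  refine ⟨?_, h⟩
  have hk : Nat.card B = S.card + U.card := by
    rw [← card_blockFinset, ← Finset.card_filter_add_card_filter_not (fun φ : IrrCharacter G =>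
      blockHeight 2 B (φ : G → ℂ) = 0) (s := blockFinset B)]
    exact congrArg _ (congrArg Finset.card (filter_congr fun φ _ => Nat.one_le_iff_ne_zero.symm))
  have hge : ∑ _χ ∈ U, 2 ≤ ∑ χ ∈ U, 2 ^ blockHeight 2 B (χ : G → ℂ) := sum_le_sum fun χ hχ =>
    le_trans (by norm_num) (Nat.pow_le_pow_right (by norm_num : 0 < 2) (mem_filter.1 hχ).2)
  rw [sum_const, smul_eq_mul] at hge
  omega

end Cfsg.Agent.S4540
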