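import Cfsg.Statements.S4545
-- import your own Cfsg.Agent.* helpers here
import Cfsg.Agent.Lib.OlssonSmall.Abelian
import Cfsg.Agent.Lib.OlssonSmall.Inverted
import Cfsg.Agent.Lib.BrauerPairs.BridgeDefect

set_option autoImplicit false
open Cfsg

namespace Cfsg.Agent.S4545

/-- Let B be a 2-block of the finite group G (relative to a maximal ideal M of the algebraic integers containing 2) whose defect group D has order at most 32. Then the number of members of B of height zero is at most the index of the commutator subgroup of D in D (Olsson's bound holds for B). -/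
theorem result {G : Type*} [Group G] [Finite G] (M : Ideal Cfsg.AlgInt) (hM : Cfsg.IsPModular 2 M) (B : Set (Cfsg.IrrCharacter G)) (hB : Cfsg.IsPBlock M B) (D : Subgroup G) (hD : Cfsg.IsDefectGroup 2 M B D) (hcard : Nat.card D ≤ 32) : Nat.card {χ : Cfsg.IrrCharacter G // χ ∈ B ∧ Cfsg.blockHeight 2 B (χ : G → ℂ) = 0} ≤ (commutator ↥D).index := by
  classical
  haveI := Fintype.ofFinite G
  haveI : Fact (Nat.Prime 2) := ⟨Nat.prime_two⟩
  haveI : M.IsPrime := CfsgLib.Blocks.isPrime_of_isPModular hM
  haveI : M.IsMaximal := hM.2.1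
  haveI : CharP (CfsgLib.Blocks.Res M) 2 := CfsgLib.Blocks.charP_res hM
  haveI : IsAlgClosed (CfsgLib.Blocks.Res M) := CfsgLib.Blocks.isAlgClosed_res
  have hb := CfsgLib.BrauerPairs.isBlockIdem_redElem_blockCoeff (M := M) hB
  obtain ⟨e0, hmax⟩ := CfsgLib.BrauerPairs.exists_isMaxPair_of_isDefectIn hb
    ((CfsgLib.BrauerPairs.isDefectGroup_iff hM hB).1 hD)
  by_cases hc : IsMulCommutative D
  · have hab : ∀ x ∈ D, ∀ y ∈ D, x * y = y * x := fun x hx y hy =>
      congrArg Subtype.val (hc.is_comm.comm (⟨x, hx⟩ : D) ⟨y, hy⟩)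
    have hcomm : commutator D = ⊥ := by
      rw [commutator_def, eq_bot_iff, Subgroup.commutator_le]
      intro x _ y _
      rw [Subgroup.mem_bot, commutatorElement_eq_one_iff_mul_comm]
      exact hc.is_comm.comm x y
    rw [hcomm, Subgroup.index_bot]
    exact CfsgLib.OlssonSmall.k0_le_card_of_abelian hM hB hmax hab hcard
  rcases CfsgLib.OlssonSmall.small_cases hmax.1.1.1 hcard hc with h | h | h | h | h
  · exact CfsgLib.OlssonSmall.k0_le_of_goodOrder hM hB hmax h
  · exact CfsgLib.OlssonSmall.k0_le_of_derivedTwo hM hB hmax h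
  · exact CfsgLib.OlssonSmall.k0_le_of_rigid hM hB hmax h
  · exact CfsgLib.OlssonSmall.k0_le_of_squarePair hM hB hmax h
  · exact CfsgLib.OlssonSmall.k0_le_of_inverted hM hB hmax h

end Cfsg.Agent.S4545
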