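import Cfsg.Statements.S4549
import Cfsg.Agent.Lib.ZerosCodegree.ResidualBlock

set_option autoImplicit false
open Cfsg

namespace Cfsg.Agent.S4549

/-- Let G be a finite group and M a maximal ideal of the algebraic integers containing 2. Let k be a natural number with g ^ k = g ^ 3 for every 2-element g and g ^ k = g for every element g of odd order (such k exist); an irreducible character χ is unchanged by g ↦ g ^ k exactly when it is fixed by the field automorphism that cubes the 2-power roots of unity and fixes the roots of unity of odd order. Then G has a normal 2-complement if and only if every member χ of the principal 2-block of odd degree with χ (g ^ k) = χ g for all g has degree one. -/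
theorem result {G : Type*} [Group G] [Finite G] (M : Ideal Cfsg.AlgInt) (hM : Cfsg.IsPModular 2 M) (k : ℕ) (hk₁ : ∀ g : G, (∃ j : ℕ, orderOf g = 2 ^ j) → g ^ k = g ^ 3) (hk₂ : ∀ g : G, Odd (orderOf g) → g ^ k = g) : Cfsg.HasNormalPComplement 2 G ↔ ∀ χ ∈ Cfsg.principalBlock M G, Odd (Cfsg.charDegree (χ : G → ℂ)) → (∀ g : G, (χ : G → ℂ) (g ^ k) = (χ : G → ℂ) g) → Cfsg.charDegree (χ : G → ℂ) = 1 := by
  classical
  haveI := CfsgLib.Blocks.isPrime_of_isPModular hM
  haveI : Fintype G := Fintype.ofFinite G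
  have ht : CfsgLib.ZerosCodegree.IsPTwist 2 3 k G :=
    ⟨hk₁, fun g hg => hk₂ g (Nat.odd_iff.2 (Nat.two_dvd_ne_zero.1 hg))⟩
  have hq : 3 ≡ 1 [MOD 2] := by decide
  constructor
  · rintro ⟨P, H, hH, hc⟩ χ hχ hodd -
    haveI := hH
    obtain ⟨j, hj⟩ := P.isPGroup'.exists_card_eq
    have hHodd : ¬ 2 ∣ Nat.card H := CfsgLib.Transfer.not_dvd_card_normalComplement P hc
    obtain ⟨ψ, hψ, hψχ⟩ := CfsgLib.CharTheory.exists_descend χ.2 H fun g hg =>
      CfsgLib.Correspondences.apply_eq_of_mem_principalBlock hM hχ H hHodd hg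
    have hd : Cfsg.charDegree ψ = Cfsg.charDegree (χ : G → ℂ) := by
      unfold Cfsg.charDegree
      rw [hψχ 1]; rfl
    have hdvd := CfsgLib.ZerosCodegree.charDegree_dvd_card (⟨ψ, hψ⟩ : Cfsg.IrrCharacter (G ⧸ H))
    rw [← Subgroup.index_eq_card, hc.symm.index_eq_card, hj] at hdvd
    change Cfsg.charDegree ψ ∣ 2 ^ j at hdvd
    rw [hd] at hdvd
    exact Nat.eq_one_of_dvd_coprimes ((Nat.coprime_two_left.2 hodd).pow_left j) hdvd dvd_rfl
  · intro hlin
    by_contra hcon
    haveI : (Cfsg.pResidual 2 G).Normal := CfsgLib.Transfer.pResidual_normal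
    haveI : Fintype (Cfsg.pResidual 2 G) := Fintype.ofFinite _
    have hev : Even (Nat.card (Cfsg.pResidual 2 G)) := even_iff_two_dvd.2 (by
      by_contra h
      exact hcon (CfsgLib.Transfer.hasNormalPComplement_of_not_dvd h))
    have htN : CfsgLib.ZerosCodegree.IsPTwist 2 3 k (Cfsg.pResidual 2 G) := ht.of_subgroup
    -- the fixed members of odd degree, linear or not
    let L := {θ : Cfsg.IrrCharacter (Cfsg.pResidual 2 G) //
      θ ∈ Cfsg.principalBlock M (Cfsg.pResidual 2 G) ∧ Cfsg.charDegree (θ : ↥(Cfsg.pResidual 2 G) → ℂ) = 1}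
    let T := {θ : Cfsg.IrrCharacter (Cfsg.pResidual 2 G) //
      θ ∈ Cfsg.principalBlock M (Cfsg.pResidual 2 G) ∧ Odd (Cfsg.charDegree (θ : ↥(Cfsg.pResidual 2 G) → ℂ)) ∧
        ∀ n, (θ : ↥(Cfsg.pResidual 2 G) → ℂ) (n ^ k) = (θ : ↥(Cfsg.pResidual 2 G) → ℂ) n}
    let S := {θ : Cfsg.IrrCharacter (Cfsg.pResidual 2 G) //
      θ ∈ Cfsg.principalBlock M (Cfsg.pResidual 2 G) ∧ (Odd (Cfsg.charDegree (θ : ↥(Cfsg.pResidual 2 G) → ℂ)) ∧
        Cfsg.charDegree (θ : ↥(Cfsg.pResidual 2 G) → ℂ) ≠ 1) ∧ ∀ n, (θ : ↥(Cfsg.pResidual 2 G) → ℂ) (n ^ k) = (θ : ↥(Cfsg.pResidual 2 G) → ℂ) n}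
    have hT : Even (Nat.card T) := by
      have h1 := CfsgLib.ZerosCodegree.IsPTwist.card_fixed_principalBlock_modEq htN hq M Odd
      have h2 := CfsgLib.ZerosCodegree.even_card_odd_block hM
        (CfsgLib.ZerosCodegree.isPBlock_principalBlock (G := Cfsg.pResidual 2 G)) hev
      rw [Nat.even_iff] at h2 ⊢
      exact Eq.trans h1 h2
    have hL : Odd (Nat.card L) := CfsgLib.ZerosCodegree.odd_card_linear_principalBlock
      CfsgLib.Transfer.pResidual_pResidual hev
    have hsum : Nat.card T = Nat.card L + Nat.card S := by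
      rw [← Nat.card_sum]
      refine Nat.card_congr
        { toFun := fun θ => if h : Cfsg.charDegree (θ.1 : ↥(Cfsg.pResidual 2 G) → ℂ) = 1 then Sum.inl ⟨θ.1, θ.2.1, h⟩
            else Sum.inr ⟨θ.1, θ.2.1, ⟨θ.2.2.1, h⟩, θ.2.2.2⟩
          invFun := Sum.elim (fun θ => ⟨θ.1, θ.2.1, θ.2.2.symm ▸ odd_one, fun n => ?_⟩)
            (fun θ => ⟨θ.1, θ.2.1, θ.2.2.1.1, θ.2.2.2⟩)
          left_inv := fun θ => by dsimp only; split_ifs <;> rfl
          right_inv := fun θ => by
            rcases θ with θ | θ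
            · simp [θ.2.2]
            · simp [θ.2.2.1.2] }
      obtain ⟨l, hl⟩ := CfsgLib.CharTheory.exists_hom_of_degree_one θ.1.2
        (by rw [CfsgLib.ZerosCodegree.irr_apply_one_eq, θ.2.2, Nat.cast_one])
      simp only [hl]
      rw [htN.hom_pow_eq l (CfsgLib.ZerosCodegree.hom_eq_one_of_pResidual_eq_top
        CfsgLib.Transfer.pResidual_pResidual l) n]
    have hS : Odd (Nat.card S) := by
      rcases Nat.even_or_odd (Nat.card S) with h | h
      · exact absurd hT (Nat.not_even_iff_odd.2 (hsum ▸ hL.add_even h))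
      · exact h
    obtain ⟨P⟩ : Nonempty (Sylow 2 G) := inferInstance
    let act : MulAction (P : Subgroup G) S :=
      { smul := fun x θ => ⟨CfsgLib.BlockLocal.conjIrr (Cfsg.pResidual 2 G) (x : G) θ.1,
          CfsgLib.ZerosCodegree.conjIrr_mem_principalBlock _ _ θ.2.1, by
            have h1 : Cfsg.charDegree (CfsgLib.BlockLocal.conjIrr (Cfsg.pResidual 2 G) (x : G) θ.1 : ↥(Cfsg.pResidual 2 G) → ℂ)
                = Cfsg.charDegree (θ.1 : ↥(Cfsg.pResidual 2 G) → ℂ) := by
              unfold Cfsg.charDegree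
              rw [CfsgLib.BlockLocal.conjIrr_apply, map_one]
            rw [h1]; exact θ.2.2.1, fun n => by
            rw [CfsgLib.BlockLocal.conjIrr_apply, CfsgLib.BlockLocal.conjIrr_apply, map_pow]
            exact θ.2.2.2 _⟩
        one_smul := fun θ => Subtype.ext (CfsgLib.BlockLocal.conjIrr_one _ _)
        mul_smul := fun x y θ => Subtype.ext (CfsgLib.BlockLocal.conjIrr_mul _ _ _ _).symm }
    obtain ⟨θ, hθ⟩ := P.isPGroup'.nonempty_fixed_point_of_prime_not_dvd_card S
      (fun h => Nat.not_even_iff_odd.2 hS (even_iff_two_dvd.2 h))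
    obtain ⟨χ, hχB, hχk, hres⟩ := CfsgLib.ZerosCodegree.exists_fixed_principal_extension hM ht hq P θ.1
      θ.2.1 (fun h => Nat.not_even_iff_odd.2 θ.2.2.1.1 (even_iff_two_dvd.2 h)) (funext θ.2.2.2)
      (fun x hx => congrArg Subtype.val (hθ ⟨x, hx⟩))
    have hdeg : Cfsg.charDegree (χ : G → ℂ) = Cfsg.charDegree (θ.1 : ↥(Cfsg.pResidual 2 G) → ℂ) := by
      unfold Cfsg.charDegree
      rw [← hres 1]; rfl
    have h1 := hlin χ hχB (hdeg ▸ θ.2.2.1.1) (congrFun hχk)
    rw [hdeg] at h1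
    exact θ.2.2.1.2 h1

end Cfsg.Agent.S4549
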