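import Cfsg.Statements.S4550
import Cfsg.Agent.Lib.ZerosCodegree.GaloisTwist

set_option autoImplicit false
open Cfsg

namespace Cfsg.Agent.S4550

/-- Let G be a finite group of even order and M a maximal ideal of the algebraic integers containing 2. Let k be a natural number with g ^ k = g ^ 3 for every 2-element g and g ^ k = g for every element g of odd order (such k exist); an irreducible character χ is unchanged by g ↦ g ^ k exactly when it is fixed by the field automorphism that cubes the 2-power roots of unity and fixes the roots of unity of odd order. Then the number of members χ of the principal 2-block of odd degree with χ (g ^ k) = χ g for all g is even. -/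
theorem result {G : Type*} [Group G] [Finite G] (M : Ideal Cfsg.AlgInt) (hM : Cfsg.IsPModular 2 M) (hev : Even (Nat.card G)) (k : ℕ) (hk₁ : ∀ g : G, (∃ j : ℕ, orderOf g = 2 ^ j) → g ^ k = g ^ 3) (hk₂ : ∀ g : G, Odd (orderOf g) → g ^ k = g) : Even (Nat.card {χ : Cfsg.IrrCharacter G // χ ∈ Cfsg.principalBlock M G ∧ Odd (Cfsg.charDegree (χ : G → ℂ)) ∧ ∀ g : G, (χ : G → ℂ) (g ^ k) = (χ : G → ℂ) g}) := by
  haveI := CfsgLib.Blocks.isPrime_of_isPModular hM
  have h : CfsgLib.ZerosCodegree.IsPTwist 2 3 k G :=
    ⟨hk₁, fun g hg => hk₂ g (Nat.odd_iff.2 (Nat.two_dvd_ne_zero.1 hg))⟩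
  have h1 := CfsgLib.ZerosCodegree.IsPTwist.card_fixed_principalBlock_modEq h (by decide) M Odd
  have h2 := CfsgLib.ZerosCodegree.even_card_odd_block hM
    (CfsgLib.ZerosCodegree.isPBlock_principalBlock (G := G)) hev
  rw [Nat.even_iff] at h2 ⊢
  exact Eq.trans h1 h2

end Cfsg.Agent.S4550
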