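import Cfsg.Statements.S4551
import Cfsg.Agent.Lib.ZerosCodegree.PrincipalRestriction

set_option autoImplicit false
open Cfsg

namespace Cfsg.Agent.S4551

open CfsgLib.ZerosCodegree CfsgLib.CharTheory

theorem setup_of_sup {G : Type*} [Group G] [Finite G] {p : ℕ} [Fact p.Prime] {N : Subgroup G}
    [N.Normal] (hidx : ¬ p ∣ N.index) (P : Sylow p G)
    (hsup : N ⊔ Subgroup.centralizer ((P : Subgroup G) : Set G) = ⊤) :
    CentralSetup p N (P : Subgroup G) where
  idx := P.not_dvd_index
  le := fun x hx => by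
    rw [← QuotientGroup.eq_one_iff]
    refine orderOf_eq_one_iff.1 (Nat.eq_one_of_dvd_coprimes ?_
      ((orderOf_map_dvd (QuotientGroup.mk' N) x).trans
        (Subgroup.orderOf_mk x hx ▸ orderOf_dvd_natCard (⟨x, hx⟩ : (P : Subgroup G))))
      (orderOf_dvd_natCard (x : G ⧸ N)))
    obtain ⟨n, hn⟩ := IsPGroup.iff_card.1 P.isPGroup'
    rw [hn, ← Subgroup.index_eq_card]
    exact Nat.Coprime.pow_left n ((Fact.out : p.Prime).coprime_iff_not_dvd.2 hidx)
  exists_mem := fun g => by
    have hg : g ∈ N ⊔ Subgroup.centralizer ((P : Subgroup G) : Set G) := hsup ▸ Subgroup.mem_top g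
    obtain ⟨n, hn, c, hc, rfl⟩ := Subgroup.mem_sup_of_normal_left.1 hg
    refine ⟨c, hc, ?_⟩
    rw [show (n * c)⁻¹ * c = c⁻¹ * n⁻¹ * (c⁻¹)⁻¹ by group]
    exact (inferInstance : N.Normal).conj_mem _ (N.inv_mem hn) _

/-- Let N be a normal subgroup of the finite group G of index prime to p, P a Sylow p-subgroup of G with G = N·C_G(P), and M a maximal ideal of the algebraic integers containing p. Then restriction to N is a bijection from the principal p-block of G onto the principal p-block of N: every member of the principal block of G restricts to a member of the principal block of N, and every member of the principal block of N is the restriction of exactly one member of the principal block of G. -/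
theorem result {G : Type*} [Group G] [Finite G] (p : ℕ) [Fact p.Prime] (M : Ideal Cfsg.AlgInt) (hM : Cfsg.IsPModular p M) (N : Subgroup G) [N.Normal] (hidx : ¬ p ∣ N.index) (P : Sylow p G) (hsup : N ⊔ Subgroup.centralizer ((P : Subgroup G) : Set G) = ⊤) : (∀ χ ∈ Cfsg.principalBlock M G, ∃ θ ∈ Cfsg.principalBlock M ↥N, ∀ n : N, (χ : G → ℂ) n = (θ : N → ℂ) n) ∧ ∀ θ ∈ Cfsg.principalBlock M ↥N, ∃! χ : Cfsg.IrrCharacter G, χ ∈ Cfsg.principalBlock M G ∧ ∀ n : N, (χ : G → ℂ) n = (θ : N → ℂ) n := by
  classical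
  haveI : Fintype G := Fintype.ofFinite G
  haveI : Fintype N := Fintype.ofFinite N
  haveI : M.IsPrime := hM.2.1.isPrime
  have h := setup_of_sup hidx P hsup
  refine ⟨fun χ hχ => ?_, fun θ hθ => ?_⟩
  · obtain ⟨θ, hθ⟩ := CfsgLib.BlockLocal.exists_constituent N χ
    have hθB := constituent_mem_principalBlock N hχ hθ
    obtain ⟨χ₀, h₀, hres⟩ := exists_principal_extension hM h hθB
    exact ⟨θ, hθB, fun n => by rw [eq_of_mem_principalBlock_over hM h hres h₀ hχ hθ, hres]⟩
  · obtain ⟨χ₀, h₀, hres⟩ := exists_principal_extension hM h hθ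
    refine ⟨χ₀, ⟨h₀, hres⟩, fun χ hχ => eq_of_mem_principalBlock_over hM h hres h₀ hχ.1 ?_⟩
    rw [show (fun n : N => (χ : G → ℂ) n) = (θ : N → ℂ) from funext hχ.2,
      classInner_self_of_isIrr θ.2]
    exact one_ne_zero

end Cfsg.Agent.S4551
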