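import Cfsg.Statements.S4552
import Cfsg.Agent.Lib.ZerosCodegree.GenStarPair
import Cfsg.Agent.Lib.ZerosCodegree.HomocyclicCount
import Cfsg.Agent.Lib.BlockSections.OrderFour
import Cfsg.Agent.Lib.BlockSections.Major
import Cfsg.Agent.Lib.BrauerPairs.NilpotentRank

set_option autoImplicit false
set_option linter.style.haveILetI false
set_option linter.unusedSectionVars false
open Cfsg

noncomputable section

open scoped ComplexConjugate

namespace Cfsg.Agent.S4552

open CfsgLib.Blocks CfsgLib.BrauerPairs CfsgLib.BrauerCharacters CfsgLib.BlockSections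
  CfsgLib.ZerosCodegree CfsgLib.BlockStar MonoidAlgebra

/-- The elements of exponent two of a homocyclic group of rank two. -/
theorem card_sq_eq_one {m : ℕ} (hm : 1 ≤ m) :
    Nat.card {x : Multiplicative (ZMod (2 ^ m) × ZMod (2 ^ m)) // x * x = 1} = 4 := by
  classical
  obtain ⟨j, rfl⟩ : ∃ j, m = j + 1 := ⟨m - 1, by omega⟩
  haveI : NeZero (2 ^ (j + 1)) := ⟨by positivity⟩
  have h2 : Nat.card {z : ZMod (2 ^ (j + 1)) // z + z = 0} = 2 := by
    rw [Nat.card_eq_fintype_card, Fintype.card_subtype]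
    have hlt : 2 ^ j < 2 ^ (j + 1) := Nat.pow_lt_pow_right one_lt_two (Nat.lt_succ_self j)
    have hne : (0 : ZMod (2 ^ (j + 1))) ≠ ((2 ^ j : ℕ) : ZMod (2 ^ (j + 1))) := fun h => by
      have h' := congrArg ZMod.val h
      rw [ZMod.val_zero, ZMod.val_natCast_of_lt hlt] at h'
      exact (Nat.two_pow_pos j).ne h'
    rw [show (Finset.univ.filter fun z : ZMod (2 ^ (j + 1)) => z + z = 0) =
      {0, ((2 ^ j : ℕ) : ZMod (2 ^ (j + 1)))} from ?_, Finset.card_pair hne]
    ext z
    simp only [Finset.mem_filter, Finset.mem_univ, true_and, Finset.mem_insert, Finset.mem_singleton]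
    constructor
    · intro h
      have h' : 2 ^ (j + 1) ∣ 2 * z.val := by
        refine (ZMod.natCast_eq_zero_iff _ _).1 ?_
        rw [Nat.cast_mul, ZMod.natCast_zmod_val, Nat.cast_ofNat, two_mul]
        exact h
      obtain ⟨c, hc⟩ := Nat.dvd_of_mul_dvd_mul_left two_pos
        ((dvd_of_eq (pow_succ' 2 j).symm).trans h')
      have hz : z.val < 2 ^ j * 2 := lt_of_lt_of_eq z.val_lt (pow_succ 2 j)
      rw [hc] at hz
      have hc2 : c < 2 := Nat.lt_of_mul_lt_mul_left hz
      rw [← ZMod.natCast_zmod_val z, hc]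
      interval_cases c <;> simp
    · rintro (rfl | rfl)
      · simp
      · rw [← Nat.cast_add, show 2 ^ j + 2 ^ j = 2 ^ (j + 1) by rw [pow_succ]; ring]
        exact ZMod.natCast_self _
  let e : {x : Multiplicative (ZMod (2 ^ (j + 1)) × ZMod (2 ^ (j + 1))) // x * x = 1} ≃
      {z : ZMod (2 ^ (j + 1)) // z + z = 0} × {z : ZMod (2 ^ (j + 1)) // z + z = 0} :=
    { toFun := fun x => (⟨x.1.toAdd.1, congrArg (fun y => (Multiplicative.toAdd y).1) x.2⟩,
        ⟨x.1.toAdd.2, congrArg (fun y => (Multiplicative.toAdd y).2) x.2⟩)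
      invFun := fun z => ⟨Multiplicative.ofAdd (z.1.1, z.2.1), by
        rw [← ofAdd_add, Prod.mk_add_mk, z.1.2, z.2.2]; rfl⟩
      left_inv := fun x => rfl
      right_inv := fun z => rfl }
  rw [Nat.card_congr e, Nat.card_prod, h2]

section Group

variable {G : Type*} [Group G] {P : Subgroup G}

/-- The elements of exponent two of an abelian subgroup. -/
def omegaOne (P : Subgroup G) (hab : ∀ x ∈ P, ∀ y ∈ P, x * y = y * x) : Subgroup G where
  carrier := {x | x ∈ P ∧ x * x = 1}
  one_mem' := ⟨P.one_mem, one_mul 1⟩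
  mul_mem' := fun {a b} ha hb => ⟨P.mul_mem ha.1 hb.1, by
    calc a * b * (a * b) = a * (b * a) * b := by group
      _ = a * (a * b) * b := by rw [hab b hb.1 a ha.1]
      _ = a * a * (b * b) := by group
      _ = 1 := by rw [ha.2, hb.2, one_mul]⟩
  inv_mem' := fun {a} ha => ⟨P.inv_mem ha.1, by rw [← mul_inv_rev, ha.2, inv_one]⟩

theorem mem_omegaOne {hab : ∀ x ∈ P, ∀ y ∈ P, x * y = y * x} {x : G} :
    x ∈ omegaOne P hab ↔ x ∈ P ∧ x * x = 1 := Iff.rfl

/-- An element centralizing the elements of exponent two has a two power centralizing each element. -/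
theorem exists_pow_centralizes (hab : ∀ x ∈ P, ∀ y ∈ P, x * y = y * x) {s : G}
    (hN : s ∈ Subgroup.normalizer (P : Set G))
    (h1 : ∀ x ∈ P, x * x = 1 → s * x * s⁻¹ = x) :
    ∀ j : ℕ, ∀ x ∈ P, x ^ 2 ^ (j + 1) = 1 → s ^ 2 ^ j * x * (s ^ 2 ^ j)⁻¹ = x := by
  intro j
  induction j with
  | zero => intro x hx h2; rw [pow_zero, pow_one]; exact h1 x hx (by rw [← sq]; simpa using h2)
  | succ j ih =>
    intro x hx h2
    have hr : s ^ 2 ^ j ∈ Subgroup.normalizer (P : Set G) := Subgroup.pow_mem _ hN _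
    set r := s ^ 2 ^ j with hrdef
    have hrxx : r * (x * x) * r⁻¹ = x * x :=
      ih (x * x) (P.mul_mem hx hx) (by rw [← sq, ← pow_mul, ← pow_succ']; exact h2)
    have hrx : r * x * r⁻¹ ∈ P := (Subgroup.mem_normalizer_iff.1 hr x).1 hx
    set d := x⁻¹ * (r * x * r⁻¹) with hd
    have hdP : d ∈ P := P.mul_mem (P.inv_mem hx) hrx
    have hdd : d * d = 1 := by
      calc d * d = x⁻¹ * ((r * x * r⁻¹) * x⁻¹) * (r * x * r⁻¹) := by rw [hd]; group
        _ = x⁻¹ * (x⁻¹ * (r * x * r⁻¹)) * (r * x * r⁻¹) := by rw [hab _ hrx _ (P.inv_mem hx)]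
        _ = (x * x)⁻¹ * (r * (x * x) * r⁻¹) := by group
        _ = 1 := by rw [hrxx, inv_mul_cancel]
    have hsd : s * d * s⁻¹ = d := h1 d hdP hdd
    have hrd : r * d * r⁻¹ = d := by
      have : Commute s d := mul_inv_eq_iff_eq_mul.1 hsd
      rw [mul_inv_eq_iff_eq_mul]
      exact this.pow_left _
    have e : s ^ 2 ^ (j + 1) = r * r := by rw [hrdef, ← pow_add, pow_succ, mul_two]
    rw [e]
    calc r * r * x * (r * r)⁻¹ = r * (r * x * r⁻¹) * r⁻¹ := by group
      _ = r * x * r⁻¹ * (r * d * r⁻¹) := by rw [hd]; group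
      _ = x * d * d := by rw [hrd]; rw [hd]; group
      _ = x := by rw [mul_assoc, hdd, mul_one]

end Group

section Main

variable {G : Type*} [Group G] [Fintype G] {M : Ideal AlgInt} [M.IsPrime]
  [CharP (Res M) 2] [IsAlgClosed (Res M)] {B : Set (IrrCharacter G)}
  {P : Subgroup G} {e : MonoidAlgebra (Res M) G}
  (hM : IsPModular 2 M) (hB : IsPBlock M B)
  (hmax : IsMaxPair 2 (⊤ : Subgroup G) (redElem M (blockCoeff B)) P e)
  (hab : ∀ x ∈ P, ∀ y ∈ P, x * y = y * x) {m : ℕ}
  (hord : Nat.card P = 4 ^ m) (hfour : Nat.card {x : P // x * x = 1} = 4)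

include hM hB hmax hab hord hfour

/-- The inertial quotient acts freely. -/
theorem free_action {t u : G} (ht : t ∈ pairStab (⊤ : Subgroup G) P e) (hu : u ∈ P) (hu1 : u ≠ 1)
    (hfix : t * u * t⁻¹ = u) : t ∈ Subgroup.centralizer (P : Set G) := by
  haveI : Fact (Nat.Prime 2) := ⟨Nat.prime_two⟩
  have htN : t ∈ Subgroup.normalizer (P : Set G) := (mem_pairStab.1 ht).2.1
  set A := omegaOne P hab with hA
  have hA4 : Nat.card A = 4 := by
    rw [← hfour]
    exact Nat.card_congr
      { toFun := fun x => ⟨⟨x.1, x.2.1⟩, Subtype.ext x.2.2⟩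
        invFun := fun x => ⟨x.1.1, x.1.2, congrArg Subtype.val x.2⟩
        left_inv := fun _ => rfl
        right_inv := fun _ => rfl }
  -- an involution fixed by `t`
  obtain ⟨k, hk⟩ := CfsgLib.BlockSections.isPElem_of_mem hM hB hmax hu
  obtain ⟨i, rfl⟩ : ∃ i, k = i + 1 := by
    refine ⟨k - 1, ?_⟩
    rcases Nat.eq_zero_or_pos k with h | h
    · rw [h, pow_zero, orderOf_eq_one_iff] at hk; exact absurd hk hu1
    · omega
  have hw1 : u ^ 2 ^ i ≠ 1 := pow_ne_one_of_lt_orderOf (Nat.two_pow_pos i).ne'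
    (by rw [hk]; exact Nat.pow_lt_pow_right one_lt_two (Nat.lt_succ_self i))
  have hw2 : u ^ 2 ^ i * u ^ 2 ^ i = 1 := by
    rw [← pow_add, ← mul_two, ← pow_succ, ← hk]; exact pow_orderOf_eq_one u
  have hwfix : t * u ^ 2 ^ i * t⁻¹ = u ^ 2 ^ i := by
    rw [← conj_pow, hfix]
  have htA : t ∈ Subgroup.normalizer (A : Set G) := by
    rw [Subgroup.mem_normalizer_iff]
    intro x
    rw [mem_omegaOne, mem_omegaOne, ← Subgroup.mem_normalizer_iff.1 htN x]
    refine and_congr_right fun _ => ?_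
    rw [show t * x * t⁻¹ * (t * x * t⁻¹) = t * (x * x) * t⁻¹ by group]
    constructor
    · intro h; rw [h, mul_one, mul_inv_cancel]
    · intro h
      calc x * x = t⁻¹ * (t * (x * x) * t⁻¹) * t := by group
        _ = 1 := by rw [h, mul_one, inv_mul_cancel]
  have hsA := mul_self_mem_centralizer_of_card_four hA4 htA (u := u ^ 2 ^ i)
    ⟨P.pow_mem hu _, hw2⟩ hw1 hwfix
  -- a two power of `t` centralizes
  have hs : ∀ x ∈ P, x * x = 1 → t * t * x * (t * t)⁻¹ = x := fun x hx hx2 => by
    rw [← Subgroup.mem_centralizer_iff.1 hsA x ⟨hx, hx2⟩, mul_inv_cancel_right]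
  have hpow : t ^ 2 ^ (2 * m + 1) ∈ Subgroup.centralizer (P : Set G) := by
    rw [Subgroup.mem_centralizer_iff]
    intro x hx
    have hx1 : x ^ 2 ^ (2 * m + 1) = 1 := by
      have h0 : x ^ 4 ^ m = 1 := by
        have := pow_card_eq_one' (x := (⟨x, hx⟩ : P))
        rw [hord] at this
        exact congrArg Subtype.val this
      rw [show (2 : ℕ) ^ (2 * m + 1) = 4 ^ m * 2 by rw [pow_succ, pow_mul]; norm_num, pow_mul, h0,
        one_pow]
    have h := exists_pow_centralizes hab (Subgroup.mul_mem _ htN htN) hs (2 * m) x hx hx1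
    rw [show t ^ 2 ^ (2 * m + 1) = (t * t) ^ 2 ^ (2 * m) by rw [← sq, ← pow_mul, ← pow_succ']]
    exact (mul_inv_eq_iff_eq_mul.1 h).symm
  have hdown : ∀ j, t ^ 2 ^ j ∈ Subgroup.centralizer (P : Set G) →
      t ∈ Subgroup.centralizer (P : Set G) := by
    intro j
    induction j with
    | zero => intro h; simpa using h
    | succ j ih =>
      intro h
      refine ih (CfsgLib.BlockSections.mem_centralizer_of_sq hM hB hmax rfl hab
        (Subgroup.pow_mem _ ht _) ?_)
      rwa [← pow_add, ← mul_two, ← pow_succ]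
  exact hdown _ hpow

/-- The blocks below nontrivial elements are nilpotent with the same defect. -/
theorem below_spec {u : G} (hu : u ∈ P) (hu1 : u ≠ 1) :
    blockRank 2 (belowBlock (M := M) 2 P e u) = 1 ∧
      blockDefect 2 (belowBlock (M := M) 2 P e u) = 2 * m := by
  classical
  haveI : Fact (Nat.Prime 2) := ⟨Nat.prime_two⟩
  have hb := isBlockIdem_redElem_blockCoeff (M := M) hB
  obtain ⟨hbl, hle, -⟩ := belowBlock_spec hM hB hmax hu
  have hfree := fun t ht hfix => free_action hM hB hmax hab hord hfour (t := t) ht hu hu1 hfix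
  revert hbl hle
  generalize belowBlock (M := M) 2 P e u = b
  intro hbl hle
  have hPN : P ≤ Subgroup.normalizer (Subgroup.zpowers u : Set G) :=
    le_trans (fun a ha => Subgroup.mem_centralizer_iff.2 fun w hw => hab w (hle.le hw) a ha)
      (Subgroup.centralizer_le_normalizer _)
  obtain ⟨e', hn, hle'⟩ := hle.normalLE_of_le_normalizer hmax.1.1 hle.le le_rfl hPN
  rw [(existsUnique_pairLE hmax.1.1 le_rfl).unique hle' (PairLE.refl _ _ _ _)] at hn
  have hm := hmax.local_of_abelian hb hab hn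
  rw [cenIn_top, centralizer_zpowers_eq] at hm
  generalize hCdef : Subgroup.centralizer ({u} : Set G) = C at b hbl hm
  have hbi : IsBlockIdem C (subIdem M C b) := isBlockIdem_subIdem hbl
  have hPC : P ≤ C := hm.1.1.2.1
  have hDG : IsDefectGroup 2 M b (P.subgroupOf C) := by
    rw [isDefectGroup_sub_iff hM hbl, Subgroup.map_subgroupOf_eq_of_le hPC]
    exact hm.isDefectIn hbi
  have hnil : IsNilpotentBlock 2 M b := by
    refine (isNilpotentBlock_sub_iff hM).2 ⟨hbl, (hm.isNilp_iff_of_abelian hbi hab).2 fun t ht => ?_⟩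
    obtain ⟨htC, htN, hte⟩ := mem_pairStab.1 ht
    refine hfree t (mem_pairStab.2 ⟨Subgroup.mem_top t, htN, hte⟩) ?_
    have htu : t ∈ Subgroup.centralizer ({u} : Set G) := hCdef.symm ▸ htC
    rw [Subgroup.mem_centralizer_singleton_iff.1 htu, mul_inv_cancel_right]
  refine ⟨(blockRank_eq_one_of_nilpotent_abelian hM hnil hDG
    fun x hx y hy => Subtype.ext (hab x hx y hy)).1, ?_⟩
  have h := Cfsg.Agent.S0908.result 2 M hM b hbl _ hDG
  rw [Nat.card_congr (Subgroup.subgroupOfEquivOfLe hPC).toEquiv, hord,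
    show (4 : ℕ) ^ m = 2 ^ (2 * m) by rw [pow_mul]; norm_num] at h
  exact (Nat.pow_right_injective le_rfl h).symm

/-- The contribution at the identity. -/
theorem subContr_one {χ : IrrCharacter G} (hχ : χ ∈ B) :
    subContr 2 P e 1 χ χ = regInner 2 (χ : G → ℂ) (χ : G → ℂ) := by
  classical
  haveI : Fact (Nat.Prime 2) := ⟨Nat.prime_two⟩
  have hb := isBlockIdem_redElem_blockCoeff (M := M) hB
  have hC : Subgroup.centralizer ({(1 : G)} : Set G) = ⊤ :=
    eq_top_iff.2 fun g _ => Subgroup.mem_centralizer_singleton_iff.2 (by simp)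
  have hmem := belowIdem_mem hM hB hmax hab P.one_mem
  have hfix : ∀ x : G, conjA x (belowIdem 2 P e 1) = belowIdem 2 P e 1 := fun x => by
    refine (mem_ctr.1 (mem_blockIdems.1 hmem).mem).2 x ?_
    rw [CfsgLib.BlockStar.cenIn_zpowers, hC]
    trivial
  have hval : ∀ g ∈ secSet 2 (1 : G), val χ g (belowIdem 2 P e 1) = (χ : G → ℂ) g := by
    intro g hg
    have hg1 := ppart_of_mem_secSet hg
    rw [apply_eq_sum_val (M := M) (p := 2) χ g, Finset.sum_eq_single_of_mem (belowIdem 2 P e 1)
      (by rw [hg1]; exact hmem) fun c hc hne => ?_]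
    refine val_eq_zero_of_not_pairOf hM hB hχ (mem_blockIdems.1 hc) fun hp => hne ?_
    rw [hg1] at hp
    obtain ⟨x, hx⟩ := (exists_conj_iff hb hmax).2 hp
    rw [mul_one, mul_inv_cancel] at hx
    have h1 := (existsUnique_pairLE hmax.1.1 hx.le).unique hx
      (belowBlock_spec hM hB hmax P.one_mem).2.1
    have h2 := congrArg (conjA x⁻¹) h1
    rw [conjA_inv_conjA] at h2
    rw [h2]
    exact hfix x⁻¹
  rw [subContr, regInner, classInner, hC, Nat.card_congr Subgroup.topEquiv.toEquiv, secSum,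
    Finset.sum_congr rfl fun g hg => by rw [hval g hg]]
  congr 1
  rw [show secSet 2 (1 : G) = Finset.univ.filter fun g : G => ¬ 2 ∣ orderOf g from ?_,
    Finset.sum_filter]
  · refine Finset.sum_congr rfl fun g _ => ?_
    by_cases h : 2 ∣ orderOf g <;> simp [pRegularPart, IsPRegular, h]
  · ext g
    rw [mem_secSet, Finset.mem_filter]
    constructor
    · rintro ⟨y, h1, -, -, h4⟩
      exact ⟨Finset.mem_univ _, by rwa [← h1, one_mul]⟩
    · intro h
      exact ⟨g, one_mul g, Commute.one_left g, ⟨0, by simp⟩, h.2⟩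

/-- The inertial index is one or three. -/
theorem relIndex_cases :
    (Subgroup.centralizer (P : Set G)).relIndex (pairStab (⊤ : Subgroup G) P e) = 1 ∨
      (Subgroup.centralizer (P : Set G)).relIndex (pairStab (⊤ : Subgroup G) P e) = 3 := by
  classical
  haveI : Fact (Nat.Prime 2) := ⟨Nat.prime_two⟩
  set T := pairStab (⊤ : Subgroup G) P e with hT
  set C := Subgroup.centralizer (P : Set G) with hC
  have hidx := hmax.not_dvd_relIndex (isBlockIdem_redElem_blockCoeff (M := M) hB)
  rw [cenIn_top, ← hC, sup_eq_right.2 (show P ≤ C from fun a ha =>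
    Subgroup.mem_centralizer_iff.2 fun b hb => hab b hb a ha), ← hT] at hidx
  have hA4 : Nat.card {x : P // x * x = 1} = 4 := hfour
  let A := {x : P // x * x = 1}
  obtain ⟨⟨z, hz⟩, hz1⟩ : ∃ z : A, (z : P) ≠ 1 := by
    by_contra h
    push Not at h
    haveI : Subsingleton A := ⟨fun a b => Subtype.ext ((h a).trans (h b).symm)⟩
    have := Finite.card_le_one_iff_subsingleton.2 (inferInstance : Subsingleton A)
    simp only [A] at this
    omega
  have hz1' : (z : G) ≠ 1 := fun h => hz1 (Subtype.ext h)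
  let f : T → {x : A // (x : P) ≠ 1} := fun t =>
    ⟨⟨⟨(t : G) * z * (t : G)⁻¹, (Subgroup.mem_normalizer_iff.1 (mem_pairStab.1 t.2).2.1 _).1 z.2⟩,
      Subtype.ext (by
        have h := congrArg Subtype.val hz
        simp only [Subgroup.coe_mul, Subgroup.coe_one] at h ⊢
        rw [show (t : G) * z * (t : G)⁻¹ * ((t : G) * z * (t : G)⁻¹) =
          (t : G) * ((z : G) * z) * (t : G)⁻¹ by group, h, mul_one, mul_inv_cancel])⟩,
      fun h => hz1' (conj_eq_one_iff.1 (congrArg Subtype.val h))⟩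
  have hker : ∀ s t : T, f s = f t → (s⁻¹ * t : T) ∈ C.subgroupOf T := by
    intro s t h
    have h' : (s : G) * z * (s : G)⁻¹ = (t : G) * z * (t : G)⁻¹ :=
      congrArg (fun x : {x : A // (x : P) ≠ 1} => ((x : A) : P).1) h
    rw [Subgroup.mem_subgroupOf]
    refine free_action hM hB hmax hab hord hfour (t := ((s⁻¹ * t : T) : G)) (s⁻¹ * t).2 z.2 hz1' ?_
    simp only [Subgroup.coe_mul, Subgroup.coe_inv]
    calc (s : G)⁻¹ * t * z * ((s : G)⁻¹ * t)⁻¹ = (s : G)⁻¹ * ((t : G) * z * (t : G)⁻¹) * s := by group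
      _ = z := by rw [← h']; group
  let g : T ⧸ C.subgroupOf T → {x : A // (x : P) ≠ 1} := fun q => f q.out
  have hg : Function.Injective g := fun q r h => by
    rw [← QuotientGroup.out_eq' q, ← QuotientGroup.out_eq' r, QuotientGroup.eq]
    exact hker _ _ h
  have hle : C.relIndex T ≤ 3 := by
    refine (Nat.card_le_card_of_injective g hg).trans ?_
    have h1 : Nat.card {x : A // (x : P) ≠ 1} + 1 = 4 := by
      have he : Finset.univ.filter (fun x : A => (x : P) ≠ 1) =
          Finset.univ.erase (⟨1, one_mul 1⟩ : A) := by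
        ext x
        rw [Finset.mem_filter, Finset.mem_erase]
        exact ⟨fun h => ⟨fun e => h.2 (congrArg Subtype.val e), Finset.mem_univ _⟩,
          fun h => ⟨Finset.mem_univ _, fun e => h.1 (Subtype.ext e)⟩⟩
      rw [Nat.card_eq_fintype_card, Fintype.card_subtype, he,
        Finset.card_erase_add_one (Finset.mem_univ _), Finset.card_univ, ← Nat.card_eq_fintype_card]
      exact hA4
    omega
  have hpos : C.relIndex T ≠ 0 := Subgroup.index_ne_zero_of_finite
  have : C.relIndex T ≠ 2 := fun h => hidx (by rw [h])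
  omega

/-- The case of a trivial inertial quotient. -/
theorem case_one (hD : IsDefectGroup 2 M B P)
    (h : (Subgroup.centralizer (P : Set G)).relIndex (pairStab (⊤ : Subgroup G) P e) = 1) :
    blockRank 2 B = 1 ∧ Nat.card B = 4 ^ m := by
  haveI : Fact (Nat.Prime 2) := ⟨Nat.prime_two⟩
  have hb := isBlockIdem_redElem_blockCoeff (M := M) hB
  have hnil : IsNilpotentBlock 2 M B := (isNilpotentBlock_iff hM).2
    ⟨hB, (hmax.isNilp_iff_of_abelian hb hab).2 fun x hx => Subgroup.relIndex_eq_one.1 h hx⟩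
  obtain ⟨h1, h2, -⟩ := blockRank_eq_one_of_nilpotent_abelian hM hnil hD hab
  exact ⟨h1, h2.trans hord⟩

set_option maxHeartbeats 1000000 in
/-- The case of an inertial quotient of order three. -/
theorem case_three (hD : IsDefectGroup 2 M B P)
    (hE : (Subgroup.centralizer (P : Set G)).relIndex (pairStab (⊤ : Subgroup G) P e) = 3) :
    blockRank 2 B = 3 ∧ 3 * Nat.card B = 4 ^ m + 8 := by
  classical
  haveI : Fact (Nat.Prime 2) := ⟨Nat.prime_two⟩
  have hb := isBlockIdem_redElem_blockCoeff (M := M) hB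
  set T := pairStab (⊤ : Subgroup G) P e with hT
  set C := Subgroup.centralizer (P : Set G) with hC
  have hCT : C ≤ T := CfsgLib.BlockSections.centralizer_le_stab hM hB hmax
  have hfree : ∀ t ∈ T, ∀ u ∈ P, u ≠ 1 → t * u * t⁻¹ = u → t ∈ C := fun t ht u hu hu1 h =>
    free_action hM hB hmax hab hord hfour ht hu hu1 h
  have hcardT : Nat.card T = 3 * Nat.card C := by
    rw [← hE, Subgroup.relIndex, ← Subgroup.index_mul_card (C.subgroupOf T),
      Nat.card_congr (Subgroup.subgroupOfEquivOfLe hCT).toEquiv]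
  have hCpos : 0 < Nat.card C := Nat.card_pos
  -- the generator
  haveI : (C.subgroupOf T).Normal := Subgroup.normal_subgroupOf_of_le_normalizer (fun x hx =>
    normalizer_le_normalizer_cen P (mem_pairStab.1 hx).2.1)
  have hQ : Nat.card (T ⧸ C.subgroupOf T) = 3 := hE
  haveI : Fact (Nat.Prime 3) := ⟨Nat.prime_three⟩
  obtain ⟨q0, hq0⟩ : ∃ q : T ⧸ C.subgroupOf T, q ≠ 1 := by
    by_contra hh
    push Not at hh
    haveI : Subsingleton (T ⧸ C.subgroupOf T) := ⟨fun a b => (hh a).trans (hh b).symm⟩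
    have := Finite.card_le_one_iff_subsingleton.2 (inferInstance : Subsingleton (T ⧸ C.subgroupOf T))
    omega
  obtain ⟨t0, rfl⟩ := QuotientGroup.mk_surjective q0
  have ht0C : (t0 : G) ∉ C := fun hh => hq0 ((QuotientGroup.eq_one_iff _).2 hh)
  have ht03 : (t0 : G) ^ 3 ∈ C := by
    have h3 : (QuotientGroup.mk t0 : T ⧸ C.subgroupOf T) ^ 3 = 1 := by
      rw [← hQ]; exact pow_card_eq_one'
    rw [← QuotientGroup.mk_pow, QuotientGroup.eq_one_iff, Subgroup.mem_subgroupOf] at h3
    simpa using h3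
  have hdecomp : ∀ t ∈ T, ∃ i : ℕ, ((t0 : G) ^ i)⁻¹ * t ∈ C := by
    intro t ht
    obtain ⟨i, hi⟩ := Submonoid.mem_powers_iff _ _ |>.1
      (mem_powers_of_prime_card (g' := (QuotientGroup.mk ⟨t, ht⟩ : T ⧸ C.subgroupOf T)) hQ hq0)
    refine ⟨i, ?_⟩
    rw [← QuotientGroup.mk_pow, QuotientGroup.eq, Subgroup.mem_subgroupOf] at hi
    simpa using hi
  -- the data
  letI : CommGroup P :=
    { (inferInstance : Group P) with mul_comm := fun a b => Subtype.ext (hab a a.2 b b.2) }
  letI : Fintype P := Fintype.ofFinite P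
  letI : Fintype (P →* ℂˣ) := Fintype.ofFinite _
  let σ : P ≃* P :=
    { toFun := fun u => ⟨(t0 : G) * u * (t0 : G)⁻¹,
        (Subgroup.mem_normalizer_iff.1 (mem_pairStab.1 t0.2).2.1 u).1 u.2⟩
      invFun := fun u => ⟨(t0 : G)⁻¹ * u * (t0 : G), by
        refine (Subgroup.mem_normalizer_iff.1 (mem_pairStab.1 t0.2).2.1 _).2 ?_
        rw [show (t0 : G) * ((t0 : G)⁻¹ * u * (t0 : G)) * (t0 : G)⁻¹ = u by group]
        exact u.2⟩
      left_inv := fun u => Subtype.ext (by simp only; group)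
      right_inv := fun u => Subtype.ext (by simp only; group)
      map_mul' := fun u v => Subtype.ext (by simp only [Subgroup.coe_mul]; group) }
  have hσ : ∀ u : P, (σ u : G) = (t0 : G) * u * (t0 : G)⁻¹ := fun _ => rfl
  let I := {χ : IrrCharacter G // χ ∈ B}
  letI : Fintype I := Fintype.ofFinite I
  letI instC : ∀ x : G, Fintype (Subgroup.centralizer ({x} : Set G)) := fun x => Fintype.ofFinite _
  have hsumI : ∀ f : IrrCharacter G → ℂ, ∑ χ ∈ blockFinset B, f χ = ∑ χ : I, f χ.1 := fun f =>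
    Finset.sum_subtype (blockFinset B) (fun x => mem_blockFinset) f
  set N := Fintype.card P with hNdef
  have hN : N = 4 ^ m := by rw [hNdef, ← Nat.card_eq_fintype_card, hord]
  let S : P → I → I → ℂ := fun u χ ψ => subContr 2 P e (u : G) χ.1 ψ.1
  have hfun : ∀ (η : P → ℂ) (u : P), funAt η (u : G) = η u := fun η u => funAt_of_mem η u.2
  have hwgt : ∀ u : P, wgt P e (u : G) = thirdWgt u := by
    intro u
    rw [wgt, ← hT, thirdWgt]
    by_cases hu : u = 1
    · subst hu
      rw [if_pos rfl, show T ⊓ Subgroup.centralizer ({((1 : P) : G)} : Set G) = T from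
        inf_eq_left.2 fun g _ => Subgroup.mem_centralizer_singleton_iff.2 (by simp)]
      exact div_self (Nat.cast_ne_zero.2 Nat.card_pos.ne')
    · have hu1 : (u : G) ≠ 1 := fun h => hu (Subtype.ext h)
      rw [if_neg hu, CfsgLib.BlockSections.stab_inf_eq hM hB hmax (u : G) u.2
        (fun t ht h => hfree t ht u u.2 hu1 h), hcardT, ← hC, Nat.cast_mul, Nat.cast_ofNat]
      have : (Nat.card C : ℂ) ≠ 0 := Nat.cast_ne_zero.2 hCpos.ne'
      field_simp
  have hpair : ∀ (η : P → ℂ) (χ ψ : I), pairF S η χ ψ = starPair 2 e η χ.1 ψ.1 := by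
    intro η χ ψ
    rw [pairF, starPair, Finset.sum_subtype (elemsOf P) (fun x => mem_elemsOf)
      (fun u => wgt P e u * funAt η u * subContr 2 P e u χ.1 ψ.1)]
    exact Finset.sum_congr rfl fun u _ => by rw [hwgt, hfun]
  have hinvT : ∀ η : P → ℂ, (∀ u, η (σ u) = η u) → StabInv e η := by
    intro η hη t ht u hu
    obtain ⟨i, hi⟩ := hdecomp t ht
    have hc : ((t0 : G) ^ i)⁻¹ * t * u * (((t0 : G) ^ i)⁻¹ * t)⁻¹ = u := by
      rw [← Subgroup.mem_centralizer_iff.1 hi u hu, mul_inv_cancel_right]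
    have hconj : t * u * t⁻¹ = (t0 : G) ^ i * u * ((t0 : G) ^ i)⁻¹ := by
      conv_rhs => rw [← hc]
      group
    rw [hconj]
    clear hi hc hconj
    induction i generalizing u with
    | zero => simp
    | succ i ih =>
      have hu' := (σ ⟨u, hu⟩).2
      rw [show (t0 : G) ^ (i + 1) * u * ((t0 : G) ^ (i + 1))⁻¹ =
        (t0 : G) ^ i * (σ ⟨u, hu⟩ : G) * ((t0 : G) ^ i)⁻¹ by rw [hσ, pow_succ]; group, ih _ hu',
        hfun η (σ ⟨u, hu⟩), hη, funAt_of_mem η hu]
  have hyP : ∀ u : P, ∃ k : ℕ, orderOf (u : G) = 2 ^ k := fun u =>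
    CfsgLib.BlockSections.isPElem_of_mem hM hB hmax u.2
  have hdB : blockDefect 2 B = 2 * m := by
    have h := Cfsg.Agent.S0908.result 2 M hM B hB _ hD
    rw [hord, show (4 : ℕ) ^ m = 2 ^ (2 * m) by rw [pow_mul]; norm_num] at h
    exact (Nat.pow_right_injective le_rfl h).symm
  have hNpow : ((N : ℕ) : ℂ) = (2 : ℂ) ^ (2 * m) := by rw [hN, pow_mul]; push_cast; norm_num
  have hN0 : (0 : ℝ) < N := Nat.cast_pos.2 Fintype.card_pos
  have hX : ∀ (u : P) (χ : I), u ≠ 1 →
      (secX (u : G) (belowBlock (M := M) 2 P e u) 2 χ.1 χ.1 : ℂ) = (N : ℂ) * S u χ χ := by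
    intro u χ hu
    have hu1 : (u : G) ≠ 1 := fun h => hu (Subtype.ext h)
    rw [coe_secX, (below_spec hM hB hmax hab hord hfour u.2 hu1).2,
      show (((2 : ℕ) : ℂ)) = 2 from Nat.cast_ofNat, ← hNpow]
    exact congrArg ((N : ℂ) * ·) (subContr_eq_contrib hM hB hmax hab u.2 χ.1 χ.1).symm
  have hS1 : ∀ χ : I, (N : ℂ) * S 1 χ χ = (regEntry 2 B χ.1 χ.1 : ℂ) := by
    intro χ
    rw [coe_regEntry (p := 2) χ.2, hdB, show (((2 : ℕ) : ℂ)) = 2 from Nat.cast_ofNat, ← hNpow]
    exact congrArg ((N : ℂ) * ·) (subContr_one hM hB hmax hab hord hfour χ.2)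
  have hw := weakOrth (p := 2) hM hB
  -- the hypotheses of the count
  have D : CountData σ S M :=
    { cube := fun u => by
        apply Subtype.ext
        rw [hσ, hσ, hσ]
        calc (t0 : G) * ((t0 : G) * ((t0 : G) * u * (t0 : G)⁻¹) * (t0 : G)⁻¹) * (t0 : G)⁻¹ =
            (t0 : G) ^ 3 * u * ((t0 : G) ^ 3)⁻¹ := by simp only [pow_three]; group
          _ = u := by rw [← Subgroup.mem_centralizer_iff.1 ht03 u u.2, mul_inv_cancel_right]
      free := fun u hu => by
        by_contra hu1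
        exact ht0C (hfree _ t0.2 u u.2 (fun h => hu1 (Subtype.ext h)) (congrArg Subtype.val hu))
      card_two := by
        obtain ⟨φ⟩ := CommGroup.monoidHom_mulEquiv_of_hasEnoughRootsOfUnity P ℂ
        rw [← hfour]
        refine Nat.card_congr (φ.toEquiv.subtypeEquiv fun l => ?_)
        show l ^ 2 = 1 ↔ φ l * φ l = 1
        erw [← map_mul, φ.map_eq_one_iff]
        exact iff_of_eq (congrArg (· = 1) (pow_two l))
      inv := fun u χ ψ => subContr_stab hM hB hmax hab t0.2 u.2 χ.1 ψ.1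
      conj_eq := fun u χ ψ => conj_subContr hM hB hmax hab (u : G) χ.1 ψ.1
      int := fun η hη hinv χ ψ => by
        rw [hpair]; exact exists_int_starPair hM hB hmax hab hη (hinvT η hinv) χ.1 ψ.1
      mul := fun η η' hη hinv hinv' χ φ => by
        simp only [hpair]
        rw [← hsumI fun ψ => starPair 2 e η χ.1 ψ * conj (starPair 2 e η' φ.1 ψ)]
        exact sum_starPair_mul hM hB hmax hab hη (hinvT η hinv) (hinvT η' hinv') χ.1 φ.1
      one := fun χ => by rw [hpair, starPair_one hM hB hmax hab χ.2, if_pos rfl]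
      trace := fun u hu => by
        haveI := Fintype.ofFinite (IrrCharacter G)
        have hu1 : (u : G) ≠ 1 := fun h => hu (Subtype.ext h)
        obtain ⟨hbl, -, hind⟩ := belowBlock_spec hM hB hmax u.2
        rw [← hsumI fun χ => subContr 2 P e (u : G) χ χ,
          Finset.sum_congr rfl fun χ _ => subContr_eq_contrib hM hB hmax hab u.2 χ χ,
          Finset.sum_subset (Finset.subset_univ _) fun χ _ hχ =>
            contrib_eq_zero_of_notMem (u : G) hM (hyP u) hind (by simpa using hχ) χ,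
          sum_contrib_self (u : G) hM (hyP u) hbl,
          (below_spec hM hB hmax hab hord hfour u.2 hu1).1, Nat.cast_one]
      pos := fun u hu χ => by
        have hu1 : (u : G) ≠ 1 := fun h => hu (Subtype.ext h)
        obtain ⟨hbl, -, hind⟩ := belowBlock_spec hM hB hmax u.2
        have hd := (below_spec hM hB hmax hab hord hfour u.2 hu1).2.trans hdB.symm
        obtain ⟨r, hr, he⟩ := totNonneg_secX (u : G) _ hM (hyP u) hind χ.1 1
        rw [AlgEquiv.one_apply] at he
        have hne : r ≠ 0 := fun h0 => secX_self_ne_zero_of_major (u : G) _ hM (hyP u) hind hd χ.2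
          (Subtype.ext (by rw [he, h0, Complex.ofReal_zero]; rfl))
        refine ⟨r / N, div_pos (lt_of_le_of_ne hr hne.symm) hN0, ?_⟩
        have h := hX u χ hu
        rw [he] at h
        rw [Complex.ofReal_div, h, Complex.ofReal_natCast,
          mul_div_cancel_left₀ _ (Nat.cast_ne_zero.2 Fintype.card_ne_zero)]
      pos_one := fun χ => by
        refine ⟨(regEntry 2 B χ.1 χ.1 : ℝ) / N,
          div_pos (by exact_mod_cast regEntry_self_pos hw hM hB χ.2) hN0, ?_⟩
        rw [Complex.ofReal_div, Complex.ofReal_intCast, ← hS1, Complex.ofReal_natCast,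
          mul_div_cancel_left₀ _ (Nat.cast_ne_zero.2 Fintype.card_ne_zero)]
      integral := fun u hu χ => by
        rw [← hX u χ hu]
        exact isIntegral_secX (u : G) _ χ.1 χ.1
      height := fun χ => by
        by_cases h0 : blockHeight 2 B (χ.1 : G → ℂ) = 0
        · left
          refine ⟨regEntry 2 B χ.1 χ.1, ?_, hS1 χ⟩
          have h := not_pow_succ_height_dvd hw hM hB χ.2 χ.2 h0
          rw [h0, zero_add, pow_one] at h
          push_cast at h
          omega
        · right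
          intro u hu
          have hu1 : (u : G) ≠ 1 := fun h => hu (Subtype.ext h)
          obtain ⟨hbl, -, hind⟩ := belowBlock_spec hM hB hmax u.2
          have hd := (below_spec hM hB hmax hab hord hfour u.2 hu1).2.trans hdB.symm
          obtain ⟨h', hh'⟩ : ∃ h', blockHeight 2 B (χ.1 : G → ℂ) = h' + 1 := ⟨_, (Nat.succ_pred_eq_of_pos (Nat.pos_of_ne_zero h0)).symm⟩
          refine ⟨(2 : ℂ) ^ h' * (secQuot (u : G) (belowBlock (M := M) 2 P e u) 2 B χ.1 χ.1 : ℂ),
            ?_, ?_, ?_⟩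
          · exact (IsIntegral.pow (show IsIntegral ℤ (2 : ℂ) from by exact_mod_cast (isIntegral_natCast 2 : IsIntegral ℤ ((2 : ℕ) : ℂ))) h').mul
              (isIntegral_secQuot (u : G) _ hM (hyP u) hind hd χ.2 χ.1)
          · refine memLocalIdeal_mul_left ?_
              (memLocalIdeal_secQuot_self (u : G) _ hM (hyP u) hind hd χ.2 (Nat.pos_of_ne_zero h0))
            exact memLocalRing_of_isIntegral
              (IsIntegral.pow (show IsIntegral ℤ (2 : ℂ) from by exact_mod_cast (isIntegral_natCast 2 : IsIntegral ℤ ((2 : ℕ) : ℂ))) h')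
          · rw [← hX u χ hu, ← coe_secQuot_mul (B := B) (u : G) (belowBlock (M := M) 2 P e u) χ.1 χ.1, hh']
            push_cast
            ring }
  -- the number of characters
  have hl1 : 1 ≤ blockRank 2 B := blockRank_pos (p := 2) (isPBlock_nonempty hB)
  have hIcard : Fintype.card I = Nat.card B := (Nat.card_eq_fintype_card).symm
  have hkl : Fintype.card I * 3 + 1 = 3 * blockRank 2 B + N := by
    have h := card_block_mul_card_stab hM hB hmax hab
    set U := Finset.univ.filter (fun u : G => u ∈ P ∧ u ≠ 1) with hU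
    have hUc : U.card + 1 = N := by
      rw [hNdef, Fintype.card_subtype,
        show U = (Finset.univ.filter fun u : G => u ∈ P).erase 1 by ext u; simp [U, and_comm],
        Finset.card_erase_add_one (by simp [P.one_mem])]
    rw [← hT, Finset.sum_congr rfl (g := fun _ => Nat.card C) fun u hu => by
      obtain ⟨huP, hu1⟩ := (Finset.mem_filter.1 hu).2
      rw [CfsgLib.BlockSections.stab_inf_eq hM hB hmax u huP fun t ht => hfree t ht u huP hu1,
        (below_spec hM hB hmax hab hord hfour huP hu1).1, mul_one],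
      Finset.sum_const, smul_eq_mul, hcardT, ← mul_assoc, ← mul_assoc, ← add_mul] at h
    have := Nat.eq_of_mul_eq_mul_right hCpos h
    omega
  obtain ⟨h1, h2⟩ := card_of_countData hM D hl1 hkl
  exact ⟨h1, by rw [← hIcard, h2, ← hN]⟩

end Main

/-- Let B be a 2-block of the finite group G (relative to a maximal ideal M of the algebraic integers containing 2) whose defect group D is the direct product of two cyclic groups of the same order 2 ^ m, m ≥ 2. Then either B has 2-regular rank one and exactly 4 ^ m irreducible characters, or B has 2-regular rank three and exactly (4 ^ m + 8) / 3 irreducible characters. -/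
theorem result {G : Type*} [Group G] [Finite G] (M : Ideal Cfsg.AlgInt) (hM : Cfsg.IsPModular 2 M) (B : Set (Cfsg.IrrCharacter G)) (hB : Cfsg.IsPBlock M B) (D : Subgroup G) (hD : Cfsg.IsDefectGroup 2 M B D) (m : ℕ) (hm : 2 ≤ m) (hiso : Nonempty (D ≃* Multiplicative (ZMod (2 ^ m) × ZMod (2 ^ m)))) : (Cfsg.blockRank 2 B = 1 ∧ Nat.card B = 4 ^ m) ∨ (Cfsg.blockRank 2 B = 3 ∧ 3 * Nat.card B = 4 ^ m + 8) := by
  classical
  haveI : Fact (Nat.Prime 2) := ⟨Nat.prime_two⟩
  haveI := CfsgLib.Blocks.isPrime_of_isPModular hM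
  haveI : M.IsMaximal := hM.2.1
  haveI : CharP (Res M) 2 := charP_res hM
  haveI : IsAlgClosed (Res M) := isAlgClosed_res
  haveI := Fintype.ofFinite G
  obtain ⟨φ⟩ := hiso
  have hb := isBlockIdem_redElem_blockCoeff (M := M) hB
  obtain ⟨e, hmax⟩ := exists_isMaxPair_of_isDefectIn hb ((isDefectGroup_iff hM hB).1 hD)
  have hab : ∀ x ∈ D, ∀ y ∈ D, x * y = y * x := fun x hx y hy => by
    have := φ.injective (show φ (⟨x, hx⟩ * ⟨y, hy⟩) = φ (⟨y, hy⟩ * ⟨x, hx⟩) by
      rw [map_mul, map_mul, mul_comm])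
    exact congrArg Subtype.val this
  have hord : Nat.card D = 4 ^ m := by
    rw [Nat.card_congr φ.toEquiv, Nat.card_congr Multiplicative.toAdd, Nat.card_prod, Nat.card_zmod,
      ← mul_pow]
    norm_num
  have hfour : Nat.card {x : D // x * x = 1} = 4 := by
    rw [← card_sq_eq_one (show 1 ≤ m by omega)]
    exact Nat.card_congr (φ.toEquiv.subtypeEquiv fun x => by
      show x * x = 1 ↔ φ x * φ x = 1
      rw [← map_mul, φ.map_eq_one_iff])
  rcases relIndex_cases hM hB hmax hab hord hfour with h | h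
  · exact Or.inl (case_one hM hB hmax hab hord hfour hD h)
  · exact Or.inr (case_three hM hB hmax hab hord hfour hD h)

end Cfsg.Agent.S4552
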