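import Cfsg.Statements.S4553
import Cfsg.Agent.Lib.ZerosCodegree.ResidualRestriction
import Mathlib.GroupTheory.SpecificGroups.Cyclic
import Mathlib.RingTheory.RootsOfUnity.Complex

set_option autoImplicit false
open Cfsg

namespace Cfsg.Agent.S4553

/-- A nontrivial cyclic `p`-group quotient has exactly `p` linear characters of order dividing `p`. -/
theorem card_hom_pow_eq_one {G : Type*} [Group G] [Finite G] (p : ℕ) [Fact p.Prime] (N : Subgroup G)
    [N.Normal] (hcyc : IsCyclic (G ⧸ N)) {a : ℕ} (hidx : N.index = p ^ a) (hnt : N ≠ ⊤) :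
    Nat.card {l : G →* ℂˣ // (∀ n : N, l n = 1) ∧ ∀ g : G, l g ^ p = 1} = p := by
  have hp : p.Prime := Fact.out
  obtain ⟨q, hq⟩ := hcyc.exists_generator
  obtain ⟨g₀, rfl⟩ := QuotientGroup.mk_surjective q
  have hord : p ∣ orderOf (g₀ : G ⧸ N) := by
    rw [orderOf_eq_card_of_forall_mem_zpowers hq, ← Subgroup.index_eq_card, hidx]
    refine dvd_pow_self p fun ha => hnt (Subgroup.index_eq_one.1 ?_)
    rw [hidx, ha, pow_zero]
  refine Eq.trans (Nat.card_congr ?_) (Complex.card_rootsOfUnity p)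
  refine Equiv.ofBijective (fun l => ⟨l.1 g₀, (mem_rootsOfUnity p _).2 (l.2.2 g₀)⟩) ⟨?_, ?_⟩
  · intro l l' h
    have h0 : l.1 g₀ = l'.1 g₀ := congrArg Subtype.val h
    apply Subtype.ext
    ext g
    obtain ⟨i, hi⟩ := Subgroup.mem_zpowers_iff.1 (hq (g : G ⧸ N))
    rw [← QuotientGroup.mk_zpow, QuotientGroup.eq] at hi
    rw [← mul_inv_cancel_left (g₀ ^ i) g, map_mul l.1 (g₀ ^ i), map_mul l'.1 (g₀ ^ i), map_zpow, map_zpow, h0,
      l.2.1 ⟨_, hi⟩, l'.2.1 ⟨_, hi⟩]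
  · rintro ⟨z, hz⟩
    have hdvd : orderOf z ∣ orderOf (g₀ : G ⧸ N) :=
      (orderOf_dvd_of_pow_eq_one ((mem_rootsOfUnity p z).1 hz)).trans hord
    refine ⟨⟨(monoidHomOfForallMemZpowers hq hdvd).comp (QuotientGroup.mk' N), fun n => ?_,
      fun g => ?_⟩, Subtype.ext ?_⟩
    · show monoidHomOfForallMemZpowers hq hdvd (QuotientGroup.mk' N (n : G)) = 1
      rw [show QuotientGroup.mk' N (n : G) = 1 from (QuotientGroup.eq_one_iff _).2 n.2, map_one]
    · obtain ⟨i, hi⟩ := Subgroup.mem_zpowers_iff.1 (hq (g : G ⧸ N))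
      show (monoidHomOfForallMemZpowers hq hdvd (g : G ⧸ N)) ^ p = 1
      rw [← hi, map_zpow, monoidHomOfForallMemZpowers_apply_gen, ← zpow_natCast, ← zpow_mul,
        mul_comm, zpow_mul, zpow_natCast, (mem_rootsOfUnity p z).1 hz, one_zpow]
    · exact monoidHomOfForallMemZpowers_apply_gen hq hdvd

/-- Let G be a finite group, p a prime, P a Sylow p-subgroup, N the p-residual of G (the subgroup generated by the elements of order prime to p, the smallest normal subgroup with G/N a p-group), and M a maximal ideal of the algebraic integers containing p; suppose G/N is cyclic and nontrivial. Let k be a natural number with g ^ k = g ^ (1 + p) for every p-element g and g ^ k = g for every element g of order prime to p (so that χ (g ^ k) is the image of χ g under the field automorphism that raises p-power roots of unity to the power 1 + p and fixes the roots of unity of order prime to p). Then the number of members χ of the principal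 block of G of degree prime to p with χ (g ^ k) = χ g for all g equals p times the number of members θ of the principal block of N of degree prime to p that are invariant under conjugation by P and satisfy θ (n ^ k) = θ n for all n. -/
theorem result {G : Type*} [Group G] [Finite G] (p : ℕ) [Fact p.Prime] (M : Ideal Cfsg.AlgInt) (hM : Cfsg.IsPModular p M) (P : Sylow p G) (N : Subgroup G) [hN : N.Normal] (hNres : N = Cfsg.pResidual p G) (hcyc : IsCyclic (G ⧸ N)) (hnt : N ≠ ⊤) (k : ℕ) (hk₁ : ∀ g : G, (∃ j : ℕ, orderOf g = p ^ j) → g ^ k = g ^ (1 + p)) (hk₂ : ∀ g : G, Nat.Coprime (orderOf g) p → g ^ k = g) : Nat.card {χ : Cfsg.IrrCharacter G // χ ∈ Cfsg.principalBlock M G ∧ ¬ p ∣ Cfsg.charDegree (χ : G → ℂ) ∧ ∀ g : G, (χ : G → ℂ) (g ^ k) = (χ : G → ℂ) g} = p * Nat.card {θ : Cfsg.IrrCharacter ↥N // θ ∈ Cfsg.principalBlock M ↥N ∧ ¬ p ∣ Cfsg.charDegree (θ : ↥N → ℂ) ∧ (∀ x ∈ (P : Subgroup G), ∀ n : ↥N, (θ : ↥N → ℂ) ⟨x * n * x⁻¹,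 hN.conj_mem n n.2 x⟩ = (θ : ↥N → ℂ) n) ∧ ∀ n : ↥N, (θ : ↥N → ℂ) (n ^ k) = (θ : ↥N → ℂ) n} := by
  classical
  subst hNres
  haveI := CfsgLib.Blocks.isPrime_of_isPModular hM
  haveI : Fintype G := Fintype.ofFinite G
  haveI : Fintype (Cfsg.pResidual p G) := Fintype.ofFinite _
  have hp : p.Prime := Fact.out
  have hq : 1 + p ≡ 1 [MOD p] := Nat.add_modEq_right
  have ht : CfsgLib.ZerosCodegree.IsPTwist p (1 + p) k G :=
    ⟨hk₁, fun g hg => hk₂ g (hp.coprime_iff_not_dvd.2 hg).symm⟩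
  obtain ⟨a, ha⟩ := CfsgLib.Transfer.index_pResidual_eq_pow (G := G) (p := p)
  let X := {χ : Cfsg.IrrCharacter G // χ ∈ Cfsg.principalBlock M G ∧
    ¬ p ∣ Cfsg.charDegree (χ : G → ℂ) ∧ ∀ g : G, (χ : G → ℂ) (g ^ k) = (χ : G → ℂ) g}
  let Θ := {θ : Cfsg.IrrCharacter ↥(Cfsg.pResidual p G) //
    θ ∈ Cfsg.principalBlock M ↥(Cfsg.pResidual p G) ∧
    ¬ p ∣ Cfsg.charDegree (θ : ↥(Cfsg.pResidual p G) → ℂ) ∧
    (∀ x ∈ (P : Subgroup G), ∀ n : ↥(Cfsg.pResidual p G), (θ : ↥(Cfsg.pResidual p G) → ℂ)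
      ⟨x * n * x⁻¹, hN.conj_mem n n.2 x⟩ = (θ : ↥(Cfsg.pResidual p G) → ℂ) n) ∧
    ∀ n : ↥(Cfsg.pResidual p G), (θ : ↥(Cfsg.pResidual p G) → ℂ) (n ^ k) =
      (θ : ↥(Cfsg.pResidual p G) → ℂ) n}
  let Λ := {l : G →* ℂˣ // (∀ n : ↥(Cfsg.pResidual p G), l n = 1) ∧ ∀ g : G, l g ^ p = 1}
  show Nat.card X = p * Nat.card Θ
  rw [← card_hom_pow_eq_one p (Cfsg.pResidual p G) hcyc ha hnt, mul_comm, ← Nat.card_prod]
  have hext : ∀ θ : Θ, ∃ χ : Cfsg.IrrCharacter G, χ ∈ Cfsg.principalBlock M G ∧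
      CfsgLib.ZerosCodegree.powTwist k (χ : G → ℂ) = χ ∧
      ∀ n : ↥(Cfsg.pResidual p G), (χ : G → ℂ) n = (θ.1 : ↥(Cfsg.pResidual p G) → ℂ) n := fun θ =>
    CfsgLib.ZerosCodegree.exists_fixed_principal_extension hM ht hq P θ.1 θ.2.1 θ.2.2.1
      (funext θ.2.2.2.2) fun x hx => Subtype.ext (funext fun n => by
        rw [CfsgLib.BlockLocal.conjIrr_apply]
        refine Eq.trans (congrArg _ (Subtype.ext ?_)) (θ.2.2.2.1 x⁻¹ (inv_mem hx) n)
        rw [MulAut.conjNormal_apply])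
  choose E hEB hEk hEres using hext
  have hk := ht.coprime hq
  -- the twist
  have htw : ∀ (θ : Θ) (l : Λ), Cfsg.IsIrrCharacter G ((fun g => (l.1 g : ℂ)) * (E θ : G → ℂ)) :=
    fun θ l => CfsgLib.CharTheory.isIrrCharacter_mul_of_norm (E θ).2
      (CfsgLib.CharTheory.IsIrrCharacter.isCharacter (CfsgLib.CharTheory.isIrrCharacter_linear l.1))
      (CfsgLib.ZerosCodegree.norm_hom_eq_one l.1)
  have hres : ∀ (θ : Θ) (l : Λ) (n : ↥(Cfsg.pResidual p G)),
      ((fun g => (l.1 g : ℂ)) * (E θ : G → ℂ)) n = (θ.1 : ↥(Cfsg.pResidual p G) → ℂ) n :=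
    fun θ l n => by rw [Pi.mul_apply, l.2.1 n, Units.val_one, one_mul, hEres]
  have hmem : ∀ (θ : Θ) (l : Λ), (⟨_, htw θ l⟩ : Cfsg.IrrCharacter G) ∈ Cfsg.principalBlock M G ∧
      ¬ p ∣ Cfsg.charDegree ((fun g => (l.1 g : ℂ)) * (E θ : G → ℂ)) ∧
      ∀ g : G, ((fun g => (l.1 g : ℂ)) * (E θ : G → ℂ)) (g ^ k) =
        ((fun g => (l.1 g : ℂ)) * (E θ : G → ℂ)) g := by
    intro θ l
    refine ⟨CfsgLib.ZerosCodegree.mem_principalBlock_of_over hM (Cfsg.pResidual p G)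
      (fun g hg => CfsgLib.Transfer.mem_pResidual_of_coprime (hp.coprime_iff_not_dvd.2 hg).symm)
      θ.2.1 ?_, ?_, fun g => ?_⟩
    · rw [show (fun n : ↥(Cfsg.pResidual p G) => ((fun g => (l.1 g : ℂ)) * (E θ : G → ℂ)) n) =
        (θ.1 : ↥(Cfsg.pResidual p G) → ℂ) from funext (hres θ l),
        CfsgLib.CharTheory.classInner_self_of_isIrr θ.1.2]
      exact one_ne_zero
    · have h1 := hres θ l 1
      rw [OneMemClass.coe_one] at h1
      rw [Cfsg.charDegree, h1]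
      exact θ.2.2.1
    · rw [Pi.mul_apply, Pi.mul_apply, show (E θ : G → ℂ) (g ^ k) = (E θ : G → ℂ) g from
        congrFun (hEk θ) g]
      obtain ⟨x, y, hxy, hc, hx, hy⟩ := CfsgLib.Blocks.exists_isPPart p g
      congr 2
      rw [← hxy, hc.mul_pow, ht.1 x hx, ht.2 y hy, map_mul, map_mul, pow_add, pow_one, map_mul,
        map_pow, l.2.2, mul_one]
  refine (Nat.card_congr (Equiv.ofBijective
    (fun z : Θ × Λ => (⟨⟨_, htw z.1 z.2⟩, hmem z.1 z.2⟩ : X)) ⟨?_, ?_⟩)).symm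
  · rintro ⟨θ, l⟩ ⟨θ', l'⟩ h
    have h' : (fun g => (l.1 g : ℂ)) * (E θ : G → ℂ) = (fun g => (l'.1 g : ℂ)) * (E θ' : G → ℂ) :=
      congrArg (fun e : X => (e.1 : G → ℂ)) h
    obtain rfl : θ = θ' := Subtype.ext (Subtype.ext (funext fun n => by
      rw [← hres θ l n, ← hres θ' l' n, h']))
    have h1 := CfsgLib.ZerosCodegree.eq_one_of_mul_eq_self (Cfsg.pResidual p G) (E θ).2 θ.1.2
      (hEres θ) (l.1 * l'.1⁻¹) (fun n => by simp [l.2.1 n, l'.2.1 n]) (funext fun g => by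
        have h2 := congrFun h' g
        simp only [Pi.mul_apply] at h2
        simp only [Pi.mul_apply, MonoidHom.mul_apply, MonoidHom.inv_apply, Units.val_mul]
        calc (l.1 g : ℂ) * ((l'.1 g)⁻¹ : ℂˣ) * (E θ : G → ℂ) g
            = ((l'.1 g)⁻¹ : ℂˣ) * ((l.1 g : ℂ) * (E θ : G → ℂ) g) := by ring
          _ = (E θ : G → ℂ) g := by rw [h2, Units.inv_mul_cancel_left])
    rw [Prod.mk.injEq]
    exact ⟨rfl, Subtype.ext (mul_inv_eq_one.1 h1)⟩
  · rintro ⟨χ, hχB, hχd, hχk⟩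
    obtain ⟨η, hη, hηinv⟩ :=
      CfsgLib.ZerosCodegree.exists_res_of_cyclic_pQuotient (Cfsg.pResidual p G) ha hcyc hχd
    have hc1 : Cfsg.classInner (fun n : ↥(Cfsg.pResidual p G) => (χ : G → ℂ) n)
        (η : ↥(Cfsg.pResidual p G) → ℂ) = 1 := by
      rw [show (fun n : ↥(Cfsg.pResidual p G) => (χ : G → ℂ) n) =
        (η : ↥(Cfsg.pResidual p G) → ℂ) from funext hη,
        CfsgLib.CharTheory.classInner_self_of_isIrr η.2]
    let θ : Θ := ⟨η, CfsgLib.ZerosCodegree.constituent_mem_principalBlock _ hχB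
      (by rw [hc1]; exact one_ne_zero), by
        have h1 := hη 1
        rw [OneMemClass.coe_one] at h1
        rw [Cfsg.charDegree, ← h1]
        exact hχd, fun x _ n => congrFun (hηinv x) n, fun n => by
        rw [← hη, ← hη, SubgroupClass.coe_pow]; exact hχk _⟩
    obtain ⟨ν, hνN, hν⟩ := CfsgLib.ZerosCodegree.exists_eq_mul_hom_of_extension (Cfsg.pResidual p G)
      (E θ).2 χ.2 η.2 (hEres θ) hc1
    have hνp : ∀ g : G, ν g ^ p = 1 := by
      -- the twist of an extension fixed by the power map is fixed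
      let μ : G →* ℂˣ := ν ^ p
      have hμ : μ = 1 := by
        refine CfsgLib.ZerosCodegree.eq_one_of_mul_eq_self (Cfsg.pResidual p G) (E θ).2 η.2 (hEres θ)
          μ (fun n => by show ν n ^ p = 1; rw [hνN, one_pow]) (funext fun g => ?_)
        have h1 := hχk g
        rw [hν, Pi.mul_apply, Pi.mul_apply, show (E θ : G → ℂ) (g ^ k) = (E θ : G → ℂ) g from
          congrFun (hEk θ) g] at h1
        obtain ⟨x, y, hxy, hc, hx, hy⟩ := CfsgLib.Blocks.exists_isPPart p g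
        have hgk : ν (g ^ k) = ν g * μ g := by
          have hνy : ν y = 1 := hνN ⟨y, CfsgLib.Transfer.mem_pResidual_of_coprime
            (hp.coprime_iff_not_dvd.2 hy).symm⟩
          show ν (g ^ k) = ν g * ν g ^ p
          rw [← hxy, hc.mul_pow, ht.1 x hx, ht.2 y hy, map_mul, map_mul, map_pow, hνy, mul_one,
            mul_one, pow_add, pow_one]
        rw [hgk, Units.val_mul, mul_assoc] at h1
        exact mul_left_cancel₀ (ν g).ne_zero h1
      exact fun g => DFunLike.congr_fun hμ g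
    exact ⟨(θ, ⟨ν, hνN, hνp⟩), Subtype.ext (Subtype.ext hν.symm)⟩

end Cfsg.Agent.S4553
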