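import Cfsg.Statements.S4558
import Cfsg.Agent.Lib.ZerosCodegree.CharPowers
-- import your own Cfsg.Agent.* helpers here

set_option autoImplicit false
open Cfsg

namespace Cfsg.Agent.S4558

/-- Let χ be a character of the finite group G and g an element of p-power order for the prime p. If χ g = 0, then p divides the degree of χ. -/
theorem result {G : Type*} [Group G] [Finite G] (p : ℕ) [Fact p.Prime] (χ : G → ℂ) (hχ : Cfsg.IsCharacter G χ) (g : G) (hg : ∃ j : ℕ, orderOf g = p ^ j) (h0 : χ g = 0) : p ∣ Cfsg.charDegree χ := by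
  have hp : p.Prime := Fact.out
  obtain ⟨j, hj⟩ := hg
  obtain ⟨γ, hγ⟩ := CfsgLib.ZerosCodegree.exists_apply_pow_eq hχ hp j g
  rw [h0, zero_pow (pow_ne_zero j hp.ne_zero), ← hj, pow_orderOf_eq_one,
    CfsgLib.ZerosCodegree.isCharacter_apply_one_eq hχ] at hγ
  refine CfsgLib.CharTheory.dvd_of_isIntegral_natCast_div hp.ne_zero ?_
  rw [show ((Cfsg.charDegree χ : ℂ) / (p : ℂ)) = -(γ : ℂ) by
    rw [div_eq_iff (Nat.cast_ne_zero.2 hp.ne_zero)]
    linear_combination -hγ]
  exact γ.2.neg

end Cfsg.Agent.S4558
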