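import Cfsg.Statements.S4561
import Cfsg.Agent.Lib.ZerosCodegree.BijectiveCocycle
import Mathlib.Algebra.Squarefree.Basic

set_option autoImplicit false
universe u
open Cfsg

namespace Cfsg.Agent.S4561

/-- For every finite solvable group G there is a finite group H with a faithful irreducible character χ whose degree squared equals the index of the centre Z(H) (so χ is fully ramified over the centre), such that G is isomorphic to a subgroup of H/Z(H), the primes dividing the orders of H, of Z(H) and of G are the same, and the order of Z(H) is squarefree. -/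
theorem result {G : Type u} [Group G] [Finite G] (hsolv : Group.IsSolvable G) : ∃ (H : Type u) (_ : Group H) (_ : Finite H) (χ : Cfsg.IrrCharacter H), (∀ h : H, (χ : H → ℂ) h = (χ : H → ℂ) 1 → h = 1) ∧ (Cfsg.charDegree (χ : H → ℂ)) ^ 2 = (Subgroup.center H).index ∧ (∃ f : G →* H ⧸ Subgroup.center H, Function.Injective f) ∧ (∀ p : ℕ, p.Prime → ((p ∣ Nat.card H ↔ p ∣ Nat.card G) ∧ (p ∣ Nat.card (Subgroup.center H) ↔ p ∣ Nat.card G))) ∧ Squarefree (Nat.card (Subgroup.center H)) := by
  classical
  obtain ⟨W, _, _, f, hf, hW, ⟨c⟩⟩ := CfsgLib.ZerosCodegree.exists_bijCocycle hsolv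
  letI : Fintype W := Fintype.ofFinite W
  haveI : NeZero (∏ p ∈ (Nat.card G).primeFactors, p) :=
    ⟨Finset.prod_ne_zero_iff.2 fun p hp => (Nat.prime_of_mem_primeFactors hp).ne_zero⟩
  have he : ∀ p : ℕ, p.Prime → (p ∣ (∏ q ∈ (Nat.card G).primeFactors, q) ↔ p ∣ Nat.card G) := by
    intro p hp
    refine ⟨fun h => h.trans (Nat.prod_primeFactors_dvd _), fun h => ?_⟩
    exact Finset.dvd_prod_of_mem _ (Nat.mem_primeFactors.2 ⟨hp, h, Nat.card_pos.ne'⟩)
  refine ⟨CfsgLib.ZerosCodegree.centralTypeGroup c, inferInstance,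
    CfsgLib.ZerosCodegree.finite_centralType c,
    ⟨_, CfsgLib.ZerosCodegree.isIrrCharacter_centralType c⟩,
    CfsgLib.ZerosCodegree.centralTypeChar_faithful c, ?_,
    ⟨(CfsgLib.ZerosCodegree.toCentralQuotient c).comp f,
      (CfsgLib.ZerosCodegree.toCentralQuotient_injective c).comp hf⟩, fun p hp => ⟨?_, ?_⟩, ?_⟩
  · rw [CfsgLib.ZerosCodegree.index_center, Cfsg.charDegree]
    show ⌊(CfsgLib.ZerosCodegree.centralTypeChar c 1).re⌋₊ ^ 2 = _
    rw [CfsgLib.ZerosCodegree.centralTypeChar_one, Complex.natCast_re, Nat.floor_natCast]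
  · rw [CfsgLib.ZerosCodegree.card_centralType]
    constructor
    · intro h
      rcases hp.dvd_mul.1 h with h | h
      · rcases hp.dvd_mul.1 h with h | h
        · exact (he p hp).1 h
        · exact hW p hp h
      · exact hW p hp h
    · exact fun h => Dvd.dvd.mul_right (Dvd.dvd.mul_right ((he p hp).2 h) _) _
  · rw [CfsgLib.ZerosCodegree.card_center]
    exact he p hp
  · rw [CfsgLib.ZerosCodegree.card_center]
    exact Finset.squarefree_prod_of_pairwise_isCoprime (fun a ha b hb hab => by
        rw [Function.onFun, ← Nat.coprime_iff_isRelPrime]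
        exact (Nat.coprime_primes (Nat.prime_of_mem_primeFactors ha)
          (Nat.prime_of_mem_primeFactors hb)).2 hab)
      fun a ha => (Nat.prime_of_mem_primeFactors ha).squarefree

end Cfsg.Agent.S4561
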