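import Cfsg.Statements.S4563
import Cfsg.Agent.Lib.ZerosCodegree.RamifiedSylow
import Cfsg.Agent.S0006

set_option autoImplicit false
open Cfsg

namespace Cfsg.Agent.S4563

/-- Let χ be an irreducible character of the finite group H that is fully ramified over the normal subgroup Z: the restriction of χ to Z is e times an irreducible character of Z with e ^ 2 equal to the index of Z. If K is a proper normal subgroup of H containing Z and χ is induced from a character of K, then H/K is solvable; in particular, if K is solvable then so is H. -/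
theorem result {H : Type*} [Group H] [Fintype H] (Z : Subgroup H) [Z.Normal] (χ : Cfsg.IrrCharacter H) (hfr : ∃ (θ : Cfsg.IrrCharacter ↥Z) (e : ℕ), e ^ 2 = Z.index ∧ ∀ z : ↥Z, (χ : H → ℂ) z = (e : ℂ) * (θ : ↥Z → ℂ) z) (K : Subgroup H) [K.Normal] [Fintype K] (hZK : Z ≤ K) (hK : K ≠ ⊤) (φ : ↥K → ℂ) (hφ : Cfsg.IsCharacter ↥K φ) (hind : Cfsg.indFun K φ = (χ : H → ℂ)) : Group.IsSolvable (H ⧸ K) ∧ (Group.IsSolvable ↥K → Group.IsSolvable H) := by
  classical
  haveI : Fintype Z := Fintype.ofFinite Z
  obtain ⟨θ, e, he, hres⟩ := hfr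
  have hsol : Group.IsSolvable (H ⧸ K) := Cfsg.Agent.S0006.result fun q hq => by
    haveI : Fact q.Prime := ⟨hq⟩
    obtain ⟨P⟩ := (inferInstance : Nonempty (Sylow q (H ⧸ K)))
    obtain ⟨M, hM⟩ := CfsgLib.ZerosCodegree.exists_complement_of_ramified
      (CfsgLib.ZerosCodegree.flatOver_of_ramified χ θ he hres) he K hZK q P (Or.inr ⟨φ, hφ, hind⟩)
    exact ⟨M, by rw [hM.symm.index_eq_card]; exact P.card_eq_multiplicity⟩
  refine ⟨hsol, fun hK => ?_⟩
  haveI := hsol
  haveI := hK
  exact Group.isSolvable_of_ker_le_range K.subtype (QuotientGroup.mk' K)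
    (by rw [QuotientGroup.ker_mk', K.range_subtype])

end Cfsg.Agent.S4563
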