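import Cfsg.Statements.S4565
import Cfsg.Agent.Lib.CharTheory.Inflation
import Cfsg.Agent.Lib.CharDegreesTheory.IrrComp
import Cfsg.Agent.Lib.Frobenius.Induce
import Cfsg.Agent.Lib.RealChar.Extension
import Cfsg.Agent.Lib.Clifford.Eigen
import Cfsg.Agent.Lib.ZerosCodegree.CentralSubgroup

set_option autoImplicit false
open Cfsg
open scoped ComplexConjugate

namespace Cfsg.Agent.S4565

/-- Let χ be an irreducible character of the finite group H that is fully ramified over the normal subgroup Z: the restriction of χ to Z is e times an irreducible character of Z with e ^ 2 equal to the index of Z. If Z ≠ H, then H/Z has no cyclic subgroup that is its own centralizer. -/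
theorem result {H : Type*} [Group H] [Finite H] (Z : Subgroup H) [Z.Normal] (χ : Cfsg.IrrCharacter H) (hfr : ∃ (θ : Cfsg.IrrCharacter ↥Z) (e : ℕ), e ^ 2 = Z.index ∧ ∀ z : ↥Z, (χ : H → ℂ) z = (e : ℂ) * (θ : ↥Z → ℂ) z) (hZ : Z ≠ ⊤) (C : Subgroup (H ⧸ Z)) (hC : IsCyclic C) : Subgroup.centralizer (C : Set (H ⧸ Z)) ≠ C := by
  classical
  intro hcen
  haveI : Fintype H := Fintype.ofFinite H
  haveI : Fintype Z := Fintype.ofFinite Z
  haveI : Fintype (Cfsg.IrrCharacter H) := Fintype.ofFinite _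
  obtain ⟨θ, e, he, hres⟩ := hfr
  have he0 : (e : ℂ) ≠ 0 := Nat.cast_ne_zero.2 fun h => Subgroup.index_ne_zero_of_finite (H := Z)
    (by rw [← he, h]; rfl)
  have hχcf := CfsgLib.CharTheory.IsIrrCharacter.isClassFunction χ.2
  have hnorm : ∀ {α : Type _} [Group α] [Fintype α] {f : α → ℂ}, Cfsg.IsIrrCharacter α f →
      ∑ a : α, f a * conj (f a) = (Nat.card α : ℂ) := fun {α} _ _ {f} hf => by
    have h := CfsgLib.CharTheory.classInner_self_of_isIrr hf
    rw [Cfsg.classInner, inv_mul_eq_one₀ (Nat.cast_ne_zero.2 (Nat.card_pos (α := α)).ne')] at h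
    exact h.symm
  -- χ vanishes off Z
  have hoff : ∀ g : H, g ∉ Z → (χ : H → ℂ) g = 0 := by
    have h1 := hnorm χ.2
    rw [← Finset.sum_filter_add_sum_filter_not Finset.univ (fun g : H => g ∈ Z),
      Finset.sum_subtype (Finset.univ.filter fun g : H => g ∈ Z) (p := fun g => g ∈ Z) (by simp)] at h1
    have h2 : ∑ z : Z, (χ : H → ℂ) z * conj ((χ : H → ℂ) z) = (Nat.card H : ℂ) := by
      simp only [hres, map_mul, Complex.conj_natCast]
      rw [Finset.sum_congr rfl fun z _ => show (e : ℂ) * (θ : Z → ℂ) z * ((e : ℂ) * conj ((θ : Z → ℂ) z))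
        = ((e : ℂ) * e) * ((θ : Z → ℂ) z * conj ((θ : Z → ℂ) z)) by ring, ← Finset.mul_sum,
        hnorm θ.2, ← Nat.cast_mul, ← Nat.cast_mul, ← Z.index_mul_card, ← he, pow_two]
    rw [h2, add_eq_left] at h1
    simp only [Complex.mul_conj, ← Complex.ofReal_sum, Complex.ofReal_eq_zero] at h1
    intro g hg
    exact Complex.normSq_eq_zero.1 ((Finset.sum_eq_zero_iff_of_nonneg
      fun x _ => Complex.normSq_nonneg _).1 h1 g (Finset.mem_filter.2 ⟨Finset.mem_univ _, hg⟩))
  have hinv : ∀ (g : H) (z : Z) (h : g * z * g⁻¹ ∈ Z), (θ : Z → ℂ) ⟨_, h⟩ = (θ : Z → ℂ) z := by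
    intro g z h
    refine mul_left_cancel₀ he0 ?_
    rw [← hres, ← hres]
    exact hχcf _ g
  have hInd : Cfsg.indFun Z (θ : Z → ℂ) = (e : ℂ) • (χ : H → ℂ) := funext fun g => by
    by_cases hg : g ∈ Z
    · lift g to Z using hg
      rw [Pi.smul_apply, smul_eq_mul, hres, Cfsg.indFun, Finset.sum_eq_card_nsmul (b := (θ : Z → ℂ) g)]
      · rw [Finset.card_univ, nsmul_eq_mul, ← Nat.card_eq_fintype_card, ← Z.index_mul_card, ← he]
        have : (Nat.card Z : ℂ) ≠ 0 := Nat.cast_ne_zero.2 (Nat.card_pos (α := Z)).ne'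
        field_simp
        push_cast
        ring
      · intro x _
        have hm : x⁻¹ * g * x ∈ Z := by
          simpa using (inferInstance : Z.Normal).conj_mem _ g.2 x⁻¹
        rw [CfsgLib.Frobenius.extendByZero_of_mem _ _ hm]
        have h := hinv x⁻¹ g (by rw [inv_inv]; exact hm)
        simpa only [inv_inv] using h
    · rw [CfsgLib.Frobenius.indFun_eq_zero_of_not_mem Z _ hg, Pi.smul_apply, hoff g hg, smul_zero]
  -- the cyclic quotient
  haveI := hC
  let K : Subgroup H := C.comap (QuotientGroup.mk' Z)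
  haveI : Fintype K := Fintype.ofFinite K
  have hZK : Z ≤ K := fun z hz => by
    show (z : H ⧸ Z) ∈ C
    rw [(QuotientGroup.eq_one_iff z).2 hz]; exact C.one_mem
  let π : K →* C := (QuotientGroup.mk' Z).subgroupComap C
  have hπ : ∀ k : K, π k = 1 ↔ (k : H) ∈ Z := fun k => by
    rw [← QuotientGroup.eq_one_iff, Subtype.ext_iff]; rfl
  have hπs : Function.Surjective π :=
    MonoidHom.subgroupComap_surjective_of_surjective _ _ (QuotientGroup.mk'_surjective Z)
  let Z' : Subgroup K := Z.subgroupOf K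
  have hker : π.ker = Z' := Subgroup.ext fun k => hπ k
  have hcyc : IsCyclic (K ⧸ Z') :=
    isCyclic_of_injective ((QuotientGroup.kerLift π).comp
      (QuotientGroup.quotientMulEquivOfEq hker.symm).toMonoidHom)
      ((QuotientGroup.kerLift_injective π).comp (MulEquiv.injective _))
  letI : CommGroup C := IsCyclic.commGroup
  let ε : Z' ≃* Z := Subgroup.subgroupOfEquivOfLe hZK
  obtain ⟨φ, hφ, hφres⟩ := CfsgLib.RealChar.exists_extension_character_of_cyclic Z' hcyc
    (fun z => (θ : Z → ℂ) (ε z)) (CfsgLib.CharTheory.isIrrCharacter_comp_mulEquiv θ.2 ε)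
    (fun k z => hinv (k : H) (ε z) _)
  have hφres' : ∀ (z : Z) (hz : (z : H) ∈ K), φ ⟨z, hz⟩ = (θ : Z → ℂ) z := fun z hz => by
    have h := hφres ⟨⟨z, hz⟩, z.2⟩
    exact h
  haveI : Finite (C →* ℂˣ) := inferInstance
  haveI : Fintype (C →* ℂˣ) := Fintype.ofFinite _
  have hsum : ∀ c : C, ∑ l : C →* ℂˣ, (l c : ℂ) = if c = 1 then (Fintype.card (C →* ℂˣ) : ℂ) else 0 := by
    intro c
    split_ifs with hc
    · simp [hc]
    · have hcomm : commutator C = ⊥ :=
        (commutator_eq_bot_iff_center_eq_top C).2 CommGroup.center_eq_top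
      refine Eq.trans ?_ ((CfsgLib.Clifford.sum_homUnits_apply' c).trans
        (if_neg (by rw [hcomm, Subgroup.mem_bot]; exact hc)))
      exact Finset.sum_congr (by ext; simp) fun _ _ => rfl
  have hm0 : (Fintype.card (C →* ℂˣ) : ℂ) ≠ 0 := Nat.cast_ne_zero.2 Fintype.card_ne_zero
  -- averaging over the linear characters of C localises a sum to Z
  have havg : ∀ F : K → ℂ, ∑ l : C →* ℂˣ, ∑ k : K, (l (π k) : ℂ) * F k =
      (Fintype.card (C →* ℂˣ) : ℂ) * ∑ z : Z, F ⟨z, hZK z.2⟩ := by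
    intro F
    rw [Finset.sum_comm]
    simp only [← Finset.sum_mul, hsum, ite_mul, zero_mul]
    rw [← Finset.sum_filter, ← Finset.mul_sum]
    congr 1
    refine Finset.sum_bij' (fun k hk => (⟨(k : H), (hπ k).1 (Finset.mem_filter.1 hk).2⟩ : Z))
      (fun z _ => ⟨z, hZK z.2⟩) ?_ ?_ ?_ ?_ ?_ <;> simp [hπ]
  let ψ : (C →* ℂˣ) → K → ℂ := fun l => (fun k => (l (π k) : ℂ)) * φ
  have hψ : ∀ l, Cfsg.IsIrrCharacter K (ψ l) := fun l =>
    CfsgLib.CharTheory.isIrrCharacter_mul_of_norm hφ
      (CfsgLib.CharTheory.IsIrrCharacter.isCharacter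
        (CfsgLib.CharTheory.isIrrCharacter_linear (l.comp π)))
      fun k => CfsgLib.ZerosCodegree.norm_hom_eq_one l (π k)
  -- the twists are orthogonal
  have horth : ∀ l : C →* ℂˣ, l ≠ 1 → Cfsg.classInner (ψ l) φ = 0 := by
    have h1 : ψ 1 = φ := funext fun k => by simp [ψ]
    have htot : ∑ l, Cfsg.classInner (ψ l) φ =
        (Fintype.card (C →* ℂˣ) : ℂ) * Nat.card Z / Nat.card K := by
      simp only [Cfsg.classInner, ψ, Pi.mul_apply, mul_assoc]
      rw [← Finset.mul_sum, havg (fun k => φ k * conj (φ k))]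
      simp only [hφres', hnorm θ.2]
      ring
    have hcard : Nat.card K = Fintype.card (C →* ℂˣ) * Nat.card Z := by
      rw [show Fintype.card (C →* ℂˣ) = Nat.card C by
        rw [← Nat.card_eq_fintype_card]; exact CommGroup.card_monoidHom_of_hasEnoughRootsOfUnity C ℂ,
        ← Subgroup.card_mul_index π.ker, Subgroup.index_ker, MonoidHom.range_eq_top.2 hπs,
        Subgroup.card_top, hker, Nat.card_congr ε.toEquiv, mul_comm]
    rw [← Nat.cast_mul, ← hcard, div_self (Nat.cast_ne_zero.2 (Nat.card_pos (α := K)).ne'),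
      ← Finset.add_sum_erase _ _ (Finset.mem_univ (1 : C →* ℂˣ)), h1,
      CfsgLib.CharTheory.classInner_self_of_isIrr hφ, add_eq_left] at htot
    intro l hl
    by_contra hne
    have hval : ∀ l', Cfsg.classInner (ψ l') φ = if ψ l' = φ then 1 else 0 := fun l' =>
      CfsgLib.CharTheory.classInner_irr (hψ l') hφ
    simp only [hval, Finset.sum_boole, Nat.cast_eq_zero, Finset.card_eq_zero,
      Finset.filter_eq_empty_iff] at htot
    rw [hval, if_neg (htot (Finset.mem_erase.2 ⟨hl, Finset.mem_univ _⟩))] at hne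
    exact hne rfl
  obtain ⟨c, hc⟩ := IsCyclic.exists_generator (α := C)
  -- a nonzero value on the coset of a generator
  obtain ⟨x, hxc, hx⟩ : ∃ x : K, π x = c ∧ φ x ≠ 0 := by
    by_contra hcon
    push Not at hcon
    have h : ∑ l : C →* ℂˣ, (l c⁻¹ : ℂ) * Cfsg.classInner (ψ l) φ = 0 := by
      simp only [Cfsg.classInner, ψ, Pi.mul_apply, Finset.mul_sum]
      rw [Finset.sum_comm]
      refine Finset.sum_eq_zero fun k _ => ?_
      by_cases hk : π k = c
      · simp [hcon k hk]
      · have h0 : ∑ l : C →* ℂˣ, (l (c⁻¹ * π k) : ℂ) = 0 := by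
          rw [hsum, if_neg (fun e => hk (inv_mul_eq_one.1 e).symm)]
        simp only [map_mul, Units.val_mul] at h0
        calc _ = ∑ l : C →* ℂˣ, ((l c⁻¹ : ℂ) * (l (π k) : ℂ)) *
              ((Nat.card K : ℂ)⁻¹ * (φ k * conj (φ k))) := Finset.sum_congr rfl fun l _ => by ring
          _ = 0 := by rw [← Finset.sum_mul, h0, zero_mul]
    rw [Finset.sum_eq_single (1 : C →* ℂˣ) (fun l _ hl => by rw [horth l hl, mul_zero]) (by simp)] at h
    rw [show ψ 1 = φ from funext fun k => by simp [ψ], CfsgLib.CharTheory.classInner_self_of_isIrr hφ] at h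
    simp at h
  -- induced twists vanish off Z
  have hzero : ∀ (l : C →* ℂˣ) (g : H), g ∉ Z → Cfsg.indFun K (ψ l) g = 0 := by
    intro l g hg
    have hf := CfsgLib.Frobenius.indFun_isClassFunction K (ψ l)
    rw [CfsgLib.CharTheory.eq_sum_classInner hf, Finset.sum_apply]
    refine Finset.sum_eq_zero fun χ' _ => ?_
    rcases eq_or_ne χ' χ with rfl | hne
    · rw [Pi.smul_apply, hoff g hg, smul_zero]
    · suffices h : Cfsg.classInner (fun k : K => (χ' : H → ℂ) k) (ψ l) = 0 by
        rw [Pi.smul_apply, CfsgLib.Frobenius.classInner_indFun K _ _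
          (CfsgLib.CharTheory.IsIrrCharacter.isClassFunction χ'.2),
          CfsgLib.CharTheory.classInner_conj_symm, h, map_zero, zero_smul]
      have hres0 : Cfsg.classInner (fun z : Z => (χ' : H → ℂ) z) (θ : Z → ℂ) = 0 := by
        rw [← CfsgLib.Frobenius.classInner_indFun_right Z _ _
          (CfsgLib.CharTheory.IsIrrCharacter.isClassFunction χ'.2), hInd,
          CfsgLib.CharTheory.classInner_smul_right,
          CfsgLib.CharTheory.classInner_eq_zero_of_ne χ'.2 χ.2 fun h => hne (Subtype.ext h), mul_zero]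
      rw [Cfsg.classInner, mul_eq_zero,
        or_iff_right (inv_ne_zero (Nat.cast_ne_zero.2 (Nat.card_pos (α := Z)).ne'))] at hres0
      have hchar : Cfsg.IsCharacter K (fun k => (χ' : H → ℂ) k) :=
        CfsgLib.CharDegreesTheory.isCharacter_comp_hom
          (CfsgLib.CharTheory.IsIrrCharacter.isCharacter χ'.2) K.subtype
      choose n hn using fun l => CfsgLib.CharTheory.IsCharacter.exists_classInner_eq_nat hchar ⟨ψ l, hψ l⟩
      have htot : (∑ l, (n l : ℂ)) = 0 := by
        simp only [← hn]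
        simp only [Cfsg.classInner, ψ, Pi.mul_apply, map_mul]
        rw [← Finset.mul_sum,
          ← Fintype.sum_equiv (Equiv.inv (C →* ℂˣ)) (fun l => ∑ k : K, (l (π k) : ℂ) *
            ((χ' : H → ℂ) k * conj (φ k))) _ (fun l => Finset.sum_congr rfl fun k _ => by
              rw [CfsgLib.ZerosCodegree.conj_hom_eq_inv, Equiv.inv_apply, MonoidHom.inv_apply, inv_inv]
              ring),
          havg (fun k => (χ' : H → ℂ) k * conj (φ k))]
        simp only [hφres', hres0, mul_zero]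
      rw [← Nat.cast_sum, Nat.cast_eq_zero, Finset.sum_eq_zero_iff] at htot
      exact (hn l).trans (by rw [htot l (Finset.mem_univ _), Nat.cast_zero])
  have hxZ : (x : H) ∉ Z := fun h => by
    have hc1 : c = 1 := hxc ▸ (hπ x).2 h
    have hCbot : C = ⊥ := by
      refine (Subgroup.eq_bot_iff_forall C).2 fun y hy => ?_
      obtain ⟨k, hk⟩ := Subgroup.mem_zpowers_iff.1 (hc ⟨y, hy⟩)
      rw [hc1, one_zpow] at hk
      exact (congrArg Subtype.val hk).symm
    rw [hCbot, Subgroup.coe_bot] at hcen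
    refine hZ (Subgroup.eq_top_iff' _ |>.2 fun g => (QuotientGroup.eq_one_iff g).1 (Subgroup.mem_bot.1 ?_))
    rw [← hcen, Subgroup.mem_centralizer_iff]
    simp
  have hfinal : ∑ l : C →* ℂˣ, (l c⁻¹ : ℂ) * Cfsg.indFun K (ψ l) x =
      (Fintype.card (C →* ℂˣ) : ℂ) * φ x := by
    have hterm : ∀ y : H, ∑ l : C →* ℂˣ, (l c⁻¹ : ℂ) * Cfsg.extendByZero K (ψ l) (y⁻¹ * x * y) =
        if y ∈ K then (Fintype.card (C →* ℂˣ) : ℂ) * φ x else 0 := by
      intro y
      by_cases hy : y⁻¹ * (x : H) * y ∈ K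
      · have hrw : ∀ l : C →* ℂˣ, (l c⁻¹ : ℂ) * Cfsg.extendByZero K (ψ l) (y⁻¹ * x * y) =
            (l (c⁻¹ * π ⟨_, hy⟩) : ℂ) * φ ⟨_, hy⟩ := fun l => by
          rw [CfsgLib.Frobenius.extendByZero_of_mem _ _ hy, map_mul, Units.val_mul]
          simp only [ψ, Pi.mul_apply]; ring
        simp only [hrw, ← Finset.sum_mul, hsum]
        have hiff : c⁻¹ * π ⟨_, hy⟩ = 1 ↔ y ∈ K := by
          rw [inv_mul_eq_one, ← hxc, Subtype.ext_iff]
          show (((x : H) : H ⧸ Z) = ((y⁻¹ * x * y : H) : H ⧸ Z)) ↔ (y : H ⧸ Z) ∈ C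
          rw [← hcen, Subgroup.mem_centralizer_iff, QuotientGroup.mk_mul, QuotientGroup.mk_mul,
            QuotientGroup.mk_inv, mul_assoc, eq_inv_mul_iff_mul_eq]
          constructor
          · intro h z hz
            obtain ⟨k, hk⟩ := Subgroup.mem_zpowers_iff.1 (hc ⟨z, hz⟩)
            rw [← hxc] at hk
            have hz' : ((x : H) : H ⧸ Z) ^ k = z := (SubgroupClass.coe_zpow (π x) k).symm.trans (congrArg Subtype.val hk)
            rw [← hz']
            exact ((show Commute ((x : H) : H ⧸ Z) (y : H ⧸ Z) from h.symm).zpow_left k).eq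
          · exact fun h => (h _ x.2).symm
        by_cases hyK : y ∈ K
        · rw [if_pos (hiff.2 hyK), if_pos hyK,
            show (⟨_, hy⟩ : K) = (⟨y, hyK⟩ : K)⁻¹ * x * (⟨y, hyK⟩ : K)⁻¹⁻¹ from Subtype.ext (by simp),
            CfsgLib.CharTheory.IsIrrCharacter.isClassFunction hφ x _]
        · rw [if_neg (fun h => hyK (hiff.1 h)), if_neg hyK, zero_mul]
      · rw [if_neg fun hyK => hy (K.mul_mem (K.mul_mem (K.inv_mem hyK) x.2) hyK)]
        refine Finset.sum_eq_zero fun l _ => ?_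
        rw [CfsgLib.Frobenius.extendByZero_of_not_mem _ _ hy, mul_zero]
    simp only [Cfsg.indFun, mul_left_comm (_ : ℂ) (Nat.card K : ℂ)⁻¹, Finset.mul_sum]
    rw [Finset.sum_comm]
    simp only [← Finset.mul_sum, hterm]
    rw [← Finset.sum_filter, Finset.sum_const, nsmul_eq_mul, ← Fintype.card_subtype,
      ← Nat.card_eq_fintype_card]
    rw [show Nat.card {y : H // y ∈ K} = Nat.card K from rfl, inv_mul_cancel_left₀
      (Nat.cast_ne_zero.2 (Nat.card_pos (α := K)).ne')]
  rw [Finset.sum_eq_zero (fun l _ => by rw [hzero l _ hxZ, mul_zero])] at hfinal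
  exact hx ((mul_eq_zero.1 hfinal.symm).resolve_left hm0)

end Cfsg.Agent.S4565
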