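import Cfsg.Statements.S4566
import Cfsg.Agent.Lib.ZerosCodegree.CharBasics
-- import your own Cfsg.Agent.* helpers here

set_option autoImplicit false
open Cfsg

namespace Cfsg.Agent.S4566

/-- Let N be a central subgroup of the finite group G, ψ a faithful irreducible (hence degree-one) character of N, and χ an irreducible character of G whose restriction to N contains ψ. If g ∈ G and some x ∈ G has commutator x⁻¹ g⁻¹ x g in N but different from 1, then χ g = 0. -/
theorem result {G : Type*} [Group G] [Fintype G] (N : Subgroup G) [Fintype N] (hN : N ≤ Subgroup.center G) (ψ : Cfsg.IrrCharacter ↥N) (hfaith : ∀ n : ↥N, (ψ : ↥N → ℂ) n = (ψ : ↥N → ℂ) 1 → n = 1) (χ : Cfsg.IrrCharacter G) (hover : Cfsg.classInner (fun n : ↥N => (χ : G → ℂ) n) (ψ : ↥N → ℂ) ≠ 0) (g x : G) (hcomm : x⁻¹ * g⁻¹ * x * g ∈ N) (hne : x⁻¹ * g⁻¹ * x * g ≠ 1) : (χ : G → ℂ) g = 0 := by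
  classical
  set c := x⁻¹ * g⁻¹ * x * g with hc
  have hcz : ∀ y : G, y * c = c * y := fun y => Subgroup.mem_center_iff.mp (hN hcomm) y
  obtain ⟨d, ρ, hρ, hρc⟩ := χ.2
  obtain ⟨ω, hω⟩ := CfsgLib.CharTheory.exists_smul_of_commute ρ (ρ c) (fun y => by
    rw [← Module.End.mul_eq_comp, ← Module.End.mul_eq_comp, ← map_mul, ← map_mul, hcz])
  obtain ⟨e, τ, hτ, hτc⟩ := ψ.2
  let cN : N := ⟨c, hcomm⟩
  obtain ⟨ν, hν⟩ := CfsgLib.CharTheory.exists_smul_of_commute τ (τ cN) (fun y => by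
    rw [← Module.End.mul_eq_comp, ← Module.End.mul_eq_comp, ← map_mul, ← map_mul,
      show cN * y = y * cN from Subtype.ext (hcz y).symm])
  have hν1 : ν ≠ 1 := by
    intro h
    rw [h, one_smul] at hν
    refine hne (congrArg Subtype.val (hfaith cN ?_))
    rw [← hτc]
    show LinearMap.trace ℂ _ (τ cN) = LinearMap.trace ℂ _ (τ 1)
    rw [hν, map_one]; rfl
  have hmulω : ∀ y : G, (χ : G → ℂ) (c * y) = ω * (χ : G → ℂ) y := fun y => by
    rw [← hρc]
    show LinearMap.trace ℂ _ (ρ (c * y)) = ω * LinearMap.trace ℂ _ (ρ y)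
    rw [map_mul, hω, ← Module.End.one_eq_id, smul_mul_assoc, one_mul, map_smul, smul_eq_mul]
  have hmulν : ∀ y : N, (ψ : N → ℂ) (cN * y) = ν * (ψ : N → ℂ) y := fun y => by
    rw [← hτc]
    show LinearMap.trace ℂ _ (τ (cN * y)) = ν * LinearMap.trace ℂ _ (τ y)
    rw [map_mul, hν, ← Module.End.one_eq_id, smul_mul_assoc, one_mul, map_smul, smul_eq_mul]
  have hω1 : ω ≠ 1 := by
    intro h1
    apply hover
    set S := ∑ n : N, (χ : G → ℂ) n * starRingEnd ℂ ((ψ : N → ℂ) n) with hS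
    have h2 : S = starRingEnd ℂ ν * S := by
      rw [hS, Finset.mul_sum]
      conv_lhs => rw [← Equiv.sum_comp (Equiv.mulLeft cN)]
      refine Finset.sum_congr rfl fun n _ => ?_
      simp only [Equiv.coe_mulLeft, hmulν, map_mul, Subgroup.coe_mul]
      rw [show ((cN : N) : G) = c from rfl, hmulω, h1]
      ring
    have h3 : (starRingEnd ℂ ν - 1) * S = 0 := by rw [sub_mul, one_mul, ← h2, sub_self]
    have h4 : starRingEnd ℂ ν - 1 ≠ 0 := fun h => hν1 (by
      have := congrArg (starRingEnd ℂ) (sub_eq_zero.mp h)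
      simpa using this)
    rw [Cfsg.classInner, ← hS, (mul_eq_zero.mp h3).resolve_left h4, mul_zero]
  have hcl := CfsgLib.CharTheory.IsIrrCharacter.isClassFunction χ.2
  have hconj : x * g * x⁻¹ = c * g := by
    rw [← hcz, hc]
    have : x * (x⁻¹ * g⁻¹ * x * g) = (x⁻¹ * g⁻¹ * x * g) * x := hcz x
    have h5 : g⁻¹ * x * g = x⁻¹ * g⁻¹ * x * g * x := by rw [← this]; group
    calc x * g * x⁻¹ = g * (g⁻¹ * x * g) * x⁻¹ := by group
      _ = g * (x⁻¹ * g⁻¹ * x * g) := by rw [h5]; group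
  have h1 := hmulω g
  rw [← hconj, hcl g x] at h1
  have : (ω - 1) * (χ : G → ℂ) g = 0 := by rw [sub_mul, one_mul, ← h1, sub_self]
  exact (mul_eq_zero.mp this).resolve_left (sub_ne_zero.mpr hω1)

end Cfsg.Agent.S4566
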