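import Cfsg.Statements.S4567
import Cfsg.Agent.Lib.ZerosCodegree.CentralSubgroup
import Cfsg.Agent.Lib.Frobenius.Induce

set_option autoImplicit false
open Cfsg

namespace Cfsg.Agent.S4567

open scoped ComplexConjugate
open CfsgLib.ZerosCodegree in
theorem aux {G : Type*} [Group G] [Fintype G] (N : Subgroup G) [N.Normal] [Fintype N]
    (hN : N ≤ Subgroup.center G) (ψ : N →* ℂˣ) (hinj : Function.Injective ψ) :
    Nat.card {χ : Cfsg.IrrCharacter G // ∀ (g : G) (n : N), (χ : G → ℂ) (g * n) = (ψ n : ℂ) * (χ : G → ℂ) g} =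
      Nat.card {C : ConjClasses (G ⧸ N) // ∃ g : G, ConjClasses.mk (g : G ⧸ N) = C ∧
        ∀ x : G, x⁻¹ * g⁻¹ * x * g ∈ N → x * g = g * x} := by
  classical
  let I := {χ : Cfsg.IrrCharacter G // ∀ (g : G) (n : N), (χ : G → ℂ) (g * n) = (ψ n : ℂ) * (χ : G → ℂ) g}
  let S := {C : ConjClasses (G ⧸ N) // ∃ g : G, ConjClasses.mk (g : G ⧸ N) = C ∧
        ∀ x : G, x⁻¹ * g⁻¹ * x * g ∈ N → x * g = g * x}
  haveI : Fintype (Cfsg.IrrCharacter G) := Fintype.ofFinite _
  haveI : Fintype I := Fintype.ofFinite _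
  haveI : Fintype S := Fintype.ofFinite _
  choose r hr hrs using fun C : S => C.2
  let Φ : (I → ℂ) →ₗ[ℂ] (S → ℂ) :=
    { toFun := fun c C => ∑ χ : I, c χ * ((χ : Cfsg.IrrCharacter G) : G → ℂ) (r C)
      map_add' := fun c d => funext fun C => by
        simp only [Pi.add_apply, add_mul, Finset.sum_add_distrib]
      map_smul' := fun z c => funext fun C => by
        simp only [Pi.smul_apply, smul_eq_mul, RingHom.id_apply, Finset.mul_sum, mul_assoc] }
  have hcf : ∀ χ : Cfsg.IrrCharacter G, Cfsg.IsClassFunction G (χ : G → ℂ) := fun χ =>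
    CfsgLib.CharTheory.IsIrrCharacter.isClassFunction χ.2
  have hinjΦ : Function.Injective Φ := by
    rw [← LinearMap.ker_eq_bot, LinearMap.ker_eq_bot']
    intro c hc
    have hall : ∀ g : G, ∑ χ : I, c χ * ((χ : Cfsg.IrrCharacter G) : G → ℂ) g = 0 := by
      intro g
      by_cases hsp : ∀ x : G, x⁻¹ * g⁻¹ * x * g ∈ N → x * g = g * x
      · let C : S := ⟨ConjClasses.mk (g : G ⧸ N), g, rfl, hsp⟩
        obtain ⟨y', hy⟩ := isConj_iff.1 (ConjClasses.mk_eq_mk_iff_isConj.1 (hr C))
        obtain ⟨y, rfl⟩ := QuotientGroup.mk_surjective y'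
        have hm : (y * r C * y⁻¹)⁻¹ * g ∈ N := by
          rw [← QuotientGroup.eq]
          simpa using hy
        have hc' : ∑ χ : I, c χ * ((χ : Cfsg.IrrCharacter G) : G → ℂ) (r C) = 0 := congrFun hc C
        calc ∑ χ : I, c χ * ((χ : Cfsg.IrrCharacter G) : G → ℂ) g
            = ∑ χ : I, (ψ ⟨_, hm⟩ : ℂ) * (c χ * ((χ : Cfsg.IrrCharacter G) : G → ℂ) (r C)) := by
              refine Finset.sum_congr rfl fun χ _ => ?_
              have h := χ.2 (y * r C * y⁻¹) ⟨_, hm⟩
              rw [show (y * r C * y⁻¹) * ((⟨_, hm⟩ : N) : G) = g from mul_inv_cancel_left _ _,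
                hcf χ.1 (r C) y] at h
              rw [h]; ring
          _ = 0 := by rw [← Finset.mul_sum, hc', mul_zero]
      · push Not at hsp
        obtain ⟨x, hx, hxne⟩ := hsp
        have hne : (⟨_, hx⟩ : N) ≠ 1 := fun e => hxne (by
          have h1 : x⁻¹ * g⁻¹ * x * g = 1 := congrArg Subtype.val e
          calc x * g = g * (x * (x⁻¹ * g⁻¹ * x * g)) := by group
            _ = g * x := by rw [h1, mul_one])
        have hg : x * g * x⁻¹ = g * (x⁻¹ * g⁻¹ * x * g) := by
          calc x * g * x⁻¹ = g * (x * (x⁻¹ * g⁻¹ * x * g)) * x⁻¹ := by group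
            _ = g * ((x⁻¹ * g⁻¹ * x * g) * x) * x⁻¹ := by rw [(Subgroup.mem_center_iff.1 (hN hx) x)]
            _ = g * (x⁻¹ * g⁻¹ * x * g) := by group
        refine Finset.sum_eq_zero fun χ _ => mul_eq_zero_of_right _ ?_
        have h := χ.2 g ⟨_, hx⟩
        rw [show g * ((⟨_, hx⟩ : N) : G) = x * g * x⁻¹ from hg.symm, hcf χ.1 g x] at h
        by_contra h0
        exact hne (hinj ((Units.ext ((mul_left_eq_self₀.1 h.symm).resolve_right h0)).trans (map_one ψ).symm))
    have hli := (CfsgLib.CharTheory.linearIndependent_irr (G := G)).comp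
      (fun χ : I => (χ : Cfsg.IrrCharacter G)) Subtype.val_injective
    rw [Fintype.linearIndependent_iff] at hli
    exact funext fun χ => hli c (funext fun g => by
      simpa [Finset.sum_apply, Function.comp, Pi.smul_apply, smul_eq_mul] using hall g) χ
  have hsurjΦ : Function.Surjective Φ := by
    have key : ∀ C : S, ∃ c : I → ℂ, Φ c = Pi.single C (1 : ℂ) := by
      intro C
      let e : G → ℂ := Cfsg.extendByZero N (fun n : N => (ψ n : ℂ))
      have he : ∀ (a : G) (n : N), e (a * n) = (ψ n : ℂ) * e a := fun a n => by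
        by_cases ha : a ∈ N
        · have h1 := CfsgLib.Frobenius.extendByZero_coe N (fun n : N => (ψ n : ℂ)) (⟨a, ha⟩ * n)
          have h2 := CfsgLib.Frobenius.extendByZero_coe N (fun n : N => (ψ n : ℂ)) ⟨a, ha⟩
          rw [Subgroup.coe_mul] at h1
          show e (a * n) = _
          simp only [e, h1, h2, map_mul, Units.val_mul, mul_comm]
        · have h2 : a * n ∉ N := fun h => ha (by simpa using N.mul_mem h (N.inv_mem n.2))
          simp only [e, CfsgLib.Frobenius.extendByZero_of_not_mem _ _ ha,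
            CfsgLib.Frobenius.extendByZero_of_not_mem _ _ h2, mul_zero]
      let f : G → ℂ := fun g => ∑ x : G, e ((r C)⁻¹ * (x * g * x⁻¹))
      have hf : Cfsg.IsClassFunction G f := fun g h =>
        Fintype.sum_equiv (Equiv.mulRight h) _ _ fun x => by
          simp only [Equiv.coe_mulRight, mul_inv_rev, mul_assoc]
      have hfn : ∀ (g : G) (n : N), f (g * n) = (ψ n : ℂ) * f g := fun g n => by
        show ∑ x, _ = _ * ∑ x, _
        rw [Finset.mul_sum]
        refine Finset.sum_congr rfl fun x _ => ?_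
        rw [← he]
        congr 1
        rw [mul_assoc (r C)⁻¹, mul_assoc x g, mul_assoc x (g * n), mul_assoc g,
          ← Subgroup.mem_center_iff.1 (hN n.2) x⁻¹]
        simp only [mul_assoc]
      have hfD : ∀ D : S, D ≠ C → f (r D) = 0 := fun D hD => by
        refine Finset.sum_eq_zero fun x _ => CfsgLib.Frobenius.extendByZero_of_not_mem _ _ fun h => hD ?_
        apply Subtype.ext
        rw [← hr C, ← hr D, eq_comm, ConjClasses.mk_eq_mk_iff_isConj, isConj_comm, isConj_iff]
        exact ⟨(x : G ⧸ N), ((QuotientGroup.eq.2 h).trans (by simp)).symm⟩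
      have hfC : f (r C) ≠ 0 := by
        show ∑ x, _ ≠ 0
        rw [← Finset.sum_filter_add_sum_filter_not Finset.univ
          (fun x : G => (r C)⁻¹ * (x * r C * x⁻¹) ∈ N)]
        rw [Finset.sum_eq_zero (s := Finset.filter (fun x : G => ¬ (r C)⁻¹ * (x * r C * x⁻¹) ∈ N) _)
          fun x hx => CfsgLib.Frobenius.extendByZero_of_not_mem _ _ (Finset.mem_filter.1 hx).2,
          add_zero, Finset.sum_eq_card_nsmul (b := (1 : ℂ))]
        · rw [nsmul_one]
          exact Nat.cast_ne_zero.2 (Finset.card_ne_zero.2 ⟨1, by simp⟩)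
        · intro x hx
          obtain ⟨-, hx⟩ := Finset.mem_filter.1 hx
          have hcomm : x * r C = r C * x := hrs C x (by
            have h := (inferInstance : N.Normal).conj_mem _ hx x⁻¹
            rw [inv_inv] at h
            simpa [mul_assoc] using h)
          show e ((r C)⁻¹ * (x * r C * x⁻¹)) = 1
          rw [hcomm, mul_inv_cancel_right, inv_mul_cancel,
            show e 1 = (ψ 1 : ℂ) from CfsgLib.Frobenius.extendByZero_coe N (fun n : N => (ψ n : ℂ)) 1,
            map_one, Units.val_one]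
      have hzero : ∀ χ : Cfsg.IrrCharacter G,
          (¬ ∀ (g : G) (n : N), (χ : G → ℂ) (g * n) = (ψ n : ℂ) * (χ : G → ℂ) g) →
            Cfsg.classInner f (χ : G → ℂ) = 0 := by
        intro χ hχ
        obtain ⟨ω, hω⟩ := exists_centralHom χ.2 hN
        have hne : ω ≠ ψ := fun e => hχ (e ▸ hω)
        obtain ⟨n, hn⟩ := not_forall.1 fun h => hne (MonoidHom.ext h)
        have h : Cfsg.classInner f (χ : G → ℂ) =
            (ψ n : ℂ) * conj (ω n : ℂ) * Cfsg.classInner f (χ : G → ℂ) := by
          unfold Cfsg.classInner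
          rw [mul_left_comm]
          congr 1
          rw [Finset.mul_sum]
          refine (Fintype.sum_equiv (Equiv.mulRight (n : G)) _ _ fun g => ?_).symm
          rw [Equiv.coe_mulRight, hfn, hω, map_mul]; ring
        by_contra h0
        have h1 := (mul_eq_right₀ h0).1 h.symm
        rw [conj_hom_eq_inv, ← Units.val_mul] at h1
        exact hn (mul_inv_eq_one.1 (Units.ext h1)).symm
      refine ⟨fun χ => Cfsg.classInner f ((χ : Cfsg.IrrCharacter G) : G → ℂ) / f (r C), funext fun D => ?_⟩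
      show ∑ χ : I, _ * _ = _
      have hsum : ∑ χ : I, Cfsg.classInner f ((χ : Cfsg.IrrCharacter G) : G → ℂ) *
          ((χ : Cfsg.IrrCharacter G) : G → ℂ) (r D) = f (r D) := by
        conv_rhs => rw [CfsgLib.CharTheory.eq_sum_classInner hf, Finset.sum_apply]
        simp only [Pi.smul_apply, smul_eq_mul]
        rw [← Finset.sum_subset (Finset.subset_univ (Finset.univ.filter fun χ : Cfsg.IrrCharacter G =>
          ∀ (g : G) (n : N), (χ : G → ℂ) (g * n) = (ψ n : ℂ) * (χ : G → ℂ) g))
          fun χ _ hχ => mul_eq_zero_of_left (hzero χ fun h => hχ (Finset.mem_filter.2 ⟨Finset.mem_univ _, h⟩)) _]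
        exact (Finset.sum_subtype _ (fun χ => by simp) (fun χ : Cfsg.IrrCharacter G =>
          Cfsg.classInner f (χ : G → ℂ) * (χ : G → ℂ) (r D))).symm
      simp only [div_mul_eq_mul_div, ← Finset.sum_div, hsum]
      by_cases hD : D = C
      · subst hD
        rw [Pi.single_eq_same, div_self hfC]
      · rw [Pi.single_eq_of_ne hD, hfD D hD, zero_div]
    choose c hc using key
    intro v
    refine ⟨∑ C, v C • c C, ?_⟩
    rw [map_sum]
    simp only [map_smul, hc]
    funext D
    simp only [Finset.sum_apply, Pi.smul_apply, Pi.single_apply, smul_eq_mul, mul_ite, mul_one, mul_zero]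
    rw [Finset.sum_ite_eq]
    simp
  have h := (LinearEquiv.ofBijective Φ ⟨hinjΦ, hsurjΦ⟩).finrank_eq
  rw [Module.finrank_fintype_fun_eq_card, Module.finrank_fintype_fun_eq_card] at h
  rw [Nat.card_eq_fintype_card, Nat.card_eq_fintype_card]
  exact h

/-- Let N be a central subgroup of the finite group G and ψ a faithful irreducible (hence degree-one) character of N. Call a coset g N special when every x ∈ G whose commutator x⁻¹ g⁻¹ x g lies in N actually commutes with g (this depends only on the coset). Then the number of irreducible characters of G whose restriction to N contains ψ equals the number of conjugacy classes of G/N consisting of special cosets. -/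
theorem result {G : Type*} [Group G] [Fintype G] (N : Subgroup G) [N.Normal] [Fintype N] (hN : N ≤ Subgroup.center G) (ψ : Cfsg.IrrCharacter ↥N) (hfaith : ∀ n : ↥N, (ψ : ↥N → ℂ) n = (ψ : ↥N → ℂ) 1 → n = 1) : Nat.card {χ : Cfsg.IrrCharacter G // Cfsg.classInner (fun n : ↥N => (χ : G → ℂ) n) (ψ : ↥N → ℂ) ≠ 0} = Nat.card {C : ConjClasses (G ⧸ N) // ∃ g : G, ConjClasses.mk (g : G ⧸ N) = C ∧ ∀ x : G, x⁻¹ * g⁻¹ * x * g ∈ N → x * g = g * x} := by
  have hc : ∀ a b : N, a * b = b * a := fun a b =>
    Subtype.ext (Subgroup.mem_center_iff.1 (hN b.2) (a : G))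
  obtain ⟨ω, hω⟩ := CfsgLib.ZerosCodegree.exists_hom_of_comm hc ψ.2
  have hinj : Function.Injective ω := (injective_iff_map_eq_one ω).2 fun n hn =>
    hfaith n (by rw [hω, hω, hn, map_one])
  rw [← aux N hN ω hinj]
  refine Nat.card_congr (Equiv.subtypeEquivRight fun χ => ?_)
  obtain ⟨ν, hν⟩ := CfsgLib.ZerosCodegree.exists_centralHom χ.2 hN
  rw [show (ψ : N → ℂ) = fun n => (ω n : ℂ) from funext hω,
    CfsgLib.ZerosCodegree.classInner_res_ne_zero_iff χ.2 ν ω hν]
  refine ⟨fun e => e ▸ hν, fun h => MonoidHom.ext fun n => Units.ext ?_⟩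
  have h1 := h 1 n
  rw [hν 1 n] at h1
  exact mul_right_cancel₀ (CfsgLib.CharTheory.apply_one_ne_zero_of_isIrr χ.2) h1

end Cfsg.Agent.S4567
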