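import Cfsg.Statements.S4568
import Cfsg.Agent.Lib.AbelianTwo.Reduce
import Cfsg.Agent.Lib.AbelianTwo.PrimeAction

set_option autoImplicit false
open Cfsg

namespace Cfsg.Agent.S4568

universe u

open CfsgLib.AbelianTwo in
/-- Prime inertial index: the rank and, in the non-solvable case, the number of characters. -/
theorem invariants {G : Type u} [Group G] [Finite G] {Mi : Ideal AlgInt} (hM : IsPModular 2 Mi)
    (P : Sylow 2 G) (hc : ∀ a ∈ (P : Subgroup G), ∀ b ∈ (P : Subgroup G), a * b = b * a) {e : ℕ}
    (he : (Subgroup.centralizer ((P : Subgroup G) : Set G)).relIndex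
      (Subgroup.normalizer ((P : Subgroup G) : Set G)) = e) (hep : e.Prime) :
    blockRank 2 (principalBlock Mi G) = e ∧
      (¬ Group.IsSolvable G → Nat.card (principalBlock Mi G) = Nat.card (P : Subgroup G)) := by
  haveI : Fact (Nat.Prime 2) := ⟨Nat.prime_two⟩
  set N := Subgroup.normalizer ((P : Subgroup G) : Set G) with hN
  set C := Subgroup.centralizer ((P : Subgroup G) : Set G) with hC
  have hCN : C ≤ N := Subgroup.centralizer_le_normalizer _
  have hPC : (P : Subgroup G) ≤ C := fun b hb =>
    Subgroup.mem_centralizer_iff.2 fun d hd => hc d hd b hb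
  have hodd : Odd e := by
    rw [← he]
    refine Odd.of_dvd_nat (Nat.odd_iff.2 (Nat.two_dvd_ne_zero.1 (Sylow.not_dvd_index P))) ?_
    exact ((Dvd.intro _ (Subgroup.relIndex_mul_index hCN) : C.relIndex N ∣ C.index)).trans
      (Subgroup.index_dvd_of_le hPC)
  set Z := (P : Subgroup G) ⊓ Subgroup.centralizer (N : Set G) with hZ
  have hO : Orb P e Z := by
    refine ⟨hc, inf_le_left, fun c hc' n hn => ?_, fun b hb hbZ n hn hnb => ?_, he⟩
    · rw [Subgroup.mem_centralizer_iff.1 hc'.2 n hn, mul_inv_cancel_right]
    · set S := N ⊓ Subgroup.centralizer ({b} : Set G) with hS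
      have hCS : C ≤ S := le_inf hCN fun d hd => Subgroup.mem_centralizer_singleton_iff.2
        (Subgroup.mem_centralizer_iff.1 hd b hb).symm
      have hmul := Subgroup.relIndex_mul_relIndex C S N hCS inf_le_left
      rw [he] at hmul
      have hnS : n ∈ S := ⟨hn, Subgroup.mem_centralizer_singleton_iff.2
        (mul_inv_eq_iff_eq_mul.1 hnb)⟩
      rcases (Nat.dvd_prime hep).1 (Dvd.intro_left _ hmul : S.relIndex N ∣ e) with h1 | h1
      · refine absurd ⟨hb, Subgroup.mem_centralizer_iff.2 fun m hm => ?_⟩ hbZ
        exact Subgroup.mem_centralizer_singleton_iff.1 (Subgroup.relIndex_eq_one.1 h1 hm).2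
      · rw [h1] at hmul
        have h2 : C.relIndex S = 1 := (Nat.mul_eq_right hep.pos.ne').1 hmul
        exact Subgroup.relIndex_eq_one.1 h2 hnS
  obtain ⟨L, _, _, Q, hQ, hOL, hcard, -, hrank, hsol⟩ := hO.exists_reduced' hM hodd
  obtain ⟨h1, h2⟩ := hQ.blockRank_prime hM hep hodd hOL
  refine ⟨hrank.trans h1, fun hns => ?_⟩
  rcases h2 with h2 | h2
  · exact absurd (hsol h2) hns
  obtain ⟨s, hk, hs⟩ := hO.card_principalBlock_of_reduced hM hodd fun L' _ _ Q' hQ' hOL' _ _ =>
    (hQ'.blockRank_prime hM hep hodd hOL').1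
  have hs' : s = Nat.card Z := by
    refine Nat.eq_of_mul_eq_mul_right hep.pos ?_
    rw [← hcard, h2, add_mul, one_mul, mul_comm e] at hs
    omega
  subst hs'
  rw [hk, ← hcard, h2, add_mul, one_mul, mul_comm e]

/-- Let G be a finite group with a commutative Sylow 2-subgroup P, let e be the index of the centralizer of P in the normalizer of P, and let M be a maximal ideal of the algebraic integers containing 2. If e is a prime number, then the principal 2-block has 2-regular rank e (e irreducible Brauer characters), and if moreover G is not solvable it contains exactly as many irreducible characters as P has elements. -/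
theorem result {G : Type*} [Group G] [Finite G] (M : Ideal Cfsg.AlgInt) (hM : Cfsg.IsPModular 2 M) (P : Sylow 2 G) (hab : IsMulCommutative P) (he : ((Subgroup.centralizer ((P : Subgroup G) : Set G)).relIndex (Subgroup.normalizer ((P : Subgroup G) : Set G))).Prime) : Cfsg.blockRank 2 (Cfsg.principalBlock M G) = (Subgroup.centralizer ((P : Subgroup G) : Set G)).relIndex (Subgroup.normalizer ((P : Subgroup G) : Set G)) ∧ (¬ Group.IsSolvable G → Nat.card (Cfsg.principalBlock M G) = Nat.card P) := by
  haveI : Fact (Nat.Prime 2) := ⟨Nat.prime_two⟩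
  exact invariants hM P (fun a ha b hb =>
    congrArg Subtype.val (hab.is_comm.comm ⟨a, ha⟩ ⟨b, hb⟩)) rfl he

end Cfsg.Agent.S4568
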