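import Cfsg.Statements.S4570
import Cfsg.Agent.Lib.AbelianTwo.Fpf
import Cfsg.Agent.Lib.AbelianTwo.Reduce
import Cfsg.Agent.S4569

set_option autoImplicit false
open Cfsg

namespace Cfsg.Agent.S4570

universe u

open CfsgLib.AbelianTwo in
/-- The number of characters, with the order of the Sylow subgroup eight or sixteen. -/
theorem count {G : Type u} [Group G] [Finite G] {Mi : Ideal AlgInt} (hM : IsPModular 2 Mi)
    (P : Sylow 2 G) (hc : ∀ a ∈ (P : Subgroup G), ∀ b ∈ (P : Subgroup G), a * b = b * a) {a : G}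
    (ha : a ∈ (P : Subgroup G)) (ha1 : a ≠ 1) (ha2 : a * a = 1)
    (hreg : ∀ n ∈ Subgroup.normalizer ((P : Subgroup G) : Set G), n * a * n⁻¹ = a →
      n ∈ Subgroup.centralizer ((P : Subgroup G) : Set G)) :
    (Nat.card (P : Subgroup G) = 8 → Nat.card (principalBlock Mi G) = 8) ∧
      (Nat.card (P : Subgroup G) = 16 →
        Nat.card (principalBlock Mi G) = 8 ∨ Nat.card (principalBlock Mi G) = 16) := by
  classical
  haveI : Fact (Nat.Prime 2) := ⟨Nat.prime_two⟩
  haveI := Fintype.ofFinite G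
  set N := Subgroup.normalizer ((P : Subgroup G) : Set G) with hN
  set C := Subgroup.centralizer ((P : Subgroup G) : Set G) with hC
  set e := C.relIndex N with he
  have hCN : C ≤ N := Subgroup.centralizer_le_normalizer _
  have hPC : (P : Subgroup G) ≤ C := fun b hb =>
    Subgroup.mem_centralizer_iff.2 fun d hd => hc d hd b hb
  have hodd : Odd e := by
    refine Odd.of_dvd_nat (Nat.odd_iff.2 (Nat.two_dvd_ne_zero.1 (Sylow.not_dvd_index P))) ?_
    exact ((Dvd.intro _ (Subgroup.relIndex_mul_index hCN) : e ∣ C.index)).trans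
      (Subgroup.index_dvd_of_le hPC)
  have hpos : 0 < e := hodd.pos
  -- the orbit of `a`
  set T := Finset.univ.filter fun b : G => b ∈ (P : Subgroup G) ∧ b ≠ 1 ∧ b * b = 1 with hT
  have hle : e ≤ T.card := by
    rw [he, Subgroup.relIndex, Subgroup.index]
    let f : N ⧸ C.subgroupOf N → T := fun q => ⟨(q.out : G) * a * (q.out : G)⁻¹,
      Finset.mem_filter.2 ⟨Finset.mem_univ _, (Subgroup.mem_normalizer_iff.1 q.out.2 a).1 ha,
        fun e1 => ha1 (conj_eq_one_iff.1 e1),
        by rw [show (q.out : G) * a * (q.out : G)⁻¹ * ((q.out : G) * a * (q.out : G)⁻¹) =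
          (q.out : G) * (a * a) * (q.out : G)⁻¹ by group, ha2, mul_one, mul_inv_cancel]⟩⟩
    refine (Nat.card_le_card_of_injective f fun q r hqr => ?_).trans
      (by rw [Nat.card_eq_fintype_card, Fintype.card_coe])
    have h1 : (q.out : G) * a * (q.out : G)⁻¹ = (r.out : G) * a * (r.out : G)⁻¹ :=
      congrArg Subtype.val hqr
    rw [← QuotientGroup.out_eq' q, ← QuotientGroup.out_eq' r, QuotientGroup.eq,
      Subgroup.mem_subgroupOf]
    refine hreg _ (q.out⁻¹ * r.out).2 ?_
    rw [Subgroup.coe_mul, Subgroup.coe_inv,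
      show (q.out : G)⁻¹ * r.out * a * ((q.out : G)⁻¹ * r.out)⁻¹ =
        (q.out : G)⁻¹ * ((r.out : G) * a * (r.out : G)⁻¹) * q.out by group, ← h1]
    group
  have hTP : T.card + 1 ≤ Nat.card (P : Subgroup G) := by
    rw [Nat.card_eq_fintype_card, Fintype.card_subtype]
    refine Nat.succ_le_of_lt (Finset.card_lt_card ⟨fun b hb => ?_, fun hsub => ?_⟩)
    · exact Finset.mem_filter.2 ⟨Finset.mem_univ _, (Finset.mem_filter.1 hb).2.1⟩
    · exact (Finset.mem_filter.1 (hsub (Finset.mem_filter.2
        ⟨Finset.mem_univ (1 : G), (P : Subgroup G).one_mem⟩))).2.2.1 rfl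
  set W := CfsgLib.AbelianTwo.omega P hc with hW
  have hWT : Nat.card W = T.card + 1 := by
    rw [Nat.card_eq_fintype_card, Fintype.card_subtype,
      show T = (Finset.univ.filter fun b : G => b ∈ W).erase 1 from ?_, Finset.card_erase_add_one]
    · exact Finset.mem_filter.2 ⟨Finset.mem_univ _, W.one_mem⟩
    · ext b
      simp only [hT, Finset.mem_filter, Finset.mem_univ, true_and, Finset.mem_erase]
      exact ⟨fun ⟨h1, h2, h3⟩ => ⟨h2, h1, h3⟩, fun ⟨h2, h1, h3⟩ => ⟨h1, h2, h3⟩⟩
  have hWle : W ≤ (P : Subgroup G) := fun b hb => hb.1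
  have hWdvd := Subgroup.card_dvd_of_le hWle
  have helem : Nat.card W = Nat.card (P : Subgroup G) → ∀ b ∈ (P : Subgroup G), b * b = 1 := by
    intro hcard b hb
    rw [← Subgroup.eq_of_le_of_card_ge hWle hcard.ge] at hb
    exact hb.2
  -- the trivial action
  by_cases he1 : e = 1
  · have hO : Orb P 1 (P : Subgroup G) := by
      refine ⟨hc, le_rfl, fun c hc' n hn => ?_, fun b hb hbZ => absurd hb hbZ, he1⟩
      rw [← Subgroup.mem_centralizer_iff.1 (Subgroup.relIndex_eq_one.1 he1 hn) c hc',
        mul_inv_cancel_right]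
    haveI := Fintype.ofFinite (P : Subgroup G)
    obtain ⟨s, h1, h2⟩ := hO.card_principalBlock_mul hM
    rw [Finset.sum_congr rfl (g := fun _ => 1) fun c _ => (blockRank_eq_one_iff hM).2
      (hasNormalPComplement_centralizer P hc c.2 fun n hn _ => Subgroup.relIndex_eq_one.1 he1 hn),
      Finset.sum_const, Finset.card_univ, smul_eq_mul, mul_one, ← Nat.card_eq_fintype_card] at h1
    exact ⟨fun h8 => by omega, fun h16 => Or.inr (by omega)⟩
  -- orbits of length fifteen
  have h15 : e = 15 → Nat.card (P : Subgroup G) = 16 →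
      Nat.card (principalBlock Mi G) = 16 := by
    intro he15 h16
    have hTeq : T = (Finset.univ.filter fun b : G => b ∈ (P : Subgroup G)).erase 1 := by
      refine Finset.eq_of_subset_of_card_le (fun b hb => ?_) ?_
      · exact Finset.mem_erase.2 ⟨(Finset.mem_filter.1 hb).2.2.1,
          Finset.mem_filter.2 ⟨Finset.mem_univ _, (Finset.mem_filter.1 hb).2.1⟩⟩
      · rw [Finset.card_erase_of_mem (Finset.mem_filter.2 ⟨Finset.mem_univ _,
          (P : Subgroup G).one_mem⟩), ← Fintype.card_subtype, ← Nat.card_eq_fintype_card, h16]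
        omega
    have hel : ∀ b ∈ (P : Subgroup G), b * b = 1 := helem (by omega)
    have hO : Orb P 15 (⊥ : Subgroup G) := by
      refine ⟨hc, bot_le, fun c hc' n _ => ?_, fun b hb hbZ n hn hnb => ?_, he15⟩
      · rw [Subgroup.mem_bot.1 hc', mul_one, mul_inv_cancel]
      · -- the orbit of `a` is everything
        let f : N ⧸ C.subgroupOf N → T := fun q => ⟨(q.out : G) * a * (q.out : G)⁻¹,
          Finset.mem_filter.2 ⟨Finset.mem_univ _, (Subgroup.mem_normalizer_iff.1 q.out.2 a).1 ha,
            fun e1 => ha1 (conj_eq_one_iff.1 e1),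
            hel _ ((Subgroup.mem_normalizer_iff.1 q.out.2 a).1 ha)⟩⟩
        have hinj : Function.Injective f := by
          intro q r hqr
          have h1 : (q.out : G) * a * (q.out : G)⁻¹ = (r.out : G) * a * (r.out : G)⁻¹ :=
            congrArg Subtype.val hqr
          rw [← QuotientGroup.out_eq' q, ← QuotientGroup.out_eq' r, QuotientGroup.eq,
            Subgroup.mem_subgroupOf]
          refine hreg _ (q.out⁻¹ * r.out).2 ?_
          rw [Subgroup.coe_mul, Subgroup.coe_inv,
            show (q.out : G)⁻¹ * r.out * a * ((q.out : G)⁻¹ * r.out)⁻¹ =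
              (q.out : G)⁻¹ * ((r.out : G) * a * (r.out : G)⁻¹) * q.out by group, ← h1]
          group
        have hbT : b ∈ T := by
          rw [hTeq]
          exact Finset.mem_erase.2 ⟨fun e1 => hbZ (e1 ▸ Subgroup.one_mem _),
            Finset.mem_filter.2 ⟨Finset.mem_univ _, hb⟩⟩
        have hbij : Function.Bijective f := hinj.bijective_of_nat_card_le (by
          rw [Nat.card_eq_fintype_card (α := T), Fintype.card_coe]
          show T.card ≤ (C.subgroupOf N).index
          rw [show (C.subgroupOf N).index = e from rfl]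
          omega)
        obtain ⟨q, hq⟩ := hbij.2 ⟨b, hbT⟩
        have hq' : (q.out : G) * a * (q.out : G)⁻¹ = b := congrArg Subtype.val hq
        have hm := hreg ((q.out : G)⁻¹ * n * q.out) (mul_mem (mul_mem (inv_mem q.out.2) hn) q.out.2)
          (by rw [show (q.out : G)⁻¹ * n * q.out * a * ((q.out : G)⁻¹ * n * q.out)⁻¹ =
            (q.out : G)⁻¹ * (n * ((q.out : G) * a * (q.out : G)⁻¹) * n⁻¹) * q.out by group, hq',
            hnb, ← hq']; group)
        refine Subgroup.mem_centralizer_iff.2 fun d hd => ?_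
        have hd' : (q.out : G)⁻¹ * d * q.out ∈ (P : Subgroup G) := by
          have h4 := (Subgroup.mem_normalizer_iff.1 (inv_mem q.out.2) d).1 hd
          rwa [inv_inv] at h4
        have h5 := Subgroup.mem_centralizer_iff.1 hm _ hd'
        calc d * n = (q.out : G) * ((q.out : G)⁻¹ * d * q.out * ((q.out : G)⁻¹ * n * q.out)) *
              (q.out : G)⁻¹ := by group
          _ = n * d := by rw [h5]; group
    obtain ⟨s, h1, h2⟩ := hO.card_principalBlock_of_reduced hM (by decide)
      fun L _ _ Q hQ hOL hQc hQel => hQ.blockRank_elementary hM hOL (hQel hel)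
        (by rw [Subgroup.card_bot, mul_one] at hQc; omega) (Or.inr (Or.inr (Or.inr rfl)))
    rw [Subgroup.card_bot] at h1 h2
    omega
  -- prime orbit lengths
  have hprime : e.Prime → (Nat.card (P : Subgroup G) = 8 → Nat.card (principalBlock Mi G) = 8) ∧
      (Nat.card (P : Subgroup G) = 16 →
        Nat.card (principalBlock Mi G) = 8 ∨ Nat.card (principalBlock Mi G) = 16) := by
    intro hep
    set Z := (P : Subgroup G) ⊓ Subgroup.centralizer (N : Set G) with hZ
    have haZ : a ∉ Z := by
      intro haZ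
      refine he1 (Subgroup.relIndex_eq_one.2 fun n hn => hreg n hn ?_)
      rw [Subgroup.mem_centralizer_iff.1 haZ.2 n hn, mul_inv_cancel_right]
    have hO : Orb P e Z := by
      refine ⟨hc, inf_le_left, fun c hc' n hn => ?_, fun b hb hbZ n hn hnb => ?_, rfl⟩
      · rw [Subgroup.mem_centralizer_iff.1 hc'.2 n hn, mul_inv_cancel_right]
      · set S := N ⊓ Subgroup.centralizer ({b} : Set G) with hS
        have hCS : C ≤ S := le_inf hCN fun d hd => Subgroup.mem_centralizer_singleton_iff.2
          (Subgroup.mem_centralizer_iff.1 hd b hb).symm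
        have hmul := Subgroup.relIndex_mul_relIndex C S N hCS inf_le_left
        have hnS : n ∈ S := ⟨hn, Subgroup.mem_centralizer_singleton_iff.2
          (mul_inv_eq_iff_eq_mul.1 hnb)⟩
        rcases (Nat.dvd_prime hep).1 (Dvd.intro_left _ hmul : S.relIndex N ∣ e) with h1 | h1
        · refine absurd ⟨hb, Subgroup.mem_centralizer_iff.2 fun m hm => ?_⟩ hbZ
          exact Subgroup.mem_centralizer_singleton_iff.1 (Subgroup.relIndex_eq_one.1 h1 hm).2
        · rw [h1] at hmul
          have h2 : C.relIndex S = 1 := (Nat.mul_eq_right hpos.ne').1 hmul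
          exact Subgroup.relIndex_eq_one.1 h2 hnS
    haveI := Fintype.ofFinite Z
    obtain ⟨s0, -, hs0⟩ := hO.card_principalBlock_mul hM
    have hZdvd : Nat.card Z ∣ Nat.card (P : Subgroup G) := Subgroup.card_dvd_of_le hO.le
    have hZlt : Nat.card Z < Nat.card (P : Subgroup G) := by
      refine lt_of_le_of_ne (Subgroup.card_le_of_le hO.le) fun heq => haZ ?_
      rw [Subgroup.eq_of_le_of_card_ge hO.le heq.ge]
      exact ha
    have hZ1 : 0 < Nat.card Z := Nat.card_pos
    have hmod : (Nat.card (P : Subgroup G) - Nat.card Z) % e = 0 := by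
      rw [show Nat.card (P : Subgroup G) - Nat.card Z = s0 * e by omega]
      exact Nat.mul_mod_left _ _
    have h2e : 2 ≤ e := hep.two_le
    -- the possible values
    have hel5 : e = 5 → Nat.card (P : Subgroup G) = 16 → ∀ b ∈ (P : Subgroup G), b * b = 1 := by
      intro he5 h16
      refine helem ?_
      by_contra hne
      rw [h16] at hne hWdvd
      have hW8 : Nat.card W ≤ 8 := by
        obtain ⟨i, hi, hi'⟩ := (Nat.dvd_prime_pow Nat.prime_two).1
          (show Nat.card W ∣ 2 ^ 4 from hWdvd)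
        rw [hi'] at hne ⊢
        interval_cases i <;> first | omega | (norm_num at hne ⊢)
      set O := Finset.univ.filter fun b : G => b ∈ (P : Subgroup G) ∧ IsConj a b with hOa
      have hZe : Nat.card Z = 1 := by
        obtain ⟨i, hi, hi'⟩ := (Nat.dvd_prime_pow Nat.prime_two).1
          (show Nat.card Z ∣ 2 ^ 4 from hZdvd.trans (dvd_of_eq (h16.trans (by norm_num))))
        rw [hi'] at hmod hZlt ⊢
        rw [h16, he5] at hmod
        rw [h16] at hZlt
        interval_cases i <;> omega
      have hsubW : ∀ b : G, b ≠ 1 → b ∈ W → ∃ O : Finset G, O.card = 5 ∧ b ∈ O ∧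
          (∀ d ∈ O, d ∈ T) ∧ ∀ d ∈ O, IsConj b d := by
        intro b hb1 hbW
        have hbZ : b ∉ Z := fun hbZ => hb1 (Subgroup.mem_bot.1 (Subgroup.eq_bot_of_card_eq Z hZe ▸ hbZ))
        refine ⟨Finset.univ.filter fun d : G => d ∈ (P : Subgroup G) ∧ IsConj b d, ?_,
          Finset.mem_filter.2 ⟨Finset.mem_univ _, hbW.1, IsConj.refl _⟩, fun d hd => ?_,
          fun d hd => (Finset.mem_filter.1 hd).2.2⟩
        · rw [← he5, ← hO.card_orbit hbW.1 hbZ, Nat.card_eq_fintype_card, Fintype.card_subtype]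
        · obtain ⟨-, hdP, hbd⟩ := Finset.mem_filter.1 hd
          obtain ⟨g, rfl⟩ := isConj_iff.1 hbd
          refine Finset.mem_filter.2 ⟨Finset.mem_univ _, hdP, fun e1 => hb1 (conj_eq_one_iff.1 e1), ?_⟩
          rw [show g * b * g⁻¹ * (g * b * g⁻¹) = g * (b * b) * g⁻¹ by group, hbW.2, mul_one,
            mul_inv_cancel]
      obtain ⟨O1, hO1, -, hO1T, hO1c⟩ := hsubW a ha1 ⟨ha, ha2⟩
      obtain ⟨y, hyT, hyO⟩ : ∃ y ∈ T, y ∉ O1 := by
        by_contra hno
        push Not at hno
        have h9 := Finset.card_le_card (show T ⊆ O1 from hno)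
        obtain ⟨i, hi, hi'⟩ := (Nat.dvd_prime_pow Nat.prime_two).1
          (show Nat.card W ∣ 2 ^ 4 from hWdvd)
        interval_cases i <;> omega
      obtain ⟨hyP, hy1, hy2⟩ := (Finset.mem_filter.1 hyT).2
      obtain ⟨O2, hO2, -, hO2T, hO2c⟩ := hsubW y hy1 ⟨hyP, hy2⟩
      have hd : Disjoint O1 O2 := Finset.disjoint_left.2 fun d hd1 hd2 => by
        obtain ⟨n, hn, hny⟩ := exists_normalizer_of_isConj P hc ha hyP
          ((hO1c d hd1).trans (hO2c d hd2).symm)
        refine hyO ?_
        have h7 : y ∈ Finset.univ.filter fun d : G => d ∈ (P : Subgroup G) ∧ IsConj a d :=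
          Finset.mem_filter.2 ⟨Finset.mem_univ _, hyP, isConj_iff.2 ⟨n, hny⟩⟩
        have h8 : O1 = Finset.univ.filter fun d : G => d ∈ (P : Subgroup G) ∧ IsConj a d := by
          refine Finset.eq_of_subset_of_card_le (fun d hd => Finset.mem_filter.2
            ⟨Finset.mem_univ _, (Finset.mem_filter.1 (hO1T d hd)).2.1, hO1c d hd⟩) ?_
          rw [hO1, ← Fintype.card_subtype, ← Nat.card_eq_fintype_card,
            hO.card_orbit ha haZ, he5]
        rw [h8]; exact h7
      have h10 := Finset.card_le_card (Finset.union_subset hO1T hO2T)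
      rw [Finset.card_union_of_disjoint hd] at h10
      omega
    have hrank : (e = 3 ∧ Nat.card (P : Subgroup G) = 4 * Nat.card Z ∨
        e = 3 ∧ Nat.card (P : Subgroup G) = 16 ∧ Nat.card Z = 1 ∨
        e = 5 ∧ Nat.card (P : Subgroup G) = 16 ∧ Nat.card Z = 1 ∨
        e = 7 ∧ Nat.card (P : Subgroup G) = 8 * Nat.card Z) →
        ∃ s : ℕ, Nat.card (principalBlock Mi G) = Nat.card Z * e + s ∧
          s * e + Nat.card Z = Nat.card (P : Subgroup G) := by
      intro hcases
      refine hO.card_principalBlock_of_reduced hM hodd fun L _ _ Q hQ hOL hQc hQel => ?_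
      rcases hcases with ⟨h3, hP4⟩ | ⟨h3, h16, hz⟩ | ⟨h5, h16, hz⟩ | ⟨h7, hP8⟩
      · rw [hP4] at hQc
        exact (hQ.blockRank_klein hM h3 (Nat.eq_of_mul_eq_mul_right hZ1 hQc)).trans h3.symm
      · rw [hz, mul_one] at hQc
        exact (hQ.blockRank_three_sixteen hM h3 (hQc.trans h16)).trans h3.symm
      · rw [hz, mul_one] at hQc
        exact hQ.blockRank_elementary hM hOL (hQel (hel5 h5 h16)) (by omega) (Or.inr (Or.inl h5))
      · rw [hP8] at hQc
        have h8 : Nat.card (Q : Subgroup L) = 8 := Nat.eq_of_mul_eq_mul_right hZ1 hQc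
        refine hQ.blockRank_elementary hM hOL ?_ h8.ge (Or.inr (Or.inr (Or.inl h7)))
        -- all seven nonidentity elements are conjugate
        haveI := Fintype.ofFinite L
        intro d hd
        obtain ⟨t, ht⟩ := exists_prime_orderOf_dvd_card' (G := (Q : Subgroup L)) 2
          (by rw [h8]; norm_num)
        have ht' : orderOf (t : L) = 2 := by rw [Subgroup.orderOf_coe]; exact ht
        have ht1 : (t : L) ≠ 1 := fun e1 => by rw [e1, orderOf_one] at ht'; omega
        by_cases hd1 : d = 1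
        · rw [hd1, mul_one]
        have hconj : IsConj (t : L) d := by
          have h1 := hQ.card_orbit t.2 fun hm => ht1 (Subgroup.mem_bot.1 hm)
          rw [Nat.card_eq_fintype_card, Fintype.card_subtype] at h1
          set A := Finset.univ.filter fun c : L => c ∈ (Q : Subgroup L) ∧ IsConj (t : L) c
          set B := (Finset.univ.filter fun c : L => c ∈ (Q : Subgroup L)).erase 1
          have hAB : A ⊆ B := by
            intro c hc
            obtain ⟨-, hc1, hc2⟩ := Finset.mem_filter.1 hc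
            refine Finset.mem_erase.2 ⟨fun e1 => ht1 ?_, Finset.mem_filter.2 ⟨Finset.mem_univ _, hc1⟩⟩
            rw [e1] at hc2
            exact (isConj_one_left).1 hc2
          have hB : B.card = 7 := by
            rw [Finset.card_erase_of_mem (Finset.mem_filter.2 ⟨Finset.mem_univ _,
              (Q : Subgroup L).one_mem⟩), ← Fintype.card_subtype, ← Nat.card_eq_fintype_card, h8]
          have hdA : d ∈ A := by
            rw [Finset.eq_of_subset_of_card_le hAB (by rw [hB, h1, h7])]
            exact Finset.mem_erase.2 ⟨hd1, Finset.mem_filter.2 ⟨Finset.mem_univ _, hd⟩⟩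
          exact (Finset.mem_filter.1 hdA).2.2
        obtain ⟨g, rfl⟩ := isConj_iff.1 hconj
        rw [show g * (t : L) * g⁻¹ * (g * t * g⁻¹) = g * ((t : L) * t) * g⁻¹ by group,
          CfsgLib.Involutions.mul_self_eq_one ht', mul_one, mul_inv_cancel]
    refine ⟨fun h8 => ?_, fun h16 => ?_⟩
    · obtain ⟨i, hi, hi'⟩ := (Nat.dvd_prime_pow Nat.prime_two).1
        (show Nat.card Z ∣ 2 ^ 3 from hZdvd.trans (dvd_of_eq (h8.trans (by norm_num))))
      rw [h8] at hmod hZlt hTP
      have he7 : e ≤ 7 := by omega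
      have hcases : e = 3 ∧ Nat.card Z = 2 ∨ e = 7 ∧ Nat.card Z = 1 := by
        rw [hi'] at hmod hZlt ⊢
        obtain ⟨j, hj⟩ := hodd
        interval_cases i <;> interval_cases e <;> omega
      obtain ⟨s, hk, hs⟩ := hrank (by rw [h8]; omega)
      rw [h8] at hs
      rcases hcases with ⟨h1, h2⟩ | ⟨h1, h2⟩ <;> rw [h1, h2] at hk hs <;> omega
    · obtain ⟨i, hi, hi'⟩ := (Nat.dvd_prime_pow Nat.prime_two).1
        (show Nat.card Z ∣ 2 ^ 4 from hZdvd.trans (dvd_of_eq (h16.trans (by norm_num))))
      rw [h16] at hmod hZlt hTP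
      have he15 : e ≤ 15 := by omega
      have hcases : e = 3 ∧ Nat.card Z = 4 ∨ e = 3 ∧ Nat.card Z = 1 ∨ e = 5 ∧ Nat.card Z = 1 ∨
          e = 7 ∧ Nat.card Z = 2 := by
        rw [hi'] at hmod hZlt ⊢
        obtain ⟨j, hj⟩ := hodd
        interval_cases i <;> interval_cases e <;> first | omega | norm_num at hep
      obtain ⟨s, hk, hs⟩ := hrank (by rw [h16]; omega)
      rw [h16] at hs
      rcases hcases with ⟨h1, h2⟩ | ⟨h1, h2⟩ | ⟨h1, h2⟩ | ⟨h1, h2⟩ <;> rw [h1, h2] at hk hs <;>
        omega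
  refine ⟨fun h8 => ?_, fun h16 => ?_⟩
  · refine (hprime ?_).1 h8
    have he7 : e ≤ 7 := by omega
    obtain ⟨j, hj⟩ := hodd
    interval_cases e <;> first | omega | norm_num
  · have he15 : e ≤ 15 := by omega
    by_cases hep : e.Prime
    · exact (hprime hep).2 h16
    have : e = 9 ∨ e = 15 := by
      obtain ⟨j, hj⟩ := hodd
      interval_cases e <;> first | omega | (norm_num at hep)
    rcases this with h9 | h9
    · right
      have hcardW : Nat.card W = 16 := by
        rw [h16] at hWdvd hTP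
        obtain ⟨i, hi, hi'⟩ := (Nat.dvd_prime_pow Nat.prime_two).1
          (show Nat.card W ∣ 2 ^ 4 from hWdvd)
        interval_cases i <;> omega
      refine (Cfsg.Agent.S4569.result Mi hM P h16 (fun b => Subtype.ext ?_) h9).1
      rw [SubmonoidClass.coe_pow, pow_two]
      exact helem (hcardW.trans h16.symm) b b.2
    · exact Or.inr (h15 h9 h16)

/-- Let G be a finite group with a commutative Sylow 2-subgroup P and M a maximal ideal of the algebraic integers containing 2, and suppose some involution x of G has the property that the principal 2-block of its centralizer has 2-regular rank one. If P has order 8 then the principal 2-block of G contains exactly 8 irreducible characters, and if P has order 16 it contains 8 or 16. -/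
theorem result {G : Type*} [Group G] [Finite G] (M : Ideal Cfsg.AlgInt) (hM : Cfsg.IsPModular 2 M) (P : Sylow 2 G) (hab : IsMulCommutative P) (x : G) (hx : orderOf x = 2) (hl : Cfsg.blockRank 2 (Cfsg.principalBlock M ↥(Subgroup.centralizer ({x} : Set G))) = 1) : (Nat.card P = 8 → Nat.card (Cfsg.principalBlock M G) = 8) ∧ (Nat.card P = 16 → Nat.card (Cfsg.principalBlock M G) = 8 ∨ Nat.card (Cfsg.principalBlock M G) = 16) := by
  haveI : Fact (Nat.Prime 2) := ⟨Nat.prime_two⟩
  have hc : ∀ a ∈ (P : Subgroup G), ∀ b ∈ (P : Subgroup G), a * b = b * a := fun a ha b hb =>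
    congrArg Subtype.val (hab.is_comm.comm ⟨a, ha⟩ ⟨b, hb⟩)
  obtain ⟨g, hg⟩ := CfsgLib.Involutions.exists_conj_mem_of_involution P hx
  set K := Subgroup.centralizer ({x} : Set G)
  obtain ⟨S, O, hOn, hOc⟩ := (CfsgLib.AbelianTwo.blockRank_eq_one_iff hM).1 hl
  haveI := hOn
  have hmemK : ∀ b ∈ (P : Subgroup G), g⁻¹ * b * g ∈ K := fun b hb => by
    refine Subgroup.mem_centralizer_singleton_iff.2 ?_
    calc g⁻¹ * b * g * x = g⁻¹ * (b * (g * x * g⁻¹)) * g := by group
      _ = g⁻¹ * ((g * x * g⁻¹) * b) * g := by rw [hc b hb _ hg]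
      _ = x * (g⁻¹ * b * g) := by group
  let f : (P : Subgroup G) →* K ⧸ O :=
    { toFun := fun b => ((⟨g⁻¹ * b * g, hmemK b b.2⟩ : K) : K ⧸ O)
      map_one' := by
        rw [← QuotientGroup.mk_one]
        exact congrArg _ (Subtype.ext (by simp))
      map_mul' := fun b d => by
        rw [← QuotientGroup.mk_mul]
        exact congrArg _ (Subtype.ext (by simp [mul_assoc])) }
  have hOodd : ¬ 2 ∣ Nat.card O := by
    rw [← hOc.index_eq_card]; exact Sylow.not_dvd_index S
  have hinj : Function.Injective f := by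
    rw [injective_iff_map_eq_one]
    intro b hb
    have hbO : (⟨g⁻¹ * b * g, hmemK b b.2⟩ : K) ∈ O := (QuotientGroup.eq_one_iff _).1 hb
    have h1 := Subgroup.orderOf_dvd_natCard _ hbO
    rw [Subgroup.orderOf_mk, show g⁻¹ * (b : G) * g = g⁻¹ * b * g⁻¹⁻¹ by rw [inv_inv],
      show orderOf (g⁻¹ * (b : G) * g⁻¹⁻¹) = orderOf (b : G) from (MulAut.conj g⁻¹).orderOf_eq _,
      Subgroup.orderOf_coe] at h1
    obtain ⟨k, hk⟩ := IsPGroup.iff_orderOf.1 P.isPGroup' b
    exact orderOf_eq_one_iff.1 (Nat.eq_one_of_dvd_coprimes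
      (((Nat.prime_two.coprime_iff_not_dvd).2 hOodd).pow_left k) (hk ▸ dvd_rfl) h1)
  have hsurj : Function.Surjective f := by
    refine (hinj.bijective_of_nat_card_le ?_).2
    rw [← Subgroup.index, hOc.symm.index_eq_card, ← Subgroup.card_map_of_injective K.subtype_injective]
    obtain ⟨R, hR⟩ := (S.isPGroup'.map K.subtype).exists_le_sylow
    refine (Subgroup.card_le_of_le hR).trans_eq ?_
    rw [R.card_eq_multiplicity, P.card_eq_multiplicity]
  have hcomm : ∀ u v : K ⧸ O, u * v = v * u := by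
    intro u v
    obtain ⟨b, rfl⟩ := hsurj u
    obtain ⟨d, rfl⟩ := hsurj v
    rw [← map_mul, ← map_mul, show b * d = d * b from hab.is_comm.comm b d]
  have hreg : ∀ n ∈ Subgroup.normalizer ((P : Subgroup G) : Set G),
      n * (g * x * g⁻¹) * n⁻¹ = g * x * g⁻¹ →
      n ∈ Subgroup.centralizer ((P : Subgroup G) : Set G) := by
    intro n hn hfix
    have hm : g⁻¹ * n * g ∈ K := by
      refine Subgroup.mem_centralizer_singleton_iff.2 ?_
      calc g⁻¹ * n * g * x = g⁻¹ * (n * (g * x * g⁻¹) * n⁻¹) * n * g := by group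
        _ = x * (g⁻¹ * n * g) := by rw [hfix]; group
    refine Subgroup.mem_centralizer_iff.2 fun b hb => ?_
    have hb' := (Subgroup.mem_normalizer_iff.1 hn b).1 hb
    have h1 : f ⟨n * b * n⁻¹, hb'⟩ = f ⟨b, hb⟩ := by
      show ((⟨g⁻¹ * (n * b * n⁻¹) * g, hmemK _ hb'⟩ : K) : K ⧸ O) =
        ((⟨g⁻¹ * b * g, hmemK b hb⟩ : K) : K ⧸ O)
      rw [show (⟨g⁻¹ * (n * b * n⁻¹) * g, hmemK _ hb'⟩ : K) =
        ⟨g⁻¹ * n * g, hm⟩ * ⟨g⁻¹ * b * g, hmemK b hb⟩ * (⟨g⁻¹ * n * g, hm⟩ : K)⁻¹ from
          Subtype.ext (by simp [mul_assoc]),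
        QuotientGroup.mk_mul, QuotientGroup.mk_mul, QuotientGroup.mk_inv, hcomm _ (QuotientGroup.mk _),
        mul_inv_cancel_right]
    exact (mul_inv_eq_iff_eq_mul.1 (congrArg Subtype.val (hinj h1))).symm
  exact count hM P hc hg (fun e1 => by
      rw [conj_eq_one_iff] at e1; rw [e1, orderOf_one] at hx; omega)
    (by rw [show g * x * g⁻¹ * (g * x * g⁻¹) = g * (x * x) * g⁻¹ by group,
      CfsgLib.Involutions.mul_self_eq_one hx, mul_one, mul_inv_cancel]) hreg

end Cfsg.Agent.S4570
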