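import Cfsg.Statements.S4571
import Cfsg.Agent.Lib.ZerosCodegree.RankQuotient

set_option autoImplicit false
open Cfsg

namespace Cfsg.Agent.S4571

/-- Let Q be a normal p-subgroup of the finite group G with G = Q·C_G(Q), and M a maximal ideal of the algebraic integers containing p. Then the principal p-blocks of G and of G/Q have the same p-regular rank (the same number of irreducible Brauer characters). -/
theorem result {G : Type*} [Group G] [Finite G] (p : ℕ) [Fact p.Prime] (M : Ideal Cfsg.AlgInt) (hM : Cfsg.IsPModular p M) (Q : Subgroup G) [Q.Normal] (hQ : IsPGroup p Q) (hsup : Q ⊔ Subgroup.centralizer (Q : Set G) = ⊤) : Cfsg.blockRank p (Cfsg.principalBlock M G) = Cfsg.blockRank p (Cfsg.principalBlock M (G ⧸ Q)) := by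
  haveI : M.IsPrime := hM.2.1.isPrime
  refine CfsgLib.ZerosCodegree.blockRank_principalBlock_quotient hM hQ fun g hg q hq => ?_
  obtain ⟨k, hk1, hk2⟩ := CfsgLib.ZerosCodegree.exists_regular_exponent G p
  have hgC : g ∈ (↑(Q ⊔ Subgroup.centralizer (Q : Set G)) : Set G) := by rw [hsup]; trivial
  rw [Subgroup.normal_mul] at hgC
  obtain ⟨a, ha, c, hc, hac⟩ := hgC
  have hgk : (MonoidHom.id G) g ^ k = (MonoidHom.id G) g := hk2 (MonoidHom.id G) g hg
  have hcomm : Commute a c := Subgroup.mem_centralizer_iff.1 hc a ha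
  have ha1 : a ^ k = 1 := by
    obtain ⟨n, hn⟩ := hQ ⟨a, ha⟩
    have hn' : a ^ p ^ n = 1 := congrArg Subtype.val hn
    refine orderOf_eq_one_iff.1 (Nat.eq_one_of_dvd_coprimes
      (Nat.Coprime.pow_left n ((Fact.out : p.Prime).coprime_iff_not_dvd.2 (hk1 a)))
      (orderOf_dvd_of_pow_eq_one ?_) dvd_rfl)
    rw [← pow_mul, mul_comm, pow_mul, hn', one_pow]
  have hgc : g = c ^ k := by
    simp only at hac
    rw [← hac] at hgk ⊢
    simp only [MonoidHom.id_apply] at hgk
    rw [← hgk, hcomm.mul_pow, ha1, one_mul]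
  rw [hgc]
  exact (show Commute q c from Subgroup.mem_centralizer_iff.1 hc q hq).symm.pow_left k

end Cfsg.Agent.S4571
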