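import Cfsg.Statements.S4574
import Cfsg.Agent.Lib.ZerosCodegree.CharPowers
-- import your own Cfsg.Agent.* helpers here

set_option autoImplicit false
open Cfsg

namespace Cfsg.Agent.S4574

/-- Let χ be an irreducible character of the finite group G, of degree d, and let Z(χ) be the set of elements g with |χ g| = d (the centre of χ). Then χ vanishes on at least (d ^ 2 - 1) · |Z(χ)| elements of G, with equality when every value |χ g| is 0, 1 or d. -/
theorem result {G : Type*} [Group G] [Fintype G] [DecidableEq G] (χ : G → ℂ) (hχ : Cfsg.IsIrrCharacter G χ) : (Cfsg.charDegree χ ^ 2 - 1) * (Finset.univ.filter (fun g : G => ‖χ g‖ = (Cfsg.charDegree χ : ℝ))).card ≤ (Finset.univ.filter (fun g : G => χ g = 0)).card ∧ ((∀ g : G, ‖χ g‖ = 0 ∨ ‖χ g‖ = 1 ∨ ‖χ g‖ = (Cfsg.charDegree χ : ℝ)) → (Cfsg.charDegree χ ^ 2 - 1) * (Finset.univ.filter (fun g : G => ‖χ g‖ = (Cfsg.charDegree χ : ℝ))).card = (Finset.univ.filter (fun g : G => χ g = 0)).card) := by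
  classical
  set d : ℕ := Cfsg.charDegree χ with hd
  have hc : Cfsg.IsCharacter G χ := CfsgLib.CharTheory.IsIrrCharacter.isCharacter hχ
  have hd1 : χ 1 = (d : ℂ) := CfsgLib.ZerosCodegree.isCharacter_apply_one_eq hc
  have hdpos : 0 < d := CfsgLib.ZerosCodegree.charDegree_pos ⟨χ, hχ⟩
  set Z := Finset.univ.filter (fun g : G => ‖χ g‖ = (d : ℝ)) with hZ
  set O := Finset.univ.filter (fun g : G => χ g = 0) with hO
  set S := Finset.univ.filter (fun g : G => ¬ (‖χ g‖ = (d : ℝ) ∨ χ g = 0)) with hSdef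
  have hdisj : Disjoint Z O := Finset.disjoint_filter.mpr fun g _ h1 h2 => by
    rw [h2, norm_zero] at h1
    exact hdpos.ne' (by exact_mod_cast h1.symm)
  have hpart : ∀ f : G → ℝ, ∑ g, f g = ∑ g ∈ Z, f g + ∑ g ∈ O, f g + ∑ g ∈ S, f g := fun f => by
    rw [← Finset.sum_union hdisj, hZ, hO, ← Finset.filter_or, hSdef, Finset.sum_filter_add_sum_filter_not]
  have hnorm : (Nat.card G : ℝ) = (d : ℝ) ^ 2 * Z.card + ∑ g ∈ S, ‖χ g‖ ^ 2 := by
    have h := CfsgLib.CharTheory.classInner_self_of_isIrr hχ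
    rw [Cfsg.classInner, inv_mul_eq_iff_eq_mul₀ (Nat.cast_ne_zero.2 Nat.card_pos.ne'), mul_one] at h
    have h2 : ∑ g : G, ‖χ g‖ ^ 2 = (Nat.card G : ℝ) := by
      rw [← Complex.ofReal_inj, Complex.ofReal_natCast, ← h, Complex.ofReal_sum]
      exact Finset.sum_congr rfl fun g _ => by rw [Complex.mul_conj, Complex.normSq_eq_norm_sq]
    rw [← h2, hpart]
    rw [Finset.sum_congr rfl (g := fun _ => (d : ℝ) ^ 2)
        (fun g hg => by rw [(Finset.mem_filter.mp hg).2]),
      Finset.sum_eq_zero (s := O) (fun g hg => by rw [(Finset.mem_filter.mp hg).2, norm_zero]; ring),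
      Finset.sum_const, nsmul_eq_mul]
    ring
  have hcard : (Nat.card G : ℝ) = Z.card + O.card + S.card := by
    have h := hpart (fun _ => (1 : ℝ))
    simp only [Finset.sum_const, nsmul_eq_mul, mul_one, Finset.card_univ, ← Nat.card_eq_fintype_card] at h
    exact h
  have hstable : ∀ g ∈ S, ∀ t : ℕ, t.Coprime (Nat.card G) → g ^ t ∈ S := by
    intro g hg t ht
    rw [hSdef, Finset.mem_filter, and_iff_right (Finset.mem_univ _), not_or] at hg ⊢
    refine ⟨fun hn => hg.1 ?_, fun h0 => hg.2 ((CfsgLib.ZerosCodegree.apply_pow_eq_zero_iff hc g ht).mp h0)⟩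
    obtain ⟨n, ρ, hρc⟩ := hc
    have hfin : (Module.finrank ℂ (Fin n → ℂ) : ℂ) = (d : ℂ) := by rw [← hd1, ← hρc, ρ.char_one]
    have hfin' : (Module.finrank ℂ (Fin n → ℂ) : ℝ) = (d : ℝ) := by exact_mod_cast hfin
    rw [← hρc, ← hfin', CfsgLib.CharTheory.norm_character_eq_iff] at hn ⊢
    obtain ⟨w, hw⟩ := hn
    obtain ⟨k, hk⟩ := exists_pow_eq_self_of_coprime (ht.coprime_dvd_right (orderOf_dvd_natCard g))
    refine ⟨w ^ k, ?_⟩
    rw [← hk, map_pow, hw, ← Module.End.one_eq_id, smul_pow, one_pow]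
  have hle := CfsgLib.Jordan.card_le_sum_norm_sq_of_stable hc S hstable
    (fun g hg h0 => (Finset.mem_filter.mp hg).2 (Or.inr h0))
  have hd2 : ((d ^ 2 - 1 : ℕ) : ℝ) = (d : ℝ) ^ 2 - 1 := by
    rw [Nat.cast_sub (Nat.one_le_pow _ _ hdpos)]; push_cast; ring
  constructor
  · have : ((d ^ 2 - 1 : ℕ) : ℝ) * Z.card ≤ O.card := by rw [hd2]; nlinarith
    exact_mod_cast this
  · intro hval
    have hS1 : ∑ g ∈ S, ‖χ g‖ ^ 2 = S.card := by
      rw [Finset.sum_congr rfl (g := fun _ => (1 : ℝ)) (fun g hg => ?_), Finset.sum_const, nsmul_eq_mul, mul_one]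
      rcases hval g with h | h | h
      · exact absurd (Or.inr (norm_eq_zero.mp h)) (Finset.mem_filter.mp hg).2
      · rw [h]; ring
      · exact absurd (Or.inl h) (Finset.mem_filter.mp hg).2
    have : ((d ^ 2 - 1 : ℕ) : ℝ) * Z.card = O.card := by rw [hd2]; linarith
    exact_mod_cast this

end Cfsg.Agent.S4574
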