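import Cfsg.Statements.S4575
import Cfsg.Agent.Lib.BlockSections.Major
import Cfsg.Agent.Lib.BlockSections.TwoPower
import Cfsg.Agent.Lib.Blocks.Defect

set_option autoImplicit false
open Cfsg

namespace Cfsg.Agent.S4575

open CfsgLib.CharTheory CfsgLib.Blocks CfsgLib.BrauerCharacters CfsgLib.BlockSections CfsgLib.Jordan Finset

theorem main {G : Type*} [Group G] [Fintype G] {y : G} [Fintype (Subgroup.centralizer ({y} : Set G))]
    {b : Set (IrrCharacter (Subgroup.centralizer ({y} : Set G)))} {M : Ideal AlgInt} [M.IsPrime]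
    (hM : IsPModular 2 M) {B : Set (IrrCharacter G)} (hy : ∃ k : ℕ, orderOf y = 2 ^ k)
    (hind : IsInducedBlock M (Subgroup.centralizer ({y} : Set G)) b B)
    (hd : blockDefect 2 b = blockDefect 2 B) (hl : Nat.card B ≤ blockRank 2 b + 3) :
    Nat.card B ≤ 2 ^ blockDefect 2 B := by
  classical
  haveI : Fact (Nat.Prime 2) := ⟨Nat.prime_two⟩
  rw [← card_blockFinset, ← hd]
  rw [← card_blockFinset] at hl
  set K := 2 ^ blockDefect 2 b with hK
  rcases le_or_gt (blockFinset B).card 1 with hsmall | hbig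
  · exact hsmall.trans Nat.one_le_two_pow
  set N := conjCount y with hNdef
  have hN : 0 < N := galCard_pos _
  obtain ⟨k, hk⟩ := exists_orderOf_cenElem y hy
  -- conjugates of the complementary entry are positive
  set W : IrrCharacter G → secField y := fun χ => (K : secField y) - secX y b 2 χ χ with hW
  have hWre : ∀ (σ : Gal (orderOf (cenElem y))) χ, ((σ (W χ) : secField y) : ℂ) =
      (((K : ℝ) - ((σ (secX y b 2 χ χ) : secField y) : ℂ).re : ℝ) : ℂ) := by
    intro σ χ
    have hre : (((σ (secX y b 2 χ χ) : secField y) : ℂ)) =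
        ((((σ (secX y b 2 χ χ) : secField y) : ℂ).re : ℝ) : ℂ) :=
      (Complex.conj_eq_iff_re.1 (conj_conjugate_secX y b σ χ χ)).symm
    simp only [hW, map_sub, map_natCast, AddSubgroupClass.coe_sub]
    push_cast
    rw [← hre]
  have hoff : ∀ (σ : Gal (orderOf (cenElem y))), ∀ χ ∈ blockFinset B,
      ∑ ψ ∈ (blockFinset B).erase χ, ‖((σ (secX y b 2 χ ψ) : secField y) : ℂ)‖ ^ 2 =
        ((σ (secX y b 2 χ χ) : secField y) : ℂ).re *
          ((K : ℝ) - ((σ (secX y b 2 χ χ) : secField y) : ℂ).re) := by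
    intro σ χ hχ
    have h := sum_norm_sq_eq (p := 2) y b hM hy hind σ χ
    rw [← sum_erase_add _ _ hχ, (totNonneg_secX y b hM hy hind χ).norm_eq] at h
    rw [hK]
    push_cast at h ⊢
    linear_combination h
  have hnz : ∀ χ ∈ blockFinset B, ∀ ψ ∈ blockFinset B, blockHeight 2 B (χ : G → ℂ) = 0 →
      secX y b 2 χ ψ ≠ 0 ∧ secX y b 2 ψ χ ≠ 0 := by
    intro χ hχ ψ hψ h0
    have h1 := secX_ne_zero_of_major y b hM hy hind hd (mem_blockFinset.1 hψ) (mem_blockFinset.1 hχ) h0
    refine ⟨fun e => h1 (Subtype.ext ?_), h1⟩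
    have := conj_conjugate_secX (p := 2) y b 1 χ ψ
    simp only [AlgEquiv.one_apply] at this
    rw [← this, e]
    simp
  have hpos : ∀ (σ : Gal (orderOf (cenElem y))), ∀ χ ∈ blockFinset B,
      0 < (K : ℝ) - ((σ (secX y b 2 χ χ) : secField y) : ℂ).re := by
    intro σ χ hχ
    obtain ⟨ψ, hψ, hne, hne0⟩ : ∃ ψ ∈ blockFinset B, ψ ≠ χ ∧ secX y b 2 χ ψ ≠ 0 := by
      by_cases h0 : blockHeight 2 B (χ : G → ℂ) = 0
      · obtain ⟨ψ, hψ, hne⟩ := exists_mem_ne hbig χ
        exact ⟨ψ, hψ, hne, (hnz χ hχ ψ hψ h0).1⟩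
      · obtain ⟨ψ, hψ, hψ0⟩ := exists_height_eq_zero (p := 2) (isPBlock_nonempty hind.2.1)
        exact ⟨ψ, mem_blockFinset.2 hψ, fun e => h0 (e ▸ hψ0),
          (hnz ψ (mem_blockFinset.2 hψ) χ hχ hψ0).2⟩
    have h1 : 0 < ∑ φ ∈ (blockFinset B).erase χ, ‖((σ (secX y b 2 χ φ) : secField y) : ℂ)‖ ^ 2 := by
      refine sum_pos' (fun _ _ => sq_nonneg _) ⟨ψ, mem_erase.2 ⟨hne, hψ⟩, ?_⟩
      refine pow_pos (norm_pos_iff.2 fun e => hne0 ((map_eq_zero σ).1 ?_)) 2
      exact Subtype.ext e
    rw [hoff σ χ hχ] at h1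
    obtain ⟨r, hr, e⟩ := totNonneg_secX y b hM hy hind χ σ
    rw [e, Complex.ofReal_re] at h1 ⊢
    rcases lt_or_ge 0 ((K : ℝ) - r) with h | h
    · exact h
    · nlinarith
  have hWsum : ∀ χ, galSum (W χ) = N * K - diagSum y b 2 χ := by
    intro χ
    simp only [galSum, hWre, Complex.ofReal_re, sum_sub_distrib, sum_const, card_univ, nsmul_eq_mul]
    rfl
  have hWtot : ∀ χ ∈ blockFinset B, TotNonneg (W χ) := fun χ hχ σ => ⟨_, (hpos σ χ hχ).le, hWre σ χ⟩
  have hWne : ∀ χ ∈ blockFinset B, W χ ≠ 0 := by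
    intro χ hχ e
    have h := hWre 1 χ
    rw [e, map_zero, ZeroMemClass.coe_zero] at h
    exact (hpos 1 χ hχ).ne (Complex.ofReal_eq_zero.1 h.symm).symm
  have hWint : ∀ χ, IsIntegral ℤ (W χ : ℂ) := fun χ => by
    simp only [hW, AddSubgroupClass.coe_sub]
    rw [show (((K : secField y)) : ℂ) = (K : ℂ) from map_natCast (secField y).val _]
    exact (isIntegral_natCast _).sub (isIntegral_secX y b χ χ)
  by_cases hone : ∃ χ ∈ blockFinset B, blockHeight 2 B (χ : G → ℂ) = 0 ∧ galSum (W χ) ≤ N
  · obtain ⟨χ, hχ, h0, hle⟩ := hone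
    suffices h : ((blockFinset B).card : ℝ) * N ≤ (K : ℝ) * N by
      exact_mod_cast le_of_mul_le_mul_right h hN
    refine le_trans ?_ (mul_le_mul_of_nonneg_left hle (Nat.cast_nonneg K))
    set f : IrrCharacter G → secField y := fun ψ => if ψ = χ then W χ else secX y b 2 χ ψ with hf
    rw [← nsmul_eq_mul, ← sum_const]
    refine le_trans (sum_le_sum fun ψ hψ => galCard_le_sum_norm_sq (w := f ψ) ?_ ?_) (le_of_eq ?_)
    · simp only [hf]; split_ifs; exacts [hWint χ, isIntegral_secX y b χ ψ]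
    · simp only [hf]; split_ifs; exacts [hWne χ hχ, (hnz χ hχ ψ hψ h0).1]
    rw [sum_comm, galSum, mul_sum]
    refine sum_congr rfl fun σ _ => ?_
    rw [← sum_erase_add _ _ hχ, sum_congr rfl (g := fun ψ : IrrCharacter G =>
      ‖((σ (secX y b 2 χ ψ) : secField y) : ℂ)‖ ^ 2) (fun ψ hψ => by
        simp only [hf, if_neg (mem_erase.1 hψ).1]), hoff σ χ hχ]
    simp only [hf, if_true, hWre, Complex.norm_real, Real.norm_eq_abs, sq_abs, Complex.ofReal_re]
    ring
  push Not at hone
  -- every complementary diagonal is at least three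
  have h3 : ∀ χ ∈ blockFinset B, (3 : ℝ) * N ≤ galSum (W χ) := by
    intro χ hχ
    have hχB := mem_blockFinset.1 hχ
    obtain ⟨z, hz⟩ := exists_int_galSum hk (hWint χ)
    have hz0 : (1 : ℝ) ≤ z := by
      have := galCard_le_galSum (hWint χ) (hWtot χ hχ) (hWne χ hχ)
      rw [hz] at this
      exact le_of_mul_le_mul_left (by rwa [mul_one]) hN
    have hdpos : ∀ h : ℕ, blockHeight 2 B (χ : G → ℂ) = h → h < blockDefect 2 b := by
      intro h hh
      have h1 := pow_height_mul_conjCount_le (p := 2) y b hM hy hind hd hχB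
      rw [hh, ← hNdef] at h1
      have h2 : diagSum y b 2 χ < N * K := by
        rw [← sub_pos, ← hWsum, hz]
        exact mul_pos hN (lt_of_lt_of_le one_pos hz0)
      have h4 : (2 : ℝ) ^ h < (K : ℝ) := by
        refine lt_of_mul_lt_mul_right ?_ hN.le
        rw [mul_comm (K : ℝ)]
        exact lt_of_le_of_lt (by simpa using h1) h2
      rw [hK] at h4
      push_cast at h4
      exact (pow_lt_pow_iff_right₀ one_lt_two).1 h4
    rw [hz, mul_comm (3 : ℝ)]
    refine mul_le_mul_of_nonneg_left ?_ hN.le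
    suffices h : (3 : ℤ) ≤ z by exact_mod_cast h
    by_cases h0 : blockHeight 2 B (χ : G → ℂ) = 0
    · have hgt := hone χ hχ h0
      rw [hz] at hgt
      have hz1 : (1 : ℤ) < z := by
        have h' : (1 : ℝ) < (z : ℝ) := lt_of_mul_lt_mul_left (by rwa [mul_one]) hN.le
        exact_mod_cast h'
      obtain ⟨x, hxodd, hx⟩ := odd_of_height_zero y b hM hy hind hχB h0
      have he : (z : ℝ) = (K : ℝ) - x := by
        have h := hWsum χ
        rw [hz, hx, ← mul_sub] at h
        exact mul_left_cancel₀ hN.ne' h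
      have he' : z = (K : ℤ) - x := by exact_mod_cast he
      obtain ⟨u, rfl⟩ := hxodd
      have hK2 : (2 : ℤ) ∣ (K : ℤ) := by
        rw [hK]; push_cast
        exact dvd_pow_self 2 (hdpos 0 h0).ne'
      omega
    · set h := blockHeight 2 B (χ : G → ℂ) with hh
      have hlt := hdpos h rfl
      set V : secField y := (2 : secField y) ^ (blockDefect 2 b - h) - secQuot y b 2 B χ χ with hV
      have hWV : W χ = (2 : secField y) ^ h * V := by
        rw [hV, mul_sub, ← pow_add, Nat.add_sub_cancel' hlt.le]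
        simp only [hW, hK]
        push_cast
        congr 1
        rw [secQuot, ← hh, mul_comm, mul_assoc, Nat.cast_ofNat,
          inv_mul_cancel₀ (pow_ne_zero _ two_ne_zero), mul_one]
      have hVre : ∀ σ : Gal (orderOf (cenElem y)),
          ((σ (W χ) : secField y) : ℂ) = (2 : ℂ) ^ h * ((σ V : secField y) : ℂ) := by
        intro σ
        rw [hWV, map_mul, map_pow, map_ofNat]
        push_cast
        rfl
      have hVint : IsIntegral ℤ (V : ℂ) := by
        simp only [hV, AddSubgroupClass.coe_sub, SubmonoidClass.coe_pow]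
        exact ((isIntegral_natCast 2).pow _).sub (isIntegral_secQuot y b hM hy hind hd hχB χ)
      have hVtot : TotNonneg V := by
        intro σ
        refine ⟨((K : ℝ) - ((σ (secX y b 2 χ χ) : secField y) : ℂ).re) / (2 : ℝ) ^ h,
          div_nonneg (hpos σ χ hχ).le (by positivity), ?_⟩
        push_cast
        rw [eq_div_iff (pow_ne_zero _ two_ne_zero), mul_comm, ← hVre σ, hWre σ χ]
        push_cast
        rfl
      have hVne : V ≠ 0 := fun e => hWne χ hχ (by rw [hWV, e, mul_zero])
      have hVM : MemLocalIdeal M (V : ℂ) := by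
        simp only [hV, AddSubgroupClass.coe_sub, SubmonoidClass.coe_pow]
        refine memLocalIdeal_sub ?_ (memLocalIdeal_secQuot_self y b hM hy hind hd hχB (Nat.pos_of_ne_zero h0))
        obtain ⟨e, he⟩ : ∃ e, blockDefect 2 b - h = e + 1 := ⟨blockDefect 2 b - h - 1, by omega⟩
        rw [he, pow_succ]
        exact memLocalIdeal_mul_left (memLocalRing_of_isIntegral ((isIntegral_natCast 2).pow e))
          ((memLocalIdeal_natCast_iff hM 2).2 dvd_rfl)
      obtain ⟨v, hv⟩ := exists_int_galSum hk hVint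
      have hgt := galCard_lt_galSum hM hVint hVtot hVne hVM
      rw [hv] at hgt
      have hv1 : (1 : ℤ) < v := by
        have h' : (1 : ℝ) < (v : ℝ) := lt_of_mul_lt_mul_left (by rwa [mul_one]) hN.le
        exact_mod_cast h'
      have he : galSum (W χ) = (2 : ℝ) ^ h * galSum V := by
        simp only [galSum, mul_sum]
        refine sum_congr rfl fun σ _ => ?_
        rw [hVre, ← Complex.ofReal_ofNat, ← Complex.ofReal_pow, Complex.re_ofReal_mul]
      rw [hz, hv] at he
      have he' : z = 2 ^ h * v := by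
        have h2 : (z : ℝ) = (2 : ℝ) ^ h * v := mul_left_cancel₀ hN.ne' (he.trans (by ring))
        exact_mod_cast h2
      have h2 : (2 : ℤ) ≤ 2 ^ h := le_self_pow₀ one_le_two h0
      nlinarith
  have htot := sum_le_sum h3
  rw [sum_const, nsmul_eq_mul, sum_congr rfl (fun χ _ => hWsum χ), sum_sub_distrib, sum_const,
    nsmul_eq_mul, sum_diagSum y b hM hy hind, ← hK] at htot
  have hfin : ((blockFinset B).card : ℝ) * 3 ≤ (K : ℝ) * 3 := by
    refine le_of_mul_le_mul_right ?_ hN
    rw [mul_assoc]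
    refine htot.trans ?_
    have hl' : ((blockFinset B).card : ℝ) ≤ (blockRank 2 b : ℝ) + 3 := by exact_mod_cast hl
    have h := mul_le_mul_of_nonneg_left hl' (mul_nonneg hN.le (Nat.cast_nonneg K))
    push_cast at h ⊢
    rw [← hNdef]
    linarith
  exact_mod_cast le_of_mul_le_mul_right hfin (by norm_num)

/-- Let B be a 2-block of the finite group G (relative to a maximal ideal M of the algebraic integers containing 2) of defect d with defect group D. Let z be an element of D commuting with every element of D, and let b be a block of the centralizer of z with defect group D that induces B (a major subsection (z, b)). If the number of irreducible characters in B exceeds the 2-regular rank of b by at most three, then B contains at most 2 ^ d irreducible characters. -/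
theorem result {G : Type*} [Group G] [Finite G] (M : Ideal Cfsg.AlgInt) (hM : Cfsg.IsPModular 2 M) (B : Set (Cfsg.IrrCharacter G)) (hB : Cfsg.IsPBlock M B) (D : Subgroup G) (hD : Cfsg.IsDefectGroup 2 M B D) (z : G) (hzD : z ∈ D) (hzc : ∀ d ∈ D, d * z = z * d) (b : Set (Cfsg.IrrCharacter ↥(Subgroup.centralizer ({z} : Set G)))) (hb : Cfsg.IsInducedBlock M (Subgroup.centralizer ({z} : Set G)) b B) (hbD : Cfsg.IsDefectGroup 2 M b (D.subgroupOf (Subgroup.centralizer ({z} : Set G)))) (h : Nat.card B ≤ Cfsg.blockRank 2 b + 3) : Nat.card B ≤ 2 ^ Cfsg.blockDefect 2 B := by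
  classical
  haveI := CfsgLib.Blocks.isPrime_of_isPModular hM
  haveI : Fact (Nat.Prime 2) := ⟨Nat.prime_two⟩
  haveI := Fintype.ofFinite G
  have hy : ∃ k : ℕ, orderOf z = 2 ^ k := by
    obtain ⟨k, hk⟩ := IsPGroup.iff_orderOf.1 (isPGroup_of_isDefectGroup hD) ⟨z, hzD⟩
    exact ⟨k, by rwa [Subgroup.orderOf_mk] at hk⟩
  have hDC : D ≤ Subgroup.centralizer ({z} : Set G) := fun d hd =>
    Subgroup.mem_centralizer_singleton_iff.2 (hzc d hd)
  refine main hM hy hb (Nat.pow_right_injective (le_refl 2) ?_) h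
  show 2 ^ blockDefect 2 b = 2 ^ blockDefect 2 B
  rw [← card_isDefectGroup hM hB hD, ← card_isDefectGroup hM hb.1 hbD,
    Nat.card_congr (Subgroup.subgroupOfEquivOfLe hDC).toEquiv]

end Cfsg.Agent.S4575
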