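import Cfsg.Statements.S4580
import Cfsg.Agent.Lib.ZerosCodegree.TwoBlockReal
import Cfsg.Agent.Lib.ZerosCodegree.CharsOver

set_option autoImplicit false
open Cfsg
open scoped ComplexConjugate

namespace Cfsg.Agent.S4580

/-- Let N be a normal subgroup of the finite group G, M a maximal ideal of the algebraic integers containing 2, and θ a real-valued irreducible character of N of odd degree that extends to G (some irreducible character of G restricts to θ). Then θ has an extension to G lying in the principal 2-block of G. -/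
theorem result {G : Type*} [Group G] [Finite G] (N : Subgroup G) [N.Normal] (M : Ideal Cfsg.AlgInt) (hM : Cfsg.IsPModular 2 M) (θ : Cfsg.IrrCharacter N) (hreal : ∀ n : N, ((θ : N → ℂ) n).im = 0) (hodd : Odd (Cfsg.charDegree (θ : N → ℂ))) (hext : ∃ η : Cfsg.IrrCharacter G, ∀ n : N, (η : G → ℂ) n = (θ : N → ℂ) n) :
    ∃ η : Cfsg.IrrCharacter G, (∀ n : N, (η : G → ℂ) n = (θ : N → ℂ) n) ∧ η ∈ Cfsg.principalBlock M G := by
  classical
  haveI := CfsgLib.Blocks.isPrime_of_isPModular hM
  haveI : Fintype G := Fintype.ofFinite G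
  haveI : Fintype N := Fintype.ofFinite N
  obtain ⟨η, hη⟩ := hext
  have hconjN : ∀ n : N, conj ((η : G → ℂ) n) = (θ : N → ℂ) n := fun n => by
    rw [hη]; exact Complex.conj_eq_iff_im.2 (hreal n)
  obtain ⟨μ, hμN, hμ⟩ := CfsgLib.ZerosCodegree.exists_eq_mul_hom_of_extension N η.2
    (CfsgLib.CharTheory.isIrrCharacter_conj η.2) θ.2 hη (by
      rw [show (fun n : N => conj ((η : G → ℂ) n)) = (θ : N → ℂ) from funext hconjN]
      exact CfsgLib.CharTheory.classInner_self_of_isIrr θ.2)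
  set m := Nat.card G / 2 ^ (Nat.card G).factorization 2
  have hm : Odd m := Nat.odd_iff.2 (Nat.two_dvd_ne_zero.1
    (Nat.not_dvd_ordCompl Nat.prime_two Nat.card_pos.ne'))
  obtain ⟨j, hj⟩ := hm
  let ν : G →* ℂˣ := μ ^ (j + 1)
  have hνN : ∀ n : N, ν n = 1 := fun n => by
    show μ n ^ (j + 1) = 1
    rw [hμN, one_pow]
  let η' : Cfsg.IrrCharacter G := ⟨(fun g => (ν g : ℂ)) * (η : G → ℂ),
    CfsgLib.CharTheory.isIrrCharacter_mul_of_norm η.2
      (CfsgLib.CharTheory.IsIrrCharacter.isCharacter (CfsgLib.CharTheory.isIrrCharacter_linear ν))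
      (CfsgLib.ZerosCodegree.norm_hom_eq_one ν)⟩
  have hres : ∀ n : N, (η' : G → ℂ) n = (θ : N → ℂ) n := fun n => by
    show (ν n : ℂ) * (η : G → ℂ) n = _
    rw [hνN, Units.val_one, one_mul, hη]
  refine ⟨η', hres, ?_⟩
  have hodd' : ¬ 2 ∣ Cfsg.charDegree (η' : G → ℂ) := by
    have h1 := hres 1
    rw [OneMemClass.coe_one] at h1
    rw [Cfsg.charDegree, h1]
    exact fun h => Nat.not_even_iff_odd.2 hodd (even_iff_two_dvd.2 h)
  -- on odd elements the conjugate of the new extension agrees with it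
  have hreg : ∀ g : G, ¬ 2 ∣ orderOf g → conj ((η' : G → ℂ) g) = (η' : G → ℂ) g := by
    intro g hg
    have hpow : μ g ^ m = 1 := by
      rw [← map_pow, orderOf_dvd_iff_pow_eq_one.1, map_one]
      exact (((Nat.prime_two.coprime_iff_not_dvd.2 hg).symm.pow_right _).dvd_of_dvd_mul_left
        (((Nat.ordProj_mul_ordCompl_eq_self (Nat.card G) 2)).symm ▸ orderOf_dvd_natCard g))
    have hν2 : ν g * ν g = μ g := by
      show μ g ^ (j + 1) * μ g ^ (j + 1) = μ g
      rw [← pow_add, show j + 1 + (j + 1) = m + 1 by omega, pow_succ, hpow, one_mul]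
    show conj ((ν g : ℂ) * (η : G → ℂ) g) = (ν g : ℂ) * (η : G → ℂ) g
    rw [map_mul, CfsgLib.ZerosCodegree.conj_hom_eq_inv, show conj ((η : G → ℂ) g) =
      (μ g : ℂ) * (η : G → ℂ) g from congrFun hμ g, ← hν2, Units.val_mul, ← mul_assoc, ← mul_assoc,
      Units.inv_mul, one_mul]
  have hB := CfsgLib.Blocks.isPBlock_blockOf (M := M) η'
  have hP : Cfsg.blockOf M (η' : G → ℂ) = Cfsg.principalBlock M G := by
    refine CfsgLib.CharDegreesTheory.eq_principalBlock_of_conj_closed hM hB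
      ⟨η', CfsgLib.Blocks.mem_blockOf_self η', hodd'⟩ fun χ hχ => ?_
    let χc : Cfsg.IrrCharacter G :=
      ⟨fun g => conj ((χ : G → ℂ) g), CfsgLib.CharTheory.isIrrCharacter_conj χ.2⟩
    refine ⟨χc, CfsgLib.Blocks.mem_of_sameBlock hB (CfsgLib.Blocks.mem_blockOf_self η')
      (CfsgLib.ZerosCodegree.sameBlock_of_regular hM fun g hg => ?_), rfl⟩
    have h1 := hχ g⁻¹
    have e : ∀ f : Cfsg.IrrCharacter G, Cfsg.centralChar (f : G → ℂ) g⁻¹ =
        ((Subgroup.centralizer ({g} : Set G)).index : ℂ) * conj ((f : G → ℂ) g) / (f : G → ℂ) 1 := by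
      intro f
      rw [Cfsg.centralChar, CfsgLib.CharTheory.IsIrrCharacter.inv f.2]
      congr 4
      ext c
      simp only [Subgroup.mem_centralizer_singleton_iff]
      exact ⟨fun h => (Commute.inv_right_iff.1 h), fun h => (show Commute c g from h).inv_right⟩
    rw [e, e, hreg g hg] at h1
    show Cfsg.MemLocalIdeal M (Cfsg.centralChar (η' : G → ℂ) g - Cfsg.centralChar (χc : G → ℂ) g)
    simp only [Cfsg.centralChar, χc, CfsgLib.ZerosCodegree.irr_apply_one_eq χ, Complex.conj_natCast]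
    rwa [CfsgLib.ZerosCodegree.irr_apply_one_eq χ] at h1
  rw [← hP]
  exact CfsgLib.Blocks.mem_blockOf_self η'

end Cfsg.Agent.S4580
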