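import Cfsg.Statements.S4581
-- import your own Cfsg.Agent.* helpers here
import Cfsg.Agent.Lib.BlockLocal.OddDegreeReal

set_option autoImplicit false
open Cfsg

namespace Cfsg.Agent.S4581

/-- Let G be a finite solvable group, P a Sylow 2-subgroup and N its normalizer. Then G and N have the same number of real-valued irreducible characters of odd degree; and every odd-degree irreducible character of G is real-valued exactly when the derived subgroup of P equals the Frattini subgroup of P and P is its own normalizer in G. -/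
theorem result {G : Type*} [Group G] [Finite G] [Group.IsSolvable G] (P : Sylow 2 G) :
    Nat.card {χ : Cfsg.IrrCharacter G // (∀ g : G, ((χ : G → ℂ) g).im = 0) ∧ Odd (Cfsg.charDegree (χ : G → ℂ))} =
      Nat.card {ψ : Cfsg.IrrCharacter (Subgroup.normalizer ((P : Subgroup G) : Set G)) // (∀ g, ((ψ : Subgroup.normalizer ((P : Subgroup G) : Set G) → ℂ) g).im = 0) ∧ Odd (Cfsg.charDegree (ψ : Subgroup.normalizer ((P : Subgroup G) : Set G) → ℂ))} ∧
    ((∀ χ : Cfsg.IrrCharacter G, Odd (Cfsg.charDegree (χ : G → ℂ)) → ∀ g : G, ((χ : G → ℂ) g).im = 0) ↔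
      (commutator (P : Subgroup G) = frattini (P : Subgroup G) ∧ Subgroup.normalizer ((P : Subgroup G) : Set G) = (P : Subgroup G))) := by
  open CfsgLib.BlockLocal.OddLinear in
  exact ⟨card_real_odd_eq P,
    ⟨fun h => frattini_eq_and_normalizer P fun χ hχ =>
        h ⟨χ, hχ.1⟩ ((goodChar_iff ⟨χ, hχ.1⟩).1 hχ).1,
      fun h χ hχ => real_of_frattini P h.1 h.2 ((goodChar_iff χ).2 ⟨hχ, fun hf => hf.elim⟩)⟩⟩

end Cfsg.Agent.S4581
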