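import Cfsg.Statements.S4582
import Mathlib.GroupTheory.Transfer
-- import your own Cfsg.Agent.* helpers here

set_option autoImplicit false
open Cfsg

namespace Cfsg.Agent.S4582

theorem core {H : Type*} [Group H] [Finite H] (N : Subgroup H) [N.Normal] (P : Subgroup H)
    (hgen : N ⊔ P = ⊤) (hidx : Odd P.index)
    (hP : ∀ x ∈ P, ∃ m, m ∈ P ∧ m ∈ N ∧ m⁻¹ * x ^ 2 ∈ ⁅P, P⁆)
    (hQ : ∀ x ∈ P, x ∈ N → x ^ 2 ∈ ⁅P, P⁆)
    (hodd : ∀ (f : H →* Abelianization P) (n : H), n ∈ N → Odd (orderOf (f n))) :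
    ∀ x ∈ P, x ^ 2 ∈ ⁅P, P⁆ := by
  classical
  have hmem : ∀ z : P, ((z : H) ∈ ⁅P, P⁆ ↔ (Abelianization.of z : Abelianization P) = 1) := fun z => by
    rw [← MonoidHom.mem_ker, Abelianization.ker_of, ← Subgroup.map_subtype_commutator, ← Subgroup.coe_subtype,
      Subgroup.mem_map_iff_mem P.subtype_injective]
  let φ : P →* Abelianization P := Abelianization.of
  have hsq : ∀ z : P, (z : H) ∈ N → φ z ^ 2 = 1 := fun z hz => by
    rw [← map_pow]
    exact (hmem _).mp (by simpa using hQ z z.2 hz)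
  have hexp : ∀ z : P, φ z ^ 4 = 1 := fun z => by
    obtain ⟨m, hmP, hmN, hmd⟩ := hP z z.2
    have h1 : φ (⟨m, hmP⟩⁻¹ * z ^ 2) = 1 := (hmem _).mp (by simpa using hmd)
    rw [map_mul, map_inv, map_pow, inv_mul_eq_one] at h1
    have := hsq ⟨m, hmP⟩ hmN
    rw [h1, ← pow_mul] at this
    exact this
  have hPD : ⁅P, P⁆ ≤ P := Subgroup.commutator_le_self P
  have hconj : ∀ (a y : H) (hy : y ∈ P) (ha : a⁻¹ * y * a ∈ P),
      φ ⟨a⁻¹ * y * a, ha⟩ ^ 2 = φ ⟨y, hy⟩ ^ 2 := by
    intro a y hy ha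
    obtain ⟨b, hb, n, hn, hab⟩ : ∃ b ∈ P, ∃ n ∈ N, b * n = a :=
      Subgroup.mem_sup_of_normal_right.mp (show a ∈ P ⊔ N by rw [sup_comm, hgen]; trivial)
    subst hab
    have hby : b⁻¹ * y * b ∈ P := mul_mem (mul_mem (inv_mem hb) hy) hb
    have hval : φ ⟨b⁻¹ * y * b, hby⟩ = φ ⟨y, hy⟩ := by
      have : (⟨b⁻¹ * y * b, hby⟩ : P) = (⟨b, hb⟩ : P)⁻¹ * ⟨y, hy⟩ * ⟨b, hb⟩ := rfl
      rw [this, map_mul, map_mul, map_inv, mul_comm (φ ⟨b, hb⟩)⁻¹, inv_mul_cancel_right]
    let q : P := (⟨b⁻¹ * y * b, hby⟩ : P)⁻¹ * ⟨(b * n)⁻¹ * y * (b * n), ha⟩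
    have hq : (q : H) ∈ N := by
      have e : (q : H) = ((b⁻¹ * y * b)⁻¹ * n⁻¹ * (b⁻¹ * y * b)) * n := by
        simp [q, mul_assoc]
      rw [e]
      refine mul_mem ?_ hn
      have := (inferInstance : N.Normal).conj_mem n⁻¹ (inv_mem hn) (b⁻¹ * y * b)⁻¹
      rwa [inv_inv] at this
    have h2 := hsq q hq
    rw [map_mul, map_inv, mul_pow, inv_pow, inv_mul_eq_one, hval] at h2
    exact h2.symm
  intro x hx
  let f : H →* Abelianization P := φ.transfer
  have hNtriv : ∀ n ∈ N, f n ^ 4 = 1 → f n = 1 := fun n hn h4 => by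
    have h1 := orderOf_dvd_of_pow_eq_one h4
    have h2 : (orderOf (f n)).Coprime (2 ^ 2) :=
      (Nat.coprime_two_right.mpr (hodd f n hn)).pow_right 2
    exact orderOf_eq_one_iff.mp (Nat.Coprime.eq_one_of_dvd h2 h1)
  have hA4 : ∀ a : Abelianization P, a ^ 4 = 1 := fun a =>
    QuotientGroup.induction_on a fun z => hexp z
  have hfx2 : f x ^ 2 = 1 := by
    obtain ⟨m, hmP, hmN, hmd⟩ := hP x hx
    have h1 : f (m⁻¹ * x ^ 2) = 1 :=
      Abelianization.commutator_subset_ker f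
        (show m⁻¹ * x ^ 2 ∈ commutator H from Subgroup.commutator_mono le_top le_top hmd)
    rw [map_mul, map_inv, map_pow, inv_mul_eq_one, hNtriv m hmN (hA4 _)] at h1
    exact h1.symm
  letI := P.fintypeQuotientOfFiniteIndex
  letI := Fintype.ofFinite (Quotient (MulAction.orbitRel (Subgroup.zpowers x) (H ⧸ P)))
  have hcalc : f x ^ 2 = φ ⟨x, hx⟩ ^ (2 * P.index) := by
    show φ.transfer x ^ 2 = _
    rw [MonoidHom.transfer_eq_prod_quotient_orbitRel_zpowers_quot, P.index_eq_sum_minimalPeriod x,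
      Finset.mul_sum, ← Finset.prod_pow_eq_pow_sum, ← Finset.prod_pow]
    refine Finset.prod_congr rfl fun q _ => ?_
    rw [hconj q.out.out (x ^ Function.minimalPeriod (x • ·) q.out) (pow_mem hx _) _]
    rw [show (⟨x ^ Function.minimalPeriod (x • ·) q.out, pow_mem hx _⟩ : P) =
      (⟨x, hx⟩ : P) ^ Function.minimalPeriod (x • ·) q.out from rfl, map_pow, ← pow_mul, mul_comm]
  rw [hfx2] at hcalc
  obtain ⟨k, hk⟩ := hidx
  have h3 : φ (⟨x, hx⟩ ^ 2) = 1 := by
    rw [hk, show 2 * (2 * k + 1) = 4 * k + 2 by omega, pow_add, pow_mul, hexp, one_pow, one_mul] at hcalc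
    rw [map_pow]; exact hcalc.symm
  simpa using (hmem _).mpr h3

/-- Let N be a normal subgroup of the finite group G, P a Sylow 2-subgroup of G and Q = P ∩ N. Suppose that P/QP' and Q/Q' are elementary abelian (every square of an element of P lies in the subgroup generated by Q and the derived subgroup of P, and every square of an element of Q lies in the derived subgroup of Q), and that the commutator factor group N/N' has odd order. Then P/P' is elementary abelian. -/
theorem result {G : Type*} [Group G] [Finite G] (N : Subgroup G) [N.Normal] (P : Sylow 2 G)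
    (hP : ∀ x ∈ (P : Subgroup G), x ^ 2 ∈ ((P : Subgroup G) ⊓ N) ⊔ ⁅(P : Subgroup G), (P : Subgroup G)⁆)
    (hQ : ∀ x ∈ (P : Subgroup G) ⊓ N, x ^ 2 ∈ ⁅(P : Subgroup G) ⊓ N, (P : Subgroup G) ⊓ N⁆)
    (hodd : Odd (Nat.card (Abelianization N))) :
    ∀ x ∈ (P : Subgroup G), x ^ 2 ∈ ⁅(P : Subgroup G), (P : Subgroup G)⁆ := by
  intro x hx
  let H : Subgroup G := N ⊔ (P : Subgroup G)
  let N' : Subgroup H := N.subgroupOf H
  let P' : Subgroup H := (P : Subgroup G).subgroupOf H
  haveI : N'.Normal := Subgroup.normal_subgroupOf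
  have hPH : (P : Subgroup G) ≤ H := le_sup_right
  have hd : ∀ z : H, z ∈ ⁅P', P'⁆ ↔ (z : G) ∈ ⁅(P : Subgroup G), (P : Subgroup G)⁆ := fun z => by
    rw [← Subgroup.mem_map_iff_mem (H.subtype_injective), Subgroup.map_commutator,
      Subgroup.map_subgroupOf_eq_of_le hPH]
    rfl
  have hcomm : ∀ z ∈ ⁅(P : Subgroup G) ⊓ N, (P : Subgroup G) ⊓ N⁆,
      z ∈ ⁅(P : Subgroup G), (P : Subgroup G)⁆ :=
    fun z hz => Subgroup.commutator_mono inf_le_left inf_le_left hz
  have hN' : Odd (Nat.card (Abelianization N')) := by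
    have e := Nat.card_congr
      ((Subgroup.subgroupOfEquivOfLe (le_sup_left : N ≤ H)).abelianizationCongr.toEquiv)
    rw [e]
    exact hodd
  have key := core N' P' (by
      rw [← Subgroup.subgroupOf_sup le_sup_left le_sup_right]; exact Subgroup.subgroupOf_self _)
    (by
      have h2 : ¬ 2 ∣ P'.index := fun h => P.not_dvd_index
        (h.trans (by
          show (P : Subgroup G).relIndex H ∣ _
          exact Subgroup.relIndex_dvd_index_of_le hPH))
      exact Nat.odd_iff.mpr (Nat.two_dvd_ne_zero.mp h2))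
    (fun z hz => by
      have h1 := hP (z : G) hz
      rw [sup_comm] at h1
      haveI : (⁅(P : Subgroup G), (P : Subgroup G)⁆.subgroupOf (P : Subgroup G)).Normal := by
        rw [← Subgroup.map_subtype_commutator, Subgroup.subgroupOf,
          Subgroup.comap_map_eq_self_of_injective (P : Subgroup G).subtype_injective]
        infer_instance
      have h2 : (⟨z, hz⟩ : (P : Subgroup G)) ^ 2 ∈
          ⁅(P : Subgroup G), (P : Subgroup G)⁆.subgroupOf P ⊔ ((P : Subgroup G) ⊓ N).subgroupOf P := by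
        rw [← Subgroup.subgroupOf_sup (Subgroup.commutator_le_self _) inf_le_left]
        exact h1
      obtain ⟨m, hm, c, hc, he⟩ := Subgroup.mem_sup_of_normal_left.mp h2
      refine ⟨⟨(c : G), hPH c.2⟩, c.2, (Subgroup.mem_inf.mp hc).2, (hd _).mpr ?_⟩
      have e : ((m : G) * c) = (z : G) ^ 2 := by simpa using congrArg Subtype.val he
      show (c : G)⁻¹ * (z : G) ^ 2 ∈ _
      rw [← e]
      have hn := (inferInstance : (⁅(P : Subgroup G), (P : Subgroup G)⁆.subgroupOf (P : Subgroup G)).Normal)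
      have := hn.conj_mem m hm c⁻¹
      simpa [Subgroup.mem_subgroupOf, mul_assoc] using this)
    (fun z hz hzN => (hd _).mpr (hcomm _ (hQ (z : G) ⟨hz, hzN⟩)))
    (fun f n hn => by
      let g : Abelianization N' →* Abelianization P' := Abelianization.lift (f.comp N'.subtype)
      have : f n = g (Abelianization.of ⟨n, hn⟩) := rfl
      rw [this]
      exact (hN'.of_dvd_nat (orderOf_dvd_natCard _)).of_dvd_nat (orderOf_map_dvd g _))
    ⟨x, hPH hx⟩ hx
  exact (hd _).mp key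

end Cfsg.Agent.S4582
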