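import Cfsg.Statements.S4583
import Cfsg.Agent.Lib.ZerosCodegree.RegularSums

set_option autoImplicit false
open Cfsg

namespace Cfsg.Agent.S4583

/-- Let N be a normal subgroup of the finite group G, p a prime, M a maximal ideal of the algebraic integers containing p, and P a Sylow p-subgroup of G. Let θ be an irreducible character of N of degree prime to p lying in the principal p-block of N, and suppose θ extends to the subgroup NP (some irreducible character of NP restricts to θ). Then some irreducible character χ of G of degree prime to p in the principal p-block of G lies over θ (θ is a constituent of the restriction of χ to N). -/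
theorem result {G : Type*} [Group G] [Finite G] (N : Subgroup G) [N.Normal] (p : ℕ) [Fact p.Prime] (M : Ideal Cfsg.AlgInt) (hM : Cfsg.IsPModular p M) (P : Sylow p G)
    (θ : Cfsg.IrrCharacter N) (hθ : θ ∈ Cfsg.principalBlock M N) (hdeg : ¬ p ∣ Cfsg.charDegree (θ : N → ℂ))
    (hext : ∃ η : Cfsg.IrrCharacter ↥(N ⊔ (P : Subgroup G)), ∀ n : N, (η : ↥(N ⊔ (P : Subgroup G)) → ℂ) (Subgroup.inclusion le_sup_left n) = (θ : N → ℂ) n) :
    ∃ χ : Cfsg.IrrCharacter G, χ ∈ Cfsg.principalBlock M G ∧ ¬ p ∣ Cfsg.charDegree (χ : G → ℂ) ∧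
      haveI := Fintype.ofFinite N; Cfsg.classInner (fun n : N => (χ : G → ℂ) n) (θ : N → ℂ) ≠ 0 := by
  classical
  haveI : M.IsPrime := hM.2.1.isPrime
  haveI : Fintype G := Fintype.ofFinite G
  haveI : Fintype N := Fintype.ofFinite N
  haveI : Fintype ↥(N ⊔ (P : Subgroup G)) := Fintype.ofFinite _
  obtain ⟨η, hη⟩ := hext
  obtain ⟨χ, h1, h2, h3⟩ := CfsgLib.ZerosCodegree.exists_degree_principalBlock_over hM N
    (N ⊔ (P : Subgroup G)) le_sup_left
    (fun hd => P.not_dvd_index (hd.trans (Subgroup.index_dvd_of_le le_sup_right)))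
    (fun g hg hreg => by
      have hg' : g ∈ (↑(N ⊔ (P : Subgroup G)) : Set G) := hg
      rw [Subgroup.normal_mul] at hg'
      obtain ⟨n, hn, x, hx, hnx⟩ := hg'
      simp only at hnx
      have hmk : (g : G ⧸ N) = (x : G ⧸ N) := by
        rw [← hnx, QuotientGroup.mk_mul, (QuotientGroup.eq_one_iff n).2 hn, one_mul]
      obtain ⟨k, hk⟩ := P.isPGroup' ⟨x, hx⟩
      have hk' : x ^ p ^ k = 1 := congrArg Subtype.val hk
      rw [← QuotientGroup.eq_one_iff]
      refine orderOf_eq_one_iff.1 (Nat.eq_one_of_dvd_coprimes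
        (Nat.Coprime.pow_left k ((Fact.out : p.Prime).coprime_iff_not_dvd.2 hreg))
        (orderOf_dvd_of_pow_eq_one ?_) (orderOf_map_dvd (QuotientGroup.mk' N) g))
      rw [hmk, ← QuotientGroup.mk_pow, hk', QuotientGroup.mk_one]) hθ hdeg η hη
  exact ⟨χ, h1, h2, by convert h3 using 2⟩

end Cfsg.Agent.S4583
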