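import Cfsg.Statements.S4584
import Cfsg.Agent.Lib.ZerosCodegree.SmallPGroup
-- import your own Cfsg.Agent.* helpers here

set_option autoImplicit false
open Cfsg
open scoped commutatorElement

namespace Cfsg.Agent.S4584

theorem index_centralizer {P : Type*} [Group P] [Finite P] (p : ℕ) [Fact p.Prime]
    (hc : Nat.card (commutator P) = p) (hz : commutator P ≤ Subgroup.center P) (a : P) (ha : a ∉ Subgroup.center P) :
    (Subgroup.centralizer ({a} : Set P)).index = p := by
  have hmem : ∀ x : P, ⁅a, x⁆ ∈ commutator P := fun x =>
    Subgroup.commutator_mem_commutator (Subgroup.mem_top _) (Subgroup.mem_top _)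
  let θ : P →* commutator P := MonoidHom.mk' (fun x => ⟨⁅a, x⁆, hmem x⟩) (fun x y => by
    apply Subtype.ext
    show ⁅a, x * y⁆ = ⁅a, x⁆ * ⁅a, y⁆
    rw [show ⁅a, x * y⁆ = ⁅a, x⁆ * (x * ⁅a, y⁆ * x⁻¹) by simp only [commutatorElement_def]; group,
      Subgroup.mem_center_iff.mp (hz (hmem y)) x, mul_inv_cancel_right])
  have hk : θ.ker = Subgroup.centralizer ({a} : Set P) := by
    ext x
    rw [MonoidHom.mem_ker, Subgroup.mem_centralizer_singleton_iff, Subtype.ext_iff]
    show ⁅a, x⁆ = 1 ↔ _
    rw [commutatorElement_eq_one_iff_mul_comm, eq_comm]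
  have hd : (Subgroup.centralizer ({a} : Set P)).index ∣ p := by
    rw [← hk, Subgroup.index_ker, ← hc]
    exact Subgroup.card_subgroup_dvd_card _
  rcases (Nat.dvd_prime (Fact.out : p.Prime)).mp hd with h | h
  · rw [Subgroup.index_eq_one] at h
    refine absurd ?_ ha
    rw [Subgroup.mem_center_iff]
    intro g
    exact Subgroup.mem_centralizer_singleton_iff.mp (h ▸ Subgroup.mem_top g)
  · exact h

/-- Let p be a prime and P a group of order p^4. Then the derived subgroup P' has order p if and only if the centre Z(P) has index p^2 in P. -/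
theorem result {P : Type*} [Group P] [Finite P] (p : ℕ) [Fact p.Prime] (hP : Nat.card P = p ^ 4) :
    Nat.card (commutator P) = p ↔ (Subgroup.center P).index = p ^ 2 := by
  have hp : p.Prime := Fact.out
  have hpg : IsPGroup p P := IsPGroup.of_card hP
  constructor
  · intro hc
    have hz : commutator P ≤ Subgroup.center P := by
      obtain ⟨c, hcP, hc1⟩ : ∃ c ∈ commutator P, c ≠ 1 := by
        by_contra h
        push_neg at h
        have : commutator P = ⊥ := (Subgroup.eq_bot_iff_forall _).mpr h
        rw [this, Subgroup.card_bot] at hc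
        exact hp.one_lt.ne hc
      intro x hx
      rw [Subgroup.mem_center_iff]
      intro g
      haveI : IsMulCommutative (commutator P) := by
        haveI := isCyclic_of_prime_card hc
        infer_instance
      haveI : Group.IsNilpotent P := hpg.isNilpotent
      have hlt : ⁅commutator P, (⊤ : Subgroup P)⁆ = ⊥ := by
        by_contra hne
        have hle : ⁅commutator P, (⊤ : Subgroup P)⁆ ≤ commutator P :=
          Subgroup.commutator_mono le_top le_rfl
        have heq : ⁅commutator P, (⊤ : Subgroup P)⁆ = commutator P := by
          refine Subgroup.eq_of_le_of_card_ge hle ?_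
          rcases (Nat.dvd_prime hp).mp (hc ▸ Subgroup.card_dvd_of_le hle) with h | h
          · exact absurd (Subgroup.card_eq_one.mp h) hne
          · rw [h, hc]
        have hall : ∀ n, Subgroup.lowerCentralSeries (⊤ : Subgroup P) (n + 1) = commutator P := by
          intro n
          induction n with
          | zero => exact Subgroup.top_lowerCentralSeries_one
          | succ n ih => rw [Subgroup.lowerCentralSeries_succ, ih, heq]
        obtain ⟨n, hn⟩ := Subgroup.nilpotent_iff_lowerCentralSeries.mp (inferInstance : Group.IsNilpotent P)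
        have := Subgroup.lowerCentralSeries_antitone (S := (⊤ : Subgroup P)) (Nat.le_succ n)
        rw [hn, hall, le_bot_iff] at this
        exact hc1 (by rw [this] at hcP; exact hcP)
      have := Subgroup.commutator_mem_commutator hx (Subgroup.mem_top g) (H₂ := (⊤ : Subgroup P))
      rw [hlt, Subgroup.mem_bot, commutatorElement_eq_one_iff_mul_comm] at this
      exact this.symm
    obtain ⟨a, b, hab⟩ : ∃ a b : P, ¬ Commute a b := by
      by_contra h
      push_neg at h
      have : commutator P = ⊥ := by
        rw [commutator_def, eq_bot_iff, Subgroup.commutator_le]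
        exact fun x _ y _ => Subgroup.mem_bot.mpr (commutatorElement_eq_one_iff_commute.mpr (h x y))
      rw [this, Subgroup.card_bot] at hc
      exact hp.one_lt.ne hc
    have hna : ∀ u v : P, ¬ Commute u v → u ∉ Subgroup.center P := fun u v huv hu =>
      huv (Subgroup.mem_center_iff.mp hu v).symm
    let A := Subgroup.centralizer ({a} : Set P)
    let B := Subgroup.centralizer ({b} : Set P)
    have hA : A.index = p := index_centralizer p hc hz a (hna a b hab)
    have hB : B.index = p := index_centralizer p hc hz b (hna b a fun h => hab h.symm)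
    have haA : a ∈ A := Subgroup.mem_centralizer_singleton_iff.mpr rfl
    have hbB : b ∈ B := Subgroup.mem_centralizer_singleton_iff.mpr rfl
    have haB : a ∉ B := fun h => hab (Subgroup.mem_centralizer_singleton_iff.mp h)
    have hbA : b ∉ A := fun h => hab (Subgroup.mem_centralizer_singleton_iff.mp h).symm
    let D := A ⊓ B
    have hDA : D.relIndex A = p := by
      have h1 : D.relIndex A ∣ p := by
        rw [← hB, show D.relIndex A = B.relIndex A from Subgroup.inf_relIndex_left A B]
        have hcB : commutator P ≤ B := hz.trans (Subgroup.center_le_centralizer _)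
        haveI : B.Normal := ⟨fun n hn g => by
          have h := mul_mem (hcB (Subgroup.commutator_mem_commutator (Subgroup.mem_top g) (Subgroup.mem_top n))) hn
          simpa [commutatorElement_def, mul_assoc] using h⟩
        exact Subgroup.relIndex_dvd_index_of_normal B A
      rcases (Nat.dvd_prime hp).mp h1 with h | h
      · exact absurd (Subgroup.relIndex_eq_one.mp h haA).2 haB
      · exact h
    have hD : D.index = p ^ 2 := by
      rw [← Subgroup.relIndex_mul_index (inf_le_left : D ≤ A), hDA, hA, sq]
    have hDc : Nat.card D = p ^ 2 := by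
      have := D.card_mul_index
      rw [hD, hP] at this
      exact Nat.eq_of_mul_eq_mul_right (pow_pos hp.pos 2) (by rw [this]; ring)
    have hDab : IsMulCommutative D := IsPGroup.isMulCommutative_of_card_eq_prime_sq hDc
    have hAgen : A ≤ D ⊔ Subgroup.zpowers a := by
      have hle : D ⊔ Subgroup.zpowers a ≤ A := sup_le inf_le_left (Subgroup.zpowers_le.mpr haA)
      have h1 := Subgroup.relIndex_mul_relIndex D _ A le_sup_left hle
      rw [hDA] at h1
      rcases (Nat.dvd_prime hp).mp ⟨_, h1.symm⟩ with h | h
      · exact absurd ((le_sup_right.trans (Subgroup.relIndex_eq_one.mp h)) (Subgroup.mem_zpowers a)).2 haB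
      · rw [h] at h1
        exact Subgroup.relIndex_eq_one.mp (Nat.eq_of_mul_eq_mul_left hp.pos (by rw [h1, mul_one]))
    have htop : A ⊔ Subgroup.zpowers b = ⊤ := by
      rcases (Nat.dvd_prime hp).mp (hA ▸ Subgroup.index_dvd_of_le
        (le_sup_left : A ≤ A ⊔ Subgroup.zpowers b)) with h | h
      · exact Subgroup.index_eq_one.mp h
      · refine absurd ?_ hbA
        have := Subgroup.relIndex_mul_index (le_sup_left : A ≤ A ⊔ Subgroup.zpowers b)
        rw [h, hA] at this
        exact (le_sup_right.trans (Subgroup.relIndex_eq_one.mp
          (Nat.eq_of_mul_eq_mul_right hp.pos (by rw [this, one_mul])))) (Subgroup.mem_zpowers b)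
    have hDz : D ≤ Subgroup.center P := by
      intro d hd
      rw [Subgroup.mem_center_iff]
      intro g
      have ht : (⊤ : Subgroup P) ≤ Subgroup.centralizer {d} := by
        rw [← htop]
        refine sup_le (hAgen.trans (sup_le ?_ ?_)) ?_
        · intro e he
          exact Subgroup.mem_centralizer_singleton_iff.mpr
            (congrArg Subtype.val (hDab.is_comm.comm ⟨e, he⟩ ⟨d, hd⟩))
        · exact Subgroup.zpowers_le.mpr
            (Subgroup.mem_centralizer_singleton_iff.mpr (Subgroup.mem_centralizer_singleton_iff.mp hd.1).symm)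
        · exact Subgroup.zpowers_le.mpr
            (Subgroup.mem_centralizer_singleton_iff.mpr (Subgroup.mem_centralizer_singleton_iff.mp hd.2).symm)
      exact Subgroup.mem_centralizer_singleton_iff.mp (ht (Subgroup.mem_top g))
    have hzD : Subgroup.center P ≤ D := le_inf (Subgroup.center_le_centralizer _) (Subgroup.center_le_centralizer _)
    rw [show Subgroup.center P = D from le_antisymm hzD hDz, hD]
  · intro hZ
    have hna : ¬ IsMulCommutative P := fun h => by
      rw [Subgroup.center_eq_top_iff.mpr h, Subgroup.index_top] at hZ
      exact absurd hZ.symm (Nat.one_lt_pow two_ne_zero hp.one_lt).ne'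
    have hcard : Nat.card (P ⧸ Subgroup.center P) = p ^ 2 := hZ
    obtain ⟨hexp, a', b', hgen⟩ := CfsgLib.ZerosCodegree.exists_gen_pair hcard
      (CfsgLib.ZerosCodegree.not_isCyclic_quotient_center hna)
    obtain ⟨a, rfl⟩ := QuotientGroup.mk'_surjective _ a'
    obtain ⟨b, rfl⟩ := QuotientGroup.mk'_surjective _ b'
    have hcp : commutator P ≤ Subgroup.center P := by
      rw [← Subgroup.Normal.quotient_commutative_iff_commutator_le]
      haveI := IsPGroup.isMulCommutative_of_card_eq_prime_sq hcard
      infer_instance
    have hgen' : Subgroup.closure ({a, b} : Set P) ⊔ Subgroup.center P = ⊤ := by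
      have := congrArg (Subgroup.comap (QuotientGroup.mk' (Subgroup.center P))) hgen
      rw [Subgroup.comap_top, show ({QuotientGroup.mk' (Subgroup.center P) a,
          QuotientGroup.mk' (Subgroup.center P) b} : Set (P ⧸ Subgroup.center P)) =
          QuotientGroup.mk' (Subgroup.center P) '' {a, b} by rw [Set.image_pair],
        ← MonoidHom.map_closure, Subgroup.comap_map_eq, QuotientGroup.ker_mk'] at this
      exact this
    have hd := CfsgLib.ZerosCodegree.card_commutator_dvd (p := p) a b (Subgroup.center P) le_rfl hgen'
      (hcp (Subgroup.commutator_mem_commutator (Subgroup.mem_top _) (Subgroup.mem_top _)))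
      ((QuotientGroup.eq_one_iff _).mp (by
        have := hexp (QuotientGroup.mk' (Subgroup.center P) a)
        rwa [← map_pow] at this))
    rcases (Nat.dvd_prime hp).mp hd with h | h
    · refine absurd ?_ hna
      exact (commutator_eq_bot_iff P).mp (Subgroup.card_eq_one.mp h)
    · exact h

end Cfsg.Agent.S4584
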