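import Cfsg.Statements.S4585
import Cfsg.Agent.Lib.ZerosCodegree.SmallPGroup
-- import your own Cfsg.Agent.* helpers here

set_option autoImplicit false
open Cfsg
open scoped commutatorElement

namespace Cfsg.Agent.S4585

theorem eq_bot_of_commutator_eq {P : Type*} [Group P] [Group.IsNilpotent P] (n : ℕ)
    (h : Subgroup.lowerCentralSeries (⊤ : Subgroup P) (n + 1) = Subgroup.lowerCentralSeries ⊤ n) :
    Subgroup.lowerCentralSeries (⊤ : Subgroup P) n = ⊥ := by
  have hall : ∀ m, Subgroup.lowerCentralSeries (⊤ : Subgroup P) (n + m) = Subgroup.lowerCentralSeries ⊤ n := by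
    intro m
    induction m with
    | zero => rfl
    | succ m ih => rw [← Nat.add_assoc, Subgroup.lowerCentralSeries_succ, ih]; exact h
  obtain ⟨k, hk⟩ := Subgroup.nilpotent_iff_lowerCentralSeries.mp (inferInstance : Group.IsNilpotent P)
  have := Subgroup.lowerCentralSeries_antitone (⊤ : Subgroup P) (Nat.le_add_left k n)
  rw [hall, hk, le_bot_iff] at this
  exact this

/-- Let p be a prime and P a group of order p^4. Then P' has index p^2 in P if and only if P has maximal nilpotency class, that is, nilpotency class exactly 3. -/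
theorem result {P : Type*} [Group P] [Finite P] (p : ℕ) [Fact p.Prime] (hP : Nat.card P = p ^ 4) :
    (commutator P).index = p ^ 2 ↔ Group.nilpotencyClass P = 3 := by
  have hp : p.Prime := Fact.out
  haveI : Group.IsNilpotent P := (IsPGroup.of_card hP).isNilpotent
  let L : ℕ → Subgroup P := Subgroup.lowerCentralSeries ⊤
  have hL1 : L 1 = commutator P := Subgroup.top_lowerCentralSeries_one
  have hpow : ∀ K : Subgroup P, ∃ i, Nat.card K = p ^ i := fun K => by
    obtain ⟨i, _, hi⟩ := (Nat.dvd_prime_pow hp).mp (hP ▸ K.card_subgroup_dvd_card)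
    exact ⟨i, hi⟩
  have hstep : ∀ n, L n ≠ ⊥ → Nat.card (L (n + 1)) * p ≤ Nat.card (L n) := by
    intro n hn
    have hle : L (n + 1) ≤ L n := Subgroup.lowerCentralSeries_antitone (⊤ : Subgroup P) (Nat.le_succ n)
    obtain ⟨i, hi⟩ := hpow (L (n + 1))
    obtain ⟨j, hj⟩ := hpow (L n)
    have hdvd := Subgroup.card_dvd_of_le hle
    rw [hi, hj, Nat.pow_dvd_pow_iff_le_right hp.one_lt] at hdvd
    have hne : i ≠ j := fun h => hn (eq_bot_of_commutator_eq n
      (Subgroup.eq_of_le_of_card_ge hle (by rw [hi, hj, h])))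
    rw [hi, hj, ← pow_succ]
    exact Nat.pow_le_pow_right hp.pos (by omega)
  obtain ⟨i, hi⟩ := hpow (commutator P)
  have hidx : (commutator P).index * p ^ i = p ^ 4 := by
    rw [← hi, Subgroup.index_mul_card, hP]
  have hi2 : i ≤ 2 := by
    by_contra h
    have hne : L 1 ≠ ⊥ := fun hb => by
      rw [hL1] at hb
      rw [hb, Subgroup.card_bot] at hi
      exact (Nat.one_lt_pow (by omega : i ≠ 0) hp.one_lt).ne hi
    let f := QuotientGroup.mk' (L 2)
    have hd : (commutator P).index ∣ p := by
      have h4 : p ^ 4 = p ^ (4 - i) * p ^ i := by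
        rw [← pow_add]; congr 1
        have := (Nat.pow_dvd_pow_iff_le_right hp.one_lt).mp (Dvd.intro_left _ hidx)
        omega
      rw [h4] at hidx
      rw [Nat.eq_of_mul_eq_mul_right (pow_pos hp.pos i) hidx]
      exact (pow_dvd_pow p (by omega : 4 - i ≤ 1)).trans (by rw [pow_one])
    haveI : IsCyclic (P ⧸ commutator P) := by
      rcases (Nat.dvd_prime hp).mp hd with h1 | h1
      · haveI : Subsingleton (P ⧸ commutator P) := (Nat.card_eq_one_iff_unique.mp h1).1
        infer_instance
      · exact isCyclic_of_prime_card h1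
    let g : P ⧸ L 2 →* P ⧸ commutator P := QuotientGroup.map _ _ (MonoidHom.id P)
      (by rw [Subgroup.comap_id]; exact (Subgroup.lowerCentralSeries_antitone (⊤ : Subgroup P) (Nat.le_succ 1)).trans hL1.le)
    haveI : IsMulCommutative (P ⧸ L 2) := g.isMulCommutative_of_isCyclic_of_ker_le_center (by
      intro x hx
      obtain ⟨y, rfl⟩ := QuotientGroup.mk'_surjective _ x
      have hy : y ∈ commutator P := (QuotientGroup.eq_one_iff y).mp hx
      rw [Subgroup.mem_center_iff]
      intro z
      obtain ⟨z, rfl⟩ := QuotientGroup.mk'_surjective _ z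
      have : ⁅y, z⁆ ∈ L 2 := Subgroup.commutator_mem_commutator (hL1.ge hy) (Subgroup.mem_top z)
      rw [← QuotientGroup.eq_one_iff] at this
      exact (commutatorElement_eq_one_iff_mul_comm.mp
        ((map_commutatorElement (QuotientGroup.mk' (L 2)) y z).symm.trans this)).symm)
    have h2 : commutator P ≤ L 2 := Subgroup.Normal.quotient_commutative_iff_commutator_le.mp inferInstance
    exact hne (eq_bot_of_commutator_eq 1
      (le_antisymm (Subgroup.lowerCentralSeries_antitone (⊤ : Subgroup P) (Nat.le_succ 1)) (hL1.le.trans h2)))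
  have hiff : (commutator P).index = p ^ 2 ↔ i = 2 := by
    constructor
    · intro h
      rw [h, ← pow_add] at hidx
      have := Nat.pow_right_injective hp.two_le hidx
      omega
    · intro h
      rw [h, show p ^ 4 = p ^ 2 * p ^ 2 by ring] at hidx
      exact Nat.eq_of_mul_eq_mul_right (pow_pos hp.pos 2) hidx
  rw [hiff]
  have hle3 : Group.nilpotencyClass P ≤ 3 := by
    rw [← Subgroup.lowerCentralSeries_eq_bot_iff_nilpotencyClass_le]
    by_contra hne
    have h2 : L 2 ≠ ⊥ := fun hb => hne (le_bot_iff.mp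
      ((Subgroup.lowerCentralSeries_antitone (⊤ : Subgroup P) (Nat.le_succ 2)).trans hb.le))
    have h1 : L 1 ≠ ⊥ := fun hb => h2 (le_bot_iff.mp
      ((Subgroup.lowerCentralSeries_antitone (⊤ : Subgroup P) (Nat.le_succ 1)).trans hb.le))
    have a1 := hstep 1 h1
    have a2 := hstep 2 h2
    have a4 : 1 < Nat.card (L 3) := (Subgroup.one_lt_card_iff_ne_bot _).mpr hne
    rw [hL1, hi] at a1
    have a5 : p ^ i ≤ p ^ 2 := Nat.pow_le_pow_right hp.pos hi2
    have a6 : Nat.card (L 3) * p * p ≤ p ^ 2 :=
      ((Nat.mul_le_mul_right p a2).trans a1).trans a5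
    nlinarith [hp.pos]
  constructor
  · intro h
    by_contra hne
    have hb : L 2 = ⊥ :=
      Subgroup.lowerCentralSeries_eq_bot_iff_nilpotencyClass_le.mpr (by omega)
    have hz : commutator P ≤ Subgroup.center P := by
      intro y hy
      rw [Subgroup.mem_center_iff]
      intro z
      have : ⁅y, z⁆ ∈ L 2 := Subgroup.commutator_mem_commutator (hL1.ge hy) (Subgroup.mem_top z)
      rw [hb, Subgroup.mem_bot] at this
      exact (commutatorElement_eq_one_iff_mul_comm.mp this).symm
    have hcard : Nat.card (P ⧸ commutator P) = p ^ 2 := hiff.mpr h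
    have hnc : ¬ IsCyclic (P ⧸ commutator P) := fun _ => by
      haveI := (QuotientGroup.mk' (commutator P)).isMulCommutative_of_isCyclic_of_ker_le_center
        (by rw [QuotientGroup.ker_mk']; exact hz)
      rw [(commutator_eq_bot_iff P).mpr inferInstance, Subgroup.card_bot, h] at hi
      exact (Nat.one_lt_pow two_ne_zero hp.one_lt).ne hi
    obtain ⟨hexp, a', b', hgen⟩ := CfsgLib.ZerosCodegree.exists_gen_pair hcard hnc
    obtain ⟨a, rfl⟩ := QuotientGroup.mk'_surjective _ a'
    obtain ⟨b, rfl⟩ := QuotientGroup.mk'_surjective _ b'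
    have hgen' : Subgroup.closure ({a, b} : Set P) ⊔ commutator P = ⊤ := by
      have := congrArg (Subgroup.comap (QuotientGroup.mk' (commutator P))) hgen
      rw [Subgroup.comap_top, show ({QuotientGroup.mk' (commutator P) a,
          QuotientGroup.mk' (commutator P) b} : Set (P ⧸ commutator P)) =
          QuotientGroup.mk' (commutator P) '' {a, b} by rw [Set.image_pair],
        ← MonoidHom.map_closure, Subgroup.comap_map_eq, QuotientGroup.ker_mk'] at this
      exact this
    have hd := CfsgLib.ZerosCodegree.card_commutator_dvd (p := p) a b (commutator P) hz hgen'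
      (hz (Subgroup.commutator_mem_commutator (Subgroup.mem_top _) (Subgroup.mem_top _)))
      (hz ((QuotientGroup.eq_one_iff _).mp (by
        have := hexp (QuotientGroup.mk' (commutator P) a)
        rwa [← map_pow] at this)))
    rw [hi, h] at hd
    have := Nat.le_of_dvd hp.pos hd
    nlinarith [hp.two_le]
  · intro h
    have h2 : L 2 ≠ ⊥ := fun hb => by
      have := Subgroup.lowerCentralSeries_eq_bot_iff_nilpotencyClass_le.mp hb
      omega
    have h1 : L 1 ≠ ⊥ := fun hb => h2 (le_bot_iff.mp
      ((Subgroup.lowerCentralSeries_antitone (⊤ : Subgroup P) (Nat.le_succ 1)).trans hb.le))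
    have a1 := hstep 1 h1
    have a3 : 1 < Nat.card (L 2) := (Subgroup.one_lt_card_iff_ne_bot _).mpr h2
    rw [hL1, hi] at a1
    rcases (show i = 0 ∨ i = 1 ∨ i = 2 by omega) with rfl | rfl | rfl
    · rw [pow_zero] at a1; nlinarith [hp.two_le]
    · rw [pow_one] at a1; nlinarith [hp.two_le]
    · rfl

end Cfsg.Agent.S4585
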