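import Cfsg.Statements.S4586
-- import your own Cfsg.Agent.* helpers here

set_option autoImplicit false
open Cfsg
open scoped commutatorElement

namespace Cfsg.Agent.S4586

theorem index_commutator {P : Type*} [Group P] [Finite P] (p : ℕ) [Fact p.Prime] (N : Subgroup P)
    [hNn : N.Normal] (hN : N.index = p) (x : P) (hx : x ∉ N) :
    (commutator P).index * Nat.card (commutator N) = p *
      Nat.card {n : N // x * n * x⁻¹ * (n : P)⁻¹ ∈ (commutator N).map N.subtype} := by
  classical
  have hm : ∀ n : N, ⁅x, (n : P)⁆ ∈ N := fun n => by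
    rw [commutatorElement_def]
    exact mul_mem (hNn.conj_mem _ n.2 x) (inv_mem n.2)
  let θ : N →* Abelianization N := MonoidHom.mk' (fun n => Abelianization.of ⟨⁅x, (n : P)⁆, hm n⟩)
    (fun a b => by
      rw [show (⟨⁅x, ((a * b : N) : P)⁆, hm (a * b)⟩ : N) =
          ⟨⁅x, (a : P)⁆, hm a⟩ * (a * ⟨⁅x, (b : P)⁆, hm b⟩ * a⁻¹) by
        apply Subtype.ext; simp only [Subgroup.coe_mul, Subgroup.coe_inv, commutatorElement_def]; group]
      rw [map_mul, map_mul, map_mul, map_inv, mul_comm (Abelianization.of a), mul_inv_cancel_right])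
  have hker : Nat.card {n : N // x * n * x⁻¹ * (n : P)⁻¹ ∈ (commutator N).map N.subtype} =
      Nat.card θ.ker := by
    refine Nat.card_congr (Equiv.subtypeEquivRight fun n => ?_)
    rw [MonoidHom.mem_ker]
    show _ ↔ Abelianization.of (⟨⁅x, (n : P)⁆, hm n⟩ : N) = 1
    rw [← MonoidHom.mem_ker, Abelianization.ker_of, ← Subgroup.mem_map_iff_mem N.subtype_injective]
    rfl
  let K : Subgroup N := θ.range.comap Abelianization.of
  let K' : Subgroup P := K.map N.subtype
  have htop : N ⊔ Subgroup.zpowers x = ⊤ := by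
    rcases (Nat.dvd_prime (Fact.out : p.Prime)).mp (hN ▸ Subgroup.index_dvd_of_le
      (le_sup_left : N ≤ N ⊔ Subgroup.zpowers x)) with h | h
    · exact Subgroup.index_eq_one.mp h
    · refine absurd ?_ hx
      have := Subgroup.relIndex_mul_index (le_sup_left : N ≤ N ⊔ Subgroup.zpowers x)
      rw [h, hN] at this
      exact (le_sup_right.trans (Subgroup.relIndex_eq_one.mp
        (Nat.eq_of_mul_eq_mul_right (Fact.out : p.Prime).pos (by rw [this, one_mul]))))
        (Subgroup.mem_zpowers x)
  have hxK : ∀ n : N, (⟨⁅x, (n : P)⁆, hm n⟩ : N) ∈ K := fun n => ⟨n, rfl⟩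
  have hNK : N ≤ Subgroup.normalizer (K' : Set P) := by
    intro a ha
    rw [Subgroup.mem_normalizer_iff]
    have key : ∀ (b : N) (y : N), y ∈ K → b * y * b⁻¹ ∈ K := fun b y hy => by
      show Abelianization.of (b * y * b⁻¹) ∈ θ.range
      rw [map_mul, map_mul, map_inv, mul_comm (Abelianization.of b), mul_inv_cancel_right]
      exact hy
    intro z
    constructor
    · rintro ⟨y, hy, rfl⟩
      exact ⟨⟨a, ha⟩ * y * ⟨a, ha⟩⁻¹, key _ _ hy, rfl⟩
    · rintro ⟨y, hy, hyz⟩
      refine ⟨⟨a, ha⟩⁻¹ * y * ⟨a, ha⟩, ?_, ?_⟩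
      · have := key ⟨a, ha⟩⁻¹ y hy
        rwa [inv_inv] at this
      · show a⁻¹ * (y : P) * a = z
        rw [show (y : P) = a * z * a⁻¹ from hyz]
        group
  have hxn : x ∈ Subgroup.normalizer (K' : Set P) := by
    let σ : N →* N := MonoidHom.mk' (fun n => ⟨x * n * x⁻¹, hNn.conj_mem _ n.2 x⟩)
      (fun a b => by apply Subtype.ext; simp [mul_assoc])
    have hσ : ∀ y ∈ K, σ y ∈ K := fun y hy => by
      show Abelianization.of (σ y) ∈ θ.range
      obtain ⟨n, hn⟩ := hy
      refine ⟨σ n, ?_⟩
      have e : (⟨⁅x, ((σ n : N) : P)⁆, hm (σ n)⟩ : N) = σ ⟨⁅x, (n : P)⁆, hm n⟩ := by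
        apply Subtype.ext
        show ⁅x, x * (n : P) * x⁻¹⁆ = x * ⁅x, (n : P)⁆ * x⁻¹
        simp only [commutatorElement_def]; group
      show Abelianization.of (⟨⁅x, ((σ n : N) : P)⁆, hm (σ n)⟩ : N) = _
      rw [e]
      exact congrArg (Abelianization.map σ) hn
    have hsub : ∀ z ∈ K', x * z * x⁻¹ ∈ K' := by
      rintro z ⟨y, hy, rfl⟩
      exact ⟨σ y, hσ y hy, rfl⟩
    exact Subgroup.mem_normalizer_fintype hsub
  haveI : K'.Normal := by
    rw [← Subgroup.normalizer_eq_top_iff, eq_top_iff, ← htop]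
    exact sup_le hNK (Subgroup.zpowers_le.mpr hxn)
  let f := QuotientGroup.mk' K'
  have hcc : commutator P ≤ K' := by
    rw [← Subgroup.Normal.quotient_commutative_iff_commutator_le]
    refine ⟨⟨?_⟩⟩
    have hxN : ∀ n ∈ N, Commute (f x) (f n) := fun n hn => by
      rw [← commutatorElement_eq_one_iff_commute, ← map_commutatorElement]
      exact (QuotientGroup.eq_one_iff _).mpr ⟨_, hxK ⟨n, hn⟩, rfl⟩
    have hNN : ∀ m ∈ N, ∀ n ∈ N, Commute (f m) (f n) := fun m hm' n hn => by
      rw [← commutatorElement_eq_one_iff_commute, ← map_commutatorElement]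
      refine (QuotientGroup.eq_one_iff _).mpr ⟨⁅(⟨m, hm'⟩ : N), ⟨n, hn⟩⁆, ?_, rfl⟩
      show Abelianization.of ⁅(⟨m, hm'⟩ : N), (⟨n, hn⟩ : N)⁆ ∈ θ.range
      rw [map_commutatorElement, commutatorElement_eq_one_iff_commute.mpr (Commute.all _ _)]
      exact one_mem _
    have hall : ∀ a b : P, Commute (f a) (f b) := by
      intro a b
      have h1 : ∀ s, (∀ n ∈ N, Commute (f s) (f n)) → Commute (f s) (f x) → ∀ c, Commute (f s) (f c) := by
        intro s hsN hsx c
        have ht : (⊤ : Subgroup P) ≤ (Subgroup.centralizer {f s}).comap f := by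
          rw [← htop]
          refine sup_le (fun n hn => ?_) (Subgroup.zpowers_le.mpr ?_)
          · exact Subgroup.mem_centralizer_singleton_iff.mpr (hsN n hn).eq.symm
          · exact Subgroup.mem_centralizer_singleton_iff.mpr hsx.eq.symm
        exact (show f c * f s = f s * f c from
          Subgroup.mem_centralizer_singleton_iff.mp (ht (Subgroup.mem_top c))).symm
      have hx' := h1 x hxN (Commute.refl _)
      have hn' : ∀ n ∈ N, ∀ c, Commute (f n) (f c) := fun n hn =>
        h1 n (hNN n hn) (hxN n hn).symm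
      exact h1 a (fun n hn => (hn' n hn a).symm) (hx' a).symm b
    intro a b
    obtain ⟨a, rfl⟩ := QuotientGroup.mk'_surjective _ a
    obtain ⟨b, rfl⟩ := QuotientGroup.mk'_surjective _ b
    exact hall a b
  have hle : K' ≤ commutator P := by
    rintro z ⟨y, ⟨n, hn⟩, rfl⟩
    have h1 : (⟨⁅x, (n : P)⁆, hm n⟩ : N)⁻¹ * y ∈ commutator N := by
      rw [← Abelianization.ker_of, MonoidHom.mem_ker, map_mul, map_inv, inv_mul_eq_one]
      exact hn
    have h2 : ((⟨⁅x, (n : P)⁆, hm n⟩ : N)⁻¹ * y : P) ∈ commutator P := by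
      have := (Subgroup.mem_map_of_mem N.subtype h1)
      rw [Subgroup.map_subtype_commutator] at this
      exact Subgroup.commutator_mono le_top le_top this
    have h3 : ⁅x, (n : P)⁆ ∈ commutator P :=
      Subgroup.commutator_mem_commutator (Subgroup.mem_top _) (Subgroup.mem_top _)
    have h4 := mul_mem h3 h2
    simp only [Subgroup.coe_mul, Subgroup.coe_inv] at h4
    rwa [mul_inv_cancel_left] at h4
  have eK : K.index = θ.range.index := Subgroup.index_comap_of_surjective _
    (fun q => QuotientGroup.induction_on q fun z => ⟨z, rfl⟩)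
  rw [le_antisymm hcc hle, hker, Subgroup.index_map_subtype, hN, eK]
  have e1 := θ.range.card_mul_index
  have e2 := θ.ker.card_mul_index
  rw [Subgroup.index_ker] at e2
  have e3 : Nat.card (Abelianization N) * Nat.card (commutator N) = Nat.card N := by
    rw [mul_comm]
    exact (commutator N).card_mul_index
  haveI : Finite (Abelianization N) := Finite.of_surjective Abelianization.of
    (fun q => QuotientGroup.induction_on q fun z => ⟨z, rfl⟩)
  apply Nat.eq_of_mul_eq_mul_left (Nat.card_pos (α := θ.range))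
  calc Nat.card θ.range * (θ.range.index * p * Nat.card (commutator N))
      = (Nat.card θ.range * θ.range.index) * Nat.card (commutator N) * p := by ring
    _ = Nat.card N * p := by rw [e1, e3]
    _ = Nat.card θ.range * (p * Nat.card θ.ker) := by rw [← e2]; ring

/-- Let p be a prime, P a finite p-group and N a normal subgroup of P of index p. For x ∈ P write c(x) for the number of elements n of N whose commutator x n x⁻¹ n⁻¹ lies in the derived subgroup N' (so c(x)/#N' is the order of the centralizer of x acting on N/N'). Then [P : P'] = p² if and only if c(x) = p·#N' for every x ∈ P outside N, and also if and only if c(x) = p·#N' for some x ∈ P outside N. -/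
theorem result {P : Type*} [Group P] [Finite P] (p : ℕ) [Fact p.Prime] (hP : IsPGroup p P) (N : Subgroup P) [N.Normal] (hN : N.index = p) :
    ((commutator P).index = p ^ 2 ↔ ∀ x : P, x ∉ N →
        Nat.card {n : N // x * n * x⁻¹ * (n : P)⁻¹ ∈ (commutator N).map N.subtype} = p * Nat.card (commutator N)) ∧
    ((commutator P).index = p ^ 2 ↔ ∃ x : P, x ∉ N ∧
        Nat.card {n : N // x * n * x⁻¹ * (n : P)⁻¹ ∈ (commutator N).map N.subtype} = p * Nat.card (commutator N)) := by
  classical
  have hp : p.Prime := Fact.out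
  have hpos : 0 < Nat.card (commutator N) := Nat.card_pos
  obtain ⟨x0, hx0⟩ : ∃ x : P, x ∉ N := by
    by_contra h
    push_neg at h
    rw [show N = ⊤ from (Subgroup.eq_top_iff' N).mpr h, Subgroup.index_top] at hN
    exact hp.one_lt.ne hN
  have key : ∀ x : P, x ∉ N → ((commutator P).index = p ^ 2 ↔
      Nat.card {n : N // x * n * x⁻¹ * (n : P)⁻¹ ∈ (commutator N).map N.subtype} =
        p * Nat.card (commutator N)) := by
    intro x hx
    have h := index_commutator p N hN x hx
    constructor
    · intro h2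
      rw [h2] at h
      exact Nat.eq_of_mul_eq_mul_left hp.pos (by rw [← h]; ring)
    · intro h2
      rw [h2] at h
      exact Nat.eq_of_mul_eq_mul_right hpos (by rw [h]; ring)
  exact ⟨⟨fun h x hx => (key x hx).mp h, fun h => (key x0 hx0).mpr (h x0 hx0)⟩,
    ⟨fun h => ⟨x0, hx0, (key x0 hx0).mp h⟩, fun ⟨x, hx, h⟩ => (key x hx).mpr h⟩⟩

end Cfsg.Agent.S4586
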