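import Cfsg.Statements.S4587
import Cfsg.Agent.Lib.ZerosCodegree.AbelianizationSq
import Cfsg.Agent.Lib.PGroups.MaximalClass
import Cfsg.Agent.Lib.Transfer.Residual

set_option autoImplicit false
set_option linter.unusedSectionVars false
set_option linter.style.haveILetI false
open Cfsg
open scoped commutatorElement

namespace Cfsg.Agent.S4587

variable {G : Type*} [Group G] [Finite G] {p : ℕ} [hp : Fact p.Prime]

theorem p_dvd_card_of_normal (hcore : pPrimeCore p G = ⊥) (N : Subgroup G) [hN : N.Normal]
    (hb : N ≠ ⊥) : p ∣ Nat.card N := by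
  by_contra h
  exact hb (le_bot_iff.1 (hcore ▸ le_sSup (a := N)
    ⟨hN, Nat.Coprime.symm ((hp.out.coprime_iff_not_dvd).2 h)⟩))

theorem exists_sylow_subgroupOf (P : Sylow p G) (N : Subgroup G) [hN : N.Normal] :
    ∃ Q : Sylow p N, (Q : Subgroup N) = (P : Subgroup G).subgroupOf N := by
  obtain ⟨S, hS⟩ := ((P.2.comap_subtype : IsPGroup p ((P : Subgroup G).subgroupOf N))).exists_le_sylow
  refine ⟨S, (Subgroup.eq_of_le_of_card_ge hS ?_).symm⟩
  obtain ⟨T, hT⟩ := (S.2.map N.subtype).exists_le_sylow
  obtain ⟨g, hg⟩ := MulAction.exists_smul_eq G T P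
  refine Nat.card_le_card_of_injective
    (fun z : (S : Subgroup N) => (⟨⟨g * (z : N) * g⁻¹, hN.conj_mem _ (z : N).2 g⟩, ?_⟩ :
      (P : Subgroup G).subgroupOf N)) fun a b h => Subtype.ext (Subtype.ext ?_)
  · rw [Subgroup.mem_subgroupOf, ← hg, Sylow.coe_subgroup_smul, Subgroup.mem_pointwise_smul_iff_inv_smul_mem]
    simpa [mul_assoc] using hT (Subgroup.mem_map_of_mem _ z.2)
  · have h' := congrArg (fun a : (P : Subgroup G).subgroupOf N => ((a : N) : G)) h
    exact mul_left_cancel (mul_right_cancel h')

theorem card_centralizer_sylow (P : Sylow p G) (x : (P : Subgroup G)) :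
    ∃ Q : Subgroup G, IsPGroup p Q ∧ Q ≤ Subgroup.centralizer ({(x : G)} : Set G) ∧
      Nat.card Q = Nat.card (Subgroup.centralizer ({x} : Set (P : Subgroup G))) := by
  refine ⟨(Subgroup.centralizer ({x} : Set (P : Subgroup G))).map (P : Subgroup G).subtype,
    (P.2.to_subgroup _).map _, ?_, Subgroup.card_map_of_injective Subtype.val_injective⟩
  rintro _ ⟨q, hq, rfl⟩
  rw [Subgroup.mem_centralizer_singleton_iff]
  exact congrArg Subtype.val (Subgroup.mem_centralizer_singleton_iff.1 hq)

/-- In the direction from the centralizer: a Sylow subgroup of the centralizer lies in a conjugate. -/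
theorem index_of_centralizer (P : Sylow p G) {x : G} (hx : ∃ k : ℕ, orderOf x = p ^ k)
    (hc : (Nat.card (Subgroup.centralizer ({x} : Set G))).factorization p = 2) :
    (commutator (P : Subgroup G)).index = p ^ 2 := by
  classical
  let C := Subgroup.centralizer ({x} : Set G)
  have hxC : x ∈ C := Subgroup.mem_centralizer_singleton_iff.2 rfl
  obtain ⟨S, hS⟩ : ∃ S : Sylow p C, (⟨x, hxC⟩ : C) ∈ S := by
    obtain ⟨k, hk⟩ := hx
    have h : IsPGroup p (Subgroup.zpowers (⟨x, hxC⟩ : C)) :=
      IsPGroup.of_card (n := k) (by rw [Nat.card_zpowers, Subgroup.orderOf_mk, hk])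
    obtain ⟨S, hS⟩ := h.exists_le_sylow
    exact ⟨S, hS (Subgroup.mem_zpowers _)⟩
  have hScard : Nat.card S = p ^ 2 := by rw [S.card_eq_multiplicity, hc]
  let S' : Subgroup G := (S : Subgroup C).map C.subtype
  have hS'card : Nat.card S' = p ^ 2 := by
    rw [← hScard]; exact Subgroup.card_map_of_injective Subtype.val_injective
  obtain ⟨T, hT⟩ := IsPGroup.exists_le_sylow (IsPGroup.of_card hS'card)
  obtain ⟨g, hg⟩ := MulAction.exists_smul_eq G T P
  have hin : ∀ y ∈ S', g * y * g⁻¹ ∈ (P : Subgroup G) := fun y hy => by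
    rw [← hg, Sylow.coe_subgroup_smul, Subgroup.mem_pointwise_smul_iff_inv_smul_mem]
    simpa [mul_assoc] using hT hy
  let x' : (P : Subgroup G) := ⟨g * x * g⁻¹, hin x ⟨⟨x, hxC⟩, hS, rfl⟩⟩
  let A := Subgroup.centralizer ({x'} : Set (P : Subgroup G))
  have hA : Nat.card A = p ^ 2 := by
    refine le_antisymm ?_ ?_
    · obtain ⟨Q, hQp, hQle, hQc⟩ := card_centralizer_sylow P x'
      let Q' : Subgroup G := Q.map (MulAut.conj g⁻¹).toMonoidHom
      have hQ' : Q' ≤ C := by
        rintro _ ⟨q, hq, rfl⟩
        have h := Subgroup.mem_centralizer_singleton_iff.1 (hQle hq)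
        rw [Subgroup.mem_centralizer_singleton_iff]
        show g⁻¹ * q * g⁻¹⁻¹ * x = x * (g⁻¹ * q * g⁻¹⁻¹)
        calc g⁻¹ * q * g⁻¹⁻¹ * x = g⁻¹ * (q * (g * x * g⁻¹)) * g := by group
          _ = g⁻¹ * ((g * x * g⁻¹) * q) * g := by rw [h]
          _ = x * (g⁻¹ * q * g⁻¹⁻¹) := by group
      obtain ⟨k, hk⟩ := (hQp.map (MulAut.conj g⁻¹).toMonoidHom).exists_card_eq
      have hd : p ^ k ∣ Nat.card C := hk ▸ Subgroup.card_dvd_of_le hQ'
      rw [← hQc, ← Subgroup.card_map_of_injective (f := (MulAut.conj g⁻¹).toMonoidHom)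
        (MulAut.conj g⁻¹).injective, hk]
      exact Nat.pow_le_pow_right hp.out.pos
        (hc ▸ (hp.out.pow_dvd_iff_le_factorization Nat.card_pos.ne').1 hd)
    · rw [← hS'card]
      refine Nat.card_le_card_of_injective
        (fun y : S' => (⟨⟨g * y * g⁻¹, hin y y.2⟩, ?_⟩ : A)) fun y z h => Subtype.ext ?_
      · rw [Subgroup.mem_centralizer_singleton_iff]
        obtain ⟨⟨y', hy'C⟩, -, hy⟩ := y.2
        refine Subtype.ext ?_
        show g * (y : G) * g⁻¹ * (g * x * g⁻¹) = g * x * g⁻¹ * (g * y * g⁻¹)
        rw [show (y : G) = y' from hy.symm]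
        have h := Subgroup.mem_centralizer_singleton_iff.1 hy'C
        calc g * y' * g⁻¹ * (g * x * g⁻¹) = g * (y' * x) * g⁻¹ := by group
          _ = g * (x * y') * g⁻¹ := by rw [h]
          _ = _ := by group
      · have h' := congrArg (fun a : A => ((a : (P : Subgroup G)) : G)) h
        exact mul_left_cancel (mul_right_cancel h')
  obtain ⟨n, hn⟩ := P.2.exists_card_eq
  by_cases hab : ∀ a b : (P : Subgroup G), a * b = b * a
  · have hcom : commutator (P : Subgroup G) = ⊥ := by
      rw [commutator_def, Subgroup.commutator_eq_bot_iff_le_centralizer]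
      exact fun a _ => Subgroup.mem_centralizer_iff.2 fun b _ => hab b a
    rw [hcom, Subgroup.index_bot, ← hA,
      show A = ⊤ from eq_top_iff.2 fun a _ => Subgroup.mem_centralizer_singleton_iff.2 (hab a x'),
      Subgroup.card_top]
  · have hcent : Subgroup.centralizer (A : Set (P : Subgroup G)) = A := by
      refine le_antisymm (fun a ha => Subgroup.mem_centralizer_singleton_iff.2
        (Subgroup.mem_centralizer_iff.1 ha x' (Subgroup.mem_centralizer_singleton_iff.2 rfl)).symm) ?_
      haveI := IsPGroup.isMulCommutative_of_card_eq_prime_sq hA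
      exact fun a ha => Subgroup.mem_centralizer_iff.2 fun b hb =>
        congrArg Subtype.val (mul_comm' (⟨b, hb⟩ : A) ⟨a, ha⟩)
    have hn3 : 3 ≤ n := by
      by_contra hlt
      haveI : IsMulCommutative (P : Subgroup G) := by
        obtain h | h | h : n = 0 ∨ n = 1 ∨ n = 2 := by omega
        · subst h
          have := (Nat.card_eq_one_iff_unique.1 (by rw [hn, pow_zero] : Nat.card (P : Subgroup G) = 1)).1
          exact ⟨⟨fun a b => Subsingleton.elim _ _⟩⟩
        · subst h
          have := isCyclic_of_prime_card (p := p) (by rw [hn, pow_one] : Nat.card (P : Subgroup G) = p)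
          exact ⟨⟨fun a b => IsCyclic.commGroup.mul_comm a b⟩⟩
        · subst h
          exact IsPGroup.isMulCommutative_of_card_eq_prime_sq hn
      exact hab fun a b => mul_comm' a b
    have hcl := CfsgLib.PGroups.class_of_self_centralizing_sq (p := p) n hn A hA hcent
    have hd := CfsgLib.PGroups.card_commutator_of_maximal_class hn3 hn hcl
    have h := Subgroup.card_mul_index (commutator (P : Subgroup G))
    rw [hd, hn, show p ^ n = p ^ (n - 2) * p ^ 2 by rw [← pow_add]; congr 1; omega] at h
    exact Nat.eq_of_mul_eq_mul_left (pow_pos hp.out.pos _) h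

theorem commutator_self_eq {N : Subgroup G} [N.Normal]
    (hmin : ∀ M : Subgroup G, M.Normal → M ≤ N → M = ⊥ ∨ M = N)
    (hna : ¬ ∀ a ∈ N, ∀ b ∈ N, a * b = b * a) : ⁅N, N⁆ = N := by
  refine (hmin _ inferInstance (Subgroup.commutator_le_self N)).resolve_left fun h => hna fun a ha b hb => ?_
  rw [← commutatorElement_eq_one_iff_mul_comm, ← Subgroup.mem_bot, ← h]
  exact Subgroup.commutator_mem_commutator ha hb

/-- A minimal normal subgroup contains the Sylow subgroup or meets it in index `p`. -/
theorem minimal_normal_cases (P : Sylow p G) (hcore : pPrimeCore p G = ⊥)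
    (hd : (commutator (P : Subgroup G)).index = p ^ 2) {N : Subgroup G} [hNn : N.Normal]
    (hb : N ≠ ⊥) (hmin : ∀ M : Subgroup G, M.Normal → M ≤ N → M = ⊥ ∨ M = N)
    (hna : ¬ ∀ a ∈ N, ∀ b ∈ N, a * b = b * a) :
    (P : Subgroup G) ≤ N ∨ (commutator (P : Subgroup G) ≤ N.subgroupOf (P : Subgroup G) ∧
      (N.subgroupOf (P : Subgroup G)).index = p) := by
  classical
  set R := N.subgroupOf (P : Subgroup G) with hR
  have hnotfr : ¬ R ≤ frattini (P : Subgroup G) := by
    intro hle
    let H : Subgroup G := N ⊔ (P : Subgroup G)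
    let PH : Sylow p H := P.subtype le_sup_right
    have hPH : (PH : Subgroup H) = (P : Subgroup G).subgroupOf H := Sylow.coe_subtype P le_sup_right
    have hN' : pResidual p H ≤ N.subgroupOf H := by
      refine CfsgLib.Transfer.pResidual_le_of_isPGroup ?_
      intro q
      obtain ⟨⟨h, hh⟩, rfl⟩ := QuotientGroup.mk_surjective q
      obtain ⟨a, ha, b, hb, rfl⟩ := Subgroup.mem_sup_of_normal_left.1 hh
      obtain ⟨k, hk⟩ := P.2 ⟨b, hb⟩
      refine ⟨k, ?_⟩
      rw [← QuotientGroup.mk_pow, QuotientGroup.eq_one_iff]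
      show (a * b) ^ p ^ k ∈ N
      rw [← QuotientGroup.eq_one_iff, QuotientGroup.mk_pow, QuotientGroup.mk_mul,
        (QuotientGroup.eq_one_iff a).2 ha, one_mul, ← QuotientGroup.mk_pow,
        show b ^ p ^ k = 1 from congrArg Subtype.val hk, QuotientGroup.mk_one]
    have hcompl : HasNormalPComplement p H := by
      refine CfsgLib.Transfer.hasNormalPComplement_of_inf_le_frattini PH fun h hh => ?_
      obtain ⟨hhP, hhR⟩ := hh
      have hhP' : (h : G) ∈ (P : Subgroup G) := by rw [hPH] at hhP; exact hhP
      have hfr : (⟨(h : G), hhP'⟩ : (P : Subgroup G)) ∈ frattini (P : Subgroup G) :=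
        hle (show (h : G) ∈ N from hN' hhR)
      let e : (P : Subgroup G) ≃* (PH : Subgroup H) :=
        ((MulEquiv.subgroupCongr hPH).trans (Subgroup.subgroupOfEquivOfLe le_sup_right)).symm
      refine ⟨e ⟨(h : G), hhP'⟩, ?_, rfl⟩
      exact frattini_le_comap_frattini_of_surjective (φ := e.toMonoidHom) e.surjective hfr
    obtain ⟨S, K, hKn, hK⟩ := hcompl
    -- the perfect subgroup lies in the complement
    have hle' : N ≤ K.map H.subtype := by
      have hc : ⁅N.subgroupOf H, N.subgroupOf H⁆ ≤ K := by
        rw [Subgroup.commutator_le]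
        intro a ha b hb
        have hq : IsPGroup p (H ⧸ K) := IsPGroup.of_card
          (hK.symm.index_eq_card.trans S.2.exists_card_eq.choose_spec)
        have hN1 : ((N.subgroupOf H).map (QuotientGroup.mk' K)) = ⊥ := by
          by_contra hne
          haveI := hq.isNilpotent
          obtain ⟨k, hk⟩ := Subgroup.nilpotent_iff_lowerCentralSeries.1 (inferInstance : Group.IsNilpotent (H ⧸ K))
          apply hne
          rw [eq_bot_iff, ← hk]
          clear hk
          induction k with
          | zero => exact le_top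
          | succ k ih =>
            have hperf : ⁅N.subgroupOf H, N.subgroupOf H⁆ = N.subgroupOf H := by
              refine Subgroup.map_injective Subtype.val_injective (f := H.subtype) ?_
              rw [Subgroup.map_commutator, Subgroup.map_subgroupOf_eq_of_le le_sup_left,
                commutator_self_eq hmin hna]
            rw [← hperf, Subgroup.map_commutator, Subgroup.lowerCentralSeries_succ]
            exact Subgroup.commutator_mono ih le_top
        rw [← QuotientGroup.eq_one_iff, ← QuotientGroup.mk'_apply, ← Subgroup.mem_bot, ← hN1]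
        exact Subgroup.mem_map_of_mem _
          ((N.subgroupOf H).mul_mem ((N.subgroupOf H).mul_mem ((N.subgroupOf H).mul_mem ha hb)
            ((N.subgroupOf H).inv_mem ha)) ((N.subgroupOf H).inv_mem hb))
      have h := Subgroup.map_mono (f := H.subtype) hc
      rwa [Subgroup.map_commutator, Subgroup.map_subgroupOf_eq_of_le le_sup_left,
        commutator_self_eq hmin hna] at h
    have hdvd := (p_dvd_card_of_normal hcore N hb).trans (Subgroup.card_dvd_of_le hle')
    rw [Subgroup.card_map_of_injective Subtype.val_injective] at hdvd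
    have hi : K.index = Nat.card S := hK.symm.index_eq_card
    exact S.not_dvd_index (hK.index_eq_card ▸ hdvd)
  by_cases hall : R = ⊤
  · exact Or.inl (Subgroup.subgroupOf_eq_top.1 hall)
  · refine Or.inr ?_
    haveI : R.Normal := hNn.subgroupOf _
    apply CfsgLib.ZerosCodegree.index_eq_of_sup_commutator P.2
    have hdvd : (R ⊔ commutator (P : Subgroup G)).index ∣ p ^ 2 :=
      hd ▸ Subgroup.index_dvd_of_le le_sup_right
    obtain ⟨i, hi, he⟩ := (Nat.dvd_prime_pow hp.out).1 hdvd
    obtain h | h | h : i = 0 ∨ i = 1 ∨ i = 2 := by omega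
    · subst h
      rw [pow_zero, Subgroup.index_eq_one] at he
      refine absurd (frattini_nongenerating (eq_top_iff.2 ?_)) hall
      rw [← he]
      exact sup_le_sup_left (CfsgLib.PGroups.commutator_le_frattini P.2) R
    · subst h; rw [he, pow_one]
    · subst h
      refine absurd ?_ hnotfr
      have h := CfsgLib.ZerosCodegree.eq_of_le_of_index_le
        (le_sup_right : commutator (P : Subgroup G) ≤ R ⊔ commutator (P : Subgroup G)) (by rw [hd, he])
      exact (le_sup_left.trans h.ge).trans (CfsgLib.PGroups.commutator_le_frattini P.2)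

/-- A normal subgroup meeting the Sylow subgroup in an abelian subgroup of index `p`. -/
theorem exists_normal_abelian_trace (P : Sylow p G) (hcore : pPrimeCore p G = ⊥)
    (hcore' : (⁅(P : Subgroup G), (P : Subgroup G)⁆).normalCore = ⊥)
    (hnas : ¬ ∃ S : Subgroup G, S.Normal ∧ IsSimpleGroup S ∧ ¬ IsMulCommutative S ∧
      Subgroup.centralizer (S : Set G) = ⊥)
    (hd : (commutator (P : Subgroup G)).index = p ^ 2)
    (hab : ¬ ∀ a b : (P : Subgroup G), a * b = b * a) :
    ∃ N : Subgroup G, N.Normal ∧ (N.subgroupOf (P : Subgroup G)).index = p ∧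
      ∀ a ∈ N.subgroupOf (P : Subgroup G), ∀ b ∈ N.subgroupOf (P : Subgroup G), a * b = b * a := by
  classical
  have hG : (⊤ : Subgroup G) ≠ ⊥ := fun h => hab fun a b => by
    have ha : (a : G) = 1 := Subgroup.mem_bot.1 (h ▸ Subgroup.mem_top (a : G))
    have hb : (b : G) = 1 := Subgroup.mem_bot.1 (h ▸ Subgroup.mem_top (b : G))
    exact Subtype.ext (by simp [ha, hb])
  obtain ⟨N, hNn, -, hb, hmin⟩ := CfsgLib.Cores.exists_minimal_normal_le hG
  haveI := hNn
  by_cases hna : ∀ a ∈ N, ∀ b ∈ N, a * b = b * a
  · -- an abelian minimal normal subgroup is in the Sylow subgroup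
    haveI : IsMulCommutative N := ⟨⟨fun a b => Subtype.ext (hna a a.2 b b.2)⟩⟩
    obtain ⟨q, hq, hqa⟩ := CfsgLib.Cores.exists_prime_pow_eq_one_of_minimal_normal hb hmin
    have hpq : p = q := by
      obtain ⟨a, ha⟩ := exists_prime_orderOf_dvd_card' p (p_dvd_card_of_normal hcore N hb)
      have h : orderOf (a : G) ∣ q := orderOf_dvd_of_pow_eq_one (hqa a a.2)
      rw [Subgroup.orderOf_coe, ha] at h
      exact (Nat.prime_dvd_prime_iff_eq hp.out hq).1 h
    have hNp : IsPGroup p N := fun a => ⟨1, Subtype.ext (by
      rw [pow_one, hpq]; exact hqa a a.2)⟩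
    obtain ⟨T, hT⟩ := hNp.exists_le_sylow
    obtain ⟨g, hg⟩ := MulAction.exists_smul_eq G T P
    have hNP : N ≤ (P : Subgroup G) := fun a ha => by
      rw [← hg, Sylow.coe_subgroup_smul, Subgroup.mem_pointwise_smul_iff_inv_smul_mem]
      have h2 : g⁻¹ * a * g⁻¹⁻¹ ∈ N := hNn.conj_mem a ha g⁻¹
      simpa [mul_assoc] using hT h2
    refine ⟨N, hNn, ?_, fun a ha b hb => Subtype.ext (hna _ ha _ hb)⟩
    set R := N.subgroupOf (P : Subgroup G)
    haveI : R.Normal := hNn.subgroupOf _
    refine (CfsgLib.ZerosCodegree.index_eq_of_sup_commutator P.2 ?_).2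
    have hdvd : (R ⊔ commutator (P : Subgroup G)).index ∣ p ^ 2 :=
      hd ▸ Subgroup.index_dvd_of_le le_sup_right
    obtain ⟨i, hi, he⟩ := (Nat.dvd_prime_pow hp.out).1 hdvd
    obtain h | h | h : i = 0 ∨ i = 1 ∨ i = 2 := by omega
    · subst h
      rw [pow_zero, Subgroup.index_eq_one] at he
      have htop : R = ⊤ := frattini_nongenerating (eq_top_iff.2 (he ▸
        sup_le_sup_left (CfsgLib.PGroups.commutator_le_frattini P.2) R))
      exact absurd (fun a b => Subtype.ext (hna _ (Subgroup.subgroupOf_eq_top.1 htop a.2) _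
        (Subgroup.subgroupOf_eq_top.1 htop b.2))) hab
    · subst h; rw [he, pow_one]
    · subst h
      exfalso
      have h := CfsgLib.ZerosCodegree.eq_of_le_of_index_le
        (le_sup_right : commutator (P : Subgroup G) ≤ R ⊔ commutator (P : Subgroup G)) (by rw [hd, he])
      refine hb (le_bot_iff.1 (hcore' ▸ Subgroup.normal_le_normalCore.2 fun a ha => ?_))
      rw [← Subgroup.map_subtype_commutator]
      exact ⟨⟨a, hNP ha⟩, h.ge (Subgroup.mem_sup_left ha), rfl⟩
  · obtain ⟨T, _, m, hTs, hm, ⟨φ⟩⟩ :=
      CfsgLib.AltGroups.exists_mulEquiv_pi_of_minimal_normal N hb hmin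
    haveI := hTs
    haveI : Finite T := Finite.of_injective (fun t => φ.symm (fun _ => t)) fun a b h =>
      congrFun (φ.symm.injective h) ⟨0, hm⟩
    have hT : ¬ IsMulCommutative T := fun hc => hna fun a ha b hb =>
      congrArg Subtype.val (φ.injective (a₁ := ⟨a, ha⟩ * ⟨b, hb⟩) (a₂ := ⟨b, hb⟩ * ⟨a, ha⟩) (by
        simp only [map_mul]; funext i; exact mul_comm' _ _))
    have hTperf : N ⊓ Subgroup.centralizer (N : Set G) = ⊥ := by
      refine (hmin _ inferInstance inf_le_left).resolve_right fun h => hna fun a ha b hb => ?_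
      have hbc : b ∈ Subgroup.centralizer (N : Set G) := (h.ge hb).2
      exact Subgroup.mem_centralizer_iff.1 hbc a ha
    rcases minimal_normal_cases P hcore hd hb hmin hna with hPN | ⟨hRd, hR⟩
    · exfalso
      let PN : Sylow p N := P.subtype hPN
      by_cases hm1 : m = 1
      · subst hm1
        haveI : IsSimpleGroup N := (φ.trans (MulEquiv.piUnique fun _ : Fin 1 => T)).isSimpleGroup
        refine hnas ⟨N, hNn, inferInstance, fun hc => hna fun a ha b hb =>
          congrArg Subtype.val (mul_comm' (⟨a, ha⟩ : N) ⟨b, hb⟩), ?_⟩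
        by_contra hC
        obtain ⟨c, hc⟩ := exists_prime_orderOf_dvd_card' p
          (p_dvd_card_of_normal hcore (Subgroup.centralizer (N : Set G)) hC)
        have hcp : IsPGroup p (Subgroup.zpowers (c : G)) := IsPGroup.of_card (n := 1)
          (by rw [Nat.card_zpowers, Subgroup.orderOf_coe, hc, pow_one])
        obtain ⟨S, hS⟩ := hcp.exists_le_sylow
        obtain ⟨g, hg⟩ := MulAction.exists_smul_eq G P S
        have hcN : (c : G) ∈ N := by
          have h := hS (Subgroup.mem_zpowers _)
          rw [← hg, Sylow.coe_subgroup_smul, Subgroup.mem_pointwise_smul_iff_inv_smul_mem] at h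
          have h2 : g * (g⁻¹ * (c : G) * g) * g⁻¹ ∈ N := hNn.conj_mem _ (hPN (by simpa [mul_assoc] using h)) g
          simpa [mul_assoc] using h2
        have h1 : (c : G) = 1 := Subgroup.mem_bot.1 (hTperf ▸ (⟨hcN, c.2⟩ :
          (c : G) ∈ N ⊓ Subgroup.centralizer (N : Set G)))
        rw [← Subgroup.orderOf_coe, h1, orderOf_one] at hc
        exact hp.out.one_lt.ne hc
      · -- the Sylow subgroup is the product of those of the factors
        let e : (P : Subgroup G) →* (Fin m → T) := φ.toMonoidHom.comp (Subgroup.inclusion hPN)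
        have he : Function.Injective e := φ.injective.comp (Subgroup.inclusion_injective hPN)
        let π : Fin m → ((P : Subgroup G) →* T) := fun i => (Pi.evalMonoidHom _ i).comp e
        choose S hS using fun i => (P.2.of_surjective _ (π i).rangeRestrict_surjective :
          IsPGroup p (π i).range).exists_le_sylow
        have hsurj : ∀ v : Fin m → T, (∀ i, v i ∈ (S i : Subgroup T)) → v ∈ e.range := by
          intro v hv
          let X : Subgroup (Fin m → T) := Subgroup.pi Set.univ fun i => (S i : Subgroup T)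
          have hX : IsPGroup p X := by
            intro w
            choose k hk using fun i => (S i).2 ⟨(w : Fin m → T) i, w.2 i (Set.mem_univ i)⟩
            refine ⟨Finset.univ.sup k, Subtype.ext (funext fun i => ?_)⟩
            obtain ⟨d, hd⟩ := pow_dvd_pow p (Finset.le_sup (f := k) (Finset.mem_univ i))
            show ((w : Fin m → T) i) ^ p ^ Finset.univ.sup k = 1
            rw [hd, pow_mul, show ((w : Fin m → T) i) ^ p ^ k i = 1 from congrArg Subtype.val (hk i),
              one_pow]
          have hle : (PN : Subgroup N) ≤ X.comap φ.toMonoidHom := fun a ha i _ =>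
            hS i ⟨⟨(a : G), ha⟩, rfl⟩
          have h := PN.3 (hX.comap_of_injective _ φ.injective) hle
          have hv' : φ.symm v ∈ (PN : Subgroup N) := by
            rw [← h]
            intro i _
            show φ (φ.symm v) i ∈ (S i : Subgroup T)
            rw [φ.apply_symm_apply]; exact hv i
          refine ⟨⟨(φ.symm v : G), hv'⟩, ?_⟩
          show φ (φ.symm v) = v
          exact φ.apply_symm_apply v
        have hpT : p ∣ Nat.card T := by
          have h := p_dvd_card_of_normal hcore N hb
          rw [Nat.card_congr φ.toEquiv, Nat.card_fun, Nat.card_fin] at h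
          exact hp.out.dvd_of_dvd_pow h
        apply hab
        have hcomm : ∀ i, ∀ a b : (S i : Subgroup T), a * b = b * a := by
          intro i
          obtain ⟨j, hij⟩ : ∃ j : Fin m, i ≠ j := by
            haveI : Nontrivial (Fin m) := Fin.nontrivial_iff_two_le.2 (by omega)
            exact (exists_ne i).imp fun j h => h.symm
          have hmem : ∀ r : (P : Subgroup G), ∀ k, π k r ∈ (S k : Subgroup T) := fun r k => hS k ⟨r, rfl⟩
          let c : ∀ k, (P : Subgroup G) →* Abelianization (S k : Subgroup T) := fun k =>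
            Abelianization.of.comp ((π k).codRestrict _ fun r => hmem r k)
          let f := (c i).prod (c j)
          have hf : Function.Surjective f := by
            rintro ⟨a, b⟩
            obtain ⟨⟨s, hs⟩, rfl⟩ := QuotientGroup.mk_surjective a
            obtain ⟨⟨t, ht⟩, rfl⟩ := QuotientGroup.mk_surjective b
            obtain ⟨r, hr⟩ := hsurj (Function.update (Pi.mulSingle i s) j t) fun k => by
              by_cases hk : k = j
              · subst hk; simpa using ht
              · rw [Function.update_of_ne hk]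
                by_cases hki : k = i
                · subst hki; simpa using hs
                · rw [Pi.mulSingle_eq_of_ne hki]; exact one_mem _
            refine ⟨r, Prod.ext ?_ ?_⟩
            · refine congrArg Abelianization.of (Subtype.ext ?_)
              show e r i = s
              rw [hr, Function.update_of_ne hij, Pi.mulSingle_eq_same]
            · refine congrArg Abelianization.of (Subtype.ext ?_)
              show e r j = t
              rw [hr, Function.update_self]
          have hcard : Nat.card (Abelianization (S i : Subgroup T)) *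
              Nat.card (Abelianization (S j : Subgroup T)) ∣ p ^ 2 := by
            rw [← Nat.card_prod, ← Subgroup.card_top (G := _ × _), ← MonoidHom.range_eq_top.2 hf,
              ← Subgroup.index_ker, ← hd]
            exact Subgroup.index_dvd_of_le (Abelianization.commutator_subset_ker f)
          have hnt : ∀ k, Abelianization (S k : Subgroup T) → ¬ Nat.card (Abelianization (S k : Subgroup T)) = 1 := by
            intro k _ h1
            haveI : Nontrivial (S k : Subgroup T) :=
              (Subgroup.nontrivial_iff_ne_bot _).2 ((S k).ne_bot_of_dvd_card hpT)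
            have htop : commutator (S k : Subgroup T) = ⊤ := Subgroup.index_eq_one.1 h1
            have hfr := CfsgLib.PGroups.commutator_le_frattini (S k).2
            rw [htop, top_le_iff] at hfr
            have hbot : (⊥ : Subgroup (S k : Subgroup T)) = ⊤ :=
              frattini_nongenerating (by rw [hfr, sup_top_eq])
            exact bot_ne_top hbot
          obtain ⟨a, ha⟩ := (S i).2.to_quotient (commutator (S i : Subgroup T)) |>.exists_card_eq
          obtain ⟨b, hb'⟩ := (S j).2.to_quotient (commutator (S j : Subgroup T)) |>.exists_card_eq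
          change Nat.card (Abelianization (S i : Subgroup T)) = p ^ a at ha
          change Nat.card (Abelianization (S j : Subgroup T)) = p ^ b at hb'
          rw [ha, hb', ← pow_add, Nat.pow_dvd_pow_iff_le_right hp.out.one_lt] at hcard
          have ha1 : a = 1 := by
            have h1 : a ≠ 0 := fun h => hnt i 1 (by rw [ha, h, pow_zero])
            have h2 : b ≠ 0 := fun h => hnt j 1 (by rw [hb', h, pow_zero])
            omega
          rw [ha1, pow_one] at ha
          haveI : IsCyclic (Abelianization (S i : Subgroup T)) := isCyclic_of_prime_card ha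
          obtain ⟨z, hz⟩ := IsCyclic.exists_generator (α := Abelianization (S i : Subgroup T))
          obtain ⟨z, rfl⟩ := QuotientGroup.mk_surjective z
          have hzt : Subgroup.zpowers z = ⊤ := by
            refine frattini_nongenerating (eq_top_iff.2 fun x _ => ?_)
            obtain ⟨k, hk⟩ := Subgroup.mem_zpowers_iff.1 (hz (Abelianization.of x))
            have hx : (z ^ k)⁻¹ * x ∈ commutator (S i : Subgroup T) := by
              rw [← QuotientGroup.eq]
              exact hk
            rw [← mul_inv_cancel_left (z ^ k) x]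
            exact mul_mem (Subgroup.mem_sup_left (Subgroup.zpow_mem_zpowers z k))
              (Subgroup.mem_sup_right (CfsgLib.PGroups.commutator_le_frattini (S i).2 hx))
          intro x y
          obtain ⟨k, rfl⟩ := Subgroup.mem_zpowers_iff.1 (hzt ▸ Subgroup.mem_top x)
          obtain ⟨l, rfl⟩ := Subgroup.mem_zpowers_iff.1 (hzt ▸ Subgroup.mem_top y)
          exact ((Commute.refl z).zpow_zpow k l).eq
        intro a b
        refine he (funext fun i => ?_)
        rw [map_mul, map_mul, Pi.mul_apply, Pi.mul_apply]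
        exact congrArg Subtype.val (hcomm i ⟨_, hS i ⟨a, rfl⟩⟩ ⟨_, hS i ⟨b, rfl⟩⟩)
    · refine ⟨N, hNn, hR, ?_⟩
      by_cases hm1 : m = 1
      · subst hm1
        haveI : IsSimpleGroup N := (φ.trans (MulEquiv.piUnique fun _ : Fin 1 => T)).isSimpleGroup
        exfalso
        have hC : Subgroup.centralizer (N : Set G) ≠ ⊥ := fun h => hnas ⟨N, hNn, inferInstance,
          fun hc => hna fun a ha b hb => congrArg Subtype.val (mul_comm' (⟨a, ha⟩ : N) ⟨b, hb⟩), h⟩
        obtain ⟨N₂, hN₂n, hN₂C, hb₂, hmin₂⟩ := CfsgLib.Cores.exists_minimal_normal_le hC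
        haveI := hN₂n
        have hdisj : ∀ a, a ∈ N → a ∈ N₂ → a = 1 := fun a h1 h2 =>
          Subgroup.mem_bot.1 (hTperf ▸ (⟨h1, hN₂C h2⟩ : a ∈ N ⊓ Subgroup.centralizer (N : Set G)))
        by_cases hna₂ : ∀ a ∈ N₂, ∀ b ∈ N₂, a * b = b * a
        · -- an abelian normal subgroup in the centralizer
          haveI : IsMulCommutative N₂ := ⟨⟨fun a b => Subtype.ext (hna₂ a a.2 b b.2)⟩⟩
          obtain ⟨q, hq, hqa⟩ := CfsgLib.Cores.exists_prime_pow_eq_one_of_minimal_normal hb₂ hmin₂
          have hpq : p = q := by
            obtain ⟨a, ha⟩ := exists_prime_orderOf_dvd_card' p (p_dvd_card_of_normal hcore N₂ hb₂)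
            have h : orderOf (a : G) ∣ q := orderOf_dvd_of_pow_eq_one (hqa a a.2)
            rw [Subgroup.orderOf_coe, ha] at h
            exact (Nat.prime_dvd_prime_iff_eq hp.out hq).1 h
          have hNp : IsPGroup p N₂ := fun a => ⟨1, Subtype.ext (by
            rw [pow_one, hpq]; exact hqa a a.2)⟩
          obtain ⟨T', hT'⟩ := hNp.exists_le_sylow
          obtain ⟨g, hg⟩ := MulAction.exists_smul_eq G T' P
          have hNP : N₂ ≤ (P : Subgroup G) := fun a ha => by
            rw [← hg, Sylow.coe_subgroup_smul, Subgroup.mem_pointwise_smul_iff_inv_smul_mem]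
            have h2 : g⁻¹ * a * g⁻¹⁻¹ ∈ N₂ := hN₂n.conj_mem a ha g⁻¹
            simpa [mul_assoc] using hT' h2
          set R₂ := N₂.subgroupOf (P : Subgroup G)
          haveI : R₂.Normal := hN₂n.subgroupOf _
          have hdvd : (R₂ ⊔ commutator (P : Subgroup G)).index ∣ p ^ 2 :=
            hd ▸ Subgroup.index_dvd_of_le le_sup_right
          obtain ⟨i, hi, he⟩ := (Nat.dvd_prime_pow hp.out).1 hdvd
          obtain h | h | h : i = 0 ∨ i = 1 ∨ i = 2 := by omega
          · subst h
            rw [pow_zero, Subgroup.index_eq_one] at he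
            have htop : R₂ = ⊤ := frattini_nongenerating (eq_top_iff.2 (he ▸
              sup_le_sup_left (CfsgLib.PGroups.commutator_le_frattini P.2) R₂))
            exact hab fun a b => Subtype.ext (hna₂ _ (Subgroup.subgroupOf_eq_top.1 htop a.2) _
              (Subgroup.subgroupOf_eq_top.1 htop b.2))
          · subst h
            rw [pow_one] at he
            have h2 := (CfsgLib.ZerosCodegree.index_eq_of_sup_commutator P.2 he).1
            refine hab fun a b => ?_
            rw [← commutatorElement_eq_one_iff_mul_comm]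
            have hc : ⁅a, b⁆ ∈ commutator (P : Subgroup G) :=
              Subgroup.commutator_mem_commutator (Subgroup.mem_top a) (Subgroup.mem_top b)
            exact Subtype.ext (hdisj _ (hRd hc) (h2 hc))
          · subst h
            have h := CfsgLib.ZerosCodegree.eq_of_le_of_index_le
              (le_sup_right : commutator (P : Subgroup G) ≤ R₂ ⊔ commutator (P : Subgroup G)) (by rw [hd, he])
            refine hb₂ (le_bot_iff.1 (hcore' ▸ Subgroup.normal_le_normalCore.2 fun a ha => ?_))
            rw [← Subgroup.map_subtype_commutator]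
            exact ⟨⟨a, hNP ha⟩, h.ge (Subgroup.mem_sup_left ha), rfl⟩
        rcases minimal_normal_cases P hcore hd hb₂ hmin₂ hna₂ with hPN₂ | ⟨hRd₂, -⟩
        · obtain ⟨a, ha⟩ := exists_prime_orderOf_dvd_card' p (p_dvd_card_of_normal hcore N hb)
          have hap : IsPGroup p (Subgroup.zpowers (a : G)) := IsPGroup.of_card (n := 1)
            (by rw [Nat.card_zpowers, Subgroup.orderOf_coe, ha, pow_one])
          obtain ⟨S, hS⟩ := hap.exists_le_sylow
          obtain ⟨g, hg⟩ := MulAction.exists_smul_eq G P S
          have haN : (a : G) ∈ N₂ := by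
            have h := hS (Subgroup.mem_zpowers _)
            rw [← hg, Sylow.coe_subgroup_smul, Subgroup.mem_pointwise_smul_iff_inv_smul_mem] at h
            have h2 : g * (g⁻¹ * (a : G) * g) * g⁻¹ ∈ N₂ :=
              hN₂n.conj_mem _ (hPN₂ (by simpa [mul_assoc] using h)) g
            simpa [mul_assoc] using h2
          rw [← Subgroup.orderOf_coe, hdisj _ a.2 haN, orderOf_one] at ha
          exact hp.out.one_lt.ne ha
        · refine hab fun a b => ?_
          rw [← commutatorElement_eq_one_iff_mul_comm]
          have hc : ⁅a, b⁆ ∈ commutator (P : Subgroup G) :=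
            Subgroup.commutator_mem_commutator (Subgroup.mem_top a) (Subgroup.mem_top b)
          exact Subtype.ext (hdisj _ (hRd hc) (hRd₂ hc))
      · set R := N.subgroupOf (P : Subgroup G)
        haveI hRn : R.Normal := hNn.subgroupOf _
        let ι : R →* N :=
          { toFun := fun r => ⟨((r : (P : Subgroup G)) : G), r.2⟩
            map_one' := rfl
            map_mul' := fun _ _ => rfl }
        let e : R →* (Fin m → T) := φ.toMonoidHom.comp ι
        have he : Function.Injective e := φ.injective.comp fun r s h =>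
          Subtype.ext (Subtype.ext (congrArg (fun z : N => (z : G)) h))
        let π : Fin m → (R →* T) := fun i => (Pi.evalMonoidHom _ i).comp e
        choose S hS using fun i => ((P.2.to_subgroup R).of_surjective _
          (π i).rangeRestrict_surjective : IsPGroup p (π i).range).exists_le_sylow
        let PN : Subgroup N := (P : Subgroup G).subgroupOf N
        have hpT : p ∣ Nat.card T := by
          have h := p_dvd_card_of_normal hcore N hb
          rw [Nat.card_congr φ.toEquiv, Nat.card_fun, Nat.card_fin] at h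
          exact hp.out.dvd_of_dvd_pow h
        have hrange : ∀ v : Fin m → T, v ∈ e.range ↔ ∀ i, v i ∈ (S i : Subgroup T) := by
          intro v
          refine ⟨fun ⟨r, hr⟩ i => hr ▸ hS i ⟨r, rfl⟩, fun hv => ?_⟩
          let X : Subgroup (Fin m → T) := Subgroup.pi Set.univ fun i => (S i : Subgroup T)
          have hX : IsPGroup p X := by
            intro w
            choose k hk using fun i => (S i).2 ⟨(w : Fin m → T) i, w.2 i (Set.mem_univ i)⟩
            refine ⟨Finset.univ.sup k, Subtype.ext (funext fun i => ?_)⟩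
            obtain ⟨d, hd⟩ := pow_dvd_pow p (Finset.le_sup (f := k) (Finset.mem_univ i))
            show ((w : Fin m → T) i) ^ p ^ Finset.univ.sup k = 1
            rw [hd, pow_mul, show ((w : Fin m → T) i) ^ p ^ k i = 1 from congrArg Subtype.val (hk i),
              one_pow]
          obtain ⟨PNs, hPNs⟩ : ∃ Q : Sylow p N, (Q : Subgroup N) = PN :=
            exists_sylow_subgroupOf P N
          have hle : (PNs : Subgroup N) ≤ X.comap φ.toMonoidHom := fun a ha i _ => by
            rw [hPNs] at ha
            exact hS i ⟨⟨⟨(a : G), ha⟩, a.2⟩, rfl⟩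
          have h := PNs.3 (hX.comap_of_injective _ φ.injective) hle
          have hv' : φ.symm v ∈ PN := by
            rw [← hPNs, ← h]
            intro i _
            show φ (φ.symm v) i ∈ (S i : Subgroup T)
            rw [φ.apply_symm_apply]; exact hv i
          refine ⟨⟨⟨(φ.symm v : G), hv'⟩, (φ.symm v).2⟩, ?_⟩
          show φ (φ.symm v) = v
          exact φ.apply_symm_apply v
        refine CfsgLib.ZerosCodegree.abelian_of_coordinates P.2 hd hT hR hRd e S hrange he
          ⟨⟨0, hm⟩, ⟨1, by omega⟩, by simp⟩ hpT fun g =>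
          ⟨(φ.symm.trans (MulAut.conjNormal (H := N) (g : G))).trans φ, fun r => ?_⟩
        show φ (ι _) = φ (MulAut.conjNormal (g : G) (φ.symm (φ (ι r))))
        rw [φ.symm_apply_apply]
        exact congrArg φ (Subtype.ext (MulAut.conjNormal_apply (g : G) (ι r)).symm)

/-- Let G be a finite group, p a prime and P a Sylow p-subgroup of order at least p². Assume that G has no nontrivial normal subgroup of order prime to p, that the derived subgroup P' of P contains no nontrivial normal subgroup of G, and that G is not almost simple (there is no non-abelian simple normal subgroup of G with trivial centralizer). Then [P : P'] = p² if and only if some p-element x of G has centralizer whose order has p-part exactly p². -/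
theorem result {G : Type*} [Group G] [Finite G] (p : ℕ) [Fact p.Prime] (P : Sylow p G) (hbig : p ^ 2 ∣ Nat.card G) (hcore : Cfsg.pPrimeCore p G = ⊥)
    (hcore' : (⁅(P : Subgroup G), (P : Subgroup G)⁆).normalCore = ⊥) (hnas : ¬ ∃ S : Subgroup G, S.Normal ∧ IsSimpleGroup S ∧ ¬ IsMulCommutative S ∧ Subgroup.centralizer (S : Set G) = ⊥) :
    (⁅(P : Subgroup G), (P : Subgroup G)⁆).relIndex (P : Subgroup G) = p ^ 2 ↔
      ∃ x : G, (∃ k : ℕ, orderOf x = p ^ k) ∧ (Nat.card (Subgroup.centralizer ({x} : Set G))).factorization p = 2 := by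
  have hpr : Fact p.Prime := inferInstance
  have hrel : (⁅(P : Subgroup G), (P : Subgroup G)⁆).relIndex (P : Subgroup G) =
      (commutator (P : Subgroup G)).index := by
    rw [Subgroup.relIndex, ← Subgroup.map_subtype_commutator, Subgroup.subgroupOf,
      Subgroup.comap_map_eq_self_of_injective Subtype.val_injective]
  rw [hrel]
  refine ⟨fun hd => ?_, fun ⟨x, hx, hc⟩ => index_of_centralizer P hx hc⟩
  by_cases hab : ∀ a b : (P : Subgroup G), a * b = b * a
  · refine ⟨1, ⟨0, by rw [orderOf_one, pow_zero]⟩, ?_⟩
    have hC : Subgroup.centralizer ({(1 : G)} : Set G) = ⊤ := eq_top_iff.2 fun g _ =>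
      Subgroup.mem_centralizer_singleton_iff.2 (by rw [mul_one, one_mul])
    rw [hC, Subgroup.card_top]
    have hcom : commutator (P : Subgroup G) = ⊥ := by
      rw [commutator_def, Subgroup.commutator_eq_bot_iff_le_centralizer]
      exact fun a _ => Subgroup.mem_centralizer_iff.2 fun b _ => hab b a
    rw [hcom, Subgroup.index_bot, P.card_eq_multiplicity] at hd
    exact Nat.pow_right_injective hpr.out.two_le hd
  · obtain ⟨N, hNn, hR, hRab⟩ := exists_normal_abelian_trace P hcore hcore' hnas hd hab
    haveI := hNn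
    haveI : (N.subgroupOf (P : Subgroup G)).Normal := hNn.subgroupOf _
    obtain ⟨y, -, hy⟩ := SetLike.exists_of_lt
      (show N.subgroupOf (P : Subgroup G) < ⊤ from lt_top_iff_ne_top.2 fun h =>
        hpr.out.one_lt.ne' (by rw [← hR, h, Subgroup.index_top]))
    obtain ⟨k, hk⟩ := (IsPGroup.iff_orderOf.1 P.2) y
    refine ⟨(y : G), ⟨k, by rw [Subgroup.orderOf_coe, hk]⟩, ?_⟩
    let C := Subgroup.centralizer ({(y : G)} : Set G)
    have hyC : (y : G) ∈ C := Subgroup.mem_centralizer_singleton_iff.2 rfl
    obtain ⟨S, hS⟩ : ∃ S : Sylow p C, (⟨y, hyC⟩ : C) ∈ S := by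
      have h : IsPGroup p (Subgroup.zpowers (⟨y, hyC⟩ : C)) :=
        IsPGroup.of_card (n := k) (by rw [Nat.card_zpowers, Subgroup.orderOf_mk, Subgroup.orderOf_coe, hk])
      obtain ⟨S, hS⟩ := h.exists_le_sylow
      exact ⟨S, hS (Subgroup.mem_zpowers _)⟩
    obtain ⟨T, hT⟩ := (S.2.map C.subtype).exists_le_sylow
    obtain ⟨g, hg⟩ := MulAction.exists_smul_eq G T P
    have hin : ∀ z ∈ (S : Subgroup C).map C.subtype, g * z * g⁻¹ ∈ (P : Subgroup G) := fun z hz => by
      rw [← hg, Sylow.coe_subgroup_smul, Subgroup.mem_pointwise_smul_iff_inv_smul_mem]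
      simpa [mul_assoc] using hT hz
    let y' : (P : Subgroup G) := ⟨g * y * g⁻¹, hin y ⟨⟨y, hyC⟩, hS, rfl⟩⟩
    have hy' : y' ∉ N.subgroupOf (P : Subgroup G) := fun h => hy <| by
      have h2 : g⁻¹ * (g * (y : G) * g⁻¹) * g⁻¹⁻¹ ∈ N := hNn.conj_mem _ h g⁻¹
      show (y : G) ∈ N
      simpa [mul_assoc] using h2
    have hA := CfsgLib.ZerosCodegree.card_centralizer_of_abelian P.2 hd hR hRab hy'
    have hle : Nat.card S ≤ p ^ 2 := by
      rw [← hA, ← Subgroup.card_map_of_injective (K := (S : Subgroup C)) (f := C.subtype) C.subtype_injective]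
      refine Nat.card_le_card_of_injective
        (fun z : (S : Subgroup C).map C.subtype =>
          (⟨⟨g * z * g⁻¹, hin z z.2⟩, ?_⟩ : Subgroup.centralizer ({y'} : Set (P : Subgroup G))))
        fun a b h => Subtype.ext ?_
      · rw [Subgroup.mem_centralizer_singleton_iff]
        obtain ⟨⟨z', hz'C⟩, -, hz⟩ := z.2
        refine Subtype.ext ?_
        show g * (z : G) * g⁻¹ * (g * y * g⁻¹) = g * y * g⁻¹ * (g * z * g⁻¹)
        rw [show (z : G) = z' from hz.symm]
        have h := Subgroup.mem_centralizer_singleton_iff.1 hz'C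
        calc g * z' * g⁻¹ * (g * y * g⁻¹) = g * (z' * y) * g⁻¹ := by group
          _ = g * (y * z') * g⁻¹ := by rw [h]
          _ = _ := by group
      · have h' := congrArg (fun a : Subgroup.centralizer ({y'} : Set (P : Subgroup G)) =>
          ((a : (P : Subgroup G)) : G)) h
        exact mul_left_cancel (mul_right_cancel h')
    have hge : p ^ 2 ≤ Nat.card S := by
      obtain ⟨Q, hQp, hQle, hQc⟩ := card_centralizer_sylow P y'
      let Q' : Subgroup G := Q.map (MulAut.conj g⁻¹).toMonoidHom
      have hQ' : Q' ≤ C := by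
        rintro _ ⟨q, hq, rfl⟩
        have h := Subgroup.mem_centralizer_singleton_iff.1 (hQle hq)
        rw [Subgroup.mem_centralizer_singleton_iff]
        show g⁻¹ * q * g⁻¹⁻¹ * (y : G) = (y : G) * (g⁻¹ * q * g⁻¹⁻¹)
        calc g⁻¹ * q * g⁻¹⁻¹ * (y : G) = g⁻¹ * (q * (g * y * g⁻¹)) * g := by group
          _ = g⁻¹ * ((g * y * g⁻¹) * q) * g := by rw [h]
          _ = (y : G) * (g⁻¹ * q * g⁻¹⁻¹) := by group
      have hcard : Nat.card Q' = p ^ 2 := by
        rw [Subgroup.card_map_of_injective (f := (MulAut.conj g⁻¹).toMonoidHom)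
          (MulAut.conj g⁻¹).injective, hQc, hA]
      rw [S.card_eq_multiplicity]
      exact Nat.pow_le_pow_right hpr.out.pos ((hpr.out.pow_dvd_iff_le_factorization
        Nat.card_pos.ne').1 (hcard ▸ Subgroup.card_dvd_of_le hQ'))
    have h2 : Nat.card S = p ^ 2 := le_antisymm hle hge
    rw [S.card_eq_multiplicity] at h2
    exact Nat.pow_right_injective hpr.out.two_le h2

end Cfsg.Agent.S4587
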