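import Cfsg.Statements.S4588
import Cfsg.Agent.Lib.BlockLocal.SmallCentralizer

set_option autoImplicit false
open Cfsg

namespace Cfsg.Agent.S4588

/-- Let G be a finite group, p a prime and M a maximal ideal of the algebraic integers containing p. If some p-element x of G (possibly x = 1) has centralizer whose order has p-part at most p², then the principal p-block of G contains at most p² irreducible characters of degree prime to p. -/
theorem result {G : Type*} [Group G] [Finite G] (p : ℕ) [Fact p.Prime] (M : Ideal Cfsg.AlgInt) (hM : Cfsg.IsPModular p M)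
    (hx : ∃ x : G, (∃ k : ℕ, orderOf x = p ^ k) ∧ (Nat.card (Subgroup.centralizer ({x} : Set G))).factorization p ≤ 2) :
    Nat.card {χ : Cfsg.IrrCharacter G // χ ∈ Cfsg.principalBlock M G ∧ ¬ p ∣ Cfsg.charDegree (χ : G → ℂ)} ≤ p ^ 2 := by
  classical
  haveI := CfsgLib.Blocks.isPrime_of_isPModular hM
  haveI := Fintype.ofFinite G
  obtain ⟨x, hxp, hx2⟩ := hx
  by_cases h1 : x = 1 → ¬ p ∣ Nat.card (Subgroup.centralizer ({x} : Set G))
  · haveI := Fintype.ofFinite (Subgroup.centralizer ({x} : Set G))
    exact CfsgLib.BlockLocal.SmallCentralizer.card_le x hM hxp hx2 h1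
  push Not at h1
  obtain ⟨rfl, hd⟩ := h1
  obtain ⟨y, hy⟩ := exists_prime_orderOf_dvd_card' p (hd.trans (Subgroup.card_subgroup_dvd_card _))
  haveI := Fintype.ofFinite (Subgroup.centralizer ({y} : Set G))
  have hG : Subgroup.centralizer ({(1 : G)} : Set G) = ⊤ := by
    rw [eq_top_iff]
    exact fun g _ => Subgroup.mem_centralizer_singleton_iff.2 (by simp)
  rw [hG, Subgroup.card_top] at hx2
  refine CfsgLib.BlockLocal.SmallCentralizer.card_le y hM ⟨1, by rw [pow_one, hy]⟩ ?_ fun e => ?_
  · exact ((Nat.factorization_le_iff_dvd Nat.card_pos.ne' Nat.card_pos.ne').2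
      (Subgroup.card_subgroup_dvd_card _) p).trans hx2
  · rw [e, orderOf_one] at hy
    exact absurd hy.symm (Fact.out : p.Prime).one_lt.ne'

end Cfsg.Agent.S4588
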