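import Cfsg.Statements.S4591
import Cfsg.Agent.Lib.ZerosCodegree.CharBasics
import Cfsg.Agent.Lib.Transfer.Tate
import Cfsg.Agent.Lib.PGroups.Frattini
-- import your own Cfsg.Agent.* helpers here

set_option autoImplicit false
open Cfsg

namespace Cfsg.Agent.S4591

open CfsgLib.CharTheory CfsgLib.ZerosCodegree

open scoped ComplexConjugate

theorem not_dvd_card_of_inf_centralizer {G : Type*} [Group G] [Finite G] {p : ℕ} [Fact p.Prime]
    (P : Sylow p G) (L : Subgroup G) [hLn : L.Normal]
    (hL : L ⊓ Subgroup.centralizer ((P : Subgroup G) : Set G) = ⊥) : ¬ p ∣ Nat.card L := by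
  intro hdvd
  obtain ⟨y, hy⟩ := exists_prime_orderOf_dvd_card' p hdvd
  have hpg : IsPGroup p (Subgroup.zpowers (y : G)) :=
    IsPGroup.of_card (n := 1) (by rw [Nat.card_zpowers, Subgroup.orderOf_coe, hy, pow_one])
  obtain ⟨Q, hQ⟩ := hpg.exists_le_sylow
  obtain ⟨a, ha⟩ := MulAction.exists_smul_eq G Q P
  have hyP : a * y * a⁻¹ ∈ (P : Subgroup G) := by
    rw [← ha, Sylow.coe_subgroup_smul]
    exact Subgroup.smul_mem_pointwise_smul _ (MulAut.conj a) _ (hQ (Subgroup.mem_zpowers (y : G)))
  have hne : (L.subgroupOf (P : Subgroup G)) ≠ ⊥ := by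
    intro hb
    have : (⟨_, hyP⟩ : (P : Subgroup G)) ∈ L.subgroupOf (P : Subgroup G) := hLn.conj_mem _ y.2 a
    rw [hb, Subgroup.mem_bot] at this
    have h1 : a * (y : G) * a⁻¹ = 1 := congrArg Subtype.val this
    rw [mul_inv_eq_one] at h1
    rw [← Subgroup.orderOf_coe, mul_eq_left.mp h1, orderOf_one] at hy
    exact (Fact.out : p.Prime).one_lt.ne hy
  obtain ⟨c, hc, hc1⟩ := CfsgLib.Transfer.exists_mem_inf_center_ne_one P.isPGroup' hne
  have : (c : G) ∈ L ⊓ Subgroup.centralizer ((P : Subgroup G) : Set G) := by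
    refine ⟨hc.1, Subgroup.mem_centralizer_iff.mpr fun h hh => ?_⟩
    exact congrArg Subtype.val (Subgroup.mem_center_iff.mp hc.2 ⟨h, hh⟩)
  rw [hL, Subgroup.mem_bot] at this
  exact hc1 (Subtype.ext this)

theorem le_ker_of_inf_centralizer {G : Type*} [Group G] [Finite G] {p : ℕ} [Fact p.Prime]
    (P : Sylow p G) (L : Subgroup G) [hLn : L.Normal]
    (hL : L ⊓ Subgroup.centralizer ((P : Subgroup G) : Set G) = ⊥) (χ : Cfsg.IrrCharacter G)
    (hχ : ¬ p ∣ Cfsg.charDegree (χ : G → ℂ)) {n : G} (hn : n ∈ L) :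
    (χ : G → ℂ) n = (χ : G → ℂ) 1 := by
  classical
  haveI := Fintype.ofFinite G
  haveI := Fintype.ofFinite L
  letI : MulAction (P : Subgroup G) L := MulAction.compHom L
    ((MulAut.conjNormal (H := L) : G →* MulAut L).comp (P : Subgroup G).subtype)
  have hsmul : ∀ (a : (P : Subgroup G)) (l : L), ((a • l : L) : G) = (a : G) * l * (a : G)⁻¹ :=
    fun a l => rfl
  obtain ⟨γ, hγ, hsum⟩ := exists_isIntegral_sum_eq (A := (P : Subgroup G)) P.isPGroup'
    (fun l : L => (χ : G → ℂ) l)
    (fun a l => by show (χ : G → ℂ) ((a • l : L) : G) = _; rw [hsmul]; exact IsIrrCharacter.isClassFunction χ.2 _ _)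
    (fun l => IsCharacter.isIntegral (IsIrrCharacter.isCharacter χ.2) _)
  have hfix : Finset.univ.filter (fun l : L => l ∈ MulAction.fixedPoints (P : Subgroup G) L) = {1} := by
    ext l
    simp only [Finset.mem_filter, Finset.mem_univ, true_and, Finset.mem_singleton, MulAction.mem_fixedPoints]
    constructor
    · intro h
      have : (l : G) ∈ L ⊓ Subgroup.centralizer ((P : Subgroup G) : Set G) :=
        ⟨l.2, Subgroup.mem_centralizer_iff.mpr fun a ha => by
          have := congrArg Subtype.val (h ⟨a, ha⟩)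
          rw [hsmul] at this
          exact mul_inv_eq_iff_eq_mul.mp this⟩
      rw [hL, Subgroup.mem_bot] at this
      exact Subtype.ext this
    · rintro rfl a
      exact Subtype.ext (by rw [hsmul]; simp)
  rw [hfix, Finset.sum_singleton, Subgroup.coe_one] at hsum
  refine apply_eq_one_of_sum_ne_zero χ L (fun h0 => hχ ?_) hn
  rw [hsum, irr_apply_one_eq] at h0
  refine CfsgLib.CharTheory.dvd_of_isIntegral_natCast_div (Fact.out : p.Prime).ne_zero ?_
  rw [show ((Cfsg.charDegree (χ : G → ℂ) : ℂ) / (p : ℂ)) = -γ by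
    rw [div_eq_iff (Nat.cast_ne_zero.mpr (Fact.out : p.Prime).ne_zero)]
    linear_combination h0]
  exact hγ.neg

theorem exists_linear_vector {G : Type*} [Group G] [Finite G] {p : ℕ} [Fact p.Prime]
    (P : Sylow p G) {n : ℕ} (ρ : Representation ℂ G (Fin n → ℂ)) (hn : ¬ p ∣ n) :
    ∃ v : Fin n → ℂ, v ≠ 0 ∧ ∀ u ∈ ⁅(P : Subgroup G), (P : Subgroup G)⁆, ρ u v = v := by
  classical
  haveI := Fintype.ofFinite G
  haveI := Fintype.ofFinite (P : Subgroup G)
  haveI := Fintype.ofFinite (commutator (P : Subgroup G))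
  haveI := Fintype.ofFinite (Cfsg.IrrCharacter (P : Subgroup G))
  let σ : Representation ℂ (P : Subgroup G) (Fin n → ℂ) := ρ.comp (P : Subgroup G).subtype
  obtain ⟨m, hm⟩ := IsCharacter.exists_sum (isCharacter_character σ)
  have hdeg : n = ∑ ψ : Cfsg.IrrCharacter (P : Subgroup G), m ψ * Cfsg.charDegree (ψ : ↥(P : Subgroup G) → ℂ) := by
    have h := congrFun hm 1
    rw [σ.char_one, Module.finrank_fin_fun, Finset.sum_apply] at h
    simp only [Pi.smul_apply, smul_eq_mul, irr_apply_one_eq] at h
    exact_mod_cast h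
  obtain ⟨ψ, hψ⟩ : ∃ ψ : Cfsg.IrrCharacter (P : Subgroup G),
      ¬ p ∣ m ψ * Cfsg.charDegree (ψ : ↥(P : Subgroup G) → ℂ) := by
    by_contra h
    push Not at h
    exact hn (hdeg ▸ Finset.dvd_sum fun ψ _ => h ψ)
  have hd1 : Cfsg.charDegree (ψ : ↥(P : Subgroup G) → ℂ) = 1 := by
    obtain ⟨k, hk⟩ := P.isPGroup'.exists_card_eq
    obtain ⟨i, -, hi⟩ := (Nat.dvd_prime_pow (Fact.out : p.Prime)).mp (hk ▸ charDegree_dvd_card ψ)
    rcases Nat.eq_zero_or_pos i with rfl | hi0
    · simpa using hi
    · exact absurd ((hi.symm ▸ dvd_pow_self p hi0.ne' : p ∣ Cfsg.charDegree (ψ : ↥(P : Subgroup G) → ℂ)).mul_left _) hψ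
  obtain ⟨d, τ, hτ, hτc⟩ := ψ.2
  have hd : d = 1 := by
    have h := congrFun hτc 1
    rw [τ.char_one, Module.finrank_fin_fun, irr_apply_one_eq, hd1] at h
    exact_mod_cast h
  subst hd
  have hker : ∀ u ∈ commutator (P : Subgroup G), τ u = LinearMap.id := by
    have hcom : ∀ a b, τ a * τ b = τ b * τ a := fun a b => by
      have hs : ∀ T : Module.End ℂ (Fin 1 → ℂ), ∃ c : ℂ, T = c • 1 := fun T => by
        refine ⟨T (fun _ => 1) 0, LinearMap.ext fun v => funext fun i => ?_⟩
        have hv : v = v 0 • (fun _ => (1 : ℂ)) := funext fun j => by simp [Subsingleton.elim j 0]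
        rw [Subsingleton.elim i 0]
        conv_lhs => rw [hv, map_smul]
        simp [mul_comm]
      obtain ⟨x, hx⟩ := hs (τ a)
      obtain ⟨y, hy⟩ := hs (τ b)
      rw [hx, hy, smul_mul_smul_comm, smul_mul_smul_comm, mul_comm x y]
    intro u hu
    have : commutator (P : Subgroup G) ≤ τ.toHomUnits.ker := by
      rw [_root_.commutator_def, Subgroup.commutator_le]
      intro a _ b _
      rw [MonoidHom.mem_ker, map_commutatorElement, commutatorElement_eq_one_iff_commute]
      exact Units.ext (hcom a b)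
    exact congrArg Units.val (MonoidHom.mem_ker.mp (this hu))
  let σ' : Representation ℂ (commutator (P : Subgroup G)) (Fin n → ℂ) :=
    σ.comp (commutator (P : Subgroup G)).subtype
  have hnonneg : ∀ φ : Cfsg.IrrCharacter (P : Subgroup G), ∃ k : ℕ,
      ∑ u : commutator (P : Subgroup G), (φ : ↥(P : Subgroup G) → ℂ) u =
        (Nat.card (commutator (P : Subgroup G)) : ℂ) * k := by
    intro φ
    obtain ⟨e, r, hr, hrc⟩ := φ.2
    refine ⟨Module.finrank ℂ (Representation.invariants (r.comp (commutator (P : Subgroup G)).subtype)), ?_⟩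
    rw [← classInner_character_one, classInner, ← mul_assoc,
      mul_inv_cancel₀ (Nat.cast_ne_zero.mpr Nat.card_pos.ne'), one_mul, ← hrc]
    exact Finset.sum_congr rfl fun u _ => by rw [map_one, mul_one]; rfl
  choose k hk using hnonneg
  have hkψ : k ψ = 1 := by
    have hψ1 : ∀ u : commutator (P : Subgroup G),
        (ψ : ↥(P : Subgroup G) → ℂ) (u : ↥(P : Subgroup G)) = 1 := fun u => by
      rw [← hτc]
      show LinearMap.trace ℂ _ (τ (u : ↥(P : Subgroup G))) = 1
      rw [hker _ u.2, LinearMap.trace_id, Module.finrank_fin_fun, Nat.cast_one]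
    have h := hk ψ
    rw [Finset.sum_congr rfl (fun u _ => hψ1 u)] at h
    simp only [Finset.sum_const, Finset.card_univ, nsmul_eq_mul, mul_one, ← Nat.card_eq_fintype_card] at h
    exact_mod_cast (mul_left_cancel₀ (Nat.cast_ne_zero.mpr Nat.card_pos.ne') (h.symm.trans (mul_one _).symm))
  have hσ := classInner_character_one σ'
  rw [classInner, Finset.sum_congr rfl (g := fun u : commutator (P : Subgroup G) =>
      ∑ φ, (m φ : ℂ) * (φ : ↥(P : Subgroup G) → ℂ) u) (fun u _ => by
    rw [map_one, mul_one]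
    show σ.character u = _
    rw [hm, Finset.sum_apply]; rfl), Finset.sum_comm] at hσ
  simp only [← Finset.mul_sum, hk] at hσ
  rw [show ∑ φ, (m φ : ℂ) * ((Nat.card (commutator (P : Subgroup G)) : ℂ) * k φ) =
      (Nat.card (commutator (P : Subgroup G)) : ℂ) * ((∑ φ, m φ * k φ : ℕ) : ℂ) by
    push_cast; rw [Finset.mul_sum]; exact Finset.sum_congr rfl fun φ _ => by ring,
    ← mul_assoc, inv_mul_cancel₀ (Nat.cast_ne_zero.mpr Nat.card_pos.ne'), one_mul] at hσ
  have hpos : 0 < Module.finrank ℂ σ'.invariants := by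
    rw [← Nat.cast_injective hσ]
    refine Finset.sum_pos' (fun _ _ => Nat.zero_le _) ⟨ψ, Finset.mem_univ _, ?_⟩
    rw [hkψ, mul_one]
    exact Nat.pos_of_ne_zero fun h0 => hψ (by rw [h0, zero_mul]; exact dvd_zero p)
  haveI := Module.nontrivial_of_finrank_pos hpos
  obtain ⟨v, hv⟩ := exists_ne (0 : σ'.invariants)
  refine ⟨v, fun h0 => hv (Subtype.ext h0), fun u hu => ?_⟩
  rw [← Subgroup.map_subtype_commutator] at hu
  obtain ⟨u', hu', rfl⟩ := hu
  exact v.2 ⟨u', hu'⟩

/-- Let G be a finite group, p a prime and P a Sylow p-subgroup, and let N be the largest normal subgroup of G in which P has trivial centralizer (N is normal with C_N(P) = 1 and contains every normal subgroup with that property). Then the intersection of the kernels of the irreducible characters of G of degree prime to p is the normal core in G of the subgroup N·P' (P' the derived subgroup of P). In particular, when G has no nontrivial normal subgroup of order prime to p, that intersection is the normal core of P'. -/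
theorem result {G : Type*} [Group G] [Finite G] (p : ℕ) [Fact p.Prime] (P : Sylow p G) (N : Subgroup G) [N.Normal]
    (hN : N ⊓ Subgroup.centralizer ((P : Subgroup G) : Set G) = ⊥)
    (hmax : ∀ L : Subgroup G, L.Normal → L ⊓ Subgroup.centralizer ((P : Subgroup G) : Set G) = ⊥ → L ≤ N) :
    {g : G | ∀ χ : Cfsg.IrrCharacter G, ¬ p ∣ Cfsg.charDegree (χ : G → ℂ) → (χ : G → ℂ) g = (χ : G → ℂ) 1} =
      ((N ⊔ ⁅(P : Subgroup G), (P : Subgroup G)⁆).normalCore : Set G) := by
  classical
  haveI := Fintype.ofFinite G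
  let D := ⁅(P : Subgroup G), (P : Subgroup G)⁆
  let S : Set (Cfsg.IrrCharacter G) := {χ | ¬ p ∣ Cfsg.charDegree (χ : G → ℂ)}
  let K := kerSubgroup S
  haveI hKn : K.Normal := kerSubgroup_normal S
  suffices h : K = (N ⊔ D).normalCore by
    rw [← h]; rfl
  apply le_antisymm
  · -- every element of `P` in the kernel lies in the derived subgroup
    have hPK : ∀ x ∈ (P : Subgroup G), x ∈ K → x ∈ D := by
      intro x hx hxK
      by_contra hxD
      obtain ⟨l, hl⟩ := exists_hom_ne_one (x := (⟨x, hx⟩ : (P : Subgroup G))) (fun h => hxD (by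
        show x ∈ ⁅(P : Subgroup G), (P : Subgroup G)⁆
        rw [← Subgroup.map_subtype_commutator]
        exact ⟨_, h, rfl⟩))
      obtain ⟨χ, hχ, hne⟩ := exists_irr_not_dvd_apply_ne (P : Subgroup G) P.not_dvd_index l hx hl
      exact hne (hxK χ hχ)
    let H : Subgroup G := K ⊔ (P : Subgroup G)
    have hPH : (P : Subgroup G) ≤ H := le_sup_right
    let PH : Sylow p H := P.subtype hPH
    have hres : ∀ h ∈ Cfsg.pResidual p H, (h : G) ∈ K := by
      haveI : (K.subgroupOf H).Normal := Subgroup.normal_subgroupOf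
      have hq : IsPGroup p (H ⧸ K.subgroupOf H) := by
        intro q
        obtain ⟨h, rfl⟩ := QuotientGroup.mk'_surjective _ q
        obtain ⟨a, ha, b, hb, hab⟩ := Subgroup.mem_sup_of_normal_left.mp h.2
        obtain ⟨i, hi⟩ := P.isPGroup' ⟨b, hb⟩
        refine ⟨i, ?_⟩
        have : QuotientGroup.mk' (K.subgroupOf H) h = QuotientGroup.mk' (K.subgroupOf H) ⟨b, hPH hb⟩ := by
          refine (QuotientGroup.mk'_eq_mk' _).mpr ⟨(⟨b⁻¹ * a⁻¹ * b, Subgroup.mul_mem _ (Subgroup.mul_mem _
            (inv_mem (hPH hb)) (inv_mem (Subgroup.mem_sup_left ha))) (hPH hb)⟩ : H), ?_, ?_⟩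
          · exact (by simpa using hKn.conj_mem _ (inv_mem ha) b⁻¹ : b⁻¹ * a⁻¹ * b ∈ K)
          · apply Subtype.ext
            show (h : G) * (b⁻¹ * a⁻¹ * b) = b
            rw [← hab]; group
        rw [this, ← map_pow]
        refine (QuotientGroup.eq_one_iff _).mpr ?_
        rw [Subgroup.mem_subgroupOf, SubmonoidClass.coe_pow]
        have hi' : b ^ p ^ i = 1 := by simpa using congrArg Subtype.val hi
        show b ^ p ^ i ∈ K
        rw [hi']
        exact one_mem K
      exact fun h hh => CfsgLib.Transfer.pResidual_le_of_isPGroup hq hh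
    obtain ⟨Q, Nc, hNc, hcompl⟩ := CfsgLib.Transfer.hasNormalPComplement_of_inf_le_frattini PH (by
      rintro x ⟨hxP, hxR⟩
      have hxD : (x : G) ∈ D := hPK _ (by simpa [PH, Sylow.coe_subtype, Subgroup.mem_subgroupOf] using hxP) (hres x hxR)
      refine ⟨⟨x, hxP⟩, ?_, rfl⟩
      apply CfsgLib.PGroups.commutator_le_frattini PH.isPGroup'
      have hD' : D = (commutator (PH : Subgroup H)).map (H.subtype.comp (PH : Subgroup H).subtype) := by
        rw [_root_.commutator_def, ← Subgroup.map_map, Subgroup.map_commutator,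
          ← MonoidHom.range_eq_map, Subgroup.range_subtype, Subgroup.map_commutator,
          show ((PH : Subgroup H).map H.subtype) = (P : Subgroup G) by
            simp [PH, Sylow.coe_subtype, Subgroup.map_subgroupOf_eq_of_le hPH]]
      rw [hD'] at hxD
      obtain ⟨y, hy, hyx⟩ := hxD
      have : y = ⟨x, hxP⟩ := Subtype.ext (Subtype.ext hyx)
      exact this ▸ hy)
    have hcopL : (Cfsg.pResidual p H) ≤ Nc := CfsgLib.Transfer.pResidual_le_normalComplement Q hcompl
    have hndvd : ¬ p ∣ Nat.card (Cfsg.pResidual p H) := fun hd =>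
      CfsgLib.Transfer.not_dvd_card_normalComplement Q hcompl (hd.trans (Subgroup.card_dvd_of_le hcopL))
    let L : Subgroup G := (Cfsg.pResidual p H).map H.subtype
    have hLK : L ≤ K := by
      rintro _ ⟨y, hy, rfl⟩
      exact hres y hy
    have hLord : ∀ g ∈ L, ¬ p ∣ orderOf g := by
      rintro _ ⟨y, hy, rfl⟩ hd
      apply hndvd
      rw [show orderOf (H.subtype y) = orderOf (⟨y, hy⟩ : Cfsg.pResidual p H) by
        rw [← Subgroup.orderOf_coe]; exact orderOf_injective H.subtype H.subtype_injective y] at hd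
      exact hd.trans (orderOf_dvd_natCard _)
    haveI hLn : L.Normal := ⟨fun g hg c => by
      have hgK : c * g * c⁻¹ ∈ K := hKn.conj_mem g (hLK hg) c
      refine ⟨⟨_, Subgroup.mem_sup_left hgK⟩, CfsgLib.Transfer.mem_pResidual_of_coprime ?_, rfl⟩
      rw [← Subgroup.orderOf_coe, show orderOf (c * g * c⁻¹) = orderOf g from (MulAut.conj c).orderOf_eq g]
      exact ((Fact.out : p.Prime).coprime_iff_not_dvd.mpr (hLord g hg)).symm⟩
    have hLC : L ⊓ Subgroup.centralizer ((P : Subgroup G) : Set G) = ⊥ := by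
      rw [Subgroup.eq_bot_iff_forall]
      rintro c ⟨hcL, hcC⟩
      by_contra hc1
      have hcn : c ∈ Subgroup.centralizer ((P : Subgroup G) : Set G) := hcC
      let J : Subgroup G := (P : Subgroup G) ⊔ Subgroup.zpowers c
      have hidx : ¬ p ∣ J.index := fun h => P.not_dvd_index (h.trans (Subgroup.index_dvd_of_le le_sup_left))
      have hcJ : c ∈ J := Subgroup.mem_sup_right (Subgroup.mem_zpowers c)
      have hcom : (⟨c, hcJ⟩ : J) ∉ commutator J := by
        intro h
        have hJD : ⁅J, J⁆ ≤ (P : Subgroup G) := by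
          have hnorm : J ≤ Subgroup.normalizer ((P : Subgroup G) : Set G) := sup_le Subgroup.le_normalizer
            (Subgroup.zpowers_le.mpr (Subgroup.centralizer_le_normalizer _ hcn))
          haveI : ((P : Subgroup G).subgroupOf J).Normal :=
            (Subgroup.normal_subgroupOf_iff_le_normalizer le_sup_left).mpr hnorm
          have : commutator J ≤ (P : Subgroup G).subgroupOf J := by
            rw [← Subgroup.Normal.quotient_commutative_iff_commutator_le]
            have hsurj : Function.Surjective ((QuotientGroup.mk' ((P : Subgroup G).subgroupOf J)).comp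
                ((Subgroup.zpowers c).subgroupOf J).subtype) := fun q => by
              obtain ⟨j, rfl⟩ := QuotientGroup.mk'_surjective _ q
              have hj : j ∈ (P : Subgroup G).subgroupOf J ⊔ (Subgroup.zpowers c).subgroupOf J := by
                rw [← Subgroup.subgroupOf_sup le_sup_left le_sup_right, Subgroup.subgroupOf_self]; trivial
              obtain ⟨u, hu, w, hw, rfl⟩ := Subgroup.mem_sup_of_normal_left.mp hj
              refine ⟨⟨w, hw⟩, ?_⟩
              rw [map_mul, show QuotientGroup.mk' ((P : Subgroup G).subgroupOf J) u = 1 from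
                (QuotientGroup.eq_one_iff u).mpr hu, one_mul]
              rfl
            haveI : IsCyclic ((Subgroup.zpowers c).subgroupOf J) :=
              (Subgroup.subgroupOfEquivOfLe (le_sup_right : Subgroup.zpowers c ≤ J)).isCyclic.mpr inferInstance
            haveI := isCyclic_of_surjective _ hsurj
            infer_instance
          intro z hz
          rw [← Subgroup.map_subtype_commutator] at hz
          obtain ⟨w, hw, rfl⟩ := hz
          exact this hw
        have hcP : c ∈ (P : Subgroup G) := hJD (by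
          rw [← Subgroup.map_subtype_commutator]; exact ⟨_, h, rfl⟩)
        obtain ⟨i, hi⟩ := IsPGroup.iff_orderOf.mp P.isPGroup' ⟨c, hcP⟩
        rw [← Subgroup.orderOf_coe] at hi
        rcases Nat.eq_zero_or_pos i with rfl | hi0
        · exact hc1 (orderOf_eq_one_iff.mp (by simpa using hi))
        · exact hLord c hcL ((dvd_pow_self p hi0.ne').trans (dvd_of_eq hi.symm))
      obtain ⟨l, hl⟩ := exists_hom_ne_one hcom
      obtain ⟨χ, hχ, hne⟩ := exists_irr_not_dvd_apply_ne J hidx l hcJ hl
      exact hne (hLK hcL χ hχ)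
    have hLN : L ≤ N := hmax L hLn hLC
    rw [Subgroup.normal_le_normalCore]
    intro k hk
    obtain ⟨u, hu, r, hr, hur⟩ := CfsgLib.Transfer.exists_mul_eq PH ⟨k, Subgroup.mem_sup_left hk⟩
    have hrL : (r : G) ∈ L := ⟨r, hr, rfl⟩
    have huP : (u : G) ∈ (P : Subgroup G) := by simpa [PH, Sylow.coe_subtype, Subgroup.mem_subgroupOf] using hu
    have huK : (u : G) ∈ K := by
      have : (u : G) = k * (r : G)⁻¹ := eq_mul_inv_of_mul_eq (congrArg Subtype.val hur)
      rw [this]
      exact mul_mem hk (inv_mem (hLK hrL))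
    rw [show k = (u : G) * r from (congrArg Subtype.val hur).symm]
    exact mul_mem (Subgroup.mem_sup_right (hPK _ huP huK)) (Subgroup.mem_sup_left (hLN hrL))
  · intro g hg χ hχ
    obtain ⟨n, ρ, hρ, hc⟩ := χ.2
    have hn : ¬ p ∣ n := by
      intro h
      apply hχ
      rwa [charDegree_eq (n := n) (by rw [← hc, ρ.char_one, Module.finrank_fin_fun])]
    obtain ⟨v, hv, hfix⟩ := exists_linear_vector P ρ hn
    have hNfix : ∀ m ∈ N, ρ m = LinearMap.id := fun m hm => by
      rw [← character_eq_finrank_iff, hc, le_ker_of_inf_centralizer P N hN χ hχ hm, ← hc, ρ.char_one]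
    have hall : ∀ m ∈ N ⊔ D, ρ m v = v := by
      intro m hm
      obtain ⟨a, ha, b, hb, rfl⟩ := Subgroup.mem_sup_of_normal_left.mp hm
      rw [map_mul, Module.End.mul_apply, hfix b hb, hNfix a ha, LinearMap.id_apply]
    have hid := eq_id_of_fixed_vector ρ (N ⊔ D).normalCore hv
      (fun m hm => hall m (Subgroup.normalCore_le _ hm)) hg
    rw [← hc, ρ.char_one, (character_eq_finrank_iff ρ g).mpr hid]

end Cfsg.Agent.S4591
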