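import Cfsg.Statements.S4602
import Cfsg.Agent.Lib.PSolvable.HallHigman
import Cfsg.Agent.Lib.CoprimeAction.Sylow
import Cfsg.Agent.Lib.Cores.PCore
-- import your own Cfsg.Agent.* helpers here

set_option autoImplicit false
open Cfsg

namespace Cfsg.Agent.S4602

theorem le_core_of_normalizes {G : Type*} [Group G] [Finite G] {p q : ℕ} [Fact p.Prime] [Fact q.Prime]
    (hpq : p ≠ q) (hsolv : Cfsg.IsPSolvable p G) (P : Sylow p G) (Q : Sylow q G)
    (h : (P : Subgroup G) ≤ Subgroup.normalizer ((Q : Subgroup G) : Set G)) :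
    (Q : Subgroup G) ≤ Cfsg.pPrimeCore p G := by
  have hmk : Function.Surjective (QuotientGroup.mk' (Cfsg.pPrimeCore p G)) :=
    QuotientGroup.mk'_surjective _
  let f := QuotientGroup.mk' (Cfsg.pPrimeCore p G)
  let P' : Sylow p (G ⧸ Cfsg.pPrimeCore p G) := P.mapSurjective hmk
  let Q' : Sylow q (G ⧸ Cfsg.pPrimeCore p G) := Q.mapSurjective hmk
  have hR : Cfsg.pCore p (G ⧸ Cfsg.pPrimeCore p G) ≤ (P : Subgroup G).map f :=
    CfsgLib.Cores.pCore_le_sylow P'
  have hQc : (Q : Subgroup G).map f ≤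
      Subgroup.centralizer (Cfsg.pCore p (G ⧸ Cfsg.pPrimeCore p G) : Set (G ⧸ Cfsg.pPrimeCore p G)) := by
    intro y hy
    rw [Subgroup.mem_centralizer_iff]
    intro x hx
    obtain ⟨a, ha, rfl⟩ := hR hx
    obtain ⟨b, hb, rfl⟩ := hy
    have hd : Disjoint (Cfsg.pCore p (G ⧸ Cfsg.pPrimeCore p G)) ((Q : Subgroup G).map f) :=
      IsPGroup.disjoint_of_ne p q hpq _ _ (CfsgLib.Cores.isPGroup_pCore p _) Q'.isPGroup'
    have hc1 : f a * f b * (f a)⁻¹ * (f b)⁻¹ ∈ Cfsg.pCore p (G ⧸ Cfsg.pPrimeCore p G) := by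
      have hn : (Cfsg.pCore p (G ⧸ Cfsg.pPrimeCore p G)).Normal := inferInstance
      have := hn.conj_mem (f a)⁻¹ (inv_mem hx) (f b)
      simpa [mul_assoc] using mul_mem hx this
    have hc2 : f a * f b * (f a)⁻¹ * (f b)⁻¹ ∈ (Q : Subgroup G).map f := by
      refine mul_mem ⟨a * b * a⁻¹, (Subgroup.mem_normalizer_iff.mp (h ha) b).mp hb, by simp⟩ ?_
      exact inv_mem ⟨b, hb, rfl⟩
    have h1 := Subgroup.disjoint_def.mp hd hc1 hc2
    rw [mul_inv_eq_one, mul_inv_eq_iff_eq_mul] at h1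
    exact h1
  have hle := hQc.trans (CfsgLib.PSolvable.centralizer_pCore_le
    (CfsgLib.PSolvable.isPSolvable_quotient hsolv _) (CfsgLib.Cores.pPrimeCore_quotient_pPrimeCore p))
  have hbot : (Q : Subgroup G).map f = ⊥ := by
    have hd := IsPGroup.disjoint_of_ne p q hpq _ ((Q : Subgroup G).map f)
      (CfsgLib.Cores.isPGroup_pCore p (G ⧸ Cfsg.pPrimeCore p G)) Q'.isPGroup'
    exact le_bot_iff.mp (hd hle le_rfl)
  rw [Subgroup.map_eq_bot_iff, QuotientGroup.ker_mk'] at hbot
  exact hbot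

/-- Let G be a finite p-solvable group and q a prime different from p. Some Sylow p-subgroup of G normalizes some Sylow q-subgroup of G if and only if q does not divide the order of G/O_{p'}(G), the quotient by the largest normal subgroup of order prime to p. -/
theorem result {G : Type*} [Group G] [Finite G] (p q : ℕ) [Fact p.Prime] [Fact q.Prime] (hpq : p ≠ q) (hsolv : Cfsg.IsPSolvable p G) :
    (∃ (P : Sylow p G) (Q : Sylow q G), (P : Subgroup G) ≤ Subgroup.normalizer ((Q : Subgroup G) : Set G)) ↔ ¬ q ∣ (Cfsg.pPrimeCore p G).index := by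
  constructor
  · rintro ⟨P, Q, h⟩ hdvd
    exact Q.not_dvd_index
      (hdvd.trans (Subgroup.index_dvd_of_le (le_core_of_normalizes hpq hsolv P Q h)))
  · intro hidx
    obtain ⟨P⟩ := (inferInstance : Nonempty (Sylow p G))
    have hPK : (P : Subgroup G) ≤ Subgroup.normalizer (Cfsg.pPrimeCore p G : Set G) := by
      rw [Subgroup.normalizer_eq_top]
      exact le_top
    have hcop : (Nat.card (P : Subgroup G)).Coprime (Nat.card (Cfsg.pPrimeCore p G)) := by
      rw [P.card_eq_multiplicity]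
      exact ((CfsgLib.Cores.card_pPrimeCore_coprime (G := G) p).symm).pow_left _
    haveI : Group.IsNilpotent (P : Subgroup G) := P.isPGroup'.isNilpotent
    obtain ⟨Q0, hQ0⟩ := CfsgLib.CoprimeAction.exists_invariant_sylow hPK hcop
      (Or.inl inferInstance) q
    have hpg : IsPGroup q ((Q0 : Subgroup (Cfsg.pPrimeCore p G)).map (Cfsg.pPrimeCore p G).subtype) :=
      Q0.isPGroup'.map _
    refine ⟨P, hpg.toSylow ?_, ?_⟩
    · rw [Subgroup.index_map_subtype]
      exact fun hd => ((Nat.Prime.dvd_mul Fact.out).mp hd).elim Q0.not_dvd_index hidx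
    · simpa using hQ0

end Cfsg.Agent.S4602
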