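import Cfsg.Statements.S4604
import Cfsg.Agent.Lib.ZerosCodegree.CharPowers
-- import your own Cfsg.Agent.* helpers here

set_option autoImplicit false
open Cfsg

namespace Cfsg.Agent.S4604

open CfsgLib.CharTheory CfsgLib.ZerosCodegree

theorem eq_one_of_mul {G : Type*} [Group G] {p : ℕ} [Fact p.Prime] {u w : G} {k : ℕ}
    (hc : Commute u w) (hw : orderOf w = p ^ k) (hu : ¬ p ∣ orderOf u)
    (huw : ¬ p ∣ orderOf (u * w)) : w = 1 := by
  have hcop : (orderOf u).Coprime (orderOf w) := by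
    rw [hw]
    exact (((Fact.out : p.Prime).coprime_iff_not_dvd.2 hu).symm).pow_right k
  rcases Nat.eq_zero_or_pos k with rfl | hk
  · exact orderOf_eq_one_iff.mp (by simpa using hw)
  · exact absurd (hc.orderOf_mul_eq_mul_orderOf_of_coprime hcop ▸
      ((dvd_pow_self p hk.ne').trans (dvd_of_eq hw.symm)).mul_left _) huw

theorem isConj_of_congr {G : Type*} [Group G] [Finite G] {p : ℕ} [Fact p.Prime] {u v : G}
    (hu : ¬ p ∣ orderOf u) (hv : ¬ p ∣ orderOf v)
    (h : ∀ χ : Cfsg.IrrCharacter G, ∃ γ : Cfsg.AlgInt,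
      (χ : G → ℂ) u - (χ : G → ℂ) v = (p : ℂ) * (γ : ℂ)) : IsConj u v := by
  classical
  by_contra hne
  haveI := Fintype.ofFinite G
  haveI := Fintype.ofFinite (Cfsg.IrrCharacter G)
  have hall : ∀ Ψ : G → ℂ, Cfsg.IsCharacter G Ψ → ∃ γ : ℂ, IsIntegral ℤ γ ∧ Ψ u - Ψ v = (p : ℂ) * γ := by
    intro Ψ hΨ
    obtain ⟨m, rfl⟩ := IsCharacter.exists_sum hΨ
    choose γ hγ using h
    refine ⟨∑ χ, (m χ : ℂ) * (γ χ : ℂ), IsIntegral.sum _ fun χ _ => (isIntegral_natCast _).mul (γ χ).2, ?_⟩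
    simp only [Finset.sum_apply, Pi.smul_apply, smul_eq_mul, Finset.mul_sum, ← Finset.sum_sub_distrib,
      ← mul_sub, hγ]
    exact Finset.sum_congr rfl fun χ _ => by ring
  let C := Subgroup.centralizer ({u} : Set G)
  obtain ⟨Q⟩ := (inferInstance : Nonempty (Sylow p C))
  let R : Subgroup G := (Q : Subgroup C).map C.subtype
  have hRc : ∀ w ∈ R, Commute u w := by
    rintro _ ⟨c, -, rfl⟩
    exact (Subgroup.mem_centralizer_singleton_iff.mp c.2).symm
  have hRp : IsPGroup p R := Q.isPGroup'.map _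
  let E : Subgroup G := Subgroup.zpowers u ⊔ R
  let RE : Subgroup E := R.subgroupOf E
  have hnorm : E ≤ Subgroup.normalizer (R : Set G) := by
    refine sup_le (Subgroup.zpowers_le.mpr ?_) Subgroup.le_normalizer
    refine Subgroup.mem_normalizer_fintype fun w hw => ?_
    rw [(hRc w hw).eq, mul_inv_cancel_right]
    exact hw
  haveI : RE.Normal := (Subgroup.normal_subgroupOf_iff_le_normalizer le_sup_right).mpr hnorm
  have huE : u ∈ E := Subgroup.mem_sup_left (Subgroup.mem_zpowers u)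
  let uE : E := ⟨u, huE⟩
  haveI := Fintype.ofFinite E
  haveI := Fintype.ofFinite (E ⧸ RE)
  haveI := Fintype.ofFinite (Cfsg.IrrCharacter (E ⧸ RE))
  have hcommA : ∀ a b : E ⧸ RE, a * b = b * a := by
    have hgen : ∀ a : E ⧸ RE, a ∈ Subgroup.zpowers (QuotientGroup.mk' RE uE) := by
      intro a
      obtain ⟨e, rfl⟩ := QuotientGroup.mk'_surjective _ a
      have hj : e ∈ (Subgroup.zpowers u).subgroupOf E ⊔ RE := by
        rw [← Subgroup.subgroupOf_sup le_sup_left le_sup_right, Subgroup.subgroupOf_self]; trivial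
      obtain ⟨s, hs, w, hw, rfl⟩ := Subgroup.mem_sup_of_normal_right.mp hj
      obtain ⟨i, hi⟩ := Subgroup.mem_zpowers_iff.mp (Subgroup.mem_subgroupOf.mp hs)
      refine Subgroup.mem_zpowers_iff.mpr ⟨i, ?_⟩
      rw [map_mul, show QuotientGroup.mk' RE w = 1 from (QuotientGroup.eq_one_iff w).mpr hw, mul_one,
        ← map_zpow]
      exact congrArg _ (Subtype.ext (by simpa [uE] using hi))
    intro a b
    obtain ⟨i, rfl⟩ := Subgroup.mem_zpowers_iff.mp (hgen a)
    obtain ⟨j, rfl⟩ := Subgroup.mem_zpowers_iff.mp (hgen b)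
    exact ((Commute.refl _).zpow_left i).zpow_right j
  let δ : E ⧸ RE → ℂ := fun a => if a = QuotientGroup.mk' RE uE then (Nat.card (E ⧸ RE) : ℂ) else 0
  have hδ : δ = ∑ χ : Cfsg.IrrCharacter (E ⧸ RE),
      starRingEnd ℂ ((χ : E ⧸ RE → ℂ) (QuotientGroup.mk' RE uE)) • (χ : E ⧸ RE → ℂ) := by
    have hcl : Cfsg.IsClassFunction (E ⧸ RE) δ := fun a b => by rw [hcommA b a, mul_inv_cancel_right]
    conv_lhs => rw [eq_sum_classInner hcl]
    refine Finset.sum_congr rfl fun χ _ => ?_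
    congr 1
    rw [Cfsg.classInner, Finset.sum_eq_single (QuotientGroup.mk' RE uE)]
    · simp only [δ, if_pos, ← mul_assoc]
      rw [inv_mul_cancel₀ (Nat.cast_ne_zero.2 Nat.card_pos.ne'), one_mul]
    · intro a _ ha
      simp only [δ, if_neg ha, zero_mul]
    · simp
  let θ : E → ℂ := fun e => δ (QuotientGroup.mk' RE e)
  have hθ : θ = ∑ χ : Cfsg.IrrCharacter (E ⧸ RE),
      starRingEnd ℂ ((χ : E ⧸ RE → ℂ) (QuotientGroup.mk' RE uE)) •
        (fun e => (χ : E ⧸ RE → ℂ) (QuotientGroup.mk' RE e)) := by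
    funext e
    show δ _ = _
    rw [hδ, Finset.sum_apply, Finset.sum_apply]
    rfl
  let f := Cfsg.indFun E θ
  have hfint : ∃ γ : ℂ, IsIntegral ℤ γ ∧ f u - f v = (p : ℂ) * γ := by
    have hall' := fun χ : Cfsg.IrrCharacter (E ⧸ RE) => hall _ (CfsgLib.Frobenius.isCharacter_indFun E
      (fun e => (χ : E ⧸ RE → ℂ) (QuotientGroup.mk' RE e))
      (CfsgLib.Coherence.isCharacter_comp (IsIrrCharacter.isCharacter χ.2) (QuotientGroup.mk' RE)))
    choose γ hγi hγ using hall'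
    refine ⟨∑ χ : Cfsg.IrrCharacter (E ⧸ RE), starRingEnd ℂ ((χ : E ⧸ RE → ℂ) (QuotientGroup.mk' RE uE)) * γ χ,
      IsIntegral.sum _ fun χ _ => IsIntegral.mul (by
        rw [← IsIrrCharacter.inv χ.2]
        exact IsCharacter.isIntegral (IsIrrCharacter.isCharacter χ.2) _) (hγi χ), ?_⟩
    show Cfsg.indFun E θ u - Cfsg.indFun E θ v = _
    rw [hθ, CfsgLib.Frobenius.indFun_sum]
    simp only [CfsgLib.Frobenius.indFun_smul, Finset.sum_apply, Pi.smul_apply, smul_eq_mul,
      ← Finset.sum_sub_distrib, ← mul_sub, hγ, Finset.mul_sum]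
    exact Finset.sum_congr rfl fun χ _ => by ring
  have hkey : ∀ (y x : G), ¬ p ∣ orderOf y →
      (Cfsg.extendByZero E θ (x⁻¹ * y * x) ≠ 0 → x⁻¹ * y * x = u) := by
    intro y x hy hne0
    by_cases hm : x⁻¹ * y * x ∈ E
    · rw [CfsgLib.Frobenius.extendByZero_of_mem E θ hm] at hne0
      by_cases ha : QuotientGroup.mk' RE ⟨x⁻¹ * y * x, hm⟩ = QuotientGroup.mk' RE uE
      · obtain ⟨w, hw, hwe⟩ := (QuotientGroup.mk'_eq_mk' _).mp ha.symm
        have hwe' : u * (w : G) = x⁻¹ * y * x := congrArg Subtype.val hwe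
        obtain ⟨k, hk⟩ := IsPGroup.iff_orderOf.mp hRp ⟨w, hw⟩
        rw [← Subgroup.orderOf_coe] at hk
        have := eq_one_of_mul (hRc w hw) hk hu (by
          rw [hwe', show orderOf (x⁻¹ * y * x) = orderOf y by
            simpa using (MulAut.conj x⁻¹).orderOf_eq y]
          exact hy)
        rw [← hwe', this, mul_one]
      · exact absurd (show θ ⟨x⁻¹ * y * x, hm⟩ = 0 from if_neg ha) hne0
    · exact absurd (CfsgLib.Frobenius.extendByZero_of_not_mem E θ hm) hne0
  have hfv : f v = 0 := by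
    show (Nat.card E : ℂ)⁻¹ * _ = 0
    rw [Finset.sum_eq_zero, mul_zero]
    intro x _
    by_contra h0
    exact hne (isConj_iff.mpr ⟨x, by
      rw [← hkey v x hv h0]
      group⟩)
  have hcast : (Nat.card E : ℂ) = (Nat.card (E ⧸ RE) : ℂ) * (Nat.card R : ℂ) := by
    rw [← Nat.cast_mul, Subgroup.card_eq_card_quotient_mul_card_subgroup RE,
      Nat.card_congr (Subgroup.subgroupOfEquivOfLe (le_sup_right : R ≤ E)).toEquiv]
  have hfu : f u = ((Q : Subgroup C).index : ℂ) := by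
    show (Nat.card E : ℂ)⁻¹ * ∑ x : G, Cfsg.extendByZero E θ (x⁻¹ * u * x) = _
    rw [← Finset.sum_subset (Finset.subset_univ (Finset.univ.filter (fun x : G => x ∈ C)))
      (fun x _ hx => by
        by_contra h0
        apply hx
        rw [Finset.mem_filter]
        refine ⟨Finset.mem_univ _, Subgroup.mem_centralizer_singleton_iff.mpr ?_⟩
        have h1 := congrArg (fun z => x * z) (hkey u x hu h0)
        simpa [mul_assoc] using h1.symm),
      Finset.sum_congr rfl (g := fun _ => (Nat.card (E ⧸ RE) : ℂ)) (fun x hx => by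
        have hxc : x⁻¹ * u * x = u := by
          rw [mul_assoc, ← Subgroup.mem_centralizer_singleton_iff.mp (Finset.mem_filter.mp hx).2,
            inv_mul_cancel_left]
        rw [hxc, CfsgLib.Frobenius.extendByZero_of_mem E θ huE]
        exact if_pos rfl),
      Finset.sum_const, nsmul_eq_mul, hcast]
    have hcardC : ((Finset.univ.filter (fun x : G => x ∈ C)).card : ℂ) =
        (Nat.card R : ℂ) * ((Q : Subgroup C).index : ℂ) := by
      rw [← Nat.cast_mul]
      congr 1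
      rw [show Nat.card R = Nat.card (Q : Subgroup C) from
        Subgroup.card_map_of_injective C.subtype_injective, Subgroup.card_mul_index,
        Nat.card_eq_fintype_card, Fintype.card_subtype]
    rw [hcardC]
    have h1 : (Nat.card (E ⧸ RE) : ℂ) ≠ 0 := Nat.cast_ne_zero.2 Nat.card_pos.ne'
    have h2 : (Nat.card R : ℂ) ≠ 0 := Nat.cast_ne_zero.2 Nat.card_pos.ne'
    field_simp
  obtain ⟨γ, hγi, hγ⟩ := hfint
  rw [hfu, hfv, sub_zero] at hγ
  refine Q.not_dvd_index (CfsgLib.CharTheory.dvd_of_isIntegral_natCast_div (Fact.out : p.Prime).ne_zero ?_)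
  rw [hγ, mul_div_cancel_left₀ _ (Nat.cast_ne_zero.2 (Fact.out : p.Prime).ne_zero)]
  exact hγi

/-- Let G be a finite group, p a prime and p^a the p-part of the order of G. Let x, y ∈ G and let x′, y′ be their p-regular parts: x′ has order prime to p, commutes with x·x′⁻¹, and x·x′⁻¹ has p-power order (likewise for y). Then x′ and y′ are conjugate in G if and only if for every irreducible character χ of G the algebraic integer χ(x)^(p^a) − χ(y)^(p^a) is p times an algebraic integer. -/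
theorem result {G : Type*} [Group G] [Finite G] (p : ℕ) [Fact p.Prime] (x y x' y' : G)
    (hx : (∃ k : ℕ, orderOf (x * x'⁻¹) = p ^ k) ∧ Commute (x * x'⁻¹) x' ∧ ¬ p ∣ orderOf x')
    (hy : (∃ k : ℕ, orderOf (y * y'⁻¹) = p ^ k) ∧ Commute (y * y'⁻¹) y' ∧ ¬ p ∣ orderOf y') :
    IsConj x' y' ↔ ∀ χ : Cfsg.IrrCharacter G, ∃ γ : Cfsg.AlgInt,
      (χ : G → ℂ) x ^ (p ^ (Nat.card G).factorization p) - (χ : G → ℂ) y ^ (p ^ (Nat.card G).factorization p) = (p : ℂ) * (γ : ℂ) := by
  have hp : p.Prime := Fact.out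
  set a := (Nat.card G).factorization p with ha
  set q := p ^ a with hq
  have key : ∀ {z z' : G}, (∃ k : ℕ, orderOf (z * z'⁻¹) = p ^ k) → Commute (z * z'⁻¹) z' → z ^ q = z' ^ q := by
    rintro z z' ⟨k, hk⟩ hc
    have hka : k ≤ a := (hp.pow_dvd_iff_le_factorization Nat.card_pos.ne').mp
      (hk ▸ orderOf_dvd_natCard _)
    conv_lhs => rw [show z = (z * z'⁻¹) * z' by rw [inv_mul_cancel_right]]
    rw [hc.mul_pow, orderOf_dvd_iff_pow_eq_one.mp (hk ▸ pow_dvd_pow p hka), one_mul]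
  have hxq := key hx.1 hx.2.1
  have hyq := key hy.1 hy.2.1
  have hred : ∀ (χ : Cfsg.IrrCharacter G) (z : G),
      ∃ γ : Cfsg.AlgInt, (χ : G → ℂ) z ^ q = (χ : G → ℂ) (z ^ q) + (p : ℂ) * (γ : ℂ) :=
    fun χ z => exists_apply_pow_eq (IsIrrCharacter.isCharacter χ.2) hp a z
  constructor
  · intro hc χ
    obtain ⟨c, hcc⟩ := isConj_iff.mp hc
    obtain ⟨γ1, h1⟩ := hred χ x
    obtain ⟨γ2, h2⟩ := hred χ y
    refine ⟨γ1 - γ2, ?_⟩
    rw [h1, h2, hxq, hyq, ← hcc, conj_pow, IsIrrCharacter.isClassFunction χ.2 (x' ^ q) c, AddSubgroupClass.coe_sub]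
    ring
  · intro h
    have hregq : ∀ {z : G}, ¬ p ∣ orderOf z → ¬ p ∣ orderOf (z ^ q) := fun hz hd =>
      hz (hd.trans (orderOf_pow_dvd _))
    have hconj : IsConj (x' ^ q) (y' ^ q) := by
      refine isConj_of_congr (hregq hx.2.2) (hregq hy.2.2) fun χ => ?_
      obtain ⟨γ1, h1⟩ := hred χ x
      obtain ⟨γ2, h2⟩ := hred χ y
      obtain ⟨γ, hγ⟩ := h χ
      refine ⟨γ - γ1 + γ2, ?_⟩
      rw [AddMemClass.coe_add, AddSubgroupClass.coe_sub, ← hxq, ← hyq]
      linear_combination hγ - h1 + h2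
    obtain ⟨c, hc⟩ := isConj_iff.mp hconj
    have hord : ∀ {z : G}, ¬ p ∣ orderOf z → orderOf z ∣ Nat.card G / q := fun hz =>
      ((((Fact.out : p.Prime).coprime_iff_not_dvd.2 hz).symm).pow_right a).dvd_of_dvd_mul_left
        (by rw [hq, Nat.ordProj_mul_ordCompl_eq_self]; exact orderOf_dvd_natCard _)
    have hcop : q.Coprime (Nat.card G / q) :=
      (Nat.coprime_ordCompl hp Nat.card_pos.ne').pow_left a
    obtain ⟨s, hs⟩ : ∃ s, q * s ≡ 1 [MOD Nat.card G / q] := by
      refine ⟨q ^ (Nat.totient (Nat.card G / q) - 1), ?_⟩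
      rw [← pow_succ', Nat.sub_add_cancel (Nat.totient_pos.mpr
        (Nat.pos_of_dvd_of_pos (Nat.ordCompl_dvd _ _) Nat.card_pos))]
      exact Nat.ModEq.pow_totient hcop
    have hback : ∀ {z : G}, ¬ p ∣ orderOf z → (z ^ q) ^ s = z := fun {z} hz => by
      rw [← pow_mul]
      conv_rhs => rw [← pow_one z]
      exact pow_eq_pow_iff_modEq.mpr (hs.of_dvd (hord hz))
    refine isConj_iff.mpr ⟨c, ?_⟩
    rw [← hback hx.2.2, ← conj_pow, hc, hback hy.2.2]

end Cfsg.Agent.S4604
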