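import Cfsg.Statements.S4606
import Cfsg.Agent.Lib.Blocks.OneSubsectionPSolvable
import Cfsg.Agent.S4646
import Cfsg.Agent.S4691

set_option autoImplicit false
open Cfsg

namespace Cfsg.Agent.S4606

/-- Let G be a finite group, p a prime, M a maximal ideal of the algebraic integers containing p, and B a p-block of G with defect group D. Suppose the number of irreducible characters in B exceeds the p-regular rank of B (the number of irreducible Brauer characters in B) by exactly one. If B is the principal block, or if G is p-solvable, then D is elementary abelian. -/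
theorem result {G : Type*} [Group G] [Finite G] (p : ℕ) [Fact p.Prime] (M : Ideal Cfsg.AlgInt) (hM : Cfsg.IsPModular p M) (B : Set (Cfsg.IrrCharacter G)) (hB : Cfsg.IsPBlock M B) (D : Subgroup G) (hD : Cfsg.IsDefectGroup p M B D)
    (hk : Nat.card B = Cfsg.blockRank p B + 1) (hB0 : B = Cfsg.principalBlock M G ∨ Cfsg.IsPSolvable p G) :
    Cfsg.IsElementaryAbelian p D := by
  classical
  haveI : M.IsPrime := hM.2.1.isPrime
  rcases hB0 with h0 | hs
  · refine CfsgLib.Blocks.OneSubsection.isElementaryAbelian_of_principal hM hB (fun x hx => ?_) h0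
      hk.le (CfsgLib.Blocks.isPGroup_of_isDefectGroup hD)
    haveI := Fintype.ofFinite ↥(Subgroup.centralizer ({x} : Set G))
    exact (Cfsg.Agent.S4691.result p M hM).2 ((Cfsg.Agent.S4646.result p M hM).2 hx)
  · exact CfsgLib.Blocks.OneSubsection.isElementaryAbelian_of_pSolvable hs hM hB hk.le hD

end Cfsg.Agent.S4606
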