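import Cfsg.Statements.S4611
import Cfsg.Agent.Lib.Correspondences.PrincipalSolvable
import Cfsg.Agent.Lib.Correspondences.PrincipalBlock
import Cfsg.Agent.Lib.CharTheory.Inflation
import Cfsg.Agent.Lib.CharTheory.Orthogonality
-- import your own Cfsg.Agent.* helpers here

set_option autoImplicit false
open Cfsg

namespace Cfsg.Agent.S4611

/-- Let G be a finite solvable group and π a nonempty set of primes, each dividing the order of G; fix for each p in π a maximal ideal M p of the algebraic integers containing p. Then the only irreducible character lying in the principal p-block for every p in π is the principal character if and only if G is generated by the subgroups O_{p'}(G), p in π (the largest normal subgroups of order prime to p). -/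
theorem result {G : Type*} [Group G] [Finite G] [Group.IsSolvable G] (π : Set ℕ) (hπ : ∀ p ∈ π, p.Prime ∧ p ∣ Nat.card G) (hne : π.Nonempty) (M : ℕ → Ideal Cfsg.AlgInt) (hM : ∀ p ∈ π, Cfsg.IsPModular p (M p)) :
    (∀ χ : Cfsg.IrrCharacter G, (∀ p ∈ π, χ ∈ Cfsg.principalBlock (M p) G) → (χ : G → ℂ) = fun _ => 1) ↔
      ⨆ p ∈ π, Cfsg.pPrimeCore p G = ⊤ := by
  classical
  set N : Subgroup G := ⨆ p ∈ π, Cfsg.pPrimeCore p G with hNdef
  haveI : N.Normal := ⟨fun n hn g => by
    have : N.map (MulAut.conj g).toMonoidHom = N := by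
      simp only [hNdef, Subgroup.map_iSup]
      refine iSup_congr fun p => iSup_congr fun _ => ?_
      exact Subgroup.Normal.map_conj_eq (H := Cfsg.pPrimeCore p G) g
    rw [← this]
    exact ⟨n, hn, rfl⟩⟩
  haveI := Fintype.ofFinite G
  constructor
  · intro h
    by_contra hN
    have hnt : 1 < Nat.card (G ⧸ N) := by
      rw [← Subgroup.index_eq_card]
      exact Subgroup.one_lt_index_of_ne_top hN
    haveI := Finite.one_lt_card_iff_nontrivial.1 hnt
    obtain ⟨a, ha⟩ := exists_ne (1 : G ⧸ N)
    obtain ⟨ψ, hψ⟩ : ∃ ψ : Cfsg.IrrCharacter (G ⧸ N),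
        ψ ≠ CfsgLib.CharTheory.trivIrr (G ⧸ N) := by
      haveI : Nontrivial (Cfsg.IrrCharacter (G ⧸ N)) := by
        rw [← Finite.one_lt_card_iff_nontrivial, CfsgLib.CharTheory.card_irrCharacter,
          Finite.one_lt_card_iff_nontrivial]
        exact ⟨ConjClasses.mk a, 1, fun h => ha (isConj_one_right.1
          (ConjClasses.mk_eq_mk_iff_isConj.1 h.symm))⟩
      exact exists_ne _
    have h1 := h ⟨_, CfsgLib.CharTheory.isIrrCharacter_comp ψ.2 (QuotientGroup.mk'_surjective N)⟩
      fun p hp => by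
        haveI : Fact p.Prime := ⟨(hπ p hp).1⟩
        haveI : (M p).IsPrime := CfsgLib.Blocks.isPrime_of_isPModular (hM p hp)
        refine CfsgLib.Correspondences.mem_principalBlock_of_trivial_on_pPrimeCore (hM p hp)
          CfsgLib.PSolvable.isPSolvable_of_isSolvable fun x hx => ?_
        have hxN : x ∈ N := le_iSup₂ (f := fun q (_ : q ∈ π) => Cfsg.pPrimeCore q G) p hp hx
        show (ψ : G ⧸ N → ℂ) (x : G ⧸ N) = (ψ : G ⧸ N → ℂ) ((1 : G) : G ⧸ N)
        rw [(QuotientGroup.eq_one_iff x).2 hxN]
        rfl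
    refine hψ (Subtype.ext (funext fun q => ?_))
    obtain ⟨g, rfl⟩ := QuotientGroup.mk'_surjective N q
    exact congrFun h1 g
  · intro hN χ hχ
    obtain ⟨K, -, hK, -⟩ := CfsgLib.CharTheory.exists_kernel
      (CfsgLib.CharTheory.IsIrrCharacter.isCharacter χ.2)
    have hle : N ≤ K := iSup₂_le fun p hp x hx => by
      haveI : Fact p.Prime := ⟨(hπ p hp).1⟩
      haveI : (M p).IsPrime := CfsgLib.Blocks.isPrime_of_isPModular (hM p hp)
      exact (hK x).2 (CfsgLib.Correspondences.apply_eq_of_mem_principalBlock (hM p hp) (hχ p hp)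
        (Cfsg.pPrimeCore p G) CfsgLib.Cores.not_dvd_card_pPrimeCore hx)
    have hall : ∀ g, (χ : G → ℂ) g = (χ : G → ℂ) 1 := fun g =>
      (hK g).1 (hle (hN.ge (Subgroup.mem_top g)))
    by_contra hne
    have h0 := CfsgLib.CharTheory.classInner_eq_zero_of_ne χ.2
      CfsgLib.CharTheory.isIrrCharacter_one hne
    simp only [Cfsg.classInner, hall, map_one, mul_one, Finset.sum_const, Finset.card_univ,
      nsmul_eq_mul, ← Nat.card_eq_fintype_card] at h0
    rw [← mul_assoc, inv_mul_cancel₀ (Nat.cast_ne_zero.2 Nat.card_pos.ne'), one_mul] at h0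
    exact CfsgLib.CharTheory.apply_one_ne_zero_of_isIrr χ.2 h0

end Cfsg.Agent.S4611
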