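import Cfsg.Statements.S4619


set_option autoImplicit false
open scoped Pointwise
open Cfsg

namespace Cfsg.Agent.S4619

/-- Let P be a Sylow p-subgroup of the finite group G that is a trivial-intersection set: P meets each conjugate g P g⁻¹ with g outside N_G(P) trivially. Then for every nontrivial subgroup Q of P the normalizer of Q lies in the normalizer of P, and any g ∈ G conjugating Q into P lies in N_G(P). -/
theorem result {G : Type*} [Group G] [Finite G] (p : ℕ) [Fact p.Prime] (P : Sylow p G) (hTI : (∀ g : G, g ∉ Subgroup.normalizer ((P : Subgroup G) : Set G) → (P : Subgroup G) ⊓ (MulAut.conj g • (P : Subgroup G)) = ⊥)) (Q : Subgroup G) (hQ : Q ≤ (P : Subgroup G)) (hQ1 : Q ≠ ⊥) :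
    Subgroup.normalizer (Q : Set G) ≤ Subgroup.normalizer ((P : Subgroup G) : Set G) ∧
      ∀ g : G, MulAut.conj g • Q ≤ (P : Subgroup G) → g ∈ Subgroup.normalizer ((P : Subgroup G) : Set G) := by
  have key : ∀ (R : Subgroup G), R ≠ ⊥ → R ≤ (P : Subgroup G) → ∀ g : G,
      R ≤ MulAut.conj g • (P : Subgroup G) →
        g ∈ Subgroup.normalizer ((P : Subgroup G) : Set G) := by
    intro R hR1 hR g hg
    by_contra hn
    exact hR1 (le_bot_iff.1 ((le_inf hR hg).trans (hTI g hn).le))
  refine ⟨fun x hx => key Q hQ1 hQ x ?_, fun g hg => key _ ?_ hg g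
    (Subgroup.pointwise_smul_le_pointwise_smul_iff.2 hQ)⟩
  · intro u hu
    rw [Subgroup.mem_pointwise_smul_iff_inv_smul_mem]
    have := (Subgroup.mem_normalizer_iff''.1 hx u).1 hu
    exact hQ (by simpa using this)
  · intro h
    apply hQ1
    rw [eq_bot_iff]
    intro u hu
    have : MulAut.conj g • u ∈ MulAut.conj g • Q := Subgroup.smul_mem_pointwise_smul u _ Q hu
    rw [h, Subgroup.mem_bot] at this
    rw [Subgroup.mem_bot]
    simpa using this

end Cfsg.Agent.S4619
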