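import Cfsg.Statements.S4620
import Cfsg.Agent.Lib.Cores.PCore
import Cfsg.Agent.Lib.Cores.MinimalNormal
-- import your own Cfsg.Agent.* helpers here

set_option autoImplicit false
open scoped Pointwise
open Cfsg

namespace Cfsg.Agent.S4620

theorem sylow_ti {H : Type*} [Group H] [Finite H] {p : ℕ} [Fact p.Prime] (P : Sylow p H)
    (hTI : ∀ g : H, g ∉ Subgroup.normalizer ((P : Subgroup H) : Set H) →
      (P : Subgroup H) ⊓ (MulAut.conj g • (P : Subgroup H)) = ⊥)
    (S : Sylow p H) {g x : H} (hx : x ∈ (S : Subgroup H)) (hx1 : x ≠ 1)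
    (hgx : g * x * g⁻¹ ∈ (S : Subgroup H)) :
    g ∈ Subgroup.normalizer ((S : Subgroup H) : Set H) := by
  obtain ⟨a, ha⟩ := MulAction.exists_smul_eq H P S
  subst ha
  rw [Sylow.coe_subgroup_smul, Subgroup.mem_pointwise_smul_iff_inv_smul_mem] at hx hgx
  simp only [MulAut.smul_def, MulAut.conj_inv_apply] at hx hgx
  have h : a⁻¹ * g * a ∈ Subgroup.normalizer ((P : Subgroup H) : Set H) := by
    by_contra hn
    have h1 : a⁻¹ * (g * x * g⁻¹) * a ∈
        (P : Subgroup H) ⊓ MulAut.conj (a⁻¹ * g * a) • (P : Subgroup H) := by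
      refine ⟨hgx, Subgroup.mem_pointwise_smul_iff_inv_smul_mem.2 ?_⟩
      simp only [MulAut.smul_def, MulAut.conj_inv_apply]
      convert hx using 1
      group
    rw [hTI _ hn, Subgroup.mem_bot] at h1
    apply hx1
    have h2 : x = g⁻¹ * a * (a⁻¹ * (g * x * g⁻¹) * a) * a⁻¹ * g := by group
    rw [h2, h1]
    group
  have h' : (a⁻¹ * g * a) • P = P := Sylow.smul_eq_iff_mem_normalizer.2 h
  refine Sylow.smul_eq_iff_mem_normalizer.1 ?_
  rw [smul_smul, show g * a = a * (a⁻¹ * g * a) by group, ← smul_smul, h']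

theorem not_commuting_subnormal {H : Type*} [Group H] [Finite H] {p : ℕ} [Fact p.Prime]
    (hOp : Cfsg.pCore p H = ⊥) (hOp' : Cfsg.pPrimeCore p H = ⊥) (P : Sylow p H)
    (hTI : ∀ g : H, g ∉ Subgroup.normalizer ((P : Subgroup H) : Set H) →
      (P : Subgroup H) ⊓ (MulAut.conj g • (P : Subgroup H)) = ⊥)
    {A B : Subgroup H} (hA : A.IsSubnormal) (hB : B.IsSubnormal) (hA1 : A ≠ ⊥) (hB1 : B ≠ ⊥) :
    ¬ ∀ a ∈ A, ∀ b ∈ B, a * b = b * a := by
  intro hcomm
  have hp : p.Prime := Fact.out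
  have hdvd : ∀ C : Subgroup H, C.IsSubnormal → C ≠ ⊥ → ∃ x : H, x ∈ C ∧ orderOf x = p := by
    intro C hC hC1
    have : p ∣ Nat.card C := by
      by_contra hnd
      exact hC1 (le_bot_iff.1 (hOp' ▸ CfsgLib.Cores.le_pPrimeCore_of_subnormal hC
        (hp.coprime_iff_not_dvd.2 hnd).symm))
    obtain ⟨x, hx⟩ := exists_prime_orderOf_dvd_card' p this
    exact ⟨x, x.2, by rw [Subgroup.orderOf_coe, hx]⟩
  obtain ⟨x, hxA, hx⟩ := hdvd A hA hA1
  obtain ⟨y, hyB, hy⟩ := hdvd B hB hB1
  have hxp : IsPGroup p (Subgroup.zpowers x) :=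
    IsPGroup.of_card (n := 1) (by rw [Nat.card_zpowers, hx, pow_one])
  obtain ⟨S, hS⟩ := hxp.exists_le_sylow
  have hxS : x ∈ (S : Subgroup H) := hS (Subgroup.mem_zpowers x)
  have hx1 : x ≠ 1 := fun h => hp.ne_one (by rw [← hx, h, orderOf_one])
  have hBN : B ≤ Subgroup.normalizer ((S : Subgroup H) : Set H) := fun b hb =>
    sylow_ti P hTI S hxS hx1 (by rw [← hcomm x hxA b hb, mul_inv_cancel_right]; exact hxS)
  have hyS : y ∈ (S : Subgroup H) := by
    have hyp : IsPGroup p (Subgroup.zpowers y) :=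
      IsPGroup.of_card (n := 1) (by rw [Nat.card_zpowers, hy, pow_one])
    exact (S.3 (IsPGroup.to_sup_of_normal_right' hyp S.2
      (Subgroup.zpowers_le.2 (hBN hyB))) le_sup_right).le
      (Subgroup.mem_sup_left (Subgroup.mem_zpowers y))
  have hnorm : (((S : Subgroup H) ⊓ B).subgroupOf B).Normal := ⟨fun z hz b => by
    rw [Subgroup.mem_subgroupOf] at hz ⊢
    exact ⟨(Subgroup.mem_normalizer_iff.1 (hBN b.2) z).1 hz.1, (b * z * b⁻¹).2⟩⟩
  have hsub : ((S : Subgroup H) ⊓ B).IsSubnormal :=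
    Subgroup.IsSubnormal.trans inf_le_right hnorm.isSubnormal hB
  have h := CfsgLib.Cores.le_pCore_of_subnormal hsub (S.2.to_le inf_le_left)
  rw [hOp] at h
  exact hp.ne_one (by rw [← hy, Subgroup.mem_bot.1 (h ⟨hyS, hyB⟩), orderOf_one])

/-- Let H be a finite group with no nontrivial normal p-subgroup and no nontrivial normal subgroup of order prime to p, whose Sylow p-subgroup P is nontrivial and a trivial-intersection set (P meets its conjugates by elements outside N_H(P) trivially). Then H has a unique minimal normal subgroup N; N is non-abelian simple with trivial centralizer in H (so H embeds in Aut(N)), and a Sylow p-subgroup of N is again a nontrivial trivial-intersection set in N. -/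
theorem result {H : Type*} [Group H] [Finite H] (p : ℕ) [Fact p.Prime] (hOp : Cfsg.pCore p H = ⊥) (hOp' : Cfsg.pPrimeCore p H = ⊥) (P : Sylow p H) (hP1 : (P : Subgroup H) ≠ ⊥)
    (hTI : ∀ g : H, g ∉ Subgroup.normalizer ((P : Subgroup H) : Set H) → (P : Subgroup H) ⊓ (MulAut.conj g • (P : Subgroup H)) = ⊥) :
    ∃ N : Subgroup H, N.Normal ∧ N ≠ ⊥ ∧ (∀ K : Subgroup H, K.Normal → K ≠ ⊥ → N ≤ K) ∧
      IsSimpleGroup N ∧ ¬ IsMulCommutative N ∧ Subgroup.centralizer (N : Set H) = ⊥ ∧
      ∀ Q : Sylow p N, (Q : Subgroup N) ≠ ⊥ ∧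
        ∀ n : N, n ∉ Subgroup.normalizer ((Q : Subgroup N) : Set N) → (Q : Subgroup N) ⊓ (MulAut.conj n • (Q : Subgroup N)) = ⊥ := by
  classical
  have htop : (⊤ : Subgroup H) ≠ ⊥ := fun h => hP1 (le_bot_iff.1 (h ▸ le_top))
  obtain ⟨N, hN, -, hN1, hmin⟩ := CfsgLib.Cores.exists_minimal_normal_le (K := (⊤ : Subgroup H)) htop
  haveI := hN
  have hno := @not_commuting_subnormal H _ _ p _ hOp hOp' P hTI
  have hNsub : N.IsSubnormal := hN.isSubnormal
  refine ⟨N, hN, hN1, fun K hK hK1 => ?_, ?_, ?_, ?_, fun Q => ⟨?_, fun n hn => ?_⟩⟩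
  · haveI := hK
    rcases hmin (N ⊓ K) (Subgroup.normal_inf_normal N K) inf_le_left with h | h
    · exact absurd (fun a ha b hb =>
        (Subgroup.commute_of_normal_of_disjoint N K hN hK (disjoint_iff.2 h) a b ha hb).eq)
        (hno hNsub hK.isSubnormal hN1 hK1)
    · exact inf_eq_left.1 h
  · haveI : Nontrivial N := (Subgroup.nontrivial_iff_ne_bot N).2 hN1
    refine { exists_pair_ne := exists_pair_ne N, eq_bot_or_eq_top_of_normal := fun L hL => ?_ }
    haveI := hL
    refine or_iff_not_imp_left.2 fun hL1 => ?_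
    obtain ⟨K, hKn, hKL, hK1, hKmin⟩ := CfsgLib.Cores.exists_minimal_normal_le (K := L) hL1
    haveI := hKn
    have hK1' : K.map N.subtype ≠ ⊥ := fun h =>
      hK1 ((Subgroup.map_eq_bot_iff_of_injective K N.subtype_injective).1 h)
    have hKs : (K.map N.subtype).IsSubnormal := Subgroup.IsSubnormal.trans' hKn.isSubnormal hNsub
    have hnormal : (K.map N.subtype).Normal := by
      refine ⟨fun x hx g => ?_⟩
      let K' : Subgroup N := K.map (MulAut.conjNormal (H := N) g).toMonoidHom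
      haveI hK'n : K'.Normal := hKn.map _ (MulAut.conjNormal (H := N) g).surjective
      obtain ⟨z, hz, rfl⟩ := Subgroup.mem_map.1 hx
      rcases hKmin (K ⊓ K') (Subgroup.normal_inf_normal K K') inf_le_left with h | h
      · refine absurd ?_ (hno hKs (Subgroup.IsSubnormal.trans' hK'n.isSubnormal hNsub) hK1'
          (fun h' => hK1 ((Subgroup.map_eq_bot_iff_of_injective K
            (MulAut.conjNormal (H := N) g).injective).1
            ((Subgroup.map_eq_bot_iff_of_injective K' N.subtype_injective).1 h'))))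
        rintro _ ⟨a, ha, rfl⟩ _ ⟨b, hb, rfl⟩
        exact congrArg Subtype.val
          (Subgroup.commute_of_normal_of_disjoint K K' hKn hK'n (disjoint_iff.2 h) a b ha hb).eq
      · refine Subgroup.mem_map.2 ⟨MulAut.conjNormal (H := N) g z, ?_, by simp⟩
        have hle : K ≤ K' := inf_eq_left.1 h
        have hcard : Nat.card K' ≤ Nat.card K := le_of_eq
          (Subgroup.card_map_of_injective (MulAut.conjNormal (H := N) g).injective)
        rw [Subgroup.eq_of_le_of_card_ge hle hcard]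
        exact ⟨z, hz, rfl⟩
    rcases hmin _ hnormal (Subgroup.map_subtype_le K) with h | h
    · exact absurd h hK1'
    · refine top_le_iff.1 fun z _ => hKL ?_
      obtain ⟨w, hw, hwz⟩ := h.ge z.2
      rwa [← Subtype.ext (a1 := w) (a2 := z) hwz]
  · exact fun hc => hno hNsub hNsub hN1 hN1 fun a ha b hb =>
      congrArg Subtype.val (hc.is_comm.comm (⟨a, ha⟩ : N) ⟨b, hb⟩)
  · by_contra hC
    exact hno hNsub (Subgroup.normal_centralizer (H := N)).isSubnormal hN1 hC
      fun a ha b hb => Subgroup.mem_centralizer_iff.1 hb a ha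
  · intro hQ
    have hndvd : ¬ p ∣ Nat.card N := fun hd => by
      have := Sylow.ne_bot_of_dvd_card Q hd
      exact this hQ
    exact hN1 (le_bot_iff.1 (hOp' ▸ CfsgLib.Cores.le_pPrimeCore_of_not_dvd Fact.out hndvd))
  · obtain ⟨S, hS⟩ := (Q.2.map N.subtype).exists_le_sylow
    by_contra hne
    obtain ⟨x, hx, hx1⟩ := (Subgroup.bot_or_exists_ne_one _).resolve_left hne
    obtain ⟨hxQ, hxn⟩ := Subgroup.mem_inf.1 hx
    rw [Subgroup.mem_pointwise_smul_iff_inv_smul_mem, MulAut.smul_def,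
      MulAut.conj_inv_apply] at hxn
    have h := sylow_ti P hTI S (g := (n : H)) (hS ⟨_, hxn, rfl⟩)
      (fun h => hx1 (by
        have h' : n⁻¹ * x * n = 1 := Subtype.ext h
        have h2 : x = n * (n⁻¹ * x * n) * n⁻¹ := by group
        rw [h2, h']; group))
      (by
        have h2 : (n : H) * ((n⁻¹ * x * n : N) : H) * (n : H)⁻¹ = (x : H) := by
          push_cast; group
        show (n : H) * ((n⁻¹ * x * n : N) : H) * (n : H)⁻¹ ∈ _
        rw [h2]; exact hS ⟨x, hxQ, rfl⟩)
    have hQS : (S : Subgroup H).comap N.subtype = Q :=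
      Q.3 ((S.2).comap_of_injective N.subtype N.subtype_injective) fun q hq => hS ⟨q, hq, rfl⟩
    apply hn
    rw [← hQS]
    refine Subgroup.mem_normalizer_iff.2 fun q => ?_
    exact Subgroup.mem_normalizer_iff.1 h (q : H)

end Cfsg.Agent.S4620
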