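import Cfsg.Statements.S4623
import Cfsg.Agent.Lib.BrauerPairs.SylowSymGenerators
-- import your own Cfsg.Agent.* helpers here

set_option autoImplicit false
open Cfsg

namespace Cfsg.Agent.S4623

/-- For every prime p and every n, a Sylow p-subgroup P of the symmetric group on n letters has P/P' elementary abelian (the p-th power of every element of P lies in the derived subgroup of P), and the same holds for a Sylow p-subgroup of the alternating group on n letters. -/
theorem result (p : ℕ) [Fact p.Prime] (n : ℕ) (P : Sylow p (Equiv.Perm (Fin n))) (Q : Sylow p (alternatingGroup (Fin n))) :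
    (∀ x : (P : Subgroup (Equiv.Perm (Fin n))), x ^ p ∈ commutator (P : Subgroup (Equiv.Perm (Fin n)))) ∧
    (∀ x : (Q : Subgroup (alternatingGroup (Fin n))), x ^ p ∈ commutator (Q : Subgroup (alternatingGroup (Fin n)))) := by
  classical
  obtain ⟨H, hH, hg, hgA⟩ := CfsgLib.BrauerPairs.exists_genPow p n
  constructor
  · intro x
    exact CfsgLib.BrauerPairs.pow_mem_commutator_of_genPow hg
      ((Sylow.ofCard H hH).equiv P) x
  · intro x
    have hHp : IsPGroup p H := IsPGroup.of_card hH
    have hmap : (H.subgroupOf (alternatingGroup (Fin n))).map (alternatingGroup (Fin n)).subtype = H ⊓ (alternatingGroup (Fin n)) := Subgroup.subgroupOf_map_subtype H (alternatingGroup (Fin n))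
    have hcard : Nat.card (H.subgroupOf (alternatingGroup (Fin n))) = p ^ (Nat.card (alternatingGroup (Fin n))).factorization p := by
      have hHA : IsPGroup p (H.subgroupOf (alternatingGroup (Fin n))) := hHp.comap_subtype
      obtain ⟨k, hk⟩ := IsPGroup.iff_card.1 hHA
      refine hk.trans (congrArg _ (le_antisymm ?_ ?_))
      · exact ((Fact.out : p.Prime).pow_dvd_iff_le_factorization Nat.card_pos.ne').1
          (hk ▸ Subgroup.card_subgroup_dvd_card _)
      · have h1 : Nat.card ((alternatingGroup (Fin n)).subgroupOf H) * (alternatingGroup (Fin n)).relIndex H = Nat.card H :=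
          Subgroup.card_mul_index ((alternatingGroup (Fin n)).subgroupOf H)
        have h2 : Nat.card ((alternatingGroup (Fin n)).subgroupOf H) = Nat.card (H.subgroupOf (alternatingGroup (Fin n))) := by
          rw [← Subgroup.card_map_of_injective H.subtype_injective,
            ← Subgroup.card_map_of_injective (alternatingGroup (Fin n)).subtype_injective, hmap,
            Subgroup.subgroupOf_map_subtype, inf_comm]
        have h3 : (alternatingGroup (Fin n)).relIndex H ∣ (alternatingGroup (Fin n)).index := Subgroup.relIndex_dvd_index_of_normal (alternatingGroup (Fin n)) H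
        have h4 := Subgroup.card_mul_index (alternatingGroup (Fin n))
        have hr : (alternatingGroup (Fin n)).relIndex H ≠ 0 := Subgroup.index_ne_zero_of_finite
        rw [h2, hk, hH, ← h4, Nat.factorization_mul Nat.card_pos.ne'
          Subgroup.index_ne_zero_of_finite] at h1
        have h5 := congrArg (fun t : ℕ => t.factorization p) h1
        simp only [Nat.factorization_mul (pow_ne_zero k (Fact.out : p.Prime).ne_zero) hr,
          Finsupp.coe_add, Pi.add_apply, Nat.factorization_pow_self (Fact.out : p.Prime)] at h5
        have h6 := (Nat.factorization_le_iff_dvd hr Subgroup.index_ne_zero_of_finite).2 h3 p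
        omega
    refine CfsgLib.BrauerPairs.pow_mem_commutator_of_genPow hgA
      ((((MulEquiv.subgroupCongr hmap.symm).trans
        (Subgroup.equivMapOfInjective (H.subgroupOf (alternatingGroup (Fin n))) (alternatingGroup (Fin n)).subtype (alternatingGroup (Fin n)).subtype_injective).symm)).trans
        ((Sylow.ofCard (H.subgroupOf (alternatingGroup (Fin n))) hcard).equiv Q)) x

end Cfsg.Agent.S4623
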