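import Cfsg.Statements.S4624
import Cfsg.Agent.Lib.BrauerPairs.WreathAbElem
import Cfsg.Agent.Lib.Classes.SympWreath
import Cfsg.Agent.S0261

set_option autoImplicit false
open Cfsg

namespace Cfsg.Agent.S4624

/-- Let F be a finite field of odd order and n ≥ 1. A Sylow 2-subgroup P of the symplectic group Sp_{2n}(F) has P/P' elementary abelian: the square of every element of P lies in the derived subgroup of P. -/
theorem result {F : Type*} [Field F] [Fintype F] (hF : Odd (Fintype.card F)) (n : ℕ) (hn : 1 ≤ n) (P : Sylow 2 (Matrix.symplecticGroup (Fin n) F)) :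
    ∀ x : (P : Subgroup (Matrix.symplecticGroup (Fin n) F)), x ^ 2 ∈ commutator (P : Subgroup (Matrix.symplecticGroup (Fin n) F)) := by
  classical
  haveI : Fact (Nat.Prime 2) := ⟨Nat.prime_two⟩
  haveI : Finite (Equiv.Perm (Fin n)) := inferInstance
  let Q : Sylow 2 (Matrix.SpecialLinearGroup (Fin 2) F) := default
  obtain ⟨k, hk, ⟨e⟩⟩ := Cfsg.Agent.S0261.result hF Q
  obtain ⟨S, -, hS, hSc⟩ := CfsgLib.BrauerPairs.exists_sylow_perm n
  have hQ : CfsgLib.BrauerPairs.AbElem Q := (CfsgLib.BrauerPairs.abElem_quaternion k hk).of_mulEquiv e.symm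
  have hW : CfsgLib.BrauerPairs.AbElem (CfsgLib.BrauerPairs.WrSub (Q : Subgroup (Matrix.SpecialLinearGroup (Fin 2) F)) S) :=
    CfsgLib.BrauerPairs.AbElem.wrSub hQ hS
  let i := CfsgLib.BrauerPairs.wrSubHom (Q : Subgroup (Matrix.SpecialLinearGroup (Fin 2) F)) S
  let j := CfsgLib.Classes.SympWreath.toSp n F
  have hi : Function.Injective i := CfsgLib.BrauerPairs.wrSubHom_injective _ S
  have hj : Function.Injective j := CfsgLib.Classes.SympWreath.toSp_injective
  have hji : Function.Injective (j.comp i) := fun a b hab => hi (hj hab)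
  refine CfsgLib.BrauerPairs.abElem_sylow_of_injective hW (j.comp i) hji ?_ P
  rw [CfsgLib.BrauerPairs.natCard_wrSub, Q.card_eq_multiplicity, hSc, Nat.card_fin, ← pow_mul, ← pow_add,
    CfsgLib.Classes.SympWreath.factorization_card_sp hF, mul_comm]

end Cfsg.Agent.S4624
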