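import Cfsg.Statements.S4625
import Cfsg.Agent.Lib.BrauerPairs.ClassicalSquares
import Cfsg.Agent.Lib.BrauerPairs.LinearSquares
import Cfsg.Agent.Lib.BrauerPairs.ExceptionalSquares

set_option autoImplicit false
open Cfsg

namespace Cfsg.Agent.S4625

/-- Let G be a finite simple group of Lie type in characteristic 2, not counting the Tits group ²F₄(2)′. Then a Sylow 2-subgroup P of G has P/P' elementary abelian: the square of every element of P lies in the derived subgroup of P. -/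
theorem result {G : Type*} [Group G] [Finite G] [IsSimpleGroup G] (hG : Cfsg.IsLieTypeChar 2 G) (P : Sylow 2 G) :
    ∀ x : (P : Subgroup G), x ^ 2 ∈ commutator (P : Subgroup G) := by
  refine CfsgLib.BrauerPairs.SylowSq.sq_mem ?_ P
  rcases hG with ⟨F, _, _, _, n, -, -, ⟨e⟩⟩ | ⟨F, _, _, _, m, -, -, ⟨e⟩⟩ | ⟨F, _, _, _, n, q, hq, -, -, ⟨e⟩⟩ |
    ⟨F, _, _, _, m, -, hodd, -⟩ | ⟨F, _, _, _, m, hm, ⟨e⟩⟩ | ⟨F, _, _, _, m, a, b, hm, hab, ⟨e⟩⟩ |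
    ⟨F, _, _, _, h⟩ | ⟨K, _, _, _, q, hq, h⟩ | ⟨-, h⟩ | ⟨-, h⟩ | ⟨h, -⟩
  · exact CfsgLib.BrauerPairs.SylowSq.of_mulEquiv e.symm CfsgLib.BrauerPairs.sylowSq_pSL
  · exact CfsgLib.BrauerPairs.SylowSq.of_mulEquiv e.symm (CfsgLib.BrauerPairs.sylowSq_pSp m)
  · exact CfsgLib.BrauerPairs.SylowSq.of_mulEquiv e.symm
      (CfsgLib.BrauerPairs.sylowSq_pSU (by rw [Nat.card_eq_fintype_card, hq]))
  · exfalso
    obtain ⟨f, -, hf⟩ := FiniteField.card F 2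
    rw [hf] at hodd
    exact (Nat.not_even_iff_odd.2 hodd) (Nat.even_pow.2 ⟨even_two, f.2.ne'⟩)
  · exact CfsgLib.BrauerPairs.SylowSq.of_mulEquiv e.symm
      (CfsgLib.BrauerPairs.sylowSq_pOmega _ (CfsgLib.ClassicalForms.qPlus_apply m)
        (CfsgLib.Generators.Steinberg.plusData (Or.inl (by omega))))
  · exact CfsgLib.BrauerPairs.SylowSq.of_mulEquiv e.symm
      (CfsgLib.BrauerPairs.sylowSq_pOmega _ (CfsgLib.ClassicalForms.qMinus_apply (m - 1) a b)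
        (CfsgLib.Generators.Steinberg.minusData (hab : CfsgLib.ClassicalForms.Aniso a b)))
  · rcases h with ⟨-, ⟨e⟩⟩ | ⟨⟨e⟩⟩ | ⟨⟨e⟩⟩ | ⟨⟨e⟩⟩ | ⟨⟨e⟩⟩
    · exact CfsgLib.BrauerPairs.SylowSq.of_mulEquiv e.symm
        (CfsgLib.BrauerPairs.sylowSq_chevalley CfsgLib.Twisted.fullG2)
    · exact CfsgLib.BrauerPairs.SylowSq.of_mulEquiv e.symm
        (CfsgLib.BrauerPairs.sylowSq_chevalley CfsgLib.Twisted.fullF4)
    · exact CfsgLib.BrauerPairs.SylowSq.of_mulEquiv e.symm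
        (CfsgLib.BrauerPairs.sylowSq_chevalley CfsgLib.Twisted.fullE6)
    · exact CfsgLib.BrauerPairs.SylowSq.of_mulEquiv e.symm
        (CfsgLib.BrauerPairs.sylowSq_chevalley (A := CfsgLib.Chevalley.auxE7)
          ⟨⟨CfsgLib.Chevalley.cert_E7, CfsgLib.Chevalley.posE7, by simp⟩, CfsgLib.Chevalley.extraE7⟩)
    · exact CfsgLib.BrauerPairs.SylowSq.of_mulEquiv e.symm
        (CfsgLib.BrauerPairs.sylowSq_chevalley (A := CfsgLib.Chevalley.auxE8)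
          ⟨⟨CfsgLib.Chevalley.cert_E8, CfsgLib.Chevalley.posE8, by simp⟩, CfsgLib.Chevalley.extraE8⟩)
  · rcases h with ⟨hK, ⟨e⟩⟩ | ⟨hK, ⟨e⟩⟩
    · exact CfsgLib.BrauerPairs.SylowSq.of_mulEquiv e.symm (CfsgLib.BrauerPairs.sylowSq_twistedE6 hq hK)
    · exact CfsgLib.BrauerPairs.SylowSq.of_mulEquiv e.symm (CfsgLib.BrauerPairs.sylowSq_twistedD4 hq hK)
  · exact CfsgLib.BrauerPairs.sylowSq_isoSuzuki h
  · obtain ⟨K, _, _, m, hm, hK, ⟨e⟩⟩ := h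
    have : CharP K 2 := CfsgLib.Twisted.charP_f4 hK
    exact CfsgLib.BrauerPairs.SylowSq.of_mulEquiv e.symm (CfsgLib.BrauerPairs.sylowSq_twistedF4 hm hK)
  · exact absurd h (by decide)

end Cfsg.Agent.S4625
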