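import Cfsg.Statements.S4640
import Cfsg.Agent.Lib.BrauerPairs.AbelianPIndex
-- import your own Cfsg.Agent.* helpers here

set_option autoImplicit false
open Cfsg CfsgLib.BrauerPairs

namespace Cfsg.Agent.S4640

/-- Let N be a normal subgroup of the finite group G of index a power of the prime p, M a maximal ideal of the algebraic integers containing p, b a block of N stabilized by every element of G, and B a block of G covering b (some member of B has a member of b as a constituent of its restriction to N). Suppose that B has a commutative defect group P. Then G = NP and P ∩ N is a defect group of b; every member of B restricts to a member of b; every member of b is the restriction of exactly [G : N] members of B; B contains exactly [G : N] times as many irreducible characters as b; and B and b have the same p-regular rank. -/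
theorem result {G : Type*} [Group G] [Fintype G] (p : ℕ) [Fact p.Prime] (M : Ideal Cfsg.AlgInt) (hM : Cfsg.IsPModular p M) (N : Subgroup G) [N.Normal] [Fintype N] (hNi : ∃ k : ℕ, N.index = p ^ k) (b : Set (Cfsg.IrrCharacter N)) (hb : Cfsg.IsPBlock M b) (hstab : ∀ g : G, Cfsg.StabilizesBlock N b g) (B : Set (Cfsg.IrrCharacter G)) (hB : Cfsg.IsPBlock M B) (hcov : ∃ χ ∈ B, ∃ θ ∈ b, Cfsg.classInner (fun n : N => (χ : G → ℂ) n) (θ : N → ℂ) ≠ 0) (P : Subgroup G) (hPD : Cfsg.IsDefectGroup p M B P) (hPab : ∀ x ∈ P, ∀ y ∈ P, x * y = y * x) : N ⊔ P = ⊤ ∧ Cfsg.IsDefectGroup p M b ((P ⊓ N).subgroupOf N) ∧ (∀ χ ∈ B, ∃ θ ∈ b, ∀ n : N, (χ : G → ℂ) n = (θ : N → ℂ) n) ∧ (∀ θ ∈ b, Nat.card {χ : Cfsg.IrrCharacter G // χ ∈ B ∧ ∀ n : N, (χ : G → ℂ) n = (θ : N → ℂ) n} = N.index) ∧ Nat.card B = N.index * Nat.card b ∧ Cfsg.blockRank p B = Cfsg.blockRank p b := by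
  haveI : M.IsPrime := CfsgLib.Blocks.isPrime_of_isPModular hM
  haveI : M.IsMaximal := hM.2.1
  haveI : CharP (CfsgLib.Blocks.Res M) p := CfsgLib.Blocks.charP_res hM
  haveI : IsAlgClosed (CfsgLib.Blocks.Res M) := CfsgLib.Blocks.isAlgClosed_res
  classical
  haveI := Fintype.ofFinite (IrrCharacter N)
  obtain ⟨k, hidx⟩ := hNi
  obtain ⟨χ₀, hχ₀, θ₀, hθ₀, h₀⟩ := hcov
  have hBb := redElem_eq_subIdem_of_covers hM hidx hb hstab hB hχ₀ hθ₀ h₀
  have hPin := (isDefectGroup_iff hM hB).1 hPD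
  rw [hBb] at hPin
  have hfix : subIdem M N b ∈ fixedBy (CfsgLib.Blocks.Res M) (⊤ : Subgroup G) := fun g _ =>
    ((stabilizesBlock_iff hb).1 (hstab g)).2
  have hNP : N ⊔ P = ⊤ := by
    rw [sup_comm]
    exact sup_eq_of_defect hM le_top (by rw [Subgroup.normalizer_eq_top N])
      (k := k) (by rw [Subgroup.relIndex_top_right, hidx]) (isBlockIdem_subIdem hb) hfix hPin
  have hmemB : ∀ ψ : IrrCharacter G, ∀ θ ∈ b,
      classInner (fun n : N => (ψ : G → ℂ) n) (θ : N → ℂ) ≠ 0 → ψ ∈ B := by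
    intro ψ θ hθ h
    have hψ := CfsgLib.Blocks.isPBlock_blockOf (M := M) ψ
    have h1 := redElem_eq_subIdem_of_covers hM hidx hb hstab hψ
      (CfsgLib.Blocks.mem_blockOf_self ψ) hθ h
    rw [← redElem_blockCoeff_injective hψ hB (h1.trans hBb.symm)]
    exact CfsgLib.Blocks.mem_blockOf_self ψ
  have hmemb : ∀ χ ∈ B, ∀ θ : IrrCharacter N,
      classInner (fun n : N => (χ : G → ℂ) n) (θ : N → ℂ) ≠ 0 → θ ∈ b := by
    intro χ hχ θ h
    have hsame : SameBlock M (χ₀ : G → ℂ) (χ : G → ℂ) :=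
      CfsgLib.Blocks.sameBlock_of_mem hB hχ₀ hχ
    obtain ⟨g, η, hη, rfl⟩ := (CfsgLib.BlockLocal.mem_orbitSet N).1
      (CfsgLib.BlockLocal.mem_orbitSet_of_constituent N hb hsame hθ₀ h₀ h)
    obtain ⟨η', hη', hconj⟩ := (hstab g).2 η hη
    suffices CfsgLib.BlockLocal.conjIrr N g η = η' by rwa [this]
    refine Subtype.ext (funext fun n => ?_)
    rw [CfsgLib.BlockLocal.conjIrr_apply]
    refine (hconj _ n ?_).symm
    rw [MulAut.conjNormal_apply]
    group
  have hspec := fun (χ : IrrCharacter G) (hχ : χ ∈ B) =>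
    res_quotTwist_spec hM hB hPD hPab hidx hNP hχ
  have hres : ∀ χ ∈ B, ∃ θ ∈ b, ∀ n : N, (χ : G → ℂ) n = (θ : N → ℂ) n := fun χ hχ =>
    ⟨⟨_, (hspec χ hχ).1⟩, hmemb χ hχ _ (by
      rw [show classInner (fun n : N => (χ : G → ℂ) n) (fun n : N => (χ : G → ℂ) n) = 1 from
        CfsgLib.CharTheory.classInner_self_of_isIrr (hspec χ hχ).1]
      exact one_ne_zero), fun n => rfl⟩
  have hover : ∀ θ ∈ b, ∃ χ ∈ B, ∀ n : N, (χ : G → ℂ) n = (θ : N → ℂ) n := by
    intro θ hθ
    obtain ⟨χ, hχ⟩ := CfsgLib.BlockLocal.exists_over N θ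
    have hχB := hmemB χ θ hθ hχ
    refine ⟨χ, hχB, fun n => ?_⟩
    by_contra hne
    exact hχ (CfsgLib.CharTheory.classInner_eq_zero_of_ne (hspec χ hχB).1 θ.2
      fun h => hne (congrFun h n))
  have hcount : ∀ θ ∈ b, Nat.card {χ : IrrCharacter G //
      χ ∈ B ∧ ∀ n : N, (χ : G → ℂ) n = (θ : N → ℂ) n} = N.index := by
    intro θ hθ
    obtain ⟨χ, hχ, hχθ⟩ := hover θ hθ
    obtain ⟨hirr, hinj, hall, hcard⟩ := hspec χ hχ
    rw [← hcard]
    have hmem : ∀ l : G ⧸ N →* ℂˣ, quotTwist χ l ∈ B := fun l => hmemB _ θ hθ (by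
      rw [show (fun n : N => (quotTwist χ l : G → ℂ) n) = (θ : N → ℂ) from
        funext fun n => by rw [quotTwist_res, hχθ],
        CfsgLib.CharTheory.classInner_self_of_isIrr θ.2]
      exact one_ne_zero)
    refine (Nat.card_eq_of_bijective (fun l : G ⧸ N →* ℂˣ => (⟨quotTwist χ l, hmem l,
      fun n => by rw [quotTwist_res, hχθ]⟩ : {χ : IrrCharacter G //
        χ ∈ B ∧ ∀ n : N, (χ : G → ℂ) n = (θ : N → ℂ) n})) ⟨?_, ?_⟩).symm
    · intro l l' h
      exact hinj (congrArg Subtype.val h)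
    · rintro ⟨ψ, hψB, hψ⟩
      obtain ⟨l, hl⟩ := hall ψ fun n => by rw [hψ, hχθ]
      exact ⟨l, Subtype.ext hl⟩
  refine ⟨hNP, isDefectGroup_inf hM hB hb hBb hPD, hres, hcount, ?_, ?_⟩
  · have e : B ≃ Σ θ : b, {χ : IrrCharacter G //
        χ ∈ B ∧ ∀ n : N, (χ : G → ℂ) n = ((θ : IrrCharacter N) : N → ℂ) n} :=
      { toFun := fun χ => ⟨⟨(hres χ χ.2).choose, (hres χ χ.2).choose_spec.1⟩,
          χ, χ.2, (hres χ χ.2).choose_spec.2⟩
        invFun := fun s => ⟨s.2.1, s.2.2.1⟩
        left_inv := fun χ => rfl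
        right_inv := by
          rintro ⟨⟨θ, hθ⟩, χ, hχ, h⟩
          have h1 : (hres χ hχ).choose = θ := Subtype.ext (funext fun n =>
            ((hres χ hχ).choose_spec.2 n).symm.trans (h n))
          exact Sigma.subtype_ext (Subtype.ext h1) rfl }
    haveI := Fintype.ofFinite b
    rw [Nat.card_congr e, Nat.card_sigma, Finset.sum_congr rfl (g := fun _ : b => N.index) fun θ _ => hcount θ.1 θ.2,
      Finset.sum_const, Finset.card_univ, smul_eq_mul, mul_comm, Nat.card_eq_fintype_card]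
  · let E : (N → ℂ) →ₗ[ℂ] (G → ℂ) := Function.ExtendByZero.linearMap ℂ (Subtype.val : N → G)
    have hreg : ∀ χ : IrrCharacter G, ∀ θ : IrrCharacter N,
        (∀ n : N, (χ : G → ℂ) n = (θ : N → ℂ) n) →
          E (pRegularPart p (θ : N → ℂ)) = pRegularPart p (χ : G → ℂ) := by
      intro χ θ h
      funext g
      by_cases hg : g ∈ N
      · show Function.extend (Subtype.val : N → G) (pRegularPart p (θ : N → ℂ)) (0 : G → ℂ) ((⟨g, hg⟩ : N) : G) = _
        rw [Subtype.val_injective.extend_apply]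
        simp [pRegularPart, IsPRegular, ← h ⟨g, hg⟩]; by_cases hp' : p ∣ orderOf g <;> simp [hp']
      · have hn : ¬ IsPRegular p g := fun hr => hg (mem_of_relIndex_eq_pow (Fact.out : p.Prime)
          (K := ⊤) (by rw [Subgroup.normalizer_eq_top N]) (by rw [Subgroup.relIndex_top_right, hidx])
          (Subgroup.mem_top g) hr)
        show Function.extend (Subtype.val : N → G) (pRegularPart p (θ : N → ℂ)) (0 : G → ℂ) g = _
        rw [Function.extend_apply' _ _ _ (fun ⟨n, hn'⟩ => hg (hn' ▸ n.2))]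
        simp [pRegularPart, hn]
    have himg : E '' ((fun θ : IrrCharacter N => pRegularPart p (θ : N → ℂ)) '' b) =
        (fun χ : IrrCharacter G => pRegularPart p (χ : G → ℂ)) '' B := by
      rw [Set.image_image]
      apply subset_antisymm
      · rintro _ ⟨θ, hθ, rfl⟩
        obtain ⟨χ, hχ, h⟩ := hover θ hθ
        exact ⟨χ, hχ, (hreg χ θ h).symm⟩
      · rintro _ ⟨χ, hχ, rfl⟩
        obtain ⟨θ, hθ, h⟩ := hres χ hχ
        exact ⟨θ, hθ, hreg χ θ h⟩
    rw [blockRank, blockRank, ← himg, Submodule.span_image]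
    exact (Submodule.equivMapOfInjective E
      (fun f f' h => funext fun n => by
        have := congrFun h (n : G)
        change Function.extend (Subtype.val : N → G) f (0 : G → ℂ) n =
          Function.extend (Subtype.val : N → G) f' (0 : G → ℂ) n at this
        rwa [Subtype.val_injective.extend_apply, Subtype.val_injective.extend_apply] at this)
      _).finrank_eq.symm

end Cfsg.Agent.S4640
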