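import Cfsg.Statements.S4649
import Cfsg.Agent.Lib.Jordan.CyclicDefect.Consequences

set_option autoImplicit false
open Cfsg

namespace Cfsg.Agent.S4649

/-- A block with cyclic defect group, of a finite group relative to a maximal ideal M of the algebraic integers containing the prime p, is nilpotent if and only if its p-regular rank is 1 (it has a unique irreducible Brauer character). -/
theorem result {G : Type*} [Group G] [Finite G] (p : ℕ) [Fact p.Prime] (M : Ideal Cfsg.AlgInt) (hM : Cfsg.IsPModular p M) (B : Set (Cfsg.IrrCharacter G)) (hB : Cfsg.IsPBlock M B) (P : Subgroup G) (hPD : Cfsg.IsDefectGroup p M B P) (hcyc : IsCyclic P) : Cfsg.IsNilpotentBlock p M B ↔ Cfsg.blockRank p B = 1 := by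
  classical
  haveI := Fintype.ofFinite G
  haveI : M.IsPrime := CfsgLib.Blocks.isPrime_of_isPModular hM
  haveI : M.IsMaximal := hM.2.1
  haveI := CfsgLib.Blocks.charP_res hM
  haveI : IsAlgClosed (CfsgLib.Blocks.Res M) := CfsgLib.Blocks.isAlgClosed_res
  have hab : ∀ x ∈ P, ∀ y ∈ P, x * y = y * x := fun x hx y hy =>
    congrArg Subtype.val (hcyc.commGroup.mul_comm ⟨x, hx⟩ ⟨y, hy⟩)
  refine ⟨fun hnil => (CfsgLib.BrauerPairs.blockRank_eq_one_of_nilpotent_abelian hM hnil hPD hab).1,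
    fun hrk => (CfsgLib.BrauerPairs.isNilpotentBlock_iff hM).2 ⟨hB, ?_⟩⟩
  have hb := CfsgLib.BrauerPairs.isBlockIdem_redElem_blockCoeff (M := M) hB
  obtain ⟨e0, hmax⟩ := CfsgLib.BrauerPairs.exists_isMaxPair_of_isDefectIn hb
    ((CfsgLib.BrauerPairs.isDefectGroup_iff hM hB).1 hPD)
  refine (hmax.isNilp_iff_of_abelian hb hab).2 fun x hx => ?_
  by_cases hP1 : P = ⊥
  · exact Subgroup.mem_centralizer_iff.2 fun v hv => by
      rw [Subgroup.mem_bot.1 (hP1 ▸ hv : v ∈ (⊥ : Subgroup G)), one_mul, mul_one]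
  obtain ⟨a, hDa⟩ := IsPGroup.iff_card.1 hmax.1.1.1
  have ha : 1 ≤ a := Nat.one_le_iff_ne_zero.2 fun h => hP1 (by
    rw [h, pow_zero] at hDa
    exact Subgroup.card_eq_one.1 hDa)
  haveI : NeZero (p ^ a) := ⟨pow_ne_zero a (Fact.out : p.Prime).ne_zero⟩
  obtain ⟨S⟩ := CfsgLib.Jordan.CyclicDefect.exists_cycData hM hB hmax hcyc ha hDa rfl
  have h1 := S.blockRank_eq ⟨hM, hB, hmax, hcyc, ha, hDa, rfl⟩
  rw [hrk] at h1
  exact Subgroup.relIndex_eq_one.1 h1.symm hx

end Cfsg.Agent.S4649
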