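import Cfsg.Statements.S4735
import Cfsg.Agent.Lib.BrauerCharacters.BlockEntries
import Cfsg.Agent.Lib.BrauerCharacters.ClassMul
import Cfsg.Agent.Lib.Correspondences.PrincipalBlock
import Cfsg.Agent.Lib.Correspondences.CharKer
import Cfsg.Agent.Lib.BlockLocal.ClassFunctional
import Cfsg.Agent.Lib.ZerosCodegree.BlockTools
import Cfsg.Agent.Lib.Cores.PCore
import Cfsg.Agent.Lib.Coherence.RationalValue
import Cfsg.Agent.Lib.Coherence.Virtual
import Mathlib.FieldTheory.Finite.Basic

set_option autoImplicit false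
open Cfsg

namespace Cfsg.Agent.S4735


open CfsgLib.CharTheory CfsgLib.Blocks CfsgLib.BlockLocal CfsgLib.BrauerCharacters Finset
open scoped ComplexConjugate

/-- Modulo a normal subgroup of order prime to `p` the principal blocks agree. -/
theorem mem_principalBlock_inflate_iff {G : Type*} [Group G] [Fintype G] {p : ℕ} [Fact p.Prime]
    {M : Ideal AlgInt} [M.IsPrime] (hM : IsPModular p M) (N : Subgroup G) [N.Normal]
    (hN : ¬ p ∣ Nat.card N) {ψ : IrrCharacter (G ⧸ N)} {χ : IrrCharacter G}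
    (hχ : ∀ g : G, (χ : G → ℂ) g = (ψ : G ⧸ N → ℂ) g) :
    χ ∈ principalBlock M G ↔ ψ ∈ principalBlock M (G ⧸ N) := by
  classical
  haveI : Fintype (G ⧸ N) := Fintype.ofFinite _
  constructor
  · intro h q
    obtain ⟨g, rfl⟩ := QuotientGroup.mk'_surjective N q
    set a : G → ℂ := fun x => if IsConj (g : G ⧸ N) (x : G ⧸ N) then 1 else 0 with ha
    have hmk : ∀ (c x : G), ((c * x * c⁻¹ : G) : G ⧸ N) = (c : G ⧸ N) * x * (c : G ⧸ N)⁻¹ :=
      fun c x => rfl
    have key : MemLocalIdeal M (∑ x, a x * (1 - (χ : G → ℂ) x / (χ : G → ℂ) 1)) := by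
      refine memLocalIdeal_sum_mul_of_classes a _ (fun x c => ?_) (fun x => ?_) fun x _ => ?_
      · simp only [ha, hmk]
        have hc : IsConj (x : G ⧸ N) ((c : G ⧸ N) * x * (c : G ⧸ N)⁻¹) := isConj_iff.2 ⟨_, rfl⟩
        by_cases hx : IsConj (g : G ⧸ N) (x : G ⧸ N)
        · rw [if_pos hx, if_pos (hx.trans hc)]
        · rw [if_neg hx, if_neg fun h => hx (h.trans hc.symm)]
      · simp only [ha]
        split_ifs
        · simpa using memLocalRing_natCast (M := M) 1
        · simpa using memLocalRing_natCast (M := M) 0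
      · have h1 := h x
        rw [← sum_conj_eq_centralChar (f := fun _ : G => (1 : ℂ)) (fun _ _ => rfl) x,
          ← sum_conj_eq_centralChar (IsIrrCharacter.isClassFunction χ.2) x, ← sum_sub_distrib] at h1
        simpa using h1
    have hNunit : MemLocalRing M (Nat.card N : ℂ)⁻¹ := memLocalRing_inv_natCast hM hN
    have e : centralChar (fun _ : G ⧸ N => (1 : ℂ)) (g : G ⧸ N) -
        centralChar (ψ : G ⧸ N → ℂ) (g : G ⧸ N) =
        (Nat.card N : ℂ)⁻¹ * ∑ x, a x * (1 - (χ : G → ℂ) x / (χ : G → ℂ) 1) := by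
      rw [← sum_conj_eq_centralChar (f := fun _ : G ⧸ N => (1 : ℂ)) (fun _ _ => rfl) (g : G ⧸ N),
        ← sum_conj_eq_centralChar (IsIrrCharacter.isClassFunction ψ.2) (g : G ⧸ N), ← sum_sub_distrib,
        ← sum_fiberwise univ (fun x : G => (x : G ⧸ N))]
      rw [sum_congr rfl (g := fun q : G ⧸ N => (Nat.card N : ℂ) *
          if IsConj (g : G ⧸ N) q then (1 / 1 - (ψ : G ⧸ N → ℂ) q / (ψ : G ⧸ N → ℂ) 1) else 0)
          (fun q _ => ?_) (s₁ := (univ : Finset (G ⧸ N))), ← mul_sum, ← mul_assoc,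
        inv_mul_cancel₀ (Nat.cast_ne_zero.2 Nat.card_pos.ne'), one_mul, ← sum_filter]
      obtain ⟨y, rfl⟩ := QuotientGroup.mk'_surjective N q
      rw [sum_congr rfl (g := fun _ => if IsConj (g : G ⧸ N) (y : G ⧸ N) then
        (1 / 1 - (ψ : G ⧸ N → ℂ) (y : G ⧸ N) / (ψ : G ⧸ N → ℂ) 1) else 0) (fun x hx => ?_),
        sum_const, nsmul_eq_mul]
      · congr 2
        rw [Nat.card_eq_fintype_card, ← card_univ]
        refine card_bij (fun x hx => (⟨y⁻¹ * x, QuotientGroup.eq.1 (mem_filter.1 hx).2.symm⟩ : N))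
          (fun _ _ => mem_univ _) (fun _ _ _ _ h => mul_left_cancel (congrArg Subtype.val h))
          fun n _ => ⟨y * n, mem_filter.2 ⟨mem_univ _, ?_⟩, Subtype.ext (inv_mul_cancel_left y (n : G))⟩
        refine (QuotientGroup.eq.2 ?_).symm
        simp
      · have hx' : (x : G ⧸ N) = (y : G ⧸ N) := (mem_filter.1 hx).2
        simp only [ha, hx', hχ x, hχ 1, QuotientGroup.mk_one, div_one]
        split_ifs <;> ring
    rw [QuotientGroup.mk'_apply, e]
    exact memLocalIdeal_mul_left hNunit key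
  · intro h g
    set C := Subgroup.centralizer ({g} : Set G) with hC
    set D := Subgroup.centralizer ({(g : G ⧸ N)} : Set (G ⧸ N)) with hD
    have hle : C ≤ D.comap (QuotientGroup.mk' N) := fun c hc => by
      rw [Subgroup.mem_comap, hD, Subgroup.mem_centralizer_singleton_iff]
      rw [hC, Subgroup.mem_centralizer_singleton_iff] at hc
      show ((c * g : G) : G ⧸ N) = ((g * c : G) : G ⧸ N)
      rw [hc]
    obtain ⟨n, hn⟩ := Subgroup.index_dvd_of_le hle
    rw [Subgroup.index_comap_of_surjective _ (QuotientGroup.mk'_surjective N)] at hn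
    have h1 := memLocalIdeal_mul_left (memLocalRing_natCast (M := M) n) (h (g : G ⧸ N))
    rw [centralChar, centralChar, ← hD] at h1
    show MemLocalIdeal M (centralChar (fun _ : G => (1 : ℂ)) g - centralChar (χ : G → ℂ) g)
    rw [centralChar, centralChar, ← hC, hn, hχ g, hχ 1, QuotientGroup.mk_one]
    convert h1 using 1
    push_cast
    ring

/-- Let p be a prime, M a maximal ideal of the algebraic integers containing p, G a finite group, H = O_p'(G) and Ḡ = G/H. For x ∈ G write λ(G, x) for the sum of |χ(x)|^2 over the irreducible characters χ in the principal p-block of G. Then λ(G, x) is a positive integer, λ(G, x) = λ(Ḡ, x̄) where x̄ is the image of x, and λ(G, x) ≤ #C_Ḡ(x̄). Moreover λ(G, 1) = [G : H] if and only if the principal block is the only p-block of Ḡ. -/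
theorem result {G : Type*} [Group G] [Finite G] (p : ℕ) [Fact p.Prime] (M : Ideal Cfsg.AlgInt) (hM : Cfsg.IsPModular p M) (x : G) : (∃ n : ℕ, 0 < n ∧ ∑ᶠ χ ∈ Cfsg.principalBlock M G, Complex.normSq ((χ : G → ℂ) x) = n) ∧ ∑ᶠ χ ∈ Cfsg.principalBlock M G, Complex.normSq ((χ : G → ℂ) x) = ∑ᶠ ψ ∈ Cfsg.principalBlock M (G ⧸ Cfsg.pPrimeCore p G), Complex.normSq ((ψ : G ⧸ Cfsg.pPrimeCore p G → ℂ) (QuotientGroup.mk x)) ∧ ∑ᶠ χ ∈ Cfsg.principalBlock M G, Complex.normSq ((χ : G → ℂ) x) ≤ (Nat.card ↥(Subgroup.centralizer ({(QuotientGroup.mk x : G ⧸ Cfsg.pPrimeCore p G)} : Set (G ⧸ Cfsg.pPrimeCore p G))) : ℝ) ∧ ((∑ᶠ χ ∈ Cfsg.principalBlock M G, Cfsg.charDegree (χ : G → ℂ) ^ 2) = (Cfsg.pPrimeCore p G).index ↔ ∀ B : Set (Cfsg.IrrCharacter (G ⧸ Cfsg.pPrimeCore p G)), Cfsg.IsPBlock M B → B = Cfsg.principalBlock M (G ⧸ Cfsg.pPrimeCore p G)) := by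
  classical
  haveI := CfsgLib.Blocks.isPrime_of_isPModular hM
  haveI := Fintype.ofFinite G
  set N := pPrimeCore p G with hNdef
  haveI : N.Normal := inferInstance
  have hN : ¬ p ∣ Nat.card N := CfsgLib.Cores.not_dvd_card_pPrimeCore
  haveI : Fintype (G ⧸ N) := Fintype.ofFinite _
  haveI : Fintype (IrrCharacter (G ⧸ N)) := Fintype.ofFinite _
  let infl : IrrCharacter (G ⧸ N) → IrrCharacter G := fun ψ =>
    ⟨fun g => (ψ : G ⧸ N → ℂ) g,
      isIrrCharacter_comp ψ.2 (f := QuotientGroup.mk' N) (QuotientGroup.mk'_surjective N)⟩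
  have hinj : Function.Injective infl := fun a b h => Subtype.ext (funext fun q => by
    obtain ⟨g, rfl⟩ := QuotientGroup.mk'_surjective N q
    exact congrFun (congrArg Subtype.val h) g)
  have himg : blockFinset (principalBlock M G) = (blockFinset (principalBlock M (G ⧸ N))).image infl := by
    ext χ
    simp only [mem_blockFinset, mem_image]
    constructor
    · intro hχ
      obtain ⟨ψ, hψ, hψ'⟩ := exists_descend χ.2 N fun x hx =>
        CfsgLib.Correspondences.apply_eq_of_mem_principalBlock hM hχ N hN hx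
      exact ⟨⟨ψ, hψ⟩, (mem_principalBlock_inflate_iff hM N hN (ψ := ⟨ψ, hψ⟩) hψ').1 hχ,
        Subtype.ext (funext fun g => (hψ' g).symm)⟩
    · rintro ⟨ψ, hψ, rfl⟩
      exact (mem_principalBlock_inflate_iff hM N hN (ψ := ψ) (χ := infl ψ) fun g => rfl).2 hψ
  simp only [finsum_mem_eq_sum_blockFinset]
  refine ⟨?_, ?_, ?_, ?_⟩
  · -- integrality
    set F : G → ℂ := ∑ χ ∈ blockFinset (principalBlock M G),
      ((χ : G → ℂ) * fun g => conj ((χ : G → ℂ) g)) with hF
    have hFv : ∀ g, F g = ((∑ χ ∈ blockFinset (principalBlock M G),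
        Complex.normSq ((χ : G → ℂ) g) : ℝ) : ℂ) := fun g => by
      rw [hF, Finset.sum_apply, Complex.ofReal_sum]
      exact sum_congr rfl fun χ _ => Complex.mul_conj _
    have hFc : IsGeneralizedCharacter G F := CfsgLib.Coherence.isGeneralizedCharacter_sum _ _
      fun χ _ => IsCharacter.isGeneralizedCharacter (isCharacter_mul (IsIrrCharacter.isCharacter χ.2)
        (isCharacter_conj (IsIrrCharacter.isCharacter χ.2)))
    obtain ⟨z, hz⟩ := CfsgLib.Coherence.exists_int_of_forall_pow_eq hFc x fun t ht => by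
      obtain ⟨k, hk, hkt⟩ : ∃ k : ℕ, k.Coprime (Nat.card G) ∧ x ^ k = x ^ t := by
        have : NeZero (Nat.card G) := ⟨Nat.card_pos.ne'⟩
        obtain ⟨u, hu⟩ := ZMod.unitsMap_surjective (orderOf_dvd_natCard x) (ZMod.unitOfCoprime t ht)
        refine ⟨(u : ZMod (Nat.card G)).val, ZMod.val_coe_unit_coprime u, ?_⟩
        rw [pow_eq_pow_iff_modEq, ← ZMod.natCast_eq_natCast_iff]
        have h2 := congrArg (fun v : (ZMod (orderOf x))ˣ => (v : ZMod (orderOf x))) hu
        simp only [ZMod.unitsMap_def, Units.coe_map, MonoidHom.coe_coe, ZMod.coe_unitOfCoprime] at h2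
        rw [← h2, ZMod.castHom_apply, ZMod.cast_eq_val]
      rw [← hkt]
      let T : IrrCharacter G → IrrCharacter G := fun χ =>
        ⟨_, CfsgLib.ZerosCodegree.isIrrCharacter_powTwist hk χ.2⟩
      have hTinj : Function.Injective T := fun a b h => Subtype.ext (funext fun g => by
        obtain ⟨m, hm⟩ := exists_pow_eq_self_of_coprime (hk.coprime_dvd_right (orderOf_dvd_natCard g))
        have h1 := congrFun (congrArg Subtype.val h) (g ^ m)
        simp only [T, CfsgLib.ZerosCodegree.powTwist_apply] at h1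
        rwa [← pow_mul, mul_comm, pow_mul, hm] at h1)
      have hTimg : (blockFinset (principalBlock M G)).image T = blockFinset (principalBlock M G) := by
        refine eq_of_subset_of_card_le (fun ψ hψ => ?_) ?_
        · obtain ⟨χ, hχ, rfl⟩ := mem_image.1 hψ
          exact mem_blockFinset.2 (CfsgLib.ZerosCodegree.powTwist_mem_principalBlock hk rfl
            (mem_blockFinset.1 hχ))
        · rw [card_image_of_injective _ hTinj]
      rw [hF, Finset.sum_apply, Finset.sum_apply]
      conv_rhs => rw [← hTimg, sum_image fun a _ b _ h => hTinj h]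
      exact sum_congr rfl fun χ _ => rfl
    rw [hFv] at hz
    have hzR : ∑ χ ∈ blockFinset (principalBlock M G), Complex.normSq ((χ : G → ℂ) x) = (z : ℝ) := by
      exact_mod_cast hz
    have h1 : (1 : ℝ) ≤ ∑ χ ∈ blockFinset (principalBlock M G), Complex.normSq ((χ : G → ℂ) x) := by
      refine le_trans (le_of_eq ?_) (single_le_sum (fun χ _ => Complex.normSq_nonneg _)
        (mem_blockFinset.2 (CfsgLib.ZerosCodegree.trivIrr_mem_principalBlock (M := M) (G := G))))
      simp [trivIrr_apply]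
    have hz1 : (1 : ℤ) ≤ z := by
      have h2 := hzR ▸ h1
      exact_mod_cast h2
    refine ⟨z.toNat, by omega, ?_⟩
    rw [hzR]
    exact_mod_cast (Int.toNat_of_nonneg (by omega)).symm
  · rw [himg, sum_image fun a _ b _ h => hinj h]
  · rw [himg, sum_image fun a _ b _ h => hinj h]
    refine le_trans (sum_le_sum_of_subset_of_nonneg (subset_univ _)
      fun ψ _ _ => Complex.normSq_nonneg _) (le_of_eq ?_)
    have h := sum_mul_conj (G := G ⧸ N) (x : G ⧸ N) (x : G ⧸ N)
    rw [if_pos (IsConj.refl _)] at h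
    apply Complex.ofReal_injective
    rw [Complex.ofReal_sum, Complex.ofReal_natCast, ← h]
    exact sum_congr rfl fun ψ _ => (Complex.mul_conj _).symm
  · rw [himg, sum_image fun a _ b _ h => hinj h,
      sum_congr rfl (g := fun ψ : IrrCharacter (G ⧸ N) => charDegree (ψ : G ⧸ N → ℂ) ^ 2)
        (fun ψ _ => by
          show (⌊((ψ : G ⧸ N → ℂ) ((1 : G) : G ⧸ N)).re⌋₊) ^ 2 = _
          rw [QuotientGroup.mk_one]; rfl)]
    have htot : ∑ ψ : IrrCharacter (G ⧸ N), charDegree (ψ : G ⧸ N → ℂ) ^ 2 = N.index := by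
      rw [Subgroup.index_eq_card]
      apply Nat.cast_injective (R := ℂ)
      rw [← sum_degree_sq]
      push_cast
      exact sum_congr rfl fun ψ _ => by rw [(charDegree_spec ψ).1]
    constructor
    · intro h B hB
      obtain ⟨ψ, rfl⟩ := hB
      refine (eq_blockOf_of_mem CfsgLib.ZerosCodegree.isPBlock_principalBlock ?_).symm
      by_contra hψ
      have h2 := sum_lt_sum_of_subset (subset_univ (blockFinset (principalBlock M (G ⧸ N))))
        (mem_univ ψ) (by simpa using hψ) (pow_pos (charDegree_spec ψ).2.1 2)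
        (f := fun ψ : IrrCharacter (G ⧸ N) => charDegree (ψ : G ⧸ N → ℂ) ^ 2) fun _ _ _ => Nat.zero_le _
      rw [h, htot] at h2
      exact lt_irrefl _ h2
    · intro h
      rw [← htot]
      refine sum_congr (eq_univ_of_forall fun ψ => mem_blockFinset.2 ?_) fun _ _ => rfl
      rw [← h _ (isPBlock_blockOf ψ)]
      exact mem_blockOf_self ψ

end Cfsg.Agent.S4735
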