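import Cfsg.Statements.S4742
import Cfsg.Agent.Lib.BrauerCharacters.ClassMul
-- import your own Cfsg.Agent.* helpers here

set_option autoImplicit false
open Cfsg

namespace Cfsg.Agent.S4742

/-- Let p ≠ q be primes dividing the order of the finite group G, and suppose the centralizer of every non-identity p-element of G has order prime to q. Then either G has an irreducible character of p-defect zero, or for every non-identity q-element z of G there are conjugates g, h of z such that g h⁻¹ is a non-identity p-element. -/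
theorem result {G : Type*} [Group G] [Finite G] (p q : ℕ) [Fact p.Prime] [Fact q.Prime] (hppq : p ≠ q) (hpG : p ∣ Nat.card G) (hqG : q ∣ Nat.card G) (hC : ∀ g : G, g ≠ 1 → (∃ k : ℕ, orderOf g = p ^ k) → ¬ q ∣ Nat.card ↥(Subgroup.centralizer ({g} : Set G))) : (∃ χ : Cfsg.IrrCharacter G, (Cfsg.charDegree (χ : G → ℂ)).factorization p = (Nat.card G).factorization p) ∨ ∀ z : G, z ≠ 1 → (∃ k : ℕ, orderOf z = q ^ k) → ∃ g h : G, IsConj z g ∧ IsConj z h ∧ g * h⁻¹ ≠ 1 ∧ ∃ k : ℕ, orderOf (g * h⁻¹) = p ^ k := by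
  classical
  have := Fintype.ofFinite G
  have := Fintype.ofFinite (Cfsg.IrrCharacter G)
  have hp : p.Prime := Fact.out
  have hq : q.Prime := Fact.out
  by_contra hcon
  push Not at hcon
  obtain ⟨hno, z, hz1, hzq, hpair⟩ := hcon
  obtain ⟨P⟩ := (inferInstance : Nonempty (Sylow p G))
  have hCz : ¬ p ∣ Nat.card (Subgroup.centralizer ({z} : Set G)) := by
    intro hdvd
    obtain ⟨g, hg⟩ := exists_prime_orderOf_dvd_card' p hdvd
    have hgo : orderOf (g : G) = p := by rw [Subgroup.orderOf_coe, hg]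
    obtain ⟨k, hk⟩ := hzq
    have hk0 : k ≠ 0 := fun h => hz1 (by rw [h, pow_zero] at hk; exact orderOf_eq_one_iff.1 hk)
    refine hC g (fun h => hp.ne_one (by rw [← hgo, h, orderOf_one])) ⟨1, by simpa using hgo⟩ ?_
    have hzmem : z ∈ Subgroup.centralizer ({(g : G)} : Set G) := by
      refine Subgroup.mem_centralizer_iff.2 fun y hy => ?_
      rw [Set.mem_singleton_iff.1 hy]
      exact (Subgroup.mem_centralizer_iff.1 g.2 z rfl).symm
    exact (hk ▸ dvd_pow_self q hk0 : q ∣ orderOf z).trans (Subgroup.orderOf_dvd_natCard _ hzmem)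
  set I := (Subgroup.centralizer ({z} : Set G)).index with hI
  set a := (Nat.card G).factorization p with ha
  have hI0 : (I : ℂ) ≠ 0 := Nat.cast_ne_zero.2 Subgroup.index_ne_zero_of_finite
  have hIa : p ^ a ∣ I := by
    have h : p ^ a ∣ Nat.card (Subgroup.centralizer ({z} : Set G)) * I := by
      rw [hI, Subgroup.card_mul_index]; exact Nat.ordProj_dvd _ _
    exact (Nat.Coprime.pow_left a (hp.coprime_iff_not_dvd.2 hCz)).dvd_of_dvd_mul_left h
  obtain ⟨k, hk⟩ := hIa
  have key := CfsgLib.BrauerCharacters.sum_weight_pairs z z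
    (fun u => if u ∈ (P : Subgroup G) then (1 : ℂ) else 0)
  have hLHS : ∑ u : G, (if u ∈ (P : Subgroup G) then (1 : ℂ) else 0) *
      ((Finset.univ.filter fun y => IsConj z y ∧ IsConj z (y * u)).card : ℂ) = I := by
    rw [Finset.sum_eq_single 1]
    · simp only [mul_one, and_self, (P : Subgroup G).one_mem, if_true, one_mul]
      rw [hI, ← CfsgLib.CharTheory.card_isConj, Nat.card_eq_fintype_card, Fintype.card_subtype]
    · intro u _ hu1
      by_cases huP : u ∈ (P : Subgroup G)
      · rw [Finset.filter_eq_empty_iff.2, Finset.card_empty, Nat.cast_zero, mul_zero]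
        intro y _ ⟨h1, h2⟩
        obtain ⟨j, hj⟩ := IsPGroup.iff_orderOf.1 P.2 ⟨u, huP⟩
        rw [Subgroup.orderOf_mk] at hj
        refine hpair (y * u) y h2 h1 (fun h => hu1 ?_) j ?_
        · simpa using h
        · rw [← hj]; simpa using (MulAut.conj y).orderOf_eq u
      · simp [huP]
    · simp
  rw [hLHS] at key
  choose m hm using fun χ : Cfsg.IrrCharacter G =>
    CfsgLib.BrauerCharacters.exists_nat_sum_subgroup χ (P : Subgroup G)
  set m' := ordCompl[p] (Nat.card G) with hm'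
  have hPm' : Nat.card (P : Subgroup G) * m' = Nat.card G := by
    rw [P.card_eq_multiplicity]; exact Nat.ordProj_mul_ordCompl_eq_self _ _
  have ha1 : 1 ≤ a := hp.factorization_pos_of_dvd Nat.card_pos.ne' hpG
  have hdvd : ∀ χ : Cfsg.IrrCharacter G,
      Cfsg.charDegree (χ : G → ℂ) ∣ m' * p ^ (a - 1) := fun χ =>
    CfsgLib.BrauerCharacters.dvd_ordCompl_mul_pow hp Nat.card_pos.ne'
      (CfsgLib.BrauerCharacters.charDegree_spec χ).2.2 (by
        obtain ⟨-, hpos, hdvdG⟩ := CfsgLib.BrauerCharacters.charDegree_spec χ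
        intro h
        exact hno χ (le_antisymm
          ((Nat.factorization_le_iff_dvd hpos.ne' Nat.card_pos.ne').2 hdvdG p)
          ((hp.pow_dvd_iff_le_factorization hpos.ne').1 h)))
  choose r hr using hdvd
  have hGne : (Nat.card G : ℂ) ≠ 0 := by simp
  have key2 : (Nat.card G : ℂ) = ∑ χ : Cfsg.IrrCharacter G,
      Cfsg.centralChar (χ : G → ℂ) z * (starRingEnd ℂ) ((χ : G → ℂ) z) *
        ((Nat.card (P : Subgroup G) : ℂ) * m χ) := by
    simp only [hm] at key
    field_simp at key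
    apply mul_left_cancel₀ hI0
    rw [key, hI]
    congr 1
    exact Finset.sum_congr rfl fun χ _ => by ring
  have hmain : ((m' * m' : ℕ) : ℂ) = (p : ℂ) * ∑ χ : Cfsg.IrrCharacter G,
      (χ : G → ℂ) z * (starRingEnd ℂ) ((χ : G → ℂ) z) * ((k : ℂ) * (r χ : ℂ) * (m χ : ℂ)) := by
    have hP0 : (Nat.card (P : Subgroup G) : ℂ) ≠ 0 := by simp
    apply mul_left_cancel₀ hP0
    rw [← Nat.cast_mul, ← mul_assoc, hPm', Nat.cast_mul, key2, Finset.sum_mul, Finset.mul_sum,
      Finset.mul_sum]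
    refine Finset.sum_congr rfl fun χ _ => ?_
    obtain ⟨h1, h2, -⟩ := CfsgLib.BrauerCharacters.charDegree_spec χ
    have h2' : (Cfsg.charDegree (χ : G → ℂ) : ℂ) ≠ 0 := Nat.cast_ne_zero.2 h2.ne'
    have hpa : (p : ℂ) ^ a = (p : ℂ) * (p : ℂ) ^ (a - 1) := by
      rw [← pow_succ', Nat.sub_add_cancel ha1]
    have hr' : (m' : ℂ) * (p : ℂ) ^ (a - 1) = (Cfsg.charDegree (χ : G → ℂ) : ℂ) * r χ := by
      exact_mod_cast hr χ
    rw [Cfsg.centralChar, h1, ← hI, hk, Nat.cast_mul, Nat.cast_pow, hpa]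
    field_simp
    linear_combination ((χ : G → ℂ) z * (starRingEnd ℂ) ((χ : G → ℂ) z) * (k : ℂ) *
      (m χ : ℂ) * (p : ℂ)) * hr'
  have hnat : ∀ k : ℕ, IsIntegral ℤ (k : ℂ) := fun k => by
    simpa using isIntegral_algebraMap (R := ℤ) (A := ℂ) (x := (k : ℤ))
  have hdiv := CfsgLib.BrauerCharacters.dvd_of_eq_natCast_mul hp.ne_zero
    (IsIntegral.sum _ fun χ _ => ((CfsgLib.BrauerCharacters.isIntegral_apply χ z).mul
      (CfsgLib.BrauerCharacters.isIntegral_conj_apply χ z)).mul
      (((hnat k).mul (hnat _)).mul (hnat _))) hmain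
  exact Nat.not_dvd_ordCompl hp Nat.card_pos.ne' ((hp.dvd_mul.1 hdiv).elim id id)

end Cfsg.Agent.S4742
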