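import Cfsg.Statements.S4743
import Cfsg.Agent.Lib.BrauerCharacters.ClassMul
import Cfsg.Agent.Lib.BlockLocal.NormalInduce
import Cfsg.Agent.Lib.CharTheory.Ito
import Cfsg.Agent.Lib.Frobenius.BrauerPerm
import Cfsg.Agent.Lib.CoprimeAction.Abelian
import Cfsg.Agent.Lib.CoprimeAction.Sylow
import Cfsg.Agent.Lib.PSolvable.Basic
import Cfsg.Agent.Lib.Correspondences.Inflate
-- import your own Cfsg.Agent.* helpers here

set_option autoImplicit false
open Cfsg

namespace Cfsg.Agent.S4743

set_option linter.style.haveILetI false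
set_option linter.unusedSectionVars false

open Cfsg CfsgLib.CharTheory CfsgLib.BrauerCharacters CfsgLib.Clifford

variable {G : Type*} [Group G] [Finite G]

/-- If no element of order `r` fixes `θ`, then some character over `θ` has `r`-defect zero. -/
theorem exists_full (r : ℕ) [hr : Fact r.Prime] (N : Subgroup G) [N.Normal] (θ : IrrCharacter N)
    (hθ : ∀ x : G, orderOf x = r → conjChar N (θ : N → ℂ) x ≠ (θ : N → ℂ)) :
    ∃ χ : IrrCharacter G,
      (charDegree (χ : G → ℂ)).factorization r = (Nat.card G).factorization r := by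
  classical
  haveI := Fintype.ofFinite G
  haveI := Fintype.ofFinite N
  obtain ⟨χ, hχ⟩ := CfsgLib.BlockLocal.exists_over N θ
  refine ⟨χ, ?_⟩
  set T := inertia N (θ : N → ℂ)
  have hcard := card_conjOrbit N (θ : N → ℂ) T (mem_inertia N (θ : N → ℂ))
  have h1 := apply_one_eq N χ.2 θ.2 hχ
  obtain ⟨e, he⟩ := IsCharacter.exists_classInner_eq_nat
    (CfsgLib.Coherence.isCharacter_comp (IsIrrCharacter.isCharacter χ.2) N.subtype) θ
  rw [show classInner (fun n : N => (χ : G → ℂ) n) (θ : N → ℂ) = (e : ℂ) from he, hcard,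
    (charDegree_spec χ).1, (charDegree_spec θ).1] at h1
  obtain ⟨-, hpos, hdvd⟩ := charDegree_spec χ
  have hdeg : charDegree (χ : G → ℂ) = e * T.index * charDegree (θ : N → ℂ) := by exact_mod_cast h1
  have hT : ¬ r ∣ Nat.card T := fun h => by
    obtain ⟨x, hx⟩ := exists_prime_orderOf_dvd_card' r h
    exact hθ (x : G) (by rw [Subgroup.orderOf_coe, hx]) x.2
  refine le_antisymm ((Nat.factorization_le_iff_dvd hpos.ne' Nat.card_pos.ne').2 hdvd r) ?_
  rw [← T.card_mul_index, Nat.factorization_mul Nat.card_pos.ne' Subgroup.index_ne_zero_of_finite,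
    Finsupp.add_apply, Nat.factorization_eq_zero_of_not_dvd hT, zero_add]
  exact (Nat.factorization_le_iff_dvd Subgroup.index_ne_zero_of_finite hpos.ne').2
    (hdeg ▸ Dvd.dvd.mul_right (dvd_mul_left _ _) _) r

/-- A copy of `G`, acted on by conjugation. -/
def ConjPt (G : Type*) := G

instance (G : Type*) [Group G] : MulAction G (ConjPt G) :=
  MulAction.compHom G (MulAut.conj (G := G))

/-- A class of `N` fixed by a coprime operator contains an element commuting with it. -/
theorem exists_commute (N : Subgroup G) [hN : N.Normal] {z : G}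
    (hcop : (orderOf z).Coprime (Nat.card N)) (g : N)
    (hg : IsConj (⟨z * g * z⁻¹, hN.conj_mem (g : G) g.2 z⟩ : N) g) :
    ∃ g' : G, g' ∈ N ∧ orderOf g' = orderOf (g : G) ∧ Commute z g' := by
  let pt : G → ConjPt G := id
  have hsm : ∀ a w : G, a • pt w = pt (a * w * a⁻¹) := fun a w => rfl
  obtain ⟨c, hc⟩ := isConj_iff.1 hg.symm
  have hc' : z • pt (g : G) = (c : G) • pt (g : G) := (congrArg Subtype.val hc).symm
  let O : Subgroup G :=
    { carrier := {a | ∃ k ∈ N, a • pt (g : G) = k • pt (g : G)}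
      one_mem' := ⟨1, one_mem _, rfl⟩
      mul_mem' := by
        rintro a b ⟨k, hk, hka⟩ ⟨l, hl, hlb⟩
        refine ⟨a * l * a⁻¹ * k, mul_mem (hN.conj_mem l hl a) hk, ?_⟩
        rw [mul_smul, hlb, mul_smul (a * l * a⁻¹) k, ← hka, ← mul_smul, ← mul_smul,
          inv_mul_cancel_right]
      inv_mem' := by
        rintro a ⟨k, hk, hka⟩
        refine ⟨a⁻¹ * k⁻¹ * a, by simpa using hN.conj_mem k⁻¹ (inv_mem hk) a⁻¹, ?_⟩
        rw [mul_smul (a⁻¹ * k⁻¹) a, hka, ← mul_smul, inv_mul_cancel_right] }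
  have hle : Subgroup.zpowers z ≤ O := Subgroup.zpowers_le.2 ⟨c, c.2, hc'⟩
  obtain ⟨k, hk, hfix⟩ := CfsgLib.CoprimeAction.exists_fixed (A := Subgroup.zpowers z)
    (K := N) (by rw [Subgroup.normalizer_eq_top]; exact le_top)
    (by rwa [Nat.card_zpowers])
    (Or.inl (CfsgLib.CoprimeAction.isSolvable_of_isMulCommutative _)) (pt (g : G)) hle
  refine ⟨k * (g : G) * k⁻¹, hN.conj_mem _ g.2 k, ?_, ?_⟩
  · rw [← MulAut.conj_apply, MulEquiv.orderOf_eq]
  · have h : z * (k * (g : G) * k⁻¹) * z⁻¹ = k * (g : G) * k⁻¹ := hfix z (Subgroup.mem_zpowers z)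
    exact mul_inv_eq_iff_eq_mul.1 h

/-- A power of an element of non-trivial `r`-power order has order `r`. -/
theorem exists_pow_order {r : ℕ} [hr : Fact r.Prime] {H : Subgroup G} (hH : IsPGroup r H) {w : G}
    (hw : w ∈ H) (hw1 : w ≠ 1) : ∃ n : ℕ, orderOf (w ^ n) = r := by
  obtain ⟨j, hj⟩ := (IsPGroup.iff_orderOf.1 hH) ⟨w, hw⟩
  rw [Subgroup.orderOf_mk] at hj
  rcases j with _ | j
  · exact absurd (orderOf_eq_one_iff.1 (by simpa using hj)) hw1
  exact ⟨r ^ j, by
    rw [orderOf_pow' _ (pow_ne_zero _ hr.out.ne_zero), hj,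
      Nat.gcd_eq_right (pow_dvd_pow r (Nat.le_succ j)), pow_succ',
      Nat.mul_div_cancel _ (pow_pos hr.out.pos j)]⟩

/-- A `p`-element is conjugate into a given Sylow subgroup. -/
theorem exists_conj_mem {p : ℕ} [Fact p.Prime] (S : Sylow p G) {x : G} (hx : orderOf x = p) :
    ∃ g : G, g * x * g⁻¹ ∈ (S : Subgroup G) := by
  obtain ⟨T, hT⟩ := (IsPGroup.of_card (n := 1) (G := Subgroup.zpowers x)
    (by rw [Nat.card_zpowers, hx, pow_one])).exists_le_sylow
  obtain ⟨g, hg⟩ := MulAction.exists_smul_eq G T S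
  exact ⟨g, hg ▸ ⟨x, hT (Subgroup.mem_zpowers x), rfl⟩⟩

variable (p q : ℕ) [hp : Fact p.Prime] [hq : Fact q.Prime]

/-- Two commuting elements of order `p` generate the same subgroup if `q` divides the order of a
normal `p'`-subgroup. -/
theorem mem_zpowers_of_commute (hsym : ∀ x y : G, orderOf x = p → orderOf y = q → ¬ Commute x y)
    (N : Subgroup G) [N.Normal] (hpN : ¬ p ∣ Nat.card N) (hqN : q ∣ Nat.card N) {a b : G}
    (ha : orderOf a = p) (hb : orderOf b = p) (hab : Commute a b) : b ∈ Subgroup.zpowers a := by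
  by_contra hnot
  set A := Subgroup.closure ({a, b} : Set G) with hA
  have haA : a ∈ A := Subgroup.subset_closure (Or.inl rfl)
  have hbA : b ∈ A := Subgroup.subset_closure (Or.inr rfl)
  have hAc : A ≤ Subgroup.centralizer (A : Set G) := by
    rw [hA, Subgroup.centralizer_closure, Subgroup.closure_le]
    rintro x hx
    refine Subgroup.mem_centralizer_iff.2 fun y hy => ?_
    rcases hx with rfl | rfl <;> rcases hy with rfl | rfl
    exacts [rfl, hab.symm.eq, hab.eq, rfl]
  haveI : IsMulCommutative A :=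
    ⟨⟨fun x y => Subtype.ext (Subgroup.mem_centralizer_iff.1 (hAc y.2) x x.2)⟩⟩
  have hexp : ∀ x ∈ A, x ^ p = 1 := by
    intro x hx
    rw [hA] at hx
    induction hx using Subgroup.closure_induction with
    | mem y hy =>
      rcases hy with rfl | rfl
      · rw [← ha, pow_orderOf_eq_one]
      · rw [← hb, pow_orderOf_eq_one]
    | one => exact one_pow p
    | mul y z hy hz h1 h2 =>
      have hc : Commute y z :=
        (Subgroup.mem_centralizer_iff.1 (hAc (hA ▸ hz)) y (hA ▸ hy))
      rw [hc.mul_pow, h1, h2, one_mul]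
    | inv y hy h1 => rw [inv_pow, h1, inv_one]
  have hord : ∀ x ∈ A, x ≠ 1 → orderOf x = p := fun x hx hx1 =>
    ((Nat.dvd_prime hp.out).1 (orderOf_dvd_of_pow_eq_one (hexp x hx))).resolve_left
      fun h => hx1 (orderOf_eq_one_iff.1 h)
  have hnc : ¬ IsCyclic A := by
    intro hcyc
    obtain ⟨g, hg⟩ := hcyc.exists_generator
    have hcard : Nat.card A ∣ p := by
      rw [← orderOf_eq_card_of_forall_mem_zpowers hg]
      exact orderOf_dvd_of_pow_eq_one (Subtype.ext (by simpa using hexp g g.2))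
    have hle : Subgroup.zpowers a ≤ A := Subgroup.zpowers_le.2 haA
    have heq : Subgroup.zpowers a = A := Subgroup.eq_of_le_of_card_ge hle
      (by rw [Nat.card_zpowers, ha]; exact Nat.le_of_dvd hp.out.pos hcard)
    exact hnot (heq ▸ hbA)
  have hpA : IsPGroup p A := fun x => ⟨1, Subtype.ext (by simpa using hexp x x.2)⟩
  have hcop : (Nat.card A).Coprime (Nat.card N) := by
    obtain ⟨n, hn⟩ := IsPGroup.iff_card.1 hpA
    rw [hn]
    exact (hp.out.coprime_iff_not_dvd.2 hpN).pow_left _
  obtain ⟨Q, hQ⟩ := CfsgLib.CoprimeAction.exists_invariant_sylow (A := A) (K := N)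
    (by rw [Subgroup.normalizer_eq_top]; exact le_top) hcop
    (Or.inl (CfsgLib.CoprimeAction.isSolvable_of_isMulCommutative _)) q
  set R := (Q : Subgroup N).map N.subtype with hR
  have hRle : R ≤ N := Subgroup.map_subtype_le _
  have hsup := CfsgLib.CoprimeAction.iSup_centralizers_eq hnc hQ
    (hcop.coprime_dvd_right (Subgroup.card_dvd_of_le hRle))
  have hbot : R = ⊥ := by
    rw [← hsup, eq_bot_iff]
    refine iSup₂_le fun e he => ?_
    intro w hw
    rw [Subgroup.mem_bot]
    by_contra hw1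
    obtain ⟨n, hn⟩ := exists_pow_order (Q.2.map N.subtype) hw.1 hw1
    refine hsym e (w ^ n) (hord e he.1 he.2) hn (Commute.pow_right ?_ n)
    exact (Subgroup.mem_centralizer_singleton_iff.1 hw.2).symm
  have h1 : Nat.card (Q : Subgroup N) = 1 := by
    rw [Nat.card_congr (Subgroup.equivMapOfInjective (Q : Subgroup N) N.subtype
      N.subtype_injective).toEquiv, ← hR, hbot, Subgroup.card_bot]
  rw [Q.card_eq_multiplicity] at h1
  exact (Nat.one_lt_pow ((Nat.Prime.factorization_pos_of_dvd hq.out Nat.card_pos.ne' hqN).ne')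
    hq.out.one_lt).ne' h1

/-- The case of a `p`-solvable group. -/
theorem main (hpG : p ∣ Nat.card G) (hqG : q ∣ Nat.card G) (hne : p ≠ q)
    (hsym : ∀ x y : G, orderOf x = p → orderOf y = q → ¬ Commute x y)
    (hsolv : IsPSolvable p G) :
    (∃ χ : IrrCharacter G,
      (charDegree (χ : G → ℂ)).factorization p = (Nat.card G).factorization p) ∨
    ∃ χ : IrrCharacter G,
      (charDegree (χ : G → ℂ)).factorization q = (Nat.card G).factorization q := by
  classical
  set N := pPrimeCore p G with hNdef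
  have hpN : ¬ p ∣ Nat.card N := CfsgLib.Cores.not_dvd_card_pPrimeCore
  haveI := Fintype.ofFinite N
  have hNtop : N ≠ ⊤ := fun h => hpN (by rw [h, Subgroup.card_top]; exact hpG)
  have hcore0 : pPrimeCore p (G ⧸ N) = ⊥ := CfsgLib.Cores.pPrimeCore_quotient_pPrimeCore p
  have hP0 : pCore p (G ⧸ N) ≠ ⊥ :=
    (CfsgLib.PSolvable.core_quotient_ne_bot hsolv N hNtop).resolve_right (not_not.2 hcore0)
  have hP0p : IsPGroup p (pCore p (G ⧸ N)) := CfsgLib.Cores.isPGroup_pCore p _
  by_cases hqN : q ∣ Nat.card N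
  · left
    obtain ⟨S⟩ := (inferInstance : Nonempty (Sylow p G))
    haveI : Nontrivial (S : Subgroup G) := (Finite.one_lt_card_iff_nontrivial).1 (by
      rw [S.card_eq_multiplicity]
      exact Nat.one_lt_pow (Nat.Prime.factorization_pos_of_dvd hp.out Nat.card_pos.ne' hpG).ne'
        hp.out.one_lt)
    obtain ⟨z0, hz0⟩ : ∃ z0 : Subgroup.center (S : Subgroup G), z0 ≠ 1 := by
      haveI := S.2.center_nontrivial
      exact exists_ne 1
    obtain ⟨n, hz⟩ := exists_pow_order S.2 (z0 : (S : Subgroup G)).2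
      (fun h => hz0 (Subtype.ext (Subtype.ext h)))
    set z : G := ((z0 : (S : Subgroup G)) : G) ^ n with hzdef
    have hzc : ∀ s ∈ (S : Subgroup G), Commute z s := fun s hs =>
      (show Commute ((z0 : (S : Subgroup G)) : G) s from
        congrArg Subtype.val (Subgroup.mem_center_iff.1 z0.2 ⟨s, hs⟩).symm).pow_left n
    have huniq : ∀ s ∈ (S : Subgroup G), orderOf s = p → z ∈ Subgroup.zpowers s :=
      fun s hs hso => mem_zpowers_of_commute p q hsym N hpN hqN hso hz (hzc s hs).symm
    set M := (pCore p (G ⧸ N)).comap (QuotientGroup.mk' N) with hM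
    haveI : M.Normal := Subgroup.Normal.comap inferInstance _
    have hzM : z ∈ M := by
      have hdvd : p ∣ Nat.card M := by
        obtain ⟨k, hk⟩ := IsPGroup.iff_card.1 hP0p
        have hk0 : k ≠ 0 := fun h => hP0 (Subgroup.card_eq_one.1 (by rw [hk, h, pow_zero]))
        rw [hM, CfsgLib.Cores.card_comap_mk', hk]
        exact Dvd.dvd.mul_left (dvd_pow_self p hk0) _
      obtain ⟨m, hm⟩ := exists_prime_orderOf_dvd_card' p hdvd
      rw [← Subgroup.orderOf_coe] at hm
      obtain ⟨g, hg⟩ := exists_conj_mem S hm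
      refine (Subgroup.zpowers_le.2 ((inferInstance : M.Normal).conj_mem _ m.2 g))
        (huniq _ hg ?_)
      rw [← MulAut.conj_apply, MulEquiv.orderOf_eq, hm]
    set H := (S : Subgroup G) ⊔ N
    have hMH : M ≤ H := by
      have hle : pCore p (G ⧸ N) ≤ ((S : Subgroup G)).map (QuotientGroup.mk' N) :=
        hP0p.le_sylow_of_normal (S.mapSurjective (QuotientGroup.mk'_surjective N))
      refine (Subgroup.comap_mono hle).trans ?_
      rw [Subgroup.comap_map_eq, QuotientGroup.ker_mk']
    obtain ⟨y, hy⟩ := exists_prime_orderOf_dvd_card' q hqN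
    rw [← Subgroup.orderOf_coe] at hy
    obtain ⟨θ, hθ⟩ : ∃ θ : IrrCharacter N, conjChar N (θ : N → ℂ) z ≠ (θ : N → ℂ) := by
      by_contra hall
      push Not at hall
      obtain ⟨g', -, hg', hcomm⟩ := exists_commute N
        (by rw [hz]; exact hp.out.coprime_iff_not_dvd.2 hpN) y
        (isConj_of_forall_irr fun χ => congrFun (hall χ) y)
      exact hsym z g' hz (hg'.trans hy) hcomm
    refine exists_full p N θ fun x hx hfix => hθ ?_
    have hxM : x ∈ M := by
      obtain ⟨g, hg⟩ := exists_conj_mem S hx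
      have ho : orderOf (g * x * g⁻¹) = p := by rw [← MulAut.conj_apply, MulEquiv.orderOf_eq, hx]
      have hgz : Subgroup.zpowers z = Subgroup.zpowers (g * x * g⁻¹) :=
        Subgroup.eq_of_le_of_card_ge (Subgroup.zpowers_le.2 (huniq _ hg ho))
          (by rw [Nat.card_zpowers, Nat.card_zpowers, hz, ho])
      have h1 : g * x * g⁻¹ ∈ M :=
        Subgroup.zpowers_le.2 hzM (hgz ▸ Subgroup.mem_zpowers _)
      simpa [mul_assoc] using (inferInstance : M.Normal).conj_mem _ h1 g⁻¹
    obtain ⟨⟨h, hhH⟩, hh⟩ := exists_conj_mem (S.subtype (le_sup_left : _ ≤ H))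
      (x := (⟨x, hMH hxM⟩ : H)) (by rw [Subgroup.orderOf_mk, hx])
    replace hh : h * x * h⁻¹ ∈ (S : Subgroup G) := hh
    obtain ⟨s, hs, m, hm, rfl⟩ := Subgroup.mem_sup_of_normal_right.1 hhH
    have hS : m * x * m⁻¹ ∈ (S : Subgroup G) := by
      have := mul_mem (mul_mem (inv_mem hs) hh) hs
      simpa [mul_assoc] using this
    have hT : m * x * m⁻¹ ∈ inertia N (θ : N → ℂ) :=
      mul_mem (mul_mem (le_inertia N (IsIrrCharacter.isClassFunction θ.2) hm) hfix)
        (inv_mem (le_inertia N (IsIrrCharacter.isClassFunction θ.2) hm))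
    exact Subgroup.zpowers_le.2 hT
      (huniq _ hS (by rw [← MulAut.conj_apply, MulEquiv.orderOf_eq, hx]))
  · right
    set P := pCore p (G ⧸ N)
    haveI := Fintype.ofFinite P
    have hsym' : ∀ x y : G ⧸ N, orderOf x = p → orderOf y = q → ¬ Commute x y := by
      intro x y hx hy hc
      obtain ⟨g, hg⟩ := QuotientGroup.mk'_surjective N (x * y)
      have ho : orderOf (x * y) = p * q := by
        rw [hc.orderOf_mul_eq_mul_orderOf_of_coprime, hx, hy]
        rw [hx, hy]
        exact (Nat.coprime_primes hp.out hq.out).2 hne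
      obtain ⟨k, hk⟩ : p * q ∣ orderOf g := by
        rw [← ho, ← hg]; exact orderOf_map_dvd _ g
      have hk0 : k ≠ 0 := fun h => by rw [h, mul_zero] at hk; exact (orderOf_pos g).ne' hk
      refine hsym (g ^ (q * k)) (g ^ (p * k)) ?_ ?_ (Commute.pow_pow_self g _ _)
      · rw [orderOf_pow' _ (mul_ne_zero hq.out.ne_zero hk0), hk, mul_assoc,
          Nat.gcd_mul_left_left, Nat.mul_div_cancel _
            (Nat.pos_of_ne_zero (mul_ne_zero hq.out.ne_zero hk0))]
      · rw [orderOf_pow' _ (mul_ne_zero hp.out.ne_zero hk0), hk, mul_comm p q, mul_assoc,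
          Nat.gcd_mul_left_left, Nat.mul_div_cancel _
            (Nat.pos_of_ne_zero (mul_ne_zero hp.out.ne_zero hk0))]
    obtain ⟨m, hm, hm1⟩ := P.bot_or_exists_ne_one.resolve_left hP0
    obtain ⟨θ, hθ⟩ := exists_irr_apply_ne (g := (⟨m, hm⟩ : P)) fun h => hm1 (congrArg Subtype.val h)
    obtain ⟨χ, hχ⟩ := exists_full q P θ (fun y hy hfix => by
      have hone : (θ : P → ℂ) = fun _ => 1 := CfsgLib.Frobenius.eq_one_of_fixed
        (fun g : P => ⟨y * g * y⁻¹, (inferInstance : P.Normal).conj_mem (g : G ⧸ N) g.2 y⟩)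
        (fun ψ => isIrrCharacter_conjChar P ψ.2 y) (Subtype.ext (by simp))
        (fun g hg => by
          by_contra hg1
          obtain ⟨k, hk⟩ := IsPGroup.iff_card.1 hP0p
          obtain ⟨g', hg'P, hg'o, hcomm⟩ := exists_commute P
            (by rw [hy, hk]; exact ((Nat.coprime_primes hq.out hp.out).2 hne.symm).pow_right _) g hg
          obtain ⟨j, hj⟩ := exists_pow_order hP0p hg'P fun h => by
            rw [h, orderOf_one, eq_comm, orderOf_eq_one_iff] at hg'o
            exact hg1 (Subtype.ext hg'o)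
          exact hsym' _ y hj hy (hcomm.symm.pow_left j))
        θ.2 hfix
      exact hθ (by rw [hone]))
    refine ⟨⟨fun g => (χ : G ⧸ N → ℂ) (QuotientGroup.mk' N g),
      CfsgLib.Correspondences.isIrrCharacter_comp_of_surjective χ.2 _
        (QuotientGroup.mk'_surjective N)⟩, ?_⟩
    have hd : charDegree (fun g => (χ : G ⧸ N → ℂ) (QuotientGroup.mk' N g)) =
        charDegree (χ : G ⧸ N → ℂ) := by
      unfold charDegree
      simp
    rw [hd, hχ, N.card_eq_card_quotient_mul_card_subgroup,
      Nat.factorization_mul Nat.card_pos.ne' Nat.card_pos.ne', Finsupp.add_apply,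
      Nat.factorization_eq_zero_of_not_dvd hqN, add_zero]

/-- Let p ≠ q be primes dividing the order of the finite group G, suppose the centralizer of every non-identity p-element has order prime to q, and suppose G is p-solvable or q-solvable. Then G has an irreducible character of p-defect zero or an irreducible character of q-defect zero. -/
theorem result {G : Type*} [Group G] [Finite G] (p q : ℕ) [Fact p.Prime] [Fact q.Prime] (hppq : p ≠ q) (hpG : p ∣ Nat.card G) (hqG : q ∣ Nat.card G) (hC : ∀ g : G, g ≠ 1 → (∃ k : ℕ, orderOf g = p ^ k) → ¬ q ∣ Nat.card ↥(Subgroup.centralizer ({g} : Set G))) (hsolv : Cfsg.IsPSolvable p G ∨ Cfsg.IsPSolvable q G) : (∃ χ : Cfsg.IrrCharacter G, (Cfsg.charDegree (χ : G → ℂ)).factorization p = (Nat.card G).factorization p) ∨ (∃ χ : Cfsg.IrrCharacter G, (Cfsg.charDegree (χ : G → ℂ)).factorization q = (Nat.card G).factorization q) := by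
  have hsym : ∀ x y : G, orderOf x = p → orderOf y = q → ¬ Commute x y := by
    intro x y hx hy hc
    refine hC x (fun h => ?_) ⟨1, by rw [hx, pow_one]⟩ ?_
    · rw [h, orderOf_one] at hx
      exact (Fact.out : p.Prime).ne_one hx.symm
    · rw [← hy]
      exact Subgroup.orderOf_dvd_natCard _ (Subgroup.mem_centralizer_singleton_iff.2 hc.symm.eq)
  rcases hsolv with h | h
  · exact main p q hpG hqG hppq hsym h
  · exact (main q p hqG hpG hppq.symm (fun x y hx hy hc => hsym y x hy hx hc.symm) h).symm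

end Cfsg.Agent.S4743
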