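import Cfsg.Statements.S4744
import Cfsg.Agent.Lib.BrauerCharacters.NoTwoP
import Cfsg.Agent.Lib.Involutions.PrincipalBlock

set_option autoImplicit false
open Cfsg
open CfsgLib.BrauerCharacters

namespace Cfsg.Agent.S4744

/-- Let p be an odd prime and G a finite group of even order divisible by p in which the centralizer of every non-identity p-element has odd order. Then either G has an irreducible character of p-defect zero, or the normalizer of every Sylow p-subgroup P of G has even order and P is abelian. -/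
theorem result {G : Type*} [Group G] [Finite G] (p : ℕ) [Fact p.Prime] (hp2 : p ≠ 2) (hpG : p ∣ Nat.card G) (h2G : 2 ∣ Nat.card G) (hC : ∀ g : G, g ≠ 1 → (∃ k : ℕ, orderOf g = p ^ k) → Odd (Nat.card ↥(Subgroup.centralizer ({g} : Set G)))) : (∃ χ : Cfsg.IrrCharacter G, (Cfsg.charDegree (χ : G → ℂ)).factorization p = (Nat.card G).factorization p) ∨ ∀ P : Sylow p G, Even (Nat.card ↥(Subgroup.normalizer ((P : Subgroup G) : Set G))) ∧ IsMulCommutative ↥(P : Subgroup G) := by
  classical
  have : Fintype G := Fintype.ofFinite G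
  have hp : p.Prime := Fact.out
  refine or_iff_not_imp_left.2 fun hcon => ?_
  simp only [not_exists] at hcon
  have hd0 : ∀ χ : IrrCharacter G,
      (charDegree (χ : G → ℂ)).factorization p < (Nat.card G).factorization p := fun χ => by
    obtain ⟨-, hpos, hdvd⟩ := charDegree_spec χ
    exact lt_of_le_of_ne ((Nat.factorization_le_iff_dvd hpos.ne' Nat.card_pos.ne').2 hdvd p) (hcon χ)
  have h2p : ∀ g : G, orderOf g ≠ 2 * p := by
    intro g hg
    have h2 : orderOf (g ^ 2) = p := by
      rw [orderOf_pow' _ two_ne_zero, hg, Nat.gcd_eq_right (dvd_mul_right 2 p),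
        Nat.mul_div_cancel_left _ two_pos]
    have hne : g ^ 2 ≠ 1 := fun h => hp.ne_one (by rw [← h2, h, orderOf_one])
    have hgp : orderOf (g ^ p) = 2 := by
      rw [orderOf_pow' _ hp.ne_zero, hg, Nat.gcd_eq_right (dvd_mul_left p 2),
        Nat.mul_div_cancel _ hp.pos]
    have hmem : g ^ p ∈ Subgroup.centralizer ({g ^ 2} : Set G) :=
      Subgroup.mem_centralizer_singleton_iff.2 (Commute.pow_pow (Commute.refl g) _ _).eq
    exact (Nat.not_even_iff_odd.2 (hC _ hne ⟨1, by rw [pow_one, h2]⟩))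
      (even_iff_two_dvd.2 (by have h := Subgroup.orderOf_dvd_natCard _ hmem; rwa [hgp] at h))
  obtain ⟨M, hM⟩ := CfsgLib.Involutions.exists_isPModular hp
  have : M.IsPrime := hM.2.1.isPrime
  have : Fact (Nat.Prime 2) := ⟨Nat.prime_two⟩
  obtain ⟨s0, hs0⟩ := exists_prime_orderOf_dvd_card' (G := G) 2 h2G
  obtain ⟨u, x, k, hsu, hx, hux⟩ := exists_inverted hM hp2 h2p hd0 hs0
  have hu : orderOf u = 2 := by
    obtain ⟨c, hc⟩ := isConj_iff.1 hsu
    rw [← hc, show c * s0 * c⁻¹ = MulAut.conj c s0 from rfl]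
    exact (orderOf_injective (MulAut.conj c).toMonoidHom (MulAut.conj c).injective s0).trans hs0
  obtain ⟨P0, hP0⟩ := exists_sylow_inverted hp2 h2p hu hx hux
  have hcomm0 : ∀ a ∈ (P0 : Subgroup G), ∀ b ∈ (P0 : Subgroup G), a * b = b * a := by
    intro a ha b hb
    have h1 := hP0 _ ((P0 : Subgroup G).mul_mem ha hb)
    rw [show u * (a * b) * u⁻¹ = (u * a * u⁻¹) * (u * b * u⁻¹) by group, hP0 a ha, hP0 b hb,
      ← mul_inv_rev, inv_inj] at h1
    exact h1.symm
  intro P
  obtain ⟨g, hg⟩ := MulAction.exists_smul_eq G P0 P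
  refine ⟨?_, ?_⟩
  · set v := g * u * g⁻¹ with hvdef
    have hinv : ∀ q ∈ (P : Subgroup G), v * q * v⁻¹ = q⁻¹ := by
      intro q hq
      rw [← hg] at hq
      obtain ⟨r, hr, rfl⟩ := hq
      show v * (g * r * g⁻¹) * v⁻¹ = (g * r * g⁻¹)⁻¹
      rw [hvdef, show g * u * g⁻¹ * (g * r * g⁻¹) * (g * u * g⁻¹)⁻¹ = g * (u * r * u⁻¹) * g⁻¹
        by group, hP0 r hr]
      group
    have hord : orderOf v = 2 := by
      rw [hvdef, show g * u * g⁻¹ = MulAut.conj g u from rfl]
      exact (orderOf_injective (MulAut.conj g).toMonoidHom (MulAut.conj g).injective u).trans hu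
    have hvv : v * v = 1 := by
      have h := pow_orderOf_eq_one v
      rwa [hord, pow_two] at h
    have hv : v ∈ Subgroup.normalizer ((P : Subgroup G) : Set G) := by
      rw [Subgroup.mem_normalizer_iff]
      intro q
      refine ⟨fun hq => by rw [hinv q hq]; exact inv_mem hq, fun hq => ?_⟩
      have h1 := hinv _ hq
      rw [show v * (v * q * v⁻¹) * v⁻¹ = (v * v) * q * (v * v)⁻¹ by group, hvv, one_mul, inv_one,
        mul_one] at h1
      rw [h1]
      exact inv_mem hq
    exact even_iff_two_dvd.2 (hord ▸ Subgroup.orderOf_dvd_natCard _ hv)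
  · refine ⟨⟨fun a b => Subtype.ext ?_⟩⟩
    have hmem : ∀ c : (P : Subgroup G), g⁻¹ * (c : G) * g ∈ (P0 : Subgroup G) := fun c => by
      have h : (c : G) ∈ ((g • P0 : Sylow p G) : Subgroup G) := by rw [hg]; exact c.2
      obtain ⟨r, hr, hrc⟩ := h
      rw [← hrc]
      show g⁻¹ * (g * r * g⁻¹) * g ∈ _
      rw [show g⁻¹ * (g * r * g⁻¹) * g = r by group]
      exact hr
    have h := hcomm0 _ (hmem a) _ (hmem b)
    rw [show g⁻¹ * (a : G) * g * (g⁻¹ * (b : G) * g) = g⁻¹ * ((a : G) * b) * g by group,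
      show g⁻¹ * (b : G) * g * (g⁻¹ * (a : G) * g) = g⁻¹ * ((b : G) * a) * g by group] at h
    exact mul_left_cancel (mul_right_cancel h)

end Cfsg.Agent.S4744
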