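import Cfsg.Statements.S4746
import Cfsg.Agent.Lib.BrauerCharacters.NoTwoP
import Cfsg.Agent.Lib.BrauerCharacters.Projection
import Cfsg.Agent.Lib.Blocks.Knorr
-- import your own Cfsg.Agent.* helpers here

set_option autoImplicit false
open Cfsg

namespace Cfsg.Agent.S4746

set_option linter.style.haveILetI false

open Cfsg CfsgLib.CharTheory CfsgLib.BrauerCharacters Finset
open scoped ComplexConjugate

/-- The square of a sum of algebraic integers is congruent to the sum of the squares modulo 2. -/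
theorem exists_sq_sum {ι : Type*} (s : Finset ι) (f : ι → ℂ) (hf : ∀ i, IsIntegral ℤ (f i)) :
    ∃ t : ℂ, IsIntegral ℤ t ∧ (∑ i ∈ s, f i) ^ 2 = (∑ i ∈ s, f i ^ 2) + 2 * t := by
  classical
  induction s using Finset.induction with
  | empty => exact ⟨0, isIntegral_zero, by simp⟩
  | insert a s ha ih =>
    obtain ⟨t, ht, h⟩ := ih
    refine ⟨t + f a * ∑ i ∈ s, f i, ht.add ((hf a).mul (IsIntegral.sum _ fun i _ => hf i)), ?_⟩
    rw [sum_insert ha, sum_insert ha, add_sq, h]
    ring

/-- A non-trivial real element with centralizer of odd order forces an even degree. -/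
theorem exists_even_degree {G : Type*} [Group G] [Fintype G] {x : G} (hx : x ≠ 1)
    (hreal : IsConj x x⁻¹) (hodd : Odd (Nat.card (Subgroup.centralizer ({x} : Set G)))) :
    ∃ χ : IrrCharacter G, Even (charDegree (χ : G → ℂ)) := by
  classical
  haveI := Fintype.ofFinite (IrrCharacter G)
  by_contra hcon
  push Not at hcon
  choose m hm using fun χ => Nat.not_even_iff_odd.1 (hcon χ)
  have hreal' : ∀ χ : IrrCharacter G, conj ((χ : G → ℂ) x) = (χ : G → ℂ) x := fun χ => by
    rw [conj_apply]
    exact (irr_apply_eq_of_isConj hreal χ).symm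
  have h1 := sum_mul_conj x x
  rw [if_pos (IsConj.refl x)] at h1
  simp only [hreal', ← sq] at h1
  have h2 := sum_degree_mul x
  rw [if_neg hx] at h2
  obtain ⟨t, ht, h3⟩ := exists_sq_sum univ (fun χ : IrrCharacter G => (χ : G → ℂ) x)
    fun χ => isIntegral_apply χ x
  set S := ∑ χ : IrrCharacter G, (m χ : ℂ) * (χ : G → ℂ) x
  have h4 : ∑ χ : IrrCharacter G, (χ : G → ℂ) x = -(2 * S) := by
    refine eq_neg_of_add_eq_zero_left ?_
    rw [← h2, mul_sum, ← sum_add_distrib]
    refine sum_congr rfl fun χ _ => ?_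
    rw [(charDegree_spec χ).1, hm χ]
    push_cast
    ring
  set c := Nat.card (Subgroup.centralizer ({x} : Set G))
  have h5 : ((c : ℤ) : ℂ) = ((2 : ℕ) : ℂ) * (2 * S ^ 2 - t) := by
    rw [h4, h1] at h3
    push_cast
    linear_combination -h3
  have hS : IsIntegral ℤ S := IsIntegral.sum _ fun χ _ =>
    (show IsIntegral ℤ ((m χ : ℂ)) from by
      simpa using isIntegral_algebraMap (R := ℤ) (A := ℂ) (x := (m χ : ℤ))).mul
      (isIntegral_apply χ x)
  have h6 := int_dvd_of_eq_mul_isIntegral two_ne_zero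
    (((isIntegral_one (R := ℤ) (B := ℂ)).add isIntegral_one |>.mul (hS.pow 2) |>.sub ht))
    (by rw [h5]; norm_num)
  exact (Nat.not_even_iff_odd.2 hodd) (even_iff_two_dvd.2 (Int.natCast_dvd_natCast.1 h6))

/-- Let p be an odd prime and G a finite group of even order divisible by p in which the centralizer of every non-identity p-element has odd order. Then G has an irreducible character of p-defect zero or an irreducible character of even degree. -/
theorem result {G : Type*} [Group G] [Finite G] (p : ℕ) [Fact p.Prime] (hp2 : p ≠ 2) (hpG : p ∣ Nat.card G) (h2G : 2 ∣ Nat.card G) (hC : ∀ g : G, g ≠ 1 → (∃ k : ℕ, orderOf g = p ^ k) → Odd (Nat.card ↥(Subgroup.centralizer ({g} : Set G)))) : (∃ χ : Cfsg.IrrCharacter G, (Cfsg.charDegree (χ : G → ℂ)).factorization p = (Nat.card G).factorization p) ∨ ∃ χ : Cfsg.IrrCharacter G, Even (Cfsg.charDegree (χ : G → ℂ)) := by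
  classical
  haveI := Fintype.ofFinite G
  by_cases hd : ∃ χ : IrrCharacter G,
      (charDegree (χ : G → ℂ)).factorization p = (Nat.card G).factorization p
  · exact Or.inl hd
  right
  push Not at hd
  have hd0 : ∀ χ : IrrCharacter G,
      (charDegree (χ : G → ℂ)).factorization p < (Nat.card G).factorization p := fun χ => by
    obtain ⟨-, hpos, hdvd⟩ := charDegree_spec χ
    exact lt_of_le_of_ne ((Nat.factorization_le_iff_dvd hpos.ne' Nat.card_pos.ne').2 hdvd p) (hd χ)
  have h2p : ∀ g : G, orderOf g ≠ 2 * p := fun g hg => by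
    have hx : orderOf (g ^ 2) = p := by
      rw [orderOf_pow' _ two_ne_zero, hg, Nat.gcd_mul_right_left, Nat.mul_div_cancel_left _ two_pos]
    have hodd := hC (g ^ 2) (fun h => by rw [h, orderOf_one] at hx; exact (Fact.out : p.Prime).ne_one hx.symm)
      ⟨1, by rw [hx, pow_one]⟩
    have hdvd := Subgroup.orderOf_dvd_natCard _
      (Subgroup.mem_centralizer_singleton_iff.2 ((Commute.refl g).pow_right 2).eq)
    rw [hg] at hdvd
    exact (Nat.not_even_iff_odd.2 hodd) (even_iff_two_dvd.2 ((dvd_mul_right 2 p).trans hdvd))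
  haveI : Fact (Nat.Prime 2) := ⟨Nat.prime_two⟩
  obtain ⟨M, hM⟩ := CfsgLib.Blocks.exists_isPModular_of_prime (Fact.out : p.Prime)
  haveI : M.IsPrime := hM.2.1.isPrime
  obtain ⟨s, hs⟩ := exists_prime_orderOf_dvd_card' (G := G) 2 h2G
  obtain ⟨u, x, k, -, hx, hux⟩ := exists_inverted hM hp2 h2p hd0 hs
  have hx1 : x ≠ 1 := fun h => by
    rw [h, orderOf_one] at hx
    exact (Nat.one_lt_pow (Nat.succ_ne_zero k) (Fact.out : p.Prime).one_lt).ne hx
  exact exists_even_degree hx1 (isConj_iff.2 ⟨u, hux⟩) (hC x hx1 ⟨k + 1, hx⟩)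

end Cfsg.Agent.S4746
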