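import Cfsg.Statements.S4748
import Mathlib
import Cfsg.Agent.Lib.CoprimeAction.Glauberman
import Cfsg.Agent.Lib.CoprimeAction.Sylow
import Cfsg.Agent.Lib.Cores.PCore
import Cfsg.Agent.Lib.CharDegreesTheory.CharBasic
import Cfsg.Agent.Lib.Frobenius.Eigen
-- import your own Cfsg.Agent.* helpers here

set_option autoImplicit false
open scoped Pointwise commutatorElement
open Cfsg

namespace Cfsg.Agent.S4748

section LinAlg

variable {H V : Type*} [Group H] [Finite H] [AddCommGroup V] [Module ℂ V] [FiniteDimensional ℂ V]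

/-- A commutative subgroup has an eigencharacter that is nontrivial at a given element acting
nontrivially. -/
theorem exists_eigenchar (ρ : Representation ℂ H V) (A : Subgroup H)
    (hA : ∀ a ∈ A, ∀ b ∈ A, a * b = b * a) {z : H} (hz : z ∈ A) (hz1 : ρ z ≠ 1) :
    ∃ (v : V) (lam : A →* ℂ), v ≠ 0 ∧ (∀ a : A, ρ a v = lam a • v) ∧ lam ⟨z, hz⟩ ≠ 1 := by
  let R : Submodule ℂ V := LinearMap.range (ρ z - 1)
  have hR0 : R ≠ ⊥ := by
    intro h
    rw [LinearMap.range_eq_bot, sub_eq_zero] at h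
    exact hz1 h
  have hstab : ∀ a : A, ∀ w ∈ R, ρ (a : H) w ∈ R := by
    rintro a w ⟨x, rfl⟩
    refine ⟨ρ (a : H) x, ?_⟩
    simp only [LinearMap.sub_apply, Module.End.one_apply, map_sub]
    congr 1
    rw [← Module.End.mul_apply, ← map_mul, hA z hz a a.2, map_mul, Module.End.mul_apply]
  let σ : Representation ℂ A R :=
    { toFun := fun a => (ρ (a : H)).restrict (hstab a)
      map_one' := by ext x; simp
      map_mul' := fun a b => by ext x; simp [Module.End.mul_apply] }
  have : Nontrivial R := Submodule.nontrivial_iff_ne_bot.2 hR0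
  obtain ⟨v, hv0, hv⟩ := CfsgLib.Frobenius.exists_common_eigenvector σ ⊤
    (fun a _ b _ => Subtype.ext (hA _ a.2 _ b.2))
  choose c hc using fun a : A => hv a (Subgroup.mem_top a)
  have hc' : ∀ a : A, ρ (a : H) (v : V) = c a • (v : V) := fun a =>
    congrArg Subtype.val (hc a)
  have hv0' : (v : V) ≠ 0 := fun h => hv0 (Subtype.ext h)
  refine ⟨v, { toFun := c, map_one' := ?_, map_mul' := fun a b => ?_ }, hv0', hc', ?_⟩
  · apply smul_left_injective ℂ hv0'
    show c 1 • (v : V) = (1 : ℂ) • (v : V)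
    rw [← hc']; simp
  · apply smul_left_injective ℂ hv0'
    show c (a * b) • (v : V) = (c a * c b) • (v : V)
    rw [← hc', Subgroup.coe_mul, map_mul, Module.End.mul_apply, hc', map_smul, hc', smul_smul,
      mul_comm]
  · intro h1
    simp only [MonoidHom.coe_mk, OneHom.coe_mk] at h1
    obtain ⟨x, hx⟩ := v.2
    simp only [LinearMap.sub_apply, Module.End.one_apply] at hx
    have hzv : ρ z (v : V) = v := by
      have := hc' ⟨z, hz⟩
      rwa [h1, one_smul] at this
    have hk : ∀ k : ℕ, ρ (z ^ k) x = x + (k : ℂ) • (v : V) := by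
      intro k
      induction k with
      | zero => simp
      | succ k ih =>
        rw [pow_succ', map_mul, Module.End.mul_apply, ih, map_add, map_smul, hzv,
          show ρ z x = x + (v : V) by rw [← hx]; abel, Nat.cast_succ, add_smul, one_smul]
        abel
    have := hk (orderOf z)
    rw [pow_orderOf_eq_one, map_one, Module.End.one_apply, left_eq_add, smul_eq_zero] at this
    rcases this with h | h
    · exact (orderOf_pos z).ne' (by exact_mod_cast h)
    · exact hv0' h

omit [Finite H] in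
/-- Eigenvectors for distinct characters are independent. -/
theorem card_le_finrank_of_eigen (ρ : Representation ℂ H V) {ι : Type*} [Finite ι] (A : Subgroup H)
    (lam : ι → (A →* ℂ)) (hinj : Function.Injective lam) (v : ι → V) (hv0 : ∀ i, v i ≠ 0)
    (hv : ∀ i, ∀ a : A, ρ a (v i) = lam i a • v i) : Nat.card ι ≤ Module.finrank ℂ V := by
  classical
  have := Fintype.ofFinite ι
  rw [Nat.card_eq_fintype_card]
  apply LinearIndependent.fintype_card_le_finrank (b := v)
  rw [Fintype.linearIndependent_iff]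
  intro c hc i
  have key : ∀ f : Module.Dual ℂ V, c i * f (v i) = 0 := by
    intro f
    have hli := (linearIndependent_monoidHom A ℂ).comp lam hinj
    rw [Fintype.linearIndependent_iff] at hli
    refine hli (fun j => c j * f (v j)) ?_ i
    funext a
    have := congrArg (fun x => f (ρ a x)) hc
    simp only [map_sum, map_smul, map_zero, hv, smul_eq_mul] at this
    simp only [Finset.sum_apply, Pi.smul_apply, Function.comp_apply, smul_eq_mul, Pi.zero_apply]
    rw [← this]
    exact Finset.sum_congr rfl fun j _ => by ring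
  obtain ⟨f, hf⟩ : ∃ f : Module.Dual ℂ V, f (v i) ≠ 0 := by
    by_contra h
    push Not at h
    exact hv0 i ((Module.forall_dual_apply_eq_zero_iff ℂ (v i)).1 h)
  exact (mul_eq_zero.1 (key f)).resolve_right hf

/-- Operators commuting up to a nontrivial scalar span a space of dimension at least the number
of cosets. -/
theorem card_quotient_le_sq (σ : Representation ℂ H V) [Nontrivial V] (W : Subgroup H) [W.Normal]
    (h : ∀ u : H, u ∉ W → ∃ (v : H) (ζ : ℂ), ζ ≠ 1 ∧ σ v * σ u = ζ • (σ u * σ v)) :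
    Nat.card (H ⧸ W) ≤ Module.finrank ℂ V ^ 2 := by
  classical
  have := Fintype.ofFinite (H ⧸ W)
  rw [Nat.card_eq_fintype_card, sq, ← Module.finrank_linearMap ℂ ℂ V V]
  apply LinearIndependent.fintype_card_le_finrank (b := fun q : H ⧸ W => σ q.out)
  rw [Fintype.linearIndependent_iff]
  intro c hc i
  have htr : ∀ u : H, u ∉ W → LinearMap.trace ℂ V (σ u) = 0 := by
    intro u hu
    obtain ⟨v, ζ, hζ, hvu⟩ := h u hu
    have h1 : LinearMap.trace ℂ V (σ v * σ u * σ v⁻¹) = LinearMap.trace ℂ V (σ u) := by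
      rw [← map_mul, ← map_mul]
      exact Representation.char_conj σ u v
    rw [hvu, smul_mul_assoc, mul_assoc (σ u), ← map_mul σ v, mul_inv_cancel, map_one, mul_one,
      map_smul, smul_eq_mul] at h1
    by_contra h0
    exact hζ (mul_right_cancel₀ h0 (h1.trans (one_mul _).symm))
  have := congrArg (fun f => LinearMap.trace ℂ V (σ i.out⁻¹ * f)) hc
  simp only [Finset.mul_sum, mul_smul_comm, map_sum, map_smul, mul_zero, map_zero, ← map_mul,
    smul_eq_mul] at this
  rw [Finset.sum_eq_single i] at this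
  · simp only [inv_mul_cancel, map_one, LinearMap.trace_one] at this
    exact (mul_eq_zero.1 this).resolve_right (by simp [Module.finrank_pos.ne'])
  · intro j _ hji
    rw [htr, mul_zero]
    intro hmem
    apply hji
    rw [← QuotientGroup.out_eq' i, ← QuotientGroup.out_eq' j]
    exact (QuotientGroup.eq.2 hmem).symm
  · intro h; exact absurd (Finset.mem_univ i) h

end LinAlg

/-- In a `p`-solvable group without a normal `p`-subgroup, `O_{p'}` contains its centralizer. -/
theorem centralizer_le_pPrimeCore {G : Type*} [Group G] [Finite G] {p : ℕ} [Fact p.Prime]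
    (hsolv : Cfsg.IsPSolvable p G) (hcore : Cfsg.pCore p G = ⊥) :
    Subgroup.centralizer ((Cfsg.pPrimeCore p G : Subgroup G) : Set G) ≤ Cfsg.pPrimeCore p G := by
  classical
  obtain ⟨n, Hs, h0, hn, hmono, hnorm, hstep⟩ := hsolv
  have := CfsgLib.Cores.pPrimeCore_characteristic (G := G) p
  set K : Subgroup G := Cfsg.pPrimeCore p G with hK
  set C : Subgroup G := Subgroup.centralizer (K : Set G) with hCdef
  have hCn : C.Normal := inferInstanceAs ((Subgroup.centralizer (K : Set G)).Normal)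
  suffices h : ∀ i : Fin (n + 1), Hs i ⊓ C ≤ K by
    simpa [hn] using h (Fin.last n)
  intro i
  induction i using Fin.induction with
  | zero => simp [h0]
  | succ j ih =>
    set B : Subgroup G := Hs j.succ ⊓ C with hBdef
    set A : Subgroup G := Hs j.castSucc ⊓ C with hAdef
    have := hnorm j.castSucc
    have := hnorm j.succ
    have hBn : B.Normal := Subgroup.normal_inf_normal _ _
    have hle : Hs j.castSucc ≤ Hs j.succ := hmono (Fin.castSucc_lt_succ (i := j)).le
    have hAB : A ≤ B := inf_le_inf_right _ hle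
    have hdvd : A.relIndex B ∣ (Hs j.castSucc).relIndex (Hs j.succ) := by
      have h1 : A.relIndex B = (Hs j.castSucc).relIndex B := by
        rw [← Subgroup.inf_relIndex_right (Hs j.castSucc) B, hBdef, ← inf_assoc,
          inf_eq_left.2 hle]
      have h2 := Subgroup.relIndex_subgroupOf (H := Hs j.castSucc)
        (inf_le_left : B ≤ Hs j.succ)
      rw [h1, ← h2]
      exact Subgroup.relIndex_dvd_index_of_normal _ _
    have hcardB : Nat.card B = Nat.card A * A.relIndex B := by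
      rw [← Subgroup.relIndex_bot_left, ← Subgroup.relIndex_bot_left,
        Subgroup.relIndex_mul_relIndex _ _ _ bot_le hAB]
    have hAp : (Nat.card A).Coprime p :=
      Nat.Coprime.coprime_dvd_left (Subgroup.card_dvd_of_le ih)
        (CfsgLib.Cores.card_pPrimeCore_coprime p)
    rcases hstep j with ⟨m, hm⟩ | hcop
    · rw [hm] at hdvd
      obtain ⟨m', -, hm'⟩ := (Nat.dvd_prime_pow (Fact.out : p.Prime)).1 hdvd
      obtain ⟨S⟩ := (inferInstance : Nonempty (Sylow p B))
      have hScard : Nat.card (S : Subgroup B) = p ^ m' := by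
        rw [Sylow.card_eq_multiplicity, hcardB, hm', Nat.factorization_mul Nat.card_pos.ne'
          (pow_ne_zero _ (Fact.out : p.Prime).ne_zero), Finsupp.add_apply,
          Nat.factorization_eq_zero_of_not_dvd
            (((Fact.out : p.Prime).coprime_iff_not_dvd).1 hAp.symm),
          Nat.Prime.factorization_pow (Fact.out : p.Prime), Finsupp.single_eq_same, zero_add]
      rcases Nat.eq_zero_or_pos m' with rfl | hpos
      · refine CfsgLib.Cores.le_pPrimeCore (N := B) ?_
        rw [hcardB, hm', pow_zero, mul_one]; exact hAp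
      exfalso
      have hcentral : ∀ a : B, (a : G) ∈ A → ∀ b : B, a * b = b * a := fun a ha b =>
        Subtype.ext (Subgroup.mem_centralizer_iff.1 b.2.2 (a : G) (ih ha))
      have hSn : (S : Subgroup B).Normal := by
        have hsup : A.subgroupOf B ⊔ (S : Subgroup B) = ⊤ := by
          apply Subgroup.eq_top_of_card_eq
          refine Nat.dvd_antisymm (Subgroup.card_subgroup_dvd_card _) ?_
          rw [hcardB, hm']
          refine Nat.Coprime.mul_dvd_of_dvd_of_dvd (Nat.Coprime.pow_right _ hAp) ?_ ?_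
          · rw [← Nat.card_congr (Subgroup.subgroupOfEquivOfLe hAB).toEquiv]
            exact Subgroup.card_dvd_of_le le_sup_left
          · rw [← hScard]; exact Subgroup.card_dvd_of_le le_sup_right
        rw [← Subgroup.normalizer_eq_top_iff, eq_top_iff, ← hsup]
        refine sup_le (fun a ha => ?_) Subgroup.le_normalizer
        refine Subgroup.mem_normalizer_iff.2 fun b => ?_
        have : a * b * a⁻¹ = b := by rw [hcentral a ha b]; group
        rw [this]
      have hSc : (S : Subgroup B).Characteristic := Sylow.characteristic_of_normal S hSn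
      have : ((S : Subgroup B).map B.subtype).Normal :=
        ConjAct.normal_of_characteristic_of_normal
      have hbot := CfsgLib.Cores.le_pCore (N := (S : Subgroup B).map B.subtype) (S.2.map _)
      rw [hcore, le_bot_iff, Subgroup.map_eq_bot_iff_of_injective _ B.subtype_injective] at hbot
      rw [hbot, Subgroup.card_bot] at hScard
      exact absurd hScard.symm (Nat.one_lt_pow hpos.ne' (Fact.out : p.Prime).one_lt).ne'
    · refine CfsgLib.Cores.le_pPrimeCore (N := B) ?_
      rw [hcardB]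
      exact Nat.Coprime.mul_left hAp (Nat.Coprime.coprime_dvd_left hdvd hcop)

section Core

variable {G : Type*} [Group G] [Finite G]

/-- The abelian case. -/
theorem card_le_of_abelian {d : ℕ} (ρ : Representation ℂ G (Fin d → ℂ))
    (hρ : Function.Injective ρ) (P Q W : Subgroup G)
    (hQ1 : Q ≠ ⊥) (hQab : ∀ u ∈ Q, ∀ v ∈ Q, u * v = v * u)
    (hcop : (Nat.card P).Coprime (Nat.card Q))
    (hW : W = Q ⊓ Subgroup.centralizer (P : Set G)) (hWQ : W ≠ Q)
    (hconjQ : ∀ a ∈ P, ∀ u ∈ Q, a * u * a⁻¹ ∈ Q)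
    (hsmall : ∀ R : Subgroup G, R ≤ Q → (∀ a ∈ P, ∀ u ∈ R, a * u * a⁻¹ ∈ R) → R = Q ∨ R ≤ W)
    (hcoset : ∀ u ∈ Q, ∀ x ∈ P, x ≠ 1 → u⁻¹ * (x * u * x⁻¹) ∈ W → u ∈ W) :
    Nat.card P ≤ d := by
  classical
  have hWfix : ∀ a ∈ P, ∀ w ∈ W, a * w * a⁻¹ = w := fun a ha w hw => by
    rw [hW] at hw
    rw [Subgroup.mem_centralizer_iff.1 hw.2 a ha]; group
  have : Fintype P := Fintype.ofFinite P
  let _ : CommGroup Q :=
    { (inferInstance : Group Q) with mul_comm := fun a b => Subtype.ext (hQab _ a.2 _ b.2) }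
  let cj : P → Q → Q := fun a u => ⟨(a : G) * u * (a : G)⁻¹, hconjQ a a.2 u u.2⟩
  have cj_mul : ∀ a u v, cj a (u * v) = cj a u * cj a v := fun a u v =>
    Subtype.ext (show (a : G) * ((u : G) * v) * (a : G)⁻¹ =
      ((a : G) * u * (a : G)⁻¹) * ((a : G) * v * (a : G)⁻¹) by group)
  let τ : Q →* Q := MonoidHom.mk' (fun u => ∏ a : P, cj a u) fun u v => by
    simp only [cj_mul, Finset.prod_mul_distrib]
  have hτW : ∀ u : Q, (τ u : G) ∈ W := by
    intro u
    rw [hW]
    refine ⟨(τ u).2, Subgroup.mem_centralizer_iff.2 fun b hb => ?_⟩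
    have h1 : cj ⟨b, hb⟩ (τ u) = τ u := by
      let f : Q →* Q := MonoidHom.mk' (cj ⟨b, hb⟩) (cj_mul _)
      show f (∏ a : P, cj a u) = ∏ a : P, cj a u
      rw [map_prod]
      refine Fintype.prod_equiv (Equiv.mulLeft (⟨b, hb⟩ : P)) _ _ fun a => Subtype.ext ?_
      show b * ((a : G) * u * (a : G)⁻¹) * b⁻¹ = (b * (a : G)) * u * (b * (a : G))⁻¹
      group
    have h2 : b * (τ u : G) * b⁻¹ = τ u := congrArg Subtype.val h1
    calc b * (τ u : G) = b * (τ u : G) * b⁻¹ * b := by group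
      _ = _ := by rw [h2]
  have hW1 : ∀ u : Q, (u : G) ∈ W → u = 1 := by
    have hfixτ : ∀ u : Q, (u : G) ∈ W → τ u = u ^ Nat.card P := by
      intro u hu
      show ∏ a : P, cj a u = _
      rw [Finset.prod_congr rfl fun a _ => (Subtype.ext (hWfix a a.2 u hu) : cj a u = u),
        Finset.prod_const, Finset.card_univ, Nat.card_eq_fintype_card]
    have hinj : ∀ u : Q, u ^ Nat.card P = 1 → u = 1 := fun u h =>
      orderOf_eq_one_iff.1 (Nat.eq_one_of_dvd_coprimes hcop (orderOf_dvd_of_pow_eq_one h)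
        (orderOf_dvd_natCard u))
    rcases hsmall (τ.ker.map Q.subtype) (Subgroup.map_subtype_le _) (by
      rintro a ha u ⟨v, hv, rfl⟩
      refine ⟨cj ⟨a, ha⟩ v, ?_, rfl⟩
      rw [SetLike.mem_coe, MonoidHom.mem_ker] at hv ⊢
      rw [← hv]
      show ∏ b : P, cj b (cj ⟨a, ha⟩ v) = ∏ b : P, cj b v
      refine Fintype.prod_equiv (Equiv.mulRight (⟨a, ha⟩ : P)) _ _ fun b => Subtype.ext ?_
      show (b : G) * (a * v * a⁻¹) * (b : G)⁻¹ = ((b : G) * a) * v * ((b : G) * a)⁻¹
      group) with h | h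
    · intro u hu
      apply hinj
      rw [← hfixτ u hu]
      have : (u : G) ∈ τ.ker.map Q.subtype := h.symm.le u.2
      obtain ⟨v, hv, hvu⟩ := this
      rw [← Subtype.ext hvu]
      exact hv
    · exfalso
      have hτinj : Function.Injective τ := by
        rw [injective_iff_map_eq_one]
        intro u hu
        exact hinj u (by rw [← hfixτ u (h ⟨u, hu, rfl⟩)]; exact hu)
      have hτsurj := Finite.surjective_of_injective hτinj
      apply hWQ
      refine le_antisymm (hW ▸ inf_le_left) fun u hu => ?_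
      obtain ⟨v, hv⟩ := hτsurj ⟨u, hu⟩
      have := hτW v
      rwa [hv] at this
  obtain ⟨u₀, hu₀⟩ := Q.ne_bot_iff_exists_ne_one.1 hQ1
  have hu₀ρ : ρ (u₀ : G) ≠ 1 := fun h => hu₀ (Subtype.ext (hρ (h.trans ρ.map_one.symm)))
  obtain ⟨v, lam, hv0, hv, hlam⟩ := exists_eigenchar ρ Q hQab u₀.2 hu₀ρ
  have hcard : Nat.card P ≤ Module.finrank ℂ (Fin d → ℂ) := by
    refine card_le_finrank_of_eigen ρ Q
      (fun a : P => lam.comp (MonoidHom.mk' (cj a⁻¹) (cj_mul _))) ?_
      (fun a : P => ρ (a : G) v) (fun a h => hv0 ?_) (fun a u => ?_)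
    · intro a b hab
      by_contra hne
      let x : P := b⁻¹ * a
      have hx1 : (x : G) ≠ 1 := fun h => hne (inv_mul_eq_one.1 (Subtype.ext h : x = 1)).symm
      let θ : Q →* Q := MonoidHom.mk' (fun u => u⁻¹ * cj x u) fun u w => by
        rw [cj_mul, mul_inv, mul_mul_mul_comm]
      have hθinj : Function.Injective θ := by
        rw [injective_iff_map_eq_one]
        intro u hu
        refine hW1 u (hcoset u u.2 x x.2 hx1 ?_)
        have h' : (u : G)⁻¹ * ((x : G) * u * (x : G)⁻¹) = 1 := congrArg Subtype.val hu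
        rw [h']; exact W.one_mem
      obtain ⟨u, hu⟩ := Finite.surjective_of_injective hθinj ⟨u₀, u₀.2⟩
      have hxu : lam (cj x u) = lam u := by
        have := DFunLike.congr_fun hab (cj a u)
        simp only [MonoidHom.comp_apply, MonoidHom.mk'_apply] at this
        have e1 : cj a⁻¹ (cj a u) = u := Subtype.ext (by simp [cj, mul_assoc])
        have e2 : cj b⁻¹ (cj a u) = cj x u := Subtype.ext (by simp [cj, x, mul_assoc])
        rw [e1, e2] at this
        exact this.symm
      apply hlam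
      rw [← hu]
      show lam (u⁻¹ * cj x u) = 1
      rw [map_mul, hxu, ← map_mul, inv_mul_cancel, map_one]
    · have := congrArg (ρ (a : G)⁻¹) h
      simpa [← Module.End.mul_apply, ← map_mul] using this
    · have hcalc : (u : G) * a = a * ((cj a⁻¹ u : Q) : G) := by simp [cj, mul_assoc]
      rw [← Module.End.mul_apply, ← map_mul, hcalc, map_mul, Module.End.mul_apply, hv, map_smul]
      rfl
  rwa [Module.finrank_fintype_fun_eq_card, Fintype.card_fin] at hcard

/-- The non-abelian case. -/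
theorem card_lt_of_nonabelian {d : ℕ} (ρ : Representation ℂ G (Fin d → ℂ))
    (hρ : Function.Injective ρ) (P Q W : Subgroup G)
    (hDW : ⁅Q, Q⁆ ≤ W) (hD1 : ⁅Q, Q⁆ ≠ ⊥) (hWQ : W < Q)
    (hWfix : ∀ a ∈ P, ∀ w ∈ W, a * w * a⁻¹ = w)
    (hWc : ∀ u ∈ Q, ∀ w ∈ W, u * w = w * u)
    (hconjQ : ∀ a ∈ P, ∀ u ∈ Q, a * u * a⁻¹ ∈ Q)
    (hsmall : ∀ R : Subgroup G, R ≤ Q → (∀ a ∈ P, ∀ u ∈ R, a * u * a⁻¹ ∈ R) → R = Q ∨ R ≤ W)
    (hcoset : ∀ u ∈ Q, ∀ x ∈ P, x ≠ 1 → u⁻¹ * (x * u * x⁻¹) ∈ W → u ∈ W) :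
    Nat.card P < d ^ 2 := by
  classical
  obtain ⟨z, hzD, hz1⟩ : ∃ z ∈ ⁅Q, Q⁆, ρ z ≠ 1 := by
    obtain ⟨z, hz⟩ := ⁅Q, Q⁆.ne_bot_iff_exists_ne_one.1 hD1
    exact ⟨z, z.2, fun h => hz (Subtype.ext (hρ (h.trans ρ.map_one.symm)))⟩
  obtain ⟨v, lam, hv0, hv, hlam⟩ := exists_eigenchar ρ W
    (fun a ha b hb => hWc a (hWQ.le ha) b hb) (hDW hzD) hz1
  let E : Submodule ℂ (Fin d → ℂ) :=
    { carrier := {x | ∀ w : W, ρ (w : G) x = lam w • x}
      add_mem' := fun {a b} ha hb w => by rw [map_add, ha w, hb w, smul_add]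
      zero_mem' := fun w => by simp
      smul_mem' := fun c {a} ha w => by rw [map_smul, ha w, smul_comm] }
  have hE : Nontrivial E := Submodule.nontrivial_iff_ne_bot.2
    ((Submodule.ne_bot_iff _).2 ⟨v, hv, hv0⟩)
  have hEstab : ∀ u : Q, ∀ x ∈ E, ρ (u : G) x ∈ E := by
    intro u x hx w
    rw [← Module.End.mul_apply, ← map_mul, ← hWc u u.2 w w.2, map_mul, Module.End.mul_apply,
      hx w, map_smul]
  let σ : Representation ℂ Q E :=
    { toFun := fun u => (ρ (u : G)).restrict (hEstab u)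
      map_one' := by ext x; simp
      map_mul' := fun a b => by ext x; simp [Module.End.mul_apply] }
  have hσW : ∀ w : W, ∀ hwQ : (w : G) ∈ Q, σ ⟨(w : G), hwQ⟩ = lam w • (1 : Module.End ℂ E) :=
    fun w hwQ => LinearMap.ext fun x => Subtype.ext (x.2 w)
  let WQ : Subgroup Q := W.subgroupOf Q
  have hWQn : WQ.Normal := ⟨fun w hw u => by
    show (u : G) * (w : G) * (u : G)⁻¹ ∈ W
    rw [hWc u u.2 w hw, mul_inv_cancel_right]
    exact hw⟩
  -- the radical of the commutator pairing
  let R : Subgroup G :=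
    { carrier := {u | u ∈ Q ∧ ∀ b ∈ Q, ∀ h : ⁅b, u⁆ ∈ W, lam ⟨⁅b, u⁆, h⟩ = 1}
      one_mem' := ⟨Q.one_mem, fun b _ h => by
        rw [show (⟨⁅b, (1 : G)⁆, h⟩ : W) = 1 from Subtype.ext (commutatorElement_one_right b),
          map_one]⟩
      mul_mem' := by
        rintro a c ⟨ha, ha'⟩ ⟨hc, hc'⟩
        refine ⟨Q.mul_mem ha hc, fun b hb h => ?_⟩
        have h1 := hDW (Subgroup.commutator_mem_commutator hb ha)
        have h2 := hDW (Subgroup.commutator_mem_commutator hb hc)
        have e : ⁅b, a * c⁆ = ⁅b, a⁆ * ⁅b, c⁆ := by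
          have h3 := hWc a ha _ h2
          calc ⁅b, a * c⁆ = ⁅b, a⁆ * (a * ⁅b, c⁆) * a⁻¹ := by
                simp only [commutatorElement_def]; group
            _ = ⁅b, a⁆ * (⁅b, c⁆ * a) * a⁻¹ := by rw [h3]
            _ = _ := by group
        rw [show (⟨⁅b, a * c⁆, h⟩ : W) = ⟨_, h1⟩ * ⟨_, h2⟩ from Subtype.ext e, map_mul,
          ha' b hb h1, hc' b hb h2, one_mul]
      inv_mem' := by
        rintro a ⟨ha, ha'⟩
        refine ⟨Q.inv_mem ha, fun b hb h => ?_⟩
        have h1 := hDW (Subgroup.commutator_mem_commutator hb ha)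
        have e : ⁅b, a⁆ * ⁅b, a⁻¹⁆ = 1 := by
          have h3 := hWc a ha _ h
          calc ⁅b, a⁆ * ⁅b, a⁻¹⁆ = ⁅b, a⁆ * (⁅b, a⁻¹⁆ * a) * a⁻¹ := by group
            _ = ⁅b, a⁆ * (a * ⁅b, a⁻¹⁆) * a⁻¹ := by rw [h3]
            _ = ⁅b, a * a⁻¹⁆ := by simp only [commutatorElement_def]; group
            _ = 1 := by rw [mul_inv_cancel]; exact commutatorElement_one_right b
        have := congrArg lam (show (⟨_, h1⟩ : W) * ⟨_, h⟩ = 1 from Subtype.ext e)
        rwa [map_mul, map_one, ha' b hb h1, one_mul] at this }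
  have hRW : R ≤ W := by
    refine (hsmall R (fun u hu => hu.1) ?_).resolve_left ?_
    · rintro a ha u ⟨hu, hu'⟩
      refine ⟨hconjQ a ha u hu, fun b hb h => ?_⟩
      have hb' : a⁻¹ * b * a ∈ Q := by simpa using hconjQ a⁻¹ (P.inv_mem ha) b hb
      have h1 := hDW (Subgroup.commutator_mem_commutator hb' hu)
      have e : ⁅b, a * u * a⁻¹⁆ = ⁅a⁻¹ * b * a, u⁆ := by
        rw [← hWfix a ha _ h1]
        simp only [commutatorElement_def]; group
      rw [show (⟨_, h⟩ : W) = ⟨_, h1⟩ from Subtype.ext e]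
      exact hu' _ hb' h1
    · intro hRQ
      apply hlam
      have hker : ⁅Q, Q⁆ ≤ lam.ker.map W.subtype := by
        refine Subgroup.commutator_le.2 fun b hb u hu => ?_
        have hu' : u ∈ R := hRQ ▸ hu
        exact ⟨⟨_, hDW (Subgroup.commutator_mem_commutator hb hu)⟩, hu'.2 b hb _, rfl⟩
      obtain ⟨w, hw, hwz⟩ := hker hzD
      rw [show (⟨z, hDW hzD⟩ : W) = w from Subtype.ext hwz.symm]
      exact hw
  have hbound := card_quotient_le_sq σ WQ (by
    intro u hu
    have hu' : (u : G) ∉ R := fun h => hu (hRW h)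
    have : ∃ b ∈ Q, ∃ h : ⁅b, (u : G)⁆ ∈ W, lam ⟨⁅b, (u : G)⁆, h⟩ ≠ 1 := by
      by_contra hcon
      push Not at hcon
      exact hu' ⟨u.2, fun b hb h => hcon b hb h⟩
    obtain ⟨b, hb, h, hne⟩ := this
    refine ⟨⟨b, hb⟩, lam ⟨_, h⟩, hne, ?_⟩
    rw [← map_mul, ← map_mul,
      show (⟨b, hb⟩ : Q) * u = ⟨⁅b, (u : G)⁆, hWQ.le h⟩ * (u * ⟨b, hb⟩) from
        Subtype.ext (by simp [commutatorElement_def, mul_assoc]),
      map_mul, hσW ⟨_, h⟩ (hWQ.le h), smul_mul_assoc, one_mul])
  have hlt : Nat.card P < Nat.card (Q ⧸ WQ) := by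
    obtain ⟨u, hu, huW⟩ := SetLike.exists_of_lt hWQ
    let f : P → Q ⧸ WQ := fun a =>
      QuotientGroup.mk ⟨(a : G) * u * (a : G)⁻¹, hconjQ a a.2 u hu⟩
    have hfinj : Function.Injective f := by
      intro a b hab
      by_contra hne
      have hx1 : ((b⁻¹ * a : P) : G) ≠ 1 := fun h =>
        hne (inv_mul_eq_one.1 (Subtype.ext h : b⁻¹ * a = 1)).symm
      refine huW (hcoset u hu _ (b⁻¹ * a : P).2 hx1 ?_)
      have h1 : ((b : G) * u * (b : G)⁻¹)⁻¹ * ((a : G) * u * (a : G)⁻¹) ∈ W := by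
        have h0 := QuotientGroup.eq.1 hab.symm
        exact h0
      have h2 := hWfix ((b : G)⁻¹) (P.inv_mem b.2) _ h1
      have : u⁻¹ * (((b⁻¹ * a : P) : G) * u * ((b⁻¹ * a : P) : G)⁻¹) =
          (b : G)⁻¹ * (((b : G) * u * (b : G)⁻¹)⁻¹ * ((a : G) * u * (a : G)⁻¹)) * (b : G)⁻¹⁻¹ := by
        simp only [Subgroup.coe_mul, Subgroup.coe_inv]; group
      rw [this, h2]; exact h1
    refine lt_of_le_of_ne (Nat.card_le_card_of_injective f hfinj) fun heq => ?_
    have := Fintype.ofFinite P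
    have := Fintype.ofFinite (Q ⧸ WQ)
    have hbij : Function.Bijective f :=
      (Fintype.bijective_iff_injective_and_card f).2
        ⟨hfinj, by simpa [Nat.card_eq_fintype_card] using heq⟩
    obtain ⟨a, ha⟩ := hbij.2 (1 : Q ⧸ WQ)
    have h2 : (a : G) * u * (a : G)⁻¹ ∈ W := (QuotientGroup.eq_one_iff (N := WQ) (⟨(a : G) * u * (a : G)⁻¹, hconjQ a a.2 u hu⟩ : Q)).1 ha
    have h3 := hWfix ((a : G)⁻¹) (P.inv_mem a.2) _ h2
    apply huW
    have : u = (a : G)⁻¹ * ((a : G) * u * (a : G)⁻¹) * (a : G)⁻¹⁻¹ := by group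
    rw [this, h3]; exact h2
  have hdim : Module.finrank ℂ E ≤ d := by
    have := Submodule.finrank_le E
    rwa [Module.finrank_fintype_fun_eq_card, Fintype.card_fin] at this
  exact lt_of_lt_of_le hlt (hbound.trans (Nat.pow_le_pow_left hdim 2))

/-- A minimal noncentralised invariant `q`-subgroup forces a large degree. -/
theorem card_lt_sq {d : ℕ} (ρ : Representation ℂ G (Fin d → ℂ))
    (hρ : Function.Injective ρ) {q : ℕ} [Fact q.Prime] (P Q : Subgroup G) (hP1 : P ≠ ⊥)
    (hQ : IsPGroup q Q) (hPQ : P ≤ Subgroup.normalizer (Q : Set G))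
    (hcop : (Nat.card P).Coprime (Nat.card Q)) (hnc : ¬ P ≤ Subgroup.centralizer (Q : Set G))
    (hmin : ∀ R : Subgroup G, R < Q → P ≤ Subgroup.normalizer (R : Set G) →
      P ≤ Subgroup.centralizer (R : Set G))
    (hfix : ∀ x ∈ P, x ≠ 1 → Q ⊓ Subgroup.centralizer ({x} : Set G) ≤
      Subgroup.centralizer (P : Set G)) :
    Nat.card P < d ^ 2 := by
  classical
  let W : Subgroup G := Q ⊓ Subgroup.centralizer (P : Set G)
  have hconjQ : ∀ a ∈ P, ∀ u ∈ Q, a * u * a⁻¹ ∈ Q := fun a ha u hu =>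
    (Subgroup.mem_normalizer_iff.1 (hPQ ha) u).1 hu
  have hWfix : ∀ a ∈ P, ∀ w ∈ W, a * w * a⁻¹ = w := fun a ha w hw => by
    rw [Subgroup.mem_centralizer_iff.1 hw.2 a ha]; group
  have hsmall : ∀ R : Subgroup G, R ≤ Q → (∀ a ∈ P, ∀ u ∈ R, a * u * a⁻¹ ∈ R) →
      R = Q ∨ R ≤ W := by
    intro R hRQ hR
    rcases eq_or_lt_of_le hRQ with h | h
    · exact Or.inl h
    · refine Or.inr (le_inf hRQ ?_)
      have hn : P ≤ Subgroup.normalizer (R : Set G) := by
        intro a ha
        refine Subgroup.mem_normalizer_iff.2 fun u => ⟨hR a ha u, fun hu => ?_⟩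
        have := hR a⁻¹ (P.inv_mem ha) _ hu
        simpa [mul_assoc] using this
      rw [Subgroup.le_centralizer_iff]
      exact hmin R h hn
  have hWQ : W ≠ Q := by
    intro h
    apply hnc
    rw [Subgroup.le_centralizer_iff]
    exact h ▸ inf_le_right
  have hQnil : Group.IsNilpotent Q := hQ.isNilpotent
  have hQsol : Group.IsSolvable Q := IsNilpotent.to_isSolvable
  have hQ1 : Q ≠ ⊥ := fun h => hWQ (by
    show Q ⊓ Subgroup.centralizer (P : Set G) = Q
    rw [h]; exact bot_inf_eq _)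
  have hDW : ⁅Q, Q⁆ ≤ W := by
    refine (hsmall _ (Subgroup.commutator_le_self Q) ?_).resolve_left ?_
    · intro a ha u hu
      have hmapQ : Q.map (MulAut.conj a).toMonoidHom = Q := by
        ext x
        constructor
        · rintro ⟨y, hy, rfl⟩; exact hconjQ a ha y hy
        · intro hx
          exact ⟨a⁻¹ * x * a, by simpa using hconjQ a⁻¹ (P.inv_mem ha) x hx, by simp [mul_assoc]⟩
      have : ⁅Q, Q⁆.map (MulAut.conj a).toMonoidHom = ⁅Q, Q⁆ := by
        rw [Subgroup.map_commutator, hmapQ]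
      rw [← this]
      exact ⟨u, hu, rfl⟩
    · intro h
      have hne : Nontrivial Q := (Subgroup.nontrivial_iff_ne_bot Q).2 hQ1
      have hlt := Group.IsSolvable.commutator_lt_top_of_nontrivial (G := Q)
      apply hlt.ne
      apply Subgroup.map_injective Q.subtype_injective
      rw [Subgroup.map_subtype_commutator, ← MonoidHom.range_eq_map, Subgroup.range_subtype]
      exact h
  have hWn : ∀ u ∈ Q, ∀ w ∈ W, u * w * u⁻¹ ∈ W := by
    intro u hu w hw
    have : u * w * u⁻¹ = ⁅u, w⁆ * w := by simp [commutatorElement_def]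
    rw [this]
    exact W.mul_mem (hDW (Subgroup.commutator_mem_commutator hu hw.1)) hw
  -- a coset stable under a nontrivial element of `P` is `W`
  have hcoset : ∀ u ∈ Q, ∀ x ∈ P, x ≠ 1 → u⁻¹ * (x * u * x⁻¹) ∈ W → u ∈ W := by
    intro u hu x hx hx1 h
    have hle : Subgroup.zpowers x ≤ P := Subgroup.zpowers_le.2 hx
    have hnorm : Subgroup.zpowers x ≤ Subgroup.normalizer (W : Set G) := by
      refine Subgroup.zpowers_le.2 (Subgroup.mem_normalizer_iff.2 fun w => ?_)
      constructor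
      · intro hw; rw [hWfix x hx w hw]; exact hw
      · intro hw
        have h2 := hWfix x⁻¹ (P.inv_mem hx) _ hw
        have h3 : x⁻¹ * (x * w * x⁻¹) * x⁻¹⁻¹ = w := by group
        rw [h3] at h2
        rw [h2]; exact hw
    have hzp : ∀ n : ℕ, u⁻¹ * (x ^ n * u * (x ^ n)⁻¹) ∈ W := by
      intro n
      induction n with
      | zero => simp
      | succ n ih =>
        have e : u⁻¹ * (x ^ (n + 1) * u * (x ^ (n + 1))⁻¹) =
            u⁻¹ * (x * u * x⁻¹) * (x * (u⁻¹ * (x ^ n * u * (x ^ n)⁻¹)) * x⁻¹) := by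
          rw [pow_succ']; group
        rw [e, hWfix x hx _ ih]
        exact W.mul_mem h ih
    obtain ⟨c, hc, hcu⟩ := CfsgLib.CoprimeAction.exists_centralizer_mem_coset hnorm
      (Nat.Coprime.coprime_dvd_left (Subgroup.card_dvd_of_le hle)
        (Nat.Coprime.coprime_dvd_right (Subgroup.card_dvd_of_le inf_le_left) hcop))
      (Or.inr (Group.isSolvable_of_isSolvable_injective
        (f := Subgroup.inclusion (inf_le_left : W ≤ Q)) (Subgroup.inclusion_injective _)))
      u (by
        intro a ha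
        obtain ⟨n, rfl⟩ := (isOfFinOrder_of_finite x).mem_powers_iff_mem_zpowers.2 ha
        exact hzp n)
    have hcQ : c ∈ Q := by
      have : c = u * (u⁻¹ * c) := by group
      rw [this]; exact Q.mul_mem hu hcu.1
    have hcW : c ∈ W := ⟨hcQ, hfix x hx hx1 ⟨hcQ,
      Subgroup.mem_centralizer_iff.2 fun y hy => by
        rw [Set.mem_singleton_iff] at hy
        subst hy
        exact Subgroup.mem_centralizer_iff.1 hc y (Subgroup.mem_zpowers y)⟩⟩
    have : u = c * (u⁻¹ * c)⁻¹ := by group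
    rw [this]; exact W.mul_mem hcW (W.inv_mem hcu)
  -- `W` is central in `Q`
  have hWc : ∀ u ∈ Q, ∀ w ∈ W, u * w = w * u := by
    obtain ⟨x', hx'⟩ := P.ne_bot_iff_exists_ne_one.1 hP1
    have hx : (x' : G) ∈ P := x'.2
    have hx1 : (x' : G) ≠ 1 := fun h => hx' (Subtype.ext h)
    generalize (x' : G) = x at hx hx1
    let Z : Subgroup G := Q ⊓ Subgroup.centralizer (W : Set G)
    rcases hsmall Z inf_le_left (by
      rintro a ha u ⟨hu, hu'⟩
      refine ⟨hconjQ a ha u hu, Subgroup.mem_centralizer_iff.2 fun w hw => ?_⟩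
      have h1 := Subgroup.mem_centralizer_iff.1 hu' w hw
      have h2 := hWfix a ha w hw
      calc w * (a * u * a⁻¹) = (a * w * a⁻¹) * (a * u * a⁻¹) := by rw [h2]
        _ = a * (w * u) * a⁻¹ := by group
        _ = a * (u * w) * a⁻¹ := by rw [h1]
        _ = (a * u * a⁻¹) * (a * w * a⁻¹) := by group
        _ = (a * u * a⁻¹) * w := by rw [h2]) with hZ | hZ
    · intro u hu w hw
      have : u ∈ Z := by rw [hZ]; exact hu
      exact (Subgroup.mem_centralizer_iff.1 this.2 w hw).symm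
    · exfalso
      apply hWQ
      refine le_antisymm inf_le_left fun u hu => hcoset u hu x hx hx1 (hZ ⟨?_, ?_⟩)
      · exact Q.mul_mem (Q.inv_mem hu) (hconjQ _ hx u hu)
      · refine Subgroup.mem_centralizer_iff.2 fun w hw => ?_
        have h2 := hWfix x hx _ (hWn u hu w hw)
        have h3 := hWfix x hx w hw
        have h4 : (x * u * x⁻¹) * w * (x * u * x⁻¹)⁻¹ = u * w * u⁻¹ := by
          calc _ = (x * u * x⁻¹) * (x * w * x⁻¹) * (x * u * x⁻¹)⁻¹ := by rw [h3]
            _ = x * (u * w * u⁻¹) * x⁻¹ := by group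
            _ = _ := h2
        calc w * (u⁻¹ * (x * u * x⁻¹)) = u⁻¹ * (u * w * u⁻¹) * (x * u * x⁻¹) := by group
          _ = u⁻¹ * ((x * u * x⁻¹) * w * (x * u * x⁻¹)⁻¹) * (x * u * x⁻¹) := by rw [h4]
          _ = u⁻¹ * (x * u * x⁻¹) * w := by group
  by_cases hD1 : ⁅Q, Q⁆ = ⊥
  · have hQab : ∀ u ∈ Q, ∀ v ∈ Q, u * v = v * u := fun u hu v hv => by
      have h1 : ⁅u, v⁆ = 1 := by
        rw [← Subgroup.mem_bot, ← hD1]; exact Subgroup.commutator_mem_commutator hu hv
      exact commutatorElement_eq_one_iff_mul_comm.1 h1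
    have h1 := card_le_of_abelian ρ hρ P Q W hQ1 hQab hcop rfl hWQ hconjQ hsmall hcoset
    have h2 : 1 < Nat.card P := Finite.one_lt_card_iff_nontrivial.2
      ((Subgroup.nontrivial_iff_ne_bot P).2 hP1)
    nlinarith
  · exact card_lt_of_nonabelian ρ hρ P Q W hDW hD1 (lt_of_le_of_ne inf_le_left hWQ) hWfix hWc
      hconjQ hsmall hcoset

end Core


/-- Let G be a finite p-solvable group whose Sylow p-subgroup P meets each conjugate g P g⁻¹ with g outside N_G(P) trivially, and let χ be a faithful character of G (χ g = χ 1 only for g = 1) whose degree d satisfies d² ≤ |P|. Then P is normal in G. -/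
theorem result {G : Type*} [Group G] [Finite G] (p : ℕ) [Fact p.Prime] (hsolv : Cfsg.IsPSolvable p G) (P : Sylow p G) (hTI : ∀ g : G, g ∉ Subgroup.normalizer ((P : Subgroup G) : Set G) → (P : Subgroup G) ⊓ (MulAut.conj g • (P : Subgroup G)) = ⊥) (χ : G → ℂ) (hχ : Cfsg.IsCharacter G χ) (hfaith : ∀ g : G, χ g = χ 1 → g = 1) (hdeg : Cfsg.charDegree χ ^ 2 ≤ Nat.card ↥(P : Subgroup G)) : (P : Subgroup G).Normal := by
  classical
  by_contra hPn
  have hTI' : ∀ g : G, ∀ x ∈ (P : Subgroup G), x ≠ 1 → g⁻¹ * x * g ∈ (P : Subgroup G) →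
      g ∈ Subgroup.normalizer ((P : Subgroup G) : Set G) := by
    intro g x hx hx1 hxg
    by_contra hg
    have hmem : x ∈ (P : Subgroup G) ⊓ MulAut.conj g • (P : Subgroup G) :=
      ⟨hx, ⟨g⁻¹ * x * g, hxg, by simp [mul_assoc]⟩⟩
    rw [hTI g hg] at hmem
    exact hx1 hmem
  have hcore : Cfsg.pCore p G = ⊥ := by
    by_contra h
    obtain ⟨x, hx⟩ := (Cfsg.pCore p G).ne_bot_iff_exists_ne_one.1 h
    have := CfsgLib.Cores.pCore_characteristic (G := G) p
    apply hPn
    rw [← Subgroup.normalizer_eq_top_iff, eq_top_iff]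
    intro g _
    refine hTI' g x (CfsgLib.Cores.pCore_le_sylow P x.2) (fun h1 => hx (Subtype.ext h1)) ?_
    apply CfsgLib.Cores.pCore_le_sylow P
    simpa using (inferInstance : (Cfsg.pCore p G).Normal).conj_mem _ x.2 g⁻¹
  have hP1 : (P : Subgroup G) ≠ ⊥ := fun h => hPn (by rw [h]; infer_instance)
  have hKC := centralizer_le_pPrimeCore hsolv hcore
  have hKnorm := CfsgLib.Cores.pPrimeCore_characteristic (G := G) p
  set K : Subgroup G := Cfsg.pPrimeCore p G with hKdef
  have hKcop : (Nat.card K).Coprime p := CfsgLib.Cores.card_pPrimeCore_coprime p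
  obtain ⟨n, hn⟩ := IsPGroup.iff_card.1 P.2
  have hPK : (Nat.card (P : Subgroup G)).Coprime (Nat.card K) := by
    rw [hn]; exact Nat.Coprime.pow_left _ hKcop.symm
  have hPsolv : Group.IsSolvable (P : Subgroup G) :=
    haveI : Group.IsNilpotent (P : Subgroup G) := P.2.isNilpotent
    IsNilpotent.to_isSolvable
  have hKnormal : K.Normal := inferInstance
  have hPnK : (P : Subgroup G) ≤ Subgroup.normalizer (K : Set G) := by
    rw [Subgroup.normalizer_eq_top]; exact le_top
  have hPnc : ¬ (P : Subgroup G) ≤ Subgroup.centralizer (K : Set G) := by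
    intro h
    have h1 : Nat.card (P : Subgroup G) ∣ Nat.card K := Subgroup.card_dvd_of_le (h.trans hKC)
    have : Nat.card (P : Subgroup G) = 1 := Nat.eq_one_of_dvd_coprimes hPK dvd_rfl h1
    exact hP1 (Subgroup.card_eq_one.1 this)
  obtain ⟨q, hq, Q₀, hQ₀⟩ : ∃ q : ℕ, q.Prime ∧ ∃ Q : Subgroup G, IsPGroup q Q ∧ Q ≤ K ∧
      (P : Subgroup G) ≤ Subgroup.normalizer (Q : Set G) ∧
      ¬ (P : Subgroup G) ≤ Subgroup.centralizer (Q : Set G) := by
    by_contra hcon
    push Not at hcon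
    apply hPnc
    rw [Subgroup.le_centralizer_iff]
    let W : Subgroup G := K ⊓ Subgroup.centralizer ((P : Subgroup G) : Set G)
    suffices hd : Nat.card K ∣ Nat.card W by
      have : W = K := Subgroup.eq_of_le_of_card_ge inf_le_left (Nat.le_of_dvd Nat.card_pos hd)
      exact this ▸ inf_le_right
    rw [← Nat.factorization_le_iff_dvd Nat.card_pos.ne' Nat.card_pos.ne']
    intro q
    by_cases hq : q.Prime
    · have : Fact q.Prime := ⟨hq⟩
      obtain ⟨S, hS⟩ := CfsgLib.CoprimeAction.exists_invariant_sylow hPnK hPK (Or.inl hPsolv) q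
      have hc := hcon q hq _ (S.2.map K.subtype) (Subgroup.map_subtype_le _) hS
      rw [Subgroup.le_centralizer_iff] at hc
      have h1 : (S : Subgroup K).map K.subtype ≤ W := le_inf (Subgroup.map_subtype_le _) hc
      have h2 := Subgroup.card_dvd_of_le h1
      rw [Subgroup.card_map_of_injective K.subtype_injective, Sylow.card_eq_multiplicity] at h2
      exact (hq.pow_dvd_iff_le_factorization Nat.card_pos.ne').1 h2
    · simp [Nat.factorization_eq_zero_of_not_prime _ hq]
  have hfq : Fact q.Prime := ⟨hq⟩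
  obtain ⟨Q, hQmem, hQmin⟩ := (wellFounded_lt (α := Subgroup G)).has_min
    {Q : Subgroup G | IsPGroup q Q ∧ Q ≤ K ∧ (P : Subgroup G) ≤ Subgroup.normalizer (Q : Set G) ∧
      ¬ (P : Subgroup G) ≤ Subgroup.centralizer (Q : Set G)} ⟨Q₀, hQ₀⟩
  obtain ⟨hQ, hQK, hPQ, hQnc⟩ := hQmem
  obtain ⟨ρ, hρ, -⟩ := CfsgLib.CharDegreesTheory.exists_injective_rep hχ hfaith
  have hcop : (Nat.card (P : Subgroup G)).Coprime (Nat.card Q) :=
    Nat.Coprime.coprime_dvd_right (Subgroup.card_dvd_of_le hQK) hPK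
  have hlt := card_lt_sq ρ hρ (P : Subgroup G) Q hP1 hQ hPQ hcop hQnc
    (fun R hRlt hR => by
      by_contra hc
      exact hQmin R ⟨hQ.to_le hRlt.le, hRlt.le.trans hQK, hR, hc⟩ hRlt)
    (fun x hx hx1 u hu => by
      have hcomm : x * u = u * x := Subgroup.mem_centralizer_iff.1 hu.2 x rfl
      have hn' : u ∈ Subgroup.normalizer ((P : Subgroup G) : Set G) := by
        refine hTI' u x hx hx1 ?_
        rw [mul_assoc, hcomm, ← mul_assoc, inv_mul_cancel, one_mul]
        exact hx
      refine Subgroup.mem_centralizer_iff.2 fun a ha => ?_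
      have h1 : u * a * u⁻¹ * a⁻¹ ∈ (P : Subgroup G) :=
        (P : Subgroup G).mul_mem ((Subgroup.mem_normalizer_iff.1 hn' a).1 ha)
          ((P : Subgroup G).inv_mem ha)
      have h2 : u * a * u⁻¹ * a⁻¹ ∈ Q := by
        rw [show u * a * u⁻¹ * a⁻¹ = u * (a * u⁻¹ * a⁻¹) by group]
        exact Q.mul_mem hu.1 ((Subgroup.mem_normalizer_iff.1 (hPQ ha) _).1 (Q.inv_mem hu.1))
      have h3 : u * a * u⁻¹ * a⁻¹ = 1 := by
        have hdis : (P : Subgroup G) ⊓ Q = ⊥ := (Subgroup.disjoint_of_coprime_natCard hcop).eq_bot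
        exact Subgroup.mem_bot.1 (hdis ▸ ⟨h1, h2⟩)
      calc a * u = (u * a * u⁻¹ * a⁻¹) * (a * u) := by rw [h3, one_mul]
        _ = u * a := by group)
  exact absurd hlt (not_lt.2 hdeg)

end Cfsg.Agent.S4748
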