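import Cfsg.Statements.S4750
import Cfsg.Agent.Lib.BrauerCharacters.Reduction
import Cfsg.Agent.Lib.BrauerCharacters.ClassMul
import Cfsg.Agent.Lib.CharTheory.Inflation
import Cfsg.Agent.Lib.Coherence.Virtual

set_option autoImplicit false
open scoped Pointwise
open Cfsg CfsgLib.CharTheory
open scoped ComplexConjugate

namespace Cfsg.Agent.S4750

/-- Let P be a Sylow p-subgroup of the finite group G that meets each conjugate g P g⁻¹ with g outside N_G(P) trivially, χ a character of G with χ(1)² ≤ |P|, and H a subgroup of G containing N_G(P). Then the inner product of χ with itself over G equals the inner product over H of the restriction of χ to H. -/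
theorem result {G : Type*} [Group G] [Fintype G] [DecidableEq G] (p : ℕ) [Fact p.Prime] (P : Sylow p G) (hTI : ∀ g : G, g ∉ Subgroup.normalizer ((P : Subgroup G) : Set G) → (P : Subgroup G) ⊓ (MulAut.conj g • (P : Subgroup G)) = ⊥) (χ : G → ℂ) (hχ : Cfsg.IsCharacter G χ) (hdeg : Cfsg.charDegree χ ^ 2 ≤ Nat.card ↥(P : Subgroup G)) (H : Subgroup G) [Fintype ↥H] (hH : Subgroup.normalizer ((P : Subgroup G) : Set G) ≤ H) : Cfsg.classInner χ χ = Cfsg.classInner (fun h : ↥H => χ h) (fun h : ↥H => χ h) := by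
  classical
  have : Fintype (IrrCharacter G) := Fintype.ofFinite _
  set θ : G → ℂ := χ * (fun g => conj (χ g)) with hθ
  have hθc : IsCharacter G θ := isCharacter_mul hχ (isCharacter_conj hχ)
  obtain ⟨mm, hmm⟩ := IsCharacter.exists_sum hθc
  obtain ⟨dχ, hdχ⟩ := exists_degree_of_isCharacter hχ
  have hdd : charDegree χ = dχ := by simp [charDegree, hdχ]
  have hPH : (P : Subgroup G) ≤ H := Subgroup.le_normalizer.trans hH
  have hfree : ∀ g : G, g ∉ H → ∀ x ∈ (P : Subgroup G), g⁻¹ * x * g ∈ H → x = 1 := by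
    intro g hg x hx hxH
    by_contra hx1
    obtain ⟨Q, hQ⟩ : ∃ Q : Sylow p H, Subgroup.zpowers (⟨g⁻¹ * x * g, hxH⟩ : H) ≤ Q := by
      obtain ⟨j, hj⟩ := (IsPGroup.iff_orderOf.1 P.2) ⟨x, hx⟩
      rw [Subgroup.orderOf_mk] at hj
      refine (IsPGroup.of_card (p := p) (n := j) ?_).exists_le_sylow
      rw [Nat.card_zpowers, Subgroup.orderOf_mk, show g⁻¹ * x * g = MulAut.conj g⁻¹ x by simp]
      exact (orderOf_injective (MulAut.conj g⁻¹).toMonoidHom (MulAut.conj g⁻¹).injective x).trans hj
    obtain ⟨h, hh⟩ := MulAction.exists_smul_eq H Q (P.subtype hPH)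
    have hmem : (h : G) * (g⁻¹ * x * g) * (h : G)⁻¹ ∈ (P : Subgroup G) := by
      have h1 : h * ⟨g⁻¹ * x * g, hxH⟩ * h⁻¹ ∈ ((P.subtype hPH : Sylow p H) : Subgroup H) := by
        rw [← hh]; exact ⟨_, hQ (Subgroup.mem_zpowers _), rfl⟩
      simpa [Sylow.coe_subtype, Subgroup.mem_subgroupOf] using h1
    have hN : g * (h : G)⁻¹ ∈ Subgroup.normalizer ((P : Subgroup G) : Set G) := by
      by_contra hN
      have hbot := hTI _ hN
      refine hx1 ((Subgroup.eq_bot_iff_forall _).1 hbot x (Subgroup.mem_inf.2 ⟨hx, ?_⟩))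
      refine ⟨_, hmem, ?_⟩
      show g * (h : G)⁻¹ * ((h : G) * (g⁻¹ * x * g) * (h : G)⁻¹) * (g * (h : G)⁻¹)⁻¹ = x
      group
    refine hg ?_
    have := H.mul_mem (hH hN) h.2
    rwa [inv_mul_cancel_right] at this
  have hG : classInner χ χ = (mm (trivIrr G) : ℂ) := by
    have : classInner θ ((trivIrr G : IrrCharacter G) : G → ℂ) = (mm (trivIrr G) : ℂ) := by
      rw [hmm]; exact classInner_sum_irr (fun ψ => (mm ψ : ℂ)) _
    rw [← this]
    simp [classInner, hθ, trivIrr_apply]
  have hHH : classInner (fun h : ↥H => χ h) (fun h : ↥H => χ h) =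
      ∑ ψ : IrrCharacter G, (mm ψ : ℂ) * classInner (fun h : ↥H => (ψ : G → ℂ) h) (fun _ : ↥H => 1) := by
    simp only [classInner, map_one, mul_one, Finset.mul_sum]
    rw [Finset.sum_comm]
    refine Finset.sum_congr rfl fun h _ => ?_
    have e := congrFun hmm (h : G)
    simp only [hθ, Pi.mul_apply, Finset.sum_apply, Pi.smul_apply, smul_eq_mul] at e
    rw [e, Finset.mul_sum]
    exact Finset.sum_congr rfl fun ψ _ => by ring
  rw [hG, hHH, Finset.sum_eq_single (trivIrr G)]
  · have hc : (Nat.card H : ℂ) ≠ 0 := Nat.cast_ne_zero.2 Nat.card_pos.ne'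
    simp [classInner, trivIrr_apply, Nat.card_eq_fintype_card]
  · intro ψ _ hψ
    by_cases hm0 : mm ψ = 0
    · rw [hm0, Nat.cast_zero, zero_mul]
    refine mul_eq_zero_of_right _ ?_
    -- the degree is small
    have hmt : mm (trivIrr G) ≠ 0 := by
      intro h0
      rw [h0, Nat.cast_zero, classInner, mul_eq_zero,
        inv_eq_zero, or_iff_right (Nat.cast_ne_zero.2 Nat.card_pos.ne')] at hG
      have h1 : ∑ g : G, ((Complex.normSq (χ g) : ℝ) : ℂ) = 0 := by
        rw [← hG]; exact Finset.sum_congr rfl fun g _ => (Complex.mul_conj (χ g)).symm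
      have h2 : ∑ g : G, Complex.normSq (χ g) = 0 := by exact_mod_cast h1
      have h3 : ∀ g, χ g = 0 := fun g => Complex.normSq_eq_zero.1
        ((Finset.sum_eq_zero_iff_of_nonneg fun g _ => Complex.normSq_nonneg _).1 h2 g (Finset.mem_univ g))
      have e : classInner θ (ψ : G → ℂ) = (mm ψ : ℂ) := by
        rw [hmm]; exact classInner_sum_irr (fun ψ => (mm ψ : ℂ)) ψ
      refine hm0 ?_
      have : classInner θ (ψ : G → ℂ) = 0 := by simp [classInner, hθ, h3]
      rw [e] at this
      exact_mod_cast this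
    obtain ⟨n, ρ, hρ, hρχ⟩ := ψ.2
    have := hρ
    have hn : n < Nat.card (P : Subgroup G) := by
      have h1 := congrFun hmm 1
      simp only [hθ, Pi.mul_apply, hdχ, map_natCast, Finset.sum_apply, Pi.smul_apply, smul_eq_mul,
        (CfsgLib.BrauerCharacters.charDegree_spec _).1] at h1
      have h2 : dχ * dχ = ∑ φ : IrrCharacter G, mm φ * charDegree (φ : G → ℂ) := by exact_mod_cast h1
      rw [← Finset.add_sum_erase _ _ (Finset.mem_univ (trivIrr G))] at h2
      have h3 := Finset.single_le_sum (f := fun φ : IrrCharacter G => mm φ * charDegree (φ : G → ℂ))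
        (fun _ _ => Nat.zero_le _) (Finset.mem_erase.2 ⟨hψ, Finset.mem_univ ψ⟩)
      have h4 : charDegree (trivIrr G : G → ℂ) = 1 := by simp [charDegree, trivIrr_apply]
      have h5 : charDegree (ψ : G → ℂ) = n := by
        rw [charDegree, ← hρχ, Representation.char_one, Module.finrank_fin_fun]; simp
      have h6 : n ≤ mm ψ * charDegree (ψ : G → ℂ) := by
        rw [h5]; exact Nat.le_mul_of_pos_left _ (Nat.pos_of_ne_zero hm0)
      rw [h4, mul_one] at h2
      rw [hdd, sq] at hdeg
      omega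
    have hnofix : ∀ v, (∀ g, ρ g v = v) → v = 0 := by
      intro v hv
      have h1 : Module.finrank ℂ ρ.invariants = 0 := by
        have h2 := classInner_character_one ρ
        rw [hρχ] at h2
        have h3 : classInner (ψ : G → ℂ) (fun _ => 1) = 0 :=
          classInner_eq_zero_of_ne ψ.2 (trivIrr G).2 fun e => hψ (Subtype.ext e)
        rw [h3] at h2
        exact_mod_cast h2.symm
      exact ((Submodule.finrank_eq_zero.1 h1).le hv)
    have h0 : Module.finrank ℂ (Representation.invariants (ρ.comp H.subtype)) = 0 := by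
      rw [Submodule.finrank_eq_zero, Submodule.eq_bot_iff]
      intro v hv
      exact CfsgLib.BrauerCharacters.Reduction.fixed_eq_zero (P : Subgroup G) H P.2 hPH hfree ρ hn
        hnofix fun h hh => hv ⟨h, hh⟩
    have h2 := classInner_character_one (G := H) (ρ.comp H.subtype)
    rw [h0, Nat.cast_zero] at h2
    rw [← h2]
    simp only [classInner]
    congr 1
    exact Finset.sum_congr rfl fun h _ => by rw [← hρχ]; rfl
  · simp

end Cfsg.Agent.S4750
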