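import Cfsg.Statements.S4754
import Cfsg.Agent.Lib.BrauerCharacters.ClassMul
import Cfsg.Agent.Lib.CharTheory.Orthogonality
-- import your own Cfsg.Agent.* helpers here

set_option autoImplicit false
open Cfsg

namespace Cfsg.Agent.S4754

/-- For elements x, y of a finite group G, the conjugacy class of x y equals the set of all products of a conjugate of x with a conjugate of y if and only if χ(1) χ(a x a⁻¹ b y b⁻¹) = χ(x) χ(y) for all a, b ∈ G and every irreducible character χ. -/
theorem result {G : Type*} [Group G] [Finite G] (x y : G) : (∀ z : G, IsConj (x * y) z ↔ ∃ a b : G, z = a * x * a⁻¹ * (b * y * b⁻¹)) ↔ ∀ (a b : G) (χ : Cfsg.IrrCharacter G), (χ : G → ℂ) 1 * (χ : G → ℂ) (a * x * a⁻¹ * (b * y * b⁻¹)) = (χ : G → ℂ) x * (χ : G → ℂ) y := by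
  classical
  have := Fintype.ofFinite G
  have hsum := fun (χ : Cfsg.IrrCharacter G) => CfsgLib.BrauerCharacters.sum_isConj_mul χ x y
  have hidx : ((Finset.univ.filter (IsConj x)).card) =
      (Subgroup.centralizer ({x} : Set G)).index := by
    rw [← CfsgLib.CharTheory.card_isConj, Nat.card_eq_fintype_card, Fintype.card_subtype]
  have hcl : ∀ (χ : Cfsg.IrrCharacter G) {u v : G}, IsConj u v →
      (χ : G → ℂ) u = (χ : G → ℂ) v := fun χ _ _ h => CfsgLib.CharTheory.irr_apply_eq_of_isConj h χ
  constructor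
  · intro h a b χ
    have hval : ∀ a b : G, (χ : G → ℂ) (a * x * a⁻¹ * (b * y * b⁻¹)) = (χ : G → ℂ) (x * y) :=
      fun a b => (hcl χ ((h _).2 ⟨a, b, rfl⟩)).symm
    have hconst : ∀ w ∈ Finset.univ.filter (IsConj x),
        (χ : G → ℂ) (w * y) = (χ : G → ℂ) (x * y) := by
      intro w hw
      obtain ⟨c, rfl⟩ := isConj_iff.1 (Finset.mem_filter.1 hw).2
      simpa using hval c 1
    have := hsum χ
    rw [Finset.sum_congr rfl hconst, Finset.sum_const, hidx, nsmul_eq_mul, Cfsg.centralChar] at this
    rw [hval]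
    have hI : ((Subgroup.centralizer ({x} : Set G)).index : ℂ) ≠ 0 :=
      Nat.cast_ne_zero.2 Subgroup.index_ne_zero_of_finite
    have h1 := CfsgLib.CharTheory.apply_one_ne_zero_of_isIrr χ.2
    field_simp at this
    linear_combination this
  · intro h z
    constructor
    · intro hz
      obtain ⟨c, rfl⟩ := isConj_iff.1 hz
      exact ⟨c, c, by group⟩
    · rintro ⟨a, b, rfl⟩
      refine CfsgLib.CharTheory.isConj_of_forall_irr fun χ => ?_
      have h1 := CfsgLib.CharTheory.apply_one_ne_zero_of_isIrr χ.2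
      apply mul_left_cancel₀ h1
      have h0 := h 1 1 χ
      simp only [one_mul, inv_one, mul_one] at h0
      rw [h0, h a b χ]

end Cfsg.Agent.S4754
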