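import Cfsg.Statements.S4755
import Cfsg.Agent.Lib.BrauerCharacters.ClassMul
import Cfsg.Agent.Lib.CharTheory.Orthogonality
-- import your own Cfsg.Agent.* helpers here

set_option autoImplicit false
open Cfsg

open scoped commutatorElement

namespace Cfsg.Agent.S4755

/-- Let x, y be non-identity elements of the finite group G such that χ(x' y') = χ(x') χ(y') for all conjugates x' of x, y' of y and every irreducible character χ. Then the conjugacy class of x y is the set of all products of a conjugate of x with a conjugate of y; every irreducible character of degree greater than 1 vanishes at x y; and the conjugacy class of x y is the coset of the commutator subgroup containing x y. -/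
theorem result {G : Type*} [Group G] [Finite G] (x y : G) (hx : x ≠ 1) (hy : y ≠ 1) (h : ∀ (a b : G) (χ : Cfsg.IrrCharacter G), (χ : G → ℂ) (a * x * a⁻¹ * (b * y * b⁻¹)) = (χ : G → ℂ) (a * x * a⁻¹) * (χ : G → ℂ) (b * y * b⁻¹)) : (∀ z : G, IsConj (x * y) z ↔ ∃ a b : G, z = a * x * a⁻¹ * (b * y * b⁻¹)) ∧ (∀ χ : Cfsg.IrrCharacter G, (χ : G → ℂ) 1 ≠ 1 → (χ : G → ℂ) (x * y) = 0) ∧ (∀ z : G, IsConj (x * y) z ↔ (x * y)⁻¹ * z ∈ commutator G) := by
  classical
  have := Fintype.ofFinite G
  have := Fintype.ofFinite (Cfsg.IrrCharacter G)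
  have hcl : ∀ (χ : Cfsg.IrrCharacter G) {u v : G}, IsConj u v →
      (χ : G → ℂ) u = (χ : G → ℂ) v := fun χ _ _ h => CfsgLib.CharTheory.irr_apply_eq_of_isConj h χ
  have hconjx : ∀ (χ : Cfsg.IrrCharacter G) (a u : G), (χ : G → ℂ) (a * u * a⁻¹) = (χ : G → ℂ) u :=
    fun χ a u => CfsgLib.BrauerCharacters.apply_conj_elem χ u a
  have hval : ∀ (χ : Cfsg.IrrCharacter G) (a b : G),
      (χ : G → ℂ) (a * x * a⁻¹ * (b * y * b⁻¹)) = (χ : G → ℂ) x * (χ : G → ℂ) y := fun χ a b => by
    rw [h a b χ, hconjx, hconjx]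
  have hxy : ∀ χ : Cfsg.IrrCharacter G, (χ : G → ℂ) (x * y) = (χ : G → ℂ) x * (χ : G → ℂ) y :=
    fun χ => by simpa using hval χ 1 1
  have hvan : ∀ χ : Cfsg.IrrCharacter G, (χ : G → ℂ) 1 ≠ 1 → (χ : G → ℂ) (x * y) = 0 := by
    intro χ hχ
    have hsum := CfsgLib.BrauerCharacters.sum_isConj_mul χ x y
    rw [Finset.sum_congr rfl (g := fun _ => (χ : G → ℂ) (x * y)) (fun w hw => by
      obtain ⟨c, rfl⟩ := isConj_iff.1 (Finset.mem_filter.1 hw).2
      have := hval χ c 1
      simp only [one_mul, inv_one, mul_one] at this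
      rw [this, hxy]), Finset.sum_const, nsmul_eq_mul] at hsum
    have hidx : ((Finset.univ.filter (IsConj x)).card) =
        (Subgroup.centralizer ({x} : Set G)).index := by
      rw [← CfsgLib.CharTheory.card_isConj, Nat.card_eq_fintype_card, Fintype.card_subtype]
    have hI : ((Subgroup.centralizer ({x} : Set G)).index : ℂ) ≠ 0 :=
      Nat.cast_ne_zero.2 Subgroup.index_ne_zero_of_finite
    have h1 := CfsgLib.CharTheory.apply_one_ne_zero_of_isIrr χ.2
    rw [hidx, Cfsg.centralChar] at hsum
    field_simp at hsum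
    have h2 : ((χ : G → ℂ) 1 - 1) * (χ : G → ℂ) (x * y) = 0 := by
      linear_combination hsum - hxy χ
    exact (mul_eq_zero.1 h2).resolve_left (sub_ne_zero.2 hχ)
  refine ⟨fun z => ⟨fun hz => ?_, ?_⟩, hvan, fun z => ⟨fun hz => ?_, fun hz => ?_⟩⟩
  · obtain ⟨c, rfl⟩ := isConj_iff.1 hz
    exact ⟨c, c, by group⟩
  · rintro ⟨a, b, rfl⟩
    exact CfsgLib.CharTheory.isConj_of_forall_irr fun χ => (hxy χ).trans (hval χ a b).symm
  · obtain ⟨c, rfl⟩ := isConj_iff.1 hz
    have : (x * y)⁻¹ * (c * (x * y) * c⁻¹) = ⁅(x * y)⁻¹, c⁆ := by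
      simp [commutatorElement_def, mul_assoc]
    rw [this, commutator_def]
    exact Subgroup.commutator_mem_commutator (Subgroup.mem_top _) (Subgroup.mem_top _)
  · by_contra hnc
    have horth := CfsgLib.CharTheory.sum_mul_conj z (x * y)
    rw [if_neg fun h => hnc h.symm] at horth
    have hlin : ∀ χ : Cfsg.IrrCharacter G,
        (χ : G → ℂ) z * (starRingEnd ℂ) ((χ : G → ℂ) (x * y)) =
          (χ : G → ℂ) (x * y) * (starRingEnd ℂ) ((χ : G → ℂ) (x * y)) := by
      intro χ
      by_cases hχ : (χ : G → ℂ) 1 = 1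
      · obtain ⟨n, ρ, hρ, hc⟩ := χ.2
        have hn : n = 1 := by
          rw [← hc, ρ.char_one, Module.finrank_fintype_fun_eq_card, Fintype.card_fin] at hχ
          exact_mod_cast hχ
        subst hn
        have hker : commutator G ≤ (MonoidHom.toHomUnits ρ).ker := by
          refine Subgroup.commutator_le.2 fun g _ g' _ => ?_
          rw [MonoidHom.mem_ker, map_commutatorElement, commutatorElement_eq_one_iff_commute]
          refine Units.ext ?_
          simp only [Units.val_mul, MonoidHom.coe_toHomUnits]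
          obtain ⟨c₁, h₁⟩ : ∃ c : ℂ, ρ g = c • LinearMap.id :=
            ⟨ρ g 1 0, LinearMap.ext fun v => funext fun i => by
              have : v = v 0 • (1 : Fin 1 → ℂ) := funext fun j => by simp [Subsingleton.elim j 0]
              rw [this, map_smul]; simp [Subsingleton.elim i 0, mul_comm]⟩
          show ρ g * ρ g' = ρ g' * ρ g
          rw [h₁]
          exact LinearMap.ext fun v => by simp [Module.End.mul_apply]
        have hzρ : ρ z = ρ (x * y) := by
          have h1 : ρ ((x * y)⁻¹ * z) = 1 := congrArg Units.val (hker hz)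
          calc ρ z = ρ (x * y * ((x * y)⁻¹ * z)) := by rw [mul_inv_cancel_left]
            _ = ρ (x * y) := by rw [map_mul, h1, mul_one]
        rw [← hc]
        simp [Representation.character, hzρ]
      · rw [hvan χ hχ]; simp
    rw [Finset.sum_congr rfl fun χ _ => hlin χ, CfsgLib.CharTheory.sum_mul_conj,
      if_pos (IsConj.refl _)] at horth
    exact (Nat.cast_ne_zero.2 Nat.card_pos.ne' : (Nat.card _ : ℂ) ≠ 0) horth

end Cfsg.Agent.S4755
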