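import Cfsg.Statements.S4757
import Cfsg.Agent.Lib.CharTheory.Orthogonality
import Cfsg.Agent.Lib.CharTheory.Linear
import Cfsg.Agent.Lib.Cores.PCore

set_option autoImplicit false
open Cfsg

namespace Cfsg.Agent.S4757

open CfsgLib CfsgLib.CharTheory
open scoped ComplexConjugate


/-- Let u ≠ 1 be an element of the finite group G and c a complex number such that every non-principal irreducible character χ satisfies χ(1) − χ(u) = c or χ(u) = 0. Then the following are equivalent: (a) u has order 2, G is generated by u together with O(G), the largest normal subgroup of G of odd order, and the centralizer of u is {1, u}; (b) G is not perfect; (c) c = 2. -/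
theorem result {G : Type*} [Group G] [Finite G] (u : G) (hu : u ≠ 1) (c : ℂ) (hyp : ∀ χ : Cfsg.IrrCharacter G, (χ : G → ℂ) ≠ (fun _ => (1 : ℂ)) → ((χ : G → ℂ) 1 - (χ : G → ℂ) u = c ∨ (χ : G → ℂ) u = 0)) : ((orderOf u = 2 ∧ Subgroup.zpowers u ⊔ Cfsg.oddCore G = ⊤ ∧ Subgroup.centralizer ({u} : Set G) = Subgroup.zpowers u) ↔ commutator G ≠ ⊤) ∧ (commutator G ≠ ⊤ ↔ c = 2) := by
  classical
  haveI := Fintype.ofFinite G
  haveI := Fintype.ofFinite (IrrCharacter G)
  let one : IrrCharacter G := ⟨fun _ => 1, isIrrCharacter_one⟩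
  have hdeg : ∀ χ : IrrCharacter G, ∃ n : ℕ, 0 < n ∧ (χ : G → ℂ) 1 = n := fun χ =>
    exists_degree_of_isIrr χ.2
  choose d hd0 hd using hdeg
  have hsum : ∑ χ : IrrCharacter G, (χ : G → ℂ) 1 * (χ : G → ℂ) u = 0 := by
    rw [sum_degree_mul, if_neg hu]
  have hne1 : ∀ χ : IrrCharacter G, χ ≠ one → (χ : G → ℂ) ≠ fun _ => (1 : ℂ) :=
    fun χ h e => h (Subtype.ext e)
  have hlin : ∀ (χ : IrrCharacter G), d χ = 1 → ∃ l : G →* ℂˣ, ∀ g, (χ : G → ℂ) g = (l g : ℂ) :=
    fun χ h => by
      obtain ⟨l, hl⟩ := exists_hom_of_degree_one χ.2 (by rw [hd, h, Nat.cast_one])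
      exact ⟨l, fun g => congrFun hl g⟩
  have hmul : ∀ l : G →* ℂˣ, l ≠ 1 → c = 1 - (l u : ℂ) := by
    intro l hl
    have h := hyp ⟨_, isIrrCharacter_linear l⟩ (fun e => hl (MonoidHom.ext fun g => Units.ext (by
      simpa using congrFun e g)))
    simp only [map_one, Units.val_one] at h
    rcases h with h | h
    · exact h.symm
    · exact absurd h (l u).ne_zero
  have hba : commutator G ≠ ⊤ → c = 2 := by
    intro hG
    have hnt : 1 < Nat.card {χ : IrrCharacter G // (χ : G → ℂ) 1 = 1} := by
      rw [card_linear]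
      exact lt_of_le_of_ne (Nat.one_le_iff_ne_zero.2 Subgroup.index_ne_zero_of_finite)
        fun e => hG (Subgroup.index_eq_one.1 e.symm)
    haveI := Finite.one_lt_card_iff_nontrivial.1 hnt
    obtain ⟨χ, hχ⟩ := exists_ne (⟨one, rfl⟩ : {χ : IrrCharacter G // (χ : G → ℂ) 1 = 1})
    obtain ⟨l, hl⟩ := exists_hom_of_degree_one χ.1.2 χ.2
    have hl1 : l ≠ 1 := fun e => hχ (Subtype.ext (Subtype.ext (by rw [hl, e]; funext g; simp [one])))
    have hc := hmul l hl1
    by_cases h1 : (l u : ℂ) = 1
    · exfalso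
      rw [h1, sub_self] at hc
      have hpos : ∀ χ : IrrCharacter G, 0 ≤ ((χ : G → ℂ) 1 * (χ : G → ℂ) u).re := fun χ => by
        by_cases hχ1 : χ = one
        · simp [hχ1, one]
        · rcases hyp χ (hne1 χ hχ1) with h | h
          · rw [hc, sub_eq_zero] at h
            rw [← h, hd, ← Nat.cast_mul, Complex.natCast_re]
            exact Nat.cast_nonneg _
          · simp [h]
      have h := congrArg Complex.re hsum
      rw [Complex.re_sum, Complex.zero_re, Finset.sum_eq_zero_iff_of_nonneg fun χ _ => hpos χ] at h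
      have := h one (Finset.mem_univ _)
      simp [one] at this
    · by_cases h2 : l * l = 1
      · have h3 : (l u : ℂ) * (l u : ℂ) = 1 := by
          rw [← Units.val_mul, ← MonoidHom.mul_apply, h2]; simp
        rcases mul_self_eq_one_iff.1 h3 with h4 | h4
        · exact absurd h4 h1
        · rw [hc, h4]; ring
      · have h3 := hmul (l * l) h2
        rw [hc, MonoidHom.mul_apply, Units.val_mul] at h3
        refine absurd ?_ h1
        have h4 : (l u : ℂ) * 1 = (l u : ℂ) * (l u : ℂ) := by linear_combination -h3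
        exact (mul_left_cancel₀ (l u).ne_zero h4).symm
  have hcb : c = 2 → orderOf u = 2 ∧ Subgroup.zpowers u ⊔ Cfsg.oddCore G = ⊤ ∧
      Subgroup.centralizer ({u} : Set G) = Subgroup.zpowers u := by
    intro hc
    set A := (Finset.univ.erase one).filter (fun χ : IrrCharacter G => (χ : G → ℂ) u ≠ 0) with hA
    have hAv : ∀ χ ∈ A, (χ : G → ℂ) u = (d χ : ℂ) - 2 ∧ d χ ≠ 2 := by
      intro χ hχ
      simp only [hA, Finset.mem_filter, Finset.mem_erase] at hχ
      have h := (hyp χ (hne1 χ hχ.1.1)).resolve_right hχ.2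
      rw [hc, hd] at h
      have h' : (χ : G → ℂ) u = (d χ : ℂ) - 2 := by linear_combination -h
      exact ⟨h', fun e => hχ.2 (by rw [h', e]; norm_num)⟩
    have huniq : ∀ χ ∈ A, ∀ ψ ∈ A, d χ = 1 → d ψ = 1 → χ = ψ := by
      intro χ hχ ψ hψ h1 h2
      obtain ⟨l, hl⟩ := hlin χ h1
      obtain ⟨k, hk⟩ := hlin ψ h2
      have hlu : (l u : ℂ) = -1 := by rw [← hl, (hAv χ hχ).1, h1]; norm_num
      have hku : (k u : ℂ) = -1 := by rw [← hk, (hAv ψ hψ).1, h2]; norm_num
      by_cases e : l * k = 1
      · by_cases e2 : l * l = 1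
        · refine Subtype.ext (funext fun g => ?_)
          have h3 : l g * k g = l g * l g := by
            rw [← MonoidHom.mul_apply, ← MonoidHom.mul_apply, e, e2]
          rw [hl, hk, mul_left_cancel h3]
        · have := hmul _ e2
          rw [MonoidHom.mul_apply, Units.val_mul, hlu, hc] at this
          norm_num at this
      · have := hmul _ e
        rw [MonoidHom.mul_apply, Units.val_mul, hlu, hku, hc] at this
        norm_num at this
    have hS : (1 : ℤ) + ∑ χ ∈ A, (d χ : ℤ) * ((d χ : ℤ) - 2) = 0 := by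
      have h := hsum
      rw [← Finset.add_sum_erase _ _ (Finset.mem_univ one)] at h
      rw [← Finset.sum_filter_ne_zero] at h
      have hf : (Finset.univ.erase one).filter
          (fun χ : IrrCharacter G => (χ : G → ℂ) 1 * (χ : G → ℂ) u ≠ 0) = A := by
        refine Finset.filter_congr fun χ _ => ?_
        simp [apply_one_ne_zero_of_isIrr χ.2]
      rw [hf, Finset.sum_congr rfl (g := fun χ => (((d χ : ℤ) * ((d χ : ℤ) - 2) : ℤ) : ℂ))
        (fun χ hχ => by rw [hd, (hAv χ hχ).1]; push_cast; ring)] at h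
      simp only [one, one_mul] at h
      exact_mod_cast h
    have hA1 : ∀ χ ∈ A, d χ = 1 := by
      intro χ hχ
      by_contra hχ1
      have h3 : 3 ≤ (d χ : ℤ) * ((d χ : ℤ) - 2) := by
        have := hd0 χ
        have := (hAv χ hχ).2
        have h' : (3 : ℤ) ≤ (d χ : ℤ) := by omega
        nlinarith
      have hrest : -1 ≤ ∑ ψ ∈ A.erase χ, (d ψ : ℤ) * ((d ψ : ℤ) - 2) := by
        set B := (A.erase χ).filter (fun ψ => d ψ = 1) with hB
        have hBc : B.card ≤ 1 := Finset.card_le_one.2 fun a ha b hb => by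
          simp only [hB, Finset.mem_filter, Finset.mem_erase] at ha hb
          exact huniq a ha.1.2 b hb.1.2 ha.2 hb.2
        calc (-1 : ℤ) ≤ -(B.card : ℤ) := by omega
          _ = ∑ ψ ∈ B, (d ψ : ℤ) * ((d ψ : ℤ) - 2) := by
              rw [Finset.sum_congr rfl (g := fun _ => (-1 : ℤ)) (fun ψ hψ => by
                rw [(Finset.mem_filter.1 hψ).2]; norm_num)]
              simp
          _ ≤ _ := by
              refine Finset.sum_le_sum_of_subset_of_nonneg (Finset.filter_subset _ _) fun ψ hψ hn => ?_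
              have h1 := hd0 ψ
              have h2 : d ψ ≠ 1 := fun e => hn (Finset.mem_filter.2 ⟨hψ, e⟩)
              have h' : (2 : ℤ) ≤ (d ψ : ℤ) := by omega
              nlinarith
      rw [← Finset.add_sum_erase _ _ hχ] at hS
      omega
    obtain ⟨lam, hlam⟩ : A.Nonempty := Finset.nonempty_iff_ne_empty.2 fun e => by simp [e] at hS
    have hAeq : A = {lam} := Finset.eq_singleton_iff_unique_mem.2
      ⟨hlam, fun χ hχ => huniq χ hχ lam hlam (hA1 χ hχ) (hA1 lam hlam)⟩
    have hcard : Nat.card (Subgroup.centralizer ({u} : Set G)) = 2 := by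
      have h := sum_mul_conj u u
      rw [if_pos (IsConj.refl u), ← Finset.add_sum_erase _ _ (Finset.mem_univ one),
        ← Finset.sum_filter_of_ne (p := fun χ : IrrCharacter G => (χ : G → ℂ) u ≠ 0)
          (fun χ _ hχ => left_ne_zero_of_mul hχ), ← hA, hAeq, Finset.sum_singleton,
        (hAv lam hlam).1, hA1 lam hlam] at h
      norm_num [one] at h
      rw [Nat.card_eq_fintype_card]
      exact_mod_cast h.symm
    have hle : Subgroup.zpowers u ≤ Subgroup.centralizer ({u} : Set G) := by
      rw [Subgroup.zpowers_le, Subgroup.mem_centralizer_singleton_iff]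
    have ho : orderOf u = 2 := by
      have h := Subgroup.card_dvd_of_le hle
      rw [Nat.card_zpowers, hcard] at h
      exact ((Nat.dvd_prime Nat.prime_two).1 h).resolve_left fun h1 => hu (orderOf_eq_one_iff.1 h1)
    have hCeq : Subgroup.centralizer ({u} : Set G) = Subgroup.zpowers u :=
      (Subgroup.eq_of_le_of_card_ge hle (by rw [hcard, Nat.card_zpowers, ho])).symm
    obtain ⟨l, hl⟩ := hlin lam (hA1 lam hlam)
    have hlu : (l u : ℂ) = -1 := by rw [← hl, (hAv lam hlam).1, hA1 lam hlam]; norm_num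
    haveI : Fact (Nat.Prime 2) := ⟨Nat.prime_two⟩
    -- a Sylow 2-subgroup has order two
    obtain ⟨S, hS'⟩ := (IsPGroup.of_card (p := 2) (n := 1) (G := Subgroup.zpowers u)
      (by rw [Nat.card_zpowers, ho, pow_one])).exists_le_sylow
    have hSC : ((S : Subgroup G)) ≤ Subgroup.centralizer ({u} : Set G) := by
      haveI : Nontrivial (S : Subgroup G) :=
        ⟨⟨⟨u, hS' (Subgroup.mem_zpowers u)⟩, 1, fun e => hu (congrArg Subtype.val e)⟩⟩
      haveI := S.isPGroup'.center_nontrivial
      obtain ⟨z, hz⟩ := exists_ne (1 : Subgroup.center (S : Subgroup G))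
      have hzu : ((z : (S : Subgroup G)) : G) ∈ Subgroup.centralizer ({u} : Set G) := by
        rw [Subgroup.mem_centralizer_singleton_iff]
        exact congrArg Subtype.val
          ((Subgroup.mem_center_iff.1 z.2) ⟨u, hS' (Subgroup.mem_zpowers u)⟩).symm
      rw [hCeq, mem_zpowers_iff_mem_range_orderOf, ho, Finset.mem_image] at hzu
      obtain ⟨i, hi, hiz⟩ := hzu
      rw [Finset.mem_range] at hi
      interval_cases i
      · exact absurd (Subtype.ext (Subtype.ext (by simpa using hiz.symm))) hz
      · intro s hs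
        rw [Subgroup.mem_centralizer_singleton_iff]
        have := congrArg Subtype.val ((Subgroup.mem_center_iff.1 z.2) ⟨s, hs⟩)
        simp only [Subgroup.coe_mul] at this
        rw [← hiz, pow_one] at this
        exact this
    have h2 : ¬ 4 ∣ Nat.card G := fun h4 => by
      have h := (S.pow_dvd_card_of_pow_dvd_card (n := 2) (by simpa using h4)).trans
        (Subgroup.card_dvd_of_le hSC)
      rw [hcard] at h
      norm_num at h
    set N := l.ker with hN
    have huN : u ∉ N := fun h => by
      rw [MonoidHom.mem_ker.1 h, Units.val_one] at hlu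
      norm_num at hlu
    have hsq : ∀ g : G, l g = 1 ∨ l g = l u := by
      intro g
      have e : l * l = 1 := by
        by_contra e
        have := hmul _ e
        rw [MonoidHom.mul_apply, Units.val_mul, hlu, hc] at this
        norm_num at this
      have h3 : (l g : ℂ) * (l g : ℂ) = 1 := by
        rw [← Units.val_mul, ← MonoidHom.mul_apply, e]; simp
      rcases mul_self_eq_one_iff.1 h3 with h4 | h4
      · exact Or.inl (Units.ext h4)
      · exact Or.inr (Units.ext (h4.trans hlu.symm))
    have hNodd : Odd (Nat.card N) := by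
      rw [← Nat.not_even_iff_odd, even_iff_two_dvd]
      intro hd
      have h2' : 2 ∣ N.index := by
        rw [hN, Subgroup.index_ker]
        have hl2 : orderOf (l u) = 2 := orderOf_eq_prime
          (Units.ext (by rw [Units.val_pow_eq_pow_val, hlu]; norm_num))
          (fun e => by rw [e, Units.val_one] at hlu; norm_num at hlu)
        have h := orderOf_dvd_natCard (⟨l u, MonoidHom.mem_range.2 ⟨u, rfl⟩⟩ : l.range)
        rwa [Subgroup.orderOf_mk, hl2] at h
      exact h2 (by rw [← Subgroup.card_mul_index N]; exact Nat.mul_dvd_mul hd h2')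
    refine ⟨ho, eq_top_iff.2 fun g _ => ?_, hCeq⟩
    have hNO : N ≤ Cfsg.oddCore G := Cores.le_oddCore hNodd
    rcases hsq g with h | h
    · exact Subgroup.mem_sup_right (hNO (MonoidHom.mem_ker.2 h))
    · have hmem : u⁻¹ * g ∈ N := MonoidHom.mem_ker.2 (by rw [map_mul, map_inv, h, inv_mul_cancel])
      rw [show g = u * (u⁻¹ * g) by group]
      exact Subgroup.mul_mem_sup (Subgroup.mem_zpowers u) (hNO hmem)
  have hab : orderOf u = 2 ∧ Subgroup.zpowers u ⊔ Cfsg.oddCore G = ⊤ ∧
      Subgroup.centralizer ({u} : Set G) = Subgroup.zpowers u → commutator G ≠ ⊤ := by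
    rintro ⟨ho, htop, -⟩ heq
    have huO : u ∉ Cfsg.oddCore G := fun h => by
      have hd := orderOf_dvd_natCard (⟨u, h⟩ : Cfsg.oddCore G)
      rw [Subgroup.orderOf_mk, ho] at hd
      exact (Nat.not_even_iff_odd.2 (Cores.odd_card_oddCore (G := G))) (even_iff_two_dvd.2 hd)
    apply huO
    have hle : commutator G ≤ Cfsg.oddCore G := by
      haveI : (Cfsg.oddCore G).Normal := inferInstance
      set π := QuotientGroup.mk' (Cfsg.oddCore G) with hπ
      have hcyc : ∀ y : G ⧸ Cfsg.oddCore G, ∃ i : ℤ, π (u ^ i) = y := by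
        intro y
        obtain ⟨g, rfl⟩ := QuotientGroup.mk'_surjective _ y
        have hg : g ∈ Subgroup.zpowers u ⊔ Cfsg.oddCore G := htop ▸ Subgroup.mem_top g
        rw [← SetLike.mem_coe, Subgroup.mul_normal] at hg
        obtain ⟨a, ⟨i, rfl⟩, o, ho', rfl⟩ := hg
        refine ⟨i, ?_⟩
        rw [map_mul, show π o = 1 from (QuotientGroup.eq_one_iff o).2 ho', mul_one]
      rw [commutator_def, Subgroup.commutator_le]
      intro a _ b _
      rw [← QuotientGroup.eq_one_iff, ← QuotientGroup.mk'_apply, map_commutatorElement,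
        commutatorElement_eq_one_iff_commute]
      obtain ⟨i, hi⟩ := hcyc (π a)
      obtain ⟨j, hj⟩ := hcyc (π b)
      rw [← hπ, ← hi, ← hj, map_zpow, map_zpow]
      exact (Commute.refl _).zpow_zpow i j
    exact hle (heq ▸ Subgroup.mem_top u)
  exact ⟨⟨hab, fun h => hcb (hba h)⟩, ⟨hba, fun h => hab (hcb h)⟩⟩

end Cfsg.Agent.S4757
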