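import Cfsg.Statements.S4759
import Cfsg.Agent.Lib.Correspondences.ExtraExtInduct
import Cfsg.Agent.Lib.PGroups.Extraspecial
import Cfsg.Agent.Lib.Coherence.CoprimeExtension
import Cfsg.Agent.Lib.CharTheory.Inflation

set_option autoImplicit false
set_option linter.style.haveILetI false
open Cfsg
open CfsgLib CfsgLib.CharTheory CfsgLib.Correspondences.ExtraExt
open scoped ComplexConjugate commutatorElement

namespace Cfsg.Agent.S4759

/-- An extraspecial 2-group has the type needed for lifting. -/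
private theorem exists_isES {G : Type*} [Group G] [Finite G] {E : Subgroup G}
    (hE : Cfsg.IsExtraspecial 2 ↥E) :
    ∃ z : G, IsES E z ∧ ∀ e : E, e ∈ Subgroup.center E → (e : G) = 1 ∨ (e : G) = z := by
  haveI : Fact (Nat.Prime 2) := ⟨Nat.prime_two⟩
  have h2 : Nat.card (Subgroup.center E) = 2 := hE.2
  haveI : Nontrivial (Subgroup.center E) := Finite.one_lt_card_iff_nontrivial.1 (by omega)
  obtain ⟨z, hz⟩ := exists_ne (1 : Subgroup.center E)
  have hcases : ∀ e : Subgroup.center E, e = 1 ∨ e = z := fun e => by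
    by_contra h
    push Not at h
    haveI := Fintype.ofFinite (Subgroup.center E)
    classical
    have h3 : ({1, z, e} : Finset (Subgroup.center E)).card = 3 :=
      Finset.card_eq_three.2 ⟨1, z, e, hz.symm, h.1.symm, h.2.symm, rfl⟩
    have h4 := Finset.card_le_univ ({1, z, e} : Finset (Subgroup.center E))
    rw [← Nat.card_eq_fintype_card, h2, h3] at h4
    omega
  have hcases' : ∀ e : E, e ∈ Subgroup.center E → (e : G) = 1 ∨ (e : G) = ((z : E) : G) := by
    intro e he
    rcases hcases ⟨e, he⟩ with h | h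
    · exact Or.inl (congrArg (fun c : Subgroup.center E => ((c : E) : G)) h)
    · exact Or.inr (congrArg (fun c : Subgroup.center E => ((c : E) : G)) h)
  refine ⟨((z : E) : G), ⟨(z : E).2, ?_, fun h => hz (Subtype.ext (Subtype.ext h)), fun e he => ?_,
    fun e he => ?_, fun e he h => ?_⟩, hcases'⟩
  · have h := pow_card_eq_one' (x := z)
    rw [h2, pow_two] at h
    exact congrArg (fun c : Subgroup.center E => ((c : E) : G)) h
  · exact (congrArg Subtype.val (Subgroup.mem_center_iff.1 z.2 ⟨e, he⟩)).symm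
  · have h := PGroups.IsExtraspecial.pow_mem_center hE (⟨e, he⟩ : E)
    rw [pow_two] at h
    exact hcases' _ h
  · exact hcases' ⟨e, he⟩ (Subgroup.mem_center_iff.2 fun f => Subtype.ext (h f f.2).symm)

/-- Values of a faithful irreducible character of a group of extraspecial type. -/
private theorem exists_values {G : Type*} [Group G] [Finite G] {E : Subgroup G} {z : G}
    (hE : IsES E z) (θ : E → ℂ) (hθ : IsIrrCharacter E θ) (hf : ∀ e : E, θ e = θ 1 → e = 1) :
    ∃ (d : ℕ) (R : Rep E z d), ∀ e : E, θ e = (R.toHom e).trace := by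
  classical
  letI := Fintype.ofFinite E
  obtain ⟨d, ρ, hρ, rfl⟩ := hθ
  haveI : ρ.IsIrreducible := hρ
  let M : E →* Matrix (Fin d) (Fin d) ℂ :=
    (LinearMap.toMatrixAlgEquiv' : _ ≃ₐ[ℂ] Matrix (Fin d) (Fin d) ℂ).toMonoidHom.comp ρ
  have hch : ∀ e, ρ.character e = (M e).trace := fun e =>
    LinearMap.trace_eq_matrix_trace ℂ (Pi.basisFun ℂ (Fin d)) (ρ e) |>.trans (by
      rw [LinearMap.toMatrix_eq_toMatrix']; rfl)
  let zE : E := ⟨z, hE.z_mem⟩
  have hz1 : zE ≠ 1 := fun h => hE.z_ne (congrArg Subtype.val h)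
  obtain ⟨c, hc⟩ := exists_smul_of_commute ρ (ρ zE) fun g => by
    rw [← Module.End.mul_eq_comp, ← Module.End.mul_eq_comp, ← map_mul, ← map_mul]
    congr 1
    exact Subtype.ext (hE.z_comm g g.2)
  have hMz : M zE = c • 1 := by
    show LinearMap.toMatrixAlgEquiv' (ρ zE) = c • 1
    rw [hc, map_smul]
    congr 1
    exact map_one (LinearMap.toMatrixAlgEquiv' : _ ≃ₐ[ℂ] Matrix (Fin d) (Fin d) ℂ)
  have hd : d ≠ 0 := by
    rintro rfl
    refine hz1 (hf zE ?_)
    rw [hch, hch]
    simp [Matrix.trace]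
  haveI : Nonempty (Fin d) := ⟨⟨0, Nat.pos_of_ne_zero hd⟩⟩
  have hc1 : c = -1 := by
    have h := congrArg M (show zE * zE = 1 from Subtype.ext hE.z_sq)
    rw [map_mul, map_one, hMz, smul_mul_smul_comm, one_mul] at h
    have h' := congrArg Matrix.trace h
    rw [Matrix.trace_smul, Matrix.trace_one, Fintype.card_fin, smul_eq_mul] at h'
    have hcc : c * c = 1 := mul_right_cancel₀ (Nat.cast_ne_zero.2 hd) (h'.trans (one_mul _).symm)
    refine (mul_self_eq_one_iff.1 hcc).resolve_left fun h1 => hz1 (hf zE ?_)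
    rw [hch, hch, hMz, map_one, h1, one_smul]
  have hneg : M zE = -1 := by rw [hMz, hc1, neg_one_smul]
  have hzero : ∀ e : E, (e : G) ≠ 1 → (e : G) ≠ z → (M e).trace = 0 := by
    intro e h1 hz
    obtain ⟨f, hf, hne⟩ : ∃ f ∈ E, (e : G) * f ≠ f * e := by
      by_contra h
      push Not at h
      exact (hE.center e e.2 h).elim h1 hz
    have h : (⟨f, hf⟩ : E) * e = zE * (e * ⟨f, hf⟩) :=
      Subtype.ext ((hE.mul_comm_cases e.2 hf).resolve_left (Ne.symm hne))
    have h2 : M ⟨f, hf⟩ * M e * M (⟨f, hf⟩⁻¹) = - M e := by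
      rw [← map_mul, h, map_mul, map_mul, hneg, neg_one_mul, neg_mul, mul_assoc, ← map_mul,
        mul_inv_cancel, map_one, mul_one]
    have h3 := congrArg Matrix.trace h2
    rw [Matrix.trace_mul_cycle, ← map_mul, inv_mul_cancel, map_one, one_mul, Matrix.trace_neg] at h3
    linear_combination h3 / 2
  have hcard : 2 * (d * d) = Nat.card E := by
    have h := (isIrrCharacter_iff_norm_one (isCharacter_character ρ)).1 ⟨d, ρ, hρ, rfl⟩
    rw [classInner, Rep.sum_eq hE _ fun e h1 hz => by rw [hch, hzero e h1 hz, zero_mul], hch, hch,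
      hneg, map_one, Matrix.trace_neg, Matrix.trace_one, Fintype.card_fin, map_neg,
      Complex.conj_natCast] at h
    have hN : (Nat.card E : ℂ) ≠ 0 := Nat.cast_ne_zero.2 Nat.card_pos.ne'
    have h' : (2 * (d * d) : ℂ) = (Nat.card E : ℂ) := by
      field_simp at h
      linear_combination h
    exact_mod_cast h'
  exact ⟨d, ⟨M, hcard, fun _ => hneg⟩, hch⟩

/-- Let G be a finite group that is the semidirect product of a normal extraspecial 2-subgroup E and a complement H acting faithfully on E (no non-identity element of H centralizes E), and suppose H has a normal subgroup K of odd order with [E, K] = E. Then every faithful irreducible character θ of E (there is exactly one) extends to G: some irreducible character of G restricts to θ on E. -/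
theorem result {G : Type*} [Group G] [Finite G] (E H : Subgroup G) [E.Normal] (hE : Cfsg.IsExtraspecial 2 ↥E) (hEH : E ⊓ H = ⊥) (hEHtop : E ⊔ H = ⊤) (hfaith : ∀ h ∈ H, (∀ e ∈ E, h * e = e * h) → h = 1) (K : Subgroup G) (hKH : K ≤ H) (hKn : ∀ h ∈ H, ∀ k ∈ K, h * k * h⁻¹ ∈ K) (hKodd : Odd (Nat.card ↥K)) (hEK : ⁅E, K⁆ = E) (θ : Cfsg.IrrCharacter ↥E) (hθ : ∀ e : ↥E, (θ : ↥E → ℂ) e = (θ : ↥E → ℂ) 1 → e = 1) : ∃ χ : Cfsg.IrrCharacter G, ∀ e : ↥E, (χ : G → ℂ) e = (θ : ↥E → ℂ) e := by
  classical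
  obtain ⟨z, hES, hcenter⟩ := exists_isES hE
  have hconj : ∀ g e : G, e ∈ E → g * e * g⁻¹ ∈ E := fun g e he =>
    Subgroup.Normal.conj_mem inferInstance e he g
  have hgz : ∀ g : G, g * z = z * g := by
    intro g
    have hm : g * z * g⁻¹ ∈ E := hconj g z hES.z_mem
    have hz' : g * z * g⁻¹ = 1 ∨ g * z * g⁻¹ = z := hES.center _ hm fun f hf => by
      have h := hES.z_comm (g⁻¹ * f * g) (by simpa using hconj g⁻¹ f hf)
      calc g * z * g⁻¹ * f = g * (z * (g⁻¹ * f * g)) * g⁻¹ := by group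
        _ = g * ((g⁻¹ * f * g) * z) * g⁻¹ := by rw [h]
        _ = f * (g * z * g⁻¹) := by group
    rcases hz' with h | h
    · exact (hES.z_ne (conj_eq_one_iff.1 h)).elim
    · exact mul_inv_eq_iff_eq_mul.1 h
  have hacts : ∀ g : G, Acts E z g := fun g =>
    ⟨by rw [Subgroup.normalizer_eq_top]; trivial, hgz g⟩
  obtain ⟨d, Rθ, hRθ⟩ := exists_values hES _ θ.2 hθ
  have hinv : ∀ (g : G) (n : E), (θ : E → ℂ) (MulAut.conjNormal g n) = (θ : E → ℂ) n := by
    intro g n
    have hc : (MulAut.conjNormal g n : G) = g * n * g⁻¹ := MulAut.conjNormal_apply g n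
    by_cases h1 : (n : G) = 1
    · obtain rfl : n = 1 := Subtype.ext h1
      rw [map_one]
    by_cases h2 : (n : G) = z
    · have : MulAut.conjNormal g n = n := Subtype.ext (by rw [hc, h2, hgz, mul_inv_cancel_right])
      rw [this]
    rw [hRθ, hRθ, Rθ.trace_eq_zero hES h1 h2, Rθ.trace_eq_zero hES]
    · rw [hc]
      exact fun h => h1 (conj_eq_one_iff.1 h)
    · rw [hc]
      intro h
      refine h2 (mul_left_cancel (a := g) (mul_right_cancel (b := g⁻¹) ?_))
      rw [h, hgz, mul_inv_cancel_right]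
  suffices h : ∀ p : ℕ, p.Prime → ∃ (P : Subgroup G) (hEP : E ≤ P) (η : P → ℂ),
      ¬ p ∣ P.index ∧ IsCharacter P η ∧ ∀ n : E, η ⟨n, hEP n.2⟩ = (θ : E → ℂ) n by
    obtain ⟨χ, hχ, hχθ⟩ :=
      RealChar.exists_extension_character_of_forall_prime E (θ : E → ℂ) θ.2 hinv h
    exact ⟨⟨χ, hχ⟩, hχθ⟩
  intro p hp
  haveI := Fact.mk hp
  obtain ⟨S⟩ := (inferInstance : Nonempty (Sylow p G))
  have hpS : ∀ P : Subgroup G, (S : Subgroup G) ≤ P → ¬ p ∣ P.index := fun P hP h =>
    S.not_dvd_index (h.trans (Subgroup.index_dvd_of_le hP))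
  obtain ⟨k, hk⟩ := IsPGroup.iff_card.1 hES.isPGroup
  by_cases hp2 : p = 2
  · subst hp2
    have hES' : E ≤ (S : Subgroup G) := by
      obtain ⟨Q, hQ⟩ := hES.isPGroup.exists_le_sylow
      obtain ⟨g, rfl⟩ := MulAction.exists_smul_eq G Q S
      intro e he
      rw [Sylow.coe_subgroup_smul, Subgroup.mem_pointwise_smul_iff_inv_smul_mem]
      exact hQ (by simpa [MulAut.smul_def] using hconj g⁻¹ e he)
    let T : Subgroup G := (S : Subgroup G) ⊓ H
    have hT : IsPGroup 2 T := S.2.to_le inf_le_left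
    have hfix : ∀ e ∈ E, e ∈ Subgroup.centralizer (K : Set G) → e = 1 ∨ e = z := by
      intro f hf hfK
      refine hES.center f hf fun e he => ?_
      have hle : ⁅E, K⁆ ≤ Subgroup.centralizer ({f} : Set G) :=
        Subgroup.commutator_le.2 fun a ha b hb => Subgroup.mem_centralizer_singleton_iff.2
          (hES.commute_commutator hf ha (hgz b) (Subgroup.mem_centralizer_iff.1 hfK b hb).symm)
      rw [hEK] at hle
      exact (Subgroup.mem_centralizer_singleton_iff.1 (hle he)).symm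
    obtain ⟨n, R, U, hU⟩ := ext_of_fixedPointFree hES hT (fun t _ => hacts t) (fun t _ => hacts t)
      hKodd (fun t ht => hKn t ht.2) hfix
    have hnd : n = d := Nat.mul_self_inj.1 (by
      have h1 := R.card
      have h2 := Rθ.card
      omega)
    subst hnd
    have hdec : ∀ s : (S : Subgroup G), ∃ (e : E) (t : T), (s : G) = e * t := by
      intro s
      have h : (s : G) ∈ ((E ⊔ H : Subgroup G) : Set G) := by rw [hEHtop]; trivial
      rw [Subgroup.normal_mul] at h
      obtain ⟨e, he, t, ht, hst⟩ := Set.mem_mul.1 h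
      have ht' : t = e⁻¹ * (s : G) := by rw [← hst, inv_mul_cancel_left]
      exact ⟨⟨e, he⟩, ⟨t, ⟨ht' ▸ (S : Subgroup G).mul_mem ((S : Subgroup G).inv_mem (hES' he)) s.2, ht⟩⟩, hst.symm⟩
    have huniq : ∀ (e e' : E) (t t' : T), (e : G) * t = e' * t' → e = e' ∧ t = t' := by
      intro e e' t t' h
      have h1 : (e' : G)⁻¹ * e = t' * (t : G)⁻¹ := by
        rw [inv_mul_eq_iff_eq_mul, ← mul_assoc, ← h, mul_inv_cancel_right]
      have h2 : (e' : G)⁻¹ * e ∈ E ⊓ H :=
        ⟨E.mul_mem (inv_mem e'.2) e.2, h1 ▸ H.mul_mem t'.2.2 (inv_mem t.2.2)⟩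
      rw [hEH, Subgroup.mem_bot] at h2
      refine ⟨Subtype.ext (inv_mul_eq_one.1 h2).symm, Subtype.ext ?_⟩
      rw [h2] at h1
      exact (mul_inv_eq_one.1 h1.symm).symm
    choose eS tS hs using hdec
    let τ : (S : Subgroup G) →* Matrix (Fin n) (Fin n) ℂ :=
      { toFun := fun s => R.toHom (eS s) * U (tS s)
        map_one' := by
          obtain ⟨h1, h2⟩ := huniq (eS 1) 1 (tS 1) 1 (by rw [← hs]; simp)
          rw [h1, h2, map_one, map_one, one_mul]
        map_mul' := fun a b => by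
          have hm : (tS a : G) * (eS b : G) * (tS a : G)⁻¹ ∈ E := hconj _ _ (eS b).2
          obtain ⟨h1, h2⟩ := huniq (eS (a * b)) (eS a * ⟨_, hm⟩) (tS (a * b)) (tS a * tS b) (by
            rw [← hs]
            show (a : G) * b = _
            rw [hs a, hs b]
            simp [mul_assoc])
          rw [h1, h2, map_mul, map_mul, mul_assoc (R.toHom (eS a)),
            ← mul_assoc (R.toHom ⟨_, hm⟩), ← hU _ _ hm]
          simp only [mul_assoc] }
    let ρ : Representation ℂ (S : Subgroup G) (Fin n → ℂ) :=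
      (Matrix.toLinAlgEquiv' : Matrix (Fin n) (Fin n) ℂ ≃ₐ[ℂ] _).toMonoidHom.comp τ
    refine ⟨S, hES', ρ.character, hpS _ le_rfl, ⟨n, ρ, rfl⟩, fun e => ?_⟩
    show LinearMap.trace ℂ _ (Matrix.toLin' (τ ⟨e, hES' e.2⟩)) = _
    rw [Matrix.trace_toLin'_eq, hRθ]
    obtain ⟨h1, h2⟩ := huniq (eS ⟨e, hES' e.2⟩) e (tS ⟨e, hES' e.2⟩) 1 (by rw [← hs]; simp)
    show (R.toHom _ * U _).trace = _
    rw [h1, h2, map_one, mul_one]
    by_cases he1 : (e : G) = 1
    · obtain rfl : e = 1 := Subtype.ext he1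
      rw [R.trace_one, Rθ.trace_one]
    by_cases hez : (e : G) = z
    · obtain rfl : e = ⟨z, hES.z_mem⟩ := Subtype.ext hez
      rw [R.trace_z, Rθ.trace_z]
    rw [R.trace_eq_zero hES he1 hez, Rθ.trace_eq_zero hES he1 hez]
  · let P : Subgroup G := (S : Subgroup G) ⊔ E
    let e : E.subgroupOf P ≃* E := Subgroup.subgroupOfEquivOfLe le_sup_right
    have hcop : Nat.Coprime (Nat.card (E.subgroupOf P)) (E.subgroupOf P).index := by
      rw [Nat.card_congr e.toEquiv, hk]
      refine (Nat.Coprime.coprime_dvd_right ?_ (((Nat.coprime_primes Nat.prime_two hp).2 (Ne.symm hp2)).pow k ((Nat.card G).factorization p)))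
      show E.relIndex P ∣ p ^ (Nat.card G).factorization p
      rw [← S.card_eq_multiplicity]
      exact Subgroup.relIndex_sup_right (H := (S : Subgroup G)) (K := E) ▸ Subgroup.relIndex_dvd_card E (S : Subgroup G)
    obtain ⟨η, hη, hηθ⟩ := Coherence.exists_extension_character_of_coprime (E.subgroupOf P) hcop
      (fun x => (θ : E → ℂ) (e x)) (isIrrCharacter_comp_mulEquiv θ.2 e) fun g x => by
        show (θ : E → ℂ) (e _) = (θ : E → ℂ) (e x)
        rw [← hinv (g : G) (e x)]
        congr 1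
    obtain ⟨m, ρ, -, hρ⟩ := hη
    exact ⟨P, le_sup_right, η, hpS _ le_sup_left, ⟨m, ρ, hρ⟩, fun x => hηθ ⟨⟨x, _⟩, x.2⟩⟩

end Cfsg.Agent.S4759
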