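import Cfsg.Statements.S4762
import Cfsg.Agent.Lib.RealChar.Extraspecial
import Cfsg.Agent.Lib.PGroups.Frattini
import Cfsg.Agent.Lib.CharTheory.Linear
import Cfsg.Agent.Lib.CharTheory.Ito
import Cfsg.Agent.Lib.BrauerCharacters.Contribution
import Cfsg.Agent.Lib.BGAppendix.FittingHall
import Mathlib.GroupTheory.SchurZassenhaus

set_option autoImplicit false
open Cfsg CfsgLib.CharTheory
open scoped commutatorElement ComplexConjugate

namespace Cfsg.Agent.S4762

/-- Let p be a prime and G a finite nilpotent group. Then G has exactly one irreducible complex character of degree divisible by p if and only if p = 2 and G is an extraspecial 2-group. -/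
theorem result {G : Type*} [Group G] [Finite G] [Group.IsNilpotent G] (p : ℕ) [Fact p.Prime] : Nat.card {χ : Cfsg.IrrCharacter G // p ∣ Cfsg.charDegree (χ : G → ℂ)} = 1 ↔ (p = 2 ∧ Cfsg.IsExtraspecial 2 G) := by
  classical
  have : Fintype G := Fintype.ofFinite G
  have : Fintype (IrrCharacter G) := Fintype.ofFinite _
  have hp : p.Prime := Fact.out
  have hdeg : ∀ χ : IrrCharacter G, (χ : G → ℂ) 1 = (charDegree (χ : G → ℂ) : ℂ) :=
    fun χ => (CfsgLib.BrauerCharacters.charDegree_spec χ).1
  have hpos : ∀ χ : IrrCharacter G, 0 < charDegree (χ : G → ℂ) :=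
    fun χ => (CfsgLib.BrauerCharacters.charDegree_spec χ).2.1
  have hdvd : ∀ χ : IrrCharacter G, charDegree (χ : G → ℂ) ∣ Nat.card G :=
    fun χ => (CfsgLib.BrauerCharacters.charDegree_spec χ).2.2
  -- sum of squares
  have hsq : ∑ χ : IrrCharacter G, charDegree (χ : G → ℂ) ^ 2 = Nat.card G := by
    apply Nat.cast_injective (R := ℂ)
    rw [← sum_degree_sq]
    push_cast
    exact Finset.sum_congr rfl fun χ _ => by rw [hdeg]
  have hlinc : (Finset.univ.filter fun χ : IrrCharacter G => charDegree (χ : G → ℂ) = 1).card =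
      (commutator G).index := by
    rw [← card_linear, Nat.card_eq_fintype_card, Fintype.card_subtype]
    refine congrArg Finset.card (Finset.filter_congr fun χ _ => ?_)
    rw [hdeg]
    exact_mod_cast Iff.rfl
  -- the norm of a value at a central element
  have hcen : ∀ (χ : IrrCharacter G) (z : G), (∀ c : G, Commute z c) →
      ‖(χ : G → ℂ) z‖ = (charDegree (χ : G → ℂ) : ℝ) := by
    intro χ z hz
    obtain ⟨h1, h2⟩ := CfsgLib.BrauerCharacters.centralVal_spec χ hz
    have h3 := h2 1
    rw [mul_one] at h3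
    rw [h3, norm_mul, Complex.norm_eq_one_of_pow_eq_one h1
      (isOfFinOrder_of_finite z).orderOf_pos.ne', one_mul, hdeg, Complex.norm_natCast]
  have hle : ∀ χ : IrrCharacter G,
      Nat.card (Subgroup.center G) * charDegree (χ : G → ℂ) ^ 2 ≤ Nat.card G := by
    intro χ
    have h1 := classInner_self_of_isIrr χ.2
    rw [classInner, inv_mul_eq_iff_eq_mul₀ (Nat.cast_ne_zero.2 Nat.card_pos.ne'), mul_one] at h1
    have h2 : ∑ g : G, ‖(χ : G → ℂ) g‖ ^ 2 = (Nat.card G : ℝ) := by
      apply Complex.ofReal_injective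
      push_cast
      rw [← h1]
      exact Finset.sum_congr rfl fun g _ => (Complex.mul_conj' _).symm
    have h3 : ∑ g ∈ Finset.univ.filter (fun g => g ∈ Subgroup.center G), ‖(χ : G → ℂ) g‖ ^ 2 ≤
        (Nat.card G : ℝ) := by
      rw [← h2]
      exact Finset.sum_le_sum_of_subset_of_nonneg (Finset.subset_univ _) fun _ _ _ => sq_nonneg _
    rw [Finset.sum_congr rfl (g := fun _ => ((charDegree (χ : G → ℂ) : ℝ)) ^ 2) (fun g hg => by
      rw [hcen χ g fun c => (Subgroup.mem_center_iff.1 (Finset.mem_filter.1 hg).2 c).symm]),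
      Finset.sum_const, nsmul_eq_mul, ← Fintype.card_subtype, ← Nat.card_eq_fintype_card] at h3
    exact_mod_cast h3
  constructor
  · intro huniq
    obtain ⟨hss, ⟨χ₀, hχ₀⟩⟩ := Nat.card_eq_one_iff_unique.1 huniq
    have hu : ∀ χ : IrrCharacter G, p ∣ charDegree (χ : G → ℂ) → χ = χ₀ := fun χ h =>
      congrArg Subtype.val (@Subsingleton.elim _ hss ⟨χ, h⟩ ⟨χ₀, hχ₀⟩)
    obtain ⟨P⟩ := (inferInstance : Nonempty (Sylow p G))
    have hPn : (P : Subgroup G).Normal :=
      ((Group.isNilpotent_of_finite_tfae (G := G)).out 0 3 rfl rfl).1 inferInstance p inferInstance P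
    obtain ⟨K, hK⟩ := Subgroup.exists_right_complement'_of_coprime (N := (P : Subgroup G))
      P.card_coprime_index
    have hKcop : ¬ p ∣ Nat.card K := by
      have h1 : Nat.card K = (P : Subgroup G).index := by
        have h := hK.card_mul
        rw [← (P : Subgroup G).card_mul_index] at h
        exact Nat.eq_of_mul_eq_mul_left Nat.card_pos h
      rw [h1]; exact P.not_dvd_index
    have hcomm : ∀ x ∈ (P : Subgroup G), ∀ k ∈ K, Commute x k := fun x hx k hk => by
      refine CfsgLib.BGAppendix.commute_of_coprime_orderOf G x k ?_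
      obtain ⟨j, hj⟩ := (IsPGroup.iff_orderOf.1 P.2) ⟨x, hx⟩
      rw [Subgroup.orderOf_mk] at hj
      rw [hj]
      exact (hp.coprime_iff_not_dvd.2 fun h =>
        hKcop (h.trans (Subgroup.orderOf_dvd_natCard _ hk))).pow_left _
    -- an abelian Sylow subgroup gives degrees prime to `p`
    have hPnab : ¬ ∀ a ∈ (P : Subgroup G), ∀ b ∈ (P : Subgroup G), a * b = b * a := by
      intro hab
      obtain ⟨d, hd, hdd⟩ := exists_degree_dvd_index_of_abelian χ₀.2 (P : Subgroup G) hab
      rw [hdeg] at hd
      have : charDegree (χ₀ : G → ℂ) = d := by exact_mod_cast hd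
      exact P.not_dvd_index ((hχ₀.trans this.dvd).trans hdd)
    -- `G / K ≅ P` has a non-linear character
    have hKn : K.Normal := ⟨fun k hk g => by
      obtain ⟨⟨x, h⟩, rfl⟩ := hK.2 g
      show (x : G) * h * k * ((x : G) * h)⁻¹ ∈ K
      have h1 : (h : G) * k * (h : G)⁻¹ ∈ K := K.mul_mem (K.mul_mem h.2 hk) (K.inv_mem h.2)
      rw [show (x : G) * h * k * ((x : G) * h)⁻¹ = (x : G) * ((h : G) * k * (h : G)⁻¹) * (x : G)⁻¹
        by group, (hcomm x x.2 _ h1).eq, mul_inv_cancel_right]
      exact h1⟩
    have hq : IsPGroup p (G ⧸ K) := by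
      obtain ⟨j, hj⟩ := IsPGroup.iff_card.1 P.2
      refine IsPGroup.of_card (n := j) ?_
      have h := hK.card_mul
      rw [← K.card_mul_index, hj, mul_comm (Nat.card K)] at h
      rw [← Subgroup.index_eq_card]
      exact (Nat.eq_of_mul_eq_mul_right Nat.card_pos h).symm
    obtain ⟨θ, hθirr, hθ1⟩ : ∃ θ : G ⧸ K → ℂ, IsIrrCharacter (G ⧸ K) θ ∧ θ 1 ≠ 1 := by
      by_contra hc
      push Not at hc
      refine hPnab fun a ha b hb => ?_
      by_contra hne
      have hKab : (⁅a, b⁆ : G) ∈ K := by
        rw [← QuotientGroup.eq_one_iff]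
        by_contra h
        obtain ⟨φ, hφ⟩ := exists_irr_apply_ne (G := G ⧸ K) h
        obtain ⟨μ, hμ⟩ := exists_hom_of_degree_one φ.2 (hc _ φ.2)
        refine hφ ?_
        rw [hμ]
        show (μ _ : ℂ) = μ 1
        rw [show ((⁅a, b⁆ : G) : G ⧸ K) = ⁅((a : G) : G ⧸ K), (b : G ⧸ K)⁆ from
          map_commutatorElement (QuotientGroup.mk' K) a b, map_commutatorElement,
          commutatorElement_eq_one_iff_mul_comm.2 (mul_comm _ _), map_one]
      have hPab : (⁅a, b⁆ : G) ∈ (P : Subgroup G) := by
        rw [commutatorElement_def]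
        exact mul_mem (mul_mem (mul_mem ha hb) (inv_mem ha)) (inv_mem hb)
      exact hne (commutatorElement_eq_one_iff_mul_comm.1 (Subgroup.disjoint_def.1 hK.disjoint hPab hKab))
    set χ : IrrCharacter G := ⟨fun g => θ (g : G ⧸ K),
      isIrrCharacter_comp hθirr (f := QuotientGroup.mk' K) (QuotientGroup.mk'_surjective K)⟩ with hχ
    have hχp : p ∣ charDegree (χ : G → ℂ) := by
      obtain ⟨d, hd, hdd, h1⟩ := IsIrrCharacter.exists_degree_dvd hθirr
      obtain ⟨j, hj⟩ := IsPGroup.iff_card.1 hq
      rw [hj] at hdd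
      obtain ⟨i, -, rfl⟩ := (Nat.dvd_prime_pow hp).1 hdd
      have h2 : charDegree (χ : G → ℂ) = p ^ i := by
        have h3 := hdeg χ
        rw [show (χ : G → ℂ) 1 = θ 1 from rfl, h1] at h3
        exact_mod_cast h3.symm
      rw [h2]
      rcases i with _ | i
      · exact absurd (by rw [h1]; simp) hθ1
      · exact dvd_pow_self p (Nat.succ_ne_zero i)
    -- hence `K = ⊥`
    have hKbot : K = ⊥ := by
      by_contra hKne
      have hPtop : Nontrivial (G ⧸ (P : Subgroup G)) := by
        rw [← Finite.one_lt_card_iff_nontrivial, ← Subgroup.index_eq_card]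
        by_contra h
        have h1 : (P : Subgroup G).index = 1 := by
          have := Subgroup.index_ne_zero_of_finite (H := (P : Subgroup G))
          omega
        refine hKne ((Subgroup.eq_bot_iff_forall _).2 fun k hk => ?_)
        exact Subgroup.disjoint_def.1 hK.disjoint
          (by rw [Subgroup.index_eq_one.1 h1]; exact Subgroup.mem_top k) hk
      have hne : commutator (G ⧸ (P : Subgroup G)) ≠ ⊤ :=
        (Group.IsSolvable.commutator_lt_top_of_nontrivial (G := G ⧸ (P : Subgroup G))).ne
      obtain ⟨μ, hμ⟩ : ∃ μ : G ⧸ (P : Subgroup G) →* ℂˣ, μ ≠ 1 := by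
        by_contra hc
        push Not at hc
        have h1 := card_linear (G := G ⧸ (P : Subgroup G))
        rw [Nat.card_congr linearEquivHom] at h1
        have : Subsingleton (G ⧸ (P : Subgroup G) →* ℂˣ) := ⟨fun a b => (hc a).trans (hc b).symm⟩
        rw [Nat.card_eq_one_iff_unique.2 ⟨this, ⟨1⟩⟩] at h1
        exact hne (Subgroup.index_eq_one.1 h1.symm)
      obtain ⟨g, hg⟩ : ∃ g, μ g ≠ 1 := by
        by_contra hc
        push Not at hc
        exact hμ (MonoidHom.ext hc)
      obtain ⟨g, rfl⟩ := QuotientGroup.mk'_surjective (P : Subgroup G) g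
      obtain ⟨⟨x, k⟩, rfl⟩ := hK.2 g
      have hk : μ ((k : G) : G ⧸ (P : Subgroup G)) ≠ 1 := by
        intro h
        refine hg ?_
        show μ (((x : G) * k : G) : G ⧸ (P : Subgroup G)) = 1
        rw [QuotientGroup.mk_mul, map_mul, h, (QuotientGroup.eq_one_iff _).2 x.2, map_one, one_mul]
      set lam : G →* ℂˣ := μ.comp (QuotientGroup.mk' (P : Subgroup G))
      have hlam : IsIrrCharacter G ((fun g => (lam g : ℂ)) * (χ : G → ℂ)) :=
        isIrrCharacter_mul_of_norm χ.2 (CfsgLib.Brauer.isCharacter_monoidHom lam) fun g =>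
          Complex.norm_eq_one_of_pow_eq_one (n := Nat.card G) (by
            rw [← Units.val_pow_eq_pow_val, ← map_pow, pow_card_eq_one', map_one, Units.val_one])
            Nat.card_pos.ne'
      set ψ : IrrCharacter G := ⟨_, hlam⟩ with hψ
      have hψp : p ∣ charDegree (ψ : G → ℂ) := by
        have : charDegree (ψ : G → ℂ) = charDegree (χ : G → ℂ) := by
          have h1 := hdeg ψ
          rw [show (ψ : G → ℂ) 1 = (lam 1 : ℂ) * (χ : G → ℂ) 1 from rfl, map_one, Units.val_one,
            one_mul, hdeg χ] at h1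
          exact_mod_cast h1.symm
        rw [this]; exact hχp
      have he : (ψ : G → ℂ) (k : G) = (χ : G → ℂ) (k : G) := by rw [hu χ hχp, hu ψ hψp]
      have hval : (χ : G → ℂ) (k : G) = (χ : G → ℂ) 1 := by
        show θ ((k : G) : G ⧸ K) = θ ((1 : G) : G ⧸ K)
        rw [(QuotientGroup.eq_one_iff _).2 k.2, QuotientGroup.mk_one]
      rw [show (ψ : G → ℂ) (k : G) = (lam k : ℂ) * (χ : G → ℂ) k from rfl, hval,
        mul_eq_right₀ (apply_one_ne_zero_of_isIrr χ.2)] at he
      exact hk (Units.val_eq_one.1 he)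
    have hPtop : (P : Subgroup G) = ⊤ := by
      rw [← Subgroup.card_eq_iff_eq_top]
      have h := hK.card_mul
      rwa [hKbot, Subgroup.card_bot, mul_one] at h
    have hG : IsPGroup p G := by
      obtain ⟨j, hj⟩ := IsPGroup.iff_card.1 P.2
      rw [hPtop, Subgroup.card_top] at hj
      exact IsPGroup.of_card hj
    obtain ⟨a, ha⟩ := IsPGroup.iff_card.1 hG
    -- all other characters are linear
    have hlin : ∀ ψ : IrrCharacter G, ψ ≠ χ₀ → charDegree (ψ : G → ℂ) = 1 := by
      intro ψ hψ
      obtain ⟨i, -, hi⟩ := (Nat.dvd_prime_pow hp).1 (ha ▸ hdvd ψ)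
      rcases i with _ | i
      · simpa using hi
      · exact absurd (hu ψ (hi ▸ dvd_pow_self p (Nat.succ_ne_zero i))) hψ
    have hsplit : (commutator G).index + charDegree (χ₀ : G → ℂ) ^ 2 = p ^ a := by
      rw [← ha, ← hsq, ← Finset.add_sum_erase _ _ (Finset.mem_univ χ₀), add_comm, ← hlinc]
      congr 1
      rw [show (Finset.univ.filter fun χ : IrrCharacter G => charDegree (χ : G → ℂ) = 1) =
        Finset.univ.erase χ₀ by
          ext ψ
          simp only [Finset.mem_filter, Finset.mem_univ, true_and, Finset.mem_erase, ne_eq, and_true]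
          refine ⟨fun h e => ?_, hlin ψ⟩
          rw [e] at h
          exact hp.not_dvd_one (h ▸ hχ₀), Finset.card_eq_sum_ones]
      exact Finset.sum_congr rfl fun ψ hψ => by rw [hlin ψ (Finset.ne_of_mem_erase hψ), one_pow]
    obtain ⟨b, -, hb⟩ := (Nat.dvd_prime_pow hp).1 (ha ▸ Subgroup.index_dvd_card (commutator G))
    obtain ⟨e, -, he⟩ := (Nat.dvd_prime_pow hp).1 (ha ▸ hdvd χ₀)
    rw [hb, he, ← pow_mul] at hsplit
    have hkey : b = e * 2 ∧ p = 2 := by
      have hlt1 : b < a := by
        by_contra h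
        have h1 : p ^ a ≤ p ^ b := Nat.pow_le_pow_right hp.pos (by omega)
        have : 0 < p ^ (e * 2) := pow_pos hp.pos _
        omega
      have hlt2 : e * 2 < a := by
        by_contra h
        have h1 : p ^ a ≤ p ^ (e * 2) := Nat.pow_le_pow_right hp.pos (by omega)
        have : 0 < p ^ b := pow_pos hp.pos _
        omega
      have h1 : b = e * 2 := by
        rcases lt_trichotomy b (e * 2) with h | h | h
        · exfalso
          have h2 : p ^ (b + 1) ∣ p ^ b := (Nat.dvd_add_left (pow_dvd_pow p (by omega : b + 1 ≤ e * 2))).1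
            (hsplit ▸ pow_dvd_pow p (by omega : b + 1 ≤ a))
          have := (Nat.pow_dvd_pow_iff_le_right hp.one_lt).1 h2
          omega
        · exact h
        · exfalso
          have h2 : p ^ (e * 2 + 1) ∣ p ^ (e * 2) :=
            (Nat.dvd_add_right (pow_dvd_pow p (by omega : e * 2 + 1 ≤ b))).1
              (hsplit ▸ pow_dvd_pow p (by omega : e * 2 + 1 ≤ a))
          have := (Nat.pow_dvd_pow_iff_le_right hp.one_lt).1 h2
          omega
      refine ⟨h1, ?_⟩
      rw [h1] at hsplit hlt1
      obtain ⟨c, hc⟩ := Nat.exists_eq_add_of_lt hlt1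
      rw [hc, show e * 2 + c + 1 = e * 2 + (c + 1) by ring, pow_add, ← two_mul, mul_comm 2] at hsplit
      have h3 : p ^ (c + 1) = 2 := (Nat.eq_of_mul_eq_mul_left (pow_pos hp.pos _) hsplit).symm
      exact (Nat.prime_dvd_prime_iff_eq hp Nat.prime_two).1 (h3 ▸ dvd_pow_self p (Nat.succ_ne_zero c))
    obtain ⟨hbe, hp2⟩ := hkey
    subst hp2
    refine ⟨rfl, ?_⟩
    have hGcard : Nat.card G = 2 * 2 ^ (e * 2) := by rw [ha, ← hsplit, hbe]; ring
    have hcomm2 : Nat.card (commutator G) = 2 := by
      have h := (commutator G).card_mul_index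
      rw [hb, hbe, hGcard] at h
      exact Nat.eq_of_mul_eq_mul_right (pow_pos (by norm_num) _) h
    have hcz : commutator G ≤ Subgroup.center G :=
      CfsgLib.PGroups.le_center_of_card_eq_prime hG hcomm2
    have hZ2 : Nat.card (Subgroup.center G) ≤ 2 := by
      have h := hle χ₀
      rw [he, ← pow_mul, hGcard] at h
      exact Nat.le_of_mul_le_mul_right h (pow_pos (by norm_num) _)
    have hZ : commutator G = Subgroup.center G :=
      Subgroup.eq_of_le_of_card_ge hcz (hZ2.trans hcomm2.ge)
    refine ⟨⟨hG, le_antisymm ?_ ?_, hZ⟩, by rw [← hZ]; exact hcomm2⟩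
    · refine CfsgLib.PGroups.frattini_le_of (p := 2) hcz fun x => ?_
      rw [Subgroup.mem_center_iff]
      intro y
      have hzc : ⁅x, y⁆ ∈ commutator G := by
        rw [commutator_def]; exact Subgroup.commutator_mem_commutator trivial trivial
      set z := ⁅x, y⁆ with hz
      have hzz : z * z = 1 := by
        have h := pow_card_eq_one' (x := (⟨z, hzc⟩ : commutator G))
        rw [hcomm2, pow_two] at h
        exact congrArg Subtype.val h
      have hzcen : ∀ g, g * z = z * g := Subgroup.mem_center_iff.1 (hcz hzc)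
      have hxy : x * y = z * (y * x) := by rw [hz, commutatorElement_def]; group
      calc y * x ^ 2 = (z * z) * (y * x * x) := by rw [hzz, one_mul, pow_two, mul_assoc]
        _ = z * ((z * (y * x)) * x) := by group
        _ = z * (x * y * x) := by rw [hxy]
        _ = x * (z * (y * x)) := by rw [← mul_assoc x z, hzcen x, mul_assoc, mul_assoc]
        _ = x * (x * y) := by rw [hxy]
        _ = x ^ 2 * y := by rw [pow_two, mul_assoc]
    · rw [← hZ]; exact CfsgLib.PGroups.commutator_le_frattini hG
  · rintro ⟨rfl, hE⟩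
    obtain ⟨n, hn⟩ := IsPGroup.iff_card.1 hE.1.1
    have hcom : commutator G = Subgroup.center G := hE.1.2.2
    have hc2 : Nat.card (commutator G) = 2 := by rw [hcom]; exact hE.2
    have hidx : 2 * (commutator G).index = Nat.card G := by
      rw [← hc2]; exact (commutator G).card_mul_index
    -- a non-linear character has degree squared `|G| / 2`
    have hnl : ∀ χ : IrrCharacter G, charDegree (χ : G → ℂ) ≠ 1 →
        2 * charDegree (χ : G → ℂ) ^ 2 = Nat.card G := by
      intro χ hne
      have hcv : ∀ z : G, z ∈ Subgroup.center G → ∀ c, Commute z c := fun z hz c =>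
        (Subgroup.mem_center_iff.1 hz c).symm
      set c : G → ℂ := fun z => CfsgLib.BrauerCharacters.centralVal (χ : G → ℂ) z
      have hfc : ∀ z ∈ Subgroup.center G, ∀ x, (χ : G → ℂ) (z * x) = c z * (χ : G → ℂ) x :=
        fun z hz x => (CfsgLib.BrauerCharacters.centralVal_spec χ (hcv z hz)).2 x
      have hfaith : ∀ z ∈ Subgroup.center G, z ≠ 1 → c z ≠ 1 := by
        intro z hz hz1 hc1
        apply hne
        have hker : ∀ g ∈ commutator G, (χ : G → ℂ) g = (χ : G → ℂ) 1 := by
          intro g hg
          rw [hcom] at hg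
          by_cases hg1 : g = 1
          · rw [hg1]
          have hgz : g = z := by
            by_contra hgz
            have : ({1, g, z} : Finset G) ⊆ Finset.univ.filter fun x => x ∈ Subgroup.center G := by
              simp [Finset.insert_subset_iff, hg, hz]
            have h3 := Finset.card_le_card this
            rw [← Fintype.card_subtype, ← Nat.card_eq_fintype_card,
              Finset.card_eq_three.2 ⟨1, g, z, Ne.symm hg1, Ne.symm hz1, hgz, rfl⟩] at h3
            rw [show Nat.card {x // x ∈ Subgroup.center G} = 2 from hE.2] at h3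
            omega
          have h := hfc z hz 1
          rw [mul_one, hc1, one_mul] at h
          rw [hgz, h]
        obtain ⟨ψ, hψ, hψ'⟩ := exists_descend χ.2 (commutator G) hker
        have h1 : ψ 1 = 1 := apply_one_eq_one_of_comm (fun a b => by
          obtain ⟨a, rfl⟩ := QuotientGroup.mk'_surjective (commutator G) a
          obtain ⟨b, rfl⟩ := QuotientGroup.mk'_surjective (commutator G) b
          rw [← commutatorElement_eq_one_iff_mul_comm, ← map_commutatorElement]
          refine (QuotientGroup.eq_one_iff _).2 ?_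
          rw [commutator_def]
          exact Subgroup.commutator_mem_commutator trivial trivial) hψ
        have h2 := hdeg χ
        rw [hψ' 1, QuotientGroup.mk_one, h1] at h2
        exact_mod_cast h2.symm
      have hvan : ∀ x, x ∉ Subgroup.center G → (χ : G → ℂ) x = 0 := fun x hx =>
        CfsgLib.RealChar.Extraspecial.apply_eq_zero hE (IsIrrCharacter.isClassFunction χ.2) c hfc
          hfaith hx
      have h := CfsgLib.RealChar.Extraspecial.classInner_self_of_support hE hvan
        ((charDegree (χ : G → ℂ) : ℝ) ^ 2) (fun z hz => by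
          rw [Complex.normSq_eq_norm_sq, hcen χ z (hcv z hz)])
      rw [classInner_self_of_isIrr χ.2, eq_comm] at h
      have h' : ((2 : ℕ) : ℝ) * (charDegree (χ : G → ℂ) : ℝ) ^ 2 / (Nat.card G : ℝ) = 1 := by
        exact_mod_cast h
      rw [div_eq_one_iff_eq (Nat.cast_ne_zero.2 Nat.card_pos.ne')] at h'
      exact_mod_cast h'
    have htot : (commutator G).index + ∑ χ ∈ Finset.univ.filter
        (fun χ : IrrCharacter G => ¬ charDegree (χ : G → ℂ) = 1), charDegree (χ : G → ℂ) ^ 2 =
        Nat.card G := by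
      rw [← hlinc, ← hsq, Finset.card_eq_sum_ones, ← Finset.sum_filter_add_sum_filter_not
        Finset.univ (fun χ : IrrCharacter G => charDegree (χ : G → ℂ) = 1)]
      congr 1
      exact Finset.sum_congr rfl fun ψ hψ => by rw [(Finset.mem_filter.1 hψ).2, one_pow]
    have hone : (Finset.univ.filter
        (fun χ : IrrCharacter G => ¬ charDegree (χ : G → ℂ) = 1)).card = 1 := by
      have h2 : 2 * ∑ χ ∈ Finset.univ.filter
          (fun χ : IrrCharacter G => ¬ charDegree (χ : G → ℂ) = 1), charDegree (χ : G → ℂ) ^ 2 =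
          (Finset.univ.filter
            (fun χ : IrrCharacter G => ¬ charDegree (χ : G → ℂ) = 1)).card * Nat.card G := by
        rw [Finset.mul_sum, Finset.sum_congr rfl fun χ hχ => hnl χ (Finset.mem_filter.1 hχ).2,
          Finset.sum_const, smul_eq_mul]
      have h3 : (Finset.univ.filter
          (fun χ : IrrCharacter G => ¬ charDegree (χ : G → ℂ) = 1)).card * Nat.card G =
          1 * Nat.card G := by omega
      exact Nat.eq_of_mul_eq_mul_right Nat.card_pos h3
    rw [Nat.card_eq_fintype_card, Fintype.card_subtype, ← hone]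
    refine congrArg Finset.card (Finset.filter_congr fun χ _ => ⟨fun h e => ?_, fun h => ?_⟩)
    · rw [e] at h; omega
    · obtain ⟨i, -, hi⟩ := (Nat.dvd_prime_pow Nat.prime_two).1 (hn ▸ hdvd χ)
      rcases i with _ | i
      · exact absurd (by simpa using hi) h
      · rw [hi]; exact dvd_pow_self 2 (Nat.succ_ne_zero i)

end Cfsg.Agent.S4762
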