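import Cfsg.Statements.S4763
import Cfsg.Agent.Lib.CharDegreesTheory.CoprimeDegrees
import Cfsg.Agent.Lib.CharDegreesTheory.SolvableAction
import Cfsg.Agent.Lib.CharDegreesTheory.GlaubermanSubgroup
import Cfsg.Agent.Lib.CharTheory.Linear
import Cfsg.Agent.Lib.CoprimeAction.Abelian

set_option autoImplicit false
set_option linter.style.haveILetI false
open Cfsg

namespace Cfsg.Agent.S4763

open CfsgLib CfsgLib.CharTheory CfsgLib.CharDegreesTheory

theorem natCard_carrier_eq_index {G : Type*} [Group G] [Finite G] (g : G) :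
    Nat.card {x : G // IsConj g x} = (Subgroup.centralizer ({g} : Set G)).index := by
  have h1 : Nat.card {x : G // IsConj g x} = Nat.card (MulAction.orbit (ConjAct G) g) :=
    Nat.card_congr (Equiv.subtypeEquivRight fun x => by
      rw [ConjAct.mem_orbit_conjAct]; exact isConj_comm)
  rw [h1, Nat.card_congr (MulAction.orbitEquivQuotientStabilizer (ConjAct G) g)]
  have h2 := Subgroup.card_eq_card_quotient_mul_card_subgroup (MulAction.stabilizer (ConjAct G) g)
  have h3 : Nat.card (MulAction.stabilizer (ConjAct G) g) =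
      Nat.card (Subgroup.centralizer ({g} : Set G)) := by
    refine Nat.card_congr (Equiv.subtypeEquiv ConjAct.ofConjAct.toEquiv fun a => ?_)
    rw [MulAction.mem_stabilizer_iff, ConjAct.smul_def, Subgroup.mem_centralizer_singleton_iff]
    exact mul_inv_eq_iff_eq_mul
  have h4 : Nat.card (ConjAct G) = Nat.card G := Nat.card_congr ConjAct.ofConjAct.toEquiv
  have h5 := Subgroup.card_mul_index (Subgroup.centralizer ({g} : Set G))
  rw [h3, h4, ← h5, mul_comm] at h2
  exact (Nat.eq_of_mul_eq_mul_right Nat.card_pos h2).symm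

/-- Every irreducible character of a normal subgroup has a character above it. -/
theorem exists_over {G : Type*} [Group G] [Finite G] (N : Subgroup G) [Fintype N]
    (θ : IrrCharacter N) :
    ∃ χ : IrrCharacter G, classInner (fun k : N => (χ : G → ℂ) k) (θ : N → ℂ) ≠ 0 := by
  classical
  haveI := Fintype.ofFinite G
  haveI := Fintype.ofFinite (IrrCharacter G)
  by_contra hno
  push Not at hno
  have h1 : classInner (∑ χ : IrrCharacter G,
      (χ : G → ℂ) 1 • fun k : N => (χ : G → ℂ) k) (θ : N → ℂ) = 0 := by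
    simp [classInner_sum_left, classInner_smul_left, hno]
  have h2 : (∑ χ : IrrCharacter G, (χ : G → ℂ) 1 • fun k : N => (χ : G → ℂ) k)
      = fun k : N => if k = 1 then (Nat.card G : ℂ) else 0 := by
    funext k
    rw [Finset.sum_apply]
    simp only [Pi.smul_apply, smul_eq_mul]
    rw [sum_degree_mul (k : G)]
    simp only [OneMemClass.coe_eq_one]
  rw [h2] at h1
  simp [classInner, ite_mul, apply_one_ne_zero_of_isIrr θ.2] at h1

/-- A non-abelian group has a non-linear irreducible character. -/
theorem exists_nonlinear {Q : Type*} [Group Q] [Finite Q] (h : ¬ ∀ a b : Q, a * b = b * a) :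
    ∃ β : IrrCharacter Q, (β : Q → ℂ) 1 ≠ 1 := by
  classical
  by_contra hno
  push Not at hno
  haveI := Fintype.ofFinite Q
  haveI := Fintype.ofFinite (IrrCharacter Q)
  have h1 := sum_degree_sq (G := Q)
  simp only [hno, one_pow, Finset.sum_const, Finset.card_univ, nsmul_eq_mul, mul_one,
    Nat.cast_inj] at h1
  have h2 := card_linear (G := Q)
  rw [Nat.card_congr (Equiv.subtypeUnivEquiv hno), Nat.card_eq_fintype_card, h1] at h2
  have h3 : commutator Q = ⊥ := by
    rw [Subgroup.eq_bot_iff_card]
    have := (commutator Q).card_mul_index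
    rw [← h2] at this
    exact (Nat.mul_eq_right Nat.card_pos.ne').mp this
  refine h fun a b => ?_
  rw [commutator_def, Subgroup.commutator_eq_bot_iff_le_centralizer] at h3
  exact Subgroup.mem_centralizer_iff.mp (h3 (Subgroup.mem_top b)) a (Subgroup.mem_top a)

/-- Let p be a prime and G a finite group that is not nilpotent and has a normal p-complement (a normal subgroup of order prime to p and index a power of p). If G has exactly one irreducible complex character of degree divisible by p, then G has exactly one conjugacy class whose size is divisible by p. -/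
theorem result {G : Type*} [Group G] [Finite G] (p : ℕ) [Fact p.Prime] (hnil : ¬ Group.IsNilpotent G) (N : Subgroup G) [N.Normal] (hN : (Nat.card N).Coprime p) (hidx : ∃ k : ℕ, N.index = p ^ k) (hone : Nat.card {χ : Cfsg.IrrCharacter G // p ∣ Cfsg.charDegree (χ : G → ℂ)} = 1) : Nat.card {C : ConjClasses G // p ∣ Nat.card C.carrier} = 1 := by
  classical
  haveI := Fintype.ofFinite G
  haveI := Fintype.ofFinite N
  obtain ⟨k, hk⟩ := hidx
  have hp : p.Prime := Fact.out
  have hcop : (Nat.card N).Coprime N.index := hk ▸ hN.pow_right k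
  have hQp : IsPGroup p (G ⧸ N) := IsPGroup.of_card (by rw [← Subgroup.index_eq_card, hk])
  have hdeg : ∀ (χ : IrrCharacter G) (n : ℕ), (χ : G → ℂ) 1 = n → charDegree (χ : G → ℂ) = n :=
    fun χ n h => charDegree_eq h
  obtain ⟨hsub, hne⟩ := Nat.card_eq_one_iff_unique.mp hone
  have huniq : ∀ χ χ' : IrrCharacter G, p ∣ charDegree (χ : G → ℂ) →
      p ∣ charDegree (χ' : G → ℂ) → χ = χ' := fun χ χ' h h' =>
    congrArg Subtype.val (hsub.elim ⟨χ, h⟩ ⟨χ', h'⟩)
  -- the quotient is abelian
  have hQab : ∀ a b : G ⧸ N, a * b = b * a := by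
    by_contra hQ
    obtain ⟨β, hβ⟩ := exists_nonlinear hQ
    obtain ⟨m, hm0, hmQ, hm⟩ := IsIrrCharacter.exists_degree_dvd β.2
    have hpm : p ∣ m := by
      rw [← Subgroup.index_eq_card, hk] at hmQ
      obtain ⟨j, -, rfl⟩ := (Nat.dvd_prime_pow hp).mp hmQ
      rcases j with - | j
      · simp [hm] at hβ
      · exact dvd_pow_self p (Nat.succ_ne_zero j)
    let ψ : IrrCharacter G := ⟨fun g => (β : G ⧸ N → ℂ) (QuotientGroup.mk' N g),
      isIrrCharacter_comp β.2 (QuotientGroup.mk'_surjective N)⟩
    have hψ : p ∣ charDegree (ψ : G → ℂ) := by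
      rw [hdeg ψ m (by show (β : G ⧸ N → ℂ) _ = _; rw [map_one, hm])]; exact hpm
    -- a non-principal character of `N`
    have hNbot : N ≠ ⊥ := by
      rintro rfl
      rw [Subgroup.index_bot] at hk
      exact hnil (IsPGroup.of_card hk).isNilpotent
    obtain ⟨n, hn, hn1⟩ := N.bot_or_exists_ne_one.resolve_left hNbot
    obtain ⟨θ, hθ⟩ : ∃ θ : IrrCharacter N, (θ : N → ℂ) ⟨n, hn⟩ ≠ (θ : N → ℂ) 1 := by
      by_contra hno
      push Not at hno
      haveI := Fintype.ofFinite (IrrCharacter N)
      have h1 := sum_degree_mul (G := N) ⟨n, hn⟩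
      rw [Finset.sum_congr rfl fun χ _ => by rw [hno χ]] at h1
      have h2 := sum_degree_mul (G := N) 1
      rw [if_neg (fun h => hn1 (congrArg Subtype.val h))] at h1
      rw [if_pos rfl, h1] at h2
      exact Nat.cast_ne_zero.mpr Nat.card_pos.ne' h2.symm
    -- some character above it has degree divisible by `p` and is non-trivial on `N`
    have hN' : ∀ (χ : IrrCharacter G), χ = ψ → ∀ x : N,
        (χ : G → ℂ) x = (β : G ⧸ N → ℂ) 1 := by
      rintro χ rfl x
      exact congrArg (β : G ⧸ N → ℂ) ((QuotientGroup.eq_one_iff (x : G)).mpr x.2)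
    by_cases hinv : ∀ (g : G) (x : N), (θ : N → ℂ) (MulAut.conjNormal g x) = (θ : N → ℂ) x
    · obtain ⟨χ₀, hχ₀, hext⟩ := exists_extension_of_coprime N hcop _ θ.2 hinv
      obtain ⟨e, he, -, -⟩ := exists_gallagher N θ (IsIrrCharacter.isCharacter hχ₀) hext
      obtain ⟨dθ, -, hdθ⟩ := exists_degree_of_isIrr θ.2
      have h1 : (χ₀ 1 : ℂ) = dθ := by rw [← hdθ]; exact hext 1
      have heq : e β = ψ := huniq _ _ (by
        rw [hdeg (e β) (dθ * m) (by rw [he, h1, QuotientGroup.mk_one, hm, Nat.cast_mul])]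
        exact dvd_mul_of_dvd_right hpm _) hψ
      have h2 := hN' _ heq ⟨n, hn⟩
      have h3 := hN' _ heq 1
      rw [he, hext, (QuotientGroup.eq_one_iff n).mpr hn] at h2
      rw [he, hext, OneMemClass.coe_one, QuotientGroup.mk_one] at h3
      exact hθ (mul_right_cancel₀ (apply_one_ne_zero_of_isIrr β.2) (h2.trans h3.symm))
    · obtain ⟨χ, hχ⟩ := exists_over N θ
      let T : Subgroup G :=
        { carrier := {g | Clifford.conjChar N (θ : N → ℂ) g = θ}
          one_mem' := Clifford.conjChar_one _ _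
          mul_mem' := fun {g h} hg hh => by
            show Clifford.conjChar N (θ : N → ℂ) (g * h) = θ
            rw [← Clifford.conjChar_conjChar, hg, hh]
          inv_mem' := fun {g} hg => by
            show Clifford.conjChar N (θ : N → ℂ) g⁻¹ = θ
            conv_lhs => rw [← hg]
            rw [Clifford.conjChar_conjChar, mul_inv_cancel, Clifford.conjChar_one] }
      have hNT : N ≤ T := fun x hx => funext fun y => by
        rw [Clifford.conjChar_apply]
        exact (congrArg (θ : N → ℂ) (Subtype.ext rfl)).trans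
          (IsIrrCharacter.isClassFunction θ.2 y ⟨x, hx⟩)
      have hpT : p ∣ T.index := by
        obtain ⟨j, -, hj⟩ := (Nat.dvd_prime_pow hp).mp (hk ▸ Subgroup.index_dvd_of_le hNT)
        rcases j with - | j
        · refine absurd (fun g x => ?_) hinv
          have hT1 : T = ⊤ := Subgroup.index_eq_one.mp (by simpa using hj)
          have hg : g ∈ T := by rw [hT1]; trivial
          rw [← congrFun (Clifford.conjChar_eq_comp N (θ : N → ℂ) g) x]
          exact congrFun hg x
        · exact hj ▸ dvd_pow_self p (Nat.succ_ne_zero j)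
      obtain ⟨d, -, hd⟩ := exists_degree_of_isIrr χ.2
      obtain ⟨dθ, -, hdθ⟩ := exists_degree_of_isIrr θ.2
      have hdeg' := Clifford.apply_one_eq N χ.2 θ.2 hχ
      rw [show classInner (fun k : N => (χ : G → ℂ) k) (θ : N → ℂ) = _ from
        classInner_eq_mult N.subtype (IsIrrCharacter.isCharacter χ.2) θ,
        Clifford.card_conjOrbit N (θ : N → ℂ) T (fun g => Iff.rfl), hd, hdθ,
        ← Nat.cast_mul, ← Nat.cast_mul, Nat.cast_inj] at hdeg'
      have heq : χ = ψ := huniq _ _ (by
        rw [hdeg χ d hd, hdeg']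
        exact dvd_mul_of_dvd_left (dvd_mul_of_dvd_right hpT _) _) hψ
      apply hχ
      rw [show (fun k : N => (χ : G → ℂ) k) = (β : G ⧸ N → ℂ) 1 • fun _ => (1 : ℂ) from
        funext fun x => by simp [hN' χ heq x], classInner_smul_left]
      rw [classInner_irrCharacter (⟨fun _ => 1, isIrrCharacter_one⟩ : IrrCharacter N) θ, if_neg, mul_zero]
      intro h
      exact hθ (by rw [← h])
  -- counting characters and classes
  obtain ⟨P⟩ : Nonempty (Sylow p G) := inferInstance
  have hcardG : Nat.card G = Nat.card N * p ^ k := hk ▸ N.card_mul_index.symm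
  have hpN : ¬ p ∣ Nat.card N := fun h => hp.ne_one (Nat.dvd_one.mp (hN ▸ Nat.dvd_gcd h dvd_rfl))
  have hPcard : Nat.card (P : Subgroup G) = p ^ k := by
    rw [P.card_eq_multiplicity, hcardG, Nat.factorization_mul Nat.card_pos.ne'
      (pow_ne_zero _ hp.ne_zero), Finsupp.add_apply, Nat.factorization_eq_zero_of_not_dvd hpN,
      hp.factorization_pow, Finsupp.single_eq_same, zero_add]
  have hcompl : Subgroup.IsComplement' N (P : Subgroup G) :=
    Subgroup.isComplement'_of_coprime (by rw [hPcard, hcardG]) (by rw [hPcard]; exact hN.pow_right k)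
  have hPinj : ∀ u ∈ (P : Subgroup G), ∀ v ∈ (P : Subgroup G),
      (u : G ⧸ N) = v → u = v := fun u hu v hv h => by
    have h1 : u⁻¹ * v ∈ N ⊓ (P : Subgroup G) :=
      Subgroup.mem_inf.mpr ⟨QuotientGroup.eq.mp h, mul_mem (inv_mem hu) hv⟩
    rw [hcompl.disjoint.eq_bot, Subgroup.mem_bot, inv_mul_eq_one] at h1
    exact h1
  have hPab : ∀ u ∈ (P : Subgroup G), ∀ v ∈ (P : Subgroup G), u * v = v * u := fun u hu v hv =>
    hPinj _ (mul_mem hu hv) _ (mul_mem hv hu) (hQab u v)
  haveI : IsMulCommutative (P : Subgroup G) :=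
    ⟨⟨fun a b => Subtype.ext (hPab a a.2 b b.2)⟩⟩
  let C : Subgroup G := N ⊓ Subgroup.centralizer ((P : Subgroup G) : Set G)
  have hCN : C ≤ N := inf_le_left
  have hnorm : ∀ s ∈ (P : Subgroup G), ∀ g ∈ N, s * g * s⁻¹ ∈ N :=
    fun s _ g hg => Subgroup.Normal.conj_mem inferInstance g hg s
  have hset := coprimePSetup_conjRes N (P : Subgroup G) C hnorm rfl hCN P.2 hpN
  -- invariant characters of `N`
  have hgen : ∀ g : G, ∃ n ∈ N, ∃ u ∈ (P : Subgroup G), g = n * u := fun g => by
    obtain ⟨⟨⟨n, hn⟩, ⟨u, hu⟩⟩, h⟩ := hcompl.2 g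
    exact ⟨n, hn, u, hu, h.symm⟩
  have hfix : Nat.card {θ : IrrCharacter N //
      ∀ (g : G) (n : N), (θ : N → ℂ) (MulAut.conjNormal g n) = (θ : N → ℂ) n} =
      Nat.card (ConjClasses C) := by
    rw [Nat.card_congr (Equiv.subtypeEquivRight (q := fun θ : IrrCharacter N =>
      IsInvariant (conjRes N (P : Subgroup G) hnorm) (θ : N → ℂ)) fun θ => ?_)]
    · rw [card_invariant_irr (S := (P : Subgroup G))
        (CfsgLib.CoprimeAction.isSolvable_of_isMulCommutative (P : Subgroup G))
        (conjRes N (P : Subgroup G) hnorm) (by rw [hPcard]; exact hN.pow_right k)]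
      refine card_conjClasses_congr ((MulEquiv.ofBijective
        ((Subgroup.inclusion hCN).codRestrict (fixedSubgroup (conjRes N (P : Subgroup G) hnorm) ⊤)
          fun c s _ => (hset.fixed_iff _).mpr ⟨c, rfl⟩ s) ⟨?_, ?_⟩).symm)
      · intro a b h
        exact Subgroup.inclusion_injective hCN (congrArg Subtype.val h)
      · intro x
        obtain ⟨c, hc⟩ := (hset.fixed_iff (x : N)).mp fun s => x.2 s (Subgroup.mem_top s)
        exact ⟨c, Subtype.ext hc⟩
    · refine ⟨fun h s x => ?_, fun h g x => ?_⟩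
      · rw [← h (s : G) x]
        exact congrArg (θ : N → ℂ) (Subtype.ext rfl)
      · obtain ⟨m, hm, u, hu, rfl⟩ := hgen g
        rw [← h ⟨u, hu⟩ x]
        refine (congrArg (θ : N → ℂ) (Subtype.ext ?_)).trans
          (IsIrrCharacter.isClassFunction θ.2 _ ⟨m, hm⟩)
        simp [MulAut.conjNormal_apply, mul_assoc]
  have hlin : Nat.card {β : IrrCharacter (G ⧸ N) // (β : G ⧸ N → ℂ) 1 = 1} = p ^ k := by
    rw [card_linear]
    have : commutator (G ⧸ N) = ⊥ := by
      rw [commutator_def, Subgroup.commutator_eq_bot_iff_le_centralizer]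
      intro a _
      exact Subgroup.mem_centralizer_iff.mpr fun b _ => hQab b a
    rw [this, Subgroup.index_bot, ← Subgroup.index_eq_card, hk]
  have hcount : Nat.card (ConjClasses G) = Nat.card (ConjClasses C) * p ^ k + 1 := by
    rw [← card_irrCharacter, ← Nat.card_congr (Equiv.sumCompl fun χ : IrrCharacter G =>
      ¬ p ∣ charDegree (χ : G → ℂ)), Nat.card_sum, ← hfix, ← hlin,
      ← card_coprime_degree N hcop]
    congr 1
    · refine Nat.card_congr (Equiv.subtypeEquivRight fun χ => ?_)
      obtain ⟨d, -, hdG, hd⟩ := IsIrrCharacter.exists_degree_dvd χ.2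
      rw [hdeg χ d hd, hk]
      rcases Nat.eq_zero_or_pos k with rfl | hk0
      · refine iff_of_true (fun h => ?_) (by simp)
        rw [hcardG, pow_zero, mul_one] at hdG
        exact hpN (h.trans hdG)
      · rw [Nat.coprime_pow_right_iff hk0, Nat.coprime_comm, hp.coprime_iff_not_dvd]
    · rw [← hone]
      exact Nat.card_congr (Equiv.subtypeEquivRight fun χ => not_not)
  -- classes of size prime to `p`
  have hcls : Nat.card {K : ConjClasses G // ¬ p ∣ Nat.card K.carrier} =
      Nat.card (ConjClasses C) * p ^ k := by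
    rw [← hPcard, ← Nat.card_prod]
    have hcent : ∀ (c : C), ∀ u ∈ (P : Subgroup G), Commute (c : G) u :=
      fun c u hu => (Subgroup.mem_centralizer_iff.mp c.2.2 u hu).symm
    have hsize : ∀ g : G, Nat.card (ConjClasses.mk g).carrier =
        (Subgroup.centralizer ({g} : Set G)).index := fun g => by
      rw [← natCard_carrier_eq_index g]
      exact Nat.card_congr (Equiv.subtypeEquivRight fun x => by
        rw [ConjClasses.mem_carrier_iff_mk_eq, ConjClasses.mk_eq_mk_iff_isConj]; exact isConj_comm)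
    let F : ConjClasses C × (P : Subgroup G) → ConjClasses G := fun q =>
      Quotient.liftOn q.1 (fun c : C => ConjClasses.mk ((c : G) * q.2)) fun c d hcd => by
        obtain ⟨z, hz⟩ := isConj_iff.mp (show IsConj c d from hcd)
        refine ConjClasses.mk_eq_mk_iff_isConj.mpr (isConj_iff.mpr ⟨z, ?_⟩)
        rw [← hz, Subgroup.coe_mul, Subgroup.coe_mul, Subgroup.coe_inv]
        have := (hcent z q.2 q.2.2).inv_left.eq
        simp [mul_assoc, this]
    have hF : ∀ (c : C) (u : (P : Subgroup G)),
        F (ConjClasses.mk c, u) = ConjClasses.mk ((c : G) * u) := fun c u => rfl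
    have hFP : ∀ q, ¬ p ∣ Nat.card (F q).carrier := by
      rintro ⟨a, u⟩
      obtain ⟨c, rfl⟩ := ConjClasses.mk_surjective a
      rw [hF, hsize]
      refine fun h => P.not_dvd_index (h.trans (Subgroup.index_dvd_of_le fun s hs => ?_))
      rw [Subgroup.mem_centralizer_singleton_iff]
      exact ((hcent c s hs).mul_left (hPab u u.2 s hs)).symm.eq
    symm
    refine Nat.card_eq_of_bijective (fun q => ⟨F q, hFP q⟩) ⟨fun q q' h => ?_, fun K => ?_⟩
    · obtain ⟨a, u⟩ := q
      obtain ⟨b, v⟩ := q'
      obtain ⟨c, rfl⟩ := ConjClasses.mk_surjective a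
      obtain ⟨d, rfl⟩ := ConjClasses.mk_surjective b
      have h0 : ConjClasses.mk ((c : G) * u) = ConjClasses.mk ((d : G) * v) := congrArg Subtype.val h
      obtain ⟨g, hg⟩ := isConj_iff.mp (ConjClasses.mk_eq_mk_iff_isConj.mp h0)
      have huv : u = v := by
        refine Subtype.ext (hPinj _ u.2 _ v.2 ?_)
        have h1 := congrArg (fun x : G => (x : G ⧸ N)) hg
        simp only [QuotientGroup.mk_mul, QuotientGroup.mk_inv,
          (QuotientGroup.eq_one_iff (c : G)).mpr c.2.1,
          (QuotientGroup.eq_one_iff (d : G)).mpr d.2.1, one_mul] at h1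
        rwa [hQab _ (u : G ⧸ N), mul_inv_cancel_right] at h1
      subst huv
      obtain ⟨n, hn, s, hs, rfl⟩ := hgen g
      have h2 : s * ((c : G) * u) * s⁻¹ = (c : G) * u := by
        rw [← ((hcent c s hs).mul_left (hPab u u.2 s hs)).eq, mul_inv_cancel_right]
      have h3 : n * ((c : G) * u) * n⁻¹ = (d : G) * u := by
        rw [← hg]; conv_lhs => rw [← h2]
        group
      have hu : (u : G) ^ p ^ k = 1 := hPcard ▸ congrArg Subtype.val (pow_card_eq_one' (x := u))
      have h4 : n * (c : G) ^ p ^ k * n⁻¹ = (d : G) ^ p ^ k := by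
        have := congrArg (· ^ p ^ k) h3
        rwa [conj_pow, (hcent c u u.2).mul_pow, (hcent d u u.2).mul_pow, hu, mul_one,
          mul_one] at this
      have h5 : n * (c : G) * n⁻¹ = (d : G) :=
        congrArg Subtype.val ((hN.pow_right k).pow_left_bijective.injective
          (a₁ := (⟨n * c * n⁻¹, Subgroup.Normal.conj_mem inferInstance _ c.2.1 n⟩ : N))
          (a₂ := ⟨d, d.2.1⟩) (Subtype.ext (by simpa [conj_pow] using h4)))
      have h6 : IsConj (Subgroup.inclusion hCN c) (Subgroup.inclusion hCN d) :=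
        isConj_iff.mpr ⟨⟨n, hn⟩, Subtype.ext h5⟩
      exact Prod.ext (ConjClasses.mk_eq_mk_iff_isConj.mpr (hset.isConj_iff_map.mp h6)) rfl
    · obtain ⟨K, hK⟩ := K
      obtain ⟨g, rfl⟩ := ConjClasses.mk_surjective K
      rw [hsize] at hK
      obtain ⟨Q⟩ : Nonempty (Sylow p (Subgroup.centralizer ({g} : Set G))) := inferInstance
      have hQP : Nat.card ((Q : Subgroup _).map (Subgroup.centralizer ({g} : Set G)).subtype :
          Subgroup G) = p ^ (Nat.card G).factorization p := by
        rw [Subgroup.card_map_of_injective (Subgroup.subtype_injective _), Q.card_eq_multiplicity,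
          ← (Subgroup.centralizer ({g} : Set G)).card_mul_index,
          Nat.factorization_mul Nat.card_pos.ne' Subgroup.index_ne_zero_of_finite,
          Finsupp.add_apply, Nat.factorization_eq_zero_of_not_dvd hK, add_zero]
      obtain ⟨x, hx⟩ := MulAction.exists_smul_eq G P (Sylow.ofCard _ hQP)
      have hxP : ∀ s ∈ (P : Subgroup G), Commute s (x⁻¹ * g * x) := fun s hs => by
        have h1 : MulAut.conj x s ∈ ((x • P : Sylow p G) : Subgroup G) :=
          ⟨s, hs, rfl⟩
        rw [hx] at h1
        obtain ⟨y, -, hy⟩ := h1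
        have h2 := Subgroup.mem_centralizer_singleton_iff.mp y.2
        have h3 : x * s * x⁻¹ * g = g * (x * s * x⁻¹) := by
          have hy' : (y : G) = x * s * x⁻¹ := hy
          rw [← hy']; exact h2
        show s * (x⁻¹ * g * x) = x⁻¹ * g * x * s
        calc s * (x⁻¹ * g * x) = x⁻¹ * (x * s * x⁻¹ * g) * x := by group
          _ = x⁻¹ * g * x * s := by rw [h3]; group
      obtain ⟨n, hn, u, hu, hnu⟩ := hgen (x⁻¹ * g * x)
      have hnC : n ∈ C := ⟨hn, Subgroup.mem_centralizer_iff.mpr fun s hs => by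
        have h1 := (hxP s hs).mul_right (Commute.inv_right (hPab s hs u hu))
        rw [hnu, mul_inv_cancel_right] at h1
        exact h1.eq⟩
      refine ⟨(ConjClasses.mk ⟨n, hnC⟩, ⟨u, hu⟩), Subtype.ext ?_⟩
      refine (hF _ _).trans (ConjClasses.mk_eq_mk_iff_isConj.mpr (isConj_iff.mpr ⟨x, ?_⟩))
      show x * (n * u) * x⁻¹ = g
      rw [← hnu]; group
  have htot := Nat.card_congr (Equiv.sumCompl fun K : ConjClasses G => ¬ p ∣ Nat.card K.carrier)
  rw [Nat.card_sum, hcls, hcount] at htot
  rw [← Nat.add_left_cancel htot]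
  exact Nat.card_congr (Equiv.subtypeEquivRight fun K => not_not.symm)

end Cfsg.Agent.S4763
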