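import Cfsg.Statements.S4765
import Cfsg.Agent.Lib.BrauerCharacters.PSL2Degrees
import Cfsg.Agent.Lib.Blocks.Defect

set_option autoImplicit false
open Cfsg CfsgLib CfsgLib.BrauerCharacters

namespace Cfsg.Agent.S4765

/-- Let F be a finite field of characteristic p with at least 4 elements. Then PSL(2,F) has exactly one irreducible complex character of degree divisible by p, and its degree is the order of F. -/
theorem result (p : ℕ) [Fact p.Prime] (F : Type*) [Field F] [Fintype F] [CharP F p] (hF : 4 ≤ Fintype.card F) : Nat.card {χ : Cfsg.IrrCharacter (Matrix.ProjectiveSpecialLinearGroup (Fin 2) F) // p ∣ Cfsg.charDegree (χ : Matrix.ProjectiveSpecialLinearGroup (Fin 2) F → ℂ)} = 1 ∧ ∀ χ : Cfsg.IrrCharacter (Matrix.ProjectiveSpecialLinearGroup (Fin 2) F), p ∣ Cfsg.charDegree (χ : Matrix.ProjectiveSpecialLinearGroup (Fin 2) F → ℂ) → Cfsg.charDegree (χ : Matrix.ProjectiveSpecialLinearGroup (Fin 2) F → ℂ) = Fintype.card F := by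
  classical
  have hp : p.Prime := Fact.out
  obtain ⟨a, -, ha⟩ := FiniteField.card F p
  have hpq : p ∣ Fintype.card F := by rw [ha]; exact dvd_pow_self p a.ne_zero
  set q := Fintype.card F with hq
  have hsucc : ¬ p ∣ q + 1 := fun h => hp.not_dvd_one ((Nat.dvd_add_right hpq).1 h)
  have hpred : ¬ p ∣ q - 1 := fun h => hp.not_dvd_one (by
    have := Nat.dvd_sub hpq h
    rwa [show q - (q - 1) = 1 by omega] at this)
  have hdeg : ∀ χ : IrrCharacter (Matrix.ProjectiveSpecialLinearGroup (Fin 2) F),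
      p ∣ charDegree (χ : Matrix.ProjectiveSpecialLinearGroup (Fin 2) F → ℂ) →
      (PSL2.inflate χ : Matrix.SpecialLinearGroup (Fin 2) F → ℂ) 1 = (q : ℂ) ∧
      charDegree (χ : Matrix.ProjectiveSpecialLinearGroup (Fin 2) F → ℂ) = q := by
    intro χ h
    rw [← PSL2.charDegree_inflate] at h ⊢
    rcases Nat.even_or_odd q with he | ho
    · haveI : CharP F 2 := by
        have h2 : (2 : ℕ) ∣ p ^ (a : ℕ) := ha ▸ he.two_dvd
        have := (Nat.prime_dvd_prime_iff_eq Nat.prime_two hp).1 (Nat.prime_two.dvd_of_dvd_pow h2)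
        exact this.symm ▸ (inferInstance : CharP F p)
      rcases (Cfsg.Agent.S2300.result (F := F)).1 _ (PSL2.inflate χ).2 with e | e | e | e
      · rw [PSL2.charDegree_eq_of_apply_one (n := 1) (by rw [e, Nat.cast_one])] at h
        exact absurd h hp.not_dvd_one
      · rw [PSL2.charDegree_eq_of_apply_one (n := q - 1)
          (by rw [e, Nat.cast_sub (by omega), Nat.cast_one])] at h
        exact absurd h hpred
      · exact ⟨e, PSL2.charDegree_eq_of_apply_one e⟩
      · rw [PSL2.charDegree_eq_of_apply_one (n := q + 1) (by rw [e, Nat.cast_succ])] at h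
        exact absurd h hsucc
    · obtain ⟨m, hm⟩ := ho
      rcases PSL2.degree_cases_odd ⟨m, hm⟩ (PSL2.inflate χ) with e | e | e | e | e | e
      · exact absurd (e ▸ h) hp.not_dvd_one
      · exact ⟨by rw [hq, ← e, Blocks.charDegree_cast], e⟩
      · exact absurd (e ▸ h) hsucc
      · exact absurd (e ▸ h) hpred
      · exact absurd ((e ▸ h).trans ⟨2, by omega⟩) hsucc
      · exact absurd ((e ▸ h).trans ⟨2, by omega⟩) hpred
  have hone : Nat.card {χ : Cfsg.IrrCharacter (Matrix.SpecialLinearGroup (Fin 2) F) //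
      (χ : Matrix.SpecialLinearGroup (Fin 2) F → ℂ) 1 = (q : ℂ)} = 1 := by
    rcases Nat.even_or_odd q with he | ho
    · haveI : CharP F 2 := by
        have h2 : (2 : ℕ) ∣ p ^ (a : ℕ) := ha ▸ he.two_dvd
        have := (Nat.prime_dvd_prime_iff_eq Nat.prime_two hp).1 (Nat.prime_two.dvd_of_dvd_pow h2)
        exact this.symm ▸ (inferInstance : CharP F p)
      exact ((Cfsg.Agent.S2300.result (F := F)).2 hF).2.1
    · refine ((Cfsg.Agent.S2299.result ho).2 ?_).2.1
      obtain ⟨m, hm⟩ := ho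
      omega
  refine ⟨?_, fun χ h => (hdeg χ h).2⟩
  rw [Nat.card_eq_one_iff_unique]
  obtain ⟨hsub, -⟩ := Nat.card_eq_one_iff_unique.1 hone
  obtain ⟨ψ, hψ⟩ := PSL2.exists_degree_card (F := F)
  exact ⟨⟨fun x y => Subtype.ext (PSL2.inflate_injective (congrArg Subtype.val
    (Subsingleton.elim (⟨_, (hdeg x.1 x.2).1⟩ : {χ : Cfsg.IrrCharacter (Matrix.SpecialLinearGroup (Fin 2) F) //
      (χ : Matrix.SpecialLinearGroup (Fin 2) F → ℂ) 1 = (q : ℂ)}) ⟨_, (hdeg y.1 y.2).1⟩)))⟩,
    ⟨⟨ψ, hψ.symm ▸ hpq⟩⟩⟩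

end Cfsg.Agent.S4765
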