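import Cfsg.Statements.S4768
import Cfsg.Agent.Lib.BrauerCharacters.ItoPSolvable
import Cfsg.Agent.Lib.Correspondences.SeparableStab
import Cfsg.Agent.Lib.Correspondences.Inflate
import Cfsg.Agent.Lib.RealChar.Extension
import Cfsg.Agent.Lib.ZerosCodegree.CharBasics
import Cfsg.Agent.Lib.ZerosCodegree.CentralSubgroup
-- import your own Cfsg.Agent.* helpers here

set_option autoImplicit false
set_option linter.style.haveILetI false
open Cfsg CfsgLib.CharTheory CfsgLib.Correspondences
open scoped Pointwise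

namespace Cfsg.Agent.S4768


universe u

variable {p : ℕ}

/-- The number of irreducible characters of degree divisible by `p`. -/
noncomputable def numDvd (p : ℕ) (G : Type*) [Group G] : ℕ :=
  Nat.card {χ : Cfsg.IrrCharacter G // p ∣ charDegree (χ : G → ℂ)}

/-- Inflation of the characters of degree divisible by `p`. -/
def inflate {G : Type u} [Group G] (K : Subgroup G) [K.Normal]
    (χ : {χ : Cfsg.IrrCharacter (G ⧸ K) // p ∣ charDegree (χ : G ⧸ K → ℂ)}) :
    {χ : Cfsg.IrrCharacter G // p ∣ charDegree (χ : G → ℂ)} :=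
  ⟨⟨fun g => (χ.1 : G ⧸ K → ℂ) (QuotientGroup.mk' K g),
    isIrrCharacter_comp_of_surjective χ.1.2 _ (QuotientGroup.mk'_surjective K)⟩, by
    have h := χ.2
    unfold charDegree at h ⊢
    show p ∣ ⌊((χ.1 : G ⧸ K → ℂ) (QuotientGroup.mk' K 1)).re⌋₊
    rwa [map_one]⟩

theorem inflate_injective {G : Type u} [Group G] (K : Subgroup G) [K.Normal] :
    Function.Injective (inflate (p := p) K) := fun a c h => by
  refine Subtype.ext (Subtype.ext (funext fun x => ?_))
  obtain ⟨g, rfl⟩ := QuotientGroup.mk'_surjective K x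
  exact congrFun (congrArg (fun z : {χ : Cfsg.IrrCharacter G // p ∣ charDegree (χ : G → ℂ)} =>
    (z.1 : G → ℂ)) h) g

theorem main [hp : Fact p.Prime] : ∀ (c : ℕ) {G : Type u} [Group G] [Finite G], Nat.card G = c →
    Cfsg.IsPSolvable p G → ∀ P : Sylow p G,
      derivedSeries ↥(P : Subgroup G) (numDvd p G + 1) = ⊥ := by
  intro c
  induction c using Nat.strong_induction_on with
  | _ c IH =>
  intro G _ _ hc hsol P
  classical
  rcases Nat.eq_zero_or_pos (numDvd p G) with h0 | hpos
  · rw [h0, zero_add]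
    have hno : ∀ χ : Cfsg.IrrCharacter G, ¬ p ∣ charDegree (χ : G → ℂ) := by
      intro χ hd
      haveI : IsEmpty {χ : Cfsg.IrrCharacter G // p ∣ charDegree (χ : G → ℂ)} :=
        (Finite.card_eq_zero_iff).1 h0
      exact isEmptyElim (⟨χ, hd⟩ : {χ : Cfsg.IrrCharacter G // p ∣ charDegree (χ : G → ℂ)})
    have hab := ((CfsgLib.BrauerCharacters.ItoPSolvable.iff_noDvd hsol P).2 hno).2
    rw [derivedSeries_one, commutator_def, eq_bot_iff, Subgroup.commutator_le]
    intro a _ b _
    rw [Subgroup.mem_bot, commutatorElement_eq_one_iff_mul_comm]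
    exact hab.is_comm.comm a b
  haveI : Nontrivial G := by
    by_contra h
    rw [not_nontrivial_iff_subsingleton] at h
    have hs : derivedSeries ↥(P : Subgroup G) 1 = ⊥ := Subsingleton.elim _ _
    have hno : IsEmpty {χ : Cfsg.IrrCharacter G // p ∣ charDegree (χ : G → ℂ)} := ⟨fun χ => by
      have h1 := χ.2
      have hd : charDegree (χ.1 : G → ℂ) = 1 := by
        obtain ⟨d, hd, hd'⟩ := exists_degree_dvd_index_of_abelian χ.1.2 ⊤
          fun x _ y _ => Subsingleton.elim _ _
        rw [Subgroup.index_top, Nat.dvd_one] at hd'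
        unfold charDegree
        rw [hd, hd']
        simp
      rw [hd] at h1
      exact hp.out.ne_one (Nat.dvd_one.1 h1)⟩
    exact hpos.ne' (Nat.card_of_isEmpty)
  have hquot : ∀ (K : Subgroup G) [K.Normal], K ≠ ⊥ → ∀ x : ↥(P : Subgroup G),
      x ∈ derivedSeries ↥(P : Subgroup G) (numDvd p (G ⧸ K) + 1) → (x : G) ∈ K := by
    intro K _ hK x hx
    have hs := QuotientGroup.mk'_surjective K
    have hlt : Nat.card (G ⧸ K) < c := by
      rw [← hc, ← Subgroup.index_eq_card, ← Subgroup.card_mul_index K]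
      exact lt_mul_left (Nat.pos_of_ne_zero Subgroup.index_ne_zero_of_finite)
        (Subgroup.one_lt_card_iff_ne_bot K |>.2 hK)
    have h := IH _ hlt rfl (CfsgLib.PSolvable.isPSolvable_quotient hsol K) (P.mapSurjective hs)
    let f : ↥(P : Subgroup G) →* ↥((P.mapSurjective hs : Sylow p (G ⧸ K)) : Subgroup (G ⧸ K)) :=
      (((QuotientGroup.mk' K).comp (P : Subgroup G).subtype)).codRestrict _
        fun y => ⟨(y : G), y.2, rfl⟩
    have h1 := map_derivedSeries_le_derivedSeries f _ ⟨x, hx, rfl⟩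
    rw [h, Subgroup.mem_bot] at h1
    exact (QuotientGroup.eq_one_iff _).1 (congrArg Subtype.val h1)
  by_cases hO : Cfsg.pPrimeCore p G = ⊥
  swap
  · rw [eq_bot_iff]
    intro x hx
    have hle : numDvd p (G ⧸ Cfsg.pPrimeCore p G) ≤ numDvd p G :=
      Nat.card_le_card_of_injective _ (inflate_injective _)
    have h1 := hquot _ hO x (derivedSeries_antitone _ (by omega) hx)
    obtain ⟨k, hk⟩ := IsPGroup.iff_card.1 P.2
    rw [Subgroup.mem_bot]
    refine Subtype.ext (orderOf_eq_one_iff.1 (Nat.eq_one_of_dvd_coprimes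
      ((hp.out.coprime_iff_not_dvd.2 CfsgLib.Cores.not_dvd_card_pPrimeCore).pow_left k)
      (hk ▸ Subgroup.orderOf_dvd_natCard _ x.2) (Subgroup.orderOf_dvd_natCard _ h1)))
  -- a normal abelian `p`-subgroup
  have hOp : Cfsg.pCore p G ≠ ⊥ :=
    (CfsgLib.PSolvable.core_ne_bot hsol).resolve_right fun h => h hO
  haveI : Nontrivial (Cfsg.pCore p G) := (Subgroup.nontrivial_iff_ne_bot _).2 hOp
  set N := (Subgroup.center (Cfsg.pCore p G)).map (Cfsg.pCore p G).subtype with hNdef
  haveI : N.Normal := inferInstance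
  have hN : N ≠ ⊥ := by
    rw [hNdef, Ne, Subgroup.map_eq_bot_iff_of_injective _ (Cfsg.pCore p G).subtype_injective]
    exact (CfsgLib.Cores.isPGroup_pCore p G).bot_lt_center.ne'
  have hNle : N ≤ Cfsg.pCore p G := Subgroup.map_subtype_le _
  have hNp : IsPGroup p N := (CfsgLib.Cores.isPGroup_pCore p G).to_le hNle
  have hNc : ∀ a ∈ N, ∀ b ∈ N, a * b = b * a := fun a ha b hb => by
    obtain ⟨a', ha', rfl⟩ := ha
    exact congrArg Subtype.val (Subgroup.mem_center_iff.1 ha' ⟨b, hNle hb⟩).symm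
  -- one more step of the derived series
  have hstep : ∀ k, (∀ x ∈ derivedSeries ↥(P : Subgroup G) k, (x : G) ∈ N) →
      derivedSeries ↥(P : Subgroup G) (k + 1) = ⊥ := fun k hk => by
    rw [derivedSeries_succ, eq_bot_iff, Subgroup.commutator_le]
    intro a ha b hb
    rw [Subgroup.mem_bot, commutatorElement_eq_one_iff_mul_comm]
    exact Subtype.ext (hNc _ (hk a ha) _ (hk b hb))
  by_cases hcase : ∃ χ : Cfsg.IrrCharacter G, p ∣ charDegree (χ : G → ℂ) ∧
      ∃ x ∈ N, (χ : G → ℂ) x ≠ (χ : G → ℂ) 1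
  · obtain ⟨χ, hχd, x, hx, hχx⟩ := hcase
    have hlt : numDvd p (G ⧸ N) < numDvd p G := by
      refine (Nat.card_le_card_of_injective _ (inflate_injective N)).lt_of_ne fun he => ?_
      obtain ⟨ψ, hψ⟩ := ((inflate_injective (p := p) N).bijective_of_nat_card_le he.ge).2 ⟨χ, hχd⟩
      refine hχx ?_
      rw [← show (fun g => (ψ.1 : G ⧸ N → ℂ) (QuotientGroup.mk' N g)) = (χ : G → ℂ) from
        congrArg (fun z : {χ : Cfsg.IrrCharacter G // p ∣ charDegree (χ : G → ℂ)} =>
          (z.1 : G → ℂ)) hψ]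
      show (ψ.1 : G ⧸ N → ℂ) (QuotientGroup.mk' N x) = (ψ.1 : G ⧸ N → ℂ) (QuotientGroup.mk' N 1)
      rw [map_one, show QuotientGroup.mk' N x = 1 from (QuotientGroup.eq_one_iff x).2 hx]
    exact le_bot_iff.1 ((derivedSeries_antitone _ (by omega)).trans
      (hstep _ fun y hy => hquot N hN y hy).le)
  push Not at hcase
  haveI := Fintype.ofFinite G
  haveI := Fintype.ofFinite N
  -- a nontrivial linear character of `N`
  obtain ⟨⟨a, haN⟩, ha⟩ := Subgroup.ne_bot_iff_exists_ne_one.1 hN
  have ha1 : a ≠ 1 := fun h => ha (Subtype.ext h)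
  have hac : (⟨a, haN⟩ : N) ∉ commutator N := by
    rw [show commutator N = ⊥ from ?_, Subgroup.mem_bot]
    · exact fun h => ha1 (congrArg Subtype.val h)
    · rw [eq_bot_iff, commutator_def, Subgroup.commutator_le]
      intro b _ d _
      rw [Subgroup.mem_bot, commutatorElement_eq_one_iff_mul_comm]
      exact Subtype.ext (hNc _ b.2 _ d.2)
  obtain ⟨l₀, hl₀⟩ := CfsgLib.ZerosCodegree.exists_hom_ne_one hac
  set θ₀ : N → ℂ := fun n => (l₀ n : ℂ) with hθ₀
  have hθ₀i : IsIrrCharacter N θ₀ := isIrrCharacter_linear l₀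
  have hover : ∀ θ : N → ℂ, IsIrrCharacter N θ → (∃ n, θ n ≠ θ 1) → ∀ χ : Cfsg.IrrCharacter G,
      classInner (fun n : N => (χ : G → ℂ) n) θ ≠ 0 → ¬ p ∣ charDegree (χ : G → ℂ) := by
    intro θ hθ hne χ hχ hd
    have hall := hcase χ hd
    refine hχ ?_
    rw [show (fun n : N => (χ : G → ℂ) n) = (χ : G → ℂ) 1 • fun _ : N => (1 : ℂ) from
      funext fun n => by rw [Pi.smul_apply, smul_eq_mul, mul_one, hall n n.2],
      classInner_smul_left, classInner_eq_zero_of_ne isIrrCharacter_one hθ ?_, mul_zero]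
    intro h
    obtain ⟨n, hn⟩ := hne
    exact hn (by rw [← h])
  have hchar : ∀ θ : N → ℂ, IsIrrCharacter N θ → ∃ χ : Cfsg.IrrCharacter G,
      classInner (fun n : N => (χ : G → ℂ) n) θ ≠ 0 := by
    intro θ hθ
    haveI := Fintype.ofFinite (Cfsg.IrrCharacter G)
    obtain ⟨m, hm⟩ := IsCharacter.exists_sum
      (CfsgLib.Frobenius.isCharacter_indFun N θ (IsIrrCharacter.isCharacter hθ))
    obtain ⟨χ, hχ⟩ : ∃ χ, m χ ≠ 0 := by
      by_contra h
      push Not at h
      have h1 := congrFun hm 1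
      simp only [h, Nat.cast_zero, zero_smul, Finset.sum_const_zero, Pi.zero_apply,
        CfsgLib.Frobenius.indFun_one] at h1
      exact mul_ne_zero (Nat.cast_ne_zero.2 Subgroup.index_ne_zero_of_finite)
        (apply_one_ne_zero_of_isIrr hθ) h1
    refine ⟨χ, fun h => hχ ?_⟩
    have e : classInner (indFun N θ) (χ : G → ℂ) = (m χ : ℂ) := by
      rw [hm]; exact classInner_sum_irr _ χ
    rw [CfsgLib.Frobenius.classInner_indFun N θ _ (IsIrrCharacter.isClassFunction χ.2),
      classInner_conj_symm, h, map_zero] at e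
    exact_mod_cast e.symm
  -- conjugate it into one fixed by `P`
  obtain ⟨θ, hθ, hθne, hPT⟩ : ∃ θ : N → ℂ, IsIrrCharacter N θ ∧ (∃ n, θ n ≠ θ 1) ∧
      (P : Subgroup G) ≤ inertia N θ := by
    obtain ⟨χ, hχ⟩ := hchar θ₀ hθ₀i
    have hne₀ : ∃ n, θ₀ n ≠ θ₀ 1 := ⟨⟨a, haN⟩, fun h => hl₀ (Units.ext (by simpa [hθ₀] using h))⟩
    have h1 := CfsgLib.Clifford.apply_one_eq N χ.2 hθ₀i hχ
    obtain ⟨e, he⟩ := IsCharacter.exists_classInner_eq_nat
      (CfsgLib.Coherence.isCharacter_comp (IsIrrCharacter.isCharacter χ.2) N.subtype) ⟨θ₀, hθ₀i⟩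
    have hidx : ¬ p ∣ (inertia N θ₀).index := by
      rw [CfsgLib.Clifford.card_conjOrbit N θ₀ _ (fun g => mem_inertia N θ₀ g), show
        classInner (fun n : N => (χ : G → ℂ) n) θ₀ = e from he,
        ← CfsgLib.Correspondences.charDegree_cast (IsIrrCharacter.isCharacter χ.2),
        show θ₀ 1 = ((1 : ℕ) : ℂ) by simp [hθ₀],
        ← Nat.cast_mul, ← Nat.cast_mul, Nat.cast_inj, mul_one] at h1
      exact fun hd => hover θ₀ hθ₀i hne₀ χ hχ (h1 ▸ hd.mul_left e)
    obtain ⟨S⟩ : Nonempty (Sylow p (inertia N θ₀)) := inferInstance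
    obtain ⟨P', hP'⟩ := S.exists_comap_subtype_eq
    have hP'T : (P' : Subgroup G) ≤ inertia N θ₀ := by
      have hcard : Nat.card ((S : Subgroup _).map (inertia N θ₀).subtype) =
          Nat.card (P' : Subgroup G) := by
        rw [Subgroup.card_map_of_injective (inertia N θ₀).subtype_injective, S.card_eq_multiplicity,
          P'.card_eq_multiplicity, ← Subgroup.card_mul_index (inertia N θ₀),
          Nat.factorization_mul Nat.card_pos.ne' Subgroup.index_ne_zero_of_finite,
          Finsupp.coe_add, Pi.add_apply, Nat.factorization_eq_zero_of_not_dvd hidx, add_zero]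
      have hle : (S : Subgroup _).map (inertia N θ₀).subtype ≤ (P' : Subgroup G) := by
        rw [← hP', Subgroup.map_comap_eq]; exact inf_le_right
      rw [← Subgroup.eq_of_le_of_card_ge hle hcard.ge]
      exact Subgroup.map_subtype_le _
    obtain ⟨g, hg⟩ := MulAction.exists_smul_eq G P' P
    refine ⟨CfsgLib.Clifford.conjChar N θ₀ g⁻¹, CfsgLib.Clifford.isIrrCharacter_conjChar N hθ₀i _,
      ?_, fun x hx => ?_⟩
    · obtain ⟨n, hn⟩ := hne₀
      refine ⟨MulAut.conjNormal g n, ?_⟩
      rw [CfsgLib.Clifford.conjChar_eq_comp]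
      simpa [← MulAut.mul_apply, ← map_mul] using hn
    · have h2 : g⁻¹ * x * g ∈ inertia N θ₀ := by
        refine hP'T ?_
        have h3 : x ∈ MulAut.conj g • (P' : Subgroup G) := by
          rw [show MulAut.conj g • (P' : Subgroup G) = ((g • P' : Sylow p G) : Subgroup G) from rfl, hg]
          exact hx
        exact CfsgLib.CoprimeAction.mem_conj_iff.1 h3
      rw [mem_inertia] at h2 ⊢
      rw [CfsgLib.Clifford.conjChar_conjChar]
      conv_rhs => rw [← h2]
      rw [CfsgLib.Clifford.conjChar_conjChar]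
      congr 1
      group
  set T := inertia N θ with hTdef
  haveI := Fintype.ofFinite T
  have hNT : N ≤ T := le_inertia N (IsIrrCharacter.isClassFunction hθ)
  have hNP : N ≤ (P : Subgroup G) := by
    obtain ⟨P', hP'⟩ := hNp.exists_le_sylow
    obtain ⟨g, hg⟩ := MulAction.exists_smul_eq G P' P
    rw [← hg]
    intro r hr
    refine ⟨g⁻¹ * r * g, hP' (by simpa using (inferInstance : N.Normal).conj_mem r hr g⁻¹), ?_⟩
    show g * (g⁻¹ * r * g) * g⁻¹ = r
    group
  obtain ⟨χ, hχ⟩ := hchar θ hθ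
  obtain ⟨ψ, hψ, hψind, hψmult⟩ := CfsgLib.Clifford.exists_indFun_inertia_eq hθ
    (fun g => mem_inertia N θ g) hNT χ.2 hχ
  have hψover : classInner (fun n : N => ψ ⟨(n : G), hNT n.2⟩) θ ≠ 0 := by rw [hψmult]; exact hχ
  have hdegT : ∀ φ : T → ℂ, IsIrrCharacter T φ →
      classInner (fun n : N => φ ⟨(n : G), hNT n.2⟩) θ ≠ 0 → ¬ p ∣ charDegree φ := by
    intro φ hφ hφo hd
    obtain ⟨hi, hm⟩ := CfsgLib.Clifford.isIrrCharacter_indFun_inertia hθ
      (fun g => mem_inertia N θ g) hNT hφ hφo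
    refine hover θ hθ hθne ⟨_, hi⟩ (by rw [hm]; exact hφo) ?_
    have h1 := CfsgLib.Frobenius.indFun_one T φ
    rw [← CfsgLib.Correspondences.charDegree_cast (IsIrrCharacter.isCharacter hi),
      ← CfsgLib.Correspondences.charDegree_cast (IsIrrCharacter.isCharacter hφ),
      ← Nat.cast_mul] at h1
    rw [show charDegree (indFun T φ) = T.index * charDegree φ by exact_mod_cast h1]
    exact hd.mul_left _
  -- `θ` is linear and extends to `P`
  obtain ⟨l, hl⟩ := exists_hom_of_degree_one hθ (apply_one_eq_one_of_comm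
    (fun x y => Subtype.ext (hNc _ x.2 _ y.2)) hθ)
  let NT := N.subgroupOf T
  haveI := Fintype.ofFinite NT
  let e : NT ≃* N := Subgroup.subgroupOfEquivOfLe hNT
  have hres : ∀ n : N, ψ ⟨(n : G), hNT n.2⟩ = ψ 1 * θ n := by
    intro n
    have h := CfsgLib.Clifford.res_eq_of_invariant_of_le hNT hθ
      (fun g hg => (mem_inertia N θ g).1 hg) hψ hψover
    have h1 := congrFun h n
    have h2 := congrFun h 1
    have hθ1 : θ 1 = 1 := apply_one_eq_one_of_comm (fun x y => Subtype.ext (hNc _ x.2 _ y.2)) hθ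
    simp only [Pi.smul_apply, smul_eq_mul, hθ1, mul_one] at h1 h2
    rw [h1, show ψ 1 = _ from h2]
  let PT : Sylow p T := P.subtype hPT
  haveI := Fintype.ofFinite (PT : Subgroup T)
  obtain ⟨μ, hμ⟩ : ∃ μ : (PT : Subgroup T) →* ℂˣ, ∀ n : N,
      (μ ⟨⟨(n : G), hNT n.2⟩, hNP n.2⟩ : ℂ) = θ n := by
    haveI := Fintype.ofFinite (Cfsg.IrrCharacter (PT : Subgroup T))
    have hc := CfsgLib.Coherence.isCharacter_comp (IsIrrCharacter.isCharacter hψ)
      (PT : Subgroup T).subtype
    obtain ⟨m, hm⟩ := IsCharacter.exists_sum hc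
    obtain ⟨ν, hν⟩ : ∃ ν, ¬ p ∣ m ν * charDegree (ν : ↥(PT : Subgroup T) → ℂ) := by
      by_contra hcon
      push Not at hcon
      refine hdegT ψ hψ hψover ?_
      have h1 := congrFun hm 1
      simp only [Finset.sum_apply, Pi.smul_apply, smul_eq_mul, map_one] at h1
      have h2 : charDegree ψ = ∑ ν, m ν * charDegree (ν : ↥(PT : Subgroup T) → ℂ) := by
        have h3 : (charDegree ψ : ℂ) =
            ((∑ ν, m ν * charDegree (ν : ↥(PT : Subgroup T) → ℂ) : ℕ) : ℂ) := by
          push_cast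
          rw [CfsgLib.Correspondences.charDegree_cast (IsIrrCharacter.isCharacter hψ), h1]
          exact Finset.sum_congr rfl fun ν _ => by
            rw [CfsgLib.Correspondences.charDegree_cast (IsIrrCharacter.isCharacter ν.2)]
        exact_mod_cast h3
      rw [h2]
      exact Finset.dvd_sum fun ν _ => hcon ν
    have hν1 : charDegree (ν : ↥(PT : Subgroup T) → ℂ) = 1 := by
      obtain ⟨k, hk⟩ := IsPGroup.iff_card.1 PT.2
      have h2 := CfsgLib.ZerosCodegree.charDegree_dvd_card ν
      rw [hk] at h2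
      obtain ⟨j, -, hj⟩ := (Nat.dvd_prime_pow hp.out).1 h2
      rcases j with _ | j
      · rw [hj, pow_zero]
      · exact absurd (dvd_mul_of_dvd_right (hj ▸ dvd_pow_self p j.succ_ne_zero) _) hν
    obtain ⟨μ, hμ⟩ := exists_hom_of_degree_one ν.2 (by
      rw [← CfsgLib.Correspondences.charDegree_cast (IsIrrCharacter.isCharacter ν.2), hν1,
        Nat.cast_one])
    refine ⟨μ, fun n => ?_⟩
    have hmν : classInner (fun x : (PT : Subgroup T) => ψ (x : T)) (fun x => (μ x : ℂ)) ≠ 0 := by
      rw [show (fun x : (PT : Subgroup T) => ψ (x : T)) = _ from hm, ← hμ,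
        classInner_sum_irr (fun ν => (m ν : ℂ)) ν]
      exact Nat.cast_ne_zero.2 fun h => hν (by simp [h])
    obtain ⟨d, σ, hσ, hσc⟩ := hψ
    -- `N` acts by the scalar `θ` on `ψ`
    have hscal : ∀ x : T, ψ (⟨(n : G), hNT n.2⟩ * x) = θ n * ψ x := by
      intro x
      subst hσc
      have hnorm : ‖σ.character ⟨(n : G), hNT n.2⟩‖ = (σ.character 1).re := by
        rw [hres n, norm_mul, show θ n = (l n : ℂ) from congrFun hl n,
          CfsgLib.ZerosCodegree.norm_hom_eq_one, mul_one, σ.char_one, Complex.norm_natCast,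
          Complex.natCast_re]
      obtain ⟨ω, hω⟩ := (norm_character_eq_iff σ _).1 (by
        rw [hnorm, σ.char_one, Complex.natCast_re])
      have hmul : ∀ y, σ.character (⟨(n : G), hNT n.2⟩ * y) = ω * σ.character y := fun y => by
        simp only [Representation.character, map_mul, hω, smul_mul_assoc, map_smul, smul_eq_mul]
        rfl
      have h1 := hmul 1
      rw [mul_one, hres n, mul_comm] at h1
      rw [hmul, mul_right_cancel₀ (apply_one_ne_zero_of_isIrr ⟨d, σ, hσ, rfl⟩) h1.symm]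
    set z : (PT : Subgroup T) := ⟨⟨(n : G), hNT n.2⟩, hNP n.2⟩ with hz
    have key : classInner (fun x : (PT : Subgroup T) => ψ (x : T)) (fun x => (μ x : ℂ)) =
        θ n * starRingEnd ℂ (μ z : ℂ) *
          classInner (fun x : (PT : Subgroup T) => ψ (x : T)) (fun x => (μ x : ℂ)) := by
      simp only [classInner]
      conv_lhs => rw [← Equiv.sum_comp (Equiv.mulLeft z)]
      simp only [Finset.mul_sum]
      refine Finset.sum_congr rfl fun x _ => ?_
      rw [Equiv.coe_mulLeft, map_mul, Units.val_mul, map_mul, Subgroup.coe_mul,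
        show ((z : (PT : Subgroup T)) : T) = ⟨(n : G), hNT n.2⟩ from rfl, hscal]
      ring
    have h1 : θ n * starRingEnd ℂ (μ z : ℂ) = 1 :=
      mul_right_cancel₀ hmν (key.symm.trans (one_mul _).symm)
    rw [CfsgLib.ZerosCodegree.conj_hom_eq_inv] at h1
    calc (μ z : ℂ) = (θ n * ((μ z)⁻¹ : ℂˣ)) * μ z := by rw [h1, one_mul]
      _ = θ n := by rw [mul_assoc, Units.inv_mul, mul_one]
  -- extension to the inertia group
  have hinvT : ∀ (g : T) (n : NT), θ (e (MulAut.conjNormal g n)) = θ (e n) := by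
    intro g n
    have h := congrFun ((mem_inertia N θ (g : G)).1 g.2) (e n)
    rw [CfsgLib.Clifford.conjChar_eq_comp] at h
    exact (congrArg θ (Subtype.ext (by rw [MulAut.conjNormal_apply]; rfl))).trans h
  obtain ⟨η, hη, hηres⟩ := CfsgLib.RealChar.exists_extension_character_of_forall_prime NT
    (fun n => θ (e n)) (isIrrCharacter_comp_mulEquiv hθ e) hinvT fun q hq => by
    by_cases hqp : q = p
    · exact ⟨(PT : Subgroup T), fun x hx => hNP hx, fun x => (μ x : ℂ), hqp ▸ PT.not_dvd_index,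
        IsIrrCharacter.isCharacter (isIrrCharacter_linear μ), fun n => hμ (e n)⟩
    haveI := Fact.mk hq
    obtain ⟨Q⟩ : Nonempty (Sylow q T) := inferInstance
    obtain ⟨k, hk⟩ := IsPGroup.iff_card.1 hNp
    have hcop : (Nat.card NT).Coprime (NT.relIndex (NT ⊔ (Q : Subgroup T))) := by
      rw [Nat.card_congr e.toEquiv, hk, sup_comm, Subgroup.relIndex_sup_right]
      obtain ⟨j, hj⟩ := IsPGroup.iff_card.1 Q.2
      refine Nat.Coprime.coprime_dvd_right (hj ▸ Subgroup.index_dvd_card (NT.subgroupOf Q)) ?_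
      exact ((Nat.coprime_primes hp.out hq).2 (Ne.symm hqp)).pow k j
    obtain ⟨μ', hμ', hμ'r⟩ := exists_extension_coprime_le
      (le_sup_left (b := (Q : Subgroup T))) hcop (isIrrCharacter_comp_mulEquiv hθ e)
      (fun g _ n => hinvT g n)
    exact ⟨_, le_sup_left, μ', fun h => Q.not_dvd_index (h.trans
      (Subgroup.index_dvd_of_le le_sup_right)), IsIrrCharacter.isCharacter hμ', hμ'r⟩
  -- the quotient has only degrees prime to `p`
  haveI : NT.Normal := inferInstance
  have hη1 : η 1 = 1 := by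
    have h := hηres 1
    rw [OneMemClass.coe_one] at h
    rw [h, map_one]
    exact apply_one_eq_one_of_comm (fun x y => Subtype.ext (hNc _ x.2 _ y.2)) hθ
  obtain ⟨lη, hlη⟩ := exists_hom_of_degree_one hη hη1
  have hno : ∀ β : Cfsg.IrrCharacter (T ⧸ NT), ¬ p ∣ charDegree (β : T ⧸ NT → ℂ) := by
    intro β hd
    have hβ := isIrrCharacter_comp_of_surjective β.2 (QuotientGroup.mk' NT)
      (QuotientGroup.mk'_surjective NT)
    set φ : T → ℂ := η * fun g => (β : T ⧸ NT → ℂ) (QuotientGroup.mk' NT g) with hφ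
    have hφi : IsIrrCharacter T φ := isIrrCharacter_mul_of_norm hβ (IsIrrCharacter.isCharacter hη)
      fun g => by rw [hlη]; exact CfsgLib.ZerosCodegree.norm_hom_eq_one lη g
    have hval : (fun n : N => φ ⟨(n : G), hNT n.2⟩) = (β : T ⧸ NT → ℂ) 1 • θ := funext fun n => by
      show η _ * (β : T ⧸ NT → ℂ) (QuotientGroup.mk' NT _) = _
      rw [show QuotientGroup.mk' NT (⟨(n : G), hNT n.2⟩ : T) = 1 from
        (QuotientGroup.eq_one_iff _).2 n.2, Pi.smul_apply, smul_eq_mul, mul_comm]
      congr 1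
      exact (hηres (e.symm n)).trans (congrArg θ (e.apply_symm_apply n))
    refine hdegT φ hφi ?_ ?_
    · rw [hval, classInner_smul_left, classInner_self_of_isIrr hθ, mul_one]
      exact apply_one_ne_zero_of_isIrr β.2
    · unfold charDegree at hd ⊢
      show p ∣ ⌊(η 1 * (β : T ⧸ NT → ℂ) (QuotientGroup.mk' NT 1)).re⌋₊
      rwa [map_one, hη1, one_mul]
  have hsolT : Cfsg.IsPSolvable p (T ⧸ NT) :=
    CfsgLib.PSolvable.isPSolvable_quotient (CfsgLib.PSolvable.isPSolvable_subgroup hsol T) NT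
  have hab := ((CfsgLib.BrauerCharacters.ItoPSolvable.iff_noDvd hsolT
    (PT.mapSurjective (QuotientGroup.mk'_surjective NT))).2 hno).2
  have h2 := hstep 1 fun x hx => by
    rw [derivedSeries_one] at hx
    suffices h : commutator ↥(P : Subgroup G) ≤ N.comap (P : Subgroup G).subtype from h hx
    rw [commutator_def, Subgroup.commutator_le]
    intro a _ b _
    have hqa : ∀ y : ↥(P : Subgroup G), QuotientGroup.mk' NT (⟨(y : G), hPT y.2⟩ : T) ∈
        ((PT.mapSurjective (QuotientGroup.mk'_surjective NT) : Sylow p (T ⧸ NT)) :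
          Subgroup (T ⧸ NT)) := fun y => ⟨⟨(y : G), hPT y.2⟩, y.2, rfl⟩
    have h := congrArg Subtype.val (hab.is_comm.comm ⟨_, hqa a⟩ ⟨_, hqa b⟩)
    simp only [Subgroup.coe_mul] at h
    rw [← commutatorElement_eq_one_iff_mul_comm, ← map_commutatorElement] at h
    have h' := (QuotientGroup.eq_one_iff (N := NT) _).1 h
    exact h'
  exact le_bot_iff.1 ((derivedSeries_antitone _ (by omega)).trans h2.le)

/-- Let p be a prime, G a finite p-solvable group and P a Sylow p-subgroup of G. If n is the number of irreducible complex characters of G whose degree is divisible by p, then the (n+1)-st term of the derived series of P is trivial. (The p-solvable case has a direct inductive proof.) -/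
theorem result {G : Type*} [Group G] [Finite G] (p : ℕ) [Fact p.Prime] (hG : Cfsg.IsPSolvable p G) (P : Sylow p G) : derivedSeries ↥(P : Subgroup G) (Nat.card {χ : Cfsg.IrrCharacter G // p ∣ Cfsg.charDegree (χ : G → ℂ)} + 1) = ⊥ := by
  exact main (Nat.card G) rfl hG P

end Cfsg.Agent.S4768
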