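import Cfsg.Statements.S4775
import Cfsg.Agent.Lib.BrauerCharacters.SzDegrees
import Cfsg.Agent.Lib.Correspondences.SL2EvenDegrees
import Cfsg.Agent.Lib.Blocks.DefectZero
import Cfsg.Agent.Lib.Suzuki.LieBridge

set_option autoImplicit false
open Cfsg CfsgLib CfsgLib.BrauerCharacters CfsgLib.Suzuki

namespace Cfsg.Agent.S4775

/-- Let F be a finite field with q = 2^(2m+1) ≥ 8 elements and let S be isomorphic to the Suzuki group over F. Then the vertices of the character degree graph of S are 2 and the primes dividing (q − 1)(q² + 1); the primes dividing (q − 1)(q² + 1) are pairwise adjacent, and 2 is adjacent exactly to the primes dividing q − 1. -/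
theorem result (F : Type*) [Field F] [Fintype F] (m : ℕ) (hm : 1 ≤ m) (q : ℕ) (hq : Fintype.card F = q) (hqm : q = 2 ^ (2 * m + 1)) {S : Type*} [Group S] [Finite S] (hS : Nonempty (S ≃* ↥(Cfsg.Lie.Sz F (2 ^ (m + 1))))) : Cfsg.degreePrimes S = {r : ℕ | r.Prime ∧ (r = 2 ∨ r ∣ (q - 1) * (q ^ 2 + 1))} ∧ ∀ r s : ℕ, (Cfsg.degreeGraph S).Adj r s ↔ (r ≠ s ∧ r.Prime ∧ s.Prime ∧ ((r ∣ (q - 1) * (q ^ 2 + 1) ∧ s ∣ (q - 1) * (q ^ 2 + 1)) ∨ (r = 2 ∧ s ∣ q - 1) ∨ (s = 2 ∧ r ∣ q - 1))) := by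
  classical
  obtain ⟨e⟩ := hS
  have h : Hyp F m := Hyp.of_fintype hm (hq.trans hqm)
  have := h.finite_group
  haveI := Fintype.ofFinite (Cfsg.Sz F m)
  obtain ⟨a, b, hab, hd1, hd2, hda, hdb, ⟨j, hj, hdj⟩, hev⟩ := SzDegrees.degree_facts h
  have hS' : charDegrees S = charDegrees (Cfsg.Sz F m) :=
    Correspondences.charDegrees_mulEquiv (e.trans h.lieEquiv.symm)
  rw [← hqm] at hd1 hda hdb hdj
  have hqq : qq m = q ^ 2 + 1 := by rw [qq, hqm]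
  rw [hqq] at hab hd2 hev
  have h2 : 2 ∣ q := hqm ▸ dvd_pow_self 2 (by omega)
  have hdvdG : ∀ d ∈ charDegrees (Cfsg.Sz F m), d ∣ q ^ 2 * ((q ^ 2 + 1) * (q - 1)) := by
    rintro d ⟨χ, rfl⟩
    have := Blocks.charDegree_dvd_card χ
    rwa [h.card_group, ← hqm, mul_assoc] at this
  have hp : ∀ {r : ℕ}, r.Prime → ∀ d ∈ charDegrees (Cfsg.Sz F m), r ∣ d →
      r = 2 ∨ r ∣ (q - 1) * (q ^ 2 + 1) := by
    intro r hr d hd hrd
    rcases hr.dvd_mul.1 (hrd.trans (hdvdG d hd)) with h1 | h1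
    · refine Or.inl ?_
      have h3 := hr.dvd_of_dvd_pow h1
      rw [hqm] at h3
      exact (Nat.prime_dvd_prime_iff_eq hr Nat.prime_two).1 (hr.dvd_of_dvd_pow h3)
    · exact Or.inr (mul_comm (q ^ 2 + 1) (q - 1) ▸ h1)
  refine ⟨?_, fun r s => ?_⟩
  · ext r
    simp only [degreePrimes, Set.mem_setOf_eq, hS']
    constructor
    · rintro ⟨hr, d, hd, hrd⟩
      exact ⟨hr, hp hr d hd hrd⟩
    · rintro ⟨hr, rfl | hrd⟩
      · exact ⟨hr, _, hd1, dvd_pow h2 two_ne_zero⟩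
      · rcases hr.dvd_mul.1 hrd with h1 | h1
        · exact ⟨hr, _, hda, h1.mul_left a⟩
        · exact ⟨hr, _, hd2, h1⟩
  show (r ≠ s ∧ r.Prime ∧ s.Prime ∧ ∃ d ∈ charDegrees S, r * s ∣ d) ↔ _
  rw [hS']
  constructor
  · rintro ⟨hne, hr, hs, d, hd, hdiv⟩
    have hr' := (dvd_mul_right r s).trans hdiv
    have hs' := (dvd_mul_left s r).trans hdiv
    have key : ∀ {t : ℕ}, t.Prime → t ≠ 2 → 2 ∣ d → t ∣ d → t ∣ q - 1 := by
      intro t ht ht2 hd2' htd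
      rcases hp ht d hd htd with h' | h'
      · exact absurd h' ht2
      rcases ht.dvd_mul.1 h' with h'' | h''
      · exact h''
      · exact absurd (Nat.eq_one_of_dvd_coprimes (hev d hd (even_iff_two_dvd.2 hd2')) htd h'') ht.ne_one
    refine ⟨hne, hr, hs, ?_⟩
    rcases hp hr d hd hr' with rfl | h1
    · exact Or.inr (Or.inl ⟨rfl, key hs (Ne.symm hne) hr' hs'⟩)
    rcases hp hs d hd hs' with rfl | h2'
    · exact Or.inr (Or.inr ⟨rfl, key hr hne hs' hr'⟩)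
    exact Or.inl ⟨h1, h2'⟩
  · rintro ⟨hne, hr, hs, hcase⟩
    refine ⟨hne, hr, hs, ?_⟩
    have hcop := (Nat.coprime_primes hr hs).2 hne
    have mixed : ∀ {u v : ℕ}, v.Prime → u ∣ q - 1 → v ∣ q ^ 2 + 1 →
        ∃ d ∈ charDegrees (Cfsg.Sz F m), u ∣ d ∧ v ∣ d := by
      intro u v hv hu hvd
      rw [← hab] at hvd
      rcases hv.dvd_mul.1 hvd with h' | h'
      · exact ⟨_, hda, hu.mul_left a, h'.mul_right _⟩
      · exact ⟨_, hdb, hu.mul_left b, h'.mul_right _⟩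
    obtain ⟨d, hd, hrd, hsd⟩ : ∃ d ∈ charDegrees (Cfsg.Sz F m), r ∣ d ∧ s ∣ d := by
      rcases hcase with ⟨h1, h2'⟩ | ⟨rfl, h2'⟩ | ⟨rfl, h1⟩
      · rcases hr.dvd_mul.1 h1 with h1 | h1 <;> rcases hs.dvd_mul.1 h2' with h2' | h2'
        · exact ⟨_, hda, h1.mul_left a, h2'.mul_left a⟩
        · exact mixed hs h1 h2'
        · obtain ⟨d, hd, x, y⟩ := mixed hr h2' h1
          exact ⟨d, hd, y, x⟩
        · exact ⟨_, hd2, h1, h2'⟩
      · exact ⟨_, hdj, (even_iff_two_dvd.1 hj).mul_right _, h2'.mul_left j⟩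
      · exact ⟨_, hdj, h1.mul_left j, (even_iff_two_dvd.1 hj).mul_right _⟩
    exact ⟨d, hd, hcop.mul_dvd_of_dvd_of_dvd hrd hsd⟩

end Cfsg.Agent.S4775
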