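import Cfsg.Statements.S4780
import Cfsg.Agent.Lib.ZerosCodegree.NondivisibilityReduction
-- import your own Cfsg.Agent.* helpers here

set_option autoImplicit false
open Cfsg

namespace Cfsg.Agent.S4780

/-- Let G be a finite solvable group in which no irreducible complex character degree a with 1 < a divides a larger irreducible character degree. Then G has at most four distinct irreducible character degrees and the third derived subgroup of G is trivial. -/
theorem result {G : Type*} [Group G] [Finite G] [Group.IsSolvable G] (hnd : ∀ a ∈ Cfsg.charDegrees G, ∀ b ∈ Cfsg.charDegrees G, 1 < a → a < b → ¬ a ∣ b) : Nat.card ↥(Cfsg.charDegrees G) ≤ 4 ∧ derivedSeries G 3 = ⊥ := by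
  classical
  haveI := Fintype.ofFinite G
  open CfsgLib.ZerosCodegree CfsgLib.ZerosCodegree.Nondiv in
  by_cases hne : commutator G = ⊥
  · refine ⟨?_, derived_three_eq_bot fun a ha b hb => ?_⟩
    · have h1 : Cfsg.charDegrees G ⊆ ({1} : Set ℕ) := by
        rintro _ ⟨χ, rfl⟩
        exact degree_eq (by
          rw [CfsgLib.CyclicTI.apply_one_eq_one_of_commutator χ.2 fun a ha => by
            rw [hne, Subgroup.mem_bot] at ha; rw [ha], Nat.cast_one])
      have h2 := Set.ncard_le_ncard h1
      rw [Set.ncard_singleton] at h2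
      rw [Nat.card_coe_set_eq]
      omega
    · rw [hne, Subgroup.mem_bot] at ha
      rw [ha, one_mul, mul_one]
  open CfsgLib.ZerosCodegree CfsgLib.ZerosCodegree.Nondiv in
  rcases exists_pQuot_or_frobQuot inferInstance hne with ⟨K, p, hP⟩ | ⟨K, L, r, hF⟩
  · obtain ⟨χ₀, hχ₀⟩ := CfsgLib.Correspondences.exists_nonlinear hne
    refine bounded_of_pair (mem_degrees χ₀) hχ₀ ?_
    rintro _ ⟨χ, rfl⟩
    exact or_iff_not_imp_left.2 fun h => eq_of_pQuot hnd hP χ χ₀ h hχ₀
  · haveI := hF.normalL
    haveI : Fintype L := Fintype.ofFinite _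
    by_cases hp : L.index.Prime
    · exact bounded_of_prime inferInstance hnd hF hp
    have c : Comp K L r := ⟨hnd, hF, hp⟩
    by_cases hr : r ∣ Nat.card (⁅L, L⁆ : Subgroup G)
    · exact c.bounded_of_dvd hr inferInstance
    · exact c.bounded_of_not_dvd hr inferInstance

end Cfsg.Agent.S4780
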