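import Cfsg.Statements.S4782
import Cfsg.Agent.Lib.CharDegreesTheory.PrimeDegrees

set_option autoImplicit false
set_option linter.style.haveILetI false
open Cfsg

namespace Cfsg.Agent.S4782

open CfsgLib.CharTheory CfsgLib.CharDegreesTheory CfsgLib.CharDegreesTheory.SmallDegrees

universe u

/-- Some nonidentity element has class size prime to a given prime. -/
theorem exists_class_coprime {G : Type u} [Group G] [Finite G] [Nontrivial G] {q : ℕ} (hq : q.Prime) :
    ∃ g : G, g ≠ 1 ∧ ¬ q ∣ (Subgroup.centralizer ({g} : Set G)).index := by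
  by_cases hd : q ∣ Nat.card G
  · haveI := Fact.mk hq
    obtain ⟨P⟩ := (inferInstance : Nonempty (Sylow q G))
    haveI : Nontrivial (P : Subgroup G) :=
      (Subgroup.nontrivial_iff_ne_bot _).2 (P.ne_bot_of_dvd_card hd)
    haveI := P.2.center_nontrivial
    obtain ⟨z, hz⟩ := exists_ne (1 : Subgroup.center (P : Subgroup G))
    refine ⟨((z : (P : Subgroup G)) : G), fun h => hz (Subtype.ext (Subtype.ext h)),
      fun h => P.not_dvd_index (h.trans (Subgroup.index_dvd_of_le fun x hx => ?_))⟩
    rw [Subgroup.mem_centralizer_singleton_iff]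
    exact congrArg Subtype.val (Subgroup.mem_center_iff.1 z.2 ⟨x, hx⟩)
  · obtain ⟨g, hg⟩ := exists_ne (1 : G)
    exact ⟨g, hg, fun h => hd (h.trans (Subgroup.index_dvd_card _))⟩

/-- A non-abelian simple group has degree primes outside any two given primes. -/
theorem simple_aux {G : Type u} [Group G] [Finite G] [IsSimpleGroup G] (hnc : ¬ IsMulCommutative G)
    {p q : ℕ} (hp : p.Prime) (hq : q.Prime) (h : Cfsg.degreePrimes G ⊆ {p, q}) : False := by
  classical
  haveI := Fintype.ofFinite G
  haveI := Fintype.ofFinite (IrrCharacter G)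
  haveI := IsSimpleGroup.toNontrivial (G := G)
  obtain ⟨g, hg, hgq⟩ := exists_class_coprime (G := G) hq
  have hsum := sum_degree_mul (G := G) g
  rw [if_neg hg, ← Finset.add_sum_erase _ _ (Finset.mem_univ (trivIrr G))] at hsum
  simp only [trivIrr_apply, one_mul] at hsum
  have hall : ∀ χ ∈ Finset.univ.erase (trivIrr G),
      IsIntegral ℤ ((χ : G → ℂ) 1 * (χ : G → ℂ) g / (p : ℂ)) := by
    intro χ hχ
    have hne := (Finset.mem_erase.1 hχ).1
    obtain ⟨n, ρ, hρ, hρχ⟩ := id χ.2
    haveI := hρ
    have hdim : Module.finrank ℂ (Fin n → ℂ) = charDegree (χ : G → ℂ) := by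
      have h1 := congrFun hρχ 1
      rw [Representation.char_one, charDegree_one] at h1
      exact_mod_cast h1
    rw [charDegree_one]
    by_cases hd : p ∣ charDegree (χ : G → ℂ)
    · obtain ⟨m, hm⟩ := hd
      have hp0 : (p : ℂ) ≠ 0 := by exact_mod_cast hp.ne_zero
      rw [hm, ← hρχ]
      push_cast
      rw [mul_assoc, mul_div_cancel_left₀ _ hp0]
      exact (isIntegral_algebraMap (x := (m : ℤ))).mul (isIntegral_character ρ g)
    · have hcop : Nat.Coprime (Module.finrank ℂ (Fin n → ℂ))
          (Subgroup.centralizer ({g} : Set G)).index := by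
        rw [hdim]
        refine Nat.coprime_of_dvd fun r hr hr1 hr2 => ?_
        rcases h ⟨hr, _, ⟨χ, rfl⟩, hr1⟩ with e | e
        · exact hd (e ▸ hr1)
        · exact hgq ((e : r = q) ▸ hr2)
      rcases character_eq_zero_or_norm_of_coprime ρ g hcop with h0 | h1
      · rw [← hρχ, h0, mul_zero, zero_div]; exact isIntegral_zero
      · refine absurd ?_ (PrimeDegrees.norm_ne hnc hne hg)
        rw [← hρχ, h1, hdim, hρχ]
  have h1 : IsIntegral ℤ ((-1 : ℂ) / p) := by
    rw [← eq_neg_of_add_eq_zero_right hsum, Finset.sum_div]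
    exact IsIntegral.sum _ hall
  have h2 : p ∣ 1 := dvd_of_isIntegral_natCast_div hp.ne_zero (by
    have := h1.neg; rw [neg_div, neg_neg] at this; simpa using this)
  exact hp.one_lt.ne' (Nat.dvd_one.1 h2)

theorem degreePrimes_quotient {G : Type u} [Group G] [Finite G] (N : Subgroup G) [N.Normal] :
    Cfsg.degreePrimes (G ⧸ N) ⊆ Cfsg.degreePrimes G := by
  rintro r ⟨hr, d, ⟨θ, rfl⟩, hd⟩
  exact ⟨hr, _, ⟨⟨_, isIrrCharacter_comp θ.2 (QuotientGroup.mk'_surjective N)⟩, rfl⟩, hd⟩

theorem degreePrimes_normal {G : Type u} [Group G] [Finite G] (N : Subgroup G) [N.Normal] :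
    Cfsg.degreePrimes N ⊆ Cfsg.degreePrimes G := by
  classical
  haveI := Fintype.ofFinite N
  rintro r ⟨hr, d, ⟨θ, rfl⟩, hd⟩
  obtain ⟨χ, hχ⟩ := exists_over N θ
  exact ⟨hr, _, ⟨χ, rfl⟩, hd.trans (ItoSolvable.dvd_of_constituent N θ χ hχ)⟩

/-- A group whose degree primes are among two primes is solvable. -/
theorem isSolvable_of_degreePrimes_subset {G : Type u} [Group G] [Finite G] {p q : ℕ}
    (hp : p.Prime) (hq : q.Prime) (h : Cfsg.degreePrimes G ⊆ {p, q}) : Group.IsSolvable G := by
  induction hn : Nat.card G using Nat.strong_induction_on generalizing G with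
  | _ n ih =>
    subst hn
    rcases subsingleton_or_nontrivial G with _ | _
    · infer_instance
    by_cases hsimple : IsSimpleGroup G
    · by_cases hc : IsMulCommutative G
      · letI : CommGroup G := { (inferInstance : Group G) with mul_comm := hc.is_comm.comm }
        infer_instance
      · exact (simple_aux hc hp hq h).elim
    obtain ⟨N, hN, hN1, hN2⟩ : ∃ N : Subgroup G, N.Normal ∧ N ≠ ⊥ ∧ N ≠ ⊤ := by
      by_contra hcon
      push Not at hcon
      exact hsimple ⟨fun N hN => (em (N = ⊥)).imp_right fun h' => hcon N hN h'⟩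
    haveI := hN
    have h1 : Nat.card N < Nat.card G :=
      lt_of_le_of_ne (Subgroup.card_le_card_group N) fun e =>
        hN2 (Subgroup.eq_top_of_card_eq N e)
    have h2 : Nat.card (G ⧸ N) < Nat.card G := by
      haveI := (Subgroup.nontrivial_iff_ne_bot N).2 hN1
      rw [Subgroup.card_eq_card_quotient_mul_card_subgroup N]
      exact lt_mul_of_one_lt_right Nat.card_pos Finite.one_lt_card
    haveI : Group.IsSolvable N := ih _ h1 ((degreePrimes_normal N).trans h) rfl
    haveI : Group.IsSolvable (G ⧸ N) := ih _ h2 ((degreePrimes_quotient N).trans h) rfl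
    exact Group.isSolvable_of_ker_le_range N.subtype (QuotientGroup.mk' N)
      (by rw [QuotientGroup.ker_mk', Subgroup.range_subtype])


/-- If the finite group G is not solvable, then at least three distinct primes each divide some irreducible complex character degree of G. -/
theorem result {G : Type*} [Group G] [Finite G] (hG : ¬ Group.IsSolvable G) : ∃ p q r : ℕ, p ≠ q ∧ q ≠ r ∧ p ≠ r ∧ p ∈ Cfsg.degreePrimes G ∧ q ∈ Cfsg.degreePrimes G ∧ r ∈ Cfsg.degreePrimes G := by
  have key : ∀ a b : ℕ, a.Prime → b.Prime → ∃ r, r ∈ Cfsg.degreePrimes G ∧ r ≠ a ∧ r ≠ b := by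
    intro a b ha hb
    by_contra hcon
    push Not at hcon
    refine hG (isSolvable_of_degreePrimes_subset ha hb fun r hr => ?_)
    by_cases hra : r = a
    · exact Or.inl hra
    · exact Or.inr (hcon r hr hra)
  obtain ⟨a, ha, -, -⟩ := key 2 3 Nat.prime_two Nat.prime_three
  obtain ⟨b, hb, hba, -⟩ := key a a ha.1 ha.1
  obtain ⟨c, hc, hca, hcb⟩ := key a b ha.1 hb.1
  exact ⟨a, b, c, hba.symm, hcb.symm, hca.symm, ha, hb, hc⟩

end Cfsg.Agent.S4782
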