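import Cfsg.Statements.S4784
import Cfsg.Agent.Lib.RealChar.PermChar
import Cfsg.Agent.Lib.Correspondences.RealIrr
import Cfsg.Agent.Lib.CharTheory.Inflation
import Cfsg.Agent.Lib.CharTheory.PermChar
import Cfsg.Agent.Lib.CharTheory.Decomp

set_option autoImplicit false
open Cfsg

namespace Cfsg.Agent.S4784

open CfsgLib.CharTheory CfsgLib.RealChar
open scoped ComplexConjugate

variable {G : Type*} [Group G] [Fintype G] (H : Subgroup G)

/-- The permutation character. -/
noncomputable def permOf : G → ℂ := Cfsg.indFun H (fun _ : H => (1 : ℂ))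

theorem isCharacter_permOf : Cfsg.IsCharacter G (permOf H) := by
  have h : permOf H = fun g => (Nat.card (MulAction.fixedBy (G ⧸ H) g) : ℂ) := by
    funext g
    rw [permOf, indFun_one_eq_cosetFix]
    rfl
  exact h ▸ isCharacter_card_fixedBy _

/-- Pairing a permutation character with a class function. -/
theorem sum_permOf_mul {f : G → ℂ} (hf : Cfsg.IsClassFunction G f) [DecidablePred (· ∈ H)] :
    ∑ g : G, permOf H g * f g
      = (Nat.card H : ℂ)⁻¹ * ((Nat.card G : ℂ) * ∑ g : G, if g ∈ H then f g else 0) := by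
  classical
  have hext : ∀ z : G, Cfsg.extendByZero H (fun _ => (1 : ℂ)) z = if z ∈ H then 1 else 0 := by
    intro z
    by_cases hz : z ∈ H
    · rw [if_pos hz]
      exact (Subtype.val_injective.extend_apply (fun _ : H => (1 : ℂ)) 0 ⟨z, hz⟩)
    · rw [if_neg hz]
      exact Function.extend_apply' _ _ _ (fun ⟨a, ha⟩ => hz (ha ▸ a.2))
  simp only [permOf, Cfsg.indFun, hext, mul_assoc, ← Finset.mul_sum, Finset.sum_mul]
  rw [Finset.sum_comm]
  congr 1
  have : ∀ x : G, (∑ g : G, (if x⁻¹ * (g * x) ∈ H then (1 : ℂ) else 0) * f g)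
      = ∑ g : G, if g ∈ H then f g else 0 := by
    intro x
    refine Fintype.sum_equiv (MulAut.conj x⁻¹).toEquiv _ _ fun g => ?_
    have : f (x⁻¹ * g * x) = f g := by
      simpa using hf g x⁻¹
    simp [mul_assoc] at this ⊢
    split_ifs <;> simp [this]
  simp only [this, Finset.sum_const, Finset.card_univ, nsmul_eq_mul, Nat.card_eq_fintype_card]

/-- The Frobenius–Schur sum of a permutation character. -/
theorem sum_permOf_sq [DecidablePred (· ∈ H)] :
    ∑ s : G, permOf H (s * s)
      = (Nat.card H : ℂ)⁻¹ * ((Nat.card G : ℂ)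
          * ((Finset.univ.filter fun s : G => s * s ∈ H).card : ℂ)) := by
  classical
  have hf : Cfsg.IsClassFunction G (fun g => ((Finset.univ.filter fun u : G => u * u = g).card : ℂ)) := by
    intro a b
    rw [Nat.cast_inj]
    refine Finset.card_equiv (MulAut.conj b⁻¹).toEquiv fun u => ?_
    simp only [Finset.mem_filter, Finset.mem_univ, true_and, MulEquiv.toEquiv_eq_coe, EquivLike.coe_coe,
      MulAut.conj_apply, inv_inv]
    constructor
    · intro h
      calc b⁻¹ * u * b * (b⁻¹ * u * b) = b⁻¹ * (u * u) * b := by group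
        _ = a := by rw [h]; group
    · intro h
      calc u * u = b * (b⁻¹ * u * b * (b⁻¹ * u * b)) * b⁻¹ := by group
        _ = b * a * b⁻¹ := by rw [h]
  have h := sum_permOf_mul H hf
  have h1 : ∀ π : G → ℂ, ∑ s : G, π (s * s)
      = ∑ g : G, π g * ((Finset.univ.filter fun u : G => u * u = g).card : ℂ) := by
    intro π
    rw [← Finset.sum_fiberwise (Finset.univ : Finset G) (fun u : G => u * u)]
    refine Finset.sum_congr rfl fun x _ => ?_
    rw [Finset.sum_congr rfl fun u hu => by rw [(Finset.mem_filter.1 hu).2], Finset.sum_const,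
      nsmul_eq_mul, mul_comm]
  rw [h1, h]
  congr 2
  rw [← Finset.sum_filter, ← Nat.cast_sum, Nat.cast_inj,
    Finset.card_eq_sum_card_fiberwise (f := fun u : G => u * u) (t := Finset.univ.filter (· ∈ H))
      (fun u hu => by simpa using hu)]
  refine Finset.sum_congr rfl fun g hg => ?_
  congr 1
  ext u
  simp only [Finset.mem_filter, Finset.mem_univ, true_and] at hg ⊢
  exact ⟨fun h => ⟨h ▸ hg, h⟩, fun h => h.2⟩

/-- The trivial constituent. -/
theorem classInner_permOf_one : Cfsg.classInner (permOf H) (fun _ => (1 : ℂ)) = 1 := by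
  classical
  rw [Cfsg.classInner]
  simp only [map_one]
  rw [sum_permOf_mul H (f := fun _ => 1) (fun _ _ => rfl)]
  rw [Finset.sum_boole]
  have : (Finset.univ.filter fun g : G => g ∈ H).card = Nat.card H := by
    rw [← Fintype.card_subtype, Nat.card_eq_fintype_card]
  rw [this]
  have h1 : (Nat.card H : ℂ) ≠ 0 := Nat.cast_ne_zero.2 Nat.card_pos.ne'
  have h2 : (Nat.card G : ℂ) ≠ 0 := Nat.cast_ne_zero.2 Nat.card_pos.ne'
  field_simp

/-- A constituent is trivial on the normal core. -/
theorem apply_core_eq {χ : G → ℂ} (hχ : Cfsg.IsIrrCharacter G χ)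
    (h : Cfsg.classInner (permOf H) χ ≠ 0) {k : G} (hk : k ∈ H.normalCore) : χ k = χ 1 := by
  classical
  have hcl : Cfsg.IsClassFunction G (fun g => conj (χ g)) := fun a b =>
    congrArg conj (IsIrrCharacter.isClassFunction hχ a b)
  obtain ⟨n, ρ, hρ, rfl⟩ := hχ
  set W : Submodule ℂ (Fin n → ℂ) := ⨅ c : H.normalCore, LinearMap.ker (ρ c - 1) with hW
  have hmem : ∀ v, v ∈ W ↔ ∀ c ∈ H.normalCore, ρ c v = v := by
    intro v; simp [hW, sub_eq_zero]
  have hinv : ∀ g : G, ∀ v ∈ W, ρ g v ∈ W := by
    intro g v hv
    rw [hmem] at hv ⊢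
    intro c hc
    have hc' : g⁻¹ * c * g ∈ H.normalCore := by
      simpa using (inferInstance : H.normalCore.Normal).conj_mem c hc g⁻¹
    have : ρ c * ρ g = ρ g * ρ (g⁻¹ * c * g) := by
      rw [← map_mul, ← map_mul]; group
    calc ρ c (ρ g v) = (ρ c * ρ g) v := rfl
      _ = ρ g v := by rw [this, Module.End.mul_apply, hv _ hc']
  let Ws : Subrepresentation ρ := ⟨W, fun g v hv => hinv g v hv⟩
  haveI : IsSimpleOrder (Subrepresentation ρ) := hρ
  rcases IsSimpleOrder.eq_bot_or_eq_top Ws with hb' | ht'
  · have hb : W = ⊥ := congrArg (fun X : Subrepresentation ρ => X.toSubmodule) hb'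
    exfalso
    refine h ?_
    rw [Cfsg.classInner, sum_permOf_mul H hcl]
    set S : Module.End ℂ (Fin n → ℂ) := ∑ g : G, if g ∈ H then ρ g else 0 with hS
    have hS0 : S = 0 := by
      refine LinearMap.ext fun v => ?_
      have : S v ∈ W := by
        rw [hmem]
        intro c hc
        have hcH : c ∈ H := H.normalCore_le hc
        have : ρ c * S = S := by
          rw [hS, Finset.mul_sum]
          refine Fintype.sum_equiv (Equiv.mulLeft c) _ _ fun g => ?_
          simp [mul_ite, H.mul_mem_cancel_left hcH]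
        rw [← Module.End.mul_apply, this]
      rw [hb, Submodule.mem_bot] at this
      simpa using this
    have h0 : ∑ g : G, (if g ∈ H then ρ.character g else 0) = 0 := by
      have := congrArg (LinearMap.trace ℂ (Fin n → ℂ)) hS0
      rw [hS, map_sum, map_zero] at this
      refine (Finset.sum_congr rfl fun g _ => ?_).trans this
      split_ifs <;> simp [Representation.character]
    have h0' : ∑ g : G, (if g ∈ H then conj (ρ.character g) else 0) = 0 := by
      have h := congrArg (starRingEnd ℂ) h0
      rw [map_sum, map_zero] at h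
      refine (Finset.sum_congr rfl fun g _ => ?_).trans h
      split_ifs <;> simp
    rw [h0', mul_zero, mul_zero, mul_zero]
  · have ht : W = ⊤ := congrArg (fun X : Subrepresentation ρ => X.toSubmodule) ht'
    have : ρ k = 1 := LinearMap.ext fun v => (hmem v).1 (ht ▸ Submodule.mem_top) k hk
    simp [Representation.character, this]


/-- Let H be a subgroup of the finite group G and consider the permutation character of G on the cosets of H (the function induced from the principal character of H). Then exactly one irreducible constituent of it is real-valued with Frobenius–Schur indicator +1 (namely the principal character) if and only if the normal core of H has odd index in G. -/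
theorem result {G : Type*} [Group G] [Fintype G] (H : Subgroup G) : Nat.card {χ : Cfsg.IrrCharacter G // Cfsg.classInner (Cfsg.indFun H (fun _ : H => (1 : ℂ))) (χ : G → ℂ) ≠ 0 ∧ (∀ g : G, (starRingEnd ℂ) ((χ : G → ℂ) g) = (χ : G → ℂ) g) ∧ (Nat.card G : ℂ)⁻¹ * ∑ g : G, (χ : G → ℂ) (g * g) = 1} = 1 ↔ Odd H.normalCore.index := by
  classical
  haveI : Fintype (Cfsg.IrrCharacter G) := Fintype.ofFinite _
  set π : G → ℂ := permOf H with hπ
  change Nat.card {χ : Cfsg.IrrCharacter G // Cfsg.classInner π (χ : G → ℂ) ≠ 0 ∧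
    (∀ g : G, (starRingEnd ℂ) ((χ : G → ℂ) g) = (χ : G → ℂ) g) ∧
      fsIndicator (χ : G → ℂ) = 1} = 1 ↔ _
  have htriv : fsIndicator (fun _ : G => (1 : ℂ)) = 1 := by
    simp [fsIndicator]
  let t : {χ : Cfsg.IrrCharacter G // Cfsg.classInner π (χ : G → ℂ) ≠ 0 ∧
      (∀ g : G, (starRingEnd ℂ) ((χ : G → ℂ) g) = (χ : G → ℂ) g) ∧
        fsIndicator (χ : G → ℂ) = 1} :=
    ⟨trivIrr G, by
      refine ⟨?_, fun g => ?_, htriv⟩
      · show Cfsg.classInner π (fun _ => (1 : ℂ)) ≠ 0
        rw [hπ, classInner_permOf_one]; exact one_ne_zero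
      · simp [trivIrr_apply]⟩
  constructor
  · intro hone
    by_contra hodd
    have huniq := (Nat.card_eq_one_iff_unique.1 hone).1
    -- only the trivial character contributes
    have hexp : ∑ s : G, π (s * s) = ∑ χ : Cfsg.IrrCharacter G,
        Cfsg.classInner π (χ : G → ℂ) * ∑ s : G, (χ : G → ℂ) (s * s) := by
      simp only [Finset.mul_sum]
      rw [Finset.sum_comm]
      refine Finset.sum_congr rfl fun s _ => ?_
      have := congrFun (eq_sum_classInner (IsCharacter.isClassFunction (isCharacter_permOf H))) (s * s)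
      simpa [Finset.sum_apply, hπ] using this
    have hre : ((Finset.univ.filter fun s : G => s * s ∈ H).card : ℝ) ≤ Nat.card H := by
      have hn : (Nat.card G : ℂ) ≠ 0 := Nat.cast_ne_zero.2 Nat.card_pos.ne'
      have hh : (Nat.card H : ℂ) ≠ 0 := Nat.cast_ne_zero.2 Nat.card_pos.ne'
      have key : (Nat.card H : ℂ)⁻¹ * ((Finset.univ.filter fun s : G => s * s ∈ H).card : ℂ)
          = ∑ χ : Cfsg.IrrCharacter G, Cfsg.classInner π (χ : G → ℂ) * fsIndicator (χ : G → ℂ) := by
        have h2 := sum_permOf_sq H
        rw [← hπ, hexp] at h2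
        simp only [fsIndicator]
        rw [Finset.sum_congr rfl fun (χ : Cfsg.IrrCharacter G) _ =>
            mul_left_comm (Cfsg.classInner π (χ : G → ℂ)) (Nat.card G : ℂ)⁻¹
              (∑ s, (χ : G → ℂ) (s * s)),
          ← Finset.mul_sum, h2]
        field_simp
      have hterm : ∀ χ : Cfsg.IrrCharacter G, χ ∈ (Finset.univ : Finset (Cfsg.IrrCharacter G)) →
          (Cfsg.classInner π (χ : G → ℂ) * fsIndicator (χ : G → ℂ)).re
            ≤ if χ = trivIrr G then 1 else 0 := by
        intro χ _
        split_ifs with hχ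
        · subst hχ
          show (Cfsg.classInner π (fun _ => (1 : ℂ)) * fsIndicator (fun _ : G => (1 : ℂ))).re ≤ 1
          rw [hπ, classInner_permOf_one, htriv]; simp
        · obtain ⟨m, hm⟩ := IsCharacter.exists_classInner_eq_nat (isCharacter_permOf H) χ
          rw [← hπ] at hm
          rcases (CfsgLib.Correspondences.fsIndicator_irr_cases χ.2).1 with e | e | e
          · rw [e]; simp
          · rw [e, mul_one]
            by_contra hpos
            push Not at hpos
            have hne : Cfsg.classInner π (χ : G → ℂ) ≠ 0 := fun h0 => by simp [h0] at hpos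
            have hreal : ∀ g : G, (starRingEnd ℂ) ((χ : G → ℂ) g) = (χ : G → ℂ) g := fun g =>
              Complex.conj_eq_iff_im.2
                ((CfsgLib.Correspondences.fsIndicator_irr_ne_zero_iff χ.2).1 (by rw [e]; simp) g)
            exact hχ (congrArg Subtype.val (Subsingleton.elim (h := huniq) ⟨χ, hne, hreal, e⟩ t))
          · rw [e, hm]; simp
      have := Finset.sum_le_sum hterm
      rw [← Complex.re_sum, ← key, Finset.sum_ite_eq', if_pos (Finset.mem_univ _),
        ← Complex.ofReal_natCast, ← Complex.ofReal_inv, ← Complex.ofReal_natCast, ← Complex.ofReal_mul,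
        Complex.ofReal_re] at this
      rwa [inv_mul_le_iff₀ (by exact_mod_cast Nat.card_pos), mul_one] at this
    -- an element outside the core with square in it
    obtain ⟨q, hq⟩ : ∃ q : G ⧸ H.normalCore, orderOf q = 2 := by
      haveI : Fact (Nat.Prime 2) := ⟨Nat.prime_two⟩
      refine exists_prime_orderOf_dvd_card' 2 ?_
      rw [← Subgroup.index_eq_card]
      exact (Nat.not_odd_iff_even.1 hodd).two_dvd
    obtain ⟨g, rfl⟩ := QuotientGroup.mk_surjective q
    have hg : g ∉ H.normalCore := fun h => by
      rw [(QuotientGroup.eq_one_iff g).2 h, orderOf_one] at hq; omega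
    have hg2 : g * g ∈ H.normalCore := by
      rw [← QuotientGroup.eq_one_iff, QuotientGroup.mk_mul, ← sq, ← hq, pow_orderOf_eq_one]
    obtain ⟨x, hx⟩ : ∃ x : G, x * g * x⁻¹ ∉ H := by
      by_contra hc
      push Not at hc
      exact hg hc
    have hlt : Nat.card H < (Finset.univ.filter fun s : G => s * s ∈ H).card := by
      have h1 : (Finset.univ.filter fun s : G => s ∈ H).card = Nat.card H := by
        rw [← Fintype.card_subtype, Nat.card_eq_fintype_card]
      rw [← h1]
      refine Finset.card_lt_card ⟨fun s hs => ?_, fun hsub => hx ?_⟩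
      · simp only [Finset.mem_filter, Finset.mem_univ, true_and] at hs ⊢
        exact H.mul_mem hs hs
      · have : x * g * x⁻¹ ∈ (Finset.univ.filter fun s : G => s * s ∈ H) := by
          simp only [Finset.mem_filter, Finset.mem_univ, true_and]
          have := H.normalCore_le ((inferInstance : H.normalCore.Normal).conj_mem _ hg2 x)
          simpa [mul_assoc] using this
        simpa using hsub this
    have : ((Nat.card H : ℕ) : ℝ) < ((Finset.univ.filter fun s : G => s * s ∈ H).card : ℝ) := by
      exact_mod_cast hlt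
    linarith
  · intro hodd
    rw [Nat.card_eq_one_iff_unique]
    refine ⟨⟨fun a b => ?_⟩, ⟨t⟩⟩
    suffices ∀ a : {χ : Cfsg.IrrCharacter G // Cfsg.classInner π (χ : G → ℂ) ≠ 0 ∧
        (∀ g : G, (starRingEnd ℂ) ((χ : G → ℂ) g) = (χ : G → ℂ) g) ∧
          fsIndicator (χ : G → ℂ) = 1}, a = t by rw [this a, this b]
    rintro ⟨χ, hne, hreal, he⟩
    obtain ⟨ψ, hψ, hψeq⟩ := exists_descend χ.2 H.normalCore fun k hk => apply_core_eq H χ.2 hne hk
    haveI := Fintype.ofFinite (G ⧸ H.normalCore)
    have hψreal : ∀ q, (ψ q).im = 0 := by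
      intro q
      obtain ⟨g, rfl⟩ := QuotientGroup.mk_surjective q
      rw [← hψeq]; exact Complex.conj_eq_iff_im.1 (hreal g)
    have hnz := (CfsgLib.Correspondences.fsIndicator_irr_ne_zero_iff hψ).2 hψreal
    have hψ1 : ψ = fun _ => 1 := by
      by_contra hψne
      apply hnz
      have h0 := classInner_eq_zero_of_ne hψ isIrrCharacter_one hψne
      simp only [Cfsg.classInner, map_one, mul_one] at h0
      rw [fsIndicator, ← h0]
      congr 1
      have hcop : (Nat.card (G ⧸ H.normalCore)).Coprime 2 := by
        rw [← Subgroup.index_eq_card]; exact Nat.coprime_two_right.2 hodd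
      refine Fintype.sum_equiv (powCoprime hcop) _ _ fun q => ?_
      simp [sq]
    apply Subtype.ext
    apply Subtype.ext
    funext g
    simp [t, trivIrr_apply, hψeq, hψ1]

end Cfsg.Agent.S4784
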