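import Cfsg.Statements.S4796
import Cfsg.Agent.Lib.CyclicTI.IndNormal
import Cfsg.Agent.Lib.Frobenius.Basic
import Cfsg.Agent.Lib.CharTheory.Orthogonality
import Cfsg.Agent.Lib.Coherence.Virtual
import Cfsg.Agent.Lib.BrauerCharacters.ClassMul
import Mathlib.GroupTheory.SchurZassenhaus

set_option autoImplicit false
open Cfsg CfsgLib.CharTheory CfsgLib.Frobenius

namespace Cfsg.Agent.S4796

/-- Let G be a finite group with a faithful irreducible complex character χ whose codegree #G / χ(1) is a prime p (for a faithful character the kernel is trivial, so the codegree is #G / χ(1)). Then either G is cyclic of order p, or G is a Frobenius group whose Frobenius kernel has order p: some proper non-trivial subgroup H satisfies H ∩ gHg⁻¹ = 1 for every element g outside H, and the set of elements lying in no conjugate of H, together with the identity, has exactly p elements. -/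
theorem result {G : Type*} [Group G] [Finite G] (χ : Cfsg.IrrCharacter G) (hfaith : ∀ g : G, (χ : G → ℂ) g = (χ : G → ℂ) 1 → g = 1) (p : ℕ) (hp : p.Prime) (hcod : Nat.card G = p * Cfsg.charDegree (χ : G → ℂ)) : (IsCyclic G ∧ Nat.card G = p) ∨ ∃ H : Subgroup G, Cfsg.IsFrobeniusComplement H ∧ Nat.card ↥(Cfsg.frobeniusKernel H) = p := by
  classical
  have : Fintype G := Fintype.ofFinite G
  have : Fintype (IrrCharacter G) := Fintype.ofFinite _
  have : Fact p.Prime := ⟨hp⟩
  obtain ⟨hf1, hfpos, -⟩ := CfsgLib.BrauerCharacters.charDegree_spec χ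
  set f := charDegree (χ : G → ℂ) with hf
  rcases Nat.lt_or_ge f 2 with hf2 | hf2
  · have h1 : f = 1 := by omega
    rw [h1, mul_one] at hcod
    exact Or.inl ⟨isCyclic_of_prime_card hcod, hcod⟩
  refine Or.inr ?_
  have hne : χ ≠ trivIrr G := fun e => by
    rw [e, trivIrr_apply] at hf1
    have : f = 1 := by exact_mod_cast hf1.symm
    omega
  have hfp : f < p := by
    have h := sum_degree_sq (G := G)
    have h1 : ∑ ψ ∈ ({χ, trivIrr G} : Finset (IrrCharacter G)), (charDegree (ψ : G → ℂ)) ^ 2 ≤
        Nat.card G := by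
      have h2 : ((∑ ψ : IrrCharacter G, (charDegree (ψ : G → ℂ)) ^ 2 : ℕ) : ℂ) = Nat.card G := by
        rw [← h]
        push_cast
        exact Finset.sum_congr rfl fun ψ _ => by
          rw [(CfsgLib.BrauerCharacters.charDegree_spec ψ).1]
      rw [← Nat.cast_injective h2]
      exact Finset.sum_le_sum_of_subset (Finset.subset_univ _)
    rw [Finset.sum_pair hne, hcod] at h1
    have h0 : charDegree (trivIrr G : G → ℂ) = 1 := by
      have h3 := (CfsgLib.BrauerCharacters.charDegree_spec (trivIrr G)).1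
      rw [trivIrr_apply] at h3
      exact_mod_cast h3.symm
    rw [h0, ← hf] at h1
    nlinarith
  obtain ⟨P⟩ := (inferInstance : Nonempty (Sylow p G))
  have hfnd : ¬ p ∣ f := fun h => (Nat.le_of_dvd hfpos h).not_gt hfp
  have hPcard : Nat.card (P : Subgroup G) = p := by
    rw [Sylow.card_eq_multiplicity, hcod, Nat.factorization_mul hp.ne_zero hfpos.ne',
      Finsupp.add_apply, hp.factorization_self, Nat.factorization_eq_zero_of_not_dvd hfnd,
      add_zero, pow_one]
  have hidx : (P : Subgroup G).index = f := by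
    have h := (P : Subgroup G).card_mul_index
    rw [hPcard, hcod] at h
    exact Nat.eq_of_mul_eq_mul_left hp.pos h
  have hone : Nat.card (Sylow p G) = 1 := by
    have h1 := card_sylow_modEq_one p G
    have h2 : Nat.card (Sylow p G) ≤ f := Nat.le_of_dvd hfpos (hidx ▸ P.card_dvd_index)
    have h3 : Nat.card (Sylow p G) % p = 1 := by
      rw [h1, Nat.one_mod_eq_one.2 hp.ne_one]
    rwa [Nat.mod_eq_of_lt (by omega)] at h3
  have hnorm : (P : Subgroup G).Normal := by
    have : Subsingleton (Sylow p G) := (Nat.card_eq_one_iff_unique.1 hone).1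
    exact P.normal_of_subsingleton
  -- a non-trivial constituent of the restriction
  have hres : IsCharacter (P : Subgroup G) (fun w : (P : Subgroup G) => (χ : G → ℂ) w) :=
    CfsgLib.Coherence.isCharacter_comp (IsIrrCharacter.isCharacter χ.2) (P : Subgroup G).subtype
  have : Fintype (IrrCharacter (P : Subgroup G)) := Fintype.ofFinite _
  obtain ⟨mP, hmP⟩ := IsCharacter.exists_sum hres
  obtain ⟨θ, hθm, hθ1⟩ : ∃ θ : IrrCharacter (P : Subgroup G), mP θ ≠ 0 ∧
      θ ≠ trivIrr (P : Subgroup G) := by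
    by_contra hc
    push Not at hc
    have : Nontrivial (P : Subgroup G) := Finite.one_lt_card_iff_nontrivial.1
      (by rw [hPcard]; exact hp.one_lt)
    obtain ⟨z, hz1⟩ := exists_ne (1 : (P : Subgroup G))
    refine hz1 (Subtype.ext (hfaith z ?_))
    have hv : ∀ w : (P : Subgroup G), (χ : G → ℂ) w = (mP (trivIrr (P : Subgroup G)) : ℂ) := fun w => by
      have h := congrFun hmP w
      rw [Finset.sum_apply, Finset.sum_eq_single (trivIrr (P : Subgroup G))] at h
      · simpa [trivIrr_apply] using h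
      · intro ψ _ hψ
        have h0 : mP ψ = 0 := by_contra fun h => hψ (hc ψ h)
        simp [h0]
      · simp
    exact (hv z).trans (hv 1).symm
  obtain ⟨mG, hmG⟩ := IsCharacter.exists_sum
    (isCharacter_indFun (P : Subgroup G) (θ : ↥(P : Subgroup G) → ℂ) (IsIrrCharacter.isCharacter θ.2))
  have hmχ : mG χ ≠ 0 := fun h0 => by
    have e : classInner (indFun (P : Subgroup G) (θ : ↥(P : Subgroup G) → ℂ)) (χ : G → ℂ) =
        (mG χ : ℂ) := by
      rw [hmG]; exact classInner_sum_irr (fun ψ => (mG ψ : ℂ)) χ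
    rw [classInner_indFun _ _ _ (IsIrrCharacter.isClassFunction χ.2), h0, Nat.cast_zero,
      classInner_conj_symm, hmP, classInner_sum_irr (fun ψ => (mP ψ : ℂ)) θ, map_natCast,
      Nat.cast_eq_zero] at e
    exact hθm e
  have hθdeg : (θ : ↥(P : Subgroup G) → ℂ) 1 = 1 := by
    obtain ⟨h1, h2, h3⟩ := CfsgLib.BrauerCharacters.charDegree_spec θ
    rw [hPcard] at h3
    rcases (Nat.dvd_prime hp).1 h3 with h | h
    · rw [h1, h, Nat.cast_one]
    · exfalso
      have h4 := sum_degree_sq (G := (P : Subgroup G))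
      have h5 : ((∑ ψ : IrrCharacter (P : Subgroup G), (charDegree (ψ : ↥(P : Subgroup G) → ℂ)) ^ 2 : ℕ) : ℂ) =
          Nat.card (P : Subgroup G) := by
        rw [← h4]
        push_cast
        exact Finset.sum_congr rfl fun ψ _ => by
          rw [(CfsgLib.BrauerCharacters.charDegree_spec ψ).1]
      have h6 : (charDegree (θ : ↥(P : Subgroup G) → ℂ)) ^ 2 ≤ Nat.card (P : Subgroup G) := by
        rw [← Nat.cast_injective h5]
        exact Finset.single_le_sum (f := fun ψ : IrrCharacter (P : Subgroup G) =>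
          (charDegree (ψ : ↥(P : Subgroup G) → ℂ)) ^ 2) (fun _ _ => Nat.zero_le _) (Finset.mem_univ θ)
      rw [h, hPcard] at h6
      nlinarith [hp.two_le]
  have hind : indFun (P : Subgroup G) (θ : ↥(P : Subgroup G) → ℂ) = (χ : G → ℂ) := by
    have h1 : indFun (P : Subgroup G) (θ : ↥(P : Subgroup G) → ℂ) 1 = (f : ℂ) := by
      rw [indFun_one, hθdeg, hidx, mul_one]
    have h2 : (∑ ψ : IrrCharacter G, mG ψ * charDegree (ψ : G → ℂ)) = f := by
      apply Nat.cast_injective (R := ℂ)
      rw [← h1, hmG]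
      push_cast
      simp only [Finset.sum_apply, Pi.smul_apply, smul_eq_mul,
        ← (CfsgLib.BrauerCharacters.charDegree_spec _).1]
    rw [← Finset.add_sum_erase _ _ (Finset.mem_univ χ), ← hf] at h2
    have h3 : mG χ = 1 := by
      by_contra h
      have h' : 2 * f ≤ mG χ * f := Nat.mul_le_mul_right f (by omega)
      omega
    have h4 : ∀ ψ, ψ ≠ χ → mG ψ = 0 := by
      intro ψ hψ
      by_contra h
      have h5 : 0 < mG ψ * charDegree (ψ : G → ℂ) :=
        Nat.mul_pos (Nat.pos_of_ne_zero h) (CfsgLib.BrauerCharacters.charDegree_spec ψ).2.1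
      have h6 := Finset.single_le_sum (f := fun ψ : IrrCharacter G => mG ψ * charDegree (ψ : G → ℂ))
        (fun _ _ => Nat.zero_le _) (Finset.mem_erase.2 ⟨hψ, Finset.mem_univ ψ⟩)
      rw [h3, one_mul] at h2
      omega
    rw [hmG, Finset.sum_eq_single χ (fun ψ _ hψ => by rw [h4 ψ hψ]; simp) (by simp), h3]
    simp
  have hstab : Nat.card {x : G // conjTwist (P : Subgroup G) x (θ : ↥(P : Subgroup G) → ℂ) =
      (θ : ↥(P : Subgroup G) → ℂ)} = p := by
    have h := CfsgLib.CyclicTI.inner_indFun_irr (P : Subgroup G) θ.2 θ.2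
    rw [hind, classInner_self_of_isIrr χ.2, hPcard, eq_div_iff (Nat.cast_ne_zero.2 hp.ne_zero),
      one_mul] at h
    exact_mod_cast h.symm
  have hCP : Subgroup.centralizer ((P : Subgroup G) : Set G) ≤ (P : Subgroup G) := by
    have hPC : (P : Subgroup G) ≤ Subgroup.centralizer ((P : Subgroup G) : Set G) := by
      have hcy : IsCyclic (P : Subgroup G) := isCyclic_of_prime_card hPcard
      intro a ha
      rw [Subgroup.mem_centralizer_iff]
      intro b hb
      have h : (⟨b, hb⟩ : (P : Subgroup G)) * ⟨a, ha⟩ = ⟨a, ha⟩ * ⟨b, hb⟩ :=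
        (IsCyclic.commGroup (α := (P : Subgroup G))).mul_comm _ _
      exact congrArg Subtype.val h
    have hle : Nat.card (Subgroup.centralizer ((P : Subgroup G) : Set G)) ≤ p := by
      refine le_of_le_of_eq (Nat.card_le_card_of_injective (fun c : Subgroup.centralizer ((P : Subgroup G) : Set G) =>
        (⟨c, ?_⟩ : {x : G // conjTwist (P : Subgroup G) x (θ : ↥(P : Subgroup G) → ℂ) =
          (θ : ↥(P : Subgroup G) → ℂ)}))
        (fun a b h => Subtype.ext (congrArg (fun z : {x : G // _} => (z : G)) h))) hstab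
      funext w
      refine congrArg (θ : ↥(P : Subgroup G) → ℂ) (Subtype.ext ?_)
      show (c : G)⁻¹ * w * c = w
      rw [mul_assoc, Subgroup.mem_centralizer_iff.1 c.2 _ w.2, inv_mul_cancel_left]
    exact (Subgroup.eq_of_le_of_card_ge hPC (hle.trans hPcard.ge)).ge
  have hcop : (Nat.card (P : Subgroup G)).Coprime (P : Subgroup G).index := by
    rw [hPcard, hidx]; exact hp.coprime_iff_not_dvd.2 hfnd
  obtain ⟨H, hH⟩ := Subgroup.exists_right_complement'_of_coprime hcop
  have hHcard : Nat.card H = f := by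
    have h := hH.card_mul
    rw [hPcard, hcod] at h
    exact Nat.eq_of_mul_eq_mul_left hp.pos h
  have hdisj : ∀ x : G, x ∈ (P : Subgroup G) → x ∈ H → x = 1 := fun x h1 h2 =>
    Subgroup.disjoint_def.1 hH.disjoint h1 h2
  have hFC : IsFrobeniusComplement H := by
    refine ⟨fun e => ?_, fun e => ?_, fun g hg => ?_⟩
    · rw [e, Subgroup.card_bot] at hHcard; omega
    · rw [e, Subgroup.card_top, hcod] at hHcard; nlinarith [hp.two_le]
    · obtain ⟨⟨x, h⟩, rfl⟩ := hH.2 g
      refine (Subgroup.eq_bot_iff_forall _).2 fun k hk => ?_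
      obtain ⟨hk1, hk2⟩ := Subgroup.mem_inf.1 hk
      obtain ⟨k', hk', e⟩ := hk2
      have e' : ((x : G) * h) * k' * ((x : G) * h)⁻¹ = k := e
      set k'' := (h : G) * k' * (h : G)⁻¹ with hk''
      have hk''H : k'' ∈ H := H.mul_mem (H.mul_mem h.2 hk') (H.inv_mem h.2)
      have ek : k = (x : G) * k'' * (x : G)⁻¹ := by rw [← e', hk'']; group
      have hP : k * k''⁻¹ ∈ (P : Subgroup G) := by
        rw [ek, show (x : G) * k'' * (x : G)⁻¹ * k''⁻¹ = (x : G) * (k'' * (x : G)⁻¹ * k''⁻¹) by group]
        exact mul_mem x.2 (hnorm.conj_mem _ (inv_mem x.2) _)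
      have hkk : k = k'' :=
        mul_inv_eq_one.1 (hdisj _ hP (H.mul_mem hk1 (H.inv_mem hk''H)))
      rw [← hkk] at ek
      have hkx : k * x = x * k := by
        calc k * x = ((x : G) * k * (x : G)⁻¹) * x := by rw [← ek]
          _ = x * k := by group
      by_contra hk0
      have hx1 : (x : G) ≠ 1 := fun h0 => hg (by
        show (x : G) * h ∈ H
        rw [h0, one_mul]; exact h.2)
      have hgen : Subgroup.zpowers (⟨x, x.2⟩ : (P : Subgroup G)) = ⊤ :=
        zpowers_eq_top_of_prime_card hPcard (fun h0 => hx1 (congrArg Subtype.val h0))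
      refine hk0 (hdisj k (hCP ?_) hk1)
      rw [Subgroup.mem_centralizer_iff]
      intro b hb
      obtain ⟨i, hi⟩ := Subgroup.mem_zpowers_iff.1 (hgen ▸ Subgroup.mem_top (⟨b, hb⟩ : (P : Subgroup G)))
      have hb' : (x : G) ^ i = b := congrArg Subtype.val hi
      rw [← hb']
      exact ((show Commute k (x : G) from hkx).zpow_right i).eq.symm
  refine ⟨H, hFC, ?_⟩
  rw [card_kernel hFC]
  have h := H.index_mul_card
  rw [hHcard, hcod] at h
  exact Nat.eq_of_mul_eq_mul_right hfpos h

end Cfsg.Agent.S4796
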