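import Cfsg.Statements.S4797
import Cfsg.Agent.Lib.Correspondences.Codegree
import Cfsg.Agent.Lib.Correspondences.PrimeDegree
-- import your own Cfsg.Agent.* helpers here

set_option autoImplicit false
open Cfsg

namespace Cfsg.Agent.S4797

/-- A finite group of order `p * d` with `d < p` is not perfect. -/
theorem not_perfect {H : Type*} [Group H] [Finite H] {p d : ℕ} [hp : Fact p.Prime]
    (hcard : Nat.card H = p * d) (hdp : d < p) (hperf : commutator H = ⊤) : False := by
  have hd0 : 0 < d := by
    rcases Nat.eq_zero_or_pos d with rfl | h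
    · rw [mul_zero] at hcard; exact absurd hcard Nat.card_pos.ne'
    · exact h
  obtain ⟨P⟩ := (Sylow.nonempty : Nonempty (Sylow p H))
  have hcop : p.Coprime d :=
    hp.out.coprime_iff_not_dvd.2 fun h => (Nat.le_of_dvd hd0 h).not_gt hdp
  have hPcard : Nat.card (P : Subgroup H) = p := by
    rw [Sylow.card_eq_multiplicity, hcard, Nat.factorization_mul hp.out.ne_zero hd0.ne',
      Finsupp.add_apply, Nat.Prime.factorization_self hp.out,
      Nat.factorization_eq_zero_of_not_dvd (hp.out.coprime_iff_not_dvd.1 hcop), add_zero, pow_one]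
  have hidx : (P : Subgroup H).index = d := by
    have := Subgroup.card_mul_index (P : Subgroup H)
    rw [hPcard, hcard] at this
    exact Nat.eq_of_mul_eq_mul_left hp.out.pos this
  have hone : Nat.card (Sylow p H) = 1 := by
    have h1 : Nat.card (Sylow p H) ∣ d := hidx ▸ P.card_dvd_index
    have h2 := card_sylow_modEq_one p H
    have h3 := Nat.le_of_dvd hd0 h1
    rw [Nat.ModEq, Nat.mod_eq_of_lt (lt_of_le_of_lt h3 hdp), Nat.mod_eq_of_lt hp.out.one_lt] at h2
    exact h2
  haveI : Subsingleton (Sylow p H) := (Nat.card_eq_one_iff_unique.1 hone).1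
  haveI hPn : (P : Subgroup H).Normal := P.normal_of_subsingleton
  haveI : IsCyclic (P : Subgroup H) := isCyclic_of_prime_card hPcard
  set φ : H →* MulAut (P : Subgroup H) := MulAut.conjNormal with hφ
  have hker : commutator H ≤ φ.ker := by
    rw [commutator_def, Subgroup.commutator_le]
    intro a _ b _
    have hc : φ a * φ b = φ b * φ a :=
      (IsCyclic.mulAutMulEquiv (G := (P : Subgroup H))).injective (by simp [mul_comm])
    show φ (a * b * a⁻¹ * b⁻¹) = 1
    rw [map_mul, map_mul, map_mul, map_inv, map_inv, hc]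
    group
  rw [hperf, top_le_iff] at hker
  have hcentral : ∀ z ∈ (P : Subgroup H), ∀ g : H, g * z = z * g := by
    intro z hz g
    have h1 : φ g = 1 := by
      have : g ∈ φ.ker := hker ▸ Subgroup.mem_top g
      exact this
    have h2 := congrArg (fun e : MulAut (P : Subgroup H) => ((e ⟨z, hz⟩ : (P : Subgroup H)) : H)) h1
    simp only [hφ, MulAut.conjNormal_apply, MulAut.one_apply] at h2
    exact mul_inv_eq_iff_eq_mul.1 h2
  obtain ⟨Q, hQ⟩ := Subgroup.exists_right_complement'_of_coprime
    (N := (P : Subgroup H)) (by rw [hPcard, hidx]; exact hcop)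
  haveI hQn : Q.Normal := by
    refine ⟨fun q hq g => ?_⟩
    have hg : g ∈ (P : Subgroup H) ⊔ Q := hQ.sup_eq_top ▸ Subgroup.mem_top g
    obtain ⟨z, hz, r, hr, rfl⟩ := Subgroup.mem_sup_of_normal_left.1 hg
    have h1 : z * r * q * (z * r)⁻¹ = r * q * r⁻¹ := by
      rw [mul_inv_rev]
      calc z * r * q * (r⁻¹ * z⁻¹) = z * (r * q * r⁻¹) * z⁻¹ := by group
        _ = r * q * r⁻¹ := by rw [← hcentral z hz (r * q * r⁻¹)]; group
    rw [h1]
    exact mul_mem (mul_mem hr hq) (inv_mem hr)
  have hQtop : Q = ⊤ := by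
    rw [eq_top_iff, ← hperf, commutator_def, Subgroup.commutator_le]
    intro a _ b _
    rw [← QuotientGroup.eq_one_iff]
    have hsurj : ∀ x : H, ∃ z ∈ (P : Subgroup H), (x : H ⧸ Q) = (z : H ⧸ Q) := fun x => by
      have hx : x ∈ (P : Subgroup H) ⊔ Q := hQ.sup_eq_top ▸ Subgroup.mem_top x
      obtain ⟨z, hz, r, hr, rfl⟩ := Subgroup.mem_sup_of_normal_left.1 hx
      exact ⟨z, hz, by simp [(QuotientGroup.eq_one_iff r).2 hr]⟩
    obtain ⟨z, hz, ha⟩ := hsurj a
    obtain ⟨w, -, hb⟩ := hsurj b
    show ((a * b * a⁻¹ * b⁻¹ : H) : H ⧸ Q) = 1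
    simp only [QuotientGroup.mk_mul, QuotientGroup.mk_inv, ha, hb]
    have hwz : ((w : H) : H ⧸ Q) * (z : H ⧸ Q) = (z : H ⧸ Q) * (w : H ⧸ Q) := by
      rw [← QuotientGroup.mk_mul, hcentral z hz w, QuotientGroup.mk_mul]
    rw [← hwz]; group
  have h := hQ.card_mul_card
  rw [hPcard, hQtop, Subgroup.card_top] at h
  nlinarith [Nat.card_pos (α := H), hp.out.one_lt]

/-- The codegree of an irreducible complex character χ of a finite group G is [G : ker χ] / χ(1), where ker χ is the set of elements at which χ takes the value χ(1). A non-trivial finite group is perfect if and only if no irreducible complex character of it has prime codegree. -/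
theorem result {G : Type*} [Group G] [Finite G] [Nontrivial G] : commutator G = ⊤ ↔ ∀ χ : Cfsg.IrrCharacter G, ¬ ((Nat.card G / (Nat.card {g : G // (χ : G → ℂ) g = (χ : G → ℂ) 1} * Cfsg.charDegree (χ : G → ℂ)))).Prime := by
  classical
  constructor
  · intro hperf χ hprime
    set p := Nat.card G / (Nat.card {g : G // (χ : G → ℂ) g = (χ : G → ℂ) 1} *
      Cfsg.charDegree (χ : G → ℂ)) with hp
    haveI : Fact p.Prime := ⟨hprime⟩
    have hdvd := CfsgLib.Correspondences.card_ker_mul_charDegree_dvd χ.2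
    have hc := CfsgLib.CharTheory.IsIrrCharacter.isCharacter χ.2
    haveI := CfsgLib.Correspondences.charKer_normal hc
    set K := CfsgLib.Correspondences.charKer hc with hK
    set d := Cfsg.charDegree (χ : G → ℂ) with hd
    rw [CfsgLib.Correspondences.card_charKer hc] at hp hdvd
    have hd0 : 0 < d := CfsgLib.Correspondences.charDegree_pos χ.2
    have hcard : Nat.card (G ⧸ K) = p * d := by
      have h1 := Nat.div_mul_cancel hdvd
      rw [← hp, Subgroup.card_eq_card_quotient_mul_card_subgroup K] at h1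
      have h2 : Nat.card (G ⧸ K) * Nat.card K = p * d * Nat.card K := by rw [← h1]; ring
      exact Nat.eq_of_mul_eq_mul_right Nat.card_pos h2
    refine not_perfect hcard ?_ ?_
    · obtain ⟨ψ, hψ⟩ := CfsgLib.Correspondences.exists_deflate χ.2 K (fun x hx => hx)
      have hψd : Cfsg.charDegree (ψ : G ⧸ K → ℂ) = d := by
        rw [Cfsg.charDegree, hd, Cfsg.charDegree, ← hψ 1, map_one]
      haveI := Fintype.ofFinite (Cfsg.IrrCharacter (G ⧸ K))
      have hsum := CfsgLib.Correspondences.sum_charDegree_sq (G := G ⧸ K)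
      have hne : ψ ≠ CfsgLib.CharTheory.trivIrr (G ⧸ K) := by
        intro e
        have htop : K = ⊤ := by
          rw [eq_top_iff]
          intro g _
          show (χ : G → ℂ) g = (χ : G → ℂ) 1
          rw [← hψ, ← hψ, e]
          rfl
        have : Nat.card (G ⧸ K) = 1 := by
          rw [← Subgroup.index_eq_card, htop, Subgroup.index_top]
        rw [this] at hcard
        exact hprime.ne_one (mul_eq_one.1 hcard.symm).1
      have h2 := Finset.sum_le_sum_of_subset
        (f := fun φ : Cfsg.IrrCharacter (G ⧸ K) => Cfsg.charDegree (φ : G ⧸ K → ℂ) ^ 2)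
        (Finset.subset_univ ({ψ, CfsgLib.CharTheory.trivIrr (G ⧸ K)} : Finset _))
      have ht : Cfsg.charDegree ((CfsgLib.CharTheory.trivIrr (G ⧸ K) :
          Cfsg.IrrCharacter (G ⧸ K)) : G ⧸ K → ℂ) = 1 := by
        simp [Cfsg.charDegree, CfsgLib.CharTheory.trivIrr_apply]
      rw [hsum, hcard, Finset.sum_pair hne, hψd, ht] at h2
      nlinarith
    · rw [commutator_def, ← Subgroup.map_top_of_surjective _ (QuotientGroup.mk'_surjective K),
        ← Subgroup.map_commutator, ← commutator_def, hperf]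
  · intro hall
    by_contra hperf
    obtain ⟨g, hg⟩ : ∃ g : G, g ∉ commutator G := by
      by_contra h
      push Not at h
      exact hperf (eq_top_iff.2 fun x _ => h x)
    have hg' : Abelianization.of g ≠ 1 := fun h => hg ((QuotientGroup.eq_one_iff g).1 h)
    obtain ⟨φ₀, hφ₀⟩ :=
      CommGroup.exists_apply_ne_one_of_hasEnoughRootsOfUnity (Abelianization G) ℂ hg'
    set φ : G →* ℂˣ := φ₀.comp Abelianization.of with hφ
    have hφ1 : φ ≠ 1 := fun h => hφ₀ (DFunLike.congr_fun h g)
    have hfin : φ ^ Nat.card G = 1 := MonoidHom.ext fun x => by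
      rw [MonoidHom.pow_apply, ← map_pow, pow_card_eq_one', map_one, MonoidHom.one_apply]
    have hord : orderOf φ ≠ 1 := fun h => hφ1 (orderOf_eq_one_iff.1 h)
    obtain ⟨p, hp, hpd⟩ := Nat.exists_prime_and_dvd hord
    have hord0 : orderOf φ ≠ 0 := fun h =>
      Nat.card_pos.ne' (Nat.eq_zero_of_zero_dvd (h ▸ orderOf_dvd_of_pow_eq_one hfin))
    set ψ : G →* ℂˣ := φ ^ (orderOf φ / p) with hψ
    have hψo : orderOf ψ = p := orderOf_pow_orderOf_div hord0 hpd
    have hψp : ∀ x, ψ x ^ p = 1 := fun x => by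
      rw [← MonoidHom.pow_apply, ← hψo, pow_orderOf_eq_one, MonoidHom.one_apply]
    haveI : NeZero p := ⟨hp.ne_zero⟩
    have hle : ψ.range ≤ rootsOfUnity p ℂ := by
      rintro _ ⟨x, rfl⟩
      exact (mem_rootsOfUnity p _).2 (hψp x)
    have hdvd := Subgroup.card_dvd_of_le hle
    rw [Complex.card_rootsOfUnity, Nat.dvd_prime hp] at hdvd
    have hrange : Nat.card ψ.range = p := hdvd.resolve_left fun h => by
      have h' := Subgroup.eq_bot_of_card_eq _ h
      rw [MonoidHom.range_eq_bot_iff] at h'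
      rw [h', orderOf_one] at hψo
      exact hp.ne_one hψo.symm
    refine hall ⟨_, CfsgLib.Correspondences.isIrrCharacter_hom ψ⟩ ?_
    have hcard : Nat.card {x : G // (ψ x : ℂ) = (ψ 1 : ℂ)} = Nat.card ψ.ker :=
      Nat.card_congr (Equiv.subtypeEquivRight fun x => by
        rw [MonoidHom.mem_ker, map_one, Units.val_inj])
    have hdeg : Cfsg.charDegree (fun x => (ψ x : ℂ)) = 1 := by simp [Cfsg.charDegree]
    show (Nat.card G / (Nat.card {x : G // (ψ x : ℂ) = (ψ 1 : ℂ)} *
      Cfsg.charDegree (fun x => (ψ x : ℂ)))).Prime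
    rw [hcard, hdeg, mul_one, ← Subgroup.card_mul_index ψ.ker, Nat.mul_div_cancel_left _ Nat.card_pos,
      Subgroup.index_ker, hrange]
    exact hp

end Cfsg.Agent.S4797
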