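import Cfsg.Statements.S4798
import Cfsg.Agent.Lib.Correspondences.Codegree
import Cfsg.Agent.Lib.Frobenius.Induce
open CfsgLib.CharTheory CfsgLib.Frobenius CfsgLib.Correspondences

set_option linter.style.haveILetI false

set_option autoImplicit false
open Cfsg

namespace Cfsg.Agent.S4798

/-- Let p be a prime and χ a faithful irreducible complex character of the finite group G (χ(g) = χ(1) only for g = 1), so that its codegree is #G / χ(1). Then #G / χ(1) is a power of p if and only if χ is induced from a character of a Sylow p-subgroup of G. -/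
theorem result {G : Type*} [Group G] [Fintype G] (p : ℕ) [Fact p.Prime] (χ : Cfsg.IrrCharacter G) (hfaith : ∀ g : G, (χ : G → ℂ) g = (χ : G → ℂ) 1 → g = 1) : (∃ k : ℕ, Nat.card G = p ^ k * Cfsg.charDegree (χ : G → ℂ)) ↔ ∃ (P : Sylow p G) (θ : ↥(P : Subgroup G) → ℂ), Cfsg.IsCharacter ↥(P : Subgroup G) θ ∧ (χ : G → ℂ) = Cfsg.indFun (P : Subgroup G) θ := by
  classical
  have hp : p.Prime := Fact.out
  have hχd := charDegree_cast (IsIrrCharacter.isCharacter χ.2)
  constructor
  · rintro ⟨k, hk⟩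
    obtain ⟨P⟩ : Nonempty (Sylow p G) := inferInstance
    haveI := Fintype.ofFinite (P : Subgroup G)
    haveI := Fintype.ofFinite (IrrCharacter (P : Subgroup G))
    haveI := Fintype.ofFinite (IrrCharacter G)
    set m := (P : Subgroup G).index with hm
    obtain ⟨n, hn⟩ := IsPGroup.iff_card.1 P.2
    have hG : Nat.card G = p ^ n * m := by rw [← hn, hm, Subgroup.card_mul_index]
    have hmd : m ∣ charDegree (χ : G → ℂ) :=
      ((hp.coprime_iff_not_dvd.2 P.not_dvd_index).pow_left k).symm.dvd_of_dvd_mul_left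
        (hk ▸ hG ▸ dvd_mul_left m (p ^ n))
    obtain ⟨a, ha⟩ := hmd
    have hm0 : 0 < m := Nat.pos_of_ne_zero Subgroup.index_ne_zero_of_finite
    have hka : p ^ n = p ^ k * a :=
      Nat.eq_of_mul_eq_mul_right hm0 (by rw [← hG, hk, ha]; ring)
    obtain ⟨j, -, hj⟩ := (Nat.dvd_prime_pow hp).1 (Dvd.intro_left _ hka.symm)
    obtain ⟨c, hc⟩ := IsCharacter.exists_sum
      (CfsgLib.Coherence.isCharacter_comp (IsIrrCharacter.isCharacter χ.2) (P : Subgroup G).subtype)
    have hsum : m * p ^ j = ∑ θ, c θ * charDegree (θ : ↥(P : Subgroup G) → ℂ) := by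
      have h1 := congrFun hc 1
      simp only [Finset.sum_apply, Pi.smul_apply, smul_eq_mul, map_one] at h1
      have h2 : ((m * p ^ j : ℕ) : ℂ) = ((∑ θ, c θ * charDegree (θ : ↥(P : Subgroup G) → ℂ) : ℕ) : ℂ) := by
        rw [← hj, ← ha, hχd, h1, Nat.cast_sum]
        exact Finset.sum_congr rfl fun θ _ => by
          rw [Nat.cast_mul, charDegree_cast (IsIrrCharacter.isCharacter θ.2)]
      exact_mod_cast h2
    obtain ⟨θ, hc0, hle⟩ : ∃ θ, c θ ≠ 0 ∧ charDegree (θ : ↥(P : Subgroup G) → ℂ) ≤ p ^ j := by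
      by_contra h
      push Not at h
      have hdvd : p ^ (j + 1) ∣ m * p ^ j := by
        rw [hsum]
        refine Finset.dvd_sum fun θ _ => ?_
        by_cases h0 : c θ = 0
        · simp [h0]
        · obtain ⟨i, -, hi⟩ := (Nat.dvd_prime_pow hp).1 (hn ▸ charDegree_dvd_card θ.2)
          have hji : j < i := (Nat.pow_lt_pow_iff_right hp.one_lt).1 (hi ▸ h θ h0)
          exact dvd_mul_of_dvd_right (hi ▸ pow_dvd_pow p hji) _
      rw [pow_succ', Nat.mul_dvd_mul_iff_right (pow_pos hp.pos _)] at hdvd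
      exact P.not_dvd_index hdvd
    have hθc := IsIrrCharacter.isCharacter θ.2
    refine ⟨P, θ, hθc, ?_⟩
    obtain ⟨d, hd⟩ := IsCharacter.exists_sum (isCharacter_indFun (P : Subgroup G) _ hθc)
    have hdχ : d χ ≠ 0 := by
      intro h0
      have e : Cfsg.classInner (Cfsg.indFun (P : Subgroup G) (θ : ↥(P : Subgroup G) → ℂ)) (χ : G → ℂ) =
          (d χ : ℂ) := by rw [hd]; exact classInner_sum_irr _ χ
      rw [classInner_indFun _ _ _ (IsIrrCharacter.isClassFunction χ.2), classInner_conj_symm, h0,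
        Nat.cast_zero, map_eq_zero] at e
      have e2 : Cfsg.classInner (fun u : (P : Subgroup G) => (χ : G → ℂ) u) (θ : ↥(P : Subgroup G) → ℂ) = (c θ : ℂ) := by
        rw [show (fun u : (P : Subgroup G) => (χ : G → ℂ) u) = ∑ η, (c η : ℂ) • (η : ↥(P : Subgroup G) → ℂ) from hc]
        exact classInner_sum_irr _ θ
      rw [e2, Nat.cast_eq_zero] at e
      exact hc0 e
    have hdeg : m * charDegree (θ : ↥(P : Subgroup G) → ℂ) = ∑ ψ, d ψ * charDegree (ψ : G → ℂ) := by
      have h1 := congrFun hd 1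
      rw [indFun_one] at h1
      simp only [Finset.sum_apply, Pi.smul_apply, smul_eq_mul] at h1
      have h2 : ((m * charDegree (θ : ↥(P : Subgroup G) → ℂ) : ℕ) : ℂ) =
          ((∑ ψ, d ψ * charDegree (ψ : G → ℂ) : ℕ) : ℂ) := by
        rw [Nat.cast_mul, charDegree_cast hθc, h1, Nat.cast_sum]
        exact Finset.sum_congr rfl fun ψ _ => by
          rw [Nat.cast_mul, charDegree_cast (IsIrrCharacter.isCharacter ψ.2)]
      exact_mod_cast h2
    rw [← Finset.add_sum_erase _ _ (Finset.mem_univ χ)] at hdeg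
    have hge : charDegree (χ : G → ℂ) ≤ d χ * charDegree (χ : G → ℂ) :=
      Nat.le_mul_of_pos_left _ (Nat.pos_of_ne_zero hdχ)
    have hle' : m * charDegree (θ : ↥(P : Subgroup G) → ℂ) ≤ charDegree (χ : G → ℂ) := by
      rw [ha, hj]; exact Nat.mul_le_mul_left _ hle
    have hone : d χ = 1 :=
      Nat.eq_of_mul_eq_mul_right (charDegree_pos χ.2) (by rw [one_mul]; omega)
    have hrest : ∑ ψ ∈ Finset.univ.erase χ, d ψ * charDegree (ψ : G → ℂ) = 0 := by omega
    rw [hd, Finset.sum_eq_single χ (fun ψ _ hne => ?_) (fun h => absurd (Finset.mem_univ χ) h), hone,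
      Nat.cast_one, one_smul]
    rcases Nat.mul_eq_zero.1 (Finset.sum_eq_zero_iff.1 hrest ψ
        (Finset.mem_erase.2 ⟨hne, Finset.mem_univ ψ⟩)) with h | h
    · simp [h]
    · exact absurd h (charDegree_pos ψ.2).ne'
  · rintro ⟨P, θ, hθ, hind⟩
    obtain ⟨n, hn⟩ := IsPGroup.iff_card.1 P.2
    have hd : charDegree (χ : G → ℂ) = (P : Subgroup G).index * charDegree θ := by
      have h := hχd
      rw [hind, indFun_one, ← charDegree_cast hθ, ← Nat.cast_mul, Nat.cast_inj] at h
      rw [← h, ← hind]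
    have hdvd := charDegree_dvd_card χ.2
    rw [hd, ← Subgroup.card_mul_index (P : Subgroup G), hn, mul_comm (p ^ n)] at hdvd
    obtain ⟨j, hjn, hj⟩ := (Nat.dvd_prime_pow hp).1
      (Nat.dvd_of_mul_dvd_mul_left (Nat.pos_of_ne_zero Subgroup.index_ne_zero_of_finite) hdvd)
    refine ⟨n - j, ?_⟩
    rw [hd, hj, ← Subgroup.card_mul_index (P : Subgroup G), hn]
    conv_lhs => rw [← Nat.sub_add_cancel hjn, pow_add]
    ring

end Cfsg.Agent.S4798
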