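import Cfsg.Statements.S4801
import Cfsg.Agent.Lib.Correspondences.Codegree
-- import your own Cfsg.Agent.* helpers here

set_option autoImplicit false
open Cfsg

namespace Cfsg.Agent.S4801

/-- The codegree of an irreducible complex character χ of a finite group G is [G : ker χ] / χ(1), where ker χ is the set of elements at which χ takes the value χ(1). Let S be a finite simple group and G a finite group such that every codegree of an irreducible character of S is a codegree of an irreducible character of G. Then the order of S divides the order of G. -/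
theorem result {S : Type*} [Group S] [Finite S] (hS : IsSimpleGroup S) {G : Type*} [Group G] [Finite G] (hsub : ∀ χ : Cfsg.IrrCharacter S, ∃ ψ : Cfsg.IrrCharacter G, (Nat.card S / (Nat.card {g : S // (χ : S → ℂ) g = (χ : S → ℂ) 1} * Cfsg.charDegree (χ : S → ℂ))) = (Nat.card G / (Nat.card {g : G // (ψ : G → ℂ) g = (ψ : G → ℂ) 1} * Cfsg.charDegree (ψ : G → ℂ)))) : Nat.card S ∣ Nat.card G := by
  rw [Nat.dvd_iff_prime_pow_dvd_dvd]
  intro r k hr hrk
  rcases Nat.eq_zero_or_pos k with rfl | hk
  · simp
  haveI : Fact r.Prime := ⟨hr⟩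
  obtain ⟨χ, hχ1, hχ⟩ := CfsgLib.Correspondences.exists_ne_trivIrr_not_dvd hr
    ((dvd_pow_self r hk.ne').trans hrk)
  have hc := CfsgLib.CharTheory.IsIrrCharacter.isCharacter χ.2
  haveI := CfsgLib.Correspondences.charKer_normal hc
  have hker : Nat.card {g : S // (χ : S → ℂ) g = (χ : S → ℂ) 1} = 1 := by
    rw [CfsgLib.Correspondences.card_charKer hc]
    rcases hS.eq_bot_or_eq_top_of_normal (CfsgLib.Correspondences.charKer hc)
      (CfsgLib.Correspondences.charKer_normal hc) with h | h
    · rw [h, Subgroup.card_bot]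
    · exfalso
      apply hχ1
      have hall : ∀ g, (χ : S → ℂ) g = (χ : S → ℂ) 1 := fun g => by
        have : g ∈ CfsgLib.Correspondences.charKer hc := h ▸ Subgroup.mem_top g
        exact this
      haveI := Fintype.ofFinite S
      obtain ⟨n, -, hn⟩ := CfsgLib.CharTheory.exists_degree_of_isIrr χ.2
      have h1 := CfsgLib.CharTheory.classInner_self_of_isIrr χ.2
      rw [Cfsg.classInner] at h1
      simp only [hall, hn, Complex.conj_natCast, Finset.sum_const, Finset.card_univ, nsmul_eq_mul,
        ← Nat.card_eq_fintype_card (α := S)] at h1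
      rw [← mul_assoc, inv_mul_cancel₀ (Nat.cast_ne_zero.2 Nat.card_pos.ne'), one_mul,
        ← Nat.cast_mul, Nat.cast_eq_one, mul_eq_one] at h1
      exact Subtype.ext (funext fun g => by
        rw [hall, hn, h1.1, CfsgLib.CharTheory.trivIrr_apply, Nat.cast_one])
  obtain ⟨ψ, hψ⟩ := hsub χ
  rw [hker, one_mul] at hψ
  refine dvd_trans ?_ (hψ ▸ CfsgLib.Correspondences.codegree_dvd_card ψ.2)
  rw [Nat.dvd_div_iff_mul_dvd (CfsgLib.Correspondences.charDegree_dvd_card χ.2)]
  exact Nat.Coprime.mul_dvd_of_dvd_of_dvd (((hr.coprime_iff_not_dvd.2 hχ).pow_left k).symm)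
    (CfsgLib.Correspondences.charDegree_dvd_card χ.2) hrk

end Cfsg.Agent.S4801
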