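import Cfsg.Statements.S4802
import Cfsg.Agent.Lib.CharTheory.Orthogonality
import Cfsg.Agent.Lib.Correspondences.CharKer
-- import your own Cfsg.Agent.* helpers here

set_option autoImplicit false
open Cfsg

namespace Cfsg.Agent.S4802

/-- Let N < M be normal subgroups of the finite group G and g ∈ M ∖ N. Then the conjugacy class of g is exactly M ∖ N if and only if every irreducible complex character of G whose kernel contains N takes the same value at all elements of M ∖ N, and every irreducible complex character of G whose kernel does not contain N vanishes at g. -/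
theorem result {G : Type*} [Group G] [Finite G] (N M : Subgroup G) [N.Normal] [M.Normal] (hNM : N < M) (g : G) (hgM : g ∈ M) (hgN : g ∉ N) : {h : G | IsConj g h} = (M : Set G) \ (N : Set G) ↔ ((∀ χ : Cfsg.IrrCharacter G, (∀ x ∈ N, (χ : G → ℂ) x = (χ : G → ℂ) 1) → ∀ x ∈ M, x ∉ N → ∀ y ∈ M, y ∉ N → (χ : G → ℂ) x = (χ : G → ℂ) y) ∧ (∀ χ : Cfsg.IrrCharacter G, (∃ x ∈ N, (χ : G → ℂ) x ≠ (χ : G → ℂ) 1) → (χ : G → ℂ) g = 0)) := by
  classical
  haveI := Fintype.ofFinite G
  haveI := Fintype.ofFinite N
  haveI := Fintype.ofFinite (IrrCharacter G)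
  have hM : M.Normal := inferInstance
  have hN : N.Normal := inferInstance
  constructor
  · intro h
    have hc : ∀ x ∈ M, x ∉ N → IsConj g x := fun x hx hxN => by
      have : x ∈ {h : G | IsConj g h} := h ▸ ⟨hx, hxN⟩
      exact this
    refine ⟨fun χ _ x hx hxN y hy hyN =>
      CfsgLib.CharTheory.irr_apply_eq_of_isConj ((hc x hx hxN).symm.trans (hc y hy hyN)) χ,
      fun χ hχ => ?_⟩
    have hsum := CfsgLib.Correspondences.sum_coset_eq_zero χ.2 N hχ g
    have he : ∀ n : N, (χ : G → ℂ) (g * n) = (χ : G → ℂ) g := fun n => by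
      refine (CfsgLib.CharTheory.irr_apply_eq_of_isConj (hc _ (mul_mem hgM (hNM.le n.2)) ?_) χ).symm
      exact fun hm => hgN ((N.mul_mem_cancel_right n.2).1 hm)
    simp only [he, Finset.sum_const, Finset.card_univ, nsmul_eq_mul, mul_eq_zero,
      Nat.cast_eq_zero, Fintype.card_ne_zero, false_or] at hsum
    exact hsum
  · rintro ⟨h1, h2⟩
    refine Set.Subset.antisymm (fun x hx => ?_) fun x hx => ?_
    · obtain ⟨c, rfl⟩ := isConj_iff.1 hx
      refine ⟨hM.conj_mem g hgM c, fun hm => hgN ?_⟩
      have := hN.conj_mem _ hm c⁻¹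
      simpa [mul_assoc] using this
    · show IsConj g x
      by_contra hne
      have e1 := CfsgLib.CharTheory.sum_mul_conj g x
      have e2 := CfsgLib.CharTheory.sum_mul_conj g g
      rw [if_neg hne] at e1
      rw [if_pos (IsConj.refl g)] at e2
      have : ∀ χ : IrrCharacter G, (χ : G → ℂ) g * (starRingEnd ℂ) ((χ : G → ℂ) x) =
          (χ : G → ℂ) g * (starRingEnd ℂ) ((χ : G → ℂ) g) := by
        intro χ
        by_cases hk : ∃ z ∈ N, (χ : G → ℂ) z ≠ (χ : G → ℂ) 1
        · simp [h2 χ hk]
        · push Not at hk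
          rw [h1 χ hk x hx.1 hx.2 g hgM hgN]
      rw [Finset.sum_congr rfl (fun χ _ => this χ), e2, Nat.cast_eq_zero] at e1
      exact Nat.card_pos.ne' e1

end Cfsg.Agent.S4802
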