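import Cfsg.Statements.S4805
import Cfsg.Agent.Lib.SeenOnce.Group
import Cfsg.Agent.Lib.CharTheory.Linear
import Cfsg.Agent.Lib.CharTheory.Inflation

set_option autoImplicit false
open Cfsg

namespace Cfsg.Agent.S4805

set_option linter.style.haveILetI false
open scoped commutatorElement

/-- Let G be a finite group, g an element outside the centre of G, and χ an irreducible complex character of degree greater than one with χ(g) ≠ 0 such that every other irreducible character of degree greater than one vanishes at g. Then g lies in the derived subgroup G′ and χ(g) = −[G : G′]/χ(1); G′ is the union of the kernel of χ (the elements where χ takes the value χ(1)) and the conjugacy class of g, and χ vanishes outside G′; every irreducible character of degree greater than one whose kernel contains that of χ equals χ; and G is solvable. -/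
theorem result {G : Type*} [Group G] [Finite G] (g : G) (hg : g ∉ Subgroup.center G) (χ : Cfsg.IrrCharacter G) (hχ1 : Cfsg.charDegree (χ : G → ℂ) ≠ 1) (hχg : (χ : G → ℂ) g ≠ 0) (hother : ∀ ψ : Cfsg.IrrCharacter G, Cfsg.charDegree (ψ : G → ℂ) ≠ 1 → ψ ≠ χ → (ψ : G → ℂ) g = 0) : g ∈ commutator G ∧ (χ : G → ℂ) g = -(((commutator G).index : ℂ) / (χ : G → ℂ) 1) ∧ ((commutator G : Set G) = {x : G | (χ : G → ℂ) x = (χ : G → ℂ) 1} ∪ {h : G | IsConj g h}) ∧ (∀ x : G, x ∉ commutator G → (χ : G → ℂ) x = 0) ∧ (∀ ψ : Cfsg.IrrCharacter G, Cfsg.charDegree (ψ : G → ℂ) ≠ 1 → (∀ x : G, (χ : G → ℂ) x = (χ : G → ℂ) 1 → (ψ : G → ℂ) x = (ψ : G → ℂ) 1) → ψ = χ) ∧ Group.IsSolvable G := by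
  classical
  haveI := Fintype.ofFinite G
  haveI : Finite (Cfsg.IrrCharacter G) := inferInstance
  haveI := Fintype.ofFinite (Cfsg.IrrCharacter G)
  set L := commutator G with hLdef
  set n := L.index with hn
  have hn0 : (n : ℂ) ≠ 0 := Nat.cast_ne_zero.2 Subgroup.index_ne_zero_of_finite
  obtain ⟨d, hd⟩ : ∃ d : ℕ, (χ : G → ℂ) 1 = d :=
    CfsgLib.CharTheory.exists_degree_of_isCharacter
      (CfsgLib.CharTheory.IsIrrCharacter.isCharacter χ.2)
  have hdeg : ∀ (ψ : Cfsg.IrrCharacter G), (ψ : G → ℂ) 1 = 1 ↔ Cfsg.charDegree (ψ : G → ℂ) = 1 := by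
    intro ψ
    obtain ⟨e, he⟩ := CfsgLib.CharTheory.exists_degree_of_isCharacter
      (CfsgLib.CharTheory.IsIrrCharacter.isCharacter ψ.2)
    rw [Cfsg.charDegree, he, Complex.natCast_re, Nat.floor_natCast]
    exact Nat.cast_eq_one
  have hd1 : d ≠ 1 := fun h => hχ1 ((hdeg χ).1 (by rw [hd, h, Nat.cast_one]))
  have hd0 : (d : ℂ) ≠ 0 := hd ▸ CfsgLib.CharTheory.apply_one_ne_zero_of_isIrr χ.2
  set Lin : Finset (Cfsg.IrrCharacter G) := Finset.univ.filter fun ψ => (ψ : G → ℂ) 1 = 1
  have hLinmem : ∀ ψ, ψ ∈ Lin ↔ (ψ : G → ℂ) 1 = 1 := fun ψ => by simp [Lin]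
  have hLinL : ∀ ψ ∈ Lin, ∀ x ∈ L, (ψ : G → ℂ) x = 1 := by
    intro ψ hψ x hx
    obtain ⟨μ, hμ⟩ := CfsgLib.CharTheory.exists_hom_of_degree_one ψ.2 ((hLinmem ψ).1 hψ)
    have hx1 : μ x = 1 := Abelianization.commutator_subset_ker μ hx
    have h2 := congrFun hμ x
    rw [h2, hx1, Units.val_one]
  have hLinCard : Lin.card = n := by
    rw [hn, hLdef, ← CfsgLib.CharTheory.card_linear, Nat.card_eq_fintype_card, Fintype.card_subtype]
  have hlin : ∀ x, ∑ ψ ∈ Lin, (ψ : G → ℂ) x = if x ∈ L then (n : ℂ) else 0 := by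
    intro x
    split_ifs with hx
    · rw [Finset.sum_congr rfl fun ψ hψ => hLinL ψ hψ x hx, Finset.sum_const, hLinCard]
      simp
    · haveI : Finite (Abelianization G) := Quotient.finite _
      haveI : HasEnoughRootsOfUnity ℂ (Monoid.exponent (Abelianization G)) := by
        haveI : NeZero (Monoid.exponent (Abelianization G)) := ⟨Monoid.exponent_ne_zero_of_finite⟩
        infer_instance
      have hx' : Abelianization.of x ≠ 1 := fun h => hx ((QuotientGroup.eq_one_iff x).1 h)
      obtain ⟨φ, hφ⟩ := CommGroup.exists_apply_ne_one_of_hasEnoughRootsOfUnity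
        (Abelianization G) ℂ hx'
      set μ : G →* ℂˣ := φ.comp Abelianization.of
      haveI : Fintype (G →* ℂˣ) :=
        Fintype.ofEquiv _ (CfsgLib.CharTheory.linearEquivHom (G := G))
      have e : ∑ ψ ∈ Lin, (ψ : G → ℂ) x
          = ∑ ν : (G →* ℂˣ), ((ν x : ℂˣ) : ℂ) := by
        haveI : Fintype {ψ : Cfsg.IrrCharacter G // (ψ : G → ℂ) 1 = 1} := inferInstance
        rw [← Fintype.sum_equiv (CfsgLib.CharTheory.linearEquivHom (G := G))
          (fun ψ => ((ψ.1 : G → ℂ) x)) (fun ν => ((ν x : ℂˣ) : ℂ)) (fun ψ => ?_)]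
        · exact (Finset.sum_subtype Lin hLinmem fun ψ => (ψ : G → ℂ) x)
        · have h := CfsgLib.CharTheory.linearEquivHom.symm_apply_apply ψ
          conv_lhs => rw [← h]
          rfl
      rw [e]
      set S := ∑ ν : (G →* ℂˣ), ((ν x : ℂˣ) : ℂ) with hS
      have hmul : ((μ x : ℂˣ) : ℂ) * S = S := by
        rw [hS, Finset.mul_sum]
        exact Fintype.sum_equiv (Equiv.mulLeft μ) _ _ fun ν => by simp
      have hμ1 : ((μ x : ℂˣ) : ℂ) ≠ 1 := fun h => hφ (Units.ext h)
      by_contra hS0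
      exact hμ1 ((mul_eq_right₀ hS0).1 hmul)
  -- column orthogonality against `g`
  have hχL : χ ∉ Lin := fun h => hd1 (by exact_mod_cast hd ▸ (hLinmem χ).1 h)
  have hconjg : ∀ x, (∑ ψ ∈ Lin, (ψ : G → ℂ) x * starRingEnd ℂ ((ψ : G → ℂ) g))
      + (χ : G → ℂ) x * starRingEnd ℂ ((χ : G → ℂ) g)
      = if IsConj x g then (Nat.card (Subgroup.centralizer ({x} : Set G)) : ℂ) else 0 := by
    intro x
    refine Eq.trans ?_ ((CfsgLib.CharTheory.sum_mul_conj x g).trans (by split_ifs <;> rfl))
    rw [add_comm, ← Finset.sum_insert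
      (f := fun ψ : Cfsg.IrrCharacter G => (ψ : G → ℂ) x * starRingEnd ℂ ((ψ : G → ℂ) g)) hχL]
    refine Finset.sum_subset (Finset.subset_univ _) fun ψ _ hψ => ?_
    rw [Finset.mem_insert, not_or, hLinmem] at hψ
    rw [hother ψ (fun h => hψ.2 ((hdeg ψ).2 h)) hψ.1, map_zero, mul_zero]
  have hg1 : g ≠ 1 := fun h => hg (h ▸ one_mem _)
  have hstep : (∑ ψ ∈ Lin, (ψ : G → ℂ) g) + (χ : G → ℂ) g * d = 0 := by
    have h0 := CfsgLib.CharTheory.sum_mul_conj g (1 : G)
    rw [if_neg (fun h => hg1 (isConj_one_left.1 h)), ← Finset.sum_subset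
      (Finset.subset_univ (insert χ Lin)) (fun ψ _ hψ => by
        rw [Finset.mem_insert, not_or, hLinmem] at hψ
        rw [hother ψ (fun h => hψ.2 ((hdeg ψ).2 h)) hψ.1, zero_mul]),
      Finset.sum_insert hχL, hd, map_natCast, add_comm] at h0
    rw [← h0]
    congr 1
    exact Finset.sum_congr rfl fun ψ hψ => by rw [(hLinmem ψ).1 hψ, map_one, mul_one]
  have hgL : g ∈ L := by
    by_contra h
    rw [hlin, if_neg h, zero_add] at hstep
    exact hχg ((mul_eq_zero.1 hstep).resolve_right hd0)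
  have hχgv : (χ : G → ℂ) g = -((n : ℂ) / d) := by
    rw [hlin, if_pos hgL] at hstep
    field_simp
    linear_combination hstep
  have hconjv : starRingEnd ℂ ((χ : G → ℂ) g) = -((n : ℂ) / d) := by
    rw [hχgv]; simp
  have hcol : ∀ x, (if x ∈ L then (n : ℂ) else 0) + (χ : G → ℂ) x * -((n : ℂ) / d)
      = if IsConj x g then (Nat.card (Subgroup.centralizer ({x} : Set G)) : ℂ) else 0 := by
    intro x
    rw [← hconjg x, hconjv, ← hlin]
    congr 1
    exact Finset.sum_congr rfl fun ψ hψ => by rw [hLinL ψ hψ g hgL, map_one, mul_one]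
  have hvanish : ∀ x, x ∉ L → (χ : G → ℂ) x = 0 := by
    intro x hx
    have h := hcol x
    rw [if_neg hx, zero_add, if_neg (fun hc => by
      obtain ⟨y, hy⟩ := isConj_iff.1 hc.symm
      exact hx (hy ▸ (inferInstance : L.Normal).conj_mem g hgL y))] at h
    exact (mul_eq_zero.1 h).resolve_right (by simp [hn0, hd0])
  have hdich : ∀ x ∈ L, IsConj g x ∨ (χ : G → ℂ) x = d := by
    intro x hx
    by_cases hc : IsConj g x
    · exact Or.inl hc
    right
    have h := hcol x
    rw [if_pos hx, if_neg (fun hc' => hc hc'.symm)] at h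
    field_simp at h
    rw [mul_zero] at h
    linear_combination -((mul_eq_zero.1 h).resolve_left hn0)
  obtain ⟨K, hKn, hK, -⟩ := CfsgLib.CharTheory.exists_kernel
    (CfsgLib.CharTheory.IsIrrCharacter.isCharacter χ.2)
  haveI := hKn
  have hKL : K ≤ L := fun x hx => by
    by_contra h
    exact hd0 (((hK x).1 hx).trans hd ▸ hvanish x h)
  have hgK : g ∉ K := fun h => by
    have h1 := (hK g).1 h
    rw [hd, hχgv] at h1
    field_simp at h1
    have h2 : ((d * d + n : ℕ) : ℂ) = 0 := by push_cast; linear_combination -h1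
    have h3 : d * d + n = 0 := by exact_mod_cast h2
    have : n ≠ 0 := Subgroup.index_ne_zero_of_finite
    omega
  have hclass : ∀ x ∈ L, x ∉ K → IsConj g x := fun x hx hxK =>
    (hdich x hx).resolve_right fun h => hxK ((hK x).2 (h.trans hd.symm))
  have hnotK : ∀ x, IsConj g x → x ∈ L ∧ x ∉ K := by
    intro x hx
    obtain ⟨y, rfl⟩ := isConj_iff.1 hx
    exact ⟨(inferInstance : L.Normal).conj_mem g hgL y, fun h => hgK (by
      simpa [mul_assoc] using hKn.conj_mem _ h y⁻¹)⟩
  -- counting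
  set c := Nat.card (Subgroup.centralizer ({g} : Set G))
  have hc : c * d ^ 2 = n * d ^ 2 + n ^ 2 := by
    have h := hcol g
    rw [if_pos hgL, if_pos (IsConj.refl g), hχgv] at h
    have h2 : ((c * d ^ 2 : ℕ) : ℂ) = ((n * d ^ 2 + n ^ 2 : ℕ) : ℂ) := by
      field_simp at h
      push_cast
      linear_combination -h
    exact_mod_cast h2
  obtain ⟨t, ht⟩ : ∃ t, Nat.card L = (t + 1) * Nat.card K := by
    obtain ⟨s, hs⟩ := Subgroup.card_dvd_of_le hKL
    rcases s with _ | t
    · rw [mul_zero] at hs; exact absurd hs Nat.card_pos.ne'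
    · exact ⟨t, hs.trans (mul_comm _ _)⟩
  have hi : (Subgroup.centralizer ({g} : Set G)).index = t * Nat.card K := by
    rw [← CfsgLib.CharTheory.card_isConj g]
    have h1 : Nat.card {x : L // (x : G) ∈ K} = Nat.card K := Nat.card_congr
      { toFun := fun x => ⟨x.1.1, x.2⟩
        invFun := fun x => ⟨⟨x.1, hKL x.2⟩, x.2⟩
        left_inv := fun _ => rfl
        right_inv := fun _ => rfl }
    have h2 : Nat.card {x : L // (x : G) ∉ K} = Nat.card {x : G // IsConj g x} := Nat.card_congr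
      { toFun := fun x => ⟨x.1.1, hclass _ x.1.2 x.2⟩
        invFun := fun x => ⟨⟨x.1, (hnotK _ x.2).1⟩, (hnotK _ x.2).2⟩
        left_inv := fun _ => rfl
        right_inv := fun _ => rfl }
    haveI := Fintype.ofFinite L
    have h3 : Nat.card {x : L // (x : G) ∉ K} = Nat.card L - Nat.card {x : L // (x : G) ∈ K} := by
      simp only [Nat.card_eq_fintype_card]
      exact Fintype.card_subtype_compl _
    rw [← h2, h3, h1, ht, add_mul, one_mul, Nat.add_sub_cancel]
  have hct : c * t = n * (t + 1) := by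
    have h1 := (Subgroup.centralizer ({g} : Set G)).card_mul_index
    rw [hi, ← L.card_mul_index, ht, ← hn] at h1
    refine Nat.eq_of_mul_eq_mul_right (Nat.card_pos (α := K)) ?_
    linear_combination h1
  have hD : t * n = d ^ 2 := by
    have h1 : n * (d ^ 2 + n) * t = n * (d ^ 2 * (t + 1)) := by
      calc n * (d ^ 2 + n) * t = c * d ^ 2 * t := by rw [hc]; ring
        _ = c * t * d ^ 2 := by ring
        _ = _ := by rw [hct]; ring
    rw [mul_assoc] at h1
    have h2 := Nat.eq_of_mul_eq_mul_left (Nat.pos_of_ne_zero Subgroup.index_ne_zero_of_finite) h1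
    nlinarith [h2]
  refine ⟨hgL, by rw [hd]; exact hχgv, ?_, hvanish, ?_, ?_⟩
  · ext x
    rw [Set.mem_union, Set.mem_ofPred_eq, Set.mem_ofPred_eq, SetLike.mem_coe]
    constructor
    · intro hx
      rcases hdich x hx with h | h
      · exact Or.inr h
      · exact Or.inl (h.trans hd.symm)
    · rintro (h | h)
      · exact hKL ((hK x).2 h)
      · exact (hnotK x h).1
  · intro ψ hψ1 hψK
    by_contra hne
    have hψ0 : ∀ x, IsConj g x → (ψ : G → ℂ) x = 0 := fun x hx => by
      rw [← CfsgLib.CharTheory.irr_apply_eq_of_isConj hx ψ]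
      exact hother ψ hψ1 hne
    -- `ψ` is orthogonal to all linear characters
    have horth : ∑ x : G, (ψ : G → ℂ) x * starRingEnd ℂ (∑ l ∈ Lin, (l : G → ℂ) x) = 0 := by
      simp only [map_sum, Finset.mul_sum]
      rw [Finset.sum_comm]
      refine Finset.sum_eq_zero fun l hl => ?_
      have h := CfsgLib.CharTheory.classInner_irrCharacter ψ l
      rw [if_neg (fun e => hψ1 ((hdeg ψ).1 (by rw [e]; exact (hLinmem l).1 hl))), Cfsg.classInner,
        mul_eq_zero] at h
      exact h.resolve_left (inv_ne_zero (Nat.cast_ne_zero.2 Nat.card_pos.ne'))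
    have hterm : ∀ x : G, (ψ : G → ℂ) x * starRingEnd ℂ (∑ l ∈ Lin, (l : G → ℂ) x)
        = if x ∈ K then (ψ : G → ℂ) 1 * n else 0 := by
      intro x
      rw [hlin]
      by_cases hxK : x ∈ K
      · rw [if_pos hxK, if_pos (hKL hxK), hψK x ((hK x).1 hxK), map_natCast]
      · rw [if_neg hxK]
        by_cases hxL : x ∈ L
        · rw [hψ0 x (hclass x hxL hxK), zero_mul]
        · rw [if_neg hxL, map_zero, mul_zero]
    rw [Finset.sum_congr rfl fun x _ => hterm x, Finset.sum_ite, Finset.sum_const_zero, add_zero,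
      Finset.sum_const, nsmul_eq_mul] at horth
    rcases mul_eq_zero.1 horth with h | h
    · have h' : (Finset.univ.filter fun x => x ∈ K).card = 0 := by exact_mod_cast h
      exact absurd (Finset.card_eq_zero.1 h') (Finset.ne_empty_of_mem
        (Finset.mem_filter.2 ⟨Finset.mem_univ (1 : G), one_mem K⟩))
    · exact (mul_ne_zero (CfsgLib.CharTheory.apply_one_ne_zero_of_isIrr ψ.2) hn0) h
  · have hcent : ∀ a : G, (∀ y, ⁅a, y⁆ ∈ K) → a ∈ L := by
      intro a ha
      by_contra haL
      obtain ⟨m, ρ, hρ, hρχ⟩ := χ.2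
      haveI := hρ
      have hker : ∀ w ∈ K, ρ w = LinearMap.id := fun w hw => by
        refine (CfsgLib.CharTheory.character_eq_finrank_iff ρ w).1 ?_
        rw [← ρ.char_one, hρχ]
        exact (hK w).1 hw
      have hcomm : ∀ y, ρ a ∘ₗ ρ y = ρ y ∘ₗ ρ a := by
        intro y
        have h1 : ρ (a * y) = ρ ⁅a, y⁆ * ρ (y * a) := by
          rw [← map_mul]
          congr 1
          rw [commutatorElement_def]; group
        rw [hker _ (ha y), map_mul, map_mul] at h1
        exact h1
      obtain ⟨z, hz⟩ := CfsgLib.CharTheory.exists_smul_of_commute ρ (ρ a) hcomm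
      have hz0 : z ≠ 0 := fun h0 => by
        rw [h0, zero_smul] at hz
        have h1 : ρ 1 = 0 := by rw [← inv_mul_cancel a, map_mul, hz]; exact mul_zero _
        have h2 : ρ.character 1 = 0 := by rw [Representation.character, h1, map_zero]
        exact hd0 (hd ▸ hρχ ▸ h2)
      have h3 := hvanish a haL
      rw [← hρχ, Representation.character, hz, map_smul, LinearMap.trace_id, smul_eq_mul] at h3
      have h4 : ρ.character 1 = (Module.finrank ℂ (Fin m → ℂ) : ℂ) := ρ.char_one
      rw [hρχ, hd] at h4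
      exact (mul_ne_zero hz0 (h4 ▸ hd0)) h3
    exact CfsgLib.SeenOnce.isSolvable_main hKL hgL hgK hclass hcent ht hct hD hd1

end Cfsg.Agent.S4805
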