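import Cfsg.Statements.S4807
import Cfsg.Agent.Lib.RelMcKay.Main

set_option autoImplicit false
open Cfsg

open CfsgLib.CharTheory CfsgLib.RelMcKay
open scoped ComplexConjugate

namespace Cfsg.Agent.S4807

theorem finsum_ne_zero_iff {G : Type*} [Group G] [Finite G] {L : Subgroup G} {f : G → ℂ}
    (hf : IsCharOn L f) (ν : IrrCharacter L) :
    (∑ᶠ l : L, f l * (starRingEnd ℂ) ((ν : L → ℂ) l)) ≠ 0 ↔
      mu L f (irrEquiv L ν : G → ℂ) ≠ 0 := by
  haveI := Fintype.ofFinite L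
  have h1 : ip L f (irrEquiv L ν : G → ℂ) =
      (Nat.card L : ℂ)⁻¹ * ∑ᶠ l : L, f l * (starRingEnd ℂ) ((ν : L → ℂ) l) := by
    rw [ip_eq, finsum_eq_sum_of_fintype, classInner]
    simp only [irrEquiv_apply]
  rw [ip_eq_mu hf (irrEquiv L ν).2] at h1
  rw [← not_iff_not, not_not, not_not, ← Nat.cast_eq_zero (R := ℂ), h1, mul_eq_zero, inv_eq_zero,
    or_iff_right (Nat.cast_ne_zero.2 Nat.card_pos.ne')]

theorem card_eq_cnt {G : Type*} [Group G] [Finite G] {p : ℕ} {H L : Subgroup G} (hLH : L ≤ H)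
    (ν : IrrCharacter L) :
    Nat.card {ψ : IrrCharacter H // ¬ p ∣ charDegree (ψ : H → ℂ) ∧
      (∑ᶠ l : L, (ψ : H → ℂ) (Subgroup.inclusion hLH l) * (starRingEnd ℂ) ((ν : L → ℂ) l)) ≠ 0} =
      cnt p H L (irrEquiv L ν : G → ℂ) := by
  classical
  rw [cnt, ← Nat.card_eq_finsetCard]
  refine Nat.card_congr ((Equiv.subtypeEquiv (irrEquiv H) (fun ψ => ?_)).trans
    ((Equiv.subtypeSubtypeEquivSubtypeInter (fun f => IsIrrOn H f)
      (fun f => ¬ p ∣ deg f ∧ mu L f (irrEquiv L ν : G → ℂ) ≠ 0)).trans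
        (Equiv.subtypeEquivRight fun f => by simp only [Finset.mem_filter, mem_overIrr]; tauto)))
  have h1 : deg (irrEquiv H ψ : G → ℂ) = charDegree (ψ : H → ℂ) := by
    simp only [deg, charDegree]
    rw [← irrEquiv_apply ψ 1, OneMemClass.coe_one]
  rw [h1, ← finsum_ne_zero_iff ((irrEquiv H ψ).2.isCharOn.mono hLH) ν,
    finsum_congr fun l : L => by rw [← irrEquiv_apply ψ (Subgroup.inclusion hLH l)]]
  rfl

/-- The characters of the group as functions supported on the top subgroup. -/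
noncomputable def topIrr (G : Type*) [Group G] : IrrCharacter G ≃ {f : G → ℂ // IsIrrOn (⊤ : Subgroup G) f} where
  toFun χ := ⟨χ.1, isIrrCharacter_comp_mulEquiv χ.2 Subgroup.topEquiv,
    fun g hg => absurd (Subgroup.mem_top g) hg⟩
  invFun f := ⟨f.1, isIrrCharacter_comp_mulEquiv f.2.1 Subgroup.topEquiv.symm⟩
  left_inv _ := rfl
  right_inv _ := rfl

theorem card_eq_cnt_top {G : Type*} [Group G] [Finite G] {p : ℕ} {L : Subgroup G}
    (ν : IrrCharacter L) :
    Nat.card {χ : IrrCharacter G // ¬ p ∣ charDegree (χ : G → ℂ) ∧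
      (∑ᶠ l : L, (χ : G → ℂ) (l : G) * (starRingEnd ℂ) ((ν : L → ℂ) l)) ≠ 0} =
      cnt p ⊤ L (irrEquiv L ν : G → ℂ) := by
  classical
  rw [cnt, ← Nat.card_eq_finsetCard]
  refine Nat.card_congr ((Equiv.subtypeEquiv (topIrr G) (fun χ => ?_)).trans
    ((Equiv.subtypeSubtypeEquivSubtypeInter (fun f => IsIrrOn (⊤ : Subgroup G) f)
      (fun f => ¬ p ∣ deg f ∧ mu L f (irrEquiv L ν : G → ℂ) ≠ 0)).trans
        (Equiv.subtypeEquivRight fun f => by simp only [Finset.mem_filter, mem_overIrr]; tauto)))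
  rw [← finsum_ne_zero_iff ((topIrr G χ).2.isCharOn.mono le_top) ν]
  rfl

/-- Let p be a prime and G a finite p-solvable group, L a normal subgroup of G, S a Sylow p-subgroup of G and P the subgroup generated by L and S (so P/L is a Sylow p-subgroup of G/L), and let ν be an irreducible complex character of L that is invariant under conjugation by every element of P. Let N be the normalizer of P in G (it contains L). Then the number of irreducible characters of G of degree prime to p lying over ν (restriction to L not orthogonal to ν) equals the number of irreducible characters of N of degree prime to p lying over ν. -/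
theorem result {G : Type*} [Group G] [Finite G] (p : ℕ) [Fact p.Prime] (hG : Cfsg.IsPSolvable p G) (L : Subgroup G) [L.Normal] (S : Sylow p G) (P : Subgroup G) (hP : P = L ⊔ (S : Subgroup G)) (hLN : L ≤ (Subgroup.normalizer ((P : Subgroup G) : Set G))) (ν : Cfsg.IrrCharacter ↥L) (hν : ∀ x ∈ P, Cfsg.IsConjCharOf L x (ν : ↥L → ℂ) (ν : ↥L → ℂ)) : Nat.card {χ : Cfsg.IrrCharacter G // ¬ p ∣ Cfsg.charDegree (χ : G → ℂ) ∧ (∑ᶠ l : ↥L, (χ : G → ℂ) (l : G) * (starRingEnd ℂ) ((ν : ↥L → ℂ) l)) ≠ 0} = Nat.card {ψ : Cfsg.IrrCharacter ↥(Subgroup.normalizer ((P : Subgroup G) : Set G)) // ¬ p ∣ Cfsg.charDegree (ψ : ↥(Subgroup.normalizer ((P : Subgroup G) : Set G)) → ℂ) ∧ (∑ᶠ l : ↥L, (ψ : ↥(Subgroup.normalizer ((P : Subgroup G) : Set G)) → ℂ) (Subgroup.inclusion hLN l) * (starRingEnd ℂ) ((ν : ↥L → ℂ) l)) ≠ 0} := by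
  subst hP
  have hpow : ∀ x ∈ L ⊔ (S : Subgroup G), ∃ a : ℕ, x ^ p ^ a ∈ L :=
    pow_mem_sup (L := (⊥ : Subgroup G)) bot_le (fun x _ => Subgroup.mem_normalizer_iff.2 fun y =>
      ⟨fun hy => Subgroup.Normal.conj_mem inferInstance y hy x, fun hy => by
        simpa [mul_assoc] using Subgroup.Normal.conj_mem (H := L) inferInstance _ hy x⁻¹⟩)
      (fun x hx => (S.isPGroup' ⟨x, hx⟩).imp fun _ ha => by
        rw [Subgroup.mem_bot]; exact congrArg Subtype.val ha)
  have hnorm : ∀ x : G, x ∈ Subgroup.normalizer (L : Set G) := fun x =>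
    Subgroup.mem_normalizer_iff.2 fun y => ⟨fun hy => Subgroup.Normal.conj_mem inferInstance y hy x,
      fun hy => by simpa [mul_assoc] using Subgroup.Normal.conj_mem (H := L) inferInstance _ hy x⁻¹⟩
  have hidx : ¬ p ∣ (L ⊔ (S : Subgroup G)).relIndex ⊤ := by
    rw [Subgroup.relIndex_top_right]
    exact fun h => S.not_dvd_index (h.trans (Subgroup.index_dvd_of_le le_sup_right))
  have hstab : L ⊔ (S : Subgroup G) ≤ stab (irrEquiv L ν : G → ℂ) := fun x hx =>
    mem_stab.2 (((irrEquiv L ν).2.cj (hnorm x)).ext (irrEquiv L ν).2 fun y hy => by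
      have hy' : x * y * x⁻¹ ∈ L := (mem_conj_iff (hnorm x) y).2 hy
      show (irrEquiv L ν : G → ℂ) ((⟨x * y * x⁻¹, hy'⟩ : L) : G) = (irrEquiv L ν : G → ℂ) ((⟨y, hy⟩ : L) : G)
      rw [irrEquiv_apply, irrEquiv_apply]
      exact hν x hx ⟨y, hy⟩ ⟨x * y * x⁻¹, hy'⟩ rfl)
  rw [card_eq_cnt_top ν, card_eq_cnt hLN ν,
    cnt_eq_normalizer hG _ ⊤ L (L ⊔ (S : Subgroup G)) (irrEquiv L ν : G → ℂ) rfl le_sup_left le_top
      (fun x _ => hnorm x) hpow hidx (irrEquiv L ν).2 hstab, top_inf_eq]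

end Cfsg.Agent.S4807
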