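import Cfsg.Statements.S4808
import Cfsg.Agent.Lib.Correspondences.Codegree
import Cfsg.Agent.Lib.Frobenius.Induce
-- import your own Cfsg.Agent.* helpers here

set_option autoImplicit false
open Cfsg

namespace Cfsg.Agent.S4808

/-- The codegree of an irreducible complex character χ of a finite group G is [G : ker χ] / χ(1), where ker χ is the set of elements at which χ takes the value χ(1). A prime divides the order of G if and only if it divides the codegree of some irreducible complex character of G. -/
theorem result {G : Type*} [Group G] [Finite G] (p : ℕ) (hp : p.Prime) : p ∣ Nat.card G ↔ ∃ χ : Cfsg.IrrCharacter G, p ∣ (Nat.card G / (Nat.card {g : G // (χ : G → ℂ) g = (χ : G → ℂ) 1} * Cfsg.charDegree (χ : G → ℂ))) := by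
  classical
  constructor
  · intro hpG
    haveI := Fact.mk hp
    haveI := Fintype.ofFinite G
    haveI := Fintype.ofFinite (Cfsg.IrrCharacter G)
    obtain ⟨P⟩ := (Sylow.nonempty : Nonempty (Sylow p G))
    haveI := Fintype.ofFinite (P : Subgroup G)
    by_contra hcon
    push Not at hcon
    obtain ⟨m, hm⟩ := CfsgLib.CharTheory.IsCharacter.exists_sum
      (CfsgLib.Frobenius.isCharacter_indFun (P : Subgroup G) (fun _ => (1 : ℂ))
        (CfsgLib.CharTheory.IsIrrCharacter.isCharacter CfsgLib.CharTheory.isIrrCharacter_one))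
    have hidx : (P : Subgroup G).index = ∑ χ, m χ * Cfsg.charDegree (χ : G → ℂ) := by
      have h := congrFun hm 1
      rw [CfsgLib.Frobenius.indFun_one] at h
      simp only [mul_one, Finset.sum_apply, Pi.smul_apply, smul_eq_mul] at h
      have h2 : ((∑ χ, m χ * Cfsg.charDegree (χ : G → ℂ) : ℕ) : ℂ) =
          ((P : Subgroup G).index : ℂ) := by
        rw [h, Nat.cast_sum]
        exact Finset.sum_congr rfl fun χ _ => by
          rw [Nat.cast_mul, CfsgLib.Correspondences.charDegree_cast
            (CfsgLib.CharTheory.IsIrrCharacter.isCharacter χ.2)]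
      exact_mod_cast h2.symm
    have key : ∀ χ : Cfsg.IrrCharacter G, ((m χ * Cfsg.charDegree (χ : G → ℂ) : ℕ) : ZMod p) =
        ((Cfsg.charDegree (χ : G → ℂ) ^ 2 : ℕ) : ZMod p) := by
      intro χ
      by_cases hd : p ∣ Cfsg.charDegree (χ : G → ℂ)
      · rw [(ZMod.natCast_eq_zero_iff _ _).2 (dvd_mul_of_dvd_right hd _),
          (ZMod.natCast_eq_zero_iff _ _).2 (dvd_pow hd two_ne_zero)]
      have hc := CfsgLib.CharTheory.IsIrrCharacter.isCharacter χ.2
      haveI := CfsgLib.Correspondences.charKer_normal hc
      set K := CfsgLib.Correspondences.charKer hc with hK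
      have hidxK : ¬ p ∣ K.index := by
        intro h
        refine hcon χ ?_
        rw [Nat.dvd_div_iff_mul_dvd (CfsgLib.Correspondences.card_ker_mul_charDegree_dvd χ.2),
          CfsgLib.Correspondences.card_charKer hc, ← Subgroup.card_mul_index K, mul_assoc]
        refine mul_dvd_mul_left _ (Nat.Coprime.mul_dvd_of_dvd_of_dvd
          ((hp.coprime_iff_not_dvd.2 hd).symm) ?_ h)
        obtain ⟨ψ, hψ⟩ := CfsgLib.Correspondences.exists_deflate χ.2 K (fun x hx => hx)
        have h1 : Cfsg.charDegree (ψ : G ⧸ K → ℂ) = Cfsg.charDegree (χ : G → ℂ) := by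
          rw [Cfsg.charDegree, Cfsg.charDegree, ← hψ 1, map_one]
        rw [← h1, Subgroup.index_eq_card]
        exact CfsgLib.Correspondences.charDegree_dvd_card ψ.2
      have hPK : ∀ x : (P : Subgroup G), (χ : G → ℂ) (x : G) = (χ : G → ℂ) 1 := by
        intro x
        obtain ⟨j, hj⟩ := P.2 x
        have hj' : ((x : G) : G ⧸ K) ^ p ^ j = 1 := by
          rw [← QuotientGroup.mk_pow]
          exact (QuotientGroup.eq_one_iff _).2 (by
            have := congrArg Subtype.val hj
            rw [SubmonoidClass.coe_pow] at this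
            rw [this]; exact one_mem K)
        have h2 := Nat.eq_one_of_dvd_coprimes
          ((hp.coprime_iff_not_dvd.2 hidxK).pow_left j)
          (orderOf_dvd_of_pow_eq_one hj') (Subgroup.index_eq_card K ▸ orderOf_dvd_natCard _)
        exact (QuotientGroup.eq_one_iff (x : G)).1 (orderOf_eq_one_iff.1 h2)
      have hmd : m χ = Cfsg.charDegree (χ : G → ℂ) := by
        have h3 := CfsgLib.CharTheory.classInner_sum_irr (fun φ => (m φ : ℂ)) χ
        rw [← hm, CfsgLib.Frobenius.classInner_indFun _ _ _
          (CfsgLib.CharTheory.IsIrrCharacter.isClassFunction χ.2), Cfsg.classInner] at h3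
        simp only [hPK, ← CfsgLib.Correspondences.charDegree_cast hc, Complex.conj_natCast, one_mul,
          Finset.sum_const, Finset.card_univ, nsmul_eq_mul, ← Nat.card_eq_fintype_card,
          inv_mul_cancel_left₀ (Nat.cast_ne_zero.2 (Nat.card_pos (α := (P : Subgroup G))).ne' :
            (Nat.card (P : Subgroup G) : ℂ) ≠ 0), Nat.cast_inj] at h3
        exact h3.symm
      rw [hmd, sq]
    have h1 : ((P : Subgroup G).index : ZMod p) = (Nat.card G : ZMod p) := by
      rw [hidx, ← CfsgLib.Correspondences.sum_charDegree_sq (G := G), Nat.cast_sum, Nat.cast_sum]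
      exact Finset.sum_congr rfl fun χ _ => key χ
    rw [(ZMod.natCast_eq_zero_iff _ _).2 hpG, ZMod.natCast_eq_zero_iff] at h1
    exact P.not_dvd_index h1
  · rintro ⟨χ, h⟩
    exact h.trans (CfsgLib.Correspondences.codegree_dvd_card χ.2)

end Cfsg.Agent.S4808
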