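import Cfsg.Statements.S4814
import Cfsg.Agent.Lib.Correspondences.CommutatorCount
-- import your own Cfsg.Agent.* helpers here

set_option autoImplicit false
open Cfsg

namespace Cfsg.Agent.S4814

/-- Let G be a finite group such that the sum, over the irreducible complex characters χ of G, of 1/χ(1)² is less than 2. Then every element of G is a product of two commutators. -/
theorem result {G : Type*} [Group G] [Finite G]
    (h : ∑ᶠ χ : Cfsg.IrrCharacter G, 1 / ‖(χ : G → ℂ) 1‖ ^ 2 < (2 : ℝ)) (g : G) :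
    ∃ a b c d : G, (a * b * a⁻¹ * b⁻¹) * (c * d * c⁻¹ * d⁻¹) = g := by
  classical
  haveI := Fintype.ofFinite G
  haveI := Fintype.ofFinite (Cfsg.IrrCharacter G)
  by_contra hne
  push Not at hne
  have hempty : IsEmpty {x : (G × G) × (G × G) //
      (x.1.1 * x.1.2 * x.1.1⁻¹ * x.1.2⁻¹) * (x.2.1 * x.2.2 * x.2.1⁻¹ * x.2.2⁻¹) = g} :=
    ⟨fun x => hne x.1.1.1 x.1.1.2 x.1.2.1 x.1.2.2 x.2⟩
  have hcount := CfsgLib.Correspondences.card_fiber_eq_sum
    (fun x : (G × G) × (G × G) =>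
      (x.1.1 * x.1.2 * x.1.1⁻¹ * x.1.2⁻¹) * (x.2.1 * x.2.2 * x.2.1⁻¹ * x.2.2⁻¹))
    (fun c => ((MulAut.conj c).toEquiv.prodCongr (MulAut.conj c).toEquiv).prodCongr
      ((MulAut.conj c).toEquiv.prodCongr (MulAut.conj c).toEquiv))
    (fun c a => by simp [mul_assoc]) g
  rw [Nat.card_of_isEmpty, Nat.cast_zero] at hcount
  have h0 : (Nat.card G : ℂ) ≠ 0 := Nat.cast_ne_zero.2 Nat.card_pos.ne'
  have hdeg : ∀ χ : Cfsg.IrrCharacter G, ∃ n : ℕ, 0 < n ∧ (χ : G → ℂ) 1 = n := fun χ =>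
    CfsgLib.CharTheory.exists_degree_of_isIrr χ.2
  have hterm : ∀ χ : Cfsg.IrrCharacter G,
      ∑ a : (G × G) × (G × G), (starRingEnd ℂ) ((χ : G → ℂ)
        ((a.1.1 * a.1.2 * a.1.1⁻¹ * a.1.2⁻¹) * (a.2.1 * a.2.2 * a.2.1⁻¹ * a.2.2⁻¹))) =
      (Nat.card G : ℂ) ^ 4 / (χ : G → ℂ) 1 ^ 3 := by
    intro χ
    obtain ⟨n, hn0, hn⟩ := hdeg χ
    have h := CfsgLib.Correspondences.sum_commutator_mul χ.2
    rw [← map_sum, Fintype.sum_prod_type, Finset.sum_comm]
    simp only [Fintype.sum_prod_type, h, ← Finset.mul_sum]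
    have h' := h 1
    simp only [mul_one] at h'
    rw [h', hn]
    simp only [map_mul, map_pow, map_div₀, Complex.conj_natCast]
    have hn' : (n : ℂ) ≠ 0 := Nat.cast_ne_zero.2 hn0.ne'
    field_simp
  simp only [hterm] at hcount
  set T := ∑ χ : Cfsg.IrrCharacter G, (χ : G → ℂ) g / (χ : G → ℂ) 1 ^ 3 with hT
  have hT0 : T = 0 := by
    have h1 : (Nat.card G : ℂ)⁻¹ * ((Nat.card G : ℂ) ^ 4 * T) = 0 := by
      rw [hT, Finset.mul_sum, hcount]
      exact congrArg _ (Finset.sum_congr rfl fun χ _ => by ring)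
    simpa [h0] using h1
  rw [finsum_eq_sum_of_fintype] at h
  set e := CfsgLib.CharTheory.trivIrr G with he
  rw [← Finset.add_sum_erase _ _ (Finset.mem_univ e)] at h
  rw [hT, ← Finset.add_sum_erase _ _ (Finset.mem_univ e)] at hT0
  have he1 : (e : G → ℂ) g / (e : G → ℂ) 1 ^ 3 = 1 := by simp [he, CfsgLib.CharTheory.trivIrr_apply]
  have he2 : 1 / ‖(e : G → ℂ) 1‖ ^ 2 = (1 : ℝ) := by simp [he, CfsgLib.CharTheory.trivIrr_apply]
  rw [he1] at hT0
  rw [he2] at h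
  have hle : ‖∑ χ ∈ Finset.univ.erase e, (χ : G → ℂ) g / (χ : G → ℂ) 1 ^ 3‖ ≤
      ∑ χ ∈ Finset.univ.erase e, 1 / ‖(χ : G → ℂ) 1‖ ^ 2 := by
    refine (norm_sum_le _ _).trans (Finset.sum_le_sum fun χ _ => ?_)
    obtain ⟨n, hn0, hn⟩ := hdeg χ
    have hb := CfsgLib.CharTheory.IsCharacter.norm_le
      (CfsgLib.CharTheory.IsIrrCharacter.isCharacter χ.2) g
    rw [hn, Complex.natCast_re] at hb
    rw [norm_div, norm_pow, hn, Complex.norm_natCast]
    have hn' : (0 : ℝ) < n := Nat.cast_pos.2 hn0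
    rw [div_le_div_iff₀ (by positivity) (by positivity), one_mul, pow_succ _ 2,
      mul_comm ((n : ℝ) ^ 2) n]
    exact mul_le_mul_of_nonneg_right hb (by positivity)
  rw [eq_neg_of_add_eq_zero_right hT0, norm_neg, norm_one] at hle
  linarith

end Cfsg.Agent.S4814
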