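import Cfsg.Statements.S4825
import Cfsg.Agent.Lib.Correspondences.BlockOrth
import Cfsg.Agent.Lib.Correspondences.PrincipalBlock
import Cfsg.Agent.Lib.Clifford.Basic
open CfsgLib.CharTheory CfsgLib.Blocks CfsgLib.Clifford CfsgLib.Correspondences

set_option linter.style.haveILetI false

set_option autoImplicit false
open Cfsg

namespace Cfsg.Agent.S4825

/-- Let p be a prime, G a finite group with Sylow p-subgroup P, M a maximal ideal of the algebraic integers containing p, and B a p-block of G with defect group P. Let N be a normal subgroup of G not containing P and θ an irreducible character of N. Then the number of irreducible characters in B of degree prime to p lying over θ (having θ as a constituent on restriction to N) is either 0 or at least 2, and when p ≤ 3 it is divisible by p. -/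
theorem result {G : Type*} [Group G] [Fintype G] (p : ℕ) [Fact p.Prime] (P : Sylow p G) (M : Ideal Cfsg.AlgInt) (hM : Cfsg.IsPModular p M) (B : Set (Cfsg.IrrCharacter G)) (hB : Cfsg.IsPBlock M B) (hBP : Cfsg.IsDefectGroup p M B P) (N : Subgroup G) [N.Normal] [Fintype N] (hPN : ¬ (P : Subgroup G) ≤ N) (θ : Cfsg.IrrCharacter N) :
    (Nat.card {χ : Cfsg.IrrCharacter G // χ ∈ B ∧ ¬ p ∣ Cfsg.charDegree (χ : G → ℂ) ∧ Cfsg.classInner (fun n : N => (χ : G → ℂ) n) (θ : N → ℂ) ≠ 0} = 0 ∨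
      2 ≤ Nat.card {χ : Cfsg.IrrCharacter G // χ ∈ B ∧ ¬ p ∣ Cfsg.charDegree (χ : G → ℂ) ∧ Cfsg.classInner (fun n : N => (χ : G → ℂ) n) (θ : N → ℂ) ≠ 0}) ∧
    (p ≤ 3 → p ∣ Nat.card {χ : Cfsg.IrrCharacter G // χ ∈ B ∧ ¬ p ∣ Cfsg.charDegree (χ : G → ℂ) ∧ Cfsg.classInner (fun n : N => (χ : G → ℂ) n) (θ : N → ℂ) ≠ 0}) := by
  classical
  haveI := isPrime_of_isPModular hM
  haveI := Fintype.ofFinite (IrrCharacter G)
  have hp : p.Prime := Fact.out
  have hc : ∀ χ : IrrCharacter G, ∃ c : ℕ,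
      Cfsg.classInner (fun n : N => (χ : G → ℂ) n) (θ : N → ℂ) = c := fun χ =>
    IsCharacter.exists_classInner_eq_nat
      (CfsgLib.Coherence.isCharacter_comp (IsIrrCharacter.isCharacter χ.2) N.subtype) θ
  choose c hc using hc
  obtain ⟨u, huP, huN⟩ := SetLike.not_le_iff_exists.1 hPN
  obtain ⟨k, hk⟩ := IsPGroup.iff_orderOf.1 P.2 ⟨u, huP⟩
  rw [Subgroup.orderOf_mk] at hk
  have hu : p ∣ orderOf (u : G ⧸ N) := by
    obtain ⟨i, -, hi⟩ := (Nat.dvd_prime_pow hp).1 (hk ▸ orderOf_map_dvd (QuotientGroup.mk' N) u)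
    rcases i with _ | i
    · exact absurd ((QuotientGroup.eq_one_iff u).1 (orderOf_eq_one_iff.1 (by simpa using hi))) huN
    · exact (dvd_pow_self p (Nat.succ_ne_zero i)).trans (dvd_of_eq hi.symm)
  set BB := Finset.univ.filter (fun χ : IrrCharacter G => χ ∈ B) with hBB
  have hzero : ∑ χ ∈ BB, (c χ : ℂ) * (χ : G → ℂ) u = 0 := by
    have e : ∀ χ : IrrCharacter G, (c χ : ℂ) * (χ : G → ℂ) u = (Nat.card N : ℂ)⁻¹ *
        ∑ n : N, (θ : N → ℂ) n * ((starRingEnd ℂ) ((χ : G → ℂ) n) * (χ : G → ℂ) u) := by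
      intro χ
      rw [← Complex.conj_natCast (c χ), ← hc, ← classInner_conj_symm, Cfsg.classInner, mul_assoc,
        Finset.sum_mul]
      simp only [mul_assoc]
    rw [Finset.sum_congr rfl fun χ _ => e χ, ← Finset.mul_sum, Finset.sum_comm]
    refine mul_eq_zero_of_right _ (Finset.sum_eq_zero fun n _ => ?_)
    rw [← Finset.mul_sum]
    refine mul_eq_zero_of_right _ ?_
    have h := sum_block_conj_mul_eq_zero hM hB N n.2 hu
    rw [finsum_mem_eq_finite_toFinset_sum _ (Set.toFinite B)] at h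
    refine Eq.trans (Finset.sum_congr ?_ fun _ _ => rfl) h
    ext χ; simp [hBB]
  have hdvd : p ∣ ∑ χ ∈ BB, c χ * Cfsg.charDegree (χ : G → ℂ) := by
    rw [← memLocalIdeal_natCast_iff hM]
    have e : ((∑ χ ∈ BB, c χ * Cfsg.charDegree (χ : G → ℂ) : ℕ) : ℂ) =
        ∑ χ ∈ BB, (c χ : ℂ) * ((χ : G → ℂ) 1 - (χ : G → ℂ) u) := by
      simp only [mul_sub, Finset.sum_sub_distrib, hzero, sub_zero, Nat.cast_sum, Nat.cast_mul]
      exact Finset.sum_congr rfl fun χ _ => by rw [charDegree_cast (IsIrrCharacter.isCharacter χ.2)]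
    rw [e]
    refine memLocalIdeal_sum fun χ _ => memLocalIdeal_mul_left (memLocalRing_natCast _) ?_
    rw [memLocalIdeal_sub_comm]
    exact memLocalIdeal_apply_sub_one hM (IsIrrCharacter.isCharacter χ.2) (k := k)
      (by rw [← hk, pow_orderOf_eq_one])
  set S := Finset.univ.filter (fun χ : IrrCharacter G => χ ∈ B ∧ ¬ p ∣ Cfsg.charDegree (χ : G → ℂ) ∧
    Cfsg.classInner (fun n : N => (χ : G → ℂ) n) (θ : N → ℂ) ≠ 0) with hS
  have hcard : Nat.card {χ : Cfsg.IrrCharacter G // χ ∈ B ∧ ¬ p ∣ Cfsg.charDegree (χ : G → ℂ) ∧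
      Cfsg.classInner (fun n : N => (χ : G → ℂ) n) (θ : N → ℂ) ≠ 0} = S.card := by
    rw [Nat.card_eq_fintype_card, Fintype.card_subtype]
  rw [hcard]
  rcases S.eq_empty_or_nonempty with hemp | ⟨χ₀, hχ₀⟩
  · rw [hemp, Finset.card_empty]
    exact ⟨Or.inl rfl, fun _ => dvd_zero p⟩
  set t := (conjOrbit N (θ : N → ℂ)).card with ht
  obtain ⟨dθ, -, hdθ⟩ := exists_degree_of_isIrr θ.2
  have hdeg : ∀ χ : IrrCharacter G, c χ ≠ 0 →
      Cfsg.charDegree (χ : G → ℂ) = c χ * (t * dθ) := by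
    intro χ hχ
    have h := apply_one_eq N χ.2 θ.2 (by rw [hc]; exact_mod_cast hχ)
    rw [hc, ← charDegree_cast (IsIrrCharacter.isCharacter χ.2), hdθ] at h
    rw [← mul_assoc]
    exact_mod_cast h
  obtain ⟨-, hp0, hc0⟩ := (Finset.mem_filter.1 hχ₀).2
  rw [hc, Nat.cast_ne_zero] at hc0
  have hunit : ¬ p ∣ t * dθ := fun h => hp0 (hdeg χ₀ hc0 ▸ h.mul_left _)
  have hsq : p ∣ ∑ χ ∈ S, c χ ^ 2 := by
    have hsplit : p ∣ ∑ χ ∈ S, c χ * Cfsg.charDegree (χ : G → ℂ) := by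
      have hsub : S ⊆ BB := fun χ h =>
        Finset.mem_filter.2 ⟨Finset.mem_univ _, (Finset.mem_filter.1 h).2.1⟩
      rw [← Finset.sum_sdiff hsub] at hdvd
      refine (Nat.dvd_add_right (Finset.dvd_sum fun χ hχ => ?_)).1 hdvd
      obtain ⟨h1, h2⟩ := Finset.mem_sdiff.1 hχ
      by_cases hd : p ∣ Cfsg.charDegree (χ : G → ℂ)
      · exact hd.mul_left _
      · have h0 : c χ = 0 := by
          by_contra hne
          exact h2 (Finset.mem_filter.2 ⟨Finset.mem_univ _, (Finset.mem_filter.1 h1).2, hd,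
            by rw [hc]; exact_mod_cast hne⟩)
        simp [h0]
    rw [Finset.sum_congr rfl (g := fun χ => c χ ^ 2 * (t * dθ)) (fun χ hχ => by
      have h := (Finset.mem_filter.1 hχ).2.2.2
      rw [hc, Nat.cast_ne_zero] at h
      rw [hdeg χ h]; ring), ← Finset.sum_mul] at hsplit
    exact (hp.dvd_mul.1 hsplit).resolve_right hunit
  have hcu : ∀ χ ∈ S, ¬ p ∣ c χ := by
    intro χ hχ h
    obtain ⟨-, h1, h2⟩ := (Finset.mem_filter.1 hχ).2
    rw [hc, Nat.cast_ne_zero] at h2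
    exact h1 (hdeg χ h2 ▸ h.mul_right _)
  refine ⟨Or.inr ?_, fun hp3 => ?_⟩
  · by_contra hlt
    have h1 : S.card = 1 := by
      have := Finset.card_pos.2 ⟨χ₀, hχ₀⟩
      omega
    obtain ⟨χ, hχ⟩ := Finset.card_eq_one.1 h1
    rw [hχ, Finset.sum_singleton] at hsq
    exact hcu χ (hχ ▸ Finset.mem_singleton_self χ) (hp.dvd_of_dvd_pow hsq)
  · rw [← ZMod.natCast_eq_zero_iff] at hsq ⊢
    rw [Nat.cast_sum] at hsq
    rw [Finset.card_eq_sum_ones, Nat.cast_sum]
    refine Eq.trans (Finset.sum_congr rfl fun χ hχ => ?_) hsq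
    have hne : (c χ : ZMod p) ≠ 0 := fun h => hcu χ hχ ((ZMod.natCast_eq_zero_iff _ _).1 h)
    rw [Nat.cast_one, Nat.cast_pow]
    have h2 := hp.two_le
    revert hne
    generalize (c χ : ZMod p) = z
    revert z
    interval_cases p <;> intro z hz <;> fin_cases z <;> first | exact absurd rfl hz | rfl

end Cfsg.Agent.S4825
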