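import Cfsg.Statements.S4828
import Cfsg.Agent.Lib.BrauerPairs.Domination
import Cfsg.Agent.Lib.BrauerPairs.BridgePairs
import Cfsg.Agent.Lib.BrauerPairs.Nilpotent
import Cfsg.Agent.Lib.Cores.PCore
import Cfsg.Agent.Lib.Blocks.DefectZero

set_option autoImplicit false
open Cfsg

namespace Cfsg.Agent.S4828

open CfsgLib CfsgLib.BrauerPairs CfsgLib.BrauerCharacters CfsgLib.CharDegreesTheory

/-- Central defect group and a character of defect zero of the quotient. -/
theorem defect_iff {C : Type*} [Group C] [Finite C] {p : ℕ} [hp : Fact p.Prime] {M : Ideal AlgInt}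
    [M.IsPrime] [M.IsMaximal] [CharP (Blocks.Res M) p] (hM : IsPModular p M) (Z : Subgroup C)
    [Z.Normal] (hZc : Z ≤ Subgroup.center C) (hZp : IsPGroup p Z) {e : Set (IrrCharacter C)}
    (he : IsPBlock M e) :
    IsDefectGroup p M e Z ↔ ∃ θ ∈ e, (∀ z ∈ Z, (θ : C → ℂ) z = (θ : C → ℂ) 1) ∧
      (charDegree (θ : C → ℂ)).factorization p + (Nat.card Z).factorization p
        = (Nat.card C).factorization p := by
  set φ := QuotientGroup.mk' Z with hφdef
  have hφ : Function.Surjective φ := QuotientGroup.mk'_surjective Z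
  have hker : φ.ker = Z := QuotientGroup.ker_mk' Z
  have hcard : (Nat.card C).factorization p
      = (Nat.card (C ⧸ Z)).factorization p + (Nat.card Z).factorization p := by
    rw [Subgroup.card_eq_card_quotient_mul_card_subgroup Z,
      Nat.factorization_mul Nat.card_pos.ne' Nat.card_pos.ne']
    rfl
  constructor
  · intro hD
    obtain ⟨B', hB', -, hdef, hmem⟩ := exists_dominated_block hM hφ (hker.symm ▸ hZc)
      (hker.symm ▸ hZp) he
    have hc := Blocks.card_isDefectGroup hM he hD
    have hd : (Nat.card Z).factorization p = blockDefect p e := by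
      rw [hc, hp.out.factorization_pow, Finsupp.single_eq_same]
    rw [hker] at hdef
    set f := fun χ : IrrCharacter (C ⧸ Z) => (charDegree (χ : C ⧸ Z → ℂ)).factorization p
    obtain ⟨θ, hθ, hθmin⟩ := Nat.sInf_mem ((Blocks.isPBlock_nonempty hB').image f)
    obtain ⟨-, hpos, hdvd⟩ := charDegree_spec θ
    have h2 : f θ ≤ (Nat.card (C ⧸ Z)).factorization p :=
      (Nat.factorization_le_iff_dvd hpos.ne' Nat.card_pos.ne').2 hdvd p
    have h3 : (Nat.card (C ⧸ Z)).factorization p - sInf (f '' B') = blockDefect p B' := rfl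
    have hdeg : charDegree (inflIrr hφ θ : C → ℂ) = charDegree (θ : C ⧸ Z → ℂ) := by
      simp [charDegree, inflIrr]
    refine ⟨inflIrr hφ θ, (hmem θ).1 hθ, fun z hz => ?_, ?_⟩
    · have : φ z = φ 1 := by rw [map_one]; exact (QuotientGroup.eq_one_iff z).2 hz
      simp only [inflIrr]; rw [this]
    · rw [hdeg, hcard]
      have h4 : f θ = (charDegree (θ : C ⧸ Z → ℂ)).factorization p := rfl
      omega
  · rintro ⟨θ, hθe, hθZ, hθd⟩
    obtain ⟨ψ, hψ, hψeq⟩ := CharTheory.exists_descend θ.2 Z hθZ
    set θ' : IrrCharacter (C ⧸ Z) := ⟨ψ, hψ⟩ with hθ'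
    have hfull : (charDegree (θ' : C ⧸ Z → ℂ)).factorization p
        = (Nat.card (C ⧸ Z)).factorization p := by
      have : charDegree (θ : C → ℂ) = charDegree ψ := by
        simp only [charDegree]; rw [hψeq 1]; rfl
      rw [this] at hθd
      show (charDegree ψ).factorization p = _
      omega
    have hnd : ¬ p ∣ Nat.card (C ⧸ Z) / charDegree (θ' : C ⧸ Z → ℂ) :=
      (Blocks.not_dvd_card_div_charDegree_iff (p := p) θ').2 hfull
    set f : Set (IrrCharacter (C ⧸ Z)) := blockOf M (θ' : C ⧸ Z → ℂ) with hfdef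
    have hf : IsPBlock M f := ⟨θ', rfl⟩
    have hsing := Blocks.blockOf_eq_singleton_of_full hM θ' hnd
    set x := mapG φ (redElem M (blockCoeff e)) with hx
    have hθinfl : ∀ χ ∈ f, ∀ χ' : IrrCharacter C,
        (χ' : C → ℂ) = (fun g => (χ : C ⧸ Z → ℂ) (φ g)) → χ' ∈ e := by
      intro χ hχ χ' h'
      rw [hfdef, hsing, Set.mem_singleton_iff] at hχ
      have : χ' = θ := Subtype.ext (h'.trans (funext fun g => by rw [hχ, hψeq g]; rfl))
      rwa [this]
    have hxf : x * redElem M (blockCoeff f) = redElem M (blockCoeff f) :=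
      (inflate_mem_iff hφ he hf).1 hθinfl
    have heb := isBlockIdem_redElem_blockCoeff (M := M) he
    have hxctr : x ∈ ctr (Blocks.Res M) (⊤ : Subgroup (C ⧸ Z)) :=
      mapG_mem_ctr_top hφ (mem_ctr.1 heb.mem).2
    have hxx : x * x = x := by rw [hx, ← map_mul, heb.mul_self]
    have hxeq : x = redElem M (blockCoeff f) := by
      conv_lhs => rw [← mul_one x, ← sum_blockIdems (k := Blocks.Res M) (⊤ : Subgroup (C ⧸ Z)),
        Finset.mul_sum]
      rw [Finset.sum_eq_single (redElem M (blockCoeff f))]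
      · exact hxf
      · intro g hg hne
        have hgb := mem_blockIdems.1 hg
        rcases hgb.2.2.2 _ hxctr hxx with h0 | h0
        · rw [← ctr_commute hgb.mem hxctr]; exact h0
        · exfalso
          obtain ⟨B'', hB'', hB''g⟩ := exists_isPBlock_of_isBlockIdem hgb
          obtain ⟨η, hη⟩ := Blocks.isPBlock_nonempty hB''
          have hηe : inflIrr hφ η ∈ e := by
            refine (inflate_mem_iff hφ he hB'').2 ?_ η hη _ rfl
            rw [← hB''g] at h0
            rw [hB''g, ← ctr_commute hgb.mem hxctr, ← hB''g]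
            exact h0
          have hθi : inflIrr hφ θ' = θ := Subtype.ext (funext fun g => (hψeq g).symm)
          have hs := sameBlock_of_inflate hM hφ (hker.symm ▸ hZc) (hker.symm ▸ hZp) he
            (hθi.symm ▸ hθe) hηe
          have hηf : η ∈ f := hs
          apply hne
          rw [← hB''g]
          congr 2
          obtain ⟨ζ, rfl⟩ := hB''
          exact Set.ext fun a => ⟨fun ha => Blocks.sameBlock_trans hs
              (Blocks.sameBlock_trans (Blocks.sameBlock_symm hη) ha),
            fun ha => Blocks.sameBlock_trans hη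
              (Blocks.sameBlock_trans (Blocks.sameBlock_symm hs) ha)⟩
      · intro h
        exact absurd (mem_blockIdems.2 (isBlockIdem_redElem_blockCoeff hf)) h
    obtain ⟨D, hD⟩ := BrauerPairs.exists_isDefectGroup hM he
    have hZD : Z ≤ D := (CfsgLib.Cores.le_pCore hZp).trans (Blocks.pCore_le_isDefectGroup hM he hD)
    have hDI := (isDefectGroup_iff hM he).1 hD
    obtain ⟨E, hE⟩ := BrauerPairs.exists_isDefectGroup hM hf
    have hEc : Nat.card E = 1 := by
      rw [Blocks.card_isDefectGroup hM hf hE]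
      have : blockDefect p f = 0 := by
        simp only [blockDefect, hfdef, hsing, Set.image_singleton, csInf_singleton, hfull,
          Nat.sub_self]
      rw [this, pow_zero]
    have hEbot : E = ⊥ := Subgroup.eq_bot_of_card_eq E hEc
    have hDle : D ≤ Z := by
      have hne : brau (D.map φ) (redElem M (blockCoeff f)) ≠ 0 := by
        rw [← hxeq, hx, brau_map_mapG φ hDI.2.1
          (heb.fixed_of_le (le_top : D ≤ ⊤))]
        refine mapG_ne_zero_of_idem hφ (hker.symm ▸ hZp)
          (brau_idem hDI.2.1 (heb.fixed_of_le (le_top : D ≤ ⊤)) heb.mul_self) hDI.2.2.1 ?_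
        intro u hu
        rw [hker] at hu
        exact MonoidAlgebra.single_commute (fun g => (Subgroup.mem_center_iff.1 (hZc hu) g).symm)
          (fun r => Commute.all _ r) _
      obtain ⟨c, -, hc⟩ := ((isDefectGroup_iff hM hf).1 hE).exists_conj_le
        (hDI.2.1.map φ) le_top hne
      intro d hd
      have := hc (φ d) ⟨d, hd, rfl⟩
      rw [hEbot, Subgroup.mem_bot] at this
      have h1 : φ d = 1 := by
        calc φ d = c * (c⁻¹ * φ d * c) * c⁻¹ := by group
          _ = 1 := by rw [this]; group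
      rw [← hker]; exact h1
    exact le_antisymm hDle hZD ▸ hD


/-- Let p be a prime, M a maximal ideal of the algebraic integers containing p, and (Q, e) a Brauer pair of the finite group G (Q a p-subgroup, e a block of C_G(Q)). Then (Q, e) is a maximal Brauer pair of some block of G if and only if e contains an irreducible character θ such that θ takes the value θ(1) at every element of Z(Q) = Q ∩ C_G(Q), the p-part of θ(1) times the p-part of the order of Z(Q) equals the p-part of the order of C_G(Q) (θ has defect zero as a character of C_G(Q)/Z(Q)), and every element of N_G(Q) of p-power order that stabilizes e lies in Q·C_G(Q) (the stabilizer of e in N_G(Q) has index prime to p over Q·C_G(Q)). -/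
theorem result {G : Type*} [Group G] [Finite G] (p : ℕ) [Fact p.Prime] (M : Ideal Cfsg.AlgInt) (hM : Cfsg.IsPModular p M) (Q : Subgroup G) (e : Set (Cfsg.IrrCharacter (Subgroup.centralizer (Q : Set G)))) (he : Cfsg.IsBrauerPair p M Q e) :
    (∃ B : Set (Cfsg.IrrCharacter G), Cfsg.IsMaximalBrauerPair p M B Q e) ↔
      ∃ θ ∈ e, (∀ z : Subgroup.centralizer (Q : Set G), (z : G) ∈ Q → (θ : Subgroup.centralizer (Q : Set G) → ℂ) z = (θ : Subgroup.centralizer (Q : Set G) → ℂ) 1) ∧
        (Cfsg.charDegree (θ : Subgroup.centralizer (Q : Set G) → ℂ)).factorization p + (Nat.card ↥(Q ⊓ Subgroup.centralizer (Q : Set G))).factorization p = (Nat.card (Subgroup.centralizer (Q : Set G))).factorization p ∧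
        (∀ g : G, g ∈ Subgroup.normalizer (Q : Set G) → Cfsg.StabilizesBlock (Subgroup.centralizer (Q : Set G)) e g → (∃ k : ℕ, orderOf g = p ^ k) → g ∈ Q ⊔ Subgroup.centralizer (Q : Set G)) := by
  classical
  haveI : M.IsPrime := CfsgLib.Blocks.isPrime_of_isPModular hM
  haveI : M.IsMaximal := hM.2.1
  haveI : IsAlgClosed (CfsgLib.Blocks.Res M) := CfsgLib.Blocks.isAlgClosed_res
  haveI : CharP (CfsgLib.Blocks.Res M) p := CfsgLib.Blocks.charP_res hM
  obtain ⟨hQp, heb⟩ := he
  set φe := subIdem M (Subgroup.centralizer (Q : Set G)) e with hφe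
  let Zc : Subgroup (Subgroup.centralizer (Q : Set G)) := Q.subgroupOf (Subgroup.centralizer (Q : Set G))
  haveI hZn : Zc.Normal := ⟨fun z hz c => by
    have hcomm : (c : G) * z = z * c := (Subgroup.mem_centralizer_iff.1 c.2 z hz).symm
    show (c : G) * z * (c : G)⁻¹ ∈ Q
    rw [hcomm, mul_inv_cancel_right]; exact hz⟩
  have hZcen : Zc ≤ Subgroup.center (Subgroup.centralizer (Q : Set G)) := fun z hz => Subgroup.mem_center_iff.2 fun c =>
    Subtype.ext (Subgroup.mem_centralizer_iff.1 c.2 z hz).symm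
  have hZp : IsPGroup p Zc :=
    (hQp.to_le inf_le_left).of_equiv ((Subgroup.subgroupOfEquivOfLe
      (inf_le_right : Q ⊓ (Subgroup.centralizer (Q : Set G)) ≤ (Subgroup.centralizer (Q : Set G)))).symm.trans (MulEquiv.subgroupCongr (Subgroup.inf_subgroupOf_right Q (Subgroup.centralizer (Q : Set G)))))
  have hZcard : Nat.card Zc = Nat.card ↥(Q ⊓ (Subgroup.centralizer (Q : Set G))) := by
    show Nat.card (Q.subgroupOf (Subgroup.centralizer (Q : Set G))) = _
    rw [← Subgroup.inf_subgroupOf_right Q (Subgroup.centralizer (Q : Set G))]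
    exact Nat.card_congr (Subgroup.subgroupOfEquivOfLe inf_le_right).toEquiv
  have hZmap : Zc.map (Subgroup.centralizer (Q : Set G)).subtype = Q ⊓ (Subgroup.centralizer (Q : Set G)) := by
    exact Subgroup.subgroupOf_map_subtype _ _
  have hpair : IsPair p (⊤ : Subgroup G) Q φe := isPair_subIdem ⟨hQp, heb⟩
  have hdefiff : IsDefectIn p (cenIn (⊤ : Subgroup G) Q) (cenIn (⊤ : Subgroup G) Q) φe (Q ⊓ (Subgroup.centralizer (Q : Set G))) ↔
      ∃ θ ∈ e, (∀ z : (Subgroup.centralizer (Q : Set G)), (z : G) ∈ Q → (θ : (Subgroup.centralizer (Q : Set G)) → ℂ) z = (θ : (Subgroup.centralizer (Q : Set G)) → ℂ) 1) ∧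
        (charDegree (θ : (Subgroup.centralizer (Q : Set G)) → ℂ)).factorization p + (Nat.card ↥(Q ⊓ (Subgroup.centralizer (Q : Set G)))).factorization p
          = (Nat.card (Subgroup.centralizer (Q : Set G))).factorization p := by
    rw [cenIn_top, ← hZmap, ← isDefectGroup_sub_iff hM heb, defect_iff hM Zc hZcen hZp heb,
      hZmap, ← hZcard]
    rfl
  have hstab : ∀ g : G, g ∈ pairStab (⊤ : Subgroup G) Q φe ↔
      g ∈ Subgroup.normalizer (Q : Set G) ∧ StabilizesBlock (Subgroup.centralizer (Q : Set G)) e g := fun g =>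
    mem_pairStab_top_iff heb
  constructor
  · rintro ⟨B, hB⟩
    obtain ⟨hBb, -, hmax⟩ := (isMaximalBrauerPair_iff hM).1 hB
    have hb := isBlockIdem_redElem_blockCoeff (M := M) hBb
    have hd : IsDefectIn p (cenIn (⊤ : Subgroup G) Q) (cenIn (⊤ : Subgroup G) Q) φe (Q ⊓ (Subgroup.centralizer (Q : Set G))) := by
      obtain ⟨c, -, hle, hd⟩ := hmax.exists_conj_defect hb hmax.1
      have hcQ : cj c Q = Q := Subgroup.eq_of_le_of_card_ge hle.le
        (le_of_eq (Subgroup.card_map_of_injective (MulAut.conj c).injective).symm)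
      rw [hcQ] at hle hd
      have : conjA c φe = φe :=
        (existsUnique_pairLE hpair le_rfl).unique hle (PairLE.refl p ⊤ Q φe)
      rwa [this] at hd
    obtain ⟨θ, hθ, h1, h2⟩ := hdefiff.1 hd
    refine ⟨θ, hθ, h1, h2, fun g hgN hgs hgp => ?_⟩
    have hgT : g ∈ pairStab (⊤ : Subgroup G) Q φe := (hstab g).2 ⟨hgN, hgs⟩
    have hidx := hmax.not_dvd_relIndex hb
    rw [cenIn_top] at hidx
    set T := pairStab (⊤ : Subgroup G) Q φe with hT
    have hn : ((Q ⊔ (Subgroup.centralizer (Q : Set G))).subgroupOf T).Normal := by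
      have hTN : T ≤ Subgroup.normalizer ((Q ⊔ (Subgroup.centralizer (Q : Set G)) : Subgroup G) : Set G) := by
        intro t ht
        have ht' := ((hstab t).1 ht).1
        have hcen : t ∈ Subgroup.normalizer ((Subgroup.centralizer (Q : Set G)) : Set G) := by
          have := mem_normalizer_cenIn (K := (⊤ : Subgroup G)) (Q := Q) (Subgroup.mem_top t) ht'
          rwa [cenIn_top] at this
        have hle : ∀ X : Subgroup G, t ∈ Subgroup.normalizer (X : Set G) → X.map (MulAut.conj t).toMonoidHom ≤ X := by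
          rintro X hX _ ⟨x, hx, rfl⟩
          exact (Subgroup.mem_normalizer_iff.1 hX x).1 hx
        have h3 : (Q ⊔ Subgroup.centralizer (Q : Set G)).map (MulAut.conj t).toMonoidHom = Q ⊔ Subgroup.centralizer (Q : Set G) := by
          refine Subgroup.eq_of_le_of_card_ge ?_ ?_
          · rw [Subgroup.map_sup]; exact sup_le_sup (hle Q ht') (hle _ hcen)
          · exact (Subgroup.card_map_of_injective (MulAut.conj t).injective).ge
        refine Subgroup.mem_normalizer_iff.2 fun x => ⟨fun hx => h3 ▸ ⟨x, hx, rfl⟩, fun hx => ?_⟩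
        rw [← h3] at hx
        obtain ⟨y, hy, hyx⟩ := hx
        rwa [(MulAut.conj t).injective hyx] at hy
      exact Subgroup.normal_subgroupOf_of_le_normalizer hTN
    obtain ⟨k, hk⟩ := hgp
    have hq : orderOf (QuotientGroup.mk' ((Q ⊔ (Subgroup.centralizer (Q : Set G))).subgroupOf T) ⟨g, hgT⟩) = 1 := by
      have h1 := orderOf_map_dvd (QuotientGroup.mk' ((Q ⊔ (Subgroup.centralizer (Q : Set G))).subgroupOf T)) ⟨g, hgT⟩
      rw [Subgroup.orderOf_mk, hk] at h1
      obtain ⟨j, -, hj⟩ := (Nat.dvd_prime_pow (Fact.out : p.Prime)).1 h1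
      have h2 : orderOf (QuotientGroup.mk' ((Q ⊔ (Subgroup.centralizer (Q : Set G))).subgroupOf T) ⟨g, hgT⟩)
          ∣ (Q ⊔ (Subgroup.centralizer (Q : Set G))).relIndex T := orderOf_dvd_natCard _
      rcases Nat.eq_zero_or_pos j with rfl | hj0
      · simpa using hj
      · exact absurd ((dvd_pow_self p hj0.ne').trans (hj ▸ h2)) hidx
    exact (QuotientGroup.eq_one_iff (⟨g, hgT⟩ : T)).1 (orderOf_eq_one_iff.1 hq)
  · rintro ⟨θ, hθ, h1, h2, h3⟩
    have hd := hdefiff.2 ⟨θ, hθ, h1, h2⟩
    obtain ⟨b, ⟨hb, hbQ⟩, -⟩ := existsUnique_pairOf hpair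
    obtain ⟨B, hB, rfl⟩ := exists_isPBlock_of_isBlockIdem hb
    obtain ⟨R, g, hmax, hle⟩ := exists_isMaxPair_above hbQ
    have hRQ : R = Q := by
      by_contra hne
      have hlt : Q < R := lt_of_le_of_ne hle.le (Ne.symm hne)
      have hRp : IsPGroup p R := hmax.1.1.1
      obtain ⟨x, ⟨hxR, hxN⟩, hxQ⟩ := SetLike.exists_of_lt (lt_inf_normalizer hRp hlt)
      have hxT := hle.normalizer_le_stab hmax.1.1 ⟨hxR, hxN⟩
      have hxp : ∃ k : ℕ, orderOf x = p ^ k := by
        obtain ⟨k, hk⟩ := IsPGroup.iff_orderOf.1 hRp ⟨x, hxR⟩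
        exact ⟨k, by rwa [Subgroup.orderOf_mk] at hk⟩
      have hxQC := h3 x hxN ((hstab x).1 hxT).2 hxp
      rw [← SetLike.mem_coe, Subgroup.coe_mul_of_right_le_normalizer_left Q (Subgroup.centralizer (Q : Set G))
        (Subgroup.centralizer_le_normalizer _)] at hxQC
      obtain ⟨q, hq, c, hc, rfl⟩ := hxQC
      have hcR : c ∈ R := by
        have := R.mul_mem (R.inv_mem (hle.le hq)) hxR
        simpa [mul_assoc] using this
      obtain ⟨D, hD, hge⟩ := hle.exists_defect_ge hmax.1.1
      obtain ⟨a, -, ha⟩ := hd.exists_conj hD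
      have hZle : Q ⊓ (Subgroup.centralizer (Q : Set G)) ≤ R ⊓ (Subgroup.centralizer (Q : Set G)) := inf_le_inf_right _ hle.le
      have : Q ⊓ (Subgroup.centralizer (Q : Set G)) = R ⊓ (Subgroup.centralizer (Q : Set G)) := Subgroup.eq_of_le_of_card_ge hZle (by
        refine (Subgroup.card_le_of_le hge).trans (le_of_eq ?_)
        rw [ha, Subgroup.card_map_of_injective (MulAut.conj a).injective])
      have hcQ : c ∈ Q := (this.ge ⟨hcR, hc⟩).1
      exact hxQ (Q.mul_mem hq hcQ)
    subst hRQ
    refine ⟨B, (isMaximalBrauerPair_iff hM).2 ⟨hB, heb, ?_⟩⟩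
    have heg := (existsUnique_pairLE hmax.1.1 le_rfl).unique hle (PairLE.refl p ⊤ R g)
    rw [← hφe, heg]; exact hmax

end Cfsg.Agent.S4828
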