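import Cfsg.Statements.S4836
import Cfsg.Agent.Lib.Correspondences.GagolaBasic

set_option linter.style.haveILetI false

set_option autoImplicit false
open Cfsg

namespace Cfsg.Agent.S4836

/-- Let G be a finite group of order greater than 2 with an irreducible character χ that is nonzero on exactly two conjugacy classes. Then χ is faithful (it takes the value χ(1) only at the identity), it is the only faithful irreducible character of G, and it is the only irreducible character of G that is nonzero on exactly two conjugacy classes. -/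
theorem result {G : Type*} [Group G] [Finite G] (hG : 2 < Nat.card G) (χ : Cfsg.IrrCharacter G) (hχ : Nat.card {C : ConjClasses G // ∃ g ∈ C.carrier, (χ : G → ℂ) g ≠ 0} = 2) :
    (∀ g : G, (χ : G → ℂ) g = (χ : G → ℂ) 1 → g = 1) ∧
      (∀ ψ : Cfsg.IrrCharacter G, (∀ g : G, (ψ : G → ℂ) g = (ψ : G → ℂ) 1 → g = 1) → ψ = χ) ∧
      (∀ ψ : Cfsg.IrrCharacter G, Nat.card {C : ConjClasses G // ∃ g ∈ C.carrier, (ψ : G → ℂ) g ≠ 0} = 2 → ψ = χ) := by
  obtain ⟨N, m, h⟩ := CfsgLib.Correspondences.exists_gagolaData hG χ hχ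
  have huniq : ∀ ψ : Cfsg.IrrCharacter G,
      (∀ g : G, (ψ : G → ℂ) g = (ψ : G → ℂ) 1 → g = 1) → ψ = χ := by
    intro ψ hψ
    by_contra hne
    obtain ⟨c, hc, hc1⟩ := (Subgroup.bot_or_exists_ne_one N).resolve_left h.ne_bot
    exact hc1 (hψ c (h.other ψ hne c hc))
  refine ⟨fun g => h.faithful, huniq, fun ψ hψ => huniq ψ ?_⟩
  obtain ⟨M, m', h'⟩ := CfsgLib.Correspondences.exists_gagolaData hG ψ hψ
  exact fun g => h'.faithful

end Cfsg.Agent.S4836
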