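import Cfsg.Statements.S4837
import Cfsg.Agent.Lib.Correspondences.GagolaBasic
open CfsgLib.CharTheory CfsgLib.Correspondences
open scoped ComplexConjugate

set_option linter.style.haveILetI false

set_option autoImplicit false
open Cfsg

namespace Cfsg.Agent.S4837

/-- Let G be a finite group of order greater than 2 with an irreducible character χ nonzero on exactly two conjugacy classes, and let N be the set of elements where χ is nonzero, given as a nontrivial normal p-subgroup of G for the prime p. Then for every nonidentity x in N the centralizer C_G(x) is a Sylow p-subgroup of G, and for every irreducible character λ ≠ 1 of N the stabilizer of λ in G (its inertia group) is a Sylow p-subgroup of G. -/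
theorem result {G : Type*} [Group G] [Finite G] (hG : 2 < Nat.card G) (χ : Cfsg.IrrCharacter G) (hχ : Nat.card {C : ConjClasses G // ∃ g ∈ C.carrier, (χ : G → ℂ) g ≠ 0} = 2) (p : ℕ) [Fact p.Prime] (N : Subgroup G) [N.Normal] (hN : ∀ g : G, g ∈ N ↔ (χ : G → ℂ) g ≠ 0) (hNp : IsPGroup p N) (hN1 : N ≠ ⊥) :
    (∀ x ∈ N, x ≠ 1 → ∃ P : Sylow p G, Subgroup.centralizer ({x} : Set G) = P) ∧
      (∀ μ : Cfsg.IrrCharacter N, (μ : N → ℂ) ≠ (fun _ => (1 : ℂ)) → ∃ P : Sylow p G, ∀ g : G, g ∈ (P : Subgroup G) ↔ ∀ n n' : N, (n' : G) = g * n * g⁻¹ → (μ : N → ℂ) n' = (μ : N → ℂ) n) := by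
  classical
  obtain ⟨m, h⟩ := exists_gagolaData_of_support hG χ hχ N hN
  obtain ⟨j, n, hn, hm, hcard, hab, hexp⟩ := h.exists_params p hNp
  have hpn : 1 < p ^ n := Nat.one_lt_pow hn.ne' (Fact.out : p.Prime).one_lt
  have hndvd : ¬ p ∣ p ^ n - 1 := fun hd => (Fact.out : p.Prime).not_dvd_one
    ((Nat.dvd_sub_iff_right hpn.le (dvd_pow_self p hn.ne')).1 hd)
  have hpow : m ^ 2 * Nat.card N = p ^ (2 * j + n) := by
    rw [hcard, hm, ← pow_mul, ← pow_add, Nat.mul_comm j 2]
  have hsyl : ∀ H : Subgroup G, Nat.card H = p ^ (2 * j + n) → ∃ P : Sylow p G, H = P := by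
    intro H hH
    have hi := Subgroup.card_mul_index H
    rw [hH, h.card_eq, mul_right_comm, hpow] at hi
    have hi' : H.index = p ^ n - 1 := by
      rw [← hcard]; exact Nat.eq_of_mul_eq_mul_left (pow_pos (Fact.out : p.Prime).pos _) hi
    exact ⟨IsPGroup.toSylow (IsPGroup.of_card hH) (hi' ▸ hndvd), rfl⟩
  refine ⟨fun x hx hx1 => hsyl _ (by rw [h.centralizer_card hx hx1, hpow]), fun μ hμ => ?_⟩
  haveI := Fintype.ofFinite G
  haveI := Fintype.ofFinite N
  haveI := Fintype.ofFinite (IrrCharacter N)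
  haveI : Fintype (ConjClasses N) := Fintype.ofFinite _
  -- `μ` is linear
  have hμ1 : (μ : N → ℂ) 1 = 1 := by
    have hc : Nat.card (IrrCharacter N) = Nat.card N := by
      rw [card_irrCharacter]
      refine (Nat.card_eq_of_bijective ConjClasses.mk ⟨fun a b hab' => ?_, ConjClasses.mk_surjective⟩).symm
      obtain ⟨c, hc⟩ := isConj_iff.1 (ConjClasses.mk_eq_mk_iff_isConj.1 hab')
      rw [← hc]
      apply Subtype.ext
      push_cast
      rw [hab c c.2 a a.2]
      group
    have hsq := sum_charDegree_sq (G := N)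
    by_contra hne
    have hd : charDegree (μ : N → ℂ) ≠ 1 := fun e => hne (by
      rw [← charDegree_cast (IsIrrCharacter.isCharacter μ.2), e, Nat.cast_one])
    have hlt : ∑ _ψ : IrrCharacter N, 1 < ∑ ψ : IrrCharacter N, charDegree (ψ : N → ℂ) ^ 2 :=
      Finset.sum_lt_sum (fun ψ _ => Nat.one_le_pow _ _ (charDegree_pos ψ.2))
        ⟨μ, Finset.mem_univ _, Nat.one_lt_pow two_ne_zero (by have := charDegree_pos μ.2; omega)⟩
    rw [hsq, Finset.sum_const, Finset.card_univ, smul_eq_mul, mul_one, ← Nat.card_eq_fintype_card,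
      hc] at hlt
    exact lt_irrefl _ hlt
  let c : G →* MulAut N := MulAut.conjNormal
  let T : Subgroup G :=
    { carrier := {g | ∀ x : N, (μ : N → ℂ) (c g x) = (μ : N → ℂ) x}
      one_mem' := fun x => by simp
      mul_mem' := fun {a b} ha hb x => by
        rw [map_mul, MulAut.mul_apply, ha, hb]
      inv_mem' := fun {a} ha x => by
        rw [← ha (c a⁻¹ x), ← MulAut.mul_apply, ← map_mul, mul_inv_cancel, map_one, MulAut.one_apply] }
  set k : ℕ := Nat.card N - 1 with hk
  have hk0 : 0 < k := by have := h.two_le; omega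
  let S : N → ℂ := fun x => ∑ g : G, (μ : N → ℂ) (c g x)
  have hinv : ∀ (g : G) (x : N), S (c g x) = S x := fun g x =>
    Fintype.sum_equiv (Equiv.mulRight g) _ _ fun a => by simp
  obtain ⟨z, hz, hz1⟩ := (Subgroup.bot_or_exists_ne_one N).resolve_left hN1
  set z' : N := ⟨z, hz⟩
  have hconst : ∀ x : N, x ≠ 1 → S x = S z' := by
    intro x hx
    obtain ⟨g, hg⟩ := isConj_iff.1
      (h.fused z hz x x.2 hz1 (fun e => hx (Subtype.ext e)))
    have : c g z' = x := Subtype.ext (by simpa [c, z'] using hg)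
    rw [← this, hinv]
  have hS1 : S 1 = Nat.card G := by simp [S, hμ1]
  have hsum0 : ∑ x : N, (μ : N → ℂ) x = 0 := by
    have h0 := classInner_irrCharacter μ (trivIrr N)
    rw [if_neg (fun e => hμ (by rw [e]; funext x; rw [trivIrr_apply])), Cfsg.classInner,
      mul_eq_zero] at h0
    simpa [trivIrr_apply] using h0.resolve_left (inv_ne_zero (Nat.cast_ne_zero.2 Nat.card_pos.ne'))
  have hsumS : ∑ x : N, S x = 0 := by
    rw [Finset.sum_comm]
    refine Finset.sum_eq_zero fun g _ => ?_
    exact (Fintype.sum_equiv (c g).toEquiv _ _ fun x => rfl).trans hsum0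
  have ha : (k : ℂ) * S z' = -(Nat.card G : ℂ) := by
    rw [← Finset.add_sum_erase _ _ (Finset.mem_univ (1 : N)), hS1,
      Finset.sum_congr rfl (fun x hx => hconst x (Finset.ne_of_mem_erase hx)), Finset.sum_const,
      Finset.card_erase_of_mem (Finset.mem_univ _), Finset.card_univ, nsmul_eq_mul,
      ← Nat.card_eq_fintype_card] at hsumS
    exact eq_neg_of_add_eq_zero_right hsumS
  have hinner : Cfsg.classInner S (μ : N → ℂ) = (Nat.card T : ℂ) := by
    have hS : S = ∑ g : G, fun x => (μ : N → ℂ) (c g x) := by funext x; simp [S, Finset.sum_apply]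
    rw [hS, classInner_sum_left, Nat.card_eq_fintype_card,
      Fintype.card_subtype, Finset.card_filter, Nat.cast_sum]
    refine Finset.sum_congr rfl fun g _ => ?_
    have hg : IsIrrCharacter N (fun x => (μ : N → ℂ) (c g x)) :=
      isIrrCharacter_comp_of_surjective μ.2 (c g).toMonoidHom (c g).surjective
    rw [classInner_irr hg μ.2]
    by_cases hgT : g ∈ T
    · rw [if_pos hgT, if_pos (funext fun x => hgT x), Nat.cast_one]
    · rw [if_neg hgT, if_neg (fun e => hgT fun x => congrFun e x), Nat.cast_zero]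
  have hcardT : k * Nat.card T = Nat.card G := by
    have hrest : ∑ x ∈ Finset.univ.erase (1 : N), conj ((μ : N → ℂ) x) = -1 := by
      rw [← map_sum, Finset.sum_erase_eq_sub (Finset.mem_univ _), hsum0, hμ1]
      simp
    have hN0 : (Nat.card N : ℂ) ≠ 0 := Nat.cast_ne_zero.2 Nat.card_pos.ne'
    have hkN : (Nat.card N : ℂ) = k + 1 := by
      have : Nat.card N = k + 1 := by have := h.two_le; omega
      exact_mod_cast congrArg (Nat.cast : ℕ → ℂ) this
    have e : (Nat.card N : ℂ) * (Nat.card T : ℂ) = Nat.card G - S z' := by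
      rw [← hinner, Cfsg.classInner, mul_inv_cancel_left₀ hN0,
        ← Finset.add_sum_erase _ _ (Finset.mem_univ (1 : N)), hS1, hμ1,
        Finset.sum_congr rfl (fun x hx => by rw [hconst x (Finset.ne_of_mem_erase hx)]),
        ← Finset.mul_sum, hrest]
      simp [sub_eq_add_neg]
    have e2 : ((k : ℂ) + 1) * ((k : ℂ) * Nat.card T - Nat.card G) = 0 := by
      rw [← hkN]; linear_combination (k : ℂ) * e - ha + (Nat.card G : ℂ) * (-hkN)
    have e3 := (mul_eq_zero.1 e2).resolve_left (hkN ▸ hN0)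
    exact_mod_cast sub_eq_zero.1 e3
  obtain ⟨P, hP⟩ := hsyl T (by
    rw [h.card_eq, ← hk, mul_right_comm, hpow, mul_comm k] at hcardT
    exact Nat.eq_of_mul_eq_mul_right hk0 hcardT)
  refine ⟨P, fun g => ?_⟩
  rw [← hP]
  constructor
  · intro hg x x' hx'
    have hx'' : x' = c g x := Subtype.ext (by simpa [c] using hx')
    rw [hx'']
    exact hg x
  · intro hg x
    exact hg x (c g x) (by simp [c])

end Cfsg.Agent.S4837
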