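import Cfsg.Statements.S4838
import Cfsg.Agent.Lib.Correspondences.GagolaBasic
import Cfsg.Agent.Lib.Cores.PCore
open CfsgLib.CharTheory CfsgLib.Correspondences

set_option linter.style.haveILetI false

set_option autoImplicit false
open Cfsg

namespace Cfsg.Agent.S4838

/-- Let G be a finite group of order greater than 2 with an irreducible character χ nonzero on exactly two conjugacy classes, N the normal p-subgroup of elements where χ is nonzero, and P a Sylow p-subgroup of G. Then (a) for every x outside N the centralizer of x in G has the same order as the centralizer of xN in G/N; (b) the centre of P lies in N, and equals N exactly when P is normal in G; (c) N, viewed inside P, is a term of the upper central series of P. -/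
theorem result {G : Type*} [Group G] [Finite G] (hG : 2 < Nat.card G) (χ : Cfsg.IrrCharacter G) (hχ : Nat.card {C : ConjClasses G // ∃ g ∈ C.carrier, (χ : G → ℂ) g ≠ 0} = 2) (p : ℕ) [Fact p.Prime] (N : Subgroup G) [N.Normal] (hN : ∀ g : G, g ∈ N ↔ (χ : G → ℂ) g ≠ 0) (hNp : IsPGroup p N) (hN1 : N ≠ ⊥) (P : Sylow p G) :
    (∀ x : G, x ∉ N → Nat.card (Subgroup.centralizer ({x} : Set G)) = Nat.card (Subgroup.centralizer ({(x : G ⧸ N)} : Set (G ⧸ N)))) ∧
      ((Subgroup.center ↥(P : Subgroup G)).map (P : Subgroup G).subtype ≤ N ∧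
        ((Subgroup.center ↥(P : Subgroup G)).map (P : Subgroup G).subtype = N ↔ (P : Subgroup G).Normal)) ∧
      (∃ i : ℕ, Subgroup.upperCentralSeries ↥(P : Subgroup G) i = N.subgroupOf (P : Subgroup G)) := by
  classical
  obtain ⟨m, h⟩ := exists_gagolaData_of_support hG χ hχ N hN
  obtain ⟨j, n, hn, hm, hcard, hab, hexp⟩ := h.exists_params p hNp
  have hp : p.Prime := Fact.out
  have hpn : 1 < p ^ n := Nat.one_lt_pow hn.ne' hp.one_lt
  have hndvd : ¬ p ∣ p ^ n - 1 := fun hd => hp.not_dvd_one
    ((Nat.dvd_sub_iff_right hpn.le (dvd_pow_self p hn.ne')).1 hd)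
  have hpow : m ^ 2 * Nat.card N = p ^ (2 * j + n) := by
    rw [hcard, hm, ← pow_mul, ← pow_add, Nat.mul_comm j 2]
  have hidx : N.index = p ^ (2 * j) * (p ^ n - 1) := by
    have hi := Subgroup.card_mul_index N
    rw [h.card_eq, mul_comm] at hi
    rw [← hcard, Nat.eq_of_mul_eq_mul_right Nat.card_pos hi, hm, ← pow_mul, Nat.mul_comm j 2]
  have hcardP : Nat.card (P : Subgroup G) = p ^ (2 * j + n) := by
    have hk' : p ^ n - 1 ≠ 0 := by omega
    rw [Sylow.card_eq_multiplicity, h.card_eq, mul_right_comm, hpow, hcard,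
      Nat.factorization_mul (pow_ne_zero _ hp.ne_zero) hk', hp.factorization_pow, Finsupp.coe_add,
      Pi.add_apply, Finsupp.single_eq_same, Nat.factorization_eq_zero_of_not_dvd hndvd, add_zero]
  have hquot : ∀ x : G, x ∉ N → Nat.card (Subgroup.centralizer ({x} : Set G)) ∣ N.index := by
    intro x hx
    rw [h.card_centralizer_quotient hx, Subgroup.index_eq_card]
    exact Subgroup.card_subgroup_dvd_card _
  have hsmall : ∀ (x : G), x ∉ N → ∀ H : Subgroup G, H ≤ (P : Subgroup G) →
      H ≤ Subgroup.centralizer ({x} : Set G) → Nat.card H ≤ p ^ (2 * j) := by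
    intro x hx H hHP hHC
    obtain ⟨e, he⟩ := IsPGroup.iff_card.1 (P.2.to_le hHP)
    have hd : p ^ e ∣ p ^ (2 * j) * (p ^ n - 1) :=
      hidx ▸ he ▸ (Subgroup.card_dvd_of_le hHC).trans (hquot x hx)
    have hco : (p ^ e).Coprime (p ^ n - 1) := ((hp.coprime_iff_not_dvd).2 hndvd).pow_left e
    rw [he]
    exact Nat.le_of_dvd (pow_pos hp.pos _) (hco.dvd_of_dvd_mul_right hd)
  have hNP : N ≤ (P : Subgroup G) :=
    (CfsgLib.Cores.le_pCore hNp).trans (CfsgLib.Cores.pCore_le_sylow P)
  have hcent : (Subgroup.center ↥(P : Subgroup G)).map (P : Subgroup G).subtype ≤ N := by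
    rintro _ ⟨z, hz, rfl⟩
    by_contra hzN
    have hle : (P : Subgroup G) ≤ Subgroup.centralizer ({(z : G)} : Set G) := by
      intro y hy
      rw [Subgroup.mem_centralizer_singleton_iff]
      exact congrArg Subtype.val (Subgroup.mem_center_iff.1 hz ⟨y, hy⟩)
    have := hsmall z hzN _ le_rfl hle
    rw [hcardP] at this
    exact absurd this (not_le.2 (Nat.pow_lt_pow_right hp.one_lt (by omega)))
  refine ⟨fun x hx => h.card_centralizer_quotient hx, ⟨hcent, ?_, ?_⟩, ?_⟩
  · intro he
    obtain ⟨c, hc, hc1⟩ := (Subgroup.bot_or_exists_ne_one N).resolve_left hN1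
    have hPC : ∀ x ∈ N, x ≠ 1 → (P : Subgroup G) = Subgroup.centralizer ({x} : Set G) := by
      intro x hx hx1
      refine Subgroup.eq_of_le_of_card_ge ?_ (by rw [h.centralizer_card hx hx1, hpow, hcardP])
      rw [← he] at hx
      obtain ⟨z, hz, rfl⟩ := hx
      intro y hy
      rw [Subgroup.mem_centralizer_singleton_iff]
      exact congrArg Subtype.val (Subgroup.mem_center_iff.1 hz ⟨y, hy⟩)
    refine ⟨fun y hy g => ?_⟩
    rw [hPC c hc hc1, Subgroup.mem_centralizer_singleton_iff]
    have hc' : g⁻¹ * c * g ∈ N := by simpa using h.normal.conj_mem c hc g⁻¹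
    have hc1' : g⁻¹ * c * g ≠ 1 := fun e => hc1 (by
      calc c = g * (g⁻¹ * c * g) * g⁻¹ := by group
        _ = 1 := by rw [e]; group)
    rw [hPC _ hc' hc1', Subgroup.mem_centralizer_singleton_iff] at hy
    calc g * y * g⁻¹ * c = g * (y * (g⁻¹ * c * g)) * g⁻¹ := by group
      _ = g * ((g⁻¹ * c * g) * y) * g⁻¹ := by rw [hy]
      _ = c * (g * y * g⁻¹) := by group
  · intro hPn
    refine le_antisymm hcent fun x hx => ⟨⟨x, hNP hx⟩, ?_, rfl⟩
    rw [SetLike.mem_coe, Subgroup.mem_center_iff]
    rintro ⟨y, hy⟩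
    apply Subtype.ext
    show y * x = x * y
    by_cases hx1 : x = 1
    · simp [hx1]
    have hC : Nat.card (Subgroup.centralizer ({x} : Set G)) = p ^ (2 * j + n) := by
      rw [h.centralizer_card hx hx1, hpow]
    have hle : Subgroup.centralizer ({x} : Set G) ≤ (P : Subgroup G) := by
      obtain ⟨Q, hQ⟩ := (IsPGroup.of_card hC).exists_le_sylow
      haveI := Sylow.unique_of_normal P hPn
      rwa [Subsingleton.elim Q P] at hQ
    rw [← Subgroup.eq_of_le_of_card_ge hle (by rw [hC, hcardP])] at hy
    exact Subgroup.mem_centralizer_singleton_iff.1 hy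
  · haveI : Group.IsNilpotent ↥(P : Subgroup G) := P.2.isNilpotent
    obtain ⟨t, ht⟩ := Group.IsNilpotent.nilpotent ↥(P : Subgroup G)
    by_cases hall : ∀ i, Subgroup.upperCentralSeries ↥(P : Subgroup G) i ≤ N.subgroupOf _
    · exact ⟨t, le_antisymm (hall t) (ht ▸ le_top)⟩
    push Not at hall
    obtain ⟨i, hi, himin⟩ := Nat.findX hall
    cases i with
    | zero => simp at hi
    | succ i =>
      have hle : Subgroup.upperCentralSeries ↥(P : Subgroup G) i ≤ N.subgroupOf _ :=
        not_not.1 (himin i (Nat.lt_succ_self i))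
      refine ⟨i, ?_⟩
      by_contra hne
      obtain ⟨x, hx, hxN⟩ := SetLike.not_le_iff_exists.1 hi
      haveI := Fintype.ofFinite ↥(P : Subgroup G)
      have hlt : Nat.card (Subgroup.upperCentralSeries ↥(P : Subgroup G) i) < p ^ n := by
        rw [← hcard, ← Nat.card_congr (Subgroup.subgroupOfEquivOfLe hNP).toEquiv]
        by_contra hge
        exact hne (Subgroup.eq_of_le_of_card_ge hle (not_lt.1 hge))
      have hcls : Nat.card {y : ↥(P : Subgroup G) // IsConj x y} ≤
          Nat.card (Subgroup.upperCentralSeries ↥(P : Subgroup G) i) := by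
        refine Nat.card_le_card_of_injective (fun y => ⟨y.1 * x⁻¹, ?_⟩) fun a b hab' => ?_
        · obtain ⟨g, hg⟩ := isConj_iff.1 y.2
          have := inv_mem (Subgroup.mem_upperCentralSeries_succ_iff.1 hx g)
          rw [← hg]
          simpa [mul_assoc, commutatorElement_def] using this
        · exact Subtype.ext (mul_right_cancel (congrArg Subtype.val hab'))
      rw [card_isConj] at hcls
      have hC := Subgroup.card_mul_index (Subgroup.centralizer ({x} : Set ↥(P : Subgroup G)))
      rw [hcardP, pow_add] at hC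
      have hCle : Nat.card (Subgroup.centralizer ({x} : Set ↥(P : Subgroup G))) ≤ p ^ (2 * j) := by
        rw [Nat.card_congr (Subgroup.equivMapOfInjective _ (P : Subgroup G).subtype
          (P : Subgroup G).subtype_injective).toEquiv]
        refine hsmall x hxN _ (Subgroup.map_subtype_le _) ?_
        rintro _ ⟨y, hy, rfl⟩
        rw [Subgroup.mem_centralizer_singleton_iff]
        exact congrArg Subtype.val (Subgroup.mem_centralizer_singleton_iff.1 hy)
      have h1 := Nat.mul_lt_mul_of_le_of_lt hCle (hcls.trans_lt hlt) (pow_pos hp.pos _)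
      omega

end Cfsg.Agent.S4838
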