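import Cfsg.Statements.S4839
import Cfsg.Agent.Lib.Correspondences.GagolaBasic
import Cfsg.Agent.Lib.Cores.PCore
import Cfsg.Agent.Lib.Correspondences.GagolaFrobenius
open CfsgLib.CharTheory CfsgLib.Correspondences

set_option linter.style.haveILetI false

set_option autoImplicit false
open Cfsg

namespace Cfsg.Agent.S4839

/-- Let G be a finite group of order greater than 2 with an irreducible character χ nonzero on exactly two conjugacy classes, and let N be the normal p-subgroup of elements where χ is nonzero. Then N is the whole p-core O_p(G) if and only if G is a doubly transitive Frobenius group with kernel N: G has a Frobenius complement H whose Frobenius kernel is N and whose order is one less than that of N. -/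
theorem result {G : Type*} [Group G] [Finite G] (hG : 2 < Nat.card G) (χ : Cfsg.IrrCharacter G) (hχ : Nat.card {C : ConjClasses G // ∃ g ∈ C.carrier, (χ : G → ℂ) g ≠ 0} = 2) (p : ℕ) [Fact p.Prime] (N : Subgroup G) [N.Normal] (hN : ∀ g : G, g ∈ N ↔ (χ : G → ℂ) g ≠ 0) (hNp : IsPGroup p N) (hN1 : N ≠ ⊥) :
    N = Cfsg.pCore p G ↔ ∃ H : Subgroup G, Cfsg.IsFrobeniusComplement H ∧ Cfsg.frobeniusKernel H = (N : Set G) ∧ Nat.card H + 1 = Nat.card N := by
  obtain ⟨m, h⟩ := exists_gagolaData_of_support hG χ hχ N hN
  obtain ⟨j, n, hn, hm, hcard, hab, hexp⟩ := h.exists_params p hNp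
  have hp : p.Prime := Fact.out
  constructor
  · intro hcore
    exact gagola_frobenius N hNp hN1 hG
      (fun x hx y hy hx1 hy1 => isConj_iff.1 (h.fused x hx y hy hx1 hy1)) hab hexp
      (fun x hx hx1 => IsPGroup.of_card (n := 2 * j + n) (by
        rw [h.centralizer_card hx hx1, hcard, hm, ← pow_mul, ← pow_add, Nat.mul_comm j 2]))
      (fun y hy => h.card_centralizer_quotient hy) hcore
  · rintro ⟨H, -, hker, hcardH⟩
    refine le_antisymm (CfsgLib.Cores.le_pCore hNp) fun x hx => ?_
    by_contra hxN
    have hxk : x ∉ Cfsg.frobeniusKernel H := hker ▸ hxN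
    simp only [Cfsg.frobeniusKernel, Set.mem_setOf_eq, not_or, not_forall, not_not] at hxk
    obtain ⟨hx1, g, hg⟩ := hxk
    rw [conjAut_smul_mem] at hg
    have hy : g⁻¹ * x * g ∈ Cfsg.pCore p G := by
      have : (Cfsg.pCore p G).Normal := inferInstance
      simpa using this.conj_mem x hx g⁻¹
    obtain ⟨e, he⟩ := IsPGroup.iff_orderOf.1 (CfsgLib.Cores.isPGroup_pCore p G) ⟨_, hy⟩
    rw [Subgroup.orderOf_mk] at he
    have hd : p ^ e ∣ Nat.card H := he ▸ Subgroup.orderOf_dvd_natCard H hg
    rcases Nat.eq_zero_or_pos e with rfl | hepos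
    · rw [pow_zero, orderOf_eq_one_iff] at he
      exact hx1 (by
        calc x = g * (g⁻¹ * x * g) * g⁻¹ := by group
          _ = 1 := by rw [he]; group)
    · have hdH : p ∣ Nat.card H := (dvd_pow_self p hepos.ne').trans hd
      have hdN : p ∣ Nat.card H + 1 := hcardH ▸ hcard ▸ dvd_pow_self p hn.ne'
      exact hp.not_dvd_one ((Nat.dvd_add_right hdH).1 hdN)

end Cfsg.Agent.S4839
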