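import Cfsg.Statements.S4840
import Cfsg.Agent.Lib.Correspondences.GagolaBasic
import Cfsg.Agent.Lib.Correspondences.TransitiveLinear
import Cfsg.Agent.S4837
open CfsgLib.Correspondences

set_option linter.style.haveILetI false

set_option autoImplicit false
open Cfsg

namespace Cfsg.Agent.S4840

/-- Let G be a finite solvable group of order greater than 2 with an irreducible character nonzero on exactly two conjugacy classes. Then there is exactly one prime p with O_p(G) ≠ 1, and the quotient G/O_p(G) has a normal p-complement and commutative Sylow p-subgroups. -/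
theorem result {G : Type*} [Group G] [Finite G] [hs : Group.IsSolvable G] (hG : 2 < Nat.card G) (χ : Cfsg.IrrCharacter G) (hχ : Nat.card {C : ConjClasses G // ∃ g ∈ C.carrier, (χ : G → ℂ) g ≠ 0} = 2) :
    ∃ p : ℕ, p.Prime ∧ (∀ q : ℕ, q.Prime → (Cfsg.pCore q G ≠ ⊥ ↔ q = p)) ∧
      Cfsg.HasNormalPComplement p (G ⧸ Cfsg.pCore p G) ∧ ∀ Q : Sylow p (G ⧸ Cfsg.pCore p G), IsMulCommutative (Q : Subgroup (G ⧸ Cfsg.pCore p G)) := by
  classical
  obtain ⟨N, m, h⟩ := exists_gagolaData hG χ hχ
  haveI := h.normal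
  obtain ⟨p, hp, hNp, hab, -⟩ := h.exists_elementary
  haveI : Fact p.Prime := ⟨hp⟩
  set M := Cfsg.pCore p G with hM
  have hNM : N ≤ M := CfsgLib.Cores.le_pCore hNp
  have hMne : M ≠ ⊥ := fun e => h.ne_bot (le_bot_iff.1 (e ▸ hNM))
  haveI : M.Characteristic := CfsgLib.Cores.pCore_characteristic p G
  haveI : Nontrivial M := (Subgroup.nontrivial_iff_ne_bot M).2 hMne
  haveI : Nontrivial (Subgroup.center M) := (CfsgLib.Cores.isPGroup_pCore p G).center_nontrivial
  have hcent : ∀ x ∈ M, ∀ n ∈ N, x * n = n * x := by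
    intro x hx n hn
    haveI : ((Subgroup.center M).map M.subtype).Normal := inferInstance
    have hne : (Subgroup.center M).map M.subtype ≠ ⊥ := by
      rw [Ne, Subgroup.map_eq_bot_iff_of_injective _ M.subtype_injective]
      exact (Subgroup.nontrivial_iff_ne_bot _).1 inferInstance
    obtain ⟨z, hz, rfl⟩ := Subgroup.mem_map.1 (h.le_of_normal _ hne hn)
    exact congrArg Subtype.val (Subgroup.mem_center_iff.1 hz ⟨x, hx⟩)
  refine ⟨p, hp, fun q hq => ⟨fun hne => ?_, ?_⟩, ?_⟩
  · haveI : (Cfsg.pCore q G).Normal := inferInstance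
    haveI : Fact q.Prime := ⟨hq⟩
    have hNq : IsPGroup q N := (CfsgLib.Cores.isPGroup_pCore q G).to_le (h.le_of_normal _ hne)
    obtain ⟨a, ha⟩ := IsPGroup.iff_card.1 hNp
    obtain ⟨b, hb⟩ := IsPGroup.iff_card.1 hNq
    have h2 := h.two_le
    rcases a with _ | a
    · rw [ha, pow_zero] at h2; omega
    · have hd : p ∣ q ^ b := hb ▸ ha ▸ dvd_pow_self p a.succ_ne_zero
      exact ((Nat.prime_dvd_prime_iff_eq hp hq).1 (hp.dvd_of_dvd_pow hd)).symm
  · rintro rfl
    exact hMne
  · letI : CommGroup N :=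
      { (inferInstance : Group N) with mul_comm := fun a b => Subtype.ext (hab a a.2 b b.2) }
    let φ : G ⧸ M →* MulAut N := QuotientGroup.lift M (MulAut.conjNormal : G →* MulAut N) (fun x hx => by
      refine MulEquiv.ext fun n => Subtype.ext ?_
      show ((MulAut.conjNormal x n : N) : G) = (n : G)
      rw [MulAut.conjNormal_apply, hcent x hx n n.2, mul_inv_cancel_right])
    have happ : ∀ (g : G) (n : N), ((φ (QuotientGroup.mk' M g) n : N) : G) = g * n * g⁻¹ :=
      fun g n => MulAut.conjNormal_apply g n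
    obtain ⟨n0, hn0, hn01⟩ := (Subgroup.bot_or_exists_ne_one N).resolve_left h.ne_bot
    have hsup : ∀ g : G, g ∈ N ↔ (χ : G → ℂ) g ≠ 0 := fun g => (h.mem_iff g).symm
    have hset : TransSetup φ p := by
      refine ⟨hNp, ⟨⟨n0, hn0⟩, fun e => hn01 (congrArg Subtype.val e)⟩, fun v w hv hw => ?_,
        fun v hv k hk => ?_, CfsgLib.Cores.pCore_quotient_pCore p G⟩
      · obtain ⟨g, hg⟩ := isConj_iff.1 (h.fused v v.2 w w.2 (fun e => hv (Subtype.ext e))
          (fun e => hw (Subtype.ext e)))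
        exact ⟨QuotientGroup.mk' M g, Subtype.ext ((happ g v).trans hg)⟩
      · obtain ⟨g, rfl⟩ := QuotientGroup.mk'_surjective M k
        obtain ⟨P, hP⟩ := (Cfsg.Agent.S4837.result hG χ hχ p N hsup hNp h.ne_bot).1 v v.2
          (fun e => hv (Subtype.ext e))
        have hgP : g ∈ (P : Subgroup G) := by
          rw [← hP, Subgroup.mem_centralizer_singleton_iff]
          exact mul_inv_eq_iff_eq_mul.1 ((happ g v).symm.trans (congrArg Subtype.val hk))
        obtain ⟨a, ha⟩ := IsPGroup.iff_orderOf.1 P.2 ⟨g, hgP⟩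
        rw [← Subgroup.orderOf_coe] at ha
        obtain ⟨j, -, hj⟩ := (Nat.dvd_prime_pow hp).1 (ha ▸ orderOf_map_dvd (QuotientGroup.mk' M) g)
        exact ⟨j, hj⟩
    exact hset.main

end Cfsg.Agent.S4840
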