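import Cfsg.Statements.S4843
import Cfsg.Agent.Lib.Correspondences.IdemChar
import Cfsg.Agent.Lib.CharTheory.Ito
import Cfsg.Agent.Lib.CharTheory.Linear
import Cfsg.Agent.Lib.Clifford.Basic
import Cfsg.Agent.Lib.Cores.Fitting
import Cfsg.Agent.Lib.CharDegreesTheory.Galois
open CfsgLib.CharTheory CfsgLib.Frobenius CfsgLib.Clifford CfsgLib.Correspondences CfsgLib.RealChar
open scoped ComplexConjugate

set_option linter.style.haveILetI false

set_option autoImplicit false
open Cfsg

namespace Cfsg.Agent.S4843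

/-- Let G be a finite group with a faithful irreducible character χ (taking the value χ(1) only at the identity) and let k be prime to the order of G, so that g ↦ χ(g^k) is a Galois conjugate of χ. If the pointwise product g ↦ χ(g)·χ(g^k) is again an irreducible character, then the Fitting subgroup of G equals its centre. -/
theorem result {G : Type*} [Group G] [Finite G] (χ : Cfsg.IrrCharacter G) (hfaith : ∀ g : G, (χ : G → ℂ) g = (χ : G → ℂ) 1 → g = 1) (k : ℕ) (hk : Nat.Coprime k (Nat.card G)) (hirr : Cfsg.IsIrrCharacter G (fun g => (χ : G → ℂ) g * (χ : G → ℂ) (g ^ k))) : Cfsg.fittingSubgroup G = Subgroup.center G := by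
  classical
  haveI := Fintype.ofFinite G
  haveI : NeZero (Nat.card G) := ⟨Nat.card_pos.ne'⟩
  obtain ⟨σ, hσ⟩ := CfsgLib.CharDegreesTheory.exists_ringAut_complex (Nat.card G) k hk
  have hpowchar : ∀ {f : G → ℂ}, IsCharacter G f → IsCharacter G (fun g => f (g ^ k)) := by
    intro f hf
    have h := CfsgLib.CharDegreesTheory.isCharacter_ringAut σ hf
    have e : (fun g => σ (f g)) = fun g => f (g ^ k) := funext fun g =>
      CfsgLib.CharDegreesTheory.ringAut_apply_character σ hσ hf (orderOf_dvd_natCard g)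
    rwa [e] at h
  have hroot : ∀ g : G, ∃ l : ℕ, (g ^ k) ^ l = g := fun g =>
    exists_pow_eq_self_of_coprime (hk.coprime_dvd_right (orderOf_dvd_natCard g))
  have hχc := IsIrrCharacter.isCharacter χ.2
  set α : G → ℂ := fun g => (χ : G → ℂ) g * conj ((χ : G → ℂ) g) with hα
  have hαc : IsCharacter G α := CfsgLib.CharTheory.isCharacter_mul hχc
    (CfsgLib.CharTheory.isCharacter_conj hχc)
  have hαα : Cfsg.classInner α (fun g => α (g ^ k)) = 1 := by
    rw [← classInner_self_of_isIrr hirr]
    simp only [Cfsg.classInner, hα, map_mul, Complex.conj_conj]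
    congr 1
    exact Finset.sum_congr rfl fun g _ => by ring
  haveI := Fintype.ofFinite (IrrCharacter G)
  -- inner products of characters
  have hnat : ∀ {a b : G → ℂ}, IsCharacter G a → IsCharacter G b → ∃ t : ℕ, Cfsg.classInner a b = t ∧
      (Cfsg.classInner a (fun _ => 1) ≠ 0 → Cfsg.classInner b (fun _ => 1) ≠ 0 → t ≠ 0) := by
    intro a b ha hb
    obtain ⟨u, hu⟩ := IsCharacter.exists_sum ha
    obtain ⟨v, hv⟩ := IsCharacter.exists_sum hb
    refine ⟨∑ ψ, u ψ * v ψ, ?_, fun h1 h2 h0 => ?_⟩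
    · rw [hu, hv, classInner_sum_right]
      simp only [classInner_smul_right, classInner_sum_irr, Complex.conj_natCast, Nat.cast_sum,
        Nat.cast_mul]
      exact Finset.sum_congr rfl fun ψ _ => mul_comm _ _
    · have e1 : Cfsg.classInner a (trivIrr G : G → ℂ) = (u (trivIrr G) : ℂ) := by
        rw [hu]; exact classInner_sum_irr _ _
      have e2 : Cfsg.classInner b (trivIrr G : G → ℂ) = (v (trivIrr G) : ℂ) := by
        rw [hv]; exact classInner_sum_irr _ _
      have := Finset.sum_eq_zero_iff.1 h0 (trivIrr G) (Finset.mem_univ _)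
      rcases Nat.mul_eq_zero.1 this with h | h
      · exact h1 (e1.trans (by rw [h, Nat.cast_zero]))
      · exact h2 (e2.trans (by rw [h, Nat.cast_zero]))
  -- no subcharacter of `|χ|²` is invariant under the power map
  have key : ∀ β : G → ℂ, IsCharacter G β → (∀ g, β (g ^ k) = β g) →
      IsCharacter G (fun g => α g - β g) → ∀ d : ℕ, β 1 = d → 2 ≤ d → False := by
    intro β hβ hβk hγ d hd hd2
    set γ : G → ℂ := fun g => α g - β g with hγd
    set γ' : G → ℂ := fun g => γ (g ^ k) with hγ'd
    have hγ' : IsCharacter G γ' := hpowchar hγ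
    have e : Cfsg.classInner α (fun g => α (g ^ k)) = Cfsg.classInner β β +
        Cfsg.classInner β γ' + Cfsg.classInner γ β + Cfsg.classInner γ γ' := by
      rw [← classInner_add_right, add_assoc, ← classInner_add_right, ← classInner_add_left]
      congr 1
      · funext g; simp [hγd]
      · funext g; simp [hγd, hγ'd, hβk]
    obtain ⟨t1, ht1, -⟩ := hnat hβ hβ
    obtain ⟨t2, ht2, -⟩ := hnat hβ hγ'
    obtain ⟨t3, ht3, -⟩ := hnat hγ hβ
    obtain ⟨t4, ht4, ht4'⟩ := hnat hγ hγ'
    rw [hαα, ht1, ht2, ht3, ht4] at e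
    have e' : t1 + t2 + t3 + t4 = 1 := by exact_mod_cast e.symm
    -- `β` is irreducible and not trivial
    obtain ⟨u, hu⟩ := IsCharacter.exists_sum hβ
    have ht1pos : t1 ≠ 0 := by
      intro h0
      rw [h0, Nat.cast_zero, Cfsg.classInner, mul_eq_zero] at ht1
      replace ht1 := ht1.resolve_left (inv_ne_zero (Nat.cast_ne_zero.2 Nat.card_pos.ne'))
      simp only [Complex.mul_conj] at ht1
      rw [← Complex.ofReal_sum, Complex.ofReal_eq_zero,
        Finset.sum_eq_zero_iff_of_nonneg (fun g _ => Complex.normSq_nonneg _)] at ht1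
      have := ht1 1 (Finset.mem_univ _)
      rw [Complex.normSq_eq_zero, hd, Nat.cast_eq_zero] at this
      omega
    have hβirr : IsIrrCharacter G β := (isIrrCharacter_iff_norm_one hβ).2 (by
      rw [ht1, show t1 = 1 by omega, Nat.cast_one])
    have hβ1 : Cfsg.classInner β (fun _ => 1) = 0 :=
      classInner_eq_zero_of_ne hβirr isIrrCharacter_one (fun h => by
        have := congrFun h 1
        rw [hd, Nat.cast_eq_one] at this
        omega)
    have hα1 : Cfsg.classInner α (fun _ => 1) = 1 := by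
      refine Eq.trans ?_ (classInner_self_of_isIrr χ.2)
      simp [Cfsg.classInner, hα]
    have hγ1 : Cfsg.classInner γ (fun _ => 1) = 1 := by
      rw [show γ = α - β from rfl, classInner_sub_left, hα1, hβ1, sub_zero]
    have hγ'1 : Cfsg.classInner γ' (fun _ => 1) = 1 := by
      refine Eq.trans ?_ hγ1
      simp only [Cfsg.classInner, hγ'd, map_one, mul_one]
      congr 1
      exact Fintype.sum_equiv (powCoprime hk.symm) _ _ fun g => rfl
    have := ht4' (by rw [hγ1]; exact one_ne_zero) (by rw [hγ'1]; exact one_ne_zero)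
    omega
  obtain ⟨n, ρ, hρ, hρχ⟩ := χ.2
  haveI := hρ
  have hscal_one : ∀ (g : G) (ω : ℂ), ρ g = ω • 1 → ω = 1 → g = 1 := by
    intro g ω hg hω
    refine hfaith g ?_
    rw [← hρχ]
    show LinearMap.trace ℂ _ (ρ g) = LinearMap.trace ℂ _ (ρ 1)
    rw [hg, hω, one_smul, map_one ρ]
  -- abelian normal subgroups are central
  have hprim : ∀ N : Subgroup G, N.Normal → (∀ a ∈ N, ∀ b ∈ N, a * b = b * a) → N ≤ Subgroup.center G := by
    intro N hN hab
    haveI := hN
    haveI := Fintype.ofFinite N
    obtain ⟨θ, hθ⟩ := exists_constituent N hχc (apply_one_ne_zero_of_isIrr χ.2)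
    set T := inertia N (θ : N → ℂ) with hT
    haveI := Fintype.ofFinite T
    have hNT := le_inertia N (IsIrrCharacter.isClassFunction θ.2)
    obtain ⟨ψ, hψ, hind, -⟩ :=
      exists_indFun_inertia_eq θ.2 (mem_inertia N (θ : N → ℂ)) hNT χ.2 hθ
    have htop : T = ⊤ := by
      by_contra hne
      have h2 : 2 ≤ T.index := by
        have h0 := Subgroup.index_ne_zero_of_finite (H := T)
        have h1 : T.index ≠ 1 := fun h => hne (Subgroup.index_eq_one.1 h)
        omega
      haveI := Fintype.ofFinite (IrrCharacter T)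
      set f : T → ℂ := fun t => ψ t * conj ((χ : G → ℂ) t) with hf
      have hfc : IsCharacter T f := CfsgLib.CharTheory.isCharacter_mul (IsIrrCharacter.isCharacter hψ)
        (CfsgLib.Coherence.isCharacter_comp (CfsgLib.CharTheory.isCharacter_conj hχc) T.subtype)
      have hf1 : Cfsg.classInner f (fun _ => 1) = 1 := by
        have h := classInner_indFun T ψ (χ : G → ℂ) (IsIrrCharacter.isClassFunction χ.2)
        rw [hind, classInner_self_of_isIrr χ.2] at h
        refine Eq.trans ?_ h.symm
        simp [Cfsg.classInner, hf]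
      obtain ⟨u, hu⟩ := IsCharacter.exists_sum hfc
      have hu1 : u (trivIrr T) = 1 := by
        have : Cfsg.classInner f (trivIrr T : T → ℂ) = (u (trivIrr T) : ℂ) := by
          rw [hu]; exact classInner_sum_irr _ _
        rw [show Cfsg.classInner f (trivIrr T : T → ℂ) = 1 from hf1] at this
        exact_mod_cast this.symm
      refine key (Cfsg.indFun T (fun _ => 1))
        (isCharacter_indFun T _ (IsIrrCharacter.isCharacter isIrrCharacter_one)) (fun g => ?_) ?_
        T.index (by rw [indFun_one, mul_one]) h2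
      · simp only [Cfsg.indFun]
        congr 1
        refine Finset.sum_congr rfl fun x _ => ?_
        have hiff : x⁻¹ * g ^ k * x ∈ T ↔ x⁻¹ * g * x ∈ T := by
          have hp : ∀ (a : G) (i : ℕ), x⁻¹ * a ^ i * x = (x⁻¹ * a * x) ^ i := fun a i => by
            simpa using (conj_pow (a := x⁻¹) (b := a) (i := i)).symm
          constructor
          · intro h
            obtain ⟨l, hl⟩ := hroot g
            rw [← hl, hp (g ^ k) l]
            exact pow_mem h l
          · intro h
            rw [hp g k]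
            exact pow_mem h k
        by_cases hx : x⁻¹ * g * x ∈ T
        · rw [extendByZero_of_mem T _ hx, extendByZero_of_mem T _ (hiff.2 hx)]
        · rw [extendByZero_of_not_mem T _ hx, extendByZero_of_not_mem T _ (fun h => hx (hiff.1 h))]
      · have hrest : IsCharacter T (∑ φ ∈ Finset.univ.erase (trivIrr T), (u φ : ℂ) • (φ : T → ℂ)) :=
          isCharacter_sum _ _ fun φ _ => isCharacter_nsmul (IsIrrCharacter.isCharacter φ.2) (u φ)
        have h := isCharacter_indFun T _ hrest
        convert h using 1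
        funext g
        have hfsum : f = (fun _ => 1) + ∑ φ ∈ Finset.univ.erase (trivIrr T), (u φ : ℂ) • (φ : T → ℂ) := by
          conv_lhs => rw [hu]
          rw [← Finset.add_sum_erase _ _ (Finset.mem_univ (trivIrr T)), hu1, Nat.cast_one, one_smul]
          rfl
        have hαind : α g = Cfsg.indFun T f g := by
          rw [hα]
          show (χ : G → ℂ) g * conj ((χ : G → ℂ) g) = _
          nth_rw 1 [← hind]
          simp only [Cfsg.indFun]
          rw [mul_assoc, Finset.sum_mul]
          congr 1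
          refine Finset.sum_congr rfl fun x _ => ?_
          by_cases hx : x⁻¹ * g * x ∈ T
          · rw [extendByZero_of_mem T _ hx, extendByZero_of_mem T _ hx, hf]
            show _ = ψ _ * conj ((χ : G → ℂ) (x⁻¹ * g * x))
            congr 2
            simpa using ((IsIrrCharacter.isClassFunction χ.2) g x⁻¹).symm
          · rw [extendByZero_of_not_mem T _ hx, extendByZero_of_not_mem T _ hx, zero_mul]
        rw [hαind, hfsum]
        simp only [Cfsg.indFun, ← mul_sub, ← Finset.sum_sub_distrib]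
        congr 1
        refine Finset.sum_congr rfl fun x _ => ?_
        by_cases hx : x⁻¹ * g * x ∈ T
        · rw [extendByZero_of_mem T _ hx, extendByZero_of_mem T _ hx, extendByZero_of_mem T _ hx,
            Pi.add_apply, add_sub_cancel_left]
        · rw [extendByZero_of_not_mem T _ hx, extendByZero_of_not_mem T _ hx,
            extendByZero_of_not_mem T _ hx, sub_self]
    have hinv : ∀ g : G, conjChar N (θ : N → ℂ) g = θ := fun g =>
      (mem_inertia N (θ : N → ℂ) g).1 (htop ▸ Subgroup.mem_top g : g ∈ T)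
    have hres := res_eq_of_invariant N χ.2 θ.2 hinv hθ
    intro a ha
    have habN : ∀ x y : N, x * y = y * x := fun x y => Subtype.ext (hab x x.2 y y.2)
    have hθ1 := apply_one_eq_one_of_comm habN θ.2
    obtain ⟨μ, hμ⟩ := exists_hom_of_degree_one θ.2 hθ1
    have e0 := congrFun hres 1
    simp only [Pi.smul_apply, smul_eq_mul, OneMemClass.coe_one, hθ1, mul_one] at e0
    have e1 := congrFun hres ⟨a, ha⟩
    simp only [Pi.smul_apply, smul_eq_mul, ← e0, congrFun hμ] at e1
    have hnμ : ‖(μ ⟨a, ha⟩ : ℂ)‖ = 1 :=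
      Complex.norm_eq_one_of_pow_eq_one (n := orderOf (⟨a, ha⟩ : N)) (by
        rw [← Units.val_pow_eq_pow_val, ← map_pow, pow_orderOf_eq_one, map_one, Units.val_one])
        (orderOf_pos _).ne'
    obtain ⟨ω, hω⟩ := (norm_character_eq_iff ρ a).1 (by
      have h1 : ρ.character 1 = (Module.finrank ℂ (Fin n → ℂ) : ℂ) := ρ.char_one
      rw [hρχ, e1, norm_mul, hnμ, mul_one, ← hρχ, h1, Complex.norm_natCast])
    rw [Subgroup.mem_center_iff]
    intro b
    refine mul_inv_eq_one.1 (hfaith _ ?_)
    rw [← hρχ]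
    show LinearMap.trace ℂ _ (ρ _) = LinearMap.trace ℂ _ (ρ 1)
    congr 1
    rw [map_one, map_mul, map_mul, hω, mul_smul_comm, show ρ b * LinearMap.id = ρ b from mul_one _]
    calc ω • ρ b * ρ (a * b)⁻¹ = ρ a * ρ b * ρ (a * b)⁻¹ := by
          rw [hω]; simp only [smul_mul_assoc]; rw [show LinearMap.id * ρ b = ρ b from one_mul _]
      _ = 1 := by rw [← map_mul, ← map_mul, mul_inv_cancel, map_one]
  -- the centre acts by scalars
  have hscal : ∀ z ∈ Subgroup.center G, ∃ ω : ℂ, ρ z = ω • 1 := by
    intro z hz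
    obtain ⟨ω, hω⟩ := exists_smul_of_commute ρ (ρ z) fun g => by
      show ρ z * ρ g = ρ g * ρ z
      rw [← map_mul, ← map_mul, (Subgroup.mem_center_iff.1 hz g)]
    exact ⟨ω, hω⟩
  have hzmul : ∀ (z : G) (ω : ℂ), ρ z = ω • 1 → ∀ g, ρ.character (z * g) = ω * ρ.character g := by
    intro z ω hz g
    show LinearMap.trace ℂ _ (ρ (z * g)) = ω * LinearMap.trace ℂ _ (ρ g)
    rw [map_mul, hz, smul_mul_assoc, one_mul, map_smul, smul_eq_mul]
  have hne1 : ∀ z ∈ Subgroup.center G, z ≠ 1 → ∀ ω : ℂ, ρ z = ω • 1 → ω ≠ 1 :=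
    fun z _ hz1 ω hω h => hz1 (hscal_one z ω hω h)
  refine le_antisymm ?_ ?_
  swap
  · refine CfsgLib.Cores.le_fittingSubgroup ?_
    open scoped IsMulCommutative in exact CommGroup.isNilpotent
  by_contra hF
  obtain ⟨M, ⟨hMn, hMF, hMc⟩, hMmin⟩ := (wellFounded_lt (α := Subgroup G)).has_min
    {M : Subgroup G | M.Normal ∧ M ≤ Cfsg.fittingSubgroup G ∧ ¬ M ≤ Subgroup.center G}
    ⟨Cfsg.fittingSubgroup G, inferInstance, le_rfl, hF⟩
  haveI := hMn
  have hMnil : Group.IsNilpotent M :=
    Group.nilpotent_of_mulEquiv (Subgroup.subgroupOfEquivOfLe hMF)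
      (_h := by haveI := CfsgLib.Cores.isNilpotent_fittingSubgroup (G := G); exact Subgroup.isNilpotent _)
  have hder : ⁅M, M⁆ ≤ Subgroup.center G := by
    by_contra hc
    refine hMmin ⁅M, M⁆ ⟨inferInstance, (Subgroup.commutator_le_left M M).trans hMF, hc⟩
      (lt_of_le_of_ne (Subgroup.commutator_le_left M M) fun heq => ?_)
    haveI : Nontrivial M := (Subgroup.nontrivial_iff_ne_bot M).2 fun h => hMc (h ▸ bot_le)
    haveI := hMnil
    haveI : Group.IsSolvable M := inferInstance
    have hlt : commutator M < ⊤ := Group.IsSolvable.commutator_lt_top_of_nontrivial M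
    refine hlt.ne (Subgroup.map_injective M.subtype_injective ?_)
    rw [Subgroup.map_subtype_commutator, heq, ← MonoidHom.range_eq_map, Subgroup.range_subtype]
  have hMcenter : ∀ x ∈ M, x ∉ Subgroup.center G → ρ.character x = 0 := by
    intro x hxM hxc
    obtain ⟨y, hyM, hy⟩ : ∃ y ∈ M, y * x ≠ x * y := by
      by_contra h
      push Not at h
      exact hxc (hprim (M ⊓ Subgroup.centralizer (M : Set G)) inferInstance
        (fun a ha b hb => (Subgroup.mem_centralizer_iff.1 hb.2 a ha.1))
        ⟨hxM, Subgroup.mem_centralizer_iff.2 h⟩)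
    have hz : y * x * y⁻¹ * x⁻¹ ∈ Subgroup.center G := hder (Subgroup.commutator_mem_commutator hyM hxM)
    obtain ⟨ω, hω⟩ := hscal _ hz
    have hω1 := hne1 _ hz (fun e => hy (mul_inv_eq_iff_eq_mul.1 (mul_inv_eq_one.1 e))) ω hω
    have h1 := hzmul _ ω hω x
    rw [inv_mul_cancel_right, Representation.char_conj] at h1
    have h2 : (ω - 1) * ρ.character x = 0 := by linear_combination -h1
    exact (mul_eq_zero.1 h2).resolve_left (sub_ne_zero.2 hω1)
  -- the span of `ρ(M)`
  haveI := Fintype.ofFinite M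
  set A := toMatRep ρ with hA
  set d : ℂ := (Module.finrank ℂ (Fin n → ℂ) : ℂ) with hdd
  have hd0 : d ≠ 0 := by
    rw [hdd, ← ρ.char_one, hρχ]; exact apply_one_ne_zero_of_isIrr χ.2
  set Zc := Nat.card {x : M // (x : G) ∈ Subgroup.center G} with hZc
  have hZc0 : (Zc : ℂ) ≠ 0 := by
    haveI : Nonempty {x : M // (x : G) ∈ Subgroup.center G} := ⟨⟨1, Subgroup.one_mem _⟩⟩
    exact Nat.cast_ne_zero.2 Nat.card_pos.ne'
  set c : ℂ := ((Zc : ℂ) * d)⁻¹ with hc
  let F : M → Module.End ℂ (Matrix (Fin n) (Fin n) ℂ) := fun x =>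
    ((Matrix.traceLinearMap (Fin n) ℂ ℂ) ∘ₗ LinearMap.mulRight ℂ (A (x : G)⁻¹)).smulRight (A (x : G))
  let P : Module.End ℂ (Matrix (Fin n) (Fin n) ℂ) := c • ∑ x : M, F x
  have hPapp : ∀ X, P X = c • ∑ x : M, (X * A (x : G)⁻¹).trace • A (x : G) := fun X => by
    simp [P, F, LinearMap.sum_apply]
  have hPfix : ∀ y : M, P (A (y : G)) = A (y : G) := by
    intro y
    rw [hPapp]
    have hterm : ∀ x : M, (A (y : G) * A (x : G)⁻¹).trace • A (x : G) =
        if (y : G) * (x : G)⁻¹ ∈ Subgroup.center G then d • A (y : G) else 0 := by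
      intro x
      rw [← map_mul, hA, trace_toMatRep]
      split_ifs with hz
      · obtain ⟨ω, hω⟩ := hscal _ hz
        have h1 := hzmul _ ω hω 1
        rw [mul_one, ρ.char_one, ← hdd] at h1
        have h2 : toMatRep ρ (y : G) = ω • toMatRep ρ (x : G) := by
          apply Matrix.toLin'.injective
          rw [map_smul, toLin'_toMatRep, toLin'_toMatRep]
          conv_lhs => rw [show (y : G) = (y : G) * (x : G)⁻¹ * x by group, map_mul, hω]
          rw [smul_mul_assoc, one_mul]
        rw [h1, h2, smul_smul, mul_comm ω d]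
      · rw [hMcenter _ (mul_mem y.2 (inv_mem x.2)) hz, zero_smul]
    rw [Finset.sum_congr rfl fun x _ => hterm x, ← Finset.sum_filter, Finset.sum_const,
      ← Nat.cast_smul_eq_nsmul ℂ, smul_smul, smul_smul]
    have hcard : (Finset.univ.filter fun x : M => (y : G) * (x : G)⁻¹ ∈ Subgroup.center G).card = Zc := by
      rw [hZc, ← Fintype.card_subtype, ← Nat.card_eq_fintype_card]
      exact Nat.card_congr (Equiv.subtypeEquiv ((Equiv.inv M).trans (Equiv.mulLeft y)) fun x => by simp)
    rw [hcard, hc]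
    rw [show ((Zc : ℂ) * d)⁻¹ * (Zc : ℂ) * d = 1 by field_simp, one_smul]
  have hidem : P * P = P := LinearMap.ext fun X => by
    show P (P X) = P X
    conv_lhs => rw [hPapp X]
    rw [map_smul, map_sum]
    simp only [map_smul, hPfix]
    rw [← hPapp]
  have hcomm : ∀ g, conjMatRep ρ g * P = P * conjMatRep ρ g := by
    intro g
    refine LinearMap.ext fun X => ?_
    show conjMatRep ρ g (P X) = P (conjMatRep ρ g X)
    rw [hPapp, hPapp, map_smul, map_sum]
    congr 1
    refine Fintype.sum_equiv (MulAut.conjNormal g).toEquiv _ _ fun x => ?_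
    show conjMatRep ρ g ((X * A (x : G)⁻¹).trace • A (x : G)) =
      (conjMatRep ρ g X * A ((MulAut.conjNormal g x : M) : G)⁻¹).trace • A ((MulAut.conjNormal g x : M) : G)
    rw [map_smul, conjMatRep_apply, conjMatRep_apply, MulAut.conjNormal_apply, ← hA]
    congr 1
    · rw [show (g * (x : G) * g⁻¹)⁻¹ = g * (x : G)⁻¹ * g⁻¹ by group, map_mul, map_mul,
        show A g * X * A g⁻¹ * (A g * A (x : G)⁻¹ * A g⁻¹) =
          A g * (X * A (x : G)⁻¹) * A g⁻¹ by
          simp only [Matrix.mul_assoc]
          rw [← Matrix.mul_assoc (A g⁻¹) (A g), ← map_mul, inv_mul_cancel, map_one, Matrix.one_mul],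
        Matrix.trace_mul_cycle, ← map_mul, inv_mul_cancel, map_one, Matrix.one_mul]
    · simp [map_mul]
  set β : G → ℂ := fun g => LinearMap.trace ℂ _ (conjMatRep ρ g * P) with hβd
  have hβval : ∀ g, β g = c * ∑ x : M, ρ.character (g * (x : G) * g⁻¹ * (x : G)⁻¹) := by
    intro g
    have e : conjMatRep ρ g * P = c • ∑ x : M,
        ((Matrix.traceLinearMap (Fin n) ℂ ℂ) ∘ₗ LinearMap.mulRight ℂ (A (x : G)⁻¹)).smulRight
          (conjMatRep ρ g (A (x : G))) := by
      refine LinearMap.ext fun X => ?_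
      show conjMatRep ρ g (P X) = _
      rw [hPapp, map_smul, map_sum]
      simp [LinearMap.sum_apply]
    show LinearMap.trace ℂ _ (conjMatRep ρ g * P) = _
    rw [e, map_smul, map_sum, smul_eq_mul]
    congr 1
    refine Finset.sum_congr rfl fun x _ => ?_
    rw [LinearMap.trace_smulRight]
    show (conjMatRep ρ g (A (x : G)) * A (x : G)⁻¹).trace = _
    rw [conjMatRep_apply, ← hA, ← map_mul, ← map_mul, ← map_mul, hA, trace_toMatRep]
  have hcentpow : ∀ z ∈ Subgroup.center G, z ≠ 1 → z ^ k ≠ 1 := fun z _ hz hzk => hz (by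
    obtain ⟨l, hl⟩ := hroot z
    rw [← hl, hzk, one_pow])
  -- the sum is invariant under the power map
  have hsum : ∀ g : G, ∑ x : M, ρ.character (g * (x : G) * g⁻¹ * (x : G)⁻¹) =
      if ∃ y : M, g * (y : G) * g⁻¹ * (y : G)⁻¹ ∈ Subgroup.center G ∧ g * (y : G) * g⁻¹ * (y : G)⁻¹ ≠ 1
      then 0 else (Nat.card {x : M // g * (x : G) = (x : G) * g} : ℂ) * d := by
    intro g
    split_ifs with h
    · obtain ⟨y, hyc, hy1⟩ := h
      obtain ⟨ω, hω⟩ := hscal _ hyc
      set S := ∑ x : M, ρ.character (g * (x : G) * g⁻¹ * (x : G)⁻¹) with hS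
      have e : S = ω * S := by
        rw [hS, Finset.mul_sum]
        refine (Fintype.sum_equiv (Equiv.mulLeft y) _ _ fun x => ?_).symm
        show ω * ρ.character (g * (x : G) * g⁻¹ * (x : G)⁻¹) =
          ρ.character (g * ((y : G) * x) * g⁻¹ * ((y : G) * x)⁻¹)
        rw [show g * ((y : G) * x) * g⁻¹ * ((y : G) * x)⁻¹ = g * (y : G) * g⁻¹ * (y : G)⁻¹ *
          ((y : G) * (g * (x : G) * g⁻¹ * (x : G)⁻¹) * (y : G)⁻¹) by group,
          hzmul _ ω hω, Representation.char_conj]
      have h2 : (ω - 1) * S = 0 := by linear_combination -e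
      exact (mul_eq_zero.1 h2).resolve_left (sub_ne_zero.2 (hne1 _ hyc hy1 ω hω))
    · push Not at h
      have hterm : ∀ x : M, ρ.character (g * (x : G) * g⁻¹ * (x : G)⁻¹) =
          if g * (x : G) = (x : G) * g then d else 0 := by
        intro x
        split_ifs with hx
        · rw [hx, mul_inv_cancel_right, mul_inv_cancel, ρ.char_one]
        · refine hMcenter _ ?_ fun hc => hx ?_
          · exact mul_mem (hMn.conj_mem _ x.2 g) (inv_mem x.2)
          · exact mul_inv_eq_iff_eq_mul.1 (mul_inv_eq_one.1 (h x hc))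
      rw [Finset.sum_congr rfl fun x _ => hterm x, ← Finset.sum_filter, Finset.sum_const, nsmul_eq_mul,
        ← Fintype.card_subtype, ← Nat.card_eq_fintype_card]
  have hβk : ∀ g, β (g ^ k) = β g := by
    intro g
    rw [hβval, hβval, hsum, hsum]
    congr 1
    have hzpow : ∀ (a : G) (y : M) (i : ℕ), a * (y : G) * a⁻¹ * (y : G)⁻¹ ∈ Subgroup.center G →
        a ^ i * (y : G) * (a ^ i)⁻¹ * (y : G)⁻¹ = (a * (y : G) * a⁻¹ * (y : G)⁻¹) ^ i := by
      intro a y i hz
      induction i with
      | zero => simp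
      | succ i ih =>
        rw [pow_succ' (a * (y : G) * a⁻¹ * (y : G)⁻¹), ← ih]
        have hcz := Subgroup.mem_center_iff.1 hz (a ^ i)
        calc a ^ (i + 1) * (y : G) * (a ^ (i + 1))⁻¹ * (y : G)⁻¹
            = a ^ i * (a * (y : G) * a⁻¹ * (y : G)⁻¹) * (y : G) * (a ^ i)⁻¹ * (y : G)⁻¹ := by
              rw [pow_succ]; group
          _ = _ := by rw [hcz]; group
    have hiff : (∃ y : M, g ^ k * (y : G) * (g ^ k)⁻¹ * (y : G)⁻¹ ∈ Subgroup.center G ∧
          g ^ k * (y : G) * (g ^ k)⁻¹ * (y : G)⁻¹ ≠ 1) ↔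
        (∃ y : M, g * (y : G) * g⁻¹ * (y : G)⁻¹ ∈ Subgroup.center G ∧
          g * (y : G) * g⁻¹ * (y : G)⁻¹ ≠ 1) := by
      obtain ⟨l, hl⟩ := hroot g
      constructor
      · rintro ⟨y, hy, hy1⟩
        have e := hzpow (g ^ k) y l hy
        rw [hl] at e
        refine ⟨y, e ▸ pow_mem hy l, fun h1 => hy1 ?_⟩
        have e2 := hzpow g y k (by rw [h1]; exact one_mem _)
        rw [e2, h1, one_pow]
      · rintro ⟨y, hy, hy1⟩
        refine ⟨y, ?_, ?_⟩
        · rw [hzpow g y k hy]; exact pow_mem hy k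
        · rw [hzpow g y k hy]; exact hcentpow _ hy hy1
    have hcard : Nat.card {x : M // g ^ k * (x : G) = (x : G) * g ^ k} =
        Nat.card {x : M // g * (x : G) = (x : G) * g} := by
      obtain ⟨l, hl⟩ := hroot g
      refine Nat.card_congr (Equiv.subtypeEquivRight fun x => ⟨fun h => ?_, fun h => ?_⟩)
      · have : Commute (g ^ k) (x : G) := h
        have := this.pow_left l
        rwa [hl] at this
      · exact (show Commute g (x : G) from h).pow_left k
    simp only [hiff, hcard]
  have hα' : ∀ g, (conjMatRep ρ).character g = α g := fun g => by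
    rw [character_conjMatRep, hα, hρχ, IsIrrCharacter.inv χ.2]
  have hsub : IsCharacter G (fun g => α g - β g) := by
    have h := isCharacter_idem_compl (conjMatRep ρ) P hidem hcomm
    simp only [hα'] at h
    exact h
  have hβ1 : β 1 = ((Nat.card M / Zc : ℕ) : ℂ) ∧ 2 ≤ Nat.card M / Zc := by
    let Zm : Subgroup M := (Subgroup.center G).subgroupOf M
    have hZm : Nat.card Zm = Zc := rfl
    have hne : Zm ≠ ⊤ := fun h => hMc fun x hx =>
      (Subgroup.mem_subgroupOf.1 (h ▸ Subgroup.mem_top (⟨x, hx⟩ : M)))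
    have hidx : Nat.card M / Zc = Zm.index := by
      rw [← Subgroup.card_mul_index Zm, hZm, Nat.mul_div_cancel_left _ (hZm ▸ Nat.card_pos)]
    refine ⟨?_, ?_⟩
    · rw [hidx, hβval, Finset.sum_congr rfl (g := fun _ => d) (fun x _ => by
        rw [one_mul, inv_one, mul_one, mul_inv_cancel, ρ.char_one]), Finset.sum_const, nsmul_eq_mul,
        Finset.card_univ, ← Nat.card_eq_fintype_card, ← Subgroup.card_mul_index Zm, hZm, hc]
      push_cast
      field_simp
    · rw [hidx]
      have h0 := Subgroup.index_ne_zero_of_finite (H := Zm)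
      have h1 : Zm.index ≠ 1 := fun h => hne (Subgroup.index_eq_one.1 h)
      omega
  exact key β (isCharacter_idem (conjMatRep ρ) P hidem hcomm) hβk hsub _ hβ1.1 hβ1.2

end Cfsg.Agent.S4843
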