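import Cfsg.Statements.S4845
import Cfsg.Agent.Lib.Correspondences.PGroupDegrees
open CfsgLib.Correspondences CfsgLib.CharTheory
open scoped commutatorElement

set_option linter.style.haveILetI false

set_option autoImplicit false
open Cfsg

namespace Cfsg.Agent.S4845

/-- Let p be a prime and P a finite non-commutative p-group. Then every two irreducible characters of P of the same degree greater than 1 are Galois conjugate (one is obtained from the other by composing with g ↦ g^k for some k prime to the order of P) if and only if the centre of P is cyclic and the derived subgroup of P has order p. -/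
theorem result {P : Type*} [Group P] [Finite P] (p : ℕ) [Fact p.Prime] (hP : IsPGroup p P) (hna : ¬ IsMulCommutative P) :
    (∀ χ ψ : Cfsg.IrrCharacter P, Cfsg.charDegree (χ : P → ℂ) ≠ 1 → Cfsg.charDegree (χ : P → ℂ) = Cfsg.charDegree (ψ : P → ℂ) → ∃ k : ℕ, Nat.Coprime k (Nat.card P) ∧ ∀ g : P, (ψ : P → ℂ) g = (χ : P → ℂ) (g ^ k)) ↔
      (IsCyclic (Subgroup.center P) ∧ Nat.card (commutator P) = p) := by
  classical
  have hp : p.Prime := Fact.out
  have hne : commutator P ≠ ⊥ := fun h => hna ⟨⟨fun a b => by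
    have h0 : ⁅a, b⁆ ∈ commutator P :=
      Subgroup.commutator_mem_commutator (Subgroup.mem_top a) (Subgroup.mem_top b)
    rw [h] at h0
    have h1 := Subgroup.mem_bot.1 h0
    exact commutatorElement_eq_one_iff_mul_comm.1 h1⟩⟩
  -- central elements act by a linear character
  have hlam : ∀ χ : Cfsg.IrrCharacter P, ∃ l : Subgroup.center P →* ℂ,
      ∀ z : Subgroup.center P, ∀ g, (χ : P → ℂ) ((z : P) * g) = l z * (χ : P → ℂ) g := by
    intro χ
    choose c _ hc using fun z : Subgroup.center P => exists_scalar_center χ.2 z.2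
    have h0 := apply_one_ne_zero_of_isIrr χ.2
    refine ⟨{ toFun := c, map_one' := ?_, map_mul' := fun z w => ?_ }, hc⟩
    · have := hc 1 1
      rw [OneMemClass.coe_one, one_mul] at this
      exact (mul_eq_right₀ h0).1 this.symm
    · have h1 := hc (z * w) 1
      rw [Subgroup.coe_mul, mul_one, hc z, ← mul_one (w : P), hc w, ← mul_assoc] at h1
      exact (mul_right_cancel₀ h0 h1).symm
  choose l hl using hlam
  have hinj : ∀ χ : Cfsg.IrrCharacter P, (∀ g, (χ : P → ℂ) g = (χ : P → ℂ) 1 → g = 1) →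
      Function.Injective (l χ) := fun χ hf => (injective_iff_map_eq_one _).2 fun z hz =>
    Subtype.ext (hf _ (by rw [← mul_one (z : P), hl, hz, one_mul]))
  constructor
  · intro h
    have hc := card_commutator_of_galoisDegrees hP h hne
    obtain ⟨χ, hχ⟩ := exists_nonlinear hne
    exact ⟨isCyclic_of_injective_ringHom (l χ)
      (hinj χ (faithful_of_nonlinear hP hc (Or.inl h) χ.2 hχ)), hc⟩
  rintro ⟨hcyc, hc⟩ χ ψ hχ1 hdeg
  have hcl := commutator_le_center_of_card hP hc
  have hψ1 : Cfsg.charDegree (ψ : P → ℂ) ≠ 1 := hdeg ▸ hχ1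
  have hfχ := faithful_of_nonlinear hP hc (Or.inr hcyc) χ.2 hχ1
  have hfψ := faithful_of_nonlinear hP hc (Or.inr hcyc) ψ.2 hψ1
  haveI := Fintype.ofFinite P
  haveI := Fintype.ofFinite (Subgroup.center P)
  set m := Nat.card (Subgroup.center P) with hm
  obtain ⟨z, hz⟩ := hcyc.exists_generator
  have hzo : orderOf z = m := orderOf_eq_card_of_forall_mem_zpowers hz
  have hmne : NeZero m := ⟨Nat.card_pos.ne'⟩
  have hprimz : ∀ η : Cfsg.IrrCharacter P, (∀ g, (η : P → ℂ) g = (η : P → ℂ) 1 → g = 1) →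
      IsPrimitiveRoot (l η z) m := fun η hf => by
    rw [← hzo, ← orderOf_injective (l η) (hinj η hf) z]
    exact IsPrimitiveRoot.orderOf _
  obtain ⟨k, hkm, hk⟩ := (hprimz χ hfχ).eq_pow_of_pow_eq_one (hprimz ψ hfψ).pow_eq_one
  have hkcop : k.Coprime m := ((hprimz χ hfχ).pow_iff_coprime (NeZero.pos m) k).1 (hk ▸ hprimz ψ hfψ)
  have hpm : p ∣ m := by
    have := Subgroup.card_dvd_of_le hcl
    rwa [hc] at this
  obtain ⟨n, hn⟩ := IsPGroup.iff_card.1 hP
  have hkP : k.Coprime (Nat.card P) := by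
    rw [hn]
    exact ((hkcop.coprime_dvd_right hpm)).pow_right n
  refine ⟨k, hkP, fun g => ?_⟩
  have hd : (ψ : P → ℂ) 1 = (χ : P → ℂ) 1 := by
    rw [← charDegree_cast (IsIrrCharacter.isCharacter ψ.2), ← hdeg,
      charDegree_cast (IsIrrCharacter.isCharacter χ.2)]
  by_cases hg : g ∈ Subgroup.center P
  · obtain ⟨i, hi⟩ := mem_powers_iff_mem_zpowers.2 (hz ⟨g, hg⟩)
    have e : ∀ (η : Cfsg.IrrCharacter P) (w : Subgroup.center P),
        (η : P → ℂ) (w : P) = l η w * (η : P → ℂ) 1 := fun η w => by rw [← hl, mul_one]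
    have hgk : g ^ k = (((⟨g, hg⟩ : Subgroup.center P) ^ k : Subgroup.center P) : P) := rfl
    rw [hgk]
    refine (e ψ ⟨g, hg⟩).trans ?_
    rw [e χ, hd]
    simp only [← hi, map_pow, ← hk, ← pow_mul]
    rw [mul_comm i k]
  · have hgk : g ^ k ∉ Subgroup.center P := fun hmem => hg (by
      obtain ⟨i, hi⟩ := exists_pow_eq_self_of_coprime (hkP.coprime_dvd_right (orderOf_dvd_natCard g))
      rw [← hi]
      exact pow_mem hmem i)
    rw [apply_eq_zero_of_commutator ψ.2 hfψ hcl hg, apply_eq_zero_of_commutator χ.2 hfχ hcl hgk]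

end Cfsg.Agent.S4845
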