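import Cfsg.Statements.S4850
import Cfsg.Agent.Lib.Correspondences.VanishingOrders
import Cfsg.Agent.Lib.Subnormal.Basic
open CfsgLib.Correspondences
open scoped commutatorElement

set_option linter.style.haveILetI false

set_option autoImplicit false
open Cfsg

namespace Cfsg.Agent.S4850

/-- Let p be a prime and G a finite solvable group whose vanishing elements (elements at which some irreducible character is zero) of order divisible by p all have the same order, with at least one such element. Let P be a Sylow p-subgroup of G. Then the derived subgroup of P is subnormal in G and the image of P in G/O_p(G) is cyclic. -/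
theorem result {G : Type*} [Group G] [Finite G] [hs : Group.IsSolvable G] (p : ℕ) [Fact p.Prime] (b : ℕ) (hvo : {n : ℕ | p ∣ n ∧ ∃ (g : G) (χ : Cfsg.IrrCharacter G), orderOf g = n ∧ (χ : G → ℂ) g = 0} = {b}) (P : Sylow p G) :
    ((commutator ↥(P : Subgroup G)).map (P : Subgroup G).subtype).IsSubnormal ∧ IsCyclic ↥((P : Subgroup G).map (QuotientGroup.mk' (Cfsg.pCore p G))) := by
  classical
  haveI := CfsgLib.Cores.pCore_characteristic p G
  set O := Cfsg.pCore p G with hO
  set π := QuotientGroup.mk' O with hπ
  have hkey := sq_not_dvd_card_quotient_pCore (G := G) (p := p) (b := b) fun g hg hv => by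
    obtain ⟨χ, hχ⟩ := hv
    exact hvo.subset ⟨hg, g, χ, rfl, hχ⟩
  have hcyc : IsCyclic ((P : Subgroup G).map π) := by
    obtain ⟨k, hk⟩ := IsPGroup.iff_card.1 (P.2.map π)
    have hd : p ^ k ∣ Nat.card (G ⧸ O) := hk ▸ Subgroup.card_subgroup_dvd_card _
    rcases k with _ | _ | k
    · haveI : Subsingleton ((P : Subgroup G).map π) :=
        (Nat.card_eq_one_iff_unique.1 (by rw [hk, pow_zero])).1
      infer_instance
    · exact isCyclic_of_prime_card (p := p) (by rw [hk, pow_one])
    · exact absurd ((pow_dvd_pow p (by omega)).trans hd) hkey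
  refine ⟨?_, hcyc⟩
  haveI := hcyc
  have hle : (commutator ↥(P : Subgroup G)).map (P : Subgroup G).subtype ≤ O := by
    rw [Subgroup.map_le_iff_le_comap, commutator_eq_closure, Subgroup.closure_le]
    rintro _ ⟨x, y, rfl⟩
    show (P : Subgroup G).subtype ⁅x, y⁆ ∈ O
    refine (QuotientGroup.eq_one_iff _).1 ?_
    show π ((P : Subgroup G).subtype ⁅x, y⁆) = 1
    rw [map_commutatorElement, map_commutatorElement, commutatorElement_eq_one_iff_mul_comm]
    letI : CommGroup ((P : Subgroup G).map π) := IsCyclic.commGroup
    exact congrArg Subtype.val (mul_comm (⟨π x, Subgroup.mem_map_of_mem π x.2⟩ : (P : Subgroup G).map π)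
      ⟨π y, Subgroup.mem_map_of_mem π y.2⟩)
  exact Subgroup.IsSubnormal.trans hle
    (CfsgLib.Subnormal.isSubnormal_subgroupOf_of_isNilpotent (CfsgLib.Cores.isPGroup_pCore p G).isNilpotent)
    (inferInstance : O.Normal).isSubnormal

end Cfsg.Agent.S4850
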