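import Cfsg.Statements.S4856
import Cfsg.Agent.Lib.Correspondences.CommutatorCount
-- import your own Cfsg.Agent.* helpers here

set_option autoImplicit false
open Cfsg

namespace Cfsg.Agent.S4856

/-- For an element z of a finite group G, the number of pairs (x, y) of elements with x y x⁻¹ y⁻¹ = z equals the order of G times the sum over the irreducible characters χ of χ(z)/χ(1). -/
theorem result {G : Type*} [Group G] [Finite G] (z : G) : (Nat.card {xy : G × G // xy.1 * xy.2 * xy.1⁻¹ * xy.2⁻¹ = z} : ℂ) = (Nat.card G : ℂ) * ∑ᶠ χ : Cfsg.IrrCharacter G, (χ : G → ℂ) z / (χ : G → ℂ) 1 := by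
  haveI := Fintype.ofFinite G
  haveI := Fintype.ofFinite (Cfsg.IrrCharacter G)
  rw [finsum_eq_sum_of_fintype, CfsgLib.Correspondences.card_fiber_eq_sum
    (fun xy : G × G => xy.1 * xy.2 * xy.1⁻¹ * xy.2⁻¹)
    (fun c => (MulAut.conj c).toEquiv.prodCongr (MulAut.conj c).toEquiv)
    (fun c a => by simp [mul_assoc]) z, Finset.mul_sum, Finset.mul_sum]
  refine Finset.sum_congr rfl fun χ _ => ?_
  have h0 : (Nat.card G : ℂ) ≠ 0 := Nat.cast_ne_zero.2 Nat.card_pos.ne'
  have h1 := CfsgLib.CharTheory.apply_one_ne_zero_of_isIrr χ.2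
  obtain ⟨n, -, hn⟩ := CfsgLib.CharTheory.exists_degree_of_isIrr χ.2
  have hs : ∑ a : G × G, (starRingEnd ℂ) ((χ : G → ℂ) (a.1 * a.2 * a.1⁻¹ * a.2⁻¹)) =
      (Nat.card G : ℂ) ^ 2 / (χ : G → ℂ) 1 := by
    have h := CfsgLib.Correspondences.sum_commutator_mul χ.2 1
    simp only [mul_one] at h
    rw [← map_sum, Fintype.sum_prod_type, h, hn]
    simp only [map_mul, map_pow, map_div₀, Complex.conj_natCast]
    have hn0 : (n : ℂ) ≠ 0 := hn ▸ h1
    field_simp
  rw [hs]
  field_simp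

end Cfsg.Agent.S4856
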