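import Cfsg.Statements.S4861
import Cfsg.Agent.Lib.Correspondences.RealDegrees
open CfsgLib.Correspondences

set_option linter.style.haveILetI false

set_option autoImplicit false
open Cfsg

namespace Cfsg.Agent.S4861

/-- Let p be a prime and G a finite group such that the subgroup generated by the p-elements of G (the smallest normal subgroup of index prime to p) is solvable and every real-valued irreducible complex character of G has degree prime to p. Let K be the subgroup generated by the 2-elements of G (the smallest normal subgroup of odd index). Then the Sylow p-subgroups of K are normal in K. -/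
theorem result {G : Type*} [Group G] [Finite G] (p : ℕ) [Fact p.Prime] (hsolv : Group.IsSolvable ↥(Subgroup.closure {g : G | ∃ k : ℕ, orderOf g = p ^ k})) (hreal : ∀ χ : Cfsg.IrrCharacter G, (∀ g : G, ((χ : G → ℂ) g).im = 0) → ¬ p ∣ Cfsg.charDegree (χ : G → ℂ)) (Q : Sylow p ↥(Subgroup.closure {g : G | ∃ k : ℕ, orderOf g = 2 ^ k})) : (Q : Subgroup ↥(Subgroup.closure {g : G | ∃ k : ℕ, orderOf g = 2 ^ k})).Normal := by
  haveI := twoResidual_normal (G := G)
  refine sylow_normal_of_twoResidual_index (G := ↥(twoResidual G))
    (RealDegrees.of_odd_index hreal (twoResidual G) odd_index_twoResidual)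
    ((solvableResidual_closure hsolv).subgroup (twoResidual G)) ⟨0, ?_⟩ Q
  rw [twoResidual_subgroup le_rfl, Subgroup.subgroupOf_self, Subgroup.index_top, pow_zero]

end Cfsg.Agent.S4861
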