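import Cfsg.Statements.S4862
import Cfsg.Agent.Lib.Correspondences.RealDegrees
open CfsgLib.Correspondences CfsgLib.CharTheory

set_option linter.style.haveILetI false

set_option autoImplicit false
open Cfsg

namespace Cfsg.Agent.S4862

/-- Let p be an odd prime and G a finite group such that the subgroup generated by the p-elements of G is solvable and every real-valued irreducible complex character of G has degree prime to p. Let K be the subgroup generated by the 2-elements of G and P a Sylow p-subgroup of G. Then every normal subgroup M of G contained in K and in the derived subgroup of P is centralized by K. -/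
theorem result {G : Type*} [Group G] [Finite G] (p : ℕ) [Fact p.Prime] (hp : p ≠ 2) (hsolv : Group.IsSolvable ↥(Subgroup.closure {g : G | ∃ k : ℕ, orderOf g = p ^ k})) (hreal : ∀ χ : Cfsg.IrrCharacter G, (∀ g : G, ((χ : G → ℂ) g).im = 0) → ¬ p ∣ Cfsg.charDegree (χ : G → ℂ)) (P : Sylow p G) (M : Subgroup G) (hM : M.Normal) (hMK : M ≤ (Subgroup.closure {g : G | ∃ k : ℕ, orderOf g = 2 ^ k})) (hMP : M ≤ ⁅(P : Subgroup G), (P : Subgroup G)⁆) : (Subgroup.closure {g : G | ∃ k : ℕ, orderOf g = 2 ^ k}) ≤ Subgroup.centralizer (M : Set G) := by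
  classical
  haveI := hM
  haveI := Fintype.ofFinite G
  haveI := Fintype.ofFinite (P : Subgroup G)
  haveI := Fintype.ofFinite M
  have hpp : p.Prime := Fact.out
  have hMleP : M ≤ (P : Subgroup G) := hMP.trans (Subgroup.commutator_le_self _)
  have hMp : IsPGroup p M := P.2.to_le hMleP
  have hodd : Odd (Nat.card M) := by
    obtain ⟨j, hj⟩ := IsPGroup.iff_card.1 hMp
    rw [hj]; exact (hpp.odd_of_ne_two hp).pow
  -- every real character is trivial on `M`
  have htriv : ∀ χ : Cfsg.IrrCharacter G, (∀ g : G, ((χ : G → ℂ) g).im = 0) →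
      ∀ m ∈ M, (χ : G → ℂ) m = (χ : G → ℂ) 1 := by
    intro χ hχ m hm
    haveI := Fintype.ofFinite (Cfsg.IrrCharacter (P : Subgroup G))
    obtain ⟨c, hc⟩ := IsCharacter.exists_sum (CfsgLib.Coherence.isCharacter_comp
      (IsIrrCharacter.isCharacter χ.2) (P : Subgroup G).subtype)
    have h1 := congrFun hc 1
    simp only [Finset.sum_apply, Pi.smul_apply, smul_eq_mul] at h1
    have h2 : Cfsg.charDegree (χ : G → ℂ) =
        ∑ ν : Cfsg.IrrCharacter (P : Subgroup G), c ν * Cfsg.charDegree (ν : ↥(P : Subgroup G) → ℂ) := by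
      have : ((Cfsg.charDegree (χ : G → ℂ) : ℕ) : ℂ) =
          ((∑ ν : Cfsg.IrrCharacter (P : Subgroup G),
            c ν * Cfsg.charDegree (ν : ↥(P : Subgroup G) → ℂ) : ℕ) : ℂ) := by
        rw [charDegree_cast (IsIrrCharacter.isCharacter χ.2)]
        push_cast
        refine Eq.trans ?_ (h1.trans (Finset.sum_congr rfl fun ν _ => by
          rw [charDegree_cast (IsIrrCharacter.isCharacter ν.2)]))
        simp
      exact_mod_cast this
    obtain ⟨ν, -, hν⟩ : ∃ ν ∈ (Finset.univ : Finset (Cfsg.IrrCharacter (P : Subgroup G))),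
        ¬ p ∣ c ν * Cfsg.charDegree (ν : ↥(P : Subgroup G) → ℂ) := by
      by_contra hcon
      push Not at hcon
      exact hreal χ hχ (h2 ▸ Finset.dvd_sum hcon)
    have hν1 : Cfsg.charDegree (ν : ↥(P : Subgroup G) → ℂ) = 1 := by
      obtain ⟨n, hn⟩ := IsPGroup.iff_card.1 P.2
      obtain ⟨i, -, hi⟩ := (Nat.dvd_prime_pow hpp).1 (hn ▸ charDegree_dvd_card ν.2)
      rcases i with _ | i
      · rw [hi, pow_zero]
      · exact absurd (dvd_mul_of_dvd_right (hi ▸ dvd_pow_self p (Nat.succ_ne_zero i)) _) hν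
    obtain ⟨f, hf⟩ := exists_hom_of_degree_one ν.2
      (by rw [← charDegree_cast (IsIrrCharacter.isCharacter ν.2), hν1, Nat.cast_one])
    obtain ⟨a, e, ha, he, hle⟩ := CfsgLib.Clifford.classInner_res_le hMleP
      (IsIrrCharacter.isCharacter χ.2) (trivIrr M).2 {ν} (fun ψ hψ => by
        rw [Finset.mem_singleton.1 hψ]
        have e1 : (fun t : (P : Subgroup G) => (χ : G → ℂ) t) =
            fun t : (P : Subgroup G) => (χ : G → ℂ) ((P : Subgroup G).subtype t) := rfl
        rw [e1, hc, classInner_sum_irr]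
        exact_mod_cast fun h : c ν = 0 => hν (by simp [h]))
    rw [Finset.sum_singleton] at hle
    have he1 := he ν
    have hres : (fun n : M => (ν : ↥(P : Subgroup G) → ℂ) ⟨(n : G), hMleP n.2⟩) = (trivIrr M : M → ℂ) := by
      funext n
      rw [hf, trivIrr_apply]
      show (f _ : ℂ) = 1
      have h3 : (⟨(n : G), hMleP n.2⟩ : (P : Subgroup G)) ∈ commutator (P : Subgroup G) := by
        have h4 := hMP n.2
        rw [← Subgroup.map_subtype_commutator] at h4
        obtain ⟨y, hy, hyn⟩ := h4
        rwa [show (⟨(n : G), hMleP n.2⟩ : (P : Subgroup G)) = y from Subtype.ext hyn.symm]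
      rw [MonoidHom.mem_ker.1 (Abelianization.commutator_subset_ker f h3), Units.val_one]
    rw [hres, classInner_self_of_isIrr (trivIrr M).2] at he1
    have he2 : e ν = 1 := by exact_mod_cast he1.symm
    by_contra hne
    have h0 := sum_normal_eq_zero χ.2 M ⟨m, hm, hne⟩
    have h5 : Cfsg.classInner (fun n : M => (χ : G → ℂ) n) (trivIrr M : M → ℂ) = 0 := by
      simp [Cfsg.classInner, trivIrr_apply, h0]
    rw [ha, Nat.cast_eq_zero] at h5
    omega
  show twoResidual G ≤ _
  rw [twoResidual, Subgroup.closure_le]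
  rintro x ⟨k, hk⟩
  rw [SetLike.mem_coe, Subgroup.mem_centralizer_iff]
  intro v hv
  by_contra hne
  let σ : M → M := fun w => MulAut.conjNormal x w
  have hσ : ∀ (i : ℕ) (w : M), σ^[i] w = MulAut.conjNormal (x ^ i) w := by
    intro i
    induction i with
    | zero => intro w; simp
    | succ i ih =>
      intro w
      rw [Function.iterate_succ_apply', ih, pow_succ', map_mul, MulAut.mul_apply]
  obtain ⟨i, b, hb, hbb⟩ := exists_inverting_pow σ (k := k) (funext fun w => by
      rw [hσ, show x ^ 2 ^ k = 1 from hk ▸ pow_orderOf_eq_one x, map_one]; rfl)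
    (a := ⟨v, hv⟩) (fun h => hne (by
      have h1 := congrArg Subtype.val h
      rw [MulAut.conjNormal_apply] at h1
      exact (mul_inv_eq_iff_eq_mul.1 h1).symm))
  set y := x ^ 2 ^ i with hy
  rw [hσ] at hb
  have hbb' : MulAut.conjNormal y (MulAut.conjNormal y b) = b := by
    have := hbb b
    rwa [hσ, hσ] at this
  set w : M := b⁻¹ * MulAut.conjNormal y b with hw
  have hwinv : MulAut.conjNormal y w = w⁻¹ := by
    rw [hw, map_mul, map_inv, hbb', mul_inv_rev, inv_inv]
  have hreal' : IsConj (w : G) (w : G)⁻¹ := isConj_iff.2 ⟨y, by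
    rw [← MulAut.conjNormal_apply, hwinv, Subgroup.coe_inv]⟩
  have hw1 := eq_one_of_real_of_trivial M hodd htriv w.2 hreal'
  exact hb (inv_mul_eq_one.1 (Subtype.ext hw1 : w = 1)).symm

end Cfsg.Agent.S4862
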