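import Cfsg.Statements.S4864
import Cfsg.Agent.Lib.Correspondences.RealLocal
open CfsgLib.Correspondences

set_option linter.style.haveILetI false

set_option autoImplicit false
open Cfsg

namespace Cfsg.Agent.S4864

/-- Let p be a prime and G a finite group such that the subgroup generated by the p-elements of G is solvable and every real-valued irreducible complex character of G has degree prime to p. Then the normalizer of a Sylow p-subgroup of G contains an element of every real conjugacy class of G: every element conjugate to its inverse is conjugate to an element of that normalizer. -/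
theorem result {G : Type*} [Group G] [Finite G] (p : ℕ) [Fact p.Prime] (hsolv : Group.IsSolvable ↥(Subgroup.closure {g : G | ∃ k : ℕ, orderOf g = p ^ k})) (hreal : ∀ χ : Cfsg.IrrCharacter G, (∀ g : G, ((χ : G → ℂ) g).im = 0) → ¬ p ∣ Cfsg.charDegree (χ : G → ℂ)) (P : Sylow p G) (x : G) (hx : IsConj x x⁻¹) : ∃ y ∈ Subgroup.normalizer ((P : Subgroup G) : Set G), IsConj x y := by
  classical
  haveI : Fact (2 : ℕ).Prime := ⟨Nat.prime_two⟩
  haveI := twoResidual_normal (G := G)
  set K := twoResidual G with hK
  obtain ⟨Qs⟩ : Nonempty (Sylow p K) := inferInstance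
  haveI : (Qs : Subgroup K).Normal := sylow_normal_of_twoResidual_index (G := ↥K)
    (RealDegrees.of_odd_index hreal K odd_index_twoResidual)
    ((solvableResidual_closure hsolv).subgroup K)
    ⟨0, by rw [twoResidual_subgroup le_rfl, Subgroup.subgroupOf_self, Subgroup.index_top, pow_zero]⟩ Qs
  haveI := Sylow.characteristic_of_normal Qs inferInstance
  set Q := (Qs : Subgroup K).map K.subtype with hQ
  haveI : Q.Normal := inferInstance
  have hQK : Q ≤ K := Subgroup.map_subtype_le _
  have hQP : Q ≤ (P : Subgroup G) :=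
    le_sup_right.trans (P.3 (P.2.to_sup_of_normal_right (Qs.2.map K.subtype)) le_sup_left).le
  have hsurj := QuotientGroup.mk'_surjective Q
  have hodd' : ¬ 2 ∣ (K.map (QuotientGroup.mk' Q)).index := fun h =>
    (odd_index_twoResidual (G := G)).not_two_dvd_nat (h.trans (Subgroup.index_map_dvd _ hsurj))
  haveI : (K.map (QuotientGroup.mk' Q)).Normal := Subgroup.Normal.map inferInstance _ hsurj
  have hres : twoResidual (G ⧸ Q) ≤ K.map (QuotientGroup.mk' Q) := by
    rw [twoResidual, Subgroup.closure_le]
    rintro g ⟨k, hk⟩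
    exact pgroup_le_of_not_dvd_index (A := Subgroup.zpowers g)
      (IsPGroup.of_card (n := k) (by rw [Nat.card_zpowers, hk])) hodd' (Subgroup.mem_zpowers g)
  have hpK : ¬ p ∣ Nat.card (twoResidual (G ⧸ Q)) := by
    intro hd
    have h1 := hd.trans (Subgroup.card_dvd_of_le hres)
    have h2 := CfsgLib.Cores.card_comap_mk' Q (K.map (QuotientGroup.mk' Q))
    rw [Subgroup.comap_map_eq, QuotientGroup.ker_mk', sup_eq_left.2 hQK,
      ← Subgroup.card_mul_index (Qs : Subgroup K),
      show Nat.card Q = Nat.card (Qs : Subgroup K) from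
        Subgroup.card_map_of_injective K.subtype_injective] at h2
    exact Qs.not_dvd_index (Nat.eq_of_mul_eq_mul_left Nat.card_pos h2 ▸ h1)
  obtain ⟨yq, hyN, hxy⟩ := exists_conj_mem_normalizer_of_coprime (RealDegrees.quotient hreal Q) hpK
    (P.mapSurjective hsurj) (QuotientGroup.mk' Q x)
    (by rw [← map_inv]; exact (QuotientGroup.mk' Q).map_isConj hx)
  obtain ⟨gq, hg⟩ := isConj_iff.1 hxy
  obtain ⟨g, rfl⟩ := hsurj gq
  refine ⟨g * x * g⁻¹, ?_, isConj_iff.2 ⟨g, rfl⟩⟩
  have hmapN : QuotientGroup.mk' Q (g * x * g⁻¹) ∈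
      Subgroup.normalizer (((P : Subgroup G).map (QuotientGroup.mk' Q) : Subgroup (G ⧸ Q)) : Set (G ⧸ Q)) := by
    rw [map_mul, map_mul, map_inv, hg]
    exact hyN
  have hcomap : ((P : Subgroup G).map (QuotientGroup.mk' Q)).comap (QuotientGroup.mk' Q) = (P : Subgroup G) := by
    rw [Subgroup.comap_map_eq, QuotientGroup.ker_mk', sup_eq_left.2 hQP]
  refine Subgroup.mem_normalizer_iff.2 fun z => ?_
  rw [← hcomap]
  simp only [Subgroup.mem_comap]
  rw [map_mul, map_mul _ (g * x * g⁻¹) z, map_inv]
  exact Subgroup.mem_normalizer_iff.1 hmapN _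

end Cfsg.Agent.S4864
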