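import Cfsg.Statements.S4865
import Cfsg.Agent.Lib.Correspondences.RealClifford
import Cfsg.Agent.Lib.Jordan.RelCorrespondence
open CfsgLib.Correspondences CfsgLib.CharTheory CfsgLib.CharDegreesTheory
open scoped ComplexConjugate Pointwise

set_option linter.style.haveILetI false

set_option autoImplicit false
open Cfsg

namespace Cfsg.Agent.S4865

/-- Let p be a prime and G a finite group such that the subgroup generated by the p-elements of G is solvable and every real-valued irreducible complex character of G has degree prime to p. Let N be the normalizer of a Sylow p-subgroup of G. Then there is a bijection from the real-valued irreducible characters of G onto the real-valued irreducible characters of N of degree prime to p under which corresponding degrees are congruent modulo p up to sign. -/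
theorem result {G : Type*} [Group G] [Finite G] (p : ℕ) [Fact p.Prime] (hsolv : Group.IsSolvable ↥(Subgroup.closure {g : G | ∃ k : ℕ, orderOf g = p ^ k})) (hreal : ∀ χ : Cfsg.IrrCharacter G, (∀ g : G, ((χ : G → ℂ) g).im = 0) → ¬ p ∣ Cfsg.charDegree (χ : G → ℂ)) (P : Sylow p G) : ∃ f : {χ : Cfsg.IrrCharacter G // ∀ g : G, ((χ : G → ℂ) g).im = 0} → {ξ : Cfsg.IrrCharacter ↥(Subgroup.normalizer ((P : Subgroup G) : Set G)) // (∀ n, ((ξ : ↥(Subgroup.normalizer ((P : Subgroup G) : Set G)) → ℂ) n).im = 0) ∧ ¬ p ∣ Cfsg.charDegree (ξ : ↥(Subgroup.normalizer ((P : Subgroup G) : Set G)) → ℂ)}, Function.Bijective f ∧ ∀ χ, ((Cfsg.charDegree ((f χ).1 : ↥(Subgroup.normalizer ((P : Subgroup G) : Set G)) → ℂ) : ZMod p) = (Cfsg.charDegree (χ.1 : G → ℂ) : ZMod p) ∨ (Cfsg.charDegree ((f χ).1 : ↥(Subgroup.normalizer ((P : Subgroup G) : Set G)) → ℂ) : ZMod p) = -(Cfsg.charDegree (χ.1 : G → ℂ) : ZMod p)) := by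
  classical
  haveI := Fintype.ofFinite G
  haveI := twoResidual_normal (G := G)
  set K := twoResidual G with hK
  have hodd : Odd K.index := odd_index_twoResidual
  haveI := Fintype.ofFinite K
  obtain ⟨Qs⟩ : Nonempty (Sylow p K) := inferInstance
  haveI hQn : (Qs : Subgroup K).Normal := sylow_normal_of_twoResidual_index (G := ↥K)
    (RealDegrees.of_odd_index hreal K hodd)
    ((solvableResidual_closure hsolv).subgroup K)
    ⟨0, by rw [twoResidual_subgroup le_rfl, Subgroup.subgroupOf_self, Subgroup.index_top, pow_zero]⟩ Qs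
  haveI := Sylow.characteristic_of_normal Qs inferInstance
  have hQP : ∀ k : K, k ∈ (Qs : Subgroup K) ↔ (k : G) ∈ (P : Subgroup G) := by
    have hle : (Qs : Subgroup K) ≤ (P : Subgroup G).subgroupOf K := by
      intro k hk
      haveI : ((Qs : Subgroup K).map K.subtype).Normal := inferInstance
      exact le_sup_right.trans (P.3 (P.2.to_sup_of_normal_right (Qs.2.map K.subtype)) le_sup_left).le
        (Subgroup.mem_map_of_mem K.subtype hk)
    have he := Qs.3 P.2.comap_subtype hle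
    intro k
    rw [← he]
    rfl
  set N := Subgroup.normalizer ((P : Subgroup G) : Set G) with hN
  haveI := Fintype.ofFinite N
  have hPN : (P : Subgroup G) ≤ N := Subgroup.le_normalizer
  set PN := (P : Subgroup G).subgroupOf N with hPNdef
  haveI : PN.Normal := Subgroup.normal_in_normalizer
  have hPNidx : ¬ p ∣ PN.index := fun h =>
    P.not_dvd_index (h.trans ⟨_, (Subgroup.relIndex_mul_index hPN).symm⟩)
  set Cn := K.subgroupOf N with hCn
  haveI := Fintype.ofFinite Cn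
  have hoddN : Odd Cn.index := hodd.of_dvd_nat (Subgroup.relIndex_dvd_index_of_normal K N)
  let ι : Cn →* K :=
    { toFun := fun c => ⟨((c : N) : G), c.2⟩
      map_one' := rfl
      map_mul' := fun a b => rfl }
  have hιinj : Function.Injective ι := fun a b h =>
    Subtype.ext (Subtype.ext (congrArg (Subtype.val : K → G) h))
  have hnormK : ∀ s ∈ (P : Subgroup G), ∀ g ∈ K, s * g * s⁻¹ ∈ K := fun s _ g hg =>
    (inferInstance : K.Normal).conj_mem g hg s
  set φ := conjRes K (P : Subgroup G) hnormK with hφ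
  have hset : CfsgLib.Jordan.RelSetup φ ι (Qs : Subgroup K) p := by
    refine ⟨P.2, Qs.2, Qs.not_dvd_index, fun s q hq => ?_, hιinj, fun k => ⟨fun h => ?_, ?_⟩⟩
    · refine (hQP _).2 ?_
      show (s : G) * (q : G) * (s : G)⁻¹ ∈ (P : Subgroup G)
      exact mul_mem (mul_mem s.2 ((hQP q).1 hq)) (inv_mem s.2)
    · have hkN : (k : G) ∈ N := by
        refine Subgroup.mem_normalizer_fintype fun n hn => ?_
        have h1 := (hQP _).1 (h ⟨n⁻¹, inv_mem hn⟩)
        have h1' : n⁻¹ * (k : G) * n⁻¹⁻¹ * (k : G)⁻¹ ∈ (P : Subgroup G) := h1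
        have h2 := mul_mem hn h1'
        rwa [show n * (n⁻¹ * (k : G) * n⁻¹⁻¹ * (k : G)⁻¹) = (k : G) * n * (k : G)⁻¹ by group] at h2
      exact ⟨⟨⟨k, hkN⟩, k.2⟩, rfl⟩
    · rintro ⟨c, rfl⟩ s
      refine (hQP _).2 ?_
      show (s : G) * ((c : N) : G) * (s : G)⁻¹ * ((c : N) : G)⁻¹ ∈ (P : Subgroup G)
      rw [show (s : G) * ((c : N) : G) * (s : G)⁻¹ * ((c : N) : G)⁻¹ =
        (s : G) * (((c : N) : G) * (s : G)⁻¹ * ((c : N) : G)⁻¹) by group]
      exact mul_mem s.2 ((Subgroup.mem_normalizer_iff.1 (c : N).2 _).1 (inv_mem s.2))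
  have hact : ∀ (s : (P : Subgroup G)) (c : Cn),
      hset.actC s c = MulAut.conjNormal (⟨s, hPN s.2⟩ : N) c := fun s c => hιinj (by
    rw [hset.map_actC]
    exact Subtype.ext (by simp [φ, ι, conjRes]))
  -- invariance and inertia groups
  have hinvK : ∀ θ : Cfsg.IrrCharacter K,
      IsInvariant φ (θ : K → ℂ) ↔ (P : Subgroup G) ≤ inertia K (θ : K → ℂ) := by
    intro θ
    constructor
    · intro h s hs
      rw [mem_inertia, CfsgLib.Clifford.conjChar_eq_comp]
      funext k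
      rw [← h ⟨s, hs⟩ k]
      exact congrArg θ.1 (Subtype.ext (by simp [φ, conjRes]))
    · intro h s k
      have h1 := (mem_inertia K _ _).1 (h s.2)
      rw [CfsgLib.Clifford.conjChar_eq_comp] at h1
      rw [← congrFun h1 k]
      exact congrArg θ.1 (Subtype.ext (by simp [φ, conjRes]))
  have hinvC : ∀ β : Cfsg.IrrCharacter Cn,
      IsInvariant hset.actC (β : Cn → ℂ) ↔ PN ≤ inertia Cn (β : Cn → ℂ) := by
    intro β
    constructor
    · intro h s hs
      rw [mem_inertia, CfsgLib.Clifford.conjChar_eq_comp]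
      funext c
      rw [← h ⟨(s : G), hs⟩ c, hact]
    · intro h s c
      have h1 := (mem_inertia Cn _ _).1 (h (show (⟨(s : G), hPN s.2⟩ : N) ∈ PN from s.2))
      rw [CfsgLib.Clifford.conjChar_eq_comp] at h1
      rw [hact]
      exact congrFun h1 c
  let Rel : Cfsg.IrrCharacter K → Cfsg.IrrCharacter Cn → Prop := fun θ β =>
    IsInvariant φ (θ : K → ℂ) ∧ IsInvariant hset.actC (β : Cn → ℂ) ∧ ¬ p ∣ mult ι (θ : K → ℂ) (β : Cn → ℂ)
  have huniq : ∀ θ β β', Rel θ β → Rel θ β' → β = β' := fun θ β β' h h' =>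
    hset.unique h.1 h.2.1 h'.2.1 h.2.2 h'.2.2
  have hinj : ∀ θ θ' β, Rel θ β → Rel θ' β → θ = θ' := fun θ θ' β h h' =>
    hset.injective h.1 h'.1 h.2.1 h.2.2 h'.2.2
  -- transport by elements of the normalizer
  let cK : N → Cfsg.IrrCharacter K → Cfsg.IrrCharacter K := fun n θ =>
    ⟨CfsgLib.Clifford.conjChar K (θ : K → ℂ) n, CfsgLib.Clifford.isIrrCharacter_conjChar K θ.2 _⟩
  let cC : N → Cfsg.IrrCharacter Cn → Cfsg.IrrCharacter Cn := fun n β =>
    ⟨CfsgLib.Clifford.conjChar Cn (β : Cn → ℂ) n, CfsgLib.Clifford.isIrrCharacter_conjChar Cn β.2 _⟩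
  have hconj : ∀ (n : N) θ β, Rel θ β → Rel (cK n θ) (cC n β) := by
    intro n θ β h
    refine ⟨(hinvK _).2 fun s hs => ?_, (hinvC _).2 fun s hs => ?_, ?_⟩
    · have h1 := (mem_inertia K _ _).1 ((hinvK θ).1 h.1
        ((Subgroup.mem_normalizer_iff.1 n.2 s).1 hs))
      rw [mem_inertia]
      show CfsgLib.Clifford.conjChar K (CfsgLib.Clifford.conjChar K (θ : K → ℂ) n) s = _
      rw [CfsgLib.Clifford.conjChar_conjChar]
      rw [show (cK n θ : K → ℂ) = CfsgLib.Clifford.conjChar K (θ : K → ℂ) n from rfl]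
      conv_rhs => rw [← h1]
      rw [CfsgLib.Clifford.conjChar_conjChar, inv_mul_cancel_right]
    · have h1 := (mem_inertia Cn _ _).1 ((hinvC β).1 h.2.1
        ((inferInstance : PN.Normal).conj_mem s hs n))
      rw [mem_inertia]
      show CfsgLib.Clifford.conjChar Cn (CfsgLib.Clifford.conjChar Cn (β : Cn → ℂ) n) s =
        CfsgLib.Clifford.conjChar Cn (β : Cn → ℂ) n
      conv_rhs => rw [← h1]
      rw [CfsgLib.Clifford.conjChar_conjChar, CfsgLib.Clifford.conjChar_conjChar, inv_mul_cancel_right]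
    · have hm := mult_comp_equiv ι ι (MulAut.conjNormal (n : G) : MulAut K)
        (MulAut.conjNormal n : MulAut Cn) (fun c => Subtype.ext (by simp [ι]))
        (θ : K → ℂ) (β : Cn → ℂ)
      rw [show (fun g => (θ : K → ℂ) (MulAut.conjNormal (n : G) g)) = (cK n θ : K → ℂ) from
          (CfsgLib.Clifford.conjChar_eq_comp K _ _).symm,
        show (fun c => (β : Cn → ℂ) (MulAut.conjNormal n c)) = (cC n β : Cn → ℂ) from
          (CfsgLib.Clifford.conjChar_eq_comp Cn _ _).symm] at hm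
      rw [hm]
      exact h.2.2
  have hT : ∀ θ β, Rel θ β → inertia Cn (β : Cn → ℂ) = (inertia K (θ : K → ℂ)).subgroupOf N := by
    intro θ β h
    ext n
    rw [Subgroup.mem_subgroupOf, mem_inertia, mem_inertia]
    constructor
    · intro hn
      have he : cC n β = β := Subtype.ext hn
      exact congrArg Subtype.val (hinj _ _ β (he ▸ hconj n θ β h) h)
    · intro hn
      have he : cK n θ = θ := Subtype.ext hn
      exact congrArg Subtype.val (huniq θ _ _ (he ▸ hconj n θ β h) h)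
  -- the correspondence preserves reality
  have hreal_iff : ∀ θ β, Rel θ β →
      ((∀ k, ((θ : K → ℂ) k).im = 0) ↔ ∀ c, ((β : Cn → ℂ) c).im = 0) := by
    intro θ β h
    let θ' : Cfsg.IrrCharacter K := ⟨_, isIrrCharacter_conj θ.2⟩
    let β' : Cfsg.IrrCharacter Cn := ⟨_, isIrrCharacter_conj β.2⟩
    have hm : mult ι (θ' : K → ℂ) (β' : Cn → ℂ) = mult ι (θ : K → ℂ) (β : Cn → ℂ) :=
      mult_conj ι (IsIrrCharacter.isCharacter θ.2) β
    have hrel : Rel θ' β' :=
      ⟨fun s k => congrArg conj (h.1 s k), fun s c => congrArg conj (h.2.1 s c), hm ▸ h.2.2⟩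
    constructor
    · intro hr
      have he : θ' = θ := Subtype.ext (funext fun k => Complex.conj_eq_iff_im.2 (hr k))
      have h2 := huniq θ _ _ (he ▸ hrel) h
      exact fun c => Complex.conj_eq_iff_im.1 (congrFun (congrArg Subtype.val h2) c)
    · intro hr
      have he : β' = β := Subtype.ext (funext fun c => Complex.conj_eq_iff_im.2 (hr c))
      have h2 := hinj _ _ β (he ▸ hrel) h
      exact fun k => Complex.conj_eq_iff_im.1 (congrFun (congrArg Subtype.val h2) k)
  -- every real character of `G` has a `P`-invariant real constituent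
  have hchoose : ∀ χ : {χ : Cfsg.IrrCharacter G // ∀ g : G, ((χ : G → ℂ) g).im = 0},
      ∃ θ : Cfsg.IrrCharacter K, (∀ k, ((θ : K → ℂ) k).im = 0) ∧ IsInvariant φ (θ : K → ℂ) ∧
        Cfsg.classInner (fun k : K => (χ.1 : G → ℂ) k) (θ : K → ℂ) ≠ 0 := by
    intro χ
    obtain ⟨θ, hθr, hne⟩ := (real_over_unique K hodd).1 χ.1 χ.2
    have hd := real_over_degree K hodd χ.2 hθr hne
    set T := inertia K (θ : K → ℂ) with hTdef
    have hTp : ¬ p ∣ T.index := fun h => hreal χ.1 χ.2 (hd ▸ h.mul_right _)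
    obtain ⟨S⟩ : Nonempty (Sylow p T) := inferInstance
    have hsyl : ¬ p ∣ ((S : Subgroup T).map T.subtype).index := by
      rw [Subgroup.index_map_subtype]
      exact fun h => ((Fact.out : p.Prime).dvd_mul.1 h).elim S.not_dvd_index hTp
    obtain ⟨g, hg⟩ := MulAction.exists_smul_eq G ((S.2.map T.subtype).toSylow hsyl) P
    refine ⟨⟨CfsgLib.Clifford.conjChar K (θ : K → ℂ) g⁻¹,
      CfsgLib.Clifford.isIrrCharacter_conjChar K θ.2 _⟩, fun k => ?_, (hinvK _).2 fun s hs => ?_, ?_⟩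
    · rw [show ((⟨CfsgLib.Clifford.conjChar K (θ : K → ℂ) g⁻¹,
        CfsgLib.Clifford.isIrrCharacter_conjChar K θ.2 _⟩ : Cfsg.IrrCharacter K) : K → ℂ) k =
        CfsgLib.Clifford.conjChar K (θ : K → ℂ) g⁻¹ k from rfl, CfsgLib.Clifford.conjChar_apply]
      exact hθr _
    · have hsT : g⁻¹ * s * g ∈ T := by
        have h2 : s ∈ MulAut.conj g • ((S : Subgroup T).map T.subtype) := by
          rw [show MulAut.conj g • ((S : Subgroup T).map T.subtype) =
            ((g • ((S.2.map T.subtype).toSylow hsyl) : Sylow p G) : Subgroup G) from rfl, hg]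
          exact hs
        exact Subgroup.map_subtype_le _ (CfsgLib.CoprimeAction.mem_conj_iff.1 h2)
      rw [mem_inertia] at hsT ⊢
      show CfsgLib.Clifford.conjChar K (CfsgLib.Clifford.conjChar K (θ : K → ℂ) g⁻¹) s =
        CfsgLib.Clifford.conjChar K (θ : K → ℂ) g⁻¹
      conv_rhs => rw [← hsT]
      rw [CfsgLib.Clifford.conjChar_conjChar, CfsgLib.Clifford.conjChar_conjChar, mul_inv_cancel_right]
    · show Cfsg.classInner _ (CfsgLib.Clifford.conjChar K (θ : K → ℂ) g⁻¹) ≠ 0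
      rw [CfsgLib.Clifford.classInner_conjChar K (IsIrrCharacter.isClassFunction χ.1.2)]
      exact hne
  choose θf hθr hθi hθn using hchoose
  have hβex : ∀ χ, ∃ β : Cfsg.IrrCharacter Cn, Rel (θf χ) β := fun χ => by
    obtain ⟨β, h1, h2⟩ := hset.exists_of_invariant (hθi χ)
    exact ⟨β, hθi χ, h1, h2⟩
  choose βf hrel using hβex
  have hξex : ∀ χ, ∃ ξ : Cfsg.IrrCharacter N, (∀ n, ((ξ : N → ℂ) n).im = 0) ∧
      Cfsg.classInner (fun c : Cn => (ξ : N → ℂ) c) (βf χ : Cn → ℂ) ≠ 0 := fun χ =>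
    exists_real_over Cn hoddN (βf χ) ((hreal_iff _ _ (hrel χ)).1 (hθr χ))
  choose ξf hξr hξn using hξex
  have hdeg : ∀ χ, ∃ m : ZMod p, (m = 1 ∨ m = -1) ∧
      (Cfsg.charDegree (ξf χ : N → ℂ) : ZMod p) = m * (Cfsg.charDegree (χ.1 : G → ℂ) : ZMod p) := by
    intro χ
    obtain ⟨hm, hmd⟩ := hset.mult_degree (hθi χ) (hrel χ).2.1 (hrel χ).2.2
    refine ⟨_, hm, ?_⟩
    rw [real_over_degree Cn hoddN (hξr χ) ((hreal_iff _ _ (hrel χ)).1 (hθr χ)) (hξn χ),
      real_over_degree K hodd χ.2 (hθr χ) (hθn χ), hT _ _ (hrel χ), Nat.cast_mul, Nat.cast_mul,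
      (ZMod.natCast_eq_natCast_iff _ _ _).2 (index_modEq_relIndex_normalizer P ((hinvK _).1 (hθi χ))),
      ← hmd]
    rcases hm with e | e <;> rw [e] <;> simp [Subgroup.relIndex] <;> exact Or.inl rfl
  have hξp : ∀ χ, ¬ p ∣ Cfsg.charDegree (ξf χ : N → ℂ) := by
    intro χ hd
    obtain ⟨m, hm, he⟩ := hdeg χ
    rw [(ZMod.natCast_eq_zero_iff _ _).2 hd] at he
    refine hreal χ.1 χ.2 ((ZMod.natCast_eq_zero_iff _ _).1 ?_)
    rcases hm with e | e <;> rw [e] at he <;> simpa using he.symm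
  refine ⟨fun χ => ⟨ξf χ, hξr χ, hξp χ⟩, ⟨fun χ₁ χ₂ h => ?_, fun ξ => ?_⟩, fun χ => ?_⟩
  · have he : ξf χ₁ = ξf χ₂ := congrArg Subtype.val h
    have h2 : Cfsg.classInner (fun c : Cn => (ξf χ₁ : N → ℂ) c) (βf χ₂ : Cn → ℂ) ≠ 0 := by
      rw [he]; exact hξn χ₂
    obtain ⟨n, hn⟩ := CfsgLib.Clifford.exists_conj_of_constituents Cn (ξf χ₁).2 (βf χ₁).2
      (βf χ₂).2 (hξn χ₁) h2
    have hcn : βf χ₂ = cC n (βf χ₁) := Subtype.ext hn
    have hθ : θf χ₂ = cK n (θf χ₁) := hinj _ _ _ (hrel χ₂) (hcn ▸ hconj n _ _ (hrel χ₁))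
    refine Subtype.ext ((real_over_unique K hodd).2 (θf χ₂) (hθr χ₂) χ₁.1 χ₂.1 χ₁.2 χ₂.2 ?_ (hθn χ₂))
    rw [hθ]
    show Cfsg.classInner _ (CfsgLib.Clifford.conjChar K (θf χ₁ : K → ℂ) (n : G)) ≠ 0
    rw [CfsgLib.Clifford.classInner_conjChar K (IsIrrCharacter.isClassFunction χ₁.1.2)]
    exact hθn χ₁
  · obtain ⟨ξ, hr, hp'⟩ := ξ
    obtain ⟨β, hβr, hβn⟩ := (real_over_unique Cn hoddN).1 ξ hr
    have hd := real_over_degree Cn hoddN hr hβr hβn
    have hβi : IsInvariant hset.actC (β : Cn → ℂ) :=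
      (hinvC β).2 (sylow_le_of_not_dvd_index PN _ P.2.comap_subtype fun h => hp' (hd ▸ h.mul_right _))
    obtain ⟨θ, hθi', hm⟩ := hset.surjective hβi
    have hR : Rel θ β := ⟨hθi', hβi, hm⟩
    have hθr' := (hreal_iff _ _ hR).2 hβr
    obtain ⟨χ, hχr, hχn⟩ := exists_real_over K hodd θ hθr'
    refine ⟨⟨χ, hχr⟩, Subtype.ext ?_⟩
    set χ' : {χ : Cfsg.IrrCharacter G // ∀ g : G, ((χ : G → ℂ) g).im = 0} := ⟨χ, hχr⟩ with hχ'
    obtain ⟨g, hg⟩ := CfsgLib.Clifford.exists_conj_of_constituents K χ.2 θ.2 (θf χ').2 hχn (hθn χ')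
    have h2 : MulAut.conj g • (P : Subgroup G) ≤ inertia K (θ : K → ℂ) := by
      intro y hy
      obtain ⟨s, hs, rfl⟩ := Subgroup.mem_map.1 hy
      have h1 := (mem_inertia K _ _).1 ((hinvK _).1 (hθi χ') hs)
      rw [hg, CfsgLib.Clifford.conjChar_conjChar] at h1
      rw [mem_inertia]
      show CfsgLib.Clifford.conjChar K (θ : K → ℂ) (g * s * g⁻¹) = θ
      rw [← CfsgLib.Clifford.conjChar_conjChar, h1, CfsgLib.Clifford.conjChar_conjChar, mul_inv_cancel,
        CfsgLib.Clifford.conjChar_one]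
    obtain ⟨h, hhT, hhN⟩ := exists_mem_mul_normalizer P _ ((hinvK θ).1 hθi') h2
    have hθ : θf χ' = cK ⟨h * g, hhN⟩ θ := by
      refine Subtype.ext ?_
      show (θf χ' : K → ℂ) = CfsgLib.Clifford.conjChar K (θ : K → ℂ) (h * g)
      rw [← CfsgLib.Clifford.conjChar_conjChar, (mem_inertia K _ _).1 hhT]
      exact hg
    have hβ : βf χ' = cC ⟨h * g, hhN⟩ β := huniq _ _ _ (hrel χ') (hθ ▸ hconj _ _ _ hR)
    refine (real_over_unique Cn hoddN).2 β hβr _ _ (hξr χ') hr ?_ hβn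
    have h3 := hξn χ'
    rw [hβ] at h3
    change Cfsg.classInner _ (CfsgLib.Clifford.conjChar Cn (β : Cn → ℂ) _) ≠ 0 at h3
    rwa [CfsgLib.Clifford.classInner_conjChar Cn (IsIrrCharacter.isClassFunction (ξf χ').2)] at h3
  · obtain ⟨m, hm, he⟩ := hdeg χ
    rcases hm with e | e
    · exact Or.inl (by rw [show _ = _ from he, e, one_mul])
    · exact Or.inr (by rw [show _ = _ from he, e, neg_one_mul])

end Cfsg.Agent.S4865
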