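import Cfsg.Statements.S4866
import Cfsg.Agent.Lib.Correspondences.OddIndexReal

set_option linter.style.haveILetI false

set_option autoImplicit false
open Cfsg

namespace Cfsg.Agent.S4866

/-- Let K be a normal subgroup of odd index in the finite group G. Then G has as many orbits on the real-valued irreducible complex characters of K (acting by conjugation) as it has orbits on the conjugacy classes of K that are real in K; equivalently, the number of G-orbits of real-valued irreducible characters of K equals the number of G-conjugacy classes of elements of K that are conjugate in K to their inverses. -/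
theorem result {G : Type*} [Group G] [Finite G] (K : Subgroup G) [K.Normal] (hodd : Odd K.index) : Nat.card (Quot (fun θ η : {θ : Cfsg.IrrCharacter ↥K // (∀ k : ↥K, ((θ : ↥K → ℂ) k).im = 0)} => ∃ g : G, ∀ k k' : ↥K, (k' : G) = g * (k : G) * g⁻¹ → (η.1 : ↥K → ℂ) k' = (θ.1 : ↥K → ℂ) k)) = Nat.card (Quot (fun x y : {x : ↥K // IsConj x x⁻¹} => ∃ g : G, (y.1 : G) = g * x.1 * g⁻¹)) := by
  haveI := Fintype.ofFinite G
  have h := (CfsgLib.Correspondences.card_quot_real_char K hodd).trans
    (CfsgLib.Correspondences.card_quot_real_elem K hodd).symm
  exact_mod_cast h

end Cfsg.Agent.S4866
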