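import Cfsg.Statements.S4870
import Cfsg.Agent.Lib.Clifford.Gallagher
import Cfsg.Agent.Lib.CharTheory.Linear
import Cfsg.Agent.Lib.CharTheory.Values
import Cfsg.Agent.Lib.Correspondences.CharKer
open CfsgLib.CharTheory CfsgLib.Frobenius CfsgLib.Clifford
open scoped ComplexConjugate

set_option linter.style.haveILetI false

set_option autoImplicit false
open Cfsg

namespace Cfsg.Agent.S4870

/-- Let G be a finite group with a non-abelian minimal normal subgroup N, and let φ be an irreducible complex character of N with stabilizer I in G (the elements g with φ(g n g⁻¹) = φ(n) for all n ∈ N) such that φ extends to an irreducible character of I. Put d = φ(1)·[G : I]. Then the number of linear characters of G is at most [G : I] times the number of irreducible characters of G of degree d. -/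
theorem result {G : Type*} [Group G] [Finite G] (N : Subgroup G) (hN : N.Normal) (hN1 : N ≠ ⊥) (hmin : ∀ M : Subgroup G, M.Normal → M ≤ N → M = ⊥ ∨ M = N) (hna : ¬ IsMulCommutative ↥N) (φ : Cfsg.IrrCharacter ↥N) (I : Subgroup G) (hI : ∀ g : G, g ∈ I ↔ ∀ n n' : ↥N, (n' : G) = g * (n : G) * g⁻¹ → (φ : ↥N → ℂ) n' = (φ : ↥N → ℂ) n) (hNI : N ≤ I) (hext : ∃ ψ : Cfsg.IrrCharacter ↥I, ∀ n : ↥N, (ψ : ↥I → ℂ) (Subgroup.inclusion hNI n) = (φ : ↥N → ℂ) n) : Nat.card {χ : Cfsg.IrrCharacter G // Cfsg.charDegree (χ : G → ℂ) = 1} ≤ I.index * Nat.card {χ : Cfsg.IrrCharacter G // Cfsg.charDegree (χ : G → ℂ) = Cfsg.charDegree (φ : ↥N → ℂ) * I.index} := by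
  classical
  haveI := hN
  haveI := Fintype.ofFinite G
  haveI := Fintype.ofFinite N
  haveI := Fintype.ofFinite I
  haveI := Fintype.ofFinite (N.subgroupOf I)
  haveI : (N.subgroupOf I).Normal := inferInstance
  obtain ⟨ψ, hψ⟩ := hext
  let e : N.subgroupOf I ≃* N := Subgroup.subgroupOfEquivOfLe hNI
  have hψN : IsIrrCharacter (N.subgroupOf I) (fun x : N.subgroupOf I => (ψ : I → ℂ) x) := by
    have h := isIrrCharacter_comp_mulEquiv φ.2 e
    have he : (fun x : N.subgroupOf I => (ψ : I → ℂ) x) = fun x => (φ : N → ℂ) (e x) :=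
      funext fun x => by rw [← hψ (e x)]; rfl
    rw [he]; exact h
  -- every coset of `N` in `I` has a point where `ψ` is nonzero
  have hcoset : ∀ i : I, ∃ n : N.subgroupOf I, (ψ : I → ℂ) ((n : I) * i) ≠ 0 := by
    intro i
    by_contra h0
    push Not at h0
    have h := congrFun (cosetAvg_mul_conj_self ψ.2 hψN) i
    simp [cosetAvg, h0] at h
  -- `N` is perfect, so linear characters are trivial on it
  have hperf : ⁅N, N⁆ = N := by
    refine (hmin _ inferInstance (Subgroup.commutator_le_left N N)).resolve_left fun h => hna ?_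
    exact ⟨⟨fun a b => Subtype.ext (Subgroup.mem_centralizer_iff.1
      (Subgroup.commutator_eq_bot_iff_le_centralizer.1 h b.2) (a : G) a.2)⟩⟩
  have hlinN : ∀ μ : G →* ℂˣ, N ≤ μ.ker := by
    intro μ
    rw [← hperf]
    exact Subgroup.commutator_le.2 fun a _ b _ => by
      rw [MonoidHom.mem_ker, commutatorElement_def, map_mul, map_mul, map_mul, map_inv, map_inv,
        mul_comm (μ a) (μ b), mul_inv_cancel_right, mul_inv_cancel]
  -- the twisted extensions
  let tw : (G →* ℂˣ) → I → ℂ := fun μ i => (μ (i : G) : ℂ) * (ψ : I → ℂ) i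
  have htw : ∀ μ, IsIrrCharacter I (tw μ) := by
    intro μ
    have hch : IsCharacter I (tw μ) := CfsgLib.CharTheory.isCharacter_mul
      (IsIrrCharacter.isCharacter (isIrrCharacter_linear (μ.comp I.subtype)))
      (IsIrrCharacter.isCharacter ψ.2)
    refine (isIrrCharacter_iff_norm_one hch).2 (Eq.trans ?_ (classInner_self_of_isIrr ψ.2))
    simp only [Cfsg.classInner]
    congr 1
    refine Finset.sum_congr rfl fun i _ => ?_
    have h1 : (μ (i : G) : ℂ) * conj (μ (i : G) : ℂ) = 1 := by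
      rw [Complex.mul_conj', Complex.norm_eq_one_of_pow_eq_one (n := orderOf (i : G)) ?_
        (orderOf_pos (i : G)).ne']
      · simp
      · rw [← Units.val_pow_eq_pow_val, ← map_pow, pow_orderOf_eq_one, map_one, Units.val_one]
    simp only [tw, map_mul]
    linear_combination (ψ : I → ℂ) i * conj ((ψ : I → ℂ) i) * h1
  have htwN : ∀ μ, (fun n : N => tw μ ⟨(n : G), hNI n.2⟩) = (φ : N → ℂ) := fun μ => funext fun n => by
    simp only [tw, MonoidHom.mem_ker.1 (hlinN μ n.2), Units.val_one, one_mul]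
    exact hψ n
  have hover : ∀ μ, Cfsg.classInner (fun n : N => tw μ ⟨(n : G), hNI n.2⟩) (φ : N → ℂ) ≠ 0 := fun μ => by
    rw [htwN, classInner_self_of_isIrr φ.2]; exact one_ne_zero
  have hT : ∀ g : G, g ∈ I ↔ conjChar N (φ : N → ℂ) g = φ := fun g => by
    rw [hI, conjChar_eq_self_iff]
    exact ⟨fun h n => h n _ rfl, fun h n n' hn => (congrArg φ.1 (Subtype.ext hn)).trans (h n)⟩
  have hind : ∀ μ, IsIrrCharacter G (indFun I (tw μ)) := fun μ =>
    (isIrrCharacter_indFun_inertia φ.2 hT hNI (htw μ) (hover μ)).1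
  haveI : Finite (G →* ℂˣ) := Finite.of_equiv _ linearEquivHom
  haveI := Fintype.ofFinite (G →* ℂˣ)
  haveI := Fintype.ofFinite (IrrCharacter G)
  let F : (G →* ℂˣ) → IrrCharacter G := fun μ => ⟨_, hind μ⟩
  have hlin : Nat.card {χ : Cfsg.IrrCharacter G // Cfsg.charDegree (χ : G → ℂ) = 1} = Nat.card (G →* ℂˣ) := by
    rw [← Nat.card_congr linearEquivHom]
    refine Nat.card_congr (Equiv.subtypeEquivRight fun χ => ?_)
    rw [← CfsgLib.Correspondences.charDegree_cast (IsIrrCharacter.isCharacter χ.2), Nat.cast_eq_one]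
  have hdeg : ∀ μ, Cfsg.charDegree (F μ : G → ℂ) = Cfsg.charDegree (φ : N → ℂ) * I.index := by
    intro μ
    have h := CfsgLib.Correspondences.charDegree_cast (IsIrrCharacter.isCharacter (F μ).2)
    rw [show (F μ : G → ℂ) 1 = (I.index : ℂ) * tw μ 1 from indFun_one I (tw μ),
      show tw μ 1 = (φ : N → ℂ) 1 from congrFun (htwN μ) 1,
      ← CfsgLib.Correspondences.charDegree_cast (IsIrrCharacter.isCharacter φ.2), ← Nat.cast_mul,
      Nat.cast_inj] at h
    rw [h, mul_comm]
  -- the fibres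
  let A : Set (G →* ℂˣ) := {ν | ∀ i ∈ I, ν i = 1}
  have hA : Nat.card A ≤ I.index := by
    haveI := Fintype.ofFinite A
    haveI := Fintype.ofFinite (G ⧸ I)
    let v : A → (G ⧸ I) → ℂ := fun ν x => (ν.1 x.out : ℂ)
    have hv : ∀ (ν : A) (g : G), v ν (g : G ⧸ I) = (ν.1 g : ℂ) := fun ν g => by
      obtain ⟨i, hi⟩ := QuotientGroup.mk_out_eq_mul I g
      simp only [v, hi, map_mul, ν.2 i i.2, mul_one]
    have hli : LinearIndependent ℂ v := by
      refine LinearIndependent.of_comp (LinearMap.funLeft ℂ ℂ (fun g : G => (g : G ⧸ I))) ?_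
      have h := (linearIndependent_monoidHom G ℂ).comp (fun ν : A => (Units.coeHom ℂ).comp ν.1)
        fun a b hab => Subtype.ext (MonoidHom.ext fun g => Units.ext (DFunLike.congr_fun hab g))
      have e : (LinearMap.funLeft ℂ ℂ (fun g : G => (g : G ⧸ I))) ∘ v =
          (fun f : G →* ℂ => (f : G → ℂ)) ∘ fun ν : A => (Units.coeHom ℂ).comp ν.1 := by
        funext ν g
        exact hv ν g
      rw [e]
      exact h
    have := hli.fintype_card_le_finrank
    rwa [Module.finrank_fintype_fun_eq_card, ← Nat.card_eq_fintype_card, ← Nat.card_eq_fintype_card,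
      ← Subgroup.index_eq_card] at this
  have hfib : ∀ μ₀ : G →* ℂˣ, Nat.card {μ : G →* ℂˣ // F μ = F μ₀} ≤ Nat.card A := by
    intro μ₀
    refine Nat.card_le_card_of_injective (fun μ => ⟨μ.1 * μ₀⁻¹, fun i hi => ?_⟩) fun a b hab =>
      Subtype.ext (mul_right_cancel (congrArg Subtype.val hab))
    have h := indFun_inertia_injective φ.2 hT hNI (htw μ.1) (htw μ₀) (hover _) (hover _)
      (congrArg Subtype.val μ.2)
    obtain ⟨n, hn⟩ := hcoset ⟨i, hi⟩
    have h2 := congrFun h ((n : I) * ⟨i, hi⟩)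
    simp only [tw, Subgroup.coe_mul, map_mul, MonoidHom.mem_ker.1 (hlinN μ.1 (Subgroup.mem_subgroupOf.1 n.2)),
      MonoidHom.mem_ker.1 (hlinN μ₀ (Subgroup.mem_subgroupOf.1 n.2)), one_mul] at h2
    rw [MonoidHom.mul_apply, MonoidHom.inv_apply, Units.ext (mul_right_cancel₀ hn h2), mul_inv_cancel]
  rw [hlin, Nat.card_eq_fintype_card, ← Finset.card_univ]
  refine (Finset.card_le_mul_card_image (f := F) Finset.univ I.index ?_).trans
    (Nat.mul_le_mul_left _ ?_)
  · intro χ hχ
    obtain ⟨μ₀, -, rfl⟩ := Finset.mem_image.1 hχ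
    rw [← Fintype.card_subtype, ← Nat.card_eq_fintype_card]
    exact (hfib μ₀).trans hA
  · rw [Nat.card_eq_fintype_card, Fintype.card_subtype]
    refine Finset.card_le_card fun χ hχ => ?_
    obtain ⟨μ, -, rfl⟩ := Finset.mem_image.1 hχ
    exact Finset.mem_filter.2 ⟨Finset.mem_univ _, hdeg μ⟩

end Cfsg.Agent.S4870
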