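import Cfsg.Statements.S4871
import Cfsg.Agent.Lib.Clifford.Basic
import Cfsg.Agent.Lib.CharTheory.Linear
import Cfsg.Agent.Lib.Correspondences.CharKer
import Cfsg.Agent.Lib.Correspondences.RealIrr
open CfsgLib.CharTheory CfsgLib.Frobenius CfsgLib.Clifford CfsgLib.Correspondences CfsgLib.RealChar

set_option linter.style.haveILetI false

set_option autoImplicit false
open Cfsg

namespace Cfsg.Agent.S4871

/-- Let G be a finite group that is the semidirect product of a normal elementary abelian subgroup N of odd order by a non-trivial 2-subgroup P, with N the unique minimal normal subgroup of G. Consider the strongly real irreducible complex characters of G (Frobenius–Schur indicator +1) whose degree is 1 or even. Then their average degree is at least 4/3: four times their number is at most three times the sum of their degrees. -/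
theorem result {G : Type*} [Group G] [Finite G] (N P : Subgroup G) (hN : N.Normal) (q : ℕ) [Fact q.Prime] (hq : q ≠ 2) (hNel : Cfsg.IsElementaryAbelian q N) (hP : IsPGroup 2 ↥P) (hP1 : P ≠ ⊥) (hdisj : N ⊓ P = ⊥) (hprod : N ⊔ P = ⊤) (hmin : N ≠ ⊥ ∧ ∀ M : Subgroup G, M.Normal → M ≠ ⊥ → N ≤ M) : 4 * Nat.card {χ : Cfsg.IrrCharacter G // (Cfsg.charDegree (χ : G → ℂ) = 1 ∨ 2 ∣ Cfsg.charDegree (χ : G → ℂ)) ∧ (Nat.card G : ℂ)⁻¹ * ∑ᶠ g : G, (χ : G → ℂ) (g * g) = 1} ≤ 3 * (∑ᶠ χ : {χ : Cfsg.IrrCharacter G // (Cfsg.charDegree (χ : G → ℂ) = 1 ∨ 2 ∣ Cfsg.charDegree (χ : G → ℂ)) ∧ (Nat.card G : ℂ)⁻¹ * ∑ᶠ g : G, (χ : G → ℂ) (g * g) = 1}, Cfsg.charDegree (χ.1 : G → ℂ)) := by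
  classical
  haveI := hN
  haveI := Fintype.ofFinite G
  haveI := Fintype.ofFinite N
  have hab : ∀ a ∈ N, ∀ b ∈ N, a * b = b * a := fun a ha b hb =>
    congrArg Subtype.val (hNel.1.is_comm.comm (⟨a, ha⟩ : N) ⟨b, hb⟩)
  have hqodd : Odd q := (Fact.out : q.Prime).odd_of_ne_two hq
  -- decomposition `G = N P`
  have hdec : ∀ g : G, ∃ n : N, ∃ p : P, g = (n : G) * p := by
    intro g
    have hg : g ∈ ((N ⊔ P : Subgroup G) : Set G) := by rw [hprod]; exact Subgroup.mem_top g
    rw [Subgroup.normal_mul N P] at hg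
    obtain ⟨a, ha, b, hb, rfl⟩ := hg
    exact ⟨⟨a, ha⟩, ⟨b, hb⟩, rfl⟩
  have huniq : ∀ (n n' : N) (p p' : P), (n : G) * p = (n' : G) * p' → n = n' ∧ p = p' := by
    intro n n' p p' h
    have h1 : (n' : G)⁻¹ * n = (p' : G) * (p : G)⁻¹ := by
      calc (n' : G)⁻¹ * n = (n' : G)⁻¹ * ((n : G) * p) * (p : G)⁻¹ := by group
        _ = _ := by rw [h]; group
    have h2 : (n' : G)⁻¹ * n ∈ N ⊓ P :=
      Subgroup.mem_inf.2 ⟨N.mul_mem (N.inv_mem n'.2) n.2, h1 ▸ P.mul_mem p'.2 (P.inv_mem p.2)⟩
    rw [hdisj, Subgroup.mem_bot] at h2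
    exact ⟨Subtype.ext (inv_mul_eq_one.1 h2).symm,
      Subtype.ext (mul_inv_eq_one.1 (h1 ▸ h2)).symm⟩
  have hfaith : ∀ p : P, (∀ n ∈ N, (p : G) * n = n * p) → p = 1 := by
    intro p hp
    by_contra hp1
    let C : Subgroup G := Subgroup.centralizer (N : Set G) ⊓ P
    have hC : C.Normal := by
      refine ⟨fun c hc g => ?_⟩
      obtain ⟨n, r, rfl⟩ := hdec g
      have hr : (r : G) * c * (r : G)⁻¹ ∈ C := by
        exact Subgroup.mem_inf.2 ⟨Subgroup.Normal.conj_mem inferInstance c hc.1 _, P.mul_mem (P.mul_mem r.2 hc.2) (P.inv_mem r.2)⟩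
      have hcomm := Subgroup.mem_centralizer_iff.1 hr.1 (n : G) n.2
      have : (n : G) * r * c * ((n : G) * r)⁻¹ = (r : G) * c * (r : G)⁻¹ := by
        calc (n : G) * r * c * ((n : G) * r)⁻¹ = (n : G) * ((r : G) * c * (r : G)⁻¹) * (n : G)⁻¹ := by group
          _ = _ := by rw [hcomm]; group
      rw [this]; exact hr
    have hmem : (p : G) ∈ C := ⟨Subgroup.mem_centralizer_iff.2 fun n hn => (hp n hn).symm, p.2⟩
    have hle := hmin.2 C hC (fun e => hp1 (Subtype.ext (Subgroup.mem_bot.1 (e ▸ hmem))))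
    refine hmin.1 ((Subgroup.eq_bot_iff_forall N).2 fun n hn => ?_)
    exact Subgroup.mem_bot.1 (hdisj ▸ ⟨hn, (hle hn).2⟩)
  -- a central involution inverts `N`
  haveI : Nontrivial P := (Subgroup.nontrivial_iff_ne_bot P).2 hP1
  haveI := hP.center_nontrivial
  obtain ⟨z, hzc, hz2, hz1⟩ : ∃ z : P, z ∈ Subgroup.center P ∧ z * z = 1 ∧ z ≠ 1 := by
    obtain ⟨⟨w, hw⟩, hw1⟩ := exists_ne (1 : Subgroup.center P)
    obtain ⟨z, hz⟩ := exists_prime_orderOf_dvd_card' (G := Subgroup.center P) 2
      (((hP.to_subgroup _).card_eq_or_dvd).resolve_left (by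
        haveI : Nontrivial (Subgroup.center P) := inferInstance
        exact Finite.one_lt_card.ne'))
    refine ⟨z, z.2, ?_, fun e => ?_⟩
    · have := pow_orderOf_eq_one z
      rw [hz, sq] at this
      exact congrArg Subtype.val this
    · have : z = 1 := Subtype.ext e
      rw [this, orderOf_one] at hz
      omega
  have hz2' : (z : G) * z = 1 := congrArg Subtype.val hz2
  have hinvN : ∀ n ∈ N, (z : G) * n * (z : G)⁻¹ = n⁻¹ := by
    let F : Subgroup G := Subgroup.centralizer ({(z : G)} : Set G) ⊓ N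
    have hF : F.Normal := by
      refine ⟨fun c hc g => ?_⟩
      obtain ⟨n, r, rfl⟩ := hdec g
      have hzr : (z : G) * r = r * z := congrArg Subtype.val ((Subgroup.mem_center_iff.1 hzc r).symm)
      have hc1 := Subgroup.mem_centralizer_singleton_iff.1 hc.1
      have hr : (r : G) * c * (r : G)⁻¹ ∈ N := hN.conj_mem c hc.2 _
      have : (n : G) * r * c * ((n : G) * r)⁻¹ = (r : G) * c * (r : G)⁻¹ := by
        calc (n : G) * r * c * ((n : G) * r)⁻¹ = (n : G) * ((r : G) * c * (r : G)⁻¹) * (n : G)⁻¹ := by group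
          _ = _ := by rw [hab _ n.2 _ hr]; group
      rw [this]
      refine ⟨Subgroup.mem_centralizer_singleton_iff.2 ?_, hr⟩
      have hzr' : Commute (z : G) r := hzr
      have hcz : Commute (z : G) c := hc1.symm
      exact ((hzr'.mul_right hcz).mul_right hzr'.inv_right).eq.symm
    intro n hn
    have hm : n * ((z : G) * n * (z : G)⁻¹) ∈ F := by
      have hzn : (z : G) * n * (z : G)⁻¹ ∈ N := hN.conj_mem n hn _
      refine Subgroup.mem_inf.2 ⟨Subgroup.mem_centralizer_singleton_iff.2 ?_, N.mul_mem hn hzn⟩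
      have hzi : (z : G)⁻¹ = z := inv_eq_of_mul_eq_one_right hz2'
      have e : (z : G) * (n * ((z : G) * n * (z : G)⁻¹)) * (z : G)⁻¹ = n * ((z : G) * n * (z : G)⁻¹) := by
        calc (z : G) * (n * ((z : G) * n * (z : G)⁻¹)) * (z : G)⁻¹
            = ((z : G) * n * (z : G)⁻¹) * (((z : G) * z) * n * ((z : G) * z)⁻¹) := by group
          _ = ((z : G) * n * (z : G)⁻¹) * n := by rw [hz2']; group
          _ = _ := hab _ hzn _ hn
      exact (mul_inv_eq_iff_eq_mul.1 e).symm
    by_contra hne
    have hne' : n * ((z : G) * n * (z : G)⁻¹) ≠ 1 := fun e => hne (eq_inv_of_mul_eq_one_right e)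
    have hle := hmin.2 F hF (fun e => hne' (Subgroup.mem_bot.1 (e ▸ hm)))
    exact hz1 (hfaith z fun m hm' =>
      (Subgroup.mem_centralizer_singleton_iff.1 (hle hm').1).symm)
  -- a nontrivial linear character of `N`
  obtain ⟨lam, hlam⟩ : ∃ f : N →* ℂˣ, f ≠ 1 := by
    by_contra h
    push Not at h
    haveI : Subsingleton (N →* ℂˣ) := ⟨fun a b => (h a).trans (h b).symm⟩
    have h1 := (card_linear (G := N)).symm.trans (Nat.card_congr linearEquivHom)
    rw [Nat.card_of_subsingleton (1 : N →* ℂˣ), Subgroup.index_eq_one] at h1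
    refine hmin.1 ((Subgroup.eq_bot_iff_forall N).2 fun n hn => ?_)
    have hmem : (⟨n, hn⟩ : N) ∈ commutator N := h1 ▸ Subgroup.mem_top _
    have hbot : commutator N = ⊥ := by
      rw [commutator_eq_bot_iff_center_eq_top, Subgroup.eq_top_iff']
      exact fun a => Subgroup.mem_center_iff.2 fun b => Subtype.ext (hab b b.2 a a.2)
    rw [hbot, Subgroup.mem_bot] at hmem
    exact congrArg Subtype.val hmem
  let cj : G → N → N := fun g n => MulAut.conjNormal g n
  let S : Subgroup P :=
    { carrier := {p | ∀ n, lam (cj p n) = lam n}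
      one_mem' := fun n => by simp [cj]
      mul_mem' := fun {a b} ha hb n => by
        show lam (MulAut.conjNormal ((a : G) * b) n) = _
        rw [map_mul]
        exact (ha _).trans (hb n)
      inv_mem' := fun {a} ha n => by
        show lam (MulAut.conjNormal (a : G)⁻¹ n) = _
        rw [← ha]
        show lam (MulAut.conjNormal (a : G) (MulAut.conjNormal (a : G)⁻¹ n)) = _
        rw [← MulAut.mul_apply, ← map_mul, mul_inv_cancel, map_one, MulAut.one_apply] }
  let T : Subgroup G :=
    { carrier := {g | ∃ n : N, ∃ s : S, g = (n : G) * ((s : P) : G)}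
      one_mem' := ⟨1, 1, by simp⟩
      mul_mem' := by
        rintro _ _ ⟨n, s, rfl⟩ ⟨n', s', rfl⟩
        exact ⟨n * cj ((s : P) : G) n', s * s', by simp [cj, mul_assoc]⟩
      inv_mem' := by
        rintro _ ⟨n, s, rfl⟩
        exact ⟨cj ((s : P) : G)⁻¹ n⁻¹, s⁻¹, by simp [cj, mul_assoc]⟩ }
  haveI := Fintype.ofFinite T
  have hTdec : ∀ t : T, ∃ n : N, ∃ s : S, (t : G) = (n : G) * ((s : P) : G) := fun t => t.2
  choose tn ts hts using hTdec
  have htuniq : ∀ (t : T) (n : N) (s : S), (t : G) = (n : G) * ((s : P) : G) → tn t = n ∧ ts t = s := by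
    intro t n s h
    obtain ⟨h1, h2⟩ := huniq _ _ _ _ ((hts t).symm.trans h)
    exact ⟨h1, Subtype.ext h2⟩
  have htmul : ∀ a b : T, tn (a * b) = tn a * cj ((ts a : P) : G) (tn b) ∧ ts (a * b) = ts a * ts b := by
    intro a b
    refine htuniq _ _ _ ?_
    rw [Subgroup.coe_mul, hts a, hts b]
    simp [cj, mul_assoc]
  let θ : (S →* ℂˣ) → (T →* ℂˣ) := fun μ => MonoidHom.mk' (fun t => lam (tn t) * μ (ts t)) fun a b => by
    rw [(htmul a b).1, (htmul a b).2, map_mul, map_mul, (ts a).2 (tn b)]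
    exact mul_mul_mul_comm _ _ _ _
  have hlam2 : ∀ n, lam n * lam n = 1 → lam n = 1 := by
    intro n hn
    have hq' : lam n ^ q = 1 := by
      rw [← map_pow, show n ^ q = 1 from Subtype.ext (hNel.2 n n.2), map_one]
    obtain ⟨k, hk⟩ := hqodd
    rw [hk, pow_succ, pow_mul, sq, hn, one_pow, one_mul] at hq'
    exact hq'
  have hzS : z ∉ S := by
    intro hz
    refine hlam (MonoidHom.ext fun n => hlam2 n ?_)
    have h := hz n
    rw [show cj z n = n⁻¹ from Subtype.ext (by simpa [cj] using hinvN n n.2), map_inv] at h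
    calc lam n * lam n = (lam n)⁻¹ * lam n := by rw [h]
      _ = 1 := inv_mul_cancel _
  have hNT : N ≤ T := fun n hn => ⟨⟨n, hn⟩, 1, by simp⟩
  have hφ : IsIrrCharacter N (fun n => (lam n : ℂ)) := isIrrCharacter_linear lam
  have hcjN : ∀ n m : N, cj n m = m := fun n m => Subtype.ext (by
    simp only [cj, MulAut.conjNormal_apply]
    rw [hab n n.2 m m.2, mul_inv_cancel_right])
  have hT : ∀ g : G, g ∈ T ↔ conjChar N (fun n => (lam n : ℂ)) g = fun n => (lam n : ℂ) := by
    intro g
    obtain ⟨n, p, rfl⟩ := hdec g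
    have hc : ∀ m, cj ((n : G) * p) m = cj p m := fun m => by
      show MulAut.conjNormal ((n : G) * p) m = _
      rw [map_mul]; exact hcjN n _
    rw [conjChar_eq_comp, funext_iff]
    simp only [Units.val_inj]
    constructor
    · rintro ⟨n', s, h⟩
      obtain ⟨-, h2⟩ := huniq _ _ _ _ h
      intro m
      rw [show MulAut.conjNormal ((n : G) * p) m = cj p m from hc m, h2]
      exact s.2 m
    · intro h
      exact ⟨n, ⟨p, fun m => by rw [← hc m]; exact h m⟩, rfl⟩
  have hres : ∀ μ (n : N), θ μ ⟨(n : G), hNT n.2⟩ = lam n := by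
    intro μ n
    obtain ⟨h1, h2⟩ := htuniq ⟨(n : G), hNT n.2⟩ n 1 (by simp)
    show lam (tn _) * μ (ts _) = _
    rw [h1, h2, map_one, mul_one]
  have hover : ∀ μ, Cfsg.classInner (fun n : N => (θ μ ⟨(n : G), hNT n.2⟩ : ℂ)) (fun n => (lam n : ℂ)) ≠ 0 := by
    intro μ
    simp only [hres]
    rw [classInner_self_of_isIrr hφ]
    exact one_ne_zero
  have hirr : ∀ μ, IsIrrCharacter G (Cfsg.indFun T (fun t => (θ μ t : ℂ))) := fun μ =>
    (isIrrCharacter_indFun_inertia hφ hT hNT (isIrrCharacter_linear _) (hover μ)).1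
  let RS := {μ : S →* ℂˣ // ∀ s, μ s * μ s = 1}
  -- indicator
  have hν : ∀ μ : RS, fsIndicator (Cfsg.indFun T (fun t => (θ μ.1 t : ℂ))) = 1 := by
    intro μ
    haveI := Fintype.ofFinite P
    haveI := Fintype.ofFinite S
    set f : G → ℂ := Cfsg.extendByZero T (fun t => (θ μ.1 t : ℂ)) with hf
    have hinner : ∑ g : G, f (g * g) = (Nat.card T : ℂ) := by
      rw [← Fintype.sum_bijective (fun x : N × P => (x.1 : G) * x.2)
        ⟨fun a b h => Prod.ext (huniq _ _ _ _ h).1 (huniq _ _ _ _ h).2,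
          fun g => by obtain ⟨n, p, rfl⟩ := hdec g; exact ⟨(n, p), rfl⟩⟩ _ _ (fun x => rfl),
        Fintype.sum_prod_type, Finset.sum_comm]
      have key : ∀ p : P, ∑ n : N, f ((n : G) * p * ((n : G) * p)) =
          if z * p ∈ S then (Nat.card N : ℂ) else 0 := by
        intro p
        have hsq : ∀ n : N, (n : G) * p * ((n : G) * p) = ((n * cj p n : N) : G) * ((p * p : P) : G) := by
          intro n; simp [cj, mul_assoc]
        by_cases hpp : p * p ∈ S
        · have hval : ∀ n : N, f ((n : G) * p * ((n : G) * p)) =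
              ((lam * (lam.comp (MulAut.conjNormal (H := N) (p : G)).toMonoidHom)) n : ℂ) *
                (μ.1 ⟨p * p, hpp⟩ : ℂ) := by
            intro n
            have hmem : (n : G) * p * ((n : G) * p) ∈ T := ⟨_, ⟨_, hpp⟩, hsq n⟩
            rw [hf, extendByZero_of_mem T _ hmem]
            show ((lam (tn _) * μ.1 (ts _) : ℂˣ) : ℂ) = _
            rw [(htuniq ⟨_, hmem⟩ _ ⟨_, hpp⟩ (hsq n)).1, (htuniq ⟨_, hmem⟩ _ ⟨_, hpp⟩ (hsq n)).2,
              map_mul]
            rfl
          rw [Finset.sum_congr rfl fun n _ => hval n, ← Finset.sum_mul]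
          have hiff : lam * (lam.comp (MulAut.conjNormal (H := N) (p : G)).toMonoidHom) = 1 ↔ z * p ∈ S := by
            constructor
            · intro h n
              have h1 := DFunLike.congr_fun h n
              show lam (MulAut.conjNormal ((z : G) * p) n) = _
              rw [map_mul, MulAut.mul_apply,
                show MulAut.conjNormal (z : G) (cj p n) = (cj p n)⁻¹ from
                  Subtype.ext (by simpa [cj] using hinvN _ (cj p n).2), map_inv]
              exact inv_eq_of_mul_eq_one_left h1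
            · intro h
              refine MonoidHom.ext fun n => ?_
              have h1 : lam (MulAut.conjNormal ((z : G) * p) n) = lam n := h n
              rw [map_mul, MulAut.mul_apply,
                show MulAut.conjNormal (z : G) (cj p n) = (cj p n)⁻¹ from
                  Subtype.ext (by simpa [cj] using hinvN _ (cj p n).2), map_inv] at h1
              show lam n * lam (cj p n) = 1
              rw [← h1, inv_mul_cancel]
          set L := lam * (lam.comp (MulAut.conjNormal (H := N) (p : G)).toMonoidHom) with hL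
          rw [show ∑ n : N, (L n : ℂ) = ∑ n : N, ((Units.coeHom ℂ).comp L) n from rfl, sum_hom_units]
          by_cases hzp : z * p ∈ S
          · rw [if_pos (by rw [hiff.2 hzp]; ext; simp), if_pos hzp]
            have hμ : μ.1 ⟨p * p, hpp⟩ = 1 := by
              have e : (⟨p * p, hpp⟩ : S) = ⟨z * p, hzp⟩ * ⟨z * p, hzp⟩ := Subtype.ext (by
                show p * p = z * p * (z * p)
                rw [show z * p * (z * p) = z * z * (p * p) by
                  rw [mul_assoc, ← mul_assoc p z p, (Subgroup.mem_center_iff.1 hzc p)]; group, hz2, one_mul])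
              rw [e, map_mul, μ.2]
            rw [hμ, Units.val_one, mul_one, Nat.card_eq_fintype_card]
          · rw [if_neg (fun h => hzp (hiff.1 (MonoidHom.ext fun n => Units.ext (DFunLike.congr_fun h n)))),
              if_neg hzp, Nat.cast_zero, zero_mul]
        · rw [if_neg]
          · refine Finset.sum_eq_zero fun n _ => ?_
            rw [hf, extendByZero_of_not_mem T _]
            rintro ⟨n', s, h⟩
            rw [hsq n] at h
            exact hpp ((huniq _ _ _ _ h).2 ▸ s.2)
          · intro hzp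
            refine hpp ?_
            have e : p * p = (z * p) * (z * p) := by
              rw [show z * p * (z * p) = z * z * (p * p) by
                rw [mul_assoc, ← mul_assoc p z p, (Subgroup.mem_center_iff.1 hzc p)]; group, hz2, one_mul]
            rw [e]; exact mul_mem hzp hzp
      rw [Finset.sum_congr rfl fun p _ => key p, ← Finset.sum_filter, Finset.sum_const, nsmul_eq_mul,
        ← Fintype.card_subtype, ← Nat.cast_mul, Nat.cast_inj, ← Nat.card_eq_fintype_card]
      have e1 : Nat.card {p : P // z * p ∈ S} = Nat.card S :=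
        Nat.card_congr (Equiv.subtypeEquiv (Equiv.mulLeft z) fun p => Iff.rfl)
      rw [e1, mul_comm, ← Nat.card_prod]
      exact (Nat.card_eq_of_bijective (fun t : T => (tn t, ts t))
        ⟨fun a b h => Subtype.ext (by simp only [Prod.mk.injEq] at h; rw [hts a, hts b, h.1, h.2]),
          fun x => by
            obtain ⟨h1, h2⟩ := htuniq ⟨_, x.1, x.2, rfl⟩ x.1 x.2 rfl
            exact ⟨_, Prod.ext h1 h2⟩⟩).symm
    rw [fsIndicator]
    simp only [Cfsg.indFun, ← hf]
    rw [← Finset.mul_sum, Finset.sum_comm]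
    have hx : ∀ x : G, ∑ s : G, f (x⁻¹ * (s * s) * x) = (Nat.card T : ℂ) := fun x => by
      rw [← hinner]
      exact Fintype.sum_equiv (MulAut.conj x⁻¹).toEquiv _ _ fun s => by simp [mul_assoc]
    rw [Finset.sum_congr rfl fun x _ => hx x, Finset.sum_const, Finset.card_univ, nsmul_eq_mul,
      ← Nat.card_eq_fintype_card]
    have : (Nat.card T : ℂ) ≠ 0 := Nat.cast_ne_zero.2 Nat.card_pos.ne'
    have : (Nat.card G : ℂ) ≠ 0 := Nat.cast_ne_zero.2 Nat.card_pos.ne'
    field_simp
  -- the index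
  set t := T.index with ht
  have htS : S.index = t := by
    let f : P ⧸ S → G ⧸ T := Quotient.map' (fun p => (p : G)) fun a b h => by
      rw [QuotientGroup.leftRel_apply] at h ⊢
      exact ⟨1, ⟨_, h⟩, by simp⟩
    refine Nat.card_eq_of_bijective f ⟨?_, ?_⟩
    · intro a b
      induction a using Quotient.inductionOn' with | h a => ?_
      induction b using Quotient.inductionOn' with | h b => ?_
      intro h
      obtain ⟨n, s, h⟩ := QuotientGroup.leftRel_apply.1 (Quotient.exact' h)
      refine Quotient.sound' (QuotientGroup.leftRel_apply.2 ?_)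
      have h2 := (huniq 1 n (a⁻¹ * b) s (by simpa using h)).2
      rw [h2]; exact s.2
    · intro x
      induction x using Quotient.inductionOn' with | h x => ?_
      obtain ⟨n, p, rfl⟩ := hdec x
      refine ⟨Quotient.mk'' p, Quotient.sound' (QuotientGroup.leftRel_apply.2 ?_)⟩
      exact ⟨cj (p : G)⁻¹ n, 1, by simp [cj, mul_assoc]⟩
  have ht2 : 2 ∣ t := by
    obtain ⟨k, hk⟩ := hP.index S
    rw [← htS, hk]
    rcases k with _ | k
    · exact absurd (Subgroup.index_eq_one.1 (by rw [hk, pow_zero]) ▸ Subgroup.mem_top z) hzS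
    · exact dvd_pow_self 2 (Nat.succ_ne_zero k)
  haveI : Finite (P →* ℂˣ) := Finite.of_equiv _ linearEquivHom
  haveI : Finite (S →* ℂˣ) := Finite.of_equiv _ linearEquivHom
  haveI := Fintype.ofFinite RS
  haveI := Fintype.ofFinite (IrrCharacter G)
  have hfs : ∀ χ : G → ℂ, (Nat.card G : ℂ)⁻¹ * ∑ᶠ g : G, χ (g * g) = fsIndicator χ := fun χ => by
    rw [fsIndicator, finsum_eq_sum_of_fintype]
  rw [finsum_eq_sum_of_fintype]
  set Pr : IrrCharacter G → Prop := fun χ => (Cfsg.charDegree (χ : G → ℂ) = 1 ∨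
    2 ∣ Cfsg.charDegree (χ : G → ℂ)) ∧ (Nat.card G : ℂ)⁻¹ * ∑ᶠ g : G, (χ : G → ℂ) (g * g) = 1 with hPr
  show 4 * Nat.card {χ // Pr χ} ≤ 3 * ∑ χ : {χ // Pr χ}, Cfsg.charDegree (χ.1 : G → ℂ)
  rw [← Finset.sum_subtype (Finset.univ.filter Pr) (fun x => by simp) (fun χ => Cfsg.charDegree (χ : G → ℂ)),
    Nat.card_eq_fintype_card, Fintype.card_subtype]
  set Sel := Finset.univ.filter Pr with hSel
  let Φ : RS → IrrCharacter G := fun μ => ⟨_, hirr μ.1⟩
  have hΦdeg : ∀ μ, Cfsg.charDegree (Φ μ : G → ℂ) = t := by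
    intro μ
    have h := charDegree_cast (IsIrrCharacter.isCharacter (Φ μ).2)
    rw [show (Φ μ : G → ℂ) 1 = (T.index : ℂ) * _ from indFun_one T _, map_one, Units.val_one,
      mul_one, Nat.cast_inj] at h
    exact h
  have hΦinj : Function.Injective Φ := by
    intro a b h
    have h1 := indFun_inertia_injective hφ hT hNT (isIrrCharacter_linear _) (isIrrCharacter_linear _)
      (hover a.1) (hover b.1) (congrArg Subtype.val h)
    refine Subtype.ext (MonoidHom.ext fun s => ?_)
    have h2 := congrFun h1 ⟨((s : P) : G), 1, s, by simp⟩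
    obtain ⟨e1, e2⟩ := htuniq ⟨((s : P) : G), 1, s, by simp⟩ 1 s (by simp)
    have h3 : lam (tn _) * a.1 (ts _) = lam (tn _) * b.1 (ts _) := Units.ext h2
    rwa [e1, e2, mul_right_inj] at h3
  set Big := Finset.univ.image Φ with hBig
  set Lin : Finset (IrrCharacter G) := Sel.filter fun χ : IrrCharacter G => Cfsg.charDegree (χ : G → ℂ) = 1 with hLin
  have hBigSel : Big ⊆ Sel := by
    intro χ hχ
    obtain ⟨μ, -, rfl⟩ := Finset.mem_image.1 hχ
    exact Finset.mem_filter.2 ⟨Finset.mem_univ _, Or.inr (hΦdeg μ ▸ ht2), (hfs _).trans (hν μ)⟩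
  -- the linear ones
  have hLinle : Lin.card ≤ t * Big.card := by
    rw [hBig, Finset.card_image_of_injective _ hΦinj, Finset.card_univ, ← Nat.card_eq_fintype_card,
      ← Fintype.card_coe, ← Nat.card_eq_fintype_card]
    have hrep : ∀ χ : Lin, ∃ f : G →* ℂˣ, ((χ.1 : IrrCharacter G) : G → ℂ) = (fun g => (f g : ℂ)) ∧
        ∀ g, f g * f g = 1 := by
      rintro ⟨χ, hχ⟩
      obtain ⟨hχS, hχ1⟩ := Finset.mem_filter.1 hχ
      obtain ⟨f, hf⟩ := exists_hom_of_degree_one χ.2
        (by rw [← charDegree_cast (IsIrrCharacter.isCharacter χ.2), hχ1, Nat.cast_one])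
      refine ⟨f, hf, fun g => Units.ext ?_⟩
      have hr := (fsIndicator_irr_ne_zero_iff χ.2).1
        (((hfs _).symm.trans (Finset.mem_filter.1 hχS).2.2).symm ▸ one_ne_zero) g
      have h1 : (starRingEnd ℂ) (f g : ℂ) = f g := by
        rw [← congrFun hf g]; exact Complex.conj_eq_iff_im.2 hr
      have h2 : (f g : ℂ) * (starRingEnd ℂ) (f g : ℂ) = 1 := by
        rw [Complex.mul_conj', Complex.norm_eq_one_of_pow_eq_one (n := orderOf g) ?_ (orderOf_pos g).ne']
        · simp
        · rw [← Units.val_pow_eq_pow_val, ← map_pow, pow_orderOf_eq_one, map_one, Units.val_one]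
      rw [h1] at h2
      simpa using h2
    choose f hf hf2 using hrep
    have hNker : ∀ χ, ∀ n : N, f χ n = 1 := by
      intro χ n
      have hq' : f χ (n : G) ^ q = 1 := by rw [← map_pow, hNel.2 n n.2, map_one]
      obtain ⟨k, hk⟩ := hqodd
      rw [hk, pow_succ, pow_mul, sq, hf2, one_pow, one_mul] at hq'
      exact hq'
    let RP := {π : P →* ℂˣ // ∀ p, π p * π p = 1}
    have h1 : Nat.card Lin ≤ Nat.card RP := by
      refine Nat.card_le_card_of_injective (fun χ => ⟨(f χ).comp P.subtype, fun p => hf2 χ p⟩) ?_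
      intro a b h
      refine Subtype.ext (Subtype.ext ?_)
      rw [hf a, hf b]
      funext g
      obtain ⟨n, p, rfl⟩ := hdec g
      rw [map_mul, map_mul, hNker, hNker,
        show f a (p : G) = f b (p : G) from DFunLike.congr_fun (congrArg Subtype.val h) p]
    haveI := Fintype.ofFinite RP
    let r : RP → RS := fun π => ⟨π.1.comp S.subtype, fun s => π.2 s⟩
    refine h1.trans ?_
    rw [Nat.card_eq_fintype_card, ← Finset.card_univ (α := RP)]
    refine (Finset.card_le_mul_card_image (f := r) Finset.univ t ?_).trans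
      (Nat.mul_le_mul_left t (by rw [Nat.card_eq_fintype_card]; exact Finset.card_le_univ _))
    intro a ha
    obtain ⟨π₀, -, rfl⟩ := Finset.mem_image.1 ha
    rw [← Fintype.card_subtype]
    haveI := Fintype.ofFinite (P ⧸ S)
    set B := {π : RP // r π = r π₀}
    let v : B → (P ⧸ S) → ℂ := fun π x => ((π.1.1 * π₀.1⁻¹) x.out : ℂ)
    have hv : ∀ (π : B) (g : P), v π (g : P ⧸ S) = ((π.1.1 * π₀.1⁻¹) g : ℂ) := fun π g => by
      obtain ⟨i, hi⟩ := QuotientGroup.mk_out_eq_mul S g
      have hπ : π.1.1 (i : P) = π₀.1 (i : P) :=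
        DFunLike.congr_fun (congrArg Subtype.val π.2) i
      have hone : (π.1.1 * π₀.1⁻¹) (i : P) = 1 := by
        rw [MonoidHom.mul_apply, MonoidHom.inv_apply, hπ, mul_inv_cancel]
      show ((π.1.1 * π₀.1⁻¹) (g : P ⧸ S).out : ℂ) = _
      rw [hi, map_mul, hone, mul_one]
    have hli : LinearIndependent ℂ v := by
      refine LinearIndependent.of_comp (LinearMap.funLeft ℂ ℂ (fun g : P => (g : P ⧸ S))) ?_
      have h := (linearIndependent_monoidHom P ℂ).comp
        (fun π : B => (Units.coeHom ℂ).comp (π.1.1 * π₀.1⁻¹)) fun a b hab =>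
          Subtype.ext (Subtype.ext (mul_right_cancel (MonoidHom.ext fun g =>
            Units.ext (DFunLike.congr_fun hab g))))
      have e : (LinearMap.funLeft ℂ ℂ (fun g : P => (g : P ⧸ S))) ∘ v =
          (fun f : P →* ℂ => (f : P → ℂ)) ∘ fun π : B => (Units.coeHom ℂ).comp (π.1.1 * π₀.1⁻¹) := by
        funext π g
        exact hv π g
      rw [e]; exact h
    have := hli.fintype_card_le_finrank
    rwa [Module.finrank_fintype_fun_eq_card, ← Nat.card_eq_fintype_card (α := P ⧸ S),
      ← Subgroup.index_eq_card, htS] at this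
  have hpt : ∀ χ ∈ Sel, 4 + (if χ ∈ Big then 3 * t - 4 else 0) ≤
      3 * Cfsg.charDegree (χ : G → ℂ) + (if Cfsg.charDegree (χ : G → ℂ) = 1 then 1 else 0) := by
    intro χ hχ
    have hpos := charDegree_pos χ.2
    by_cases hb : χ ∈ Big
    · obtain ⟨μ, -, rfl⟩ := Finset.mem_image.1 hb
      have htp : 0 < t := hΦdeg μ ▸ hpos
      have ht2' := Nat.le_of_dvd htp ht2
      rw [if_pos hb, hΦdeg]
      omega
    · rw [if_neg hb]
      split_ifs <;> omega
  have hs := Finset.sum_le_sum hpt
  rw [Finset.sum_add_distrib, Finset.sum_add_distrib, Finset.sum_const, ← Finset.sum_filter,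
    ← Finset.sum_filter, Finset.sum_const, Finset.sum_const, ← Finset.mul_sum, smul_eq_mul, smul_eq_mul,
    smul_eq_mul, mul_one, Finset.filter_mem_eq_inter, Finset.inter_eq_right.2 hBigSel, ← hLin] at hs
  have ht2' : 2 ≤ t := Nat.le_of_dvd (Nat.pos_of_ne_zero Subgroup.index_ne_zero_of_finite) ht2
  have : t * Big.card ≤ Big.card * (3 * t - 4) := by
    rw [mul_comm t]; exact Nat.mul_le_mul_left _ (by omega)
  omega

end Cfsg.Agent.S4871
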