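import Cfsg.Statements.S4872
import Cfsg.Agent.Lib.Correspondences.TwoQuotient
import Cfsg.Agent.Lib.Correspondences.RealIrr
import Cfsg.Agent.Lib.Correspondences.Codegree
import Cfsg.Agent.Lib.CharTheory.FullDefect
import Cfsg.Agent.Lib.Frobenius.BrauerPerm
open CfsgLib.CharTheory CfsgLib.Frobenius CfsgLib.Clifford CfsgLib.Correspondences CfsgLib.RealChar
open scoped ComplexConjugate

set_option linter.style.haveILetI false

set_option autoImplicit false
open Cfsg

namespace Cfsg.Agent.S4872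

/-- Let N be a normal subgroup of the finite group G with G/N a 2-group, and let φ be an irreducible complex character of N of 2-defect zero (the 2-part of #N divides φ(1)) whose complex conjugate is G-conjugate to φ. Then some irreducible character of G with Frobenius–Schur indicator +1 contains φ with multiplicity exactly one on restriction to N. -/
theorem result {G : Type*} [Group G] [Finite G] (N : Subgroup G) [N.Normal] (h2 : IsPGroup 2 (G ⧸ N)) (φ : Cfsg.IrrCharacter ↥N) (hdef : 2 ^ (Nat.card ↥N).factorization 2 ∣ Cfsg.charDegree (φ : ↥N → ℂ)) (hconj : ∃ g : G, ∀ n n' : ↥N, (n' : G) = g * (n : G) * g⁻¹ → (φ : ↥N → ℂ) n' = (starRingEnd ℂ) ((φ : ↥N → ℂ) n)) : ∃ χ : Cfsg.IrrCharacter G, (Nat.card G : ℂ)⁻¹ * ∑ᶠ g : G, (χ : G → ℂ) (g * g) = 1 ∧ (Nat.card ↥N : ℂ)⁻¹ * ∑ᶠ n : ↥N, (χ : G → ℂ) n * (starRingEnd ℂ) ((φ : ↥N → ℂ) n) = 1 := by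
  classical
  haveI := Fact.mk Nat.prime_two
  haveI := Fintype.ofFinite G
  haveI := Fintype.ofFinite N
  haveI := Fintype.ofFinite (IrrCharacter G)
  obtain ⟨a, ha⟩ := IsPGroup.iff_card.1 h2
  have hidx : N.index = 2 ^ a := by rw [Subgroup.index_eq_card, ha]
  set n := (Nat.card N).factorization 2 with hn
  obtain ⟨m, hm⟩ := hdef
  have hφ1 : (φ : N → ℂ) 1 = ((2 ^ n * m : ℕ) : ℂ) := by
    rw [← hm, charDegree_cast (IsIrrCharacter.isCharacter φ.2)]
  have hmodd : Odd m := by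
    rw [← Nat.not_even_iff_odd, even_iff_two_dvd]
    intro h
    have hd := charDegree_dvd_card φ.2
    rw [hm] at hd
    have : 2 ^ (n + 1) ∣ Nat.card N := (pow_succ 2 n ▸ mul_dvd_mul_left (2 ^ n) h).trans hd
    exact Nat.pow_succ_factorization_not_dvd Nat.card_pos.ne' Nat.prime_two this
  obtain ⟨P⟩ : Nonempty (Sylow 2 G) := inferInstance
  haveI := Fintype.ofFinite (P : Subgroup G)
  have hcardP : Nat.card (P : Subgroup G) = 2 ^ n * 2 ^ a := by
    rw [Sylow.card_eq_multiplicity, ← Subgroup.card_mul_index N,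
      Nat.factorization_mul Nat.card_pos.ne' Subgroup.index_ne_zero_of_finite, hidx,
      Nat.prime_two.factorization_pow, Finsupp.coe_add, Pi.add_apply, Finsupp.single_eq_same, ← hn,
      pow_add]
  set Ψ := Cfsg.indFun N (φ : N → ℂ) with hΨ
  have hzero : ∀ u : (P : Subgroup G), u ≠ 1 → Ψ (u : G) = 0 := by
    intro u hu
    rw [hΨ]
    simp only [Cfsg.indFun]
    rw [Finset.sum_eq_zero fun x _ => ?_, mul_zero]
    by_cases hx : x⁻¹ * (u : G) * x ∈ N
    · rw [extendByZero_of_mem N _ hx]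
      refine IsIrrCharacter.eq_zero_of_fullDegree φ.2 Nat.prime_two
        (Nat.pow_succ_factorization_not_dvd Nat.card_pos.ne' Nat.prime_two) hφ1
        (dvd_mul_right _ _) ?_
      rw [Subgroup.orderOf_mk,
        show x⁻¹ * (u : G) * x = MulAut.conj x⁻¹ (u : G) by simp,
        MulEquiv.orderOf_eq, Subgroup.orderOf_coe]
      obtain ⟨k, hk⟩ := IsPGroup.iff_orderOf.1 P.2 u
      rw [hk]
      rcases k with _ | k
      · exact absurd (orderOf_eq_one_iff.1 (by rw [hk, pow_zero])) hu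
      · exact dvd_pow_self 2 (Nat.succ_ne_zero k)
    · rw [extendByZero_of_not_mem N _ hx]
  have hΨ1 : Cfsg.classInner (fun u : (P : Subgroup G) => Ψ (u : G)) (fun _ => 1) = (m : ℂ) := by
    rw [Cfsg.classInner, Finset.sum_eq_single (1 : (P : Subgroup G)) (fun u _ hu => by
      rw [hzero u hu, zero_mul]) (by simp), OneMemClass.coe_one, hΨ, indFun_one, hφ1, hidx, hcardP]
    push_cast
    simp only [map_one, mul_one]
    field_simp
  -- `Ψ` is real
  obtain ⟨g₀, hg₀⟩ := hconj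
  have hΨreal : ∀ g, conj (Ψ g) = Ψ g := by
    have hφg : conjChar N (φ : N → ℂ) g₀ = fun x => conj ((φ : N → ℂ) x) :=
      funext fun x => hg₀ x _ rfl
    intro g
    simp only [hΨ, Cfsg.indFun, map_mul, map_inv₀, Complex.conj_natCast, map_sum]
    congr 1
    refine Fintype.sum_equiv (Equiv.mulRight g₀⁻¹) _ _ fun x => ?_
    simp only [Equiv.coe_mulRight]
    have hiff : x⁻¹ * g * x ∈ N ↔ (x * g₀⁻¹)⁻¹ * g * (x * g₀⁻¹) ∈ N := by
      rw [show (x * g₀⁻¹)⁻¹ * g * (x * g₀⁻¹) = g₀ * (x⁻¹ * g * x) * g₀⁻¹ by group]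
      exact ⟨fun h => Subgroup.Normal.conj_mem inferInstance _ h _, fun h => by
        simpa [mul_assoc] using Subgroup.Normal.conj_mem (H := N) inferInstance _ h g₀⁻¹⟩
    by_cases hx : x⁻¹ * g * x ∈ N
    · rw [extendByZero_of_mem N _ hx, extendByZero_of_mem N _ (hiff.1 hx),
        ← congrFun hφg ⟨_, hx⟩, conjChar_apply]
      exact congrArg φ.1 (Subtype.ext (by group))
    · rw [extendByZero_of_not_mem N _ hx, extendByZero_of_not_mem N _ (fun h => hx (hiff.2 h)), map_zero]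
  obtain ⟨c, hc⟩ := IsCharacter.exists_sum (isCharacter_indFun N _ (IsIrrCharacter.isCharacter φ.2))
  have hd : ∀ χ : IrrCharacter G, ∃ d : ℕ,
      Cfsg.classInner (fun u : (P : Subgroup G) => (χ : G → ℂ) u) (fun _ => 1) = d := fun χ =>
    IsCharacter.exists_classInner_eq_nat
      (CfsgLib.Coherence.isCharacter_comp (IsIrrCharacter.isCharacter χ.2) (P : Subgroup G).subtype)
      (trivIrr _)
  choose d hd using hd
  have hsum : ∑ χ, c χ * d χ = m := by
    have : ((∑ χ, c χ * d χ : ℕ) : ℂ) = (m : ℂ) := by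
      rw [← hΨ1, hΨ]
      have e : (fun u : (P : Subgroup G) => Cfsg.indFun N (φ : N → ℂ) (u : G)) =
          ∑ χ : IrrCharacter G, (c χ : ℂ) • fun u : (P : Subgroup G) => (χ : G → ℂ) u := by
        funext u; simp [hc, Finset.sum_apply]
      rw [e, classInner_sum_left]
      simp [classInner_smul_left, hd]
    exact_mod_cast this
  let cj : IrrCharacter G → IrrCharacter G := fun χ => ⟨_, CfsgLib.Frobenius.isIrrCharacter_conj χ.2⟩
  have hcj : ∀ χ, cj (cj χ) = χ := fun χ => Subtype.ext (funext fun g => Complex.conj_conj _)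
  have hc' : ∀ χ : IrrCharacter G, Cfsg.classInner Ψ (χ : G → ℂ) = (c χ : ℂ) := fun χ => by
    rw [hΨ, hc]; exact classInner_sum_irr _ χ
  have hcsymm : ∀ χ, c (cj χ) = c χ := by
    intro χ
    have : (c (cj χ) : ℂ) = (c χ : ℂ) := by
      rw [← hc', ← Complex.conj_natCast (c χ), ← hc']
      simp only [Cfsg.classInner, map_mul, map_inv₀, Complex.conj_natCast, map_sum, cj, hΨreal]
    exact_mod_cast this
  have hdsymm : ∀ χ, d (cj χ) = d χ := by
    intro χ
    have : (d (cj χ) : ℂ) = (d χ : ℂ) := by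
      rw [← hd, ← Complex.conj_natCast (d χ), ← hd]
      simp only [Cfsg.classInner, map_mul, map_inv₀, Complex.conj_natCast, map_sum, cj, map_one]
    exact_mod_cast this
  obtain ⟨χ, hfix, hodd⟩ : ∃ χ : IrrCharacter G, cj χ = χ ∧ Odd (c χ * d χ) := by
    by_contra h
    push Not at h
    have h0 : ∑ χ : IrrCharacter G, ((c χ * d χ : ℕ) : ZMod 2) = 0 :=
      Finset.sum_involution (fun χ _ => cj χ)
        (fun χ _ => by rw [hcsymm, hdsymm]; exact CharTwo.add_self_eq_zero _)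
        (fun χ _ hne hfix => hne (ZMod.natCast_eq_zero_iff_even.2 (Nat.not_odd_iff_even.1 (h χ hfix))))
        (fun χ _ => Finset.mem_univ _) (fun χ _ => hcj χ)
    rw [← Nat.cast_sum, hsum, ZMod.natCast_eq_zero_iff_even] at h0
    exact (Nat.not_even_iff_odd.2 hmodd) h0
  obtain ⟨hcodd, hdodd⟩ := Nat.odd_mul.1 hodd
  have hreal : ∀ g, ((χ : G → ℂ) g).im = 0 := fun g =>
    Complex.conj_eq_iff_im.1 (congrFun (congrArg Subtype.val hfix) g)
  have hres : Cfsg.classInner (fun x : N => (χ : G → ℂ) x) (φ : N → ℂ) = (c χ : ℂ) := by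
    rw [classInner_conj_symm, ← classInner_indFun N _ _ (IsIrrCharacter.isClassFunction χ.2), ← hΨ,
      hc', Complex.conj_natCast]
  have hne : Cfsg.classInner (fun x : N => (χ : G → ℂ) x) (φ : N → ℂ) ≠ 0 := by
    rw [hres]; exact Nat.cast_ne_zero.2 (Nat.pos_iff_ne_zero.1 hcodd.pos)
  have hone : c χ = 1 := by
    obtain ⟨j, hj⟩ := exists_two_pow_degree N ⟨a, hidx⟩ χ.2 φ hne
    have h1 := apply_one_eq N χ.2 φ.2 hne
    rw [hres, hj] at h1
    have h3 : (2 : ℂ) ^ j = ((c χ * (conjOrbit N (φ : N → ℂ)).card : ℕ) : ℂ) := by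
      push_cast
      exact mul_right_cancel₀ (apply_one_ne_zero_of_isIrr φ.2) h1
    have h4 : (2 : ℕ) ^ j = c χ * (conjOrbit N (φ : N → ℂ)).card := by exact_mod_cast h3
    obtain ⟨i, -, hi⟩ := (Nat.dvd_prime_pow Nat.prime_two).1 (Dvd.intro _ h4.symm)
    rcases i with _ | i
    · simpa using hi
    · rw [hi] at hcodd
      exact absurd hcodd (Nat.not_odd_iff_even.2 (even_iff_two_dvd.2 (dvd_pow_self 2 (Nat.succ_ne_zero i))))
  refine ⟨χ, ?_, ?_⟩
  · rw [finsum_eq_sum_of_fintype]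
    exact fsIndicator_eq_one_of_odd_fixed (P : Subgroup G) χ.2 hreal (hd χ) hdodd
  · rw [finsum_eq_sum_of_fintype]
    rw [hone, Nat.cast_one] at hres
    exact hres

end Cfsg.Agent.S4872
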