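import Cfsg.Statements.S4873
import Cfsg.Agent.Lib.Correspondences.OddIndexReal
import Cfsg.Agent.Lib.Correspondences.RealIrr
import Cfsg.Agent.Lib.Clifford.Basic
open CfsgLib.CharTheory CfsgLib.Correspondences CfsgLib.RealChar
open scoped ComplexConjugate

set_option linter.style.haveILetI false

set_option autoImplicit false
open Cfsg

namespace Cfsg.Agent.S4873

/-- Let N be a normal subgroup of odd index in the finite group G. Then every irreducible complex character of N with Frobenius–Schur indicator +1 lies under exactly one irreducible character of G with Frobenius–Schur indicator +1. -/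
theorem result {G : Type*} [Group G] [Finite G] (N : Subgroup G) [N.Normal] (hodd : Odd N.index) (φ : Cfsg.IrrCharacter ↥N) (hφ : (Nat.card ↥N : ℂ)⁻¹ * ∑ᶠ g : ↥N, (φ : ↥N → ℂ) (g * g) = 1) : ∃! χ : Cfsg.IrrCharacter G, (Nat.card G : ℂ)⁻¹ * ∑ᶠ g : G, (χ : G → ℂ) (g * g) = 1 ∧ (∑ᶠ n : ↥N, (χ : G → ℂ) n * (starRingEnd ℂ) ((φ : ↥N → ℂ) n)) ≠ 0 := by
  classical
  haveI := Fintype.ofFinite G
  haveI := Fintype.ofFinite N
  haveI := Fintype.ofFinite (IrrCharacter G)
  let ip : IrrCharacter G → IrrCharacter N → ℂ := fun χ θ =>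
    Cfsg.classInner (fun n : N => (χ : G → ℂ) n) (θ : N → ℂ)
  -- the indicators over `θ` add up to that of `θ`
  have hsum : ∀ θ : IrrCharacter N,
      ∑ χ : IrrCharacter G, fsIndicator (χ : G → ℂ) * ip χ θ = fsIndicator (θ : N → ℂ) := by
    intro θ
    simp only [ip, ← classInner_smul_left, ← classInner_sum_left]
    rw [← conj_fsIndicator_irr θ.2, fsIndicator, Cfsg.classInner, map_mul, map_inv₀,
      Complex.conj_natCast, map_sum]
    congr 1
    symm
    rw [← Finset.sum_fiberwise (Finset.univ : Finset N) (fun u : N => u * u)]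
    refine Finset.sum_congr rfl fun n _ => ?_
    rw [Finset.sum_congr rfl (g := fun _ => conj ((θ : N → ℂ) n)) fun u hu => by
      rw [(Finset.mem_filter.1 hu).2], Finset.sum_const, nsmul_eq_mul]
    congr 1
    rw [Finset.sum_apply]
    refine Eq.trans ?_ (card_sqrt_eq_sum (n : G))
    rw [Nat.cast_inj]
    refine Finset.card_bij (fun u _ => (u : G)) (fun u hu => ?_) (fun u _ v _ huv => Subtype.ext huv)
      fun v hv => ?_
    · exact Finset.mem_filter.2 ⟨Finset.mem_univ _, congrArg Subtype.val (Finset.mem_filter.1 hu).2⟩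
    · have hv2 := (Finset.mem_filter.1 hv).2
      exact ⟨⟨v, mem_of_mul_self_mem_of_odd N hodd (hv2 ▸ n.2)⟩,
        Finset.mem_filter.2 ⟨Finset.mem_univ _, Subtype.ext hv2⟩, rfl⟩
  -- every real character lies under a real one
  have hex : ∀ θ : {θ : IrrCharacter N // ∀ k : N, ((θ : N → ℂ) k).im = 0},
      ∃ χ : {χ : IrrCharacter G // ∀ g : G, ((χ : G → ℂ) g).im = 0}, ip χ.1 θ.1 ≠ 0 := by
    intro θ
    obtain ⟨χ, -, hne⟩ := Finset.exists_ne_zero_of_sum_ne_zero
      ((hsum θ.1).symm ▸ (fsIndicator_irr_ne_zero_iff θ.1.2).2 θ.2)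
    exact ⟨⟨χ, (fsIndicator_irr_ne_zero_iff χ.2).1 (left_ne_zero_of_mul hne)⟩, right_ne_zero_of_mul hne⟩
  choose F hF using hex
  -- two real characters under the same one are conjugate
  have hconj : ∀ (χ : IrrCharacter G) (θ η : {θ : IrrCharacter N // ∀ k : N, ((θ : N → ℂ) k).im = 0}),
      ip χ θ.1 ≠ 0 → ip χ η.1 ≠ 0 → Quot.mk (realCharRel N) η = Quot.mk _ θ := by
    intro χ θ η h1 h2
    obtain ⟨g, hg⟩ := CfsgLib.Clifford.exists_conj_of_constituents N χ.2 θ.1.2 η.1.2 h1 h2
    refine Quot.sound ⟨g, fun k k' hk => ?_⟩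
    rw [congrFun hg k, CfsgLib.Clifford.conjChar_apply]
    exact congrArg θ.1.1 (Subtype.ext hk)
  let F' : Quot (realCharRel N) → {χ : IrrCharacter G // ∀ g : G, ((χ : G → ℂ) g).im = 0} :=
    fun q => F q.out
  have hinj : Function.Injective F' := by
    intro q q' h
    rw [← Quot.out_eq q, ← Quot.out_eq q']
    exact hconj (F' q).1 q'.out q.out (h ▸ hF q'.out) (hF q.out)
  have hcard : Nat.card (Quot (realCharRel N)) =
      Nat.card {χ : IrrCharacter G // ∀ g : G, ((χ : G → ℂ) g).im = 0} := by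
    have e : {χ : IrrCharacter G // ∀ g : G, ((χ : G → ℂ) g).im = 0} ≃
        {χ : IrrCharacter G // (χ : G → ℂ) ∘ (fun g => g⁻¹) = (χ : G → ℂ)} :=
      Equiv.subtypeEquivRight fun χ => by
        simp only [funext_iff, Function.comp_apply, IsIrrCharacter.inv χ.2, Complex.conj_eq_iff_im]
    have h := (card_quot_real_char N hodd).trans
      ((CfsgLib.Frobenius.card_fixed_irr (fun g : G => g⁻¹)
        (fun χ => CfsgLib.Frobenius.isIrrCharacter_comp_inv χ.2)).trans ?_).symm
    · rw [Nat.card_congr e]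
      exact_mod_cast h
    · congr 1
  have hsurj : Function.Surjective F' :=
    ((Nat.bijective_iff_injective_and_card F').2 ⟨hinj, hcard⟩).2
  have hφ' : fsIndicator (φ : N → ℂ) = 1 := by
    rw [fsIndicator, ← finsum_eq_sum_of_fintype]; exact hφ
  have hφr := (fsIndicator_irr_ne_zero_iff φ.2).1 (hφ' ▸ one_ne_zero)
  set φ' : {θ : IrrCharacter N // ∀ k : N, ((θ : N → ℂ) k).im = 0} := ⟨φ, hφr⟩ with hφ'd
  have huniq : ∀ χ : IrrCharacter G, fsIndicator (χ : G → ℂ) * ip χ φ ≠ 0 → χ = (F φ').1 := by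
    intro χ hχ
    obtain ⟨q, hq⟩ := hsurj ⟨χ, (fsIndicator_irr_ne_zero_iff χ.2).1 (left_ne_zero_of_mul hχ)⟩
    obtain ⟨q', hq'⟩ := hsurj (F φ')
    have e1 := hconj χ φ' q.out (right_ne_zero_of_mul hχ)
      (by have := hF q.out; rwa [show (F q.out).1 = χ from congrArg Subtype.val hq] at this)
    have e2 := hconj (F φ').1 φ' q'.out (hF φ')
      (by have := hF q'.out; rwa [show (F q'.out) = F φ' from hq'] at this)
    rw [Quot.out_eq] at e1 e2
    rw [← hq', e2, ← e1, hq]
  have h1 := hsum φ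
  rw [hφ', Finset.sum_eq_single (F φ').1 (fun χ _ hne => by_contra fun h0 => hne (huniq χ h0))
    (by simp)] at h1
  have hν : fsIndicator ((F φ').1 : G → ℂ) = 1 := by
    obtain ⟨a, ha⟩ : ∃ a : ℕ, ip (F φ').1 φ = a := IsCharacter.exists_classInner_eq_nat
      (CfsgLib.Coherence.isCharacter_comp (IsIrrCharacter.isCharacter (F φ').1.2) N.subtype) φ
    rcases (fsIndicator_irr_cases (F φ').1.2).1 with h | h | h
    · rw [h, zero_mul] at h1; exact absurd h1 zero_ne_one
    · exact h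
    · rw [h, ha] at h1
      have : ((a + 1 : ℕ) : ℂ) = 0 := by push_cast; linear_combination -h1
      exact absurd (Nat.cast_eq_zero.1 this) (by omega)
  refine ⟨(F φ').1, ⟨?_, ?_⟩, ?_⟩
  · rw [finsum_eq_sum_of_fintype]; exact hν
  · rw [finsum_eq_sum_of_fintype]
    exact right_ne_zero_of_mul (a := (Nat.card N : ℂ)⁻¹) (hF φ')
  · rintro χ ⟨hχ1, hχ2⟩
    rw [finsum_eq_sum_of_fintype] at hχ1 hχ2
    exact huniq χ (mul_ne_zero (by rw [fsIndicator, hχ1]; exact one_ne_zero)
      (mul_ne_zero (inv_ne_zero (Nat.cast_ne_zero.2 Nat.card_pos.ne')) hχ2))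

end Cfsg.Agent.S4873
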