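import Cfsg.Statements.S4878
import Cfsg.Agent.Lib.CoprimeTransitive.Line
import Cfsg.Agent.Lib.CoprimeTransitive.Exception
import Cfsg.Agent.Lib.CoprimeTransitive.Plane
import Cfsg.Agent.Lib.PSolvable.Series

set_option autoImplicit false
open Cfsg CfsgLib.CoprimeTransitive

namespace Cfsg.Agent.S4878

/-- Let p be a prime and G a finite p-solvable group of order divisible by p in which all non-identity p-elements are conjugate. Then G has at least p conjugacy classes of p-regular elements; or G has exactly p − 1 of them and is isomorphic to the one-dimensional affine group over the field with p elements; or p = 11, G has exactly 9 of them, G has order 121·120 and G is a Frobenius group whose complement is isomorphic to SL(2,5). -/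
theorem result {G : Type*} [Group G] [Finite G] (p : ℕ) [Fact p.Prime] (hsolv : Cfsg.IsPSolvable p G) (hdiv : p ∣ Nat.card G) (hconj : ∀ x y : G, x ≠ 1 → y ≠ 1 → (∃ k : ℕ, orderOf x = p ^ k) → (∃ k : ℕ, orderOf y = p ^ k) → IsConj x y) : p ≤ Nat.card {c : ConjClasses G // ∃ g : G, ConjClasses.mk g = c ∧ ¬ p ∣ orderOf g} ∨ (Nat.card {c : ConjClasses G // ∃ g : G, ConjClasses.mk g = c ∧ ¬ p ∣ orderOf g} = p - 1 ∧ Nonempty (G ≃* ↥(Cfsg.affineGroup (ZMod p)))) ∨ (p = 11 ∧ Nat.card {c : ConjClasses G // ∃ g : G, ConjClasses.mk g = c ∧ ¬ p ∣ orderOf g} = 9 ∧ (Nat.card G = 121 * 120 ∧ ∃ H : Subgroup G, Cfsg.IsFrobeniusComplement H ∧ Nonempty (↥H ≃* Matrix.SpecialLinearGroup (Fin 2) (ZMod 5)))) := by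
  classical
  have hp2 := (Fact.out : p.Prime).two_le
  set K := pPrimeCore p G with hKdef
  set π := QuotientGroup.mk' K with hπdef
  have hπ : Function.Surjective π := QuotientGroup.mk'_surjective K
  have hKcop : ¬ p ∣ Nat.card K :=
    (Fact.out : p.Prime).coprime_iff_not_dvd.1 (CfsgLib.Cores.card_pPrimeCore_coprime p).symm
  have hdivQ : p ∣ Nat.card (G ⧸ K) := by
    have h := Subgroup.card_eq_card_quotient_mul_card_subgroup K
    rcases (Fact.out : p.Prime).dvd_mul.1 (h ▸ hdiv) with h' | h'
    · exact h'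
    · exact absurd h' hKcop
  obtain ⟨V, H, S⟩ := exists_split (p := p) (CfsgLib.PSolvable.isPSolvable_quotient hsolv K)
    (CfsgLib.Cores.pPrimeCore_quotient_pPrimeCore p) hdivQ (oneClass_map hπ hconj)
  obtain ⟨n, L, hn, hVn, hLp, htr, ⟨eL⟩⟩ := S.exists_linear
  have hsurj := regMap_surjective (p := p) hπ
  have hQ : Nat.card (RegClass p (G ⧸ K)) = Nat.card (ConjClasses H) := S.card_regClass
  have hle : Nat.card (ConjClasses H) ≤ Nat.card (RegClass p G) :=
    hQ ▸ Nat.card_le_card_of_surjective _ hsurj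
  have hlt : K ≠ ⊥ → Nat.card (ConjClasses H) < Nat.card (RegClass p G) := by
    intro hne
    refine lt_of_le_of_ne hle fun heq => ?_
    have hinj := ((Nat.bijective_iff_surjective_and_card _).2 ⟨hsurj, heq.symm.trans hQ.symm⟩).1
    obtain ⟨k, hk, hk1⟩ := (Subgroup.bot_or_exists_ne_one K).resolve_left hne
    have hkK : k ∈ π.ker := by rwa [QuotientGroup.ker_mk']
    have hkr : ¬ p ∣ orderOf k := fun hd =>
      hKcop (hd.trans (by rw [← Subgroup.orderOf_mk k hk]; exact orderOf_dvd_natCard _))
    have h1r : ¬ p ∣ orderOf (1 : G) := by rw [orderOf_one]; exact (Fact.out : p.Prime).not_dvd_one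
    have := hinj (a₁ := (⟨ConjClasses.mk k, k, rfl, hkr⟩ : RegClass p G))
      (a₂ := ⟨ConjClasses.mk 1, 1, rfl, h1r⟩)
      (Subtype.ext (congrArg ConjClasses.mk (by rw [MonoidHom.mem_ker.1 hkK, map_one])))
    exact hk1 (isConj_one_left.1
      (ConjClasses.mk_eq_mk_iff_isConj.1 (congrArg Subtype.val this)))
  have hbot : K = ⊥ → Function.Injective π ∧ Nat.card (RegClass p G) = Nat.card (ConjClasses H) := by
    intro hK
    have hinj : Function.Injective π := (MonoidHom.ker_eq_bot_iff π).1 (by rw [QuotientGroup.ker_mk', hK])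
    refine ⟨hinj, le_antisymm ?_ hle⟩
    rw [← hQ]
    refine Nat.card_le_card_of_injective (regMap (p := p) π) fun a b h => Subtype.ext ?_
    obtain ⟨⟨c, x, rfl, hx⟩, ⟨d, y, rfl, hy⟩⟩ := a, b
    have h' := MonoidHom.map_isConj (MulEquiv.ofBijective π ⟨hinj, hπ⟩).symm.toMonoidHom
      (ConjClasses.mk_eq_mk_iff_isConj.1 (congrArg Subtype.val h : ConjClasses.mk (π x) = ConjClasses.mk (π y)))
    have hs : ∀ g, (MulEquiv.ofBijective π ⟨hinj, hπ⟩).symm (π g) = g := fun g =>
      (MulEquiv.ofBijective π ⟨hinj, hπ⟩).symm_apply_apply g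
    simp only [MulEquiv.coe_toMonoidHom, hs] at h'
    exact ConjClasses.mk_eq_mk_iff_isConj.2 h'
  have hk : Nat.card (ConjClasses H) = Nat.card (ConjClasses L) := card_conjClasses_equiv eL
  show p ≤ Nat.card (RegClass p G) ∨ (Nat.card (RegClass p G) = p - 1 ∧ _) ∨
    (p = 11 ∧ Nat.card (RegClass p G) = 9 ∧ _)
  obtain rfl | rfl | hn3 : n = 1 ∨ n = 2 ∨ 3 ≤ n := by omega
  · rw [pow_one] at hVn
    obtain ⟨h1, ⟨eQ⟩⟩ := S.line hVn
    by_cases hK : K = ⊥
    · obtain ⟨hinj, heq⟩ := hbot hK
      exact Or.inr (Or.inl ⟨heq.trans h1, ⟨(MulEquiv.ofBijective π ⟨hinj, hπ⟩).trans eQ⟩⟩)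
    · left
      have := hlt hK
      omega
  · rcases le_card_classes_two hLp htr with h | ⟨rfl, h9, h120, ⟨eS⟩⟩
    · left
      omega
    have hH : Nat.card H = 120 := (Nat.card_congr eL.toEquiv).trans h120
    have hV : Nat.card V = 121 := by rw [hVn]; norm_num
    by_cases hK : K = ⊥
    · obtain ⟨hinj, heq⟩ := hbot hK
      let eG : G ≃* G ⧸ K := MulEquiv.ofBijective π ⟨hinj, hπ⟩
      refine Or.inr (Or.inr ⟨rfl, by omega, ?_, H.comap eG.toMonoidHom, ?_, ⟨?_⟩⟩)
      · rw [Nat.card_congr eG.toEquiv, ← S.compl.card_mul_card, hV, hH]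
      · refine ⟨fun h => ?_, fun h => ?_, fun g hg => ?_⟩
        · have h1 := congrArg (Subgroup.map eG.toMonoidHom) h
          rw [Subgroup.map_comap_eq_self_of_surjective (f := eG.toMonoidHom) eG.surjective, Subgroup.map_bot] at h1
          rw [h1, Subgroup.card_bot] at hH
          omega
        · have h1 := congrArg (Subgroup.map eG.toMonoidHom) h
          rw [Subgroup.map_comap_eq_self_of_surjective (f := eG.toMonoidHom) eG.surjective,
            Subgroup.map_top_of_surjective eG.toMonoidHom eG.surjective] at h1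
          have h2 := S.compl.card_mul_card
          rw [h1, Subgroup.card_top, hV] at h2
          have := Nat.card_pos (α := G ⧸ K)
          omega
        · refine eq_bot_iff.2 fun a ha => ?_
          obtain ⟨ha1, ha2⟩ := Subgroup.mem_inf.1 ha
          obtain ⟨b, hb, hab⟩ := Subgroup.mem_smul_pointwise_iff_exists a _ _ |>.1 ha2
          have haH : eG a ∈ H := ha1
          have hbH : eG b ∈ H := hb
          obtain ⟨u, hu, η, hη, huη⟩ := S.exists_mul (eG g)
          have hu1 : u ≠ 1 := fun h => hg (by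
            show eG g ∈ H
            rw [← huη, h, one_mul]; exact hη)
          have hae : eG a = u * (η * eG b * η⁻¹) * u⁻¹ := by
            have hab' : g * b * g⁻¹ = a := hab
            rw [← hab', map_mul, map_mul, map_inv, ← huη]
            group
          have hb' : η * eG b * η⁻¹ ∈ H := mul_mem (mul_mem hη hbH) (inv_mem hη)
          have hV' : eG a * (η * eG b * η⁻¹)⁻¹ ∈ V := by
            have hmem := mul_mem hu (S.normal.conj_mem _ (inv_mem hu) (η * eG b * η⁻¹))
            rw [hae]
            convert hmem using 1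
            group
          have h1 := mul_inv_eq_one.1 (S.eq_one hV' (mul_mem haH (inv_mem hb')))
          have h2 : eG a * u = u * eG a := by
            conv_lhs => rw [hae]
            rw [h1]
            group
          have h3 := CfsgLib.CoprimeTransitive.fpf S hV hH haH hu hu1 h2
          exact eG.injective (h3.trans (map_one eG).symm)
      · exact (eG.subgroupMap (H.comap eG.toMonoidHom)).trans ((MulEquiv.subgroupCongr
          (Subgroup.map_comap_eq_self_of_surjective (f := eG.toMonoidHom) eG.surjective H)).trans (eL.trans eS))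
    · left
      have := eleven_le (G := G) hπ (by rwa [QuotientGroup.ker_mk']) (by rwa [QuotientGroup.ker_mk']) S hV hH
        (eL.trans eS) (hk.trans h9)
      exact this
  · left
    have := le_card_classes hn hLp htr hn3
    omega

end Cfsg.Agent.S4878
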