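import Cfsg.Statements.S4885
import Cfsg.Agent.Lib.Correspondences.TwoPrimeCores
import Cfsg.Agent.Lib.Correspondences.PrincipalBlock
import Cfsg.Agent.Lib.Correspondences.PrimeDegree
-- import your own Cfsg.Agent.* helpers here

set_option autoImplicit false
open Cfsg

namespace Cfsg.Agent.S4885

open scoped commutatorElement in
theorem core_le {G : Type*} [Group G] [Finite G] (p q : ℕ) [Fact p.Prime] [Fact q.Prime]
    (hps : Cfsg.IsPSolvable p G) (Mp Mq : Ideal Cfsg.AlgInt) (hMp : Cfsg.IsPModular p Mp)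
    (hMq : Cfsg.IsPModular q Mq)
    (h : ∀ χ : Cfsg.IrrCharacter G, χ ∈ Cfsg.principalBlock Mp G →
      ¬ p ∣ Cfsg.charDegree (χ : G → ℂ) → χ ∈ Cfsg.principalBlock Mq G) (P : Sylow p G) :
    Cfsg.pPrimeCore q G ⊓ (P : Subgroup G) ≤ ⁅(P : Subgroup G), (P : Subgroup G)⁆ := by
  intro x hx
  obtain ⟨hxA, hxP⟩ := Subgroup.mem_inf.1 hx
  by_contra hne
  obtain ⟨ψ, hdeg, hker, hψ⟩ := CfsgLib.Correspondences.exists_irr_not_dvd_of_sylow P
    (Cfsg.pPrimeCore p G) (CfsgLib.Cores.not_dvd_card_pPrimeCore) hxP hne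
  exact hψ (CfsgLib.Correspondences.apply_eq_of_mem_principalBlock hMq
    (h ψ (CfsgLib.Correspondences.mem_principalBlock_of_not_dvd hMp hps ψ hdeg hker) hdeg) _
    CfsgLib.Cores.not_dvd_card_pPrimeCore hxA)

/-- Let p and q be primes dividing the order of the finite group G, and suppose G is p-solvable and q-solvable. Fix maximal ideals of the algebraic integers containing p and q, defining the principal p-block and the principal q-block. If the irreducible characters of degree prime to p in the principal p-block are exactly the irreducible characters of degree prime to q in the principal q-block, then p = q. -/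
theorem result {G : Type*} [Group G] [Finite G] (p q : ℕ) [Fact p.Prime] [Fact q.Prime] (hp : p ∣ Nat.card G) (hq : q ∣ Nat.card G) (hps : Cfsg.IsPSolvable p G) (hqs : Cfsg.IsPSolvable q G) (Mp Mq : Ideal Cfsg.AlgInt) (hMp : Cfsg.IsPModular p Mp) (hMq : Cfsg.IsPModular q Mq) (h : ∀ χ : Cfsg.IrrCharacter G, (χ ∈ Cfsg.principalBlock Mp G ∧ ¬ p ∣ Cfsg.charDegree (χ : G → ℂ)) ↔ (χ ∈ Cfsg.principalBlock Mq G ∧ ¬ q ∣ Cfsg.charDegree (χ : G → ℂ))) : p = q := by
  by_contra hpq
  exact CfsgLib.Correspondences.two_prime_cores hpq hp hps hqs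
    (core_le p q hps Mp Mq hMp hMq fun χ hχ hd => ((h χ).1 ⟨hχ, hd⟩).1)
    (core_le q p hqs Mq Mp hMq hMp fun χ hχ hd => ((h χ).2 ⟨hχ, hd⟩).1)

end Cfsg.Agent.S4885
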