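import Cfsg.Statements.S4886
import Cfsg.Agent.Lib.Correspondences.SeparableDegrees
import Cfsg.Agent.Lib.Correspondences.PrincipalSolvable
import Cfsg.Agent.Lib.Correspondences.PrincipalBlock
open CfsgLib.Correspondences CfsgLib.CharTheory CfsgLib.Blocks

set_option linter.style.haveILetI false

set_option autoImplicit false
open Cfsg

namespace Cfsg.Agent.S4886

/-- Let p ≠ q be primes and G a finite group that is p-solvable and q-solvable. Fix maximal ideals of the algebraic integers containing p and q, defining the principal p-block and the principal q-block. Then every irreducible character of degree prime to p in the principal p-block has degree prime to q and every irreducible character of degree prime to q in the principal q-block has degree prime to p, if and only if some Sylow p-subgroup of G commutes elementwise with some Sylow q-subgroup. -/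
theorem result {G : Type*} [Group G] [Finite G] (p q : ℕ) [Fact p.Prime] [Fact q.Prime] (hpq : p ≠ q) (Mp Mq : Ideal Cfsg.AlgInt) (hMp : Cfsg.IsPModular p Mp) (hMq : Cfsg.IsPModular q Mq) (hps : Cfsg.IsPSolvable p G) (hqs : Cfsg.IsPSolvable q G) : ((∀ χ : Cfsg.IrrCharacter G, χ ∈ Cfsg.principalBlock Mp G → ¬ p ∣ Cfsg.charDegree (χ : G → ℂ) → ¬ q ∣ Cfsg.charDegree (χ : G → ℂ)) ∧ (∀ χ : Cfsg.IrrCharacter G, χ ∈ Cfsg.principalBlock Mq G → ¬ q ∣ Cfsg.charDegree (χ : G → ℂ) → ¬ p ∣ Cfsg.charDegree (χ : G → ℂ))) ↔ ∃ (P : Sylow p G) (Q : Sylow q G), ∀ x ∈ (P : Subgroup G), ∀ y ∈ (Q : Subgroup G), x * y = y * x := by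
  classical
  have hp : p.Prime := Fact.out
  have hq : q.Prime := Fact.out
  haveI := isPrime_of_isPModular hMp
  haveI := isPrime_of_isPModular hMq
  constructor
  · rintro ⟨h1, h2⟩
    obtain ⟨hq', hp'⟩ := not_dvd_index_pPrimeCore hpq hps hqs
      (fun χ hχ => h1 χ (mem_principalBlock_of_trivial_on_pPrimeCore hMp hps hχ))
      (fun χ hχ => h2 χ (mem_principalBlock_of_trivial_on_pPrimeCore hMq hqs hχ))
    obtain ⟨P⟩ : Nonempty (Sylow p G) := inferInstance
    set N := Cfsg.pPrimeCore p G with hN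
    have hcop := coprime_of_pgroup P.2 (n := Nat.card N) CfsgLib.Cores.not_dvd_card_pPrimeCore
    haveI := P.2.isNilpotent
    obtain ⟨Q', hQ⟩ := CfsgLib.CoprimeAction.exists_invariant_sylow (A := (P : Subgroup G)) (K := N)
      (by rw [Subgroup.normalizer_eq_top]; exact le_top) hcop (Or.inl inferInstance) q
    set Q := (Q' : Subgroup N).map N.subtype with hQd
    have hcard : Nat.card Q = q ^ (Nat.card G).factorization q := by
      rw [hQd, Subgroup.card_map_of_injective N.subtype_injective, Q'.card_eq_multiplicity,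
        ← Subgroup.card_mul_index N, Nat.factorization_mul Nat.card_pos.ne'
          Subgroup.index_ne_zero_of_finite, Finsupp.coe_add, Pi.add_apply,
        Nat.factorization_eq_zero_of_not_dvd hq', add_zero]
    refine ⟨P, Sylow.ofCard Q hcard, fun x hx y hy => ?_⟩
    have hxR : x ∈ Cfsg.pPrimeCore q G := pgroup_le_of_not_dvd_index P.2 hp' hx
    have hy' : y ∈ Q := hy
    have h3 : x * y * x⁻¹ * y⁻¹ ∈ Q :=
      mul_mem ((Subgroup.mem_normalizer_iff.1 (hQ hx) y).1 hy') (inv_mem hy')
    have h4 : x * y * x⁻¹ * y⁻¹ ∈ Cfsg.pPrimeCore q G := by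
      rw [show x * y * x⁻¹ * y⁻¹ = x * (y * x⁻¹ * y⁻¹) by group]
      exact mul_mem hxR ((inferInstance : (Cfsg.pPrimeCore q G).Normal).conj_mem _ (inv_mem hxR) y)
    have h5 : orderOf (x * y * x⁻¹ * y⁻¹) = 1 := Nat.eq_one_of_dvd_coprimes
      (coprime_of_pgroup (Q'.2.map _) CfsgLib.Cores.not_dvd_card_pPrimeCore)
      (Subgroup.orderOf_dvd_natCard _ h3) (Subgroup.orderOf_dvd_natCard _ h4)
    rw [orderOf_eq_one_iff] at h5
    calc x * y = (x * y * x⁻¹ * y⁻¹) * (y * x) := by group
      _ = y * x := by rw [h5, one_mul]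
  · rintro ⟨P, Q, hPQ⟩
    have key : ∀ (r s : ℕ) [Fact r.Prime] [Fact s.Prime] (M : Ideal Cfsg.AlgInt),
        Cfsg.IsPModular r M → r ≠ s → Cfsg.IsPSolvable r G → ∀ (R : Sylow r G) (S : Sylow s G),
        (∀ x ∈ (R : Subgroup G), ∀ y ∈ (S : Subgroup G), x * y = y * x) →
        ∀ χ : Cfsg.IrrCharacter G, χ ∈ Cfsg.principalBlock M G →
          ¬ s ∣ Cfsg.charDegree (χ : G → ℂ) := by
      intro r s _ _ M hM hrs hrsol R S hcomm χ hχ hs
      set N := Cfsg.pPrimeCore r G with hN
      have hker : ∀ x ∈ N, (χ : G → ℂ) x = (χ : G → ℂ) 1 := fun x hx =>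
        apply_eq_of_mem_principalBlock hM hχ N CfsgLib.Cores.not_dvd_card_pPrimeCore hx
      obtain ⟨ψ, hψ⟩ := exists_deflate χ.2 N hker
      have hd : Cfsg.charDegree (ψ : G ⧸ N → ℂ) = Cfsg.charDegree (χ : G → ℂ) := by
        simp only [Cfsg.charDegree]
        rw [← hψ 1, map_one]
      have hdvd : s ∣ N.index := by
        rw [Subgroup.index_eq_card]
        exact (hd ▸ hs).trans (charDegree_dvd_card ψ.2)
      have hC := CfsgLib.PSolvable.centralizer_pCore_le
        (CfsgLib.PSolvable.isPSolvable_quotient hrsol N)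
        (CfsgLib.Cores.pPrimeCore_quotient_pPrimeCore r)
      obtain ⟨n, hn⟩ := IsPGroup.iff_card.1 (CfsgLib.Cores.isPGroup_pCore r (G ⧸ N))
      have hsq := QuotientGroup.mk'_surjective N
      have hle : Cfsg.pCore r (G ⧸ N) ≤ (R : Subgroup G).map (QuotientGroup.mk' N) :=
        le_sup_right.trans ((R.mapSurjective hsq).3
          ((R.2.map (QuotientGroup.mk' N)).to_sup_of_normal_right
            (CfsgLib.Cores.isPGroup_pCore r (G ⧸ N))) le_sup_left).le
      have hS1 : (S : Subgroup G).map (QuotientGroup.mk' N) ≤ Cfsg.pCore r (G ⧸ N) := by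
        rintro _ ⟨y, hy, rfl⟩
        refine hC (Subgroup.mem_centralizer_iff.2 fun z hz => ?_)
        obtain ⟨x, hx, rfl⟩ := hle hz
        rw [← map_mul, ← map_mul, hcomm x hx y hy]
      have hbot : (S : Subgroup G).map (QuotientGroup.mk' N) = ⊥ := by
        refine Subgroup.eq_bot_of_card_eq _ (Nat.eq_one_of_dvd_coprimes
          (coprime_of_pgroup (S.2.map (QuotientGroup.mk' N))
            (n := Nat.card (Cfsg.pCore r (G ⧸ N))) ?_) dvd_rfl (Subgroup.card_dvd_of_le hS1))
        rw [hn]
        exact fun h => hrs ((Nat.prime_dvd_prime_iff_eq Fact.out Fact.out).1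
          ((Fact.out : s.Prime).dvd_of_dvd_pow h)).symm
      have hSN : (S : Subgroup G) ≤ N := by
        rw [Subgroup.map_eq_bot_iff, QuotientGroup.ker_mk'] at hbot
        exact hbot
      exact S.not_dvd_index (hdvd.trans (Subgroup.index_dvd_of_le hSN))
    exact ⟨fun χ hχ _ => key p q Mp hMp hpq hps P Q hPQ χ hχ,
      fun χ hχ _ => key q p Mq hMq hpq.symm hqs Q P (fun x hx y hy => (hPQ y hy x hx).symm) χ hχ⟩

end Cfsg.Agent.S4886
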