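import Cfsg.Statements.S4889
import Cfsg.Agent.Lib.EqualDegrees.Root
import Cfsg.Agent.Lib.BlockStar.Nilpotent
import Cfsg.Agent.Lib.CharTheory.Ito
-- import your own Cfsg.Agent.* helpers here

set_option autoImplicit false
open Cfsg CfsgLib CfsgLib.Blocks CfsgLib.BrauerPairs

namespace Cfsg.Agent.S4889

/-- Let G be a finite group, p a prime, M a maximal ideal of the algebraic integers containing p, and B a p-block of G that has an abelian defect group and in which every irreducible character has height zero. Then all irreducible characters of B have the same degree if and only if B is a nilpotent block. -/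
theorem result {G : Type*} [Group G] [Finite G] (p : ℕ) [Fact p.Prime] (M : Ideal Cfsg.AlgInt) (hM : Cfsg.IsPModular p M) (B : Set (Cfsg.IrrCharacter G)) (hB : Cfsg.IsPBlock M B) (D : Subgroup G) (hD : Cfsg.IsDefectGroup p M B D) (hDab : IsMulCommutative ↥D) (h0 : ∀ χ : Cfsg.IrrCharacter G, χ ∈ B → Cfsg.blockHeight p B (χ : G → ℂ) = 0) : (∃ d : ℕ, ∀ χ : Cfsg.IrrCharacter G, χ ∈ B → Cfsg.charDegree (χ : G → ℂ) = d) ↔ Cfsg.IsNilpotentBlock p M B := by
  classical
  haveI : Fintype G := Fintype.ofFinite G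
  haveI := isPrime_of_isPModular hM
  haveI : M.IsMaximal := hM.2.1
  haveI := charP_res hM
  haveI := isAlgClosed_res (M := M)
  have hab : ∀ x ∈ D, ∀ y ∈ D, x * y = y * x := fun x hx y hy =>
    congrArg Subtype.val (hDab.is_comm.comm ⟨x, hx⟩ ⟨y, hy⟩)
  constructor
  · rintro ⟨d, hd⟩
    exact EqualDegrees.isNilpotentBlock_of_equal_degrees hM hB hd hD hab
  · intro hnil
    have hbb := isBlockIdem_redElem_blockCoeff (M := M) hB
    obtain ⟨e, hmax⟩ := exists_isMaxPair_of_isDefectIn hbb ((isDefectGroup_iff hM hB).1 hD)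
    obtain ⟨χ, hχ⟩ := isPBlock_nonempty hB
    obtain ⟨Φ, hΦ⟩ := BlockStar.exists_equiv_of_nilp hM hB hmax ((isNilpotentBlock_iff hM).1 hnil).2
      hχ (h0 χ hχ)
    refine ⟨charDegree (χ : G → ℂ), fun ψ hψ => ?_⟩
    have h := hΦ ⟨ψ, hψ⟩ 1 (by rw [orderOf_one]; exact (Fact.out : p.Prime).not_dvd_one)
    rw [CharTheory.apply_one_eq_one_of_comm (fun a b => hDab.is_comm.comm a b) (Φ ⟨ψ, hψ⟩).2,
      one_mul] at h
    exact congrArg (fun z : ℂ => ⌊z.re⌋₊) h

end Cfsg.Agent.S4889
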