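import Cfsg.Statements.S4890
import Cfsg.Agent.Lib.EqualDegree.Nilp
import Cfsg.Agent.Lib.BlockStar.Nilpotent

set_option autoImplicit false
open Cfsg CfsgLib CfsgLib.Blocks CfsgLib.BrauerPairs

namespace Cfsg.Agent.S4890

/-- Let G be a finite group, p a prime, M a maximal ideal of the algebraic integers containing p, and B a p-block of G with a defect group that is normal in G. Then all height-zero irreducible characters of B have the same degree if and only if B is a nilpotent block. -/
theorem result {G : Type*} [Group G] [Finite G] (p : ℕ) [Fact p.Prime] (M : Ideal Cfsg.AlgInt) (hM : Cfsg.IsPModular p M) (B : Set (Cfsg.IrrCharacter G)) (hB : Cfsg.IsPBlock M B) (D : Subgroup G) (hD : Cfsg.IsDefectGroup p M B D) (hDn : D.Normal) : (∃ d : ℕ, ∀ χ : Cfsg.IrrCharacter G, χ ∈ B → Cfsg.blockHeight p B (χ : G → ℂ) = 0 → Cfsg.charDegree (χ : G → ℂ) = d) ↔ Cfsg.IsNilpotentBlock p M B := by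
  classical
  haveI : Fintype G := Fintype.ofFinite G
  haveI := isPrime_of_isPModular hM
  haveI : M.IsMaximal := hM.2.1
  haveI := charP_res hM
  haveI := isAlgClosed_res (M := M)
  constructor
  · rintro ⟨d, hd⟩
    exact (isNilpotentBlock_iff hM).2 ⟨hB, EqualDegree.isNilp_of_degrees hM hB hD hd⟩
  · intro hnil
    have hbb := isBlockIdem_redElem_blockCoeff (M := M) hB
    obtain ⟨e, hmax⟩ := exists_isMaxPair_of_isDefectIn hbb ((isDefectGroup_iff hM hB).1 hD)
    have hn := ((isNilpotentBlock_iff hM).1 hnil).2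
    obtain ⟨χ, hχ, h0⟩ :=
      BrauerCharacters.exists_height_eq_zero (p := p) (B := B) (isPBlock_nonempty hB)
    obtain ⟨Φ, hΦ⟩ := BlockStar.exists_equiv_of_nilp hM hB hmax hn hχ h0
    refine ⟨charDegree (χ : G → ℂ), fun ψ hψ hψ0 => ?_⟩
    have h := hΦ ⟨ψ, hψ⟩ 1 (by rw [orderOf_one]; exact (Fact.out : p.Prime).not_dvd_one)
    rw [← charDegree_cast, ← charDegree_cast, ← charDegree_cast, ← Nat.cast_mul] at h
    have h' := Nat.cast_injective h
    set ζ := Φ ⟨ψ, hψ⟩
    obtain ⟨n, hn'⟩ := IsPGroup.iff_card.1 hmax.1.1.1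
    obtain ⟨k, -, hk⟩ := (Nat.dvd_prime_pow Fact.out).1
      (hn' ▸ (BrauerCharacters.charDegree_spec ζ).2.2)
    have e1 := BrauerCharacters.defect_add_degree (p := p) hψ
    have e2 := BrauerCharacters.defect_add_degree (p := p) hχ
    rw [hψ0] at e1
    rw [h0] at e2
    rw [h', Nat.factorization_mul (charDegree_ne_zero' ζ) (charDegree_ne_zero' χ),
      Finsupp.add_apply, hk, Nat.Prime.factorization_pow (Fact.out : p.Prime),
      Finsupp.single_eq_same] at e1
    obtain rfl : k = 0 := by omega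
    rw [h', hk, pow_zero, one_mul]

end Cfsg.Agent.S4890
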