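import Cfsg.Statements.S4911
import Cfsg.Agent.Lib.CharDegreesTheory.GlaubermanSubgroup
import Cfsg.Agent.Lib.Frobenius.BrauerPerm

set_option autoImplicit false
set_option linter.style.haveILetI false
open Cfsg CfsgLib.CharDegreesTheory

namespace Cfsg.Agent.S4911

/-- The size of a conjugacy class. -/
theorem card_fiber {C : Type*} [Group C] [Fintype C] [DecidableEq (ConjClasses C)] (a : C) :
    (Finset.univ.filter fun g : C => ConjClasses.mk g = ConjClasses.mk a).card =
      (Subgroup.centralizer ({a} : Set C)).index := by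
  classical
  have h := MulAction.index_stabilizer (ConjAct C) a
  rw [ConjAct.orbit_eq_carrier_conjClasses] at h
  have e : (Subgroup.centralizer ({a} : Set C)).index = (MulAction.stabilizer (ConjAct C) a).index := by
    rw [← Subgroup.index_comap_of_surjective (Subgroup.centralizer ({a} : Set C))
      (f := (ConjAct.ofConjAct : ConjAct C ≃* C).toMonoidHom) ConjAct.ofConjAct.surjective]
    congr 1
    ext x
    simp only [Subgroup.mem_comap, Subgroup.mem_centralizer_singleton_iff, MulAction.mem_stabilizer_iff,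
      ConjAct.smul_def, MulEquiv.coe_toMonoidHom]
    exact mul_inv_eq_iff_eq_mul.symm
  rw [e, h, Set.ncard_eq_toFinset_card' _]
  congr 1
  ext g
  simp [ConjClasses.mem_carrier_iff_mk_eq]

/-- The number of real irreducible characters is the number of real classes. -/
theorem card_real {C : Type*} [Group C] [Finite C] :
    Nat.card {β : IrrCharacter C // ∀ k : C, ((β : C → ℂ) k).im = 0} =
      Nat.card {c : ConjClasses C // ∀ k : C, ConjClasses.mk k = c → IsConj k k⁻¹} := by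
  classical
  haveI := Fintype.ofFinite C
  haveI := Fintype.ofFinite (ConjClasses C)
  have hfix : Nat.card {β : IrrCharacter C // ∀ k : C, ((β : C → ℂ) k).im = 0} =
      Nat.card {β : IrrCharacter C // (β : C → ℂ) ∘ (fun g => g⁻¹) = (β : C → ℂ)} :=
    Nat.card_congr (Equiv.subtypeEquivRight fun β => by
      simp only [funext_iff, Function.comp_apply, CfsgLib.CharTheory.IsIrrCharacter.inv β.2,
        Complex.conj_eq_iff_im])
  have h := CfsgLib.Frobenius.card_fixed_irr (fun g : C => g⁻¹)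
    (fun χ => CfsgLib.Frobenius.isIrrCharacter_comp_inv χ.2)
  rw [← hfix] at h
  have hsum : ∑ g : C, (if IsConj g⁻¹ g then (Nat.card (Subgroup.centralizer ({g} : Set C)) : ℂ) else 0) =
      (Nat.card C : ℂ) * Nat.card {c : ConjClasses C // ∀ k : C, ConjClasses.mk k = c → IsConj k k⁻¹} := by
    rw [← Finset.sum_fiberwise Finset.univ (ConjClasses.mk : C → ConjClasses C), mul_comm,
      Nat.card_eq_fintype_card, Fintype.card_subtype, ← nsmul_eq_mul, ← Finset.sum_const,
      Finset.sum_filter]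
    refine Finset.sum_congr rfl fun c _ => ?_
    obtain ⟨a, rfl⟩ := ConjClasses.exists_rep c
    have hiff : (∀ k : C, ConjClasses.mk k = ConjClasses.mk a → IsConj k k⁻¹) ↔ IsConj a⁻¹ a := by
      refine ⟨fun h => (h a rfl).symm, fun h k hk => ?_⟩
      have hka : IsConj k a := ConjClasses.mk_eq_mk_iff_isConj.1 hk
      obtain ⟨x, hx⟩ := isConj_iff.1 hka
      have hinv : IsConj k⁻¹ a⁻¹ := isConj_iff.2 ⟨x, by rw [← hx]; group⟩
      exact hka.trans (h.symm.trans hinv.symm)
    have hconst : ∀ g ∈ Finset.univ.filter (fun g : C => ConjClasses.mk g = ConjClasses.mk a),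
        (if IsConj g⁻¹ g then (Nat.card (Subgroup.centralizer ({g} : Set C)) : ℂ) else 0) =
          if IsConj a⁻¹ a then (Nat.card (Subgroup.centralizer ({a} : Set C)) : ℂ) else 0 := by
      intro g hg
      have hga := (Finset.mem_filter.1 hg).2
      obtain ⟨x, hx⟩ := isConj_iff.1 (ConjClasses.mk_eq_mk_iff_isConj.1 hga)
      have h1 : IsConj g⁻¹ g ↔ IsConj a⁻¹ a := by
        have hga' : IsConj g a := isConj_iff.2 ⟨x, hx⟩
        have hinv : IsConj g⁻¹ a⁻¹ := isConj_iff.2 ⟨x, by rw [← hx]; group⟩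
        exact ⟨fun h => hinv.symm.trans (h.trans hga'), fun h => hinv.trans (h.trans hga'.symm)⟩
      simp only [h1]
      split_ifs
      · congr 1
        refine Nat.card_congr ((MulAut.conj x).toEquiv.subtypeEquiv fun y => ?_)
        simp only [MulEquiv.toEquiv_eq_coe, EquivLike.coe_coe, MulAut.conj_apply,
          Subgroup.mem_centralizer_singleton_iff]
        rw [← hx]
        constructor
        · intro hy
          calc x * y * x⁻¹ * (x * g * x⁻¹) = x * (y * g) * x⁻¹ := by group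
            _ = x * g * x⁻¹ * (x * y * x⁻¹) := by rw [hy]; group
        · intro hy
          calc y * g = x⁻¹ * (x * y * x⁻¹ * (x * g * x⁻¹)) * x := by group
            _ = g * y := by rw [hy]; group
      · rfl
    rw [Finset.sum_congr rfl hconst, Finset.sum_const]
    by_cases ha : IsConj a⁻¹ a
    · rw [if_pos ha, if_pos (hiff.2 ha), nsmul_eq_mul, ← Nat.cast_mul]
      congr 1
      rw [card_fiber a, mul_comm, Subgroup.card_mul_index]
    · rw [if_neg ha, if_neg fun hh => ha (hiff.1 hh), smul_zero]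
  replace h := h.trans (congrArg (fun z : ℂ => (Nat.card C : ℂ)⁻¹ * z)
    (Eq.trans (Finset.sum_congr rfl fun g _ => by congr) hsum))
  rw [inv_mul_cancel_left₀ (Nat.cast_ne_zero.2 Nat.card_pos.ne')] at h
  exact_mod_cast h

/-- Let P and K be subgroups of a finite group with P a p-group normalizing K and K of order prime to p. Then the number of P-invariant real-valued irreducible complex characters of K equals the number of conjugacy classes of K that are real (closed under inversion) and P-invariant. Moreover, if every real-valued irreducible character of K is P-invariant, then every real element of K (one conjugate in K to its inverse) is conjugate in K to an element centralized by P. -/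
theorem result {G : Type*} [Group G] [Finite G] (p : ℕ) [Fact p.Prime] (P K : Subgroup G) (hP : IsPGroup p ↥P) (hK : ¬ p ∣ Nat.card ↥K) (hPK : P ≤ Subgroup.normalizer (K : Set G)) : Nat.card {θ : Cfsg.IrrCharacter ↥K // (∀ k : ↥K, ((θ : ↥K → ℂ) k).im = 0) ∧ (∀ x ∈ P, ∀ k k' : ↥K, (k' : G) = x * (k : G) * x⁻¹ → (θ : ↥K → ℂ) k' = (θ : ↥K → ℂ) k)} = Nat.card {c : ConjClasses ↥K // (∀ k : ↥K, ConjClasses.mk k = c → IsConj k k⁻¹) ∧ ∀ k : ↥K, ConjClasses.mk k = c → ∀ x ∈ P, ∀ k' : ↥K, (k' : G) = x * (k : G) * x⁻¹ → ConjClasses.mk k' = c} ∧ ((∀ θ : Cfsg.IrrCharacter ↥K, (∀ k : ↥K, ((θ : ↥K → ℂ) k).im = 0) → (∀ x ∈ P, ∀ k k' : ↥K, (k' : G) = x * (k : G) * x⁻¹ → (θ : ↥K → ℂ) k' = (θ : ↥K → ℂ) k)) → ∀ k : ↥K, IsConj k k⁻¹ → ∃ k' : ↥K, IsConj k k' ∧ ∀ x ∈ P, x * (k' : G) * x⁻¹ = (k' : G)) := by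
  classical
  haveI := Fintype.ofFinite K
  have hnorm : ∀ s ∈ P, ∀ g ∈ K, s * g * s⁻¹ ∈ K := fun s hs g hg =>
    ((Subgroup.mem_normalizer_iff.1 (hPK hs)) g).1 hg
  set φ := conjRes K P hnorm with hφ
  set C := K ⊓ Subgroup.centralizer (P : Set G) with hC
  have hCK : C ≤ K := inf_le_left
  set ι := Subgroup.inclusion hCK with hι
  have hS : CoprimePSetup φ ι p := coprimePSetup_conjRes K P C hnorm hC hCK hP hK
  letI : Fintype C := Fintype.ofFinite C
  haveI := Fintype.ofFinite (IrrCharacter C)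
  have hinv : ∀ θ : ↥K → ℂ, IsInvariant φ θ ↔
      ∀ x ∈ P, ∀ k k' : ↥K, (k' : G) = x * (k : G) * x⁻¹ → θ k' = θ k :=
    fun θ => isInvariant_conjRes_iff K P hnorm θ
  -- conjugate characters
  have hreal : ∀ {A : Subgroup G} (θ : IrrCharacter A),
      (∀ k : A, ((θ : A → ℂ) k).im = 0) ↔ (fun k => (θ : A → ℂ) k⁻¹) = (θ : A → ℂ) := by
    intro A θ
    simp only [funext_iff, CfsgLib.CharTheory.IsIrrCharacter.inv θ.2, Complex.conj_eq_iff_im]
  have hmult : ∀ (θ : ↥K → ℂ) (β : ↥C → ℂ),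
      mult ι (fun k => θ k⁻¹) (fun c => β c⁻¹) = mult ι θ β := by
    intro θ β
    unfold mult Cfsg.classInner
    congr 3
    exact Fintype.sum_equiv (Equiv.inv C) _ _ fun c => by simp [map_inv]
  -- the correspondence on real invariant characters
  let T := {θ : IrrCharacter ↥K // (∀ k : ↥K, ((θ : ↥K → ℂ) k).im = 0) ∧
    (∀ x ∈ P, ∀ k k' : ↥K, (k' : G) = x * (k : G) * x⁻¹ → (θ : ↥K → ℂ) k' = (θ : ↥K → ℂ) k)}
  choose β hβ using fun θ : T => hS.exists_of_invariant ((hinv _).2 θ.2.2)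
  have hβreal : ∀ θ : T, ∀ c : C, ((β θ : ↥C → ℂ) c).im = 0 := by
    intro θ
    rw [hreal]
    let β' : IrrCharacter ↥C := ⟨_, CfsgLib.Frobenius.isIrrCharacter_comp_inv (β θ).2⟩
    have h1 : ¬ p ∣ mult ι (θ.1 : ↥K → ℂ) (β' : ↥C → ℂ) := by
      have h2 := hmult (θ.1 : ↥K → ℂ) (β θ : ↥C → ℂ)
      rw [(hreal θ.1).1 θ.2.1] at h2
      rw [show (β' : ↥C → ℂ) = fun c => (β θ : ↥C → ℂ) c⁻¹ from rfl, h2]
      exact hβ θ
    exact congrArg Subtype.val (hS.unique ((hinv _).2 θ.2.2) h1 (hβ θ))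
  have hbij : Function.Bijective (fun θ : T =>
      (⟨β θ, hβreal θ⟩ : {b : IrrCharacter ↥C // ∀ c : C, ((b : ↥C → ℂ) c).im = 0})) := by
    constructor
    · intro θ θ' h
      have h' : β θ = β θ' := congrArg Subtype.val h
      exact Subtype.ext (hS.injective ((hinv _).2 θ.2.2) ((hinv _).2 θ'.2.2) (h' ▸ hβ θ) (hβ θ'))
    · rintro ⟨b, hb⟩
      obtain ⟨χ, hχ, hχb⟩ := hS.surjective b
      let χ' : IrrCharacter ↥K := ⟨_, CfsgLib.Frobenius.isIrrCharacter_comp_inv χ.2⟩
      have hχ' : IsInvariant φ (χ' : ↥K → ℂ) := fun s g => by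
        show (χ : ↥K → ℂ) (φ s g)⁻¹ = (χ : ↥K → ℂ) g⁻¹
        rw [← map_inv, hχ]
      have h1 : ¬ p ∣ mult ι (χ' : ↥K → ℂ) (b : ↥C → ℂ) := by
        have h2 := hmult (χ : ↥K → ℂ) (b : ↥C → ℂ)
        rw [(hreal b).1 hb] at h2
        rw [show (χ' : ↥K → ℂ) = fun k => (χ : ↥K → ℂ) k⁻¹ from rfl, h2]
        exact hχb
      have hr : ∀ k : ↥K, ((χ : ↥K → ℂ) k).im = 0 :=
        (hreal χ).2 (congrArg Subtype.val (hS.injective hχ' hχ h1 hχb))
      refine ⟨⟨χ, hr, (hinv _).1 hχ⟩, Subtype.ext ?_⟩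
      exact hS.unique hχ (hβ ⟨χ, hr, (hinv _).1 hχ⟩) hχb
  -- the correspondence on classes
  let R := {c : ConjClasses ↥K // (∀ k : ↥K, ConjClasses.mk k = c → IsConj k k⁻¹) ∧
    ∀ k : ↥K, ConjClasses.mk k = c → ∀ x ∈ P, ∀ k' : ↥K, (k' : G) = x * (k : G) * x⁻¹ → ConjClasses.mk k' = c}
  have hfix : ∀ c : R, ∃ d : C, ConjClasses.mk (ι d) = c.1 := by
    intro c
    let X := {k : ↥K // ConjClasses.mk k = c.1}
    letI : MulAction P X :=
      { smul := fun s k => ⟨φ s k.1, c.2.2 k.1 k.2 s s.2 _ rfl⟩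
        one_smul := fun k => Subtype.ext (by show φ 1 k.1 = k.1; simp)
        mul_smul := fun s t k => Subtype.ext (by show φ (s * t) k.1 = φ s (φ t k.1); simp) }
    have hX : ¬ p ∣ Nat.card X := by
      obtain ⟨a, ha⟩ := ConjClasses.exists_rep c.1
      simp only [X, ← ha]
      rw [Nat.card_eq_fintype_card, Fintype.card_subtype, card_fiber]
      exact fun h => hK (h.trans (Subgroup.index_dvd_card _))
    obtain ⟨k, hk⟩ := hP.nonempty_fixed_point_of_prime_not_dvd_card X hX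
    obtain ⟨d, hd⟩ := (hS.fixed_iff k.1).1 fun s => congrArg Subtype.val (hk s)
    exact ⟨d, by rw [hd]; exact k.2⟩
  have hRreal : ∀ q : {c : ConjClasses C // ∀ k : C, ConjClasses.mk k = c → IsConj k k⁻¹},
      ∃ c : R, ∀ d, ConjClasses.mk d = q.1 → ConjClasses.mk (ι d) = c.1 := by
    intro q
    obtain ⟨d, hd⟩ := ConjClasses.exists_rep q.1
    refine ⟨⟨ConjClasses.mk (ι d), ?_, ?_⟩, fun d' hd' => ?_⟩
    · intro k hk
      have h1 : IsConj k (ι d) := ConjClasses.mk_eq_mk_iff_isConj.1 hk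
      have h2 : IsConj (ι d) (ι d)⁻¹ := by rw [← map_inv]; exact ι.map_isConj (q.2 d hd)
      obtain ⟨x, hx⟩ := isConj_iff.1 h1
      have h3 : IsConj (ι d)⁻¹ k⁻¹ := (isConj_iff.2 ⟨x, by rw [← hx]; group⟩ : IsConj k⁻¹ (ι d)⁻¹).symm
      exact h1.trans (h2.trans h3)
    · intro k hk x hx k' hk'
      have e : k' = φ ⟨x, hx⟩ k := Subtype.ext hk'
      rw [e, ← hS.apply_eq ⟨x, hx⟩ d, ConjClasses.mk_eq_mk_iff_isConj]
      exact (φ ⟨x, hx⟩).toMonoidHom.map_isConj (ConjClasses.mk_eq_mk_iff_isConj.1 hk)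
    · exact ConjClasses.mk_eq_mk_iff_isConj.2 (ι.map_isConj (ConjClasses.mk_eq_mk_iff_isConj.1 (hd'.trans hd.symm)))
  choose F hF using hRreal
  have hFbij : Function.Bijective F := by
    constructor
    · intro q q' h
      obtain ⟨d, hd⟩ := ConjClasses.exists_rep q.1
      obtain ⟨d', hd'⟩ := ConjClasses.exists_rep q'.1
      refine Subtype.ext ?_
      rw [← hd, ← hd', ConjClasses.mk_eq_mk_iff_isConj, ← hS.isConj_iff_map,
        ← ConjClasses.mk_eq_mk_iff_isConj, hF q d hd, hF q' d' hd', h]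
    · intro c
      obtain ⟨d, hd⟩ := hfix c
      refine ⟨⟨ConjClasses.mk d, fun k hk => ?_⟩, Subtype.ext ?_⟩
      · have h1 := hS.isConj_iff_map (c := k) (d := k⁻¹)
        rw [map_inv] at h1
        refine h1.1 (c.2.1 (ι k) ?_)
        rw [← hd, ConjClasses.mk_eq_mk_iff_isConj]
        exact ι.map_isConj (ConjClasses.mk_eq_mk_iff_isConj.1 hk)
      · exact (hF _ d rfl).symm.trans hd
  have hmain : Nat.card T = Nat.card R :=
    (Nat.card_congr (Equiv.ofBijective _ hbij)).trans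
      ((card_real (C := C)).trans (Nat.card_congr (Equiv.ofBijective F hFbij)))
  refine ⟨hmain, fun hall k hk => ?_⟩
  have hTall : Nat.card T = Nat.card {θ : IrrCharacter ↥K // ∀ k : ↥K, ((θ : ↥K → ℂ) k).im = 0} :=
    Nat.card_congr (Equiv.subtypeEquivRight fun θ => ⟨fun h => h.1, fun h => ⟨h, hall θ h⟩⟩)
  let emb : R → {c : ConjClasses ↥K // ∀ k : ↥K, ConjClasses.mk k = c → IsConj k k⁻¹} :=
    fun c => ⟨c.1, c.2.1⟩
  have hemb : Function.Bijective emb := by
    rw [Nat.bijective_iff_injective_and_card]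
    exact ⟨fun a b h => Subtype.ext (congrArg Subtype.val h :), by rw [← hmain, hTall, card_real]⟩
  obtain ⟨c, hc⟩ := hemb.2 ⟨ConjClasses.mk k, fun k' hk' => by
    have h1 : IsConj k' k := ConjClasses.mk_eq_mk_iff_isConj.1 hk'
    obtain ⟨x, hx⟩ := isConj_iff.1 h1
    exact h1.trans (hk.trans (isConj_iff.2 ⟨x, by rw [← hx]; group⟩ : IsConj k'⁻¹ k⁻¹).symm)⟩
  obtain ⟨d, hd⟩ := hfix c
  have hc' : c.1 = ConjClasses.mk k := congrArg Subtype.val hc
  refine ⟨ι d, ConjClasses.mk_eq_mk_iff_isConj.1 (hd.trans hc').symm, fun x hx => ?_⟩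
  exact congrArg Subtype.val (hS.apply_eq ⟨x, hx⟩ d)

end Cfsg.Agent.S4911
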