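import Cfsg.Statements.S4912
import Cfsg.Agent.Lib.Jordan.IndicatorInertia
import Cfsg.Agent.Lib.Clifford.Extension
import Cfsg.Agent.Lib.Correspondences.CharKer
import Mathlib.LinearAlgebra.LinearIndependent.Basic

set_option autoImplicit false
set_option linter.style.haveILetI false
open Cfsg CfsgLib.CharTheory CfsgLib.Clifford
open scoped ComplexConjugate

namespace Cfsg.Agent.S4912

/-- At most `[G : I]` linear characters are trivial on `I`. -/
theorem card_hom_trivial_le {G : Type*} [Group G] [Finite G] (I : Subgroup G) :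
    Nat.card {ν : G →* ℂˣ // ∀ i ∈ I, ν i = 1} ≤ I.index := by
  classical
  haveI := Fintype.ofFinite (G ⧸ I)
  let f : {ν : G →* ℂˣ // ∀ i ∈ I, ν i = 1} → (G ⧸ I → ℂ) := fun ν q => (ν.1 q.out : ℂ)
  have hli : LinearIndependent ℂ f := by
    refine LinearIndependent.of_comp (LinearMap.funLeft ℂ ℂ (QuotientGroup.mk : G → G ⧸ I)) ?_
    have he : (LinearMap.funLeft ℂ ℂ (QuotientGroup.mk : G → G ⧸ I)) ∘ f =
        (fun h : G →* ℂ => (h : G → ℂ)) ∘
          (fun ν : {ν : G →* ℂˣ // ∀ i ∈ I, ν i = 1} => (Units.coeHom ℂ).comp ν.1) := by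
      funext ν g
      obtain ⟨i, hi⟩ := QuotientGroup.mk_out_eq_mul I g
      show ((ν.1 (g : G ⧸ I).out : ℂˣ) : ℂ) = (ν.1 g : ℂ)
      rw [hi, map_mul, ν.2 i i.2, mul_one]
    rw [he]
    refine (linearIndependent_monoidHom G ℂ).comp _ fun a b h => Subtype.ext (MonoidHom.ext fun g => ?_)
    exact Units.ext (DFunLike.congr_fun h g)
  haveI := Fintype.ofFinite {ν : G →* ℂˣ // ∀ i ∈ I, ν i = 1}
  have := hli.fintype_card_le_finrank
  rwa [Module.finrank_fintype_fun_eq_card, ← Nat.card_eq_fintype_card, ← Nat.card_eq_fintype_card,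
    ← Subgroup.index_eq_card] at this

theorem extendByZero_smul_linear {G : Type*} [Group G] (T : Subgroup G) (ψ : T → ℂ) (l : G →* ℂˣ) (g : G) :
    extendByZero T (fun t => (l t : ℂ) * ψ t) g = (l g : ℂ) * extendByZero T ψ g := by
  by_cases h : g ∈ T
  · rw [CfsgLib.Frobenius.extendByZero_of_mem T _ h, CfsgLib.Frobenius.extendByZero_of_mem T _ h]
  · rw [CfsgLib.Frobenius.extendByZero_of_not_mem T _ h, CfsgLib.Frobenius.extendByZero_of_not_mem T _ h, mul_zero]

/-- The projection formula for a linear character. -/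
theorem indFun_linear_mul {G : Type*} [Group G] [Fintype G] (T : Subgroup G) (ψ : T → ℂ) (l : G →* ℂˣ) :
    indFun T (fun t => (l t : ℂ) * ψ t) = fun g => (l g : ℂ) * indFun T ψ g := by
  funext g
  have hx : ∀ x : G, l (x⁻¹ * g * x) = l g := fun x => by
    rw [map_mul, map_mul, map_inv, mul_comm (l x)⁻¹, inv_mul_cancel_right]
  simp only [indFun, extendByZero_smul_linear, hx, ← Finset.mul_sum]
  ring

/-- Let G be a finite group with a non-abelian minimal normal subgroup N, and let φ be an irreducible complex character of N with stabilizer I in G such that φ extends to an irreducible character of I with Frobenius–Schur indicator +1. Put d = φ(1)·[G : I]. Then the number of linear characters of G with Frobenius–Schur indicator +1 is at most [G : I] times the number of irreducible characters of G of degree d with Frobenius–Schur indicator +1. -/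
theorem result {G : Type*} [Group G] [Finite G] (N : Subgroup G) (hN : N.Normal) (hN1 : N ≠ ⊥) (hmin : ∀ M : Subgroup G, M.Normal → M ≤ N → M = ⊥ ∨ M = N) (hna : ¬ IsMulCommutative ↥N) (φ : Cfsg.IrrCharacter ↥N) (I : Subgroup G) (hI : ∀ g : G, g ∈ I ↔ ∀ n n' : ↥N, (n' : G) = g * (n : G) * g⁻¹ → (φ : ↥N → ℂ) n' = (φ : ↥N → ℂ) n) (hNI : N ≤ I) (hext : ∃ ψ : Cfsg.IrrCharacter ↥I, (Nat.card ↥I : ℂ)⁻¹ * ∑ᶠ g : ↥I, (ψ : ↥I → ℂ) (g * g) = 1 ∧ ∀ n : ↥N, (ψ : ↥I → ℂ) (Subgroup.inclusion hNI n) = (φ : ↥N → ℂ) n) : Nat.card {χ : Cfsg.IrrCharacter G // Cfsg.charDegree (χ : G → ℂ) = 1 ∧ (Nat.card G : ℂ)⁻¹ * ∑ᶠ g : G, (χ : G → ℂ) (g * g) = 1} ≤ I.index * Nat.card {χ : Cfsg.IrrCharacter G // Cfsg.charDegree (χ : G → ℂ) = Cfsg.charDegree (φ : ↥N → ℂ) * I.index ∧ (Nat.card G : ℂ)⁻¹ * ∑ᶠ g : G, (χ : G → ℂ) (g * g) = 1} := by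
  classical
  haveI := hN
  haveI := Fintype.ofFinite G
  haveI := Fintype.ofFinite ↥N
  haveI := Fintype.ofFinite ↥I
  obtain ⟨ψ, hν, hψN⟩ := hext
  have hcomm : ∀ l : G →* ℂˣ, ∀ n ∈ N, l n = 1 := by
    intro l n hn
    have hle : ⁅N, N⁆ = N := (hmin _ inferInstance (Subgroup.commutator_le_left N N)).resolve_left
      fun h => hna ⟨⟨fun a b => Subtype.ext (Subgroup.mem_centralizer_iff.1
        (Subgroup.commutator_eq_bot_iff_le_centralizer.1 h b.2) a a.2)⟩⟩
    have : ⁅N, N⁆ ≤ l.ker := by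
      rw [Subgroup.commutator_le]
      intro a _ b _
      rw [MonoidHom.mem_ker, map_commutatorElement, commutatorElement_eq_one_iff_mul_comm]
      exact mul_comm _ _
    exact this (hle.symm ▸ hn)
  have hT : ∀ g : G, g ∈ I ↔ conjChar N (φ : ↥N → ℂ) g = (φ : ↥N → ℂ) := by
    intro g
    rw [hI g]
    refine ⟨fun h => funext fun n => h n _ rfl, fun h n n' hn' => ?_⟩
    rw [← congrFun h n]
    exact congrArg _ (Subtype.ext hn')
  have hν' : CfsgLib.RealChar.fsIndicator (ψ : ↥I → ℂ) = 1 := by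
    rw [CfsgLib.RealChar.fsIndicator, ← finsum_eq_sum_of_fintype]
    exact hν
  have hψN' : ∀ n : ↥N, (ψ : ↥I → ℂ) ⟨(n : G), hNI n.2⟩ = (φ : ↥N → ℂ) n := hψN
  have hone : classInner (fun n : ↥N => (ψ : ↥I → ℂ) ⟨(n : G), hNI n.2⟩) (φ : ↥N → ℂ) = 1 := by
    rw [show (fun n : ↥N => (ψ : ↥I → ℂ) ⟨(n : G), hNI n.2⟩) = (φ : ↥N → ℂ) from funext hψN']
    exact classInner_self_of_isIrr φ.2
  have hirr := (isIrrCharacter_indFun_inertia φ.2 hT hNI ψ.2 (hone ▸ one_ne_zero)).1
  have hνind : CfsgLib.RealChar.fsIndicator (indFun I (ψ : ↥I → ℂ)) = 1 := by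
    rw [CfsgLib.Jordan.fsIndicator_indFun_inertia φ.2 hT hNI ψ.2 hψN' (hν'.symm ▸ one_ne_zero), hν']
  -- linear characters fixing the induced character are trivial on `I`
  have htriv : ∀ l : G →* ℂˣ, (fun g => (l g : ℂ) * indFun I (ψ : ↥I → ℂ) g) = indFun I (ψ : ↥I → ℂ) →
      ∀ i ∈ I, l i = 1 := by
    intro l hl i hi
    have hirr' : IsIrrCharacter ↥I (fun t : ↥I => (l t : ℂ) * (ψ : ↥I → ℂ) t) :=
      isIrrCharacter_linFun_mul (l.comp I.subtype) ψ.2
    have heq : (fun t : ↥I => (l t : ℂ) * (ψ : ↥I → ℂ) t) = (ψ : ↥I → ℂ) := by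
      refine indFun_inertia_injective φ.2 hT hNI hirr' ψ.2 ?_ (hone ▸ one_ne_zero) ?_
      · rw [show (fun n : ↥N => (l n : ℂ) * (ψ : ↥I → ℂ) ⟨(n : G), hNI n.2⟩)
            = fun n : ↥N => (ψ : ↥I → ℂ) ⟨(n : G), hNI n.2⟩ from funext fun n => by
          rw [hcomm l n n.2, Units.val_one, one_mul]]
        exact hone ▸ one_ne_zero
      · rw [indFun_linear_mul]
        exact hl
    haveI : (N.subgroupOf I).Normal := inferInstance
    haveI := Fintype.ofFinite (N.subgroupOf I)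
    have hres : IsIrrCharacter ↥(N.subgroupOf I) (fun n : N.subgroupOf I => (ψ : ↥I → ℂ) n) := by
      have := isIrrCharacter_comp_mulEquiv φ.2 (Subgroup.subgroupOfEquivOfLe hNI)
      convert this using 1
      funext n
      rw [← hψN']
      rfl
    have havg := congrFun (cosetAvg_mul_conj_self (N := N.subgroupOf I) ψ.2 hres) ⟨i, hi⟩
    by_contra hne
    have hvan : ∀ t : ↥I, (l t : ℂ) ≠ 1 → (ψ : ↥I → ℂ) t = 0 := fun t ht => by
      have := congrFun heq t
      by_contra h0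
      exact ht (mul_right_cancel₀ h0 (this.trans (one_mul _).symm))
    refine zero_ne_one (Eq.trans ?_ havg)
    simp only [cosetAvg, Pi.mul_apply]
    rw [Finset.sum_eq_zero, mul_zero]
    intro n _
    have hl1 : (l (n : ↥I) : ℂˣ) = 1 := hcomm l _ n.2
    rw [hvan _ (fun h => hne ?_), zero_mul]
    have h' := Units.ext (h.trans Units.val_one.symm)
    simpa [hl1] using h'
  let A := {χ : Cfsg.IrrCharacter G // Cfsg.charDegree (χ : G → ℂ) = 1 ∧ (Nat.card G : ℂ)⁻¹ * ∑ᶠ g : G, (χ : G → ℂ) (g * g) = 1}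
  let B := {χ : Cfsg.IrrCharacter G // Cfsg.charDegree (χ : G → ℂ) = Cfsg.charDegree (φ : ↥N → ℂ) * I.index ∧ (Nat.card G : ℂ)⁻¹ * ∑ᶠ g : G, (χ : G → ℂ) (g * g) = 1}
  haveI : Fintype A := Fintype.ofFinite A
  haveI : Fintype B := Fintype.ofFinite B
  have hlin : ∀ a : A, ∃ l : G →* ℂˣ, (a.1 : G → ℂ) = fun g => (l g : ℂ) := fun a =>
    exists_hom_of_degree_one a.1.2 (by
      rw [← CfsgLib.Correspondences.charDegree_cast (IsIrrCharacter.isCharacter a.1.2), a.2.1, Nat.cast_one])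
  choose L hL using hlin
  have hsq : ∀ (a : A) (g : G), (L a (g * g) : ℂ) = 1 := by
    intro a g
    have h1 := a.2.2
    rw [finsum_eq_sum_of_fintype] at h1
    have h2 : CfsgLib.RealChar.fsIndicator (a.1 : G → ℂ) ≠ 0 := by
      rw [CfsgLib.RealChar.fsIndicator, h1]; exact one_ne_zero
    have h3 := (CfsgLib.Correspondences.fsIndicator_irr_ne_zero_iff a.1.2).1 h2 g
    simp only [hL] at h3
    have hc : conj (L a g : ℂ) = (L a g : ℂ) := Complex.conj_eq_iff_im.2 h3
    have hn : ‖(L a g : ℂ)‖ = 1 := norm_eq_one_of_pow_eq_one' (Nat.card_pos (α := G)).ne' (by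
      rw [← Units.val_pow_eq_pow_val, ← map_pow, pow_card_eq_one', map_one, Units.val_one])
    rw [map_mul, Units.val_mul]
    nth_rw 1 [← hc]
    rw [Complex.conj_mul', hn]
    norm_num
  let F : A → B := fun a => ⟨⟨fun g => (L a g : ℂ) * indFun I (ψ : ↥I → ℂ) g,
    isIrrCharacter_linFun_mul (L a) hirr⟩, by
      refine ⟨?_, ?_⟩
      · apply Nat.cast_injective (R := ℂ)
        refine (CfsgLib.Correspondences.charDegree_cast
          (IsIrrCharacter.isCharacter (isIrrCharacter_linFun_mul (L a) hirr))).trans ?_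
        show (L a 1 : ℂ) * indFun I (ψ : ↥I → ℂ) 1 = _
        rw [map_one, Units.val_one, one_mul, CfsgLib.Frobenius.indFun_one, Nat.cast_mul,
          CfsgLib.Correspondences.charDegree_cast (IsIrrCharacter.isCharacter φ.2), mul_comm, ← hψN']
        rfl
      · rw [finsum_eq_sum_of_fintype]
        simp only [hsq a, one_mul]
        exact hνind⟩
  show Nat.card A ≤ I.index * Nat.card B
  rw [@Nat.card_eq_fintype_card A, @Nat.card_eq_fintype_card B, ← Finset.card_univ (α := A),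
    ← Finset.card_univ (α := B)]
  refine Finset.card_le_mul_card_image_of_maps_to (f := F) (fun a _ => Finset.mem_univ _) I.index
    fun b _ => ?_
  rcases (Finset.univ.filter fun a => F a = b).eq_empty_or_nonempty with h | ⟨a₀, ha₀⟩
  · rw [h]; exact Nat.zero_le _
  refine le_trans ?_ (card_hom_trivial_le I)
  rw [← Fintype.card_coe, ← Nat.card_eq_fintype_card]
  haveI : Finite {ν : G →* ℂˣ // ∀ i ∈ I, ν i = 1} := inferInstance
  have hfib : ∀ a : {a // a ∈ Finset.univ.filter fun a => F a = b}, ∀ i ∈ I,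
      (L a.1 * (L a₀)⁻¹) i = 1 := by
    intro a
    refine htriv _ (funext fun g => ?_)
    have he : (F a.1).1.1 g = (F a₀).1.1 g := by
      rw [(Finset.mem_filter.1 a.2).2, (Finset.mem_filter.1 ha₀).2]
    change (L a.1 g : ℂ) * indFun I (ψ : ↥I → ℂ) g = (L a₀ g : ℂ) * indFun I (ψ : ↥I → ℂ) g at he
    rw [MonoidHom.mul_apply, MonoidHom.inv_apply, Units.val_mul, mul_right_comm, he,
      mul_right_comm, Units.mul_inv, one_mul]
  refine Nat.card_le_card_of_injective (fun a => ⟨L a.1 * (L a₀)⁻¹, hfib a⟩) fun a a' h => ?_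
  have h' : L a.1 = L a'.1 := mul_right_cancel (congrArg Subtype.val h)
  exact Subtype.ext (Subtype.ext (Subtype.ext (by rw [hL, hL, h'])))

end Cfsg.Agent.S4912
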