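import Cfsg.Statements.S4914
import Cfsg.Agent.Lib.Jordan.RelCorrespondence

set_option autoImplicit false
set_option linter.style.haveILetI false
open Cfsg CfsgLib.CharDegreesTheory CfsgLib.Jordan

namespace Cfsg.Agent.S4914

/-- Let P and K be subgroups of a finite group G with P a p-group normalizing K, and suppose K has a normal Sylow p-subgroup Q. Let C be the subgroup of those k ∈ K whose commutator with every element of P lies in Q (so that C/Q is the fixed-point subgroup of P on K/Q). Then there is a bijection f from the P-invariant irreducible complex characters of K onto the P-invariant irreducible complex characters of C such that, for every P-invariant irreducible character χ of K, the multiplicity of f(χ) in the restriction of χ to C is a natural number congruent to 1 or to −1 modulo p, every other P-invariant irreducible character of C occurs in that restriction with multiplicity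 divisible by p, and the degrees of χ and f(χ) are congruent modulo p up to sign. -/
theorem result {G : Type*} [Group G] [Finite G] (p : ℕ) [Fact p.Prime] (P K Q C : Subgroup G) (hP : IsPGroup p ↥P) (hPK : P ≤ Subgroup.normalizer (K : Set G)) (hQK : Q ≤ K) (hQn : ∀ k ∈ K, ∀ q ∈ Q, k * q * k⁻¹ ∈ Q) (hQp : ∃ a : ℕ, Nat.card ↥Q = p ^ a) (hQsyl : ¬ p ∣ Q.relIndex K) (hCK : C ≤ K) (hC : ∀ k : G, k ∈ C ↔ (k ∈ K ∧ ∀ x ∈ P, x * k * x⁻¹ * k⁻¹ ∈ Q)) : ∃ f : {χ : Cfsg.IrrCharacter ↥K // (∀ x ∈ P, ∀ k k' : ↥K, (k' : G) = x * (k : G) * x⁻¹ → (χ : ↥K → ℂ) k' = (χ : ↥K → ℂ) k)} → {ξ : Cfsg.IrrCharacter ↥C // (∀ x ∈ P, ∀ k k' : ↥C, (k' : G) = x * (k : G) * x⁻¹ → (ξ : ↥C → ℂ) k' = (ξ : ↥C → ℂ) k)}, Function.Bijective f ∧ ∀ χ, (∀ ξ : {ξ : Cfsg.IrrCharacter ↥C // (∀ x ∈ P, ∀ k k' : ↥C, (k' : G) = x * (k : G) * x⁻¹ → (ξ : ↥C → ℂ) k' = (ξ : ↥C → ℂ) k)}, ∃ m : ℕ, (Nat.card ↥C : ℂ)⁻¹ * ∑ᶠ c : ↥C, (χ.1 : ↥K → ℂ)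 (Subgroup.inclusion hCK c) * (starRingEnd ℂ) ((ξ.1 : ↥C → ℂ) c) = (m : ℂ) ∧ (ξ = f χ → ((m : ZMod p) = 1 ∨ (m : ZMod p) = -1)) ∧ (ξ ≠ f χ → p ∣ m)) ∧ ((Cfsg.charDegree ((f χ).1 : ↥C → ℂ) : ZMod p) = (Cfsg.charDegree (χ.1 : ↥K → ℂ) : ZMod p) ∨ (Cfsg.charDegree ((f χ).1 : ↥C → ℂ) : ZMod p) = -(Cfsg.charDegree (χ.1 : ↥K → ℂ) : ZMod p)) := by
  classical
  set QK : Subgroup ↥K := Q.subgroupOf K with hQKdef
  haveI : QK.Normal := ⟨fun q hq k => by
    rw [hQKdef, Subgroup.mem_subgroupOf] at hq ⊢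
    simpa using hQn (k : G) k.2 (q : G) hq⟩
  have hnorm : ∀ s ∈ P, ∀ g ∈ K, s * g * s⁻¹ ∈ K := fun s hs g hg =>
    ((Subgroup.mem_normalizer_iff.1 (hPK hs)) g).1 hg
  let φ := conjRes K P hnorm
  let ι := Subgroup.inclusion hCK
  obtain ⟨a, ha⟩ := hQp
  have hQp' : IsPGroup p ↥Q := IsPGroup.of_card ha
  -- `P` normalizes the normal Sylow subgroup
  have hstable : ∀ s : P, ∀ q ∈ QK, φ s q ∈ QK := by
    intro s q hq
    rw [hQKdef, Subgroup.mem_subgroupOf] at hq ⊢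
    by_contra hout
    -- a `p`-element of `K` lies in the normal subgroup of index prime to `p`
    set y : ↥K := φ s q
    obtain ⟨k, hk⟩ := hQp' ⟨(q : G), hq⟩
    have hk' : q ^ p ^ k = 1 := Subtype.ext (by
      have := congrArg Subtype.val hk
      simpa using this)
    have hy : ((y : ↥K) : ↥K ⧸ QK) ^ p ^ k = 1 := by
      rw [← QuotientGroup.mk_pow, show y ^ p ^ k = 1 by rw [← map_pow, hk', map_one], QuotientGroup.mk_one]
    have hidx : ¬ p ∣ Nat.card (↥K ⧸ QK) := by rwa [← Subgroup.index_eq_card]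
    have h1 : (y : ↥K ⧸ QK) = 1 := by
      rw [← orderOf_eq_one_iff]
      refine Nat.eq_one_of_dvd_coprimes ?_ (orderOf_dvd_of_pow_eq_one hy) (orderOf_dvd_natCard _)
      exact Nat.Coprime.pow_left k (((Fact.out : p.Prime).coprime_iff_not_dvd).2 hidx)
    exact hout ((QuotientGroup.eq_one_iff y).1 h1)
  have hset : RelSetup φ ι QK p := by
    refine ⟨hP, hQp'.comap_subtype, hQsyl, hstable, Subgroup.inclusion_injective hCK, fun k => ?_⟩
    constructor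
    · intro hk
      exact ⟨⟨k, (hC k).2 ⟨k.2, fun x hx => Subgroup.mem_subgroupOf.1 (hk ⟨x, hx⟩)⟩⟩,
        Subtype.ext rfl⟩
    · rintro ⟨c, rfl⟩ s
      exact Subgroup.mem_subgroupOf.2 (((hC c).1 c.2).2 s s.2)
  haveI := Fintype.ofFinite ↥C
  have hinvK : ∀ θ : ↥K → ℂ, CfsgLib.CharDegreesTheory.IsInvariant φ θ ↔
      ∀ x ∈ P, ∀ k k' : ↥K, (k' : G) = x * (k : G) * x⁻¹ → θ k' = θ k :=
    fun θ => isInvariant_conjRes_iff K P hnorm θ
  have hact : ∀ (s : P) (c : C), ((hset.actC s c : C) : G) = (s : G) * (c : G) * (s : G)⁻¹ := fun s c =>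
    congrArg Subtype.val (hset.map_actC s c)
  have hinvC : ∀ θ : ↥C → ℂ, CfsgLib.CharDegreesTheory.IsInvariant hset.actC θ ↔
      ∀ x ∈ P, ∀ k k' : ↥C, (k' : G) = x * (k : G) * x⁻¹ → θ k' = θ k := by
    intro θ
    refine ⟨fun h x hx k k' hk => ?_, fun h s c => h s s.2 c _ (hact s c)⟩
    rw [← h ⟨x, hx⟩ k]
    exact congrArg θ (Subtype.ext (hk.trans (hact ⟨x, hx⟩ k).symm))
  choose β hβinv hβ using fun χ : {χ : Cfsg.IrrCharacter ↥K // (∀ x ∈ P, ∀ k k' : ↥K, (k' : G) = x * (k : G) * x⁻¹ → (χ : ↥K → ℂ) k' = (χ : ↥K → ℂ) k)} => hset.exists_of_invariant ((hinvK _).2 χ.2)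
  refine ⟨fun χ => ⟨β χ, (hinvC _).1 (hβinv χ)⟩, ⟨fun χ χ' he => ?_, fun ξ => ?_⟩, fun χ => ⟨fun ξ => ?_, ?_⟩⟩
  · have he' : β χ = β χ' := congrArg Subtype.val he
    exact Subtype.ext (hset.injective ((hinvK _).2 χ.2) ((hinvK _).2 χ'.2) (hβinv χ') (he' ▸ hβ χ) (hβ χ'))
  · obtain ⟨χ, hχ, hm⟩ := hset.surjective ((hinvC _).2 ξ.2)
    refine ⟨⟨χ, (hinvK _).1 hχ⟩, Subtype.ext ?_⟩
    exact hset.unique hχ (hβinv ⟨χ, (hinvK _).1 hχ⟩) ((hinvC _).2 ξ.2) (hβ ⟨χ, (hinvK _).1 hχ⟩) hm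
  · refine ⟨mult ι (χ.1 : ↥K → ℂ) (ξ.1 : ↥C → ℂ), ?_, fun he => ?_, fun hne => ?_⟩
    · rw [← classInner_eq_mult ι (CfsgLib.CharTheory.IsIrrCharacter.isCharacter χ.1.2) ξ.1,
        finsum_eq_sum_of_fintype]
      rfl
    · subst he
      exact (hset.mult_degree ((hinvK _).2 χ.2) (hβinv χ) (hβ χ)).1
    · by_contra hd
      exact hne (Subtype.ext (hset.unique ((hinvK _).2 χ.2) ((hinvC _).2 ξ.2) (hβinv χ) hd (hβ χ)))
  · obtain ⟨h1, h2⟩ := hset.mult_degree ((hinvK _).2 χ.2) (hβinv χ) (hβ χ)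
    rcases h1 with h1 | h1 <;> rw [h1] at h2
    · left
      rw [one_mul] at h2
      exact h2
    · right
      show (charDegree (β χ : ↥C → ℂ) : ZMod p) = -(charDegree (χ.1 : ↥K → ℂ) : ZMod p)
      rw [← h2, neg_one_mul, neg_neg]

end Cfsg.Agent.S4914
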