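import Cfsg.Statements.S4916
import Cfsg.Agent.Lib.Blocks.Idempotent
import Cfsg.Agent.Lib.CharTheory.Basic

set_option autoImplicit false
open Cfsg

namespace Cfsg.Agent.S4916

/-- Let G be a finite group, p a prime and M a maximal ideal of the algebraic integers containing p. Then the principal character is the only irreducible character of degree prime to p in the principal p-block of G if and only if p does not divide the order of G. -/
theorem result {G : Type*} [Group G] [Finite G] (p : ℕ) [Fact p.Prime] (M : Ideal Cfsg.AlgInt) (hM : Cfsg.IsPModular p M) : (∀ χ : Cfsg.IrrCharacter G, χ ∈ Cfsg.principalBlock M G → ¬ p ∣ Cfsg.charDegree (χ : G → ℂ) → (χ : G → ℂ) = fun _ => (1 : ℂ)) ↔ ¬ p ∣ Nat.card G := by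
  classical
  haveI := Fintype.ofFinite G
  haveI := Fintype.ofFinite (Cfsg.IrrCharacter G)
  haveI : M.IsPrime := CfsgLib.Blocks.isPrime_of_isPModular hM
  let one : Cfsg.IrrCharacter G := CfsgLib.CharTheory.trivIrr G
  have h1B : Cfsg.IsPBlock M (Cfsg.principalBlock M G) := CfsgLib.Blocks.isPBlock_blockOf one
  constructor
  · intro h hp
    have hcoef := CfsgLib.Blocks.memLocalRing_blockCoeff h1B (1 : G)
    rw [CfsgLib.Blocks.blockCoeff_eq_sum] at hcoef
    have hG : Cfsg.MemLocalIdeal M (Nat.card G : ℂ) :=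
      (CfsgLib.Blocks.memLocalIdeal_natCast_iff hM _).mpr hp
    have hmul := CfsgLib.Blocks.memLocalIdeal_mul_right hG hcoef
    rw [mul_inv_cancel_left₀ (by exact_mod_cast Nat.card_pos.ne')] at hmul
    have hone : one ∈ Finset.univ.filter (· ∈ Cfsg.principalBlock M G) :=
      Finset.mem_filter.mpr ⟨Finset.mem_univ _, CfsgLib.Blocks.mem_blockOf_self one⟩
    rw [← Finset.sum_filter, ← Finset.add_sum_erase _ _ hone] at hmul
    have hrest : Cfsg.MemLocalIdeal M (∑ χ ∈ (Finset.univ.filter (· ∈ Cfsg.principalBlock M G)).erase one,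
        (χ : G → ℂ) 1 * (starRingEnd ℂ) ((χ : G → ℂ) 1)) := by
      refine CfsgLib.Blocks.memLocalIdeal_sum fun χ hχ => ?_
      obtain ⟨hne, hχB⟩ := Finset.mem_erase.mp hχ
      obtain ⟨n, -, hn⟩ := CfsgLib.CharTheory.exists_degree_of_isIrr χ.2
      have hpn : p ∣ n := by
        by_contra hpn
        refine hne (Subtype.ext (h χ (Finset.mem_filter.mp hχB).2 ?_))
        simpa [Cfsg.charDegree, hn] using hpn
      rw [hn, map_natCast]
      exact CfsgLib.Blocks.memLocalIdeal_mul_right
        ((CfsgLib.Blocks.memLocalIdeal_natCast_iff hM n).mpr hpn) (CfsgLib.Blocks.memLocalRing_natCast n)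
    have hsub := CfsgLib.Blocks.memLocalIdeal_sub hmul hrest
    rw [add_sub_cancel_right] at hsub
    simp [one, CfsgLib.CharTheory.trivIrr_apply] at hsub
    exact CfsgLib.Blocks.not_memLocalIdeal_one hsub
  · intro hp χ hχ _
    by_contra hne
    have hs : Cfsg.SameBlock M (fun _ : G => (1 : ℂ)) (χ : G → ℂ) := hχ
    have hterm : ∀ g : G, Cfsg.MemLocalIdeal M (1 - (χ : G → ℂ) g / (χ : G → ℂ) 1) := by
      intro g
      have hidx : ¬ p ∣ (Subgroup.centralizer ({g} : Set G)).index := fun h =>
        hp (h.trans (Subgroup.index_dvd_card _))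
      have h2 := CfsgLib.Blocks.memLocalIdeal_mul_left
        (CfsgLib.Blocks.memLocalRing_inv_natCast hM hidx) (hs g)
      have hi : (((Subgroup.centralizer ({g} : Set G)).index : ℕ) : ℂ) ≠ 0 :=
        Nat.cast_ne_zero.mpr Subgroup.index_ne_zero_of_finite
      simpa [Cfsg.centralChar, mul_sub, mul_div_assoc, inv_mul_cancel_left₀ hi,
        inv_mul_cancel₀ hi] using h2
    have hsum := CfsgLib.Blocks.memLocalIdeal_sum (s := (Finset.univ : Finset G)) fun g _ => hterm g
    have h0 : ∑ g : G, (χ : G → ℂ) g = 0 := by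
      have h := CfsgLib.CharTheory.classInner_eq_zero_of_ne χ.2 one.2 hne
      simpa [one, CfsgLib.CharTheory.trivIrr_apply, Cfsg.classInner] using h
    rw [Finset.sum_sub_distrib, ← Finset.sum_div, h0, zero_div, sub_zero, Finset.sum_const,
      Finset.card_univ, nsmul_eq_mul, mul_one, ← Nat.card_eq_fintype_card] at hsum
    exact hp ((CfsgLib.Blocks.memLocalIdeal_natCast_iff hM _).mp hsum)

end Cfsg.Agent.S4916
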