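import Cfsg.Statements.S4923
import Cfsg.Agent.Lib.Jordan.GaloisNorm
import Cfsg.Agent.Lib.CharTheory.Orthogonality
import Cfsg.Agent.Lib.PGroups.MaximalClass
import Mathlib.FieldTheory.Galois.Basic
import Mathlib.GroupTheory.Sylow

set_option autoImplicit false
set_option linter.style.haveILetI false
open Cfsg CfsgLib.Jordan
open scoped commutatorElement

namespace Cfsg.Agent.S4923

universe u

variable {G : Type u} [Group G]

/-- Two subsets of the cyclotomic field generate the same subfield when the same automorphisms fix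
them pointwise. -/
theorem adjoin_le_of_fixed {N : ℕ} [NeZero N] {V T : Set ℂ} (hV : V ⊆ cycField N) (hT : T ⊆ cycField N)
    (h : ∀ σ : cycField N ≃ₐ[ℚ] cycField N,
      (∀ v : cycField N, (v : ℂ) ∈ V → σ v = v) → ∀ v : cycField N, (v : ℂ) ∈ T → σ v = v) :
    IntermediateField.adjoin ℚ T ≤ IntermediateField.adjoin ℚ V := by
  haveI := cycField_isCyclotomic N
  haveI : IsGalois ℚ (cycField N) := IsCyclotomicExtension.isGalois {N} ℚ (cycField N)
  haveI : FiniteDimensional ℚ (cycField N) := IsCyclotomicExtension.finite {N} ℚ (cycField N)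
  rw [IntermediateField.adjoin_le_iff]
  intro z hz
  set F := IntermediateField.adjoin ℚ {v : cycField N | (v : ℂ) ∈ V} with hF
  have hzF : (⟨z, hT hz⟩ : cycField N) ∈ F := by
    rw [← IsGalois.fixedField_fixingSubgroup F]
    rintro ⟨σ, hσ⟩
    refine h σ (fun v hv => ?_) ⟨z, hT hz⟩ hz
    exact (IntermediateField.mem_fixingSubgroup_iff F σ).1 hσ v (IntermediateField.subset_adjoin ℚ _ hv)
  have key : ((⟨z, hT hz⟩ : cycField N) : ℂ) ∈ IntermediateField.adjoin ℚ V :=
    IntermediateField.adjoin_induction ℚ (p := fun (v : cycField N) _ => (v : ℂ) ∈ IntermediateField.adjoin ℚ V)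
    (fun v hv => IntermediateField.subset_adjoin ℚ _ hv)
    (fun q => by simp)
    (fun a b _ _ ha hb => by simpa using add_mem ha hb)
    (fun a _ ha => by simpa using inv_mem ha)
    (fun a b _ _ ha hb => by simpa using mul_mem ha hb) hzF
  exact key

theorem fixed_of_adjoin_le {N : ℕ} [NeZero N] {V T : Set ℂ} (hV : V ⊆ cycField N)
    (h : IntermediateField.adjoin ℚ T ≤ IntermediateField.adjoin ℚ V)
    (σ : cycField N ≃ₐ[ℚ] cycField N) (hfix : ∀ v : cycField N, (v : ℂ) ∈ V → σ v = v)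
    (v : cycField N) (hv : (v : ℂ) ∈ T) : σ v = v := by
  set F := IntermediateField.adjoin ℚ {v : cycField N | (v : ℂ) ∈ V} with hF
  have hFσ : F ≤ IntermediateField.fixedField (Subgroup.zpowers σ) := by
    rw [hF, IntermediateField.adjoin_le_iff]
    intro w hw
    rintro ⟨τ, hτ⟩
    exact MulAction.mem_stabilizer_iff.1 (((Subgroup.zpowers_le.2
      (MulAction.mem_stabilizer_iff.2 (hfix w hw))) :
        Subgroup.zpowers σ ≤ MulAction.stabilizer (cycField N ≃ₐ[ℚ] cycField N) w) hτ)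
  have key : IntermediateField.adjoin ℚ V ≤
      (IntermediateField.fixedField (Subgroup.zpowers σ)).map (cycField N).val := by
    rw [IntermediateField.adjoin_le_iff]
    exact fun z hz => ⟨⟨z, hV hz⟩, hFσ (IntermediateField.subset_adjoin ℚ _ hz), rfl⟩
  obtain ⟨w, hw, hwv⟩ := key (h (IntermediateField.subset_adjoin ℚ _ hv))
  have e : w = v := Subtype.ext hwv
  subst e
  exact hw ⟨σ, Subgroup.mem_zpowers σ⟩

/-- The field of values at `g` is `ℚ(ζ + eζ⁻¹)` exactly when the powers prime to `N` conjugate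
to `g` are those whose automorphism fixes `ζ + eζ⁻¹`. -/
theorem field_eq_iff [Finite G] {N : ℕ} [NeZero N] {ζ : ℂ} (hζ : IsPrimitiveRoot ζ N) {g : G}
    (hg : g ^ N = 1) (e : ℚ) :
    IntermediateField.adjoin ℚ {z : ℂ | ∃ χ : Cfsg.IrrCharacter G, (χ : G → ℂ) g = z}
        = IntermediateField.adjoin ℚ ({ζ + (e : ℂ) * ζ⁻¹} : Set ℂ) ↔
      ∀ t : ℕ, t.Coprime N →
        (IsConj (g ^ t) g ↔ ζ ^ t + (e : ℂ) * (ζ ^ t)⁻¹ = ζ + (e : ℂ) * ζ⁻¹) := by
  set V := {z : ℂ | ∃ χ : Cfsg.IrrCharacter G, (χ : G → ℂ) g = z} with hVdef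
  set w := ζ + (e : ℂ) * ζ⁻¹ with hwdef
  have hζK : ζ ∈ cycField N := mem_cycField_of_pow_eq_one hζ.pow_eq_one
  let ζK : cycField N := ⟨ζ, hζK⟩
  let wK : cycField N := ζK + algebraMap ℚ (cycField N) e * ζK⁻¹
  have hwK : (wK : ℂ) = w := by simp [wK, ζK, hwdef]
  have hV : V ⊆ cycField N := by
    rintro _ ⟨χ, rfl⟩
    exact mem_cycField (CfsgLib.CharTheory.IsIrrCharacter.isCharacter χ.2) hg
  have hT : ({w} : Set ℂ) ⊆ cycField N := by
    rintro _ rfl
    exact hwK ▸ wK.2
  have hsigma : ∀ σ : cycField N ≃ₐ[ℚ] cycField N, ∃ t : ℕ, t.Coprime N ∧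
      ((∀ v : cycField N, (v : ℂ) ∈ V → σ v = v) ↔ IsConj (g ^ t) g) ∧
      ((∀ v : cycField N, (v : ℂ) ∈ ({w} : Set ℂ) → σ v = v) ↔
        ζ ^ t + (e : ℂ) * (ζ ^ t)⁻¹ = w) ∧ (σ ζK : ℂ) = ζ ^ t := by
    intro σ
    obtain ⟨t, htc, ht⟩ := exists_galois_pow N σ
    have hζt : (σ ζK : ℂ) = ζ ^ t := ht ζK hζ.pow_eq_one
    have hσw : (σ wK : ℂ) = ζ ^ t + (e : ℂ) * (ζ ^ t)⁻¹ := by
      simp [wK, map_add, map_mul, map_inv₀, hζt]
    have hval : ∀ (χ : Cfsg.IrrCharacter G) (v : cycField N), (v : ℂ) = (χ : G → ℂ) g →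
        (σ v : ℂ) = (χ : G → ℂ) (g ^ t) := by
      intro χ v hv
      obtain ⟨d, l, hl, hpow⟩ :=
        exists_roots_of_isCharacter (CfsgLib.CharTheory.IsIrrCharacter.isCharacter χ.2) hg
      let L : Fin d → cycField N := fun i => ⟨l i, mem_cycField_of_pow_eq_one (hl i)⟩
      have hvL : v = ∑ i, L i := Subtype.ext (by
        rw [hv]
        nth_rw 1 [← pow_one g]
        rw [hpow, AddSubmonoidClass.coe_finsetSum]
        simp [L])
      rw [hpow, hvL, map_sum, AddSubmonoidClass.coe_finsetSum]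
      exact Finset.sum_congr rfl fun i _ => ht (L i) (hl i)
    refine ⟨t, htc, ⟨fun h => CfsgLib.CharTheory.isConj_of_forall_irr fun χ => ?_, fun h v hv => ?_⟩,
      ⟨fun h => ?_, fun h v hv => ?_⟩, hζt⟩
    · rw [← hval χ ⟨_, hV ⟨χ, rfl⟩⟩ rfl, h ⟨_, hV ⟨χ, rfl⟩⟩ ⟨χ, rfl⟩]
    · obtain ⟨χ, hχ⟩ := hv
      exact Subtype.ext (by rw [hval χ v hχ.symm, CfsgLib.CharTheory.irr_apply_eq_of_isConj h χ, hχ])
    · rw [← hσw, h wK hwK, hwK]
    · have : v = wK := Subtype.ext (hv.trans hwK.symm)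
      subst this
      exact Subtype.ext (by rw [hσw, h, hwK])
  constructor
  · intro hF t htc
    obtain ⟨σ, hσ⟩ := exists_galois_of_unit N (ZMod.unitOfCoprime t htc)
    obtain ⟨t', -, hVσ, hwσ, hζ'⟩ := hsigma σ
    have hpow : ζ ^ t' = ζ ^ t := by
      rw [← hζ', hσ ζK (Subtype.ext (by simpa [ζK] using hζ.pow_eq_one)), ZMod.coe_unitOfCoprime,
        ZMod.val_natCast]
      simpa [ζK] using (pow_eq_pow_mod (n := N) t hζ.pow_eq_one).symm
    have hmod : t' ≡ t [MOD N] := by
      rw [hζ.eq_orderOf]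
      exact (IsOfFinOrder.pow_eq_pow_iff_modEq (isOfFinOrder_iff_pow_eq_one.2
        ⟨N, NeZero.pos N, hζ.pow_eq_one⟩)).1 hpow
    have hgpow : g ^ t' = g ^ t :=
      pow_eq_pow_iff_modEq.2 (hmod.of_dvd (orderOf_dvd_of_pow_eq_one hg))
    rw [hgpow] at hVσ
    rw [hpow] at hwσ
    rw [← hVσ, ← hwσ]
    exact ⟨fun h => fixed_of_adjoin_le hV hF.ge σ h, fun h => fixed_of_adjoin_le hT hF.le σ h⟩
  · intro h
    refine le_antisymm (adjoin_le_of_fixed hT hV fun σ hσ => ?_) (adjoin_le_of_fixed hV hT fun σ hσ => ?_)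
    · obtain ⟨t, htc, hVσ, hwσ, -⟩ := hsigma σ
      exact hVσ.2 ((h t htc).2 (hwσ.1 hσ))
    · obtain ⟨t, htc, hVσ, hwσ, -⟩ := hsigma σ
      exact hwσ.2 ((h t htc).1 (hVσ.1 hσ))

/-- Powers of two elements of the same order satisfy the same relations. -/
theorem zpow_eq_iff_root {N : ℕ} {ζ : ℂ} (hζ : IsPrimitiveRoot ζ N) (hN : N ≠ 0) {g : G}
    (hg : orderOf g = N) (a b : ℤ) : g ^ a = g ^ b ↔ ζ ^ a = ζ ^ b := by
  rw [← div_eq_one, div_eq_mul_inv, ← zpow_sub, ← orderOf_dvd_iff_zpow_eq_one, hg,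
    ← hζ.zpow_eq_one_iff_dvd, zpow_sub₀ (hζ.ne_zero hN),
    div_eq_one_iff_eq (zpow_ne_zero _ (hζ.ne_zero hN))]

/-- The two solutions of the fixed-point equation of `x + e x⁻¹`. -/
theorem add_inv_eq_iff {x z : ℂ} (hx : x ≠ 0) (hz : z ≠ 0) (e : ℂ) :
    z + e * z⁻¹ = x + e * x⁻¹ ↔ z = x ∨ z = e * x⁻¹ := by
  constructor
  · intro h
    have : (z - x) * (z * x - e) = 0 := by
      field_simp at h
      linear_combination h
    rcases mul_eq_zero.1 this with h | h
    · exact Or.inl (sub_eq_zero.1 h)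
    · exact Or.inr ((eq_mul_inv_iff_mul_eq₀ hx).2 (sub_eq_zero.1 h))
  · rintro (rfl | rfl)
    · rfl
    · rcases eq_or_ne e 0 with rfl | he
      · simp at hz
      · field_simp
        ring

/-- Power of a generator of a subgroup of index two moved by an element of the group. -/
theorem exists_conj_pow [Finite G] {g y : G} {N : ℕ} [NeZero N] (ho : orderOf g = N)
    (hy : y ∈ Subgroup.normalizer ((Subgroup.zpowers g : Subgroup G) : Set G)) :
    ∃ t : ℕ, t.Coprime N ∧ y * g * y⁻¹ = g ^ t := by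
  obtain ⟨t, ht⟩ := (isOfFinOrder_of_finite g).mem_powers_iff_mem_zpowers.2
    ((Subgroup.mem_normalizer_iff.1 hy g).1 (Subgroup.mem_zpowers g))
  refine ⟨t, ?_, ht.symm⟩
  have h1 : orderOf (g ^ t) = N := by
    rw [show g ^ t = y * g * y⁻¹ from ht, ← MulAut.conj_apply, MulEquiv.orderOf_eq, ho]
  rw [orderOf_pow, ho] at h1
  exact Nat.coprime_comm.1 (Nat.Coprime.symm (Nat.coprime_comm.1
    ((Nat.div_eq_self.1 h1).resolve_left (NeZero.ne N))))

/-- Conjugation inside the normaliser of a cyclic 2-subgroup is realised inside a Sylow subgroup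
normalising it. -/
theorem exists_sylow_conj [Finite G] (P : Sylow 2 G) {g x : G} {k : ℕ} (ho : orderOf g = 2 ^ (k + 1))
    (hPN : (P : Subgroup G) ≤ Subgroup.normalizer ((Subgroup.zpowers g : Subgroup G) : Set G))
    (hx : x ∈ Subgroup.normalizer ((Subgroup.zpowers g : Subgroup G) : Set G)) :
    ∃ y ∈ (P : Subgroup G), y * g * y⁻¹ = x * g * x⁻¹ := by
  let H := Subgroup.zpowers g
  let f := H.normalizerMonoidHom
  let R := f.range
  have hR : IsPGroup 2 R := by
    refine IsPGroup.to_subgroup (IsPGroup.of_card (n := k) ?_) R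
    rw [IsCyclic.card_mulAut, Nat.card_zpowers, ho, Nat.totient_prime_pow_succ Nat.prime_two]
    norm_num
  let Q := ((P : Subgroup G).subgroupOf (Subgroup.normalizer (H : Set G))).map f.rangeRestrict
  have hQ : Q = ⊤ := by
    rw [← Subgroup.index_eq_one]
    obtain ⟨a, ha⟩ := hR.exists_card_eq
    obtain ⟨b, -, hb⟩ := (Nat.dvd_prime_pow Nat.prime_two).1 (ha ▸ Q.index_dvd_card)
    rcases Nat.eq_zero_or_pos b with rfl | hbpos
    · simpa using hb
    · exfalso
      refine P.not_dvd_index (dvd_trans ?_ (Subgroup.relIndex_dvd_index_of_le hPN))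
      refine dvd_trans (hb ▸ dvd_pow_self 2 hbpos.ne') ?_
      exact Subgroup.index_map_dvd _ f.rangeRestrict_surjective
  obtain ⟨⟨y, hy⟩, hyP, he⟩ := hQ.symm ▸ Subgroup.mem_top (f.rangeRestrict ⟨x, hx⟩)
  refine ⟨y, hyP, ?_⟩
  exact congrArg Subtype.val (MulEquiv.congr_fun (congrArg Subtype.val he) ⟨g, Subgroup.mem_zpowers g⟩)

/-- In a Sylow 2-subgroup with centre of order two, an element of order more than two has a class of
even size. -/
theorem two_dvd_index_centralizer [Finite G] (P : Sylow 2 G) {n : ℕ} (hP : Nat.card P = 2 ^ n)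
    (hZ : Nat.card (Subgroup.center (P : Subgroup G)) = 2) {g : G} {N : ℕ} (ho : orderOf g = 2 ^ N)
    (hN : 2 ≤ N) : 2 ∣ (Subgroup.centralizer ({g} : Set G)).index := by
  by_contra hodd
  let C := Subgroup.centralizer ({g} : Set G)
  let S : Sylow 2 C := default
  have hgC : g ∈ C := Subgroup.mem_centralizer_singleton_iff.2 rfl
  let g' : C := ⟨g, hgC⟩
  have hcen : g' ∈ Subgroup.center C := Subgroup.mem_center_iff.2 fun c =>
    Subtype.ext (Subgroup.mem_centralizer_singleton_iff.1 c.2)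
  haveI : (Subgroup.zpowers g').Normal := ⟨fun a ha c => by
    obtain ⟨i, rfl⟩ := Subgroup.mem_zpowers_iff.1 ha
    rw [Subgroup.mem_center_iff.1 (zpow_mem hcen i) c, mul_inv_cancel_right]
    exact zpow_mem (Subgroup.mem_zpowers _) i⟩
  have hpg : IsPGroup 2 (Subgroup.zpowers g') := by
    refine IsPGroup.of_card (n := N) ?_
    rw [Nat.card_zpowers, ← Subgroup.orderOf_coe]
    exact ho
  have hgS : g' ∈ (S : Subgroup C) := by
    have := S.3 (IsPGroup.to_sup_of_normal_left hpg S.2) le_sup_right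
    exact this ▸ Subgroup.mem_sup_left (Subgroup.mem_zpowers g')
  let Q : Subgroup G := (S : Subgroup C).map C.subtype
  have hQcard : Nat.card Q = 2 ^ (Nat.card G).factorization 2 := by
    rw [Subgroup.card_map_of_injective C.subtype_injective, S.card_eq_multiplicity,
      ← C.card_mul_index, Nat.factorization_mul Nat.card_pos.ne' (Subgroup.index_ne_zero_of_finite),
      Finsupp.coe_add, Pi.add_apply, Nat.factorization_eq_zero_of_not_dvd hodd, add_zero]
  let e : Q ≃* (P : Subgroup G) := Sylow.equiv (Sylow.ofCard Q hQcard) P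
  let q : Q := ⟨g, g', hgS, rfl⟩
  have hq : e q ∈ Subgroup.center (P : Subgroup G) := Subgroup.mem_center_iff.2 fun z => by
    obtain ⟨w, rfl⟩ := e.surjective z
    rw [← map_mul, ← map_mul]
    congr 1
    obtain ⟨_, c, -, rfl⟩ := w
    exact Subtype.ext (Subgroup.mem_centralizer_singleton_iff.1 c.2)
  have h2 := Subgroup.orderOf_dvd_natCard _ hq
  rw [hZ, e.orderOf_eq, ← Subgroup.orderOf_coe, show ((q : Q) : G) = g from rfl, ho] at h2
  have := Nat.le_of_dvd two_pos h2
  have : 2 ^ 2 ≤ 2 ^ N := Nat.pow_le_pow_right two_pos hN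
  omega

/-- Let G be a finite group with Sylow 2-subgroup P of order 2^n ≥ 8, and let ζ be a primitive 2^(n−1)-th root of unity in ℂ. Then the commutator subgroup of P has index 4 in P if and only if there is an element g of P whose conjugacy class in G has even size and such that the field generated over ℚ by the values at g of all irreducible complex characters of G equals ℚ(ζ + ζ⁻¹) or ℚ(ζ − ζ⁻¹). -/
theorem result {G : Type*} [Group G] [Finite G] (P : Sylow 2 G) (n : ℕ) (hn : 3 ≤ n) (hP : Nat.card P = 2 ^ n) (ζ : ℂ) (hζ : IsPrimitiveRoot ζ (2 ^ (n - 1))) :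
    (commutator ↥P).index = 4 ↔
      ∃ g : G, g ∈ (P : Subgroup G) ∧ 2 ∣ (Subgroup.centralizer ({g} : Set G)).index ∧
        (IntermediateField.adjoin ℚ {z : ℂ | ∃ χ : Cfsg.IrrCharacter G, (χ : G → ℂ) g = z} = IntermediateField.adjoin ℚ ({ζ + ζ⁻¹} : Set ℂ) ∨
          IntermediateField.adjoin ℚ {z : ℂ | ∃ χ : Cfsg.IrrCharacter G, (χ : G → ℂ) g = z} = IntermediateField.adjoin ℚ ({ζ - ζ⁻¹} : Set ℂ)) := by
  obtain ⟨m, rfl⟩ : ∃ m, n = m + 3 := ⟨n - 3, by omega⟩
  simp only [show m + 3 - 1 = m + 2 by omega] at hζ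
  set N := 2 ^ (m + 2) with hN
  haveI : NeZero N := ⟨by positivity⟩
  have hN0 : N ≠ 0 := NeZero.ne N
  have hζ0 : ζ ≠ 0 := hζ.ne_zero hN0
  have hhalfN : 2 ^ (m + 1) * 2 = N := by rw [hN, pow_succ 2 (m + 1)]
  have hhalf : ζ ^ ((2 : ℕ) ^ (m + 1) : ℕ) = -1 :=
    (hζ.pow (NeZero.pos N) hhalfN.symm).eq_neg_one_of_two_right
  have hPcomm : ∀ g : G, g ∈ (P : Subgroup G) → 2 ∣ (Subgroup.centralizer ({g} : Set G)).index →
      ∃ y : (P : Subgroup G), (y : G) * g * (y : G)⁻¹ ≠ g := by
    intro g hg heven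
    by_contra hcon
    push Not at hcon
    refine P.not_dvd_index (heven.trans (Subgroup.index_dvd_of_le fun y hy => ?_))
    exact Subgroup.mem_centralizer_singleton_iff.2 (mul_inv_eq_iff_eq_mul.1 (hcon ⟨y, hy⟩))
  constructor
  · intro hidx
    have hcc : Nat.card (commutator (P : Subgroup G)) = 2 ^ (m + 1) := by
      have h1 := (commutator (P : Subgroup G)).card_mul_index
      erw [hidx, hP] at h1
      rw [show (4 : ℕ) = 2 ^ 2 by norm_num, show m + 3 = (m + 1) + 2 by omega, pow_add] at h1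
      exact Nat.eq_of_mul_eq_mul_right (by positivity) h1
    obtain ⟨hZ, -⟩ := CfsgLib.PGroups.exists_generators_of_index_four hP hcc
    obtain ⟨x, hxo, hxi⟩ := CfsgLib.PGroups.exists_cyclic_index_two m hP hcc
    obtain ⟨hZK, -⟩ := CfsgLib.PGroups.center_of_abelian_index_two hP hcc
      (inferInstance : IsMulCommutative (Subgroup.zpowers x)) hxi
    haveI hKn : (Subgroup.zpowers x).Normal := Subgroup.normal_of_index_eq_two hxi
    have hgo : orderOf (x : G) = N := by rw [Subgroup.orderOf_coe, hxo]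
    have heven : 2 ∣ (Subgroup.centralizer ({(x : G)} : Set G)).index :=
      two_dvd_index_centralizer P hP hZ (N := m + 2) hgo (by omega)
    refine ⟨x, x.2, heven, ?_⟩
    obtain ⟨y, hy⟩ := hPcomm x x.2 heven
    have hyx : y * x * y⁻¹ ≠ x := fun h => hy (congrArg Subtype.val h)
    have hyK : y ∉ Subgroup.zpowers x := by
      intro h
      obtain ⟨i, rfl⟩ := Subgroup.mem_zpowers_iff.1 h
      exact hyx (by group)
    have hcases : ∀ w : (P : Subgroup G), w * x * w⁻¹ = x ∨ w * x * w⁻¹ = y * x * y⁻¹ := by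
      intro w
      by_cases hw : w ∈ Subgroup.zpowers x
      · left
        obtain ⟨i, rfl⟩ := Subgroup.mem_zpowers_iff.1 hw
        group
      · right
        have hyw : y⁻¹ * w ∈ Subgroup.zpowers x := by
          rw [Subgroup.mul_mem_iff_of_index_two hxi, inv_mem_iff]
          exact iff_of_false hyK hw
        obtain ⟨i, hi⟩ := Subgroup.mem_zpowers_iff.1 hyw
        rw [show w = y * x ^ i by rw [hi, mul_inv_cancel_left]]
        group
    -- `y x y⁻¹ = x⁻¹` or `x⁻¹ z` with `z` the central involution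
    obtain ⟨t₀, -, ht₀⟩ := exists_conj_pow hxo
      (Subgroup.le_normalizer_of_normal (K := ⊤) (Subgroup.mem_top y) :
        y ∈ Subgroup.normalizer ((Subgroup.zpowers x : Subgroup (P : Subgroup G)) : Set (P : Subgroup G)))
    have hzc : x * (y * x * y⁻¹) ∈ Subgroup.center (P : Subgroup G) := by
      have hK2 : y * y ∈ Subgroup.zpowers x := Subgroup.mul_self_mem_of_index_two hxi y
      obtain ⟨i, hi⟩ := Subgroup.mem_zpowers_iff.1 hK2
      have hfix : y * (x * (y * x * y⁻¹)) * y⁻¹ = x * (y * x * y⁻¹) := by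
        have h2 : y * (y * x * y⁻¹) * y⁻¹ = x := by
          calc y * (y * x * y⁻¹) * y⁻¹ = (y * y) * x * (y * y)⁻¹ := by group
            _ = x := by rw [← hi]; group
        calc y * (x * (y * x * y⁻¹)) * y⁻¹ = (y * x * y⁻¹) * (y * (y * x * y⁻¹) * y⁻¹) := by group
          _ = (y * x * y⁻¹) * x := by rw [h2]
          _ = x * (y * x * y⁻¹) := by rw [ht₀, ← pow_succ, ← pow_succ']
      rw [Subgroup.mem_center_iff]
      intro w
      refine mul_inv_eq_iff_eq_mul.1 ?_
      rcases hcases w with hw | hw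
      · rw [ht₀, ← pow_succ', ← conj_pow, hw]
      · calc w * (x * (y * x * y⁻¹)) * w⁻¹ = w * x ^ (t₀ + 1) * w⁻¹ := by rw [ht₀, ← pow_succ']
          _ = y * x ^ (t₀ + 1) * y⁻¹ := by rw [← conj_pow, hw, conj_pow]
          _ = x * (y * x * y⁻¹) := by rw [pow_succ', ← ht₀]; exact hfix
    have hsq : (x * (y * x * y⁻¹)) ^ 2 = 1 := by
      rw [← orderOf_dvd_iff_pow_eq_one]
      exact (Subgroup.orderOf_dvd_natCard _ hzc).trans hZ.dvd
    rw [ht₀, ← pow_succ', ← pow_mul, ← orderOf_dvd_iff_pow_eq_one, hxo, ← hN, ← hhalfN] at hsq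
    obtain ⟨j, hj⟩ := Nat.dvd_of_mul_dvd_mul_right two_pos hsq
    have hjy : ((y : G) * x * (y : G)⁻¹) = (x : G) ^ ((-1 : ℤ) + (2 : ℕ) ^ (m + 1) * j) := by
      have : ((y : G) * x * (y : G)⁻¹) = (x : G) ^ (t₀ : ℤ) := by
        rw [zpow_natCast]
        exact congrArg Subtype.val ht₀
      rw [this]
      congr 1
      have := congrArg (fun k : ℕ => (k : ℤ)) hj
      push_cast at this ⊢
      omega
    have hroot : ζ ^ ((-1 : ℤ) + (2 : ℕ) ^ (m + 1) * j) = (-1) ^ j * ζ⁻¹ := by
      rw [zpow_add₀ hζ0, zpow_neg_one, mul_comm, zpow_mul, zpow_natCast, ← hhalf]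
      push_cast
      rw [← zpow_natCast ζ]
      push_cast
      rfl
    have hg1 : (x : G) ^ N = 1 := hgo ▸ pow_orderOf_eq_one _
    have key : ∀ e : ℚ, (e : ℂ) = (-1) ^ j →
        IntermediateField.adjoin ℚ {z : ℂ | ∃ χ : Cfsg.IrrCharacter G, (χ : G → ℂ) x = z}
          = IntermediateField.adjoin ℚ ({ζ + (e : ℂ) * ζ⁻¹} : Set ℂ) := by
      intro e he
      rw [field_eq_iff hζ hg1]
      intro t htc
      rw [add_inv_eq_iff hζ0 (pow_ne_zero _ hζ0), he, ← hroot]
      nth_rw 2 [← zpow_one ζ]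
      rw [← zpow_natCast ζ t, ← zpow_eq_iff_root hζ hN0 hgo, ← zpow_eq_iff_root hζ hN0 hgo,
        zpow_natCast, zpow_one, ← hjy]
      constructor
      · intro hc
        obtain ⟨a, ha⟩ := isConj_iff.1 hc.symm
        have hz : Subgroup.zpowers ((x : G) ^ t) = Subgroup.zpowers (x : G) :=
          le_antisymm (Subgroup.zpowers_le.2 (Subgroup.npow_mem_zpowers _ _)) (by
            rw [Subgroup.zpowers_le]
            exact mem_zpowers_pow_iff.2 (hgo.symm ▸ htc))
        have haN : a ∈ Subgroup.normalizer ((Subgroup.zpowers (x : G) : Subgroup G) : Set G) := by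
          rw [Subgroup.mem_normalizer_iff]
          intro h
          constructor
          · intro hh
            obtain ⟨i, rfl⟩ := Subgroup.mem_zpowers_iff.1 hh
            rw [← conj_zpow, ha, ← hz]
            exact zpow_mem (Subgroup.mem_zpowers _) i
          · intro hh
            rw [← hz] at hh
            obtain ⟨i, hi⟩ := Subgroup.mem_zpowers_iff.1 hh
            rw [← ha, conj_zpow] at hi
            exact mul_left_cancel (mul_right_cancel hi) ▸ zpow_mem (Subgroup.mem_zpowers _) i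
        have hPN : (P : Subgroup G) ≤
            Subgroup.normalizer ((Subgroup.zpowers (x : G) : Subgroup G) : Set G) := by
          intro w hw
          have := Subgroup.le_normalizer_map (f := (P : Subgroup G).subtype) (H := Subgroup.zpowers x)
            ⟨⟨w, hw⟩, Subgroup.le_normalizer_of_normal (K := ⊤) (Subgroup.mem_top _), rfl⟩
          rwa [MonoidHom.map_zpowers] at this
        obtain ⟨w, hw, he'⟩ := exists_sylow_conj P (k := m + 1) hgo hPN haN
        rw [← ha, ← he']
        exact (hcases ⟨w, hw⟩).imp (congrArg Subtype.val) (congrArg Subtype.val)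
      · rintro (h | h) <;> rw [h]
        exact (isConj_iff.2 ⟨(y : G), rfl⟩).symm
    rcases Nat.even_or_odd j with hj' | hj'
    · left
      simpa using key 1 (by rw [hj'.neg_one_pow]; norm_num)
    · right
      simpa [← sub_eq_add_neg] using key (-1) (by rw [hj'.neg_one_pow]; norm_num)
  · rintro ⟨g, hgP, heven, hfield⟩
    obtain ⟨e, he, hfield⟩ : ∃ e : ℚ, (e = 1 ∨ e = -1) ∧
        IntermediateField.adjoin ℚ {z : ℂ | ∃ χ : Cfsg.IrrCharacter G, (χ : G → ℂ) g = z}
          = IntermediateField.adjoin ℚ ({ζ + (e : ℂ) * ζ⁻¹} : Set ℂ) := by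
      rcases hfield with h | h
      · exact ⟨1, Or.inl rfl, by simpa using h⟩
      · exact ⟨-1, Or.inr rfl, by simpa [← sub_eq_add_neg] using h⟩
    let gP : (P : Subgroup G) := ⟨g, hgP⟩
    obtain ⟨y, hy⟩ := hPcomm g hgP heven
    have hne : commutator (P : Subgroup G) ≠ ⊥ := by
      intro h
      have : ⁅y, gP⁆ ∈ commutator (P : Subgroup G) :=
        Subgroup.commutator_mem_commutator (Subgroup.mem_top _) (Subgroup.mem_top _)
      rw [h, Subgroup.mem_bot, commutatorElement_eq_one_iff_mul_comm] at this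
      exact hy (mul_inv_eq_iff_eq_mul.2 (congrArg Subtype.val this))
    have hPg : IsPGroup 2 (P : Subgroup G) := P.2
    have hindex : ∀ H : Subgroup (P : Subgroup G), H = commutator (P : Subgroup G) →
        Nat.card H = 2 ^ (m + 1) → (commutator (P : Subgroup G)).index = 4 := by
      rintro H rfl hc
      have h1 := (commutator (P : Subgroup G)).card_mul_index
      rw [hc, hP, show 2 ^ (m + 3) = 2 ^ (m + 1) * 4 by ring] at h1
      exact Nat.eq_of_mul_eq_mul_left (show 0 < 2 ^ (m + 1) from Nat.two_pow_pos _) h1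
    haveI : Fact (Nat.Prime 2) := ⟨Nat.prime_two⟩
    have hquot : ∀ (K : Subgroup (P : Subgroup G)) [K.Normal], K.index ∣ 4 →
        commutator (P : Subgroup G) ≤ K := by
      intro K _ hK
      refine Subgroup.Normal.quotient_commutative_iff_commutator_le.1 ?_
      rw [Subgroup.index_eq_card] at hK
      obtain ⟨j, hj, hjK⟩ := (Nat.dvd_prime_pow Nat.prime_two).1 (show _ ∣ 2 ^ 2 from hK)
      interval_cases j
      · haveI : Subsingleton (↥(P : Subgroup G) ⧸ K) := (Nat.card_eq_one_iff_unique.1 hjK).1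
        exact ⟨⟨fun a b => Subsingleton.elim _ _⟩⟩
      · haveI : IsCyclic (↥(P : Subgroup G) ⧸ K) := isCyclic_of_prime_card (by simpa using hjK)
        exact ⟨⟨fun a b => (IsCyclic.commGroup (α := ↥(P : Subgroup G) ⧸ K)).mul_comm a b⟩⟩
      · exact IsPGroup.isMulCommutative_of_card_eq_prime_sq hjK
    rcases Nat.eq_zero_or_pos m with rfl | hm
    · -- order eight
      haveI : Nontrivial (P : Subgroup G) :=
        Finite.one_lt_card_iff_nontrivial.1 (by rw [hP]; norm_num)
      haveI := hPg.center_nontrivial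
      obtain ⟨c, hc, hcard⟩ := (Nat.dvd_prime_pow Nat.prime_two).1
        (hP ▸ (Subgroup.center (P : Subgroup G)).card_subgroup_dvd_card)
      have hidx' : 2 ^ c * (Subgroup.center (P : Subgroup G)).index = 2 ^ 3 := by
        rw [← hcard, Subgroup.card_mul_index, hP]
      have hc1 : c = 1 := by
        have hlt : 1 < 2 ^ c := hcard ▸ Finite.one_lt_card
        rcases Nat.eq_zero_or_pos c with rfl | hcpos
        · norm_num at hlt
        by_contra hc2
        have hi : (Subgroup.center (P : Subgroup G)).index ∣ 2 := by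
          have : (Subgroup.center (P : Subgroup G)).index = 2 ∨ (Subgroup.center (P : Subgroup G)).index = 1 := by
            interval_cases c <;> omega
          rcases this with h | h <;> rw [h]
          exact one_dvd _
        haveI : IsCyclic (↥(P : Subgroup G) ⧸ Subgroup.center (P : Subgroup G)) := by
          rw [Subgroup.index_eq_card] at hi
          rcases (Nat.dvd_prime Nat.prime_two).1 hi with h | h
          · haveI := (Nat.card_eq_one_iff_unique.1 h).1
            exact isCyclic_of_subsingleton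
          · exact isCyclic_of_prime_card h
        have hcomm := isMulCommutative_of_isCyclic_quotient_center_self (P : Subgroup G)
        exact hy (mul_inv_eq_iff_eq_mul.2 (congrArg Subtype.val (hcomm.is_comm.comm y gP)))
      subst hc1
      have hle := hquot (Subgroup.center (P : Subgroup G)) ⟨1, by omega⟩
      refine hindex _ rfl ?_
      rcases (Nat.dvd_prime Nat.prime_two).1
          ((hcard.trans (pow_one 2)) ▸ Subgroup.card_dvd_of_le hle) with h | h
      · exact absurd (Subgroup.card_eq_one.1 h) hne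
      · exact h
    · -- `g` generates a cyclic subgroup of index two
      have hdvd : orderOf g ∣ 2 ^ (m + 3) := hP ▸ Subgroup.orderOf_dvd_natCard _ hgP
      obtain ⟨k, hk, hgk⟩ := (Nat.dvd_prime_pow Nat.prime_two).1 hdvd
      have hk2 : k ≤ m + 2 := by
        by_contra hlt
        obtain rfl : k = m + 3 := by omega
        have htop : Subgroup.zpowers gP = ⊤ := Subgroup.eq_top_of_card_eq _
          (by rw [Nat.card_zpowers, ← Subgroup.orderOf_coe, hP]; exact hgk)
        obtain ⟨i, hi⟩ := Subgroup.mem_zpowers_iff.1 (htop.symm ▸ Subgroup.mem_top y)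
        exact hy (by rw [← hi]; simp [gP]; group)
      have hg1 : g ^ N = 1 := orderOf_dvd_iff_pow_eq_one.1 (hgk ▸ pow_dvd_pow 2 hk2)
      have hst := (field_eq_iff hζ hg1 e).1 hfield
      have he0 : (e : ℂ) = 1 ∨ (e : ℂ) = -1 := by rcases he with rfl | rfl <;> simp
      have hfour : ¬ ζ ^ 4 = 1 := hζ.pow_ne_one_of_pos_of_lt (by norm_num)
        (show 4 < N by rw [hN]; calc (4 : ℕ) < 2 ^ 3 := by norm_num
          _ ≤ 2 ^ (m + 2) := Nat.pow_le_pow_right two_pos (by omega))
      have hk : k = m + 2 := by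
        by_contra hne'
        have hd : orderOf g ∣ 2 ^ (m + 1) := hgk ▸ pow_dvd_pow 2 (by omega)
        have hc : (1 + 2 ^ (m + 1)).Coprime N := Nat.Coprime.pow_right _
          (Nat.coprime_two_right.2 ((Nat.even_pow.2 ⟨even_two, by omega⟩).one_add))
        have hgt : g ^ (1 + 2 ^ (m + 1)) = g := by
          rw [pow_add, orderOf_dvd_iff_pow_eq_one.1 hd, pow_one, mul_one]
        have h1 := (hst _ hc).1 (hgt.symm ▸ IsConj.refl g)
        rw [pow_add, hhalf, pow_one] at h1
        rcases (add_inv_eq_iff hζ0 (mul_ne_zero hζ0 (by norm_num)) _).1 h1 with h | h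
        · exact hζ0 (by linear_combination (-1 / 2 : ℂ) * h)
        · refine hfour ?_
          have h2 : ζ ^ 2 = -(e : ℂ) := by
            field_simp at h
            linear_combination -h
          rw [show 4 = 2 * 2 from rfl, pow_mul, h2]
          rcases he0 with h | h <;> rw [h] <;> norm_num
      subst hk
      have hgo : orderOf g = N := hgk
      have hxo : orderOf gP = N := by rw [← hgo, ← Subgroup.orderOf_coe]
      have hxi : (Subgroup.zpowers gP).index = 2 := by
        have h1 := (Subgroup.zpowers gP).card_mul_index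
        rw [Nat.card_zpowers, hxo, hP, show m + 3 = m + 2 + 1 by omega, pow_succ 2 (m + 2)] at h1
        exact Nat.eq_of_mul_eq_mul_left (NeZero.pos N) h1
      haveI : (Subgroup.zpowers gP).Normal := Subgroup.normal_of_index_eq_two hxi
      obtain ⟨t, htc, hty⟩ := exists_conj_pow hxo
        (Subgroup.le_normalizer_of_normal (K := ⊤) (Subgroup.mem_top y) :
          y ∈ Subgroup.normalizer ((Subgroup.zpowers gP : Subgroup (P : Subgroup G)) : Set (P : Subgroup G)))
      have hty' : (y : G) * g * (y : G)⁻¹ = g ^ t := congrArg Subtype.val hty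
      have h1 := (hst t htc).1 (isConj_iff.2 ⟨(y : G), hty'⟩).symm
      rcases (add_inv_eq_iff hζ0 (pow_ne_zero _ hζ0) _).1 h1 with h | h
      · exfalso
        refine hy (hty'.trans ?_)
        have := (zpow_eq_iff_root hζ hN0 hgo (t : ℤ) 1).2 (by simpa using h)
        simpa using this
      -- the commutator `[y, g]` generates `⟨g²⟩`
      have hsq : ζ ^ (t + 1) = (e : ℂ) := by
        rw [pow_succ, h, mul_assoc, inv_mul_cancel₀ hζ0, mul_one]
      have ht1 : (2 : ℕ) ^ (m + 1) ∣ t + 1 := by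
        refine Nat.dvd_of_mul_dvd_mul_right two_pos ?_
        rw [hhalfN, ← hζ.pow_eq_one_iff_dvd, pow_mul, hsq]
        rcases he0 with h | h <;> rw [h] <;> norm_num
      have htodd : ¬ 2 ∣ t := fun hd => by
        have h2 : 2 ∣ Nat.gcd t N := Nat.dvd_gcd hd (dvd_pow_self 2 (by omega))
        rw [htc.gcd_eq_one] at h2
        omega
      have hfour' : 4 ∣ t + 1 :=
        dvd_trans (show 2 ^ 2 ∣ 2 ^ (m + 1) from pow_dvd_pow 2 (by omega)) ht1
      obtain ⟨u, hu⟩ : ∃ u, t = 2 * u + 1 := ⟨t / 2, by omega⟩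
      have hu2 : u.Coprime (orderOf (gP ^ 2)) := by
        refine Nat.Coprime.coprime_dvd_right ((orderOf_pow_dvd 2).trans hxo.dvd) ?_
        exact Nat.Coprime.pow_right _ (Nat.coprime_two_right.2 ⟨u / 2, by omega⟩)
      have hgen : gP ^ 2 ∈ commutator (P : Subgroup G) := by
        have hmem : ⁅y, gP⁆ ∈ commutator (P : Subgroup G) :=
          Subgroup.commutator_mem_commutator (Subgroup.mem_top _) (Subgroup.mem_top _)
        have : ⁅y, gP⁆ = (gP ^ 2) ^ u := by
          rw [commutatorElement_def, hty, hu, ← pow_mul, pow_succ, mul_inv_cancel_right]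
        rw [this] at hmem
        exact Subgroup.zpowers_le.2 hmem (mem_zpowers_pow_iff.2 hu2)
      haveI hnorm : (Subgroup.zpowers (gP ^ 2)).Normal := ⟨fun a ha w => by
        obtain ⟨i, rfl⟩ := Subgroup.mem_zpowers_iff.1 ha
        have hmem : w * gP * w⁻¹ ∈ Subgroup.zpowers gP :=
          Subgroup.Normal.conj_mem inferInstance gP (Subgroup.mem_zpowers gP) w
        obtain ⟨l, hl⟩ := Subgroup.mem_zpowers_iff.1 hmem
        rw [← conj_zpow, ← conj_pow, ← hl, Subgroup.mem_zpowers_iff]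
        refine ⟨l * i, ?_⟩
        rw [← zpow_natCast, ← zpow_natCast, ← zpow_mul, ← zpow_mul, ← zpow_mul]
        ring_nf⟩
      have hc2 : Nat.card (Subgroup.zpowers (gP ^ 2)) = 2 ^ (m + 1) := by
        rw [Nat.card_zpowers, orderOf_pow, hxo, ← hhalfN, Nat.gcd_eq_right (dvd_mul_left 2 _),
          Nat.mul_div_cancel _ two_pos]
      refine hindex (Subgroup.zpowers (gP ^ 2)) (le_antisymm (Subgroup.zpowers_le.2 hgen) ?_) hc2
      refine hquot _ ?_
      have h1 := (Subgroup.zpowers (gP ^ 2)).card_mul_index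
      rw [hc2, hP, show 2 ^ (m + 3) = 2 ^ (m + 1) * 4 by ring] at h1
      exact ⟨1, by rw [Nat.eq_of_mul_eq_mul_left (Nat.two_pow_pos _) h1]⟩

end Cfsg.Agent.S4923
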