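import Cfsg.Statements.S4931
import Cfsg.Agent.Lib.CharTheory.Inflation
import Cfsg.Agent.Lib.CharTheory.Orthogonality
import Cfsg.Agent.Lib.CharTheory.Ito
import Cfsg.Agent.Lib.Transfer.Tate
import Cfsg.Agent.Lib.Transfer.Abelian
import Cfsg.Agent.Lib.NormalPComplement.Basic
import Cfsg.Agent.Lib.Cores.PCore
import Cfsg.Agent.Lib.PGroups.Frattini

/-!
S4931: the `p'`-degree characters of a Sylow normalizer all extend iff it has a normal complement.
-/

set_option autoImplicit false
open Cfsg Subgroup CfsgLib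
open scoped commutatorElement

namespace Cfsg.Agent.S4931

/-- If the characters of `p'`-degree of `N_G(P)` extend, the normal closure of a subgroup `D` of
`P`, normal in `N_G(P)` and containing `[P, P]`, meets `N_G(P)` in `D`. -/
theorem mem_of_mem_normalClosure {G : Type*} [Group G] [Finite G] (p : ℕ) [hp : Fact p.Prime]
    (P : Sylow p G)
    (hext : ∀ θ : IrrCharacter ↥(normalizer ((P : Subgroup G) : Set G)),
      ¬ p ∣ charDegree (θ : ↥(normalizer ((P : Subgroup G) : Set G)) → ℂ) →
        ∃ χ : IrrCharacter G, ∀ x : ↥(normalizer ((P : Subgroup G) : Set G)),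
          (χ : G → ℂ) x = (θ : ↥(normalizer ((P : Subgroup G) : Set G)) → ℂ) x)
    (D : Subgroup G) (hD : D ≤ P)
    (hDn : (D.subgroupOf (normalizer ((P : Subgroup G) : Set G))).Normal)
    (hcomm : ⁅(P : Subgroup G), (P : Subgroup G)⁆ ≤ D) {n : G}
    (hn : n ∈ normalizer ((P : Subgroup G) : Set G)) (hnc : n ∈ normalClosure (D : Set G)) :
    n ∈ D := by
  classical
  let N := normalizer ((P : Subgroup G) : Set G)
  let D' : Subgroup ↥N := D.subgroupOf N
  haveI : D'.Normal := hDn
  have hPN : (P : Subgroup G) ≤ N := le_normalizer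
  by_contra hnD
  have hq : ((⟨n, hn⟩ : ↥N) : ↥N ⧸ D') ≠ 1 := by
    rw [Ne, QuotientGroup.eq_one_iff]
    exact fun h => hnD h
  obtain ⟨ψ, hψ⟩ := CharTheory.exists_irr_apply_ne hq
  haveI hP0 : ((P : Subgroup G).subgroupOf N).Normal := normal_in_normalizer
  let A : Subgroup (↥N ⧸ D') := ((P : Subgroup G).subgroupOf N).map (QuotientGroup.mk' D')
  haveI : A.Normal := hP0.map _ (QuotientGroup.mk'_surjective D')
  have hA : ∀ a ∈ A, ∀ b ∈ A, a * b = b * a := by
    rintro _ ⟨a, ha, rfl⟩ _ ⟨b, hb, rfl⟩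
    rw [← map_mul, ← map_mul]
    refine (QuotientGroup.eq).mpr ?_
    have h1 : (⁅(b : G)⁻¹, (a : G)⁻¹⁆ : G) ∈ D :=
      hcomm (commutator_mem_commutator (inv_mem hb) (inv_mem ha))
    show (((a * b)⁻¹ * (b * a) : ↥N) : G) ∈ D
    simpa [commutatorElement_def, mul_assoc] using h1
  obtain ⟨d, hd1, hd2⟩ := CharTheory.exists_degree_dvd_index_of_abelian ψ.2 A hA
  have hidx : A.index = ((P : Subgroup G).subgroupOf N).index :=
    index_map_eq _ (QuotientGroup.mk'_surjective D') (by
      rw [QuotientGroup.ker_mk']; exact fun x hx => hD hx)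
  let θ : IrrCharacter ↥N := ⟨fun x => (ψ : ↥N ⧸ D' → ℂ) (QuotientGroup.mk' D' x),
    CharTheory.isIrrCharacter_comp ψ.2 (QuotientGroup.mk'_surjective D')⟩
  have hdeg : charDegree (θ : ↥N → ℂ) = d := by
    simp [charDegree, θ, hd1]
  have hndvd : ¬ p ∣ charDegree (θ : ↥N → ℂ) := by
    rw [hdeg]
    intro h
    refine (P.subtype hPN).not_dvd_index ?_
    have := h.trans hd2
    rw [hidx] at this
    exact this
  obtain ⟨χ, hχ⟩ := hext θ hndvd
  obtain ⟨K, hKn, hK, -⟩ := CharTheory.exists_kernel (CharTheory.IsIrrCharacter.isCharacter χ.2)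
  haveI := hKn
  have h1 : (χ : G → ℂ) 1 = (ψ : ↥N ⧸ D' → ℂ) 1 := by
    have := hχ 1
    simpa [θ] using this
  have hDK : (D : Set G) ⊆ K := fun x hx => by
    refine (hK x).mpr ?_
    have h2 := hχ ⟨x, hPN (hD hx)⟩
    have h3 : QuotientGroup.mk' D' (⟨x, hPN (hD hx)⟩ : ↥N) = 1 :=
      (QuotientGroup.eq_one_iff _).mpr hx
    simp only [θ, h3] at h2
    rw [h1, ← h2]
  refine hψ ?_
  have h4 := (hK n).mp (normalClosure_le_normal hDK hnc)
  have h5 := hχ ⟨n, hn⟩
  simp only [θ, QuotientGroup.mk'_apply] at h5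
  rw [← h5, h4, h1]

theorem result {G : Type*} [Group G] [Finite G] (p : ℕ) [Fact p.Prime] (P : Sylow p G) :
    (∀ θ : Cfsg.IrrCharacter ↥(Subgroup.normalizer ((P : Subgroup G) : Set G)), ¬ p ∣ Cfsg.charDegree (θ : ↥(Subgroup.normalizer ((P : Subgroup G) : Set G)) → ℂ) →
        ∃ χ : Cfsg.IrrCharacter G, ∀ x : ↥(Subgroup.normalizer ((P : Subgroup G) : Set G)), (χ : G → ℂ) x = (θ : ↥(Subgroup.normalizer ((P : Subgroup G) : Set G)) → ℂ) x) ↔
      ∃ K : Subgroup G, K.Normal ∧ K ⊔ Subgroup.normalizer ((P : Subgroup G) : Set G) = ⊤ ∧ K ⊓ Subgroup.normalizer ((P : Subgroup G) : Set G) = ⊥ := by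
  classical
  let N := normalizer ((P : Subgroup G) : Set G)
  have hPN : (P : Subgroup G) ≤ N := le_normalizer
  constructor
  · intro hext
    let D : Subgroup G := ⁅(P : Subgroup G), (P : Subgroup G)⁆
    have hDP : D ≤ (P : Subgroup G) := commutator_le_self _
    have hDn : (D.subgroupOf N).Normal := by
      refine ⟨fun x hx g => ?_⟩
      show ((g * x * g⁻¹ : ↥N) : G) ∈ D
      have h1 : D.map (MulAut.conj (g : G)).toMonoidHom = D := by
        have hP : (P : Subgroup G).map (MulAut.conj (g : G)).toMonoidHom = (P : Subgroup G) := by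
          ext y
          rw [mem_map_equiv]
          simp only [MulAut.conj_symm_apply]
          have := (mem_normalizer_iff''.mp g.2) y
          simpa using this.symm
        show Subgroup.map _ ⁅(P : Subgroup G), (P : Subgroup G)⁆ = _
        rw [map_commutator, hP]
      rw [← h1]
      exact ⟨x, hx, by simp⟩
    have hKN : ∀ x ∈ N, x ∈ normalClosure (D : Set G) → x ∈ D := fun x hx hx' =>
      mem_of_mem_normalClosure p P hext D hDP hDn le_rfl hx hx'
    have hMN : ∀ x ∈ N, x ∈ normalClosure ((P : Subgroup G) : Set G) → x ∈ (P : Subgroup G) :=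
      fun x hx hx' => mem_of_mem_normalClosure p P hext (P : Subgroup G) le_rfl
        normal_in_normalizer (commutator_le_self _) hx hx'
    let M : Subgroup G := normalClosure ((P : Subgroup G) : Set G)
    have hPM : (P : Subgroup G) ≤ M := le_normalClosure
    let PM : Sylow p ↥M := P.subtype hPM
    let K : Subgroup ↥M := (normalClosure (D : Set G)).subgroupOf M
    haveI : K.Normal := normalClosure_normal.subgroupOf M
    have hPKD : ∀ x : ↥M, x ∈ (PM : Subgroup ↥M) → x ∈ K → (x : G) ∈ D := fun x hx hx' =>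
      hKN x (hPN hx) hx'
    -- the image of `P` in `M ⧸ K` is abelian and self-normalizing
    let f := QuotientGroup.mk' K
    have hf : Function.Surjective f := QuotientGroup.mk'_surjective K
    let Pbar : Sylow p (↥M ⧸ K) := PM.mapSurjective hf
    have hburn : HasNormalPComplement p (↥M ⧸ K) := by
      refine Transfer.hasNormalPComplement_of_le_centralizer Pbar ?_
      intro q hq
      obtain ⟨m, rfl⟩ := hf q
      have hqP : f m ∈ ((PM : Subgroup ↥M).map f) := by
        have hU : ∀ y : ↥M, y ∈ (PM : Subgroup ↥M) ⊔ K ↔ f y ∈ (PM : Subgroup ↥M).map f := by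
          intro y
          rw [← mem_comap, comap_map_eq, QuotientGroup.ker_mk']
        let U : Subgroup ↥M := (PM : Subgroup ↥M) ⊔ K
        let PU : Sylow p ↥U := PM.subtype le_sup_left
        have hm : ∀ y : ↥M, y ∈ U ↔ m * y * m⁻¹ ∈ U := by
          intro y
          rw [hU, hU, map_mul, map_mul, map_inv]
          exact (mem_normalizer_iff.mp hq) (f y)
        have hle : (PM : Subgroup ↥M).map (MulAut.conj m).toMonoidHom ≤ U := by
          rintro _ ⟨y, hy, rfl⟩
          exact (hm y).mp (le_sup_left (b := K) hy)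
        have hp2 : IsPGroup p (((PM : Subgroup ↥M).map (MulAut.conj m).toMonoidHom).subgroupOf U) :=
          (PM.2.map _).comap_of_injective _ U.subtype_injective
        obtain ⟨Q, hQ⟩ := hp2.exists_le_sylow
        obtain ⟨u, hu⟩ := MulAction.exists_smul_eq ↥U Q PU
        have hum : (u : ↥M) * m ∈ normalizer ((PM : Subgroup ↥M) : Set ↥M) := by
          refine mem_normalizer_fintype ?_
          intro y hy
          have h1 : (⟨m * y * m⁻¹, hle ⟨y, hy, by simp⟩⟩ : ↥U) ∈ (Q : Subgroup ↥U) :=
            hQ ⟨y, hy, by simp⟩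
          have h2 : u * (⟨m * y * m⁻¹, hle ⟨y, hy, by simp⟩⟩ : ↥U) * u⁻¹ ∈ (PU : Subgroup ↥U) := by
            rw [← hu, Sylow.smul_def]
            exact ⟨_, h1, by simp⟩
          have h3 : (u : ↥M) * (m * y * m⁻¹) * (u : ↥M)⁻¹ ∈ (PM : Subgroup ↥M) := h2
          simp only [SetLike.mem_coe, mul_inv_rev, mul_assoc] at h3 ⊢
          exact h3
        have h4 : (u : ↥M) * m ∈ (PM : Subgroup ↥M) := by
          have h5 : (((u : ↥M) * m : ↥M) : G) ∈ N := by
            refine mem_normalizer_fintype ?_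
            intro y hy
            have := (mem_normalizer_iff.mp hum ⟨y, hPM hy⟩).mp hy
            exact this
          exact hMN _ h5 (((u : ↥M) * m).2)
        refine (hU m).mp ?_
        have := mul_mem (inv_mem u.2) (le_sup_left (b := K) h4)
        simpa using this
      rw [mem_centralizer_iff]
      intro z hz
      obtain ⟨a, ha, hfa⟩ := hqP
      obtain ⟨b, hb, hfb⟩ : z ∈ (PM : Subgroup ↥M).map f := hz
      rw [← hfa, ← hfb, ← map_mul, ← map_mul]
      refine (QuotientGroup.eq).mpr ?_
      show (((b * a)⁻¹ * (a * b) : ↥M) : G) ∈ normalClosure (D : Set G)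
      have h1 : (⁅(a : G)⁻¹, (b : G)⁻¹⁆ : G) ∈ D :=
        commutator_mem_commutator (inv_mem ha) (inv_mem hb)
      exact le_normalClosure (by simpa [commutatorElement_def, mul_assoc] using h1)
    have hres : ∀ x : ↥M, x ∈ (PM : Subgroup ↥M) → x ∈ pResidual p ↥M → (x : G) ∈ D := by
      intro x hx hx'
      refine hPKD x hx ?_
      have hc := NormalPComplement.isComplement'_pPrimeCore hburn Pbar
      have h1 : f x ∈ pPrimeCore p (↥M ⧸ K) :=
        Transfer.pResidual_le_normalComplement Pbar hc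
          (Transfer.map_pResidual_le f ⟨x, hx', rfl⟩)
      have h2 : f x ∈ (Pbar : Subgroup (↥M ⧸ K)) := ⟨x, hx, rfl⟩
      exact (QuotientGroup.eq_one_iff x).mp (disjoint_def.mp hc.disjoint h1 h2)
    have hpc : HasNormalPComplement p ↥M := by
      refine Transfer.hasNormalPComplement_of_inf_le_frattini PM ?_
      rintro x ⟨hx, hx'⟩
      refine ⟨⟨x, hx⟩, ?_, rfl⟩
      refine PGroups.commutator_le_frattini PM.2 ?_
      let g : ↥(PM : Subgroup ↥M) →* G := M.subtype.comp (PM : Subgroup ↥M).subtype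
      have hg : (commutator ↥(PM : Subgroup ↥M)).map g = D := by
        have htop : (⊤ : Subgroup ↥(PM : Subgroup ↥M)).map g = (P : Subgroup G) := by
          ext y
          constructor
          · rintro ⟨z, -, rfl⟩
            exact z.2
          · exact fun hy => ⟨⟨⟨y, hPM hy⟩, hy⟩, trivial, rfl⟩
        rw [_root_.commutator_def, map_commutator, htop]
      obtain ⟨z, hz, hzx⟩ : (x : G) ∈ (commutator ↥(PM : Subgroup ↥M)).map g := by
        rw [hg]; exact hres x hx hx'
      have : z = ⟨x, hx⟩ := Subtype.ext (Subtype.ext hzx)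
      exact this ▸ hz
    let L : Subgroup G := (pPrimeCore p ↥M).map M.subtype
    haveI : M.Normal := normalClosure_normal
    haveI : (pPrimeCore p ↥M).Characteristic := Cores.pPrimeCore_characteristic p ↥M
    refine ⟨L, inferInstance, ?_, ?_⟩
    · have h1 : L ⊔ (P : Subgroup G) = M := by
        have := congrArg (fun S => S.map M.subtype) (NormalPComplement.pPrimeCore_sup_sylow hpc PM)
        simp only [Subgroup.map_sup, ← MonoidHom.range_eq_map, range_subtype] at this
        rw [← this]
        congr 1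
        exact (map_subgroupOf_eq_of_le hPM).symm
      have h2 : N ⊔ M = ⊤ := by
        have := PM.normalizer_sup_eq_top
        rwa [show (PM : Subgroup ↥M).map M.subtype = (P : Subgroup G) from
          map_subgroupOf_eq_of_le hPM] at this
      rw [eq_top_iff, ← h2, ← h1]
      exact sup_le le_sup_right (sup_le le_sup_left (hPN.trans le_sup_right))
    · rw [eq_bot_iff]
      rintro x ⟨hxL, hxN⟩
      obtain ⟨y, hy, rfl⟩ := hxL
      have h1 : (y : G) ∈ (P : Subgroup G) := hMN _ hxN y.2
      have := disjoint_def.mp (NormalPComplement.isComplement'_pPrimeCore hpc PM).disjoint hy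
        (show y ∈ (PM : Subgroup ↥M) from h1)
      simp [this]
  · rintro ⟨K, hKn, hsup, hinf⟩ θ -
    haveI := hKn
    let f : ↥N →* G ⧸ K := (QuotientGroup.mk' K).comp N.subtype
    have hinj : Function.Injective f := by
      rw [← MonoidHom.ker_eq_bot_iff, eq_bot_iff]
      intro x hx
      have h1 : (x : G) ∈ K ⊓ N := ⟨(QuotientGroup.eq_one_iff (x : G)).mp hx, x.2⟩
      rw [hinf] at h1
      exact Subtype.ext h1
    have hsurj : Function.Surjective f := by
      intro q
      obtain ⟨g, rfl⟩ := QuotientGroup.mk'_surjective K q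
      obtain ⟨k, hk, n, hn, rfl⟩ := mem_sup_of_normal_left.mp (hsup ▸ mem_top g)
      refine ⟨⟨n, hn⟩, ?_⟩
      show QuotientGroup.mk' K n = QuotientGroup.mk' K (k * n)
      rw [map_mul, (QuotientGroup.eq_one_iff k).mpr hk |> (fun h => (h : QuotientGroup.mk' K k = 1)),
        one_mul]
    let e : ↥N ≃* G ⧸ K := MulEquiv.ofBijective f ⟨hinj, hsurj⟩
    refine ⟨⟨_, CharTheory.isIrrCharacter_comp θ.2
      (f := e.symm.toMonoidHom.comp (QuotientGroup.mk' K))
      (e.symm.surjective.comp (QuotientGroup.mk'_surjective K))⟩, fun x => ?_⟩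
    show (θ : ↥N → ℂ) (e.symm (e x)) = _
    rw [e.symm_apply_apply]

end Cfsg.Agent.S4931
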