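import Cfsg.Statements.S4937
import Cfsg.Agent.Lib.Blocks.OrbitSums

set_option autoImplicit false
open Cfsg

namespace Cfsg.Agent.S4937

open CfsgLib.Blocks CfsgLib.Blocks.OrbitSums CfsgLib.CharTheory

theorem centralChar_one_fun {H : Type*} [Group H] (x : H) :
    centralChar (fun _ : H => (1 : ℂ)) x = ((Subgroup.centralizer ({x} : Set H)).index : ℂ) := by
  simp [centralChar]

/-- Membership in the principal block from congruences on `N`-stable sets. -/
theorem mem_principal {G : Type*} [Group G] [Finite G] {H : Type*} [Group H] [Finite H]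
    (M : Ideal AlgInt) [M.IsPrime] (N : Subgroup G) [N.Normal]
    (f : H →* G) (hf : Function.Injective f) (hN : N ≤ f.range)
    {χ : G → ℂ} (hc : IsClassFunction G χ)
    (hχ : ∀ g : G, MemLocalIdeal M (omega χ (fsum ℂ (orb N g)) - ((orb N g).card : ℂ)))
    (ξ : IrrCharacter H) (hξ : ∀ y, (ξ : H → ℂ) y = χ (f y)) :
    ξ ∈ principalBlock M H := by
  classical
  haveI := Fintype.ofFinite H
  intro y
  rw [memLocalIdeal_sub_comm, centralChar_one_fun, centralChar_apply, ← card_filter_isConj]
  set S := (Finset.univ.filter fun x : H => IsConj y x).image f with hS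
  have hcard : S.card = (Finset.univ.filter fun x : H => IsConj y x).card :=
    Finset.card_image_of_injective _ hf
  have hinv : ∀ n ∈ N, ∀ x ∈ S, n * x * n⁻¹ ∈ S := by
    intro n hn x hx
    obtain ⟨m, rfl⟩ := hN hn
    obtain ⟨w, hw, rfl⟩ := Finset.mem_image.1 hx
    refine Finset.mem_image.2 ⟨m * w * m⁻¹, ?_, by simp⟩
    simp only [Finset.mem_filter, Finset.mem_univ, true_and] at hw ⊢
    exact hw.trans (isConj_iff.2 ⟨m, rfl⟩)
  have h := memLocalIdeal_sum_sub hχ S hinv
  rw [hcard, hS, Finset.sum_image fun a _ b _ e => hf e,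
    Finset.sum_congr rfl (g := fun _ => χ (f y) / χ 1)] at h
  · rw [Finset.sum_const, nsmul_eq_mul] at h
    rw [hξ, hξ, map_one, mul_div_assoc]
    exact h
  · intro w hw
    obtain ⟨c, rfl⟩ := isConj_iff.1 (Finset.mem_filter.1 hw).2
    rw [map_mul, map_mul, map_inv, hc]

/-- Let G be a finite group, p a prime, M a maximal ideal of the algebraic integers containing p, N a normal subgroup of G and P a Sylow p-subgroup of N such that G = N·C_G(P). Let θ be an irreducible character in the principal p-block of N that is the restriction of some irreducible character of G. Then θ is the restriction of an irreducible character χ of G lying in the principal p-block of G such that, for every subgroup J of G containing N, the restriction of χ to J is an irreducible character of J lying in the principal p-block of J. -/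
theorem result {G : Type*} [Group G] [Finite G] (p : ℕ) [Fact p.Prime] (M : Ideal Cfsg.AlgInt) (hM : Cfsg.IsPModular p M) (N : Subgroup G) [N.Normal] (P : Sylow p ↥N)
    (hcov : N ⊔ Subgroup.centralizer (((P : Subgroup ↥N).map N.subtype : Subgroup G) : Set G) = ⊤)
    (θ : Cfsg.IrrCharacter ↥N) (hθ : θ ∈ Cfsg.principalBlock M ↥N)
    (hext : ∃ ψ : Cfsg.IrrCharacter G, ∀ x : ↥N, (ψ : G → ℂ) x = (θ : ↥N → ℂ) x) :
    ∃ χ : Cfsg.IrrCharacter G, χ ∈ Cfsg.principalBlock M G ∧ (∀ x : ↥N, (χ : G → ℂ) x = (θ : ↥N → ℂ) x) ∧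
      ∀ J : Subgroup G, N ≤ J → ∃ ξ : Cfsg.IrrCharacter ↥J, ξ ∈ Cfsg.principalBlock M ↥J ∧ ∀ y : ↥J, (ξ : ↥J → ℂ) y = (χ : G → ℂ) y := by
  classical
  haveI := Fintype.ofFinite G
  haveI := isPrime_of_isPModular hM
  obtain ⟨ψ, hψ⟩ := hext
  obtain ⟨μ, hμN, hμ⟩ := exists_linear_congr hM P hcov θ hθ ψ hψ
  set χ : G → ℂ := fun x => (μ x : ℂ) * (ψ : G → ℂ) x with hχ
  have hirr : IsIrrCharacter G χ :=
    isIrrCharacter_mul_of_norm (μ := fun x => (μ x : ℂ)) ψ.2
      (IsIrrCharacter.isCharacter (isIrrCharacter_linear μ)) fun g =>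
        norm_eq_one_of_pow_eq_one' (Nat.card_pos (α := G)).ne'
          (by rw [← Units.val_pow_eq_pow_val, ← map_pow, pow_card_eq_one', map_one, Units.val_one])
  have hres : ∀ x : ↥N, χ x = (θ : ↥N → ℂ) x := fun x => by
    rw [hχ]
    simp [hμN x x.2, hψ x]
  refine ⟨⟨χ, hirr⟩, mem_principal M N (MonoidHom.id G) Function.injective_id
    (fun g _ => ⟨g, rfl⟩) (IsIrrCharacter.isClassFunction hirr) hμ _ fun y => rfl, hres,
    fun J hJ => ?_⟩
  obtain ⟨n, ρ, hρ, hρc⟩ := exists_rep (N := N) (IsIrrCharacter.isCharacter hirr) (by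
    rw [show (fun x : N => χ x) = (θ : ↥N → ℂ) from funext hres]; exact θ.2)
  let σ : Representation ℂ J (Fin n → ℂ) := ρ.comp J.subtype
  haveI : Representation.IsIrreducible σ := isIrreducible_of_comp σ (Subgroup.inclusion hJ) hρ
  have hξ : ∀ y : J, Representation.character σ y = χ y := fun y => by
    rw [← hρc]; rfl
  exact ⟨⟨_, isIrrCharacter_character σ⟩,
    mem_principal M N J.subtype J.subtype_injective (by rwa [Subgroup.range_subtype])
      (IsIrrCharacter.isClassFunction hirr) hμ _ hξ, hξ⟩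

end Cfsg.Agent.S4937
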