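import Cfsg.Statements.S4969
import Mathlib
import Cfsg.Agent.Lib.CharTheory.Orthogonality

set_option autoImplicit false
open Cfsg

namespace Cfsg.Agent.S4969

/-- Let G be a finite group with k conjugacy classes, g ∈ G, and N > 0. Then the sum over the irreducible complex characters χ of G with χ(1) ≥ N of |χ(g)|/χ(1) is at most √(k · #C_G(g)) / N. -/
theorem result {G : Type*} [Group G] [Finite G] (g : G) (N : ℝ) (hN : 0 < N) :
    ∑ᶠ χ : Cfsg.IrrCharacter G, (if N ≤ ‖(χ : G → ℂ) 1‖ then ‖(χ : G → ℂ) g‖ / ‖(χ : G → ℂ) 1‖ else 0) ≤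
      Real.sqrt ((Nat.card (ConjClasses G) : ℝ) * (Nat.card ↥(Subgroup.centralizer ({g} : Set G)) : ℝ)) / N := by
  classical
  haveI := Fintype.ofFinite G
  haveI := Fintype.ofFinite (Cfsg.IrrCharacter G)
  rw [finsum_eq_sum_of_fintype]
  have hsq : ∑ χ : Cfsg.IrrCharacter G, ‖(χ : G → ℂ) g‖ ^ 2 =
      (Nat.card ↥(Subgroup.centralizer ({g} : Set G)) : ℝ) := by
    have h := CfsgLib.CharTheory.sum_mul_conj g g
    rw [if_pos (IsConj.refl g)] at h
    simp only [Complex.mul_conj'] at h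
    exact_mod_cast h
  calc _ ≤ ∑ χ : Cfsg.IrrCharacter G, ‖(χ : G → ℂ) g‖ / N := by
        refine Finset.sum_le_sum fun χ _ => ?_
        split_ifs with h
        · exact div_le_div_of_nonneg_left (norm_nonneg _) hN h
        · positivity
    _ = (∑ χ : Cfsg.IrrCharacter G, 1 * ‖(χ : G → ℂ) g‖) / N := by simp [Finset.sum_div]
    _ ≤ _ := by
        refine div_le_div_of_nonneg_right ?_ hN.le
        refine (Real.sum_mul_le_sqrt_mul_sqrt _ _ _).trans_eq ?_
        rw [hsq, Real.sqrt_mul (Nat.cast_nonneg _), ← CfsgLib.CharTheory.card_irrCharacter,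
          Nat.card_eq_fintype_card]
        simp

end Cfsg.Agent.S4969
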