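import Cfsg.Statements.S4989
import Cfsg.Agent.Lib.Jordan.GaloisNorm
import Cfsg.Agent.Lib.CharTheory.Basic

set_option autoImplicit false
open Cfsg

namespace Cfsg.Agent.S4989

/-- Let H be a subgroup of the finite group G and χ an irreducible complex character of G. Then the inner product of the restriction of χ to H with itself, (1/#H)·Σ_{h ∈ H} |χ(h)|², is at most 1 + #(Z ∖ H)/#H, where Z is the set of zeros of χ in G. -/
theorem result {G : Type*} [Group G] [Finite G] (H : Subgroup G) (χ : Cfsg.IrrCharacter G) : (Nat.card ↥H : ℝ)⁻¹ * ∑ᶠ h : ↥H, ‖(χ : G → ℂ) h‖ ^ 2 ≤ 1 + (Set.ncard ({x : G | (χ : G → ℂ) x = 0} \ (H : Set G)) : ℝ) / (Nat.card ↥H : ℝ) := by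
  classical
  haveI := Fintype.ofFinite G
  have hχ : Cfsg.IsCharacter G (χ : G → ℂ) := CfsgLib.CharTheory.IsIrrCharacter.isCharacter χ.2
  haveI : NeZero (Nat.card G) := ⟨Nat.card_pos.ne'⟩
  have htot : ∑ g : G, ‖(χ : G → ℂ) g‖ ^ 2 = (Nat.card G : ℝ) := by
    have h := CfsgLib.CharTheory.classInner_self_of_isIrr χ.2
    rw [Cfsg.classInner, inv_mul_eq_one₀ (by exact_mod_cast Nat.card_pos.ne')] at h
    have h2 : ((∑ g : G, ‖(χ : G → ℂ) g‖ ^ 2 : ℝ) : ℂ) = ((Nat.card G : ℝ) : ℂ) := by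
      push_cast
      rw [h]
      exact Finset.sum_congr rfl fun g _ => by
        rw [Complex.mul_conj, Complex.normSq_eq_norm_sq]; push_cast; ring
    exact_mod_cast h2
  let S : Finset G := Finset.univ.filter fun g => g ∉ H ∧ (χ : G → ℂ) g ≠ 0
  have hS : (S.card : ℝ) ≤ ∑ g ∈ S, ‖(χ : G → ℂ) g‖ ^ 2 := by
    refine CfsgLib.Jordan.card_le_sum_norm_sq_of_stable hχ S ?_ (fun g hg => (Finset.mem_filter.mp hg).2.2)
    intro g hg t ht
    obtain ⟨-, hgH, hg0⟩ := Finset.mem_filter.mp hg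
    refine Finset.mem_filter.mpr ⟨Finset.mem_univ _, fun hm => hgH ?_, fun h0 => hg0 ?_⟩
    · obtain ⟨m, hm'⟩ := exists_pow_eq_self_of_coprime
        (show t.Coprime (orderOf g) from ht.coprime_dvd_right (orderOf_dvd_natCard g))
      exact hm' ▸ H.pow_mem hm m
    · by_contra hne
      have h1 := CfsgLib.Jordan.one_le_prod_norm hχ (n := Nat.card G) (g := g) pow_card_eq_one' hne
      have h2 : ∏ u : (ZMod (Nat.card G))ˣ, ‖(χ : G → ℂ) (g ^ (u : ZMod (Nat.card G)).val)‖ = 0 := by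
        refine Finset.prod_eq_zero (Finset.mem_univ (ZMod.unitOfCoprime t ht)) ?_
        rw [ZMod.coe_unitOfCoprime, ZMod.val_natCast, ← pow_eq_pow_mod _ pow_card_eq_one', h0, norm_zero]
      linarith
  have hsplit : ∑ g ∈ S, ‖(χ : G → ℂ) g‖ ^ 2 =
      (Nat.card G : ℝ) - ∑ h : H, ‖(χ : G → ℂ) h‖ ^ 2 := by
    rw [← htot, eq_sub_iff_add_eq,
      ← Finset.sum_filter_add_sum_filter_not Finset.univ (fun g => g ∈ H) (fun g => ‖(χ : G → ℂ) g‖ ^ 2),
      add_comm]
    congr 1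
    · exact (Finset.sum_subtype (Finset.univ.filter fun g => g ∈ H) (p := fun g => g ∈ H) (by simp) (fun g => ‖(χ : G → ℂ) g‖ ^ 2)).symm
    · refine Finset.sum_subset (fun g hg => ?_) (fun g hg hgS => ?_)
      · exact Finset.mem_filter.mpr ⟨Finset.mem_univ _, (Finset.mem_filter.mp hg).2.1⟩
      · have : (χ : G → ℂ) g = 0 := by
          by_contra h0
          exact hgS (Finset.mem_filter.mpr ⟨Finset.mem_univ _, (Finset.mem_filter.mp hg).2, h0⟩)
        simp [this]
  have hcount : Nat.card G = Nat.card H + Set.ncard ({x : G | (χ : G → ℂ) x = 0} \ (H : Set G)) + S.card := by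
    rw [Nat.card_eq_fintype_card, ← Finset.card_univ,
      ← Finset.card_filter_add_card_filter_not (s := (Finset.univ : Finset G)) (fun g => g ∈ H),
      ← Finset.card_filter_add_card_filter_not
        (s := Finset.univ.filter fun g : G => ¬ g ∈ H) (fun g => (χ : G → ℂ) g = 0),
      Finset.filter_filter, Finset.filter_filter, ← add_assoc, Nat.card_eq_fintype_card,
      Fintype.card_subtype, ← Set.ncard_coe_finset (Finset.univ.filter fun g => ¬ g ∈ H ∧ (χ : G → ℂ) g = 0)]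
    congr 2
    congr 1
    ext x
    simp [and_comm]
  rw [finsum_eq_sum_of_fintype]
  have hH : (0 : ℝ) < Nat.card H := by exact_mod_cast Nat.card_pos
  rw [inv_mul_le_iff₀ hH, mul_add, mul_one, mul_div_cancel₀ _ hH.ne']
  have hc : (Nat.card G : ℝ) = (Nat.card H : ℝ) +
      (Set.ncard ({x : G | (χ : G → ℂ) x = 0} \ (H : Set G)) : ℝ) + (S.card : ℝ) := by
    exact_mod_cast hcount
  linarith

end Cfsg.Agent.S4989
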