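import Cfsg.Statements.S4990
import Cfsg.Agent.Lib.SolvableLinear.Fong
import Cfsg.Agent.Lib.SolvableLinear.Prim

set_option autoImplicit false
open Cfsg

namespace Cfsg.Agent.S4990

/-- Let G be a finite solvable group, p a prime, M a maximal ideal of the algebraic integers containing p, and B a p-block of G of positive defect d. Then B contains at most 3^{d−1}·p^d irreducible complex characters. -/
theorem result {G : Type*} [Group G] [Finite G] (hsolv : Group.IsSolvable G) (p : ℕ) [Fact p.Prime] (M : Ideal Cfsg.AlgInt) (hM : Cfsg.IsPModular p M) (B : Set (Cfsg.IrrCharacter G)) (hB : Cfsg.IsPBlock M B) (hd : 0 < Cfsg.blockDefect p B) : Set.ncard B ≤ 3 ^ (Cfsg.blockDefect p B - 1) * p ^ Cfsg.blockDefect p B := by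
  letI := Fintype.ofFinite G
  exact CfsgLib.SolvableLinear.Fong.ncard_block_le_aux
    (fun K _ H _ _ V _ _ _ ρ _ hρ => CfsgLib.SolvableLinear.bd_quot_fitting hρ)
    _ G rfl hsolv hM B hB

end Cfsg.Agent.S4990
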