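import Cfsg.Statements.S4996
import Cfsg.Agent.Lib.Jordan.GaloisNorm
import Cfsg.Agent.Lib.Jordan.CosetAverage
import Cfsg.Agent.Lib.CharTheory.Decomp

set_option autoImplicit false
open Cfsg

namespace Cfsg.Agent.S4996

/-- Let N be a normal subgroup of the finite group G and χ an irreducible complex character of G. Then the restriction of χ to N is not irreducible if and only if χ vanishes on some whole coset Nx of N in G. -/
theorem result {G : Type*} [Group G] [Finite G] (N : Subgroup G) [N.Normal] (χ : Cfsg.IrrCharacter G) : ¬ Cfsg.IsIrrCharacter ↥N (fun n : ↥N => (χ : G → ℂ) n) ↔ ∃ x : G, ∀ n : ↥N, (χ : G → ℂ) ((n : G) * x) = 0 := by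
  classical
  haveI := Fintype.ofFinite G
  haveI : Fintype N := Fintype.ofFinite N
  have hχ : Cfsg.IsCharacter G (χ : G → ℂ) := CfsgLib.CharTheory.IsIrrCharacter.isCharacter χ.2
  have hN : (0 : ℝ) < Nat.card N := by exact_mod_cast Nat.card_pos
  let F : G → ℝ := fun g => (Nat.card N : ℝ)⁻¹ * ∑ n : N, ‖(χ : G → ℂ) ((n : G) * g)‖ ^ 2
  have hF : Cfsg.IsCharacter G (fun g => (F g : ℂ)) := CfsgLib.Jordan.isCharacter_cosetNormSq N hχ
  have hnonneg : ∀ g, 0 ≤ F g := fun g => by positivity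
  obtain ⟨k, hk⟩ := CfsgLib.CharTheory.exists_degree_of_isCharacter hF
  have hk' : F 1 = (k : ℝ) := by exact_mod_cast hk
  have hk0 : k ≠ 0 := by
    rintro rfl
    rw [Nat.cast_zero] at hk'
    have h1 := (Finset.sum_eq_zero_iff_of_nonneg (fun n _ => by positivity)).mp
      ((mul_eq_zero.mp hk').resolve_left (inv_ne_zero hN.ne')) 1 (Finset.mem_univ _)
    simp [CfsgLib.CharTheory.apply_one_ne_zero_of_isIrr χ.2] at h1
  have hirr : Cfsg.IsIrrCharacter ↥N (fun n : ↥N => (χ : G → ℂ) n) ↔ k = 1 := by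
    have hc : Cfsg.IsCharacter ↥N (fun n : ↥N => (χ : G → ℂ) n) :=
      CfsgLib.Coherence.isCharacter_comp hχ N.subtype
    rw [CfsgLib.CharTheory.isIrrCharacter_iff_norm_one hc]
    have h : Cfsg.classInner (fun n : ↥N => (χ : G → ℂ) n) (fun n : ↥N => (χ : G → ℂ) n) = (k : ℂ) := by
      rw [← hk]
      simp only [F, Cfsg.classInner, Complex.mul_conj', mul_one]
      push_cast
      rfl
    rw [h]
    exact_mod_cast Iff.rfl
  have hsum : ∑ g : G, F g = (Nat.card G : ℝ) := by
    have htot : ∑ g : G, ‖(χ : G → ℂ) g‖ ^ 2 = (Nat.card G : ℝ) := by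
      have h := CfsgLib.CharTheory.classInner_self_of_isIrr χ.2
      rw [Cfsg.classInner, inv_mul_eq_one₀ (by exact_mod_cast Nat.card_pos.ne')] at h
      simp only [Complex.mul_conj'] at h
      exact_mod_cast h.symm
    simp only [F, ← Finset.mul_sum]
    have hn : ∀ n : N, ∑ g : G, ‖(χ : G → ℂ) ((n : G) * g)‖ ^ 2 = (Nat.card G : ℝ) := fun n =>
      (Equiv.sum_comp (Equiv.mulLeft (n : G)) fun g => ‖(χ : G → ℂ) g‖ ^ 2).trans htot
    rw [Finset.sum_comm, Finset.sum_congr rfl fun n _ => hn n,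
      Finset.sum_const, Finset.card_univ, ← Nat.card_eq_fintype_card, nsmul_eq_mul,
      inv_mul_cancel_left₀ hN.ne']
  have hzero : (∃ x : G, ∀ n : ↥N, (χ : G → ℂ) ((n : G) * x) = 0) ↔ ∃ x, F x = 0 := by
    refine exists_congr fun x => ⟨fun h => by simp [F, h], fun h n => ?_⟩
    have h1 := (Finset.sum_eq_zero_iff_of_nonneg (fun n _ => by positivity)).mp
      ((mul_eq_zero.mp h).resolve_left (inv_ne_zero hN.ne')) n (Finset.mem_univ _)
    simpa using h1
  rw [hirr, hzero]
  constructor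
  · intro hk1
    by_contra! hne
    have h1 := CfsgLib.Jordan.card_le_sum_norm_of_stable hF (Finset.univ.erase 1) (fun g hg t ht => ?_)
      (fun g _ => by exact_mod_cast hne g)
    · rw [Finset.sum_congr rfl fun g _ => (Complex.norm_real _).trans (Real.norm_of_nonneg (hnonneg g)),
        Finset.sum_erase_eq_sub (Finset.mem_univ _), hsum, show (Nat.card N : ℝ)⁻¹ * ∑ n : N, ‖(χ : G → ℂ) ((n : G) * 1)‖ ^ 2 = (k : ℝ) from hk',
        Finset.card_erase_of_mem (Finset.mem_univ _), Finset.card_univ, ← Nat.card_eq_fintype_card,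
        Nat.cast_sub (Nat.card_pos (α := G))] at h1
      have h2 : (2 : ℝ) ≤ k := by exact_mod_cast (show 2 ≤ k by omega)
      push_cast at h1
      linarith
    · refine Finset.mem_erase.mpr ⟨fun h => (Finset.mem_erase.mp hg).1 ?_, Finset.mem_univ _⟩
      obtain ⟨m, hm⟩ := exists_pow_eq_self_of_coprime
        (show t.Coprime (orderOf g) from ht.coprime_dvd_right (orderOf_dvd_natCard g))
      rw [← hm, h, one_pow]
  · rintro ⟨x, hx⟩ rfl
    haveI : NeZero (Nat.card G) := ⟨Nat.card_pos.ne'⟩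
    obtain ⟨d, l, hl, hpow⟩ := CfsgLib.Jordan.exists_roots_of_isCharacter hF
      (g := x) (n := Nat.card G) pow_card_eq_one'
    have h0 : (F 1 : ℂ) = d := by simpa using hpow 0
    rw [hk', Complex.ofReal_natCast, Nat.cast_inj] at h0
    subst h0
    have h1 : (F x : ℂ) = l 0 := by simpa using hpow 1
    have h2 := hl 0
    rw [← h1, hx, Complex.ofReal_zero, zero_pow (NeZero.ne _)] at h2
    exact zero_ne_one h2

end Cfsg.Agent.S4996
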