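import Cfsg.Statements.S5001
import Cfsg.Agent.Lib.Jordan.DefectHeight

set_option autoImplicit false
set_option linter.style.haveILetI false
open Cfsg CfsgLib.CharTheory CfsgLib.Blocks

namespace Cfsg.Agent.S5001

/-- If `g` commutes with a subgroup `D` whose derived subgroup holds an element acting by a
non-trivial scalar of `p`-power order, the character at `g` is `p` times an algebraic integer. -/
theorem exists_eq_prime_mul {H V : Type*} [Group H] [Finite H] [AddCommGroup V] [Module ℂ V]
    [FiniteDimensional ℂ V] (ρ : Representation ℂ H V) (p : ℕ) [hp : Fact p.Prime] (D : Subgroup H)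
    (g : H) (hg : ∀ d ∈ D, d * g = g * d) (z : D) (hz : z ∈ commutator D) (ω : ℂ) (hω : ω ≠ 1)
    (hωp : ∃ k : ℕ, ω ^ p ^ k = 1) (hzω : ∀ v, ρ (z : H) v = ω • v) :
    ∃ a : ℂ, IsIntegral ℤ a ∧ ρ.character g = (p : ℂ) * a := by
  classical
  obtain ⟨ι, hι, b, μ, -, hμ, hb, hχ⟩ := exists_eigenbasis ρ g
  have hb1 : ∀ i, ρ g (b i) = μ i • b i := fun i => by simpa using hb 1 i
  -- each eigenvalue has multiplicity divisible by `p`
  have hdvd : ∀ c : ℂ, p ∣ (Finset.univ.filter fun i => μ i = c).card := by
    intro c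
    set W : Submodule ℂ V := Module.End.eigenspace (ρ g) c with hW
    have hinv : ∀ (d : D), ∀ v ∈ W, ρ (d : H) v ∈ W := by
      intro d v hv
      rw [hW, Module.End.mem_eigenspace_iff] at hv ⊢
      rw [← Module.End.mul_apply, ← map_mul, ← hg d d.2, map_mul, Module.End.mul_apply, hv, map_smul]
    let σ : D →* Module.End ℂ W :=
      { toFun := fun d => LinearMap.restrict (ρ (d : H)) (hinv d)
        map_one' := by ext v; simp
        map_mul' := fun d e => by ext v; simp }
    let δ : D →* ℂˣ := ((LinearMap.det : Module.End ℂ W →* ℂ).comp σ).toHomUnits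
    have hδ : δ z = 1 := Abelianization.commutator_subset_ker δ hz
    have hσz : σ z = ω • LinearMap.id := by
      ext v
      exact hzω v
    have hdet : ω ^ Module.finrank ℂ W = 1 := by
      have h := congrArg (fun u : ℂˣ => (u : ℂ)) hδ
      simpa [δ, hσz, LinearMap.det_smul] using h
    have hrank : Module.finrank ℂ W = (Finset.univ.filter fun i => μ i = c).card := by
      have hspan : W = Submodule.span ℂ (Set.range fun i : {i // μ i = c} => b i) := by
        refine le_antisymm (fun v hv => ?_) (Submodule.span_le.2 ?_)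
        · rw [hW, Module.End.mem_eigenspace_iff] at hv
          have h0 : ∀ i, μ i * b.repr v i = c * b.repr v i := by
            intro i
            have h := congrArg (fun w => b.repr w i) hv
            have e : ρ g v = ∑ j, (μ j * b.repr v j) • b j := by
              conv_lhs => rw [← b.sum_repr v]
              rw [map_sum]
              exact Finset.sum_congr rfl fun j _ => by rw [map_smul, hb1, smul_smul, mul_comm]
            simp only [e] at h
            rw [b.repr_sum_self, map_smul, Finsupp.smul_apply, smul_eq_mul] at h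
            exact h
          rw [← b.sum_repr v]
          refine Submodule.sum_mem _ fun i _ => ?_
          by_cases hi : μ i = c
          · exact Submodule.smul_mem _ _ (Submodule.subset_span ⟨⟨i, hi⟩, rfl⟩)
          · rw [(mul_eq_mul_right_iff.1 (h0 i)).resolve_left hi, zero_smul]
            exact Submodule.zero_mem _
        · rintro _ ⟨⟨i, hi⟩, rfl⟩
          rw [SetLike.mem_coe, hW, Module.End.mem_eigenspace_iff, hb1, hi]
      have hli : LinearIndependent ℂ (fun i : {i // μ i = c} => b i) :=
        b.linearIndependent.comp _ Subtype.val_injective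
      rw [hspan, finrank_span_eq_card hli, Fintype.card_subtype]
    obtain ⟨k, hk⟩ := hωp
    obtain ⟨j, -, hj⟩ := (Nat.dvd_prime_pow hp.out).1 (orderOf_dvd_of_pow_eq_one hk)
    have hj0 : j ≠ 0 := fun h => hω (orderOf_eq_one_iff.1 (by rw [hj, h, pow_zero]))
    rw [← hrank]
    exact ((dvd_pow_self p hj0).trans (hj ▸ orderOf_dvd_of_pow_eq_one hdet))
  choose m hm using hdvd
  refine ⟨∑ c ∈ Finset.univ.image μ, (m c : ℂ) * c, IsIntegral.sum _ fun c hc => ?_, ?_⟩
  · obtain ⟨i, -, rfl⟩ := Finset.mem_image.1 hc
    refine IsIntegral.mul (map_natCast (algebraMap ℤ ℂ) (m (μ i)) ▸ isIntegral_algebraMap) ?_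
    exact IsIntegral.of_pow (orderOf_pos g) (by rw [hμ i]; exact isIntegral_one)
  · have h := hχ 1
    simp only [pow_one] at h
    rw [h, Finset.mul_sum, ← Finset.sum_fiberwise_of_maps_to (g := μ) (t := Finset.univ.image μ)
      (fun i _ => Finset.mem_image_of_mem μ (Finset.mem_univ i))]
    refine Finset.sum_congr rfl fun c _ => ?_
    rw [Finset.sum_congr rfl (fun i hi => (Finset.mem_filter.1 hi).2), Finset.sum_const, nsmul_eq_mul,
      hm c, Nat.cast_mul, mul_assoc]

/-- Let p be a prime, G a finite group and B a p-block of G (relative to a maximal ideal M of the algebraic integers containing p) with defect group D. Let Z be a central p-subgroup of G contained in D and λ a linear character of Z (a homomorphism to the nonzero complex numbers). Say an irreducible character χ of G lies over λ when χ(z) = χ(1)λ(z) for all z ∈ Z. If some irreducible character in B lying over λ has height zero, then λ extends to a linear character of D. -/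
theorem result {G : Type*} [Group G] [Finite G] (p : ℕ) [Fact p.Prime] (M : Ideal Cfsg.AlgInt) (hM : Cfsg.IsPModular p M) (B : Set (Cfsg.IrrCharacter G)) (hB : Cfsg.IsPBlock M B) (D : Subgroup G) (hD : Cfsg.IsDefectGroup p M B D) (Z : Subgroup G) (hZc : Z ≤ Subgroup.center G) (hZp : IsPGroup p ↥Z) (hZD : Z ≤ D) (lam : ↥Z →* ℂˣ) (χ : Cfsg.IrrCharacter G) (hχ : χ ∈ B) (hover : (∀ z : ↥Z, (χ : G → ℂ) z = (χ : G → ℂ) 1 * (lam z : ℂ))) (h0 : Cfsg.blockHeight p B (χ : G → ℂ) = 0) : (∃ μ : ↥D →* ℂˣ, ∀ z : ↥Z, μ ⟨(z : G), hZD z.2⟩ = lam z) := by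
  classical
  haveI := CfsgLib.Blocks.isPrime_of_isPModular hM
  let incl : ↥Z →* ↥D := Subgroup.inclusion hZD
  let π : ↥D →* Abelianization ↥D := Abelianization.of
  -- the kernel of the map into the abelianization is killed
  have hker : ∀ z : ↥Z, incl z ∈ commutator ↥D → lam z = 1 := by
    intro z hz
    by_contra hne
    obtain ⟨g, hg, P, hDP⟩ := hD
    have hcomm : ∀ d ∈ D, d * g = g * d := by
      intro d hd
      rw [hDP] at hd
      obtain ⟨c, -, rfl⟩ := hd
      exact Subgroup.mem_centralizer_singleton_iff.1 c.2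
    obtain ⟨n, ρ, hρ, hρχ⟩ := χ.2
    haveI : ρ.IsIrreducible := hρ
    obtain ⟨ω, hω⟩ : ∃ ω : ℂ, ρ (z : G) = ω • LinearMap.id := exists_smul_of_commute ρ _ fun h => by
      rw [← Module.End.mul_eq_comp, ← Module.End.mul_eq_comp, ← map_mul, ← map_mul,
        Subgroup.mem_center_iff.1 (hZc z.2) h]
    have hωlam : ω = (lam z : ℂ) := by
      have h := hover z
      rw [← hρχ, Representation.character, Representation.character, hω, map_one, map_smul,
        show (LinearMap.id : (Fin n → ℂ) →ₗ[ℂ] (Fin n → ℂ)) = 1 from rfl,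
        LinearMap.trace_one, smul_eq_mul, mul_comm] at h
      have hn : (Module.finrank ℂ (Fin n → ℂ) : ℂ) ≠ 0 :=
        Nat.cast_ne_zero.2 (finrank_pos_of_isIrreducible ρ).ne'
      exact mul_left_cancel₀ hn h
    obtain ⟨k, hk⟩ := hZp z
    have hωp : ω ^ p ^ k = 1 := by
      rw [hωlam, ← Units.val_pow_eq_pow_val, ← map_pow, hk, map_one, Units.val_one]
    obtain ⟨a, ha, he⟩ := exists_eq_prime_mul ρ p D g hcomm (incl z) hz ω
      (fun h => hne (Units.ext (by rw [← hωlam, h, Units.val_one]))) ⟨k, hωp⟩
      (fun v => by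
        show ρ (z : G) v = ω • v
        rw [hω]; rfl)
    refine CfsgLib.Jordan.not_memLocalIdeal_apply_of_height_zero hM hB hg hχ h0 ?_
    rw [← hρχ, he]
    exact memLocalIdeal_mul_right ((memLocalIdeal_natCast_iff hM p).2 dvd_rfl)
      (memLocalRing_of_isIntegral ha)
  -- factor through the image
  let f : ↥Z →* Abelianization ↥D := π.comp incl
  let lam' : ↥f.range →* ℂˣ :=
    f.rangeRestrict.liftOfSurjective f.rangeRestrict_surjective ⟨lam, fun z hz => by
      refine hker z ?_
      have h1 : f z = 1 := congrArg Subtype.val hz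
      rw [← Abelianization.ker_of]
      exact h1⟩
  obtain ⟨μ, hμ⟩ := MonoidHom.domRestrict_surjective ℂ f.range lam'
  refine ⟨μ.comp π, fun z => ?_⟩
  have h1 := DFunLike.congr_fun hμ (f.rangeRestrict z)
  refine Eq.trans ?_ (h1.trans ?_)
  · rfl
  · exact MonoidHom.liftOfRightInverse_comp_apply _ _ _ _ _

end Cfsg.Agent.S5001
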