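import Cfsg.Statements.S5008
import Cfsg.Agent.Lib.Clifford.VanishingP
import Cfsg.Agent.Lib.Correspondences.PrincipalBlock
-- import your own Cfsg.Agent.* helpers here

set_option autoImplicit false
set_option linter.style.haveILetI false
open Cfsg
open scoped commutatorElement

namespace Cfsg.Agent.S5008

/-- Let `G` be a finite group and `p` a prime dividing the size of no vanishing conjugacy class of `G` (a class of an element on which some irreducible complex character takes the value zero). Then `G` has a normal `p`-complement and abelian Sylow `p`-subgroups. The known proof uses the classification of finite simple groups. -/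
theorem result {G : Type*} [Group G] [Finite G] (p : ℕ) [Fact p.Prime]
    (h : ∀ x : G, (∃ χ : Cfsg.IrrCharacter G, (χ : G → ℂ) x = 0) → ¬ p ∣ (Subgroup.centralizer ({x} : Set G)).index) :
    Cfsg.HasNormalPComplement p G ∧ ∀ P : Sylow p G, IsMulCommutative (P : Subgroup G) := by
  classical
  have hp : p.Prime := Fact.out
  haveI := Fintype.ofFinite G
  obtain ⟨M, hM⟩ := CfsgLib.CharDegreesTheory.exists_isPModular hp
  haveI := CfsgLib.Blocks.isPrime_of_isPModular hM
  -- the principal block consists of linear characters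
  have hlin : ∀ χ ∈ Cfsg.principalBlock M G, Cfsg.charDegree (χ : G → ℂ) = 1 := by
    intro χ hχ
    by_contra hne
    obtain ⟨g, hg⟩ := CfsgLib.Clifford.VanishingP.exists_zero χ hne
    refine h g ⟨χ, hg⟩ ((CfsgLib.Blocks.memLocalIdeal_natCast_iff hM _).1 ?_)
    have := hχ g
    rwa [CfsgLib.Correspondences.centralChar_one_eq, Cfsg.centralChar, hg, mul_zero, zero_div,
      sub_zero] at this
  have hpc : Cfsg.HasNormalPComplement p G :=
    (Cfsg.Agent.S4888.result p M hM).1 ⟨1, fun χ hχ _ => hlin χ hχ⟩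
  refine ⟨hpc, ?_⟩
  obtain ⟨P₀, K, hK, hc⟩ := hpc
  haveI := hK
  have hab : ∀ a b : (P₀ : Subgroup G), a * b = b * a := by
    set e : G ⧸ K ≃* (P₀ : Subgroup G) := hc.symm.QuotientMulEquiv with he
    haveI := Fintype.ofFinite (P₀ : Subgroup G)
    have hall : ∀ φ : Cfsg.IrrCharacter (P₀ : Subgroup G), Cfsg.charDegree (φ : ↥(P₀ : Subgroup G) → ℂ) = 1 := by
      intro φ
      by_contra hne
      set χ : Cfsg.IrrCharacter G := ⟨_, CfsgLib.CharTheory.isIrrCharacter_comp
        (CfsgLib.CharTheory.isIrrCharacter_comp_mulEquiv φ.2 e) (f := QuotientGroup.mk' K)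
        (QuotientGroup.mk'_surjective K)⟩ with hχ
      have hne' : Cfsg.charDegree (χ : G → ℂ) ≠ 1 := by
        intro h1
        refine hne ?_
        rw [← h1]
        show ⌊((φ : ↥(P₀ : Subgroup G) → ℂ) 1).re⌋₊ = ⌊((φ : ↥(P₀ : Subgroup G) → ℂ) (e ((1 : G) : G ⧸ K))).re⌋₊
        rw [QuotientGroup.mk_one, map_one]
      obtain ⟨g, hg⟩ := CfsgLib.Clifford.VanishingP.exists_zero χ hne'
      obtain ⟨Q⟩ : Nonempty (Sylow p (Subgroup.centralizer ({g} : Set G))) := inferInstance
      -- the image of `g` is central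
      set f : G →* (P₀ : Subgroup G) := e.toMonoidHom.comp (QuotientGroup.mk' K) with hf
      have hfs : Function.Surjective f := e.surjective.comp (QuotientGroup.mk'_surjective K)
      have htop : (Subgroup.centralizer ({g} : Set G)).map f = ⊤ := by
        rw [← Subgroup.index_eq_one]
        obtain ⟨n, hn⟩ := IsPGroup.iff_card.1 P₀.2
        refine Nat.eq_one_of_dvd_coprimes ((hp.coprime_iff_not_dvd.2 (h g ⟨χ, hg⟩)).symm.pow_right n)
          (Subgroup.index_map_dvd _ hfs) (hn ▸ Subgroup.index_dvd_card _)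
      have hcen : f g ∈ Subgroup.center (P₀ : Subgroup G) := by
        rw [Subgroup.mem_center_iff]
        intro b
        obtain ⟨c, hc', rfl⟩ := (htop ▸ Subgroup.mem_top b : b ∈ (Subgroup.centralizer ({g} : Set G)).map f)
        rw [← map_mul, ← map_mul, Subgroup.mem_centralizer_singleton_iff.1 hc']
      obtain ⟨m, ρ, hρ, hρe⟩ := φ.2
      obtain ⟨w, hw⟩ := CfsgLib.CharTheory.exists_smul_of_commute ρ (ρ (f g)) (fun b => by
        show ρ (f g) * ρ b = ρ b * ρ (f g)
        rw [← map_mul, ← map_mul, (Subgroup.mem_center_iff.1 hcen b).symm])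
      have hnorm := (CfsgLib.CharTheory.norm_character_eq_iff ρ (f g)).2 ⟨w, hw⟩
      have h0 : ρ.character (f g) = 0 := by rw [hρe]; exact hg
      rw [h0, norm_zero] at hnorm
      have hpos := CfsgLib.CharTheory.finrank_pos_of_isIrreducible ρ
      exact absurd (by exact_mod_cast hnorm.symm : Module.finrank ℂ (Fin m → ℂ) = 0) hpos.ne'
    intro a b
    by_contra hne
    have hc1 : ⁅a, b⁆ ≠ 1 := fun h0 => hne (commutatorElement_eq_one_iff_mul_comm.1 h0)
    obtain ⟨φ, hφ⟩ := CfsgLib.CharTheory.exists_irr_apply_ne hc1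
    obtain ⟨μ, hμ⟩ := CfsgLib.CharTheory.exists_hom_of_degree_one φ.2
      (by rw [CfsgLib.ZerosCodegree.irr_apply_one_eq, hall φ, Nat.cast_one])
    refine hφ ?_
    have h1 : μ ⁅a, b⁆ = 1 := by
      rw [map_commutatorElement, commutatorElement_eq_one_iff_mul_comm, mul_comm]
    rw [hμ]
    show (μ _ : ℂ) = (μ 1 : ℂ)
    rw [h1, map_one]
  intro P
  obtain ⟨e⟩ : Nonempty ((P : Subgroup G) ≃* (P₀ : Subgroup G)) := ⟨Sylow.equiv P P₀⟩
  exact ⟨⟨fun a b => e.injective (by rw [map_mul, map_mul, hab])⟩⟩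

end Cfsg.Agent.S5008
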