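import Cfsg.Statements.S5011
-- import your own Cfsg.Agent.* helpers here

set_option autoImplicit false
open Cfsg

namespace Cfsg.Agent.S5011

/-- Let G be a finite non-abelian simple group and ρ an irreducible complex representation of G on a space of dimension greater than one (irreducible in the sense that the only subspaces invariant under every ρ(x) are 0 and the whole space). Then for every non-identity element g of G, the centralizer of g does not act irreducibly: there is a non-zero proper subspace invariant under ρ(c) for every c commuting with g. -/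
theorem result {G : Type*} [Group G] [Finite G] [IsSimpleGroup G]
    (hG : ¬ IsMulCommutative G) {V : Type*} [AddCommGroup V] [Module ℂ V] [FiniteDimensional ℂ V]
    (ρ : Representation ℂ G V)
    (hirr : ∀ W : Submodule ℂ V, (∀ x : G, ∀ v ∈ W, ρ x v ∈ W) → W = ⊥ ∨ W = ⊤)
    (hdim : 1 < Module.finrank ℂ V) (g : G) (hg : g ≠ 1) :
    ∃ W : Submodule ℂ V, W ≠ ⊥ ∧ W ≠ ⊤ ∧ ∀ c ∈ Subgroup.centralizer ({g} : Set G), ∀ v ∈ W, ρ c v ∈ W := by
  classical
  by_contra hcon
  push_neg at hcon
  obtain ⟨μ, hμ⟩ : ∃ μ : ℂ, Module.End.HasEigenvalue (ρ g) μ := by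
    have : Nontrivial V := Module.nontrivial_of_finrank_pos (lt_trans zero_lt_one hdim)
    exact Module.End.exists_eigenvalue (ρ g)
  have hinv : ∀ c ∈ Subgroup.centralizer ({g} : Set G), ∀ v ∈ Module.End.eigenspace (ρ g) μ,
      ρ c v ∈ Module.End.eigenspace (ρ g) μ := by
    intro c hc v hv
    rw [Module.End.mem_eigenspace_iff] at hv ⊢
    rw [Subgroup.mem_centralizer_singleton_iff] at hc
    have : ρ g (ρ c v) = ρ c (ρ g v) := by
      rw [← Module.End.mul_apply, ← map_mul, ← Module.End.mul_apply, ← map_mul, hc]
    rw [this, hv, map_smul]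
  have htop : Module.End.eigenspace (ρ g) μ = ⊤ := by
    by_contra hne
    obtain ⟨c, hc, v, hv, hcv⟩ := hcon _ hμ hne
    exact hcv (hinv c hc v hv)
  have hscal : ∀ v : V, ρ g v = μ • v := fun v =>
    Module.End.mem_eigenspace_iff.mp (htop ▸ Submodule.mem_top)
  have hker : (MonoidHom.ker ρ : Subgroup G) = ⊥ := by
    rcases (inferInstance : (MonoidHom.ker ρ : Subgroup G).Normal).eq_bot_or_eq_top with h | h
    · exact h
    · exfalso
      obtain ⟨v, hv⟩ := (Module.finrank_pos_iff_exists_ne_zero (R := ℂ) (M := V)).mp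
        (lt_trans zero_lt_one hdim)
      have hone : ∀ x : G, ρ x = 1 := fun x => MonoidHom.mem_ker.mp (h ▸ Subgroup.mem_top x)
      rcases hirr (ℂ ∙ v) (fun x w hw => by rw [hone x]; simpa using hw) with h1 | h1
      · exact hv ((Submodule.span_singleton_eq_bot).mp h1)
      · have := finrank_span_singleton (K := ℂ) hv
        rw [h1, finrank_top] at this
        omega
  have hcen : g ∈ Subgroup.center G := by
    rw [Subgroup.mem_center_iff]
    intro x
    have h2 : x * g * (g * x)⁻¹ ∈ (MonoidHom.ker ρ : Subgroup G) := by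
      rw [MonoidHom.mem_ker, map_mul]
      have : ρ (x * g) = ρ (g * x) := by
        ext v
        simp [map_mul, hscal, map_smul]
      rw [this, ← map_mul, mul_inv_cancel, map_one]
    rw [hker, Subgroup.mem_bot] at h2
    exact mul_inv_eq_one.mp h2
  rcases (inferInstance : (Subgroup.center G).Normal).eq_bot_or_eq_top with h | h
  · rw [h, Subgroup.mem_bot] at hcen
    exact hg hcen
  · exact hG ⟨⟨fun a b => (Subgroup.mem_center_iff.mp (h ▸ Subgroup.mem_top b) a)⟩⟩

end Cfsg.Agent.S5011
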