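import Cfsg.Statements.S5125
import Cfsg.Agent.Lib.FusionSub.NormalCriterion
import Cfsg.Agent.Lib.FusionBasics.Normal
import Cfsg.Agent.Lib.FusionExamples.Basic

set_option autoImplicit false
open Cfsg Cfsg.FusionSystem

namespace Cfsg.Agent.S5125

open scoped commutatorElement

/-- Let F be a saturated fusion system over a finite p-group S and Q a subgroup strongly closed in F. If Q has a subgroup Q₁ that is normal in F, with Q/Q₁ abelian and Aut_F(Q₁) a p-group, then Q is normal in F. -/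
theorem result {Ω : Type*} [Group Ω] {S : Subgroup Ω} [Finite S] (p : ℕ) [Fact p.Prime] (hS : IsPGroup p S) (F : Cfsg.FusionSystem S) (hF : F.IsSaturated p) (Q Q₁ : Subgroup Ω) (hQ : F.StronglyClosed Q) (hQ₁Q : Q₁ ≤ Q) (hQ₁ : F.IsNormal Q₁) (hab : ⁅Q, Q⁆ ≤ Q₁) (hAut : IsPGroup p ↥(F.autGroup Q₁)) : F.IsNormal Q := by
  have hQS := hQ.1
  have hQ₁S := hQ₁.1
  haveI := CfsgLib.Alperin.finite_autGroup F hQ₁S
  have hQ₁n : F.IsFullyNormalized Q₁ := CfsgLib.FusionExamples.isFullyNormalized_of_isNormal hQ₁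
  obtain ⟨-, -, R, hR⟩ := CfsgLib.Alperin.centralized_automized_of_fullyNormalized hS hF hQ₁n
  have hRtop : (R : Subgroup (F.autGroup Q₁)) = ⊤ :=
    (R.3 (hAut.of_injective (⊤ : Subgroup (F.autGroup Q₁)).subtype Subtype.val_injective) le_top).symm
  obtain ⟨n, Zs, h0, hn, hmono, hchar, hc⟩ := CfsgLib.FusionBasics.exists_central_series hS
  have hQ₁conj : ∀ s ∈ S, ∀ x ∈ Q₁, s * x * s⁻¹ ∈ Q₁ := fun s hs x hx =>
    CfsgLib.FusionSub.stronglyClosed_conj (CfsgLib.FusionSub.isNormal_stronglyClosed hQ₁) hs hx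
  have hVsc : ∀ i : Fin n, F.StronglyClosed (Q₁ ⊓ Zs i.succ) := by
    intro i
    refine ⟨inf_le_left.trans hQ₁S, fun W hW φ hφ x => ?_⟩
    obtain ⟨ψ, hψ, hψx, hψQ⟩ := hQ₁.2 W φ hφ
    haveI := CfsgLib.Alperin.finite_of_le hQ₁S
    obtain ⟨a, ha, hax⟩ := CfsgLib.Alperin.exists_aut_of_hom' F
      (CfsgLib.Alperin.restrict_mem hψ (le_sup_right : Q₁ ≤ W ⊔ Q₁))
      fun y => hψQ.le ⟨_, y.2, rfl⟩
    have hmem : (⟨a, ha⟩ : F.autGroup Q₁) ∈ (R : Subgroup (F.autGroup Q₁)) := hRtop ▸ Subgroup.mem_top _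
    rw [hR, Subgroup.mem_subgroupOf] at hmem
    obtain ⟨s, hs, hsx⟩ := CfsgLib.Alperin.mem_autInducedBy_iff.mp hmem
    have hxQ : (x : Ω) ∈ Q₁ := (hW x.2).1
    have e : φ x = s * (x : Ω) * s⁻¹ := by
      rw [← hψx x]
      exact (hax ⟨x, hxQ⟩).symm.trans (hsx ⟨x, hxQ⟩)
    rw [e]
    refine ⟨hQ₁conj s hs _ hxQ, ?_⟩
    have h1 := hmono i.castSucc_lt_succ.le
      (hc i (Subgroup.commutator_mem_commutator hs (hW x.2).2))
    have h2 := (Zs i.succ).mul_mem h1 (hW x.2).2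
    simpa [commutatorElement_def] using h2
  refine CfsgLib.FusionSub.isNormal_of_central_series hS hF Q
    (Fin.snoc (fun i => Q₁ ⊓ Zs i) Q) ?_ (Fin.snoc_last _ _) (fun i => ?_) (fun i => ?_)
  · have e : Q₁ ⊓ Zs 0 = ⊥ := by rw [h0, inf_bot_eq]
    rw [← e, ← Fin.snoc_castSucc (α := fun _ => Subgroup Ω) Q (fun i => Q₁ ⊓ Zs i) 0]
    rfl
  · induction i using Fin.lastCases with
    | last => rw [Fin.succ_last, Fin.snoc_last]; exact hQ
    | cast i => rw [← Fin.castSucc_succ, Fin.snoc_castSucc]; exact hVsc i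
  · induction i using Fin.lastCases with
    | last =>
      rw [Fin.succ_last, Fin.snoc_last, Fin.snoc_castSucc, hn, inf_of_le_left hQ₁S]
      exact hab
    | cast i =>
      rw [← Fin.castSucc_succ, Fin.snoc_castSucc, Fin.snoc_castSucc]
      refine Subgroup.commutator_le.mpr fun a ha b hb => ⟨?_, ?_⟩
      · have := Q₁.mul_mem (hQ₁conj a (hQS ha) b hb.1) (Q₁.inv_mem hb.1)
        simpa [commutatorElement_def] using this
      · exact hc i (Subgroup.commutator_mem_commutator (hQS ha) hb.2)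

end Cfsg.Agent.S5125
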