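import Cfsg.Statements.S5126
import Cfsg.Agent.Lib.FusionBasics.KSaturated
import Cfsg.Agent.Lib.FusionBasics.Transport
import Cfsg.Agent.Lib.Alperin.Receptive

set_option autoImplicit false
open Cfsg Cfsg.FusionSystem

namespace Cfsg.Agent.S5126

/-- In a saturated fusion system over a finite p-group S, the normalizer system of a fully normalized, centric, radical subgroup R is constrained, and in every model of that normalizer system the largest normal p-subgroup is the image of R. -/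
theorem result {Ω : Type*} [Group Ω] {S : Subgroup Ω} [Finite S] (p : ℕ) [Fact p.Prime] (hS : IsPGroup p S) (F : Cfsg.FusionSystem S) (hF : F.IsSaturated p) (R : Subgroup Ω) (hRn : F.IsFullyNormalized R) (hRc : F.IsCentric R) (hRr : F.IsRadical p R) (E : Cfsg.FusionSystem (Cfsg.FusionSystem.normalizerIn S R)) (hE : F.IsNormalizerSystem R E) {G : Type*} [Group G] (ι : ↥(Cfsg.FusionSystem.normalizerIn S R) →* G) : E.IsConstrained p ∧ (E.IsModel p G ι → (Cfsg.pCore p G : Subgroup G) = (R.subgroupOf (Cfsg.FusionSystem.normalizerIn S R)).map ι) := by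
  have hRS : R ≤ S := hRn.1
  have hRN : R ≤ (normalizerIn S R) := CfsgLib.Alperin.le_normalizerIn hRS
  haveI := CfsgLib.Alperin.finite_autGroup F hRS
  haveI : Finite (normalizerIn S R) := CfsgLib.Alperin.finite_of_le (CfsgLib.Alperin.normalizerIn_le S R)
  haveI : Finite R := CfsgLib.Alperin.finite_of_le hRS
  have hsat : E.IsSaturated p := by
    refine CfsgLib.FusionBasics.kSystem_saturated hS hF (K := ⊤)
      (CfsgLib.Alperin.receptive_of_fullyNormalized hS hF hRn) ?_ ?_ E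
      fun P => (hE P).trans (CfsgLib.FusionBasics.kHom_top F R P).symm
    · obtain ⟨-, T, hT⟩ := (CfsgLib.Alperin.centralized_automized_of_fullyNormalized hS hF hRn).2
      rw [inf_top_eq, inf_top_eq, ← Nat.card_congr
        (Subgroup.subgroupOfEquivOfLe (CfsgLib.Alperin.autInducedBy_le_autGroup F hRS)).toEquiv, ← hT]
      exact T.card_eq_multiplicity
    · ext g
      refine ⟨fun hg => ⟨hg.1, CfsgLib.Alperin.conjAut R g hg.2, Subgroup.mem_top _, fun _ => rfl⟩, ?_⟩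
      rintro ⟨hg, β, -, hx⟩
      exact ⟨hg, CfsgLib.Alperin.normalizer_of_induced hx⟩
  have hnormal : E.IsNormal R := by
    refine ⟨hRN, fun P φ hφ => ?_⟩
    rw [hE] at hφ
    obtain ⟨-, hPN, hφN, ψ, hψ, hψx, hψR⟩ := hφ
    refine ⟨ψ, ?_, hψx, hψR⟩
    rw [hE]
    refine ⟨hψ, sup_le hPN hRN, ?_, ψ.comp (Subgroup.inclusion (sup_le le_rfl le_sup_right)),
      CfsgLib.Alperin.restrict_mem hψ _, fun x => rfl, ?_⟩
    · have : P ⊔ R ≤ ((normalizerIn S R).comap ψ).map (P ⊔ R).subtype := by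
        refine sup_le (fun x hx => ⟨⟨x, Subgroup.mem_sup_left hx⟩, ?_, rfl⟩)
          (fun x hx => ⟨⟨x, Subgroup.mem_sup_right hx⟩, ?_, rfl⟩)
        · show ψ _ ∈ (normalizerIn S R)
          rw [show (⟨x, Subgroup.mem_sup_left hx⟩ : ↥(P ⊔ R)) = Subgroup.inclusion le_sup_left ⟨x, hx⟩
            from rfl, hψx]
          exact hφN _
        · exact hRN (hψR.le ⟨_, hx, rfl⟩)
      intro x
      obtain ⟨y, hy, hyx⟩ := this x.2
      rwa [show y = x from Subtype.ext hyx] at hy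
    · ext y
      constructor
      · rintro ⟨w, hw, rfl⟩
        exact hψR.le ⟨⟨(w : Ω), (sup_le le_rfl le_sup_right : P ⊔ R ⊔ R ≤ P ⊔ R) w.2⟩, hw, rfl⟩
      · intro hy
        obtain ⟨w, hw, rfl⟩ := hψR.ge hy
        exact ⟨⟨(w : Ω), Subgroup.mem_sup_left w.2⟩, hw, rfl⟩
  have hautE : ∀ α ∈ F.autGroup R, R.subtype.comp α.toMonoidHom ∈ E.Hom R := by
    intro α hα
    have hαF := (CfsgLib.Alperin.mem_autGroup_iff F hRS).mp hα
    rw [hE]
    refine ⟨hαF, hRN, fun x => hRN (α x).2, (R.subtype.comp α.toMonoidHom).comp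
      (Subgroup.inclusion (sup_le le_rfl le_rfl)), CfsgLib.Alperin.restrict_mem hαF _,
      fun x => rfl, ?_⟩
    ext y
    constructor
    · rintro ⟨w, -, rfl⟩
      exact (α _).2
    · intro hy
      exact ⟨⟨(α.symm ⟨y, hy⟩ : R), Subgroup.mem_sup_left (α.symm ⟨y, hy⟩).2⟩,
        (α.symm ⟨y, hy⟩).2, congrArg Subtype.val (α.apply_symm_apply ⟨y, hy⟩)⟩
  have hcentral : E.IsCentric R := by
    refine ⟨hRN, fun Q hQ => ?_⟩
    obtain ⟨φ, hφ, rfl⟩ := hQ
    rw [hE] at hφ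
    obtain ⟨-, -, -, ψ, -, hψx, hψR⟩ := hφ
    have hr : φ.range = R := by
      refine (Eq.trans ?_ hψR)
      ext y
      constructor
      · rintro ⟨x, rfl⟩
        exact ⟨_, x.2, hψx x⟩
      · rintro ⟨w, hw, rfl⟩
        exact ⟨⟨w, hw⟩, (hψx ⟨w, hw⟩).symm⟩
    rw [hr]
    exact le_trans (inf_le_inf_right _ inf_le_left) (hRc.2 R (CfsgLib.Alperin.isConj_refl F hRS))
  refine ⟨⟨hsat, R, hnormal, hcentral⟩, ?_⟩
  rintro ⟨hfin, ⟨hinj, hreal⟩, ⟨T, hT⟩, hCG⟩
  haveI : (Cfsg.pCore p G).Normal := Subgroup.sSup_normal _ fun M hM => hM.1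
  have hWp : IsPGroup p (Cfsg.pCore p G) := Sylow.sSup_of_normal _ (fun M hM => hM.2) fun M hM => hM.1
  set W := Cfsg.pCore p G with hW
  have hWι : W ≤ ι.range := hT ▸ hWp.le_sylow_of_normal T
  have hWconj : ∀ (g : G), ∀ w ∈ W, g * w * g⁻¹ ∈ W := fun g w hw =>
    Subgroup.Normal.conj_mem inferInstance w hw g
  set V : Subgroup Ω := (W.comap ι).map (normalizerIn S R).subtype with hV
  have hVN : V ≤ (normalizerIn S R) := Subgroup.map_subtype_le _
  have hmemV : ∀ n : (normalizerIn S R), (n : Ω) ∈ V ↔ ι n ∈ W := by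
    refine fun n => ⟨?_, fun h => ⟨n, h, rfl⟩⟩
    rintro ⟨m, hm, hmn⟩
    rwa [show m = n from Subtype.ext hmn] at hm
  -- the `p`-core lies in the image of `R`
  have hVR : V ≤ R := by
    have hB : autInducedBy V R ≤ F.autGroup R :=
      le_trans (fun α hα => by
        obtain ⟨g, hg, hx⟩ := CfsgLib.Alperin.mem_autInducedBy_iff.mp hα
        exact CfsgLib.Alperin.mem_autInducedBy_iff.mpr ⟨g, inf_le_left (a := S) (hVN hg), hx⟩)
        (CfsgLib.Alperin.autInducedBy_le_autGroup F hRS)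
    have hnormB : ((autInducedBy V R).subgroupOf (F.autGroup R)).Normal := by
      refine ⟨fun β hβ α => ?_⟩
      obtain ⟨v, hv, hvx⟩ := CfsgLib.Alperin.mem_autInducedBy_iff.mp hβ
      obtain ⟨g, hg⟩ := (hreal R hRN (R.subtype.comp (α : MulAut R).toMonoidHom) fun x => hRN ((α : MulAut R) x).2).mp (hautE _ α.2)
      obtain ⟨v', hv'⟩ : g * ι ⟨v, hVN hv⟩ * g⁻¹ ∈ ι.range :=
        hWι (hWconj g _ ((hmemV ⟨v, hVN hv⟩).mp hv))
      refine CfsgLib.Alperin.mem_autInducedBy_iff.mpr ⟨v', (hmemV v').mpr ?_, fun x => ?_⟩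
      · rw [hv']
        exact hWconj g _ ((hmemV ⟨v, hVN hv⟩).mp hv)
      set y : R := (α : MulAut R).symm x with hy
      have hxy : x = (α : MulAut R) y := ((α : MulAut R).apply_symm_apply x).symm
      show ((((α : MulAut R) ((β : MulAut R) y)) : R) : Ω) = _
      conv_rhs => rw [hxy]
      refine congrArg Subtype.val (a₁ := (⟨_, hRN ((α : MulAut R) ((β : MulAut R) y)).2⟩ : (normalizerIn S R)))
        (a₂ := v' * ⟨_, hRN ((α : MulAut R) y).2⟩ * v'⁻¹) (hinj ?_)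
      have h1 : ι ⟨(((α : MulAut R) ((β : MulAut R) y) : R) : Ω), hRN ((α : MulAut R) ((β : MulAut R) y)).2⟩ =
          g * ι ⟨(((β : MulAut R) y : R) : Ω), hRN ((β : MulAut R) y).2⟩ * g⁻¹ := hg ((β : MulAut R) y)
      have h2 : ι ⟨(((α : MulAut R) y : R) : Ω), hRN ((α : MulAut R) y).2⟩ =
          g * ι ⟨(y : Ω), hRN y.2⟩ * g⁻¹ := hg y
      have h3 : (⟨(((β : MulAut R) y : R) : Ω), hRN ((β : MulAut R) y).2⟩ : (normalizerIn S R)) =
          ⟨v, hVN hv⟩ * ⟨(y : Ω), hRN y.2⟩ * ⟨v, hVN hv⟩⁻¹ := Subtype.ext (hvx y)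
      rw [h3, map_mul, map_mul, map_inv] at h1
      rw [map_mul, map_mul, map_inv, hv']
      refine h1.trans ?_
      rw [h2]
      group
    have hp : IsPGroup p ((autInducedBy V R).subgroupOf (F.autGroup R)) :=
      (CfsgLib.Alperin.isPGroup_autInducedBy
        (CfsgLib.Alperin.isPGroup_of_le hS (hVN.trans (CfsgLib.Alperin.normalizerIn_le S R))) R).of_equiv
          (Subgroup.subgroupOfEquivOfLe hB).symm
    have hle : (autInducedBy V R).subgroupOf (F.autGroup R) ≤ Cfsg.pCore p (F.autGroup R) :=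
      le_sSup ⟨hnormB, hp⟩
    intro v hv
    have hvR : v ∈ Subgroup.normalizer (R : Set Ω) := (hVN hv).2
    have hmem := hle (show (⟨_, hB (CfsgLib.Alperin.conjAut_mem hv hvR)⟩ : F.autGroup R) ∈
      (autInducedBy V R).subgroupOf (F.autGroup R) from CfsgLib.Alperin.conjAut_mem hv hvR)
    have hinn : CfsgLib.Alperin.conjAut R v hvR ∈ Inn R :=
      hRr.2.le ⟨_, hmem, rfl⟩
    obtain ⟨r, hr⟩ := hinn
    have hc : (r : Ω)⁻¹ * v ∈ centralizerIn S R := by
      refine ⟨S.mul_mem (S.inv_mem (hRS r.2)) (hVN hv).1, fun x hx => ?_⟩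
      have h1 : (r : Ω) * x * (r : Ω)⁻¹ = v * x * v⁻¹ :=
        congrArg Subtype.val (DFunLike.congr_fun hr (⟨x, hx⟩ : R))
      calc x * ((r : Ω)⁻¹ * v) = (r : Ω)⁻¹ * ((r : Ω) * x * (r : Ω)⁻¹) * v := by group
        _ = (r : Ω)⁻¹ * v * x := by rw [h1]; group
    have := R.mul_mem r.2 (hRc.2 R (CfsgLib.Alperin.isConj_refl F hRS) hc)
    rwa [mul_inv_cancel_left] at this
  have hWR : W ≤ (R.subgroupOf (normalizerIn S R)).map ι := fun w hw => by
    obtain ⟨n, rfl⟩ := hWι hw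
    exact ⟨n, hVR ((hmemV n).mpr hw), rfl⟩
  -- the image of `R` is normal
  have hRι : ((R.subgroupOf (normalizerIn S R)).map ι).Normal := by
    refine ⟨fun z hz g => ?_⟩
    have hval : ∀ x : V, g * ι ⟨x, hVN x.2⟩ * g⁻¹ ∈ ι.range := fun x =>
      hWι (hWconj g _ ((hmemV ⟨x, hVN x.2⟩).mp x.2))
    let e : (normalizerIn S R) ≃* ι.range := MonoidHom.ofInjective hinj
    let c : V →* ι.range := (((MulAut.conj g).toMonoidHom.comp ι).comp
      (Subgroup.inclusion hVN)).codRestrict ι.range hval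
    let φ : V →* Ω := (normalizerIn S R).subtype.comp (e.symm.toMonoidHom.comp c)
    have hφ : φ ∈ E.Hom V := (hreal V hVN φ fun x => (e.symm (c x)).2).mpr
      ⟨g, fun x => congrArg Subtype.val (e.apply_symm_apply (c x))⟩
    obtain ⟨ψ, hψ, hψx, hψR⟩ := hnormal.2 V φ hφ
    obtain ⟨h, hh⟩ := (hreal (V ⊔ R) (CfsgLib.Alperin.dom_le hψ) ψ (CfsgLib.Alperin.apply_mem hψ)).mp hψ
    have hR : ∀ z ∈ (R.subgroupOf (normalizerIn S R)).map ι, h * z * h⁻¹ ∈ (R.subgroupOf (normalizerIn S R)).map ι := by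
      rintro _ ⟨n, hn, rfl⟩
      have h1 := hh ⟨(n : Ω), Subgroup.mem_sup_right hn⟩
      rw [← h1]
      exact ⟨_, hψR.le ⟨_, hn, rfl⟩, rfl⟩
    have hc : h⁻¹ * g ∈ Subgroup.centralizer (W : Set G) := by
      intro w hw
      obtain ⟨n, rfl⟩ := hWι hw
      have hn : (n : Ω) ∈ V := (hmemV n).mpr hw
      have h1 := hh (Subgroup.inclusion le_sup_left ⟨n, hn⟩)
      have h3 : (e.symm (c ⟨n, hn⟩) : (normalizerIn S R)) = ⟨_, CfsgLib.Alperin.apply_mem hψ
          (Subgroup.inclusion le_sup_left ⟨(n : Ω), hn⟩)⟩ :=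
        Subtype.ext (hψx ⟨n, hn⟩).symm
      have h4 : g * ι n * g⁻¹ = h * ι n * h⁻¹ := by
        refine (congrArg Subtype.val (e.apply_symm_apply (c ⟨n, hn⟩))).symm.trans ?_
        rw [h3]
        exact h1
      calc ι n * (h⁻¹ * g) = h⁻¹ * (h * ι n * h⁻¹) * g := by group
        _ = h⁻¹ * g * ι n := by rw [← h4]; group
    have hgR := hR _ (((R.subgroupOf (normalizerIn S R)).map ι).mul_mem
      (((R.subgroupOf (normalizerIn S R)).map ι).mul_mem (hWR (hCG hc)) hz)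
      (((R.subgroupOf (normalizerIn S R)).map ι).inv_mem (hWR (hCG hc))))
    have e2 : h * (h⁻¹ * g * z * (h⁻¹ * g)⁻¹) * h⁻¹ = g * z * g⁻¹ := by group
    rwa [e2] at hgR
  refine le_antisymm hWR (le_sSup ⟨hRι, ?_⟩)
  exact ((CfsgLib.Alperin.isPGroup_of_le hS hRS).of_equiv (Subgroup.subgroupOfEquivOfLe hRN).symm).map ι

end Cfsg.Agent.S5126
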