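import Cfsg.Statements.S5135
import Cfsg.Agent.Lib.Alperin.Induced
import Cfsg.Agent.Lib.FusionBasics.Group

set_option autoImplicit false
open Cfsg Cfsg.FusionSystem

namespace Cfsg.Agent.S5135

/-- Let G be a finite group, S a Sylow p-subgroup and H a normal subgroup of G. Then the fusion system of G/H on the image SH/H of S is the factor system of the fusion system of G on S modulo S ∩ H, read through the quotient map restricted to S: for each subgroup P' of SH/H, the conjugation maps by elements of G/H defined on P' with values in SH/H are exactly the homomorphisms induced by the conjugation maps by elements of G defined on the full preimage of P' in S with values in S. -/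
theorem result {G : Type*} [Group G] [Finite G] (p : ℕ) [Fact p.Prime] (S : Sylow p G) (H : Subgroup G) [H.Normal] : (Cfsg.groupFusionSystem (S : Subgroup G)).IsFactorSystem ((S : Subgroup G) ⊓ H) ((QuotientGroup.mk' H).comp (S : Subgroup G).subtype) (Cfsg.groupFusionSystem ((S : Subgroup G).map (QuotientGroup.mk' H))) := by
  set π := QuotientGroup.mk' H with hπ
  set θ := π.comp (S : Subgroup G).subtype with hθ
  have hrange : θ.range = (S : Subgroup G).map π := by
    rw [hθ, MonoidHom.range_comp, Subgroup.range_subtype]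
  refine ⟨inf_le_left, fun s => ?_, hrange, fun P' φ' => ⟨?_, ?_⟩⟩
  · exact (QuotientGroup.eq_one_iff (s : G)).trans ⟨fun h => ⟨s.2, h⟩, fun h => h.2⟩
  · rintro ⟨hP', hφ', g', hg⟩
    obtain ⟨g, rfl⟩ := QuotientGroup.mk'_surjective H g'
    refine ⟨hP', ?_⟩
    set P := preimageAlong θ P'
    have hPS : P ≤ (S : Subgroup G) := CfsgLib.Alperin.preimageAlong_le θ P'
    have hmem : ∀ x : P, π x ∈ P' := fun x => (CfsgLib.Alperin.mem_preimageAlong.mp x.2).2
    set M := (S : Subgroup G) ⊔ H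
    have hgM : ∀ x ∈ P, g * x * g⁻¹ ∈ M := by
      intro x hx
      have h1 := hφ' ⟨π x, hmem ⟨x, hx⟩⟩
      rw [hg] at h1
      have h2 : g * x * g⁻¹ ∈ ((S : Subgroup G).map π).comap π := by
        rw [Subgroup.mem_comap, map_mul, map_mul, map_inv]
        exact h1
      rwa [Subgroup.comap_map_eq, hπ, QuotientGroup.ker_mk'] at h2
    have hle : P.map (MulAut.conj g).toMonoidHom ≤ M := by
      rintro _ ⟨x, hx, rfl⟩
      exact hgM x hx
    obtain ⟨Q, hQ⟩ := (((S.2.to_le hPS).map (MulAut.conj g).toMonoidHom).comap_of_injective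
      M.subtype M.subtype_injective :
        IsPGroup p ((P.map (MulAut.conj g).toMonoidHom).comap M.subtype)).exists_le_sylow
    obtain ⟨m, hm⟩ := MulAction.exists_smul_eq M Q (S.subtype (le_sup_left : (S : Subgroup G) ≤ M))
    have hm' : (m : G) ∈ (((S : Subgroup G) ⊔ H : Subgroup G) : Set G) := m.2
    rw [Subgroup.mul_normal] at hm'
    obtain ⟨s, hs, h, hh, hsh⟩ := Set.mem_mul.mp hm'
    have hmove : ∀ x ∈ P, h * g * x * (h * g)⁻¹ ∈ (S : Subgroup G) := by
      intro x hx
      have h2 : m * ⟨_, hgM x hx⟩ * m⁻¹ ∈ (S.subtype (le_sup_left : (S : Subgroup G) ≤ M) : Subgroup M) := by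
        rw [← hm, Sylow.coe_subgroup_smul]
        exact ⟨_, hQ ⟨x, hx, rfl⟩, rfl⟩
      have h3 : (m : G) * (g * x * g⁻¹) * (m : G)⁻¹ ∈ (S : Subgroup G) := h2
      rw [← hsh] at h3
      have := Subgroup.mul_mem _ (Subgroup.mul_mem _ (Subgroup.inv_mem _ hs) h3) hs
      simpa [mul_assoc] using this
    refine ⟨conjHom P (h * g), CfsgLib.FusionBasics.conjHom_mem_group (h * g) hPS hmove, hPS,
      fun x => hmove x x.2, hmem, fun x => ?_⟩
    rw [hg]
    show π g * π x * (π g)⁻¹ = π (h * g * x * (h * g)⁻¹)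
    have hπh : π h = 1 := (QuotientGroup.eq_one_iff h).mpr hh
    simp [hπh]
  · rintro ⟨hP', φ, ⟨-, hφS, g, hg⟩, hP, hφ, hPP, hind⟩
    have key : ∀ y : P', φ' y = π g * (y : G ⧸ H) * (π g)⁻¹ ∧ φ' y ∈ (S : Subgroup G).map π := by
      intro y
      obtain ⟨x, hx, hxy⟩ := hP' y.2
      have hxP : x ∈ preimageAlong θ P' :=
        CfsgLib.Alperin.mem_preimageAlong.mpr ⟨hx, show π x ∈ P' by rw [hxy]; exact y.2⟩
      have e : y = ⟨θ ⟨x, hP hxP⟩, hPP ⟨x, hxP⟩⟩ := Subtype.ext hxy.symm
      rw [e, hind ⟨x, hxP⟩]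
      refine ⟨?_, ⟨φ ⟨x, hxP⟩, hφS _, rfl⟩⟩
      show π (φ ⟨x, hxP⟩) = π g * π x * (π g)⁻¹
      rw [hg, map_mul, map_mul, map_inv]
    exact ⟨hP', fun y => (key y).2, π g, fun y => (key y).1⟩

end Cfsg.Agent.S5135
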