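import Cfsg.Statements.S5153
import Cfsg.Agent.Lib.Alperin.Theorem

set_option autoImplicit false
open Cfsg Cfsg.FusionSystem

namespace Cfsg.Agent.S5153

theorem dom_of_subnormal {Ω : Type*} [Group Ω] {T S : Subgroup Ω} {E : FusionSystem T}
    {F : FusionSystem S} {p : ℕ} (h : E.IsSubnormalIn F p) : T ≤ S := by
  induction h with
  | refl F p => exact le_rfl
  | step _ hD ih => exact ih.trans hD.1.2.2.2.1.1


theorem aux {Ω : Type*} [Group Ω] {T : Subgroup Ω} (E : FusionSystem T) {S : Subgroup Ω}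
    (F : FusionSystem S) {p : ℕ} (hE : E.IsSubnormalIn F p) :
    Finite S → Fact p.Prime → IsPGroup p S → F.IsSaturated p →
      ∀ P : Subgroup Ω, P ≤ T → F.IsFullyNormalized P → E.IsFullyNormalized P := by
  induction hE with
  | refl F p => exact fun _ _ _ _ P _ hP => hP
  | @step U S E D F p hED hDF ih =>
    intro hfin hp hS hF P hPT hP
    haveI := hfin
    haveI := hp
    have hsc : F.StronglyClosed U := hDF.1.2.2.2.1
    have hPU : P ≤ U := hPT.trans (dom_of_subnormal hED)
    refine ih (CfsgLib.Alperin.finite_of_le hsc.1) hp (CfsgLib.Alperin.isPGroup_of_le hS hsc.1)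
      hDF.1.1 P hPT ⟨hPU, fun R hR => ?_⟩
    obtain ⟨φ, hφ, hr⟩ := CfsgLib.Alperin.IsConj.symm hR
    have hRP : F.IsConj R P := ⟨φ, hDF.1.2.2.1 R hφ, hr⟩
    obtain ⟨ψ, hψ, hψN, -⟩ :=
      CfsgLib.Alperin.exists_hom_normalizerIn_of_fullyNormalized hS hF hP hRP
    have hle : normalizerIn U R ≤ normalizerIn S R := inf_le_inf_right _ hsc.1
    exact CfsgLib.Alperin.card_le_of_maps_to (S := S) (F.injective_of_mem hψ) hle
      ((CfsgLib.Alperin.normalizerIn_le U P).trans hsc.1) fun x hx =>
        ⟨hsc.2 _ (CfsgLib.Alperin.normalizerIn_le U R) _ (CfsgLib.Alperin.restrict_mem hψ hle)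
          ⟨x, hx⟩, (hψN x).2⟩

/-- Let F be a saturated fusion system over a finite p-group S and E a subnormal subsystem of F over T. Then every subgroup of T that is fully normalized in F is fully normalized in E. -/
theorem result {Ω : Type*} [Group Ω] {S : Subgroup Ω} [Finite S] (p : ℕ) [Fact p.Prime] (hS : IsPGroup p S) (F : Cfsg.FusionSystem S) (hF : F.IsSaturated p) {T : Subgroup Ω} (E : Cfsg.FusionSystem T) (hE : E.IsSubnormalIn F p) (P : Subgroup Ω) (hPT : P ≤ T) (hP : F.IsFullyNormalized P) : E.IsFullyNormalized P := by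
  exact aux E F hE ‹Finite S› ‹Fact p.Prime› hS hF P hPT hP

end Cfsg.Agent.S5153
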