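import Cfsg.Statements.S5159
import Cfsg.Agent.Lib.FusionSub.Solvable
-- import your own Cfsg.Agent.* helpers here

set_option autoImplicit false
open Cfsg

namespace Cfsg.Agent.S5159

open Cfsg.FusionSystem CfsgLib.Alperin CfsgLib.FusionSub
open scoped commutatorElement

/-- The elements all of whose `Aut_F(T)`-images lie in `U`. -/
def invPart {Ω : Type*} [Group Ω] {S : Subgroup Ω} (F : Cfsg.FusionSystem S) (T U : Subgroup Ω) :
    Subgroup Ω :=
  (⨅ α : F.autGroup T, U.comap (T.subtype.comp (α : MulAut T).toMonoidHom)).map T.subtype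

theorem mem_invPart {Ω : Type*} [Group Ω] {S : Subgroup Ω} {F : Cfsg.FusionSystem S}
    {T U : Subgroup Ω} {x : Ω} :
    x ∈ invPart F T U ↔ ∃ hx : x ∈ T, ∀ α ∈ F.autGroup T, ((α ⟨x, hx⟩ : T) : Ω) ∈ U := by
  constructor
  · rintro ⟨⟨w, hw⟩, h, rfl⟩
    exact ⟨hw, fun α hα => Subgroup.mem_iInf.mp h ⟨α, hα⟩⟩
  · rintro ⟨hx, h⟩
    exact ⟨⟨x, hx⟩, Subgroup.mem_iInf.mpr fun α => h α α.2, rfl⟩

theorem invPart_le {Ω : Type*} [Group Ω] {S : Subgroup Ω} (F : Cfsg.FusionSystem S)
    (T U : Subgroup Ω) : invPart F T U ≤ T := fun _ hx => (mem_invPart.mp hx).1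

theorem stronglyClosed_invPart {Ω : Type*} [Group Ω] {S : Subgroup Ω} {F : Cfsg.FusionSystem S}
    {T : Subgroup Ω} {E : Cfsg.FusionSystem T} (hE : E.IsInvariantIn F) {U : Subgroup Ω}
    (hU : E.StronglyClosed U) : F.StronglyClosed (invPart F T U) := by
  refine ⟨(invPart_le F T U).trans hE.2.1.1, fun R hR φ hφ x => ?_⟩
  have hRT : R ≤ T := hR.trans (invPart_le F T U)
  obtain ⟨α, hα, φ₀, hφ₀, hx⟩ := hE.2.2.2 R hRT φ hφ
  have h0 : φ₀ x ∈ T := (E.le_of_mem hφ₀).2 x
  refine mem_invPart.mpr ⟨hx x h0 ▸ (α _).2, fun β hβ => ?_⟩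
  obtain ⟨χ, hχ, hc⟩ := hE.2.2.1 R hRT φ₀ hφ₀ (β * α) (mul_mem hβ hα)
  have e : β ⟨φ x, hx x h0 ▸ (α _).2⟩ = (β * α) ⟨φ₀ x, h0⟩ := by
    rw [MulAut.mul_apply]
    exact congrArg β (Subtype.ext (hx x h0))
  rw [e, ← hc x h0 ⟨⟨x, hRT x.2⟩, x.2, rfl⟩]
  refine hU.2 _ ?_ χ hχ _
  rintro _ ⟨⟨w, hwT⟩, hw, rfl⟩
  obtain ⟨_, h⟩ := mem_invPart.mp (hR hw)
  exact h _ (mul_mem hβ hα)

/-- Let F be a saturated fusion system over a finite p-group S, E a normal subsystem over T, and D the factor system of F modulo T (read through any homomorphism on S with kernel T). Then F is solvable if and only if E and D are solvable (solvable, for a system over a subgroup S: for every subgroup R other than S that is strongly closed in F, the factor system of F modulo R has a nontrivial subgroup normal in it). -/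
theorem result {Ω : Type*} [Group Ω] {S : Subgroup Ω} [Finite S] (p : ℕ) [Fact p.Prime] (hS : IsPGroup p S) (F : Cfsg.FusionSystem S) (hF : F.IsSaturated p) {T : Subgroup Ω} (E : Cfsg.FusionSystem T) (hE : E.IsNormalIn F p) {Ω' : Type*} [Group Ω'] {S' : Subgroup Ω'} (θ : S →* Ω') (D : Cfsg.FusionSystem S') (hD : F.IsFactorSystem T θ D) : F.IsSolvableSystem ↔ (E.IsSolvableSystem ∧ D.IsSolvableSystem) := by
  obtain ⟨hTS, hker, hrange, hmem⟩ := hD
  have hD : F.IsFactorSystem T θ D := ⟨hTS, hker, hrange, hmem⟩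
  have hTsc : F.StronglyClosed T := hE.1.2.2.2.1
  have hEF : E.IsSubsystemOf F := hE.1.2.2.1
  haveI := finite_of_le hTS
  haveI := finite_of_range hrange
  have hTp := isPGroup_of_le hS hTS
  have hS'p : IsPGroup p S' := isPGroup_of_range hS hrange
  have hDs := factor_saturated hS hF hTsc hD
  rw [solvable_iff_series hS hF, solvable_iff_series hTp hE.1.1, solvable_iff_series hS'p hDs]
  constructor
  · rintro ⟨n, U, h0, hn, hmo, hsc, hc⟩
    refine ⟨⟨n, fun i => U i ⊓ T, by simp [h0], by simp [hn, hTS],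
      fun i j h => inf_le_inf_right T (hmo h), fun i => ⟨inf_le_right, fun R hR φ hφ x => ?_⟩,
      fun i => le_inf ?_ ?_⟩, ?_⟩
    · exact ⟨(hsc i).2 R (hR.trans inf_le_left) φ (hEF R hφ) x, (E.le_of_mem hφ).2 x⟩
    · exact le_trans (Subgroup.commutator_mono inf_le_left inf_le_left) (hc i)
    · exact le_trans (self_commutator_le _) inf_le_right
    refine ⟨n, fun i => imageAlong θ (U i), ?_, ?_, fun i j h => imageAlong_mono θ (hmo h),
      fun i => factor_stronglyClosed_image hS hF hTsc (hsc i) hD, fun i => ?_⟩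
    · show imageAlong θ (U 0) = ⊥
      rw [h0, imageAlong, Subgroup.bot_subgroupOf, Subgroup.map_bot]
    · show imageAlong θ (U n) = S'
      rw [hn, imageAlong, Subgroup.subgroupOf_self, ← MonoidHom.range_eq_map, hrange]
    · show ⁅imageAlong θ (U (i + 1)), imageAlong θ (U (i + 1))⁆ ≤ imageAlong θ (U i)
      rw [imageAlong, imageAlong, ← Subgroup.map_commutator]
      refine Subgroup.map_mono (Subgroup.commutator_le.mpr fun x hx y hy => ?_)
      exact Subgroup.mem_subgroupOf.mpr (hc i (Subgroup.commutator_mem_commutator hx hy))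
  · rintro ⟨⟨n, U, h0, hn, hmo, hsc, hc⟩, m, W, w0, wn, wmo, wsc, wc⟩
    have hA0 : invPart F T (U 0) = ⊥ := by
      refine le_bot_iff.mp fun x hx => ?_
      obtain ⟨hxT, h⟩ := mem_invPart.mp hx
      have := h 1 (one_mem _)
      rwa [h0] at this
    have hAn : invPart F T (U n) = T := le_antisymm (invPart_le F T _) fun x hx =>
      mem_invPart.mpr ⟨hx, fun α _ => hn.ge (α _).2⟩
    have hP0 : preimageAlong θ (W 0) = T := by
      ext x
      rw [mem_preimageAlong, w0]
      exact ⟨fun ⟨_, h⟩ => (hker _).mp (Subgroup.mem_bot.mp h),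
        fun h => ⟨hTS h, Subgroup.mem_bot.mpr ((hker _).mpr h)⟩⟩
    have hPm : preimageAlong θ (W m) = S := le_antisymm (preimageAlong_le θ _) fun x hx =>
      mem_preimageAlong.mpr ⟨hx, by rw [wn]; exact hrange.le ⟨_, rfl⟩⟩
    have hAc : ∀ i, ⁅invPart F T (U (i + 1)), invPart F T (U (i + 1))⁆ ≤ invPart F T (U i) := by
      intro i
      refine Subgroup.commutator_le.mpr fun x hx y hy => ?_
      obtain ⟨hxT, h1⟩ := mem_invPart.mp hx
      obtain ⟨hyT, h2⟩ := mem_invPart.mp hy
      refine mem_invPart.mpr ⟨self_commutator_le T (Subgroup.commutator_mem_commutator hxT hyT),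
        fun α hα => ?_⟩
      have e : ((α ⁅(⟨x, hxT⟩ : T), (⟨y, hyT⟩ : T)⁆ : T) : Ω) =
          ⁅((α ⟨x, hxT⟩ : T) : Ω), ((α ⟨y, hyT⟩ : T) : Ω)⁆ := by
        rw [map_commutatorElement]
        rfl
      exact (congrArg (· ∈ U i) e).mpr
        (hc i (Subgroup.commutator_mem_commutator (h1 α hα) (h2 α hα)))
    have hPc : ∀ i, ⁅preimageAlong θ (W (i + 1)), preimageAlong θ (W (i + 1))⁆ ≤
        preimageAlong θ (W i) := fun i =>
      commutator_le_of_apply (preimageAlong_le θ _) fun x hx y hy => by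
        rw [map_commutatorElement]
        exact wc i (Subgroup.commutator_mem_commutator (mem_preimageAlong.mp hx).2
          (mem_preimageAlong.mp hy).2)
    have hAm : ∀ i j, i ≤ j → invPart F T (U i) ≤ invPart F T (U j) := fun i j h x hx => by
      obtain ⟨hxT, h1⟩ := mem_invPart.mp hx
      exact mem_invPart.mpr ⟨hxT, fun α hα => hmo h (h1 α hα)⟩
    have hPm' : ∀ i j, i ≤ j → preimageAlong θ (W i) ≤ preimageAlong θ (W j) := fun i j h x hx =>
      mem_preimageAlong.mpr ⟨(mem_preimageAlong.mp hx).1, wmo h (mem_preimageAlong.mp hx).2⟩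
    refine ⟨n + m, fun i => if i ≤ n then invPart F T (U i) else preimageAlong θ (W (i - n)),
      ?_, ?_, ?_, fun i => ?_, fun i => ?_⟩
    · simpa using hA0
    · dsimp only
      split_ifs with h
      · obtain rfl : m = 0 := by omega
        rw [Nat.add_zero, hAn, ← hP0, hPm]
      · rw [Nat.add_sub_cancel_left, hPm]
    · intro i j h
      dsimp only
      split_ifs with hi hj hj
      · exact hAm i j h
      · exact (invPart_le F T _).trans
          (ker_le_preimageAlong hTS hker (W (j - n)))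
      · omega
      · exact hPm' _ _ (by omega)
    · dsimp only
      split_ifs
      · exact stronglyClosed_invPart hE.1.2.2 (hsc _)
      · exact factor_stronglyClosed_preimage hS hF hTsc hD (wsc _)
    · dsimp only
      by_cases h : i + 1 ≤ n
      · rw [if_pos h, if_pos (by omega)]
        exact hAc i
      · rw [if_neg h]
        split_ifs with h'
        · obtain rfl : i = n := by omega
          rw [Nat.add_sub_cancel_left, hAn, ← hP0]
          exact hPc 0
        · rw [show i + 1 - n = i - n + 1 by omega]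
          exact hPc _

end Cfsg.Agent.S5159
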