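import Cfsg.Statements.S5164
import Cfsg.Agent.S3835
-- import your own Cfsg.Agent.* helpers here

set_option autoImplicit false
open Cfsg

namespace Cfsg.Agent.S5164

open Cfsg

/-- For n ≥ 6 and a prime p, a nontrivial Sylow p-subgroup of the alternating group of degree n is abelian if and only if n < p². -/
theorem result (n p : ℕ) (hn : 6 ≤ n) [Fact p.Prime] (S : Sylow p (alternatingGroup (Fin n))) (hS : (S : Subgroup (alternatingGroup (Fin n))) ≠ ⊥) : IsMulCommutative S ↔ n < p ^ 2 := by
  have hp : p.Prime := Fact.out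
  constructor
  · intro hab
    by_contra hlt
    push Not at hlt
    have hall : ∀ P : Subgroup (alternatingGroup (Fin n)), IsPGroup p P → ∀ x y : P, x * y = y * x := by
      intro P hP x y
      obtain ⟨T, hT⟩ := hP.exists_le_sylow
      obtain ⟨g, hg⟩ := MulAction.exists_smul_eq (alternatingGroup (Fin n)) T S
      have hmem : ∀ z ∈ P, g * z * g⁻¹ ∈ (S : Subgroup (alternatingGroup (Fin n))) := fun z hz => by
        rw [← hg, Sylow.coe_subgroup_smul, Subgroup.pointwise_smul_def]
        exact ⟨z, hT hz, rfl⟩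
      have h := congrArg Subtype.val
        (hab.is_comm.comm (⟨_, hmem x x.2⟩ : (S : Subgroup (alternatingGroup (Fin n)))) ⟨_, hmem y y.2⟩)
      simp only [Subgroup.coe_mul] at h
      apply Subtype.ext
      simp only [Subgroup.coe_mul]
      rw [show (g * (x : alternatingGroup (Fin n)) * g⁻¹) * (g * y * g⁻¹) = g * (x * y) * g⁻¹ by group,
        show (g * (y : alternatingGroup (Fin n)) * g⁻¹) * (g * x * g⁻¹) = g * (y * x) * g⁻¹ by group] at h
      exact mul_left_cancel (mul_right_cancel h)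
    rcases eq_or_ne p 2 with rfl | hp2
    · let e : Fin 6 ↪ Fin n := Fin.castLEEmb hn
      let Φ : Equiv.Perm (Fin 6) →* Equiv.Perm (Fin n) := Equiv.Perm.viaEmbeddingHom e
      let c0 : Equiv.Perm (Fin 6) := Equiv.swap 0 1 * Equiv.swap 1 2 * Equiv.swap 2 3 * Equiv.swap 4 5
      let d0 : Equiv.Perm (Fin 6) := Equiv.swap 1 3 * Equiv.swap 4 5
      have hsign : ∀ σ : Equiv.Perm (Fin 6), Equiv.Perm.sign (Φ σ) = Equiv.Perm.sign σ := fun σ =>
        @Equiv.Perm.sign_extendDomain _ _ _ _ _ _ σ _ (fun a => Classical.propDecidable _) _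
      have hc : Φ c0 ∈ alternatingGroup (Fin n) := Equiv.Perm.mem_alternatingGroup.2 (by rw [hsign]; decide)
      have hd : Φ d0 ∈ alternatingGroup (Fin n) := Equiv.Perm.mem_alternatingGroup.2 (by rw [hsign]; decide)
      let c : alternatingGroup (Fin n) := ⟨Φ c0, hc⟩
      let d : alternatingGroup (Fin n) := ⟨Φ d0, hd⟩
      have hc4 : c ^ 4 = 1 := Subtype.ext (by
        show (Φ c0) ^ 4 = 1
        rw [← map_pow, show c0 ^ 4 = 1 by decide, map_one])
      have hd2 : d ^ 2 = 1 := Subtype.ext (by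
        show (Φ d0) ^ 2 = 1
        rw [← map_pow, show d0 ^ 2 = 1 by decide, map_one])
      have hdc : d * c * d⁻¹ = c⁻¹ := Subtype.ext (by
        show Φ d0 * Φ c0 * (Φ d0)⁻¹ = (Φ c0)⁻¹
        rw [← map_inv, ← map_inv, ← map_mul, ← map_mul, show d0 * c0 * d0⁻¹ = c0⁻¹ by decide])
      have hne : c * d ≠ d * c := fun h => by
        have h' := congrArg Subtype.val h
        change Φ c0 * Φ d0 = Φ d0 * Φ c0 at h'
        rw [← map_mul, ← map_mul] at h'
        exact absurd (Equiv.Perm.viaEmbeddingHom_injective e h') (by decide)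
      have hpow : ∀ (x : alternatingGroup (Fin n)) (k : ℕ), x ^ 2 ^ k = 1 → IsPGroup 2 (Subgroup.zpowers x) := by
        intro x k hx
        obtain ⟨j, -, hj⟩ := (Nat.dvd_prime_pow hp).1 (orderOf_dvd_of_pow_eq_one hx)
        exact IsPGroup.of_card (n := j) (by rw [Nat.card_zpowers, hj])
      have hnorm : Subgroup.zpowers d ≤ Subgroup.normalizer (Subgroup.zpowers c : Set (alternatingGroup (Fin n))) := by
        rw [Subgroup.zpowers_le]
        refine Subgroup.mem_normalizer_fintype fun y hy => ?_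
        obtain ⟨k, rfl⟩ := hy
        show d * c ^ k * d⁻¹ ∈ Subgroup.zpowers c
        rw [← conj_zpow, hdc]
        exact zpow_mem (inv_mem (Subgroup.mem_zpowers c)) k
      have h := hall _ (IsPGroup.to_sup_of_normal_right' (hpow d 1 hd2) (hpow c 2 hc4) hnorm)
        ⟨c, Subgroup.mem_sup_right (Subgroup.mem_zpowers c)⟩ ⟨d, Subgroup.mem_sup_left (Subgroup.mem_zpowers d)⟩
      exact hne (congrArg Subtype.val h)
    · obtain ⟨hiff, hinv⟩ := Cfsg.Agent.S3835.result hp2 n
      have hni := Cfsg.Agent.S3835.not_involves_qd (p := p) hp2 hall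
      obtain ⟨H, ⟨e⟩⟩ := hiff.2 hlt
      refine hni ⟨H, ⊥, inferInstance, ⟨?_⟩⟩
      exact ((QuotientGroup.quotientMulEquivOfEq (Subgroup.bot_subgroupOf H)).trans
        QuotientGroup.quotientBot).trans e
  · intro hlt
    refine ⟨⟨fun x y => ?_⟩⟩
    have h := Cfsg.Agent.S3835.commute_of_isPGroup_perm (p := p) (α := Fin n) (by simpa using hlt)
      ((S : Subgroup (alternatingGroup (Fin n))).map (alternatingGroup (Fin n)).subtype) (S.isPGroup'.map _)
      ⟨_, x.1, x.2, rfl⟩ ⟨_, y.1, y.2, rfl⟩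
    exact Subtype.ext (Subtype.ext (by simpa using congrArg Subtype.val h))

end Cfsg.Agent.S5164
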