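import Cfsg.Statements.S5196
import Cfsg.Agent.Lib.FusionSub.LocalTools
-- import your own Cfsg.Agent.* helpers here

set_option autoImplicit false
universe u
open Cfsg

namespace Cfsg.Agent.S5196

open Cfsg Cfsg.FusionSystem CfsgLib.Alperin CfsgLib.FusionModels CfsgLib.FusionSub

/-- Let p be an odd prime and W a positive characteristic p-functor: W assigns to every finite p-group Q (in a fixed universe) a subgroup W(Q), nontrivial when Q is, carried to W(R) by every isomorphism Q ≅ R; assume also Z(Q) ≤ W(Q) for every finite p-group Q. Suppose W satisfies the local condition: for every finite group G with Sylow p-subgroup P, O_p(G) ∩ Z(G) = O_p(G) ∩ Z(N_G(W(P))). Then W controls weak closure of elements in every saturated fusion system F over a finite p-group S: the centre of the normalizer fusion system of W(S) in F equals the centre of F. (For p = 2 no functor satisfies the local condition, so p is taken odd.) -/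
theorem result {p : ℕ} [Fact p.Prime] (hp : p ≠ 2) (W : ∀ (Q : Type u) [Group Q], Subgroup Q) (hW1 : ∀ (Q : Type u) [Group Q] [Finite Q], IsPGroup p Q → Nontrivial Q → W Q ≠ ⊥) (hW2 : ∀ (Q R : Type u) [Group Q] [Group R] [Finite Q], IsPGroup p Q → ∀ φ : Q ≃* R, (W Q).map φ.toMonoidHom = W R) (hWZ : ∀ (Q : Type u) [Group Q] [Finite Q], IsPGroup p Q → Subgroup.center Q ≤ W Q) (hC : ∀ (G : Type u) [Group G] [Finite G] (P : Sylow p G), Cfsg.pCore p G ⊓ Subgroup.center G = Cfsg.pCore p G ⊓ (Subgroup.center ↥(Subgroup.normalizer (((W ↥(P : Subgroup G)).map (P : Subgroup G).subtype : Subgroup G) : Set G))).map (Subgroup.normalizer (((W ↥(P : Subgroup G)).map (P : Subgroup G).subtype : Subgroup G) : Set G)).subtype) {Ω : Type u} [Group Ω] {S : Subgroup Ω} [Finite S] (hS : IsPGroup p S) (F : Cfsg.FusionSystem S) (hF : F.IsSaturated p) (N : Cfsg.FusionSystem (Cfsg.FusionSystem.normalizerIn S ((W ↥S).map S.subtype))) (hN : F.IsNormalizerSystem ((W ↥S).map S.subtype) N) : N.center = F.center :=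 by
  classical
  set Wf : Subgroup Ω → Subgroup Ω := CfsgLib.FusionSub.groupFunctor W with hWf
  have hW : IsLocalFunctor F Wf := isLocalFunctor_groupFunctor hS F W hW2 hWZ
  have hYS : Wf S ≤ S := hW.le le_rfl
  refine le_antisymm (fun z hz => ?_) (center_le_center_normalizerSystem hYS hW.le_normalizer hN)
  have hNS : normalizerIn S (Wf S) = S :=
    le_antisymm (normalizerIn_le S _) fun x hx => ⟨hx, hW.le_normalizer hx⟩
  haveI : Finite ↥(normalizerIn S ((W ↥S).map S.subtype)) := finite_of_le (normalizerIn_le S _)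
  have hZN : N.IsCentral N.center := CfsgLib.FusionExamples.isCentral_center N
  have hzS : z ∈ S ⊓ Subgroup.centralizer (S : Set Ω) := by
    have := le_center_of_isCentral hZN hz
    exact ⟨this.1.1, Subgroup.centralizer_le hNS.ge this.2⟩
  set V : Subgroup Ω := Subgroup.zpowers z with hVdef
  have hV : V ≤ S ⊓ Subgroup.centralizer (S : Set Ω) := Subgroup.zpowers_le.mpr hzS
  have hVS : V ≤ S := fun v hv => (hV hv).1
  obtain ⟨C, hC'⟩ := CfsgLib.FusionBasics.exists_centralizerSystem F hVS
  have hfix := fun P φ (hφ : φ ∈ F.Hom P) hVP hv =>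
    mem_centralizerSystem_of_fix (F := F) hV hC' hφ hVP hv
  have hCfix : ∀ (P : Subgroup Ω) (φ : P →* Ω), φ ∈ C.Hom P → ∀ hzP : z ∈ P,
      φ ⟨z, hzP⟩ = z := by
    intro P φ hφ hzP
    rw [hC' P] at hφ
    obtain ⟨-, -, -, ψ, -, hψx, hψz⟩ := hφ
    exact (hψx ⟨z, hzP⟩).symm.trans
      ((congrArg ψ (Subtype.ext rfl)).trans (hψz ⟨z, Subgroup.mem_zpowers z⟩))
  have hsub : F.IsSubsystemOf C := by
    refine localGlobal hS hF hW hV hfix (fun P φ hφ hYP hmap => ?_) ?_
    · have hz' : z ∈ P := hYP (hW.centre_le le_rfl hzS)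
      have hfz := apply_eq_of_isCentral hZN
        (mem_normalizerSystem_of_map_eq hW.le_normalizer hN hφ hYP hmap) hz hz'
      refine hfix P φ hφ (Subgroup.zpowers_le.mpr hz') fun v => ?_
      obtain ⟨k, hk⟩ := Subgroup.mem_zpowers_iff.mp v.2
      have e : (⟨(v : Ω), (Subgroup.zpowers_le.mpr hz') v.2⟩ : P) = ⟨z, hz'⟩ ^ k :=
        Subtype.ext hk.symm
      rw [e, map_zpow, hfz, hk]
    · intro Q hQ hQc L _ ι ρ h hgood l
      haveI := h.finite
      have hUS : (normalizerIn S Q) ≤ S := normalizerIn_le S Q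
      haveI := finite_of_le hUS
      have hzQ : z ∈ Q := hQc.2 Q (isConj_refl F hQ.1)
        ⟨hzS.1, Subgroup.centralizer_le hQ.1 hzS.2⟩
      have hzU : z ∈ (normalizerIn S Q) := le_normalizerIn hQ.1 hzQ
      have hzW : z ∈ Wf (normalizerIn S Q) := hW.centre_le hUS ⟨hzU, Subgroup.centralizer_le hUS hzS.2⟩
      obtain ⟨T, hT⟩ := h.exists_sylow hS
      have eWf : (Wf (normalizerIn S Q)).subgroupOf (normalizerIn S Q) = W ↥(normalizerIn S Q) := groupFunctor_subgroupOf W (normalizerIn S Q)
      have eWT : ((W ↥(T : Subgroup L)).map (T : Subgroup L).subtype : Subgroup L) =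
          ((Wf (normalizerIn S Q)).subgroupOf (normalizerIn S Q)).map ι := by
        let e : ↥(normalizerIn S Q) ≃* ↥(T : Subgroup L) :=
          (MonoidHom.ofInjective h.inj).trans (MulEquiv.subgroupCongr hT.symm)
        rw [eWf, ← hW2 ↥(normalizerIn S Q) ↥(T : Subgroup L) (isPGroup_of_le hS hUS) e, Subgroup.map_map]
        exact congrFun (congrArg Subgroup.map (MonoidHom.ext fun x => rfl)) _
      have hC1 := hC L T
      rw [eWT] at hC1
      set M := Subgroup.normalizer ((((Wf (normalizerIn S Q)).subgroupOf (normalizerIn S Q)).map ι : Subgroup L) : Set L)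
      have hcomm : ∀ n ∈ M, n * ι ⟨z, hzU⟩ = ι ⟨z, hzU⟩ * n := by
        intro n hn
        refine conj_eq_of_conjGood (E := C) h.inj (hW.le hUS) (hgood n hn) (fun x => ?_) hzW
          fun φ hφ => hCfix _ φ hφ hzW
        exact Subgroup.map_le_range ι _ (mem_normalizer_conj hn ⟨_, x.2, rfl⟩)
      have hzcore : ι ⟨z, hzU⟩ ∈ Cfsg.pCore p L := by
        haveI := h.map_normal hQ.1
        exact CfsgLib.Cores.le_pCore (N := (Q.subgroupOf (normalizerIn S Q)).map ι) (hN := h.map_normal hQ.1)
          (((isPGroup_of_le hS hUS).to_subgroup _).map ι) ⟨⟨z, hzU⟩, hzQ, rfl⟩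
      have hzM : ι ⟨z, hzU⟩ ∈ M := by
        apply Subgroup.le_normalizer
        exact ⟨_, hzW, rfl⟩
      have hzcen : ι ⟨z, hzU⟩ ∈ Subgroup.center L := by
        refine (hC1.ge ⟨hzcore, ⟨⟨_, hzM⟩, ?_, rfl⟩⟩).2
        exact Subgroup.mem_center_iff.mpr fun n => Subtype.ext (hcomm n n.2)
      refine conjGood_of_centralizes hQc h hV hfix fun v hv => ?_
      obtain ⟨k, hk⟩ := Subgroup.mem_zpowers_iff.mp hv
      have e : v = ⟨z, hzU⟩ ^ k := Subtype.ext hk.symm
      rw [e, map_zpow]
      exact Subgroup.mem_center_iff.mp ((Subgroup.center L).zpow_mem hzcen k) l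
  have hVc : F.IsCentral V := by
    refine ⟨hVS, fun P φ hφ => ?_⟩
    have h' := hsub P hφ
    rw [hC' P] at h'
    exact h'.2.2.2
  exact le_sSup (s := {Q | F.IsCentral Q}) hVc (Subgroup.mem_zpowers z)

end Cfsg.Agent.S5196
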