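import Cfsg.Statements.S5198
import Cfsg.Agent.Lib.Transfer.Residual
import Cfsg.Agent.Lib.FusionSub.Puig
-- import your own Cfsg.Agent.* helpers here

set_option autoImplicit false
open Cfsg Cfsg.FusionSystem CfsgLib.Alperin CfsgLib.FusionSub

namespace Cfsg.Agent.S5198

/-- Let F be a saturated fusion system over a finite p-group S and T a subgroup of S strongly closed in F (so T is normal in S). Then every element x of the hyperfocal subgroup of F acts on T by conjugation as an element of O^p(Aut_F(T))·Inn(T): there is an automorphism of T in the subgroup generated by the elements of Aut_F(T) of order prime to p together with the inner automorphisms of T that agrees with conjugation by x. -/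
theorem result {Ω : Type*} [Group Ω] {S : Subgroup Ω} [Finite S] (p : ℕ) [Fact p.Prime] (hS : IsPGroup p S) (F : Cfsg.FusionSystem S) (hF : F.IsSaturated p) (T : Subgroup Ω) (hT : F.StronglyClosed T) : ∀ x ∈ F.hyperfocalSubgroup p, ∃ α ∈ ((Cfsg.pResidual p ↥(F.autGroup T)).map (F.autGroup T).subtype ⊔ Cfsg.Inn ↥T : Subgroup (MulAut ↥T)), ∀ t : ↥T, ((α t : ↥T) : Ω) = x * (t : Ω) * x⁻¹ := by
  haveI := finite_of_le hT.1
  haveI := finite_autGroup F hT.1
  let A := F.autGroup T
  let M : Subgroup A := Cfsg.pResidual p A ⊔ (Cfsg.Inn T).subgroupOf A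
  haveI : (Cfsg.pResidual p A).Normal := CfsgLib.Transfer.pResidual_normal
  haveI : ((Cfsg.Inn T).subgroupOf A).Normal := by
    refine ⟨fun a ha b => ?_⟩
    obtain ⟨t, ht⟩ := ha
    refine ⟨(b : MulAut T) t, MulEquiv.ext fun y => ?_⟩
    show (b : MulAut T) t * y * ((b : MulAut T) t)⁻¹ = (b : MulAut T) ((a : MulAut T) ((b : MulAut T)⁻¹ y))
    rw [show (a : MulAut T) = MulAut.conj t from ht.symm, MulAut.conj_apply, map_mul, map_mul, map_inv,
      MulAut.apply_inv_self]
  haveI : M.Normal := Subgroup.sup_normal _ _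
  have hN : ∀ s : S, (s : Ω) ∈ Subgroup.normalizer (T : Set Ω) := fun s =>
    stronglyClosed_le_normalizer hT s.2
  let c : S →* A := (T.normalizerMonoidHom.comp (Subgroup.inclusion
    (stronglyClosed_le_normalizer hT))).codRestrict _ fun s =>
      autInducedBy_le_autGroup F hT.1 (conjAut_mem s.2 (hN s))
  have hc : ∀ (s : S) (t : T), (((c s : MulAut T) t : T) : Ω) = (s : Ω) * t * (s : Ω)⁻¹ :=
    fun s t => rfl
  let q : S →* A ⧸ M := (QuotientGroup.mk' M).comp c
  have hqT : ∀ s : S, (s : Ω) ∈ T → q s = 1 := fun s hs => by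
    refine (QuotientGroup.eq_one_iff _).mpr (Subgroup.mem_sup_right ?_)
    exact ⟨⟨s, hs⟩, MulEquiv.ext fun t => Subtype.ext rfl⟩
  have hQ : ∀ b : A ⧸ M, ∃ k, b ^ p ^ k = 1 := fun b => by
    obtain ⟨g, rfl⟩ := QuotientGroup.mk'_surjective M b
    obtain ⟨k, hk⟩ := CfsgLib.Transfer.exists_pow_mem_pResidual (p := p) g
    exact ⟨k, by
      rw [← map_pow]
      exact (QuotientGroup.eq_one_iff _).mpr (Subgroup.mem_sup_left hk)⟩
  have key : ∀ (P : Subgroup Ω) (hP : P ≤ S) (α : F.autGroup P), Nat.Coprime (orderOf α) p →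
      ∀ x : P, q ⟨_, hP ((α : MulAut P) x).2⟩ = q ⟨x, hP x.2⟩ := by
    intro P hP α hα
    have hα' := (mem_autGroup_iff F hP).mp α.2
    obtain ⟨φ', hφ', hx⟩ := exists_lift_mod hS hF hT hα'
    have hTle : T ≤ P ⊔ T := le_sup_right
    haveI := finite_of_le (sup_le hP hT.1)
    obtain ⟨β, hβ, hβx⟩ := exists_aut_of_hom' F (restrict_mem hφ' hTle)
      fun t => stronglyClosed_apply hT hφ' _ t.2
    set b : A ⧸ M := QuotientGroup.mk' M ⟨β, hβ⟩ with hb
    have hstep : ∀ x : P, q ⟨_, hP ((α : MulAut P) x).2⟩ = b * q ⟨x, hP x.2⟩ * b⁻¹ := by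
      intro x
      let u : ↥(P ⊔ T) := Subgroup.inclusion le_sup_left x
      have hu : φ' u ∈ S := apply_mem hφ' u
      have e1 : q ⟨φ' u, hu⟩ = q ⟨_, hP ((α : MulAut P) x).2⟩ := by
        have := hqT (⟨φ' u, hu⟩ * ⟨_, hP ((α : MulAut P) x).2⟩⁻¹) (hx x)
        rwa [map_mul, map_inv, mul_inv_eq_one] at this
      rw [← e1, hb]
      show QuotientGroup.mk' M (c ⟨φ' u, hu⟩) = QuotientGroup.mk' M ⟨β, hβ⟩ *
        QuotientGroup.mk' M (c ⟨x, hP x.2⟩) * (QuotientGroup.mk' M ⟨β, hβ⟩)⁻¹
      rw [← map_inv, ← map_mul, ← map_mul]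
      congr 1
      refine Subtype.ext (MulEquiv.ext fun t => Subtype.ext ?_)
      rw [hc]
      show _ = ((β ((c ⟨x, hP x.2⟩ : MulAut T) (β⁻¹ t)) : T) : Ω)
      rw [hβx]
      show _ = φ' _
      obtain ⟨t', rfl⟩ := β.surjective t
      rw [MulAut.inv_apply_self, hβx]
      show _ * φ' (Subgroup.inclusion hTle t') * _ = _
      rw [← map_inv, ← map_mul, ← map_mul]
      exact congrArg φ' (Subtype.ext rfl)
    obtain ⟨k, hk⟩ := hQ b
    have hit : ∀ (n : ℕ) (x : P), q ⟨_, hP (((α : MulAut P) ^ n) x).2⟩ =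
        b ^ n * q ⟨x, hP x.2⟩ * (b ^ n)⁻¹ := by
      intro n
      induction n with
      | zero => intro x; simp
      | succ n ih =>
        intro x
        simp only [pow_succ' (α : MulAut P), MulAut.mul_apply]
        rw [hstep, ih, pow_succ']
        group
    intro x
    have hαc : Nat.Coprime (p ^ k) (orderOf (α : MulAut P)) := by
      rw [Subgroup.orderOf_coe]
      exact (Nat.Coprime.pow_right k hα).symm
    obtain ⟨m, hm⟩ := exists_pow_eq_self_of_coprime hαc
    have h := hit (p ^ k * m) x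
    rw [pow_mul b, hk, one_pow, one_mul, inv_one, mul_one] at h
    simp only [pow_mul, hm] at h
    exact h
  intro x hx
  have hH : F.hyperfocalSubgroup p ≤ (q.ker).map S.subtype := by
    refine (Subgroup.closure_le _).mpr ?_
    rintro _ ⟨P, α, y, hP, hα, rfl⟩
    let K : Subgroup (F.autGroup P) :=
      { carrier := {a | ∀ z : P, q ⟨_, hP ((a : MulAut P) z).2⟩ = q ⟨z, hP z.2⟩}
        one_mem' := fun z => rfl
        mul_mem' := fun {a b} ha hb z => (ha ((b : MulAut P) z)).trans (hb z)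
        inv_mem' := fun {a} ha z => by
          have h := ha ((a : MulAut P)⁻¹ z)
          simp only [MulAut.apply_inv_self] at h
          exact h.symm }
    have hK : Cfsg.pResidual p (F.autGroup P) ≤ K :=
      (Subgroup.closure_le _).mpr fun a ha => key P hP a ha
    refine ⟨⟨(y : Ω), hP y.2⟩⁻¹ * ⟨_, hP ((α : MulAut P) y).2⟩, ?_, rfl⟩
    rw [SetLike.mem_coe, MonoidHom.mem_ker, map_mul, map_inv, hK hα y, inv_mul_cancel]
  obtain ⟨s, hs, rfl⟩ := hH hx
  refine ⟨c s, ?_, fun t => hc s t⟩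
  have hM : c s ∈ M := (QuotientGroup.eq_one_iff _).mp hs
  have := Subgroup.mem_map_of_mem A.subtype hM
  rw [Subgroup.map_sup] at this
  exact sup_le_sup_left (Subgroup.map_comap_le _ _) _ this

end Cfsg.Agent.S5198
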