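import Cfsg.Statements.S5200
import Cfsg.Agent.Lib.Alperin.CentralizerOdd

set_option autoImplicit false
open Cfsg

namespace Cfsg.Agent.S5200

/-- Let F be a saturated fusion system over a finite p-group S and E a normal subsystem of F over T whose centralizer in S lies in T: every subgroup Y of C_S(T) such that E is contained in the centralizer fusion system of Y in F satisfies Y ≤ T. Then T·C_S(T)/T is abelian (the commutator subgroup of T·C_S(T) lies in T), and if p is odd then C_S(T) ≤ T. -/
theorem result {Ω : Type*} [Group Ω] {S : Subgroup Ω} [Finite S] (p : ℕ) [Fact p.Prime] (hS : IsPGroup p S) (F : Cfsg.FusionSystem S) (hF : F.IsSaturated p) {T : Subgroup Ω} (E : Cfsg.FusionSystem T) (hE : E.IsNormalIn F p) (hCE : ∀ Y : Subgroup Ω, Y ≤ Cfsg.FusionSystem.centralizerIn S T → (∀ C : Cfsg.FusionSystem (Cfsg.FusionSystem.centralizerIn S Y), F.IsCentralizerSystem Y C → E.IsSubsystemOf C) → Y ≤ T) : ⁅T ⊔ Cfsg.FusionSystem.centralizerIn S T, T ⊔ Cfsg.FusionSystem.centralizerIn S T⁆ ≤ T ∧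 (p ≠ 2 → Cfsg.FusionSystem.centralizerIn S T ≤ T) := by
  haveI : Finite T := CfsgLib.Alperin.finite_of_le hE.1.2.2.2.1.1
  exact ⟨CfsgLib.Alperin.NormalLift.commutator_sup_le hS hE hCE,
    fun hp => CfsgLib.Alperin.NormalLift.centralizerIn_le_of_odd hp hS hE hCE⟩

end Cfsg.Agent.S5200
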