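import Cfsg.Statements.S5203
import Cfsg.Agent.Lib.FusionSub.Residual
-- import your own Cfsg.Agent.* helpers here

set_option autoImplicit false
open Cfsg

namespace Cfsg.Agent.S5203

/-- Let F be a saturated fusion system over a finite p-group S and E a normal subsystem of F over T that has p-power index in F. Then every residual limit of E has the same maps as every residual limit of F (the residual limit is reached by alternately passing to the p-residual and the p'-residual subsystem until nothing changes). -/
theorem result {Ω : Type*} [Group Ω] {S : Subgroup Ω} [Finite S] (p : ℕ) [Fact p.Prime] (hS : IsPGroup p S) (F : Cfsg.FusionSystem S) (hF : F.IsSaturated p) {T : Subgroup Ω} (E : Cfsg.FusionSystem T) (hE : E.IsNormalIn F p) (hidx : E.HasPPowerIndexIn F p) {U V : Subgroup Ω} (Finf : Cfsg.FusionSystem U) (hFinf : Finf.IsResidualLimitOf F p) (Einf : Cfsg.FusionSystem V) (hEinf : Einf.IsResidualLimitOf E p) : ∀ P : Subgroup Ω, Finf.Hom P = Einf.Hom P := by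
  have hTS := CfsgLib.FusionSub.subsystem_le hidx.1
  cases hFinf with
  | stable _ _ a b =>
    obtain rfl : T = S := le_antisymm hTS (a ▸ hidx.2.1)
    obtain rfl : F = E := CfsgLib.FusionSub.system_eq_of_subsystem
      (CfsgLib.FusionSub.subsystem_of_pPowerIndex hS hF (fun _ => le_rfl) hidx le_rfl) hidx.1
    exact fun P => (CfsgLib.FusionSub.residualLimit_of_stable hS a b hEinf rfl (fun _ => rfl) P).symm
  | step _ _ D D' hD hD' hL =>
    haveI := CfsgLib.Alperin.finite_of_le hTS
    refine CfsgLib.FusionSub.residualLimit_unique (CfsgLib.Alperin.isPGroup_of_le hS hTS) ?_ hEinf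
    have key : ∀ {W : Subgroup Ω}, W = E.hyperfocalSubgroup p → ∀ (D D' : Cfsg.FusionSystem W),
        D.IsSaturated p → D.HasPPowerIndexIn E p → D.IsPPrimeResidual p D' →
        Finf.IsResidualLimitOf D' p → Finf.IsResidualLimitOf E p := by
      rintro W rfl D D' a b c d
      exact .step E p D D' ⟨a, b⟩ c d
    have heq := CfsgLib.FusionSub.hyperfocal_eq_of_pPowerIndex hS hidx
    refine key heq.symm D D' hD.1 ⟨?_, heq.le, fun P hP => ?_⟩ hD' hL
    · exact CfsgLib.FusionSub.subsystem_of_pPowerIndex hS hD.1 hD.2.1 hidx hidx.2.1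
    · exact (CfsgLib.FusionSub.map_pResidual_mono hidx.1 p P).trans (hD.2.2.2 P hP)

end Cfsg.Agent.S5203
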