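import Cfsg.Statements.S5206
import Cfsg.Agent.Lib.FusionSub.QdFree
-- import your own Cfsg.Agent.* helpers here

set_option autoImplicit false
universe u
open Cfsg

namespace Cfsg.Agent.S5206

open Cfsg Cfsg.FusionSystem CfsgLib.FusionSub

/-- Let p be an odd prime, G a finite group and P a Sylow p-subgroup of G. Then the fusion system of G on P is Qd(p)-free (Qd(p), the natural semidirect product of an elementary abelian group of order p² by SL₂(p), is not involved in any model of the normalizer system of a fully normalized centric subgroup) if and only if Qd(p) is not involved in G. -/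
theorem result {G : Type u} [Group G] [Finite G] {p : ℕ} [Fact p.Prime] (hp : p ≠ 2) (P : Sylow p G) : (Cfsg.groupFusionSystem (P : Subgroup G)).IsSectionFree p ↥(Cfsg.qd p) ↔ ¬ Cfsg.Involves ↥(Cfsg.qd p) G := by
  exact ⟨fun hfree hinv => not_sectionFree_of_involves_qd hp P hinv hfree,
    fun h => group_isSectionFree P h⟩

end Cfsg.Agent.S5206
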