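import Cfsg.Statements.S5217
import Cfsg.Agent.Lib.FusionBicyclic.Reduce
import Cfsg.Agent.Lib.FusionBicyclic.Model
import Cfsg.Agent.Lib.FusionBicyclic.Top
import Cfsg.Agent.Lib.FusionBicyclic.Cases

set_option autoImplicit false
open Cfsg

namespace Cfsg.Agent.S5217

open CfsgLib.FusionBicyclic

/-- Let S be a finite bicyclic 2-group (S = ⟨x⟩⟨y⟩) that is not metacyclic. Then S supports a saturated fusion system other than its inner fusion system if and only if the commutator subgroup of S is cyclic. -/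
theorem result {Ω : Type*} [Group Ω] {S : Subgroup Ω} [Finite S] (hS : IsPGroup 2 S) (hb : ∃ x y : ↥S, ∀ g : ↥S, ∃ i j : ℤ, g = x ^ i * y ^ j) (hm : ¬ Cfsg.IsMetacyclic ↥S) : (∃ F : Cfsg.FusionSystem S, F.IsSaturated 2 ∧ ¬ ∀ P : Subgroup Ω, F.Hom P = (Cfsg.innerFusionSystem S).Hom P) ↔ IsCyclic ↥(commutator ↥S) := by
  constructor
  · rintro ⟨F, hF, hne⟩
    by_contra hnc
    obtain ⟨a, b, n, h⟩ := exists_data hS hb hm hnc
    obtain ⟨P, Δ, hcentric, hnotTwo, hconj, hrad, hsylow⟩ := exists_radical hS hF hne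
    by_cases hP : P = ⊤
    · exact hnotTwo (h.isPGroup_of_top hS hP Δ)
    · exact h.false_of_proper hS ⟨hcentric, hnotTwo, hconj, hrad hP, hsylow⟩ hP
  · intro hc
    obtain ⟨a, b, hgen, hbb⟩ := exists_gen hS hb hm
    refine exists_noninner_of_cyclic hS hc hm a b hgen ?_
    have hu : a * b * a⁻¹ * b⁻¹ ∈ commutator ↥S := CfsgLib.FusionBicyclic.comm_mem a b
    haveI : (Subgroup.zpowers (a * b * a⁻¹ * b⁻¹)).Normal := ⟨fun v hv g => by
      have := mul_mem (comm_mem_zpowers hc hgen g v) hv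
      rwa [inv_mul_cancel_right] at this⟩
    exact derR_le_zpowers_sq hu (commutator_le_of_mem hgen (Subgroup.mem_zpowers _)) hbb

end Cfsg.Agent.S5217
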