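import Cfsg.Statements.S5222
import Cfsg.Agent.Lib.FusionModels.Unique
import Cfsg.Agent.Lib.FusionBasics.KSystem
import Mathlib.GroupTheory.Transfer
import Mathlib.GroupTheory.Frattini

set_option autoImplicit false
set_option linter.style.haveILetI false
open Cfsg Cfsg.FusionSystem CfsgLib.Alperin CfsgLib.FusionModels
open scoped commutatorElement

namespace Cfsg.Agent.S5222

/-- A finite group with self-normalizing Sylow subgroup `T`, normal subgroup `Q ≤ Φ(T)` with `T/Q`
abelian and normal subgroup `P ≤ T` containing its centralizer equals `T`. -/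
theorem eq_top_of_selfNormalizing {L : Type*} [Group L] [Finite L] {p : ℕ} [Fact p.Prime]
    (T : Sylow p L) (Q P : Subgroup L) [Q.Normal] [P.Normal] (hQT : Q ≤ T) (hPT : P ≤ T)
    (hN : Subgroup.normalizer ((T : Subgroup L) : Set L) ≤ T)
    (hcomm : ∀ a ∈ (T : Subgroup L), ∀ b ∈ (T : Subgroup L), a * b * a⁻¹ * b⁻¹ ∈ Q)
    (hPhi : ∀ V : Subgroup L, V ≤ T → (T : Subgroup L) ≤ V ⊔ Q → (T : Subgroup L) ≤ V)
    (hC : Subgroup.centralizer (P : Set L) ≤ P) : (T : Subgroup L) = ⊤ := by
  classical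
  set q := QuotientGroup.mk' Q with hqdef
  have hq : Function.Surjective q := QuotientGroup.mk'_surjective Q
  set Tb := T.mapSurjective hq with hTb
  have hTbc : (Tb : Subgroup (L ⧸ Q)) = (T : Subgroup L).map q := Sylow.coe_mapSurjective hq T
  have hcom : (T : Subgroup L).map q ≤
      Subgroup.centralizer (((T : Subgroup L).map q : Subgroup (L ⧸ Q)) : Set (L ⧸ Q)) := by
    rintro _ ⟨a, ha, rfl⟩ _ ⟨b, hb, rfl⟩
    have h := (QuotientGroup.eq_one_iff (N := Q) _).mpr (hcomm b hb a ha)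
    rw [← map_mul, ← map_mul, ← mul_inv_eq_one, ← map_inv, ← map_mul,
      show b * a * (a * b)⁻¹ = b * a * b⁻¹ * a⁻¹ by group]
    exact h
  have hNb : Subgroup.normalizer ((Tb : Subgroup (L ⧸ Q)) : Set (L ⧸ Q)) ≤
      Subgroup.centralizer ((Tb : Subgroup (L ⧸ Q)) : Set (L ⧸ Q)) := by
    intro x hx
    rw [hTbc] at hx ⊢
    obtain ⟨g, rfl⟩ := hq x
    refine hcom ⟨g, hN (Subgroup.mem_normalizer_iff.mpr fun y => ?_), rfl⟩
    have hT : ∀ z, z ∈ (T : Subgroup L) ↔ q z ∈ (T : Subgroup L).map q := fun z => by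
      refine ⟨fun h => ⟨z, h, rfl⟩, ?_⟩
      rintro ⟨w, hw, he⟩
      have h1 : w⁻¹ * z ∈ Q := QuotientGroup.eq.mp he
      have := (T : Subgroup L).mul_mem hw (hQT h1)
      rwa [mul_inv_cancel_left] at this
    rw [hT, hT, map_mul, map_mul, map_inv]
    exact Subgroup.mem_normalizer_iff.mp hx (q y)
  set kb := (MonoidHom.transferSylow Tb hNb).ker with hkb
  have hkc : Subgroup.IsComplement' kb (Tb : Subgroup (L ⧸ Q)) :=
    MonoidHom.ker_transferSylow_isComplement' Tb hNb
  have hkidx : kb.index = Nat.card (Tb : Subgroup (L ⧸ Q)) := hkc.symm.index_eq_card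
  set K := kb.comap q with hK
  haveI hKn : K.Normal := Subgroup.Normal.comap inferInstance q
  have hKidx : K.index = kb.index := Subgroup.index_comap_of_surjective _ hq
  obtain ⟨n, hn⟩ := IsPGroup.iff_card.mp Tb.2
  by_contra hne
  obtain ⟨r, hr, hrdvd⟩ := Nat.exists_prime_and_dvd
    (fun h => hne (Subgroup.index_eq_one.mp h) : (T : Subgroup L).index ≠ 1)
  have hrp : r ≠ p := fun h => T.not_dvd_index (h ▸ hrdvd)
  haveI := Fact.mk hr
  have hrK : r ∣ Nat.card K := by
    have h1 : r ∣ Nat.card K * K.index := by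
      rw [Subgroup.card_mul_index]
      exact hrdvd.trans (Subgroup.index_dvd_card _)
    refine (hr.dvd_mul.mp h1).resolve_right fun h => hrp ?_
    rw [hKidx, hkidx, hn] at h
    exact (Nat.prime_dvd_prime_iff_eq hr Fact.out).mp (hr.dvd_of_dvd_pow h)
  let R : Sylow r K := default
  set R' := (R : Subgroup K).map K.subtype with hR'
  have hR'ne : R' ≠ ⊥ := fun h => by
    refine R.ne_bot_of_dvd_card hrK ?_
    exact (Subgroup.map_eq_bot_iff_of_injective _ K.subtype_injective).mp h
  have hfr : Subgroup.normalizer (R' : Set L) ⊔ K = ⊤ := Sylow.normalizer_sup_eq_top R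
  set N := Subgroup.normalizer (R' : Set L) with hNdef
  let V : Sylow p N := default
  set V' := (V : Subgroup N).map N.subtype with hV'
  have hsupK : V' ⊔ K = ⊤ := by
    let f : ↥N →* L ⧸ K := (QuotientGroup.mk' K).comp N.subtype
    have hf : Function.Surjective f := by
      intro y
      obtain ⟨g, rfl⟩ := QuotientGroup.mk'_surjective K y
      have : g ∈ N ⊔ K := hfr ▸ Subgroup.mem_top g
      obtain ⟨a, ha, b, hb, rfl⟩ := Subgroup.mem_sup_of_normal_right.mp this
      refine ⟨⟨a, ha⟩, ?_⟩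
      show QuotientGroup.mk' K a = QuotientGroup.mk' K (a * b)
      rw [map_mul, show QuotientGroup.mk' K b = 1 from (QuotientGroup.eq_one_iff b).mpr hb, mul_one]
    have hpq : IsPGroup p (L ⧸ K) := IsPGroup.of_card (n := n)
      ((Subgroup.index_eq_card K).symm.trans ((hKidx.trans hkidx).trans hn))
    have htop : ((V.mapSurjective hf : Sylow p (L ⧸ K)) : Subgroup (L ⧸ K)) = ⊤ :=
      ((V.mapSurjective hf).3 (hpq.to_subgroup ⊤) le_top).symm
    rw [eq_top_iff]
    intro g _
    have hg := htop.ge (Subgroup.mem_top (QuotientGroup.mk' K g))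
    rw [Sylow.coe_mapSurjective] at hg
    obtain ⟨v, hv, hvg⟩ := hg
    have h1 : (v : L)⁻¹ * g ∈ K := QuotientGroup.eq.mp hvg
    have := Subgroup.mul_mem_sup (show (v : L) ∈ V' from ⟨v, hv, rfl⟩) h1
    rwa [mul_inv_cancel_left] at this
  have hVp : IsPGroup p V' := V.2.map _
  set W := V' ⊔ Q with hW
  have hWp : IsPGroup p W := hVp.to_sup_of_normal_right (T.2.to_le hQT)
  have hmapW : W.map q = V'.map q := by
    rw [hW, Subgroup.map_sup, sup_eq_left]
    rintro _ ⟨a, ha, rfl⟩
    rw [show q a = 1 from (QuotientGroup.eq_one_iff a).mpr ha]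
    exact one_mem _
  have hWidx : ¬ p ∣ W.index := by
    have hcomap : (W.map q).comap q = W := by
      rw [Subgroup.comap_map_eq, QuotientGroup.ker_mk']
      exact sup_eq_left.mpr le_sup_right
    rw [← hcomap, Subgroup.index_comap_of_surjective _ hq]
    have hsup : W.map q ⊔ kb = ⊤ := by
      have := congrArg (Subgroup.map q) hsupK
      rw [Subgroup.map_sup, Subgroup.map_top_of_surjective q hq, hK,
        Subgroup.map_comap_eq_self_of_surjective hq] at this
      rw [hmapW, this]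
    have hge : Nat.card (Tb : Subgroup (L ⧸ Q)) ≤ Nat.card (W.map q) := by
      rw [← hkidx, Subgroup.index_eq_card]
      haveI : kb.Normal := inferInstance
      refine Nat.card_le_card_of_surjective
        (fun x : W.map q => (QuotientGroup.mk (x : L ⧸ Q) : (L ⧸ Q) ⧸ kb)) fun y => ?_
      obtain ⟨z, rfl⟩ := QuotientGroup.mk_surjective y
      obtain ⟨a, ha, b, hb, rfl⟩ :=
        Subgroup.mem_sup_of_normal_right.mp (hsup.ge (Subgroup.mem_top z))
      exact ⟨⟨a, ha⟩, QuotientGroup.eq.mpr (by simpa using hb)⟩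
    obtain ⟨S₁, hS₁⟩ := (hWp.map q).exists_le_sylow
    have heq : W.map q = S₁ := Subgroup.eq_of_le_of_card_ge hS₁
      (by rw [Sylow.card_eq_multiplicity S₁, ← Sylow.card_eq_multiplicity Tb]; exact hge)
    rw [heq]
    exact S₁.not_dvd_index
  obtain ⟨g, hg⟩ := MulAction.exists_smul_eq L (hWp.toSylow hWidx) T
  have hgW : (T : Subgroup L) = W.map (MulAut.conj g).toMonoidHom := by
    rw [← hg, Sylow.coe_subgroup_smul]
    rfl
  have hTV : (T : Subgroup L) ≤ V'.map (MulAut.conj g).toMonoidHom := by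
    refine hPhi _ (hgW ▸ Subgroup.map_mono le_sup_left) ?_
    rw [hgW, hW, Subgroup.map_sup]
    refine sup_le_sup le_rfl ?_
    rintro _ ⟨a, ha, rfl⟩
    exact Subgroup.Normal.conj_mem inferInstance a ha g
  -- the conjugate of `R'` is normalized by `T`, hence centralizes `P`
  refine hR'ne ((Subgroup.eq_bot_iff_forall _).mpr fun x hx => ?_)
  obtain ⟨a, ha⟩ : ∃ a, a = g * x * g⁻¹ := ⟨_, rfl⟩
  have hnorm : ∀ t ∈ (T : Subgroup L), ∀ y ∈ R'.map (MulAut.conj g).toMonoidHom,
      t * y * t⁻¹ ∈ R'.map (MulAut.conj g).toMonoidHom := by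
    intro t ht
    obtain ⟨v, hv, rfl⟩ := hTV ht
    rintro _ ⟨y, hy, rfl⟩
    obtain ⟨v', -, rfl⟩ := hv
    refine ⟨(v' : L) * y * (v' : L)⁻¹, (Subgroup.mem_normalizer_iff.mp v'.2 y).mp hy, ?_⟩
    simp [mul_assoc]
  have hdisj : Disjoint P (R'.map (MulAut.conj g).toMonoidHom) :=
    IsPGroup.disjoint_of_ne p r (Ne.symm hrp) P _ (T.2.to_le hPT) ((R.2.map _).map _)
  have haC : g * x * g⁻¹ ∈ Subgroup.centralizer (P : Set L) := by
    intro y hy
    have hxR : g * x * g⁻¹ ∈ R'.map (MulAut.conj g).toMonoidHom := ⟨x, hx, rfl⟩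
    have h1 : y * (g * x * g⁻¹) * y⁻¹ * (g * x * g⁻¹)⁻¹ ∈ R'.map (MulAut.conj g).toMonoidHom :=
      mul_mem (hnorm y (hPT hy) _ hxR) (inv_mem hxR)
    have h2 : y * (g * x * g⁻¹) * y⁻¹ * (g * x * g⁻¹)⁻¹ ∈ P := by
      have := Subgroup.Normal.conj_mem inferInstance _ (P.inv_mem hy) (g * x * g⁻¹)
      simpa [mul_assoc] using P.mul_mem hy this
    have h3 := Subgroup.disjoint_def.mp hdisj h2 h1
    rw [mul_inv_eq_one, mul_inv_eq_iff_eq_mul] at h3
    exact h3
  have h4 : g * x * g⁻¹ = 1 := Subgroup.disjoint_def.mp hdisj (hC haC) ⟨x, hx, rfl⟩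
  exact conj_eq_one_iff.mp h4

/-- Let F be a saturated fusion system over a finite p-group S whose normalizer fusion system of S is the inner fusion system of S (Aut_F(S) is a p-group). Then for every subgroup Q of S with [S, S] ≤ Q ≤ Φ(S), the normalizer fusion system of Q in F is the inner fusion system of N_S(Q) = S. -/
theorem result {Ω : Type*} [Group Ω] {S : Subgroup Ω} [Finite S] (p : ℕ) [Fact p.Prime] (hS : IsPGroup p S) (F : Cfsg.FusionSystem S) (hF : F.IsSaturated p) (hN : ∀ N : Cfsg.FusionSystem (Cfsg.FusionSystem.normalizerIn S S), F.IsNormalizerSystem S N → ∀ P : Subgroup Ω, N.Hom P = (Cfsg.innerFusionSystem (Cfsg.FusionSystem.normalizerIn S S)).Hom P) (Q : Subgroup Ω) (h1 : (commutator ↥S).map S.subtype ≤ Q) (h2 : Q ≤ (frattini ↥S).map S.subtype) : ∀ N : Cfsg.FusionSystem (Cfsg.FusionSystem.normalizerIn S Q), F.IsNormalizerSystem Q N → ∀ P : Subgroup Ω, N.Hom P = (Cfsg.innerFusionSystem (Cfsg.FusionSystem.normalizerIn S Q)).Hom P := by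
  classical
  have hQS : Q ≤ S := h2.trans fun x ⟨y, _, hy⟩ => hy ▸ y.2
  have hcomm : ∀ a ∈ S, ∀ b ∈ S, a * b * a⁻¹ * b⁻¹ ∈ Q := fun a ha b hb => by
    refine h1 ⟨⁅(⟨a, ha⟩ : S), ⟨b, hb⟩⁆, Subgroup.commutator_mem_commutator (Subgroup.mem_top _)
      (Subgroup.mem_top _), rfl⟩
  -- every subgroup between `Q` and `S` is normal in `S`
  have hnorm : ∀ P : Subgroup Ω, Q ≤ P → P ≤ S → S ≤ normalizerIn S P := by
    intro P hQP hPS s hs
    refine ⟨hs, Subgroup.mem_normalizer_iff.mpr fun y => ⟨fun hy => ?_, fun hy => ?_⟩⟩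
    · have := P.mul_mem (hQP (hcomm s hs y (hPS hy))) hy
      simpa [mul_assoc] using this
    · have hyS : y ∈ S := by
        have := S.mul_mem (S.mul_mem (S.inv_mem hs) (hPS hy)) hs
        simpa [mul_assoc] using this
      have := P.mul_mem (P.inv_mem (hQP (hcomm s hs y hyS))) hy
      simpa [mul_assoc] using this
  have hfn : ∀ P : Subgroup Ω, Q ≤ P → P ≤ S → F.IsFullyNormalized P := fun P hQP hPS =>
    ⟨hPS, fun R _ => by
      haveI := CfsgLib.Alperin.finite_of_le (normalizerIn_le S P)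
      exact Subgroup.card_le_of_le ((normalizerIn_le S R).trans (hnorm P hQP hPS))⟩
  -- maps of `F` on `S` are inner
  have hinnS : ∀ φ ∈ F.Hom S, ∃ s ∈ S, ∀ x : S, φ x = s * (x : Ω) * s⁻¹ := by
    intro φ hφ
    obtain ⟨N, hNdef⟩ := CfsgLib.FusionBasics.exists_normalizerSystem F (le_refl S)
    have hφN : φ ∈ N.Hom S := by
      rw [hNdef]
      refine ⟨hφ, le_normalizerIn le_rfl, fun x => le_normalizerIn le_rfl (apply_mem hφ x),
        φ.comp (Subgroup.inclusion (sup_le le_rfl le_rfl)), restrict_mem hφ _, fun x => rfl, ?_⟩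
      apply le_antisymm
      · rintro _ ⟨w, -, rfl⟩
        exact apply_mem hφ _
      · intro y hy
        haveI := CfsgLib.Alperin.finite_of_le (S := S) (range_le hφ)
        have hr : φ.range = S := eq_self_of_isConj (isConj_of_hom hφ)
        obtain ⟨x, rfl⟩ := hr.ge hy
        exact ⟨⟨x, Subgroup.mem_sup_left x.2⟩, x.2, rfl⟩
    rw [hN N hNdef] at hφN
    obtain ⟨-, s, hs, hsx⟩ := hφN
    exact ⟨s, hs.1, hsx⟩
  -- maps above `Q` preserving `Q` are inner
  have main : ∀ (n : ℕ) (P : Subgroup Ω) (hQP : Q ≤ P) (φ : P →* Ω), φ ∈ F.Hom P →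
      (∀ x : P, (x : Ω) ∈ Q → φ x ∈ Q) → Nat.card S - Nat.card P = n →
      ∃ s ∈ S, ∀ x : P, φ x = s * (x : Ω) * s⁻¹ := by
    intro n
    induction n using Nat.strong_induction_on with
    | _ n ih =>
    intro P hQP φ hφ hφQ hn
    have hPS := dom_le hφ
    rcases eq_or_lt_of_le hPS with rfl | hlt
    · exact hinnS φ hφ
    haveI := CfsgLib.Alperin.finite_of_le hQS
    have hQim : ∀ y ∈ Q, ∃ x : P, (x : Ω) ∈ Q ∧ φ x = y := by
      have hsurj : Function.Surjective fun x : Q => (⟨φ ⟨x, hQP x.2⟩, hφQ _ x.2⟩ : Q) := by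
        refine Finite.surjective_of_injective fun a b h => ?_
        have := F.injective_of_mem hφ (congrArg Subtype.val h)
        exact Subtype.ext (congrArg (fun w : P => (w : Ω)) this)
      intro y hy
      obtain ⟨x, hx⟩ := hsurj ⟨y, hy⟩
      exact ⟨⟨x, hQP x.2⟩, x.2, congrArg Subtype.val hx⟩
    have hQR : Q ≤ φ.range := fun y hy => by
      obtain ⟨x, -, rfl⟩ := hQim y hy
      exact ⟨x, rfl⟩
    -- the automorphisms of the image preserving `Q`
    set R := φ.range with hR
    have hRS : R ≤ S := range_le hφ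
    have hRn := hfn R hQR hRS
    haveI := CfsgLib.Alperin.finite_of_le hRS
    haveI := finite_mulAut (P := R)
    let A : Subgroup (MulAut R) :=
      { carrier := {α | α ∈ F.autGroup R ∧ ∀ x : R, (x : Ω) ∈ Q ↔ ((α x : R) : Ω) ∈ Q}
        one_mem' := ⟨one_mem _, fun _ => Iff.rfl⟩
        mul_mem' := fun {a b} ha hb => ⟨mul_mem ha.1 hb.1, fun x => (hb.2 x).trans (ha.2 (b x))⟩
        inv_mem' := fun {a} ha => ⟨inv_mem ha.1, fun x => by
          have := ha.2 (a⁻¹ x)
          simpa using this.symm⟩ }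
    have hconjQ : ∀ s ∈ S, ∀ y : Ω, y ∈ Q ↔ s * y * s⁻¹ ∈ Q := fun s hs =>
      Subgroup.mem_normalizer_iff.mp (hnorm Q le_rfl hQS hs).2
    have hA₁ : autInducedBy S R ≤ A := fun α hα => ⟨autInducedBy_le_autGroup F hRS hα, fun x => by
      obtain ⟨g, hg, hgx⟩ := mem_autInducedBy_iff.mp hα
      rw [hgx]
      exact hconjQ g hg _⟩
    have hA₂ : A ≤ F.autGroup R := fun α hα => hα.1
    -- `A = Aut_S(R)`
    have hAeq : A ≤ autInducedBy S R := by
      by_cases hcR : centralizerIn S R ≤ R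
      · have hcent := isCentric_of_fullyCentralized hS hF
          (centralized_automized_of_fullyNormalized hS hF hRn).1 hcR
        obtain ⟨L, _, ι, ρ, hL⟩ := exists_localModel hS hF hRn hcent hA₁ hA₂
        haveI := hL.finite
        obtain ⟨T, hT⟩ := hL.exists_sylow hS
        have hSN := hnorm R hQR hRS
        let j : S →* L := ι.comp (Subgroup.inclusion hSN)
        have hjT : (T : Subgroup L) = j.range := by
          rw [hT]
          apply le_antisymm
          · rintro _ ⟨m, rfl⟩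
            exact ⟨⟨m, m.2.1⟩, congrArg ι (Subtype.ext rfl)⟩
          · rintro _ ⟨s, rfl⟩
            exact ⟨_, rfl⟩
        have hjinj : Function.Injective j := fun a b h =>
          Subtype.ext (congrArg (fun m : ↥(normalizerIn S R) => (m : Ω)) (hL.inj h))
        haveI := hL.map_normal hRS
        set Pm := (R.subgroupOf (normalizerIn S R)).map ι with hPm
        set Qm := (Q.subgroupOf (normalizerIn S R)).map ι with hQm
        haveI hQn : Qm.Normal := by
          refine ⟨?_⟩
          rintro _ ⟨m, hm, rfl⟩ l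
          have h3 := hL.conj_apply' hRS l ⟨m, hQR hm⟩
          refine ⟨_, ?_, h3.symm⟩
          exact ((hL.rho_mem l).2 ⟨m, hQR hm⟩).mp hm
        have hPT : Pm ≤ T := by rw [hT]; exact Subgroup.map_le_range _ _
        have hQT : Qm ≤ T := by rw [hT]; exact Subgroup.map_le_range _ _
        have hCP : Subgroup.centralizer (Pm : Set L) ≤ Pm := hL.centralizer_le hRS
        have hTN : Subgroup.normalizer ((T : Subgroup L) : Set L) ≤ T := by
          intro l hl
          obtain ⟨χ, hχ, hχx⟩ := hL.exists_hom l hSN fun x => by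
            rw [← hT]
            exact (Subgroup.mem_normalizer_iff.mp hl _).mp (hT.symm ▸ ⟨_, rfl⟩)
          obtain ⟨s, hs, hsx⟩ := hinnS χ hχ
          have hc : (j ⟨s, hs⟩)⁻¹ * l ∈ Subgroup.centralizer (Pm : Set L) := by
            rintro _ ⟨m, hm, rfl⟩
            obtain ⟨hx', he⟩ := hχx ⟨m, m.2.1⟩
            have he2 : ι ⟨χ ⟨m, m.2.1⟩, hx'⟩ = j ⟨s, hs⟩ * ι m * (j ⟨s, hs⟩)⁻¹ := by
              simp only [j, MonoidHom.comp_apply, ← map_inv, ← map_mul]
              exact congrArg ι (Subtype.ext (hsx ⟨m, m.2.1⟩))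
            have he3 : l * ι m * l⁻¹ = j ⟨s, hs⟩ * ι m * (j ⟨s, hs⟩)⁻¹ := he.trans he2
            calc ι m * ((j ⟨s, hs⟩)⁻¹ * l) = (j ⟨s, hs⟩)⁻¹ *
                  (j ⟨s, hs⟩ * ι m * (j ⟨s, hs⟩)⁻¹) * l := by group
              _ = (j ⟨s, hs⟩)⁻¹ * l * ι m := by rw [← he3]; group
          have := (T : Subgroup L).mul_mem (show j ⟨s, hs⟩ ∈ (T : Subgroup L) from hjT ▸ ⟨_, rfl⟩)
            (hPT (hCP hc))
          rwa [mul_inv_cancel_left] at this
        have htop : (T : Subgroup L) = ⊤ := by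
          refine eq_top_of_selfNormalizing T Qm Pm hQT hPT hTN ?_ ?_ hCP
          · intro a ha b hb
            rw [hjT] at ha hb
            obtain ⟨a, rfl⟩ := ha
            obtain ⟨b, rfl⟩ := hb
            exact ⟨Subgroup.inclusion hSN (a * b * a⁻¹ * b⁻¹), hcomm a a.2 b b.2, by simp [j]⟩
          · intro V hVT hle
            have htop' : V.comap j ⊔ frattini S = ⊤ := by
              rw [eq_top_iff]
              intro s _
              have hs' : j s ∈ V ⊔ Qm := hle (hjT ▸ ⟨s, rfl⟩)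
              obtain ⟨v, hv, w, ⟨m, hm, rfl⟩, he⟩ := Subgroup.mem_sup_of_normal_right.mp hs'
              have hmΦ : (⟨m, m.2.1⟩ : S) ∈ frattini S := by
                obtain ⟨u, hu, hum⟩ := h2 hm
                exact (Subtype.ext hum : u = ⟨m, m.2.1⟩) ▸ hu
              have hjm : j ⟨m, m.2.1⟩ = ι m := congrArg ι (Subtype.ext rfl)
              have hv' : s * (⟨m, m.2.1⟩ : S)⁻¹ ∈ V.comap j := by
                rw [Subgroup.mem_comap, map_mul, map_inv, hjm, ← he, mul_inv_cancel_right]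
                exact hv
              have := Subgroup.mul_mem_sup hv' hmΦ
              rwa [inv_mul_cancel_right] at this
            have := frattini_nongenerating htop'
            intro t ht
            rw [hjT] at ht
            obtain ⟨s, rfl⟩ := ht
            exact this.ge (Subgroup.mem_top s)
        intro α hα
        obtain ⟨l, rfl⟩ := hL.range_eq.ge hα
        exact (hL.mem_range_iff l).mp (hT ▸ htop.symm ▸ Subgroup.mem_top l)
      · intro α hα
        set ψ₀ : R →* Ω := R.subtype.comp α.toMonoidHom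
        have hψ₀ : ψ₀ ∈ F.Hom R := (mem_autGroup_iff F hRS).mp hα.1
        obtain ⟨ψ, hψ, hψx⟩ := (receptive_of_fullyNormalized hS hF hRn).2 R ψ₀ hψ₀ (by
          rw [MonoidHom.range_comp, MonoidHom.range_eq_top.mpr α.surjective,
            ← MonoidHom.range_eq_map, Subgroup.range_subtype])
        have hlt' : Nat.card R < Nat.card (extender S R ψ₀) := by
          haveI := CfsgLib.Alperin.finite_of_le (extender_le (S := S) R ψ₀)
          by_contra hle
          have := Subgroup.eq_of_le_of_card_ge (le_extender hψ₀) (not_lt.mp hle)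
          exact hcR ((centralizerIn_le_extender R ψ₀).trans this.ge)
        have hcard : Nat.card R = Nat.card P := card_range_eq (F.injective_of_mem hφ)
        obtain ⟨s, hs, hsx⟩ := ih (Nat.card S - Nat.card (extender S R ψ₀))
          (by have := Subgroup.card_le_of_le (K := S) (extender_le (S := S) R ψ₀); omega)
          (extender S R ψ₀) (hQR.trans (le_extender hψ₀)) ψ hψ
          (fun x hx => by
            rw [show ψ x = ψ ⟨(x : Ω), x.2⟩ from rfl, hψx _ (hQR hx) x.2]
            exact (hα.2 ⟨(x : Ω), hQR hx⟩).mp hx) rfl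
        exact mem_autInducedBy_iff.mpr ⟨s, hs, fun x => by
          rw [← hsx ⟨x, le_extender hψ₀ x.2⟩, hψx _ x.2]
          rfl⟩
    -- the map extends to `S`
    have hext : extender S P φ = S := by
      refine le_antisymm (extender_le P φ) fun g hg => ?_
      have hgP := (hnorm P hQP hPS hg).2
      refine mem_extender_iff.mpr ⟨hg, hgP, ?_⟩
      let e := isoOfHom φ (F.injective_of_mem hφ) rfl
      have hγ : MulAut.congr e (conjAut P g hgP) ∈ A := by
        refine ⟨?_, fun y => ?_⟩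
        · rw [← autGroup_map_congr hφ rfl]
          exact ⟨_, autInducedBy_le_autGroup F hPS (conjAut_mem hg hgP), rfl⟩
        · obtain ⟨x, rfl⟩ := e.surjective y
          have hback : ∀ x : P, φ x ∈ Q → (x : Ω) ∈ Q := fun x hx => by
            obtain ⟨x', hx', he⟩ := hQim _ hx
            exact F.injective_of_mem hφ he ▸ hx'
          have e1 : MulAut.congr e (conjAut P g hgP) (e x) = e (conjAut P g hgP x) := by
            simp [MulAut.congr]
          rw [e1]
          show φ x ∈ Q ↔ φ (conjAut P g hgP x) ∈ Q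
          exact ⟨fun h => hφQ _ ((hconjQ g hg _).mp (hback x h)),
            fun h => hφQ x ((hconjQ g hg _).mpr (hback _ h))⟩
      obtain ⟨h, hh, hhx⟩ := mem_autInducedBy_iff.mp (hAeq hγ)
      refine ⟨h, hh, fun x hx => ?_⟩
      have h3 := hhx (e x)
      simp [MulAut.congr] at h3
      exact (congrArg φ (Subtype.ext rfl)).trans h3
    obtain ⟨ψ, hψ, hψx⟩ := (receptive_of_fullyNormalized hS hF hRn).2 P φ hφ rfl
    obtain ⟨s, hs, hsx⟩ := hinnS (ψ.comp (Subgroup.inclusion hext.ge)) (restrict_mem hψ hext.ge)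
    exact ⟨s, hs, fun x => by
      rw [← hsx ⟨x, hPS x.2⟩]
      exact (hψx x x.2 _).symm⟩
  intro N hNQ P
  ext φ
  rw [hNQ]
  constructor
  · rintro ⟨hφ, hPN, hval, ψ, hψ, hψx, hψQ⟩
    obtain ⟨s, hs, hsx⟩ := main _ (P ⊔ Q) le_sup_right ψ hψ
      (fun x hx => hψQ.le ⟨x, hx, rfl⟩) rfl
    exact ⟨hPN, s, hnorm Q le_rfl hQS hs, fun x => (hψx x).symm.trans (hsx _)⟩
  · rintro ⟨hPN, s, hs, hsx⟩
    have hPS : P ≤ S := hPN.trans inf_le_left
    refine ⟨mem_of_conj hPS hs.1 hsx, hPN, fun x => ?_, conjHom (P ⊔ Q) s,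
      F.conj_mem (sup_le hPS hQS) hs.1, fun x => (hsx x).symm, ?_⟩
    · rw [hsx]
      exact mul_mem (mul_mem hs (hPN x.2)) (inv_mem hs)
    · apply le_antisymm
      · rintro _ ⟨w, hw, rfl⟩
        exact (Subgroup.mem_normalizer_iff.mp hs.2 w).mp hw
      · intro y hy
        have : s⁻¹ * y * s ∈ Q := by
          refine (Subgroup.mem_normalizer_iff.mp hs.2 _).mpr ?_
          simpa [mul_assoc] using hy
        exact ⟨⟨s⁻¹ * y * s, Subgroup.mem_sup_right this⟩, this, by simp [conjHom_apply, mul_assoc]⟩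

end Cfsg.Agent.S5222
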