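import Cfsg.Statements.S5223
import Cfsg.Agent.Lib.FusionModels.FocalChain

set_option autoImplicit false
open Cfsg

namespace Cfsg.Agent.S5223

/-- Let F be a saturated fusion system over a finite p-group S. Suppose there are subgroups Q₀ = S, Q₁, …, Qₙ = 1 (not required to be nested) such that for each i < n the focal subgroup of Qᵢ (generated by the elements x⁻¹φ(x), x ∈ Qᵢ, φ a map of F defined on the cyclic group generated by x) lies in Qᵢ₊₁. Then F is the inner fusion system of S. -/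
theorem result {Ω : Type*} [Group Ω] {S : Subgroup Ω} [Finite S] (p : ℕ) [Fact p.Prime] (hS : IsPGroup p S) (F : Cfsg.FusionSystem S) (hF : F.IsSaturated p) (n : ℕ) (Q : Fin (n + 1) → Subgroup Ω) (hQ0 : Q 0 = S) (hQn : Q (Fin.last n) = ⊥) (hstep : ∀ i : Fin n, Subgroup.closure {y : Ω | ∃ x ∈ Q i.castSucc, ∃ φ ∈ F.Hom (Subgroup.zpowers x), y = x⁻¹ * φ ⟨x, Subgroup.mem_zpowers x⟩} ≤ Q i.succ) : ∀ P : Subgroup Ω, F.Hom P = (Cfsg.innerFusionSystem S).Hom P := by
  exact CfsgLib.FusionModels.hom_eq_inner_of_focal_chain hS hF n Q hQ0 hQn hstep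

end Cfsg.Agent.S5223
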