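import Cfsg.Statements.S5226
import Cfsg.Agent.Lib.FusionModels.NormalTests

set_option autoImplicit false
open Cfsg

namespace Cfsg.Agent.S5226

/-- Let F be a saturated fusion system over a finite p-group S and Q a subgroup of S. Then Q is normal in F (F equals the normalizer system of Q) if and only if Q is strongly closed in F and admits a central series 1 = Q₀ ≤ Q₁ ≤ ⋯ ≤ Qₙ = Q ([Qᵢ₊₁, Q] ≤ Qᵢ) all of whose proper terms are weakly closed in F. -/
theorem result {Ω : Type*} [Group Ω] {S : Subgroup Ω} [Finite S] (p : ℕ) [Fact p.Prime] (hS : IsPGroup p S) (F : Cfsg.FusionSystem S) (hF : F.IsSaturated p) (Q : Subgroup Ω) : F.IsNormal Q ↔ F.StronglyClosed Q ∧ ∃ (n : ℕ) (C : Fin (n + 1) → Subgroup Ω), C 0 = ⊥ ∧ C (Fin.last n) = Q ∧ Monotone C ∧ (∀ i : Fin n, ⁅C i.succ, Q⁆ ≤ C i.castSucc) ∧ ∀ i : Fin n, F.WeaklyClosed (C i.castSucc) := by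
  constructor
  · intro hQ
    haveI := CfsgLib.Alperin.finite_of_le hQ.1
    obtain ⟨n, Qs, h0, hn, hmono, hchar, hc⟩ :=
      CfsgLib.FusionBasics.exists_central_series (CfsgLib.Alperin.isPGroup_of_le hS hQ.1)
    refine ⟨CfsgLib.FusionSub.isNormal_stronglyClosed hQ, n, Qs, h0, hn, hmono,
      fun i => (Subgroup.commutator_comm _ _).le.trans (hc i), fun i => ?_⟩
    have hU := CfsgLib.FusionBasics.stronglyClosed_of_characteristic hQ (hchar i.castSucc).1
      (hchar i.castSucc).2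
    refine ⟨hU.1, fun φ hφ => le_antisymm ?_ fun y hy => ?_⟩
    · rintro _ ⟨x, rfl⟩
      exact hU.2 _ le_rfl φ hφ x
    · exact CfsgLib.FusionSub.mem_range_of_stronglyClosed hU le_rfl hφ hy
  · rintro ⟨hQ, n, C, h0, hn, hmono, hc, hw⟩
    exact CfsgLib.FusionModels.isNormal_of_weaklyClosed_series hS hF hQ C h0 hn hmono hc hw

end Cfsg.Agent.S5226
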