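import Cfsg.Statements.S5236
import Cfsg.Agent.Lib.FusionModels.NormalTests

set_option autoImplicit false
open Cfsg

namespace Cfsg.Agent.S5236

/-- Let p be an odd prime, F a saturated fusion system over a finite p-group S and P a subgroup of S strongly closed in F. Then P is normal in F if and only if Ω₁(P) (the subgroup generated by the elements of order p of P) has a chain of subgroups 1 = Q₀ ≤ Q₁ ≤ ⋯ ≤ Qₙ = Ω₁(P), each strongly closed in F, with [Qᵢ₊₁, P] ≤ Qᵢ for all i. -/
theorem result {Ω : Type*} [Group Ω] {S : Subgroup Ω} [Finite S] (p : ℕ) [Fact p.Prime] (hS : IsPGroup p S) (F : Cfsg.FusionSystem S) (hF : F.IsSaturated p) (hp : p ≠ 2) (P : Subgroup Ω) (hP : F.StronglyClosed P) : F.IsNormal P ↔ ∃ (n : ℕ) (Q : Fin (n + 1) → Subgroup Ω), Q 0 = ⊥ ∧ Q (Fin.last n) = Cfsg.omegaOne p P ∧ Monotone Q ∧ (∀ i : Fin (n + 1), F.StronglyClosed (Q i)) ∧ ∀ i : Fin n, ⁅Q i.succ, P⁆ ≤ Q i.castSucc := by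
  constructor
  · intro hQ
    haveI := CfsgLib.Alperin.finite_of_le hQ.1
    have hW : Cfsg.omegaOne p P ≤ P := CfsgLib.ThompsonJ.omegaOne_le p P
    have hWsc : F.StronglyClosed (Cfsg.omegaOne p P) := by
      refine ⟨hW.trans hQ.1, fun R hR φ hφ x => ?_⟩
      obtain ⟨ψ, hψ, hψx, -⟩ := hQ.2 R φ hφ
      rw [← hψx x]
      have hle : Cfsg.omegaOne p P ≤
          ((Cfsg.omegaOne p P).comap ψ).map (R ⊔ P).subtype := by
        refine (Subgroup.closure_le _).mpr fun y hy => ⟨⟨y, Subgroup.mem_sup_right hy.1⟩, ?_, rfl⟩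
        refine CfsgLib.ThompsonJ.mem_omegaOne
          (CfsgLib.FusionSub.stronglyClosed_apply hP hψ _ hy.1) ?_
        rw [← map_pow]
        exact (congrArg ψ (Subtype.ext hy.2)).trans (map_one ψ)
      obtain ⟨z, hz, hzx⟩ := hle (hR x.2)
      rw [show (Subgroup.inclusion le_sup_left x : ↥(R ⊔ P)) = z from Subtype.ext hzx.symm]
      exact hz
    obtain ⟨n, Qs, h0, hn, hmono, hchar, hc⟩ :=
      CfsgLib.FusionBasics.exists_central_series (CfsgLib.Alperin.isPGroup_of_le hS hQ.1)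
    refine ⟨n, fun i => Cfsg.omegaOne p P ⊓ Qs i, by simp [h0], by simp [hn, inf_eq_left.mpr hW],
      fun i j hij => inf_le_inf_left _ (hmono hij), fun i => CfsgLib.FusionSub.stronglyClosed_inf hWsc
        (CfsgLib.FusionBasics.stronglyClosed_of_characteristic hQ (hchar i).1 (hchar i).2), fun i => ?_⟩
    refine le_inf ?_ ((Subgroup.commutator_mono inf_le_right le_rfl).trans
      ((Subgroup.commutator_comm _ _).le.trans (hc i)))
    refine (Subgroup.commutator_mono inf_le_left le_rfl).trans ?_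
    rw [Subgroup.commutator_comm]
    refine Subgroup.commutator_le.mpr fun t ht w hw => ?_
    exact (Cfsg.omegaOne p P).mul_mem (CfsgLib.FusionSub.stronglyClosed_conj hWsc (hQ.1 ht) hw)
      ((Cfsg.omegaOne p P).inv_mem hw)
  · rintro ⟨n, Qs, h0, hn, -, hsc, hc⟩
    exact CfsgLib.FusionModels.isNormal_of_omega_series hS hF hp hP Qs h0 hn hsc hc

end Cfsg.Agent.S5236
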