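import Cfsg.Statements.S5243
import Cfsg.Agent.Lib.Alperin.ClassNormal

set_option autoImplicit false
open Cfsg Cfsg.FusionSystem

namespace Cfsg.Agent.S5243

/-- Let F be a saturated fusion system over a finite p-group S, E a normal subsystem of F over T ≤ S, and χ a surjective homomorphism from Aut_F(T) onto a nontrivial finite group Δ of order prime to p whose kernel contains Aut_E(T). Then there is a proper normal subsystem F₀ of F over S containing E such that Aut_{F₀}(S) consists of those α ∈ Aut_F(S) whose restriction to T is an element of Aut_F(T) in the kernel of χ; moreover every p'-residual subsystem O^{p'}(F) of F is contained in F₀. -/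
theorem result {Ω : Type*} [Group Ω] {S : Subgroup Ω} [Finite S] (p : ℕ) [Fact p.Prime] (hS : IsPGroup p S) (F : Cfsg.FusionSystem S) (hF : F.IsSaturated p) {T : Subgroup Ω} (hTS : T ≤ S) (E : Cfsg.FusionSystem T) (hE : E.IsNormalIn F p) {Δ : Type*} [Group Δ] [Finite Δ] [Nontrivial Δ] (hΔ : (Nat.card Δ).Coprime p) (χ : ↥(F.autGroup T) →* Δ) (hχ : Function.Surjective χ) (hker : (E.autGroup T).subgroupOf (F.autGroup T) ≤ χ.ker) : ∃ F₀ : Cfsg.FusionSystem S, F₀.IsNormalIn F p ∧ ¬ (∀ P : Subgroup Ω, F₀.Hom P = F.Hom P) ∧ E.IsSubsystemOf F₀ ∧ (∀ α : MulAut ↥S, α ∈ F₀.autGroup S ↔ α ∈ F.autGroup S ∧ ∃ β : ↥(F.autGroup T), χ β = 1 ∧ ∀ t : ↥T, (((β : MulAut ↥T) t : ↥T) : Ω) = ((α ⟨(t : Ω), hTS t.2⟩ : ↥S) : Ω)) ∧ ∀ R : Cfsg.FusionSystem S, F.IsPPrimeResidual p R → R.IsSubsystemOf F₀ := by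
  classical
  open CfsgLib.Alperin in
  have hs : ClassSetup F E χ p :=
    { pgroup := hS, saturated := hF, saturated_sub := hE.1.1, sub := hE.1.2.2.1
      closed := hE.1.2.2.2.1, invCond := hE.1.2.2.2.2.1, decomp := hE.1.2.2.2.2.2
      coprime := hΔ
      ker := fun α hα => MonoidHom.mem_ker.mp (hker (Subgroup.mem_subgroupOf.mpr hα)) }
  have hπ := CfsgLib.Alperin.h0_le_ker hs
  refine ⟨CfsgLib.Alperin.classSystem (χ.comp (CfsgLib.Alperin.resHom hs.closed)) hS,
    CfsgLib.Alperin.classSystem_isNormalIn hS hF hπ, fun hall => ?_,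
    fun P φ hφ => CfsgLib.Alperin.mem_classSystem_of_mem hs hφ, fun α => ?_, fun R hR => ?_⟩
  · obtain ⟨δ, hδ⟩ := exists_ne (1 : Δ)
    obtain ⟨α, rfl⟩ := hχ δ
    obtain ⟨a, ha⟩ := CfsgLib.Alperin.exists_aut_class hs α
    have h1 : (a : MulAut S) ∈
        (CfsgLib.Alperin.classSystem (χ.comp (CfsgLib.Alperin.resHom hs.closed)) hS).autGroup S := by
      rw [CfsgLib.Alperin.mem_autGroup_iff _ le_rfl, hall S]
      exact (CfsgLib.Alperin.mem_autGroup_iff F le_rfl).mp a.2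
    obtain ⟨h, hc⟩ := (CfsgLib.Alperin.mem_autGroup_classSystem_iff hs (a : MulAut S)).mp h1
    exact hδ (ha.symm.trans hc)
  · rw [CfsgLib.Alperin.mem_autGroup_classSystem_iff hs]
    constructor
    · rintro ⟨h, h1⟩
      exact ⟨h, _, h1, fun t => rfl⟩
    · rintro ⟨h, β, hβ, hβx⟩
      refine ⟨h, Eq.trans (congrArg χ ?_) hβ⟩
      exact Subtype.ext (MulEquiv.ext fun t => Subtype.ext (hβx t).symm)
  · exact hR.2.2 _ (CfsgLib.Alperin.classSystem_isSaturated hS hF hπ)
      (CfsgLib.Alperin.classSystem_index hS hF)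

end Cfsg.Agent.S5243
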