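import Cfsg.Statements.S5244
import Cfsg.Agent.Lib.FusionModels.AbelianIndexPCore

set_option autoImplicit false
open Cfsg

namespace Cfsg.Agent.S5244

/-- Let p be an odd prime, S a finite nonabelian p-group with a unique abelian subgroup A of index p, and F a saturated fusion system over S with no nontrivial normal subgroup (O_p(F) = 1) in which A is not F-essential. Then some subgroup Z(S)⟨x⟩ with x ∈ S outside A is F-essential, the centre Z(S) is contained in the commutator subgroup of S, and S has maximal nilpotency class (if S has order pⁿ with n ≥ 3, the term of index n − 2 of its lower central series, counting S itself as the term of index 0, is nontrivial). -/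
theorem result {Ω : Type*} [Group Ω] {S : Subgroup Ω} [Finite S] (p : ℕ) [Fact p.Prime] (hS : IsPGroup p S) (F : Cfsg.FusionSystem S) (hF : F.IsSaturated p) (hp : p ≠ 2) (hna : ¬ IsMulCommutative ↥S) (A : Subgroup Ω) (hA : A ≤ S ∧ IsMulCommutative ↥A ∧ (A.subgroupOf S).index = p) (huniq : ∀ B : Subgroup Ω, B ≤ S → IsMulCommutative ↥B → (B.subgroupOf S).index = p → B = A) (hcore : F.core = ⊥) (hAe : ¬ F.IsEssential p A) : (∃ x ∈ S, x ∉ A ∧ F.IsEssential p ((S ⊓ Subgroup.centralizer (S : Set Ω)) ⊔ Subgroup.zpowers x)) ∧ (S ⊓ Subgroup.centralizer (S : Set Ω)) ≤ (commutator ↥S).map S.subtype ∧ ∀ n : ℕ, Nat.card S = p ^ n → 3 ≤ n → Subgroup.lowerCentralSeries S (n - 2) ≠ ⊥ := by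
  obtain ⟨hAS, hAc, hidx⟩ := hA
  have hconj := CfsgLib.FusionModels.conj_mem_of_index hS hAS hidx
  obtain ⟨x₀, hx₀, hx₀A⟩ := CfsgLib.FusionModels.exists_not_mem_of_index (p := p) hAS hidx
  have hcomm : ∀ a ∈ A, ∀ b ∈ A, a * b = b * a := fun a ha b hb =>
    congrArg Subtype.val (hAc.is_comm.comm ⟨a, ha⟩ ⟨b, hb⟩)
  obtain ⟨h1, h2, h3⟩ := CfsgLib.FusionModels.coreFree_not_essential_structure hS hp hF
    (x₀ := x₀) ⟨hAS, hcomm, hidx, hconj, hx₀, hx₀A, hna⟩ hcore hAe
  refine ⟨h1, ?_, fun n hn _ => h3 n hn⟩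
  rwa [commutator_def, Subgroup.map_commutator, ← MonoidHom.range_eq_map, Subgroup.range_subtype]

end Cfsg.Agent.S5244
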