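import Cfsg.Statements.S5246
import Cfsg.Agent.Lib.FusionModels.PStableGroup

set_option autoImplicit false
open Cfsg

namespace Cfsg.Agent.S5246

/-- Let p be an odd prime, G a finite group and P a Sylow p-subgroup. Call a fusion system F p-stable when, for every fully normalized subgroup Q and every χ ∈ Aut_F(Q) acting quadratically on Q (that is, χ fixes a⁻¹χ(a) for every a ∈ Q; equivalently χ(a⁻¹)·a·χ(a⁻¹)·χ(χ(a)) = 1), χ lies in O_p(Aut_F(Q)). Then G is p-stable in the normalizer form (for every p-subgroup Q and x ∈ N_G(Q) with [Q, x, x] = 1, the image of x lies in O_p(N_G(Q)/C_G(Q))) if and only if the fusion system of G on P is p-stable. -/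
theorem result {Ω : Type*} [Group Ω] [Finite Ω] {p : ℕ} [Fact p.Prime] (hp : p ≠ 2) (P : Sylow p Ω) : Cfsg.IsNormalizerPStable p Ω ↔ (∀ Q : Subgroup Ω, (Cfsg.groupFusionSystem (P : Subgroup Ω)).IsFullyNormalized Q → ∀ χ : MulAut ↥Q, χ ∈ (Cfsg.groupFusionSystem (P : Subgroup Ω)).autGroup Q → (∀ a : ↥Q, (χ a⁻¹) * a * (χ a⁻¹) * (χ (χ a)) = 1) → χ ∈ ((Cfsg.pCore p ↥((Cfsg.groupFusionSystem (P : Subgroup Ω)).autGroup Q)).map ((Cfsg.groupFusionSystem (P : Subgroup Ω)).autGroup Q).subtype : Subgroup (MulAut ↥Q))) := by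
  exact CfsgLib.FusionModels.isNormalizerPStable_iff P

end Cfsg.Agent.S5246
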