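import Cfsg.Statements.S5247
import Cfsg.Agent.Lib.FusionModels.PStable

set_option autoImplicit false
open Cfsg

namespace Cfsg.Agent.S5247

/-- Let p be an odd prime and F a saturated fusion system over a finite p-group S. Call a fusion system E (over any subgroup) p-stable when, for every fully E-normalized subgroup Q and every χ ∈ Aut_E(Q) with χ(a⁻¹)·a·χ(a⁻¹)·χ(χ(a)) = 1 for all a ∈ Q (χ acts quadratically), χ lies in O_p(Aut_E(Q)). Then F is p-stable if and only if every normalizer fusion system N_F(R) of every non-cyclic fully F-normalized subgroup R of S is p-stable. -/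
theorem result {Ω : Type*} [Group Ω] {S : Subgroup Ω} [Finite S] (p : ℕ) [Fact p.Prime] (hS : IsPGroup p S) (F : Cfsg.FusionSystem S) (hF : F.IsSaturated p) (hp : p ≠ 2) : (∀ Q : Subgroup Ω, F.IsFullyNormalized Q → ∀ χ : MulAut ↥Q, χ ∈ F.autGroup Q → (∀ a : ↥Q, (χ a⁻¹) * a * (χ a⁻¹) * (χ (χ a)) = 1) → χ ∈ ((Cfsg.pCore p ↥(F.autGroup Q)).map (F.autGroup Q).subtype : Subgroup (MulAut ↥Q))) ↔ ∀ R : Subgroup Ω, F.IsFullyNormalized R → ¬ IsCyclic ↥R → ∀ N : Cfsg.FusionSystem (Cfsg.FusionSystem.normalizerIn S R), F.IsNormalizerSystem R N → (∀ Q : Subgroup Ω, N.IsFullyNormalized Q → ∀ χ : MulAut ↥Q, χ ∈ N.autGroup Q → (∀ a : ↥Q, (χ a⁻¹) * a * (χ a⁻¹) * (χ (χ a)) = 1) → χ ∈ ((Cfsg.pCore p ↥(N.autGroup Q)).map (N.autGroup Q).subtype : Subgroup (MulAut ↥Q))) := by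
  refine ⟨fun h R _ _ N hN Q hQ =>
    CfsgLib.FusionModels.stableAt_normalizerSystem h hN hQ.1, fun h Q hQ => ?_⟩
  by_cases hc : IsCyclic ↥Q
  · exact CfsgLib.FusionModels.stableAt_of_isCyclic hS F hQ.1 hc
  obtain ⟨N, hN⟩ := CfsgLib.FusionBasics.exists_normalizerSystem F hQ.1
  have hQN := CfsgLib.Alperin.le_normalizerIn (S := S) hQ.1
  haveI := CfsgLib.Alperin.finite_of_le (CfsgLib.Alperin.normalizerIn_le S Q)
  haveI := CfsgLib.Alperin.finite_of_le hQ.1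
  refine CfsgLib.FusionModels.stableAt_of_autGroup_le ?_
    (CfsgLib.FusionModels.stableAt_of_forall_fullyNormalized (h Q hQ hc N hN) hQN)
  intro β hβ
  have hm := (CfsgLib.Alperin.mem_autGroup_iff F hQ.1).mp hβ
  refine (CfsgLib.Alperin.mem_autGroup_iff N hQN).mpr ?_
  rw [hN]
  refine ⟨hm, hQN, fun x => hQN (β x).2, _,
    CfsgLib.Alperin.restrict_mem hm (sup_le le_rfl le_rfl), fun x => rfl, ?_⟩
  refine le_antisymm ?_ fun y hy => ?_
  · rintro _ ⟨x, -, rfl⟩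
    exact (β _).2
  · exact ⟨⟨(β⁻¹ ⟨y, hy⟩ : Q), Subgroup.mem_sup_left (β⁻¹ ⟨y, hy⟩).2⟩, (β⁻¹ ⟨y, hy⟩).2,
      congrArg Subtype.val (β.apply_symm_apply ⟨y, hy⟩)⟩

end Cfsg.Agent.S5247
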