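import Cfsg.Statements.S5253
import Cfsg.Agent.Lib.FusionBasics.CenterPower.Fusion
import Cfsg.Agent.Lib.FusionExamples.Biset

set_option autoImplicit false
universe u
open Cfsg

namespace Cfsg.Agent.S5253

/-- Let p be a prime and W a positive characteristic p-functor with Z(Q) ≤ W(Q): W assigns to every finite p-group Q (in a fixed universe) a subgroup W(Q), nontrivial when Q is, carried to W(R) by every isomorphism Q ≅ R, and containing the centre of Q. Suppose that for every finite group G with Sylow p-subgroup P in which W(P) is not normal there is g ∈ P outside O_p(G) with [Z(O_p(G)), g, g] = 1. Then for every saturated fusion system F over a finite p-group S and every normalizer fusion system N of W(S) in F, every p-th power of an element of Z(S) that lies in the centre of N lies in the centre of F. -/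
theorem result {p : ℕ} [Fact p.Prime] (W : ∀ (Q : Type u) [Group Q], Subgroup Q) (hW1 : ∀ (Q : Type u) [Group Q] [Finite Q], IsPGroup p Q → Nontrivial Q → W Q ≠ ⊥) (hW2 : ∀ (Q R : Type u) [Group Q] [Group R] [Finite Q], IsPGroup p Q → ∀ φ : Q ≃* R, (W Q).map φ.toMonoidHom = W R) (hWZ : ∀ (Q : Type u) [Group Q] [Finite Q], IsPGroup p Q → Subgroup.center Q ≤ W Q) (hq : ∀ (G : Type u) [Group G] [Finite G] (P : Sylow p G), ¬ (((W ↥(P : Subgroup G)).map (P : Subgroup G).subtype : Subgroup G)).Normal → ∃ g : G, g ∈ (P : Subgroup G) ∧ g ∉ Cfsg.pCore p G ∧ ⁅⁅Subgroup.center ↥(Cfsg.pCore p G) |>.map (Cfsg.pCore p G).subtype, Subgroup.zpowers g⁆, Subgroup.zpowers g⁆ = ⊥) {Ω : Type u} [Group Ω] {S : Subgroup Ω} [Finite S] (hS : IsPGroup p S) (F : Cfsg.FusionSystem S) (hF : F.IsSaturated p) (N : Cfsg.FusionSystem (Cfsg.FusionSystem.normalizerIn S ((W ↥S).map S.subtype))) (hN : F.IsNormalizerSystem ((W ↥S).map S.subtype) N) : Subgroup.closure ((fun z => z ^ p) '' ((S ⊓ Subgroup.centralizer (S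 : Set Ω) : Subgroup Ω) : Set Ω)) ⊓ N.center ≤ F.center := by
  haveI := CfsgLib.Alperin.finite_of_le
    (CfsgLib.Alperin.normalizerIn_le S ((W ↥S).map S.subtype))
  rintro y ⟨hy1, hy2⟩
  obtain ⟨z, ⟨hzS, hzc⟩, rfl⟩ : ∃ z ∈ S ⊓ Subgroup.centralizer (S : Set Ω), z ^ p = y := by
    clear hy2
    induction hy1 using Subgroup.closure_induction with
    | mem x hx =>
      obtain ⟨z, hz, rfl⟩ := hx
      exact ⟨z, hz, rfl⟩
    | one => exact ⟨1, one_mem _, one_pow _⟩
    | mul a b _ _ iha ihb =>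
      obtain ⟨z, hz, rfl⟩ := iha
      obtain ⟨w, hw, rfl⟩ := ihb
      exact ⟨z * w, mul_mem hz hw,
        (show Commute z w from hw.2 z hz.1).mul_pow p⟩
    | inv a _ iha =>
      obtain ⟨z, hz, rfl⟩ := iha
      exact ⟨z⁻¹, inv_mem hz, inv_pow z p⟩
  have hfix := CfsgLib.FusionBasics.CenterPower.fix_of_fixW hW2 hq hWZ hS hF z hzS
    (fun x hx => hzc x hx) (fun φ hφ hφW h => ?_)
  · refine Subgroup.zpowers_le.1 (CfsgLib.FusionExamples.isCentral_le_center
      (CfsgLib.FusionBasics.isCentral_of_generators hS hF fun P hP => ?_))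
    have hPS : P ≤ S := by
      rcases hP with rfl | hP
      exacts [le_rfl, hP.1.1]
    have hzP : z ^ p ∈ P := by
      rcases hP with rfl | hP
      · exact pow_mem hzS p
      · exact hP.1.2 P (CfsgLib.Alperin.isConj_refl F hPS)
          ⟨pow_mem hzS p, fun x hx => ((show Commute x z from hzc x (hPS hx)).pow_right p).eq⟩
    refine ⟨Subgroup.zpowers_le.2 hzP, fun α hα x hx => Subtype.ext ?_⟩
    obtain ⟨k, hk⟩ := Subgroup.mem_zpowers_iff.1 hx
    obtain rfl : x = ⟨z ^ p, hzP⟩ ^ k := Subtype.ext hk.symm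
    rw [map_zpow, SubgroupClass.coe_zpow, SubgroupClass.coe_zpow]
    exact congrArg (· ^ k) (hfix P _ ((CfsgLib.Alperin.mem_autGroup_iff F hPS).mp hα) hzP)
  · haveI := CfsgLib.Alperin.finite_of_le (CfsgLib.FusionBasics.ControlTransfer.wof_le (W := W) S)
    have hnS := CfsgLib.FusionBasics.ControlTransfer.normalizerIn_wof (W := W) hW2 hS
    have hWS := CfsgLib.FusionBasics.ControlTransfer.wof_le (W := W) S
    have h2 : φ ∈ N.Hom (CfsgLib.FusionBasics.ControlTransfer.wof W S) := by
      rw [hN]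
      haveI : Finite ↥((W ↥S).map S.subtype) := CfsgLib.Alperin.finite_of_le hWS
      refine ⟨hφ, fun w hw => hnS.ge (hWS hw), fun x => hnS.ge (hWS (hφW x)),
        φ.comp (Subgroup.inclusion (sup_le le_rfl le_rfl)), CfsgLib.Alperin.restrict_mem hφ _,
        fun x => rfl, CfsgLib.FusionBasics.ControlTransfer.map_subgroupOf_eq
          (F.injective_of_mem (CfsgLib.Alperin.restrict_mem hφ _)) le_sup_right fun w _ => hφW _⟩
    exact CfsgLib.FusionExamples.Biset.apply_eq_of_isCentral
      (CfsgLib.FusionExamples.isCentral_center N) h2 ⟨z ^ p, h⟩ hy2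

end Cfsg.Agent.S5253
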