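import Cfsg.Statements.S5276
import Cfsg.Agent.Lib.FusionBasics.PPower.Inner

set_option autoImplicit false
open Cfsg

namespace Cfsg.Agent.S5276

/-- Let p be a prime and F a saturated fusion system over a finite p-group S. Then F is the inner fusion system of S if and only if the normalizer fusion system of S itself in F is the inner fusion system (equivalently, Aut_F(S) is induced by S) and the Frattini subgroup Φ(S) is strongly closed in F. -/
theorem result {Ω : Type*} [Group Ω] {S : Subgroup Ω} [Finite S] (p : ℕ) [Fact p.Prime] (hS : IsPGroup p ↥S) (F : Cfsg.FusionSystem S) (hF : F.IsSaturated p) : (∀ P : Subgroup Ω, F.Hom P = (Cfsg.innerFusionSystem S).Hom P) ↔ (∀ N : Cfsg.FusionSystem (Cfsg.FusionSystem.normalizerIn S S), F.IsNormalizerSystem S N → ∀ P : Subgroup Ω, N.Hom P = (Cfsg.innerFusionSystem (Cfsg.FusionSystem.normalizerIn S S)).Hom P) ∧ F.StronglyClosed ((frattini ↥S).map S.subtype) := by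
  have hSN : S ≤ Cfsg.FusionSystem.normalizerIn S S := CfsgLib.Alperin.le_normalizerIn le_rfl
  refine ⟨fun h => ⟨fun N hN P => ?_, ?_⟩, fun ⟨hN, hT⟩ => ?_⟩
  · refine Set.Subset.antisymm (fun φ hφ => ?_) (CfsgLib.FusionExamples.inner_le N P)
    rw [hN] at hφ
    have h2 := hφ.1
    rw [h] at h2
    obtain ⟨-, g, hg, hx⟩ := h2
    exact ⟨hφ.2.1, g, hSN hg, hx⟩
  · refine ⟨Subgroup.map_subtype_le _, fun R hR φ hφ x => ?_⟩
    rw [h] at hφ
    obtain ⟨-, g, hg, hx⟩ := hφ
    obtain ⟨y, hy, hyx⟩ := hR x.2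
    refine ⟨⟨g, hg⟩ * y * (⟨g, hg⟩ : ↥S)⁻¹, Subgroup.Normal.conj_mem inferInstance y hy _, ?_⟩
    rw [hx, ← hyx]
    rfl
  · obtain ⟨N, hNs⟩ := CfsgLib.FusionBasics.exists_normalizerSystem F (le_refl S)
    refine CfsgLib.FusionBasics.PPower.hom_eq_inner_of_focal_le_frattini hS hF
      (CfsgLib.FusionBasics.PPower.focal_le_frattini hS hF hT fun φ hφ => ?_)
    haveI := CfsgLib.Alperin.finite_of_le (le_refl S)
    obtain ⟨α, hα, hαx⟩ := CfsgLib.Alperin.exists_aut_of_hom' F hφ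
      (fun x => CfsgLib.Alperin.apply_mem hφ x)
    have h2 : φ ∈ N.Hom S := by
      rw [hNs]
      refine ⟨hφ, hSN, fun x => hSN (CfsgLib.Alperin.apply_mem hφ x),
        φ.comp (Subgroup.inclusion (sup_le le_rfl le_rfl)),
        CfsgLib.Alperin.restrict_mem hφ _, fun x => rfl, ?_⟩
      refine le_antisymm ?_ fun y hy => ?_
      · rintro _ ⟨w, -, rfl⟩
        exact CfsgLib.Alperin.apply_mem hφ _
      · obtain ⟨x, hx⟩ := α.surjective ⟨y, hy⟩
        exact ⟨⟨x, Subgroup.mem_sup_left x.2⟩, x.2,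
          (hαx x).symm.trans (congrArg Subtype.val hx)⟩
    rw [hN N hNs S] at h2
    obtain ⟨-, g, hg, hx⟩ := h2
    exact ⟨g, hg.1, hx⟩

end Cfsg.Agent.S5276
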