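import Cfsg.Statements.S5284
import Cfsg.Agent.Lib.Alperin.AbelianSupersoluble
import Cfsg.Agent.Lib.FusionExamples.Abelian

set_option autoImplicit false
set_option linter.style.haveILetI false
open Cfsg Cfsg.FusionSystem

namespace Cfsg.Agent.S5284

/-- Let S be a finite abelian p-group. Every saturated fusion system over S is supersoluble (S has a chain of F-strongly closed subgroups from 1 to S with cyclic steps) if and only if the invariants of S are pairwise distinct, that is, S is not isomorphic to a direct product (Z/p^n × Z/p^n) × H with n ≥ 1. -/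
theorem result {Ω : Type*} [Group Ω] {S : Subgroup Ω} [Finite S] (p : ℕ) [Fact p.Prime] (hS : IsPGroup p ↥S) (hab : IsMulCommutative ↥S) : (∀ F : Cfsg.FusionSystem S, F.IsSaturated p → (∃ (m : ℕ) (c : Fin (m + 1) → Subgroup Ω), c 0 = ⊥ ∧ c (Fin.last m) = S ∧ (∀ i : Fin (m + 1), F.StronglyClosed (c i)) ∧ ∀ i : Fin m, c i.castSucc ≤ c i.succ ∧ ∃ x ∈ S, c i.succ = c i.castSucc ⊔ Subgroup.zpowers x)) ↔ ¬ ∃ (n : ℕ) (H : Type) (_ : CommGroup H), 0 < n ∧ Nonempty (↥S ≃* (Multiplicative (ZMod (p ^ n)) × Multiplicative (ZMod (p ^ n))) × H) := by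
  classical
  haveI := hab
  letI : CommGroup S := { (inferInstance : Group S) with mul_comm := fun a b => mul_comm' a b }
  constructor
  · rintro h ⟨n, H, hH, hn, ⟨f⟩⟩
    obtain ⟨K, hK, hbad⟩ := CfsgLib.Alperin.exists_bad_of_repeated (p := p) hn f
    exact hbad (CfsgLib.Alperin.pPrimeAut_of_hasCyclicChain hS h K hK)
  · intro hno F hF
    refine CfsgLib.Alperin.hasCyclicChain_of_isNormal hS hF ?_ fun K hK => ?_
    · refine CfsgLib.FusionExamples.isNormal_top_of_radical hS hF fun P _ hc _ => ?_
      refine le_antisymm hc.1 fun g hg => hc.2 P (CfsgLib.Alperin.isConj_refl F hc.1) ⟨hg, ?_⟩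
      intro x hx
      exact congrArg Subtype.val (mul_comm' (⟨x, hc.1 hx⟩ : S) ⟨g, hg⟩)
    · obtain ⟨ι, hι, n, hn1, ⟨e⟩⟩ := CommGroup.equiv_prod_multiplicative_zmod_of_finite S
      have hpow : ∀ i, ∃ k, n i = p ^ k := by
        intro i
        haveI : NeZero (n i) := ⟨by have := hn1 i; omega⟩
        have h1 : orderOf (e.symm (Pi.mulSingle i (Multiplicative.ofAdd (1 : ZMod (n i))))) = n i := by
          rw [MulEquiv.orderOf_eq, ← MonoidHom.mulSingle_apply,
            orderOf_injective (MonoidHom.mulSingle (fun i => Multiplicative (ZMod (n i))) i)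
              (Pi.mulSingle_injective (M := fun i => Multiplicative (ZMod (n i))) i),
            orderOf_ofAdd_eq_addOrderOf, ZMod.addOrderOf_one]
        obtain ⟨k, hk⟩ := IsPGroup.iff_orderOf.mp hS
          (e.symm (Pi.mulSingle i (Multiplicative.ofAdd (1 : ZMod (n i)))))
        exact ⟨k, h1.symm.trans hk⟩
      choose k hk using hpow
      obtain rfl : n = fun i => p ^ k i := funext hk
      refine CfsgLib.Alperin.pPrimeAut_of_distinct hS k (fun i j hij => ?_) e K hK
      by_contra hne
      have hki : 0 < k i := by
        rcases Nat.eq_zero_or_pos (k i) with h0 | h0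
        · have := hn1 i; simp [h0] at this
        · exact h0
      let R := {l : ι // l ≠ i ∧ l ≠ j}
      let cj : Multiplicative (ZMod (p ^ k j)) ≃* Multiplicative (ZMod (p ^ k i)) :=
        (ZMod.ringEquivCongr (congrArg (p ^ ·) hij.symm)).toAddEquiv.toMultiplicative
      let split : ((l : ι) → Multiplicative (ZMod (p ^ k l))) ≃*
          (Multiplicative (ZMod (p ^ k i)) × Multiplicative (ZMod (p ^ k i))) ×
            ((l : R) → Multiplicative (ZMod (p ^ k l.1))) :=
        { toFun := fun f => ((f i, cj (f j)), fun l => f l.1)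
          invFun := fun g l => if hi : l = i then hi ▸ g.1.1 else
            if hj : l = j then hj ▸ cj.symm g.1.2 else g.2 ⟨l, hi, hj⟩
          left_inv := fun f => funext fun l => by
            by_cases h1 : l = i
            · subst h1; simp
            · by_cases h2 : l = j
              · subst h2; simp [h1]
              · simp [h1, h2]
          right_inv := fun g => by
            refine Prod.ext (Prod.ext ?_ ?_) (funext fun l => ?_)
            · simp
            · simp [show ¬ j = i from fun h => hne h.symm]
            · simp [l.2.1, l.2.2]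
              rfl
          map_mul' := fun f g => by
            refine Prod.ext (Prod.ext rfl (map_mul cj _ _)) rfl }
      exact hno ⟨k i, ((l : R) → Multiplicative (ZMod (p ^ k l.1))), inferInstance, hki,
        ⟨e.trans split⟩⟩

end Cfsg.Agent.S5284
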