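import Cfsg.Statements.S5291
import Cfsg.Agent.Lib.FusionModels.NormalClosure

set_option autoImplicit false
open Cfsg

namespace Cfsg.Agent.S5291

/-- Let F be a saturated fusion system over a finite p-group S and E a weakly normal subsystem of F over a subgroup T. Suppose a subgroup R of T is normal in E (E = N_E(R)), and let R* be the subgroup of T generated by the images of R under all maps of F with source R. Then R* is normal in F (F = N_F(R*)). -/
theorem result {Ω : Type*} [Group Ω] {S : Subgroup Ω} [Finite S] (p : ℕ) [Fact p.Prime] (hS : IsPGroup p S)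
    (F : Cfsg.FusionSystem S) (hF : F.IsSaturated p)
    {T : Subgroup Ω} (E : Cfsg.FusionSystem T) (hE : E.IsWeaklyNormalIn F p)
    (R : Subgroup Ω) (hR : E.IsNormal R) :
    F.IsNormal (Subgroup.closure {x : Ω | ∃ φ ∈ F.Hom R, ∃ r : R, x = φ r}) := by
  exact CfsgLib.FusionModels.isNormal_closure_images hS hF hE.2.2 hR

end Cfsg.Agent.S5291
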