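import Cfsg.Statements.S5292
import Cfsg.Agent.Lib.FusionExamples.SimpleRealized
import Cfsg.Agent.Lib.FusionExamples.CentricExtension
import Cfsg.Agent.Lib.FusionModels.Model
import Cfsg.Agent.Lib.PSolvable.HallHigman
import Cfsg.Agent.Lib.FusionExamples.Basic

set_option autoImplicit false
set_option linter.style.haveILetI false
universe u
open Cfsg

namespace Cfsg.Agent.S5292

/-- Let F be a saturated fusion system over a finite p-group S. Then F is the fusion system of some finite p-solvable group on a Sylow p-subgroup if and only if F is constrained (some subgroup normal in F is centric in F) and the group of automorphisms that F induces on its largest normal subgroup O_p(F) is p-solvable. -/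
theorem result {Ω : Type u} [Group Ω] {S : Subgroup Ω} [Finite S] (p : ℕ) [Fact p.Prime] (hS : IsPGroup p S)
    (F : Cfsg.FusionSystem S) (hF : F.IsSaturated p) :
    (∃ (G : Type u) (_ : Group G) (_ : Finite G) (ι : S →* G), Cfsg.IsPSolvable p G ∧ F.IsRealizedBy ι ∧
        ∃ T : Sylow p G, (T : Subgroup G) = ι.range) ↔
      (F.IsConstrained p ∧ Cfsg.IsPSolvable p ↥(F.autGroup F.core)) := by
  constructor
  · rintro ⟨G₀, _, _, ι₀, hsol, hι₀, R₀, hR₀⟩
    set K := Cfsg.pPrimeCore p G₀ with hK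
    have hι := CfsgLib.FusionExamples.SimpleRealized.isRealizedBy_quotient hS hR₀ hι₀ K
      (CfsgLib.Cores.card_pPrimeCore_coprime p)
    set ι := (QuotientGroup.mk' K).comp ι₀ with hιd
    have hsolq : Cfsg.IsPSolvable p (G₀ ⧸ K) := CfsgLib.PSolvable.isPSolvable_quotient hsol K
    have hcore : Cfsg.pPrimeCore p (G₀ ⧸ K) = ⊥ := CfsgLib.Cores.pPrimeCore_quotient_pPrimeCore p
    have hmodel : F.IsModel p (G₀ ⧸ K) ι :=
      ⟨inferInstance, hι, ⟨R₀.mapSurjective (QuotientGroup.mk'_surjective K),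
        by rw [Sylow.coe_mapSurjective, hιd, MonoidHom.range_comp, hR₀]⟩,
        CfsgLib.PSolvable.centralizer_pCore_le hsolq hcore⟩
    refine ⟨CfsgLib.FusionBasics.isConstrained_of_isModel hmodel, ?_⟩
    have hQ : F.core ≤ S := CfsgLib.FusionExamples.core_le F
    let N : Subgroup (G₀ ⧸ K) := Subgroup.normalizer (CfsgLib.FusionBasics.img ι F.core : Set (G₀ ⧸ K))
    let e := CfsgLib.FusionBasics.imgEquiv ι hι.1 hQ
    let f : N →* MulAut F.core :=
      (MulAut.congr e.symm).toMonoidHom.comp (CfsgLib.FusionBasics.img ι F.core).normalizerMonoidHom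
    have hle : F.autGroup F.core ≤ f.range := by
      intro α hα
      have hα' := (CfsgLib.Alperin.mem_autGroup_iff F hQ).mp hα
      obtain ⟨g, hg⟩ := (hι.2 F.core hQ _ (CfsgLib.Alperin.apply_mem hα')).mp hα'
      have hgN : g ∈ N := by
        haveI : Finite F.core := CfsgLib.Alperin.finite_of_le hQ
        refine Subgroup.mem_normalizer_fintype ?_
        rintro _ ⟨x, hx, rfl⟩
        exact ⟨⟨(α ⟨x, hx⟩ : F.core), hQ (α ⟨x, hx⟩).2⟩, (α ⟨x, hx⟩).2, hg ⟨x, hx⟩⟩
      refine ⟨⟨g, hgN⟩, MulEquiv.ext fun x => e.injective (Subtype.ext ?_)⟩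
      show ((e (e.symm ((CfsgLib.FusionBasics.img ι F.core).normalizerMonoidHom ⟨g, hgN⟩ (e x))) :
        CfsgLib.FusionBasics.img ι F.core) : G₀ ⧸ K) = _
      rw [MulEquiv.apply_symm_apply]
      exact (hg x).symm
    exact CfsgLib.PSolvable.isPSolvable_of_le (CfsgLib.PSolvable.isPSolvable_of_surjective
      (CfsgLib.PSolvable.isPSolvable_subgroup hsolq N) f.rangeRestrict_surjective) hle
  · rintro ⟨⟨-, Q, hQ, hQc⟩, hsol⟩
    have hcn := CfsgLib.FusionExamples.isNormal_core F
    have hcc : F.IsCentric F.core := CfsgLib.FusionExamples.isCentric_of_ge hQc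
      (CfsgLib.FusionExamples.isNormal_le_core hQ) hcn.1
    obtain ⟨L, _, ι, ρ, h⟩ := CfsgLib.FusionModels.exists_localModel hS hF
      (CfsgLib.FusionModels.isFullyNormalized_of_isNormal hcn) hcc
      (CfsgLib.Alperin.autInducedBy_le_autGroup F hcn.1) le_rfl
    obtain ⟨hfin, hreal, hsyl, -⟩ := h.isModel hS hcn
    refine ⟨L, inferInstance, hfin, _, ?_, hreal, hsyl⟩
    refine CfsgLib.PSolvable.isPSolvable_of_step ρ.ker (Or.inl ?_) ?_
    · haveI : Finite (Cfsg.FusionSystem.normalizerIn S F.core) :=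
        CfsgLib.Alperin.finite_of_le (CfsgLib.Alperin.normalizerIn_le S _)
      have hr : IsPGroup p ι.range := by
        rw [MonoidHom.range_eq_map]
        exact ((CfsgLib.Alperin.isPGroup_of_le hS (CfsgLib.Alperin.normalizerIn_le S _)).to_subgroup ⊤).map ι
      refine IsPGroup.iff_card.mp (hr.to_le ?_)
      intro l hl
      obtain ⟨m, -, rfl⟩ := h.ker_le l hl
      exact ⟨m, rfl⟩
    · exact CfsgLib.PSolvable.isPSolvable_of_equiv (QuotientGroup.quotientKerEquivRange ρ).symm
        (h.range_eq ▸ hsol)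

end Cfsg.Agent.S5292
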