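import Cfsg.Statements.S5293
import Cfsg.Agent.Lib.FusionExamples.Henke

set_option autoImplicit false
open Cfsg

namespace Cfsg.Agent.S5293

/-- Let F be a saturated fusion system over a finite p-group S, E a normal subsystem of F over T ≤ S, and C the join of the subgroups X ≤ C_S(T) such that E is contained in the centralizer system C_F(X). Then for the centralizer fusion system C_F(T) over C_S(T), the focal subgroup of C_F(T) is contained in C. -/
theorem result {Ω : Type*} [Group Ω] {S : Subgroup Ω} [Finite S] (p : ℕ) [Fact p.Prime] (hS : IsPGroup p S)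
    (F : Cfsg.FusionSystem S) (hF : F.IsSaturated p)
    {T : Subgroup Ω} (E : Cfsg.FusionSystem T) (hE : E.IsNormalIn F p)
    (C : Subgroup Ω)
    (hC : C = sSup {X : Subgroup Ω | X ≤ Cfsg.FusionSystem.centralizerIn S T ∧ ∀ P : Subgroup Ω, E.Hom P ⊆ F.centralizerHom X P})
    (D : Cfsg.FusionSystem (Cfsg.FusionSystem.centralizerIn S T)) (hD : F.IsCentralizerSystem T D) :
    D.focalSubgroup ≤ C := by
  obtain ⟨⟨hEs, -, hsub, hsc, -, -⟩, -⟩ := id hE
  haveI := CfsgLib.Alperin.finite_of_le hsc.1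
  have hTc : F.IsFullyCentralized T := ⟨hsc.1, fun Q hQ => by
    obtain ⟨φ, hφ, hr⟩ := id hQ
    have hle : Q ≤ T := hr ▸ (by rintro _ ⟨x, rfl⟩; exact hsc.2 T le_rfl φ hφ x)
    rw [Subgroup.eq_of_le_of_card_ge hle (CfsgLib.Alperin.IsConj.card_eq hQ).ge]⟩
  have hDs := Cfsg.Agent.S5099.result p hS F hF T hTc D hD
  refine (CfsgLib.FusionExamples.Henke.focal_le hS D hDs hD).trans ((Subgroup.closure_le _).mpr ?_)
  intro c hc
  have hcC := CfsgLib.FusionExamples.Henke.gens_le hc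
  subst hC
  refine (le_sSup ?_ : Subgroup.zpowers c ≤ sSup _) (Subgroup.mem_zpowers c)
  refine ⟨Subgroup.zpowers_le.mpr hcC, fun P φ hφ => ?_⟩
  have hcomm : ∀ t ∈ T, t ∈ Cfsg.FusionSystem.centralizerIn S (Subgroup.zpowers c) := fun t ht =>
    ⟨hsc.1 ht, by
      rintro _ ⟨n, rfl⟩
      exact (Commute.zpow_left (show Commute c t from (hcC.2 t ht).symm) n).eq⟩
  obtain ⟨ψ, hψ, hψx, hψc⟩ :=
    (CfsgLib.FusionExamples.Henke.hom_le_fixSystem hS hE P hφ).2 c hc
  exact ⟨hsub P hφ, fun x hx => hcomm x ((E.le_of_mem hφ).1 hx),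
    fun x => hcomm _ ((E.le_of_mem hφ).2 x), ψ, hψ, hψx,
    CfsgLib.FusionExamples.Henke.apply_zpowers hψc⟩

end Cfsg.Agent.S5293
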