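import Cfsg.Statements.S5294
import Cfsg.Agent.Lib.FusionExamples.Basic
import Cfsg.Prelude.Def_FusionComponents

set_option autoImplicit false
set_option linter.style.haveILetI false
universe u
open Cfsg

namespace Cfsg.Agent.S5294

/-- Let F be a saturated fusion system over a finite p-group S whose centre Z(S) lies in the largest subgroup O_p(F) normal in F. Then the centre Z(F) of F is a direct factor of Z(S): there is a subgroup K of Z(S) with Z(F) ∩ K = 1 and Z(F)K = Z(S). -/
theorem result {Ω : Type u} [Group Ω] {S : Subgroup Ω} [Finite S] (p : ℕ) [Fact p.Prime] (hS : IsPGroup p S)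
    (F : Cfsg.FusionSystem S) (hF : F.IsSaturated p) (hZ : (S ⊓ Subgroup.centralizer (S : Set Ω)) ≤ F.core) :
    ∃ K : Subgroup Ω, K ≤ (S ⊓ Subgroup.centralizer (S : Set Ω)) ∧ F.center ⊓ K = ⊥ ∧ F.center ⊔ K = (S ⊓ Subgroup.centralizer (S : Set Ω)) := by
  classical
  open CfsgLib.Alperin CfsgLib.FusionExamples in
  obtain ⟨hQ1, hQ2⟩ := isNormal_core F
  have hQn : F.IsNormal F.core := ⟨hQ1, hQ2⟩
  haveI := finite_of_le hQ1
  haveI := finite_autGroup F hQ1
  set Q := F.core with hQdef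
  set G := F.autGroup Q with hGdef
  set C := Subgroup.center Q with hCdef
  letI : CommGroup C := { (inferInstance : Group C) with
    mul_comm := fun a b => Subtype.ext (Subgroup.mem_center_iff.mp b.2 a) }
  obtain ⟨-, R, hR⟩ :=
    (centralized_automized_of_fullyNormalized hS hF (isFullyNormalized_of_isNormal hQn)).2
  let act : G → C →* C := fun g =>
    { toFun := fun x => ⟨(g : MulAut Q) x, (Subgroup.centerCharacteristic.fixed (g : MulAut Q)).ge x.2⟩
      map_one' := Subtype.ext (map_one _)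
      map_mul' := fun a b => Subtype.ext (map_mul _ _ _) }
  have hact : ∀ (g h : G) (x : C), act (g * h) x = act g (act h x) := fun g h x => rfl
  -- the part of the centre of `S` seen inside `Z(Q)`
  set Zs : Subgroup C := (Subgroup.centralizer (S : Set Ω)).comap (Q.subtype.comp C.subtype)
    with hZs
  have hRfix : ∀ (x : Zs) (r : G), r ∈ (R : Subgroup G) → act r (x : C) = x := by
    intro x r hr
    rw [hR, Subgroup.mem_subgroupOf] at hr
    obtain ⟨s, hs, hsx⟩ := mem_autInducedBy_iff.mp hr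
    refine Subtype.ext (Subtype.ext ?_)
    show (((r : MulAut Q) (x : C)) : Ω) = _
    rw [hsx]
    have hx : s * (((x : C) : Q) : Ω) = (((x : C) : Q) : Ω) * s := x.2 s hs
    rw [hx, mul_inv_cancel_right]
  let f : Zs → G ⧸ (R : Subgroup G) → C := fun x q => Quotient.liftOn' q (fun g => act g (x : C))
    fun a b hab => by
      rw [QuotientGroup.leftRel_apply] at hab
      have := hact a (a⁻¹ * b) (x : C)
      rw [mul_inv_cancel_left, hRfix x _ hab] at this
      exact this.symm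
  have hf : ∀ (x : Zs) (g : G), f x (g : G ⧸ (R : Subgroup G)) = act g (x : C) := fun x g => rfl
  letI := Fintype.ofFinite (G ⧸ (R : Subgroup G))
  let N : Zs →* C := MonoidHom.mk' (fun x => ∏ q, f x q) fun x y => by
    rw [← Finset.prod_mul_distrib]
    refine Finset.prod_congr rfl fun q _ => ?_
    induction q using QuotientGroup.induction_on with
    | _ g => rw [hf, hf, hf, Subgroup.coe_mul, map_mul]
  have hNfix : ∀ (x : Zs) (g : G), act g (N x) = N x := by
    intro x g
    show act g (∏ q, f x q) = ∏ q, f x q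
    rw [map_prod]
    refine Fintype.prod_equiv (MulAction.toPerm g) _ _ fun q => ?_
    induction q using QuotientGroup.induction_on with
    | _ k =>
      show act g (f x k) = f x ((g * k : G) : G ⧸ (R : Subgroup G))
      rw [hf, hf, hact]
  -- a fixed element is central in the system
  have hcen : ∀ c : C, (∀ g : G, act g c = c) → ((c : Q) : Ω) ∈ F.center := by
    intro c hc
    set z : Ω := ((c : Q) : Ω) with hz
    have hzQ : Subgroup.zpowers z ≤ Q := Subgroup.zpowers_le.mpr (c : Q).2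
    refine isCentral_le_center (show F.IsCentral (Subgroup.zpowers z) from
      ⟨hzQ.trans hQ1, fun P φ hφ => ?_⟩) (Subgroup.mem_zpowers z)
    obtain ⟨ψ, hψ, hψx, hψm⟩ := hQ2 P φ hφ
    have e : P ⊔ Subgroup.zpowers z ≤ P ⊔ Q := sup_le_sup_left hzQ P
    refine ⟨_, restrict_mem hψ e, fun x => hψx x, ?_⟩
    obtain ⟨α, hα, hαx⟩ := exists_aut_of_hom' F (restrict_mem hψ (le_sup_right : Q ≤ P ⊔ Q))
      fun y => hψm.le ⟨Subgroup.inclusion le_sup_right y, y.2, rfl⟩
    rintro ⟨_, k, rfl⟩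
    show ψ ⟨z ^ k, _⟩ = z ^ k
    have h1 : ψ ⟨z, Subgroup.mem_sup_right (c : Q).2⟩ = z := by
      refine (hαx (c : Q)).symm.trans ?_
      exact congrArg (fun u : C => ((u : Q) : Ω)) (hc ⟨α, hα⟩)
    have h2 : (⟨z ^ k, e (Subgroup.mem_sup_right ⟨k, rfl⟩)⟩ : ↥(P ⊔ Q))
        = (⟨z, Subgroup.mem_sup_right (c : Q).2⟩ : ↥(P ⊔ Q)) ^ k := Subtype.ext (by simp)
    rw [show ψ ⟨z ^ k, _⟩ = ψ ⟨z ^ k, e (Subgroup.mem_sup_right ⟨k, rfl⟩)⟩ from rfl, h2,
      map_zpow, h1]
  -- a central element is fixed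
  have hfix : ∀ c : C, ((c : Q) : Ω) ∈ F.center → ∀ g : G, act g c = c := by
    intro c hc g
    obtain ⟨ψ, -, hψx, hψc⟩ :=
      (isCentral_center F).2 Q _ ((mem_autGroup_iff F hQ1).mp g.2)
    exact Subtype.ext (Subtype.ext ((hψx c).symm.trans (hψc ⟨_, hc⟩)))
  have hidx : Nat.Coprime (Nat.card (G ⧸ (R : Subgroup G))) (Nat.card C) := by
    obtain ⟨n, hn⟩ := IsPGroup.iff_card.mp ((isPGroup_of_le hS hQ1).to_subgroup C)
    rw [hn]
    exact ((Nat.Prime.coprime_iff_not_dvd Fact.out).mpr R.not_dvd_index).symm.pow_right n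
  have hNpow : ∀ x : Zs, (∀ g : G, act g (x : C) = x) →
      N x = (x : C) ^ Nat.card (G ⧸ (R : Subgroup G)) := by
    intro x hx
    show ∏ q, f x q = _
    rw [Finset.prod_eq_pow_card (b := (x : C)), Finset.card_univ, Nat.card_eq_fintype_card]
    intro q _
    induction q using QuotientGroup.induction_on with
    | _ g => rw [hf, hx g]
  refine ⟨N.ker.map (Q.subtype.comp (C.subtype.comp Zs.subtype)), ?_, ?_, ?_⟩
  · rintro _ ⟨x, -, rfl⟩
    exact ⟨hQ1 ((x : C) : Q).2, x.2⟩
  · rw [Subgroup.eq_bot_iff_forall]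
    rintro _ ⟨hc, x, hx, rfl⟩
    have h1 := hNpow x (hfix _ hc)
    rw [MonoidHom.mem_ker.mp hx] at h1
    have h2 : (x : C) = 1 := by
      rw [← orderOf_eq_one_iff]
      exact Nat.dvd_one.mp (hidx ▸ Nat.dvd_gcd (orderOf_dvd_of_pow_eq_one h1.symm)
        (orderOf_dvd_natCard _))
    show (((x : C) : Q) : Ω) = 1
    rw [h2]
    rfl
  · refine le_antisymm (sup_le (le_inf (center_le F) F.center_le_centralizer) ?_) ?_
    · rintro _ ⟨x, -, rfl⟩
      exact ⟨hQ1 ((x : C) : Q).2, x.2⟩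
    rintro a ⟨haS, haC⟩
    have haQ : a ∈ Q := hZ ⟨haS, haC⟩
    have haC' : (⟨a, haQ⟩ : Q) ∈ C := Subgroup.mem_center_iff.mpr fun b =>
      Subtype.ext (haC b (hQ1 b.2))
    let x : Zs := ⟨⟨⟨a, haQ⟩, haC'⟩, haC⟩
    obtain ⟨n, hn⟩ := exists_pow_eq_self_of_coprime (x := (N x : C))
      (n := Nat.card (G ⧸ (R : Subgroup G)))
      (Nat.Coprime.coprime_dvd_right (orderOf_dvd_natCard _) hidx)
    have hNc : ((N x : Q) : Ω) ∈ F.center := hcen _ (hNfix x)
    let z : Zs := ⟨(N x) ^ n, by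
      show (((N x : C) : Q) : Ω) ^ n ∈ Subgroup.centralizer (S : Set Ω)
      exact Subgroup.pow_mem _ (F.center_le_centralizer hNc) n⟩
    have hzfix : ∀ g : G, act g (z : C) = z := fun g => by
      show act g ((N x) ^ n) = (N x) ^ n
      rw [map_pow, hNfix]
    have hker : x * z⁻¹ ∈ N.ker := by
      rw [MonoidHom.mem_ker, map_mul, map_inv, hNpow z hzfix]
      show N x * (((N x) ^ n) ^ _)⁻¹ = 1
      rw [← pow_mul, mul_comm n, pow_mul, hn, mul_inv_cancel]
    have hdecomp : a = ((((x * z⁻¹ : Zs) : C) : Q) : Ω) * (((z : C) : Q) : Ω) := by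
      simp [x]
    rw [hdecomp]
    refine Subgroup.mul_mem _ (Subgroup.mem_sup_right ⟨_, hker, rfl⟩) (Subgroup.mem_sup_left ?_)
    exact Subgroup.pow_mem _ hNc n

end Cfsg.Agent.S5294
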