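import Cfsg.Statements.S5296
import Cfsg.Agent.Lib.FusionExamples.SmallControl

set_option autoImplicit false
set_option linter.style.haveILetI false
universe u
open Cfsg

namespace Cfsg.Agent.S5296

/-- Small-exponent abelian subgroups of the hyperfocal subgroup control fusion. Let E and F be saturated fusion systems over the same finite p-group S with E contained in F. Suppose that E and F have the same maps between A and B for all subgroups A, B of the hyperfocal subgroup of F that are elementary abelian when p is odd, respectively abelian of exponent dividing 4 when p = 2. Then E = F. -/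
theorem result {Ω : Type u} [Group Ω] {S : Subgroup Ω} [Finite S] (p : ℕ) [Fact p.Prime] (hS : IsPGroup p S)
    (E F : Cfsg.FusionSystem S) (hE : E.IsSaturated p) (hF : F.IsSaturated p) (hEF : E.IsSubsystemOf F)
    (hodd : p ≠ 2 → ∀ A B : Subgroup Ω, A ≤ (F.hyperfocalSubgroup p) → B ≤ (F.hyperfocalSubgroup p) →
      Cfsg.IsElementaryAbelian p A → Cfsg.IsElementaryAbelian p B → E.homSet A B = F.homSet A B)
    (htwo : p = 2 → ∀ A B : Subgroup Ω, A ≤ (F.hyperfocalSubgroup p) → B ≤ (F.hyperfocalSubgroup p) →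
      IsMulCommutative ↥A → IsMulCommutative ↥B → (∀ a ∈ A, a ^ 4 = 1) → (∀ b ∈ B, b ^ 4 = 1) → E.homSet A B = F.homSet A B) :
    ∀ P : Subgroup Ω, E.Hom P = F.Hom P := by
  intro P
  refine Set.Subset.antisymm (hEF P) (CfsgLib.FusionExamples.SmallControl.hom_le hS hE hF hEF
    (fun A hA hab hsm φ hφ hmem => ?_) P)
  set B := φ.range with hB
  have hBle : B ≤ F.hyperfocalSubgroup p := by
    rintro _ ⟨x, rfl⟩
    exact hmem x
  have hBab : ∀ a ∈ B, ∀ b ∈ B, a * b = b * a := by
    rintro _ ⟨x, rfl⟩ _ ⟨y, rfl⟩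
    rw [← map_mul, ← map_mul, show x * y = y * x from Subtype.ext (hab x x.2 y y.2)]
  have hBsm : ∀ b ∈ B, CfsgLib.FusionExamples.SmallElt p b := by
    rintro _ ⟨x, rfl⟩
    refine (CfsgLib.FusionExamples.smallElt_map_iff φ (F.injective_of_mem hφ)).mpr ?_
    exact (CfsgLib.FusionExamples.smallElt_map_iff A.subtype A.subtype_injective).mp (hsm x x.2)
  have hcomm : ∀ C : Subgroup Ω, (∀ a ∈ C, ∀ b ∈ C, a * b = b * a) → IsMulCommutative ↥C :=
    fun C h => ⟨⟨fun a b => Subtype.ext (h a a.2 b b.2)⟩⟩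
  have hset : E.homSet A B = F.homSet A B := by
    by_cases hp2 : p = 2
    · have h4 : ∀ C : Subgroup Ω, (∀ a ∈ C, CfsgLib.FusionExamples.SmallElt p a) →
          ∀ a ∈ C, a ^ 4 = 1 := by
        intro C h a ha
        rcases h a ha with h2 | ⟨-, h4⟩
        · subst hp2
          rw [show (4 : ℕ) = 2 * 2 from rfl, pow_mul, h2, one_pow]
        · exact h4
      exact htwo hp2 A B hA hBle (hcomm A hab) (hcomm B hBab) (h4 A hsm) (h4 B hBsm)
    · have hp' : ∀ C : Subgroup Ω, (∀ a ∈ C, CfsgLib.FusionExamples.SmallElt p a) →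
          ∀ a ∈ C, a ^ p = 1 := fun C h a ha => (h a ha).resolve_right fun h => hp2 h.1
      exact hodd hp2 A B hA hBle ⟨hcomm A hab, hp' A hsm⟩ ⟨hcomm B hBab, hp' B hBsm⟩
  exact (hset.ge ⟨hφ, fun x => ⟨x, rfl⟩⟩).1

end Cfsg.Agent.S5296
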