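import Cfsg.Statements.S5297
import Cfsg.Agent.Lib.FusionExamples.Hyperfocal

set_option autoImplicit false
set_option linter.style.haveILetI false
universe u
open Cfsg

namespace Cfsg.Agent.S5297

/-- The hypothesis moves small elements of the hyperfocal subgroup by automorphisms of `S`. -/
theorem exists_top_aut {Ω : Type*} [Group Ω] {S : Subgroup Ω} [Finite S] {p : ℕ} [Fact p.Prime]
    {F : Cfsg.FusionSystem S} (hS : IsPGroup p S) (hF : F.IsSaturated p)
    (h : ∀ A B : Subgroup Ω, A ≤ (F.hyperfocalSubgroup p) → B ≤ (F.hyperfocalSubgroup p) → IsCyclic ↥A → (Nat.card ↥A = p ∨ Nat.card ↥A = 4) → IsCyclic ↥B → (Nat.card ↥B = p ∨ Nat.card ↥B = 4) →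
      F.homSet A B ⊆ F.normalizerHom S A)
    {P : Subgroup Ω} (hP : F.IsFullyNormalized P) {α : MulAut P} (hα : α ∈ F.autGroup P) (x : P)
    (hx : (x : Ω) ∈ F.hyperfocalSubgroup p) (hsm : CfsgLib.FusionExamples.SmallElt p (x : Ω)) :
    ∃ β : MulAut S, β ∈ F.autGroup S ∧ ((β ⟨x, hP.1 x.2⟩ : S) : Ω) = ((α x : P) : Ω) := by
  open CfsgLib.Alperin CfsgLib.FusionExamples in
  by_cases hx1 : (x : Ω) = 1
  · refine ⟨1, Subgroup.one_mem _, ?_⟩
    have hx2 : x = 1 := Subtype.ext hx1
    rw [hx2, map_one]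
    rfl
  have hord : orderOf (x : Ω) = p ∨ orderOf (x : Ω) = 4 := by
    rcases hsm with hsm | ⟨rfl, hsm⟩
    · exact Or.inl (orderOf_eq_prime hsm hx1)
    · obtain ⟨i, hi, hi'⟩ := (Nat.dvd_prime_pow Nat.prime_two).mp
        (show orderOf (x : Ω) ∣ 2 ^ 2 from orderOf_dvd_of_pow_eq_one hsm)
      interval_cases i
      · exact absurd (orderOf_eq_one_iff.mp (by simpa using hi')) hx1
      · exact Or.inl (by simpa using hi')
      · exact Or.inr (by simpa using hi')
  have hy := hyperfocal_aut_mem hS hF hP hα hx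
  have hordy : orderOf ((α x : P) : Ω) = orderOf (x : Ω) := by
    rw [Subgroup.orderOf_coe, Subgroup.orderOf_coe]
    exact orderOf_injective α.toMonoidHom α.injective x
  have hres : (P.subtype.comp α.toMonoidHom).comp (Subgroup.inclusion (Subgroup.zpowers_le.mpr x.2))
      ∈ F.homSet (Subgroup.zpowers (x : Ω)) (Subgroup.zpowers ((α x : P) : Ω)) := by
    refine ⟨restrict_mem ((mem_autGroup_iff F hP.1).mp hα) _, ?_⟩
    rintro ⟨_, k, rfl⟩
    refine ⟨k, ?_⟩
    show ((α x : P) : Ω) ^ k = ((α ⟨(x : Ω) ^ k, _⟩ : P) : Ω)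
    rw [← Subgroup.coe_zpow, ← map_zpow]
    rfl
  obtain ⟨-, -, -, ψ, hψ, hψx, -⟩ := h _ _ (Subgroup.zpowers_le.mpr hx) (Subgroup.zpowers_le.mpr hy)
    inferInstance (by rw [Nat.card_zpowers]; exact hord) inferInstance
    (by rw [Nat.card_zpowers, hordy]; exact hord) hres
  obtain ⟨β, hβ, hβx⟩ := exists_aut_of_hom' F (restrict_mem hψ (le_sup_right : S ≤ _))
    fun y => apply_mem hψ _
  exact ⟨β, hβ, (hβx _).trans (hψx ⟨x, Subgroup.mem_zpowers (x : Ω)⟩)⟩


/-- Let F be a saturated fusion system over a finite p-group S. If every map of F between cyclic subgroups of the hyperfocal subgroup of F of order p or 4 is a map of the normalizer system of S (it extends to a map of F defined on all of S), then S is normal in F. -/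
theorem result {Ω : Type u} [Group Ω] {S : Subgroup Ω} [Finite S] (p : ℕ) [Fact p.Prime] (hS : IsPGroup p S)
    (F : Cfsg.FusionSystem S) (hF : F.IsSaturated p)
    (h : ∀ A B : Subgroup Ω, A ≤ (F.hyperfocalSubgroup p) → B ≤ (F.hyperfocalSubgroup p) → IsCyclic ↥A → (Nat.card ↥A = p ∨ Nat.card ↥A = 4) → IsCyclic ↥B → (Nat.card ↥B = p ∨ Nat.card ↥B = 4) →
      F.homSet A B ⊆ F.normalizerHom S A) :
    F.IsNormal S := by
  open CfsgLib.Alperin CfsgLib.FusionExamples in
  refine isNormal_top_of_radical hS hF fun P hn hc hr => ?_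
  obtain ⟨K, hKn, hKp, hKle, -⟩ := exists_stabilizer hS hF hn fun α hα x hx hsm i hi => by
    obtain ⟨β, -, hβ⟩ := exists_top_aut hS hF h hn hα x hx hsm
    have h1 := Subgroup.characteristic_iff_le_comap.mp
      (inferInstance : (Subgroup.upperCentralSeries S i).Characteristic) β hi
    exact (congrArg (· ∈ Subgroup.upperCentralSeries S i) (Subtype.ext hβ)).mp h1
  exact eq_top_of_radical hS hc (Or.inr hr) hKp hKle

end Cfsg.Agent.S5297
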