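import Cfsg.Statements.S5298
import Cfsg.Agent.Lib.FusionExamples.Hyperfocal

set_option autoImplicit false
set_option linter.style.haveILetI false
universe u
open Cfsg

namespace Cfsg.Agent.S5298

/-- The hypothesis moves small elements of the hyperfocal subgroup by conjugation in `S`. -/
theorem exists_conj {Ω : Type*} [Group Ω] {S : Subgroup Ω} [Finite S] {p : ℕ} [Fact p.Prime]
    {F : Cfsg.FusionSystem S} (hS : IsPGroup p S) (hF : F.IsSaturated p)
    (h : ∀ A B : Subgroup Ω, A ≤ (F.hyperfocalSubgroup p) → B ≤ (F.hyperfocalSubgroup p) → IsCyclic ↥A → (Nat.card ↥A = p ∨ Nat.card ↥A = 4) → IsCyclic ↥B → (Nat.card ↥B = p ∨ Nat.card ↥B = 4) →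
      F.homSet A B ⊆ (Cfsg.innerFusionSystem S).Hom A)
    {P : Subgroup Ω} (hP : F.IsFullyNormalized P) {α : MulAut P} (hα : α ∈ F.autGroup P) (x : P)
    (hx : (x : Ω) ∈ F.hyperfocalSubgroup p) (hsm : CfsgLib.FusionExamples.SmallElt p (x : Ω)) :
    ∃ s ∈ S, ((α x : P) : Ω) = s * (x : Ω) * s⁻¹ := by
  open CfsgLib.Alperin CfsgLib.FusionExamples in
  by_cases hx1 : (x : Ω) = 1
  · refine ⟨1, S.one_mem, ?_⟩
    have hx2 : x = 1 := Subtype.ext hx1
    rw [hx2, map_one]
    simp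
  have hord : orderOf (x : Ω) = p ∨ orderOf (x : Ω) = 4 := by
    rcases hsm with hsm | ⟨rfl, hsm⟩
    · exact Or.inl (orderOf_eq_prime hsm hx1)
    · obtain ⟨i, hi, hi'⟩ := (Nat.dvd_prime_pow Nat.prime_two).mp
        (show orderOf (x : Ω) ∣ 2 ^ 2 from orderOf_dvd_of_pow_eq_one hsm)
      interval_cases i
      · exact absurd (orderOf_eq_one_iff.mp (by simpa using hi')) hx1
      · exact Or.inl (by simpa using hi')
      · exact Or.inr (by simpa using hi')
  have hy := hyperfocal_aut_mem hS hF hP hα hx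
  have hordy : orderOf ((α x : P) : Ω) = orderOf (x : Ω) := by
    rw [Subgroup.orderOf_coe, Subgroup.orderOf_coe]
    exact orderOf_injective α.toMonoidHom α.injective x
  have hres : (P.subtype.comp α.toMonoidHom).comp (Subgroup.inclusion (Subgroup.zpowers_le.mpr x.2))
      ∈ F.homSet (Subgroup.zpowers (x : Ω)) (Subgroup.zpowers ((α x : P) : Ω)) := by
    refine ⟨restrict_mem ((mem_autGroup_iff F hP.1).mp hα) _, ?_⟩
    rintro ⟨_, k, rfl⟩
    refine ⟨k, ?_⟩
    show ((α x : P) : Ω) ^ k = ((α ⟨(x : Ω) ^ k, _⟩ : P) : Ω)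
    rw [← Subgroup.coe_zpow, ← map_zpow]
    rfl
  obtain ⟨-, g, hg, hgx⟩ := h _ _ (Subgroup.zpowers_le.mpr hx) (Subgroup.zpowers_le.mpr hy)
    inferInstance (by rw [Nat.card_zpowers]; exact hord) inferInstance
    (by rw [Nat.card_zpowers, hordy]; exact hord) hres
  exact ⟨g, hg, hgx ⟨x, Subgroup.mem_zpowers (x : Ω)⟩⟩


/-- Let F be a saturated fusion system over a finite p-group S. If every map of F between cyclic subgroups of the hyperfocal subgroup of F of order p or 4 is conjugation by an element of S, then F is the inner fusion system of S. -/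
theorem result {Ω : Type u} [Group Ω] {S : Subgroup Ω} [Finite S] (p : ℕ) [Fact p.Prime] (hS : IsPGroup p S)
    (F : Cfsg.FusionSystem S) (hF : F.IsSaturated p)
    (h : ∀ A B : Subgroup Ω, A ≤ (F.hyperfocalSubgroup p) → B ≤ (F.hyperfocalSubgroup p) → IsCyclic ↥A → (Nat.card ↥A = p ∨ Nat.card ↥A = 4) → IsCyclic ↥B → (Nat.card ↥B = p ∨ Nat.card ↥B = 4) →
      F.homSet A B ⊆ (Cfsg.innerFusionSystem S).Hom A) :
    ∀ P : Subgroup Ω, F.Hom P = (Cfsg.innerFusionSystem S).Hom P := by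
  open CfsgLib.Alperin CfsgLib.FusionExamples in
  have hinner : ∀ {P : Subgroup Ω}, P ≤ S → F.IsFullyNormalized P →
      ∀ α ∈ F.autGroup P, ∀ x : P, (x : Ω) ∈ F.hyperfocalSubgroup p → SmallElt p (x : Ω) →
        ∃ s ∈ S, ((α x : P) : Ω) = s * (x : Ω) * s⁻¹ := fun _ hn α hα x hx hsm =>
    exists_conj hS hF h hn hα x hx hsm
  have hstab : ∀ {P : Subgroup Ω} (hn : F.IsFullyNormalized P), ∀ α ∈ F.autGroup P, ∀ x : P,
      (x : Ω) ∈ F.hyperfocalSubgroup p → SmallElt p (x : Ω) →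
      ∀ i, (⟨x, hn.1 x.2⟩ : S) ∈ Subgroup.upperCentralSeries S i →
        (⟨(α x : P), hn.1 (α x).2⟩ : S) ∈ Subgroup.upperCentralSeries S i := by
    intro P hn α hα x hx hsm i hi
    obtain ⟨s, hs, hsx⟩ := hinner hn.1 hn α hα x hx hsm
    have h1 := (inferInstance : (Subgroup.upperCentralSeries S i).Normal).conj_mem _ hi ⟨s, hs⟩
    exact (congrArg (· ∈ Subgroup.upperCentralSeries S i) (Subtype.ext hsx.symm)).mp h1
  have hnorm : F.IsNormal S := by
    refine isNormal_top_of_radical hS hF fun P hn hc hr => ?_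
    obtain ⟨K, hKn, hKp, hKle, -⟩ := exists_stabilizer hS hF hn (hstab hn)
    exact eq_top_of_radical hS hc (Or.inr hr) hKp hKle
  -- the automizer of `S` is inner
  have hn := isFullyNormalized_top F
  obtain ⟨K, hKn, hKp, hKle, hKmem⟩ := exists_stabilizer hS hF hn (hstab hn)
  haveI := finite_autGroup F hn.1
  obtain ⟨-, R, hR⟩ := (centralized_automized_of_fullyNormalized hS hF hn).2
  have hA : ∀ α ∈ F.autGroup S, α ∈ Cfsg.autInducedBy S S := by
    intro α hα
    have hK : K = (R : Subgroup (F.autGroup S)) := (R.3 hKp (hR ▸ hKle))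
    have h1 : (⟨α, hα⟩ : F.autGroup S) ∈ K :=
      hKmem _ fun x hx hsm => hinner hn.1 hn α hα x hx hsm
    rw [hK, hR] at h1
    exact h1
  intro P
  refine Set.Subset.antisymm (fun φ hφ => ?_) ?_
  · obtain ⟨ψ, hψ, hψx, -⟩ := hnorm.2 P φ hφ
    obtain ⟨β, hβ, hβx⟩ := exists_aut_of_hom' F (restrict_mem hψ (le_sup_right : S ≤ _))
      fun y => apply_mem hψ _
    obtain ⟨g, hg, hgx⟩ := mem_autInducedBy_iff.mp (hA β hβ)
    refine ⟨dom_le hφ, g, hg, fun x => ?_⟩
    rw [← hψx x]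
    exact (hβx ⟨x, dom_le hφ x.2⟩).symm.trans (hgx _)
  · rintro φ ⟨hP, g, hg, hx⟩
    exact mem_of_conj hP hg hx

end Cfsg.Agent.S5298
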