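import Cfsg.Statements.S5300
import Mathlib.FieldTheory.Finite.Basic
import Cfsg.Agent.Lib.FusionExamples.Hyperfocal

set_option autoImplicit false
set_option linter.style.haveILetI false
universe u
open Cfsg

namespace Cfsg.Agent.S5300

/-- Let F be a saturated fusion system over a finite p-group S. If every cyclic subgroup of the focal subgroup of F of order p (of order 2 or 4 when p = 2) is normal in S, then S is normal in F. -/
theorem result {Ω : Type u} [Group Ω] {S : Subgroup Ω} [Finite S] (p : ℕ) [Fact p.Prime] (hS : IsPGroup p S)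
    (F : Cfsg.FusionSystem S) (hF : F.IsSaturated p)
    (hnorm : ∀ x ∈ F.focalSubgroup, (x ^ p = 1 ∨ (p = 2 ∧ x ^ 4 = 1)) → ∀ s ∈ S, s * x * s⁻¹ ∈ Subgroup.zpowers x) :
    F.IsNormal S := by
  open CfsgLib.Alperin CfsgLib.FusionExamples in
  refine isNormal_top_of_radical hS hF fun P hn hc hr => ?_
  have hP := hn.1
  haveI := finite_of_le hP
  haveI := finite_autGroup F hP
  set H : Subgroup P := F.focalSubgroup.subgroupOf P with hH
  have hp2 := (Fact.out : p.Prime).two_le
  -- elements of order p of the focal subgroup are central in S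
  have hcen : ∀ x ∈ F.focalSubgroup, x ∈ S → x ^ p = 1 → ∀ s ∈ S, s * x * s⁻¹ = x := by
    intro x hxf hxS hxp s hs
    obtain ⟨k, hk⟩ := hnorm x hxf (Or.inl hxp) s hs
    obtain ⟨n, hn'⟩ := hS ⟨s, hs⟩
    have hsn : s ^ p ^ n = 1 := congrArg Subtype.val hn'
    have hit : ∀ j : ℕ, s ^ j * x * (s ^ j)⁻¹ = x ^ (k ^ j) := by
      intro j
      induction j with
      | zero => simp
      | succ j ih =>
        calc s ^ (j + 1) * x * (s ^ (j + 1))⁻¹ = s * (s ^ j * x * (s ^ j)⁻¹) * s⁻¹ := by
              rw [pow_succ']; group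
          _ = (s * x * s⁻¹) ^ (k ^ j) := by rw [ih, conj_zpow]
          _ = x ^ (k ^ (j + 1)) := by rw [← hk, ← zpow_mul, pow_succ']
    have h1 := hit (p ^ n)
    rw [hsn, one_mul, inv_one, mul_one] at h1
    by_cases hx1 : x = 1
    · simp [hx1]
    have hord : orderOf x = p := orderOf_eq_prime hxp hx1
    have h2 : ((p : ℤ)) ∣ k ^ (p ^ n) - 1 := by
      have e : ((orderOf x : ℤ)) ∣ k ^ (p ^ n) - 1 := by
        refine orderOf_dvd_iff_zpow_eq_one.mpr ?_
        rw [zpow_sub, ← h1, zpow_one, mul_inv_cancel]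
      rwa [hord] at e
    have h3 : ((p : ℤ)) ∣ k - 1 := by
      rw [← ZMod.intCast_zmod_eq_zero_iff_dvd] at h2 ⊢
      push_cast at h2 ⊢
      rwa [ZMod.pow_card_pow] at h2
    rw [← hord, orderOf_dvd_iff_zpow_eq_one] at h3
    calc s * x * s⁻¹ = x ^ k := hk.symm
      _ = x ^ (k - 1) * x := by rw [zpow_sub_one, inv_mul_cancel_right]
      _ = x := by rw [h3, one_mul]
  let Good : F.autGroup P → P → Prop := fun a x =>
    (x ^ p = 1 → (a : MulAut P) x = x) ∧
      ((x⁻¹ * (a : MulAut P) x) ^ p = 1)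
  have hHa : ∀ (a : F.autGroup P) (x : P), x ∈ H → (a : MulAut P) x ∈ H := fun a x hx =>
    focal_aut_mem hP a.2 hx
  have hsa : ∀ (a : F.autGroup P) (x : P), SmallElt p x → SmallElt p ((a : MulAut P) x) :=
    fun a x hx => (smallElt_map_iff (a : MulAut P).toMonoidHom (a : MulAut P).injective).mpr hx
  let K : Subgroup (F.autGroup P) :=
    { carrier := {a | ∀ x ∈ H, SmallElt p x → Good a x}
      one_mem' := fun x _ _ => ⟨fun _ => rfl, by simp⟩
      mul_mem' := fun {a b} ha hb x hx hsx => by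
        obtain ⟨hb1, hb2⟩ := hb x hx hsx
        obtain ⟨ha1, ha2⟩ := ha _ (hHa b x hx) (hsa b x hsx)
        refine ⟨fun hxp => ?_, ?_⟩
        · show (a : MulAut P) ((b : MulAut P) x) = x
          rw [hb1 hxp]
          exact (ha x hx hsx).1 hxp
        · show (x⁻¹ * (a : MulAut P) ((b : MulAut P) x)) ^ p = 1
          set y := (b : MulAut P) x with hy
          have hzH : x⁻¹ * y ∈ H := H.mul_mem (H.inv_mem hx) (hHa b x hx)
          have hcomm : Commute (x⁻¹ * y) (y⁻¹ * (a : MulAut P) y) := by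
            have h1 := hcen _ hzH (hP (x⁻¹ * y).2) (congrArg Subtype.val hb2)
              (y⁻¹ * (a : MulAut P) y : P) (hP (y⁻¹ * (a : MulAut P) y).2)
            exact Subtype.ext (mul_inv_eq_iff_eq_mul.mp h1).symm
          rw [show x⁻¹ * (a : MulAut P) y = (x⁻¹ * y) * (y⁻¹ * (a : MulAut P) y) by group,
            hcomm.mul_pow, hb2, ha2, one_mul]
      inv_mem' := fun {a} ha x hx hsx => by
        obtain ⟨h1, h2⟩ := ha _ (hHa a⁻¹ x hx) (hsa a⁻¹ x hsx)
        refine ⟨fun hxp => ?_, ?_⟩
        · have h4 := h1 (by rw [← map_pow, hxp, map_one])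
          simpa using h4.symm
        · have h4 : (((a⁻¹ : F.autGroup P) : MulAut P) x)⁻¹ * x =
              ((x⁻¹ * ((a⁻¹ : F.autGroup P) : MulAut P) x))⁻¹ := by group
          rw [show (a : MulAut P) (((a⁻¹ : F.autGroup P) : MulAut P) x) = x by simp, h4, inv_pow,
            inv_eq_one] at h2
          exact h2 }
  haveI : K.Normal := ⟨fun a ha g x hx hsx => by
    obtain ⟨h1, h2⟩ := ha _ (hHa g⁻¹ x hx) (hsa g⁻¹ x hsx)
    have e : x = (g : MulAut P) (((g⁻¹ : F.autGroup P) : MulAut P) x) := by simp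
    refine ⟨fun hxp => ?_, ?_⟩
    · show (g : MulAut P) ((a : MulAut P) (((g⁻¹ : F.autGroup P) : MulAut P) x)) = x
      rw [h1 (by rw [← map_pow, hxp, map_one]), ← e]
    · show (x⁻¹ * (g : MulAut P) ((a : MulAut P) (((g⁻¹ : F.autGroup P) : MulAut P) x))) ^ p = 1
      nth_rw 1 [e]
      rw [← map_inv, ← map_mul, ← map_pow, h2, map_one]⟩
  refine eq_top_of_radical hS hc (Or.inr hr) (K := K) ?_ ?_
  · rintro ⟨a, ha⟩
    obtain ⟨k, m, hkm, hm⟩ := exists_coprime_power (p := p) a
    refine ⟨k, Subtype.ext ?_⟩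
    set b := a ^ p ^ k with hb
    have hbK : b ∈ K := K.pow_mem ha _
    have hpP : IsPGroup p P := isPGroup_of_le hS hP
    have hfix : ∀ x ∈ H, SmallElt p x → (b : MulAut P) x = x := by
      intro x hx hsx
      obtain ⟨-, h2⟩ := hbK x hx hsx
      refine eq_of_stable hpP _ (congrArg Subtype.val hkm) hm ?_
      exact (hbK _ (H.mul_mem (H.inv_mem hx) (hHa b x hx)) (Or.inl h2)).1 h2
    have hres : restrictAut (b : MulAut P) H (fun x => ⟨hHa b x, fun h' => by
        simpa using hHa b⁻¹ _ h'⟩) = 1 := by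
      refine eq_one_of_fixes_small (hpP.to_subgroup H) _ m ?_ hm fun y hy => Subtype.ext ?_
      · refine MulEquiv.ext fun z => Subtype.ext ?_
        have hpow : ∀ (j : ℕ) (z : H) (hh),
            (((restrictAut (b : MulAut P) H hh) ^ j) z : P) = ((b : MulAut P) ^ j) (z : P) := by
          intro j
          induction j with
          | zero => intro z hh; simp
          | succ j ih =>
            intro z hh
            rw [pow_succ', pow_succ', MulAut.mul_apply, MulAut.mul_apply, ← ih z hh]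
            rfl
        rw [hpow, show ((b : MulAut P)) ^ m = 1 from congrArg Subtype.val hkm]
        rfl
      · exact hfix _ y.2 ((smallElt_map_iff H.subtype H.subtype_injective).mpr hy)
    refine Subtype.ext (MulEquiv.ext fun x => ?_)
    refine eq_of_stable hpP _ (congrArg Subtype.val hkm) hm ?_
    exact congrArg (fun z : H => (z : P)) (DFunLike.congr_fun hres
      (⟨x⁻¹ * (b : MulAut P) x, focal_gen_mem hP b.2 x⟩ : H))
  · intro a ha x hx hsx
    rw [Subgroup.mem_subgroupOf] at ha
    obtain ⟨s, hs, hsx'⟩ := mem_autInducedBy_iff.mp ha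
    refine ⟨fun hxp => Subtype.ext ?_, ?_⟩
    · rw [hsx']
      exact hcen _ hx (hP x.2) (congrArg Subtype.val hxp) s hs
    · rcases hsx with hxp | ⟨h2, h4⟩
      · have : (a : MulAut P) x = x :=
          Subtype.ext ((hsx' x).trans (hcen _ hx (hP x.2) (congrArg Subtype.val hxp) s hs))
        rw [this, inv_mul_cancel, one_pow]
      · subst h2
        obtain ⟨j, hj⟩ := hnorm _ hx (Or.inr ⟨rfl, congrArg Subtype.val h4⟩) s hs
        have hax : (a : MulAut P) x = x ^ j := Subtype.ext (by rw [hsx', Subgroup.coe_zpow]; exact hj.symm)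
        rcases Int.even_or_odd j with hev | hodd
        · obtain ⟨i, rfl⟩ := hev
          have hax2 : ((a : MulAut P) x) ^ 2 = 1 := by
            rw [hax, ← zpow_natCast, ← zpow_mul,
              show (i + i) * ((2 : ℕ) : ℤ) = ((4 : ℕ) : ℤ) * i by push_cast; ring,
              zpow_mul, zpow_natCast, h4, one_zpow]
          have hx2 : x ^ 2 = 1 := (a : MulAut P).injective (by rw [map_pow, hax2, map_one])
          rw [hax, ← zpow_natCast, ← zpow_neg_one, ← zpow_add, ← zpow_mul,
            mul_comm, zpow_mul, zpow_natCast, hx2, one_zpow]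
        · obtain ⟨i, rfl⟩ := hodd
          rw [hax, ← zpow_natCast, ← zpow_neg_one, ← zpow_add, ← zpow_mul,
            show (-1 + (2 * i + 1)) * ((2 : ℕ) : ℤ) = ((4 : ℕ) : ℤ) * i by push_cast; ring,
            zpow_mul, zpow_natCast, h4, one_zpow]

end Cfsg.Agent.S5300
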