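import Cfsg.Statements.S5301
import Cfsg.Agent.Lib.FusionExamples.Basic

set_option autoImplicit false
set_option linter.style.haveILetI false
universe u
open Cfsg

namespace Cfsg.Agent.S5301

/-- Let F be a saturated fusion system over a finite p-group S. If for every subgroup P of S that is fully normalized, centric and radical in F the automorphism group that F induces on P has a normal Sylow p-subgroup, then S is normal in F. -/
theorem result {Ω : Type u} [Group Ω] {S : Subgroup Ω} [Finite S] (p : ℕ) [Fact p.Prime] (hS : IsPGroup p S)
    (F : Cfsg.FusionSystem S) (hF : F.IsSaturated p)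
    (hcl : ∀ P : Subgroup Ω, F.IsFullyNormalized P → F.IsCentric P → F.IsRadical p P →
      ∃ R : Sylow p ↥(F.autGroup P), (R : Subgroup ↥(F.autGroup P)).Normal) :
    F.IsNormal S := by
  open CfsgLib.Alperin CfsgLib.FusionExamples in
  refine isNormal_top_of_radical hS hF fun P hn hc hr => ?_
  obtain ⟨R, hR⟩ := hcl P hn hc hr
  haveI := finite_autGroup F hn.1
  obtain ⟨-, R', hR'⟩ := (centralized_automized_of_fullyNormalized hS hF hn).2
  haveI := hR
  haveI := R.unique_of_normal hR
  refine eq_top_of_radical hS hc (Or.inr hr) R.isPGroup' ?_
  rw [← hR', Subsingleton.elim R R']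

end Cfsg.Agent.S5301
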