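import Cfsg.Statements.S5330
import Cfsg.Agent.Lib.FusionExamples.Abelian

set_option autoImplicit false
open Cfsg

namespace Cfsg.Agent.S5330

/-- Let F be a saturated fusion system over a finite abelian p-group S. Then S is the internal direct product of the centre of the system and the focal subgroup: Z(F) ∩ foc(F) = 1 and Z(F)·foc(F) = S. -/
theorem result {Ω : Type*} [Group Ω] {S : Subgroup Ω} [Finite S] (p : ℕ) [Fact p.Prime] (hS : IsPGroup p S) (F : Cfsg.FusionSystem S) (hF : F.IsSaturated p) (hab : ∀ x ∈ S, ∀ y ∈ S, x * y = y * x) : F.center ⊓ F.focalSubgroup = ⊥ ∧ F.center ⊔ F.focalSubgroup = S := by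
  classical
  open CfsgLib.Alperin CfsgLib.FusionExamples in
  letI : CommGroup S := { (inferInstance : Group S) with
    mul_comm := fun x y => Subtype.ext (hab x x.2 y y.2) }
  haveI := finite_autGroup F (le_refl S)
  letI := Fintype.ofFinite (F.autGroup S)
  set G := F.autGroup S with hG
  set m := Nat.card G with hmdef
  have hm : m.Coprime (Nat.card S) := by
    obtain ⟨n, hn⟩ := IsPGroup.iff_card.mp hS
    rw [hn]
    exact ((Nat.Prime.coprime_iff_not_dvd Fact.out).mpr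
      (not_dvd_card_autGroup hS hF hab)).symm.pow_right n
  let Nf : S → S := fun x => ∏ a : G, (a : MulAut S) x
  -- fixed points are central
  have hcen : ∀ x : S, (∀ a : G, (a : MulAut S) x = x) → (x : Ω) ∈ F.center := by
    intro x hx
    have hle : Subgroup.zpowers (x : Ω) ≤ S := Subgroup.zpowers_le.mpr x.2
    refine le_sSup (α := Subgroup Ω) (show F.IsCentral (Subgroup.zpowers (x : Ω)) from
      ⟨hle, fun P φ hφ => ?_⟩) (Subgroup.mem_zpowers _)
    obtain ⟨a, ha, hax⟩ := exists_aut_extending hS hF hab hφ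
    have hsup : P ⊔ Subgroup.zpowers (x : Ω) ≤ S := sup_le (dom_le hφ) hle
    refine ⟨_, restrict_mem ((mem_autGroup_iff F le_rfl).mp ha) hsup, fun y => hax y, ?_⟩
    rintro ⟨_, k, rfl⟩
    show ((a ⟨(x : Ω) ^ k, _⟩ : S) : Ω) = (x : Ω) ^ k
    have h2 : (⟨(x : Ω) ^ k, hle ⟨k, rfl⟩⟩ : S) = x ^ k := Subtype.ext (by simp)
    rw [h2, map_zpow, hx ⟨a, ha⟩]
    simp
  -- central elements are fixed
  have hfix : ∀ x : S, (x : Ω) ∈ F.center → ∀ a : G, (a : MulAut S) x = x := by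
    intro x hx a
    apply Subtype.ext
    have key : F.center ≤
        ((((a : MulAut S).toMonoidHom).eqLocus (MonoidHom.id S)).map S.subtype) := by
      refine sSup_le fun Q hQ q hq => ?_
      obtain ⟨hQS, hQext⟩ := hQ
      obtain ⟨ψ, -, hψS, hψQ⟩ := hQext S _ ((mem_autGroup_iff F le_rfl).mp a.2)
      refine ⟨⟨q, hQS hq⟩, Subtype.ext ?_, rfl⟩
      exact (hψS ⟨q, hQS hq⟩).symm.trans (hψQ ⟨q, hq⟩)
    obtain ⟨y, hy, hyx⟩ := key hx
    rw [show x = y from Subtype.ext hyx.symm]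
    exact congrArg Subtype.val hy
  -- the image of the norm is fixed
  have hNfix : ∀ (x : S) (b : G), (b : MulAut S) (Nf x) = Nf x := by
    intro x b
    simp only [Nf, map_prod]
    exact Fintype.prod_equiv (Equiv.mulLeft b) _ _ fun a => rfl
  -- the norm kills the generators of the focal subgroup
  have hfocN : ∀ x : S, (x : Ω) ∈ F.focalSubgroup → Nf x = 1 := by
    intro x hx
    let Nh : S →* S := MonoidHom.mk' Nf fun u v => by simp [Nf, Finset.prod_mul_distrib]
    have key : F.focalSubgroup ≤ Nh.ker.map S.subtype := by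
      refine (Subgroup.closure_le _).mpr ?_
      rintro y ⟨P, φ, z, hφ, rfl⟩
      obtain ⟨b, hb, hbz⟩ := exists_aut_extending hS hF hab hφ
      refine ⟨(⟨z, dom_le hφ z.2⟩ : S)⁻¹ * b ⟨z, dom_le hφ z.2⟩, ?_, ?_⟩
      · show Nh _ = 1
        rw [map_mul, map_inv, inv_mul_eq_one]
        show Nf _ = Nf _
        simp only [Nf]
        exact (Fintype.prod_equiv (Equiv.mulRight (⟨b, hb⟩ : G)) _ _ fun a => rfl).symm
      · simp [hbz z]
    obtain ⟨y, hy, hyx⟩ := key hx
    rw [show x = y from Subtype.ext hyx.symm]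
    exact hy
  constructor
  · rw [Subgroup.eq_bot_iff_forall]
    rintro x ⟨hx1, hx2⟩
    have hxS : x ∈ S := (sSup_le fun Q (hQ : F.IsCentral Q) => hQ.1 : F.center ≤ S) hx1
    have h1 : Nf ⟨x, hxS⟩ = ⟨x, hxS⟩ ^ m := by
      simp only [Nf]
      rw [Finset.prod_eq_pow_card (b := (⟨x, hxS⟩ : S)) (fun a _ => hfix ⟨x, hxS⟩ hx1 a), hmdef,
        Nat.card_eq_fintype_card, Finset.card_univ]
    have h2 : (⟨x, hxS⟩ : S) ^ m = 1 := h1.symm.trans (hfocN ⟨x, hxS⟩ hx2)
    have h3 : (⟨x, hxS⟩ : S) = 1 := by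
      rw [← orderOf_eq_one_iff]
      exact Nat.dvd_one.mp (hm ▸ Nat.dvd_gcd (orderOf_dvd_of_pow_eq_one h2) (orderOf_dvd_natCard _))
    exact congrArg Subtype.val h3
  · refine le_antisymm (sup_le (sSup_le fun Q (hQ : F.IsCentral Q) => hQ.1) ?_) fun x hx => ?_
    · refine (Subgroup.closure_le _).mpr ?_
      rintro y ⟨P, φ, z, hφ, rfl⟩
      exact S.mul_mem (S.inv_mem (dom_le hφ z.2)) (apply_mem hφ z)
    set K := (F.center ⊔ F.focalSubgroup).subgroupOf S with hK
    have hNx : Nf ⟨x, hx⟩ ∈ K :=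
      (le_sup_left : F.center ≤ _) (hcen _ (hNfix _))
    have hq : ((∏ a : G, ((⟨x, hx⟩ : S))⁻¹ * (a : MulAut S) ⟨x, hx⟩) : S) ∈ K := by
      refine Subgroup.prod_mem _ fun a _ => (le_sup_right : F.focalSubgroup ≤ _) ?_
      exact Subgroup.subset_closure ⟨S, _, ⟨x, hx⟩, (mem_autGroup_iff F le_rfl).mp a.2, rfl⟩
    rw [Finset.prod_mul_distrib, Finset.prod_const, Finset.card_univ] at hq
    have hpow : ((⟨x, hx⟩ : S)) ^ m ∈ K := by
      have := K.mul_mem hNx (K.inv_mem hq)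
      rw [hmdef, Nat.card_eq_fintype_card]
      simpa [Nf] using this
    obtain ⟨n, hn⟩ := exists_pow_eq_self_of_coprime (x := (⟨x, hx⟩ : S)) (n := m)
      (Nat.Coprime.coprime_dvd_right (orderOf_dvd_natCard _) hm)
    have h4 : ((⟨x, hx⟩ : S)) = (((⟨x, hx⟩ : S)) ^ m) ^ n := hn.symm
    have : (⟨x, hx⟩ : S) ∈ K := h4 ▸ K.pow_mem hpow n
    exact this

end Cfsg.Agent.S5330
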