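import Cfsg.Statements.S5331
import Cfsg.Agent.Lib.FusionExamples.Abelian
import Mathlib.Data.ZMod.Basic

set_option autoImplicit false
open Cfsg

namespace Cfsg.Agent.S5331

/-- An odd order automorphism of an abelian 2-group in which each layer `A[2] ∩ A^(2^k)` drops by at
most a factor 2 is trivial. -/
theorem odd_aut_trivial {A : Type*} [CommGroup A]
    (hstep : ∀ (k : ℕ) (x y : A), x ^ 2 = 1 → y ^ 2 = 1 →
      (∃ u, x = u ^ 2 ^ k) → (∃ u, y = u ^ 2 ^ k) → (¬ ∃ u, x = u ^ 2 ^ (k + 1)) →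
      (¬ ∃ u, y = u ^ 2 ^ (k + 1)) → ∃ u, x * y = u ^ 2 ^ (k + 1))
    (N : ℕ) (hN : ∀ x : A, x ^ 2 ^ N = 1) (a : MulAut A) (m : ℕ) (hm : Odd m) (ham : a ^ m = 1) :
    a = 1 := by
  have hstab : ∀ x v : A, a x = x * v → a v = v → v ^ 2 = 1 → a x = x := by
    intro x v hx hv hv2
    have hit : ∀ j : ℕ, (a ^ j) x = x * v ^ j := by
      intro j
      induction j with
      | zero => simp
      | succ j ih => rw [pow_succ', MulAut.mul_apply, ih, map_mul, map_pow, hx, hv, pow_succ', mul_assoc]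
    have h := hit m
    rw [ham, MulAut.one_apply] at h
    obtain ⟨t, ht⟩ := hm
    have hvm : v ^ m = v := by rw [ht, pow_succ, pow_mul, hv2, one_pow, one_mul]
    rw [hvm] at h
    rw [hx, ← h]
  have hfix2 : ∀ d k : ℕ, k + d = N → ∀ x : A, x ^ 2 = 1 → (∃ u, x = u ^ 2 ^ k) → a x = x := by
    intro d
    induction d with
    | zero =>
      rintro k rfl x - ⟨u, rfl⟩
      simp only [Nat.add_zero] at hN
      rw [hN, map_one]
    | succ d ih =>
      intro k hk x hx hxu
      have hk1 : k + 1 + d = N := by omega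
      by_cases hx' : ∃ u, x = u ^ 2 ^ (k + 1)
      · exact ih (k + 1) hk1 x hx hx'
      have hax : (a x) ^ 2 = 1 := by rw [← map_pow, hx, map_one]
      have haxu : ∃ u, a x = u ^ 2 ^ k := by
        obtain ⟨u, rfl⟩ := hxu
        exact ⟨a u, map_pow a u _⟩
      have hax' : ¬ ∃ u, a x = u ^ 2 ^ (k + 1) := by
        rintro ⟨u, hu⟩
        refine hx' ⟨a.symm u, ?_⟩
        rw [← map_pow, ← hu, MulEquiv.symm_apply_apply]
      obtain ⟨u, hu⟩ := hstep k x (a x) hx hax hxu haxu hx' hax'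
      have hv : (x * a x) ^ 2 = 1 := by rw [mul_pow, hx, hax, one_mul]
      refine hstab x (x * a x) ?_ (ih (k + 1) hk1 _ hv ⟨u, hu⟩) hv
      rw [← mul_assoc, ← sq, hx, one_mul]
  have hall : ∀ (j : ℕ) (x : A), x ^ 2 ^ j = 1 → a x = x := by
    intro j
    induction j with
    | zero => intro x hx; simp at hx; simp [hx]
    | succ j ih =>
      intro x hx
      have h1 : a (x ^ 2) = x ^ 2 := ih _ (by rw [← pow_mul, ← pow_succ']; exact hx)
      have hv : (x⁻¹ * a x) ^ 2 = 1 := by rw [mul_pow, inv_pow, ← map_pow, h1, inv_mul_cancel]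
      exact hstab x (x⁻¹ * a x) (mul_inv_cancel_left x (a x)).symm
        (hfix2 N 0 (Nat.zero_add N) _ hv ⟨x⁻¹ * a x, by simp⟩) hv
  exact MulEquiv.ext fun x => hall N x (hN x)

/-- The layer condition for a product of cyclic 2-groups of pairwise distinct orders. -/
theorem step_of_distinct {n : ℕ} (a : Fin n → ℕ) (ha : Function.Injective a) (k : ℕ)
    (x y : Multiplicative ((i : Fin n) → ZMod (2 ^ a i))) (hx2 : x ^ 2 = 1) (hy2 : y ^ 2 = 1)
    (hx : ∃ u, x = u ^ 2 ^ k) (hy : ∃ u, y = u ^ 2 ^ k) (hx' : ¬ ∃ u, x = u ^ 2 ^ (k + 1))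
    (hy' : ¬ ∃ u, y = u ^ 2 ^ (k + 1)) : ∃ u, x * y = u ^ 2 ^ (k + 1) := by
  -- coordinates of exponent different from `k + 1` are automatically `2 ^ (k + 1)`-th multiples
  have hcoord : ∀ z : Multiplicative ((i : Fin n) → ZMod (2 ^ a i)), z ^ 2 = 1 →
      (∃ u, z = u ^ 2 ^ k) → ∀ i, a i ≠ k + 1 →
        ∃ c : ZMod (2 ^ a i), Multiplicative.toAdd z i = 2 ^ (k + 1) • c := by
    rintro z hz2 ⟨u, rfl⟩ i hi
    haveI : NeZero (2 ^ a i) := ⟨by positivity⟩
    set v : ZMod (2 ^ a i) := Multiplicative.toAdd u i with hv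
    have h2 : (2 ^ (k + 1)) • v = 0 := by
      have := congrFun (congrArg Multiplicative.toAdd hz2) i
      simp only [toAdd_pow, toAdd_one, Pi.smul_apply, Pi.zero_apply, smul_smul] at this
      rwa [pow_succ']
    have hz : (Multiplicative.toAdd (u ^ 2 ^ k) : (j : Fin n) → ZMod (2 ^ a j)) i = 2 ^ k • v := by
      simp [toAdd_pow, hv]
    rw [hz]
    rcases lt_or_gt_of_ne hi with h | h
    · refine ⟨0, ?_⟩
      rw [smul_zero, nsmul_eq_mul,
        (ZMod.natCast_eq_zero_iff _ _).mpr (pow_dvd_pow 2 (Nat.lt_succ_iff.mp h)), zero_mul]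
    · obtain ⟨d, hd⟩ := Nat.exists_eq_add_of_lt h
      rw [nsmul_eq_mul, ← ZMod.natCast_zmod_val v, ← Nat.cast_mul,
        ZMod.natCast_eq_zero_iff] at h2
      have h3 : 2 ^ (d + 1) ∣ v.val := by
        have h2' : 2 ^ (k + 1) * 2 ^ (d + 1) ∣ 2 ^ (k + 1) * v.val := by
          rw [← pow_add]
          exact (pow_dvd_pow 2 (by omega)).trans h2
        exact (Nat.mul_dvd_mul_iff_left (by positivity)).mp h2'
      obtain ⟨c, hc⟩ := h3
      refine ⟨((2 ^ d * c : ℕ) : ZMod (2 ^ a i)), ?_⟩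
      rw [← ZMod.natCast_zmod_val v, hc, nsmul_eq_mul, nsmul_eq_mul, ← Nat.cast_mul,
        ← Nat.cast_mul]
      congr 1
      ring
  by_cases hi : ∃ i, a i = k + 1
  · obtain ⟨i, hi⟩ := hi
    have hother : ∀ z : Multiplicative ((i : Fin n) → ZMod (2 ^ a i)), z ^ 2 = 1 →
        (∃ u, z = u ^ 2 ^ k) → ∀ j, j ≠ i →
          ∃ c : ZMod (2 ^ a j), Multiplicative.toAdd z j = 2 ^ (k + 1) • c :=
      fun z hz hzu j hj => hcoord z hz hzu j fun h => hj (ha (h.trans hi.symm))
    have hnz : ∀ z : Multiplicative ((i : Fin n) → ZMod (2 ^ a i)), z ^ 2 = 1 →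
        (∃ u, z = u ^ 2 ^ k) → (¬ ∃ u, z = u ^ 2 ^ (k + 1)) → Multiplicative.toAdd z i ≠ 0 := by
      intro z hz hzu hz' h0
      apply hz'
      have : ∀ j, ∃ c : ZMod (2 ^ a j), Multiplicative.toAdd z j = 2 ^ (k + 1) • c := by
        intro j
        by_cases hj : j = i
        · subst hj
          exact ⟨0, by rw [h0, smul_zero]⟩
        · exact hother z hz hzu j hj
      choose c hc using this
      exact ⟨Multiplicative.ofAdd c, Multiplicative.toAdd.injective (funext fun j => by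
        simp [toAdd_pow, hc])⟩
    have htwo : ∀ v w : ZMod (2 ^ a i), 2 • v = 0 → 2 • w = 0 → v ≠ 0 → w ≠ 0 → v + w = 0 := by
      haveI : NeZero (2 ^ a i) := ⟨by positivity⟩
      have key : ∀ v : ZMod (2 ^ a i), 2 • v = 0 → v ≠ 0 → v.val = 2 ^ k := by
        intro v h h'
        rw [nsmul_eq_mul, ← ZMod.natCast_zmod_val v, ← Nat.cast_mul,
          ZMod.natCast_eq_zero_iff] at h
        have h'' : 2 ^ k ∣ v.val := by
          have : 2 * 2 ^ k ∣ 2 * v.val := by rw [← pow_succ', ← hi]; exact h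
          exact (Nat.mul_dvd_mul_iff_left (by norm_num)).mp this
        obtain ⟨c, hc⟩ := h''
        have hlt := ZMod.val_lt v
        have hne : v.val ≠ 0 := fun h0 => h' ((ZMod.val_eq_zero v).mp h0)
        have hpos : 0 < 2 ^ k := by positivity
        have e : 2 ^ a i = 2 * 2 ^ k := by rw [hi, pow_succ']
        rw [hc, e] at hlt
        rw [hc] at hne
        have hc1 : c = 1 := by
          have : c < 2 := by
            by_contra hh
            have : 2 ^ k * 2 ≤ 2 ^ k * c := Nat.mul_le_mul_left _ (not_lt.mp hh)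
            omega
          have : c ≠ 0 := fun h0 => hne (by rw [h0, mul_zero])
          omega
        rw [hc, hc1, mul_one]
      intro v w hv hw hv' hw'
      have : v = w := ZMod.val_injective _ ((key v hv hv').trans (key w hw hw').symm)
      rw [this, ← two_nsmul, hw]
    have hx2i : 2 • Multiplicative.toAdd x i = 0 := by
      simpa [toAdd_pow] using congrFun (congrArg Multiplicative.toAdd hx2) i
    have hy2i : 2 • Multiplicative.toAdd y i = 0 := by
      simpa [toAdd_pow] using congrFun (congrArg Multiplicative.toAdd hy2) i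
    have h0 : Multiplicative.toAdd (x * y) i = 0 := by
      simpa using htwo _ _ hx2i hy2i (hnz x hx2 hx hx') (hnz y hy2 hy hy')
    have : ∀ j, ∃ c : ZMod (2 ^ a j), Multiplicative.toAdd (x * y) j = 2 ^ (k + 1) • c := by
      intro j
      by_cases hj : j = i
      · subst hj
        exact ⟨0, by rw [h0, smul_zero]⟩
      · obtain ⟨c, hc⟩ := hother x hx2 hx j hj
        obtain ⟨c', hc'⟩ := hother y hy2 hy j hj
        exact ⟨c + c', by simp [hc, hc', smul_add]⟩
    choose c hc using this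
    exact ⟨Multiplicative.ofAdd c, Multiplicative.toAdd.injective (funext fun j => by
      rw [hc]; simp [toAdd_pow])⟩
  · exfalso
    apply hx'
    have := fun j => hcoord x hx2 hx j fun h => hi ⟨j, h⟩
    choose c hc using this
    exact ⟨Multiplicative.ofAdd c, Multiplicative.toAdd.injective (funext fun j => by
      simp [toAdd_pow, hc])⟩


/-- Let S be a finite abelian 2-group that is a direct product of cyclic groups of pairwise distinct orders 2^{a_1} < 2^{a_2} < ⋯ < 2^{a_n} (all a_i ≥ 1). Then every saturated fusion system over S is the inner one: its maps are exactly the conjugations by elements of S. -/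
theorem result {Ω : Type*} [Group Ω] {S : Subgroup Ω} [Finite S] (n : ℕ) (a : Fin n → ℕ) (ha : StrictMono a) (ha1 : ∀ i, 1 ≤ a i) (e : ↥S ≃* Multiplicative ((i : Fin n) → ZMod (2 ^ a i))) (F : Cfsg.FusionSystem S) (hF : F.IsSaturated 2) (P : Subgroup Ω) : F.Hom P = (Cfsg.innerFusionSystem S).Hom P := by
  classical
  open CfsgLib.Alperin CfsgLib.FusionExamples in
  have hS : IsPGroup 2 S := by
    refine IsPGroup.of_card (n := ∑ i, a i) ?_
    rw [Nat.card_congr (e.toEquiv.trans Multiplicative.toAdd), Nat.card_pi]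
    simp [Finset.prod_pow_eq_pow_sum]
  have hab : ∀ x ∈ S, ∀ y ∈ S, x * y = y * x := fun x hx y hy =>
    congrArg Subtype.val (e.injective (by rw [map_mul, map_mul, mul_comm]) :
      (⟨x, hx⟩ : S) * ⟨y, hy⟩ = ⟨y, hy⟩ * ⟨x, hx⟩)
  have hN : ∀ x : Multiplicative ((i : Fin n) → ZMod (2 ^ a i)),
      x ^ 2 ^ (∑ i, a i) = 1 := fun x => Multiplicative.toAdd.injective (funext fun i => by
    simp only [toAdd_pow, toAdd_one, Pi.smul_apply, Pi.zero_apply, nsmul_eq_mul]
    have hle : a i ≤ ∑ j, a j := Finset.single_le_sum (fun j _ => Nat.zero_le _) (Finset.mem_univ i)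
    rw [(ZMod.natCast_eq_zero_iff _ _).mpr (pow_dvd_pow 2 hle), zero_mul])
  have htriv : ∀ β ∈ F.autGroup S, β = 1 := by
    intro β hβ
    haveI := finite_autGroup F (le_refl S)
    have hodd : Odd (Nat.card (F.autGroup S)) :=
      Nat.odd_iff.mpr (Nat.two_dvd_ne_zero.mp (not_dvd_card_autGroup hS hF hab))
    have hpow : β ^ Nat.card (F.autGroup S) = 1 :=
      congrArg Subtype.val (pow_card_eq_one' (x := (⟨β, hβ⟩ : F.autGroup S)))
    have := odd_aut_trivial (step_of_distinct a ha.injective) _ hN (MulAut.congr e β) _ hodd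
      (by rw [← map_pow, hpow, map_one])
    exact (MulAut.congr e).injective (this.trans (map_one _).symm)
  refine Set.Subset.antisymm (fun φ hφ => ?_) (inner_le F P)
  obtain ⟨β, hβ, hx⟩ := exists_aut_extending hS hF hab hφ
  refine (inner_mem_iff_abelian hab).mpr ⟨dom_le hφ, fun x => ?_⟩
  rw [← hx x, htriv β hβ]
  rfl

end Cfsg.Agent.S5331
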