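import Cfsg.Statements.S5342
import Cfsg.Agent.Lib.Cores.PCore
import Cfsg.Agent.Lib.FusionBasics.Normal
import Cfsg.Agent.Lib.FusionSub.NormalCriterion
import Cfsg.Agent.Lib.FusionExamples.CentricExtension
import Cfsg.Agent.Lib.FusionExamples.Hyperfocal

set_option autoImplicit false
set_option linter.style.haveILetI false
open Cfsg

namespace Cfsg.Agent.S5342

open Cfsg.FusionSystem CfsgLib.Alperin CfsgLib.FusionExamples CfsgLib.FusionBasics CfsgLib.FusionSub

variable {Ω : Type*} [Group Ω] {S : Subgroup Ω} [Finite S] {p : ℕ} [Fact p.Prime]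

/-- An element of `S` inducing on a centric `Q = O_p(F)` an element of a normal `p`-subgroup of
`Aut_F(Q)` lies in `Q`. -/
theorem mem_core_of_pCore (hS : IsPGroup p S) {F : Cfsg.FusionSystem S} (hF : F.IsSaturated p)
    (hQc : F.IsCentric F.core) (L : Subgroup (F.autGroup F.core)) [hLn : L.Normal]
    (hLp : IsPGroup p L) {u : Ω} (hu : u ∈ S)
    (hN : u ∈ Subgroup.normalizer (F.core : Set Ω))
    (hL : ⟨conjAut F.core u hN, autInducedBy_le_autGroup F (CfsgLib.FusionExamples.core_le F)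
      (conjAut_mem hu hN)⟩ ∈ L) :
    u ∈ F.core := by
  have hQn : F.IsNormal F.core := isNormal_core F
  set Q := F.core with hQdef
  haveI := finite_autGroup F hQn.1
  have hSN : ∀ s ∈ S, s ∈ Subgroup.normalizer (Q : Set Ω) := fun s hs =>
    ((normalizerIn_eq_of_isNormal hQn).ge hs).2
  set O := Cfsg.pCore p (F.autGroup Q) with hO
  haveI : O.Normal := inferInstanceAs (Cfsg.pCore p (F.autGroup Q)).Normal
  have hOp : IsPGroup p O := CfsgLib.Cores.isPGroup_pCore p _
  let c : S →* F.autGroup Q :=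
    MonoidHom.mk' (fun s => ⟨conjAut Q s (hSN s s.2),
      autInducedBy_le_autGroup F hQn.1 (conjAut_mem s.2 _)⟩) fun s t => Subtype.ext
        (MulEquiv.ext fun x => Subtype.ext (by simp [mul_assoc]))
  let U : Subgroup Ω := (O.comap c).map S.subtype
  have hQU : Q ≤ U := by
    intro q hq
    refine ⟨⟨q, hQn.1 hq⟩, ?_, rfl⟩
    have h1 : ((Cfsg.Inn Q).subgroupOf (F.autGroup Q)) ≤ O := by
      refine le_sSup ⟨(inferInstance : (Cfsg.Inn Q).Normal).subgroupOf _, ?_⟩
      exact ((isPGroup_of_le hS hQn.1).of_surjective MulAut.conj.rangeRestrict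
        MulAut.conj.rangeRestrict_surjective).comap_of_injective (F.autGroup Q).subtype
          Subtype.val_injective
    exact h1 ⟨⟨q, hq⟩, MulEquiv.ext fun x => Subtype.ext rfl⟩
  have huU : u ∈ U := ⟨⟨u, hu⟩, CfsgLib.Cores.le_pCore hLp hL, rfl⟩
  have hUn : F.IsNormal U := by
    refine CfsgLib.FusionBasics.isNormal_of_generators hS hF fun P hP => ?_
    have hPc : F.IsCentric P ∧ (P = S ∨ F.IsRadical p P) := by
      rcases hP with rfl | h
      · exact ⟨isCentric_top F, Or.inl rfl⟩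
      · exact ⟨h.1, Or.inr (isRadical_of_essential hS h)⟩
    obtain ⟨hc, hr⟩ := hPc
    have hPS := hc.1
    haveI := finite_of_le hPS
    haveI := finite_autGroup F hPS
    have hQP : Q ≤ P := by
      rcases hr with rfl | h
      · exact hQn.1
      · exact normal_le_centric_radical hS hQn hc h
    have hQQ : ∀ a : F.autGroup P, ∀ x : P, (x : Ω) ∈ Q → (((a : MulAut P) x : P) : Ω) ∈ Q :=
      fun a x hx => aut_apply_mem_of_stronglyClosed (isNormal_stronglyClosed hQn) hPS a.2 x hx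
    -- restriction to Q
    let res : F.autGroup P →* F.autGroup Q :=
      MonoidHom.mk' (fun a => ⟨{
          toFun := fun x => ⟨((a : MulAut P) ⟨x, hQP x.2⟩ : P), hQQ a _ x.2⟩
          invFun := fun x => ⟨((a⁻¹ : F.autGroup P) : MulAut P) ⟨x, hQP x.2⟩, hQQ a⁻¹ _ x.2⟩
          left_inv := fun x => Subtype.ext (by simp)
          right_inv := fun x => Subtype.ext (by simp)
          map_mul' := fun x y => Subtype.ext (congrArg (fun z : P => (z : Ω))
            (map_mul (a : MulAut P) ⟨x, hQP x.2⟩ ⟨y, hQP y.2⟩)) },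
        (mem_autGroup_iff F hQn.1).mpr (restrict_mem_apply ((mem_autGroup_iff F hPS).mp a.2) hQP
          fun x => rfl)⟩) fun a b => Subtype.ext (MulEquiv.ext fun x => Subtype.ext rfl)
    set K := O.comap res with hK
    haveI : K.Normal := inferInstanceAs (O.comap res).Normal
    have hKp : IsPGroup p K := by
      rintro ⟨a, ha⟩
      obtain ⟨k, m, hkm, hm⟩ := exists_coprime_power (p := p) a
      refine ⟨k, Subtype.ext ?_⟩
      set b := a ^ p ^ k
      have hfix : ∀ y : P, (y : Ω) ∈ Q → (b : MulAut P) y = y := by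
        have hbO : res b ∈ O := O.comap res |>.pow_mem ha _
        obtain ⟨j, hj⟩ := hOp ⟨res b, hbO⟩
        have h1 : res b ^ p ^ j = 1 := congrArg Subtype.val hj
        have h2 : res b ^ m = 1 := by rw [← map_pow, hkm, map_one]
        have h3 : res b = 1 := by
          rw [← orderOf_eq_one_iff]
          exact Nat.eq_one_of_dvd_coprimes (hm.pow_right j)
            (orderOf_dvd_of_pow_eq_one h2) (orderOf_dvd_of_pow_eq_one h1)
        intro y hy
        exact Subtype.ext (congrArg (fun z : Q => (z : Ω))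
          (DFunLike.congr_fun (congrArg Subtype.val h3) (⟨y, hy⟩ : Q)))
      refine Subtype.ext (MulEquiv.ext fun x => eq_of_stable (isPGroup_of_le hS hPS)
        (b : MulAut P) (m := m) (congrArg Subtype.val hkm) hm (hfix _ ?_))
      refine hQc.2 Q (isConj_refl F hQn.1) ⟨hPS (x⁻¹ * (b : MulAut P) x).2, fun q hq => ?_⟩
      have hq' : ((x * ⟨q, hQP hq⟩ * x⁻¹ : P) : Ω) ∈ Q :=
        mem_normalizer_conj (hSN x (hPS x.2)) hq
      have h1 := hfix _ hq'
      rw [map_mul, map_mul, map_inv, hfix ⟨q, hQP hq⟩ hq] at h1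
      have h2 : (⟨q, hQP hq⟩ : P) * (x⁻¹ * (b : MulAut P) x) =
          x⁻¹ * (b : MulAut P) x * ⟨q, hQP hq⟩ :=
        calc (⟨q, hQP hq⟩ : P) * (x⁻¹ * (b : MulAut P) x)
            = x⁻¹ * (x * ⟨q, hQP hq⟩ * x⁻¹) * (b : MulAut P) x := by group
          _ = x⁻¹ * ((b : MulAut P) x * ⟨q, hQP hq⟩ * ((b : MulAut P) x)⁻¹) * (b : MulAut P) x := by
            rw [h1]
          _ = x⁻¹ * (b : MulAut P) x * ⟨q, hQP hq⟩ := by group
      exact congrArg Subtype.val h2
    have hmemU : ∀ x : Ω, ∀ hx : x ∈ S, x ∈ U ↔ c ⟨x, hx⟩ ∈ O := by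
      intro x hx
      refine ⟨fun ⟨y, hy, hyx⟩ => ?_, fun h => ⟨⟨x, hx⟩, h, rfl⟩⟩
      rw [show (⟨x, hx⟩ : S) = y from Subtype.ext hyx.symm]
      exact hy
    have hcnj : ∀ s ∈ S, ∀ x ∈ U, s * x * s⁻¹ ∈ U := by
      rintro s hs _ ⟨y, hy, rfl⟩
      refine ⟨⟨s, hs⟩ * y * ⟨s, hs⟩⁻¹, ?_, rfl⟩
      show c (⟨s, hs⟩ * y * ⟨s, hs⟩⁻¹) ∈ O
      rw [map_mul, map_mul, map_inv]
      exact (inferInstance : O.Normal).conj_mem _ hy _
    refine ⟨?_, fun α hα x hx => ?_⟩
    · by_contra hnot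
      have hne : P ≠ S := fun h => hnot (h ▸ (Subgroup.map_subtype_le _))
      have hUS : U ≤ S := Subgroup.map_subtype_le _
      have hPlt : P < U ⊔ P := lt_of_le_not_ge le_sup_right fun h => hnot (le_sup_left.trans h)
      obtain ⟨g, hgUP, hgN, hgP⟩ := exists_mem_normalizer_not_mem hS hPlt (sup_le hUS hPS)
      obtain ⟨a, ha, b, hb, rfl⟩ : ∃ a ∈ U, ∃ b ∈ P, a * b = g := by
        have hPU : P ≤ Subgroup.normalizer (U : Set Ω) := fun y hy => by
          refine Subgroup.mem_normalizer_iff.mpr fun z => ⟨hcnj y (hPS hy) z, fun hz => ?_⟩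
          have h' := hcnj y⁻¹ (S.inv_mem (hPS hy)) _ hz
          simpa [mul_assoc] using h'
        have hcoe := Subgroup.coe_mul_of_right_le_normalizer_left U P hPU
        rw [← SetLike.mem_coe, hcoe] at hgUP
        exact hgUP
      have haN : a ∈ Subgroup.normalizer (P : Set Ω) := by
        simpa using Subgroup.mul_mem _ hgN (Subgroup.inv_mem _ (Subgroup.le_normalizer hb))
      refine hgP (P.mul_mem ?_ hb)
      refine mem_of_conjAut_mem_inn hPS (hc.2 P (isConj_refl F hPS)) (hUS ha)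
        (α := conjAut P a haN) (fun _ => rfl) ?_
      rw [← (hr.resolve_left hne).2]
      refine ⟨⟨_, autInducedBy_le_autGroup F hPS (conjAut_mem (hUS ha) haN)⟩,
        CfsgLib.Cores.le_pCore hKp ?_, rfl⟩
      show res _ ∈ O
      refine (congrArg (· ∈ O) (Subtype.ext (MulEquiv.ext fun y => Subtype.ext ?_))).mp
        ((hmemU a (hUS ha)).mp ha)
      rfl
    · obtain hxS := hPS x.2
      refine (hmemU _ (hPS (α x).2)).mpr ?_
      have h1 : c ⟨(α x : P), hPS (α x).2⟩ = res ⟨α, hα⟩ * c ⟨x, hxS⟩ * (res ⟨α, hα⟩)⁻¹ := by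
        refine eq_mul_inv_of_mul_eq (Subtype.ext (MulEquiv.ext fun y => Subtype.ext ?_))
        show ((α x : P) : Ω) * ((α ⟨y, hQP y.2⟩ : P) : Ω) * ((α x : P) : Ω)⁻¹ =
          ((α ⟨(x : Ω) * y * (x : Ω)⁻¹, _⟩ : P) : Ω)
        rw [← Subgroup.coe_inv, ← Subgroup.coe_mul, ← Subgroup.coe_mul, ← map_inv, ← map_mul,
          ← map_mul]
        rfl
      rw [h1]
      exact (inferInstance : O.Normal).conj_mem _ ((hmemU _ hxS).mp hx) _
  exact isNormal_le_core hUn huU

/-- A normal subsystem of a constrained system is constrained. -/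
theorem constrained_of_normal (hS : IsPGroup p S) {D : Cfsg.FusionSystem S} (hD : D.IsConstrained p)
    {T : Subgroup Ω} {E : Cfsg.FusionSystem T} (hE : E.IsNormalIn D p) : E.IsConstrained p := by
  obtain ⟨hDs, Q₀, hQ₀, hQ₀c⟩ := hD
  obtain ⟨⟨hEs, -, hsub, hT, -, -⟩, -⟩ := hE
  have hTS := hT.1
  haveI : Finite T := finite_of_le hTS
  have hTp : IsPGroup p T := isPGroup_of_le hS hTS
  have hQn := isNormal_core D
  have hQc : D.IsCentric D.core := isCentric_of_ge hQ₀c (isNormal_le_core hQ₀) hQn.1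
  set Q := D.core with hQdef
  haveI := finite_of_le hQn.1
  obtain ⟨n, Qs, h0, hlast, hmono, hchar, hcomm⟩ :=
    exists_central_series (Q := Q) (isPGroup_of_le hS hQn.1)
  set R := Q ⊓ T with hR
  have hscQ := isNormal_stronglyClosed hQn
  have hsc : ∀ {U : Subgroup Ω}, D.StronglyClosed U → E.StronglyClosed (U ⊓ T) := fun {U} hU =>
    ⟨inf_le_right, fun W hW φ hφ x => ⟨hU.2 W (hW.trans inf_le_left) φ (hsub W hφ) x,
      apply_mem hφ x⟩⟩
  have hTc : ∀ s ∈ S, ∀ t ∈ T, s * t * s⁻¹ ∈ T := fun s hs t ht =>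
    hT.2 T le_rfl _ (D.conj_mem hT.1 hs) ⟨t, ht⟩
  have hRn : E.IsNormal R := by
    refine isNormal_of_central_series hTp hEs R (fun i => Qs i ⊓ T) ?_ ?_ (fun i => ?_) fun i => ?_
    · show Qs 0 ⊓ T = ⊥
      rw [h0, bot_inf_eq]
    · show Qs (Fin.last n) ⊓ T = R
      rw [hlast]
    · exact hsc (stronglyClosed_of_characteristic hQn (hchar _).1 (hchar _).2)
    · refine le_inf ((Subgroup.commutator_mono inf_le_left inf_le_left).trans (hcomm i)) ?_
      rw [Subgroup.commutator_le]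
      intro a ha b hb
      rw [commutatorElement_def]
      exact T.mul_mem (T.mul_mem (T.mul_mem ha.2 hb.2) (T.inv_mem ha.2)) (T.inv_mem hb.2)
  refine ⟨hEs, R, hRn, inf_le_right, fun R' hR' => ?_⟩
  rw [eq_of_isConj_of_isNormal hRn hR']
  intro x hx
  refine ⟨?_, hx.1⟩
  haveI := finite_autGroup D hQn.1
  have hQR : ∀ (a : D.autGroup Q) (q : Q), (q : Ω) ∈ R →
      (((a : MulAut Q) q : Q) : Ω) ∈ R := fun a q hq =>
    ⟨((a : MulAut Q) q).2, aut_apply_mem_of_stronglyClosed hT hQn.1 a.2 q hq.2⟩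
  let L : Subgroup (D.autGroup Q) :=
    { carrier := {a | (∀ q : Q, (q : Ω) ∈ R → (a : MulAut Q) q = q) ∧
        ∀ q : Q, ((q⁻¹ * (a : MulAut Q) q : Q) : Ω) ∈ R}
      one_mem' := ⟨fun q _ => rfl, fun q => by simp [R.one_mem]⟩
      mul_mem' := fun {a b} ha hb => ⟨fun q hq => by
          show (a : MulAut Q) ((b : MulAut Q) q) = q
          rw [hb.1 q hq, ha.1 q hq], fun q => by
          show ((q⁻¹ * (a : MulAut Q) ((b : MulAut Q) q) : Q) : Ω) ∈ R
          rw [show q⁻¹ * (a : MulAut Q) ((b : MulAut Q) q) = (q⁻¹ * (b : MulAut Q) q) *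
            (((b : MulAut Q) q)⁻¹ * (a : MulAut Q) ((b : MulAut Q) q)) by group]
          exact R.mul_mem (hb.2 q) (ha.2 _)⟩
      inv_mem' := fun {a} ha => ⟨fun q hq => by
          have h1 := ha.1 _ (hQR a⁻¹ q hq)
          simpa using h1.symm, fun q => by
          have h1 := R.inv_mem (ha.2 (((a⁻¹ : D.autGroup Q) : MulAut Q) q))
          simpa using h1⟩ }
  haveI : L.Normal := ⟨fun a ha g => ⟨fun q hq => by
      show (g : MulAut Q) ((a : MulAut Q) (((g⁻¹ : D.autGroup Q) : MulAut Q) q)) = q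
      rw [ha.1 _ (hQR g⁻¹ q hq)]
      simp, fun q => by
      have h1 := hQR g _ (ha.2 (((g⁻¹ : D.autGroup Q) : MulAut Q) q))
      simpa using h1⟩⟩
  have hLp : IsPGroup p L := by
    rintro ⟨a, ha⟩
    obtain ⟨k, m, hkm, hm⟩ := exists_coprime_power (p := p) a
    refine ⟨k, Subtype.ext (Subtype.ext (MulEquiv.ext fun q => ?_))⟩
    have hb : a ^ p ^ k ∈ L := L.pow_mem ha _
    exact eq_of_stable (isPGroup_of_le hS hQn.1) ((a ^ p ^ k : D.autGroup Q) : MulAut Q) (m := m)
      (congrArg Subtype.val hkm) hm (hb.1 _ (hb.2 q))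
  have hxN := ((normalizerIn_eq_of_isNormal hQn).ge (hTS hx.1)).2
  refine mem_core_of_pCore hS hDs hQc L hLp (hTS hx.1) hxN ⟨fun q hq => Subtype.ext ?_, fun q => ?_⟩
  · show x * (q : Ω) * x⁻¹ = q
    rw [← hx.2 q hq, mul_inv_cancel_right]
  · refine ⟨(q⁻¹ * _ : Q).2, ?_⟩
    show (q : Ω)⁻¹ * (x * (q : Ω) * x⁻¹) ∈ T
    rw [show (q : Ω)⁻¹ * (x * (q : Ω) * x⁻¹) = ((q : Ω)⁻¹ * x * (q : Ω)⁻¹⁻¹) * x⁻¹ by group]
    exact T.mul_mem (hTc _ (S.inv_mem (hQn.1 q.2)) x hx.1) (T.inv_mem hx.1)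


/-- Let F be a constrained saturated fusion system over a finite p-group S. Then every subsystem of F that is subnormal in F (reached from F by a finite chain of successive normal subsystems) is constrained. -/
theorem result {Ω : Type*} [Group Ω] {S : Subgroup Ω} [Finite S] (p : ℕ) [Fact p.Prime] (hS : IsPGroup p S) (F : Cfsg.FusionSystem S) (hF : F.IsConstrained p) {T : Subgroup Ω} (E : Cfsg.FusionSystem T) (hE : E.IsSubnormalIn F p) : E.IsConstrained p := by
  open CfsgLib.Alperin in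
  suffices h : ∀ {T U : Subgroup Ω} (E : Cfsg.FusionSystem T) (D : Cfsg.FusionSystem U) (q : ℕ),
      E.IsSubnormalIn D q → q = p → U ≤ S → D.IsConstrained p → E.IsConstrained p from
    h E F p hE rfl le_rfl hF
  intro T U E D q hsub
  induction hsub with
  | refl => exact fun _ _ hD => hD
  | @step T' V W E D F _ hn ih =>
    intro hq hW hFc
    subst hq
    haveI := finite_of_le hW
    exact ih rfl ((hn.1.2.2.2.1.1).trans hW)
      (constrained_of_normal (isPGroup_of_le hS hW) hFc hn)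

end Cfsg.Agent.S5342
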