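import Cfsg.Statements.S5387
import Cfsg.Agent.Lib.Fischer.PSLThreeFourCover

set_option autoImplicit false
open Cfsg

namespace Cfsg.Agent.S5387

open scoped commutatorElement

/-- Up to isomorphism there is at most one quasisimple group whose centre is elementary abelian of order 4 and whose central quotient is isomorphic to the projective special linear group of dimension 3 over the field with four elements: any two such groups are isomorphic. -/
theorem result {L₁ L₂ : Type*} [Group L₁] [Finite L₁] [Group L₂] [Finite L₂] (F : Type) [Field F] [Fintype F] (hF : Fintype.card F = 4) (h₁ : Cfsg.IsQuasisimple L₁) (h₂ : Cfsg.IsQuasisimple L₂) (hc₁ : Nat.card (Subgroup.center L₁) = 4) (hc₂ : Nat.card (Subgroup.center L₂) = 4) (he₁ : ∀ x ∈ Subgroup.center L₁, x * x = 1) (he₂ : ∀ x ∈ Subgroup.center L₂, x * x = 1) (e₁ : L₁ ⧸ Subgroup.center L₁ ≃* Matrix.ProjectiveSpecialLinearGroup (Fin 3) F) (e₂ : L₂ ⧸ Subgroup.center L₂ ≃* Matrix.ProjectiveSpecialLinearGroup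 (Fin 3) F) : Nonempty (L₁ ≃* L₂) := by
  classical
  have : IsSimpleGroup (L₁ ⧸ Subgroup.center L₁) := h₁.2
  set Z₁ := Subgroup.center L₁
  set Z₂ := Subgroup.center L₂
  let p₁ : L₁ →* Matrix.ProjectiveSpecialLinearGroup (Fin 3) F := e₁.toMonoidHom.comp (QuotientGroup.mk' Z₁)
  let p₂ : L₂ →* Matrix.ProjectiveSpecialLinearGroup (Fin 3) F := e₂.toMonoidHom.comp (QuotientGroup.mk' Z₂)
  have hs₁ : Function.Surjective p₁ := e₁.surjective.comp (QuotientGroup.mk'_surjective _)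
  have hs₂ : Function.Surjective p₂ := e₂.surjective.comp (QuotientGroup.mk'_surjective _)
  have hk₁ : ∀ x, p₁ x = 1 ↔ x ∈ Z₁ := fun x =>
    (e₁.map_eq_one_iff).trans (QuotientGroup.eq_one_iff x)
  have hk₂ : ∀ x, p₂ x = 1 ↔ x ∈ Z₂ := fun x =>
    (e₂.map_eq_one_iff).trans (QuotientGroup.eq_one_iff x)
  let E : Subgroup (L₁ × L₂) := (p₁.comp (MonoidHom.fst L₁ L₂)).eqLocus (p₂.comp (MonoidHom.snd L₁ L₂))
  let D : Subgroup (L₁ × L₂) := ⁅E, E⁆
  have hDE : D ≤ E := Subgroup.commutator_le_self E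
  have hfst : E.map (MonoidHom.fst L₁ L₂) = ⊤ := eq_top_iff.2 fun a _ => by
    obtain ⟨b, hb⟩ := hs₂ (p₁ a)
    exact ⟨(a, b), hb.symm, rfl⟩
  have hsnd : E.map (MonoidHom.snd L₁ L₂) = ⊤ := eq_top_iff.2 fun b _ => by
    obtain ⟨a, ha⟩ := hs₁ (p₂ b)
    exact ⟨(a, b), ha, rfl⟩
  have hDfst : D.map (MonoidHom.fst L₁ L₂) = ⊤ := by
    rw [Subgroup.map_commutator, hfst, ← commutator_def, Group.isPerfect_def.1 h₁.1]
  have hDsnd : D.map (MonoidHom.snd L₁ L₂) = ⊤ := by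
    rw [Subgroup.map_commutator, hsnd, ← commutator_def, Group.isPerfect_def.1 h₂.1]
  have hsplit : ∀ x ∈ E, ∃ d ∈ D, ∃ k : L₁ × L₂, (∀ y, y * k = k * y) ∧ x = d * k := by
    intro x hx
    obtain ⟨d, hd, hdx⟩ : x.1 ∈ D.map (MonoidHom.fst L₁ L₂) := hDfst ▸ Subgroup.mem_top _
    refine ⟨d, hd, d⁻¹ * x, fun y => ?_, by group⟩
    have h1 : (d⁻¹ * x).1 = 1 := by
      show d.1⁻¹ * x.1 = 1
      rw [show d.1 = x.1 from hdx, inv_mul_cancel]
    have h2 : (d⁻¹ * x).2 ∈ Z₂ := by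
      rw [← hk₂]
      have he : p₁ (d⁻¹ * x).1 = p₂ (d⁻¹ * x).2 := mul_mem (inv_mem (hDE hd)) hx
      rw [← he, h1, map_one]
    refine Prod.ext ?_ (Subgroup.mem_center_iff.1 h2 y.2)
    show y.1 * (d⁻¹ * x).1 = (d⁻¹ * x).1 * y.1
    rw [h1, mul_one, one_mul]
  have hDD : D ≤ ⁅D, D⁆ := by
    refine Subgroup.commutator_le.2 fun x hx y hy => ?_
    obtain ⟨a, ha, k, hk, rfl⟩ := hsplit x hx
    obtain ⟨b, hb, l, hl, rfl⟩ := hsplit y hy
    have e : ⁅a * k, b * l⁆ = ⁅a, b⁆ := by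
      simp only [commutatorElement_def, mul_inv_rev]
      calc a * k * (b * l) * (k⁻¹ * a⁻¹) * (l⁻¹ * b⁻¹)
          = a * ((k * (b * l)) * k⁻¹) * a⁻¹ * (l⁻¹ * b⁻¹) := by group
        _ = a * b * (l * a⁻¹) * (l⁻¹ * b⁻¹) := by rw [← hk]; group
        _ = a * b * a⁻¹ * b⁻¹ := by rw [← hl]; group
    rw [e]
    exact Subgroup.commutator_mem_commutator ha hb
  have hperf : Group.IsPerfect D := Group.isPerfect_def.2 (by
    apply Subgroup.map_injective D.subtype_injective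
    rw [commutator_def, Subgroup.map_commutator, ← MonoidHom.range_eq_map, D.range_subtype]
    exact le_antisymm (Subgroup.commutator_le_self D) hDD)
  -- the projection to the common quotient
  let q : D →* L₁ ⧸ Z₁ := ((QuotientGroup.mk' Z₁).comp (MonoidHom.fst L₁ L₂)).comp D.subtype
  have hq : Function.Surjective q := fun y => by
    obtain ⟨a, rfl⟩ := QuotientGroup.mk'_surjective Z₁ y
    obtain ⟨d, hd, rfl⟩ : a ∈ D.map (MonoidHom.fst L₁ L₂) := hDfst ▸ Subgroup.mem_top _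
    exact ⟨⟨d, hd⟩, rfl⟩
  have hZQ : Subgroup.center (L₁ ⧸ Z₁) = ⊥ := by
    rcases (Subgroup.center (L₁ ⧸ Z₁)).normal_of_characteristic.eq_bot_or_eq_top with h | h
    · exact h
    exfalso
    have hab : _root_.commutator (L₁ ⧸ Z₁) = ⊥ := by
      rw [commutator_def, eq_bot_iff, Subgroup.commutator_le]
      intro a _ b _
      rw [Subgroup.mem_bot, commutatorElement_eq_one_iff_mul_comm]
      exact Subgroup.mem_center_iff.1 (h ▸ Subgroup.mem_top b) a
    have htop : _root_.commutator (L₁ ⧸ Z₁) = ⊤ := by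
      rw [commutator_def, ← MonoidHom.range_eq_top.2 (QuotientGroup.mk'_surjective Z₁),
        MonoidHom.range_eq_map, ← Subgroup.map_commutator, ← commutator_def, Group.isPerfect_def.1 h₁.1]
    exact bot_ne_top (hab.symm.trans htop)
  have hkerq : q.ker = Subgroup.center D := by
    refine le_antisymm (fun x hx => Subgroup.mem_center_iff.2 fun y => Subtype.ext ?_) fun x hx => ?_
    · have h1 : (x : L₁ × L₂).1 ∈ Z₁ := (QuotientGroup.eq_one_iff _).1 hx
      have h2 : (x : L₁ × L₂).2 ∈ Z₂ := by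
        rw [← hk₂, ← show p₁ (x : L₁ × L₂).1 = p₂ (x : L₁ × L₂).2 from hDE x.2, hk₁]
        exact h1
      exact Prod.ext (Subgroup.mem_center_iff.1 h1 _) (Subgroup.mem_center_iff.1 h2 _)
    · show q x = 1
      refine (Subgroup.eq_bot_iff_forall _).1 hZQ _ (Subgroup.mem_center_iff.2 fun y => ?_)
      obtain ⟨d, rfl⟩ := hq y
      rw [← map_mul, ← map_mul, Subgroup.mem_center_iff.1 hx d]
  have helem : Cfsg.IsElementaryAbelian 2 (Subgroup.center D) := by
    refine ⟨isMulCommutative_iff.2 fun a b =>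
      Subtype.ext (Subgroup.mem_center_iff.1 b.2 a.1), fun x hx => ?_⟩
    rw [← hkerq] at hx
    have h1 : (x : L₁ × L₂).1 ∈ Z₁ := (QuotientGroup.eq_one_iff _).1 hx
    have h2 : (x : L₁ × L₂).2 ∈ Z₂ := by
      rw [← hk₂, ← show p₁ (x : L₁ × L₂).1 = p₂ (x : L₁ × L₂).2 from hDE x.2, hk₁]
      exact h1
    rw [pow_two]
    exact Subtype.ext (Prod.ext (he₁ _ h1) (he₂ _ h2))
  let eQ : D ⧸ Subgroup.center D ≃* L₁ ⧸ Z₁ :=
    (QuotientGroup.quotientMulEquivOfEq hkerq.symm).trans (QuotientGroup.quotientKerEquivOfSurjective q hq)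
  have : Nontrivial (D ⧸ Subgroup.center D) := eQ.toEquiv.nontrivial
  have hqs : Cfsg.IsQuasisimple D :=
    ⟨hperf, IsSimpleGroup.isSimpleGroup_of_surjective eQ.symm.toMonoidHom eQ.symm.surjective⟩
  have hbound := CfsgLib.Fischer.PSLThreeFourCover.card_center_le hqs helem hF (eQ.trans e₁)
  have hcard₁ : Nat.card D ≤ Nat.card L₁ := by
    rw [Subgroup.card_eq_card_quotient_mul_card_subgroup (Subgroup.center D),
      Subgroup.card_eq_card_quotient_mul_card_subgroup Z₁, hc₁, Nat.card_congr eQ.toEquiv]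
    exact Nat.mul_le_mul_left _ hbound
  have hcard₂ : Nat.card D ≤ Nat.card L₂ := by
    refine hcard₁.trans (le_of_eq ?_)
    rw [Subgroup.card_eq_card_quotient_mul_card_subgroup Z₁, hc₁,
      Subgroup.card_eq_card_quotient_mul_card_subgroup Z₂, hc₂, Nat.card_congr (e₁.trans e₂.symm).toEquiv]
  let f₁ : D →* L₁ := (MonoidHom.fst L₁ L₂).comp D.subtype
  let f₂ : D →* L₂ := (MonoidHom.snd L₁ L₂).comp D.subtype
  have g₁ : Function.Surjective f₁ := fun a => by
    obtain ⟨d, hd, rfl⟩ : a ∈ D.map (MonoidHom.fst L₁ L₂) := hDfst ▸ Subgroup.mem_top _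
    exact ⟨⟨d, hd⟩, rfl⟩
  have g₂ : Function.Surjective f₂ := fun a => by
    obtain ⟨d, hd, rfl⟩ : a ∈ D.map (MonoidHom.snd L₁ L₂) := hDsnd ▸ Subgroup.mem_top _
    exact ⟨⟨d, hd⟩, rfl⟩
  have b₁ : Function.Bijective f₁ := (Nat.bijective_iff_surjective_and_card f₁).2
    ⟨g₁, le_antisymm hcard₁ (Nat.card_le_card_of_surjective f₁ g₁)⟩
  have b₂ : Function.Bijective f₂ := (Nat.bijective_iff_surjective_and_card f₂).2
    ⟨g₂, le_antisymm hcard₂ (Nat.card_le_card_of_surjective f₂ g₂)⟩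
  exact ⟨(MulEquiv.ofBijective f₁ b₁).symm.trans (MulEquiv.ofBijective f₂ b₂)⟩

end Cfsg.Agent.S5387
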