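import Cfsg.Statements.S5518
import Cfsg.Agent.Lib.Fischer.PairTwentyFour.Thirteen
import Cfsg.Agent.Lib.Fischer.PairTwentyFour.Witness

set_option autoImplicit false
open Cfsg

namespace Cfsg.Agent.S5518

/-- Let G be a finite group with trivial centre generated by a conjugation-invariant set D of 3-transpositions on which it acts primitively, such that for some d in D the subgroup generated by the members of D other than d commuting with d has central largest normal 2- and 3-subgroups, and suppose G with D is of type M(24). Then any two subgroups of order 13 are conjugate; and there are members a, b, c, d of D generating the direct product T of two symmetric groups of degree 3 (a, d non-commuting; b, c non-commuting; b and c commuting with a and d) whose centralizer K is isomorphic to the Chevalley group G₂(3), such that for every subgroup B of K of order 13: the normalizer of B lies in the normalizer of K, the normalizer F of B in K is a Frobenius group of order 78 with kernel B (order 78, centralizer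 of B in it equal to B), and the subgroup generated by F and T has index 2 in the normalizer of B. -/
theorem result {G : Type*} [Group G] [Finite G] {D : Set G} (hD : Cfsg.IsThreeTranspositionGroup D) (hprim : Cfsg.IsPrimitiveUnderConj D) (d₀ : G) (hd₀ : d₀ ∈ D) (h3 : Cfsg.pCore 3 ↥(Subgroup.closure {y : G | y ∈ D ∧ y ≠ d₀ ∧ Commute d₀ y}) ≤ Subgroup.center ↥(Subgroup.closure {y : G | y ∈ D ∧ y ≠ d₀ ∧ Commute d₀ y})) (h2 : Cfsg.pCore 2 ↥(Subgroup.closure {y : G | y ∈ D ∧ y ≠ d₀ ∧ Commute d₀ y}) ≤ Subgroup.center ↥(Subgroup.closure {y : G | y ∈ D ∧ y ≠ d₀ ∧ Commute d₀ y})) (h24 : Cfsg.IsOfTypeM24 G D) : (∀ X Y : Subgroup G, Nat.card X = 13 → Nat.card Y = 13 → ∃ g : G, X.map (MulAut.conj g).toMonoidHom = Y) ∧ ∃ (a b c d : G) (T K : Subgroup G), (∀ x ∈ [a, b, c, d], x ∈ D) ∧ ¬ Commute a d ∧ ¬ Commute b c ∧ Commute a b ∧ Commute a c ∧ Commute d b ∧ Commute d c ∧ T = Subgroup.closure ({a, b, c, d} : Set G) ∧ K = Subgroup.centralizer (T : Set G) ∧ Nonempty (↥K ≃* ↥(Cfsg.Lie.chevG2.group (ZMod 3))) ∧ ∀ B : Subgroup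 G, B ≤ K → Nat.card B = 13 → Subgroup.normalizer ((B : Subgroup G) : Set G) ≤ Subgroup.normalizer ((K : Subgroup G) : Set G) ∧ Nat.card ↥(K ⊓ Subgroup.normalizer ((B : Subgroup G) : Set G)) = 78 ∧ K ⊓ Subgroup.centralizer ((B : Subgroup G) : Set G) = B ∧ (((K ⊓ Subgroup.normalizer ((B : Subgroup G) : Set G)) ⊔ T).subgroupOf (Subgroup.normalizer ((B : Subgroup G) : Set G))).index = 2 := by
  open CfsgLib.Fischer CfsgLib.Fischer.PairTwentyFour in
  (obtain ⟨-, a, ha, d, hd, had, -, -⟩ := id h24
   obtain ⟨b, c, hb, hc, hbc, hcard, ⟨e⟩⟩ := Model.exists_cross hD hprim h24 ha hd had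
   obtain ⟨g, hga, hgd⟩ := exists_conj_pair hD hprim h24 ha hd had hb.1 hc.1 hbc
   have hab : Commute a b := hb.2.2.1
   have hdb : Commute d b := hb.2.2.2
   have hac : Commute a c := hc.2.2.1
   have hdc : Commute d c := hc.2.2.2
   have he : Subgroup.centralizer ((Subgroup.closure ({a, b, c, d} : Set G) : Subgroup G) : Set G) =
       Subgroup.centralizer ({a, d, b, c} : Set G) := by
     rw [Subgroup.centralizer_closure, show ({a, b, c, d} : Set G) = {a, d, b, c} from Set.ext fun x => by simp; tauto]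
   refine Thirteen.s5518_of_four hD hprim h24 ha hb.1 hc.1 hd had hbc hab hac hdb hdc
     ⟨(MulEquiv.subgroupCongr he).trans e⟩ ?_
   -- the image pair is a pair of common neighbours of `b`, `c` with the same centralizer
   have hb' : g * b * g⁻¹ ∈ D := hD.2.1 g b hb.1
   have hc' : g * c * g⁻¹ ∈ D := hD.2.1 g c hc.1
   have hcard' : Nat.card (Subgroup.centralizer ({b, c, g * b * g⁻¹, g * c * g⁻¹} : Set G)) = 4245696 := by
     rw [← hcard]
     have hmap : (Subgroup.centralizer ({a, d, b, c} : Set G)).map (MulAut.conj g).toMonoidHom =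
         Subgroup.centralizer ({b, c, g * b * g⁻¹, g * c * g⁻¹} : Set G) := by
       ext z
       have k : ∀ u, (g⁻¹ * z * g) * u = u * (g⁻¹ * z * g) ↔ Commute z (g * u * g⁻¹) := fun u => by
         conv_rhs => rw [show z = g * (g⁻¹ * z * g) * g⁻¹ by group, conj_commute_iff]
         exact Iff.rfl
       have hz : z ∈ (Subgroup.centralizer ({a, d, b, c} : Set G)).map (MulAut.conj g).toMonoidHom ↔
           g⁻¹ * z * g ∈ Subgroup.centralizer ({a, d, b, c} : Set G) := by
         constructor
         · rintro ⟨y, hy, rfl⟩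
           rwa [show g⁻¹ * (MulAut.conj g).toMonoidHom y * g = y by simp [mul_assoc]]
         · exact fun h => ⟨_, h, by simp [mul_assoc]⟩
       rw [hz, Subgroup.mem_centralizer_iff, Subgroup.mem_centralizer_iff]
       simp only [Set.mem_insert_iff, Set.mem_singleton_iff, forall_eq_or_imp, forall_eq]
       simp only [eq_comm (b := g⁻¹ * z * g * _), k, hga, hgd, commute_iff_eq, eq_comm (a := z * _)]
     rw [← hmap]
     exact (Nat.card_congr (Subgroup.equivMapOfInjective _ _ (MulAut.conj g).injective).toEquiv).symm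
   obtain ⟨b₁, c₁, hb₁, hc₁, hn₁, h₁, -⟩ := Model.exists_same hD hprim h24 hb.1 hc.1 hbc
   have hba : a ∈ common D b c := ⟨ha, fun k => hbc (k ▸ hac), hab.symm, hac.symm⟩
   have hbd : d ∈ common D b c := ⟨hd, fun k => hbc (k ▸ hdc), hdb.symm, hdc.symm⟩
   have h₂ : Nat.card (Subgroup.centralizer ({b, c, a, d} : Set G)) = 4245696 := by
     rw [show ({b, c, a, d} : Set G) = {a, d, b, c} from Set.ext fun x => by simp; tauto, hcard]
   obtain ⟨-, hcov⟩ := two_orbits hD hprim h24 hb.1 hc.1 hbc hb₁ hc₁ hn₁ hba hbd had h₁ h₂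
   obtain ⟨k, hk, hor⟩ := hcov _ _ hb' hc' (hga ▸ (conj_commute_iff g a b).2 hab)
     (hgd ▸ (conj_commute_iff g d b).2 hdb) (hga ▸ (conj_commute_iff g a c).2 hac)
     (hgd ▸ (conj_commute_iff g d c).2 hdc) (fun h => hbc ((conj_commute_iff g b c).1 h))
   have hmap : (Subgroup.closure ({g * b * g⁻¹, g * c * g⁻¹} : Set G)).map (MulAut.conj k).toMonoidHom =
       Subgroup.closure ({a, d} : Set G) := by
     refine hor.resolve_left fun h => ?_
     have := natCard_centralizer_of_map hk h
     omega
   have hk' := Subgroup.mem_centralizer_iff.1 hk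
   have hfix : ∀ x ∈ ({b, c} : Set G), k * x * k⁻¹ = x := fun x hx => by rw [← hk' x hx, mul_inv_cancel_right]
   refine ⟨k * g, ?_, ?_⟩
   · rintro x (rfl | rfl) <;> rw [show k * g * x * (k * g)⁻¹ = k * (g * x * g⁻¹) * k⁻¹ by group]
     · rw [hga, hfix b (Or.inl rfl)]; exact Subgroup.subset_closure (Or.inl rfl)
     · rw [hgd, hfix c (Or.inr rfl)]; exact Subgroup.subset_closure (Or.inr rfl)
   · rintro x hx
     rw [show k * g * x * (k * g)⁻¹ = k * (g * x * g⁻¹) * k⁻¹ by group, ← hmap]
     refine Subgroup.mem_map_of_mem _ (Subgroup.subset_closure ?_)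
     rcases hx with rfl | rfl
     exacts [Or.inl rfl, Or.inr rfl])

end Cfsg.Agent.S5518
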