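import Cfsg.Statements.S5521
import Cfsg.Agent.Lib.Golay.Stab

set_option autoImplicit false
open Cfsg
open scoped Pointwise

namespace Cfsg.Agent.S5521

open CfsgLib.Golay

theorem bot_seven : chainOK [2, 64, 32, 16, 4, 1, 8388608] [] finalM24 = true := by decide +kernel

/-- The Mathieu group M₂₄ in its natural action on the 24 coordinate positions of the binary Golay code has minimal base size exactly 7: every set of at most 6 positions is fixed pointwise by some non-identity element of M₂₄, while some set of 7 positions is fixed pointwise only by the identity. -/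
theorem result :
    (∀ B : Finset Cfsg.GolayPt, B.card ≤ 6 → ∃ g ∈ Cfsg.M24, g ≠ 1 ∧ ∀ b ∈ B, g b = b) ∧
    (∃ B : Finset Cfsg.GolayPt, B.card = 7 ∧ ∀ g ∈ Cfsg.M24, (∀ b ∈ B, g b = b) → g = 1) := by
  classical
  constructor
  · intro B hB
    obtain ⟨B', hsub, hB'⟩ : ∃ B', B ⊆ B' ∧ B'.card = 6 := by
      obtain ⟨B', h1, -, h2⟩ := Finset.exists_subsuperset_card_eq (s := B) (t := Finset.univ)
        (Finset.subset_univ B) hB (by
          rw [Finset.card_univ, ← Nat.card_eq_fintype_card, card_golayPt]; norm_num)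
      exact ⟨B', h1, h2⟩
    obtain ⟨b, hb⟩ := Finset.card_pos.1 (by rw [hB']; norm_num : 0 < B'.card)
    have h5 : (B'.erase b).card = 5 := by rw [Finset.card_erase_of_mem hb, hB']
    let x : Fin 5 ↪ GolayPt := ((Finset.equivFinOfCardEq h5).symm.toEmbedding).trans
      (Function.Embedding.subtype _)
    obtain ⟨c, hc, hcx⟩ := exists_M24_map base5 x
    set K := stabK [32, 16, 4, 1, 8388608]
    have hK : ∀ k ∈ K, ∀ i, k (base5 i) = base5 i := by
      intro k hk i
      have he : ∀ i : Fin 5, 2 ^ idx (base5 i) ∈ [32, 16, 4, 1, 8388608] := by decide +kernel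
      have := (mem_stabK.1 hk).2 _ (he i)
      rw [unmask_two_pow, Finset.smul_finset_singleton] at this
      exact Finset.singleton_injective this
    -- the orbit of the last point is small
    have hlt : Nat.card GolayPt < Nat.card K := by
      rw [card_golayPt, card_stabK_five]; norm_num
    obtain ⟨k, k', hne, he⟩ : ∃ k k' : K, k ≠ k' ∧
        (k : Equiv.Perm GolayPt) (c⁻¹ b) = (k' : Equiv.Perm GolayPt) (c⁻¹ b) := by
      by_contra hcon
      push Not at hcon
      refine absurd hlt (not_lt.2 (Nat.card_le_card_of_injective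
        (fun k : K => (k : Equiv.Perm GolayPt) (c⁻¹ b)) fun k k' h => ?_))
      by_contra hne
      exact hcon k k' hne h
    set h : Equiv.Perm GolayPt := (k' : Equiv.Perm GolayPt)⁻¹ * k
    have hhK : h ∈ K := mul_mem (inv_mem k'.2) k.2
    refine ⟨c * h * c⁻¹, mul_mem (mul_mem hc (stabK_le_M24 _ hhK)) (inv_mem hc), ?_, ?_⟩
    · intro e
      apply hne
      have : h = 1 := by
        rw [show h = c⁻¹ * (c * h * c⁻¹) * c by group, e]; group
      exact Subtype.ext (inv_mul_eq_one.1 this).symm
    · intro p hp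
      rcases eq_or_ne p b with rfl | hpb
      · show c (h (c⁻¹ p)) = p
        have : h (c⁻¹ p) = c⁻¹ p := by
          show (k' : Equiv.Perm GolayPt)⁻¹ ((k : Equiv.Perm GolayPt) (c⁻¹ p)) = c⁻¹ p
          rw [he, Equiv.Perm.inv_def, Equiv.symm_apply_apply]
        rw [this]; exact c.apply_symm_apply p
      · have hp' : p ∈ B'.erase b := Finset.mem_erase.2 ⟨hpb, hsub hp⟩
        obtain ⟨i, hi⟩ : ∃ i, x i = p :=
          ⟨Finset.equivFinOfCardEq h5 ⟨p, hp'⟩, by simp [x]⟩
        show c (h (c⁻¹ p)) = p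
        rw [← hi, ← hcx i, Equiv.Perm.inv_def, Equiv.symm_apply_apply, hK h hhK i, hcx i]
  · refine ⟨{pt 1, pt 6, pt 5, pt 4, pt 2, pt 0, pt 23}, by decide +kernel, fun g hg hfix => ?_⟩
    have : g ∈ stabK [2, 64, 32, 16, 4, 1, 8388608] := by
      refine mem_stabK.2 ⟨hg, fun n hn => ?_⟩
      have hex : ∀ n ∈ [2, 64, 32, 16, 4, 1, 8388608], ∃ i ∈ [1, 6, 5, 4, 2, 0, 23], i < 24 ∧
          (n : ℕ) = 2 ^ i := by decide +kernel
      obtain ⟨i, hi, hi24, rfl⟩ := hex n hn
      rw [unmask_two_pow_of_lt hi24, Finset.smul_finset_singleton]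
      have hb : pt i ∈ ({pt 1, pt 6, pt 5, pt 4, pt 2, pt 0, pt 23} : Finset GolayPt) := by
        simp only [List.mem_cons, List.not_mem_nil, or_false] at hi
        rcases hi with rfl | rfl | rfl | rfl | rfl | rfl | rfl <;> simp
      exact congrArg _ (hfix _ hb)
    rw [stabK_eq_bot bot_seven] at this
    exact this

end Cfsg.Agent.S5521
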