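import Cfsg.Statements.S5529
import Cfsg.Agent.S5529Data
import Cfsg.Agent.Lib.Golay.Stab
import Cfsg.Agent.Lib.Plane4.ChainElems
import Cfsg.Agent.Lib.Plane4.ReeInequality

set_option autoImplicit false
open Cfsg
open scoped Pointwise

namespace Cfsg.Agent.S5529

open CfsgLib.Golay CfsgLib.Plane4.ChainElems

/-- The table of the identity. -/
def tblId : ℕ := 984818244535754528103549039458486304

/-- The table has order dividing `n` and is not the identity. -/
def ordOK (t n : ℕ) : Bool :=
  ((List.range 24).all fun i => (tblAt t)^[n] i == i) && !((List.range 24).all fun i => tblAt t i == i)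

/-- A table of an element of M23. -/
def in23 (t : ℕ) : Bool := inM24 t && imgMask t 8388608 == 8388608

/-- The check of a witness. -/
def witOK (w : Wit) : Bool :=
  in23 w.x && (in23 w.y && (isCompTbl w.xy w.x w.y && (ordOK w.x w.p && (ordOK w.y w.q &&
    (ordOK w.xy w.r && (slpOK [tblId, w.x, w.y] w.prog &&
      genAB.all fun t => ([tblId, w.x, w.y] ++ w.prog.map Prod.fst).contains t))))))

/-- The entry `i` of a base list followed by an accumulator stored in reverse. -/
def look (base acc : List ℕ) (n i : ℕ) : ℕ :=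
  if i < base.length then base.getD i tblId else acc.getD (n - 1 - i) tblId

/-- A straight line program check with a reversed accumulator. -/
def slpR (base : List ℕ) : List ℕ → ℕ → List (ℕ × ℕ × ℕ) → Bool
  | _, _, [] => true
  | acc, n, e :: es =>
    isCompTbl e.1 (look base acc n e.2.1) (look base acc n e.2.2) && slpR base (e.1 :: acc) (n + 1) es

theorem getD_mem_or {α : Type*} (l : List α) (i : ℕ) (d : α) : l.getD i d = d ∨ l.getD i d ∈ l := by
  by_cases h : i < l.length
  · exact Or.inr (by rw [List.getD_eq_getElem _ _ h]; exact List.getElem_mem h)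
  · exact Or.inl (List.getD_eq_default _ _ (by omega))

theorem slpR_mem {H : Subgroup (Equiv.Perm GolayPt)} {base : List ℕ}
    (hb : ∀ t ∈ tblId :: base, ∃ g ∈ H, IsTbl g t) :
    ∀ {prog : List (ℕ × ℕ × ℕ)} {acc : List ℕ} {n : ℕ}, slpR base acc n prog = true →
      (∀ t ∈ acc, ∃ g ∈ H, IsTbl g t) → ∀ t ∈ prog.map Prod.fst, ∃ g ∈ H, IsTbl g t
  | [], _, _, _, _, t, ht => by simp at ht
  | e :: es, acc, n, h, hk, t, ht => by
    simp only [slpR, Bool.and_eq_true] at h
    have hl : ∀ i, ∃ g ∈ H, IsTbl g (look base acc n i) := fun i => by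
      have hid := hb tblId List.mem_cons_self
      unfold look
      split
      · rcases getD_mem_or base i tblId with e | e
        · exact e.symm ▸ hid
        · exact hb _ (List.mem_cons_of_mem _ e)
      · rcases getD_mem_or acc (n - 1 - i) tblId with e | e
        · exact e.symm ▸ hid
        · exact hk _ e
    obtain ⟨ga, hga, hta⟩ := hl e.2.1
    obtain ⟨gb, hgb, htb⟩ := hl e.2.2
    have he : ∃ g ∈ H, IsTbl g e.1 := ⟨ga * gb, mul_mem hga hgb, hta.mul htb h.1⟩
    rcases List.mem_cons.1 ht with rfl | ht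
    · exact he
    · refine slpR_mem hb h.2 (fun u hu => ?_) t ht
      rcases List.mem_cons.1 hu with rfl | hu
      · exact he
      · exact hk u hu

set_option maxRecDepth 100000 in
theorem top_ok : slpR (tblId :: genAB) [] 3 topProg = true ∧
    ((chainM24.drop 1).all fun l => l.2.2.all fun t =>
      (tblId :: genAB ++ topProg.map Prod.fst).contains t) = true := by
  decide +kernel

set_option maxRecDepth 100000 in
theorem wits_ok : wits.all witOK = true := by decide +kernel

/-- The excluded triples. -/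
def excl (p q r : ℕ) : Bool :=
  (p == 2 && q == 3) || (p == 2 && q == 5 && r == 5) || (p == 2 && q == 5 && r == 7) ||
    (p == 3 && q == 3 && decide (r ≤ 7))

theorem wits_cover : ∀ p ∈ [2, 3, 5, 7, 11, 23], ∀ q ∈ [2, 3, 5, 7, 11, 23],
    ∀ r ∈ [2, 3, 5, 7, 11, 23], p ≤ q → q ≤ r → ¬ (p = 2 ∧ q = 2) → excl p q r = false →
      wits.any (fun w => w.p == p && (w.q == q && w.r == r)) = true := by
  decide +kernel

theorem M23_eq : Cfsg.Spor.M23 = stabK [8388608] := by
  rw [show (8388608 : ℕ) = 2 ^ 23 by norm_num, stabK_cons_two_pow (by norm_num), stabK_nil]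
  rfl

theorem isTbl_id : IsTbl (1 : Equiv.Perm GolayPt) tblId := by
  have h : genTbls.getD 3 0 = tblId := by decide +kernel
  exact h ▸ isTbl_one

theorem iter_tbl {g : Equiv.Perm GolayPt} {t : ℕ} (h : IsTbl g t) :
    ∀ (n : ℕ) q, idx ((g ^ n) q) = (tblAt t)^[n] (idx q)
  | 0, q => by simp
  | n + 1, q => by
    rw [pow_succ', Equiv.Perm.mul_apply, h, iter_tbl h n q, Function.iterate_succ_apply']

theorem orderOf_of_ordOK {g : Equiv.Perm GolayPt} {t n : ℕ} (h : IsTbl g t) (hn : n.Prime)
    (ho : ordOK t n = true) : orderOf g = n := by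
  haveI : Fact n.Prime := ⟨hn⟩
  simp only [ordOK, Bool.and_eq_true, Bool.not_eq_true', List.all_eq_true, List.mem_range,
    beq_iff_eq] at ho
  refine orderOf_eq_prime (Equiv.ext fun q => idx_injective ?_) fun e => ?_
  · rw [iter_tbl h, ho.1 _ (idx_lt q), Equiv.Perm.one_apply]
  · have : ((List.range 24).all fun i => tblAt t i == i) = true := by
      simp only [List.all_eq_true, List.mem_range, beq_iff_eq]
      intro i hi
      have := h (pt i)
      rw [e, Equiv.Perm.one_apply, idx_pt hi] at this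
      exact this.symm
    rw [this] at ho
    exact absurd ho.2 (by simp)

theorem exists_gen {p q r : ℕ} (hp : p.Prime) (hq : q.Prime) (hr : r.Prime) {w : Wit}
    (hw : w ∈ wits) (ep : w.p = p) (eq' : w.q = q) (er : w.r = r) :
    ∃ x y z : Cfsg.Spor.M23, orderOf x = p ∧ orderOf y = q ∧ orderOf z = r ∧ x * y * z = 1 ∧
      Subgroup.closure {x, y} = ⊤ := by
  have h := List.all_eq_true.1 wits_ok w hw
  simp only [witOK, in23, Bool.and_eq_true, beq_iff_eq, List.all_eq_true,
    List.contains_iff_mem] at h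
  obtain ⟨⟨hx1, hx2⟩, ⟨hy1, hy2⟩, hxy, ox, oy, oxy, hs, hab⟩ := h
  obtain ⟨x, hx⟩ := exists_isTbl (Bool.and_eq_true _ _ ▸ hx1 : okTbl w.x = true ∧ _).1
  obtain ⟨y, hy⟩ := exists_isTbl (Bool.and_eq_true _ _ ▸ hy1 : okTbl w.y = true ∧ _).1
  have mx : x ∈ Cfsg.Spor.M23 := M23_eq ▸ mem_stabK_of_isTbl hx hx1 (by simpa using hx2)
  have my : y ∈ Cfsg.Spor.M23 := M23_eq ▸ mem_stabK_of_isTbl hy hy1 (by simpa using hy2)
  refine ⟨⟨x, mx⟩, ⟨y, my⟩, (⟨x, mx⟩ * ⟨y, my⟩)⁻¹, ?_, ?_, ?_, mul_inv_cancel _, ?_⟩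
  · rw [← Subgroup.orderOf_coe]; exact orderOf_of_ordOK hx hp (ep ▸ ox)
  · rw [← Subgroup.orderOf_coe]; exact orderOf_of_ordOK hy hq (eq' ▸ oy)
  · rw [orderOf_inv, ← Subgroup.orderOf_coe]
    exact orderOf_of_ordOK (hx.mul hy hxy) hr (er ▸ oxy)
  set H : Subgroup (Equiv.Perm GolayPt) := Subgroup.closure {x, y}
  have k1 : ∀ t ∈ [tblId, w.x, w.y], ∃ g ∈ H, IsTbl g t := by
    intro t ht
    simp only [List.mem_cons, List.not_mem_nil, or_false] at ht
    rcases ht with rfl | rfl | rfl
    · exact ⟨1, one_mem _, isTbl_id⟩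
    · exact ⟨x, Subgroup.subset_closure (by simp), hx⟩
    · exact ⟨y, Subgroup.subset_closure (by simp), hy⟩
  have k2 : ∀ t ∈ tblId :: genAB, ∃ g ∈ H, IsTbl g t := by
    intro t ht
    rcases List.mem_cons.1 ht with rfl | ht
    · exact ⟨1, one_mem _, isTbl_id⟩
    · exact slp_mem hs k1 t (hab t ht)
  have hle : stabK [8388608] ≤ H := by
    refine stabK_le chainM24_tail_ok.2.1 fun l hl t ht g hg => ?_
    have hmem : t ∈ tblId :: genAB ++ topProg.map Prod.fst := by
      simpa using List.all_eq_true.1 (List.all_eq_true.1 top_ok.2 l hl) t ht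
    obtain ⟨g', hg', ht'⟩ : ∃ g' ∈ H, IsTbl g' t := by
      rcases List.mem_append.1 hmem with h | h
      · exact k2 t h
      · exact slpR_mem (fun u hu => k2 u (by simpa using hu)) top_ok.1 (by simp) t h
    rwa [hg.ext ht']
  rw [eq_top_iff]
  rintro g -
  have hm : (Subgroup.closure ({⟨x, mx⟩, ⟨y, my⟩} : Set Cfsg.Spor.M23)).map
      Cfsg.Spor.M23.subtype = H := by
    rw [MonoidHom.map_closure]; simp [H, Set.image_insert_eq]
  obtain ⟨g', hg', e⟩ := hm.ge (hle (M23_eq ▸ g.2 : (g : Equiv.Perm GolayPt) ∈ stabK [8388608]))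
  exact Subtype.ext e ▸ hg'

/-! ### Fixed points of elements of order 2 and 3 -/

/-- Number of fixed points of a product of tables. -/
def fixCount (ts : List ℕ) : ℕ := (List.range 24).countP fun i => evalT ts i == i

/-- If the product has order dividing `n` it fixes at least six points. -/
def fixOK (g n : ℕ) (ts : List ℕ) : Bool :=
  decide (6 ≤ fixCount (g :: ts)) || !((List.range 24).all fun i => (evalT (g :: ts))^[n] i == i)

set_option maxRecDepth 100000 in
theorem fix_checks : allElems (chainM24.drop 5) (fixOK tbl2 2) = true ∧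
    allElems (chainM24.drop 4) (fixOK tbl3 3) = true ∧
    inM24 tbl2 = true ∧ inM24 tbl3 = true ∧
    (tblAt tbl2 23 = 23 ∧ tblAt tbl2 0 = 2 ∧ tblAt tbl2 2 = 0 ∧ tblAt tbl2 4 = 5 ∧ tblAt tbl2 5 = 4) ∧
    (tblAt tbl3 23 = 23 ∧ tblAt tbl3 0 = 2 ∧ tblAt tbl3 2 = 4 ∧ tblAt tbl3 4 = 0) := by
  decide +kernel

/-- The number of fixed points. -/
def nfix (g : Equiv.Perm GolayPt) : ℕ := (Finset.univ.filter fun a => g a = a).card

theorem nfix_of_conj (g h : Equiv.Perm GolayPt) : nfix (h⁻¹ * g * h) = nfix g := by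
  refine Finset.card_bij (fun a _ => h a) ?_ (fun a _ b _ e => h.injective e) ?_
  · intro a ha
    simp only [Finset.mem_filter, Finset.mem_univ, true_and, Equiv.Perm.mul_apply,
      Equiv.Perm.inv_def, Equiv.symm_apply_eq] at ha ⊢
    exact ha
  · intro b hb
    refine ⟨h.symm b, ?_, h.apply_symm_apply b⟩
    have hb' : g b = b := (Finset.mem_filter.1 hb).2
    refine Finset.mem_filter.2 ⟨Finset.mem_univ _, ?_⟩
    show h.symm (g (h (h.symm b))) = h.symm b
    rw [Equiv.apply_symm_apply, hb']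

theorem nfix_eq_count {g : Equiv.Perm GolayPt} {ts : List ℕ}
    (h : ∀ q, idx (g q) = evalT ts (idx q)) : nfix g = fixCount ts := by
  have e : Finset.univ.filter (fun a => g a = a) =
      ((List.range 24).filter fun i => evalT ts i == i).toFinset.image pt := by
    ext a
    simp only [Finset.mem_filter, Finset.mem_univ, true_and, Finset.mem_image, List.mem_toFinset,
      List.mem_filter, List.mem_range, beq_iff_eq]
    constructor
    · intro ha; exact ⟨idx a, ⟨idx_lt a, by rw [← h, ha]⟩, pt_idx a⟩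
    · rintro ⟨i, ⟨hi, he⟩, rfl⟩
      exact idx_injective (by rw [h, idx_pt hi, he])
  rw [nfix, e, Finset.card_image_of_injOn, List.toFinset_card_of_nodup (List.nodup_range.filter _),
    fixCount, List.countP_eq_length_filter]
  intro i hi j hj e
  simp only [Finset.mem_coe, List.mem_toFinset, List.mem_filter, List.mem_range] at hi hj
  rw [← idx_pt hi.1, e, idx_pt hj.1]

theorem core_check {levels : List (ℕ × List ℕ × List ℕ)} {sets final : List ℕ} {n tg : ℕ}
    (hc : chainOK sets levels final = true) (hck : allElems levels (fixOK tg n) = true)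
    {g g0 : Equiv.Perm GolayPt} (htg : IsTbl g0 tg) (hk : g0⁻¹ * g ∈ stabK sets)
    (hgn : g ^ n = 1) : 6 ≤ nfix g := by
  obtain ⟨ts, hts, hev⟩ := exists_word hc hck _ hk
  have hev' : ∀ q, idx (g q) = evalT (tg :: ts) (idx q) := fun q => by
    show idx (g q) = tblAt tg (evalT ts (idx q))
    rw [← hev q, ← htg]
    simp [Equiv.Perm.mul_apply]
  rw [fixOK, Bool.or_eq_true, decide_eq_true_eq] at hts
  rcases hts with h | h
  · rw [nfix_eq_count hev']; exact h
  · exfalso
    rw [Bool.not_eq_true', ← Bool.not_eq_true, List.all_eq_true] at h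
    apply h
    intro i hi
    rw [List.mem_range] at hi
    have hit : ∀ (m : ℕ) q, idx ((g ^ m) q) = (evalT (tg :: ts))^[m] (idx q) := by
      intro m
      induction m with
      | zero => simp
      | succ m ih =>
        intro q
        rw [pow_succ', Equiv.Perm.mul_apply, hev', ih, Function.iterate_succ_apply']
    have := hit n (pt i)
    rw [hgn, Equiv.Perm.one_apply, idx_pt hi] at this
    rw [beq_iff_eq]; exact this.symm

theorem mem_stabK_pts {g : Equiv.Perm GolayPt} (hg : g ∈ M24) {sets : List ℕ}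
    (h : ∀ n ∈ sets, ∃ i < 24, n = 2 ^ i ∧ g (pt i) = pt i) : g ∈ stabK sets := by
  refine mem_stabK.2 ⟨hg, fun n hn => ?_⟩
  obtain ⟨i, hi, rfl, hfix⟩ := h n hn
  rw [unmask_two_pow_of_lt hi, Finset.smul_finset_singleton]
  exact congrArg _ hfix

theorem nfix_two {g : Equiv.Perm GolayPt} (hg : g ∈ M24) (h0 : g none = none)
    (hgo : g ^ 2 = 1) : 6 ≤ nfix g := by
  by_contra hcon
  have hgg : ∀ a, g (g a) = a := fun a => by
    rw [← Equiv.Perm.mul_apply, ← pow_two, hgo, Equiv.Perm.one_apply]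
  have hex : ∀ s : Finset GolayPt, s.card ≤ 2 → ∃ a, g a ≠ a ∧ a ∉ s := by
    intro s hs
    by_contra hno
    push Not at hno
    have hsub : (Finset.univ : Finset GolayPt) ⊆ Finset.univ.filter (fun a => g a = a) ∪ s := by
      intro a _
      by_cases ha : g a = a
      · exact Finset.mem_union_left _ (by simp [ha])
      · exact Finset.mem_union_right _ (hno a ha)
    have h1 := (Finset.card_le_card hsub).trans (Finset.card_union_le _ _)
    rw [Finset.card_univ, ← Nat.card_eq_fintype_card, card_golayPt] at h1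
    change 24 ≤ nfix g + s.card at h1
    omega
  obtain ⟨a, ha, -⟩ := hex ∅ (by simp)
  obtain ⟨b, hb, hbs⟩ := hex {a, g a} Finset.card_le_two
  simp only [Finset.mem_insert, Finset.mem_singleton, not_or] at hbs
  have hn : ∀ c, g c ≠ c → c ≠ none ∧ g c ≠ none := fun c hc =>
    ⟨fun e => hc (by rw [e, h0]), fun e => hc (by
      have := congrArg g e; rw [hgg, h0] at this; rw [e, this])⟩
  have hgb : g b ≠ a ∧ g b ≠ g a := ⟨fun e => hbs.2 (by rw [← e, hgg]), fun e => hbs.1 (g.injective e)⟩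
  let x : Fin 5 ↪ GolayPt := ⟨![none, a, g a, b, g b], by
    intro i j e
    obtain ⟨a1, a2⟩ := hn a ha
    obtain ⟨b1, b2⟩ := hn b hb
    fin_cases i <;> fin_cases j <;>
      simp only [Matrix.cons_val] at e <;> first
      | rfl
      | exact absurd e a1 | exact absurd e a1.symm | exact absurd e a2 | exact absurd e a2.symm
      | exact absurd e b1 | exact absurd e b1.symm | exact absurd e b2 | exact absurd e b2.symm
      | exact absurd e ha | exact absurd e (Ne.symm ha) | exact absurd e hb | exact absurd e (Ne.symm hb)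
      | exact absurd e hbs.1 | exact absurd e (Ne.symm hbs.1)
      | exact absurd e hbs.2 | exact absurd e (Ne.symm hbs.2)
      | exact absurd e hgb.1 | exact absurd e (Ne.symm hgb.1)
      | exact absurd e hgb.2 | exact absurd e (Ne.symm hgb.2)⟩
  let s : Fin 5 ↪ GolayPt := ⟨![pt 23, pt 0, pt 2, pt 4, pt 5], by decide +kernel⟩
  obtain ⟨h, hh, hx⟩ := exists_M24_map s x
  obtain ⟨c1, -, c3, -, ⟨t1, t2, t3, t4, t5⟩, -⟩ := fix_checks
  obtain ⟨g0, hg0⟩ := exists_isTbl (Bool.and_eq_true _ _ ▸ c3 : okTbl tbl2 = true ∧ _).1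
  have e0 : h (pt 23) = none := hx 0
  have e1 : h (pt 0) = a := hx 1
  have e2 : h (pt 2) = g a := hx 2
  have e3 : h (pt 4) = b := hx 3
  have e4 : h (pt 5) = g b := hx 4
  have act : ∀ i j : ℕ, i < 24 → j < 24 → tblAt tbl2 i = j → g (h (pt i)) = h (pt j) →
      (g0⁻¹ * (h⁻¹ * g * h)) (pt i) = pt i := by
    intro i j hi hj ht he
    have : g0 (pt i) = pt j := idx_injective (by rw [hg0, idx_pt hi, idx_pt hj, ht])
    simp only [Equiv.Perm.mul_apply, Equiv.Perm.inv_def, he, Equiv.symm_apply_apply]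
    rw [Equiv.symm_apply_eq, this]
  have hk : g0⁻¹ * (h⁻¹ * g * h) ∈ stabK [32, 16, 4, 1, 8388608] := by
    refine mem_stabK_pts (mul_mem (inv_mem (mem_M24_of_isTbl hg0 c3))
      (mul_mem (mul_mem (inv_mem hh) hg) hh)) ?_
    simp only [List.mem_cons, List.not_mem_nil, or_false, forall_eq_or_imp, forall_eq]
    exact ⟨⟨5, by norm_num, by norm_num, act 5 4 (by norm_num) (by norm_num) t5 (by rw [e4, e3, hgg])⟩,
      ⟨4, by norm_num, by norm_num, act 4 5 (by norm_num) (by norm_num) t4 (by rw [e4, e3])⟩,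
      ⟨2, by norm_num, by norm_num, act 2 0 (by norm_num) (by norm_num) t3 (by rw [e2, e1, hgg])⟩,
      ⟨0, by norm_num, by norm_num, act 0 2 (by norm_num) (by norm_num) t2 (by rw [e2, e1])⟩,
      ⟨23, by norm_num, by norm_num, act 23 23 (by norm_num) (by norm_num) t1 (by rw [e0, h0])⟩⟩
  have hpow : (h⁻¹ * g * h) ^ 2 = 1 := by
    simp only [pow_two] at hgo ⊢
    calc h⁻¹ * g * h * (h⁻¹ * g * h) = h⁻¹ * (g * g) * h := by group
      _ = 1 := by rw [hgo]; group
  have := core_check chainM24_tail_ok.2.2.2 c1 hg0 hk hpow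
  rw [nfix_of_conj] at this
  exact hcon this

theorem nfix_three {g : Equiv.Perm GolayPt} (hg : g ∈ M24) (h0 : g none = none)
    (hgo : g ^ 3 = 1) : 6 ≤ nfix g := by
  by_contra hcon
  have hggg : ∀ a, g (g (g a)) = a := fun a => by
    rw [← Equiv.Perm.mul_apply, ← Equiv.Perm.mul_apply, show g * g * g = g ^ 3 by rw [pow_three, mul_assoc], hgo,
      Equiv.Perm.one_apply]
  obtain ⟨a, ha⟩ : ∃ a, g a ≠ a := by
    by_contra hno
    push Not at hno
    apply hcon
    rw [nfix, Finset.filter_true_of_mem fun a _ => hno a, Finset.card_univ,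
      ← Nat.card_eq_fintype_card, card_golayPt]
    norm_num
  have hc : g (g a) ≠ a := fun e => ha (by
    have := hggg a; rw [e] at this; exact this)
  have hb : g (g a) ≠ g a := fun e => ha (g.injective e)
  have hn : a ≠ none ∧ g a ≠ none ∧ g (g a) ≠ none := by
    refine ⟨fun e => ha (by rw [e, h0]), fun e => ?_, fun e => ?_⟩
    · exact ha (g.injective (by rw [e, h0]))
    · have := hggg a; rw [e, h0] at this
      exact ha (by rw [← this, h0])
  obtain ⟨d, hd⟩ := Finset.exists_mem_notMem_of_card_lt_card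
    (s := ({none, a, g a, g (g a)} : Finset GolayPt)) (t := Finset.univ) (by
      refine lt_of_le_of_lt (b := 4) Finset.card_le_four ?_
      rw [Finset.card_univ, ← Nat.card_eq_fintype_card, card_golayPt]; norm_num)
  simp only [Finset.mem_insert, Finset.mem_singleton, not_or] at hd
  let x : Fin 5 ↪ GolayPt := ⟨![none, a, g a, g (g a), d], by
    intro i j e
    fin_cases i <;> fin_cases j <;>
      simp only [Matrix.cons_val] at e <;> first
      | rfl
      | exact absurd e hn.1 | exact absurd e hn.1.symm | exact absurd e hn.2.1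
      | exact absurd e hn.2.1.symm | exact absurd e hn.2.2 | exact absurd e hn.2.2.symm
      | exact absurd e ha | exact absurd e (Ne.symm ha) | exact absurd e hb | exact absurd e (Ne.symm hb)
      | exact absurd e hc | exact absurd e (Ne.symm hc)
      | exact absurd e hd.2.1 | exact absurd e (Ne.symm hd.2.1)
      | exact absurd e hd.2.2.1 | exact absurd e (Ne.symm hd.2.2.1)
      | exact absurd e hd.2.2.2.1 | exact absurd e (Ne.symm hd.2.2.2.1)
      | exact absurd e hd.2.2.2.2 | exact absurd e (Ne.symm hd.2.2.2.2)⟩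
  let s : Fin 5 ↪ GolayPt := ⟨![pt 23, pt 0, pt 2, pt 4, pt 5], by decide +kernel⟩
  obtain ⟨h, hh, hx⟩ := exists_M24_map s x
  obtain ⟨-, c2, -, c4, -, ⟨t1, t2, t3, t4⟩⟩ := fix_checks
  obtain ⟨g0, hg0⟩ := exists_isTbl (Bool.and_eq_true _ _ ▸ c4 : okTbl tbl3 = true ∧ _).1
  have e0 : h (pt 23) = none := hx 0
  have e1 : h (pt 0) = a := hx 1
  have e2 : h (pt 2) = g a := hx 2
  have e3 : h (pt 4) = g (g a) := hx 3
  have act : ∀ i j : ℕ, i < 24 → j < 24 → tblAt tbl3 i = j → g (h (pt i)) = h (pt j) →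
      (g0⁻¹ * (h⁻¹ * g * h)) (pt i) = pt i := by
    intro i j hi hj ht he
    have : g0 (pt i) = pt j := idx_injective (by rw [hg0, idx_pt hi, idx_pt hj, ht])
    simp only [Equiv.Perm.mul_apply, Equiv.Perm.inv_def, he, Equiv.symm_apply_apply]
    rw [Equiv.symm_apply_eq, this]
  have hk : g0⁻¹ * (h⁻¹ * g * h) ∈ stabK [16, 4, 1, 8388608] := by
    refine mem_stabK_pts (mul_mem (inv_mem (mem_M24_of_isTbl hg0 c4))
      (mul_mem (mul_mem (inv_mem hh) hg) hh)) ?_
    simp only [List.mem_cons, List.not_mem_nil, or_false, forall_eq_or_imp, forall_eq]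
    exact ⟨⟨4, by norm_num, by norm_num, act 4 0 (by norm_num) (by norm_num) t4 (by rw [e3, e1, hggg])⟩,
      ⟨2, by norm_num, by norm_num, act 2 4 (by norm_num) (by norm_num) t3 (by rw [e2, e3])⟩,
      ⟨0, by norm_num, by norm_num, act 0 2 (by norm_num) (by norm_num) t2 (by rw [e2, e1])⟩,
      ⟨23, by norm_num, by norm_num, act 23 23 (by norm_num) (by norm_num) t1 (by rw [e0, h0])⟩⟩
  have hpow : (h⁻¹ * g * h) ^ 3 = 1 := by
    simp only [pow_three] at hgo ⊢
    calc h⁻¹ * g * h * (h⁻¹ * g * h * (h⁻¹ * g * h)) = h⁻¹ * (g * (g * g)) * h := by group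
      _ = 1 := by rw [hgo]; group
  have := core_check chainM24_tail_ok.2.2.1 c2 hg0 hk hpow
  rw [nfix_of_conj] at this
  exact hcon this

theorem prime_mem {p : ℕ} (hp : p.Prime) (h : p ∣ 10200960) : p ∈ [2, 3, 5, 7, 11, 23] := by
  have hd : p ∣ 2 ^ 7 * (3 ^ 2 * (5 * (7 * (11 * 23)))) := by norm_num; exact h
  simp only [Nat.Prime.dvd_mul hp] at hd
  rcases hd with h | h | h | h | h | h
  · simp [(Nat.prime_dvd_prime_iff_eq hp Nat.prime_two).1 (hp.dvd_of_dvd_pow h)]
  · simp [(Nat.prime_dvd_prime_iff_eq hp Nat.prime_three).1 (hp.dvd_of_dvd_pow h)]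
  all_goals simp [(Nat.prime_dvd_prime_iff_eq hp (by norm_num)).1 h]

/-- Generation of the Mathieu group M₂₃ (the stabiliser of a point in the Mathieu group M₂₄ acting on 24 points) by triples of prime orders. Let p ≤ q ≤ r be primes dividing |M₂₃| = 10200960 = 2⁷·3²·5·7·11·23, not both p and q equal to 2. Then M₂₃ contains elements x, y, z of orders p, q, r with xyz = 1 and ⟨x, y⟩ = M₂₃ if and only if (p, q, r) is none of: (2, 3, r) for any r, (2, 5, 5), (2, 5, 7), (3, 3, 3), (3, 3, 5), (3, 3, 7). -/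
theorem result (p q r : ℕ) (hp : p.Prime) (hq : q.Prime)
    (hr : r.Prime) (hpq : p ≤ q) (hqr : q ≤ r) (hp2 : ¬ (p = 2 ∧ q = 2))
    (hdvd : p ∣ 10200960 ∧ q ∣ 10200960 ∧ r ∣ 10200960) :
    (∃ x y z : Cfsg.Spor.M23, orderOf x = p ∧ orderOf y = q ∧ orderOf z = r ∧ x * y * z = 1 ∧
        Subgroup.closure {x, y} = ⊤) ↔
      ¬ ((p = 2 ∧ q = 3) ∨ (p = 2 ∧ q = 5 ∧ r = 5) ∨ (p = 2 ∧ q = 5 ∧ r = 7) ∨ (p = 3 ∧ q = 3 ∧ r ≤ 7)) := by
  have mp := prime_mem hp hdvd.1
  have mq := prime_mem hq hdvd.2.1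
  have mr := prime_mem hr hdvd.2.2
  constructor
  · rintro ⟨x, y, z, ox, oy, oz, hxyz, hgen⟩ hbad
    have hfix : ∀ (g : Cfsg.Spor.M23) (n : ℕ), n.Prime → orderOf g = n →
        (g : Equiv.Perm GolayPt) ^ n = 1 ∧
        24 + (n - 1) * nfix (g : Equiv.Perm GolayPt) ≤
          n * CfsgLib.Plane4.ReeInequality.numOrbits (g : Equiv.Perm GolayPt) ∧
        (n = 2 → 6 ≤ nfix (g : Equiv.Perm GolayPt)) ∧ (n = 3 → 6 ≤ nfix (g : Equiv.Perm GolayPt)) ∧
        1 ≤ nfix (g : Equiv.Perm GolayPt) ∧ n ∣ 24 - nfix (g : Equiv.Perm GolayPt) := by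
      intro g n hn ho
      haveI : Fact n.Prime := ⟨hn⟩
      have hpow : (g : Equiv.Perm GolayPt) ^ n = 1 := by
        rw [← ho, ← Subgroup.orderOf_coe]; exact pow_orderOf_eq_one _
      have hg := g.2
      simp only [Cfsg.Spor.M23, Subgroup.mem_inf, MulAction.mem_stabilizer_iff] at hg
      have h0 : (g : Equiv.Perm GolayPt) none = none := hg.2
      have hb := CfsgLib.Plane4.ReeInequality.orbit_bound (g : Equiv.Perm GolayPt) hn hpow
      have hd := CfsgLib.Plane4.ReeInequality.dvd_card_sub_fixed (g : Equiv.Perm GolayPt) hn hpow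
      rw [show Fintype.card GolayPt = 24 by rw [← Nat.card_eq_fintype_card, card_golayPt]] at hb hd
      refine ⟨hpow, hb, fun e => ?_, fun e => ?_, ?_, hd⟩
      · subst e; exact nfix_two hg.1 h0 hpow
      · subst e; exact nfix_three hg.1 h0 hpow
      · exact Finset.card_pos.2 ⟨none, by simp [h0]⟩
    obtain ⟨-, bx, x2, x3, x1, xd⟩ := hfix x p hp ox
    obtain ⟨-, by', y2, y3, y1, yd⟩ := hfix y q hq oy
    obtain ⟨-, bz, z2, z3, z1, zd⟩ := hfix z r hr oz
    have ree := CfsgLib.Plane4.ReeInequality.bound (x : Equiv.Perm GolayPt) y z none (some 0)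
      (by rw [← Subgroup.coe_mul, ← Subgroup.coe_mul, hxyz, Subgroup.coe_one]) ?_
    · rw [show Fintype.card GolayPt = 24 by rw [← Nat.card_eq_fintype_card, card_golayPt]] at ree
      simp only [List.mem_cons, List.not_mem_nil, or_false] at mp mq mr
      rcases hbad with ⟨rfl, rfl⟩ | ⟨rfl, rfl, rfl⟩ | ⟨rfl, rfl, rfl⟩ | ⟨rfl, rfl, h7⟩
      · have := x2 rfl
        have := y3 rfl
        rcases mr with rfl | rfl | rfl | rfl | rfl | rfl
        · omega
        · have := z3 rfl; omega
        all_goals omega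
      · have := x2 rfl; omega
      · have := x2 rfl; omega
      · have := x3 rfl
        have := y3 rfl
        rcases mr with rfl | rfl | rfl | rfl | rfl | rfl
        · omega
        · have := z3 rfl; omega
        all_goals omega
    · -- transitivity of the generated group on the other 23 points
      intro a ha
      obtain ⟨⟨g, hgM⟩, e1, e2⟩ := exists_M24_map_two (Ne.symm ha : (none : GolayPt) ≠ a)
      have hg0 : g none = none := e1
      have hg1 : g (some 0) = a := e2
      have hm : g ∈ Cfsg.Spor.M23 := by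
        simp only [Cfsg.Spor.M23, Subgroup.mem_inf, MulAction.mem_stabilizer_iff]
        exact ⟨hgM, hg0⟩
      refine ⟨g, ?_, hg1⟩
      have h := congrArg (Subgroup.map Cfsg.Spor.M23.subtype) hgen
      rw [MonoidHom.map_closure, Set.image_insert_eq, Set.image_singleton] at h
      rw [show ({(x : Equiv.Perm GolayPt), (y : Equiv.Perm GolayPt)} : Set (Equiv.Perm GolayPt)) =
        {Cfsg.Spor.M23.subtype x, Cfsg.Spor.M23.subtype y} from rfl, h]
      exact ⟨⟨g, hm⟩, Subgroup.mem_top _, rfl⟩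
  · intro hgood
    have hex : excl p q r = false := by
      rw [← Bool.not_eq_true]
      intro h
      apply hgood
      simp only [excl, Bool.or_eq_true, Bool.and_eq_true, beq_iff_eq, decide_eq_true_eq] at h
      tauto
    obtain ⟨w, hw, he⟩ := List.any_eq_true.1 (wits_cover p mp q mq r mr hpq hqr hp2 hex)
    simp only [Bool.and_eq_true, beq_iff_eq] at he
    exact exists_gen hp hq hr hw he.1 he.2.1 he.2.2
end Cfsg.Agent.S5529
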