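import Cfsg.Statements.S5561
import Cfsg.Agent.S0215
import Cfsg.Agent.Lib.Plane4.InvolutionClass
-- import your own Cfsg.Agent.* helpers here

set_option autoImplicit false
open Cfsg

namespace Cfsg.Agent.S5561

/-- The case p = 3 of the Z*-type result for involution classes. Let G be a finite group and d an involution of G such that the product of any two conjugates of d has order a power of 3. Then the product of any two conjugates of d lies in O₃(G); so the conjugacy class of d lies in the coset O₃(G)d. -/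
theorem result {G : Type*} [Group G] [Finite G] (d : G) (hd : orderOf d = 2)
    (hprod : ∀ a ∈ conjugatesOf d, ∀ b ∈ conjugatesOf d, ∃ k : ℕ, orderOf (a * b) = 3 ^ k) :
    ∀ a ∈ conjugatesOf d, ∀ b ∈ conjugatesOf d, a * b ∈ Cfsg.pCore 3 G := by
  have hp' : (3 : ℕ).Prime := Nat.prime_three
  have hne : (2 : ℕ) ≠ (3 : ℕ) := by norm_num
  have hdd : d * d = 1 := by rw [← pow_two, ← hd]; exact pow_orderOf_eq_one d
  have hz : IsPGroup 2 ↥(Subgroup.zpowers d) :=
    IsPGroup.of_card (n := 1) (by rw [Nat.card_zpowers, hd, pow_one])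
  obtain ⟨P, hP⟩ := hz.exists_le_sylow
  have hdP : d ∈ P := hP (Subgroup.mem_zpowers d)
  have hiso : ∀ g : G, g * d * g⁻¹ ∈ P → g * d * g⁻¹ = d := by
    intro g hg
    obtain ⟨k, hk⟩ := hprod _ (isConj_iff.2 ⟨g, rfl⟩) d mem_conjugatesOf_self
    obtain ⟨j, hj⟩ := P.isPGroup' ⟨g * d * g⁻¹ * d, mul_mem hg hdP⟩
    have hj' : (g * d * g⁻¹ * d) ^ 2 ^ j = 1 := congrArg Subtype.val hj
    have hone : g * d * g⁻¹ * d = 1 := by
      rw [← orderOf_eq_one_iff, hk]
      refine Nat.eq_one_of_dvd_coprimes ?_ dvd_rfl (hk ▸ orderOf_dvd_of_pow_eq_one hj')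
      exact ((Nat.coprime_primes hp' Nat.prime_two).2 (Ne.symm hne)).pow k j
    rw [eq_inv_of_mul_eq_one_left hone, inv_eq_of_mul_eq_one_right hdd]
  obtain ⟨N, hN, hodd, hcen⟩ := Cfsg.Agent.S0215.result P d hd hdP hiso
  haveI := hN
  exact CfsgLib.Plane4.InvolutionClass.mul_mem_pCore hp' d hdd N hodd hcen hprod

end Cfsg.Agent.S5561
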