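import Cfsg.Statements.S5562
-- import your own Cfsg.Agent.* helpers here

set_option autoImplicit false
open Cfsg

namespace Cfsg.Agent.S5562

/-- Let G be a finite group, d an involution of G whose conjugates pairwise have products of odd order, and x any involution of G. Then the conjugacy class of d is the disjoint union, over the conjugates a of d commuting with x, of the sets of conjugates of d commuting with ax: every conjugate of d commutes with ax for exactly one conjugate a of d that commutes with x. -/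
theorem result {G : Type*} [Group G] [Finite G] (d : G) (hd : orderOf d = 2)
    (hodd : ∀ a ∈ conjugatesOf d, ∀ b ∈ conjugatesOf d, Odd (orderOf (a * b)))
    (x : G) (hx : orderOf x = 2) :
    ∀ e ∈ conjugatesOf d,
      ∃! a : G, a ∈ conjugatesOf d ∧ Commute a x ∧ Commute e (a * x) := by
  intro e he
  have conj_mem : ∀ g : G, g * e * g⁻¹ ∈ conjugatesOf d := fun g =>
    IsConj.trans he (isConj_iff.2 ⟨g, rfl⟩)
  have sq : ∀ a ∈ conjugatesOf d, a * a = 1 := by
    intro a ha
    obtain ⟨g, rfl⟩ := isConj_iff.1 ha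
    calc g * d * g⁻¹ * (g * d * g⁻¹) = g * (d * d) * g⁻¹ := by group
      _ = 1 := by rw [show d * d = 1 by rw [← pow_two, ← hd, pow_orderOf_eq_one]]; group
  have hxx : x * x = 1 := by rw [← pow_two, ← hx, pow_orderOf_eq_one]
  have hxi : x⁻¹ = x := inv_eq_of_mul_eq_one_right hxx
  have hee : e * e = 1 := sq e he
  have hei : e⁻¹ = e := inv_eq_of_mul_eq_one_right hee
  set w := e * (x * e * x⁻¹) with hw
  obtain ⟨j, hj⟩ := hodd e he (x * e * x⁻¹) (conj_mem x)
  rw [← hw] at hj
  set u := w ^ (j + 1) with hu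
  have hw1 : w ^ orderOf w = 1 := pow_orderOf_eq_one w
  have hu2 : u * u = w := by
    rw [hu, ← pow_add, show j + 1 + (j + 1) = orderOf w + 1 by omega, pow_succ, hw1, one_mul]
  have hewe : e * w * e⁻¹ = w⁻¹ := by
    rw [hw, hxi, hei, mul_inv_rev, mul_inv_rev, mul_inv_rev, hxi, hei]
    simp only [← mul_assoc, hee, one_mul]
  have hxwx : x * w * x⁻¹ = w⁻¹ := by
    rw [hw, hxi, mul_inv_rev, mul_inv_rev, mul_inv_rev, hxi, hei]
    simp only [← mul_assoc]
    simp [mul_assoc, hxx]
  have heu : e * u * e⁻¹ = u⁻¹ := by rw [hu, ← conj_pow, hewe, inv_pow]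
  have hxu : x * u * x⁻¹ = u⁻¹ := by rw [hu, ← conj_pow, hxwx, inv_pow]
  have hexe : x * e * x⁻¹ = e * w := by rw [hw, ← mul_assoc, hee, one_mul]
  refine ⟨e * u, ⟨?_, ?_, ?_⟩, ?_⟩
  · -- a conjugate of `e`
    have hmul : u ^ (j + 1) * u ^ (j + 1) = u := by
      rw [← pow_add, hu, ← pow_mul,
        show (j + 1) * (j + 1 + (j + 1)) = (j + 1) + (j + 1) * orderOf w by rw [hj]; ring,
        pow_add, mul_comm (j + 1) (orderOf w), pow_mul, hw1, one_pow, mul_one]
    have he' : e * u ^ (j + 1) * e⁻¹ = (u ^ (j + 1))⁻¹ := by rw [← conj_pow, heu, inv_pow]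
    have := conj_mem ((u ^ (j + 1))⁻¹)
    rw [inv_inv] at this
    convert this using 1
    rw [← he', inv_mul_cancel_right, mul_assoc, hmul]
  · -- commutes with `x`
    have : x * (e * u) * x⁻¹ = e * u := by
      calc x * (e * u) * x⁻¹ = (x * e * x⁻¹) * (x * u * x⁻¹) := by group
        _ = e * (u * u) * u⁻¹ := by rw [hexe, hxu, hu2]
        _ = e * u := by group
    exact ((mul_inv_eq_iff_eq_mul.1 this)).symm
  · have : (e * u * x) * e * (e * u * x)⁻¹ = e := by
      calc (e * u * x) * e * (e * u * x)⁻¹ = e * u * (x * e * x⁻¹) * (u⁻¹ * e⁻¹) := by group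
        _ = e * u * (e * (u * u)) * (u⁻¹ * e) := by rw [hexe, hu2, hei]
        _ = e * u * (e * u * e⁻¹) * (e * e) := by rw [hei]; simp [mul_assoc, hee]
        _ = e := by rw [heu, hee, mul_inv_cancel_right, mul_one]
    exact (mul_inv_eq_iff_eq_mul.1 this).symm
  · rintro a ⟨ha, hax, hea⟩
    have ha2 := sq a ha
    have hai : a⁻¹ = a := inv_eq_of_mul_eq_one_right ha2
    have h1 : a * (x * e * x⁻¹) * a = e := by
      calc a * (x * e * x⁻¹) * a = (a * x) * e * (a * x)⁻¹ := by rw [mul_inv_rev, hai]; group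
        _ = e := by rw [← hea.eq, mul_inv_cancel_right]
    have h2 : x * e * x⁻¹ = a * e * a := by
      conv_rhs => rw [← h1]
      simp only [← mul_assoc, ha2, one_mul]
      simp [mul_assoc, ha2]
    have h3 : (e * a) * (e * a) = w := by rw [hw, h2]; simp [mul_assoc]
    obtain ⟨i, hi⟩ := hodd e he a ha
    have hp := pow_orderOf_eq_one (e * a)
    have h4 : w ^ (i + 1) = e * a := by
      rw [← h3, ← pow_two, ← pow_mul, show 2 * (i + 1) = orderOf (e * a) + 1 by omega, pow_succ,
        hp, one_mul]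
    have hwo : orderOf w = orderOf (e * a) := by
      rw [← h3, ← pow_two, Nat.Coprime.orderOf_pow]
      rw [Nat.coprime_two_right]
      exact ⟨i, hi⟩
    have : i = j := by omega
    rw [this, ← hu] at h4
    rw [h4, ← mul_assoc, hee, one_mul]

end Cfsg.Agent.S5562
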