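import Cfsg.Statements.S5596
import Cfsg.Agent.Lib.ExtraspecialLarge.Setting

set_option autoImplicit false
open Cfsg

namespace Cfsg.Agent.S5596

/-- Setting: `z` is an involution of the finite group `G`; for each element `x`, `Q x` is the largest normal 2-subgroup of the centralizer of `x`; `Q z` is extraspecial and contains its own centralizer in `G`. A subgroup `U` is singular when it is elementary abelian, every non-identity element of `U` is conjugate to `z`, and any two non-identity elements `u`, `v` of `U` are orthogonal (`v ∈ Q u`). Write `QU` for the intersection of the `Q u` and `LU` for the join of the `Q u` over the non-identity `u` in `U`. If `U` is singular of order `2 ^ n` with `n ≥ 2`, then `U ≤ QU ≤ LU`, `LU` normalizes `U`, and `LU` induces on `U` its full automorphism group (the general linear group of dimension `n` over the field with two elements): every automorphism of `U` is conjugation by some element of `LU`. -/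
theorem result {G : Type*} [Group G] [Finite G]
    (Q : G → Subgroup G)
    (hQ : ∀ x : G, Q x = (Cfsg.pCore 2 ↥(Subgroup.centralizer ({x} : Set G))).map (Subgroup.centralizer ({x} : Set G)).subtype)
    (z : G) (hz : orderOf z = 2) (hE : Cfsg.IsExtraspecial 2 ↥(Q z))
    (hC : Subgroup.centralizer ((Q z : Subgroup G) : Set G) ≤ Q z)
    (U : Subgroup G) (hU2 : ∀ u ∈ U, u * u = 1)
    (hS : ∀ u ∈ U, u ≠ 1 → ∃ g : G, g * z * g⁻¹ = u)
    (hO : ∀ u ∈ U, ∀ v ∈ U, u ≠ 1 → v ≠ 1 → v ∈ Q u)
    (QU LU : Subgroup G) (hQU : QU = ⨅ u ∈ ((U : Set G) \ {1}), Q u) (hLU : LU = ⨆ u ∈ ((U : Set G) \ {1}), Q u)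
    (n : ℕ) (hn : 2 ≤ n) (hcard : Nat.card ↥U = 2 ^ n) :
    U ≤ QU ∧ QU ≤ LU ∧ LU ≤ Subgroup.normalizer (U : Set G) ∧
      ∀ φ : ↥U ≃* ↥U, ∃ g ∈ LU, ∀ u : ↥U, g * (u : G) * g⁻¹ = ((φ u : ↥U) : G) := by
  have h : CfsgLib.ExtraspecialLarge.CoreSetting Q z := ⟨hQ, hz, hE, hC⟩
  have hgood : ∀ u ∈ U, u ≠ 1 → CfsgLib.ExtraspecialLarge.Good (Q u) u :=
    fun u hu hu1 => h.good_of_conj (hS u hu hu1)
  have hinv : ∀ u ∈ U, u⁻¹ = u := fun u hu => inv_eq_of_mul_eq_one_right (hU2 u hu)
  have hsub : ∀ u ∈ U, u ≠ 1 → U ≤ Q u := by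
    intro u hu hu1 v hv
    by_cases hv1 : v = 1
    · subst hv1; exact one_mem _
    · exact hO u hu v hv hu1 hv1
  obtain ⟨u0, hu0, hu01⟩ : ∃ u ∈ U, u ≠ 1 := by
    by_contra hne
    push Not at hne
    have hbot : U = ⊥ := (Subgroup.eq_bot_iff_forall _).mpr hne
    rw [hbot, Subgroup.card_bot] at hcard
    have : 1 < 2 ^ n := Nat.one_lt_two_pow (by omega)
    omega
  have hLUle : ∀ u ∈ U, u ≠ 1 → Q u ≤ LU := fun u hu hu1 =>
    hLU ▸ le_iSup₂ (f := fun u (_ : u ∈ ((U : Set G) \ {1})) => Q u) u ⟨hu, hu1⟩
  refine ⟨?_, ?_, ?_, ?_⟩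
  · rw [hQU]
    exact le_iInf₂ fun u hu => hsub u hu.1 hu.2
  · refine le_trans ?_ (hLUle u0 hu0 hu01)
    rw [hQU]
    exact iInf₂_le u0 ⟨hu0, hu01⟩
  · rw [hLU]
    refine iSup₂_le fun u hu q hq => ?_
    have key : ∀ r ∈ Q u, ∀ v ∈ U, r * v * r⁻¹ ∈ U := by
      intro r hr v hv
      rcases (hgood u hu.1 hu.2).cases_conj r hr v (hsub u hu.1 hu.2 hv) with e | e <;> rw [e]
      · exact hv
      · exact U.mul_mem hu.1 hv
    rw [Subgroup.mem_normalizer_iff]
    intro v
    refine ⟨key q hq v, fun hv => ?_⟩
    have := key q⁻¹ ((Q u).inv_mem hq) _ hv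
    rwa [show q⁻¹ * (q * v * q⁻¹) * q⁻¹⁻¹ = v by group] at this
  · intro φ
    -- induction on a subgroup fixed pointwise, decreasing
    suffices H : ∀ m : ℕ, ∀ (ψ : ↥U ≃* ↥U) (W : Subgroup ↥U), Nat.card ↥U ≤ Nat.card W + m →
        (∀ w ∈ W, ψ w = w) → ∃ g ∈ LU, ∀ u : ↥U, g * (u : G) * g⁻¹ = ((ψ u : ↥U) : G) from
      H (Nat.card ↥U) φ ⊥ (by omega) (fun w hw => by rw [Subgroup.mem_bot.mp hw, map_one])
    intro m
    induction m with
    | zero =>
      intro ψ W hle hW
      have hWtop : W = ⊤ := Subgroup.eq_top_of_card_eq _ (le_antisymm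
        (Nat.le_of_dvd Nat.card_pos (Subgroup.card_subgroup_dvd_card W)) (by omega))
      exact ⟨1, one_mem _, fun u => by rw [hW u (hWtop ▸ Subgroup.mem_top u)]; simp⟩
    | succ m ih =>
      intro ψ W hle hW
      by_cases hall : ∀ u, ψ u = u
      · exact ⟨1, one_mem _, fun u => by rw [hall u]; simp⟩
      push Not at hall
      obtain ⟨b, hb⟩ := hall
      have hbW : b ∉ W := fun e => hb (hW b e)
      set c := ψ b with hc
      -- the vector of the transvection
      have hd : ((b * c : ↥U) : G) ≠ 1 := by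
        intro e
        apply hb
        have e' : (b : G) * c = 1 := e
        have := (inv_eq_of_mul_eq_one_right e').symm.trans (hinv _ b.2)
        exact Subtype.ext this
      set d : G := ((b * c : ↥U) : G) with hdd
      have hdU : d ∈ U := (b * c : ↥U).2
      have hcc : ∀ v : ↥U, v * v = 1 := fun v => Subtype.ext (hU2 v v.2)
      have hcomm : ∀ v w : ↥U, v * w = w * v := fun v w => by
        apply mul_left_cancel (a := v); apply mul_right_cancel (b := w)
        have e1 : v * (v * w) * w = 1 := by rw [← mul_assoc v v w, hcc, one_mul, hcc]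
        have e2 : v * (w * v) * w = 1 := by
          rw [← mul_assoc v w v, mul_assoc (v * w) v w]; exact hcc _
        rw [e1, e2]
      have hcW : c ∉ W := by
        intro e
        have := hW c e
        exact hb (ψ.injective this)
      have hcnot : (c : G) ∉ (W ⊔ Subgroup.zpowers (b * c)).map U.subtype := by
        rintro ⟨v, hv, hvc⟩
        have hvc' : v = c := Subtype.ext hvc
        rw [hvc'] at hv
        have hclo : ∀ v ∈ W ⊔ Subgroup.zpowers (b * c), v ∈ W ∨ v * (b * c) ∈ W := by
          let S : Subgroup ↥U :=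
            { carrier := {v | v ∈ W ∨ v * (b * c) ∈ W}
              one_mem' := Or.inl W.one_mem
              mul_mem' := by
                rintro v w (hv | hv) (hw | hw)
                · exact Or.inl (W.mul_mem hv hw)
                · right; rw [mul_assoc]; exact W.mul_mem hv hw
                · right; rw [mul_assoc, hcomm w (b * c), ← mul_assoc]; exact W.mul_mem hv hw
                · left
                  have := W.mul_mem hv hw
                  rwa [mul_assoc, hcomm w (b * c), ← mul_assoc (b * c), hcc, one_mul] at this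
              inv_mem' := by
                intro v hv
                rwa [inv_eq_of_mul_eq_one_right (hcc v)] }
          have : W ⊔ Subgroup.zpowers (b * c) ≤ S := sup_le (fun v hv => Or.inl hv)
            (Subgroup.zpowers_le.mpr (Or.inr (by rw [hcc]; exact W.one_mem)))
          exact this
        rcases hclo c hv with e | e
        · exact hcW e
        · apply hbW
          rwa [hcomm b c, ← mul_assoc, hcc, one_mul] at e
      have hgd := hgood d hdU hd
      have hle' : (W ⊔ Subgroup.zpowers (b * c)).map U.subtype ≤ Q d :=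
        (Subgroup.map_subtype_le _).trans (hsub d hdU hd)
      obtain ⟨q, hq, hqW, hqc⟩ := hgd.exists_flip hle'
        ⟨b * c, Subgroup.mem_sup_right (Subgroup.mem_zpowers _), rfl⟩
        (hsub d hdU hd c.2) hcnot
      -- q fixes W pointwise and sends c to b
      have hqU : ∀ v : ↥U, q * (v : G) * q⁻¹ ∈ U := by
        intro v
        rcases hgd.cases_conj q hq v (hsub d hdU hd v.2) with e | e <;> rw [e]
        · exact v.2
        · exact U.mul_mem hdU v.2
      let T : ↥U →* ↥U := MonoidHom.mk' (fun v => ⟨q * v * q⁻¹, hqU v⟩)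
        (fun v w => Subtype.ext (by simp [mul_assoc]))
      have hTinj : Function.Injective T := fun v w e => by
        have := congrArg Subtype.val e
        exact Subtype.ext (mul_left_cancel (mul_right_cancel this))
      let Te : ↥U ≃* ↥U := MulEquiv.ofBijective T ⟨hTinj, Finite.surjective_of_injective hTinj⟩
      have hTe : ∀ v : ↥U, ((Te v : ↥U) : G) = q * v * q⁻¹ := fun v => rfl
      let W' : Subgroup ↥U := W ⊔ Subgroup.zpowers b
      have hW' : ∀ w ∈ W', (ψ.trans Te) w = w := by
        let S : Subgroup ↥U :=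
          { carrier := {v | (ψ.trans Te) v = v}
            one_mem' := map_one _
            mul_mem' := fun {v w} hv hw => by simp only [Set.mem_setOf_eq, map_mul] at *; rw [hv, hw]
            inv_mem' := fun {v} hv => by simp only [Set.mem_setOf_eq, map_inv] at *; rw [hv] }
        have : W' ≤ S := by
          refine sup_le (fun w hw => ?_) (Subgroup.zpowers_le.mpr ?_)
          · show Te (ψ w) = w
            rw [hW w hw]
            apply Subtype.ext
            rw [hTe, mul_inv_eq_iff_eq_mul]
            exact hqW _ ⟨w, Subgroup.mem_sup_left hw, rfl⟩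
          · show Te (ψ b) = b
            apply Subtype.ext
            rw [hTe, ← hc, hqc, hdd, ← Subgroup.coe_mul, mul_assoc, hcc, mul_one]
        exact fun w hw => this hw
      have hlt : Nat.card W < Nat.card W' := by
        rcases Nat.lt_or_ge (Nat.card W) (Nat.card W') with e | e
        · exact e
        · exact absurd ((Subgroup.eq_of_le_of_card_ge le_sup_left e).symm ▸
            (Subgroup.mem_sup_right (Subgroup.mem_zpowers b) : b ∈ W')) hbW
      obtain ⟨g, hg, hgu⟩ := ih (ψ.trans Te) W' (by omega) hW'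
      refine ⟨q⁻¹ * g, LU.mul_mem (LU.inv_mem (hLUle d hdU hd hq)) hg, fun u => ?_⟩
      have e : g * (u : G) * g⁻¹ = q * ((ψ u : ↥U) : G) * q⁻¹ := hgu u
      calc q⁻¹ * g * (u : G) * (q⁻¹ * g)⁻¹ = q⁻¹ * (g * u * g⁻¹) * q := by group
        _ = ((ψ u : ↥U) : G) := by rw [e]; group

end Cfsg.Agent.S5596
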