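import Cfsg.Statements.S5597
import Cfsg.Agent.Lib.ExtraspecialLarge.Setting

set_option autoImplicit false
open Cfsg

namespace Cfsg.Agent.S5597

/-- Setting: `z` is an involution of the finite group `G`; for each element `x`, `Q x` is the largest normal 2-subgroup of the centralizer of `x`; `Q z` is extraspecial and contains its own centralizer in `G`. A subgroup `U` is singular when it is elementary abelian, every non-identity element of `U` is conjugate to `z`, and any two non-identity elements `u`, `v` of `U` are orthogonal (`v ∈ Q u`). Write `QU` for the intersection of the `Q u` and `LU` for the join of the `Q u` over the non-identity `u` in `U`. If `U` is a non-trivial singular subgroup, then `LU` acts trivially on `QU / U` (every commutator of an element of `LU` with an element of `QU` lies in `U`), and for every `x` in `QU` outside `U` the centralizer of `U` in `LU` permutes the coset `x U` transitively: each `x u` with `u ∈ U` is a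 conjugate of `x` by an element of `LU` centralizing `U`. -/
theorem result {G : Type*} [Group G] [Finite G]
    (Q : G → Subgroup G)
    (hQ : ∀ x : G, Q x = (Cfsg.pCore 2 ↥(Subgroup.centralizer ({x} : Set G))).map (Subgroup.centralizer ({x} : Set G)).subtype)
    (z : G) (hz : orderOf z = 2) (hE : Cfsg.IsExtraspecial 2 ↥(Q z))
    (hC : Subgroup.centralizer ((Q z : Subgroup G) : Set G) ≤ Q z)
    (U : Subgroup G) (hU2 : ∀ u ∈ U, u * u = 1)
    (hS : ∀ u ∈ U, u ≠ 1 → ∃ g : G, g * z * g⁻¹ = u)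
    (hO : ∀ u ∈ U, ∀ v ∈ U, u ≠ 1 → v ≠ 1 → v ∈ Q u)
    (QU LU : Subgroup G) (hQU : QU = ⨅ u ∈ ((U : Set G) \ {1}), Q u) (hLU : LU = ⨆ u ∈ ((U : Set G) \ {1}), Q u)
    (hU : U ≠ ⊥) :
    (∀ g ∈ LU, ∀ x ∈ QU, g * x * g⁻¹ * x⁻¹ ∈ U) ∧
      ∀ x ∈ QU, x ∉ U → ∀ u ∈ U, ∃ g ∈ LU ⊓ Subgroup.centralizer (U : Set G), g * x * g⁻¹ = x * u := by
  have h : CfsgLib.ExtraspecialLarge.CoreSetting Q z := ⟨hQ, hz, hE, hC⟩
  have hgood : ∀ u ∈ U, u ≠ 1 → CfsgLib.ExtraspecialLarge.Good (Q u) u :=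
    fun u hu hu1 => h.good_of_conj (hS u hu hu1)
  have hsub : ∀ u ∈ U, u ≠ 1 → U ≤ Q u := by
    intro u hu hu1 v hv
    by_cases hv1 : v = 1
    · subst hv1; exact one_mem _
    · exact hO u hu v hv hu1 hv1
  have hQUle : ∀ u ∈ U, u ≠ 1 → QU ≤ Q u := fun u hu hu1 => hQU ▸ iInf₂_le u ⟨hu, hu1⟩
  have hLUle : ∀ u ∈ U, u ≠ 1 → Q u ≤ LU := fun u hu hu1 =>
    hLU ▸ le_iSup₂ (f := fun u (_ : u ∈ ((U : Set G) \ {1})) => Q u) u ⟨hu, hu1⟩
  have hQUmem : ∀ x, (∀ u ∈ U, u ≠ 1 → x ∈ Q u) → x ∈ QU := fun x hx => by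
    rw [hQU, Subgroup.mem_iInf]; intro u; rw [Subgroup.mem_iInf]; exact fun hu => hx u hu.1 hu.2
  have hUQU : U ≤ QU := fun x hx => hQUmem x fun u hu hu1 => hsub u hu hu1 hx
  constructor
  · intro g hg x hx
    let S : Subgroup G :=
      { carrier := {g | (∀ v ∈ U, g * v * g⁻¹ ∈ U) ∧ (∀ v ∈ U, g⁻¹ * v * g ∈ U) ∧
          (∀ y ∈ QU, g * y * g⁻¹ * y⁻¹ ∈ U) ∧ (∀ y ∈ QU, g⁻¹ * y * g * y⁻¹ ∈ U)}
        one_mem' := ⟨fun v hv => by simpa using hv, fun v hv => by simpa using hv,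
          fun y _ => by simp, fun y _ => by simp⟩
        inv_mem' := by
          rintro a ⟨h1, h2, h3, h4⟩
          exact ⟨by simpa using h2, by simpa using h1, by simpa using h4, by simpa using h3⟩
        mul_mem' := by
          rintro a b ⟨a1, a2, a3, a4⟩ ⟨b1, b2, b3, b4⟩
          refine ⟨fun v hv => ?_, fun v hv => ?_, fun y hy => ?_, fun y hy => ?_⟩
          · have := a1 _ (b1 v hv); simpa [mul_assoc] using this
          · have := b2 _ (a2 v hv); simpa [mul_assoc] using this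
          · rw [show a * b * y * (a * b)⁻¹ * y⁻¹ =
              (a * (b * y * b⁻¹ * y⁻¹) * a⁻¹) * (a * y * a⁻¹ * y⁻¹) by group]
            exact U.mul_mem (a1 _ (b3 y hy)) (a3 y hy)
          · rw [show (a * b)⁻¹ * y * (a * b) * y⁻¹ =
              (b⁻¹ * (a⁻¹ * y * a * y⁻¹) * b) * (b⁻¹ * y * b * y⁻¹) by group]
            exact U.mul_mem (b2 _ (a4 y hy)) (b4 y hy) }
    have hS' : LU ≤ S := by
      rw [hLU]
      refine iSup₂_le fun u hu => ?_
      have hg := hgood u hu.1 hu.2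
      have key : ∀ q ∈ Q u, ∀ y ∈ Q u, q * y * q⁻¹ * y⁻¹ ∈ U := by
        intro q hq y hy
        rcases hg.cases_conj q hq y hy with e | e <;> rw [e]
        · simp
        · simpa using hu.1
      have key2 : ∀ q ∈ Q u, ∀ v ∈ U, q * v * q⁻¹ ∈ U := fun q hq v hv => by
        simpa [mul_assoc] using U.mul_mem (key q hq v (hsub u hu.1 hu.2 hv)) hv
      intro q hq
      refine ⟨key2 q hq, fun v hv => by simpa using key2 q⁻¹ ((Q u).inv_mem hq) v hv,
        fun y hy => key q hq y (hQUle u hu.1 hu.2 hy),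
        fun y hy => by simpa using key q⁻¹ ((Q u).inv_mem hq) y (hQUle u hu.1 hu.2 hy)⟩
    exact (hS' hg).2.2.1 x hx
  · intro x hx hxU u hu
    by_cases hu1 : u = 1
    · exact ⟨1, one_mem _, by simp [hu1]⟩
    have hgd := hgood u hu hu1
    obtain ⟨q, hq, hqU, hqx⟩ := hgd.exists_flip (hsub u hu hu1) hu (hQUle u hu hu1 hx) hxU
    refine ⟨q, Subgroup.mem_inf.mpr ⟨hLUle u hu hu1 hq, Subgroup.mem_centralizer_iff.mpr fun v hv => (hqU v hv).symm⟩, ?_⟩
    rw [hqx, hgd.comm x (hQUle u hu hu1 hx)]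

end Cfsg.Agent.S5597
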