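import Cfsg.Statements.S5598
import Cfsg.Agent.Lib.ExtraspecialLarge.Setting

set_option autoImplicit false
open Cfsg

namespace Cfsg.Agent.S5598

/-- Setting: `z` is an involution of the finite group `G`; for each element `x`, `Q x` is the largest normal 2-subgroup of the centralizer of `x`; `Q z` is extraspecial and contains its own centralizer in `G`. A subgroup `U` is singular when it is elementary abelian, every non-identity element of `U` is conjugate to `z`, and any two non-identity elements `u`, `v` of `U` are orthogonal (`v ∈ Q u`). Write `QU` for the intersection of the `Q u` and `LU` for the join of the `Q u` over the non-identity `u` in `U`. If the singular subgroup `U` is generated by a set `T` of non-identity elements, then `QU` is already the intersection of the `Q t` over `t ∈ T`. -/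
theorem result {G : Type*} [Group G] [Finite G]
    (Q : G → Subgroup G)
    (hQ : ∀ x : G, Q x = (Cfsg.pCore 2 ↥(Subgroup.centralizer ({x} : Set G))).map (Subgroup.centralizer ({x} : Set G)).subtype)
    (z : G) (hz : orderOf z = 2) (hE : Cfsg.IsExtraspecial 2 ↥(Q z))
    (hC : Subgroup.centralizer ((Q z : Subgroup G) : Set G) ≤ Q z)
    (U : Subgroup G) (hU2 : ∀ u ∈ U, u * u = 1)
    (hS : ∀ u ∈ U, u ≠ 1 → ∃ g : G, g * z * g⁻¹ = u)
    (hO : ∀ u ∈ U, ∀ v ∈ U, u ≠ 1 → v ≠ 1 → v ∈ Q u)
    (QU LU : Subgroup G) (hQU : QU = ⨅ u ∈ ((U : Set G) \ {1}), Q u) (hLU : LU = ⨆ u ∈ ((U : Set G) \ {1}), Q u)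
    (T : Set G) (hT : Subgroup.closure T = U) (hT1 : (1 : G) ∉ T) :
    QU = ⨅ t ∈ T, Q t := by
  have h : CfsgLib.ExtraspecialLarge.CoreSetting Q z := ⟨hQ, hz, hE, hC⟩
  have hgood : ∀ u ∈ U, u ≠ 1 → CfsgLib.ExtraspecialLarge.Good (Q u) u :=
    fun u hu hu1 => h.good_of_conj (hS u hu hu1)
  have hTU : T ⊆ (U : Set G) := hT ▸ Subgroup.subset_closure
  refine le_antisymm (le_iInf₂ fun t ht => hQU ▸ iInf₂_le t ⟨hTU ht, fun e => hT1 (e ▸ ht)⟩) ?_
  intro x hx
  rw [Subgroup.mem_iInf] at hx
  have hxT : ∀ t ∈ T, x ∈ Q t := fun t ht => by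
    have := hx t; rw [Subgroup.mem_iInf] at this; exact this ht
  let S : Subgroup G :=
    { carrier := {u | u ∈ U ∧ (u ≠ 1 → x ∈ Q u)}
      one_mem' := ⟨U.one_mem, fun e => absurd rfl e⟩
      inv_mem' := by
        rintro a ⟨ha, hax⟩
        show a⁻¹ ∈ U ∧ (a⁻¹ ≠ 1 → x ∈ Q a⁻¹)
        rw [inv_eq_of_mul_eq_one_right (hU2 a ha)]
        exact ⟨ha, hax⟩
      mul_mem' := by
        rintro a b ⟨ha, hax⟩ ⟨hb, hbx⟩
        refine ⟨U.mul_mem ha hb, fun hab => ?_⟩
        by_cases ha1 : a = 1
        · subst ha1; rw [one_mul] at hab ⊢; exact hbx hab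
        by_cases hb1 : b = 1
        · subst hb1; rw [mul_one] at hab ⊢; exact hax hab
        have hga := hgood a ha ha1
        have hbQ : b ∈ Q a := hO a ha b hb ha1 hb1
        obtain ⟨q, hq, hqb⟩ : ∃ q ∈ Q a, q * b * q⁻¹ = a * b := by
          by_contra hne
          push Not at hne
          rcases hga.center b hbQ (fun q hq => by
            rcases hga.cases_conj q hq b hbQ with e | e
            · exact mul_inv_eq_iff_eq_mul.mp e
            · exact absurd e (hne q hq)) with e | e
          · exact hb1 e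
          · subst e; exact hab (hU2 b hb)
        have h1 := h.conj_mem q b (hbx hb1)
        rw [hqb] at h1
        have h2 : a ∈ Q (a * b) := hO _ (U.mul_mem ha hb) a ha hab ha1
        rcases hga.cases_conj q hq x (hax ha1) with e | e
        · rwa [e] at h1
        · rw [e] at h1
          simpa using (Q (a * b)).mul_mem ((Q (a * b)).inv_mem h2) h1 }
  have hle : U ≤ S := hT ▸ (Subgroup.closure_le S).mpr fun t ht => ⟨hTU ht, fun _ => hxT t ht⟩
  rw [hQU, Subgroup.mem_iInf]
  intro u
  rw [Subgroup.mem_iInf]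
  exact fun hu => (hle hu.1).2 hu.2

end Cfsg.Agent.S5598
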