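import Cfsg.Statements.S5712
import Cfsg.Agent.Lib.SpOverX.Extract
import Cfsg.Agent.Lib.SpOverX.Small
import Cfsg.Agent.Lib.Forms.SympBridge
import Cfsg.Agent.S0247

set_option autoImplicit false
open Cfsg

namespace Cfsg.Agent.S5712

open CfsgLib.Geometric CfsgLib.Geometric.Symp CfsgLib.SpOverX

theorem form_eq {F : Type*} [Field F] [CharP F 2] (n : ℕ) :
    (fun u v : (Fin n ⊕ Fin n → F) => ∑ i : Fin n, (u (Sum.inl i) * v (Sum.inr i) + u (Sum.inr i) * v (Sum.inl i)))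
      = Cfsg.sympForm n F := by
  funext u v
  simp [Cfsg.sympForm, Matrix.J, dotProduct, Matrix.mulVec, Fintype.sum_sum_type,
    Matrix.one_apply, Matrix.fromBlocks, Finset.sum_add_distrib, CharTwo.neg_eq]

theorem splits {F : Type*} [Field F] [CharP F 2] {ι : Type} [Fintype ι] [DecidableEq ι] [Finite F]
    {f : (ι → F) → (ι → F) → F} (hf : Cfsg.Geo.IsSymplecticForm f) {L : Subgroup (GL ι F)}
    {a b : ι → F} {Q : QuadraticForm F (ι → F)} (D : FormData hf L a b Q) (ha : a ≠ 0)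
    (hirr : ∀ W : Submodule F (ι → F), (∀ g ∈ L, ∀ w ∈ W, ap g w ∈ W) → W = ⊥ ∨ W = ⊤)
    (h4 : 4 ≤ Fintype.card ι)
    (hex : 5 ≤ Fintype.card ι ∨ ∃ k : F, k ≠ 0 ∧ k ≠ 1) : Splits f L a Q := by
  intro p v hp hv hQv
  by_cases hmem : v ∈ Submodule.span F {p}
  · exact Or.inl hmem
  right
  have hp0 := hp.ne_zero ha
  rcases hex with h5 | ⟨k, hk0, hk1⟩
  · obtain ⟨w, hwv, hwp, hw⟩ := exists_third hf h5 hp0 hmem
    have hQ : ∀ x, f x v = 0 → Q (v + x) = Q x := fun x hx => by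
      rw [D.Q_add hf, hQv, CfsgLib.SpOverX.symm hf v x, hx, zero_add, add_zero]
    by_cases hQw : Q w = 0
    · obtain ⟨y, hy, hyw⟩ := exists_dual_one hf hw 1
      have hyp : f y p = 0 := hy p (Submodule.subset_span (by simp))
      have hyv : f y v = 0 := hy v (Submodule.subset_span (by simp))
      by_cases hQy : Q y = 0
      · refine ⟨y + w, by rw [hf.bilinear.add_left, hyp, hwp, add_zero], ?_, ?_⟩
        · rw [D.Q_add hf, hQy, hQw, hyw]; simp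
        · rw [hQ _ (by rw [hf.bilinear.add_left, hyv, hwv, add_zero]), D.Q_add hf, hQy, hQw, hyw]
          simp
      · exact ⟨y, hyp, hQy, by rw [hQ y hyv]; exact hQy⟩
    · exact ⟨w, hwp, hQw, by rw [hQ w hwv]; exact hQw⟩
  · obtain ⟨q, -, hpq⟩ := exists_partner hf hp0 hirr
    obtain ⟨x, hxp, -, hQx⟩ := (D.compl p hp).2.surjective hf hpq h4 1
    have hk : ∀ k : F, f (k • x) p = 0 := fun k => by rw [hf.bilinear.smul_left, hxp, mul_zero]
    by_cases hφ : f v x = 1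
    · refine ⟨k • x, hk k, ?_, ?_⟩
      · rw [FormData.Q_smul hf, hQx, mul_one]; exact mul_ne_zero hk0 hk0
      · rw [D.Q_add hf, hQv, FormData.Q_smul hf, hQx, hf.bilinear.smul_right, hφ, zero_add, mul_one,
          mul_one]
        intro h0
        have : k * (k + 1) = 0 := by rw [mul_add, mul_one]; exact h0
        exact hk1 (CharTwo.add_eq_zero.1 ((mul_eq_zero.1 this).resolve_left hk0))
    · refine ⟨x, hxp, by rw [hQx]; exact one_ne_zero, ?_⟩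
      rw [D.Q_add hf, hQv, hQx, zero_add]
      exact fun h0 => hφ (CharTwo.add_eq_zero.1 h0).symm

theorem core_facts {G : Type*} [Group G] (H : Subgroup G) :
    IsPGroup 2 ↥((Cfsg.pCore 2 ↥H).map H.subtype) ∧ (Cfsg.pCore 2 ↥H).map H.subtype ≤ H ∧
      ∀ h ∈ H, ∀ k ∈ (Cfsg.pCore 2 ↥H).map H.subtype,
        h * k * h⁻¹ ∈ (Cfsg.pCore 2 ↥H).map H.subtype := by
  haveI := CfsgLib.Cores.pCore_characteristic 2 ↥H
  refine ⟨(CfsgLib.Cores.isPGroup_pCore 2 ↥H).map _, Subgroup.map_subtype_le _, ?_⟩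
  rintro h hh _ ⟨k, hk, rfl⟩
  exact ⟨⟨h, hh⟩ * k * ⟨h, hh⟩⁻¹, Subgroup.Normal.conj_mem inferInstance k hk _, rfl⟩

set_option maxHeartbeats 1000000 in
theorem main {F : Type*} [Field F] [Fintype F] [CharP F 2] {n : ℕ} (hn : 2 ≤ n)
    (a : (Fin n ⊕ Fin n → F)) (ha : a ≠ 0)
    (X L : Subgroup (GL (Fin n ⊕ Fin n) F))
    (hXO : ∀ H : Subgroup (GL (Fin n ⊕ Fin n) F),
      (∀ g : GL (Fin n ⊕ Fin n) F, g ∈ H ↔ g ∈ isom (Cfsg.sympForm n F) ∧ ap g a = a) →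
      X ≤ (Cfsg.pCore 2 ↥H).map H.subtype)
    (hcard : Nat.card ↥X = Fintype.card F ^ (2 * n - 2))
    (hntv : ∀ x ∈ X, ((x : Matrix (Fin n ⊕ Fin n) (Fin n ⊕ Fin n) F) - 1).rank ≠ 1)
    (hXL : X ≤ L) (hLG : L ≤ isom (Cfsg.sympForm n F))
    (hirr : ∀ W : Submodule F (Fin n ⊕ Fin n → F), (∀ g ∈ L, ∀ w ∈ W, ap g w ∈ W) → W = ⊥ ∨ W = ⊤) :
    L = isom (Cfsg.sympForm n F) ∨
    (∃ Q : QuadraticForm F (Fin n ⊕ Fin n → F),
      (∀ u v, QuadraticMap.polar ⇑Q u v = Cfsg.sympForm n F u v) ∧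
      (L = Cfsg.isometryGroup F ⇑Q ∨
        ∀ g : GL (Fin n ⊕ Fin n) F, g ∈ L ↔ (g ∈ Cfsg.isometryGroup F ⇑Q ∧
          Even ((g : Matrix (Fin n ⊕ Fin n) (Fin n ⊕ Fin n) F) - 1).rank))) ∨
    (Fintype.card F = 2 ∧ n = 2 ∧ (Nonempty (↥L ≃* ↥(alternatingGroup (Fin 6))) ∨ Nonempty (↥L ≃* Equiv.Perm (Fin 5)))) := by
  classical
  have hf := isSymplecticForm_sympForm n F
  have hι : Fintype.card (Fin n ⊕ Fin n) = 2 * n := by simp; omega
  have h4 : 4 ≤ Fintype.card (Fin n ⊕ Fin n) := by omega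
  let H : Subgroup (GL (Fin n ⊕ Fin n) F) :=
    { carrier := {g | g ∈ isom (Cfsg.sympForm n F) ∧ ap g a = a}
      mul_mem' := fun {g h} hg hh => ⟨mul_mem hg.1 hh.1, by rw [ap_mul, hh.2, hg.2]⟩
      one_mem' := ⟨one_mem _, ap_one a⟩
      inv_mem' := fun {g} hg => ⟨inv_mem hg.1, by conv_lhs => rw [← hg.2, ap_inv_ap]⟩ }
  have hXP := hXO H fun g => Iff.rfl
  obtain ⟨hc1, hc2, hc3⟩ := core_facts H
  obtain ⟨c, hc⟩ : ∃ c, IsCompl hf L a c := by
    refine exists_isCompl hf h4 ha X (fun g hg => ?_) ?_ hntv hXL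
    · exact exists_E_of_normal hf h4 ha _ hc1
        (fun g hg => (hc2 hg).1) (fun g hg => (hc2 hg).2)
        (fun h hh hha k hk => hc3 h ⟨hh, hha⟩ k hk) (hXP hg)
    · rw [hcard, Nat.card_eq_fintype_card, hι]
  by_cases hT : ∃ σ, σ ≠ 0 ∧ T hf a σ ∈ L
  · obtain ⟨σ, hσ, hσL⟩ := hT
    exact Or.inl (eq_isom_of_transvection hf hLG ha hc hirr h4 hσ hσL)
  push Not at hT
  have hA : ∀ s, T hf a s ∈ L → s = 0 := fun s hs => by_contra fun h => hT s h hs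
  have mkD : ZProp hf L a → ∃ (Q : QuadraticForm F (Fin n ⊕ Fin n → F)) (b : Fin n ⊕ Fin n → F),
      FormData hf L a b Q := by
    intro hZ
    obtain ⟨Q, b, hb, hab, hpl, hinv, hQa, hQb, hP⟩ := exists_form hf hLG ha hc hirr h4 hZ
    exact ⟨Q, b, ⟨hLG, hb, hab, hpl, hinv, hQa, hQb, hP⟩⟩
  by_cases hex : 5 ≤ Fintype.card (Fin n ⊕ Fin n) ∨ ∃ k : F, k ≠ 0 ∧ k ≠ 1
  · obtain ⟨Q, b, D⟩ := mkD (zProp_of_noT hf hLG ha hc hA hex)
    exact Or.inr (Or.inl ⟨Q, D.hpolar, D.classify hf ha h4 (splits hf D ha hirr h4 hex)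
      (CfsgLib.Forms.reflClosure_eq_top (D.nondeg hf) (by
        rcases hex with h | h
        · exact Or.inr (by omega)
        · exact Or.inl h))⟩)
  push Not at hex
  obtain ⟨h5, hF2'⟩ := hex
  have hn2 : n = 2 := by omega
  have hF2 : Fintype.card F = 2 := by
    have hu : (Finset.univ : Finset F) = {0, 1} := Finset.ext fun x => by
      simpa [or_iff_not_imp_left] using hF2' x
    rw [← Finset.card_univ, hu, Finset.card_pair zero_ne_one]
  have h2 : Nat.card F = 2 := by rw [Nat.card_eq_fintype_card, hF2]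
  have hc4 : Fintype.card (Fin n ⊕ Fin n) = 4 := by omega
  by_cases hZ : ZProp hf L a
  · obtain ⟨Q, b, D⟩ := mkD hZ
    refine Or.inr (Or.inl ⟨Q, D.hpolar, ?_⟩)
    by_cases hW : ∃ v, Cfsg.sympForm n F v a = 0 ∧ Cfsg.sympForm n F v b = 0 ∧ Q v = 0 ∧ v ≠ 0
    · obtain ⟨d, h1, h2', h3, h4'⟩ := hW
      exact D.hyperbolic_classify hf ha hc4 h2 h1 h2' h4' h3
    · push Not at hW
      exact D.classify hf ha h4 (D.elliptic_splits hf h2 hW) (D.elliptic_gen hf ha hc4 h2 hW)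
  · obtain ⟨e0⟩ := Cfsg.Agent.S0247.result (F := F) hF2
    subst hn2
    let e : isom (Cfsg.sympForm 2 F) ≃* Equiv.Perm (Fin 6) :=
      ((MulEquiv.subgroupCongr CfsgLib.Forms.spToGL_range.symm).trans
        (MonoidHom.ofInjective CfsgLib.Forms.spToGL_injective).symm).trans e0
    exact Or.inr (Or.inr ⟨hF2, rfl, small_cases hf hc4 h2 hLG ha hc hirr hA hZ e⟩)


/-- Let F be a finite field of characteristic two, n ≥ 2, V = F^{2n} with the non-degenerate alternating form f(u, v) = Σ (u_i v_{n+i} + u_{n+i} v_i), and G the group of invertible matrices preserving f. Let a ≠ 0 be a vector, H its stabilizer in G, and X a subgroup of O₂(H) of order |F|^{2n−2} no element of which is a transvection (no element g has g − 1 of rank one). If L is a subgroup of G containing X that acts irreducibly on V (no proper non-zero L-invariant subspace), then L = G, or, for some quadratic form Q on V whose polar form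 is f, L is the isometry group of Q or its subgroup of the isometries g for which g − 1 has even rank, or |F| = 2, n = 2 and L is isomorphic to the alternating group of degree 6 or to the symmetric group of degree 5. -/
theorem result {F : Type*} [Field F] [Fintype F] [CharP F 2] {n : ℕ} (hn : 2 ≤ n) (a : (Fin n ⊕ Fin n → F)) (ha : a ≠ 0)
    (X : Subgroup (GL (Fin n ⊕ Fin n) F)) (hXG : X ≤ Cfsg.preserving (Units.coeHom (Matrix (Fin n ⊕ Fin n) (Fin n ⊕ Fin n) F)) (fun u v : (Fin n ⊕ Fin n → F) => ∑ i : Fin n, (u (Sum.inl i) * v (Sum.inr i) + u (Sum.inr i) * v (Sum.inl i))))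
    (hXO : ∀ H : Subgroup (GL (Fin n ⊕ Fin n) F),
      (∀ g : GL (Fin n ⊕ Fin n) F, g ∈ H ↔ (g ∈ Cfsg.preserving (Units.coeHom (Matrix (Fin n ⊕ Fin n) (Fin n ⊕ Fin n) F)) (fun u v : (Fin n ⊕ Fin n → F) => ∑ i : Fin n, (u (Sum.inl i) * v (Sum.inr i) + u (Sum.inr i) * v (Sum.inl i))) ∧ Matrix.mulVec (g : Matrix (Fin n ⊕ Fin n) (Fin n ⊕ Fin n) F) a = a)) →
      X ≤ (Cfsg.pCore 2 ↥H).map H.subtype)
    (hcard : Nat.card ↥X = Fintype.card F ^ (2 * n - 2))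
    (hntv : ∀ x ∈ X, ((x : Matrix (Fin n ⊕ Fin n) (Fin n ⊕ Fin n) F) - 1).rank ≠ 1)
    (L : Subgroup (GL (Fin n ⊕ Fin n) F)) (hXL : X ≤ L) (hLG : L ≤ Cfsg.preserving (Units.coeHom (Matrix (Fin n ⊕ Fin n) (Fin n ⊕ Fin n) F)) (fun u v : (Fin n ⊕ Fin n → F) => ∑ i : Fin n, (u (Sum.inl i) * v (Sum.inr i) + u (Sum.inr i) * v (Sum.inl i))))
    (hirr : ∀ W : Submodule F (Fin n ⊕ Fin n → F), (∀ g ∈ L, ∀ w ∈ W, Matrix.mulVec (g : Matrix (Fin n ⊕ Fin n) (Fin n ⊕ Fin n) F) w ∈ W) → W = ⊥ ∨ W = ⊤) :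
    L = Cfsg.preserving (Units.coeHom (Matrix (Fin n ⊕ Fin n) (Fin n ⊕ Fin n) F)) (fun u v : (Fin n ⊕ Fin n → F) => ∑ i : Fin n, (u (Sum.inl i) * v (Sum.inr i) + u (Sum.inr i) * v (Sum.inl i))) ∨
    (∃ Q : QuadraticForm F (Fin n ⊕ Fin n → F), (∀ u v, QuadraticMap.polar ⇑Q u v = (fun u v : (Fin n ⊕ Fin n → F) => ∑ i : Fin n, (u (Sum.inl i) * v (Sum.inr i) + u (Sum.inr i) * v (Sum.inl i))) u v) ∧
      (L = Cfsg.isometryGroup F ⇑Q ∨
        ∀ g : GL (Fin n ⊕ Fin n) F, g ∈ L ↔ (g ∈ Cfsg.isometryGroup F ⇑Q ∧ Even ((g : Matrix (Fin n ⊕ Fin n) (Fin n ⊕ Fin n) F) - 1).rank))) ∨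
    (Fintype.card F = 2 ∧ n = 2 ∧ (Nonempty (↥L ≃* ↥(alternatingGroup (Fin 6))) ∨ Nonempty (↥L ≃* Equiv.Perm (Fin 5)))) := by
  have hfe := form_eq (F := F) n
  simp only [hfe] at *
  rcases main hn a ha X L hXO hcard hntv hXL hLG hirr with h | ⟨Q, hQ, h⟩ | h
  · exact Or.inl h
  · exact Or.inr (Or.inl ⟨Q, fun u v => (hQ u v).trans (congrFun (congrFun (form_eq n) u) v).symm, h⟩)
  · exact Or.inr (Or.inr h)

end Cfsg.Agent.S5712
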