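import Cfsg.Statements.S5713
import Cfsg.Agent.Lib.AltGroups.MinimalDegree

set_option autoImplicit false
open Cfsg

namespace Cfsg.Agent.S5713

/-- A classification-free minimal-degree bound. Let G be a finite group acting faithfully and primitively on a finite set Ω with n elements, and suppose that the image of G in the symmetric group on Ω does not contain the alternating group on Ω. Then every non-identity element of G moves at least (√n − 1)/2 points of Ω, that is, it fixes at most n − (√n − 1)/2 points. -/
theorem result {G Ω : Type*} [Group G] [Finite G] [MulAction G Ω] [FaithfulSMul G Ω] [Fintype Ω] [DecidableEq Ω]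
    (hprim : MulAction.IsPreprimitive G Ω)
    (hA : ¬ alternatingGroup Ω ≤ (MulAction.toPermHom G Ω).range)
    (g : G) (hg : g ≠ 1) :
    (Real.sqrt (Fintype.card Ω) - 1) / 2 ≤ (Fintype.card Ω : ℝ) - Nat.card (MulAction.fixedBy Ω g) := by
  have h1 := CfsgLib.AltGroups.MinimalDegree.card_le_sq hprim hA g hg
  have h2 := Set.ncard_add_ncard_compl (MulAction.fixedBy Ω g)
  rw [Nat.card_eq_fintype_card] at h2
  have h3 : Real.sqrt (Fintype.card Ω) ≤ 2 * ((MulAction.fixedBy Ω g)ᶜ.ncard : ℝ) + 1 := by
    rw [Real.sqrt_le_left (by positivity)]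
    exact_mod_cast h1
  have h4 : ((MulAction.fixedBy Ω g).ncard : ℝ) + ((MulAction.fixedBy Ω g)ᶜ.ncard : ℝ) = Fintype.card Ω := by
    exact_mod_cast h2
  rw [Nat.card_coe_set_eq]
  linarith

end Cfsg.Agent.S5713
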