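import Cfsg.Statements.S5729
import Cfsg.Agent.Lib.Fixity.DerangementBound

set_option autoImplicit false
open Cfsg

namespace Cfsg.Agent.S5729

/-- Let a finite group G act faithfully and transitively on a set with n ≥ 3 points. Then either G is a Frobenius permutation group (Frobenius as a permutation group: transitive, some non-identity element fixes a point, and no non-identity element fixes two points) of order n(n − 1) and exactly |G|/n of its elements are derangements (fix no point), or the number of derangements is greater than |G|/n. -/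
theorem result {G Ω : Type*} [Group G] [Finite G] [MulAction G Ω] [FaithfulSMul G Ω] [Fintype Ω] (htr : MulAction.IsPretransitive G Ω) (hn : 3 ≤ Fintype.card Ω) :
    ((MulAction.IsPretransitive G Ω ∧ (∃ g : G, g ≠ 1 ∧ ∃ ω : Ω, g • ω = ω) ∧ ∀ g : G, g ≠ 1 → Nat.card (MulAction.fixedBy Ω g) ≤ 1) ∧ Nat.card G = Fintype.card Ω * (Fintype.card Ω - 1) ∧ Fintype.card Ω * Nat.card {g : G // ∀ ω : Ω, g • ω ≠ ω} = Nat.card G) ∨
    Nat.card G < Fintype.card Ω * Nat.card {g : G // ∀ ω : Ω, g • ω ≠ ω} := by
  classical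
  haveI := Fintype.ofFinite G
  haveI := htr
  obtain ⟨a, b, hab⟩ := Fintype.one_lt_card_iff.1 (show 1 < Fintype.card Ω by omega)
  haveI : Nonempty Ω := ⟨a⟩
  rw [← CfsgLib.Fixity.Bound.card_derSet (G := G) (Ω := Ω)]
  by_cases h2 : MulAction.IsMultiplyPretransitive G Ω 2
  swap
  · right
    have := CfsgLib.Fixity.Bound.bound_of_not_two_transitive htr h2
    have hpos : 0 < Fintype.card G := Fintype.card_pos
    rw [Nat.card_eq_fintype_card]
    omega
  obtain ⟨hG, hD⟩ := CfsgLib.Fixity.Bound.bound_of_two_transitive h2 hab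
  set n := Fintype.card Ω with hn'
  set S := CfsgLib.Fixity.Bound.pairStab (G := G) a b with hS
  have h1S : (1 : G) ∈ S := by simp [hS, CfsgLib.Fixity.Bound.pairStab]
  have hn0 : (0 : ℚ) < n := by exact_mod_cast (show 0 < n by omega)
  have hpos : ∀ g ∈ S, 0 < CfsgLib.Fixity.Bound.fixNum Ω g := by
    intro g hg
    simp only [hS, CfsgLib.Fixity.Bound.pairStab, Finset.mem_filter] at hg
    exact Finset.card_pos.2 ⟨a, CfsgLib.Fixity.Bound.mem_fixFin.2 hg.2.1⟩
  have hle : ∀ g ∈ S, (1 : ℚ) ≤ (n : ℚ) / CfsgLib.Fixity.Bound.fixNum Ω g := by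
    intro g hg
    rw [le_div_iff₀ (by exact_mod_cast hpos g hg), one_mul]
    exact_mod_cast Finset.card_le_univ _
  have hfix1 : CfsgLib.Fixity.Bound.fixNum Ω (1 : G) = n := by
    simp [CfsgLib.Fixity.Bound.fixNum, CfsgLib.Fixity.Bound.fixFin, hn']
  by_cases hm : ∀ g ∈ S, g = 1
  · left
    have hSeq : S = {1} := Finset.eq_singleton_iff_unique_mem.2 ⟨h1S, hm⟩
    rw [hSeq, Finset.card_singleton, mul_one] at hG
    have hGn : Nat.card G = n * (n - 1) := by rw [Nat.card_eq_fintype_card, hG]
    refine ⟨⟨htr, ?_, ?_⟩, hGn, ?_⟩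
    · by_contra hno
      push Not at hno
      have hst : MulAction.stabilizer G a = ⊥ := by
        rw [eq_bot_iff]
        intro g hg
        rw [Subgroup.mem_bot]
        by_contra hg1
        exact hno g hg1 a hg
      have h := MulAction.index_stabilizer_of_transitive G a
      rw [hst, Subgroup.index_bot, hGn, Nat.card_eq_fintype_card, ← hn'] at h
      have : n * 2 ≤ n * (n - 1) := Nat.mul_le_mul_left _ (by omega)
      omega
    · intro g hg
      by_contra h
      push Not at h
      rw [Nat.card_eq_fintype_card, Fintype.one_lt_card_iff] at h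
      obtain ⟨⟨c, hc⟩, ⟨d, hd⟩, hcd⟩ := h
      have hcd' : c ≠ d := fun e => hcd (Subtype.ext e)
      obtain ⟨u, hu1, hu2⟩ := (MulAction.is_two_pretransitive_iff.1 h2) hcd' hab
      have hmem : u * g * u⁻¹ ∈ S := by
        simp only [hS, CfsgLib.Fixity.Bound.pairStab, Finset.mem_filter, Finset.mem_univ, true_and]
        constructor
        · rw [← hu1, mul_smul, inv_smul_smul, mul_smul]
          exact congrArg _ hc
        · rw [← hu2, mul_smul, inv_smul_smul, mul_smul]
          exact congrArg _ hd
      exact hg (conj_eq_one_iff.1 (hm _ hmem))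
    · rw [hSeq, Finset.sum_singleton, hfix1, div_self hn0.ne', mul_one] at hD
      rw [hGn]
      have h : ((n * (CfsgLib.Fixity.Bound.derSet G Ω).card : ℕ) : ℚ) = ((n * (n - 1) : ℕ) : ℚ) := by
        rw [Nat.cast_mul, Nat.cast_mul, Nat.cast_sub (show 1 ≤ n by omega), Nat.cast_one]
        exact hD
      exact_mod_cast h
  · right
    push Not at hm
    obtain ⟨g, hg, hg1⟩ := hm
    have hlt : (1 : ℚ) < (n : ℚ) / CfsgLib.Fixity.Bound.fixNum Ω g := by
      rw [lt_div_iff₀ (by exact_mod_cast hpos g hg), one_mul, Nat.cast_lt]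
      refine Finset.card_lt_univ_of_notMem (x := ?_) ?_
      · exact Classical.choose (show ∃ w : Ω, g • w ≠ w by
          by_contra hall
          push Not at hall
          exact hg1 (eq_of_smul_eq_smul (α := Ω) fun w => by rw [one_smul]; exact hall w))
      · intro hw
        exact Classical.choose_spec (show ∃ w : Ω, g • w ≠ w by
          by_contra hall
          push Not at hall
          exact hg1 (eq_of_smul_eq_smul (α := Ω) fun w => by rw [one_smul]; exact hall w))
          (CfsgLib.Fixity.Bound.mem_fixFin.1 hw)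
    have hsum : (S.card : ℚ) < ∑ g ∈ S, (n : ℚ) / CfsgLib.Fixity.Bound.fixNum Ω g := by
      rw [Finset.cast_card]
      exact Finset.sum_lt_sum hle ⟨g, hg, hlt⟩
    have hn1 : (0 : ℚ) < (n : ℚ) - 1 := by
      have : (3 : ℚ) ≤ n := by exact_mod_cast hn
      linarith
    have h : ((Fintype.card G : ℕ) : ℚ) <
        ((n * (CfsgLib.Fixity.Bound.derSet G Ω).card : ℕ) : ℚ) := by
      rw [hG, Nat.cast_mul (m := n), hD, Nat.cast_mul, Nat.cast_mul,
        Nat.cast_sub (show 1 ≤ n by omega), Nat.cast_one]
      exact mul_lt_mul_of_pos_left hsum (mul_pos hn0 hn1)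
    rw [Nat.card_eq_fintype_card]
    exact_mod_cast h

end Cfsg.Agent.S5729
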