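import Cfsg.Statements.S5730
import Cfsg.Agent.Lib.Fixity.DerangementSteiner

set_option autoImplicit false
set_option linter.style.haveILetI false
open Cfsg

namespace Cfsg.Agent.S5730

/-- Let a finite group G act faithfully and transitively on a set with n ≥ 7 points. Then either G is a Frobenius permutation group (Frobenius as a permutation group: transitive, some non-identity element fixes a point, and no non-identity element fixes two points) of order n(n − 1)/a with a ∈ {1, 2}, in which case exactly a|G|/n of its elements are derangements, or the number of derangements is at least 2|G|/n. (Equality does occur: PSL₃(2) acting on the 7 points of the Fano plane has exactly 2|G|/7 derangements.) -/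
theorem result {G Ω : Type*} [Group G] [Finite G] [MulAction G Ω] [FaithfulSMul G Ω] [Fintype Ω] (htr : MulAction.IsPretransitive G Ω) (hn : 7 ≤ Fintype.card Ω) :
    (∃ a : ℕ, (a = 1 ∨ a = 2) ∧ (MulAction.IsPretransitive G Ω ∧ (∃ g : G, g ≠ 1 ∧ ∃ ω : Ω, g • ω = ω) ∧ ∀ g : G, g ≠ 1 → Nat.card (MulAction.fixedBy Ω g) ≤ 1) ∧ a * Nat.card G = Fintype.card Ω * (Fintype.card Ω - 1) ∧ Fintype.card Ω * Nat.card {g : G // ∀ ω : Ω, g • ω ≠ ω} = a * Nat.card G) ∨
    2 * Nat.card G ≤ Fintype.card Ω * Nat.card {g : G // ∀ ω : Ω, g • ω ≠ ω} := by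
  classical
  letI : Fintype G := Fintype.ofFinite G
  haveI := htr
  obtain ⟨a⟩ : Nonempty Ω := Fintype.card_pos_iff.1 (by omega)
  haveI : Nonempty Ω := ⟨a⟩
  rw [← CfsgLib.Fixity.Bound.card_derSet (G := G) (Ω := Ω), Nat.card_eq_fintype_card (α := G)]
  by_cases h2 : MulAction.IsMultiplyPretransitive G Ω 2
  swap
  · exact Or.inr (CfsgLib.Fixity.Bound.bound_of_not_two_transitive htr h2)
  obtain ⟨b, hb⟩ := Fintype.exists_ne_of_one_lt_card (show 1 < Fintype.card Ω by omega) a
  have hab : a ≠ b := hb.symm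
  obtain ⟨hG, hid⟩ := CfsgLib.Fixity.Bound.bound_of_two_transitive h2 hab
  by_cases hs : 2 ≤ (CfsgLib.Fixity.Bound.pairStab (G := G) a b).card
  · exact Or.inr (CfsgLib.Fixity.Bound.bound_two_transitive h2 hn hab hs)
  have hs1 : (CfsgLib.Fixity.Bound.pairStab (G := G) a b).card = 1 := by
    have := CfsgLib.Fixity.Bound.card_pairStab_pos (G := G) a b
    omega
  refine Or.inl ⟨1, Or.inl rfl, ⟨htr, ?_, fun g hg => ?_⟩, ?_, ?_⟩
  · by_contra hcon
    push Not at hcon
    have hreg : ∀ g h : G, g • a = h • a → g = h := fun g h e => by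
      by_contra hne
      refine hcon (h⁻¹ * g) (fun h' => hne (inv_mul_eq_one.1 h').symm) a ?_
      rw [mul_smul, e, inv_smul_smul]
    have hle := Fintype.card_le_of_injective (fun g : G => g • a) hreg
    rw [hG, hs1, mul_one] at hle
    have h6 : Fintype.card Ω * 6 ≤ Fintype.card Ω * (Fintype.card Ω - 1) :=
      Nat.mul_le_mul_left _ (by omega)
    omega
  · rw [← CfsgLib.Fixity.Bound.fixNum_eq_natCard]
    refine Finset.card_le_one.2 fun c hc d hd => ?_
    rw [CfsgLib.Fixity.Bound.mem_fixFin] at hc hd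
    by_contra hcd
    apply hg
    have hmem : g ∈ CfsgLib.Fixity.Bound.pairStab (G := G) c d :=
      CfsgLib.Fixity.Bound.mem_pairStab.2 ⟨hc, hd⟩
    have h1 := (CfsgLib.Fixity.Bound.card_pairStab_eq h2 hab hcd).trans hs1
    exact Finset.card_le_one.1 h1.le g hmem 1 (CfsgLib.Fixity.Bound.one_mem_pairStab c d)
  · rw [one_mul, hG, hs1, mul_one]
  · rw [one_mul]
    have hpair : CfsgLib.Fixity.Bound.pairStab (G := G) a b = {1} :=
      Finset.eq_singleton_iff_unique_mem.2 ⟨CfsgLib.Fixity.Bound.one_mem_pairStab a b, fun g hg =>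
        Finset.card_le_one.1 hs1.le g hg 1 (CfsgLib.Fixity.Bound.one_mem_pairStab a b)⟩
    rw [hpair, Finset.sum_singleton] at hid
    have hone : CfsgLib.Fixity.Bound.fixNum Ω (1 : G) = Fintype.card Ω := by
      simp [CfsgLib.Fixity.Bound.fixNum, CfsgLib.Fixity.Bound.fixFin]
    rw [hone, div_self (by exact_mod_cast (show Fintype.card Ω ≠ 0 by omega)), mul_one] at hid
    have hq : ((Fintype.card Ω * (CfsgLib.Fixity.Bound.derSet G Ω).card : ℕ) : ℚ) =
        ((Fintype.card G : ℕ) : ℚ) := by
      rw [hG, hs1, mul_one, Nat.cast_mul, hid, Nat.cast_mul, Nat.cast_sub (by omega), Nat.cast_one]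
    exact_mod_cast hq

end Cfsg.Agent.S5730
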