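import Cfsg.Statements.S5732
import Cfsg.Agent.Lib.Derangements.UniqueFixedDichotomy

set_option autoImplicit false
open Cfsg

namespace Cfsg.Agent.S5732

/-- There is a bound N such that for every finite group G acting faithfully and transitively on a set with n ≥ N points, either G is primitive and a Frobenius permutation group (Frobenius as a permutation group: transitive, some non-identity element fixes a point, and no non-identity element fixes two points), or the subgroup generated by the derangements of G has index at most √n − 1 in G. -/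
theorem result : ∃ N : ℕ, ∀ (G Ω : Type*) [Group G] [Finite G] [MulAction G Ω] [FaithfulSMul G Ω] [Fintype Ω],
      MulAction.IsPretransitive G Ω → N ≤ Fintype.card Ω →
      (MulAction.IsPreprimitive G Ω ∧ (MulAction.IsPretransitive G Ω ∧ (∃ g : G, g ≠ 1 ∧ ∃ ω : Ω, g • ω = ω) ∧ ∀ g : G, g ≠ 1 → Nat.card (MulAction.fixedBy Ω g) ≤ 1)) ∨
      ((Subgroup.closure {g : G | ∀ ω : Ω, g • ω ≠ ω}).index : ℝ) ≤ Real.sqrt (Fintype.card Ω) - 1 := by
  refine ⟨2 ^ 1024, fun G Ω _ _ _ _ _ htr hn => ?_⟩
  haveI := htr
  haveI hnorm : (Subgroup.closure {g : G | ∀ ω : Ω, g • ω ≠ ω}).Normal := by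
    refine ⟨fun x hx g => ?_⟩
    induction hx using Subgroup.closure_induction with
    | mem u hu =>
      refine Subgroup.subset_closure fun ω hω => hu (g⁻¹ • ω) ?_
      rw [mul_smul, mul_smul] at hω
      exact eq_inv_smul_iff.2 hω
    | one => simp
    | mul u v _ _ hu hv =>
      rw [show g * (u * v) * g⁻¹ = (g * u * g⁻¹) * (g * v * g⁻¹) by group]
      exact Subgroup.mul_mem _ hu hv
    | inv u _ hu =>
      rw [show g * u⁻¹ * g⁻¹ = (g * u * g⁻¹)⁻¹ by group]
      exact Subgroup.inv_mem _ hu
  rcases CfsgLib.Derangements.UniqueFixed.isPreprimitive_and_frobenius_or_sq_le (Ω := Ω)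
      (D := Subgroup.closure {g : G | ∀ ω : Ω, g • ω ≠ ω}) (fun g hg => Subgroup.subset_closure hg)
      (by rwa [Nat.card_eq_fintype_card]) with ⟨h1, h2, h3⟩ | h
  · exact Or.inl ⟨h1, htr, h2, h3⟩
  · right
    rw [le_sub_iff_add_le]
    refine Real.le_sqrt_of_sq_le ?_
    rw [Nat.card_eq_fintype_card] at h
    exact_mod_cast h

end Cfsg.Agent.S5732
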