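import Cfsg.Statements.S5736
import Cfsg.Agent.Lib.SL2.BinaryPSL

set_option autoImplicit false
set_option linter.style.haveILetI false
open Cfsg

namespace Cfsg.Agent.S5736

/-- Let F be a finite field with q ≥ 4 elements, q ≠ 5, let G = PSL₂(F) and let H be a proper subgroup of G. Then the action of G on the cosets of H is binary if and only if H is trivial, or q is a power of 2 and H is a Sylow 2-subgroup, or q = 2^a with a odd and H has order 3. Here an action is binary (relational complexity 2) when, for every n ≥ 2 and all n-tuples I, J of points, if for every pair of positions some group element carries the corresponding pair of entries of I to those of J, then a single group element carries I to J. -/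
theorem result {F : Type*} [Field F] [Fintype F] (h4 : 4 ≤ Fintype.card F) (h5 : Fintype.card F ≠ 5)
    (H : Subgroup (Matrix.ProjectiveSpecialLinearGroup (Fin 2) F)) (hH : H ≠ ⊤) :
    (∀ (n : ℕ) (I J : Fin n → Matrix.ProjectiveSpecialLinearGroup (Fin 2) F ⧸ H), 2 ≤ n →
        (∀ i j : Fin n, i ≠ j → ∃ g : Matrix.ProjectiveSpecialLinearGroup (Fin 2) F, g • I i = J i ∧ g • I j = J j) → ∃ g : Matrix.ProjectiveSpecialLinearGroup (Fin 2) F, ∀ i, g • I i = J i) ↔
      (H = ⊥ ∨ ((∃ a : ℕ, Fintype.card F = 2 ^ a) ∧ ∃ P : Sylow 2 (Matrix.ProjectiveSpecialLinearGroup (Fin 2) F), H = P) ∨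
        ((∃ a : ℕ, Odd a ∧ Fintype.card F = 2 ^ a) ∧ Nat.card H = 3)) := by
  classical
  rw [← CfsgLib.Suzuki.binRep_iff]
  have h4' : 4 ≤ Nat.card F := by rwa [Nat.card_eq_fintype_card]
  have h5' : Nat.card F ≠ 5 := by rwa [Nat.card_eq_fintype_card]
  have hpow : (2 : F) = 0 → ∃ a : ℕ, Fintype.card F = 2 ^ a := by
    intro h2
    have : CharP F 2 := CharTwo.of_one_ne_zero_of_two_eq_zero one_ne_zero h2
    obtain ⟨n, -, hn⟩ := FiniteField.card F 2
    exact ⟨n, hn⟩
  have htwo : (∃ a : ℕ, Fintype.card F = 2 ^ a) → (2 : F) = 0 := by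
    rintro ⟨a, ha⟩
    have h := CfsgLib.SL2.cast_card_zero (F := F)
    rw [Nat.card_eq_fintype_card, ha, Nat.cast_pow] at h
    exact eq_zero_of_pow_eq_zero (by exact_mod_cast h)
  have hmod : ∀ a : ℕ, 2 ^ a % 3 = if Odd a then 2 else 1 := by
    intro a
    induction a with
    | zero => simp
    | succ n ih =>
      rw [pow_succ, Nat.mul_mod, ih]
      by_cases hn : Odd n <;> simp [hn, parity_simps]
  have hexc : (2 : F) = 0 → ((∀ l : F, l ^ 2 + l + 1 ≠ 0) ↔ ∃ a : ℕ, Odd a ∧ Fintype.card F = 2 ^ a) := by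
    intro h2
    obtain ⟨a, ha⟩ := hpow h2
    constructor
    · intro hno
      refine ⟨a, ?_, ha⟩
      by_contra hodd
      have h1 : Fintype.card F % 3 = 1 := by rw [ha, hmod, if_neg hodd]
      have hd : 3 ∣ Nat.card Fˣ := by
        rw [Nat.card_units, Nat.card_eq_fintype_card]; omega
      have : Fact (Nat.Prime 3) := ⟨Nat.prime_three⟩
      obtain ⟨x, hx⟩ := exists_prime_orderOf_dvd_card' 3 hd
      have hx3 : (x : F) ^ 3 = 1 := by
        rw [← Units.val_pow_eq_pow_val, ← hx, pow_orderOf_eq_one, Units.val_one]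
      have hx1 : (x : F) ≠ 1 := fun e => by
        rw [Units.val_eq_one] at e
        rw [e, orderOf_one] at hx
        omega
      exact hno x (mul_left_cancel₀ (sub_ne_zero.2 hx1) (by linear_combination hx3))
    · rintro ⟨b, hb, hb'⟩ l hl
      have h1 : Fintype.card F % 3 = 2 := by rw [hb', hmod, if_pos hb]
      have hl0 : l ≠ 0 := by rintro rfl; simp at hl
      have hl1 : l ≠ 1 := by
        rintro rfl
        exact one_ne_zero (α := F) (by linear_combination hl - h2)
      have : Fact (Nat.Prime 3) := ⟨Nat.prime_three⟩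
      have hord : orderOf (Units.mk0 l hl0) = 3 := orderOf_eq_prime
        (Units.ext (by simp; linear_combination (l - 1) * hl)) (fun e => hl1 (congrArg Units.val e))
      have hd := orderOf_dvd_natCard (Units.mk0 l hl0)
      rw [hord, Nat.card_units, Nat.card_eq_fintype_card] at hd
      omega
  by_cases h2 : (2 : F) = 0
  swap
  · constructor
    · intro hb
      exact Or.inl (by_contra fun hbot => CfsgLib.SL2.Binary.not_binRep_odd h4' h5' h2 hbot hH hb)
    · rintro (rfl | ⟨ha, -⟩ | ⟨⟨a, -, ha⟩, -⟩)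
      · exact CfsgLib.Suzuki.binRep_bot
      · exact absurd (htwo ha) h2
      · exact absurd (htwo ⟨a, ha⟩) h2
  have : CharP F 2 := CharTwo.of_one_ne_zero_of_two_eq_zero one_ne_zero h2
  have : Fact (Nat.Prime 2) := ⟨Nat.prime_two⟩
  let P₀ : Sylow 2 (Matrix.ProjectiveSpecialLinearGroup (Fin 2) F) :=
    (CfsgLib.ClassicalLinear.upperSLSylow (F := F) (p := 2)).mapSurjective CfsgLib.SL2.Dickson.proj_surjective
  have hP₀ : ∀ y, y ∈ (P₀ : Subgroup _) ↔
      ∃ b, y = CfsgLib.SL2.Dickson.proj (CfsgLib.ClassicalLinear.upS b : Matrix.SpecialLinearGroup (Fin 2) F) := by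
    intro y
    constructor
    · rintro ⟨W, ⟨b, rfl⟩, rfl⟩; exact ⟨b, rfl⟩
    · rintro ⟨b, rfl⟩; exact ⟨_, ⟨b, rfl⟩, rfl⟩
  constructor
  · intro hb
    by_cases hbot : H = ⊥
    · exact Or.inl hbot
    right
    rcases CfsgLib.SL2.Binary.binRep_even_cases h4' h5' h2 hb hbot hH with ⟨k, hk⟩ | ⟨hno, hc⟩
    · refine Or.inl ⟨hpow h2, k⁻¹ • P₀, ?_⟩
      ext y
      rw [hk, ← hP₀, Sylow.coe_subgroup_smul, Subgroup.mem_pointwise_smul_iff_inv_smul_mem]
      simp [MulAut.smul_def]
    · exact Or.inr ⟨(hexc h2).1 hno, hc⟩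
  · rintro (rfl | ⟨-, P, rfl⟩ | ⟨ha, hc⟩)
    · exact CfsgLib.Suzuki.binRep_bot
    · obtain ⟨g, rfl⟩ := MulAction.exists_smul_eq (Matrix.ProjectiveSpecialLinearGroup (Fin 2) F) P₀ P
      have he : ((g • P₀ : Sylow 2 _) : Subgroup (Matrix.ProjectiveSpecialLinearGroup (Fin 2) F)) =
          (P₀ : Subgroup _).map (MulAut.conj g).toMonoidHom := rfl
      rw [he, CfsgLib.Suzuki.binRep_map_iff]
      exact CfsgLib.SL2.Binary.binRep_translations h2 hP₀
    · exact CfsgLib.SL2.Binary.binRep_three h2 ((hexc h2).2 ha) hc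

end Cfsg.Agent.S5736
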