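import Cfsg.Statements.S5737
import Cfsg.Agent.Lib.Suzuki.BinaryEven
import Cfsg.Agent.Lib.Suzuki.LieBridge

set_option autoImplicit false
open Cfsg

namespace Cfsg.Agent.S5737

/-- Let G = Sz(q) be a Suzuki group, q = 2^(2a+1) with a ≥ 1 (realised inside Sp₄ over the field with q elements), and let H be a proper subgroup of G. Then the action of G on the cosets of H is binary if and only if H is trivial or H is the centre of a Sylow 2-subgroup of G. Here an action is binary (relational complexity 2) when, for every n ≥ 2 and all n-tuples I, J of points, if for every pair of positions some group element carries the corresponding pair of entries of I to those of J, then a single group element carries I to J. -/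
theorem result {F : Type*} [Field F] [Fintype F] (a : ℕ) (ha : 1 ≤ a) (hF : Fintype.card F = 2 ^ (2 * a + 1))
    (H : Subgroup (Cfsg.Lie.Sz F (2 ^ (a + 1)))) (hH : H ≠ ⊤) :
    (∀ (n : ℕ) (I J : Fin n → (Cfsg.Lie.Sz F (2 ^ (a + 1))) ⧸ H), 2 ≤ n →
        (∀ i j : Fin n, i ≠ j → ∃ g : (Cfsg.Lie.Sz F (2 ^ (a + 1))), g • I i = J i ∧ g • I j = J j) → ∃ g : (Cfsg.Lie.Sz F (2 ^ (a + 1))), ∀ i, g • I i = J i) ↔
      (H = ⊥ ∨ ∃ P : Sylow 2 (Cfsg.Lie.Sz F (2 ^ (a + 1))), H = (Subgroup.center (P : Subgroup (Cfsg.Lie.Sz F (2 ^ (a + 1))))).map (P : Subgroup (Cfsg.Lie.Sz F (2 ^ (a + 1)))).subtype) := by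
  classical
  have h : CfsgLib.Suzuki.Hyp F a := .of_fintype ha hF
  have := h.finite_group
  have : Fact (Nat.Prime 2) := ⟨Nat.prime_two⟩
  have : Finite (Cfsg.Lie.Sz F (2 ^ (a + 1))) := Finite.of_equiv _ h.lieEquiv.toEquiv
  rw [← CfsgLib.Suzuki.binRep_iff]
  set ε := h.lieEquiv with hε
  have hsurj : ∀ y, ∃ x, ε x = y := ε.surjective
  obtain ⟨H₀, rfl⟩ : ∃ H₀ : Subgroup (Cfsg.Sz F a), H = H₀.map ε.toMonoidHom :=
    ⟨H.comap ε.toMonoidHom, (Subgroup.map_comap_eq_self_of_surjective ε.surjective H).symm⟩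
  rw [CfsgLib.Suzuki.binRep_map_iff]
  have hH₀ : H₀ ≠ ⊤ := fun e => hH (by rw [e]; exact Subgroup.map_top_of_surjective _ ε.surjective)
  -- transport of Sylow centres
  have hiff : (∃ P : Sylow 2 (Cfsg.Lie.Sz F (2 ^ (a + 1))), H₀.map ε.toMonoidHom =
      (Subgroup.center (P : Subgroup (Cfsg.Lie.Sz F (2 ^ (a + 1))))).map
        (P : Subgroup (Cfsg.Lie.Sz F (2 ^ (a + 1)))).subtype) ↔
      ∃ P : Sylow 2 (Cfsg.Sz F a), H₀ = (Subgroup.center (P : Subgroup (Cfsg.Sz F a))).map
        (P : Subgroup (Cfsg.Sz F a)).subtype := by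
    have key : ∀ K : Subgroup (Cfsg.Sz F a),
        (Subgroup.center (K.map ε.toMonoidHom : Subgroup _)).map (K.map ε.toMonoidHom : Subgroup _).subtype =
          ((Subgroup.center K).map K.subtype).map ε.toMonoidHom := by
      intro K
      ext y
      obtain ⟨x, rfl⟩ := ε.surjective y
      have hmem : ∀ z, ε z ∈ K.map ε.toMonoidHom ↔ z ∈ K := fun z => by
        rw [Subgroup.mem_map_equiv, MulEquiv.symm_apply_apply]
      rw [Subgroup.mem_map_equiv, MulEquiv.symm_apply_apply]
      constructor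
      · rintro ⟨⟨z, hz⟩, hzc, he⟩
        obtain rfl : z = ε x := he
        refine ⟨⟨x, (hmem x).1 hz⟩, Subgroup.mem_center_iff.2 fun w => ?_, rfl⟩
        have := congrArg Subtype.val (Subgroup.mem_center_iff.1 hzc ⟨ε (w : Cfsg.Sz F a), (hmem _).2 w.2⟩)
        refine Subtype.ext (ε.injective ?_)
        show ε ((w : Cfsg.Sz F a) * x) = ε (x * (w : Cfsg.Sz F a))
        rw [map_mul, map_mul]
        exact this
      · rintro ⟨⟨z, hz⟩, hzc, he⟩
        obtain rfl : z = x := he
        refine ⟨⟨ε z, (hmem z).2 hz⟩, Subgroup.mem_center_iff.2 ?_, rfl⟩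
        rintro ⟨w, hw⟩
        obtain ⟨w', rfl⟩ := ε.surjective w
        have := congrArg Subtype.val (Subgroup.mem_center_iff.1 hzc ⟨w', (hmem w').1 hw⟩)
        apply Subtype.ext
        show ε w' * ε z = ε z * ε w'
        rw [← map_mul, ← map_mul]
        exact congrArg ε this
    constructor
    · rintro ⟨P, hP⟩
      let P₀ : Sylow 2 (Cfsg.Sz F a) := P.mapSurjective (f := ε.symm.toMonoidHom) ε.symm.surjective
      have hmap : (P : Subgroup (Cfsg.Lie.Sz F (2 ^ (a + 1)))) = (P₀ : Subgroup (Cfsg.Sz F a)).map ε.toMonoidHom := by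
        show _ = ((P : Subgroup (Cfsg.Lie.Sz F (2 ^ (a + 1)))).map ε.symm.toMonoidHom).map ε.toMonoidHom
        rw [Subgroup.map_map, show ε.toMonoidHom.comp ε.symm.toMonoidHom = MonoidHom.id _ from
          MonoidHom.ext fun x => ε.apply_symm_apply x, Subgroup.map_id]
      refine ⟨P₀, Subgroup.map_injective (f := ε.toMonoidHom) ε.injective ?_⟩
      rw [hP, ← key, hmap]
    · rintro ⟨P, hP⟩
      refine ⟨P.mapSurjective (f := ε.toMonoidHom) ε.surjective, ?_⟩
      rw [hP, ← key]
      rfl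
  rw [hiff, h.sylow_center_eq, Subgroup.map_eq_bot_iff_of_injective _ ε.injective]
  constructor
  · exact h.binRep_cases hH₀
  · rintro (rfl | ⟨k, rfl⟩)
    · exact CfsgLib.Suzuki.binRep_bot
    · exact h.binRep_Z.map _

end Cfsg.Agent.S5737
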