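import Cfsg.Statements.S5739
import Cfsg.Agent.Lib.Singer.Basic

set_option autoImplicit false
open Cfsg

namespace Cfsg.Agent.S5739

/-- Let F ⊆ K be finite fields with |F| = q and [K : F] = n ≥ 2, and let M ≤ GL_F(K) be the Singer group of multiplications by non-zero elements of K. If g ∈ GL_F(K) does not normalise M, then the order of M ∩ gMg⁻¹ divides q^r − 1 for some proper divisor r of n. In particular, when n is prime, that order divides q − 1. -/
theorem result {F K : Type*} [Field F] [Fintype F] [Field K] [Fintype K] [Algebra F K] (n : ℕ) (hn : 2 ≤ n) (hdim : Module.finrank F K = n)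
    (g : (Module.End F K)ˣ) (hg : ((Units.map ((Algebra.lmul F K : K →ₐ[F] Module.End F K) : K →* Module.End F K)).range).map (MulAut.conj g).toMonoidHom ≠ (Units.map ((Algebra.lmul F K : K →ₐ[F] Module.End F K) : K →* Module.End F K)).range) :
    ∃ r : ℕ, 1 ≤ r ∧ r ∣ n ∧ r < n ∧ Nat.card ↥(((Units.map ((Algebra.lmul F K : K →ₐ[F] Module.End F K) : K →* Module.End F K)).range).map (MulAut.conj g).toMonoidHom ⊓ (Units.map ((Algebra.lmul F K : K →ₐ[F] Module.End F K) : K →* Module.End F K)).range) ∣ Fintype.card F ^ r - 1 := by
  haveI : FiniteDimensional F K := Module.Finite.of_finite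
  haveI : FiniteDimensional F (CfsgLib.Singer.stableField g) := Module.Finite.of_finite
  haveI : Finite (Module.End F K) := Module.finite_of_finite F
  set E := CfsgLib.Singer.stableField g with hE
  have hdvd : Module.finrank F E ∣ n := by
    rw [← hdim, ← Module.finrank_mul_finrank F E K]
    exact dvd_mul_right _ _
  have hcard : Nat.card E = Fintype.card F ^ Module.finrank F E := by
    rw [Module.natCard_eq_pow_finrank (K := F), Nat.card_eq_fintype_card]
  refine ⟨Module.finrank F E, Module.finrank_pos, hdvd, ?_, ?_⟩
  · refine lt_of_le_of_ne (Nat.le_of_dvd (by omega) hdvd) fun e => hg ?_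
    have h := CfsgLib.Singer.card_inf g
    have hK : Fintype.card K = Fintype.card F ^ n := by rw [← hdim]; exact Module.card_eq_pow_finrank
    rw [← hE, hcard, e, ← hK, ← CfsgLib.Singer.card_cycle (F := F)] at h
    have h1 := Subgroup.eq_of_le_of_card_ge inf_le_right (le_of_eq h.symm)
    refine (Subgroup.eq_of_le_of_card_ge (inf_eq_right.1 h1) (le_of_eq ?_)).symm
    exact Subgroup.card_map_of_injective (MulAut.conj g).injective
  · rw [← hcard]
    exact dvd_of_eq (CfsgLib.Singer.card_inf g)

end Cfsg.Agent.S5739
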