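import Cfsg.Statements.S5747
-- import your own Cfsg.Agent.* helpers here

set_option autoImplicit false
open Cfsg

namespace Cfsg.Agent.S5747

variable {G Ω : Type*} [Group G] [MulAction G Ω]

/-- Each point is moved by an element fixing the previous ones. -/
def Irr (G : Type*) [Group G] [MulAction G Ω] {t : ℕ} (f : Fin t → Ω) : Prop :=
  ∀ i : Fin t, ∃ g : G, (∀ j : Fin t, j < i → g • f j = f j) ∧ g • f i ≠ f i

/-- The pointwise stabiliser is trivial. -/
def Base (G : Type*) [Group G] [MulAction G Ω] {t : ℕ} (f : Fin t → Ω) : Prop :=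
  ∀ g : G, (∀ i : Fin t, g • f i = f i) → g = 1

theorem Irr.injective {t : ℕ} {f : Fin t → Ω} (h : Irr G f) : Function.Injective f := by
  intro i j hij
  by_contra hne
  rcases lt_or_gt_of_ne hne with hlt | hlt
  · obtain ⟨g, hg, hg'⟩ := h j
    exact hg' (by rw [← hij]; exact hg i hlt)
  · obtain ⟨g, hg, hg'⟩ := h i
    exact hg' (by rw [hij]; exact hg j hlt)

theorem Irr.snoc {t : ℕ} {f : Fin t → Ω} (h : Irr G f) {y : Ω} {g : G}
    (hg : ∀ i, g • f i = f i) (hy : g • y ≠ y) : Irr G (Fin.snoc f y : Fin (t + 1) → Ω) := by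
  intro i
  induction i using Fin.lastCases with
  | last =>
    refine ⟨g, fun j hj => ?_, by simpa using hy⟩
    induction j using Fin.lastCases with
    | last => exact absurd hj (lt_irrefl _)
    | cast j => simpa using hg j
  | cast i =>
    obtain ⟨u, hu, hu'⟩ := h i
    refine ⟨u, fun j hj => ?_, by simpa using hu'⟩
    induction j using Fin.lastCases with
    | last => exact absurd hj (by simp [Fin.le_last, not_lt])
    | cast j => simpa using hu j (by simpa using hj)

/-- A set of points with trivial stabiliser in which every point is moved by an element fixing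
all the others. -/
def Good (G : Type*) [Group G] [MulAction G Ω] (B : Finset Ω) : Prop :=
  (∀ g : G, (∀ w ∈ B, g • w = w) → g = 1) ∧
    ∀ x ∈ B, ∃ g : G, (∀ w ∈ B, w ≠ x → g • w = w) ∧ g • x ≠ x

/-- Every reordering of an irredundant base is an irredundant base. -/
def Reorder (G Ω : Type*) [Group G] [MulAction G Ω] : Prop :=
  ∀ (t : ℕ) (f : Fin t → Ω) (σ : Equiv.Perm (Fin t)), (Base G f ∧ Irr G f) →
    (Base G (f ∘ σ) ∧ Irr G (f ∘ σ))

theorem good_of_irr [DecidableEq Ω] (H : Reorder G Ω) {t : ℕ} {f : Fin t → Ω} (hb : Base G f)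
    (hi : Irr G f) : Good G (Finset.univ.image f) := by
  refine ⟨fun g hg => hb g fun i => hg _ (Finset.mem_image_of_mem _ (Finset.mem_univ i)),
    fun x hx => ?_⟩
  obtain ⟨i, -, rfl⟩ := Finset.mem_image.1 hx
  obtain ⟨k, rfl⟩ : ∃ k, t = k + 1 := ⟨t - 1, by have := i.pos; omega⟩
  obtain ⟨g, hg, hg'⟩ := (H _ f (Equiv.swap i (Fin.last k)) ⟨hb, hi⟩).2 (Fin.last k)
  refine ⟨g, fun w hw hwne => ?_, ?_⟩
  · obtain ⟨j, -, rfl⟩ := Finset.mem_image.1 hw
    have hji : j ≠ i := fun e => hwne (by rw [e])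
    have hlt : Equiv.swap i (Fin.last k) j < Fin.last k := by
      refine lt_of_le_of_ne (Fin.le_last _) fun e => hji ?_
      have := congrArg (Equiv.swap i (Fin.last k)) e
      rwa [Equiv.swap_apply_self, Equiv.swap_apply_right] at this
    have := hg _ hlt
    simpa only [Function.comp, Equiv.swap_apply_self] using this
  · simpa only [Function.comp, Equiv.swap_apply_right] using hg'

theorem irr_enum (E : Finset Ω) (hE : ∀ x ∈ E, ∃ g : G, (∀ w ∈ E, w ≠ x → g • w = w) ∧ g • x ≠ x) :
    ∃ f : Fin E.card → Ω, Irr G f ∧ (∀ i, f i ∈ E) ∧ ∀ w ∈ E, ∃ i, f i = w := by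
  refine ⟨fun i => (E.equivFin.symm i).1, fun i => ?_, fun i => (E.equivFin.symm i).2,
    fun w hw => ⟨E.equivFin ⟨w, hw⟩, by simp⟩⟩
  obtain ⟨g, hg, hg'⟩ := hE _ (E.equivFin.symm i).2
  exact ⟨g, fun j hj => hg _ (E.equivFin.symm j).2
    (fun e => hj.ne (E.equivFin.symm.injective (Subtype.ext e))), hg'⟩

theorem exchange [DecidableEq Ω] (H : Reorder G Ω) {B C : Finset Ω} (hB : Good G B)
    (hC : Good G C) {x : Ω} (hx : x ∈ B) (hxC : x ∉ C) :
    ∃ y ∈ C, y ∉ B ∧ Good G (insert y (B.erase x)) := by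
  obtain ⟨g, hg, hgx⟩ := hB.2 x hx
  have hg1 : g ≠ 1 := fun e => hgx (by rw [e, one_smul])
  obtain ⟨y, hyC, hgy⟩ : ∃ y ∈ C, g • y ≠ y := by
    by_contra hno
    push Not at hno
    exact hg1 (hC.1 g hno)
  have hyB : y ∉ B := fun hy => hgy (hg y hy (fun e => hxC (e ▸ hyC)))
  have hE : ∀ z ∈ B.erase x, ∃ u : G, (∀ w ∈ B.erase x, w ≠ z → u • w = w) ∧ u • z ≠ z := by
    intro z hz
    obtain ⟨u, hu, hu'⟩ := hB.2 z (Finset.mem_of_mem_erase hz)
    exact ⟨u, fun w hw hwz => hu w (Finset.mem_of_mem_erase hw) hwz, hu'⟩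
  obtain ⟨f, hf, hfE, hfs⟩ := irr_enum _ hE
  have hgf : ∀ i, g • f i = f i := fun i =>
    hg _ (Finset.mem_of_mem_erase (hfE i)) (Finset.ne_of_mem_erase (hfE i))
  have hfy := hf.snoc hgf hgy
  refine ⟨y, hyC, hyB, ?_⟩
  by_cases hbase : Base G (Fin.snoc f y : Fin (_ + 1) → Ω)
  · have h := good_of_irr H hbase hfy
    convert h using 1
    ext w
    simp only [Finset.mem_insert, Finset.mem_image, Finset.mem_univ, true_and]
    constructor
    · rintro (rfl | hw)
      · exact ⟨Fin.last _, by simp⟩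
      · obtain ⟨i, rfl⟩ := hfs w hw
        exact ⟨i.castSucc, by simp⟩
    · rintro ⟨i, rfl⟩
      induction i using Fin.lastCases with
      | last => simp
      | cast i => simp [hfE i]
  · exfalso
    simp only [Base] at hbase
    push Not at hbase
    obtain ⟨u, hu, hu1⟩ := hbase
    have huf : ∀ i, u • f i = f i := fun i => by simpa using hu i.castSucc
    have hux : u • x ≠ x := by
      intro e
      apply hu1
      refine hB.1 u fun w hw => ?_
      by_cases hwx : w = x
      · rw [hwx, e]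
      · obtain ⟨i, rfl⟩ := hfs w (Finset.mem_erase.2 ⟨hwx, hw⟩)
        exact huf i
    have h2 := hfy.snoc hu hux
    have hb2 : Base G (Fin.snoc (Fin.snoc f y : Fin (_ + 1) → Ω) x : Fin (_ + 1 + 1) → Ω) := by
      intro v hv
      refine hB.1 v fun w hw => ?_
      by_cases hwx : w = x
      · rw [hwx]; simpa using hv (Fin.last _)
      · obtain ⟨i, rfl⟩ := hfs w (Finset.mem_erase.2 ⟨hwx, hw⟩)
        simpa using hv i.castSucc.castSucc
    have hgood := good_of_irr H hb2 h2
    obtain ⟨v, hv, hvy⟩ := hgood.2 y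
      (Finset.mem_image.2 ⟨(Fin.last _).castSucc, Finset.mem_univ _, by simp⟩)
    apply hvy
    rw [hB.1 v fun w hw => hv w ?_ (fun e => hyB (e ▸ hw)), one_smul]
    by_cases hwx : w = x
    · exact Finset.mem_image.2 ⟨Fin.last _, Finset.mem_univ _, by simp [hwx]⟩
    · obtain ⟨i, rfl⟩ := hfs w (Finset.mem_erase.2 ⟨hwx, hw⟩)
      exact Finset.mem_image.2 ⟨i.castSucc.castSucc, Finset.mem_univ _, by simp⟩

theorem card_eq_of_good [DecidableEq Ω] (H : Reorder G Ω) : ∀ (n : ℕ) (B C : Finset Ω),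
    (B \ C).card = n → Good G B → Good G C → B.card = C.card := by
  intro n
  induction n using Nat.strong_induction_on with
  | _ n ih =>
    intro B C hn hB hC
    by_cases hsub : B ⊆ C
    · congr 1
      refine Finset.Subset.antisymm hsub fun z hz => ?_
      by_contra hzB
      obtain ⟨g, hg, hg'⟩ := hC.2 z hz
      exact hg' (by rw [hB.1 g fun w hw => hg w (hsub hw) (fun e => hzB (e ▸ hw)), one_smul])
    · obtain ⟨x, hx, hxC⟩ := Finset.not_subset.1 hsub
      obtain ⟨y, hyC, hyB, hgood⟩ := exchange H hB hC hx hxC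
      have hcard : (insert y (B.erase x)).card = B.card := by
        rw [Finset.card_insert_of_notMem (fun h => hyB (Finset.mem_of_mem_erase h)),
          Finset.card_erase_add_one hx]
      rw [← hcard]
      refine ih _ ?_ _ C rfl hgood hC
      rw [← hn]
      refine Finset.card_lt_card ⟨fun w hw => ?_, fun h => ?_⟩
      · simp only [Finset.mem_sdiff, Finset.mem_insert, Finset.mem_erase] at hw ⊢
        rcases hw with ⟨rfl | hw, hwC⟩
        · exact absurd hyC hwC
        · exact ⟨hw.2, hwC⟩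
      · have hh := h (Finset.mem_sdiff.2 ⟨hx, hxC⟩)
        simp only [Finset.mem_sdiff, Finset.mem_insert, Finset.mem_erase] at hh
        rcases hh.1 with e | e
        · exact hyB (e ▸ hx)
        · exact e.1 rfl

/-- Let a finite group G act on a finite set Ω. An irredundant base is a sequence of points ω₁, …, ω_t whose pointwise stabiliser is trivial and in which each ω_i is moved by some element fixing ω₁, …, ω_{i−1}. Then all irredundant bases have the same length if and only if every reordering of an irredundant base is again an irredundant base. -/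
theorem result {G Ω : Type*} [Group G] [Finite G] [MulAction G Ω] [Fintype Ω] :
    (∀ (t t' : ℕ) (f : Fin t → Ω) (f' : Fin t' → Ω), ((∀ g : G, (∀ i : Fin t, g • f i = f i) → g = 1) ∧ ∀ i : Fin t, ∃ g : G, (∀ j : Fin t, j < i → g • f j = f j) ∧ g • f i ≠ f i) → ((∀ g : G, (∀ i : Fin t', g • f' i = f' i) → g = 1) ∧ ∀ i : Fin t', ∃ g : G, (∀ j : Fin t', j < i → g • f' j = f' j) ∧ g • f' i ≠ f' i) → t = t') ↔
    (∀ (t : ℕ) (f : Fin t → Ω) (σ : Equiv.Perm (Fin t)), ((∀ g : G, (∀ i : Fin t, g • f i = f i) → g = 1) ∧ ∀ i : Fin t, ∃ g : G, (∀ j : Fin t, j < i → g • f j = f j) ∧ g • f i ≠ f i) → ((∀ g : G, (∀ i : Fin t, g • (f ∘ σ) i = (f ∘ σ) i) → g = 1) ∧ ∀ i : Fin t, ∃ g : G, (∀ j : Fin t, j < i → g • (f ∘ σ) j = (f ∘ σ) j) ∧ g • (f ∘ σ) i ≠ (f ∘ σ) i)) := by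
  classical
  constructor
  · intro H t f σ ⟨hb, hi⟩
    have hb' : ∀ g : G, (∀ i : Fin t, g • (f ∘ σ) i = (f ∘ σ) i) → g = 1 := fun g hg =>
      hb g fun i => by simpa using hg (σ.symm i)
    refine ⟨hb', ?_⟩
    let S : Finset (Fin t) := Finset.univ.filter fun i =>
      ∃ g : G, (∀ j : Fin t, j < i → g • (f ∘ σ) j = (f ∘ σ) j) ∧ g • (f ∘ σ) i ≠ (f ∘ σ) i
    have hfix : ∀ g : G, ∀ b : Fin t,
        (∀ j ∈ S, j < b → g • (f ∘ σ) j = (f ∘ σ) j) →
        ∀ j, j < b → g • (f ∘ σ) j = (f ∘ σ) j := by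
      intro g b hg j
      induction j using WellFoundedLT.induction with
      | _ j ih =>
        intro hjb
        by_cases hjS : j ∈ S
        · exact hg j hjS hjb
        · by_contra hne
          exact hjS (Finset.mem_filter.2
            ⟨Finset.mem_univ _, g, fun k hk => ih k hk (hk.trans hjb), hne⟩)
    let e := S.orderEmbOfFin rfl
    have hcard : t = S.card := by
      refine H t S.card f (fun i => (f ∘ σ) (e i)) ⟨hb, hi⟩ ⟨fun g hg => hb' g fun i => ?_, fun i => ?_⟩
      · have hS : ∀ j ∈ S, g • (f ∘ σ) j = (f ∘ σ) j := by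
          intro j hj
          obtain ⟨k, hk⟩ : j ∈ Set.range e := by
            rw [Finset.range_orderEmbOfFin]; exact hj
          rw [← hk]; exact hg k
        by_cases hiS : i ∈ S
        · exact hS i hiS
        · by_contra hne
          exact hiS (Finset.mem_filter.2
            ⟨Finset.mem_univ _, g, hfix g i (fun j hj _ => hS j hj), hne⟩)
      · obtain ⟨g, hg, hg'⟩ := (Finset.mem_filter.1 (S.orderEmbOfFin_mem rfl i)).2
        exact ⟨g, fun j hj => hg _ (e.lt_iff_lt.2 hj), hg'⟩
    intro i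
    have hSu : S = Finset.univ := Finset.eq_univ_of_card _ (by simp [← hcard])
    have hiS : i ∈ S := hSu ▸ Finset.mem_univ i
    exact (Finset.mem_filter.1 hiS).2
  · intro H t t' f f' hf hf'
    have h := card_eq_of_good H _ _ _ rfl (good_of_irr H hf.1 hf.2) (good_of_irr H hf'.1 hf'.2)
    rwa [Finset.card_image_of_injective _ (Irr.injective hf.2),
      Finset.card_image_of_injective _ (Irr.injective hf'.2), Finset.card_fin,
      Finset.card_fin] at h

end Cfsg.Agent.S5747
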