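import Cfsg.Statements.S5751
import Cfsg.Agent.Lib.Chevalley.IteratedCores

set_option autoImplicit false
open Cfsg

namespace Cfsg.Agent.S5751

open Cfsg.Lie CfsgLib.Chevalley CfsgLib.IterCore

/-- The node of mark six. -/
def node : Fin chevE8.rank := ⟨3, by decide⟩

theorem fullE8 : Full chevE8 auxE8 := ⟨⟨cert_E8, posE8, by simp⟩, extraE8⟩

set_option maxRecDepth 100000 in
theorem dataE8 : CoreData chevE8 auxE8 node :=
  ⟨by decide +kernel, by decide +kernel, by decide +kernel⟩

/-- A reflection path from the highest root to the negative of the root of the node. -/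
def path : List (Fin chevE8.rank) :=
  [7, 6, 5, 4, 3, 1, 2, 0, 3, 2, 4, 3, 1, 5, 4, 3, 2, 0, 6, 5, 4, 3, 1, 2, 7, 6, 5, 4, 3].map
    fun i : Fin 8 => Fin.cast (by decide) i

set_option maxRecDepth 100000 in
theorem path_spec : path.count node = 6 ∧
    path.foldl (fun q i => chevE8.reflectRoot i q) (chevE8.nroots - 1) =
      chevE8.neg (chevE8.simple node) := by
  decide +kernel

set_option maxRecDepth 100000 in
theorem top_level : chevE8.nroots - 1 < chevE8.nroots ∧
    decide (((5 : ℕ) : ℤ) + 1 ≤ crd auxE8 node (chevE8.nroots - 1)) = true := by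
  decide +kernel

/-- An extremal example for iterated cores of conjugate maximal subgroups: there exist a finite group G and two distinct conjugate maximal subgroups M₁, M₂ of G, with M₁ having trivial core in G, such that, if we define two descending sequences of subgroups by A₀ = M₁, B₀ = M₂ and, for every i, A_{i+1} = the core in M₁ of A_i ∩ B_i and B_{i+1} = the core in M₂ of A_i ∩ B_i (the core in M of a subgroup Y ≤ M is the largest normal subgroup of M contained in Y), the subgroup A₆ is trivial while A₅ is not (so the index 6 cannot be lowered to 5). (One example is a maximal parabolic subgroup of the Chevalley group of type E₈ over a finite field and a suitable conjugate of it.) -/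
theorem result :
    ∃ (G : Type) (_ : Group G) (_ : Finite G) (M₁ M₂ : Subgroup G) (g : G) (A B : ℕ → Subgroup G),
      IsCoatom M₁ ∧ M₂ = M₁.map (MulAut.conj g).toMonoidHom ∧ M₁ ≠ M₂ ∧ M₁.normalCore = ⊥ ∧ A 0 = M₁ ∧ B 0 = M₂ ∧
      (∀ i, A (i + 1) = ((A i ⊓ B i).subgroupOf M₁).normalCore.map M₁.subtype) ∧
      (∀ i, B (i + 1) = ((A i ⊓ B i).subgroupOf M₂).normalCore.map M₂.subtype) ∧ A 6 = ⊥ ∧ A 5 ≠ ⊥ := by
  have h := fullE8
  refine ⟨chevE8.group (ZMod 2), inferInstance, inferInstance, maxPar node, _, nEl h node,
    seqA (maxPar node) (nEl h node),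
    fun k => (seqA (maxPar node) (nEl h node) k).map (MulAut.conj (nEl h node)).toMonoidHom,
    isCoatom_maxPar h, rfl, map_conj_ne h, ?_, seqA_zero _ _, congrArg _ (seqA_zero _ _),
    fun i => seqA_succ _ _ i, fun i => seqB_succ (nEl_inv h node) i, ?_, ?_⟩
  · have hs := (simpleE8 (F := ZMod 2)).1
    refine (Subgroup.normalCore_normal (maxPar node)).eq_bot_or_eq_top.resolve_right fun e => ?_
    exact (isCoatom_maxPar h).1 (top_le_iff.1 (e ▸ Subgroup.normalCore_le _))
  · have := seqA_eq_bot h dataE8 path path_spec.2
    rwa [path_spec.1] at this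
  · intro e
    have hmem := xEl_mem_seqA h dataE8 (k := 5) top_level.1 (of_decide_eq_true top_level.2)
    rw [e, Subgroup.mem_bot] at hmem
    exact xEl_ne_one h top_level.1 hmem

end Cfsg.Agent.S5751
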