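import Cfsg.Statements.S5752
import Cfsg.Agent.Lib.OrderDegrees.ThompsonWielandtPair

set_option autoImplicit false
open Cfsg

namespace Cfsg.Agent.S5752

open CfsgLib.OrderDegrees.ThompsonWielandt CfsgLib.OrderDegrees.ThompsonWielandtPair

variable {G : Type*} [Group G]

theorem core_le {M X : Subgroup G} : (X.subgroupOf M).normalCore.map M.subtype ≤ X := by
  rintro _ ⟨y, hy, rfl⟩
  exact (Subgroup.normalCore_le (X.subgroupOf M)) hy

theorem core_normal {M X : Subgroup G} :
    M ≤ Subgroup.normalizer (((X.subgroupOf M).normalCore.map M.subtype : Subgroup G) : Set G) := by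
  refine le_normalizer_of_conj_mem fun m hm g hg => ?_
  obtain ⟨y, hy, rfl⟩ := hg
  exact ⟨⟨m, hm⟩ * y * ⟨m, hm⟩⁻¹, (Subgroup.normalCore_normal _).conj_mem y hy ⟨m, hm⟩, rfl⟩

theorem le_core {M X Y : Subgroup G} (hY : Y ≤ M) (hYX : Y ≤ X)
    (hn : M ≤ Subgroup.normalizer (Y : Set G)) : Y ≤ (X.subgroupOf M).normalCore.map M.subtype := by
  haveI := Subgroup.normal_subgroupOf_of_le_normalizer hn
  intro y hy
  have h : Y.subgroupOf M ≤ (X.subgroupOf M).normalCore :=
    Subgroup.normal_le_normalCore.2 (Subgroup.comap_mono hYX)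
  exact ⟨⟨y, hY hy⟩, h hy, rfl⟩

theorem normalizer_eq {M X : Subgroup G} (hmax : IsCoatom M) (hcore : M.normalCore = ⊥)
    (hne : X ≠ ⊥) (hle : X ≤ M) (hn : M ≤ Subgroup.normalizer (X : Set G)) :
    Subgroup.normalizer (X : Set G) = M := by
  rcases eq_or_lt_of_le hn with h | h
  · exact h.symm
  · exfalso
    haveI : X.Normal := Subgroup.normalizer_eq_top_iff.1 (hmax.2 _ h)
    exact hne (le_bot_iff.1 (hcore ▸ Subgroup.normal_le_normalCore.2 hle))

/-- A form of the Thompson–Wielandt Theorem on primitive permutation groups. Let G be a finite group and M₁, M₂ two distinct conjugate maximal subgroups of G with trivial core in G; define two descending sequences of subgroups by A₀ = M₁, B₀ = M₂ and, for every i, A_{i+1} = the core in M₁ of A_i ∩ B_i and B_{i+1} = the core in M₂ of A_i ∩ B_i (the core in M of a subgroup Y ≤ M is the largest normal subgroup of M contained in Y). If A₂ and B₂ are both non-trivial, then for some prime p the subgroup generated by A₂ and B₂ is a p-group,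 and for each j the generalized Fitting subgroups of M_j and of its first core (A₁, resp. B₁) are their largest normal p-subgroups. -/
theorem result {G : Type*} [Group G] [Finite G] (M₁ M₂ : Subgroup G) (hmax : IsCoatom M₁) (g : G)
    (hconj : M₂ = M₁.map (MulAut.conj g).toMonoidHom) (hne : M₁ ≠ M₂) (hcore : M₁.normalCore = ⊥)
    (A B : ℕ → Subgroup G) (hA0 : A 0 = M₁) (hB0 : B 0 = M₂)
    (hA : ∀ i, A (i + 1) = ((A i ⊓ B i).subgroupOf M₁).normalCore.map M₁.subtype)
    (hB : ∀ i, B (i + 1) = ((A i ⊓ B i).subgroupOf M₂).normalCore.map M₂.subtype) (hA2 : A 2 ≠ ⊥) (hB2 : B 2 ≠ ⊥) :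
    ∃ p : ℕ, p.Prime ∧ IsPGroup p ↥(A 2 ⊔ B 2) ∧
      Cfsg.generalizedFittingSubgroup ↥M₁ = Cfsg.pCore p ↥M₁ ∧ Cfsg.generalizedFittingSubgroup ↥(A 1) = Cfsg.pCore p ↥(A 1) ∧
      Cfsg.generalizedFittingSubgroup ↥M₂ = Cfsg.pCore p ↥M₂ ∧ Cfsg.generalizedFittingSubgroup ↥(B 1) = Cfsg.pCore p ↥(B 1) := by
  have hA1 : A 1 = ((M₁ ⊓ M₂).subgroupOf M₁).normalCore.map M₁.subtype := by rw [hA 0, hA0, hB0]
  have hB1 : B 1 = ((M₁ ⊓ M₂).subgroupOf M₂).normalCore.map M₂.subtype := by rw [hB 0, hA0, hB0]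
  have hmax2 : IsCoatom M₂ := by
    subst hconj
    exact ((MulAut.conj g).mapSubgroup.isCoatom_iff M₁).2 hmax
  have hcore2 : M₂.normalCore = ⊥ := by
    refine le_bot_iff.1 (hcore ▸ ?_)
    refine Subgroup.normal_le_normalCore.2 fun x hx => ?_
    have hx' : g * x * g⁻¹ ∈ M₂.normalCore := (Subgroup.normalCore_normal M₂).conj_mem x hx g
    obtain ⟨y, hy, hyx⟩ := hconj ▸ Subgroup.normalCore_le M₂ hx'
    have : y = x := (MulAut.conj g).injective (by simpa using hyx)
    exact this ▸ hy
  have P : Pair M₁ M₂ (A 1) (B 1) (A 2) (B 2) :=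
    { max₁ := fun X => normalizer_eq hmax hcore
      max₂ := fun X => normalizer_eq hmax2 hcore2
      ne := hne
      A₁_le := hA1 ▸ core_le
      A₁_normal := hA1 ▸ core_normal
      A₁_univ := fun X h1 h2 => hA1 ▸ le_core (h1.trans inf_le_left) h1 h2
      B₁_le := hB1 ▸ (core_le.trans (le_of_eq (inf_comm _ _)))
      B₁_normal := hB1 ▸ core_normal
      B₁_univ := fun X h1 h2 =>
        hB1 ▸ le_core (h1.trans inf_le_left) (h1.trans (le_of_eq (inf_comm _ _))) h2
      A₂_le := by rw [hA 1]; exact core_le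
      A₂_normal := by rw [hA 1]; exact core_normal
      A₂_univ := fun X h1 h2 => by
        rw [hA 1]
        exact le_core (h1.trans (inf_le_left.trans (hA1 ▸ core_le.trans inf_le_left))) h1 h2
      A₂_ne := hA2
      B₂_le := by rw [hB 1]; exact core_le.trans (le_of_eq (inf_comm _ _))
      B₂_normal := by rw [hB 1]; exact core_normal
      B₂_univ := fun X h1 h2 => by
        rw [hB 1]
        exact le_core (h1.trans (inf_le_left.trans (hB1 ▸ core_le.trans inf_le_right)))
          (h1.trans (le_of_eq (inf_comm _ _))) h2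
      B₂_ne := hB2
      card_pc := fun s => by rw [hconj, card_pc_map] }
  exact P.main

end Cfsg.Agent.S5752
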