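import Cfsg.Statements.S5754
-- import your own Cfsg.Agent.* helpers here

set_option autoImplicit false
open Cfsg

namespace Cfsg.Agent.S5754

variable {F V : Type*} [Field F] [AddCommGroup V] [Module F V]

/-- The reflection in an anisotropic vector, as a linear equivalence. -/
theorem refl_exists (Q : QuadraticForm F V) (w : V) (hw : Q w ≠ 0) :
    ∃ s : Q.IsometryEquiv Q, ∀ x, s x = x - ((Q w)⁻¹ * QuadraticMap.polar Q x w) • w := by
  let f : V →ₗ[F] V :=
    { toFun := fun x => x - ((Q w)⁻¹ * QuadraticMap.polar Q x w) • w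
      map_add' := fun x y => by
        simp only [QuadraticMap.polar_add_left, mul_add, add_smul]; abel
      map_smul' := fun a x => by
        simp only [QuadraticMap.polar_smul_left, smul_eq_mul, RingHom.id_apply, smul_sub, smul_smul]
        congr 2; ring }
  have hpol : QuadraticMap.polar Q w w = 2 * Q w := by
    rw [QuadraticMap.polar_self]; simp [two_mul]
  have hinv : ∀ x, f (f x) = x := by
    intro x
    simp only [f, LinearMap.coe_mk, AddHom.coe_mk, QuadraticMap.polar_sub_left,
      QuadraticMap.polar_smul_left, smul_eq_mul, hpol]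
    rw [sub_sub, ← add_smul]
    have : (Q w)⁻¹ * QuadraticMap.polar Q x w +
        (Q w)⁻¹ * (QuadraticMap.polar Q x w - (Q w)⁻¹ * QuadraticMap.polar Q x w * (2 * Q w)) = 0 := by
      field_simp; ring
    rw [this, zero_smul, sub_zero]
  have hiso : ∀ x, Q (f x) = Q x := by
    intro x
    simp only [f, LinearMap.coe_mk, AddHom.coe_mk]
    rw [sub_eq_add_neg, ← neg_smul, QuadraticMap.map_add Q, QuadraticMap.map_smul,
      QuadraticMap.polar_smul_right]
    simp only [smul_eq_mul]
    field_simp
    ring
  exact ⟨{ toLinearEquiv := LinearEquiv.ofLinear f f (LinearMap.ext hinv) (LinearMap.ext hinv)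
           map_app' := hiso }, fun x => rfl⟩

theorem extend {ι : Type*} (Q : QuadraticForm F V) (hQ : Q.Anisotropic) (s : Finset ι) (v v' : ι → V)
    (i0 : ι) (h0 : v i0 = 0) (h0' : v' i0 = 0) (hd : ∀ i j, Q (v i - v j) = Q (v' i - v' j)) :
    ∃ φ : Q.IsometryEquiv Q, ∀ i ∈ s, φ (v i) = v' i := by
  classical
  have hnorm : ∀ i, Q (v i) = Q (v' i) := fun i => by simpa [h0, h0'] using hd i i0
  induction s using Finset.induction_on with
  | empty => exact ⟨QuadraticMap.IsometryEquiv.refl Q, by simp⟩
  | @insert a s ha ih =>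
    obtain ⟨φ, hφ⟩ := ih
    set w := v' a - φ (v a) with hw
    by_cases hw0 : w = 0
    · refine ⟨φ, fun i hi => ?_⟩
      rcases Finset.mem_insert.mp hi with rfl | hi
      · exact (sub_eq_zero.mp hw0).symm
      · exact hφ i hi
    have hQw : Q w ≠ 0 := fun h => hw0 (hQ w h)
    obtain ⟨r, hr⟩ := refl_exists Q w hQw
    refine ⟨φ.trans r, fun i hi => ?_⟩
    show r (φ (v i)) = v' i
    rcases Finset.mem_insert.mp hi with rfl | hi
    · have hb : QuadraticMap.polar Q (φ (v i)) w = - Q w := by
        rw [QuadraticMap.polar, show φ (v i) + w = v' i by rw [hw]; abel, φ.map_app, hnorm]; ring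
      rw [hr, hb, mul_neg, inv_mul_cancel₀ hQw, neg_one_smul, sub_neg_eq_add, hw]; abel
    · have hb : QuadraticMap.polar Q (φ (v i)) w = 0 := by
        have key : ∀ x y : V, QuadraticMap.polar Q x y = Q x + Q y - Q (y - x) := by
          intro x y
          have e := QuadraticMap.map_add Q (y - x) x
          rw [sub_add_cancel, QuadraticMap.polar_sub_left, QuadraticMap.polar_self,
            QuadraticMap.polar_comm Q y x] at e
          simp only [smul_eq_mul, two_smul] at e
          linear_combination -e
        rw [hw, QuadraticMap.polar_sub_right, key, key, hφ i hi, φ.map_app]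
        have e1 : Q (v' a - v' i) = Q (v a - v i) := (hd a i).symm
        have e2 : Q (φ (v a) - v' i) = Q (v a - v i) := by
          rw [← hφ i hi, ← map_sub, φ.map_app]
        rw [e1, e2, hnorm a]; ring
      rw [hr, hb, mul_zero, zero_smul, sub_zero, hφ i hi]

/-- Let V be a finite-dimensional vector space over a finite field F carrying an anisotropic quadratic form Q (Q(v) = 0 only for v = 0). Then the group of all maps v ↦ φ(v) + c, with φ an isometry of Q and c ∈ V, acts on V as a binary permutation group: given n ≥ 2 and two n-tuples u, u' of vectors such that every pair of corresponding entries of u is carried to that of u' by such a map, one such map carries u to u'. -/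
theorem result {F V : Type*} [Field F] [Finite F] [AddCommGroup V] [Module F V] [Module.Finite F V]
    (Q : QuadraticForm F V) (hQ : Q.Anisotropic) (n : ℕ) (hn : 2 ≤ n) (u u' : Fin n → V)
    (h2 : ∀ i j : Fin n, i ≠ j → ∃ (φ : Q.IsometryEquiv Q) (c : V), φ (u i) + c = u' i ∧ φ (u j) + c = u' j) :
    ∃ (φ : Q.IsometryEquiv Q) (c : V), ∀ i, φ (u i) + c = u' i := by
  obtain ⟨i0⟩ : Nonempty (Fin n) := ⟨⟨0, by omega⟩⟩
  set v : Fin n → V := fun i => u i - u i0 with hv
  set v' : Fin n → V := fun i => u' i - u' i0 with hv'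
  have hd : ∀ i j, Q (v i - v j) = Q (v' i - v' j) := by
    intro i j
    rcases eq_or_ne i j with rfl | hij
    · simp
    · obtain ⟨φ, c, h1, h2'⟩ := h2 i j hij
      have e1 : v i - v j = u i - u j := by simp [hv]
      have e2 : v' i - v' j = φ (u i - u j) := by
        rw [map_sub]; simp only [hv', ← h1, ← h2']; abel
      rw [e1, e2, φ.map_app]
  have hzero : v i0 = 0 ∧ v' i0 = 0 := by simp [hv, hv']
  obtain ⟨φ, hφ⟩ := extend Q hQ Finset.univ v v' i0 hzero.1 hzero.2 hd
  refine ⟨φ, u' i0 - φ (u i0), fun i => ?_⟩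
  have h := hφ i (Finset.mem_univ _)
  simp only [hv, hv', map_sub] at h
  calc φ (u i) + (u' i0 - φ (u i0)) = (φ (u i) - φ (u i0)) + u' i0 := by abel
    _ = u' i := by rw [h]; abel

end Cfsg.Agent.S5754
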