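import Cfsg.Statements.S5763
-- import your own Cfsg.Agent.* helpers here

set_option autoImplicit false
open Cfsg

namespace Cfsg.Agent.S5763

open Equiv

/-- The other point of the same pair. -/
def partner : Fin 8 → Fin 8 := ![1, 0, 3, 2, 5, 4, 7, 6]

/-- A point of the other pair of the same quad. -/
def cousin : Fin 8 → Fin 8 := ![2, 3, 0, 1, 6, 7, 4, 5]

/-- Sufficient condition to preserve pairs and quads. -/
def Chk (f : Fin 8 → ℕ) : Prop :=
  (∀ i, f i / 2 = f (partner i) / 2) ∧ ∀ i, f i / 4 = f (cousin i) / 4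

instance : DecidablePred Chk := fun _ => inferInstanceAs (Decidable (_ ∧ _))

/-- A permutation preserving the partitions into pairs and quads. -/
def Pres (σ : Perm (Fin 8)) : Prop :=
  (∀ i j : Fin 8, i.val / 2 = j.val / 2 → (σ i).val / 2 = (σ j).val / 2) ∧
    ∀ i j : Fin 8, i.val / 4 = j.val / 4 → (σ i).val / 4 = (σ j).val / 4

theorem pair_cases : ∀ i j : Fin 8, i.val / 2 = j.val / 2 → j = i ∨ j = partner i := by decide

theorem chk_of_six (f : Fin 8 → ℕ) (a : f 0 / 2 = f 1 / 2) (b : f 2 / 2 = f 3 / 2)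
    (c : f 4 / 2 = f 5 / 2) (d : f 6 / 2 = f 7 / 2) (e : f 0 / 4 = f 2 / 4)
    (g : f 4 / 4 = f 6 / 4) : Chk f := by
  constructor
  · intro i
    fin_cases i
    · exact a
    · exact a.symm
    · exact b
    · exact b.symm
    · exact c
    · exact c.symm
    · exact d
    · exact d.symm
  · intro i
    fin_cases i
    · exact e
    · show f 1 / 4 = f 3 / 4; omega
    · exact e.symm
    · show f 3 / 4 = f 1 / 4; omega
    · exact g
    · show f 5 / 4 = f 7 / 4; omega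
    · exact g.symm
    · show f 7 / 4 = f 5 / 4; omega

theorem quad_cases : ∀ i j : Fin 8, i.val / 4 = j.val / 4 →
    j = i ∨ j = partner i ∨ j = cousin i ∨ j = partner (cousin i) := by decide

theorem pres_of_chk {σ : Perm (Fin 8)} (h : Chk fun i => (σ i).val) : Pres σ := by
  obtain ⟨h2, h4⟩ := h
  refine ⟨fun i j hij => ?_, fun i j hij => ?_⟩
  · rcases pair_cases i j hij with rfl | rfl
    · rfl
    · exact h2 i
  · rcases quad_cases i j hij with rfl | rfl | rfl | rfl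
    · rfl
    · have e : (σ i).val / 2 = (σ (partner i)).val / 2 := h2 i
      omega
    · exact h4 i
    · have e : (σ (cousin i)).val / 2 = (σ (partner (cousin i))).val / 2 := h2 (cousin i)
      have e' : (σ i).val / 4 = (σ (cousin i)).val / 4 := h4 i
      omega

theorem Pres.mul {σ τ : Perm (Fin 8)} (hσ : Pres σ) (hτ : Pres τ) : Pres (σ * τ) :=
  ⟨fun i j h => hσ.1 _ _ (hτ.1 i j h), fun i j h => hσ.2 _ _ (hτ.2 i j h)⟩

theorem Pres.pow {σ : Perm (Fin 8)} (hσ : Pres σ) : ∀ k, Pres (σ ^ k)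
  | 0 => ⟨fun _ _ h => h, fun _ _ h => h⟩
  | k + 1 => by rw [pow_succ]; exact (hσ.pow k).mul hσ

theorem Pres.inv {σ : Perm (Fin 8)} (hσ : Pres σ) : Pres σ⁻¹ := by
  obtain ⟨k, hk⟩ := (isOfFinOrder_of_finite σ).mem_powers_iff_mem_zpowers.2
    (Subgroup.inv_mem _ (Subgroup.mem_zpowers σ))
  change σ ^ k = _ at hk
  rw [← hk]
  exact hσ.pow k

/-- The automorphism group of the binary tree. -/
def tree : Subgroup (Perm (Fin 8)) where
  carrier := {σ | Pres σ}
  one_mem' := ⟨fun _ _ h => h, fun _ _ h => h⟩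
  mul_mem' := fun ha hb => Pres.mul ha hb
  inv_mem' := fun {σ} hσ => Pres.inv hσ

theorem pow_eight {σ : Perm (Fin 8)} (hσ : Pres σ) : σ ^ 8 = 1 := by
  refine Equiv.ext fun i => ?_
  show (σ ^ 8) i = i
  have q2 : ∀ v : Fin 8, ((σ * σ) v).val / 4 = v.val / 4 := by
    intro v
    by_contra hne
    by_cases h1 : (σ v).val / 4 = v.val / 4
    · exact hne ((hσ.2 _ _ h1).trans h1)
    · by_cases h2 : (σ (σ v)).val / 4 = (σ v).val / 4
      · exact h1 (by simpa using hσ.inv.2 _ _ h2)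
      · simp only [Perm.mul_apply] at hne
        have := (σ (σ v)).isLt
        have := (σ v).isLt
        have := v.isLt
        omega
  have p4 : ∀ v : Fin 8, ((σ ^ 4) v).val / 2 = v.val / 2 := by
    intro v
    have a := q2 v
    have b := q2 ((σ * σ) v)
    by_contra hne
    simp only [pow_succ, pow_zero, one_mul, Perm.mul_apply] at hne a b
    have hσ2 := hσ.mul hσ
    by_cases h1 : (σ (σ v)).val / 2 = v.val / 2
    · exact hne ((hσ2.1 _ _ h1).trans h1)
    · by_cases h2 : (σ (σ (σ (σ v)))).val / 2 = (σ (σ v)).val / 2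
      · exact h1 (by simpa using hσ2.inv.1 _ _ h2)
      · have := (σ (σ (σ (σ v)))).isLt
        have := (σ (σ v)).isLt
        have := v.isLt
        omega
  have a := p4 i
  have b := p4 ((σ ^ 4) i)
  rw [show σ ^ 8 = σ ^ 4 * σ ^ 4 by rw [← pow_add], Perm.mul_apply]
  by_cases h1 : (σ ^ 4) i = i
  · rw [h1, h1]
  · by_cases h2 : (σ ^ 4) ((σ ^ 4) i) = (σ ^ 4) i
    · exact absurd ((σ ^ 4).injective h2) h1
    · apply Fin.ext
      have h1' : ((σ ^ 4) i).val ≠ i.val := fun e => h1 (Fin.ext e)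
      have h2' : ((σ ^ 4) ((σ ^ 4) i)).val ≠ ((σ ^ 4) i).val := fun e => h2 (Fin.ext e)
      omega

/-- The witnesses as lists of natural numbers. -/
def witN : List (List ℕ) :=
  [[1, 0, 3, 2, 5, 4, 7, 6],
    [1, 0, 3, 2, 6, 7, 4, 5],
    [1, 0, 3, 2, 7, 6, 5, 4],
    [0, 1, 2, 3, 4, 5, 7, 6],
    [0, 1, 2, 3, 5, 4, 6, 7],
    [0, 1, 3, 2, 4, 5, 6, 7],
    [1, 0, 2, 3, 4, 5, 6, 7],
    [4, 5, 6, 7, 0, 1, 2, 3],
    [4, 5, 7, 6, 0, 1, 3, 2],
    [5, 4, 6, 7, 1, 0, 2, 3],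
    [5, 4, 7, 6, 1, 0, 3, 2],
    [6, 7, 4, 5, 2, 3, 0, 1],
    [6, 7, 5, 4, 3, 2, 0, 1],
    [7, 6, 4, 5, 2, 3, 1, 0],
    [7, 6, 5, 4, 3, 2, 1, 0]]

/-- The position of a value in a list of natural numbers. -/
def pos : List ℕ → ℕ → ℕ
  | [], _ => 0
  | a :: l, v => if Nat.beq a v then 0 else pos l v + 1

/-- Entry `i` of a list. -/
def at8 : List ℕ → ℕ → ℕ
  | [], _ => 0
  | a :: l, i => match i with
    | 0 => a
    | j + 1 => at8 l j

/-- The function given by a list. -/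
def fn (h : List ℕ) (i : Fin 8) : Fin 8 := ⟨at8 h i.val % 8, Nat.mod_lt _ (by omega)⟩

/-- The test that a list gives a non-trivial involution of the tree. -/
def wok (h : List ℕ) : Bool :=
  ((List.range 8).all fun i => Nat.blt (at8 h i) 8 && Nat.beq (at8 h (at8 h i)) i &&
    Nat.beq (at8 h i / 2) (at8 h (at8 [1, 0, 3, 2, 5, 4, 7, 6] i) / 2) &&
    Nat.beq (at8 h i / 4) (at8 h (at8 [2, 3, 0, 1, 6, 7, 4, 5] i) / 4)) &&
  (List.range 8).any fun i => !Nat.beq (at8 h i) i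

theorem wok_all : witN.all wok = true := by decide +kernel

theorem partner_eq : ∀ i : Fin 8, (partner i).val = at8 [1, 0, 3, 2, 5, 4, 7, 6] i.val := by decide

theorem cousin_eq : ∀ i : Fin 8, (cousin i).val = at8 [2, 3, 0, 1, 6, 7, 4, 5] i.val := by decide

theorem wit_spec (h : List ℕ) (hh : h ∈ witN) : (∀ i, fn h (fn h i) = i) ∧ (∃ i, fn h i ≠ i) ∧
    Chk (fun i => (fn h i).val) ∧ ∀ i : Fin 8, (fn h i).val = at8 h i.val := by
  have hw := List.all_eq_true.1 wok_all h hh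
  rw [wok, Bool.and_eq_true] at hw
  obtain ⟨hall, hany⟩ := hw
  have hi : ∀ i : Fin 8, at8 h i.val < 8 ∧ at8 h (at8 h i.val) = i.val ∧
      at8 h i.val / 2 = at8 h (partner i).val / 2 ∧
      at8 h i.val / 4 = at8 h (cousin i).val / 4 := by
    intro i
    have := List.all_eq_true.1 hall i.val (List.mem_range.2 i.isLt)
    simp only [Bool.and_eq_true] at this
    obtain ⟨⟨⟨h1, h2⟩, h3⟩, h4⟩ := this
    rw [partner_eq, cousin_eq]
    exact ⟨by simpa [Nat.blt_eq] using h1, Nat.eq_of_beq_eq_true h2, Nat.eq_of_beq_eq_true h3,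
      Nat.eq_of_beq_eq_true h4⟩
  have hval : ∀ i : Fin 8, (fn h i).val = at8 h i.val := fun i => Nat.mod_eq_of_lt (hi i).1
  refine ⟨fun i => Fin.ext ?_, ?_, ⟨fun i => ?_, fun i => ?_⟩, hval⟩
  · rw [hval, hval]; exact (hi i).2.1
  · obtain ⟨i, hi', hb⟩ := List.any_eq_true.1 hany
    refine ⟨⟨i, List.mem_range.1 hi'⟩, fun e => ?_⟩
    have := congrArg Fin.val e
    rw [hval] at this
    simp [this] at hb
  · simp only [hval]; exact (hi i).2.2.1
  · simp only [hval]; exact (hi i).2.2.2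

/-- The test for a tuple `l` and a witness `h`. -/
def tst (l h : List ℕ) : Bool :=
  let P := fun i => pos l (at8 h (at8 l i))
  Nat.beq (P 0 / 2) (P 1 / 2) && Nat.beq (P 2 / 2) (P 3 / 2) &&
    Nat.beq (P 4 / 2) (P 5 / 2) && Nat.beq (P 6 / 2) (P 7 / 2) &&
    Nat.beq (P 0 / 4) (P 2 / 4) && Nat.beq (P 4 / 4) (P 6 / 4)

/-- The test for a tuple. -/
def good (l : List ℕ) : Bool := witN.any fun h => tst l h

/-- Whether a value differs from all entries of a list. -/
def fresh : ℕ → List ℕ → Bool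
  | _, [] => true
  | v, a :: l => !Nat.beq v a && fresh v l

/-- The test for all normalised tuples. -/
def goodAll : Bool :=
  (List.range 8).all fun a1 => !fresh a1 [0] ||
  (List.range 8).all fun a2 => !fresh a2 [0, a1] ||
  (List.range 8).all fun a3 => !(Nat.blt a2 a3 && fresh a3 [0, a1]) ||
  (List.range 8).all fun a4 => !fresh a4 [0, a1, a2, a3] ||
  (List.range 8).all fun a5 => !(Nat.blt a4 a5 && fresh a5 [0, a1, a2, a3]) ||
  (List.range 8).all fun a6 => !(Nat.blt a4 a6 && fresh a6 [0, a1, a2, a3, a5]) ||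
  (List.range 8).all fun a7 => !(Nat.blt a6 a7 && fresh a7 [0, a1, a2, a3, a5]) ||
    good [0, a1, a2, a3, a4, a5, a6, a7]

set_option maxRecDepth 100000 in
theorem goodAll_eq : goodAll = true := by decide +kernel

theorem all_range {f : ℕ → Bool} (h : (List.range 8).all f = true) (i : Fin 8) : f i.val = true :=
  List.all_eq_true.1 h i.val (List.mem_range.2 i.isLt)

theorem fresh_eq : ∀ (v : ℕ) (l : List ℕ), fresh v l = true ↔ ∀ a ∈ l, v ≠ a
  | v, [] => by simp [fresh]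
  | v, a :: l => by
    simp only [fresh, Bool.and_eq_true, Bool.not_eq_true', List.forall_mem_cons, fresh_eq v l]
    constructor
    · exact fun ⟨h, h'⟩ => ⟨fun e => Nat.ne_of_beq_eq_false h e, h'⟩
    · exact fun ⟨h, h'⟩ => ⟨by
        by_contra hb
        exact h (Nat.eq_of_beq_eq_true (by simpa using hb)), h'⟩

theorem pos_ofFn {m : ℕ} : ∀ (f : Fin m → ℕ), Function.Injective f → ∀ i,
    pos (List.ofFn f) (f i) = i.val := by
  induction m with
  | zero => exact fun _ _ i => i.elim0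
  | succ m ih =>
    intro f hf i
    rw [List.ofFn_succ, pos]
    cases i using Fin.cases with
    | zero => simp
    | succ j =>
      have hne : f 0 ≠ f j.succ := fun e => (Fin.succ_ne_zero j) (hf e).symm
      have hb : Nat.beq (f 0) (f j.succ) = false := by
        by_contra hb
        exact hne (Nat.eq_of_beq_eq_true (by simpa using hb))
      rw [if_neg (by simp [hb]), ih (fun k => f k.succ) (hf.comp (Fin.succ_injective m)) j]
      simp

theorem at8_ofFn {m : ℕ} : ∀ (f : Fin m → ℕ) (i : Fin m), at8 (List.ofFn f) i.val = f i := by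
  induction m with
  | zero => exact fun _ i => i.elim0
  | succ m ih =>
    intro f i
    rw [List.ofFn_succ]
    cases i using Fin.cases with
    | zero => simp [at8]
    | succ j => simpa [at8] using ih (fun k => f k.succ) j

/-- The statement for the tree subgroup. -/
def Meets (x : Perm (Fin 8)) : Prop := ∃ h ∈ tree, h ≠ 1 ∧ x⁻¹ * h * x ∈ tree

theorem Meets.of_mul {x k : Perm (Fin 8)} (hk : k ∈ tree) (h : Meets (x * k)) : Meets x := by
  obtain ⟨u, hu, hu1, hux⟩ := h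
  refine ⟨u, hu, hu1, ?_⟩
  rw [show x⁻¹ * u * x = k * ((x * k)⁻¹ * u * (x * k)) * k⁻¹ by group]
  exact mul_mem (mul_mem hk hux) (inv_mem hk)

theorem meets_normal (x : Perm (Fin 8)) (h0 : x 0 = 0) (h23 : x 2 < x 3) (h45 : x 4 < x 5)
    (h46 : x 4 < x 6) (h67 : x 6 < x 7) : Meets x := by
  have ne : ∀ i j : Fin 8, i ≠ j → x i ≠ x j := fun i j h => x.injective.ne h
  have z : ∀ i : Fin 8, i ≠ 0 → x i ≠ 0 := fun i h => h0 ▸ ne i 0 h
  have lt : ∀ {i j : Fin 8}, x i < x j → Nat.blt (x i).val (x j).val = true := fun h => by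
    simpa [Nat.blt_eq] using h
  have nev : ∀ i j : Fin 8, i ≠ j → (x i).val ≠ (x j).val := fun i j h e => ne i j h (Fin.ext e)
  have zv : ∀ i : Fin 8, i ≠ 0 → (x i).val ≠ 0 := fun i h e => z i h (Fin.ext e)
  have g := goodAll_eq
  replace g := all_range g (x 1)
  rw [show fresh (x 1).val [0] = true by simp [fresh_eq, zv 1], Bool.not_true,
    Bool.false_or] at g
  replace g := all_range g (x 2)
  rw [show fresh (x 2).val [0, (x 1).val] = true by simp [fresh_eq, zv 2, nev 2 1],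
    Bool.not_true, Bool.false_or] at g
  replace g := all_range g (x 3)
  rw [lt h23, show fresh (x 3).val [0, (x 1).val] = true by simp [fresh_eq, zv 3, nev 3 1],
    Bool.and_true, Bool.not_true, Bool.false_or] at g
  replace g := all_range g (x 4)
  rw [show fresh (x 4).val [0, (x 1).val, (x 2).val, (x 3).val] = true by
      simp [fresh_eq, zv 4, nev 4 1, nev 4 2, nev 4 3], Bool.not_true, Bool.false_or] at g
  replace g := all_range g (x 5)
  rw [lt h45, show fresh (x 5).val [0, (x 1).val, (x 2).val, (x 3).val] = true by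
      simp [fresh_eq, zv 5, nev 5 1, nev 5 2, nev 5 3],
    Bool.and_true, Bool.not_true, Bool.false_or] at g
  replace g := all_range g (x 6)
  rw [lt h46, show fresh (x 6).val [0, (x 1).val, (x 2).val, (x 3).val, (x 5).val] = true by
      simp [fresh_eq, zv 6, nev 6 1, nev 6 2, nev 6 3, nev 6 5],
    Bool.and_true, Bool.not_true, Bool.false_or] at g
  replace g := all_range g (x 7)
  rw [lt h67, show fresh (x 7).val [0, (x 1).val, (x 2).val, (x 3).val, (x 5).val] = true by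
      simp [fresh_eq, zv 7, nev 7 1, nev 7 2, nev 7 3, nev 7 5],
    Bool.and_true, Bool.not_true, Bool.false_or] at g
  have hl : ([0, (x 1).val, (x 2).val, (x 3).val, (x 4).val, (x 5).val, (x 6).val, (x 7).val]
      : List ℕ) = List.ofFn fun i => (x i).val := by
    simp [List.ofFn_succ, h0, Fin.succ]
  rw [good, hl, List.any_eq_true] at g
  obtain ⟨h, hw, ht⟩ := g
  obtain ⟨hinv, ⟨i₀, hi₀⟩, hchk, hval⟩ := wit_spec h hw
  let u : Perm (Fin 8) := Function.Involutive.toPerm (fn h) hinv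
  refine ⟨u, pres_of_chk hchk, fun e => hi₀ (Equiv.congr_fun e i₀), pres_of_chk ?_⟩
  have hP : ∀ i : Fin 8, pos (List.ofFn fun i => (x i).val)
      (at8 h (at8 (List.ofFn fun i => (x i).val) i.val)) =
        ((x⁻¹ * u * x) i).val := by
    intro i
    rw [at8_ofFn (fun i => (x i).val) i, ← hval (x i)]
    have e := pos_ofFn (fun i => (x i).val) (Fin.val_injective.comp x.injective) ((x⁻¹ * u * x) i)
    rw [← e]
    have hx : x ((x⁻¹ * u * x) i) = fn h (x i) := by
      rw [Perm.mul_apply, Perm.mul_apply, Perm.coe_inv, Equiv.apply_symm_apply]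
      rfl
    rw [hx]
  simp only [tst, Function.comp, Bool.and_eq_true] at ht
  obtain ⟨⟨⟨⟨⟨t01, t23⟩, t45⟩, t67⟩, q02⟩, q46⟩ := ht
  replace t01 := Nat.eq_of_beq_eq_true t01
  replace t23 := Nat.eq_of_beq_eq_true t23
  replace t45 := Nat.eq_of_beq_eq_true t45
  replace t67 := Nat.eq_of_beq_eq_true t67
  replace q02 := Nat.eq_of_beq_eq_true q02
  replace q46 := Nat.eq_of_beq_eq_true q46
  have P0 := hP 0
  have P1 := hP 1
  have P2 := hP 2
  have P3 := hP 3
  have P4 := hP 4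
  have P5 := hP 5
  have P6 := hP 6
  have P7 := hP 7
  simp only [Fin.val_zero, Fin.val_one, Fin.val_two] at P0 P1 P2
  rw [show ((3 : Fin 8) : ℕ) = 3 from rfl] at P3
  rw [show ((4 : Fin 8) : ℕ) = 4 from rfl] at P4
  rw [show ((5 : Fin 8) : ℕ) = 5 from rfl] at P5
  rw [show ((6 : Fin 8) : ℕ) = 6 from rfl] at P6
  rw [show ((7 : Fin 8) : ℕ) = 7 from rfl] at P7
  rw [P0, P1] at t01
  rw [P2, P3] at t23
  rw [P4, P5] at t45
  rw [P6, P7] at t67
  rw [P0, P2] at q02
  rw [P4, P6] at q46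
  exact chk_of_six _ t01 t23 t45 t67 q02 q46

/-- The permutation adding `i` bitwise. -/
def shift : Fin 8 → (Fin 8 → Fin 8) :=
  ![![0, 1, 2, 3, 4, 5, 6, 7], ![1, 0, 3, 2, 5, 4, 7, 6], ![2, 3, 0, 1, 6, 7, 4, 5],
    ![3, 2, 1, 0, 7, 6, 5, 4], ![4, 5, 6, 7, 0, 1, 2, 3], ![5, 4, 7, 6, 1, 0, 3, 2],
    ![6, 7, 4, 5, 2, 3, 0, 1], ![7, 6, 5, 4, 3, 2, 1, 0]]

/-- Moves `4` to a point of the second quad, fixing the first. -/
def quadShift : Fin 8 → (Fin 8 → Fin 8) :=
  ![![0, 1, 2, 3, 4, 5, 6, 7], ![0, 1, 2, 3, 4, 5, 6, 7], ![0, 1, 2, 3, 4, 5, 6, 7],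
    ![0, 1, 2, 3, 4, 5, 6, 7], ![0, 1, 2, 3, 4, 5, 6, 7], ![0, 1, 2, 3, 5, 4, 7, 6],
    ![0, 1, 2, 3, 6, 7, 4, 5], ![0, 1, 2, 3, 7, 6, 5, 4]]

theorem shift_spec : ∀ i, (∀ v, shift i (shift i v) = v) ∧ shift i 0 = i ∧
    Chk (fun v => (shift i v).val) := by decide

theorem quadShift_spec : ∀ i : Fin 8, 4 ≤ i → (∀ v, quadShift i (quadShift i v) = v) ∧
    quadShift i 0 = 0 ∧ quadShift i 4 = i ∧ (∀ v : Fin 8, 4 ≤ v → 4 ≤ quadShift i v) ∧
    Chk (fun v => (quadShift i v).val) := by decide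

theorem meets (x : Perm (Fin 8)) : Meets x := by
  obtain ⟨k₁, hk₁, hx₁⟩ : ∃ k ∈ tree, (x * k) 0 = 0 := by
    obtain ⟨hinv, h0, hc⟩ := shift_spec (x⁻¹ 0)
    let u : Perm (Fin 8) := Function.Involutive.toPerm _ hinv
    refine ⟨u, pres_of_chk hc, ?_⟩
    show x (shift (x⁻¹ 0) 0) = 0
    rw [h0, Perm.coe_inv, Equiv.apply_symm_apply]
  refine Meets.of_mul hk₁ ?_
  generalize x * k₁ = y at hx₁
  obtain ⟨m, hm, hmin⟩ := (Finset.univ.filter fun v : Fin 8 => 4 ≤ v).exists_min_image y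
    ⟨4, by decide⟩
  obtain ⟨hinv, h0, h4, hge, hc⟩ := quadShift_spec m (Finset.mem_filter.1 hm).2
  let u : Perm (Fin 8) := Function.Involutive.toPerm _ hinv
  refine Meets.of_mul (k := u) (pres_of_chk hc) ?_
  have y0 : (y * u) 0 = 0 := by
    show y (quadShift m 0) = 0
    rw [h0, hx₁]
  have ylt : ∀ v : Fin 8, 4 < v → (y * u) 4 < (y * u) v := by
    intro v hv
    have := hmin _ (Finset.mem_filter.2 ⟨Finset.mem_univ _, hge v hv.le⟩)
    refine lt_of_le_of_ne ?_ ((y * u).injective.ne hv.ne)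
    show y (quadShift m 4) ≤ y (quadShift m v)
    rwa [h4]
  generalize y * u = z at y0 ylt
  obtain ⟨k₂, hk₂, hz⟩ : ∃ k ∈ tree, (z * k) 2 < (z * k) 3 ∧
      (z * k) 0 = z 0 ∧ ∀ v : Fin 8, 4 ≤ v → (z * k) v = z v := by
    rcases lt_or_gt_of_ne (z.injective.ne (show (2 : Fin 8) ≠ 3 by decide)) with h | h
    · exact ⟨1, one_mem _, by simpa using h, rfl, fun v _ => rfl⟩
    · refine ⟨Equiv.swap 2 3, pres_of_chk (by decide), by simpa using h, rfl, fun v hv => ?_⟩
      rw [Perm.mul_apply, Equiv.swap_apply_of_ne_of_ne] <;> omega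
  refine Meets.of_mul hk₂ ?_
  obtain ⟨h23, h0', hge'⟩ := hz
  rw [y0] at h0'
  replace ylt : ∀ v : Fin 8, 4 < v → (z * k₂) 4 < (z * k₂) v := fun v hv => by
    rw [hge' 4 le_rfl, hge' v hv.le]; exact ylt v hv
  generalize z * k₂ = w at h23 h0' ylt
  rcases lt_or_gt_of_ne (w.injective.ne (show (6 : Fin 8) ≠ 7 by decide)) with h | h
  · exact meets_normal w h0' h23 (ylt 5 (by decide)) (ylt 6 (by decide)) h
  · refine Meets.of_mul (k := Equiv.swap 6 7) (pres_of_chk (by decide)) ?_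
    refine meets_normal _ h0' h23 ?_ ?_ (by simpa using h)
    · exact ylt 5 (by decide)
    · simpa [Equiv.swap_apply_left, Equiv.swap_apply_of_ne_of_ne] using ylt 7 (by decide)

/-- In the symmetric group on 8 letters any two Sylow 2-subgroups have non-trivial intersection: for a Sylow 2-subgroup H and every element x, H ∩ xHx⁻¹ ≠ 1. -/
theorem result (H : Sylow 2 (Equiv.Perm (Fin 8))) (x : Equiv.Perm (Fin 8)) :
    (H : Subgroup (Equiv.Perm (Fin 8))) ⊓ (H : Subgroup (Equiv.Perm (Fin 8))).map (MulAut.conj x).toMonoidHom ≠ ⊥ := by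
  have hp : IsPGroup 2 tree := fun σ => ⟨3, Subtype.ext (pow_eight σ.2)⟩
  obtain ⟨S, hS⟩ := hp.exists_le_sylow
  obtain ⟨c, hc⟩ := MulAction.exists_smul_eq (Equiv.Perm (Fin 8)) S H
  have hH : (H : Subgroup (Equiv.Perm (Fin 8))) =
      (S : Subgroup (Equiv.Perm (Fin 8))).map (MulAut.conj c).toMonoidHom := by
    rw [← hc]; rfl
  obtain ⟨h, hh, hh1, hhy⟩ := meets (c⁻¹ * x * c)
  intro hbot
  have e1 : c * h * c⁻¹ ∈ (H : Subgroup (Equiv.Perm (Fin 8))) := by
    rw [hH]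
    exact ⟨h, hS hh, rfl⟩
  have e2 : c * h * c⁻¹ ∈
      (H : Subgroup (Equiv.Perm (Fin 8))).map (MulAut.conj x).toMonoidHom := by
    refine ⟨x⁻¹ * (c * h * c⁻¹) * x, ?_, by simp [mul_assoc]⟩
    rw [SetLike.mem_coe, hH]
    refine ⟨(c⁻¹ * x * c)⁻¹ * h * (c⁻¹ * x * c), hS hhy, ?_⟩
    simp [mul_assoc]
  have e3 := Subgroup.mem_inf.2 ⟨e1, e2⟩
  rw [hbot, Subgroup.mem_bot, conj_eq_one_iff] at e3
  exact hh1 e3

end Cfsg.Agent.S5763
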