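import Cfsg.Statements.S5769
import Cfsg.Agent.Lib.E7Two.Elements
import Cfsg.Agent.Lib.E7Two.Main
-- import your own Cfsg.Agent.* helpers here

set_option autoImplicit false
open Cfsg

namespace Cfsg.Agent.S5769

theorem key {G : Type*} [Group G] (H : Subgroup ↥(Cfsg.Lie.chevE7.group (ZMod 2)))
    (h : ∃ y : G, orderOf y = 65) : IsEmpty (↥H ≃* G) := by
  obtain ⟨y, hy⟩ := h
  refine ⟨fun e => CfsgLib.E7Two.no_sixtyfive ((e.symm y : ↥H) : ↥(Cfsg.Lie.chevE7.group (ZMod 2))) ?_⟩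
  rw [Subgroup.orderOf_coe, MulEquiv.orderOf_eq, hy]

/-- The Chevalley group of type E₇ over the field with two elements (generated by its root elements in the adjoint representation) has no subgroup isomorphic to any of PSL₂(64), PSp₄(8), PSL₄(8), PSU₄(8) or PSp₆(8). Here F₈ and F₆₄ denote fields with 8 and 64 elements. -/
theorem result {F₈ F₆₄ : Type*} [Field F₈] [Fintype F₈] (h8 : Fintype.card F₈ = 8) [Field F₆₄] [Fintype F₆₄] (h64 : Fintype.card F₆₄ = 64)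
    (H : Subgroup ↥(Cfsg.Lie.chevE7.group (ZMod 2))) :
    IsEmpty (↥H ≃* Matrix.ProjectiveSpecialLinearGroup (Fin 2) F₆₄) ∧ IsEmpty (↥H ≃* Cfsg.PSp 2 F₈) ∧
    IsEmpty (↥H ≃* Matrix.ProjectiveSpecialLinearGroup (Fin 4) F₈) ∧ IsEmpty (↥H ≃* Cfsg.PSU 4 F₆₄ 8) ∧ IsEmpty (↥H ≃* Cfsg.PSp 3 F₈) := by
  exact ⟨key H (CfsgLib.E7Two.exists_psl_two F₆₄ h64), key H (CfsgLib.E7Two.exists_psp_four F₈ h8),
    key H (CfsgLib.E7Two.exists_psl_four F₈ h8), key H (CfsgLib.E7Two.exists_psu_four F₆₄ h64),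
    key H (CfsgLib.E7Two.exists_psp_six F₈ h8)⟩

end Cfsg.Agent.S5769
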