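import Cfsg.Statements.S5885
-- import your own Cfsg.Agent.* helpers here

set_option autoImplicit false
open Cfsg

namespace Cfsg.Agent.S5885

open scoped Pointwise
open MulAction Equiv

lemma exists_three_cycle {G : Type*} [Group G] [Finite G] (n : ℕ)
    (hA : ∀ P : Subgroup (Equiv.Perm (Fin n)), MulAction.IsPreprimitive P (Fin n) → alternatingGroup (Fin n) ≤ P)
    (M : Subgroup G) (hM : IsCoatom M) (hn : M.index = n)
    (x y z : G ⧸ M) (hxy : x ≠ y) (hxz : x ≠ z) (hyz : y ≠ z) :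
    ∃ g : G, g • x = z ∧ g • z = y ∧ g • y = x ∧ ∀ w, w ≠ x → w ≠ y → w ≠ z → g • w = w := by
  classical
  have : Nontrivial (G ⧸ M) := ⟨⟨x, y, hxy⟩⟩
  have hcard : Nat.card (G ⧸ M) = n := hn
  let e : (G ⧸ M) ≃ Fin n := (Finite.equivFin _).trans (finCongr hcard)
  have hp : MulAction.IsPreprimitive G (G ⧸ M) := by
    rw [← isCoatom_stabilizer_iff_preprimitive G ((1 : G) : G ⧸ M), MulAction.stabilizer_quotient]
    exact hM
  let ψ : G →* Equiv.Perm (Fin n) := e.permCongrHom.toMonoidHom.comp (MulAction.toPermHom G (G ⧸ M))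
  let f : (G ⧸ M) →ₑ[ψ.rangeRestrict] Fin n :=
    { toFun := e
      map_smul' := fun g w => by
        show e (g • w) = ψ g (e w)
        simp [ψ, Equiv.permCongrHom, Equiv.permCongr_apply] }
  have hP : MulAction.IsPreprimitive ψ.range (Fin n) :=
    IsPreprimitive.of_surjective (f := f) e.surjective
  have hmem : swap (e x) (e y) * swap (e x) (e z) ∈ alternatingGroup (Fin n) :=
    (Equiv.Perm.isThreeCycle_swap_mul_swap_same (e.injective.ne hxy) (e.injective.ne hxz)
      (e.injective.ne hyz)).sign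
  obtain ⟨g, hg⟩ := hA ψ.range hP hmem
  have key : ∀ w, e (g • w) = (swap (e x) (e y) * swap (e x) (e z)) (e w) := by
    intro w
    rw [← hg]
    simp [ψ, Equiv.permCongrHom, Equiv.permCongr_apply]
  refine ⟨g, e.injective ?_, e.injective ?_, e.injective ?_, fun w h1 h2 h3 => e.injective ?_⟩ <;> rw [key]
  · simp [swap_apply_of_ne_of_ne, e.injective.ne hxz.symm, e.injective.ne hyz.symm]
  · simp
  · simp [swap_apply_of_ne_of_ne, e.injective.ne hxy.symm, e.injective.ne hyz]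
  · simp [swap_apply_of_ne_of_ne, e.injective.ne h1, e.injective.ne h2, e.injective.ne h3]

/-- Let n be an odd positive integer such that every primitive permutation group of degree n contains the alternating group (so the symmetric and alternating groups are the only primitive groups of degree n). Let G be a finite group, M a maximal subgroup of G of index n, and H a maximal subgroup of M. Then H is a second maximal subgroup of G: H is maximal in every maximal subgroup K of G containing H. -/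
theorem result {G : Type*} [Group G]
    [Finite G] (n : ℕ) (hodd : Odd n)
    (hA : ∀ P : Subgroup (Equiv.Perm (Fin n)), MulAction.IsPreprimitive P (Fin n) → alternatingGroup (Fin n) ≤ P)
    (M : Subgroup G) (hM : IsCoatom M) (hn : M.index = n) (H : Subgroup G) (hHM : H ≤ M)
    (hmax : IsCoatom (H.subgroupOf M)) (K : Subgroup G) (hK : IsCoatom K) (hHK : H ≤ K) :
    IsCoatom (H.subgroupOf K) := by
  classical
  rcases eq_or_ne K M with rfl | hKM
  · exact hmax
  have hMK : ¬ M ≤ K := fun h => hKM ((hM.le_iff.mp h).resolve_left hK.1)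
  have hKnM : ¬ K ≤ M := fun h => hKM ((hK.le_iff.mp h).resolve_left hM.1).symm
  have hKHM : ∀ x ∈ K, x ∈ M → x ∈ H := by
    intro x hx hxM
    by_contra hxH
    have hlt : H.subgroupOf M < (K ⊓ M).subgroupOf M := lt_of_le_not_ge
      (fun w hw => ⟨hHK hw, w.2⟩) (fun hle => hxH (hle (show (⟨x, hxM⟩ : M) ∈ _ from ⟨hx, hxM⟩)))
    exact hMK fun m hm => ((hmax.2 _ hlt).symm ▸ Subgroup.mem_top _ : (⟨m, hm⟩ : M) ∈ (K ⊓ M).subgroupOf M).1
  let a : G ⧸ M := ((1 : G) : G ⧸ M)
  have hMa : ∀ x : G, x • a = a ↔ x ∈ M := by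
    intro x
    rw [← MulAction.mem_stabilizer_iff, MulAction.stabilizer_quotient]
  have cyc := exists_three_cycle n hA M hM hn
  suffices h : ∀ L : Subgroup G, H ≤ L → L ≤ K → (∃ l ∈ L, l ∉ H) → K ≤ L by
    constructor
    · intro htop
      exact hKnM fun k hk => hHM (htop.symm ▸ Subgroup.mem_top _ : (⟨k, hk⟩ : K) ∈ H.subgroupOf K)
    · intro L hL
      obtain ⟨l, hlL, hlH⟩ := SetLike.exists_of_lt hL
      have := h (L.map K.subtype) (fun x hx => ⟨⟨x, hHK hx⟩, hL.le hx, rfl⟩) (Subgroup.map_subtype_le L)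
        ⟨l, ⟨l, hlL, rfl⟩, hlH⟩
      rw [eq_top_iff]
      intro k _
      obtain ⟨k', hk', hkk'⟩ := this k.2
      rwa [← Subtype.ext hkk']
  intro L hHL hLK ⟨l0, hl0, hl0H⟩
  have hl0M : l0 ∉ M := fun h => hl0H (hKHM l0 (hLK hl0) h)
  -- it suffices that the two orbits of the base point agree
  suffices hsuff : ∀ k ∈ K, ∃ l ∈ L, l • a = k • a by
    intro k hk
    obtain ⟨l, hl, hla⟩ := hsuff k hk
    have : l⁻¹ * k ∈ H := hKHM _ (mul_mem (inv_mem (hLK hl)) hk) ((hMa _).mp (by rw [mul_smul, ← hla, inv_smul_smul]))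
    simpa using mul_mem hl (hHL this)
  let B : Set (G ⧸ M) := MulAction.orbit L a
  let Δ : Set (G ⧸ M) := MulAction.orbit K a
  have haB : a ∈ B := MulAction.mem_orbit_self a
  have hBΔ : B ⊆ Δ := by rintro _ ⟨l, rfl⟩; exact ⟨⟨l, hLK l.2⟩, rfl⟩
  suffices hBeq : Δ ⊆ B by
    intro k hk
    obtain ⟨l, hl⟩ := hBeq (⟨⟨k, hk⟩, rfl⟩ : k • a ∈ Δ)
    exact ⟨l, l.2, hl⟩
  obtain ⟨b1, hb1B, hb1a⟩ : ∃ b ∈ B, b ≠ a := ⟨l0 • a, ⟨⟨l0, hl0⟩, rfl⟩, fun h => hl0M ((hMa _).mp h)⟩
  intro y hy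
  by_contra hyB
  have hya : y ≠ a := fun h => hyB (h ▸ haB)
  have hyb : y ≠ b1 := fun h => hyB (h ▸ hb1B)
  have hLB : ∀ l ∈ L, ∀ w ∈ B, l • w ∈ B := by
    rintro l hl _ ⟨l', rfl⟩
    exact ⟨⟨l * l', mul_mem hl l'.2⟩, mul_smul l (l' : G) a⟩
  by_cases hfull : ∀ w, w ∈ Δ
  swap
  · -- intransitive case: K is the whole stabilizer of Δ
    push Not at hfull
    obtain ⟨d, hd⟩ := hfull
    have hKΔ : ∀ k ∈ K, ∀ w ∈ Δ, k • w ∈ Δ := by
      rintro k hk _ ⟨k', rfl⟩
      exact ⟨⟨k * k', mul_mem hk k'.2⟩, mul_smul k (k' : G) a⟩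
    let S : Subgroup G := MulAction.stabilizer G Δ
    have hKS : K ≤ S := fun k hk => MulAction.mem_stabilizer_set.mpr fun w =>
      ⟨fun h => by simpa using hKΔ k⁻¹ (inv_mem hk) _ h, hKΔ k hk w⟩
    have hS : S = K := by
      refine (hK.le_iff.mp hKS).resolve_left fun htop => hd ?_
      obtain ⟨g, hg⟩ := MulAction.exists_smul_eq G a d
      rw [← hg]
      exact (MulAction.mem_stabilizer_set.mp (htop ▸ Subgroup.mem_top g : g ∈ S) a).mpr (MulAction.mem_orbit_self a)
    -- a 3-cycle inside Δ fixing a if there is a fourth point, else a double transposition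
    obtain ⟨g, hga, hgb, hgΔ⟩ : ∃ g : G, g • a = a ∧ g • b1 = y ∧ ∀ w, g • w ∈ Δ ↔ w ∈ Δ := by
      by_cases h4 : ∃ z ∈ Δ, z ≠ a ∧ z ≠ b1 ∧ z ≠ y
      · obtain ⟨z, hzΔ, hza, hzb, hzy⟩ := h4
        obtain ⟨g, h1, h2, h3, h0⟩ := cyc b1 z y (Ne.symm hzb) (Ne.symm hyb) hzy
        refine ⟨g, h0 a (Ne.symm hb1a) (Ne.symm hza) (Ne.symm hya), h1, fun w => ?_⟩
        by_cases e1 : w = b1
        · subst e1; rw [h1]; exact iff_of_true hy (hBΔ hb1B)
        by_cases e2 : w = z
        · subst e2; rw [h3]; exact iff_of_true (hBΔ hb1B) hzΔ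
        by_cases e3 : w = y
        · subst e3; rw [h2]; exact iff_of_true hzΔ hy
        rw [h0 w e1 e2 e3]
      · push Not at h4
        have hΔ : ∀ z ∈ Δ, z = a ∨ z = b1 ∨ z = y := by
          intro z hz
          by_contra hne
          push Not at hne
          exact hne.2.2 (h4 z hz hne.1 hne.2.1)
        obtain ⟨u, hu⟩ : ∃ u, u ∉ Δ ∧ u ≠ d := by
          by_contra hall
          push Not at hall
          have hsub : (Set.univ : Set (G ⧸ M)) ⊆ {a, b1, y, d} := by
            intro z _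
            by_cases hz : z ∈ Δ
            · rcases hΔ z hz with rfl | rfl | rfl <;> simp
            · simp [hall z hz]
          have h1 : ({a, b1, y, d} : Set (G ⧸ M)).ncard = 4 := by
            have hda : d ≠ a := fun h => hd (h ▸ MulAction.mem_orbit_self a)
            have hdb : d ≠ b1 := fun h => hd (h ▸ hBΔ hb1B)
            have hdy : d ≠ y := fun h => hd (h ▸ hy)
            simp [Set.ncard_insert_of_notMem, Ne.symm hb1a, Ne.symm hya, Ne.symm hyb, Ne.symm hda,
              Ne.symm hdb, Ne.symm hdy]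
          have h2 : Nat.card (G ⧸ M) = 4 := by
            rw [← Set.ncard_univ, Set.Subset.antisymm hsub (Set.subset_univ _), h1]
          rw [show n = 4 from hn ▸ h2] at hodd
          exact absurd hodd (by decide)
        -- (b1 u y)(b1 d u) is a product of two 3-cycles
        have hyd : y ≠ d := fun h => hd (h ▸ hy)
        have hyu : y ≠ u := fun h => hu.1 (h ▸ hy)
        have hbd : b1 ≠ d := fun h => hd (h ▸ hBΔ hb1B)
        have hbu : b1 ≠ u := fun h => hu.1 (h ▸ hBΔ hb1B)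
        have had : a ≠ d := fun h => hd (h ▸ MulAction.mem_orbit_self a)
        have hau : a ≠ u := fun h => hu.1 (h ▸ MulAction.mem_orbit_self a)
        -- f : b1 → y → d → b1, g' : d → b1 → u → d
        obtain ⟨f, f1, f2, f3, f0⟩ := cyc b1 d y hbd (Ne.symm hyb) (Ne.symm hyd)
        obtain ⟨g', g1, g2, g3, g0⟩ := cyc d u b1 (Ne.symm hu.2) (Ne.symm hbd) (Ne.symm hbu)
        refine ⟨g' * f, ?_, ?_, ?_⟩
        · rw [mul_smul, f0 a (Ne.symm hb1a) had (Ne.symm hya), g0 a had hau (Ne.symm hb1a)]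
        · rw [mul_smul, f1, g0 y hyd hyu hyb]
        · intro w
          rw [mul_smul]
          by_cases e1 : w = b1
          · subst e1; rw [f1, g0 y hyd hyu hyb]; exact iff_of_true hy (hBΔ hb1B)
          by_cases e2 : w = y
          · subst e2; rw [f2, g1]; exact iff_of_true (hBΔ hb1B) hy
          by_cases e3 : w = d
          · subst e3; rw [f3, g2]; exact iff_of_false hu.1 hd
          by_cases e4 : w = u
          · subst e4; rw [f0 w e1 e3 e2, g3]; exact iff_of_false hd hu.1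
          rw [f0 w e1 e3 e2, g0 w e3 e4 e1]
    have hgK : g ∈ K := hS ▸ MulAction.mem_stabilizer_set.mpr hgΔ
    exact hyB (hgb ▸ hLB g (hHL (hKHM g hgK ((hMa g).mp hga))) b1 hb1B)
  -- transitive case: B is a block of K
  obtain ⟨k, hk⟩ : ∃ k : K, k • a = y := hy
  let C : Set (G ⧸ M) := (k : G) • B
  have hblock : ∀ x ∈ K, ∀ w ∈ B, x • w ∈ B → x ∈ L := by
    rintro x hx _ ⟨l, rfl⟩ ⟨l', hl'⟩
    have : (l' : G)⁻¹ * x * l ∈ M := (hMa _).mp (by
      rw [mul_smul, mul_smul, inv_smul_eq_iff]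
      exact hl'.symm)
    have h := hKHM _ (mul_mem (mul_mem (inv_mem (hLK l'.2)) hx) (hLK l.2)) this
    simpa [mul_assoc] using mul_mem (mul_mem l'.2 (hHL h)) (inv_mem l.2)
  have hkL : (k : G) ∉ L := fun h => hyB (hk ▸ hLB k h a haB)
  have hCB : ∀ w ∈ C, w ∉ B := by
    rintro _ ⟨v, hv, rfl⟩ h
    exact hkL (hblock k k.2 v hv h)
  have hcardB : B.ncard ∣ n := by
    have hst : MulAction.stabilizer L a = H.subgroupOf L := by
      ext l
      exact ⟨fun h => hKHM l (hLK l.2) ((hMa l).mp h), fun h => (hMa l).mpr (hHM h)⟩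
    have hst' : MulAction.stabilizer K a = H.subgroupOf K := by
      ext l
      exact ⟨fun h => hKHM l l.2 ((hMa l).mp h), fun h => (hMa l).mpr (hHM h)⟩
    have h1 : B.ncard = H.relIndex L := by
      show (MulAction.orbit L a).ncard = _
      rw [← MulAction.index_stabilizer, hst]; rfl
    have h2 : n = H.relIndex K := by
      rw [← hn, Subgroup.index_eq_card, ← Set.ncard_univ, ← Set.eq_univ_of_forall hfull]
      show (MulAction.orbit K a).ncard = _
      rw [← MulAction.index_stabilizer, hst']; rfl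
    rw [h1, h2, ← Subgroup.relIndex_mul_relIndex _ _ _ hHL hLK]
    exact Dvd.intro _ rfl
  have hB2 : 1 < B.ncard := (Set.one_lt_ncard (Set.toFinite _)).mpr ⟨a, haB, b1, hb1B, Ne.symm hb1a⟩
  have hCn : C.ncard = B.ncard := Set.ncard_smul_set _ _
  have hBodd : Odd B.ncard := hodd.of_dvd_nat hcardB
  obtain ⟨d, hdB, hdC⟩ : ∃ d, d ∉ B ∧ d ∉ C := by
    by_contra hall
    push Not at hall
    have h : (Set.univ : Set (G ⧸ M)) = B ∪ C := by
      ext w
      simp only [Set.mem_univ, Set.mem_union, true_iff]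
      by_cases hw : w ∈ B
      · exact Or.inl hw
      · exact Or.inr (hall w hw)
    have h2 : n = B.ncard + C.ncard := by
      rw [← Set.ncard_union_eq (Set.disjoint_left.mpr fun w h1 h2 => hCB w h2 h1), ← h, Set.ncard_univ]
      exact hn.symm
    rw [h2, hCn] at hodd
    exact absurd hodd (by simp)
  obtain ⟨c1, hc1, c2, hc2, hc⟩ := (Set.one_lt_ncard (Set.toFinite _)).mp (hCn.symm ▸ hB2)
  let MB : Subgroup G := M ⊓ MulAction.stabilizer G B
  have hLS : L ≤ MulAction.stabilizer G B := fun l hl => MulAction.mem_stabilizer_set.mpr fun w =>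
    ⟨fun h => by simpa using hLB l⁻¹ (inv_mem hl) _ h, hLB l hl w⟩
  have hMB : MB ≤ K := by
    have hle : H.subgroupOf M ≤ MB.subgroupOf M := fun h hh => ⟨h.2, hLS (hHL hh)⟩
    rcases hmax.le_iff.mp hle with htop | heq
    · exfalso
      obtain ⟨g, h1, _, _, h0⟩ := cyc b1 c1 d (fun h => hCB c1 hc1 (h ▸ hb1B))
        (fun h => hdB (h ▸ hb1B)) (fun h => hdC (h ▸ hc1))
      have hgM : g ∈ M := (hMa g).mp (h0 a (Ne.symm hb1a) (fun h => hCB c1 hc1 (h ▸ haB)) (fun h => hdB (h ▸ haB)))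
      have hg : g ∈ MB := (htop ▸ Subgroup.mem_top _ : (⟨g, hgM⟩ : M) ∈ MB.subgroupOf M)
      exact hdB (h1 ▸ (MulAction.mem_stabilizer_set.mp hg.2 b1).mpr hb1B)
    · intro g hg
      exact hHK ((heq ▸ hg : (⟨g, hg.1⟩ : M) ∈ H.subgroupOf M))
  obtain ⟨g, h1, h2, h3, h0⟩ := cyc c1 d c2 (fun h => hdC (h ▸ hc1)) hc (fun h => hdC (h ▸ hc2))
  have hfix : ∀ w ∈ B, g • w = w := fun w hw => h0 w (fun h => hCB c1 hc1 (h ▸ hw)) (fun h => hdB (h ▸ hw))
    (fun h => hCB c2 hc2 (h ▸ hw))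
  have hgK : g ∈ K := by
    refine hMB ⟨(hMa g).mp (hfix a haB), ?_⟩
    refine MulAction.mem_stabilizer_set.mpr fun w => ⟨fun h => ?_, fun h => (hfix w h).symm ▸ h⟩
    have : w = g • w := MulAction.injective g (hfix _ h).symm
    exact this ▸ h
  obtain ⟨v1, hv1, e1⟩ := hc1
  obtain ⟨v2, hv2, e2⟩ := hc2
  have hx : (k : G)⁻¹ * g * k ∈ L := by
    refine hblock _ (mul_mem (mul_mem (inv_mem k.2) hgK) k.2) v1 hv1 ?_
    rw [mul_smul, mul_smul, show (k : G) • v1 = c1 from e1, h1, ← e2, inv_smul_smul]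
    exact hv2
  have hd' := hLB _ hx v2 hv2
  rw [mul_smul, mul_smul, show (k : G) • v2 = c2 from e2, h2] at hd'
  exact hdC ⟨_, hd', smul_inv_smul _ d⟩

end Cfsg.Agent.S5885
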