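import Cfsg.Statements.S5886
import Cfsg.Agent.Lib.Derangements.FieldNormMain
import Cfsg.Agent.Lib.SmallDim.Transvection
import Cfsg.Agent.Lib.ClassicalLinear.Generation

set_option autoImplicit false
open Cfsg
open scoped Matrix

namespace Cfsg.Agent.S5886

/-- Let F be a finite field, n a positive integer and r a prime that divides n with r < n. Let K be a subalgebra of the algebra of n × n matrices over F which is a field of degree r over F (commutative, every non-zero element invertible, of dimension r over F; it contains the scalars). Then the normaliser N of K in GL_n(F) — the invertible F-linear maps that are semilinear over the field K, a group of type ΓL_{n/r}(F_{q^r}) for |F| = q — is a maximal subgroup of GL_n(F), and N ∩ SL_n(F) is a maximal subgroup of SL_n(F). No lower bound on n is assumed. -/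
theorem result {F : Type*} [Field F]
    [Fintype F] (n r : ℕ) (hr : r.Prime) (hrn : r ∣ n) (hlt : r < n) (K : Subalgebra F (Matrix (Fin n) (Fin n) F))
    (hK : Cfsg.Geo.IsFieldSubalgebra r K) :
    IsCoatom (Cfsg.Geo.subalgebraNormalizer K) ∧
      Cfsg.Geo.IsMaximalIn (Cfsg.Geo.specialLinear (Fin n) F)
        (Cfsg.Geo.subalgebraNormalizer K ⊓ Cfsg.Geo.specialLinear (Fin n) F) := by
  classical
  obtain ⟨k, hk⟩ := hrn
  have hk2 : 2 ≤ k := by
    by_contra hc
    rcases (show k = 0 ∨ k = 1 by omega) with rfl | rfl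
    · omega
    · omega
  have hn3 : 3 ≤ Fintype.card (Fin n) := by
    rw [Fintype.card_fin]
    have h1 := Nat.mul_le_mul hr.two_le hk2
    omega
  have hne : ¬ Cfsg.Geo.specialLinear (Fin n) F ≤ Cfsg.Geo.subalgebraNormalizer K :=
    CfsgLib.SmallDim.not_sl_le_subalgebraNormalizer hn3 hr.two_le hK
  have : Nontrivial K := Module.nontrivial_of_finrank_pos (R := F) (by rw [hK.finrank_eq]; exact hr.pos)
  let instCR : CommRing K :=
    { (inferInstance : Ring K) with mul_comm := fun a b => Subtype.ext (hK.comm a a.2 b b.2) }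
  have hfield : IsField K := by
    refine ⟨exists_pair_ne K, fun a b => Subtype.ext (hK.comm a a.2 b b.2), fun {a} ha => ?_⟩
    obtain ⟨y, hy, hay⟩ := hK.inv a a.2 (fun h0 => ha (Subtype.ext h0))
    exact ⟨⟨y, hy⟩, Subtype.ext hay⟩
  let instField : Field K := hfield.toField
  let instAlg : Algebra F K := inferInstance
  let instMod : Module K (Fin n → F) := inferInstanceAs (Module K.toSubsemiring (Fin n → F))
  have hsmul : ∀ (a : K) (x : Fin n → F), a • x = (a : Matrix (Fin n) (Fin n) F) *ᵥ x := fun a x => rfl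
  have : IsScalarTower F K (Fin n → F) := ⟨fun c a x => by
    rw [hsmul, hsmul, Subalgebra.coe_smul, Matrix.smul_mulVec]⟩
  have : Module.Finite F K := Module.finite_of_finrank_pos (by rw [hK.finrank_eq]; exact hr.pos)
  let E : GL (Fin n) F ≃* ((Fin n → F) ≃ₗ[F] (Fin n → F)) :=
    Matrix.GeneralLinearGroup.toLin.trans (LinearMap.GeneralLinearGroup.generalLinearEquiv F (Fin n → F))
  have hE : ∀ (g : GL (Fin n) F) (x : Fin n → F), E g x = (g : Matrix (Fin n) (Fin n) F) *ᵥ x := fun g x => rfl
  have hdet : ∀ g : GL (Fin n) F, LinearMap.det ((E g) : (Fin n → F) →ₗ[F] (Fin n → F)) =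
      ((g : Matrix (Fin n) (Fin n) F)).det := fun g => by
    rw [show ((E g) : (Fin n → F) →ₗ[F] (Fin n → F)) = Matrix.toLin' (g : Matrix (Fin n) (Fin n) F) from
      LinearMap.ext fun x => by rw [Matrix.toLin'_apply]; exact hE g x, LinearMap.det_toLin']
  have hSL : ∀ g : GL (Fin n) F, g ∈ Cfsg.Geo.specialLinear (Fin n) F ↔ ((g : Matrix (Fin n) (Fin n) F)).det = 1 := fun g =>
    ⟨fun hg => congrArg Units.val (MonoidHom.mem_ker.1 hg), fun hg => MonoidHom.mem_ker.2 (Units.ext hg)⟩
  have hsemi : ∀ g : GL (Fin n) F, g ∈ Cfsg.Geo.subalgebraNormalizer K ↔ CfsgLib.Derangements.FieldNorm.Semi K (E g) := by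
    intro g
    constructor
    · intro hg a
      refine ⟨⟨_, (hg (a : Matrix (Fin n) (Fin n) F)).1 a.2⟩, fun x => ?_⟩
      show E g ((a : Matrix (Fin n) (Fin n) F) *ᵥ x) = _ *ᵥ (E g x)
      simp only [hE, Matrix.mulVec_mulVec]
      congr 1
      rw [mul_assoc, ← Units.val_mul, inv_mul_cancel, Units.val_one, mul_one]
    · intro hg
      have himg : ∀ a : K, (g : Matrix (Fin n) (Fin n) F) * a * ((g⁻¹ : GL (Fin n) F) : Matrix (Fin n) (Fin n) F) ∈ K := by
        intro a
        obtain ⟨b, hb⟩ := hg a
        have h1 : (g : Matrix (Fin n) (Fin n) F) * a = (b : Matrix (Fin n) (Fin n) F) * g :=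
          Matrix.toLin'.injective (LinearMap.ext fun x => by
            rw [Matrix.toLin'_apply, Matrix.toLin'_apply, ← Matrix.mulVec_mulVec, ← Matrix.mulVec_mulVec]
            exact hb x)
        rw [h1, mul_assoc, ← Units.val_mul, mul_inv_cancel, Units.val_one, mul_one]
        exact b.2
      have : Finite K := Module.finite_of_finite F
      let c : K → K := fun a => ⟨_, himg a⟩
      have hc : Function.Surjective c := Finite.injective_iff_surjective.1 fun a a' h => by
        have h1 := congrArg Subtype.val h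
        exact Subtype.ext (g.isUnit.mul_left_cancel ((g⁻¹).isUnit.mul_right_cancel h1))
      refine fun a => ⟨fun ha => himg ⟨a, ha⟩, fun ha => ?_⟩
      obtain ⟨a', ha'⟩ := hc ⟨_, ha⟩
      have h1 := congrArg Subtype.val ha'
      rw [← g.isUnit.mul_left_cancel ((g⁻¹).isUnit.mul_right_cancel h1)]
      exact a'.2
  have hrk : Module.finrank F K = r := hK.finrank_eq
  have hm : 2 ≤ Module.finrank K (Fin n → F) := by
    have h1 := Module.finrank_mul_finrank F K (Fin n → F)
    rw [hrk, Module.finrank_fin_fun] at h1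
    rw [Nat.eq_of_mul_eq_mul_left hr.pos (h1.trans hk)]; exact hk2
  -- the main claim
  have main : ∀ X : Subgroup (GL (Fin n) F),
      Cfsg.Geo.subalgebraNormalizer K ⊓ Cfsg.Geo.specialLinear (Fin n) F ≤ X →
      ¬ X ≤ Cfsg.Geo.subalgebraNormalizer K → Cfsg.Geo.specialLinear (Fin n) F ≤ X := by
    intro X hNX hXN
    have hover : CfsgLib.Derangements.FieldNorm.Over K (X.map E.toMonoidHom) := by
      refine ⟨by rw [hrk]; exact hr, hm, fun g hg hgs => ?_, ?_⟩
      · obtain ⟨g, rfl⟩ := E.surjective g
        exact ⟨g, hNX ⟨(hsemi g).2 hgs, (hSL g).2 ((hdet g).symm.trans hg)⟩, rfl⟩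
      · obtain ⟨g, hgX, hgN⟩ := SetLike.not_le_iff_exists.1 hXN
        exact ⟨E g, ⟨g, hgX, rfl⟩, fun h => hgN ((hsemi g).2 h)⟩
    intro g hg
    have hg' : g ∈ (Matrix.SpecialLinearGroup.toGL : Matrix.SpecialLinearGroup (Fin n) F →* GL (Fin n) F).range := by
      rw [CfsgLib.ClassicalLinear.toGL_range_eq_ker_det]; exact hg
    obtain ⟨x, rfl⟩ := hg'
    have htop : X.comap (Matrix.SpecialLinearGroup.toGL : Matrix.SpecialLinearGroup (Fin n) F →* GL (Fin n) F) = ⊤ := by
      refine CfsgLib.ClassicalLinear.eq_top_of_transvection_mem fun i j hij c => ?_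
      let f : (Fin n → F) →ₗ[F] F := c • LinearMap.proj j
      have hfz : f (Pi.single i 1) = 0 := by simp [f, Pi.single_eq_of_ne hij.symm]
      obtain ⟨t, ht, hte⟩ := Subgroup.mem_map.1 (CfsgLib.Derangements.FieldNorm.transvection_mem hover hfz)
      rw [Subgroup.mem_comap]
      have : Matrix.SpecialLinearGroup.toGL (Matrix.SpecialLinearGroup.transvection hij c) = t := by
        apply E.injective
        refine LinearEquiv.ext fun y => ?_
        rw [show E t = LinearEquiv.transvection hfz from hte, hE, LinearEquiv.transvection.apply]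
        show Matrix.transvection i j c *ᵥ y = _
        rw [Matrix.transvection, Matrix.add_mulVec, Matrix.one_mulVec]
        congr 1
        ext l
        rcases eq_or_ne l i with rfl | hl
        · simp [f, Matrix.mulVec, dotProduct, Matrix.single_apply]
        · simp [f, Matrix.mulVec, dotProduct, Matrix.single_apply, hl, Ne.symm hl]
      rw [this]; exact ht
    exact (show x ∈ X.comap _ from htop ▸ Subgroup.mem_top x)
  refine ⟨⟨fun h => hne (h ▸ le_top), fun X hX => ?_⟩, ⟨lt_of_le_of_ne inf_le_right fun h => hne (h ▸ inf_le_left),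
    fun M h1 h2 => ?_⟩⟩
  · have hSLX := main X (inf_le_left.trans hX.le) hX.not_ge
    rw [eq_top_iff]
    intro g _
    obtain ⟨v₀, hv₀⟩ : ∃ v : Fin n → F, v ≠ 0 := by
      have : Nontrivial (Fin n → F) := Module.nontrivial_of_finrank_pos (R := F) (by rw [Module.finrank_fin_fun]; omega)
      exact exists_ne 0
    obtain ⟨ψ, hψ⟩ := CfsgLib.Derangements.FieldNorm.exists_dual_one (L := K) hv₀
    have : Finite K := Module.finite_of_finite F
    obtain ⟨c, hc⟩ := FiniteField.norm_surjective F K ((g : Matrix (Fin n) (Fin n) F)).det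
    have hc0 : c ≠ 0 := fun h0 => Matrix.GeneralLinearGroup.det_ne_zero g (by rw [← hc, h0, Algebra.norm_zero])
    have hval : 1 + ψ ((c - 1) • v₀) = c := by rw [map_smul, hψ, smul_eq_mul, mul_one, add_sub_cancel]
    have hU : IsUnit (1 + ψ ((c - 1) • v₀)) := by rw [hval]; exact hc0.isUnit
    have : Module.Finite K (Fin n → F) := Module.Finite.of_restrictScalars_finite F K (Fin n → F)
    obtain ⟨h, hh⟩ := E.surjective ((LinearEquiv.dilatransvection hU).restrictScalars F)
    have hhN : h ∈ Cfsg.Geo.subalgebraNormalizer K :=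
      (hsemi h).2 (hh ▸ CfsgLib.Derangements.FieldNorm.semi_restrict _)
    have hhdet : ((h : Matrix (Fin n) (Fin n) F)).det = ((g : Matrix (Fin n) (Fin n) F)).det := by
      rw [← hdet, hh]
      show LinearMap.det (((LinearEquiv.dilatransvection hU) : (Fin n → F) →ₗ[K] (Fin n → F)).restrictScalars F) = _
      rw [LinearMap.det_restrictScalars, LinearEquiv.dilatransvection.coe_toLinearMap, LinearMap.transvection.det,
        hval, hc]
    have h3 : g * h⁻¹ ∈ X := hSLX (MonoidHom.mem_ker.2 (by
      rw [map_mul, map_inv, mul_inv_eq_one]; exact Units.ext hhdet.symm))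
    simpa using X.mul_mem h3 (hX.le hhN)
  · by_cases hMN : M ≤ Cfsg.Geo.subalgebraNormalizer K
    · exact Or.inl (le_antisymm (le_inf hMN h2) h1)
    · exact Or.inr (le_antisymm h2 (main M h1 hMN))

end Cfsg.Agent.S5886
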