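import Cfsg.Statements.S5887
-- import your own Cfsg.Agent.* helpers here

set_option autoImplicit false
open Cfsg

namespace Cfsg.Agent.S5887

open Matrix Module

section

variable {F : Type*} [Field F] [Fintype F] {n : ℕ}

/-- The field structure on a field subalgebra. -/
@[implicit_reducible]
noncomputable def subalgField {r : ℕ} {K : Subalgebra F (Matrix (Fin n) (Fin n) F)}
    (hK : Cfsg.Geo.IsFieldSubalgebra r K) (hr : r ≠ 0) : Field K :=
  letI : CommRing K := { (inferInstance : Ring K) with mul_comm := fun x y => Subtype.ext (hK.comm x x.2 y y.2) }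
  IsField.toField
    { exists_pair_ne := by
        have h : Nontrivial K := Module.nontrivial_of_finrank_pos (R := F) (by rw [hK.finrank_eq]; omega)
        exact h.exists_pair_ne
      mul_comm := fun x y => Subtype.ext (hK.comm x x.2 y y.2)
      mul_inv_cancel := fun {x} hx => by
        obtain ⟨y, hy, hxy⟩ := hK.inv x x.2 (fun h => hx (Subtype.ext h))
        exact ⟨⟨y, hy⟩, Subtype.ext hxy⟩ }

lemma exists_intermediate {K : Type*} [Field K] [Finite K] [Algebra F K] (s : ℕ) (hs : 0 < s)
    (hsr : s ∣ Module.finrank F K) :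
    ∃ L : IntermediateField F K, Module.finrank F L = s ∧ ∀ x : K, x ∈ L ↔ x ^ (Fintype.card F) ^ s = x := by
  set φ := FiniteField.frobeniusAlgEquivOfAlgebraic F K with hφ
  set H := Subgroup.zpowers (φ ^ s) with hH
  have happ : ∀ x : K, (φ ^ s) x = x ^ (Fintype.card F) ^ s := fun x => by
    rw [AlgEquiv.coe_pow, hφ, FiniteField.coe_frobeniusAlgEquivOfAlgebraic_iterate]
  refine ⟨IntermediateField.fixedField H, ?_, fun x => ?_⟩
  · have h1 : Module.finrank (IntermediateField.fixedField H) K = Module.finrank F K / s := by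
      rw [IntermediateField.finrank_fixedField_eq_card, hH, Nat.card_zpowers, orderOf_pow_of_dvd (by omega)
        (by rwa [hφ, FiniteField.orderOf_frobeniusAlgEquivOfAlgebraic]), hφ, FiniteField.orderOf_frobeniusAlgEquivOfAlgebraic]
    have h2 := Module.finrank_mul_finrank F (IntermediateField.fixedField H) K
    have hpos : 0 < Module.finrank F K := Module.finrank_pos
    obtain ⟨k, hk⟩ := hsr
    rw [h1, hk, Nat.mul_div_cancel_left _ hs] at h2
    exact Nat.eq_of_mul_eq_mul_right (by rcases Nat.eq_zero_or_pos k with rfl | h <;> simp_all) h2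
  · rw [IntermediateField.mem_fixedField_iff]
    constructor
    · intro h
      exact (happ x).symm.trans (h _ (Subgroup.mem_zpowers _))
    · intro h g hg
      have hst : (φ ^ s) ∈ MulAction.stabilizer (K ≃ₐ[F] K) x := (happ x).trans h
      exact Subgroup.zpowers_le.mpr hst hg

/-- The intermediate subalgebra of degree `s`. -/
lemma exists_sub {r : ℕ} {K : Subalgebra F (Matrix (Fin n) (Fin n) F)} (hK : Cfsg.Geo.IsFieldSubalgebra r K)
    (hr : r ≠ 0) (s : ℕ) (hs : 0 < s) (hsr : s ∣ r) :
    ∃ L : Subalgebra F (Matrix (Fin n) (Fin n) F), Cfsg.Geo.IsFieldSubalgebra s L ∧ L ≤ K ∧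
      Cfsg.Geo.subalgebraNormalizer K ≤ Cfsg.Geo.subalgebraNormalizer L := by
  have hpow : ∀ (x : K) (m : ℕ), ((x ^ m : K) : Matrix (Fin n) (Fin n) F) = (x : Matrix (Fin n) (Fin n) F) ^ m :=
    fun x m => map_pow K.val x m
  letI := subalgField hK hr
  have : Finite K := Finite.of_injective (fun x : K => (x : Matrix (Fin n) (Fin n) F)) Subtype.val_injective
  obtain ⟨L₀, hL₀, hmem⟩ := exists_intermediate (F := F) (K := K) s hs (by rw [show Module.finrank F K = r from hK.finrank_eq]; exact hsr)
  refine ⟨L₀.toSubalgebra.map K.val, ⟨?_, ?_, ?_⟩, ?_, ?_⟩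
  · rintro _ ⟨x, -, rfl⟩ _ ⟨y, -, rfl⟩
    exact hK.comm x x.2 y y.2
  · rintro _ ⟨x, hx, rfl⟩ hne
    have hx0 : x ≠ 0 := fun h => hne (by simp [h])
    exact ⟨K.val x⁻¹, ⟨x⁻¹, L₀.inv_mem hx, rfl⟩, congrArg Subtype.val (mul_inv_cancel₀ hx0)⟩
  · rw [← hL₀]
    exact ((L₀.toSubalgebra.equivMapOfInjective K.val Subtype.val_injective).toLinearEquiv.finrank_eq).symm
  · rintro _ ⟨x, -, rfl⟩
    exact x.2
  · intro g hg
    have key : ∀ h : GL (Fin n) F, h ∈ Cfsg.Geo.subalgebraNormalizer K → ∀ k ∈ L₀.toSubalgebra.map K.val,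
        (h : Matrix (Fin n) (Fin n) F) * k * ((h⁻¹ : GL (Fin n) F) : Matrix (Fin n) (Fin n) F) ∈ L₀.toSubalgebra.map K.val := by
      rintro h hh _ ⟨x, hx, rfl⟩
      have hx' : (x : Matrix (Fin n) (Fin n) F) ^ (Fintype.card F) ^ s = (x : Matrix (Fin n) (Fin n) F) :=
        (hpow x _).symm.trans (congrArg Subtype.val ((hmem x).mp hx))
      refine ⟨⟨_, (hh (x : Matrix (Fin n) (Fin n) F)).mp x.2⟩, (hmem _).mpr (Subtype.ext ((hpow _ _).trans ?_)), rfl⟩
      exact (Units.conj_pow h _ _).trans
        (congrArg (fun z => (h : Matrix (Fin n) (Fin n) F) * z * ((h⁻¹ : GL (Fin n) F) : Matrix (Fin n) (Fin n) F)) hx')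
    intro k
    refine ⟨key g hg k, fun hk => ?_⟩
    have := key g⁻¹ (inv_mem hg) _ hk
    simpa [mul_assoc] using this

lemma exists_nilp {E : Type*} [Field E] [Algebra F E] [FiniteDimensional F E]
    (ρ : E →ₐ[F] Matrix (Fin n) (Fin n) F) (h2 : Module.finrank F E < n) :
    ∃ X : Matrix (Fin n) (Fin n) F, X ≠ 0 ∧ X * X = 0 ∧ (∀ a, ρ a * X = X * ρ a) ∧
      Module.finrank F (LinearMap.range (Matrix.toLin' X)) ≤ Module.finrank F E := by
  letI : Module E (Fin n → F) := Module.compHom _ ((Matrix.toLinAlgEquiv'.toAlgHom.comp ρ).toRingHom)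
  have hsmul : ∀ (a : E) (v : Fin n → F), a • v = Matrix.mulVec (ρ a) v := fun a v => rfl
  haveI : IsScalarTower F E (Fin n → F) := ⟨fun c a v => by rw [hsmul, hsmul, map_smul, Matrix.smul_mulVec]⟩
  let x : Fin n → F := fun _ => 1
  have hx : x ≠ 0 := fun h => one_ne_zero (congrFun h ⟨0, by omega⟩)
  obtain ⟨v, hv⟩ : ∃ v : Fin n → F, v ∉ Submodule.span E {x} := by
    by_contra hall
    push Not at hall
    let μ : E →ₗ[F] (Fin n → F) :=
      { toFun := fun a => a • x
        map_add' := fun a b => add_smul a b x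
        map_smul' := fun c a => smul_assoc c a x }
    have hs : Function.Surjective μ := fun w => Submodule.mem_span_singleton.mp (hall w)
    have := LinearMap.finrank_le_finrank_of_injective
      (f := Classical.choose (LinearMap.exists_rightInverse_of_surjective μ (LinearMap.range_eq_top.mpr hs))) (by
        intro a b hab
        have h := Classical.choose_spec (LinearMap.exists_rightInverse_of_surjective μ (LinearMap.range_eq_top.mpr hs))
        have := congrArg μ hab
        rw [← LinearMap.comp_apply, ← LinearMap.comp_apply, h] at this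
        simpa using this)
    simp at this
    omega
  have hv0 : v ≠ 0 := fun h => hv (h ▸ zero_mem _)
  have hind : LinearIndependent E ![v, x] := LinearIndependent.pair_iff.mpr fun a b hab => by
    have ha : a = 0 := by
      by_contra ha
      refine hv (Submodule.mem_span_singleton.mpr ⟨-(a⁻¹ * b), ?_⟩)
      have := congrArg (fun w => a⁻¹ • w) hab
      simp only [smul_add, smul_zero, smul_smul, inv_mul_cancel₀ ha, one_smul] at this
      rw [eq_neg_of_add_eq_zero_left this, neg_smul]
    subst ha
    simp only [zero_smul, zero_add] at hab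
    exact ⟨rfl, (smul_eq_zero.mp hab).resolve_right hx⟩
  let B := Basis.span hind
  let ι : Submodule.span E (Set.range ![v, x]) →ₗ[E] E := B.coord 1
  obtain ⟨φ, hφ⟩ := LinearMap.exists_extend ι
  have hval : ∀ i, φ (![v, x] i) = if i = 1 then 1 else 0 := by
    intro i
    have h1 : φ (B i : Fin n → F) = ι (B i) := LinearMap.congr_fun hφ (B i)
    rw [show (B i : Fin n → F) = ![v, x] i by simp [B, Basis.span_apply]] at h1
    rw [h1]
    simp [ι, Basis.coord_apply, Finsupp.single_apply]
  let Y : (Fin n → F) →ₗ[F] (Fin n → F) :=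
    { toFun := fun w => φ w • v
      map_add' := fun a b => by rw [map_add, add_smul]
      map_smul' := fun c w => by
        rw [LinearMap.map_smul_of_tower, RingHom.id_apply, smul_assoc] }
  have hX : ∀ w, Matrix.mulVec (LinearMap.toMatrix' Y) w = φ w • v := fun w => by
    rw [← Matrix.toLin'_apply, Matrix.toLin'_toMatrix']; rfl
  have hφv : φ v = 0 := by simpa using hval 0
  refine ⟨LinearMap.toMatrix' Y, fun h => hv0 ?_, ?_, fun a => ?_, ?_⟩
  · have := hX x
    rw [h, Matrix.zero_mulVec, show φ x = 1 by simpa using hval 1, one_smul] at this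
    exact this.symm
  · apply Matrix.toLin'.injective
    refine LinearMap.ext fun w => ?_
    simp only [Matrix.toLin'_apply, map_zero, LinearMap.zero_apply, ← Matrix.mulVec_mulVec, hX, map_smul, hφv, smul_zero, zero_smul]
  · apply Matrix.toLin'.injective
    refine LinearMap.ext fun w => ?_
    simp only [Matrix.toLin'_apply, ← Matrix.mulVec_mulVec, hX, ← hsmul, map_smul, smul_smul, smul_eq_mul]
  · rw [Matrix.toLin'_toMatrix']
    let μ : E →ₗ[F] (Fin n → F) :=
      { toFun := fun a => a • v
        map_add' := fun a b => add_smul a b v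
        map_smul' := fun c a => smul_assoc c a v }
    refine le_trans (Submodule.finrank_mono ?_) (LinearMap.finrank_range_le μ)
    rintro _ ⟨w, rfl⟩
    exact ⟨φ w, rfl⟩

lemma exists_outside {a b : ℕ} (A B : Subalgebra F (Matrix (Fin n) (Fin n) F))
    (hA : Cfsg.Geo.IsFieldSubalgebra a A) (hB : Cfsg.Geo.IsFieldSubalgebra b B) (ha : 0 < a) (hab : a < b)
    (hn : 2 * a < n) :
    ∃ t : GL (Fin n) F, t ∈ Cfsg.Geo.specialLinear (Fin n) F ∧ t ∈ Cfsg.Geo.subalgebraNormalizer A ∧
      t ∉ Cfsg.Geo.subalgebraNormalizer B := by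
  letI := subalgField hA ha.ne'
  have hfA : Module.finrank F A = a := hA.finrank_eq
  obtain ⟨X, hX0, hXX, hXA, hXr⟩ := exists_nilp A.val (by rw [hfA]; omega)
  rw [hfA] at hXr
  let t : GL (Fin n) F := ⟨1 + X, 1 - X, by simp [mul_sub, add_mul, hXX], by simp [mul_add, sub_mul, hXX]⟩
  refine ⟨t, ?_, ?_, ?_⟩
  · obtain ⟨p, hp⟩ := CharP.exists F
    have hpp : Fact p.Prime := ⟨CharP.char_is_prime F p⟩
    have : ExpChar F p := .prime hpp.out
    have hpow : ∀ k : ℕ, (1 + X) ^ k = 1 + (k : F) • X := by
      intro k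
      induction k with
      | zero => simp
      | succ k ih => rw [pow_succ, ih]; simp [mul_add, add_mul, hXX, add_smul]; abel
    have h1 : Matrix.det (1 + X) ^ p = (1 : F) ^ p := by
      rw [← Matrix.det_pow, hpow, CharP.cast_eq_zero, zero_smul, add_zero, Matrix.det_one, one_pow]
    have h2 : Matrix.det (1 + X) = 1 := frobenius_inj F p h1
    rw [Cfsg.Geo.specialLinear, MonoidHom.mem_ker]
    exact Units.ext h2
  · intro k
    have key : ∀ k ∈ A, (1 + X) * k * (1 - X) = k ∧ (1 - X) * k * (1 + X) = k := by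
      intro k hk
      have h : X * k = k * X := (hXA ⟨k, hk⟩).symm
      constructor
      · rw [add_mul, h, one_mul]
        simp [mul_sub, add_mul, mul_assoc, hXX]
      · rw [sub_mul, h, one_mul]
        simp [mul_add, sub_mul, mul_assoc, hXX]
    show k ∈ A ↔ (1 + X) * k * (1 - X) ∈ A
    refine ⟨fun hk => by rw [(key k hk).1]; exact hk, fun hk => ?_⟩
    have h := (key _ hk).2
    rw [show (1 - X) * ((1 + X) * k * (1 - X)) * (1 + X) = ((1 - X) * (1 + X)) * k * ((1 - X) * (1 + X)) by
      simp [mul_assoc], show (1 - X) * (1 + X) = 1 by simp [mul_add, sub_mul, hXX], one_mul, mul_one] at h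
    rw [h]; exact hk
  · intro ht
    letI := subalgField hB (by omega)
    -- every element of B commutes with X
    have hcomm : ∀ k ∈ B, X * k = k * X := by
      intro k hk
      rcases eq_or_ne k 0 with rfl | hk0
      · simp
      obtain ⟨k', hk', hkk'⟩ := hB.inv k hk hk0
      have hconj : (1 + X) * k * (1 - X) ∈ B := (ht k).mp hk
      set z := (1 + X) * k * (1 - X) with hz
      have hzt : z * (1 + X) = (1 + X) * k := by
        rw [hz, mul_assoc, show (1 - X) * (1 + X) = 1 by simp [mul_add, sub_mul, hXX], mul_one]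
      suffices h : z = k by
        rw [h, mul_add, add_mul, one_mul, mul_one] at hzt
        exact (add_left_cancel hzt).symm
      by_contra hne
      obtain ⟨y, -, hy⟩ := hB.inv (z - k) (sub_mem hconj hk) (sub_ne_zero.mpr hne)
      -- a vector killed by X and by X k
      let S := LinearMap.ker (Matrix.toLin' X) ⊓ LinearMap.ker ((Matrix.toLin' X).comp (Matrix.toLin' k))
      have hdim : 0 < Module.finrank F S := by
        have e1 := LinearMap.finrank_range_add_finrank_ker (Matrix.toLin' X)
        have e2 := LinearMap.finrank_range_add_finrank_ker ((Matrix.toLin' X).comp (Matrix.toLin' k))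
        have e3 := Submodule.finrank_mono (LinearMap.range_comp_le_range (Matrix.toLin' k) (Matrix.toLin' X))
        have e4 := Submodule.finrank_sup_add_finrank_inf_eq (LinearMap.ker (Matrix.toLin' X))
          (LinearMap.ker ((Matrix.toLin' X).comp (Matrix.toLin' k)))
        have e5 := Submodule.finrank_le (LinearMap.ker (Matrix.toLin' X) ⊔ LinearMap.ker ((Matrix.toLin' X).comp (Matrix.toLin' k)))
        simp only [Module.finrank_fin_fun] at e1 e2 e5
        show 0 < Module.finrank F (LinearMap.ker (Matrix.toLin' X) ⊓ LinearMap.ker ((Matrix.toLin' X).comp (Matrix.toLin' k)) : Submodule F _)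
        omega
      obtain ⟨⟨w, hw1, hw2⟩, hw0⟩ := Module.finrank_pos_iff_exists_ne_zero.mp hdim
      have hw1' : Matrix.mulVec X w = 0 := hw1
      have hw2' : Matrix.mulVec X (Matrix.mulVec k w) = 0 := hw2
      have h := congrArg (fun M => Matrix.mulVec M w) hzt
      simp only [← Matrix.mulVec_mulVec, Matrix.add_mulVec, Matrix.one_mulVec, hw1', hw2', add_zero] at h
      have hyw : Matrix.mulVec (y * (z - k)) w = 0 := by
        rw [← Matrix.mulVec_mulVec, Matrix.sub_mulVec, h, sub_self, Matrix.mulVec_zero]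
      rw [mul_eq_one_comm.mp hy, Matrix.one_mulVec] at hyw
      exact hw0 (Subtype.ext hyw)
    obtain ⟨w, hw⟩ : ∃ w, Matrix.mulVec X w ≠ 0 := by
      by_contra hall
      push Not at hall
      exact hX0 (Matrix.toLin'.injective (LinearMap.ext fun w => by simp [hall w]))
    let μ : B →ₗ[F] LinearMap.range (Matrix.toLin' X) :=
      { toFun := fun k => ⟨Matrix.mulVec (k : Matrix (Fin n) (Fin n) F) (Matrix.mulVec X w),
          Matrix.mulVec (k : Matrix (Fin n) (Fin n) F) w, by
            simp [Matrix.mulVec_mulVec, hcomm _ k.2]⟩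
        map_add' := fun k l => Subtype.ext (by simp [Matrix.add_mulVec, add_mul])
        map_smul' := fun c k => Subtype.ext (by simp [Matrix.smul_mulVec]) }
    have hμ : Function.Injective μ := by
      rw [injective_iff_map_eq_zero]
      intro k hk
      by_contra hk0
      obtain ⟨y, -, hy⟩ := hB.inv k k.2 (fun h => hk0 (Subtype.ext h))
      have h := congrArg (fun v : LinearMap.range (Matrix.toLin' X) => Matrix.mulVec y (v : Fin n → F)) hk
      simp only [μ, LinearMap.coe_mk, AddHom.coe_mk, ZeroMemClass.coe_zero, Matrix.mulVec_zero, Matrix.mulVec_mulVec] at h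
      rw [← mul_assoc, mul_eq_one_comm.mp hy, one_mul] at h
      exact hw h
    have := LinearMap.finrank_le_finrank_of_injective hμ
    rw [hB.finrank_eq] at this
    omega

lemma scalars_field : Cfsg.Geo.IsFieldSubalgebra 1 (⊥ : Subalgebra F (Matrix (Fin (n + 1)) (Fin (n + 1)) F)) where
  comm := by
    rintro x hx y hy
    obtain ⟨c, rfl⟩ := Algebra.mem_bot.mp hx
    exact Algebra.commutes c y
  inv := by
    rintro x hx h0
    obtain ⟨c, rfl⟩ := Algebra.mem_bot.mp hx
    have hc : c ≠ 0 := fun h => h0 (by simp [h])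
    exact ⟨algebraMap F _ c⁻¹, Algebra.mem_bot.mpr ⟨c⁻¹, rfl⟩, by rw [← map_mul, mul_inv_cancel₀ hc, map_one]⟩
  finrank_eq := Subalgebra.finrank_bot

end

/-- Let F be a finite field, n a positive integer and r a composite number (r > 1, not prime) that divides n with r < n. Let K be a subalgebra of the algebra of n × n matrices over F which is a field of degree r over F (commutative, every non-zero element invertible, of dimension r over F). Then the normaliser N of K in GL_n(F) (a group of type ΓL_{n/r}(F_{q^r})) is not a maximal subgroup of GL_n(F), and N ∩ SL_n(F) is not a maximal subgroup of SL_n(F): both lie properly inside the normaliser of an intermediate subfield of prime degree over F. -/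
theorem result {F : Type*} [Field F]
    [Fintype F] (n r : ℕ) (hr1 : 1 < r) (hrp : ¬ r.Prime) (hrn : r ∣ n) (hlt : r < n)
    (K : Subalgebra F (Matrix (Fin n) (Fin n) F)) (hK : Cfsg.Geo.IsFieldSubalgebra r K) :
    ¬ IsCoatom (Cfsg.Geo.subalgebraNormalizer K) ∧
      ¬ Cfsg.Geo.IsMaximalIn (Cfsg.Geo.specialLinear (Fin n) F)
        (Cfsg.Geo.subalgebraNormalizer K ⊓ Cfsg.Geo.specialLinear (Fin n) F) := by
  set s := r.minFac with hs
  have hsp : s.Prime := Nat.minFac_prime (by omega)
  have hsr : s ∣ r := Nat.minFac_dvd r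
  have hslt : s < r := lt_of_le_of_ne (Nat.le_of_dvd (by omega) hsr) fun h => hrp (h ▸ hsp)
  obtain ⟨m, hm⟩ := hsr
  obtain ⟨j, hj⟩ := hrn
  have hm2 : 2 ≤ m := by
    by_contra hm2
    interval_cases m <;> omega
  have hj2 : 2 ≤ j := by
    by_contra hj2
    interval_cases j <;> omega
  have h2r : r * 2 ≤ n := hj ▸ Nat.mul_le_mul_left r hj2
  obtain ⟨N, rfl⟩ : ∃ N, n = N + 1 := ⟨n - 1, by omega⟩
  obtain ⟨L, hL, hLK, hnorm⟩ := exists_sub hK (by omega) s hsp.pos ⟨m, hm⟩
  obtain ⟨t, htSL, htL, htK⟩ := exists_outside L K hL hK hsp.pos hslt (by omega)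
  have hs2 := hsp.two_le
  obtain ⟨t', ht'SL, -, ht'L⟩ := exists_outside ⊥ L scalars_field hL one_pos (by omega) (by omega)
  constructor
  · intro hco
    rcases hco.le_iff.mp hnorm with h | h
    · exact ht'L (h ▸ Subgroup.mem_top t')
    · exact htK (h ▸ htL)
  · intro hco
    rcases hco.2 (Cfsg.Geo.subalgebraNormalizer L ⊓ Cfsg.Geo.specialLinear (Fin (N + 1)) F)
      (inf_le_inf_right _ hnorm) inf_le_right with h | h
    · exact htK ((h.le ⟨htL, htSL⟩).1)
    · exact ht'L ((h.ge ht'SL).1)

end Cfsg.Agent.S5887
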