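import Cfsg.Statements.S5890
import Cfsg.Agent.Lib.Derangements.PGL2Meet

set_option autoImplicit false
open Cfsg

namespace Cfsg.Agent.S5890

/-- Let F be a finite field with q ≥ 4 elements, let L ≤ PGL₂(F) be the image of SL₂(F) (a copy of PSL₂(F), of index gcd(2, q − 1)), and let M be a maximal subgroup of PGL₂(F) that does not contain L. Suppose q ∉ {7, 9, 11} and that q is not a prime congruent to ±11 or ±19 modulo 40. Then M ∩ L is a maximal subgroup of L. (For the excluded q there are maximal subgroups of PGL₂(q) — dihedral groups of order 12 and 16 at q = 7, of order 20 and 16 at q = 9, of order 20 at q = 11, and S₄ at the excluded primes — whose intersection with L is not maximal in L.) -/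
theorem result {F : Type*} [Field F]
    [Fintype F] (h4 : 4 ≤ Fintype.card F) (h7 : Fintype.card F ≠ 7) (h9 : Fintype.card F ≠ 9) (h11 : Fintype.card F ≠ 11)
    (h40 : (Fintype.card F).Prime → Fintype.card F % 40 ∉ ({11, 19, 21, 29} : Finset ℕ))
    (M : Subgroup (Matrix.ProjGenLinGroup (Fin 2) F)) (hM : IsCoatom M)
    (hML : ¬ (Matrix.ProjGenLinGroup.mk.comp Matrix.SpecialLinearGroup.toGL).range ≤ M) :
    IsCoatom ((M ⊓ (Matrix.ProjGenLinGroup.mk.comp Matrix.SpecialLinearGroup.toGL).range).subgroupOf
      (Matrix.ProjGenLinGroup.mk.comp Matrix.SpecialLinearGroup.toGL).range) := by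
  classical
  open CfsgLib.Derangements.PSL2 in
  have key : IsCoatom (M.comap (pslToPGL (F := F))) := by
    by_cases h2 : (2 : F) = 0
    · have hsurj : Function.Surjective (pslToPGL (F := F)) :=
        MonoidHom.range_eq_top.1 (range_pslToPGL_eq_top_of_two h2)
      exact ((MulEquiv.ofBijective _ ⟨pslToPGL_injective, hsurj⟩).comapSubgroup.isCoatom_iff M).2 hM
    · have hodd : Odd (Fintype.card F) := by
        rw [← Nat.card_eq_fintype_card]; exact odd_card_of h2
      have h3 : 3 < Fintype.card F := by omega
      exact (pglMax_of hodd h3 hM hML).isCoatom_comap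
        (by rw [Nat.card_eq_fintype_card]; exact ⟨h7, h9, h11⟩)
        (by rw [Nat.card_eq_fintype_card]; exact h40)
  open CfsgLib.Derangements.PSL2 in
  rw [← range_pslToPGL]
  open CfsgLib.Derangements.PSL2 in
  set e := MonoidHom.ofInjective (pslToPGL_injective (F := F)) with he
  open CfsgLib.Derangements.PSL2 in
  have himg : ((M ⊓ (pslToPGL (F := F)).range).subgroupOf (pslToPGL (F := F)).range).comap e.toMonoidHom =
      M.comap (pslToPGL (F := F)) := by
    ext x
    show pslToPGL x ∈ M ⊓ (pslToPGL (F := F)).range ↔ pslToPGL x ∈ M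
    exact ⟨fun h => h.1, fun h => ⟨h, x, rfl⟩⟩
  exact (e.comapSubgroup.isCoatom_iff _).1 (by
    show IsCoatom (Subgroup.comap e.toMonoidHom _)
    rw [himg]; exact key)

end Cfsg.Agent.S5890
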