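import Cfsg.Statements.S5891
import Cfsg.Agent.Lib.Derangements.PGL2Cases

set_option autoImplicit false
open Cfsg

namespace Cfsg.Agent.S5891

/-- Let F be a finite field of odd order q > 3 and characteristic p, and let M be a maximal subgroup of PGL₂(F) not containing the image L of SL₂(F) (a copy of PSL₂(F) of index 2). Then one of the following holds: |M| = q(q − 1) (M is the stabiliser of a point of the projective line); q ≠ 5 and M is dihedral of order 2(q − 1); M is dihedral of order 2(q + 1); q = p ≡ ±3 (mod 8) and M ≅ S₄; or q = q₀^r for an odd prime r and M ≅ PGL₂(F₀) with |F₀| = q₀. -/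
theorem result {F : Type*} [Field F] [Fintype F]
    (hodd : Odd (Fintype.card F)) (h3 : 3 < Fintype.card F) (M : Subgroup (Matrix.ProjGenLinGroup (Fin 2) F)) (hM : IsCoatom M)
    (hML : ¬ (Matrix.ProjGenLinGroup.mk.comp Matrix.SpecialLinearGroup.toGL).range ≤ M) :
    Nat.card M = Fintype.card F * (Fintype.card F - 1) ∨
    (Fintype.card F ≠ 5 ∧ Nonempty (M ≃* DihedralGroup (Fintype.card F - 1))) ∨
    Nonempty (M ≃* DihedralGroup (Fintype.card F + 1)) ∨
    ((Fintype.card F).Prime ∧ (Fintype.card F % 8 = 3 ∨ Fintype.card F % 8 = 5) ∧ Nonempty (M ≃* Equiv.Perm (Fin 4))) ∨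
    (∃ (F₀ : Type) (_ : Field F₀) (_ : Fintype F₀) (r : ℕ), r.Prime ∧ Odd r ∧ Fintype.card F = Fintype.card F₀ ^ r ∧
        Nonempty (M ≃* Matrix.ProjGenLinGroup (Fin 2) F₀)) := by
  classical
  have h : CfsgLib.Derangements.PSL2.PGLMax M := CfsgLib.Derangements.PSL2.pglMax_of hodd h3 hM hML
  rw [← Nat.card_eq_fintype_card (α := F)]
  rcases h.cases with hb | ⟨g, ht, he, -, hiso⟩ | ⟨hp, h8, -, hiso⟩ | ⟨P, E, r, hr, hro, hE, -, hiso⟩
  · exact Or.inl (h.borel_card hb)
  · rcases CfsgLib.SL2.card_centralizer_or ht with e | e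
    · rw [e] at he hiso
      exact Or.inr (Or.inl ⟨fun h5 => he (by rw [h5]), hiso⟩)
    · rw [e] at hiso
      exact Or.inr (Or.inr (Or.inl hiso))
  · exact Or.inr (Or.inr (Or.inr (Or.inl ⟨hp, h8, hiso⟩)))
  · obtain ⟨K, iK, iF, hK, ⟨eK⟩⟩ := CfsgLib.SL2.Dickson.exists_small_field E
    exact Or.inr (Or.inr (Or.inr (Or.inr ⟨K, iK, iF, r, hr, hro, by rw [← Nat.card_eq_fintype_card, hK, hE],
      hiso.map fun f => f.trans (CfsgLib.SL2.Dickson.pglCongr eK)⟩)))

end Cfsg.Agent.S5891
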