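import Cfsg.Statements.S5893
import Cfsg.Agent.Lib.Derangements.PSL2Types

set_option autoImplicit false
open Cfsg

namespace Cfsg.Agent.S5893

open CfsgLib.Derangements.PSL2

/-- Let F be a finite field of even order q ≥ 4 and let M be a maximal subgroup of PSL₂(F) (= SL₂(F) = PGL₂(F)). Then one of the following holds: |M| = q(q − 1) (the stabiliser of a point of the projective line, elementary abelian of order q extended by a cyclic group of order q − 1); M is dihedral of order 2(q − 1); M is dihedral of order 2(q + 1); or q = q₀^r for a prime r with q₀ ≠ 2 and M ≅ PSL₂(F₀) with |F₀| = q₀. -/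
theorem result {F : Type*} [Field F] [Fintype F]
    (heven : Even (Fintype.card F)) (h4 : 4 ≤ Fintype.card F) (M : Subgroup (Matrix.ProjectiveSpecialLinearGroup (Fin 2) F)) (hM : IsCoatom M) :
    Nat.card M = Fintype.card F * (Fintype.card F - 1) ∨
    Nonempty (M ≃* DihedralGroup (Fintype.card F - 1)) ∨
    Nonempty (M ≃* DihedralGroup (Fintype.card F + 1)) ∨
    (∃ (F₀ : Type) (_ : Field F₀) (_ : Fintype F₀) (r : ℕ), r.Prime ∧ Fintype.card F₀ ≠ 2 ∧
        Fintype.card F = Fintype.card F₀ ^ r ∧ Nonempty (M ≃* Matrix.ProjectiveSpecialLinearGroup (Fin 2) F₀)) := by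
  classical
  have hq : Nat.card F = Fintype.card F := Nat.card_eq_fintype_card
  have h2 : (2 : F) = 0 := by
    by_contra h
    have := odd_card_of (F := F) h
    rw [hq] at this
    exact Nat.not_even_iff_odd.2 this heven
  have hd : Nat.gcd 2 (Nat.card F - 1) = 1 := by
    rw [← CfsgLib.SL2.center_card_eq_gcd, CfsgLib.SL2.center_eq_bot_of_two h2, Subgroup.card_bot]
  rcases psl_cases M with h | h | ⟨h, -⟩ | ⟨R, hR3, hR⟩
  · left
    have := max_borel (by omega) hM h
    rwa [hd, one_mul, hq] at this
  · obtain ⟨g, e, k, -, -, hor, -, hk, hiso⟩ := max_torus (by omega) hM h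
    rw [hd, one_mul] at hk
    subst hk
    rcases hor with rfl | rfl
    · right; left; rwa [← hq]
    · right; right; left; rwa [← hq]
  · exact absurd h2 h
  · right; right; right
    obtain ⟨E, r, hr, hE, ⟨iso⟩⟩ := max_subfield hM hR
    obtain ⟨K, iK, iF, hK, -, hpsl⟩ := sfPSL_types E hr hE
    obtain ⟨iso'⟩ := hpsl (Or.inr h2)
    refine ⟨K, iK, iF, r, hr, fun h2K => ?_, ?_, ⟨iso.trans iso'⟩⟩
    · -- `|E| = 2` leaves too little room
      have hE2 : Nat.card E = 2 := by rw [← hK, Nat.card_eq_fintype_card, h2K]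
      have h6 : Nat.card M ∣ 6 := by
        have h := sfPSL_card_dvd E
        rw [hE2] at h
        rw [Nat.card_congr iso.toEquiv]
        simpa using h
      have hR4 : 4 ≤ Nat.card R := by
        rcases Nat.lt_or_ge (Nat.card R) 4 with hlt | hge
        · exfalso
          have h3 : Nat.card R = 3 := by omega
          obtain ⟨m, hm1, hm⟩ := exists_degree R
          rw [h3, hq] at hm
          have : Odd (3 ^ m) := Odd.pow (by decide)
          rw [hm] at this
          exact Nat.not_even_iff_odd.2 this heven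
        · exact hge
      have h1 : 60 ≤ Nat.card R * (Nat.card R ^ 2 - 1) := Nat.mul_le_mul hR4 (show 15 ≤ _ by
        have : 4 * 4 ≤ Nat.card R ^ 2 := by rw [pow_two]; exact Nat.mul_le_mul hR4 hR4
        omega)
      have h3 := Nat.le_of_dvd (Nat.mul_pos two_pos Nat.card_pos) hR.card_dvd.2
      have h4 := Nat.le_of_dvd (by norm_num) h6
      omega
    · rw [← Nat.card_eq_fintype_card (α := K), hK, hE, hq]

end Cfsg.Agent.S5893
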