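import Cfsg.Statements.S5895
-- import your own Cfsg.Agent.* helpers here

set_option autoImplicit false
open Cfsg

namespace Cfsg.Agent.S5895

open Subgroup

variable {K : Type} [Field K]

/-- A subgroup of units leaving no proper nonzero additive subgroup invariant. -/
def Irr (M : Subgroup Kˣ) : Prop :=
  ∀ W : AddSubgroup K, (∀ u ∈ M, ∀ w ∈ W, (u : K) * w ∈ W) → W = ⊥ ∨ W = ⊤

/-- The multiplication action of units on the additive group. -/
def act (M : Subgroup Kˣ) : M →* MulAut (Multiplicative K) where
  toFun u :=
    { toFun := fun v => Multiplicative.ofAdd (((u : Kˣ) : K) * v.toAdd)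
      invFun := fun v => Multiplicative.ofAdd ((((u : Kˣ)⁻¹ : Kˣ) : K) * v.toAdd)
      left_inv := fun v => by simp
      right_inv := fun v => by simp
      map_mul' := fun v w => by rw [← ofAdd_add]; simp [mul_add] }
  map_one' := by ext v; simp
  map_mul' u w := by ext v; simp [mul_assoc]

lemma act_apply (M : Subgroup Kˣ) (u : M) (v : Multiplicative K) :
    act M u v = Multiplicative.ofAdd (((u : Kˣ) : K) * v.toAdd) := rfl

lemma isCoatom_range_inr {M : Subgroup Kˣ} (hM : Irr M) :
    IsCoatom ((SemidirectProduct.inr : M →* Multiplicative K ⋊[act M] M).range) := by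
  constructor
  · intro h
    obtain ⟨u, hu⟩ := (h ▸ Subgroup.mem_top _ :
      (SemidirectProduct.inl (Multiplicative.ofAdd (1 : K)) : Multiplicative K ⋊[act M] M) ∈ _)
    have := congrArg SemidirectProduct.left hu
    simp only [SemidirectProduct.left_inr, SemidirectProduct.left_inl] at this
    exact zero_ne_one (congrArg Multiplicative.toAdd this)
  · intro L hL
    let W : AddSubgroup K :=
      { carrier := {v | SemidirectProduct.inl (Multiplicative.ofAdd v) ∈ L}
        zero_mem' := by simp
        add_mem' := fun {a b} ha hb => by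
          show SemidirectProduct.inl _ ∈ L
          rw [ofAdd_add, map_mul]; exact mul_mem ha hb
        neg_mem' := fun {a} ha => by
          show SemidirectProduct.inl _ ∈ L
          rw [ofAdd_neg, map_inv]; exact inv_mem ha }
    have hle : ∀ g ∈ L, g.left.toAdd ∈ W := by
      intro g hg
      show SemidirectProduct.inl _ ∈ L
      have := mul_mem hg (inv_mem (hL.le ⟨g.right, rfl⟩ : SemidirectProduct.inr g.right ∈ L))
      convert this using 1
      exact eq_mul_inv_of_mul_eq (SemidirectProduct.inl_left_mul_inr_right g)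
    have hWinv : ∀ u ∈ M, ∀ w ∈ W, (u : K) * w ∈ W := by
      intro u hu w hw
      show SemidirectProduct.inl _ ∈ L
      have := mul_mem (mul_mem (hL.le ⟨⟨u, hu⟩, rfl⟩ : SemidirectProduct.inr ⟨u, hu⟩ ∈ L) hw)
        (inv_mem (hL.le ⟨⟨u, hu⟩, rfl⟩ : SemidirectProduct.inr ⟨u, hu⟩ ∈ L))
      rw [← map_inv, ← SemidirectProduct.inl_aut, act_apply] at this
      exact this
    rcases hM W hWinv with h | h
    · refine absurd (fun g hg => ?_) hL.not_ge
      have h0 : g.left.toAdd = 0 := by simpa [h] using hle g hg
      refine ⟨g.right, ?_⟩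
      ext
      · simp [show g.left = 1 from h0]
      · simp
    · rw [eq_top_iff]
      intro g _
      rw [← SemidirectProduct.inl_left_mul_inr_right g]
      exact mul_mem (h ▸ AddSubgroup.mem_top g.left.toAdd : g.left.toAdd ∈ W) (hL.le ⟨g.right, rfl⟩)

theorem example_exists (p d : ℕ) (hp : p.Prime) (hd : 2 ≤ d) :
    ∃ (G : Type) (_ : Group G) (_ : Finite G) (M H K : Subgroup G), IsCoatom M ∧ M.index = p ^ d ∧ H ≤ M ∧
      IsCoatom (H.subgroupOf M) ∧ IsCoatom K ∧ H ≤ K ∧ ¬ IsCoatom (H.subgroupOf K) := by
  classical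
  have := Fact.mk hp
  let K := GaloisField p d
  have hcard : Nat.card K = p ^ d := GaloisField.card p d (by omega)
  have hirr : Irr (⊤ : Subgroup Kˣ) := by
    intro W hW
    refine or_iff_not_imp_left.mpr fun hne => ?_
    obtain ⟨w, hw, hw0⟩ := (AddSubgroup.bot_or_exists_ne_zero W).resolve_left hne
    rw [eq_top_iff]
    intro v _
    rcases eq_or_ne v 0 with rfl | hv
    · exact zero_mem W
    · simpa [hw0] using hW (Units.mk0 _ (div_ne_zero hv hw0)) (Subgroup.mem_top _) w hw
  obtain ⟨M, hM⟩ := (Set.toFinite {M : Subgroup Kˣ | Irr M}).exists_minimal ⟨⊤, hirr⟩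
  have hbot : ¬ Irr (⊥ : Subgroup Kˣ) := by
    intro h
    rcases h (AddSubgroup.zmultiples (1 : K)) (fun u hu w hw => by
      rw [Subgroup.mem_bot] at hu; simpa [hu] using hw) with h | h
    · exact one_ne_zero (AddSubgroup.zmultiples_eq_bot.mp h)
    · have hc := Nat.card_zmultiples (1 : K)
      rw [h, AddSubgroup.card_top, hcard, addOrderOf_eq_prime (p := p) (by simp) one_ne_zero] at hc
      have : p ^ 1 < p ^ d := Nat.pow_lt_pow_right hp.one_lt (by omega)
      simp [hc] at this
  have hne : (⊤ : Subgroup M) ≠ ⊥ := by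
    intro h
    apply hbot
    have : M = ⊥ := by
      rw [eq_bot_iff]
      intro u hu
      have h2 : (⟨u, hu⟩ : M) ∈ (⊥ : Subgroup M) := h ▸ Subgroup.mem_top _
      exact Subgroup.mem_bot.mpr (congrArg Subtype.val (Subgroup.mem_bot.mp h2))
    exact this ▸ hM.prop
  obtain ⟨H, hH, -⟩ := (eq_top_or_exists_le_coatom (⊥ : Subgroup M)).resolve_left (Ne.symm hne)
  have : Finite (Multiplicative K ⋊[act M] M) := Finite.of_equiv _ SemidirectProduct.equivProd.symm
  have hπ : Function.Surjective (SemidirectProduct.rightHom : Multiplicative K ⋊[act M] M →* M) := SemidirectProduct.rightHom_surjective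
  have hHirr : ¬ Irr (H.map M.subtype) := by
    intro h
    have hle := hM.le_of_le h (Subgroup.map_subtype_le H)
    exact hH.1 (eq_top_iff.mpr fun u _ => by
      obtain ⟨v, hv, hvu⟩ := hle u.2
      rwa [← Subtype.ext hvu])
  simp only [Irr, not_forall, not_or] at hHirr
  obtain ⟨W, hW, hWb, hWt⟩ := hHirr
  refine ⟨(Multiplicative K ⋊[act M] M), inferInstance, inferInstance, (SemidirectProduct.inr : M →* Multiplicative K ⋊[act M] M).range, H.map (SemidirectProduct.inr : M →* Multiplicative K ⋊[act M] M), H.comap (SemidirectProduct.rightHom : Multiplicative K ⋊[act M] M →* M), isCoatom_range_inr hM.prop, ?_,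
    Subgroup.map_le_range _ _, ?_, ?_, ?_, ?_⟩
  · have h1 := (SemidirectProduct.inr : M →* Multiplicative K ⋊[act M] M).range.index_mul_card
    rw [← Nat.card_congr (MonoidHom.ofInjective (SemidirectProduct.inr_injective : Function.Injective (SemidirectProduct.inr : M →* Multiplicative K ⋊[act M] M))).toEquiv,
      SemidirectProduct.card, show Nat.card (Multiplicative K) = p ^ d from hcard] at h1
    exact Nat.eq_of_mul_eq_mul_right Nat.card_pos h1
  · let e := MonoidHom.ofInjective (SemidirectProduct.inr_injective : Function.Injective (SemidirectProduct.inr : M →* Multiplicative K ⋊[act M] M))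
    convert (e.mapSubgroup.isCoatom_iff H).mpr hH using 1
    ext ⟨g, hg⟩
    constructor
    · rintro ⟨u, hu, huv⟩
      exact ⟨u, hu, Subtype.ext huv⟩
    · rintro ⟨u, hu, huv⟩
      exact ⟨u, hu, congrArg Subtype.val huv⟩
  · constructor
    · intro h
      refine hH.1 (eq_top_iff.mpr fun u _ => ?_)
      have : (SemidirectProduct.inr : M →* Multiplicative K ⋊[act M] M) u ∈ H.comap (SemidirectProduct.rightHom : Multiplicative K ⋊[act M] M →* M) := h ▸ Subgroup.mem_top _
      simpa using this
    · intro L hL
      have hker : (SemidirectProduct.rightHom : Multiplicative K ⋊[act M] M →* M).ker ≤ L := le_trans (fun g hg => by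
        show (SemidirectProduct.rightHom : Multiplicative K ⋊[act M] M →* M) g ∈ H
        rw [MonoidHom.mem_ker.mp hg]; exact one_mem H) hL.le
      have h1 : H < L.map (SemidirectProduct.rightHom : Multiplicative K ⋊[act M] M →* M) := by
        refine lt_of_le_of_ne (fun u hu => ?_) fun h => ?_
        · obtain ⟨g, rfl⟩ := hπ u
          exact ⟨g, hL.le hu, rfl⟩
        · apply hL.ne
          rw [h, Subgroup.comap_map_eq_self hker]
      rw [← Subgroup.comap_map_eq_self hker, hH.2 _ h1, Subgroup.comap_top]
  · rintro _ ⟨u, hu, rfl⟩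
    show (SemidirectProduct.rightHom : Multiplicative K ⋊[act M] M →* M) ((SemidirectProduct.inr : M →* Multiplicative K ⋊[act M] M) u) ∈ H
    simpa using hu
  · intro hco
    let L : Subgroup (Multiplicative K ⋊[act M] M) :=
      { carrier := {g | (SemidirectProduct.rightHom : Multiplicative K ⋊[act M] M →* M) g ∈ H ∧ g.left.toAdd ∈ W}
        one_mem' := ⟨by simp, by simp⟩
        mul_mem' := by
          rintro a b ⟨ha, ha'⟩ ⟨hb, hb'⟩
          refine ⟨by rw [map_mul]; exact mul_mem ha hb, ?_⟩
          simp only [SemidirectProduct.mul_left, act_apply, toAdd_mul, toAdd_ofAdd]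
          exact add_mem ha' (hW _ ⟨_, ha, rfl⟩ _ hb')
        inv_mem' := by
          rintro a ⟨ha, ha'⟩
          refine ⟨by rw [map_inv]; exact inv_mem ha, ?_⟩
          simp only [SemidirectProduct.inv_left, act_apply, toAdd_inv, toAdd_ofAdd]
          exact hW _ ⟨_, inv_mem ha, rfl⟩ _ (neg_mem ha') }
    have hle : (H.map (SemidirectProduct.inr : M →* Multiplicative K ⋊[act M] M)).subgroupOf (H.comap (SemidirectProduct.rightHom : Multiplicative K ⋊[act M] M →* M)) ≤ L.subgroupOf (H.comap (SemidirectProduct.rightHom : Multiplicative K ⋊[act M] M →* M)) := by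
      intro g hg
      obtain ⟨u, hu, hug⟩ := hg
      have : (SemidirectProduct.inr : M →* Multiplicative K ⋊[act M] M) u = (g : (Multiplicative K ⋊[act M] M)) := hug
      refine ⟨g.2, ?_⟩
      show (g : Multiplicative K ⋊[act M] M).left.toAdd ∈ W
      rw [← this]; simp
    rcases hco.le_iff.mp hle with h | h
    · refine hWt (eq_top_iff.mpr fun v _ => ?_)
      have hmem : (SemidirectProduct.inl (Multiplicative.ofAdd v) : (Multiplicative K ⋊[act M] M)) ∈ H.comap (SemidirectProduct.rightHom : Multiplicative K ⋊[act M] M →* M) := by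
        show (SemidirectProduct.rightHom : Multiplicative K ⋊[act M] M →* M) _ ∈ H
        simp
      have := (h ▸ Subgroup.mem_top _ : (⟨_, hmem⟩ : H.comap (SemidirectProduct.rightHom : Multiplicative K ⋊[act M] M →* M)) ∈ L.subgroupOf (H.comap (SemidirectProduct.rightHom : Multiplicative K ⋊[act M] M →* M))).2
      simpa using this
    · refine hWb (eq_bot_iff.mpr fun v hv => ?_)
      have hmem : (SemidirectProduct.inl (Multiplicative.ofAdd v) : (Multiplicative K ⋊[act M] M)) ∈ H.comap (SemidirectProduct.rightHom : Multiplicative K ⋊[act M] M →* M) := by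
        show (SemidirectProduct.rightHom : Multiplicative K ⋊[act M] M →* M) _ ∈ H
        simp
      have h2 : (⟨_, hmem⟩ : H.comap (SemidirectProduct.rightHom : Multiplicative K ⋊[act M] M →* M)) ∈ L.subgroupOf (H.comap (SemidirectProduct.rightHom : Multiplicative K ⋊[act M] M →* M)) := ⟨hmem, by simpa using hv⟩
      rw [h] at h2
      obtain ⟨u, _, hu⟩ := h2
      have := congrArg (fun g : (Multiplicative K ⋊[act M] M) => g.left.toAdd) hu
      simpa using this.symm

/-- For every prime p and every d ≥ 2 there is a finite group G with a maximal subgroup M of index p^d and a maximal subgroup H of M that is not second maximal in G: some maximal subgroup K of G contains H without H being maximal in K. (One may take G the affine group V ⋊ GL(V) of V = 𝔽_p^d, M = GL(V), H the stabiliser in M of a line W of V, and K = V ⋊ H, with H < W ⋊ H < K.) So the prime-index hypothesis in the second-maximality criterion cannot be relaxed to prime-power index. -/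
theorem result (p d : ℕ) (hp : p.Prime)
    (hd : 2 ≤ d) :
    ∃ (G : Type) (_ : Group G) (_ : Finite G) (M H K : Subgroup G), IsCoatom M ∧ M.index = p ^ d ∧ H ≤ M ∧
      IsCoatom (H.subgroupOf M) ∧ IsCoatom K ∧ H ≤ K ∧ ¬ IsCoatom (H.subgroupOf K) := by
  exact example_exists p d hp hd

end Cfsg.Agent.S5895
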