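import Cfsg.Statements.S5896
-- import your own Cfsg.Agent.* helpers here

set_option autoImplicit false
open Cfsg

namespace Cfsg.Agent.S5896

open Matrix

section

variable (N : ℕ)

/-- The coefficient ring. -/
abbrev R5 : Type := ZMod (5 ^ (N + 1))

/-- The group. -/
abbrev G5 : Type := Matrix.SpecialLinearGroup (Fin 2) (R5 N)

/-- Upper transvection. -/
def up (x : R5 N) : (G5 N) := ⟨!![1, x; 0, 1], by simp [Matrix.det_fin_two]⟩

/-- Lower transvection. -/
def lo (x : R5 N) : (G5 N) := ⟨!![1, 0; x, 1], by simp [Matrix.det_fin_two]⟩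

/-- Diagonal element. -/
def dg (u : (R5 N)ˣ) : (G5 N) := ⟨!![(u : R5 N), 0; 0, ((u⁻¹ : (R5 N)ˣ) : R5 N)], by simp [Matrix.det_fin_two]⟩

lemma up_coe (x : R5 N) : (up N x : Matrix (Fin 2) (Fin 2) (R5 N)) = !![1, x; 0, 1] := rfl

lemma lo_coe (x : R5 N) : (lo N x : Matrix (Fin 2) (Fin 2) (R5 N)) = !![1, 0; x, 1] := rfl

lemma dg_coe (u : (R5 N)ˣ) : (dg N u : Matrix (Fin 2) (Fin 2) (R5 N)) =
    !![(u : R5 N), 0; 0, ((u⁻¹ : (R5 N)ˣ) : R5 N)] := rfl

/-- The reduction modulo five. -/
def red : R5 N →+* ZMod 5 := ZMod.castHom (dvd_pow_self 5 (Nat.succ_ne_zero N)) _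

variable {N}

lemma isUnit_of_red {x : R5 N} (h : red N x ≠ 0) : IsUnit x := by
  have hx : ((x.val : ℕ) : R5 N) = x := ZMod.natCast_zmod_val x
  rw [← hx, ZMod.isUnit_iff_coprime]
  refine Nat.Coprime.pow_right _ (Nat.Coprime.symm ((Nat.Prime.coprime_iff_not_dvd (by norm_num)).mpr fun hd => h ?_))
  rw [← hx, map_natCast]
  exact (ZMod.natCast_eq_zero_iff _ _).mpr hd

lemma dvd_of_red {x : R5 N} (h : red N x = 0) : (5 : R5 N) ∣ x := by
  have hx : ((x.val : ℕ) : R5 N) = x := ZMod.natCast_zmod_val x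
  rw [← hx, map_natCast, ZMod.natCast_eq_zero_iff] at h
  rw [← hx]
  have h2 := Nat.cast_dvd_cast (α := R5 N) h
  simpa using h2

lemma red_five_mul (x : R5 N) : red N (5 * x) = 0 := by
  rw [map_mul, show red N 5 = 0 by rw [map_ofNat]; decide, zero_mul]

lemma up_add (x y : R5 N) : up N x * up N y = up N (x + y) := by
  apply Subtype.ext
  ext i j
  fin_cases i <;> fin_cases j <;> simp [up_coe, add_comm, Matrix.SpecialLinearGroup.coe_mul]

lemma lo_add (x y : R5 N) : lo N x * lo N y = lo N (x + y) := by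
  apply Subtype.ext
  ext i j
  fin_cases i <;> fin_cases j <;> simp [lo_coe, Matrix.SpecialLinearGroup.coe_mul]

lemma up_zero : up N (0 : R5 N) = 1 := by
  apply Subtype.ext
  ext i j
  fin_cases i <;> fin_cases j <;> simp [up_coe, Matrix.SpecialLinearGroup.coe_mul]

lemma lo_zero : lo N (0 : R5 N) = 1 := by
  apply Subtype.ext
  ext i j
  fin_cases i <;> fin_cases j <;> simp [lo_coe, Matrix.SpecialLinearGroup.coe_mul]

lemma up_inv (x : R5 N) : (up N x)⁻¹ = up N (-x) :=
  inv_eq_of_mul_eq_one_right (by rw [up_add, add_neg_cancel, up_zero])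

lemma lo_inv (x : R5 N) : (lo N x)⁻¹ = lo N (-x) :=
  inv_eq_of_mul_eq_one_right (by rw [lo_add, add_neg_cancel, lo_zero])

/-- All elementary matrices together generate. -/
lemma mem_of_elementary (L : Subgroup (G5 N)) (hu : ∀ x, up N x ∈ L) (hl : ∀ x, lo N x ∈ L) (g : (G5 N)) : g ∈ L := by
  have hw : ∀ u : (R5 N)ˣ, dg N u ∈ L := by
    intro u
    have e : dg N u = up N u * lo N (-(u⁻¹ : (R5 N)ˣ)) * up N u * (up N (-1) * lo N 1 * up N (-1)) := by
      apply Subtype.ext
      ext i j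
      fin_cases i <;> fin_cases j <;> simp [up_coe, lo_coe, dg_coe, Matrix.SpecialLinearGroup.coe_mul]
    rw [e]
    exact mul_mem (mul_mem (mul_mem (hu _) (hl _)) (hu _)) (mul_mem (mul_mem (hu _) (hl _)) (hu _))
  have hunit : ∀ g : (G5 N), IsUnit (g.1 0 0) → g ∈ L := by
    rintro g ⟨u, hu'⟩
    have e : g = lo N (g.1 1 0 * (u⁻¹ : (R5 N)ˣ)) * dg N u * up N ((u⁻¹ : (R5 N)ˣ) * g.1 0 1) := by
      have hd := g.2
      rw [Matrix.det_fin_two] at hd
      apply Subtype.ext
      ext i j
      fin_cases i <;> fin_cases j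
      · simp [lo_coe, dg_coe, up_coe, ← hu', Matrix.SpecialLinearGroup.coe_mul]
      · simp [lo_coe, dg_coe, up_coe, Matrix.SpecialLinearGroup.coe_mul]
      · simp [lo_coe, dg_coe, up_coe, Matrix.SpecialLinearGroup.coe_mul]
      · simp [lo_coe, dg_coe, up_coe, Matrix.SpecialLinearGroup.coe_mul]
        linear_combination ((u⁻¹ : (R5 N)ˣ) : R5 N) * hd - ((u⁻¹ : (R5 N)ˣ) : R5 N) * g.1 1 1 * (-hu') +
          (- g.1 1 1) * u.inv_mul
    rw [e]
    exact mul_mem (mul_mem (hl _) (hw u)) (hu _)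
  by_cases h : red N (g.1 0 0) = 0
  · have hc : red N (g.1 1 0) ≠ 0 := by
      intro hc
      have := congrArg (red N) g.2
      rw [Matrix.det_fin_two, map_sub, map_mul, map_mul, h, hc, map_one] at this
      simp at this
      exact absurd this (by decide)
    have hmem := hunit (up N 1 * g) (isUnit_of_red (by simpa [up_coe, Matrix.mul_apply, Fin.sum_univ_two, h] using hc))
    simpa using mul_mem (inv_mem (hu 1)) hmem
  · exact hunit g (isUnit_of_red h)

lemma comm_dg_up (u : (R5 N)ˣ) (x : R5 N) :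
    dg N u * up N x * (dg N u)⁻¹ * (up N x)⁻¹ = up N (((u : R5 N) * u - 1) * x) := by
  have h : dg N u * up N x = up N ((u : R5 N) * u * x) * dg N u := by
    apply Subtype.ext
    ext i j
    fin_cases i <;> fin_cases j <;> simp [up_coe, dg_coe, mul_assoc, mul_comm x, Matrix.SpecialLinearGroup.coe_mul]
  rw [h, mul_inv_cancel_right, up_inv, up_add]
  congr 1; ring

lemma comm_dg_lo (u : (R5 N)ˣ) (x : R5 N) :
    lo N x * dg N u * (lo N x)⁻¹ * (dg N u)⁻¹ = lo N (x * (1 - (u⁻¹ : (R5 N)ˣ) * (u⁻¹ : (R5 N)ˣ))) := by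
  have h : dg N u * (lo N x)⁻¹ = lo N (-x * (u⁻¹ : (R5 N)ˣ) * (u⁻¹ : (R5 N)ˣ)) * dg N u := by
    rw [lo_inv]
    apply Subtype.ext
    ext i j
    fin_cases i <;> fin_cases j <;> simp [lo_coe, dg_coe, mul_assoc, mul_comm, Matrix.SpecialLinearGroup.coe_mul]
  rw [mul_assoc (lo N x), h, ← mul_assoc, mul_inv_cancel_right, lo_add]
  congr 1; ring

/-- The subgroup of matrices that are upper triangular modulo five. -/
def borel (N : ℕ) : Subgroup (G5 N) where
  carrier := {g | red N (g.1 1 0) = 0}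
  one_mem' := by simp
  mul_mem' := fun {a b} ha hb => by
    have ha' : red N (a.1 1 0) = 0 := ha
    have hb' : red N (b.1 1 0) = 0 := hb
    simp [Matrix.mul_apply, Fin.sum_univ_two, ha', hb']
  inv_mem' := fun {a} ha => by
    have ha' : red N (a.1 1 0) = 0 := ha
    simp [Matrix.SpecialLinearGroup.coe_inv, Matrix.adjugate_fin_two, ha']

lemma borel_isCoatom : IsCoatom (borel N) := by
  constructor
  · intro h
    have h1 : red N ((lo N 1).1 1 0) = 0 := (h ▸ Subgroup.mem_top _ : lo N 1 ∈ borel N)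
    simp [lo_coe] at h1
    exact absurd h1 (by decide)
  · intro L hL
    obtain ⟨g, hg, hgb⟩ := SetLike.exists_of_lt hL
    have hu : ∀ x, up N x ∈ L := fun x => hL.le (by show red N ((up N x).1 1 0) = 0; simp [up_coe, Matrix.SpecialLinearGroup.coe_mul])
    have hd : ∀ u, dg N u ∈ L := fun u => hL.le (by show red N ((dg N u).1 1 0) = 0; simp [dg_coe, Matrix.SpecialLinearGroup.coe_mul])
    obtain ⟨c, hc⟩ := isUnit_of_red (show red N (g.1 1 0) ≠ 0 from hgb)
    have hw : ∃ w ∈ L, w.1 0 0 = 0 ∧ w.1 1 1 = 0 ∧ w.1 1 0 = c := by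
      refine ⟨up N (- g.1 0 0 * (c⁻¹ : (R5 N)ˣ)) * g * up N (- (c⁻¹ : (R5 N)ˣ) * g.1 1 1),
        mul_mem (mul_mem (hu _) hg) (hu _), ?_, ?_, ?_⟩ <;>
        simp [up_coe, Matrix.mul_apply, Fin.sum_univ_two, Matrix.vecHead, Matrix.vecTail, mul_assoc, ← hc, Matrix.SpecialLinearGroup.coe_mul]
    obtain ⟨w, hwL, h00, h11, h10⟩ := hw
    have hlo : ∀ x, lo N x ∈ L := by
      intro x
      have hdet := w.2
      rw [Matrix.det_fin_two, h00, h11, h10] at hdet
      have e : w * up N (- (c⁻¹ : (R5 N)ˣ) * (c⁻¹ : (R5 N)ˣ) * x) * w⁻¹ = lo N x := by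
        rw [mul_inv_eq_iff_eq_mul]
        apply Subtype.ext
        ext i j
        fin_cases i <;> fin_cases j <;> simp [up_coe, lo_coe, Matrix.mul_apply, Fin.sum_univ_two, h00, h11, h10, Matrix.SpecialLinearGroup.coe_mul]
        linear_combination (- ((c⁻¹ : (R5 N)ˣ) : R5 N) * x + x * w.1 0 1) * c.inv_mul + ((c⁻¹ : (R5 N)ˣ) : R5 N) * x * hdet
      rw [← e]
      exact mul_mem (mul_mem hwL (hu _)) (inv_mem hwL)
    exact eq_top_iff.mpr fun k _ => mem_of_elementary L hu hlo k

lemma perfect : commutator (G5 N) = ⊤ := by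
  refine eq_top_iff.mpr fun k _ => mem_of_elementary _ ?_ ?_ k
  · intro x
    obtain ⟨u, hu⟩ := isUnit_of_red (N := N) (x := 2) (by rw [map_ofNat]; decide)
    obtain ⟨t, ht⟩ := isUnit_of_red (N := N) (x := (u : R5 N) * u - 1) (by rw [map_sub, map_mul, hu, map_ofNat, map_one]; decide)
    have := comm_dg_up u ((t⁻¹ : (R5 N)ˣ) * x)
    rw [← mul_assoc, ← ht, t.mul_inv, one_mul] at this
    rw [← this]
    exact Subgroup.commutator_mem_commutator (Subgroup.mem_top _) (Subgroup.mem_top _)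
  · intro x
    obtain ⟨u, hu⟩ := isUnit_of_red (N := N) (x := 3) (by rw [map_ofNat]; decide)
    have hui : red N ((u⁻¹ : (R5 N)ˣ) : R5 N) = 2 := by
      have := congrArg (red N) u.inv_mul
      rw [map_mul, hu, map_ofNat, map_one] at this
      revert this; generalize red N ((u⁻¹ : (R5 N)ˣ) : R5 N) = z; revert z; decide
    obtain ⟨t, ht⟩ := isUnit_of_red (N := N) (x := 1 - ((u⁻¹ : (R5 N)ˣ) : R5 N) * (u⁻¹ : (R5 N)ˣ)) (by
      rw [map_sub, map_mul, hui, map_one]; decide)
    have := comm_dg_lo u (x * (t⁻¹ : (R5 N)ˣ))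
    rw [← ht, mul_assoc x, t.inv_mul, mul_one] at this
    rw [← this]
    exact Subgroup.commutator_mem_commutator (Subgroup.mem_top _) (Subgroup.mem_top _)

/-- Elements congruent to the identity modulo `5 ^ a`. -/
def level (N a : ℕ) : Subgroup (G5 N) :=
  (Matrix.SpecialLinearGroup.map (Ideal.Quotient.mk (Ideal.span {(5 : R5 N) ^ a}))).ker

lemma mem_level {a : ℕ} {g : (G5 N)} : g ∈ level N a ↔
    ∀ i j, g.1 i j - (1 : Matrix (Fin 2) (Fin 2) (R5 N)) i j ∈ Ideal.span {(5 : R5 N) ^ a} := by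
  rw [level, MonoidHom.mem_ker, Matrix.SpecialLinearGroup.ext_iff]
  refine forall₂_congr fun i j => ?_
  rw [← Ideal.Quotient.eq]
  have h1 : (1 : Matrix (Fin 2) (Fin 2) (R5 N ⧸ Ideal.span {(5 : R5 N) ^ a})) i j =
      Ideal.Quotient.mk _ ((1 : Matrix (Fin 2) (Fin 2) (R5 N)) i j) := by
    by_cases hij : i = j <;> simp [Matrix.one_apply, hij]
  simp [h1]

lemma five_pow : (5 : R5 N) ^ (N + 1) = 0 := by
  have h : ((5 ^ (N + 1) : ℕ) : R5 N) = 0 := ZMod.natCast_self _
  rwa [Nat.cast_pow, show ((5 : ℕ) : R5 N) = 5 from Nat.cast_ofNat] at h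

lemma borel_solvable : Group.IsSolvable (borel N) := by
  classical
  -- the congruence subgroups give a central-type series
  have hcomm : ∀ a : ℕ, ∀ g ∈ level N 1, ∀ h ∈ level N a, g * h * g⁻¹ * h⁻¹ ∈ level N (a + 1) := by
    intro a g hg h hh
    let π := Matrix.SpecialLinearGroup.map (n := Fin 2) (Ideal.Quotient.mk (Ideal.span {(5 : R5 N) ^ (a + 1)}))
    show π _ = 1
    rw [map_mul, map_mul, map_mul, map_inv, map_inv, mul_inv_eq_one, mul_inv_eq_iff_eq_mul, ← map_mul, ← map_mul]
    apply Subtype.ext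
    ext i j
    simp only [π, Matrix.SpecialLinearGroup.map_apply_coe, RingHom.mapMatrix_apply, Matrix.map_apply]
    rw [Ideal.Quotient.eq]
    have hx : ∀ i j, ∀ k l, (g.1 i j - (1 : Matrix (Fin 2) (Fin 2) (R5 N)) i j) *
        (h.1 k l - (1 : Matrix (Fin 2) (Fin 2) (R5 N)) k l) ∈ Ideal.span {(5 : R5 N) ^ (a + 1)} := by
      intro i j k l
      obtain ⟨s, hs⟩ := Ideal.mem_span_singleton.mp (mem_level.mp hg i j)
      obtain ⟨r, hr⟩ := Ideal.mem_span_singleton.mp (mem_level.mp hh k l)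
      rw [hs, hr]
      exact Ideal.mem_span_singleton.mpr ⟨s * r, by ring⟩
    fin_cases i <;> fin_cases j <;>
      simp only [Matrix.SpecialLinearGroup.coe_mul, Matrix.mul_apply, Fin.sum_univ_two, Fin.zero_eta, Fin.mk_one, Fin.isValue]
    · have := sub_mem (hx 0 1 1 0) (hx 1 0 0 1)
      simpa [mul_comm] using this
    · have := sub_mem (add_mem (hx 0 0 0 1) (hx 0 1 1 1)) (add_mem (hx 0 1 0 0) (hx 1 1 0 1))
      simp at this
      convert this using 1
      ring
    · have := sub_mem (add_mem (hx 1 0 0 0) (hx 1 1 1 0)) (add_mem (hx 0 0 1 0) (hx 1 0 1 1))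
      simp at this
      convert this using 1
      ring
    · have := sub_mem (hx 1 0 0 1) (hx 0 1 1 0)
      simpa [mul_comm] using this
  have hK : Group.IsSolvable (level N 1) := by
    refine ⟨N, ?_⟩
    have key : ∀ k, (derivedSeries (level N 1) k).map (level N 1).subtype ≤ level N (k + 1) := by
      intro k
      induction k with
      | zero => exact Subgroup.map_subtype_le _
      | succ k ih =>
        rw [derivedSeries_succ, Subgroup.map_commutator, Subgroup.commutator_le]
        intro x hx y hy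
        rw [commutatorElement_def]
        exact hcomm (k + 1) x (Subgroup.map_subtype_le _ hx) y (ih hy)
    rw [eq_bot_iff]
    intro x hx
    have := mem_level.mp (key N ⟨x, hx, rfl⟩)
    simp only [five_pow, Ideal.span_singleton_zero, Ideal.mem_bot, sub_eq_zero] at this
    exact Subgroup.mem_bot.mpr (Subtype.ext (Subtype.ext (Matrix.ext this)))
  -- the triangular part modulo five
  let χ : borel N →* (ZMod 5) :=
    { toFun := fun g => red N (g.1.1 0 0)
      map_one' := by simp
      map_mul' := fun g h => by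
        have : red N (h.1.1 1 0) = 0 := h.2
        simp [Matrix.mul_apply, Fin.sum_univ_two, this] }
  let ψ : borel N →* (ZMod 5)ˣ := χ.toHomUnits
  let θ : ψ.ker →* Multiplicative (ZMod 5) :=
    { toFun := fun g => Multiplicative.ofAdd (red N (g.1.1.1 0 1))
      map_one' := by simp
      map_mul' := fun g h => by
        have hg : red N (g.1.1.1 0 0) = 1 := congrArg Units.val (MonoidHom.mem_ker.mp g.2)
        have hd : red N (h.1.1.1 1 1) = 1 := by
          have h0 : red N (h.1.1.1 0 0) = 1 := congrArg Units.val (MonoidHom.mem_ker.mp h.2)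
          have h10 : red N (h.1.1.1 1 0) = 0 := h.1.2
          have := congrArg (red N) h.1.1.2
          rw [Matrix.det_fin_two, map_sub, map_mul, map_mul, h0, h10, map_one] at this
          simpa using this
        rw [← ofAdd_add]
        simp [Matrix.mul_apply, Fin.sum_univ_two, hg, hd, add_comm] }
  have hθ : ∀ g : θ.ker, (g.1.1.1 : (G5 N)) ∈ level N 1 := by
    intro g
    rw [mem_level]
    have h0 : red N (g.1.1.1.1 0 0) = 1 := congrArg Units.val (MonoidHom.mem_ker.mp g.1.2)
    have h10 : red N (g.1.1.1.1 1 0) = 0 := g.1.1.2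
    have h01 : red N (g.1.1.1.1 0 1) = 0 := congrArg Multiplicative.toAdd (MonoidHom.mem_ker.mp g.2)
    have h11 : red N (g.1.1.1.1 1 1) = 1 := by
      have := congrArg (red N) g.1.1.1.2
      rw [Matrix.det_fin_two, map_sub, map_mul, map_mul, h0, h10, map_one] at this
      simpa using this
    intro i j
    rw [pow_one, Ideal.mem_span_singleton]
    apply dvd_of_red
    fin_cases i <;> fin_cases j <;> simp [h0, h10, h01, h11]
  let ι : θ.ker →* level N 1 :=
    ((borel N).subtype.comp (ψ.ker.subtype.comp θ.ker.subtype)).codRestrict _ hθ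
  have hι : Function.Injective ι := by
    intro a b hab
    exact Subtype.ext (Subtype.ext (Subtype.ext (congrArg (fun z : level N 1 => (z : (G5 N))) hab)))
  have h1 : Group.IsSolvable θ.ker := Group.isSolvable_of_isSolvable_injective hι
  have h2 : Group.IsSolvable ψ.ker :=
    Group.isSolvable_of_ker_le_range θ.ker.subtype θ (by rw [Subgroup.range_subtype])
  exact Group.isSolvable_of_ker_le_range ψ.ker.subtype ψ (by rw [Subgroup.range_subtype])

lemma derived_lower (j : ℕ) :
    ∀ x : R5 N, up N ((5 : R5 N) ^ 2 ^ j * x) ∈ (derivedSeries (borel N) j).map (borel N).subtype ∧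
      lo N ((5 : R5 N) ^ 2 ^ j * x) ∈ (derivedSeries (borel N) j).map (borel N).subtype ∧
      ∃ (u : (R5 N)ˣ) (t : R5 N), red N u = 1 ∧ red N t ≠ 0 ∧ (u : R5 N) * u - 1 = (5 : R5 N) ^ 2 ^ j * t ∧
        dg N u ∈ (derivedSeries (borel N) j).map (borel N).subtype := by
  induction j with
  | zero =>
    intro x
    have hb : ∀ g ∈ borel N, g ∈ (derivedSeries (borel N) 0).map (borel N).subtype :=
      fun g hg => ⟨⟨g, hg⟩, by simp, rfl⟩
    obtain ⟨u, hu⟩ := isUnit_of_red (N := N) (x := 6) (by rw [map_ofNat]; decide)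
    refine ⟨hb _ ?_, hb _ ?_, u, 7, by rw [hu, map_ofNat]; decide, by rw [map_ofNat]; decide, by rw [hu]; ring, hb _ ?_⟩
    · show red N _ = 0; simp [up_coe, Matrix.SpecialLinearGroup.coe_mul]
    · show red N _ = 0
      rw [pow_zero, pow_one]
      simpa [lo] using red_five_mul x
    · show red N _ = 0; simp [dg_coe, Matrix.SpecialLinearGroup.coe_mul]
  | succ j ih =>
    set D := (derivedSeries (borel N) j).map (borel N).subtype with hD
    have hcom : ∀ g ∈ D, ∀ h ∈ D, g * h * g⁻¹ * h⁻¹ ∈ (derivedSeries (borel N) (j + 1)).map (borel N).subtype := by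
      intro g hg h hh
      rw [derivedSeries_succ, Subgroup.map_commutator, ← hD]
      exact Subgroup.commutator_mem_commutator hg hh
    set q : R5 N := (5 : R5 N) ^ 2 ^ j with hq
    have hqq : (5 : R5 N) ^ 2 ^ (j + 1) = q * q := by
      rw [hq, ← pow_add]
      congr 1
      omega
    have hqred : red N q = 0 := by
      rw [hq, map_pow, show red N 5 = 0 by rw [map_ofNat]; decide, zero_pow (by positivity)]
    obtain ⟨-, -, u, t, hu1, ht0, hu, huD⟩ := ih 0
    obtain ⟨t', ht⟩ := isUnit_of_red ht0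
    have hUp : ∀ x, up N (q * q * x) ∈ (derivedSeries (borel N) (j + 1)).map (borel N).subtype := by
      intro x
      have := hcom _ huD _ (ih ((t'⁻¹ : (R5 N)ˣ) * x)).1
      rwa [comm_dg_up, hu, ← ht, show q * (t' : R5 N) * (q * ((t'⁻¹ : (R5 N)ˣ) * x)) = q * q * x *
        ((t' : R5 N) * (t'⁻¹ : (R5 N)ˣ)) by ring, t'.mul_inv, mul_one] at this
    have hLo : ∀ x, lo N (q * q * x) ∈ (derivedSeries (borel N) (j + 1)).map (borel N).subtype := by
      intro x
      have := hcom _ (ih ((t'⁻¹ : (R5 N)ˣ) * x * u * u)).2.1 _ huD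
      rw [comm_dg_lo] at this
      have e : q * ((t'⁻¹ : (R5 N)ˣ) * x * u * u) * (1 - (u⁻¹ : (R5 N)ˣ) * (u⁻¹ : (R5 N)ˣ)) = q * q * x := by
        have h1 : (u : R5 N) * u * (1 - (u⁻¹ : (R5 N)ˣ) * (u⁻¹ : (R5 N)ˣ)) = q * t' := by
          rw [ht, ← hu]
          linear_combination (- ((u : R5 N) * (u⁻¹ : (R5 N)ˣ) + 1)) * u.mul_inv
        linear_combination q * ((t'⁻¹ : (R5 N)ˣ) : R5 N) * x * h1 + q * q * x * t'.inv_mul
      rwa [e] at this
    intro x
    rw [hqq]
    refine ⟨hUp x, hLo x, ?_⟩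
    · -- commutator of the two transvections
      have hxL := (ih 1).1
      have hyL := (ih 1).2.1
      rw [mul_one] at hxL hyL
      have hc := hcom _ hxL _ hyL
      set a : R5 N := 1 + q * q + q * q * q * q with ha
      have hared : red N a = 1 := by simp [ha, hqred]
      obtain ⟨w, hw⟩ := isUnit_of_red (N := N) (x := a) (by rw [hared]; decide)
      refine ⟨w, (1 + q * q) * (2 + q * q + q * q * q * q), by rw [hw, hared], by simp only [map_mul, map_add, map_one, map_ofNat, hqred]; decide +revert,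
        by rw [hw, ha]; ring, ?_⟩
      have e : lo N (- (q * q * q) * (w⁻¹ : (R5 N)ˣ)) * (up N q * lo N q * (up N q)⁻¹ * (lo N q)⁻¹) *
          up N (q * q * q * (w⁻¹ : (R5 N)ˣ)) = dg N w := by
        rw [up_inv, lo_inv]
        apply Subtype.ext
        ext i j
        fin_cases i <;> fin_cases j <;> simp [up_coe, lo_coe, dg_coe, Matrix.SpecialLinearGroup.coe_mul]
        all_goals first
          | linear_combination (-1 : R5 N) * hw
          | linear_combination (q * q * q) * w.mul_inv - (q * q * q * ((w⁻¹ : (R5 N)ˣ) : R5 N)) * hw.trans ha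
          | linear_combination -(q * q * q) * w.mul_inv + (q * q * q * ((w⁻¹ : (R5 N)ˣ) : R5 N)) * hw.trans ha
          | linear_combination (- (q * q * q * q * q * q) * ((w⁻¹ : (R5 N)ˣ) : R5 N) - (1 - q * q)) * w.mul_inv +
              ((q * q * q * q * q * q) * ((w⁻¹ : (R5 N)ˣ) : R5 N) + (1 - q * q)) * ((w⁻¹ : (R5 N)ˣ) : R5 N) * hw.trans ha
      rw [← e]
      exact mul_mem (mul_mem (by rw [show -(q * q * q) * ((w⁻¹ : (R5 N)ˣ) : R5 N) = q * q * (-q * (w⁻¹ : (R5 N)ˣ)) by ring]; exact hLo _) hc)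
        (by rw [show (q * q * q) * ((w⁻¹ : (R5 N)ˣ) : R5 N) = q * q * (q * (w⁻¹ : (R5 N)ˣ)) by ring]; exact hUp _)

end

/-- Finite perfect groups have solvable maximal subgroups of unbounded derived length: for every d there is a finite perfect group G (equal to its commutator subgroup) with a solvable maximal subgroup H whose derived length exceeds d, i.e. the d-th term of the derived series of H is non-trivial. (Take the derived subgroup of a wreath product S ≀ A₅ with S solvable of large derived length, and H the preimage of a maximal subgroup of A₅.) -/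
theorem result (d : ℕ) :
    ∃ (G : Type) (_ : Group G) (_ : Finite G) (H : Subgroup G), commutator G = ⊤ ∧ IsCoatom H ∧ Group.IsSolvable H ∧
      derivedSeries H d ≠ ⊥ := by
  refine ⟨G5 (2 ^ d), inferInstance, inferInstance, borel (2 ^ d), perfect,
    borel_isCoatom, borel_solvable, fun h => ?_⟩
  have h2 := (derived_lower (N := 2 ^ d) d 1).1
  rw [h, Subgroup.map_bot, Subgroup.mem_bot, mul_one] at h2
  have h3 := congrArg (fun g : Matrix.SpecialLinearGroup (Fin 2) (R5 (2 ^ d)) => g.1 0 1) h2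
  simp [up_coe, Matrix.SpecialLinearGroup.coe_mul] at h3
  have h4 : ((5 ^ 2 ^ d : ℕ) : R5 (2 ^ d)) = 0 := by simpa using h3
  rw [ZMod.natCast_eq_zero_iff, Nat.pow_dvd_pow_iff_le_right (by norm_num)] at h4
  omega

end Cfsg.Agent.S5896
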