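import Cfsg.Statements.S5902
-- import your own Cfsg.Agent.* helpers here

set_option autoImplicit false
open Cfsg

namespace Cfsg.Agent.S5902

lemma core_compl {G : Type*} [Group G] [Finite G] (X M : Subgroup G)
    (hK : ComplementedLattice (Subgroup X))
    (hM : IsCoatom M) (hXM : X ≤ M) (huniq : ∀ M' : Subgroup G, IsCoatom M' → X ≤ M' → M' = M)
    (H : Subgroup G) (hH : ¬ H ≤ M) : ∃ C : Subgroup G, H ⊔ C = ⊤ ∧ H ⊓ C = ⊥ := by
  obtain ⟨C', hC'⟩ := hK.exists_isCompl (H.subgroupOf X)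
  refine ⟨C'.map X.subtype, ?_, ?_⟩
  · have hXle : X ≤ H ⊔ C'.map X.subtype := by
      have : (⊤ : Subgroup X).map X.subtype = X := by rw [← MonoidHom.range_eq_map, Subgroup.range_subtype]
      refine le_trans this.ge ?_
      rw [← hC'.sup_eq_top, Subgroup.map_sup]
      exact sup_le_sup_right (Subgroup.map_comap_le _ _) _
    by_contra hne
    obtain ⟨M', hM', hle⟩ := (eq_top_or_exists_le_coatom _).resolve_left hne
    exact hH (huniq M' hM' (hXle.trans hle) ▸ le_sup_left.trans hle)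
  · rw [eq_bot_iff]
    rintro x ⟨hxH, c, hc, rfl⟩
    have : c ∈ H.subgroupOf X ⊓ C' := ⟨hxH, hc⟩
    rw [hC'.inf_eq_bot, Subgroup.mem_bot] at this
    simp [this]

/-- Let G be a finite group, X a subgroup whose own subgroup lattice is complemented, and suppose X lies in exactly one maximal subgroup M of G. Then every subgroup H of G not contained in the normal core of M has a complement in the subgroup lattice of G (some C with H ⊔ C = G and H ⊓ C = 1); in particular the subgroup lattice of G modulo the normal core of M is complemented. -/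
theorem result {G : Type*} [Group G] [Finite G] (X M : Subgroup G)
    (hK : ComplementedLattice (Subgroup X))
    (hM : IsCoatom M) (hXM : X ≤ M) (huniq : ∀ M' : Subgroup G, IsCoatom M' → X ≤ M' → M' = M) :
    (∀ H : Subgroup G, ¬ H ≤ M.normalCore → ∃ C : Subgroup G, H ⊔ C = ⊤ ∧ H ⊓ C = ⊥) ∧
    ComplementedLattice (Subgroup (G ⧸ M.normalCore)) := by
  have main : ∀ H : Subgroup G, ¬ H ≤ M.normalCore → ∃ C : Subgroup G, H ⊔ C = ⊤ ∧ H ⊓ C = ⊥ := by
    intro H hH
    obtain ⟨h, hh, hhc⟩ := SetLike.not_le_iff_exists.mp hH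
    obtain ⟨g, hg⟩ : ∃ g : G, g * h * g⁻¹ ∉ M := not_forall.mp hhc
    let φ : Subgroup G ≃o Subgroup G := (MulAut.conj g).mapSubgroup
    obtain ⟨C, hC1, hC2⟩ := core_compl X M hK hM hXM huniq (φ H) (fun hle => hg (hle ⟨h, hh, by simp⟩))
    refine ⟨φ.symm C, φ.injective ?_, φ.injective ?_⟩
    · rw [φ.map_sup, φ.apply_symm_apply, hC1, map_top]
    · rw [φ.map_inf, φ.apply_symm_apply, hC2, map_bot]
  refine ⟨main, ⟨fun H' => ?_⟩⟩
  rcases eq_or_ne H' ⊥ with rfl | hne
  · exact ⟨⊤, isCompl_bot_top⟩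
  let π := QuotientGroup.mk' M.normalCore
  have hπ : Function.Surjective π := QuotientGroup.mk'_surjective _
  have hne' : ¬ H'.comap π ≤ M.normalCore := by
    intro hle
    apply hne
    rw [← Subgroup.map_comap_eq_self_of_surjective hπ H', Subgroup.map_eq_bot_iff, QuotientGroup.ker_mk']
    exact hle
  obtain ⟨C, hC1, hC2⟩ := main _ hne'
  refine ⟨C.map π, IsCompl.of_eq ?_ ?_⟩
  · rw [eq_bot_iff]
    rintro _ ⟨hx, c, hc, rfl⟩
    have : c ∈ H'.comap π ⊓ C := ⟨hx, hc⟩
    rw [hC2, Subgroup.mem_bot] at this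
    simp [this]
  · rw [← Subgroup.map_comap_eq_self_of_surjective hπ H', ← Subgroup.map_sup, hC1,
      Subgroup.map_top_of_surjective π hπ]

end Cfsg.Agent.S5902
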