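import Cfsg.Statements.S5903
-- import your own Cfsg.Agent.* helpers here

set_option autoImplicit false
open Cfsg

namespace Cfsg.Agent.S5903

lemma exists_conj {G : Type*} [Group G] [IsSimpleGroup G] (M N H : Subgroup G)
    (hN : N ≠ ⊥) (hcen : ∀ n ∈ N, ∀ m ∈ M, m * n = n * m) (hb : H ≠ ⊥) (ht : H ≠ ⊤) :
    ∃ g : G, ¬ H.map (MulAut.conj g).toMonoidHom ≤ M ∧ ¬ N ≤ H.map (MulAut.conj g).toMonoidHom := by
  by_contra hall
  push Not at hall
  have hnorm : ∀ g : G, ∀ n ∈ N, g⁻¹ * n * g ∈ Subgroup.normalizer (H : Set G) := by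
    intro g n hn
    by_cases hle : H.map (MulAut.conj g).toMonoidHom ≤ M
    · rw [Subgroup.mem_normalizer_iff]
      have key : ∀ x ∈ H, g⁻¹ * n * g * x * (g⁻¹ * n * g)⁻¹ = x := by
        intro x hx
        have := hcen n hn (g * x * g⁻¹) (hle ⟨x, hx, by simp⟩)
        calc g⁻¹ * n * g * x * (g⁻¹ * n * g)⁻¹ = g⁻¹ * (n * (g * x * g⁻¹)) * n⁻¹ * g := by group
          _ = x := by rw [← this]; group
      intro x
      refine ⟨fun hx => (key x hx).symm ▸ hx, fun hx => ?_⟩
      have h2 := key _ hx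
      rw [mul_inv_eq_iff_eq_mul] at h2
      exact (mul_left_cancel (h2.trans (by group : _ = g⁻¹ * n * g * x))) ▸ hx
    · obtain ⟨y, hy, hyn⟩ := hall g hle hn
      have hy' : g * y * g⁻¹ = n := by simpa using hyn
      have : g⁻¹ * n * g = y := by rw [← hy']; group
      exact this.symm ▸ Subgroup.le_normalizer hy
  have hcore : N ≤ (Subgroup.normalizer (H : Set G)).normalCore := by
    intro n hn g
    simpa using hnorm g⁻¹ n hn
  rcases IsSimpleGroup.eq_bot_or_eq_top_of_normal _ (Subgroup.normalCore_normal (Subgroup.normalizer (H : Set G))) with h | h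
  · exact hN (eq_bot_iff.mpr (h ▸ hcore))
  · have : Subgroup.normalizer (H : Set G) = ⊤ := eq_top_iff.mpr (h ▸ Subgroup.normalCore_le _)
    rcases IsSimpleGroup.eq_bot_or_eq_top_of_normal H (Subgroup.normalizer_eq_top_iff.mp this) with h | h
    · exact hb h
    · exact ht h

/-- Let G be a finite simple group, X a subgroup lying in exactly one maximal subgroup M of G, and N a subgroup of prime order with N ≤ X that is central in M. If the subgroup lattice of X/N is complemented, then the subgroup lattice of G is complemented. -/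
theorem result {G : Type*} [Group G] [Finite G] [IsSimpleGroup G] (X M N : Subgroup G)
    (hM : IsCoatom M) (hXM : X ≤ M) (huniq : ∀ M' : Subgroup G, IsCoatom M' → X ≤ M' → M' = M)
    (hNX : N ≤ X) (hN : (Nat.card N).Prime) (hcen : ∀ n ∈ N, ∀ m ∈ M, m * n = n * m)
    [(N.subgroupOf X).Normal] (hK : ComplementedLattice (Subgroup (X ⧸ N.subgroupOf X))) :
    ComplementedLattice (Subgroup G) := by
  refine ⟨fun H => ?_⟩
  rcases eq_or_ne H ⊥ with rfl | hb
  · exact ⟨⊤, isCompl_bot_top⟩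
  rcases eq_or_ne H ⊤ with rfl | ht
  · exact ⟨⊥, isCompl_top_bot⟩
  have hNb : N ≠ ⊥ := fun h => by simp [h, Nat.not_prime_one] at hN
  obtain ⟨g, hgM, hgN⟩ := exists_conj M N H hNb hcen hb ht
  let φ : Subgroup G ≃o Subgroup G := (MulAut.conj g).mapSubgroup
  set H' := φ H with hH'
  have hgN' : H' ⊓ N = ⊥ := by
    have hp : Fact (Nat.card N).Prime := ⟨hN⟩
    rcases (H'.subgroupOf N).eq_bot_or_eq_top_of_prime_card with h | h
    · exact disjoint_iff.mp (Subgroup.subgroupOf_eq_bot.mp h)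
    · exact absurd (Subgroup.subgroupOf_eq_top.mp h) hgN
  let π := QuotientGroup.mk' (N.subgroupOf X)
  obtain ⟨C', hC'⟩ := hK.exists_isCompl ((H'.subgroupOf X).map π)
  let C : Subgroup G := (C'.comap π).map X.subtype
  have hker : π.ker = N.subgroupOf X := QuotientGroup.ker_mk' _
  have hNC : N ≤ C := by
    intro n hn
    refine ⟨⟨n, hNX hn⟩, ?_, rfl⟩
    show π ⟨n, hNX hn⟩ ∈ C'
    rw [show π ⟨n, hNX hn⟩ = 1 from hker.symm.le (show (⟨n, hNX hn⟩ : X) ∈ N.subgroupOf X from hn)]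
    exact one_mem _
  have hinf : H' ⊓ C = ⊥ := by
    rw [eq_bot_iff, ← hgN']
    rintro x ⟨hx, c, hc, rfl⟩
    have : π c ∈ (H'.subgroupOf X).map π ⊓ C' := ⟨⟨c, hx, rfl⟩, hc⟩
    rw [hC'.inf_eq_bot, Subgroup.mem_bot] at this
    exact ⟨hx, hker.le this⟩
  have hXle : X ≤ H' ⊔ C := by
    intro x hx
    have h1 : (H'.subgroupOf X ⊔ C'.comap π).map π = ⊤ := by
      rw [Subgroup.map_sup, Subgroup.map_comap_eq_self_of_surjective (QuotientGroup.mk'_surjective _),
        hC'.sup_eq_top]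
    obtain ⟨y, hy, hyx⟩ := (h1.symm ▸ Subgroup.mem_top (π ⟨x, hx⟩) : π ⟨x, hx⟩ ∈ _)
    have hmem : (⟨x, hx⟩ : X) ∈ H'.subgroupOf X ⊔ C'.comap π := by
      have hz : π (y⁻¹ * ⟨x, hx⟩) = 1 := by rw [map_mul, map_inv, hyx, inv_mul_cancel]
      have : y⁻¹ * ⟨x, hx⟩ ∈ H'.subgroupOf X ⊔ C'.comap π := by
        refine Subgroup.mem_sup_right ?_
        show π _ ∈ C'
        rw [hz]; exact one_mem _
      simpa using mul_mem hy this
    have hle : (H'.subgroupOf X ⊔ C'.comap π).map X.subtype ≤ H' ⊔ C := by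
      rw [Subgroup.map_sup]
      exact sup_le_sup_right (Subgroup.map_comap_le _ _) _
    exact hle ⟨_, hmem, rfl⟩
  have hsup : H' ⊔ C = ⊤ := by
    by_contra hne
    obtain ⟨M', hM', hle⟩ := (eq_top_or_exists_le_coatom _).resolve_left hne
    exact hgM (huniq M' hM' (hXle.trans hle) ▸ le_sup_left.trans hle)
  refine ⟨φ.symm C, IsCompl.of_eq ?_ ?_⟩
  · exact φ.injective (by rw [φ.map_inf, φ.apply_symm_apply, map_bot, ← hH', hinf])
  · exact φ.injective (by rw [φ.map_sup, φ.apply_symm_apply, map_top, ← hH', hsup])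

end Cfsg.Agent.S5903
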