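import Cfsg.Statements.S5910
import Cfsg.Agent.Lib.Derangements.PartitionStab
-- import your own Cfsg.Agent.* helpers here

set_option autoImplicit false
open Cfsg

namespace Cfsg.Agent.S5910

open Equiv CfsgLib.Derangements

/-- The labels of the eight points as the affine space of dimension three over the field with two elements. -/
abbrev V8 : Type := (ZMod 2 × ZMod 2) × ZMod 2

/-- The permutations respecting sums of three points. -/
def affGroup : Subgroup (Perm V8) where
  carrier := {g | ∀ x y z, g (x + y + z) = g x + g y + g z}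
  one_mem' := fun _ _ _ => rfl
  mul_mem' := fun {g h} hg hh x y z => by simp only [Perm.mul_apply, hh x y z, hg (h x) (h y) (h z)]
  inv_mem' := fun {g} hg x y z => g.injective (by rw [hg]; simp)

theorem sigma_affine : ∀ σ : Perm (ZMod 2 × ZMod 2), ∀ x y z, σ (x + y + z) = σ x + σ y + σ z := by
  decide +kernel

theorem shift_affine : ∀ a b c d : ZMod 2, a + b + c + d = 0 →
    let v : ZMod 2 × ZMod 2 → ZMod 2 := fun p => if p.1 = 0 then (if p.2 = 0 then a else b) else (if p.2 = 0 then c else d)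
    ∀ x y z, v (x + y + z) = v x + v y + v z := by
  decide +kernel

theorem bit_perm : ∀ τ : Perm (ZMod 2), ∀ c, τ c = c + τ 0 := by decide +kernel

theorem bit_sign : ∀ τ : Perm (ZMod 2), Perm.sign τ = if τ 0 = 0 then 1 else -1 := by decide +kernel

theorem parity : ∀ a b c d : ZMod 2,
    ((if a = 0 then (1 : ℤˣ) else -1) * (if b = 0 then 1 else -1) * (if c = 0 then 1 else -1) *
      (if d = 0 then 1 else -1)) = 1 → a + b + c + d = 0 := by decide +kernel

theorem swap_sign_sq : ∀ σ : Perm (ZMod 2 × ZMod 2),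
    Perm.sign (Equiv.prodCongr σ (Equiv.refl (ZMod 2)) : Perm V8) = 1 := by decide +kernel

theorem prod_four (u : ZMod 2 × ZMod 2 → ℤˣ) : ∏ i, u i = u (0, 0) * u (0, 1) * u (1, 0) * u (1, 1) := by
  refine ((Fintype.prod_prod_type u).trans (Fin.prod_univ_two _)).trans ?_
  erw [Fin.prod_univ_two, Fin.prod_univ_two]
  exact (mul_assoc _ _ _).symm

theorem mem_affGroup_of_mem (g : Perm V8) (hg : g ∈ partStab (Prod.fst : V8 → _)) (hs : Perm.sign g = 1) :
    g ∈ affGroup := by
  have h1 : ∀ i c, (g (i, c)).1 = (g (i, 0)).1 := fun i c => (hg (i, c) (i, 0)).mp rfl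
  have hinj : Function.Injective fun i => (g (i, 0)).1 := fun i j h => (hg (i, 0) (j, 0)).mpr h
  let σ : Perm (ZMod 2 × ZMod 2) := Equiv.ofBijective _ (Finite.injective_iff_bijective.mp hinj)
  have hτi : ∀ i, Function.Injective fun c => (g (i, c)).2 := fun i c c' h => by
    have : g (i, c) = g (i, c') := Prod.ext (by rw [h1 i c, h1 i c']) h
    simpa using g.injective this
  let τ : ZMod 2 × ZMod 2 → Perm (ZMod 2) := fun i => Equiv.ofBijective _ (Finite.injective_iff_bijective.mp (hτi i))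
  have hg' : g = (Equiv.prodCongr σ (Equiv.refl (ZMod 2))) * Equiv.prodCongrRight τ := by
    ext ⟨i, c⟩ : 1
    exact Prod.ext (h1 i c) rfl
  have hsum : (τ (0, 0)) 0 + τ (0, 1) 0 + τ (1, 0) 0 + τ (1, 1) 0 = 0 := by
    apply parity
    rw [hg', map_mul, swap_sign_sq, one_mul, Perm.sign_prodCongrRight] at hs
    rw [prod_four, bit_sign, bit_sign, bit_sign, bit_sign] at hs
    exact hs
  have hv : ∀ i, τ i 0 = if i.1 = 0 then (if i.2 = 0 then τ (0, 0) 0 else τ (0, 1) 0)
      else (if i.2 = 0 then τ (1, 0) 0 else τ (1, 1) 0) := by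
    rintro ⟨i, j⟩
    fin_cases i <;> fin_cases j <;> rfl
  have hval : ∀ p : V8, g p = (σ p.1, p.2 + τ p.1 0) := by
    intro p
    rw [hg']
    exact Prod.ext rfl (bit_perm (τ p.1) p.2)
  intro x y z
  rw [hval, hval, hval, hval]
  refine Prod.ext (sigma_affine σ x.1 y.1 z.1) ?_
  simp only [Prod.fst_add, Prod.snd_add]
  have hsh := shift_affine _ _ _ _ hsum x.1 y.1 z.1
  simp only at hsh
  rw [hv (x.1 + y.1 + z.1), hsh, ← hv, ← hv, ← hv]
  ring

/-- Exchanging the last two coordinates. -/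
def coordSwap : Perm V8 := swap ((0, 1), 0) ((0, 0), 1) * swap ((1, 1), 0) ((1, 0), 1)

theorem coordSwap_facts : Perm.sign coordSwap = 1 ∧
    (∀ x y z, coordSwap (x + y + z) = coordSwap x + coordSwap y + coordSwap z) ∧
    (coordSwap ((0, 1), 0)).1 ≠ (coordSwap ((0, 1), 1)).1 := by decide +kernel

theorem three_not_aff : ¬ ∀ x y z : V8,
    (swap ((0, 0), 0) ((0, 0), 1) * swap ((0, 0), 0) ((0, 1), 0) : Perm V8) (x + y + z) =
      (swap ((0, 0), 0) ((0, 0), 1) * swap ((0, 0), 0) ((0, 1), 0) : Perm V8) x +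
      (swap ((0, 0), 0) ((0, 0), 1) * swap ((0, 0), 0) ((0, 1), 0) : Perm V8) y +
      (swap ((0, 0), 0) ((0, 0), 1) * swap ((0, 0), 0) ((0, 1), 0) : Perm V8) z := by
  intro h
  have := h ((0, 0), 0) ((0, 1), 0) ((1, 0), 0)
  revert this
  decide +kernel

/-- Let Ω be a set with 8 elements and f : Ω → Fin 4 a labelling whose four fibres all have size 2 (a partition of the 8 points into 4 pairs). Then the group of even permutations preserving this partition, (S₂ ≀ S₄) ∩ A₈, is not a maximal subgroup of the alternating group A₈ (it lies in a subgroup isomorphic to the affine group AGL₃(2)). -/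
theorem result {Ω : Type*} [Fintype Ω] [DecidableEq Ω] (h8 : Fintype.card Ω = 8)
    (f : Ω → Fin 4) (hf : ∀ i : Fin 4, Nat.card {x : Ω // f x = i} = 2) :
    ¬ IsCoatom ((Subgroup.closure {g : Equiv.Perm Ω | ∀ x y : Ω, f x = f y ↔ f (g x) = f (g y)} ⊓ alternatingGroup Ω).subgroupOf (alternatingGroup Ω)) := by
  classical
  rw [CfsgLib.Derangements.closure_eq_partStab]
  obtain ⟨E₀, hE₀⟩ := exists_coords f hf
  let c₁ : Fin 4 ≃ ZMod 2 × ZMod 2 := Fintype.equivOfCardEq (by simp)
  let c₂ : Fin 2 ≃ ZMod 2 := Fintype.equivOfCardEq (by simp)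
  let E : Ω ≃ V8 := E₀.trans (Equiv.prodCongr c₁ c₂)
  have hE : ∀ x, (E x).1 = c₁ (f x) := fun x => by simp [E, hE₀]
  let φ : Perm Ω →* Perm V8 := E.permCongrHom.toMonoidHom
  have hφ : ∀ g p, φ g (E p) = E (g p) := fun g p => by
    simp [φ, Equiv.permCongrHom, Equiv.permCongr_apply]
  have hsign : ∀ g, Perm.sign (φ g) = Perm.sign g := fun g => Perm.sign_permCongr E g
  intro hco
  have hle : (partStab f ⊓ alternatingGroup Ω).subgroupOf (alternatingGroup Ω) ≤
      (affGroup.comap φ).subgroupOf (alternatingGroup Ω) := by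
    intro g hg
    refine mem_affGroup_of_mem _ ?_ ((hsign _).trans g.2)
    intro a b
    obtain ⟨x, rfl⟩ := E.surjective a
    obtain ⟨y, rfl⟩ := E.surjective b
    show _ ↔ (φ g (E x)).1 = (φ g (E y)).1
    rw [hφ, hφ, hE, hE, hE, hE, c₁.injective.eq_iff, c₁.injective.eq_iff]
    exact hg.1 x y
  have hback : ∀ k : Perm V8, Perm.sign k = 1 → ∃ g : alternatingGroup Ω, φ g = k := by
    intro k hk
    obtain ⟨g, rfl⟩ := E.permCongrHom.surjective k
    exact ⟨⟨g, (hsign g).symm.trans hk⟩, rfl⟩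
  rcases hco.le_iff.mp hle with h | h
  · obtain ⟨g, hg⟩ := hback (swap ((0, 0), 0) ((0, 0), 1) * swap ((0, 0), 0) ((0, 1), 0)) (by
      simp [Perm.sign_swap])
    have hmem : φ g ∈ affGroup := (h ▸ Subgroup.mem_top g : g ∈ (affGroup.comap φ).subgroupOf (alternatingGroup Ω))
    rw [hg] at hmem
    exact three_not_aff hmem
  · obtain ⟨g, hg⟩ := hback coordSwap coordSwap_facts.1
    have hmem : g ∈ (affGroup.comap φ).subgroupOf (alternatingGroup Ω) := by
      show φ g ∈ affGroup
      rw [hg]; exact coordSwap_facts.2.1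
    rw [h] at hmem
    apply coordSwap_facts.2.2
    have := hmem.1 (E.symm ((0, 1), 0)) (E.symm ((0, 1), 1))
    have e : ∀ p : V8, c₁ (f (E.symm p)) = p.1 := fun p => by rw [← hE, E.apply_symm_apply]
    have h0 : f (E.symm ((0, 1), 0)) = f (E.symm ((0, 1), 1)) := c₁.injective (by rw [e, e])
    have h1 := congrArg c₁ (this.mp h0)
    rw [← hE, ← hE, ← hφ, ← hφ, show φ ((alternatingGroup Ω).subtype g) = coordSwap from hg, E.apply_symm_apply, E.apply_symm_apply] at h1
    exact h1

end Cfsg.Agent.S5910
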