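import Cfsg.Statements.S5912
import Cfsg.Agent.Lib.Derangements.PermIndex
-- import your own Cfsg.Agent.* helpers here

set_option autoImplicit false
open Cfsg

namespace Cfsg.Agent.S5912

open MulAction

/-- The symmetric group on a 6-element set Ω has exactly two conjugacy classes of subgroups of index 6: there are two non-conjugate subgroups of index 6 (a point stabilizer and a transitive subgroup isomorphic to S₅), and every subgroup of index 6 is conjugate to one of them. -/
theorem result {Ω : Type*} [Fintype Ω] [DecidableEq Ω] (h6 : Fintype.card Ω = 6) :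
    ∃ H₁ H₂ : Subgroup (Equiv.Perm Ω), H₁.index = 6 ∧ H₂.index = 6 ∧
      (¬ ∃ g : Equiv.Perm Ω, Subgroup.map (MulAut.conj g).toMonoidHom H₁ = H₂) ∧
      ∀ H : Subgroup (Equiv.Perm Ω), H.index = 6 →
        ∃ g : Equiv.Perm Ω, Subgroup.map (MulAut.conj g).toMonoidHom H₁ = H ∨ Subgroup.map (MulAut.conj g).toMonoidHom H₂ = H := by
  classical
  obtain ⟨θ, hθ, hne, hall⟩ := CfsgLib.Derangements.index_six_cases h6
  obtain ⟨a⟩ : Nonempty Ω := Fintype.card_pos_iff.mp (by omega)
  have hidx : (stabilizer (Equiv.Perm Ω) a).index = 6 := by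
    rw [index_stabilizer_of_transitive, Nat.card_eq_fintype_card, h6]
  refine ⟨stabilizer (Equiv.Perm Ω) a, (stabilizer (Equiv.Perm Ω) a).comap θ, hidx, ?_, ?_, ?_⟩
  · rw [Subgroup.index_comap_of_surjective _ hθ.2, hidx]
  · rintro ⟨g, hg⟩
    apply hne a (g a)
    rw [← hg]
    have h := MulAction.stabilizer_smul_eq_stabilizer_map_conj (G := Equiv.Perm Ω) g a
    exact h.symm
  · intro H hH
    rcases hall H hH with ⟨x, rfl⟩ | ⟨x, rfl⟩ <;> obtain ⟨g, rfl⟩ := MulAction.exists_smul_eq (Equiv.Perm Ω) a x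
    · exact ⟨g, Or.inl (MulAction.stabilizer_smul_eq_stabilizer_map_conj g a).symm⟩
    · obtain ⟨g', rfl⟩ := hθ.2 g
      refine ⟨g', Or.inr ?_⟩
      rw [MulAction.stabilizer_smul_eq_stabilizer_map_conj]
      ext k
      constructor
      · rintro ⟨l, hl, rfl⟩
        exact ⟨θ l, hl, by simp⟩
      · rintro ⟨l, hl, hlk⟩
        obtain ⟨l', rfl⟩ := hθ.2 l
        refine ⟨l', hl, hθ.1 ?_⟩
        simpa using hlk

end Cfsg.Agent.S5912
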