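import Cfsg.Statements.S5913
-- import your own Cfsg.Agent.* helpers here

set_option autoImplicit false
open Cfsg

namespace Cfsg.Agent.S5913

lemma subproduct {S : Type*} [Group S] [IsSimpleGroup S] (hS : ¬ IsMulCommutative S) (n : ℕ)
    (N : Subgroup (Fin n → S)) [hN : N.Normal] :
    ∃ T : Finset (Fin n), ∀ x : Fin n → S, x ∈ N ↔ ∀ i, i ∉ T → x i = 1 := by
  classical
  refine ⟨Finset.univ.filter fun i => ∃ x ∈ N, x i ≠ 1, fun x => ⟨fun hx i hi => ?_, fun hx => ?_⟩⟩
  · by_contra h
    exact hi (Finset.mem_filter.mpr ⟨Finset.mem_univ _, x, hx, h⟩)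
  have hfull : ∀ i, (∃ y ∈ N, y i ≠ 1) → ∀ s : S, Pi.mulSingle i s ∈ N := by
    rintro i ⟨y, hy, hyi⟩ s
    have hcomm : ∃ t : S, y i * t ≠ t * y i := by
      by_contra hall
      push Not at hall
      apply hS
      rcases IsSimpleGroup.eq_bot_or_eq_top_of_normal (Subgroup.center S) inferInstance with h | h
      · exact absurd (h ▸ Subgroup.mem_center_iff.mpr (fun t => (hall t).symm) : y i ∈ (⊥ : Subgroup S)) (by simpa using hyi)
      · exact ⟨⟨fun a b => (Subgroup.mem_center_iff.mp (h ▸ Subgroup.mem_top a) b).symm⟩⟩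
    obtain ⟨t, ht⟩ := hcomm
    let φ : S →* (Fin n → S) := MonoidHom.mulSingle (fun _ => S) i
    have hmem : φ (y i * t * (y i)⁻¹ * t⁻¹) ∈ N := by
      have he : φ (y i * t * (y i)⁻¹ * t⁻¹) = y * (φ t * y⁻¹ * (φ t)⁻¹) := by
        funext j
        by_cases hj : j = i
        · subst hj; simp [φ, mul_assoc]
        · simp [φ, hj]
      rw [he]
      exact mul_mem hy (hN.conj_mem _ (inv_mem hy) _)
    rcases IsSimpleGroup.eq_bot_or_eq_top_of_normal (N.comap φ) inferInstance with h | h
    · have : y i * t * (y i)⁻¹ * t⁻¹ ∈ N.comap φ := hmem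
      rw [h, Subgroup.mem_bot, mul_inv_eq_one, mul_inv_eq_iff_eq_mul] at this
      exact absurd this ht
    · exact (h ▸ Subgroup.mem_top s : s ∈ N.comap φ)
  rw [← Finset.noncommProd_mulSingle x]
  refine Subgroup.noncommProd_mem _ _ fun i _ => ?_
  by_cases hi : i ∈ Finset.univ.filter fun i => ∃ x ∈ N, x i ≠ 1
  · exact hfull i (Finset.mem_filter.mp hi).2 _
  · simp [hx i hi]

/-- Let S be a non-abelian simple group and n a natural number. Every normal subgroup N of the direct power S^n (functions Fin n → S) is a subproduct: there is a set T of coordinates such that N consists exactly of the elements whose coordinates outside T are trivial. In particular the minimal normal subgroups of S^n are its n factors. -/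
theorem result {S : Type*} [Group S] [IsSimpleGroup S] (hS : ¬ IsMulCommutative S) (n : ℕ)
    (N : Subgroup (Fin n → S)) [N.Normal] :
    ∃ T : Finset (Fin n), ∀ x : Fin n → S, x ∈ N ↔ ∀ i, i ∉ T → x i = 1 := by
  exact subproduct hS n N

end Cfsg.Agent.S5913
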