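import Cfsg.Statements.S5914
-- import your own Cfsg.Agent.* helpers here

set_option autoImplicit false
open Cfsg

namespace Cfsg.Agent.S5914

open Subgroup

lemma extend {G N : Type*} [Group G] [Group N] {n : ℕ} (α : N →* G) (ψ : (Fin n → N) →* G)
    (hcom : ∀ a b, Commute (α a) (ψ b)) (hα : Function.Injective α) (hψ : Function.Injective ψ)
    (hd : Disjoint α.range ψ.range) :
    ∃ χ : (Fin (n + 1) → N) →* G, Function.Injective χ ∧ χ.range = α.range ⊔ ψ.range := by
  let e : (Fin (n + 1) → N) ≃* N × (Fin n → N) :=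
    { toFun := fun x => (x 0, fun i => x i.succ)
      invFun := fun y => Fin.cons y.1 y.2
      left_inv := fun x => Fin.cons_self_tail x
      right_inv := fun y => by simp
      map_mul' := fun x y => rfl }
  let χ := (α.noncommCoprod ψ hcom).comp e.toMonoidHom
  refine ⟨χ, ?_, ?_⟩
  · exact ((α.noncommCoprod_injective ψ hcom).mpr ⟨hα, hψ, hd⟩).comp e.injective
  · rw [MonoidHom.range_comp, MonoidHom.range_eq_top.mpr e.surjective, ← MonoidHom.range_eq_map,
      MonoidHom.noncommCoprod_range]

lemma forward {G : Type*} [Group G] [Finite G] [Nontrivial G]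
    (hG : ∀ H : Subgroup G, H.Characteristic → H = ⊥ ∨ H = ⊤) :
    ∃ (N : Subgroup G) (n : ℕ), IsSimpleGroup N ∧ 1 ≤ n ∧ Nonempty (G ≃* (Fin n → N)) := by
  classical
  obtain ⟨N, hN⟩ := (Set.toFinite {N : Subgroup G | N.Normal ∧ N ≠ ⊥}).exists_minimal ⟨⊤, inferInstance, top_ne_bot⟩
  have hNn : N.Normal := hN.prop.1
  have hmin : ∀ (σ : G ≃* G) (K : Subgroup G), K.Normal → K ≤ N.map σ.toMonoidHom → K = ⊥ ∨ K = N.map σ.toMonoidHom := by
    intro σ K hK hle
    rcases eq_or_ne K ⊥ with h | h
    · exact Or.inl h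
    right
    have h1 : K.comap σ.toMonoidHom ≤ N := by
      intro x hx
      obtain ⟨y, hy, hyx⟩ := hle hx
      exact σ.injective hyx ▸ hy
    have h2 : N ≤ K.comap σ.toMonoidHom := hN.le_of_le ⟨hK.comap _, fun hb => h (by
      rw [← Subgroup.map_comap_eq_self_of_surjective (f := σ.toMonoidHom) σ.surjective K, hb, Subgroup.map_bot])⟩ h1
    exact le_antisymm hle (Subgroup.map_le_iff_le_comap.mpr h2)
  have himn : ∀ σ : G ≃* G, (N.map σ.toMonoidHom).Normal := fun σ => hNn.map _ σ.surjective
  let Q : Subgroup G := ⨆ σ : G ≃* G, N.map σ.toMonoidHom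
  have hQ : Q = ⊤ := by
    refine (hG Q (Subgroup.characteristic_iff_map_le.mpr fun τ => ?_)).resolve_left fun h => hN.prop.2 ?_
    · rw [Subgroup.map_iSup]
      refine iSup_le fun σ => ?_
      rw [Subgroup.map_map]
      exact le_iSup (fun σ : G ≃* G => N.map σ.toMonoidHom) (σ.trans τ)
    · have := le_iSup (fun σ : G ≃* G => N.map σ.toMonoidHom) (MulEquiv.refl G)
      replace this : N.map (MulEquiv.refl G).toMonoidHom ≤ ⨆ σ : G ≃* G, N.map σ.toMonoidHom := this
      rw [show (⨆ σ : G ≃* G, N.map σ.toMonoidHom) = ⊥ from h, le_bot_iff] at this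
      simpa using this
  have hsimple : IsSimpleGroup N := by
    have hnt : Nontrivial N := (Subgroup.nontrivial_iff_ne_bot N).mpr hN.prop.2
    refine ⟨fun K hK => ?_⟩
    have hsup : N ⊔ Subgroup.centralizer (N : Set G) = ⊤ := by
      rw [eq_top_iff, ← hQ]
      refine iSup_le fun σ => ?_
      rcases hmin σ (N ⊓ N.map σ.toMonoidHom) (have := himn σ; inferInstance) inf_le_right with h | h
      · refine le_sup_of_le_right fun a ha b hb => ?_
        exact Subgroup.commute_of_normal_of_disjoint _ _ hNn (himn σ) (disjoint_iff.mpr h) b a hb ha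
      · exact le_sup_of_le_left (h ▸ inf_le_left)
    have hK' : (K.map N.subtype).Normal := by
      refine Subgroup.normalizer_eq_top_iff.mp (eq_top_iff.mpr (hsup ▸ sup_le ?_ ?_))
      · have h := Subgroup.le_normalizer_map (H := K) N.subtype
        rw [Subgroup.normalizer_eq_top_iff.mpr hK, ← MonoidHom.range_eq_map, Subgroup.range_subtype] at h
        exact h
      · exact le_trans (Subgroup.centralizer_le (show ((K.map N.subtype : Subgroup G) : Set G) ⊆ N from
          Subgroup.map_subtype_le K)) (Subgroup.centralizer_le_normalizer _)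
    rcases hmin (MulEquiv.refl G) _ hK' (by simpa using Subgroup.map_subtype_le K) with h | h
    · exact Or.inl ((Subgroup.map_eq_bot_iff_of_injective K N.subtype_injective).mp h)
    · refine Or.inr (Subgroup.map_injective N.subtype_injective ?_)
      rw [h, ← MonoidHom.range_eq_map, Subgroup.range_subtype]
      simp
  let P : ℕ → Prop := fun n => ∃ ψ : (Fin n → N) →* G, Function.Injective ψ ∧ ψ.range.Normal
  have hP0 : P 0 := ⟨1, Function.injective_of_subsingleton _, by rw [MonoidHom.range_one]; infer_instance⟩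
  have hbound : ∀ n, P n → n ≤ Nat.card G := by
    rintro n ⟨ψ, hψ, -⟩
    have h1 := Nat.card_le_card_of_injective ψ hψ
    have h2 : 1 < Nat.card N := by
      have : Nontrivial N := (Subgroup.nontrivial_iff_ne_bot N).mpr hN.prop.2
      exact Finite.one_lt_card
    rw [Nat.card_fun, Nat.card_fin] at h1
    exact (Nat.lt_pow_self h2).le.trans h1
  set n := Nat.findGreatest P (Nat.card G) with hn
  have hPn : P n := Nat.findGreatest_spec (Nat.zero_le _) hP0
  obtain ⟨ψ, hψ, hψn⟩ := hPn
  have htop : ψ.range = ⊤ := by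
    rw [eq_top_iff, ← hQ]
    refine iSup_le fun σ => ?_
    rcases hmin σ (N.map σ.toMonoidHom ⊓ ψ.range) (have := himn σ; inferInstance) inf_le_left with h | h
    · exfalso
      let α : N →* G := σ.toMonoidHom.comp N.subtype
      have hα : α.range = N.map σ.toMonoidHom := by
        rw [MonoidHom.range_comp, Subgroup.range_subtype]
      obtain ⟨χ, hχ, hχr⟩ := extend α ψ (fun a b =>
        Subgroup.commute_of_normal_of_disjoint _ _ (himn σ) hψn (disjoint_iff.mpr h) _ _ (hα ▸ ⟨a, rfl⟩) ⟨b, rfl⟩)
        (σ.injective.comp N.subtype_injective) hψ (hα ▸ disjoint_iff.mpr h)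
      have hP' : P (n + 1) := ⟨χ, hχ, by rw [hχr, hα]; have := himn σ; infer_instance⟩
      have := Nat.le_findGreatest (hbound _ hP') hP'
      omega
    · exact h ▸ inf_le_right
  refine ⟨N, n, hsimple, ?_, ⟨(MulEquiv.ofBijective ψ ⟨hψ, MonoidHom.range_eq_top.mp htop⟩).symm⟩⟩
  by_contra h0
  have hle : Nat.card G ≤ 1 := by
    rw [← Nat.card_congr (Equiv.ofBijective ψ ⟨hψ, MonoidHom.range_eq_top.mp htop⟩), Nat.card_fun, Nat.card_fin,
      show n = 0 by omega, pow_zero]
  exact absurd (Finite.one_lt_card (α := G)) (by omega)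

lemma normal_subproduct {S : Type*} [Group S] [IsSimpleGroup S] {n : ℕ}
    (N : Subgroup (Fin n → S)) [hN : N.Normal] (hchar : N.Characteristic) :
    N = ⊥ ∨ N = ⊤ := by
  classical
  by_cases hb : N = ⊥
  · exact Or.inl hb
  right
  obtain ⟨x, hx, hx1⟩ := (Subgroup.bot_or_exists_ne_one N).resolve_left hb
  obtain ⟨i, hi⟩ : ∃ i, x i ≠ 1 := Function.ne_iff.mp hx1
  suffices h : ∀ j s, Pi.mulSingle j s ∈ N by
    refine eq_top_iff.mpr fun y _ => ?_
    rw [← Finset.noncommProd_mulSingle y]
    exact Subgroup.noncommProd_mem _ _ fun j _ => h j _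
  have hperm : ∀ (σ : Equiv.Perm (Fin n)) (y : Fin n → S), y ∈ N → (fun j => y (σ j)) ∈ N := by
    intro σ y hy
    let φ : (Fin n → S) ≃* (Fin n → S) :=
      { toFun := fun z j => z (σ j)
        invFun := fun z j => z (σ.symm j)
        left_inv := fun z => by simp
        right_inv := fun z => by simp
        map_mul' := fun _ _ => rfl }
    exact Subgroup.characteristic_iff_map_le.mp hchar φ ⟨y, hy, rfl⟩
  have hone : ∀ k, (∃ s, s ≠ 1 ∧ Pi.mulSingle k s ∈ N) → ∀ j s, Pi.mulSingle j s ∈ N := by
    rintro k ⟨s₀, hs₀, hk⟩ j s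
    let φ : S →* (Fin n → S) := MonoidHom.mulSingle (fun _ => S) k
    rcases IsSimpleGroup.eq_bot_or_eq_top_of_normal (N.comap φ) inferInstance with h | h
    · exact absurd (h ▸ hk : s₀ ∈ (⊥ : Subgroup S)) (by simpa using hs₀)
    · have hs : Pi.mulSingle k s ∈ N := (h ▸ Subgroup.mem_top s : s ∈ N.comap φ)
      convert hperm (Equiv.swap j k) _ hs using 1
      funext l
      by_cases hl : l = j
      · subst hl; simp
      · have : Equiv.swap j k l ≠ k := fun he => hl (by
          have := congrArg (Equiv.swap j k) he; simpa using this)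
        simp [hl, this]
  by_cases hsub : ∀ k, k = i
  · refine hone i ⟨x i, hi, ?_⟩
    convert hx
    funext l
    simp [hsub l]
  push Not at hsub
  obtain ⟨k, hk⟩ := hsub
  by_cases hab : ∀ a b : S, a * b = b * a
  · let φ : (Fin n → S) ≃* (Fin n → S) :=
      { toFun := fun z => z * Pi.mulSingle k (z i)
        invFun := fun z => z * (Pi.mulSingle k (z i))⁻¹
        left_inv := fun z => by simp [hk.symm]
        right_inv := fun z => by simp [hk.symm, mul_assoc]
        map_mul' := fun z w => by
          funext l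
          by_cases hl : l = k
          · subst hl; simp [mul_assoc]; rw [← mul_assoc, hab (w l) (z i), mul_assoc]
          · simp [hl] }
    refine hone k ⟨x i, hi, ?_⟩
    have := mul_mem (inv_mem hx) (Subgroup.characteristic_iff_map_le.mp hchar φ ⟨x, hx, rfl⟩)
    simpa [φ] using this
  · obtain ⟨t, ht⟩ : ∃ t, x i * t * (x i)⁻¹ * t⁻¹ ≠ 1 := by
      by_contra hall
      push Not at hall
      apply hab
      have hc : x i ∈ Subgroup.center S := Subgroup.mem_center_iff.mpr fun t => by
        have := hall t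
        rw [mul_inv_eq_one, mul_inv_eq_iff_eq_mul] at this
        exact this.symm
      rcases IsSimpleGroup.eq_bot_or_eq_top_of_normal (Subgroup.center S) inferInstance with h | h
      · exact absurd (h ▸ hc : x i ∈ (⊥ : Subgroup S)) (by simpa using hi)
      · exact fun a b => (Subgroup.mem_center_iff.mp (h ▸ Subgroup.mem_top a) b).symm
    refine hone i ⟨_, ht, ?_⟩
    have he : Pi.mulSingle i (x i * t * (x i)⁻¹ * t⁻¹) = x * (Pi.mulSingle i t * x⁻¹ * (Pi.mulSingle i t)⁻¹) := by
      funext j
      by_cases hj : j = i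
      · subst hj; simp [mul_assoc]
      · simp [hj]
    rw [he]
    exact mul_mem hx (hN.conj_mem _ (inv_mem hx) _)

/-- A non-trivial finite group G is characteristically simple (its only characteristic subgroups are 1 and G) if and only if G is isomorphic to a direct power S^n (n ≥ 1) of some simple group S (possibly cyclic of prime order). -/
theorem result {G : Type*} [Group G] [Finite G] [Nontrivial G] :
    (∀ H : Subgroup G, H.Characteristic → H = ⊥ ∨ H = ⊤) ↔
    ∃ (S : Type) (_ : Group S) (_ : IsSimpleGroup S) (n : ℕ), 1 ≤ n ∧ Nonempty (G ≃* (Fin n → S)) := by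
  constructor
  · intro h
    obtain ⟨N, n, hN, hn, ⟨e⟩⟩ := forward h
    have : IsSimpleGroup (Shrink.{0} N) := (Shrink.mulEquiv.{0} (α := N)).isSimpleGroup
    exact ⟨Shrink.{0} N, inferInstance, this, n, hn,
      ⟨e.trans (MulEquiv.arrowCongr (Equiv.refl _) (Shrink.mulEquiv.{0} (α := N)).symm)⟩⟩
  · rintro ⟨S, hSg, hS, n, hn, ⟨e⟩⟩ H hH
    have hHn : H.Normal := Subgroup.normal_of_characteristic H
    have hc : (H.map e.toMonoidHom).Characteristic := by
      refine Subgroup.characteristic_iff_map_le.mpr fun φ => ?_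
      rintro _ ⟨_, ⟨x, hx, rfl⟩, rfl⟩
      refine ⟨(e.trans (φ.trans e.symm)) x, Subgroup.characteristic_iff_map_le.mp hH _ ⟨x, hx, rfl⟩, ?_⟩
      simp
    have := Subgroup.normal_of_characteristic (H.map e.toMonoidHom)
    rcases normal_subproduct (H.map e.toMonoidHom) hc with h | h
    · exact Or.inl ((Subgroup.map_eq_bot_iff_of_injective H e.injective).mp h)
    · exact Or.inr (Subgroup.map_injective (f := e.toMonoidHom) e.injective
        (by rw [h, Subgroup.map_top_of_surjective _ e.surjective]))

end Cfsg.Agent.S5914
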