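import Cfsg.Statements.S5922
import Cfsg.Agent.Lib.E8Small.Main
-- import your own Cfsg.Agent.* helpers here

set_option autoImplicit false
open Cfsg

namespace Cfsg.Agent.S5922

/-- Let G be the Chevalley group of type E₈ over the field with three elements (generated by its root elements in the 248-dimensional adjoint representation; it is the simple group E₈(3)). Then G has no subgroup isomorphic to PSL₂(243) and no subgroup isomorphic to PSL₂(729). Here F₂₄₃ and F₇₂₉ denote fields with 243 and 729 elements. -/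
theorem result
    {F₂₄₃ F₇₂₉ : Type*} [Field F₂₄₃] [Fintype F₂₄₃] (h243 : Fintype.card F₂₄₃ = 243) [Field F₇₂₉] [Fintype F₇₂₉] (h729 : Fintype.card F₇₂₉ = 729)
    (H : Subgroup ↥(Cfsg.Lie.chevE8.group (ZMod 3))) :
    IsEmpty (↥H ≃* Matrix.ProjectiveSpecialLinearGroup (Fin 2) F₂₄₃) ∧ IsEmpty (↥H ≃* Matrix.ProjectiveSpecialLinearGroup (Fin 2) F₇₂₉) := by
  exact ⟨CfsgLib.E8Small.no_psl_243 h243 H, CfsgLib.E8Small.no_psl_729 h729 H⟩

end Cfsg.Agent.S5922
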