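import Cfsg.Statements.S5939
import Cfsg.Agent.Lib.Derangements.PSL2Grow
import Cfsg.Agent.Lib.SL2.Dickson.Minimal

set_option autoImplicit false
open Cfsg

namespace Cfsg.Agent.S5939

open CfsgLib.Derangements.PSL2

theorem exists_golden {F : Type*} [Field F] [Finite F] {q : ℕ} (hq : Nat.card F = q)
    (h : q % 5 = 1 ∨ q % 5 = 4) : ∃ φ : F, φ * φ = φ + 1 := by
  obtain ⟨c, hc⟩ := CfsgLib.SL2.Dickson.five_root_of_five_dvd (F := F)
    (CfsgLib.SL2.Dickson.five_dvd_card_SL hq (Or.inr h))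
  exact ⟨c, by rw [← pow_two]; exact hc⟩

/-- Let p be a prime and F a finite field of characteristic p such that either F has p elements and p ≡ ±1 (mod 10), or F has p² elements and p ≡ ±3 (mod 10). Then PSL_2(F) has a maximal subgroup isomorphic to the alternating group A_5. -/
theorem result {F : Type*} [Field F] [Fintype F] (p : ℕ) [Fact p.Prime] [CharP F p] (h : (Fintype.card F = p ∧ (p % 10 = 1 ∨ p % 10 = 9)) ∨ (Fintype.card F = p ^ 2 ∧ (p % 10 = 3 ∨ p % 10 = 7))) : ∃ H : Subgroup (Matrix.ProjectiveSpecialLinearGroup (Fin 2) F), IsCoatom H ∧ Nonempty (H ≃* alternatingGroup (Fin 5)) := by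
  classical
  have hpp : p.Prime := Fact.out
  set q := Nat.card F with hq
  have hqF : q = Fintype.card F := Nat.card_eq_fintype_card
  have hodd : Odd p := hpp.odd_of_ne_two (by rintro rfl; omega)
  have hp5 : p % 5 ≠ 0 := by omega
  have hq5 : q % 5 = 1 ∨ q % 5 = 4 := by
    rcases h with ⟨h1, h10⟩ | ⟨h1, h10⟩ <;> rw [hqF, h1]
    · omega
    · rw [Nat.pow_mod]
      rcases (show p % 5 = 2 ∨ p % 5 = 3 by omega) with h | h <;> rw [h] <;> decide
  have hqodd : Odd (Fintype.card F) := by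
    rcases h with ⟨h1, -⟩ | ⟨h1, -⟩ <;> rw [h1]
    exacts [hodd, hodd.pow]
  have h2 : (2 : F) ≠ 0 := CfsgLib.SL2.two_ne_zero_of_odd hqodd
  obtain ⟨φ, hφ⟩ := exists_golden rfl hq5
  obtain ⟨D⟩ := exists_datum (F := F)
  obtain ⟨e⟩ := icoPSL_equiv D h2 hφ
  have hc := card_icoPSL D h2 hφ
  have hG := two_mul_card_PSL (F := F) h2
  rw [← hq] at hG
  have hq9 : 9 ≤ q := by
    rcases h with ⟨h1, h10⟩ | ⟨h1, h10⟩ <;> rw [hqF, h1]
    · have := hpp.two_le; omega
    · have : 3 ≤ p := by have := hpp.two_le; omega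
      nlinarith
  have hbig : 60 < Nat.card (Matrix.ProjectiveSpecialLinearGroup (Fin 2) F) := by
    have : 9 * 80 ≤ q * (q ^ 2 - 1) := Nat.mul_le_mul hq9 (by
      have : 9 * 9 ≤ q ^ 2 := by rw [pow_two]; exact Nat.mul_le_mul hq9 hq9
      omega)
    omega
  refine ⟨icoPSL D h2 hφ, ⟨fun h => ?_, fun L hL => ?_⟩, ⟨e⟩⟩
  · rw [h, Subgroup.card_top] at hc; omega
  · have hdvd := Subgroup.card_dvd_of_le hL.le
    rw [hc] at hdvd
    have hne : Nat.card L ≠ 60 := fun h =>
      hL.ne (Subgroup.eq_of_le_of_card_ge hL.le (by rw [h, hc]))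
    rcases cases_of_four_le D h2 ((four_le_ico D h2 hφ).trans hL.le) with ⟨⟨f⟩⟩ | ⟨⟨f⟩⟩ | ⟨⟨f⟩⟩ | ⟨R, -, hR⟩
    · rw [Nat.card_congr f.toEquiv, show Nat.card (alternatingGroup (Fin 4)) = 12 by
        rw [Nat.card_eq_fintype_card]; rfl] at hdvd
      omega
    · rw [Nat.card_congr f.toEquiv, Nat.card_perm, Nat.card_fin, show Nat.factorial 4 = 24 from rfl] at hdvd
      omega
    · exact absurd (by rw [Nat.card_congr f.toEquiv, Nat.card_eq_fintype_card]; rfl) hne
    · rcases h with ⟨h1, -⟩ | ⟨h1, h10⟩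
      · exact hR.eq_top (subfield_prime hpp (hqF.trans h1) R)
      · obtain ⟨e', he, he0, hRe⟩ := exists_pow_card R hpp (f := 2) (hqF.trans h1)
        rcases (Nat.dvd_prime Nat.prime_two).1 he with rfl | rfl
        · exfalso
          rw [pow_one] at hRe
          have h60 : 60 ∣ p * (p ^ 2 - 1) := hRe ▸ hdvd.trans hR.card_dvd.1
          have h'' : 5 ∣ p ^ 2 - 1 := (Nat.Coprime.dvd_mul_left
            ((Nat.coprime_primes Nat.prime_five hpp).2 (by omega))).1 ((show 5 ∣ 60 by norm_num).trans h60)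
          have hm : p ^ 2 % 5 ≠ 1 := by
            rw [Nat.pow_mod]
            rcases (show p % 5 = 2 ∨ p % 5 = 3 by omega) with h | h <;> rw [h] <;> decide
          omega
        · exact hR.eq_top (hRe.trans (hqF.trans h1).symm)

end Cfsg.Agent.S5939
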