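import Cfsg.Statements.S5940
import Cfsg.Agent.Lib.Derangements.PSL2Grow

set_option autoImplicit false
open Cfsg

namespace Cfsg.Agent.S5940

open CfsgLib.Derangements.PSL2

theorem two_ne (F : Type*) [Field F] [Finite F] (p : ℕ) (hq : Nat.card F = p) (hodd : Odd p) : (2 : F) ≠ 0 := by
  classical
  have : Fintype F := Fintype.ofFinite F
  refine CfsgLib.SL2.two_ne_zero_of_odd ?_
  rw [← Nat.card_eq_fintype_card, hq]; exact hodd

/-- Let p ≥ 5 be a prime with p ≡ ±3 (mod 8) and p ≢ ±1 (mod 10), and F a field with p elements. Then PSL_2(F) has a maximal subgroup isomorphic to the alternating group A_4. -/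
theorem result {F : Type*} [Field F] [Fintype F] (p : ℕ) [Fact p.Prime] (hF : Fintype.card F = p) (h5 : 5 ≤ p) (h8 : p % 8 = 3 ∨ p % 8 = 5) (h10 : p % 10 ≠ 1 ∧ p % 10 ≠ 9) : ∃ H : Subgroup (Matrix.ProjectiveSpecialLinearGroup (Fin 2) F), IsCoatom H ∧ Nonempty (H ≃* alternatingGroup (Fin 4)) := by
  classical
  have hq : Nat.card F = p := by rw [Nat.card_eq_fintype_card, hF]
  have hpp : p.Prime := Fact.out
  have hodd : Odd p := hpp.odd_of_ne_two (by omega)
  have h2 := two_ne F p hq hodd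
  obtain ⟨D⟩ := exists_datum (F := F)
  obtain ⟨e⟩ := fourPSL_equiv D h2
  have hc := card_fourPSL D h2
  have hG := two_mul_card_PSL (F := F) h2
  rw [hq] at hG
  have h25 : 5 * 24 ≤ p * (p ^ 2 - 1) := Nat.mul_le_mul h5 (by
    have : 5 * 5 ≤ p ^ 2 := by rw [pow_two]; exact Nat.mul_le_mul h5 h5
    omega)
  have h16 : p ^ 2 % 16 = 9 := by
    rw [Nat.pow_mod]
    rcases (show p % 16 = 3 ∨ p % 16 = 5 ∨ p % 16 = 11 ∨ p % 16 = 13 by omega) with h | h | h | h <;> rw [h]
  have hno24 : ¬ 24 ∣ Nat.card (Matrix.ProjectiveSpecialLinearGroup (Fin 2) F) := by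
    intro h
    have h' : 16 ∣ p * (p ^ 2 - 1) := hG ▸ (show 16 ∣ 2 * 24 by norm_num).trans (mul_dvd_mul_left 2 h)
    have h'' : 16 ∣ p ^ 2 - 1 := (Nat.Coprime.dvd_mul_left (by
      rw [show (16 : ℕ) = 2 ^ 4 from rfl]
      exact Nat.Coprime.pow_left _ (Nat.coprime_two_left.2 hodd))).1 h'
    omega
  refine ⟨fourPSL D h2, ⟨fun h => ?_, fun L hL => ?_⟩, ⟨e⟩⟩
  · rw [h, Subgroup.card_top] at hc; omega
  · have hdL := Subgroup.card_subgroup_dvd_card L
    have hne : Nat.card L ≠ 12 := fun h =>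
      hL.ne (Subgroup.eq_of_le_of_card_ge hL.le (by rw [h, hc]))
    rcases cases_of_four_le D h2 hL.le with ⟨⟨f⟩⟩ | ⟨⟨f⟩⟩ | ⟨⟨f⟩⟩ | ⟨R, -, hR⟩
    · exact absurd (by rw [Nat.card_congr f.toEquiv, Nat.card_eq_fintype_card]; rfl) hne
    · rw [Nat.card_congr f.toEquiv, Nat.card_perm, Nat.card_fin] at hdL
      exact absurd hdL hno24
    · rw [Nat.card_congr f.toEquiv, show Nat.card (alternatingGroup (Fin 5)) = 60 by
        rw [Nat.card_eq_fintype_card]; rfl] at hdL
      rcases eq_or_ne p 5 with rfl | hp5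
      · refine Subgroup.eq_top_of_card_eq L ?_
        rw [Nat.card_congr f.toEquiv, Nat.card_eq_fintype_card (α := alternatingGroup (Fin 5))]
        show 60 = _
        omega
      · exfalso
        have h' : 5 ∣ p * (p ^ 2 - 1) := hG ▸ (show 5 ∣ 2 * 60 by norm_num).trans (mul_dvd_mul_left 2 hdL)
        have h'' : 5 ∣ p ^ 2 - 1 := (Nat.Coprime.dvd_mul_left
          ((Nat.coprime_primes Nat.prime_five hpp).2 (Ne.symm hp5))).1 h'
        have hm : p ^ 2 % 5 ≠ 1 := by
          rw [Nat.pow_mod]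
          have h50 : p % 5 ≠ 0 := fun h0 =>
            hp5 ((Nat.prime_dvd_prime_iff_eq Nat.prime_five hpp).1 (Nat.dvd_of_mod_eq_zero h0)).symm
          rcases (show p % 5 = 2 ∨ p % 5 = 3 by omega) with h | h <;> rw [h] <;> decide
        omega
    · exact hR.eq_top (subfield_prime hpp hq R)

end Cfsg.Agent.S5940
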