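import Cfsg.Statements.S5946
-- import your own Cfsg.Agent.* helpers here

set_option autoImplicit false
open Cfsg

namespace Cfsg.Agent.S5946

/-- Let F ⊆ K be finite fields with [K : F] = n ≥ 2 and regard K as an n-dimensional F-vector space. The Singer group M ≤ GL_F(K) of multiplications by the non-zero elements of K is self-centralizing: every F-linear automorphism of K commuting with all of M lies in M. -/
theorem result {F K : Type*} [Field F] [Fintype F] [Field K] [Fintype K] [Algebra F K] (n : ℕ) (hn : 2 ≤ n) (hdim : Module.finrank F K = n) :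
    Subgroup.centralizer (((Units.map ((Algebra.lmul F K : K →ₐ[F] Module.End F K) : K →* Module.End F K)).range : Subgroup (Module.End F K)ˣ) : Set (Module.End F K)ˣ) = (Units.map ((Algebra.lmul F K : K →ₐ[F] Module.End F K) : K →* Module.End F K)).range := by
  refine le_antisymm (fun f hf => ?_) ?_
  · have key : ∀ x : Kˣ, (f : Module.End F K) ((x : K) * 1) = (x : K) * (f : Module.End F K) 1 := by
      intro x
      have h := congrArg Units.val (Subgroup.mem_centralizer_iff.mp hf _ ⟨x, rfl⟩)
      have h2 := LinearMap.congr_fun h (1 : K)
      simpa using h2.symm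
    have hne : (f : Module.End F K) 1 ≠ 0 := by
      intro h
      have h2 : ((f⁻¹ : (Module.End F K)ˣ) : Module.End F K) ((f : Module.End F K) 1) = (1 : K) :=
        LinearMap.congr_fun f.inv_mul (1 : K)
      rw [h, map_zero] at h2
      exact zero_ne_one h2
    refine ⟨Units.mk0 _ hne, ?_⟩
    apply Units.ext
    refine LinearMap.ext fun y => ?_
    rcases eq_or_ne y 0 with rfl | hy
    · simp
    · have := key (Units.mk0 y hy)
      simp at this
      simp [this, mul_comm]
  · rintro _ ⟨a, rfl⟩
    rw [Subgroup.mem_centralizer_iff]
    rintro _ ⟨b, rfl⟩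
    rw [← map_mul, ← map_mul, mul_comm]

end Cfsg.Agent.S5946
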