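import Cfsg.Statements.S5947
import Cfsg.Agent.Lib.Derangements.SingerUnique

set_option autoImplicit false
open Cfsg

namespace Cfsg.Agent.S5947

/-- Let F ⊆ K be finite fields with |F| = q and [K : F] = n ≥ 2, regard K as an n-dimensional F-vector space, and let M ≤ GL_F(K) be the Singer group of multiplications by non-zero elements of K (cyclic of order q^n − 1). Assume (n, q) ≠ (6, 2), and that it is not the case that n = 2 with q a prime such that q + 1 is a power of 2. Then every abelian subgroup of GL_F(K) of order q^n − 1 is conjugate to M. -/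
theorem result {F K : Type*} [Field F] [Fintype F] [Field K] [Fintype K] [Algebra F K] (n : ℕ) (hn : 2 ≤ n) (hdim : Module.finrank F K = n)
    (hex1 : ¬ (n = 6 ∧ Fintype.card F = 2))
    (hex2 : ¬ (n = 2 ∧ (Fintype.card F).Prime ∧ ∃ a : ℕ, Fintype.card F + 1 = 2 ^ a))
    (U : Subgroup (Module.End F K)ˣ) (hU : IsMulCommutative U) (hcard : Nat.card U = Fintype.card K - 1) :
    ∃ g : (Module.End F K)ˣ, U.map (MulAut.conj g).toMonoidHom = (Units.map ((Algebra.lmul F K : K →ₐ[F] Module.End F K) : K →* Module.End F K)).range := by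
  classical
  have hq : 1 < Fintype.card F := Fintype.one_lt_card
  obtain ⟨p, hp⟩ := CharP.exists F
  obtain ⟨⟨f, hf⟩, hpp, hcardF⟩ := FiniteField.card F p
  obtain ⟨r, hr⟩ := CfsgLib.Zsigmondy.exists_isPpd hq (show 1 < n by omega) (fun h => hex1 ⟨h.2, h.1⟩)
    (fun ⟨h2, a, ha⟩ => hex2 ⟨h2, by
      have := CfsgLib.Derangements.SingerUnique.prime_of_succ_eq_two_pow hpp hf.ne' (a := a) (by
        simpa [hcardF] using ha)
      simp [hcardF, this, hpp], a, ha⟩)
  have := Fact.mk hr.1
  have hord : orderOf (Nat.card F : ZMod r) = Module.finrank F K := by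
    rw [Nat.card_eq_fintype_card, hdim]
    exact (CfsgLib.Zsigmondy.isPpd_iff_orderOf hq (by omega) hr.1).1 hr
  have hrF : (r : F) ≠ 0 := by
    rw [ne_eq, CharP.cast_eq_zero_iff F p]
    intro h
    have hpr : p = r := (Nat.prime_dvd_prime_iff_eq hpp hr.1).1 h
    subst hpr
    exact CfsgLib.Derangements.SubFix.not_char_dvd hpp (q := p ^ f) rfl hf.ne' (show n ≠ 0 by omega)
      (by simpa [hcardF] using hr.2.1)
  have hK : Fintype.card K = Fintype.card F ^ n := hdim ▸ Module.card_eq_pow_finrank
  have : Finite (Module.End F K) := Module.finite_of_finite F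
  obtain ⟨z, hz⟩ := exists_prime_orderOf_dvd_card' (G := U) r (by rw [hcard, hK]; exact hr.2.1)
  exact CfsgLib.Derangements.SingerUnique.exists_conj_eq_range hrF hord U hU
    (by rw [hcard, Nat.card_eq_fintype_card]) z hz

end Cfsg.Agent.S5947
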